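import Cfsg.Agent.Lib.PAbA
import Cfsg.Agent.Lib.CoprimeAction2
import Cfsg.Agent.Lib.CoprimeGen
import Cfsg.Agent.Lib.CoprimeHyper

/-!
Simple groups all of whose `p'`-subgroups are abelian, II: local analysis (helper9, S1936).
-/

set_option autoImplicit false
set_option maxHeartbeats 400000
set_option linter.unusedSectionVars false

namespace Cfsg.Agent.Lib.PAbA

open Subgroup Cfsg
open scoped commutatorElement

universe u

section TypeLevel

variable {L : Type u} [Group L] [Finite L] {p : ℕ} [hp : Fact p.Prime]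

/-- a `p`-subgroup normalized by a Hall `p'`-subgroup lies in `O_p` -/
theorem le_pCore_of_hall {B X : Subgroup L} {k : ℕ} (hB : B.index ∣ p ^ k) (hX : IsPGroup p X)
    (hBX : B ≤ normalizer (X : Set L)) : X ≤ pCore p L := by
  obtain ⟨Q, hQ⟩ := hX.exists_le_sylow
  have hc : ((Q : Subgroup L).relIndex ⊤).Coprime (B.relIndex ⊤) := by
    rw [relIndex_top_right, relIndex_top_right]
    exact Nat.Coprime.coprime_dvd_right hB (Nat.Coprime.pow_right k (coprime_iff.2 Q.not_dvd_index))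
  have hcl : normalClosure (X : Set L) ≤ Q := by
    change closure (Group.conjugatesOfSet (X : Set L)) ≤ Q
    rw [closure_le]
    rintro y hy
    rw [Group.mem_conjugatesOfSet_iff] at hy
    obtain ⟨x, hx, hxy⟩ := hy
    obtain ⟨l, rfl⟩ := isConj_iff.1 hxy
    obtain ⟨q, hq, b, hb, rfl⟩ := CoprimeAction2.exists_mul_of_coprime_relIndex (le_top : B ≤ ⊤)
      (le_top : (Q : Subgroup L) ≤ ⊤) hc (mem_top l)
    have h1 : q * b * x * (q * b)⁻¹ = q * (b * x * b⁻¹) * q⁻¹ := by group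
    rw [h1]
    exact mul_mem (mul_mem hq (hQ ((mem_normalizer_iff.1 (hBX hb) x).1 hx))) (inv_mem hq)
  exact subset_normalClosure.trans (Cores.le_pCore normalClosure_normal (Q.2.to_le hcl))

/-- `L = O_p(L) N_L(S)` -/
theorem factor [hs : Group.IsSolvable L] (hp2 : p ≠ 2)
    (hab : ∀ H : Subgroup L, (Nat.card H).Coprime p → ∀ a ∈ H, ∀ b ∈ H, a * b = b * a)
    (hpl : ∀ Q : Sylow p L, (Q : Subgroup L) ≤ pPrimePCore p L) (S : Sylow 2 L) :
    pCore p L ⊔ normalizer ((S : Subgroup L) : Set L) = ⊤ := by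
  classical
  set A := pPrimeCore p L with hA
  set K := pPrimePCore p L with hK
  have hKn : K.Normal := PLengthOne.normal_pPrimePCore p _
  set C := centralizer (A : Set L) with hC
  have hAn : A.Normal := by rw [hA]; infer_instance
  have hCn : C.Normal := by rw [hC]; infer_instance
  have hAp : ¬ p ∣ Nat.card A := coprime_iff.1 (Cores.coprime_card_pPrimeCore p _)
  have hSp : ¬ p ∣ Nat.card (S : Subgroup L) := by
    intro h
    obtain ⟨n, hn⟩ := IsPGroup.iff_card.1 S.2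
    rw [hn] at h
    exact hp2 ((Nat.prime_dvd_prime_iff_eq hp.out Nat.prime_two).1 (hp.out.dvd_of_dvd_pow h))
  obtain ⟨B, hSB, hB, k, hk⟩ := PSolvTools.exists_le_hall hp.out (PLength.isPSolvable_of_isSolvable (p := p)) (S : Subgroup L) hSp
  have hAB : A ≤ B := le_of_hall hB hAp (dvd_of_eq hk)
  have hBc := hab B (coprime_iff.2 hB)
  have hBC : B ≤ C := by
    intro b hb
    rw [hC, mem_centralizer_iff]
    intro a ha
    exact hBc a (hAB ha) b hb
  obtain ⟨Q⟩ : Nonempty (Sylow p L) := inferInstance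
  have hQK := hpl Q
  have hQK' : RelSylow.IsSyl p (Q : Subgroup L) K := ((RelSylow.isSyl_top_iff Q).of_le hQK le_top)
  have hmapQ := PConstraint.map_sylow_eq hQK'
  set T := (Q : Subgroup L) ⊓ C with hT
  -- elements of `K ∩ C`
  have hDel : ∀ d ∈ K ⊓ C, ∃ a ∈ A, ∃ t ∈ T, a * t = d := by
    rintro d ⟨hdK, hdC⟩
    have h2 : QuotientGroup.mk' A d ∈ (Q : Subgroup L).map (QuotientGroup.mk' A) := by
      rw [hmapQ]; exact hdK
    obtain ⟨r, hr, hrd⟩ := h2
    have h3 : d * r⁻¹ ∈ A := by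
      rw [← QuotientGroup.ker_mk' A, MonoidHom.mem_ker, map_mul, map_inv, hrd, mul_inv_cancel]
    refine ⟨d * r⁻¹, h3, r, mem_inf.2 ⟨hr, ?_⟩, by group⟩
    have h4 : r = (d * r⁻¹)⁻¹ * d := by group
    rw [h4]
    exact mul_mem (inv_mem (hBC (hAB h3))) hdC
  have hTn : T.Normal := by
    refine ⟨fun t ht g => ?_⟩
    have h1 : g * t * g⁻¹ ∈ K ⊓ C := mem_inf.2 ⟨hKn.conj_mem t (hQK ht.1) g, hCn.conj_mem t ht.2 g⟩
    obtain ⟨a, ha, t', ht', hat⟩ := hDel _ h1
    have hcomm : Commute a t' := mem_centralizer_iff.1 ht'.2 a ha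
    obtain ⟨m, hm⟩ := Q.2 ⟨t, ht.1⟩
    obtain ⟨m', hm'⟩ := Q.2 ⟨t', ht'.1⟩
    have hm1 : t ^ p ^ m = 1 := by simpa using congrArg Subtype.val hm
    have hm1' : t' ^ p ^ m' = 1 := by simpa using congrArg Subtype.val hm'
    have h2 : (a * t') ^ p ^ (m + m') = 1 := by
      rw [hat, conj_pow, pow_add, pow_mul, hm1, one_pow]; simp
    have h3 : t' ^ p ^ (m + m') = 1 := by
      rw [pow_add, mul_comm, pow_mul, hm1', one_pow]
    rw [hcomm.mul_pow, h3, mul_one] at h2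
    have h4 : a = 1 := by
      have h5 : orderOf a ∣ p ^ (m + m') := orderOf_dvd_of_pow_eq_one h2
      have h6 : orderOf a ∣ Nat.card A := by
        have := orderOf_dvd_natCard (⟨a, ha⟩ : A)
        rwa [Subgroup.orderOf_mk] at this
      rw [← orderOf_eq_one_iff]
      exact Nat.dvd_one.1 ((Nat.Coprime.pow_right (m + m') (coprime_iff.2 hAp)).gcd_eq_one ▸ Nat.dvd_gcd h6 h5)
    rw [h4, one_mul] at hat
    rw [← hat]; exact ht'
  have hTO : T ≤ pCore p L := Cores.le_pCore hTn (Q.2.to_le inf_le_left)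
  have hC1 : C ≤ (K ⊓ C) ⊔ B := by
    have hle : (K ⊓ C) ⊔ B ≤ C := sup_le inf_le_right hBC
    have h1 : ((K ⊓ C) ⊔ B).relIndex C ∣ B.relIndex C := relIndex_dvd_of_le_left _ le_sup_right
    have h2 : ((K ⊓ C) ⊔ B).relIndex C ∣ (K ⊓ C).relIndex C := relIndex_dvd_of_le_left _ le_sup_left
    have h3 : B.relIndex C ∣ p ^ k := by
      rw [← hk]; exact Dvd.intro _ (relIndex_mul_index hBC)
    have h4 : (K ⊓ C).relIndex C ∣ K.index := by
      rw [inf_relIndex_right]; exact relIndex_dvd_index_of_normal _ _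
    have h5 : ¬ p ∣ K.index := fun h => Q.not_dvd_index (h.trans (index_dvd_of_le hQK))
    have h6 : (p ^ k).Coprime K.index := Nat.Coprime.pow_left k ((coprime_iff.2 h5).symm)
    rw [← relIndex_eq_one]
    exact Nat.dvd_one.1 (h6.gcd_eq_one ▸ Nat.dvd_gcd (h1.trans h3) (h2.trans h4))
  have hBS : B ≤ normalizer ((S : Subgroup L) : Set L) := by
    intro b hb
    apply H32Cores.mem_normalizer_of_conj_le
    intro s hs
    rw [hBc b hb s (hSB hs), mul_inv_cancel_right]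
    exact hs
  have hSC : RelSylow.IsSyl 2 (S : Subgroup L) C := (RelSylow.isSyl_top_iff S).of_le (hSB.trans hBC) le_top
  rw [eq_top_iff]
  intro l _
  obtain ⟨c, hc, x, hx, rfl⟩ := hSC.frattini (H := ⊤) (by rw [normalizer_eq_top]) (mem_top l)
  refine mul_mem ?_ (le_sup_right (a := pCore p L) hx)
  have h1 : (K ⊓ C) ⊔ B ≤ pCore p L ⊔ normalizer ((S : Subgroup L) : Set L) := by
    apply sup_le
    · intro d hd
      obtain ⟨a, ha, t, ht, rfl⟩ := hDel d hd
      exact mul_mem (le_sup_right (a := pCore p L) (hBS (hAB ha))) (mem_sup_left (hTO ht))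
    · exact hBS.trans le_sup_right
  exact h1 (hC1 hc)

end TypeLevel


section Ambient

theorem isPGroup_zpowers_of_pow {G : Type u} [Group G] {p n : ℕ} {x : G} (h : x ^ p ^ n = 1) :
    IsPGroup p (zpowers x) := by
  rintro ⟨y, hy⟩
  obtain ⟨k, rfl⟩ := mem_zpowers_iff.1 hy
  refine ⟨n, Subtype.ext ?_⟩
  change (x ^ k) ^ p ^ n = 1
  rw [← zpow_natCast, ← zpow_mul, mul_comm, zpow_mul, zpow_natCast, h, one_zpow]

variable {G : Type u} [Group G] [Finite G] {p : ℕ} [hp : Fact p.Prime]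

theorem Cx.comm_sub (cx : Cx p G) (L : Subgroup G) :
    ∀ H : Subgroup L, (Nat.card H).Coprime p → ∀ a ∈ H, ∀ b ∈ H, a * b = b * a := by
  intro H hH a ha b hb
  exact Subtype.ext (cx.comm (H.map L.subtype) (by rwa [Cores.card_map_subtype]) a ⟨a, ha, rfl⟩ b ⟨b, hb, rfl⟩)

/-- commutators with `p`-elements which are `p'`-elements lie in `O_{p'}` -/
theorem Cx.comm_mem (cx : Cx p G) {L : Subgroup G} (hL : L ≠ ⊤) {x s : G} (hx : x ∈ L) {n : ℕ}
    (hxn : x ^ p ^ n = 1) (hs : s ∈ L) (ho : (orderOf ⁅s, x⁆).Coprime p) :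
    ⁅s, x⁆ ∈ (pPrimeCore p L).map L.subtype := by
  have hxp : IsPGroup p (zpowers (⟨x, hx⟩ : L)) := by
    apply isPGroup_zpowers_of_pow (n := n)
    exact Subtype.ext (by simpa using hxn)
  obtain ⟨Q, hQ⟩ := hxp.exists_le_sylow
  have h1 : (⟨x, hx⟩ : L) ∈ pPrimePCore p L := cx.plen hL Q (hQ (mem_zpowers _))
  have hn := PLengthOne.normal_pPrimePCore p L
  have h2 : ⁅(⟨s, hs⟩ : L), ⟨x, hx⟩⁆ ∈ pPrimePCore p L := by
    rw [commutatorElement_def]
    exact mul_mem (hn.conj_mem _ h1 _) (inv_mem h1)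
  refine ⟨⁅(⟨s, hs⟩ : L), ⟨x, hx⟩⁆, NarrowLen.mem_pPrimeCore_of_coprime h2 ?_, rfl⟩
  rw [← Subgroup.orderOf_coe]; exact ho

theorem Cx.factor (cx : Cx p G) {L : Subgroup G} (hL : L ≠ ⊤) (S : Sylow 2 G) (hS : (S : Subgroup G) ≤ L) :
    L ≤ pCoreOf p L ⊔ normalizer ((S : Subgroup G) : Set G) := by
  have hs := cx.sol L hL
  have h := PAbA.factor cx.p_odd (cx.comm_sub L) (fun Q => cx.plen hL Q) (S.subtype hS)
  intro l hl
  have h1 : (⟨l, hl⟩ : L) ∈ pCore p L ⊔ normalizer (((S.subtype hS : Sylow 2 L) : Subgroup L) : Set L) := by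
    rw [h]; exact mem_top _
  obtain ⟨a, ha, b, hb, hab⟩ := mem_sup_of_normal_left.1 h1
  have h2 : l = (a : G) * (b : G) := (congrArg Subtype.val hab).symm
  rw [h2]
  refine mul_mem (mem_sup_left ⟨a, ha, rfl⟩) (mem_sup_right ?_)
  rw [mem_normalizer_iff] at hb ⊢
  have hb1 : ∀ s ∈ (S : Subgroup G), (b : G) * s * (b : G)⁻¹ ∈ (S : Subgroup G) := by
    intro s hs
    exact (hb ⟨s, hS hs⟩).1 hs
  exact mem_normalizer_iff.1 (H32Cores.mem_normalizer_of_conj_le hb1)

/-- `B` is a maximal `p'`-subgroup -/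
structure MaxPrime (p : ℕ) (B : Subgroup G) : Prop where
  ndvd : ¬ p ∣ Nat.card B
  max : ∀ B' : Subgroup G, B ≤ B' → ¬ p ∣ Nat.card B' → B' = B

theorem exists_maxPrime {H : Subgroup G} (hH : ¬ p ∣ Nat.card H) : ∃ B, H ≤ B ∧ MaxPrime p B := by
  have hfin : ({D : Subgroup G | H ≤ D ∧ ¬ p ∣ Nat.card D}).Nonempty := ⟨H, le_rfl, hH⟩
  obtain ⟨B, hB⟩ := Set.Finite.exists_maximal (Set.toFinite _) hfin
  refine ⟨B, hB.prop.1, hB.prop.2, ?_⟩
  intro B' h1 h2
  exact le_antisymm (hB.2 ⟨hB.prop.1.trans h1, h2⟩ h1) h1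

theorem Cx.hall (cx : Cx p G) {B : Subgroup G} (hB : MaxPrime p B) {L : Subgroup G} (hL : L ≠ ⊤) (hBL : B ≤ L) :
    ∃ k, B.relIndex L = p ^ k := by
  have hs := cx.sol L hL
  have h1 : Nat.card (B.subgroupOf L) = Nat.card B := Nat.card_congr (subgroupOfEquivOfLe hBL).toEquiv
  obtain ⟨Q, hBQ, hQ, k, hk⟩ := PSolvTools.exists_le_hall hp.out (PLength.isPSolvable_of_isSolvable (p := p))
    (B.subgroupOf L) (by rw [h1]; exact hB.ndvd)
  have h2 : Q.map L.subtype = B := by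
    apply hB.max
    · rw [← map_subgroupOf_eq_of_le hBL]
      exact Subgroup.map_mono hBQ
    · rwa [Cores.card_map_subtype]
  refine ⟨k, ?_⟩
  rw [← hk, ← h2]
  rw [relIndex, subgroupOf, comap_map_eq_self_of_injective L.subtype_injective]

theorem Cx.le_pCoreOf (cx : Cx p G) {B : Subgroup G} (hB : MaxPrime p B) {L X : Subgroup G} (hL : L ≠ ⊤)
    (hBL : B ≤ L) (hXL : X ≤ L) (hX : IsPGroup p X) (hBX : B ≤ normalizer (X : Set G)) : X ≤ pCoreOf p L := by
  obtain ⟨k, hk⟩ := cx.hall hB hL hBL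
  have h1 : X.subgroupOf L ≤ pCore p L := by
    apply le_pCore_of_hall (B := B.subgroupOf L) (k := k)
    · rw [← relIndex, hk]
    · exact hX.comap_of_injective _ L.subtype_injective
    · intro b hb
      rw [mem_normalizer_iff]
      intro y
      exact mem_normalizer_iff.1 (hBX hb) y
  rw [← map_subgroupOf_eq_of_le hXL]
  exact Subgroup.map_mono h1

theorem exists_hyper {E X : Subgroup G} (hp2 : p ≠ 2) (hE : IsElementaryAbelian 2 E) (hX : IsPGroup p X) (hX1 : X ≠ ⊥)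
    (hEX : E ≤ normalizer (X : Set G)) :
    ∃ B ≤ E, B.relIndex E ≤ 2 ∧ X ⊓ centralizer (B : Set G) ≠ ⊥ := by
  by_contra hcon
  push Not at hcon
  apply hX1
  rw [eq_bot_iff]
  apply CoprimeHyper.le_of_hyper hE ?_ hEX
  · intro B hB hidx
    rw [hcon B hB hidx]
  · intro h
    obtain ⟨n, hn⟩ := IsPGroup.iff_card.1 hX
    rw [hn] at h
    exact hp2 ((Nat.prime_dvd_prime_iff_eq Nat.prime_two hp.out).1 (Nat.prime_two.dvd_of_dvd_pow h)).symm

theorem exists_common {E X Y : Subgroup G} (hp2 : p ≠ 2) (hE : IsElementaryAbelian 2 E) (hE4 : 4 < Nat.card E)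
    (hX : IsPGroup p X) (hX1 : X ≠ ⊥) (hEX : E ≤ normalizer (X : Set G))
    (hY : IsPGroup p Y) (hY1 : Y ≠ ⊥) (hEY : E ≤ normalizer (Y : Set G)) :
    ∃ v ∈ E, v ≠ 1 ∧ X ⊓ centralizer ({v} : Set G) ≠ ⊥ ∧ Y ⊓ centralizer ({v} : Set G) ≠ ⊥ := by
  obtain ⟨B, hB, hBi, hXB⟩ := exists_hyper hp2 hE hX hX1 hEX
  obtain ⟨C, hC, hCi, hYC⟩ := exists_hyper hp2 hE hY hY1 hEY
  have h1 : (B ⊓ C).relIndex E ≤ 4 := by
    refine relIndex_inf_le.trans ?_
    calc B.relIndex E * C.relIndex E ≤ 2 * 2 := Nat.mul_le_mul hBi hCi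
      _ = 4 := rfl
  have h2 := SubgroupTools.card_mul_relIndex_of_le (inf_le_left.trans hB : B ⊓ C ≤ E)
  have h3 : B ⊓ C ≠ ⊥ := by
    intro h
    rw [h, card_bot, one_mul] at h2
    rw [h] at h1
    omega
  obtain ⟨⟨v, hv⟩, hv1⟩ := (Subgroup.ne_bot_iff_exists_ne_one (H := B ⊓ C)).1 h3
  refine ⟨v, hB hv.1, fun h => hv1 (Subtype.ext h), ?_, ?_⟩
  · intro h
    apply hXB
    rw [eq_bot_iff, ← h]
    exact inf_le_inf_left _ (centralizer_le (by simpa using hv.1))
  · intro h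
    apply hYC
    rw [eq_bot_iff, ← h]
    exact inf_le_inf_left _ (centralizer_le (by simpa using hv.2))

end Ambient


section WW

variable {G : Type u} [Group G] [Finite G] {p : ℕ} [hp : Fact p.Prime]

/-- `p`-subgroups normalized by `B` -/
structure BInv (p : ℕ) (B X : Subgroup G) : Prop where
  pg : IsPGroup p X
  inv : B ≤ normalizer (X : Set G)

theorem BInv.exists_maximal {B X : Subgroup G} (hX : BInv p B X) :
    ∃ Z, X ≤ Z ∧ BInv p B Z ∧ ∀ Z', BInv p B Z' → Z ≤ Z' → Z' = Z := by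
  have hfin : ({D : Subgroup G | X ≤ D ∧ BInv p B D}).Nonempty := ⟨X, le_rfl, hX⟩
  obtain ⟨Z, hZ⟩ := Set.Finite.exists_maximal (Set.toFinite _) hfin
  refine ⟨Z, hZ.prop.1, hZ.prop.2, ?_⟩
  intro Z' h1 h2
  exact le_antisymm (hZ.2 ⟨hZ.prop.1.trans h2, h1⟩ h2) h2

theorem Cx.directed (cx : Cx p G) {B E : Subgroup G} (hB : MaxPrime p B) (hE : IsElementaryAbelian 2 E)
    (hEB : E ≤ B) (hE4 : 4 < Nat.card E) (n : ℕ) : ∀ X Y : Subgroup G, BInv p B X → BInv p B Y →
    Nat.card G - Nat.card (X ⊓ Y : Subgroup G) = n → ∃ Z, BInv p B Z ∧ X ≤ Z ∧ Y ≤ Z := by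
  induction n using Nat.strong_induction_on with
  | _ n ih =>
  intro X Y hX hY hn
  obtain ⟨X1, hXX, hX1, hXm⟩ := hX.exists_maximal
  obtain ⟨Y1, hYY, hY1, hYm⟩ := hY.exists_maximal
  by_cases heq : X1 = Y1
  · exact ⟨X1, hX1, hXX, heq ▸ hYY⟩
  exfalso
  have hlt : ∀ H : Subgroup G, Nat.card H ≤ Nat.card G := fun H => Subgroup.card_le_card_group H
  have kX : ∀ Z, BInv p B Z → Nat.card (X ⊓ Y : Subgroup G) < Nat.card (X1 ⊓ Z : Subgroup G) → Z ≤ X1 := by
    intro Z hZ hc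
    have := hlt (X1 ⊓ Z)
    obtain ⟨Z', h1, h2, h3⟩ := ih _ (by omega) X1 Z hX1 hZ rfl
    rw [← hXm Z' h1 h2]; exact h3
  have kY : ∀ Z, BInv p B Z → Nat.card (X ⊓ Y : Subgroup G) < Nat.card (Y1 ⊓ Z : Subgroup G) → Z ≤ Y1 := by
    intro Z hZ hc
    have := hlt (Y1 ⊓ Z)
    obtain ⟨Z', h1, h2, h3⟩ := ih _ (by omega) Y1 Z hY1 hZ rfl
    rw [← hYm Z' h1 h2]; exact h3
  set D := X1 ⊓ Y1 with hD
  have hcD : Nat.card (X ⊓ Y : Subgroup G) = Nat.card D := by
    apply le_antisymm (Subgroup.card_le_of_le (inf_le_inf hXX hYY))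
    by_contra hcon
    rw [not_le] at hcon
    have h1 := kX Y1 hY1 hcon
    exact heq (hYm X1 hX1 h1)
  have hDX : D < X1 := by
    refine lt_of_le_of_ne inf_le_left fun h => heq ?_
    have : X1 ≤ Y1 := by rw [← h]; exact inf_le_right
    exact (hXm Y1 hY1 this).symm
  have hDY : D < Y1 := by
    refine lt_of_le_of_ne inf_le_right fun h => heq ?_
    have : Y1 ≤ X1 := by rw [← h]; exact inf_le_left
    exact hYm X1 hX1 this
  have key : ∀ L : Subgroup G, L ≠ ⊤ → B ≤ L → D < X1 ⊓ L → D < Y1 ⊓ L → B ≤ normalizer ((X1 ⊓ L : Subgroup G) : Set G) →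
      B ≤ normalizer ((Y1 ⊓ L : Subgroup G) : Set G) → False := by
    intro L hL hBL h1 h2 h3 h4
    have hO : BInv p B (pCoreOf p L) := ⟨LocBase.isPGroup_pCoreOf p L, hBL.trans (LocBase.le_normalizer_pCoreOf p L)⟩
    have h5 : X1 ⊓ L ≤ pCoreOf p L := cx.le_pCoreOf hB hL hBL inf_le_right (hX1.pg.to_le inf_le_left) h3
    have h6 : Y1 ⊓ L ≤ pCoreOf p L := cx.le_pCoreOf hB hL hBL inf_le_right (hY1.pg.to_le inf_le_left) h4
    have hcard : ∀ {H K : Subgroup G}, H < K → Nat.card H < Nat.card K := by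
      intro H K h
      refine lt_of_le_of_ne (Subgroup.card_le_of_le h.le) fun hc => h.ne ?_
      exact Subgroup.eq_of_le_of_card_ge h.le hc.ge
    have h7 : pCoreOf p L ≤ X1 := kX _ hO (by
      rw [hcD]
      exact lt_of_lt_of_le (hcard h1) (Subgroup.card_le_of_le (le_inf inf_le_left h5)))
    have h8 : pCoreOf p L ≤ Y1 := kY _ hO (by
      rw [hcD]
      exact lt_of_lt_of_le (hcard h2) (Subgroup.card_le_of_le (le_inf inf_le_left h6)))
    exact absurd (h5.trans (le_inf h7 h8)) (not_le_of_gt h1)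
  by_cases hD1 : D = ⊥
  · have hX1b : X1 ≠ ⊥ := fun h => by rw [h] at hDX; exact not_lt_bot hDX
    have hY1b : Y1 ≠ ⊥ := fun h => by rw [h] at hDY; exact not_lt_bot hDY
    obtain ⟨v, hvE, hv1, hv2, hv3⟩ := exists_common cx.p_odd hE hE4 hX1.pg hX1b (hEB.trans hX1.inv) hY1.pg hY1b
      (hEB.trans hY1.inv)
    have hBv : B ≤ centralizer ({v} : Set G) := by
      intro b hb
      rw [mem_centralizer_singleton_iff]
      exact cx.comm B (coprime_iff.2 hB.ndvd) b hb v (hEB hvE)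
    have hBn : B ≤ normalizer ((centralizer ({v} : Set G) : Subgroup G) : Set G) := hBv.trans le_normalizer
    refine key (centralizer ({v} : Set G)) (cx.centralizer_ne_top hv1) hBv ?_ ?_ ?_ ?_
    · rw [hD1]; exact bot_lt_iff_ne_bot.2 hv2
    · rw [hD1]; exact bot_lt_iff_ne_bot.2 hv3
    · exact (le_inf hX1.inv hBn).trans inf_normalizer_le_normalizer_inf
    · exact (le_inf hY1.inv hBn).trans inf_normalizer_le_normalizer_inf
  · have hDp : IsPGroup p D := hX1.pg.to_le inf_le_left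
    have hBD : B ≤ normalizer (D : Set G) := (le_inf hX1.inv hY1.inv).trans inf_normalizer_le_normalizer_inf
    have hBn : B ≤ normalizer ((normalizer (D : Set G) : Subgroup G) : Set G) := hBD.trans le_normalizer
    refine key (normalizer (D : Set G)) (cx.normalizer_ne_top hD1 (cx.ne_top_of_isPGroup hDp)) hBD ?_ ?_ ?_ ?_
    · exact ConjSylow.lt_inf_normalizer hX1.pg hDX
    · exact ConjSylow.lt_inf_normalizer hY1.pg hDY
    · exact (le_inf hX1.inv hBn).trans inf_normalizer_le_normalizer_inf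
    · exact (le_inf hY1.inv hBn).trans inf_normalizer_le_normalizer_inf

theorem Cx.exists_greatest (cx : Cx p G) {B E : Subgroup G} (hB : MaxPrime p B) (hE : IsElementaryAbelian 2 E)
    (hEB : E ≤ B) (hE4 : 4 < Nat.card E) : ∃ W, BInv p B W ∧ ∀ X, BInv p B X → X ≤ W := by
  have hbot : BInv p B (⊥ : Subgroup G) := ⟨IsPGroup.of_bot, by rw [normalizer_eq_top]; exact le_top⟩
  obtain ⟨W, -, hW, hWm⟩ := hbot.exists_maximal
  refine ⟨W, hW, fun X hX => ?_⟩
  obtain ⟨Z, hZ, h1, h2⟩ := cx.directed hB hE hEB hE4 _ X W hX hW rfl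
  rw [← hWm Z hZ h2]; exact h1

end WW


section MM

variable {G : Type u} [Group G] [Finite G] {p : ℕ} [hp : Fact p.Prime]

theorem map_centralizer_singleton (g a : G) :
    (centralizer ({a} : Set G)).map (MulAut.conj g).toMonoidHom = centralizer ({g * a * g⁻¹} : Set G) := by
  ext x
  rw [ConjSylow.mem_conj, mem_centralizer_singleton_iff, mem_centralizer_singleton_iff]
  constructor
  · intro h
    calc x * (g * a * g⁻¹) = g * ((g⁻¹ * x * g) * a) * g⁻¹ := by group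
      _ = g * (a * (g⁻¹ * x * g)) * g⁻¹ := by rw [h]
      _ = g * a * g⁻¹ * x := by group
  · intro h
    calc g⁻¹ * x * g * a = g⁻¹ * (x * (g * a * g⁻¹)) * g := by group
      _ = g⁻¹ * (g * a * g⁻¹ * x) * g := by rw [h]
      _ = a * (g⁻¹ * x * g) := by group

theorem not_isCyclic_of {E : Subgroup G} (hE : IsElementaryAbelian 2 E) (hE4 : 4 < Nat.card E) : ¬ IsCyclic E := by
  intro h
  obtain ⟨e, he⟩ := h.exists_generator
  have h1 : Nat.card E = orderOf e := (orderOf_eq_card_of_forall_mem_zpowers he).symm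
  have h2 : orderOf e ∣ 2 := orderOf_dvd_of_pow_eq_one (Subtype.ext (by simpa using hE.2 e e.2))
  have h3 := Nat.le_of_dvd (by norm_num) h2
  omega

theorem two_coprime_pgroup (hp2 : p ≠ 2) {E W : Subgroup G} (hE : IsPGroup 2 E) (hW : IsPGroup p W) :
    (Nat.card E).Coprime (Nat.card W) := by
  obtain ⟨a, ha⟩ := IsPGroup.iff_card.1 hE
  obtain ⟨b, hb⟩ := IsPGroup.iff_card.1 hW
  rw [ha, hb]
  exact Nat.Coprime.pow _ _ ((Nat.coprime_primes Nat.prime_two hp.out).2 hp2.symm)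

theorem Cx.exists_M (cx : Cx p G) (S : Sylow 2 G) {B : Subgroup G} (hB : MaxPrime p B)
    (hSB : (S : Subgroup G) ≤ B) {E : Subgroup G} (hE : IsElementaryAbelian 2 E) (hES : E ≤ S)
    (hSE : normalizer ((S : Subgroup G) : Set G) ≤ normalizer (E : Set G)) (hE4 : 4 < Nat.card E) :
    ∃ M : Subgroup G, M ≠ ⊤ ∧ normalizer ((S : Subgroup G) : Set G) ≤ M ∧
      ∀ v ∈ E, v ≠ 1 → centralizer ({v} : Set G) ≤ M := by
  obtain ⟨W, hW, hWg⟩ := cx.exists_greatest hB hE (hES.trans hSB) hE4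
  have hcomm := cx.comm B (coprime_iff.2 hB.ndvd)
  have hBv : ∀ v ∈ E, B ≤ centralizer ({v} : Set G) := by
    intro v hv b hb
    rw [mem_centralizer_singleton_iff]
    exact hcomm b hb v (hSB (hES hv))
  have hO : ∀ v ∈ E, pCoreOf p (centralizer ({v} : Set G)) ≤ W := fun v hv =>
    hWg _ ⟨LocBase.isPGroup_pCoreOf p _, (hBv v hv).trans (LocBase.le_normalizer_pCoreOf p _)⟩
  have hfac : ∀ v ∈ E, v ≠ 1 → centralizer ({v} : Set G) ≤
      pCoreOf p (centralizer ({v} : Set G)) ⊔ normalizer ((S : Subgroup G) : Set G) := fun v hv hv1 =>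
    cx.factor (cx.centralizer_ne_top hv1) S (hSB.trans (hBv v hv))
  have hNS : normalizer ((S : Subgroup G) : Set G) ≤ normalizer (W : Set G) := by
    intro g hg
    apply H32Cores.mem_normalizer_of_conj_le
    have hgE := hSE hg
    have hgen := CoprimeGen.iSup_centralizer_eq (A := E) (K := W) hE.1 (not_isCyclic_of hE hE4)
      ((hES.trans hSB).trans hW.inv)
      (two_coprime_pgroup cx.p_odd (CoprimeHyper.elemAb_isPGroup hE) hW.pg)
    have hle : W ≤ W.comap (MulAut.conj g).toMonoidHom := by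
      conv_lhs => rw [← hgen]
      apply iSup₂_le
      rintro a ⟨ha, ha1⟩
      have hBa := hBv a ha
      have h1 : W ⊓ centralizer ({a} : Set G) ≤ pCoreOf p (centralizer ({a} : Set G)) :=
        cx.le_pCoreOf hB (cx.centralizer_ne_top ha1) hBa inf_le_right (hW.pg.to_le inf_le_left)
          ((le_inf hW.inv (hBa.trans le_normalizer)).trans inf_normalizer_le_normalizer_inf)
      intro x hx
      have h2 : (MulAut.conj g).toMonoidHom x ∈ (pCoreOf p (centralizer ({a} : Set G))).map (MulAut.conj g).toMonoidHom :=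
        ⟨x, h1 hx, rfl⟩
      rw [← LocBase.pCoreOf_map_conj, map_centralizer_singleton] at h2
      exact hO _ ((mem_normalizer_iff.1 hgE a).1 ha) h2
    exact fun x hx => hle hx
  by_cases hW1 : W = ⊥
  · refine ⟨normalizer ((S : Subgroup G) : Set G), ?_, le_rfl, ?_⟩
    · apply cx.normalizer_ne_top
      · intro h
        rw [h, le_bot_iff] at hES
        rw [hES, card_bot] at hE4
        omega
      · exact cx.ne_top_of_isPGroup S.2
    · intro v hv hv1
      refine (hfac v hv hv1).trans (sup_le ?_ le_rfl)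
      refine (hO v hv).trans ?_
      rw [hW1]; exact bot_le
  · refine ⟨normalizer (W : Set G), cx.normalizer_ne_top hW1 (cx.ne_top_of_isPGroup hW.pg), hNS, ?_⟩
    intro v hv hv1
    exact (hfac v hv hv1).trans (sup_le ((hO v hv).trans le_normalizer) hNS)

end MM

end Cfsg.Agent.Lib.PAbA
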