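import Cfsg.Agent.Lib.PAbB
import Cfsg.Agent.Lib.StrongEmb
import Cfsg.Agent.Lib.CentMax
import Cfsg.Agent.S1225

/-!
Simple groups all of whose `p'`-subgroups are abelian, III: a strongly embedded subgroup (helper9, S1936).
-/

set_option autoImplicit false
set_option maxHeartbeats 400000
set_option linter.unusedSectionVars false

namespace Cfsg.Agent.Lib.PAbA

open Subgroup Cfsg
open scoped commutatorElement

universe u

variable {G : Type u} [Group G] [Finite G] {p : ℕ} [hp : Fact p.Prime]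

/-- `|H| ≡ |C_H(Q)|` modulo `q` for a `q`-group `Q` normalizing `H`. -/
theorem card_modEq_centralizer {q : ℕ} [hq : Fact q.Prime]
    {H Q : Subgroup G} (hQ : IsPGroup q Q) (hQH : Q ≤ normalizer (H : Set G)) :
    Nat.card H ≡ Nat.card (H ⊓ centralizer (Q : Set G) : Subgroup G) [MOD q] := by
  let act : MulAction Q H := MulAction.compHom H ((H.normalizerMonoidHom).comp (inclusion hQH))
  have hact : ∀ (a : Q) (h : H), ((a • h : H) : G) = (a : G) * h * (a : G)⁻¹ := fun a h => rfl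
  have h1 := hQ.card_modEq_card_fixedPoints H
  refine h1.trans ?_
  rw [Nat.card_congr (β := (H ⊓ centralizer (Q : Set G) : Subgroup G))]
  refine ⟨fun h => ⟨h.1, h.1.2, ?_⟩, fun h => ⟨⟨h.1, h.2.1⟩, ?_⟩, fun h => ?_, fun h => ?_⟩
  · refine mem_centralizer_iff.mpr ?_
    intro a ha
    have := congrArg Subtype.val (h.2 ⟨a, ha⟩)
    rw [hact] at this
    exact mul_inv_eq_iff_eq_mul.mp this
  · intro a
    apply Subtype.ext
    rw [hact]
    exact mul_inv_eq_iff_eq_mul.mpr (mem_centralizer_iff.mp h.2.2 a a.2)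
  · rfl
  · rfl

theorem Cx.sylow_two_cop (cx : Cx p G) {S : Subgroup G} (hS : IsPGroup 2 S) : ¬ p ∣ Nat.card S := by
  intro h
  obtain ⟨n, hn⟩ := IsPGroup.iff_card.1 hS
  rw [hn] at h
  exact cx.p_odd ((Nat.prime_dvd_prime_iff_eq hp.out Nat.prime_two).1 (hp.out.dvd_of_dvd_pow h))

theorem Cx.noncomm (cx : Cx p G) : ¬ ∀ a b : G, a * b = b * a := fun h =>
  cx.nsol (Group.isSolvable_of_comm h)

theorem Cx.comm_max (cx : Cx p G) {B : Subgroup G} (hB : MaxPrime p B) {a b : G} (ha : a ∈ B) (hb : b ∈ B) :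
    a * b = b * a := cx.comm B (coprime_iff.2 hB.ndvd) a ha b hb

theorem Cx.exists_y (cx : Cx p G) (S : Sylow 2 G) (hS1 : (S : Subgroup G) ≠ ⊥) {B : Subgroup G}
    (hB : MaxPrime p B) (hSB : (S : Subgroup G) ≤ B) :
    ∃ y ∈ normalizer ((S : Subgroup G) : Set G), (∃ n : ℕ, y ^ p ^ n = 1) ∧ ∃ s ∈ (S : Subgroup G), y * s ≠ s * y := by
  by_contra hcon
  push Not at hcon
  have := cx.simple
  apply CentMax.no_burnside cx.noncomm 2 S hS1
  set L := normalizer ((S : Subgroup G) : Set G) with hL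
  have hLt : L ≠ ⊤ := cx.normalizer_ne_top hS1 (cx.ne_top_of_isPGroup S.2)
  have hBL : B ≤ L := by
    intro b hb
    apply H32Cores.mem_normalizer_of_conj_le
    intro s hs
    rw [cx.comm_max hB hb (hSB hs), mul_inv_cancel_right]
    exact hs
  obtain ⟨k, hk⟩ := cx.hall hB hLt hBL
  obtain ⟨Q, hQ⟩ := RelSylow.exists_syl p L
  intro g hg
  obtain ⟨b, hb, q, hq, rfl⟩ := CoprimeAction2.exists_mul_of_coprime_relIndex hQ.1 hBL (by
    rw [hk]; exact Nat.Coprime.pow_left k (coprime_iff.2 hQ.2.2).symm) hg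
  rw [mem_centralizer_iff]
  intro s hs
  obtain ⟨n, hn⟩ := hQ.2.1 ⟨q, hq⟩
  have h1 := hcon q (hQ.1 hq) ⟨n, by simpa using congrArg Subtype.val hn⟩ s hs
  have h2 := cx.comm_max hB hb (hSB hs)
  calc s * (b * q) = s * b * q := by group
    _ = b * s * q := by rw [h2]
    _ = b * (s * q) := by group
    _ = b * (q * s) := by rw [h1]
    _ = b * q * s := by group

theorem Cx.sylow_comm (cx : Cx p G) (S : Sylow 2 G) : (S : Subgroup G) ≤ centralizer ((S : Subgroup G) : Set G) := by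
  intro a ha
  rw [mem_centralizer_iff]
  intro b hb
  exact cx.comm (S : Subgroup G) (coprime_iff.2 (cx.sylow_two_cop S.2)) b hb a ha

theorem Cx.elemAb (cx : Cx p G) (S : Sylow 2 G) : IsElementaryAbelian 2 (ZJeThm.tors (S : Subgroup G) 2) := by
  refine ⟨?_, ?_⟩
  · rw [isMulCommutative_iff_of_setLike]
    intro a ha b hb
    exact mem_centralizer_iff.1 (cx.sylow_comm S (ZJeThm.tors_le _ _ hb)) a (ZJeThm.tors_le _ _ ha)
  · intro a ha
    exact ((ZJeThm.mem_tors (cx.sylow_comm S)).1 ha).2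

theorem Cx.card_tors (cx : Cx p G) (S : Sylow 2 G) {y : G} (hy : y ∈ normalizer ((S : Subgroup G) : Set G))
    {n : ℕ} (hyn : y ^ p ^ n = 1) (hs : ∃ s ∈ (S : Subgroup G), y * s ≠ s * y) :
    p + 1 ≤ Nat.card (ZJeThm.tors (S : Subgroup G) 2) := by
  set E := ZJeThm.tors (S : Subgroup G) 2 with hE
  have hyp := isPGroup_zpowers_of_pow hyn
  have hyE : zpowers y ≤ normalizer (E : Set G) := by
    rw [zpowers_le]
    exact ZJeThm.normalizer_le_normalizer_tors _ _ hy
  have hmod := card_modEq_centralizer hyp hyE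
  have hne : E ⊓ centralizer ((zpowers y : Subgroup G) : Set G) ≠ E := by
    intro h
    rw [inf_eq_left] at h
    obtain ⟨s, hs, hne⟩ := hs
    apply hne
    have hcomm : IsMulCommutative (S : Subgroup G) := by
      rw [isMulCommutative_iff_of_setLike]
      intro a ha b hb
      exact mem_centralizer_iff.1 (cx.sylow_comm S hb) a ha
    have h1 : zpowers y ≤ centralizer ((S : Subgroup G) : Set G) := by
      apply CoprimeAction2.le_centralizer_of_prime_order (by rwa [zpowers_le])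
        (two_coprime_pgroup cx.p_odd S.2 hyp).symm
      intro v hv hvp a ha
      have h2 : orderOf v = 2 := by
        obtain ⟨m, hm⟩ := S.2 ⟨v, hv⟩
        have hm' : v ^ 2 ^ m = 1 := by simpa using congrArg Subtype.val hm
        exact (Nat.prime_dvd_prime_iff_eq hvp Nat.prime_two).1 (hvp.dvd_of_dvd_pow (orderOf_dvd_of_pow_eq_one hm'))
      have h3 : v ∈ E := ZJeThm.mem_tors_of hv (by rw [← h2, pow_orderOf_eq_one])
      exact mem_centralizer_iff.1 (h h3) a ha
    exact (mem_centralizer_iff.1 (h1 (mem_zpowers y)) s hs).symm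
  have hlt : Nat.card (E ⊓ centralizer ((zpowers y : Subgroup G) : Set G) : Subgroup G) < Nat.card E := by
    refine lt_of_le_of_ne (Subgroup.card_le_of_le inf_le_left) fun hc => hne ?_
    exact Subgroup.eq_of_le_of_card_ge inf_le_left hc.ge
  have h1 : 0 < Nat.card (E ⊓ centralizer ((zpowers y : Subgroup G) : Set G) : Subgroup G) := Nat.card_pos
  have h2 : p ∣ Nat.card E - Nat.card (E ⊓ centralizer ((zpowers y : Subgroup G) : Set G) : Subgroup G) :=
    (Nat.modEq_iff_dvd' hlt.le).1 hmod.symm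
  have h3 := Nat.le_of_dvd (by omega) h2
  omega

/-- every 2-element of `M ≥ S` is conjugate into `S`. -/
theorem exists_conj_mem (S : Sylow 2 G) {M : Subgroup G} (hSM : (S : Subgroup G) ≤ M) {t : G} (ht : t ∈ M)
    {n : ℕ} (htn : t ^ 2 ^ n = 1) : ∃ m ∈ M, m * t * m⁻¹ ∈ (S : Subgroup G) := by
  have hS : RelSylow.IsSyl 2 (S : Subgroup G) M := (RelSylow.isSyl_top_iff S).of_le hSM le_top
  obtain ⟨h, hh, hle⟩ := hS.exists_conj_le (isPGroup_zpowers_of_pow htn) (by rwa [zpowers_le])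
  refine ⟨h⁻¹, inv_mem hh, ?_⟩
  have := hle (mem_zpowers t)
  rw [ConjSylow.mem_conj] at this
  rwa [inv_inv]

theorem Cx.se (cx : Cx p G) (S : Sylow 2 G) (hS1 : (S : Subgroup G) ≠ ⊥) {M : Subgroup G} (hM : M ≠ ⊤)
    (hN : normalizer ((S : Subgroup G) : Set G) ≤ M)
    (hC : ∀ v ∈ ZJeThm.tors (S : Subgroup G) 2, v ≠ 1 → centralizer ({v} : Set G) ≤ M) : IsStronglyEmbedded M := by
  have hSM : (S : Subgroup G) ≤ M := le_normalizer.trans hN
  have heven : Even (Nat.card M) := by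
    have h1 : 2 ∣ Nat.card (S : Subgroup G) := by
      obtain ⟨n, hn⟩ := IsPGroup.iff_card.1 S.2
      rw [hn]
      apply dvd_pow_self
      rintro rfl
      exact hS1 (Subgroup.card_eq_one.1 (by simpa using hn))
    exact even_iff_two_dvd.2 (h1.trans (card_dvd_of_le hSM))
  have htwo : ∀ t : G, orderOf t = 2 → t ^ 2 = 1 ∧ t ≠ 1 := by
    intro t ht
    refine ⟨by rw [← ht, pow_orderOf_eq_one], ?_⟩
    rintro rfl
    simp at ht
  have hmv : ∀ t ∈ M, orderOf t = 2 → ∃ m ∈ M, m * t * m⁻¹ ∈ (S : Subgroup G) := by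
    intro t ht h2
    exact exists_conj_mem S hSM ht (n := 1) (by simpa using (htwo t h2).1)
  rw [StrongEmb.iff_centralizer_fusion M hM heven]
  constructor
  · intro t ht h2
    obtain ⟨m, hm, hmt⟩ := hmv t ht h2
    have h3 : m * t * m⁻¹ ∈ ZJeThm.tors (S : Subgroup G) 2 := by
      apply ZJeThm.mem_tors_of hmt
      rw [conj_pow, (htwo t h2).1]; simp
    have h4 := hC _ h3 (by
      intro h
      have := (htwo t h2).2
      apply this
      have h5 : t = m⁻¹ * (m * t * m⁻¹) * m := by group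
      rw [h5, h]; group)
    intro x hx
    rw [mem_centralizer_singleton_iff] at hx
    have h5 : m * x * m⁻¹ ∈ M := by
      apply h4
      rw [mem_centralizer_singleton_iff]
      calc m * x * m⁻¹ * (m * t * m⁻¹) = m * (x * t) * m⁻¹ := by group
        _ = m * (t * x) * m⁻¹ := by rw [hx]
        _ = m * t * m⁻¹ * (m * x * m⁻¹) := by group
    have h6 : x = m⁻¹ * (m * x * m⁻¹) * m := by group
    rw [h6]
    exact mul_mem (mul_mem (inv_mem hm) h5) hm
  · intro t ht s hs ht2 hs2 hts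
    obtain ⟨m, hm, hmt⟩ := hmv t ht ht2
    obtain ⟨k, hk, hks⟩ := hmv s hs hs2
    obtain ⟨g, hg⟩ := isConj_iff.1 hts
    have hcomm : IsMulCommutative (S : Subgroup G) := by
      rw [isMulCommutative_iff_of_setLike]
      intro a ha b hb
      exact mem_centralizer_iff.1 (cx.sylow_comm S hb) a ha
    obtain ⟨n, hn, hn2⟩ := FusionControl.abelian_controls S hcomm (m * t * m⁻¹) hmt (k * g * m⁻¹) (by
      have : k * g * m⁻¹ * (m * t * m⁻¹) * (k * g * m⁻¹)⁻¹ = k * (g * t * g⁻¹) * k⁻¹ := by group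
      rw [this, hg]; exact hks)
    refine ⟨k⁻¹ * n * m, mul_mem (mul_mem (inv_mem hk) (hN hn)) hm, ?_⟩
    have h1 : k⁻¹ * n * m * t * (k⁻¹ * n * m)⁻¹ = k⁻¹ * (n * (m * t * m⁻¹) * n⁻¹) * k := by group
    rw [h1, hn2, ← hg]; group


/-- `2 ^ s = p ^ k + 1` forces `k = 1` -/
theorem pow_eq_aux {p s k : ℕ} (hp : Odd p) (hp1 : 1 < p) (hk : k ≠ 0) (h : 2 ^ s = p ^ k + 1) : k = 1 := by
  obtain ⟨j, hj⟩ := hp
  rcases Nat.even_or_odd k with hke | hko
  · exfalso
    obtain ⟨i, hi⟩ := hke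
    have h1 : p ^ k % 4 = 1 := by
      have h2 : p ^ k = (p * p) ^ i := by rw [← pow_two, ← pow_mul]; congr 1; omega
      have h3 : p * p % 4 = 1 := by
        have : p * p = 4 * (j * j + j) + 1 := by rw [hj]; ring
        omega
      rw [h2, Nat.pow_mod, h3]; simp
    have h2 : 2 ^ s % 4 = 2 := by rw [h]; omega
    have hpk : 1 < p ^ k := Nat.one_lt_pow hk hp1
    rcases s with _ | _ | s
    · simp at h2
    · simp at h; omega
    · have : 2 ^ (s + 2) = 4 * 2 ^ s := by ring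
      rw [this] at h2; omega
  · -- `k` odd: `p + 1 = 2 ^ r`
    have h1 : p + 1 ∣ 2 ^ s := by
      rw [h]
      have := Odd.nat_add_dvd_pow_add_pow p 1 hko
      rwa [one_pow] at this
    obtain ⟨r, hrs, hr⟩ := (Nat.dvd_prime_pow Nat.prime_two).1 h1
    obtain ⟨i, hi⟩ := hko
    have hr0 : r ≠ 0 := by rintro rfl; simp at hr; omega
    -- `p * p ≡ 1 mod 2 ^ (r + 1)`
    have h2 : p * p ≡ 1 [MOD 2 ^ (r + 1)] := by
      have e : p * p - 1 = 2 ^ (r + 1) * ((p - 1) / 2) := by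
        have e1 : p * p - 1 = (p + 1) * (p - 1) := by
          have := Nat.sq_sub_sq p 1
          rw [one_pow, pow_two] at this; exact this
        have e2 : p - 1 = 2 * ((p - 1) / 2) := by omega
        rw [e1, hr, pow_succ, mul_assoc, ← e2]
      exact ((Nat.modEq_iff_dvd' (by nlinarith)).2 ⟨_, e⟩).symm
    have h3 : p ^ k ≡ p [MOD 2 ^ (r + 1)] := by
      have e : p ^ k = (p * p) ^ i * p := by rw [hi, pow_succ, pow_mul, pow_two]
      rw [e]
      have := (h2.pow i).mul_right p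
      rwa [one_pow, one_mul] at this
    have h4 : 2 ^ s ≡ 2 ^ r [MOD 2 ^ (r + 1)] := by
      rw [h, ← hr]; exact h3.add_right 1
    have h5 : s = r := by
      by_contra hne
      have hlt : r + 1 ≤ s := by omega
      have h6 : 2 ^ s ≡ 0 [MOD 2 ^ (r + 1)] := (Nat.modEq_zero_iff_dvd).2 (Nat.pow_dvd_pow 2 hlt)
      have h7 := (h4.symm.trans h6)
      rw [Nat.modEq_zero_iff_dvd] at h7
      have := (Nat.pow_dvd_pow_iff_le_right (by norm_num)).1 h7
      omega
    rw [h5, ← hr] at h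
    have h6 : p ^ k = p ^ 1 := by rw [pow_one]; omega
    exact Nat.pow_right_injective hp1 h6

/-- the pair -/
structure Pr (p : ℕ) (M S : Subgroup G) : Prop where
  se : IsStronglyEmbedded M
  mem_iff : ∀ x, x ∈ S ↔ x ∈ M ∧ x ^ 2 = 1
  card : Nat.card S = p + 1

theorem sq_ne {t : G} (ht : orderOf t = 2) : t ^ 2 = 1 ∧ t ≠ 1 := by
  refine ⟨by rw [← ht, pow_orderOf_eq_one], ?_⟩
  rintro rfl
  simp at ht

theorem orderOf_of {t : G} (h2 : t ^ 2 = 1) (h1 : t ≠ 1) : orderOf t = 2 := orderOf_eq_prime h2 h1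

/-- an involution outside -/
theorem exists_involution_not_mem {M : Subgroup G} (hM : IsStronglyEmbedded M) : ∃ u, orderOf u = 2 ∧ u ∉ M := by
  by_contra hcon
  push Not at hcon
  obtain ⟨z, hz, hz2⟩ := StrongEmb.exists_involution_mem hM.2.1
  apply hM.1
  rw [eq_top_iff]
  intro g _
  refine ((StrongEmb.iff_involution M).1 hM).2.2 g z hz2 hz (hcon _ ?_)
  have := Involutions.orderOf_conj z g⁻¹
  rw [inv_inv] at this
  rw [this, hz2]

theorem conj_involutions {M : Subgroup G} (hM : IsStronglyEmbedded M) {s t : G} (hs : orderOf s = 2) (hsM : s ∈ M)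
    (ht : orderOf t = 2) (htM : t ∈ M) : ∃ d ∈ M, d * s * d⁻¹ = t := by
  obtain ⟨u, hu, huM⟩ := exists_involution_not_mem hM
  obtain ⟨⟨d, hd, h⟩, -⟩ := Cfsg.Agent.S1225.result M hM u hu huM s t hs hsM ht htM
  exact ⟨d, hd.1, h⟩

theorem Cx.exists_pr (cx : Cx p G) (heven : Even (Nat.card G)) :
    ∃ (M : Subgroup G) (S : Sylow 2 G), Pr p M (S : Subgroup G) := by
  classical
  obtain ⟨S⟩ : Nonempty (Sylow 2 G) := inferInstance
  have hS1 : (S : Subgroup G) ≠ ⊥ := by
    intro h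
    have h1 := S.card_eq_multiplicity
    rw [h, card_bot] at h1
    have h2 : 0 < (Nat.card G).factorization 2 :=
      Nat.Prime.factorization_pos_of_dvd Nat.prime_two Nat.card_pos.ne' (even_iff_two_dvd.1 heven)
    have := Nat.one_lt_two_pow h2.ne'
    omega
  obtain ⟨B, hSB, hB⟩ := exists_maxPrime (p := p) (cx.sylow_two_cop S.2)
  obtain ⟨y, hyN, ⟨n, hyn⟩, s, hs, hys⟩ := cx.exists_y S hS1 hB hSB
  set E := ZJeThm.tors (S : Subgroup G) 2 with hE
  have hES : E ≤ S := ZJeThm.tors_le _ _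
  have hcardE := cx.card_tors S hyN hyn ⟨s, hs, hys⟩
  rw [← hE] at hcardE
  have h5 := cx.five
  obtain ⟨M, hM, hNM, hCM⟩ := cx.exists_M S hB hSB (E := E) (cx.elemAb S) hES
    (ZJeThm.normalizer_le_normalizer_tors _ _) (by omega)
  have hSE := cx.se S hS1 hM hNM hCM
  have hSM : (S : Subgroup G) ≤ M := le_normalizer.trans hNM
  refine ⟨M, S, ?_⟩
  set A := (pPrimeCore p M).map M.subtype with hA
  have hAM : A ≤ M := map_subtype_le _
  have hMA : M ≤ normalizer (A : Set G) := Cores.le_normalizer_map_subtype _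
  have hAp : (Nat.card A).Coprime p := by rw [hA, Cores.card_map_subtype]; exact Cores.coprime_card_pPrimeCore p _
  have hAc : A ≤ centralizer (A : Set G) := by
    intro a ha
    rw [mem_centralizer_iff]
    intro b hb
    exact cx.comm A hAp b hb a ha
  -- a nontrivial commutator
  have hyM := hNM hyN
  have hcS : ⁅s, y⁆ ∈ (S : Subgroup G) := by
    rw [commutatorElement_def]
    have h1 := (mem_normalizer_iff.1 hyN s⁻¹).1 (inv_mem hs)
    have h2 : s * y * s⁻¹ * y⁻¹ = s * (y * s⁻¹ * y⁻¹) := by group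
    rw [h2]; exact mul_mem hs h1
  have hcA : ⁅s, y⁆ ∈ A := by
    apply cx.comm_mem hM hyM hyn (hSM hs)
    rw [coprime_iff]
    intro h
    apply cx.sylow_two_cop S.2
    have h1 := orderOf_dvd_natCard (⟨_, hcS⟩ : (S : Subgroup G))
    rw [Subgroup.orderOf_mk] at h1
    exact h.trans h1
  have hc1 : ⁅s, y⁆ ≠ 1 := by
    intro h
    rw [commutatorElement_eq_one_iff_mul_comm] at h
    exact hys h.symm
  have hAS : A ⊓ (S : Subgroup G) ≠ ⊥ := by
    intro h
    apply hc1
    have : ⁅s, y⁆ ∈ A ⊓ (S : Subgroup G) := mem_inf.2 ⟨hcA, hcS⟩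
    rw [h] at this
    exact mem_bot.1 this
  have hAS2 : Even (Nat.card (A ⊓ (S : Subgroup G) : Subgroup G)) := by
    obtain ⟨m, hm⟩ := IsPGroup.iff_card.1 (S.2.to_le (inf_le_right : A ⊓ (S : Subgroup G) ≤ S))
    rw [hm, even_iff_two_dvd]
    apply dvd_pow_self
    rintro rfl
    exact hAS (Subgroup.card_eq_one.1 (by simpa using hm))
  obtain ⟨z, hz, hz2⟩ := StrongEmb.exists_involution_mem hAS2
  have hzA : z ∈ A := hz.1
  have hzS : z ∈ (S : Subgroup G) := hz.2
  have hinv : ∀ x ∈ M, x ^ 2 = 1 → x ∈ A := by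
    intro x hx hx2
    by_cases hx1 : x = 1
    · rw [hx1]; exact one_mem _
    · obtain ⟨d, hd, hdx⟩ := conj_involutions hSE hz2 (hAM hzA) (orderOf_of hx2 hx1) hx
      rw [← hdx]
      exact (mem_normalizer_iff.1 (hMA hd) z).1 hzA
  set T := ZJeThm.tors A 2 with hT
  have hTM : M ≤ normalizer (T : Set G) := hMA.trans (ZJeThm.normalizer_le_normalizer_tors _ _)
  have hTp : IsPGroup 2 T := by
    rintro ⟨t, ht⟩
    exact ⟨1, Subtype.ext (by simpa using ((ZJeThm.mem_tors hAc).1 ht).2)⟩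
  have hTS : T ≤ (S : Subgroup G) := by
    have h1 : IsPGroup 2 (T ⊔ (S : Subgroup G) : Subgroup G) := hTp.to_sup_of_normal_left' S.2 (hSM.trans hTM)
    have h2 := S.is_maximal' h1 le_sup_right
    exact h2 ▸ le_sup_left
  have hinvS : ∀ x ∈ M, x ^ 2 = 1 → x ∈ (S : Subgroup G) := fun x hx hx2 =>
    hTS (ZJeThm.mem_tors_of (hinv x hx hx2) hx2)
  have hmemE : ∀ x, x ∈ E ↔ x ∈ M ∧ x ^ 2 = 1 := by
    intro x
    rw [hE, ZJeThm.mem_tors (cx.sylow_comm S)]
    exact ⟨fun h => ⟨hSM h.1, h.2⟩, fun h => ⟨hinvS x h.1 h.2, h.2⟩⟩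
  -- counting
  have hzE : z ∈ E := (hmemE z).2 ⟨hAM hzA, (sq_ne hz2).1⟩
  have horb : {v : G | ∃ k ∈ M, k * z * k⁻¹ = v} = (E : Set G) \ {1} := by
    ext v
    constructor
    · rintro ⟨k, hk, rfl⟩
      refine ⟨(hmemE _).2 ⟨mul_mem (mul_mem hk (hAM hzA)) (inv_mem hk), by rw [conj_pow, (sq_ne hz2).1]; simp⟩, ?_⟩
      intro h
      apply (sq_ne hz2).2
      have h1 : k * z * k⁻¹ = 1 := h
      have h2 : z = k⁻¹ * (k * z * k⁻¹) * k := by group
      rw [h2, h1]; group
    · rintro ⟨hv, hv1⟩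
      obtain ⟨h1, h2⟩ := (hmemE v).1 hv
      exact conj_involutions hSE hz2 (hAM hzA) (orderOf_of h2 hv1) h1
  have hcount := InvAct.card_conj_orbit M z
  have hn : ({v : G | ∃ k ∈ M, k * z * k⁻¹ = v}).ncard = Nat.card E - 1 := by
    rw [horb, Set.ncard_sdiff (by simp), Set.ncard_singleton]
    rfl
  rw [hn] at hcount
  have hBz : B ≤ centralizer ({z} : Set G) := by
    intro b hb
    rw [mem_centralizer_singleton_iff]
    exact cx.comm_max hB hb (hSB hzS)
  have hBM : B ≤ M := hBz.trans (hCM z hzE (sq_ne hz2).2)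
  obtain ⟨j, hj⟩ := cx.hall hB hM hBM
  have hBd : Nat.card B ∣ Nat.card (M ⊓ centralizer ({z} : Set G) : Subgroup G) := card_dvd_of_le (le_inf hBM hBz)
  obtain ⟨c, hc⟩ := hBd
  have hcM := SubgroupTools.card_mul_relIndex_of_le hBM
  have hdvd : Nat.card E - 1 ∣ p ^ j := by
    refine ⟨c, ?_⟩
    have hB0 : 0 < Nat.card B := Nat.card_pos
    rw [hj, hcount, hc] at hcM
    have : Nat.card B * p ^ j = Nat.card B * ((Nat.card E - 1) * c) := by rw [hcM]; ring
    exact Nat.eq_of_mul_eq_mul_left hB0 this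
  obtain ⟨k, -, hk⟩ := (Nat.dvd_prime_pow hp.out).1 hdvd
  have hEp : IsPGroup 2 E := S.2.to_le hES
  obtain ⟨m, hm⟩ := IsPGroup.iff_card.1 hEp
  have hk0 : k ≠ 0 := by
    rintro rfl
    rw [pow_zero] at hk
    omega
  have hpo : Odd p := hp.out.odd_of_ne_two cx.p_odd
  have hk1 := pow_eq_aux hpo (by omega) hk0 (s := m) (by rw [← hk, ← hm]; omega)
  rw [hk1, pow_one] at hk
  have hcE : Nat.card E = p + 1 := by omega
  -- `S = E`
  have hSEq : (S : Subgroup G) = E := by
    apply le_antisymm _ hES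
    intro x hx
    apply ZJeThm.mem_tors_of hx
    have h1 := cx.exp (S : Subgroup G) (coprime_iff.2 (cx.sylow_two_cop S.2)) x hx
    obtain ⟨a, ha⟩ := S.2 ⟨x, hx⟩
    have ha' : x ^ 2 ^ a = 1 := by simpa using congrArg Subtype.val ha
    obtain ⟨i, -, hi⟩ := (Nat.dvd_prime_pow Nat.prime_two).1 (orderOf_dvd_of_pow_eq_one ha')
    have h2 := orderOf_dvd_of_pow_eq_one h1
    have hm2 : 3 ≤ m := by
      by_contra hcon
      have : m ≤ 2 := by omega
      have h3 : 2 ^ m ≤ 2 ^ 2 := Nat.pow_le_pow_right (by norm_num) this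
      rw [← hm, hcE] at h3
      omega
    have h4 : p - 1 = 4 * 2 ^ (m - 2) - 2 := by
      have h3 : 2 ^ m = 4 * 2 ^ (m - 2) := by
        have : m = (m - 2) + 2 := by omega
        conv_lhs => rw [this, pow_add]
        ring
      rw [← h3, ← hm, hcE]; omega
    rw [hi] at h2
    rcases i with _ | _ | i
    · have : x = 1 := by rw [← orderOf_eq_one_iff, hi]; rfl
      rw [this, one_pow]
    · rw [← pow_orderOf_eq_one x, hi]; simp
    · exfalso
      have h3 : 4 ∣ p - 1 := (Dvd.intro (2 ^ i) (by ring)).trans h2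
      rw [h4] at h3
      have h6 : 0 < 2 ^ (m - 2) := by positivity
      omega
  refine ⟨hSE, ?_, ?_⟩
  · intro x
    rw [hSEq]; exact hmemE x
  · rw [hSEq]; exact hcE

end Cfsg.Agent.Lib.PAbA
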