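import Cfsg.Agent.Lib.PAbC
import Cfsg.Agent.Lib.PAct
import Cfsg.Agent.Lib.BaerSuzuki
import Cfsg.Agent.S1224

/-!
Simple groups all of whose `p'`-subgroups are abelian, IV: the pair `(M, S)` (helper9, S1936).
-/

set_option autoImplicit false
set_option maxHeartbeats 400000
set_option linter.unusedSectionVars false

namespace Cfsg.Agent.Lib.PAbA

open Subgroup Cfsg
open scoped commutatorElement

universe u

variable {G : Type u} [Group G] [Finite G] {p : ℕ} [hp : Fact p.Prime] {M S : Subgroup G}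

theorem Pr.le (h : Pr p M S) : S ≤ M := fun _ hx => ((h.mem_iff _).1 hx).1

theorem Pr.sq (h : Pr p M S) {x : G} (hx : x ∈ S) : x ^ 2 = 1 := ((h.mem_iff _).1 hx).2

theorem Pr.normal (h : Pr p M S) : M ≤ normalizer (S : Set G) := by
  intro m hm
  apply H32Cores.mem_normalizer_of_conj_le
  intro x hx
  rw [h.mem_iff]
  exact ⟨mul_mem (mul_mem hm (h.le hx)) (inv_mem hm), by rw [conj_pow, h.sq hx]; simp⟩

theorem Pr.isPGroup (h : Pr p M S) : IsPGroup 2 S := by
  rintro ⟨x, hx⟩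
  exact ⟨1, Subtype.ext (by simpa using h.sq hx)⟩

theorem Pr.comm (h : Pr p M S) {x y : G} (hx : x ∈ S) (hy : y ∈ S) : x * y = y * x := by
  have h1 := h.sq hx
  have h2 := h.sq hy
  have h3 := h.sq (mul_mem hx hy)
  rw [pow_two] at h1 h2 h3
  have e1 : x⁻¹ = x := inv_eq_of_mul_eq_one_left h1
  have e2 : y⁻¹ = y := inv_eq_of_mul_eq_one_left h2
  have e3 : (x * y)⁻¹ = x * y := inv_eq_of_mul_eq_one_left h3
  rw [mul_inv_rev, e1, e2] at e3
  exact e3.symm

theorem Pr.elemAb (h : Pr p M S) : IsElementaryAbelian 2 S :=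
  ⟨isMulCommutative_iff_of_setLike.2 fun _ ha _ hb => h.comm ha hb, fun _ ha => h.sq ha⟩

theorem Pr.cent (h : Pr p M S) {v : G} (hv : v ∈ S) (hv1 : v ≠ 1) : centralizer ({v} : Set G) ≤ M :=
  StrongEmb.centralizer_le h.se (h.le hv) (orderOf_of (h.sq hv) hv1)

theorem Pr.back (h : Pr p M S) {v g : G} (hv : v ∈ S) (hv1 : v ≠ 1) (hg : g⁻¹ * v * g ∈ M) : g ∈ M :=
  ((StrongEmb.iff_involution M).1 h.se).2.2 g v (orderOf_of (h.sq hv) hv1) (h.le hv) hg

theorem Pr.conj (h : Pr p M S) (g : G) :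
    Pr p (M.map (MulAut.conj g).toMonoidHom) (S.map (MulAut.conj g).toMonoidHom) := by
  refine ⟨?_, ?_, ?_⟩
  · have h1 := (StrongEmb.iff_involution M).1 h.se
    rw [StrongEmb.iff_involution]
    refine ⟨?_, ?_, ?_⟩
    · intro h2
      apply h1.1
      rw [ConjSylow.conj_eq_iff, ConjSylow.conj_top] at h2
      exact h2
    · rw [LocBase.card_map_conj]; exact h1.2.1
    · intro x t ht htM hx
      rw [ConjSylow.mem_conj] at htM hx ⊢
      apply h1.2.2 (g⁻¹ * x * g) (g⁻¹ * t * g) ?_ htM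
      · have : (g⁻¹ * x * g)⁻¹ * (g⁻¹ * t * g) * (g⁻¹ * x * g) = g⁻¹ * (x⁻¹ * t * x) * g := by group
        rw [this]; exact hx
      · have := Involutions.orderOf_conj t g⁻¹
        rw [inv_inv] at this
        rw [this, ht]
  · intro x
    rw [ConjSylow.mem_conj, ConjSylow.mem_conj, h.mem_iff]
    refine and_congr_right fun _ => ?_
    have : (g⁻¹ * x * g) ^ 2 = g⁻¹ * x ^ 2 * g := by simp only [pow_two]; group
    rw [this]
    constructor
    · intro h2
      have h3 : x ^ 2 = g * (g⁻¹ * x ^ 2 * g) * g⁻¹ := by group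
      rw [h3, h2]; group
    · intro h2
      rw [h2]; group
  · rw [LocBase.card_map_conj]; exact h.card

/-- a `p`-element of `M` fixing an involution of `S` centralizes `S`. -/
theorem Pr.fix (h : Pr p M S) {c : G} (hc : c ∈ M) {n : ℕ} (hcn : c ^ p ^ n = 1) {e : G} (he : e ∈ S)
    (he1 : e ≠ 1) (hce : c * e = e * c) {s : G} (hs : s ∈ S) : c * s = s * c := by
  have hcp := isPGroup_zpowers_of_pow hcn
  have hcS : zpowers c ≤ normalizer (S : Set G) := by rw [zpowers_le]; exact h.normal hc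
  have hmod := card_modEq_centralizer hcp hcS
  set F := S ⊓ centralizer ((zpowers c : Subgroup G) : Set G) with hF
  have hmemF : ∀ x ∈ S, x ∈ F ↔ c * x = x * c := by
    intro x hx
    constructor
    · intro h1
      exact mem_centralizer_iff.1 h1.2 c (mem_zpowers c)
    · intro h1
      refine mem_inf.2 ⟨hx, mem_centralizer_iff.2 ?_⟩
      rintro y hy
      obtain ⟨k, rfl⟩ := mem_zpowers_iff.1 hy
      exact ((show Commute c x from h1).zpow_left k)
  have h2 : 1 < Nat.card F := by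
    rw [Finite.one_lt_card_iff_nontrivial, Subgroup.nontrivial_iff_exists_ne_one]
    exact ⟨e, (hmemF e he).2 hce, he1⟩
  have h3 : Nat.card F ≤ Nat.card S := Subgroup.card_le_of_le inf_le_left
  have h4 : F = S := by
    apply Subgroup.eq_of_le_of_card_ge (show F ≤ S from inf_le_left)
    rw [h.card] at h3 ⊢
    rw [h.card] at hmod
    have h5 : p ∣ (p + 1) - Nat.card F := (Nat.modEq_iff_dvd' h3).1 hmod.symm
    by_contra hcon
    have h6 := Nat.le_of_dvd (by omega) h5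
    omega
  exact (hmemF s hs).1 (by rw [h4]; exact hs)

/-- the key lemma -/
theorem Pr.cent_le (cx : Cx p G) (h : Pr p M S) {x : G} (hx : x ∈ M) {n : ℕ} (hxn : x ^ p ^ n = 1) {s : G}
    (hs : s ∈ S) (hsx : x * s ≠ s * x) {e : G} (he1 : e ≠ 1) (hex : e * x = x * e) (hes : e * s = s * e) :
    centralizer ({e} : Set G) ≤ M := by
  set L := centralizer ({e} : Set G) with hL
  have hLt : L ≠ ⊤ := cx.centralizer_ne_top he1
  have hxL : x ∈ L := mem_centralizer_singleton_iff.2 hex.symm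
  have hsL : s ∈ L := mem_centralizer_singleton_iff.2 hes.symm
  set A := (pPrimeCore p L).map L.subtype with hA
  have hLA : L ≤ normalizer (A : Set G) := Cores.le_normalizer_map_subtype _
  have hAp : (Nat.card A).Coprime p := by rw [hA, Cores.card_map_subtype]; exact Cores.coprime_card_pPrimeCore p _
  have hvS : ⁅s, x⁆ ∈ S := by
    rw [commutatorElement_def]
    have h1 := (mem_normalizer_iff.1 (h.normal hx) s⁻¹).1 (inv_mem hs)
    have h2 : s * x * s⁻¹ * x⁻¹ = s * (x * s⁻¹ * x⁻¹) := by group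
    rw [h2]; exact mul_mem hs h1
  have hvA : ⁅s, x⁆ ∈ A := by
    apply cx.comm_mem hLt hxL hxn hsL
    rw [coprime_iff]
    intro hd
    apply cx.sylow_two_cop h.isPGroup
    have h1 := orderOf_dvd_natCard (⟨_, hvS⟩ : S)
    rw [Subgroup.orderOf_mk] at h1
    exact hd.trans h1
  have hv1 : ⁅s, x⁆ ≠ 1 := by
    intro h1
    rw [commutatorElement_eq_one_iff_mul_comm] at h1
    exact hsx h1.symm
  intro l hl
  apply h.back hvS hv1
  have h1 : l⁻¹ * ⁅s, x⁆ * l ∈ A := (mem_normalizer_iff''.1 (hLA hl) _).1 hvA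
  apply h.cent hvS hv1
  rw [mem_centralizer_singleton_iff]
  exact cx.comm A hAp _ h1 _ hvA

/-- `M^g = M^u` for an involution `u` -/
theorem Pr.exists_swap (h : Pr p M S) {g : G} (hg : g ∉ M) : ∃ u, orderOf u = 2 ∧ u ∉ M ∧
    M.map (MulAut.conj g).toMonoidHom = M.map (MulAut.conj u).toMonoidHom := by
  have hne : (QuotientGroup.mk 1 : G ⧸ M) ≠ QuotientGroup.mk g := by
    intro h1
    rw [QuotientGroup.eq] at h1
    apply hg
    simpa using h1
  have h1 := Cfsg.Agent.S1224.result M h.se _ _ hne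
  have h2 : 0 < Nat.card {t : G // orderOf t = 2 ∧ t ∈ M} := by
    obtain ⟨t, ht, ht2⟩ := StrongEmb.exists_involution_mem h.se.2.1
    have : Nonempty {t : G // orderOf t = 2 ∧ t ∈ M} := ⟨⟨t, ht2, ht⟩⟩
    exact Nat.card_pos
  rw [← h1] at h2
  obtain ⟨⟨u, hu2, hu⟩⟩ := (Nat.card_pos_iff.1 h2).1
  have h3 : (QuotientGroup.mk u : G ⧸ M) = QuotientGroup.mk g := by
    rw [← hu, MulAction.Quotient.smul_mk, smul_eq_mul, mul_one]
  have h4 : u⁻¹ * g ∈ M := QuotientGroup.eq.1 h3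
  refine ⟨u, hu2, ?_, ?_⟩
  · intro huM
    apply hg
    have := mul_mem huM h4
    simpa using this
  · have h5 : g = u * (u⁻¹ * g) := by group
    conv_lhs => rw [h5]
    rw [← ConjSylow.conj_conj]
    congr 1
    exact LocBase.map_conj_eq_of_mem (le_normalizer h4)

/-- a Sylow `p`-subgroup of `M ∩ M^g` acts nontrivially on `S` -/
theorem Pr.nontriv (h : Pr p M S) {g : G} (hg : g ∉ M) {U : Subgroup G}
    (hU : RelSylow.IsSyl p U (M ⊓ M.map (MulAut.conj g).toMonoidHom)) : ∃ x ∈ U, ∃ s ∈ S, x * s ≠ s * x := by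
  by_contra hcon
  push Not at hcon
  obtain ⟨u, hu2, huM, heq⟩ := h.exists_swap hg
  rw [heq] at hU
  set D := M ⊓ M.map (MulAut.conj u).toMonoidHom with hD
  obtain ⟨z, hzM, hz2⟩ := StrongEmb.exists_involution_mem h.se.2.1
  have hzS : z ∈ S := (h.mem_iff z).2 ⟨hzM, (sq_ne hz2).1⟩
  have horb : {v : G | ∃ k ∈ D, k * z * k⁻¹ = v} = (S : Set G) \ {1} := by
    ext v
    constructor
    · rintro ⟨k, hk, rfl⟩
      refine ⟨(mem_normalizer_iff.1 (h.normal hk.1) z).1 hzS, ?_⟩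
      intro h1
      apply (sq_ne hz2).2
      have h1' : k * z * k⁻¹ = 1 := h1
      have h2 : z = k⁻¹ * (k * z * k⁻¹) * k := by group
      rw [h2, h1']; group
    · rintro ⟨hv, hv1⟩
      obtain ⟨⟨d, hd, h1⟩, -⟩ := Cfsg.Agent.S1225.result M h.se u hu2 huM z v hz2 hzM
        (orderOf_of (h.sq hv) hv1) (h.le hv)
      exact ⟨d, hd, h1⟩
  have hcount := InvAct.card_conj_orbit D z
  have hn : ({v : G | ∃ k ∈ D, k * z * k⁻¹ = v}).ncard = p := by
    rw [horb, Set.ncard_sdiff (by simp), Set.ncard_singleton]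
    have : (S : Set G).ncard = Nat.card S := rfl
    rw [this, h.card]; rfl
  rw [hn] at hcount
  have hUz : U ≤ D ⊓ centralizer ({z} : Set G) := by
    intro x hx
    refine mem_inf.2 ⟨hU.1 hx, mem_centralizer_singleton_iff.2 (hcon x hx z hzS)⟩
  obtain ⟨c, hc⟩ := card_dvd_of_le hUz
  have h1 := SubgroupTools.card_mul_relIndex_of_le hU.1
  apply hU.2.2
  refine ⟨c, ?_⟩
  have h0 : 0 < Nat.card U := Nat.card_pos
  apply Nat.eq_of_mul_eq_mul_left h0
  rw [h1, hcount, hc]; ring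


theorem eq_one_of_two {w : G} (hp2 : p ≠ 2) (h2 : w ^ 2 = 1) {n : ℕ} (hn : w ^ p ^ n = 1) : w = 1 := by
  have h1 : orderOf w ∣ 2 := orderOf_dvd_of_pow_eq_one h2
  have h3 : orderOf w ∣ p ^ n := orderOf_dvd_of_pow_eq_one hn
  have h4 : Nat.Coprime 2 (p ^ n) := Nat.Coprime.pow_right n ((Nat.coprime_primes Nat.prime_two hp.out).2 hp2.symm)
  rw [← orderOf_eq_one_iff]
  exact Nat.dvd_one.1 (h4.gcd_eq_one ▸ Nat.dvd_gcd h1 h3)

theorem pow_of_mem {U : Subgroup G} (hU : IsPGroup p U) {x : G} (hx : x ∈ U) : ∃ n : ℕ, x ^ p ^ n = 1 := by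
  obtain ⟨n, hn⟩ := hU ⟨x, hx⟩
  exact ⟨n, by simpa using congrArg Subtype.val hn⟩

theorem Pr.exists_involution (h : Pr p M S) : ∃ z ∈ S, orderOf z = 2 := by
  obtain ⟨z, hzM, hz2⟩ := StrongEmb.exists_involution_mem h.se.2.1
  exact ⟨z, (h.mem_iff z).2 ⟨hzM, (sq_ne hz2).1⟩, hz2⟩

theorem Pr.not_le (h : Pr p M S) {g : G} (hg : g ∉ M) : ¬ S ≤ M.map (MulAut.conj g).toMonoidHom := by
  intro hle
  obtain ⟨z, hz, hz2⟩ := h.exists_involution
  have h1 := hle hz
  rw [ConjSylow.mem_conj] at h1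
  exact hg (h.back hz (sq_ne hz2).2 h1)

variable {M' S' : Subgroup G}

theorem Pr.inf_bot (cx : Cx p G) (h : Pr p M S) (h' : Pr p M' S') {U : Subgroup G} (hU : IsPGroup p U)
    (hUM : U ≤ M) (hUM' : U ≤ M') (hx : ∃ x ∈ U, ∃ s ∈ S, x * s ≠ s * x) (hx' : ∃ x ∈ U, ∃ s ∈ S', x * s ≠ s * x)
    (hne : ¬ S ≤ M') : U ⊓ (centralizer (S : Set G) ⊓ centralizer (S' : Set G)) = ⊥ := by
  by_contra hK
  set K := U ⊓ (centralizer (S : Set G) ⊓ centralizer (S' : Set G)) with hKdef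
  have hUK : U ≤ normalizer (K : Set G) :=
    LocBase.le_normalizer_inf le_normalizer (LocBase.le_normalizer_inf
      (LocBase.le_normalizer_centralizer (hUM.trans h.normal)) (LocBase.le_normalizer_centralizer (hUM'.trans h'.normal)))
  have h1 := PAct.inf_centralizer_ne_bot hU (hU.to_le inf_le_left : IsPGroup p K) hK hUK
  obtain ⟨⟨e, he⟩, he1⟩ := (Subgroup.ne_bot_iff_exists_ne_one (H := K ⊓ centralizer (U : Set G))).1 h1
  have he1' : e ≠ 1 := fun h => he1 (Subtype.ext h)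
  obtain ⟨x, hxU, s, hs, hxs⟩ := hx
  obtain ⟨x', hxU', s', hs', hxs'⟩ := hx'
  obtain ⟨n, hn⟩ := pow_of_mem hU hxU
  obtain ⟨n', hn'⟩ := pow_of_mem hU hxU'
  have hc := h'.cent_le cx (hUM' hxU') hn' hs' hxs' he1' (mem_centralizer_iff.1 he.2 x' hxU').symm
    (mem_centralizer_iff.1 he.1.2.2 s' hs').symm
  apply hne
  intro y hy
  apply hc
  rw [mem_centralizer_singleton_iff]
  exact mem_centralizer_iff.1 he.1.2.1 y hy

/-- commutators of `p`-elements of a `p`-subgroup of `M` centralize `S` -/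
theorem Pr.comm_cent (h : Pr p M S) {U : Subgroup G} (hU : IsPGroup p U) (hUM : U ≤ M) {x y : G} (hx : x ∈ U)
    (hy : y ∈ U) : ⁅x, y⁆ ∈ centralizer (S : Set G) := by
  obtain ⟨z, hz, hz2⟩ := h.exists_involution
  set C := U ⊓ centralizer (S : Set G) with hC
  have hCz : U ⊓ centralizer ({z} : Set G) = C := by
    apply le_antisymm
    · intro c hc
      refine mem_inf.2 ⟨hc.1, mem_centralizer_iff.2 fun s hs => ?_⟩
      obtain ⟨n, hn⟩ := pow_of_mem hU hc.1
      exact (h.fix (hUM hc.1) hn hz (sq_ne hz2).2 (mem_centralizer_singleton_iff.1 hc.2) hs).symm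
    · intro c hc
      exact mem_inf.2 ⟨hc.1, mem_centralizer_singleton_iff.2 (mem_centralizer_iff.1 hc.2 z hz).symm⟩
  have hcount := InvAct.card_conj_orbit U z
  rw [hCz] at hcount
  have hle : ({v : G | ∃ k ∈ U, k * z * k⁻¹ = v}).ncard ≤ p := by
    have h1 : {v : G | ∃ k ∈ U, k * z * k⁻¹ = v} ⊆ (S : Set G) \ {1} := by
      rintro v ⟨k, hk, rfl⟩
      refine ⟨(mem_normalizer_iff.1 (h.normal (hUM hk)) z).1 hz, ?_⟩
      intro h1
      apply (sq_ne hz2).2
      have h1' : k * z * k⁻¹ = 1 := h1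
      have h2 : z = k⁻¹ * (k * z * k⁻¹) * k := by group
      rw [h2, h1']; group
    refine (Set.ncard_le_ncard h1 (Set.toFinite _)).trans ?_
    rw [Set.ncard_sdiff (by simp), Set.ncard_singleton]
    have : (S : Set G).ncard = Nat.card S := rfl
    rw [this, h.card]; rfl
  have hCU : C ≤ U := inf_le_left
  have h2 := SubgroupTools.card_mul_relIndex_of_le hCU
  have h3 : C.relIndex U = ({v : G | ∃ k ∈ U, k * z * k⁻¹ = v}).ncard := by
    have h0 : 0 < Nat.card C := Nat.card_pos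
    apply Nat.eq_of_mul_eq_mul_left h0
    rw [h2, hcount]; ring
  obtain ⟨a, ha⟩ := IsPGroup.iff_card.1 hU
  have h4 : C.relIndex U ∣ p ^ a := by rw [← ha]; exact relIndex_dvd_card _ _
  obtain ⟨i, -, hi⟩ := (Nat.dvd_prime_pow hp.out).1 h4
  have h5 : C.relIndex U ∣ p := by
    rw [hi]
    rw [← h3, hi] at hle
    have h6 : i ≤ 1 := by
      by_contra hcon
      have h7 : p ^ 2 ≤ p ^ i := Nat.pow_le_pow_right hp.out.pos (by omega)
      have h8 : p < p ^ 2 := by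
        rw [pow_two]; exact lt_mul_self hp.out.one_lt
      omega
    calc p ^ i ∣ p ^ 1 := Nat.pow_dvd_pow p h6
      _ = p := pow_one p
  have hCn : (C.subgroupOf U).Normal := by
    apply (normal_subgroupOf_iff_le_normalizer hCU).2
    exact LocBase.le_normalizer_inf le_normalizer (LocBase.le_normalizer_centralizer (hUM.trans h.normal))
  have hcyc : IsCyclic (U ⧸ C.subgroupOf U) := isCyclic_of_card_dvd_prime (p := p) (by rw [← index_eq_card]; exact h5)
  obtain ⟨g, hg⟩ := hcyc.exists_generator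
  have h6 : (QuotientGroup.mk' (C.subgroupOf U)) ⁅(⟨x, hx⟩ : U), ⟨y, hy⟩⁆ = 1 := by
    rw [map_commutatorElement, commutatorElement_eq_one_iff_mul_comm]
    obtain ⟨a, ha⟩ := mem_zpowers_iff.1 (hg (QuotientGroup.mk' (C.subgroupOf U) ⟨x, hx⟩))
    obtain ⟨b, hb⟩ := mem_zpowers_iff.1 (hg (QuotientGroup.mk' (C.subgroupOf U) ⟨y, hy⟩))
    rw [← ha, ← hb, ← zpow_add, ← zpow_add, add_comm]
  have h7 : ⁅(⟨x, hx⟩ : U), ⟨y, hy⟩⁆ ∈ C.subgroupOf U := (QuotientGroup.eq_one_iff _).1 h6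
  exact (mem_subgroupOf.1 h7).2

theorem Pr.comm_of (cx : Cx p G) (h : Pr p M S) (h' : Pr p M' S') {U : Subgroup G} (hU : IsPGroup p U)
    (hUM : U ≤ M) (hUM' : U ≤ M') (hx : ∃ x ∈ U, ∃ s ∈ S, x * s ≠ s * x) (hx' : ∃ x ∈ U, ∃ s ∈ S', x * s ≠ s * x)
    (hne : ¬ S ≤ M') {a b : G} (ha : a ∈ U) (hb : b ∈ U) : a * b = b * a := by
  have h1 := h.inf_bot cx h' hU hUM hUM' hx hx' hne
  rw [← commutatorElement_eq_one_iff_mul_comm, ← mem_bot, ← h1]
  refine mem_inf.2 ⟨?_, mem_inf.2 ⟨h.comm_cent hU hUM ha hb, h'.comm_cent hU hUM' ha hb⟩⟩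
  rw [commutatorElement_def]
  exact mul_mem (mul_mem (mul_mem ha hb) (inv_mem ha)) (inv_mem hb)

theorem Pr.key (cx : Cx p G) (h : Pr p M S) {u : G} (hu2 : orderOf u = 2) (huM : u ∉ M) {Q : Subgroup G}
    (hQ : RelSylow.IsSyl p Q (M ⊓ M.map (MulAut.conj u).toMonoidHom)) (hQu : u ∈ normalizer (Q : Set G)) :
    ∀ x ∈ Q, x ∈ centralizer (S : Set G) → x = 1 := by
  intro x hxQ hxS
  by_contra hx1
  have huu : u * u = 1 := by rw [← pow_two]; exact (sq_ne hu2).1
  have hui : u⁻¹ = u := inv_eq_of_mul_eq_one_left huu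
  have h' := h.conj u
  have huM' : u ∉ M.map (MulAut.conj u).toMonoidHom := by
    rw [ConjSylow.mem_conj]
    intro h1
    apply huM
    have : u⁻¹ * u * u = u := by group
    rwa [this] at h1
  have hback : (M.map (MulAut.conj u).toMonoidHom).map (MulAut.conj u).toMonoidHom = M := by
    rw [ConjSylow.conj_conj, huu, ConjSylow.conj_one]
  have hn1 := h.nontriv huM hQ
  have hn2 := h'.nontriv huM' (by rw [hback, inf_comm]; exact hQ)
  have hQp := hQ.2.1
  have hQM : Q ≤ M := hQ.1.trans inf_le_left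
  have hQM' : Q ≤ M.map (MulAut.conj u).toMonoidHom := hQ.1.trans inf_le_right
  have hbot := h.inf_bot cx h' hQp hQM hQM' hn1 hn2 (h.not_le huM)
  have hcomm : ∀ {a b : G}, a ∈ Q → b ∈ Q → a * b = b * a := fun ha hb =>
    h.comm_of cx h' hQp hQM hQM' hn1 hn2 (h.not_le huM) ha hb
  set y := u * x * u⁻¹ with hy
  have hyQ : y ∈ Q := (mem_normalizer_iff.1 hQu x).1 hxQ
  have hyS : y ∈ centralizer ((S.map (MulAut.conj u).toMonoidHom : Subgroup G) : Set G) := by
    rw [mem_centralizer_iff]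
    rintro _ ⟨s, hs, rfl⟩
    change u * s * u⁻¹ * y = y * (u * s * u⁻¹)
    have h1 := mem_centralizer_iff.1 hxS s hs
    calc u * s * u⁻¹ * (u * x * u⁻¹) = u * (s * x) * u⁻¹ := by group
      _ = u * (x * s) * u⁻¹ := by rw [h1]
      _ = u * x * u⁻¹ * (u * s * u⁻¹) := by group
  set c := x * y with hc
  have hcQ : c ∈ Q := mul_mem hxQ hyQ
  have hcu : u * c = c * u := by
    have h1 : u * c * u⁻¹ = c := by
      have h2 : u * c * u⁻¹ = (u * x * u⁻¹) * (u * (u * x * u⁻¹) * u⁻¹) := by rw [hc, hy]; group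
      have h3 : u * (u * x * u⁻¹) * u⁻¹ = x := by
        have : u * (u * x * u⁻¹) * u⁻¹ = (u * u) * x * (u * u)⁻¹ := by group
        rw [this, huu]; simp
      rw [h2, h3, ← hy]
      exact hcomm hyQ hxQ
    calc u * c = (u * c * u⁻¹) * u := by group
      _ = c * u := by rw [h1]
  have hc1 : c ≠ 1 := by
    intro h1
    apply hx1
    have h2 : y = x⁻¹ := eq_inv_of_mul_eq_one_right h1
    rw [← mem_bot, ← hbot]
    refine mem_inf.2 ⟨hxQ, mem_inf.2 ⟨hxS, ?_⟩⟩
    have := inv_mem hyS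
    rwa [h2, inv_inv] at this
  -- the point fixed by `u`
  obtain ⟨z, hz, hz2⟩ := h.exists_involution
  obtain ⟨-, hconj⟩ := Cfsg.Agent.S1225.result M h.se u hu2 huM z z hz2 (h.le hz) hz2 (h.le hz)
  obtain ⟨g, hg⟩ := isConj_iff.1 (hconj z u hz2 hu2)
  have hγ := h.conj g
  have huγ : u ∈ S.map (MulAut.conj g).toMonoidHom := ⟨z, hz, hg⟩
  have hgM : g ∉ M := by
    intro h1
    apply huM
    rw [← hg]
    exact mul_mem (mul_mem h1 (h.le hz)) (inv_mem h1)
  have hcγ : c ∈ M.map (MulAut.conj g).toMonoidHom := hγ.cent huγ (sq_ne hu2).2 (mem_centralizer_singleton_iff.2 hcu.symm)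
  obtain ⟨n, hn⟩ := pow_of_mem hQp hcQ
  have hcS : ∀ s ∈ S.map (MulAut.conj g).toMonoidHom, c * s = s * c := fun s hs =>
    hγ.fix hcγ hn huγ (sq_ne hu2).2 hcu.symm hs
  obtain ⟨U, hcU, hU⟩ := RelSylow.exists_isSyl_ge (isPGroup_zpowers_of_pow hn)
    (show zpowers c ≤ M ⊓ M.map (MulAut.conj g).toMonoidHom by
      rw [zpowers_le]; exact mem_inf.2 ⟨hQM hcQ, hcγ⟩)
  have hm1 := h.nontriv hgM hU
  have hm2 := hγ.nontriv (g := g⁻¹) (by
    rw [ConjSylow.mem_conj]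
    intro h1
    apply hgM
    have : g⁻¹ * g⁻¹ * g = g⁻¹ := by group
    rw [this] at h1
    simpa using inv_mem h1) (by rw [ConjSylow.conj_inv_conj, inf_comm]; exact hU)
  have hUc : ∀ {a b : G}, a ∈ U → b ∈ U → a * b = b * a := fun ha hb =>
    h.comm_of cx hγ hU.2.1 (hU.1.trans inf_le_left) (hU.1.trans inf_le_right) hm1 hm2 (h.not_le hgM) ha hb
  obtain ⟨x', hx'U, s, hs, hxs⟩ := hm2
  obtain ⟨n', hn'⟩ := pow_of_mem hU.2.1 hx'U
  have hle := hγ.cent_le cx (hU.1.trans inf_le_right hx'U) hn' hs hxs hc1 (hUc (hcU (mem_zpowers c)) hx'U)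
    (hcS s hs)
  have hxγ : x ∈ M.map (MulAut.conj g).toMonoidHom := hle (mem_centralizer_singleton_iff.2 (hcomm hxQ hcQ))
  -- `u` centralizes `x`
  have hw1 : x * u * x⁻¹ * u⁻¹ ∈ S.map (MulAut.conj g).toMonoidHom :=
    mul_mem ((mem_normalizer_iff.1 (hγ.normal hxγ) u).1 huγ) (inv_mem huγ)
  have hw2 : x * u * x⁻¹ * u⁻¹ ∈ Q := by
    have h1 : x * u * x⁻¹ * u⁻¹ = x * (u * x⁻¹ * u⁻¹) := by group
    rw [h1]
    exact mul_mem hxQ ((mem_normalizer_iff.1 hQu _).1 (inv_mem hxQ))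
  obtain ⟨k, hk⟩ := pow_of_mem hQp hw2
  have hw := eq_one_of_two cx.p_odd (hγ.sq hw1) hk
  have hyx : y = x := by
    have h1 : x * u * x⁻¹ * u⁻¹ = x * y⁻¹ := by rw [hy]; group
    rw [h1, mul_inv_eq_one] at hw
    exact hw.symm
  apply hx1
  rw [← mem_bot, ← hbot]
  refine mem_inf.2 ⟨hxQ, mem_inf.2 ⟨hxS, ?_⟩⟩
  rw [← hyx]; exact hyS

end Cfsg.Agent.Lib.PAbA
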