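import Cfsg.Agent.Lib.PAbD
import Cfsg.Agent.Lib.CoprimeAction
import Mathlib.GroupTheory.FixedPointFree

/-!
Simple groups all of whose `p'`-subgroups are abelian, V: the final contradiction (helper9, S1936).
-/

set_option autoImplicit false
set_option maxHeartbeats 400000
set_option linter.unusedSectionVars false

namespace Cfsg.Agent.Lib.PAbA

open Subgroup Cfsg
open scoped commutatorElement

universe u

variable {G : Type u} [Group G] [Finite G] {p : ℕ} [hp : Fact p.Prime] {M S : Subgroup G}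

/-- a nontrivial `p`-element centralizing `S` lies in no other conjugate of `M` -/
theorem Pr.R1 (cx : Cx p G) (h : Pr p M S) {g : G} (hg : g ∉ M) {c : G} (hcM : c ∈ M)
    (hcg : c ∈ M.map (MulAut.conj g).toMonoidHom) {n : ℕ} (hn : c ^ p ^ n = 1)
    (hcS : c ∈ centralizer (S : Set G)) : c = 1 := by
  obtain ⟨u, hu2, huM, heq⟩ := h.exists_swap hg
  rw [heq] at hcg
  set D := M ⊓ M.map (MulAut.conj u).toMonoidHom with hD
  have huu : u * u = 1 := by rw [← pow_two]; exact (sq_ne hu2).1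
  have hback : (M.map (MulAut.conj u).toMonoidHom).map (MulAut.conj u).toMonoidHom = M := by
    rw [ConjSylow.conj_conj, huu, ConjSylow.conj_one]
  have huD : zpowers u ≤ normalizer (D : Set G) := by
    rw [zpowers_le]
    apply LocBase.mem_normalizer_of_map_conj_eq
    rw [hD, map_inf_eq _ _ _ (MulAut.conj u).injective, hback, inf_comm]
  have hcop : (Nat.card (zpowers u)).Coprime (Nat.card D) := by
    rw [Nat.card_zpowers, hu2]
    have h1 := h.se.2.2 u huM
    exact (Nat.coprime_two_left).2 h1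
  obtain ⟨Q, hQD, hQp, hQi, hQu⟩ := CoprimeAction.exists_invariant_sylow huD hcop (Or.inl inferInstance) p
  have hQ : RelSylow.IsSyl p Q D := ⟨hQD, hQp, hQi⟩
  have key := h.key cx hu2 huM hQ (hQu (mem_zpowers u))
  obtain ⟨d, hd, hle⟩ := hQ.exists_conj_le (isPGroup_zpowers_of_pow hn)
    (show zpowers c ≤ D by rw [zpowers_le]; exact mem_inf.2 ⟨hcM, hcg⟩)
  have h1 := hle (mem_zpowers c)
  rw [ConjSylow.mem_conj] at h1
  have h2 : d⁻¹ * c * d ∈ centralizer (S : Set G) := by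
    rw [mem_centralizer_iff] at hcS ⊢
    intro s hs
    have h3 := hcS (d * s * d⁻¹) ((mem_normalizer_iff.1 (h.normal hd.1) s).1 hs)
    calc s * (d⁻¹ * c * d) = d⁻¹ * (d * s * d⁻¹ * c) * d := by group
      _ = d⁻¹ * (c * (d * s * d⁻¹)) * d := by rw [h3]
      _ = d⁻¹ * c * d * s := by group
  have h3 := key _ h1 h2
  have h4 : c = d * (d⁻¹ * c * d) * d⁻¹ := by group
  rw [h4, h3]; group

/-- elements of odd order inverted by an involution are `p`-elements -/
theorem Cx.inverted (cx : Cx p G) {t x : G} (ht : orderOf t = 2) (hx : Odd (orderOf x)) (hinv : t * x * t⁻¹ = x⁻¹) :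
    ∃ n : ℕ, x ^ p ^ n = 1 := by
  have key : ∀ r : ℕ, r.Prime → r ∣ orderOf x → r = p := by
    intro r hr hrx
    by_contra hrp
    obtain ⟨m, hm⟩ := hrx
    set y := x ^ m with hy
    have hyo : orderOf y = r := by
      rw [hy]
      have hm0 : 0 < m := by
        rcases Nat.eq_zero_or_pos m with h0 | h0
        · rw [h0, mul_zero] at hm
          exact absurd hm (orderOf_pos x).ne'
        · exact h0
      rw [orderOf_pow_of_dvd hm0.ne' (Dvd.intro_left r hm.symm), hm, Nat.mul_div_cancel _ hm0]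
    have hyi : t * y * t⁻¹ = y⁻¹ := by rw [hy, ← conj_pow, hinv, inv_pow]
    have hty : zpowers t ≤ normalizer ((zpowers y : Subgroup G) : Set G) := by
      rw [zpowers_le]
      apply H32Cores.mem_normalizer_of_conj_le
      intro w hw
      obtain ⟨k, rfl⟩ := mem_zpowers_iff.1 hw
      have : t * y ^ k * t⁻¹ = (t * y * t⁻¹) ^ k := by rw [conj_zpow]
      rw [this, hyi]
      exact zpow_mem (inv_mem (mem_zpowers y)) k
    have hcard := ConjSylow.card_sup_mul_card_inf hty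
    have hd : Nat.card (zpowers t ⊔ zpowers y : Subgroup G) ∣ 2 * r := by
      have h1 : Nat.card (zpowers t ⊔ zpowers y : Subgroup G) ∣ Nat.card (zpowers t) * Nat.card (zpowers y) :=
        Dvd.intro _ hcard
      rwa [Nat.card_zpowers, Nat.card_zpowers, ht, hyo] at h1
    have hcop : (Nat.card (zpowers t ⊔ zpowers y : Subgroup G)).Coprime p := by
      apply Nat.Coprime.coprime_dvd_left hd
      apply Nat.Coprime.mul_left
      · exact (Nat.coprime_primes Nat.prime_two hp.out).2 cx.p_odd.symm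
      · exact (Nat.coprime_primes hr hp.out).2 hrp
    have hc := cx.comm _ hcop t (mem_sup_left (mem_zpowers t)) y (mem_sup_right (mem_zpowers y))
    rw [hc, mul_inv_cancel_right] at hyi
    have h2 : y ^ 2 = 1 := by
      rw [pow_two]
      nth_rewrite 2 [hyi]
      rw [mul_inv_cancel]
    have h3 : r ∣ 2 := by rw [← hyo]; exact orderOf_dvd_of_pow_eq_one h2
    have h4 : r = 2 := (Nat.prime_dvd_prime_iff_eq hr Nat.prime_two).1 h3
    rw [hm, h4, Nat.odd_mul] at hx
    exact absurd hx.1 (by decide)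
  refine ⟨(orderOf x).primeFactorsList.length, ?_⟩
  have h1 := Nat.eq_prime_pow_of_unique_prime_dvd (orderOf_pos x).ne' (fun {d} hd hdx => key d hd hdx)
  rw [← h1, pow_orderOf_eq_one]

theorem inv_of_fpf {t : G} (ht : t * t = 1) {X : Subgroup G} (hX : t ∈ normalizer (X : Set G))
    (hf : ∀ x ∈ X, t * x = x * t → x = 1) : ∀ x ∈ X, t * x * t⁻¹ = x⁻¹ := by
  set φ : MulAut X := X.normalizerMonoidHom ⟨t, hX⟩ with hφ
  have hφx : ∀ x : X, ((φ x : X) : G) = t * x * t⁻¹ := fun x => rfl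
  have h1 : MonoidHom.FixedPointFree (φ : X → X) := by
    intro x hx
    apply Subtype.ext
    apply hf x x.2
    have h2 := congrArg Subtype.val hx
    rw [hφx] at h2
    rw [← mul_inv_eq_iff_eq_mul]; exact h2
  have h2 : Function.Involutive φ := by
    intro x
    apply Subtype.ext
    rw [hφx, hφx]
    have : t * (t * x * t⁻¹) * t⁻¹ = (t * t) * x * (t * t)⁻¹ := by group
    rw [this, ht]; simp
  have h3 := h1.coe_eq_inv_of_involutive h2
  intro x hx
  have h4 := congrFun h3 ⟨x, hx⟩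
  have h5 := congrArg Subtype.val h4
  rw [hφx] at h5
  simpa using h5

/-- exponent of 2-elements -/
theorem Pr.two_elem (h : Pr p M S) (T : Sylow 2 G) (hT : (T : Subgroup G) = S) {x : G} {n : ℕ}
    (hx : x ^ 2 ^ n = 1) : x ^ 2 = 1 := by
  obtain ⟨m, -, hm⟩ := exists_conj_mem T (le_top : (T : Subgroup G) ≤ ⊤) (mem_top x) hx
  rw [hT] at hm
  have h1 := h.sq hm
  have h2 : (m * x * m⁻¹) ^ 2 = m * x ^ 2 * m⁻¹ := conj_pow
  rw [h2] at h1
  have h3 : x ^ 2 = m⁻¹ * (m * x ^ 2 * m⁻¹) * m := by group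
  rw [h3, h1]; group

/-- an involution of `N_G(P)` inverting a nontrivial element of `P` -/
theorem Pr.exists_n0 (cx : Cx p G) (h : Pr p M S) (T : Sylow 2 G) (hT : (T : Subgroup G) = S) (P : Sylow p G) :
    ∃ t ∈ normalizer ((P : Subgroup G) : Set G), orderOf t = 2 ∧ ∃ x ∈ (P : Subgroup G), x ≠ 1 ∧ t * x * t⁻¹ = x⁻¹ := by
  obtain ⟨z, hz, hz2⟩ := h.exists_involution
  obtain ⟨x, hx1, hxo, hxi⟩ := BaerSuzuki.exists_inverted_odd z hz2 (by
    intro N hN hNp hzN
    have := cx.simple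
    rcases hN.eq_bot_or_eq_top with h1 | h1
    · rw [h1, mem_bot] at hzN
      exact (sq_ne hz2).2 hzN
    · exact cx.ne_top_of_isPGroup hNp h1)
  obtain ⟨n, hn⟩ := cx.inverted hz2 hxo hxi
  obtain ⟨g, -, hgP⟩ := (RelSylow.isSyl_top_iff P).exists_conj_le (isPGroup_zpowers_of_pow hn) le_top
  have hxP := hgP (mem_zpowers x)
  rw [ConjSylow.mem_conj] at hxP
  set y := g⁻¹ * x * g with hy
  set s := g⁻¹ * z * g with hs
  have hsy : s * y * s⁻¹ = y⁻¹ := by
    have h1 : s * y * s⁻¹ = g⁻¹ * (z * x * z⁻¹) * g := by rw [hs, hy]; group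
    rw [h1, hxi, hy]; group
  have hy1 : y ≠ 1 := by
    intro h1
    apply hx1
    have : x = g * y * g⁻¹ := by rw [hy]; group
    rw [this, h1]; group
  obtain ⟨m, hm, hmy⟩ := cx.strong P {y} (by
      intro a ha; rw [Set.mem_singleton_iff] at ha; rw [ha]; exact hxP) s⁻¹ (by
    rintro _ ⟨a, ha, rfl⟩
    rw [Set.mem_singleton_iff] at ha
    subst ha
    simp only [inv_inv]
    rw [hsy]; exact inv_mem hxP)
  have hmy' := hmy y (Set.mem_singleton y)
  rw [inv_inv, hsy] at hmy'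
  -- powers of `m`
  have hpow : ∀ k : ℕ, (m ^ (2 * k + 1))⁻¹ * y * m ^ (2 * k + 1) = y⁻¹ := by
    intro k
    induction k with
    | zero => simpa using hmy'
    | succ k ih =>
      have e : m ^ (2 * (k + 1) + 1) = m ^ (2 * k + 1) * m * m := by
        rw [show 2 * (k + 1) + 1 = (2 * k + 1) + 1 + 1 by ring, pow_succ, pow_succ]
      rw [e]
      have key2 : ∀ w : G, (w * m * m)⁻¹ * y * (w * m * m) = m⁻¹ * (m⁻¹ * (w⁻¹ * y * w) * m) * m := fun w => by group
      calc (m ^ (2 * k + 1) * m * m)⁻¹ * y * (m ^ (2 * k + 1) * m * m)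
          = m⁻¹ * (m⁻¹ * ((m ^ (2 * k + 1))⁻¹ * y * m ^ (2 * k + 1)) * m) * m := key2 _
        _ = m⁻¹ * (m⁻¹ * y⁻¹ * m) * m := by rw [ih]
        _ = m⁻¹ * (m⁻¹ * y * m)⁻¹ * m := by group
        _ = y⁻¹ := by rw [hmy', inv_inv, hmy']
  obtain ⟨a, b, hb, hab⟩ := Nat.exists_eq_two_pow_mul_odd (orderOf_pos m).ne'
  obtain ⟨k, hk⟩ := hb
  set t := m ^ b with ht
  have ht2 : t ^ 2 = 1 := by
    apply h.two_elem T hT (n := a)
    rw [ht, ← pow_mul, mul_comm, ← hab, pow_orderOf_eq_one]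
  have hty : t⁻¹ * y * t = y⁻¹ := by rw [ht, hk]; exact hpow k
  have htt : t⁻¹ = t := by
    rw [pow_two] at ht2
    exact inv_eq_of_mul_eq_one_left ht2
  obtain ⟨j, hj⟩ := pow_of_mem P.2 hxP
  have ht1 : t ≠ 1 := by
    intro h1
    rw [h1] at hty
    apply hy1
    apply eq_one_of_two cx.p_odd _ hj
    rw [pow_two]
    have : y = y⁻¹ := by simpa using hty
    nth_rewrite 2 [this]
    rw [mul_inv_cancel]
  refine ⟨t, pow_mem hm b, orderOf_of ht2 ht1, y, hxP, hy1, ?_⟩
  have h1 : t * y * t⁻¹ = t⁻¹ * y * t := by rw [htt]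
  rw [h1, hty]

/-- `C_M(S)` has no `p`-elements -/
theorem Pr.S6 (cx : Cx p G) (h : Pr p M S) (T : Sylow 2 G) (hT : (T : Subgroup G) = S) {c : G} (hcM : c ∈ M)
    {n : ℕ} (hn : c ^ p ^ n = 1) (hcS : c ∈ centralizer (S : Set G)) : c = 1 := by
  by_contra hc1
  obtain ⟨U, hcU, hU⟩ := RelSylow.exists_isSyl_ge (isPGroup_zpowers_of_pow hn) (show zpowers c ≤ M by rwa [zpowers_le])
  have hcU' := hcU (mem_zpowers c)
  have hNU : normalizer (U : Set G) ≤ M := by
    intro g hg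
    by_contra hgM
    apply hc1
    refine h.R1 cx hgM hcM ?_ hn hcS
    rw [ConjSylow.mem_conj]
    exact hU.1 ((mem_normalizer_iff''.1 hg c).1 hcU')
  obtain ⟨P, hUP⟩ := hU.2.1.exists_le_sylow
  have hPU : (P : Subgroup G) = U := by
    apply StrongEmb.isSylow_of_normalizer _ P.2 hUP
    intro R hR hUR hRN
    exact (hU.eq_of_le hR (hRN.trans hNU) hUR).symm
  obtain ⟨t, ht, ht2, x, hx, hx1, hxi⟩ := h.exists_n0 cx T hT P
  rw [hPU] at ht hx
  have htM := hNU ht
  have htS : t ∈ S := (h.mem_iff t).2 ⟨htM, (sq_ne ht2).1⟩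
  have hw : x⁻¹ * x⁻¹ ∈ S := by
    have h1 : x⁻¹ * x⁻¹ = t * (x * t⁻¹ * x⁻¹) := by
      have h2 : t * (x * t⁻¹ * x⁻¹) = (t * x * t⁻¹) * x⁻¹ := by group
      rw [h2, hxi]
    rw [h1]
    exact mul_mem htS ((mem_normalizer_iff.1 (h.normal (hU.1 hx)) _).1 (inv_mem htS))
  obtain ⟨k, hk⟩ := pow_of_mem hU.2.1 (mul_mem (inv_mem hx) (inv_mem hx))
  have h2 := eq_one_of_two cx.p_odd (h.sq hw) hk
  obtain ⟨k', hk'⟩ := pow_of_mem hU.2.1 hx
  apply hx1
  apply eq_one_of_two cx.p_odd _ hk'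
  rw [pow_two]
  have : x * x = (x⁻¹ * x⁻¹)⁻¹ := by simp
  rw [this, h2, inv_one]

end Cfsg.Agent.Lib.PAbA
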