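import Cfsg.Agent.Lib.PAbE
import Cfsg.Agent.Lib.H32Invol

/-!
Simple groups all of whose `p'`-subgroups are abelian, VI: counting (helper9, S1936).
-/

set_option autoImplicit false
set_option maxHeartbeats 400000
set_option linter.unusedSectionVars false

namespace Cfsg.Agent.Lib.PAbA

open Subgroup Cfsg
open scoped commutatorElement Pointwise

universe u

variable {G : Type u} [Group G] [Finite G] {p : ℕ} [hp : Fact p.Prime] {M S : Subgroup G}

/-- the pair, with `S` a Sylow 2-subgroup of `G` -/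
structure PrT (p : ℕ) (M S : Subgroup G) : Prop where
  pr : Pr p M S
  syl : ∃ T : Sylow 2 G, (T : Subgroup G) = S

theorem PrT.conj (h : PrT p M S) (g : G) :
    PrT p (M.map (MulAut.conj g).toMonoidHom) (S.map (MulAut.conj g).toMonoidHom) := by
  refine ⟨h.pr.conj g, ?_⟩
  obtain ⟨T, hT⟩ := h.syl
  refine ⟨g • T, ?_⟩
  rw [Sylow.coe_subgroup_smul, hT]
  rfl

theorem PrT.exists_mem (h : PrT p M S) {t : G} (ht : orderOf t = 2) : ∃ M' S' : Subgroup G, PrT p M' S' ∧ t ∈ S' := by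
  obtain ⟨z, hz, hz2⟩ := h.pr.exists_involution
  obtain ⟨u, hu2, huM⟩ := exists_involution_not_mem h.pr.se
  obtain ⟨-, hconj⟩ := Cfsg.Agent.S1225.result M h.pr.se u hu2 huM z z hz2 (h.pr.le hz) hz2 (h.pr.le hz)
  obtain ⟨g, hg⟩ := isConj_iff.1 (hconj z t hz2 ht)
  exact ⟨_, _, h.conj g, ⟨z, hz, hg⟩⟩

theorem PrT.cop (cx : Cx p G) (h : PrT p M S) {v : G} (hv : v ∈ S) (hv1 : v ≠ 1) :
    ¬ p ∣ Nat.card (centralizer ({v} : Set G)) := by
  intro hd
  obtain ⟨T, hT⟩ := h.syl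
  obtain ⟨⟨c, hc⟩, hco⟩ := exists_prime_orderOf_dvd_card' p hd
  rw [Subgroup.orderOf_mk] at hco
  have hcp : c ^ p ^ 1 = 1 := by rw [pow_one, ← hco, pow_orderOf_eq_one]
  have hcM := h.pr.cent hv hv1 hc
  have h1 := h.pr.S6 cx T hT hcM hcp (mem_centralizer_iff.2 fun s hs =>
    (h.pr.fix hcM hcp hv hv1 (mem_centralizer_singleton_iff.1 hc) hs).symm)
  rw [h1, orderOf_one] at hco
  exact hp.out.one_lt.ne hco

theorem PrT.cop' (cx : Cx p G) (h : PrT p M S) {t : G} (ht : orderOf t = 2) :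
    ¬ p ∣ Nat.card (centralizer ({t} : Set G)) := by
  obtain ⟨M', S', h', htS⟩ := h.exists_mem ht
  exact h'.cop cx htS (sq_ne ht).2

theorem PrT.cent2 (cx : Cx p G) (h : PrT p M S) {v b : G} (hv : v ∈ S) (hv1 : v ≠ 1)
    (hb : b ∈ centralizer ({v} : Set G)) (hb1 : b ≠ 1) : centralizer ({b} : Set G) ≤ M := by
  set L := centralizer ({b} : Set G) with hL
  have hLt : L ≠ ⊤ := cx.centralizer_ne_top hb1
  have hCv := h.cop cx hv hv1
  have hSC : S ≤ centralizer ({v} : Set G) := fun s hs => mem_centralizer_singleton_iff.2 (h.pr.comm hs hv)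
  have hSL : S ≤ L := fun s hs => mem_centralizer_singleton_iff.2 (cx.comm _ (coprime_iff.2 hCv) s (hSC hs) b hb)
  -- `O_p(L) = 1`
  have hO : pCoreOf p L = ⊥ := by
    by_contra hne
    obtain ⟨B, hBS, hBi, hXB⟩ := exists_hyper cx.p_odd h.pr.elemAb (LocBase.isPGroup_pCoreOf p L) hne
      (hSL.trans (LocBase.le_normalizer_pCoreOf p L))
    have hB1 : B ≠ ⊥ := by
      rintro rfl
      rw [relIndex_bot_left, h.pr.card] at hBi
      have := cx.five
      omega
    obtain ⟨⟨w, hw⟩, hw1⟩ := (Subgroup.ne_bot_iff_exists_ne_one (H := B)).1 hB1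
    have hw1' : w ≠ 1 := fun h => hw1 (Subtype.ext h)
    apply hXB
    rw [eq_bot_iff]
    intro x hx
    have hxw : x ∈ centralizer ({w} : Set G) := mem_centralizer_singleton_iff.2 (mem_centralizer_iff.1 hx.2 w hw).symm
    obtain ⟨n, hn⟩ := pow_of_mem (LocBase.isPGroup_pCoreOf p L) hx.1
    have h1 : orderOf x ∣ Nat.card (centralizer ({w} : Set G)) := by
      have := orderOf_dvd_natCard (⟨x, hxw⟩ : centralizer ({w} : Set G))
      rwa [Subgroup.orderOf_mk] at this
    have h2 : orderOf x ∣ p ^ n := orderOf_dvd_of_pow_eq_one hn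
    have h3 : (Nat.card (centralizer ({w} : Set G))).Coprime (p ^ n) :=
      Nat.Coprime.pow_right n (coprime_iff.2 (h.cop cx (hBS hw) hw1'))
    rw [mem_bot, ← orderOf_eq_one_iff]
    exact Nat.dvd_one.1 (h3.gcd_eq_one ▸ Nat.dvd_gcd h1 h2)
  have hO' : pCore p L = ⊥ := by
    by_contra hne
    exact (LocBase.pCore_ne_bot_iff p L).1 hne hO
  have hsL := cx.sol L hLt
  have hdual := PSolvDual.centralizer_pPrimeCore_le (p := p) (G := L) PLength.isPSolvable_of_isSolvable hO'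
  have hvL : v ∈ L := hSL hv
  set A := (pPrimeCore p L).map L.subtype with hA
  have hLA : L ≤ normalizer (A : Set G) := Cores.le_normalizer_map_subtype _
  have hAp : (Nat.card A).Coprime p := by rw [hA, Cores.card_map_subtype]; exact Cores.coprime_card_pPrimeCore p _
  have hvA : ∀ a ∈ A, a * v = v * a := by
    have h1 : zpowers v ≤ normalizer (A : Set G) := by rw [zpowers_le]; exact hLA hvL
    have hcard := ConjSylow.card_sup_mul_card_inf h1
    have hcop : (Nat.card (zpowers v ⊔ A : Subgroup G)).Coprime p := by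
      have h2 : Nat.card (zpowers v ⊔ A : Subgroup G) ∣ 2 * Nat.card A := by
        have h3 : Nat.card (zpowers v) = 2 := by rw [Nat.card_zpowers, orderOf_of (h.pr.sq hv) hv1]
        rw [← h3]; exact Dvd.intro _ hcard
      apply Nat.Coprime.coprime_dvd_left h2
      exact Nat.Coprime.mul_left ((Nat.coprime_primes Nat.prime_two hp.out).2 cx.p_odd.symm) hAp
    intro a ha
    exact cx.comm _ hcop a (mem_sup_right ha) v (mem_sup_left (mem_zpowers v))
  have hvA' : v ∈ A := by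
    refine ⟨⟨v, hvL⟩, hdual ?_, rfl⟩
    rw [mem_centralizer_iff]
    intro a ha
    exact Subtype.ext (hvA a ⟨a, ha, rfl⟩)
  intro l hl
  apply h.pr.back hv hv1
  have h1 : l⁻¹ * v * l ∈ A := (mem_normalizer_iff''.1 (hLA hl) _).1 hvA'
  apply h.pr.cent hv hv1
  rw [mem_centralizer_singleton_iff]
  exact hvA _ h1

theorem PrT.D17 (cx : Cx p G) (h : PrT p M S) {t x b : G} (ht : orderOf t = 2) (hx1 : x ≠ 1) {n : ℕ}
    (hn : x ^ p ^ n = 1) (hinv : t * x * t⁻¹ = x⁻¹) (hbt : b * t = t * b) (hbx : b * x = x * b) : b = 1 := by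
  by_contra hb1
  obtain ⟨M', S', h', htS⟩ := h.exists_mem ht
  have hle := h'.cent2 cx htS (sq_ne ht).2 (mem_centralizer_singleton_iff.2 hbt) hb1
  have hxM : x ∈ M' := hle (mem_centralizer_singleton_iff.2 hbx.symm)
  have hw : x⁻¹ * x⁻¹ ∈ S' := by
    have h1 : x⁻¹ * x⁻¹ = t * (x * t⁻¹ * x⁻¹) := by
      have h2 : t * (x * t⁻¹ * x⁻¹) = (t * x * t⁻¹) * x⁻¹ := by group
      rw [h2, hinv]
    rw [h1]
    exact mul_mem htS ((mem_normalizer_iff.1 (h'.pr.normal hxM) _).1 (inv_mem htS))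
  have hk : (x⁻¹ * x⁻¹) ^ p ^ n = 1 := by
    rw [← pow_two, ← pow_mul, mul_comm, pow_mul, inv_pow, hn]; simp
  have h2 := eq_one_of_two cx.p_odd (h'.pr.sq hw) hk
  apply hx1
  apply eq_one_of_two cx.p_odd _ hn
  rw [pow_two]
  have : x * x = (x⁻¹ * x⁻¹)⁻¹ := by simp
  rw [this, h2, inv_one]

theorem PrT.D18 (cx : Cx p G) (h : PrT p M S) {t x : G} (ht : orderOf t = 2) (hx1 : x ≠ 1) {n : ℕ}
    (hn : x ^ p ^ n = 1) (hinv : t * x * t⁻¹ = x⁻¹) {y : G} (hy : y * x = x * y) :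
    t * y * t⁻¹ = y⁻¹ ∧ ∃ n : ℕ, y ^ p ^ n = 1 := by
  have htt : t * t = 1 := by rw [← pow_two]; exact (sq_ne ht).1
  have hN : t ∈ normalizer ((centralizer ({x} : Set G) : Subgroup G) : Set G) := by
    apply H32Cores.mem_normalizer_of_conj_le
    intro w hw
    rw [mem_centralizer_singleton_iff] at hw ⊢
    have h1 : x = t * x⁻¹ * t⁻¹ := by
      have h2 : t * x⁻¹ * t⁻¹ = (t * x * t⁻¹)⁻¹ := by group
      rw [h2, hinv, inv_inv]
    have h3 : w * x⁻¹ = x⁻¹ * w := ((show Commute w x from hw).inv_right)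
    calc t * w * t⁻¹ * x = t * w * t⁻¹ * (t * x⁻¹ * t⁻¹) := by rw [← h1]
      _ = t * (w * x⁻¹) * t⁻¹ := by group
      _ = t * (x⁻¹ * w) * t⁻¹ := by rw [h3]
      _ = (t * x⁻¹ * t⁻¹) * (t * w * t⁻¹) := by group
      _ = x * (t * w * t⁻¹) := by rw [← h1]
  have hf : ∀ w ∈ centralizer ({x} : Set G), t * w = w * t → w = 1 := fun w hw htw =>
    h.D17 cx ht hx1 hn hinv htw.symm (mem_centralizer_singleton_iff.1 hw)
  have hall := inv_of_fpf htt hN hf
  have hyi := hall y (mem_centralizer_singleton_iff.2 hy)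
  refine ⟨hyi, cx.inverted ht ?_ hyi⟩
  by_contra heven
  rw [Nat.not_odd_iff_even] at heven
  obtain ⟨k, hk⟩ := heven
  have hk0 : 0 < k := by have := orderOf_pos y; omega
  have h1 : y ^ k ≠ 1 := pow_ne_one_of_lt_orderOf hk0.ne' (by omega)
  have h2 : y ^ k * y ^ k = 1 := by rw [← pow_add, ← hk, pow_orderOf_eq_one]
  have h3 : (y ^ k)⁻¹ = y ^ k := inv_eq_of_mul_eq_one_left h2
  apply h1
  have h4 : y ^ k ∈ centralizer ({x} : Set G) := pow_mem (mem_centralizer_singleton_iff.2 hy) k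
  apply hf _ h4
  have h5 := hall _ h4
  rw [h3, mul_inv_eq_iff_eq_mul] at h5
  exact h5

/-- the Sylow `p`-subgroups -/
theorem PrT.sylow (cx : Cx p G) (h : PrT p M S) (P : Sylow p G) {x : G} (hx : x ∈ (P : Subgroup G)) (hx1 : x ≠ 1) :
    centralizer ({x} : Set G) = (P : Subgroup G) ∧ ∃ t, orderOf t = 2 ∧ t * x * t⁻¹ = x⁻¹ := by
  obtain ⟨T, hT⟩ := h.syl
  obtain ⟨t, htN, ht2, -⟩ := h.pr.exists_n0 cx T hT P
  have htt : t * t = 1 := by rw [← pow_two]; exact (sq_ne ht2).1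
  have hinv := inv_of_fpf htt htN (by
    intro y hy hty
    obtain ⟨n, hn⟩ := pow_of_mem P.2 hy
    have hyt : y ∈ centralizer ({t} : Set G) := mem_centralizer_singleton_iff.2 hty.symm
    have h1 : orderOf y ∣ Nat.card (centralizer ({t} : Set G)) := by
      have := orderOf_dvd_natCard (⟨y, hyt⟩ : centralizer ({t} : Set G))
      rwa [Subgroup.orderOf_mk] at this
    have h2 : orderOf y ∣ p ^ n := orderOf_dvd_of_pow_eq_one hn
    have h3 : (Nat.card (centralizer ({t} : Set G))).Coprime (p ^ n) :=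
      Nat.Coprime.pow_right n (coprime_iff.2 (h.cop' cx ht2))
    rw [← orderOf_eq_one_iff]
    exact Nat.dvd_one.1 (h3.gcd_eq_one ▸ Nat.dvd_gcd h1 h2))
  obtain ⟨n, hn⟩ := pow_of_mem P.2 hx
  have hPab : ∀ a ∈ (P : Subgroup G), ∀ b ∈ (P : Subgroup G), a * b = b * a := by
    intro a ha b hb
    have h1 := hinv _ (mul_mem ha hb)
    have h2 : t * (a * b) * t⁻¹ = (t * a * t⁻¹) * (t * b * t⁻¹) := by group
    rw [h2, hinv a ha, hinv b hb, ← mul_inv_rev, inv_inj] at h1
    exact h1.symm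
  refine ⟨?_, t, ht2, hinv x hx⟩
  have hCp : IsPGroup p (centralizer ({x} : Set G)) := by
    rintro ⟨y, hy⟩
    obtain ⟨-, m, hm⟩ := h.D18 cx ht2 hx1 hn (hinv x hx) (mem_centralizer_singleton_iff.1 hy)
    exact ⟨m, Subtype.ext (by simpa using hm)⟩
  exact P.is_maximal' hCp (fun y hy => mem_centralizer_singleton_iff.2 (hPab y hy x hx))

/-- number of involutions inverting `x` -/
theorem PrT.card_inv (cx : Cx p G) (h : PrT p M S) {t x : G} (ht : orderOf t = 2) (hx1 : x ≠ 1) {n : ℕ}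
    (hn : x ^ p ^ n = 1) (hinv : t * x * t⁻¹ = x⁻¹) :
    Nat.card {s : G // orderOf s = 2 ∧ s * x * s⁻¹ = x⁻¹} = Nat.card (centralizer ({x} : Set G)) := by
  have htt : t * t = 1 := by rw [← pow_two]; exact (sq_ne ht).1
  have hti : t⁻¹ = t := inv_eq_of_mul_eq_one_left htt
  symm
  refine Nat.card_congr (Equiv.ofBijective (fun c : centralizer ({x} : Set G) =>
    (⟨t * c, ?_⟩ : {s : G // orderOf s = 2 ∧ s * x * s⁻¹ = x⁻¹})) ⟨?_, ?_⟩)
  · have hc := mem_centralizer_singleton_iff.1 c.2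
    have h1 : (t * c) * x * (t * c)⁻¹ = x⁻¹ := by
      have h2 : (t * (c : G)) * x * (t * c)⁻¹ = t * ((c : G) * x) * (c : G)⁻¹ * t⁻¹ := by group
      rw [h2, hc]
      have h3 : t * (x * (c : G)) * (c : G)⁻¹ * t⁻¹ = t * x * t⁻¹ := by group
      rw [h3, hinv]
    refine ⟨orderOf_of ?_ ?_, h1⟩
    · have h2 := (h.D18 cx ht hx1 hn hinv hc).1
      have h3 : (t * (c : G)) ^ 2 = (t * c * t⁻¹) * (t * t) * c := by rw [pow_two]; group
      rw [h3, h2, htt]; simp
    · intro h2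
      rw [h2] at h1
      apply hx1
      apply eq_one_of_two cx.p_odd _ hn
      rw [pow_two]
      have : x = x⁻¹ := by simpa using h1
      nth_rewrite 2 [this]
      rw [mul_inv_cancel]
  · intro a b hab
    exact Subtype.ext (mul_left_cancel (congrArg Subtype.val hab))
  · rintro ⟨s, hs2, hsx⟩
    refine ⟨⟨t⁻¹ * s, ?_⟩, Subtype.ext (mul_inv_cancel_left t s)⟩
    rw [mem_centralizer_singleton_iff]
    have h1 : s * x = x⁻¹ * s := by rw [← hsx]; group
    have h2 : t⁻¹ * x⁻¹ = x * t⁻¹ := by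
      rw [← hinv]; group
    rw [mul_assoc, h1, ← mul_assoc, h2, mul_assoc]


theorem card_add_compl {α : Type*} [Finite α] (q : α → Prop) :
    Nat.card {a // q a} + Nat.card {a // ¬ q a} = Nat.card α := by
  classical
  rw [← Nat.card_sum]
  exact Nat.card_congr (Equiv.sumCompl q)

/-- for an involution `t`, the involutions `s` with `ts` not a nontrivial `p`-element are those of `S_t` -/
theorem PrT.count (cx : Cx p G) (h : PrT p M S) {t : G} (ht : orderOf t = 2) :
    Nat.card {s : {s : G // orderOf s = 2} // (t * (s : G) ≠ 1 ∧ ∃ n : ℕ, (t * (s : G)) ^ p ^ n = 1)} + p =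
      Nat.card {s : G // orderOf s = 2} := by
  obtain ⟨M', S', h', htS⟩ := h.exists_mem ht
  rw [← card_add_compl (fun s : {s : G // orderOf s = 2} => (t * (s : G) ≠ 1 ∧ ∃ n : ℕ, (t * (s : G)) ^ p ^ n = 1))]
  congr 1
  have hiff : ∀ s : {s : G // orderOf s = 2}, (¬ (t * (s : G) ≠ 1 ∧ ∃ n : ℕ, (t * (s : G)) ^ p ^ n = 1)) ↔ (s : G) ∈ S' := by
    rintro ⟨s, hs⟩
    change (¬ (t * s ≠ 1 ∧ ∃ n : ℕ, (t * s) ^ p ^ n = 1)) ↔ s ∈ S'
    constructor
    · intro h1
      by_contra hsS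
      apply h1
      have hne : t * s ≠ 1 := by
        intro h2
        apply hsS
        have : s = t⁻¹ := eq_inv_of_mul_eq_one_right h2
        rw [this]; exact inv_mem htS
      refine ⟨hne, cx.inverted ht ?_ ?_⟩
      · by_contra hodd
        rw [Nat.not_odd_iff_even] at hodd
        obtain ⟨z, -, hz2, hzt, hzs⟩ := InvAct.exists_central_of_even ht hs hodd
        have hzM : z ∈ M' := h'.pr.cent htS (sq_ne ht).2 (mem_centralizer_singleton_iff.2 hzt)
        have hzS : z ∈ S' := (h'.pr.mem_iff z).2 ⟨hzM, (sq_ne hz2).1⟩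
        have hsM : s ∈ M' := h'.pr.cent hzS (sq_ne hz2).2 (mem_centralizer_singleton_iff.2 hzs.symm)
        exact hsS ((h'.pr.mem_iff s).2 ⟨hsM, (sq_ne hs).1⟩)
      · have := (InvAct.semiconj_left ht hs)
        exact mul_inv_eq_iff_eq_mul.2 this
    · rintro hsS ⟨hne, n, hn⟩
      exact hne (eq_one_of_two cx.p_odd (h'.pr.sq (mul_mem htS hsS)) hn)
  have hcard : Nat.card {v : G // v ∈ S' ∧ v ≠ 1} = p := by
    have h1 : Nat.card {v : G // v ∈ S' ∧ v ≠ 1} = ((S' : Set G) \ {1}).ncard := rfl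
    rw [h1, Set.ncard_sdiff (by simp), Set.ncard_singleton]
    have : (S' : Set G).ncard = Nat.card S' := rfl
    rw [this, h'.pr.card]; rfl
  refine hcard.symm.trans (Nat.card_congr ⟨fun v => ⟨⟨v.1, orderOf_of (h'.pr.sq v.2.1) v.2.2⟩, (hiff _).2 v.2.1⟩,
    fun s => ⟨s.1, (hiff _).1 s.2, (sq_ne s.1.2).2⟩, fun v => rfl, fun s => rfl⟩)

theorem PrT.false (cx : Cx p G) (h : PrT p M S) : False := by
  classical
  have hfG : Fintype G := Fintype.ofFinite G
  obtain ⟨P⟩ : Nonempty (Sylow p G) := inferInstance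
  set N := Nat.card {s : G // orderOf s = 2} with hN
  set K := Nat.card {x : G // x ≠ 1 ∧ ∃ n : ℕ, x ^ p ^ n = 1} with hK
  -- centralizers of `p`-elements
  have hpel : ∀ x : G, x ≠ 1 → (∃ n : ℕ, x ^ p ^ n = 1) →
      Nat.card {s : G // orderOf s = 2 ∧ s * x * s⁻¹ = x⁻¹} = Nat.card P := by
    rintro x hx1 ⟨n, hn⟩
    obtain ⟨P', hP'⟩ := (isPGroup_zpowers_of_pow hn).exists_le_sylow
    obtain ⟨h1, t, ht, hinv⟩ := h.sylow cx P' (hP' (mem_zpowers x)) hx1
    rw [h.card_inv cx ht hx1 hn hinv, h1]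
    exact Nat.card_congr (P'.equiv P).toEquiv
  -- the pairs
  set T := {q : {s : G // orderOf s = 2} × {s : G // orderOf s = 2} //
    ((q.1 : G) * (q.2 : G) ≠ 1 ∧ ∃ n : ℕ, ((q.1 : G) * (q.2 : G)) ^ p ^ n = 1)} with hT
  have hc1 : Nat.card T + N * p = N * N := by
    have e1 : Nat.card T = ∑ t : {s : G // orderOf s = 2}, Nat.card {s : {s : G // orderOf s = 2} //
        ((t : G) * (s : G) ≠ 1 ∧ ∃ n : ℕ, ((t : G) * (s : G)) ^ p ^ n = 1)} := by
      rw [← Nat.card_sigma]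
      exact Nat.card_congr (Equiv.subtypeProdEquivSigmaSubtype
        (fun t s : {s : G // orderOf s = 2} => ((t : G) * (s : G) ≠ 1 ∧ ∃ n : ℕ, ((t : G) * (s : G)) ^ p ^ n = 1)))
    have e2 : N * p = ∑ _t : {s : G // orderOf s = 2}, p := by
      rw [Finset.sum_const, Finset.card_univ, ← Nat.card_eq_fintype_card, smul_eq_mul]
    rw [e1, e2, ← Finset.sum_add_distrib]
    rw [Finset.sum_congr rfl (fun t _ => h.count cx t.2)]
    rw [Finset.sum_const, Finset.card_univ, ← Nat.card_eq_fintype_card, smul_eq_mul]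
  have hc2 : Nat.card T = K * Nat.card P := by
    have e1 : Nat.card T = ∑ x : {x : G // x ≠ 1 ∧ ∃ n : ℕ, x ^ p ^ n = 1},
        Nat.card {s : G // orderOf s = 2 ∧ s * (x : G) * s⁻¹ = (x : G)⁻¹} := by
      rw [← Nat.card_sigma]
      refine Nat.card_congr ⟨fun q => ⟨⟨q.1.1 * q.1.2, q.2⟩, ⟨q.1.1, q.1.1.2, ?_⟩⟩,
        fun w => ⟨⟨⟨w.2.1, w.2.2.1⟩, ⟨w.2.1⁻¹ * w.1.1, ?_⟩⟩, ?_⟩, ?_, ?_⟩
      · exact mul_inv_eq_iff_eq_mul.2 (InvAct.semiconj_left q.1.1.2 q.1.2.2)
      · obtain ⟨⟨x, hx1, n, hn⟩, ⟨s, hs, hsx⟩⟩ := w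
        change orderOf (s⁻¹ * x) = 2
        have hss : s * s = 1 := by rw [← pow_two]; exact (sq_ne hs).1
        have hsi : s⁻¹ = s := inv_eq_of_mul_eq_one_left hss
        apply orderOf_of
        · rw [pow_two]
          have : s⁻¹ * x * (s⁻¹ * x) = (s⁻¹ * s⁻¹) * (s * x * s⁻¹) * x := by group
          rw [this, hsx, hsi, hss]; simp
        · intro h1
          have h2 : x = s := by
            have : x = s * (s⁻¹ * x) := by group
            rw [this, h1, mul_one]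
          rw [h2] at hn
          exact (sq_ne hs).2 (eq_one_of_two cx.p_odd (sq_ne hs).1 hn)
      · obtain ⟨⟨x, hx⟩, ⟨s, hs, hsx⟩⟩ := w
        change s * (s⁻¹ * x) ≠ 1 ∧ ∃ n : ℕ, (s * (s⁻¹ * x)) ^ p ^ n = 1
        rw [mul_inv_cancel_left]; exact hx
      · rintro ⟨⟨⟨t, ht⟩, ⟨s, hs⟩⟩, hq⟩
        apply Subtype.ext
        apply Prod.ext
        · rfl
        · apply Subtype.ext
          change t⁻¹ * (t * s) = s
          rw [inv_mul_cancel_left]
      · rintro ⟨⟨x, hx⟩, ⟨s, hs⟩⟩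
        exact Sigma.subtype_ext (Subtype.ext (mul_inv_cancel_left s x)) rfl
    rw [e1, Finset.sum_congr rfl (fun x _ => hpel x.1 x.2.1 x.2.2)]
    rw [Finset.sum_const, Finset.card_univ, ← Nat.card_eq_fintype_card, smul_eq_mul]
  -- `|P|` divides the number of involutions
  obtain ⟨z, hz, hz2⟩ := h.pr.exists_involution
  have hc3 : Nat.card P ∣ N := by
    have e1 : N = (centralizer ({z} : Set G)).index := by
      rw [← H32Invol.card_conj_eq_index z, hN]
      obtain ⟨u, hu2, huM⟩ := exists_involution_not_mem h.pr.se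
      obtain ⟨-, hconj⟩ := Cfsg.Agent.S1225.result M h.pr.se u hu2 huM z z hz2 (h.pr.le hz) hz2 (h.pr.le hz)
      apply Nat.card_congr
      apply Equiv.subtypeEquivRight
      intro y
      constructor
      · intro hy; exact hconj z y hz2 hy
      · intro hy
        obtain ⟨g, rfl⟩ := isConj_iff.1 hy
        rw [Involutions.orderOf_conj]; exact hz2
    have e2 : Nat.card P ∣ (centralizer ({z} : Set G)).index * Nat.card (centralizer ({z} : Set G)) := by
      rw [index_mul_card]; exact card_subgroup_dvd_card _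
    rw [e1]
    refine Nat.Coprime.dvd_of_dvd_mul_right ?_ e2
    obtain ⟨a, ha⟩ := IsPGroup.iff_card.1 P.2
    change (Nat.card (P : Subgroup G)).Coprime _
    rw [ha]
    exact Nat.Coprime.pow_left a (coprime_iff.2 (h.cop' cx hz2)).symm
  -- `p` divides `|P|`
  obtain ⟨T0, hT0⟩ := h.syl
  obtain ⟨-, -, -, x0, hx0, hx01, -⟩ := h.pr.exists_n0 cx T0 hT0 P
  have hpP : p ∣ Nat.card P := by
    obtain ⟨n, hn⟩ := IsPGroup.iff_card.1 P.2
    change p ∣ Nat.card (P : Subgroup G)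
    rw [hn]
    apply dvd_pow_self
    rintro rfl
    have h1 : (P : Subgroup G) = ⊥ := Subgroup.card_eq_one.1 (by simpa using hn)
    rw [h1] at hx0
    exact hx01 (mem_bot.1 hx0)
  have hpK : p ∣ K := by
    obtain ⟨c, hc⟩ := hc3
    have hP0 : 0 < Nat.card P := Nat.card_pos
    have e1 : K * Nat.card P + N * p = N * N := by rw [← hc2, hc1]
    have e2 : Nat.card P * (K + c * p) = Nat.card P * (c * N) := by
      calc Nat.card P * (K + c * p) = K * Nat.card P + (Nat.card P * c) * p := by ring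
        _ = N * N := by rw [← hc, e1]
        _ = Nat.card P * (c * N) := by
            nth_rewrite 1 [hc]; ring
    have e3 := Nat.eq_of_mul_eq_mul_left hP0 e2
    have e4 : p ∣ K + c * p := by
      rw [e3]
      have : p ∣ N := by rw [hc]; exact hpP.mul_right c
      exact this.mul_left c
    exact (Nat.dvd_add_left (Dvd.intro_left c rfl)).1 e4
  -- the number of `p`-elements is divisible by `p`
  have hpK1 : p ∣ K + 1 := by
    have hmem : ∀ (g : P) (x : {x : G // ∃ n : ℕ, x ^ p ^ n = 1}), ∃ n : ℕ, ((g : G) * x * (g : G)⁻¹) ^ p ^ n = 1 := by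
      rintro g ⟨x, n, hn⟩
      exact ⟨n, by rw [conj_pow, hn]; simp⟩
    let act : MulAction P {x : G // ∃ n : ℕ, x ^ p ^ n = 1} :=
      { smul := fun g x => ⟨(g : G) * x * (g : G)⁻¹, hmem g x⟩
        one_smul := fun x => Subtype.ext (by change (1 : G) * x * (1 : G)⁻¹ = x; simp)
        mul_smul := fun a b x => Subtype.ext (by
          change ((a : G) * b) * x * ((a : G) * b)⁻¹ = a * (b * x * (b : G)⁻¹) * (a : G)⁻¹
          group) }
    have hact : ∀ (g : P) (x : {x : G // ∃ n : ℕ, x ^ p ^ n = 1}), ((g • x : {x : G // ∃ n : ℕ, x ^ p ^ n = 1}) : G) =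
      (g : G) * x * (g : G)⁻¹ := fun _ _ => rfl
    have h1 := P.2.card_modEq_card_fixedPoints {x : G // ∃ n : ℕ, x ^ p ^ n = 1}
    have hcx0 := (h.sylow cx P hx0 hx01).1
    have h2 : Nat.card (MulAction.fixedPoints P {x : G // ∃ n : ℕ, x ^ p ^ n = 1}) = Nat.card P := by
      refine Nat.card_congr ⟨fun x => ⟨x.1.1, ?_⟩, fun x => ⟨⟨x.1, pow_of_mem P.2 x.2⟩, ?_⟩, fun x => rfl, fun x => rfl⟩
      · have h3 := congrArg Subtype.val (x.2 ⟨x0, hx0⟩)
        rw [hact] at h3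
        have h4 : (x.1 : G) ∈ centralizer ({x0} : Set G) := by
          rw [mem_centralizer_singleton_iff]
          exact (mul_inv_eq_iff_eq_mul.1 h3).symm
        rw [hcx0] at h4; exact h4
      · intro g
        apply Subtype.ext
        rw [hact]
        rw [mul_inv_eq_iff_eq_mul]
        by_cases hx1 : (x : G) = 1
        · simp [hx1]
        · have h3 := (h.sylow cx P x.2 hx1).1
          have h4 : (g : G) ∈ centralizer ({(x : G)} : Set G) := by rw [h3]; exact g.2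
          exact mem_centralizer_singleton_iff.1 h4
    rw [h2] at h1
    have h3 : Nat.card {x : G // ∃ n : ℕ, x ^ p ^ n = 1} = K + 1 := by
      rw [← card_add_compl (fun x : {x : G // ∃ n : ℕ, x ^ p ^ n = 1} => (x : G) ≠ 1)]
      congr 1
      · refine Nat.card_congr ⟨fun x => ⟨x.1.1, x.2, x.1.2⟩, fun x => ⟨⟨x.1, x.2.2⟩, x.2.1⟩, fun x => rfl, fun x => rfl⟩
      · rw [Nat.card_eq_one_iff_unique]
        refine ⟨⟨fun a b => ?_⟩, ⟨⟨⟨1, 0, by simp⟩, by simp⟩⟩⟩
        apply Subtype.ext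
        apply Subtype.ext
        have ha := a.2
        have hb := b.2
        push Not at ha hb
        rw [ha, hb]
    rw [← h3]
    exact (Nat.modEq_zero_iff_dvd).1 (h1.trans ((Nat.modEq_zero_iff_dvd).2 hpP))
  have : p ∣ 1 := (Nat.dvd_add_right hpK).1 hpK1
  exact hp.out.one_lt.ne' (Nat.dvd_one.1 this)

/-- there is no minimal counterexample of even order -/
theorem Cx.false (cx : Cx p G) (heven : Even (Nat.card G)) : False := by
  obtain ⟨M, S, h⟩ := cx.exists_pr heven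
  exact PrT.false cx ⟨h, S, rfl⟩

end Cfsg.Agent.Lib.PAbA
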