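import Cfsg.Agent.Lib.PAbF
import Cfsg.Agent.Lib.FTHall
import Cfsg.Agent.S0144
import Mathlib.GroupTheory.SchurZassenhaus

/-!
Groups all of whose `p'`-subgroups are abelian of exponent dividing `p - 1` are solvable, modulo the odd order
theorem (helper9, S1936).
-/

set_option autoImplicit false
set_option maxHeartbeats 400000
set_option linter.unusedSectionVars false

namespace Cfsg.Agent.Lib.PAbA

open Subgroup Cfsg
open scoped commutatorElement Pointwise

universe u

/-- the hypothesis -/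
def Hyp (p : ℕ) (G : Type u) [Group G] : Prop :=
  ∀ H : Subgroup G, (Nat.card H).Coprime p → (∀ a ∈ H, ∀ b ∈ H, a * b = b * a) ∧ ∀ x ∈ H, x ^ (p - 1) = 1

variable {G : Type u} [Group G] [Finite G] {p : ℕ} [hp : Fact p.Prime]

theorem Hyp.sub (h : Hyp p G) (L : Subgroup G) : Hyp p L := by
  intro H hH
  obtain ⟨h1, h2⟩ := h (H.map L.subtype) (by rwa [Cores.card_map_subtype])
  refine ⟨fun a ha b hb => Subtype.ext (h1 a ⟨a, ha, rfl⟩ b ⟨b, hb, rfl⟩), fun x hx => Subtype.ext ?_⟩
  simpa using h2 x ⟨x, hx, rfl⟩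

theorem Hyp.quot (h : Hyp p G) {r : ℕ} [hr : Fact r.Prime] {R : Subgroup G} [hR : R.Normal] (hRr : IsPGroup r R) :
    Hyp p (G ⧸ R) := by
  intro H' hH'
  set f := QuotientGroup.mk' R with hf
  have hfs : Function.Surjective f := QuotientGroup.mk'_surjective R
  set H := H'.comap f with hH
  have hRH : R ≤ H := by
    intro x hx
    change f x ∈ H'
    rw [show f x = 1 from (QuotientGroup.eq_one_iff x).2 hx]
    exact one_mem _
  -- a `p'`-subgroup `K` with image `H'`
  have hK : ∃ K : Subgroup G, (Nat.card K).Coprime p ∧ K.map f = H' := by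
    have hcard : Nat.card H = Nat.card R * Nat.card H' := by
      rw [hH, Cores.card_comap_mk, mul_comm]
    by_cases hrp : r = p
    · subst hrp
      have hidx : (R.subgroupOf H).index = Nat.card H' := by
        have h1 := SubgroupTools.card_mul_relIndex_of_le hRH
        rw [hcard] at h1
        exact Nat.eq_of_mul_eq_mul_left Nat.card_pos h1
      have hRn : (R.subgroupOf H).Normal := hR.subgroupOf H
      obtain ⟨a, ha⟩ := IsPGroup.iff_card.1 hRr
      have hcop : (Nat.card (R.subgroupOf H)).Coprime (R.subgroupOf H).index := by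
        rw [hidx, Nat.card_congr (subgroupOfEquivOfLe hRH).toEquiv, ha]
        exact Nat.Coprime.pow_left a hH'.symm
      obtain ⟨K, hK⟩ := exists_right_complement'_of_coprime hcop
      refine ⟨K.map H.subtype, ?_, ?_⟩
      · rw [Cores.card_map_subtype]
        have h1 := hK.card_mul_card
        have h2 : Nat.card (R.subgroupOf H) * Nat.card K = Nat.card (R.subgroupOf H) * Nat.card H' := by
          rw [h1, hcard, Nat.card_congr (subgroupOfEquivOfLe hRH).toEquiv]
        rw [Nat.eq_of_mul_eq_mul_left Nat.card_pos h2]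
        exact hH'
      · apply le_antisymm
        · rintro _ ⟨_, ⟨k, hk, rfl⟩, rfl⟩
          exact k.2
        · intro y hy
          obtain ⟨x, rfl⟩ := hfs y
          have hxH : x ∈ H := hy
          have h1 : (⟨x, hxH⟩ : H) ∈ R.subgroupOf H ⊔ K := by rw [hK.sup_eq_top]; exact mem_top _
          obtain ⟨a, ha, k, hk, hak⟩ := mem_sup_of_normal_left.1 h1
          refine ⟨k, ⟨k, hk, rfl⟩, ?_⟩
          have h2 : x = (a : G) * (k : G) := (congrArg Subtype.val hak).symm
          rw [h2, map_mul, show f (a : G) = 1 from (QuotientGroup.eq_one_iff _).2 ha, one_mul]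
    · refine ⟨H, ?_, map_comap_eq_self_of_surjective hfs H'⟩
      rw [hcard]
      obtain ⟨a, ha⟩ := IsPGroup.iff_card.1 hRr
      rw [ha]
      exact Nat.Coprime.mul_left (Nat.Coprime.pow_left a ((Nat.coprime_primes hr.out hp.out).2 hrp)) hH'
  obtain ⟨K, hKc, hKm⟩ := hK
  obtain ⟨h1, h2⟩ := h K hKc
  refine ⟨?_, ?_⟩
  · intro a ha b hb
    rw [← hKm] at ha hb
    obtain ⟨x, hx, rfl⟩ := ha
    obtain ⟨y, hy, rfl⟩ := hb
    rw [← map_mul, h1 x hx y hy, map_mul]
  · intro a ha
    rw [← hKm] at ha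
    obtain ⟨x, hx, rfl⟩ := ha
    rw [← map_pow, h2 x hx, map_one]

theorem exists_pCore_ne_bot {N : Subgroup G} (hN : N.Normal) (hN1 : N ≠ ⊥) (hs : Group.IsSolvable N) :
    ∃ r : ℕ, r.Prime ∧ pCore r G ≠ ⊥ := by
  have hnt : Nontrivial N := (Subgroup.nontrivial_iff_ne_bot N).2 hN1
  have h1 : Cfsg.fittingSubgroup N ≠ ⊥ := Cores.fittingSubgroup_ne_bot
  by_contra hcon
  push Not at hcon
  apply h1
  rw [Cores.fittingSubgroup_eq_iSup, eq_bot_iff]
  apply iSup_le
  intro r
  have h2 := Cores.map_pCore_subtype_le (r : ℕ) N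
  rw [hcon r r.2, le_bot_iff, map_eq_bot_iff_of_injective _ N.subtype_injective] at h2
  rw [h2]

theorem main_aux (hFT : FTHall.FT.{u}) (h5 : 5 ≤ p) (n : ℕ) : ∀ (G : Type u) [Group G] [Finite G],
    Nat.card G = n → Hyp p G → Group.IsSolvable G := by
  induction n using Nat.strong_induction_on with
  | _ n ih =>
  intro G _ _ hn h
  by_contra hns
  have hsub : ∀ H : Subgroup G, H ≠ ⊤ → Group.IsSolvable H := by
    intro H hH
    apply ih _ _ H rfl (h.sub H)
    rw [← hn]
    exact lt_of_le_of_ne (Subgroup.card_le_card_group H) fun hc => hH (Subgroup.card_eq_iff_eq_top H |>.1 hc)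
  have hnt : Nontrivial G := by
    by_contra hnt
    rw [not_nontrivial_iff_subsingleton] at hnt
    exact hns inferInstance
  have hsimple : IsSimpleGroup G := by
    refine ⟨fun N hN => ?_⟩
    by_contra hcon
    push Not at hcon
    obtain ⟨hN1, hN2⟩ := hcon
    obtain ⟨r, hr, hr1⟩ := exists_pCore_ne_bot hN hN1 (hsub N hN2)
    have hrf : Fact r.Prime := ⟨hr⟩
    have hq := h.quot (Cores.isPGroup_pCore r G)
    have hlt : Nat.card (G ⧸ pCore r G) < n := by
      rw [← hn, card_eq_card_quotient_mul_card_subgroup (pCore r G)]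
      have h1 : 1 < Nat.card (pCore r G) := by
        rw [Finite.one_lt_card_iff_nontrivial, Subgroup.nontrivial_iff_ne_bot]; exact hr1
      have h2 : 0 < Nat.card (G ⧸ pCore r G) := Nat.card_pos
      nlinarith
    have hs2 := ih _ hlt (G ⧸ pCore r G) rfl hq
    have hs1 : Group.IsSolvable (pCore r G) := by
      have := (Cores.isPGroup_pCore r G).isNilpotent
      infer_instance
    exact hns ((Group.isSolvable_iff_subgroup_quotient (pCore r G)).2 ⟨hs1, hs2⟩)
  have heven : Even (Nat.card G) := by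
    by_contra hodd
    rw [Nat.not_even_iff_odd] at hodd
    exact hns (hFT G hodd)
  exact Cx.false (p := p) (G := G) ⟨hsimple, hns, hsub, fun H hH => (h H hH).1, fun H hH => (h H hH).2, h5⟩ heven

theorem main (hFT : FTHall.FT.{u}) (h : Hyp p G) : Group.IsSolvable G := by
  by_cases h5 : 5 ≤ p
  · exact main_aux hFT h5 _ G rfl h
  -- prime divisors
  have hdiv : ∀ r : ℕ, r.Prime → r ∣ Nat.card G → r = p ∨ r ∣ p - 1 := by
    intro r hr hrG
    by_cases hrp : r = p
    · exact Or.inl hrp
    right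
    have : Fact r.Prime := ⟨hr⟩
    obtain ⟨x, hx⟩ := exists_prime_orderOf_dvd_card' r hrG
    have h1 := (h (zpowers x) (by
      rw [Nat.card_zpowers, hx]; exact (Nat.coprime_primes hr hp.out).2 hrp)).2 x (mem_zpowers x)
    rw [← hx]
    exact orderOf_dvd_of_pow_eq_one h1
  have hp2 := hp.out.two_le
  have hp4 : p ≠ 4 := by rintro rfl; exact absurd hp.out (by norm_num)
  have h23 : ∀ r : ℕ, r.Prime → r ∣ Nat.card G → r = 2 ∨ r = 3 := by
    intro r hr hrG
    rcases hdiv r hr hrG with h1 | h1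
    · omega
    · have h2 := Nat.le_of_dvd (by omega) h1
      have := hr.two_le
      omega
  -- `|G| = 2^a 3^b`
  have hcard : ∃ a b : ℕ, Nat.card G = 2 ^ a * 3 ^ b := by
    obtain ⟨a, m, hm, ham⟩ := Nat.exists_eq_pow_mul_and_not_dvd (Nat.card_pos (α := G)).ne' 2 (by norm_num)
    obtain ⟨b, k, hk, hbk⟩ := Nat.exists_eq_pow_mul_and_not_dvd (n := m) (by
      rintro rfl
      simp at hm) 3 (by norm_num)
    refine ⟨a, b, ?_⟩
    have hk1 : k = 1 := by
      by_contra hk1
      obtain ⟨r, hr, hrk⟩ := Nat.exists_prime_and_dvd hk1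
      have h1 : r ∣ m := by rw [hbk]; exact hrk.mul_left _
      rcases h23 r hr (by rw [ham]; exact h1.mul_left _) with rfl | rfl
      · exact hm h1
      · exact hk hrk
    rw [ham, hbk, hk1, mul_one]
  obtain ⟨a, b, hab⟩ := hcard
  exact Cfsg.Agent.S0144.result 2 3 a b Nat.prime_two Nat.prime_three hab

end Cfsg.Agent.Lib.PAbA
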