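import Mathlib
import Cfsg.Agent.Lib.PBMod

/-!
# Order 459648 (helper54)
-/

set_option autoImplicit false
set_option linter.all false

namespace Cfsg.Agent.Lib.PBOrd1022

open Cfsg Cfsg.Agent.Lib.BlockRing Cfsg.Agent.Lib.BlockGA Cfsg.Agent.Lib.BlockIdem
open Cfsg.Agent.Lib.DefOneLoc Cfsg.Agent.Lib.DefOneOrd Cfsg.Agent.Lib.CharBasic Cfsg.Agent.Lib.DefOneGram
open Cfsg.Agent.Lib.DefOneBlk Cfsg.Agent.Lib.DefOne Cfsg.Agent.Lib.DefOneGen Cfsg.Agent.Lib.DefOneGalois
open Cfsg.Agent.Lib.PBNum Cfsg.Agent.Lib.PBMod Cfsg.Agent.Lib.PBData Cfsg.Agent.Lib.BlockThird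
open scoped ComplexConjugate

universe u

theorem deg_mod {G : Type u} [Group G] [Fintype G] {p : ℕ} [hp : Fact p.Prime] {f : ℕ} (hdiv : p ∣ Nat.card G)
    (hsq : ¬ p ^ 2 ∣ Nat.card G)
    (H : ∀ (Q : Sylow p G) (D : Loc p (Q : Subgroup G) (Subgroup.normalizer ((Q : Subgroup G) : Set G))
      (Subgroup.centralizer ((Q : Subgroup G) : Set G))),
      Nat.card (Subgroup.centralizer ((Q : Subgroup G) : Set G)) = p * 4 ∧
      (Subgroup.centralizer ((Q : Subgroup G) : Set G)).relIndex (Subgroup.normalizer ((Q : Subgroup G) : Set G)) = f ∧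
      ∃ k : Subgroup.centralizer ((Q : Subgroup G) : Set G), D.l k = 0 ∧ orderOf k = 4)
    (χ : IrrCharacter G) (hχ : ¬ p ∣ charDegree (χ : G → ℂ)) : ∃ i : ℕ, (i = 1 ∨ i = 2 ∨ i = f) ∧
      ((charDegree (χ : G → ℂ) : ℤ) ≡ i [ZMOD p] ∨ (charDegree (χ : G → ℂ) : ℤ) ≡ -i [ZMOD p]) := by
  classical
  obtain ⟨M, hM⟩ := H76Char.exists_isPModular p
  have := isPrime hM
  have hB : IsPBlock M (blockOf M (χ : G → ℂ)) := isPBlock_blockOf χ
  have hmem := mem_blockOf_self (M := M) χ
  have hd : 0 < blockDefect p (blockOf M (χ : G → ℂ)) := by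
    have h1 := BlockDeg.card_le_blockDefect_add (p := p) hmem
    have h2 : (charDegree (χ : G → ℂ)).factorization p = 0 := Nat.factorization_eq_zero_of_not_dvd hχ
    have h3 : 0 < (Nat.card G).factorization p := hp.out.factorization_pos_of_dvd Nat.card_pos.ne' hdiv
    have h4 : BlockDeg.nuDeg p (χ : G → ℂ) = (charDegree (χ : G → ℂ)).factorization p := rfl
    omega
  obtain ⟨Q, D, θ, hQ, hDG, ht, hind⟩ := exists_local hM hsq hB hd
  letI : Fintype (Subgroup.centralizer ((Q : Subgroup G) : Set G)) := Fintype.ofFinite _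
  obtain ⟨hC, hf, k, hk, hok⟩ := H Q D
  obtain ⟨-, -, X, Y, hXY, -, -, -, hX, ⟨ε, hε, hY⟩, -⟩ := result_general D Q rfl rfl rfl hM hQ ht hDG hind _ rfl _ f rfl hf
  have hPc : ∀ c ∈ Subgroup.centralizer ((Q : Subgroup G) : Set G), ∀ x ∈ (Q : Subgroup G), x * c = c * x :=
    fun c hc x hx => Subgroup.mem_centralizer_iff.1 hc x hx
  have hθ1 : charDegree (θ : Subgroup.centralizer ((Q : Subgroup G) : Set G) → ℂ) = 1 := by
    have h1 := BlockDeg.charDegree_cast_irr θ
    rw [theta_one D hC hk hok θ hPc] at h1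
    exact_mod_cast h1
  rw [hXY] at hmem
  rcases hmem with hm | hm
  · have h1 := hX χ hm
    rw [hθ1, mul_one] at h1
    have h2 := index_dvd D hC hk hok ht
    have h3 : f / (Subgroup.centralizer ((Q : Subgroup G) : Set G)).relIndex (Subgroup.map
        (Subgroup.normalizer ((Q : Subgroup G) : Set G)).subtype (inN D θ)) = (inN D θ).index := by
      rw [relIndex_map, ← hf, relIndex_N D θ, Nat.mul_div_cancel_left _ Nat.card_pos]
    rw [h3] at h1
    rcases h2 with h2 | h2
    · exact ⟨1, Or.inl rfl, by rw [h2] at h1; exact h1⟩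
    · exact ⟨2, Or.inr (Or.inl rfl), by rw [h2] at h1; exact h1⟩
  · have h1 := hY χ hm
    rw [hθ1, mul_one] at h1
    refine ⟨f, Or.inr (Or.inr rfl), ?_⟩
    rcases hε with h | h
    · left; rw [h, one_mul] at h1; exact h1
    · right; rw [h, neg_one_mul] at h1; exact h1

section

open Subgroup Cfsg.Agent.Lib.SmallSimple

variable {G : Type u} [Group G] [Fintype G]

instance fact19 : Fact (Nat.Prime 19) := ⟨by norm_num⟩
instance fact7 : Fact (Nat.Prime 7) := ⟨by norm_num⟩

/-- values at an involution in the core -/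
theorem inv_core {p : ℕ} [hp : Fact p.Prime] [IsSimpleGroup G] (hG : ¬ IsMulCommutative G) (hp2 : p ≠ 2) {Q : Sylow p G}
    [Fintype (centralizer ((Q : Subgroup G) : Set G))]
    {D : Loc p (Q : Subgroup G) (normalizer ((Q : Subgroup G) : Set G)) (centralizer ((Q : Subgroup G) : Set G))}
    (hQ : Nat.card Q = p) (B : PB D)
    {y : centralizer ((Q : Subgroup G) : Set G)} (hy : D.l y = 0) (hy1 : orderOf y = 2) {χ : IrrCharacter G}
    (hχ : χ ∈ B.X ∨ χ = B.η) : ∃ k : ℕ, (χ : G → ℂ) y = (charDegree (χ : G → ℂ) : ℂ) - 4 * (p * k : ℕ) ∧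
      2 * (p * k) ≤ charDegree (χ : G → ℂ) ∧ k ≠ 0 := by
  have hZ := SimpleDeg.center_eq_bot (G := G) (fun h => hG ⟨⟨h⟩⟩)
  have hne : χ ≠ triv G := by
    rcases hχ with h | h
    · rintro rfl; exact B.hX h
    · rw [h]; exact B.hη
  have hl : ∀ z ∈ zpowers (y : G), ∃ hz : z ∈ centralizer ((Q : Subgroup G) : Set G), D.l ⟨z, hz⟩ = 0 := by
    rintro z ⟨i, rfl⟩
    refine ⟨Subgroup.zpow_mem _ y.2 i, ?_⟩
    have h1 : y ^ i ∈ (lhom D).ker := Subgroup.zpow_mem _ ((mem_ker D y).2 hy) i
    exact (mem_ker D _).1 h1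
  obtain ⟨k, hk, hk2⟩ := PBInvol.inv_val_mod (SimpleDeg.perfect hZ) χ.2.isCharacter hp.out hp2 (Q : Subgroup G) hQ
    (y := (y : G)) (by rw [Subgroup.orderOf_coe]; exact hy1)
    (fun x hx => Subgroup.mem_centralizer_iff.1 y.2 x hx) (by
      intro x hx hx1 z hz
      obtain ⟨hzC, hz0⟩ := hl z hz
      have hxl : D.l ⟨x, D.PC hx⟩ ≠ 0 := by
        rw [Ne, D.l_reg, not_not]
        change p ∣ orderOf x
        have h1 : orderOf x ∣ p := by
          have := Subgroup.orderOf_dvd_natCard (Q : Subgroup G) hx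
          rwa [hQ] at this
        rcases (Nat.dvd_prime hp.out).1 h1 with h2 | h2
        · exact absurd (orderOf_eq_one_iff.1 h2) hx1
        · rw [h2]
      exact B.cst χ hχ (⟨x, D.PC hx⟩ * ⟨z, hzC⟩) ⟨x, D.PC hx⟩ (by rw [D.l_mul, hz0, add_zero]; exact hxl)
        (by rw [D.l_mul, hz0, add_zero])) (BlockDeg.charDegree_cast_irr χ).symm
  refine ⟨k, hk, hk2, ?_⟩
  rintro rfl
  have h1 : (χ : G → ℂ) y = (χ : G → ℂ) 1 := by
    rw [hk, BlockDeg.charDegree_cast_irr]; simp
  have h2 := SimpleDeg.faithful hZ χ.2 (triv_ne hne) h1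
  rw [show y = 1 from Subtype.ext h2, orderOf_one] at hy1
  norm_num at hy1

/-- the core is cyclic -/
theorem exists_k [IsSimpleGroup G] (hG : ¬ IsMulCommutative G) {Q : Sylow 19 G}
    [Fintype (centralizer ((Q : Subgroup G) : Set G))]
    {D : Loc 19 (Q : Subgroup G) (normalizer ((Q : Subgroup G) : Set G)) (centralizer ((Q : Subgroup G) : Set G))}
    (hQ : Nat.card Q = 19) (B : PB D) (hC : Nat.card (centralizer ((Q : Subgroup G) : Set G)) = 19 * 4)
    {χ : IrrCharacter G} (hχ : χ ∈ B.X) (hdeg : charDegree (χ : G → ℂ) = 56) :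
    ∃ k : centralizer ((Q : Subgroup G) : Set G), D.l k = 0 ∧ orderOf k = 4 := by
  classical
  by_contra hcon
  push Not at hcon
  have hcard := card_ker D hC
  have hval : ∀ v : (lhom D).ker, v ≠ 1 → (χ : G → ℂ) ((v : centralizer ((Q : Subgroup G) : Set G)) : G) = -20 := by
    intro v hv
    have hv0 := (mem_ker D v.1).1 v.2
    have h1 : orderOf v ∣ 4 := by rw [← hcard]; exact orderOf_dvd_natCard v
    have h2 : orderOf (v : centralizer ((Q : Subgroup G) : Set G)) = orderOf v := Subgroup.orderOf_coe v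
    have h3 := hcon v hv0
    have h4 : orderOf v ≠ 1 := fun h => hv (orderOf_eq_one_iff.1 h)
    have h5 : orderOf v = 2 := by
      have h6 : orderOf v ≤ 4 := Nat.le_of_dvd (by norm_num) h1
      rw [h2] at h3
      interval_cases hh : orderOf v <;> simp_all
    obtain ⟨k, hk, hk2, hk0⟩ := inv_core hG (by norm_num) hQ B hv0 (h2.trans h5) (Or.inl hχ)
    rw [hdeg] at hk hk2
    have : k = 1 := by omega
    rw [hk, this]; norm_num
  letI : Fintype (lhom D).ker := Fintype.ofFinite _
  have h1 : IsCharacter (lhom D).ker (fun v => (χ : G → ℂ) ((v : centralizer ((Q : Subgroup G) : Set G)) : G)) :=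
    χ.2.isCharacter.comp ((centralizer ((Q : Subgroup G) : Set G)).subtype.comp (lhom D).ker.subtype)
  obtain ⟨n, hn⟩ := h1.classInner_nat (isCharacter_one (G := (lhom D).ker))
  rw [classInner_def, hcard, ← Finset.add_sum_erase Finset.univ _ (Finset.mem_univ (1 : (lhom D).ker))] at hn
  have h2 : ∑ x ∈ Finset.univ.erase (1 : (lhom D).ker),
      (χ : G → ℂ) ((x : centralizer ((Q : Subgroup G) : Set G)) : G) * conj ((1 : (lhom D).ker → ℂ) x) = 3 * (-20) := by
    rw [Finset.sum_congr rfl (fun x hx => by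
      rw [hval x (Finset.ne_of_mem_erase hx), Pi.one_apply, map_one, mul_one]), Finset.sum_const,
      Finset.card_erase_of_mem (Finset.mem_univ _), Finset.card_univ, ← Nat.card_eq_fintype_card, hcard]
    norm_num
  rw [h2] at hn
  have h3 : (χ : G → ℂ) (((1 : (lhom D).ker) : centralizer ((Q : Subgroup G) : Set G)) : G) = 56 := by
    have h4 : (χ : G → ℂ) 1 = 56 := by rw [← BlockDeg.charDegree_cast_irr, hdeg]; norm_num
    exact h4
  rw [h3, Pi.one_apply, map_one] at hn
  have h5 : (n : ℂ) = -1 := by rw [← hn]; norm_num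
  have h6 : (n : ℤ) = -1 := by exact_mod_cast h5
  omega

theorem opts19 : optsL (fun _ => true) 19 24192 677 = [(1008, 6, [-56, -56, 96, 96, -189])] := by decide +kernel

theorem len19 : lenOk (fun _ => true) 19 24192 677 = true := by decide +kernel

/-- allowed degrees modulo 19 -/
def flt (d : ℕ) : Bool := [0, 1, 2, 6, 13, 17, 18].contains (d % 19)

theorem opts7 : optsL flt 7 65664 677 = [(456, 3, [57, -76]), (3648, 3, [57, -76])] := by decide +kernel

theorem len7 : lenOk flt 7 65664 677 = true := by decide +kernel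

theorem part19 [IsSimpleGroup G] (h : Nat.card G = 459648) (Q : Sylow 19 G) :
    Nat.card (Q : Subgroup G) = 19 ∧ Nat.card (centralizer ((Q : Subgroup G) : Set G)) = 19 * 4 ∧
    (centralizer ((Q : Subgroup G) : Set G)).relIndex (normalizer ((Q : Subgroup G) : Set G)) = 6 ∧
    ∃ k : centralizer ((Q : Subgroup G) : Set G), orderOf k = 4 := by
  have hG : ¬ IsMulCommutative G := not_isMulCommutative_of_card h (by norm_num)
  have hQ : Nat.card (Q : Subgroup G) = 19 := by
    have h1 : Nat.card G = 19 ^ 1 * 24192 := by rw [h]; norm_num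
    have := sylow_card_of h1 (by norm_num) Q
    rwa [pow_one] at this
  obtain ⟨D, hCf, ⟨B⟩⟩ := exists_PB Q hQ
  obtain ⟨-, e, c, l, hN, hC, he, he1, hecn, hmem, hl⟩ := dataL hG 677 (fun _ => true) (M := 24192) (by rw [h]) (by norm_num)
    (by norm_num) B (fun _ _ => rfl) len19
  rw [opts19, List.mem_singleton, Prod.mk.injEq, Prod.mk.injEq] at hmem
  obtain ⟨hn, rfl, rfl⟩ := hmem
  rw [hn] at hecn
  have hc4 : c = 4 := by omega
  subst hc4
  have hm : (-56 : ℤ) ∈ sds B := by rw [← hl]; decide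
  obtain ⟨χ, hχ, hd⟩ := (mem_sds B).1 hm
  have hdeg : charDegree (χ : G → ℂ) = 56 := by rw [← natAbs_sd B χ, hd]; rfl
  obtain ⟨k, -, hok⟩ := exists_k hG hQ B hC hχ hdeg
  refine ⟨hQ, hC, ?_, k, hok⟩
  have h1 := SmallSimple.relIndex_mul_card_of_le (centralizer_le_normalizer' (Q : Subgroup G))
  rw [hN, hC] at h1
  omega

theorem flt_of [IsSimpleGroup G] (h : Nat.card G = 459648) (χ : IrrCharacter G) : flt (charDegree (χ : G → ℂ)) = true := by
  rw [flt]
  by_cases hd : 19 ∣ charDegree (χ : G → ℂ)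
  · rw [Nat.mod_eq_zero_of_dvd hd]; rfl
  · obtain ⟨i, hi, hi2⟩ := deg_mod (p := 19) (f := 6) (by rw [h]; norm_num) (by rw [h]; norm_num) (by
      intro Q D
      obtain ⟨hQ, hC, hf, k, hok⟩ := part19 h Q
      refine ⟨hC, hf, k, ?_, hok⟩
      rw [D.l_reg, Subgroup.orderOf_coe, hok]; norm_num) χ hd
    have hmod : ∀ r : ℤ, ((charDegree (χ : G → ℂ) : ℤ) ≡ r [ZMOD 19]) → (charDegree (χ : G → ℂ) : ℤ) % 19 = r % 19 :=
      fun r hr => hr
    rcases hi with rfl | rfl | rfl <;> rcases hi2 with h1 | h1 <;> have h2 := hmod _ h1 <;> norm_num at h2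
    · have : charDegree (χ : G → ℂ) % 19 = 1 := by omega
      rw [this]; rfl
    · have : charDegree (χ : G → ℂ) % 19 = 18 := by omega
      rw [this]; rfl
    · have : charDegree (χ : G → ℂ) % 19 = 2 := by omega
      rw [this]; rfl
    · have : charDegree (χ : G → ℂ) % 19 = 17 := by omega
      rw [this]; rfl
    · have : charDegree (χ : G → ℂ) % 19 = 6 := by omega
      rw [this]; rfl
    · have : charDegree (χ : G → ℂ) % 19 = 13 := by omega
      rw [this]; rfl

theorem main [IsSimpleGroup G] (h : Nat.card G = 459648) : False := by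
  have hG : ¬ IsMulCommutative G := not_isMulCommutative_of_card h (by norm_num)
  have hZ := SimpleDeg.center_eq_bot (G := G) (fun h => hG ⟨⟨h⟩⟩)
  obtain ⟨R⟩ : Nonempty (Sylow 7 G) := inferInstance
  have hR : Nat.card (R : Subgroup G) = 7 := by
    have h1 : Nat.card G = 7 ^ 1 * 65664 := by rw [h]; norm_num
    have := sylow_card_of h1 (by norm_num) R
    rwa [pow_one] at this
  obtain ⟨D, hCf, ⟨B⟩⟩ := exists_PB R hR
  obtain ⟨-, e, c, l, hN, hC, he, he1, hecn, hmem, hl⟩ := dataL hG 677 flt (M := 65664) (by rw [h]) (by norm_num)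
    (by norm_num) B (fun χ _ => flt_of h χ) len7
  have hl' : l = [57, -76] := by
    rw [opts7, List.mem_cons, List.mem_singleton, Prod.mk.injEq, Prod.mk.injEq, Prod.mk.injEq, Prod.mk.injEq] at hmem
    rcases hmem with h1 | h1
    · exact h1.2.2
    · exact h1.2.2
  subst hl'
  -- degrees
  have hX : ∀ χ ∈ B.X, 19 ∣ charDegree (χ : G → ℂ) := by
    intro χ hχ
    have h1 : sd B χ ∈ sds B := (mem_sds B).2 ⟨χ, hχ, rfl⟩
    rw [← hl, Multiset.mem_coe, List.mem_cons, List.mem_singleton] at h1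
    rcases h1 with h1 | h1
    · rw [← natAbs_sd B χ, h1]; decide
    · rw [← natAbs_sd B χ, h1]; decide
  have hη : charDegree (B.η : G → ℂ) = 18 := by
    rw [← natAbs_sd B, sd_eta, ← hl]; rfl
  -- the core of the centralizer of a Sylow 19-subgroup
  obtain ⟨Q⟩ : Nonempty (Sylow 19 G) := inferInstance
  obtain ⟨hQ, hC19, -, k, hok⟩ := part19 h Q
  have hfac : (Nat.card G).factorization 19 ≤ 1 := by
    by_contra hcon
    push Not at hcon
    have h2 : 19 ^ 2 ∣ Nat.card G := ((by norm_num : Nat.Prime 19).pow_dvd_iff_le_factorization Nat.card_pos.ne').2 hcon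
    rw [h] at h2
    norm_num at h2
  have hval : ∀ g : G, 19 ∣ orderOf g → ¬ 7 ∣ orderOf g → 1 + (B.σ B.η : ℂ) * (B.η : G → ℂ) g = 0 := by
    intro g h19 h7
    have h1 := B.rel g h7
    rw [Finset.sum_eq_zero, add_zero] at h1
    · exact h1
    · intro χ hχ
      have h2 : (χ : G → ℂ) g = 0 := by
        apply DefZeroCount.vanish (by norm_num : Nat.Prime 19) χ.2 _ h19
        refine hfac.trans ?_
        exact ((by norm_num : Nat.Prime 19).dvd_iff_one_le_factorization (BlockDeg.charDegree_pos χ.2).ne').1 (hX χ hχ)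
      rw [h2, mul_zero]
  have hge := PBTwoP.deg_ge (SimpleDeg.perfect hZ) B.η.2.isCharacter (by norm_num : Nat.Prime 19) (Q : Subgroup G) hQ
    (k : G) (by rw [Subgroup.orderOf_coe, hok]; norm_num) (fun x hx => Subgroup.mem_centralizer_iff.1 k.2 x hx) (by
      intro x hx hx1 z hz
      have hxo : orderOf x = 19 := by
        have h1 : orderOf x ∣ 19 := by
          have := Subgroup.orderOf_dvd_natCard (Q : Subgroup G) hx
          rwa [hQ] at this
        rcases (Nat.dvd_prime (by norm_num)).1 h1 with h2 | h2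
        · exact absurd (orderOf_eq_one_iff.1 h2) hx1
        · exact h2
      have hxz : Commute x z := by
        obtain ⟨i, rfl⟩ := hz
        exact (show Commute x (k : G) from Subgroup.mem_centralizer_iff.1 k.2 x hx).zpow_right i
      have hzo : orderOf z ∣ 4 := by
        obtain ⟨i, rfl⟩ := hz
        have h0 : (k : G) ^ 4 = 1 := by
          have := pow_orderOf_eq_one (k : G)
          rwa [Subgroup.orderOf_coe, hok] at this
        apply orderOf_dvd_of_pow_eq_one
        change ((k : G) ^ i) ^ 4 = 1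
        rw [← zpow_natCast, ← zpow_mul, mul_comm, zpow_mul, zpow_natCast, h0, one_zpow]
      have hcop : (orderOf x).Coprime (orderOf z) := by
        rw [hxo]
        exact Nat.Coprime.coprime_dvd_right hzo (by norm_num)
      have ho : orderOf (x * z) = 19 * orderOf z := by
        rw [hxz.orderOf_mul_eq_mul_orderOf_of_coprime hcop, hxo]
      have h7 : ¬ 7 ∣ orderOf (x * z) := by
        rw [ho]
        intro h7
        have h8 : 7 ∣ 19 * 4 := h7.trans (Nat.mul_dvd_mul_left 19 hzo)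
        norm_num at h8
      have e1 := hval (x * z) (by rw [ho]; exact dvd_mul_right _ _) h7
      have e2 := hval x (by rw [hxo]) (by rw [hxo]; norm_num)
      have hs : (B.σ B.η : ℂ) ≠ 0 := by
        rcases B.pm B.η with h | h <;> rw [h] <;> simp
      apply mul_left_cancel₀ hs
      linear_combination e1 - e2) (by
      intro h1
      have h2 := SimpleDeg.faithful hZ B.η.2 (triv_ne B.hη) h1
      rw [show k = 1 from Subtype.ext h2, orderOf_one] at hok
      norm_num at hok) (BlockDeg.charDegree_cast_irr B.η).symm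
  rw [hη] at hge
  omega

end

end Cfsg.Agent.Lib.PBOrd1022
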