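import Mathlib
import Cfsg.Agent.Lib.HallPi
import Cfsg.Agent.Lib.LocBase
import Cfsg.Agent.Lib.CoprimeAction
import Cfsg.Agent.Lib.Transfer
import Cfsg.Agent.Lib.TransferApps

/-!
Normal `p`-complements, tools (helper64): the Frattini argument for complements of a normal
`p`-subgroup, and `N_G(Q)` has a normal `p`-complement for `P' ≤ Q ≤ Φ(P)` if `N_G(P)` has.
-/

set_option autoImplicit false

namespace Cfsg.Agent.Lib.PCompTools

open Subgroup Cfsg
open scoped Pointwise commutatorElement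
open Cfsg.Agent.Lib.HallPi Cfsg.Agent.Lib.PNilp Cfsg.Agent.Lib.SubgroupTools

universe u

variable {H : Type u} [Group H] [Finite H] {p : ℕ} [hp : Fact p.Prime]

/-- All complements of a normal `p`-subgroup `Q` with `K = QL`, `L` a `p'`-group, are conjugate. -/
theorem exists_conj_of_complement {K Q L L' : Subgroup H} (hQK : Q ≤ K) (hQn : K ≤ normalizer (Q : Set H))
    (hQ : IsPGroup p Q) (hLK : L ≤ K) (hQL : Q ⊔ L = K) (hL : (Nat.card L).Coprime p)
    (hL'K : L' ≤ K) (hL'c : Nat.card L' = Nat.card L) :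
    ∃ k ∈ K, L' = MulAut.conj k • L := by
  have hinf : Q ⊓ L = ⊥ := by
    apply Subgroup.inf_eq_bot_of_coprime
    obtain ⟨n, hn⟩ := IsPGroup.iff_card.mp hQ
    rw [hn]
    exact Nat.Coprime.pow_left n hL.symm
  have hcard : Nat.card Q * Nat.card L = Nat.card K := by
    have h1 : (Q.subgroupOf K).Normal := normal_subgroupOf_iff_le_normalizer hQK |>.mpr hQn
    have hc : IsComplement' (Q.subgroupOf K) (L.subgroupOf K) := by
      apply isComplement'_of_disjoint_and_mul_eq_univ
      · rw [disjoint_iff, eq_bot_iff]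
        intro x hx
        have : (x : H) ∈ Q ⊓ L := ⟨hx.1, hx.2⟩
        rw [hinf, mem_bot] at this
        exact Subtype.ext this
      · rw [← normal_mul, ← subgroupOf_sup hQK hLK, hQL, subgroupOf_self]
        rfl
    have := hc.card_mul
    rwa [Nat.card_congr (subgroupOfEquivOfLe hQK).toEquiv,
      Nat.card_congr (subgroupOfEquivOfLe hLK).toEquiv] at this
  have hidx : (L.subgroupOf K).index = Nat.card Q := by
    have h1 := (L.subgroupOf K).card_mul_index
    rw [Nat.card_congr (subgroupOfEquivOfLe hLK).toEquiv, ← hcard, mul_comm (Nat.card Q)] at h1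
    exact Nat.eq_of_mul_eq_mul_left Nat.card_pos h1
  have hQnK : (Q.subgroupOf K).Normal := normal_subgroupOf_iff_le_normalizer hQK |>.mpr hQn
  have hQidx : (Q.subgroupOf K).index = Nat.card L := by
    have h1 := (Q.subgroupOf K).card_mul_index
    rw [Nat.card_congr (subgroupOfEquivOfLe hQK).toEquiv, ← hcard] at h1
    exact Nat.eq_of_mul_eq_mul_left Nat.card_pos h1
  have hQp : IsPGroup p (Q.subgroupOf K) := hQ.of_equiv (subgroupOfEquivOfLe hQK).symm
  have hpn : ∀ n : ℕ, n.Coprime p → PiNum ({p}ᶜ : Set ℕ) n := by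
    intro n hn q hq hd hqp
    rw [Set.mem_singleton_iff] at hqp
    subst hqp
    have := Nat.dvd_gcd hd dvd_rfl
    rw [hn] at this
    exact hq.one_lt.ne' (Nat.dvd_one.mp this)
  have hpp : ∀ X : Subgroup K, IsPGroup p X → PiNum ({p}ᶜ : Set ℕ)ᶜ (Nat.card X) := by
    intro X hX q hq hd
    obtain ⟨n, hn⟩ := IsPGroup.iff_card.mp hX
    rw [hn] at hd
    rw [compl_compl, Set.mem_singleton_iff]
    exact (Nat.prime_dvd_prime_iff_eq hq hp.out).mp (hq.dvd_of_dvd_pow hd)
  obtain ⟨k, hk⟩ := exists_conj_le_of_sep (π := ({p}ᶜ : Set ℕ)) (L.subgroupOf K) (L'.subgroupOf K)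
    (by
      rw [isPiHall_iff, hidx, Nat.card_congr (subgroupOfEquivOfLe hLK).toEquiv,
        ← Nat.card_congr (subgroupOfEquivOfLe hQK).toEquiv]
      exact ⟨hpn _ hL, hpp _ hQp⟩)
    (by
      rw [Nat.card_congr (subgroupOfEquivOfLe hL'K).toEquiv, hL'c]
      exact hpn _ hL)
    (by
      intro N _ hN
      by_cases hQN : Q.subgroupOf K ≤ N
      · refine ⟨⊤, inferInstance, lt_top_iff_ne_top.mpr hN, Or.inl ?_⟩
        rw [relIndex_top_right]
        have h1 : N.index ∣ Nat.card L := by rw [← hQidx]; exact index_dvd_of_le hQN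
        exact (hpn _ hL).of_dvd h1
      · refine ⟨N ⊔ Q.subgroupOf K, inferInstance, ?_, Or.inr ⟨?_, Or.inr ?_⟩⟩
        · exact lt_of_le_of_ne le_sup_left (fun h => hQN (by rw [h]; exact le_sup_right))
        · rw [sup_comm, relIndex_sup_right]
          exact (hpp _ hQp).of_dvd (relIndex_dvd_card _ _)
        · have h1 : (N ⊔ Q.subgroupOf K).map (QuotientGroup.mk' N) =
              (Q.subgroupOf K).map (QuotientGroup.mk' N) := by
            rw [Subgroup.map_sup, (map_eq_bot_iff N).mpr (by rw [QuotientGroup.ker_mk']), bot_sup_eq]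
          rw [h1]
          have h2 : Group.IsNilpotent ((Q.subgroupOf K).map (QuotientGroup.mk' N)) :=
            (hQp.map _).isNilpotent
          infer_instance)
  refine ⟨k, k.2, ?_⟩
  apply Subgroup.eq_of_le_of_card_ge
  · intro x hx
    have h1 : (⟨x, hL'K hx⟩ : K) ∈ MulAut.conj k • L.subgroupOf K := hk (mem_subgroupOf.mpr hx)
    rw [Subgroup.mem_pointwise_smul_iff_inv_smul_mem] at h1 ⊢
    rw [mem_subgroupOf] at h1
    convert h1 using 1
    rw [← map_inv, ← map_inv]
    rfl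
  · rw [hL'c, card_conj_smul]

/-- The Frattini argument for a complement of a normal `p`-subgroup. -/
theorem frattini_complement {K Q L : Subgroup H} [K.Normal] (hQK : Q ≤ K) (hQn : K ≤ normalizer (Q : Set H))
    (hQ : IsPGroup p Q) (hLK : L ≤ K) (hQL : Q ⊔ L = K) (hL : (Nat.card L).Coprime p) (h : H) :
    ∃ k ∈ K, ∃ n ∈ normalizer (L : Set H), h = k * n := by
  obtain ⟨k, hk, hkL⟩ := exists_conj_of_complement (L' := MulAut.conj h • L) hQK hQn hQ hLK hQL hL
    (by
      have := conj_smul_mono h hLK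
      rwa [conj_smul_normal h K] at this) (card_conj_smul h L)
  refine ⟨k, hk, k⁻¹ * h, ?_, by group⟩
  apply mem_normalizer_iff_conj_smul.mpr
  rw [conj_smul_mul, hkL, ← conj_smul_mul, inv_mul_cancel, conj_smul_one]

/-- If `N_H(P)` has a normal `p`-complement, `P' ≤ Q ≤ P` and `Q` is normal in `H`, then `H/Q` has a
normal `p`-complement. -/
theorem quotient_hasNormalPComplement (P : Sylow p H) (Q : Subgroup H) [Q.Normal]
    (hN : HasNormalPComplement p ↥(normalizer ((P : Subgroup H) : Set H)))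
    (h1 : ∀ a ∈ (P : Subgroup H), ∀ b ∈ (P : Subgroup H), a * b * a⁻¹ * b⁻¹ ∈ Q)
    (h2 : Q ≤ (P : Subgroup H)) : HasNormalPComplement p (H ⧸ Q) := by
  have hcent : ∀ n ∈ normalizer ((P : Subgroup H) : Set H), ∀ x ∈ (P : Subgroup H),
      n * x * n⁻¹ * x⁻¹ ∈ Q := by
    set N := normalizer ((P : Subgroup H) : Set H) with hNdef
    obtain ⟨R, hR, hRp, k, hk⟩ := hasNormalPComplement_iff.mp hN
    have hPN : (P : Subgroup H) ≤ N := le_normalizer
    -- `R` centralizes `P`
    have hRP : ∀ r ∈ R, ∀ x ∈ (P : Subgroup H), (r : H) * x * (r : H)⁻¹ * x⁻¹ = 1 := by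
      intro r hr x hx
      set z : N := r * ⟨x, hPN hx⟩ * r⁻¹ * (⟨x, hPN hx⟩ : N)⁻¹ with hz
      have hzR : z ∈ R := by
        have : z = r * ((⟨x, hPN hx⟩ : N) * r⁻¹ * (⟨x, hPN hx⟩ : N)⁻¹) := by rw [hz]; group
        rw [this]
        exact R.mul_mem hr (hR.conj_mem _ (R.inv_mem hr) _)
      have hzP : (z : H) ∈ (P : Subgroup H) :=
        (P : Subgroup H).mul_mem ((mem_normalizer_iff.mp r.2 x).mp hx) ((P : Subgroup H).inv_mem hx)
      have hz1 : z = 1 := by
        obtain ⟨j, hj⟩ := P.2 ⟨(z : H), hzP⟩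
        have hj1 : (z : H) ^ p ^ j = 1 := congrArg Subtype.val hj
        have hj' : z ^ p ^ j = 1 := Subtype.ext hj1
        have e1 : orderOf z ∣ p ^ j := orderOf_dvd_of_pow_eq_one hj'
        have e2 : orderOf z ∣ Nat.card R := Subgroup.orderOf_dvd_natCard R hzR
        have e3 : (p ^ j).Coprime (Nat.card R) :=
          Nat.Coprime.pow_left j ((Nat.Prime.coprime_iff_not_dvd hp.out).mpr hRp)
        exact orderOf_eq_one_iff.mp (Nat.eq_one_of_dvd_coprimes e3 e1 e2)
      exact congrArg Subtype.val hz1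
    -- `N = R P`
    have hc := (isComplement'_sylow_iff (P.subtype hPN) R).mpr ⟨hRp, k, hk⟩
    intro n hn x hx
    have hn' : (⟨n, hn⟩ : N) ∈ ((R : Set N) * ((P.subtype hPN : Subgroup N) : Set N)) := by
      rw [hc.mul_eq]; trivial
    obtain ⟨r, hr, y, hy, hry⟩ := hn'
    have hry' : (r : H) * (y : H) = n := congrArg Subtype.val hry
    have hyP : (y : H) ∈ (P : Subgroup H) := hy
    rw [← hry']
    have e1 : (r : H) * y * x * ((r : H) * y)⁻¹ * x⁻¹ =
        ((r : H) * (y * x * (y : H)⁻¹) * (r : H)⁻¹ * (y * x * (y : H)⁻¹)⁻¹) *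
          (y * x * (y : H)⁻¹ * x⁻¹) := by group
    rw [e1, hRP r hr _ ((P : Subgroup H).mul_mem ((P : Subgroup H).mul_mem hyP hx)
      ((P : Subgroup H).inv_mem hyP)), one_mul]
    exact h1 _ hyP _ hx
  -- Burnside in `H/Q`
  let P' : Sylow p (H ⧸ Q) := P.mapSurjective (QuotientGroup.mk'_surjective Q)
  have hP' : (P' : Subgroup (H ⧸ Q)) = (P : Subgroup H).map (QuotientGroup.mk' Q) := rfl
  apply TransferApps.hasNormalPComplement_of_normalizer_le_centralizer P'
  intro g hg
  obtain ⟨n, rfl⟩ := QuotientGroup.mk'_surjective Q g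
  have hn : n ∈ normalizer ((P : Subgroup H) : Set H) := by
    apply LocBase.mem_normalizer_of_map_conj_le
    rintro _ ⟨x, hx, rfl⟩
    change n * x * n⁻¹ ∈ (P : Subgroup H)
    have h3 : (QuotientGroup.mk' Q n) * (QuotientGroup.mk' Q x) * (QuotientGroup.mk' Q n)⁻¹ ∈
        (P : Subgroup H).map (QuotientGroup.mk' Q) :=
      (mem_normalizer_iff.mp hg _).mp (mem_map_of_mem _ hx)
    rw [← map_mul, ← map_inv, ← map_mul] at h3
    obtain ⟨y, hy, hyx⟩ := h3
    have h4 : y⁻¹ * (n * x * n⁻¹) ∈ Q := QuotientGroup.eq.mp hyx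
    have h5 := (P : Subgroup H).mul_mem hy (h2 h4)
    rwa [mul_inv_cancel_left] at h5
  rw [mem_centralizer_iff]
  rintro _ ⟨x, hx, rfl⟩
  have h3 := hcent n hn x hx
  rw [← QuotientGroup.eq_one_iff] at h3
  have h4 : (QuotientGroup.mk' Q n) * (QuotientGroup.mk' Q x) * (QuotientGroup.mk' Q n)⁻¹ *
      (QuotientGroup.mk' Q x)⁻¹ = 1 := h3
  rw [mul_inv_eq_one, mul_inv_eq_iff_eq_mul] at h4
  exact h4.symm

/-- If `N_H(P)` has a normal `p`-complement, `P' ≤ Q ≤ Φ(P)` and `Q` is normal in `H`, then `H` has a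
normal `p`-complement. -/
theorem hasNormalPComplement_of_frattini (P : Sylow p H) (Q : Subgroup H) [hQn : Q.Normal]
    (hN : HasNormalPComplement p ↥(normalizer ((P : Subgroup H) : Set H)))
    (h1 : ∀ a ∈ (P : Subgroup H), ∀ b ∈ (P : Subgroup H), a * b * a⁻¹ * b⁻¹ ∈ Q)
    (h2 : Q ≤ (frattini ↥(P : Subgroup H)).map (P : Subgroup H).subtype) :
    HasNormalPComplement p H := by
  have hQP : Q ≤ (P : Subgroup H) := h2.trans (map_subtype_le _)
  have hQp : IsPGroup p Q := P.2.to_le hQP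
  obtain ⟨K', hK', hK'p, k, hk⟩ := hasNormalPComplement_iff.mp (quotient_hasNormalPComplement P Q hN h1 hQP)
  set K := K'.comap (QuotientGroup.mk' Q) with hKdef
  have hKn : K.Normal := hK'.comap _
  have hQK : Q ≤ K := by
    intro q hq
    change QuotientGroup.mk' Q q ∈ K'
    have : QuotientGroup.mk' Q q = 1 := (QuotientGroup.eq_one_iff q).mpr hq
    rw [this]; exact one_mem _
  have hKidx : K.index = p ^ k := by
    rw [hKdef, index_comap_of_surjective _ (QuotientGroup.mk'_surjective Q), hk]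
  have hrel : Q.relIndex K = Nat.card K' := by
    have h3 : K.map (QuotientGroup.mk' Q) = K' := map_comap_eq_self_of_surjective
      (QuotientGroup.mk'_surjective Q) K'
    rw [← h3, ← relIndex_ker, QuotientGroup.ker_mk']
  have hcop : (Nat.card (Q ⊓ K : Subgroup H)).Coprime (Q.relIndex K) := by
    rw [inf_eq_left.mpr hQK, hrel]
    obtain ⟨n, hn⟩ := IsPGroup.iff_card.mp hQp
    rw [hn]
    exact Nat.Coprime.pow_left n ((Nat.Prime.coprime_iff_not_dvd hp.out).mpr hK'p)
  have hKQ : K ≤ normalizer (Q : Set H) := by rw [normalizer_eq_top]; exact le_top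
  obtain ⟨L, hLK, hLc, hQL, hsup⟩ := CoprimeAction.exists_complement_rel hKQ hcop
  rw [inf_eq_left.mpr hQK] at hsup
  have hLp : (Nat.card L).Coprime p := by
    rw [hLc, hrel]; exact ((Nat.Prime.coprime_iff_not_dvd hp.out).mpr hK'p).symm
  -- `H = Q N(L)`
  have hH : ∀ h : H, ∃ q ∈ Q, ∃ n ∈ normalizer (L : Set H), h = q * n := by
    intro h
    obtain ⟨k, hk, n, hn, rfl⟩ := frattini_complement hQK hKQ hQp hLK hsup hLp h
    rw [← hsup] at hk
    obtain ⟨q, hq, l, hl, rfl⟩ := LocBase.exists_mul_of_mem_sup_of_le (hLK.trans hKQ) hk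
    exact ⟨q, hq, l * n, mul_mem (le_normalizer hl) hn, by group⟩
  -- `P ≤ N(L)`
  have hPL : (P : Subgroup H) ≤ normalizer (L : Set H) := by
    have h3 : (normalizer (L : Set H)).subgroupOf (P : Subgroup H) ⊔ frattini ↥(P : Subgroup H) = ⊤ := by
      rw [eq_top_iff]
      intro x _
      obtain ⟨q, hq, n, hn, hx⟩ := hH x
      obtain ⟨f, hf, hfq⟩ := h2 hq
      have hnP : n ∈ (P : Subgroup H) := by
        have : n = q⁻¹ * x := by rw [hx]; group
        rw [this]
        exact mul_mem (inv_mem (hQP hq)) x.2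
      have hxe : x = f * ⟨n, hnP⟩ := by
        apply Subtype.ext
        rw [hx, ← hfq]; rfl
      rw [hxe]
      exact mul_mem (mem_sup_right hf) (mem_sup_left (mem_subgroupOf.mpr hn))
    have h4 := frattini_nongenerating h3
    rwa [subgroupOf_eq_top] at h4
  have hLn : L.Normal := by
    rw [← normalizer_eq_top_iff, eq_top_iff]
    intro h _
    obtain ⟨q, hq, n, hn, rfl⟩ := hH h
    exact mul_mem (hPL (hQP hq)) hn
  rw [hasNormalPComplement_iff]
  refine ⟨L, hLn, (Nat.Prime.coprime_iff_not_dvd hp.out).mp hLp.symm, ?_⟩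
  obtain ⟨n, hn⟩ := IsPGroup.iff_card.mp hQp
  refine ⟨n + k, ?_⟩
  have h5 : L.index * Nat.card L = Nat.card H := by rw [mul_comm]; exact L.card_mul_index
  have h6 : Nat.card K * K.index = Nat.card H := K.card_mul_index
  have h7 : Nat.card Q * Q.relIndex K = Nat.card K := by
    rw [← relIndex_bot_left, ← relIndex_bot_left, relIndex_mul_relIndex _ _ _ bot_le hQK]
  rw [← h6, ← h7, hKidx, hn, ← hLc] at h5
  have h8 : 0 < Nat.card L := Nat.card_pos
  apply Nat.eq_of_mul_eq_mul_right h8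
  rw [h5, pow_add]; ring

end Cfsg.Agent.Lib.PCompTools
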