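import Cfsg.Agent.Lib.PG0
import Cfsg.Agent.Lib.SylU3
import Cfsg.Agent.Lib.SuzukiLie
import Cfsg.Agent.Lib.SuzukiPts
import Cfsg.Agent.Lib.GoldA95b
import Cfsg.Agent.S0330

/-! The piece E of S2212: which simple groups have Sylow 2-subgroups of order `q ^ 3` with `q` elements of square one (helper57). -/

set_option autoImplicit false
set_option linter.all false

namespace Cfsg.Agent.Lib.PG

open Matrix

/-- transport -/
theorem E_tr {L X : Type*} [Group L] [Finite L] [Group X] [Finite X] (e : L ≃* X) {q : ℕ}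
    (hP : ∀ P : Sylow 2 L, Nat.card P = q ^ 3 ∧ Nat.card {x : P // x * x = 1} = q) (P : Sylow 2 X) :
    Nat.card P = q ^ 3 ∧ Nat.card {x : P // x * x = 1} = q := by
  haveI : Fact (Nat.Prime 2) := ⟨Nat.prime_two⟩
  let P' : Sylow 2 L := P.mapSurjective (f := e.symm.toMonoidHom) e.symm.surjective
  have h1 : (P' : Subgroup L) = (P : Subgroup X).map e.symm.toMonoidHom := Sylow.coe_mapSurjective _ _
  let f : P ≃* P' := ((P : Subgroup X).equivMapOfInjective e.symm.toMonoidHom e.symm.injective).trans (MulEquiv.subgroupCongr h1.symm)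
  obtain ⟨h2, h3⟩ := hP P'
  refine ⟨by rw [Nat.card_congr f.toEquiv, h2], ?_⟩
  rw [← h3]
  refine Nat.card_congr (Equiv.subtypeEquiv f.toEquiv fun x => ?_)
  show x * x = 1 ↔ f x * f x = 1
  rw [← map_mul]
  exact (map_eq_one_iff f f.injective).symm

theorem E_psl {F : Type*} [Field F] [Fintype F] [CharP F 2] (T : Sylow 2 (Matrix.ProjectiveSpecialLinearGroup (Fin 2) F)) :
    ∀ x : T, x * x = 1 := by
  have : Fact (Nat.Prime 2) := ⟨Nat.prime_two⟩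
  obtain ⟨T', hT'⟩ := Sylow.mapSurjective_surjective
    (QuotientGroup.mk'_surjective (Subgroup.center (Matrix.SpecialLinearGroup (Fin 2) F))) 2 T
  obtain ⟨g, rfl⟩ := MulAction.exists_smul_eq (Matrix.SpecialLinearGroup (Fin 2) F) (ClSL2.sylowUS F 2) T'
  have hsq : ∀ a ∈ ClSL2.US F, a * a = 1 := by
    intro a ha
    obtain ⟨s, rfl⟩ := ClSL2.exists_uS ha
    apply Subtype.ext
    ext i j
    fin_cases i <;> fin_cases j <;> simp [Matrix.mul_apply, Fin.sum_univ_two, CharTwo.add_self_eq_zero]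
  rintro ⟨a, ha⟩
  apply Subtype.ext
  show a * a = 1
  have ha' : a ∈ (T : Subgroup (Matrix.ProjectiveSpecialLinearGroup (Fin 2) F)) := ha
  rw [← hT'] at ha'
  obtain ⟨a', ha', rfl⟩ := ha'
  rw [← map_mul]
  obtain ⟨a'', ha'', rfl⟩ := ha'
  have h1 : MulAut.conj g a'' * MulAut.conj g a'' = 1 := by rw [← map_mul, hsq a'' ha'', map_one]
  exact (congrArg (QuotientGroup.mk' (Subgroup.center (Matrix.SpecialLinearGroup (Fin 2) F))) h1).trans (map_one _)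

theorem E_sz {F : Type*} [Field F] [Fintype F] {m : ℕ} (hm : 1 ≤ m)
    (hF : Fintype.card F = 2 ^ (2 * m + 1)) (P : Sylow 2 (Cfsg.Sz F m)) :
    Nat.card P = (2 ^ (2 * m + 1)) ^ 2 ∧ Nat.card {x : P // x * x = 1} = 2 ^ (2 * m + 1) := by
  refine ⟨(Cfsg.Agent.S0330.result hm hF P).1, ?_⟩
  have : CharP F 2 := Cfsg.Agent.Lib.SuzukiFin.charTwo hF
  have hθ := Cfsg.Agent.Lib.SuzukiFin.th_sq hF
  have hne := Cfsg.Agent.Lib.SuzukiFin.th_ne hm hF
  have hSz := Cfsg.Agent.Lib.SuzukiFin.Sz_eq (F := F) m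
  generalize Cfsg.Sz F m = X at P hSz
  subst hSz
  obtain ⟨p, hp⟩ := Cfsg.Agent.Lib.SuzukiPts.sylow_eq _ hθ hne P
  obtain ⟨k, hk⟩ := Cfsg.Agent.Lib.SuzukiPts.exists_to _ hθ p
  have e := (Cfsg.Agent.Lib.SuzukiPts.UpEquiv _ hθ hne p k hk).trans
    (MulEquiv.subgroupCongr hp.symm)
  have hq : Nat.card F = 2 ^ (2 * m + 1) := by rw [Nat.card_eq_fintype_card, hF]
  rw [← hq, ← Cfsg.Agent.Lib.SuzukiSyl.card_Z _ hθ]
  symm
  refine Nat.card_congr ?_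
  refine Equiv.trans ?_ (Equiv.subtypeEquiv e.toEquiv (p := fun x => x * x = 1) (q := fun x => x * x = 1) fun x => ?_)
  · refine ⟨fun z => ⟨⟨z.1, Cfsg.Agent.Lib.SuzukiSyl.ZSub_le _ hθ z.2⟩, ?_⟩, fun z => ⟨z.1.1, ?_⟩, fun z => rfl, fun z => rfl⟩
    · apply Subtype.ext
      have h1 := (Cfsg.Agent.Lib.SuzukiSyl.mem_Z_iff_sq _ hθ (Cfsg.Agent.Lib.SuzukiSyl.ZSub_le _ hθ z.2)).1 z.2
      rw [pow_two] at h1
      exact h1
    · apply (Cfsg.Agent.Lib.SuzukiSyl.mem_Z_iff_sq _ hθ z.1.2).2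
      rw [pow_two]
      exact congrArg Subtype.val z.2
  · show x * x = 1 ↔ e x * e x = 1
    rw [← map_mul]
    exact (map_eq_one_iff e e.injective).symm

theorem excl {L : Type*} [Group L] [Finite L] {q : ℕ} (hq : 4 ≤ q)
    (hP : ∀ P : Sylow 2 L, Nat.card P = q ^ 3 ∧ Nat.card {x : P // x * x = 1} = q)
    (h : (∃ (F : Type) (_ : Field F) (_ : Fintype F), (∃ n : ℕ, 2 ≤ n ∧ Fintype.card F = 2 ^ n) ∧
          Nonempty (L ≃* Matrix.ProjectiveSpecialLinearGroup (Fin 2) F)) ∨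
        Cfsg.Lie.IsoSuzuki L ∨
        (∃ (F : Type) (_ : Field F) (_ : Fintype F) (n : ℕ), 2 ≤ n ∧ Fintype.card F = (2 ^ n) ^ 2 ∧
          Nonempty (L ≃* Cfsg.PSU 3 F (2 ^ n)))) :
    ∃ (F : Type) (_ : Field F) (_ : Fintype F), Fintype.card F = q ^ 2 ∧ Nonempty (L ≃* Cfsg.PSU 3 F q) := by
  haveI : Fact (Nat.Prime 2) := ⟨Nat.prime_two⟩
  have hcube : ∀ a b : ℕ, a ^ 3 = b ^ 3 → a = b := fun a b h => Nat.pow_left_injective (by norm_num) h
  rcases h with ⟨F, _, _, ⟨n, hn, hF⟩, ⟨e⟩⟩ | h | ⟨F, _, _, n, hn, hF, ⟨e⟩⟩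
  · exfalso
    haveI : CharP F 2 := Cfsg.Agent.Lib.GoldA95.char2 hF
    haveI : Finite (Matrix.ProjectiveSpecialLinearGroup (Fin 2) F) := Finite.of_equiv L e.toEquiv
    obtain ⟨T⟩ := (inferInstance : Nonempty (Sylow 2 (Matrix.ProjectiveSpecialLinearGroup (Fin 2) F)))
    obtain ⟨h1, h2⟩ := E_tr e hP T
    have h3 : Nat.card {x : T // x * x = 1} = Nat.card T := Nat.card_congr (Equiv.subtypeUnivEquiv (E_psl T))
    rw [h1, h2] at h3
    have : q * 1 < q * (q * q) := Nat.mul_lt_mul_of_pos_left (by nlinarith) (by omega)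
    have h4 : q ^ 3 = q * (q * q) := by ring
    omega
  · exfalso
    obtain ⟨F, _, _, m, hm, hF, ⟨e⟩⟩ := Cfsg.Agent.Lib.SuzukiLie.isoSuzuki_iff.1 h
    haveI : Finite (Cfsg.Sz F m) := Finite.of_equiv L e.toEquiv
    obtain ⟨T⟩ := (inferInstance : Nonempty (Sylow 2 (Cfsg.Sz F m)))
    obtain ⟨h1, h2⟩ := E_tr e hP T
    obtain ⟨h3, h4⟩ := E_sz hm hF T
    rw [h2] at h4
    rw [h1, ← h4] at h3
    have : q ^ 2 * 1 < q ^ 2 * q := Nat.mul_lt_mul_of_pos_left (by omega) (by positivity)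
    have h5 : q ^ 3 = q ^ 2 * q := by ring
    omega
  · haveI : CharP F 2 := Cfsg.Agent.Lib.GoldA95.char2 (n := n * 2) (by rw [hF, pow_mul])
    haveI : Finite (Cfsg.PSU 3 F (2 ^ n)) := Finite.of_equiv L e.toEquiv
    obtain ⟨T⟩ := (inferInstance : Nonempty (Sylow 2 (Cfsg.PSU 3 F (2 ^ n))))
    obtain ⟨h1, h2⟩ := E_tr e hP T
    obtain ⟨f⟩ := Cfsg.Agent.Lib.SylU3.sylow_equiv hF T
    have h3 : Nat.card T = (2 ^ n) ^ 3 := by
      rw [← Cfsg.Agent.Lib.SylU3.card_U3 hF]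
      exact (Nat.card_congr f.toEquiv).symm
    have h4 : 2 ^ n = q := hcube _ _ (by rw [← h3, h1])
    subst h4
    exact ⟨F, inferInstance, inferInstance, hF, ⟨e⟩⟩

end Cfsg.Agent.Lib.PG
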