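import Cfsg.Agent.Lib.PG0
import Cfsg.Agent.Lib.PSUAut

/-! The piece U2c of S2212 (helper57). -/

set_option autoImplicit false
set_option linter.all false

namespace Cfsg.Agent.Lib.PG

open Matrix Cfsg Cfsg.Agent.Lib.PSUAut
open Cfsg.Agent.Lib.PSLAut (aut_ext)

theorem inndiag_mul {F : Type} [Field F] [Fintype F] {q : ℕ} {b c : MulAut (Cfsg.PSU 3 F q)} (hb : Cfsg.IsInnerDiagonalAutPSU b)
    (hc : Cfsg.IsInnerDiagonalAutPSU c) : Cfsg.IsInnerDiagonalAutPSU (b * c) := by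
  obtain ⟨g, rfl⟩ := (isInnerDiagonal_iff b).1 hb
  obtain ⟨h, rfl⟩ := (isInnerDiagonal_iff c).1 hc
  exact (isInnerDiagonal_iff _).2 ⟨g * h, by rw [map_mul]⟩

theorem inndiag_conj {F : Type} [Field F] [Fintype F] {q : ℕ} (g : Cfsg.PSU 3 F q) : Cfsg.IsInnerDiagonalAutPSU (MulAut.conj g) := by
  obtain ⟨s, rfl⟩ := QuotientGroup.mk_surjective g
  rw [isInnerDiagonal_iff]
  refine ⟨⟨Matrix.SpecialLinearGroup.toGL s.1, s.2⟩, ?_⟩
  refine aut_ext fun t => ?_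
  show (QuotientGroup.mk (s * t * s⁻¹) : PSU 3 F q) = QuotientGroup.mk (cg _ t)
  congr 1

end Cfsg.Agent.Lib.PG
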