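import Cfsg.Agent.Lib.PG1

/-! The pieces W1 and W2 of S2212 (helper57). -/

set_option autoImplicit false
set_option linter.all false

namespace Cfsg.Agent.Lib.PG

open Subgroup

variable {G : Type*} [Group G] [Finite G] {q : ℕ}

theorem exists_swap (h : St G q) {P R : Sylow 2 G} (hPR : P ≠ R) {u v : G} (hu : u ∈ P) (hu2 : u * u = 1) (hu1 : u ≠ 1)
    (hv : v ∈ R) (hv2 : v * v = 1) (hv1 : v ≠ 1) : ∃ w : G, w * w = 1 ∧ w * u * w = v ∧ w • P = R ∧ w • R = P := by
  have hui : u⁻¹ = u := inv_eq_of_mul_eq_one_left hu2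
  have hvi : v⁻¹ = v := inv_eq_of_mul_eq_one_left hv2
  set r := u * v with hr
  have hri : r⁻¹ = v * u := by rw [hr, mul_inv_rev, hui, hvi]
  have hur : u * r * u⁻¹ = r⁻¹ := by
    rw [hri, hr, hui]
    calc u * (u * v) * u = (u * u) * v * u := by group
      _ = v * u := by rw [hu2, one_mul]
  have hvr : v * r * v⁻¹ = r⁻¹ := by
    rw [hri, hr, hvi]
    calc v * (u * v) * v = v * u * (v * v) := by group
      _ = v * u := by rw [hv2, mul_one]
  -- odd order
  have hodd : Odd (orderOf r) := by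
    by_contra hne
    rw [Nat.not_odd_iff_even] at hne
    obtain ⟨k, hk⟩ := hne
    have hpos : 0 < orderOf r := orderOf_pos r
    have hk0 : 0 < k := by omega
    set z := r ^ k with hz
    have hzz : z * z = 1 := by rw [hz, ← pow_add, ← hk, pow_orderOf_eq_one]
    have hz1 : z ≠ 1 := by
      intro h1
      have h2 := orderOf_dvd_of_pow_eq_one h1
      have h3 := Nat.le_of_dvd hk0 h2
      omega
    have hzi : z⁻¹ = z := inv_eq_of_mul_eq_one_left hzz
    have c : ∀ a : G, a * r * a⁻¹ = r⁻¹ → z * a = a * z := by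
      intro a ha
      have h1 : a * z * a⁻¹ = z := by
        rw [hz, ← conj_pow, ha, inv_pow, ← hz, hzi]
      calc z * a = (a * z * a⁻¹) * a := by rw [h1]
        _ = a * z := by group
    have h1 := h.of_comm P z u hu hu2 hu1 (c u hur)
    have h2 := h.of_comm R z v hv hv2 hv1 (c v hvr)
    exact hz1 (h.ti P R hPR z (h.mem_of P z hzz h1.1) (h.mem_of R z hzz h2.1))
  obtain ⟨j, hj⟩ := hodd
  have hr1 : r ^ (2 * j + 1) = 1 := by rw [← hj, pow_orderOf_eq_one]
  have hconj : ∀ n : ℕ, u * r ^ n * u = (r ^ n)⁻¹ := by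
    intro n
    have h1 : u * r ^ n * u⁻¹ = (r⁻¹) ^ n := by rw [← conj_pow, hur]
    rw [hui, inv_pow] at h1
    exact h1
  set w := r ^ j * u with hw
  have hww : w * w = 1 := by
    calc w * w = r ^ j * (u * r ^ j * u) := by rw [hw]; group
      _ = 1 := by rw [hconj, mul_inv_cancel]
  have hwi : w⁻¹ = w := inv_eq_of_mul_eq_one_left hww
  have hwuw : w * u * w = v := by
    calc w * u * w = r ^ j * (u * u) * (r ^ j * u) := by rw [hw]; group
      _ = r ^ (2 * j + 1) * r⁻¹ * u := by
        rw [hu2, mul_one, ← mul_assoc, ← pow_add, pow_succ, mul_inv_cancel_right]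
        congr 2; ring
      _ = r⁻¹ * u := by rw [hr1, one_mul]
      _ = v * (u * u) := by rw [hri]; group
      _ = v := by rw [hu2, mul_one]
  have hvw : v ∈ w • P := by
    have h1 := smul_mem (g := w) hu
    rw [hwi, hwuw] at h1
    exact h1
  have hwP : w • P = R := by
    by_contra hne
    exact hv1 (h.ti (w • P) R hne v hvw hv)
  refine ⟨w, hww, hwuw, hwP, ?_⟩
  rw [← hwP, ← mul_smul, hww, one_smul]

/-- parity for an involutive map -/
theorem W_par {α : Type*} [Finite α] (f : α → α) (hf : ∀ a, f (f a) = a) :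
    Nat.card α % 2 = Nat.card {a : α // f a = a} % 2 := by
  classical
  haveI := Fintype.ofFinite α
  let g : Function.End α := f
  have h1 : g ^ 2 ^ 1 = 1 := by
    rw [pow_one, pow_two]
    funext a
    exact hf a
  haveI : Fact (Nat.Prime 2) := ⟨Nat.prime_two⟩
  have h2 := Equiv.Perm.card_fixedPoints_modEq h1
  rw [Nat.card_eq_fintype_card]
  refine Eq.trans h2 ?_
  congr 1
  rw [← Nat.card_eq_fintype_card]
  rfl

theorem W_star (h : St G q) {P : Sylow 2 G} {f w : G} (hf : f ∈ M P) (hodd : Odd (orderOf f)) (hw : w * w = 1)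
    (hwf : w * f * w = f⁻¹) : f = 1 := by
  classical
  obtain ⟨n, hn, hq⟩ := h.two
  have hq4 : 4 ≤ q := by
    rw [hq]
    calc 4 = 2 ^ 2 := by norm_num
      _ ≤ 2 ^ n := Nat.pow_le_pow_right (by norm_num) hn
  have hwi : w⁻¹ = w := inv_eq_of_mul_eq_one_left hw
  -- an involution of P
  have hnt : Nontrivial {x : G // x ∈ P ∧ x * x = 1} := by
    rw [← Finite.one_lt_card_iff_nontrivial, h.inv P]; omega
  obtain ⟨⟨u, hu, hu2⟩, hune⟩ := exists_ne (⟨1, one_mem P, one_mul 1⟩ : {x : G // x ∈ P ∧ x * x = 1})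
  have hu1 : u ≠ 1 := fun h1 => hune (Subtype.ext h1)
  have hui : u⁻¹ = u := inv_eq_of_mul_eq_one_left hu2
  have hfu : f * u = u * f := hf u hu hu2
  let Φ := {T : Sylow 2 G // f ∈ M T}
  let U : Φ → Φ := fun T => ⟨u • T.1, by
    have h1 := M_smul (g := u) T.2
    rwa [← hfu, mul_inv_cancel_right] at h1⟩
  let W : Φ → Φ := fun T => ⟨w • T.1, by
    have h1 := M_smul (g := w) T.2
    rw [hwi, hwf] at h1
    exact inv_mem_iff.1 h1⟩
  have hU : ∀ T, U (U T) = T := by
    intro T
    apply Subtype.ext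
    show u • u • T.1 = T.1
    rw [← mul_smul, hu2, one_smul]
  have hW : ∀ T, W (W T) = T := by
    intro T
    apply Subtype.ext
    show w • w • T.1 = T.1
    rw [← mul_smul, hw, one_smul]
  have h1 := W_par U hU
  have h2 := W_par W hW
  have h3 : Nat.card {T : Φ // U T = T} = 1 := by
    rw [Nat.card_eq_one_iff_unique]
    constructor
    · constructor
      have key : ∀ T : {T : Φ // U T = T}, T.1.1 = P := by
        rintro ⟨T, hT⟩
        by_contra hne
        have h4 : u • T.1 = T.1 := congrArg Subtype.val hT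
        have h5 := h.mem_of T.1 u hu2 h4
        exact hu1 (h.ti T.1 P hne u h5 hu)
      intro a b
      exact Subtype.ext (Subtype.ext ((key a).trans (key b).symm))
    · have h4 : u • P = P := (h.of_comm P u u hu hu2 hu1 rfl).1
      exact ⟨⟨⟨P, hf⟩, Subtype.ext h4⟩⟩
  rw [h3] at h1
  have h4 : Nat.card {T : Φ // W T = T} ≠ 0 := by
    intro h5
    rw [h5] at h2
    omega
  obtain ⟨T, hT⟩ : Nonempty {T : Φ // W T = T} := by
    by_contra h5
    rw [not_nonempty_iff] at h5
    exact h4 Nat.card_of_isEmpty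
  have h5 : w • T.1 = T.1 := congrArg Subtype.val hT
  have h6 := h.mem_of T.1 w hw h5
  have h7 : f * w = w * f := T.2 w h6 hw
  have h8 : f = f⁻¹ := by
    rw [← hwf, ← h7, mul_assoc, hw, mul_one]
  have h9 : f ^ 2 = 1 := by
    rw [pow_two]
    nth_rewrite 2 [h8]
    exact mul_inv_cancel f
  have h10 := orderOf_dvd_of_pow_eq_one h9
  rcases (Nat.dvd_prime Nat.prime_two).1 h10 with h11 | h11
  · exact orderOf_eq_one_iff.1 h11
  · rw [h11] at hodd
    exact absurd hodd (by decide)

theorem comm_swap (h : St G q) {P R : Sylow 2 G} (hPR : P ≠ R) {e w : G} (heM : e ∈ M P) (heR : e • R = R)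
    (hw : w * w = 1) (hwP : w • P = R) : w * e = e * w := by
  classical
  obtain ⟨n, hn, hq⟩ := h.two
  have hq4 : 4 ≤ q := by
    rw [hq]
    calc 4 = 2 ^ 2 := by norm_num
      _ ≤ 2 ^ n := Nat.pow_le_pow_right (by norm_num) hn
  have hwi : w⁻¹ = w := inv_eq_of_mul_eq_one_left hw
  have hwR : w • R = P := by rw [← hwP, ← mul_smul, hw, one_smul]
  -- M P stabilizes P
  have hMst : ∀ (T : Sylow 2 G) (g : G), g ∈ M T → g • T = T := by
    intro T g hg
    have hnt : Nontrivial {x : G // x ∈ T ∧ x * x = 1} := by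
      rw [← Finite.one_lt_card_iff_nontrivial, h.inv T]; omega
    obtain ⟨⟨u, hu, hu2⟩, hune⟩ := exists_ne (⟨1, one_mem T, one_mul 1⟩ : {x : G // x ∈ T ∧ x * x = 1})
    have hu1 : u ≠ 1 := fun h1 => hune (Subtype.ext h1)
    exact (h.of_comm T g u hu hu2 hu1 (hg u hu hu2)).1
  -- odd orders
  have hoddE : ∀ a : G, a ∈ M P → a • R = R → Odd (orderOf a) := by
    intro a haM haR
    by_contra hne
    rw [Nat.not_odd_iff_even] at hne
    obtain ⟨k, hk⟩ := hne
    have hpos : 0 < orderOf a := orderOf_pos a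
    have hk0 : 0 < k := by omega
    have hzz : a ^ k * a ^ k = 1 := by rw [← pow_add, ← hk, pow_orderOf_eq_one]
    have hz1 : a ^ k ≠ 1 := by
      intro h1
      have h2 := orderOf_dvd_of_pow_eq_one h1
      have h3 := Nat.le_of_dvd hk0 h2
      omega
    have h1 : a ^ k • P = P := hMst P _ (pow_mem haM k)
    have h2 : a ^ k • R = R := by
      have : ∀ m : ℕ, a ^ m • R = R := by
        intro m
        induction m with
        | zero => rw [pow_zero, one_smul]
        | succ m ih => rw [pow_succ, mul_smul, haR, ih]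
      exact this k
    exact hz1 (h.ti P R hPR _ (h.mem_of P _ hzz h1) (h.mem_of R _ hzz h2))
  have hq1 : ∀ a : G, a ∈ M P → a • R = R → a ^ (q + 1) = 1 := by
    intro a haM haR
    have h1 : orderOf a ∣ q ^ 3 * (q + 1) := by
      rw [← h.cardM P]
      have := orderOf_dvd_natCard (⟨a, haM⟩ : M P)
      rwa [Subgroup.orderOf_mk] at this
    have h2 : Nat.Coprime (orderOf a) (q ^ 3) := by
      rw [hq]
      exact ((Nat.coprime_two_right.2 (hoddE a haM haR)).pow_right n).pow_right 3
    exact orderOf_dvd_iff_pow_eq_one.1 (h2.dvd_of_dvd_mul_left h1)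
  -- e lies in M R
  have hMR : ∀ a : G, a ∈ M P → a • R = R → a ∈ M R := by
    intro a haM haR
    have hle : M R ≤ MulAction.stabilizer G R := fun g hg => hMst R g hg
    let K : Subgroup (MulAction.stabilizer G R) := (M R).subgroupOf (MulAction.stabilizer G R)
    haveI : K.Normal := by
      constructor
      rintro ⟨b, hb⟩ hbK ⟨g, hg⟩
      have h1 : g * b * g⁻¹ ∈ M (g • R) := M_smul (Subgroup.mem_subgroupOf.1 hbK)
      have h2 : g • R = R := hg
      rw [h2] at h1
      exact Subgroup.mem_subgroupOf.2 h1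
    have hK : Nat.card K = q ^ 3 * (q + 1) := by
      rw [← h.cardM R]
      exact Nat.card_congr (Subgroup.subgroupOfEquivOfLe hle).toEquiv
    have hidx : K.index = q - 1 := by
      have h1 := Subgroup.card_mul_index K
      rw [hK, h.cardN R] at h1
      have h2 : 0 < q ^ 3 * (q + 1) := by positivity
      exact Nat.eq_of_mul_eq_mul_left h2 h1
    have h1 : (⟨a, haR⟩ : MulAction.stabilizer G R) ^ (q - 1) ∈ K := by
      rw [← hidx]
      exact Subgroup.pow_index_mem K _
    have h2 : a ^ (q - 1) ∈ M R := Subgroup.mem_subgroupOf.1 h1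
    have h3 := hq1 a haM haR
    have h4 : Nat.Coprime (orderOf a) (q - 1) := by
      have h5 : orderOf a ∣ q + 1 := orderOf_dvd_of_pow_eq_one h3
      have h6 : Nat.gcd (orderOf a) (q - 1) ∣ 2 := by
        have a1 : Nat.gcd (orderOf a) (q - 1) ∣ q + 1 := (Nat.gcd_dvd_left _ _).trans h5
        have a2 : Nat.gcd (orderOf a) (q - 1) ∣ q - 1 := Nat.gcd_dvd_right _ _
        have a3 := (Nat.dvd_sub a1 a2)
        have a4 : q + 1 - (q - 1) = 2 := by omega
        rwa [a4] at a3
      rcases (Nat.dvd_prime Nat.prime_two).1 h6 with h7 | h7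
      · exact h7
      · exfalso
        have a1 : 2 ∣ orderOf a := by rw [← h7]; exact Nat.gcd_dvd_left _ _
        have a2 := hoddE a haM haR
        rw [Nat.odd_iff] at a2
        omega
    -- a is a power of a ^ (q - 1)
    have h5 : a ∈ Subgroup.zpowers (a ^ (q - 1)) := by
      have h6 : Subgroup.zpowers (a ^ (q - 1)) = Subgroup.zpowers a := by
        apply Subgroup.eq_of_le_of_card_ge
        · rw [Subgroup.zpowers_le]
          exact Subgroup.pow_mem _ (Subgroup.mem_zpowers a) _
        · rw [Nat.card_zpowers, Nat.card_zpowers, Nat.Coprime.orderOf_pow h4]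
      rw [h6]
      exact Subgroup.mem_zpowers a
    exact (Subgroup.zpowers_le.2 h2) h5
  -- the conjugate
  have heMR := hMR e heM heR
  have hc1 : w * e * w ∈ M P := by
    have h1 := M_smul (g := w) heMR
    rwa [hwR, hwi] at h1
  have hc2 : (w * e * w) • R = R := by
    rw [mul_smul, mul_smul, hwR, hMst P e heM, hwP]
  set f := e⁻¹ * (w * e * w) with hf
  have hfM : f ∈ M P := (M P).mul_mem ((M P).inv_mem heM) hc1
  have hfR : f • R = R := by
    rw [hf, mul_smul, hc2, inv_smul_eq_iff, heR]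
  have hwf : w * f * w = f⁻¹ := by
    rw [hf, mul_inv_rev, inv_inv, mul_inv_rev, mul_inv_rev, hwi]
    calc w * (e⁻¹ * (w * e * w)) * w = w * e⁻¹ * w * e * (w * w) := by group
      _ = w * (e⁻¹ * w) * e := by rw [hw, mul_one]; group
  have hf1 := W_star h hfM (hoddE f hfM hfR) hw hwf
  have h1 : w * e * w = e := by
    rw [hf] at hf1
    exact (inv_mul_eq_one.1 hf1).symm
  calc w * e = w * e * (w * w) := by rw [hw, mul_one]
    _ = (w * e * w) * w := by group
    _ = e * w := by rw [h1]

end Cfsg.Agent.Lib.PG
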