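import Cfsg.Agent.Lib.PG0

/-!
# Characterization of PGU(3,q), q even: the Sylow 2-subgroups (helper76)
-/

set_option autoImplicit false

namespace Cfsg.Agent.Lib.PG

open Subgroup

section
variable {G : Type*} [Group G]

/-- the hypotheses -/
structure Hyp (G : Type*) [Group G] (q : ℕ) : Prop where
  two : ∃ n, 2 ≤ n ∧ q = 2 ^ n
  even : Even (Nat.card G)
  conj : ∀ s t : G, orderOf s = 2 → orderOf t = 2 → IsConj s t
  ct : ∀ x : G, orderOf x = 2 → CT (centralizer ({x} : Set G)) q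
  nn : ∀ P : Sylow 2 G, ¬ (P : Subgroup G).Normal

/-- the centralizer of the involutions of `P` -/
def M (P : Sylow 2 G) : Subgroup G where
  carrier := {g | ∀ x ∈ P, x * x = 1 → g * x = x * g}
  one_mem' := fun x _ _ => by rw [one_mul, mul_one]
  mul_mem' := fun {g h} hg hh x hx hxx => by rw [mul_assoc, hh x hx hxx, ← mul_assoc, hg x hx hxx, mul_assoc]
  inv_mem' := fun {g} hg x hx hxx => by
    have h := hg x hx hxx
    rw [inv_mul_eq_iff_eq_mul, ← mul_assoc, h, mul_inv_cancel_right]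

theorem mem_M {P : Sylow 2 G} {g : G} : g ∈ M P ↔ ∀ x ∈ P, x * x = 1 → g * x = x * g := Iff.rfl

/-- the structure obtained -/
structure St (G : Type*) [Group G] (q : ℕ) : Prop where
  two : ∃ n, 2 ≤ n ∧ q = 2 ^ n
  cardP : ∀ P : Sylow 2 G, Nat.card P = q ^ 3
  /-- involutions normalizing `P` -/
  mem_of : ∀ (P : Sylow 2 G) (x : G), x * x = 1 → x • P = P → x ∈ P
  ti : ∀ P R : Sylow 2 G, P ≠ R → ∀ x, x ∈ P → x ∈ R → x = 1
  PM : ∀ P : Sylow 2 G, (P : Subgroup G) ≤ M P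
  of_comm : ∀ (P : Sylow 2 G) (g x : G), x ∈ P → x * x = 1 → x ≠ 1 → g * x = x * g → g • P = P ∧ g ∈ M P
  cardM : ∀ P : Sylow 2 G, Nat.card (M P) = q ^ 3 * (q + 1)
  cardN : ∀ P : Sylow 2 G, Nat.card (MulAction.stabilizer G P) = q ^ 3 * (q + 1) * (q - 1)
  inv : ∀ P : Sylow 2 G, Nat.card {x : G // x ∈ P ∧ x * x = 1} = q
  cyc : ∀ P : Sylow 2 G, ∃ A ≤ M P, IsCyclic A ∧ Nat.card A = q + 1
  fpf : ∀ (P : Sylow 2 G) (a x : G), a ∈ M P → a ≠ 1 → Odd (orderOf a) → x ∈ P → a * x = x * a → x * x = 1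
  exR : ∀ P : Sylow 2 G, ∃ R : Sylow 2 G, P ≠ R

variable [Finite G] {q : ℕ}

theorem mem_stab {P : Sylow 2 G} {g : G} : g • P = P ↔ g ∈ normalizer (P : Set G) := Sylow.smul_eq_iff_mem_normalizer

/-- a 2-element normalizing `P` lies in `P` -/
theorem mem_of_two {P : Sylow 2 G} {x : G} {k : ℕ} (hk : x ^ 2 ^ k = 1) (hx : x • P = P) : x ∈ P := by
  have h1 : IsPGroup 2 (zpowers x) := by
    have f2 : Fact (Nat.Prime 2) := ⟨Nat.prime_two⟩
    rw [IsPGroup.iff_card, Nat.card_zpowers]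
    obtain ⟨m, -, hm⟩ := (Nat.dvd_prime_pow Nat.prime_two).1 (orderOf_dvd_of_pow_eq_one hk)
    exact ⟨m, hm⟩
  have h2 := h1.inf_normalizer_sylow P
  have h3 : x ∈ zpowers x ⊓ normalizer (P : Set G) := ⟨mem_zpowers x, mem_stab.1 hx⟩
  have h4 : x ∈ zpowers x ⊓ (P : Subgroup G) := by
    rw [← h2]; exact h3
  exact h4.2

theorem two_pow_of_mem {P : Sylow 2 G} {x : G} (hx : x ∈ P) : ∃ k, x ^ 2 ^ k = 1 := by
  obtain ⟨k, hk⟩ := P.2 ⟨x, hx⟩
  exact ⟨k, congrArg Subtype.val hk⟩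

theorem smul_mem {P : Sylow 2 G} {g x : G} (hx : x ∈ P) : g * x * g⁻¹ ∈ g • P := by
  have h : g * x * g⁻¹ ∈ ((g • P : Sylow 2 G) : Subgroup G) := by
    rw [Sylow.coe_subgroup_smul]
    exact Subgroup.smul_mem_pointwise_smul x (MulAut.conj g) _ hx
  exact h

theorem mem_smul {P : Sylow 2 G} {g x : G} : x ∈ g • P ↔ g⁻¹ * x * g ∈ P := by
  constructor
  · intro h
    have := smul_mem (g := g⁻¹) h
    rwa [inv_smul_smul, inv_inv] at this
  · intro h
    have := smul_mem (g := g) h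
    rwa [show g * (g⁻¹ * x * g) * g⁻¹ = x by group] at this

theorem M_smul {P : Sylow 2 G} {g h : G} (hh : h ∈ M P) : g * h * g⁻¹ ∈ M (g • P) := by
  intro x hx hxx
  have h1 := mem_smul.1 hx
  have h2 := hh _ h1 (by
    rw [show g⁻¹ * x * g * (g⁻¹ * x * g) = g⁻¹ * (x * x) * g by group, hxx]; group)
  calc g * h * g⁻¹ * x = g * (h * (g⁻¹ * x * g)) * g⁻¹ := by group
    _ = g * ((g⁻¹ * x * g) * h) * g⁻¹ := by rw [h2]
    _ = x * (g * h * g⁻¹) := by group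

end

end Cfsg.Agent.Lib.PG
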