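import Cfsg.Agent.Lib.PG1

/-!
# Characterization of PGU(3,q), q even: the Sylow structure (helper76)
-/

set_option autoImplicit false

namespace Cfsg.Agent.Lib.PG

open Subgroup

section
variable {G : Type*} [Group G] [Finite G] {q : ℕ}

theorem ord_two {x : G} (h2 : x * x = 1) (h1 : x ≠ 1) : orderOf x = 2 :=
  orderOf_eq_prime (by rw [pow_two, h2]) h1

theorem sq_of_ord {x : G} (h : orderOf x = 2) : x * x = 1 ∧ x ≠ 1 := by
  constructor
  · rw [← pow_two, ← h, pow_orderOf_eq_one]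
  · rintro rfl; rw [orderOf_one] at h; exact absurd h (by decide)

theorem exists_ord_two {H : Subgroup G} (hp : IsPGroup 2 H) (h1 : H ≠ ⊥) : ∃ x ∈ H, orderOf x = 2 := by
  have f2 : Fact (Nat.Prime 2) := ⟨Nat.prime_two⟩
  obtain ⟨k, hk⟩ := hp.exists_card_eq
  have hk0 : k ≠ 0 := by
    rintro rfl
    exact h1 (Subgroup.card_eq_one.1 (by rw [hk, pow_zero]))
  obtain ⟨z, hz⟩ := exists_prime_orderOf_dvd_card' (G := H) 2 (by rw [hk]; exact dvd_pow_self 2 hk0)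
  exact ⟨z, z.2, by rw [Subgroup.orderOf_coe, hz]⟩

theorem Hyp.exists_center (h : Hyp G q) (R : Sylow 2 G) : ∃ x ∈ R, orderOf x = 2 ∧ ∀ r ∈ R, r * x = x * r := by
  have f2 : Fact (Nat.Prime 2) := ⟨Nat.prime_two⟩
  have hR : Nontrivial R := by
    have h1 : 2 ∣ Nat.card R := R.dvd_card_of_dvd_card (even_iff_two_dvd.1 h.even)
    rw [← Finite.one_lt_card_iff_nontrivial]
    exact lt_of_lt_of_le (by norm_num) (Nat.le_of_dvd Nat.card_pos h1)
  have hc := R.2.center_nontrivial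
  have hc2 : IsPGroup 2 (Subgroup.center R) := R.2.to_subgroup _
  obtain ⟨k, hk⟩ := hc2.exists_card_eq
  have hk0 : k ≠ 0 := by
    rintro rfl
    have := Finite.one_lt_card_iff_nontrivial.2 hc
    rw [hk] at this
    exact absurd this (by norm_num)
  obtain ⟨z, hz⟩ := exists_prime_orderOf_dvd_card' (G := Subgroup.center R) 2 (by rw [hk]; exact dvd_pow_self 2 hk0)
  refine ⟨((z : R) : G), (z : R).2, by rw [Subgroup.orderOf_coe, Subgroup.orderOf_coe, hz], ?_⟩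
  intro r hr
  have := Subgroup.mem_center_iff.1 z.2 ⟨r, hr⟩
  exact congrArg Subtype.val this

theorem mem_cent {x g : G} : g ∈ centralizer ({x} : Set G) ↔ g * x = x * g := by
  rw [Subgroup.mem_centralizer_singleton_iff]

/-- the subgroup of order `q³` -/
theorem Hyp.exists_S (h : Hyp G q) {x : G} (hx : orderOf x = 2) : ∃ S : Subgroup G, Nat.card S = q ^ 3 ∧
    S ≤ centralizer ({x} : Set G) ∧ ∀ g ∈ centralizer ({x} : Set G), ∀ y ∈ S, g * y * g⁻¹ ∈ S := by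
  obtain ⟨P0, hN, hc⟩ := (h.ct x hx).nrm
  refine ⟨P0.map (centralizer ({x} : Set G)).subtype, ?_, ?_, ?_⟩
  · rw [← hc]
    exact (Nat.card_congr (P0.equivMapOfInjective _ (Subgroup.subtype_injective _)).toEquiv).symm
  · rintro _ ⟨y, -, rfl⟩; exact y.2
  · rintro g hg _ ⟨y, hy, rfl⟩
    exact ⟨⟨g, hg⟩ * y * ⟨g, hg⟩⁻¹, hN.conj_mem y hy ⟨g, hg⟩, rfl⟩

theorem Hyp.cardP (h : Hyp G q) (R : Sylow 2 G) : Nat.card R = q ^ 3 := by
  have f2 : Fact (Nat.Prime 2) := ⟨Nat.prime_two⟩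
  obtain ⟨x, hxR, hx, hc⟩ := h.exists_center R
  obtain ⟨n, hn, hq⟩ := h.two
  apply Nat.dvd_antisymm
  · have h1 : Nat.card R ∣ q ^ 3 * (q + 1) := by
      rw [← (h.ct x hx).card]
      exact Subgroup.card_dvd_of_le (fun r hr => mem_cent.2 (hc r hr))
    refine Nat.Coprime.dvd_of_dvd_mul_right ?_ h1
    obtain ⟨k, hk⟩ := R.2.exists_card_eq
    have h3 : Nat.card R = 2 ^ k := hk
    rw [h3]
    apply Nat.Coprime.pow_left
    rw [Nat.coprime_two_left, hq]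
    exact (Nat.even_pow.2 ⟨by decide, by omega⟩).add_one
  · obtain ⟨S, hS, -⟩ := h.exists_S hx
    have h1 : IsPGroup 2 S := by
      rw [IsPGroup.iff_card]; exact ⟨n * 3, by rw [hS, hq, ← pow_mul]⟩
    obtain ⟨T, hT⟩ := h1.exists_le_sylow
    have h2 := Subgroup.card_dvd_of_le hT
    rw [hS] at h2
    have h3 : Nat.card R = Nat.card T := Nat.card_congr (Sylow.equiv R T).toEquiv
    rw [h3]; exact h2

theorem Hyp.exists_T (h : Hyp G q) {x : G} (hx : orderOf x = 2) : ∃ T : Sylow 2 G, (T : Subgroup G) ≤ centralizer ({x} : Set G) ∧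
    ∀ g ∈ centralizer ({x} : Set G), g • T = T := by
  have f2 : Fact (Nat.Prime 2) := ⟨Nat.prime_two⟩
  obtain ⟨n, hn, hq⟩ := h.two
  obtain ⟨S, hS, hS1, hS2⟩ := h.exists_S hx
  have h1 : IsPGroup 2 S := by
    rw [IsPGroup.iff_card]; exact ⟨n * 3, by rw [hS, hq, ← pow_mul]⟩
  obtain ⟨T, hT⟩ := h1.exists_le_sylow
  have hST : S = T := Subgroup.eq_of_le_of_card_ge hT (by rw [hS]; exact (h.cardP T).le)
  refine ⟨T, by rw [← hST]; exact hS1, ?_⟩
  intro g hg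
  apply Sylow.ext
  apply Subgroup.eq_of_le_of_card_ge
  · intro y hy
    have hy' : y ∈ g • T := hy
    rw [mem_smul] at hy'
    have hy2 : g⁻¹ * y * g ∈ S := by rw [hST]; exact hy'
    have := hS2 g hg _ hy2
    rw [show g * (g⁻¹ * y * g) * g⁻¹ = y by group, hST] at this
    exact this
  · exact ((h.cardP T).trans (h.cardP (g • T)).symm).le

/-- an involution of a Sylow 2-subgroup is central in it, and its centralizer normalizes it -/
theorem Hyp.inv_P (h : Hyp G q) {P : Sylow 2 G} {x : G} (hxP : x ∈ P) (hx : orderOf x = 2) :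
    (P : Subgroup G) ≤ centralizer ({x} : Set G) ∧ ∀ g ∈ centralizer ({x} : Set G), g • P = P := by
  have key : ∀ T : Sylow 2 G, (∀ g ∈ P, g • T = T) → P = T := by
    intro T hT
    apply Sylow.ext
    apply Subgroup.eq_of_le_of_card_ge
    · intro y hy
      obtain ⟨k, hk⟩ := two_pow_of_mem (P := P) hy
      exact mem_of_two hk (hT y hy)
    · exact ((h.cardP T).trans (h.cardP P).symm).le
  obtain ⟨x0, hx0P, hx0, hc⟩ := h.exists_center P
  obtain ⟨T, hT1, hT2⟩ := h.exists_T hx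
  have hPx : (P : Subgroup G) ≤ centralizer ({x} : Set G) := by
    intro y hy
    have h1 := (h.ct x0 hx0).comm ⟨x, mem_cent.2 (hc x hxP)⟩ ⟨y, mem_cent.2 (hc y hy)⟩ (Subtype.ext (sq_of_ord hx).1)
    exact mem_cent.2 (congrArg Subtype.val h1).symm
  have hPT := key T fun g hg => hT2 g (hPx hg)
  exact ⟨hPx, fun g hg => by rw [hPT]; exact hT2 g hg⟩

theorem Hyp.uniq (h : Hyp G q) {P R : Sylow 2 G} {x : G} (hxP : x ∈ P) (hxR : x ∈ R) (hx : orderOf x = 2) : P = R := by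
  obtain ⟨h1, -⟩ := h.inv_P hxP hx
  obtain ⟨-, h2⟩ := h.inv_P hxR hx
  apply Sylow.ext
  apply Subgroup.eq_of_le_of_card_ge
  · intro y hy
    obtain ⟨k, hk⟩ := two_pow_of_mem (P := P) hy
    exact mem_of_two hk (h2 y (h1 hy))
  · exact ((h.cardP R).trans (h.cardP P).symm).le

theorem Hyp.ti (h : Hyp G q) {P R : Sylow 2 G} (hPR : P ≠ R) {x : G} (hxP : x ∈ P) (hxR : x ∈ R) : x = 1 := by
  have h1 : (P : Subgroup G) ⊓ R = ⊥ := by
    by_contra hne
    have h2 : IsPGroup 2 ((P : Subgroup G) ⊓ R : Subgroup G) := P.2.to_le inf_le_left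
    obtain ⟨z, hz, hz2⟩ := exists_ord_two h2 hne
    exact hPR (h.uniq hz.1 hz.2 hz2)
  have h2 : x ∈ (P : Subgroup G) ⊓ R := ⟨hxP, hxR⟩
  rw [h1] at h2
  exact Subgroup.mem_bot.1 h2

theorem Hyp.of_comm (h : Hyp G q) (P : Sylow 2 G) (g x : G) (hx : x ∈ P) (hx2 : x * x = 1) (hx1 : x ≠ 1) (hg : g * x = x * g) :
    g • P = P ∧ g ∈ M P := by
  have ho := ord_two hx2 hx1
  obtain ⟨h1, h2⟩ := h.inv_P hx ho
  refine ⟨h2 g (mem_cent.2 hg), ?_⟩
  intro y hy hyy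
  have h3 := (h.ct x ho).comm ⟨y, h1 hy⟩ ⟨g, mem_cent.2 hg⟩ (Subtype.ext hyy)
  exact (congrArg Subtype.val h3).symm

theorem Hyp.M_eq (h : Hyp G q) {P : Sylow 2 G} {x : G} (hx : x ∈ P) (ho : orderOf x = 2) : M P = centralizer ({x} : Set G) := by
  ext g
  rw [mem_cent]
  constructor
  · intro hg
    exact hg x hx (sq_of_ord ho).1
  · intro hg
    exact (h.of_comm P g x hx (sq_of_ord ho).1 (sq_of_ord ho).2 hg).2

theorem Hyp.inv (h : Hyp G q) (P : Sylow 2 G) : Nat.card {x : G // x ∈ P ∧ x * x = 1} = q := by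
  obtain ⟨x0, hx0P, hx0, hc⟩ := h.exists_center P
  obtain ⟨h1, h2⟩ := h.inv_P hx0P hx0
  rw [← (h.ct x0 hx0).inv]
  refine Nat.card_congr ⟨fun y => ⟨⟨y.1, h1 y.2.1⟩, Subtype.ext y.2.2⟩, fun y => ⟨y.1.1, ?_, congrArg Subtype.val y.2⟩, fun y => rfl, fun y => rfl⟩
  have hy : (y.1.1 : G) * y.1.1 = 1 := congrArg Subtype.val y.2
  exact mem_of_two (k := 1) (by rw [pow_one, pow_two, hy]) (h2 _ y.1.2)

theorem Hyp.card_inv (h : Hyp G q) (P : Sylow 2 G) : ({x : G | x ∈ P ∧ x * x = 1 ∧ x ≠ 1}).ncard = q - 1 := by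
  have h1 := h.inv P
  have h3 : {x : G | x ∈ P ∧ x * x = 1 ∧ x ≠ 1} = {x : G | x ∈ P ∧ x * x = 1} \ {1} := by
    ext x
    constructor
    · rintro ⟨a, b, c⟩; exact ⟨⟨a, b⟩, c⟩
    · rintro ⟨⟨a, b⟩, c⟩; exact ⟨a, b, c⟩
  rw [h3, Set.ncard_sdiff_singleton_of_mem (show (1 : G) ∈ {x : G | x ∈ P ∧ x * x = 1} from ⟨one_mem _, one_mul 1⟩)]
  have h4 : ({x : G | x ∈ P ∧ x * x = 1}).ncard = q := h1
  rw [h4]

theorem Hyp.cardN (h : Hyp G q) (P : Sylow 2 G) : Nat.card (MulAction.stabilizer G P) = q ^ 3 * (q + 1) * (q - 1) := by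
  obtain ⟨x0, hx0P, hx0, hc⟩ := h.exists_center P
  obtain ⟨h1, h2⟩ := h.inv_P hx0P hx0
  have hM := h.M_eq hx0P hx0
  letI act : MulAction (MulAction.stabilizer G P) G := MulAction.compHom G ((MulAut.conj (G := G)).comp (MulAction.stabilizer G P).subtype)
  have hact : ∀ (n : MulAction.stabilizer G P) (y : G), n • y = (n : G) * y * (n : G)⁻¹ := fun n y => rfl
  have h3 := Subgroup.card_mul_index (MulAction.stabilizer (MulAction.stabilizer G P) x0)
  rw [MulAction.index_stabilizer] at h3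
  have h4 : MulAction.orbit (MulAction.stabilizer G P) x0 = {x : G | x ∈ P ∧ x * x = 1 ∧ x ≠ 1} := by
    ext y
    constructor
    · rintro ⟨n, rfl⟩
      show (n : G) * x0 * (n : G)⁻¹ ∈ P ∧ ((n : G) * x0 * (n : G)⁻¹) * ((n : G) * x0 * (n : G)⁻¹) = 1 ∧ (n : G) * x0 * (n : G)⁻¹ ≠ 1
      refine ⟨?_, ?_, ?_⟩
      · have h5 := smul_mem (g := (n : G)) hx0P
        rwa [show (n : G) • P = P from n.2] at h5
      · rw [show ((n : G) * x0 * (n : G)⁻¹) * ((n : G) * x0 * (n : G)⁻¹) = (n : G) * (x0 * x0) * (n : G)⁻¹ by group, (sq_of_ord hx0).1]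
        group
      · intro h5
        rw [mul_inv_eq_one] at h5
        exact (sq_of_ord hx0).2 (mul_eq_left.1 h5)
    · rintro ⟨hy, hy2, hy1⟩
      obtain ⟨g, hg⟩ := isConj_iff.1 (h.conj x0 y hx0 (ord_two hy2 hy1))
      have h5 : y ∈ g • P := by
        have := smul_mem (g := g) hx0P
        rwa [hg] at this
      exact ⟨⟨g, h.uniq h5 hy (ord_two hy2 hy1)⟩, hg⟩
  rw [h4, h.card_inv P] at h3
  rw [← h3]
  congr 1
  rw [← (h.ct x0 hx0).card]
  refine Nat.card_congr ⟨fun y => ⟨y.1.1, ?_⟩, fun y => ⟨⟨y.1, h2 y.1 y.2⟩, ?_⟩, fun y => rfl, fun y => rfl⟩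
  · have h5 : (y.1 : G) * x0 * (y.1 : G)⁻¹ = x0 := y.2
    rw [mem_cent]
    exact mul_inv_eq_iff_eq_mul.1 h5
  · show (y : G) * x0 * (y : G)⁻¹ = x0
    rw [mul_inv_eq_iff_eq_mul]
    exact mem_cent.1 y.2

theorem Hyp.st' (h : Hyp G q) : St G q where
  two := h.two
  cardP := h.cardP
  mem_of P x hx hxP := mem_of_two (k := 1) (by rw [pow_one, pow_two, hx]) hxP
  ti P R hPR x := h.ti hPR
  PM P := by
    intro g hg x hx hxx
    by_cases hx1 : x = 1
    · rw [hx1, mul_one, one_mul]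
    · exact mem_cent.1 ((h.inv_P hx (ord_two hxx hx1)).1 hg)
  of_comm := h.of_comm
  cardM P := by
    obtain ⟨x0, hx0P, hx0, hc⟩ := h.exists_center P
    rw [h.M_eq hx0P hx0, (h.ct x0 hx0).card]
  cardN := h.cardN
  inv := h.inv
  cyc P := by
    obtain ⟨x0, hx0P, hx0, hc⟩ := h.exists_center P
    obtain ⟨A, hA, hcA⟩ := (h.ct x0 hx0).cyc
    refine ⟨A.map (centralizer ({x0} : Set G)).subtype, ?_, ?_, ?_⟩
    · rw [h.M_eq hx0P hx0]
      rintro _ ⟨y, -, rfl⟩; exact y.2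
    · exact isCyclic_of_surjective (A.equivMapOfInjective _ (Subgroup.subtype_injective _)) (MulEquiv.surjective _)
    · rw [← hcA]
      exact (Nat.card_congr (A.equivMapOfInjective _ (Subgroup.subtype_injective _)).toEquiv).symm
  fpf P a x ha ha1 hodd hx hax := by
    obtain ⟨x0, hx0P, hx0, hc⟩ := h.exists_center P
    rw [h.M_eq hx0P hx0] at ha
    have hxc : x ∈ centralizer ({x0} : Set G) := mem_cent.2 (hc x hx)
    obtain ⟨k, hk⟩ := two_pow_of_mem hx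
    have h1 := (h.ct x0 hx0).fpf ⟨a, ha⟩ ⟨x, hxc⟩ (fun h => ha1 (congrArg Subtype.val h))
      (by rw [← Subgroup.orderOf_coe]; exact hodd) ⟨k, Subtype.ext hk⟩ (Subtype.ext hax)
    exact congrArg Subtype.val h1
  exR P := by
    by_contra hcon
    push Not at hcon
    apply h.nn P
    rw [← Subgroup.normalizer_eq_top_iff, eq_top_iff]
    intro g _
    exact mem_stab.1 (hcon (g • P)).symm

end

end Cfsg.Agent.Lib.PG
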