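import Cfsg.Agent.Lib.PG1

/-!
# Characterization of PGU(3,q), q even: two-point stabilizers (helper76)
-/

set_option autoImplicit false

namespace Cfsg.Agent.Lib.PG

open Subgroup

/-- swapping involutions (pieces W1 and W2) -/
structure Sw (G : Type*) [Group G] : Prop where
  ex : ∀ {P R : Sylow 2 G}, P ≠ R → ∀ {u v : G}, u ∈ P → u * u = 1 → u ≠ 1 → v ∈ R → v * v = 1 → v ≠ 1 →
    ∃ w : G, w * w = 1 ∧ w * u * w = v ∧ w • P = R ∧ w • R = P
  cm : ∀ {P R : Sylow 2 G}, P ≠ R → ∀ {e w : G}, e ∈ M P → e • R = R → w * w = 1 → w • P = R → w * e = e * w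

section
variable {G : Type*} [Group G] [Finite G] {q : ℕ}

theorem odd_of_sq {d : G} (h : ∀ k, d ^ k * d ^ k = 1 → d ^ k = 1) : Odd (orderOf d) := by
  by_contra hne
  rw [Nat.not_odd_iff_even] at hne
  obtain ⟨k, hk⟩ := hne
  have h0 := orderOf_pos d
  have h1 := h k (by rw [← pow_add, ← hk, pow_orderOf_eq_one])
  have := Nat.le_of_dvd (by omega) (orderOf_dvd_of_pow_eq_one h1)
  omega

theorem eq_one_of_odd {d : G} (h : Odd (orderOf d)) (h2 : d * d = 1) : d = 1 := by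
  have h1 : orderOf d ∣ 2 := orderOf_dvd_of_pow_eq_one (by rw [pow_two, h2])
  rcases (Nat.dvd_prime Nat.prime_two).1 h1 with h3 | h3
  · exact orderOf_eq_one_iff.1 h3
  · rw [h3] at h; exact absurd h (by decide)

theorem smul_pow_eq {P : Sylow 2 G} {d : G} (h : d • P = P) (k : ℕ) : d ^ k • P = P := by
  induction k with
  | zero => rw [pow_zero, one_smul]
  | succ k ih => rw [pow_succ, mul_smul, h, ih]

theorem St.q_odd (h : St G q) : Even q ∧ 4 ≤ q := by
  obtain ⟨n, hn, rfl⟩ := h.two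
  refine ⟨Nat.even_pow.2 ⟨by decide, by omega⟩, ?_⟩
  calc 4 = 2 ^ 2 := rfl
    _ ≤ 2 ^ n := Nat.pow_le_pow_right (by norm_num) hn

/-- elements fixing two points have odd order -/
theorem St.odd (h : St G q) {P R : Sylow 2 G} (hPR : P ≠ R) {d : G} (hP : d • P = P) (hR : d • R = R) : Odd (orderOf d) := by
  apply odd_of_sq
  intro k hk
  exact h.ti P R hPR _ (h.mem_of P _ hk (smul_pow_eq hP k)) (h.mem_of R _ hk (smul_pow_eq hR k))

theorem St.exists_inv (h : St G q) (P : Sylow 2 G) : ∃ u ∈ P, u * u = 1 ∧ u ≠ 1 := by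
  by_contra hcon
  push Not at hcon
  have h1 := h.inv P
  have h2 := h.q_odd.2
  have h3 : Subsingleton {x : G // x ∈ P ∧ x * x = 1} := by
    refine ⟨fun x y => Subtype.ext ?_⟩
    rw [hcon x.1 x.2.1 x.2.2, hcon y.1 y.2.1 y.2.2]
  have h4 : Nat.card {x : G // x ∈ P ∧ x * x = 1} ≤ 1 := Finite.card_le_one_iff_subsingleton.2 h3
  omega

theorem swap_symm {P R : Sylow 2 G} {w : G} (hw : w * w = 1) (h : w • P = R) : w • R = P := by
  rw [← h, ← mul_smul, hw, one_smul]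

theorem inv_eq {w : G} (hw : w * w = 1) : w⁻¹ = w := (eq_inv_of_mul_eq_one_left hw).symm

variable (h : St G q) (s : Sw G)
include h s

/-- the element moving `u` to `u'` -/
theorem St.exists_j {P R : Sylow 2 G} (hPR : P ≠ R) {w0 : G} (hw : w0 * w0 = 1) (hwP : w0 • P = R) {u u' : G}
    (hu : u ∈ P) (hu2 : u * u = 1) (hu1 : u ≠ 1) (hu' : u' ∈ P) (hu2' : u' * u' = 1) (hu1' : u' ≠ 1) :
    ∃ w : G, w * w = 1 ∧ w • P = R ∧ (w * w0) * u * (w * w0)⁻¹ = u' := by
  have hv : w0 * u * w0 ∈ R := by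
    have := smul_mem (g := w0) hu
    rwa [hwP, inv_eq hw] at this
  have hv2 : (w0 * u * w0) * (w0 * u * w0) = 1 := by
    calc (w0 * u * w0) * (w0 * u * w0) = w0 * u * (w0 * w0) * u * w0 := by group
      _ = w0 * (u * u) * w0 := by rw [hw]; group
      _ = 1 := by rw [hu2, mul_one, hw]
  have hv1 : w0 * u * w0 ≠ 1 := by
    intro h1
    apply hu1
    calc u = (w0 * w0) * u * (w0 * w0) := by rw [hw]; group
      _ = w0 * (w0 * u * w0) * w0 := by group
      _ = 1 := by rw [h1, mul_one, hw]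
  obtain ⟨w, hw1, hw2, hw3, hw4⟩ := s.ex (Ne.symm hPR) hv hv2 hv1 hu' hu2' hu1'
  refine ⟨w, hw1, hw4, ?_⟩
  rw [mul_inv_rev, inv_eq hw, inv_eq hw1]
  calc w * w0 * u * (w0 * w) = w * (w0 * u * w0) * w := by group
    _ = u' := hw2

/-- decomposition of the two-point stabilizer -/
theorem St.decomp {P R : Sylow 2 G} (hPR : P ≠ R) {w0 : G} (hw : w0 * w0 = 1) (hwP : w0 • P = R) {d : G} (hdP : d • P = P)
    (hdR : d • R = R) : ∃ w : G, w * w = 1 ∧ w • P = R ∧ ((w * w0)⁻¹ * d) ∈ M P ∧ ((w * w0)⁻¹ * d) • R = R := by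
  obtain ⟨u, hu, hu2, hu1⟩ := h.exists_inv P
  have hu' : d * u * d⁻¹ ∈ P := by
    have := smul_mem (g := d) hu
    rwa [hdP] at this
  obtain ⟨w, hw1, hw2, hw3⟩ := h.exists_j s hPR hw hwP hu hu2 hu1 hu' (by
    rw [show d * u * d⁻¹ * (d * u * d⁻¹) = d * (u * u) * d⁻¹ by group, hu2]; group) (by
    intro h1
    apply hu1
    calc u = d⁻¹ * (d * u * d⁻¹) * d := by group
      _ = 1 := by rw [h1]; group)
  refine ⟨w, hw1, hw2, (h.of_comm P _ u hu hu2 hu1 ?_).2, ?_⟩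
  · have h4 : u = (w * w0)⁻¹ * (d * u * d⁻¹) * (w * w0) := by rw [← hw3]; group
    calc (w * w0)⁻¹ * d * u = (w * w0)⁻¹ * (d * u * d⁻¹) * (w * w0) * ((w * w0)⁻¹ * d) := by group
      _ = u * ((w * w0)⁻¹ * d) := by rw [← h4]
  · rw [mul_smul, hdR, inv_smul_eq_iff, mul_smul, swap_symm hw hwP, hw2]

theorem St.ord_M {P R : Sylow 2 G} (hPR : P ≠ R) {e : G} (he : e ∈ M P) (hP : e • P = P) (hR : e • R = R) : e ^ (q + 1) = 1 := by
  have h1 := h.odd hPR hP hR
  have h2 : orderOf e ∣ q ^ 3 * (q + 1) := by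
    rw [← h.cardM P, ← Subgroup.orderOf_mk e he]
    exact orderOf_dvd_natCard _
  obtain ⟨n, hn, rfl⟩ := h.two
  have h3 : Nat.Coprime (orderOf e) ((2 ^ n) ^ 3) := by
    apply Nat.Coprime.pow_right
    apply Nat.Coprime.pow_right
    exact (Nat.coprime_two_left.2 h1).symm
  exact orderOf_dvd_iff_pow_eq_one.1 (h3.dvd_of_dvd_mul_left h2)

/-- elements of order dividing `q - 1` are inverted -/
theorem St.inverted {P R : Sylow 2 G} (hPR : P ≠ R) {w0 : G} (hw : w0 * w0 = 1) (hwP : w0 • P = R) {y : G} (hyP : y • P = P)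
    (hyR : y • R = R) (hy : y ^ (q - 1) = 1) : w0 * y * w0 = y⁻¹ := by
  obtain ⟨w, hw1, hw2, heM, heR⟩ := h.decomp s hPR hw hwP hyP hyR
  set j := w * w0 with hj
  set e := j⁻¹ * y with he
  have hye : y = j * e := by rw [he]; group
  have c0 : w0 * e = e * w0 := s.cm hPR heM heR hw hwP
  have c1 : w * e = e * w := s.cm hPR heM heR hw1 hw2
  have hje : Commute j e := by
    show j * e = e * j
    rw [hj, mul_assoc, c0, ← mul_assoc, c1, mul_assoc]
  have hjinv : w0 * j * w0 = j⁻¹ := by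
    rw [hj, mul_inv_rev, inv_eq hw, inv_eq hw1]
    calc w0 * (w * w0) * w0 = w0 * w * (w0 * w0) := by group
      _ = w0 * w := by rw [hw, mul_one]
  have hjP : j • P = P := by
    rw [hj, mul_smul, hwP, swap_symm hw1 hw2]
  have heP : e • P = P := by
    rw [he, mul_smul, hyP, inv_smul_eq_iff, hjP]
  have heodd := h.odd hPR heP heR
  have he1 : e ^ (q + 1) = 1 := h.ord_M s hPR heM heP heR
  have h2 : j ^ (q - 1) * e ^ (q - 1) = 1 := by
    rw [← hje.mul_pow, ← hye, hy]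
  -- `e ^ (q - 1)` is inverted and centralized
  have h3 : e ^ (q - 1) * e ^ (q - 1) = 1 := by
    have h4 : j ^ (q - 1) = (e ^ (q - 1))⁻¹ := eq_inv_of_mul_eq_one_left h2
    have h5 : w0 * j ^ (q - 1) * w0 = (j ^ (q - 1))⁻¹ := by
      have : (w0 * j * w0⁻¹) ^ (q - 1) = w0 * j ^ (q - 1) * w0⁻¹ := conj_pow
      rw [inv_eq hw] at this
      rw [← this, hjinv, inv_pow]
    have h6 : w0 * e ^ (q - 1) = e ^ (q - 1) * w0 := (Commute.pow_right (show Commute w0 e from c0) _)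
    rw [h4, inv_inv] at h5
    have h7 : w0 * (e ^ (q - 1))⁻¹ * w0 = (e ^ (q - 1))⁻¹ := by
      have h8 : w0 * (e ^ (q - 1))⁻¹ = (e ^ (q - 1))⁻¹ * w0 := (Commute.inv_right (show Commute w0 (e ^ (q - 1)) from h6))
      rw [h8, mul_assoc, hw, mul_one]
    rw [h7] at h5
    calc e ^ (q - 1) * e ^ (q - 1) = (e ^ (q - 1))⁻¹ * e ^ (q - 1) := by rw [h5]
      _ = 1 := inv_mul_cancel _
  have h4 : e ^ (q - 1) = 1 := by
    apply eq_one_of_odd _ h3
    exact h.odd hPR (smul_pow_eq heP _) (smul_pow_eq heR _)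
  have h5 : e * e = 1 := by
    have hq := h.q_odd.2
    have : e ^ (q + 1) = e ^ (q - 1) * (e * e) := by
      rw [← pow_two, ← pow_add]; congr 1; omega
    rw [he1, h4, one_mul] at this
    exact this.symm
  have h6 : e = 1 := eq_one_of_odd heodd h5
  rw [hye, h6, mul_one, hjinv]

end

end Cfsg.Agent.Lib.PG
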