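import Mathlib
import Cfsg.Agent.Lib.PG23

/-!
Centralizer orders in SL(3,3): 54 for transvections, 48 for involutions, at most 25 otherwise (helper57).
-/

set_option autoImplicit false

namespace Cfsg.Agent.Lib.PG23

open Matrix

/-- matrix with given columns -/
def colM (a b c : Fin 3 → K3) : M3 := !![a 0, b 0, c 0; a 1, b 1, c 1; a 2, b 2, c 2]

def kry (g : M3) (v : Fin 3 → K3) : M3 := colM v (g *ᵥ v) (g *ᵥ (g *ᵥ v))

theorem mul_colM (g : M3) (a b c : Fin 3 → K3) : g * colM a b c = colM (g *ᵥ a) (g *ᵥ b) (g *ᵥ c) := by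
  ext i j
  fin_cases i <;> fin_cases j <;>
    simp [colM, Matrix.mul_apply, Fin.sum_univ_three, Matrix.mulVec, dotProduct]

theorem colM_inj {a b c a' b' c' : Fin 3 → K3} (h : colM a b c = colM a' b' c') : a = a' ∧ b = b' ∧ c = c' := by
  have e : ∀ i j, colM a b c i j = colM a' b' c' i j := fun i j => by rw [h]
  refine ⟨?_, ?_, ?_⟩
  · funext i; fin_cases i
    · exact e 0 0
    · exact e 1 0
    · exact e 2 0
  · funext i; fin_cases i
    · exact e 0 1
    · exact e 1 1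
    · exact e 2 1
  · funext i; fin_cases i
    · exact e 0 2
    · exact e 1 2
    · exact e 2 2

theorem card_S3 : Nat.card S3 = 5616 := by
  have h := ClSLn.card_SL_formula (F := K3) (q := 3) (ZMod.card 3) 3 (by norm_num)
  have e : ∏ i ∈ Finset.range 3, (3 ^ (i + 1) - 1) = 2 * 8 * 26 := by
    simp [Finset.prod_range_succ]
  rw [e] at h
  have h' : 2 * Nat.card S3 = 11232 := h
  omega

/-- elements with a cyclic vector have small centralizers -/
theorem card_cent_cyc (g : S3) (v : Fin 3 → K3) (hv : det3 (kry g.1 v) ≠ 0) :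
    Nat.card (Subgroup.centralizer ({g} : Set S3)) ≤ 25 := by
  classical
  have hu : IsUnit (kry g.1 v).det := by
    rw [det3_eq]; exact isUnit_iff_ne_zero.2 hv
  have hcomm : ∀ c : Subgroup.centralizer ({g} : Set S3), c.1.1 * g.1 = g.1 * c.1.1 := by
    intro c
    have := Subgroup.mem_centralizer_iff.1 c.2 g rfl
    exact (congrArg Subtype.val this).symm
  have hcv : ∀ (c : Subgroup.centralizer ({g} : Set S3)) (w : Fin 3 → K3),
      c.1.1 *ᵥ (g.1 *ᵥ w) = g.1 *ᵥ (c.1.1 *ᵥ w) := by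
    intro c w
    rw [mulVec_mulVec, hcomm, ← mulVec_mulVec]
  have hk : ∀ c : Subgroup.centralizer ({g} : Set S3), c.1.1 * kry g.1 v =
      colM (c.1.1 *ᵥ v) (g.1 *ᵥ (c.1.1 *ᵥ v)) (g.1 *ᵥ (g.1 *ᵥ (c.1.1 *ᵥ v))) := by
    intro c
    unfold kry
    rw [mul_colM, hcv, hcv, hcv]
  have hv0 : v ≠ 0 := by
    rintro rfl
    apply hv
    simp [kry, colM, det3]
  have hne : ∀ c : Subgroup.centralizer ({g} : Set S3), c.1.1 *ᵥ v ≠ 0 := by
    intro c hc
    apply hv0
    have : (c.1⁻¹ : S3).1 *ᵥ (c.1.1 *ᵥ v) = v := by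
      rw [mulVec_mulVec]
      have : (c.1⁻¹ : S3).1 * c.1.1 = 1 := congrArg Subtype.val (inv_mul_cancel c.1)
      rw [this, one_mulVec]
    rw [← this, hc, mulVec_zero]
  have hinj : ∀ c c' : Subgroup.centralizer ({g} : Set S3), c.1.1 *ᵥ v = c'.1.1 *ᵥ v → c = c' := by
    intro c c' h
    apply Subtype.ext
    apply Subtype.ext
    have h1 : c.1.1 * kry g.1 v = c'.1.1 * kry g.1 v := by rw [hk, hk, h]
    calc c.1.1 = c.1.1 * (kry g.1 v * (kry g.1 v)⁻¹) := by rw [Matrix.mul_nonsing_inv _ hu, mul_one]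
      _ = c'.1.1 * (kry g.1 v * (kry g.1 v)⁻¹) := by rw [← mul_assoc, h1, mul_assoc]
      _ = c'.1.1 := by rw [Matrix.mul_nonsing_inv _ hu, mul_one]
  -- the value -v is not attained
  have hneg : ∀ c : Subgroup.centralizer ({g} : Set S3), c.1.1 *ᵥ v ≠ -v := by
    intro c hc
    have h1 : c.1.1 * kry g.1 v = (-1 : M3) * kry g.1 v := by
      rw [hk, hc, neg_one_mul]
      unfold kry colM
      ext i j
      fin_cases i <;> fin_cases j <;> simp [mulVec_neg]
    have h2 : c.1.1 = -1 := by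
      calc c.1.1 = c.1.1 * (kry g.1 v * (kry g.1 v)⁻¹) := by rw [Matrix.mul_nonsing_inv _ hu, mul_one]
        _ = (-1 : M3) * (kry g.1 v * (kry g.1 v)⁻¹) := by rw [← mul_assoc, h1, mul_assoc]
        _ = -1 := by rw [Matrix.mul_nonsing_inv _ hu, mul_one]
    have h3 := c.1.2
    rw [h2, det3_eq] at h3
    revert h3
    decide +kernel
  let φ : Subgroup.centralizer ({g} : Set S3) → {w : Fin 3 → K3 // w ≠ 0 ∧ w ≠ -v} :=
    fun c => ⟨c.1.1 *ᵥ v, hne c, hneg c⟩
  have hφ : Function.Injective φ := by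
    intro c c' h
    exact hinj c c' (congrArg Subtype.val h)
  have h1 := Nat.card_le_card_of_injective φ hφ
  refine h1.trans ?_
  rw [Nat.card_eq_fintype_card, Fintype.card_subtype]
  have h2 : (Finset.univ.filter (fun w : Fin 3 → K3 => w ≠ 0 ∧ w ≠ -v)) = (Finset.univ.erase 0).erase (-v) := by
    ext w
    simp [and_comm]
  rw [h2, Finset.card_erase_of_mem, Finset.card_erase_of_mem (Finset.mem_univ _), Finset.card_univ]
  · simp [ZMod.card]
  · rw [Finset.mem_erase]
    exact ⟨by simpa using hv0, Finset.mem_univ _⟩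

/-- reduced forms -/
def red (a b c d e f : K3) : M3 := !![0, a, c; 1, b, d; 0, e, f]

def qtab : List (List K3) := [[0, 1, 1, 0, 2, 1, 2, 0, 0], [0, 1, 1, 1, 0, 1, 2, 2, 0], [0, 1, 1, 2, 0, 1, 2, 1, 0],
  [1, 0, 0, 2, 0, 2, 0, 1, 0], [1, 0, 0, 2, 1, 0, 0, 1, 1], [1, 0, 0, 2, 2, 0, 0, 1, 2]]

theorem red_cases : ∀ a b c d e f : K3, det3 (red a b c d e f) = 1 →
    (det3 (kry (red a b c d e f) ![0, 0, 1]) ≠ 0 ∨ det3 (kry (red a b c d e f) ![0, 1, 0]) ≠ 0 ∨
      det3 (kry (red a b c d e f) ![0, 1, 1]) ≠ 0) ∨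
    ∃ Q ∈ qtab, det3 (mk3 Q) = 1 ∧ (red a b c d e f * mk3 Q = mk3 Q * t0 ∨ red a b c d e f * mk3 Q = mk3 Q * io) := by
  decide +kernel

theorem exists_red (g : M3) (hdet : det3 g = 1) (hg : g ≠ 1) :
    ∃ (P : M3) (a b c d e f : K3), det3 P ≠ 0 ∧ g * P = P * red a b c d e f := by
  have key : ∃ v u : Fin 3 → K3, det3 (colM v (g *ᵥ v) u) ≠ 0 := by
    by_contra hall
    push Not at hall
    have h1 := hall ![1, 0, 0] ![0, 1, 0]
    have h2 := hall ![1, 0, 0] ![0, 0, 1]
    have h3 := hall ![0, 1, 0] ![1, 0, 0]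
    have h4 := hall ![0, 1, 0] ![0, 0, 1]
    have h5 := hall ![0, 0, 1] ![1, 0, 0]
    have h6 := hall ![0, 0, 1] ![0, 1, 0]
    have h7 := hall ![1, 1, 0] ![0, 0, 1]
    have h8 := hall ![0, 1, 1] ![1, 0, 0]
    simp [det3, colM, Matrix.mulVec, dotProduct, Fin.sum_univ_three] at h1 h2 h3 h4 h5 h6 h7 h8
    rw [h3, h5] at h8
    have h9 : g 1 1 = g 0 0 := by linear_combination h7 - h2 + h4
    have h10 : g 2 2 = g 0 0 := by linear_combination h7 + h8 - h2 + h4
    apply hg
    have h11 : g 0 0 * g 0 0 * g 0 0 = 1 := by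
      rw [det3, h1, h2, h3, h4, h5, h6, h9, h10] at hdet
      linear_combination hdet
    have h12 : g 0 0 = 1 := by
      revert h11
      generalize g 0 0 = x
      revert x
      decide
    rw [Matrix.one_fin_three]
    ext i j
    fin_cases i <;> fin_cases j <;> simp [h1, h2, h3, h4, h5, h6, h9, h10, h12]
  obtain ⟨v, u, hvu⟩ := key
  set P := colM v (g *ᵥ v) u with hP
  have hu : IsUnit P.det := by
    rw [det3_eq]; exact isUnit_iff_ne_zero.2 hvu
  set R := P⁻¹ * g * P with hR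
  have hgP : g * P = P * R := by
    rw [hR, ← mul_assoc, ← mul_assoc, Matrix.mul_nonsing_inv _ hu, one_mul]
  have e1 : P *ᵥ ![1, 0, 0] = v := by
    rw [hP]
    funext i
    fin_cases i <;> simp [colM, Matrix.mulVec, dotProduct, Fin.sum_univ_three]
  have e2 : P *ᵥ ![0, 1, 0] = g *ᵥ v := by
    rw [hP]
    funext i
    fin_cases i <;> simp [colM, Matrix.mulVec, dotProduct, Fin.sum_univ_three]
  have e3 : R *ᵥ ![1, 0, 0] = ![0, 1, 0] := by
    rw [hR, ← mulVec_mulVec, e1, ← mulVec_mulVec, ← e2, mulVec_mulVec, Matrix.nonsing_inv_mul _ hu, one_mulVec]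
  refine ⟨P, R 0 1, R 1 1, R 0 2, R 1 2, R 2 1, R 2 2, hvu, ?_⟩
  rw [hgP]
  congr 1
  have f0 := congrFun e3 0
  have f1 := congrFun e3 1
  have f2 := congrFun e3 2
  simp [Matrix.mulVec, dotProduct, Fin.sum_univ_three] at f0 f1 f2
  ext i j
  fin_cases i <;> fin_cases j <;> simp [red, f0, f1, f2]

def t0S : S3 := ⟨t0, by rw [det3_eq]; decide +kernel⟩
def ioS : S3 := ⟨io, by rw [det3_eq]; decide +kernel⟩

theorem isConj_of_mul {g x : S3} {P : M3} (hP : det3 P ≠ 0) (h : g.1 * P = P * x.1) : IsConj x g := by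
  have key : ∀ Q : M3, det3 Q = 1 → g.1 * Q = Q * x.1 → IsConj x g := by
    intro Q hQ h
    let q : S3 := ⟨Q, by rw [det3_eq]; exact hQ⟩
    rw [isConj_iff]
    refine ⟨q, ?_⟩
    rw [mul_inv_eq_iff_eq_mul]
    exact Subtype.ext h.symm
  have h1 : det3 P = 1 ∨ det3 P = -1 := by
    revert hP
    generalize det3 P = x
    revert x
    decide
  rcases h1 with h1 | h1
  · exact key P h1 h
  · apply key (-P)
    · rw [← det3_eq, Matrix.det_neg, Fintype.card_fin, det3_eq, h1]
      decide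
    · rw [mul_neg, neg_mul, h]

/-- the trichotomy of nonidentity elements -/
theorem cases_S3 (g : S3) (hg : g ≠ 1) : Nat.card (Subgroup.centralizer ({g} : Set S3)) ≤ 25 ∨ IsConj t0S g ∨
    IsConj ioS g := by
  by_cases hc : ∃ v, det3 (kry g.1 v) ≠ 0
  · left
    obtain ⟨v, hv⟩ := hc
    exact card_cent_cyc g v hv
  · right
    push Not at hc
    obtain ⟨P, a, b, c, d, e, f, hP, h⟩ := exists_red g.1 (by rw [← det3_eq]; exact g.2) (fun h => hg (Subtype.ext h))
    have hk : ∀ w, det3 (kry (red a b c d e f) w) = 0 := by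
      intro w
      have h1 : kry g.1 (P *ᵥ w) = P * kry (red a b c d e f) w := by
        unfold kry
        rw [mul_colM, mulVec_mulVec, h, ← mulVec_mulVec, mulVec_mulVec _ g.1 P, h, ← mulVec_mulVec]
      have h2 := hc (P *ᵥ w)
      rw [h1, ← det3_eq, Matrix.det_mul, det3_eq, det3_eq] at h2
      exact (mul_eq_zero.1 h2).resolve_left hP
    have hdet : det3 (red a b c d e f) = 1 := by
      have h1 : (g.1 * P).det = (P * red a b c d e f).det := by rw [h]
      rw [Matrix.det_mul, Matrix.det_mul, g.2, one_mul, det3_eq, det3_eq] at h1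
      have h2 : det3 P * (det3 (red a b c d e f) - 1) = 0 := by linear_combination -h1
      have h3 := (mul_eq_zero.1 h2).resolve_left hP
      linear_combination h3
    rcases red_cases a b c d e f hdet with h1 | ⟨Q, -, hQ, h1⟩
    · rcases h1 with h1 | h1 | h1
      · exact absurd (hk _) h1
      · exact absurd (hk _) h1
      · exact absurd (hk _) h1
    · have hPQ : det3 (P * mk3 Q) ≠ 0 := by
        rw [← det3_eq, Matrix.det_mul, det3_eq, det3_eq, hQ, mul_one]
        exact hP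
      rcases h1 with h1 | h1
      · left
        apply isConj_of_mul hPQ
        show g.1 * (P * mk3 Q) = P * mk3 Q * t0
        rw [← mul_assoc, h, mul_assoc, h1, mul_assoc]
      · right
        apply isConj_of_mul hPQ
        show g.1 * (P * mk3 Q) = P * mk3 Q * io
        rw [← mul_assoc, h, mul_assoc, h1, mul_assoc]

theorem card_cent_conj {G : Type*} [Group G] {x y : G} (h : IsConj x y) :
    Nat.card (Subgroup.centralizer ({x} : Set G)) = Nat.card (Subgroup.centralizer ({y} : Set G)) := by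
  obtain ⟨c, rfl⟩ := isConj_iff.1 h
  apply Nat.card_congr
  refine ⟨fun a => ⟨c * a.1 * c⁻¹, ?_⟩, fun a => ⟨c⁻¹ * a.1 * c, ?_⟩, ?_, ?_⟩
  · rw [Subgroup.mem_centralizer_singleton_iff]
    have := Subgroup.mem_centralizer_singleton_iff.1 a.2
    calc c * a.1 * c⁻¹ * (c * x * c⁻¹) = c * (a.1 * x) * c⁻¹ := by group
      _ = c * (x * a.1) * c⁻¹ := by rw [this]
      _ = _ := by group
  · rw [Subgroup.mem_centralizer_singleton_iff]
    have := Subgroup.mem_centralizer_singleton_iff.1 a.2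
    calc c⁻¹ * a.1 * c * x = c⁻¹ * (a.1 * (c * x * c⁻¹)) * c := by group
      _ = c⁻¹ * ((c * x * c⁻¹) * a.1) * c := by rw [this]
      _ = _ := by group
  · intro a
    apply Subtype.ext
    show c⁻¹ * (c * a.1 * c⁻¹) * c = a.1
    group
  · intro a
    apply Subtype.ext
    show c * (c⁻¹ * a.1 * c) * c⁻¹ = a.1
    group

end Cfsg.Agent.Lib.PG23
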