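import Mathlib
import Cfsg.Agent.Lib.PG23Cent

/-!
Centralizer orders of the transvections and involutions of SL(3,3) (helper57).
-/

set_option autoImplicit false

namespace Cfsg.Agent.Lib.PG23

open Matrix

theorem mem_cent {g : S3} (c : S3) : c ∈ Subgroup.centralizer ({g} : Set S3) ↔ c.1 * g.1 = g.1 * c.1 := by
  rw [Subgroup.mem_centralizer_singleton_iff]
  constructor
  · intro h; exact congrArg Subtype.val h
  · intro h; exact Subtype.ext h

def ut (a b c d e : K3) : M3 := !![a, b, c; 0, d, e; 0, 0, a]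
def bd (a b c d : K3) : M3 := !![a, b, 0; c, d, 0; 0, 0, a * d - b * c]

theorem ut_facts : ∀ a b c d e : K3, ut a b c d e * t0 = t0 * ut a b c d e := by decide +kernel
theorem bd_facts : ∀ a b c d : K3, bd a b c d * io = io * bd a b c d := by decide +kernel

theorem card_cent_t0 : Nat.card (Subgroup.centralizer ({t0S} : Set S3)) = 54 := by
  have e : Subgroup.centralizer ({t0S} : Set S3) ≃
      {p : K3 × K3 × K3 × K3 × K3 // p.1 * p.1 * p.2.2.2.1 = 1} := by
    refine ⟨fun X => ⟨(X.1.1 0 0, X.1.1 0 1, X.1.1 0 2, X.1.1 1 1, X.1.1 1 2), ?_⟩,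
      fun p => ⟨⟨ut p.1.1 p.1.2.1 p.1.2.2.1 p.1.2.2.2.1 p.1.2.2.2.2, ?_⟩, ?_⟩, ?_, ?_⟩
    · have h := (mem_cent X.1).1 X.2
      have h1 := X.1.2
      rw [det3_eq] at h1
      have e00 := congrFun (congrFun h 0) 2
      have e10 := congrFun (congrFun h 1) 2
      have e20 := congrFun (congrFun h 2) 2
      have e01 := congrFun (congrFun h 0) 1
      have e00' := congrFun (congrFun h 0) 0
      simp [t0S, t0, Matrix.mul_apply, Fin.sum_univ_three] at e00 e10 e20 e01 e00'
      show X.1.1 0 0 * X.1.1 0 0 * X.1.1 1 1 = 1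
      have f22 : X.1.1 2 2 = X.1.1 0 0 := by linear_combination -e00
      rw [det3, e10, e20, e01, f22] at h1
      linear_combination h1
    · rw [det3_eq]
      have := p.2
      simp only [det3, ut]
      simp
      linear_combination this
    · exact (mem_cent _).2 (ut_facts _ _ _ _ _)
    · intro X
      apply Subtype.ext
      apply Subtype.ext
      have h := (mem_cent X.1).1 X.2
      have e00 := congrFun (congrFun h 0) 2
      have e10 := congrFun (congrFun h 1) 2
      have e20 := congrFun (congrFun h 2) 2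
      have e01 := congrFun (congrFun h 0) 1
      have e00' := congrFun (congrFun h 0) 0
      simp [t0S, t0, Matrix.mul_apply, Fin.sum_univ_three] at e00 e10 e20 e01 e00'
      show ut (X.1.1 0 0) (X.1.1 0 1) (X.1.1 0 2) (X.1.1 1 1) (X.1.1 1 2) = X.1.1
      have f22 : X.1.1 2 2 = X.1.1 0 0 := by linear_combination -e00
      ext i j
      fin_cases i <;> fin_cases j <;> simp [ut, e10, e20, e01, f22]
    · intro p
      rfl
  rw [Nat.card_congr e, Nat.card_eq_fintype_card]
  decide +kernel

theorem card_cent_io : Nat.card (Subgroup.centralizer ({ioS} : Set S3)) = 48 := by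
  have sq : ∀ x : K3, x ≠ 0 → x * x = 1 := by decide
  have e : Subgroup.centralizer ({ioS} : Set S3) ≃
      {p : K3 × K3 × K3 × K3 // p.1 * p.2.2.2 - p.2.1 * p.2.2.1 ≠ 0} := by
    refine ⟨fun X => ⟨(X.1.1 0 0, X.1.1 0 1, X.1.1 1 0, X.1.1 1 1), ?_⟩,
      fun p => ⟨⟨bd p.1.1 p.1.2.1 p.1.2.2.1 p.1.2.2.2, ?_⟩, ?_⟩, ?_, ?_⟩
    · have h := (mem_cent X.1).1 X.2
      have h1 := X.1.2
      rw [det3_eq] at h1
      have e02 := congrFun (congrFun h 0) 2
      have e12 := congrFun (congrFun h 1) 2
      simp [ioS, io, Matrix.mul_apply, Fin.sum_univ_three] at e02 e12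
      have f02 : X.1.1 0 2 = 0 := by linear_combination -e02
      have f12 : X.1.1 1 2 = 0 := by linear_combination -e12
      show X.1.1 0 0 * X.1.1 1 1 - X.1.1 0 1 * X.1.1 1 0 ≠ 0
      intro h0
      rw [det3, f02, f12] at h1
      apply one_ne_zero (α := K3)
      rw [← h1]
      linear_combination X.1.1 2 2 * h0
    · rw [det3_eq]
      have := sq _ p.2
      simp only [det3, bd]
      simp
      linear_combination this
    · exact (mem_cent _).2 (bd_facts _ _ _ _)
    · intro X
      apply Subtype.ext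
      apply Subtype.ext
      have h := (mem_cent X.1).1 X.2
      have h1 := X.1.2
      rw [det3_eq] at h1
      have e02 := congrFun (congrFun h 0) 2
      have e12 := congrFun (congrFun h 1) 2
      have e20 := congrFun (congrFun h 2) 0
      have e21 := congrFun (congrFun h 2) 1
      simp [ioS, io, Matrix.mul_apply, Fin.sum_univ_three] at e02 e12 e20 e21
      have f02 : X.1.1 0 2 = 0 := by linear_combination -e02
      have f12 : X.1.1 1 2 = 0 := by linear_combination -e12
      have f20 : X.1.1 2 0 = 0 := by linear_combination e20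
      have f21 : X.1.1 2 1 = 0 := by linear_combination e21
      rw [det3, f02, f12, f20, f21] at h1
      have h3 : (X.1.1 0 0 * X.1.1 1 1 - X.1.1 0 1 * X.1.1 1 0) * X.1.1 2 2 = 1 := by linear_combination h1
      have h4 : X.1.1 0 0 * X.1.1 1 1 - X.1.1 0 1 * X.1.1 1 0 = X.1.1 2 2 := by
        have : ∀ x y : K3, x * y = 1 → x = y := by decide
        exact this _ _ h3
      show bd (X.1.1 0 0) (X.1.1 0 1) (X.1.1 1 0) (X.1.1 1 1) = X.1.1
      ext i j
      fin_cases i <;> fin_cases j <;> simp [bd, f02, f12, f20, f21, h4]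
    · intro p
      rfl
  rw [Nat.card_congr e, Nat.card_eq_fintype_card]
  decide +kernel

end Cfsg.Agent.Lib.PG23
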