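import Mathlib
import Cfsg.Agent.Lib.PG23Cent2
import Cfsg.Agent.Lib.SmallSimple

/-!
The 104 transvections of SL(3,3) are the elements with centralizer of order 54; commuting relation (helper57).
-/

set_option autoImplicit false

namespace Cfsg.Agent.Lib.PG23

open Matrix

/-- indices of transvections: a flag and a sign -/
abbrev TT : Type := {x : Fin 13 × Fin 13 × Bool // inc x.1 x.2.1 = true}

theorem nil_comm : ∀ i j : Fin 13, inc i j = true → ∀ i' j' : Fin 13, inc i' j' = true →
    (nil i j * nil i' j' = nil i' j' * nil i j ↔ (i = i' ∨ j = j')) := by decide +kernel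

theorem tauM_inj : ∀ i j : Fin 13, inc i j = true → ∀ s : Bool, ∀ i' j' : Fin 13, inc i' j' = true → ∀ s' : Bool,
    tauM i j s = tauM i' j' s' → (i = i' ∧ j = j' ∧ s = s') := by decide +kernel

theorem card_TT : Fintype.card TT = 104 := by decide +kernel

def tau (x : TT) : S3 := ⟨tauM x.1.1 x.1.2.1 x.1.2.2, by
  rw [det3_eq]; exact (conj_table x.1.1 x.1.2.1 x.2 x.1.2.2).2.1⟩

theorem tau_inj : Function.Injective tau := by
  rintro ⟨⟨i, j, s⟩, hx⟩ ⟨⟨i', j', s'⟩, hy⟩ h
  obtain ⟨h1, h2, h3⟩ := tauM_inj i j hx s i' j' hy s' (congrArg Subtype.val h)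
  subst h1 h2 h3
  rfl

theorem tau_conj (x : TT) : IsConj t0S (tau x) := by
  obtain ⟨h1, h2, h3⟩ := conj_table x.1.1 x.1.2.1 x.2 x.1.2.2
  apply isConj_of_mul (P := cP x.1.1 x.1.2.1 x.1.2.2)
  · rw [h1]; exact one_ne_zero
  · exact h3.symm

/-- the relation: a common point or a common line -/
def R (x y : TT) : Prop := x.1.1 = y.1.1 ∨ x.1.2.1 = y.1.2.1

theorem tau_comm (x y : TT) : tau x * tau y = tau y * tau x ↔ R x y := by
  obtain ⟨⟨i, j, s⟩, hx⟩ := x
  obtain ⟨⟨i', j', s'⟩, hy⟩ := y
  have h1 : tau ⟨(i, j, s), hx⟩ * tau ⟨(i', j', s'), hy⟩ = tau ⟨(i', j', s'), hy⟩ * tau ⟨(i, j, s), hx⟩ ↔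
      tauM i j s * tauM i' j' s' = tauM i' j' s' * tauM i j s :=
    ⟨fun h => congrArg Subtype.val h, fun h => Subtype.ext h⟩
  rw [h1]
  show _ ↔ (i = i' ∨ j = j')
  rw [← nil_comm i j hx i' j' hy]
  have key : ∀ (A B : M3), (1 + A) * (1 + B) = (1 + B) * (1 + A) ↔ A * B = B * A := by
    intro A B
    constructor
    · intro h
      have : A * B - B * A = (1 + A) * (1 + B) - (1 + B) * (1 + A) := by noncomm_ring
      rw [h, sub_self] at this
      exact sub_eq_zero.1 this
    · intro h
      have : (1 + A) * (1 + B) - (1 + B) * (1 + A) = A * B - B * A := by noncomm_ring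
      rw [h, sub_self] at this
      exact sub_eq_zero.1 this
  cases s <;> cases s' <;> simp only [tauM, if_true, Bool.false_eq_true, if_false, sub_eq_add_neg]
  · rw [key]; simp
  · rw [key]; simp
  · rw [key]; simp
  · rw [key]

theorem card_cent_one : Nat.card (Subgroup.centralizer ({1} : Set S3)) = 5616 := by
  have : Subgroup.centralizer ({1} : Set S3) = ⊤ := by
    rw [eq_top_iff]
    intro x _
    rw [Subgroup.mem_centralizer_singleton_iff]
    simp
  rw [this, Subgroup.card_top, card_S3]

theorem range_tau : Set.range tau = {g : S3 | Nat.card (Subgroup.centralizer ({g} : Set S3)) = 54} := by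
  have h1 : {g : S3 | Nat.card (Subgroup.centralizer ({g} : Set S3)) = 54} = {g : S3 | IsConj t0S g} := by
    ext g
    constructor
    · intro h
      rw [Set.mem_ofPred_eq] at h ⊢
      have hg : g ≠ 1 := by
        rintro rfl
        rw [card_cent_one] at h
        omega
      rcases cases_S3 g hg with h2 | h2 | h2
      · omega
      · exact h2
      · have := card_cent_conj h2
        rw [card_cent_io, h] at this
        omega
    · intro h
      rw [Set.mem_ofPred_eq] at h ⊢
      rw [← card_cent_conj h, card_cent_t0]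
  rw [h1]
  have hsub : Set.range tau ⊆ {g : S3 | IsConj t0S g} := by
    rintro _ ⟨x, rfl⟩
    exact tau_conj x
  apply Set.eq_of_subset_of_ncard_le hsub
  have h2 := SmallSimple.card_isConj_mul_card_centralizer t0S
  rw [card_cent_t0, card_S3] at h2
  have h3 : {g : S3 | IsConj t0S g}.ncard = 104 := by
    have : Nat.card {g : S3 // IsConj t0S g} = {g : S3 | IsConj t0S g}.ncard := Nat.card_coe_set_eq _
    omega
  rw [h3, ← Set.image_univ, Set.ncard_image_of_injective _ tau_inj, Set.ncard_univ, Nat.card_eq_fintype_card, card_TT]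

/-- centralizer orders -/
theorem cent_cases (g : S3) (hg : g ≠ 1) : Nat.card (Subgroup.centralizer ({g} : Set S3)) ≤ 25 ∨
    Nat.card (Subgroup.centralizer ({g} : Set S3)) = 54 ∨ Nat.card (Subgroup.centralizer ({g} : Set S3)) = 48 := by
  rcases cases_S3 g hg with h | h | h
  · left; exact h
  · right; left
    rw [← card_cent_conj h, card_cent_t0]
  · right; right
    rw [← card_cent_conj h, card_cent_io]

end Cfsg.Agent.Lib.PG23
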