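import Mathlib
import Cfsg.Agent.Lib.PG23Tau

/-!
Permutations of the transvections preserving the commuting relation induce automorphisms of the incidence graph of
the plane of order 3; the type preserving automorphisms number at most 5616 (helper57).
-/

set_option autoImplicit false

namespace Cfsg.Agent.Lib.PG23

/-- vertices: points and lines -/
abbrev V26 : Type := Bool × Fin 13

/-- `x` lies on the vertex `v` -/
def onV (x : TT) (v : V26) : Prop := (if v.1 then x.1.2.1 else x.1.1) = v.2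

/-- adjacency -/
def adj (v w : V26) : Prop := (v.1 = false ∧ w.1 = true ∧ inc v.2 w.2 = true) ∨ (v.1 = true ∧ w.1 = false ∧ inc w.2 v.2 = true)

instance : DecidableRel adj := fun v w => by unfold adj; infer_instance

theorem R_iff (x y : TT) : R x y ↔ ∃ v, onV x v ∧ onV y v := by
  constructor
  · rintro (h | h)
    · exact ⟨(false, x.1.1), rfl, h.symm⟩
    · exact ⟨(true, x.1.2.1), rfl, h.symm⟩
  · rintro ⟨⟨b, k⟩, h1, h2⟩
    cases b
    · left; exact (show x.1.1 = k from h1).trans (show y.1.1 = k from h2).symm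
    · right; exact (show x.1.2.1 = k from h1).trans (show y.1.2.1 = k from h2).symm

/-- witnesses: two transvections on the vertex `v` with different other vertices -/
theorem exists_wit : ∀ v : V26, ∃ x y : TT, onV x v ∧ onV y v ∧ ¬ (x.1.1 = y.1.1 ∧ x.1.2.1 = y.1.2.1) := by
  have h1 : ∀ i : Fin 13, ∃ j j' : Fin 13, inc i j = true ∧ inc i j' = true ∧ j ≠ j' := by decide
  have h2 : ∀ j : Fin 13, ∃ i i' : Fin 13, inc i j = true ∧ inc i' j = true ∧ i ≠ i' := by decide
  rintro ⟨b, k⟩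
  cases b
  · obtain ⟨j, j', e1, e2, e3⟩ := h1 k
    exact ⟨⟨(k, j, true), e1⟩, ⟨(k, j', true), e2⟩, rfl, rfl, fun h => e3 h.2⟩
  · obtain ⟨i, i', e1, e2, e3⟩ := h2 k
    exact ⟨⟨(i, k, true), e1⟩, ⟨(i', k, true), e2⟩, rfl, rfl, fun h => e3 h.1⟩

/-- if `x` and `y` have the same neighbours then they have the same point and the same line -/
theorem same_of_nbr (x y : TT) (h : ∀ z, R z x ↔ R z y) : x.1.1 = y.1.1 ∧ x.1.2.1 = y.1.2.1 := by
  have h1 : ∀ i j : Fin 13, ∃ i' : Fin 13, inc i' j = true ∧ i' ≠ i := by decide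
  have h2 : ∀ i j : Fin 13, ∃ j' : Fin 13, inc i j' = true ∧ j' ≠ j := by decide
  have hxx : R x y := (h x).1 (Or.inl rfl)
  rcases hxx with h3 | h3
  · refine ⟨h3, ?_⟩
    by_contra h4
    obtain ⟨i', e1, e2⟩ := h1 x.1.1 x.1.2.1
    have h5 := (h ⟨(i', x.1.2.1, true), e1⟩).1 (Or.inr rfl)
    rcases h5 with h5 | h5
    · exact e2 (h5.trans h3.symm)
    · exact h4 h5
  · refine ⟨?_, h3⟩
    by_contra h4
    obtain ⟨j', e1, e2⟩ := h2 x.1.1 x.1.2.1
    have h5 := (h ⟨(x.1.1, j', true), e1⟩).1 (Or.inl rfl)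
    rcases h5 with h5 | h5
    · exact h4 h5
    · exact e2 (h5.trans h3.symm)

/-- the vertex of two related elements which are not twins -/
theorem vertex_of_pair (x y : TT) (v : V26) (hx : onV x v) (hy : onV y v)
    (hne : ¬ (x.1.1 = y.1.1 ∧ x.1.2.1 = y.1.2.1)) (z : TT) : onV z v ↔ (R z x ∧ R z y) := by
  constructor
  · intro hz
    exact ⟨(R_iff z x).2 ⟨v, hz, hx⟩, (R_iff z y).2 ⟨v, hz, hy⟩⟩
  · rintro ⟨h1, h2⟩
    obtain ⟨b, k⟩ := v
    cases b
    · have hx' : x.1.1 = k := hx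
      have hy' : y.1.1 = k := hy
      show z.1.1 = k
      rcases h1 with h1 | h1
      · rw [h1, hx']
      · rcases h2 with h2 | h2
        · rw [h2, hy']
        · exact absurd ⟨hx'.trans hy'.symm, h1.symm.trans h2⟩ hne
    · have hx' : x.1.2.1 = k := hx
      have hy' : y.1.2.1 = k := hy
      show z.1.2.1 = k
      rcases h1 with h1 | h1
      · rcases h2 with h2 | h2
        · exact absurd ⟨h1.symm.trans h2, hx'.trans hy'.symm⟩ hne
        · rw [h2, hy']
      · rw [h1, hx']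

/-- the group of permutations preserving `R` -/
def AR : Subgroup (Equiv.Perm TT) where
  carrier := {σ | ∀ x y, R (σ x) (σ y) ↔ R x y}
  mul_mem' := by
    intro σ τ hσ hτ x y
    rw [Equiv.Perm.mul_apply, Equiv.Perm.mul_apply, hσ, hτ]
  one_mem' := fun x y => Iff.rfl
  inv_mem' := by
    intro σ hσ x y
    have := hσ (σ⁻¹ x) (σ⁻¹ y)
    have e : ∀ x, σ (σ⁻¹ x) = x := fun x => σ.apply_symm_apply x
    rw [e, e] at this
    exact this.symm

theorem exists_image (σ : AR) (v : V26) : ∃ w : V26, ∀ z, onV (σ.1 z) w ↔ onV z v := by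
  obtain ⟨x, y, hx, hy, hne⟩ := exists_wit v
  have hR : R (σ.1 x) (σ.1 y) := (σ.2 x y).2 ((R_iff x y).2 ⟨v, hx, hy⟩)
  obtain ⟨w, hw1, hw2⟩ := (R_iff _ _).1 hR
  have hne' : ¬ ((σ.1 x).1.1 = (σ.1 y).1.1 ∧ (σ.1 x).1.2.1 = (σ.1 y).1.2.1) := by
    intro h
    apply hne
    apply same_of_nbr
    intro z
    rw [← σ.2 z x, ← σ.2 z y]
    unfold R
    rw [h.1, h.2]
  refine ⟨w, fun z => ?_⟩
  rw [vertex_of_pair _ _ w hw1 hw2 hne', vertex_of_pair x y v hx hy hne, σ.2, σ.2]

theorem vertex_unique {v w : V26} (h : ∀ z, onV z v ↔ onV z w) : v = w := by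
  obtain ⟨x, y, hx, hy, hne⟩ := exists_wit v
  have hx' := (h x).1 hx
  have hy' := (h y).1 hy
  obtain ⟨b, k⟩ := v
  obtain ⟨c, l⟩ := w
  cases b <;> cases c
  · have e1 : x.1.1 = k := hx
    have e2 : x.1.1 = l := hx'
    rw [← e1, ← e2]
  · exfalso
    have e1 : x.1.1 = k := hx
    have e2 : y.1.1 = k := hy
    have e3 : x.1.2.1 = l := hx'
    have e4 : y.1.2.1 = l := hy'
    exact hne ⟨e1.trans e2.symm, e3.trans e4.symm⟩
  · exfalso
    have e1 : x.1.2.1 = k := hx
    have e2 : y.1.2.1 = k := hy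
    have e3 : x.1.1 = l := hx'
    have e4 : y.1.1 = l := hy'
    exact hne ⟨e3.trans e4.symm, e1.trans e2.symm⟩
  · have e1 : x.1.2.1 = k := hx
    have e2 : x.1.2.1 = l := hx'
    rw [← e1, ← e2]

/-- the induced map on vertices -/
noncomputable def img (σ : AR) (v : V26) : V26 := (exists_image σ v).choose

theorem img_spec (σ : AR) (v : V26) (z : TT) : onV (σ.1 z) (img σ v) ↔ onV z v := (exists_image σ v).choose_spec z

theorem img_eq (σ : AR) {v w : V26} (h : ∀ z, onV (σ.1 z) w ↔ onV z v) : img σ v = w := by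
  apply vertex_unique
  intro z
  obtain ⟨z, rfl⟩ := σ.1.surjective z
  rw [img_spec, h]

/-- the homomorphism to permutations of the vertices -/
noncomputable def toV : AR →* Equiv.Perm V26 :=
  MonoidHom.toHomPerm
    { toFun := fun σ v => img σ v
      map_one' := by
        funext v
        exact img_eq 1 (fun z => Iff.rfl)
      map_mul' := by
        intro σ τ
        funext v
        apply img_eq
        intro z
        show onV (σ.1 (τ.1 z)) (img σ (img τ v)) ↔ onV z v
        rw [img_spec, img_spec] }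

theorem toV_spec (σ : AR) (v : V26) (z : TT) : onV (σ.1 z) (toV σ v) ↔ onV z v := img_spec σ v z

theorem adj_iff (v w : V26) : adj v w ↔ v ≠ w ∧ ∃ z : TT, onV z v ∧ onV z w := by
  obtain ⟨b, k⟩ := v
  obtain ⟨c, l⟩ := w
  constructor
  · rintro (⟨h1, h2, h3⟩ | ⟨h1, h2, h3⟩)
    · have h1' : b = false := h1
      have h2' : c = true := h2
      subst h1' h2'
      exact ⟨by simp, ⟨(k, l, true), h3⟩, rfl, rfl⟩
    · have h1' : b = true := h1
      have h2' : c = false := h2
      subst h1' h2'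
      exact ⟨by simp, ⟨(l, k, true), h3⟩, rfl, rfl⟩
  · rintro ⟨hne, z, h1, h2⟩
    cases b <;> cases c
    · exfalso
      apply hne
      have e1 : z.1.1 = k := h1
      have e2 : z.1.1 = l := h2
      rw [← e1, ← e2]
    · left
      have e1 : z.1.1 = k := h1
      have e2 : z.1.2.1 = l := h2
      refine ⟨rfl, rfl, ?_⟩
      show inc k l = true
      rw [← e1, ← e2]
      exact z.2
    · right
      have e1 : z.1.2.1 = k := h1
      have e2 : z.1.1 = l := h2
      refine ⟨rfl, rfl, ?_⟩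
      show inc l k = true
      rw [← e1, ← e2]
      exact z.2
    · exfalso
      apply hne
      have e1 : z.1.2.1 = k := h1
      have e2 : z.1.2.1 = l := h2
      rw [← e1, ← e2]

theorem toV_adj (σ : AR) (v w : V26) : adj (toV σ v) (toV σ w) ↔ adj v w := by
  rw [adj_iff, adj_iff, (toV σ).injective.ne_iff]
  apply and_congr_right
  intro _
  constructor
  · rintro ⟨z, h1, h2⟩
    obtain ⟨z, rfl⟩ := σ.1.surjective z
    exact ⟨z, (toV_spec σ v z).1 h1, (toV_spec σ w z).1 h2⟩
  · rintro ⟨z, h1, h2⟩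
    exact ⟨σ.1 z, (toV_spec σ v z).2 h1, (toV_spec σ w z).2 h2⟩

/-- kernel elements are involutions -/
theorem sq_of_toV (σ : AR) (h : toV σ = 1) : σ * σ = 1 := by
  have h1 : ∀ z : TT, (σ.1 z).1.1 = z.1.1 ∧ (σ.1 z).1.2.1 = z.1.2.1 := by
    intro z
    constructor
    · have := (toV_spec σ (false, z.1.1) z).2 rfl
      rw [h] at this
      exact this
    · have := (toV_spec σ (true, z.1.2.1) z).2 rfl
      rw [h] at this
      exact this
  have h2 : ∀ z w : TT, w.1.1 = z.1.1 → w.1.2.1 = z.1.2.1 → w.1.2.2 = z.1.2.2 → w = z := by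
    intro z w e1 e2 e3
    apply Subtype.ext
    exact Prod.ext e1 (Prod.ext e2 e3)
  apply Subtype.ext
  apply Equiv.ext
  intro z
  show σ.1 (σ.1 z) = z
  by_cases h3 : (σ.1 z).1.2.2 = z.1.2.2
  · have : σ.1 z = z := h2 z _ (h1 z).1 (h1 z).2 h3
    rw [this, this]
  · by_cases h4 : (σ.1 (σ.1 z)).1.2.2 = z.1.2.2
    · exact h2 z _ ((h1 _).1.trans (h1 z).1) ((h1 _).2.trans (h1 z).2) h4
    · exfalso
      have h5 : σ.1 (σ.1 z) = σ.1 z := by
        apply h2 _ _ (h1 _).1 (h1 _).2
        revert h3 h4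
        generalize (σ.1 z).1.2.2 = a
        generalize (σ.1 (σ.1 z)).1.2.2 = b
        generalize z.1.2.2 = c
        revert a b c
        decide
      have h6 := σ.1.injective h5
      rw [h6] at h3
      exact h3 rfl

end Cfsg.Agent.Lib.PG23
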