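import Mathlib
import Cfsg.Agent.Lib.PG23Comb

/-!
Automorphisms of the incidence graph of the plane of order 3 (helper57).
-/

set_option autoImplicit false

namespace Cfsg.Agent.Lib.PG23

/-- automorphisms of the incidence graph -/
def Gam : Subgroup (Equiv.Perm V26) where
  carrier := {g | ∀ v w, adj (g v) (g w) ↔ adj v w}
  mul_mem' := by
    intro σ τ hσ hτ x y
    rw [Equiv.Perm.mul_apply, Equiv.Perm.mul_apply, hσ, hτ]
  one_mem' := fun x y => Iff.rfl
  inv_mem' := by
    intro σ hσ x y
    have := hσ (σ⁻¹ x) (σ⁻¹ y)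
    have e : ∀ x, σ (σ⁻¹ x) = x := fun x => σ.apply_symm_apply x
    rw [e, e] at this
    exact this.symm

theorem adj_ne {v w : V26} (h : adj v w) : w.1 = !v.1 := by
  rcases h with ⟨h1, h2, -⟩ | ⟨h1, h2, -⟩ <;> rw [h1, h2] <;> rfl

theorem exists_line : ∀ i i' : Fin 13, ∃ j : Fin 13, inc i j = true ∧ inc i' j = true := by decide
theorem exists_line_on : ∀ j : Fin 13, ∃ i : Fin 13, inc i j = true := by decide

/-- the type of the image depends only on the type -/
theorem type_image (g : Equiv.Perm V26) (hg : g ∈ Gam) (v : V26) :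
    (g v).1 = if v.1 then !(g (false, 0)).1 else (g (false, 0)).1 := by
  have hpt : ∀ i : Fin 13, (g (false, i)).1 = (g (false, 0)).1 := by
    intro i
    obtain ⟨j, h1, h2⟩ := exists_line i 0
    have e1 := adj_ne ((hg (false, i) (true, j)).2 (Or.inl ⟨rfl, rfl, h1⟩))
    have e2 := adj_ne ((hg (false, 0) (true, j)).2 (Or.inl ⟨rfl, rfl, h2⟩))
    rw [e1] at e2
    exact Bool.not_inj e2
  obtain ⟨b, k⟩ := v
  cases b
  · simpa using hpt k
  · obtain ⟨i, hi⟩ := exists_line_on k
    have e1 := adj_ne ((hg (false, i) (true, k)).2 (Or.inl ⟨rfl, rfl, hi⟩))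
    rw [e1, hpt i]
    simp

/-- type -/
def typ : Gam →* Multiplicative (ZMod 2) where
  toFun g := Multiplicative.ofAdd (if (g.1 (false, 0)).1 then 1 else 0)
  map_one' := rfl
  map_mul' := by
    intro g h
    have h1 := type_image g.1 g.2 (h.1 (false, 0))
    have h2 : ((g * h : Gam).1 (false, 0)).1 = (g.1 (h.1 (false, 0))).1 := rfl
    rw [h2, h1]
    generalize (g.1 (false, 0)).1 = a
    generalize (h.1 (false, 0)).1 = b
    revert a b
    decide

theorem mem_ker_typ (g : Gam) : g ∈ typ.ker ↔ (g.1 (false, 0)).1 = false := by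
  rw [MonoidHom.mem_ker]
  show Multiplicative.ofAdd (if (g.1 (false, 0)).1 then (1 : ZMod 2) else 0) = 1 ↔ _
  generalize (g.1 (false, 0)).1 = a
  revert a
  decide

/-- type preserving automorphisms, as a subgroup of the permutations -/
def Gam0 : Subgroup (Equiv.Perm V26) where
  carrier := {g | (∀ v w, adj (g v) (g w) ↔ adj v w) ∧ ∀ v, (g v).1 = v.1}
  mul_mem' := by
    rintro σ τ ⟨hσ, hσ'⟩ ⟨hτ, hτ'⟩
    refine ⟨fun x y => ?_, fun v => ?_⟩
    · rw [Equiv.Perm.mul_apply, Equiv.Perm.mul_apply, hσ, hτ]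
    · rw [Equiv.Perm.mul_apply, hσ', hτ']
  one_mem' := ⟨fun x y => Iff.rfl, fun v => rfl⟩
  inv_mem' := by
    rintro σ ⟨hσ, hσ'⟩
    have e : ∀ x, σ (σ⁻¹ x) = x := fun x => σ.apply_symm_apply x
    refine ⟨fun x y => ?_, fun v => ?_⟩
    · have := hσ (σ⁻¹ x) (σ⁻¹ y)
      rw [e, e] at this
      exact this.symm
    · have := hσ' (σ⁻¹ v)
      rw [e] at this
      exact this.symm

theorem uniq_line : ∀ i i' : Fin 13, i ≠ i' → ∀ j j' : Fin 13, inc i j = true → inc i' j = true → inc i j' = true →
    inc i' j' = true → j = j' := by decide +kernel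

theorem uniq_pt : ∀ j j' : Fin 13, j ≠ j' → ∀ i i' : Fin 13, inc i j = true → inc i j' = true → inc i' j = true →
    inc i' j' = true → i = i' := by decide +kernel

theorem inc_image (g : Equiv.Perm V26) (hg : g ∈ Gam0) (i j : Fin 13) :
    inc (g (false, i)).2 (g (true, j)).2 = true ↔ inc i j = true := by
  have h := hg.1 (false, i) (true, j)
  have h1 := hg.2 (false, i)
  have h2 := hg.2 (true, j)
  constructor
  · intro h3
    rcases h.1 (Or.inl ⟨h1, h2, h3⟩) with h4 | h4
    · exact h4.2.2
    · exact absurd h4.1 (by simp)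
  · intro h3
    rcases h.2 (Or.inl ⟨rfl, rfl, h3⟩) with h4 | h4
    · exact h4.2.2
    · rw [h1] at h4
      exact absurd h4.1 (by simp)

theorem line_fix (g : Equiv.Perm V26) (hg : g ∈ Gam0) (a b j : Fin 13) (hab : a ≠ b) (ha : inc a j = true)
    (hb : inc b j = true) (h1 : g (false, a) = (false, a)) (h2 : g (false, b) = (false, b)) :
    g (true, j) = (true, j) := by
  apply Prod.ext
  · exact hg.2 (true, j)
  · have e1 := (inc_image g hg a j).2 ha
    have e2 := (inc_image g hg b j).2 hb
    rw [h1] at e1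
    rw [h2] at e2
    exact uniq_line a b hab _ _ e1 e2 ha hb

theorem pt_fix (g : Equiv.Perm V26) (hg : g ∈ Gam0) (a b i : Fin 13) (hab : a ≠ b) (ha : inc i a = true)
    (hb : inc i b = true) (h1 : g (true, a) = (true, a)) (h2 : g (true, b) = (true, b)) :
    g (false, i) = (false, i) := by
  apply Prod.ext
  · exact hg.2 (false, i)
  · have e1 := (inc_image g hg i a).2 ha
    have e2 := (inc_image g hg i b).2 hb
    rw [h1] at e1
    rw [h2] at e2
    exact uniq_pt a b hab _ _ e1 e2 ha hb

theorem eq_one_of_fix (g : Equiv.Perm V26) (hg : g ∈ Gam0) (p0 : g (false, 0) = (false, 0))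
    (p1 : g (false, 1) = (false, 1)) (p2 : g (false, 2) = (false, 2)) (p5 : g (false, 5) = (false, 5)) : g = 1 := by
  have l0 : g (true, 0) = (true, 0) := line_fix g hg 0 1 0 (by decide) (by decide) (by decide) p0 p1
  have l12 : g (true, 12) = (true, 12) := line_fix g hg 0 2 12 (by decide) (by decide) (by decide) p0 p2
  have l4 : g (true, 4) = (true, 4) := line_fix g hg 0 5 4 (by decide) (by decide) (by decide) p0 p5
  have l1 : g (true, 1) = (true, 1) := line_fix g hg 1 2 1 (by decide) (by decide) (by decide) p1 p2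
  have l5 : g (true, 5) = (true, 5) := line_fix g hg 1 5 5 (by decide) (by decide) (by decide) p1 p5
  have l2 : g (true, 2) = (true, 2) := line_fix g hg 2 5 2 (by decide) (by decide) (by decide) p2 p5
  have p3 : g (false, 3) = (false, 3) := pt_fix g hg 0 2 3 (by decide) (by decide) (by decide) l0 l2
  have p4 : g (false, 4) = (false, 4) := pt_fix g hg 1 4 4 (by decide) (by decide) (by decide) l1 l4
  have p8 : g (false, 8) = (false, 8) := pt_fix g hg 5 12 8 (by decide) (by decide) (by decide) l5 l12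
  have l3 : g (true, 3) = (true, 3) := line_fix g hg 3 4 3 (by decide) (by decide) (by decide) p3 p4
  have l7 : g (true, 7) = (true, 7) := line_fix g hg 3 8 7 (by decide) (by decide) (by decide) p3 p8
  have l8 : g (true, 8) = (true, 8) := line_fix g hg 4 8 8 (by decide) (by decide) (by decide) p4 p8
  have p9 : g (false, 9) = (false, 9) := pt_fix g hg 0 8 9 (by decide) (by decide) (by decide) l0 l8
  have p7 : g (false, 7) = (false, 7) := pt_fix g hg 4 7 7 (by decide) (by decide) (by decide) l4 l7
  have p10 : g (false, 10) = (false, 10) := pt_fix g hg 1 7 10 (by decide) (by decide) (by decide) l1 l7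
  have p11 : g (false, 11) = (false, 11) := pt_fix g hg 2 8 11 (by decide) (by decide) (by decide) l2 l8
  have p12 : g (false, 12) = (false, 12) := pt_fix g hg 3 12 12 (by decide) (by decide) (by decide) l3 l12
  have p6 : g (false, 6) = (false, 6) := pt_fix g hg 3 5 6 (by decide) (by decide) (by decide) l3 l5
  have l10 : g (true, 10) = (true, 10) := line_fix g hg 0 10 10 (by decide) (by decide) (by decide) p0 p10
  have l11 : g (true, 11) = (true, 11) := line_fix g hg 1 7 11 (by decide) (by decide) (by decide) p1 p7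
  have l6 : g (true, 6) = (true, 6) := line_fix g hg 2 9 6 (by decide) (by decide) (by decide) p2 p9
  have l9 : g (true, 9) = (true, 9) := line_fix g hg 5 9 9 (by decide) (by decide) (by decide) p5 p9
  apply Equiv.ext
  rintro ⟨b, k⟩
  show g (b, k) = (b, k)
  cases b <;> fin_cases k <;> assumption

theorem card_le_chain {G X : Type*} [Group G] [Finite G] [MulAction G X] (x : X) (s : Finset X)
    (h : ∀ g : G, g • x ∈ s) : Nat.card G ≤ s.card * Nat.card (MulAction.stabilizer G x) := by
  have h1 : Nat.card G = Nat.card (MulAction.orbit G x) * Nat.card (MulAction.stabilizer G x) := by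
    rw [← Nat.card_prod]
    exact Nat.card_congr (MulAction.orbitProdStabilizerEquivGroup G x).symm
  rw [h1]
  apply Nat.mul_le_mul_right
  have h2 : MulAction.orbit G x ⊆ (s : Set X) := by
    rintro _ ⟨g, rfl⟩
    exact h g
  have h3 := Set.ncard_le_ncard h2 (Finset.finite_toSet s)
  rw [Set.ncard_coe_finset] at h3
  rwa [Nat.card_coe_set_eq]

/-- finsets of points -/
def ptsOf (p : Fin 13 → Bool) : Finset V26 := Finset.univ.filter (fun v : V26 => v.1 = false ∧ p v.2 = true)

theorem mem_ptsOf (p : Fin 13 → Bool) (v : V26) : v ∈ ptsOf p ↔ v.1 = false ∧ p v.2 = true := by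
  simp [ptsOf]

theorem off_image (g : Equiv.Perm V26) (hg : g ∈ Gam0) (i j : Fin 13) (hl : g (true, j) = (true, j))
    (h : inc i j = false) : inc (g (false, i)).2 j = false := by
  have h1 := inc_image g hg i j
  rw [hl] at h1
  by_contra h2
  rw [Bool.not_eq_false] at h2
  rw [h1.1 h2] at h
  exact absurd h (by decide)

theorem card_Gam0 : Nat.card Gam0 ≤ 5616 := by
  let G1 : Subgroup Gam0 := MulAction.stabilizer Gam0 ((false, 0) : V26)
  let G2 : Subgroup G1 := MulAction.stabilizer G1 ((false, 1) : V26)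
  let G3 : Subgroup G2 := MulAction.stabilizer G2 ((false, 2) : V26)
  let G4 : Subgroup G3 := MulAction.stabilizer G3 ((false, 5) : V26)
  have h0 : Nat.card Gam0 ≤ 13 * Nat.card G1 := by
    refine (card_le_chain ((false, 0) : V26) (ptsOf (fun _ => true)) ?_).trans ?_
    · intro g
      rw [mem_ptsOf]
      exact ⟨g.2.2 _, rfl⟩
    · have : (ptsOf (fun _ => true)).card = 13 := by decide
      rw [this]
  have h1 : Nat.card G1 ≤ 12 * Nat.card G2 := by
    refine (card_le_chain ((false, 1) : V26) (ptsOf (fun i => i != 0)) ?_).trans ?_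
    · intro g
      rw [mem_ptsOf]
      refine ⟨g.1.2.2 _, ?_⟩
      rw [bne_iff_ne]
      intro h2
      have e1 : g.1.1 (false, 0) = (false, 0) := g.2
      have e2 : g.1.1 (false, 1) = (false, 0) := Prod.ext (g.1.2.2 _) h2
      have e3 := g.1.1.injective (e1.trans e2.symm)
      exact absurd e3 (by decide)
    · have : (ptsOf (fun i => i != 0)).card = 12 := by decide
      rw [this]
  have h2 : Nat.card G2 ≤ 9 * Nat.card G3 := by
    refine (card_le_chain ((false, 2) : V26) (ptsOf (fun i => !inc i 0)) ?_).trans ?_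
    · intro g
      rw [mem_ptsOf]
      refine ⟨g.1.1.2.2 _, ?_⟩
      have e0 : g.1.1.1 (false, 0) = (false, 0) := g.1.2
      have e1 : g.1.1.1 (false, 1) = (false, 1) := g.2
      have l0 := line_fix g.1.1.1 g.1.1.2 0 1 0 (by decide) (by decide) (by decide) e0 e1
      have := off_image g.1.1.1 g.1.1.2 2 0 l0 (by decide)
      show (!inc (g.1.1.1 (false, 2)).2 0) = true
      rw [this]; rfl
    · have : (ptsOf (fun i => !inc i 0)).card = 9 := by decide
      rw [this]
  have h3 : Nat.card G3 ≤ 4 * Nat.card G4 := by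
    refine (card_le_chain ((false, 5) : V26) (ptsOf (fun i => !inc i 0 && !inc i 12 && !inc i 1)) ?_).trans ?_
    · intro g
      rw [mem_ptsOf]
      refine ⟨g.1.1.1.2.2 _, ?_⟩
      have e0 : g.1.1.1.1 (false, 0) = (false, 0) := g.1.1.2
      have e1 : g.1.1.1.1 (false, 1) = (false, 1) := g.1.2
      have e2 : g.1.1.1.1 (false, 2) = (false, 2) := g.2
      have l0 := line_fix g.1.1.1.1 g.1.1.1.2 0 1 0 (by decide) (by decide) (by decide) e0 e1
      have l12 := line_fix g.1.1.1.1 g.1.1.1.2 0 2 12 (by decide) (by decide) (by decide) e0 e2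
      have l1 := line_fix g.1.1.1.1 g.1.1.1.2 1 2 1 (by decide) (by decide) (by decide) e1 e2
      have f0 := off_image g.1.1.1.1 g.1.1.1.2 5 0 l0 (by decide)
      have f12 := off_image g.1.1.1.1 g.1.1.1.2 5 12 l12 (by decide)
      have f1 := off_image g.1.1.1.1 g.1.1.1.2 5 1 l1 (by decide)
      show (!inc (g.1.1.1.1 (false, 5)).2 0 && !inc (g.1.1.1.1 (false, 5)).2 12 && !inc (g.1.1.1.1 (false, 5)).2 1) = true
      rw [f0, f12, f1]; rfl
    · have : (ptsOf (fun i => !inc i 0 && !inc i 12 && !inc i 1)).card = 4 := by decide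
      rw [this]
  have h4 : Nat.card G4 = 1 := by
    rw [Nat.card_eq_one_iff_unique]
    refine ⟨⟨?_⟩, ⟨1⟩⟩
    have key : ∀ g : G4, g = 1 := by
      intro g
      have : g.1.1.1.1.1 = 1 := eq_one_of_fix g.1.1.1.1.1 g.1.1.1.1.2 g.1.1.1.2 g.1.1.2 g.1.2 g.2
      exact Subtype.ext (Subtype.ext (Subtype.ext (Subtype.ext (Subtype.ext this))))
    intro a b
    rw [key a, key b]
  omega

end Cfsg.Agent.Lib.PG23
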