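import Cfsg.Agent.Lib.PG2

/-!
# Characterization of PGU(3,q), q even: double transitivity (helper76)
-/

set_option autoImplicit false

namespace Cfsg.Agent.Lib.PG

open Subgroup

section
variable {G : Type*} [Group G] [Finite G] {q : ℕ}

theorem conj_sq {w x : G} (hw : w * w = 1) : (w * x * w) * (w * x * w) = w * (x * x) * w := by
  calc (w * x * w) * (w * x * w) = w * x * (w * w) * x * w := by group
    _ = w * (x * x) * w := by rw [hw]; group

/-- parity: an involution acting without fixed points on an orbit of odd length -/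
theorem exists_fixed {α : Type*} [Finite α] (hα : Odd (Nat.card α)) (f : α → α) (hf : ∀ x, f (f x) = x) : ∃ x, f x = x := by
  classical
  have := Fintype.ofFinite α
  have f2 : Fact (Nat.Prime 2) := ⟨Nat.prime_two⟩
  let g : Function.End α := f
  have hg : g ^ 2 ^ 1 = 1 := by
    show g ^ 2 = 1
    rw [pow_two g]
    funext x
    exact hf x
  have h1 := Equiv.Perm.card_fixedPoints_modEq (α := α) (f := g) (p := 2) (n := 1) hg
  by_contra hcon
  push Not at hcon
  have h2 : Fintype.card (Function.fixedPoints g) = 0 := by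
    rw [Fintype.card_eq_zero_iff]
    exact ⟨fun x => hcon x.1 x.2⟩
  rw [h2] at h1
  rw [Nat.card_eq_fintype_card] at hα
  have h3 : Fintype.card α % 2 = 0 := h1
  rw [Nat.odd_iff] at hα
  omega

variable (h : St G q) (s : Sw G)
include h s

theorem St.exists_swap' {P R : Sylow 2 G} (hPR : P ≠ R) : ∃ w : G, w * w = 1 ∧ w • P = R ∧ w • R = P := by
  obtain ⟨u, hu, hu2, hu1⟩ := h.exists_inv P
  obtain ⟨v, hv, hv2, hv1⟩ := h.exists_inv R
  obtain ⟨w, h1, -, h3, h4⟩ := s.ex hPR hu hu2 hu1 hv hv2 hv1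
  exact ⟨w, h1, h3, h4⟩

omit s in
theorem St.y_odd {y : G} (hy : y ^ (q - 1) = 1) : Odd (orderOf y) := by
  have h1 := orderOf_dvd_of_pow_eq_one hy
  have h2 : Odd (q - 1) := by
    obtain ⟨h3, h4⟩ := h.q_odd
    exact Nat.Even.sub_odd (by omega) h3 (by decide)
  exact h2.of_dvd_nat h1

omit s in
/-- an involution inverting `y` fixes no point fixed by `y` -/
theorem St.no_fix {y w : G} (hy1 : y ≠ 1) (hy : y ^ (q - 1) = 1) (hw : w * w = 1) (hwy : w * y * w = y⁻¹) {T : Sylow 2 G}
    (hyT : y • T = T) (hwT : w • T = T) : False := by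
  have h1 : w ∈ T := h.mem_of T w hw hwT
  have h2 : y * w * y⁻¹ ∈ T := by
    have := smul_mem (g := y) h1
    rwa [hyT] at this
  have h3 : y * w * y⁻¹ * w ∈ T := (T : Subgroup G).mul_mem h2 h1
  have h4 : y * w * y⁻¹ * w = y * y := by
    have h5 : w * y⁻¹ * w = y := by
      rw [← hwy]
      calc w * (w * y * w) * w = (w * w) * y * (w * w) := by group
        _ = y := by rw [hw]; group
    calc y * w * y⁻¹ * w = y * (w * y⁻¹ * w) := by group
      _ = y * y := by rw [h5]
  rw [h4] at h3
  obtain ⟨k, hk⟩ := two_pow_of_mem h3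
  have hodd := h.y_odd hy
  have h6 : orderOf y ∣ 2 ^ (k + 1) := by
    apply orderOf_dvd_of_pow_eq_one
    rw [pow_succ', pow_mul, pow_two]
    exact hk
  obtain ⟨m, hm, hm2⟩ := (Nat.dvd_prime_pow Nat.prime_two).1 h6
  rcases Nat.eq_zero_or_pos m with rfl | h0
  · rw [pow_zero] at hm2
    exact hy1 (orderOf_eq_one_iff.1 hm2)
  · rw [hm2] at hodd
    exact absurd hodd (Nat.not_odd_iff_even.2 (Nat.even_pow.2 ⟨by decide, by omega⟩))

omit s in
theorem St.cent_odd {y c : G} (hy1 : y ≠ 1) (hy : y ^ (q - 1) = 1) (hc : c * y = y * c) : Odd (orderOf c) := by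
  apply odd_of_sq
  intro k hk
  by_contra hne
  set z := c ^ k with hz
  have hzy : z * y = y * z := (show Commute c y from hc).pow_left k
  -- `z` lies in some Sylow subgroup
  have hp : IsPGroup 2 (zpowers z) := by
    have f2 : Fact (Nat.Prime 2) := ⟨Nat.prime_two⟩
    rw [IsPGroup.iff_card, Nat.card_zpowers]
    exact ⟨1, by rw [pow_one]; exact orderOf_eq_prime (by rw [pow_two, hk]) hne⟩
  obtain ⟨T, hT⟩ := hp.exists_le_sylow
  have hzT : z ∈ T := hT (mem_zpowers z)
  obtain ⟨h1, h2⟩ := h.of_comm T y z hzT hk hne hzy.symm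
  obtain ⟨R, hR⟩ := h.exR T
  have hodd := h.y_odd hy
  have h3 : orderOf y ∣ q ^ 3 * (q + 1) := by
    rw [← h.cardM T, ← Subgroup.orderOf_mk y h2]
    exact orderOf_dvd_natCard _
  have hq := h.q_odd.2
  have h4 : orderOf y ∣ q + 1 := by
    obtain ⟨n, hn, hqn⟩ := h.two
    have h5 : Nat.Coprime (orderOf y) (q ^ 3) := by
      rw [hqn]
      apply Nat.Coprime.pow_right
      apply Nat.Coprime.pow_right
      exact (Nat.coprime_two_left.2 hodd).symm
    exact h5.dvd_of_dvd_mul_left h3
  have h5 : orderOf y ∣ q - 1 := orderOf_dvd_of_pow_eq_one hy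
  have h6 : orderOf y ∣ 2 := by
    have := Nat.dvd_sub h4 h5
    rwa [show q + 1 - (q - 1) = 2 by omega] at this
  exact hy1 (eq_one_of_odd hodd (by
    rw [← pow_two]; exact orderOf_dvd_iff_pow_eq_one.1 h6))

/-- the fixed points of an element of order dividing `q - 1` -/
theorem St.fix_two {P R : Sylow 2 G} (hPR : P ≠ R) {y : G} (hy1 : y ≠ 1) (hy : y ^ (q - 1) = 1) (hyP : y • P = P)
    (hyR : y • R = R) (T : Sylow 2 G) (hyT : y • T = T) : T = P ∨ T = R := by
  classical
  -- the centralizer fixes everything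
  have key : ∀ T : Sylow 2 G, y • T = T → ∀ c : G, c * y = y * c → c • T = T := by
    intro T hT c hc
    by_contra hne
    set C := centralizer ({y} : Set G) with hC
    have hCodd : Odd (Nat.card C) := by
      by_contra hno
      rw [Nat.not_odd_iff_even, even_iff_two_dvd] at hno
      have f2 : Fact (Nat.Prime 2) := ⟨Nat.prime_two⟩
      obtain ⟨z, hz⟩ := exists_prime_orderOf_dvd_card' (G := C) 2 hno
      have h1 : (z : G) * y = y * z := (mem_centralizer_singleton_iff.1 z.2)
      have h2 := h.cent_odd hy1 hy h1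
      rw [Subgroup.orderOf_coe, hz] at h2
      exact absurd h2 (by decide)
    have hO : Odd (Nat.card (MulAction.orbit C T)) := by
      have h1 : Nat.card (MulAction.orbit C T) ∣ Nat.card C := by
        rw [Nat.card_coe_set_eq, ← MulAction.index_stabilizer]
        exact Subgroup.index_dvd_card _
      exact hCodd.of_dvd_nat h1
    have hcC : c ∈ C := mem_centralizer_singleton_iff.2 hc
    have hyc : y • (c • T) = c • T := by
      rw [← mul_smul, ← hc, mul_smul, hT]
    obtain ⟨w, hw1, hw2, hw3⟩ := h.exists_swap' s (Ne.symm hne)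
    have hinv : w * y * w = y⁻¹ := h.inverted s (Ne.symm hne) hw1 hw2 hT hyc hy
    have hmap : ∀ x : MulAction.orbit C T, w • (x : Sylow 2 G) ∈ MulAction.orbit C T := by
      rintro ⟨_, c', rfl⟩
      have h1 : (w * c' * w) ∈ C := by
        rw [mem_centralizer_singleton_iff]
        have h2 : (c' : G) * y = y * c' := mem_centralizer_singleton_iff.1 c'.2
        have h2' : (c' : G) * y⁻¹ = y⁻¹ * c' := by
          rw [mul_inv_eq_iff_eq_mul, mul_assoc, h2, inv_mul_cancel_left]
        have h3 : w * y = y⁻¹ * w := by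
          rw [← hinv, mul_assoc, mul_assoc, hw1, mul_one]
        have h4 : w * y⁻¹ = y * w := by
          rw [mul_inv_eq_iff_eq_mul, mul_assoc, h3, mul_inv_cancel_left]
        calc w * c' * w * y = w * c' * (w * y) := by group
          _ = w * (c' * y⁻¹) * w := by rw [h3]; group
          _ = (w * y⁻¹) * c' * w := by rw [h2']; group
          _ = y * (w * c' * w) := by rw [h4]; group
      refine ⟨⟨w * c' * w, h1⟩ * ⟨c, hcC⟩, ?_⟩
      show ((⟨w * c' * w, h1⟩ : C) * ⟨c, hcC⟩ : C) • T = w • ((c' : G) • T)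
      show (w * c' * w * c) • T = w • ((c' : G) • T)
      rw [mul_smul, mul_smul, mul_smul, hw3]
    obtain ⟨⟨x, hx⟩, hfx⟩ := exists_fixed hO (fun x => ⟨w • (x : Sylow 2 G), hmap x⟩) (by
      intro x
      apply Subtype.ext
      show w • w • (x : Sylow 2 G) = x
      rw [← mul_smul, hw1, one_smul])
    have hfx' : w • x = x := congrArg Subtype.val hfx
    obtain ⟨c', rfl⟩ := hx
    apply h.no_fix hy1 hy hw1 hinv (T := (c' : G) • T) ?_ hfx'
    have h2 : (c' : G) * y = y * c' := mem_centralizer_singleton_iff.1 c'.2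
    rw [← mul_smul, ← h2, mul_smul, hT]
  by_contra hcon
  push Not at hcon
  obtain ⟨hTP, hTR⟩ := hcon
  obtain ⟨w1, a1, a2, a3⟩ := h.exists_swap' s hPR
  obtain ⟨w2, b1, b2, b3⟩ := h.exists_swap' s (Ne.symm hTP)
  have i1 := h.inverted s hPR a1 a2 hyP hyR hy
  have i2 := h.inverted s (Ne.symm hTP) b1 b2 hyP hyT hy
  have hcomm : (w1 * w2) * y = y * (w1 * w2) := by
    have h3 : w2 * y = y⁻¹ * w2 := by
      rw [← i2, mul_assoc, mul_assoc, b1, mul_one]
    have h4 : w1 * y⁻¹ = y * w1 := by
      have h5 : w1 * y = y⁻¹ * w1 := by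
        rw [← i1, mul_assoc, mul_assoc, a1, mul_one]
      rw [mul_inv_eq_iff_eq_mul, mul_assoc, h5, mul_inv_cancel_left]
    rw [mul_assoc, h3, ← mul_assoc, h4, mul_assoc]
  have h5 := key P hyP _ hcomm
  rw [mul_smul, b2] at h5
  apply hTR
  have h6 : w1 • T = w1 • R := by rw [h5, a3]
  exact MulAction.injective w1 h6

end

end Cfsg.Agent.Lib.PG
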