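import Cfsg.Agent.Lib.PG4

/-!
# Characterization of PGU(3,q), q even: the decomposition (helper76)
-/

set_option autoImplicit false

namespace Cfsg.Agent.Lib.PG

open Subgroup

/-- 2-elements lie in the normal subgroups of odd index -/
theorem mem_of_odd_index {G : Type*} [Group G] {L : Subgroup G} (hN : L.Normal) (hL : Odd L.index) {x : G} {k : ℕ}
    (hx : x ^ 2 ^ k = 1) : x ∈ L := by
  have h1 : orderOf (QuotientGroup.mk x : G ⧸ L) ∣ 2 ^ k := by
    apply orderOf_dvd_of_pow_eq_one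
    rw [← QuotientGroup.mk_pow, hx]; rfl
  have h2 : orderOf (QuotientGroup.mk x : G ⧸ L) ∣ L.index := by
    rw [Subgroup.index_eq_card]; exact orderOf_dvd_natCard _
  have h3 : Nat.Coprime (2 ^ k) L.index := (Nat.coprime_two_left.2 hL).pow_left k
  have h4 := Nat.dvd_gcd h1 h2
  rw [h3] at h4
  rw [Nat.dvd_one, orderOf_eq_one_iff] at h4
  exact (QuotientGroup.eq_one_iff x).1 h4

section
variable {G : Type*} [Group G] [Finite G] {q : ℕ}

theorem smul_self {P : Sylow 2 G} {x : G} (hx : x ∈ P) : x • P = P := mem_stab.2 (Subgroup.le_normalizer hx)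

/-- `P` is regular on the other Sylow subgroups -/
theorem St.reg (h : St G q) (s : Sw G) {P R R' : Sylow 2 G} (hPR : P ≠ R) (hPR' : P ≠ R') : ∃ x ∈ P, x • R = R' := by
  let f : P → {T : Sylow 2 G // T ≠ P} := fun x => ⟨(x : G) • R, by
    intro h1
    have h2 : (x : G) • R = (x : G) • P := h1.trans (smul_self x.2).symm
    exact hPR (MulAction.injective _ h2).symm⟩
  have hinj : Function.Injective f := by
    intro x y hxy
    have h1 : (x : G) • R = (y : G) • R := congrArg Subtype.val hxy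
    have h2 : ((y : G)⁻¹ * (x : G)) • R = R := by
      rw [mul_smul, h1, inv_smul_smul]
    have h3 : (y : G)⁻¹ * (x : G) ∈ P := mul_mem (inv_mem y.2) x.2
    obtain ⟨k, hk⟩ := two_pow_of_mem h3
    have h4 := h.ti P R hPR _ h3 (mem_of_two hk h2)
    exact Subtype.ext (inv_mul_eq_one.1 h4).symm
  have hc : Nat.card P = Nat.card {T : Sylow 2 G // T ≠ P} := by
    have h1 : Nat.card {T : Sylow 2 G // T ≠ P} = ({T : Sylow 2 G | T ≠ P}).ncard := Nat.card_coe_set_eq _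
    have h2 := h.card_syl s hPR
    rw [h.orbit_eq s hPR, (h.orders s hPR).2] at h2
    rw [h.cardP P, h1]
    omega
  obtain ⟨x, hx⟩ := ((Nat.bijective_iff_injective_and_card f).2 ⟨hinj, hc⟩).2 ⟨R', Ne.symm hPR'⟩
  exact ⟨x, x.2, congrArg Subtype.val hx⟩

theorem St.dec (h : St G q) (s : Sw G) {L : Subgroup G} (hN : L.Normal) (hL : Odd L.index) {P R : Sylow 2 G} (hPR : P ≠ R) (g : G) :
    ∃ l ∈ L, ∃ d ∈ M P, d • P = P ∧ d • R = R ∧ g = l * d := by
  have hinv : ∀ w : G, w * w = 1 → w ∈ L := fun w hw => mem_of_odd_index hN hL (k := 1) (by rw [pow_one, pow_two, hw])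
  obtain ⟨l1, hl1, hl1'⟩ : ∃ l1 ∈ L, l1 • P = g • P := by
    by_cases hg : P = g • P
    · exact ⟨1, one_mem _, by rw [one_smul, ← hg]⟩
    · obtain ⟨w, hw, hwP, -⟩ := h.exists_swap' s hg
      exact ⟨w, hinv w hw, hwP⟩
  have hn : (l1⁻¹ * g) • P = P := by rw [mul_smul, ← hl1', inv_smul_smul]
  have hnR : P ≠ (l1⁻¹ * g) • R := by
    intro h1
    have h2 : (l1⁻¹ * g) • P = (l1⁻¹ * g) • R := hn.trans h1
    exact hPR (MulAction.injective _ h2)
  obtain ⟨x, hx, hxR⟩ := h.reg s hPR hnR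
  have hd1P : (x⁻¹ * (l1⁻¹ * g)) • P = P := by
    rw [mul_smul, hn]; exact smul_self (inv_mem hx)
  have hd1R : (x⁻¹ * (l1⁻¹ * g)) • R = R := by
    rw [mul_smul, ← hxR, inv_smul_smul]
  obtain ⟨w0, hw0, hw0P, hw0R⟩ := h.exists_swap' s hPR
  obtain ⟨w, hw, hwP, heM, heR⟩ := h.decomp s hPR hw0 hw0P hd1P hd1R
  refine ⟨l1 * x * (w * w0), ?_, (w * w0)⁻¹ * (x⁻¹ * (l1⁻¹ * g)), heM, ?_, heR, by group⟩
  · obtain ⟨k, hk⟩ := two_pow_of_mem hx
    exact mul_mem (mul_mem hl1 (mem_of_odd_index hN hL hk)) (mul_mem (hinv w hw) (hinv w0 hw0))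
  · rw [mul_smul, hd1P, inv_smul_eq_iff, mul_smul, hw0P, swap_symm hw hwP]

end

end Cfsg.Agent.Lib.PG
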