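import Cfsg.Agent.Lib.PG5
import Cfsg.Agent.Lib.PG0U2c
import Cfsg.Agent.Lib.H12PGB
import Cfsg.Agent.Lib.H37U2a

/-!
# Characterization of PGU(3,q), q even: the assembly (helper76)
-/

set_option autoImplicit false

namespace Cfsg.Agent.Lib.PG

open Subgroup

section
variable {G : Type*} [Group G] [Finite G] {q : ℕ}

/-- the assembly -/
theorem St.assemble (h : St G q) (s : Sw G) {F : Type*} [Field F] [Fintype F] (hF : Fintype.card F = q ^ 2)
    {L : Subgroup G} (hN : L.Normal) (hL : Odd L.index) (hC : centralizer (L : Set G) = ⊥)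
    {F' : Type} [Field F'] [Fintype F'] (hF' : Fintype.card F' = q ^ 2) (e : L ≃* Cfsg.PSU 3 F' q) :
    Nonempty (G ≃* (↥(Cfsg.GU 3 F q) ⧸ Subgroup.center ↥(Cfsg.GU 3 F q))) := by
  have f2 : Fact (Nat.Prime 2) := ⟨Nat.prime_two⟩
  obtain ⟨n, hn, hqn⟩ := h.two
  have hcard : Nat.card G = (q ^ 3 + 1) * q ^ 3 * (q ^ 2 - 1) := by
    rw [h.card_G s]
    have hq := h.q_odd.2
    obtain ⟨r, rfl⟩ : ∃ r, q = r + 1 := ⟨q - 1, by omega⟩
    have h1 : (r + 1) ^ 2 - 1 = (r + 1 + 1) * r := by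
      have : (r + 1) ^ 2 = (r + 1 + 1) * r + 1 := by ring
      omega
    rw [h1, Nat.add_sub_cancel]
    ring
  obtain ⟨P⟩ : Nonempty (Sylow 2 G) := inferInstance
  obtain ⟨R, hPR⟩ := h.exR P
  haveI := hN
  let φ : G →* MulAut (Cfsg.PSU 3 F' q) := (MulAut.congr e).toMonoidHom.comp (MulAut.conjNormal (H := L))
  have hφ : ∀ (g : G) (x : L), e ⟨g * x * g⁻¹, hN.conj_mem _ x.2 g⟩ = φ g (e x) := by
    intro g x
    show _ = e ((MulAut.conjNormal g) (e.symm (e x)))
    rw [MulEquiv.symm_apply_apply]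
    congr 1
  have hPL : (P : Subgroup G) ≤ L := by
    intro x hx
    obtain ⟨k, hk⟩ := two_pow_of_mem (P := P) hx
    exact mem_of_odd_index hN hL hk
  refine id_of_inndiag hqn hn hF hN hF' e hC hcard fun g => ⟨φ g, ?_, hφ g⟩
  obtain ⟨l, hl, d, hdM, hdP, hdR, rfl⟩ := h.dec s hN hL hPR g
  rw [map_mul]
  apply inndiag_mul
  · have h1 : φ l = MulAut.conj (e ⟨l, hl⟩) := by
      apply MulEquiv.ext
      intro y
      obtain ⟨x, rfl⟩ := e.surjective y
      rw [← hφ, MulAut.conj_apply, ← map_inv, ← map_mul, ← map_mul]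
      rfl
    rw [h1]
    exact inndiag_conj _
  · refine Cfsg.Agent.Lib.H37U2a.inndiag_of_odd hqn hn hF' (φ d) ?_ ((P.subtype hPL).mapSurjective (f := e.toMonoidHom) e.surjective) ?_
    · exact (h.odd hPR hdP hdR).of_dvd_nat (orderOf_map_dvd φ d)
    · rintro _ ⟨y, hy, rfl⟩ hyy
      have hyP : (y : G) ∈ P := hy
      have hyy' : y * y = 1 := by
        have h1 : e (y * y) = 1 := by rw [map_mul]; exact hyy
        exact (map_eq_one_iff e e.injective).1 h1
      have h2 := hdM (y : G) hyP (congrArg Subtype.val hyy')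
      show φ d (e y) = e y
      rw [← hφ]
      congr 1
      apply Subtype.ext
      show d * (y : G) * d⁻¹ = y
      rw [h2, mul_inv_cancel_right]

end

end Cfsg.Agent.Lib.PG
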