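import Cfsg.Agent.Lib.PG5

/-!
# Characterization of PGU(3,q), q even: faithfulness and the centralizer (helper76)
-/

set_option autoImplicit false

namespace Cfsg.Agent.Lib.PG

open Subgroup

section
variable {G : Type*} [Group G] [Finite G] {q : ℕ}

theorem St.one_of_comm (h : St G q) {P : Sylow 2 G} {g : G} (hgM : g ∈ M P) (hodd : Odd (orderOf g))
    (hc : ∀ x ∈ P, g * x = x * g) : g = 1 := by
  by_contra hne
  have h1 : ∀ x : G, x ∈ P ↔ (x ∈ P ∧ x * x = 1) :=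
    fun x => ⟨fun hx => ⟨hx, h.fpf P g x hgM hne hodd hx (hc x hx)⟩, fun hx => hx.1⟩
  have h2 : Nat.card P = Nat.card {x : G // x ∈ P ∧ x * x = 1} :=
    Nat.card_congr (Equiv.subtypeEquivRight h1)
  rw [h.cardP P, h.inv P] at h2
  have hq := h.q_odd.2
  have h3 : q < q ^ 3 := by
    calc q = q ^ 1 := (pow_one q).symm
      _ < q ^ 3 := Nat.pow_lt_pow_right (by omega) (by norm_num)
  omega

theorem St.faithful (h : St G q) : FaithfulSMul G (Sylow 2 G) := by
  constructor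
  intro g1 g2 hg
  obtain ⟨P⟩ : Nonempty (Sylow 2 G) := inferInstance
  obtain ⟨R, hPR⟩ := h.exR P
  have hfix : ∀ T : Sylow 2 G, (g2⁻¹ * g1) • T = T := fun T => by rw [mul_smul, hg, inv_smul_smul]
  have hfix' : ∀ T : Sylow 2 G, (g2⁻¹ * g1)⁻¹ • T = T := fun T => by
    rw [inv_smul_eq_iff, hfix]
  set g := g2⁻¹ * g1 with hgdef
  have hc : ∀ x ∈ P, g * x = x * g := by
    intro x hx
    have h1 : g * x * g⁻¹ ∈ P := by
      have := smul_mem (g := g) hx
      rwa [hfix P] at this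
    have h2 : g * x * g⁻¹ * x⁻¹ ∈ P := mul_mem h1 (inv_mem hx)
    have h3 : (g * x * g⁻¹ * x⁻¹) • R = R := by
      rw [mul_smul, mul_smul, mul_smul, hfix', smul_inv_smul, hfix]
    obtain ⟨k, hk⟩ := two_pow_of_mem h2
    have h4 := h.ti P R hPR _ h2 (mem_of_two hk h3)
    rw [mul_inv_eq_one, mul_inv_eq_iff_eq_mul] at h4
    exact h4
  have h5 : g = 1 := h.one_of_comm (fun x hx _ => hc x hx) (h.odd hPR (hfix P) (hfix R)) hc
  rw [hgdef, inv_mul_eq_one] at h5
  exact h5.symm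

theorem St.cent_bot (h : St G q) {L : Subgroup G} (hN : L.Normal) (hL : Odd L.index) :
    Subgroup.centralizer (L : Set G) = ⊥ := by
  rw [eq_bot_iff]
  intro z hz
  rw [Subgroup.mem_centralizer_iff] at hz
  obtain ⟨P⟩ : Nonempty (Sylow 2 G) := inferInstance
  obtain ⟨R, hPR⟩ := h.exR P
  have hc : ∀ (T : Sylow 2 G), ∀ x ∈ T, z * x = x * z := by
    intro T x hx
    obtain ⟨k, hk⟩ := two_pow_of_mem hx
    exact (hz x (mem_of_odd_index hN hL hk)).symm
  have hs : ∀ T : Sylow 2 G, z • T = T ∧ z ∈ M T := by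
    intro T
    obtain ⟨u, hu, hu2, hu1⟩ := h.exists_inv T
    exact h.of_comm T z u hu hu2 hu1 (hc T u hu)
  rw [Subgroup.mem_bot]
  exact h.one_of_comm (hs P).2 (h.odd hPR (hs P).1 (hs R).1) (hc P)

end

end Cfsg.Agent.Lib.PG
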