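import Mathlib
import Cfsg.Agent.Lib.SylU3
import Cfsg.Agent.Lib.PG0

/-!
# Characterization of PGU(3,q), q even (S2212): the model of the stabilizer of an isotropic vector
(helper84)
-/

set_option autoImplicit false
set_option linter.unusedSectionVars false

namespace Cfsg.Agent.Lib.PGC84

open Matrix Cfsg Cfsg.Agent.Lib.ClUnitary Cfsg.Agent.Lib.HermMat Cfsg.Agent.Lib.SylU3

variable {F : Type*} [Field F]

/-- model matrices -/
def mm (q : ℕ) (μ a b : F) : Matrix (Fin 3) (Fin 3) F := !![1, a, b; 0, μ, -(μ * a ^ q); 0, 0, 1]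

theorem mm_det (q : ℕ) (μ a b : F) : (mm q μ a b).det = μ := by
  rw [mm, Matrix.det_fin_three]; simp

theorem mm_inj {q : ℕ} {μ a b μ' a' b' : F} (h : mm q μ a b = mm q μ' a' b') : μ = μ' ∧ a = a' ∧ b = b' :=
  ⟨congrFun (congrFun h 1) 1, congrFun (congrFun h 0) 1, congrFun (congrFun h 0) 2⟩

variable [Fintype F] {q : ℕ}

theorem mm_one (hF : Fintype.card F = q ^ 2) : mm q (1 : F) 0 0 = 1 := by
  have := two_le_q hF
  unfold mm
  rw [zero_pow (by omega)]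
  ext i j; fin_cases i <;> fin_cases j <;> simp

theorem mm_mul (hF : Fintype.card F = q ^ 2) {μ a b μ' a' b' : F} (h : μ' ^ (q + 1) = 1) :
    mm q μ a b * mm q μ' a' b' = mm q (μ * μ') (a' + a * μ') (b' + a * (-(μ' * a' ^ q)) + b) := by
  have h1 : μ' * μ' ^ q = 1 := by rw [← pow_succ', h]
  unfold mm
  rw [add_pow_q hF, mul_pow]
  ext i j
  fin_cases i <;> fin_cases j <;> simp [Matrix.mul_apply, Fin.sum_univ_three]
  linear_combination (μ * a ^ q) * h1

theorem Cd_mul (hF : Fintype.card F = q ^ 2) {a b μ' a' b' : F} (h : μ' ^ (q + 1) = 1) (hc : Cd q a b)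
    (hc' : Cd q a' b') : Cd q (a' + a * μ') (b' + a * (-(μ' * a' ^ q)) + b) := by
  have h1 : μ' * μ' ^ q = 1 := by rw [← pow_succ', h]
  unfold Cd at *
  rw [add_pow_q hF, add_pow_q hF, add_pow_q hF, mul_pow, mul_pow, neg_pow_q hF, mul_pow, pow_q_pow_q hF]
  linear_combination hc + hc' + a * a ^ q * h1

theorem Cd_inv (hF : Fintype.card F = q ^ 2) {a b μ : F} (h : μ ^ (q + 1) = 1) (hc : Cd q a b) :
    Cd q (-(a * μ ^ q)) (b ^ q) := by
  have h1 : μ * μ ^ q = 1 := by rw [← pow_succ', h]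
  unfold Cd at *
  rw [neg_pow_q hF, mul_pow, pow_q_pow_q hF, pow_q_pow_q hF]
  linear_combination hc + a * a ^ q * h1

/-- the model -/
def Md (hF : Fintype.card F = q ^ 2) : Subgroup (GL (Fin 3) F) where
  carrier := {g | ∃ μ a b : F, μ ^ (q + 1) = 1 ∧ Cd q a b ∧ (g : Matrix (Fin 3) (Fin 3) F) = mm q μ a b}
  one_mem' := ⟨1, 0, 0, one_pow _, by
    have := two_le_q hF
    unfold Cd; rw [zero_pow (by omega)]; ring, by rw [mm_one hF, Units.val_one]⟩
  mul_mem' := by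
    rintro g g' ⟨μ, a, b, h, hc, hg⟩ ⟨μ', a', b', h', hc', hg'⟩
    refine ⟨μ * μ', a' + a * μ', b' + a * (-(μ' * a' ^ q)) + b, by rw [mul_pow, h, h', one_mul],
      Cd_mul hF h' hc hc', ?_⟩
    rw [Units.val_mul, hg, hg', mm_mul hF h']
  inv_mem' := by
    rintro g ⟨μ, a, b, h, hc, hg⟩
    have h1 : μ * μ ^ q = 1 := by rw [← pow_succ', h]
    have h2 : (μ ^ q) ^ (q + 1) = 1 := by rw [← pow_mul, mul_comm, pow_mul, h, one_pow]
    refine ⟨μ ^ q, -(a * μ ^ q), b ^ q, h2, Cd_inv hF h hc, ?_⟩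
    have h3 : (g : Matrix (Fin 3) (Fin 3) F) * mm q (μ ^ q) (-(a * μ ^ q)) (b ^ q) = 1 := by
      rw [hg, mm_mul hF h2, ← mm_one hF, h1, neg_pow_q hF, mul_pow, pow_q_pow_q hF]
      have hc2 := hc
      unfold Cd at hc2
      congr 1
      · ring
      · linear_combination hc2 + a * a ^ q * h1
    exact (Matrix.inv_eq_right_inv (A := (g : Matrix (Fin 3) (Fin 3) F)) h3).symm ▸ (Matrix.coe_units_inv g)

theorem mem_Md (hF : Fintype.card F = q ^ 2) (g : GL (Fin 3) F) :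
    g ∈ Md hF ↔ ∃ μ a b : F, μ ^ (q + 1) = 1 ∧ Cd q a b ∧ (g : Matrix (Fin 3) (Fin 3) F) = mm q μ a b := Iff.rfl

end Cfsg.Agent.Lib.PGC84
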