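import Mathlib
import Cfsg.Agent.Lib.PGC84A
import Cfsg.Agent.Lib.PGUa

/-!
# Characterization of PGU(3,q), q even (S2212): the centralizer of an involution of GU(3,q)/Z
is the model group (helper84)
-/

set_option autoImplicit false
set_option linter.unusedSectionVars false

namespace Cfsg.Agent.Lib.PGC84

open Matrix Cfsg Cfsg.Agent.Lib.ClUnitary Cfsg.Agent.Lib.HermMat Cfsg.Agent.Lib.SylU3

variable {F : Type*} [Field F]

/-- the antidiagonal hermitian form -/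
def J3 (q : ℕ) (u w : Fin 3 → F) : F := u 0 * w 2 ^ q + u 1 * w 1 ^ q + u 2 * w 0 ^ q

theorem mm_mulVec (q : ℕ) (μ a b : F) (w : Fin 3 → F) :
    mm q μ a b *ᵥ w = ![w 0 + a * w 1 + b * w 2, μ * w 1 + -(μ * a ^ q) * w 2, w 2] := by
  unfold mm
  ext i; fin_cases i <;> simp [Matrix.mulVec, dotProduct, Fin.sum_univ_three]

variable [Fintype F] {q : ℕ}

theorem exists_frame (hF : Fintype.card F = q ^ 2) {v : Fin 3 → F} (hv : v ≠ 0) (h0 : hermForm 3 F q v v = 0) :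
    ∃ A : GL (Fin 3) F, (∀ u w : Fin 3 → F, hermForm 3 F q ((A : Matrix (Fin 3) (Fin 3) F) *ᵥ u)
      ((A : Matrix (Fin 3) (Fin 3) F) *ᵥ w) = J3 q u w) ∧
      (A : Matrix (Fin 3) (Fin 3) F) *ᵥ ![1, 0, 0] = v := by
  have hq := two_le_q hF
  obtain ⟨c, hc'⟩ := exists_norm hF (c := (-1 : F)) (by rw [neg_pow_q hF, one_pow])
  have hc : c * c ^ q = -1 := by rw [← pow_succ', hc']
  obtain ⟨t, ht⟩ := exists_trace hF (c := (-1 : F)) (by rw [neg_pow_q hF, one_pow])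
  have hc0 : c ≠ 0 := by
    rintro rfl; rw [zero_mul] at hc
    exact one_ne_zero (neg_eq_zero.mp hc.symm)
  let A0 : GL (Fin 3) F := GeneralLinearGroup.mkOfDetNeZero (am c t) (by rw [am_det]; exact hc0)
  have hA0 : (A0 : Matrix (Fin 3) (Fin 3) F) = am c t := rfl
  have hv0 : am c t *ᵥ ![1, 0, 0] ≠ 0 := by
    intro h
    have := congrFun h 0
    unfold am at this
    simp [Matrix.mulVec, dotProduct, Fin.sum_univ_three] at this
  obtain ⟨g, hg⟩ := exists_map hF hv0 hv (by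
    rw [am_herm hF c t hc ht, h0]
    simp
    omega)
  refine ⟨(ClIso.glEquiv (Fin 3) F).symm g.1 * A0, fun u w => ?_, ?_⟩
  · rw [Units.val_mul, ← mulVec_mulVec, ← mulVec_mulVec, ClIso.glEquiv_symm_mulVec, ClIso.glEquiv_symm_mulVec]
    rw [g.2, hA0, am_herm hF c t hc ht]
    rfl
  · rw [Units.val_mul, ← mulVec_mulVec, ClIso.glEquiv_symm_mulVec, hA0]
    exact hg

theorem mem_Md_of (hF : Fintype.card F = q ^ 2) {g : GL (Fin 3) F}
    (hg : ∀ u w : Fin 3 → F, J3 q ((g : Matrix (Fin 3) (Fin 3) F) *ᵥ u) ((g : Matrix (Fin 3) (Fin 3) F) *ᵥ w) = J3 q u w)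
    (h0 : (g : Matrix (Fin 3) (Fin 3) F) *ᵥ ![1, 0, 0] = ![1, 0, 0]) : g ∈ Md hF := by
  have hq := two_le_q hF
  have hq0 : q ≠ 0 := by omega
  obtain ⟨M, hM⟩ : ∃ M : Matrix (Fin 3) (Fin 3) F, M = (g : Matrix (Fin 3) (Fin 3) F) := ⟨_, rfl⟩
  rw [← hM] at h0
  simp only [← hM] at hg
  have c0 : M *ᵥ ![1, 0, 0] = ![M 0 0, M 1 0, M 2 0] := by
    ext i; fin_cases i <;> simp [Matrix.mulVec, dotProduct, Fin.sum_univ_three]
  have c1 : M *ᵥ ![0, 1, 0] = ![M 0 1, M 1 1, M 2 1] := by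
    ext i; fin_cases i <;> simp [Matrix.mulVec, dotProduct, Fin.sum_univ_three]
  have c2 : M *ᵥ ![0, 0, 1] = ![M 0 2, M 1 2, M 2 2] := by
    ext i; fin_cases i <;> simp [Matrix.mulVec, dotProduct, Fin.sum_univ_three]
  rw [c0] at h0
  have h00 : M 0 0 = 1 := congrFun h0 0
  have h10 : M 1 0 = 0 := congrFun h0 1
  have h20 : M 2 0 = 0 := congrFun h0 2
  have e02 := hg ![1, 0, 0] ![0, 0, 1]
  have e01 := hg ![1, 0, 0] ![0, 1, 0]
  have e11 := hg ![0, 1, 0] ![0, 1, 0]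
  have e12 := hg ![0, 1, 0] ![0, 0, 1]
  have e22 := hg ![0, 0, 1] ![0, 0, 1]
  rw [c0, c2, h00, h10, h20] at e02
  rw [c0, c1, h00, h10, h20] at e01
  rw [c1] at e11
  rw [c1, c2] at e12
  rw [c2] at e22
  unfold J3 at e02 e01 e11 e12 e22
  simp [hq0] at e02 e01 e11 e12 e22
  have h22 : M 2 2 = 1 := by
    have := congrArg (fun x => x ^ q) e02
    simpa [pow_q_pow_q hF] using this
  rw [h22] at e12 e22
  rw [e01] at e11 e12
  simp [hq0] at e11 e12 e22
  have h12 : M 1 2 = -(M 1 1 * M 0 1 ^ q) := by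
    have h1 := congrArg (fun x => x ^ q) e12
    simp only [add_pow_q hF, mul_pow, pow_q_pow_q hF, zero_pow hq0] at h1
    linear_combination M 1 1 * h1 - M 1 2 * e11
  refine ⟨M 1 1, M 0 1, M 0 2, by rw [pow_succ', e11], ?_, ?_⟩
  · unfold Cd
    rw [h12, neg_pow_q hF, mul_pow, pow_q_pow_q hF] at e22
    linear_combination e22 - M 0 1 * M 0 1 ^ q * e11
  · rw [← hM]
    unfold mm
    ext i j
    fin_cases i <;> fin_cases j <;> simp [h00, h10, h20, e01, h12, h22]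

theorem Md_herm (hF : Fintype.card F = q ^ 2) {g : GL (Fin 3) F} (hg : g ∈ Md hF) (u w : Fin 3 → F) :
    J3 q ((g : Matrix (Fin 3) (Fin 3) F) *ᵥ u) ((g : Matrix (Fin 3) (Fin 3) F) *ᵥ w) = J3 q u w := by
  obtain ⟨μ, a, b, hμ, hc, hg⟩ := hg
  have h1 : μ * μ ^ q = 1 := by rw [← pow_succ', hμ]
  rw [hg, mm_mulVec, mm_mulVec]
  unfold J3
  simp only [Matrix.cons_val_zero, Matrix.cons_val_one, Matrix.cons_val]
  unfold Cd at hc
  rw [add_pow_q hF, add_pow_q hF, add_pow_q hF, mul_pow, mul_pow, mul_pow, mul_pow, neg_pow_q hF, mul_pow,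
    pow_q_pow_q hF]
  linear_combination u 2 * w 2 ^ q * hc + (u 1 * w 1 ^ q - u 1 * a * w 2 ^ q - u 2 * a ^ q * w 1 ^ q + u 2 * a * a ^ q * w 2 ^ q) * h1

theorem Md_e0 {hF : Fintype.card F = q ^ 2} {g : GL (Fin 3) F} (hg : g ∈ Md hF) :
    (g : Matrix (Fin 3) (Fin 3) F) *ᵥ ![1, 0, 0] = ![1, 0, 0] := by
  obtain ⟨μ, a, b, hμ, hc, hg⟩ := hg
  rw [hg, mm_mulVec]
  ext i; fin_cases i <;> simp

theorem mm_sq [CharP F 2] (hF : Fintype.card F = q ^ 2) {μ a b : F} (h : μ ^ (q + 1) = 1)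
    (h2 : mm q μ a b * mm q μ a b = 1) : μ = 1 ∧ a = 0 := by
  rw [mm_mul hF h, ← mm_one hF] at h2
  obtain ⟨h3, h4, h5⟩ := mm_inj h2
  have hμ : μ = 1 := by
    have h6 : (μ - 1) ^ 2 = 0 := by
      have h7 : (2 : F) = 0 := CharTwo.two_eq_zero
      linear_combination h3 + (1 - μ) * h7
    have h7 := pow_eq_zero_iff (two_ne_zero) |>.1 h6
    linear_combination h7
  refine ⟨hμ, ?_⟩
  have h7 : (2 : F) = 0 := CharTwo.two_eq_zero
  have h8 : a * a ^ q = 0 := by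
    rw [hμ] at h5
    linear_combination -h5 + b * h7
  rcases mul_eq_zero.1 h8 with h9 | h9
  · exact h9
  · exact eq_zero_of_pow_eq_zero h9

/-- an involution of the unitary group in a suitable frame -/
theorem exists_inv_frame [CharP F 2] (hF : Fintype.card F = q ^ 2) {u : GL (Fin 3) F} (hu : u ∈ GU 3 F q)
    (hu2 : u * u = 1) (hu1 : u ≠ 1) :
    ∃ (A M : GL (Fin 3) F) (c : F), (∀ x w : Fin 3 → F, hermForm 3 F q ((A : Matrix (Fin 3) (Fin 3) F) *ᵥ x)
      ((A : Matrix (Fin 3) (Fin 3) F) *ᵥ w) = J3 q x w) ∧ c ≠ 0 ∧ Cd q 0 c ∧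
      (M : Matrix (Fin 3) (Fin 3) F) = mm q 1 0 c ∧ u = A * M * A⁻¹ := by
  have hq := two_le_q hF
  have h2F : (2 : F) = 0 := CharTwo.two_eq_zero
  set U : Matrix (Fin 3) (Fin 3) F := (u : Matrix (Fin 3) (Fin 3) F) with hU
  have hUU : U * U = 1 := by rw [hU, ← Units.val_mul, hu2, Units.val_one]
  have hUh : ∀ x w : Fin 3 → F, hermForm 3 F q (U *ᵥ x) (U *ᵥ w) = hermForm 3 F q x w := hu
  obtain ⟨x0, hx0⟩ : ∃ x0 : Fin 3 → F, U *ᵥ x0 ≠ x0 := by
    by_contra hcon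
    push Not at hcon
    apply hu1
    apply Units.ext
    rw [← hU, Units.val_one]
    ext i j
    have := congrFun (hcon (Pi.single j 1)) i
    rw [mulVec_single_one] at this
    rw [show U i j = U.col j i from rfl, this, Matrix.one_apply, Pi.single_apply]
  have hUUx : ∀ x : Fin 3 → F, U *ᵥ (U *ᵥ x) = x := fun x => by rw [mulVec_mulVec, hUU, one_mulVec]
  have hv : U *ᵥ x0 + x0 ≠ 0 := by
    intro h
    apply hx0
    have h1 : U *ᵥ x0 = -x0 := eq_neg_of_add_eq_zero_left h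
    rw [h1]
    ext i
    rw [Pi.neg_apply]
    linear_combination (-x0 i) * h2F
  have hv0 : hermForm 3 F q (U *ᵥ x0 + x0) (U *ᵥ x0 + x0) = 0 := by
    rw [hermForm_add_left, hermForm_add_right hF, hermForm_add_right hF, hUh]
    have h1 := hUh (U *ᵥ x0) x0
    rw [hUUx] at h1
    rw [h1]
    linear_combination (hermForm 3 F q x0 x0 + hermForm 3 F q (U *ᵥ x0) x0) * h2F
  obtain ⟨A, hA, hA0⟩ := exists_frame hF hv hv0
  have hAi : ∀ w, (A : Matrix (Fin 3) (Fin 3) F) *ᵥ (((A⁻¹ : GL (Fin 3) F) : Matrix (Fin 3) (Fin 3) F) *ᵥ w) = w := by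
    intro w
    rw [mulVec_mulVec, ← Units.val_mul, mul_inv_cancel, Units.val_one, one_mulVec]
  have hAi' : ∀ w, ((A⁻¹ : GL (Fin 3) F) : Matrix (Fin 3) (Fin 3) F) *ᵥ ((A : Matrix (Fin 3) (Fin 3) F) *ᵥ w) = w := by
    intro w
    rw [mulVec_mulVec, ← Units.val_mul, inv_mul_cancel, Units.val_one, one_mulVec]
  have hM : A⁻¹ * u * A ∈ Md hF := by
    apply mem_Md_of hF
    · intro x w
      rw [← hA]
      simp only [Units.val_mul, ← mulVec_mulVec]
      rw [hAi, hAi, ← hU, hUh, hA]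
    · simp only [Units.val_mul, ← mulVec_mulVec]
      rw [hA0, ← hU, mulVec_add, hUUx, add_comm, ← hA0, hAi']
  obtain ⟨μ, a, b, hμ, hc, hMe⟩ := hM
  have hMM : mm q μ a b * mm q μ a b = 1 := by
    rw [← hMe, ← Units.val_mul]
    have : A⁻¹ * u * A * (A⁻¹ * u * A) = 1 := by
      calc A⁻¹ * u * A * (A⁻¹ * u * A) = A⁻¹ * (u * u) * A := by group
        _ = 1 := by rw [hu2]; group
    rw [this, Units.val_one]
  obtain ⟨rfl, rfl⟩ := mm_sq hF hμ hMM
  refine ⟨A, A⁻¹ * u * A, b, hA, ?_, hc, hMe, by group⟩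
  rintro rfl
  rw [mm_one hF] at hMe
  have h1 : A⁻¹ * u * A = 1 := Units.ext hMe
  apply hu1
  calc u = A * (A⁻¹ * u * A) * A⁻¹ := by group
    _ = 1 := by rw [h1]; group

/-- a preimage of order two of an involution of `PGU` -/
theorem exists_lift [hch : CharP F 2] (hF : Fintype.card F = q ^ 2)
    (y : ↥(GU 3 F q) ⧸ Subgroup.center ↥(GU 3 F q)) (hy : orderOf y = 2) :
    ∃ u : ↥(GU 3 F q), (QuotientGroup.mk u : ↥(GU 3 F q) ⧸ Subgroup.center ↥(GU 3 F q)) = y ∧ u * u = 1 ∧ u ≠ 1 := by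
  have hq := two_le_q hF
  obtain ⟨p, f, hp, hc, hqf, hf⟩ := exists_char hF
  have hp2 : p = 2 := CharP.eq F hc hch
  obtain ⟨m, hm⟩ : ∃ m, q ^ 2 - 1 = 2 * m + 1 := by
    obtain ⟨r, hr⟩ : 2 ∣ q := by
      rw [hqf, hp2]
      exact dvd_pow_self 2 (by omega)
    subst hr
    have hr1 : 1 ≤ r := by omega
    refine ⟨2 * r ^ 2 - 1, ?_⟩
    have h1 : 1 ≤ r ^ 2 := Nat.one_le_pow _ _ hr1
    have h2 : (2 * r) ^ 2 = 4 * r ^ 2 := by ring
    omega
  obtain ⟨u0, hu0⟩ := QuotientGroup.mk_surjective y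
  have hy2 : y ^ 2 = 1 := by rw [← hy]; exact pow_orderOf_eq_one y
  have h1 : (QuotientGroup.mk (u0 ^ (q ^ 2 - 1)) : ↥(GU 3 F q) ⧸ Subgroup.center ↥(GU 3 F q)) = y := by
    rw [QuotientGroup.mk_pow, hu0, hm, pow_succ, pow_mul, hy2, one_pow, one_mul]
  have h2 : (QuotientGroup.mk u0 : ↥(GU 3 F q) ⧸ Subgroup.center ↥(GU 3 F q)) ^ 2 = 1 := by rw [hu0, hy2]
  rw [PGU.mk_pow_eq_one_iff' hF (by norm_num)] at h2
  obtain ⟨c, hc⟩ := h2
  refine ⟨u0 ^ (q ^ 2 - 1), h1, ?_, ?_⟩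
  · have hc0 : c ≠ 0 := by
      rintro rfl
      rw [zero_smul] at hc
      have h3 : ((u0.1 : GL (Fin 3) F) : Matrix (Fin 3) (Fin 3) F).det ^ 2 = 0 := by
        rw [← det_pow, hc]
        exact det_zero
      exact (pow_ne_zero 2 (Matrix.GeneralLinearGroup.det_ne_zero u0.1)) h3
    have hc1 : c ^ (q ^ 2 - 1) = 1 := by
      rw [← hF]; exact FiniteField.pow_card_sub_one_eq_one c hc0
    apply Subtype.ext
    apply Units.ext
    have h4 : (((u0 ^ (q ^ 2 - 1) * u0 ^ (q ^ 2 - 1) : ↥(GU 3 F q)) : GL (Fin 3) F) : Matrix (Fin 3) (Fin 3) F) =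
        ((u0.1 : Matrix (Fin 3) (Fin 3) F) ^ 2) ^ (q ^ 2 - 1) := by
      rw [← pow_add, ← two_mul, pow_mul, SubgroupClass.coe_pow, SubgroupClass.coe_pow, Units.val_pow_eq_pow_val,
        Units.val_pow_eq_pow_val]
    rw [h4, hc, smul_pow, one_pow, hc1, one_smul]
    rfl
  · intro h3
    rw [h3] at h1
    rw [← h1, QuotientGroup.mk_one, orderOf_one] at hy
    omega

/-- the centralizer of an involution of `PGU(3,q)` -/
theorem iso_cent [CharP F 2] (hF : Fintype.card F = q ^ 2)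
    (y : ↥(GU 3 F q) ⧸ Subgroup.center ↥(GU 3 F q)) (hy : orderOf y = 2) :
    Nonempty (Md hF ≃* ↥(Subgroup.centralizer ({y} : Set (↥(GU 3 F q) ⧸ Subgroup.center ↥(GU 3 F q))))) := by
  have hq := two_le_q hF
  have hq0 : q ≠ 0 := by omega
  have h2F : (2 : F) = 0 := CharTwo.two_eq_zero
  obtain ⟨u, huy, hu2, hu1⟩ := exists_lift hF y hy
  obtain ⟨A, M, c, hA, hc0, hcd, hM, huM⟩ := exists_inv_frame hF (u := u.1) u.2
    (by rw [← Subgroup.coe_mul, hu2]; rfl) (fun h => hu1 (Subtype.ext h))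
  have hAi : ∀ w, (A : Matrix (Fin 3) (Fin 3) F) *ᵥ (((A⁻¹ : GL (Fin 3) F) : Matrix (Fin 3) (Fin 3) F) *ᵥ w) = w := by
    intro w
    rw [mulVec_mulVec, ← Units.val_mul, mul_inv_cancel, Units.val_one, one_mulVec]
  have hAi' : ∀ w, ((A⁻¹ : GL (Fin 3) F) : Matrix (Fin 3) (Fin 3) F) *ᵥ ((A : Matrix (Fin 3) (Fin 3) F) *ᵥ w) = w := by
    intro w
    rw [mulVec_mulVec, ← Units.val_mul, inv_mul_cancel, Units.val_one, one_mulVec]
  have hmem : ∀ g : GL (Fin 3) F, (∀ x w : Fin 3 → F, J3 q ((g : Matrix (Fin 3) (Fin 3) F) *ᵥ x)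
      ((g : Matrix (Fin 3) (Fin 3) F) *ᵥ w) = J3 q x w) → A * g * A⁻¹ ∈ GU 3 F q := by
    intro g hg x w
    change hermForm 3 F q (((A * g * A⁻¹ : GL (Fin 3) F) : Matrix (Fin 3) (Fin 3) F) *ᵥ x)
      (((A * g * A⁻¹ : GL (Fin 3) F) : Matrix (Fin 3) (Fin 3) F) *ᵥ w) = hermForm 3 F q x w
    simp only [Units.val_mul, ← mulVec_mulVec]
    rw [hA, hg, ← hA, hAi, hAi]
  let ψ : Md hF →* ↥(GU 3 F q) :=
    { toFun := fun g => ⟨A * g.1 * A⁻¹, hmem g.1 (Md_herm hF g.2)⟩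
      map_one' := by
        apply Subtype.ext
        change A * 1 * A⁻¹ = 1
        group
      map_mul' := fun g h => by
        apply Subtype.ext
        change A * (g.1 * h.1) * A⁻¹ = (A * g.1 * A⁻¹) * (A * h.1 * A⁻¹)
        group }
  have hψ : ∀ g : Md hF, (ψ g).1 = A * g.1 * A⁻¹ := fun g => rfl
  let f : Md hF →* ↥(GU 3 F q) ⧸ Subgroup.center ↥(GU 3 F q) := (QuotientGroup.mk' _).comp ψ
  have hf : ∀ g : Md hF, f g = QuotientGroup.mk (ψ g) := fun g => rfl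
  have hscal : ∀ (g : GL (Fin 3) F) (z : F), ((A * g * A⁻¹ : GL (Fin 3) F) : Matrix (Fin 3) (Fin 3) F) = Matrix.scalar (Fin 3) z →
      (g : Matrix (Fin 3) (Fin 3) F) = Matrix.scalar (Fin 3) z := by
    intro g z h
    have h1 : (g : Matrix (Fin 3) (Fin 3) F) = ((A⁻¹ : GL (Fin 3) F) : Matrix (Fin 3) (Fin 3) F) *
        ((A * g * A⁻¹ : GL (Fin 3) F) : Matrix (Fin 3) (Fin 3) F) * (A : Matrix (Fin 3) (Fin 3) F) := by
      rw [← Units.val_mul, ← Units.val_mul]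
      congr 1
      group
    rw [h1, h, (Matrix.scalar_commute z (fun r => Commute.all _ _)
      ((A⁻¹ : GL (Fin 3) F) : Matrix (Fin 3) (Fin 3) F)).symm.eq, mul_assoc, ← Units.val_mul, inv_mul_cancel,
      Units.val_one, mul_one]
  have hinj : Function.Injective f := by
    rw [← MonoidHom.ker_eq_bot_iff, eq_bot_iff]
    intro g hg
    have h1 : ψ g ∈ Subgroup.center ↥(GU 3 F q) := (QuotientGroup.eq_one_iff _).mp hg
    rw [PGU.center_GU hF (by norm_num)] at h1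
    obtain ⟨z, hz⟩ := h1
    rw [hψ] at hz
    have h2 := hscal _ _ hz
    obtain ⟨μ, a, b, hμ, hcd', hg'⟩ := g.2
    rw [Subgroup.mem_bot]
    apply Subtype.ext
    apply Units.ext
    have h3 : z = 1 := by
      have h4 := h2
      rw [hg'] at h4
      have := congrFun (congrFun h4 0) 0
      simpa [mm] using this.symm
    rw [h2, h3, map_one]
    rfl
  have hrange : f.range = Subgroup.centralizer ({y} : Set (↥(GU 3 F q) ⧸ Subgroup.center ↥(GU 3 F q))) := by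
    apply le_antisymm
    · rintro _ ⟨g, rfl⟩
      rw [Subgroup.mem_centralizer_singleton_iff]
      obtain ⟨μ, a, b, hμ, hcd', hg'⟩ := g.2
      have h1 : g.1 * M = M * g.1 := by
        apply Units.ext
        rw [Units.val_mul, Units.val_mul, hg', hM, mm_mul hF (one_pow _), mm_mul hF hμ]
        congr 1
        · ring
        · ring
        · rw [zero_pow hq0]; ring
      have h2 : ψ g * u = u * ψ g := by
        apply Subtype.ext
        rw [Subgroup.coe_mul, Subgroup.coe_mul, hψ, huM]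
        calc A * g.1 * A⁻¹ * (A * M * A⁻¹) = A * (g.1 * M) * A⁻¹ := by group
          _ = A * M * A⁻¹ * (A * g.1 * A⁻¹) := by rw [h1]; group
      rw [hf, ← huy, ← QuotientGroup.mk_mul, ← QuotientGroup.mk_mul, h2]
    · intro x hx
      rw [Subgroup.mem_centralizer_singleton_iff] at hx
      obtain ⟨g, rfl⟩ := QuotientGroup.mk_surjective x
      rw [← huy, ← QuotientGroup.mk_mul, ← QuotientGroup.mk_mul, QuotientGroup.eq] at hx
      rw [PGU.center_GU hF (by norm_num)] at hx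
      obtain ⟨z, hz⟩ := hx
      -- the commutator is a scalar of order at most two
      have hug : g * u = u * g := by
        have hz1 := (PGU.center_GU hF (by norm_num) ((g * u)⁻¹ * (u * g))).2 ⟨z, hz⟩
        obtain ⟨ζ, hζ⟩ : ∃ ζ, ζ = (g * u)⁻¹ * (u * g) := ⟨_, rfl⟩
        rw [← hζ] at hz1 hz
        have h1 : g⁻¹ * u * g = u * ζ := by
          rw [hζ]
          have : u⁻¹ = u := by rw [inv_eq_iff_mul_eq_one, hu2]
          calc g⁻¹ * u * g = (u * u) * (g⁻¹ * (u * g)) := by rw [hu2, one_mul, mul_assoc]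
            _ = u * (u⁻¹ * g⁻¹ * (u * g)) := by rw [this]; group
            _ = u * ((g * u)⁻¹ * (u * g)) := by rw [_root_.mul_inv_rev]
        have h2 : (u * ζ) * (u * ζ) = 1 := by
          rw [← h1]
          calc g⁻¹ * u * g * (g⁻¹ * u * g) = g⁻¹ * (u * u) * g := by group
            _ = 1 := by rw [hu2]; group
        have h3 : ζ * ζ = 1 := by
          have h4 := (Subgroup.mem_center_iff.1 hz1) u
          calc ζ * ζ = u * u * ζ * ζ := by rw [hu2, one_mul]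
            _ = u * (u * ζ) * ζ := by group
            _ = u * (ζ * u) * ζ := by rw [h4]
            _ = u * ζ * (u * ζ) := by group
            _ = 1 := h2
        have h5 : z * z = 1 := by
          have h6 := congrArg (fun x : ↥(GU 3 F q) => ((x.1 : GL (Fin 3) F) : Matrix (Fin 3) (Fin 3) F) 0 0) h3
          simp only [Subgroup.coe_mul, Units.val_mul, hz] at h6
          simpa using h6
        have h7 : z = 1 := by
          have h8 : (z - 1) ^ 2 = 0 := by linear_combination h5 + (1 - z) * h2F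
          have h9 := pow_eq_zero_iff (two_ne_zero) |>.1 h8
          linear_combination h9
        rw [h7, map_one] at hz
        have h8 : ζ = 1 := Subtype.ext (Units.ext hz)
        rw [h8] at hζ
        exact (inv_mul_eq_one.1 hζ.symm)
      obtain ⟨g', hg'⟩ : ∃ g' : GL (Fin 3) F, g' = A⁻¹ * g.1 * A := ⟨_, rfl⟩
      have hgg' : g.1 = A * g' * A⁻¹ := by rw [hg']; group
      have hgM : g' * M = M * g' := by
        have h1 : g.1 * u.1 = u.1 * g.1 := congrArg Subtype.val hug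
        rw [huM, hgg'] at h1
        have h2 : A * (g' * M) * A⁻¹ = A * (M * g') * A⁻¹ := by
          calc A * (g' * M) * A⁻¹ = A * g' * A⁻¹ * (A * M * A⁻¹) := by group
            _ = A * M * A⁻¹ * (A * g' * A⁻¹) := h1
            _ = A * (M * g') * A⁻¹ := by group
        exact mul_left_cancel (mul_right_cancel h2)
      have hgJ : ∀ x w : Fin 3 → F, J3 q ((g' : Matrix (Fin 3) (Fin 3) F) *ᵥ x)
          ((g' : Matrix (Fin 3) (Fin 3) F) *ᵥ w) = J3 q x w := by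
        intro x w
        have h1 : ∀ x, (A : Matrix (Fin 3) (Fin 3) F) *ᵥ ((g' : Matrix (Fin 3) (Fin 3) F) *ᵥ x) =
            (g.1 : Matrix (Fin 3) (Fin 3) F) *ᵥ ((A : Matrix (Fin 3) (Fin 3) F) *ᵥ x) := by
          intro x
          rw [mulVec_mulVec, mulVec_mulVec, ← Units.val_mul, ← Units.val_mul]
          congr 2
          rw [hgg']; group
        rw [← hA, h1, h1, ← hA]
        exact g.2 _ _
      obtain ⟨w, hw⟩ : ∃ w, w = (g' : Matrix (Fin 3) (Fin 3) F) *ᵥ ![0, 0, 1] := ⟨_, rfl⟩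
      have hge0 : (g' : Matrix (Fin 3) (Fin 3) F) *ᵥ ![1, 0, 0] = w 2 • ![1, 0, 0] := by
        have h1 : (g' : Matrix (Fin 3) (Fin 3) F) *ᵥ ((M : Matrix (Fin 3) (Fin 3) F) *ᵥ ![0, 0, 1]) =
            (M : Matrix (Fin 3) (Fin 3) F) *ᵥ w := by
          rw [hw, mulVec_mulVec, mulVec_mulVec, ← Units.val_mul, ← Units.val_mul, hgM]
        have h2 : (M : Matrix (Fin 3) (Fin 3) F) *ᵥ ![0, 0, 1] = c • ![1, 0, 0] + ![0, 0, 1] := by
          rw [hM, mm_mulVec]
          ext i; fin_cases i <;> simp [hq0]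
        have h3 : (M : Matrix (Fin 3) (Fin 3) F) *ᵥ w = c • (w 2 • ![1, 0, 0]) + w := by
          rw [hM, mm_mulVec]
          ext i; fin_cases i <;> simp [hq0]
          ring
        rw [h2, h3, mulVec_add, mulVec_smul, ← hw] at h1
        exact smul_right_injective _ hc0 (add_right_cancel h1)
      have hnorm : w 2 * w 2 ^ q = 1 := by
        have h1 := hgJ ![1, 0, 0] ![0, 0, 1]
        rw [hge0, ← hw] at h1
        unfold J3 at h1
        simpa [hq0] using h1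
      have hl0 : w 2 ≠ 0 := by
        intro h; rw [h, zero_mul] at hnorm; exact zero_ne_one hnorm
      obtain ⟨D, hD⟩ : ∃ D : GL (Fin 3) F, (D : Matrix (Fin 3) (Fin 3) F) = Matrix.scalar (Fin 3) (w 2) :=
        ⟨Units.map (Matrix.scalar (Fin 3)).toMonoidHom (Units.mk0 _ hl0), rfl⟩
      have hDi : ((D⁻¹ : GL (Fin 3) F) : Matrix (Fin 3) (Fin 3) F) = Matrix.scalar (Fin 3) (w 2)⁻¹ := by
        have h1 : (D : Matrix (Fin 3) (Fin 3) F) * Matrix.scalar (Fin 3) (w 2)⁻¹ = 1 := by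
          rw [hD, ← map_mul, mul_inv_cancel₀ hl0, map_one]
        rw [Matrix.coe_units_inv]
        exact Matrix.inv_eq_right_inv h1
      have hDc : ∀ X : GL (Fin 3) F, D * X = X * D := by
        intro X
        apply Units.ext
        rw [Units.val_mul, Units.val_mul, hD]
        exact (Matrix.scalar_commute (w 2) (fun r => Commute.all _ _) _).eq
      have hDv : ∀ x : Fin 3 → F, ((D⁻¹ : GL (Fin 3) F) : Matrix (Fin 3) (Fin 3) F) *ᵥ x = (w 2)⁻¹ • x := by
        intro x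
        rw [hDi, Matrix.scalar_apply, ← Matrix.smul_one_eq_diagonal, smul_mulVec, one_mulVec]
      have hm : D⁻¹ * g' ∈ Md hF := by
        apply mem_Md_of hF
        · intro x w'
          simp only [Units.val_mul, ← mulVec_mulVec]
          rw [hDv, hDv, ← hgJ x w']
          have h1 : (w 2)⁻¹ * (w 2)⁻¹ ^ q = 1 := by
            rw [inv_pow, ← mul_inv, hnorm, inv_one]
          unfold J3
          simp only [Pi.smul_apply, smul_eq_mul, mul_pow]
          linear_combination (norm := (unfold J3; ring1)) (J3 q ((g' : Matrix (Fin 3) (Fin 3) F) *ᵥ x) ((g' : Matrix (Fin 3) (Fin 3) F) *ᵥ w')) * h1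
        · simp only [Units.val_mul, ← mulVec_mulVec]
          rw [hge0, hDv, smul_smul, inv_mul_cancel₀ hl0, one_smul]
      refine ⟨⟨D⁻¹ * g', hm⟩, ?_⟩
      rw [hf, QuotientGroup.eq, PGU.center_GU hF (by norm_num)]
      refine ⟨w 2, ?_⟩
      rw [← hD]
      congr 1
      rw [Subgroup.coe_mul, Subgroup.coe_inv, hψ]
      change (A * (D⁻¹ * g') * A⁻¹)⁻¹ * g.1 = D
      rw [hgg']
      calc (A * (D⁻¹ * g') * A⁻¹)⁻¹ * (A * g' * A⁻¹) = A * (g'⁻¹ * (D * g')) * A⁻¹ := by group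
        _ = D * (A * A⁻¹) := by rw [hDc g', inv_mul_cancel_left, ← hDc A]; group
        _ = D := by group
  exact ⟨(MonoidHom.ofInjective hinj).trans (MulEquiv.subgroupCongr hrange)⟩

end Cfsg.Agent.Lib.PGC84
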