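import Mathlib
import Cfsg.Agent.Lib.PG0
import Cfsg.Agent.Lib.SylU3
import Cfsg.Agent.Lib.PGC84A

set_option autoImplicit false
set_option linter.all false

/-!
# S2212 piece U1b, model half: the stabilizer of an isotropic vector satisfies `CT`
-/

namespace Cfsg.Agent.Lib.PGM9

open Matrix Cfsg.Agent.Lib.ClUnitary Cfsg.Agent.Lib.HermMat Cfsg.Agent.Lib.SylU3

variable {F : Type*} [Field F]

def mm (q : ℕ) (μ a b : F) : Matrix (Fin 3) (Fin 3) F := !![1, a, b; 0, μ, -(μ * a ^ q); 0, 0, 1]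

theorem mm_det (q : ℕ) (μ a b : F) : (mm q μ a b).det = μ := by
  rw [mm, Matrix.det_fin_three]; simp

theorem mm_inj {q : ℕ} {μ a b μ' a' b' : F} (h : mm q μ a b = mm q μ' a' b') : μ = μ' ∧ a = a' ∧ b = b' := by
  unfold mm at h
  exact ⟨congrFun (congrFun h 1) 1, congrFun (congrFun h 0) 1, congrFun (congrFun h 0) 2⟩

theorem mm_one {q : ℕ} (hq : q ≠ 0) : mm q (1 : F) 0 0 = 1 := by
  unfold mm
  rw [zero_pow hq]
  ext i j; fin_cases i <;> fin_cases j <;> simp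

theorem um_eq_mm {q : ℕ} (a b : F) : um a b (-a ^ q) = mm q 1 a b := by
  unfold um mm
  rw [one_mul]

theorem mm_mul [Fintype F] {q : ℕ} (hF : Fintype.card F = q ^ 2) {μ a b μ' a' b' : F} (h' : μ' ^ (q + 1) = 1) :
    mm q μ a b * mm q μ' a' b' = mm q (μ * μ') (a' + a * μ') (b' + a * (-(μ' * a' ^ q)) + b) := by
  have h1 : μ' ^ q * μ' = 1 := by rw [← pow_succ]; exact h'
  unfold mm
  rw [add_pow_q hF, mul_pow]
  ext i j
  fin_cases i <;> fin_cases j <;> simp [Matrix.mul_apply, Fin.sum_univ_three]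
  · linear_combination (μ * a ^ q) * h1

/-- the diagonal elements -/
def df : F →* Matrix (Fin 3) (Fin 3) F where
  toFun x := !![1, 0, 0; 0, x, 0; 0, 0, 1]
  map_one' := by ext i j; fin_cases i <;> fin_cases j <;> simp
  map_mul' x y := by
    ext i j; fin_cases i <;> fin_cases j <;> simp [Matrix.mul_apply, Fin.sum_univ_three]

theorem df_eq {q : ℕ} (hq : q ≠ 0) (x : F) : df x = mm q x 0 0 := by
  unfold mm
  rw [zero_pow hq]
  ext i j; fin_cases i <;> fin_cases j <;> simp [df]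

theorem card_unit_norm [Fintype F] {q : ℕ} (hF : Fintype.card F = q ^ 2) :
    Nat.card (powMonoidHom (q + 1) : Fˣ →* Fˣ).ker = q + 1 := by
  refine Eq.trans ?_ (card_norm_one_units (F := F) hF)
  exact Nat.card_congr (Equiv.subtypeEquivRight fun x => by rw [MonoidHom.mem_ker]; rfl)

theorem ct_of [Fintype F] [CharP F 2] {q : ℕ} (hq : 2 < q) (hF : Fintype.card F = q ^ 2) {M : Subgroup (GL (Fin 3) F)}
    (hM : ∀ g : GL (Fin 3) F, g ∈ M ↔ ∃ μ a b : F, μ ^ (q + 1) = 1 ∧ Cd q a b ∧ (g : Matrix (Fin 3) (Fin 3) F) = mm q μ a b) :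
    PG.CT M q := by
  classical
  have hq0 : q ≠ 0 := by omega
  have h0q : (0 : F) ^ q = 0 := zero_pow hq0
  have hCd0 : ∀ b : F, Cd q 0 b ↔ b + b ^ q = 0 := by
    intro b
    unfold Cd
    rw [zero_mul, add_zero]
  -- determinant
  let D : M →* Fˣ := (Matrix.GeneralLinearGroup.det).comp M.subtype
  have hD : ∀ g : M, ((D g : Fˣ) : F) = ((g : GL (Fin 3) F) : Matrix (Fin 3) (Fin 3) F).det := fun g => rfl
  have hrep : ∀ g : M, ∃ a b : F, ((D g : Fˣ) : F) ^ (q + 1) = 1 ∧ Cd q a b ∧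
      ((g : GL (Fin 3) F) : Matrix (Fin 3) (Fin 3) F) = mm q (D g : F) a b := by
    intro g
    obtain ⟨μ, a, b, h1, h2, h3⟩ := (hM g.1).1 g.2
    have : ((D g : Fˣ) : F) = μ := by rw [hD, h3, mm_det]
    rw [this]
    exact ⟨a, b, h1, h2, h3⟩
  -- the diagonal subgroup
  let R : Subgroup Fˣ := (powMonoidHom (q + 1) : Fˣ →* Fˣ).ker
  have hR : ∀ x : Fˣ, x ∈ R ↔ (x : F) ^ (q + 1) = 1 := by
    intro x
    rw [MonoidHom.mem_ker]
    constructor
    · intro h
      exact congrArg Units.val h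
    · intro h
      exact Units.ext h
  have hδm : ∀ x : R, (Units.map df (x : Fˣ) : GL (Fin 3) F) ∈ M := by
    intro x
    rw [hM]
    refine ⟨(x : Fˣ), 0, 0, (hR _).1 x.2, ?_, df_eq hq0 _⟩
    rw [hCd0, h0q, add_zero]
  let δ : R →* M := ((Units.map df).comp R.subtype).codRestrict M hδm
  have hδD : ∀ x : R, D (δ x) = x := by
    intro x
    apply Units.ext
    rw [hD]
    show (df ((x : Fˣ) : F)).det = _
    rw [df_eq hq0, mm_det]
  have hδi : Function.Injective δ := by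
    intro x y hxy
    apply Subtype.ext
    rw [← hδD, ← hδD, hxy]
  have hRc : Nat.card R = q + 1 := card_unit_norm hF
  have hDr : D.range = R := by
    ext x
    constructor
    · rintro ⟨g, rfl⟩
      obtain ⟨a, b, h1, -, -⟩ := hrep g
      exact (hR _).2 h1
    · intro hx
      exact ⟨δ ⟨x, hx⟩, hδD _⟩
  -- the kernel
  have hker : ∀ g : M, g ∈ D.ker ↔ (g : GL (Fin 3) F) ∈ U3 hF := by
    intro g
    rw [MonoidHom.mem_ker, mem_U3]
    constructor
    · intro h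
      obtain ⟨a, b, -, h2, h3⟩ := hrep g
      refine ⟨a, b, h2, Units.ext ?_⟩
      rw [h3, h, ug_val, um_eq_mm]
      rfl
    · rintro ⟨a, b, h2, h3⟩
      apply Units.ext
      rw [hD, h3, ug_val, um_eq_mm, mm_det]
      rfl
  have hU3M : ∀ g : GL (Fin 3) F, g ∈ U3 hF → g ∈ M := by
    rintro g ⟨a, b, h2, rfl⟩
    rw [hM]
    refine ⟨1, a, b, one_pow _, h2, ?_⟩
    rw [ug_val, um_eq_mm]
  have hkc : Nat.card D.ker = q ^ 3 := by
    rw [← card_U3 hF]
    refine Nat.card_congr ⟨fun g => ⟨g.1.1, (hker g.1).1 g.2⟩, fun g => ⟨⟨g.1, hU3M g.1 g.2⟩, (hker _).2 g.2⟩, fun g => rfl, fun g => rfl⟩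
  have hcard : Nat.card M = q ^ 3 * (q + 1) := by
    rw [← Subgroup.card_mul_index D.ker, hkc, Subgroup.index_ker, hDr, hRc]
  -- characteristic two
  obtain ⟨f, hpf⟩ : ∃ f : ℕ, q = 2 ^ f := by
    obtain ⟨p, f, hp, hcp, hpf, hf⟩ := exists_char hF
    have hp2 : p = 2 := CharP.eq F hcp ‹CharP F 2›
    exact ⟨f, by rw [hpf, hp2]⟩
  have htwo : ∀ x : F, x + x = 0 := fun x => CharTwo.add_self_eq_zero x
  have hneg : ∀ x : F, -x = x := fun x => CharTwo.neg_eq x
  have hone : ∀ (x : F) (k : ℕ), x ^ 2 ^ k = 1 → x = 1 := by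
    intro x k hx
    have h1 : (x - 1) ^ 2 ^ k = 0 := by
      rw [sub_pow_char_pow, one_pow, hx, sub_self]
    have h2 := pow_eq_zero_iff (pow_ne_zero k two_ne_zero) |>.1 h1
    exact sub_eq_zero.1 h2
  -- involutions
  have hinv : ∀ g : M, g * g = 1 → ∃ b : F, b + b ^ q = 0 ∧ ((g : GL (Fin 3) F) : Matrix (Fin 3) (Fin 3) F) = mm q 1 0 b := by
    intro g hg
    obtain ⟨a, b, h1, h2, h3⟩ := hrep g
    have h4 : mm q (D g : F) a b * mm q (D g : F) a b = mm q 1 0 0 := by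
      rw [mm_one hq0, ← h3]
      exact congrArg (fun z : M => ((z : GL (Fin 3) F) : Matrix (Fin 3) (Fin 3) F)) hg
    rw [mm_mul hF h1] at h4
    obtain ⟨e1, e2, e3⟩ := mm_inj h4
    have hD1 : ((D g : Fˣ) : F) = 1 := hone _ 1 (by rw [pow_one, pow_two]; exact e1)
    rw [hD1] at h3 e3
    have e4 : a * a ^ q = 0 := by
      rw [one_mul] at e3
      have : b + a * -a ^ q + b = (b + b) - a * a ^ q := by ring
      rw [this, htwo, zero_sub, neg_eq_zero] at e3
      exact e3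
    have ha : a = 0 := by
      rcases mul_eq_zero.1 e4 with h | h
      · exact h
      · exact pow_eq_zero_iff hq0 |>.1 h
    rw [ha] at h2 h3
    exact ⟨b, (hCd0 b).1 h2, h3⟩
  have hel : ∀ b : F, b + b ^ q = 0 → ug 0 b (-(0 : F) ^ q) ∈ M := fun b hb => hU3M _ ⟨0, b, (hCd0 b).2 hb, rfl⟩
  have helm : ∀ b : F, ((ug 0 b (-(0 : F) ^ q) : GL (Fin 3) F) : Matrix (Fin 3) (Fin 3) F) = mm q 1 0 b := fun b => by
    rw [ug_val, um_eq_mm]
  have hel2 : ∀ (b : F) (hb : b + b ^ q = 0), (⟨_, hel b hb⟩ : M) * ⟨_, hel b hb⟩ = 1 := by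
    intro b hb
    apply Subtype.ext
    apply Units.ext
    show ((ug 0 b (-(0 : F) ^ q) : GL (Fin 3) F) : Matrix (Fin 3) (Fin 3) F) * (ug 0 b (-(0 : F) ^ q) : GL (Fin 3) F) = 1
    rw [helm, mm_mul hF (one_pow _), ← mm_one hq0, h0q]
    congr 1
    · ring
    · ring
    · rw [mul_zero, neg_zero, mul_zero, add_zero, htwo]
  refine ⟨hcard, ?_, ?_, ⟨D.ker, inferInstance, hkc⟩, ⟨δ.range, ?_, ?_⟩, ?_⟩
  · intro x y hx
    obtain ⟨b, hb, hx1⟩ := hinv x hx
    obtain ⟨a', b', h1, h2, h3⟩ := hrep y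
    apply Subtype.ext
    apply Units.ext
    show ((x : GL (Fin 3) F) : Matrix (Fin 3) (Fin 3) F) * ((y : GL (Fin 3) F) : Matrix (Fin 3) (Fin 3) F) =
      ((y : GL (Fin 3) F) : Matrix (Fin 3) (Fin 3) F) * ((x : GL (Fin 3) F) : Matrix (Fin 3) (Fin 3) F)
    rw [hx1, h3, mm_mul hF h1, mm_mul hF (one_pow _), h0q]
    congr 1 <;> ring
  · rw [← card_fiber hF (0 : F) h0q]
    symm
    apply Nat.card_eq_of_bijective (fun b : {b : F // b + b ^ q = 0} => (⟨⟨_, hel b.1 b.2⟩, hel2 b.1 b.2⟩ : {x : M // x * x = 1}))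
    constructor
    · intro b c hbc
      have h1 := congrArg (fun z : {x : M // x * x = 1} => ((z.1 : GL (Fin 3) F) : Matrix (Fin 3) (Fin 3) F)) hbc
      simp only [helm] at h1
      exact Subtype.ext (mm_inj h1).2.2
    · rintro ⟨g, hg⟩
      obtain ⟨b, hb, h1⟩ := hinv g hg
      refine ⟨⟨b, hb⟩, Subtype.ext (Subtype.ext (Units.ext ?_))⟩
      show ((ug 0 b (-(0 : F) ^ q) : GL (Fin 3) F) : Matrix (Fin 3) (Fin 3) F) = _
      rw [helm, h1]
  · haveI : IsCyclic R := inferInstance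
    exact isCyclic_of_surjective δ.rangeRestrict δ.rangeRestrict_surjective
  · rw [← hRc]
    exact (Nat.card_congr (MonoidHom.ofInjective hδi).toEquiv).symm
  · intro a x ha ho hk hax
    obtain ⟨k, hk⟩ := hk
    obtain ⟨a1, b1, h1, h2, h3⟩ := hrep a
    obtain ⟨a2, b2, h1', h2', h3'⟩ := hrep x
    have hx1 : ((D x : Fˣ) : F) = 1 := by
      apply hone _ k
      rw [← Units.val_pow_eq_pow_val, ← map_pow, hk, map_one, Units.val_one]
    have ha1 : ((D a : Fˣ) : F) ≠ 1 := by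
      intro h
      have h4 : a ∈ D.ker := MonoidHom.mem_ker.2 (Units.ext h)
      have h5 : orderOf a ∣ q ^ 3 := by
        rw [← hkc]
        have := orderOf_dvd_natCard (⟨a, h4⟩ : D.ker)
        rwa [Subgroup.orderOf_mk] at this
      rw [hpf, ← pow_mul] at h5
      have h6 : orderOf a = 1 := Nat.Coprime.eq_one_of_dvd ((Nat.coprime_two_right.2 ho).pow_right _) h5
      exact ha (orderOf_eq_one_iff.1 h6)
    have h4 : mm q (D a : F) a1 b1 * mm q (D x : F) a2 b2 = mm q (D x : F) a2 b2 * mm q (D a : F) a1 b1 := by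
      rw [← h3, ← h3']
      exact congrArg (fun z : M => ((z : GL (Fin 3) F) : Matrix (Fin 3) (Fin 3) F)) hax
    rw [mm_mul hF h1', mm_mul hF h1] at h4
    obtain ⟨-, e2, -⟩ := mm_inj h4
    rw [hx1, mul_one] at e2
    have e3 : a2 * ((D a : F) - 1) = 0 := by linear_combination -e2
    have ha2 : a2 = 0 := by
      rcases mul_eq_zero.1 e3 with h | h
      · exact h
      · exact absurd (sub_eq_zero.1 h) ha1
    apply Subtype.ext
    apply Units.ext
    show ((x : GL (Fin 3) F) : Matrix (Fin 3) (Fin 3) F) * ((x : GL (Fin 3) F) : Matrix (Fin 3) (Fin 3) F) = 1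
    rw [h3', hx1, ha2, mm_mul hF (one_pow _), ← mm_one hq0, h0q]
    congr 1
    · ring
    · ring
    · rw [mul_zero, neg_zero, mul_zero, add_zero, htwo]

theorem ct_Md {F : Type*} [Field F] [Fintype F] [CharP F 2] {q : ℕ} (hq : 2 < q) (hF : Fintype.card F = q ^ 2) :
    PG.CT (PGC84.Md hF) q := ct_of hq hF (fun _ => Iff.rfl)

end Cfsg.Agent.Lib.PGM9
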