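import Mathlib
import Cfsg.Agent.Lib.PGC84
import Cfsg.Agent.Lib.PGM9
import Cfsg.Agent.Lib.PG1
import Cfsg.Agent.Lib.H66PGI

/-!
# Characterization of PGU(3,q), q even (S2212): the hypotheses (helper84)
-/

set_option autoImplicit false

namespace Cfsg.Agent.Lib.PGCF84

open Cfsg Cfsg.Agent.Lib.PG

theorem ct_GU {F : Type*} [Field F] [Fintype F] [CharP F 2] {q : ℕ} (hq : 2 < q) (hF : Fintype.card F = q ^ 2)
    (y : ↥(Cfsg.GU 3 F q) ⧸ Subgroup.center ↥(Cfsg.GU 3 F q)) (hy : orderOf y = 2) :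
    CT ↥(Subgroup.centralizer ({y} : Set (↥(Cfsg.GU 3 F q) ⧸ Subgroup.center ↥(Cfsg.GU 3 F q)))) q := by
  obtain ⟨e⟩ := PGC84.iso_cent hF y hy
  exact (PGM9.ct_Md hq hF).congr e

theorem hyp_of {G : Type*} [Group G] [Finite G] {F : Type*} [Field F] [Fintype F] [hch : CharP F 2] (q : ℕ) (hq : 2 < q)
    (hF : Fintype.card F = q ^ 2)
    (heven : Even (Nat.card G)) (hconj : ∀ s t : G, orderOf s = 2 → orderOf t = 2 → IsConj s t)
    (hC : ∀ (x : G) (y : (↥(Cfsg.GU 3 F q) ⧸ Subgroup.center ↥(Cfsg.GU 3 F q))), orderOf x = 2 → orderOf y = 2 →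
      Nonempty (↥(Subgroup.centralizer ({x} : Set G)) ≃* ↥(Subgroup.centralizer ({y} : Set (↥(Cfsg.GU 3 F q) ⧸ Subgroup.center ↥(Cfsg.GU 3 F q))))))
    (hS : ∀ P : Sylow 2 G, ¬ (P : Subgroup G).Normal) : Hyp G q where
  two := by
    obtain ⟨p, f, hp, hc, hqf, hf⟩ := HermMat.exists_char hF
    have hp2 : p = 2 := CharP.eq F hc hch
    subst hp2
    refine ⟨f, ?_, hqf⟩
    by_contra hcon
    have h1 : f = 0 ∨ f = 1 := by omega
    rcases h1 with rfl | rfl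
    · norm_num at hqf; omega
    · norm_num at hqf; omega
  even := heven
  conj := hconj
  ct x hx := by
    obtain ⟨y, hy⟩ := Cfsg.Agent.Lib.H66PG.exists_inv (F := F) hq hF
    obtain ⟨e⟩ := hC x y hx hy
    exact (ct_GU hq hF y hy).congr e.symm
  nn := hS

end Cfsg.Agent.Lib.PGCF84
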