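import Mathlib
import Cfsg.Prelude.Def_SolvableStructure
import Cfsg.Agent.Lib.OrderType

/-!
Supersolvable groups have normal Hall subgroups for the primes `≥ k` (helper66).
-/

set_option autoImplicit false
set_option linter.style.haveILetI false

namespace Cfsg.Agent.Lib.SylowTower

open Cfsg.Agent.Lib.OrderType

universe u

theorem supersolvable_quotient {G : Type u} [Group G] (h : Cfsg.IsSupersolvable G) (Z : Subgroup G) [Z.Normal] :
    Cfsg.IsSupersolvable (G ⧸ Z) := by
  obtain ⟨n, H, h0, h1, hn, hs⟩ := h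
  refine ⟨n, fun i => (H i).map (QuotientGroup.mk' Z), ?_, ?_, ?_, ?_⟩
  · simp [h0]
  · simp only [h1]
    exact Subgroup.map_top_of_surjective _ (QuotientGroup.mk'_surjective Z)
  · intro i
    exact (hn i).map _ (QuotientGroup.mk'_surjective Z)
  · intro i
    obtain ⟨g, hg⟩ := hs i
    refine ⟨QuotientGroup.mk' Z g, ?_⟩
    show (H i.succ).map (QuotientGroup.mk' Z) = (H i.castSucc).map (QuotientGroup.mk' Z) ⊔ _
    rw [hg, Subgroup.map_sup, MonoidHom.map_zpowers]

/-- A nontrivial finite supersolvable group has a normal subgroup of prime order. -/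
theorem exists_normal_prime {G : Type u} [Group G] [Finite G] [Nontrivial G] (h : Cfsg.IsSupersolvable G) :
    ∃ (q : ℕ) (x : G), q.Prime ∧ orderOf x = q ∧ (Subgroup.zpowers x).Normal := by
  obtain ⟨n, H, h0, h1, hn, hs⟩ := h
  have hex : ∃ i : Fin n, H i.castSucc = ⊥ ∧ H i.succ ≠ ⊥ := by
    by_contra hcon
    push Not at hcon
    have : ∀ i : Fin (n+1), H i = ⊥ := by
      intro i
      induction i using Fin.induction with
      | zero => exact h0
      | succ i ih => exact hcon i ih
    have h2 := this (Fin.last n)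
    rw [h1] at h2
    exact absurd h2 (by
      intro h3
      exact (Subgroup.nontrivial_iff_ne_bot (⊤ : Subgroup G)).1 inferInstance h3)
  obtain ⟨i, hi0, hi1⟩ := hex
  obtain ⟨g, hg⟩ := hs i
  rw [hi0, bot_sup_eq] at hg
  have hgn : (Subgroup.zpowers g).Normal := hg ▸ hn i.succ
  have hg1 : orderOf g ≠ 1 := by
    intro h2
    rw [orderOf_eq_one_iff] at h2
    apply hi1
    rw [hg, h2, Subgroup.zpowers_one_eq_bot]
  obtain ⟨q, hq, hqd⟩ := Nat.exists_prime_and_dvd hg1
  refine ⟨q, g ^ (orderOf g / q), hq, orderOf_pow_orderOf_div (orderOf_pos g).ne' hqd, ?_⟩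
  constructor
  intro a ha x
  obtain ⟨j, rfl⟩ := Subgroup.mem_zpowers_iff.1 ha
  have h3 : x * g * x⁻¹ ∈ Subgroup.zpowers g := hgn.conj_mem g (Subgroup.mem_zpowers g) x
  obtain ⟨k, hk⟩ := Subgroup.mem_zpowers_iff.1 h3
  rw [Subgroup.mem_zpowers_iff]
  refine ⟨k * j, ?_⟩
  set e := orderOf g / q
  have e1 : x * (g ^ e) ^ j * x⁻¹ = ((x * g * x⁻¹) ^ e) ^ j := by
    rw [conj_pow, conj_zpow]
  rw [e1, ← hk, ← zpow_natCast (g ^ k) e, ← zpow_mul g k, ← zpow_mul, ← zpow_natCast g e, ← zpow_mul]
  congr 1
  ring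

/-- Lifting a normal Hall subgroup through a normal subgroup of prime order. -/
theorem lift_geHall {G : Type u} [Group G] [Finite G] {k q : ℕ} (hq : q.Prime) (Z : Subgroup G) [Z.Normal]
    (hZ : Nat.card Z = q) {N : Subgroup (G ⧸ Z)} (hN : IsGeHall k N) :
    ∃ L : Subgroup G, IsGeHall k L := by
  classical
  haveI := hN.normal
  set M : Subgroup G := N.comap (QuotientGroup.mk' Z) with hM
  haveI hMn : M.Normal := hN.normal.comap _
  have hZM : Z ≤ M := by
    intro z hz
    rw [hM, Subgroup.mem_comap]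
    have : QuotientGroup.mk' Z z = 1 := (QuotientGroup.eq_one_iff z).2 hz
    rw [this]; exact one_mem _
  have hMidx : M.index = N.index := Subgroup.index_comap_of_surjective N (QuotientGroup.mk'_surjective Z)
  have hcardG : Nat.card G = q * Nat.card (G ⧸ Z) := by
    rw [← hZ, ← Subgroup.index_eq_card, Subgroup.card_mul_index]
  have hMcard : Nat.card M = q * Nat.card N := by
    have h1 := Subgroup.card_mul_index M
    have h2 := Subgroup.card_mul_index N
    have h3 : N.index ≠ 0 := Subgroup.index_ne_zero_of_finite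
    rw [hcardG, ← h2, hMidx] at h1
    have h4 : Nat.card M * N.index = (q * Nat.card N) * N.index := by rw [h1]; ring
    exact Nat.eq_of_mul_eq_mul_right (Nat.pos_of_ne_zero h3) h4
  rcases Nat.lt_or_ge q k with hqk | hqk
  · -- q < k
    set Z' : Subgroup M := Z.subgroupOf M with hZ'
    have hZ'card : Nat.card Z' = q := by
      rw [hZ', ← hZ]
      exact Nat.card_congr (Subgroup.subgroupOfEquivOfLe hZM).toEquiv
    have hZ'idx : Z'.index = Nat.card N := by
      have h1 := Subgroup.card_mul_index Z'
      rw [hZ'card, hMcard] at h1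
      exact Nat.eq_of_mul_eq_mul_left hq.pos h1
    have hcop : (Nat.card Z').Coprime Z'.index := by
      rw [hZ'card, hZ'idx, hq.coprime_iff_not_dvd]
      intro hd
      have := hN.ge q hq hd
      omega
    obtain ⟨L, hL⟩ := Subgroup.exists_right_complement'_of_coprime hcop
    have hLcard : Nat.card L = Nat.card N := by
      have h1 := hL.card_mul
      rw [hZ'card, hMcard] at h1
      exact Nat.eq_of_mul_eq_mul_left hq.pos h1
    have hLidx : L.index = q := by
      have h1 := Subgroup.card_mul_index L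
      rw [hLcard, hMcard, mul_comm q] at h1
      exact Nat.eq_of_mul_eq_mul_left Nat.card_pos h1
    -- elements of M of `≥ k` order centralize Z'
    haveI hcyc : IsCyclic Z' := by
      haveI : Fact q.Prime := ⟨hq⟩
      exact isCyclic_of_prime_card (p := q) hZ'card
    have hcent : ∀ x : M, GeNum k (orderOf x) → ∀ z : M, z ∈ Z' → x * z * x⁻¹ = z := by
      intro x hx z hz
      have h1 : orderOf (MulAut.conjNormal (H := Z') x) ∣ orderOf x := orderOf_map_dvd _ _
      have h2 : orderOf (MulAut.conjNormal (H := Z') x) ∣ q - 1 := by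
        have := orderOf_dvd_natCard (MulAut.conjNormal (H := Z') x)
        rwa [IsCyclic.card_mulAut, hZ'card, Nat.totient_prime hq] at this
      have h3 : (orderOf x).Coprime (q - 1) := by
        apply coprime_of hx
        intro r hr hrd
        have := Nat.le_of_dvd (by have := hq.two_le; omega) hrd
        omega
      have h4 : orderOf (MulAut.conjNormal (H := Z') x) = 1 := Nat.eq_one_of_dvd_coprimes h3 h1 h2
      rw [orderOf_eq_one_iff] at h4
      have h5 : (MulAut.conjNormal (H := Z') x) ⟨z, hz⟩ = ⟨z, hz⟩ := by rw [h4]; rfl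
      have h6 := congrArg Subtype.val h5
      rwa [MulAut.conjNormal_apply] at h6
    have hLge : ∀ x ∈ L, GeNum k (orderOf x) := by
      intro x hx
      apply hN.ge.dvd
      rw [← hLcard]
      have := orderOf_dvd_natCard (⟨x, hx⟩ : L)
      rwa [Subgroup.orderOf_mk] at this
    -- L is normal in M
    have hLn : L.Normal := by
      constructor
      intro n hn g
      obtain ⟨⟨z, l⟩, hzl⟩ := hL.surjective g
      simp only at hzl
      rw [← hzl]
      have h1 : (z : M) * l * n * ((z : M) * l)⁻¹ = z * ((l : M) * n * (l : M)⁻¹) * (z : M)⁻¹ := by group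
      rw [h1]
      have h2 : (l : M) * n * (l : M)⁻¹ ∈ L := L.mul_mem (L.mul_mem l.2 hn) (L.inv_mem l.2)
      have h3 := hcent _ (hLge _ h2) z z.2
      have h4 : (z : M) * ((l : M) * n * (l : M)⁻¹) * (z : M)⁻¹ = (l : M) * n * (l : M)⁻¹ := by
        have h5 : ((l : M) * n * (l : M)⁻¹) * z = z * ((l : M) * n * (l : M)⁻¹) := by
          calc ((l : M) * n * (l : M)⁻¹) * z = (((l : M) * n * (l : M)⁻¹) * z * ((l : M) * n * (l : M)⁻¹)⁻¹) * ((l : M) * n * (l : M)⁻¹) := by group
            _ = z * ((l : M) * n * (l : M)⁻¹) := by rw [h3]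
        rw [← h5]; group
      rw [h4]; exact h2
    have hmem : ∀ x : M, x ∈ L ↔ GeNum k (orderOf x) := by
      intro x
      refine ⟨hLge x, fun hx => mem_of_coprime_index ?_⟩
      rw [hLidx]
      apply coprime_of hx
      intro r hr hrd
      rw [(Nat.prime_dvd_prime_iff_eq hr hq).1 hrd]; exact hqk
    refine ⟨L.map M.subtype, ⟨?_, ?_, ?_⟩⟩
    · constructor
      rintro _ ⟨x, hx, rfl⟩ g
      refine ⟨⟨g * x * g⁻¹, hMn.conj_mem x x.2 g⟩, ?_, rfl⟩
      show _ ∈ L
      have hx' : x ∈ L := hx
      rw [hmem] at hx' ⊢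
      have h1 : orderOf (⟨g * x * g⁻¹, hMn.conj_mem x x.2 g⟩ : M) = orderOf x := by
        have h2 := orderOf_injective (MulAut.conjNormal (H := M) g).toMonoidHom (MulAut.conjNormal (H := M) g).injective x
        rw [← h2]
        congr 1
      rw [h1]; exact hx'
    · rw [Subgroup.card_map_of_injective (Subgroup.subtype_injective M), hLcard]
      exact hN.ge
    · intro r hr hrd
      have h1 : (L.map M.subtype).index = L.index * M.index := Subgroup.index_map_subtype L
      rw [h1, hLidx, hMidx] at hrd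
      rcases (Nat.Prime.dvd_mul hr).1 hrd with h | h
      · rw [(Nat.prime_dvd_prime_iff_eq hr hq).1 h]; exact hqk
      · exact hN.lt r hr h
  · refine ⟨M, ⟨hMn, ?_, ?_⟩⟩
    · rw [hMcard]
      apply GeNum.mul _ hN.ge
      intro r hr hrd
      rw [(Nat.prime_dvd_prime_iff_eq hr hq).1 hrd]; exact hqk
    · rw [hMidx]; exact hN.lt

theorem supersolvable_geHall (k : ℕ) : ∀ (n : ℕ) (G : Type u) [Group G] [Finite G], Nat.card G = n →
    Cfsg.IsSupersolvable G → ∃ N : Subgroup G, IsGeHall k N := by
  intro n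
  induction n using Nat.strong_induction_on with
  | _ n ih =>
    intro G _ _ hn h
    rcases subsingleton_or_nontrivial G with hs | hnt
    · refine ⟨⊥, ⟨inferInstance, ?_, ?_⟩⟩
      · intro q hq hd
        simp only [Subgroup.card_bot, Nat.dvd_one] at hd
        exact absurd hd hq.one_lt.ne'
      · intro q hq hd
        rw [Subgroup.index_bot, Nat.card_of_subsingleton (1 : G), Nat.dvd_one] at hd
        exact absurd hd hq.one_lt.ne'
    · obtain ⟨q, x, hq, hx, hxn⟩ := exists_normal_prime h
      have hZ : Nat.card (Subgroup.zpowers x) = q := by rw [Nat.card_zpowers, hx]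
      have hlt : Nat.card (G ⧸ Subgroup.zpowers x) < n := by
        have h1 := Subgroup.card_mul_index (Subgroup.zpowers x)
        rw [Subgroup.index_eq_card, hZ, hn] at h1
        have h2 : 0 < Nat.card (G ⧸ Subgroup.zpowers x) := Nat.card_pos
        have := hq.two_le
        nlinarith
      obtain ⟨N, hN⟩ := ih _ hlt (G ⧸ Subgroup.zpowers x) rfl (supersolvable_quotient h _)
      exact lift_geHall hq _ hZ hN

end Cfsg.Agent.Lib.SylowTower
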