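import Cfsg.Agent.Lib.MaxPrimeIndex
import Cfsg.Agent.Lib.SylowTower
import Cfsg.Agent.Lib.PLength
import Cfsg.Agent.Lib.PConstraint
import Cfsg.Agent.Lib.RelSylow
import Cfsg.Prelude.Def_Local

/-!
# Groups whose maximal subgroups are `p`-nilpotent or of prime index (helper1)
-/

set_option autoImplicit false
set_option linter.all false

namespace Cfsg.Agent.Lib.PNilMax

open Cfsg Subgroup

universe u

theorem pow_of_dvd {p k n : ℕ} (hp : p.Prime) (h : n ∣ p ^ k) : ∃ j, n = p ^ j := by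
  obtain ⟨j, _, hj⟩ := (Nat.dvd_prime_pow hp).1 h
  exact ⟨j, hj⟩

theorem subgroupOf_map {G : Type*} [Group G] {M : Subgroup G} (K : Subgroup ↥M) :
    (K.map M.subtype).subgroupOf M = K := by
  rw [subgroupOf, comap_map_eq_self_of_injective M.subtype_injective]

theorem chain_of_maximal {G : Type u} [Group G] [Finite G] {p : ℕ} [hp : Fact p.Prime]
    (hG : IsPSolvable p G) (M : Subgroup G) (hM : IsCoatom M) (K : Subgroup ↥M) [hKn : K.Normal]
    (hK : ¬ p ∣ Nat.card K) {k : ℕ} (hki : K.index = p ^ k) :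
    ∃ A B C : Subgroup G, A.Normal ∧ B.Normal ∧ C.Normal ∧ A ≤ B ∧ B ≤ C ∧ ¬ p ∣ Nat.card A ∧
      (∃ k : ℕ, A.relIndex B = p ^ k) ∧ ¬ p ∣ B.relIndex C ∧ ∃ k : ℕ, C.index = p ^ k := by
  set Y := M.normalCore with hY
  have hYM : Y ≤ M := M.normalCore_le
  set K' := K.map M.subtype with hK'
  have hK'M : K' ≤ M := map_subtype_le K
  have hK's : K'.subgroupOf M = K := subgroupOf_map K
  have hK'i : K'.relIndex M = p ^ k := by
    rw [← hki, relIndex, hK's]
  have hK'c : Nat.card K' = Nat.card K := card_map_of_injective M.subtype_injective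
  have hMK' : M ≤ normalizer (K' : Set G) := by
    rw [← normal_subgroupOf_iff_le_normalizer hK'M, hK's]
    exact hKn
  -- A
  set A := (pPrimeCore p ↥Y).map Y.subtype with hA
  haveI hAn : A.Normal := inferInstance
  have hAY : A ≤ Y := map_subtype_le _
  have hAc : ¬ p ∣ Nat.card A := by
    rw [hA, card_map_of_injective Y.subtype_injective]
    exact Cfsg.Agent.Lib.PConstraint.not_dvd_card_pPrimeCore
  have hYK : K' ⊓ Y ≤ A := by
    have h1 : (K'.subgroupOf Y).Normal :=
      ⟨fun n hn g => by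
        rw [mem_subgroupOf] at hn ⊢
        exact (mem_normalizer_iff.1 (hMK' (hYM g.2)) _).1 hn⟩
    have h2 : K'.subgroupOf Y ≤ pPrimeCore p ↥Y := by
      apply le_sSup
      refine ⟨h1, ?_⟩
      have h3 : Nat.card (K'.subgroupOf Y) ∣ Nat.card K' := by
        have := card_dvd_of_injective (inclusion (inf_le_left : K' ⊓ Y ≤ K')) (inclusion_injective _)
        rwa [← subgroupOf_map_subtype, card_map_of_injective Y.subtype_injective] at this
      rw [Nat.coprime_comm, hp.out.coprime_iff_not_dvd]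
      intro h4
      apply hK
      rw [← hK'c]
      exact h4.trans h3
    rw [← subgroupOf_map_subtype]
    exact map_mono h2
  have hAi : ∃ j, A.relIndex Y = p ^ j := by
    apply pow_of_dvd hp.out (k := k)
    have h1 : A.relIndex Y ∣ (K' ⊓ Y).relIndex Y := relIndex_dvd_of_le_left _ hYK
    rw [inf_relIndex_right] at h1
    refine h1.trans ?_
    rw [← hK'i]
    haveI : (K'.subgroupOf M).Normal := by rw [hK's]; exact hKn
    have h2 : (K'.subgroupOf M).relIndex (Y.subgroupOf M) ∣ (K'.subgroupOf M).index :=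
      relIndex_dvd_index_of_normal _ _
    rw [relIndex_subgroupOf hYM] at h2
    exact h2
  -- the term N
  obtain ⟨n, H, h0, hn, hmono, hnorm, hfac⟩ := hG
  have hex : ∃ i : Fin n, H i.castSucc ≤ Y ∧ ¬ H i.succ ≤ Y := by
    by_contra hno
    push Not at hno
    have h1 : ∀ i : Fin (n + 1), H i ≤ Y := by
      intro i
      induction i using Fin.induction with
      | zero => rw [h0]; exact bot_le
      | succ i ih => exact hno i ih
    have h2 := h1 (Fin.last n)
    rw [hn] at h2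
    exact hM.1 (top_le_iff.1 (h2.trans hYM))
  obtain ⟨i, hi1, hi2⟩ := hex
  set N := Y ⊔ H i.succ with hN
  haveI := hnorm i.succ
  haveI hNn : N.Normal := inferInstance
  have hYN : Y.relIndex N ∣ (H i.castSucc).relIndex (H i.succ) := by
    rw [hN, relIndex_sup_left]
    exact relIndex_dvd_of_le_left _ hi1
  have hNM : N ⊔ M = ⊤ := by
    apply hM.2
    refine lt_of_le_of_ne le_sup_right fun h => hi2 ?_
    have h1 : H i.succ ≤ M := by
      rw [h]
      exact le_sup_right.trans le_sup_left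
    exact normal_le_normalCore.2 h1
  set C := N ⊔ K' with hC
  have hCn : C.Normal := by
    rw [← normalizer_eq_top_iff, ← top_le_iff, ← hNM]
    refine sup_le (le_sup_left.trans le_normalizer) ?_
    intro m hm
    rw [RelSylow.mem_normalizer_iff_map, hC, Subgroup.map_sup,
      RelSylow.conj_eq_of_mem_normalizer (le_normalizer_of_normal (mem_top m)),
      RelSylow.conj_eq_of_mem_normalizer (hMK' hm)]
  have hNC : ¬ p ∣ N.relIndex C := by
    rw [hC, relIndex_sup_left]
    intro h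
    apply hK
    rw [← hK'c]
    exact h.trans (relIndex_dvd_card _ _)
  have hCi : ∃ j, C.index = p ^ j := by
    apply pow_of_dvd hp.out (k := k)
    rw [← hK'i]
    have h1 : C ⊔ M = ⊤ := by
      rw [← top_le_iff, ← hNM]
      exact sup_le_sup_right le_sup_left _
    have h2 : C.index = C.relIndex M := by
      rw [← relIndex_top_right, ← h1, relIndex_sup_left]
    rw [h2]
    exact relIndex_dvd_of_le_left _ le_sup_right
  rcases hfac i with ⟨m, hm⟩ | hm
  · refine ⟨A, N, C, hAn, hNn, hCn, hAY.trans le_sup_left, le_sup_left, hAc, ?_, hNC, hCi⟩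
    obtain ⟨a, ha⟩ := hAi
    rw [hm] at hYN
    obtain ⟨b, hb⟩ := pow_of_dvd hp.out hYN
    refine ⟨a + b, ?_⟩
    rw [← relIndex_mul_relIndex A Y N hAY le_sup_left, ha, hb, pow_add]
  · refine ⟨A, Y, C, hAn, inferInstance, hCn, hAY, le_sup_left.trans le_sup_left, hAc, hAi, ?_, hCi⟩
    rw [← relIndex_mul_relIndex Y N C le_sup_left le_sup_left, hp.out.dvd_mul]
    rintro (h | h)
    · have h1 := h.trans hYN
      rw [Nat.coprime_comm, hp.out.coprime_iff_not_dvd] at hm
      exact hm h1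
    · exact hNC h

theorem chain_two {G : Type u} [Group G] [Finite G] (hG : Group.IsSolvable G)
    (hmax : ∀ M : Subgroup G, IsCoatom M → (∃ K : Subgroup ↥M, K.Normal ∧ ¬ 2 ∣ Nat.card K ∧
      ∃ k : ℕ, K.index = 2 ^ k) ∨ (M.index).Prime) :
    ∃ A B C : Subgroup G, A.Normal ∧ B.Normal ∧ C.Normal ∧ A ≤ B ∧ B ≤ C ∧ Odd (Nat.card A) ∧
      (∃ k : ℕ, A.relIndex B = 2 ^ k) ∧ Odd (B.relIndex C) ∧ ∃ k : ℕ, C.index = 2 ^ k := by
  haveI : Fact (Nat.Prime 2) := ⟨Nat.prime_two⟩
  by_cases h : ∀ M : Subgroup G, IsCoatom M → M.index.Prime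
  · have hs := MaxPrimeIndex.isSupersolvable h
    obtain ⟨N, hN⟩ := SylowTower.supersolvable_geHall 3 _ G rfl hs
    have h2 : ¬ 2 ∣ Nat.card N := fun hd => by
      have := hN.ge 2 Nat.prime_two hd
      omega
    have hodd : Odd (Nat.card N) := by
      rwa [← Nat.not_even_iff_odd, even_iff_two_dvd]
    refine ⟨N, N, N, hN.normal, hN.normal, hN.normal, le_rfl, le_rfl, hodd, ⟨0, by simp⟩, by simp, ?_⟩
    refine ⟨_, Nat.eq_prime_pow_of_unique_prime_dvd (p := 2) N.index_ne_zero_of_finite ?_⟩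
    intro d hd hdvd
    have := hN.lt d hd hdvd
    have := hd.two_le
    omega
  · push Not at h
    obtain ⟨M, hM, hMi⟩ := h
    obtain ⟨K, hKn, hK, k, hk⟩ := (hmax M hM).resolve_right hMi
    obtain ⟨A, B, C, h1, h2, h3, h4, h5, h6, h7, h8, h9⟩ :=
      chain_of_maximal PLength.isPSolvable_of_isSolvable M hM K hK hk
    refine ⟨A, B, C, h1, h2, h3, h4, h5, ?_, h7, ?_, h9⟩
    · rwa [← Nat.not_even_iff_odd, even_iff_two_dvd]
    · rwa [← Nat.not_even_iff_odd, even_iff_two_dvd]

theorem chain_odd {G : Type u} [Group G] [Finite G] {p : ℕ} [hp : Fact p.Prime]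
    (hG : IsPSolvable p G)
    (hmax : ∀ M : Subgroup G, IsCoatom M → (∃ K : Subgroup ↥M, K.Normal ∧ ¬ p ∣ Nat.card K ∧
      ∃ k : ℕ, K.index = p ^ k) ∨ (M.index).Prime) :
    ∃ A B C D : Subgroup G, A.Normal ∧ B.Normal ∧ C.Normal ∧ D.Normal ∧ A ≤ B ∧ B ≤ C ∧ C ≤ D ∧ ¬ p ∣ Nat.card A ∧
      (∃ k : ℕ, A.relIndex B = p ^ k) ∧ ¬ p ∣ B.relIndex C ∧ (∃ k : ℕ, C.relIndex D = p ^ k) ∧ ¬ p ∣ D.index := by
  by_cases h : ∀ M : Subgroup G, IsCoatom M → M.index.Prime
  · have hs := MaxPrimeIndex.isSupersolvable h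
    obtain ⟨N, hN⟩ := SylowTower.supersolvable_geHall (p + 1) _ G rfl hs
    obtain ⟨M, hM⟩ := SylowTower.supersolvable_geHall p _ G rfl hs
    have hNM : N ≤ M := by
      intro g hg
      rw [hM.mem_iff]
      rw [hN.mem_iff] at hg
      intro q hq hd
      have := hg q hq hd
      omega
    refine ⟨N, M, M, M, hN.normal, hM.normal, hM.normal, hM.normal, hNM, le_rfl, le_rfl, ?_, ?_, ?_,
      ⟨0, by simp⟩, ?_⟩
    · intro hd
      have := hN.ge p hp.out hd
      omega
    · refine ⟨_, Nat.eq_prime_pow_of_unique_prime_dvd (p := p) ?_ ?_⟩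
      · rw [relIndex]; exact Subgroup.index_ne_zero_of_finite
      · intro d hd hdvd
        haveI := hN.normal
        have h1 := hN.lt d hd (hdvd.trans (relIndex_dvd_index_of_normal N M))
        have h2 := hM.ge d hd (hdvd.trans (relIndex_dvd_card N M))
        omega
    · simp [hp.out.one_lt.ne']
    · intro hd
      have := hM.lt p hp.out hd
      omega
  · push Not at h
    obtain ⟨M, hM, hMi⟩ := h
    obtain ⟨K, hKn, hK, k, hk⟩ := (hmax M hM).resolve_right hMi
    obtain ⟨A, B, C, h1, h2, h3, h4, h5, h6, h7, h8, j, h9⟩ :=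
      chain_of_maximal hG M hM K hK hk
    exact ⟨A, B, C, ⊤, h1, h2, h3, inferInstance, h4, h5, le_top, h6, h7, h8, ⟨j, by rw [relIndex_top_right, h9]⟩,
      by simp [hp.out.one_lt.ne']⟩

end Cfsg.Agent.Lib.PNilMax
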