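import Mathlib
import Cfsg.Agent.Lib.PatGen4
import Cfsg.Agent.Lib.FlagSylow
import Cfsg.Agent.Lib.PGroupOmega
import Cfsg.Agent.Lib.PGroupRank
import Cfsg.Agent.Lib.PCoreTools
import Cfsg.Prelude.Def_CaseTheorems

/-!
Chief factors inside `p`-groups of rank at most two, `p` odd (helper33).
-/

set_option autoImplicit false

namespace Cfsg.Agent.Lib.PRank2

open Subgroup Cfsg
open Cfsg.Agent.Lib.PatGen Cfsg.Agent.Lib.PGroupRank
open scoped commutatorElement

variable {G : Type*} [Group G] [Finite G] {p : ℕ} [hp : Fact p.Prime]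

theorem frattini_le_of_chief {H K : Subgroup G} [H.Normal] [K.Normal] (hH : IsPGroup p H) (hKH : K < H)
    (hchief : ∀ L : Subgroup G, L.Normal → K ≤ L → L ≤ H → L = K ∨ L = H) :
    (frattini H).map H.subtype ≤ K := by
  set F := (frattini H).map H.subtype with hF
  have hFn : F.Normal := by
    rw [← normalizer_eq_top_iff, eq_top_iff]
    have h1 := PCoreTools.normalizer_le_of_characteristic (H := H) (K := frattini H) inferInstance
    rw [normalizer_eq_top_iff.mpr (inferInstance : H.Normal)] at h1
    exact h1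
  have hFH : F ≤ H := map_subtype_le _
  rcases hchief (F ⊔ K) inferInstance le_sup_right (sup_le hFH hKH.le) with h | h
  · rw [← h]; exact le_sup_left
  · exfalso
    have h1 : K.subgroupOf H ⊔ frattini H = ⊤ := by
      apply map_injective H.subtype_injective
      rw [Subgroup.map_sup, subgroupOf_map_subtype, inf_eq_left.mpr hKH.le, ← MonoidHom.range_eq_map, range_subtype, sup_comm]
      exact h
    have h2 := frattini_nongenerating h1
    rw [subgroupOf_eq_top] at h2
    exact absurd (le_antisymm hKH.le h2) hKH.ne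

theorem relIndex_le_of_gen {H K C : Subgroup G} [H.Normal] [K.Normal] (hH : IsPGroup p H) (hKH : K < H)
    (hchief : ∀ L : Subgroup G, L.Normal → K ≤ L → L ≤ H → L = K ∨ L = H) (hCH : C ≤ H)
    (hCK : C ⊔ K = H) {m : ℕ} (hS : ∃ S : Finset C, S.card ≤ m ∧ closure (S : Set C) = ⊤) :
    K.relIndex H ≤ p ^ m := by
  classical
  have hF := frattini_le_of_chief hH hKH hchief
  obtain ⟨S, hS, hS'⟩ := hS
  let φ : C →* (H ⧸ K.subgroupOf H) := (QuotientGroup.mk' (K.subgroupOf H)).comp (inclusion hCH)
  have hcomm : ∀ x y : H ⧸ K.subgroupOf H, x * y = y * x := by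
    intro x y
    induction x using QuotientGroup.induction_on with
    | _ x =>
      induction y using QuotientGroup.induction_on with
      | _ y =>
        rw [← QuotientGroup.mk_mul, ← QuotientGroup.mk_mul, QuotientGroup.eq]
        have h1 : (x * y)⁻¹ * (y * x) ∈ frattini H := by
          apply H70Frattini.commutator_le_frattini hH
          have : (x * y)⁻¹ * (y * x) = ⁅y⁻¹, x⁻¹⁆ := by rw [commutatorElement_def]; group
          rw [this]
          exact commutator_mem_commutator (mem_top _) (mem_top _)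
        exact mem_subgroupOf.mpr (hF ⟨_, h1, rfl⟩)
  have hpow : ∀ x : H ⧸ K.subgroupOf H, x ^ p = 1 := by
    intro x
    induction x using QuotientGroup.induction_on with
    | _ x =>
      rw [← QuotientGroup.mk_pow, QuotientGroup.eq_one_iff]
      exact mem_subgroupOf.mpr (hF ⟨_, H70Frattini.pow_mem_frattini hH x, rfl⟩)
  have hsurj : Function.Surjective φ := by
    intro x
    induction x using QuotientGroup.induction_on with
    | _ x =>
      have hx : (x : G) ∈ C ⊔ K := by rw [hCK]; exact x.2
      rw [Subgroup.mem_sup_of_normal_right] at hx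
      obtain ⟨c, hc, k, hk, hck⟩ := hx
      refine ⟨⟨c, hc⟩, ?_⟩
      show QuotientGroup.mk' (K.subgroupOf H) (inclusion hCH ⟨c, hc⟩) = _
      rw [QuotientGroup.mk'_apply, QuotientGroup.eq, mem_subgroupOf]
      show (c⁻¹ * (x : G)) ∈ K
      rw [← hck]
      simpa using hk
  have h1 : closure ((S.image φ : Finset (H ⧸ K.subgroupOf H)) : Set (H ⧸ K.subgroupOf H)) = ⊤ := by
    rw [Finset.coe_image, ← MonoidHom.map_closure, hS', ← MonoidHom.range_eq_map,
      MonoidHom.range_eq_top.mpr hsurj]
  have h2 := card_closure_le (p := p) (S.image φ) (fun x _ y _ => hcomm x y) (fun x _ => hpow x)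
  rw [h1, card_top] at h2
  have h3 : K.relIndex H = Nat.card (H ⧸ K.subgroupOf H) := rfl
  rw [h3]
  exact h2.trans (Nat.pow_le_pow_right hp.out.pos (Finset.card_image_le.trans hS))

theorem relIndex_centralizer_le {H A : Subgroup G} (hH : IsPGroup p H) {a : G} (ha1 : a ≠ 1)
    (hA : ∀ h ∈ H, h * a * h⁻¹ ∈ A) {m : ℕ} (hc : Nat.card A ≤ p ^ (m + 1)) :
    (centralizer ({a} : Set G)).relIndex H ≤ p ^ m := by
  classical
  obtain ⟨n, hn⟩ := IsPGroup.iff_card.mp hH
  have h1 : (centralizer ({a} : Set G)).relIndex H ∣ p ^ n := by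
    rw [← hn]; exact relIndex_dvd_card _ _
  obtain ⟨k, -, hk⟩ := (Nat.dvd_prime_pow hp.out).mp h1
  have h2 : (centralizer ({a} : Set G)).relIndex H < Nat.card A := by
    let f : (H ⧸ (centralizer ({a} : Set G)).subgroupOf H) → {x : A // x ≠ 1} := fun q =>
      ⟨⟨(q.out : G) * a * (q.out : G)⁻¹, hA _ q.out.2⟩, by
        intro h
        have h3 : (q.out : G) * a * (q.out : G)⁻¹ = 1 := congrArg Subtype.val h
        exact ha1 (conj_eq_one_iff.mp h3)⟩
    have hf : Function.Injective f := by
      intro q r hqr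
      have h3 : (q.out : G) * a * (q.out : G)⁻¹ = (r.out : G) * a * (r.out : G)⁻¹ :=
        congrArg (fun x => ((x : A) : G)) (congrArg Subtype.val hqr)
      rw [← QuotientGroup.out_eq' q, ← QuotientGroup.out_eq' r, QuotientGroup.eq, mem_subgroupOf,
        mem_centralizer_singleton_iff]
      show ((q.out : G)⁻¹ * (r.out : G)) * a = a * ((q.out : G)⁻¹ * (r.out : G))
      calc ((q.out : G)⁻¹ * (r.out : G)) * a
          = (q.out : G)⁻¹ * ((r.out : G) * a * (r.out : G)⁻¹) * (r.out : G) := by group
        _ = (q.out : G)⁻¹ * ((q.out : G) * a * (q.out : G)⁻¹) * (r.out : G) := by rw [h3]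
        _ = a * ((q.out : G)⁻¹ * (r.out : G)) := by group
    have h4 := Nat.card_le_card_of_injective f hf
    have h5 : Nat.card {x : A // x ≠ 1} < Nat.card A := by
      apply Finite.card_subtype_lt (x := (1 : A))
      simp
    exact lt_of_le_of_lt h4 h5
  rw [hk] at h2 ⊢
  have h3 := lt_of_lt_of_le h2 hc
  have h4 := (Nat.pow_lt_pow_iff_right hp.out.one_lt).mp h3
  exact Nat.pow_le_pow_right hp.out.pos (by omega)

theorem relIndex_centralizer_le_of_card {H A : Subgroup G} (hH : IsPGroup p H) (hAH : A ≤ H)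
    (hn : H ≤ normalizer (A : Set G)) (hAc : IsMulCommutative A) (hc : Nat.card A ≤ p ^ 2) :
    (centralizer (A : Set G)).relIndex H ≤ p := by
  by_cases hcen : A ≤ centralizer (H : Set G)
  · have : H ≤ centralizer (A : Set G) := le_centralizer_iff.mp hcen
    rw [relIndex_eq_one.mpr this]
    exact hp.out.one_lt.le
  obtain ⟨a, haA, haH⟩ := SetLike.not_le_iff_exists.mp hcen
  have hA1 : A ≠ ⊥ := by
    rintro rfl
    rw [mem_bot] at haA
    subst haA
    exact haH (one_mem _)
  obtain ⟨z, hzA, hz1, hzH⟩ := FlagSylow.exists_central hH hAH hA1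
    (fun u hu t ht => (mem_normalizer_iff.mp (hn hu) t).mp ht)
  have hAp : IsPGroup p A := hH.to_le hAH
  -- A = ⟨z, a⟩
  have hle : zpowers z ⊔ zpowers a ≤ A := by
    rw [sup_le_iff, zpowers_le, zpowers_le]; exact ⟨hzA, haA⟩
  have hz : z ∈ centralizer (H : Set G) := by
    rw [mem_centralizer_iff]
    intro u hu
    exact hzH u hu
  have hgen : zpowers z ⊔ zpowers a = A := by
    apply eq_of_le_of_card_ge hle
    obtain ⟨n, hn'⟩ := IsPGroup.iff_card.mp (hAp.to_le hle)
    obtain ⟨k, hk⟩ := IsPGroup.iff_card.mp (hAp.to_le ((zpowers_le.mpr hzA)))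
    have h1 : zpowers z < zpowers z ⊔ zpowers a := by
      refine lt_of_le_of_ne le_sup_left fun h => ?_
      apply haH
      have h2 : a ∈ zpowers z := by rw [h]; exact mem_sup_right (mem_zpowers a)
      exact (zpowers_le.mpr hz) h2
    have h2 : Nat.card (zpowers z) < Nat.card (zpowers z ⊔ zpowers a : Subgroup G) := by
      have := Set.ncard_lt_ncard (SetLike.coe_ssubset_coe.mpr h1)
      exact this
    have h3 : k ≠ 0 := by
      rintro rfl
      rw [pow_zero, Nat.card_zpowers, orderOf_eq_one_iff] at hk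
      exact hz1 hk
    rw [hn', hk] at h2
    have h4 := (Nat.pow_lt_pow_iff_right hp.out.one_lt).mp h2
    rw [hn']
    exact hc.trans (Nat.pow_le_pow_right hp.out.pos (by omega))
  have h1 : centralizer (A : Set G) ⊓ H = centralizer ({a} : Set G) ⊓ H := by
    apply le_antisymm
    · exact inf_le_inf_right _ (centralizer_le (Set.singleton_subset_iff.mpr haA))
    · rintro h ⟨h1, h2⟩
      refine ⟨?_, h2⟩
      have h3 : A ≤ centralizer ({h} : Set G) := by
        rw [← hgen, sup_le_iff, zpowers_le, zpowers_le, mem_centralizer_singleton_iff,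
          mem_centralizer_singleton_iff]
        exact ⟨(hzH h h2).symm, (mem_centralizer_singleton_iff.mp h1).symm⟩
      show h ∈ centralizer (A : Set G)
      rw [mem_centralizer_iff]
      intro b hb
      exact mem_centralizer_singleton_iff.mp (h3 hb)
  rw [← inf_relIndex_right, h1, inf_relIndex_right]
  have ha1 : a ≠ 1 := fun h => haH (h ▸ one_mem _)
  have := relIndex_centralizer_le (m := 1) hH ha1
    (fun h hh => (mem_normalizer_iff.mp (hn hh) a).mp haA) hc
  rwa [pow_one] at this

/-- adjoining a commuting element of order `p` -/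
theorem elab_sup {A : Subgroup G} (hAc : IsMulCommutative A) (hAp : ∀ x ∈ A, x ^ p = 1) {x : G}
    (hx : x ∈ centralizer (A : Set G)) (hxp : x ^ p = 1) :
    IsMulCommutative (A ⊔ zpowers x : Subgroup G) ∧ ∀ y ∈ A ⊔ zpowers x, y ^ p = 1 := by
  have hcomm : ∀ a ∈ A, ∀ z ∈ zpowers x, Commute a z := by
    intro a ha z hz
    obtain ⟨k, rfl⟩ := mem_zpowers_iff.mp hz
    have : Commute a x := mem_centralizer_iff.mp hx a ha
    exact this.zpow_right k
  have hn : zpowers x ≤ normalizer (A : Set G) := by
    rw [zpowers_le]; exact centralizer_le_normalizer _ hx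
  constructor
  · rw [← le_centralizer_iff_isMulCommutative]
    rw [← le_centralizer_iff_isMulCommutative] at hAc
    apply sup_le
    · rw [le_centralizer_iff]
      apply sup_le hAc
      rw [zpowers_le]; exact hx
    · rw [zpowers_le, mem_centralizer_iff]
      intro y hy
      have : A ⊔ zpowers x ≤ centralizer ({x} : Set G) := by
        apply sup_le
        · intro a ha
          rw [mem_centralizer_singleton_iff]
          exact mem_centralizer_iff.mp hx a ha
        · rw [zpowers_le, mem_centralizer_singleton_iff]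
      exact mem_centralizer_singleton_iff.mp (this hy)
  · intro y hy
    rw [SubgroupTools.mem_sup_of_le_normalizer hn] at hy
    obtain ⟨a, ha, z, hz, rfl⟩ := hy
    rw [(hcomm a ha z hz).mul_pow, hAp a ha, one_mul]
    obtain ⟨k, rfl⟩ := mem_zpowers_iff.mp hz
    rw [← zpow_natCast, ← zpow_mul, mul_comm, zpow_mul, zpow_natCast, hxp, one_zpow]

end Cfsg.Agent.Lib.PRank2
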