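import Mathlib
import Cfsg.Agent.Lib.PRank2A

/-!
Chief factors inside `p`-groups of rank at most two, `p` odd, main part (helper33).
-/

set_option autoImplicit false

namespace Cfsg.Agent.Lib.PRank2

open Subgroup Cfsg
open Cfsg.Agent.Lib.PatGen Cfsg.Agent.Lib.PGroupRank
open scoped commutatorElement

universe u

variable {G : Type u} [Group G] [Finite G] {p : ℕ} [hp : Fact p.Prime]

theorem card_le_of_elab {H : Subgroup G} (hr : PRankLE p 2 H) {A : Subgroup G} (hAH : A ≤ H)
    (hAc : IsMulCommutative A) (hAp : ∀ x ∈ A, x ^ p = 1) : Nat.card A ≤ p ^ 2 :=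
  pRankLE_subgroup_iff.mp hr A hAH ⟨hAc, hAp⟩

/-- a nontrivial normal `p`-subgroup contains a nontrivial central elementary abelian one -/
theorem exists_elab {H : Subgroup G} [H.Normal] (hH : IsPGroup p H) (h1 : H ≠ ⊥) :
    ∃ B : Subgroup G, B.Normal ∧ B ≤ H ∧ IsMulCommutative B ∧ (∀ x ∈ B, x ^ p = 1) ∧ B ≠ ⊥ := by
  let B : Subgroup G :=
    { carrier := {x | x ∈ H ∧ x ^ p = 1 ∧ ∀ h ∈ H, Commute x h}
      one_mem' := ⟨one_mem _, one_pow _, fun h _ => Commute.one_left h⟩
      mul_mem' := by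
        rintro x y ⟨hx1, hx2, hx3⟩ ⟨hy1, hy2, hy3⟩
        refine ⟨mul_mem hx1 hy1, ?_, fun h hh => (hx3 h hh).mul_left (hy3 h hh)⟩
        rw [(hx3 y hy1).mul_pow, hx2, hy2, one_mul]
      inv_mem' := by
        rintro x ⟨hx1, hx2, hx3⟩
        exact ⟨inv_mem hx1, by rw [inv_pow, hx2, inv_one], fun h hh => (hx3 h hh).inv_left⟩ }
  have hB : ∀ x, x ∈ B ↔ x ∈ H ∧ x ^ p = 1 ∧ ∀ h ∈ H, Commute x h := fun x => Iff.rfl
  refine ⟨B, ?_, fun x hx => hx.1, ?_, fun x hx => hx.2.1, ?_⟩
  · constructor
    intro x hx g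
    rw [hB] at hx ⊢
    refine ⟨(inferInstance : H.Normal).conj_mem _ hx.1 g, ?_, ?_⟩
    · rw [conj_pow, hx.2.1]; group
    · intro h hh
      have h2 := hx.2.2 (g⁻¹ * h * g) (by
        have := (inferInstance : H.Normal).conj_mem _ hh g⁻¹
        simpa using this)
      show g * x * g⁻¹ * h = h * (g * x * g⁻¹)
      calc g * x * g⁻¹ * h = g * (x * (g⁻¹ * h * g)) * g⁻¹ := by group
        _ = g * ((g⁻¹ * h * g) * x) * g⁻¹ := by rw [h2.eq]
        _ = h * (g * x * g⁻¹) := by group
  · refine ⟨⟨?_⟩⟩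
    rintro ⟨x, hx⟩ ⟨y, hy⟩
    exact Subtype.ext (hx.2.2 y hy.1)
  · obtain ⟨t, ht, ht1, htc⟩ := FlagSylow.exists_central hH le_rfl h1
      (fun u hu t ht => mul_mem (mul_mem hu ht) (inv_mem hu))
    have hto : ∃ k, orderOf t = p ^ k := by
      have h2 := hH.to_le ((zpowers_le.mpr ht))
      obtain ⟨k, hk⟩ := IsPGroup.iff_card.mp h2
      exact ⟨k, by rw [← hk, Nat.card_zpowers]⟩
    obtain ⟨k, hk⟩ := hto
    have hk0 : k ≠ 0 := by
      rintro rfl
      rw [pow_zero, orderOf_eq_one_iff] at hk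
      exact ht1 hk
    obtain ⟨k', rfl⟩ : ∃ k', k = k' + 1 := ⟨k - 1, by omega⟩
    intro hbot
    have h3 : t ^ p ^ k' ∈ B := by
      rw [hB]
      refine ⟨pow_mem ht _, ?_, fun h hh => ?_⟩
      · rw [← pow_mul, ← pow_succ, ← hk, pow_orderOf_eq_one]
      · have : Commute t h := (htc h hh).symm
        exact this.pow_left _
    rw [hbot, mem_bot] at h3
    have h4 := orderOf_dvd_of_pow_eq_one h3
    rw [hk, Nat.pow_dvd_pow_iff_le_right hp.out.one_lt] at h4
    omega

/-- `C` is generated by `k` elements if all its elements of order `p` lie in a central subgroup of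
order `p ^ k`. -/
theorem gen_of_omega (hp2 : p ≠ 2) {C A : Subgroup G} (hC : IsPGroup p C) (hCA : C ≤ centralizer (A : Set G))
    (hΩ : ∀ x ∈ C, x ^ p = 1 → x ∈ A) {k : ℕ} (hA : Nat.card A ≤ p ^ k) :
    ∃ S : Finset C, S.card ≤ k ∧ closure (S : Set C) = ⊤ := by
  have hval : ∀ x : C, x ^ p = 1 → (x : G) ^ p = 1 := by
    intro x hx
    have := congrArg Subtype.val hx
    simpa using this
  apply thompson hp2 _ C rfl hC
  · intro x hx
    have h1 := hΩ x x.2 (hval x hx)
    rw [mem_center_iff]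
    intro g
    apply Subtype.ext
    exact (mem_centralizer_iff.mp (hCA g.2) _ h1).symm
  · refine le_trans ?_ hA
    let f : {x : C // x ^ p = 1} → A := fun x => ⟨((x.1 : C) : G), hΩ _ x.1.2 (hval _ x.2)⟩
    apply Nat.card_le_card_of_injective f
    intro x y h
    apply Subtype.ext
    apply Subtype.ext
    exact congrArg (fun e : A => (e : G)) h

/-- Chief factors inside a normal `p`-subgroup of rank at most two have order `p` or `p ^ 2`. -/
theorem chief_le (hp2 : p ≠ 2) {H K : Subgroup G} [hHn : H.Normal] [hKn : K.Normal] (hH : IsPGroup p H)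
    (hr : PRankLE p 2 H) (hKH : K < H)
    (hchief : ∀ L : Subgroup G, L.Normal → K ≤ L → L ≤ H → L = K ∨ L = H) : K.relIndex H ≤ p ^ 2 := by
  classical
  have hp1 := hp.out.one_lt
  have hH1 : H ≠ ⊥ := by rintro rfl; exact absurd hKH not_lt_bot
  -- the dichotomy
  have dich : ∀ C : Subgroup G, C.Normal → C ≤ H → C ≤ K ∨ C ⊔ K = H := by
    intro C hC hCH
    rcases hchief (C ⊔ K) inferInstance le_sup_right (sup_le hCH hKH.le) with h | h
    · left; rw [← h]; exact le_sup_left
    · exact Or.inr h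
  let T : Set (Subgroup G) := {A | A.Normal ∧ A ≤ H ∧ IsMulCommutative A ∧ ∀ x ∈ A, x ^ p = 1}
  have hT0 : (⊥ : Subgroup G) ∈ T := by
    refine ⟨inferInstance, bot_le, inferInstance, ?_⟩
    intro x hx
    rw [mem_bot] at hx
    rw [hx, one_pow]
  obtain ⟨A, -, hA⟩ := (Set.toFinite T).exists_le_maximal hT0
  obtain ⟨⟨hAn, hAH, hAc, hAp⟩, hmax⟩ := hA
  have hA1 : A ≠ ⊥ := by
    rintro rfl
    obtain ⟨B, hB1, hB2, hB3, hB4, hB5⟩ := exists_elab hH hH1
    exact hB5 (le_bot_iff.mp (hmax ⟨hB1, hB2, hB3, hB4⟩ bot_le))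
  have hAcard := card_le_of_elab hr hAH hAc hAp
  have hApg : IsPGroup p A := hH.to_le hAH
  obtain ⟨n, hn⟩ := IsPGroup.iff_card.mp hApg
  have hn2 : n ≤ 2 := by
    rw [hn] at hAcard
    exact (Nat.pow_le_pow_iff_right hp1).mp hAcard
  have hn0 : n ≠ 0 := by
    rintro rfl
    rw [pow_zero, Subgroup.card_eq_one] at hn
    exact hA1 hn
  have hHnA : H ≤ normalizer (A : Set G) := by rw [normalizer_eq_top_iff.mpr hAn]; exact le_top
  by_cases hn' : n = 2
  · -- rank two
    subst hn'
    set C : Subgroup G := H ⊓ centralizer (A : Set G) with hCdef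
    have hCn : C.Normal := inferInstance
    have hCH : C ≤ H := inf_le_left
    have hΩ : ∀ x ∈ C, x ^ p = 1 → x ∈ A := by
      intro x hx hxp
      obtain ⟨h1, h2⟩ := elab_sup hAc hAp hx.2 hxp
      have h3 : A ⊔ zpowers x ≤ H := sup_le hAH (zpowers_le.mpr hx.1)
      have h4 := card_le_of_elab hr h3 h1 h2
      have h5 : A = A ⊔ zpowers x := eq_of_le_of_card_ge le_sup_left (by rw [hn]; exact h4)
      rw [h5]
      exact mem_sup_right (mem_zpowers x)
    rcases dich C hCn hCH with h | h
    · have h1 : K.relIndex H ≤ C.relIndex H := relIndex_le_of_le_left h index_ne_zero_of_finite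
      have h2 : C.relIndex H = (centralizer (A : Set G)).relIndex H := by
        rw [hCdef, inf_relIndex_left]
      rw [h2] at h1
      have h3 := relIndex_centralizer_le_of_card hH hAH hHnA hAc hn.le
      calc _ ≤ p := h1.trans h3
        _ ≤ p ^ 2 := by nlinarith
    · exact relIndex_le_of_gen hH hKH hchief hCH h
        (gen_of_omega hp2 (hH.to_le hCH) inf_le_right hΩ hn.le)
  -- rank one
  have hn1 : n = 1 := by omega
  subst hn1
  rw [pow_one] at hn
  have hAcen : A ≤ centralizer (H : Set G) := by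
    obtain ⟨t, htA, ht1, htc⟩ := FlagSylow.exists_central hH hAH hA1
      (fun u hu t ht => (mem_normalizer_iff.mp (hHnA hu) t).mp ht)
    have h1 : zpowers t = A := by
      apply eq_of_le_of_card_ge (zpowers_le.mpr htA)
      rw [Nat.card_zpowers, hn, orderOf_eq_prime (hAp t htA) ht1]
    rw [← h1, zpowers_le, mem_centralizer_iff]
    intro h hh
    exact htc h hh
  have hcomA : ∀ a ∈ A, ∀ h ∈ H, Commute a h := fun a ha h hh => (mem_centralizer_iff.mp (hAcen ha) h hh).symm
  let M : Subgroup G :=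
    { carrier := {y | y ∈ H ∧ y ^ p = 1 ∧ ∀ h ∈ H, y * h * y⁻¹ * h⁻¹ ∈ A}
      one_mem' := ⟨one_mem _, one_pow _, fun h _ => by simp⟩
      mul_mem' := by
        rintro y z ⟨hy1, hy2, hy3⟩ ⟨hz1, hz2, hz3⟩
        refine ⟨mul_mem hy1 hz1, ?_, ?_⟩
        · have hd := hz3 y hy1
          set d := z * y * z⁻¹ * y⁻¹ with hd'
          have h1 : z * y = y * z * d := by
            have h2 : Commute d (y * z) := hcomA d hd _ (mul_mem hy1 hz1)
            rw [← h2.eq, hd']; group
          rw [PGroupOdd.mul_pow_of_comm h1 (hcomA d hd _ hy1) (hcomA d hd _ hz1),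
            PGroupOdd.pow_choose_two_eq_one hp.out hp2 (hAp d hd), hy2, hz2]
          simp
        · intro h hh
          have hd := hz3 h hh
          set d := z * h * z⁻¹ * h⁻¹ with hd'
          have h2 : Commute d y := hcomA d hd _ hy1
          have h3 : y * z * h * (y * z)⁻¹ * h⁻¹ = d * (y * h * y⁻¹ * h⁻¹) := by
            calc y * z * h * (y * z)⁻¹ * h⁻¹ = (y * d) * (h * y⁻¹ * h⁻¹) := by rw [hd']; group
              _ = d * (y * h * y⁻¹ * h⁻¹) := by rw [← h2.eq]; group
          rw [h3]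
          exact mul_mem hd (hy3 h hh)
      inv_mem' := by
        rintro y ⟨hy1, hy2, hy3⟩
        refine ⟨inv_mem hy1, by rw [inv_pow, hy2, inv_one], ?_⟩
        intro h hh
        have hd := hy3 h hh
        set d := y * h * y⁻¹ * h⁻¹ with hd'
        have h2 : Commute d y := hcomA d hd _ hy1
        have h3 : y⁻¹ * h * y⁻¹⁻¹ * h⁻¹ = d⁻¹ := by
          have h4 : y * h * y⁻¹ = d * h := by rw [hd']; group
          have h5 : h = (d * (y⁻¹ * h * y)) := by
            calc h = y⁻¹ * (y * h * y⁻¹) * y := by group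
              _ = (y⁻¹ * d) * h * y := by rw [h4]; group
              _ = (d * y⁻¹) * h * y := by rw [h2.inv_right.eq]
              _ = _ := by group
          rw [inv_inv]
          have h6 : y⁻¹ * h * y = d⁻¹ * h := by rw [eq_inv_mul_iff_mul_eq, ← h5]
          rw [h6]; group
        rw [h3]
        exact inv_mem hd }
  have hM : ∀ y, y ∈ M ↔ y ∈ H ∧ y ^ p = 1 ∧ ∀ h ∈ H, y * h * y⁻¹ * h⁻¹ ∈ A := fun y => Iff.rfl
  have hMn : M.Normal := by
    constructor
    intro y hy g
    rw [hM] at hy ⊢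
    refine ⟨hHn.conj_mem _ hy.1 g, ?_, ?_⟩
    · rw [conj_pow, hy.2.1]; group
    · intro h hh
      have h1 := hy.2.2 (g⁻¹ * h * g) (by
        have := hHn.conj_mem _ hh g⁻¹
        simpa using this)
      have h2 : g * y * g⁻¹ * h * (g * y * g⁻¹)⁻¹ * h⁻¹ = g * (y * (g⁻¹ * h * g) * y⁻¹ * (g⁻¹ * h * g)⁻¹) * g⁻¹ := by group
      rw [h2]
      exact hAn.conj_mem _ h1 g
  have hMH : M ≤ H := fun y hy => hy.1
  have hAM : A ≤ M := by
    intro a ha
    refine ⟨hAH ha, hAp a ha, fun h hh => ?_⟩
    rw [(hcomA a ha h hh).eq]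
    simp
  by_cases hMc : ∀ y ∈ M, ∀ z ∈ M, y * z = z * y
  · -- the abelian case
    have hMA : M ≤ A := hmax ⟨hMn, hMH, ⟨⟨fun y z => Subtype.ext (hMc y y.2 z z.2)⟩⟩, fun y hy => hy.2.1⟩ hAM
    have hΩ : ∀ x ∈ H, x ^ p = 1 → x ∈ A := by
      intro x hx hxp
      have hA'n : (A.subgroupOf H).Normal := inferInstance
      have h1 := AlperinLemma.mem_of_mem_centralizer (p := p) hH 1 (by rw [pow_one]; exact hp2) (A.subgroupOf H) hA'n
        ⟨⟨fun y z => Subtype.ext (Subtype.ext (show ((y : H) : G) * ((z : H) : G) = ((z : H) : G) * ((y : H) : G) from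
          (hcomA _ (mem_subgroupOf.mp y.2) _ (z : H).2).eq))⟩⟩
        (by
          intro a ha
          apply Subtype.ext
          rw [pow_one]
          exact hAp _ (mem_subgroupOf.mp ha))
        ?_ ⟨x, hx⟩ ?_ (by rw [pow_one]; exact Subtype.ext hxp)
      · exact mem_subgroupOf.mp h1
      · intro B hBn hBc hBp hAB
        by_contra hne
        have hmap : B.map (QuotientGroup.mk' (A.subgroupOf H)) ≠ ⊥ := by
          intro h
          rw [Subgroup.map_eq_bot_iff, QuotientGroup.ker_mk'] at h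
          exact hne (le_antisymm h hAB)
        have hQ : IsPGroup p (⊤ : Subgroup (H ⧸ A.subgroupOf H)) := (hH.to_quotient _).to_subgroup _
        have hBn' : (B.map (QuotientGroup.mk' (A.subgroupOf H))).Normal :=
          hBn.map _ (QuotientGroup.mk'_surjective _)
        obtain ⟨t, ht, ht1, htc⟩ := FlagSylow.exists_central hQ le_top hmap (fun u _ t ht => hBn'.conj_mem t ht u)
        obtain ⟨b, hb, rfl⟩ := ht
        have hbM : (b : G) ∈ M := by
          refine ⟨b.2, ?_, ?_⟩
          · have := hBp b hb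
            rw [pow_one] at this
            exact congrArg Subtype.val this
          · intro h hh
            have h2 := htc (QuotientGroup.mk' (A.subgroupOf H) ⟨h, hh⟩) (mem_top _)
            rw [← map_mul, ← map_mul, QuotientGroup.mk'_apply, QuotientGroup.mk'_apply, QuotientGroup.eq,
              mem_subgroupOf] at h2
            have h3 : ((h * (b : G))⁻¹ * ((b : G) * h)) ∈ A := h2
            have h4 := hAn.conj_mem _ h3 (h * (b : G))
            have h5 : h * (b : G) * ((h * (b : G))⁻¹ * ((b : G) * h)) * (h * (b : G))⁻¹ = (b : G) * h * (b : G)⁻¹ * h⁻¹ := by group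
            rwa [h5] at h4
        apply ht1
        rw [QuotientGroup.mk'_apply, QuotientGroup.eq_one_iff, mem_subgroupOf]
        exact hMA hbM
      · rw [mem_centralizer_iff]
        intro a ha
        apply Subtype.ext
        exact (hcomA _ (mem_subgroupOf.mp ha) x hx).eq
    have h1 := relIndex_le_of_gen hH hKH hchief le_rfl (sup_eq_left.mpr hKH.le)
        (gen_of_omega (k := 1) hp2 hH (le_centralizer_iff.mp hAcen) hΩ (by rw [pow_one]; exact hn.le))
    rw [pow_one] at h1
    calc _ ≤ p := h1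
      _ ≤ p ^ 2 := by nlinarith
  -- the extraspecial case
  push Not at hMc
  obtain ⟨a, ha, b, hb, hab⟩ := hMc
  have haA : a ∉ A := fun h => hab (hcomA a h b (hMH hb)).eq
  have hbA : b ∉ A := fun h => hab (hcomA b h a (hMH ha)).symm.eq
  have helab : ∀ y ∈ M, Nat.card (A ⊔ zpowers y : Subgroup G) ≤ p ^ 2 ∧ IsMulCommutative (A ⊔ zpowers y : Subgroup G) ∧
      ∀ x ∈ A ⊔ zpowers y, x ^ p = 1 := by
    intro y hy
    obtain ⟨h1, h2⟩ := elab_sup hAc hAp (x := y) (by
      rw [mem_centralizer_iff]; intro c hc; exact (hcomA c hc y (hMH hy)).eq) hy.2.1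
    exact ⟨card_le_of_elab hr (sup_le hAH (zpowers_le.mpr (hMH hy))) h1 h2, h1, h2⟩
  set C : Subgroup G := H ⊓ centralizer (M : Set G) with hCdef
  have hCn : C.Normal := inferInstance
  have hCH : C ≤ H := inf_le_left
  have hΩ : ∀ x ∈ C, x ^ p = 1 → x ∈ A := by
    intro x hx hxp
    obtain ⟨h1, h2, h3⟩ := helab a ha
    have hxa : x ∈ centralizer ((A ⊔ zpowers a : Subgroup G) : Set G) := by
      have : A ⊔ zpowers a ≤ M := sup_le hAM (zpowers_le.mpr ha)
      exact centralizer_le this hx.2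
    obtain ⟨h4, h5⟩ := elab_sup h2 h3 hxa hxp
    have h6 := card_le_of_elab hr (sup_le (sup_le hAH (zpowers_le.mpr (hMH ha))) (zpowers_le.mpr hx.1)) h4 h5
    have h7 : A < A ⊔ zpowers a := by
      refine lt_of_le_of_ne le_sup_left fun h => haA ?_
      rw [h]; exact mem_sup_right (mem_zpowers a)
    obtain ⟨j, hj⟩ := IsPGroup.iff_card.mp (hH.to_le (sup_le hAH (zpowers_le.mpr (hMH ha))))
    have h8 : Nat.card A < Nat.card (A ⊔ zpowers a : Subgroup G) := Set.ncard_lt_ncard (SetLike.coe_ssubset_coe.mpr h7)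
    rw [hn, hj] at h8
    have h9 : 1 < j := by
      rw [← pow_one p] at h8
      rw [← pow_mul, one_mul] at h8
      exact (Nat.pow_lt_pow_iff_right hp1).mp h8
    have h10 : A ⊔ zpowers a = A ⊔ zpowers a ⊔ zpowers x := by
      apply eq_of_le_of_card_ge le_sup_left
      rw [hj]
      exact h6.trans (Nat.pow_le_pow_right hp.out.pos h9)
    have hxin : x ∈ A ⊔ zpowers a := by rw [h10]; exact mem_sup_right (mem_zpowers x)
    rw [Subgroup.mem_sup_of_normal_left] at hxin
    obtain ⟨c, hc, z, hz, rfl⟩ := hxin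
    by_cases hz1 : z = 1
    · rw [hz1, mul_one]; exact hc
    exfalso
    have hzb : Commute z b := by
      have h11 : Commute (c * z) b := (mem_centralizer_iff.mp hx.2 b hb).symm
      have h12 : z = c⁻¹ * (c * z) := by group
      rw [h12]
      exact ((hcomA c hc b (hMH hb)).inv_left).mul_left h11
    have h13 : zpowers z = zpowers a := by
      apply eq_of_le_of_card_ge (zpowers_le.mpr hz)
      have ha1 : a ≠ 1 := fun h => haA (h ▸ one_mem _)
      have hzp : z ^ p = 1 := by
        obtain ⟨i, rfl⟩ := mem_zpowers_iff.mp hz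
        rw [← zpow_natCast, ← zpow_mul, mul_comm, zpow_mul, zpow_natCast, ha.2.1, one_zpow]
      rw [Nat.card_zpowers, Nat.card_zpowers, orderOf_eq_prime ha.2.1 ha1, orderOf_eq_prime hzp hz1]
    have h14 : a ∈ zpowers z := by rw [h13]; exact mem_zpowers a
    obtain ⟨i, hi⟩ := mem_zpowers_iff.mp h14
    apply hab
    rw [← hi]
    exact (hzb.zpow_left i).eq
  rcases dich C hCn hCH with h | h
  · have h1 : K.relIndex H ≤ C.relIndex H := relIndex_le_of_le_left h index_ne_zero_of_finite
    have hMcard : Nat.card M ≤ p ^ 3 := by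
      apply PGroupOmega.card_le_of_exponent (p := p)
      · exact PRankLE.of_le hr hMH
      · intro x
        exact Subtype.ext x.2.2.1
    -- M is generated by A, a, b
    set N : Subgroup G := A ⊔ zpowers a ⊔ zpowers b with hN
    have hNM : N ≤ M := sup_le (sup_le hAM (zpowers_le.mpr ha)) (zpowers_le.mpr hb)
    obtain ⟨j, hj⟩ := IsPGroup.iff_card.mp (hH.to_le (hNM.trans hMH))
    have hj3 : 3 ≤ j := by
      by_contra hlt
      have hj2 : Nat.card N ∣ p ^ 2 := by rw [hj]; exact pow_dvd_pow p (by omega)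
      have hcommN : ∀ x y : N, x * y = y * x := by
        obtain ⟨i, hi, hi'⟩ := (Nat.dvd_prime_pow hp.out).mp hj2
        interval_cases i
        · rw [pow_zero] at hi'
          have : Subsingleton N := (Nat.card_eq_one_iff_unique.mp hi').1
          intro x y; exact Subsingleton.elim _ _
        · rw [pow_one] at hi'
          have : IsCyclic N := isCyclic_of_prime_card hi'
          exact (IsCyclic.commGroup (α := N)).mul_comm
        · exact IsPGroup.commutative_of_card_eq_prime_sq hi'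
      apply hab
      have haN : a ∈ N := le_sup_left (a := A ⊔ zpowers a) (mem_sup_right (mem_zpowers a))
      have hbN : b ∈ N := mem_sup_right (mem_zpowers b)
      exact congrArg Subtype.val (hcommN ⟨a, haN⟩ ⟨b, hbN⟩)
    have hNeq : N = M := by
      apply eq_of_le_of_card_ge hNM
      rw [hj]
      exact hMcard.trans (Nat.pow_le_pow_right hp.out.pos hj3)
    have hCab : C = (centralizer ({a} : Set G) ⊓ centralizer ({b} : Set G)) ⊓ H := by
      apply le_antisymm
      · intro x hx
        refine ⟨⟨?_, ?_⟩, hx.1⟩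
        · exact mem_centralizer_singleton_iff.mpr (mem_centralizer_iff.mp hx.2 a ha).symm
        · exact mem_centralizer_singleton_iff.mpr (mem_centralizer_iff.mp hx.2 b hb).symm
      · rintro x ⟨⟨hxa, hxb⟩, hxH⟩
        refine ⟨hxH, ?_⟩
        have h2 : M ≤ centralizer ({x} : Set G) := by
          rw [← hNeq, hN, sup_le_iff, sup_le_iff, zpowers_le, zpowers_le, mem_centralizer_singleton_iff,
            mem_centralizer_singleton_iff]
          refine ⟨⟨?_, (mem_centralizer_singleton_iff.mp hxa).symm⟩, (mem_centralizer_singleton_iff.mp hxb).symm⟩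
          intro c hc
          rw [mem_centralizer_singleton_iff]
          exact (hcomA c hc x hxH).eq
        show x ∈ centralizer (M : Set G)
        rw [mem_centralizer_iff]
        intro y hy
        exact mem_centralizer_singleton_iff.mp (h2 hy)
    have hrel : ∀ y ∈ M, y ∉ A → (centralizer ({y} : Set G)).relIndex H ≤ p := by
      intro y hy hyA
      have hy1 : y ≠ 1 := fun h => hyA (h ▸ one_mem _)
      obtain ⟨h2, -, -⟩ := helab y hy
      have := relIndex_centralizer_le (m := 1) (A := A ⊔ zpowers y) hH hy1 (by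
        intro h hh
        have h3 := hy.2.2 h hh
        have h4 : h * y * h⁻¹ = (y * h * y⁻¹ * h⁻¹)⁻¹ * y := by group
        rw [h4]
        exact mul_mem (mem_sup_left (inv_mem h3)) (mem_sup_right (mem_zpowers y))) h2
      rwa [pow_one] at this
    have h2 : C.relIndex H ≤ p * p := by
      rw [hCab, inf_relIndex_right]
      exact relIndex_inf_le.trans (Nat.mul_le_mul (hrel a ha haA) (hrel b hb hbA))
    calc _ ≤ p * p := h1.trans h2
      _ = p ^ 2 := by ring
  · have h1 := relIndex_le_of_gen hH hKH hchief hCH h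
      (gen_of_omega (k := 1) hp2 (hH.to_le hCH) (inf_le_right.trans (centralizer_le hAM)) hΩ (by rw [pow_one]; exact hn.le))
    rw [pow_one] at h1
    calc _ ≤ p := h1
      _ ≤ p ^ 2 := by nlinarith

end Cfsg.Agent.Lib.PRank2
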