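import Mathlib
import Cfsg.Agent.Lib.PRank2B
import Cfsg.Agent.Lib.CriticalOdd
import Cfsg.Agent.Lib.H32PSolv
import Cfsg.Agent.Lib.H32QdInv
import Cfsg.Agent.Lib.CopElem

/-!
Chief factors of `p`-solvable groups of `p`-rank at most two, `p` odd (helper33).
-/

set_option autoImplicit false

namespace Cfsg.Agent.Lib.PRank2

open Subgroup Cfsg
open Cfsg.Agent.Lib.PatGen Cfsg.Agent.Lib.PGroupRank
open scoped commutatorElement

universe u

variable {G : Type u} [Group G] [Finite G] {p : ℕ} [hp : Fact p.Prime]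

theorem isPGroup_of_coprime_sub {C : Subgroup G}
    (h : ∀ B : Subgroup G, B ≤ C → (Nat.card B).Coprime p → B = ⊥) : IsPGroup p C := by
  refine IsPGroup.iff_card.mpr ⟨_, Nat.eq_prime_pow_of_unique_prime_dvd (Nat.card_pos (α := C)).ne' ?_⟩
  intro q hq hqC
  by_contra hne
  have : Fact q.Prime := ⟨hq⟩
  obtain ⟨x, hx⟩ := exists_prime_orderOf_dvd_card' q hqC
  have h1 := h (zpowers (x : G)) (zpowers_le.mpr x.2) (by
    rw [Nat.card_zpowers, orderOf_submonoid, hx]
    exact (Nat.coprime_primes hq hp.out).mpr hne)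
  rw [zpowers_eq_bot] at h1
  have : x = 1 := Subtype.ext h1
  rw [this, orderOf_one] at hx
  exact hq.one_lt.ne hx

theorem sylow_bound (hp2 : p ≠ 2) (hS : IsPSolvable p G) (hO : pPrimeCore p G = ⊥) (hr : PRankLE p 2 G) :
    ¬ p ^ 2 ∣ (pCore p G).index := by
  classical
  have hp1 := hp.out.one_lt
  set U := pCore p G with hU
  have hUn : U.Normal := PCoreTools.pCore_normal' p G
  have hUp : IsPGroup p U := PCoreTools.isPGroup_pCore p
  have hCU : centralizer (U : Set G) ≤ U := H32PSolv.centralizer_pCore_le hS hO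
  obtain ⟨E, hEU, ⟨K, hKc, hEK⟩, hEe, hE2, hEA, -⟩ := CriticalOdd.exists_critExp hp2 hUp
  have hEn : E.Normal := by
    rw [← normalizer_eq_top_iff, eq_top_iff, hEK]
    have h1 := PCoreTools.normalizer_le_of_characteristic (H := U) hKc
    rw [normalizer_eq_top_iff.mpr hUn] at h1
    exact h1
  have hEp : IsPGroup p E := hUp.to_le hEU
  set Z : Subgroup G := ⁅E, E⁆ with hZ
  have hZn : Z.Normal := inferInstance
  have hZE : Z ≤ E := commutator_le_left E E
  have hZc : E ≤ centralizer (Z : Set G) := by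
    rw [le_centralizer_iff]
    have h1 : Z ≤ ⁅E, U⁆ := commutator_mono le_rfl hEU
    refine h1.trans ?_
    rwa [commutator_eq_bot_iff_le_centralizer] at hE2
  have hEcard : Nat.card E ≤ p ^ 3 :=
    PGroupOmega.card_le_of_exponent (p := p) (PRankLE.of_injective hr E.subtype E.subtype_injective)
      (fun x => Subtype.ext (hEe x x.2))
  set π := QuotientGroup.mk' Z with hπ
  have hcardmap : Nat.card (E.map π) * Nat.card Z = Nat.card E := by
    have h1 := SubgroupTools.card_map_mul_card_inf_ker π E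
    rwa [hπ, QuotientGroup.ker_mk', inf_eq_right.mpr hZE] at h1
  have hEbar : Nat.card (E.map π) ≤ p ^ 2 := by
    by_cases hc : Z = ⊥
    · have h1 : IsMulCommutative E := by
        rw [hZ, commutator_eq_bot_iff_le_centralizer] at hc
        exact le_centralizer_iff_isMulCommutative.mp hc
      have h2 := hr E h1 hEe
      have hz1 : Nat.card Z = 1 := by rw [hc]; exact card_bot
      rw [← hcardmap, hz1, mul_one] at h2
      exact h2
    · obtain ⟨m, hm⟩ := IsPGroup.iff_card.mp (hEp.to_le hZE)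
      have hm0 : m ≠ 0 := by
        rintro rfl
        rw [pow_zero, Subgroup.card_eq_one] at hm
        exact hc hm
      obtain ⟨m', rfl⟩ : ∃ m', m = m' + 1 := ⟨m - 1, by omega⟩
      rw [← hcardmap, hm] at hEcard
      have h3 : Nat.card (E.map π) * p ≤ p ^ 2 * p := by
        calc Nat.card (E.map π) * p ≤ Nat.card (E.map π) * p ^ (m' + 1) := by
              apply Nat.mul_le_mul_left
              exact Nat.le_self_pow (by omega) p
          _ ≤ p ^ 3 := hEcard
          _ = p ^ 2 * p := by ring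
      exact Nat.le_of_mul_le_mul_right h3 hp.out.pos
  have hEbc : IsMulCommutative (E.map π) := by
    refine ⟨⟨?_⟩⟩
    rintro ⟨_, x, hx, rfl⟩ ⟨_, y, hy, rfl⟩
    apply Subtype.ext
    show π x * π y = π y * π x
    rw [← map_mul, ← map_mul, hπ, QuotientGroup.mk'_apply, QuotientGroup.mk'_apply, QuotientGroup.eq]
    have : (x * y)⁻¹ * (y * x) = ⁅y⁻¹, x⁻¹⁆ := by rw [commutatorElement_def]; group
    rw [this]
    exact commutator_mem_commutator (inv_mem hy) (inv_mem hx)
  have hEbn : (E.map π).Normal := hEn.map _ (QuotientGroup.mk'_surjective _)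
  set C : Subgroup G := (centralizer ((E.map π : Subgroup _) : Set (G ⧸ Z))).comap π with hC
  have hCn : C.Normal := inferInstance
  have hCmem : ∀ x ∈ C, ∀ e ∈ E, ⁅e, x⁆ ∈ Z := by
    intro x hx e he
    have h1 : π x ∈ centralizer ((E.map π : Subgroup _) : Set (G ⧸ Z)) := hx
    rw [mem_centralizer_iff] at h1
    have h2 := h1 (π e) ⟨e, he, rfl⟩
    rw [← QuotientGroup.eq_one_iff (N := Z), ← QuotientGroup.mk'_apply, ← hπ, map_commutatorElement,
      commutatorElement_eq_one_iff_mul_comm]
    exact h2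
  have hCp : IsPGroup p C := by
    apply isPGroup_of_coprime_sub
    intro B hBC hBcop
    obtain ⟨k, hk⟩ := IsPGroup.iff_card.mp hEp
    have h1 : (Nat.card B).Coprime (Nat.card E) := by rw [hk]; exact Nat.Coprime.pow_right k hBcop
    have h2 : ⁅E, B⁆ ≤ Z := by
      rw [commutator_le]
      intro e he b hb
      exact hCmem b (hBC hb) e he
    -- B centralizes Z
    have h3 : B ≤ centralizer (Z : Set G) := by
      rw [le_centralizer_iff, hZ, commutator_le]
      intro e he f hf
      rw [mem_centralizer_iff]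
      intro b hb
      have hce := hCmem b (hBC hb) e he
      have hcf := hCmem b (hBC hb) f hf
      have hzc : ∀ z ∈ Z, ∀ w ∈ E, Commute z w := fun z hz w hw => mem_centralizer_iff.mp (hZc hw) z hz
      have h4 : b * ⁅e, f⁆ * b⁻¹ = ⁅e, f⁆ := by
        have e1 : b * e * b⁻¹ = ⁅e, b⁆⁻¹ * e := by rw [commutatorElement_def]; group
        have f1 : b * f * b⁻¹ = ⁅f, b⁆⁻¹ * f := by rw [commutatorElement_def]; group
        have h5 : b * ⁅e, f⁆ * b⁻¹ = ⁅b * e * b⁻¹, b * f * b⁻¹⁆ := by
          rw [commutatorElement_def, commutatorElement_def]; group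
        rw [h5, e1, f1]
        set s := ⁅e, b⁆⁻¹ with hs
        set t := ⁅f, b⁆⁻¹ with ht
        have hsZ : s ∈ Z := inv_mem hce
        have htZ : t ∈ Z := inv_mem hcf
        have c1 : Commute s e := hzc s hsZ e he
        have c2 : Commute s f := hzc s hsZ f hf
        have c3 : Commute t e := hzc t htZ e he
        have c4 : Commute t f := hzc t htZ f hf
        have c5 : Commute s t := hzc s hsZ t (hZE htZ)
        rw [commutatorElement_def, commutatorElement_def]
        calc s * e * (t * f) * (s * e)⁻¹ * (t * f)⁻¹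
            = s * (e * t) * f * e⁻¹ * s⁻¹ * f⁻¹ * t⁻¹ := by group
          _ = s * t * (e * f * e⁻¹) * (s⁻¹ * f⁻¹) * t⁻¹ := by rw [← c3.eq]; group
          _ = s * t * (e * f * e⁻¹) * (f⁻¹ * s⁻¹) * t⁻¹ := by rw [(c2.inv_inv).eq]
          _ = s * t * (e * f * e⁻¹ * f⁻¹) * (s⁻¹ * t⁻¹) := by group
          _ = s * t * ((e * f * e⁻¹ * f⁻¹) * (s * t)⁻¹) := by rw [mul_inv_rev, ← (c5.inv_inv).eq]; group
          _ = s * t * ((s * t)⁻¹ * (e * f * e⁻¹ * f⁻¹)) := by
              have h6 : Commute (s * t) (e * f * e⁻¹ * f⁻¹) := by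
                have h7 : e * f * e⁻¹ * f⁻¹ ∈ E := mul_mem (mul_mem (mul_mem he hf) (inv_mem he)) (inv_mem hf)
                exact (hzc s hsZ _ h7).mul_left (hzc t htZ _ h7)
              rw [(h6.inv_left).eq]
          _ = e * f * e⁻¹ * f⁻¹ := by group
      calc b * ⁅e, f⁆ = (b * ⁅e, f⁆ * b⁻¹) * b := by group
        _ = ⁅e, f⁆ * b := by rw [h4]
    have h5 : B ≤ centralizer (E : Set G) := CopElem.le_centralizer_of_chain h1 hZE h2 h3
    have h6 : B ≤ centralizer (U : Set G) := hEA B (by rw [normalizer_eq_top_iff.mpr hUn]; exact le_top) hBcop h5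
    have h7 : IsPGroup p B := hUp.to_le (h6.trans hCU)
    obtain ⟨j, hj⟩ := IsPGroup.iff_card.mp h7
    rw [hj] at hBcop
    rcases Nat.eq_zero_or_pos j with h8 | h8
    · rw [h8, pow_zero] at hj
      exact Subgroup.card_eq_one.mp hj
    · exfalso
      have : (p ^ j).gcd p = 1 := hBcop
      have h9 : p ∣ (p ^ j).gcd p := Nat.dvd_gcd (dvd_pow_self p (by omega)) dvd_rfl
      rw [this] at h9
      exact hp1.ne' (Nat.dvd_one.mp h9)
  have hCU' : C ≤ U := PCoreTools.le_pCore hCn hCp
  obtain ⟨P⟩ : Nonempty (Sylow p G) := inferInstance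
  have hUP : U ≤ (P : Subgroup G) := IsPGroup.le_sylow_of_normal hUp P
  have hPbar : IsPGroup p ((P : Subgroup G).map π) := P.2.map π
  have h1 := relIndex_centralizer_le_of_card hPbar (map_mono (hEU.trans hUP))
    (by rw [normalizer_eq_top_iff.mpr hEbn]; exact le_top) hEbc hEbar
  have h2 : C.relIndex (P : Subgroup G) ≤ p := by
    rw [hC, relIndex_comap]; exact h1
  intro hdvd
  have h3 : p ^ 2 ∣ C.index := hdvd.trans (index_dvd_of_le hCU')
  have h4 : C.index = C.relIndex (P : Subgroup G) * (C ⊔ (P : Subgroup G)).index := by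
    rw [← relIndex_mul_index (le_sup_left : C ≤ C ⊔ (P : Subgroup G))]
    congr 1
    rw [sup_comm, relIndex_sup_right]
  have h5 : (C ⊔ (P : Subgroup G)).index.Coprime p := by
    apply Nat.Coprime.symm
    rw [Nat.Prime.coprime_iff_not_dvd hp.out]
    intro h6
    exact P.not_dvd_index (h6.trans (index_dvd_of_le le_sup_right))
  have h6 : p ^ 2 ∣ C.relIndex (P : Subgroup G) := by
    rw [h4] at h3
    exact (Nat.Coprime.pow_left 2 h5.symm).dvd_of_dvd_mul_right h3
  have h7 : 0 < C.relIndex (P : Subgroup G) := Nat.pos_of_ne_zero index_ne_zero_of_finite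
  have h8 := Nat.le_of_dvd h7 h6
  nlinarith

/-- the case `O_{p'}(G) = 1`. -/
theorem main_core (hp2 : p ≠ 2) (hS : IsPSolvable p G) (hO : pPrimeCore p G = ⊥) (hr : PRankLE p 2 G)
    {H K : Subgroup G} [hHn : H.Normal] [hKn : K.Normal] (hKH : K < H) {n : ℕ} (hpow : K.relIndex H = p ^ n)
    (hchief : ∀ L : Subgroup G, L.Normal → K ≤ L → L ≤ H → L = K ∨ L = H) : n ≤ 2 := by
  have hp1 := hp.out.one_lt
  set U := pCore p G with hU
  have hUn : U.Normal := PCoreTools.pCore_normal' p G
  have hUp : IsPGroup p U := PCoreTools.isPGroup_pCore p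
  rcases hchief (K ⊔ (H ⊓ U)) inferInstance le_sup_left (sup_le hKH.le inf_le_left) with h | h
  · have h1 : H ⊓ U ≤ K := by rw [← h]; exact le_sup_right
    have h2 : (K ⊔ U).relIndex H = K.relIndex H := by
      rw [← inf_relIndex_right, inf_comm]
      congr 1
      have h3 : H ⊓ (K ⊔ U) = K ⊔ (H ⊓ U) := by
        rw [inf_comm, SubgroupTools.sup_inf_of_le_normalizer hKH.le
          (by rw [normalizer_eq_top_iff.mpr hKn]; exact le_top), inf_comm H U]
      rw [h3, h]
    have h3 : p ^ n ∣ U.index := by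
      rw [← hpow, ← h2]
      exact (relIndex_dvd_index_of_normal (K ⊔ U) H).trans (index_dvd_of_le le_sup_right)
    by_contra hlt
    exact sylow_bound hp2 hS hO hr ((pow_dvd_pow p (by omega : 2 ≤ n)).trans h3)
  · have h0 : (K ⊓ U) = K ⊓ (H ⊓ U) := by
      rw [← inf_assoc, inf_eq_left.mpr hKH.le]
    have hrel : (K ⊓ U).relIndex (H ⊓ U) = K.relIndex H := by
      rw [h0, inf_relIndex_right]
      conv_rhs => rw [← h, sup_comm]
      rw [relIndex_sup_right]
    have hlt : K ⊓ U < H ⊓ U := by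
      refine lt_of_le_of_ne (inf_le_inf_right _ hKH.le) fun h1 => ?_
      rw [← h1, sup_eq_left.mpr inf_le_left] at h
      exact hKH.ne h
    have h1 := chief_le hp2 (H := H ⊓ U) (K := K ⊓ U) (hUp.to_le inf_le_right)
      (PRankLE.of_injective hr _ (H ⊓ U).subtype_injective) hlt ?_
    · rw [hrel, hpow] at h1
      exact (Nat.pow_le_pow_iff_right hp1).mp h1
    · intro L hLn hKL hLH
      rcases hchief (L ⊔ K) inferInstance le_sup_right (sup_le (hLH.trans inf_le_left) hKH.le) with h2 | h2
      · left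
        apply le_antisymm _ hKL
        exact le_inf (by rw [← h2]; exact le_sup_left) (hLH.trans inf_le_right)
      · right
        apply le_antisymm hLH
        have h3 : H ⊓ U ≤ (L ⊔ K) ⊓ (H ⊓ U) := le_inf (by rw [h2]; exact inf_le_left) le_rfl
        rw [SubgroupTools.sup_inf_of_le_normalizer hLH
          (by rw [normalizer_eq_top_iff.mpr hLn]; exact le_top), ← h0] at h3
        exact h3.trans (sup_le le_rfl hKL)

end Cfsg.Agent.Lib.PRank2
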