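import Cfsg.Agent.Lib.PSLift62
import Cfsg.Agent.Lib.FusionJoin
import Cfsg.Agent.Lib.FusionGroup
import Cfsg.Agent.Lib.FusionNormal

/-!
The fusion system of a `p`-stable group, `p > 3`, is constrained. (helper62)
-/

set_option autoImplicit false
set_option linter.unusedSectionVars false
set_option maxHeartbeats 400000

namespace Cfsg.Agent.Lib.PSConstr62

open Cfsg Cfsg.FusionSystem Cfsg.Agent.Lib.FusionBasic
open Cfsg.Agent.Lib.CFSylow Cfsg.Agent.Lib.CFFusion Cfsg.Agent.Lib.CFControl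
  Cfsg.Agent.Lib.CFSection Cfsg.Agent.Lib.CFMin Cfsg.Agent.Lib.ClosedZJ Cfsg.Agent.Lib.ClosedPS
  Cfsg.Agent.Lib.H31PStab Cfsg.Agent.Lib.PSLift62

universe u

/-- A subgroup of `N(Q)`, `Q` normal in the fusion system, which controls fusion there is normal. -/
theorem isNormal_of_sf {Ω : Type u} [Group Ω] [Finite Ω] {S Q N : Subgroup Ω}
    (hQ : (groupFusionSystem S).IsNormal Q) (hN : Subgroup.normalizer (Q : Set Ω) = N) {V : Subgroup ↥N}
    (hVS : V ≤ S.subgroupOf N)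
    (h : SF V ⊤ (S.subgroupOf N)) :
    (groupFusionSystem S).IsNormal (V.map N.subtype) := by
  set VG := V.map N.subtype with hVG
  have hVGS : VG ≤ S := by
    rintro _ ⟨v, hv, rfl⟩
    exact hVS hv
  rw [isNormal_iff]
  refine ⟨hVGS, fun A f hf => ?_⟩
  have hSQ := FusionNormal.normalizes_of_stronglyClosed (FusionNormal.isNormal_stronglyClosed hQ)
  rw [hN] at hSQ
  obtain ⟨g, hg1, hg2, hg3⟩ := ((isNormal_iff _).1 hQ).2 A f hf
  rw [fmap_group_iff] at hg1
  obtain ⟨hAQ, hmem, a, ha⟩ := hg1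
  have haN : a ∈ N := by
    have h1 : ∀ x ∈ Q, a * x * a⁻¹ ∈ Q := by
      intro x hx
      rw [← ha x (Subgroup.mem_sup_right hx)]
      exact hg3.mem hx
    rw [← hN]
    refine mem_normalizer_of_le ?_
    rintro _ ⟨x, hx, rfl⟩
    exact h1 x hx
  obtain ⟨x, hx, c, hc, he⟩ := h ((A ⊔ Q).subgroupOf N) (fun y hy => hAQ hy) ⟨a, haN⟩ (Subgroup.mem_top _) (by
    rintro _ ⟨y, hy, rfl⟩
    change a * (y : Ω) * a⁻¹ ∈ S
    rw [← ha y hy]
    exact hmem y hy)
  have hxV := (Subgroup.mem_inf.1 hx).2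
  have hxA : ∀ y ∈ A, (x : Ω) * y * (x : Ω)⁻¹ = a * y * a⁻¹ := by
    intro y hy
    have hyN : y ∈ N := hSQ (hAQ (Subgroup.mem_sup_left hy))
    have h1 := Subgroup.mem_centralizer_iff.1 hc ⟨y, hyN⟩ (Subgroup.mem_sup_left hy)
    have h2 : y * (c : Ω) = (c : Ω) * y := congrArg Subtype.val h1
    have h3 : a = (x : Ω) * c := congrArg Subtype.val he
    rw [h3, mul_inv_rev]
    calc (x : Ω) * y * (x : Ω)⁻¹ = (x : Ω) * (y * c) * ((c : Ω)⁻¹ * (x : Ω)⁻¹) := by group
      _ = _ := by rw [h2]; group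
  have hxVG : ∀ y ∈ VG, (x : Ω) * y * (x : Ω)⁻¹ ∈ VG := by
    rintro _ ⟨y, hy, rfl⟩
    exact ⟨x * y * x⁻¹, (Subgroup.mem_normalizer_iff.1 hxV y).1 hy, rfl⟩
  have hxVG' : ∀ y ∈ VG, (x : Ω)⁻¹ * y * (x : Ω) ∈ VG := by
    rintro _ ⟨y, hy, rfl⟩
    have h1 := (Subgroup.mem_normalizer_iff.1 (inv_mem hxV) y).1 hy
    rw [inv_inv] at h1
    exact ⟨x⁻¹ * y * x, h1, rfl⟩
  have hle : A ⊔ VG ≤ S := sup_le (le_sup_left.trans hAQ) hVGS
  have hmap : FMap (groupFusionSystem S) (A ⊔ VG) (fun y => (x : Ω) * y * (x : Ω)⁻¹) := by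
    rw [fmap_group_iff]
    refine ⟨hle, ?_, x, fun y _ => rfl⟩
    have h1 : A ⊔ VG ≤ S.comap (MulAut.conj (x : Ω)).toMonoidHom := by
      apply sup_le
      · intro y hy
        change (x : Ω) * y * (x : Ω)⁻¹ ∈ S
        rw [hxA y hy, ← ha y (Subgroup.mem_sup_left hy)]
        exact hmem y (Subgroup.mem_sup_left hy)
      · intro y hy
        exact hVGS (hxVG y hy)
    exact fun y hy => h1 hy
  refine ⟨_, hmap, ?_, hmap.restrict le_sup_right, ?_⟩
  · intro y hy
    change (x : Ω) * y * (x : Ω)⁻¹ = f y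
    rw [hxA y hy, ← ha y (Subgroup.mem_sup_left hy), hg2 y hy]
  · intro y
    constructor
    · intro hy
      refine ⟨_, hxVG' y hy, ?_⟩
      change (x : Ω) * ((x : Ω)⁻¹ * y * x) * (x : Ω)⁻¹ = y
      group
    · rintro ⟨z, hz, rfl⟩
      exact hxVG z hz

theorem constrained {Ω : Type u} [Group Ω] [Finite Ω] {p : ℕ} [hp : Fact p.Prime] (hp3 : 3 < p) (P : Sylow p Ω)
    (hst : PS2 p Ω) : (groupFusionSystem (P : Subgroup Ω)).IsConstrained p := by
  set S : Subgroup Ω := (P : Subgroup Ω) with hS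
  set F := groupFusionSystem S with hF
  set Q := F.core with hQdef
  have hQ : F.IsNormal Q := FusionJoin.isNormal_core F
  have hQS : Q ≤ S := hQ.1
  have hsc := FusionNormal.isNormal_stronglyClosed hQ
  have hSQ : S ≤ Subgroup.normalizer (Q : Set Ω) := FusionNormal.normalizes_of_stronglyClosed hsc
  refine ⟨FusionGroup.groupFusionSystem_isSaturated P, Q, hQ, hQS, ?_⟩
  intro Q' hconj
  have hQ' : Q' = Q := by
    have hc := isConj_card_eq hconj
    obtain ⟨φ, hφ, hr⟩ := hconj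
    have h1 : Q' ≤ Q := by
      rw [← hr]
      rintro _ ⟨x, rfl⟩
      exact hsc.2 Q le_rfl φ hφ x
    exact eq_of_le_of_card_le h1 hc.le
  subst hQ'
  by_contra hnot
  set N := Subgroup.normalizer (Q : Set Ω) with hN
  set SK := S.subgroupOf N with hSK
  set QK := Q.subgroupOf N with hQK
  have hQKn : QK.Normal := Subgroup.normal_in_normalizer
  set C : Subgroup ↥N := cz QK with hC
  have hCn : C.Normal := cz_normal hQKn
  set R : Subgroup ↥N := QK ⊓ C with hR
  have hRn : R.Normal := inferInstance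
  have hSyl : SylIn p SK ⊤ := by
    have h1 : SylIn p S N := (sylIn_sylow P).of_le hSQ le_top
    exact SylIn.comap_inj N.subtype_injective (by rwa [Subgroup.range_subtype])
  have hRS : R ≤ SK := fun y hy => hQS (Subgroup.mem_inf.1 hy).1
  have hCR : C ≤ cz R := Subgroup.centralizer_le (fun y hy => (Subgroup.mem_inf.1 hy).1)
  have hW : Cfsg.IsCharPFunctor.{u} p Wab := isChar_Wab
  have hsf := sf_pre (W := Wab) hp3 (Or.inl rfl) (hst.sub N) (C := C) (R := R) hSyl hRS inf_le_right hCR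
  set D := SK ⊓ C with hD
  set V := pre Wab D R with hV
  have hVD : V ≤ D := pre_le D R (le_inf hRS inf_le_right)
  have hVn := isNormal_of_sf (S := S) hQ hN.symm (V := V) (hVD.trans inf_le_left) hsf
  have hVQ : V.map N.subtype ≤ Q := by
    have : V.map N.subtype ≤ F.core := le_sSup hVn
    exact this
  have hVR : V ≤ R := by
    intro v hv
    refine Subgroup.mem_inf.2 ⟨?_, (Subgroup.mem_inf.1 (hVD hv)).2⟩
    exact hVQ ⟨v, hv, rfl⟩
  have hDR : ¬ D ≤ R := by
    intro hle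
    apply hnot
    intro s hs
    obtain ⟨hs1, hs2⟩ := Subgroup.mem_inf.1 hs
    have h1 : (⟨s, hSQ hs1⟩ : ↥N) ∈ D := by
      refine Subgroup.mem_inf.2 ⟨hs1, ?_⟩
      rw [Subgroup.mem_centralizer_iff]
      intro y hy
      exact Subtype.ext (Subgroup.mem_centralizer_iff.1 hs2 y hy)
    exact (Subgroup.mem_inf.1 (hle h1)).1
  have hDp : IsPGroup p D := hSyl.isPGroup.to_le inf_le_left
  have h1 := functor_ne_bot (isConjugacyFunctor_induced (X := ↥N ⧸ R) hW) (hDp.map (QuotientGroup.mk' R))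
    (by
      intro h2
      rw [Subgroup.map_eq_bot_iff, QuotientGroup.ker_mk'] at h2
      exact hDR h2)
  apply h1
  have h2 : V.map (QuotientGroup.mk' R) = Cfsg.inducedFunctor Wab (D.map (QuotientGroup.mk' R)) :=
    Subgroup.map_comap_eq_self_of_surjective (QuotientGroup.mk'_surjective R) _
  rw [← h2, Subgroup.map_eq_bot_iff, QuotientGroup.ker_mk']
  exact hVR

end Cfsg.Agent.Lib.PSConstr62
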