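import Cfsg.Agent.Lib.GolayElts2
import Cfsg.Agent.Lib.GolayNamed
import Cfsg.Agent.Lib.GolaySix

/-!
# `23:11` and `PSL(2,23)` in `M23` and `M24` (`S1643`)
-/

set_option autoImplicit false
set_option linter.style.haveILetI false
set_option linter.unusedVariables false
set_option linter.unusedSimpArgs false
set_option linter.unusedSectionVars false

namespace Cfsg.Agent.Lib.PSL23

open Cfsg Cfsg.Agent.Lib.Golay
open scoped Pointwise

instance fact23' : Fact (Nat.Prime 23) := ⟨by norm_num⟩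
instance fact11' : Fact (Nat.Prime 11) := ⟨by norm_num⟩

/-- `x ↦ x + a` -/
def A (a : ZMod 23) : Equiv.Perm GolayPt := Equiv.optionCongr (Equiv.addRight a)

/-- `x ↦ u x` -/
def m (u : (ZMod 23)ˣ) : Equiv.Perm GolayPt := Equiv.optionCongr (Units.mulLeft u)

theorem A_some (a x : ZMod 23) : A a (some x) = some (x + a) := rfl
theorem A_none (a : ZMod 23) : A a none = none := rfl
theorem m_some (u : (ZMod 23)ˣ) (x : ZMod 23) : m u (some x) = some (u * x) := rfl
theorem m_none (u : (ZMod 23)ˣ) : m u none = none := rfl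

theorem A_add (a b : ZMod 23) : A (a + b) = A a * A b := by
  apply Equiv.ext
  rintro (_ | x)
  · rfl
  · rw [Equiv.Perm.mul_apply, A_some, A_some, A_some, add_assoc, add_comm a b]

theorem A_zero : A 0 = 1 := by
  apply Equiv.ext
  rintro (_ | x)
  · rfl
  · rw [A_some, add_zero]; rfl

theorem A_neg (a : ZMod 23) : A (-a) = (A a)⁻¹ := by
  rw [eq_inv_iff_mul_eq_one, ← A_add, neg_add_cancel, A_zero]

theorem m_mul (u v : (ZMod 23)ˣ) : m (u * v) = m u * m v := by
  apply Equiv.ext
  rintro (_ | x)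
  · rfl
  · rw [Equiv.Perm.mul_apply, m_some, m_some, m_some, Units.val_mul, mul_assoc]

theorem m_one : m 1 = 1 := by
  apply Equiv.ext
  rintro (_ | x)
  · rfl
  · rw [m_some, Units.val_one, one_mul]; rfl

theorem m_inv (u : (ZMod 23)ˣ) : m u⁻¹ = (m u)⁻¹ := by
  rw [eq_inv_iff_mul_eq_one, ← m_mul, inv_mul_cancel, m_one]

theorem m_A (u : (ZMod 23)ˣ) (a : ZMod 23) : m u * A a = A (u * a) * m u := by
  apply Equiv.ext
  rintro (_ | x)
  · rfl
  · rw [Equiv.Perm.mul_apply, Equiv.Perm.mul_apply, A_some, m_some, m_some, A_some, mul_add]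

theorem A_pow (a : ZMod 23) (k : ℕ) : A a ^ k = A (k * a) := by
  induction k with
  | zero => rw [pow_zero, Nat.cast_zero, zero_mul, A_zero]
  | succ k ih => rw [pow_succ, ih, ← A_add]; congr 1; push_cast; ring

theorem m_pow (u : (ZMod 23)ˣ) (k : ℕ) : m u ^ k = m (u ^ k) := by
  induction k with
  | zero => rw [pow_zero, pow_zero, m_one]
  | succ k ih => rw [pow_succ, ih, ← m_mul, pow_succ]

/-- the multiplications by squares -/
def SqSet : Set (Equiv.Perm GolayPt) :=
  {g : Equiv.Perm GolayPt | ∃ u : (ZMod 23)ˣ, IsSquare u ∧ g = Equiv.optionCongr (Units.mulLeft u)}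

/-- `23:11` -/
def Fg : Subgroup (Equiv.Perm GolayPt) :=
  Subgroup.closure ({Equiv.optionCongr (Equiv.addRight (1 : ZMod 23))} ∪ SqSet)

/-- `PSL(2,23)` -/
def Xg : Subgroup (Equiv.Perm GolayPt) :=
  Subgroup.closure ({Equiv.optionCongr (Equiv.addRight (1 : ZMod 23)), projInv} ∪ SqSet)

theorem A_mem (a : ZMod 23) : A a ∈ Fg := by
  have h : A a = A 1 ^ a.val := by
    rw [A_pow, mul_one, ZMod.natCast_zmod_val]
  have h1 : A 1 ∈ Fg := Subgroup.subset_closure (Set.mem_union_left _ (Set.mem_singleton _))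
  rw [h]
  exact Subgroup.pow_mem _ h1 _

theorem m_mem {u : (ZMod 23)ˣ} (hu : IsSquare u) : m u ∈ Fg :=
  Subgroup.subset_closure (Or.inr ⟨u, hu, rfl⟩)

theorem mem_Fg {g : Equiv.Perm GolayPt} : g ∈ Fg ↔ ∃ u : (ZMod 23)ˣ, IsSquare u ∧ ∃ a, g = A a * m u := by
  constructor
  · intro hg
    induction hg using Subgroup.closure_induction with
    | mem x hx =>
      rcases hx with hx | ⟨u, hu, rfl⟩
      · rw [Set.mem_singleton_iff] at hx
        exact ⟨1, IsSquare.one, 1, by rw [m_one, mul_one, hx]; rfl⟩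
      · exact ⟨u, hu, 0, by rw [A_zero, one_mul]; rfl⟩
    | one => exact ⟨1, IsSquare.one, 0, by rw [A_zero, m_one, mul_one]⟩
    | mul x y _ _ hx hy =>
      obtain ⟨u, hu, a, rfl⟩ := hx
      obtain ⟨v, hv, b, rfl⟩ := hy
      refine ⟨u * v, hu.mul hv, a + u * b, ?_⟩
      rw [A_add, m_mul, mul_assoc, ← mul_assoc (m u), m_A]
      simp only [mul_assoc]
    | inv x _ hx =>
      obtain ⟨u, hu, a, rfl⟩ := hx
      refine ⟨u⁻¹, hu.inv, (u⁻¹ : (ZMod 23)ˣ) * (-a), ?_⟩
      rw [mul_inv_rev, ← m_inv, ← A_neg, m_A]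
  · rintro ⟨u, hu, a, rfl⟩
    exact mul_mem (A_mem a) (m_mem hu)

theorem card_squares : Nat.card {u : (ZMod 23)ˣ // IsSquare u} = 11 := by
  rw [Nat.card_eq_fintype_card]
  decide +kernel

theorem AM_inj {a b : ZMod 23} {u v : (ZMod 23)ˣ} (h : A a * m u = A b * m v) : a = b ∧ u = v := by
  have h0 := DFunLike.congr_fun h (some 0)
  have h1 := DFunLike.congr_fun h (some 1)
  rw [Equiv.Perm.mul_apply, Equiv.Perm.mul_apply, m_some, m_some, A_some, A_some] at h0 h1
  rw [mul_zero, mul_zero, zero_add, zero_add] at h0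
  have h0' := Option.some.inj h0
  subst h0'
  refine ⟨rfl, Units.ext ?_⟩
  have h1' := Option.some.inj h1
  rw [mul_one, mul_one] at h1'
  exact add_right_cancel h1'

theorem card_Fg : Nat.card Fg = 253 := by
  let e : {u : (ZMod 23)ˣ // IsSquare u} × ZMod 23 → Fg := fun x => ⟨A x.2 * m x.1, mem_Fg.2 ⟨x.1, x.1.2, x.2, rfl⟩⟩
  have he : Function.Bijective e := by
    constructor
    · rintro ⟨⟨u, hu⟩, a⟩ ⟨⟨v, hv⟩, b⟩ h
      obtain ⟨h1, h2⟩ := AM_inj (congrArg Subtype.val h)
      have h1' : a = b := h1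
      have h2' : u = v := h2
      subst h1' h2'
      rfl
    · rintro ⟨g, hg⟩
      obtain ⟨u, hu, a, rfl⟩ := mem_Fg.1 hg
      exact ⟨(⟨u, hu⟩, a), rfl⟩
  rw [← Nat.card_congr (Equiv.ofBijective e he), Nat.card_prod, card_squares, Nat.card_zmod]

/-- the point stabiliser -/
abbrev M23P : Subgroup (Equiv.Perm GolayPt) := M24 ⊓ MulAction.stabilizer (Equiv.Perm GolayPt) (none : GolayPt)

theorem Fg_le_M24 : Fg ≤ M24 := by
  rw [Fg, Subgroup.closure_le]
  rintro g (hg | ⟨u, hu, rfl⟩)
  · rw [Set.mem_singleton_iff] at hg; rw [hg]; exact shift_mem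
  · exact mulSquare_mem u hu

theorem Fg_le : Fg ≤ M23P := by
  intro g hg
  refine ⟨Fg_le_M24 hg, ?_⟩
  obtain ⟨u, hu, a, rfl⟩ := mem_Fg.1 hg
  rfl

theorem Xg_le : Xg ≤ M24 := by
  rw [Xg, Subgroup.closure_le]
  rintro g (hg | ⟨u, hu, rfl⟩)
  · rcases hg with hg | hg
    · rw [hg]; exact shift_mem
    · rw [Set.mem_singleton_iff] at hg; rw [hg]; exact projInv_mem
  · exact mulSquare_mem u hu

theorem Fg_le_Xg : Fg ≤ Xg := by
  apply Subgroup.closure_mono
  rintro g (hg | hg)
  · left; left; exact hg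
  · right; exact hg

theorem card_M23P : Nat.card M23P = 10200960 := by
  rw [← card_stab_one (none : GolayPt)]
  apply Nat.card_congr
  exact
    { toFun := fun g => ⟨⟨g.1, g.2.1⟩, g.2.2⟩
      invFun := fun g => ⟨g.1.1, g.1.2, g.2⟩
      left_inv := fun g => rfl
      right_inv := fun g => rfl }

/-! ### the involution `x ↦ -x` -/

theorem m_neg_one_notMem : m (-1) ∉ M24 := by
  intro h
  have h2 : orderOf (m (-1)) = 2 := by
    haveI : Fact (Nat.Prime 2) := ⟨Nat.prime_two⟩
    apply orderOf_eq_prime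
    · rw [m_pow]; rw [show ((-1 : (ZMod 23)ˣ)) ^ 2 = 1 by simp, m_one]
    · intro h1
      have := DFunLike.congr_fun h1 (some 1)
      rw [m_some] at this
      revert this
      decide
  have h3 : (Finset.univ.filter fun p => m (-1) p = p).card = 2 := by
    decide +kernel
  rcases fix_two h h2 with ⟨_, h4⟩ | ⟨_, h4⟩
  · rw [h3] at h4; exact absurd h4 (by norm_num)
  · rw [h3] at h4; exact absurd h4 (by norm_num)

theorem square_or_neg : ∀ u : (ZMod 23)ˣ, IsSquare u ∨ IsSquare (-u) := by decide +kernel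

theorem isSquare_of_mem {u : (ZMod 23)ˣ} (h : m u ∈ M24) : IsSquare u := by
  rcases square_or_neg u with h1 | h1
  · exact h1
  · exfalso
    apply m_neg_one_notMem
    have h2 : m (-u) ∈ M24 := Fg_le_M24 (m_mem h1)
    have h3 : m (-1) = m (-u) * (m u)⁻¹ := by
      rw [← m_inv, ← m_mul]; congr 1
      rw [neg_mul, mul_inv_cancel]
    rw [h3]
    exact M24.mul_mem h2 (M24.inv_mem h)

/-! ### normalizer of the subgroup of order 23 -/

/-- the subgroup of order 23 -/
def P23 : Subgroup (Equiv.Perm GolayPt) := Subgroup.zpowers (A 1)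

theorem A_mem_P23 (a : ZMod 23) : A a ∈ P23 := by
  have h : A a = A 1 ^ a.val := by
    rw [A_pow, mul_one, ZMod.natCast_zmod_val]
  rw [h]
  exact Subgroup.pow_mem _ (Subgroup.mem_zpowers _) _

theorem orderOf_A : orderOf (A 1) = 23 := by
  apply orderOf_eq_prime
  · rw [A_pow]
    have : ((23 : ℕ) : ZMod 23) = 0 := by decide
    rw [this, zero_mul, A_zero]
  · intro h1
    have := DFunLike.congr_fun h1 (some 0)
    rw [A_some] at this
    revert this
    decide

theorem mem_P23 {g : Equiv.Perm GolayPt} : g ∈ P23 ↔ ∃ a, g = A a := by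
  constructor
  · rintro ⟨k, rfl⟩
    have h1 : A 1 ^ (k % 23).toNat = A 1 ^ k := by
      rw [← zpow_natCast, Int.toNat_of_nonneg (Int.emod_nonneg _ (by norm_num))]
      have := zpow_mod_orderOf (A 1) k
      rw [orderOf_A] at this
      exact this
    refine ⟨((k % 23).toNat : ℕ) * 1, ?_⟩
    show A 1 ^ k = _
    rw [← h1, A_pow]
  · rintro ⟨a, rfl⟩; exact A_mem_P23 a

theorem card_P23 : Nat.card P23 = 23 := by
  rw [P23, Nat.card_zpowers, orderOf_A]

theorem P23_le : P23 ≤ Fg := by
  intro g hg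
  obtain ⟨a, rfl⟩ := mem_P23.1 hg
  exact A_mem a

theorem Fg_normalizes {g : Equiv.Perm GolayPt} (hg : g ∈ Fg) : g ∈ Subgroup.normalizer (P23 : Set (Equiv.Perm GolayPt)) := by
  obtain ⟨u, hu, a, rfl⟩ := mem_Fg.1 hg
  apply mul_mem
  · exact Subgroup.le_normalizer (A_mem_P23 a)
  · rw [Subgroup.mem_normalizer_iff]
    have key : ∀ u : (ZMod 23)ˣ, ∀ x ∈ P23, m u * x * (m u)⁻¹ ∈ P23 := by
      intro u x hx
      obtain ⟨b, rfl⟩ := mem_P23.1 hx
      rw [m_A, mul_inv_cancel_right]
      exact A_mem_P23 _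
    intro x
    constructor
    · exact key u x
    · intro h
      have := key u⁻¹ _ h
      rw [m_inv] at this
      have e : (m u)⁻¹ * (m u * x * (m u)⁻¹) * (m u)⁻¹⁻¹ = x := by group
      rwa [e] at this

theorem mem_Fg_of_normalizes {g : Equiv.Perm GolayPt} (hg : g ∈ M23P)
    (h : g ∈ Subgroup.normalizer (P23 : Set (Equiv.Perm GolayPt))) : g ∈ Fg := by
  have hgn : g none = none := hg.2
  rw [Subgroup.mem_normalizer_iff] at h
  have h1 := (h (A 1)).1 (A_mem_P23 1)
  obtain ⟨c, hc⟩ := mem_P23.1 h1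
  rw [mul_inv_eq_iff_eq_mul] at hc
  have h2 : ∀ x : ZMod 23, g (some (x + 1)) = A c (g (some x)) := by
    intro x
    have := DFunLike.congr_fun hc (some x)
    rw [Equiv.Perm.mul_apply, Equiv.Perm.mul_apply, A_some] at this
    exact this
  obtain ⟨b, hb⟩ : ∃ b, g (some 0) = some b := by
    cases hg0 : g (some 0) with
    | none =>
      exfalso
      have := g.injective (hg0.trans hgn.symm)
      exact absurd this (by simp)
    | some b => exact ⟨b, rfl⟩
  have h3 : ∀ k : ℕ, g (some (k : ZMod 23)) = some (c * k + b) := by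
    intro k
    induction k with
    | zero => rw [Nat.cast_zero, hb, mul_zero, zero_add]
    | succ k ih =>
      rw [Nat.cast_succ, h2, ih, A_some]
      congr 1; ring
  have h4 : ∀ x : ZMod 23, g (some x) = some (c * x + b) := by
    intro x
    have := h3 x.val
    rwa [ZMod.natCast_zmod_val] at this
  have hc0 : c ≠ 0 := by
    intro h0
    have h5 := h4 0
    have h6 := h4 1
    rw [h0] at h5 h6
    rw [zero_mul] at h5 h6
    have := g.injective (h5.trans h6.symm)
    revert this; decide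
  have h5 : g = A b * m (Units.mk0 c hc0) := by
    apply Equiv.ext
    rintro (_ | x)
    · rw [hgn]; rfl
    · rw [h4]; rfl
  rw [mem_Fg]
  refine ⟨Units.mk0 c hc0, ?_, b, h5⟩
  apply isSquare_of_mem
  have h6 : m (Units.mk0 c hc0) = (A b)⁻¹ * g := by rw [h5, inv_mul_cancel_left]
  rw [h6]
  exact M24.mul_mem (M24.inv_mem (Fg_le_M24 (A_mem b))) hg.1

/-! ### Sylow counting -/

theorem sylow_count {G : Type*} [Group G] [Finite G] (L Q : Subgroup G) (p : ℕ) [hp : Fact p.Prime] (hQL : Q ≤ L)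
    (hQ : Nat.card Q = p) (hp2 : ¬ p ^ 2 ∣ Nat.card L) :
    ∃ k, k ≡ 1 [MOD p] ∧ Nat.card L = k * Nat.card ↥(L ⊓ Subgroup.normalizer (Q : Set G)) := by
  have hL0 : Nat.card L ≠ 0 := Nat.card_pos.ne'
  have hcQ : Nat.card (Q.subgroupOf L) = p := by
    rw [Nat.card_congr (Subgroup.subgroupOfEquivOfLe hQL).toEquiv, hQ]
  have hfac : (Nat.card L).factorization p = 1 := by
    apply le_antisymm
    · by_contra hcon
      push Not at hcon
      exact hp2 ((hp.out.pow_dvd_iff_le_factorization hL0).2 (by omega))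
    · rw [← hp.out.dvd_iff_one_le_factorization hL0]
      have := Subgroup.card_dvd_of_le hQL
      rwa [hQ] at this
  let P : Sylow p L := Sylow.ofCard (Q.subgroupOf L) (by rw [hcQ, hfac, pow_one])
  have hP : (P : Subgroup L) = Q.subgroupOf L := rfl
  refine ⟨Nat.card (Sylow p L), card_sylow_modEq_one p L, ?_⟩
  rw [Sylow.card_eq_index_normalizer P]
  show _ = (Subgroup.normalizer ((Q.subgroupOf L : Subgroup L) : Set L)).index * _
  have h1 := Subgroup.index_mul_card (Subgroup.normalizer ((Q.subgroupOf L : Subgroup L) : Set L))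
  have h2 : Nat.card (Subgroup.normalizer ((Q.subgroupOf L : Subgroup L) : Set L)) =
      Nat.card ↥(L ⊓ Subgroup.normalizer (Q : Set G)) := by
    apply Nat.card_congr
    have key : ∀ g : L, g ∈ Subgroup.normalizer ((Q.subgroupOf L : Subgroup L) : Set L) ↔
        (g : G) ∈ Subgroup.normalizer (Q : Set G) := by
      intro g
      rw [Subgroup.mem_normalizer_iff, Subgroup.mem_normalizer_iff]
      constructor
      · intro h x
        constructor
        · intro hx
          exact (h ⟨x, hQL hx⟩).1 hx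
        · intro hx
          have h3 : x ∈ L := by
            have h4 : x = (g : G)⁻¹ * (g * x * (g : G)⁻¹) * g := by group
            rw [h4]
            exact L.mul_mem (L.mul_mem (L.inv_mem g.2) (hQL hx)) g.2
          exact (h ⟨x, h3⟩).2 hx
      · intro h x
        exact h x
    exact
      { toFun := fun g => ⟨g.1.1, g.1.2, (key g.1).1 g.2⟩
        invFun := fun g => ⟨⟨g.1, g.2.1⟩, (key ⟨g.1, g.2.1⟩).2 g.2.2⟩
        left_inv := fun g => rfl
        right_inv := fun g => rfl }
  rw [← h2, h1]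

/-! ### the subgroup of order 11 -/

theorem two_ne : (2 : ZMod 23) ≠ 0 := by decide

/-- the unit 2 -/
def u2 : (ZMod 23)ˣ := Units.mk0 2 two_ne

/-- `x ↦ 2x` -/
def x11 : Equiv.Perm GolayPt := m u2

theorem x11_some (x : ZMod 23) : x11 (some x) = some (2 * x) := rfl
theorem x11_none : x11 none = none := rfl

theorem orderOf_x11 : orderOf x11 = 11 := by
  apply orderOf_eq_prime
  · rw [x11, m_pow]
    have : u2 ^ 11 = 1 := by
      apply Units.ext
      rw [Units.val_pow_eq_pow_val]
      decide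
    rw [this, m_one]
  · intro h1
    have := DFunLike.congr_fun h1 (some 1)
    rw [x11_some] at this
    revert this
    decide

theorem isSquare_u2 : IsSquare u2 := by
  refine ⟨Units.mk0 5 (by decide), ?_⟩
  apply Units.ext
  show (2 : ZMod 23) = 5 * 5
  decide

theorem x11_mem : x11 ∈ Fg := m_mem isSquare_u2

def Q11 : Subgroup (Equiv.Perm GolayPt) := Subgroup.zpowers x11

theorem card_Q11 : Nat.card Q11 = 11 := by rw [Q11, Nat.card_zpowers, orderOf_x11]

theorem Q11_le : Q11 ≤ Fg := by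
  rw [Q11, Subgroup.zpowers_le]; exact x11_mem

/-- the centralizer of `Q11` in `M23P` -/
def C11 : Subgroup (Equiv.Perm GolayPt) := M23P ⊓ Subgroup.centralizer (Q11 : Set (Equiv.Perm GolayPt))

theorem mem_C11 {g : Equiv.Perm GolayPt} : g ∈ C11 ↔ g ∈ M23P ∧ g * x11 = x11 * g := by
  rw [C11, Subgroup.mem_inf]
  apply and_congr_right
  intro _
  rw [Subgroup.mem_centralizer_iff]
  constructor
  · intro h; exact (h x11 (Subgroup.mem_zpowers _)).symm
  · intro h y hy
    have h1 : Commute x11 g := h.symm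
    obtain ⟨k, rfl⟩ := hy
    exact (h1.zpow_left k)

theorem eq_one_of_C11 {g : Equiv.Perm GolayPt} (hg : g ∈ C11) (h1 : g (some 1) = some 1) : g = 1 := by
  rw [mem_C11] at hg
  obtain ⟨⟨hM, hn⟩, hc⟩ := hg
  have hn' : g none = none := hn
  have hx : ∀ p, g (x11 p) = x11 (g p) := fun p => DFunLike.congr_fun hc p
  have h0 : g (some 0) = some 0 := by
    have h2 := hx (some 0)
    rw [x11_some, mul_zero] at h2
    cases hg0 : g (some 0) with
    | none => exact absurd (g.injective (hg0.trans hn'.symm)) (by simp)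
    | some b =>
      rw [hg0, x11_some] at h2
      have h3 := Option.some.inj h2
      have h4 : b = 0 := by
        have : 2 * b - b = 0 := by rw [← h3]; ring
        have h5 : b = 2 * b - b := by ring
        rw [h5, this]
      rw [h4]
  have hs : ∀ y : ZMod 23, g (some y) = some y → g (some (2 * y)) = some (2 * y) := by
    intro y hy
    rw [← x11_some, hx, hy]
  have h2 := hs _ h1
  have h4 := hs _ h2
  have h8 := hs _ h4
  have h16 := hs _ h8
  have h9 := hs _ h16
  have h18 := hs _ h9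
  have h13 := hs _ h18
  have h3 := hs _ h13
  have h6 := hs _ h3
  have e2 : (2 * 1 : ZMod 23) = 2 := by decide
  have e4 : (2 * (2 * 1) : ZMod 23) = 4 := by decide
  have e3 : (2 * (2 * (2 * (2 * (2 * (2 * (2 * (2 * 1))))))) : ZMod 23) = 3 := by decide
  have e6 : (2 * (2 * (2 * (2 * (2 * (2 * (2 * (2 * (2 * 1)))))))) : ZMod 23) = 6 := by decide
  rw [e2] at h2
  rw [e4] at h4
  rw [e3] at h3
  rw [e6] at h6
  have hII : ∀ i, g (fII i) = fII i := by
    intro i
    fin_cases i
    · exact hn'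
    · exact h0
    · exact h1
    · exact h2
    · exact h3
    · exact h4
  rcases fixII hM hII with h | h | h
  · exact h
  · exfalso
    have e : toPerm cZ (pt 6) = pt (img cZ 6) := toPerm_pt (valid_of_inM inM_cZ) (by norm_num)
    rw [← h] at e
    have h6' : g (pt 6) = pt 6 := h6
    rw [h6'] at e
    revert e; decide +kernel
  · exfalso
    have e : toPerm cZ' (pt 6) = pt (img cZ' 6) := toPerm_pt (valid_of_inM inM_cZ') (by norm_num)
    rw [← h] at e
    have h6' : g (pt 6) = pt 6 := h6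
    rw [h6'] at e
    revert e; decide +kernel

theorem card_C11_le : Nat.card C11 ≤ 22 := by
  have h22 : Nat.card {x : GolayPt // x ≠ none ∧ x ≠ some 0} = 22 := by
    rw [Nat.card_eq_fintype_card]
    decide +kernel
  rw [← h22]
  have hmap : ∀ g : C11, (g : Equiv.Perm GolayPt) (some 1) ≠ none ∧ (g : Equiv.Perm GolayPt) (some 1) ≠ some 0 := by
    rintro ⟨g, hg⟩
    rw [mem_C11] at hg
    obtain ⟨⟨hM, hn⟩, hc⟩ := hg
    have hn' : g none = none := hn
    have hx : ∀ p, g (x11 p) = x11 (g p) := fun p => DFunLike.congr_fun hc p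
    constructor
    · intro h
      exact absurd (g.injective (h.trans hn'.symm)) (by simp)
    · intro h
      have h2 := hx (some 1)
      have h3 : g (some 1) = some 0 := h
      rw [h3, x11_some, x11_some, mul_zero, ← h3] at h2
      have h4 := g.injective h2
      revert h4; decide
  apply Nat.card_le_card_of_injective (fun g : C11 => (⟨(g : Equiv.Perm GolayPt) (some 1), hmap g⟩ :
    {x : GolayPt // x ≠ none ∧ x ≠ some 0}))
  intro g h hgh
  have h1 : (g : Equiv.Perm GolayPt) (some 1) = (h : Equiv.Perm GolayPt) (some 1) := congrArg Subtype.val hgh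
  have h2 : (h : Equiv.Perm GolayPt)⁻¹ * g = 1 := by
    apply eq_one_of_C11 (C11.mul_mem (C11.inv_mem h.2) g.2)
    rw [Equiv.Perm.mul_apply, h1, perm_inv_apply]
  rw [inv_mul_eq_one] at h2
  exact Subtype.ext h2.symm

theorem Q11_le_C11 : Q11 ≤ C11 := by
  rw [Q11, Subgroup.zpowers_le, mem_C11]
  exact ⟨Fg_le x11_mem, rfl⟩

/-- the normalizer -/
def N11 : Subgroup (Equiv.Perm GolayPt) := M23P ⊓ Subgroup.normalizer (Q11 : Set (Equiv.Perm GolayPt))

theorem card_N11_eq : ∃ f, f ∣ 10 ∧ Nat.card N11 = Nat.card C11 * f := by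
  haveI : IsCyclic Q11 := by unfold Q11; infer_instance
  let φ : N11 →* MulAut Q11 := Q11.normalizerMonoidHom.comp (Subgroup.inclusion inf_le_right)
  refine ⟨Nat.card φ.range, ?_, ?_⟩
  · have h1 : Nat.card (MulAut Q11) = 10 := by
      rw [IsCyclic.card_mulAut, card_Q11]; decide
    rw [← h1]
    exact Subgroup.card_subgroup_dvd_card _
  · have h1 := Subgroup.card_mul_index φ.ker
    rw [Subgroup.index_ker] at h1
    rw [← h1]
    congr 1
    apply Nat.card_congr
    have key : ∀ g : N11, g ∈ φ.ker ↔ (g : Equiv.Perm GolayPt) ∈ C11 := by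
      intro g
      have h2 : g ∈ φ.ker ↔ Subgroup.inclusion (inf_le_right : N11 ≤ _) g ∈ Q11.normalizerMonoidHom.ker := Iff.rfl
      rw [h2, Subgroup.normalizerMonoidHom_ker, Subgroup.mem_subgroupOf]
      constructor
      · intro h; exact ⟨g.2.1, h⟩
      · intro h; exact h.2
    exact
      { toFun := fun g => ⟨g.1.1, (key g.1).1 g.2⟩
        invFun := fun g => ⟨⟨g.1, g.2.1, by
          show g.1 ∈ Subgroup.normalizer (Q11 : Set (Equiv.Perm GolayPt))
          rw [Subgroup.mem_normalizer_iff]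
          intro h
          have hc := Subgroup.mem_centralizer_iff.1 g.2.2
          constructor
          · intro hh
            rw [← hc h hh, mul_inv_cancel_right]; exact hh
          · intro hh
            have h3 := hc _ hh
            have h4 : h = g.1⁻¹ * ((g.1 * h * g.1⁻¹) * g.1) := by group
            rw [h4, h3, inv_mul_cancel_left]
            exact hh⟩, (key _).2 g.2⟩
        left_inv := fun g => rfl
        right_inv := fun g => rfl }

theorem card_N11 : Nat.card N11 = 55 := by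
  obtain ⟨f, hf, hN⟩ := card_N11_eq
  have h11 : 11 ∣ Nat.card C11 := by
    have := Subgroup.card_dvd_of_le Q11_le_C11
    rwa [card_Q11] at this
  have hC := card_C11_le
  have hCpos : 0 < Nat.card C11 := Nat.card_pos
  obtain ⟨k, hk1, hk2⟩ := sylow_count M23P Q11 11 (Q11_le.trans Fg_le) card_Q11 (by rw [card_M23P]; norm_num)
  have hk3 : Nat.card M23P = k * Nat.card N11 := hk2
  rw [card_M23P, hN] at hk3
  rw [hN]
  have hk1' : k % 11 = 1 := hk1
  have hc2 : Nat.card C11 = 11 ∨ Nat.card C11 = 22 := by omega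
  have hf2 : f = 1 ∨ f = 2 ∨ f = 5 ∨ f = 10 := by
    have h1 : f ≤ 10 := Nat.le_of_dvd (by norm_num) hf
    interval_cases f <;> revert hf <;> decide
  rcases hc2 with h | h <;> rcases hf2 with h' | h' | h' | h' <;> rw [h, h'] at hk3 ⊢ <;> omega

/-- subgroups between `23:11` and `M23` -/
theorem key23 (L : Subgroup (Equiv.Perm GolayPt)) (hF : Fg ≤ L) (hL : L ≤ M23P) : L = Fg ∨ L = M23P := by
  have hdvd : Nat.card L ∣ 10200960 := by
    rw [← card_M23P]; exact Subgroup.card_dvd_of_le hL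
  have hn1 : L ⊓ Subgroup.normalizer (P23 : Set (Equiv.Perm GolayPt)) = Fg := by
    apply le_antisymm
    · rintro g ⟨h1, h2⟩; exact mem_Fg_of_normalizes (hL h1) h2
    · intro g hg; exact ⟨hF hg, Fg_normalizes hg⟩
  obtain ⟨k, hk1, hk2⟩ := sylow_count L P23 23 (P23_le.trans hF) card_P23 (fun h =>
    absurd (h.trans hdvd) (by norm_num))
  rw [hn1, card_Fg] at hk2
  obtain ⟨k', hk1', hk2'⟩ := sylow_count L Q11 11 (Q11_le.trans hF) card_Q11 (fun h =>
    absurd (h.trans hdvd) (by norm_num))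
  have hN : Nat.card ↥(L ⊓ Subgroup.normalizer (Q11 : Set (Equiv.Perm GolayPt))) ∣ 55 := by
    rw [← card_N11]
    exact Subgroup.card_dvd_of_le (inf_le_inf_right _ hL)
  have hN' : 11 ∣ Nat.card ↥(L ⊓ Subgroup.normalizer (Q11 : Set (Equiv.Perm GolayPt))) := by
    have h1 : Q11 ≤ L ⊓ Subgroup.normalizer (Q11 : Set (Equiv.Perm GolayPt)) :=
      le_inf (Q11_le.trans hF) Subgroup.le_normalizer
    have := Subgroup.card_dvd_of_le h1
    rwa [card_Q11] at this
  generalize Nat.card ↥(L ⊓ Subgroup.normalizer (Q11 : Set (Equiv.Perm GolayPt))) = c at *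
  have hc : c = 11 ∨ c = 55 := by
    have h1 : c ≤ 55 := Nat.le_of_dvd (by norm_num) hN
    have h2 : ∀ c ≤ 55, c ∣ 55 → 11 ∣ c → c = 11 ∨ c = 55 := by decide
    exact h2 c h1 hN hN'
  have hkd : k ∣ 40320 := by
    have h1 : k * 253 ∣ 40320 * 253 := by rw [← hk2]; exact hdvd
    exact Nat.dvd_of_mul_dvd_mul_right (by norm_num) h1
  have hk23 : k % 23 = 1 := hk1
  have hk11 : k' % 11 = 1 := hk1'
  have hk : k = 1 ∨ k = 24 ∨ k = 70 ∨ k = 576 ∨ k = 1680 ∨ k = 40320 := by
    have h1 : k ∈ (Nat.divisors 40320).filter (fun d => d % 23 = 1) := by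
      rw [Finset.mem_filter, Nat.mem_divisors]
      exact ⟨⟨hkd, by norm_num⟩, hk23⟩
    have h2 : (Nat.divisors 40320).filter (fun d => d % 23 = 1) = {1, 24, 70, 576, 1680, 40320} := by
      decide +kernel
    rw [h2] at h1
    simpa using h1
  rw [hk2] at hk2'
  have hk' : k = 1 ∨ k = 40320 := by
    rcases hk with h | h | h | h | h | h
    · exact Or.inl h
    · exfalso; rcases hc with h' | h' <;> rw [h, h'] at hk2' <;> omega
    · exfalso; rcases hc with h' | h' <;> rw [h, h'] at hk2' <;> omega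
    · exfalso; rcases hc with h' | h' <;> rw [h, h'] at hk2' <;> omega
    · exfalso; rcases hc with h' | h' <;> rw [h, h'] at hk2' <;> omega
    · exact Or.inr h
  rcases hk' with h | h
  · left
    symm
    apply Subgroup.eq_of_le_of_card_ge hF
    rw [hk2, h, card_Fg]
  · right
    apply Subgroup.eq_of_le_of_card_ge hL
    rw [hk2, h, card_M23P]

/-! ### `PSL(2,23)` -/

theorem w_none : projInv none = some 0 := rfl
theorem w_zero : projInv (some 0) = none := rfl
theorem w_w : projInv * projInv = 1 := by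
  apply Equiv.ext
  intro x
  exact projInv.left_inv x

theorem w_m_aux : ∀ u v : ZMod 23, u * v = 1 → ∀ x : ZMod 23, projInvFun (some (u * x)) =
    (match projInvFun (some x) with
      | none => none
      | some y => some (v * y)) := by decide +kernel

theorem w_m (u : (ZMod 23)ˣ) : projInv * m u = m u⁻¹ * projInv := by
  apply Equiv.ext
  rintro (_ | x)
  · show projInvFun none = m u⁻¹ (projInvFun none)
    show some 0 = m u⁻¹ (some 0)
    rw [m_some, mul_zero]
  · show projInvFun (some (u * x)) = m u⁻¹ (projInvFun (some x))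
    rw [w_m_aux u (u⁻¹ : (ZMod 23)ˣ) (by rw [← Units.val_mul, mul_inv_cancel, Units.val_one])]
    cases projInvFun (some x) with
    | none => rfl
    | some y => rfl

theorem w_A_aux : ∀ a b : ZMod 23, a * b = 1 → ∀ p : GolayPt, projInv (A a (projInv p)) =
    A (-b) ((match projInv (A (-b) p) with
      | none => none
      | some y => some ((b * b) * y))) := by decide +kernel

theorem w_A (a : (ZMod 23)ˣ) : projInv * A a * projInv =
    A (-((a⁻¹ : (ZMod 23)ˣ) : ZMod 23)) * m (a⁻¹ * a⁻¹) * projInv * A (-((a⁻¹ : (ZMod 23)ˣ) : ZMod 23)) := by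
  apply Equiv.ext
  intro p
  have h := w_A_aux a (a⁻¹ : (ZMod 23)ˣ) (by rw [← Units.val_mul, mul_inv_cancel, Units.val_one]) p
  rw [Equiv.Perm.mul_apply, Equiv.Perm.mul_apply, Equiv.Perm.mul_apply, Equiv.Perm.mul_apply, Equiv.Perm.mul_apply, h]
  cases projInv (A (-((a⁻¹ : (ZMod 23)ˣ) : ZMod 23)) p) with
  | none => rfl
  | some y => rfl

theorem w_mem : projInv ∈ Xg :=
  Subgroup.subset_closure (Set.mem_union_left _ (Set.mem_insert_of_mem _ (Set.mem_singleton _)))

theorem bruhat_left {g : Equiv.Perm GolayPt} (h : g ∈ Fg ∨ ∃ f ∈ Fg, ∃ f' ∈ Fg, g = f * projInv * f')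
    {k : Equiv.Perm GolayPt} (hk : k ∈ Fg) : (k * g) ∈ Fg ∨ ∃ f ∈ Fg, ∃ f' ∈ Fg, k * g = f * projInv * f' := by
  rcases h with h | ⟨f, hf, f', hf', rfl⟩
  · left; exact mul_mem hk h
  · right
    exact ⟨k * f, mul_mem hk hf, f', hf', by simp only [mul_assoc]⟩

theorem bruhat_w {g : Equiv.Perm GolayPt} (h : g ∈ Fg ∨ ∃ f ∈ Fg, ∃ f' ∈ Fg, g = f * projInv * f') :
    (projInv * g) ∈ Fg ∨ ∃ f ∈ Fg, ∃ f' ∈ Fg, projInv * g = f * projInv * f' := by
  rcases h with h | ⟨f, hf, f', hf', rfl⟩
  · right; exact ⟨1, one_mem _, g, h, by rw [one_mul]⟩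
  · obtain ⟨u, hu, a, rfl⟩ := mem_Fg.1 hf
    have h1 : m u * projInv = projInv * m u⁻¹ := by
      have := w_m u⁻¹
      rw [inv_inv] at this
      exact this.symm
    have h2 : projInv * (A a * m u * projInv * f') = (projInv * A a * projInv) * (m u⁻¹ * f') := by
      rw [mul_assoc (A a), h1]; simp only [mul_assoc]
    rw [h2]
    have hmu : m u⁻¹ * f' ∈ Fg := mul_mem (m_mem hu.inv) hf'
    by_cases ha : a = 0
    · left
      rw [ha, A_zero, mul_one, w_w, one_mul]
      exact hmu
    · right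
      have h3 := w_A (Units.mk0 a ha)
      rw [Units.val_mk0] at h3
      rw [h3]
      refine ⟨A (-(((Units.mk0 a ha)⁻¹ : (ZMod 23)ˣ) : ZMod 23)) * m ((Units.mk0 a ha)⁻¹ * (Units.mk0 a ha)⁻¹),
        mul_mem (A_mem _) (m_mem ⟨_, rfl⟩), A (-(((Units.mk0 a ha)⁻¹ : (ZMod 23)ˣ) : ZMod 23)) * (m u⁻¹ * f'),
        mul_mem (A_mem _) hmu, ?_⟩
      simp only [mul_assoc]

theorem bruhat {g : Equiv.Perm GolayPt} (hg : g ∈ Xg) : g ∈ Fg ∨ ∃ f ∈ Fg, ∃ f' ∈ Fg, g = f * projInv * f' := by
  have hw : projInv⁻¹ = projInv := by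
    rw [inv_eq_iff_mul_eq_one]; exact w_w
  unfold Xg at hg
  induction hg using Subgroup.closure_induction_left with
  | one => exact Or.inl (one_mem _)
  | mul_left x hx y _ ih =>
    rcases hx with (hx | hx) | ⟨u, hu, rfl⟩
    · rw [hx]; exact bruhat_left ih (A_mem 1)
    · rw [Set.mem_singleton_iff] at hx; rw [hx]; exact bruhat_w ih
    · exact bruhat_left ih (m_mem hu)
  | inv_mul_cancel x hx y _ ih =>
    rcases hx with (hx | hx) | ⟨u, hu, rfl⟩
    · rw [hx]; exact bruhat_left ih (inv_mem (A_mem 1))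
    · rw [Set.mem_singleton_iff] at hx; rw [hx, hw]; exact bruhat_w ih
    · exact bruhat_left ih (inv_mem (m_mem hu))

theorem Xg_stab : Xg ⊓ MulAction.stabilizer (Equiv.Perm GolayPt) (none : GolayPt) = Fg := by
  apply le_antisymm
  · rintro g ⟨h1, h2⟩
    have h2' : g none = none := h2
    rcases bruhat h1 with h | ⟨f, hf, f', hf', rfl⟩
    · exact h
    · exfalso
      have h3 : f none = none := (Fg_le hf).2
      have h4 : f' none = none := (Fg_le hf').2
      rw [Equiv.Perm.mul_apply, Equiv.Perm.mul_apply, h4, w_none] at h2'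
      exact absurd (f.injective (h2'.trans h3.symm)) (by simp)
  · intro g hg
    exact ⟨Fg_le_Xg hg, (Fg_le hg).2⟩

theorem trans_of_ge {L : Subgroup (Equiv.Perm GolayPt)} (h : Xg ≤ L) (p : GolayPt) : ∃ g ∈ L, g • (none : GolayPt) = p := by
  cases p with
  | none => exact ⟨1, one_mem _, rfl⟩
  | some a =>
    refine ⟨A a * projInv, h (mul_mem (Fg_le_Xg (A_mem a)) w_mem), ?_⟩
    show (A a * projInv) none = some a
    rw [Equiv.Perm.mul_apply, w_none, A_some, zero_add]

theorem card_of_ge {L : Subgroup (Equiv.Perm GolayPt)} (h : Xg ≤ L) :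
    Nat.card L = 24 * Nat.card ↥(L ⊓ MulAction.stabilizer (Equiv.Perm GolayPt) (none : GolayPt)) := by
  have h1 := card_eq_mul_inf_stabilizer L (none : GolayPt) Set.univ (fun _ _ => Set.mem_univ _)
    (fun p _ => trans_of_ge h p)
  rw [h1, Set.ncard_univ, Nat.card_eq_fintype_card]
  rfl

theorem card_Xg : Nat.card Xg = 6072 := by
  rw [card_of_ge le_rfl, Xg_stab, card_Fg]

/-- subgroups between `PSL(2,23)` and `M24` -/
theorem key24 (L : Subgroup (Equiv.Perm GolayPt)) (hX : Xg ≤ L) (hL : L ≤ M24) : L = Xg ∨ L = M24 := by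
  have h1 := card_of_ge hX
  rcases key23 (L ⊓ MulAction.stabilizer (Equiv.Perm GolayPt) (none : GolayPt))
    (le_inf (Fg_le_Xg.trans hX) (fun g hg => (Fg_le hg).2)) (inf_le_inf_right _ hL) with h | h
  · left
    rw [h, card_Fg] at h1
    symm
    apply Subgroup.eq_of_le_of_card_ge hX
    rw [h1, card_Xg]
  · right
    rw [h, card_M23P] at h1
    apply Subgroup.eq_of_le_of_card_ge hL
    rw [h1, natCard_M24]

/-- coatoms -/
theorem coatom_of {G : Type*} [Group G] {F M : Subgroup G} (hFM : F ≤ M) (hne : F ≠ M)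
    (key : ∀ L : Subgroup G, F ≤ L → L ≤ M → L = F ∨ L = M) : IsCoatom (F.subgroupOf M) := by
  constructor
  · intro h
    rw [Subgroup.subgroupOf_eq_top] at h
    exact hne (le_antisymm hFM h)
  · intro K hK
    have h1 : F ≤ K.map M.subtype := by
      intro g hg
      exact ⟨⟨g, hFM hg⟩, hK.le hg, rfl⟩
    have h2 : K.map M.subtype ≤ M := by
      rintro _ ⟨g, _, rfl⟩; exact g.2
    rcases key _ h1 h2 with h | h
    · exfalso
      apply hK.not_ge
      intro g hg
      show (g : G) ∈ F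
      rw [← h]; exact ⟨g, hg, rfl⟩
    · rw [eq_top_iff]
      intro g _
      have h3 : (g : G) ∈ K.map M.subtype := by rw [h]; exact g.2
      obtain ⟨k, hk, hkg⟩ := h3
      have : k = g := Subtype.ext hkg
      rwa [← this]

theorem coatom_Xg : IsCoatom (Xg.subgroupOf M24) := by
  apply coatom_of Xg_le
  · intro h
    have h1 := card_Xg
    rw [h, natCard_M24] at h1
    exact absurd h1 (by norm_num)
  · exact key24

theorem coatom_Fg : IsCoatom ((Fg.subgroupOf M24).subgroupOf (MulAction.stabilizer M24 (none : GolayPt))) := by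
  apply coatom_of
  · intro g hg
    exact (Fg_le hg).2
  · intro h
    have h1 : Nat.card (MulAction.stabilizer M24 (none : GolayPt)) = 253 := by
      rw [← h, Nat.card_congr (Subgroup.subgroupOfEquivOfLe Fg_le_M24).toEquiv, card_Fg]
    rw [card_stab_one] at h1
    exact absurd h1 (by norm_num)
  · intro L hL1 hL2
    have h3 : ∀ g : ↥M24, g ∈ L ↔ (g : Equiv.Perm GolayPt) ∈ L.map M24.subtype := by
      intro g
      constructor
      · intro hg; exact ⟨g, hg, rfl⟩
      · rintro ⟨k, hk, hkg⟩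
        have : k = g := Subtype.ext hkg
        rwa [← this]
    have h1 : Fg ≤ L.map M24.subtype := by
      intro g hg
      exact ⟨⟨g, Fg_le_M24 hg⟩, hL1 hg, rfl⟩
    have h2 : L.map M24.subtype ≤ M23P := by
      rintro _ ⟨g, hg, rfl⟩
      exact ⟨g.2, hL2 hg⟩
    rcases key23 _ h1 h2 with h | h
    · left
      ext g
      rw [h3, h]; rfl
    · right
      ext g
      rw [h3, h]
      constructor
      · intro hg; exact hg.2
      · intro hg; exact ⟨g.2, hg⟩

end Cfsg.Agent.Lib.PSL23
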