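import Cfsg.Agent.Lib.PSLBal

/-!
# Local balance for linear socles: centralizers (helper45)
-/

set_option autoImplicit false
set_option linter.unusedSectionVars false

namespace Cfsg.Agent.Lib.PSLBal

open Matrix Cfsg
open Cfsg.Agent.Lib.PSLAut Cfsg.Agent.Lib.Descent

variable {F : Type*} [Field F] {n : ℕ} {F₀ : Type*} [Field F₀]

/-- commuting relations as matrix relations -/
theorem mat_of_comm (hn : 2 ≤ n) {ι : F₀ →+* F} {g : GL (Fin n) F} {τ : F ≃+* F} {s : GL (Fin n) F₀}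
    (h : dg g * fd τ * dg (mi ι s) = dg (mi ι s) * (dg g * fd τ)) :
    ∃ c : F, g.1 * s.1.map ((τ : F →+* F).comp ι) = c • (s.1.map ι * g.1) := by
  rw [mul_assoc, fd_dg', ← mul_assoc, ← mul_assoc, ← map_mul, ← map_mul] at h
  obtain ⟨u, hu⟩ := dg_eq_dg hn (mul_right_cancel h)
  refine ⟨u, ?_⟩
  have h1 := congrArg Units.val hu
  rw [sc_mul_coe, Units.val_mul, Units.val_mul, mp_coe, mi_coe, Matrix.map_map] at h1
  exact h1

theorem comm_of_mat (hn : 2 ≤ n) {ι : F₀ →+* F} {g : GL (Fin n) F} {τ : F ≃+* F} {s : GL (Fin n) F₀}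
    (h : dg g * fd τ * io * dg (mi ι s) = dg (mi ι s) * (dg g * fd τ * io)) :
    ∃ c : F, g.1 * (itGL s).1.map ((τ : F →+* F).comp ι) = c • (s.1.map ι * g.1) := by
  have e1 : itGL (mi ι s) = mi ι (itGL s) := (PSUGraph.mi_tau ι s).symm
  rw [mul_assoc, io_dg', ← mul_assoc, mul_assoc (dg g), fd_dg', ← mul_assoc, ← map_mul, ← mul_assoc (dg (mi ι s)),
    ← mul_assoc (dg (mi ι s)), ← map_mul, e1] at h
  obtain ⟨u, hu⟩ := dg_eq_dg hn (mul_right_cancel (mul_right_cancel h))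
  refine ⟨u, ?_⟩
  have h1 := congrArg Units.val hu
  rw [sc_mul_coe, Units.val_mul, Units.val_mul, mp_coe, mi_coe, mi_coe, Matrix.map_map] at h1
  exact h1

/-- a centralizing automorphism of the first kind -/
theorem cent_of_rigid (hn : 2 ≤ n) [Finite F] {ι : F₀ →+* F} {σ : F ≃+* F} (hι : ∀ x, σ x = x → ∃ y, ι y = x)
    {g : GL (Fin n) F} {τ : F ≃+* F} {T : Set (GL (Fin n) F₀)}
    (hT : ∀ (h : GL (Fin n) F) (f₁ f₂ : F₀ →+* F), (∀ s ∈ T, ∃ c : F, h.1 * s.1.map f₁ = c • (s.1.map f₂ * h.1)) →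
      (∃ u : Fˣ, ∀ v, h.1 *ᵥ v = (u : F) • v) ∧ ∀ y, f₁ y = f₂ y)
    (h : ∀ s ∈ T, dg g * fd τ * dg (mi ι s) = dg (mi ι s) * (dg g * fd τ)) :
    (dg g * fd τ : MulAut (ProjectiveSpecialLinearGroup (Fin n) F)) = fd τ ∧ τ ∈ Subgroup.zpowers σ := by
  let _ : Fintype F := Fintype.ofFinite F
  obtain ⟨⟨u, hu⟩, h2⟩ := hT g ((τ : F →+* F).comp ι) ι (fun s hs => mat_of_comm hn (h s hs))
  constructor
  · have h3 : g = sc u := by
      apply Units.ext
      apply Matrix.ext_of_mulVec_single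
      intro i
      rw [hu, sc_coe, ← Matrix.smul_one_eq_diagonal, Matrix.smul_mulVec, Matrix.one_mulVec]
    rw [h3, dg_sc, one_mul]
  · apply FFAut.mem_zpowers_of_fixed
    intro x hx
    obtain ⟨y, rfl⟩ := hι x hx
    exact h2 y

theorem sq_form (hn : 2 ≤ n) [Finite F] (θ : MulAut (ProjectiveSpecialLinearGroup (Fin n) F)) :
    ∃ (g : GL (Fin n) F) (τ : F ≃+* F), θ ^ 2 = dg g * fd τ := by
  let _ : Fintype F := Fintype.ofFinite F
  obtain ⟨g, σ, rfl | rfl⟩ := aut_psl hn θ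
  · exact ⟨nk σ g 2, σ ^ 2, dg_fd_pow _ _ _⟩
  · refine ⟨g * mp σ (itGL g), σ * σ, ?_⟩
    have h1 : (fd σ * io * (fd σ * io) : MulAut (ProjectiveSpecialLinearGroup (Fin n) F)) = fd (σ * σ) := by
      rw [mul_assoc, ← mul_assoc io, io_fd, mul_assoc, io_sq, mul_one, ← map_mul]
    rw [pow_two, ← h1, map_mul]
    calc dg g * fd σ * io * (dg g * fd σ * io) = dg g * (fd σ * io * dg g) * (fd σ * io) := by simp only [mul_assoc]
      _ = _ := by rw [fd_io_dg]; simp only [mul_assoc]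

/-- the square of a centralizing automorphism -/
theorem sq_cent (hn : 2 ≤ n) [Finite F] {ι : F₀ →+* F} {σ : F ≃+* F} (hι : ∀ x, σ x = x → ∃ y, ι y = x)
    {T : Set (GL (Fin n) F₀)}
    (hT : ∀ (h : GL (Fin n) F) (f₁ f₂ : F₀ →+* F), (∀ s ∈ T, ∃ c : F, h.1 * s.1.map f₁ = c • (s.1.map f₂ * h.1)) →
      (∃ u : Fˣ, ∀ v, h.1 *ᵥ v = (u : F) • v) ∧ ∀ y, f₁ y = f₂ y)
    {θ : MulAut (ProjectiveSpecialLinearGroup (Fin n) F)}
    (h : ∀ s ∈ T, θ * dg (mi ι s) = dg (mi ι s) * θ) : ∃ τ ∈ Subgroup.zpowers σ, θ ^ 2 = fd τ := by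
  obtain ⟨g, τ, e⟩ := sq_form hn θ
  have h1 := cent_of_rigid hn hι (g := g) (τ := τ) hT (fun s hs => by
    rw [← e, pow_two, mul_assoc, h s hs, ← mul_assoc, h s hs, mul_assoc])
  exact ⟨τ, h1.2, by rw [e, h1.1]⟩

theorem line_gen [NeZero n] {h : GL (Fin n) F} {u α w β : Fin n → F} (h1 : α ⬝ᵥ u = 0) (h2 : β ⬝ᵥ w = 0) (hα : α ≠ 0) {c : F}
    (H : h.1 * (1 + vecMulVec u α) = c • ((1 + vecMulVec w β) * h.1)) : ∃ d : F, h.1 *ᵥ u = d • w := by
  have hnil : ∀ {a b : Fin n → F}, b ⬝ᵥ a = 0 → IsNilpotent ((1 + vecMulVec a b : Matrix (Fin n) (Fin n) F) - 1) := by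
    intro a b hab
    refine ⟨2, ?_⟩
    rw [add_sub_cancel_left, pow_two, vecMulVec_mul_vecMulVec, hab]
    simp
  have hc := Rigid.c_eq_one (hnil h1) (hnil h2) h H
  rw [hc, one_smul, Matrix.mul_add, Matrix.add_mul, Matrix.mul_one, Matrix.one_mul] at H
  have h3 := add_left_cancel H
  rw [mul_vecMulVec, vecMulVec_mul] at h3
  obtain ⟨j, hj⟩ := Function.ne_iff.1 hα
  rw [Pi.zero_apply] at hj
  refine ⟨(α j)⁻¹ * (β ᵥ* h.1) j, ?_⟩
  ext i
  have h4 := congrFun (congrFun h3 i) j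
  rw [vecMulVec_apply, vecMulVec_apply] at h4
  rw [Pi.smul_apply, smul_eq_mul]
  field_simp
  linear_combination h4

/-- for `n ≥ 3` no automorphism of the second kind centralizes the root elements -/
theorem no_io (hn : 3 ≤ n) {ι : F₀ →+* F} {g : GL (Fin n) F} {τ : F ≃+* F}
    (h : ∀ s : SpecialLinearGroup (Fin n) F₀, dg g * fd τ * io * subL ι s = subL ι s * (dg g * fd τ * io)) : False := by
  have : NeZero n := ⟨by omega⟩
  obtain ⟨i, hi⟩ : ∃ z : Fin n, z = ⟨0, by omega⟩ := ⟨_, rfl⟩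
  obtain ⟨j, hj⟩ : ∃ z : Fin n, z = ⟨1, by omega⟩ := ⟨_, rfl⟩
  obtain ⟨k, hk⟩ : ∃ z : Fin n, z = ⟨2, by omega⟩ := ⟨_, rfl⟩
  have hij : i ≠ j := by rw [hi, hj]; simp
  have hik : i ≠ k := by rw [hi, hk]; simp
  have hjk : j ≠ k := by rw [hj, hk]; simp
  have key : ∀ a b : Fin n, a ≠ b → ∃ d : F, g.1 *ᵥ (Pi.single b 1) = d • (Pi.single a 1 : Fin n → F) := by
    intro a b hab
    have h0 : (Pi.single b (1 : F₀) : Fin n → F₀) ⬝ᵥ Pi.single a 1 = 0 := by simp [hab]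
    obtain ⟨c, hc⟩ := comm_of_mat (by omega) (h (tv (Pi.single a 1) (Pi.single b 1) h0))
    have e1 : (itGL (SpecialLinearGroup.toGL (tv (Pi.single a (1 : F₀)) (Pi.single b 1) h0))).1 =
        1 + vecMulVec (-Pi.single b 1) (Pi.single a 1) := by
      have := congrArg Subtype.val (invT_tv (Pi.single a (1 : F₀)) (Pi.single b 1) h0)
      rw [tv_coe] at this
      exact this
    have e2 : (SpecialLinearGroup.toGL (tv (Pi.single a (1 : F₀)) (Pi.single b 1) h0)).1 =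
        1 + vecMulVec (Pi.single a 1) (Pi.single b 1) := rfl
    have hs : ∀ (f : F₀ →+* F) (i : Fin n), (fun k => f ((Pi.single i 1 : Fin n → F₀) k)) = Pi.single i 1 := by
      intro f i
      ext k
      by_cases hk : k = i
      · subst hk; simp
      · simp [hk]
    have hm : ∀ (f : F₀ →+* F) (x y : Fin n → F₀), (1 + vecMulVec x y : Matrix (Fin n) (Fin n) F₀).map f =
        1 + vecMulVec (fun k => f (x k)) (fun k => f (y k)) := by
      intro f x y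
      rw [Matrix.map_add _ (map_add f), Matrix.map_one _ (map_zero f) (map_one f)]
      congr 1
      ext i j
      simp [vecMulVec_apply]
    have hneg : ∀ (f : F₀ →+* F) (i : Fin n), (fun k => f ((-Pi.single i 1 : Fin n → F₀) k)) = -Pi.single i 1 := by
      intro f i
      rw [← hs f i]
      ext k
      simp
    rw [e1, e2, hm, hm, hneg, hs, hs, hs] at hc
    obtain ⟨d, hd⟩ := line_gen (by simp [hab]) (by simp [hab]) (by
      intro h0
      have := congrFun h0 a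
      simp at this) hc
    exact ⟨-d, by rw [Matrix.mulVec_neg] at hd; rw [neg_smul, ← hd, neg_neg]⟩
  obtain ⟨d₁, hd₁⟩ := key i j hij
  obtain ⟨d₂, hd₂⟩ := key k j hjk.symm
  rw [hd₁] at hd₂
  have h1 : d₁ = 0 := by
    have := congrFun hd₂ i
    simpa [hik] using this
  rw [h1, zero_smul] at hd₁
  have h2 : (Pi.single j 1 : Fin n → F) = 0 := by
    have h3 : (g⁻¹).1 *ᵥ (g.1 *ᵥ (Pi.single j 1 : Fin n → F)) = Pi.single j 1 := by
      rw [Matrix.mulVec_mulVec, ← Units.val_mul, inv_mul_cancel, Units.val_one, Matrix.one_mulVec]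
    rw [← h3, hd₁, Matrix.mulVec_zero]
  have := congrFun h2 j
  simp at this

/-- rigidity of `SL_n(F₀)` -/
theorem rigid_SL (hn : 2 ≤ n) (h : GL (Fin n) F) (f₁ f₂ : F₀ →+* F)
    (H : ∀ s ∈ Set.range (SpecialLinearGroup.toGL : SpecialLinearGroup (Fin n) F₀ →* GL (Fin n) F₀),
      ∃ c : F, h.1 * s.1.map f₁ = c • (s.1.map f₂ * h.1)) :
    (∃ u : Fˣ, ∀ v, h.1 *ᵥ v = (u : F) • v) ∧ ∀ y, f₁ y = f₂ y := by
  have : NeZero n := ⟨by omega⟩
  refine Rigid.all_lines (by rw [Fintype.card_fin]; exact hn) (fun z hz => ?_)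
  obtain ⟨φ, hφ0, hφ⟩ := exists_ne_zero_dot hn z
  rw [dotProduct_comm] at hφ
  obtain ⟨c, hc⟩ := H _ ⟨tv z φ hφ, rfl⟩
  refine Rigid.line_of_unip (k := 1) (φ := φ) (X := (tv z φ hφ).1) ?_ ?_ hφ0 hc
  · refine ⟨2, ?_⟩
    rw [tv_coe, add_sub_cancel_left, pow_two, vecMulVec_mul_vecMulVec, hφ]
    simp
  · rw [tv_coe, add_sub_cancel_left, pow_one]

/-- centralizer of `PSL_n(F₀)` in the automorphism group -/
theorem cent_subL (hn : 2 ≤ n) [Finite F] {ι : F₀ →+* F} {σ : F ≃+* F} (hι : ∀ x, σ x = x → ∃ y, ι y = x) {p : ℕ}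
    (hσ : orderOf σ = p) {θ : MulAut (ProjectiveSpecialLinearGroup (Fin n) F)}
    (h : ∀ s : SpecialLinearGroup (Fin n) F₀, θ * subL ι s = subL ι s * θ) : θ ^ p = 1 := by
  let _ : Fintype F := Fintype.ofFinite F
  have hmain : ∀ (g : GL (Fin n) F) (τ : F ≃+* F), θ = dg g * fd τ → θ ^ p = 1 := by
    intro g τ e
    obtain ⟨h1, h2⟩ := cent_of_rigid hn hι (g := g) (τ := τ) (rigid_SL hn) (by
      rintro _ ⟨s, rfl⟩
      rw [← e]
      exact h s)
    rw [e, h1, ← map_pow]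
    have h3 : orderOf τ ∣ p := by rw [← hσ]; exact orderOf_dvd_of_mem_zpowers h2
    rw [orderOf_dvd_iff_pow_eq_one.1 h3, map_one]
  rcases hn.eq_or_lt with h2 | h3
  · subst h2
    obtain ⟨g, τ, e⟩ := aut_psl_two θ
    exact hmain g τ e
  · obtain ⟨g, τ, e | e⟩ := aut_psl hn θ
    · exact hmain g τ e
    · exfalso
      exact no_io h3 (ι := ι) (g := g) (τ := τ) (fun s => by rw [← e]; exact h s)

end Cfsg.Agent.Lib.PSLBal
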