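import Cfsg.Agent.Lib.PSLBal2

/-!
# Local balance for linear socles: field automorphisms, II (helper45)
-/

set_option autoImplicit false
set_option linter.unusedSectionVars false

namespace Cfsg.Agent.Lib.PSLBal

open Matrix Cfsg
open Cfsg.Agent.Lib.PSLAut Cfsg.Agent.Lib.Descent

theorem mem_of_coprime_pow {G : Type*} [Group G] {S : Subgroup G} {c : G} {k p : ℕ} (hc : c ^ p = 1) (hk : c ^ k ∈ S)
    (h : Nat.Coprime k p) : c ∈ S := by
  have h1 : c ^ ((1 : ℕ) : ℤ) = (c ^ k) ^ (Nat.gcdA k p) * (c ^ p) ^ (Nat.gcdB k p) := by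
    rw [← zpow_natCast c k, ← zpow_natCast c p, ← _root_.zpow_mul, ← _root_.zpow_mul, ← _root_.zpow_add, ← Nat.gcd_eq_gcd_ab, h]
  rw [hc, _root_.one_zpow, mul_one, Nat.cast_one, zpow_one] at h1
  rw [h1]
  exact Subgroup.zpow_mem _ hk _

variable {F : Type*} [Field F] {n : ℕ} {F₀ : Type*} [Field F₀]

theorem det_toGL' (s : SpecialLinearGroup (Fin n) F) : GeneralLinearGroup.det (SpecialLinearGroup.toGL s) = 1 := det_toGL s

theorem mem_subL {ι : F₀ →+* F} {g : GL (Fin n) F₀} (h : ∃ u : F₀ˣ, GeneralLinearGroup.det g = u ^ n) :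
    (dg (mi ι g) : MulAut (ProjectiveSpecialLinearGroup (Fin n) F)) ∈ (subL (n := n) (F := F) ι).range := by
  obtain ⟨u, hu⟩ := h
  obtain ⟨s, hs⟩ := exists_toGL_of_det (g := sc u⁻¹ * g) (by
    rw [map_mul, det_scalar', hu, inv_pow, inv_mul_cancel])
  refine ⟨s, ?_⟩
  rw [subL_apply, hs, map_mul, PSUGraph.mi_sc, map_mul, dg_sc, one_mul]

theorem subL_le (hn : 2 ≤ n) {ι : F₀ →+* F} {σ : F ≃+* F} {r : ℕ} (hr : orderOf σ = r)
    (h0 : 0 < r) (hι : ∀ x, σ x = x ↔ ∃ y, ι y = x) :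
    (subL (n := n) ι).range ≤ Inn (ProjectiveSpecialLinearGroup (Fin n) F) ⊓ Subgroup.centralizer {fd σ} := by
  rintro _ ⟨s, rfl⟩
  rw [Subgroup.mem_inf, Subgroup.mem_centralizer_singleton_iff]
  refine ⟨?_, ?_⟩
  · rw [subL_apply, dg_inner_iff hn, det_mi, det_toGL, map_one]
    exact ⟨1, by rw [one_pow]⟩
  · rw [subL_apply, commute_fd_iff hn hr h0 hι]
    exact ⟨1, _, by rw [map_one, one_mul]⟩

theorem exists_form (hn : 2 ≤ n) {ι : F₀ →+* F} {σ : F ≃+* F} {r : ℕ} (hr : orderOf σ = r)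
    (h0 : 0 < r) (hι : ∀ x, σ x = x ↔ ∃ y, ι y = x) {c : MulAut (ProjectiveSpecialLinearGroup (Fin n) F)}
    (hc : c ∈ Inn (ProjectiveSpecialLinearGroup (Fin n) F) ⊓ Subgroup.centralizer {fd σ}) :
    ∃ g₀ : GL (Fin n) F₀, c = dg (mi ι g₀) := by
  obtain ⟨h1, h2⟩ := Subgroup.mem_inf.1 hc
  have h3 := inn_le_inndiag h1
  rw [inndiag_eq] at h3
  obtain ⟨g, rfl⟩ := h3
  rw [Subgroup.mem_centralizer_singleton_iff, commute_fd_iff hn hr h0 hι] at h2
  obtain ⟨b, g₀, rfl⟩ := h2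
  exact ⟨g₀, by rw [map_mul, dg_sc, one_mul]⟩

theorem subL_normal (hn : 2 ≤ n) {ι : F₀ →+* F} {σ : F ≃+* F} {r : ℕ} (hr : orderOf σ = r)
    (h0 : 0 < r) (hι : ∀ x, σ x = x ↔ ∃ y, ι y = x) {c : MulAut (ProjectiveSpecialLinearGroup (Fin n) F)}
    (hc : c ∈ Inn (ProjectiveSpecialLinearGroup (Fin n) F) ⊓ Subgroup.centralizer {fd σ})
    {s : MulAut (ProjectiveSpecialLinearGroup (Fin n) F)} (hs : s ∈ (subL (n := n) ι).range) :
    c * s * c⁻¹ ∈ (subL (n := n) ι).range := by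
  obtain ⟨g₀, rfl⟩ := exists_form hn hr h0 hι hc
  obtain ⟨s, rfl⟩ := hs
  rw [subL_apply, ← map_inv, ← map_inv, ← map_mul, ← map_mul, ← map_mul, ← map_mul]
  apply mem_subL
  refine ⟨1, ?_⟩
  rw [map_mul, map_mul, map_inv, det_toGL, one_pow, mul_one, mul_inv_cancel]

/-- normal subgroups of `PSL(F₀)` inside the automorphism group. -/
theorem normal_sub (hn : 2 ≤ n) [Fintype F₀] {r : ℕ} [CharP F₀ r] (ι : F₀ →+* F) {p : ℕ} (hp : p.Prime) (hpr : p ≠ r)
    {N : Subgroup (MulAut (ProjectiveSpecialLinearGroup (Fin n) F))} (hN : N ≤ (subL (n := n) ι).range)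
    (hnn : ∀ s ∈ (subL (n := n) ι).range, ∀ x ∈ N, s * x * s⁻¹ ∈ N) (hN1 : N ≠ ⊥) (hc : (Nat.card N).Coprime p) :
    (Nat.card (subL (n := n) (F := F) ι).range).Coprime p := by
  obtain ⟨j, hj⟩ : ∃ j : ProjectiveSpecialLinearGroup (Fin n) F₀ →* MulAut (ProjectiveSpecialLinearGroup (Fin n) F),
      j = (subL (n := n) (F := F) ι).range.subtype.comp (rangeEquiv hn ι).toMonoidHom := ⟨_, rfl⟩
  have hjinj : Function.Injective j := by
    rw [hj]
    exact (Subgroup.subtype_injective _).comp (rangeEquiv hn ι).injective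
  have hjr : j.range = (subL (n := n) (F := F) ι).range := by
    rw [hj, MonoidHom.range_comp]
    have : (rangeEquiv (F := F) hn ι).toMonoidHom.range = ⊤ := MonoidHom.range_eq_top.2 (rangeEquiv hn ι).surjective
    rw [this, ← MonoidHom.range_eq_map, Subgroup.range_subtype]
  have hM : (N.comap j).Normal := by
    constructor
    intro x hx g
    rw [Subgroup.mem_comap] at hx ⊢
    rw [map_mul, map_mul, map_inv]
    exact hnn _ (by rw [← hjr]; exact ⟨g, rfl⟩) _ hx
  have hmap : (N.comap j).map j = N := by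
    rw [Subgroup.map_comap_eq, hjr, inf_eq_right.2 hN]
  have hM1 : N.comap j ≠ ⊥ := by
    intro h
    apply hN1
    rw [← hmap, h, Subgroup.map_bot]
  have hcard : Nat.card (N.comap j) = Nat.card N := by
    conv_rhs => rw [← hmap]
    exact Nat.card_congr (Subgroup.equivMapOfInjective _ _ hjinj).toEquiv
  have h1 := normal_PSL hn hp hpr hM hM1 (by rw [hcard]; exact hc)
  rwa [Nat.card_congr (rangeEquiv (F := F) hn ι).toEquiv] at h1

/-- an element of order `p` -/
theorem exists_elt (hn : 2 ≤ n) [Fintype F₀] (ι : F₀ →+* F) {p : ℕ} (hp : p.Prime) (hpn : p ∣ n)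
    (hpq : p ∣ Fintype.card F₀ - 1) :
    p ∣ Nat.card (subL (n := n) (F := F) ι).range := by
  have hfact : Fact p.Prime := ⟨hp⟩
  have hfin : Finite (subL (n := n) (F := F) ι).range := Finite.of_surjective (subL (n := n) (F := F) ι).rangeRestrict
    (MonoidHom.rangeRestrict_surjective _)
  have key : ∀ g : GL (Fin n) F₀, GeneralLinearGroup.det g = 1 → (∃ c, g ^ p = sc c) → (∀ c, g ≠ sc c) →
      p ∣ Nat.card (subL (n := n) (F := F) ι).range := by
    rintro g hg ⟨c, hc⟩ hns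
    have h1 : (dg (mi ι g) : MulAut (ProjectiveSpecialLinearGroup (Fin n) F)) ∈ (subL (n := n) (F := F) ι).range :=
      mem_subL ⟨1, by rw [hg, one_pow]⟩
    have h2 : orderOf (dg (mi ι g) : MulAut (ProjectiveSpecialLinearGroup (Fin n) F)) = p := by
      apply orderOf_eq_prime
      · rw [← map_pow, ← map_pow, hc, PSUGraph.mi_sc, dg_sc]
      · rw [Ne, dg_mi_eq_one hn]
        rintro ⟨c, hc⟩
        exact hns c hc
    have h3 := orderOf_dvd_natCard (⟨_, h1⟩ : (subL (n := n) (F := F) ι).range)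
    rw [Subgroup.orderOf_mk, h2] at h3
    exact h3
  rcases hn.eq_or_lt with h2 | h3
  · subst h2
    have hp2 : p = 2 := (Nat.prime_dvd_prime_iff_eq hp Nat.prime_two).1 hpn
    subst hp2
    have h20 : (2 : F₀) ≠ 0 := by
      intro h0
      have hchar : CharP F₀ 2 := CharTwo.of_one_ne_zero_of_two_eq_zero one_ne_zero h0
      obtain ⟨k, -, hk⟩ := FiniteField.card F₀ 2
      rw [hk] at hpq
      have h4 : 2 ∣ 2 ^ (k : ℕ) := dvd_pow_self _ k.ne_zero
      have h5 : 0 < 2 ^ (k : ℕ) := by positivity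
      omega
    let J : GL (Fin 2) F₀ := ⟨!![0, 1; -1, 0], !![0, -1; 1, 0], by
      ext i j; fin_cases i <;> fin_cases j <;> simp [Matrix.mul_apply, Fin.sum_univ_two], by
      ext i j; fin_cases i <;> fin_cases j <;> simp [Matrix.mul_apply, Fin.sum_univ_two]⟩
    refine key J ?_ ⟨-1, ?_⟩ ?_
    · apply Units.ext
      rw [GeneralLinearGroup.val_det_apply]
      show (!![0, 1; -1, 0] : Matrix (Fin 2) (Fin 2) F₀).det = 1
      simp
    · apply Units.ext
      rw [pow_two, Units.val_mul, sc_coe]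
      show (!![0, 1; -1, 0] : Matrix (Fin 2) (Fin 2) F₀) * !![0, 1; -1, 0] = _
      ext i j
      fin_cases i <;> fin_cases j <;> simp [Matrix.mul_apply, Fin.sum_univ_two]
    · intro c hc
      have h5 := congrArg Units.val hc
      rw [sc_coe] at h5
      have h6 := congrFun (congrFun h5 0) 1
      simp [J] at h6
  · obtain ⟨a, ha⟩ : ∃ a : F₀ˣ, orderOf a = p := by
      classical
      exact exists_prime_orderOf_dvd_card p (by rw [Fintype.card_units]; exact hpq)
    obtain ⟨i, hi⟩ : ∃ z : Fin n, z = ⟨0, by omega⟩ := ⟨_, rfl⟩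
    obtain ⟨j, hj⟩ : ∃ z : Fin n, z = ⟨1, by omega⟩ := ⟨_, rfl⟩
    obtain ⟨k, hk⟩ : ∃ z : Fin n, z = ⟨2, by omega⟩ := ⟨_, rfl⟩
    have hij : i ≠ j := by rw [hi, hj]; simp
    have hik : i ≠ k := by rw [hi, hk]; simp
    have hjk : j ≠ k := by rw [hj, hk]; simp
    have hcomm : Commute (dh i a : GL (Fin n) F₀) (dh j a⁻¹) := by
      apply Units.ext
      rw [Units.val_mul, Units.val_mul, dh_coe, dh_coe, Matrix.diagonal_mul_diagonal, Matrix.diagonal_mul_diagonal]
      congr 1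
      ext k
      rw [mul_comm]
    refine key (dh i a * dh j a⁻¹) ?_ ⟨1, ?_⟩ ?_
    · rw [map_mul, det_dh, det_dh, mul_inv_cancel]
    · rw [hcomm.mul_pow, ← map_pow, ← map_pow, inv_pow, ← ha, pow_orderOf_eq_one, inv_one, map_one, map_one, map_one,
        one_mul]
    · intro c hc
      have h5 := congrArg Units.val hc
      rw [Units.val_mul, dh_coe, dh_coe, Matrix.diagonal_mul_diagonal, sc_coe] at h5
      have h6 := congrFun (congrFun h5 i) i
      have h7 := congrFun (congrFun h5 k) k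
      rw [Matrix.diagonal_apply_eq, Matrix.diagonal_apply_eq, Pi.mulSingle_eq_same, Pi.mulSingle_eq_of_ne hij,
        Units.val_one, mul_one] at h6
      rw [Matrix.diagonal_apply_eq, Matrix.diagonal_apply_eq, Pi.mulSingle_eq_of_ne hik.symm, Pi.mulSingle_eq_of_ne hjk.symm,
        Units.val_one, mul_one] at h7
      rw [← h7] at h6
      have h8 : a = 1 := Units.ext h6
      rw [h8, orderOf_one] at ha
      exact hp.one_lt.ne ha

theorem coprime_of_coprime (hn : 2 ≤ n) [Finite F] [Fintype F₀] {ι : F₀ →+* F} {σ : F ≃+* F} {r : ℕ} (hr : orderOf σ = r)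
    (h0 : 0 < r) (hι : ∀ x, σ x = x ↔ ∃ y, ι y = x) {p : ℕ} (hp : p.Prime)
    (h : (Nat.card (subL (n := n) (F := F) ι).range).Coprime p) :
    (Nat.card ↥(Inn (ProjectiveSpecialLinearGroup (Fin n) F) ⊓ Subgroup.centralizer {fd σ})).Coprime p := by
  rw [Nat.coprime_comm, hp.coprime_iff_not_dvd] at h ⊢
  intro hdvd
  have : Fact p.Prime := ⟨hp⟩
  have hfinA : Finite (MulAut (ProjectiveSpecialLinearGroup (Fin n) F)) := by
    apply Finite.of_injective (fun α : MulAut (ProjectiveSpecialLinearGroup (Fin n) F) =>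
      (α : ProjectiveSpecialLinearGroup (Fin n) F → ProjectiveSpecialLinearGroup (Fin n) F))
    exact DFunLike.coe_injective
  obtain ⟨⟨c, hc⟩, hcp⟩ := exists_prime_orderOf_dvd_card' p hdvd
  rw [Subgroup.orderOf_mk] at hcp
  have hcp1 : c ^ p = 1 := by rw [← hcp, pow_orderOf_eq_one]
  have hout : c ∉ (subL (n := n) (F := F) ι).range := by
    intro hmem
    apply h
    have := orderOf_dvd_natCard (⟨c, hmem⟩ : (subL (n := n) ι).range)
    rw [Subgroup.orderOf_mk, hcp] at this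
    exact this
  obtain ⟨g₀, hg₀⟩ := exists_form hn hr h0 hι hc
  have h1 : c ^ n ∈ (subL (n := n) (F := F) ι).range := by
    rw [hg₀, ← map_pow, ← map_pow]
    exact mem_subL ⟨GeneralLinearGroup.det g₀, by rw [map_pow]⟩
  have h2 : c ^ (Fintype.card F₀ - 1) ∈ (subL (n := n) (F := F) ι).range := by
    rw [hg₀, ← map_pow, ← map_pow]
    refine mem_subL ⟨1, ?_⟩
    rw [map_pow, one_pow]
    classical
    rw [← Fintype.card_units, pow_card_eq_one]
  have h3 : p ∣ n := by
    by_contra hnd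
    exact hout (mem_of_coprime_pow hcp1 h1 (Nat.Coprime.symm ((hp.coprime_iff_not_dvd).2 hnd)))
  have h4 : p ∣ Fintype.card F₀ - 1 := by
    by_contra hnd
    exact hout (mem_of_coprime_pow hcp1 h2 (Nat.Coprime.symm ((hp.coprime_iff_not_dvd).2 hnd)))
  exact h (exists_elt hn ι hp h3 h4)

/-- local balance at a standard field automorphism, up to conjugacy. -/
theorem local_balance_fd [Fintype F] (hn : 2 ≤ n) {r : ℕ} [CharP F r] {p : ℕ} (hp : p.Prime) (hpr : p ≠ r)
    {σ : F ≃+* F} (hσ : orderOf σ = p) (A : Subgroup (MulAut (ProjectiveSpecialLinearGroup (Fin n) F)))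
    (hA : Inn (ProjectiveSpecialLinearGroup (Fin n) F) ≤ A)
    {x : MulAut (ProjectiveSpecialLinearGroup (Fin n) F)} (α : MulAut (ProjectiveSpecialLinearGroup (Fin n) F))
    (hx : x = α * fd σ * α⁻¹) :
    pPrimeCore p ↥(A ⊓ Subgroup.centralizer {x}) ≠ ⊥ ↔
      (Nat.card ↥(Inn (ProjectiveSpecialLinearGroup (Fin n) F) ⊓ Subgroup.centralizer {x})).Coprime p := by
  have hfinA : Finite (MulAut (ProjectiveSpecialLinearGroup (Fin n) F)) := by
    apply Finite.of_injective (fun α : MulAut (ProjectiveSpecialLinearGroup (Fin n) F) =>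
      (α : ProjectiveSpecialLinearGroup (Fin n) F → ProjectiveSpecialLinearGroup (Fin n) F))
    exact DFunLike.coe_injective
  let _ : Fintype (FFAut.fixed σ) := Fintype.ofFinite _
  have hchar : CharP (FFAut.fixed σ) r := (FFAut.fixed σ).subtype.charP (FFAut.fixed σ).subtype.injective r
  have hι := FFAut.fixed_iff σ
  have hp0 := hp.pos
  refine LBal.local_balance_conj (S := (subL (n := n) (FFAut.fixed σ).subtype).range) LBal.inn_normal hA α hx
    (subL_le hn hσ hp0 hι) (fun c hc s hs => subL_normal hn hσ hp0 hι hc hs) ?_ ?_ ?_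
  · intro hb
    obtain ⟨φ, hφ0, hφ⟩ := exists_ne_zero_dot (F := FFAut.fixed σ) hn (Pi.single ⟨0, by omega⟩ 1)
    rw [dotProduct_comm] at hφ
    have h1 : subL (n := n) (FFAut.fixed σ).subtype (tv (Pi.single ⟨0, by omega⟩ 1) φ hφ) = 1 := by
      have : subL (n := n) (FFAut.fixed σ).subtype (tv (Pi.single ⟨0, by omega⟩ 1) φ hφ) ∈ (subL (n := n) (FFAut.fixed σ).subtype).range :=
        ⟨_, rfl⟩
      rw [hb, Subgroup.mem_bot] at this
      exact this
    rw [subL_eq_one hn, ← QuotientGroup.eq_one_iff] at h1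
    rcases mk_tv_eq_one hn h1 with h2 | h2
    · exact single_ne_zero' _ h2
    · exact hφ0 h2
  · intro N hN hnn hN1 hc
    exact coprime_of_coprime hn hσ hp0 hι hp (normal_sub hn _ hp hpr hN hnn hN1 hc)
  · intro g hg
    refine ⟨1, ?_⟩
    rw [pow_one]
    exact cent_subL hn (fun x hx => (hι x).1 hx) hσ (fun s => hg _ ⟨s, rfl⟩)

end Cfsg.Agent.Lib.PSLBal
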