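import Cfsg.Agent.Lib.Rigid
import Cfsg.Agent.Lib.PSUField2

/-!
# Rigidity of subfield unitary groups (helper45)

`h ∈ GL(F)`, `f₁ f₂ : K → F`, `h · f₁(t) = c • f₂(t) · h` for all unitary transvections `t` over `K`.
-/

set_option autoImplicit false
set_option linter.unusedSectionVars false

namespace Cfsg.Agent.Lib.Rigid

open Matrix Cfsg
open Cfsg.Agent.Lib.PSUAut Cfsg.Agent.Lib.HermMat Cfsg.Agent.Lib.UnTrans Cfsg.Agent.Lib.UnBridge

variable {K F : Type*} [Field K] [Fintype K] [Field F] {n : ℕ} {q : ℕ} (hK : Fintype.card K = q ^ 2)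

include hK

theorem isHerm_herm : HermClass.IsHerm (brE hK) (hermForm n K q) := by
  have H := herm_HS n hK
  refine ⟨H.add_left, H.smul_left, fun u v => ?_⟩
  rw [H.herm]; rfl

theorem herm_lines (hn : 2 ≤ n) {f₁ f₂ : K →+* F} {h : GL (Fin n) F}
    (hs : ∀ s : SU n K q, ∃ c : F, h.1 * s.1.1.map f₁ = c • (s.1.1.map f₂ * h.1)) (z : Fin n → K) (hz0 : z ≠ 0)
    (hz : hermForm n K q z z = 0) : ∃ d : F, h.1 *ᵥ (fun i => f₁ (z i)) = d • fun i => f₂ (z i) := by
  have H := herm_HS n hK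
  have hne : Nonempty (Fin n) := ⟨⟨0, by omega⟩⟩
  obtain ⟨a, ha0, ha⟩ := H.exists_tr0
  obtain ⟨c, hc⟩ := hs (tU hK a z)
  have hX : (tU hK a z).1.1 - 1 = vecMulVec z (fun i => a * (z i) ^ q) := by
    apply Matrix.ext_of_mulVec_single
    intro i
    rw [Matrix.sub_mulVec, tU_mulVec hK hz ha, Matrix.one_mulVec, add_sub_cancel_left, vecMulVec_mulVec, op_smul_eq_smul]
    congr 1
    rw [hermForm_def, Finset.mul_sum, dotProduct]
    refine Finset.sum_congr rfl fun j _ => ?_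
    ring
  have hφ : (fun i => a * (z i) ^ q) ≠ 0 := by
    intro h0
    apply hz0
    ext i
    have := congrFun h0 i
    simp only [Pi.zero_apply] at this
    have hq0 : q ≠ 0 := by
      intro h
      rw [h] at hK
      have := Fintype.card_pos (α := K)
      omega
    exact (pow_eq_zero_iff hq0).1 ((mul_eq_zero.1 this).resolve_left ha0)
  have hnil : IsNilpotent ((tU hK a z).1.1 - 1) := by
    refine ⟨2, ?_⟩
    rw [hX, pow_two, vecMulVec_mul_vecMulVec]
    have h1 : (fun i => a * (z i) ^ q) ⬝ᵥ z = 0 := by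
      have h2 : (fun i => a * (z i) ^ q) ⬝ᵥ z = a * hermForm n K q z z := by
        rw [hermForm_def, Finset.mul_sum, dotProduct]
        refine Finset.sum_congr rfl fun j _ => ?_
        ring
      rw [h2, hz, mul_zero]
    rw [h1]
    simp
  exact line_of_unip hnil (k := 1) (by rw [pow_one]; exact hX) hφ hc

/-- odd characteristic -/
theorem herm_rigid_odd (hn : 3 ≤ n) (h2 : (2 : K) ≠ 0) {f₁ f₂ : K →+* F} {h : GL (Fin n) F}
    (hs : ∀ s : SU n K q, ∃ c : F, h.1 * s.1.1.map f₁ = c • (s.1.1.map f₂ * h.1)) :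
    (∃ u : Fˣ, ∀ v, h.1 *ᵥ v = (u : F) • v) ∧ ∀ y, f₁ y = f₂ y := by
  have H := herm_HS n hK
  obtain ⟨e, he0, hee⟩ := Cfsg.Agent.Lib.ClUnSimple.exists_iso (F := K) (q := q) (n := n) hK (by omega)
  obtain ⟨f, hff, hef, hfe⟩ := exists_hyp hK he0 hee
  obtain ⟨w, hw0, hw1, hw2⟩ := exists_perp2 hK hn e f
  exact iso_lines (isHerm_herm hK) h2 (herm_lines hK (by omega) hs) hee hff hef ⟨w, hw0, hw1, hw2⟩

/-- all characteristics, with a form on `Fⁿ` extending the form -/
theorem herm_rigid (hn : 3 ≤ n) {f₁ f₂ : K →+* F} {h : GL (Fin n) F} {B' : (Fin n → F) → (Fin n → F) → F}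
    {σ' : F ≃+* F} (hB' : HermClass.IsHerm σ' B')
    (h1B : ∀ x y, B' (fun i => f₁ (x i)) (fun i => f₁ (y i)) = f₁ (hermForm n K q x y))
    (h2B : ∀ x y, B' (fun i => f₂ (x i)) (fun i => f₂ (y i)) = f₂ (hermForm n K q x y))
    (hh : ∀ x y, B' (h.1 *ᵥ x) (h.1 *ᵥ y) = B' x y)
    (hs : ∀ s : SU n K q, ∃ c : F, h.1 * s.1.1.map f₁ = c • (s.1.1.map f₂ * h.1)) :
    (∃ u : Fˣ, ∀ v, h.1 *ᵥ v = (u : F) • v) ∧ ∀ y, f₁ y = f₂ y := by
  have H := herm_HS n hK
  obtain ⟨e, he0, hee⟩ := Cfsg.Agent.Lib.ClUnSimple.exists_iso (F := K) (q := q) (n := n) hK (by omega)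
  obtain ⟨f, hff, hef, hfe⟩ := exists_hyp hK he0 hee
  obtain ⟨w, hw0, hw1, hw2⟩ := exists_perp2 hK hn e f
  have hf0 : f ≠ 0 := by rintro rfl; rw [H.zero_left] at hfe; exact zero_ne_one hfe
  have hl := herm_lines hK (by omega) hs
  obtain ⟨c, hc⟩ := hl e he0 hee
  obtain ⟨c', hc'⟩ := hl f hf0 hff
  have hhinj : ∀ x : Fin n → F, h.1 *ᵥ x = 0 → x = 0 := by
    intro x hx
    have h1 : (h⁻¹).1 *ᵥ (h.1 *ᵥ x) = x := by
      rw [Matrix.mulVec_mulVec, ← Units.val_mul, inv_mul_cancel, Units.val_one, Matrix.one_mulVec]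
    rw [← h1, hx, Matrix.mulVec_zero]
  have hinj : ∀ (g : K →+* F) (x : Fin n → K), x ≠ 0 → (fun i => g (x i)) ≠ 0 := by
    intro g x hx h0
    apply hx
    ext i
    exact (map_eq_zero g).1 (congrFun h0 i)
  have key : ∀ {e f : Fin n → K} {c c' : F}, hermForm n K q e e = 0 → hermForm n K q f f = 0 → hermForm n K q e f = 1 →
      hermForm n K q f e = 1 →
      h.1 *ᵥ (fun i => f₁ (e i)) = c • (fun i => f₂ (e i)) → h.1 *ᵥ (fun i => f₁ (f i)) = c' • (fun i => f₂ (f i)) →
      ∀ w, hermForm n K q w e = 0 → hermForm n K q w f = 0 → h.1 *ᵥ (fun i => f₁ (w i)) = c • fun i => f₂ (w i) := by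
    intro e f c c' hee hff hef hfe hc hc' w hwe hwf
    have he0 : e ≠ 0 := by rintro rfl; rw [H.zero_left] at hef; exact zero_ne_one hef
    have hf0 : f ≠ 0 := by rintro rfl; rw [H.zero_left] at hfe; exact zero_ne_one hfe
    have hc0 : c ≠ 0 := by
      rintro rfl
      rw [zero_smul] at hc
      exact hinj f₁ e he0 (hhinj _ hc)
    have hc0' : c' ≠ 0 := by
      rintro rfl
      rw [zero_smul] at hc'
      exact hinj f₁ f hf0 (hhinj _ hc')
    obtain ⟨μ, hμ⟩ := H.exists_trace (-hermForm n K q w w) (by rw [map_neg, H.self_fixed])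
    have hew : hermForm n K q e w = 0 := H.symm_zero hwe
    have hfw : hermForm n K q f w = 0 := H.symm_zero hwf
    have hz : hermForm n K q (e + w + μ • f) (e + w + μ • f) = 0 := by
      simp only [H.add_left, H.add_right, H.smul_left, H.smul_right, hee, hff, hef, hfe, hwe, hwf, hew, hfw]
      linear_combination hμ
    have hz0 : e + w + μ • f ≠ 0 := by
      intro h0
      have h3 : hermForm n K q (e + w + μ • f) f = 1 := by
        simp only [H.add_left, H.smul_left, hef, hwf, hff]; ring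
      rw [h0, H.zero_left] at h3
      exact zero_ne_one h3
    obtain ⟨d, hd⟩ := hl _ hz0 hz
    have hexp : ∀ (g : K →+* F), (fun i => g ((e + w + μ • f) i)) =
        (fun i => g (e i)) + (fun i => g (w i)) + g μ • fun i => g (f i) := by
      intro g
      ext i
      simp only [Pi.add_apply, Pi.smul_apply, smul_eq_mul, map_add, map_mul]
    rw [hexp, hexp, Matrix.mulVec_add, Matrix.mulVec_add, Matrix.mulVec_smul, hc, hc'] at hd
    -- orthogonality
    have o1 : B' (h.1 *ᵥ (fun i => f₁ (w i))) (fun i => f₂ (f i)) = 0 := by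
      have h3 := hh (fun i => f₁ (w i)) (fun i => f₁ (f i))
      rw [h1B, hwf, map_zero, hc', hB'.smul_right] at h3
      exact (mul_eq_zero.1 h3).resolve_left ((map_ne_zero_iff σ' σ'.injective).2 hc0')
    have o2 : B' (h.1 *ᵥ (fun i => f₁ (w i))) (fun i => f₂ (e i)) = 0 := by
      have h3 := hh (fun i => f₁ (w i)) (fun i => f₁ (e i))
      rw [h1B, hwe, map_zero, hc, hB'.smul_right] at h3
      exact (mul_eq_zero.1 h3).resolve_left ((map_ne_zero_iff σ' σ'.injective).2 hc0)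
    have e1 := congrArg (fun x => B' x (fun i => f₂ (f i))) hd
    have e2 := congrArg (fun x => B' x (fun i => f₂ (e i))) hd
    simp only [hB'.add, hB'.smul, h2B, o1, o2, hef, hee, hff, hfe, hwe, hwf, map_one, map_zero] at e1 e2
    have hdc : d = c := by linear_combination -e1
    rw [hdc] at hd e2
    ext i
    have a1 := congrFun hd i
    simp only [Pi.add_apply, Pi.smul_apply, smul_eq_mul] at a1
    rw [Pi.smul_apply, smul_eq_mul]
    linear_combination a1 - (f₂ (f i)) * e2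
  exact assemble (isHerm_herm hK) hee hff hef hc hc' (key hee hff hef hfe hc hc')
    (fun w h1 h3 => key hff hee hfe hef hc' hc w h3 h1) ⟨w, hw0, hw1, hw2⟩

end Cfsg.Agent.Lib.Rigid
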