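import Cfsg.Agent.Lib.PSLBal3
import Cfsg.Agent.Lib.FormCore
import Cfsg.Agent.Lib.RigidU
import Cfsg.Agent.S0283

/-!
# Local balance for linear socles: graph and graph-field automorphisms (helper45)
-/

set_option autoImplicit false
set_option linter.unusedSectionVars false

namespace Cfsg.Agent.Lib.LBal

open Subgroup Cfsg

theorem no_balance {G : Type*} [Group G] [Finite G] {I A S : Subgroup G} (hI : I.Normal) (hIA : I ≤ A) {x y : G} (α : G)
    (hxy : y = α * x * α⁻¹)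
    (hS : S ≤ I ⊓ Subgroup.centralizer {x})
    (hSn : ∀ c ∈ I ⊓ Subgroup.centralizer {x}, ∀ s ∈ S, c * s * c⁻¹ ∈ S) (heven : 2 ∣ Nat.card S)
    (h2 : ∀ N : Subgroup G, N ≤ S → (∀ s ∈ S, ∀ n ∈ N, s * n * s⁻¹ ∈ N) → (Nat.card N).Coprime 2 → N = ⊥)
    (h3 : ∀ g : G, (∀ s ∈ S, g * s = s * g) → ∃ k, g ^ (2 ^ k) = 1) :
    pPrimeCore 2 ↥(A ⊓ Subgroup.centralizer {y}) = ⊥ := by
  have hfact : Fact (Nat.Prime 2) := ⟨Nat.prime_two⟩
  obtain ⟨⟨s, hs⟩, hs2⟩ := exists_prime_orderOf_dvd_card' 2 heven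
  rw [Subgroup.orderOf_mk] at hs2
  have hS1 : S ≠ ⊥ := by
    rintro rfl
    rw [Subgroup.mem_bot] at hs
    rw [hs, orderOf_one] at hs2
    norm_num at hs2
  have h := local_balance_conj hI hIA α hxy hS hSn hS1 (fun N hN hn hN1 hc => absurd (h2 N hN hn hc) hN1) h3
  by_contra hne
  have hcop := h.1 hne
  rw [Nat.coprime_comm, Nat.prime_two.coprime_iff_not_dvd] at hcop
  apply hcop
  have hmem : α * s * α⁻¹ ∈ I ⊓ Subgroup.centralizer {y} := by
    obtain ⟨h4, h5⟩ := Subgroup.mem_inf.1 (hS hs)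
    refine Subgroup.mem_inf.2 ⟨hI.conj_mem s h4 α, ?_⟩
    rw [Subgroup.mem_centralizer_singleton_iff] at h5 ⊢
    rw [hxy]
    calc α * s * α⁻¹ * (α * x * α⁻¹) = α * (s * x) * α⁻¹ := by group
      _ = α * (x * s) * α⁻¹ := by rw [h5]
      _ = _ := by group
  have h6 : orderOf (α * s * α⁻¹) = 2 := by
    rw [← hs2]
    have := MulEquiv.orderOf_eq (MulAut.conj α) s
    rw [MulAut.conj_apply] at this
    exact this
  rw [← h6]
  have := orderOf_dvd_natCard (⟨_, hmem⟩ : ↥(I ⊓ Subgroup.centralizer {y}))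
  rwa [Subgroup.orderOf_mk] at this

end Cfsg.Agent.Lib.LBal

namespace Cfsg.Agent.Lib.PSLBal

open Matrix Cfsg
open Cfsg.Agent.Lib.PSLAut Cfsg.Agent.Lib.Descent Cfsg.Agent.Lib.PSLGraph Cfsg.Agent.Lib.SimForm

variable {F : Type*} [Field F] {n : ℕ}

theorem finite_aut_psl [Finite F] : Finite (MulAut (ProjectiveSpecialLinearGroup (Fin n) F)) := by
  apply Finite.of_injective (fun α : MulAut (ProjectiveSpecialLinearGroup (Fin n) F) =>
    (α : ProjectiveSpecialLinearGroup (Fin n) F → ProjectiveSpecialLinearGroup (Fin n) F))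
  exact DFunLike.coe_injective

theorem mi_id (g : GL (Fin n) F) : mi (RingHom.id F) g = g := by
  apply Units.ext
  rw [mi_coe]
  ext i j; rfl

/-- automorphisms centralizing a rigid set -/
theorem sq_one (hn : 2 ≤ n) [Finite F] {T : Set (GL (Fin n) F)}
    (hT : ∀ (h : GL (Fin n) F) (f₁ f₂ : F →+* F), (∀ s ∈ T, ∃ c : F, h.1 * s.1.map f₁ = c • (s.1.map f₂ * h.1)) →
      (∃ u : Fˣ, ∀ v, h.1 *ᵥ v = (u : F) • v) ∧ ∀ y, f₁ y = f₂ y)
    {θ : MulAut (ProjectiveSpecialLinearGroup (Fin n) F)}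
    (h : ∀ s ∈ T, θ * dg s = dg s * θ) : ∃ k, θ ^ (2 ^ k) = 1 := by
  obtain ⟨τ, hτ, h2⟩ := sq_cent (σ := 1) hn (ι := RingHom.id F) (fun x _ => ⟨x, rfl⟩) hT (θ := θ) (fun s hs => by
    rw [mi_id]; exact h s hs)
  have h1 : τ = 1 := by
    rw [Subgroup.zpowers_one_eq_bot, Subgroup.mem_bot] at hτ
    exact hτ
  exact ⟨1, by rw [pow_one, h2, h1, map_one]⟩

theorem dg_eq_one_iff (hn : 2 ≤ n) (g : GL (Fin n) F) :
    (dg g : MulAut (ProjectiveSpecialLinearGroup (Fin n) F)) = 1 ↔ ∃ c : F, ∀ v, g.1 *ᵥ v = c • v := by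
  constructor
  · intro h
    obtain ⟨u, hu⟩ := dg_eq_one' hn h
    exact ⟨u, fun v => by rw [hu, sc_coe, ← Matrix.smul_one_eq_diagonal, Matrix.smul_mulVec, Matrix.one_mulVec]⟩
  · rintro ⟨c, hc⟩
    have h1 : g.1 = c • 1 := by
      apply Matrix.ext_of_mulVec_single
      intro i
      rw [hc, Matrix.smul_mulVec, Matrix.one_mulVec]
    have hc0 : c ≠ 0 := by
      rintro rfl
      rw [zero_smul] at h1
      have h2 : (g * g⁻¹).1 = 0 := by rw [Units.val_mul, h1, zero_mul]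
      rw [mul_inv_cancel] at h2
      have := congrFun (congrFun h2 ⟨0, by omega⟩) ⟨0, by omega⟩
      rw [Units.val_one, Matrix.one_apply_eq, Matrix.zero_apply] at this
      exact one_ne_zero this
    have h2 : g = sc (Units.mk0 c hc0) := by
      apply Units.ext
      rw [sc_coe, h1, Matrix.smul_one_eq_diagonal]; rfl
    rw [h2, dg_sc]

/-- graph automorphisms -/
theorem balance_graph [Fintype F] (h2 : (2 : F) ≠ 0) (hn : 3 ≤ n) {g : GL (Fin n) F}
    (hsq : (dg g * io : MulAut (ProjectiveSpecialLinearGroup (Fin n) F)) ^ 2 = 1)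
    (A : Subgroup (MulAut (ProjectiveSpecialLinearGroup (Fin n) F)))
    (hA : Inn (ProjectiveSpecialLinearGroup (Fin n) F) ≤ A) :
    pPrimeCore 2 ↥(A ⊓ Subgroup.centralizer {dg g * io}) = ⊥ := by
  have hfinA := finite_aut_psl (F := F) (n := n)
  have hn2 : 2 ≤ n := by omega
  obtain ⟨c, hc, hcB⟩ := eps_of_sq hn2 hsq
  have hB := sym_or_alt h2 hc hcB
  have hnB := Bf_nd g
  obtain ⟨Ψ, hΨ⟩ : ∃ Ψ : IsoG (Bf g) →* MulAut (ProjectiveSpecialLinearGroup (Fin n) F), ∀ x, Ψ x = dg x.1 :=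
    ⟨dg.comp (IsoG (Bf g)).subtype, fun x => rfl⟩
  obtain ⟨h3, h4⟩ := FormCore.core h2 hn hB hnB Ψ (fun x => by rw [hΨ, dg_eq_one_iff hn2])
  refine LBal.no_balance (S := (FormCore.D1 (Bf g)).map Ψ) LBal.inn_normal hA 1 (by rw [inv_one, one_mul, mul_one])
    ?_ ?_ h3 h4 ?_
  · rintro _ ⟨x, hx, rfl⟩
    rw [hΨ, Subgroup.mem_inf, Subgroup.mem_centralizer_singleton_iff, dg_inner_iff hn2, commute_iff hn2]
    refine ⟨⟨1, by rw [one_pow]; exact FormCore.mem_D1.1 hx⟩, ⟨1, fun y z => ?_⟩⟩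
    rw [Units.val_one, one_mul]; exact x.2 y z
  · rintro c hc _ ⟨x, hx, rfl⟩
    obtain ⟨h5, h6⟩ := Subgroup.mem_inf.1 hc
    have h7 := inn_le_inndiag h5
    rw [inndiag_eq] at h7
    obtain ⟨k, rfl⟩ := h7
    rw [Subgroup.mem_centralizer_singleton_iff, commute_iff hn2] at h6
    obtain ⟨u, hu⟩ := h6
    have hk : k * x.1 * k⁻¹ ∈ IsoG (Bf g) := by
      intro y z
      have e1 : ∀ y, (k * x.1 * k⁻¹).1 *ᵥ y = k.1 *ᵥ (x.1.1 *ᵥ ((k⁻¹).1 *ᵥ y)) := by
        intro y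
        rw [Units.val_mul, Units.val_mul, Matrix.mulVec_mulVec, Matrix.mulVec_mulVec]
      rw [e1, e1]
      have e2 : ∀ y z, Bf g (k.1 *ᵥ y) (k.1 *ᵥ z) = u * Bf g y z := hu
      have e3 : ∀ y z, Bf g (x.1.1 *ᵥ y) (x.1.1 *ᵥ z) = Bf g y z := x.2
      rw [e2, e3, ← e2]
      have e4 : ∀ y, k.1 *ᵥ ((k⁻¹).1 *ᵥ y) = y := fun y => by
        rw [Matrix.mulVec_mulVec, ← Units.val_mul, mul_inv_cancel, Units.val_one, Matrix.one_mulVec]
      rw [e4, e4]
    refine ⟨⟨_, hk⟩, ?_, ?_⟩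
    · rw [SetLike.mem_coe, FormCore.mem_D1]
      show GeneralLinearGroup.det (k * x.1 * k⁻¹) = 1
      rw [map_mul, map_mul, map_inv, FormCore.mem_D1.1 hx, mul_one, mul_inv_cancel]
    · rw [hΨ, hΨ]
      show dg (k * x.1 * k⁻¹) = _
      rw [map_mul, map_mul, map_inv]
  · intro θ hθ
    refine sq_one hn2 (T := {s | s ∈ IsoG (Bf g) ∧ GeneralLinearGroup.det s = 1}) (fun h f₁ f₂ H =>
      FormCore.rigid h2 hn hB hnB h f₁ f₂ H) (θ := θ) ?_
    rintro s ⟨hs1, hs2⟩
    have := hθ (Ψ ⟨s, hs1⟩) ⟨⟨s, hs1⟩, FormCore.mem_D1.2 hs2, rfl⟩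
    rwa [hΨ] at this

/-- graph-field automorphisms -/
theorem balance_graph_field [Fintype F] (h2 : (2 : F) ≠ 0) (hn : 3 ≤ n) {σ : F ≃+* F} (ho : orderOf σ = 2) {q : ℕ}
    (hq : Fintype.card F = q ^ 2) (hσ : ∀ x, σ x = x ^ q)
    {y : MulAut (ProjectiveSpecialLinearGroup (Fin n) F)} (α : MulAut (ProjectiveSpecialLinearGroup (Fin n) F))
    (hy : y = α * (fd σ * io) * α⁻¹)
    (A : Subgroup (MulAut (ProjectiveSpecialLinearGroup (Fin n) F)))
    (hA : Inn (ProjectiveSpecialLinearGroup (Fin n) F) ≤ A) :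
    pPrimeCore 2 ↥(A ⊓ Subgroup.centralizer {y}) = ⊥ := by
  have hfinA := finite_aut_psl (F := F) (n := n)
  have hfact : Fact (Nat.Prime 2) := ⟨Nat.prime_two⟩
  have hn2 : 2 ≤ n := by omega
  obtain ⟨Ψ, hΨ⟩ : ∃ Ψ : SU n F q →* MulAut (ProjectiveSpecialLinearGroup (Fin n) F), ∀ x, Ψ x = dg (SpecialLinearGroup.toGL x.1) :=
    ⟨(dg.comp SpecialLinearGroup.toGL).comp (SU n F q).subtype, fun x => rfl⟩
  have hker : Ψ.ker = Subgroup.center (SU n F q) := by
    ext s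
    rw [MonoidHom.mem_ker, hΨ, dg_eq_one_iff hn2, PSUAut.mem_center_iff' hq hn2]; rfl
  have hmem : ∀ g : GL (Fin n) F, GeneralLinearGroup.det g = 1 → g ∈ GU n F q → dg g ∈ Ψ.range := by
    intro g h3 h4
    obtain ⟨s, hs⟩ := exists_toGL_of_det h3
    refine ⟨⟨s, ?_⟩, ?_⟩
    · have : SpecialLinearGroup.toGL s ∈ GU n F q := by rw [hs]; exact h4
      exact this
    · rw [hΨ, hs]
  have heven : 2 ∣ Nat.card Ψ.range := by
    obtain ⟨i, hi⟩ : ∃ z : Fin n, z = ⟨0, by omega⟩ := ⟨_, rfl⟩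
    obtain ⟨j, hj⟩ : ∃ z : Fin n, z = ⟨1, by omega⟩ := ⟨_, rfl⟩
    obtain ⟨k, hk⟩ : ∃ z : Fin n, z = ⟨2, by omega⟩ := ⟨_, rfl⟩
    have hij : i ≠ j := by rw [hi, hj]; simp
    have hik : i ≠ k := by rw [hi, hk]; simp
    have hjk : j ≠ k := by rw [hj, hk]; simp
    have hm1 : (-1 : Fˣ) ∈ nrmOne σ := by
      rw [mem_nrmOne, Units.val_neg, Units.val_one, map_neg, map_one]; ring
    have hcomm : Commute (dh i (-1) : GL (Fin n) F) (dh j (-1)) := by
      apply Units.ext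
      rw [Units.val_mul, Units.val_mul, dh_coe, dh_coe, Matrix.diagonal_mul_diagonal, Matrix.diagonal_mul_diagonal]
      congr 1
      ext k
      rw [mul_comm]
    have h3 : (dg (dh i (-1) * dh j (-1)) : MulAut (ProjectiveSpecialLinearGroup (Fin n) F)) ∈ Ψ.range := by
      apply hmem
      · rw [map_mul, det_dh, det_dh]; norm_num
      · exact (GU n F q).mul_mem (dh_mem_GU hσ i hm1) (dh_mem_GU hσ j hm1)
    have h4 : orderOf (dg (dh i (-1) * dh j (-1)) : MulAut (ProjectiveSpecialLinearGroup (Fin n) F)) = 2 := by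
      apply orderOf_eq_prime
      · rw [← map_pow, hcomm.mul_pow, ← map_pow, ← map_pow]; norm_num
      · intro h5
        obtain ⟨c, hc⟩ := (dg_eq_one_iff hn2 _).1 h5
        have h6 : ∀ z : Fin n, (((Pi.mulSingle i (-1) : Fin n → Fˣ) z : F)) * ((Pi.mulSingle j (-1) : Fin n → Fˣ) z : F) = c := by
          intro z
          have h7 := congrFun (hc (Pi.single z 1)) z
          rw [Units.val_mul, dh_coe, dh_coe, Matrix.diagonal_mul_diagonal, Matrix.mulVec_diagonal, Pi.smul_apply,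
            Pi.single_eq_same, mul_one, smul_eq_mul, mul_one] at h7
          exact h7
        have h8 := h6 i
        have h9 := h6 k
        rw [Pi.mulSingle_eq_same, Pi.mulSingle_eq_of_ne hij] at h8
        rw [Pi.mulSingle_eq_of_ne hik.symm, Pi.mulSingle_eq_of_ne hjk.symm] at h9
        rw [← h9] at h8
        apply h2
        simp only [Units.val_neg, Units.val_one] at h8
        linear_combination -h8
    rw [← h4]
    have := orderOf_dvd_natCard (⟨_, h3⟩ : Ψ.range)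
    rwa [Subgroup.orderOf_mk] at this
  have hq2 : q ≠ 2 := by
    rintro rfl
    apply h2
    have h4 : ((Fintype.card F : ℕ) : F) = 0 := Nat.cast_card_eq_zero F
    rw [hq] at h4
    have h5 : (2 : F) ^ 2 = 0 := by exact_mod_cast h4
    exact (pow_eq_zero_iff two_ne_zero).1 h5
  have hsimple : IsSimpleGroup (PSU n F q) := S0283.result hq n hn (fun h => hq2 h.2)
  let E : PSU n F q ≃* Ψ.range := (QuotientGroup.quotientMulEquivOfEq hker.symm).trans (QuotientGroup.quotientKerEquivRange Ψ)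
  obtain ⟨j, hj1, hj2⟩ : ∃ j : PSU n F q →* MulAut (ProjectiveSpecialLinearGroup (Fin n) F), Function.Injective j ∧
      j.range = Ψ.range := by
    refine ⟨Ψ.range.subtype.comp E.toMonoidHom, (Subgroup.subtype_injective _).comp E.injective, ?_⟩
    have h3 : E.toMonoidHom.range = ⊤ := MonoidHom.range_eq_top.2 E.surjective
    rw [MonoidHom.range_comp, h3, ← MonoidHom.range_eq_map, Subgroup.range_subtype]
  refine LBal.no_balance (S := Ψ.range) LBal.inn_normal hA α hy ?_ ?_ heven ?_ ?_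
  · rintro _ ⟨x, rfl⟩
    rw [hΨ, Subgroup.mem_inf, Subgroup.mem_centralizer_singleton_iff, dg_inner_iff hn2, commute_fd_io_iff hn2 ho hσ]
    exact ⟨⟨1, by rw [one_pow, det_toGL]⟩, 1, _, x.2, by rw [map_one, one_mul]⟩
  · rintro c hc _ ⟨x, rfl⟩
    obtain ⟨h5, h6⟩ := Subgroup.mem_inf.1 hc
    have h7 := inn_le_inndiag h5
    rw [inndiag_eq] at h7
    obtain ⟨k, rfl⟩ := h7
    rw [Subgroup.mem_centralizer_singleton_iff, commute_fd_io_iff hn2 ho hσ] at h6
    obtain ⟨b, g₀, hg₀, rfl⟩ := h6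
    rw [map_mul, dg_sc, one_mul, hΨ, ← map_inv, ← map_mul, ← map_mul]
    apply hmem
    · rw [map_mul, map_mul, map_inv, det_toGL, mul_one, mul_inv_cancel]
    · exact (GU n F q).mul_mem ((GU n F q).mul_mem hg₀ x.2) ((GU n F q).inv_mem hg₀)
  · intro N hN hnn hc
    have hM : (N.comap j).Normal := by
      constructor
      intro x hx g
      rw [Subgroup.mem_comap] at hx ⊢
      rw [map_mul, map_mul, map_inv]
      exact hnn _ (by rw [← hj2]; exact ⟨g, rfl⟩) _ hx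
    have hmap : (N.comap j).map j = N := by
      rw [Subgroup.map_comap_eq, hj2, inf_eq_right.2 hN]
    rcases hM.eq_bot_or_eq_top with h | h
    · rw [← hmap, h, Subgroup.map_bot]
    · exfalso
      have h5 : N = Ψ.range := by rw [← hmap, h, ← MonoidHom.range_eq_map, hj2]
      rw [h5, Nat.coprime_comm, Nat.prime_two.coprime_iff_not_dvd] at hc
      exact hc heven
  · intro θ hθ
    refine sq_one hn2 (T := Set.range (fun s : SU n F q => SpecialLinearGroup.toGL s.1)) (fun h f₁ f₂ H =>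
      Rigid.herm_rigid_odd hq hn h2 (fun s => H _ ⟨s, rfl⟩)) (θ := θ) ?_
    rintro _ ⟨s, rfl⟩
    have := hθ (Ψ s) ⟨s, rfl⟩
    rwa [hΨ] at this

theorem isFieldAut_iff (β : MulAut (ProjectiveSpecialLinearGroup (Fin n) F)) : IsFieldAutPSL β ↔ ∃ σ, β = fd σ := by
  constructor
  · rintro ⟨σ, h⟩
    exact ⟨σ, (isStdField_iff σ β).1 h⟩
  · rintro ⟨σ, h⟩
    exact ⟨σ, (isStdField_iff σ β).2 h⟩

theorem conj_inj (hn : 2 ≤ n) : Function.Injective (MulAut.conj : ProjectiveSpecialLinearGroup (Fin n) F →* _) := by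
  rw [injective_iff_map_eq_one]
  intro x hx
  obtain ⟨s, rfl⟩ := QuotientGroup.mk_surjective x
  rw [← toGL_dg] at hx
  have h1 : (subL (n := n) (RingHom.id F) s : MulAut (ProjectiveSpecialLinearGroup (Fin n) F)) = 1 := by
    rw [subL_apply, mi_id]; exact hx
  rw [subL_eq_one hn] at h1
  exact (QuotientGroup.eq_one_iff s).2 h1

/-- the main theorem -/
theorem main [Fintype F] {r : ℕ} [CharP F r] (hn : 2 ≤ n)
    (A : Subgroup (MulAut (ProjectiveSpecialLinearGroup (Fin n) F)))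
    (hA : Inn (ProjectiveSpecialLinearGroup (Fin n) F) ≤ A) {p : ℕ} (hp : p.Prime) (hpr : p ≠ r)
    (hr : r.Prime)
    {β : MulAut (ProjectiveSpecialLinearGroup (Fin n) F)} (hord : orderOf β = p) (hnot : ¬ IsInnerDiagonalAutPSL β) :
    pPrimeCore p ↥(A ⊓ Subgroup.centralizer {β}) ≠ ⊥ ↔
      ((∃ γ φ : MulAut (ProjectiveSpecialLinearGroup (Fin n) F), IsInnerDiagonalAutPSL γ ∧ IsFieldAutPSL φ ∧ β = γ * φ) ∧
        (Nat.card ↥(Inn (ProjectiveSpecialLinearGroup (Fin n) F) ⊓ Subgroup.centralizer {β})).Coprime p) := by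
  have hfact : Fact p.Prime := ⟨hp⟩
  rw [isInnerDiagonal_iff] at hnot
  have hβp : β ^ p = 1 := by rw [← hord, pow_orderOf_eq_one]
  have hfirst : ∀ (g : GL (Fin n) F) (σ : F ≃+* F), β = dg g * fd σ →
      (pPrimeCore p ↥(A ⊓ Subgroup.centralizer {β}) ≠ ⊥ ↔
      ((∃ γ φ : MulAut (ProjectiveSpecialLinearGroup (Fin n) F), IsInnerDiagonalAutPSL γ ∧ IsFieldAutPSL φ ∧ β = γ * φ) ∧
        (Nat.card ↥(Inn (ProjectiveSpecialLinearGroup (Fin n) F) ⊓ Subgroup.centralizer {β})).Coprime p)) := by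
    intro g σ e
    have h1 : σ ^ p = 1 := by
      rw [e, dg_fd_pow] at hβp
      exact (dg_fd_eq_one hn hβp).1
    have h2 : σ ≠ 1 := by
      rintro rfl
      exact hnot ⟨g, by rw [e, map_one, mul_one]⟩
    have h3 : orderOf σ = p := orderOf_eq_prime h1 h2
    obtain ⟨h, hh⟩ := exists_conj_fd hn h3 hp.pos g (by rw [← e]; exact hβp)
    rw [local_balance_fd hn hp hpr h3 A hA (dg h) (by rw [e, hh])]
    exact ⟨fun hc => ⟨⟨dg g, fd σ, (isInnerDiagonal_iff _).2 ⟨g, rfl⟩, (isFieldAut_iff _).2 ⟨σ, rfl⟩, e⟩, hc⟩, fun hc => hc.2⟩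
  rcases hn.eq_or_lt with hn2 | hn3
  · subst hn2
    obtain ⟨g, σ, e⟩ := aut_psl_two β
    exact hfirst g σ e
  · obtain ⟨g, σ, e | e⟩ := aut_psl hn β
    · exact hfirst g σ e
    · -- graph or graph-field
      have hn3' : 3 ≤ n := hn3
      have hnf : ¬ ∃ γ φ : MulAut (ProjectiveSpecialLinearGroup (Fin n) F), IsInnerDiagonalAutPSL γ ∧ IsFieldAutPSL φ ∧ β = γ * φ := by
        rintro ⟨γ, φ, h1, h2, h3⟩
        obtain ⟨g', rfl⟩ := (isInnerDiagonal_iff _).1 h1
        obtain ⟨σ', rfl⟩ := (isFieldAut_iff _).1 h2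
        rw [e] at h3
        apply not_io hn3' (mp σ⁻¹ (g⁻¹ * g')) (σ⁻¹ * σ')
        have h4 : io = (fd σ)⁻¹ * ((dg g)⁻¹ * dg g') * fd σ' := by
          calc io = (fd σ)⁻¹ * (dg g)⁻¹ * (dg g * fd σ * io) := by group
            _ = _ := by rw [h3]; group
        rw [h4, ← map_inv, ← map_inv, ← map_mul, fd_dg', mul_assoc, ← map_mul]
      -- p = 2
      have hio : ∀ k : ℕ, ∃ (g' : GL (Fin n) F) (σ' : F ≃+* F), β ^ (2 * k) = dg g' * fd σ' := by
        intro k
        obtain ⟨g', σ', h1⟩ := sq_form hn (β)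
        rw [pow_mul, h1, dg_fd_pow]
        exact ⟨_, _, rfl⟩
      have hp2 : p = 2 := by
        by_contra hne
        obtain ⟨k, hk⟩ := hp.odd_of_ne_two hne
        obtain ⟨g', σ', h1⟩ := hio (k + 1)
        have h2 : β ^ (2 * (k + 1)) = β := by
          rw [show 2 * (k + 1) = p + 1 by omega, pow_succ, hβp, one_mul]
        rw [h2] at h1
        exact hnf ⟨dg g', fd σ', (isInnerDiagonal_iff _).2 ⟨g', rfl⟩, (isFieldAut_iff _).2 ⟨σ', rfl⟩, h1⟩
      subst hp2
      have h20 : (2 : F) ≠ 0 := by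
        intro h0
        have h3 : ((2 : ℕ) : F) = 0 := by exact_mod_cast h0
        have h4 := (CharP.cast_eq_zero_iff F r 2).1 h3
        rcases (Nat.dvd_prime Nat.prime_two).1 h4 with h5 | h5
        · exact hr.one_lt.ne' h5
        · exact hpr h5.symm
      have hbal : pPrimeCore 2 ↥(A ⊓ Subgroup.centralizer {β}) = ⊥ := by
        by_cases hσ : σ = 1
        · subst hσ
          rw [map_one, mul_one] at e
          rw [e]
          exact balance_graph h20 hn3' (by rw [← e]; exact hβp) A hA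
        · have h5 : σ ^ 2 = 1 := by
            have h6 : (fd σ * io * (fd σ * io) : MulAut (ProjectiveSpecialLinearGroup (Fin n) F)) = fd (σ * σ) := by
              rw [mul_assoc, ← mul_assoc io, io_fd, mul_assoc, io_sq, mul_one, ← map_mul]
            have h7 : β ^ 2 = dg (g * mp σ (itGL g)) * fd (σ * σ) := by
              rw [e, pow_two, ← h6, map_mul]
              calc dg g * fd σ * io * (dg g * fd σ * io) = dg g * (fd σ * io * dg g) * (fd σ * io) := by simp only [mul_assoc]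
                _ = _ := by rw [fd_io_dg]; simp only [mul_assoc]
            rw [hβp] at h7
            rw [pow_two]
            exact (dg_fd_eq_one hn h7.symm).1
          have h6 : orderOf σ = 2 := orderOf_eq_prime h5 hσ
          obtain ⟨h, hh⟩ := exists_conj_fd_io hn3' h6 g (by rw [← mul_assoc, ← e]; exact hβp)
          have hrf : Fact r.Prime := ⟨hr⟩
          obtain ⟨f, hf, hF⟩ := FiniteField.card F r
          have h8 : 2 ∣ (f : ℕ) := by
            rw [← h6, ← FFAut.card_aut hF]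
            have := FFAut.finite_aut (F := F)
            exact orderOf_dvd_natCard σ
          have h9 : Fintype.card F = (r ^ ((f : ℕ) / 2)) ^ 2 := by
            rw [hF, ← pow_mul, Nat.div_mul_cancel h8]
          exact balance_graph_field h20 hn3' h6 h9 (FFAut.eq_pow_of_orderOf_two hF f.pos h6) (dg h)
            (by rw [e, mul_assoc, hh]) A hA
      rw [hbal]
      exact ⟨fun h => absurd rfl h, fun h => absurd h.1 hnf⟩

end Cfsg.Agent.Lib.PSLBal
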