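import Cfsg.Agent.Lib.GLDet

/-! Types of matrices multiplied by a scalar (helper41). -/

set_option autoImplicit false

namespace Cfsg.Agent.Lib.TypeScale

open Polynomial Cfsg.Agent.Lib.FXType Cfsg.Agent.Lib.GLClass Cfsg.Agent.Lib.GLCount Cfsg.Agent.Lib.GLDet Classical

universe u v

variable {F : Type u} [Field F]

theorem sr_inv {c : F} (hc : c ≠ 0) (p : F[X]) : (p.scaleRoots c).scaleRoots c⁻¹ = p := by
  rw [← scaleRoots_mul, mul_inv_cancel₀ hc, scaleRoots_one]

theorem sr_inv' {c : F} (hc : c ≠ 0) (p : F[X]) : (p.scaleRoots c⁻¹).scaleRoots c = p := by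
  rw [← scaleRoots_mul, inv_mul_cancel₀ hc, scaleRoots_one]

/-- scaling as a multiplicative equivalence -/
noncomputable def srEquiv {c : F} (hc : c ≠ 0) : F[X] ≃* F[X] where
  toFun p := p.scaleRoots c
  invFun p := p.scaleRoots c⁻¹
  left_inv := sr_inv hc
  right_inv := sr_inv' hc
  map_mul' p q := mul_scaleRoots_of_noZeroDivisors p q c

theorem sr_irreducible {c : F} (hc : c ≠ 0) {p : F[X]} (hp : Irreducible p) : Irreducible (p.scaleRoots c) :=
  (MulEquiv.irreducible_iff (srEquiv hc)).2 hp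

/-- scaling an elementary divisor -/
noncomputable def sc (c : F) (d : F[X] × ℕ) : F[X] × ℕ := (d.1.scaleRoots c, d.2)

theorem good_sc {c : F} (hc : c ≠ 0) {d : F[X] × ℕ} (hd : Good d) : Good (sc c d) :=
  ⟨(monic_scaleRoots_iff c).2 hd.1, sr_irreducible hc hd.2.1, hd.2.2⟩

theorem ker_aeval_scale {V : Type v} [AddCommGroup V] [Module F V] (f : Module.End F V) {c : F} (hc : c ≠ 0) (p : F[X]) :
    LinearMap.ker (aeval (c • f) (p.scaleRoots c)) = LinearMap.ker (aeval f p) := by
  have h1 : aeval (c • f) (p.scaleRoots c) = (c ^ p.natDegree) • aeval f p := by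
    have h2 := scaleRoots_eval₂_mul_of_commute (p := p) (algebraMap F (Module.End F V)) f c
      (Algebra.commutes c f) (fun a b => by rw [commute_iff_eq, ← map_mul, mul_comm, map_mul])
    rw [← Algebra.smul_def, ← map_pow, ← Algebra.smul_def] at h2
    exact h2
  rw [h1, LinearMap.ker_smul _ _ (pow_ne_zero _ hc)]

theorem hasType_smul {V : Type v} [AddCommGroup V] [Module F V] {f : Module.End F V} {s : Multiset (F[X] × ℕ)}
    (h : HasType f s) {c : F} (hc : c ≠ 0) : HasType (c • f) (s.map (sc c)) := by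
  have := h.finiteDimensional
  obtain ⟨s', hs'⟩ := exists_hasType (c • f)
  have : s' = s.map (sc c) := by
    apply eq_of_gdeg s' (s.map (sc c)) hs'.good
    · intro d hd
      obtain ⟨d', hd', rfl⟩ := Multiset.mem_map.1 hd
      exact good_sc hc (h.good d' hd')
    · intro q k hq hqi
      rw [← hs'.finrank_ker]
      have h1 : (q ^ k) = ((q.scaleRoots c⁻¹) ^ k).scaleRoots c := by
        rw [pow_scaleRoots_of_isReduced, sr_inv' hc]
      rw [h1, ker_aeval_scale f hc, h.finrank_ker, ← h1, Multiset.map_map]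
      congr 1
      apply Multiset.map_congr rfl
      intro d hd
      have hg := h.good d hd
      have hg' := good_sc hc hg
      have hqm : (q.scaleRoots c⁻¹).Monic := (monic_scaleRoots_iff _).2 hq
      have hqi' : Irreducible (q.scaleRoots c⁻¹) := sr_irreducible (inv_ne_zero hc) hqi
      rw [Function.comp_apply, natDegree_gcd_pow d.1 _ hg.1 hg.2.1 hqm hqi',
        natDegree_gcd_pow (sc c d).1 _ hg'.1 hg'.2.1 hq hqi]
      have h2 : d.1 = q.scaleRoots c⁻¹ ↔ (sc c d).1 = q := by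
        constructor
        · intro h3
          change d.1.scaleRoots c = q
          rw [h3, sr_inv' hc]
        · intro h3
          rw [← h3]
          exact (sr_inv hc d.1).symm
      have h3 : (sc c d).1.natDegree = d.1.natDegree := natDegree_scaleRoots _ _
      by_cases h4 : d.1 = q.scaleRoots c⁻¹
      · rw [if_pos h4, if_pos (h2.1 h4), h3]; rfl
      · rw [if_neg h4, if_neg (fun h5 => h4 (h2.2 h5))]
  rw [← this]
  exact hs'

theorem mtype_smul {ι : Type*} [Fintype ι] [DecidableEq ι] {A : Matrix ι ι F} {s : Multiset (F[X] × ℕ)} (h : MType A s)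
    {c : F} (hc : c ≠ 0) : MType (c • A) (s.map (sc c)) := by
  have h1 := hasType_smul (show HasType (Matrix.mulVecLin A) s from h) hc
  have h2 : Matrix.mulVecLin (c • A) = c • Matrix.mulVecLin A := by
    apply LinearMap.ext
    intro v
    rw [Matrix.mulVecLin_apply, LinearMap.smul_apply, Matrix.mulVecLin_apply, Matrix.smul_mulVec]
  rw [← h2] at h1
  exact h1

theorem invariant_of_isConj {ι : Type*} [Fintype ι] [DecidableEq ι] {A : Matrix ι ι F} {s : Multiset (F[X] × ℕ)} (h : MType A s)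
    {c : F} (hc : c ≠ 0) (hA : IsConj A (c • A)) : s.map (sc c) = s :=
  (mtype_smul h hc).unique (h.of_isConj hA)

/-! ### assembling types -/

/-- the type with prescribed products -/
noncomputable def asm (m : ℕ) (h : ℕ → F[X]) : Multiset (F[X] × ℕ) := ∑ i ∈ Finset.Icc 1 m, bk i (h i)

theorem Tot_sum {ι : Type*} (s : Finset ι) (f : ι → Multiset (F[X] × ℕ)) : Tot (∑ i ∈ s, f i) = ∑ i ∈ s, Tot (f i) := by
  induction s using Finset.induction_on with
  | empty => simp [Tot]
  | insert a s ha ih => rw [Finset.sum_insert ha, Finset.sum_insert ha, Tot_add, ih]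

theorem fi_add (i : ℕ) (s t : Multiset (F[X] × ℕ)) : fi i (s + t) = fi i s + fi i t := Multiset.filter_add _ _ _

theorem fi_sum {ι : Type*} (j : ℕ) (s : Finset ι) (f : ι → Multiset (F[X] × ℕ)) : fi j (∑ i ∈ s, f i) = ∑ i ∈ s, fi j (f i) := by
  induction s using Finset.induction_on with
  | empty => simp [fi]
  | insert a s ha ih => rw [Finset.sum_insert ha, Finset.sum_insert ha, fi_add, ih]

theorem asm_facts {m : ℕ} {h : ℕ → F[X]} (hh : ∀ i, 1 ≤ i → i ≤ m → (h i).Monic ∧ (h i).coeff 0 ≠ 0) :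
    (∀ d ∈ asm m h, Good d ∧ d.1 ≠ X) ∧ Tot (asm m h) = ∑ i ∈ Finset.Icc 1 m, i * (h i).natDegree ∧
      ∀ i, 1 ≤ i → i ≤ m → fi i (asm m h) = bk i (h i) ∧ pr i (asm m h) = h i := by
  have hb : ∀ i, 1 ≤ i → i ≤ m → _ := fun i h1 h2 => bk_facts i h1 (hh i h1 h2).1 (hh i h1 h2).2
  refine ⟨?_, ?_, ?_⟩
  · intro d hd
    rw [asm, Multiset.mem_sum] at hd
    obtain ⟨i, hi, hd⟩ := hd
    rw [Finset.mem_Icc] at hi
    exact ((hb i hi.1 hi.2).1 d hd).1
  · rw [asm, Tot_sum]
    apply Finset.sum_congr rfl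
    intro i hi
    rw [Finset.mem_Icc] at hi
    exact (hb i hi.1 hi.2).2.1
  · intro i h1 h2
    have h3 : fi i (asm m h) = bk i (h i) := by
      rw [asm, fi_sum, Finset.sum_eq_single i]
      · exact Multiset.filter_eq_self.2 (fun d hd => ((hb i h1 h2).1 d hd).2)
      · intro j hj hji
        rw [Finset.mem_Icc] at hj
        apply Multiset.filter_eq_nil.2
        intro d hd h4
        exact hji ((((hb j hj.1 hj.2).1 d hd).2).symm.trans h4)
      · intro h4
        exact absurd (Finset.mem_Icc.2 ⟨h1, h2⟩) h4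
    refine ⟨h3, ?_⟩
    rw [pr, h3]
    have h4 := (hb i h1 h2).2.2
    rw [pr] at h4
    rw [show fi i (bk i (h i)) = bk i (h i) from
      Multiset.filter_eq_self.2 (fun d hd => ((hb i h1 h2).1 d hd).2)] at h4
    exact h4

theorem pr_facts' {A : Set ℕ} {m : ℕ} {s : Multiset (F[X] × ℕ)} (hs : s ∈ TA F A m) (i : ℕ) :
    (pr i s).Monic ∧ (pr i s).coeff 0 ≠ 0 ∧ bk i (pr i s) = fi i s := by
  have h := pr_facts (i := i) (fun d hd => (hs.1 d hd).1)
  exact ⟨h.1, h.2.1, h.2.2.2⟩

theorem eq_sum_fi {A : Set ℕ} {m : ℕ} {s : Multiset (F[X] × ℕ)} (hs : s ∈ TA F A m) : s = ∑ i ∈ Finset.Icc 1 m, fi i s := by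
  ext d
  rw [Multiset.count_sum']
  simp only [fi, Multiset.count_filter]
  by_cases hd : d ∈ s
  · have h1 := snd_le_of_mem hs hd
    rw [Finset.sum_ite_eq (Finset.Icc 1 m) d.2 (fun _ => s.count d), if_pos (Finset.mem_Icc.2 h1)]
  · rw [Multiset.count_eq_zero_of_notMem hd]
    simp

theorem asm_pr {A : Set ℕ} {m : ℕ} {s : Multiset (F[X] × ℕ)} (hs : s ∈ TA F A m) : asm m (fun i => pr i s) = s := by
  conv_rhs => rw [eq_sum_fi hs]
  rw [asm]
  exact Finset.sum_congr rfl (fun i _ => (pr_facts' hs i).2.2)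

theorem tot_pr {A : Set ℕ} {m : ℕ} {s : Multiset (F[X] × ℕ)} (hs : s ∈ TA F A m) :
    m = ∑ i ∈ Finset.Icc 1 m, i * (pr i s).natDegree := by
  have h := (asm_facts (m := m) (h := fun i => pr i s) (fun i _ _ => ⟨(pr_facts' hs i).1, (pr_facts' hs i).2.1⟩)).2.1
  rw [asm_pr hs, hs.2] at h
  exact h

theorem asm_congr {m : ℕ} {h h' : ℕ → F[X]} (hh : ∀ i, 1 ≤ i → i ≤ m → h i = h' i) : asm m h = asm m h' := by
  rw [asm, asm]
  apply Finset.sum_congr rfl
  intro i hi
  rw [Finset.mem_Icc] at hi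
  rw [hh i hi.1 hi.2]

/-! ### invariant types -/

theorem pr_scale (i : ℕ) (c : F) (s : Multiset (F[X] × ℕ)) : pr i (s.map (sc c)) = (pr i s).scaleRoots c := by
  have h1 : fi i (s.map (sc c)) = (fi i s).map (sc c) := by
    rw [fi, Multiset.filter_map]
    rfl
  have h2 : ∀ m : Multiset (F[X] × ℕ), ((m.map (sc c)).map Prod.fst).prod = ((m.map Prod.fst).prod).scaleRoots c := by
    intro m
    induction m using Multiset.induction_on with
    | empty => simp
    | cons a m ih =>
      rw [Multiset.map_cons, Multiset.map_cons, Multiset.map_cons, Multiset.prod_cons, Multiset.prod_cons, ih,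
        mul_scaleRoots_of_noZeroDivisors]
      rfl
  rw [pr, h1, h2, pr]

theorem expand_contract_of_invariant {g : F[X]} (h0 : g.coeff 0 ≠ 0) {c : F} {e : ℕ} (he : 1 ≤ e)
    (hc : orderOf c = e) (hg : g.scaleRoots c = g) : expand F e (contract e g) = g := by
  have hcoeff : ∀ j, j ≤ g.natDegree → g.coeff j ≠ 0 → e ∣ g.natDegree - j := by
    intro j _ hj
    rw [← hc]
    apply orderOf_dvd_of_pow_eq_one
    have h1 := congrArg (fun p => coeff p j) hg
    simp only [coeff_scaleRoots] at h1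
    exact mul_left_cancel₀ hj (h1.trans (mul_one _).symm)
  have hd : e ∣ g.natDegree := by
    have := hcoeff 0 (Nat.zero_le _) h0
    simpa using this
  ext j
  rw [coeff_expand (by omega)]
  split_ifs with h
  · rw [coeff_contract (by omega), Nat.div_mul_cancel h]
  · by_contra h2
    apply h
    have h3 : g.coeff j ≠ 0 := fun h4 => h2 h4.symm
    have h4 : j ≤ g.natDegree := le_natDegree_of_ne_zero h3
    have h5 := hcoeff j h4 h3
    have h6 := (Nat.dvd_sub hd h5)
    rwa [Nat.sub_sub_self h4] at h6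

/-- invariant types of total `m` -/
def IT (F : Type u) [Field F] (c : F) (m : ℕ) : Set (Multiset (F[X] × ℕ)) := {s | s ∈ TA F Set.univ m ∧ s.map (sc c) = s}

theorem IT_facts {c : F} {e m : ℕ} (he : 1 ≤ e) (hc : orderOf c = e) {s : Multiset (F[X] × ℕ)} (hs : s ∈ IT F c m) (i : ℕ) :
    expand F e (contract e (pr i s)) = pr i s ∧ (contract e (pr i s)).Monic ∧ (contract e (pr i s)).coeff 0 ≠ 0 ∧
      (pr i s).natDegree = (contract e (pr i s)).natDegree * e := by
  have h1 := pr_facts' hs.1 i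
  have h2 : (pr i s).scaleRoots c = pr i s := by rw [← pr_scale, hs.2]
  have h3 := expand_contract_of_invariant h1.2.1 he hc h2
  refine ⟨h3, ?_, ?_, ?_⟩
  · rw [← monic_expand_iff (p := e) (by omega), h3]
    exact h1.1
  · rw [coeff_contract (by omega), zero_mul]
    exact h1.2.1
  · conv_lhs => rw [← h3]
    rw [natDegree_expand]

theorem IT_tot {c : F} {e m : ℕ} (he : 1 ≤ e) (hc : orderOf c = e) {s : Multiset (F[X] × ℕ)} (hs : s ∈ IT F c m) :
    m = (∑ i ∈ Finset.Icc 1 m, i * (contract e (pr i s)).natDegree) * e := by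
  rw [Finset.sum_mul]
  conv_lhs => rw [tot_pr hs.1]
  apply Finset.sum_congr rfl
  intro i _
  rw [(IT_facts he hc hs i).2.2.2, mul_assoc]

theorem IT_empty {c : F} {e m : ℕ} (he : 1 ≤ e) (hc : orderOf c = e) (hm : ¬ e ∣ m) : IT F c m = ∅ := by
  rw [Set.eq_empty_iff_forall_notMem]
  intro s hs
  exact hm ⟨_, (IT_tot he hc hs).trans (mul_comm _ _)⟩

theorem finite_IT [Finite F] (c : F) (m : ℕ) : (IT F c m).Finite := (finite_TA (F := F) Set.univ m).subset (fun _ h => h.1)

theorem card_IT_le [Finite F] {c : F} {e m : ℕ} (he : 1 ≤ e) (hc : orderOf c = e) :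
    Nat.card (IT F c m) ≤ Nat.card (TA F Set.univ (m / e)) := by
  have hfin := (finite_TA (F := F) Set.univ (m / e)).to_subtype
  have hf : ∀ s : IT F c m, _ := fun s => asm_facts (m := m) (h := fun i => contract e (pr i s.1))
    (fun i _ _ => ⟨(IT_facts he hc s.2 i).2.1, (IT_facts he hc s.2 i).2.2.1⟩)
  apply Nat.card_le_card_of_injective (fun s : IT F c m =>
    (⟨asm m (fun i => contract e (pr i s.1)), ⟨fun d hd => ⟨(hf s).1 d hd, Set.mem_univ _⟩, by
      rw [(hf s).2.1]
      exact (Nat.div_eq_of_eq_mul_left (by omega) (IT_tot he hc s.2)).symm⟩⟩ : TA F Set.univ (m / e)))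
  intro s t h
  have h1 : asm m (fun i => contract e (pr i s.1)) = asm m (fun i => contract e (pr i t.1)) := congrArg Subtype.val h
  apply Subtype.ext
  rw [← asm_pr s.2.1, ← asm_pr t.2.1]
  apply asm_congr
  intro i hi1 hi2
  have h2 := ((hf s).2.2 i hi1 hi2).2
  have h3 := ((hf t).2.2 i hi1 hi2).2
  rw [h1, h3] at h2
  rw [← (IT_facts he hc s.2 i).1, ← (IT_facts he hc t.2 i).1, h2]

end Cfsg.Agent.Lib.TypeScale
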