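import Cfsg.Agent.Lib.SLCountB
import Cfsg.Agent.Lib.TypeScale
import Cfsg.Agent.Lib.CentralClasses
import Cfsg.Agent.Lib.ClSLn
import Cfsg.Agent.Lib.SL2Basic

/-! Class numbers of `PSL_n(q)` (helper41). -/

set_option autoImplicit false

namespace Cfsg.Agent.Lib.PSLCount

open Polynomial Cfsg.Agent.Lib.FXType Cfsg.Agent.Lib.GLClass Cfsg.Agent.Lib.GLCount Cfsg.Agent.Lib.GLDet
  Cfsg.Agent.Lib.SLCount Cfsg.Agent.Lib.TypeScale Cfsg.Agent.Lib.CentralClasses Classical

universe u

variable {F : Type u} [Field F] {n : ℕ}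

local notation "SL" => Matrix.SpecialLinearGroup (Fin n) F
local notation "GLn" => GL (Fin n) F

/-- types invariant under scaling -/
def Inv (c : F) (s : Multiset (F[X] × ℕ)) : Prop := s.map (sc c) = s

theorem dv_inv {c : F} {e : ℕ} {s : Multiset (F[X] × ℕ)} (hs : Inv c s) : Inv c (dv e s) := by
  have h1 : (dv e s).map (sc c) = dv e (s.map (sc c)) := by
    rw [dv, dv, Multiset.map_map, Multiset.map_map]
    rfl
  rw [Inv, h1, hs]

theorem card_UI_le_IT [Finite F] {c : F} {e' n : ℕ} (he' : 1 ≤ e') :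
    Nat.card (U F (Inv c) e' n) ≤ Nat.card (IT F c (n / e')) := by
  have hfin := (finite_IT (F := F) c (n / e')).to_subtype
  have hU : ∀ s : U F (Inv c) e' n, ∀ d ∈ s.1, (Good d ∧ d.1 ≠ X) ∧ e' ∣ d.2 :=
    fun s d hd => ⟨(s.2.1.1.1.1 d hd).1, s.2.2 d hd⟩
  apply Nat.card_le_card_of_injective (fun s : U F (Inv c) e' n =>
    (⟨dv e' s.1, ⟨⟨fun d hd => ⟨(dv_facts he' (hU s)).1 d hd, Set.mem_univ _⟩, by
      have h1 := (dv_facts he' (hU s)).2.1
      have h2 := s.2.1.1.1.2
      rw [h2] at h1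
      exact (Nat.div_eq_of_eq_mul_right he' h1).symm⟩, dv_inv s.2.1.2⟩⟩ : IT F c (n / e')))
  intro s t h
  have h1 : dv e' s.1 = dv e' t.1 := congrArg Subtype.val h
  apply Subtype.ext
  rw [← (dv_facts he' (hU s)).2.2.2, ← (dv_facts he' (hU t)).2.2.2, h1]

theorem card_UI_le [Finite F] {c : F} {e e' n : ℕ} (he' : 1 ≤ e') (he : 1 ≤ e) (hc : orderOf c = e) :
    Nat.card (U F (Inv c) e' n) ≤ Nat.card (TA F Set.univ (n / e' / e)) :=
  (card_UI_le_IT he').trans (card_IT_le he hc)

theorem card_UI_zero [Finite F] {c : F} {e e' n : ℕ} (he' : 1 ≤ e') (he : 1 ≤ e) (hc : orderOf c = e) (h : ¬ e ∣ n / e') :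
    Nat.card (U F (Inv c) e' n) = 0 := by
  have h1 := card_UI_le_IT (F := F) (c := c) (n := n) he'
  rw [IT_empty he hc h] at h1
  simpa [-Nat.card_coe_set_eq] using h1

/-- `z` is the scalar `c` -/
def IsSc (z : Subgroup.center SL) (c : F) : Prop := Matrix.scalar (Fin n) c = ((z : SL) : Matrix (Fin n) (Fin n) F)

theorem fix_le [Finite F] (hn : 1 ≤ n) (z : Subgroup.center SL) {c : F} (hz : IsSc z c) (hc : c ≠ 0) :
    Nat.card {C : ConjClasses SL // mulC z C = C} ≤
      ∑ e' ∈ (Nat.gcd n (Nat.card F - 1)).divisors, Nat.totient e' * Nat.card (U F (Inv c) e' n) := by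
  apply card_classes_le hn
  intro C hC
  have h1 : mulC z (ConjClasses.mk (rep C)) = ConjClasses.mk (rep C) := by rw [mk_rep]; exact hC
  rw [mulC_mk, ConjClasses.mk_eq_mk_iff_isConj] at h1
  have h2 : IsConj (Matrix.SpecialLinearGroup.toGL (rep C) : GLn) (Matrix.SpecialLinearGroup.toGL ((z : SL) * rep C)) :=
    MonoidHom.map_isConj Matrix.SpecialLinearGroup.toGL h1.symm
  rw [isConj_iff_coe] at h2
  have h3 : ((Matrix.SpecialLinearGroup.toGL ((z : SL) * rep C) : GLn) : Matrix (Fin n) (Fin n) F) =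
      c • ((Matrix.SpecialLinearGroup.toGL (rep C) : GLn) : Matrix (Fin n) (Fin n) F) := by
    change (((z : SL) * rep C : SL) : Matrix (Fin n) (Fin n) F) = c • ((rep C : SL) : Matrix (Fin n) (Fin n) F)
    rw [Matrix.SpecialLinearGroup.coe_mul, ← hz, Matrix.scalar_apply, ← Matrix.smul_eq_diagonal_mul]
  rw [h3] at h2
  exact invariant_of_isConj (ty_spec (rep C)) hc h2

theorem psl_sum [Finite F] : Nat.card (Subgroup.center SL) * Nat.card (ConjClasses (Matrix.ProjectiveSpecialLinearGroup (Fin n) F)) =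
    ∑ᶠ z : Subgroup.center SL, Nat.card {C : ConjClasses SL // mulC z C = C} := card_mul_card

theorem mulC_one (C : ConjClasses SL) : mulC 1 C = C := (act (G := SL)).one_smul C

theorem card_fix_one : Nat.card {C : ConjClasses SL // mulC 1 C = C} = Nat.card (ConjClasses SL) :=
  Nat.card_congr (Equiv.subtypeUnivEquiv mulC_one)

theorem card_center [Finite F] (hn : 1 ≤ n) : Nat.card (Subgroup.center SL) = Nat.gcd n (Nat.card F - 1) := by
  have := Fintype.ofFinite F
  rw [Nat.card_eq_fintype_card (α := F)]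
  exact ClSLn.card_center_SL rfl n hn

theorem kSL_le_psl [Finite F] (hn : 1 ≤ n) : Nat.card (ConjClasses SL) ≤
    Nat.gcd n (Nat.card F - 1) * Nat.card (ConjClasses (Matrix.ProjectiveSpecialLinearGroup (Fin n) F)) := by
  have := Fintype.ofFinite (Subgroup.center SL)
  rw [← card_center hn, psl_sum, finsum_eq_sum_of_fintype, ← card_fix_one]
  exact Finset.single_le_sum (f := fun z : Subgroup.center SL => Nat.card {C : ConjClasses SL // mulC z C = C})
    (fun _ _ => Nat.zero_le _) (Finset.mem_univ 1)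

theorem psl_le [Finite F] (hn : 1 ≤ n) (B2 B3 : ℕ)
    (h2 : ∀ (z : Subgroup.center SL), IsSc z (-1 : F) → (-1 : F) ^ n = 1 → (-1 : F) ≠ 1 →
      Nat.card {C : ConjClasses SL // mulC z C = C} ≤ B2)
    (h3 : ∀ (z : Subgroup.center SL) (c : F), IsSc z c → c ^ n = 1 → c ≠ 1 → c ≠ -1 →
      Nat.card {C : ConjClasses SL // mulC z C = C} ≤ B3) :
    Nat.gcd n (Nat.card F - 1) * Nat.card (ConjClasses (Matrix.ProjectiveSpecialLinearGroup (Fin n) F)) ≤
      Nat.card (ConjClasses SL) + B2 + (Nat.gcd n (Nat.card F - 1) - 1) * B3 := by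
  have := Fintype.ofFinite (Subgroup.center SL)
  have hex : ∀ z : Subgroup.center SL, ∃ r : F, r ^ n = 1 ∧ IsSc z r := by
    intro z
    obtain ⟨r, hr1, hr2⟩ := Matrix.SpecialLinearGroup.mem_center_iff.1 z.2
    rw [Fintype.card_fin] at hr1
    exact ⟨r, hr1, hr2⟩
  choose r hr1 hr2 using hex
  have hinj : ∀ z w, r z = r w → z = w := by
    intro z w h
    apply Subtype.ext
    apply Subtype.ext
    have h1 := hr2 z
    have h2 := hr2 w
    rw [IsSc] at h1 h2
    rw [← h1, ← h2, h]
  rw [← card_center hn, psl_sum, finsum_eq_sum_of_fintype, ← Finset.add_sum_erase _ _ (Finset.mem_univ (1 : Subgroup.center SL)),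
    card_fix_one, add_assoc]
  apply Nat.add_le_add_left
  have hone : ∀ z : Subgroup.center SL, r z = 1 → z = 1 := by
    intro z h
    apply Subtype.ext
    apply Subtype.ext
    have h1 := hr2 z
    rw [IsSc, h, map_one] at h1
    exact h1.symm
  have h4 : ∀ z ∈ (Finset.univ : Finset (Subgroup.center SL)).erase 1, Nat.card {C : ConjClasses SL // mulC z C = C} ≤
      (if r z = -1 then B2 else 0) + B3 := by
    intro z hz
    have hz1 : z ≠ 1 := (Finset.mem_erase.1 hz).1
    have hr : r z ≠ 1 := fun h => hz1 (hone z h)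
    split_ifs with h
    · have h5 := h2 z (h ▸ hr2 z) (h ▸ hr1 z) (h ▸ hr)
      omega
    · have h5 := h3 z (r z) (hr2 z) (hr1 z) hr h
      omega
  refine (Finset.sum_le_sum h4).trans ?_
  rw [Finset.sum_add_distrib, Finset.sum_const, Finset.card_erase_of_mem (Finset.mem_univ _), Finset.card_univ,
    smul_eq_mul, Nat.card_eq_fintype_card]
  apply Nat.add_le_add_right
  rw [← Finset.sum_filter, Finset.sum_const, smul_eq_mul]
  have h6 : (Finset.filter (fun z => r z = -1) ((Finset.univ : Finset (Subgroup.center SL)).erase 1)).card ≤ 1 := by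
    rw [Finset.card_le_one]
    intro a ha b hb
    exact hinj a b (((Finset.mem_filter.1 ha).2).trans ((Finset.mem_filter.1 hb).2).symm)
  calc _ ≤ 1 * B2 := Nat.mul_le_mul_right _ h6
    _ = B2 := one_mul _

theorem one_lt_order {c : F} (hc : c ≠ 1) (h : c ^ n = 1) (hn : 1 ≤ n) : 2 ≤ orderOf c := by
  have h1 : orderOf c ≠ 1 := fun h1 => hc (orderOf_eq_one_iff.1 h1)
  have h2 : 0 < orderOf c := orderOf_pos_iff.2 (isOfFinOrder_iff_pow_eq_one.2 ⟨n, hn, h⟩)
  omega

theorem two_lt_order {c : F} (hc : c ≠ 1) (hc' : c ≠ -1) (h : c ^ n = 1) (hn : 1 ≤ n) : 3 ≤ orderOf c := by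
  have h1 := one_lt_order hc h hn
  have h2 : orderOf c ≠ 2 := by
    intro h2
    have h3 := pow_orderOf_eq_one c
    rw [h2, sq, mul_self_eq_one_iff] at h3
    rcases h3 with h3 | h3
    · exact hc h3
    · exact hc' h3
  omega

/-! ### the bounds -/

theorem fix_le_pow [Finite F] (hn : 1 ≤ n) (z : Subgroup.center SL) {c : F} (hz : IsSc z c) (hc : c ≠ 0) {e : ℕ} (he : 1 ≤ e)
    (hc' : e ≤ orderOf c) :
    Nat.card {C : ConjClasses SL // mulC z C = C} ≤ Nat.gcd n (Nat.card F - 1) * Nat.card F ^ (n / e) := by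
  have h1 : 1 < Nat.card F := Finite.one_lt_card
  refine (fix_le hn z hz hc).trans ?_
  have h2 : Nat.gcd n (Nat.card F - 1) = ∑ e' ∈ (Nat.gcd n (Nat.card F - 1)).divisors, Nat.totient e' :=
    (Nat.sum_totient _).symm
  conv_rhs => rw [h2]
  rw [Finset.sum_mul]
  apply Finset.sum_le_sum
  intro e' he'
  apply Nat.mul_le_mul_left
  have h3 : 1 ≤ e' := Nat.pos_of_mem_divisors he'
  refine (card_UI_le h3 (he.trans hc') rfl).trans ((card_TA_univ_le _).trans ?_)
  apply Nat.pow_le_pow_right (by omega)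
  calc n / e' / orderOf c ≤ n / orderOf c := Nat.div_le_div_right (Nat.div_le_self n e')
    _ ≤ n / e := Nat.div_le_div_left hc' he

theorem fix_le' [Finite F] (hn : 1 ≤ n) (z : Subgroup.center SL) {c : F} (hz : IsSc z c) (hc : c ≠ 0) :
    Nat.card {C : ConjClasses SL // mulC z C = C} ≤
      ∑ e' ∈ n.divisors, Nat.totient e' * Nat.card (U F (Inv c) e' n) :=
  (fix_le hn z hz hc).trans (Finset.sum_le_sum_of_subset (Nat.divisors_subset_of_dvd (by omega) (Nat.gcd_dvd_left _ _)))

theorem K_one [Finite F] : Nat.card (TA F Set.univ 1) = Nat.card F - 1 := by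
  rw [K_eq, E_one, W_one]; omega

theorem K_two [Finite F] : Nat.card (TA F Set.univ 2) = (Nat.card F - 1) * Nat.card F + (Nat.card F - 1) := by
  rw [K_eq, E_two, W_two]; omega

theorem ne_zero_of_pow {c : F} (h : c ^ n = 1) (hn : 1 ≤ n) : c ≠ 0 := by
  rintro rfl
  rw [zero_pow (by omega)] at h
  exact zero_ne_one h

theorem psl_ge_five [Finite F] (hn : 5 ≤ n) :
    Nat.gcd n (Nat.card F - 1) * Nat.card (ConjClasses (Matrix.ProjectiveSpecialLinearGroup (Fin n) F)) ≤
      Nat.card F ^ (n - 1) + 5 * Nat.card F ^ (n - 2) := by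
  have h1 : 1 < Nat.card F := Finite.one_lt_card
  have h := psl_le (F := F) (n := n) (by omega) (Nat.gcd n (Nat.card F - 1) * Nat.card F ^ (n / 2))
    (Nat.gcd n (Nat.card F - 1) * Nat.card F ^ (n / 3))
    (fun z hz hp h1 => fix_le_pow (by omega) z hz (ne_zero_of_pow hp (by omega)) (by norm_num) (one_lt_order h1 hp (by omega)))
    (fun z c hz hp h1 h2 => fix_le_pow (by omega) z hz (ne_zero_of_pow hp (by omega)) (by norm_num)
      (two_lt_order h1 h2 hp (by omega)))
  have hk := kSL_ge_five (F := F) hn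
  have hD : Nat.gcd n (Nat.card F - 1) ≤ Nat.card F := by
    have := Nat.le_of_dvd (by omega) (Nat.gcd_dvd_right n (Nat.card F - 1))
    omega
  have h2 : Nat.gcd n (Nat.card F - 1) * Nat.card F ^ (n / 2) ≤ Nat.card F ^ (n - 2) := by
    calc _ ≤ Nat.card F * Nat.card F ^ (n / 2) := Nat.mul_le_mul_right _ hD
      _ = Nat.card F ^ (n / 2 + 1) := by rw [pow_succ]; ring
      _ ≤ _ := Nat.pow_le_pow_right (by omega) (by omega)
  have h3 : (Nat.gcd n (Nat.card F - 1) - 1) * (Nat.gcd n (Nat.card F - 1) * Nat.card F ^ (n / 3)) ≤ Nat.card F ^ (n - 2) := by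
    calc _ ≤ Nat.card F * (Nat.card F * Nat.card F ^ (n / 3)) :=
          Nat.mul_le_mul (by omega) (Nat.mul_le_mul_right _ hD)
      _ = Nat.card F ^ (n / 3 + 2) := by rw [pow_add]; ring
      _ ≤ _ := Nat.pow_le_pow_right (by omega) (by omega)
  omega

theorem psl_three [Finite F] :
    Nat.gcd 3 (Nat.card F - 1) * Nat.card (ConjClasses (Matrix.ProjectiveSpecialLinearGroup (Fin 3) F)) ≤
      Nat.card F ^ 2 + 5 * Nat.card F := by
  have h1 : 1 < Nat.card F := Finite.one_lt_card
  have h := psl_le (F := F) (n := 3) (by omega) 0 (Nat.card F - 1)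
    (fun z hz hp h1 => by
      exfalso
      apply h1
      have h3 : (-1 : F) ^ 3 = -1 := by norm_num
      exact h3.symm.trans hp)
    (fun z c hz hp h1 h2 => by
      have ho : orderOf c = 3 := by
        have h3 := two_lt_order h1 h2 hp (by norm_num)
        have h4 := Nat.le_of_dvd (by norm_num) (orderOf_dvd_of_pow_eq_one hp)
        omega
      refine (fix_le' (by norm_num) z hz (ne_zero_of_pow hp (by norm_num))).trans ?_
      rw [show Nat.divisors 3 = {1, 3} by decide, Finset.sum_pair (by norm_num), Nat.totient_one, one_mul,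
        card_UI_zero (e := 3) (e' := 3) (by norm_num) (by norm_num) ho (by norm_num), mul_zero, add_zero]
      refine (card_UI_le (e := 3) (by norm_num) (by norm_num) ho).trans ?_
      rw [show 3 / 1 / 3 = 1 by norm_num, K_one])
  obtain ⟨ha, hb⟩ := kSL_three (F := F)
  rcases gcd_prime_cases Nat.prime_three (Nat.card F - 1) with h2 | h2
  · have := ha h2
    rw [h2] at h ⊢
    omega
  · have := hb h2
    have h3 : 3 ∣ Nat.card F - 1 := by
      have := Nat.gcd_dvd_right 3 (Nat.card F - 1)
      rwa [h2] at this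
    have h4 := Nat.le_of_dvd (by omega) h3
    rw [h2] at h ⊢
    omega

theorem gcd_four (m : ℕ) : Nat.gcd 4 m = 1 ∨ Nat.gcd 4 m = 2 ∨ Nat.gcd 4 m = 4 := by
  have hdv : Nat.gcd 4 m ∣ 4 := Nat.gcd_dvd_left _ _
  have hle : Nat.gcd 4 m ≤ 4 := Nat.le_of_dvd (by norm_num) hdv
  have hpos : 0 < Nat.gcd 4 m := Nat.gcd_pos_of_pos_left _ (by norm_num)
  generalize Nat.gcd 4 m = g at *
  interval_cases g <;> simp_all

theorem psl_four [Finite F] :
    Nat.gcd 4 (Nat.card F - 1) * Nat.card (ConjClasses (Matrix.ProjectiveSpecialLinearGroup (Fin 4) F)) ≤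
      Nat.card F ^ 3 + 5 * Nat.card F ^ 2 := by
  have h1 : 1 < Nat.card F := Finite.one_lt_card
  have hdiv : Nat.divisors 4 = {1, 2, 4} := by decide
  have h := psl_le (F := F) (n := 4) (by omega) ((Nat.card F - 1) * Nat.card F + (Nat.card F - 1) + (Nat.card F - 1)) (Nat.card F - 1)
    (fun z hz hp h1 => by
      have ho : orderOf (-1 : F) = 2 := by
        have h3 := one_lt_order h1 hp (by norm_num)
        have h4 := Nat.le_of_dvd (by norm_num) (orderOf_dvd_of_pow_eq_one (show (-1 : F) ^ 2 = 1 by norm_num))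
        omega
      refine (fix_le' (by norm_num) z hz (ne_zero_of_pow hp (by norm_num))).trans ?_
      rw [hdiv, Finset.sum_insert (by decide), Finset.sum_pair (by norm_num), Nat.totient_one, one_mul, Nat.totient_two, one_mul,
        card_UI_zero (e := 2) (e' := 4) (by norm_num) (by norm_num) ho (by norm_num), mul_zero, add_zero]
      have h5 := card_UI_le (F := F) (n := 4) (e := 2) (e' := 1) (by norm_num) (by norm_num) ho
      have h6 := card_UI_le (F := F) (n := 4) (e := 2) (e' := 2) (by norm_num) (by norm_num) ho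
      rw [show 4 / 1 / 2 = 2 by norm_num, K_two] at h5
      rw [show 4 / 2 / 2 = 1 by norm_num, K_one] at h6
      omega)
    (fun z c hz hp h1 h2 => by
      have ho : orderOf c = 4 := by
        have h3 := two_lt_order h1 h2 hp (by norm_num)
        have h5 := orderOf_dvd_of_pow_eq_one hp
        have h4 := Nat.le_of_dvd (by norm_num) h5
        have h6 : orderOf c ≠ 3 := by
          intro h6
          rw [h6] at h5
          norm_num at h5
        omega
      refine (fix_le' (by norm_num) z hz (ne_zero_of_pow hp (by norm_num))).trans ?_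
      rw [hdiv, Finset.sum_insert (by decide), Finset.sum_pair (by norm_num), Nat.totient_one, one_mul,
        card_UI_zero (e := 4) (e' := 2) (by norm_num) (by norm_num) ho (by norm_num),
        card_UI_zero (e := 4) (e' := 4) (by norm_num) (by norm_num) ho (by norm_num), mul_zero, mul_zero, add_zero, add_zero]
      have h5 := card_UI_le (F := F) (n := 4) (e := 4) (e' := 1) (by norm_num) (by norm_num) ho
      rw [show 4 / 1 / 4 = 1 by norm_num, K_one] at h5
      exact h5)
  obtain ⟨ha, hb, hc⟩ := kSL_four (F := F)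
  obtain ⟨R, hR⟩ : ∃ R, Nat.card F = R + 2 := ⟨Nat.card F - 2, by omega⟩
  rcases gcd_four (Nat.card F - 1) with h2 | h2 | h2
  · have := ha h2
    rw [h2] at h ⊢
    rw [hR] at h this ⊢
    rw [show R + 2 - 1 = R + 1 by omega, Nat.sub_self, zero_mul] at h
    nlinarith
  · have := hb h2
    rw [h2] at h ⊢
    rw [hR] at h this ⊢
    rw [show R + 2 - 1 = R + 1 by omega] at *
    nlinarith
  · have := hc h2
    have h3 : 4 ∣ Nat.card F - 1 := by
      have := Nat.gcd_dvd_right 4 (Nat.card F - 1)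
      rwa [h2] at this
    have h4 := Nat.le_of_dvd (by omega) h3
    obtain ⟨T, hT⟩ : ∃ T, Nat.card F = T + 5 := ⟨Nat.card F - 5, by omega⟩
    rw [h2] at h ⊢
    rw [hT] at h this ⊢
    rw [show T + 5 - 1 = T + 4 by omega] at *
    nlinarith

theorem psl_two [Finite F] :
    Nat.gcd 2 (Nat.card F - 1) * Nat.card (ConjClasses (Matrix.ProjectiveSpecialLinearGroup (Fin 2) F)) ≤
      Nat.card F + 5 := by
  have h1 : 1 < Nat.card F := Finite.one_lt_card
  have h := psl_le (F := F) (n := 2) (by omega) 1 0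
    (fun z hz hp h1 => by
      have h2 : (2 : F) ≠ 0 := by
        intro h2
        apply h1
        linear_combination (-1 : F) * h2
      have hz' : (z : Matrix.SpecialLinearGroup (Fin 2) F) = -1 := by
        apply Subtype.ext
        have h3 : ((z : Matrix.SpecialLinearGroup (Fin 2) F) : Matrix (Fin 2) (Fin 2) F) = _ := hz.symm
        rw [h3, map_neg, map_one]
        rfl
      have htr : ∀ C : ConjClasses (Matrix.SpecialLinearGroup (Fin 2) F), mulC z C = C → SL2Basic.tr (rep C) = 0 := by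
        intro C hC
        have h3 : mulC z (ConjClasses.mk (rep C)) = ConjClasses.mk (rep C) := by rw [mk_rep]; exact hC
        rw [mulC_mk, ConjClasses.mk_eq_mk_iff_isConj, isConj_iff] at h3
        obtain ⟨c, hc⟩ := h3
        have h4 := SL2Basic.tr_conj ((z : Matrix.SpecialLinearGroup (Fin 2) F) * rep C) c
        rw [hc, hz', neg_one_mul, SL2Basic.tr_neg] at h4
        have h5 : 2 * SL2Basic.tr (rep C) = 0 := by linear_combination h4
        exact (mul_eq_zero.1 h5).resolve_left h2
      have : Subsingleton {C : ConjClasses (Matrix.SpecialLinearGroup (Fin 2) F) // mulC z C = C} := by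
        constructor
        intro C D
        apply Subtype.ext
        have h3 := htr C.1 C.2
        have h4 := htr D.1 D.2
        obtain ⟨g, hg⟩ := SL2Basic.exists_sl_conj_of_tr (h3.trans h4.symm) (by
          rw [h3]
          intro h5
          apply h2
          have : (2 : F) * 2 = 0 := by linear_combination (-1 : F) * h5
          rcases mul_eq_zero.1 this with h | h <;> exact h)
        rw [← mk_rep C.1, ← mk_rep D.1, ConjClasses.mk_eq_mk_iff_isConj, isConj_iff]
        exact ⟨g, hg⟩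
      exact Finite.card_le_one_iff_subsingleton.2 this)
    (fun z c hz hp h1 h2 => by
      exfalso
      have h3 := two_lt_order h1 h2 hp (by norm_num)
      have h4 := Nat.le_of_dvd (by norm_num) (orderOf_dvd_of_pow_eq_one hp)
      omega)
  have hk := kSL_le (F := F) (n := 2) (by norm_num)
  have hu1 := U_one (F := F) 2
  have hu2 := U_two_two (F := F)
  have he := EE_one_two (F := F)
  rw [W_two] at hu1
  rcases gcd_prime_cases Nat.prime_two (Nat.card F - 1) with h2 | h2
  · rw [h2, Nat.divisors_one, Finset.sum_singleton, Nat.totient_one, one_mul] at hk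
    rw [h2] at h ⊢
    omega
  · have e1 : Nat.divisors 2 = {1, 2} := by decide
    rw [h2, e1, Finset.sum_pair (by norm_num), Nat.totient_one, one_mul, Nat.totient_two, one_mul] at hk
    rw [h2] at h ⊢
    omega

theorem psl_bounds [Finite F] (hn : 2 ≤ n) :
    Nat.card F ^ (n - 1) ≤ Nat.gcd n (Nat.card F - 1) * Nat.card (ConjClasses (Matrix.ProjectiveSpecialLinearGroup (Fin n) F)) ∧
    Nat.gcd n (Nat.card F - 1) * Nat.card (ConjClasses (Matrix.ProjectiveSpecialLinearGroup (Fin n) F)) ≤
      Nat.card F ^ (n - 1) + 5 * Nat.card F ^ (n - 2) := by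
  refine ⟨(lt_kSL hn).le.trans (kSL_le_psl (by omega)), ?_⟩
  rcases Nat.lt_or_ge n 5 with h5 | h5
  swap
  · exact psl_ge_five h5
  have h : n = 2 ∨ n = 3 ∨ n = 4 := by omega
  rcases h with rfl | rfl | rfl
  · have := psl_two (F := F)
    norm_num
    exact this
  · have := psl_three (F := F)
    norm_num
    exact this
  · have := psl_four (F := F)
    norm_num
    exact this

end Cfsg.Agent.Lib.PSLCount
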