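import Cfsg.Agent.Lib.H31PStab6

/-!
Lifting control of strong fusion through a normal `p`-subgroup centralized by all elements of
order prime to `p`, and control of fusion by a subgroup above the centre of a normal `p`-subgroup.
(helper62)
-/

set_option autoImplicit false
set_option linter.unusedSectionVars false

namespace Cfsg.Agent.Lib.PSLift62

open Cfsg.Agent.Lib.CFSylow Cfsg.Agent.Lib.CFFusion Cfsg.Agent.Lib.CFControl
  Cfsg.Agent.Lib.CFLocal Cfsg.Agent.Lib.CFCore Cfsg.Agent.Lib.CFSection Cfsg.Agent.Lib.CFMin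
  Cfsg.Agent.Lib.CFMain Cfsg.Agent.Lib.CFRed Cfsg.Agent.Lib.CFStmt Cfsg.Agent.Lib.ClosedCF
  Cfsg.Agent.Lib.ClosedPS Cfsg.Agent.Lib.ClosedWF Cfsg.Agent.Lib.ClosedZJ
  Cfsg.Agent.Lib.H31PStab

universe u

theorem reach_of_sf {G : Type*} [Group G] {V H S : Subgroup G} (h : SF V H S) {B : Subgroup G} (hB : B ≤ S)
    {g : G} (hg : g ∈ H) (hle : cj g B ≤ S) : Reach {(⊤ : Subgroup G) ⊓ nz V} S B g := by
  obtain ⟨x, hx, c, hc, rfl⟩ := h B hB g hg hle
  exact .step (.one hB hc) rfl ⟨Subgroup.mem_top _, hx.2⟩ hle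

/-- elements of order prime to `p` in `X = C(R) S` centralize `R`. -/
theorem mem_cz_of_coprime {X : Type*} [Group X] [Finite X] {p : ℕ} [Fact p.Prime] {S R : Subgroup X}
    (hS : IsPGroup p S) (hR : R.Normal) (hC : cz R ⊔ S = ⊤) {d : X} (hord : (orderOf d).Coprime p) : d ∈ cz R := by
  have hCn : (cz R).Normal := cz_normal hR
  have h3 : IsPGroup p (X ⧸ cz R) := by
    intro z
    obtain ⟨z, rfl⟩ := QuotientGroup.mk'_surjective (cz R) z
    have h4 : z ∈ cz R ⊔ S := hC ▸ Subgroup.mem_top z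
    rw [sup_comm] at h4
    obtain ⟨s, hs, c, hc, rfl⟩ := (mem_sup_of_le_nz (le_nz_of_normal _)).1 h4
    obtain ⟨k, hk⟩ := hS ⟨s, hs⟩
    refine ⟨k, ?_⟩
    rw [map_mul, (mem_comap_pi (N := cz R)).2 hc, mul_one, ← map_pow]
    have h5 : s ^ p ^ k = 1 := by simpa using congrArg Subtype.val hk
    rw [h5, map_one]
  rw [← mem_comap_pi (N := cz R)]
  obtain ⟨k, hk⟩ := h3 (QuotientGroup.mk' (cz R) d)
  have h6 : orderOf (QuotientGroup.mk' (cz R) d) ∣ orderOf d := orderOf_map_dvd _ d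
  have h5 : orderOf (QuotientGroup.mk' (cz R) d) ∣ 1 := by
    have := Nat.dvd_gcd h6 (orderOf_dvd_of_pow_eq_one hk)
    rwa [Nat.Coprime.gcd_eq_one (Nat.Coprime.pow_right k hord)] at this
  rwa [Nat.dvd_one, orderOf_eq_one_iff] at h5

/-- **Lifting lemma.** -/
theorem lift_sf {X Y : Type u} [Group X] [Group Y] [Finite X] {p : ℕ} [Fact p.Prime] (π : X →* Y)
    (hpi : Function.Surjective π) {S : Subgroup X} (hS : SylIn p S ⊤) (hRS : π.ker ≤ S)
    (hC : cz π.ker ⊔ S = ⊤) {V : Subgroup Y} (hSV : S.map π ≤ nz V) (h : SF V ⊤ (S.map π)) :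
    SF (V.comap π) ⊤ S := by
  have : Finite Y := Finite.of_surjective π hpi
  have e : nz (V.comap π) = (nz V).comap π := (Subgroup.comap_normalizer_eq_of_surjective _ hpi).symm
  rw [sf_iff_reach]
  intro B hB g _ hg
  refine (isFus_reach {(⊤ : Subgroup X) ⊓ nz (V.comap π)} S).induction_fn hS π.ker hRS ?_ B hB g hg
  intro B hBS hBn hRB _ g hg
  have hgB : cj g B = B := mem_normalizer.1 hg
  obtain ⟨x', hx', c', hc', he⟩ := h (B.map π) (Subgroup.map_mono hBS) (π g) (Subgroup.mem_top _)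
    (by rw [cj_map, hgB]; exact Subgroup.map_mono hBS)
  obtain ⟨x, rfl⟩ := hpi x'
  set D := (cz (B.map π)).comap π with hD
  have hDB : ∀ d ∈ D, ∀ b ∈ B, b⁻¹ * (d * b * d⁻¹) ∈ π.ker := by
    intro d hd b hb
    rw [MonoidHom.mem_ker]
    have h2 : π d ∈ cz (B.map π) := hd
    have h3 := mem_centralizer.1 h2 (π b) ⟨b, hb, rfl⟩
    simp only [map_mul, map_inv]
    rw [h3, inv_mul_cancel]
  have hDn : D ≤ nz B := by
    rw [le_normalizer_iff]
    intro d hd b hb
    have h2 := hDB d hd b hb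
    have : d * b * d⁻¹ = b * (b⁻¹ * (d * b * d⁻¹)) := by group
    rw [this]
    exact mul_mem hb (hRB h2)
  have hDnorm : nz B ≤ nz D := by
    have h2 : nz (B.map π) ≤ nz (cz (B.map π)) := by
      intro m hm
      rw [mem_normalizer] at hm ⊢
      rw [cj_centralizer, hm]
    have h3 : nz B ≤ (nz (B.map π)).comap π := by
      rw [← Subgroup.map_le_iff_le_comap]
      exact Subgroup.le_normalizer_map π
    refine h3.trans ((Subgroup.comap_mono h2).trans ?_)
    rw [hD]
    exact (Subgroup.comap_normalizer_eq_of_surjective _ hpi).le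
  have hT : SylIn p (S ⊓ nz B ⊓ D) D := hBn.inf_normal hDn hDnorm
  have hle : D ≤ (D ⊓ cz B) ⊔ (S ⊓ nz B ⊓ D) := by
    refine le_sup_of_pprime hT inf_le_left ?_ ?_
    · rw [le_normalizer_iff]
      intro a ha b hb
      refine Subgroup.mem_inf.2 ⟨mul_mem (mul_mem ha hb.1) (inv_mem ha), ?_⟩
      have h2 : cz B = cj a (cz B) := by
        rw [cj_centralizer, mem_normalizer.1 (hDn ha)]
      rw [h2]
      exact conj_mem_cj hb.2
    · intro d hd hord
      refine Subgroup.mem_inf.2 ⟨hd, ?_⟩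
      rw [mem_centralizer]
      refine coprime_centralizes (hS.isPGroup.to_le hBS) hRB hord ?_ (hDB d hd)
      exact mem_centralizer.1 (mem_cz_of_coprime hS.isPGroup inferInstance hC hord)
  have hcD : x⁻¹ * g ∈ D := by
    change π (x⁻¹ * g) ∈ cz (B.map π)
    rw [map_mul, map_inv, he, inv_mul_cancel_left]
    exact hc'
  have h4 : x⁻¹ * g ∈ (S ⊓ nz B ⊓ D) ⊔ (D ⊓ cz B) := by
    rw [sup_comm]; exact hle hcD
  obtain ⟨s, hs, c, hc, hsc⟩ := (mem_sup_of_le_nz (B := S ⊓ nz B ⊓ D) (S₁ := D ⊓ cz B) (by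
    rw [le_normalizer_iff]
    intro a ha b hb
    refine Subgroup.mem_inf.2 ⟨mul_mem (mul_mem ha.2 hb.1) (inv_mem ha.2), ?_⟩
    have h2 : cz B = cj a (cz B) := by
      rw [cj_centralizer, mem_normalizer.1 ha.1.2]
    rw [h2]
    exact conj_mem_cj hb.2)).1 h4
  have h5 : g = (x * s) * c := by rw [mul_assoc, hsc, mul_inv_cancel_left]
  rw [h5]
  refine .step (.one hBS hc.2) rfl ⟨Subgroup.mem_top _, ?_⟩ (by rw [← h5, hgB]; exact hBS)
  rw [e]
  refine mul_mem hx'.2 ?_
  exact hSV ⟨s, hs.1.1, rfl⟩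

/-- from a subgroup of the ambient group to the abstract group. -/
theorem sf_toType {K : Type*} [Group K] {V H T : Subgroup K} (h : SF V H T) :
    SF (V.subgroupOf H) ⊤ (T.subgroupOf H) := by
  intro B hB g _ hg
  obtain ⟨x, hx, c, hc, he⟩ := h (B.map H.subtype) (by rintro _ ⟨b, hb, rfl⟩; exact hB hb) g g.2 (by
    rintro _ ⟨_, ⟨b, hb, rfl⟩, rfl⟩
    exact hg ⟨b, hb, rfl⟩)
  obtain ⟨hxH, hxV⟩ := Subgroup.mem_inf.1 hx
  have hcH : c ∈ H := by
    have : c = x⁻¹ * g := by rw [he]; group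
    rw [this]; exact mul_mem (inv_mem hxH) g.2
  refine ⟨⟨x, hxH⟩, Subgroup.mem_inf.2 ⟨Subgroup.mem_top _, ?_⟩, ⟨c, hcH⟩, ?_, Subtype.ext he⟩
  · rw [Subgroup.mem_normalizer_iff]
    intro y
    exact Subgroup.mem_normalizer_iff.1 hxV y
  · rw [Subgroup.mem_centralizer_iff]
    intro b hb
    exact Subtype.ext (Subgroup.mem_centralizer_iff.1 hc b ⟨b, hb, rfl⟩)

theorem sf_ofType {K : Type*} [Group K] {V H T : Subgroup K} (hT : T ≤ H) (hV : V ≤ H)
    (h : SF (V.subgroupOf H) ⊤ (T.subgroupOf H)) : SF V H T := by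
  intro B hB g hg hle
  obtain ⟨x, hx, c, hc, he⟩ := h (B.subgroupOf H) (fun b hb => hB hb) ⟨g, hg⟩ (Subgroup.mem_top _) (by
    rintro _ ⟨b, hb, rfl⟩
    exact hle ⟨b, hb, rfl⟩)
  have hxV := (Subgroup.mem_inf.1 hx).2
  refine ⟨x, Subgroup.mem_inf.2 ⟨x.2, ?_⟩, c, ?_, congrArg Subtype.val he⟩
  · rw [Subgroup.mem_normalizer_iff]
    intro y
    constructor
    · intro hy
      exact (Subgroup.mem_normalizer_iff.1 hxV ⟨y, hV hy⟩).1 hy
    · intro hy
      have hyH : y ∈ H := by
        have h1 := H.mul_mem (H.mul_mem (H.inv_mem x.2) (hV hy)) x.2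
        simpa [mul_assoc] using h1
      exact (Subgroup.mem_normalizer_iff.1 hxV ⟨y, hyH⟩).2 hy
  · rw [Subgroup.mem_centralizer_iff]
    intro b hb
    exact congrArg Subtype.val (Subgroup.mem_centralizer_iff.1 hc ⟨b, hT (hB hb)⟩ hb)

section main
variable {K : Type u} [Group K] [Finite K] {p : ℕ} [hp : Fact p.Prime]
  {W : ∀ (Q : Type u) [Group Q], Subgroup Q}

/-- The preimage of `W(D/R)`, `D = S ∩ C`. -/
def pre (W : ∀ (Q : Type u) [Group Q], Subgroup Q) (D R : Subgroup K) [R.Normal] : Subgroup K :=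
  (Cfsg.inducedFunctor W (D.map (QuotientGroup.mk' R))).comap (QuotientGroup.mk' R)

theorem pre_le (D R : Subgroup K) [R.Normal] (hRD : R ≤ D) : pre W D R ≤ D := by
  intro v hv
  have h1 : Cfsg.inducedFunctor W (D.map (QuotientGroup.mk' R)) ≤ D.map (QuotientGroup.mk' R) := by
    unfold Cfsg.inducedFunctor
    rintro _ ⟨y, _, rfl⟩
    exact y.2
  obtain ⟨d, hd, he⟩ := h1 hv
  have h2 : d⁻¹ * v ∈ R := by
    rw [← mem_comap_pi (N := R), map_mul, map_inv]
    change (QuotientGroup.mk' R d)⁻¹ * QuotientGroup.mk' R v = 1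
    rw [he, inv_mul_cancel]
  have h3 : v = d * (d⁻¹ * v) := by group
  rw [h3]
  exact mul_mem hd (hRD h2)

theorem nz_pre (hW : Cfsg.IsCharPFunctor.{u} p W) {D R : Subgroup K} [R.Normal] (hD : IsPGroup p D) :
    nz D ≤ nz (pre W D R) := by
  have hpi : Function.Surjective (QuotientGroup.mk' R) := QuotientGroup.mk'_surjective R
  have e : nz (pre W D R) = (nz (Cfsg.inducedFunctor W (D.map (QuotientGroup.mk' R)))).comap (QuotientGroup.mk' R) :=
    (Subgroup.comap_normalizer_eq_of_surjective _ hpi).symm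
  rw [e]
  have h1 := nz_le_nz_functor (isConjugacyFunctor_induced (X := K ⧸ R) hW) (hD.map (QuotientGroup.mk' R))
  refine le_trans ?_ (Subgroup.comap_mono h1)
  rw [← Subgroup.map_le_iff_le_comap]
  exact Subgroup.le_normalizer_map _

/-- **Main fusion lemma.** -/
theorem sf_pre (hp3 : 3 < p) (hZJ : IsZJ p W) (hK : PS2 p K) {S C R : Subgroup K} (hS : SylIn p S ⊤)
    [hCn : C.Normal] [hRn : R.Normal] (hRS : R ≤ S) (hRC : R ≤ C) (hCR : C ≤ cz R) :
    SF (pre W (S ⊓ C) R) ⊤ S := by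
  set π := QuotientGroup.mk' R with hπ
  set D := S ⊓ C with hD
  set V := pre W D R with hV
  have hpi : Function.Surjective π := QuotientGroup.mk'_surjective R
  have hkerπ : π.ker = R := QuotientGroup.ker_mk' R
  have hRD : R ≤ D := le_inf hRS hRC
  have hVD : V ≤ D := pre_le D R hRD
  have hDp : IsPGroup p D := hS.isPGroup.to_le inf_le_left
  have hnV : nz D ≤ nz V := nz_pre hZJ.isChar hDp
  have hSD : S ≤ nz D := by
    rw [le_normalizer_iff]
    intro a ha b hb
    exact Subgroup.mem_inf.2 ⟨mul_mem (mul_mem ha hb.1) (inv_mem ha), hCn.conj_mem b hb.2 a⟩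
  set X := C ⊔ S with hX
  have hSX : S ≤ X := le_sup_right
  -- Claim A
  have hA : SF V X S := by
    set X' := X.map π with hX'
    have hps : PS2 p ↥X' := by
      refine PS2.quot_p hp3 _ ↥X ↥X' (hK.sub X) (π.subgroupMap X) (π.subgroupMap_surjective X) rfl ?_
        (S.subgroupOf X) (hS.isPGroup.comap_of_injective X.subtype X.subtype_injective) ?_
      · have h1 : (π.subgroupMap X).ker ≤ R.subgroupOf X := by
          intro x hx
          have h2 : π (x : K) = 1 := congrArg Subtype.val hx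
          exact (mem_comap_pi (N := R)).1 h2
        exact ((hS.isPGroup.to_le hRS).comap_of_injective X.subtype X.subtype_injective).to_le h1
      · rw [eq_top_iff]
        rintro ⟨x, hx⟩ _
        rw [hX, sup_comm] at hx
        obtain ⟨s, hs, c, hc, hsc⟩ := (mem_sup_of_le_nz (B := S) (S₁ := C) (le_nz_of_normal _)).1 hx
        have hcX : c ∈ X := Subgroup.mem_sup_left hc
        have h2 : (⟨x, by rw [hX, sup_comm]; exact hx⟩ : X) = ⟨s, hSX hs⟩ * ⟨c, hcX⟩ := Subtype.ext hsc.symm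
        rw [h2]
        refine mul_mem (Subgroup.mem_sup_right hs) (Subgroup.mem_sup_left ?_)
        rw [Subgroup.mem_centralizer_iff]
        intro k hk
        have hkR : (k : K) ∈ R := by
          have h3 : π (k : K) = 1 := congrArg Subtype.val hk
          exact (mem_comap_pi (N := R)).1 h3
        exact Subtype.ext (Subgroup.mem_centralizer_iff.1 (hCR hc) k hkR)
    have hctrl : Ctrl p W ↥X' := ctrl_ps2 hp3 hZJ _ _ rfl hps
    have hS' : SylIn p (S.map π) X' := by
      have h1 := SylIn.map_surj hpi hS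
      exact h1.of_le (Subgroup.map_mono hSX) le_top
    have hD' : ClosedIn (D.map π) (S.map π) X' := by
      refine ⟨Subgroup.map_mono inf_le_left, ?_⟩
      rintro _ ⟨d, hd, rfl⟩ h _ hh
      obtain ⟨h, rfl⟩ := hpi h
      obtain ⟨s, hs, hsd⟩ := hh
      refine ⟨s, ⟨hs, ?_⟩, hsd⟩
      have h1 : (h * d * h⁻¹)⁻¹ * s ∈ R := by
        rw [← mem_comap_pi (N := R), map_mul, map_inv, map_mul, map_mul, map_inv]
        change (π h * π d * (π h)⁻¹)⁻¹ * π s = 1
        rw [hsd, inv_mul_cancel]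
      have h2 : s = (h * d * h⁻¹) * ((h * d * h⁻¹)⁻¹ * s) := by group
      rw [h2]
      exact mul_mem (hCn.conj_mem d hd.2 h) (hRC h1)
    have h1 := sf_toType (sf_subgroup hZJ.isChar hctrl hS' hD')
    have h2 : SF (V.subgroupOf X) ⊤ (S.subgroupOf X) := by
      have e1 : (S.subgroupOf X).map (π.subgroupMap X) = (S.map π).subgroupOf X' := by
        ext y
        constructor
        · rintro ⟨s, hs, rfl⟩
          exact ⟨s, hs, rfl⟩
        · rintro ⟨s, hs, hsy⟩
          exact ⟨⟨s, hSX hs⟩, hs, Subtype.ext hsy⟩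
      have h3 := lift_sf (p := p) (π.subgroupMap X) (π.subgroupMap_surjective X) (S := S.subgroupOf X)
        (V := (Cfsg.inducedFunctor W (D.map π)).subgroupOf X') ?_ ?_ ?_ ?_ (by rw [e1]; exact h1)
      · exact h3
      · have := SylIn.comap_inj X.subtype_injective (S := S) (by rw [Subgroup.range_subtype]; exact hS.of_le hSX le_top)
        exact this
      · intro x hx
        have hkR : (x : K) ∈ R := by
          have h3 : π (x : K) = 1 := congrArg Subtype.val hx
          exact (mem_comap_pi (N := R)).1 h3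
        exact hRS hkR
      · rw [eq_top_iff]
        rintro ⟨x, hx⟩ _
        rw [hX, sup_comm] at hx
        obtain ⟨s, hs, c, hc, hsc⟩ := (mem_sup_of_le_nz (B := S) (S₁ := C) (le_nz_of_normal _)).1 hx
        have hcX : c ∈ X := Subgroup.mem_sup_left hc
        have h2 : (⟨x, by rw [hX, sup_comm]; exact hx⟩ : X) = ⟨s, hSX hs⟩ * ⟨c, hcX⟩ := Subtype.ext hsc.symm
        rw [h2]
        refine mul_mem (Subgroup.mem_sup_right hs) (Subgroup.mem_sup_left ?_)
        rw [Subgroup.mem_centralizer_iff]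
        intro k hk
        have hkR : (k : K) ∈ R := by
          have h3 : π (k : K) = 1 := congrArg Subtype.val hk
          exact (mem_comap_pi (N := R)).1 h3
        exact Subtype.ext (Subgroup.mem_centralizer_iff.1 (hCR hc) k hkR)
      · rw [e1]
        intro y hy
        rw [Subgroup.mem_normalizer_iff]
        intro z
        have h4 : (y : K ⧸ R) ∈ nz (Cfsg.inducedFunctor W (D.map π)) :=
          le_nz_induced hZJ.isChar hD' (Subgroup.map_mono hSX) hS'.isPGroup hy
        exact Subgroup.mem_normalizer_iff.1 h4 z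
    exact sf_ofType hSX ((hVD.trans inf_le_left).trans hSX) h2
  -- the main induction
  rw [sf_iff_reach]
  intro B hB g _ hg
  have hΦ := isFus_reach {(⊤ : Subgroup K) ⊓ nz V} S
  refine hΦ.induction_fn hS R hRS ?_ B hB g hg
  intro B hBS hBn hRB IH g hg
  have hLn : nz B ≤ nz (nz B ⊓ C) := by
    rw [le_normalizer_iff]
    intro a ha b hb
    exact Subgroup.mem_inf.2 ⟨mul_mem (mul_mem ha hb.1) (inv_mem ha), hCn.conj_mem b hb.2 a⟩
  have hsyl := hBn.inf_normal (N := nz B ⊓ C) inf_le_left hLn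
  obtain ⟨l, hl, m, hm, rfl⟩ := frattini hsyl inf_le_left hLn hg
  have hcl : cj l B = B := mem_normalizer.1 hl.1
  have hcm : cj m B = B := mem_normalizer.1 hm.1
  have h1 : Reach {(⊤ : Subgroup K) ⊓ nz V} S B l :=
    reach_of_sf hA hBS (Subgroup.mem_sup_left hl.2) (by rw [hcl]; exact hBS)
  have h2 : Reach {(⊤ : Subgroup K) ⊓ nz V} S B m := by
    set S₂ := S ⊓ nz B ⊓ (nz B ⊓ C) with hS₂
    have hm2 : m ∈ nz S₂ := hm.2
    by_cases hDB : D ≤ B
    · have e : S₂ = D := by
        apply le_antisymm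
        · exact le_inf (inf_le_left.trans inf_le_left) (inf_le_right.trans inf_le_right)
        · have h3 : D ≤ nz B := hDB.trans Subgroup.le_normalizer
          exact le_inf (le_inf inf_le_left h3) (le_inf h3 inf_le_right)
      rw [e] at hm2
      have h3 : Reach {(⊤ : Subgroup K) ⊓ nz V} S B (m * 1) :=
        .step (.one hBS (one_mem _)) rfl ⟨Subgroup.mem_top _, hnV hm2⟩ (by rw [mul_one, hcm]; exact hBS)
      rwa [mul_one] at h3
    · have hS₂B : ¬ S₂ ≤ B := by
        intro hle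
        have h3 : B ⊔ D ≤ S := sup_le hBS inf_le_left
        have h4 : B < B ⊔ D := lt_of_le_of_ne le_sup_left (fun h => hDB (h ▸ le_sup_right))
        have h5 := lt_inf_normalizer (hS.isPGroup.to_le h3) h4
        obtain ⟨y, hy, hyB⟩ := SetLike.exists_of_lt h5
        obtain ⟨b, hb, s, hs, rfl⟩ := (mem_sup_of_le_nz (hBS.trans hSD)).1 hy.1
        apply hyB
        refine mul_mem hb (hle ?_)
        have h6 : s ∈ nz B := by
          have h7 : b⁻¹ * (b * s) ∈ nz B := mul_mem (inv_mem (Subgroup.le_normalizer hb)) hy.2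
          simpa using h7
        exact ⟨⟨hs.1, h6⟩, h6, hs.2⟩
      have h3 : B ⊔ S₂ ≤ S := sup_le hBS (inf_le_left.trans inf_le_left)
      have h4 : B < B ⊔ S₂ := lt_of_le_of_ne le_sup_left (fun h => hS₂B (h ▸ le_sup_right))
      refine hΦ.mono le_sup_left (IH _ h3 (card_lt_of_lt h4) m ?_)
      rw [cj_sup, hcm, mem_normalizer.1 hm2]
      exact h3
  exact hΦ.mul h2 (by rw [hcm]; exact h1)

end main

end Cfsg.Agent.Lib.PSLift62
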