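import Cfsg.Agent.Lib.SimDet
import Cfsg.Agent.Lib.SimCard

/-!
# Determinants and multipliers of similarities (helper45)
-/

set_option autoImplicit false
set_option linter.unusedSectionVars false

namespace Cfsg.Agent.Lib.SimForm

open Matrix Module Cfsg QuadraticMap
open Cfsg.Agent.Lib.Quad Cfsg.Agent.Lib.SplitCount

variable {K : Type*} [Field K] {ι κ : Type} [Fintype ι] [DecidableEq ι] [Fintype κ] [DecidableEq κ]

/-- `d` is the determinant of a similarity with multiplier `c` -/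
def DM (B : (ι → K) →ₗ[K] (ι → K) →ₗ[K] K) (d c : Kˣ) : Prop :=
  ∃ g : GL ι K, (∀ x y, B (g.1 *ᵥ x) (g.1 *ᵥ y) = c * B x y) ∧ GeneralLinearGroup.det g = d

theorem DM_of_simil {B : (ι → K) →ₗ[K] (ι → K) →ₗ[K] K} {C : (κ → K) →ₗ[K] (κ → K) →ₗ[K] K} (h : Simil B C) {d c : Kˣ}
    (hd : DM B d c) : DM C d c := by
  obtain ⟨e, u, h⟩ := h
  obtain ⟨g, hc, rfl⟩ := hd
  refine ⟨cj e g, fun x y => ?_, det_cj e g⟩
  obtain ⟨x, rfl⟩ := e.surjective x
  obtain ⟨y, rfl⟩ := e.surjective y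
  rw [cj_mulVec', cj_mulVec', h, hc, h]
  ring

theorem DM_simil {B : (ι → K) →ₗ[K] (ι → K) →ₗ[K] K} {C : (κ → K) →ₗ[K] (κ → K) →ₗ[K] K} (h : Simil B C) {d c : Kˣ} :
    DM B d c ↔ DM C d c := ⟨DM_of_simil h, DM_of_simil h.symm⟩

theorem DM_sq {B : (ι → K) →ₗ[K] (ι → K) →ₗ[K] K} (hB : NdB B) {d c : Kˣ} (h : DM B d c) : d ^ 2 = c ^ Fintype.card ι := by
  obtain ⟨g, hc, rfl⟩ := h
  exact sq_det hB hc

theorem simG_eq (c : Kˣ) {m : ℕ} (x y : Fin m ⊕ Fin m → K) :
    ClIso.sympForm (Fin m) K ((PSpAut.simG c : GSp m K).1.1 *ᵥ x) ((PSpAut.simG c : GSp m K).1.1 *ᵥ y) =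
      c * ClIso.sympForm (Fin m) K x y := PSpAut.simG_mul c x y

theorem det_simG {m : ℕ} (c : Kˣ) : GeneralLinearGroup.det (PSpAut.simG c : GSp m K).1 = c ^ m := by
  apply Units.ext
  rw [GeneralLinearGroup.val_det_apply]
  show (Matrix.diagonal (Sum.elim (fun _ => (c : K)) (fun _ => 1))).det = _
  rw [Matrix.det_diagonal, Fintype.prod_sum_type]
  simp

theorem DM_symp (m : ℕ) {d c : Kˣ} : DM (ClIso.sympForm (Fin m) K) d c ↔ d = c ^ m := by
  constructor
  · rintro ⟨g, hc, rfl⟩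
    obtain ⟨k, hk⟩ : ∃ k : GL (Fin m ⊕ Fin m) K, k = (PSpAut.simG c : GSp m K).1 := ⟨_, rfl⟩
    have hki : ∀ x y, ClIso.sympForm (Fin m) K ((k⁻¹ * g).1 *ᵥ x) ((k⁻¹ * g).1 *ᵥ y) = ClIso.sympForm (Fin m) K x y := by
      intro x y
      have h1 := simG_eq (K := K) c ((k⁻¹ * g).1 *ᵥ x) ((k⁻¹ * g).1 *ᵥ y)
      rw [← hk, Matrix.mulVec_mulVec, Matrix.mulVec_mulVec, ← Units.val_mul, mul_inv_cancel_left, hc] at h1
      exact (mul_left_cancel₀ c.ne_zero h1).symm
    have h3 : g = k * (k⁻¹ * g) := by rw [mul_inv_cancel_left]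
    have h5 : GeneralLinearGroup.det (k⁻¹ * g) = 1 := by
      apply Units.ext
      rw [GeneralLinearGroup.val_det_apply]
      exact SymplecticGroup.det_eq_one (ClIso.mem_symplecticGroup_iff.2 hki)
    rw [h3, map_mul, h5, mul_one, hk, det_simG]
  · rintro rfl
    exact ⟨(PSpAut.simG c : GSp m K).1, fun x y => simG_eq c x y, det_simG c⟩

theorem DM_orth [Finite K] (h2 : (2 : K) ≠ 0) {m : ℕ} (hm : 1 ≤ m) (hι : Fintype.card ι = 2 * m) {Q : QuadraticForm K (ι → K)} (hQ : Nd Q)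
    {d c : Kˣ} : DM (polarBilin Q) d c ↔ d = c ^ m ∨ d = -c ^ m := by
  have hnB : NdB (polarBilin Q) := fun x hx => hQ.eq_zero hx
  have hfr : finrank K (ι → K) = 2 * m := by rw [Module.finrank_fintype_fun_eq_card, hι]
  -- a reflection
  have hneg : DM (polarBilin Q) (-1) 1 := by
    obtain ⟨v, hv⟩ := hQ.exists_Q_ne_zero (by omega)
    refine ⟨(LinAux.glEquiv ι K).symm (refl Q v), fun x y => ?_, ?_⟩
    · rw [LinAux.glEquiv_symm_mulVec, LinAux.glEquiv_symm_mulVec, Units.val_one, one_mul]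
      exact O_polar (refl_mem v) x y
    · apply Units.ext
      have h1 : ((LinAux.glEquiv ι K).symm (refl Q v) : GL ι K).1 = Cfsg.reflectionMatrix ⇑Q v := by
        apply LinAux.matrix_ext
        intro x
        rw [LinAux.glEquiv_symm_mulVec, reflectionMatrix_mulVec]
      rw [GeneralLinearGroup.val_det_apply, h1, det_reflectionMatrix (Q := Q) hv, Units.val_neg, Units.val_one]
  have hdet : ∀ {d c : Kˣ}, DM (polarBilin Q) d c → d = c ^ m ∨ d = -c ^ m := by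
    intro d c hc
    have h := DM_sq hnB hc
    rw [hι, mul_comm, pow_mul] at h
    have h1 : ((d : K) - ((c ^ m : Kˣ) : K)) * ((d : K) + ((c ^ m : Kˣ) : K)) = 0 := by
      have h3 := congrArg Units.val h
      rw [Units.val_pow_eq_pow_val, Units.val_pow_eq_pow_val] at h3
      linear_combination h3
    rcases mul_eq_zero.1 h1 with h3 | h3
    · left; exact Units.ext (sub_eq_zero.1 h3)
    · right
      apply Units.ext
      rw [Units.val_neg]
      exact eq_neg_of_add_eq_zero_left h3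
  have hmul : ∀ {d c d' c' : Kˣ}, DM (polarBilin Q) d c → DM (polarBilin Q) d' c' → DM (polarBilin Q) (d * d') (c * c') := by
    rintro d c d' c' ⟨g, hg, rfl⟩ ⟨g', hg', rfl⟩
    refine ⟨g * g', fun x y => ?_, map_mul _ _ _⟩
    rw [Units.val_mul, ← Matrix.mulVec_mulVec, ← Matrix.mulVec_mulVec, hg, hg', Units.val_mul]
    ring
  refine ⟨hdet, fun h => ?_⟩
  obtain ⟨g, hg⟩ := exists_mult h2 hι hQ c
  have h1 : DM (polarBilin Q) (GeneralLinearGroup.det g) c := ⟨g, hg, rfl⟩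
  have h3 : DM (polarBilin Q) (-GeneralLinearGroup.det g) c := by
    have := hmul hneg h1
    rwa [neg_one_mul, one_mul] at this
  have h4 := hdet h1
  rcases h with h | h <;> rcases h4 with h4 | h4
  · rw [h, ← h4]; exact h1
  · rw [h]; rw [h4, neg_neg] at h3; exact h3
  · rw [h, ← h4]; exact h3
  · rw [h, ← h4]; exact h1

end Cfsg.Agent.Lib.SimForm
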