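import Cfsg.Agent.Lib.PSUGraph
import Cfsg.Agent.Lib.SimDet2

set_option autoImplicit false
set_option linter.unusedSectionVars false

/-!
# Graph automorphisms of `PSU_n(q)`: classes, centralisers, splitting (helper45)
-/

namespace Cfsg.Agent.Lib.PSUGraph

open Matrix Module
open Cfsg Cfsg.Agent.Lib.Descent Cfsg.Agent.Lib.SplitCount Cfsg.Agent.Lib.SimForm
open Cfsg.Agent.Lib.PSLAut (mi mi_coe det_mi exists_mi mp_mi mem_GU_iff mp_itGL_coe itGL sc sc_comm sc_mul_coe sc_coe mp_sc sc_inj)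
open Cfsg.Agent.Lib.PSUAut (brE brE_apply orderOf_brE dg fd fG fG_coe fd_dg N1 mem_N1 mem_N1_iff scU dg_scU dg_eq_one inndiag_eq
  detU detU_coe detU_surj detU_scU inn_le_inndiag dg_inner_iff card_N1)
open Cfsg.Agent.Lib.PSLGraph (Bf Bf_nd Bf_apply exists_Bf)

variable {n : ℕ} {F : Type*} [Field F] {q : ℕ} [Fintype F] (hF : Fintype.card F = q ^ 2)

include hF

theorem brE_brE (x : F) : brE hF (brE hF x) = x := HermClass.sq_apply (orderOf_brE hF) x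

theorem mem_GU {g : GL (Fin n) F} : g ∈ GU n F q ↔ tau g = mp (brE hF) g := by
  rw [mem_GU_iff (brE_apply hF), mul_inv_eq_one, ← tau_apply, mp_tau]
  constructor
  · intro h
    conv_lhs => rw [h]
    rw [tau_tau]
  · intro h
    rw [← h, tau_tau]

theorem dg_eq_of_sc {g h : GU n F q} {x : Fˣ} (e : g.1 = sc x * h.1) (hn : 1 ≤ n) : dg g = dg h := by
  have h1 := (mem_GU hF).1 g.2
  rw [e, ct, cm, ← (mem_GU hF).1 h.2] at h1
  have h2 := sc_inj hn (mul_right_cancel h1)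
  have hx : x ∈ N1 F q := by
    rw [mem_N1_iff hF]
    have h3 : x * um (brE hF) x = 1 := by rw [← h2, mul_inv_cancel]
    exact congrArg Units.val h3
  have h4 : g = scU hF ⟨x, hx⟩ * h := Subtype.ext e
  rw [h4, map_mul, dg_scU, one_mul]

theorem exists_sc (hn : 3 ≤ n) {g h : GU n F q} (e : dg g = dg h) : ∃ u : Fˣ, g.1 = sc u * h.1 := by
  obtain ⟨u, hu⟩ := PSUAut.dg_eq_dg hF hn e
  exact ⟨u.1, by rw [hu]; rfl⟩

theorem conj_graph (g k : GU n F q) : dg k * (dg g * fd (brE hF)) * (dg k)⁻¹ = dg (k * g * (fG (brE hF) k)⁻¹) * fd (brE hF) := by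
  have h1 : fd (brE hF) * (dg k)⁻¹ = dg (fG (brE hF) k)⁻¹ * fd (brE hF) := by
    rw [← map_inv, fd_dg]
    congr 2
  calc dg k * (dg g * fd (brE hF)) * (dg k)⁻¹ = dg k * dg g * (fd (brE hF) * (dg k)⁻¹) := by group
    _ = _ := by rw [h1, map_mul, map_mul]; simp only [mul_assoc]

theorem conj_iff (hn : 3 ≤ n) (g g' k : GU n F q) : dg k * (dg g * fd (brE hF)) * (dg k)⁻¹ = dg g' * fd (brE hF) ↔
    ∃ u : Fˣ, k.1 * g.1 * (mp (brE hF) k.1)⁻¹ = sc u * g'.1 := by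
  rw [conj_graph]
  constructor
  · intro h
    exact exists_sc hF hn (mul_right_cancel h)
  · rintro ⟨u, hu⟩
    congr 1
    exact dg_eq_of_sc hF hu (by omega)

section desc

variable {F₀ : Type*} [Field F₀] {ι : F₀ →+* F} (hι : ∀ x, brE hF x = x ↔ ∃ y, ι y = x)

include hι

theorem isConjUnder_iff (hn : 3 ≤ n) {g g' : GU n F q} {s s' : GL (Fin n) F₀} {A A' : GL (Fin n) F} {z z' w w' : Fˣ}
    (R : Rel (brE hF) ι g.1 s A z w) (R' : Rel (brE hF) ι g'.1 s' A' z' w') :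
    IsConjUnder (inndiagPSU n F q) (dg g * fd (brE hF)) (dg g' * fd (brE hF)) ↔ Simil (Bf s) (Bf s') := by
  constructor
  · rintro ⟨h, hh, e⟩
    rw [inndiag_eq] at hh
    obtain ⟨k, rfl⟩ := hh
    obtain ⟨u, hu⟩ := (conj_iff hF hn g g' k).1 e.symm
    obtain ⟨b, k₀, c, h1, h2, h3⟩ := fwd (brE_brE hF) hι (orderOf_brE hF) (by omega) R R' ((mem_GU hF).1 k.2) hu
    exact ⟨LinAux.glEquiv (Fin n) F₀ k₀, c, (PSLGraph.sim_iff s s' k₀ c).2 h2⟩
  · rintro ⟨e, c, h⟩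
    obtain ⟨k₀, rfl⟩ := (LinAux.glEquiv (Fin n) F₀).surjective e
    have h2 := (PSLGraph.sim_iff s s' k₀ c).1 h
    obtain ⟨b, hb⟩ := exists_b (brE_brE hF) hι (orderOf_brE hF) (by omega) R R' h2
    obtain ⟨K, hK⟩ : ∃ K, K = sc b * (A' * mi ι k₀ * A⁻¹) := ⟨_, rfl⟩
    obtain ⟨h3, h4⟩ := bwd (brE_brE hF) hι R R' h2 hb hK
    obtain ⟨k, hk⟩ : ∃ k : GU n F q, k.1 = K := ⟨⟨K, (mem_GU hF).2 h3⟩, rfl⟩
    rw [← hk] at h4
    exact ⟨dg k, by rw [inndiag_eq]; exact ⟨_, rfl⟩, ((conj_iff hF hn g g' k).2 h4).symm⟩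

/-- commuting with the graph automorphism -/
theorem commute_iff (hn : 3 ≤ n) {g : GU n F q} {s : GL (Fin n) F₀} {A : GL (Fin n) F} {z w : Fˣ}
    (R : Rel (brE hF) ι g.1 s A z w) (k : GU n F q) :
    dg k * (dg g * fd (brE hF)) = (dg g * fd (brE hF)) * dg k ↔
      ∃ (b : Fˣ) (k₀ : GL (Fin n) F₀) (c : F₀ˣ), k.1 = sc b * (A * mi ι k₀ * A⁻¹) ∧ k₀ * s * (tau k₀)⁻¹ = sc c * s ∧
        b * um (brE hF) b * Units.map (ι : F₀ →* F) c = 1 := by
  rw [← mul_inv_eq_iff_eq_mul, conj_iff hF hn]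
  constructor
  · rintro ⟨u, hu⟩
    obtain ⟨b, k₀, c, h1, h2, h3⟩ := fwd (brE_brE hF) hι (orderOf_brE hF) (by omega) R R ((mem_GU hF).1 k.2) hu
    exact ⟨b, k₀, c, h1, h2, mul_eq_right.1 h3⟩
  · rintro ⟨b, k₀, c, h1, h2, h3⟩
    exact (bwd (brE_brE hF) hι R R h2 (by rw [h3, one_mul]) h1).2

theorem centralizer_graph (hn : 3 ≤ n) {g : GU n F q} {s : GL (Fin n) F₀} {A : GL (Fin n) F} {z w : Fˣ}
    (R : Rel (brE hF) ι g.1 s A z w) :
    Nonempty (↥(inndiagPSU n F q ⊓ Subgroup.centralizer {dg g * fd (brE hF)}) ≃* projQuot (SimG (Bf s))) := by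
  have hn1 : 1 ≤ n := by omega
  have hex : ∀ k₀ : SimG (Bf s), ∃ k : GU n F q, ∃ b : Fˣ, k.1 = sc b * (A * mi ι k₀.1 * A⁻¹) ∧
      dg k * (dg g * fd (brE hF)) = (dg g * fd (brE hF)) * dg k := by
    rintro ⟨k₀, c, hc⟩
    have h2 := (PSLGraph.sim_iff s s k₀ c).1 hc
    obtain ⟨b, hb⟩ := exists_b (brE_brE hF) hι (orderOf_brE hF) (by omega) R R h2
    obtain ⟨K, hK⟩ : ∃ K, K = sc b * (A * mi ι k₀ * A⁻¹) := ⟨_, rfl⟩
    obtain ⟨h3, h4⟩ := bwd (brE_brE hF) hι R R h2 hb hK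
    obtain ⟨k, hk⟩ : ∃ k : GU n F q, k.1 = K := ⟨⟨K, (mem_GU hF).2 h3⟩, rfl⟩
    rw [← hk] at h4
    refine ⟨k, b, by rw [hk, hK], ?_⟩
    rw [← mul_inv_eq_iff_eq_mul, conj_iff hF hn]
    exact h4
  choose l b hl hlc using hex
  let Φ : SimG (Bf s) →* MulAut (PSU n F q) := MonoidHom.mk' (fun k₀ => dg (l k₀)) (by
    intro k₀ k₁
    rw [← map_mul]
    refine dg_eq_of_sc hF (x := b (k₀ * k₁) * (b k₀ * b k₁)⁻¹) ?_ hn1
    show (l (k₀ * k₁)).1 = _ * ((l k₀).1 * (l k₁).1)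
    rw [hl, hl, hl, cc, cs, inv_mul_cancel_right]
    congr 1
    have : mi ι (k₀ * k₁ : SimG (Bf s)).1 = mi ι k₀.1 * mi ι k₁.1 := map_mul (mi ι) k₀.1 k₁.1
    rw [this]
    group)
  have hΦ : ∀ k₀, Φ k₀ = dg (l k₀) := fun k₀ => rfl
  have h1 : Φ.range = inndiagPSU n F q ⊓ Subgroup.centralizer {dg g * fd (brE hF)} := by
    ext θ
    rw [Subgroup.mem_inf, inndiag_eq, Subgroup.mem_centralizer_singleton_iff]
    constructor
    · rintro ⟨k, rfl⟩
      exact ⟨⟨_, rfl⟩, hlc k⟩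
    · rintro ⟨⟨k, rfl⟩, h⟩
      obtain ⟨b', k₀, c, e1, e2, e3⟩ := (commute_iff hF hι hn R k).1 h
      refine ⟨⟨k₀, c, (PSLGraph.sim_iff s s k₀ c).2 e2⟩, ?_⟩
      rw [hΦ]
      refine dg_eq_of_sc hF (x := b ⟨k₀, c, (PSLGraph.sim_iff s s k₀ c).2 e2⟩ * b'⁻¹) ?_ hn1
      rw [hl, e1, cs, inv_mul_cancel_right]
  have h2 : Φ.ker = (Geo.scalars (Fin n) F₀).subgroupOf (SimG (Bf s)) := by
    ext k
    rw [MonoidHom.mem_ker, Subgroup.mem_subgroupOf, hΦ]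
    constructor
    · intro h
      obtain ⟨u, hu⟩ := dg_eq_one hF hn h
      have e1 : (l k).1 = sc u.1 := by rw [hu]; rfl
      rw [hl] at e1
      have e2 : mi ι k.1 = sc ((b k)⁻¹ * u.1) := by
        have e3 : mi ι k.1 = sc (b k)⁻¹ * (A⁻¹ * (sc (b k) * (A * mi ι k.1 * A⁻¹)) * A) := by
          rw [sc_left, cl, cs, inv_mul_cancel, map_one, one_mul]
          group
        have e4 : A⁻¹ * sc u.1 * A = sc u.1 := by rw [← sc_comm, inv_mul_cancel_right]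
        rw [e3, e1, e4, ← map_mul]
      have e5 : um (brE hF) ((b k)⁻¹ * u.1) = (b k)⁻¹ * u.1 := by
        have := mp_mi hι k.1
        rw [e2, mp_sc] at this
        exact sc_inj hn1 this
      obtain ⟨c, hc⟩ := fixed_unit (brE_brE hF) hι e5
      refine ⟨c, ?_⟩
      apply mi_inj ι
      rw [e2, ← hc, ← mi_sc]
      rfl
    · rintro ⟨c, hc⟩
      have e1 : k.1 = sc c := hc.symm
      have e2 : (l k).1 = sc (b k * Units.map (ι : F₀ →* F) c) * (1 : GU n F q).1 := by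
        rw [hl, e1, mi_sc]
        have : A * sc (Units.map (ι : F₀ →* F) c) * A⁻¹ = sc (Units.map (ι : F₀ →* F) c) := by
          rw [← sc_comm, mul_inv_cancel_right]
        rw [this, ← map_mul]
        exact (mul_one _).symm
      rw [dg_eq_of_sc hF e2 hn1, map_one]
  refine ⟨(MulEquiv.subgroupCongr h1.symm).trans ?_⟩
  exact ((QuotientGroup.quotientMulEquivOfEq h2.symm).trans (QuotientGroup.quotientKerEquivRange Φ)).symm

/-- the splitting of the class -/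
theorem split_graph (hn : 3 ≤ n) {g : GU n F q} {s : GL (Fin n) F₀} {A : GL (Fin n) F} {z w : Fˣ}
    (R : Rel (brE hF) ι g.1 s A z w) {S : Subgroup (N1 F q)}
    (hS : ∀ a : N1 F q, a ∈ S ↔ ∃ (b : Fˣ) (d c : F₀ˣ), DM (Bf s) d c ∧ b * um (brE hF) b * Units.map (ι : F₀ →* F) c = 1 ∧
      a.1 = b ^ n * Units.map (ι : F₀ →* F) d) :
    splitClassCount (inndiagPSU n F q) (Inn (PSU n F q)) (dg g * fd (brE hF)) =
      ((powMonoidHom n : N1 F q →* N1 F q).range ⊔ S).index := by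
  classical
  have hn1 : 1 ≤ n := by omega
  have hdet : ∀ (b : Fˣ) (k₀ : GL (Fin n) F₀), GeneralLinearGroup.det (sc b * (A * mi ι k₀ * A⁻¹)) =
      b ^ n * Units.map (ι : F₀ →* F) (GeneralLinearGroup.det k₀) := by
    intro b k₀
    rw [map_mul, PSLAut.det_scalar', map_mul, map_mul, map_inv, det_mi, mul_comm (GeneralLinearGroup.det A), mul_inv_cancel_right]
  rw [splitClassCount_eq (inndiagPSU n F q) (Inn (PSU n F q)) (dg g * fd (brE hF))
    (dg : GU n F q →* _) inndiag_eq.symm (detU hF)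
    (detU_surj hF hn1) (powMonoidHom n : N1 F q →* N1 F q).range
    (fun l => by
      rw [dg_inner_iff hF hn]
      constructor
      · rintro ⟨u, hu⟩; exact ⟨u, hu.symm⟩
      · rintro ⟨u, hu⟩; exact ⟨u, hu.symm⟩) inn_le_inndiag S
    (fun a => by
      rw [hS]
      constructor
      · rintro ⟨b, d, c, ⟨k₀, h1, rfl⟩, h3, h4⟩
        have h2 := (PSLGraph.sim_iff s s k₀ c).1 h1
        obtain ⟨K, hK⟩ : ∃ K, K = sc b * (A * mi ι k₀ * A⁻¹) := ⟨_, rfl⟩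
        have h5 := bwd (brE_brE hF) hι R R h2 (by rw [h3, one_mul]) hK
        obtain ⟨k, hk⟩ : ∃ k : GU n F q, k.1 = K := ⟨⟨K, (mem_GU hF).2 h5.1⟩, rfl⟩
        refine ⟨k, (commute_iff hF hι hn R k).2 ⟨b, k₀, c, by rw [hk, hK], h2, h3⟩, ?_⟩
        apply Subtype.ext
        rw [detU_coe, hk, hK, hdet, h4]
      · rintro ⟨k, hk, rfl⟩
        obtain ⟨b, k₀, c, h1, h2, h3⟩ := (commute_iff hF hι hn R k).1 hk
        exact ⟨b, _, c, ⟨k₀, (PSLGraph.sim_iff s s k₀ c).2 h2, rfl⟩, h3, by rw [detU_coe, h1, hdet]⟩)]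

/-- the subgroup exists -/
theorem exists_S (s : GL (Fin n) F₀) : ∃ S : Subgroup (N1 F q), ∀ a : N1 F q, a ∈ S ↔
      ∃ (b : Fˣ) (d c : F₀ˣ), DM (Bf s) d c ∧ b * um (brE hF) b * Units.map (ι : F₀ →* F) c = 1 ∧
      a.1 = b ^ n * Units.map (ι : F₀ →* F) d := by
  refine ⟨{ carrier := {a | ∃ (b : Fˣ) (d c : F₀ˣ), DM (Bf s) d c ∧ b * um (brE hF) b * Units.map (ι : F₀ →* F) c = 1 ∧
      a.1 = b ^ n * Units.map (ι : F₀ →* F) d}, one_mem' := ?_, mul_mem' := ?_, inv_mem' := ?_ }, fun a => Iff.rfl⟩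
  · rintro a a' ⟨b, d, c, ⟨k, h1, rfl⟩, h2, h3⟩ ⟨b', d', c', ⟨k', h1', rfl⟩, h2', h3'⟩
    refine ⟨b * b', _, c * c', ⟨k * k', fun x y => ?_, rfl⟩, ?_, ?_⟩
    · rw [Units.val_mul, ← Matrix.mulVec_mulVec, ← Matrix.mulVec_mulVec, h1, h1', Units.val_mul]
      ring
    · rw [← mul_one (1 : Fˣ)]
      nth_rewrite 1 [← h2]
      rw [← h2', map_mul, map_mul]
      apply Units.ext
      push_cast
      ring
    · show a.1 * a'.1 = _
      rw [h3, h3', mul_pow, map_mul, map_mul]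
      apply Units.ext
      push_cast
      ring
  · exact ⟨1, 1, 1, ⟨1, fun x y => by simp, map_one _⟩, by simp, by simp⟩
  · rintro a ⟨b, d, c, ⟨k, h1, rfl⟩, h2, h3⟩
    refine ⟨b⁻¹, _, c⁻¹, ⟨k⁻¹, fun x y => ?_, rfl⟩, ?_, ?_⟩
    · have h4 := h1 (k⁻¹.1 *ᵥ x) (k⁻¹.1 *ᵥ y)
      rw [Matrix.mulVec_mulVec, Matrix.mulVec_mulVec, ← Units.val_mul, mul_inv_cancel, Units.val_one, Matrix.one_mulVec,
        Matrix.one_mulVec] at h4
      rw [h4, ← mul_assoc, Units.inv_mul, one_mul]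
    · rw [← _root_.inv_inj, inv_one, ← h2, map_inv, map_inv]
      apply Units.ext
      push_cast
      field_simp
    · show (a.1)⁻¹ = _
      rw [h3, map_inv, map_inv, inv_pow, mul_inv]

end desc

/-- the form of a graph automorphism of order two -/
theorem graph_form (hn1 : 1 ≤ n) {F₀ : Type*} [Field F₀] {ι : F₀ →+* F} (hι : ∀ x, brE hF x = x ↔ ∃ y, ι y = x)
    {γ : MulAut (PSU n F q)} (hγ : IsGraphAutClassPSU γ) (h2 : orderOf γ = 2) :
    ∃ (g : GU n F q) (s : GL (Fin n) F₀) (A : GL (Fin n) F) (z w : Fˣ), γ = dg g * fd (brE hF) ∧ Rel (brE hF) ι g.1 s A z w := by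
  obtain ⟨hn, δ, φ, σ, hev, h1, h3, rfl⟩ := hγ
  rw [PSUAut.isInnerDiagonal_iff] at h1
  rw [PSUAut.isStdField_iff] at h3
  obtain ⟨g, rfl⟩ := h1
  subst h3
  have h4 : (dg g * fd σ) ^ 2 = 1 := by rw [← h2, pow_orderOf_eq_one]
  have h5 := h4
  rw [PSUAut.dg_fd_pow] at h5
  obtain ⟨h6, u, h7⟩ := PSUAut.dg_fd_eq_one hF hn h5
  have h8 : orderOf σ = 2 := by
    have h9 : orderOf σ ∣ 2 := orderOf_dvd_of_pow_eq_one h6
    rcases (Nat.dvd_prime Nat.prime_two).1 h9 with h | h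
    · rw [h] at hev
      exact absurd hev (by decide)
    · exact h
  have hσ : σ = brE hF := by
    obtain ⟨p, hc⟩ := CharP.exists F
    obtain ⟨f, hp, hf⟩ := FiniteField.card F p
    have : Fact p.Prime := ⟨hp⟩
    ext x
    rw [FFAut.eq_pow_of_orderOf_two hf f.2 h8, FFAut.eq_pow_of_orderOf_two hf f.2 (orderOf_brE hF)]
  subst hσ
  have h10 : g.1 * mp (brE hF) g.1 = sc u.1 := by
    have h11 := congrArg Subtype.val h7
    rw [PSUAut.nkU_coe, nk_succ, nk_succ, nk_zero, map_one, mul_one] at h11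
    exact h11
  obtain ⟨s, A, z, w, R⟩ := exists_rel (brE_brE hF) hι (orderOf_brE hF) hn1 ((mem_GU hF).1 g.2) h10
  exact ⟨g, s, A, z, w, rfl, R⟩

omit [Fintype F] hF in
theorem Bf_swap {K : Type*} [Field K] (s : GL (Fin n) K) (x y : Fin n → K) : Bf s y x = x ⬝ᵥ ((tau s).1 *ᵥ y) := by
  have e1 : (tau s).1 = ((s⁻¹).1)ᵀ := rfl
  rw [Bf_apply, e1, Matrix.dotProduct_mulVec, ← Matrix.mulVec_transpose, dotProduct_comm]

omit [Fintype F] hF in
theorem eps_of_tau {K : Type*} [Field K] {s : GL (Fin n) K} {c : Kˣ} (hcc : c * c = 1) (hs : s = sc c * (tau s)⁻¹) : Eps (Bf s) := by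
  have hci : c⁻¹ = c := inv_eq_of_mul_eq_one_left hcc
  have h1 : tau s = sc c * s⁻¹ := by
    conv_rhs => rw [hs]
    rw [ci, inv_inv, cs, hci, hcc, map_one, one_mul]
  refine ⟨c, congrArg Units.val hcc, fun x y => ?_⟩
  rw [Bf_swap, h1, sc_mul_coe, Matrix.smul_mulVec, dotProduct_smul, smul_eq_mul, Bf_apply]

omit [Fintype F] hF in
theorem tau_of_eps {K : Type*} [Field K] {s : GL (Fin n) K} (h : Eps (Bf s)) : ∃ c : Kˣ, c * c = 1 ∧ s = sc c * (tau s)⁻¹ := by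
  obtain ⟨c, hcc, h⟩ := h
  obtain ⟨c', rfl⟩ : ∃ c' : Kˣ, (c' : K) = c := ⟨⟨c, c, hcc, hcc⟩, rfl⟩
  have hcc' : c' * c' = 1 := Units.ext hcc
  have hci : c'⁻¹ = c' := inv_eq_of_mul_eq_one_left hcc'
  refine ⟨c', hcc', ?_⟩
  have h1 : tau s = sc c' * s⁻¹ := by
    apply Units.ext
    apply PSLGraph.mat_ext
    intro x y
    rw [← Bf_swap, h, sc_mul_coe, Matrix.smul_mulVec, dotProduct_smul, smul_eq_mul, Bf_apply]
  rw [h1, ci, inv_inv, cs, hci, hcc', map_one, one_mul]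

/-- the form is symmetric or skew -/
theorem rel_eps (hn1 : 1 ≤ n) {F₀ : Type*} [Field F₀] {ι : F₀ →+* F} (hι : ∀ x, brE hF x = x ↔ ∃ y, ι y = x)
    {g : GL (Fin n) F} {s : GL (Fin n) F₀} {A : GL (Fin n) F} {z w : Fˣ} (R : Rel (brE hF) ι g s A z w) : Eps (Bf s) := by
  have h1 := eps (brE_brE hF) hι R
  obtain ⟨e, he⟩ : ∃ e, e = um (brE hF) w * w⁻¹ := ⟨_, rfl⟩
  rw [← he] at h1
  have h2 : mi ι (s * tau s) = sc e := by
    rw [map_mul, mi_tau]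
    nth_rewrite 1 [h1]
    rw [inv_mul_cancel_right]
  have h3 : um (brE hF) e = e := by
    have := mp_mi hι (s * tau s)
    rw [h2, mp_sc] at this
    exact sc_inj hn1 this
  obtain ⟨c, hc⟩ := fixed_unit (brE_brE hF) hι h3
  have h4 : s * tau s = sc c := by
    apply mi_inj ι
    rw [h2, mi_sc, hc]
  have h5 : s = sc c * (tau s)⁻¹ := by rw [← h4, mul_inv_cancel_right]
  have h6 : c * c = 1 := by
    have h7 : tau s * s = sc c⁻¹ := by rw [← tau_sc, ← h4, map_mul, tau_tau]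
    have h8 : tau s * s = sc c := by
      rw [← mul_left_cancel_iff (a := s), ← mul_assoc, h4, sc_comm]
    rw [h7] at h8
    have h9 := sc_inj hn1 h8
    have h10 : c * c = c⁻¹ * c := by rw [h9]
    rw [h10, inv_mul_cancel]
  exact eps_of_tau h6 h5

/-- every form comes from a graph automorphism of order two -/
theorem exists_graph (hn : 3 ≤ n) {F₀ : Type*} [Field F₀] [Fintype F₀] {ι : F₀ →+* F} (hι : ∀ x, brE hF x = x ↔ ∃ y, ι y = x)
    {κ : Type} [Fintype κ] [DecidableEq κ] (hκ : Fintype.card κ = n)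
    {C : (κ → F₀) →ₗ[F₀] (κ → F₀) →ₗ[F₀] F₀} (hC : NdB C) (h : Eps C) :
    ∃ (g : GU n F q) (s : GL (Fin n) F₀) (A : GL (Fin n) F) (z w : Fˣ), Rel (brE hF) ι g.1 s A z w ∧ Simil (Bf s) C ∧
      IsGraphAutClassPSU (dg g * fd (brE hF)) ∧ orderOf (dg g * fd (brE hF)) = 2 := by
  let e : (Fin n → F₀) ≃ₗ[F₀] (κ → F₀) := LinearEquiv.ofFinrankEq _ _ (by simp [hκ])
  have h1 : Simil (pull C e) C := pull_simil C e
  obtain ⟨s, hs⟩ := exists_Bf (h1.symm.ndB hC)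
  obtain ⟨c, hcc, hc⟩ := tau_of_eps (s := s) (by rw [hs]; exact h1.symm.eps h)
  obtain ⟨g, A, z, w, R, hg, u, hu⟩ := exists_g (brE_brE hF) hι (orderOf_brE hF) hcc hc
  refine ⟨⟨g, (mem_GU hF).2 hg⟩, s, A, z, w, R, by rw [hs]; exact h1, ?_, ?_⟩
  · refine ⟨hn, dg _, fd (brE hF), brE hF, by rw [orderOf_brE]; decide, ?_, ?_, rfl⟩
    · rw [PSUAut.isInnerDiagonal_iff]
      exact ⟨_, rfl⟩
    · rw [PSUAut.isStdField_iff]
  · rw [orderOf_eq_prime_iff]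
    constructor
    · rw [PSUAut.dg_fd_pow]
      have h3 : brE hF ^ 2 = 1 := by rw [← orderOf_brE hF, pow_orderOf_eq_one]
      rw [h3, map_one, mul_one]
      rw [dg_eq_of_sc hF (h := 1) (x := u) ?_ (by omega), map_one]
      rw [PSUAut.nkU_coe, nk_succ, nk_succ, nk_zero, map_one, mul_one]
      show g * mp (brE hF) g = sc u * 1
      rw [hu, mul_one]
    · intro h4
      have h5 := (PSUAut.dg_fd_eq_one hF hn h4).1
      have h6 := orderOf_brE hF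
      rw [h5, orderOf_one] at h6
      norm_num at h6

/-- the embedding of the field with `q` elements -/
theorem exists_iota (F₀ : Type*) [Field F₀] [Fintype F₀] (hF₀ : Fintype.card F₀ = q) :
    ∃ ι : F₀ →+* F, ∀ x, brE hF x = x ↔ ∃ y, ι y = x := by
  obtain ⟨p, hc⟩ := CharP.exists F₀
  obtain ⟨f, hp, hf⟩ := FiniteField.card F₀ p
  have : Fact p.Prime := ⟨hp⟩
  have h1 : Fintype.card F = p ^ (2 * (f : ℕ)) := by rw [hF, ← hF₀, hf, ← pow_mul, mul_comm]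
  have hf1 : 1 ≤ (f : ℕ) := f.2
  obtain ⟨_, ι, hι⟩ := FFAut.exists_embedding (p := p) (f := 2 * f) h1 (by omega) (orderOf_brE hF) (by norm_num) F₀
    (by rw [hf]; congr 1; omega)
  exact ⟨ι, hι⟩

end Cfsg.Agent.Lib.PSUGraph

namespace Cfsg.Agent.Lib.SplitCount

theorem index_pow_zpow {C : Type*} [CommGroup C] [Finite C] [IsCyclic C] {z : C} (hz : orderOf z = 2) (m : ℕ) :
    ((powMonoidHom m : C →* C).range ⊔ Subgroup.zpowers z).index = Nat.gcd (2 * m) (Nat.card C) / 2 := by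
  have hcard : Nat.card (Subgroup.zpowers z) = 2 := by rw [Nat.card_zpowers, hz]
  have h2d : 2 ∣ Nat.card C := by rw [← hz]; exact orderOf_dvd_natCard _
  rw [eq_range_pow _ hcard, index_pow_sup]
  obtain ⟨t, ht⟩ := h2d
  rw [ht, Nat.mul_div_cancel_left t (by norm_num), Nat.gcd_mul_left, Nat.mul_div_cancel_left _ (by norm_num)]
  apply Nat.gcd_eq_left
  exact (Nat.gcd_dvd_right _ _).trans (dvd_mul_left _ _)

theorem index_range_pow {C : Type*} [CommGroup C] [Finite C] [IsCyclic C] (k : ℕ) :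
    (powMonoidHom k : C →* C).range.index = Nat.gcd k (Nat.card C) := by
  have := index_pow_sup (C := C) k k
  rwa [sup_idem, Nat.gcd_self] at this

end Cfsg.Agent.Lib.SplitCount
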