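import Cfsg.Agent.Lib.PSLBal4
import Cfsg.Agent.Lib.PSUGraph2
import Cfsg.Agent.S0282

/-!
# Local balance for unitary socles: field automorphisms of odd order (helper45)
-/

set_option autoImplicit false
set_option linter.unusedSectionVars false

namespace Cfsg.Agent.Lib.PSUBal

open Matrix
open Cfsg Cfsg.Agent.Lib.ClUnitary Cfsg.Agent.Lib.HermMat Cfsg.Agent.Lib.UnTrans Cfsg.Agent.Lib.UnBridge Cfsg.Agent.Lib.PSUAut
open Cfsg.Agent.Lib.PSLAut (quotAut aut_ext mi mi_coe det_toGL sc sc_coe dh dh_coe det_dh dg_eq_one')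
open Cfsg.Agent.Lib.ClUnSimple (trans_one suIso)
open Cfsg.Agent.Lib.Descent

variable {n : ℕ} {F : Type*} [Field F] {q : ℕ} [Fintype F] (hF : Fintype.card F = q ^ 2)

include hF

/-- a normal subgroup whose order is a power of the characteristic is trivial -/
theorem normal_pgroup (hn : 3 ≤ n) {p : ℕ} [hpf : Fact p.Prime] (hpq : p ∣ q) {M : Subgroup (PSU n F q)} (hM : M.Normal)
    (hMp : IsPGroup p M) : M = ⊥ := by
  have H := herm_HS n hF
  have hfin : Finite (SU n F q) := inferInstance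
  obtain ⟨P⟩ : Nonempty (Sylow p (SU n F q)) := inferInstance
  obtain ⟨v, hv0, hvv, hv⟩ := exists_fixed_vector hF hpq (by omega : 2 ≤ n) P.1 P.isPGroup'
  let Pb : Sylow p (PSU n F q) := P.mapSurjective (QuotientGroup.mk'_surjective (Subgroup.center (SU n F q)))
  have hPb : ∀ x : PSU n F q, x ∈ Pb ↔ ∃ s ∈ P, QuotientGroup.mk s = x := fun x => Iff.rfl
  have hMP : M ≤ Pb := (Cores.le_pCore hM hMp).trans (Cores.pCore_le_sylow Pb)
  rw [eq_bot_iff]
  intro m hm
  rw [Subgroup.mem_bot]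
  apply conj_inj hF hn
  rw [map_one]
  apply eq_one_of_fix_points (hF := hF) hn
  intro w hw0 hw
  obtain ⟨h, c, hh⟩ : ∃ h : SU n F q, ∃ c : F, h.1.1 *ᵥ v = c • w := by
    obtain ⟨s, hs, c, hc⟩ := trans_one hF hvv hv0 hw hw0
    refine ⟨(suIso n F q).symm ⟨s, hs⟩, c, ?_⟩
    rw [← Cfsg.Agent.Lib.ClUnSimple.suIso_apply, MulEquiv.apply_symm_apply]
    exact hc
  have hc0 : c ≠ 0 := by
    rintro rfl
    rw [zero_smul] at hh
    exact U_mulVec_ne hv0 hh
  have h1 : (QuotientGroup.mk h : PSU n F q)⁻¹ * m * QuotientGroup.mk h ∈ M := by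
    have := hM.conj_mem m hm (QuotientGroup.mk h : PSU n F q)⁻¹
    rwa [inv_inv] at this
  obtain ⟨s, hs, hs'⟩ := (hPb _).1 (hMP h1)
  have h2 : m = QuotientGroup.mk (h * s * h⁻¹) := by
    rw [QuotientGroup.mk_mul, QuotientGroup.mk_mul, QuotientGroup.mk_inv, hs']
    group
  rw [h2]
  have h3 : (h * s * h⁻¹).1.1 *ᵥ w = w := by
    have h4 : (h⁻¹).1.1 *ᵥ w = c⁻¹ • v := by
      have h5 := U_inv_mulVec h v
      rw [hh, Matrix.mulVec_smul] at h5
      rw [← h5, smul_smul, inv_mul_cancel₀ hc0, one_smul]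
    rw [U_mul_mulVec, U_mul_mulVec, h4, Matrix.mulVec_smul, hv s hs, Matrix.mulVec_smul, hh, smul_smul,
      inv_mul_cancel₀ hc0, one_smul]
  have h5 := isMap_conj hF (h * s * h⁻¹) hw0 hw
  rwa [h3] at h5

/-- normal subgroups of `PSU_n(q)` -/
theorem normal_PSU (hn : 3 ≤ n) {r : ℕ} [CharP F r] (hr : r.Prime) {p : ℕ} (hp : p.Prime) (hpr : p ≠ r)
    {M : Subgroup (PSU n F q)} (hM : M.Normal) (hM1 : M ≠ ⊥) (hc : (Nat.card M).Coprime p) :
    (Nat.card (PSU n F q)).Coprime p := by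
  by_cases hs : n = 3 ∧ q = 2
  · obtain ⟨rfl, rfl⟩ := hs
    have h72 := (S0282.result (F := F) (by rw [hF]; norm_num)).1
    have hr2 : r = 2 := by
      have hz : ((Fintype.card F : ℕ) : F) = 0 := Nat.cast_card_eq_zero F
      rw [hF] at hz
      have h4 := (CharP.cast_eq_zero_iff F r (2 ^ 2)).1 hz
      exact (Nat.prime_dvd_prime_iff_eq hr Nat.prime_two).1 (hr.dvd_of_dvd_pow h4)
    by_cases hp3 : p = 3
    · subst hp3
      exfalso
      apply hM1
      have hfact : Fact (Nat.Prime 2) := ⟨Nat.prime_two⟩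
      have h1 : Nat.card M ∣ 8 := by
        have h2 : Nat.card M ∣ 72 := by rw [← h72]; exact Subgroup.card_subgroup_dvd_card M
        have h3 : Nat.Coprime (Nat.card M) 9 := Nat.Coprime.pow_right 2 hc
        have h4 : Nat.card M ∣ 8 * 9 := h2
        exact h3.dvd_of_dvd_mul_right h4
      obtain ⟨k, -, hk⟩ := (Nat.dvd_prime_pow Nat.prime_two).1 (show Nat.card M ∣ 2 ^ 3 from h1)
      exact normal_pgroup hF hn (p := 2) (dvd_refl 2) hM (IsPGroup.of_card hk)
    · rw [h72, Nat.coprime_comm, hp.coprime_iff_not_dvd]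
      intro h7
      have : p ∣ 2 ^ 3 * 3 ^ 2 := h7
      rcases hp.dvd_mul.1 this with h8 | h8
      · exact hpr (((Nat.prime_dvd_prime_iff_eq hp Nat.prime_two).1 (hp.dvd_of_dvd_pow h8)).trans hr2.symm)
      · exact hp3 ((Nat.prime_dvd_prime_iff_eq hp Nat.prime_three).1 (hp.dvd_of_dvd_pow h8))
  · have hsimple := S0283.result hF n hn hs
    rcases hM.eq_bot_or_eq_top with h | h
    · exact absurd h hM1
    · rw [h, Subgroup.card_top] at hc
      exact hc

theorem not_three_two (hK : IsSimpleGroup (PSU n F q)) : n = 3 → q ≠ 2 := by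
  rintro rfl rfl
  obtain ⟨h72, hsol⟩ := S0282.result (F := F) (by rw [hF]; norm_num)
  have h1 := IsSimpleGroup.comm_iff_isSolvable.2 hsol
  let _ : CommGroup (PSU 3 F 2) := { (inferInstance : Group (PSU 3 F 2)) with mul_comm := h1 }
  have hfin : Finite (PSU 3 F 2) := by unfold PSU; infer_instance
  have h2 : (Nat.card (PSU 3 F 2)).Prime := IsSimpleGroup.prime_card
  rw [h72] at h2
  revert h2
  norm_num

end Cfsg.Agent.Lib.PSUBal
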