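import Cfsg.Agent.Lib.PSUBal

/-!
# Local balance for unitary socles: field automorphisms of odd order, II (helper45)
-/

set_option autoImplicit false
set_option linter.unusedSectionVars false

namespace Cfsg.Agent.Lib.PSUBal

open Matrix
open Cfsg Cfsg.Agent.Lib.ClUnitary Cfsg.Agent.Lib.HermMat Cfsg.Agent.Lib.UnTrans Cfsg.Agent.Lib.UnBridge Cfsg.Agent.Lib.PSUAut
open Cfsg.Agent.Lib.PSLAut (quotAut aut_ext mi mi_coe det_toGL sc sc_coe dh dh_coe det_dh dg_eq_one' det_mi)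
open Cfsg.Agent.Lib.Descent
open Cfsg.Agent.Lib.PSLBal (mem_of_coprime_pow)

variable {n : ℕ} {F : Type*} [Field F] {q : ℕ} [Fintype F] (hF : Fintype.card F = q ^ 2)
  {F₀ : Type*} [Field F₀] [Fintype F₀] {q₀ : ℕ} (hF₀ : Fintype.card F₀ = q₀ ^ 2) {ι : F₀ →+* F}
  (hpow : ∀ x : F₀, x ^ q = x ^ q₀)

omit hF hF₀ hpow in
theorem dg_eq_one_iff (hF : Fintype.card F = q ^ 2) (hn : 3 ≤ n) (g : GU n F q) :
    (dg g : MulAut (PSU n F q)) = 1 ↔ ∃ c : F, ∀ v, g.1.1 *ᵥ v = c • v := by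
  constructor
  · intro h
    obtain ⟨u, hu⟩ := dg_eq_one hF hn h
    exact ⟨u.1, fun v => by rw [hu, scU_mulVec]⟩
  · rintro ⟨c, hc⟩
    have h1 : g.1.1 = c • 1 := by
      apply Matrix.ext_of_mulVec_single
      intro i
      rw [hc, Matrix.smul_mulVec, Matrix.one_mulVec]
    have hc0 : c ≠ 0 := by
      rintro rfl
      rw [zero_smul] at h1
      have h2 : (g.1 * g.1⁻¹).1 = 0 := by rw [Units.val_mul, h1, zero_mul]
      rw [mul_inv_cancel] at h2
      have := congrFun (congrFun h2 ⟨0, by omega⟩) ⟨0, by omega⟩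
      rw [Units.val_one, Matrix.one_apply_eq, Matrix.zero_apply] at this
      exact one_ne_zero this
    have h2 : g.1 = sc (Units.mk0 c hc0) * (1 : GU n F q).1 := by
      apply Units.ext
      rw [Units.val_mul, sc_coe, h1, Matrix.smul_one_eq_diagonal]
      show _ = Matrix.diagonal (fun _ => c) * 1
      rw [mul_one]
    rw [PSUGraph.dg_eq_of_sc hF h2 (by omega), map_one]

/-- the group `PSU_n(q₀)` inside the automorphism group. -/
noncomputable def subUn (hF : Fintype.card F = q ^ 2) (hF₀ : Fintype.card F₀ = q₀ ^ 2) (ι : F₀ →+* F)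
    (hpow : ∀ x : F₀, x ^ q = x ^ q₀) : SU n F₀ q₀ →* MulAut (PSU n F q) :=
  dg.comp ((miU hF hF₀ ι hpow).comp toGU)

theorem subUn_apply (s : SU n F₀ q₀) : subUn hF hF₀ ι hpow s = (dg (miU hF hF₀ ι hpow (toGU s)) : MulAut (PSU n F q)) := rfl

theorem mulVec_iff {k : GL (Fin n) F₀} (hn : 1 ≤ n) (f : F₀ →+* F) :
    (∃ c : F, ∀ v, (mi f k).1 *ᵥ v = c • v) ↔ ∃ c : F₀, ∀ v, k.1 *ᵥ v = c • v := by
  constructor
  · rintro ⟨c, hc⟩
    have h1 : ∀ i j, f (k.1 i j) = if i = j then c else 0 := by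
      intro i j
      have h2 := congrFun (hc (Pi.single j 1)) i
      rw [Matrix.mulVec_single_one] at h2
      simp only [Matrix.col_apply, Pi.smul_apply, smul_eq_mul, Pi.single_apply, mul_ite, mul_one, mul_zero] at h2
      exact h2
    refine ⟨k.1 ⟨0, hn⟩ ⟨0, hn⟩, fun v => ?_⟩
    have h2 : k.1 = (k.1 ⟨0, hn⟩ ⟨0, hn⟩) • 1 := by
      ext i j
      apply f.injective
      rw [h1, Matrix.smul_apply, smul_eq_mul, map_mul, h1, if_pos rfl, Matrix.one_apply]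
      split_ifs <;> simp
    conv_lhs => rw [h2]
    rw [Matrix.smul_mulVec, Matrix.one_mulVec]
  · rintro ⟨c, hc⟩
    have h2 : k.1 = c • 1 := by
      apply Matrix.ext_of_mulVec_single
      intro i
      rw [hc, Matrix.smul_mulVec, Matrix.one_mulVec]
    refine ⟨f c, fun v => ?_⟩
    have h3 : (mi f k).1 = (f c) • 1 := by
      rw [mi_coe, h2]
      ext i j
      rw [Matrix.map_apply, Matrix.smul_apply, Matrix.smul_apply, smul_eq_mul, smul_eq_mul, map_mul, Matrix.one_apply,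
        Matrix.one_apply]
      split_ifs <;> simp
    rw [h3, Matrix.smul_mulVec, Matrix.one_mulVec]

include hF hF₀

theorem subUn_eq_one (hn : 3 ≤ n) (s : SU n F₀ q₀) :
    (subUn hF hF₀ ι hpow s : MulAut (PSU n F q)) = 1 ↔ s ∈ Subgroup.center (SU n F₀ q₀) := by
  rw [subUn_apply, dg_eq_one_iff hF hn, mem_center_iff' hF₀ (by omega)]
  exact mulVec_iff (k := (toGU s).1) (by omega) ι

theorem ker_subUn (hn : 3 ≤ n) :
    (subUn (n := n) hF hF₀ ι hpow).ker = Subgroup.center (SU n F₀ q₀) := by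
  ext s
  rw [MonoidHom.mem_ker, subUn_eq_one hF hF₀ hpow hn]

theorem exists_j (hn : 3 ≤ n) : ∃ j : PSU n F₀ q₀ →* MulAut (PSU n F q), Function.Injective j ∧
    j.range = (subUn (n := n) hF hF₀ ι hpow).range := by
  let E : PSU n F₀ q₀ ≃* (subUn (n := n) hF hF₀ ι hpow).range :=
    (QuotientGroup.quotientMulEquivOfEq (ker_subUn hF hF₀ hpow hn).symm).trans (QuotientGroup.quotientKerEquivRange _)
  refine ⟨(subUn (n := n) hF hF₀ ι hpow).range.subtype.comp E.toMonoidHom, (Subgroup.subtype_injective _).comp E.injective, ?_⟩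
  have h3 : E.toMonoidHom.range = ⊤ := MonoidHom.range_eq_top.2 E.surjective
  rw [MonoidHom.range_comp, h3, ← MonoidHom.range_eq_map, Subgroup.range_subtype]

/-- the image of an element with determinant an `n`-th power -/
theorem mem_subUn {g : GU n F₀ q₀} (h : ∃ u : N1 F₀ q₀, detU hF₀ g = u ^ n) :
    (dg (miU hF hF₀ ι hpow g) : MulAut (PSU n F q)) ∈ (subUn (n := n) hF hF₀ ι hpow).range := by
  obtain ⟨u, hu⟩ := h
  obtain ⟨s, hs⟩ := exists_toGU hF₀ (g := scU hF₀ u⁻¹ * g) (by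
    rw [map_mul, detU_scU, hu, inv_pow, inv_mul_cancel])
  refine ⟨s, ?_⟩
  have h1 : (dg (miU hF hF₀ ι hpow (scU hF₀ u⁻¹ : GU n F₀ q₀)) : MulAut (PSU n F q)) = 1 := by
    have e1 : (miU hF hF₀ ι hpow (scU hF₀ u⁻¹ : GU n F₀ q₀)).1 = sc (Units.map (ι : F₀ →* F) (u⁻¹).1) * (1 : GU n F q).1 := by
      rw [miU_coe]
      have e2 : (scU hF₀ u⁻¹ : GU n F₀ q₀).1 = sc (u⁻¹).1 := rfl
      rw [e2, PSUGraph.mi_sc]
      exact (mul_one _).symm
    by_cases hn : 1 ≤ n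
    · rw [PSUGraph.dg_eq_of_sc hF e1 hn, map_one]
    · have hn0 : n = 0 := by omega
      subst hn0
      have : miU hF hF₀ ι hpow (scU hF₀ u⁻¹ : GU 0 F₀ q₀) = 1 := by
        apply Subtype.ext; apply Units.ext; exact Subsingleton.elim _ _
      rw [this, map_one]
  rw [subUn_apply, hs, map_mul, map_mul, h1, one_mul]

theorem detU_miU (g : GU n F₀ q₀) (hg : detU hF₀ g = 1) : detU hF (miU hF hF₀ ι hpow g) = 1 := by
  apply Subtype.ext
  rw [detU_coe, miU_coe, det_mi]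
  have h1 := congrArg Subtype.val hg
  rw [detU_coe] at h1
  rw [h1]
  show Units.map (ι : F₀ →* F) 1 = 1
  rw [map_one]

variable {σ : F ≃+* F} {p : ℕ}

theorem subUn_le (hn : 3 ≤ n) (hr : orderOf σ = p) (h0 : 0 < p) (hι : ∀ x, σ x = x ↔ ∃ y, ι y = x) :
    (subUn (n := n) hF hF₀ ι hpow).range ≤ Inn (PSU n F q) ⊓ Subgroup.centralizer {fd σ} := by
  rintro _ ⟨s, rfl⟩
  rw [Subgroup.mem_inf, Subgroup.mem_centralizer_singleton_iff]
  refine ⟨?_, ?_⟩
  · rw [subUn_apply, dg_inner_iff hF hn, detU_miU hF hF₀ hpow _ (detU_toGU hF₀ s)]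
    exact ⟨1, by rw [one_pow]⟩
  · rw [subUn_apply, commute_fd_iff hF hF₀ hn hr h0 hι hpow]
    exact ⟨1, _, by rw [scU_one, one_mul]⟩

theorem exists_form (hn : 3 ≤ n) (hr : orderOf σ = p) (h0 : 0 < p) (hι : ∀ x, σ x = x ↔ ∃ y, ι y = x)
    {c : MulAut (PSU n F q)} (hc : c ∈ Inn (PSU n F q) ⊓ Subgroup.centralizer {fd σ}) :
    ∃ g₀ : GU n F₀ q₀, c = dg (miU hF hF₀ ι hpow g₀) := by
  obtain ⟨h1, h2⟩ := Subgroup.mem_inf.1 hc
  have h3 := inn_le_inndiag h1
  rw [inndiag_eq] at h3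
  obtain ⟨g, rfl⟩ := h3
  rw [Subgroup.mem_centralizer_singleton_iff, commute_fd_iff hF hF₀ hn hr h0 hι hpow] at h2
  obtain ⟨b, g₀, rfl⟩ := h2
  exact ⟨g₀, by rw [map_mul, dg_scU, one_mul]⟩

theorem subUn_normal (hn : 3 ≤ n) (hr : orderOf σ = p) (h0 : 0 < p) (hι : ∀ x, σ x = x ↔ ∃ y, ι y = x)
    {c : MulAut (PSU n F q)} (hc : c ∈ Inn (PSU n F q) ⊓ Subgroup.centralizer {fd σ})
    {s : MulAut (PSU n F q)} (hs : s ∈ (subUn (n := n) hF hF₀ ι hpow).range) :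
    c * s * c⁻¹ ∈ (subUn (n := n) hF hF₀ ι hpow).range := by
  obtain ⟨g₀, rfl⟩ := exists_form hF hF₀ hpow hn hr h0 hι hc
  obtain ⟨s, rfl⟩ := hs
  rw [subUn_apply, ← map_inv, ← map_inv, ← map_mul, ← map_mul, ← map_mul, ← map_mul]
  apply mem_subUn hF hF₀ hpow
  refine ⟨1, ?_⟩
  rw [map_mul, map_mul, map_inv, detU_toGU, one_pow, mul_one, mul_inv_cancel]

theorem normal_sub (hn : 3 ≤ n) {r : ℕ} [CharP F₀ r] (hrp : r.Prime) (hp : p.Prime) (hpr : p ≠ r)
    {N : Subgroup (MulAut (PSU n F q))} (hN : N ≤ (subUn (n := n) hF hF₀ ι hpow).range)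
    (hnn : ∀ s ∈ (subUn (n := n) hF hF₀ ι hpow).range, ∀ x ∈ N, s * x * s⁻¹ ∈ N) (hN1 : N ≠ ⊥) (hc : (Nat.card N).Coprime p) :
    (Nat.card (subUn (n := n) hF hF₀ ι hpow).range).Coprime p := by
  obtain ⟨j, hj1, hj2⟩ := exists_j (n := n) hF hF₀ hpow hn
  have hM : (N.comap j).Normal := by
    constructor
    intro x hx g
    rw [Subgroup.mem_comap] at hx ⊢
    rw [map_mul, map_mul, map_inv]
    exact hnn _ (by rw [← hj2]; exact ⟨g, rfl⟩) _ hx
  have hmap : (N.comap j).map j = N := by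
    rw [Subgroup.map_comap_eq, hj2, inf_eq_right.2 hN]
  have hM1 : N.comap j ≠ ⊥ := by
    intro h
    apply hN1
    rw [← hmap, h, Subgroup.map_bot]
  have hcard : Nat.card (N.comap j) = Nat.card N := by
    conv_rhs => rw [← hmap]
    exact Nat.card_congr (Subgroup.equivMapOfInjective _ _ hj1).toEquiv
  have h1 := normal_PSU hF₀ hn hrp hp hpr hM hM1 (by rw [hcard]; exact hc)
  rw [← hj2, ← Nat.card_congr (MonoidHom.ofInjective hj1).toEquiv]
  exact h1

/-- an element of order `p` -/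
theorem exists_elt (hn : 3 ≤ n) (hp : p.Prime) (hpq : p ∣ q₀ + 1) :
    p ∣ Nat.card (subUn (n := n) hF hF₀ ι hpow).range := by
  have hfact : Fact p.Prime := ⟨hp⟩
  have hfinS : Finite (SU n F₀ q₀) := inferInstance
  have hfin : Finite (subUn (n := n) hF hF₀ ι hpow).range :=
    Finite.of_surjective (subUn (n := n) hF hF₀ ι hpow).rangeRestrict (MonoidHom.rangeRestrict_surjective _)
  obtain ⟨a, ha⟩ : ∃ a : N1 F₀ q₀, orderOf a = p := exists_prime_orderOf_dvd_card' p (by rw [card_N1 hF₀]; exact hpq)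
  obtain ⟨i, hi⟩ : ∃ z : Fin n, z = ⟨0, by omega⟩ := ⟨_, rfl⟩
  obtain ⟨j, hj⟩ : ∃ z : Fin n, z = ⟨1, by omega⟩ := ⟨_, rfl⟩
  obtain ⟨k, hk⟩ : ∃ z : Fin n, z = ⟨2, by omega⟩ := ⟨_, rfl⟩
  have hij : i ≠ j := by rw [hi, hj]; simp
  have hik : i ≠ k := by rw [hi, hk]; simp
  have hjk : j ≠ k := by rw [hj, hk]; simp
  have hmem : ∀ (i : Fin n) {u : F₀ˣ}, u ∈ N1 F₀ q₀ → dh i u ∈ GU n F₀ q₀ := by
    intro i u hu
    apply PSLAut.dh_mem_GU (σ := brE hF₀) (brE_apply hF₀) i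
    rw [PSLAut.mem_nrmOne, brE_apply, ← pow_succ', ← Units.val_pow_eq_pow_val, mem_N1.1 hu, Units.val_one]
  have hcomm : Commute (dh i a.1 : GL (Fin n) F₀) (dh j a.1⁻¹) := by
    apply Units.ext
    rw [Units.val_mul, Units.val_mul, dh_coe, dh_coe, Matrix.diagonal_mul_diagonal, Matrix.diagonal_mul_diagonal]
    congr 1
    ext k
    rw [mul_comm]
  obtain ⟨g, hg⟩ : ∃ g : GU n F₀ q₀, g.1 = dh i a.1 * dh j a.1⁻¹ :=
    ⟨⟨_, (GU n F₀ q₀).mul_mem (hmem i a.2) (hmem j ((N1 F₀ q₀).inv_mem a.2))⟩, rfl⟩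
  have hdet : detU hF₀ g = 1 := by
    apply Subtype.ext
    rw [detU_coe, hg, map_mul, det_dh, det_dh, mul_inv_cancel]; rfl
  have hgp : g ^ p = 1 := by
    apply Subtype.ext
    have h1 : (g ^ p).1 = g.1 ^ p := rfl
    have h2 : a.1 ^ p = 1 := by
      have := pow_orderOf_eq_one a
      rw [ha] at this
      exact congrArg Subtype.val this
    rw [h1, hg, hcomm.mul_pow, ← map_pow, ← map_pow, inv_pow, h2, inv_one, map_one, map_one, one_mul]; rfl
  have h1 := mem_subUn hF hF₀ (ι := ι) hpow (g := g) ⟨1, by rw [hdet, one_pow]⟩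
  have h2 : orderOf (dg (miU hF hF₀ ι hpow g) : MulAut (PSU n F q)) = p := by
    apply orderOf_eq_prime
    · rw [← map_pow, ← map_pow, hgp, map_one, map_one]
    · intro h3
      rw [dg_eq_one_iff hF hn, miU_coe, mulVec_iff (by omega) ι] at h3
      obtain ⟨c, hc⟩ := h3
      have h6 : ∀ z : Fin n, (((Pi.mulSingle i a.1 : Fin n → F₀ˣ) z : F₀)) * ((Pi.mulSingle j a.1⁻¹ : Fin n → F₀ˣ) z : F₀) = c := by
        intro z
        have h7 := congrFun (hc (Pi.single z 1)) z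
        rw [hg, Units.val_mul, dh_coe, dh_coe, Matrix.diagonal_mul_diagonal, Matrix.mulVec_diagonal, Pi.smul_apply,
          Pi.single_eq_same, mul_one, smul_eq_mul, mul_one] at h7
        exact h7
      have h8 := h6 i
      have h9 := h6 k
      rw [Pi.mulSingle_eq_same, Pi.mulSingle_eq_of_ne hij, Units.val_one, mul_one] at h8
      rw [Pi.mulSingle_eq_of_ne hik.symm, Pi.mulSingle_eq_of_ne hjk.symm, Units.val_one, mul_one] at h9
      rw [← h9] at h8
      have h10 : a = 1 := Subtype.ext (Units.ext h8)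
      rw [h10, orderOf_one] at ha
      exact hp.one_lt.ne ha
  have h3 := orderOf_dvd_natCard (⟨_, h1⟩ : (subUn (n := n) hF hF₀ ι hpow).range)
  rw [Subgroup.orderOf_mk, h2] at h3
  exact h3

omit hF hF₀ [Fintype F] [Fintype F₀] in
theorem finite_aut_psu [Finite F] : Finite (MulAut (PSU n F q)) := by
  have hfinP : Finite (PSU n F q) := by unfold PSU; infer_instance
  apply Finite.of_injective (fun α : MulAut (PSU n F q) => (α : PSU n F q → PSU n F q))
  exact DFunLike.coe_injective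

theorem coprime_of_coprime (hn : 3 ≤ n) (hr : orderOf σ = p) (hι : ∀ x, σ x = x ↔ ∃ y, ι y = x) (hp : p.Prime)
    (h : (Nat.card (subUn (n := n) hF hF₀ ι hpow).range).Coprime p) :
    (Nat.card ↥(Inn (PSU n F q) ⊓ Subgroup.centralizer {fd σ})).Coprime p := by
  rw [Nat.coprime_comm, hp.coprime_iff_not_dvd] at h ⊢
  intro hdvd
  have : Fact p.Prime := ⟨hp⟩
  have hfinA := finite_aut_psu (F := F) (n := n) (q := q)
  obtain ⟨⟨c, hc⟩, hcp⟩ := exists_prime_orderOf_dvd_card' p hdvd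
  rw [Subgroup.orderOf_mk] at hcp
  have hcp1 : c ^ p = 1 := by rw [← hcp, pow_orderOf_eq_one]
  have hout : c ∉ (subUn (n := n) hF hF₀ ι hpow).range := by
    intro hmem
    apply h
    have := orderOf_dvd_natCard (⟨c, hmem⟩ : (subUn (n := n) hF hF₀ ι hpow).range)
    rw [Subgroup.orderOf_mk, hcp] at this
    exact this
  obtain ⟨g₀, hg₀⟩ := exists_form hF hF₀ hpow hn hr hp.pos hι hc
  have h2 : c ^ (q₀ + 1) ∈ (subUn (n := n) hF hF₀ ι hpow).range := by
    rw [hg₀, ← map_pow, ← map_pow]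
    refine mem_subUn hF hF₀ hpow ⟨1, ?_⟩
    rw [map_pow, one_pow]
    apply Subtype.ext
    exact mem_N1.1 (detU hF₀ g₀).2
  have h4 : p ∣ q₀ + 1 := by
    by_contra hnd
    exact hout (mem_of_coprime_pow hcp1 h2 (Nat.Coprime.symm ((hp.coprime_iff_not_dvd).2 hnd)))
  exact h (exists_elt hF hF₀ hpow hn hp h4)

/-- matrix form of commutation -/
theorem mat_of_comm (hn : 3 ≤ n) {g : GU n F q} {τ : F ≃+* F} {s : GU n F q}
    (h : dg g * fd τ * dg s = dg s * (dg g * fd τ)) :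
    ∃ c : F, g.1.1 * s.1.1.map τ = c • (s.1.1 * g.1.1) := by
  rw [mul_assoc, fd_dg, ← mul_assoc, ← mul_assoc, ← map_mul, ← map_mul] at h
  obtain ⟨u, hu⟩ := PSUGraph.exists_sc hF hn (mul_right_cancel h)
  refine ⟨u, ?_⟩
  have h1 := congrArg Units.val hu
  rw [PSLAut.sc_mul_coe] at h1
  exact h1

theorem cent_subUn (hn : 3 ≤ n) (hq : n = 3 → q ≠ 2) (hι : ∀ x, σ x = x ↔ ∃ y, ι y = x)
    (hσ : orderOf σ = p) {θ : MulAut (PSU n F q)}
    (h : ∀ s : SU n F₀ q₀, θ * subUn hF hF₀ ι hpow s = subUn hF hF₀ ι hpow s * θ) : θ ^ p = 1 := by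
  obtain ⟨g, τ, rfl⟩ := aut_psu hn hq hF θ
  have hf : ∀ (f : F₀ →+* F) (x y : Fin n → F₀), hermForm n F q (fun i => f (x i)) (fun i => f (y i)) = f (hermForm n F₀ q₀ x y) := by
    intro f x y
    simp only [hermForm_def, map_sum, map_mul, map_pow]
    refine Finset.sum_congr rfl fun i _ => ?_
    rw [← map_pow, ← map_pow, hpow]
  obtain ⟨⟨u, hu⟩, h2⟩ := Rigid.herm_rigid hF₀ hn (f₁ := (τ : F →+* F).comp ι) (f₂ := ι) (h := g.1) (Rigid.isHerm_herm hF)
    (fun x y => hf ((τ : F →+* F).comp ι) x y) (fun x y => hf ι x y) (fun x y => GU_form g x y) (fun s => by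
      obtain ⟨c, hc⟩ := mat_of_comm hF hF₀ hn (h s)
      refine ⟨c, ?_⟩
      have e1 : ((((miU hF hF₀ ι hpow).comp toGU) s).1).1 = s.1.1.map ι := rfl
      rw [e1, Matrix.map_map] at hc
      exact hc)
  have h3 : (dg g : MulAut (PSU n F q)) = 1 := (dg_eq_one_iff hF hn g).2 ⟨u, hu⟩
  rw [h3, one_mul, ← map_pow]
  have h4 : τ ∈ Subgroup.zpowers σ := by
    apply FFAut.mem_zpowers_of_fixed
    intro x hx
    obtain ⟨y, rfl⟩ := (hι x).1 hx
    exact h2 y
  have h5 : orderOf τ ∣ p := by rw [← hσ]; exact orderOf_dvd_of_mem_zpowers h4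
  rw [orderOf_dvd_iff_pow_eq_one.1 h5, map_one]

include hpow in
/-- local balance at a standard field automorphism of odd order, up to conjugacy. -/
theorem local_balance_fd (hn : 3 ≤ n) (hq : n = 3 → q ≠ 2) {r : ℕ} [CharP F₀ r] (hrp : r.Prime) (hp : p.Prime) (hpr : p ≠ r)
    (hσ : orderOf σ = p) (hι : ∀ x, σ x = x ↔ ∃ y, ι y = x)
    (A : Subgroup (MulAut (PSU n F q))) (hA : Inn (PSU n F q) ≤ A)
    {x : MulAut (PSU n F q)} (α : MulAut (PSU n F q)) (hx : x = α * fd σ * α⁻¹) :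
    pPrimeCore p ↥(A ⊓ Subgroup.centralizer {x}) ≠ ⊥ ↔
      (Nat.card ↥(Inn (PSU n F q) ⊓ Subgroup.centralizer {x})).Coprime p := by
  have hfinA := finite_aut_psu (F := F) (n := n) (q := q)
  have hp0 := hp.pos
  refine LBal.local_balance_conj (S := (subUn (n := n) hF hF₀ ι hpow).range) LBal.inn_normal hA α hx
    (subUn_le hF hF₀ hpow hn hσ hp0 hι) (fun c hc s hs => subUn_normal hF hF₀ hpow hn hσ hp0 hι hc hs) ?_ ?_ ?_
  · intro hb
    have H := herm_HS n hF₀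
    obtain ⟨e, he0, hee⟩ := Cfsg.Agent.Lib.ClUnSimple.exists_iso (F := F₀) (q := q₀) (n := n) hF₀ (by omega)
    obtain ⟨f, hff, hef, hfe⟩ := exists_hyp hF₀ he0 hee
    obtain ⟨a, ha0, ha⟩ := H.exists_tr0
    have h1 : subUn hF hF₀ ι hpow (tU hF₀ a e : SU n F₀ q₀) = 1 := by
      have : subUn hF hF₀ ι hpow (tU hF₀ a e : SU n F₀ q₀) ∈ (subUn (n := n) hF hF₀ ι hpow).range := ⟨_, rfl⟩
      rw [hb, Subgroup.mem_bot] at this
      exact this
    rw [subUn_eq_one hF hF₀ hpow hn, mem_center_iff' hF₀ (by omega)] at h1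
    obtain ⟨c, hc⟩ := h1
    have e1 := hc e
    have e2 := hc f
    rw [tU_mulVec hF₀ hee ha, hee, mul_zero, zero_smul, add_zero] at e1
    rw [tU_mulVec hF₀ hee ha, hfe, mul_one] at e2
    have h5 : c = 1 := by
      have h6 : (c - 1) • e = 0 := by rw [sub_smul, one_smul, ← e1, sub_self]
      rcases smul_eq_zero.1 h6 with h7 | h7
      · exact sub_eq_zero.1 h7
      · exact absurd h7 he0
    rw [h5, one_smul, add_eq_left] at e2
    rcases smul_eq_zero.1 e2 with h7 | h7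
    · exact ha0 h7
    · exact he0 h7
  · intro N hN hnn hN1 hc
    exact coprime_of_coprime hF hF₀ hpow hn hσ hι hp (normal_sub hF hF₀ hpow hn hrp hp hpr hN hnn hN1 hc)
  · intro g hg
    refine ⟨1, ?_⟩
    rw [pow_one]
    exact cent_subUn hF hF₀ hpow hn hq hι hσ (fun s => hg _ ⟨s, rfl⟩)

end Cfsg.Agent.Lib.PSUBal
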