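import Cfsg.Agent.Lib.PSUBal2

/-!
# Local balance for unitary socles: involutions, and the main theorem (helper45)
-/

set_option autoImplicit false
set_option linter.unusedSectionVars false

namespace Cfsg.Agent.Lib.PSUBal

open Matrix
open Cfsg Cfsg.Agent.Lib.ClUnitary Cfsg.Agent.Lib.HermMat Cfsg.Agent.Lib.UnTrans Cfsg.Agent.Lib.UnBridge Cfsg.Agent.Lib.PSUAut
open Cfsg.Agent.Lib.PSLAut (quotAut aut_ext mi mi_coe det_toGL sc sc_coe sc_mul_coe sc_comm dh dh_coe det_dh dg_eq_one' det_mi)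
open Cfsg.Agent.Lib.Descent Cfsg.Agent.Lib.PSUGraph Cfsg.Agent.Lib.PSLGraph Cfsg.Agent.Lib.SimForm

variable {n : ℕ} {F : Type*} [Field F] {q : ℕ} [Fintype F] (hF : Fintype.card F = q ^ 2)
  {F₀ : Type*} [Field F₀] [Fintype F₀] {ι : F₀ →+* F} (hι : ∀ x, brE hF x = x ↔ ∃ y, ι y = x)

include hF

theorem eq_brE {σ : F ≃+* F} (h2 : orderOf σ = 2) : σ = brE hF := by
  obtain ⟨p, hc⟩ := CharP.exists F
  obtain ⟨f, hp, hf⟩ := FiniteField.card F p
  have : Fact p.Prime := ⟨hp⟩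
  ext x
  rw [FFAut.eq_pow_of_orderOf_two hf f.2 h2, FFAut.eq_pow_of_orderOf_two hf f.2 (orderOf_brE hF)]

include hι

theorem exists_Psi (hn : 3 ≤ n) {g : GU n F q} {s : GL (Fin n) F₀} {A : GL (Fin n) F} {z w : Fˣ}
    (R : Rel (brE hF) ι g.1 s A z w) :
    ∃ Ψ : IsoG (Bf s) →* MulAut (PSU n F q), ∀ k₀ : IsoG (Bf s), ∃ k : GU n F q, k.1 = A * mi ι k₀.1 * A⁻¹ ∧ Ψ k₀ = dg k := by
  have hmem : ∀ k₀ : IsoG (Bf s), ((MulAut.conj A).toMonoidHom.comp ((mi ι).comp (IsoG (Bf s)).subtype)) k₀ ∈ GU n F q := by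
    intro k₀
    show A * mi ι k₀.1 * A⁻¹ ∈ GU n F q
    rw [PSUGraph.mem_GU hF]
    refine (bwd (brE_brE hF) hι R R (b := 1) (k₀ := k₀.1) (c := 1) ?_ ?_ (k := A * mi ι k₀.1 * A⁻¹) ?_).1
    · rw [tau_apply, ← sim_iff]
      intro x y
      rw [Units.val_one, one_mul]
      exact k₀.2 x y
    · rw [map_one, map_one]; simp
    · rw [map_one, one_mul]
  exact ⟨dg.comp (((MulAut.conj A).toMonoidHom.comp ((mi ι).comp (IsoG (Bf s)).subtype)).codRestrict _ hmem),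
    fun k₀ => ⟨⟨_, hmem k₀⟩, rfl, rfl⟩⟩

/-- involutions outside the inner-diagonal group -/
theorem balance_graph (h2 : (2 : F) ≠ 0) (hn : 3 ≤ n) (hq : n = 3 → q ≠ 2) {g : GU n F q}
    (hsq : (dg g * fd (brE hF) : MulAut (PSU n F q)) ^ 2 = 1)
    (A' : Subgroup (MulAut (PSU n F q))) (hA' : Inn (PSU n F q) ≤ A') :
    pPrimeCore 2 ↥(A' ⊓ Subgroup.centralizer {dg g * fd (brE hF)}) = ⊥ ∧
      2 ∣ Nat.card ↥(Inn (PSU n F q) ⊓ Subgroup.centralizer {dg g * fd (brE hF)}) := by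
  have hfinA := finite_aut_psu (F := F) (n := n) (q := q)
  have hn1 : 1 ≤ n := by omega
  have h20 : (2 : F₀) ≠ 0 := by
    intro h0
    apply h2
    rw [← map_ofNat ι, h0, map_zero]
  have h10 : ∃ u : Fˣ, g.1 * mp (brE hF) g.1 = sc u := by
    have h5 := hsq
    rw [PSUAut.dg_fd_pow] at h5
    obtain ⟨h6, u, h7⟩ := PSUAut.dg_fd_eq_one hF hn h5
    refine ⟨u.1, ?_⟩
    have h11 := congrArg Subtype.val h7
    rw [PSUAut.nkU_coe, nk_succ, nk_succ, nk_zero, map_one, mul_one] at h11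
    exact h11
  obtain ⟨u, h10⟩ := h10
  obtain ⟨s, A, z, w, R⟩ := exists_rel (brE_brE hF) hι (orderOf_brE hF) hn1 ((PSUGraph.mem_GU hF).1 g.2) h10
  obtain ⟨c, hc, hcB⟩ := rel_eps hF hn1 hι R
  have hB := sym_or_alt h20 hc hcB
  have hnB := Bf_nd s
  obtain ⟨Ψ, hΨ⟩ := exists_Psi hF hι hn R
  have hker : ∀ x : IsoG (Bf s), Ψ x = 1 ↔ ∃ c : F₀, ∀ v, x.1.1 *ᵥ v = c • v := by
    intro x
    obtain ⟨k, hk, e⟩ := hΨ x
    rw [e, dg_eq_one_iff hF hn, hk, ← mulVec_iff hn1 ι]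
    constructor
    · rintro ⟨c, hc⟩
      refine ⟨c, fun v => ?_⟩
      have h1 := congrArg (fun y => (A⁻¹).1 *ᵥ y) (hc (A.1 *ᵥ v))
      simp only [Matrix.mulVec_mulVec, Matrix.mulVec_smul, ← Units.val_mul] at h1
      rw [show A⁻¹ * (A * mi ι x.1 * A⁻¹ * A) = mi ι x.1 from by group, inv_mul_cancel, Units.val_one,
        Matrix.one_mulVec] at h1
      exact h1
    · rintro ⟨c, hc⟩
      refine ⟨c, fun v => ?_⟩
      have h1 := congrArg (fun y => A.1 *ᵥ y) (hc ((A⁻¹).1 *ᵥ v))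
      simp only [Matrix.mulVec_mulVec, Matrix.mulVec_smul, ← Units.val_mul] at h1
      rw [← mul_assoc, mul_inv_cancel, Units.val_one, Matrix.one_mulVec] at h1
      exact h1
  obtain ⟨h3, h4⟩ := FormCore.core h20 hn hB hnB Ψ hker
  have hle : (FormCore.D1 (Bf s)).map Ψ ≤ Inn (PSU n F q) ⊓ Subgroup.centralizer {dg g * fd (brE hF)} := by
    rintro _ ⟨x, hx, rfl⟩
    obtain ⟨k, hk, e⟩ := hΨ x
    rw [e, Subgroup.mem_inf, Subgroup.mem_centralizer_singleton_iff, dg_inner_iff hF hn, PSUGraph.commute_iff hF hι hn R]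
    refine ⟨⟨1, ?_⟩, 1, x.1, 1, ?_, ?_, ?_⟩
    · rw [one_pow]
      apply Subtype.ext
      rw [detU_coe, hk, map_mul, map_mul, map_inv, det_mi, FormCore.mem_D1.1 hx, map_one, mul_one, mul_inv_cancel]
      rfl
    · rw [map_one, one_mul, hk]
    · rw [tau_apply, ← sim_iff]
      intro x' y'
      rw [Units.val_one, one_mul]
      exact x.2 x' y'
    · rw [map_one, map_one]; simp
  refine ⟨?_, dvd_trans h3 (Subgroup.card_dvd_of_le hle)⟩
  refine LBal.no_balance (S := (FormCore.D1 (Bf s)).map Ψ) LBal.inn_normal hA' 1 (by rw [inv_one, one_mul, mul_one])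
    hle ?_ h3 h4 ?_
  · rintro c hc _ ⟨x, hx, rfl⟩
    obtain ⟨h5, h6⟩ := Subgroup.mem_inf.1 hc
    have h7 := inn_le_inndiag h5
    rw [inndiag_eq] at h7
    obtain ⟨k, rfl⟩ := h7
    rw [Subgroup.mem_centralizer_singleton_iff, PSUGraph.commute_iff hF hι hn R] at h6
    obtain ⟨b, k₁, c, hk, hk₁, -⟩ := h6
    have hsim : ∀ x y, Bf s (k₁.1 *ᵥ x) (k₁.1 *ᵥ y) = c * Bf s x y := by
      rw [sim_iff]; exact hk₁
    have hiso : k₁ * x.1 * k₁⁻¹ ∈ IsoG (Bf s) := by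
      intro y z
      have e1 : ∀ y, (k₁ * x.1 * k₁⁻¹).1 *ᵥ y = k₁.1 *ᵥ (x.1.1 *ᵥ ((k₁⁻¹).1 *ᵥ y)) := by
        intro y
        rw [Units.val_mul, Units.val_mul, Matrix.mulVec_mulVec, Matrix.mulVec_mulVec]
      have e3 : ∀ y z, Bf s (x.1.1 *ᵥ y) (x.1.1 *ᵥ z) = Bf s y z := x.2
      rw [e1, e1, hsim, e3, ← hsim]
      have e4 : ∀ y, k₁.1 *ᵥ ((k₁⁻¹).1 *ᵥ y) = y := fun y => by
        rw [Matrix.mulVec_mulVec, ← Units.val_mul, mul_inv_cancel, Units.val_one, Matrix.one_mulVec]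
      rw [e4, e4]
    refine ⟨⟨_, hiso⟩, ?_, ?_⟩
    · rw [SetLike.mem_coe, FormCore.mem_D1]
      show GeneralLinearGroup.det (k₁ * x.1 * k₁⁻¹) = 1
      rw [map_mul, map_mul, map_inv, FormCore.mem_D1.1 hx, mul_one, mul_inv_cancel]
    · obtain ⟨k', hk', e'⟩ := hΨ ⟨_, hiso⟩
      obtain ⟨k'', hk'', e''⟩ := hΨ x
      rw [e', e'', ← map_inv, ← map_mul, ← map_mul]
      congr 1
      apply Subtype.ext
      rw [hk']
      show _ = k.1 * k''.1 * k.1⁻¹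
      rw [hk, hk'']
      show A * mi ι (k₁ * x.1 * k₁⁻¹) * A⁻¹ = _
      rw [map_mul, map_mul, map_inv, ci, cl, cc, mul_inv_cancel, map_one, one_mul]
      group
  · intro θ hθ
    obtain ⟨h, τ, rfl⟩ := aut_psu hn hq hF θ
    obtain ⟨X, hX⟩ : ∃ X, X = A⁻¹ * h.1 * mp τ A := ⟨_, rfl⟩
    obtain ⟨⟨v, hv⟩, hτι⟩ := FormCore.rigid h20 hn hB hnB X ((τ : F →+* F).comp ι) ι (by
      rintro t ⟨ht1, ht2⟩
      obtain ⟨k, hk, e⟩ := hΨ ⟨t, ht1⟩
      have h5 := hθ (Ψ ⟨t, ht1⟩) ⟨⟨t, ht1⟩, FormCore.mem_D1.2 ht2, rfl⟩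
      rw [e, mul_assoc, fd_dg, ← mul_assoc, ← mul_assoc, ← map_mul, ← map_mul] at h5
      obtain ⟨u, hu⟩ := exists_sc hF hn (mul_right_cancel h5)
      refine ⟨u, ?_⟩
      have e1 : mp τ (mi ι t) = mi ((τ : F →+* F).comp ι) t := by
        apply Units.ext
        rw [mp_coe, mi_coe, Matrix.map_map]; rfl
      have h6 : h.1 * mp τ k.1 = sc u * (k.1 * h.1) := hu
      rw [hk, map_mul, map_mul, map_inv, e1] at h6
      have h7 : X * mi ((τ : F →+* F).comp ι) t = sc u * (mi ι t * X) := by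
        rw [hX]
        calc A⁻¹ * h.1 * mp τ A * mi ((τ : F →+* F).comp ι) t =
            A⁻¹ * (h.1 * (mp τ A * mi ((τ : F →+* F).comp ι) t * (mp τ A)⁻¹)) * mp τ A := by group
          _ = A⁻¹ * (sc u * (A * mi ι t * A⁻¹ * h.1)) * mp τ A := by rw [h6]
          _ = _ := by rw [← mul_assoc A⁻¹, ← sc_comm]; group
      have h8 := congrArg Units.val h7
      rw [sc_mul_coe, Units.val_mul, Units.val_mul] at h8
      exact h8)
    have hX2 : X = sc v := by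
      apply Units.ext
      apply Matrix.ext_of_mulVec_single
      intro i
      rw [hv, sc_coe, ← Matrix.smul_one_eq_diagonal, Matrix.smul_mulVec, Matrix.one_mulVec]
    have hτ : τ ∈ Subgroup.zpowers (brE hF) := by
      apply FFAut.mem_zpowers_of_fixed
      intro x hx
      obtain ⟨y, rfl⟩ := (hι x).1 hx
      exact hτι y
    have hτ2 : τ ^ 2 = 1 := by
      have h5 : orderOf τ ∣ 2 := by rw [← orderOf_brE hF]; exact orderOf_dvd_of_mem_zpowers hτ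
      exact orderOf_dvd_iff_pow_eq_one.1 h5
    refine ⟨1, ?_⟩
    rw [pow_one, PSUAut.dg_fd_pow, hτ2, map_one, mul_one]
    have hh : h.1 = sc v * (A * (mp τ A)⁻¹) := by
      have : h.1 = A * X * (mp τ A)⁻¹ := by rw [hX]; group
      rw [this, hX2, ← sc_comm, mul_assoc]
    have hmm : mp τ (mp τ A) = A := by
      have h5 : ∀ x, τ (τ x) = x := fun x => by
        have := congrArg (fun f : F ≃+* F => f x) hτ2
        rw [pow_two] at this
        exact this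
      apply Units.ext
      rw [mp_coe, mp_coe, Matrix.map_map]
      ext i j
      exact h5 _
    have h6 : (nkU τ h 2).1 = sc (v * um τ v) * (1 : GU n F q).1 := by
      rw [PSUAut.nkU_coe, nk_succ, nk_succ, nk_zero, map_one, mul_one, hh, cm, map_mul, map_inv, hmm, cc]
      congr 1
      show A * (mp τ A)⁻¹ * (mp τ A * A⁻¹) = 1
      group
    rw [dg_eq_of_sc hF h6 hn1, map_one]

omit [Fintype F₀] hι in
/-- the fixed field of an automorphism of odd order -/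
theorem exists_fixed {r : ℕ} [CharP F r] (hr : r.Prime) {p : ℕ} (hp : p.Prime) (hodd : Odd p) {σ : F ≃+* F} (hσ : orderOf σ = p) :
    ∃ q₀ : ℕ, Nat.card (FFAut.fixed σ) = q₀ ^ 2 ∧ q = q₀ ^ p := by
  have hrf : Fact r.Prime := ⟨hr⟩
  have hcard := FFAut.card_fixed_pow σ
  rw [hσ] at hcard
  obtain ⟨f, hf, hFf⟩ := FiniteField.card F r
  have hq : q ∣ r ^ (f : ℕ) := by rw [← hFf, hF]; exact dvd_pow_self q two_ne_zero
  obtain ⟨j, -, hj⟩ := (Nat.dvd_prime_pow hr).1 hq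
  have hk : Nat.card (FFAut.fixed σ) ∣ r ^ (f : ℕ) := by rw [← hFf, ← hcard]; exact dvd_pow_self _ hp.ne_zero
  obtain ⟨k, -, hk'⟩ := (Nat.dvd_prime_pow hr).1 hk
  rw [hk', hF, hj, ← pow_mul, ← pow_mul] at hcard
  have h1 : k * p = j * 2 := Nat.pow_right_injective hr.two_le hcard
  have h2 : Even k := by
    have h3 : Even (k * p) := by rw [h1]; exact ⟨j, by ring⟩
    rcases Nat.even_mul.1 h3 with h | h
    · exact h
    · exact absurd h (Nat.not_even_iff_odd.2 hodd)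
  obtain ⟨m, hm⟩ := h2
  refine ⟨r ^ m, ?_, ?_⟩
  · rw [hk', ← pow_mul]; congr 1; omega
  · rw [hj, ← pow_mul]
    congr 1
    have : 2 * (m * p) = 2 * j := by rw [← mul_assoc, two_mul, ← hm, h1, mul_comm]
    omega

omit [Fintype F₀] hι in
/-- the main theorem -/
theorem main {r : ℕ} [CharP F r] (hr : r.Prime) (hn : 3 ≤ n) (hK : IsSimpleGroup (PSU n F q))
    (A : Subgroup (MulAut (PSU n F q))) (hA : Inn (PSU n F q) ≤ A) {p : ℕ} (hp : p.Prime) (hpr : p ≠ r)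
    {β : MulAut (PSU n F q)} (hord : orderOf β = p) (hnot : ¬ IsInnerDiagonalAutPSU β) :
    pPrimeCore p ↥(A ⊓ Subgroup.centralizer {β}) ≠ ⊥ ↔
      ((∃ γ φ : MulAut (PSU n F q), IsInnerDiagonalAutPSU γ ∧ (∃ σ : F ≃+* F, IsFieldAutPSUOf σ φ) ∧ β = γ * φ) ∧
        (Nat.card ↥(Inn (PSU n F q) ⊓ Subgroup.centralizer {β})).Coprime p) := by
  have hfact : Fact p.Prime := ⟨hp⟩
  have hq := not_three_two hF hK
  rw [isInnerDiagonal_iff] at hnot
  have hβp : β ^ p = 1 := by rw [← hord, pow_orderOf_eq_one]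
  obtain ⟨g, σ, e⟩ := aut_psu hn hq hF β
  have hex : ∃ γ φ : MulAut (PSU n F q), IsInnerDiagonalAutPSU γ ∧ (∃ σ : F ≃+* F, IsFieldAutPSUOf σ φ) ∧ β = γ * φ :=
    ⟨dg g, fd σ, (isInnerDiagonal_iff _).2 ⟨g, rfl⟩, ⟨σ, (isStdField_iff _ _).2 rfl⟩, e⟩
  have h1 : σ ^ p = 1 := by
    have := hβp
    rw [e, PSUAut.dg_fd_pow] at this
    exact (PSUAut.dg_fd_eq_one hF hn this).1
  have h2 : σ ≠ 1 := by
    rintro rfl
    exact hnot ⟨g, by rw [e, map_one, mul_one]⟩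
  have h3 : orderOf σ = p := orderOf_eq_prime h1 h2
  by_cases hp2 : p = 2
  · subst hp2
    have hσ := eq_brE hF h3
    subst hσ
    have h20 : (2 : F) ≠ 0 := by
      intro h0
      have h3 : ((2 : ℕ) : F) = 0 := by exact_mod_cast h0
      have h4 := (CharP.cast_eq_zero_iff F r 2).1 h3
      rcases (Nat.dvd_prime Nat.prime_two).1 h4 with h5 | h5
      · exact hr.one_lt.ne' h5
      · exact hpr h5.symm
    let _ : Fintype (FFAut.fixed (brE hF)) := Fintype.ofFinite _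
    obtain ⟨h4, h5⟩ := balance_graph hF (F₀ := FFAut.fixed (brE hF)) (ι := (FFAut.fixed (brE hF)).subtype)
      (FFAut.fixed_iff (brE hF)) h20 hn hq (g := g) (by rw [← e]; exact hβp) A hA
    rw [← e] at h4 h5
    rw [h4]
    refine ⟨fun h => absurd rfl h, fun h => ?_⟩
    exfalso
    have h6 := h.2
    rw [Nat.coprime_comm, Nat.prime_two.coprime_iff_not_dvd] at h6
    exact h6 h5
  · have hodd := hp.odd_of_ne_two hp2
    obtain ⟨q₀, hq₀, hqq⟩ := exists_fixed hF hr hp hodd h3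
    let _ : Fintype (FFAut.fixed σ) := Fintype.ofFinite _
    have hF₀ : Fintype.card (FFAut.fixed σ) = q₀ ^ 2 := by rw [← hq₀, Nat.card_eq_fintype_card]
    have hpow : ∀ x : FFAut.fixed σ, x ^ q = x ^ q₀ := fun x => by rw [hqq, pow_eq_of_odd hF₀ hodd]
    have hchar : CharP (FFAut.fixed σ) r := (FFAut.fixed σ).subtype.charP (FFAut.fixed σ).subtype.injective r
    obtain ⟨h, hh⟩ := PSUAut.exists_conj_fd hF hF₀ hn h3 hodd (FFAut.fixed_iff σ) hpow g (by rw [← e]; exact hβp)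
    rw [local_balance_fd hF hF₀ (ι := (FFAut.fixed σ).subtype) hpow hn hq hr hp hpr h3 (FFAut.fixed_iff σ) A hA (dg h) (by rw [e, hh])]
    exact ⟨fun hc => ⟨hex, hc⟩, fun hc => hc.2⟩

end Cfsg.Agent.Lib.PSUBal
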