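import Cfsg.Agent.Lib.PU3c
import Cfsg.Agent.Lib.MobPGL

/-!
# The action on a hyperbolic line (helper66)
-/

set_option autoImplicit false
set_option linter.unusedSectionVars false

namespace Cfsg.Agent.Lib.PU3

open Subgroup Matrix Cfsg Cfsg.Agent.Lib.ClUnitary Cfsg.Agent.Lib.HermMat Cfsg.Agent.Lib.SylU3
open Cfsg.Agent.Lib.SU3Gen (UJ mx mx_mul mx_one mx_inj mul_vec3 X Y T W mx_X mx_Y mx_T mx_W mul3 exists_X exists_upper
  X_congr X_mul X_one X_inv X_conj T_conj)
open Cfsg.Agent.Lib.IsoRk1 (U1 mem_U1 X_mem_U1 eq_X norm_U1 co_mul co_inv W_e1 X_e3 inv_vec bruhatU line_of_comm T_e1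
  card_U1 card_UJ)
open Cfsg.Agent.Lib.MobCount Cfsg.Agent.Lib.ClProjLine
open scoped LinearAlgebra.Projectivization MatrixGroups

section psi

variable {F : Type*} [Field F] {σ : F →+* F} {K : Type*} [Field K] (ι : F →+* K)

theorem blk_det {g : UJ σ} (hg : g ∈ Ns σ) : (!![ι (mx g 0 0), ι (mx g 0 2); ι (mx g 2 0), ι (mx g 2 2)]).det ≠ 0 := by
  obtain ⟨h11, h01, h21, h10, h12⟩ := Ns_shape hg
  have hd : (mx g).det = 1 := g.1.2
  rw [det_fin_three, h01, h21, h10, h12] at hd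
  rw [det_fin_two_of, ← map_mul, ← map_mul, ← map_sub]
  intro h0
  have h1 : mx g 0 0 * mx g 2 2 - mx g 0 2 * mx g 2 0 = 0 := (map_eq_zero ι).1 h0
  have h2 : (mx g 0 0 * mx g 2 2 - mx g 0 2 * mx g 2 0) * mx g 1 1 = 1 := by linear_combination hd
  rw [h1, zero_mul] at h2
  exact zero_ne_one h2

/-- the action on the hyperbolic line, linear form -/
noncomputable def blk : ↥(Ns σ) →* GL (Fin 2) K where
  toFun g := GeneralLinearGroup.mkOfDetNeZero _ (blk_det ι g.2)
  map_one' := by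
    apply Units.ext
    change !![ι (mx (1 : UJ σ) 0 0), ι (mx (1 : UJ σ) 0 2); ι (mx (1 : UJ σ) 2 0), ι (mx (1 : UJ σ) 2 2)] = 1
    rw [mx_one]
    ext i j; fin_cases i <;> fin_cases j <;> simp
  map_mul' g h := by
    obtain ⟨h11, h01, h21, h10, h12⟩ := Ns_shape g.2
    apply Units.ext
    change !![ι (mx (g.1 * h.1) 0 0), ι (mx (g.1 * h.1) 0 2); ι (mx (g.1 * h.1) 2 0), ι (mx (g.1 * h.1) 2 2)] =
      !![ι (mx g.1 0 0), ι (mx g.1 0 2); ι (mx g.1 2 0), ι (mx g.1 2 2)] *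
      !![ι (mx h.1 0 0), ι (mx h.1 0 2); ι (mx h.1 2 0), ι (mx h.1 2 2)]
    rw [mx_mul]
    ext i j; fin_cases i <;> fin_cases j <;>
      simp [Matrix.mul_apply, Fin.sum_univ_three, Fin.sum_univ_two, h01, h21]

theorem blk_val (g : ↥(Ns σ)) : ((blk ι g : GL (Fin 2) K) : Matrix (Fin 2) (Fin 2) K) =
  !![ι (mx g.1 0 0), ι (mx g.1 0 2); ι (mx g.1 2 0), ι (mx g.1 2 2)] := rfl

/-- the action on the hyperbolic line -/
noncomputable def psi : ↥(Ns σ) →* PGL(Fin 2, K) := (Matrix.ProjGenLinGroup.mk).comp (blk ι)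

theorem psi_smul (g : ↥(Ns σ)) (x : ℙ K (Fin 2 → K)) : psi ι g • x = blk ι g • x := mk_smul_eq _ _

theorem psi_eq_one {g : ↥(Ns σ)} : psi ι g = 1 ↔ mx g.1 0 2 = 0 ∧ mx g.1 2 0 = 0 ∧ mx g.1 0 0 = mx g.1 2 2 := by
  change Matrix.ProjGenLinGroup.mk (blk ι g) = 1 ↔ _
  rw [Matrix.ProjGenLinGroup.mk_eq_one, Matrix.GeneralLinearGroup.center_eq_range_scalar]
  constructor
  · rintro ⟨u, hu⟩
    have h1 := congrArg (fun z : GL (Fin 2) K => (z : Matrix (Fin 2) (Fin 2) K)) hu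
    simp only [blk_val] at h1
    have h00 := congrFun (congrFun h1 0) 0
    have h01 := congrFun (congrFun h1 0) 1
    have h10 := congrFun (congrFun h1 1) 0
    have h11 := congrFun (congrFun h1 1) 1
    simp at h00 h01 h10 h11
    refine ⟨(map_eq_zero ι).1 h01.symm, (map_eq_zero ι).1 h10.symm, ι.injective ?_⟩
    rw [← h00, ← h11]
  · rintro ⟨h1, h2, h3⟩
    have h0 : ι (mx g.1 0 0) ≠ 0 := by
      intro h
      have := blk_det ι g.2
      rw [det_fin_two_of, h, h2] at this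
      simp at this
    refine ⟨Units.mk0 _ h0, ?_⟩
    apply Units.ext
    rw [blk_val, h1, h2, ← h3]
    ext i j; fin_cases i <;> fin_cases j <;> simp

theorem psi_e0 (g : ↥(Ns σ)) : psi ι g • e0 K = Projectivization.mk K ![ι (mx g.1 0 0), ι (mx g.1 2 0)] (by
    intro h
    have h0 := congrFun h 0
    have h1 := congrFun h 1
    simp only [cons_val_zero, cons_val_one] at h0 h1
    have := blk_det ι g.2
    rw [det_fin_two_of, h0, h1] at this
    simp at this) := by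
  rw [psi_smul, e0, smul_mk_GL, Projectivization.mk_eq_mk_iff']
  refine ⟨1, ?_⟩
  rw [blk_val]
  ext i; fin_cases i <;> simp [mulVec, dotProduct, Fin.sum_univ_two]

theorem psi_fix_iff {g : ↥(Ns σ)} : psi ι g • e0 K = e0 K ↔ g.1 ∈ Bo σ := by
  rw [psi_e0, e0, Projectivization.mk_eq_mk_iff']
  constructor
  · rintro ⟨a, ha⟩
    have h1 := congrFun ha 1
    simp at h1
    obtain ⟨h11, h01, h21, h10, h12⟩ := Ns_shape g.2
    have h2 : mx g.1 2 0 = 0 := (map_eq_zero ι).1 h1.symm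
    refine ⟨mx g.1 0 0, ?_, ?_⟩
    · intro h
      have := blk_det ι g.2
      rw [det_fin_two_of, h, h2] at this
      simp at this
    · rw [mul_vec3, h10, h2]; simp
  · intro h
    have h1 := congrFun (Bo_col h) 2
    rw [mul_vec3] at h1
    simp at h1
    refine ⟨ι (mx g.1 0 0), ?_⟩
    rw [h1]
    ext i; fin_cases i <;> simp

theorem psi_uni (hσ : ∀ x, σ (σ x) = x) {b : F} (hb : b ≠ 0) (h : b + σ b + 0 * σ 0 = 0) :
    Uni (ℙ K (Fin 2 → K)) (psi ι ⟨X hσ 0 b h, X0_mem_Ns hσ h⟩) := by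
  refine ⟨?_, e0 K, ?_, ?_⟩
  · intro e
    rw [psi_eq_one] at e
    exact hb e.1
  · rw [psi_fix_iff]; exact X_mem_Bo hσ h
  · intro y hy
    induction y using Projectivization.ind with
    | _ v hv =>
      rw [psi_smul, smul_mk_GL, Projectivization.mk_eq_mk_iff'] at hy
      obtain ⟨a, ha⟩ := hy
      rw [blk_val] at ha
      have h0 := congrFun ha 0
      have h1 := congrFun ha 1
      simp [mulVec, dotProduct, Fin.sum_univ_two, mx_X] at h0 h1
      have hb' : ι b ≠ 0 := (map_ne_zero ι).2 hb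
      have hv1 : v 1 = 0 := by
        by_contra hv1
        have ha1 : a = 1 := mul_right_cancel₀ hv1 (by rw [h1, one_mul])
        rw [ha1, one_mul] at h0
        have : ι b * v 1 = 0 := by linear_combination -h0
        exact hv1 ((mul_eq_zero.1 this).resolve_left hb')
      rw [e0, Projectivization.mk_eq_mk_iff']
      refine ⟨v 0, ?_⟩
      ext i; fin_cases i <;> simp [hv1]

end psi

end Cfsg.Agent.Lib.PU3
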