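import Cfsg.Agent.Lib.PU3d

/-!
# Transitivity on hyperbolic lines and the classification of the induced groups (helper66)
-/

set_option autoImplicit false
set_option linter.unusedSectionVars false

namespace Cfsg.Agent.Lib.PU3

open Subgroup Matrix Cfsg Cfsg.Agent.Lib.ClUnitary Cfsg.Agent.Lib.HermMat Cfsg.Agent.Lib.SylU3
open Cfsg.Agent.Lib.SU3Gen (UJ mx mx_mul mx_one mx_inj mul_vec3 X Y T W mx_X mx_Y mx_T mx_W mul3 exists_X exists_upper
  X_congr X_mul X_one X_inv X_conj T_conj)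
open Cfsg.Agent.Lib.IsoRk1 (U1 mem_U1 X_mem_U1 eq_X norm_U1 co_mul co_inv W_e1 X_e3 inv_vec bruhatU line_of_comm T_e1
  card_U1 card_UJ)
open Cfsg.Agent.Lib.MobCount Cfsg.Agent.Lib.ClProjLine
open scoped LinearAlgebra.Projectivization MatrixGroups

/-- transitivity on the hyperbolic line -/
def TrN {F : Type*} [Field F] {σ : F →+* F} (N : Subgroup (UJ σ)) : Prop :=
  ∀ n ∈ Ns σ, ∃ m ∈ N, ∃ b ∈ Ns σ ⊓ Bo σ, n = m * b

theorem conj_Zo {F : Type*} [Field F] {σ : F →+* F} (hσ : ∀ x, σ (σ x) = x) {g z : UJ σ} (hg : g ∈ Bo σ) (hz : z ∈ Zo σ) :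
    g * z * g⁻¹ ∈ Zo σ := by
  obtain ⟨b, h, rfl⟩ := exists_Z hσ hz
  obtain ⟨a', b', h', e⟩ := exists_XT hσ hg
  obtain ⟨h2, e2⟩ := T_conj hσ (Bo_ne hg) h
  obtain ⟨h3, e3⟩ := X_conj hσ h' h2
  have e4 : g * X hσ 0 b h * g⁻¹ = X hσ a' b' h' * (T hσ (mx g 0 0) (Bo_ne hg) * X hσ 0 b h *
      (T hσ (mx g 0 0) (Bo_ne hg))⁻¹) * (X hσ a' b' h')⁻¹ := by
    conv_lhs => rw [e]
    group
  rw [e4, e2, e3]
  exact ⟨X_mem_U1 hσ h3, by rw [mx_X]; simp⟩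

section fin

variable {F : Type*} [Field F] [Fintype F] {q : ℕ} (hF : Fintype.card F = q ^ 2)

theorem TrN.card {N : Subgroup (UJ (frob hF))} (hN : N ≤ Ns (frob hF)) (hT : TrN N) :
    Nat.card N = (q + 1) * Nat.card (N ⊓ Bo (frob hF) : Subgroup (UJ (frob hF))) := by
  have h1 := card_mul_of_prod hN (inf_le_left : Ns (frob hF) ⊓ Bo (frob hF) ≤ Ns (frob hF)) hT
  have h2 : N ⊓ (Ns (frob hF) ⊓ Bo (frob hF)) = N ⊓ Bo (frob hF) := by
    rw [← inf_assoc, inf_eq_left.2 hN]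
  rw [h2, card_Ns hF, card_BN hF] at h1
  have hq := two_le_q hF
  have h3 : 0 < q * (q ^ 2 - 1) := by
    have : 1 < q ^ 2 := by nlinarith
    have : 0 < q ^ 2 - 1 := by omega
    positivity
  have h4 : (q * (q ^ 2 - 1)) * ((q + 1) * Nat.card (N ⊓ Bo (frob hF) : Subgroup (UJ (frob hF)))) =
      (q * (q ^ 2 - 1)) * Nat.card N := by
    rw [mul_comm _ (Nat.card N), ← h1]; ring
  exact (Nat.eq_of_mul_eq_mul_left h3 h4).symm

variable {K : Type*} [Field K] (ι : F →+* K)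

/-- the group induced on the line -/
noncomputable def psiH (H : Subgroup (UJ (frob hF))) : ↥(H ⊓ Ns (frob hF)) →* PGL(Fin 2, K) :=
  (psi ι).comp (Subgroup.inclusion inf_le_right)

/-- the group induced on the line -/
noncomputable def XX (H : Subgroup (UJ (frob hF))) : Subgroup (PGL(Fin 2, K)) := (psiH hF ι H).range

theorem mem_XX {H : Subgroup (UJ (frob hF))} {γ : PGL(Fin 2, K)} :
    γ ∈ XX hF ι H ↔ ∃ m ∈ H, ∃ hm : m ∈ Ns (frob hF), psi ι ⟨m, hm⟩ = γ := by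
  constructor
  · rintro ⟨m, rfl⟩
    exact ⟨m.1, (Subgroup.mem_inf.1 m.2).1, (Subgroup.mem_inf.1 m.2).2, rfl⟩
  · rintro ⟨m, hm, hm', rfl⟩
    exact ⟨⟨m, Subgroup.mem_inf.2 ⟨hm, hm'⟩⟩, rfl⟩

instance finiteXX (H : Subgroup (UJ (frob hF))) : Finite (XX hF ι H) :=
  Set.finite_range (psiH hF ι H)

theorem card_XX (H : Subgroup (UJ (frob hF))) :
    Nat.card (H ⊓ Ns (frob hF) : Subgroup (UJ (frob hF))) = Nat.card (XX hF ι H) * Nat.card (psiH hF ι H).ker :=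
  card_ker_range _

/-- the orbit of the first point -/
theorem card_orbit {H : Subgroup (UJ (frob hF))} (hT : TrN (H ⊓ Ns (frob hF))) :
    Nat.card (MulAction.orbit (XX hF ι H) (e0 K)) = q + 1 := by
  letI act : MulAction ↥(H ⊓ Ns (frob hF)) (ℙ K (Fin 2 → K)) := MulAction.compHom _ (psiH hF ι H)
  have h1 : MulAction.orbit (XX hF ι H) (e0 K) = MulAction.orbit ↥(H ⊓ Ns (frob hF)) (e0 K) := by
    ext x
    constructor
    · rintro ⟨⟨γ, m, rfl⟩, rfl⟩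
      exact ⟨m, rfl⟩
    · rintro ⟨m, rfl⟩
      exact ⟨⟨psiH hF ι H m, m, rfl⟩, rfl⟩
  rw [h1]
  have h2 := card_orbit_mul_card_stab (G := ↥(H ⊓ Ns (frob hF))) (e0 K)
  have h3 : Nat.card (MulAction.stabilizer ↥(H ⊓ Ns (frob hF)) (e0 K)) =
      Nat.card (H ⊓ Ns (frob hF) ⊓ Bo (frob hF) : Subgroup (UJ (frob hF))) := by
    have hst : ∀ m : ↥(H ⊓ Ns (frob hF)), m ∈ MulAction.stabilizer ↥(H ⊓ Ns (frob hF)) (e0 K) ↔ m.1 ∈ Bo (frob hF) := by
      intro m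
      rw [MulAction.mem_stabilizer_iff]
      exact psi_fix_iff ι (g := ⟨m.1, (Subgroup.mem_inf.1 m.2).2⟩)
    refine Nat.card_congr
      { toFun := fun m => ⟨m.1.1, Subgroup.mem_inf.2 ⟨m.1.2, (hst m.1).1 m.2⟩⟩
        invFun := fun m => ⟨⟨m.1, (Subgroup.mem_inf.1 m.2).1⟩, (hst _).2 (Subgroup.mem_inf.1 m.2).2⟩
        left_inv := fun m => rfl
        right_inv := fun m => rfl }
  rw [h3, TrN.card hF inf_le_right hT] at h2
  exact Nat.eq_of_mul_eq_mul_right Nat.card_pos h2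

variable {p : ℕ} [hp : Fact p.Prime] [CharP K p] [IsAlgClosed K]

/-- the group induced on the line is of Moebius type -/
theorem mobX (H : Subgroup (UJ (frob hF))) : MobLike K p (XX hF ι H) (ℙ K (Fin 2 → K)) :=
  (mobLike_PGL p).subgroup _

theorem UU_e0_ne {H : Subgroup (UJ (frob hF))} (hTr : Tr H) (hZ : H ⊓ Zo (frob hF) ≠ ⊥) (n : ↥(Ns (frob hF))) :
    UU (mobX hF ι (p := p) H) (psi ι n • e0 K) ≠ ⊥ := by
  have hσ := frob_frob hF
  obtain ⟨z, hz, hz1⟩ := (Subgroup.bot_or_exists_ne_one _).resolve_left hZ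
  have hzH := (Subgroup.mem_inf.1 hz).1
  have hzZ := (Subgroup.mem_inf.1 hz).2
  obtain ⟨h, hh, b, hb, e⟩ := hTr n.1
  have hz' : b⁻¹ * z * b ∈ Zo (frob hF) := by
    have := conj_Zo hσ (inv_mem hb) hzZ
    rwa [inv_inv] at this
  obtain ⟨b0, h0, e0'⟩ := exists_Z hσ hz'
  have hw : h * z * h⁻¹ = n.1 * (b⁻¹ * z * b) * n.1⁻¹ := by rw [e]; group
  have hwN : h * z * h⁻¹ ∈ Ns (frob hF) := by
    rw [hw]; exact mul_mem (mul_mem n.2 (Zo_le_Ns hσ hz')) (inv_mem n.2)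
  have hwH : h * z * h⁻¹ ∈ H := mul_mem (mul_mem hh hzH) (inv_mem hh)
  have hb0 : b0 ≠ 0 := by
    rintro rfl
    apply hz1
    have h1 : b⁻¹ * z * b = 1 := by
      rw [e0']; exact X_one hσ
    have h2 : z = b * (b⁻¹ * z * b) * b⁻¹ := by group
    rw [h2, h1]; group
  have hpsi : psi ι ⟨h * z * h⁻¹, hwN⟩ = psi ι n * psi ι ⟨X hσ 0 b0 h0, X0_mem_Ns hσ h0⟩ * (psi ι n)⁻¹ := by
    rw [← map_inv, ← map_mul, ← map_mul]
    congr 1
    apply Subtype.ext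
    show h * z * h⁻¹ = n.1 * X hσ 0 b0 h0 * n.1⁻¹
    rw [hw, e0']
  have huni := psi_uni ι hσ hb0 h0
  have huni2 := uni_conj (psi ι n) _ huni
  rw [← hpsi] at huni2
  have hmem : psi ι ⟨h * z * h⁻¹, hwN⟩ ∈ XX hF ι H := (mem_XX hF ι).2 ⟨_, hwH, hwN, rfl⟩
  have hfix : psi ι ⟨h * z * h⁻¹, hwN⟩ • (psi ι n • e0 K) = psi ι n • e0 K := by
    rw [hpsi, mul_smul, mul_smul, inv_smul_smul]
    congr 1
    rw [psi_fix_iff]; exact X_mem_Bo hσ h0
  intro hbot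
  have h3 : (⟨psi ι ⟨h * z * h⁻¹, hwN⟩, hmem⟩ : XX hF ι H) ∈ UU (mobX hF ι (p := p) H) (psi ι n • e0 K) := by
    apply mem_UU_of_uni
    · exact (uni_subgroup (XX hF ι H) ⟨psi ι ⟨h * z * h⁻¹, hwN⟩, hmem⟩).2 huni2
    · exact hfix
  rw [hbot, Subgroup.mem_bot] at h3
  exact huni2.1 (congrArg Subtype.val h3)

theorem TrN_of_Z {H : Subgroup (UJ (frob hF))} (hTr : Tr H) (hZ : H ⊓ Zo (frob hF) ≠ ⊥) : TrN (H ⊓ Ns (frob hF)) := by
  obtain ⟨p, e, hp, hc, hq, he⟩ := exists_char hF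
  have := Fact.mk hp
  have hcK : CharP (AlgebraicClosure F) p := charP_of_injective_algebraMap (algebraMap F (AlgebraicClosure F)).injective p
  intro n hn
  have h1 := UU_e0_ne hF (algebraMap F (AlgebraicClosure F)) (p := p) hTr hZ ⟨n, hn⟩
  have h2 := UU_e0_ne hF (algebraMap F (AlgebraicClosure F)) (p := p) hTr hZ 1
  rw [map_one, one_smul] at h2
  obtain ⟨⟨γ, hγ⟩, h3⟩ := (mobX hF (algebraMap F (AlgebraicClosure F)) (p := p) H).uni_orbit _ _ h2 h1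
  obtain ⟨m, hmH, hmN, rfl⟩ := (mem_XX hF _).1 hγ
  have h4 : psi (algebraMap F (AlgebraicClosure F)) ⟨m, hmN⟩ • e0 (AlgebraicClosure F) =
    psi (algebraMap F (AlgebraicClosure F)) ⟨n, hn⟩ • e0 (AlgebraicClosure F) := h3
  have h5 : psi (algebraMap F (AlgebraicClosure F)) (⟨m, hmN⟩⁻¹ * ⟨n, hn⟩) • e0 (AlgebraicClosure F) = e0 (AlgebraicClosure F) := by
    rw [map_mul, map_inv, mul_smul, ← h4, inv_smul_smul]
  rw [psi_fix_iff] at h5
  have h6 : m⁻¹ * n ∈ Bo (frob hF) := h5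
  exact ⟨m, Subgroup.mem_inf.2 ⟨hmH, hmN⟩, m⁻¹ * n, Subgroup.mem_inf.2 ⟨mul_mem (inv_mem hmN) hn, h6⟩, by group⟩

/-- the unipotent group of the first point -/
theorem card_UU_e0 {H : Subgroup (UJ (frob hF))} (hpq : p ∣ q) :
    Nat.card (UU (mobX hF ι (p := p) H) (e0 K)) = Nat.card (H ⊓ Zo (frob hF) : Subgroup (UJ (frob hF))) := by
  have hσ := frob_frob hF
  have hq := two_le_q hF
  apply le_antisymm
  · -- every element comes from `H ∩ Z`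
    have key : ∀ γ : UU (mobX hF ι (p := p) H) (e0 K), ∃ z : (H ⊓ Zo (frob hF) : Subgroup (UJ (frob hF))),
        psi ι ⟨z.1, Zo_le_Ns hσ (Subgroup.mem_inf.1 z.2).2⟩ = γ.1.1 := by
      rintro ⟨⟨γ, hγ⟩, hγU⟩
      obtain ⟨m, hmH, hmN, rfl⟩ := (mem_XX hF _).1 hγ
      have h1 := UU_pow _ _ _ hγU
      have h2 := UU_le_stab _ _ hγU
      rw [MulAction.mem_stabilizer_iff] at h2
      have h3 : psi ι ⟨m, hmN⟩ • e0 K = e0 K := h2
      rw [psi_fix_iff] at h3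
      have h3' : m ∈ Bo (frob hF) := h3
      have h4 : (psi ι ⟨m, hmN⟩) ^ p = 1 := congrArg Subtype.val h1
      set k := (q ^ 2 - 1) * (p - 1) with hk
      have h5 : (psi ι ⟨m, hmN⟩) ^ k = psi ι ⟨m, hmN⟩ := by
        have hp2 := hp.out.two_le
        have h6 : k ≡ 1 [MOD p] := by
          obtain ⟨c, hc⟩ := hpq
          have hq2 : 1 ≤ q ^ 2 := Nat.one_le_pow _ _ (by omega)
          have hz : (k : ℤ) = 1 + p * (c ^ 2 * p * (p - 1) - 1) := by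
            rw [hk]; push_cast [hq2, (by omega : 1 ≤ p)]
            rw [hc]; push_cast; ring
          have h7 : (k : ℤ) ≡ ((1 : ℕ) : ℤ) [ZMOD (p : ℤ)] := by
            rw [hz]; push_cast
            exact (Int.modEq_iff_dvd.2 ⟨c ^ 2 * p * (p - 1) - 1, by ring⟩).symm
          exact (Int.natCast_modEq_iff).1 h7
        have h8 : (psi ι ⟨m, hmN⟩) ^ k = (psi ι ⟨m, hmN⟩) ^ 1 := by
          rw [pow_eq_pow_iff_modEq]
          exact h6.of_dvd (orderOf_dvd_of_pow_eq_one h4)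
        rw [h8, pow_one]
      have h6 : m ^ k ∈ U1 (frob hF) := by
        rw [mem_U1_iff (pow_mem h3' k)]
        have h7 : mx (m ^ k) 0 0 = (mx m 0 0) ^ k := by
          have := congrArg (fun u : Fˣ => (u : F)) (map_pow (tau (frob hF)) ⟨m, h3'⟩ k)
          simp only [Units.val_pow_eq_pow_val] at this
          exact this
        rw [h7, hk, pow_mul]
        have h8 : (mx m 0 0) ^ (q ^ 2 - 1) = 1 := by
          rw [← hF]; exact FiniteField.pow_card_sub_one_eq_one _ (Bo_ne h3')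
        rw [h8, one_pow]
      refine ⟨⟨m ^ k, Subgroup.mem_inf.2 ⟨pow_mem hmH k, U1_inf_Ns hσ h6 (pow_mem hmN k)⟩⟩, ?_⟩
      show psi ι ⟨m ^ k, _⟩ = psi ι ⟨m, hmN⟩
      rw [← h5, ← map_pow]
      rfl
    choose f hf using key
    refine Nat.card_le_card_of_injective f ?_
    intro γ γ' h
    apply Subtype.ext
    apply Subtype.ext
    rw [← hf γ, ← hf γ', h]
  · refine Nat.card_le_card_of_injective (fun z => (⟨⟨psi ι ⟨z.1, Zo_le_Ns hσ (Subgroup.mem_inf.1 z.2).2⟩,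
      (mem_XX hF ι).2 ⟨z.1, (Subgroup.mem_inf.1 z.2).1, _, rfl⟩⟩, ?_⟩ : UU (mobX hF ι (p := p) H) (e0 K))) ?_
    · obtain ⟨b, h, e⟩ := exists_Z hσ (Subgroup.mem_inf.1 z.2).2
      by_cases hb : b = 0
      · subst hb
        have h1 : z.1 = 1 := by rw [e]; exact X_one hσ
        have h2 : (⟨psi ι ⟨z.1, Zo_le_Ns hσ (Subgroup.mem_inf.1 z.2).2⟩,
          (mem_XX hF ι).2 ⟨z.1, (Subgroup.mem_inf.1 z.2).1, _, rfl⟩⟩ : XX hF ι H) = 1 := by
          apply Subtype.ext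
          have h3 : (⟨z.1, Zo_le_Ns hσ (Subgroup.mem_inf.1 z.2).2⟩ : ↥(Ns (frob hF))) = 1 := Subtype.ext h1
          show psi ι ⟨z.1, _⟩ = 1
          rw [h3, map_one]
        rw [h2]
        exact one_mem _
      · apply mem_UU_of_uni
        · rw [uni_subgroup]
          have h3 : (⟨z.1, Zo_le_Ns hσ (Subgroup.mem_inf.1 z.2).2⟩ : ↥(Ns (frob hF))) = ⟨X hσ 0 b h, X0_mem_Ns hσ h⟩ :=
            Subtype.ext e
          show Uni _ (psi ι ⟨z.1, _⟩)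
          rw [h3]
          exact psi_uni ι hσ hb h
        · show psi ι ⟨z.1, _⟩ • e0 K = e0 K
          rw [psi_fix_iff]
          exact U1_le_Bo (Subgroup.mem_inf.1 z.2).2.1
    · intro z z' h
      have h1 : psi ι ⟨z.1, Zo_le_Ns hσ (Subgroup.mem_inf.1 z.2).2⟩ = psi ι ⟨z'.1, Zo_le_Ns hσ (Subgroup.mem_inf.1 z'.2).2⟩ :=
        congrArg (fun w : UU (mobX hF ι (p := p) H) (e0 K) => (w.1.1 : PGL(Fin 2, K))) h
      have h2 : psi ι (⟨z.1, Zo_le_Ns hσ (Subgroup.mem_inf.1 z.2).2⟩⁻¹ * ⟨z'.1, Zo_le_Ns hσ (Subgroup.mem_inf.1 z'.2).2⟩) = 1 := by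
        rw [map_mul, map_inv, h1, inv_mul_cancel]
      rw [psi_eq_one] at h2
      have h3 : z.1⁻¹ * z'.1 ∈ Zo (frob hF) := mul_mem (inv_mem (Subgroup.mem_inf.1 z.2).2) (Subgroup.mem_inf.1 z'.2).2
      obtain ⟨b, hb, e⟩ := exists_Z hσ h3
      have h4 : b = 0 := by
        have h5 : mx (z.1⁻¹ * z'.1) 0 2 = 0 := h2.1
        rw [e, mx_X] at h5
        simpa using h5
      subst h4
      have h6 : z.1⁻¹ * z'.1 = 1 := by rw [e]; exact X_one hσ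
      exact Subtype.ext (inv_mul_eq_one.1 h6)

end fin

end Cfsg.Agent.Lib.PU3
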