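import Cfsg.Agent.Lib.PU3e

/-!
# Classification of the groups induced on a hyperbolic line (helper66)
-/

set_option autoImplicit false
set_option linter.unusedSectionVars false

namespace Cfsg.Agent.Lib.PU3

open Subgroup Matrix Cfsg Cfsg.Agent.Lib.ClUnitary Cfsg.Agent.Lib.HermMat Cfsg.Agent.Lib.SylU3
open Cfsg.Agent.Lib.SU3Gen (UJ mx mx_mul mx_one mx_inj mul_vec3 X Y T W mx_X mx_Y mx_T mx_W mul3 exists_X exists_upper
  X_congr X_mul X_one X_inv X_conj T_conj)
open Cfsg.Agent.Lib.IsoRk1 (U1 mem_U1 X_mem_U1 eq_X norm_U1 co_mul co_inv W_e1 X_e3 inv_vec bruhatU line_of_comm T_e1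
  card_U1 card_UJ)
open Cfsg.Agent.Lib.MobCount Cfsg.Agent.Lib.ClProjLine
open scoped LinearAlgebra.Projectivization MatrixGroups

section fin

variable {F : Type*} [Field F] [Fintype F] {q : ℕ} (hF : Fintype.card F = q ^ 2)
variable {K : Type*} [Field K] (ι : F →+* K)
variable {p : ℕ} [hp : Fact p.Prime] [CharP K p] [IsAlgClosed K]

/-- the possible sizes of the transvection groups -/
theorem dick_Z {H : Subgroup (UJ (frob hF))} (hTr : Tr H) (hZ : H ⊓ Zo (frob hF) ≠ ⊥) {f : ℕ} (hqp : q = p ^ f)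
    (hq3 : 3 ≤ q) :
    Nat.card (H ⊓ Zo (frob hF) : Subgroup (UJ (frob hF))) = q ∨
    (p = 2 ∧ Nat.card (H ⊓ Zo (frob hF) : Subgroup (UJ (frob hF))) = 2) ∨
    (q = 9 ∧ Nat.card (H ⊓ Zo (frob hF) : Subgroup (UJ (frob hF))) = 3 ∧ Nat.card (XX hF ι H) = 60 ∧
      IsSimpleGroup (XX hF ι H)) := by
  have hf0 : f ≠ 0 := by rintro rfl; rw [pow_zero] at hqp; omega
  have hpq : p ∣ q := by rw [hqp]; exact dvd_pow_self p hf0
  have hTN := TrN_of_Z hF hTr hZ
  have horb := card_orbit hF ι hTN
  have hcU := card_UU_e0 hF ι (p := p) (H := H) hpq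
  have hM := mobX hF ι (p := p) H
  have hne : UU (mobX hF ι (p := p) H) (e0 K) ≠ ⊥ := by
    have := UU_e0_ne hF ι (p := p) hTr hZ 1
    rwa [map_one, one_smul] at this
  have hpow := (mobX hF ι (p := p) H).card_UU _ hne
  have h1lt : 1 < Nat.card (UU (mobX hF ι (p := p) H) (e0 K)) := (Subgroup.one_lt_card_iff_ne_bot _).2 hne
  have hpX : p ∣ Nat.card (XX hF ι H) := by
    by_contra h
    rw [Nat.factorization_eq_zero_of_not_dvd h, pow_zero] at hpow
    omega
  rcases (mobX hF ι (p := p) H).classify with ⟨h, _⟩ | ⟨x, hx⟩ | ⟨h, _⟩ | ⟨h, _⟩ | ⟨h, h60, hs⟩ | ⟨x, hx, hfix⟩ | ⟨x, hx, ho⟩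
  · exact absurd hpX h
  · right; left
    have hkey : ∀ γ ∈ UU (mobX hF ι (p := p) H) (e0 K), γ ≠ 1 → γ • x ≠ x := by
      intro γ hγ hγ1 hfx
      have h1 := UU_fix _ _ _ hγ hγ1 _ hfx
      rw [h1, horb] at hx
      omega
    have hc2 : Nat.card (UU (mobX hF ι (p := p) H) (e0 K)) = 2 := by
      obtain ⟨γ, hγ, hγ1⟩ := (Subgroup.bot_or_exists_ne_one _).resolve_left hne
      rw [Nat.card_eq_two_iff]
      refine ⟨1, ⟨γ, hγ⟩, fun e => hγ1 (congrArg Subtype.val e).symm, ?_⟩
      rw [Set.eq_univ_iff_forall]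
      rintro ⟨δ, hδ⟩
      by_cases hδ1 : δ = 1
      · left; exact Subtype.ext hδ1
      · right
        obtain ⟨y, z, hyz, hall⟩ := Nat.card_eq_two_iff.1 hx
        have m1 : (⟨x, MulAction.mem_orbit_self x⟩ : MulAction.orbit (XX hF ι H) x) ∈ ({y, z} : Set _) := by
          rw [hall]; trivial
        have m2 : (⟨γ • x, MulAction.mem_orbit x γ⟩ : MulAction.orbit (XX hF ι H) x) ∈ ({y, z} : Set _) := by
          rw [hall]; trivial
        have m3 : (⟨δ • x, MulAction.mem_orbit x δ⟩ : MulAction.orbit (XX hF ι H) x) ∈ ({y, z} : Set _) := by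
          rw [hall]; trivial
        have n1 : (⟨γ • x, MulAction.mem_orbit x γ⟩ : MulAction.orbit (XX hF ι H) x) ≠ ⟨x, MulAction.mem_orbit_self x⟩ :=
          fun e => hkey γ hγ hγ1 (congrArg Subtype.val e)
        have n2 : (⟨δ • x, MulAction.mem_orbit x δ⟩ : MulAction.orbit (XX hF ι H) x) ≠ ⟨x, MulAction.mem_orbit_self x⟩ :=
          fun e => hkey δ hδ hδ1 (congrArg Subtype.val e)
        have e1 : (⟨δ • x, MulAction.mem_orbit x δ⟩ : MulAction.orbit (XX hF ι H) x) = ⟨γ • x, MulAction.mem_orbit x γ⟩ := by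
          simp only [Set.mem_insert_iff, Set.mem_singleton_iff] at m1 m2 m3
          rcases m1 with m1 | m1 <;> rcases m2 with m2 | m2 <;> rcases m3 with m3 | m3 <;>
            first
            | exact absurd (m2.trans m1.symm) n1
            | exact absurd (m3.trans m1.symm) n2
            | exact m3.trans m2.symm
        have e2 : δ • x = γ • x := congrArg Subtype.val e1
        have e3 : (γ⁻¹ * δ) • x = x := by rw [mul_smul, e2, inv_smul_smul]
        have e4 : γ⁻¹ * δ = 1 := by
          by_contra h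
          exact hkey _ (mul_mem (inv_mem hγ) hδ) h e3
        exact Subtype.ext (inv_mul_eq_one.1 e4).symm
    refine ⟨?_, hcU ▸ hc2⟩
    rw [hc2] at hpow
    have h3 : (Nat.card (XX hF ι H)).factorization p ≠ 0 := by
      intro h; rw [h, pow_zero] at hpow; omega
    have h4 : p ∣ 2 := by
      conv_rhs => rw [hpow]
      exact dvd_pow_self p h3
    exact (Nat.prime_dvd_prime_iff_eq hp.out Nat.prime_two).1 h4
  · exact absurd hpX h
  · exact absurd hpX h
  · have hp3 : p = 3 := h.resolve_left (fun hh => hh hpX)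
    subst hp3
    have h3 : Nat.card (UU (mobX hF ι (p := 3) H) (e0 K)) = 3 := by
      rw [hpow, h60]
      have : Nat.factorization 60 3 = 1 := by
        rw [show (60 : ℕ) = 3 ^ 1 * 20 by norm_num, Nat.factorization_mul (by norm_num) (by norm_num),
          Nat.Prime.factorization_pow Nat.prime_three, Finsupp.add_apply,
          Nat.factorization_eq_zero_of_not_dvd (by norm_num : ¬ 3 ∣ 20)]
        simp
      rw [this, pow_one]
    have h5 := card_orbit_mul_card_stab (G := XX hF ι H) (e0 K)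
    rw [horb, h60] at h5
    have h6 : q + 1 ∣ 60 := ⟨_, h5.symm⟩
    have h7 : q ≤ 59 := by have := Nat.le_of_dvd (by norm_num) h6; omega
    have h8 : q = 3 ∨ q = 9 := by
      have hf3 : f ≤ 3 := by
        by_contra hcon
        push Not at hcon
        have h9 : 3 ^ 4 ≤ 3 ^ f := Nat.pow_le_pow_right (by norm_num) hcon
        rw [← hqp] at h9
        omega
      interval_cases f
      · omega
      · left; rw [hqp]; norm_num
      · right; rw [hqp]; norm_num
      · exfalso; rw [hqp] at h6; revert h6; decide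
    rcases h8 with h8 | h8
    · left; rw [← hcU, h3, h8]
    · right; right
      exact ⟨h8, by rw [← hcU, h3], h60, hs⟩
  · exfalso
    obtain ⟨γ, hγ⟩ := (mobX hF ι (p := p) H).uni_orbit _ _ hx hne
    have h1 : e0 K = x := by
      have : γ • x = e0 K := hγ
      rw [← this, hfix γ]
    have h2 : Nat.card (MulAction.orbit (XX hF ι H) (e0 K)) ≤ 1 := by
      rw [h1]
      have : Subsingleton (MulAction.orbit (XX hF ι H) x) := by
        constructor
        rintro ⟨y, g, rfl⟩ ⟨y', g', rfl⟩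
        apply Subtype.ext
        show g • x = g' • x
        rw [hfix, hfix]
      exact Finite.card_le_one_iff_subsingleton.2 this
    omega
  · left
    have h1 := (mobX hF ι (p := p) H).uni_orbit _ _ hx hne
    have h2 : MulAction.orbit (XX hF ι H) (e0 K) = MulAction.orbit (XX hF ι H) x := MulAction.orbit_eq_iff.2 h1
    rw [h2, ho] at horb
    have h3 := (mobX hF ι (p := p) H).card_UU _ hx
    rw [← hcU, hpow, ← h3]
    omega

end fin

end Cfsg.Agent.Lib.PU3
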