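import Cfsg.Agent.Lib.PU3f

/-!
# Involutions and elements of large prime order (helper66)
-/

set_option autoImplicit false
set_option linter.unusedSectionVars false

namespace Cfsg.Agent.Lib.PU3

open Subgroup Matrix Cfsg Cfsg.Agent.Lib.ClUnitary Cfsg.Agent.Lib.HermMat Cfsg.Agent.Lib.SylU3
open Cfsg.Agent.Lib.SU3Gen (UJ mx mx_mul mx_one mx_inj mul_vec3 X Y T W mx_X mx_Y mx_T mx_W mul3 exists_X exists_upper
  X_congr X_mul X_one X_inv X_conj T_conj)
open Cfsg.Agent.Lib.IsoRk1 (U1 mem_U1 X_mem_U1 eq_X norm_U1 co_mul co_inv W_e1 X_e3 inv_vec bruhatU line_of_comm T_e1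
  card_U1 card_UJ)

/-! ### general lemmas -/

theorem conj_of_free {G : Type*} [Group G] {K : Subgroup G} [Finite K] {t : G}
    (ht : ∀ x ∈ K, t * x * t⁻¹ ∈ K)
    (hfree : ∀ x ∈ K, t * x * t⁻¹ = x → x = 1) {x' : G} (hx' : x' ∈ K) : ∃ x ∈ K, x' * t = x * t * x⁻¹ := by
  let f : K → K := fun x => ⟨x.1 * (t * x.1⁻¹ * t⁻¹), mul_mem x.2 (ht _ (inv_mem x.2))⟩
  have hf : Function.Injective f := by
    intro x y h
    have h1 : x.1 * (t * x.1⁻¹ * t⁻¹) = y.1 * (t * y.1⁻¹ * t⁻¹) := congrArg Subtype.val h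
    have h2 : t * (y.1⁻¹ * x.1) * t⁻¹ = y.1⁻¹ * x.1 := by
      have h3 : x.1 * t * x.1⁻¹ = y.1 * t * y.1⁻¹ := by
        calc x.1 * t * x.1⁻¹ = x.1 * (t * x.1⁻¹ * t⁻¹) * t := by group
          _ = y.1 * (t * y.1⁻¹ * t⁻¹) * t := by rw [h1]
          _ = _ := by group
      have h4 : y.1⁻¹ * x.1 * t = t * (y.1⁻¹ * x.1) := by
        calc y.1⁻¹ * x.1 * t = y.1⁻¹ * (x.1 * t * x.1⁻¹) * x.1 := by group
          _ = y.1⁻¹ * (y.1 * t * y.1⁻¹) * x.1 := by rw [h3]
          _ = _ := by group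
      rw [← h4]; group
    have h5 := hfree _ (mul_mem (inv_mem y.2) x.2) h2
    exact Subtype.ext (inv_mul_eq_one.1 h5).symm
  obtain ⟨x, hx⟩ := (Finite.injective_iff_surjective.1 hf) ⟨x', hx'⟩
  refine ⟨x.1, x.2, ?_⟩
  have h1 : x.1 * (t * x.1⁻¹ * t⁻¹) = x' := congrArg Subtype.val hx
  rw [← h1]; group

/-- groups of multipliers act freely -/
theorem card_dvd_sub_one {F : Type*} [Field F] [Finite F] (A : AddSubgroup F) (S : Subgroup Fˣ)
    (h : ∀ s ∈ S, ∀ a ∈ A, (s : F) * a ∈ A) : Nat.card S ∣ Nat.card A - 1 := by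
  classical
  let act : MulAction S {a : A // a ≠ 0} :=
    { smul := fun s a => ⟨⟨(s.1 : F) * a.1.1, h _ s.2 _ a.1.2⟩, fun e =>
        a.2 (Subtype.ext ((mul_eq_zero.1 (congrArg Subtype.val e)).resolve_left s.1.ne_zero))⟩
      one_smul := fun a => by
        apply Subtype.ext; apply Subtype.ext
        show (((1 : S).1 : Fˣ) : F) * a.1.1 = a.1.1
        simp
      mul_smul := fun s t a => by
        apply Subtype.ext; apply Subtype.ext
        show (((s * t : S).1 : Fˣ) : F) * a.1.1 = (s.1 : F) * ((t.1 : F) * a.1.1)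
        simp [mul_assoc] }
  have hst : ∀ b : {a : A // a ≠ 0}, MulAction.stabilizer S b = ⊥ := by
    intro b
    rw [eq_bot_iff]
    intro s hs
    rw [MulAction.mem_stabilizer_iff] at hs
    have h1 : (s.1 : F) * b.1.1 = b.1.1 := congrArg (fun z : {a : A // a ≠ 0} => (z.1.1 : F)) hs
    have h2 : b.1.1 ≠ 0 := fun e => b.2 (Subtype.ext e)
    have h3 : (s.1 : F) = 1 := mul_right_cancel₀ h2 (by rw [h1, one_mul])
    rw [Subgroup.mem_bot]
    exact Subtype.ext (Units.ext h3)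
  have h1 := Nat.card_congr (MulAction.selfEquivOrbitsQuotientProd hst)
  rw [Nat.card_prod] at h1
  have h2 : Nat.card {a : A // a ≠ 0} = Nat.card A - 1 := by
    have := Fintype.ofFinite A
    rw [Nat.card_eq_fintype_card, Nat.card_eq_fintype_card, Fintype.card_subtype_compl, Fintype.card_subtype_eq]
  rw [← h2, h1]
  exact dvd_mul_left _ _

section lin

variable {F : Type*} [Field F] {σ : F →+* F}

/-- hyperplane negated by `t` -/
def Lin (t : UJ σ) : Prop := ∃ f : Fin 3 → F, ∀ u : Fin 3 → F, f ⬝ᵥ u = 0 → mx t *ᵥ u = -u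

theorem mx_mul_inv (y : UJ σ) (v : Fin 3 → F) : mx y *ᵥ (mx y⁻¹ *ᵥ v) = v := by
  rw [mulVec_mulVec, ← mx_mul, mul_inv_cancel, mx_one, one_mulVec]

theorem mx_inv_mul (y : UJ σ) (v : Fin 3 → F) : mx y⁻¹ *ᵥ (mx y *ᵥ v) = v := by
  rw [mulVec_mulVec, ← mx_mul, inv_mul_cancel, mx_one, one_mulVec]

theorem Lin.conj {t : UJ σ} (h : Lin t) (y : UJ σ) : Lin (y * t * y⁻¹) := by
  obtain ⟨f, hf⟩ := h
  refine ⟨f ᵥ* mx y⁻¹, fun u hu => ?_⟩
  rw [← dotProduct_mulVec] at hu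
  rw [mx_mul, mx_mul, ← mulVec_mulVec, ← mulVec_mulVec, hf _ hu, mulVec_neg, mx_mul_inv]

theorem fix_of_Lin {t t' : UJ σ} (h : Lin t) (h' : Lin t') :
    ∃ u : Fin 3 → F, u ≠ 0 ∧ mx t *ᵥ u = -u ∧ mx (t * t') *ᵥ u = u := by
  obtain ⟨f, hf⟩ := h
  obtain ⟨f', hf'⟩ := h'
  have h0 : (Matrix.of ![f, f', 0]).det = 0 := Matrix.det_eq_zero_of_row_eq_zero 2 (by intro j; rfl)
  obtain ⟨u, hu, h1⟩ := (Matrix.exists_mulVec_eq_zero_iff).2 h0
  have e0 : f ⬝ᵥ u = 0 := congrFun h1 0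
  have e1 : f' ⬝ᵥ u = 0 := congrFun h1 1
  refine ⟨u, hu, hf u e0, ?_⟩
  rw [mx_mul, ← mulVec_mulVec, hf' u e1, mulVec_neg, hf u e0, neg_neg]

/-- isotropic vectors -/
theorem exists_iso (hσ : ∀ x, σ (σ x) = x) {v : Fin 3 → F} (hv : v ≠ 0) (h : SU3Gen.J σ v v = 0) :
    ∃ (y : UJ σ) (c : F), c ≠ 0 ∧ mx y *ᵥ ![1, 0, 0] = c • v := by
  unfold SU3Gen.J at h
  by_cases h2 : v 2 = 0
  · rw [h2, map_zero, mul_zero, zero_mul, zero_add, add_zero] at h
    have h1 : v 1 = 0 := by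
      rcases mul_eq_zero.1 h with h | h
      · exact h
      · exact (map_eq_zero σ).1 h
    have h0 : v 0 ≠ 0 := by
      intro h0
      apply hv
      ext i; fin_cases i
      · exact h0
      · exact h1
      · exact h2
    refine ⟨1, (v 0)⁻¹, inv_ne_zero h0, ?_⟩
    rw [mx_one, one_mulVec]
    ext i; fin_cases i
    · simp [h0]
    · simp [h1]
    · simp [h2]
  · have h2' : σ (v 2) ≠ 0 := (map_ne_zero σ).2 h2
    have hb : (v 0 / v 2) + σ (v 0 / v 2) + (-σ (v 1 / v 2)) * σ (-σ (v 1 / v 2)) = 0 := by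
      simp only [map_neg, hσ, map_div₀]
      field_simp
      linear_combination h
    refine ⟨X hσ (-σ (v 1 / v 2)) (v 0 / v 2) hb * W, (v 2)⁻¹, inv_ne_zero h2, ?_⟩
    rw [mx_mul, ← mulVec_mulVec, W_e1, X_e3]
    ext i; fin_cases i
    · simp [div_eq_mul_inv, mul_comm]
    · simp [hσ, div_eq_mul_inv, mul_comm]
    · simp [h2]

end lin

section gen2

variable {F : Type*} [Field F] {σ : F →+* F} (hσ : ∀ x, σ (σ x) = x)
  (htr : ∀ a : F, ∃ b, b + σ b + a * σ a = 0) (hnm : ∀ c : F, σ c = c → ∃ y, y * σ y = c)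

include hσ htr in
/-- elements fixing a line orthogonal to an isotropic line -/
theorem conj_of_fix {g : UJ σ} {u v : Fin 3 → F} (hu : u ≠ 0) {l : F} (hl : l ≠ 0) (hgu : mx g *ᵥ u = l • u)
    (hv : v ≠ 0) (hvv : SU3Gen.J σ v v = 0) (hvu : SU3Gen.J σ v u = 0) :
    ∃ y : UJ σ, y⁻¹ * g * y ∈ Bo σ ∨ y⁻¹ * g * y ∈ Ns σ := by
  obtain ⟨y, c, hc, hy⟩ := exists_iso hσ hv hvv
  set u' := mx y⁻¹ *ᵥ u with hu'
  have h1 : mx (y⁻¹ * g * y) *ᵥ u' = l • u' := by
    rw [mx_mul, mx_mul, ← mulVec_mulVec, ← mulVec_mulVec, hu', mx_mul_inv, hgu, mulVec_smul]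
  have h2 : SU3Gen.J σ (![1, 0, 0] : Fin 3 → F) u' = 0 := by
    have h3 := y.2 ![1, 0, 0] u'
    have h4 : SU3Gen.J σ (mx y *ᵥ ![1, 0, 0]) (mx y *ᵥ u') = 0 := by
      rw [hy, hu', mx_mul_inv]
      have : SU3Gen.J σ (c • v) u = c * SU3Gen.J σ v u := by
        unfold SU3Gen.J; simp [mul_assoc, mul_add]
      rw [this, hvu, mul_zero]
    exact h3.symm.trans h4
  have h3 : u' 2 = 0 := by
    unfold SU3Gen.J at h2
    simp at h2
    exact h2
  by_cases h4 : u' 1 = 0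
  · refine ⟨y, Or.inl ⟨l, hl, ?_⟩⟩
    have h5 : u' 0 ≠ 0 := by
      intro h5
      have : u' = 0 := by
        ext i; fin_cases i
        · exact h5
        · exact h4
        · exact h3
      apply hu
      have h6 : mx y *ᵥ u' = u := by rw [hu', mx_mul_inv]
      rw [← h6, this, mulVec_zero]
    have h6 : (![1, 0, 0] : Fin 3 → F) = (u' 0)⁻¹ • u' := by
      ext i; fin_cases i
      · simp [h5]
      · simp [h4]
      · simp [h3]
    rw [h6, mulVec_smul, h1, smul_comm, ← h6]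
    ext i; fin_cases i <;> simp
  · set α := u' 0 / u' 1 with hα
    obtain ⟨b, hb'⟩ := htr α
    have h5 : mx (X hσ α b hb') *ᵥ ![0, 1, 0] = (u' 1)⁻¹ • u' := by
      rw [mul_vec3, mx_X]
      ext i; fin_cases i
      · simp [hα, div_eq_mul_inv, mul_comm]
      · simp [h4]
      · simp [h3]
    refine ⟨y * X hσ α b hb', Or.inr ⟨l, hl, ?_⟩⟩
    have h6 : (y * X hσ α b hb')⁻¹ * g * (y * X hσ α b hb') = (X hσ α b hb')⁻¹ * (y⁻¹ * g * y) * X hσ α b hb' := by group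
    rw [h6, mx_mul, mx_mul, ← mulVec_mulVec, ← mulVec_mulVec, h5, mulVec_smul, h1, smul_comm, ← h5, mulVec_smul, mx_inv_mul]
    ext i; fin_cases i <;> simp

include hσ htr hnm in
theorem conj_of_fix1 {g : UJ σ} {u : Fin 3 → F} (hu : u ≠ 0) {l : F} (hl : l ≠ 0) (hgu : mx g *ᵥ u = l • u)
    (hu1 : u 1 = 0) : ∃ y : UJ σ, y⁻¹ * g * y ∈ Bo σ ∨ y⁻¹ * g * y ∈ Ns σ := by
  obtain ⟨y, hy'⟩ := hnm (u 0 * σ (u 2) + u 2 * σ (u 0)) (by
    rw [map_add, map_mul, map_mul, hσ, hσ]; ring)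
  refine conj_of_fix hσ htr hu hl hgu (v := ![σ (u 0), y, -σ (u 2)]) ?_ ?_ ?_
  · intro h
    apply hu
    have h0 := congrFun h 0
    have h2 := congrFun h 2
    simp at h0 h2
    ext i; fin_cases i
    · exact h0
    · exact hu1
    · exact h2
  · unfold SU3Gen.J
    simp only [cons_val_zero, cons_val_one, cons_val, map_neg, hσ]
    linear_combination hy'
  · unfold SU3Gen.J
    simp only [cons_val_zero, cons_val_one, cons_val, hu1, map_zero]
    ring

include hσ htr in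
theorem conj_of_fix2 {g : UJ σ} {u : Fin 3 → F} (hu : u ≠ 0) {l : F} (hl : l ≠ 0) (hgu : mx g *ᵥ u = l • u)
    (hu2 : u 2 = 0) : ∃ y : UJ σ, y⁻¹ * g * y ∈ Bo σ ∨ y⁻¹ * g * y ∈ Ns σ := by
  refine conj_of_fix hσ htr hu hl hgu (v := ![1, 0, 0]) ?_ ?_ ?_
  · intro h; simpa using congrFun h 0
  · unfold SU3Gen.J; simp
  · unfold SU3Gen.J; simp [hu2]

include hσ hnm in
/-- involutions fix isotropic points -/
theorem inv_Bo {t : UJ σ} (ht : t * t = 1) : ∃ y, y⁻¹ * t * y ∈ Bo σ := by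
  rcases bruhatU hσ t with h | ⟨v, hv, n, hn, e⟩
  · exact ⟨1, by rw [inv_one, one_mul, mul_one]; exact h⟩
  · set t' := v⁻¹ * t * v with ht'
    have e1 : t' = W * (n * v) := by rw [ht', e]; group
    have hm : n * v ∈ Bo σ := mul_mem hn (U1_le_Bo hv)
    obtain ⟨l, hl, hml⟩ := hm
    have hl' : σ l ≠ 0 := (map_ne_zero _).2 hl
    have ht2 : t' * t' = 1 := by
      rw [ht']
      calc v⁻¹ * t * v * (v⁻¹ * t * v) = v⁻¹ * (t * t) * v := by group
        _ = 1 := by rw [ht]; group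
    have he0 : (![l, 0, 0] : Fin 3 → F) = l • ![1, 0, 0] := by ext i; fin_cases i <;> simp
    have c0 : mx t' *ᵥ ![1, 0, 0] = ![0, 0, l] := by
      rw [e1, mx_mul, ← mulVec_mulVec, hml, he0, mulVec_smul, W_e1]
      ext i; fin_cases i <;> simp
    have he2 : (![0, 0, l] : Fin 3 → F) = l • ![0, 0, 1] := by ext i; fin_cases i <;> simp
    have c2 : mx t' *ᵥ ![0, 0, 1] = ![l⁻¹, 0, 0] := by
      have h1 : mx t' *ᵥ (mx t' *ᵥ ![1, 0, 0]) = ![1, 0, 0] := by
        rw [mulVec_mulVec, ← mx_mul, ht2, mx_one, one_mulVec]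
      rw [c0, he2, mulVec_smul] at h1
      have h2 : mx t' *ᵥ ![0, 0, 1] = l⁻¹ • (l • (mx t' *ᵥ ![0, 0, 1])) := by
        rw [smul_smul, inv_mul_cancel₀ hl, one_smul]
      rw [h2, h1]
      ext i; fin_cases i <;> simp
    -- entries
    have k0 := congrFun c0 0
    have k1 := congrFun c0 1
    have k2 := congrFun c0 2
    have k3 := congrFun c2 0
    have k4 := congrFun c2 1
    have k5 := congrFun c2 2
    rw [mul_vec3] at k0 k1 k2 k3 k4 k5
    simp at k0 k1 k2 k3 k4 k5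
    have j1 : mx t' 0 1 = 0 := by
      have h3 := t'.2 ![0, 1, 0] ![1, 0, 0]
      have h4 : SU3Gen.J σ (![0, 1, 0] : Fin 3 → F) ![1, 0, 0] = 0 := by simp [SU3Gen.J]
      have h5 : SU3Gen.J σ (mx t' *ᵥ ![0, 1, 0]) (mx t' *ᵥ ![1, 0, 0]) = mx t' 0 1 * σ l := by
        rw [c0, mul_vec3]; simp [SU3Gen.J]
      have h6 : mx t' 0 1 * σ l = 0 := h5.symm.trans (h3.trans h4)
      exact (mul_eq_zero.1 h6).resolve_right hl'
    have j2 : mx t' 2 1 = 0 := by
      have h3 := t'.2 ![0, 1, 0] ![0, 0, 1]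
      have h4 : SU3Gen.J σ (![0, 1, 0] : Fin 3 → F) ![0, 0, 1] = 0 := by simp [SU3Gen.J]
      have h5 : SU3Gen.J σ (mx t' *ᵥ ![0, 1, 0]) (mx t' *ᵥ ![0, 0, 1]) = mx t' 2 1 * (σ l)⁻¹ := by
        rw [c2, mul_vec3]; simp [SU3Gen.J]
      have h6 : mx t' 2 1 * (σ l)⁻¹ = 0 := h5.symm.trans (h3.trans h4)
      exact (mul_eq_zero.1 h6).resolve_right (inv_ne_zero hl')
    have j3 : mx t' 1 1 = -1 := by
      have hd : (mx t').det = 1 := t'.1.2
      rw [det_fin_three, j1, j2, k0, k1, k2, k3, k4, k5] at hd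
      have h1 : l⁻¹ * l = 1 := inv_mul_cancel₀ hl
      linear_combination -hd - mx t' 1 1 * h1
    have j4 : σ l = l := by
      have h3 := t'.2 ![1, 0, 0] ![0, 0, 1]
      have h4 : SU3Gen.J σ (![1, 0, 0] : Fin 3 → F) ![0, 0, 1] = 1 := by simp [SU3Gen.J]
      have h5 : SU3Gen.J σ (mx t' *ᵥ ![1, 0, 0]) (mx t' *ᵥ ![0, 0, 1]) = l * (σ l)⁻¹ := by
        rw [c2, c0]; simp [SU3Gen.J]
      have h6 : l * (σ l)⁻¹ = 1 := h5.symm.trans (h3.trans h4)
      field_simp at h6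
      exact h6.symm
    obtain ⟨y, hy'⟩ := hnm (l + l) (by rw [map_add, j4])
    have hx0 : (![1, y, -l] : Fin 3 → F) ≠ 0 := by intro h; simpa using congrFun h 0
    have hxx : SU3Gen.J σ (![1, y, -l] : Fin 3 → F) ![1, y, -l] = 0 := by
      unfold SU3Gen.J
      simp only [cons_val_zero, cons_val_one, cons_val, map_neg, map_one, j4]
      linear_combination hy'
    have htx : mx t' *ᵥ ![1, y, -l] = -![1, y, -l] := by
      rw [mul_vec3, k0, k1, k2, k3, k4, k5, j1, j2, j3]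
      ext i; fin_cases i
      · simp [hl]
      · simp
      · simp
    obtain ⟨z, c, hc, hz⟩ := exists_iso hσ hx0 hxx
    refine ⟨v * z, -1, by simp, ?_⟩
    have h1 : (v * z)⁻¹ * t * (v * z) = z⁻¹ * t' * z := by rw [ht']; group
    rw [h1, mx_mul, mx_mul, ← mulVec_mulVec, ← mulVec_mulVec, hz, mulVec_smul, htx, smul_neg, ← hz, mulVec_neg, mx_inv_mul]
    ext i; fin_cases i <;> simp

include hnm in
theorem inv_T {t : UJ σ} (ht : t * t = 1) (ht1 : t ≠ 1) (h2 : (2 : F) ≠ 0) :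
    ∃ y, y⁻¹ * t * y = T hσ (-1) (by simp) := by
  obtain ⟨y, hy⟩ := inv_Bo hσ hnm ht
  set t' := y⁻¹ * t * y with ht'
  have ht2 : t' * t' = 1 := by
    rw [ht']
    calc y⁻¹ * t * y * (y⁻¹ * t * y) = y⁻¹ * (t * t) * y := by group
      _ = 1 := by rw [ht]; group
  have ht3 : t' ≠ 1 := by
    intro e
    apply ht1
    have : t = y * t' * y⁻¹ := by rw [ht']; group
    rw [this, e]; group
  have h00 : mx t' 0 0 * mx t' 0 0 = 1 := by
    rw [← mul00 hy, ht2, mx_one]; simp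
  obtain ⟨a, b, h, e⟩ := exists_XT hσ hy
  rcases mul_self_eq_one_iff.1 h00 with h1 | h1
  · exfalso
    have h3 : t' ∈ U1 σ := (mem_U1_iff hy).2 h1
    obtain ⟨a, b, h, e⟩ := exists_X hσ t' h3
    obtain ⟨h4, e4⟩ := X_mul hσ h h
    rw [← e, ht2, ← X_one hσ] at e4
    have h5 : (0 : F) = a + a := by
      have := congrFun (congrFun (congrArg mx e4) 0) 1
      rw [mx_X, mx_X] at this
      simpa using this
    have h6 : (0 : F) = b - a * σ a + b := by
      have := congrFun (congrFun (congrArg mx e4) 0) 2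
      rw [mx_X, mx_X] at this
      simpa using this
    have ha : a = 0 := by
      have : (2 : F) * a = 0 := by rw [two_mul]; exact h5.symm
      exact (mul_eq_zero.1 this).resolve_left h2
    subst ha
    have hb : b = 0 := by
      have : (2 : F) * b = 0 := by rw [two_mul]; rw [zero_mul, sub_zero] at h6; exact h6.symm
      exact (mul_eq_zero.1 this).resolve_left h2
    subst hb
    exact ht3 (by rw [e]; exact X_one hσ)
  · have e1 : t' = X hσ a b h * T hσ (-1) (by simp) := by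
      rw [e]; congr 1; apply mx_inj; rw [mx_T, mx_T, h1]
    have hTT : (T hσ (-1) (by simp) : UJ σ) * T hσ (-1) (by simp) = 1 := by
      apply mx_inj; rw [mx_mul, mx_T, mx_one, mul3]; simp
      ext i j; fin_cases i <;> fin_cases j <;> simp
    obtain ⟨h3, e3⟩ := T_conj hσ (t := -1) (by simp) h
    have h4 : X hσ a b h * X hσ _ _ h3 = 1 := by
      rw [← e3]
      calc X hσ a b h * (T hσ (-1) _ * X hσ a b h * (T hσ (-1) _)⁻¹)
          = (X hσ a b h * T hσ (-1) (by simp)) * (X hσ a b h * T hσ (-1) (by simp)) * (T hσ (-1) (by simp) * T hσ (-1) (by simp))⁻¹ := by group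
        _ = 1 := by rw [← e1, ht2, hTT]; simp
    obtain ⟨h5, e5⟩ := X_mul hσ h h3
    rw [h4, ← X_one hσ] at e5
    have h6 := congrFun (congrFun (congrArg mx e5) 0) 2
    rw [mx_X, mx_X] at h6
    simp at h6
    have h8' : (8 : F) ≠ 0 := by
      have : (8 : F) = 2 * (2 * 2) := by norm_num
      rw [this]; exact mul_ne_zero h2 (mul_ne_zero h2 h2)
    have hs2 : σ 2 = 2 := map_ofNat _ 2
    have hs8 : σ 8 = 8 := map_ofNat _ 8
    have hd : -(a * σ a) / 8 + σ (-(a * σ a) / 8) + (a / 2) * σ (a / 2) = 0 := by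
      simp only [map_div₀, map_neg, map_mul, hσ, hs2, hs8]
      field_simp
      ring
    refine ⟨y * X hσ (a / 2) (-(a * σ a) / 8) hd, ?_⟩
    obtain ⟨h7, e7⟩ := X_inv hσ hd
    obtain ⟨h8, e8⟩ := T_conj hσ (t := -1) (by simp) h7
    obtain ⟨h9, e9⟩ := X_mul hσ hd h8
    have key : X hσ (a / 2) (-(a * σ a) / 8) hd * T hσ (-1) (by simp) * (X hσ (a / 2) (-(a * σ a) / 8) hd)⁻¹ =
        X hσ a b h * T hσ (-1) (by simp) := by
      have : X hσ (a / 2) (-(a * σ a) / 8) hd * T hσ (-1) (by simp) * (X hσ (a / 2) (-(a * σ a) / 8) hd)⁻¹ =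
          X hσ (a / 2) (-(a * σ a) / 8) hd * (T hσ (-1) (by simp) * (X hσ (a / 2) (-(a * σ a) / 8) hd)⁻¹ *
            (T hσ (-1) (by simp))⁻¹) * T hσ (-1) (by simp) := by group
      rw [this, e7, e8, e9]
      congr 1
      apply X_congr hσ
      · simp only [map_neg, map_one]
        field_simp
        ring
      · simp only [map_div₀, map_neg, map_mul, hσ, hs2, hs8, map_one, map_inv₀, map_pow]
        field_simp
        linear_combination 16 * h6
    have h10 : (y * X hσ (a / 2) (-(a * σ a) / 8) hd)⁻¹ * t * (y * X hσ (a / 2) (-(a * σ a) / 8) hd) =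
        (X hσ (a / 2) (-(a * σ a) / 8) hd)⁻¹ * t' * X hσ (a / 2) (-(a * σ a) / 8) hd := by
      rw [ht']; group
    rw [h10, e1, ← key]; group

include hnm in
theorem inv_X {t : UJ σ} (ht : t * t = 1) (ht1 : t ≠ 1) (h2 : (2 : F) = 0) :
    ∃ y b h, b ≠ 0 ∧ y⁻¹ * t * y = X hσ 0 b h := by
  obtain ⟨y, hy⟩ := inv_Bo hσ hnm ht
  set t' := y⁻¹ * t * y with ht'
  have ht2 : t' * t' = 1 := by
    rw [ht']
    calc y⁻¹ * t * y * (y⁻¹ * t * y) = y⁻¹ * (t * t) * y := by group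
      _ = 1 := by rw [ht]; group
  have ht3 : t' ≠ 1 := by
    intro e
    apply ht1
    have : t = y * t' * y⁻¹ := by rw [ht']; group
    rw [this, e]; group
  have h00 : mx t' 0 0 * mx t' 0 0 = 1 := by
    rw [← mul00 hy, ht2, mx_one]; simp
  have h1 : mx t' 0 0 = 1 := by
    rcases mul_self_eq_one_iff.1 h00 with h1 | h1
    · exact h1
    · rw [h1]; linear_combination -h2
  have h3 : t' ∈ U1 σ := (mem_U1_iff hy).2 h1
  obtain ⟨a, b, h, e⟩ := exists_X hσ t' h3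
  obtain ⟨h4, e4⟩ := X_mul hσ h h
  rw [← e, ht2, ← X_one hσ] at e4
  have h6 : (0 : F) = b - a * σ a + b := by
    have := congrFun (congrFun (congrArg mx e4) 0) 2
    rw [mx_X, mx_X] at this
    simpa using this
  have ha : a * σ a = 0 := by linear_combination h6 + b * h2
  have ha' : a = 0 := by
    rcases mul_eq_zero.1 ha with h | h
    · exact h
    · exact (map_eq_zero _).1 h
  subst ha'
  refine ⟨y, b, h, ?_, e⟩
  rintro rfl
  exact ht3 (by rw [e]; exact X_one hσ)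

theorem lin_T : Lin (T hσ (-1) (by simp) : UJ σ) := by
  refine ⟨![0, 1, 0], fun u hu => ?_⟩
  have h1 : u 1 = 0 := by simpa [dotProduct, Fin.sum_univ_three] using hu
  rw [mul_vec3, mx_T]
  ext i; fin_cases i
  · simp
  · simp [h1]
  · simp

theorem lin_X (h2 : (2 : F) = 0) {b : F} (h : b + σ b + 0 * σ 0 = 0) :
    Lin (X hσ 0 b h : UJ σ) := by
  refine ⟨![0, 0, 1], fun u hu => ?_⟩
  have h1 : u 2 = 0 := by simpa [dotProduct, Fin.sum_univ_three] using hu
  have h3 : ∀ x : F, -x = x := fun x => by linear_combination (-x) * h2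
  rw [mul_vec3, mx_X]
  ext i; fin_cases i
  · simp [h1, h3]
  · simp [h1, h3]
  · simp [h1]

include hσ hnm in
theorem lin_inv {t : UJ σ} (ht : t * t = 1) (ht1 : t ≠ 1) : Lin t := by
  by_cases h2 : (2 : F) = 0
  · obtain ⟨y, b, h, hb, e⟩ := inv_X hσ hnm ht ht1 h2
    have : t = y * X hσ 0 b h * y⁻¹ := by rw [← e]; group
    rw [this]
    exact (lin_X hσ h2 h).conj y
  · obtain ⟨y, e⟩ := inv_T hσ hnm ht ht1 h2
    have : t = y * T hσ (-1) (by simp) * y⁻¹ := by rw [← e]; group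
    rw [this]
    exact (lin_T hσ).conj y

include hσ hnm in
/-- centralizers of involutions -/
theorem comm_inv {t g : UJ σ} (ht : t * t = 1) (ht1 : t ≠ 1) (hg : t * g = g * t) :
    ∃ y : UJ σ, y⁻¹ * g * y ∈ Bo σ ∨ y⁻¹ * g * y ∈ Ns σ := by
  by_cases h2 : (2 : F) = 0
  · obtain ⟨y, b, h, hb, e⟩ := inv_X hσ hnm ht ht1 h2
    refine ⟨y, Or.inl ?_⟩
    apply line_of_comm hσ hb (e := h)
    rw [← e]
    calc y⁻¹ * t * y * (y⁻¹ * g * y) = y⁻¹ * (t * g) * y := by group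
      _ = _ := by rw [hg]; group
  · obtain ⟨y, e⟩ := inv_T hσ hnm ht ht1 h2
    refine ⟨y, Or.inr ?_⟩
    have h3 : T hσ (-1) (by simp) * (y⁻¹ * g * y) = (y⁻¹ * g * y) * T hσ (-1) (by simp) := by
      rw [← e]
      calc y⁻¹ * t * y * (y⁻¹ * g * y) = y⁻¹ * (t * g) * y := by group
        _ = _ := by rw [hg]; group
    generalize y⁻¹ * g * y = g' at h3 ⊢
    have h4 := congrFun (congrFun (congrArg mx h3) 0) 1
    have h5 := congrFun (congrFun (congrArg mx h3) 2) 1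
    rw [mx_mul, mx_mul, Matrix.mul_apply, Matrix.mul_apply, Fin.sum_univ_three, Fin.sum_univ_three, mx_T] at h4 h5
    simp at h4 h5
    apply Ns_of
    · have : (2 : F) * mx g' 0 1 = 0 := by linear_combination -h4
      exact (mul_eq_zero.1 this).resolve_left h2
    · have : (2 : F) * mx g' 2 1 = 0 := by linear_combination -h5
      exact (mul_eq_zero.1 this).resolve_left h2

include hσ htr hnm in
/-- products of two involutions -/
theorem prod_inv {t t' : UJ σ} (ht : t * t = 1) (ht1 : t ≠ 1) (ht' : t' * t' = 1) (ht1' : t' ≠ 1) :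
    ∃ y : UJ σ, y⁻¹ * (t * t') * y ∈ Bo σ ∨ y⁻¹ * (t * t') * y ∈ Ns σ := by
  obtain ⟨u, hu, hu1, hu2⟩ := fix_of_Lin (lin_inv hσ hnm ht ht1) (lin_inv hσ hnm ht' ht1')
  by_cases h2 : (2 : F) = 0
  · obtain ⟨y, b, h, hb, e⟩ := inv_X hσ hnm ht ht1 h2
    have h3 : mx (y⁻¹ * (t * t') * y) *ᵥ (mx y⁻¹ *ᵥ u) = (1 : F) • (mx y⁻¹ *ᵥ u) := by
      rw [mx_mul, mx_mul, ← mulVec_mulVec, ← mulVec_mulVec, mx_mul_inv, hu2, one_smul]
    have h4 : mx (X hσ 0 b h) *ᵥ (mx y⁻¹ *ᵥ u) = -(mx y⁻¹ *ᵥ u) := by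
      rw [← e, mx_mul, mx_mul, ← mulVec_mulVec, ← mulVec_mulVec, mx_mul_inv, hu1, mulVec_neg]
    have h6 : mx y⁻¹ *ᵥ u ≠ 0 := by
      intro h
      apply hu
      rw [← mx_mul_inv y u, h, mulVec_zero]
    generalize mx y⁻¹ *ᵥ u = w at h3 h4 h6
    have h5 : w 2 = 0 := by
      have h6 := congrFun h4 0
      rw [mul_vec3, mx_X] at h6
      simp only [Pi.neg_apply, of_apply, cons_val_zero, cons_val_one, cons_val, one_mul, zero_mul, add_zero] at h6
      have h7 : b * w 2 = 0 := by linear_combination h6 - w 0 * h2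
      exact (mul_eq_zero.1 h7).resolve_left hb
    obtain ⟨z, hz⟩ := conj_of_fix2 hσ htr h6 one_ne_zero h3 h5
    refine ⟨y * z, ?_⟩
    have h7 : (y * z)⁻¹ * (t * t') * (y * z) = z⁻¹ * (y⁻¹ * (t * t') * y) * z := by group
    rw [h7]; exact hz
  · obtain ⟨y, e⟩ := inv_T hσ hnm ht ht1 h2
    have h3 : mx (y⁻¹ * (t * t') * y) *ᵥ (mx y⁻¹ *ᵥ u) = (1 : F) • (mx y⁻¹ *ᵥ u) := by
      rw [mx_mul, mx_mul, ← mulVec_mulVec, ← mulVec_mulVec, mx_mul_inv, hu2, one_smul]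
    have h4 : mx (T hσ (-1) (by simp)) *ᵥ (mx y⁻¹ *ᵥ u) = -(mx y⁻¹ *ᵥ u) := by
      rw [← e, mx_mul, mx_mul, ← mulVec_mulVec, ← mulVec_mulVec, mx_mul_inv, hu1, mulVec_neg]
    have h6 : mx y⁻¹ *ᵥ u ≠ 0 := by
      intro h
      apply hu
      rw [← mx_mul_inv y u, h, mulVec_zero]
    generalize mx y⁻¹ *ᵥ u = w at h3 h4 h6
    have h5 : w 1 = 0 := by
      have h6 := congrFun h4 1
      rw [mul_vec3, mx_T] at h6
      simp only [Pi.neg_apply, of_apply, cons_val_zero, cons_val_one, cons_val, one_mul, zero_mul, add_zero, zero_add,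
        map_neg, map_one] at h6
      have h8 : (-1 : F) * (-1)⁻¹ = 1 := mul_inv_cancel₀ (by simp)
      rw [h8, one_mul] at h6
      have h7 : (2 : F) * w 1 = 0 := by linear_combination h6
      exact (mul_eq_zero.1 h7).resolve_left h2
    obtain ⟨z, hz⟩ := conj_of_fix1 hσ htr hnm h6 one_ne_zero h3 h5
    refine ⟨y * z, ?_⟩
    have h7 : (y * z)⁻¹ * (t * t') * (y * z) = z⁻¹ * (y⁻¹ * (t * t') * y) * z := by group
    rw [h7]; exact hz

end gen2

section fin

variable {F : Type*} [Field F] [Fintype F] {q : ℕ} (hF : Fintype.card F = q ^ 2)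

theorem htrF (a : F) : ∃ b, b + frob hF b + a * frob hF a = 0 := by
  obtain ⟨b, hb⟩ := exists_trace hF (c := -(a * a ^ q)) (by rw [neg_pow_q hF, mul_pow, pow_q_pow_q hF, mul_comm])
  refine ⟨b, ?_⟩
  change b + b ^ q + a * a ^ q = 0
  linear_combination hb

theorem hnmF (c : F) (hc : frob hF c = c) : ∃ y, y * frob hF y = c := by
  obtain ⟨y, hy⟩ := exists_norm hF (c := c) hc
  exact ⟨y, by rw [← hy, fr, pow_succ, mul_comm]⟩

/-- involutions do not normalize subgroups of large prime order -/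
theorem no_inv {R : Subgroup (UJ (frob hF))} {r : ℕ} (hr : r.Prime) (hR : Nat.card R = r)
    (h1 : ¬ r ∣ Nat.card (Bo (frob hF))) (h2 : ¬ r ∣ Nat.card (Ns (frob hF))) {t : UJ (frob hF)} (ht : t * t = 1)
    (ht1 : t ≠ 1) (htR : ∀ x ∈ R, t * x * t⁻¹ ∈ R) : False := by
  have : Fact r.Prime := ⟨hr⟩
  have key : ∀ g ∈ R, g ≠ 1 → ∀ y : UJ (frob hF), ¬ (y⁻¹ * g * y ∈ Bo (frob hF) ∨ y⁻¹ * g * y ∈ Ns (frob hF)) := by
    intro g hg hg1 y hy
    have ho : orderOf g = r := by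
      have h3 : orderOf g ∣ r := by rw [← hR]; exact Subgroup.orderOf_dvd_natCard _ hg
      rcases (Nat.dvd_prime hr).1 h3 with h | h
      · exact absurd (orderOf_eq_one_iff.1 h) hg1
      · exact h
    have ho' : orderOf (y⁻¹ * g * y) = r := by
      rw [← ho]
      have : y⁻¹ * g * y = MulAut.conj y⁻¹ g := by rw [MulAut.conj_apply]; group
      rw [this]
      exact orderOf_injective (MulAut.conj y⁻¹).toMonoidHom (MulAut.conj y⁻¹).injective g
    rcases hy with hy | hy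
    · exact h1 (ho' ▸ Subgroup.orderOf_dvd_natCard _ hy)
    · exact h2 (ho' ▸ Subgroup.orderOf_dvd_natCard _ hy)
  have hcyc : IsCyclic R := isCyclic_of_prime_card hR
  have hcomm : ∀ x ∈ R, ∀ y ∈ R, x * y = y * x := by
    intro x hx y hy
    letI := hcyc.commGroup
    exact congrArg Subtype.val (mul_comm (⟨x, hx⟩ : R) ⟨y, hy⟩)
  have htinv : t⁻¹ = t := inv_eq_of_mul_eq_one_left ht
  have hnt : Nontrivial R := Finite.one_lt_card_iff_nontrivial.1 (by rw [hR]; exact hr.one_lt)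
  obtain ⟨⟨g, hg⟩, hg1⟩ := exists_ne (1 : R)
  have hg1' : g ≠ 1 := fun e => hg1 (Subtype.ext e)
  have hc := mul_mem hg (htR g hg)
  by_cases hc1 : g * (t * g * t⁻¹) = 1
  · have h3 : (t * g) * (t * g) = 1 := by
      have : t * g * (t * g) = t * (g * (t * g * t⁻¹)) * t⁻¹ * (t * t) := by rw [htinv]; simp only [mul_assoc, ht, mul_one]
      rw [this, hc1, ht]; simp
    have h4 : t * g ≠ 1 := by
      intro e
      have e1 : g = t := by rw [← htinv]; exact (inv_eq_of_mul_eq_one_right e).symm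
      have ho : orderOf g = r := by
        have h3 : orderOf g ∣ r := by rw [← hR]; exact Subgroup.orderOf_dvd_natCard _ hg
        rcases (Nat.dvd_prime hr).1 h3 with h | h
        · exact absurd (orderOf_eq_one_iff.1 h) hg1'
        · exact h
      have h5 : r ∣ 2 := by
        rw [← ho, e1]; exact orderOf_dvd_of_pow_eq_one (by rw [pow_two]; exact ht)
      have h6 : 2 ∣ Nat.card (Ns (frob hF)) := by
        rw [card_Ns hF, card_BN hF]
        rcases Nat.even_or_odd q with hq | hq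
        · exact Dvd.dvd.mul_left (Dvd.dvd.mul_right hq.two_dvd _) _
        · exact Dvd.dvd.mul_right (by obtain ⟨k, hk⟩ := hq; exact ⟨k + 1, by omega⟩) _
      exact h2 (h5.trans h6)
    have h5 : t * (t * g) = g := by rw [← mul_assoc, ht, one_mul]
    obtain ⟨y, hy⟩ := prod_inv (frob_frob hF) (htrF hF) (hnmF hF) ht ht1 h3 h4
    rw [h5] at hy
    exact key g hg hg1' y hy
  · have h3 : t * (g * (t * g * t⁻¹)) = g * (t * g * t⁻¹) * t := by
      calc t * (g * (t * g * t⁻¹)) = (t * g * t⁻¹) * (t * t * g * (t * t)⁻¹) * t := by group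
        _ = (t * g * t⁻¹) * g * t := by rw [ht]; simp
        _ = _ := by rw [hcomm _ (htR g hg) _ hg]
    obtain ⟨y, hy⟩ := comm_inv (frob_frob hF) (hnmF hF) ht ht1 h3
    exact key _ hc hc1 y hy

end fin

end Cfsg.Agent.Lib.PU3
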