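import Cfsg.Agent.Lib.PU3g

/-!
# Subgroups without long root elements (helper66)
-/

set_option autoImplicit false
set_option linter.unusedSectionVars false

namespace Cfsg.Agent.Lib.PU3

open Subgroup Matrix Cfsg Cfsg.Agent.Lib.ClUnitary Cfsg.Agent.Lib.HermMat Cfsg.Agent.Lib.SylU3
open Cfsg.Agent.Lib.SU3Gen (UJ mx mx_mul mx_one mx_inj mul_vec3 X Y T W mx_X mx_Y mx_T mx_W mul3 exists_X exists_upper
  X_congr X_mul X_one X_inv X_conj T_conj)
open Cfsg.Agent.Lib.IsoRk1 (U1 mem_U1 X_mem_U1 eq_X norm_U1 co_mul co_inv W_e1 X_e3 inv_vec bruhatU line_of_comm T_e1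
  card_U1 card_UJ)
open Cfsg.Agent.Lib.MobCount Cfsg.Agent.Lib.ClProjLine
open scoped LinearAlgebra.Projectivization MatrixGroups

section gen

variable {F : Type*} [Field F] {σ : F →+* F} (hσ : ∀ x, σ (σ x) = x)

/-- the torus -/
def Th : Fˣ →* UJ σ where
  toFun s := T hσ s s.ne_zero
  map_one' := by
    apply mx_inj
    rw [mx_T, mx_one]
    ext i j; fin_cases i <;> fin_cases j <;> simp
  map_mul' s t := by
    apply mx_inj
    rw [mx_T, mx_mul, mx_T, mx_T, mul3]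
    ext i j; fin_cases i <;> fin_cases j <;> simp
    · ring
    · ring

theorem Th_val (s : Fˣ) : Th hσ s = T hσ s s.ne_zero := rfl

theorem mx_Th (s : Fˣ) : mx (Th hσ s) = !![(s : F), 0, 0; 0, σ s * (s : F)⁻¹, 0; 0, 0, (σ s)⁻¹] := rfl

theorem Th_mem_Bo (s : Fˣ) : Th hσ s ∈ Bo σ := T_mem_Bo hσ s.ne_zero

theorem Th_mem_Ns (s : Fˣ) : Th hσ s ∈ Ns σ := T_mem_Ns hσ s.ne_zero

theorem T_free {s : Fˣ} (h1 : (s : F) ^ 2 * (σ s)⁻¹ ≠ 1) (h2 : (s : F) * σ s ≠ 1) {x : UJ σ} (hx : x ∈ U1 σ)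
    (e : Th hσ s * x * (Th hσ s)⁻¹ = x) : x = 1 := by
  obtain ⟨a, b, h, rfl⟩ := exists_X hσ x hx
  obtain ⟨h', e'⟩ := T_conj hσ s.ne_zero h
  rw [← Th_val, e] at e'
  have ha : a = (s : F) ^ 2 * (σ s)⁻¹ * a := by
    have := congrFun (congrFun (congrArg mx e') 0) 1
    rw [mx_X, mx_X] at this
    simpa using this
  have hb : b = (s : F) * σ s * b := by
    have := congrFun (congrFun (congrArg mx e') 0) 2
    rw [mx_X, mx_X] at this
    simpa using this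
  have ha0 : a = 0 := by
    by_contra ha0
    exact h1 (mul_right_cancel₀ ha0 (by rw [one_mul]; exact ha.symm))
  have hb0 : b = 0 := by
    by_contra hb0
    exact h2 (mul_right_cancel₀ hb0 (by rw [one_mul]; exact hb.symm))
  subst ha0; subst hb0
  exact X_one hσ

theorem XT_eq {g : UJ σ} (hg : g ∈ Bo σ) {s : Fˣ} (hs : mx g 0 0 = s) : ∃ x ∈ U1 σ, g = x * Th hσ s := by
  obtain ⟨a, b, h, e⟩ := exists_XT hσ hg
  refine ⟨X hσ a b h, X_mem_U1 hσ h, ?_⟩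
  rw [Th_val]
  refine e.trans ?_
  congr 1; apply mx_inj; rw [mx_T, mx_T, hs]

theorem exists_conj_T [Finite F] (H : Subgroup (UJ σ)) {s : Fˣ} (hs : s ∈ Cx H) (h1 : (s : F) ^ 2 * (σ s)⁻¹ ≠ 1)
    (h2 : (s : F) * σ s ≠ 1) : ∃ x ∈ U1 σ, Th hσ s ∈ cj x H := by
  have := Fintype.ofFinite F
  obtain ⟨g, hg, hgB, hs0⟩ := mem_Cx.1 hs
  obtain ⟨x', hx', e⟩ := XT_eq hσ hgB hs0
  obtain ⟨x, hx, e'⟩ := conj_of_free (K := U1 σ) (t := Th hσ s) (fun y hy => conj_U1 hσ (Th_mem_Bo hσ s) hy)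
    (fun y hy h => T_free hσ h1 h2 hy h) hx'
  refine ⟨x⁻¹, inv_mem hx, mem_cj.2 ?_⟩
  rw [inv_inv, ← e', ← e]
  exact hg

include hσ in
theorem norm_U1' {x : UJ σ} (hx : x ∈ Bo σ) : x ∈ normalizer ((U1 σ : Subgroup (UJ σ)) : Set (UJ σ)) := by
  rw [mem_normalizer_iff]
  intro h
  refine ⟨fun hh => conj_U1 hσ hx hh, fun hh => ?_⟩
  have := conj_U1 hσ (inv_mem hx) hh
  have e : x⁻¹ * (x * h * x⁻¹) * x⁻¹⁻¹ = h := by group
  rwa [e] at this

include hσ in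
theorem norm_Zo' {x : UJ σ} (hx : x ∈ Bo σ) : x ∈ normalizer ((Zo σ : Subgroup (UJ σ)) : Set (UJ σ)) := by
  rw [mem_normalizer_iff]
  intro h
  refine ⟨fun hh => conj_Zo hσ hx hh, fun hh => ?_⟩
  have := conj_Zo hσ (inv_mem hx) hh
  have e : x⁻¹ * (x * h * x⁻¹) * x⁻¹⁻¹ = h := by group
  rwa [e] at this

theorem Cx_cj_le {x : UJ σ} (hx : x ∈ U1 σ) (H : Subgroup (UJ σ)) : Cx H ≤ Cx (cj x H) := by
  intro s hs
  obtain ⟨g, hg, hgB, hs0⟩ := mem_Cx.1 hs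
  have hxB := U1_le_Bo hx
  refine mem_Cx.2 ⟨x * g * x⁻¹, mem_cj.2 ?_, mul_mem (mul_mem hxB hgB) (inv_mem hxB), ?_⟩
  · have : x⁻¹ * (x * g * x⁻¹) * x = g := by group
    rw [this]; exact hg
  · rw [mul00 (inv_mem hxB), mul00 hgB, (mem_U1_iff hxB).1 hx, (mem_U1_iff (inv_mem hxB)).1 (inv_mem hx), hs0]
    ring

theorem Cx_cj {x : UJ σ} (hx : x ∈ U1 σ) (H : Subgroup (UJ σ)) : Cx (cj x H) = Cx H := by
  apply le_antisymm _ (Cx_cj_le hx H)
  have h1 := Cx_cj_le (inv_mem hx) (cj x H)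
  have h2 : cj x⁻¹ (cj x H) = H := by
    ext g
    rw [mem_cj, mem_cj]
    have : x⁻¹ * (x⁻¹⁻¹ * g * x⁻¹) * x = g := by group
    rw [this]
  rwa [h2] at h1

/-! ### centralizers of torus elements of norm one -/

theorem Ns_comm {s : Fˣ} (h1 : (s : F) * σ s = 1) {n : UJ σ} (hn : n ∈ Ns σ) : Th hσ s * n = n * Th hσ s := by
  obtain ⟨h11, h01, h21, h10, h12⟩ := Ns_shape hn
  have h2 : (σ (s : F))⁻¹ = s := inv_eq_of_mul_eq_one_left h1
  apply mx_inj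
  rw [mx_mul, mx_mul, mx_Th, h2]
  ext i j; fin_cases i <;> fin_cases j <;>
    simp [Matrix.mul_apply, Fin.sum_univ_three, h01, h21, h10, h12, mul_comm]

theorem comm_Ns {s : Fˣ} (h1 : (s : F) * σ s = 1) (h3 : (s : F) ^ 3 ≠ 1) {n : UJ σ}
    (hn : Th hσ s * n = n * Th hσ s) : n ∈ Ns σ := by
  have h2 : (σ (s : F))⁻¹ = s := inv_eq_of_mul_eq_one_left h1
  have h4 : (s : F) - σ s * (s : F)⁻¹ ≠ 0 := by
    intro h
    apply h3
    have h5 : (s : F) ≠ 0 := s.ne_zero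
    have h6 : (s : F) * s = σ s := by
      field_simp at h
      linear_combination h
    calc (s : F) ^ 3 = s * (s * s) := by ring
      _ = 1 := by rw [h6, h1]
  have k1 := congrFun (congrFun (congrArg mx hn) 0) 1
  have k2 := congrFun (congrFun (congrArg mx hn) 2) 1
  rw [mx_mul, mx_mul, Matrix.mul_apply, Matrix.mul_apply, Fin.sum_univ_three, Fin.sum_univ_three, mx_Th, h2] at k1 k2
  simp at k1 k2
  apply Ns_of
  · have : ((s : F) - σ s * (s : F)⁻¹) * mx n 0 1 = 0 := by linear_combination k1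
    exact (mul_eq_zero.1 this).resolve_left h4
  · have : ((s : F) - σ s * (s : F)⁻¹) * mx n 2 1 = 0 := by linear_combination k2
    exact (mul_eq_zero.1 this).resolve_left h4

theorem TrN_of_T [Finite F] {H : Subgroup (UJ σ)} (hTr : Tr H) (hZ : H ⊓ Zo σ = ⊥) {s : Fˣ} (hsH : Th hσ s ∈ H)
    (h1 : (s : F) * σ s = 1) (h3 : (s : F) ^ 3 ≠ 1) : TrN (H ⊓ Ns σ) := by
  have := Fintype.ofFinite F
  intro n hn
  obtain ⟨h, hh, b, hb, e⟩ := hTr n
  set t := Th hσ s with ht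
  have hnt : n⁻¹ * t * n = t := by
    rw [mul_assoc, Ns_comm hσ h1 hn, ← mul_assoc, inv_mul_cancel, one_mul]
  have e1 : h⁻¹ * t * h = b * t * b⁻¹ := by
    have e0 : h = n * b⁻¹ := by rw [e]; group
    calc h⁻¹ * t * h = b * (n⁻¹ * t * n) * b⁻¹ := by rw [e0]; group
      _ = _ := by rw [hnt]
  have htB : t ∈ Bo σ := Th_mem_Bo hσ s
  have hB : b * t * b⁻¹ ∈ Bo σ := mul_mem (mul_mem hb htB) (inv_mem hb)
  have h00 : mx (b * t * b⁻¹) 0 0 = s := by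
    have h5 : mx b 0 0 * mx b⁻¹ 0 0 = 1 := by
      rw [← mul00 (inv_mem hb), mul_inv_cancel, mx_one]; simp
    rw [mul00 (inv_mem hb), mul00 htB, ht, mx_Th]
    simp only [of_apply, cons_val_zero]
    linear_combination (s : F) * h5
  obtain ⟨x', hx', e2⟩ := XT_eq hσ hB h00
  have hx'H : x' ∈ H := by
    have : x' = h⁻¹ * t * h * t⁻¹ := by rw [e1, e2, ← ht]; group
    rw [this]
    exact mul_mem (mul_mem (mul_mem (inv_mem hh) hsH) hh) (inv_mem hsH)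
  obtain ⟨y, hy, e3⟩ := conj_of_free (K := H ⊓ U1 σ) (t := t)
    (fun z hz => Subgroup.mem_inf.2 ⟨mul_mem (mul_mem hsH (Subgroup.mem_inf.1 hz).1) (inv_mem hsH),
      conj_U1 hσ htB (Subgroup.mem_inf.1 hz).2⟩)
    (fun z hz hc => by
      have h5 : t * z = z * t := mul_inv_eq_iff_eq_mul.1 hc
      have h6 := comm_Ns hσ h1 h3 h5
      have h7 := U1_inf_Ns hσ (Subgroup.mem_inf.1 hz).2 h6
      have h8 : z ∈ H ⊓ Zo σ := Subgroup.mem_inf.2 ⟨(Subgroup.mem_inf.1 hz).1, h7⟩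
      rw [hZ, Subgroup.mem_bot] at h8
      exact h8) (Subgroup.mem_inf.2 ⟨hx'H, hx'⟩)
  have e4 : h⁻¹ * t * h = y * t * y⁻¹ := by rw [e1, e2, ← e3]
  have hm : t * (h * y) = (h * y) * t := by
    calc t * (h * y) = h * (h⁻¹ * t * h) * y := by group
      _ = _ := by rw [e4]; group
  have hmN := comm_Ns hσ h1 h3 hm
  have hyB : y ∈ Bo σ := U1_le_Bo (Subgroup.mem_inf.1 hy).2
  refine ⟨h * y, Subgroup.mem_inf.2 ⟨mul_mem hh (Subgroup.mem_inf.1 hy).1, hmN⟩, y⁻¹ * b, Subgroup.mem_inf.2 ⟨?_, ?_⟩, ?_⟩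
  · have : y⁻¹ * b = (h * y)⁻¹ * n := by rw [e]; group
    rw [this]; exact mul_mem (inv_mem hmN) hn
  · exact mul_mem (inv_mem hyB) hb
  · rw [e]; group

end gen

section fin

variable {F : Type*} [Field F] [Fintype F] {q : ℕ} (hF : Fintype.card F = q ^ 2)

theorem card_HN {H : Subgroup (UJ (frob hF))} (hZ : H ⊓ Zo (frob hF) = ⊥) (hT : ∀ s ∈ Cx H, Th (frob_frob hF) s ∈ H)
    (hN : TrN (H ⊓ Ns (frob hF))) :
    Nat.card (H ⊓ Ns (frob hF) : Subgroup (UJ (frob hF))) = (q + 1) * Nat.card (Cx H) := by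
  have hσ := frob_frob hF
  rw [TrN.card hF inf_le_right hN, card_HB]
  have h1 : Cx (H ⊓ Ns (frob hF)) = Cx H := by
    ext s
    constructor
    · intro hs
      obtain ⟨g, hg, hgB, h0⟩ := mem_Cx.1 hs
      exact mem_Cx.2 ⟨g, (Subgroup.mem_inf.1 hg).1, hgB, h0⟩
    · intro hs
      exact mem_Cx.2 ⟨Th hσ s, Subgroup.mem_inf.2 ⟨hT s hs, Th_mem_Ns hσ s⟩, Th_mem_Bo hσ s, by rw [mx_Th]; simp⟩
  have h2 : H ⊓ Ns (frob hF) ⊓ U1 (frob hF) = ⊥ := by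
    rw [eq_bot_iff]
    intro g hg
    have h3 := (Subgroup.mem_inf.1 hg).2
    have h4 := (Subgroup.mem_inf.1 (Subgroup.mem_inf.1 hg).1).2
    have h5 := (Subgroup.mem_inf.1 (Subgroup.mem_inf.1 hg).1).1
    have h6 := U1_inf_Ns hσ h3 h4
    have h7 : g ∈ H ⊓ Zo (frob hF) := Subgroup.mem_inf.2 ⟨h5, h6⟩
    rwa [hZ] at h7
  rw [h1, h2, Subgroup.card_bot, mul_one]

variable {K : Type*} [Field K] (ι : F →+* K)

theorem mem_ker_psiH {H : Subgroup (UJ (frob hF))} {g : ↥(H ⊓ Ns (frob hF))} :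
    g ∈ (psiH hF ι H).ker ↔ mx g.1 0 2 = 0 ∧ mx g.1 2 0 = 0 ∧ mx g.1 0 0 = mx g.1 2 2 := by
  rw [MonoidHom.mem_ker]
  exact psi_eq_one ι (g := ⟨g.1, (Subgroup.mem_inf.1 g.2).2⟩)

theorem card_ker_le {H : Subgroup (UJ (frob hF))} {n : ℕ} (hn : n ≠ 0)
    (h : ∀ s ∈ Cx H, (s : F) * frob hF s = 1 → (s : F) ^ n = 1) : Nat.card (psiH hF ι H).ker ≤ n := by
  have hσ := frob_frob hF
  have key : ∀ g : (psiH hF ι H).ker, mx g.1.1 0 1 = 0 ∧ mx g.1.1 0 2 = 0 ∧ mx g.1.1 1 0 = 0 ∧ mx g.1.1 1 2 = 0 ∧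
      mx g.1.1 2 0 = 0 ∧ mx g.1.1 2 1 = 0 ∧ mx g.1.1 2 2 = mx g.1.1 0 0 ∧ mx g.1.1 0 0 * mx g.1.1 1 1 * mx g.1.1 0 0 = 1 ∧
      mx g.1.1 0 0 ^ n = 1 := by
    intro g
    obtain ⟨h02, h20, h00⟩ := (mem_ker_psiH hF ι).1 g.2
    obtain ⟨h11, h01, h21, h10, h12⟩ := Ns_shape (Subgroup.mem_inf.1 g.1.2).2
    have hd : (mx g.1.1).det = 1 := g.1.1.1.2
    rw [det_fin_three, h02, h20, h01, h21, h10, h12, ← h00] at hd
    have hd' : mx g.1.1 0 0 * mx g.1.1 1 1 * mx g.1.1 0 0 = 1 := by linear_combination hd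
    have hB : g.1.1 ∈ Bo (frob hF) := by
      refine ⟨mx g.1.1 0 0, ?_, ?_⟩
      · intro h0
        rw [h0, zero_mul, zero_mul] at hd'
        exact zero_ne_one hd'
      · rw [mul_vec3, h10, h20]; simp
    have hs : Units.mk0 (mx g.1.1 0 0) (Bo_ne hB) ∈ Cx H := mem_Cx.2 ⟨g.1.1, (Subgroup.mem_inf.1 g.1.2).1, hB, rfl⟩
    have h1 : mx g.1.1 0 0 * frob hF (mx g.1.1 0 0) = 1 := by
      have h3 := g.1.1.2 ![1, 0, 0] ![0, 0, 1]
      have h4 : SU3Gen.J (frob hF) (![1, 0, 0] : Fin 3 → F) ![0, 0, 1] = 1 := by simp [SU3Gen.J]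
      have h5 : SU3Gen.J (frob hF) (mx g.1.1 *ᵥ ![1, 0, 0]) (mx g.1.1 *ᵥ ![0, 0, 1]) = mx g.1.1 0 0 * frob hF (mx g.1.1 0 0) := by
        rw [mul_vec3, mul_vec3, h02, h12, ← h00, h10, h20]
        unfold SU3Gen.J
        simp only [cons_val_zero, cons_val_one, cons_val, mul_one, mul_zero, zero_mul, add_zero, zero_add]
      exact h5.symm.trans (h3.trans h4)
    exact ⟨h01, h02, h10, h12, h20, h21, h00.symm, hd', h _ hs h1⟩
  have h00 : ∀ g : (psiH hF ι H).ker, mx g.1.1 0 0 ≠ 0 := by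
    intro g h0
    have := (key g).2.2.2.2.2.2.2.1
    rw [h0, zero_mul, zero_mul] at this
    exact zero_ne_one this
  have : NeZero n := ⟨hn⟩
  have h1 : Nat.card (psiH hF ι H).ker ≤ Nat.card (rootsOfUnity n F) := by
    refine Nat.card_le_card_of_injective (fun g => (⟨Units.mk0 (mx g.1.1 0 0) (h00 g), ?_⟩ : rootsOfUnity n F)) ?_
    · rw [mem_rootsOfUnity]
      apply Units.ext
      exact (key g).2.2.2.2.2.2.2.2
    · intro g g' e
      have e0 : mx g.1.1 0 0 = mx g'.1.1 0 0 := congrArg (fun z : rootsOfUnity n F => ((z.1 : Fˣ) : F)) e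
      obtain ⟨a1, a2, a3, a4, a5, a6, a7, a8, _⟩ := key g
      obtain ⟨b1, b2, b3, b4, b5, b6, b7, b8, _⟩ := key g'
      have e1 : mx g.1.1 1 1 = mx g'.1.1 1 1 := by
        rw [e0] at a8
        have h3 := h00 g'
        apply mul_left_cancel₀ h3
        apply mul_right_cancel₀ h3
        rw [a8, b8]
      apply Subtype.ext
      apply Subtype.ext
      apply mx_inj
      ext i j
      fin_cases i <;> fin_cases j
      · exact e0
      · exact a1.trans b1.symm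
      · exact a2.trans b2.symm
      · exact a3.trans b3.symm
      · exact e1
      · exact a4.trans b4.symm
      · exact a5.trans b5.symm
      · exact a6.trans b6.symm
      · exact a7.trans (e0.trans b7.symm)
  exact h1.trans (card_rootsOfUnity F n)

end fin

end Cfsg.Agent.Lib.PU3
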