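import Cfsg.Agent.Lib.PU3h

/-!
# Subgroups without long root elements: the induced group (helper66)
-/

set_option autoImplicit false
set_option linter.unusedSectionVars false

namespace Cfsg.Agent.Lib.PU3

open Subgroup Matrix Cfsg Cfsg.Agent.Lib.ClUnitary Cfsg.Agent.Lib.HermMat Cfsg.Agent.Lib.SylU3
open Cfsg.Agent.Lib.SU3Gen (UJ mx mx_mul mx_one mx_inj mul_vec3 X Y T W mx_X mx_Y mx_T mx_W mul3 exists_X exists_upper
  X_congr X_mul X_one X_inv X_conj T_conj)
open Cfsg.Agent.Lib.IsoRk1 (U1 mem_U1 X_mem_U1 eq_X norm_U1 co_mul co_inv W_e1 X_e3 inv_vec bruhatU line_of_comm T_e1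
  card_U1 card_UJ)
open Cfsg.Agent.Lib.MobCount Cfsg.Agent.Lib.ClProjLine
open scoped LinearAlgebra.Projectivization MatrixGroups

section gen

variable {F : Type*} [Field F] {σ : F →+* F} (hσ : ∀ x, σ (σ x) = x) {K : Type*} [Field K] (ι : F →+* K)

/-- fixed points of torus elements -/
theorem psi_Th_fix {s : Fˣ} (hs : (s : F) * σ s ≠ 1) {x : ℙ K (Fin 2 → K)} (hx : psi ι ⟨Th hσ s, Th_mem_Ns hσ s⟩ • x = x) :
    x = e0 K ∨ x = psi ι ⟨(W : UJ σ), W_mem_Ns⟩ • e0 K := by
  induction x using Projectivization.ind with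
  | _ v hv =>
    rw [psi_smul, smul_mk_GL, Projectivization.mk_eq_mk_iff'] at hx
    obtain ⟨a, ha⟩ := hx
    rw [blk_val] at ha
    have h0 := congrFun ha 0
    have h1 := congrFun ha 1
    simp [mulVec, dotProduct, Fin.sum_univ_two, mx_Th] at h0 h1
    by_cases hv1 : v 1 = 0
    · left
      rw [e0, Projectivization.mk_eq_mk_iff']
      refine ⟨v 0, ?_⟩
      ext i; fin_cases i <;> simp [hv1]
    · right
      rw [psi_e0, Projectivization.mk_eq_mk_iff']
      have hv0 : v 0 = 0 := by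
        by_contra hv0
        apply hs
        have e1 : a = ι s := h0.resolve_right hv0
        have e2 : a = (ι (σ s))⁻¹ := h1.resolve_right hv1
        apply ι.injective
        rw [map_mul, map_one, ← e1, e2]
        apply inv_mul_cancel₀
        rw [Ne, map_eq_zero, map_eq_zero]
        exact s.ne_zero
      refine ⟨v 1, ?_⟩
      ext i; fin_cases i <;> simp [hv0, mx_W]

end gen

section fin

variable {F : Type*} [Field F] [Fintype F] {q : ℕ} (hF : Fintype.card F = q ^ 2)
variable {K : Type*} [Field K] (ι : F →+* K)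
variable {p : ℕ} [hp : Fact p.Prime] [CharP K p] [IsAlgClosed K]

theorem coreA {H : Subgroup (UJ (frob hF))} (hZ : H ⊓ Zo (frob hF) = ⊥) (hT : ∀ s ∈ Cx H, Th (frob_frob hF) s ∈ H)
    (hN : TrN (H ⊓ Ns (frob hF))) (hpq : p ∣ q) {s : Fˣ} (hs : s ∈ Cx H) (hs2 : ((s : F) * frob hF s) ^ 2 ≠ 1) :
    Nat.card (XX hF ι H) = 12 ∨ Nat.card (XX hF ι H) = 24 ∨ Nat.card (XX hF ι H) = 60 := by
  have hσ := frob_frob hF
  have hq := two_le_q hF
  have horb := card_orbit hF ι hN
  have hp2 := hp.out.two_le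
  have hpX : ¬ p ∣ Nat.card (XX hF ι H) := by
    intro h
    have h1 : p ∣ (q + 1) * Nat.card (Cx H) := by
      rw [← card_HN hF hZ hT hN, card_XX hF ι H]
      exact Dvd.dvd.mul_right h _
    rcases (Nat.Prime.dvd_mul hp.out).1 h1 with h2 | h2
    · have : p ∣ 1 := (Nat.dvd_add_right hpq).1 h2
      exact absurd (Nat.dvd_one.1 this) hp.out.one_lt.ne'
    · have h3 : p ∣ q ^ 2 - 1 := by
        rw [← card_units hF]
        exact h2.trans (Subgroup.card_subgroup_dvd_card _)
      have h4 : p ∣ q ^ 2 := hpq.trans (dvd_pow_self q two_ne_zero)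
      have h5 : 1 ≤ q ^ 2 := Nat.one_le_pow _ _ (by omega)
      have : p ∣ 1 := by
        have h6 : q ^ 2 = (q ^ 2 - 1) + 1 := by omega
        rw [h6] at h4
        exact (Nat.dvd_add_right h3).1 h4
      exact absurd (Nat.dvd_one.1 this) hp.out.one_lt.ne'
  have hUU : ∀ x : ℙ K (Fin 2 → K), UU (mobX hF ι (p := p) H) x = ⊥ := by
    intro x
    by_contra hne
    obtain ⟨u, hu, hu1⟩ := (Subgroup.bot_or_exists_ne_one _).resolve_left hne
    have h1 := UU_pow _ _ _ hu
    have h2 : orderOf u = p := orderOf_eq_prime h1 hu1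
    exact hpX (h2 ▸ orderOf_dvd_natCard u)
  -- the element
  have hsH : Th hσ s ∈ H := hT s hs
  have hγm : psi ι ⟨Th hσ s, Th_mem_Ns hσ s⟩ ∈ XX hF ι H := (mem_XX hF ι).2 ⟨_, hsH, _, rfl⟩
  set γ : XX hF ι H := ⟨psi ι ⟨Th hσ s, Th_mem_Ns hσ s⟩, hγm⟩ with hγ
  have hγ2 : ∀ x : ℙ K (Fin 2 → K), γ • γ • x = x → Nat.card (MulAction.orbit (XX hF ι H) x) = q + 1 := by
    intro x hx
    have h1 : psi ι ⟨Th hσ (s * s), Th_mem_Ns hσ (s * s)⟩ • x = x := by
      have h2 : (⟨Th hσ (s * s), Th_mem_Ns hσ (s * s)⟩ : ↥(Ns (frob hF))) =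
          ⟨Th hσ s, Th_mem_Ns hσ s⟩ * ⟨Th hσ s, Th_mem_Ns hσ s⟩ := Subtype.ext (map_mul (Th hσ) s s)
      rw [h2, map_mul, mul_smul]
      exact hx
    have h3 : ((s * s : Fˣ) : F) * frob hF ((s * s : Fˣ) : F) ≠ 1 := by
      rw [Units.val_mul, map_mul]
      intro h
      apply hs2
      rw [← h]; ring
    rcases psi_Th_fix hσ ι h3 h1 with h4 | h4
    · rw [h4]; exact horb
    · obtain ⟨m, hm, b, hb, e⟩ := hN (W : UJ (frob hF)) W_mem_Ns
      have hmH := (Subgroup.mem_inf.1 hm).1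
      have hmN := (Subgroup.mem_inf.1 hm).2
      have hbN := (Subgroup.mem_inf.1 hb).1
      have hbB := (Subgroup.mem_inf.1 hb).2
      have h5 : (⟨(W : UJ (frob hF)), W_mem_Ns⟩ : ↥(Ns (frob hF))) = ⟨m, hmN⟩ * ⟨b, hbN⟩ := Subtype.ext e
      have h6 : x = (⟨psi ι ⟨m, hmN⟩, (mem_XX hF ι).2 ⟨m, hmH, hmN, rfl⟩⟩ : XX hF ι H) • e0 K := by
        rw [h4, h5, map_mul, mul_smul, (psi_fix_iff ι (g := ⟨b, hbN⟩)).2 hbB]
        rfl
      rw [h6, MulAction.orbit_smul]
      exact horb
  rcases (mobX hF ι (p := p) H).classify with ⟨_, _, h⟩ | ⟨x, hx⟩ | ⟨_, h, _⟩ | ⟨_, h, _⟩ | ⟨_, h, _⟩ | ⟨x, hx, _⟩ | ⟨x, hx, _⟩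
  · exfalso
    have hnt : Nontrivial (XX hF ι H) := by
      by_contra hcon
      rw [not_nontrivial_iff_subsingleton] at hcon
      have h1 : Nat.card (MulAction.orbit (XX hF ι H) (e0 K)) ≤ 1 := by
        have : Subsingleton (MulAction.orbit (XX hF ι H) (e0 K)) := by
          constructor
          rintro ⟨y, g, rfl⟩ ⟨y', g', rfl⟩
          apply Subtype.ext
          show g • e0 K = g' • e0 K
          rw [Subsingleton.elim g g']
        exact Finite.card_le_one_iff_subsingleton.2 this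
      omega
    obtain ⟨x, y, hxy, hfix⟩ := h hnt
    have h1 := hγ2 x (by rw [(hfix γ).1, (hfix γ).1])
    have h2 : Nat.card (MulAction.orbit (XX hF ι H) x) ≤ 1 := by
      have : Subsingleton (MulAction.orbit (XX hF ι H) x) := by
        constructor
        rintro ⟨y, g, rfl⟩ ⟨y', g', rfl⟩
        apply Subtype.ext
        show g • x = g' • x
        rw [(hfix g).1, (hfix g').1]
      exact Finite.card_le_one_iff_subsingleton.2 this
    omega
  · exfalso
    have h1 : γ • γ • x = x := by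
      obtain ⟨y, z, hyz, hall⟩ := Nat.card_eq_two_iff.1 hx
      have m1 : (⟨x, MulAction.mem_orbit_self x⟩ : MulAction.orbit (XX hF ι H) x) ∈ ({y, z} : Set _) := by
        rw [hall]; trivial
      have m2 : (⟨γ • x, MulAction.mem_orbit x γ⟩ : MulAction.orbit (XX hF ι H) x) ∈ ({y, z} : Set _) := by
        rw [hall]; trivial
      have m3 : (⟨γ • γ • x, by rw [smul_smul]; exact MulAction.mem_orbit x (γ * γ)⟩ : MulAction.orbit (XX hF ι H) x) ∈ ({y, z} : Set _) := by
        rw [hall]; trivial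
      by_cases hgx : γ • x = x
      · rw [hgx, hgx]
      · have n1 : (⟨γ • x, MulAction.mem_orbit x γ⟩ : MulAction.orbit (XX hF ι H) x) ≠ ⟨x, MulAction.mem_orbit_self x⟩ :=
          fun e => hgx (congrArg Subtype.val e)
        have n2 : (⟨γ • γ • x, by rw [smul_smul]; exact MulAction.mem_orbit x (γ * γ)⟩ : MulAction.orbit (XX hF ι H) x) ≠
            ⟨γ • x, MulAction.mem_orbit x γ⟩ := by
          intro e
          have : γ • γ • x = γ • x := congrArg Subtype.val e
          exact hgx (MulAction.injective γ this)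
        have e1 : (⟨γ • γ • x, by rw [smul_smul]; exact MulAction.mem_orbit x (γ * γ)⟩ : MulAction.orbit (XX hF ι H) x) =
            ⟨x, MulAction.mem_orbit_self x⟩ := by
          simp only [Set.mem_insert_iff, Set.mem_singleton_iff] at m1 m2 m3
          rcases m1 with m1 | m1 <;> rcases m2 with m2 | m2 <;> rcases m3 with m3 | m3 <;>
            first
            | exact absurd (m2.trans m1.symm) n1
            | exact absurd (m3.trans m2.symm) n2
            | exact m3.trans m1.symm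
        exact congrArg Subtype.val e1
    have h2 := hγ2 x h1
    omega
  · left; exact h
  · right; left; exact h
  · right; right; exact h
  · exact absurd (hUU x) hx
  · exact absurd (hUU x) hx

end fin

end Cfsg.Agent.Lib.PU3
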