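import Cfsg.Agent.Lib.PU3i

/-!
# Subgroups without long root elements: numerical conclusions (helper66)
-/

set_option autoImplicit false
set_option linter.unusedSectionVars false

namespace Cfsg.Agent.Lib.PU3

open Subgroup Matrix Cfsg Cfsg.Agent.Lib.ClUnitary Cfsg.Agent.Lib.HermMat Cfsg.Agent.Lib.SylU3
open Cfsg.Agent.Lib.SU3Gen (UJ mx mx_mul mx_one mx_inj mul_vec3 X Y T W mx_X mx_Y mx_T mx_W mul3 exists_X exists_upper
  X_congr X_mul X_one X_inv X_conj T_conj)
open Cfsg.Agent.Lib.IsoRk1 (U1 mem_U1 X_mem_U1 eq_X norm_U1 co_mul co_inv W_e1 X_e3 inv_vec bruhatU line_of_comm T_e1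
  card_U1 card_UJ)
open Cfsg.Agent.Lib.MobCount Cfsg.Agent.Lib.ClProjLine
open scoped LinearAlgebra.Projectivization MatrixGroups

section fin

variable {F : Type*} [Field F] [Fintype F] {q : ℕ} (hF : Fintype.card F = q ^ 2)

theorem mul_frob (t : Fˣ) : (t : F) * frob hF t = ((t ^ (q + 1) : Fˣ) : F) := by
  rw [fr, Units.val_pow_eq_pow_val]; ring

/-- the numerical consequence -/
theorem coreN {H : Subgroup (UJ (frob hF))} (hTr : Tr H) (hZ : H ⊓ Zo (frob hF) = ⊥) {s s1 : Fˣ} {n : ℕ} (hn : n ≠ 0)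
    (hs : s ∈ Cx H) (hgen : Cx H ≤ zpowers s) (hμ : s ^ 2 ≠ s ^ q) (hs2 : s ^ (2 * (q + 1)) ≠ 1) (hs1 : s1 ∈ Cx H)
    (h1 : s1 ^ (q + 1) = 1) (h3 : s1 ^ 3 ≠ 1) (hk : ∀ t ∈ Cx H, t ^ (q + 1) = 1 → t ^ n = 1) :
    ∃ X κ : ℕ, (X = 12 ∨ X = 24 ∨ X = 60) ∧ X * κ = (q + 1) * Nat.card (Cx H) ∧ κ ≤ n := by
  have hσ := frob_frob hF
  obtain ⟨p, f, hp, hc, hqp, hf⟩ := exists_char hF
  have := Fact.mk hp
  have hcK : CharP (AlgebraicClosure F) p := charP_of_injective_algebraMap (algebraMap F (AlgebraicClosure F)).injective p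
  have hpq : p ∣ q := by rw [hqp]; exact dvd_pow_self p (by omega)
  have hμ' : (s : F) ^ 2 * (frob hF s)⁻¹ ≠ 1 := by
    intro h
    apply hμ
    apply Units.ext
    rw [Units.val_pow_eq_pow_val, Units.val_pow_eq_pow_val]
    rw [mul_inv_eq_one₀ ((map_ne_zero _).2 s.ne_zero)] at h
    exact h
  have hs' : (s : F) * frob hF s ≠ 1 := by
    rw [mul_frob]; intro h
    apply hs2
    have h4 : s ^ (q + 1) = 1 := Units.ext h
    rw [mul_comm, pow_mul, h4, one_pow]
  obtain ⟨x, hx, hxs⟩ := exists_conj_T hσ H hs hμ' hs'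
  set H' := cj x H with hH'
  have hCx : Cx H' = Cx H := Cx_cj hx H
  have hZ' : H' ⊓ Zo (frob hF) = ⊥ := by
    have h := card_cj_inf (norm_Zo' hσ (U1_le_Bo hx)) H
    rw [hZ, Subgroup.card_bot] at h
    exact Subgroup.card_eq_one.1 h
  have hT : ∀ t ∈ Cx H', Th hσ t ∈ H' := by
    intro t ht
    rw [hCx] at ht
    have h4 : zpowers s ≤ H'.comap (Th hσ) := by rw [zpowers_le]; exact hxs
    exact h4 (hgen ht)
  have hTr' : Tr H' := hTr.cj x
  have hN : TrN (H' ⊓ Ns (frob hF)) := TrN_of_T hσ hTr' hZ' (hT s1 (by rw [hCx]; exact hs1)) (by rw [mul_frob, h1]; rfl) (by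
     intro h; apply h3; apply Units.ext; rw [Units.val_pow_eq_pow_val]; exact h)
  have hX := coreA hF (algebraMap F (AlgebraicClosure F)) (p := p) hZ' hT hN hpq (s := s) (by rw [hCx]; exact hs) (by
    rw [mul_frob]
    intro h
    apply hs2
    rw [mul_comm, pow_mul]
    apply Units.ext
    rw [Units.val_pow_eq_pow_val]
    exact h)
  refine ⟨_, _, hX, ?_, card_ker_le hF (algebraMap F (AlgebraicClosure F)) (H := H') hn ?_⟩
  · rw [← card_XX, card_HN hF hZ' hT hN, hCx]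
  · intro t ht h
    rw [hCx] at ht
    rw [mul_frob] at h
    have h4 := hk t ht (Units.ext h)
    rw [← Units.val_pow_eq_pow_val, h4]; rfl

theorem caseA1 {H : Subgroup (UJ (frob hF))} (hTr : Tr H) (hZ : H ⊓ Zo (frob hF) = ⊥) (hA : Ax (frob_frob hF) H = ⊥)
    (hbig : q ^ 2 - 1 ≤ Nat.card (H ⊓ Bo (frob hF) : Subgroup (UJ (frob hF)))) (hq3 : 3 ≤ q) (hq5 : q ≠ 5) :
    q = 3 ∧ Nat.card H = 224 := by
  have h1 : Nat.card (H ⊓ U1 (frob hF) : Subgroup (UJ (frob hF))) = 1 := by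
    rw [card_HU (frob_frob hF), hA, hZ, AddSubgroup.card_bot, Subgroup.card_bot]
  have h2 := card_HB H
  rw [h1, mul_one] at h2
  have hqq : 3 * q ≤ q ^ 2 := by nlinarith
  have h3 : Nat.card (Cx H) ∣ q ^ 2 - 1 := by
    rw [← card_units hF]; exact Subgroup.card_subgroup_dvd_card _
  have h4 : Nat.card (Cx H) = q ^ 2 - 1 := le_antisymm (Nat.le_of_dvd (by omega) h3) (h2 ▸ hbig)
  have htop : Cx H = ⊤ := Subgroup.eq_top_of_card_eq _ (by rw [h4, card_units hF])
  have hc := hTr.card hF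
  rw [h2, h4] at hc
  by_cases hq : q = 3
  · subst hq; exact ⟨rfl, by rw [hc]; norm_num⟩
  exfalso
  obtain ⟨s, hs⟩ := IsCyclic.exists_generator (α := Fˣ)
  have hos : orderOf s = q ^ 2 - 1 := by rw [orderOf_eq_card_of_forall_mem_zpowers hs, card_units hF]
  have hqq' : q ^ 2 - 1 = (q + 1) * (q - 1) := sq_sub_one q
  obtain ⟨k, rfl⟩ : ∃ k, q = k + 4 := ⟨q - 4, by omega⟩
  obtain ⟨X, κ, hX, hXκ, hκ⟩ := coreN hF hTr hZ (s := s) (s1 := s ^ (k + 4 - 1)) (n := k + 4 + 1) (by omega)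
    (by rw [htop]; trivial) (fun t _ => hs t)
    (by
      intro h
      have h5 := pow_injOn_Iio_orderOf (x := s) (show (2 : ℕ) ∈ Set.Iio (orderOf s) by rw [hos, Set.mem_Iio]; omega)
        (show (k + 4 : ℕ) ∈ Set.Iio (orderOf s) by rw [hos, Set.mem_Iio]; omega) h
      omega)
    (by
      intro h
      have h5 := orderOf_dvd_of_pow_eq_one h
      rw [hos] at h5
      have h6 := Nat.le_of_dvd (by omega) h5
      rw [hqq'] at h6
      have h7 : (k + 4 + 1) * (k + 4 - 1) = (k + 3) * (k + 5) := by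
        have : k + 4 - 1 = k + 3 := by omega
        rw [this]; ring
      rw [h7] at h6
      nlinarith)
    (by rw [htop]; trivial)
    (by rw [← pow_mul, mul_comm, ← hqq', ← hos, pow_orderOf_eq_one])
    (by
      rw [← pow_mul]
      intro h
      have h5 := orderOf_dvd_of_pow_eq_one h
      rw [hos] at h5
      have h6 := Nat.le_of_dvd (by omega) h5
      rw [hqq'] at h6
      have h7 : (k + 4 + 1) * (k + 4 - 1) = (k + 3) * (k + 5) := by
        have : k + 4 - 1 = k + 3 := by omega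
        rw [this]; ring
      have h8 : (k + 4 - 1) * 3 = 3 * (k + 3) := by
        have : k + 4 - 1 = k + 3 := by omega
        rw [this]; ring
      rw [h7, h8] at h6
      nlinarith)
    (fun t _ h => h)
  rw [h4] at hXκ
  have h5 : (k + 4) ^ 2 - 1 ≤ 60 := by
    by_contra hcon
    push Not at hcon
    have h6 : X * κ ≤ 60 * (k + 4 + 1) := Nat.mul_le_mul (by omega) hκ
    rw [hXκ] at h6
    have h7 : (k + 4 + 1) * 61 ≤ (k + 4 + 1) * ((k + 4) ^ 2 - 1) := Nat.mul_le_mul_left _ hcon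
    omega
  have h6 : k ≤ 3 := by
    by_contra hcon
    have : (k + 4) ^ 2 ≥ 8 ^ 2 := Nat.pow_le_pow_left (by omega) 2
    omega
  interval_cases k <;> rcases hX with rfl | rfl | rfl <;> omega

/-- parity -/
theorem even_HB {H : Subgroup (UJ (frob hF))} (hTr : Tr H) (h : 2 ∣ Nat.card H) :
    2 ∣ Nat.card (H ⊓ Bo (frob hF) : Subgroup (UJ (frob hF))) := by
  have : Fact (Nat.Prime 2) := ⟨Nat.prime_two⟩
  obtain ⟨⟨t, htH⟩, ht⟩ := exists_prime_orderOf_dvd_card' 2 h
  have ht' : orderOf t = 2 := by rw [← ht]; exact (Subgroup.orderOf_mk t htH).symm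
  have ht2 : t * t = 1 := by rw [← pow_two, ← ht', pow_orderOf_eq_one]
  obtain ⟨y, hy⟩ := inv_Bo (frob_frob hF) (hnmF hF) ht2
  obtain ⟨h, hh, b, hb, e⟩ := hTr y
  have h1 : h⁻¹ * t * h = b * (y⁻¹ * t * y) * b⁻¹ := by rw [e]; group
  have h2 : h⁻¹ * t * h ∈ H ⊓ Bo (frob hF) :=
    Subgroup.mem_inf.2 ⟨mul_mem (mul_mem (inv_mem hh) htH) hh, by rw [h1]; exact mul_mem (mul_mem hb hy) (inv_mem hb)⟩
  have h3 : orderOf (h⁻¹ * t * h) = 2 := by
    rw [← ht']
    have : h⁻¹ * t * h = MulAut.conj h⁻¹ t := by rw [MulAut.conj_apply]; group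
    rw [this]
    exact orderOf_injective (MulAut.conj h⁻¹).toMonoidHom (MulAut.conj h⁻¹).injective t
  rw [← h3]
  exact Subgroup.orderOf_dvd_natCard _ h2

theorem card_fiber_le {A : AddSubgroup F} {a0 : F} (ha0 : a0 ≠ 0)
    (h : ∀ a ∈ A, a * frob hF a0 = a0 * frob hF a) : Nat.card A ≤ q := by
  have hσ := frob_frob hF
  have hq := two_le_q hF
  have h1 := card_fiber hF 0 (zero_pow (by omega))
  obtain ⟨θ, hθ⟩ : ∃ θ : {b : F // b + b ^ q = 0}, θ.1 ≠ 0 := by
    by_contra hcon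
    push Not at hcon
    have : Subsingleton {b : F // b + b ^ q = 0} := ⟨fun x y => Subtype.ext ((hcon x).trans (hcon y).symm)⟩
    have h2 := Finite.card_le_one_iff_subsingleton.2 this
    omega
  have hθ2 : frob hF θ.1 = - θ.1 := by
    have := θ.2
    change θ.1 ^ q = - θ.1
    linear_combination this
  have hs0 : frob hF a0 ≠ 0 := (map_ne_zero _).2 ha0
  rw [← h1]
  refine Nat.card_le_card_of_injective (fun a : A => (⟨a.1 * frob hF a0 * θ.1, ?_⟩ : {b : F // b + b ^ q = 0})) ?_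
  · have h2 : (a.1 * frob hF a0 * θ.1) ^ q = frob hF (a.1 * frob hF a0 * θ.1) := rfl
    rw [h2, map_mul, map_mul, hσ, hθ2]
    linear_combination θ.1 * h a.1 a.2
  · intro a b e
    have h2 : a.1 * frob hF a0 * θ.1 = b.1 * frob hF a0 * θ.1 := congrArg Subtype.val e
    exact Subtype.ext (mul_right_cancel₀ hs0 (mul_right_cancel₀ hθ h2))

theorem caseA2 {H : Subgroup (UJ (frob hF))} (hTr : Tr H) (hZ : H ⊓ Zo (frob hF) = ⊥) (hA : Ax (frob_frob hF) H ≠ ⊥)
    (hbig : q ^ 2 - 1 ≤ Nat.card (H ⊓ Bo (frob hF) : Subgroup (UJ (frob hF)))) (hq3 : 3 ≤ q) (hq5 : q ≠ 5) :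
    q = 11 ∧ Nat.card H = 439560 ∧ Nat.card (H ⊓ U1 (frob hF) : Subgroup (UJ (frob hF))) = 11 ∧ Nat.card (Cx H) = 30 := by
  have hσ := frob_frob hF
  obtain ⟨a0, ha0A, ha0⟩ := (AddSubgroup.bot_or_exists_ne_zero _).resolve_left hA
  have hs0 : frob hF a0 ≠ 0 := (map_ne_zero _).2 ha0
  have hzero : ∀ b h, X hσ 0 b h ∈ H → b = 0 := by
    intro b h hm
    have h1 : X hσ 0 b h ∈ H ⊓ Zo (frob hF) := Subgroup.mem_inf.2 ⟨hm, X0_mem_Zo hσ h⟩
    rw [hZ, Subgroup.mem_bot, ← X_one hσ] at h1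
    have := congrFun (congrFun (congrArg mx h1) 0) 2
    rw [mx_X, mx_X] at this
    simpa using this
  have hcomm : ∀ a ∈ Ax hσ H, ∀ a' ∈ Ax hσ H, a' * frob hF a = a * frob hF a' := by
    intro a ha a' ha'
    obtain ⟨h, hm⟩ := comm_mem_Z hσ ha ha'
    have := hzero _ _ hm
    linear_combination this
  have h2F : (2 : F) ≠ 0 := by
    intro h2
    obtain ⟨b, h, hm⟩ := ha0A
    obtain ⟨h', e⟩ := X_mul hσ h h
    have h3 : X hσ (a0 + a0) (b - a0 * frob hF a0 + b) h' ∈ H := by rw [← e]; exact mul_mem hm hm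
    have h4 : a0 + a0 = 0 := by rw [← two_mul, h2, zero_mul]
    have h5 : b - a0 * frob hF a0 + b = -(a0 * frob hF a0) := by linear_combination b * h2
    have h6 : -(a0 * frob hF a0) + frob hF (-(a0 * frob hF a0)) + 0 * frob hF 0 = 0 := by
      have h'' := h'
      rw [h5, h4] at h''
      exact h''
    have h7 : X hσ (a0 + a0) (b - a0 * frob hF a0 + b) h' = X hσ 0 (-(a0 * frob hF a0)) h6 := X_congr hσ h4 h5
    rw [h7] at h3
    have h8 := hzero _ _ h3
    rw [neg_eq_zero] at h8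
    rcases mul_eq_zero.1 h8 with h | h
    · exact ha0 h
    · exact hs0 h
  have hq : Odd q := by
    obtain ⟨p, f, hp, hc, hqp, hf⟩ := exists_char hF
    rw [hqp]
    apply Odd.pow
    apply hp.odd_of_ne_two
    rintro rfl
    apply h2F
    have := CharP.cast_eq_zero F 2
    exact_mod_cast this
  have h3q : ∀ s ∈ Cx H, s ^ (3 * (q - 1)) = 1 := by
    intro s hs
    have h1 := hcomm _ ha0A _ (mul_mem_Ax hσ hs ha0A)
    have h2 : (s : F) ≠ 0 := s.ne_zero
    have h3 : frob hF (s : F) ≠ 0 := (map_ne_zero _).2 h2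
    simp only [map_mul, map_pow, map_inv₀, hσ] at h1
    have h4 : (s : F) ^ 3 = (frob hF s) ^ 3 := by
      have h5 : (s : F) ^ 2 * (frob hF s)⁻¹ = (frob hF s) ^ 2 * (s : F)⁻¹ := by
        have h6 : (a0 * frob hF a0) * ((s : F) ^ 2 * (frob hF s)⁻¹) = (a0 * frob hF a0) * ((frob hF s) ^ 2 * (s : F)⁻¹) := by
          linear_combination h1
        exact mul_left_cancel₀ (mul_ne_zero ha0 hs0) h6
      field_simp at h5
      exact h5
    rw [fr] at h4
    have h5 : s ^ 3 = (s ^ q) ^ 3 := by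
      apply Units.ext
      rw [Units.val_pow_eq_pow_val, Units.val_pow_eq_pow_val, Units.val_pow_eq_pow_val]
      exact h4
    have h6 : s ^ 3 * s ^ (3 * (q - 1)) = s ^ 3 * 1 := by
      rw [← pow_add, mul_one]
      have : 3 + 3 * (q - 1) = q * 3 := by omega
      rw [this, pow_mul]
      exact h5.symm
    exact mul_left_cancel h6
  obtain ⟨⟨s, hs⟩, hgen'⟩ := IsCyclic.exists_generator (α := Cx H)
  have hgen : Cx H ≤ zpowers s := by
    intro t ht
    obtain ⟨k, hk⟩ := hgen' ⟨t, ht⟩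
    exact ⟨k, congrArg Subtype.val hk⟩
  have hos : orderOf s = Nat.card (Cx H) := by
    rw [← orderOf_eq_card_of_forall_mem_zpowers hgen', Subgroup.orderOf_mk]
  have hd1 : Nat.card (Cx H) ∣ 3 * (q - 1) := by
    rw [← hos]; exact orderOf_dvd_of_pow_eq_one (h3q s hs)
  have hd2 : Nat.card (Cx H) ∣ (q + 1) * (q - 1) := by
    rw [← sq_sub_one, ← card_units hF]; exact Subgroup.card_subgroup_dvd_card _
  have hAq : Nat.card (Ax hσ H) ≤ q := card_fiber_le hF ha0 (fun a ha => hcomm a0 ha0A a ha)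
  have hU : Nat.card (H ⊓ U1 (frob hF) : Subgroup (UJ (frob hF))) = Nat.card (Ax hσ H) := by
    rw [card_HU hσ, hZ, Subgroup.card_bot, mul_one]
  have hB := card_HB H
  rw [hU] at hB
  rw [hB, sq_sub_one] at hbig
  have hc1 : Nat.card (Cx H) ≤ 3 * (q - 1) := Nat.le_of_dvd (by omega) hd1
  -- the order of `Ax`
  have hAx : Nat.card (Ax hσ H) = q := by
    obtain ⟨p, f, hp, hc, hqp, hf⟩ := exists_char hF
    have h1 : Nat.card (Ax hσ H) ∣ p ^ (f * 2) := by
      rw [pow_mul, ← hqp, ← hF, ← Nat.card_eq_fintype_card]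
      exact AddSubgroup.card_addSubgroup_dvd_card _
    obtain ⟨j, hj, hj2⟩ := (Nat.dvd_prime_pow hp).1 h1
    by_contra hne
    have hp3 : 3 ≤ p := by
      have h3 : p ≠ 2 := by
        rintro rfl
        rw [hqp] at hq
        exact (Nat.not_even_iff_odd.2 hq) ((Nat.even_pow.2 ⟨even_two, by omega⟩))
      have := hp.two_le
      omega
    have hjf : j < f := by
      rw [hj2, hqp] at hAq
      rcases lt_or_ge j f with h | h
      · exact h
      · exfalso
        have h4 : j ≤ f := (Nat.pow_le_pow_iff_right hp.one_lt).1 hAq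
        have h5 : j = f := le_antisymm h4 h
        apply hne
        rw [hj2, hqp, h5]
    have h6 : 3 * Nat.card (Ax hσ H) ≤ q := by
      rw [hj2, hqp]
      calc 3 * p ^ j ≤ p * p ^ j := Nat.mul_le_mul_right _ hp3
        _ = p ^ (j + 1) := by ring
        _ ≤ p ^ f := Nat.pow_le_pow_right hp.pos hjf
    have h7 : 3 * ((q + 1) * (q - 1)) ≤ 3 * (q - 1) * q := by
      calc 3 * ((q + 1) * (q - 1)) ≤ 3 * (Nat.card (Cx H) * Nat.card (Ax hσ H)) := Nat.mul_le_mul_left _ hbig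
        _ = Nat.card (Cx H) * (3 * Nat.card (Ax hσ H)) := by ring
        _ ≤ (3 * (q - 1)) * q := Nat.mul_le_mul hc1 h6
    have h8 : 3 * ((q + 1) * (q - 1)) = 3 * (q - 1) * q + 3 * (q - 1) := by ring
    omega
  rw [hAx] at hB hbig
  have hcq : q ≤ Nat.card (Cx H) := by
    by_contra hcon
    push Not at hcon
    have h1 : Nat.card (Cx H) * q ≤ (q - 1) * q := Nat.mul_le_mul_right _ (by omega)
    have h8 : (q + 1) * (q - 1) = (q - 1) * q + (q - 1) := by ring
    omega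
  obtain ⟨j, hj⟩ := hd1
  have hj3 : j < 3 := by
    by_contra hcon
    push Not at hcon
    have h1 : Nat.card (Cx H) * 3 ≤ Nat.card (Cx H) * j := Nat.mul_le_mul_left _ hcon
    omega
  have h3q1 : 3 ∣ q + 1 := by
    by_contra hcon
    have h1 : Nat.Coprime 3 (q + 1) := (Nat.Prime.coprime_iff_not_dvd Nat.prime_three).2 hcon
    have h2 : Nat.card (Cx H) ∣ Nat.gcd (3 * (q - 1)) ((q + 1) * (q - 1)) := Nat.dvd_gcd ⟨j, hj⟩ hd2
    rw [Nat.gcd_mul_right, Nat.Coprime.gcd_eq_one h1, one_mul] at h2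
    have h3 := Nat.le_of_dvd (by omega) h2
    omega
  have hq11 : 11 ≤ q := by
    obtain ⟨k, hk⟩ := hq
    omega
  have heven : 2 ∣ Nat.card (Cx H) := by
    have h1 : 2 ∣ Nat.card H := by
      rw [hTr.card hF]
      apply Dvd.dvd.mul_right
      exact (hq.pow.add_odd odd_one).two_dvd
    have h2 := even_HB hF hTr h1
    rw [hB] at h2
    rcases (Nat.Prime.dvd_mul Nat.prime_two).1 h2 with h | h
    · exact h
    · exact absurd h (by obtain ⟨k, hk⟩ := hq; omega)
  have hneg : (-1 : Fˣ) ∈ Cx H := by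
    have : Fact (Nat.Prime 2) := ⟨Nat.prime_two⟩
    obtain ⟨⟨t, htC⟩, ht⟩ := exists_prime_orderOf_dvd_card' 2 heven
    rw [Subgroup.orderOf_mk] at ht
    have h1 : (t : F) * t = 1 := by
      have : t ^ 2 = 1 := by rw [← ht, pow_orderOf_eq_one]
      rw [pow_two] at this
      exact congrArg Units.val this
    rcases mul_self_eq_one_iff.1 h1 with h2 | h2
    · exfalso
      have : t = 1 := Units.ext h2
      rw [this, orderOf_one] at ht
      omega
    · have : t = -1 := Units.ext (by rw [h2]; rfl)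
      rw [← this]; exact htC
  obtain ⟨Xc, κ, hX, hXκ, hκ⟩ := coreN hF hTr hZ (s := s) (s1 := -1) (n := 6) (by omega) hs hgen
    (by
      intro h
      have h1 : s ^ (q - 2) = 1 := by
        have h2 : s ^ 2 * s ^ (q - 2) = s ^ 2 * 1 := by
          rw [← pow_add, mul_one]
          have : 2 + (q - 2) = q := by omega
          rw [this]; exact h.symm
        exact mul_left_cancel h2
      have h2 := orderOf_dvd_of_pow_eq_one h1
      rw [hos] at h2
      have h3 := Nat.le_of_dvd (by omega) h2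
      omega)
    (by
      intro h
      have h1 := orderOf_dvd_of_pow_eq_one h
      rw [hos] at h1
      have h2 : Nat.card (Cx H) ∣ 12 := by
        have h3 : Nat.card (Cx H) ∣ 3 * (2 * (q + 1)) := Dvd.dvd.mul_left h1 _
        have h4 : Nat.card (Cx H) ∣ 2 * (3 * (q - 1)) := Dvd.dvd.mul_left ⟨j, hj⟩ _
        have h5 : 3 * (2 * (q + 1)) = 2 * (3 * (q - 1)) + 12 := by omega
        rw [h5] at h3
        exact (Nat.dvd_add_right h4).1 h3
      have h3 := Nat.le_of_dvd (by norm_num) h2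
      have h4 : j ≤ 2 := by omega
      have h5 : Nat.card (Cx H) * j ≤ 12 * 2 := Nat.mul_le_mul h3 h4
      omega)
    hneg
    (by rw [Even.neg_one_pow (by obtain ⟨k, hk⟩ := hq; exact ⟨k + 1, by omega⟩)])
    (by
      rw [Odd.neg_one_pow (by decide)]
      intro h
      apply h2F
      have h1 : (-1 : F) = 1 := congrArg Units.val h
      linear_combination -h1)
    (by
      intro t ht h
      have h1 := h3q t ht
      have h2 : t ^ (3 * (q + 1)) = 1 := by rw [mul_comm, pow_mul, h, one_pow]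
      have h3 : 3 * (q + 1) = 6 + 3 * (q - 1) := by omega
      rw [h3, pow_add, h1, mul_one] at h2
      exact h2)
  have h1 : (q + 1) * Nat.card (Cx H) ≤ 360 := by
    rw [← hXκ]
    calc Xc * κ ≤ 60 * 6 := Nat.mul_le_mul (by omega) hκ
      _ = 360 := by norm_num
  have h2 : 3 * (q - 1) ≤ 2 * Nat.card (Cx H) := by
    rw [hj, mul_comm 2]
    exact Nat.mul_le_mul_left _ (by omega)
  have hq15 : q ≤ 15 := by
    by_contra hcon
    push Not at hcon
    have h3 : 17 * Nat.card (Cx H) ≤ (q + 1) * Nat.card (Cx H) := Nat.mul_le_mul_right _ (by omega)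
    omega
  have hq' : q = 11 := by
    obtain ⟨k, hk⟩ := hq
    omega
  subst hq'
  have hC : Nat.card (Cx H) = 30 := by
    interval_cases j <;> omega
  refine ⟨rfl, ?_, by rw [hU, hAx], hC⟩
  rw [hTr.card hF, hB, hC]; norm_num

end fin

end Cfsg.Agent.Lib.PU3
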