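import Cfsg.Agent.Lib.PU3j

/-!
# Subgroups with long root elements (helper66)
-/

set_option autoImplicit false
set_option linter.unusedSectionVars false

namespace Cfsg.Agent.Lib.PU3

open Subgroup Matrix Cfsg Cfsg.Agent.Lib.ClUnitary Cfsg.Agent.Lib.HermMat Cfsg.Agent.Lib.SylU3
open Cfsg.Agent.Lib.SU3Gen (UJ mx mx_mul mx_one mx_inj mul_vec3 X Y T W mx_X mx_Y mx_T mx_W mul3 exists_X exists_upper
  X_congr X_mul X_one X_inv X_conj T_conj)
open Cfsg.Agent.Lib.IsoRk1 (U1 mem_U1 X_mem_U1 eq_X norm_U1 co_mul co_inv W_e1 X_e3 inv_vec bruhatU line_of_comm T_e1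
  card_U1 card_UJ)

theorem card_ker_range_add {G L : Type*} [AddGroup G] [AddGroup L] (f : G →+ L) :
    Nat.card G = Nat.card f.range * Nat.card f.ker := by
  rw [AddSubgroup.card_eq_card_quotient_mul_card_addSubgroup f.ker,
    Nat.card_congr (QuotientAddGroup.quotientKerEquivRange f).toEquiv]

section gen

variable {F : Type*} [Field F] {σ : F →+* F} (hσ : ∀ x, σ (σ x) = x)

/-- the parameters of the long root elements -/
def Bz (H : Subgroup (UJ σ)) : AddSubgroup F where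
  carrier := {b | ∃ h, X hσ 0 b h ∈ H}
  zero_mem' := ⟨by simp, by rw [X_one]; exact one_mem _⟩
  add_mem' := by
    rintro x x' ⟨h1, hx⟩ ⟨h2, hx'⟩
    obtain ⟨h3, e⟩ := X_mul hσ h1 h2
    have h4 : x + x' + σ (x + x') + 0 * σ 0 = 0 := by
      rw [map_add]; linear_combination h1 + h2
    refine ⟨h4, ?_⟩
    have h5 : X hσ 0 (x + x') h4 = X hσ 0 x h1 * X hσ 0 x' h2 := by
      rw [e]; apply X_congr hσ
      · rw [add_zero]
      · ring
    rw [h5]; exact mul_mem hx hx'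
  neg_mem' := by
    rintro x ⟨h1, hx⟩
    obtain ⟨h3, e⟩ := X_inv hσ h1
    have h4 : -x + σ (-x) + 0 * σ 0 = 0 := by
      rw [map_neg]; linear_combination -h1
    refine ⟨h4, ?_⟩
    have h5 : X hσ 0 (-x) h4 = (X hσ 0 x h1)⁻¹ := by
      rw [e]; apply X_congr hσ
      · rw [neg_zero]
      · linear_combination -h1
    rw [h5]; exact inv_mem hx

theorem card_Bz (H : Subgroup (UJ σ)) : Nat.card (Bz hσ H) = Nat.card (H ⊓ Zo σ : Subgroup (UJ σ)) := by
  refine Nat.card_congr (Equiv.ofBijective (fun b => (⟨X hσ 0 b.1 b.2.1, Subgroup.mem_inf.2 ⟨b.2.2, X0_mem_Zo hσ b.2.1⟩⟩ :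
    (H ⊓ Zo σ : Subgroup (UJ σ)))) ⟨?_, ?_⟩)
  · intro b b' e
    have h1 : X hσ 0 b.1 b.2.1 = X hσ 0 b'.1 b'.2.1 := congrArg Subtype.val e
    have h2 := congrFun (congrFun (congrArg mx h1) 0) 2
    rw [mx_X, mx_X] at h2
    exact Subtype.ext (by simpa using h2)
  · rintro ⟨g, hg⟩
    obtain ⟨b, h, e⟩ := exists_Z hσ (Subgroup.mem_inf.1 hg).2
    refine ⟨⟨b, h, by rw [← e]; exact (Subgroup.mem_inf.1 hg).1⟩, ?_⟩
    exact Subtype.ext e.symm

/-- bound by commutators -/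
theorem card_Ax_le [Finite F] {H : Subgroup (UJ σ)} {a1 : F} (h1 : a1 ∈ Ax hσ H) :
    ∃ A' : AddSubgroup F, (∀ a ∈ A', a ∈ Ax hσ H ∧ a * σ a1 = a1 * σ a) ∧
      Nat.card (Ax hσ H) ≤ Nat.card (Bz hσ H) * Nat.card A' := by
  let φ : ↥(Ax hσ H) →+ F := AddMonoidHom.mk' (fun a => a.1 * σ a1 - a1 * σ a.1) (by
    intro a b
    simp only [AddSubgroup.coe_add, map_add]
    ring)
  refine ⟨φ.ker.map (Ax hσ H).subtype, ?_, ?_⟩
  · rintro a ⟨x, hx, rfl⟩
    refine ⟨x.2, ?_⟩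
    have : x.1 * σ a1 - a1 * σ x.1 = 0 := hx
    exact sub_eq_zero.1 this
  · have h2 : Nat.card (φ.ker.map (Ax hσ H).subtype) = Nat.card φ.ker :=
      Nat.card_congr (φ.ker.equivMapOfInjective _ (Ax hσ H).subtype_injective).symm.toEquiv
    rw [h2, card_ker_range_add φ]
    apply Nat.mul_le_mul_right
    have h3 : φ.range ≤ Bz hσ H := by
      rintro _ ⟨a, rfl⟩
      exact comm_mem_Z hσ h1 a.2
    exact AddSubgroup.card_le_of_le h3

end gen

section fin

variable {F : Type*} [Field F] [Fintype F] {q : ℕ} (hF : Fintype.card F = q ^ 2)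

theorem ord_mu {H : Subgroup (UJ (frob hF))} {s : Fˣ} (hs : s ∈ Cx H) :
    orderOf (s ^ 2 * (s ^ q)⁻¹) ∣ Nat.card (Ax (frob_frob hF) H) - 1 := by
  have hσ := frob_frob hF
  rw [← Nat.card_zpowers]
  apply card_dvd_sub_one
  rintro t ⟨k, rfl⟩ a ha
  have h1 : (s ^ k) ∈ Cx H := zpow_mem hs k
  have h2 := mul_mem_Ax hσ h1 ha
  have h3 : (((s ^ 2 * (s ^ q)⁻¹) ^ k : Fˣ) : F) = ((s ^ k : Fˣ) : F) ^ 2 * (frob hF ((s ^ k : Fˣ) : F))⁻¹ := by
    rw [fr, ← Units.val_pow_eq_pow_val, ← Units.val_pow_eq_pow_val, ← Units.val_inv_eq_inv_val, ← Units.val_mul]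
    congr 1
    rw [mul_zpow, _root_.inv_zpow, ← zpow_natCast, ← zpow_natCast, ← zpow_natCast, ← zpow_natCast, ← _root_.zpow_mul,
      ← _root_.zpow_mul, ← _root_.zpow_mul, ← _root_.zpow_mul, mul_comm k, mul_comm k]
  show (((s ^ 2 * (s ^ q)⁻¹) ^ k : Fˣ) : F) * a ∈ _
  rw [h3]; exact h2

theorem ord_nu {H : Subgroup (UJ (frob hF))} {s : Fˣ} (hs : s ∈ Cx H) :
    orderOf (s ^ (q + 1)) ∣ Nat.card (Bz (frob_frob hF) H) - 1 := by
  have hσ := frob_frob hF
  rw [← Nat.card_zpowers]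
  apply card_dvd_sub_one
  rintro t ⟨k, rfl⟩ a ⟨ha, ham⟩
  have h1 : (s ^ k) ∈ Cx H := zpow_mem hs k
  have h2 := mul_mem_Z hσ h1 ham
  have h3 : (((s ^ (q + 1)) ^ k : Fˣ) : F) = ((s ^ k : Fˣ) : F) * frob hF ((s ^ k : Fˣ) : F) := by
    rw [mul_frob]
    congr 1
    rw [← zpow_natCast, ← zpow_natCast, ← _root_.zpow_mul, ← _root_.zpow_mul, mul_comm k]
  show (((s ^ (q + 1)) ^ k : Fˣ) : F) * a ∈ _
  rw [h3]; exact h2

/-- order of a subgroup of the multiplicative group -/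
theorem card_dvd_of_pow {C : Subgroup Fˣ} {n : ℕ} (h : ∀ s ∈ C, s ^ n = 1) : Nat.card C ∣ n := by
  obtain ⟨⟨s, hs⟩, hgen⟩ := IsCyclic.exists_generator (α := C)
  have hos : orderOf s = Nat.card C := by
    rw [← orderOf_eq_card_of_forall_mem_zpowers hgen, Subgroup.orderOf_mk]
  rw [← hos]
  exact orderOf_dvd_of_pow_eq_one (h s hs)

theorem caseB1 {H : Subgroup (UJ (frob hF))} (hTr : Tr H)
    (hZ : Nat.card (H ⊓ Zo (frob hF) : Subgroup (UJ (frob hF))) = q) (hq3 : 3 ≤ q) : H = ⊤ := by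
  have hσ := frob_frob hF
  have hZH : Zo (frob hF) ≤ H := by
    have h1 : H ⊓ Zo (frob hF) = Zo (frob hF) := Subgroup.eq_of_le_of_card_ge inf_le_right (by rw [hZ, card_Zo hF])
    rw [← h1]; exact inf_le_left
  apply Cfsg.Agent.Lib.SU3Gen.hgenT hF hq3 H
  intro v c t hv ht
  have key : ∀ t : UJ (frob hF), mx t *ᵥ ![1, 0, 0] = ![1, 0, 0] → mx t *ᵥ ![0, 1, 0] = ![0, 1, 0] → t ∈ H := by
    intro t h0 h1
    apply hZH
    refine ⟨h0, ?_⟩
    have h2 := congrFun h1 0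
    rw [mul_vec3] at h2
    simpa using h2
  by_cases hv0 : v = 0
  · apply key
    · rw [ht, hv0, smul_zero, add_zero]
    · rw [ht, hv0, smul_zero, add_zero]
  · obtain ⟨y, c', hc', hy⟩ := exists_iso hσ hv0 hv
    obtain ⟨h, hh, b, hb, e⟩ := hTr y
    obtain ⟨l, hl, hbl⟩ := hb
    have h1 : mx h⁻¹ *ᵥ v = ![c'⁻¹ * l, 0, 0] := by
      have h2 : v = c'⁻¹ • (mx y *ᵥ ![1, 0, 0]) := by rw [hy, smul_smul, inv_mul_cancel₀ hc', one_smul]
      have h3 : mx h⁻¹ *ᵥ (mx y *ᵥ ![1, 0, 0]) = ![l, 0, 0] := by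
        rw [mulVec_mulVec, ← mx_mul, e, inv_mul_cancel_left, hbl]
      rw [h2, mulVec_smul, h3]
      ext i; fin_cases i <;> simp
    have h2 : ∀ x, mx (h⁻¹ * t * h) *ᵥ x = x + (c * SU3Gen.J (frob hF) x ![c'⁻¹ * l, 0, 0]) • ![c'⁻¹ * l, 0, 0] := by
      intro x
      rw [mx_mul, mx_mul, ← mulVec_mulVec, ← mulVec_mulVec, ht, mulVec_add, mx_inv_mul, mulVec_smul, h1]
      congr 3
      have h3 := h.2 x ![c'⁻¹ * l, 0, 0]
      rw [← h3, ← h1]
      congr 1
      rw [mx_mul_inv]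
    have h3 : h⁻¹ * t * h ∈ H := by
      apply key
      · rw [h2]
        have : SU3Gen.J (frob hF) ![1, 0, 0] ![c'⁻¹ * l, 0, 0] = 0 := by
          unfold SU3Gen.J
          simp only [cons_val_zero, cons_val_one, cons_val, map_zero, mul_zero, zero_mul, add_zero]
        rw [this, mul_zero, zero_smul, add_zero]
      · rw [h2]
        have : SU3Gen.J (frob hF) ![0, 1, 0] ![c'⁻¹ * l, 0, 0] = 0 := by
          unfold SU3Gen.J
          simp only [cons_val_zero, cons_val_one, cons_val, map_zero, mul_zero, zero_mul, add_zero]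
        rw [this, mul_zero, zero_smul, add_zero]
    have h4 : t = h * (h⁻¹ * t * h) * h⁻¹ := by group
    rw [h4]
    exact mul_mem (mul_mem hh h3) (inv_mem hh)

theorem caseB2 {H : Subgroup (UJ (frob hF))} (hTr : Tr H)
    (hZ : Nat.card (H ⊓ Zo (frob hF) : Subgroup (UJ (frob hF))) = 2) (h2F : (2 : F) = 0)
    (hbig : q ^ 2 - 1 ≤ Nat.card (H ⊓ Bo (frob hF) : Subgroup (UJ (frob hF)))) (hq3 : 3 ≤ q) {f : ℕ} (hqf : q = 2 ^ f) :
    q = 8 ∧ Nat.card H = 36936 := by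
  have hσ := frob_frob hF
  have hBz : Nat.card (Bz hσ H) = 2 := by rw [card_Bz, hZ]
  have hC : Nat.card (Cx H) ∣ q + 1 := by
    apply card_dvd_of_pow
    intro s hs
    have := ord_nu hF hs
    rw [hBz] at this
    exact orderOf_eq_one_iff.1 (Nat.dvd_one.1 this)
  have hAdvd : Nat.card (Ax hσ H) ∣ 2 ^ (f * 2) := by
    rw [pow_mul, ← hqf, ← hF, ← Nat.card_eq_fintype_card]
    exact AddSubgroup.card_addSubgroup_dvd_card _
  -- norms
  have hnorm : ∀ a ∈ Ax hσ H, a * frob hF a ∈ Bz hσ H := by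
    rintro a ⟨b, h, hm⟩
    obtain ⟨h', e⟩ := X_mul hσ h h
    have h3 : X hσ (a + a) (b - a * frob hF a + b) h' ∈ H := by rw [← e]; exact mul_mem hm hm
    have h4 : a + a = 0 := by rw [← two_mul, h2F, zero_mul]
    have h5 : b - a * frob hF a + b = a * frob hF a := by linear_combination (b - a * frob hF a) * h2F
    have h6 : a * frob hF a + frob hF (a * frob hF a) + 0 * frob hF 0 = 0 := by
      have h'' := h'
      rw [h5, h4] at h''
      exact h''
    have h7 : X hσ (a + a) (b - a * frob hF a + b) h' = X hσ 0 (a * frob hF a) h6 := X_congr hσ h4 h5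
    rw [h7] at h3
    exact ⟨h6, h3⟩
  have hBz2 : ∀ x ∈ Bz hσ H, ∀ y ∈ Bz hσ H, x ≠ 0 → y ≠ 0 → x = y := by
    intro x hx y hy hx0 hy0
    obtain ⟨u, v, huv, hall⟩ := Nat.card_eq_two_iff.1 hBz
    have m1 : (0 : Bz hσ H) ∈ ({u, v} : Set _) := by rw [hall]; trivial
    have m2 : (⟨x, hx⟩ : Bz hσ H) ∈ ({u, v} : Set _) := by rw [hall]; trivial
    have m3 : (⟨y, hy⟩ : Bz hσ H) ∈ ({u, v} : Set _) := by rw [hall]; trivial
    have n2 : (⟨x, hx⟩ : Bz hσ H) ≠ 0 := fun e => hx0 (congrArg Subtype.val e)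
    have n3 : (⟨y, hy⟩ : Bz hσ H) ≠ 0 := fun e => hy0 (congrArg Subtype.val e)
    have : (⟨x, hx⟩ : Bz hσ H) = ⟨y, hy⟩ := by
      simp only [Set.mem_insert_iff, Set.mem_singleton_iff] at m1 m2 m3
      rcases m1 with m1 | m1 <;> rcases m2 with m2 | m2 <;> rcases m3 with m3 | m3 <;>
        first
        | exact absurd (m2.trans m1.symm) n2
        | exact absurd (m3.trans m1.symm) n3
        | exact m2.trans m3.symm
    exact congrArg Subtype.val this
  have hA4 : Nat.card (Ax hσ H) ≤ 4 := by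
    by_cases hA : Ax hσ H = ⊥
    · rw [hA, AddSubgroup.card_bot]; omega
    · obtain ⟨a1, ha1A, ha1⟩ := (AddSubgroup.bot_or_exists_ne_zero _).resolve_left hA
      obtain ⟨A', hA', hle⟩ := card_Ax_le hσ ha1A
      have hs1 : frob hF a1 ≠ 0 := (map_ne_zero _).2 ha1
      have h1 : Nat.card A' ≤ 2 := by
        have h2 : ∀ a ∈ A', a = 0 ∨ a = a1 := by
          intro a ha
          by_cases ha0 : a = 0
          · left; exact ha0
          · right
            obtain ⟨haA, hac⟩ := hA' a ha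
            have hsa : frob hF a ≠ 0 := (map_ne_zero _).2 ha0
            have h3 := hBz2 _ (hnorm a haA) _ (hnorm a1 ha1A) (mul_ne_zero ha0 hsa) (mul_ne_zero ha1 hs1)
            have h4 : (a - a1) * (a - a1) * frob hF a1 = 0 := by
              linear_combination a * hac + a1 * h3 + (a1 ^ 2 * frob hF a1 - a * a1 * frob hF a1) * h2F
            have h5 := (mul_eq_zero.1 h4).resolve_right hs1
            exact sub_eq_zero.1 (mul_self_eq_zero.1 h5)
        rw [← Nat.card_coe_set_eq ({0, a1} : Set F) |>.trans (Set.ncard_pair ha1.symm)]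
        exact Nat.card_le_card_of_injective (fun a : A' => (⟨a.1, h2 a.1 a.2⟩ : ({0, a1} : Set F)))
          (fun a b e => Subtype.ext (congrArg (fun z : ({0, a1} : Set F) => z.1) e))
      rw [hBz] at hle
      omega
  have hU : Nat.card (H ⊓ U1 (frob hF) : Subgroup (UJ (frob hF))) = Nat.card (Ax hσ H) * 2 := by
    rw [card_HU hσ, hZ]
  have hB := card_HB H
  rw [hU] at hB
  have hCle : Nat.card (Cx H) ≤ q + 1 := Nat.le_of_dvd (by omega) hC
  have hq9 : q ≤ 9 := by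
    by_contra hcon
    push Not at hcon
    rw [hB, sq_sub_one] at hbig
    have h1 : Nat.card (Cx H) * (Nat.card (Ax hσ H) * 2) ≤ (q + 1) * (4 * 2) := Nat.mul_le_mul hCle (by omega)
    have h2 : (q + 1) * (4 * 2) < (q + 1) * (q - 1) := Nat.mul_lt_mul_of_pos_left (by omega) (by omega)
    omega
  have hf : f ≤ 3 := by
    by_contra hcon
    have : 2 ^ 4 ≤ 2 ^ f := Nat.pow_le_pow_right (by norm_num) (by omega)
    omega
  have hA3 : Nat.card (Ax hσ H) ≠ 3 := by
    intro h3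
    rw [h3] at hAdvd
    have := Nat.Prime.dvd_of_dvd_pow Nat.prime_three hAdvd
    omega
  have hApos : 0 < Nat.card (Ax hσ H) := Nat.card_pos
  have hf23 : f = 2 ∨ f = 3 := by
    interval_cases f <;> omega
  rcases hf23 with hf2 | hf3
  · exfalso
    have hq4 : q = 4 := by rw [hqf, hf2]; norm_num
    subst hq4
    rw [hB] at hbig
    rcases (Nat.dvd_prime (by norm_num : Nat.Prime 5)).1 hC with h1 | h1
    · rw [h1] at hbig; omega
    · obtain ⟨⟨s, hs⟩, hgen⟩ := IsCyclic.exists_generator (α := Cx H)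
      have hos : orderOf s = 5 := by
        rw [← h1, ← orderOf_eq_card_of_forall_mem_zpowers hgen, Subgroup.orderOf_mk]
      have h2 := ord_mu hF hs
      have h3 : (s ^ 2 * (s ^ 4)⁻¹) ^ 5 = 1 := by
        have h5 : s ^ 5 = 1 := by rw [← hos, pow_orderOf_eq_one]
        rw [mul_pow, inv_pow, ← pow_mul, ← pow_mul, mul_comm 2, mul_comm 4, pow_mul, pow_mul, h5]; simp
      rcases (Nat.dvd_prime (by norm_num : Nat.Prime 5)).1 (orderOf_dvd_of_pow_eq_one h3) with h4 | h4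
      · rw [orderOf_eq_one_iff, mul_inv_eq_one] at h4
        have h5 := pow_injOn_Iio_orderOf (x := s) (show (2 : ℕ) ∈ Set.Iio (orderOf s) by rw [hos, Set.mem_Iio]; omega)
          (show (4 : ℕ) ∈ Set.Iio (orderOf s) by rw [hos, Set.mem_Iio]; omega) h4
        omega
      · rw [h4] at h2
        rw [h1] at hbig
        have h5 : Nat.card (Ax (frob_frob hF) H) - 1 = 0 := by
          by_contra hne
          have := Nat.le_of_dvd (Nat.pos_of_ne_zero hne) h2
          omega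
        have h6 : Nat.card (Ax hσ H) = 1 := by omega
        rw [h6] at hbig
        omega
  · have hq8 : q = 8 := by rw [hqf, hf3]; norm_num
    refine ⟨hq8, ?_⟩
    subst hq8
    rw [hB] at hbig
    have h1 : Nat.card (Cx H) = 1 ∨ Nat.card (Cx H) = 3 ∨ Nat.card (Cx H) = 9 := by
      obtain ⟨i, hi, h⟩ := (Nat.dvd_prime_pow Nat.prime_three).1 (show Nat.card (Cx H) ∣ 3 ^ 2 by exact hC)
      interval_cases i <;> simp [h]
    have h2 : Nat.card (Cx H) = 9 ∧ Nat.card (Ax hσ H) = 4 := by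
      rcases h1 with h1 | h1 | h1 <;> rw [h1] at hbig ⊢ <;> omega
    rw [hTr.card hF, hB, h2.1, h2.2]; norm_num

theorem caseB3 {H : Subgroup (UJ (frob hF))} (hTr : Tr H)
    (hZ : Nat.card (H ⊓ Zo (frob hF) : Subgroup (UJ (frob hF))) = 3) (hq : q = 9)
    (hbig : q ^ 2 - 1 ≤ Nat.card (H ⊓ Bo (frob hF) : Subgroup (UJ (frob hF)))) :
    Nat.card H = 78840 ∨ Nat.card H = 118260 := by
  have hσ := frob_frob hF
  subst hq
  have hBz : Nat.card (Bz hσ H) = 3 := by rw [card_Bz, hZ]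
  have h20 : ∀ s ∈ Cx H, s ^ 20 = 1 := by
    intro s hs
    have h1 := ord_nu hF hs
    rw [hBz] at h1
    have h2 := orderOf_dvd_iff_pow_eq_one.1 h1
    rw [← pow_mul] at h2
    exact h2
  have hAdvd : Nat.card (Ax hσ H) ∣ 3 ^ 4 := by
    have : (3 : ℕ) ^ 4 = Nat.card F := by rw [Nat.card_eq_fintype_card, hF]; norm_num
    rw [this]
    exact AddSubgroup.card_addSubgroup_dvd_card _
  have hA27 : Nat.card (Ax hσ H) ≤ 27 := by
    by_cases hA : Ax hσ H = ⊥
    · rw [hA, AddSubgroup.card_bot]; omega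
    · obtain ⟨a1, ha1A, ha1⟩ := (AddSubgroup.bot_or_exists_ne_zero _).resolve_left hA
      obtain ⟨A', hA', hle⟩ := card_Ax_le hσ ha1A
      have h1 := card_fiber_le hF ha1 (fun a ha => (hA' a ha).2)
      rw [hBz] at hle
      omega
  have hU : Nat.card (H ⊓ U1 (frob hF) : Subgroup (UJ (frob hF))) = Nat.card (Ax hσ H) * 3 := by
    rw [card_HU hσ, hZ]
  have hB := card_HB H
  rw [hU] at hB
  rw [hB] at hbig
  have hmu : ∀ s ∈ Cx H, ∀ n, Nat.card (Ax hσ H) - 1 ∣ n → s ^ (7 * n) = 1 := by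
    intro s hs n hn
    have h1 := orderOf_dvd_iff_pow_eq_one.1 ((ord_mu hF hs).trans hn)
    have h2 : s ^ 2 * (s ^ 9)⁻¹ = (s ^ 7)⁻¹ := by
      rw [show (9 : ℕ) = 7 + 2 by rfl, pow_add]; group
    rw [h2, inv_pow, inv_eq_one, ← pow_mul] at h1
    exact h1
  obtain ⟨i, hi, h⟩ := (Nat.dvd_prime_pow Nat.prime_three).1 hAdvd
  have hgcd : ∀ (s : Fˣ) (m n : ℕ), s ^ m = 1 → s ^ n = 1 → s ^ (Nat.gcd m n) = 1 := by
    intro s m n hm hn
    exact orderOf_dvd_iff_pow_eq_one.1 (Nat.dvd_gcd (orderOf_dvd_of_pow_eq_one hm) (orderOf_dvd_of_pow_eq_one hn))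
  interval_cases i
  · exfalso
    rw [h] at hbig
    have h1 := Nat.le_of_dvd (by norm_num) (card_dvd_of_pow h20)
    omega
  · exfalso
    have h2 : ∀ s ∈ Cx H, s ^ 2 = 1 := by
      intro s hs
      have := hgcd s _ _ (hmu s hs 2 (by rw [h]; norm_num)) (h20 s hs)
      exact this
    have h1 := Nat.le_of_dvd (by norm_num) (card_dvd_of_pow h2)
    rw [h] at hbig
    omega
  · left
    have h2 : ∀ s ∈ Cx H, s ^ 4 = 1 := by
      intro s hs
      have := hgcd s _ _ (hmu s hs 8 (by rw [h]; norm_num)) (h20 s hs)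
      exact this
    have h3 := card_dvd_of_pow h2
    have h4 : Nat.card (Cx H) = 4 := by
      have h1 := Nat.le_of_dvd (by norm_num) h3
      rw [h] at hbig
      have h5 : Nat.card (Cx H) ≠ 3 := by intro h5; rw [h5] at h3; omega
      omega
    rw [hTr.card hF, hB, h, h4]; norm_num
  · right
    have h2 : ∀ s ∈ Cx H, s ^ 2 = 1 := by
      intro s hs
      have := hgcd s _ _ (hmu s hs 26 (by rw [h]; norm_num)) (h20 s hs)
      exact this
    have h1 := Nat.le_of_dvd (by norm_num) (card_dvd_of_pow h2)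
    have h3 : 2 ∣ Nat.card H := by
      rw [hTr.card hF]
      apply Dvd.dvd.mul_right
      norm_num
    have h4 := even_HB hF hTr h3
    rw [hB, h] at h4
    have h5 : Nat.card (Cx H) = 2 := by
      have : 0 < Nat.card (Cx H) := Nat.card_pos
      omega
    rw [hTr.card hF, hB, h, h5]; norm_num
  · rw [h] at hA27; omega

end fin

end Cfsg.Agent.Lib.PU3
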