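import Cfsg.Agent.Lib.PU3k

/-!
# Minimal index of `PSU_3(q)` (helper66)
-/

set_option autoImplicit false
set_option linter.unusedSectionVars false

namespace Cfsg.Agent.Lib.PU3

open Subgroup Matrix Cfsg Cfsg.Agent.Lib.ClUnitary Cfsg.Agent.Lib.HermMat Cfsg.Agent.Lib.SylU3
open Cfsg.Agent.Lib.SU3Gen (UJ mx mx_mul mx_one mx_inj mul_vec3 X Y T W mx_X mx_Y mx_T mx_W mul3 exists_X exists_upper
  X_congr X_mul X_one X_inv X_conj T_conj)
open Cfsg.Agent.Lib.IsoRk1 (U1 mem_U1 X_mem_U1 eq_X norm_U1 co_mul co_inv W_e1 X_e3 inv_vec bruhatU line_of_comm T_e1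
  card_U1 card_UJ)

theorem odd_dvd {m n k a b : ℕ} (h : m = n * k) (hm : m = 2 ^ a * b) (hk : ¬ 2 ∣ k) : k ∣ b := by
  have : Nat.Coprime k (2 ^ a) := ((Nat.prime_two.coprime_iff_not_dvd.2 hk).symm).pow_right a
  exact this.dvd_of_dvd_mul_left (by rw [← hm, h]; exact dvd_mul_left _ _)

section fin

variable {F : Type*} [Field F] [Fintype F] {q : ℕ} (hF : Fintype.card F = q ^ 2)

theorem sylow_end {H : Subgroup (UJ (frob hF))} {r m : ℕ} (hr : r.Prime) (hcard : Nat.card H = r * m) (hrm : ¬ r ∣ m)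
    (hB : ¬ r ∣ Nat.card (Bo (frob hF))) (hN : ¬ r ∣ Nat.card (Ns (frob hF))) :
    ∃ (R : Sylow r H) (n k : ℕ), Nat.card R = r ∧ m = n * k ∧ n % r = 1 ∧ ¬ 2 ∣ k ∧
      Nat.card (normalizer ((R : Subgroup H) : Set H)) = r * k := by
  have hfr := Fact.mk hr
  have hm0 : m ≠ 0 := by rintro rfl; exact hrm (dvd_zero _)
  obtain ⟨R⟩ : Nonempty (Sylow r H) := inferInstance
  have hRc : Nat.card R = r := by
    rw [Sylow.card_eq_multiplicity R, hcard, Nat.factorization_mul hr.ne_zero hm0, Finsupp.add_apply,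
      Nat.factorization_eq_zero_of_not_dvd hrm, Nat.Prime.factorization_self hr, add_zero, pow_one]
  have h1 := card_sylow_modEq_one r H
  have h2 := Sylow.card_eq_index_normalizer R
  set N := normalizer ((R : Subgroup H) : Set H) with hNd
  have h3 : r ∣ Nat.card N := by
    rw [← hRc]; exact Subgroup.card_dvd_of_le le_normalizer
  obtain ⟨k, hk⟩ := h3
  have h4 : Nat.card N * N.index = Nat.card H := N.card_mul_index
  have h5 : m = N.index * k := by
    rw [hk, hcard, mul_assoc] at h4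
    have := Nat.eq_of_mul_eq_mul_left hr.pos h4
    rw [← this, mul_comm]
  refine ⟨R, N.index, k, hRc, h5, ?_, ?_, hk⟩
  · rw [h2] at h1
    have h6 : N.index % r = 1 % r := h1
    rw [h6, Nat.mod_eq_of_lt hr.one_lt]
  · intro h2k
    have : Fact (Nat.Prime 2) := ⟨Nat.prime_two⟩
    obtain ⟨⟨t, htN⟩, ht⟩ := exists_prime_orderOf_dvd_card' 2 (show 2 ∣ Nat.card N by rw [hk]; exact Dvd.dvd.mul_left h2k _)
    rw [Subgroup.orderOf_mk] at ht
    have ht2 : t * t = 1 := by rw [← pow_two, ← ht, pow_orderOf_eq_one]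
    have ht1 : t ≠ 1 := by rintro rfl; rw [orderOf_one] at ht; omega
    refine no_inv hF (R := (R : Subgroup H).map H.subtype) (r := r) (t := (t : UJ (frob hF))) hr ?_ hB hN ?_ ?_ ?_
    · rw [Nat.card_congr ((R : Subgroup H).equivMapOfInjective _ H.subtype_injective).symm.toEquiv]
      exact hRc
    · exact congrArg Subtype.val ht2
    · intro e; exact ht1 (Subtype.ext e)
    · rintro _ ⟨x, hx, rfl⟩
      exact ⟨t * x * t⁻¹, (mem_normalizer_iff.1 htN x).1 hx, rfl⟩

theorem end3 {H : Subgroup (UJ (frob hF))} (hq : q = 3) (hcard : Nat.card H = 224) : False := by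
  subst hq
  obtain ⟨R, n, k, _, h1, h2, h3, _⟩ := sylow_end hF (H := H) (r := 7) (m := 32) (by norm_num) (by rw [hcard])
    (by norm_num) (by rw [card_Bo hF]; norm_num) (by rw [card_Ns hF, card_BN hF]; norm_num)
  have h4 := odd_dvd (a := 5) (b := 1) h1 (by norm_num) h3
  have h5 := Nat.dvd_one.1 h4
  subst h5
  omega

theorem end8 {H : Subgroup (UJ (frob hF))} (hq : q = 8) (hcard : Nat.card H = 36936) : False := by
  subst hq
  obtain ⟨R, n, k, _, h1, h2, h3, _⟩ := sylow_end hF (H := H) (r := 19) (m := 1944) (by norm_num) (by rw [hcard])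
    (by norm_num) (by rw [card_Bo hF]; norm_num) (by rw [card_Ns hF, card_BN hF]; norm_num)
  have h4 := odd_dvd (a := 3) (b := 243) h1 (by norm_num) h3
  have h5 : ∀ k ∈ Finset.range 244, k ∣ 243 → (1944 / k) % 19 ≠ 1 := by decide +kernel
  have h6 := Nat.le_of_dvd (by norm_num) h4
  have hk0 : 0 < k := Nat.pos_of_dvd_of_pos h4 (by norm_num)
  apply h5 k (Finset.mem_range.2 (by omega)) h4
  rw [h1, Nat.mul_div_cancel _ hk0, h2]

theorem end9 {H : Subgroup (UJ (frob hF))} (hq : q = 9) (hcard : Nat.card H = 78840) : False := by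
  subst hq
  obtain ⟨R, n, k, _, h1, h2, h3, _⟩ := sylow_end hF (H := H) (r := 73) (m := 1080) (by norm_num) (by rw [hcard])
    (by norm_num) (by rw [card_Bo hF]; norm_num) (by rw [card_Ns hF, card_BN hF]; norm_num)
  have h4 := odd_dvd (a := 3) (b := 135) h1 (by norm_num) h3
  have h5 : ∀ k ∈ Finset.range 136, k ∣ 135 → (1080 / k) % 73 ≠ 1 := by decide +kernel
  have h6 := Nat.le_of_dvd (by norm_num) h4
  have hk0 : 0 < k := Nat.pos_of_dvd_of_pos h4 (by norm_num)
  apply h5 k (Finset.mem_range.2 (by omega)) h4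
  rw [h1, Nat.mul_div_cancel _ hk0, h2]

theorem end9' {H : Subgroup (UJ (frob hF))} (hq : q = 9) (hcard : Nat.card H = 118260) : False := by
  subst hq
  obtain ⟨R, n, k, _, h1, h2, h3, _⟩ := sylow_end hF (H := H) (r := 73) (m := 1620) (by norm_num) (by rw [hcard])
    (by norm_num) (by rw [card_Bo hF]; norm_num) (by rw [card_Ns hF, card_BN hF]; norm_num)
  have h4 := odd_dvd (a := 2) (b := 405) h1 (by norm_num) h3
  have h5 : ∀ k ∈ Finset.range 406, k ∣ 405 → (1620 / k) % 73 ≠ 1 := by decide +kernel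
  have h6 := Nat.le_of_dvd (by norm_num) h4
  have hk0 : 0 < k := Nat.pos_of_dvd_of_pos h4 (by norm_num)
  apply h5 k (Finset.mem_range.2 (by omega)) h4
  rw [h1, Nat.mul_div_cancel _ hk0, h2]

/-- an element moving a nontrivial element of `U1` to an element of `U1` -/
theorem mem_Bo_of_conj {σ : F →+* F} (hσ : ∀ x, σ (σ x) = x) {g x : UJ σ} (hx : x ∈ U1 σ) (hx1 : x ≠ 1)
    (hg : g * x * g⁻¹ ∈ U1 σ) : g ∈ Bo σ := by
  obtain ⟨a, b, h, e⟩ := exists_X hσ _ hg
  set w := mx g *ᵥ ![1, 0, 0] with hw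
  have h1 : mx (X hσ a b h) *ᵥ w = w := by
    rw [← e, hw, mulVec_mulVec, ← mx_mul, inv_mul_cancel_right, mx_mul, ← mulVec_mulVec]
    rw [show mx x *ᵥ ![1, 0, 0] = ![1, 0, 0] from hx]
  have h0 := congrFun h1 0
  have h2 := congrFun h1 1
  rw [mul_vec3, mx_X] at h0 h2
  simp at h0 h2
  have hne : ¬ (a = 0 ∧ b = 0) := by
    rintro ⟨rfl, rfl⟩
    rw [X_one hσ] at e
    apply hx1
    have : x = g⁻¹ * (g * x * g⁻¹) * g := by group
    rw [this, e]; group
  have hw2 : w 2 = 0 := by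
    by_contra hw2
    have ha : a = 0 := h2.resolve_right hw2
    subst ha
    have hb : b * w 2 = 0 := by linear_combination h0
    exact hne ⟨rfl, (mul_eq_zero.1 hb).resolve_right hw2⟩
  have hJ : w 1 * σ (w 1) = 0 := by
    have h3 := g.2 ![1, 0, 0] ![1, 0, 0]
    have h4 : SU3Gen.J σ (![1, 0, 0] : Fin 3 → F) ![1, 0, 0] = 0 := by simp [SU3Gen.J]
    have h5 : SU3Gen.J σ w w = w 1 * σ (w 1) := by
      unfold SU3Gen.J
      rw [hw2, map_zero]; ring
    exact h5.symm.trans (h3.trans h4)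
  have hw1 : w 1 = 0 := by
    rcases mul_eq_zero.1 hJ with h | h
    · exact h
    · exact (map_eq_zero σ).1 h
  have hw0 : w 0 ≠ 0 := by
    intro hw0
    have h3 : w = 0 := by
      ext i; fin_cases i
      · exact hw0
      · exact hw1
      · exact hw2
    have h4 := mx_inv_mul g ![1, 0, 0]
    rw [← hw, h3, mulVec_zero] at h4
    have h5 := congrFun h4 0
    simp at h5
  refine ⟨w 0, hw0, ?_⟩
  rw [← hw]
  ext i; fin_cases i
  · rfl
  · exact hw1
  · exact hw2

theorem end11 {H : Subgroup (UJ (frob hF))} (hq : q = 11) (hcard : Nat.card H = 439560)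
    (hU : Nat.card (H ⊓ U1 (frob hF) : Subgroup (UJ (frob hF))) = 11) (hC : Nat.card (Cx H) = 30) : False := by
  subst hq
  have hσ := frob_frob hF
  have hBo : Nat.card (Bo (frob hF)) = 159720 := by rw [card_Bo hF]; norm_num
  obtain ⟨R, n, k, hR, h1, h2, h3, hNk⟩ := sylow_end hF (H := H) (r := 37) (m := 11880) (by norm_num) (by rw [hcard])
    (by norm_num) (by rw [hBo]; norm_num) (by rw [card_Ns hF, card_BN hF]; norm_num)
  have h4 := odd_dvd (a := 3) (b := 1485) h1 (by norm_num) h3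
  have h5 : ∀ k ∈ Finset.range 1486, k ∣ 1485 → (11880 / k) % 37 = 1 → k = 3 := by decide +kernel
  have h6 := Nat.le_of_dvd (by norm_num) h4
  have hk0 : 0 < k := Nat.pos_of_dvd_of_pos h4 (by norm_num)
  have hk3 : k = 3 := by
    apply h5 k (Finset.mem_range.2 (by omega)) h4
    rw [h1, Nat.mul_div_cancel _ hk0, h2]
  subst hk3
  -- the centre
  have : Fact (Nat.Prime 3) := ⟨Nat.prime_three⟩
  have : Fact (Nat.Prime 37) := ⟨by norm_num⟩
  have : Fact (Nat.Prime 11) := ⟨by norm_num⟩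
  obtain ⟨⟨ω, hωC⟩, hω⟩ := exists_prime_orderOf_dvd_card' 3 (show 3 ∣ Nat.card (Cx H) by rw [hC]; norm_num)
  rw [Subgroup.orderOf_mk] at hω
  have hω3 : ω ^ 3 = 1 := by rw [← hω, pow_orderOf_eq_one]
  have hω1 : ω ≠ 1 := by rintro rfl; rw [orderOf_one] at hω; omega
  obtain ⟨g, hg, hgB, hg0⟩ := mem_Cx.1 hωC
  obtain ⟨x', hx', e⟩ := XT_eq hσ hgB hg0
  set z := Th hσ ω with hz
  have hz3 : z ^ 3 = 1 := by rw [hz, ← map_pow, hω3, map_one]
  have hz1 : z ≠ 1 := by
    intro h
    apply hω1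
    apply Units.ext
    have := congrFun (congrFun (congrArg mx h) 0) 0
    rw [hz, mx_Th, mx_one] at this
    simpa using this
  have hzc : ∀ u : UJ (frob hF), z * u = u * z := by
    have hf : frob hF (ω : F) = (ω : F) ^ 2 := by
      rw [fr]
      have : (ω : F) ^ 3 = 1 := by rw [← Units.val_pow_eq_pow_val, hω3]; rfl
      calc (ω : F) ^ 11 = ((ω : F) ^ 3) ^ 3 * (ω : F) ^ 2 := by ring
        _ = _ := by rw [this]; ring
    have hω3' : (ω : F) ^ 3 = 1 := by rw [← Units.val_pow_eq_pow_val, hω3]; rfl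
    have e1 : (ω : F) ^ 2 * (ω : F)⁻¹ = ω := by
      rw [pow_two, mul_assoc, mul_inv_cancel₀ ω.ne_zero, mul_one]
    have e2 : ((ω : F) ^ 2)⁻¹ = ω := by
      apply inv_eq_of_mul_eq_one_left
      rw [← pow_succ']; exact hω3'
    have hm : mx z = (ω : F) • (1 : Matrix (Fin 3) (Fin 3) F) := by
      rw [hz, mx_Th, hf, e1, e2]
      ext i j; fin_cases i <;> fin_cases j <;> simp
    intro u
    apply mx_inj
    rw [mx_mul, mx_mul, hm, Matrix.smul_mul, Matrix.mul_smul, Matrix.one_mul, Matrix.mul_one]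
  have hzH : z ∈ H := by
    have h7 : g ^ 1331 = z ^ 2 := by
      have h8 : x' ^ 1331 = 1 := by
        have h9 : Nat.card (U1 (frob hF)) = 1331 := by rw [card_U1 hF]; norm_num
        exact orderOf_dvd_iff_pow_eq_one.1 (h9 ▸ Subgroup.orderOf_dvd_natCard _ hx')
      have h10 : Commute x' z := (hzc x').symm
      rw [e, h10.mul_pow, h8, one_mul]
      calc z ^ 1331 = (z ^ 3) ^ 443 * z ^ 2 := by rw [← pow_mul, ← pow_add]
        _ = z ^ 2 := by rw [hz3, one_pow, one_mul]
    have h8 : z ^ 2 ∈ H := by rw [← h7]; exact pow_mem hg _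
    have h9 : z = (z ^ 2) ^ 2 := by
      rw [← pow_mul]
      calc z = z ^ 3 * z := by rw [hz3, one_mul]
        _ = _ := by rw [← pow_succ]
    rw [h9]; exact pow_mem h8 2
  -- the centralizer
  have hRcomm : (R : Subgroup H) ≤ centralizer ((R : Subgroup H) : Set H) := by
    have hcyc : IsCyclic (R : Subgroup H) := isCyclic_of_prime_card hR
    let := hcyc.commGroup
    intro x hx
    rw [mem_centralizer_iff]
    intro y hy
    exact congrArg Subtype.val (mul_comm (⟨y, hy⟩ : (R : Subgroup H)) ⟨x, hx⟩)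
  have hCN : centralizer ((R : Subgroup H) : Set H) = normalizer ((R : Subgroup H) : Set H) := by
    apply Subgroup.eq_of_le_of_card_ge (centralizer_le_normalizer _)
    rw [hNk]
    have h7 : 37 ∣ Nat.card (centralizer ((R : Subgroup H) : Set H)) := by
      have := Subgroup.card_dvd_of_le hRcomm
      rwa [hR] at this
    have h8 : 3 ∣ Nat.card (centralizer ((R : Subgroup H) : Set H)) := by
      have h9 : (⟨z, hzH⟩ : H) ∈ centralizer ((R : Subgroup H) : Set H) := by
        rw [mem_centralizer_iff]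
        intro y _
        exact Subtype.ext (hzc y.1).symm
      have h10 : orderOf (⟨z, hzH⟩ : H) = 3 := by
        rw [Subgroup.orderOf_mk]
        exact orderOf_eq_prime hz3 hz1
      have h11 := Subgroup.orderOf_dvd_natCard _ h9
      rwa [h10] at h11
    exact Nat.le_of_dvd Nat.card_pos (Nat.Coprime.mul_dvd_of_dvd_of_dvd (by norm_num) h7 h8)
  -- Burnside
  have hcomp := MonoidHom.ker_transferSylow_isComplement' R hCN.ge
  set K := (MonoidHom.transferSylow R hCN.ge).ker with hK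
  have hKc : Nat.card K = 11880 := by
    have := hcomp.card_mul_card
    rw [hR, hcard] at this
    omega
  have hKi : K.index = 37 := by
    have := K.card_mul_index
    rw [hKc, hcard] at this
    omega
  -- the Sylow 11-subgroup
  set P0 := (H ⊓ U1 (frob hF)).subgroupOf H with hP0
  have hP0c : Nat.card P0 = 11 := by
    rw [hP0, Nat.card_congr (Subgroup.subgroupOfEquivOfLe inf_le_left).toEquiv, hU]
  have hfac : (Nat.card H).factorization 11 = 1 := by
    rw [hcard, show 439560 = 11 * 39960 by norm_num, Nat.factorization_mul (by norm_num) (by norm_num), Finsupp.add_apply,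
      Nat.factorization_eq_zero_of_not_dvd (by norm_num : ¬ 11 ∣ 39960), Nat.Prime.factorization_self (by norm_num)]
  let P : Sylow 11 H := Sylow.ofCard P0 (by rw [hP0c, hfac, pow_one])
  have hPP0 : (P : Subgroup H) = P0 := rfl
  have hPK : (P : Subgroup H) ≤ K := by
    rw [hPP0]
    intro x hx
    rw [hK, MonoidHom.mem_ker]
    have h7 : (MonoidHom.transferSylow R hCN.ge x) ^ 11 = 1 := by
      rw [← map_pow]
      have : x ^ 11 = 1 := by
        have h11 := Subgroup.orderOf_dvd_natCard _ hx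
        rw [hP0c] at h11
        exact orderOf_dvd_iff_pow_eq_one.1 h11
      rw [this, map_one]
    have h8 : (MonoidHom.transferSylow R hCN.ge x) ^ 37 = 1 := by
      have := pow_card_eq_one' (x := MonoidHom.transferSylow R hCN.ge x)
      rwa [hR] at this
    have h9 := Nat.dvd_gcd (orderOf_dvd_of_pow_eq_one h7) (orderOf_dvd_of_pow_eq_one h8)
    exact orderOf_eq_one_iff.1 (Nat.dvd_one.1 h9)
  set N11 := normalizer ((P : Subgroup H) : Set H) with hN11
  have hfrat : N11 ⊔ K = ⊤ := Sylow.normalizer_sup_eq_top' P hPK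
  have h37 : 37 ∣ Nat.card N11 := by
    have h7 : K.relIndex N11 = 37 := by
      rw [← relIndex_sup_right N11 K, hfrat, relIndex_top_right, hKi]
    rw [← h7]
    exact Subgroup.relIndex_dvd_card K N11
  obtain ⟨⟨y, hyN⟩, hy⟩ := exists_prime_orderOf_dvd_card' 37 h37
  rw [Subgroup.orderOf_mk] at hy
  have hyB : (y : UJ (frob hF)) ∈ Bo (frob hF) := by
    have hnt : Nontrivial P0 := Finite.one_lt_card_iff_nontrivial.1 (by rw [hP0c]; norm_num)
    obtain ⟨⟨x, hx⟩, hx1⟩ := exists_ne (1 : P0)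
    have hx1' : (x : UJ (frob hF)) ≠ 1 := fun e => hx1 (Subtype.ext (Subtype.ext e))
    have hxU : (x : UJ (frob hF)) ∈ U1 (frob hF) := (Subgroup.mem_inf.1 (mem_subgroupOf.1 hx)).2
    have h7 : y * x * y⁻¹ ∈ P0 := (mem_normalizer_iff.1 hyN x).1 hx
    have h8 : (y : UJ (frob hF)) * x * (y : UJ (frob hF))⁻¹ ∈ U1 (frob hF) := (Subgroup.mem_inf.1 (mem_subgroupOf.1 h7)).2
    exact mem_Bo_of_conj hσ hxU hx1' h8
  have h7 : orderOf (y : UJ (frob hF)) = 37 := by rw [← hy]; exact Subgroup.orderOf_coe y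
  have h8 := Subgroup.orderOf_dvd_natCard _ hyB
  rw [h7, hBo] at h8
  revert h8; norm_num

/-- subgroups of small index -/
theorem main (hq3 : 3 ≤ q) (hq5 : q ≠ 5) {H : Subgroup (UJ (frob hF))} (hH : H.index ≤ q ^ 3) : H = ⊤ := by
  have hTr := tr_of_index hF hH
  have hbig : q ^ 2 - 1 ≤ Nat.card (H ⊓ Bo (frob hF) : Subgroup (UJ (frob hF))) := by
    have h1 := H.card_mul_index
    rw [hTr.card hF, card_UJ hF] at h1
    have h2 : 0 < q ^ 3 + 1 := by positivity
    have h3 : Nat.card (H ⊓ Bo (frob hF) : Subgroup (UJ (frob hF))) * H.index = q ^ 3 * (q ^ 2 - 1) := by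
      apply Nat.eq_of_mul_eq_mul_left h2
      calc (q ^ 3 + 1) * (Nat.card (H ⊓ Bo (frob hF) : Subgroup (UJ (frob hF))) * H.index) =
          (q ^ 3 + 1) * Nat.card (H ⊓ Bo (frob hF) : Subgroup (UJ (frob hF))) * H.index := by ring
        _ = _ := by rw [h1]; ring
    have h4 : q ^ 3 * (q ^ 2 - 1) ≤ q ^ 3 * Nat.card (H ⊓ Bo (frob hF) : Subgroup (UJ (frob hF))) := by
      rw [← h3, mul_comm (q ^ 3)]
      exact Nat.mul_le_mul_left _ hH
    exact Nat.le_of_mul_le_mul_left h4 (by positivity)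
  by_cases hZ : H ⊓ Zo (frob hF) = ⊥
  · exfalso
    by_cases hA : Ax (frob_frob hF) H = ⊥
    · obtain ⟨h1, h2⟩ := caseA1 hF hTr hZ hA hbig hq3 hq5
      exact end3 hF h1 h2
    · obtain ⟨h1, h2, h3, h4⟩ := caseA2 hF hTr hZ hA hbig hq3 hq5
      exact end11 hF h1 h2 h3 h4
  · obtain ⟨p, f, hp, hc, hqp, hf⟩ := exists_char hF
    have := Fact.mk hp
    have hcK : CharP (AlgebraicClosure F) p := charP_of_injective_algebraMap (algebraMap F (AlgebraicClosure F)).injective p
    rcases dick_Z hF (algebraMap F (AlgebraicClosure F)) (p := p) hTr hZ hqp hq3 with h | ⟨h1, h2⟩ | ⟨h1, h2, _⟩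
    · exact caseB1 hF hTr h hq3
    · exfalso
      subst h1
      have h2F : (2 : F) = 0 := by
        have := CharP.cast_eq_zero F 2
        exact_mod_cast this
      obtain ⟨h3, h4⟩ := caseB2 hF hTr h2 h2F hbig hq3 hqp
      exact end8 hF h3 h4
    · exfalso
      rcases caseB3 hF hTr h2 h1 hbig with h3 | h3
      · exact end9 hF h1 h3
      · exact end9' hF h1 h3

end fin

open Cfsg.Agent.Lib.FFSU in
theorem psu3_min_index {F : Type*} [Field F] [Fintype F] (q : ℕ) (hF : Fintype.card F = q ^ 2) (hq : 3 ≤ q) (h5 : q ≠ 5) :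
    (∀ H : Subgroup (Cfsg.PSU 3 F q), H ≠ ⊤ → q ^ 3 + 1 ≤ H.index) ∧
      (∃ H : Subgroup (Cfsg.PSU 3 F q), H.index = q ^ 3 + 1) := by
  obtain ⟨f, hf⟩ := exists_par hF
  constructor
  · intro H hH
    by_contra hcon
    push Not at hcon
    have h1 : (H.comap f).index = H.index := H.index_comap_of_surjective hf.surj
    have h2 : H.comap f = ⊤ := main hF hq h5 (by rw [h1]; omega)
    apply hH
    rw [← Subgroup.map_comap_eq_self_of_surjective hf.surj H, h2]
    exact Subgroup.map_top_of_surjective f hf.surj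
  · refine ⟨(Bo (frob hF)).map f, ?_⟩
    have h1 : f.ker ≤ Bo (frob hF) := by
      intro g hg
      obtain ⟨c, hc⟩ := hf.ker g hg
      refine ⟨c, ?_, ?_⟩
      · rintro rfl
        have hd : (mx g).det = 1 := g.1.2
        rw [hc, zero_smul, Matrix.det_zero] at hd
        exact zero_ne_one hd
      · rw [hc, Matrix.smul_mulVec, Matrix.one_mulVec]
        ext i; fin_cases i <;> simp
    rw [Subgroup.index_map, sup_eq_left.2 h1, index_Bo hF, MonoidHom.range_eq_top.2 hf.surj, Subgroup.index_top, mul_one]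

end Cfsg.Agent.Lib.PU3
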