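import Cfsg.Agent.Lib.PhanM

/-! Subgroups `SU_2(3)` in quotients of `SU_4(3)`: identification (helper38). -/

set_option autoImplicit false
set_option linter.unusedSectionVars false
set_option linter.unusedSimpArgs false

namespace Cfsg.Agent.Lib.Phan

open Module Matrix Cfsg Cfsg.Agent.Lib.UnTrans Cfsg.Agent.Lib.UnBridge Cfsg.Agent.Lib.ClUnSimple

/-- abbreviation for the first block -/
def B0 (F : Type*) [Field F] : SU 2 F 3 →* SU 4 F 3 := blk (sh 0 (show 0 + 2 ≤ 4 by omega))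

variable {F : Type*} [Field F] [Fintype F] (hF : Fintype.card F = 3 ^ 2)
include hF

theorem up_mul {x : SU 4 F 3} (hx : x * y0 hF = y0 hF * x) (y : SU 4 F 3) : up (x * y) = up x * up y := by
  obtain ⟨⟨a1, a2, a3, a4⟩, -⟩ := bd_of_comm hF hx
  have e : ∀ i j, (x * y).1.1 i j = ∑ k, x.1.1 i k * y.1.1 k j := fun i j => Matrix.mul_apply
  ext i j
  fin_cases i <;> fin_cases j <;> simp [up, Matrix.mul_apply, Fin.sum_univ_four, a1, a2, a3, a4, Fin.sum_univ_two]

theorem lo_mul {x : SU 4 F 3} (hx : x * y0 hF = y0 hF * x) (y : SU 4 F 3) : lo (x * y) = lo x * lo y := by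
  obtain ⟨-, a1, a2, a3, a4⟩ := bd_of_comm hF hx
  have e : ∀ i j, (x * y).1.1 i j = ∑ k, x.1.1 i k * y.1.1 k j := fun i j => Matrix.mul_apply
  ext i j
  fin_cases i <;> fin_cases j <;> simp [lo, Matrix.mul_apply, Fin.sum_univ_four, a1, a2, a3, a4, Fin.sum_univ_two]

omit hF in
theorem up_one : up (1 : SU 4 F 3) = 1 := by
  have e : (1 : SU 4 F 3).1.1 = 1 := rfl
  ext i j
  fin_cases i <;> fin_cases j <;> simp [up, e, Matrix.one_apply]

omit hF in
theorem lo_one : lo (1 : SU 4 F 3) = 1 := by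
  have e : (1 : SU 4 F 3).1.1 = 1 := rfl
  ext i j
  fin_cases i <;> fin_cases j <;> simp [lo, e, Matrix.one_apply]

theorem up_y0 : up (y0 hF) = -1 := by
  ext i j
  rw [up, y0_coe]
  fin_cases i <;> fin_cases j <;> simp

theorem lo_y0 : lo (y0 hF) = 1 := by
  ext i j
  rw [lo, y0_coe]
  fin_cases i <;> fin_cases j <;> simp

theorem sq_cube {M : Matrix (Fin 2) (Fin 2) F} (h : M * M * M = 1) : (M - 1) * (M - 1) * (M - 1) = 0 := by
  haveI := char3 hF
  haveI : Fact (Nat.Prime 3) := ⟨Nat.prime_three⟩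
  have h1 : (M - 1) ^ 3 = M ^ 3 - 1 ^ 3 := sub_pow_char_of_commute 3 (Commute.one_right _)
  have h2 : M ^ 3 = 1 := by rw [pow_succ, pow_two, h]
  rw [h2, one_pow, sub_self, pow_succ, pow_two] at h1
  exact h1

/-- an element with both blocks commuting with nontrivial unipotents and square a scalar times `y0` does not exist -/
theorem no_scal {t c : SU 4 F 3} (ht : t * y0 hF = y0 hF * t) (hc : c ∈ Subgroup.center (SU 4 F 3)) (ht2 : t * t = c * y0 hF)
    {x x' : SU 4 F 3} (hx : x * y0 hF = y0 hF * x) (hx' : x' * y0 hF = y0 hF * x') (hx3 : x ^ 3 = 1) (hx3' : x' ^ 3 = 1)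
    (hxt : x * t = t * x) (hxt' : x' * t = t * x') (hu : up x ≠ 1) (hl : lo x' ≠ 1) : False := by
  obtain ⟨r, hr, hr4⟩ := cen4 hF hc
  have hr0 : r ≠ 0 := by rintro rfl; rw [zero_pow (by norm_num)] at hr4; exact zero_ne_one hr4
  have hcy : c * y0 hF = y0 hF * c := (Subgroup.mem_center_iff.1 hc _).symm
  have hupc : up c = r • (1 : Matrix (Fin 2) (Fin 2) F) := by
    ext i j; rw [up, hr]; fin_cases i <;> fin_cases j <;> simp
  have hloc : lo c = r • (1 : Matrix (Fin 2) (Fin 2) F) := by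
    ext i j; rw [lo, hr]; fin_cases i <;> fin_cases j <;> simp
  have u1 : up t * up t = (-r) • (1 : Matrix (Fin 2) (Fin 2) F) := by
    rw [← up_mul hF ht, ht2, up_mul hF hcy, hupc, up_y0]
    simp
  have l1 : lo t * lo t = r • (1 : Matrix (Fin 2) (Fin 2) F) := by
    rw [← lo_mul hF ht, ht2, lo_mul hF hcy, hloc, lo_y0]
    simp
  have cube_up : up x * up x * up x = 1 := by
    rw [← up_mul hF hx, ← up_mul hF (by rw [mul_assoc, hx, ← mul_assoc, hx, mul_assoc]), ← pow_two, ← pow_succ, hx3, up_one]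
  have cube_lo : lo x' * lo x' * lo x' = 1 := by
    rw [← lo_mul hF hx', ← lo_mul hF (by rw [mul_assoc, hx', ← mul_assoc, hx', mul_assoc]), ← pow_two, ← pow_succ, hx3', lo_one]
  have c1 : (up x - 1) * up t = up t * (up x - 1) := by
    rw [sub_mul, mul_sub, one_mul, mul_one, ← up_mul hF hx, ← up_mul hF ht, hxt]
  have c2 : (lo x' - 1) * lo t = lo t * (lo x' - 1) := by
    rw [sub_mul, mul_sub, one_mul, mul_one, ← lo_mul hF hx', ← lo_mul hF ht, hxt']
  obtain ⟨p1, p2, p3⟩ := two_scalar (two0 hF) (neg_ne_zero.2 hr0) (sq_cube hF cube_up) (sub_ne_zero.2 hu) c1 u1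
  obtain ⟨s1, s2, s3⟩ := two_scalar (two0 hF) hr0 (sq_cube hF cube_lo) (sub_ne_zero.2 hl) c2 l1
  have q1 : t.1.1 0 1 = 0 := p1
  have q2 : t.1.1 1 0 = 0 := p2
  have q3 : t.1.1 0 0 = t.1.1 1 1 := p3
  have v1 : t.1.1 2 3 = 0 := s1
  have v2 : t.1.1 3 2 = 0 := s2
  have v3 : t.1.1 2 2 = t.1.1 3 3 := s3
  obtain ⟨⟨b1, b2, b3, b4⟩, b5, b6, b7, b8⟩ := bd_of_comm hF ht
  -- t is diagonal
  have l00 := congrFun (congrFun l1 0) 0
  rw [Matrix.mul_apply, Fin.sum_univ_two] at l00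
  have l00' : t.1.1 2 2 * t.1.1 2 2 + t.1.1 2 3 * t.1.1 3 2 = r := by simpa [lo] using l00
  rw [v1, zero_mul, add_zero] at l00'
  have u00 := congrFun (congrFun u1 0) 0
  rw [Matrix.mul_apply, Fin.sum_univ_two] at u00
  have u00' : t.1.1 0 0 * t.1.1 0 0 + t.1.1 0 1 * t.1.1 1 0 = -r := by simpa [up] using u00
  rw [q1, zero_mul, add_zero] at u00'
  -- norm
  have hn := herm_blk' hF t (Pi.single 2 1) (Pi.single 2 1)
  have ht2' : t.1.1 *ᵥ Pi.single 2 1 = t.1.1 2 2 • Pi.single 2 1 := by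
    rw [Matrix.mulVec_single_one]
    funext i
    fin_cases i <;> simp [Matrix.col_apply, b1, b3, v2]
  rw [ht2', (herm_HS 4 hF).smul_left, (herm_HS 4 hF).smul_right, herm_ss hF, if_pos rfl, sig_apply hF] at hn
  have hn4 : t.1.1 2 2 ^ 4 = 1 := by linear_combination hn
  have hrr : r * r = 1 := by rw [← l00']; linear_combination hn4
  -- determinant
  have hdet : t.1.1 0 0 * t.1.1 0 0 * (t.1.1 2 2 * t.1.1 2 2) = 1 := by
    have hD : t.1.1 = Matrix.diagonal ![t.1.1 0 0, t.1.1 0 0, t.1.1 2 2, t.1.1 2 2] := by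
      ext i j
      fin_cases i <;> fin_cases j <;> simp [b1, b2, b3, b4, b5, b6, b7, b8, q1, q2, v1, v2, ← q3, ← v3]
    have hd := t.1.2
    rw [hD, Matrix.det_diagonal] at hd
    simp [Fin.prod_univ_four] at hd
    linear_combination hd
  rw [u00', l00'] at hdet
  apply two0 hF
  linear_combination -hdet - hrr

variable {G : Type*} [Group G]

theorem mem_B0 {x : SU 4 F 3} (h2 : x.1.1 *ᵥ Pi.single 2 1 = Pi.single 2 1) (h3 : x.1.1 *ᵥ Pi.single 3 1 = Pi.single 3 1) :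
    x ∈ (B0 F).range := by
  obtain ⟨s, hs⟩ := mem_blk hF (sh 0 (show 0 + 2 ≤ 4 by omega)) x (by
    intro a ha
    have h := range_sh ha
    have h4 : a = 2 ∨ a = 3 := by
      rcases h with h | h
      · omega
      · fin_cases a <;> simp at h ⊢
    rcases h4 with rfl | rfl
    · exact h2
    · exact h3)
  exact ⟨s, hs⟩

/-- frame for a noncentral involution -/
theorem inv_frame {z : SU 4 F 3} (hz2 : z * z = 1) (hz : z ∉ Subgroup.center (SU 4 F 3)) : ∃ h : SU 4 F 3, h⁻¹ * z * h = y0 hF := by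
  have hz2' : z.1.1 * z.1.1 = 1 := congrArg (fun s : SU 4 F 3 => s.1.1) hz2
  have hne : ∃ x, x + z.1.1 *ᵥ x ≠ 0 := by
    by_contra hcon
    push Not at hcon
    apply hz
    have h1 : z.1.1 = -1 := by
      apply Matrix.ext_of_mulVec_single
      intro i
      rw [Matrix.neg_mulVec, Matrix.one_mulVec]
      exact eq_neg_of_add_eq_zero_right (hcon _)
    rw [Subgroup.mem_center_iff]
    intro y
    apply Subtype.ext; apply Subtype.ext
    show y.1.1 * z.1.1 = z.1.1 * y.1.1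
    rw [h1]; simp
  obtain ⟨v, hv, hzv⟩ := inv_fix hF (two0 hF) (herm_blk' hF z) hz2' hne
  obtain ⟨h1, hh1⟩ := SU_trans hF (k := 4) (by norm_num) (x := Pi.single 3 1) (by rw [herm_ss hF, if_pos rfl]) hv
  obtain ⟨s3, hs3⟩ := mem_blk hF (sh 0 (show 0 + 3 ≤ 4 by omega)) (h1⁻¹ * z * h1) (by
    intro a ha
    have h := range_sh ha
    have h4 : a = 3 := Fin.ext (by have := a.2; show a.1 = 3; omega)
    rw [h4, mul_mulVec', mul_mulVec', hh1, hzv, ← hh1, inv_mulVec'])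
  have hs32 : s3 * s3 = 1 := by
    apply blk_inj (sh 0 (show 0 + 3 ≤ 4 by omega))
    rw [map_mul, map_one, hs3]
    calc h1⁻¹ * z * h1 * (h1⁻¹ * z * h1) = h1⁻¹ * (z * z) * h1 := by group
      _ = 1 := by rw [hz2]; group
  have hs3n : ∃ x, x + s3.1.1 *ᵥ x ≠ 0 := by
    by_contra hcon
    push Not at hcon
    have h1 : s3.1.1 = -1 := by
      apply Matrix.ext_of_mulVec_single
      intro i
      rw [Matrix.neg_mulVec, Matrix.one_mulVec]
      exact eq_neg_of_add_eq_zero_right (hcon _)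
    have h3 := s3.1.2
    rw [h1, Matrix.det_neg, Matrix.det_one] at h3
    simp at h3
    apply two0 hF
    have h4 : (-1 : F) ^ 3 = -1 := by ring
    rw [h3] at h4
    linear_combination h4
  obtain ⟨v', hv', hsv'⟩ := inv_fix hF (two0 hF) (herm_blk' hF s3) (congrArg (fun s : SU 3 F 3 => s.1.1) hs32) hs3n
  obtain ⟨h2, hh2⟩ := SU_trans hF (k := 3) (by norm_num) (x := Pi.single 2 1) (by rw [herm_ss hF, if_pos rfl]) hv'
  have h5 : h2⁻¹ * s3 * h2 ∈ stV 3 (Pi.single 2 1 : Fin 3 → F) := by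
    show (h2⁻¹ * s3 * h2).1.1 *ᵥ _ = _
    rw [mul_mulVec', mul_mulVec', hh2, hsv', ← hh2, inv_mulVec']
  rw [stV_e2 hF] at h5
  obtain ⟨s2, hs2⟩ := h5
  have hs22 : s2 * s2 = 1 := by
    apply b0_inj
    rw [map_mul, map_one, hs2]
    calc h2⁻¹ * s3 * h2 * (h2⁻¹ * s3 * h2) = h2⁻¹ * (s3 * s3) * h2 := by group
      _ = 1 := by rw [hs32]; group
  have hs2n : s2 ≠ 1 := by
    intro h
    rw [h, map_one] at hs2
    have e1 : s3 = 1 := by
      calc s3 = h2 * (h2⁻¹ * s3 * h2) * h2⁻¹ := by group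
        _ = 1 := by rw [← hs2]; group
    rw [e1, map_one] at hs3
    apply hz
    have e2 : z = 1 := by
      calc z = h1 * (h1⁻¹ * z * h1) * h1⁻¹ := by group
        _ = 1 := by rw [← hs3]; group
    rw [e2]; exact one_mem _
  have e3 := eq_m1 hF hs22 hs2n
  refine ⟨h1 * blk (sh 0 (show 0 + 3 ≤ 4 by omega)) h2, ?_⟩
  calc (h1 * blk (sh 0 (show 0 + 3 ≤ 4 by omega)) h2)⁻¹ * z * (h1 * blk (sh 0 (show 0 + 3 ≤ 4 by omega)) h2)
      = (blk (sh 0 (show 0 + 3 ≤ 4 by omega)) h2)⁻¹ * (h1⁻¹ * z * h1) * blk (sh 0 (show 0 + 3 ≤ 4 by omega)) h2 := by group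
    _ = blk (sh 0 (show 0 + 3 ≤ 4 by omega)) (h2⁻¹ * s3 * h2) := by rw [← hs3, map_mul, map_mul, map_inv]
    _ = y0 hF := by
      rw [← hs2, e3]
      show blk _ (blk _ _) = blk _ _
      rw [blk_sh]

end Cfsg.Agent.Lib.Phan
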