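import Cfsg.Agent.Lib.PhanN

/-! Subgroups `SU_2(3)` in quotients of `SU_4(3)`: they are blocks (helper38). -/

set_option autoImplicit false
set_option linter.unusedSectionVars false
set_option linter.unusedSimpArgs false

namespace Cfsg.Agent.Lib.Phan

open Module Matrix Cfsg Cfsg.Agent.Lib.UnTrans Cfsg.Agent.Lib.UnBridge Cfsg.Agent.Lib.ClUnSimple

variable {F : Type*} [Field F] [Fintype F] (hF : Fintype.card F = 3 ^ 2) {G : Type*} [Group G]
include hF

theorem up_fix {x : SU 4 F 3} (hx : x * y0 hF = y0 hF * x) (hl : up x = 1) :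
    x.1.1 *ᵥ Pi.single 0 1 = Pi.single 0 1 ∧ x.1.1 *ᵥ Pi.single 1 1 = Pi.single 1 1 := by
  obtain ⟨⟨a1, a2, a3, a4⟩, a5, a6, a7, a8⟩ := bd_of_comm hF hx
  have h00 : x.1.1 0 0 = 1 := by have := congrFun (congrFun hl 0) 0; simpa [up] using this
  have h01 : x.1.1 0 1 = 0 := by have := congrFun (congrFun hl 0) 1; simpa [up] using this
  have h10 : x.1.1 1 0 = 0 := by have := congrFun (congrFun hl 1) 0; simpa [up] using this
  have h11 : x.1.1 1 1 = 1 := by have := congrFun (congrFun hl 1) 1; simpa [up] using this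
  constructor
  · rw [Matrix.mulVec_single_one]
    funext i
    fin_cases i <;> simp [Matrix.col_apply, h00, h10, a5, a7]
  · rw [Matrix.mulVec_single_one]
    funext i
    fin_cases i <;> simp [Matrix.col_apply, h01, h11, a6, a8]

theorem lo_fix {x : SU 4 F 3} (hx : x * y0 hF = y0 hF * x) (hl : lo x = 1) :
    x.1.1 *ᵥ Pi.single 2 1 = Pi.single 2 1 ∧ x.1.1 *ᵥ Pi.single 3 1 = Pi.single 3 1 := by
  obtain ⟨⟨a1, a2, a3, a4⟩, a5, a6, a7, a8⟩ := bd_of_comm hF hx
  have h00 : x.1.1 2 2 = 1 := by have := congrFun (congrFun hl 0) 0; simpa [lo] using this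
  have h01 : x.1.1 2 3 = 0 := by have := congrFun (congrFun hl 0) 1; simpa [lo] using this
  have h10 : x.1.1 3 2 = 0 := by have := congrFun (congrFun hl 1) 0; simpa [lo] using this
  have h11 : x.1.1 3 3 = 1 := by have := congrFun (congrFun hl 1) 1; simpa [lo] using this
  constructor
  · rw [Matrix.mulVec_single_one]
    funext i
    fin_cases i <;> simp [Matrix.col_apply, h00, h10, a1, a3]
  · rw [Matrix.mulVec_single_one]
    funext i
    fin_cases i <;> simp [Matrix.col_apply, h01, h11, a2, a4]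

/-- **identification of a block** -/
theorem lemA {g : SU 4 F 3 →* G} (hk : g.ker ≤ Subgroup.center (SU 4 F 3)) (e : SU 2 F 3 →* G) (he : Function.Injective e)
    (hr : e.range ≤ g.range) (t : SU 4 F 3) (ht2 : g t * g t = e (m1 hF)) (htc : ∀ s, g t * e s = e s * g t)
    (y : SU 4 F 3) (hy : g y * e (m1 hF) ≠ e (m1 hF) * g y) :
    ∃ h : SU 4 F 3, e.range = ((B0 F).range.map (MulAut.conj h).toMonoidHom).map g := by
  set X : Subgroup (SU 4 F 3) := Subgroup.closure {x | x ^ 3 = 1 ∧ g x ∈ e.range} with hX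
  have hXle : X.map g ≤ e.range := by
    rw [Subgroup.map_le_iff_le_comap, hX, Subgroup.closure_le]
    rintro x ⟨-, hx⟩; exact hx
  have hXge : e.range ≤ X.map g := by
    have h1 : (X.map g).comap e = ⊤ := by
      apply gen3 hF
      intro s hs
      obtain ⟨y, hy⟩ := hr ⟨s, rfl⟩
      have h2 : (g y) ^ 3 = 1 := by rw [hy, ← map_pow, hs, map_one]
      obtain ⟨x, hx, hx3⟩ := lift3 hF hk h2
      refine ⟨x, Subgroup.subset_closure ⟨hx3, ?_⟩, hx.trans hy⟩
      rw [hx, hy]; exact ⟨s, rfl⟩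
    rintro _ ⟨s, rfl⟩
    have : s ∈ (X.map g).comap e := by rw [h1]; trivial
    exact this
  have hcen : ∀ s : SU 4 F 3, (∀ u, g s * e u = e u * g s) → ∀ x ∈ X, s * x = x * s := by
    intro s hs x hx
    have h1 : X ≤ Subgroup.centralizer {s} := by
      rw [hX, Subgroup.closure_le]
      rintro x ⟨hx3, u, hu⟩
      rw [SetLike.mem_coe, Subgroup.mem_centralizer_singleton_iff]
      exact (comm3 hF hk hx3 (by rw [← hu]; exact hs u)).symm
    exact (Subgroup.mem_centralizer_singleton_iff.1 (h1 hx)).symm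
  obtain ⟨w1, w2, hw, hw2⟩ := exists_w hF
  obtain ⟨w1', hw1X, hw1'⟩ := hXge ⟨w1, rfl⟩
  obtain ⟨w2', hw2X, hw2'⟩ := hXge ⟨w2, rfl⟩
  set z := w1' * w2' * w1'⁻¹ * w2'⁻¹ with hz
  have hzX : z ∈ X := mul_mem (mul_mem (mul_mem hw1X hw2X) (inv_mem hw1X)) (inv_mem hw2X)
  have hgz : g z = e (m1 hF) := by
    rw [hz, map_mul, map_mul, map_mul, map_inv, map_inv, hw1', hw2', ← hw, map_mul, map_mul, map_mul, map_inv, map_inv]
  have htX := hcen t htc
  -- c = t² z⁻¹ is central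
  obtain ⟨c, hc, htz⟩ : ∃ c ∈ Subgroup.center (SU 4 F 3), t * t = c * z := by
    refine ⟨t * t * z⁻¹, hk ?_, by group⟩
    rw [MonoidHom.mem_ker, map_mul, map_mul, map_inv, ht2, hgz]; group
  have hzc : ∀ x ∈ X, z * x = x * z := by
    intro x hx
    have h1 : (t * t) * x = x * (t * t) := by
      rw [mul_assoc, htX x hx, ← mul_assoc, htX x hx, mul_assoc]
    rw [htz] at h1
    have h2 := Subgroup.mem_center_iff.1 hc
    have h3 : c * (z * x) = c * (x * z) := by
      rw [← mul_assoc, h1, ← mul_assoc, h2 x, mul_assoc]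
    exact mul_left_cancel h3
  obtain ⟨c2, hc2, hw22⟩ : ∃ c2 ∈ Subgroup.center (SU 4 F 3), w2' * w2' = c2 * z := by
    refine ⟨w2' * w2' * z⁻¹, hk ?_, by group⟩
    rw [MonoidHom.mem_ker, map_mul, map_mul, map_inv, hw2', hgz, ← map_mul, hw2]; group
  have hz2 : z * z = 1 := by
    have h1 : w1' * w2' * w1'⁻¹ = z * w2' := by rw [hz]; group
    have h2 : w1' * (w2' * w2') = (w2' * w2') * w1' := by
      rw [hw22]
      have h2 := Subgroup.mem_center_iff.1 hc2
      rw [← mul_assoc, h2 w1', mul_assoc, mul_assoc, hzc w1' hw1X]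
    have h3 : (w1' * w2' * w1'⁻¹) * (w1' * w2' * w1'⁻¹) = w2' * w2' := by
      calc (w1' * w2' * w1'⁻¹) * (w1' * w2' * w1'⁻¹) = w1' * (w2' * w2') * w1'⁻¹ := by group
        _ = w2' * w2' := by rw [h2]; group
    rw [h1] at h3
    have h4 : z * w2' * (z * w2') = z * z * (w2' * w2') := by
      rw [mul_assoc, ← mul_assoc w2', ← hzc w2' hw2X]; group
    rw [h4] at h3
    exact mul_eq_right.1 h3
  have hznc : z ∉ Subgroup.center (SU 4 F 3) := by
    intro h
    apply hy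
    rw [← hgz, ← map_mul, ← map_mul, Subgroup.mem_center_iff.1 h y]
  obtain ⟨h, hh⟩ := inv_frame hF hz2 hznc
  -- conjugate
  have hcj : ∀ x : SU 4 F 3, z * x = x * z → (h⁻¹ * x * h) * y0 hF = y0 hF * (h⁻¹ * x * h) := by
    intro x hx
    rw [← hh]
    calc (h⁻¹ * x * h) * (h⁻¹ * z * h) = h⁻¹ * (x * z) * h := by group
      _ = (h⁻¹ * z * h) * (h⁻¹ * x * h) := by rw [← hx]; group
  have htz' : z * t = t * z := (htX z hzX).symm
  set t' := h⁻¹ * t * h with ht'
  have ht'2 : t' * t' = c * y0 hF := by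
    rw [← hh, ht']
    calc h⁻¹ * t * h * (h⁻¹ * t * h) = h⁻¹ * (t * t) * h := by group
      _ = h⁻¹ * c * (z * h) := by rw [htz]; group
      _ = c * (h⁻¹ * z * h) := by rw [Subgroup.mem_center_iff.1 hc h⁻¹]; group
  -- some generator is nontrivial on the upper block
  obtain ⟨x, hxX, hx3, hxu⟩ : ∃ x ∈ X, x ^ 3 = 1 ∧ up (h⁻¹ * x * h) ≠ 1 := by
    by_contra hcon
    push Not at hcon
    have key : ∀ x ∈ X, up (h⁻¹ * x * h) = 1 := by
      intro x hx
      have hx' := hx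
      rw [hX] at hx
      induction hx using Subgroup.closure_induction with
      | mem x hx => exact hcon x hx' hx.1
      | one => rw [mul_one, inv_mul_cancel, up_one]
      | mul a b ha hb iha ihb =>
        have e1 : h⁻¹ * (a * b) * h = (h⁻¹ * a * h) * (h⁻¹ * b * h) := by group
        rw [e1, up_mul hF (hcj a (hzc a ha)), iha ha, ihb hb, one_mul]
      | inv a ha iha =>
        have e1 : (h⁻¹ * a⁻¹ * h) * (h⁻¹ * a * h) = 1 := by group
        have e2 := up_mul hF (hcj a⁻¹ (hzc a⁻¹ (inv_mem ha))) (h⁻¹ * a * h)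
        rw [e1, up_one, iha ha, mul_one] at e2
        exact e2.symm
    have h1 := key z hzX
    rw [hh, up_y0] at h1
    have h2 := congrFun (congrFun h1 0) 0
    simp at h2
    apply two0 hF
    linear_combination -h2
  have hlow : ∀ x' ∈ X, x' ^ 3 = 1 → lo (h⁻¹ * x' * h) = 1 := by
    intro x' hx'X hx3'
    by_contra hl
    have e3 : ∀ a : SU 4 F 3, a ^ 3 = 1 → (h⁻¹ * a * h) ^ 3 = 1 := by
      intro a ha
      have : h⁻¹ * a * h = h⁻¹ * a * (h⁻¹)⁻¹ := by rw [inv_inv]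
      rw [this, conj_pow, ha]; group
    have e4 : ∀ a ∈ X, (h⁻¹ * a * h) * t' = t' * (h⁻¹ * a * h) := by
      intro a ha
      rw [ht']
      calc (h⁻¹ * a * h) * (h⁻¹ * t * h) = h⁻¹ * (a * t) * h := by group
        _ = (h⁻¹ * t * h) * (h⁻¹ * a * h) := by rw [← htX a ha]; group
    exact no_scal hF (hcj t htz') hc ht'2 (hcj x (hzc x hxX)) (hcj x' (hzc x' hx'X)) (e3 x hx3) (e3 x' hx3')
      (e4 x hxX) (e4 x' hx'X) hxu hl
  -- conclusion
  have hsub : X ≤ (B0 F).range.map (MulAut.conj h).toMonoidHom := by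
    rw [hX, Subgroup.closure_le]
    rintro x ⟨hx3, hx⟩
    have hxX : x ∈ X := Subgroup.subset_closure ⟨hx3, hx⟩
    obtain ⟨f2, f3⟩ := lo_fix hF (hcj x (hzc x hxX)) (hlow x hxX hx3)
    refine ⟨h⁻¹ * x * h, mem_B0 hF f2 f3, ?_⟩
    show h * (h⁻¹ * x * h) * h⁻¹ = x
    group
  refine ⟨h, ?_⟩
  have hle : e.range ≤ ((B0 F).range.map (MulAut.conj h).toMonoidHom).map g := hXge.trans (Subgroup.map_mono hsub)
  have hfin : Finite (((B0 F).range.map (MulAut.conj h).toMonoidHom).map g) := by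
    have : Finite (SU 4 F 3) := inferInstance
    exact Finite.of_surjective (fun x : ↥((B0 F).range.map (MulAut.conj h).toMonoidHom) => (⟨g x.1, ⟨x.1, x.2, rfl⟩⟩ :
      ↥(((B0 F).range.map (MulAut.conj h).toMonoidHom).map g))) (by rintro ⟨_, x, hx, rfl⟩; exact ⟨⟨x, hx⟩, rfl⟩)
  apply Subgroup.eq_of_le_of_card_ge hle
  have c1 : Nat.card e.range = Nat.card (SU 2 F 3) := (Nat.card_congr (MonoidHom.ofInjective he).toEquiv).symm
  rw [c1]
  have f1 : Function.Surjective (fun s : SU 2 F 3 => (⟨g (h * B0 F s * h⁻¹), ⟨_, ⟨_, ⟨s, rfl⟩, rfl⟩, rfl⟩⟩ :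
      ↥(((B0 F).range.map (MulAut.conj h).toMonoidHom).map g))) := by
    rintro ⟨_, _, ⟨_, ⟨s, rfl⟩, rfl⟩, rfl⟩
    exact ⟨s, rfl⟩
  exact Nat.card_le_card_of_surjective _ f1

end Cfsg.Agent.Lib.Phan
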