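import Cfsg.Agent.Lib.PhanO

/-! Standard pairs in quotients of `SU_4(3)` (helper38). -/

set_option autoImplicit false
set_option linter.unusedSectionVars false
set_option linter.unusedSimpArgs false

namespace Cfsg.Agent.Lib.Phan

open Module Matrix Cfsg Cfsg.Agent.Lib.UnTrans Cfsg.Agent.Lib.UnBridge Cfsg.Agent.Lib.ClUnSimple

/-- the middle block -/
def B1 (F : Type*) [Field F] : SU 2 F 3 →* SU 4 F 3 := blk (sh 1 (show 1 + 2 ≤ 4 by omega))

/-- the last block -/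
def B2 (F : Type*) [Field F] : SU 2 F 3 →* SU 4 F 3 := blk (sh 2 (show 2 + 2 ≤ 4 by omega))

variable {F : Type*} [Field F] [Fintype F] (hF : Fintype.card F = 3 ^ 2) {G : Type*} [Group G]
include hF

theorem Std.inj3 {ψ : SU 3 F 3 →* G} {A B V : Subgroup G} (S : Std ψ A B V) : Function.Injective ψ := by
  rw [injective_iff_map_eq_one]
  intro x hx
  have h1 : x ∈ Subgroup.center (SU 3 F 3) := S.hk hx
  obtain ⟨r, hr⟩ := (ClUnitary.center_SU hF (by norm_num) _).1 h1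
  have h2 := x.1.2
  rw [hr] at h2
  have h3 : (algebraMap F (Matrix (Fin 3) (Fin 3) F) r) = r • (1 : Matrix (Fin 3) (Fin 3) F) := Algebra.algebraMap_eq_smul_one r
  have h4 : r ^ 3 = 1 := by
    have h5 : (r • (1 : Matrix (Fin 3) (Fin 3) F)).det = 1 := by rw [← h3]; exact h2
    rw [Matrix.det_smul, Matrix.det_one] at h5
    simpa using h5
  have h5 := cube_one hF h4
  apply Subtype.ext; apply Subtype.ext
  rw [hr, h5, map_one]; rfl

/-- the elements used in `lemA` -/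
theorem exists_T : ∃ T0 T1 : SU 3 F 3, T0 * T0 = b0 F 3 (m1 hF) ∧ T1 * T1 = b1 F 3 (m1 hF) ∧
    (∀ s, T0 * b0 F 3 s = b0 F 3 s * T0) ∧ (∀ s, T1 * b1 F 3 s = b1 F 3 s * T1) := by
  obtain ⟨i, hi⟩ := exists_i hF
  have hn := norm_i hF hi
  let T0 : SU 3 F 3 := dg hF ![i, i, -1] (by intro a; fin_cases a; exacts [hn, hn, sig_neg1 hF])
    (by simp [Fin.prod_univ_three]; linear_combination -hi)
  let T1 : SU 3 F 3 := dg hF ![-1, i, i] (by intro a; fin_cases a; exacts [sig_neg1 hF, hn, hn])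
    (by simp [Fin.prod_univ_three]; linear_combination -hi)
  have e0 : T0.1.1 = !![i, 0, 0; 0, i, 0; 0, 0, -1] := by
    show Matrix.diagonal ![i, i, -1] = _
    ext a b
    fin_cases a <;> fin_cases b <;> simp [Matrix.diagonal]
  have e1 : T1.1.1 = !![-1, 0, 0; 0, i, 0; 0, 0, i] := by
    show Matrix.diagonal ![-1, i, i] = _
    ext a b
    fin_cases a <;> fin_cases b <;> simp [Matrix.diagonal]
  refine ⟨T0, T1, ?_, ?_, ?_, ?_⟩
  · apply Subtype.ext; apply Subtype.ext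
    show T0.1.1 * T0.1.1 = (b0 F 3 (m1 hF)).1.1
    rw [b0_mat, m1_coe, e0]
    ext a b
    fin_cases a <;> fin_cases b <;> simp [hi]
  · apply Subtype.ext; apply Subtype.ext
    show T1.1.1 * T1.1.1 = (b1 F 3 (m1 hF)).1.1
    rw [b1_mat, m1_coe, e1]
    ext a b
    fin_cases a <;> fin_cases b <;> simp [hi]
  · intro s
    apply Subtype.ext; apply Subtype.ext
    show T0.1.1 * (b0 F 3 s).1.1 = (b0 F 3 s).1.1 * T0.1.1
    rw [b0_mat, e0]
    ext a b
    fin_cases a <;> fin_cases b <;> simp [mul_comm]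
  · intro s
    apply Subtype.ext; apply Subtype.ext
    show T1.1.1 * (b1 F 3 s).1.1 = (b1 F 3 s).1.1 * T1.1.1
    rw [b1_mat, e1]
    ext a b
    fin_cases a <;> fin_cases b <;> simp [mul_comm]

/-- the Weyl element of `SU_2(3)` -/
noncomputable def wl : SU 2 F 3 := su2 hF 0 1 (by rw [map_one, zero_mul, zero_add, one_mul])

theorem wl_coe : (wl hF).1.1 = !![0, 1; -1, 0] := by
  show !![0, 1; -sig hF 1, sig hF 0] = _
  rw [map_zero, map_one]

theorem nc01 : b1 F 3 (wl hF) * b0 F 3 (m1 hF) ≠ b0 F 3 (m1 hF) * b1 F 3 (wl hF) := by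
  intro h
  have h1 : (b1 F 3 (wl hF)).1.1 * (b0 F 3 (m1 hF)).1.1 = (b0 F 3 (m1 hF)).1.1 * (b1 F 3 (wl hF)).1.1 :=
    congrArg (fun s : SU 3 F 3 => s.1.1) h
  rw [b0_mat, b1_mat, wl_coe, m1_coe] at h1
  have h2 := congrFun (congrFun h1 1) 2
  simp at h2
  apply two0 hF
  linear_combination h2

theorem nc10 : b0 F 3 (wl hF) * b1 F 3 (m1 hF) ≠ b1 F 3 (m1 hF) * b0 F 3 (wl hF) := by
  intro h
  have h1 : (b0 F 3 (wl hF)).1.1 * (b1 F 3 (m1 hF)).1.1 = (b1 F 3 (m1 hF)).1.1 * (b0 F 3 (wl hF)).1.1 :=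
    congrArg (fun s : SU 3 F 3 => s.1.1) h
  rw [b0_mat, b1_mat, wl_coe, m1_coe] at h1
  have h2 := congrFun (congrFun h1 0) 1
  simp at h2
  apply two0 hF
  linear_combination -h2

theorem lemA0 {g : SU 4 F 3 →* G} (hk : g.ker ≤ Subgroup.center (SU 4 F 3)) {ψ : SU 3 F 3 →* G} {A B V : Subgroup G}
    (S : Std ψ A B V) (hV : V ≤ g.range) : ∃ h : SU 4 F 3, A = ((B0 F).range.map (MulAut.conj h).toMonoidHom).map g := by
  obtain ⟨T0, T1, h1, h2, h3, h4⟩ := exists_T hF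
  have hr : ∀ x, ∃ y, g y = ψ x := fun x => hV (by rw [← S.hV]; exact ⟨x, rfl⟩)
  obtain ⟨t, ht⟩ := hr T0
  obtain ⟨y, hy⟩ := hr (b1 F 3 (wl hF))
  obtain ⟨h, hh⟩ := lemA hF hk (ψ.comp (b0 F 3)) (S.inj0 hF) (by rintro _ ⟨s, rfl⟩; exact hr _) t
    (by rw [ht, ← map_mul, h1]; rfl) (by intro s; show _ * ψ (b0 F 3 s) = ψ (b0 F 3 s) * _; rw [ht, ← map_mul, ← map_mul, h3])
    y (by
      show _ * ψ (b0 F 3 _) ≠ ψ (b0 F 3 _) * _
      rw [hy, ← map_mul, ← map_mul]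
      intro h; exact nc01 hF (S.inj3 hF h))
  exact ⟨h, by rw [← hh, S.hA]⟩

theorem lemA1 {g : SU 4 F 3 →* G} (hk : g.ker ≤ Subgroup.center (SU 4 F 3)) {ψ : SU 3 F 3 →* G} {A B V : Subgroup G}
    (S : Std ψ A B V) (hV : V ≤ g.range) : ∃ h : SU 4 F 3, B = ((B0 F).range.map (MulAut.conj h).toMonoidHom).map g := by
  obtain ⟨T0, T1, h1, h2, h3, h4⟩ := exists_T hF
  have hr : ∀ x, ∃ y, g y = ψ x := fun x => hV (by rw [← S.hV]; exact ⟨x, rfl⟩)
  obtain ⟨t, ht⟩ := hr T1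
  obtain ⟨y, hy⟩ := hr (b0 F 3 (wl hF))
  obtain ⟨h, hh⟩ := lemA hF hk (ψ.comp (b1 F 3)) (S.inj1 hF) (by rintro _ ⟨s, rfl⟩; exact hr _) t
    (by rw [ht, ← map_mul, h2]; rfl) (by intro s; show _ * ψ (b1 F 3 s) = ψ (b1 F 3 s) * _; rw [ht, ← map_mul, ← map_mul, h4])
    y (by
      show _ * ψ (b1 F 3 _) ≠ ψ (b1 F 3 _) * _
      rw [hy, ← map_mul, ← map_mul]
      intro h; exact nc10 hF (S.inj3 hF h))
  exact ⟨h, by rw [← hh, S.hB]⟩

theorem B0_y0 (u : SU 2 F 3) : B0 F u * y0 hF = y0 hF * B0 F u := by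
  show B0 F u * B0 F (m1 hF) = B0 F (m1 hF) * B0 F u
  rw [← map_mul, ← map_mul]
  congr 1
  apply Subtype.ext; apply Subtype.ext
  show u.1.1 * (m1 hF).1.1 = (m1 hF).1.1 * u.1.1
  rw [m1_coe]; simp

omit [Fintype F] hF in
theorem up_B0 (u : SU 2 F 3) : up (B0 F u) = u.1.1 := by
  ext a b
  have h : ∀ a b : Fin 2, (B0 F u).1.1 (sh 0 (show 0 + 2 ≤ 4 by omega) a) (sh 0 (show 0 + 2 ≤ 4 by omega) b) = u.1.1 a b :=
    fun a b => blkM_ii _ _ _ _
  fin_cases a <;> fin_cases b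
  · exact h 0 0
  · exact h 0 1
  · exact h 1 0
  · exact h 1 1

omit [Fintype F] hF in
theorem lo_B0 (u : SU 2 F 3) : lo (B0 F u) = 1 := by
  have h : ∀ (a : Fin 4) (b : Fin 4), 2 ≤ a.1 → (B0 F u).1.1 a b = if a = b then 1 else 0 :=
    fun a b ha => blkM_oi _ _ (not_range_sh (Or.inr (by omega))) b
  ext a b
  fin_cases a <;> fin_cases b <;> simp [lo, h]

theorem ext_bd {x y : SU 4 F 3} (hx : x * y0 hF = y0 hF * x) (hy : y * y0 hF = y0 hF * y) (hu : up x = up y) (hl : lo x = lo y) : x = y := by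
  obtain ⟨⟨a1, a2, a3, a4⟩, a5, a6, a7, a8⟩ := bd_of_comm hF hx
  obtain ⟨⟨b1, b2, b3, b4⟩, b5, b6, b7, b8⟩ := bd_of_comm hF hy
  have u : ∀ i j, up x i j = up y i j := fun i j => by rw [hu]
  have l : ∀ i j, lo x i j = lo y i j := fun i j => by rw [hl]
  have u00 := u 0 0
  have u01 := u 0 1
  have u10 := u 1 0
  have u11 := u 1 1
  have l00 := l 0 0
  have l01 := l 0 1
  have l10 := l 1 0
  have l11 := l 1 1
  simp [up] at u00 u01 u10 u11
  simp [lo] at l00 l01 l10 l11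
  apply Subtype.ext; apply Subtype.ext
  ext i j
  fin_cases i <;> fin_cases j <;> simp [a1, a2, a3, a4, a5, a6, a7, a8, b1, b2, b3, b4, b5, b6, b7, b8, u00, u01, u10, u11, l00, l01, l10, l11]

theorem comm_bd {x y : SU 4 F 3} (hx : x * y0 hF = y0 hF * x) (hy : y * y0 hF = y0 hF * y) (hu : up x * up y = up y * up x)
    (hl : lo x * lo y = lo y * lo x) : x * y = y * x := by
  apply ext_bd hF
  · rw [mul_assoc, hy, ← mul_assoc, hx, mul_assoc]
  · rw [mul_assoc, hx, ← mul_assoc, hy, mul_assoc]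
  · rw [up_mul hF hx, up_mul hF hy, hu]
  · rw [lo_mul hF hx, lo_mul hF hy, hl]

theorem y0_nc : y0 hF ∉ Subgroup.center (SU 4 F 3) := by
  intro h
  obtain ⟨r, hr, -⟩ := cen4 hF h
  rw [y0_coe] at hr
  have h1 := congrFun (congrFun hr 0) 0
  have h2 := congrFun (congrFun hr 2) 2
  simp at h1 h2
  apply two0 hF
  linear_combination h2 - h1

omit hF in
theorem mem_cj {h x : SU 4 F 3} : x ∈ (B0 F).range.map (MulAut.conj h).toMonoidHom ↔ h⁻¹ * x * h ∈ (B0 F).range := by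
  constructor
  · rintro ⟨y, hy, rfl⟩
    have : h⁻¹ * (MulAut.conj h).toMonoidHom y * h = y := by
      show h⁻¹ * (h * y * h⁻¹) * h = y
      group
    rw [this]; exact hy
  · intro hx
    exact ⟨_, hx, by show h * (h⁻¹ * x * h) * h⁻¹ = x; group⟩

end Cfsg.Agent.Lib.Phan
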