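import Cfsg.Agent.Lib.PhanP

/-! Standard pairs in quotients of `SU_4(3)`, continued (helper38). -/

set_option autoImplicit false
set_option linter.unusedSectionVars false
set_option linter.unusedSimpArgs false

namespace Cfsg.Agent.Lib.Phan

open Module Matrix Cfsg Cfsg.Agent.Lib.UnTrans Cfsg.Agent.Lib.UnBridge Cfsg.Agent.Lib.ClUnSimple

variable {F : Type*} [Field F] [Fintype F] (hF : Fintype.card F = 3 ^ 2) {G : Type*} [Group G]
include hF

omit hF in
theorem card_cj (h : SU 4 F 3) : Nat.card ((B0 F).range.map (MulAut.conj h).toMonoidHom) = Nat.card (SU 2 F 3) := by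
  rw [Subgroup.card_map_of_injective (MulAut.conj h).injective]
  exact (Nat.card_congr (MonoidHom.ofInjective (blk_inj _)).toEquiv).symm

omit hF in
theorem card_B (i : ℕ) (hi : i + 2 ≤ 4) : Nat.card (blk (sh i hi) : SU 2 F 3 →* SU 4 F 3).range = Nat.card (SU 2 F 3) :=
  (Nat.card_congr (MonoidHom.ofInjective (blk_inj _)).toEquiv).symm

theorem mem_B2 {x : SU 4 F 3} (h0 : x.1.1 *ᵥ Pi.single 0 1 = Pi.single 0 1) (h1 : x.1.1 *ᵥ Pi.single 1 1 = Pi.single 1 1) :
    x ∈ (B2 F).range := by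
  obtain ⟨s, hs⟩ := mem_blk hF (sh 2 (show 2 + 2 ≤ 4 by omega)) x (by
    intro a ha
    have h := range_sh ha
    have h4 : a = 0 ∨ a = 1 := by
      rcases h with h | h
      · fin_cases a <;> simp at h ⊢
      · have := a.2; omega
    rcases h4 with rfl | rfl
    · exact h0
    · exact h1)
  exact ⟨s, hs⟩

/-- if `x` commutes with the first block and has order dividing three then it lies in the last block -/
theorem B2_of_comm {x : SU 4 F 3} (hx3 : x ^ 3 = 1) (hc : ∀ u, x * B0 F u = B0 F u * x) : x ∈ (B2 F).range := by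
  have hxy : x * y0 hF = y0 hF * x := hc _
  obtain ⟨i, hi⟩ := exists_i hF
  let d : SU 2 F 3 := su2 hF i 0 (by rw [norm_i hF hi, map_zero, mul_zero, add_zero])
  have hd : d.1.1 = !![i, 0; 0, -i] := by
    show !![i, 0; -sig hF 0, sig hF i] = _
    rw [map_zero, neg_zero, sig_i hF hi]
  have i0 : i ≠ 0 := by rintro rfl; rw [zero_mul] at hi; exact one_ne_zero (by linear_combination hi)
  have hcu : ∀ u : SU 2 F 3, up x * u.1.1 = u.1.1 * up x := by
    intro u
    have h := congrArg up (hc u)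
    rw [up_mul hF hxy, up_mul hF (B0_y0 hF u), up_B0] at h
    exact h
  have h1 := hcu d
  have h2 := hcu (wl hF)
  rw [hd] at h1
  rw [wl_coe] at h2
  have e01 := congrFun (congrFun h1 0) 1
  have e10 := congrFun (congrFun h1 1) 0
  have f := congrFun (congrFun h2 0) 1
  simp [Matrix.mul_apply, Fin.sum_univ_two] at e01 e10 f
  have x01 : up x 0 1 = 0 := by
    have : (2 * i) * up x 0 1 = 0 := by linear_combination -e01
    exact (mul_eq_zero.1 this).resolve_left (mul_ne_zero (two0 hF) i0)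
  have x10 : up x 1 0 = 0 := by
    have : (2 * i) * up x 1 0 = 0 := by linear_combination e10
    exact (mul_eq_zero.1 this).resolve_left (mul_ne_zero (two0 hF) i0)
  have hux3 : up x * up x * up x = 1 := by
    rw [← up_mul hF hxy, ← up_mul hF (by rw [mul_assoc, hxy, ← mul_assoc, hxy, mul_assoc]), ← pow_two, ← pow_succ, hx3, up_one]
  have g00 := congrFun (congrFun hux3 0) 0
  simp only [Matrix.mul_apply, Fin.sum_univ_two, x01, x10] at g00
  have g00' : (up x 0 0) ^ 3 = 1 := by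
    have : (1 : Matrix (Fin 2) (Fin 2) F) 0 0 = 1 := by simp
    rw [this] at g00
    linear_combination g00
  have x00 := cube_one hF g00'
  have hup : up x = 1 := by
    ext a b
    fin_cases a <;> fin_cases b
    · exact x00
    · exact x01
    · exact x10
    · show up x 1 1 = 1
      rw [← f]; exact x00
  obtain ⟨k0, k1⟩ := up_fix hF hxy hup
  exact mem_B2 hF k0 k1

theorem comm_gen {g : SU 4 F 3 →* G} (hk : g.ker ≤ Subgroup.center (SU 4 F 3)) {x : SU 4 F 3}
    (hc : ∀ u, g x * g (B0 F u) = g (B0 F u) * g x) (u : SU 2 F 3) : x * B0 F u = B0 F u * x := by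
  let Z : Subgroup (SU 2 F 3) := (Subgroup.centralizer {x}).comap (B0 F)
  have hZ : Z = ⊤ := by
    apply gen3 hF
    intro s hs
    show B0 F s ∈ Subgroup.centralizer {x}
    rw [Subgroup.mem_centralizer_singleton_iff]
    exact (comm3 hF hk (by rw [← map_pow, hs, map_one]) (hc s)).symm
  have : u ∈ Z := by rw [hZ]; trivial
  exact (Subgroup.mem_centralizer_singleton_iff.1 (show B0 F u ∈ Subgroup.centralizer {x} from this)).symm

/-- the third group -/
theorem third {g : SU 4 F 3 →* G} (hk : g.ker ≤ Subgroup.center (SU 4 F 3)) {h : SU 4 F 3}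
    (hc : ∀ x ∈ (B0 F).range.map g, ∀ y ∈ ((B0 F).range.map (MulAut.conj h).toMonoidHom).map g, x * y = y * x) :
    (B0 F).range.map (MulAut.conj h).toMonoidHom = (B2 F).range := by
  have hle : (B0 F).range.map (MulAut.conj h).toMonoidHom ≤ (B2 F).range := by
    have h1 : (B2 F).range.comap ((MulAut.conj h).toMonoidHom.comp (B0 F)) = ⊤ := by
      apply gen3 hF
      intro s hs
      show (MulAut.conj h).toMonoidHom (B0 F s) ∈ (B2 F).range
      apply B2_of_comm hF
      · rw [← map_pow, ← map_pow, hs, map_one, map_one]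
      · apply comm_gen hF hk
        intro u
        exact (hc _ ⟨_, ⟨u, rfl⟩, rfl⟩ _ ⟨_, ⟨_, ⟨s, rfl⟩, rfl⟩, rfl⟩).symm
    rintro _ ⟨_, ⟨s, rfl⟩, rfl⟩
    have : s ∈ (B2 F).range.comap ((MulAut.conj h).toMonoidHom.comp (B0 F)) := by rw [h1]; trivial
    exact this
  apply Subgroup.eq_of_le_of_card_ge hle
  rw [card_cj]
  exact (card_B 2 (by omega)).le

theorem B0_cen {u : SU 2 F 3} (h : B0 F u ∈ Subgroup.center (SU 4 F 3)) : B0 F u = 1 := by
  obtain ⟨r, hr, -⟩ := cen4 hF h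
  have h1 : (B0 F u).1.1 3 3 = 1 := by
    have : (B0 F u).1.1 3 3 = if (3 : Fin 4) = 3 then 1 else 0 := blkM_oi _ _ (not_range_sh (Or.inr (by decide))) 3
    rw [this, if_pos rfl]
  have h2 : r = 1 := by rw [hr] at h1; simpa using h1
  apply Subtype.ext; apply Subtype.ext
  rw [hr, h2, one_smul]; rfl

theorem herm_up {x : SU 4 F 3} (hx : x * y0 hF = y0 hF * x) (u v : Fin 2 → F) :
    hermForm 2 F 3 (up x *ᵥ u) (up x *ᵥ v) = hermForm 2 F 3 u v := by
  obtain ⟨⟨a1, a2, a3, a4⟩, a5, a6, a7, a8⟩ := bd_of_comm hF hx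
  have key : ∀ w : Fin 2 → F, x.1.1 *ᵥ ![w 0, w 1, 0, 0] = ![(up x *ᵥ w) 0, (up x *ᵥ w) 1, 0, 0] := by
    intro w
    funext i
    fin_cases i <;> simp [Matrix.mulVec, dotProduct, Fin.sum_univ_four, Fin.sum_univ_two, up, a5, a6, a7, a8]
  have hh : ∀ w w' : Fin 2 → F, hermForm 4 F 3 ![w 0, w 1, 0, 0] ![w' 0, w' 1, 0, 0] = hermForm 2 F 3 w w' := by
    intro w w'
    simp [hermForm, Fin.sum_univ_four, Fin.sum_univ_two]
  rw [← hh, ← hh u v, ← key, ← key]
  exact herm_blk' hF x _ _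

theorem herm_lo {x : SU 4 F 3} (hx : x * y0 hF = y0 hF * x) (u v : Fin 2 → F) :
    hermForm 2 F 3 (lo x *ᵥ u) (lo x *ᵥ v) = hermForm 2 F 3 u v := by
  obtain ⟨⟨a1, a2, a3, a4⟩, a5, a6, a7, a8⟩ := bd_of_comm hF hx
  have key : ∀ w : Fin 2 → F, x.1.1 *ᵥ ![0, 0, w 0, w 1] = ![0, 0, (lo x *ᵥ w) 0, (lo x *ᵥ w) 1] := by
    intro w
    funext i
    fin_cases i <;> simp [Matrix.mulVec, dotProduct, Fin.sum_univ_four, Fin.sum_univ_two, lo, a1, a2, a3, a4]
  have hh : ∀ w w' : Fin 2 → F, hermForm 4 F 3 ![0, 0, w 0, w 1] ![0, 0, w' 0, w' 1] = hermForm 2 F 3 w w' := by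
    intro w w'
    simp [hermForm, Fin.sum_univ_four, Fin.sum_univ_two]
  rw [← hh, ← hh u v, ← key, ← key]
  exact herm_blk' hF x _ _

omit hF in
theorem lo_B2 (u : SU 2 F 3) : lo (B2 F u) = u.1.1 := by
  ext a b
  have h : ∀ a b : Fin 2, (B2 F u).1.1 (sh 2 (show 2 + 2 ≤ 4 by omega) a) (sh 2 (show 2 + 2 ≤ 4 by omega) b) = u.1.1 a b :=
    fun a b => blkM_ii _ _ _ _
  fin_cases a <;> fin_cases b
  · exact h 0 0
  · exact h 0 1
  · exact h 1 0
  · exact h 1 1

omit hF in
theorem up_B2 (u : SU 2 F 3) : up (B2 F u) = 1 := by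
  have h : ∀ (a : Fin 4) (b : Fin 4), a.1 < 2 → (B2 F u).1.1 a b = if a = b then 1 else 0 :=
    fun a b ha => blkM_oi _ _ (not_range_sh (Or.inl ha)) b
  ext a b
  fin_cases a <;> fin_cases b <;> simp [up, h]

omit hF in
theorem B02_comm (u v : SU 2 F 3) : B0 F u * B2 F v = B2 F v * B0 F u := by
  apply blk_comm
  intro a b h
  have := congrArg Fin.val h
  rw [sh_apply, sh_apply] at this
  have := a.2
  simp at *
  omega

theorem det_bd {x : SU 4 F 3} (hx : x * y0 hF = y0 hF * x) : (up x).det * (lo x).det = 1 := by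
  obtain ⟨⟨a1, a2, a3, a4⟩, a5, a6, a7, a8⟩ := bd_of_comm hF hx
  have h := x.1.2
  rw [Matrix.det_succ_row_zero] at h
  simp [Fin.sum_univ_four, Matrix.det_fin_three, Matrix.submatrix, Fin.succAbove, a1, a2, a3, a4, a5, a6, a7, a8] at h
  rw [Matrix.det_fin_two, Matrix.det_fin_two]
  simp [up, lo]
  linear_combination h

end Cfsg.Agent.Lib.Phan
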