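import Cfsg.Agent.Lib.PhanQ

/-! The base of the induction for `q = 3` (helper38). -/

set_option autoImplicit false
set_option linter.unusedSectionVars false
set_option linter.unusedSimpArgs false

namespace Cfsg.Agent.Lib.Phan

open Module Matrix Cfsg Cfsg.Agent.Lib.UnTrans Cfsg.Agent.Lib.UnBridge Cfsg.Agent.Lib.ClUnSimple

variable {F : Type*} [Field F] [Fintype F] (hF : Fintype.card F = 3 ^ 2) {G : Type*} [Group G]
include hF

/-- diagonalisation of a unitary involution in dimension two -/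
theorem diag2 {A : Matrix (Fin 2) (Fin 2) F} (hA : ∀ u v, hermForm 2 F 3 (A *ᵥ u) (A *ᵥ v) = hermForm 2 F 3 u v)
    (hA2 : A * A = 1) (h1 : A ≠ 1) (hm : A ≠ -1) (j : Fin 2) :
    ∃ k : SU 2 F 3, ∀ i, (k⁻¹.1.1 * A * k.1.1) *ᵥ Pi.single i 1 = (if i = j then (1 : F) else -1) • Pi.single i 1 := by
  have H := herm_HS 2 hF
  obtain ⟨v, hv, hAv⟩ := inv_fix hF (two0 hF) hA hA2 (by
    by_contra hcon
    push Not at hcon
    apply hm
    apply Matrix.ext_of_mulVec_single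
    intro i
    rw [Matrix.neg_mulVec, Matrix.one_mulVec]
    exact eq_neg_of_add_eq_zero_right (hcon _))
  obtain ⟨k, hk⟩ := SU_trans hF (k := 2) le_rfl (x := Pi.single j 1) (by rw [herm_ss hF, if_pos rfl]) hv
  set A' := k⁻¹.1.1 * A * k.1.1 with hA'
  have hkk : k.1.1 * k⁻¹.1.1 = 1 := congrArg (fun s : SU 2 F 3 => s.1.1) (mul_inv_cancel k)
  have hkk' : k⁻¹.1.1 * k.1.1 = 1 := congrArg (fun s : SU 2 F 3 => s.1.1) (inv_mul_cancel k)
  have hA'j : A' *ᵥ Pi.single j 1 = Pi.single j 1 := by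
    rw [hA', ← Matrix.mulVec_mulVec, ← Matrix.mulVec_mulVec, hk, hAv, ← hk, Matrix.mulVec_mulVec, hkk', Matrix.one_mulVec]
  have hA'h : ∀ u v, hermForm 2 F 3 (A' *ᵥ u) (A' *ᵥ v) = hermForm 2 F 3 u v := by
    intro u v
    rw [hA', ← Matrix.mulVec_mulVec, ← Matrix.mulVec_mulVec, ← Matrix.mulVec_mulVec, ← Matrix.mulVec_mulVec,
      herm_blk' hF k⁻¹, hA, herm_blk' hF k]
  have hA'2 : A' * A' = 1 := by
    rw [hA']
    calc k⁻¹.1.1 * A * k.1.1 * (k⁻¹.1.1 * A * k.1.1) = k⁻¹.1.1 * A * (k.1.1 * k⁻¹.1.1) * A * k.1.1 := by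
          simp only [Matrix.mul_assoc]
      _ = 1 := by rw [hkk, Matrix.mul_one, Matrix.mul_assoc k⁻¹.1.1, hA2, Matrix.mul_one, hkk']
  have hA'1 : A' ≠ 1 := by
    intro h
    apply h1
    calc A = (k.1.1 * k⁻¹.1.1) * A * (k.1.1 * k⁻¹.1.1) := by rw [hkk]; simp
      _ = k.1.1 * A' * k⁻¹.1.1 := by rw [hA']; simp only [Matrix.mul_assoc]
      _ = 1 := by rw [h, Matrix.mul_one, hkk]
  refine ⟨k, ?_⟩
  -- the other basis vector
  obtain ⟨l, hl⟩ : ∃ l : Fin 2, l ≠ j := ⟨j + 1, by fin_cases j <;> simp⟩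
  have hcases : ∀ i : Fin 2, i = j ∨ i = l := by
    intro i
    fin_cases i <;> fin_cases j <;> fin_cases l <;> simp at hl ⊢
  have hw : (A' *ᵥ Pi.single l 1) j = 0 := by
    rw [← herm_single hF j (A' *ᵥ Pi.single l 1), ← hA'j]
    rw [hA'h, herm_ss hF, if_neg hl]
  set δ := (A' *ᵥ Pi.single l 1) l with hδ
  have hAl : A' *ᵥ Pi.single l 1 = δ • Pi.single l 1 := by
    funext i
    rcases hcases i with rfl | rfl
    · rw [hw, Pi.smul_apply, Pi.single_eq_of_ne (Ne.symm hl), smul_zero]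
    · rw [Pi.smul_apply, Pi.single_eq_same, smul_eq_mul, mul_one]
  have hδ2 : δ * δ = 1 := by
    have h3 : A' *ᵥ (A' *ᵥ Pi.single l 1) = Pi.single l 1 := by rw [Matrix.mulVec_mulVec, hA'2, Matrix.one_mulVec]
    rw [hAl, Matrix.mulVec_smul, hAl, smul_smul] at h3
    have h4 := congrFun h3 l
    simpa using h4
  have hδ1 : δ ≠ 1 := by
    intro h
    apply hA'1
    apply Matrix.ext_of_mulVec_single
    intro i
    rw [Matrix.one_mulVec]
    rcases hcases i with rfl | rfl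
    · exact hA'j
    · rw [hAl, h, one_smul]
  have hδm : δ = -1 := by
    have : (δ - 1) * (δ + 1) = 0 := by linear_combination hδ2
    rcases mul_eq_zero.1 this with h | h
    · exact absurd (sub_eq_zero.1 h) hδ1
    · exact eq_neg_of_add_eq_zero_left h
  intro i
  rcases hcases i with rfl | rfl
  · rw [if_pos rfl, one_smul]; exact hA'j
  · rw [if_neg hl, ← hδm]; exact hAl

omit hF in
theorem B1_mem_cj_of_fix {h : SU 4 F 3} (hq : ∀ s : SU 2 F 3, (B1 F s).1.1 *ᵥ (h.1.1 *ᵥ Pi.single 2 1) = h.1.1 *ᵥ Pi.single 2 1 ∧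
    (B1 F s).1.1 *ᵥ (h.1.1 *ᵥ Pi.single 3 1) = h.1.1 *ᵥ Pi.single 3 1) (hF : Fintype.card F = 3 ^ 2) :
    (B0 F).range.map (MulAut.conj h).toMonoidHom = (B1 F).range := by
  have hle : (B1 F).range ≤ (B0 F).range.map (MulAut.conj h).toMonoidHom := by
    rintro _ ⟨s, rfl⟩
    rw [mem_cj]
    obtain ⟨h2, h3⟩ := hq s
    apply mem_B0 hF
    · rw [mul_mulVec', mul_mulVec', h2, inv_mulVec']
    · rw [mul_mulVec', mul_mulVec', h3, inv_mulVec']
  symm
  apply Subgroup.eq_of_le_of_card_ge hle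
  rw [card_cj]
  exact (card_B 1 (by omega)).ge

/-- **the base of the induction for `q = 3`** -/
theorem base3 {g : SU 4 F 3 →* G} (hk : g.ker ≤ Subgroup.center (SU 4 F 3)) {ψ0 ψ1 : SU 3 F 3 →* G} {U0 U1 U2 V0 V1 : Subgroup G}
    (S0 : Std ψ0 U0 U1 V0) (S1 : Std ψ1 U1 U2 V1) (hV0 : V0 ≤ g.range) (hV1 : V1 ≤ g.range)
    (hc : ∀ x ∈ U0, ∀ y ∈ U2, x * y = y * x) :
    ∃ Φ : SU 4 F 3 →* G, (Φ.comp (B0 F)).range = U0 ∧ (Φ.comp (B1 F)).range = U1 ∧ (Φ.comp (B2 F)).range = U2 ∧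
      Φ.ker ≤ Subgroup.center (SU 4 F 3) := by
  -- conjugation does not change the hypotheses
  have hcj : ∀ (g : SU 4 F 3 →* G), g.ker ≤ Subgroup.center (SU 4 F 3) → ∀ h : SU 4 F 3,
      (g.comp (MulAut.conj h).toMonoidHom).ker ≤ Subgroup.center (SU 4 F 3) ∧ (g.comp (MulAut.conj h).toMonoidHom).range = g.range := by
    intro g hk h
    constructor
    · intro x hx
      have h1 : (MulAut.conj h) x ∈ Subgroup.center (SU 4 F 3) := hk hx
      have h2 : MulAut.conj h x = h * x * h⁻¹ := rfl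
      rw [h2] at h1
      have h3 : x = h⁻¹ * (h * x * h⁻¹) * h := by group
      rw [h3, Subgroup.mem_center_iff.1 h1 h⁻¹]
      have h4 : (h * x * h⁻¹) * h⁻¹ * h = h * x * h⁻¹ := by group
      rw [h4]; exact h1
    · rw [MonoidHom.range_comp, MonoidHom.range_eq_top.2 (MulAut.conj h).surjective, ← MonoidHom.range_eq_map]
  obtain ⟨h0, hh0⟩ := lemA0 hF hk S0 hV0
  set g' : SU 4 F 3 →* G := g.comp (MulAut.conj h0).toMonoidHom with hg'
  obtain ⟨hk', hr'⟩ := hcj g hk h0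
  rw [← hg'] at hk' hr'
  have hU0 : U0 = (B0 F).range.map g' := by rw [hh0, hg', ← Subgroup.map_map]
  rw [← hr'] at hV0 hV1
  obtain ⟨h2, hh2⟩ := lemA1 hF hk' S1 hV1
  have hthird := third hF hk' (h := h2) (by rw [← hU0, ← hh2]; exact hc)
  rw [hthird] at hh2
  obtain ⟨h, hh⟩ := lemA1 hF hk' S0 hV0
  set y1 := h * y0 hF * h⁻¹ with hy1
  -- identify `g' y1`
  have hy12 : y1 * y1 = 1 := by
    have : y0 hF * y0 hF = 1 := by
      show B0 F (m1 hF) * B0 F (m1 hF) = 1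
      rw [← map_mul, m1_sq, map_one]
    calc y1 * y1 = h * (y0 hF * y0 hF) * h⁻¹ := by rw [hy1]; group
      _ = 1 := by rw [this]; group
  have hy1nc : y1 ∉ Subgroup.center (SU 4 F 3) := by
    intro hcn
    apply y0_nc hF
    have h3 : y0 hF = h⁻¹ * y1 * h := by rw [hy1]; group
    rw [h3, Subgroup.mem_center_iff.1 hcn h⁻¹]
    have h4 : y1 * h⁻¹ * h = y1 := by group
    rw [h4]; exact hcn
  have hgy1 : g' y1 = ψ0 (b1 F 3 (m1 hF)) := by
    have h3 : g' y1 ∈ U1 := by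
      rw [hh]; exact ⟨y1, ⟨_, ⟨m1 hF, rfl⟩, rfl⟩, rfl⟩
    rw [← S0.hB] at h3
    obtain ⟨s, hs⟩ := h3
    have hs' : ψ0 (b1 F 3 s) = g' y1 := hs
    have hs2 : s * s = 1 := by
      apply S0.inj1 hF
      show ψ0 (b1 F 3 _) = ψ0 (b1 F 3 _)
      rw [map_mul, map_mul, hs', ← map_mul, hy12, map_one, map_one, map_one]
    have hs1 : s ≠ 1 := by
      rintro rfl
      rw [map_one, map_one] at hs'
      exact hy1nc (hk' hs'.symm)
    rw [← hs', eq_m1 hF hs2 hs1]
  -- `y1` normalises the first block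
  have hnorm : ∀ s : SU 2 F 3, y1 * B0 F s * y1⁻¹ ∈ (B0 F).range := by
    have h1 : (B0 F).range.comap ((MulAut.conj y1).toMonoidHom.comp (B0 F)) = ⊤ := by
      apply gen3 hF
      intro s hs
      show (MulAut.conj y1).toMonoidHom (B0 F s) ∈ (B0 F).range
      have hx : (MulAut.conj y1).toMonoidHom (B0 F s) = y1 * B0 F s * y1⁻¹ := rfl
      set x := (MulAut.conj y1).toMonoidHom (B0 F s) with hxd
      have hx3 : x ^ 3 = 1 := by rw [hxd, ← map_pow, ← map_pow, hs, map_one, map_one]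
      have hs' : g' (B0 F s) ∈ U0 := by rw [hU0]; exact ⟨_, ⟨s, rfl⟩, rfl⟩
      rw [← S0.hA] at hs'
      obtain ⟨s', hs'⟩ := hs'
      have hs'' : ψ0 (b0 F 3 s') = g' (B0 F s) := hs'
      obtain ⟨s2, hs2⟩ := tor_norm1 hF (a := m1 hF) ⟨by rw [m1_coe]; simp, by rw [m1_coe]; simp⟩ s'
      have h3 : g' x ∈ U0 := by
        rw [← S0.hA, hx, map_mul, map_mul, map_inv, hgy1, ← hs'', ← map_inv, ← map_mul, ← map_mul, hs2]
        exact ⟨s2, rfl⟩
      rw [hU0] at h3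
      obtain ⟨_, ⟨s3, rfl⟩, hs3⟩ := h3
      set c := x * (B0 F s3)⁻¹ with hcd
      have hcc : c ∈ Subgroup.center (SU 4 F 3) := hk' (by
        rw [MonoidHom.mem_ker, hcd, map_mul, map_inv, hs3]; group)
      have hxc : x = c * B0 F s3 := by rw [hcd]; group
      have h4 : (c * B0 F s3) ^ 3 = c ^ 3 * (B0 F s3) ^ 3 :=
        Commute.mul_pow (show Commute c (B0 F s3) from (Subgroup.mem_center_iff.1 hcc _).symm) 3
      rw [← hxc, hx3] at h4
      have h5 : (B0 F s3) ^ 3 = (c ^ 3)⁻¹ := by rw [eq_inv_iff_mul_eq_one, mul_eq_one_iff_eq_inv, eq_comm, inv_eq_iff_mul_eq_one]; exact h4.symm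
      have h6 : B0 F (s3 ^ 3) ∈ Subgroup.center (SU 4 F 3) := by
        rw [map_pow, h5]; exact inv_mem (pow_mem hcc 3)
      have h7 := B0_cen hF h6
      rw [map_pow, h5, inv_eq_one] at h7
      have h8 := cen3 hF hcc h7
      rw [hxc, h8, one_mul]
      exact ⟨s3, rfl⟩
    intro s
    have : s ∈ (B0 F).range.comap ((MulAut.conj y1).toMonoidHom.comp (B0 F)) := by rw [h1]; trivial
    exact this
  have hcomm : y1 * y0 hF = y0 hF * y1 := by
    obtain ⟨s, hs⟩ := hnorm (m1 hF)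
    have e0 : y1 * y0 hF * y1⁻¹ = B0 F s := hs.symm
    have hs2 : s * s = 1 := by
      apply blk_inj (sh 0 (show 0 + 2 ≤ 4 by omega))
      show B0 F (s * s) = B0 F 1
      rw [map_mul, ← e0, map_one]
      have : y0 hF * y0 hF = 1 := by
        show B0 F (m1 hF) * B0 F (m1 hF) = 1
        rw [← map_mul, m1_sq, map_one]
      calc y1 * y0 hF * y1⁻¹ * (y1 * y0 hF * y1⁻¹) = y1 * (y0 hF * y0 hF) * y1⁻¹ := by group
        _ = 1 := by rw [this]; group
    have hs1 : s ≠ 1 := by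
      rintro rfl
      rw [map_one] at e0
      apply y0_nc hF
      have : y0 hF = 1 := by
        calc y0 hF = y1⁻¹ * (y1 * y0 hF * y1⁻¹) * y1 := by group
          _ = 1 := by rw [e0]; group
      rw [this]; exact one_mem _
    rw [eq_m1 hF hs2 hs1] at e0
    calc y1 * y0 hF = (y1 * y0 hF * y1⁻¹) * y1 := by group
      _ = y0 hF * y1 := by rw [e0]; rfl
  -- the upper block is not scalar
  have hnsc : ∀ r : F, up y1 ≠ r • (1 : Matrix (Fin 2) (Fin 2) F) := by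
    intro r hr
    have h1 : ∀ u, y1 * B0 F u = B0 F u * y1 := by
      intro u
      apply comm_bd hF hcomm (B0_y0 hF u)
      · rw [hr]; simp
      · rw [lo_B0]; simp
    have h3 : ψ0 (b0 F 3 (wl hF)) ∈ U0 := by rw [← S0.hA]; exact ⟨_, rfl⟩
    rw [hU0] at h3
    obtain ⟨_, ⟨u, rfl⟩, hu⟩ := h3
    have h4 : g' y1 * g' (B0 F u) = g' (B0 F u) * g' y1 := (map_mul g' _ _).symm.trans ((congrArg g' (h1 u)).trans (map_mul g' _ _))
    rw [hu, hgy1, ← map_mul, ← map_mul] at h4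
    exact nc10 hF (S0.inj3 hF h4).symm
  have hA2 : up y1 * up y1 = 1 := by rw [← up_mul hF hcomm, hy12, up_one]
  have hB2 : lo y1 * lo y1 = 1 := by rw [← lo_mul hF hcomm, hy12, lo_one]
  obtain ⟨k1, hk1⟩ := diag2 hF (herm_up hF hcomm) hA2 (by intro h; apply hnsc 1; rw [h, one_smul])
    (by intro h; apply hnsc (-1); rw [h]; simp) 0
  -- determinant
  have hdA : (up y1).det = -1 := by
    have h1 : (k1⁻¹.1.1 * up y1 * k1.1.1).det = -1 := by
      have e : k1⁻¹.1.1 * up y1 * k1.1.1 = !![1, 0; 0, -1] := by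
        apply Matrix.ext_of_mulVec_single
        intro i
        rw [hk1 i, Matrix.mulVec_single_one]
        funext a
        fin_cases i <;> fin_cases a <;> simp [Matrix.col_apply]
      rw [e, Matrix.det_fin_two_of]; ring
    rw [Matrix.det_mul, Matrix.det_mul, k1⁻¹.1.2, k1.1.2, one_mul, mul_one] at h1
    exact h1
  have hdB : (lo y1).det = -1 := by
    have := det_bd hF hcomm
    rw [hdA] at this
    linear_combination -this
  obtain ⟨k2, hk2⟩ := diag2 hF (herm_lo hF hcomm) hB2 (by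
      intro h; rw [h, Matrix.det_one] at hdB; apply two0 hF; linear_combination hdB)
    (by
      intro h; rw [h, Matrix.det_neg, Matrix.det_one] at hdB
      simp at hdB; apply two0 hF; linear_combination hdB) 1
  set k := B0 F k1 * B2 F k2 with hkd
  have hB2y : ∀ u, B2 F u * y0 hF = y0 hF * B2 F u := fun u => (B02_comm _ _).symm
  have hky : k * y0 hF = y0 hF * k := by
    rw [hkd, mul_assoc, hB2y, ← mul_assoc, B0_y0, mul_assoc]
  have hky' : k⁻¹ * y0 hF = y0 hF * k⁻¹ := by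
    rw [inv_mul_eq_iff_eq_mul, ← mul_assoc, hky]; group
  have hky1 : (k⁻¹ * y1 * k).1.1 = Matrix.diagonal ![1, -1, -1, 1] := by
    have hupk : up k = k1.1.1 := by rw [hkd, up_mul hF (B0_y0 hF _), up_B0, up_B2, mul_one]
    have hlok : lo k = k2.1.1 := by rw [hkd, lo_mul hF (B0_y0 hF _), lo_B0, lo_B2, one_mul]
    have hupk' : up k⁻¹ = k1⁻¹.1.1 := by
      have e : k⁻¹ = B0 F k1⁻¹ * B2 F k2⁻¹ := by rw [hkd, _root_.mul_inv_rev, map_inv, map_inv, ← map_inv, ← map_inv, B02_comm]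
      rw [e, up_mul hF (B0_y0 hF _), up_B0, up_B2, mul_one]
    have hlok' : lo k⁻¹ = k2⁻¹.1.1 := by
      have e : k⁻¹ = B0 F k1⁻¹ * B2 F k2⁻¹ := by rw [hkd, _root_.mul_inv_rev, map_inv, map_inv, ← map_inv, ← map_inv, B02_comm]
      rw [e, lo_mul hF (B0_y0 hF _), lo_B0, lo_B2, one_mul]
    have hc1 : (k⁻¹ * y1) * y0 hF = y0 hF * (k⁻¹ * y1) := by rw [mul_assoc, hcomm, ← mul_assoc, hky', mul_assoc]
    have hc2 : (k⁻¹ * y1 * k) * y0 hF = y0 hF * (k⁻¹ * y1 * k) := by rw [mul_assoc, hky, ← mul_assoc, hc1, mul_assoc]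
    have hu : up (k⁻¹ * y1 * k) = !![1, 0; 0, -1] := by
      rw [up_mul hF hc1, up_mul hF hky', hupk, hupk']
      apply Matrix.ext_of_mulVec_single
      intro i
      rw [hk1 i, Matrix.mulVec_single_one]
      funext a
      fin_cases i <;> fin_cases a <;> simp [Matrix.col_apply]
    have hl : lo (k⁻¹ * y1 * k) = !![-1, 0; 0, 1] := by
      rw [lo_mul hF hc1, lo_mul hF hky', hlok, hlok']
      apply Matrix.ext_of_mulVec_single
      intro i
      rw [hk2 i, Matrix.mulVec_single_one]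
      funext a
      fin_cases i <;> fin_cases a <;> simp [Matrix.col_apply]
    obtain ⟨⟨a1, a2, a3, a4⟩, a5, a6, a7, a8⟩ := bd_of_comm hF hc2
    have u : ∀ i j, up (k⁻¹ * y1 * k) i j = (!![1, 0; 0, -1] : Matrix (Fin 2) (Fin 2) F) i j := fun i j => by rw [hu]
    have l : ∀ i j, lo (k⁻¹ * y1 * k) i j = (!![-1, 0; 0, 1] : Matrix (Fin 2) (Fin 2) F) i j := fun i j => by rw [hl]
    have u00 : (k⁻¹ * y1 * k).1.1 0 0 = 1 := u 0 0
    have u01 : (k⁻¹ * y1 * k).1.1 0 1 = 0 := u 0 1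
    have u10 : (k⁻¹ * y1 * k).1.1 1 0 = 0 := u 1 0
    have u11 : (k⁻¹ * y1 * k).1.1 1 1 = -1 := u 1 1
    have l00 : (k⁻¹ * y1 * k).1.1 2 2 = -1 := l 0 0
    have l01 : (k⁻¹ * y1 * k).1.1 2 3 = 0 := l 0 1
    have l10 : (k⁻¹ * y1 * k).1.1 3 2 = 0 := l 1 0
    have l11 : (k⁻¹ * y1 * k).1.1 3 3 = 1 := l 1 1
    generalize (k⁻¹ * y1 * k).1.1 = M at *
    ext i j
    fin_cases i <;> fin_cases j <;> simp [Matrix.diagonal, a1, a2, a3, a4, a5, a6, a7, a8, u00, u01, u10, u11, l00, l01, l10, l11]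
  -- the middle block
  have hmid : (B0 F).range.map (MulAut.conj (k⁻¹ * h)).toMonoidHom = (B1 F).range := by
    apply B1_mem_cj_of_fix (hF := hF)
    have key : ∀ v : Fin 4 → F, (y0 hF).1.1 *ᵥ v = v → ∀ s : SU 2 F 3, (B1 F s).1.1 *ᵥ ((k⁻¹ * h).1.1 *ᵥ v) = (k⁻¹ * h).1.1 *ᵥ v := by
      intro v hv s
      have e1 : (k⁻¹ * y1 * k).1.1 *ᵥ ((k⁻¹ * h).1.1 *ᵥ v) = (k⁻¹ * h).1.1 *ᵥ v := by
        rw [← mul_mulVec']
        have : k⁻¹ * y1 * k * (k⁻¹ * h) = (k⁻¹ * h) * y0 hF := by rw [hy1]; group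
        rw [this, mul_mulVec', hv]
      set w := (k⁻¹ * h).1.1 *ᵥ v with hw
      rw [hky1] at e1
      have w1 : w 1 = 0 := by
        have := congrFun e1 1
        rw [Matrix.mulVec_diagonal] at this
        have h2 : -1 * w 1 = w 1 := this
        have : (2 : F) * w 1 = 0 := by linear_combination -h2
        exact (mul_eq_zero.1 this).resolve_left (two0 hF)
      have w2 : w 2 = 0 := by
        have := congrFun e1 2
        rw [Matrix.mulVec_diagonal] at this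
        have h2 : -1 * w 2 = w 2 := this
        have : (2 : F) * w 2 = 0 := by linear_combination -h2
        exact (mul_eq_zero.1 this).resolve_left (two0 hF)
      show blkM _ s.1.1 *ᵥ w = w
      apply blkM_fix
      intro b
      fin_cases b
      · exact w1
      · exact w2
    intro s
    have f2 : (y0 hF).1.1 *ᵥ (Pi.single 2 1 : Fin 4 → F) = Pi.single 2 1 := by
      rw [y0_coe]; funext a; rw [Matrix.mulVec_diagonal]; fin_cases a <;> simp
    have f3 : (y0 hF).1.1 *ᵥ (Pi.single 3 1 : Fin 4 → F) = Pi.single 3 1 := by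
      rw [y0_coe]; funext a; rw [Matrix.mulVec_diagonal]; fin_cases a <;> simp
    exact ⟨key _ f2 s, key _ f3 s⟩
  obtain ⟨hkΦ, -⟩ := hcj g' hk' k
  refine ⟨g'.comp (MulAut.conj k).toMonoidHom, ?_, ?_, ?_, hkΦ⟩
  · -- first block
    have e : (B0 F).range.map (MulAut.conj k).toMonoidHom = (B0 F).range := by
      have e1 : (B0 F).range.map (MulAut.conj k).toMonoidHom ≤ (B0 F).range := by
        rintro _ ⟨_, ⟨s, rfl⟩, rfl⟩
        refine ⟨k1 * s * k1⁻¹, ?_⟩
        show _ = k * B0 F s * k⁻¹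
        rw [hkd, map_mul, map_mul, map_inv]
        calc B0 F k1 * B0 F s * (B0 F k1)⁻¹ = B0 F k1 * (B0 F s * B2 F k2) * (B2 F k2)⁻¹ * (B0 F k1)⁻¹ := by group
          _ = B0 F k1 * B2 F k2 * B0 F s * (B0 F k1 * B2 F k2)⁻¹ := by rw [B02_comm]; group
      apply Subgroup.eq_of_le_of_card_ge e1
      rw [card_cj]
      exact (card_B 0 (by omega)).le
    rw [MonoidHom.range_comp, ← Subgroup.map_map, e, ← hU0]
  · rw [MonoidHom.range_comp, ← hmid, Subgroup.map_map, MonoidHom.comp_assoc, ← Subgroup.map_map, hh]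
    congr 1
    congr 1
    ext1 x
    show k * ((k⁻¹ * h) * x * (k⁻¹ * h)⁻¹) * k⁻¹ = h * x * h⁻¹
    group
  · have e : (B2 F).range.map (MulAut.conj k).toMonoidHom = (B2 F).range := by
      have e1 : (B2 F).range.map (MulAut.conj k).toMonoidHom ≤ (B2 F).range := by
        rintro _ ⟨_, ⟨s, rfl⟩, rfl⟩
        refine ⟨k2 * s * k2⁻¹, ?_⟩
        show _ = k * B2 F s * k⁻¹
        have e3 : B0 F k1 * B2 F (k2 * s * k2⁻¹) = B2 F (k2 * s * k2⁻¹) * B0 F k1 := B02_comm _ _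
        calc B2 F (k2 * s * k2⁻¹) = (B2 F (k2 * s * k2⁻¹) * B0 F k1) * (B0 F k1)⁻¹ := by group
          _ = B0 F k1 * B2 F (k2 * s * k2⁻¹) * (B0 F k1)⁻¹ := by rw [e3]
          _ = k * B2 F s * k⁻¹ := by rw [hkd, map_mul, map_mul, map_inv]; group
      apply Subgroup.eq_of_le_of_card_ge e1
      rw [Subgroup.card_map_of_injective (MulAut.conj k).injective]
    rw [MonoidHom.range_comp, ← Subgroup.map_map, e, ← hh2]

end Cfsg.Agent.Lib.Phan
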