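import Cfsg.Agent.Lib.PhanR

/-! The base of the induction for `q = 3`, final form (helper38). -/

set_option autoImplicit false
set_option linter.unusedSectionVars false
set_option linter.unusedSimpArgs false

namespace Cfsg.Agent.Lib.Phan

open Module Matrix Cfsg Cfsg.Agent.Lib.UnTrans Cfsg.Agent.Lib.UnBridge Cfsg.Agent.Lib.ClUnSimple

section gen
variable {F : Type*} [Field F] [Fintype F] {q : ℕ} (hF : Fintype.card F = q ^ 2) {G : Type*} [Group G]
include hF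

theorem range_sup3 (h3 : 3 ≤ q) (ψ : SU 3 F q →* G) : ψ.range = (ψ.comp (b0 F q)).range ⊔ (ψ.comp (b1 F q)).range := by
  apply le_antisymm
  · have h1 : ((ψ.comp (b0 F q)).range ⊔ (ψ.comp (b1 F q)).range).comap ψ = ⊤ := by
      apply gen_blocks hF h3 1
      intro i hi s
      show ψ _ ∈ (ψ.comp (b0 F q)).range ⊔ (ψ.comp (b1 F q)).range
      obtain rfl | rfl : i = 0 ∨ i = 1 := by omega
      · exact Subgroup.mem_sup_left ⟨s, rfl⟩
      · exact Subgroup.mem_sup_right ⟨s, rfl⟩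
    rintro _ ⟨x, rfl⟩
    have : x ∈ ((ψ.comp (b0 F q)).range ⊔ (ψ.comp (b1 F q)).range).comap ψ := by rw [h1]; trivial
    exact this
  · rw [sup_le_iff]
    exact ⟨by rintro _ ⟨s, rfl⟩; exact ⟨_, rfl⟩, by rintro _ ⟨s, rfl⟩; exact ⟨_, rfl⟩⟩

end gen

variable {F : Type*} [Field F] [Fintype F] (hF : Fintype.card F = 3 ^ 2) {G : Type*} [Group G]
include hF

theorem base3_std (U V : ℕ → Subgroup G) (g : SU 4 F 3 →* G) (hr : g.range = V 0 ⊔ V 1)
    {ψ0 ψ1 : SU 3 F 3 →* G} (S0 : Std ψ0 (U 0) (U 1) (V 0)) (S1 : Std ψ1 (U 1) (U 2) (V 1))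
    (hc : ∀ x ∈ U 0, ∀ y ∈ U 2, x * y = y * x) :
    ∃ Φ : SU 4 F 3 →* G, ∀ i (hi : i + 3 ≤ 4), Std (Φ.comp (blk (sh i hi))) (U i) (U (i + 1)) (V i) := by
  have hk : g.ker ≤ Subgroup.center (SU 4 F 3) := by
    apply ker_center hF 4 (by norm_num) (by norm_num)
    by_contra hcon
    push Not at hcon
    have h1 : ψ0 (b0 F 3 (m1 hF)) ∈ g.range := by
      rw [hr, ← S0.hV]; exact Subgroup.mem_sup_left ⟨_, rfl⟩
    obtain ⟨x, hx⟩ := h1
    rw [hcon x] at hx
    have h2 : m1 hF = 1 := S0.inj0 hF (by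
      show ψ0 (b0 F 3 _) = ψ0 (b0 F 3 _)
      rw [← hx, map_one, map_one])
    exact m1_ne hF h2
  obtain ⟨Φ, h0, h1, h2, hΦ⟩ := base3 hF hk S0 S1 (by rw [hr]; exact le_sup_left) (by rw [hr]; exact le_sup_right) hc
  have hker : ∀ i (hi : i + 3 ≤ 4), (Φ.comp (blk (sh i hi))).ker ≤ Subgroup.center (SU 3 F 3) := by
    intro i hi x hx
    have h3 : blk (sh i hi) x ∈ Subgroup.center (SU 4 F 3) := hΦ hx
    obtain ⟨r, hr, -⟩ := cen4 hF h3
    obtain ⟨a, ha⟩ : ∃ a : Fin 4, a ∉ Set.range (sh i hi) := by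
      obtain rfl | rfl : i = 0 ∨ i = 1 := by omega
      · exact ⟨3, not_range_sh (Or.inr (by decide))⟩
      · exact ⟨0, not_range_sh (Or.inl (by decide))⟩
    have h4 : (blk (sh i hi) x).1.1 a a = 1 := by
      have : (blk (sh i hi) x).1.1 a a = if a = a then 1 else 0 := blkM_oi _ _ ha a
      rw [this, if_pos rfl]
    have h5 : r = 1 := by rw [hr] at h4; simpa using h4
    have h6 : blk (sh i hi) x = 1 := by
      apply Subtype.ext; apply Subtype.ext
      rw [hr, h5, one_smul]; rfl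
    have h7 : x = 1 := blk_inj _ (h6.trans (map_one _).symm)
    rw [h7]; exact one_mem _
  refine ⟨Φ, ?_⟩
  intro i hi
  obtain rfl | rfl : i = 0 ∨ i = 1 := by omega
  · have e0 : ((Φ.comp (blk (sh 0 hi))).comp (b0 F 3)).range = U 0 := by
      rw [← h0]; congr 1; ext s
      show Φ (blk _ (blk _ s)) = Φ (blk _ s)
      rw [blk_sh]
    have e1 : ((Φ.comp (blk (sh 0 hi))).comp (b1 F 3)).range = U 1 := by
      rw [← h1]; congr 1; ext s
      show Φ (blk _ (blk _ s)) = Φ (blk _ s)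
      rw [blk_sh]
    refine ⟨e0, e1, ?_, hker 0 hi⟩
    rw [range_sup3 hF le_rfl, e0, e1, ← S0.hV, range_sup3 hF le_rfl, S0.hA, S0.hB]
  · have e0 : ((Φ.comp (blk (sh 1 hi))).comp (b0 F 3)).range = U 1 := by
      rw [← h1]; congr 1; ext s
      show Φ (blk _ (blk _ s)) = Φ (blk _ s)
      rw [blk_sh]
    have e1 : ((Φ.comp (blk (sh 1 hi))).comp (b1 F 3)).range = U 2 := by
      rw [← h2]; congr 1; ext s
      show Φ (blk _ (blk _ s)) = Φ (blk _ s)
      rw [blk_sh]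
    refine ⟨e0, e1, ?_, hker 1 hi⟩
    rw [range_sup3 hF le_rfl, e0, e1, ← S1.hV, range_sup3 hF le_rfl, S1.hA, S1.hB]

end Cfsg.Agent.Lib.Phan
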