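import Mathlib
import Cfsg.Agent.Lib.CycNorm
import Cfsg.Agent.Lib.SylowCyc
import Cfsg.Agent.Lib.H32Basic
import Cfsg.Agent.Lib.SubgroupTools

/-!
(helper67) `π`-closed groups: the `π`-elements form a subgroup.
`closed_extension` (Feit-Thompson-free): if `p`-elements (`p ∈ π`) normalizing a `q`-subgroup (`q ∉ π`)
centralize it, then an extension of `π`-closed by `π`-closed is `π`-closed.
-/

set_option autoImplicit false

namespace Cfsg.Agent.Lib.PiClosed67

open Cfsg.Agent.Lib

variable {G : Type*} [Group G]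

/-- `x` is a `π`-element. -/
def PiEl (π : Set ℕ) {G : Type*} [Group G] (x : G) : Prop := ∀ p : ℕ, p.Prime → p ∣ orderOf x → p ∈ π

/-- the `π`-elements form a subgroup. -/
def PiClosed (π : Set ℕ) (G : Type*) [Group G] : Prop := ∃ K : Subgroup G, ∀ x : G, x ∈ K ↔ PiEl π x

/-- `p`-elements normalizing a `q`-subgroup centralize it. -/
def Homog (π : Set ℕ) (G : Type*) [Group G] : Prop :=
  ∀ q : ℕ, q.Prime → q ∉ π → ∀ Q : Subgroup G, IsPGroup q Q → ∀ p : ℕ, p.Prime → p ∈ π →
    ∀ x ∈ Subgroup.normalizer (Q : Set G), (∃ k, orderOf x = p ^ k) → x ∈ Subgroup.centralizer (Q : Set G)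

variable {π : Set ℕ}

theorem piEl_of_pow {x : G} {n : ℕ} (hn : ∀ p : ℕ, p.Prime → p ∣ n → p ∈ π) (h : PiEl π (x ^ n)) :
    PiEl π x := by
  intro p hp hpx
  have h1 : orderOf x ∣ n * orderOf (x ^ n) := by
    apply orderOf_dvd_of_pow_eq_one
    rw [pow_mul, pow_orderOf_eq_one]
  rcases (Nat.Prime.dvd_mul hp).1 (hpx.trans h1) with h2 | h2
  · exact hn p hp h2
  · exact h p hp h2

theorem piEl_mul_of_commute {x y : G} (hxy : Commute x y) (hx : PiEl π x) (hy : PiEl π y) :
    PiEl π (x * y) := by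
  intro p hp hpx
  have h1 := hpx.trans hxy.orderOf_mul_dvd_lcm
  have h2 := h1.trans (Nat.lcm_dvd_mul _ _)
  rcases (Nat.Prime.dvd_mul hp).1 h2 with h3 | h3
  · exact hx p hp h3
  · exact hy p hp h3

theorem piEl_one : PiEl π (1 : G) := by
  intro p hp hpx
  rw [orderOf_one] at hpx
  exact absurd (Nat.dvd_one.1 hpx) hp.one_lt.ne'

theorem piEl_pow {x : G} (n : ℕ) (hx : PiEl π x) : PiEl π (x ^ n) :=
  fun p hp hpx => hx p hp (hpx.trans (orderOf_pow_dvd n))

theorem piEl_inv {x : G} (hx : PiEl π x) : PiEl π x⁻¹ := by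
  intro p hp hpx
  rw [orderOf_inv] at hpx
  exact hx p hp hpx

theorem piEl_map {G' : Type*} [Group G'] (f : G →* G') {x : G} (hx : PiEl π x) : PiEl π (f x) :=
  fun p hp hpx => hx p hp (hpx.trans (orderOf_map_dvd f x))

theorem piEl_map_iff {G' : Type*} [Group G'] (f : G →* G') (hf : Function.Injective f) {x : G} :
    PiEl π (f x) ↔ PiEl π x := by
  unfold PiEl
  rw [orderOf_injective f hf]

theorem piEl_of_orderOf {x : G} {p k : ℕ} (hp : p.Prime) (hpπ : p ∈ π) (hx : orderOf x = p ^ k) : PiEl π x := by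
  intro q hq hqx
  rw [hx] at hqx
  rw [(Nat.prime_dvd_prime_iff_eq hq hp).1 (hq.dvd_of_dvd_pow hqx)]
  exact hpπ

theorem closed_of_mul (h : ∀ x y : G, PiEl π x → PiEl π y → PiEl π (x * y)) : PiClosed π G :=
  ⟨{ carrier := {x | PiEl π x}
     mul_mem' := fun hx hy => h _ _ hx hy
     one_mem' := piEl_one
     inv_mem' := fun hx => piEl_inv hx }, fun _ => Iff.rfl⟩

theorem mul_of_closed (h : PiClosed π G) {x y : G} (hx : PiEl π x) (hy : PiEl π y) : PiEl π (x * y) := by
  obtain ⟨K, hK⟩ := h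
  exact (hK _).1 (K.mul_mem ((hK _).2 hx) ((hK _).2 hy))

theorem closed_of_equiv {G' : Type*} [Group G'] (e : G ≃* G') (h : PiClosed π G) : PiClosed π G' := by
  apply closed_of_mul
  intro x y hx hy
  obtain ⟨x, rfl⟩ := e.surjective x
  obtain ⟨y, rfl⟩ := e.surjective y
  rw [← map_mul]
  have hx' : PiEl π x := (piEl_map_iff e.toMonoidHom e.injective).1 hx
  have hy' : PiEl π y := (piEl_map_iff e.toMonoidHom e.injective).1 hy
  exact piEl_map e.toMonoidHom (mul_of_closed h hx' hy')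

/-- A central-by-`π`-group finite group is `π`-closed. -/
theorem mul_of_center_index [Finite G] (hc : ∀ p : ℕ, p.Prime → p ∣ (Subgroup.center G).index → p ∈ π)
    {x y : G} (hx : PiEl π x) (hy : PiEl π y) : PiEl π (x * y) := by
  apply piEl_of_pow (n := (Subgroup.center G).index) hc
  have h1 := map_mul (MonoidHom.transferCenterPow G) x y
  have h2 := congrArg (Subtype.val) h1
  rw [Subgroup.coe_mul, MonoidHom.transferCenterPow_apply, MonoidHom.transferCenterPow_apply,
    MonoidHom.transferCenterPow_apply] at h2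
  rw [h2]
  refine piEl_mul_of_commute ?_ (piEl_pow _ hx) (piEl_pow _ hy)
  have h3 : x ^ (Subgroup.center G).index ∈ Subgroup.center G := Subgroup.pow_index_mem _ x
  exact (Subgroup.mem_center_iff.1 h3 _).symm

/-- elements of a `π`-closed group inside a subgroup generated by `π`-elements. -/
theorem card_of_le_closed [Finite G] {K H : Subgroup G} (hK : ∀ x : G, x ∈ K ↔ PiEl π x) (hHK : H ≤ K)
    {p : ℕ} (hp : p.Prime) (hpH : p ∣ Nat.card H) : p ∈ π := by
  have : Fact p.Prime := ⟨hp⟩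
  obtain ⟨x, hx⟩ := exists_prime_orderOf_dvd_card' p hpH
  have h1 : PiEl π (x : G) := (hK _).1 (hHK x.2)
  exact h1 p hp (by rw [Subgroup.orderOf_coe, hx])

/-- If the `π`-elements centralize the normal subgroup `K` and `G / K` is `π`-closed then so is `G`. -/
theorem closed_of_centralize [Finite G] {K : Subgroup G} [K.Normal]
    (h : ∀ g : G, PiEl π g → ∀ k ∈ K, g * k = k * g) (hq : PiClosed π (G ⧸ K)) : PiClosed π G := by
  apply closed_of_mul
  intro x y hx hy
  set E : Subgroup G := Subgroup.closure {x, y} with hE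
  have hxE : x ∈ E := Subgroup.subset_closure (by simp)
  have hyE : y ∈ E := Subgroup.subset_closure (by simp)
  have hEK : ∀ e ∈ E, ∀ k ∈ K, e * k = k * e := by
    intro e he
    have h1 : E ≤ Subgroup.centralizer (K : Set G) := by
      rw [hE, Subgroup.closure_le]
      intro z hz
      rcases hz with rfl | rfl
      · intro k hk; exact (h _ hx k hk).symm
      · intro k hk; exact (h _ hy k hk).symm
    intro k hk
    exact (h1 he k hk).symm
  obtain ⟨L, hL⟩ := hq
  let f : E →* G ⧸ K := (QuotientGroup.mk' K).comp E.subtype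
  have hker : f.ker ≤ Subgroup.center E := by
    intro e he
    have h1 : (e : G) ∈ K := by
      have h2 : ((e : G) : G ⧸ K) = 1 := he
      exact (QuotientGroup.eq_one_iff _).1 h2
    rw [Subgroup.mem_center_iff]
    intro g
    ext
    rw [Subgroup.coe_mul, Subgroup.coe_mul]
    exact hEK g g.2 e h1
  have hrange : f.range ≤ L := by
    rintro _ ⟨e, rfl⟩
    have h1 : E ≤ L.comap (QuotientGroup.mk' K) := by
      rw [hE, Subgroup.closure_le]
      intro z hz
      rcases hz with rfl | rfl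
      · exact (hL _).2 (piEl_map _ hx)
      · exact (hL _).2 (piEl_map _ hy)
    exact h1 e.2
  have hidx : ∀ p : ℕ, p.Prime → p ∣ (Subgroup.center E).index → p ∈ π := by
    intro p hp hpc
    have h1 : (Subgroup.center E).index ∣ f.ker.index := Subgroup.index_dvd_of_le hker
    rw [Subgroup.index_ker] at h1
    exact card_of_le_closed hL hrange hp (hpc.trans h1)
  have hx' : PiEl π (⟨x, hxE⟩ : E) := (piEl_map_iff E.subtype E.subtype_injective).1 hx
  have hy' : PiEl π (⟨y, hyE⟩ : E) := (piEl_map_iff E.subtype E.subtype_injective).1 hy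
  have h2 := mul_of_center_index hidx hx' hy'
  exact (piEl_map_iff E.subtype E.subtype_injective).2 h2

/-- a subgroup containing all `p`-elements, `p ∈ π`, contains all `π`-elements. -/
theorem mem_of_forall_pElement [Finite G] {D : Subgroup G}
    (hD : ∀ p : ℕ, p.Prime → p ∈ π → ∀ x : G, (∃ k, orderOf x = p ^ k) → x ∈ D) {x : G} (hx : PiEl π x) :
    x ∈ D := by
  induction h : orderOf x using Nat.strong_induction_on generalizing x with
  | _ n ih =>
    by_cases hn : n = 1
    · rw [hn] at h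
      rw [orderOf_eq_one_iff.1 h]; exact D.one_mem
    · obtain ⟨p, hp, hpn⟩ := Nat.exists_prime_and_dvd hn
      have hpx : p ∈ π := hx p hp (h ▸ hpn)
      obtain ⟨a, b, ha, hb, hab⟩ := CycNorm.exists_parts p hp x
      rw [hab]
      refine D.mul_mem (hD p hp hpx _ ha) ?_
      refine ih (orderOf (x ^ b)) ?_ (piEl_pow b hx) rfl
      have h1 : orderOf (x ^ b) ∣ n := h ▸ orderOf_pow_dvd b
      have h0 : 0 < n := h ▸ orderOf_pos x
      refine lt_of_le_of_ne (Nat.le_of_dvd h0 h1) ?_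
      intro h2
      rw [h2] at hb
      have := (Nat.Prime.coprime_iff_not_dvd hp).1 hb.symm
      exact this hpn

theorem centralize_normal_pi' [Finite G] {K : Subgroup G} [K.Normal]
    (hK : ∀ q : ℕ, q.Prime → q ∣ Nat.card K → q ∉ π)
    (hQ : ∀ q : ℕ, ∀ hq : Fact q.Prime, q ∣ Nat.card K → ∃ Q : Sylow q K,
      ∀ p : ℕ, p.Prime → p ∈ π → ∀ s : G, (∃ k, orderOf s = p ^ k) →
        s ∈ K ⊔ Subgroup.centralizer ((((Q : Subgroup K).map K.subtype) : Subgroup G) : Set G))
    {p : ℕ} (hp : p.Prime) (hpπ : p ∈ π) {s : G} (hs : ∃ k, orderOf s = p ^ k) {k : G} (hk : k ∈ K) :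
    s * k = k * s := by
  have hpF : Fact p.Prime := ⟨hp⟩
  have hpK : ¬ p ∣ Nat.card K := fun h => hK p hp h hpπ
  have hdvd : Nat.card K ∣ Nat.card (Subgroup.centralizer ({s} : Set G) ⊓ K : Subgroup G) := by
    rw [Nat.dvd_iff_prime_pow_dvd_dvd]
    intro q j hq hqj
    rcases Nat.eq_zero_or_pos j with rfl | hj
    · simp
    have hqF : Fact q.Prime := ⟨hq⟩
    have hqK : q ∣ Nat.card K := (dvd_pow_self q hj.ne').trans hqj
    obtain ⟨Q, hQ⟩ := hQ q hqF hqK
    set R : Subgroup G := (Q : Subgroup K).map K.subtype with hR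
    set C : Subgroup G := Subgroup.centralizer (R : Set G) with hC
    obtain ⟨P⟩ := (inferInstance : Nonempty (Sylow p G))
    have hPle : (P : Subgroup G) ≤ K ⊔ C := by
      intro x hx
      obtain ⟨m, hm⟩ := (IsPGroup.iff_orderOf.1 P.isPGroup') ⟨x, hx⟩
      exact hQ p hp hpπ x ⟨m, by rw [← hm, Subgroup.orderOf_mk]⟩
    have hcard : Nat.card (C ⊔ K : Subgroup G) * Nat.card (C ⊓ K : Subgroup G) = Nat.card C * Nat.card K := by
      have := SubgroupTools.card_sup_mul_card_inf (N := K) (H := C) (by rw [Subgroup.normalizer_eq_top]; exact le_top)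
      rw [sup_comm, inf_comm, this]
      try ring
    have hPc : Nat.card P ∣ Nat.card C := by
      have h1 : Nat.card P ∣ Nat.card C * Nat.card K := by
        rw [← hcard]
        refine Dvd.dvd.mul_right ?_ _
        rw [sup_comm]
        exact Subgroup.card_dvd_of_le hPle
      refine Nat.Coprime.dvd_of_dvd_mul_right ?_ h1
      rw [Sylow.card_eq_multiplicity]
      exact Nat.Coprime.pow_left _ ((Nat.Prime.coprime_iff_not_dvd hp).2 hpK)
    rw [Sylow.card_eq_multiplicity] at hPc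
    obtain ⟨T, hT⟩ := Sylow.exists_subgroup_card_pow_prime p hPc
    have hT' : Nat.card (T.map C.subtype) = p ^ (Nat.card G).factorization p := by
      rw [Subgroup.card_map_of_injective C.subtype_injective, hT]
    let P' : Sylow p G := Sylow.ofCard (T.map C.subtype) hT'
    have hs' : ∃ k : ℕ, s ^ p ^ k = 1 := by
      obtain ⟨k, hk⟩ := hs
      exact ⟨k, by rw [← hk, pow_orderOf_eq_one]⟩
    obtain ⟨g, hg⟩ := H32Basic.exists_conj_mem_sylow P' s hs'
    have hgC : g * s * g⁻¹ ∈ C := by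
      have h1 : g * s * g⁻¹ ∈ T.map C.subtype := hg
      obtain ⟨t, -, ht⟩ := h1
      rw [← ht]; exact t.2
    have hRK : R ≤ K := Subgroup.map_subtype_le _
    have hle : R.map (MulAut.conj g⁻¹).toMonoidHom ≤ Subgroup.centralizer ({s} : Set G) ⊓ K := by
      rintro _ ⟨r, hr, rfl⟩
      have h1 : (MulAut.conj g⁻¹).toMonoidHom r = g⁻¹ * r * g := by
        simp
      rw [h1]
      refine ⟨?_, ?_⟩
      · show g⁻¹ * r * g ∈ Subgroup.centralizer ({s} : Set G)
        rw [Subgroup.mem_centralizer_singleton_iff]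
        have h2 : r * (g * s * g⁻¹) = (g * s * g⁻¹) * r := hgC r hr
        calc g⁻¹ * r * g * s = g⁻¹ * (r * (g * s * g⁻¹)) * g := by group
          _ = g⁻¹ * ((g * s * g⁻¹) * r) * g := by rw [h2]
          _ = s * (g⁻¹ * r * g) := by group
      · have h3 := ‹K.Normal›.conj_mem r (hRK hr) g⁻¹
        simpa using h3
    have h4 : Nat.card (R.map (MulAut.conj g⁻¹).toMonoidHom) = Nat.card (Q : Subgroup K) := by
      rw [Subgroup.card_map_of_injective (MulAut.conj g⁻¹).injective, hR,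
        Subgroup.card_map_of_injective K.subtype_injective]
    have h5 : q ^ j ∣ Nat.card (Q : Subgroup K) := by
      rw [Sylow.card_eq_multiplicity]
      exact pow_dvd_pow q ((hq.pow_dvd_iff_le_factorization Nat.card_pos.ne').1 hqj)
    rw [← h4] at h5
    exact h5.trans (Subgroup.card_dvd_of_le hle)
  have heq : Subgroup.centralizer ({s} : Set G) ⊓ K = K :=
    Subgroup.eq_of_le_of_card_ge inf_le_right (Nat.le_of_dvd Nat.card_pos hdvd)
  have hk' : k ∈ Subgroup.centralizer ({s} : Set G) ⊓ K := by rw [heq]; exact hk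
  exact (Subgroup.mem_centralizer_singleton_iff.1 hk'.1).symm

theorem mem_sup_centralizer [Finite G] (hhom : Homog π G) {K : Subgroup G} [K.Normal]
    {q : ℕ} [hq : Fact q.Prime] (hqπ : q ∉ π) (Q : Sylow q K) {p : ℕ} (hp : p.Prime) (hpπ : p ∈ π) {s : G}
    (hs : ∃ k, orderOf s = p ^ k) :
    s ∈ K ⊔ Subgroup.centralizer ((((Q : Subgroup K).map K.subtype) : Subgroup G) : Set G) := by
  set R : Subgroup G := (Q : Subgroup K).map K.subtype with hR
  have h1 : Subgroup.normalizer (R : Set G) ⊔ K = ⊤ := Sylow.normalizer_sup_eq_top Q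
  have h2 : s ∈ Subgroup.normalizer (R : Set G) ⊔ K := by rw [h1]; trivial
  rw [Subgroup.mem_sup_of_normal_right] at h2
  obtain ⟨n, hn, k, hk, hnk⟩ := h2
  obtain ⟨j, hj⟩ := hs
  obtain ⟨a, b, ha, hb, hab⟩ := CycNorm.exists_parts p hp n
  have h3 : (s : G ⧸ K) = (n : G ⧸ K) := by
    rw [← hnk, QuotientGroup.mk_mul, (QuotientGroup.eq_one_iff k).2 hk, mul_one]
  have hbK : n ^ b ∈ K := by
    rw [← QuotientGroup.eq_one_iff, ← orderOf_eq_one_iff]
    have h4 : orderOf ((n ^ b : G) : G ⧸ K) ∣ orderOf (n ^ b) := orderOf_map_dvd (QuotientGroup.mk' K) _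
    have h5 : orderOf ((n ^ b : G) : G ⧸ K) ∣ p ^ j := by
      rw [QuotientGroup.mk_pow, ← h3]
      refine (orderOf_pow_dvd b).trans ?_
      rw [← hj]
      exact orderOf_map_dvd (QuotientGroup.mk' K) s
    have h6 : (orderOf ((n ^ b : G) : G ⧸ K)).Coprime (p ^ j) :=
      Nat.Coprime.pow_right j (Nat.Coprime.coprime_dvd_left h4 hb)
    exact Nat.eq_one_of_dvd_coprimes h6 dvd_rfl h5
  have haC : n ^ a ∈ Subgroup.centralizer (R : Set G) :=
    hhom q hq.out hqπ R (Q.isPGroup'.map _) p hp hpπ _ (Subgroup.pow_mem _ hn a) ha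
  have h7 : s = n ^ a * (n ^ b * k) := by rw [← mul_assoc, ← hab, hnk]
  rw [h7]
  exact Subgroup.mul_mem _ (Subgroup.mem_sup_right haC) (Subgroup.mem_sup_left (K.mul_mem hbK hk))

theorem closed_of_quotient_pi [Finite G] {A : Subgroup G} [A.Normal] (hA : ∀ a ∈ A, PiEl π a)
    (hq : PiClosed π (G ⧸ A)) : PiClosed π G := by
  have key : ∀ x : G, PiEl π (x : G ⧸ A) → PiEl π x := by
    intro x hx
    apply piEl_of_pow (n := orderOf (x : G ⧸ A)) hx
    apply hA
    rw [← QuotientGroup.eq_one_iff, QuotientGroup.mk_pow, pow_orderOf_eq_one]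
  apply closed_of_mul
  intro x y hx hy
  apply key
  rw [QuotientGroup.mk_mul]
  exact mul_of_closed hq (piEl_map (QuotientGroup.mk' A) hx) (piEl_map (QuotientGroup.mk' A) hy)

theorem closed_extension [Finite G] (hhom : Homog π G) {K : Subgroup G} [hKn : K.Normal]
    (hK : PiClosed π K) (hQ : PiClosed π (G ⧸ K)) : PiClosed π G := by
  obtain ⟨L, hL⟩ := hK
  set A : Subgroup G := L.map K.subtype with hA
  have hmem : ∀ x : G, x ∈ A ↔ x ∈ K ∧ PiEl π x := by
    intro x
    constructor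
    · rintro ⟨y, hy, rfl⟩
      exact ⟨y.2, (piEl_map_iff K.subtype K.subtype_injective).2 ((hL y).1 hy)⟩
    · rintro ⟨hxK, hx⟩
      exact ⟨⟨x, hxK⟩, (hL _).2 ((piEl_map_iff K.subtype K.subtype_injective).1 hx), rfl⟩
  have hAn : A.Normal := by
    constructor
    intro x hx g
    obtain ⟨h1, h2⟩ := (hmem x).1 hx
    refine (hmem _).2 ⟨hKn.conj_mem x h1 g, ?_⟩
    have h3 := piEl_map (MulAut.conj g).toMonoidHom h2
    simpa using h3
  have hAK : A ≤ K := fun x hx => ((hmem x).1 hx).1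
  have hmk : ∀ x : G, (x : G ⧸ A) ∈ K.map (QuotientGroup.mk' A) → x ∈ K := by
    rintro x ⟨y, hy, hxy⟩
    have h1 : ((y : G) : G ⧸ A) = (x : G ⧸ A) := hxy
    rw [QuotientGroup.eq] at h1
    have h2 := K.mul_mem hy (hAK h1)
    simpa using h2
  apply closed_of_quotient_pi (A := A) (fun a ha => ((hmem a).1 ha).2)
  have hq2 : PiClosed π ((G ⧸ A) ⧸ K.map (QuotientGroup.mk' A)) :=
    closed_of_equiv (QuotientGroup.quotientQuotientEquivQuotient A K hAK).symm hQ
  refine closed_of_centralize ?_ hq2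
  -- `K / A` is a `π'`-group
  have hKbar : ∀ q : ℕ, q.Prime → q ∣ Nat.card (K.map (QuotientGroup.mk' A)) → q ∉ π := by
    intro q hq hqd hqπ
    have : Fact q.Prime := ⟨hq⟩
    obtain ⟨y, hy⟩ := exists_prime_orderOf_dvd_card' q hqd
    have hy1 : orderOf (y : G ⧸ A) = q ^ 1 := by rw [Subgroup.orderOf_coe, hy, pow_one]
    obtain ⟨x, hx, j, hj⟩ := SylowCyc.exists_lift_pElement A q hq (y : G ⧸ A) hy1
    have hxK : x ∈ K := hmk x (by rw [hx]; exact y.2)
    have hxA : x ∈ A := (hmem x).2 ⟨hxK, piEl_of_orderOf hq hqπ hj⟩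
    rw [← QuotientGroup.eq_one_iff, hx] at hxA
    rw [hxA, orderOf_one, pow_one] at hy1
    exact hq.one_lt.ne hy1
  intro g hg k hk
  have hD : g ∈ Subgroup.centralizer ((K.map (QuotientGroup.mk' A) : Subgroup (G ⧸ A)) : Set (G ⧸ A)) := by
    refine mem_of_forall_pElement (π := π) ?_ hg
    intro p hp hpπ s hs k hk
    refine (centralize_normal_pi' (π := π) hKbar ?_ hp hpπ hs hk).symm
    intro q hq hqK
    have hqπ := hKbar q hq.out hqK
    obtain ⟨Q⟩ := (inferInstance : Nonempty (Sylow q K))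
    let f : K →* K.map (QuotientGroup.mk' A) := (QuotientGroup.mk' A).subgroupMap K
    have hf : Function.Surjective f := (QuotientGroup.mk' A).subgroupMap_surjective K
    refine ⟨Q.mapSurjective hf, ?_⟩
    intro p hp hpπ s hs
    obtain ⟨k, hk⟩ := hs
    obtain ⟨x, hx, j, hj⟩ := SylowCyc.exists_lift_pElement A p hp s hk
    have h1 := mem_sup_centralizer hhom hqπ Q hp hpπ ⟨j, hj⟩
    have h2 : s ∈ (K ⊔ Subgroup.centralizer ((((Q : Subgroup K).map K.subtype) : Subgroup G) : Set G)).map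
        (QuotientGroup.mk' A) := ⟨x, h1, hx⟩
    rw [Subgroup.map_sup] at h2
    have h5 : ∀ (X Y Z : Subgroup (G ⧸ A)), Y ≤ Z → s ∈ X ⊔ Y → s ∈ X ⊔ Z :=
      fun X Y Z hYZ hs => (sup_le_sup (le_refl X) hYZ) hs
    refine h5 _ _ _ ?_ h2
    rintro _ ⟨c, hc, rfl⟩
    rw [Subgroup.mem_centralizer_iff]
    rintro _ ⟨z, hz, rfl⟩
    rw [Sylow.coe_mapSurjective] at hz
    obtain ⟨w, hw, rfl⟩ := hz
    have h3 : (w : G) * c = c * w := hc (w : G) ⟨w, hw, rfl⟩
    have h4 := congrArg (QuotientGroup.mk' A) h3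
    rw [map_mul, map_mul] at h4
    exact h4
  exact (hD k hk).symm

/-- The index condition of the statements gives `Homog`. -/
theorem homog_of_index [Finite G] (hhom : (∀ H : Subgroup G, H ≠ ⊥ → (∀ p : ℕ, p.Prime → p ∣ Nat.card ↥H → p ∉ π) →
        ∀ p : ℕ, p.Prime → p ∣ (Subgroup.centralizer (H : Set G)).relIndex (Subgroup.normalizer (H : Set G)) → p ∉ π)) :
    Homog π G := by
  intro q hq hqπ Q hQ p hp hpπ x hx ⟨k, hk⟩
  by_cases hbot : Q = ⊥
  · subst hbot
    intro y hy
    have hy' : y = 1 := by simpa using hy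
    rw [hy', one_mul, mul_one]
  have hqF : Fact q.Prime := ⟨hq⟩
  have h1 : ¬ p ∣ (Subgroup.centralizer (Q : Set G)).relIndex (Subgroup.normalizer (Q : Set G)) := by
    intro hd
    refine hhom Q hbot ?_ p hp hd hpπ
    intro r hr hrd hrπ
    obtain ⟨n, hn⟩ := IsPGroup.iff_card.1 hQ
    rw [hn] at hrd
    have := (Nat.prime_dvd_prime_iff_eq hr hq).1 (hr.dvd_of_dvd_pow hrd)
    exact hqπ (this ▸ hrπ)
  set r := (Subgroup.centralizer (Q : Set G)).relIndex (Subgroup.normalizer (Q : Set G)) with hr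
  have hnorm : ((Subgroup.centralizer (Q : Set G)).subgroupOf (Subgroup.normalizer (Q : Set G))).Normal := by
    rw [← Subgroup.normalizerMonoidHom_ker]
    infer_instance
  have h2 : (⟨x, hx⟩ : Subgroup.normalizer (Q : Set G)) ^ r ∈
      (Subgroup.centralizer (Q : Set G)).subgroupOf (Subgroup.normalizer (Q : Set G)) :=
    Subgroup.pow_index_mem _ _
  have h3 : x ^ r ∈ Subgroup.centralizer (Q : Set G) := by
    rw [Subgroup.mem_subgroupOf] at h2
    exact h2
  have h4 : (orderOf x).Coprime r := by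
    rw [hk]
    exact Nat.Coprime.pow_left k ((Nat.Prime.coprime_iff_not_dvd hp).2 h1)
  obtain ⟨m, hm⟩ := exists_pow_eq_self_of_coprime h4.symm
  rw [← hm]
  exact Subgroup.pow_mem _ h3 m

/-- `Homog` passes to subgroups. -/
theorem homog_subgroup (h : Homog π G) (M : Subgroup G) : Homog π M := by
  intro q hq hqπ Q hQ p hp hpπ x hx hk
  have hx' : (x : G) ∈ Subgroup.normalizer ((Q.map M.subtype : Subgroup G) : Set G) := by
    rw [Subgroup.mem_normalizer_iff]
    intro y
    constructor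
    · rintro ⟨z, hz, rfl⟩
      exact ⟨x * z * x⁻¹, (Subgroup.mem_normalizer_iff.1 hx z).1 hz, by simp⟩
    · rintro ⟨z, hz, hzy⟩
      refine ⟨x⁻¹ * z * x, ?_, ?_⟩
      · show x⁻¹ * z * x ∈ Q
        rw [Subgroup.mem_normalizer_iff.1 hx]
        have : x * (x⁻¹ * z * x) * x⁻¹ = z := by group
        rw [this]; exact hz
      · have h1 : (z : G) = x * y * (x : G)⁻¹ := hzy
        simp only [Subgroup.coe_subtype, Subgroup.coe_mul, Subgroup.coe_inv, h1]
        group
  have h1 := h q hq hqπ (Q.map M.subtype) (hQ.map _) p hp hpπ (x : G) hx' (by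
    obtain ⟨k, hk⟩ := hk
    exact ⟨k, by rw [Subgroup.orderOf_coe, hk]⟩)
  intro y hy
  have h2 := h1 (y : G) ⟨y, hy, rfl⟩
  ext
  exact h2

end Cfsg.Agent.Lib.PiClosed67
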