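import Mathlib
import Cfsg.Prelude.Def_Transfer
import Cfsg.Prelude.Def_OddOrderLocal
import Cfsg.Agent.Lib.PiClasses3
import Cfsg.Agent.Lib.PiClasses4

set_option autoImplicit false

namespace Cfsg.Agent.Lib.PiOddB

open Subgroup Cfsg.Agent.Lib.PiClasses Cfsg.Agent.Lib.PiClasses2 Cfsg.Agent.Lib.PiClasses3
  Cfsg.Agent.Lib.PiClasses4

/-- An element of odd order whose square centralises `x` centralises `x`. -/
theorem comm_of_sq {G : Type*} [Group G] [Finite G] (a x : G) (ha : Odd (orderOf a))
    (h : a ^ 2 * x = x * a ^ 2) : a * x = x * a := by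
  obtain ⟨m, hm⟩ := ha
  have h1 : a = (a ^ 2) ^ (m + 1) := by
    rw [← pow_mul, show 2 * (m + 1) = orderOf a + 1 by omega, pow_succ, pow_orderOf_eq_one, one_mul]
  have h2 : Commute (a ^ 2) x := h
  have h3 : Commute ((a ^ 2) ^ (m + 1)) x := h2.pow_left _
  rw [← h1] at h3
  exact h3

theorem swap_false {G : Type*} [Group G] [Finite G] (a x y : G) (ha : Odd (orderOf a))
    (h1 : a * x * a⁻¹ = y) (h2 : a * y * a⁻¹ = x) : x = y := by
  have h3 : a ^ 2 * x = x * a ^ 2 := by
    have : a * (a * x * a⁻¹) * a⁻¹ = x := by rw [h1, h2]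
    have h4 : a * (a * x * a⁻¹) * a⁻¹ = a ^ 2 * x * (a ^ 2)⁻¹ := by
      rw [pow_two]; group
    rw [h4] at this
    exact mul_inv_eq_iff_eq_mul.1 this
  have h4 := comm_of_sq a x ha h3
  rw [← h1, h4]; group

theorem odd_orderOf {G : Type*} [Group G] [Finite G] (hG : Odd (Nat.card G)) (a : G) :
    Odd (orderOf a) := hG.of_dvd_nat (orderOf_dvd_natCard a)

/-- In a group of odd order a non-isolated element of `P` has a third conjugate in `P`. -/
theorem exists_third {G : Type*} [Group G] [Finite G] (hG : Odd (Nat.card G)) {p : ℕ}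
    [hp : Fact p.Prime] (P : Sylow p G) (x y : G) (hx : x ∈ (P : Subgroup G))
    (hy : y ∈ (P : Subgroup G)) (g : G) (hg : g * x * g⁻¹ = y) (hne : x ≠ y) :
    ∃ h : G, h * x * h⁻¹ ∈ (P : Subgroup G) ∧ h * x * h⁻¹ ≠ x ∧ h * x * h⁻¹ ≠ y := by
  by_contra hcon
  push Not at hcon
  have key : ∀ h : G, h * x * h⁻¹ ∈ (P : Subgroup G) → h * x * h⁻¹ = x ∨ h * x * h⁻¹ = y := by
    intro h hh
    by_cases h1 : h * x * h⁻¹ = x
    · exact Or.inl h1
    · exact Or.inr (hcon h hh h1)
  have hN : ∀ n ∈ normalizer ((P : Subgroup G) : Set G), n * x * n⁻¹ ≠ y := by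
    intro n hn hny
    have h1 : n * y * n⁻¹ ∈ (P : Subgroup G) := (mem_normalizer_iff.1 hn y).1 hy
    have h2 : n * y * n⁻¹ = (n * g) * x * (n * g)⁻¹ := by rw [← hg]; group
    rw [h2] at h1
    rcases key _ h1 with h3 | h3
    · exact hne (swap_false n x y (odd_orderOf hG n) hny (h2.trans h3))
    · have h4 : n * y * n⁻¹ = n * x * n⁻¹ := by rw [h2, h3, hny]
      have h5 : y = x := by
        have := mul_right_cancel h4
        exact mul_left_cancel this
      exact hne h5.symm
  have hPN : (P : Subgroup G) ≤ normalizer ((P : Subgroup G) : Set G) := le_normalizer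
  have hxc : ∀ u ∈ (P : Subgroup G), u * x * u⁻¹ = x := by
    intro u hu
    rcases key u (P.mul_mem (P.mul_mem hu hx) (P.inv_mem hu)) with h | h
    · exact h
    · exact absurd h (hN u (hPN hu))
  have hyc : ∀ u ∈ (P : Subgroup G), u * y * u⁻¹ = y := by
    intro u hu
    have h2 : u * y * u⁻¹ = (u * g) * x * (u * g)⁻¹ := by rw [← hg]; group
    have h1 : u * y * u⁻¹ ∈ (P : Subgroup G) := P.mul_mem (P.mul_mem hu hy) (P.inv_mem hu)
    rw [h2] at h1
    rcases key _ h1 with h | h
    · exfalso
      have h3 : u * y * u⁻¹ = x := h2.trans h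
      apply hN u⁻¹ (hPN (P.inv_mem hu))
      rw [← h3]; group
    · exact h2.trans h
  have hxC : x ∈ centralizer ((P : Subgroup G) : Set G) := by
    rw [mem_centralizer_iff]
    intro u hu
    exact mul_inv_eq_iff_eq_mul.1 (hxc u hu)
  have hyC : (g⁻¹)⁻¹ * x * g⁻¹ ∈ centralizer ((P : Subgroup G) : Set G) := by
    rw [inv_inv, hg, mem_centralizer_iff]
    intro u hu
    exact mul_inv_eq_iff_eq_mul.1 (hyc u hu)
  obtain ⟨n, hn, hnx⟩ := P.conj_eq_normalizer_conj_of_mem_centralizer x g⁻¹ hxC hyC
  rw [inv_inv, hg] at hnx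
  apply hN n⁻¹ (inv_mem hn)
  rw [inv_inv]
  exact hnx.symm

/-- Counting for groups of odd order: `3 k_p(G) ≤ |P| + 2|Iso(P)|`. -/
theorem three_mul_card_PClass_le {G : Type*} [Group G] [Finite G] (hG : Odd (Nat.card G))
    {p : ℕ} [Fact p.Prime] (P : Sylow p G) :
    3 * Nat.card (PClass p G) ≤ Nat.card ↥(P : Subgroup G) + 2 * Nat.card ↥(isoSubgroup P) := by
  classical
  choose r hr using toPClass_surjective P
  have h2 : ∀ c : PClass p G, ¬ IsoIn (P : Subgroup G) (r c : G) →
      ∃ y z : (P : Subgroup G), toPClass P y = c ∧ toPClass P z = c ∧ y ≠ r c ∧ z ≠ r c ∧ z ≠ y := by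
    intro c hc
    unfold IsoIn at hc
    push Not at hc
    obtain ⟨g, hg1, hg2⟩ := hc (r c).2
    obtain ⟨h, hh1, hh2, hh3⟩ := exists_third hG P (r c : G) (g * (r c : G) * g⁻¹) (r c).2 hg1 g rfl
      (Ne.symm hg2)
    refine ⟨⟨g * (r c : G) * g⁻¹, hg1⟩, ⟨h * (r c : G) * h⁻¹, hh1⟩, ?_, ?_, ?_, ?_, ?_⟩
    · nth_rw 2 [← hr c]
      rw [eq_comm, toPClass_eq_iff]
      exact ⟨g, rfl⟩
    · nth_rw 2 [← hr c]
      rw [eq_comm, toPClass_eq_iff]
      exact ⟨h, rfl⟩
    · intro h
      exact hg2 (congrArg Subtype.val h)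
    · intro h'
      exact hh2 (congrArg Subtype.val h')
    · intro h'
      exact hh3 (congrArg Subtype.val h')
  choose r' r'' hr' hr'' hne hne' hne'' using h2
  let f : PClass p G ⊕ (PClass p G ⊕ PClass p G) → (P : Subgroup G) ⊕ (isoSubgroup P ⊕ isoSubgroup P) :=
    fun s =>
    match s with
    | Sum.inl c => Sum.inl (r c)
    | Sum.inr (Sum.inl c) => if h : IsoIn (P : Subgroup G) (r c : G) then Sum.inr (Sum.inl ⟨r c, h⟩)
        else Sum.inl (r' c h)
    | Sum.inr (Sum.inr c) => if h : IsoIn (P : Subgroup G) (r c : G) then Sum.inr (Sum.inr ⟨r c, h⟩)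
        else Sum.inl (r'' c h)
  -- the class of the value
  let g : (P : Subgroup G) ⊕ (isoSubgroup P ⊕ isoSubgroup P) → PClass p G := fun s =>
    match s with
    | Sum.inl x => toPClass P x
    | Sum.inr (Sum.inl x) => toPClass P ⟨x, isoSubgroup_le P x.2⟩
    | Sum.inr (Sum.inr x) => toPClass P ⟨x, isoSubgroup_le P x.2⟩
  have hg1 : ∀ c, g (f (Sum.inl c)) = c := fun c => hr c
  have hg2 : ∀ c, g (f (Sum.inr (Sum.inl c))) = c := by
    intro c
    by_cases h : IsoIn (P : Subgroup G) (r c : G)
    · simp only [f, g, h, dite_true]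
      exact hr c
    · simp only [f, g, h, dite_false]
      exact hr' c h
  have hg3 : ∀ c, g (f (Sum.inr (Sum.inr c))) = c := by
    intro c
    by_cases h : IsoIn (P : Subgroup G) (r c : G)
    · simp only [f, g, h, dite_true]
      exact hr c
    · simp only [f, g, h, dite_false]
      exact hr'' c h
  have hf : Function.Injective f := by
    rintro (c | c | c) (d | d | d) h
    · have := congrArg g h
      rw [hg1, hg1] at this
      rw [this]
    · exfalso
      have := congrArg g h
      rw [hg1, hg2] at this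
      subst this
      simp only [f] at h
      split_ifs at h with h'
      rw [Sum.inl.injEq] at h
      exact hne _ h' h.symm
    · exfalso
      have := congrArg g h
      rw [hg1, hg3] at this
      subst this
      simp only [f] at h
      split_ifs at h with h'
      rw [Sum.inl.injEq] at h
      exact hne' _ h' h.symm
    · exfalso
      have := congrArg g h
      rw [hg2, hg1] at this
      subst this
      simp only [f] at h
      split_ifs at h with h'
      rw [Sum.inl.injEq] at h
      exact hne _ h' h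
    · have := congrArg g h
      rw [hg2, hg2] at this
      rw [this]
    · exfalso
      have := congrArg g h
      rw [hg2, hg3] at this
      subst this
      simp only [f] at h
      split_ifs at h with h'
      · simp at h
      · rw [Sum.inl.injEq] at h
        exact hne'' _ h' h.symm
    · exfalso
      have := congrArg g h
      rw [hg3, hg1] at this
      subst this
      simp only [f] at h
      split_ifs at h with h'
      rw [Sum.inl.injEq] at h
      exact hne' _ h' h
    · exfalso
      have := congrArg g h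
      rw [hg3, hg2] at this
      subst this
      simp only [f] at h
      split_ifs at h with h'
      · simp at h
      · rw [Sum.inl.injEq] at h
        exact hne'' _ h' h
    · have := congrArg g h
      rw [hg3, hg3] at this
      rw [this]
  have := Nat.card_le_card_of_injective f hf
  rw [Nat.card_sum, Nat.card_sum, Nat.card_sum, Nat.card_sum] at this
  omega

theorem mem_sylow_of_normalizer {G : Type*} [Group G] [Finite G] {p : ℕ} [hp : Fact p.Prime]
    (P : Sylow p G) (g : G) (hg : g ∈ normalizer ((P : Subgroup G) : Set G)) (k : ℕ)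
    (hk : orderOf g = p ^ k) : g ∈ (P : Subgroup G) := by
  have h1 : IsPGroup p (zpowers g) := IsPGroup.of_card (n := k) (by rw [Nat.card_zpowers, hk])
  have h2 : IsPGroup p ((zpowers g ⊔ (P : Subgroup G) : Subgroup G)) :=
    h1.to_sup_of_normal_right' P.2 (zpowers_le.2 hg)
  have h3 := P.3 h2 le_sup_right
  rw [← h3]
  exact mem_sup_left (mem_zpowers g)

/-- The case `|P : I| = 3`. -/
theorem false_of_index_three {G : Type*} [Group G] [Finite G] (hG : Odd (Nat.card G))
    [Fact (Nat.Prime 3)] (P : Sylow 3 G)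
    (h : Nat.card ↥(P : Subgroup G) = 3 * Nat.card ↥(isoSubgroup P)) : False := by
  set I := isoSubgroup P with hI
  have hIP : I ≤ (P : Subgroup G) := isoSubgroup_le P
  -- the quotient relation: every element of `P` is in `I`, `xI` or `x⁻¹I`
  have hne : ∃ x ∈ (P : Subgroup G), x ∉ I := by
    by_contra hcon
    push Not at hcon
    have : I = P := le_antisymm hIP hcon
    rw [this] at h
    have : 0 < Nat.card ↥(P : Subgroup G) := Nat.card_pos
    omega
  obtain ⟨x, hxP, hxI⟩ := hne
  have hrel : I.relIndex (P : Subgroup G) = 3 := by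
    have h1 := Subgroup.index_mul_card (I.subgroupOf (P : Subgroup G))
    have h2 : 0 < Nat.card I := Nat.card_pos
    rw [Nat.card_congr (Subgroup.subgroupOfEquivOfLe hIP).toEquiv, h] at h1
    exact Nat.eq_of_mul_eq_mul_right h2 h1
  have hIc : ∀ i ∈ I, ∀ u ∈ (P : Subgroup G), u * i = i * u := fun i hi u hu =>
    (mem_isoSubgroup.1 hi).commute hu
  let I' : Subgroup ↥(P : Subgroup G) := I.subgroupOf P
  have hI'n : I'.Normal := by
    constructor
    intro i hi u
    have h1 := hIc i (mem_subgroupOf.1 hi) u u.2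
    have h2 : u * i * u⁻¹ = i := by
      apply Subtype.ext
      show (u : G) * (i : G) * (u : G)⁻¹ = i
      rw [h1]; group
    rw [h2]; exact hi
  have hcard : Nat.card (↥(P : Subgroup G) ⧸ I') = 3 := hrel
  have hthree : ∀ u ∈ (P : Subgroup G), u ∈ I ∨ x⁻¹ * u ∈ I ∨ x * u ∈ I := by
    intro u hu
    by_contra hcon
    push Not at hcon
    obtain ⟨h1, h2, h3⟩ := hcon
    -- four distinct elements `1, x, x⁻¹, u` of the quotient
    let q : ↥(P : Subgroup G) →* ↥(P : Subgroup G) ⧸ I' := QuotientGroup.mk' I'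
    let X : ↥(P : Subgroup G) := ⟨x, hxP⟩
    let U : ↥(P : Subgroup G) := ⟨u, hu⟩
    have hq : ∀ a b : ↥(P : Subgroup G), q a = q b ↔ a⁻¹ * b ∈ I' := fun a b =>
      QuotientGroup.eq
    have hX1 : q X ≠ 1 := by
      intro h
      rw [← map_one q, eq_comm, hq] at h
      apply hxI
      have := mem_subgroupOf.1 h
      simpa [X] using this
    have hX3 : q X ^ 3 = 1 := by
      have := pow_card_eq_one' (x := q X)
      rwa [hcard] at this
    have hX2 : q X ≠ (q X)⁻¹ := by
      intro h
      apply hX1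
      have : q X ^ 2 = 1 := by rw [pow_two]; nth_rw 1 [h]; simp
      calc q X = q X ^ 3 * (q X ^ 2)⁻¹ := by group
        _ = 1 := by rw [hX3, this]; simp
    have hU1 : q U ≠ 1 := by
      intro h
      rw [← map_one q, eq_comm, hq] at h
      apply h1
      have := mem_subgroupOf.1 h
      simpa [U] using this
    have hU2 : q U ≠ q X := by
      intro h
      rw [eq_comm, hq] at h
      exact h2 (mem_subgroupOf.1 h)
    have hU3 : q U ≠ (q X)⁻¹ := by
      intro h
      rw [← map_inv, eq_comm, hq] at h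
      apply h3
      have := mem_subgroupOf.1 h
      simpa [X, U] using this
    have hX4 : (q X)⁻¹ ≠ 1 := by simpa using hX1
    let f : Fin 4 → (↥(P : Subgroup G) ⧸ I') := ![1, q X, (q X)⁻¹, q U]
    have hf : Function.Injective f := by
      intro a b hab
      fin_cases a <;> fin_cases b <;> simp [f] at hab ⊢
      · exact hX1 hab.symm
      · exact hX1 hab
      · exact hU1 hab.symm
      · exact hX1 hab
      · exact hX2 hab
      · exact hU2 hab.symm
      · exact hX1 hab
      · exact hX2 hab.symm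
      · exact hU3 hab.symm
      · exact hU1 hab
      · exact hU2 hab
      · exact hU3 hab
    have := Nat.card_le_card_of_injective f hf
    rw [hcard] at this
    simp at this
  -- `P` is commutative
  have hcomX : ∀ u ∈ (P : Subgroup G), u * x = x * u := by
    intro u hu
    rcases hthree u hu with h1 | h1 | h1
    · exact (hIc u h1 x hxP).symm
    · have h2 := hIc _ h1 x hxP
      have : x * (x⁻¹ * u) = u := by group
      rw [this] at h2
      nth_rw 2 [h2]
      group
    · have h2 := hIc _ h1 x hxP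
      have h3 : x * u * x = x * (x * u) := h2.symm
      rw [mul_assoc] at h3
      exact mul_left_cancel h3
  have hsq : x * x ∉ I := by
    intro h2
    rcases hthree (x * x) (P.mul_mem hxP hxP) with h1 | h1 | h1
    · have h3 : x * x * x ∈ I := by
        have hX3 : (⟨x, hxP⟩ : ↥(P : Subgroup G)) ^ 3 ∈ I' := by
          rw [← QuotientGroup.eq_one_iff, QuotientGroup.mk_pow]
          have := pow_card_eq_one' (x := ((⟨x, hxP⟩ : ↥(P : Subgroup G)) : ↥(P : Subgroup G) ⧸ I'))
          rwa [hcard] at this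
        have := mem_subgroupOf.1 hX3
        simpa [pow_succ] using this
      apply hxI
      have : x = (x * x)⁻¹ * (x * x * x) := by group
      rw [this]
      exact I.mul_mem (I.inv_mem h2) h3
    · apply hxI
      have : x = x⁻¹ * (x * x) := by group
      rw [this]; exact h1
    · apply hxI
      have : x = x * (x * x) * (x * x)⁻¹ := by group
      rw [this]; exact I.mul_mem h1 (I.inv_mem h2)
  have hIfix : ∀ i ∈ I, ∀ n ∈ normalizer ((P : Subgroup G) : Set G), n * i * n⁻¹ = i := by
    intro i hi n hn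
    exact (mem_isoSubgroup.1 hi).2 n ((mem_normalizer_iff.1 hn i).1 (hIP hi))
  -- `N(P)` centralises `x`
  have hcent : ∀ n ∈ normalizer ((P : Subgroup G) : Set G), n * x = x * n := by
    intro n hn
    have hnx : n * x * n⁻¹ ∈ (P : Subgroup G) := (mem_normalizer_iff.1 hn x).1 hxP
    have hodd := odd_orderOf hG n
    rcases hthree _ hnx with h1 | h1 | h1
    · exfalso
      apply hxI
      have h2 := hIfix _ h1 n⁻¹ (inv_mem hn)
      have h3 : n⁻¹ * (n * x * n⁻¹) * n⁻¹⁻¹ = x := by group
      rw [h3] at h2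
      rw [h2]; exact h1
    · set i := x⁻¹ * (n * x * n⁻¹) with hi
      have hni : n * x * n⁻¹ = x * i := by rw [hi]; group
      have hpow : ∀ k : ℕ, n ^ k * x * (n ^ k)⁻¹ = x * i ^ k := by
        intro k
        induction k with
        | zero => simp
        | succ k ih =>
          have h2 : n ^ (k + 1) * x * (n ^ (k + 1))⁻¹ = n * (n ^ k * x * (n ^ k)⁻¹) * n⁻¹ := by
            rw [pow_succ']; group
          have h3 : n * (x * i ^ k) * n⁻¹ = (n * x * n⁻¹) * (n * i ^ k * n⁻¹) := by group
          rw [h2, ih, h3, hni, hIfix _ (I.pow_mem h1 k) n hn, mul_assoc, ← pow_succ']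
      obtain ⟨b, hb⟩ := orderOf_pow_of_mem P (hIP h1)
      have hb' : n ^ (3 ^ b) * x = x * n ^ (3 ^ b) := by
        have h2 := hpow (3 ^ b)
        rw [← hb, pow_orderOf_eq_one, mul_one, hb] at h2
        exact mul_inv_eq_iff_eq_mul.1 h2
      -- the 3-part of `n`
      have ho : orderOf n ≠ 0 := (orderOf_pos n).ne'
      obtain ⟨t, hto, ht3⟩ : ∃ t : ℕ, orderOf n = 3 ^ (orderOf n).factorization 3 * t ∧ ¬ 3 ∣ t :=
        ⟨orderOf n / 3 ^ (orderOf n).factorization 3, (Nat.ordProj_mul_ordCompl_eq_self _ _).symm,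
          Nat.not_dvd_ordCompl Nat.prime_three ho⟩
      have ht0 : t ≠ 0 := by
        rintro rfl
        exact ht3 (dvd_zero _)
      have h3 : orderOf (n ^ t) = 3 ^ (orderOf n).factorization 3 := by
        rw [orderOf_pow' n ht0]
        rw [Nat.gcd_eq_right (Dvd.intro_left _ hto.symm)]
        nth_rw 1 [hto]
        exact Nat.mul_div_cancel _ (Nat.pos_of_ne_zero ht0)
      have h4 : n ^ t ∈ (P : Subgroup G) :=
        mem_sylow_of_normalizer P _ (pow_mem hn t) _ h3
      have h5 : n ^ t * x = x * n ^ t := hcomX _ h4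
      -- coprime exponents
      have hC1 : n ^ (3 ^ b) ∈ centralizer ({x} : Set G) := mem_centralizer_singleton_iff.2 hb'
      have hC2 : n ^ t ∈ centralizer ({x} : Set G) := mem_centralizer_singleton_iff.2 h5
      have hcop : Nat.Coprime (3 ^ b) t :=
        Nat.Coprime.pow_left _ ((Nat.Prime.coprime_iff_not_dvd Nat.prime_three).2 ht3)
      have h6 : n ∈ centralizer ({x} : Set G) := by
        have h7 : (n : G) = (n ^ (3 ^ b)) ^ (Nat.gcdA (3 ^ b) t) * (n ^ t) ^ (Nat.gcdB (3 ^ b) t) := by
          rw [← zpow_natCast n (3 ^ b), ← zpow_natCast n t, ← zpow_mul, ← zpow_mul, ← zpow_add,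
            ← Nat.gcd_eq_gcd_ab, hcop.gcd_eq_one]
          simp
        rw [h7]
        exact mul_mem (zpow_mem hC1 _) (zpow_mem hC2 _)
      exact mem_centralizer_singleton_iff.1 h6
    · exfalso
      set i := x * (n * x * n⁻¹) with hi
      have hni : n * x * n⁻¹ = x⁻¹ * i := by rw [hi]; group
      have h2 : n * (n * x * n⁻¹) * n⁻¹ = x := by
        rw [hni]
        have h3 : n * (x⁻¹ * i) * n⁻¹ = (n * x * n⁻¹)⁻¹ * (n * i * n⁻¹) := by group
        rw [h3, hni, hIfix i h1 n hn]
        have h4 := hIc i h1 x hxP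
        rw [mul_inv_rev, inv_inv]
        rw [mul_assoc, h4]; group
      have h3 : n ^ 2 * x = x * n ^ 2 := by
        have h4 : n * (n * x * n⁻¹) * n⁻¹ = n ^ 2 * x * (n ^ 2)⁻¹ := by rw [pow_two]; group
        rw [h4] at h2
        exact mul_inv_eq_iff_eq_mul.1 h2
      have h4 := comm_of_sq n x hodd h3
      have h5 : n * x * n⁻¹ = x := by rw [h4]; group
      apply hsq
      have : x * x = i := by rw [hi, h5]
      rw [this]; exact h1
  -- so `x` is isolated
  have hxC : x ∈ centralizer ((P : Subgroup G) : Set G) := by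
    rw [mem_centralizer_iff]
    exact fun u hu => hcomX u hu
  -- `P` is commutative
  have hcomm : ∀ u ∈ (P : Subgroup G), ∀ v ∈ (P : Subgroup G), u * v = v * u := by
    intro u hu v hv
    have hxv := hcomX v hv
    rcases hthree u hu with h1 | h1 | h1
    · exact (hIc u h1 v hv).symm
    · have h2 := hIc _ h1 v hv
      -- u = x * (x⁻¹ u)
      calc u * v = x * ((x⁻¹ * u) * v) := by group
        _ = x * (v * (x⁻¹ * u)) := by rw [h2]
        _ = (x * v) * (x⁻¹ * u) := by group
        _ = (v * x) * (x⁻¹ * u) := by rw [hxv]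
        _ = v * u := by group
    · have h2 := hIc _ h1 v hv
      have hxv' : x⁻¹ * v = v * x⁻¹ := by
        rw [inv_mul_eq_iff_eq_mul, ← mul_assoc, ← hxv]; group
      calc u * v = x⁻¹ * ((x * u) * v) := by group
        _ = x⁻¹ * (v * (x * u)) := by rw [h2]
        _ = (x⁻¹ * v) * (x * u) := by group
        _ = (v * x⁻¹) * (x * u) := by rw [hxv']
        _ = v * u := by group
  apply hxI
  rw [hI, mem_isoSubgroup]
  refine ⟨hxP, ?_⟩
  intro g hg
  have hyC : (g⁻¹)⁻¹ * x * g⁻¹ ∈ centralizer ((P : Subgroup G) : Set G) := by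
    rw [inv_inv, mem_centralizer_iff]
    exact fun u hu => hcomm u hu _ hg
  obtain ⟨n, hn, hnx⟩ := P.conj_eq_normalizer_conj_of_mem_centralizer x g⁻¹ hxC hyC
  rw [inv_inv] at hnx
  rw [hnx]
  have := hcent n⁻¹ (inv_mem hn)
  rw [this]; group

/-- In a group of odd order, more than `|P|/2` fusion classes forces no fusion at all. -/
theorem iso_eq_odd {G : Type*} [Group G] [Finite G] (hG : Odd (Nat.card G)) {p : ℕ}
    [hp : Fact p.Prime] (hp2 : p ≠ 2) (P : Sylow p G)
    (h : Nat.card ↥(P : Subgroup G) < 2 * Nat.card (PClass p G)) : isoSubgroup P = P := by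
  have h1 := three_mul_card_PClass_le hG P
  have h2 : Nat.card ↥(P : Subgroup G) < 4 * Nat.card ↥(isoSubgroup P) := by omega
  have hp3 : 3 ≤ p := by
    have := hp.out.two_le
    omega
  rcases Nat.eq_or_lt_of_le hp3 with h3 | h3
  · subst h3
    by_contra hcon
    obtain ⟨n, hn⟩ := P.2.exists_card_eq
    obtain ⟨m, hm⟩ := (P.2.to_le (isoSubgroup_le P)).exists_card_eq
    have hn' : Nat.card ↥(P : Subgroup G) = 3 ^ n := hn
    have hlt : m < n := by
      by_contra hmn
      apply hcon
      apply Subgroup.eq_of_le_of_card_ge (isoSubgroup_le P)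
      rw [hn', hm]
      exact Nat.pow_le_pow_right (by norm_num) (by omega)
    have hle : n ≤ m + 1 := by
      by_contra hmn
      have h5 : 3 ^ (m + 2) ≤ 3 ^ n := Nat.pow_le_pow_right (by norm_num) (by omega)
      rw [hn', hm] at h2
      have h6 : 3 ^ (m + 2) = 9 * 3 ^ m := by ring
      have h7 : 0 < 3 ^ m := by positivity
      omega
    have hnm : n = m + 1 := by omega
    apply false_of_index_three hG P
    rw [hn', hm, hnm, pow_succ]; ring
  · apply eq_of_card_lt P.2 (isoSubgroup_le P)
    calc Nat.card ↥(P : Subgroup G) < 4 * Nat.card ↥(isoSubgroup P) := h2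
      _ ≤ p * Nat.card ↥(isoSubgroup P) := Nat.mul_le_mul_right _ h3

end Cfsg.Agent.Lib.PiOddB
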