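import Mathlib

/-!
# A ping-pong lemma for words (helper39)
-/

set_option autoImplicit false

namespace Cfsg.Agent.Lib.PingPong

variable {G Ω R : Type*} [Group G] [AddCommGroup R]

/-- Data: `U c` unipotent, `T` an involution, `S` a set with `U c T S ⊆ S` for all big `c` and `T S ∩ S = ∅`. -/
structure Data (G Ω R : Type*) [Group G] [AddCommGroup R] where
  act : G → Ω → Ω
  act_mul : ∀ g h v, act (g * h) v = act g (act h v)
  act_one : ∀ v, act 1 v = v
  U : R → G
  T : G
  U_add : ∀ a b, U (a + b) = U a * U b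
  T_sq : T * T = 1
  p : ℕ → R
  S : Set Ω
  hp : ∀ i, ∀ v ∈ S, act (U (p i) * T) v ∈ S
  hn : ∀ i, ∀ v ∈ S, act (U (-p i) * T) v ∈ S
  hd : ∀ i j, i ≠ j → ∀ v ∈ S, act (U (p i - p j) * T) v ∈ S
  hT : ∀ v ∈ S, act T v ∉ S

namespace Data

variable (D : Data G Ω R)

theorem U_zero : D.U 0 = 1 := by
  have h := D.U_add 0 0
  rw [add_zero] at h
  exact (mul_eq_left.1 h.symm)

theorem U_neg (a : R) : D.U (-a) = (D.U a)⁻¹ := by
  rw [eq_inv_iff_mul_eq_one, ← D.U_add, neg_add_cancel, D.U_zero]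

theorem T_inv : D.T⁻¹ = D.T := inv_eq_of_mul_eq_one_left D.T_sq

/-- The generator attached to `i`. -/
def A (i : ℕ) : G := D.U (D.p i) * D.T * (D.U (D.p i) * D.T)

theorem A_inv (i : ℕ) : (D.A i)⁻¹ = D.T * D.U (-D.p i) * (D.T * D.U (-D.p i)) := by
  rw [A, _root_.mul_inv_rev, _root_.mul_inv_rev, D.T_inv, D.U_neg]

/-- The cone of a letter. -/
def cone (l : ℕ × Bool) : Set Ω :=
  {v | ∃ s ∈ D.S, v = D.act (cond l.2 (D.U (D.p l.1) * D.T) (D.T * D.U (-D.p l.1) * D.T)) s}

/-- The group element of a letter. -/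
def letter (l : ℕ × Bool) : G := cond l.2 (D.A l.1) (D.A l.1)⁻¹

theorem letter_cone (l l' : ℕ × Bool) (hl : l.1 = l'.1 → l.2 = l'.2) (v : Ω) (hv : v ∈ D.cone l') :
    D.act (D.letter l) v ∈ D.cone l := by
  obtain ⟨i, b⟩ := l
  obtain ⟨j, c⟩ := l'
  obtain ⟨s, hs, rfl⟩ := hv
  simp only at hl
  have hTT : ∀ x : G, D.T * (D.T * x) = x := fun x => by rw [← mul_assoc, D.T_sq, one_mul]
  cases b <;> cases c
  · -- (i, false), (j, false)
    refine ⟨D.act (D.U (-D.p i) * D.T) (D.act (D.U (-D.p j) * D.T) s), D.hn i _ (D.hn j _ hs), ?_⟩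
    simp only [letter, cond_false, A_inv, ← D.act_mul]
    congr 1
    simp only [mul_assoc]
  · -- (i, false), (j, true)
    have hij : j ≠ i := fun h => by have := hl h.symm; simp at this
    refine ⟨D.act (D.U (D.p j - D.p i) * D.T) s, D.hd j i hij _ hs, ?_⟩
    simp only [letter, cond_false, cond_true, A_inv, ← D.act_mul]
    congr 1
    rw [sub_eq_neg_add, D.U_add]
    simp only [mul_assoc]
  · -- (i, true), (j, false)
    have hij : i ≠ j := fun h => by have := hl h; simp at this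
    refine ⟨D.act (D.U (D.p i - D.p j) * D.T) s, D.hd i j hij _ hs, ?_⟩
    simp only [letter, cond_false, cond_true, A, ← D.act_mul]
    congr 1
    rw [sub_eq_add_neg, D.U_add]
    simp only [mul_assoc, hTT]
  · refine ⟨D.act (D.U (D.p i) * D.T) (D.act (D.U (D.p j) * D.T) s), D.hp i _ (D.hp j _ hs), ?_⟩
    simp only [letter, cond_true, A, ← D.act_mul]
    congr 1
    simp only [mul_assoc]

/-- The group element of a word. -/
def wprod (L : List (ℕ × Bool)) : G := (L.map D.letter).prod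

theorem wprod_cone (l' : ℕ × Bool) (v : Ω) (hv : v ∈ D.cone l') :
    ∀ (L : List (ℕ × Bool)) (l : ℕ × Bool), FreeGroup.IsReduced (l :: L) → (∀ x ∈ l :: L, x.1 ≠ l'.1) →
      D.act (D.wprod (l :: L)) v ∈ D.cone l := by
  intro L
  induction L with
  | nil =>
    intro l _ hne
    simp only [wprod, List.map_cons, List.map_nil, List.prod_cons, List.prod_nil, mul_one]
    exact D.letter_cone l l' (fun h => absurd h (hne l (by simp))) v hv
  | cons m L ih =>
    intro l hred hne
    have hred' := FreeGroup.isReduced_cons_cons.1 hred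
    have := ih m hred'.2 (fun x hx => hne x (List.mem_cons_of_mem _ hx))
    have e : D.act (D.wprod (l :: m :: L)) v = D.act (D.letter l) (D.act (D.wprod (m :: L)) v) := by
      simp only [wprod, List.map_cons, List.prod_cons, D.act_mul]
    rw [e]
    exact D.letter_cone l m hred'.1 _ this

theorem cone_disjoint (i j : ℕ) (b : Bool) (hij : i ≠ j) (v : Ω) (h1 : v ∈ D.cone (i, b))
    (h2 : v ∈ D.cone (j, true)) : False := by
  obtain ⟨s, hs, rfl⟩ := h1
  obtain ⟨t, ht, h2⟩ := h2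
  simp only [cond_true] at h2
  cases b
  · simp only [cond_false] at h2
    refine D.hT (D.act (D.U (-D.p i) * D.T) s) (D.hn i _ hs) ?_
    rw [← D.act_mul, ← mul_assoc, h2]
    exact D.hp j _ ht
  · simp only [cond_true] at h2
    refine D.hT s hs ?_
    have h3 := congrArg (D.act (D.U (-D.p i))) h2
    rw [← D.act_mul, ← D.act_mul, ← mul_assoc, ← D.U_add, neg_add_cancel, D.U_zero, one_mul, ← mul_assoc,
      ← D.U_add, neg_add_eq_sub] at h3
    rw [h3]
    exact D.hd j i hij.symm _ ht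

theorem lift_eq_wprod (w : FreeGroup ℕ) : FreeGroup.lift D.A w = D.wprod w.toWord := by
  have hw : FreeGroup.mk w.toWord = w := FreeGroup.mk_toWord
  conv_lhs => rw [← hw]
  rw [FreeGroup.lift_mk]
  rfl

/-- The conclusion: non-trivial words are non-trivial at the generators `A i`. -/
theorem lift_ne_one (hS : D.S.Nonempty) (w : FreeGroup ℕ) (hw : w ≠ 1) : FreeGroup.lift D.A w ≠ 1 := by
  intro h
  obtain ⟨s, hs⟩ := hS
  set L := w.toWord with hL
  have hLne : L ≠ [] := fun h => hw (FreeGroup.toWord_eq_nil_iff.1 h)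
  have hred : FreeGroup.IsReduced L := FreeGroup.isReduced_toWord
  obtain ⟨j, hj⟩ : ∃ j : ℕ, ∀ x ∈ L, x.1 ≠ j := by
    refine ⟨(L.map Prod.fst).sum + 1, fun x hx h => ?_⟩
    have : x.1 ≤ (L.map Prod.fst).sum := List.single_le_sum (by simp) _ (List.mem_map_of_mem hx)
    omega
  obtain ⟨l, L', hLL⟩ := List.exists_cons_of_ne_nil hLne
  have hv : D.act (D.U (D.p j) * D.T) s ∈ D.cone (j, true) := ⟨s, hs, rfl⟩
  have hc := D.wprod_cone (j, true) _ hv L' l (hLL ▸ hred) (by rw [← hLL]; exact hj)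
  rw [← hLL, hL, ← D.lift_eq_wprod, h, D.act_one] at hc
  obtain ⟨i, b⟩ := l
  exact D.cone_disjoint i j b (hj (i, b) (by rw [hLL]; simp)) _ hc hv

end Data

end Cfsg.Agent.Lib.PingPong
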