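import Cfsg.Agent.Lib.GLClass

set_option autoImplicit false
set_option linter.unusedSectionVars false

/-! The conjugate-reciprocal polynomial `p*` and inverse elements (helper43). -/

namespace Cfsg.Agent.Lib.PolyStar

open Module Polynomial Cfsg.Agent.Lib.FXMod Cfsg.Agent.Lib.FXType Cfsg.Agent.Lib.GLClass

universe u

variable {K : Type u} [Field K] (σ : K →+* K)

theorem associated_isUnit_mul_left (a u : K[X]) (hu : IsUnit u) : Associated (u * a) a := by
  obtain ⟨v, rfl⟩ := hu
  exact ⟨v⁻¹, by rw [mul_comm, ← mul_assoc, Units.inv_mul, one_mul]⟩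

/-- conjugate-reciprocal -/
noncomputable def rv (p : K[X]) : K[X] := (p.map σ).mirror

/-- normalised -/
noncomputable def ps (p : K[X]) : K[X] := C (rv σ p).leadingCoeff⁻¹ * rv σ p

variable {σ}

theorem rv_eq_reflect {p : K[X]} (h0 : p.coeff 0 ≠ 0) : rv σ p = reflect p.natDegree (p.map σ) := by
  have h1 : (p.map σ).coeff 0 ≠ 0 := by
    rw [coeff_map]
    exact fun h => h0 ((map_eq_zero σ).mp h)
  rw [rv, mirror, natTrailingDegree_eq_zero.mpr (Or.inr h1), pow_zero, mul_one, reverse, natDegree_map]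

theorem rv_mul (p q : K[X]) : rv σ (p * q) = rv σ p * rv σ q := by
  rw [rv, rv, rv, Polynomial.map_mul, mirror_mul_of_domain]

theorem rv_pow (p : K[X]) (k : ℕ) : rv σ (p ^ k) = rv σ p ^ k := by
  induction k with
  | zero => rw [pow_zero, pow_zero, rv, Polynomial.map_one, ← C_1, mirror_C]
  | succ k ih => rw [pow_succ, rv_mul, ih, pow_succ]

theorem rv_ne_zero {p : K[X]} (h : p ≠ 0) : rv σ p ≠ 0 := by
  rw [rv, Ne, mirror_eq_zero, Polynomial.map_eq_zero]
  exact h

theorem rv_natDegree (p : K[X]) : (rv σ p).natDegree = p.natDegree := by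
  rw [rv, mirror_natDegree, natDegree_map]

theorem rv_coeff_zero {p : K[X]} (h : p ≠ 0) (h0 : p.coeff 0 ≠ 0) : (rv σ p).coeff 0 ≠ 0 := by
  rw [rv_eq_reflect h0, coeff_reflect, revAt_le (Nat.zero_le _), Nat.sub_zero, coeff_map]
  exact fun h' => leadingCoeff_ne_zero.mpr h ((map_eq_zero σ).mp h')

theorem rv_C_mul (c : K) (p : K[X]) : rv σ (C c * p) = C (σ c) * rv σ p := by
  rw [rv_mul]
  congr 1
  rw [rv, map_C, mirror_C]

theorem rv_rv (hσ : ∀ x, σ (σ x) = x) {p : K[X]} (h : p ≠ 0) (h0 : p.coeff 0 ≠ 0) : rv σ (rv σ p) = p := by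
  have h1 := rv_coeff_zero (σ := σ) h h0
  rw [rv_eq_reflect h1, rv_natDegree, rv_eq_reflect h0, ← reflect_map, Polynomial.map_map, reflect_reflect]
  have : σ.comp σ = RingHom.id K := RingHom.ext hσ
  rw [this, Polynomial.map_id]

theorem irreducible_mirror {p : K[X]} (hp : Irreducible p) : Irreducible p.mirror := by
  constructor
  · intro h
    have h1 := natDegree_eq_zero_of_isUnit h
    rw [mirror_natDegree] at h1
    have := hp.natDegree_pos
    omega
  · intro a b hab
    have h1 : p = a.mirror * b.mirror := by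
      rw [← mirror_mul_of_domain, ← hab, mirror_mirror]
    have hunit : ∀ c : K[X], IsUnit c.mirror → IsUnit c := by
      intro c hc
      have h2 := natDegree_eq_zero_of_isUnit hc
      rw [mirror_natDegree] at h2
      have h3 : c ≠ 0 := by
        rintro rfl
        rw [mirror_zero] at hc
        exact not_isUnit_zero hc
      exact isUnit_iff_degree_eq_zero.mpr (by rw [degree_eq_natDegree h3, h2]; rfl)
    rcases hp.isUnit_or_isUnit h1 with h | h
    · exact Or.inl (hunit a h)
    · exact Or.inr (hunit b h)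

theorem rv_irreducible (hσ : ∀ x, σ (σ x) = x) {p : K[X]} (hp : Irreducible p) : Irreducible (rv σ p) := by
  apply irreducible_mirror
  have hbij : Function.Bijective σ := ⟨σ.injective, fun x => ⟨σ x, hσ x⟩⟩
  let e : K ≃+* K := RingEquiv.ofBijective σ hbij
  have : p.map σ = Polynomial.mapEquiv e p := rfl
  rw [this]
  exact (MulEquiv.irreducible_iff (Polynomial.mapEquiv e)).mpr hp

theorem ps_assoc {p : K[X]} (hp : p ≠ 0) : Associated (ps σ p) (rv σ p) := by
  have h0 : (rv σ p).leadingCoeff⁻¹ ≠ 0 := inv_ne_zero (leadingCoeff_ne_zero.mpr (rv_ne_zero hp))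
  exact associated_isUnit_mul_left _ _ (isUnit_C.mpr (IsUnit.mk0 _ h0))

theorem ps_monic {p : K[X]} (hp : p ≠ 0) : (ps σ p).Monic := by
  show (ps σ p).leadingCoeff = 1
  rw [ps, leadingCoeff_mul, leadingCoeff_C, inv_mul_cancel₀ (leadingCoeff_ne_zero.mpr (rv_ne_zero hp))]

theorem ps_irreducible (hσ : ∀ x, σ (σ x) = x) {p : K[X]} (hp : Irreducible p) : Irreducible (ps σ p) :=
  (ps_assoc hp.ne_zero).irreducible_iff.mpr (rv_irreducible hσ hp)

theorem ps_natDegree {p : K[X]} (hp : p ≠ 0) : (ps σ p).natDegree = p.natDegree := by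
  rw [natDegree_eq_of_degree_eq (degree_eq_degree_of_associated (ps_assoc hp)), rv_natDegree]

theorem ps_coeff_zero {p : K[X]} (hp : p ≠ 0) (h0 : p.coeff 0 ≠ 0) : (ps σ p).coeff 0 ≠ 0 := by
  rw [ps, coeff_C_mul]
  exact mul_ne_zero (inv_ne_zero (leadingCoeff_ne_zero.mpr (rv_ne_zero hp))) (rv_coeff_zero hp h0)

theorem rv_assoc {p q : K[X]} (h : Associated p q) : Associated (rv σ p) (rv σ q) := by
  obtain ⟨u, rfl⟩ := h
  obtain ⟨c, hc, hu⟩ := Polynomial.isUnit_iff.mp u.isUnit
  rw [← hu, mul_comm, rv_C_mul]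
  exact (associated_isUnit_mul_left _ _ (isUnit_C.mpr (hc.map σ))).symm

theorem ps_ps (hσ : ∀ x, σ (σ x) = x) {p : K[X]} (hp : p.Monic) (h0 : p.coeff 0 ≠ 0) : ps σ (ps σ p) = p := by
  have hne := hp.ne_zero
  apply eq_of_monic_of_associated (ps_monic (ps_monic hne).ne_zero) hp
  refine (ps_assoc (ps_monic hne).ne_zero).trans ((rv_assoc (ps_assoc hne)).trans ?_)
  rw [rv_rv hσ hne h0]

/-- the basic identity for inverses -/
theorem aeval_inv {A : Type*} [Ring A] [Algebra K A] {a b : A} (hba : b * a = 1) (p : K[X]) (N : ℕ) (hN : p.natDegree ≤ N) :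
    aeval b p * a ^ N = aeval a (reflect N p) := by
  have hpow : ∀ n N : ℕ, n ≤ N → b ^ n * a ^ N = a ^ (N - n) := by
    intro n
    induction n with
    | zero => intro N _; rw [pow_zero, one_mul, Nat.sub_zero]
    | succ n ih =>
      intro N hN
      obtain ⟨N', rfl⟩ : ∃ N', N = N' + 1 := ⟨N - 1, by omega⟩
      rw [pow_succ, pow_succ' a, mul_assoc, ← mul_assoc b a, hba, one_mul, ih N' (by omega)]
      congr 1
      omega
  refine Polynomial.induction_with_natDegree_le (motive := fun p => aeval b p * a ^ N = aeval a (reflect N p)) N ?_ ?_ ?_ p hN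
  · show aeval b (0 : K[X]) * a ^ N = aeval a (reflect N 0)
    rw [reflect_zero, map_zero, map_zero, zero_mul]
  · intro n r _ hn
    show aeval b (C r * X ^ n) * a ^ N = aeval a (reflect N (C r * X ^ n))
    rw [reflect_C_mul_X_pow, revAt_le hn, map_mul, map_mul, aeval_C, aeval_C, map_pow, map_pow, aeval_X, aeval_X, mul_assoc, hpow n N hn]
  · intro f g _ _ hf hg
    show aeval b (f + g) * a ^ N = aeval a (reflect N (f + g))
    rw [reflect_add, map_add, map_add, add_mul, hf, hg]

end Cfsg.Agent.Lib.PolyStar
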