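import Mathlib
import Cfsg.Agent.Lib.PowI
import Cfsg.Agent.Lib.PSolvTools
import Cfsg.Agent.S1950

/-!
Powell's theorem, X: the theorem (helper11, S3792).
-/

set_option autoImplicit false
set_option maxHeartbeats 400000
set_option linter.unusedSectionVars false

namespace Cfsg.Agent.Lib.PowJ

open Subgroup Cfsg Cfsg.Agent.Lib.SigCon Cfsg.Agent.Lib.RelSylow Cfsg.Agent.Lib.TwoGenB
open Cfsg.Agent.Lib.TwoGenC Cfsg.Agent.Lib.PowF Cfsg.Agent.Lib.PowG Cfsg.Agent.Lib.PowH

universe u

variable {G : Type u} [Group G] [Finite G] {p : ℕ} [hp : Fact p.Prime]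

theorem not_isPSolvable (cx : C3 p G) : ¬ IsPSolvable p G := by
  intro h
  have := cx.simple
  obtain ⟨M, hM, hlt, hor⟩ := PSolvTools.exists_step h (⊥ : Subgroup G) bot_ne_top
  have hMt : M = ⊤ := by
    rcases hM.eq_bot_or_eq_top with h | h
    · exact absurd h hlt.ne'
    · exact h
  rw [hMt, relIndex_bot_left, card_top] at hor
  rcases hor with ⟨k, hk⟩ | hc
  · have h1 : IsPGroup p (⊤ : Subgroup G) := by
      obtain ⟨j, -, hj⟩ := (Nat.dvd_prime_pow hp.out).1 hk
      exact IsPGroup.of_card (n := j) (by rw [card_top]; exact hj)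
    exact cx.ne_top_of_isPGroup h1 rfl
  · rw [Nat.coprime_comm, Nat.Prime.coprime_iff_not_dvd hp.out] at hc
    exact hc cx.dvd

theorem false_of_C3 (cx : C3 p G) : False := by
  classical
  obtain ⟨P⟩ : Nonempty (Sylow p G) := inferInstance
  by_cases hcyc : IsCyclic (P : Subgroup G)
  · apply not_isPSolvable cx
    rw [Cfsg.Agent.S1950.result P hcyc]
    intro x y _ _
    exact cx.psol _ (cx.two x y)
  · have hab : IsMulCommutative (P : Subgroup G) := by
      rw [← le_centralizer_iff_isMulCommutative]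
      exact cx.sylow_comm (isSyl_top_iff P)
    obtain ⟨r, x, y, hr, hx, hy, hx1, hxr, hyr, hyx⟩ := CoprimeGen.exists_rank_two hab hcyc
    have hrp : r = p := by
      have h1 : orderOf x = r := by
        have : Fact r.Prime := ⟨hr⟩
        exact orderOf_eq_prime hxr hx1
      obtain ⟨k, hk⟩ := P.2 ⟨x, hx⟩
      have hk' : x ^ p ^ k = 1 := by simpa using congrArg Subtype.val hk
      have h2 : r ∣ p ^ k := by rw [← h1]; exact orderOf_dvd_of_pow_eq_one hk'
      exact (Nat.prime_dvd_prime_iff_eq hr hp.out).1 (hr.dvd_of_dvd_pow h2)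
    subst hrp
    exact cx.false_of_rk (isSyl_top_iff P) ⟨hx, hy, hx1, hxr, hyr, hyx⟩

end Cfsg.Agent.Lib.PowJ
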