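import Cfsg.Agent.Lib.H92CTD8

set_option autoImplicit false
set_option linter.unusedSectionVars false
set_option linter.unusedSimpArgs false

/-!
Short presentations of `Ω⁺`: the data of type `D` obtained from a Weyl element (helper38).
-/

namespace Cfsg.Agent.Lib.PresO

open Matrix Cfsg.Agent.Lib.ClSL2 Cfsg.Agent.Lib.H92CT
open scoped MatrixGroups

variable {F : Type*} [Field F]

/-- the last but three index -/
abbrev io (m : ℕ) : Fin (m + 4) := (Fin.last m).castSucc.castSucc.castSucc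

theorem io_ne_iq (m : ℕ) : io m ≠ iq m := (Fin.castSucc_lt_last _).ne
theorem io_ne_ip (m : ℕ) : io m ≠ ip m := by
  intro h
  have h1 := Fin.castSucc_injective _ h
  exact (Fin.castSucc_lt_last _).ne h1
theorem io_ne_ir (m : ℕ) : io m ≠ ir m := by
  intro h
  have h1 := Fin.castSucc_injective _ (Fin.castSucc_injective _ h)
  exact (Fin.castSucc_lt_last _).ne h1

section gen
variable {n : ℕ}

theorem w_T_far {i j k l : Fin n} (hij : i ≠ j) (hkl : k ≠ l) (hki : k ≠ i) (hkj : k ≠ j) (hli : l ≠ i) (hlj : l ≠ j) (t : F) :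
    wT i j * T k l t * (wT i j)⁻¹ = (T k l t : SL(n, F)) := by
  have h1 : ∀ s : F, T i j s * T k l t = (T k l t * T i j s : SL(n, F)) := fun s => T_comm0 hij hkl hli.symm hkj.symm s t
  have h2 : ∀ s : F, T j i s * T k l t = (T k l t * T j i s : SL(n, F)) := fun s => T_comm0 hij.symm hkl hlj.symm hki.symm s t
  unfold wT
  rw [mul_assoc (T i j 1 * T j i (-1)), h1, ← mul_assoc (T i j 1 * T j i (-1)), mul_assoc (T i j 1), h2, ← mul_assoc (T i j 1), h1]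
  group

/-- the torus elements -/
def dT (i j : Fin n) (c : F) : SL(n, F) := nT i j c * nT i j (-1)

theorem dT_mulVec {i j : Fin n} (h : i ≠ j) {c : F} (hc : c ≠ 0) (v : Fin n → F) :
    ((dT i j c : SL(n, F)) : Matrix (Fin n) (Fin n) F) *ᵥ v = v + ((c - 1) * v i) • bv i + ((c⁻¹ - 1) * v j) • bv j := hT_mulVec h hc v

theorem tau_dT_mulVec {i j : Fin n} (h : i ≠ j) {c : F} (hc : c ≠ 0) (v : Fin n → F) :
    ((tau (dT i j c) : SL(n, F)) : Matrix (Fin n) (Fin n) F) *ᵥ v = v + ((c⁻¹ - 1) * v i) • bv i + ((c - 1) * v j) • bv j := by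
  unfold dT
  rw [map_mul, tau_nT h, tau_nT h, neg_neg, mul_mulVec, nT_mulVec h.symm (neg_ne_zero.mpr hc), nT_mulVec h.symm one_ne_zero]
  ext k
  simp only [Pi.add_apply, Pi.smul_apply, smul_eq_mul, bv_apply, h, h.symm, if_false, if_true, inv_one, inv_neg]
  split_ifs <;> field_simp <;> ring

/-- the diagonal entry of a torus element -/
def dE (i j : Fin n) (c : F) (k : Fin n) : F := if k = i then c else if k = j then c⁻¹ else 1

theorem dT_bv {i j : Fin n} (h : i ≠ j) {c : F} (hc : c ≠ 0) (k : Fin n) :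
    ((dT i j c : SL(n, F)) : Matrix (Fin n) (Fin n) F) *ᵥ bv k = dE i j c k • bv k := by
  rw [dT_mulVec h hc]
  ext l
  simp only [Pi.add_apply, Pi.smul_apply, smul_eq_mul, bv_apply, dE]
  by_cases h1 : k = i
  · subst h1
    simp only [h.symm, if_true, if_false]; split_ifs <;> ring
  · by_cases h2 : k = j
    · subst h2
      simp only [h, h1, if_true, if_false, Ne.symm h1]; split_ifs <;> ring
    · simp only [h1, h2, if_false, Ne.symm h1, Ne.symm h2]; ring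

theorem tau_dT_bv {i j : Fin n} (h : i ≠ j) {c : F} (hc : c ≠ 0) (k : Fin n) :
    ((tau (dT i j c) : SL(n, F)) : Matrix (Fin n) (Fin n) F) *ᵥ bv k = (dE i j c k)⁻¹ • bv k := by
  rw [tau_dT_mulVec h hc]
  ext l
  simp only [Pi.add_apply, Pi.smul_apply, smul_eq_mul, bv_apply, dE]
  by_cases h1 : k = i
  · subst h1
    simp only [h.symm, if_true, if_false]; split_ifs <;> ring
  · by_cases h2 : k = j
    · subst h2
      simp only [h, h1, if_true, if_false, Ne.symm h1, inv_inv]; split_ifs <;> ring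
    · simp only [h1, h2, if_false, Ne.symm h1, Ne.symm h2, inv_one]; ring

theorem dT_conj {i j : Fin n} (h : i ≠ j) {c : F} (hc : c ≠ 0) {k l : Fin n} (hkl : k ≠ l) (t : F) :
    dT i j c * T k l t * (dT i j c)⁻¹ = (T k l (dE i j c k * (dE i j c l)⁻¹ * t) : SL(n, F)) :=
  conj_T hkl hkl (dT_bv h hc k) (tau_dT_bv h hc l) t

theorem dE_ne_zero {i j : Fin n} {c : F} (hc : c ≠ 0) (k : Fin n) : dE i j c k ≠ 0 := by
  unfold dE; split_ifs
  · exact hc
  · exact inv_ne_zero hc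
  · exact one_ne_zero

end gen

/-- centralising pairs -/
theorem comm_iff {G : Type*} [Group G] {x y : G} : x * y = y * x ↔ x * y * x⁻¹ = y := by
  constructor
  · intro h; rw [h, mul_inv_cancel_right]
  · intro h; nth_rewrite 2 [← h]; group

/-- the data obtained from a Weyl element `s` of the root `e_iq + e_io` -/
structure OSys (m : ℕ) (F : Type*) [Field F] (G : Type*) [Group G] where
  Θ : SL(m + 4, F) →* G
  s : G
  c1 : ∀ t, Θ (T (iq m) (io m) t) * s = s * Θ (T (iq m) (io m) t)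
  c1' : ∀ t, Θ (T (io m) (iq m) t) * s = s * Θ (T (io m) (iq m) t)
  c2 : ∀ k l, k ≠ l → k ≠ io m → k ≠ iq m → l ≠ io m → l ≠ iq m → ∀ t, Θ (T k l t) * s = s * Θ (T k l t)
  r5 : s⁻¹ * (Θ (wT (ip m) (iq m)) * s * (Θ (wT (ip m) (iq m)))⁻¹) * s = (Θ (wT (ip m) (iq m)))⁻¹
  d1 : ∀ t, Θ (T (ip m) (iq m) t) * (s * Θ (T (ip m) (io m) 1) * s⁻¹) = (s * Θ (T (ip m) (io m) 1) * s⁻¹) * Θ (T (ip m) (iq m) t)
  d1' : ∀ t, Θ (T (iq m) (ip m) t) * (s * Θ (T (ip m) (io m) 1) * s⁻¹) = (s * Θ (T (ip m) (io m) 1) * s⁻¹) * Θ (T (iq m) (ip m) t)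
  d2 : ∀ k l, k ≠ l → k ≠ ip m → k ≠ iq m → l ≠ ip m → l ≠ iq m → ∀ t,
    Θ (T k l t) * (s * Θ (T (ip m) (io m) 1) * s⁻¹) = (s * Θ (T (ip m) (io m) 1) * s⁻¹) * Θ (T k l t)

namespace OSys
variable {m : ℕ} {G : Type*} [Group G] (S : OSys m F G)

theorem hom_comm {H : Type*} [Group H] {f : H →* G} {g h : H} {y : G} (hg : f g * y = y * f g) (hh : f h * y = y * f h) :
    f (g * h) * y = y * f (g * h) := by
  rw [map_mul, mul_assoc, hh, ← mul_assoc, hg, mul_assoc]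

/-- `s` commutes with the torus elements of its centraliser -/
theorem s_wT {k l : Fin (m + 4)} (hkl : k ≠ l) (h1 : k ≠ io m) (h2 : k ≠ iq m) (h3 : l ≠ io m) (h4 : l ≠ iq m) :
    S.Θ (wT k l) * S.s = S.s * S.Θ (wT k l) := by
  unfold wT
  exact hom_comm (hom_comm (S.c2 _ _ hkl h1 h2 h3 h4 _) (S.c2 _ _ hkl.symm h3 h4 h1 h2 _)) (S.c2 _ _ hkl h1 h2 h3 h4 _)

theorem s_nT {k l : Fin (m + 4)} (hkl : k ≠ l) (h1 : k ≠ io m) (h2 : k ≠ iq m) (h3 : l ≠ io m) (h4 : l ≠ iq m) (c : F) :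
    S.Θ (nT k l c) * S.s = S.s * S.Θ (nT k l c) := by
  unfold nT
  exact hom_comm (hom_comm (S.c2 _ _ hkl h1 h2 h3 h4 _) (S.c2 _ _ hkl.symm h3 h4 h1 h2 _)) (S.c2 _ _ hkl h1 h2 h3 h4 _)

theorem s_dT {k l : Fin (m + 4)} (hkl : k ≠ l) (h1 : k ≠ io m) (h2 : k ≠ iq m) (h3 : l ≠ io m) (h4 : l ≠ iq m) (c : F) :
    S.Θ (dT k l c) * S.s = S.s * S.Θ (dT k l c) := by
  unfold dT
  exact hom_comm (S.s_nT hkl h1 h2 h3 h4 _) (S.s_nT hkl h1 h2 h3 h4 _)

theorem s_wPQ : S.Θ (wT (iq m) (io m)) * S.s = S.s * S.Θ (wT (iq m) (io m)) := by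
  unfold wT
  exact hom_comm (hom_comm (S.c1 _) (S.c1' _)) (S.c1 _)

/-- the positive root elements -/
def ua (t : F) : G := S.s * S.Θ (T (ip m) (io m) t) * S.s⁻¹
/-- the negative root elements -/
def la (t : F) : G := S.s * S.Θ (T (io m) (ip m) t) * S.s⁻¹

theorem ua_conj {c : F} (hc : c ≠ 0) : S.Θ (dT (ip m) (ir m) c) * S.ua 1 * (S.Θ (dT (ip m) (ir m) c))⁻¹ = S.ua c := by
  have h1 := S.s_dT (ir_ne_ip m).symm (io_ne_ip m).symm (ip_ne_iq m) (io_ne_ir m).symm (ir_ne_iq m) c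
  have h2 := dT_conj (F := F) (ir_ne_ip m).symm hc (io_ne_ip m).symm 1
  have e1 : dE (ip m) (ir m) c (ip m) = c := by unfold dE; rw [if_pos rfl]
  have e2 : dE (ip m) (ir m) c (io m) = 1 := by unfold dE; rw [if_neg (io_ne_ip m), if_neg (io_ne_ir m)]
  rw [e1, e2, inv_one, mul_one, mul_one] at h2
  have h2' := congrArg S.Θ h2
  rw [map_mul, map_mul, map_inv] at h2'
  unfold ua
  set d := S.Θ (dT (ip m) (ir m) c)
  calc d * (S.s * S.Θ (T (ip m) (io m) 1) * S.s⁻¹) * d⁻¹ = (d * S.s) * S.Θ (T (ip m) (io m) 1) * (d * S.s)⁻¹ := by group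
    _ = S.s * (d * S.Θ (T (ip m) (io m) 1) * d⁻¹) * S.s⁻¹ := by rw [h1]; group
    _ = _ := by rw [h2']

/-- transport of a commuting relation by the torus -/
theorem ua_comm {k l : Fin (m + 4)} (hkl : k ≠ l) (h : ∀ t, S.Θ (T k l t) * S.ua 1 = S.ua 1 * S.Θ (T k l t)) (c t : F) :
    S.Θ (T k l t) * S.ua c = S.ua c * S.Θ (T k l t) := by
  by_cases hc : c = 0
  · subst hc
    unfold ua
    rw [T_zero (io_ne_ip m).symm, map_one, mul_one, mul_inv_cancel, mul_one, one_mul]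
  · have hne := (ir_ne_ip m).symm
    set a := dE (ip m) (ir m) c k * (dE (ip m) (ir m) c l)⁻¹
    have ha : a ≠ 0 := mul_ne_zero (dE_ne_zero hc _) (inv_ne_zero (dE_ne_zero hc _))
    have h1 : dT (ip m) (ir m) c * T k l (a⁻¹ * t) * (dT (ip m) (ir m) c)⁻¹ = (T k l t : SL(m + 4, F)) := by
      rw [dT_conj hne hc hkl]
      congr 1
      change a * (a⁻¹ * t) = t
      field_simp
    rw [← h1, ← S.ua_conj hc, map_mul, map_mul, map_inv]
    have h2 := h (a⁻¹ * t)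
    set d := S.Θ (dT (ip m) (ir m) c)
    calc d * S.Θ (T k l (a⁻¹ * t)) * d⁻¹ * (d * S.ua 1 * d⁻¹) = d * (S.Θ (T k l (a⁻¹ * t)) * S.ua 1) * d⁻¹ := by group
      _ = _ := by rw [h2]; group

/-- the Weyl element of the extra node -/
theorem wA : S.s * S.Θ (wT (ip m) (io m)) * S.s⁻¹ = (S.Θ (wT (ip m) (io m)))⁻¹ * S.s * S.Θ (wT (ip m) (io m)) := by
  have hPQ := (io_ne_iq m).symm
  have h0 : wT (iq m) (io m) * wT (ip m) (iq m) * (wT (iq m) (io m))⁻¹ = ((wT (ip m) (io m))⁻¹ : SL(m + 4, F)) := by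
    have e1 := w_T_right' (F := F) (i := iq m) (j := io m) (k := ip m) hPQ (ip_ne_iq m).symm (io_ne_ip m) 1
    have e2 := w_T_left' (F := F) (i := iq m) (j := io m) (k := ip m) hPQ (ip_ne_iq m).symm (io_ne_ip m) (-1)
    set w := (wT (iq m) (io m) : SL(m + 4, F))
    unfold wT
    rw [_root_.mul_inv_rev, _root_.mul_inv_rev, ← T_neg (io_ne_ip m).symm, ← T_neg (io_ne_ip m), ← mul_assoc (T (ip m) (io m) (-1))]
    calc w * (T (ip m) (iq m) 1 * T (iq m) (ip m) (-1) * T (ip m) (iq m) 1) * w⁻¹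
        = (w * T (ip m) (iq m) 1 * w⁻¹) * (w * T (iq m) (ip m) (-1) * w⁻¹) * (w * T (ip m) (iq m) 1 * w⁻¹) := by group
      _ = _ := by rw [e1, e2]
  have h0' := congrArg S.Θ h0
  rw [map_mul, map_mul, map_inv, map_inv] at h0'
  have h1 := S.s_wPQ
  have h2 := S.r5
  set V := S.Θ (wT (iq m) (io m))
  set W := S.Θ (wT (ip m) (iq m))
  set X := S.Θ (wT (ip m) (io m))
  set s := S.s
  have h3 : W * s * W⁻¹ = s * W⁻¹ * s⁻¹ := by
    have h2' := congrArg (fun z => s * z * s⁻¹) h2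
    rw [← h2']; group
  have h4 : V * s * V⁻¹ = s := by rw [h1]; group
  have h5 : X⁻¹ * s * X = s * X * s⁻¹ := by
    have : X = V * W⁻¹ * V⁻¹ := by
      rw [← inv_inv X, ← h0']; group
    calc X⁻¹ * s * X = V * (W * (V⁻¹ * s * V) * W⁻¹) * V⁻¹ := by rw [this]; group
      _ = V * (W * s * W⁻¹) * V⁻¹ := by
          have : V⁻¹ * s * V = s := by nth_rewrite 1 [← h4]; group
          rw [this]
      _ = (V * s * V⁻¹) * (V * W⁻¹ * V⁻¹) * (V * s * V⁻¹)⁻¹ := by rw [h3]; group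
      _ = s * X * s⁻¹ := by rw [h4, ← this]
  exact h5.symm

theorem la_eq (t : F) : S.la t = (S.Θ (wT (ip m) (io m)))⁻¹ * S.s * S.Θ (wT (ip m) (io m)) * S.ua (-t) *
    ((S.Θ (wT (ip m) (io m)))⁻¹ * S.s * S.Θ (wT (ip m) (io m)))⁻¹ := by
  rw [← wA]
  have hne := (io_ne_ip m).symm
  have h1 : wT (ip m) (io m) * T (ip m) (io m) (-t) * (wT (ip m) (io m))⁻¹ = (T (io m) (ip m) t : SL(m + 4, F)) := by
    have := conj_T (F := F) (g := wT (ip m) (io m)) (k := ip m) (l := io m) (k' := io m) (l' := ip m) (c := -1) (d := 1) hne hne.symm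
      (wT_bv_left hne) (by rw [tau_wT hne, wT_bv_right hne, one_smul]) (-t)
    rw [this]; congr 1; ring
  have h1' := congrArg S.Θ h1
  rw [map_mul, map_mul, map_inv] at h1'
  unfold la ua
  rw [← h1']; group

/-- the subgroup commuting with the Weyl element of the extra node -/
theorem wA_comm {k l : Fin (m + 4)} (hkl : k ≠ l) (h : (k = ip m ∧ l = iq m) ∨ (k = iq m ∧ l = ip m) ∨
    (k ≠ ip m ∧ k ≠ iq m ∧ l ≠ ip m ∧ l ≠ iq m)) (t : F) :
    S.Θ (T k l t) * ((S.Θ (wT (ip m) (io m)))⁻¹ * S.s * S.Θ (wT (ip m) (io m))) =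
      ((S.Θ (wT (ip m) (io m)))⁻¹ * S.s * S.Θ (wT (ip m) (io m))) * S.Θ (T k l t) := by
  have hRQ := (io_ne_ip m).symm
  have hRP := ip_ne_iq m
  have hQP := io_ne_iq m
  obtain ⟨k', l', t', h1, h2⟩ : ∃ k' l' : Fin (m + 4), ∃ t' : F, wT (ip m) (io m) * T k l t * (wT (ip m) (io m))⁻¹ =
      (T k' l' t' : SL(m + 4, F)) ∧ S.Θ (T k' l' t') * S.s = S.s * S.Θ (T k' l' t') := by
    rcases h with ⟨rfl, rfl⟩ | ⟨rfl, rfl⟩ | ⟨h1, h2, h3, h4⟩
    · exact ⟨_, _, _, w_T_left' hRQ hRP hQP t, S.c1' _⟩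
    · exact ⟨_, _, _, w_T_right' hRQ hRP hQP t, S.c1 _⟩
    · by_cases hk : k = io m
      · subst hk
        exact ⟨_, _, _, w_T_left hRQ (Ne.symm h3) hkl t, S.c2 _ _ (Ne.symm h3) hRQ hRP hkl.symm h4 _⟩
      · by_cases hl : l = io m
        · subst hl
          exact ⟨_, _, _, w_T_right hRQ (Ne.symm h1) hkl.symm t, S.c2 _ _ h1 hkl h2 hRQ hRP _⟩
        · exact ⟨_, _, _, w_T_far hRQ hkl h1 hk h3 hl t, S.c2 _ _ hkl hk h2 hl h4 _⟩
  have h1' := congrArg S.Θ h1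
  rw [map_mul, map_mul, map_inv] at h1'
  rw [← h1'] at h2
  set X := S.Θ (wT (ip m) (io m))
  calc S.Θ (T k l t) * (X⁻¹ * S.s * X) = X⁻¹ * (X * S.Θ (T k l t) * X⁻¹ * S.s) * X := by group
    _ = _ := by rw [h2]; group

theorem la_comm {k l : Fin (m + 4)} (hkl : k ≠ l) (h : (k = ip m ∧ l = iq m) ∨ (k = iq m ∧ l = ip m) ∨
    (k ≠ ip m ∧ k ≠ iq m ∧ l ≠ ip m ∧ l ≠ iq m)) (h' : ∀ t c, S.Θ (T k l t) * S.ua c = S.ua c * S.Θ (T k l t)) (c t : F) :
    S.Θ (T k l t) * S.la c = S.la c * S.Θ (T k l t) := by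
  rw [la_eq]
  have h1 := S.wA_comm hkl h t
  have h2 := h' t (-c)
  set w := (S.Θ (wT (ip m) (io m)))⁻¹ * S.s * S.Θ (wT (ip m) (io m))
  calc S.Θ (T k l t) * (w * S.ua (-c) * w⁻¹) = (S.Θ (T k l t) * w) * S.ua (-c) * w⁻¹ := by group
    _ = w * (S.Θ (T k l t) * S.ua (-c)) * w⁻¹ := by rw [h1]; group
    _ = w * S.ua (-c) * (S.Θ (T k l t) * w⁻¹) := by rw [h2]; group
    _ = _ := by
        have : S.Θ (T k l t) * w⁻¹ = w⁻¹ * S.Θ (T k l t) := by
          calc S.Θ (T k l t) * w⁻¹ = w⁻¹ * (w * S.Θ (T k l t)) * w⁻¹ := by group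
            _ = _ := by rw [← h1]; group
        rw [this]; group

theorem ua_all {k l : Fin (m + 4)} (hkl : k ≠ l) (h : (k = ip m ∧ l = iq m) ∨ (k = iq m ∧ l = ip m) ∨
    (k ≠ ip m ∧ k ≠ iq m ∧ l ≠ ip m ∧ l ≠ iq m)) (t c : F) : S.Θ (T k l t) * S.ua c = S.ua c * S.Θ (T k l t) := by
  refine S.ua_comm hkl (fun t => ?_) c t
  rcases h with ⟨rfl, rfl⟩ | ⟨rfl, rfl⟩ | ⟨h1, h2, h3, h4⟩
  · exact S.d1 t
  · exact S.d1' t
  · exact S.d2 _ _ hkl h1 h2 h3 h4 t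

/-- the data of type `D` -/
theorem exists_D [Finite F] : ∃ D : DSys m F G, D.Θ = S.Θ ∧ (∀ t, D.A (uS t) = S.ua t) ∧ (∀ t, D.A (lS t) = S.la t) := by
  let f : Fin 3 → Fin (m + 4) := ![ir m, ip m, io m]
  have hf : ∀ i j, i ≠ j → f i ≠ f j := by
    intro i j hij
    fin_cases i <;> fin_cases j
    · exact absurd rfl hij
    · exact ir_ne_ip m
    · exact (io_ne_ir m).symm
    · exact (ir_ne_ip m).symm
    · exact absurd rfl hij
    · exact (io_ne_ip m).symm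
    · exact io_ne_ir m
    · exact io_ne_ip m
    · exact absurd rfl hij
  obtain ⟨ψ, hψ⟩ := hom_of_St0 (F := F) (G := G) (n := 3) le_rfl (x := fun i j t => S.s * S.Θ (T (f i) (f j) t) * S.s⁻¹)
    { add := fun i j hij s t => by
        rw [T_add (hf i j hij), map_mul]; group
      comm1 := fun i j k hij hjk hik s t => by
        have h := congrArg S.Θ (T_comm1 (F := F) (hf i j hij) (hf j k hjk) (hf i k hik) s t)
        rw [map_mul, map_mul, map_mul] at h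
        calc _ = S.s * (S.Θ (T (f i) (f j) s) * S.Θ (T (f j) (f k) t)) * S.s⁻¹ := by group
          _ = _ := by rw [h]; group
      comm0 := fun i j k l hij hkl hil hjk s t => by
        have h := congrArg S.Θ (T_comm0 (F := F) (hf i j hij) (hf k l hkl) (hf i l hil) (hf j k hjk) s t)
        rw [map_mul, map_mul] at h
        calc _ = S.s * (S.Θ (T (f i) (f j) s) * S.Θ (T (f k) (f l) t)) * S.s⁻¹ := by group
          _ = _ := by rw [h]; group }
  have hA1 : ∀ t, ψ (i23 (uS t)) = S.ua t := fun t => by rw [← T12, hψ 1 2 (by decide)]; rfl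
  have hA2 : ∀ t, ψ (i23 (lS t)) = S.la t := fun t => by rw [← T21, hψ 2 1 (by decide)]; rfl
  have hcomm : ∀ {k l : Fin (m + 4)} (hkl : k ≠ l) (h : (k = ip m ∧ l = iq m) ∨ (k = iq m ∧ l = ip m) ∨
      (k ≠ ip m ∧ k ≠ iq m ∧ l ≠ ip m ∧ l ≠ iq m)) (t : F) (g : SL(2, F)), S.Θ (T k l t) * ψ (i23 g) = ψ (i23 g) * S.Θ (T k l t) := by
    intro k l hkl h t g
    have h1 : cent (ψ.comp i23) (S.Θ (T k l t)) = ⊤ := by
      apply eq_top_of_uS_lS
      · intro b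
        rw [mem_cent]
        change ψ (i23 (uS b)) * _ = _ * ψ (i23 (uS b))
        rw [hA1, S.ua_all hkl h]
      · intro b
        rw [mem_cent]
        change ψ (i23 (lS b)) * _ = _ * ψ (i23 (lS b))
        rw [hA2, S.la_comm hkl h (fun t c => S.ua_all hkl h t c)]
    have h2 : g ∈ cent (ψ.comp i23) (S.Θ (T k l t)) := by rw [h1]; trivial
    exact (mem_cent.mp h2).symm
  refine ⟨{ Θ := S.Θ, A := ψ.comp i23, ψ := ψ, hu := fun t => ?_, hl := fun t => ?_, hA := fun g => rfl, comm := ?_, cpq := fun t g => ?_,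
            cqp := fun t g => ?_ }, rfl, hA1, hA2⟩
  · rw [← T01, hψ 0 1 (by decide)]
    change S.s * S.Θ (T (ir m) (ip m) t) * S.s⁻¹ = _
    rw [← S.c2 _ _ (ir_ne_ip m) (io_ne_ir m).symm (ir_ne_iq m) (io_ne_ip m).symm (ip_ne_iq m), mul_inv_cancel_right]
  · rw [← T10, hψ 1 0 (by decide)]
    change S.s * S.Θ (T (ip m) (ir m) t) * S.s⁻¹ = _
    rw [← S.c2 _ _ (ir_ne_ip m).symm (io_ne_ip m).symm (ip_ne_iq m) (io_ne_ir m).symm (ir_ne_iq m), mul_inv_cancel_right]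
  · intro k l hkl h1 h2 h3 h4 t g
    exact hcomm hkl (Or.inr (Or.inr ⟨h1, h2, h3, h4⟩)) t g
  · exact hcomm (ip_ne_iq m) (Or.inl ⟨rfl, rfl⟩) t g
  · exact hcomm (ip_ne_iq m).symm (Or.inr (Or.inl ⟨rfl, rfl⟩)) t g

end OSys

end Cfsg.Agent.Lib.PresO
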