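import Mathlib

set_option autoImplicit false
set_option linter.unusedSectionVars false

/-!
Short presentations of `Ω⁺`: the Weyl group of type `D` (helper38).
-/

namespace Cfsg.Agent.Lib.PresO

section weylD
variable {n : ℕ} {N : Type*} [Group N] (τ : Equiv.Perm (Fin n) →* N) (r : N) (R P J : Fin n)

/-- hypotheses: a Weyl group of type `D` over the symmetric group -/
structure WD : Prop where
  hRP : R ≠ P
  hRJ : R ≠ J
  hPJ : P ≠ J
  sq : r * r = 1
  c1 : τ (Equiv.swap R P) * r = r * τ (Equiv.swap R P)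
  c2 : ∀ k l, k ≠ l → k ≠ R → k ≠ P → l ≠ R → l ≠ P → τ (Equiv.swap k l) * r = r * τ (Equiv.swap k l)
  br : r * τ (Equiv.swap J R) * r = τ (Equiv.swap J R) * r * τ (Equiv.swap J R)

variable {τ r R P J}

namespace WD
variable (h : WD τ r R P J)
include h

theorem fix_comm (σ : Equiv.Perm (Fin n)) (h1 : σ R = R) (h2 : σ P = P) : τ σ * r = r * τ σ := by
  classical
  let p : Fin n → Prop := fun x => x ≠ R ∧ x ≠ P
  have hp : ∀ x, p (σ x) ↔ p x := by
    intro x
    have e1 : σ x = R ↔ x = R := ⟨fun hx => σ.injective (hx.trans h1.symm), fun hx => by rw [hx, h1]⟩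
    have e2 : σ x = P ↔ x = P := ⟨fun hx => σ.injective (hx.trans h2.symm), fun hx => by rw [hx, h2]⟩
    simp only [p, ne_eq, e1, e2]
  have hs : ∀ x, σ x ≠ x → p x := by
    intro x hx
    constructor
    · rintro rfl; exact hx h1
    · rintro rfl; exact hx h2
  let C : Subgroup N := Subgroup.centralizer {r}
  have hC : ∀ x : N, x ∈ C ↔ x * r = r * x := by
    intro x
    rw [Subgroup.mem_centralizer_iff]
    constructor
    · intro hx; exact (hx r rfl).symm
    · rintro hx y rfl; exact hx.symm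
  have key : ∀ ρ : Equiv.Perm {x // p x}, (Equiv.Perm.ofSubtype ρ : Equiv.Perm (Fin n)) ∈ C.comap τ := by
    intro ρ
    have h3 : (C.comap τ).comap (Equiv.Perm.ofSubtype (p := p)) = ⊤ := by
      rw [eq_top_iff, ← Equiv.Perm.closure_isSwap, Subgroup.closure_le]
      rintro _ ⟨x, y, hxy, rfl⟩
      rw [SetLike.mem_coe, Subgroup.mem_comap, Equiv.Perm.ofSubtype_swap_eq, Subgroup.mem_comap, hC]
      exact h.c2 _ _ (fun h4 => hxy (Subtype.ext h4)) x.2.1 x.2.2 y.2.1 y.2.2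
    have h4 : ρ ∈ (C.comap τ).comap (Equiv.Perm.ofSubtype (p := p)) := by rw [h3]; trivial
    exact h4
  have h5 := key (σ.subtypePerm hp)
  rw [Equiv.Perm.ofSubtype_subtypePerm hp hs] at h5
  exact (hC _).mp h5

/-- the sign changes for a pair -/
def ee (_ : WD τ r R P J) : N := τ (Equiv.swap R P) * r

theorem tt (i j : Fin n) : τ (Equiv.swap i j) * τ (Equiv.swap i j) = 1 := by rw [← map_mul, Equiv.swap_mul_self, map_one]

theorem ee_sq : h.ee * h.ee = 1 := by
  unfold ee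
  calc τ (Equiv.swap R P) * r * (τ (Equiv.swap R P) * r) = (τ (Equiv.swap R P) * r) * (r * τ (Equiv.swap R P)) := by rw [h.c1]
    _ = τ (Equiv.swap R P) * (r * r) * τ (Equiv.swap R P) := by group
    _ = 1 := by rw [h.sq, mul_one, h.tt]

/-- `ee` commutes with the setwise stabiliser -/
theorem ee_fix (σ : Equiv.Perm (Fin n)) (h1 : σ R = R) (h2 : σ P = P) : τ σ * h.ee = h.ee * τ σ := by
  have h3 := h.fix_comm σ h1 h2
  have h4 : σ * Equiv.swap R P = Equiv.swap R P * σ := by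
    have := Equiv.mul_swap_eq_swap_mul σ R P
    rw [this, h1, h2]
  unfold ee
  rw [← mul_assoc, ← map_mul, h4, map_mul, mul_assoc, h3, mul_assoc]

theorem ee_swap : τ (Equiv.swap R P) * h.ee = h.ee * τ (Equiv.swap R P) := by
  unfold ee
  rw [mul_assoc, ← h.c1]

/-- transport -/
theorem ee_conj {σ σ' : Equiv.Perm (Fin n)} (h1 : σ R = σ' R) (h2 : σ P = σ' P) :
    τ σ * h.ee * (τ σ)⁻¹ = τ σ' * h.ee * (τ σ')⁻¹ := by
  have h3 := h.ee_fix (σ'⁻¹ * σ) (by simp [h1]) (by simp [h2])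
  rw [map_mul, map_inv] at h3
  calc τ σ * h.ee * (τ σ)⁻¹ = τ σ' * ((τ σ')⁻¹ * τ σ * h.ee) * (τ σ)⁻¹ := by group
    _ = _ := by rw [h3]; group

theorem ee_conj' {σ σ' : Equiv.Perm (Fin n)} (h1 : σ R = σ' P) (h2 : σ P = σ' R) :
    τ σ * h.ee * (τ σ)⁻¹ = τ σ' * h.ee * (τ σ')⁻¹ := by
  rw [h.ee_conj (σ' := σ' * Equiv.swap R P) (by simp [h1]) (by simp [h2]), map_mul]
  have := h.ee_swap
  calc τ σ' * τ (Equiv.swap R P) * h.ee * (τ σ' * τ (Equiv.swap R P))⁻¹ = τ σ' * (τ (Equiv.swap R P) * h.ee) * (τ σ' * τ (Equiv.swap R P))⁻¹ := by group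
    _ = _ := by rw [this]; group

open Classical in
/-- sign changes for a pair `{i, j}` -/
noncomputable def ep (h : WD τ r R P J) (i j : Fin n) : N :=
  if h' : ∃ σ : Equiv.Perm (Fin n), σ R = i ∧ σ P = j then τ h'.choose * h.ee * (τ h'.choose)⁻¹ else 1

theorem ep_eq {σ : Equiv.Perm (Fin n)} {i j : Fin n} (h1 : σ R = i) (h2 : σ P = j) : h.ep i j = τ σ * h.ee * (τ σ)⁻¹ := by
  have h' : ∃ σ : Equiv.Perm (Fin n), σ R = i ∧ σ P = j := ⟨σ, h1, h2⟩
  unfold ep
  rw [dif_pos h']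
  exact h.ee_conj (h'.choose_spec.1.trans h1.symm) (h'.choose_spec.2.trans h2.symm)

theorem exists_perm3 {i j k : Fin n} (hij : i ≠ j) (hik : i ≠ k) (hjk : j ≠ k) : ∃ σ : Equiv.Perm (Fin n), σ R = i ∧ σ P = j ∧ σ J = k := by
  let x : Fin 3 ↪ Fin n := ⟨![R, P, J], by
    have h1 := h.hRP
    have h2 := h.hRJ
    have h3 := h.hPJ
    intro a b hab
    fin_cases a <;> fin_cases b <;> simp_all⟩
  let y : Fin 3 ↪ Fin n := ⟨![i, j, k], by
    intro a b hab
    fin_cases a <;> fin_cases b <;> simp_all⟩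
  haveI : MulAction.IsMultiplyPretransitive (Equiv.Perm (Fin n)) (Fin n) 3 := Equiv.Perm.isMultiplyPretransitive _ _
  obtain ⟨σ, hσ⟩ := MulAction.exists_smul_eq (M := Equiv.Perm (Fin n)) x y
  refine ⟨σ, ?_, ?_, ?_⟩
  · have := DFunLike.congr_fun hσ 0
    exact this
  · have := DFunLike.congr_fun hσ 1
    exact this
  · have := DFunLike.congr_fun hσ 2
    exact this

theorem exists_perm2 {i j : Fin n} (hij : i ≠ j) : ∃ σ : Equiv.Perm (Fin n), σ R = i ∧ σ P = j := by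
  let x : Fin 2 ↪ Fin n := ⟨![R, P], by
    have h1 := h.hRP
    intro a b hab
    fin_cases a <;> fin_cases b <;> simp_all⟩
  let y : Fin 2 ↪ Fin n := ⟨![i, j], by
    intro a b hab
    fin_cases a <;> fin_cases b <;> simp_all⟩
  haveI : MulAction.IsMultiplyPretransitive (Equiv.Perm (Fin n)) (Fin n) 2 := Equiv.Perm.isMultiplyPretransitive _ _
  obtain ⟨σ, hσ⟩ := MulAction.exists_smul_eq (M := Equiv.Perm (Fin n)) x y
  refine ⟨σ, ?_, ?_⟩
  · have := DFunLike.congr_fun hσ 0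
    exact this
  · have := DFunLike.congr_fun hσ 1
    exact this

theorem ep_act (σ : Equiv.Perm (Fin n)) {i j : Fin n} (hij : i ≠ j) : τ σ * h.ep i j * (τ σ)⁻¹ = h.ep (σ i) (σ j) := by
  obtain ⟨ρ, rfl, rfl⟩ := h.exists_perm2 hij
  rw [h.ep_eq (σ := ρ) rfl rfl, h.ep_eq (i := σ (ρ R)) (j := σ (ρ P)) (σ := σ * ρ) rfl rfl, map_mul]; group

theorem ep_symm {i j : Fin n} (hij : i ≠ j) : h.ep i j = h.ep j i := by
  obtain ⟨ρ, rfl, rfl⟩ := h.exists_perm2 hij
  rw [h.ep_eq (σ := ρ) rfl rfl, h.ep_eq (i := ρ P) (j := ρ R) (σ := ρ * Equiv.swap R P) (by simp) (by simp)]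
  exact h.ee_conj' (by simp) (by simp)

theorem ep_sq {i j : Fin n} (hij : i ≠ j) : h.ep i j * h.ep i j = 1 := by
  obtain ⟨ρ, rfl, rfl⟩ := h.exists_perm2 hij
  rw [h.ep_eq (σ := ρ) rfl rfl]
  have := h.ee_sq
  calc τ ρ * h.ee * (τ ρ)⁻¹ * (τ ρ * h.ee * (τ ρ)⁻¹) = τ ρ * (h.ee * h.ee) * (τ ρ)⁻¹ := by group
    _ = 1 := by rw [this]; group

theorem ep_base : h.ep J P * h.ep R P = h.ep R J := by
  have e1 : h.ep R P = h.ee := by
    rw [h.ep_eq (i := R) (j := P) (σ := 1) rfl rfl, map_one]; group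
  have e2 : h.ep J P = τ (Equiv.swap J R) * h.ee * τ (Equiv.swap J R) := by
    rw [h.ep_eq (σ := Equiv.swap J R) (by simp) (Equiv.swap_apply_of_ne_of_ne h.hPJ h.hRP.symm)]
    congr 1
    rw [inv_eq_iff_mul_eq_one]; exact h.tt _ _
  have e3 : h.ep R J = τ (Equiv.swap P J) * h.ee * τ (Equiv.swap P J) := by
    rw [h.ep_eq (σ := Equiv.swap P J) (Equiv.swap_apply_of_ne_of_ne h.hRP h.hRJ) (by simp)]
    congr 1
    rw [inv_eq_iff_mul_eq_one]; exact h.tt _ _
  have aba : Equiv.swap J R * Equiv.swap R P * Equiv.swap J R = Equiv.swap P J := by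
    have := Equiv.mul_swap_eq_swap_mul (Equiv.swap J R) R P
    rw [this, Equiv.swap_apply_right, Equiv.swap_apply_of_ne_of_ne h.hPJ h.hRP.symm, mul_assoc, Equiv.swap_mul_self, mul_one, Equiv.swap_comm]
  have bab : Equiv.swap R P * Equiv.swap J R * Equiv.swap R P = Equiv.swap P J := by
    have := Equiv.mul_swap_eq_swap_mul (Equiv.swap R P) J R
    rw [this, Equiv.swap_apply_left, Equiv.swap_apply_of_ne_of_ne h.hRJ.symm h.hPJ.symm, mul_assoc, Equiv.swap_mul_self, mul_one, Equiv.swap_comm]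
  have taba := congrArg τ aba
  have tbab := congrArg τ bab
  rw [map_mul, map_mul] at taba tbab
  rw [e1, e2, e3]
  unfold ee
  have hbr := h.br
  have hc1 := h.c1
  have ha := h.tt J R
  have hb := h.tt R P
  set a := τ (Equiv.swap J R)
  set b := τ (Equiv.swap R P)
  set c := τ (Equiv.swap P J)
  calc a * (b * r) * a * (b * r) = a * b * (r * a * (b * r)) := by group
    _ = a * b * (r * a * r) * b := by rw [hc1]; group
    _ = (a * b * a) * r * (a * b) := by rw [hbr]; group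
    _ = c * r * (a * b) := by rw [taba]
    _ = c * b * (b * r * (a * b)) := by
        calc c * r * (a * b) = c * (b * b) * r * (a * b) := by rw [hb, mul_one]
          _ = _ := by group
    _ = c * b * (r * (b * a * b)) := by rw [hc1]; group
    _ = c * (b * r) * c := by rw [tbab]; group

theorem ep_triple {i j k : Fin n} (hij : i ≠ j) (hik : i ≠ k) (hjk : j ≠ k) : h.ep i k * h.ep j k = h.ep i j := by
  obtain ⟨σ, h1, h2, h3⟩ := h.exists_perm3 hjk hij.symm hik.symm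
  -- σ R = j, σ P = k, σ J = i
  have e := h.ep_base
  have e1 := h.ep_act σ (h.hPJ.symm)
  have e2 := h.ep_act σ (h.hRP)
  have e3 := h.ep_act σ (h.hRJ)
  rw [h3, h2] at e1
  rw [h1, h2] at e2
  rw [h1, h3] at e3
  rw [h.ep_symm hij, ← e1, ← e2, ← e3, ← e]; group

theorem ep_comm {i j k : Fin n} (hik : i ≠ k) (hjk : j ≠ k) : Commute (h.ep i k) (h.ep j k) := by
  by_cases hij : i = j
  · subst hij; exact Commute.refl _
  · have h1 := h.ep_triple hij hik hjk
    have h2 := h.ep_triple (Ne.symm hij) hjk hik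
    have h3 := h.ep_symm hij
    change h.ep i k * h.ep j k = h.ep j k * h.ep i k
    rw [h1, h2, h3]

/-- the sign change subgroup -/
def VV (h : WD τ r R P J) : Subgroup N := Subgroup.closure {x | ∃ i, i ≠ P ∧ x = h.ep i P}

theorem ep_mem {i j : Fin n} (hij : i ≠ j) : h.ep i j ∈ h.VV := by
  by_cases h1 : j = P
  · subst h1; exact Subgroup.subset_closure ⟨i, hij, rfl⟩
  · by_cases h2 : i = P
    · subst h2; rw [h.ep_symm hij]; exact Subgroup.subset_closure ⟨j, hij.symm, rfl⟩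
    · rw [← h.ep_triple hij h2 h1]
      exact mul_mem (Subgroup.subset_closure ⟨i, h2, rfl⟩) (Subgroup.subset_closure ⟨j, h1, rfl⟩)

theorem VV_conj (σ : Equiv.Perm (Fin n)) {x : N} (hx : x ∈ h.VV) : τ σ * x * (τ σ)⁻¹ ∈ h.VV := by
  have h1 : h.VV ≤ h.VV.comap (MulAut.conj (τ σ)).toMonoidHom := by
    conv_lhs => unfold VV
    rw [Subgroup.closure_le]
    rintro _ ⟨i, hi, rfl⟩
    change τ σ * h.ep i P * (τ σ)⁻¹ ∈ h.VV
    rw [h.ep_act σ hi]
    exact h.ep_mem (fun h2 => hi (σ.injective h2))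
  exact h1 hx

theorem VV_list {x : N} (hx : x ∈ h.VV) : ∃ l : List (Fin n), l.Nodup ∧ P ∉ l ∧ x = (l.map (fun i => h.ep i P)).prod := by
  have toggle : ∀ i, i ≠ P → ∀ x : N, (∃ l : List (Fin n), l.Nodup ∧ P ∉ l ∧ x = (l.map (fun i => h.ep i P)).prod) →
      ∃ l : List (Fin n), l.Nodup ∧ P ∉ l ∧ h.ep i P * x = (l.map (fun i => h.ep i P)).prod := by
    rintro i hi _ ⟨l, h1, h2, rfl⟩
    by_cases hl : i ∈ l
    · refine ⟨l.erase i, h1.erase i, fun h3 => h2 (List.mem_of_mem_erase h3), ?_⟩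
      have h4 := List.perm_cons_erase hl
      have h5 : (l.map (fun i => h.ep i P)).prod = ((i :: l.erase i).map (fun i => h.ep i P)).prod := by
        refine (h4.map _).prod_eq' ?_
        have h6 : l.Pairwise fun a b => Commute (h.ep a P) (h.ep b P) :=
          List.Pairwise.imp_of_mem (R := fun _ _ => True) (fun {a b} ha hb _ =>
            h.ep_comm (fun h7 => h2 (h7 ▸ ha)) (fun h7 => h2 (h7 ▸ hb))) (List.pairwise_of_forall (fun _ _ => trivial))
        exact List.pairwise_map.mpr h6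
      rw [h5, List.map_cons, List.prod_cons, ← mul_assoc, h.ep_sq hi, one_mul]
    · refine ⟨i :: l, List.nodup_cons.mpr ⟨hl, h1⟩, ?_, ?_⟩
      · rw [List.mem_cons]
        rintro (h3 | h3)
        · exact hi h3.symm
        · exact h2 h3
      · rw [List.map_cons, List.prod_cons]
  unfold VV at hx
  refine Subgroup.closure_induction_left ⟨[], List.nodup_nil, by simp, by simp⟩ ?_ ?_ hx
  · rintro _ ⟨i, hi, rfl⟩ y _ hy
    exact toggle i hi y hy
  · rintro _ ⟨i, hi, rfl⟩ y _ hy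
    have : (h.ep i P)⁻¹ = h.ep i P := by rw [inv_eq_iff_mul_eq_one]; exact h.ep_sq hi
    rw [this]
    exact toggle i hi y hy

/-- the normal form -/
theorem normal_form {x : N} (hx : x ∈ Subgroup.closure (Set.range τ ∪ {r})) :
    ∃ l : List (Fin n), l.Nodup ∧ P ∉ l ∧ ∃ σ, x = (l.map (fun i => h.ep i P)).prod * τ σ := by
  let K : Subgroup N :=
    { carrier := {x | ∃ v ∈ h.VV, ∃ σ, x = v * τ σ}
      one_mem' := ⟨1, one_mem _, 1, by rw [map_one, mul_one]⟩
      mul_mem' := by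
        rintro _ _ ⟨v, hv, σ, rfl⟩ ⟨v', hv', σ', rfl⟩
        exact ⟨v * (τ σ * v' * (τ σ)⁻¹), mul_mem hv (h.VV_conj σ hv'), σ * σ', by rw [map_mul]; group⟩
      inv_mem' := by
        rintro _ ⟨v, hv, σ, rfl⟩
        exact ⟨τ σ⁻¹ * v⁻¹ * (τ σ⁻¹)⁻¹, h.VV_conj _ (inv_mem hv), σ⁻¹, by rw [map_inv]; group⟩ }
  have h1 : Subgroup.closure (Set.range τ ∪ {r}) ≤ K := by
    rw [Subgroup.closure_le]
    rintro y (⟨σ, rfl⟩ | rfl)
    · exact ⟨1, one_mem _, σ, by rw [one_mul]⟩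
    · refine ⟨h.ep R P, h.ep_mem h.hRP, Equiv.swap R P, ?_⟩
      have e1 : h.ep R P = h.ee := by
        rw [h.ep_eq (i := R) (j := P) (σ := 1) rfl rfl, map_one]; group
      rw [e1]
      unfold ee
      rw [h.c1, mul_assoc, h.tt, mul_one]
  obtain ⟨v, hv, σ, rfl⟩ := h1 hx
  obtain ⟨l, h2, h3, rfl⟩ := h.VV_list hv
  exact ⟨l, h2, h3, σ, rfl⟩

/-- a concrete representative of the sign changes -/
theorem ep_P {i : Fin n} (hi : i ≠ P) : h.ep i P = τ (Equiv.swap i R) * (τ (Equiv.swap R P) * r) * (τ (Equiv.swap i R))⁻¹ :=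
  h.ep_eq (by simp) (Equiv.swap_apply_of_ne_of_ne (Ne.symm hi) h.hRP.symm)

end WD
end weylD

end Cfsg.Agent.Lib.PresO
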