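import Cfsg.Agent.Lib.H92CTD8
import Cfsg.Agent.Lib.PresOB

set_option autoImplicit false
set_option linter.unusedSectionVars false
set_option linter.unusedSimpArgs false

/-!
Short presentations of `Ω⁺`: the torus and its normaliser (helper38).
-/

namespace Cfsg.Agent.Lib.PresO

open Matrix Cfsg.Agent.Lib.ClSL2 Cfsg.Agent.Lib.H92CT
open scoped MatrixGroups

variable {F : Type*} [Field F]

section mono
variable {n : ℕ}

theorem mono_one : IsMono (1 : SL(n, F)) 1 :=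
  ⟨fun k => ⟨1, by rw [one_mulVec', one_smul]; rfl⟩, fun k => ⟨1, by rw [map_one, one_mulVec', one_smul]; rfl⟩⟩

theorem mono_mul {g h : SL(n, F)} {σ ρ : Equiv.Perm (Fin n)} (hg : IsMono g σ) (hh : IsMono h ρ) : IsMono (g * h) (σ * ρ) := by
  refine ⟨fun k => ?_, fun k => ?_⟩
  · obtain ⟨c, hc⟩ := hh.1 k
    obtain ⟨d, hd⟩ := hg.1 (ρ k)
    exact ⟨c * d, by rw [mul_mulVec, hc, Matrix.mulVec_smul, hd, smul_smul]; rfl⟩
  · obtain ⟨c, hc⟩ := hh.2 k
    obtain ⟨d, hd⟩ := hg.2 (ρ k)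
    exact ⟨c * d, by rw [map_mul, mul_mulVec, hc, Matrix.mulVec_smul, hd, smul_smul]; rfl⟩

theorem mono_entry {g : SL(n, F)} {σ : Equiv.Perm (Fin n)} {k : Fin n} {c d : F}
    (h1 : (g : Matrix (Fin n) (Fin n) F) *ᵥ bv k = c • bv (σ k))
    (h2 : ((tau g : SL(n, F)) : Matrix (Fin n) (Fin n) F) *ᵥ bv k = d • bv (σ k)) : c * d = 1 := by
  have h3 := dot_tau g k ((g : Matrix (Fin n) (Fin n) F) *ᵥ bv k)
  rw [← mul_mulVec, inv_mul_cancel, one_mulVec', h1, h2, bv_apply, if_pos rfl, smul_dotProduct, dotProduct_smul] at h3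
  have h4 : (bv (σ k) : Fin n → F) ⬝ᵥ bv (σ k) = 1 := by
    unfold bv; rw [single_dotProduct, one_mul, Pi.single_eq_same]
  rw [h4, smul_eq_mul, smul_eq_mul, mul_one] at h3
  rw [h3, mul_comm]

theorem mono_inv {g : SL(n, F)} {σ : Equiv.Perm (Fin n)} (hg : IsMono g σ) : IsMono g⁻¹ σ⁻¹ := by
  have key : ∀ g' : SL(n, F), (∀ k, ∃ c : F, c ≠ 0 ∧ (g' : Matrix (Fin n) (Fin n) F) *ᵥ bv k = c • bv (σ k)) →
      ∀ k, ∃ c : F, ((g'⁻¹ : SL(n, F)) : Matrix (Fin n) (Fin n) F) *ᵥ bv k = c • bv (σ⁻¹ k) := by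
    intro g' h k
    obtain ⟨c, hc, h1⟩ := h (σ⁻¹ k)
    have h2 : σ (σ⁻¹ k) = k := by simp
    rw [h2] at h1
    refine ⟨c⁻¹, ?_⟩
    have h3 : (bv k : Fin n → F) = c⁻¹ • ((g' : Matrix (Fin n) (Fin n) F) *ᵥ bv (σ⁻¹ k)) := by
      rw [h1, smul_smul, inv_mul_cancel₀ hc, one_smul]
    rw [h3, Matrix.mulVec_smul, ← mul_mulVec, inv_mul_cancel, one_mulVec']
  refine ⟨key g fun k => ?_, ?_⟩
  · obtain ⟨c, hc⟩ := hg.1 k
    obtain ⟨d, hd⟩ := hg.2 k
    exact ⟨c, left_ne_zero_of_mul (by rw [mono_entry hc hd]; exact one_ne_zero), hc⟩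
  · rw [map_inv]
    refine key _ fun k => ?_
    obtain ⟨c, hc⟩ := hg.1 k
    obtain ⟨d, hd⟩ := hg.2 k
    exact ⟨d, right_ne_zero_of_mul (by rw [mono_entry hc hd]; exact one_ne_zero), hd⟩

theorem wT_eq_nT (i j : Fin n) : (wT i j : SL(n, F)) = nT i j 1 := by unfold wT nT; rw [inv_one]

theorem mono_wT {i j : Fin n} (h : i ≠ j) : IsMono (wT i j : SL(n, F)) (Equiv.swap i j) := by
  rw [wT_eq_nT]; exact isMono_nT h one_ne_zero

theorem wT_self (i : Fin n) : (wT i i : SL(n, F)) = 1 := by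
  have : ∀ t : F, (T i i t : SL(n, F)) = 1 := fun t => by unfold T; rw [dif_neg (by simp)]
  unfold wT; rw [this, this]; simp

theorem mono_wT' (i j : Fin n) : IsMono (wT i j : SL(n, F)) (Equiv.swap i j) := by
  by_cases h : i = j
  · subst h; rw [wT_self, Equiv.swap_self]; exact mono_one
  · exact mono_wT h

theorem mono_sq {g : SL(n, F)} {i j : Fin n} (h : IsMono g (Equiv.swap i j)) : IsMono (g * g) 1 := by
  have := mono_mul h h
  rwa [Equiv.swap_mul_self] at this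

theorem nT_inv (i j : Fin n) (h : i ≠ j) (c : F) : (nT i j c : SL(n, F))⁻¹ = nT i j (-c) := by
  unfold nT
  rw [_root_.mul_inv_rev, _root_.mul_inv_rev, ← T_neg h, ← T_neg h.symm, inv_neg, neg_neg, mul_assoc]

theorem wT_swap {i j : Fin n} (h : i ≠ j) : (wT j i : SL(n, F)) = (wT i j)⁻¹ := by
  apply ext_mulVec
  intro v
  rw [wT_eq_nT, wT_eq_nT, nT_inv i j h, nT_mulVec h.symm one_ne_zero, nT_mulVec h (neg_ne_zero.mpr one_ne_zero)]
  ext k
  simp only [Pi.add_apply, Pi.smul_apply, smul_eq_mul, inv_one, inv_neg]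
  ring

end mono

/-- diagonal elements of `SL₂` -/
def dS : Fˣ →* SL(2, F) where
  toFun c := mk2 (c : F) 0 0 (c⁻¹ : Fˣ) (by simp)
  map_one' := by
    apply ext2
    rw [coe_mk2]
    ext i j
    fin_cases i <;> fin_cases j <;> simp
  map_mul' a b := by
    apply ext2
    rw [coe_mul2, coe_mk2, coe_mk2, coe_mk2]
    ext i j
    fin_cases i <;> fin_cases j <;> simp [Matrix.mul_apply, mul_comm]

theorem coe_dS (c : Fˣ) : ((dS c : SL(2, F)) : Matrix (Fin 2) (Fin 2) F) = !![(c : F), 0; 0, (c : F)⁻¹] := by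
  change (!![(c : F), 0; 0, ((c⁻¹ : Fˣ) : F)] : Matrix (Fin 2) (Fin 2) F) = _
  rw [Units.val_inv_eq_inv_val]

theorem coe_n {a : F} (ha : a ≠ 0) : ((nS a (-a⁻¹) : SL(2, F)) : Matrix (Fin 2) (Fin 2) F) = !![0, a; -a⁻¹, 0] := by
  rw [coe_nS]
  have h1 : a * -a⁻¹ = -1 := by rw [mul_neg, mul_inv_cancel₀ ha]
  rw [h1]
  ext i j
  fin_cases i <;> fin_cases j <;> simp
  ring

theorem coe_n' {a : F} (ha : a ≠ 0) : ((nS (-a) (a⁻¹) : SL(2, F)) : Matrix (Fin 2) (Fin 2) F) = !![0, -a; a⁻¹, 0] := by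
  have := coe_n (neg_ne_zero.mpr ha)
  rw [inv_neg, neg_neg] at this
  exact this

theorem coe_n1 : ((nS 1 (-1) : SL(2, F)) : Matrix (Fin 2) (Fin 2) F) = !![0, 1; -1, 0] := by
  have := coe_n (F := F) one_ne_zero
  rwa [inv_one] at this

theorem dS_eq (c : Fˣ) (a : F) (ha : a ≠ 0) : dS c = nS (a * c) (-(a * c)⁻¹) * nS (-a) (a⁻¹) := by
  apply ext2
  rw [coe_dS, coe_mul2, coe_n (mul_ne_zero ha c.ne_zero), coe_n' ha]
  have h3 : (c : F) ≠ 0 := c.ne_zero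
  ext i j
  fin_cases i <;> fin_cases j <;> simp [Matrix.mul_apply] <;> field_simp

theorem nS_dS (c : Fˣ) : nS (c : F) (-(c : F)⁻¹) = dS c * nS 1 (-1) := by
  apply ext2
  rw [coe_mul2, coe_n c.ne_zero, coe_n1, coe_dS]
  ext i j
  fin_cases i <;> fin_cases j <;> simp [Matrix.mul_apply]

theorem w_dS (c : Fˣ) : nS 1 (-1) * dS c = dS c⁻¹ * nS 1 (-1) := by
  apply ext2
  rw [coe_mul2, coe_mul2, coe_n1, coe_dS, coe_dS]
  ext i j
  fin_cases i <;> fin_cases j <;> simp [Matrix.mul_apply]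

theorem w_sq : (nS 1 (-1) * nS 1 (-1) : SL(2, F)) = dS (-1) := by
  apply ext2
  rw [coe_mul2, coe_n1, coe_dS]
  ext i j
  fin_cases i <;> fin_cases j <;> simp [Matrix.mul_apply]

theorem braid3 : i23 (nS 1 (-1)) * i12 (nS 1 (-1)) * i23 (nS 1 (-1)) = (i12 (nS 1 (-1)) * i23 (nS 1 (-1)) * i12 (nS 1 (-1)) : SL(3, F)) := by
  apply Subtype.ext
  simp only [coe_mul3, coe_i12, coe_i23, coe_n1]
  ext i j
  fin_cases i <;> fin_cases j <;> simp [Matrix.mul_apply, Fin.sum_univ_three]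

theorem w12_dS (c : Fˣ) : i12 (nS 1 (-1)) * i23 (dS c) = (i12 (dS c) * i23 (dS c) * i12 (nS 1 (-1)) : SL(3, F)) := by
  apply Subtype.ext
  simp only [coe_mul3, coe_i12, coe_i23, coe_n1, coe_dS]
  ext i j
  fin_cases i <;> fin_cases j <;> simp [Matrix.mul_apply, Fin.sum_univ_three]

namespace DD
variable {m : ℕ} {G : Type*} [Group G] (D : DSys m F G)

/-- the extra torus -/
def hh : Fˣ →* G := D.A.comp dS

/-- the extra Weyl element -/
def rr : G := D.A (nS 1 (-1))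

theorem mono_A {g : SL(m + 4, F)} (hg : IsMono g 1) : ∃ a : Fˣ, (∀ t, D.Θ g * D.A (uS t) * (D.Θ g)⁻¹ = D.A (uS (a * t))) ∧
    (∀ t, D.Θ g * D.A (lS t) * (D.Θ g)⁻¹ = D.A (lS ((a : F)⁻¹ * t))) := by
  obtain ⟨c, hc⟩ := hg.1 (ip m)
  obtain ⟨d, hd⟩ := hg.1 (iq m)
  obtain ⟨c', hc'⟩ := hg.2 (ip m)
  obtain ⟨d', hd'⟩ := hg.2 (iq m)
  have e1 := mono_entry hc hc'
  have e2 := mono_entry hd hd'
  have hc0 : c ≠ 0 := left_ne_zero_of_mul (by rw [e1]; exact one_ne_zero)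
  have hd0 : d ≠ 0 := left_ne_zero_of_mul (by rw [e2]; exact one_ne_zero)
  have ec : c' = c⁻¹ := by field_simp; linear_combination e1
  have ed : d' = d⁻¹ := by field_simp; linear_combination e2
  refine ⟨Units.mk0 (c * d) (mul_ne_zero hc0 hd0), fun t => ?_, fun t => ?_⟩
  · rw [← D.Y_pq, ← D.Y_pq]
    exact D.Y_act (ip_ne_iq m) hc hd t
  · have h1 := D.Z_act (ip_ne_iq m) hc' hd' (-t)
    rw [D.Z_pq, D.Z_pq, neg_neg] at h1
    rw [h1, ec, ed]
    congr 2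
    rw [Units.val_mk0]
    field_simp

theorem mono_nS {g : SL(m + 4, F)} {a : F} (ha : (∀ t, D.Θ g * D.A (uS t) * (D.Θ g)⁻¹ = D.A (uS (a * t))) ∧
    (∀ t, D.Θ g * D.A (lS t) * (D.Θ g)⁻¹ = D.A (lS (a⁻¹ * t)))) (s t : F) :
    D.Θ g * D.A (nS s t) * (D.Θ g)⁻¹ = D.A (nS (a * s) (a⁻¹ * t)) := by
  unfold nS
  rw [map_mul, map_mul, map_mul, map_mul, ← ha.1, ← ha.2]; group

theorem mono_hh {g : SL(m + 4, F)} (hg : IsMono g 1) (c : Fˣ) : D.Θ g * hh D c = hh D c * D.Θ g := by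
  obtain ⟨a, ha⟩ := mono_A D hg
  have h1 : hh D c = D.A (nS c (-(c : F)⁻¹)) * D.A (nS (-1) 1) := by
    have := dS_eq c 1 one_ne_zero
    rw [one_mul, inv_one] at this
    change D.A (dS c) = _
    rw [this, map_mul]
  have h2 : D.Θ g * hh D c * (D.Θ g)⁻¹ = hh D c := by
    calc D.Θ g * hh D c * (D.Θ g)⁻¹ = (D.Θ g * D.A (nS c (-(c : F)⁻¹)) * (D.Θ g)⁻¹) * (D.Θ g * D.A (nS (-1) 1) * (D.Θ g)⁻¹) := by
          rw [h1]; group
      _ = D.A (dS c) := by
          rw [mono_nS D ha, mono_nS D ha, ← map_mul, dS_eq c a a.ne_zero]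
          congr 3
          · rw [mul_inv]; ring
          · ring
          · ring
  nth_rewrite 2 [← h2]; group

theorem mono_rr {g : SL(m + 4, F)} (hg : IsMono g 1) : ∃ a : Fˣ, D.Θ g * rr D * (D.Θ g)⁻¹ = hh D a * rr D := by
  obtain ⟨a, ha⟩ := mono_A D hg
  refine ⟨a, ?_⟩
  unfold rr
  rw [mono_nS D ha]
  change _ = D.A (dS a) * D.A (nS 1 (-1))
  rw [← map_mul, ← nS_dS]
  congr 2
  · ring
  · ring

/-- the torus -/
def TT : Subgroup G where
  carrier := {x | ∃ g, IsMono g 1 ∧ ∃ c, x = D.Θ g * hh D c}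
  one_mem' := ⟨1, mono_one, 1, by rw [map_one, map_one, one_mul]⟩
  mul_mem' := by
    rintro _ _ ⟨g, hg, c, rfl⟩ ⟨g', hg', c', rfl⟩
    refine ⟨g * g', by simpa using mono_mul hg hg', c * c', ?_⟩
    rw [map_mul, map_mul]
    have := mono_hh D hg' c
    calc D.Θ g * hh D c * (D.Θ g' * hh D c') = D.Θ g * (hh D c * D.Θ g') * hh D c' := by group
      _ = _ := by rw [← this]; group
  inv_mem' := by
    rintro _ ⟨g, hg, c, rfl⟩
    refine ⟨g⁻¹, by simpa using mono_inv hg, c⁻¹, ?_⟩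
    rw [mono_hh D hg, map_inv, map_inv, _root_.mul_inv_rev]

theorem diag_mem {g : SL(m + 4, F)} (hg : IsMono g 1) : D.Θ g ∈ TT D := ⟨g, hg, 1, by rw [map_one, mul_one]⟩
theorem hh_mem (c : Fˣ) : hh D c ∈ TT D := ⟨1, mono_one, c, by rw [map_one, one_mul]⟩

/-- its normaliser -/
def NT : Subgroup G := Subgroup.normalizer (TT D : Set G)

theorem norm_inv {x : G} (h1 : x * x ∈ TT D) (h2 : ∀ y ∈ TT D, x * y * x⁻¹ ∈ TT D) : x ∈ NT D := by
  unfold NT
  rw [Subgroup.mem_normalizer_iff]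
  intro y
  refine ⟨h2 y, fun hy => ?_⟩
  have h3 : y = (x * x)⁻¹ * (x * (x * y * x⁻¹) * x⁻¹) * (x * x) := by group
  rw [h3]
  exact mul_mem (mul_mem (inv_mem h1) (h2 _ hy)) h1

theorem rr_mem : rr D ∈ NT D := by
  apply norm_inv
  · unfold rr; rw [← map_mul, w_sq]; exact hh_mem D _
  · rintro _ ⟨g, hg, c, rfl⟩
    obtain ⟨a, ha⟩ := mono_rr D (g := g⁻¹) (by simpa using mono_inv hg)
    rw [map_inv, inv_inv] at ha
    have h2 : rr D * hh D c * (rr D)⁻¹ = hh D c⁻¹ := by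
      unfold rr
      change D.A (nS 1 (-1)) * D.A (dS c) * (D.A (nS 1 (-1)))⁻¹ = D.A (dS c⁻¹)
      rw [← map_mul, w_dS, map_mul, mul_inv_cancel_right]
    have h3 : rr D * D.Θ g * (rr D)⁻¹ = D.Θ g * hh D a := by
      have : D.Θ g * hh D a = D.Θ g * (hh D a * rr D) * (rr D)⁻¹ := by group
      rw [this, ← ha]; group
    have h4 : rr D * (D.Θ g * hh D c) * (rr D)⁻¹ = (rr D * D.Θ g * (rr D)⁻¹) * (rr D * hh D c * (rr D)⁻¹) := by group
    rw [h4, h2, h3]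
    exact mul_mem (mul_mem (diag_mem D hg) (hh_mem D _)) (hh_mem D _)

theorem mono_norm {g : SL(m + 4, F)} {i j : Fin (m + 4)} (hg : IsMono g (Equiv.swap i j))
    (h : ∀ c, D.Θ g * hh D c * (D.Θ g)⁻¹ ∈ TT D) : D.Θ g ∈ NT D := by
  apply norm_inv
  · rw [← map_mul]; exact diag_mem D (mono_sq hg)
  · rintro _ ⟨d, hd, c, rfl⟩
    have h1 : D.Θ g * (D.Θ d * hh D c) * (D.Θ g)⁻¹ = D.Θ (g * d * g⁻¹) * (D.Θ g * hh D c * (D.Θ g)⁻¹) := by
      rw [map_mul, map_mul, map_inv]; group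
    rw [h1]
    refine mul_mem (diag_mem D ?_) (h c)
    have := mono_mul (mono_mul hg hd) (mono_inv hg)
    simpa using this

theorem comm_norm {g : SL(m + 4, F)} {i j : Fin (m + 4)} (hg : IsMono g (Equiv.swap i j))
    (h : ∀ x, D.Θ g * D.A x = D.A x * D.Θ g) : D.Θ g ∈ NT D := by
  apply mono_norm D hg
  intro c
  have h1 : D.Θ g * hh D c = hh D c * D.Θ g := h (dS c)
  rw [h1, mul_inv_cancel_right]; exact hh_mem D c

theorem wT_norm_pq : D.Θ (wT (ip m) (iq m)) ∈ NT D := comm_norm D (mono_wT (ip_ne_iq m)) fun x => D.w_comm x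

theorem wT_norm_far {k l : Fin (m + 4)} (hkl : k ≠ l) (h1 : k ≠ ip m) (h2 : k ≠ iq m) (h3 : l ≠ ip m) (h4 : l ≠ iq m) :
    D.Θ (wT k l) ∈ NT D := comm_norm D (mono_wT hkl) fun x => D.A_w k l hkl h1 h2 h3 h4 x

theorem ψ_dS (c : Fˣ) : D.ψ (i12 (dS c)) = D.Θ (nT (ir m) (ip m) (c : F) * nT (ir m) (ip m) (-1 : F)) := by
  have h1 := dS_eq c 1 one_ne_zero
  rw [one_mul, inv_one] at h1
  rw [h1]
  unfold nS nT
  simp only [map_mul, D.hu, D.hl]
  congr 6
  all_goals simp [inv_neg]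

theorem wT_norm_rp : D.Θ (wT (ir m) (ip m)) ∈ NT D := by
  apply mono_norm D (mono_wT (ir_ne_ip m))
  intro c
  have h1 : D.Θ (wT (ir m) (ip m)) * hh D c * (D.Θ (wT (ir m) (ip m)))⁻¹ = D.ψ (i12 (dS c)) * hh D c := by
    have e1 : hh D c = D.ψ (i23 (dS c)) := (D.hA _).symm
    rw [D.Θ_w, e1, ← map_mul, w12_dS, map_mul, map_mul, mul_inv_cancel_right]
  rw [h1, ψ_dS]
  refine mul_mem (diag_mem D ?_) (hh_mem D c)
  have := mono_mul (isMono_nT (F := F) (ir_ne_ip m) c.ne_zero) (isMono_nT (F := F) (ir_ne_ip m) (c := -1) (neg_ne_zero.mpr one_ne_zero))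
  rwa [Equiv.swap_mul_self] at this

theorem conj_wT {i j k : Fin (m + 4)} (hij : i ≠ j) (hik : i ≠ k) (hjk : j ≠ k) :
    (wT i j * wT k j * (wT i j)⁻¹ : SL(m + 4, F)) = wT k i := by
  have e1 := w_T_right (F := F) hij hik hjk 1
  have e2 := w_T_left (F := F) hij hik hjk (-1)
  set w := (wT i j : SL(m + 4, F))
  calc w * wT k j * w⁻¹ = (w * T k j 1 * w⁻¹) * (w * T j k (-1) * w⁻¹) * (w * T k j 1 * w⁻¹) := by
        unfold wT; group
    _ = _ := by rw [e1, e2]; rfl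

theorem wT_norm (k l : Fin (m + 4)) : D.Θ (wT k l) ∈ NT D := by
  by_cases hkl : k = l
  · subst hkl; rw [wT_self, map_one]; exact one_mem _
  have swp : ∀ {k l : Fin (m + 4)}, k ≠ l → D.Θ (wT k l) ∈ NT D → D.Θ (wT l k) ∈ NT D := by
    intro k l hkl h
    rw [wT_swap hkl, map_inv]; exact inv_mem h
  have hrp := ir_ne_ip m
  have hrq := ir_ne_iq m
  have hpq := ip_ne_iq m
  -- `(k, ip)`
  have h1 : ∀ k, k ≠ ip m → D.Θ (wT k (ip m)) ∈ NT D := by
    intro k hk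
    by_cases hk' : k = iq m
    · subst hk'; exact swp hpq (wT_norm_pq D)
    · by_cases hkr : k = ir m
      · subst hkr; exact wT_norm_rp D
      · have h2 := conj_wT (F := F) (i := k) (j := ir m) (k := ip m) hkr hk hrp
        have h3 : D.Θ (wT (ip m) k) ∈ NT D := by
          rw [← h2, map_mul, map_mul, map_inv]
          exact mul_mem (mul_mem (wT_norm_far D hkr hk hk' hrp hrq) (swp hrp (wT_norm_rp D))) (inv_mem (wT_norm_far D hkr hk hk' hrp hrq))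
        exact swp hk.symm h3
  -- `(k, iq)`
  have h2 : ∀ k, k ≠ iq m → D.Θ (wT k (iq m)) ∈ NT D := by
    intro k hk
    by_cases hk' : k = ip m
    · subst hk'; exact wT_norm_pq D
    · have h3 := conj_wT (F := F) (i := iq m) (j := ip m) (k := k) hpq.symm hk.symm (Ne.symm hk')
      rw [← h3, map_mul, map_mul, map_inv]
      exact mul_mem (mul_mem (swp hpq (wT_norm_pq D)) (h1 k hk')) (inv_mem (swp hpq (wT_norm_pq D)))
  by_cases e1 : l = ip m
  · subst e1; exact h1 k hkl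
  by_cases e2 : l = iq m
  · subst e2; exact h2 k hkl
  by_cases e3 : k = ip m
  · subst e3; exact swp (Ne.symm hkl) (h1 l (Ne.symm hkl))
  by_cases e4 : k = iq m
  · subst e4; exact swp (Ne.symm hkl) (h2 l (Ne.symm hkl))
  exact wT_norm_far D hkl e3 e4 e1 e2

theorem exists_mono (σ : Equiv.Perm (Fin (m + 4))) : ∃ g : SL(m + 4, F), IsMono g σ ∧ D.Θ g ∈ NT D := by
  induction σ using Equiv.Perm.swap_induction_on with
  | one => exact ⟨1, mono_one, by rw [map_one]; exact one_mem _⟩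
  | swap_mul f x y hxy ih =>
    obtain ⟨g, h1, h2⟩ := ih
    exact ⟨wT x y * g, mono_mul (mono_wT hxy) h1, by rw [map_mul]; exact mul_mem (wT_norm D x y) h2⟩

/-- the torus inside its normaliser -/
def TN : Subgroup (NT D) := (TT D).subgroupOf (NT D)

instance : (TN D).Normal := by
  unfold TN NT
  infer_instance

/-- the Weyl group -/
abbrev WW := NT D ⧸ TN D

theorem mk_eq {x y : G} (hx : x ∈ NT D) (hy : y ∈ NT D) (h : x⁻¹ * y ∈ TT D) :
    (QuotientGroup.mk (⟨x, hx⟩ : NT D) : WW D) = QuotientGroup.mk ⟨y, hy⟩ := by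
  rw [QuotientGroup.eq]
  exact h

theorem mono_mk {g g' : SL(m + 4, F)} {σ : Equiv.Perm (Fin (m + 4))} (hg : IsMono g σ) (hg' : IsMono g' σ) (h : D.Θ g ∈ NT D)
    (h' : D.Θ g' ∈ NT D) : (QuotientGroup.mk (⟨D.Θ g, h⟩ : NT D) : WW D) = QuotientGroup.mk ⟨D.Θ g', h'⟩ := by
  apply mk_eq
  rw [← map_inv, ← map_mul]
  apply diag_mem
  have := mono_mul (mono_inv hg) hg'
  rwa [inv_mul_cancel] at this

/-- the symmetric group inside the Weyl group -/
noncomputable def tw : Equiv.Perm (Fin (m + 4)) →* WW D where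
  toFun σ := QuotientGroup.mk ⟨D.Θ (exists_mono D σ).choose, (exists_mono D σ).choose_spec.2⟩
  map_one' := by
    have h1 := mono_mk D (exists_mono D 1).choose_spec.1 mono_one (exists_mono D 1).choose_spec.2 (by rw [map_one]; exact one_mem _)
    rw [h1]
    rw [QuotientGroup.eq_one_iff]
    change D.Θ 1 ∈ TT D
    rw [map_one]; exact one_mem _
  map_mul' σ ρ := by
    rw [← QuotientGroup.mk_mul]
    have h1 := (exists_mono D σ).choose_spec
    have h2 := (exists_mono D ρ).choose_spec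
    have h3 := mono_mk D (exists_mono D (σ * ρ)).choose_spec.1 (mono_mul h1.1 h2.1) (exists_mono D (σ * ρ)).choose_spec.2
      (by rw [map_mul]; exact mul_mem h1.2 h2.2)
    rw [h3]
    congr 1
    apply Subtype.ext
    change D.Θ (_ * _) = D.Θ _ * D.Θ _
    rw [map_mul]

theorem tw_eq {g : SL(m + 4, F)} {σ : Equiv.Perm (Fin (m + 4))} (hg : IsMono g σ) (h : D.Θ g ∈ NT D) :
    tw D σ = QuotientGroup.mk ⟨D.Θ g, h⟩ := mono_mk D (exists_mono D σ).choose_spec.1 hg (exists_mono D σ).choose_spec.2 h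

theorem tw_swap (i j : Fin (m + 4)) : tw D (Equiv.swap i j) = QuotientGroup.mk ⟨D.Θ (wT i j), wT_norm D i j⟩ :=
  tw_eq D (mono_wT' i j) _

/-- the extra reflection -/
noncomputable def rw' : WW D := QuotientGroup.mk ⟨rr D, rr_mem D⟩

theorem isWD : WD (tw D) (rw' D) (ip m) (iq m) (ir m) where
  hRP := ip_ne_iq m
  hRJ := (ir_ne_ip m).symm
  hPJ := (ir_ne_iq m).symm
  sq := by
    unfold rw'
    rw [← QuotientGroup.mk_mul, QuotientGroup.eq_one_iff]
    change rr D * rr D ∈ TT D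
    unfold rr; rw [← map_mul, w_sq]; exact hh_mem D _
  c1 := by
    unfold rw'
    rw [tw_swap, ← QuotientGroup.mk_mul, ← QuotientGroup.mk_mul]
    congr 1
    exact Subtype.ext (D.w_comm _)
  c2 k l hkl h1 h2 h3 h4 := by
    unfold rw'
    rw [tw_swap, ← QuotientGroup.mk_mul, ← QuotientGroup.mk_mul]
    congr 1
    exact Subtype.ext (D.A_w k l hkl h1 h2 h3 h4 _)
  br := by
    unfold rw'
    rw [tw_swap, ← QuotientGroup.mk_mul, ← QuotientGroup.mk_mul, ← QuotientGroup.mk_mul, ← QuotientGroup.mk_mul]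
    congr 1
    apply Subtype.ext
    change rr D * D.Θ (wT (ir m) (ip m)) * rr D = D.Θ (wT (ir m) (ip m)) * rr D * D.Θ (wT (ir m) (ip m))
    unfold rr
    rw [D.Θ_w, ← D.hA, ← map_mul, ← map_mul, ← map_mul, ← map_mul, braid3]

/-- lifts of the sign changes -/
def el' (i : Fin (m + 4)) : G := D.Θ (wT i (ip m)) * (D.Θ (wT (ip m) (iq m)) * rr D) * (D.Θ (wT i (ip m)))⁻¹

theorem el'_mem (i : Fin (m + 4)) : el' D i ∈ NT D :=
  mul_mem (mul_mem (wT_norm D _ _) (mul_mem (wT_norm D _ _) (rr_mem D))) (inv_mem (wT_norm D _ _))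

theorem list_mk (l : List (Fin (m + 4))) (hl : iq m ∉ l) : ∃ h : (l.map (el' D)).prod ∈ NT D,
    (l.map (fun i => (isWD D).ep i (iq m))).prod = QuotientGroup.mk ⟨(l.map (el' D)).prod, h⟩ := by
  induction l with
  | nil => exact ⟨one_mem _, rfl⟩
  | cons i l ih =>
    rw [List.mem_cons, not_or] at hl
    obtain ⟨h, e⟩ := ih hl.2
    refine ⟨?_, ?_⟩
    · rw [List.map_cons, List.prod_cons]; exact mul_mem (el'_mem D i) h
    · rw [List.map_cons, List.prod_cons, e, (isWD D).ep_P (Ne.symm hl.1), tw_swap, tw_swap]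
      unfold rw'
      rw [← QuotientGroup.mk_mul, ← QuotientGroup.mk_inv, ← QuotientGroup.mk_mul, ← QuotientGroup.mk_mul, ← QuotientGroup.mk_mul]
      rfl

/-- the Weyl submonoid -/
def NW : Submonoid G := Submonoid.closure ({x | ∃ i j c, i ≠ j ∧ c ≠ 0 ∧ x = D.Θ (nT i j c)} ∪ {x | ∃ c, c ≠ 0 ∧ x = D.A (nS c (-c⁻¹))})

theorem NW_form {x : G} (hx : x ∈ NW D) : ∃ h : x ∈ NT D, (QuotientGroup.mk (⟨x, h⟩ : NT D) : WW D) ∈
    Subgroup.closure (Set.range (tw D) ∪ {rw' D}) := by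
  unfold NW at hx
  induction hx using Submonoid.closure_induction with
  | mem x hx =>
    rcases hx with ⟨i, j, c, hij, hc, rfl⟩ | ⟨c, hc, rfl⟩
    · have h1 : (nT i j c : SL(m + 4, F)) = (nT i j c * (wT i j)⁻¹) * wT i j := by group
      have h2 : IsMono (nT i j c * (wT i j)⁻¹ : SL(m + 4, F)) 1 := by
        have := mono_mul (isMono_nT (F := F) hij hc) (mono_inv (mono_wT (F := F) hij))
        rwa [mul_inv_cancel] at this
      have h3 : D.Θ (nT i j c) ∈ NT D := by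
        rw [h1, map_mul]
        exact mul_mem (Subgroup.le_normalizer (diag_mem D h2)) (wT_norm D i j)
      refine ⟨h3, ?_⟩
      rw [← tw_eq D (isMono_nT hij hc) h3]
      exact Subgroup.subset_closure (Or.inl ⟨_, rfl⟩)
    · have h1 : D.A (nS c (-c⁻¹)) = hh D (Units.mk0 c hc) * rr D := by
        unfold rr
        change _ = D.A (dS _) * D.A _
        rw [← map_mul, ← nS_dS]; rfl
      have h2 : hh D (Units.mk0 c hc) ∈ NT D := Subgroup.le_normalizer (hh_mem D _)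
      refine ⟨by rw [h1]; exact mul_mem h2 (rr_mem D), ?_⟩
      have h3 : ∀ h, (QuotientGroup.mk (⟨D.A (nS c (-c⁻¹)), h⟩ : NT D) : WW D) = rw' D := by
        intro h
        have : (⟨D.A (nS c (-c⁻¹)), h⟩ : NT D) = ⟨hh D (Units.mk0 c hc), h2⟩ * ⟨rr D, rr_mem D⟩ := Subtype.ext h1
        rw [this, QuotientGroup.mk_mul]
        have : (QuotientGroup.mk (⟨hh D (Units.mk0 c hc), h2⟩ : NT D) : WW D) = 1 := by
          rw [QuotientGroup.eq_one_iff]; exact hh_mem D _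
        rw [this, one_mul]; rfl
      rw [h3]
      exact Subgroup.subset_closure (Or.inr rfl)
  | one => exact ⟨one_mem _, one_mem _⟩
  | mul a b _ _ ha hb =>
    obtain ⟨ha, ha'⟩ := ha
    obtain ⟨hb, hb'⟩ := hb
    exact ⟨mul_mem ha hb, mul_mem ha' hb'⟩

/-- the normal form of products of Weyl elements -/
theorem NW_nf {x : G} (hx : x ∈ NW D) : ∃ l : List (Fin (m + 4)), l.Nodup ∧ iq m ∉ l ∧ ∃ (g : SL(m + 4, F)) (c : Fˣ),
    x = (l.map (el' D)).prod * D.Θ g * hh D c := by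
  obtain ⟨h, h'⟩ := NW_form D hx
  obtain ⟨l, h1, h2, σ, h3⟩ := (isWD D).normal_form h'
  obtain ⟨h4, h5⟩ := list_mk D l h2
  obtain ⟨g, h6, h7⟩ := exists_mono D σ
  rw [h5, tw_eq D h6 h7, ← QuotientGroup.mk_mul, eq_comm, QuotientGroup.eq] at h3
  obtain ⟨g', h8, c, h9⟩ : ((l.map (el' D)).prod * D.Θ g)⁻¹ * x ∈ TT D := h3
  refine ⟨l, h1, h2, g * g', c, ?_⟩
  rw [map_mul]
  calc x = (l.map (el' D)).prod * D.Θ g * (((l.map (el' D)).prod * D.Θ g)⁻¹ * x) := by group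
    _ = _ := by rw [h9]; group

end DD

end Cfsg.Agent.Lib.PresO
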