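import Cfsg.Agent.Lib.PresOC

set_option autoImplicit false
set_option linter.unusedSectionVars false
set_option linter.unusedSimpArgs false

/-!
Short presentations of `Ω⁺`: the Bruhat type decomposition with Weyl words (helper38).
-/

namespace Cfsg.Agent.Lib.PresO

open Matrix Cfsg.Agent.Lib.ClSL2 Cfsg.Agent.Lib.H92CT
open scoped MatrixGroups

variable {F : Type*} [Field F]

/-- the fundamental `SL₂` inside `SLₙ` -/
theorem exists_phi2 [Finite F] {n : ℕ} (hn : 3 ≤ n) {i j : Fin n} (hij : i ≠ j) : ∃ φ : SL(2, F) →* SL(n, F),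
    (∀ t, φ (uS t) = T i j t) ∧ ∀ t, φ (lS t) = T j i t := by
  obtain ⟨k, hk⟩ : ∃ k : Fin n, k ∉ ({i, j} : Finset (Fin n)) := by
    by_contra h
    push Not at h
    have h1 : (Finset.univ : Finset (Fin n)) ⊆ {i, j} := fun x _ => h x
    have h2 := Finset.card_le_card h1
    have h3 : ({i, j} : Finset (Fin n)).card ≤ 2 := Finset.card_le_two
    rw [Finset.card_univ, Fintype.card_fin] at h2
    omega
  simp only [Finset.mem_insert, Finset.mem_singleton, not_or] at hk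
  let f : Fin 3 → Fin n := ![i, j, k]
  have hf : ∀ a b, a ≠ b → f a ≠ f b := by
    intro a b hab
    fin_cases a <;> fin_cases b
    · exact absurd rfl hab
    · exact hij
    · exact Ne.symm hk.1
    · exact hij.symm
    · exact absurd rfl hab
    · exact Ne.symm hk.2
    · exact hk.1
    · exact hk.2
    · exact absurd rfl hab
  obtain ⟨ψ, hψ⟩ := hom_of_St0 (F := F) (G := SL(n, F)) (n := 3) le_rfl (x := fun a b t => T (f a) (f b) t)
    { add := fun a b hab s t => T_add (hf a b hab) s t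
      comm1 := fun a b c hab hbc hac s t => T_comm1 (hf a b hab) (hf b c hbc) (hf a c hac) s t
      comm0 := fun a b c d hab hcd had hbc s t => T_comm0 (hf a b hab) (hf c d hcd) (hf a d had) (hf b c hbc) s t }
  refine ⟨ψ.comp i12, fun t => ?_, fun t => ?_⟩
  · change ψ (i12 (uS t)) = _
    rw [← T01, hψ 0 1 (by decide)]; rfl
  · change ψ (i12 (lS t)) = _
    rw [← T10, hψ 1 0 (by decide)]; rfl

namespace DD
variable {m : ℕ} {G : Type*} [Group G] (D : DSys m F G)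

theorem nT_NN {i j : Fin (m + 4)} (hij : i ≠ j) {c : F} (hc : c ≠ 0) : D.Θ (nT i j c) ∈ D.NN := by
  intro ρ hρ
  rw [← map_inv, nT_inv i j hij]
  exact ⟨_, fun h => hρ ((Equiv.swap i j).injective h), D.relΘ (isMono_nT hij (neg_ne_zero.mpr hc)) hρ⟩

theorem NW_NN {x : G} (hx : x ∈ NW D) : x ∈ D.NN := by
  unfold NW at hx
  induction hx using Submonoid.closure_induction with
  | mem x hx =>
    rcases hx with ⟨i, j, c, hij, hc, rfl⟩ | ⟨c, hc, rfl⟩
    · exact nT_NN D hij hc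
    · exact D.A_mem_NN hc
  | one => exact D.one_mem_NN
  | mul a b _ _ ha hb => exact D.mul_mem_NN ha hb

theorem MnS_NW {f : SL(2, F) →* G} (h : ∀ c, c ≠ 0 → f (nS c (-c⁻¹)) ∈ NW D) {x : SL(2, F)} (hx : x ∈ MnS F) : f x ∈ NW D := by
  induction hx using Submonoid.closure_induction with
  | mem x hx =>
    obtain ⟨c, hc, rfl⟩ := hx
    exact h c hc
  | one => rw [map_one]; exact one_mem _
  | mul a b _ _ ha hb => rw [map_mul]; exact mul_mem ha hb

/-- the set of products -/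
def U2 (P : Subgroup G) : Set G := {x | ∃ u ∈ D.UA, ∃ n ∈ NW D, ∃ p ∈ P, x = u * n * p}

theorem step2 {α : Rt m} (hα : α.pos) (f : SL(2, F) →* G) (hu : ∀ t, f (uS t) = D.el α t) (hl : ∀ t, ∃ t', f (lS t) = D.el α.ng t')
    (hn : ∀ g, f g ∈ Subgroup.normalizer (D.UU α : Set G)) (hN : ∀ c, c ≠ 0 → f (nS c (-c⁻¹)) ∈ NW D)
    (P : Subgroup G) (hP : ∀ ρ : Rt m, ρ.nd → (∀ t, D.el ρ t ∈ P) ∨ ∀ t, D.el ρ.ng t ∈ P) (g : SL(2, F)) {x : G} (hx : x ∈ U2 D P) :
    f g * x ∈ U2 D P := by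
  obtain ⟨u, hu', n, hn', p, hp, rfl⟩ := hx
  obtain ⟨u', h1, c, rfl⟩ := D.UA_split f hu hn hu'
  have h2 : f g * u' * (f g)⁻¹ ∈ D.UU α := (Subgroup.mem_normalizer_iff.mp (hn g) _).mp h1
  have hαn : α.nd := hα.2.ne
  obtain ⟨ρ', h3, h4, h5⟩ := NW_NN D hn' α hαn
  have huS : ∀ a, f (uS a) ∈ D.UA := fun a => by rw [hu]; exact D.el_mem_UA hα a
  rcases hP ρ' h3 with h6 | h6
  · obtain ⟨a, b, y, hy, hg⟩ := bruhat_u (g * uS c)
    refine ⟨f g * u' * (f g)⁻¹ * f (uS a), mul_mem (D.UU_le α h2) (huS a), f y * n, mul_mem (MnS_NW D hN hy) hn',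
      n⁻¹ * f (uS b) * n * p, mul_mem ?_ hp, ?_⟩
    · obtain ⟨t', ht'⟩ := h4 b
      rw [hu]
      rw [inv_inv] at ht'
      rw [ht']; exact h6 t'
    · have h7 : f g * f (uS c) = f (uS a) * f y * f (uS b) := by rw [← map_mul, hg, map_mul, map_mul]
      calc f g * (u' * f (uS c) * n * p) = f g * u' * (f g)⁻¹ * (f g * f (uS c)) * n * p := by group
        _ = _ := by rw [h7]; group
  · obtain ⟨a, b, y, hy, hg⟩ := bruhat_l (g * uS c)
    refine ⟨f g * u' * (f g)⁻¹ * f (uS a), mul_mem (D.UU_le α h2) (huS a), f y * n, mul_mem (MnS_NW D hN hy) hn',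
      n⁻¹ * f (lS b) * n * p, mul_mem ?_ hp, ?_⟩
    · obtain ⟨b', hb'⟩ := hl b
      obtain ⟨t', ht'⟩ := h5 b'
      rw [hb']
      rw [inv_inv] at ht'
      rw [ht']; exact h6 t'
    · have h7 : f g * f (uS c) = f (uS a) * f y * f (lS b) := by rw [← map_mul, hg, map_mul, map_mul]
      calc f g * (u' * f (uS c) * n * p) = f g * u' * (f g)⁻¹ * (f g * f (uS c)) * n * p := by group
        _ = _ := by rw [h7]; group

/-- the decomposition of the group generated by the data -/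
theorem decomp2 [Finite F] (hgen : Subgroup.closure (Set.range D.Θ ∪ Set.range D.A) = ⊤)
    (P : Subgroup G) (hP1 : ∀ g, D.Θ g ∈ P) (hP2 : ∀ i j t, i ≠ j → D.Y i j t ∈ P) (x : G) : x ∈ U2 D P := by
  have hP : ∀ ρ : Rt m, ρ.nd → (∀ t, D.el ρ t ∈ P) ∨ ∀ t, D.el ρ.ng t ∈ P := by
    rintro ⟨κ, i, j⟩ h
    cases κ
    · exact Or.inl fun t => hP1 _
    · exact Or.inl fun t => hP2 _ _ _ h
    · exact Or.inr fun t => hP2 _ _ _ h
  have hA : ∀ g x, x ∈ U2 D P → D.A g * x ∈ U2 D P := by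
    intro g x hx
    refine step2 D (α := (Kd.Y, ip m, iq m)) ⟨by simp, Fin.castSucc_lt_last _⟩ D.A (fun t => (D.Y_pq t).symm) (fun t => ⟨-t, ?_⟩) D.UU_Y
      (fun c hc => Submonoid.subset_closure (Or.inr ⟨c, hc, rfl⟩)) P hP g hx
    change _ = D.Z (ip m) (iq m) (-t)
    rw [D.Z_pq, neg_neg]
  have hT : ∀ i j : Fin (m + 4), i.val + 1 = j.val → ∀ t x, x ∈ U2 D P → D.Θ (T i j t) * x ∈ U2 D P ∧ D.Θ (T j i t) * x ∈ U2 D P := by
    intro i j hij t x hx
    have hne : i ≠ j := by intro h; have := congrArg Fin.val h; omega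
    obtain ⟨φ, h1, h2⟩ := exists_phi2 (F := F) (by omega : 3 ≤ m + 4) hne
    have key : ∀ g, (D.Θ.comp φ) g * x ∈ U2 D P := fun g => by
      refine step2 D (α := (Kd.X, i, j)) ⟨by simp, by change i < j; rw [Fin.lt_def]; omega⟩ (D.Θ.comp φ) (fun t => congrArg D.Θ (h1 t))
        (fun t => ⟨t, congrArg D.Θ (h2 t)⟩) (D.UU_X hij _ (fun t => congrArg D.Θ (h1 t)) (fun t => congrArg D.Θ (h2 t)))
        (fun c hc => Submonoid.subset_closure (Or.inl ⟨i, j, c, hne, hc, ?_⟩)) P hP g hx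
      unfold nS nT
      simp only [map_mul]
      change D.Θ (φ (uS c)) * D.Θ (φ (lS (-c⁻¹))) * D.Θ (φ (uS c)) = _
      rw [h1, h2]
    have k1 := key (uS t)
    have k2 := key (lS t)
    change D.Θ (φ (uS t)) * x ∈ _ at k1
    change D.Θ (φ (lS t)) * x ∈ _ at k2
    rw [h1] at k1
    rw [h2] at k2
    exact ⟨k1, k2⟩
  -- the subgroup of good elements
  let K : Subgroup G :=
    { carrier := {x | (∀ y ∈ U2 D P, x * y ∈ U2 D P) ∧ ∀ y ∈ U2 D P, x⁻¹ * y ∈ U2 D P}
      one_mem' := ⟨fun y hy => by rwa [one_mul], fun y hy => by rwa [inv_one, one_mul]⟩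
      mul_mem' := by
        rintro a b ⟨ha, ha'⟩ ⟨hb, hb'⟩
        exact ⟨fun y hy => by rw [mul_assoc]; exact ha _ (hb _ hy), fun y hy => by rw [_root_.mul_inv_rev, mul_assoc]; exact hb' _ (ha' _ hy)⟩
      inv_mem' := by
        rintro a ⟨ha, ha'⟩
        exact ⟨ha', fun y hy => by rw [inv_inv]; exact ha _ hy⟩ }
  have hKT : K.comap D.Θ = ⊤ := by
    apply ClSLn.eq_top_of_transvection_mem
    intro i j hij c
    have h2 : (Matrix.SpecialLinearGroup.transvection hij c : SL(m + 4, F)) = T i j c := by unfold T; rw [dif_pos hij]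
    rw [h2]
    refine path_all (K.comap D.Θ) (m + 4) (fun i j hij _ t => ?_) i j hij (by omega) (by omega) c
    have hne : i ≠ j := by intro h; have := congrArg Fin.val h; omega
    refine ⟨⟨fun y hy => (hT i j hij t y hy).1, fun y hy => ?_⟩, ⟨fun y hy => (hT i j hij t y hy).2, fun y hy => ?_⟩⟩
    · rw [← map_inv, ← T_neg hne]; exact (hT i j hij (-t) y hy).1
    · rw [← map_inv, ← T_neg hne.symm]; exact (hT i j hij (-t) y hy).2
  have hK : K = ⊤ := by
    rw [eq_top_iff, ← hgen, Subgroup.closure_le]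
    rintro _ (⟨g, rfl⟩ | ⟨g, rfl⟩)
    · have : g ∈ K.comap D.Θ := by rw [hKT]; trivial
      exact this
    · exact ⟨fun y hy => hA g y hy, fun y hy => by rw [← map_inv]; exact hA _ y hy⟩
  have hx : x ∈ K := by rw [hK]; trivial
  have := hx.1 1 ⟨1, one_mem _, 1, one_mem _, 1, one_mem _, by group⟩
  rwa [mul_one] at this

end DD

end Cfsg.Agent.Lib.PresO
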