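import Cfsg.Agent.Lib.PresOD
import Cfsg.Agent.Lib.H92CTD9

set_option autoImplicit false
set_option linter.unusedSectionVars false
set_option linter.unusedSimpArgs false

/-!
Short presentations of `Ω⁺`: faithfulness (helper38).
-/

namespace Cfsg.Agent.Lib.PresO

open Matrix Cfsg.Agent.Lib.ClSL2 Cfsg.Agent.Lib.H92CT Cfsg.Agent.Lib.H92CTO Cfsg.Agent.Lib.Quad
open Cfsg.Agent.Lib.ClOrthSiegel (E E_conj)
open scoped MatrixGroups

variable {F : Type*} [Field F]

section model
variable {N : ℕ}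

/-- the isotropic subspace -/
def io' (v : Fin N → F) : Sg N → F := Sum.elim v 0

theorem io'_inl (v : Fin N → F) (i : Fin N) : io' v (Sum.inl i) = v i := rfl
theorem io'_inr (v : Fin N → F) (i : Fin N) : io' v (Sum.inr i) = 0 := rfl

theorem io'_inj {v w : Fin N → F} (h : io' v = io' w) : v = w := by
  ext i
  exact congrFun h (Sum.inl i)

theorem io'_bv (i : Fin N) : io' (bv i : Fin N → F) = bl (Sum.inl i) := by
  ext a
  rcases a with a | a
  · rw [io'_inl, bv_apply, bl_apply]; simp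
  · rw [io'_inr, bl_apply]; simp

theorem io'_add (v w : Fin N → F) : io' (v + w) = io' v + io' w := by
  ext a; rcases a with a | a <;> simp [io']

theorem io'_smul (c : F) (v : Fin N → F) : io' (c • v) = c • io' v := by
  ext a; rcases a with a | a <;> simp [io']

/-- Weyl elements of the model -/
noncomputable def nX (a b : Sg N) (t : F) : (Sg N → F) ≃ₗ[F] (Sg N → F) := X a b t * X b a (-t⁻¹) * X a b t

theorem nX_apply {a b : Sg N} (hab : a ≠ b) (hab' : a ≠ b.swap) {t : F} (ht : t ≠ 0) (v : Sg N → F) :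
    nX a b t v = v + (t * v b - v a) • bl a + (-t⁻¹ * v a - v b) • bl b + (-t * v a.swap - v b.swap) • bl b.swap +
      (t⁻¹ * v b.swap - v a.swap) • bl a.swap := by
  change X a b t (X b a (-t⁻¹) (X a b t v)) = _
  rw [X_apply hab, X_apply hab.symm, X_apply hab]
  have h1 : a.swap ≠ b.swap := fun h => hab (sw_inj.mp h)
  have h2 : a.swap ≠ b := fun h => hab' (sw_eq.mp h)
  have h3 := sw_ne a
  have h4 := sw_ne b
  ext c
  simp only [Pi.add_apply, Pi.sub_apply, Pi.smul_apply, smul_eq_mul, bl_apply, h1, h2, h3, h4, h1.symm, h2.symm, h3.symm, h4.symm,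
    hab, hab.symm, hab', hab'.symm, if_false, if_true, Sum.swap_swap]
  split_ifs <;> field_simp <;> ring

end model

namespace DD
variable {m : ℕ} {G : Type*} [Group G] (D : DSys m F G)

/-- a representation on the orthogonal space -/
structure Rep (pr : G →* ((Sg (m + 4) → F) ≃ₗ[F] (Sg (m + 4) → F))) (ε : F) : Prop where
  ne : ε ≠ 0
  O : ∀ x, pr x ∈ O (quadPlus (m + 4) F)
  X : ∀ i j, i ≠ j → ∀ t, pr (D.Θ (T i j t)) = X (Sum.inl i) (Sum.inl j) t
  u : ∀ t, pr (D.A (uS t)) = H92CTO.X (Sum.inl (ip m)) (Sum.inr (iq m)) (ε * t)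
  l : ∀ t, pr (D.A (lS t)) = H92CTO.X (Sum.inr (iq m)) (Sum.inl (ip m)) (ε⁻¹ * t)

variable {D} {pr : G →* ((Sg (m + 4) → F) ≃ₗ[F] (Sg (m + 4) → F))} {ε : F} (R : Rep D pr ε)

namespace Rep
include R

theorem Θ_io (g : SL(m + 4, F)) (v : Fin (m + 4) → F) : pr (D.Θ g) (io' v) = io' ((g : Matrix (Fin (m + 4)) (Fin (m + 4)) F) *ᵥ v) := by
  let K : Subgroup SL(m + 4, F) :=
    { carrier := {g | ∀ v, pr (D.Θ g) (io' v) = io' ((g : Matrix (Fin (m + 4)) (Fin (m + 4)) F) *ᵥ v)}
      one_mem' := fun v => by rw [map_one, map_one, one_mulVec']; rfl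
      mul_mem' := by
        intro a b ha hb v
        rw [map_mul, map_mul, mul_mulVec, ← ha, ← hb]; rfl
      inv_mem' := by
        intro a ha v
        have h1 := ha (((a⁻¹ : SL(m + 4, F)) : Matrix (Fin (m + 4)) (Fin (m + 4)) F) *ᵥ v)
        rw [← mul_mulVec, mul_inv_cancel, one_mulVec'] at h1
        rw [← h1, map_inv, map_inv]
        exact (pr (D.Θ a)).symm_apply_apply _ }
  have hK : K = ⊤ := by
    apply ClSLn.eq_top_of_transvection_mem
    intro i j hij c v
    have h2 : (Matrix.SpecialLinearGroup.transvection hij c : SL(m + 4, F)) = T i j c := by unfold T; rw [dif_pos hij]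
    rw [h2, R.X i j hij, X_apply (by simpa using hij), T_mulVec hij, io'_add, io'_smul, io'_bv]
    change io' v - (c * io' v (Sum.inr i)) • _ + (c * io' v (Sum.inl j)) • bl (Sum.inl i) = _
    rw [io'_inr, io'_inl, mul_zero, zero_smul, sub_zero]
  have : g ∈ K := by rw [hK]; trivial
  exact this v

theorem Y_eq {i j : Fin (m + 4)} (hij : i ≠ j) (t : F) : pr (D.Y i j t) = H92CTO.X (Sum.inl i) (Sum.inr j) (ε * t) := by
  obtain ⟨g, h1, h2⟩ := DSys.exists_pair (F := F) hij
  have h3 := D.Y_act (g := g) (i := ip m) (j := iq m) (k := i) (l := j) (c := 1) (d := 1) hij (by rw [h1, one_smul]) (by rw [h2, one_smul]) t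
  rw [one_mul, one_mul] at h3
  rw [← h3, map_mul, map_mul, map_inv, D.Y_pq, R.u]
  unfold H92CTO.X
  rw [E_conj _ (R.O _), LinearEquiv.map_smul]
  have e1 : pr (D.Θ g) (bl (Sum.inl (ip m))) = bl (Sum.inl i) := by rw [← io'_bv, R.Θ_io, h1, io'_bv]
  have e2 : pr (D.Θ g) (bl (Sum.inl (iq m))) = bl (Sum.inl j) := by rw [← io'_bv, R.Θ_io, h2, io'_bv]
  rw [e1]
  change E _ _ (-(ε * t) • pr (D.Θ g) (bl (Sum.inl (iq m)))) = _
  rw [e2]; rfl

/-- elements of the unipotent radical -/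
theorem YY_io {y : G} (hy : y ∈ D.YY) (v : Fin (m + 4) → F) : pr y (io' v) = io' v := by
  revert v
  unfold DSys.YY at hy
  induction hy using Subgroup.closure_induction with
  | mem y hy =>
    intro v
    obtain ⟨i, j, t, hij, rfl⟩ := hy
    rw [R.Y_eq hij, X_apply (by simp)]
    change io' v - (ε * t * io' v (Sum.inr i)) • _ + (ε * t * io' v (Sum.inr j)) • _ = _
    rw [io'_inr, io'_inr, mul_zero, zero_smul, zero_smul, sub_zero, add_zero]
  | one => intro v; rw [map_one]; rfl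
  | mul a b _ _ ha hb =>
    intro v
    rw [map_mul]
    change pr a (pr b (io' v)) = _
    rw [hb, ha]
  | inv a _ ha =>
    intro v
    rw [map_inv]
    conv_lhs => rw [← ha v]
    exact (pr a).symm_apply_apply _

theorem YY_inr {y : G} (hy : y ∈ D.YY) (j : Fin (m + 4)) : ∃ w : Fin (m + 4) → F, pr y (bl (Sum.inr j)) = bl (Sum.inr j) + io' w := by
  unfold DSys.YY at hy
  induction hy using Subgroup.closure_induction with
  | mem y hy =>
    obtain ⟨i, k, t, hik, rfl⟩ := hy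
    rw [R.Y_eq hik, X_apply (by simp)]
    refine ⟨-(ε * t * (bl (Sum.inr j) : Sg (m + 4) → F) (Sum.inr i)) • bv k + (ε * t * (bl (Sum.inr j) : Sg (m + 4) → F) (Sum.inr k)) • bv i, ?_⟩
    rw [io'_add, io'_smul, io'_smul, io'_bv, io'_bv, neg_smul]
    change bl (Sum.inr j) - (ε * t * (bl (Sum.inr j) : Sg (m + 4) → F) (Sum.inr i)) • bl (Sum.inl k) + _ = _
    abel
  | one => exact ⟨0, by rw [map_one]; ext a; rcases a with a | a <;> simp [io']⟩
  | mul a b ha' _ ha hb =>
    obtain ⟨w, hw⟩ := ha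
    obtain ⟨w', hw'⟩ := hb
    refine ⟨w + w', ?_⟩
    rw [map_mul]
    change pr a (pr b (bl (Sum.inr j))) = _
    rw [hw', map_add, hw, R.YY_io ha', io'_add]; abel
  | inv a ha' ha =>
    obtain ⟨w, hw⟩ := ha
    refine ⟨-w, ?_⟩
    rw [map_inv]
    have h1 : pr a (bl (Sum.inr j) + io' (-w)) = bl (Sum.inr j) := by
      rw [map_add, hw, R.YY_io ha']
      ext c; rcases c with c | c <;> simp [io']
    conv_lhs => rw [← h1]
    exact (pr a).symm_apply_apply _

/-- the coefficient homomorphisms -/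
noncomputable def ka (R : Rep D pr ε) (i j : Fin (m + 4)) : ↥D.YY →* Multiplicative F where
  toFun y := Multiplicative.ofAdd (pr y.1 (bl (Sum.inr j)) (Sum.inl i))
  map_one' := by
    change Multiplicative.ofAdd (pr 1 (bl (Sum.inr j)) (Sum.inl i)) = 1
    rw [map_one]
    change Multiplicative.ofAdd ((bl (Sum.inr j) : Sg (m + 4) → F) (Sum.inl i)) = 1
    rw [bl_apply, if_neg (by simp)]; rfl
  map_mul' a b := by
    obtain ⟨w, hw⟩ := R.YY_inr a.2 j
    obtain ⟨w', hw'⟩ := R.YY_inr b.2 j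
    rw [← ofAdd_add]
    congr 1
    change pr (a.1 * b.1) (bl (Sum.inr j)) (Sum.inl i) = _
    rw [map_mul]
    change pr a.1 (pr b.1 (bl (Sum.inr j))) (Sum.inl i) = _
    rw [hw', map_add, hw, R.YY_io a.2]
    simp only [Pi.add_apply, bl_apply]
    simp

theorem ka_Y {i j k l : Fin (m + 4)} (hij : i ≠ j) (hkl : k ≠ l) (h : ¬ (i = l ∧ j = k)) (t : F) :
    ka R i j ⟨D.Y k l t, D.Y_mem hkl t⟩ = Multiplicative.ofAdd (if k = i ∧ l = j then ε * t else 0) := by
  change Multiplicative.ofAdd (pr (D.Y k l t) (bl (Sum.inr j)) (Sum.inl i)) = _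
  congr 1
  rw [R.Y_eq hkl, X_apply (by simp)]
  simp only [Pi.add_apply, Pi.sub_apply, Pi.smul_apply, smul_eq_mul, bl_apply, Sum.swap_inl, Sum.swap_inr, Sum.inr.injEq, Sum.inl.injEq,
    reduceCtorEq, if_false]
  by_cases h1 : k = i
  · subst h1
    by_cases h2 : l = j
    · subst h2; simp [hkl, hkl.symm, hij, hij.symm]
    · simp [h2, hij]
  · by_cases h2 : k = j
    · subst h2
      have h3 : i ≠ l := fun h4 => h ⟨h4, rfl⟩
      simp [h1, h3, Ne.symm h1]
    · simp [h1, h2, Ne.symm h1]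

theorem YY_ker {y : G} (hy : y ∈ D.YY) (h : pr y = 1) : y = 1 := by
  classical
  letI : CommGroup ↥D.YY := { (inferInstance : Group ↥D.YY) with mul_comm := fun a b => Subtype.ext (D.YY_comm a.2 b.2) }
  let Pp := {p : Fin (m + 4) × Fin (m + 4) // p.1 < p.2}
  let f : Pp → F → ↥D.YY := fun p t => ⟨D.Y p.1.1 p.1.2 t, D.Y_mem p.2.ne t⟩
  have f0 : ∀ p, f p 0 = 1 := fun p => Subtype.ext (D.Y_zero _ _)
  have fa : ∀ p s t, f p (s + t) = f p s * f p t := fun p s t => Subtype.ext (D.Y_add p.2.ne s t)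
  let Φ : (Pp → F) → ↥D.YY := fun c => ∏ p, f p (c p)
  have Φ0 : Φ 0 = 1 := by
    change ∏ p, f p 0 = 1
    exact Finset.prod_eq_one fun p _ => f0 p
  have Φa : ∀ c c', Φ (c + c') = Φ c * Φ c' := fun c c' => by
    change ∏ p, f p (c p + c' p) = (∏ p, f p (c p)) * ∏ p, f p (c' p)
    rw [← Finset.prod_mul_distrib]
    exact Finset.prod_congr rfl fun p _ => fa p _ _
  have Φs : ∀ p t, Φ (Pi.single p t) = f p t := fun p t => by
    change ∏ q, f q (Pi.single (M := fun _ => F) p t q) = f p t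
    rw [Finset.prod_eq_single p]
    · rw [Pi.single_eq_same]
    · intro q _ hq
      rw [Pi.single_eq_of_ne hq, f0]
    · intro h; exact absurd (Finset.mem_univ _) h
  have hsurj : ∀ y (hy : y ∈ D.YY), ∃ c, (⟨y, hy⟩ : ↥D.YY) = Φ c := by
    intro y hy
    unfold DSys.YY at hy
    induction hy using Subgroup.closure_induction with
    | mem y hy =>
      obtain ⟨i, j, t, hij, rfl⟩ := hy
      rcases lt_or_gt_of_ne hij with h1 | h1
      · exact ⟨Pi.single ⟨(i, j), h1⟩ t, by rw [Φs]⟩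
      · refine ⟨Pi.single ⟨(j, i), h1⟩ (-t), ?_⟩
        rw [Φs]
        exact Subtype.ext (D.Y_symm hij t)
    | one => exact ⟨0, Φ0.symm⟩
    | mul a b ha' hb' ha hb =>
      obtain ⟨c, hc⟩ := ha
      obtain ⟨c', hc'⟩ := hb
      exact ⟨c + c', by rw [Φa, ← hc, ← hc']; rfl⟩
    | inv a ha' ha =>
      obtain ⟨c, hc⟩ := ha
      refine ⟨-c, ?_⟩
      have h1 : Φ (-c) * Φ c = 1 := by rw [← Φa, neg_add_cancel, Φ0]
      rw [eq_inv_of_mul_eq_one_left h1, ← hc]; rfl
  obtain ⟨c, hc⟩ := hsurj y hy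
  have hk : ∀ p : Pp, ε * c p = 0 := by
    intro p
    have h1 : ka R p.1.1 p.1.2 ⟨y, hy⟩ = 1 := by
      change Multiplicative.ofAdd (pr y (bl (Sum.inr p.1.2)) (Sum.inl p.1.1)) = 1
      rw [h]
      change Multiplicative.ofAdd ((bl (Sum.inr p.1.2) : Sg (m + 4) → F) (Sum.inl p.1.1)) = 1
      rw [bl_apply, if_neg (by simp)]; rfl
    rw [hc] at h1
    have h2 : ka R p.1.1 p.1.2 (Φ c) = ∏ q, ka R p.1.1 p.1.2 (f q (c q)) := map_prod _ _ _
    rw [h2, Finset.prod_eq_single p] at h1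
    · have h3 := R.ka_Y p.2.ne p.2.ne (fun h => absurd (h.1.symm.le.trans p.2.le) (by
        intro h4
        have := p.2
        rw [h.2] at this
        exact absurd this (lt_irrefl _))) (c p)
      rw [if_pos ⟨rfl, rfl⟩] at h3
      have h4 : Multiplicative.ofAdd (ε * c p) = 1 := h3.symm.trans h1
      exact h4
    · intro q _ hq
      have h3 := R.ka_Y p.2.ne q.2.ne (fun h => by
        have h4 := p.2
        have h5 := q.2
        rw [h.1, h.2] at h4
        exact absurd h5 (not_lt.mpr h4.le)) (c q)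
      rw [if_neg (fun h => hq (Subtype.ext (Prod.ext h.1 h.2)))] at h3
      exact h3
    · intro h; exact absurd (Finset.mem_univ _) h
  have hc0 : c = 0 := by
    ext p
    rcases mul_eq_zero.mp (hk p) with h1 | h1
    · exact absurd h1 R.ne
    · exact h1
  rw [hc0, Φ0] at hc
  exact congrArg Subtype.val hc

end Rep

end DD

end Cfsg.Agent.Lib.PresO
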