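import Cfsg.Agent.Lib.PresOE

set_option autoImplicit false
set_option linter.unusedSectionVars false
set_option linter.unusedSimpArgs false

/-!
Short presentations of `Ω⁺`: faithfulness, second part (helper38).
-/

namespace Cfsg.Agent.Lib.PresO

open Matrix Cfsg.Agent.Lib.ClSL2 Cfsg.Agent.Lib.H92CT Cfsg.Agent.Lib.H92CTO Cfsg.Agent.Lib.Quad
open scoped MatrixGroups

variable {F : Type*} [Field F]

section model
variable {N : ℕ}

/-- the permutation of the basis lines induced by a Weyl element -/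
def sg (a b c : Sg N) : Sg N := if c = a then b else if c = b then a else if c = a.swap then b.swap else if c = b.swap then a.swap else c

theorem nX_bl {a b : Sg N} (hab : a ≠ b) (hab' : a ≠ b.swap) {t : F} (ht : t ≠ 0) (c : Sg N) :
    ∃ k : F, nX a b t (bl c) = k • bl (sg a b c) := by
  have h1 : a.swap ≠ b.swap := fun h => hab (sw_inj.mp h)
  have h2 : a.swap ≠ b := fun h => hab' (sw_eq.mp h)
  have h3 := sw_ne a
  have h4 := sw_ne b
  unfold sg
  by_cases c1 : c = a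
  · subst c1
    refine ⟨-t⁻¹, ?_⟩
    rw [if_pos rfl, nX_apply hab hab' ht]
    ext e
    simp only [Pi.add_apply, Pi.smul_apply, smul_eq_mul, bl_apply, hab, hab.symm, hab', hab'.symm, h1, h2, h3, h3.symm, h1.symm, h2.symm, if_true, if_false]
    split_ifs <;> ring
  · by_cases c2 : c = b
    · subst c2
      refine ⟨t, ?_⟩
      rw [if_neg c1, if_pos rfl, nX_apply hab hab' ht]
      ext e
      simp only [Pi.add_apply, Pi.smul_apply, smul_eq_mul, bl_apply, hab, hab.symm, hab', hab'.symm, h1, h2, h4, h4.symm, h1.symm, h2.symm, if_true, if_false]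
      split_ifs <;> ring
    · by_cases c3 : c = a.swap
      · subst c3
        refine ⟨-t, ?_⟩
        rw [if_neg c1, if_neg c2, if_pos rfl, nX_apply hab hab' ht]
        ext e
        simp only [Pi.add_apply, Pi.smul_apply, smul_eq_mul, bl_apply, hab, hab.symm, hab', hab'.symm, h1, h2, h3, h3.symm, h4, h4.symm, h1.symm, h2.symm, if_true, if_false]
        split_ifs <;> ring
      · by_cases c4 : c = b.swap
        · subst c4
          refine ⟨t⁻¹, ?_⟩
          rw [if_neg c1, if_neg c2, if_neg c3, if_pos rfl, nX_apply hab hab' ht]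
          ext e
          simp only [Pi.add_apply, Pi.smul_apply, smul_eq_mul, bl_apply, hab, hab.symm, hab', hab'.symm, h1, h2, h3, h3.symm, h4, h4.symm, h1.symm, h2.symm, if_true, if_false]
          split_ifs <;> ring
        · refine ⟨1, ?_⟩
          rw [if_neg c1, if_neg c2, if_neg c3, if_neg c4, nX_apply hab hab' ht]
          ext e
          simp only [Pi.add_apply, Pi.smul_apply, smul_eq_mul, bl_apply, Ne.symm c1, Ne.symm c2, Ne.symm c3, Ne.symm c4, if_false]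
          ring

theorem nX_io {i j : Fin N} (hij : i ≠ j) {s : F} (hs : s ≠ 0) (v : Fin N → F) :
    nX (Sum.inl i) (Sum.inr j) s (io' v) = io' v + (-(v i)) • bl (Sum.inl i) + (-(s⁻¹ * v i)) • bl (Sum.inr j) + (-(v j)) • bl (Sum.inl j) +
      (s⁻¹ * v j) • bl (Sum.inr i) := by
  have a1 : (Sum.inl i : Sg N) ≠ Sum.inr j := by simp
  have a2 : (Sum.inl i : Sg N) ≠ (Sum.inr j : Sg N).swap := by simpa using hij
  rw [nX_apply a1 a2 hs]
  change io' v + (s * io' v (Sum.inr j) - io' v (Sum.inl i)) • bl (Sum.inl i) + (-s⁻¹ * io' v (Sum.inl i) - io' v (Sum.inr j)) • bl (Sum.inr j) +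
    (-s * io' v (Sum.inr i) - io' v (Sum.inl j)) • bl (Sum.inl j) + (s⁻¹ * io' v (Sum.inl j) - io' v (Sum.inr i)) • bl (Sum.inr i) = _
  rw [io'_inl, io'_inl, io'_inr, io'_inr]
  simp only [mul_zero, zero_sub, sub_zero, neg_mul]

theorem nX_io2 {i j : Fin N} (hij : i ≠ j) {s t : F} (hs : s ≠ 0) (ht : t ≠ 0) (v : Fin N → F) :
    nX (Sum.inl i) (Sum.inr j) t (nX (Sum.inl i) (Sum.inr j) s (io' v)) = io' (fun k => (if k = i ∨ k = j then -(t * s⁻¹) else 1) * v k) := by
  have a1 : (Sum.inl i : Sg N) ≠ Sum.inr j := by simp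
  have a2 : (Sum.inl i : Sg N) ≠ (Sum.inr j : Sg N).swap := by simpa using hij
  set w := nX (Sum.inl i) (Sum.inr j) s (io' v) with hw
  have hw' := nX_io hij hs v
  rw [← hw] at hw'
  have e1 : w (Sum.inr j) = -(s⁻¹ * v i) := by
    rw [hw']; simp [bl_apply, io'_inr, hij, hij.symm]
  have e2 : w (Sum.inl i) = 0 := by
    rw [hw']; simp [bl_apply, io'_inl, hij]
  have e3 : w (Sum.inr i) = s⁻¹ * v j := by
    rw [hw']; simp [bl_apply, io'_inr, hij]
  have e4 : w (Sum.inl j) = 0 := by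
    rw [hw']; simp [bl_apply, io'_inl, hij.symm]
  rw [nX_apply a1 a2 ht]
  change w + (t * w (Sum.inr j) - w (Sum.inl i)) • bl (Sum.inl i) + (-t⁻¹ * w (Sum.inl i) - w (Sum.inr j)) • bl (Sum.inr j) +
    (-t * w (Sum.inr i) - w (Sum.inl j)) • bl (Sum.inl j) + (t⁻¹ * w (Sum.inl j) - w (Sum.inr i)) • bl (Sum.inr i) = _
  rw [e1, e2, e3, e4, hw']
  ext e
  rcases e with e | e
  · simp only [Pi.add_apply, Pi.smul_apply, smul_eq_mul, bl_apply, io'_inl, Sum.inl.injEq, reduceCtorEq, if_false]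
    by_cases h2 : e = i
    · subst h2; simp only [if_true, hij, if_false, true_or]; ring
    · by_cases h3 : e = j
      · subst h3; simp only [if_true, hij.symm, if_false, or_true]; ring
      · simp only [h2, h3, or_self, if_false]; ring
  · simp only [Pi.add_apply, Pi.smul_apply, smul_eq_mul, bl_apply, io'_inr, Sum.inr.injEq, reduceCtorEq, if_false]
    by_cases h2 : e = i
    · subst h2; simp only [if_true, hij, if_false]; ring
    · by_cases h3 : e = j
      · subst h3; simp only [if_true, hij.symm, if_false]; ring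
      · simp only [h2, h3, if_false]; ring

end model

namespace DD
variable {m : ℕ} {G : Type*} [Group G] {D : DSys m F G}
variable {pr : G →* ((Sg (m + 4) → F) ≃ₗ[F] (Sg (m + 4) → F))} {ε : F}

/-- an element maps a basis line to a basis line -/
def Ln (pr : G →* ((Sg (m + 4) → F) ≃ₗ[F] (Sg (m + 4) → F))) (x : G) (a b : Sg (m + 4)) : Prop := ∃ c : F, pr x (bl a) = c • bl b

theorem Ln.mul {x y : G} {a b c : Sg (m + 4)} (h1 : Ln pr y a b) (h2 : Ln pr x b c) : Ln pr (x * y) a c := by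
  obtain ⟨k, hk⟩ := h1
  obtain ⟨l, hl⟩ := h2
  refine ⟨k * l, ?_⟩
  rw [map_mul]
  change pr x (pr y (bl a)) = _
  rw [hk, LinearEquiv.map_smul, hl, smul_smul]

namespace Rep
variable (R : Rep D pr ε)
include R

theorem w_eq {i j : Fin (m + 4)} (hij : i ≠ j) : pr (D.Θ (wT i j)) = nX (Sum.inl i) (Sum.inl j) 1 := by
  unfold wT nX
  rw [map_mul, map_mul, map_mul, map_mul, R.X i j hij, R.X j i hij.symm, inv_one]

theorem n_eq (c : F) : pr (D.A (nS c (-c⁻¹))) = nX (Sum.inl (ip m)) (Sum.inr (iq m)) (ε * c) := by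
  unfold nS nX
  rw [map_mul, map_mul, map_mul, map_mul, R.u, R.l]
  congr 3
  rw [mul_inv]; ring

theorem r_eq : pr (rr D) = nX (Sum.inl (ip m)) (Sum.inr (iq m)) ε := by
  have := R.n_eq 1
  rw [inv_one, mul_one] at this
  exact this

theorem ln_w {i j : Fin (m + 4)} (hij : i ≠ j) (a : Sg (m + 4)) : Ln pr (D.Θ (wT i j)) a (sg (Sum.inl i) (Sum.inl j) a) := by
  obtain ⟨k, hk⟩ := nX_bl (F := F) (a := Sum.inl i) (b := Sum.inl j) (by simpa using hij) (by simp) one_ne_zero a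
  exact ⟨k, by rw [R.w_eq hij]; exact hk⟩

theorem ln_w' {i j : Fin (m + 4)} (hij : i ≠ j) (a : Sg (m + 4)) : Ln pr (D.Θ (wT i j))⁻¹ a (sg (Sum.inl j) (Sum.inl i) a) := by
  rw [← map_inv, ← wT_swap hij]
  exact R.ln_w hij.symm a

theorem ln_r (a : Sg (m + 4)) : Ln pr (rr D) a (sg (Sum.inl (ip m)) (Sum.inr (iq m)) a) := by
  obtain ⟨k, hk⟩ := nX_bl (F := F) (a := Sum.inl (ip m)) (b := Sum.inr (iq m)) (by simp) (by simpa using ip_ne_iq m) R.ne a
  exact ⟨k, by rw [R.r_eq]; exact hk⟩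

theorem ln_B1 : Ln pr (D.Θ (wT (ip m) (iq m)) * rr D) (Sum.inl (ip m)) (Sum.inr (ip m)) := by
  have h := ip_ne_iq m
  have h1 := R.ln_r (Sum.inl (ip m))
  have h2 := R.ln_w h (Sum.inr (iq m))
  have e1 : sg (Sum.inl (ip m)) (Sum.inr (iq m)) (Sum.inl (ip m)) = (Sum.inr (iq m) : Sg (m + 4)) := by simp [sg]
  have e2 : sg (Sum.inl (ip m)) (Sum.inl (iq m)) (Sum.inr (iq m)) = (Sum.inr (ip m) : Sg (m + 4)) := by simp [sg, h.symm]
  rw [e1] at h1
  rw [e2] at h2
  exact h1.mul h2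

theorem ln_B2 : Ln pr (D.Θ (wT (ip m) (iq m)) * rr D) (Sum.inr (ip m)) (Sum.inl (ip m)) := by
  have h := ip_ne_iq m
  have h1 := R.ln_r (Sum.inr (ip m))
  have h2 := R.ln_w h (Sum.inl (iq m))
  have e1 : sg (Sum.inl (ip m)) (Sum.inr (iq m)) (Sum.inr (ip m)) = (Sum.inl (iq m) : Sg (m + 4)) := by simp [sg, h]
  have e2 : sg (Sum.inl (ip m)) (Sum.inl (iq m)) (Sum.inl (iq m)) = (Sum.inl (ip m) : Sg (m + 4)) := by simp [sg, h.symm]
  rw [e1] at h1
  rw [e2] at h2
  exact h1.mul h2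

theorem ln_B3 {k : Fin (m + 4)} (hk : k ≠ ip m) (hk' : k ≠ iq m) : Ln pr (D.Θ (wT (ip m) (iq m)) * rr D) (Sum.inl k) (Sum.inl k) := by
  have h1 := R.ln_r (Sum.inl k)
  have h2 := R.ln_w (ip_ne_iq m) (Sum.inl k)
  have e1 : sg (Sum.inl (ip m)) (Sum.inr (iq m)) (Sum.inl k) = (Sum.inl k : Sg (m + 4)) := by simp [sg, hk, hk']
  have e2 : sg (Sum.inl (ip m)) (Sum.inl (iq m)) (Sum.inl k) = (Sum.inl k : Sg (m + 4)) := by simp [sg, hk, hk']
  rw [e1] at h1
  rw [e2] at h2
  exact h1.mul h2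

theorem ln_B4 {k : Fin (m + 4)} (hk : k ≠ ip m) (hk' : k ≠ iq m) : Ln pr (D.Θ (wT (ip m) (iq m)) * rr D) (Sum.inr k) (Sum.inr k) := by
  have h1 := R.ln_r (Sum.inr k)
  have h2 := R.ln_w (ip_ne_iq m) (Sum.inr k)
  have e1 : sg (Sum.inl (ip m)) (Sum.inr (iq m)) (Sum.inr k) = (Sum.inr k : Sg (m + 4)) := by simp [sg, hk, hk']
  have e2 : sg (Sum.inl (ip m)) (Sum.inl (iq m)) (Sum.inr k) = (Sum.inr k : Sg (m + 4)) := by simp [sg, hk, hk']
  rw [e1] at h1
  rw [e2] at h2
  exact h1.mul h2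

/-- the sign change `el' i` -/
theorem ln_el (i : Fin (m + 4)) (hi : i ≠ iq m) :
    (Ln pr (el' D i) (Sum.inl i) (Sum.inr i) ∧ Ln pr (el' D i) (Sum.inr i) (Sum.inl i)) ∧
    ∀ k, k ≠ i → k ≠ iq m → Ln pr (el' D i) (Sum.inl k) (Sum.inl k) ∧ Ln pr (el' D i) (Sum.inr k) (Sum.inr k) := by
  unfold el'
  by_cases hR : i = ip m
  · subst hR
    rw [wT_self, map_one, inv_one, mul_one, one_mul]
    exact ⟨⟨R.ln_B1, R.ln_B2⟩, fun k h1 h2 => ⟨R.ln_B3 h1 h2, R.ln_B4 h1 h2⟩⟩
  · have sgl : ∀ i j k : Fin (m + 4), i ≠ j → sg (Sum.inl i) (Sum.inl j) (Sum.inl k) = (Sum.inl (Equiv.swap i j k) : Sg (m + 4)) := by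
      intro i j k hij
      unfold sg
      by_cases h1 : k = i
      · subst h1; simp
      · by_cases h2 : k = j
        · subst h2; simp [h1]
        · rw [Equiv.swap_apply_of_ne_of_ne h1 h2]; simp [h1, h2]
    have sgr : ∀ i j k : Fin (m + 4), i ≠ j → sg (Sum.inl i) (Sum.inl j) (Sum.inr k) = (Sum.inr (Equiv.swap i j k) : Sg (m + 4)) := by
      intro i j k hij
      unfold sg
      by_cases h1 : k = i
      · subst h1; simp
      · by_cases h2 : k = j
        · subst h2; simp [h1]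
        · rw [Equiv.swap_apply_of_ne_of_ne h1 h2]; simp [h1, h2]
    have wl : ∀ k, Ln pr (D.Θ (wT i (ip m))) (Sum.inl k) (Sum.inl (Equiv.swap i (ip m) k)) := fun k => by
      have := R.ln_w hR (Sum.inl k)
      rwa [sgl _ _ _ hR] at this
    have wr : ∀ k, Ln pr (D.Θ (wT i (ip m))) (Sum.inr k) (Sum.inr (Equiv.swap i (ip m) k)) := fun k => by
      have := R.ln_w hR (Sum.inr k)
      rwa [sgr _ _ _ hR] at this
    have wl' : ∀ k, Ln pr (D.Θ (wT i (ip m)))⁻¹ (Sum.inl k) (Sum.inl (Equiv.swap i (ip m) k)) := fun k => by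
      have := R.ln_w' hR (Sum.inl k)
      rwa [sgl _ _ _ (Ne.symm hR), Equiv.swap_comm] at this
    have wr' : ∀ k, Ln pr (D.Θ (wT i (ip m)))⁻¹ (Sum.inr k) (Sum.inr (Equiv.swap i (ip m) k)) := fun k => by
      have := R.ln_w' hR (Sum.inr k)
      rwa [sgr _ _ _ (Ne.symm hR), Equiv.swap_comm] at this
    refine ⟨⟨?_, ?_⟩, fun k h1 h2 => ?_⟩
    · have a1 := wl' i
      have a3 := wr (ip m)
      rw [Equiv.swap_apply_left] at a1
      rw [Equiv.swap_apply_right] at a3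
      exact a1.mul (R.ln_B1.mul a3)
    · have a1 := wr' i
      have a3 := wl (ip m)
      rw [Equiv.swap_apply_left] at a1
      rw [Equiv.swap_apply_right] at a3
      exact a1.mul (R.ln_B2.mul a3)
    · have e1 : Equiv.swap i (ip m) k ≠ ip m := by
        intro h
        rw [Equiv.swap_apply_eq_iff, Equiv.swap_apply_right] at h
        exact h1 h
      have e2 : Equiv.swap i (ip m) k ≠ iq m := by
        intro h
        rw [Equiv.swap_apply_eq_iff, Equiv.swap_apply_of_ne_of_ne (Ne.symm hi) (ip_ne_iq m).symm] at h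
        exact h2 h
      have b1 := wl (Equiv.swap i (ip m) k)
      have b2 := wr (Equiv.swap i (ip m) k)
      rw [Equiv.swap_apply_self] at b1 b2
      exact ⟨(wl' k).mul ((R.ln_B3 e1 e2).mul b1), (wr' k).mul ((R.ln_B4 e1 e2).mul b2)⟩

theorem ln_list (l : List (Fin (m + 4))) (hl : l.Nodup) (hP : iq m ∉ l) : ∀ k, k ≠ iq m →
    (k ∈ l → Ln pr (l.map (el' D)).prod (Sum.inl k) (Sum.inr k)) ∧
    (k ∉ l → Ln pr (l.map (el' D)).prod (Sum.inl k) (Sum.inl k)) := by
  induction l with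
  | nil =>
    intro k _
    refine ⟨fun h => absurd h (by simp), fun _ => ⟨1, ?_⟩⟩
    rw [List.map_nil, List.prod_nil, map_one, one_smul]; rfl
  | cons i l ih =>
    intro k hk
    rw [List.nodup_cons] at hl
    rw [List.mem_cons, not_or] at hP
    obtain ⟨ih1, ih2⟩ := ih hl.2 hP.2 k hk
    obtain ⟨⟨h1, h2⟩, h3⟩ := R.ln_el i (Ne.symm hP.1)
    rw [List.map_cons, List.prod_cons]
    refine ⟨fun h => ?_, fun h => ?_⟩
    · rcases List.mem_cons.mp h with h4 | h4
      · subst h4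
        exact (ih2 hl.1).mul h1
      · have hki : k ≠ i := by rintro rfl; exact hl.1 h4
        exact (ih1 h4).mul (h3 k hki hk).2
    · rw [List.mem_cons, not_or] at h
      exact (ih2 h.2).mul (h3 k h.1 hk).1

/-- the extra torus on the isotropic subspace -/
theorem hh_io (c : Fˣ) (v : Fin (m + 4) → F) : pr (hh D c) (io' v) =
    io' (fun k => (if k = ip m ∨ k = iq m then (c : F) else 1) * v k) := by
  have h1 : hh D c = D.A (nS c (-(c : F)⁻¹)) * D.A (nS (-1) (-(-1)⁻¹)) := by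
    have := dS_eq c 1 one_ne_zero
    rw [one_mul, inv_one] at this
    have e : (-(-1 : F)⁻¹) = 1 := by rw [inv_neg, inv_one, neg_neg]
    change D.A (dS c) = _
    rw [this, map_mul, e]
  rw [h1, map_mul, LinearEquiv.mul_apply, R.n_eq, R.n_eq, nX_io2 (ip_ne_iq m) (mul_ne_zero R.ne (neg_ne_zero.mpr one_ne_zero)) (mul_ne_zero R.ne c.ne_zero)]
  have hε := R.ne
  have e1 : -(ε * (c : F) * (ε * -1)⁻¹) = c := by field_simp
  rw [e1]

end Rep

/-- the parabolic subgroup -/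
def PP (D : DSys m F G) : Subgroup G where
  carrier := {x | ∃ y ∈ D.YY, ∃ g, x = y * D.Θ g}
  one_mem' := ⟨1, one_mem _, 1, by rw [map_one, mul_one]⟩
  mul_mem' := by
    rintro _ _ ⟨y, hy, g, rfl⟩ ⟨y', hy', g', rfl⟩
    refine ⟨y * (D.Θ g * y' * (D.Θ g)⁻¹), mul_mem hy ((Subgroup.mem_normalizer_iff.mp (D.Θ_norm g) _).mp hy'), g * g', ?_⟩
    rw [map_mul]; group
  inv_mem' := by
    rintro _ ⟨y, hy, g, rfl⟩
    refine ⟨D.Θ g⁻¹ * y⁻¹ * (D.Θ g⁻¹)⁻¹, (Subgroup.mem_normalizer_iff.mp (D.Θ_norm g⁻¹) _).mp (inv_mem hy), g⁻¹, ?_⟩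
    rw [map_inv]; group

theorem Θ_PP (g : SL(m + 4, F)) : D.Θ g ∈ PP D := ⟨1, one_mem _, g, by rw [one_mul]⟩
theorem YY_PP {y : G} (hy : y ∈ D.YY) : y ∈ PP D := ⟨y, hy, 1, by rw [map_one, mul_one]⟩

theorem UA_PP {u : G} (hu : u ∈ D.UA) : u ∈ PP D := by
  have : D.UA ≤ PP D := by
    unfold DSys.UA
    rw [Subgroup.closure_le]
    rintro _ ⟨⟨κ, i, j⟩, t, hpos, rfl⟩
    cases κ
    · exact Θ_PP _
    · exact YY_PP (D.Y_mem hpos.2.ne _)
    · exact absurd rfl hpos.1
  exact this hu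

namespace Rep
variable (R : Rep D pr ε)
include R

theorem PP_io {p : G} (hp : p ∈ PP D) : ∃ M : SL(m + 4, F), ∀ v, pr p (io' v) = io' ((M : Matrix (Fin (m + 4)) (Fin (m + 4)) F) *ᵥ v) := by
  obtain ⟨y, hy, g, rfl⟩ := hp
  refine ⟨g, fun v => ?_⟩
  rw [map_mul]
  change pr y (pr (D.Θ g) (io' v)) = _
  rw [R.Θ_io, R.YY_io hy]

theorem PP_ker {p : G} (hp : p ∈ PP D) (h : pr p = 1) : p = 1 := by
  obtain ⟨y, hy, g, rfl⟩ := hp
  have hg : g = 1 := by
    apply ext_mulVec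
    intro v
    rw [one_mulVec']
    apply io'_inj
    have h1 : pr (y * D.Θ g) (io' v) = io' v := by rw [h]; rfl
    rw [map_mul] at h1
    change pr y (pr (D.Θ g) (io' v)) = _ at h1
    rwa [R.Θ_io, R.YY_io hy] at h1
  subst hg
  rw [map_one, mul_one] at h ⊢
  exact R.YY_ker hy h

/-- faithfulness -/
theorem inj [Finite F] (hgen : Subgroup.closure (Set.range D.Θ ∪ Set.range D.A) = ⊤) (hz : ∃ z, D.A (dS (-1)) = D.Θ z) :
    Function.Injective pr := by
  classical
  rw [injective_iff_map_eq_one]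
  intro x hx
  obtain ⟨u, hu, n, hn, p, hp, rfl⟩ := decomp2 D hgen (PP D) Θ_PP (fun i j t hij => YY_PP (D.Y_mem hij t)) x
  have hu' := UA_PP hu
  obtain ⟨M1, hM1⟩ := R.PP_io (inv_mem hu')
  obtain ⟨M2, hM2⟩ := R.PP_io (inv_mem hp)
  have hn1 : ∀ v, pr n (io' v) = io' (((M1 * M2 : SL(m + 4, F)) : Matrix (Fin (m + 4)) (Fin (m + 4)) F) *ᵥ v) := by
    intro v
    have h1 : pr n = pr u⁻¹ * pr p⁻¹ := by
      have h2 : pr n = pr u⁻¹ * pr (u * n * p) * pr p⁻¹ := by rw [← map_mul, ← map_mul]; congr 1; group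
      rw [h2, hx, mul_one]
    rw [h1]
    change pr u⁻¹ (pr p⁻¹ (io' v)) = _
    rw [hM2, hM1, mul_mulVec]
  obtain ⟨l, h1, h2, g, c, rfl⟩ := NW_nf D hn
  set E := (l.map (el' D)).prod with hE
  have hEv : ∀ w : Fin (m + 4) → F, ∃ v : Fin (m + 4) → F, pr E (io' w) = io' v := by
    intro w
    set w1 := ((g⁻¹ : SL(m + 4, F)) : Matrix (Fin (m + 4)) (Fin (m + 4)) F) *ᵥ w with hw1
    set w2 : Fin (m + 4) → F := fun k => (if k = ip m ∨ k = iq m then ((c⁻¹ : Fˣ) : F) else 1) * w1 k with hw2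
    have e1 : pr (hh D c) (io' w2) = io' w1 := by
      rw [R.hh_io]
      congr 1
      ext k
      rw [hw2]
      simp only
      by_cases hk : k = ip m ∨ k = iq m
      · rw [if_pos hk, if_pos hk, ← mul_assoc, ← Units.val_mul, mul_inv_cancel, Units.val_one, one_mul]
      · rw [if_neg hk, if_neg hk, one_mul, one_mul]
    have e2 : pr (D.Θ g) (io' w1) = io' w := by
      rw [R.Θ_io, hw1, ← mul_mulVec, mul_inv_cancel, one_mulVec']
    have e3 := hn1 w2
    rw [map_mul, map_mul] at e3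
    change pr E (pr (D.Θ g) (pr (hh D c) (io' w2))) = _ at e3
    rw [e1, e2] at e3
    exact ⟨_, e3⟩
  have hl : l = [] := by
    rcases l with _ | ⟨k, l'⟩
    · rfl
    · exfalso
      have hk : k ≠ iq m := by rintro rfl; exact h2 (by simp)
      obtain ⟨a, ha⟩ := (R.ln_list (k :: l') h1 h2 k hk).1 (by simp)
      rw [← hE] at ha
      obtain ⟨v, hv⟩ := hEv (bv k)
      rw [io'_bv, ha] at hv
      have h3 := congrFun hv (Sum.inr k)
      rw [Pi.smul_apply, bl_apply, if_pos rfl, io'_inr, smul_eq_mul, mul_one] at h3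
      rw [h3, zero_smul] at ha
      have h4 : (bl (Sum.inl k) : Sg (m + 4) → F) = 0 := by
        rw [← (pr E).map_eq_zero_iff]; exact ha
      have h5 := congrFun h4 (Sum.inl k)
      rw [bl_apply, if_pos rfl] at h5
      exact one_ne_zero h5
  have hE1 : E = 1 := by rw [hE, hl]; rfl
  have hcc : (c : F) * c = 1 := by
    set Dm : Matrix (Fin (m + 4)) (Fin (m + 4)) F := Matrix.diagonal (fun k => if k = ip m ∨ k = iq m then (c : F) else 1) with hDm
    have e1 : (g : Matrix (Fin (m + 4)) (Fin (m + 4)) F) * Dm = ((M1 * M2 : SL(m + 4, F)) : Matrix (Fin (m + 4)) (Fin (m + 4)) F) := by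
      have h3 : ∀ v, ((g : Matrix (Fin (m + 4)) (Fin (m + 4)) F) * Dm) *ᵥ v = ((M1 * M2 : SL(m + 4, F)) : Matrix (Fin (m + 4)) (Fin (m + 4)) F) *ᵥ v := by
        intro v
        apply io'_inj
        rw [← hn1, hE1, one_mul, map_mul]
        change _ = pr (D.Θ g) (pr (hh D c) (io' v))
        rw [R.hh_io, R.Θ_io, ← Matrix.mulVec_mulVec]
        congr 2
        ext k
        rw [hDm, Matrix.mulVec_diagonal]
      ext i j
      have := congrFun (h3 (Pi.single j 1)) i
      rwa [Matrix.mulVec_single_one, Matrix.mulVec_single_one] at this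
    have e2 := congrArg Matrix.det e1
    rw [Matrix.det_mul, g.det_coe, one_mul, (M1 * M2).det_coe, hDm, Matrix.det_diagonal] at e2
    rw [← Finset.mul_prod_erase Finset.univ _ (Finset.mem_univ (ip m)),
      ← Finset.mul_prod_erase (Finset.univ.erase (ip m)) _ (Finset.mem_erase.mpr ⟨(ip_ne_iq m).symm, Finset.mem_univ (iq m)⟩)] at e2
    rw [if_pos (Or.inl rfl), if_pos (Or.inr rfl), Finset.prod_eq_one, mul_one] at e2
    · exact e2
    · intro k hk
      simp only [Finset.mem_erase, Finset.mem_univ, and_true] at hk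
      rw [if_neg]
      rintro (h | h)
      · exact hk.2 h
      · exact hk.1 h
  have hh1 : hh D c ∈ PP D := by
    have : (c : F) = 1 ∨ (c : F) = -1 := mul_self_eq_one_iff.mp hcc
    rcases this with h | h
    · have : c = 1 := Units.ext h
      rw [this, map_one]; exact one_mem _
    · have : c = -1 := Units.ext (by rw [h]; simp)
      rw [this]
      obtain ⟨z, hz⟩ := hz
      change D.A (dS (-1)) ∈ _
      rw [hz]; exact Θ_PP z
  refine R.PP_ker ?_ hx
  refine mul_mem (mul_mem hu' ?_) hp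
  rw [hE1, one_mul]
  exact mul_mem (Θ_PP g) hh1

end Rep

end DD

end Cfsg.Agent.Lib.PresO
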