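import Cfsg.Agent.Lib.PresField
import Cfsg.Agent.Lib.PresAn
import Cfsg.Agent.Lib.ClSL2

/-! Short presentations of `SL₂(q)` and `PSL₂(q)` (helper38). -/

set_option autoImplicit false

namespace Cfsg.Agent.Lib.PresSL2

open Polynomial Cfsg.Agent.Lib.PresMod Cfsg.Agent.Lib.PresField Cfsg.Agent.Lib.PresTool

variable {F : Type*} [Field F] {G : Type*} [Group G]

theorem IsY.zpow {θ : F} {h u : G} {y : F → G} (hy : IsY θ h u y) (hθ : θ ≠ 0) (n : ℤ) (x : F) :
    h ^ n * y x * (h ^ n)⁻¹ = y (θ ^ n * x) := by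
  rcases n with n | n
  · rw [Int.ofNat_eq_natCast, zpow_natCast, zpow_natCast, hy.pow]
  · rw [zpow_negSucc, zpow_negSucc, inv_inv]
    have h1 := hy.pow (n + 1) ((θ ^ (n + 1))⁻¹ * x)
    rw [mul_inv_cancel_left₀ (pow_ne_zero _ hθ)] at h1
    rw [← h1]; group

theorem IsY.zpow_mul {θ : F} {h u : G} {y : F → G} (hy : IsY θ h u y) (hθ : θ ≠ 0) (n : ℤ) (x : F) :
    h ^ n * y x = y (θ ^ n * x) * h ^ n := by
  rw [← IsY.zpow hy hθ, inv_mul_cancel_right]

theorem IsY.mul_zpow {θ : F} {h u : G} {y : F → G} (hy : IsY θ h u y) (hθ : θ ≠ 0) (n : ℤ) (x : F) :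
    y x * h ^ n = h ^ n * y (θ ^ (-n) * x) := by
  rw [IsY.zpow_mul hy hθ, ← mul_assoc, ← zpow_add₀ hθ, add_neg_cancel, zpow_zero, one_mul]

/-- order bound for groups with an `SL₂`-like Bruhat decomposition. -/
theorem sl2_bound [Fintype F] {θ : F} {h u t : G} {y : F → G} (hy : IsY θ h u y) (hθ : θ ≠ 0) (m : ℕ) (hm : 0 < m)
    (hhm : h ^ m = 1) (ht : t * h * t⁻¹ = h⁻¹) (ht2 : ∃ l : ℤ, t ^ 2 = h ^ l)
    (hbr : ∀ x : F, x ≠ 0 → ∃ (a b : F) (l : ℤ), t * y x * t⁻¹ = y a * h ^ l * t * y b)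
    (hgen : Subgroup.closure (Set.range y ∪ {h, t}) = ⊤) :
    Finite G ∧ Nat.card G ≤ m * (Fintype.card F * (Fintype.card F + 1)) := by
  classical
  obtain ⟨l, hl⟩ := ht2
  have hth : ∀ n : ℤ, t * h ^ n = h ^ (-n) * t := by
    intro n
    have : t * h ^ n * t⁻¹ = h ^ (-n) := by rw [← conj_zpow, ht, inv_zpow, zpow_neg]
    rw [← this, inv_mul_cancel_right]
  set T : Set G := {g | ∃ (x : F) (k : ℤ), g = y x * h ^ k} ∪ {g | ∃ (x : F) (k : ℤ) (z : F), g = y x * h ^ k * t * y z} with hT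
  have Ty : ∀ g ∈ T, ∀ w : F, g * y w ∈ T := by
    rintro g (⟨x, k, rfl⟩ | ⟨x, k, z, rfl⟩) w
    · left
      exact ⟨x + θ ^ k * w, k, by rw [mul_assoc, IsY.zpow_mul hy hθ, hy.add, mul_assoc]⟩
    · right
      exact ⟨x, k, z + w, by rw [mul_assoc, ← hy.add]⟩
  have Th : ∀ g ∈ T, ∀ n : ℤ, g * h ^ n ∈ T := by
    rintro g (⟨x, k, rfl⟩ | ⟨x, k, z, rfl⟩) n
    · left
      exact ⟨x, k + n, by rw [mul_assoc, ← zpow_add]⟩
    · right
      refine ⟨x, k - n, θ ^ (-n) * z, ?_⟩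
      have h1 : y x * h ^ k * t * y z * h ^ n = y x * h ^ k * t * (y z * h ^ n) := by simp only [mul_assoc]
      have h2 : y x * h ^ k * t * (h ^ n * y (θ ^ (-n) * z)) = y x * h ^ k * (t * h ^ n) * y (θ ^ (-n) * z) := by
        simp only [mul_assoc]
      rw [h1, IsY.mul_zpow hy hθ n z, h2, hth, sub_eq_add_neg, zpow_add]
      simp only [mul_assoc]
  have Tt : ∀ g ∈ T, g * t ∈ T := by
    rintro g (⟨x, k, rfl⟩ | ⟨x, k, z, rfl⟩)
    · right
      exact ⟨x, k, 0, by rw [hy.zero, mul_one]⟩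
    · by_cases hz : z = 0
      · left
        refine ⟨x, k + l, ?_⟩
        rw [hz, hy.zero, mul_one, mul_assoc, ← sq, hl, zpow_add]; simp only [mul_assoc]
      · obtain ⟨a, b, n, hab⟩ := hbr z hz
        have h1 : t * y z * t = y a * h ^ n * t * y b * h ^ l := by
          rw [← hl, ← hab, sq]; group
        have h2 : y x * h ^ k * t * y z * t = y x * h ^ k * (t * y z * t) := by simp only [mul_assoc]
        rw [h2, h1]
        have h3 : y x * h ^ k * (y a * h ^ n * t * y b * h ^ l) = ((y x * h ^ k) * y a * h ^ n * t * y b) * h ^ l := by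
          simp only [mul_assoc]
        rw [h3]
        apply Th
        right
        refine ⟨x + θ ^ k * a, k + n, b, ?_⟩
        rw [mul_assoc (y x), IsY.zpow_mul hy hθ, hy.add, zpow_add]; simp only [mul_assoc]
  have hall : ∀ g : G, g ∈ T := by
    intro g
    have hg : g ∈ Subgroup.closure (Set.range y ∪ {h, t}) := by rw [hgen]; exact Subgroup.mem_top g
    have hTt' : ∀ g ∈ T, g * t⁻¹ ∈ T := by
      intro g hg
      have h1 : g * t⁻¹ = g * t * h ^ (-l) := by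
        rw [zpow_neg, ← hl, sq]; group
      rw [h1]
      exact Th _ (Tt _ hg) _
    induction hg using Subgroup.closure_induction_right with
    | one => left; exact ⟨0, 0, by rw [hy.zero, zpow_zero, mul_one]⟩
    | mul_right a _ b hb ih =>
      rcases hb with ⟨w, rfl⟩ | rfl | hb
      · exact Ty _ ih w
      · have := Th _ ih 1
        rwa [zpow_one] at this
      · rw [Set.mem_singleton_iff.1 hb]; exact Tt _ ih
    | mul_inv_cancel a _ b hb ih =>
      rcases hb with ⟨w, rfl⟩ | rfl | hb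
      · rw [← hy.neg]; exact Ty _ ih _
      · have := Th _ ih (-1)
        rwa [zpow_neg_one] at this
      · rw [Set.mem_singleton_iff.1 hb]; exact hTt' _ ih
  -- counting
  haveI : NeZero m := ⟨hm.ne'⟩
  have hred : ∀ k : ℤ, ∃ i : Fin m, h ^ k = h ^ (i : ℕ) := by
    intro k
    have hpos : (0 : ℤ) < m := by exact_mod_cast hm
    refine ⟨⟨(k % m).toNat, ?_⟩, ?_⟩
    · have h1 := Int.emod_lt_of_pos k hpos
      have h2 := Int.emod_nonneg k hpos.ne'
      omega
    · have h2 := Int.emod_nonneg k hpos.ne'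
      have h3 : h ^ k = h ^ (k % m) := by
        conv_lhs => rw [← Int.emod_add_mul_ediv k m, zpow_add, zpow_mul, zpow_natCast, hhm, one_zpow, mul_one]
      rw [h3, ← zpow_natCast]
      congr 1
      simp only
      omega
  let f : (F × Fin m) ⊕ (F × Fin m × F) → G := Sum.elim (fun p => y p.1 * h ^ (p.2 : ℕ)) (fun p => y p.1 * h ^ (p.2.1 : ℕ) * t * y p.2.2)
  have hf : Function.Surjective f := by
    intro g
    rcases hall g with ⟨x, k, rfl⟩ | ⟨x, k, z, rfl⟩
    · obtain ⟨i, hi⟩ := hred k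
      exact ⟨Sum.inl (x, i), by rw [hi]; rfl⟩
    · obtain ⟨i, hi⟩ := hred k
      exact ⟨Sum.inr (x, i, z), by rw [hi]; rfl⟩
  refine ⟨Finite.of_surjective f hf, ?_⟩
  have h1 := Nat.card_le_card_of_surjective f hf
  rw [Nat.card_eq_fintype_card (α := (F × Fin m) ⊕ (F × Fin m × F)), Fintype.card_sum, Fintype.card_prod, Fintype.card_prod, Fintype.card_prod, Fintype.card_fin] at h1
  calc Nat.card G ≤ _ := h1
    _ = _ := by ring

/-! ### the target -/

open Matrix Matrix.SpecialLinearGroup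
open scoped MatrixGroups

/-- upper unipotent -/
def yS (x : F) : SL(2, F) := ⟨!![1, x; 0, 1], by simp [Matrix.det_fin_two]⟩
def tS : SL(2, F) := ⟨!![0, 1; -1, 0], by simp [Matrix.det_fin_two]⟩
def hS (z : Fˣ) : SL(2, F) := ⟨!![(z : F), 0; 0, ((z⁻¹ : Fˣ) : F)], by simp [Matrix.det_fin_two]⟩

@[simp] theorem coe_yS (x : F) : ((yS x : SL(2, F)) : Matrix (Fin 2) (Fin 2) F) = !![1, x; 0, 1] := rfl
@[simp] theorem coe_tS : ((tS : SL(2, F)) : Matrix (Fin 2) (Fin 2) F) = !![0, 1; -1, 0] := rfl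
@[simp] theorem coe_hS (z : Fˣ) : ((hS z : SL(2, F)) : Matrix (Fin 2) (Fin 2) F) = !![(z : F), 0; 0, ((z⁻¹ : Fˣ) : F)] := rfl

theorem ext2 {a b : SL(2, F)} (h : (a : Matrix (Fin 2) (Fin 2) F) = b) : a = b := Subtype.ext h

theorem isY_S (z : Fˣ) : IsY ((z : F) ^ 2) (hS z) (yS (1 : F)) yS := by
  refine ⟨fun a b => ?_, rfl, fun x => ?_⟩
  · apply ext2
    rw [Matrix.SpecialLinearGroup.coe_mul, coe_yS, coe_yS, coe_yS, Matrix.mul_fin_two]
    simp [add_comm]
  · rw [mul_inv_eq_iff_eq_mul]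
    apply ext2
    rw [Matrix.SpecialLinearGroup.coe_mul, Matrix.SpecialLinearGroup.coe_mul, coe_yS, coe_yS, coe_hS, Matrix.mul_fin_two, Matrix.mul_fin_two]
    simp
    field_simp

theorem hS_mul (z w : Fˣ) : hS z * hS w = hS (z * w) := by
  apply ext2
  rw [Matrix.SpecialLinearGroup.coe_mul, coe_hS, coe_hS, coe_hS, Matrix.mul_fin_two]
  simp [mul_comm]

theorem hS_one : hS (1 : Fˣ) = 1 := by
  apply ext2
  rw [coe_hS, Matrix.SpecialLinearGroup.coe_one, Matrix.one_fin_two]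
  simp

theorem hS_pow (z : Fˣ) (n : ℕ) : hS z ^ n = hS (z ^ n) := by
  induction n with
  | zero => rw [pow_zero, pow_zero, hS_one]
  | succ n ih => rw [pow_succ, ih, pow_succ, hS_mul]

theorem hS_inv (z : Fˣ) : (hS z)⁻¹ = hS z⁻¹ := by
  rw [inv_eq_iff_mul_eq_one, hS_mul, mul_inv_cancel, hS_one]

theorem tS_hS (z : Fˣ) : tS * hS z * (tS)⁻¹ = (hS z)⁻¹ := by
  rw [mul_inv_eq_iff_eq_mul, hS_inv]
  apply ext2
  rw [Matrix.SpecialLinearGroup.coe_mul, Matrix.SpecialLinearGroup.coe_mul, coe_tS, coe_hS, coe_hS, Matrix.mul_fin_two, Matrix.mul_fin_two]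
  simp

theorem tS_sq : (tS : SL(2, F)) ^ 2 = -1 := by
  apply ext2
  rw [Matrix.SpecialLinearGroup.coe_pow, coe_tS, sq, Matrix.mul_fin_two, Matrix.SpecialLinearGroup.coe_neg, Matrix.SpecialLinearGroup.coe_one, Matrix.one_fin_two]
  simp

theorem tS_yS (z : Fˣ) : tS * yS (z : F) * tS⁻¹ = yS (-((z⁻¹ : Fˣ) : F)) * hS z⁻¹ * tS * yS (-((z⁻¹ : Fˣ) : F)) := by
  rw [mul_inv_eq_iff_eq_mul]
  apply ext2
  simp only [Matrix.SpecialLinearGroup.coe_mul, coe_tS, coe_hS, coe_yS, Matrix.mul_fin_two]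
  simp

theorem closure_S (K : Subgroup SL(2, F)) (hy : ∀ x, yS x ∈ K) (hh : ∀ z, hS z ∈ K) (ht : tS ∈ K) : K = ⊤ := by
  rw [eq_top_iff]
  intro g _
  have hgen : ∀ (a b c d : F) (hdet : a * d - b * c = 1) (g : SL(2, F)), (g : Matrix (Fin 2) (Fin 2) F) = !![a, b; c, d] → g ∈ K := by
    intro a b c d hdet g hg
    by_cases hc : c = 0
    · have h1 : a * d = 1 := by rw [hc, mul_zero, sub_zero] at hdet; exact hdet
      have h0 : a ≠ 0 := by intro h; rw [h, zero_mul] at h1; exact zero_ne_one h1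
      have : g = yS (b * a) * hS (Units.mk0 _ h0) := by
        apply ext2
        rw [Matrix.SpecialLinearGroup.coe_mul, coe_yS, coe_hS, Matrix.mul_fin_two, hg, hc]
        have hinv : a⁻¹ = d := inv_eq_of_mul_eq_one_right h1
        simp [hinv]
        rw [mul_assoc, h1, mul_one]
      rw [this]
      exact mul_mem (hy _) (hh _)
    · have : g = yS (a / c) * hS (Units.mk0 (-c⁻¹) (neg_ne_zero.2 (inv_ne_zero hc))) * tS * yS (d / c) := by
        apply ext2
        simp only [Matrix.SpecialLinearGroup.coe_mul, coe_yS, coe_hS, coe_tS, Matrix.mul_fin_two]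
        rw [hg]
        ext i j
        fin_cases i <;> fin_cases j
        · simp; field_simp
        · simp; field_simp; linear_combination -hdet
        · simp
        · simp; field_simp
      rw [this]
      exact mul_mem (mul_mem (mul_mem (hy _) (hh _)) ht) (hy _)
  have hdet := g.det_coe
  rw [Matrix.det_fin_two] at hdet
  exact hgen _ _ _ _ hdet g (Matrix.eta_fin_two _)

/-! ### odd characteristic -/

/-- common relators; letters `0 = u`, `1 = h`, `2 = t`. -/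
def relC (R : Fin 4 → FreeGroup (Fin 2)) (f1 f2 : ℤ[X]) : Fin 7 → FreeGroup (Fin 3) :=
  ![PresAn.jw (R 0), PresAn.jw (R 1), PresAn.jw (R 2), PresAn.jw (R 3),
    FreeGroup.of 2 * FreeGroup.of 1 * (FreeGroup.of 2)⁻¹ * FreeGroup.of 1,
    FreeGroup.of 2 * FreeGroup.of 0 * (FreeGroup.of 2)⁻¹ * ((FreeGroup.of 0)⁻¹ * FreeGroup.of 2 * (FreeGroup.of 0)⁻¹)⁻¹,
    FreeGroup.of 2 * pw (FreeGroup.of 1) (FreeGroup.of 0) f1 * (FreeGroup.of 2)⁻¹ *
      (pw (FreeGroup.of 1) (FreeGroup.of 0) f2 * (FreeGroup.of 1)⁻¹ * FreeGroup.of 2 * pw (FreeGroup.of 1) (FreeGroup.of 0) f2)⁻¹]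

theorem relC_iff (R : Fin 4 → FreeGroup (Fin 2)) (f1 f2 : ℤ[X]) (x : Fin 3 → G) :
    (∀ i, FreeGroup.lift x (relC R f1 f2 i) = 1) ↔
      (∀ k, FreeGroup.lift ![x 0, x 1] (R k) = 1) ∧ x 2 * x 1 * (x 2)⁻¹ = (x 1)⁻¹ ∧
      x 2 * x 0 * (x 2)⁻¹ = (x 0)⁻¹ * x 2 * (x 0)⁻¹ ∧
      x 2 * pw (x 1) (x 0) f1 * (x 2)⁻¹ = pw (x 1) (x 0) f2 * (x 1)⁻¹ * x 2 * pw (x 1) (x 0) f2 := by
  constructor
  · intro h
    have h0 := h 0
    have h1 := h 1
    have h2 := h 2
    have h3 := h 3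
    have h4 := h 4
    have h5 := h 5
    have h6 := h 6
    simp only [relC, Matrix.cons_val, _root_.map_mul, map_pow, map_inv, map_pw, FreeGroup.lift_apply_of, PresAn.lift_jw] at h0 h1 h2 h3 h4 h5 h6
    refine ⟨?_, mul_eq_one_iff_eq_inv.1 h4, mul_inv_eq_one.1 h5, mul_inv_eq_one.1 h6⟩
    intro k
    fin_cases k
    · exact h0
    · exact h1
    · exact h2
    · exact h3
  · rintro ⟨hR, h4, h5, h6⟩ i
    fin_cases i
    all_goals simp only [relC, Matrix.cons_val, _root_.map_mul, map_pow, map_inv, map_pw, FreeGroup.lift_apply_of, PresAn.lift_jw, Fin.mk_one, Fin.zero_eta, Fin.reduceFinMk]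
    · exact hR 0
    · exact hR 1
    · exact hR 2
    · exact hR 3
    · exact mul_eq_one_iff_eq_inv.2 h4
    · exact mul_inv_eq_one.2 h5
    · exact mul_inv_eq_one.2 h6

/-- the order bound in odd characteristic -/
theorem odd_bound.{u} {F : Type u} [Field F] [Fintype F] {q : ℕ} (hq : Fintype.card F = q) {ζ : Fˣ}
    (hζ : ∀ x : Fˣ, x ∈ Subgroup.zpowers ζ) {R : Fin 4 → FreeGroup (Fin 2)} (hR : BD F q ((ζ : F) ^ 2) R)
    {f1 f2 : ℤ[X]} (hf1 : aeval ((ζ : F) ^ 2) f1 = ζ) (hf2 : aeval ((ζ : F) ^ 2) f2 = -((ζ⁻¹ : Fˣ) : F))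
    {G : Type} [Group G] (x : Fin 3 → G) (hgen : Subgroup.closure (Set.range x) = ⊤)
    (hrel : ∀ i, FreeGroup.lift x (relC R f1 f2 i) = 1) (m : ℕ) (hm : 0 < m) (hmq : m ∣ q - 1) (hhm : x 1 ^ m = 1)
    (ht2 : ∃ l : ℤ, x 2 ^ 2 = x 1 ^ l) : Finite G ∧ Nat.card G ≤ m * (q * (q + 1)) := by
  obtain ⟨hRx, h4, h5, h6⟩ := (relC_iff R f1 f2 x).1 hrel
  set u := x 0 with hu
  set h := x 1 with hh
  set t := x 2 with ht
  have hq1 : 1 < q := by rw [← hq]; exact Fintype.one_lt_card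
  have hhq : h ^ q = h := by
    obtain ⟨c, hc⟩ := hmq
    have : q = m * c + 1 := by omega
    rw [this, pow_succ, pow_mul, hhm, one_pow, one_mul]
  obtain ⟨y, hy⟩ := hR.complete G h u hhq hRx
  set θ : F := (ζ : F) ^ 2 with hθ
  have hθ0 : θ ≠ 0 := pow_ne_zero 2 ζ.ne_zero
  rw [hy.pw_eq, hy.pw_eq, hf1, hf2] at h6
  have hth : ∀ n : ℤ, t * h ^ n * t⁻¹ = h ^ (-n) := by
    intro n
    rw [← conj_zpow, h4, _root_.inv_zpow, _root_.zpow_neg]
  -- conjugating a Bruhat relation by the torus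
  have hshift : ∀ (n : ℤ) (z : F), (∃ (a b : F) (l : ℤ), t * y z * t⁻¹ = y a * h ^ l * t * y b) →
      ∃ (a b : F) (l : ℤ), t * y (θ ^ n * z) * t⁻¹ = y a * h ^ l * t * y b := by
    rintro n z ⟨a, b, l, hab⟩
    refine ⟨θ ^ (-n) * a, θ ^ (-n) * b, l - n - n, ?_⟩
    have e1 : t * y (θ ^ n * z) * t⁻¹ = h ^ (-n) * (t * y z * t⁻¹) * h ^ n := by
      rw [← IsY.zpow hy hθ0, show t * (h ^ n * y z * (h ^ n)⁻¹) * t⁻¹ = (t * h ^ n * t⁻¹) * (t * y z * t⁻¹) * (t * h ^ n * t⁻¹)⁻¹ by group,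
        hth]
      rw [_root_.zpow_neg, inv_inv]
    have e2 : y b * h ^ n = h ^ n * y (θ ^ (-n) * b) := IsY.mul_zpow hy hθ0 n b
    have e3 : h ^ (-n) * y a = y (θ ^ (-n) * a) * h ^ (-n) := IsY.zpow_mul hy hθ0 (-n) a
    have e4 : t * h ^ n = h ^ (-n) * t := by rw [← hth, inv_mul_cancel_right]
    calc t * y (θ ^ n * z) * t⁻¹ = (h ^ (-n) * y a) * h ^ l * t * (y b * h ^ n) := by rw [e1, hab]; simp only [mul_assoc]
      _ = y (θ ^ (-n) * a) * h ^ (-n) * h ^ l * (t * h ^ n) * y (θ ^ (-n) * b) := by rw [e2, e3]; simp only [mul_assoc]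
      _ = y (θ ^ (-n) * a) * (h ^ (-n) * h ^ l * h ^ (-n)) * t * y (θ ^ (-n) * b) := by rw [e4]; simp only [mul_assoc]
      _ = _ := by rw [← _root_.zpow_add, ← _root_.zpow_add]; congr 4; ring
  have hb1 : ∃ (a b : F) (l : ℤ), t * y 1 * t⁻¹ = y a * h ^ l * t * y b :=
    ⟨-1, -1, 0, by rw [hy.neg, hy.one, h5, _root_.zpow_zero, mul_one]⟩
  have hbζ : ∃ (a b : F) (l : ℤ), t * y (ζ : F) * t⁻¹ = y a * h ^ l * t * y b :=
    ⟨_, _, -1, by rw [h6, _root_.zpow_neg_one]⟩
  have hres := sl2_bound hy hθ0 m hm hhm h4 ht2 (by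
      intro z hz
      obtain ⟨k, hk⟩ := exists_pow hζ hz
      rcases Nat.even_or_odd' k with ⟨n, rfl | rfl⟩
      · have e : z = θ ^ (n : ℤ) * 1 := by rw [mul_one, _root_.zpow_natCast, hθ, ← pow_mul, hk]
        rw [e]
        exact hshift _ _ hb1
      · have e : z = θ ^ (n : ℤ) * (ζ : F) := by rw [_root_.zpow_natCast, hθ, ← pow_mul, ← pow_succ, hk]
        rw [e]
        exact hshift _ _ hbζ) (by
      rw [eq_top_iff, ← hgen, Subgroup.closure_le]
      rintro _ ⟨i, rfl⟩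
      fin_cases i
      · apply Subgroup.subset_closure
        left; exact ⟨1, hy.one⟩
      · apply Subgroup.subset_closure
        right; left; rfl
      · apply Subgroup.subset_closure
        right; right; rfl)
  rw [hq] at hres
  exact hres

/-- the generators of `SL₂(F)` -/
def XS (ζ : Fˣ) : Fin 3 → SL(2, F) := ![yS 1, hS ζ, tS]

theorem XS_gen [Fintype F] {ζ : Fˣ} (hζ : ∀ x : Fˣ, x ∈ Subgroup.zpowers ζ) : Subgroup.closure (Set.range (XS ζ)) = ⊤ := by
  set K := Subgroup.closure (Set.range (XS ζ)) with hK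
  have hu : yS (1 : F) ∈ K := Subgroup.subset_closure ⟨0, rfl⟩
  have hh : hS ζ ∈ K := Subgroup.subset_closure ⟨1, rfl⟩
  have ht : tS ∈ K := Subgroup.subset_closure ⟨2, rfl⟩
  have hy := isY_S ζ
  apply closure_S K _ _ ht
  · intro x
    obtain ⟨f, rfl⟩ := surj_sq hζ x
    rw [← hy.pw_eq]
    unfold pw
    apply Subgroup.list_prod_mem
    intro g hg
    rw [List.mem_map] at hg
    obtain ⟨i, _, rfl⟩ := hg
    exact zpow_mem (mul_mem (mul_mem (pow_mem hh _) hu) (inv_mem (pow_mem hh _))) _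
  · intro z
    obtain ⟨k, hk⟩ := (mem_powers_iff_mem_zpowers).2 (hζ z)
    have : ζ ^ k = z := hk
    rw [← this, ← hS_pow]
    exact pow_mem hh _

theorem XS_rel [Fintype F] {q : ℕ} {ζ : Fˣ} {R : Fin 4 → FreeGroup (Fin 2)} (hR : BD F q ((ζ : F) ^ 2) R)
    {f1 f2 : ℤ[X]} (hf1 : aeval ((ζ : F) ^ 2) f1 = ζ) (hf2 : aeval ((ζ : F) ^ 2) f2 = -((ζ⁻¹ : Fˣ) : F)) :
    ∀ i, FreeGroup.lift (XS ζ) (relC R f1 f2 i) = 1 := by
  rw [relC_iff]
  have hy := isY_S ζ
  refine ⟨hR.sound _ _ _ _ hy, tS_hS ζ, ?_, ?_⟩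
  · show tS * yS 1 * tS⁻¹ = (yS 1)⁻¹ * tS * (yS 1)⁻¹
    have := tS_yS (1 : Fˣ)
    rw [Units.val_one, inv_one, Units.val_one, hS_one, mul_one, hy.neg] at this
    exact this
  · show tS * pw (hS ζ) (yS 1) f1 * tS⁻¹ = pw (hS ζ) (yS 1) f2 * (hS ζ)⁻¹ * tS * pw (hS ζ) (yS 1) f2
    rw [hy.pw_eq, hy.pw_eq, hf1, hf2, tS_yS, hS_inv]

theorem half_pow [Fintype F] {q : ℕ} (hq : Fintype.card F = q) (hodd : q % 2 = 1) {ζ : Fˣ}
    (hζ : ∀ x : Fˣ, x ∈ Subgroup.zpowers ζ) : ζ ^ ((q - 1) / 2) = -1 := by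
  have hord := order_gen hζ hq
  have hq1 : 1 < q := by rw [← hq]; exact Fintype.one_lt_card
  have h1 : (ζ ^ ((q - 1) / 2)) ^ 2 = 1 := by
    rw [← pow_mul, Nat.div_mul_cancel (by omega), ← hord, pow_orderOf_eq_one]
  have h2 : ζ ^ ((q - 1) / 2) ≠ 1 := by
    intro h
    have := Nat.le_of_dvd (by omega) (orderOf_dvd_of_pow_eq_one h)
    omega
  have h3 : (((ζ ^ ((q - 1) / 2) : Fˣ) : F) - 1) * (((ζ ^ ((q - 1) / 2) : Fˣ) : F) + 1) = 0 := by
    have := congrArg Units.val h1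
    rw [Units.val_pow_eq_pow_val, Units.val_one] at this
    linear_combination this
  rcases mul_eq_zero.1 h3 with h4 | h4
  · exact absurd (Units.ext (sub_eq_zero.1 h4)) h2
  · apply Units.ext
    rw [Units.val_neg, Units.val_one]
    exact eq_neg_of_add_eq_zero_left h4

theorem hS_half [Fintype F] {q : ℕ} (hq : Fintype.card F = q) (hodd : q % 2 = 1) {ζ : Fˣ}
    (hζ : ∀ x : Fˣ, x ∈ Subgroup.zpowers ζ) : hS ζ ^ ((q - 1) / 2) = -1 := by
  rw [hS_pow, half_pow hq hodd hζ]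
  apply ext2
  rw [coe_hS, Matrix.SpecialLinearGroup.coe_neg, Matrix.SpecialLinearGroup.coe_one, Matrix.one_fin_two]
  simp

theorem exists_gen (F : Type*) [Field F] [Fintype F] : ∃ ζ : Fˣ, ∀ x : Fˣ, x ∈ Subgroup.zpowers ζ :=
  IsCyclic.exists_generator (α := Fˣ)

/-- `SL₂(q)`, `q` odd: 3 generators, 8 relators. -/
theorem pres_SL2_odd.{u} {F : Type u} [Field F] [Fintype F] (hodd : Fintype.card F % 2 = 1) :
    ∃ rels : Finset (FreeGroup (Fin 3)), rels.card ≤ 8 ∧
      Nonempty (PresentedGroup (rels : Set (FreeGroup (Fin 3))) ≃* SL(2, F)) := by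
  classical
  obtain ⟨ζ, hζ⟩ := exists_gen F
  obtain ⟨q, hq⟩ : ∃ q, Fintype.card F = q := ⟨_, rfl⟩
  rw [hq] at hodd
  obtain ⟨R, hR⟩ := exists_BD_sq hq hodd hζ
  obtain ⟨f1, hf1⟩ := surj_sq hζ (ζ : F)
  obtain ⟨f2, hf2⟩ := surj_sq hζ (-((ζ⁻¹ : Fˣ) : F))
  have hq1 : 1 < q := by rw [← hq]; exact Fintype.one_lt_card
  set rels : Finset (FreeGroup (Fin 3)) := insert (FreeGroup.of 2 ^ 2 * (FreeGroup.of 1 ^ ((q - 1) / 2))⁻¹) (Finset.univ.image (relC R f1 f2)) with hrels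
  refine ⟨rels, ?_, ?_⟩
  · refine (Finset.card_insert_le _ _).trans ?_
    have := Finset.card_image_le (s := (Finset.univ : Finset (Fin 7))) (f := relC R f1 f2)
    rw [Finset.card_univ, Fintype.card_fin] at this
    omega
  · have hPrel : ∀ i, FreeGroup.lift (fun i => PresentedGroup.of i : Fin 3 → PresentedGroup (rels : Set (FreeGroup (Fin 3)))) (relC R f1 f2 i) = 1 := by
      intro i
      rw [← mk_eq_lift]
      apply PresentedGroup.one_of_mem
      rw [Finset.mem_coe, hrels]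
      exact Finset.mem_insert_of_mem (Finset.mem_image_of_mem _ (Finset.mem_univ i))
    have hPt : (PresentedGroup.of 2 : PresentedGroup (rels : Set (FreeGroup (Fin 3)))) ^ 2 = PresentedGroup.of 1 ^ ((q - 1) / 2) := by
      have : PresentedGroup.mk (rels : Set (FreeGroup (Fin 3))) (FreeGroup.of 2 ^ 2 * (FreeGroup.of 1 ^ ((q - 1) / 2))⁻¹) = 1 := by
        apply PresentedGroup.one_of_mem
        rw [Finset.mem_coe, hrels]
        exact Finset.mem_insert_self _ _
      rw [map_mul, map_inv, map_pow, map_pow, mul_inv_eq_one] at this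
      exact this
    have hPh : (PresentedGroup.of 1 : PresentedGroup (rels : Set (FreeGroup (Fin 3)))) ^ (q - 1) = 1 := by
      obtain ⟨-, h4, -, -⟩ := (relC_iff R f1 f2 _).1 hPrel
      have h5 : Commute (PresentedGroup.of 2 : PresentedGroup (rels : Set (FreeGroup (Fin 3)))) (PresentedGroup.of 1 ^ ((q - 1) / 2)) := by
        rw [← hPt]; exact (Commute.refl _).pow_right 2
      have h6 : (PresentedGroup.of 1 ^ ((q - 1) / 2) : PresentedGroup (rels : Set (FreeGroup (Fin 3)))) = (PresentedGroup.of 1 ^ ((q - 1) / 2))⁻¹ := by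
        calc (PresentedGroup.of 1 ^ ((q - 1) / 2) : PresentedGroup (rels : Set (FreeGroup (Fin 3))))
            = PresentedGroup.of 2 * PresentedGroup.of 1 ^ ((q - 1) / 2) * (PresentedGroup.of 2)⁻¹ := by
              rw [h5.eq, mul_inv_cancel_right]
          _ = _ := by rw [← conj_pow, h4, inv_pow]
      have h7 : q - 1 = (q - 1) / 2 + (q - 1) / 2 := by omega
      rw [h7, pow_add]
      nth_rewrite 1 [h6]
      rw [inv_mul_cancel]
    obtain ⟨hfin, hcard⟩ := odd_bound hq hζ hR hf1 hf2 _ (PresentedGroup.closure_range_of _) hPrel (q - 1) (by omega) dvd_rfl hPh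
      ⟨(((q - 1) / 2 : ℕ) : ℤ), by rw [_root_.zpow_natCast]; exact hPt⟩
    obtain ⟨e, -⟩ := pres_iso (rels : Set (FreeGroup (Fin 3))) (XS ζ) ⊤ (XS_gen hζ) (by
        intro r hr
        rw [Finset.mem_coe, hrels, Finset.mem_insert, Finset.mem_image] at hr
        rcases hr with rfl | ⟨i, _, rfl⟩
        · rw [map_mul, map_inv, map_pow, map_pow, FreeGroup.lift_apply_of, FreeGroup.lift_apply_of, mul_inv_eq_one]
          show tS ^ 2 = hS ζ ^ ((q - 1) / 2)
          rw [tS_sq, hS_half hq hodd hζ]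
        · exact XS_rel hR hf1 hf2 i) hfin (by
        rw [Subgroup.card_top, ClSL2.card_SL2 hq]
        refine hcard.trans (le_of_eq ?_)
        obtain ⟨n, rfl⟩ : ∃ n, q = n + 1 := ⟨q - 1, by omega⟩
        have : (n + 1) ^ 2 - 1 = n * (n + 2) := by
          have : (n + 1) ^ 2 = n * (n + 2) + 1 := by ring
          omega
        rw [this, Nat.add_sub_cancel]; ring)
    exact ⟨e.trans Subgroup.topEquiv⟩

/-- `PSL₂(q)`, `q` odd: 3 generators, 9 relators. -/
theorem pres_PSL2_odd.{u} {F : Type u} [Field F] [Fintype F] (hodd : Fintype.card F % 2 = 1) :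
    ∃ rels : Finset (FreeGroup (Fin 3)), rels.card ≤ 9 ∧
      Nonempty (PresentedGroup (rels : Set (FreeGroup (Fin 3))) ≃* Matrix.ProjectiveSpecialLinearGroup (Fin 2) F) := by
  classical
  obtain ⟨ζ, hζ⟩ := exists_gen F
  obtain ⟨q, hq⟩ : ∃ q, Fintype.card F = q := ⟨_, rfl⟩
  rw [hq] at hodd
  obtain ⟨R, hR⟩ := exists_BD_sq hq hodd hζ
  obtain ⟨f1, hf1⟩ := surj_sq hζ (ζ : F)
  obtain ⟨f2, hf2⟩ := surj_sq hζ (-((ζ⁻¹ : Fˣ) : F))
  have hq1 : 1 < q := by rw [← hq]; exact Fintype.one_lt_card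
  set rels : Finset (FreeGroup (Fin 3)) := insert (FreeGroup.of 2 ^ 2) (insert (FreeGroup.of 1 ^ ((q - 1) / 2)) (Finset.univ.image (relC R f1 f2))) with hrels
  refine ⟨rels, ?_, ?_⟩
  · refine (Finset.card_insert_le _ _).trans ?_
    have h1 := Finset.card_insert_le (FreeGroup.of 1 ^ ((q - 1) / 2)) (Finset.univ.image (relC R f1 f2))
    have := Finset.card_image_le (s := (Finset.univ : Finset (Fin 7))) (f := relC R f1 f2)
    rw [Finset.card_univ, Fintype.card_fin] at this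
    omega
  · have hPrel : ∀ i, FreeGroup.lift (fun i => PresentedGroup.of i : Fin 3 → PresentedGroup (rels : Set (FreeGroup (Fin 3)))) (relC R f1 f2 i) = 1 := by
      intro i
      rw [← mk_eq_lift]
      apply PresentedGroup.one_of_mem
      rw [Finset.mem_coe, hrels]
      exact Finset.mem_insert_of_mem (Finset.mem_insert_of_mem (Finset.mem_image_of_mem _ (Finset.mem_univ i)))
    have hPt : (PresentedGroup.of 2 : PresentedGroup (rels : Set (FreeGroup (Fin 3)))) ^ 2 = 1 := by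
      apply PresentedGroup.one_of_mem (x := FreeGroup.of 2 ^ 2)
      rw [Finset.mem_coe, hrels]
      exact Finset.mem_insert_self _ _
    have hPh : (PresentedGroup.of 1 : PresentedGroup (rels : Set (FreeGroup (Fin 3)))) ^ ((q - 1) / 2) = 1 := by
      apply PresentedGroup.one_of_mem (x := FreeGroup.of 1 ^ ((q - 1) / 2))
      rw [Finset.mem_coe, hrels]
      exact Finset.mem_insert_of_mem (Finset.mem_insert_self _ _)
    obtain ⟨hfin, hcard⟩ := odd_bound hq hζ hR hf1 hf2 _ (PresentedGroup.closure_range_of _) hPrel ((q - 1) / 2) (by omega)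
      (Nat.div_dvd_of_dvd (by omega)) hPh ⟨0, by rw [_root_.zpow_zero]; exact hPt⟩
    let π := QuotientGroup.mk' (Subgroup.center SL(2, F))
    have hneg : (-1 : SL(2, F)) ∈ Subgroup.center SL(2, F) := by
      rw [Subgroup.mem_center_iff]
      intro g
      rw [mul_neg, neg_mul, mul_one, one_mul]
    have hπneg : π (-1) = 1 := (QuotientGroup.eq_one_iff _).2 hneg
    obtain ⟨e, -⟩ := pres_iso (rels : Set (FreeGroup (Fin 3))) (fun i => π (XS ζ i)) ⊤ (by
        have h1 : Set.range (fun i => π (XS ζ i)) = π '' (Set.range (XS ζ)) := by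
          rw [← Set.range_comp]; rfl
        rw [h1, ← MonoidHom.map_closure, XS_gen hζ, ← MonoidHom.range_eq_map, MonoidHom.range_eq_top]
        exact QuotientGroup.mk'_surjective _) (by
        have hcomp : ∀ r, FreeGroup.lift (fun i => π (XS ζ i)) r = π (FreeGroup.lift (XS ζ) r) := by
          intro r
          have : FreeGroup.lift (fun i => π (XS ζ i)) = π.comp (FreeGroup.lift (XS ζ)) := by
            ext i; simp
          rw [this]; rfl
        intro r hr
        rw [hcomp]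
        rw [Finset.mem_coe, hrels, Finset.mem_insert, Finset.mem_insert, Finset.mem_image] at hr
        rcases hr with rfl | rfl | ⟨i, _, rfl⟩
        · rw [map_pow, FreeGroup.lift_apply_of]
          show π (tS ^ 2) = 1
          rw [tS_sq, hπneg]
        · rw [map_pow, FreeGroup.lift_apply_of]
          show π (hS ζ ^ ((q - 1) / 2)) = 1
          rw [hS_half hq hodd hζ, hπneg]
        · rw [XS_rel hR hf1 hf2 i, map_one]) hfin (by
        rw [Subgroup.card_top]
        refine hcard.trans (le_of_eq ?_)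
        have h1 := Subgroup.card_eq_card_quotient_mul_card_subgroup (Subgroup.center SL(2, F))
        rw [ClSLn.card_center_SL hq 2 (by norm_num), ClSL2.card_SL2 hq] at h1
        have h2 : Nat.gcd 2 (q - 1) = 2 := Nat.gcd_eq_left (by omega)
        rw [h2] at h1
        obtain ⟨n, hn⟩ : ∃ n, q = 2 * n + 1 := ⟨(q - 1) / 2, by omega⟩
        have h3 : (q - 1) / 2 = n := by omega
        rw [h3]
        have h4 : q ^ 2 - 1 = 2 * (n * (q + 1)) := by
          have : q ^ 2 = 2 * (n * (q + 1)) + 1 := by rw [hn]; ring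
          omega
        rw [h4] at h1
        have h5 : 2 * (n * (q * (q + 1))) = 2 * Nat.card (SL(2, F) ⧸ Subgroup.center SL(2, F)) := by
          rw [mul_comm 2 (Nat.card _), ← h1]; ring
        exact Nat.eq_of_mul_eq_mul_left (by norm_num) h5)
    exact ⟨e.trans Subgroup.topEquiv⟩

/-! ### characteristic two -/

/-- relators in characteristic two; letters `0 = u`, `1 = h`, `2 = t`. -/
def relE (q j : ℕ) (m : ℤ[X]) : Fin 5 → FreeGroup (Fin 3) :=
  ![FreeGroup.of 0 ^ 2,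
    FreeGroup.of 0 * FreeGroup.of 2 * FreeGroup.of 0 * (FreeGroup.of 2 * FreeGroup.of 0 * FreeGroup.of 2)⁻¹,
    FreeGroup.of 1 ^ j * FreeGroup.of 0 * (FreeGroup.of 1 ^ j)⁻¹ * (FreeGroup.of 0 * (FreeGroup.of 1 * FreeGroup.of 0 * (FreeGroup.of 1)⁻¹))⁻¹,
    pw (FreeGroup.of 1) (FreeGroup.of 0) m * (FreeGroup.of 1 ^ (q - 1))⁻¹,
    FreeGroup.of 2 * FreeGroup.of 1 * (FreeGroup.of 2)⁻¹ * FreeGroup.of 1]

theorem relE_iff (q j : ℕ) (m : ℤ[X]) (x : Fin 3 → G) :
    (∀ i, FreeGroup.lift x (relE q j m i) = 1) ↔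
      x 0 ^ 2 = 1 ∧ x 0 * x 2 * x 0 = x 2 * x 0 * x 2 ∧ x 1 ^ j * x 0 * (x 1 ^ j)⁻¹ = x 0 * (x 1 * x 0 * (x 1)⁻¹) ∧
      pw (x 1) (x 0) m = x 1 ^ (q - 1) ∧ x 2 * x 1 * (x 2)⁻¹ = (x 1)⁻¹ := by
  constructor
  · intro h
    have h0 := h 0
    have h1 := h 1
    have h2 := h 2
    have h3 := h 3
    have h4 := h 4
    simp only [relE, Matrix.cons_val, _root_.map_mul, map_pow, map_inv, map_pw, FreeGroup.lift_apply_of] at h0 h1 h2 h3 h4
    exact ⟨h0, mul_inv_eq_one.1 h1, mul_inv_eq_one.1 h2, mul_inv_eq_one.1 h3, mul_eq_one_iff_eq_inv.1 h4⟩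
  · rintro ⟨h0, h1, h2, h3, h4⟩ i
    fin_cases i
    all_goals simp only [relE, Matrix.cons_val, _root_.map_mul, map_pow, map_inv, map_pw, FreeGroup.lift_apply_of, Fin.mk_one, Fin.zero_eta, Fin.reduceFinMk]
    · exact h0
    · exact mul_inv_eq_one.2 h1
    · exact mul_inv_eq_one.2 h2
    · exact mul_inv_eq_one.2 h3
    · exact mul_eq_one_iff_eq_inv.2 h4

/-- final step in characteristic two -/
theorem even_bound_aux [Fintype F] {q : ℕ} (hq : Fintype.card F = q) {ζ : Fˣ}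
    (hζ : ∀ x : Fˣ, x ∈ Subgroup.zpowers ζ) (h2 : CharP F 2) {u h t : G} {y : F → G} (hy : IsY ((ζ : F) ^ 2) h u y)
    (hu : u ^ 2 = 1) (hut : u * t * u = t * u * t) (hth : t * h * t⁻¹ = h⁻¹) (hhq : h ^ (q - 1) = 1)
    (hgen : Subgroup.closure {u, h, t} = ⊤) :
    Finite G ∧ Nat.card G ≤ (q - 1) * (q * (q + 1)) := by
  have hui : u⁻¹ = u := inv_eq_of_mul_eq_one_left (by rw [← sq]; exact hu)
  set θ : F := (ζ : F) ^ 2 with hθ
  have hθ0 : θ ≠ 0 := pow_ne_zero 2 ζ.ne_zero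
  have hq1 : 1 < q := by rw [← hq]; exact Fintype.one_lt_card
  -- `t` is conjugate to `u`
  have htc : t = (u * t) * u * (u * t)⁻¹ := by
    rw [_root_.mul_inv_rev, hui]
    calc t = t * u * t * t⁻¹ * u := by
          rw [mul_inv_cancel_right, mul_assoc, ← sq, hu, mul_one]
      _ = u * t * u * t⁻¹ * u := by rw [← hut]
      _ = _ := by group
  have ht2 : t ^ 2 = 1 := by
    rw [htc, conj_pow, hu, mul_one, mul_inv_cancel]
  have hti : t⁻¹ = t := inv_eq_of_mul_eq_one_left (by rw [← sq]; exact ht2)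
  have hthn : ∀ n : ℤ, t * h ^ n * t⁻¹ = h ^ (-n) := by
    intro n
    rw [← conj_zpow, hth, _root_.inv_zpow, _root_.zpow_neg]
  have hres := sl2_bound hy hθ0 (q - 1) (by omega) hhq hth ⟨0, by rw [_root_.zpow_zero]; exact ht2⟩ (by
      intro z hz
      -- `z = θ ^ n`
      obtain ⟨z', hz'⟩ : ∃ z', z' ^ 2 = z := by
        have hinj : Function.Injective (fun y : F => y ^ 2) := by
          intro a b hab
          have : (a - b) ^ 2 = 0 := by
            rw [sub_pow_char, sub_eq_zero]; exact hab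
          exact sub_eq_zero.1 (pow_eq_zero_iff (two_ne_zero) |>.1 this)
        exact (Finite.surjective_of_injective hinj) z
      have hz0 : z' ≠ 0 := by rintro rfl; exact hz (by rw [← hz']; simp)
      obtain ⟨n, hn⟩ := exists_pow hζ hz0
      have e : z = θ ^ (n : ℤ) * 1 := by
        rw [mul_one, _root_.zpow_natCast, hθ, ← pow_mul, ← hz', ← hn, ← pow_mul, mul_comm]
      rw [e]
      refine ⟨θ ^ (-(n : ℤ)) * 1, θ ^ (-(n : ℤ)) * 1, -(n : ℤ) - n, ?_⟩
      have e1 : t * y (θ ^ (n : ℤ) * 1) * t⁻¹ = h ^ (-(n : ℤ)) * (t * u * t⁻¹) * h ^ (n : ℤ) := by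
        rw [← IsY.zpow hy hθ0, hy.one, show t * (h ^ (n : ℤ) * u * (h ^ (n : ℤ))⁻¹) * t⁻¹ =
          (t * h ^ (n : ℤ) * t⁻¹) * (t * u * t⁻¹) * (t * h ^ (n : ℤ) * t⁻¹)⁻¹ by group, hthn]
        rw [_root_.zpow_neg, inv_inv]
      have e2 : y 1 * h ^ (n : ℤ) = h ^ (n : ℤ) * y (θ ^ (-(n : ℤ)) * 1) := IsY.mul_zpow hy hθ0 n 1
      have e3 : h ^ (-(n : ℤ)) * y 1 = y (θ ^ (-(n : ℤ)) * 1) * h ^ (-(n : ℤ)) := IsY.zpow_mul hy hθ0 (-n) 1
      have e4 : t * h ^ (n : ℤ) = h ^ (-(n : ℤ)) * t := by rw [← hthn, inv_mul_cancel_right]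
      have e5 : t * u * t⁻¹ = y 1 * t * y 1 := by rw [hti, ← hut, hy.one]
      calc t * y (θ ^ (n : ℤ) * 1) * t⁻¹ = (h ^ (-(n : ℤ)) * y 1) * t * (y 1 * h ^ (n : ℤ)) := by rw [e1, e5]; simp only [mul_assoc]
        _ = y (θ ^ (-(n : ℤ)) * 1) * h ^ (-(n : ℤ)) * (t * h ^ (n : ℤ)) * y (θ ^ (-(n : ℤ)) * 1) := by rw [e2, e3]; simp only [mul_assoc]
        _ = y (θ ^ (-(n : ℤ)) * 1) * (h ^ (-(n : ℤ)) * h ^ (-(n : ℤ))) * t * y (θ ^ (-(n : ℤ)) * 1) := by rw [e4]; simp only [mul_assoc]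
        _ = _ := by rw [← _root_.zpow_add]; congr 4) (by
      rw [eq_top_iff, ← hgen, Subgroup.closure_le]
      rintro g (rfl | rfl | hg)
      · apply Subgroup.subset_closure
        left; exact ⟨1, hy.one⟩
      · apply Subgroup.subset_closure
        right; left; rfl
      · rw [Set.mem_singleton_iff.1 hg]
        apply Subgroup.subset_closure
        right; right; rfl)
  rw [hq] at hres
  exact hres

theorem even_bound [Fintype F] {q : ℕ} (hq : Fintype.card F = q) {ζ : Fˣ}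
    (hζ : ∀ x : Fˣ, x ∈ Subgroup.zpowers ζ) (h2 : CharP F 2) {j : ℕ} {m : ℤ[X]} (hm0 : aeval ((ζ : F) ^ 2) m = 0)
    (hm : ∀ f : ℤ[X], aeval ((ζ : F) ^ 2) f = 0 → ∃ r s : ℤ[X], f = ((2 : ℕ) : ℤ[X]) * r + s * m)
    (x : Fin 3 → G) (hgen : Subgroup.closure {x 0, x 1, x 2} = ⊤) (hrel : ∀ i, FreeGroup.lift x (relE q j m i) = 1) :
    Finite G ∧ Nat.card G ≤ (q - 1) * (q * (q + 1)) := by
  obtain ⟨hu, hut, h3, h4, h5⟩ := (relE_iff q j m x).1 hrel
  set u := x 0 with hu'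
  set h := x 1 with hh'
  set t := x 2 with ht'
  have hc1 : Commute u (h * u * h⁻¹) := by
    -- two involutions with product an involution
    have e1 : (h * u * h⁻¹) * (h * u * h⁻¹) = 1 := by
      rw [show (h * u * h⁻¹) * (h * u * h⁻¹) = h * u ^ 2 * h⁻¹ by rw [sq]; group, hu, mul_one, mul_inv_cancel]
    have e2 : (u * (h * u * h⁻¹)) * (u * (h * u * h⁻¹)) = 1 := by
      rw [← h3, show h ^ j * u * (h ^ j)⁻¹ * (h ^ j * u * (h ^ j)⁻¹) = h ^ j * u ^ 2 * (h ^ j)⁻¹ by rw [sq]; group, hu, mul_one,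
        mul_inv_cancel]
    have e0 : u * u = 1 := by rw [← sq]; exact hu
    set v := h * u * h⁻¹ with hv
    show u * v = v * u
    have e3 : u * v = (u * v)⁻¹ := eq_inv_of_mul_eq_one_left e2
    have e4 : v⁻¹ = v := inv_eq_of_mul_eq_one_left e1
    have e5 : u⁻¹ = u := inv_eq_of_mul_eq_one_left e0
    rw [_root_.mul_inv_rev, e4, e5] at e3
    exact e3
  obtain ⟨E, hE⟩ := exists_ev h u (by
    have := baumslag (a := h) (b := h ^ j) (u := u) ((Commute.refl h).pow_right j) h3 hc1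
    exact this)
  have hI2 : E ((2 : ℕ) : ℤ[X]) = 1 := by
    have := hE.natMul 2 1
    rwa [mul_one, hE.one, hu] at this
  have hc : E m = h ^ (q - 1) := by rw [hE.eq_pw]; exact h4
  have hXm : E (X * m) = E m := by
    rw [hE.mulX, hc, ← pow_succ', pow_succ, mul_inv_cancel_right]
  have hXjm : E (X ^ j * m) = E m := by
    rw [hE.powX, hc, ← pow_add, add_comm, pow_add, mul_inv_cancel_right]
  have hrelI : E (m * (X ^ j - (1 + X))) = 1 := by
    apply hE.mul_eq_one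
    rw [hE.sub, hE.powX_one, hE.add, hE.one, show (X : ℤ[X]) = X ^ 1 by rw [pow_one], hE.powX_one, pow_one, h3, mul_inv_cancel]
  have hEm : E m = 1 := by
    have e1 : m * (X ^ j - (1 + X)) = X ^ j * m - (m + X * m) := by ring
    rw [e1, hE.sub, hXjm, hE.add, hXm, _root_.mul_inv_rev, mul_inv_cancel_left] at hrelI
    exact inv_eq_one.1 hrelI
  have hhq : h ^ (q - 1) = 1 := by rw [← hc, hEm]
  obtain ⟨y, hy⟩ := exists_Y hE (surj_sq hζ) (by
    intro f hf
    obtain ⟨r, s, rfl⟩ := hm f hf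
    rw [hE.add, hE.mul_eq_one _ _ hEm, mul_one, mul_comm, hE.mul_eq_one _ _ hI2])
  exact even_bound_aux hq hζ h2 hy hu hut h5 hhq hgen

theorem range3 {Q : Type*} (x : Fin 3 → Q) : Set.range x = {x 0, x 1, x 2} := by
  ext g
  constructor
  · rintro ⟨i, rfl⟩
    fin_cases i <;> simp
  · rintro (rfl | rfl | hg)
    · exact ⟨0, rfl⟩
    · exact ⟨1, rfl⟩
    · rw [Set.mem_singleton_iff.1 hg]; exact ⟨2, rfl⟩

/-- `SL₂(q)`, `q > 2` even: 3 generators, 5 relators. -/
theorem pres_SL2_even.{u} {F : Type u} [Field F] [Fintype F] (h2 : CharP F 2) :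
    ∃ rels : Finset (FreeGroup (Fin 3)), rels.card ≤ 5 ∧
      Nonempty (PresentedGroup (rels : Set (FreeGroup (Fin 3))) ≃* SL(2, F)) := by
  classical
  obtain ⟨ζ, hζ⟩ := exists_gen F
  obtain ⟨q, hq⟩ : ∃ q, Fintype.card F = q := ⟨_, rfl⟩
  letI : Algebra (ZMod 2) F := ZMod.algebra F 2
  haveI : Fact (Nat.Prime 2) := ⟨Nat.prime_two⟩
  have hq1 : 1 < q := by rw [← hq]; exact Fintype.one_lt_card
  have hcardSL : (q - 1) * (q * (q + 1)) ≤ Nat.card (⊤ : Subgroup SL(2, F)) := by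
    rw [Subgroup.card_top, ClSL2.card_SL2 hq]
    obtain ⟨n, rfl⟩ : ∃ n, q = n + 1 := ⟨q - 1, by omega⟩
    have : (n + 1) ^ 2 - 1 = n * (n + 2) := by
      have : (n + 1) ^ 2 = n * (n + 2) + 1 := by ring
      omega
    rw [this, Nat.add_sub_cancel]
    apply le_of_eq; ring
  have hy := isY_S ζ
  have hneg1 : (-1 : F) = 1 := by
    have : (1 : F) + 1 = 0 := by
      have h : ((2 : ℕ) : F) = 0 := CharP.cast_eq_zero F 2
      rw [one_add_one_eq_two]
      exact_mod_cast h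
    exact neg_eq_of_add_eq_zero_left this
  have hsu : (yS (1 : F)) ^ 2 = 1 := by
    have := hy.nsmul 2 1
    rw [CharP.cast_eq_zero, zero_mul, hy.zero] at this
    exact this.symm
  have htneg : (tS : SL(2, F)) ^ 2 = 1 := by
    rw [tS_sq]
    apply ext2
    rw [Matrix.SpecialLinearGroup.coe_neg, Matrix.SpecialLinearGroup.coe_one, Matrix.one_fin_two]
    simp [hneg1]
  have hsut : yS (1 : F) * tS * yS 1 = tS * yS 1 * tS := by
    have h1 := tS_yS (1 : Fˣ)
    have h3 : (tS : SL(2, F))⁻¹ = tS := inv_eq_of_mul_eq_one_left (by rw [← sq]; exact htneg)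
    rw [Units.val_one, inv_one, Units.val_one, hS_one, mul_one, hneg1, h3] at h1
    exact h1.symm
  by_cases hq2 : q = 2
  · -- the field of two elements
    have hq' : Fintype.card F = 2 := by rw [hq, hq2]
    have hζ1 : ζ = 1 := by
      have := order_gen hζ hq
      rw [hq2] at this
      exact orderOf_eq_one_iff.1 this
    set rels : Finset (FreeGroup (Fin 3)) := {FreeGroup.of 0 ^ 2, FreeGroup.of 0 * FreeGroup.of 2 * FreeGroup.of 0 *
      (FreeGroup.of 2 * FreeGroup.of 0 * FreeGroup.of 2)⁻¹, FreeGroup.of 1} with hrels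
    refine ⟨rels, Finset.card_le_three.trans (by norm_num), ?_⟩
    have h0 : (PresentedGroup.of 0 : PresentedGroup (rels : Set (FreeGroup (Fin 3)))) ^ 2 = 1 :=
      PresentedGroup.one_of_mem (x := FreeGroup.of 0 ^ 2) (by simp [hrels])
    have h1 : (PresentedGroup.of 1 : PresentedGroup (rels : Set (FreeGroup (Fin 3)))) = 1 :=
      PresentedGroup.one_of_mem (x := FreeGroup.of 1) (by simp [hrels])
    have h3 : (PresentedGroup.of 0 : PresentedGroup (rels : Set (FreeGroup (Fin 3)))) * PresentedGroup.of 2 * PresentedGroup.of 0 =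
        PresentedGroup.of 2 * PresentedGroup.of 0 * PresentedGroup.of 2 := by
      have : PresentedGroup.mk (rels : Set (FreeGroup (Fin 3))) (FreeGroup.of 0 * FreeGroup.of 2 * FreeGroup.of 0 *
          (FreeGroup.of 2 * FreeGroup.of 0 * FreeGroup.of 2)⁻¹) = 1 := PresentedGroup.one_of_mem (by simp [hrels])
      rw [map_mul, map_inv, mul_inv_eq_one] at this
      exact this
    obtain ⟨y, hyP⟩ := exists_Y_prime 2 hq' (θ := (ζ : F) ^ 2) (n := 1) (by rw [hζ1]; simp)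
      (h := (PresentedGroup.of 1 : PresentedGroup (rels : Set (FreeGroup (Fin 3))))) (v := PresentedGroup.of 0) h0
      (by rw [h1]; simp)
    obtain ⟨hfin, hcard⟩ := even_bound_aux hq hζ h2 hyP h0 h3 (by rw [h1]; simp) (by rw [h1, one_pow])
      (by rw [← PresentedGroup.closure_range_of, range3])
    obtain ⟨e, -⟩ := pres_iso (rels : Set (FreeGroup (Fin 3))) (XS ζ) ⊤ (XS_gen hζ) (by
        intro r hr
        rw [Finset.mem_coe, hrels] at hr
        simp only [Finset.mem_insert, Finset.mem_singleton] at hr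
        rcases hr with rfl | rfl | rfl
        · rw [map_pow, FreeGroup.lift_apply_of]; exact hsu
        · simp only [_root_.map_mul, map_inv, FreeGroup.lift_apply_of]
          rw [mul_inv_eq_one]; exact hsut
        · rw [FreeGroup.lift_apply_of]
          show hS ζ = 1
          rw [hζ1, hS_one]) hfin (hcard.trans hcardSL)
    exact ⟨e.trans Subgroup.topEquiv⟩
  · -- general case
    have hord := order_gen hζ hq
    have hne : 1 + (ζ : F) ^ 2 ≠ 0 := by
      intro h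
      have h1 : ζ ^ 2 = 1 := by
        apply Units.ext
        rw [Units.val_pow_eq_pow_val, Units.val_one, ← hneg1]
        linear_combination h
      have h3 := Nat.le_of_dvd (by norm_num) (orderOf_dvd_of_pow_eq_one h1)
      rw [hord] at h3
      have h4 : q = 3 := by omega
      obtain ⟨k, -, hk⟩ := FiniteField.card F 2
      rw [hq, h4] at hk
      have : (2 : ℕ) ∣ 3 := by rw [hk]; exact dvd_pow_self 2 (PNat.ne_zero k)
      omega
    obtain ⟨z', hz'⟩ : ∃ z', z' ^ 2 = 1 + (ζ : F) ^ 2 := by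
      have hinj : Function.Injective (fun y : F => y ^ 2) := by
        intro a b hab
        have : (a - b) ^ 2 = 0 := by
          rw [sub_pow_char, sub_eq_zero]; exact hab
        exact sub_eq_zero.1 (pow_eq_zero_iff (two_ne_zero) |>.1 this)
      exact (Finite.surjective_of_injective hinj) _
    have hz0 : z' ≠ 0 := by rintro rfl; exact hne (by rw [← hz']; simp)
    obtain ⟨j, hj⟩ := exists_pow hζ hz0
    have hj' : ((ζ : F) ^ 2) ^ j = 1 + (ζ : F) ^ 2 := by rw [← hz', ← hj, ← pow_mul, ← pow_mul, mul_comm]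
    obtain ⟨m, hm0, hm⟩ := exists_min 2 ((ζ : F) ^ 2)
    set rels : Finset (FreeGroup (Fin 3)) := Finset.univ.image (relE q j m) with hrels
    refine ⟨rels, ?_, ?_⟩
    · have := Finset.card_image_le (s := (Finset.univ : Finset (Fin 5))) (f := relE q j m)
      rw [Finset.card_univ, Fintype.card_fin] at this
      exact this
    · have hPrel : ∀ i, FreeGroup.lift (fun i => PresentedGroup.of i : Fin 3 → PresentedGroup (rels : Set (FreeGroup (Fin 3)))) (relE q j m i) = 1 := by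
        intro i
        rw [← mk_eq_lift]
        apply PresentedGroup.one_of_mem
        rw [Finset.mem_coe, hrels]
        exact Finset.mem_image_of_mem _ (Finset.mem_univ i)
      obtain ⟨hfin, hcard⟩ := even_bound hq hζ h2 hm0 hm _ (by rw [← range3, PresentedGroup.closure_range_of]) hPrel
      obtain ⟨e, -⟩ := pres_iso (rels : Set (FreeGroup (Fin 3))) (XS ζ) ⊤ (XS_gen hζ) (by
          intro r hr
          rw [Finset.mem_coe, hrels, Finset.mem_image] at hr
          obtain ⟨i, _, rfl⟩ := hr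
          revert i
          simp only [Finset.mem_univ, forall_const]
          rw [relE_iff]
          refine ⟨hsu, hsut, ?_, ?_, tS_hS ζ⟩
          · show hS ζ ^ j * yS 1 * (hS ζ ^ j)⁻¹ = yS 1 * (hS ζ * yS 1 * (hS ζ)⁻¹)
            rw [hy.pow, hy.mul, ← hy.add, hj']
            congr 1; ring
          · show pw (hS ζ) (yS 1) m = hS ζ ^ (q - 1)
            rw [hy.pw_eq, hm0, hy.zero, hS_pow, ← hord, pow_orderOf_eq_one, hS_one]) hfin (hcard.trans hcardSL)
      exact ⟨e.trans Subgroup.topEquiv⟩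

theorem PSL_even {F : Type*} [Field F] [Fintype F] (h2 : CharP F 2) :
    Nonempty (SL(2, F) ≃* Matrix.ProjectiveSpecialLinearGroup (Fin 2) F) := by
  have hc : Subgroup.center SL(2, F) = ⊥ := by
    rw [← Subgroup.card_eq_one, ClSLn.card_center_SL rfl 2 (by norm_num)]
    haveI : Fact (Nat.Prime 2) := ⟨Nat.prime_two⟩
    obtain ⟨k, -, hk⟩ := FiniteField.card F 2
    have h3 : 2 ∣ Fintype.card F := by rw [hk]; exact dvd_pow_self 2 (PNat.ne_zero k)
    have h4 : 0 < Fintype.card F := Fintype.card_pos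
    have h5 : ¬ 2 ∣ Fintype.card F - 1 := by omega
    exact (Nat.Prime.coprime_iff_not_dvd Nat.prime_two).2 h5
  exact ⟨(QuotientGroup.quotientBot.symm.trans (QuotientGroup.quotientMulEquivOfEq hc.symm))⟩

end Cfsg.Agent.Lib.PresSL2
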