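import Cfsg.Agent.Lib.PresSLn2
import Cfsg.Agent.Lib.PresSL2

/-! Presentations of `SL_n`, `n ≥ 4`: final counts (helper38). -/

set_option autoImplicit false

namespace Cfsg.Agent.Lib.PresSLn

open Equiv Equiv.Perm Matrix Cfsg.Agent.Lib.PresMod Cfsg.Agent.Lib.PresField Cfsg.Agent.Lib.PresTorus Cfsg.Agent.Lib.PresCore
  Cfsg.Agent.Lib.PresEqv Cfsg.Agent.Lib.PresSLmod Cfsg.Agent.Lib.PresTool Cfsg.Agent.Lib.PresAlt Cfsg.Agent.Lib.PresFinal

variable {n : ℕ}

theorem lift_word {G : Type*} [Group G] {mg : ℕ} {relsA : Finset (FreeGroup (Fin mg))}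
    (e : PresentedGroup (relsA : Set (FreeGroup (Fin mg))) ≃* Al n) (φ : Al n →* G) (y : Fin 2 → G) (V : FreeGroup (Fin mg)) :
    FreeGroup.lift (Fin.append (fun i => φ (e (PresentedGroup.of i))) y) (FreeGroup.map (Fin.castAdd 2) V) =
      φ (e (PresentedGroup.mk _ V)) := by
  have h : (FreeGroup.lift (Fin.append (fun i => φ (e (PresentedGroup.of i))) y)).comp (FreeGroup.map (Fin.castAdd 2)) =
      (φ.comp e.toMonoidHom).comp (PresentedGroup.mk _) := by
    ext i : 1
    rw [MonoidHom.comp_apply, FreeGroup.map.of, FreeGroup.lift_apply_of, Fin.append_left]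
    rfl
  exact DFunLike.congr_fun h V

/-- relators saying that two permutations commute with `u` and `h` -/
def relF {mg : ℕ} (wα wβ : FreeGroup (Fin mg)) : Fin 4 → FreeGroup (Fin (mg + 2)) :=
  ![FreeGroup.map (Fin.castAdd 2) wα * FreeGroup.of (Fin.natAdd mg 0) * (FreeGroup.map (Fin.castAdd 2) wα)⁻¹ * (FreeGroup.of (Fin.natAdd mg 0))⁻¹,
    FreeGroup.map (Fin.castAdd 2) wβ * FreeGroup.of (Fin.natAdd mg 0) * (FreeGroup.map (Fin.castAdd 2) wβ)⁻¹ * (FreeGroup.of (Fin.natAdd mg 0))⁻¹,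
    FreeGroup.map (Fin.castAdd 2) wα * FreeGroup.of (Fin.natAdd mg 1) * (FreeGroup.map (Fin.castAdd 2) wα)⁻¹ * (FreeGroup.of (Fin.natAdd mg 1))⁻¹,
    FreeGroup.map (Fin.castAdd 2) wβ * FreeGroup.of (Fin.natAdd mg 1) * (FreeGroup.map (Fin.castAdd 2) wβ)⁻¹ * (FreeGroup.of (Fin.natAdd mg 1))⁻¹]

theorem relF_iff {mg : ℕ} {relsA : Finset (FreeGroup (Fin mg))}
    (e : PresentedGroup (relsA : Set (FreeGroup (Fin mg))) ≃* Al n) {wα wβ : FreeGroup (Fin mg)} {α β : Al n}
    (hwα : e (PresentedGroup.mk _ wα) = α) (hwβ : e (PresentedGroup.mk _ wβ) = β)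
    {G : Type*} [Group G] (φ : Al n →* G) (u h : G) :
      (∀ i, FreeGroup.lift (Fin.append (fun i => φ (e (PresentedGroup.of i))) ![u, h]) (relF wα wβ i) = 1) ↔
        (Commute (φ α) u ∧ Commute (φ β) u ∧ Commute (φ α) h ∧ Commute (φ β) h) := by
  have e0 : FreeGroup.lift (Fin.append (fun i => φ (e (PresentedGroup.of i))) ![u, h]) (FreeGroup.of (Fin.natAdd mg 0)) = u := by
    rw [FreeGroup.lift_apply_of]; exact Fin.append_right _ _ 0
  have e1 : FreeGroup.lift (Fin.append (fun i => φ (e (PresentedGroup.of i))) ![u, h]) (FreeGroup.of (Fin.natAdd mg 1)) = h := by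
    rw [FreeGroup.lift_apply_of]; exact Fin.append_right _ _ 1
  have e2 : FreeGroup.lift (Fin.append (fun i => φ (e (PresentedGroup.of i))) ![u, h]) (FreeGroup.map (Fin.castAdd 2) wα) = φ α := by
    rw [lift_word, hwα]
  have e3 : FreeGroup.lift (Fin.append (fun i => φ (e (PresentedGroup.of i))) ![u, h]) (FreeGroup.map (Fin.castAdd 2) wβ) = φ β := by
    rw [lift_word, hwβ]
  rw [Fin.forall_fin_succ, Fin.forall_fin_succ, Fin.forall_fin_succ, Fin.forall_fin_succ]
  simp only [relF, Matrix.cons_val, Matrix.cons_val_zero, Matrix.cons_val_succ, _root_.map_mul, map_inv,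
    Matrix.cons_val_one, e0, e1, e2, e3]
  rw [mul_inv_eq_one, mul_inv_eq_one, mul_inv_eq_one, mul_inv_eq_one, mul_inv_eq_iff_eq_mul, mul_inv_eq_iff_eq_mul,
    mul_inv_eq_iff_eq_mul, mul_inv_eq_iff_eq_mul]
  constructor
  · rintro ⟨h0, h1, h2, h3, -⟩; exact ⟨h0, h1, h2, h3⟩
  · rintro ⟨h0, h1, h2, h3⟩; exact ⟨h0, h1, h2, h3, fun i => i.elim0⟩

/-- extra relators when `n = 4` -/
def relG {mg : ℕ} (wC wP wQ wT : FreeGroup (Fin mg)) : Fin 3 → FreeGroup (Fin (mg + 2)) :=
  let C := FreeGroup.map (Fin.castAdd 2) wC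
  let P := FreeGroup.map (Fin.castAdd 2) wP
  let Q := FreeGroup.map (Fin.castAdd 2) wQ
  let T := FreeGroup.map (Fin.castAdd 2) wT
  let u := FreeGroup.of (Fin.natAdd mg 0)
  let h := FreeGroup.of (Fin.natAdd mg 1)
  ![(T * h * T⁻¹) * u * (T * h * T⁻¹)⁻¹ * ((C⁻¹ * h * C)⁻¹ * u * (C⁻¹ * h * C))⁻¹,
    (P * u * P⁻¹) * (C⁻¹ * (P * u * P⁻¹) * C) * (P * u * P⁻¹)⁻¹ * (C⁻¹ * (P * u * P⁻¹) * C)⁻¹ * (C * u * C⁻¹)⁻¹,
    (P * u * P⁻¹) * (Q * u * Q⁻¹) * ((Q * u * Q⁻¹) * (P * u * P⁻¹))⁻¹]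

theorem relG_iff {mg : ℕ} {relsA : Finset (FreeGroup (Fin mg))}
    (e : PresentedGroup (relsA : Set (FreeGroup (Fin mg))) ≃* Al n) {wC wP wQ wT : FreeGroup (Fin mg)} {c π ρ τ : Al n}
    (hC : e (PresentedGroup.mk _ wC) = c) (hP : e (PresentedGroup.mk _ wP) = π)
    (hQ : e (PresentedGroup.mk _ wQ) = ρ) (hT : e (PresentedGroup.mk _ wT) = τ)
    {G : Type*} [Group G] (φ : Al n →* G) (u h : G) :
      (∀ i, FreeGroup.lift (Fin.append (fun i => φ (e (PresentedGroup.of i))) ![u, h]) (relG wC wP wQ wT i) = 1) ↔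
        Cd4 (φ c) (φ π) (φ ρ) (φ τ) u h := by
  have e0 : FreeGroup.lift (Fin.append (fun i => φ (e (PresentedGroup.of i))) ![u, h]) (FreeGroup.of (Fin.natAdd mg 0)) = u := by
    rw [FreeGroup.lift_apply_of]; exact Fin.append_right _ _ 0
  have e1 : FreeGroup.lift (Fin.append (fun i => φ (e (PresentedGroup.of i))) ![u, h]) (FreeGroup.of (Fin.natAdd mg 1)) = h := by
    rw [FreeGroup.lift_apply_of]; exact Fin.append_right _ _ 1
  have e2 : FreeGroup.lift (Fin.append (fun i => φ (e (PresentedGroup.of i))) ![u, h]) (FreeGroup.map (Fin.castAdd 2) wC) = φ c := by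
    rw [lift_word, hC]
  have e3 : FreeGroup.lift (Fin.append (fun i => φ (e (PresentedGroup.of i))) ![u, h]) (FreeGroup.map (Fin.castAdd 2) wP) = φ π := by
    rw [lift_word, hP]
  have e4 : FreeGroup.lift (Fin.append (fun i => φ (e (PresentedGroup.of i))) ![u, h]) (FreeGroup.map (Fin.castAdd 2) wQ) = φ ρ := by
    rw [lift_word, hQ]
  have e5 : FreeGroup.lift (Fin.append (fun i => φ (e (PresentedGroup.of i))) ![u, h]) (FreeGroup.map (Fin.castAdd 2) wT) = φ τ := by
    rw [lift_word, hT]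
  rw [Fin.forall_fin_succ, Fin.forall_fin_succ, Fin.forall_fin_succ]
  simp only [relG, Matrix.cons_val, Matrix.cons_val_zero, Matrix.cons_val_succ, _root_.map_mul, map_inv,
    Matrix.cons_val_one, e0, e1, e2, e3, e4, e5]
  constructor
  · rintro ⟨h0, h1, h2, -⟩; exact ⟨mul_inv_eq_one.1 h0, mul_inv_eq_one.1 h1, mul_inv_eq_one.1 h2⟩
  · rintro ⟨h0, h1, h2⟩; exact ⟨mul_inv_eq_one.2 h0, mul_inv_eq_one.2 h1, mul_inv_eq_one.2 h2, fun i => i.elim0⟩

theorem exists_word {mg : ℕ} {relsA : Finset (FreeGroup (Fin mg))} {A : Type*} [Group A]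
    (e : PresentedGroup (relsA : Set (FreeGroup (Fin mg))) ≃* A) (σ : A) : ∃ W : FreeGroup (Fin mg), e (PresentedGroup.mk _ W) = σ := by
  obtain ⟨W, hW⟩ := PresentedGroup.mk_surjective (relsA : Set (FreeGroup (Fin mg))) (e.symm σ)
  exact ⟨W, by rw [hW, e.apply_symm_apply]⟩

/-- `n ≥ 5` -/
theorem pres_five.{v} {F : Type v} [Field F] [Fintype F] (hn : 5 ≤ n) {mg : ℕ} (relsA : Finset (FreeGroup (Fin mg)))
    (e : PresentedGroup (relsA : Set (FreeGroup (Fin mg))) ≃* Al n) :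
    ∃ rels : Finset (FreeGroup (Fin (mg + 2))), rels.card ≤ relsA.card + 16 ∧
      Nonempty (PresentedGroup (rels : Set (FreeGroup (Fin (mg + 2)))) ≃* SpecialLinearGroup (Fin n) F) := by
  obtain ⟨ζ, hζ⟩ := PresSL2.exists_gen F
  obtain ⟨R, hR⟩ := exists_BD2.{v} (rfl : Fintype.card F = Fintype.card F) hζ
  obtain ⟨p, c, π, ρ, τ, m⟩ := exists_Mk (n := n) (by omega)
  obtain ⟨h01, h02, h03, h12, h13, h23⟩ := ne_of_inj m.inj
  obtain ⟨α, β, ⟨hα0, hα1⟩, ⟨hβ0, hβ1⟩, hst⟩ := exists_stab m.inj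
  obtain ⟨wα, hwα⟩ := exists_word e α
  obtain ⟨wβ, hwβ⟩ := exists_word e β
  have hM := model (n := n) (rfl : Fintype.card F = Fintype.card F) ζ
  refine Exists.imp (fun rels h => ⟨by have := h.1; omega, h.2⟩) (pres_main (rfl : Fintype.card F = Fintype.card F) hζ hR (by omega) m relsA e
    (relF wα wβ) ?_ ?_)
  · rw [relF_iff e hwα hwβ (pm n F)]
    obtain ⟨a1, a2⟩ := hM.stab m.inj α hα0 hα1
    obtain ⟨a3, a4⟩ := hM.stab m.inj β hβ0 hβ1
    exact ⟨a1, a3, a2, a4⟩
  · intro G _ φ u h hcd hex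
    rw [relF_iff e hwα hwβ φ] at hex
    obtain ⟨a1, a2, a3, a4⟩ := hex
    have hstab : ∀ σ : Al n, σ.1 (p 0) = p 0 → σ.1 (p 1) = p 1 → Commute (φ σ) u ∧ Commute (φ σ) h := by
      intro σ s0 s1
      have h1 := hst σ s0 s1
      have h2 : Subgroup.closure ({α, β} : Set (Al n)) ≤ (Subgroup.centralizer ({u, h} : Set G)).comap φ := by
        rw [Subgroup.closure_le]
        rintro _ (rfl | h3)
        · rw [SetLike.mem_coe, Subgroup.mem_comap, Subgroup.mem_centralizer_iff]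
          rintro _ (rfl | h4)
          · exact a1.eq.symm
          · rw [Set.mem_singleton_iff] at h4
            subst h4
            exact a3.eq.symm
        · rw [Set.mem_singleton_iff] at h3
          subst h3
          rw [SetLike.mem_coe, Subgroup.mem_comap, Subgroup.mem_centralizer_iff]
          rintro _ (rfl | h4)
          · exact a2.eq.symm
          · rw [Set.mem_singleton_iff] at h4
            subst h4
            exact a4.eq.symm
      have h5 := h2 h1
      rw [Subgroup.mem_comap, Subgroup.mem_centralizer_iff] at h5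
      exact ⟨(h5 u (Or.inl rfl)).symm, (h5 h (Or.inr rfl)).symm⟩
    obtain ⟨X, H, hpre, hXu, hHh⟩ := hcd.pre m hζ hstab (fun b1 b2 b3 b4 => hR.complete G h _ u b1 b2 b3 b4)
    exact ⟨X, H, (hpre.bas5 m hn).model m, hXu, hHh⟩

/-- `n = 4` -/
theorem pres_four.{v} {F : Type v} [Field F] [Fintype F] {mg : ℕ} (relsA : Finset (FreeGroup (Fin mg)))
    (e : PresentedGroup (relsA : Set (FreeGroup (Fin mg))) ≃* Al 4) :
    ∃ rels : Finset (FreeGroup (Fin (mg + 2))), rels.card ≤ relsA.card + 15 ∧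
      Nonempty (PresentedGroup (rels : Set (FreeGroup (Fin (mg + 2)))) ≃* SpecialLinearGroup (Fin 4) F) := by
  obtain ⟨ζ, hζ⟩ := PresSL2.exists_gen F
  obtain ⟨R, hR⟩ := exists_BD2.{v} (rfl : Fintype.card F = Fintype.card F) hζ
  obtain ⟨p, c, π, ρ, τ, m⟩ := exists_Mk (n := 4) (by omega)
  obtain ⟨wC, hwC⟩ := exists_word e c
  obtain ⟨wP, hwP⟩ := exists_word e π
  obtain ⟨wQ, hwQ⟩ := exists_word e ρ
  obtain ⟨wT, hwT⟩ := exists_word e τ
  have hM := model (n := 4) (rfl : Fintype.card F = Fintype.card F) ζ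
  refine Exists.imp (fun rels h => ⟨by have := h.1; omega, h.2⟩) (pres_main (rfl : Fintype.card F = Fintype.card F) hζ hR (by omega) m relsA e
    (relG wC wP wQ wT) ?_ ?_)
  · rw [relG_iff e hwC hwP hwQ hwT (pm 4 F)]
    exact hM.cd4 m
  · intro G _ φ u h hcd hex
    rw [relG_iff e hwC hwP hwQ hwT φ] at hex
    have hstab : ∀ σ : Al 4, σ.1 (p 0) = p 0 → σ.1 (p 1) = p 1 → Commute (φ σ) u ∧ Commute (φ σ) h := by
      intro σ s0 s1
      rw [stab_four m.inj σ s0 s1, map_one]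
      exact ⟨Commute.one_left _, Commute.one_left _⟩
    obtain ⟨X, H, hpre, hXu, hHh⟩ := hcd.pre m hζ hstab (fun b1 b2 b3 b4 => hR.complete G h _ u b1 b2 b3 b4)
    exact ⟨X, H, (hpre.bas4 m hζ hXu hHh hex).model m, hXu, hHh⟩

open FreeGroup in
theorem pres_A4 : ∃ rels : Finset (FreeGroup (Fin 2)), rels.card ≤ 4 ∧
    Nonempty (PresentedGroup (rels : Set (FreeGroup (Fin 2))) ≃* alternatingGroup (Fin 4)) := by
  classical
  set rels : Finset (FreeGroup (Fin 2)) := {of 0 ^ 3, of 1 ^ 3, (of 0 * of 1) ^ 2, (of 1 * of 0) ^ 2} with hrels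
  refine ⟨rels, ?_, ?_⟩
  · exact Finset.card_le_four
  · have h0 : (PresentedGroup.of 0 : PresentedGroup (rels : Set (FreeGroup (Fin 2)))) ^ 3 = 1 :=
      PresentedGroup.one_of_mem (x := of 0 ^ 3) (by simp [hrels])
    have h1 : (PresentedGroup.of 1 : PresentedGroup (rels : Set (FreeGroup (Fin 2)))) ^ 3 = 1 :=
      PresentedGroup.one_of_mem (x := of 1 ^ 3) (by simp [hrels])
    have h2 : ((PresentedGroup.of 0 : PresentedGroup (rels : Set (FreeGroup (Fin 2)))) * PresentedGroup.of 1) ^ 2 = 1 :=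
      PresentedGroup.one_of_mem (x := (of 0 * of 1) ^ 2) (by simp [hrels])
    have h3 : ((PresentedGroup.of 1 : PresentedGroup (rels : Set (FreeGroup (Fin 2)))) * PresentedGroup.of 0) ^ 2 = 1 :=
      PresentedGroup.one_of_mem (x := (of 1 * of 0) ^ 2) (by simp [hrels])
    let x : ℕ → PresentedGroup (rels : Set (FreeGroup (Fin 2))) := fun i => if i = 0 then PresentedGroup.of 0 else PresentedGroup.of 1
    obtain ⟨hfin, hcard⟩ := carm_bound 2 x
      (by intro i hi
          interval_cases i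
          · exact h0
          · exact h1) (by
          intro i hi j hj hij
          interval_cases i <;> interval_cases j
          · exact absurd rfl hij
          · exact h2
          · exact h3
          · exact absurd rfl hij)
    have htop : gen x 2 = ⊤ := by
      rw [eq_top_iff, ← PresentedGroup.closure_range_of, Subgroup.closure_le]
      rintro _ ⟨i, rfl⟩
      fin_cases i
      · exact Subgroup.subset_closure ⟨0, by norm_num, rfl⟩
      · exact Subgroup.subset_closure ⟨1, by norm_num, rfl⟩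
    rw [htop] at hfin hcard
    rw [Subgroup.card_top] at hcard
    have hfin' : Finite (PresentedGroup (rels : Set (FreeGroup (Fin 2)))) := Finite.of_equiv _ Subgroup.topEquiv.toEquiv
    obtain ⟨e, -⟩ := pres_iso (rels : Set (FreeGroup (Fin 2))) ![swap (0 : Fin 4) 1 * swap 1 2, swap (0 : Fin 4) 1 * swap 1 3] (alternatingGroup (Fin 4)) (by
        apply le_antisymm
        · rw [Subgroup.closure_le]
          rintro _ ⟨i, rfl⟩
          fin_cases i
          · show swap (0 : Fin 4) 1 * swap 1 2 ∈ alternatingGroup (Fin 4)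
            rw [mem_alternatingGroup]; decide
          · show swap (0 : Fin 4) 1 * swap 1 3 ∈ alternatingGroup (Fin 4)
            rw [mem_alternatingGroup]; decide
        · apply alt_le_of_star (a := (0 : Fin 4)) (b := 1) (by decide)
          intro i hi0 hi1
          have : i = 2 ∨ i = 3 := by revert i; decide
          rcases this with rfl | rfl
          · exact Subgroup.subset_closure ⟨0, rfl⟩
          · exact Subgroup.subset_closure ⟨1, rfl⟩) (by
        intro r hr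
        simp only [hrels, Finset.coe_insert, Finset.coe_singleton, Set.mem_insert_iff, Set.mem_singleton_iff] at hr
        rcases hr with rfl | rfl | rfl | rfl
        · simp only [map_pow, FreeGroup.lift_apply_of]; decide
        · simp only [map_pow, FreeGroup.lift_apply_of]; decide
        · simp only [map_pow, _root_.map_mul, FreeGroup.lift_apply_of]; decide
        · simp only [map_pow, _root_.map_mul, FreeGroup.lift_apply_of]; decide) hfin' (by
        have h1 := two_mul_nat_card_alternatingGroup (α := Fin 4)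
        rw [Nat.card_eq_fintype_card (α := Perm (Fin 4)), Fintype.card_perm, Fintype.card_fin] at h1
        have h2 : (2 + 2).factorial = Nat.factorial 4 := rfl
        omega)
    exact ⟨e⟩

open FreeGroup in
theorem pres_A5 : ∃ rels : Finset (FreeGroup (Fin 2)), rels.card ≤ 4 ∧
    Nonempty (PresentedGroup (rels : Set (FreeGroup (Fin 2))) ≃* alternatingGroup (Fin 5)) := by
  classical
  haveI : Fact (Nat.Prime 3) := ⟨by norm_num⟩
  obtain ⟨a, r, W, S, Z, E, F, d⟩ := PresAn.exists_BD 3 (by norm_num)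
  refine ⟨{of 0 ^ 3 * (of 1 ^ 3)⁻¹, W * of 0 ^ a * W⁻¹ * (of 0 ^ (a + 1))⁻¹, W * of 1 * W⁻¹ * of 1,
    (of 1 * (of 0 * of 1 * (of 0)⁻¹)) ^ 2}, Finset.card_le_four, ?_⟩
  have hrels : ((({of 0 ^ 3 * (of 1 ^ 3)⁻¹, W * of 0 ^ a * W⁻¹ * (of 0 ^ (a + 1))⁻¹, W * of 1 * W⁻¹ * of 1,
    (of 1 * (of 0 * of 1 * (of 0)⁻¹)) ^ 2} : Finset (FreeGroup (Fin 2)))) : Set (FreeGroup (Fin 2))) = PresAn.relsA 3 a W := by
    simp [PresAn.relsA]
  rw [hrels]
  set rels := PresAn.relsA 3 a W with hrels'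
  have hP : PresBase.BaseA 3 a W (PresentedGroup.of 0 : PresentedGroup rels) (PresentedGroup.of 1) := by
    rw [← PresAn.relsA_iff 3 a W (fun i => PresentedGroup.of i)]
    intro r hr
    rw [← mk_eq_lift]
    exact PresentedGroup.one_of_mem hr
  have hgenP : Subgroup.closure {(PresentedGroup.of 0 : PresentedGroup rels), PresentedGroup.of 1} = ⊤ := by
    rw [← PresentedGroup.closure_range_of rels]
    congr 1
    ext g
    constructor
    · rintro (rfl | hg)
      · exact ⟨0, rfl⟩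
      · rw [Set.mem_singleton_iff.1 hg]; exact ⟨1, rfl⟩
    · rintro ⟨i, rfl⟩
      fin_cases i
      · left; rfl
      · right; rfl
  obtain ⟨hfin, hcard⟩ := PresBase.baseA_bound d.aff W hP hgenP
  have hcard2 : Nat.card (PresentedGroup rels) ≤ Nat.card (alternatingGroup (Fin (3 + 2))) := by
    have h1 := two_mul_nat_card_alternatingGroup (α := Fin (3 + 2))
    rw [Nat.card_eq_fintype_card (α := Perm (Fin (3 + 2))), Fintype.card_perm, Fintype.card_fin] at h1
    omega
  obtain ⟨e, -⟩ := pres_iso rels ![S, Z] (alternatingGroup (Fin (3 + 2))) (by rw [PresAn.range_two, d.gen])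
    ((PresAn.relsA_iff 3 a W ![S, Z]).2 d.base) hfin hcard2
  exact ⟨e⟩

end Cfsg.Agent.Lib.PresSLn
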