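import Cfsg.Agent.Lib.PresSL3b
import Cfsg.Agent.Lib.PresSLn3

/-! The presentation of `SL_3` (helper38). -/

set_option autoImplicit false

namespace Cfsg.Agent.Lib.PresSL3

open Matrix Cfsg.Agent.Lib.PresMod Cfsg.Agent.Lib.PresField Cfsg.Agent.Lib.PresTorus Cfsg.Agent.Lib.PresCore
  Cfsg.Agent.Lib.PresEqv Cfsg.Agent.Lib.PresTool Cfsg.Agent.Lib.PresSLn Cfsg.Agent.Lib.PresSLmod

/-- the relators, 11 of them -/
def relK {G : Type*} [Group G] (q : ℕ) (R : Fin 4 → FreeGroup (Fin 3)) (u h t c : G) : Fin 11 → G :=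
  ![FreeGroup.lift ![u, h, (c⁻¹ * h * c)⁻¹] (R 0), FreeGroup.lift ![u, h, (c⁻¹ * h * c)⁻¹] (R 1),
    FreeGroup.lift ![u, h, (c⁻¹ * h * c)⁻¹] (R 2), FreeGroup.lift ![u, h, (c⁻¹ * h * c)⁻¹] (R 3),
    if q % 2 = 1 then t ^ 2 * (h ^ ((q - 1) / 2))⁻¹ else h ^ (q - 1),
    t * h * t⁻¹ * h, t * u * t⁻¹ * (u⁻¹ * t * u⁻¹)⁻¹, c ^ 3, (t * c⁻¹) ^ 2,
    h * (c * h * c⁻¹) * ((c * h * c⁻¹) * h)⁻¹, h * (c * h * c⁻¹) * (c⁻¹ * h * c)]

/-- commutator relator -/
def relE1 {G : Type*} [Group G] (v u t c : G) : G :=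
  v * (c * u * c⁻¹) * v⁻¹ * (c * u * c⁻¹)⁻¹ * (c⁻¹ * (t * v⁻¹ * t⁻¹) * c)⁻¹

def relE2 {G : Type*} [Group G] (u t c : G) : G :=
  u * (c⁻¹ * (t * u⁻¹ * t⁻¹) * c) * ((c⁻¹ * (t * u⁻¹ * t⁻¹) * c) * u)⁻¹

theorem map_relK {G G' : Type*} [Group G] [Group G'] (f : G →* G') (q : ℕ) (R : Fin 4 → FreeGroup (Fin 3)) (u h t c : G) (i : Fin 11) :
    f (relK q R u h t c i) = relK q R (f u) (f h) (f t) (f c) i := by
  by_cases hq : q % 2 = 1
  · fin_cases i <;> simp [relK, map_lift3, hq]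
  · fin_cases i <;> simp [relK, map_lift3, hq]

theorem map_relE1 {G G' : Type*} [Group G] [Group G'] (f : G →* G') (v u t c : G) :
    f (relE1 v u t c) = relE1 (f v) (f u) (f t) (f c) := by simp [relE1]

theorem map_relE2 {G G' : Type*} [Group G] [Group G'] (f : G →* G') (u t c : G) :
    f (relE2 u t c) = relE2 (f u) (f t) (f c) := by simp [relE2]

/-- the relations -/
structure K3 {G : Type*} [Group G] (q : ℕ) (R : Fin 4 → FreeGroup (Fin 3)) (u h t c : G) : Prop where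
  base : ∀ i, FreeGroup.lift ![u, h, (c⁻¹ * h * c)⁻¹] (R i) = 1
  zo : q % 2 = 1 → t ^ 2 = h ^ ((q - 1) / 2)
  ze : q % 2 = 0 → h ^ (q - 1) = 1
  ht : t * h * t⁻¹ = h⁻¹
  A : t * u * t⁻¹ = u⁻¹ * t * u⁻¹
  c3 : c ^ 3 = 1
  s2 : (t * c⁻¹) ^ 2 = 1
  comm : Commute h (c * h * c⁻¹)
  prod : h * (c * h * c⁻¹) * (c⁻¹ * h * c) = 1

theorem relK_iff {G : Type*} [Group G] (q : ℕ) (R : Fin 4 → FreeGroup (Fin 3)) (u h t c : G) :
    (∀ i, relK q R u h t c i = 1) ↔ K3 q R u h t c := by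
  constructor
  · intro H
    have h0 := H 0
    have h1 := H 1
    have h2 := H 2
    have h3 := H 3
    have h4 := H 4
    have h5 := H 5
    have h6 := H 6
    have h7 := H 7
    have h8 := H 8
    have h9 := H 9
    have h10 := H 10
    simp only [relK, Matrix.cons_val] at h0 h1 h2 h3 h4 h5 h6 h7 h8 h9 h10
    refine ⟨?_, ?_, ?_, mul_eq_one_iff_eq_inv.1 h5, mul_inv_eq_one.1 h6, h7, h8, mul_inv_eq_one.1 h9, h10⟩
    · intro k
      fin_cases k
      · exact h0
      · exact h1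
      · exact h2
      · exact h3
    · intro hq
      rw [if_pos hq] at h4
      exact mul_inv_eq_one.1 h4
    · intro hq
      rw [if_neg (by omega)] at h4
      exact h4
  · intro H i
    fin_cases i
    all_goals simp only [relK, Matrix.cons_val, Fin.mk_one, Fin.zero_eta, Fin.reduceFinMk]
    · exact H.base 0
    · exact H.base 1
    · exact H.base 2
    · exact H.base 3
    · by_cases hq : q % 2 = 1
      · rw [if_pos hq]; exact mul_inv_eq_one.2 (H.zo hq)
      · rw [if_neg hq]; exact H.ze (by omega)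
    · exact mul_eq_one_iff_eq_inv.2 H.ht
    · exact mul_inv_eq_one.2 H.A
    · exact H.c3
    · exact H.s2
    · exact mul_inv_eq_one.2 H.comm
    · exact H.prod

theorem K3.hpow {G : Type*} [Group G] {q : ℕ} {R : Fin 4 → FreeGroup (Fin 3)} {u h t c : G} (d : K3 q R u h t c) : h ^ (q - 1) = 1 := by
  rcases Nat.mod_two_eq_zero_or_one q with hq | hq
  · exact d.ze hq
  · have h1 := d.zo hq
    have h2 : t * h ^ ((q - 1) / 2) * t⁻¹ = (h ^ ((q - 1) / 2))⁻¹ := by rw [← conj_pow, d.ht, inv_pow]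
    rw [← h1] at h2
    have h3 : t * t ^ 2 * t⁻¹ = t ^ 2 := by rw [sq]; group
    rw [h3, h1] at h2
    have h4 : q - 1 = (q - 1) / 2 + (q - 1) / 2 := by omega
    rw [h4, pow_add]
    nth_rw 1 [h2]
    exact inv_mul_cancel _

theorem K3.exists_C3.{v} {F : Type v} [Field F] [Fintype F] {q : ℕ} (hq : Fintype.card F = q) {ζ : Fˣ}
    (hζ : ∀ x : Fˣ, x ∈ Subgroup.zpowers ζ) {R : Fin 4 → FreeGroup (Fin 3)} (hR : BD2 F q (ζ : F) R)
    {G : Type} [Group G] {u h t c : G} (d : K3 q R u h t c) : ∃ (mz : ℕ) (y : F → G), C3 ζ mz u h t c y := by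
  have hk : (c⁻¹ * h * c)⁻¹ = h * (c * h * c⁻¹) := by
    rw [inv_eq_iff_mul_eq_one]
    exact mul_eq_one_iff_eq_inv.2 (mul_eq_one_iff_eq_inv'.1 d.prod)
  have hc : Commute h (c⁻¹ * h * c)⁻¹ := by
    rw [hk]; exact (Commute.refl h).mul_right d.comm
  have hkp : ((c⁻¹ * h * c)⁻¹) ^ (q - 1) = 1 := by
    rw [hk, d.comm.mul_pow, d.hpow, conj_pow, d.hpow]; group
  obtain ⟨y, hy⟩ := hR.complete G h _ u hc d.hpow hkp d.base
  rcases Nat.mod_two_eq_zero_or_one q with hq2 | hq2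
  · refine ⟨q - 1, y, hy, d.ht, d.A, d.c3, d.s2, d.comm, d.prod, ?_, ?_⟩
    · rw [d.hpow]
      -- `u² = 1`
      have h2 : (2 : F) = 0 := by
        obtain ⟨p, hcp⟩ := CharP.exists F
        haveI := hcp
        obtain ⟨n, hp, hn⟩ := FiniteField.card F p
        have : p = 2 := by
          have h3 : 2 ∣ p ^ (n : ℕ) := by rw [← hn, hq]; omega
          exact ((Nat.prime_dvd_prime_iff_eq Nat.prime_two hp).1 (Nat.prime_two.dvd_of_dvd_pow h3)).symm
        subst this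
        have := CharP.cast_eq_zero F 2
        exact_mod_cast this
      have hu : u * u = 1 := by
        rw [← hy.one, ← hy.add, one_add_one_eq_two, h2]
        exact hy.isY.zero
      have hA := d.A
      have hui : u⁻¹ = u := inv_eq_of_mul_eq_one_left hu
      rw [hui] at hA
      have h3 : (t * u * t⁻¹) * (t * u * t⁻¹) = 1 := by
        calc (t * u * t⁻¹) * (t * u * t⁻¹) = t * (u * u) * t⁻¹ := by group
          _ = 1 := by rw [hu]; group
      rw [hA] at h3
      have h4 : u * t * u * (u * t * u) = u * (t * t) * u := by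
        calc u * t * u * (u * t * u) = u * t * (u * u) * t * u := by group
          _ = _ := by rw [hu]; group
      rw [h4] at h3
      rw [sq]
      calc t * t = u * (u * (t * t) * u) * u := by
            rw [show u * (u * (t * t) * u) * u = (u * u) * (t * t) * (u * u) by group, hu]; group
        _ = 1 := by rw [h3, mul_one, hu]
    · have h2 : ((-1 : Fˣ)) = 1 := by
        obtain ⟨p, hcp⟩ := CharP.exists F
        haveI := hcp
        obtain ⟨n, hp, hn⟩ := FiniteField.card F p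
        have : p = 2 := by
          have h3 : 2 ∣ p ^ (n : ℕ) := by rw [← hn, hq]; omega
          exact ((Nat.prime_dvd_prime_iff_eq Nat.prime_two hp).1 (Nat.prime_two.dvd_of_dvd_pow h3)).symm
        subst this
        apply Units.ext
        rw [Units.val_neg, Units.val_one]
        exact CharTwo.neg_eq 1
      rw [h2, ← hq]
      exact Units.ext (by rw [Units.val_pow_eq_pow_val]; exact FiniteField.pow_card_sub_one_eq_one _ ζ.ne_zero)
  · exact ⟨(q - 1) / 2, y, hy, d.ht, d.A, d.c3, d.s2, d.comm, d.prod, d.zo hq2, PresSL2.half_pow hq hq2 hζ⟩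

/-! ### the model -/

variable {F : Type*} [Field F]

def c3 (F : Type*) [Field F] : SpecialLinearGroup (Fin 3) F := ⟨!![0, 0, 1; 1, 0, 0; 0, 1, 0], by simp [det_fin_three]⟩
def c3i (F : Type*) [Field F] : SpecialLinearGroup (Fin 3) F := ⟨!![0, 1, 0; 0, 0, 1; 1, 0, 0], by simp [det_fin_three]⟩
def t3 (F : Type*) [Field F] : SpecialLinearGroup (Fin 3) F := ⟨!![0, 1, 0; -1, 0, 0; 0, 0, 1], by simp [det_fin_three]⟩
def t3i (F : Type*) [Field F] : SpecialLinearGroup (Fin 3) F := ⟨!![0, -1, 0; 1, 0, 0; 0, 0, 1], by simp [det_fin_three]⟩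
def d3 (a b c : Fˣ) (h : a * b * c = 1) : SpecialLinearGroup (Fin 3) F := ⟨!![(a : F), 0, 0; 0, (b : F), 0; 0, 0, (c : F)], by
  simp [det_fin_three]
  have := congrArg Units.val h
  simpa using this⟩
def y3 (a : F) : SpecialLinearGroup (Fin 3) F := ⟨!![1, a, 0; 0, 1, 0; 0, 0, 1], by simp [det_fin_three]⟩


theorem mul3 (A B : SpecialLinearGroup (Fin 3) F) : ((A * B : SpecialLinearGroup (Fin 3) F) : Matrix (Fin 3) (Fin 3) F) = A * B := rfl
theorem one3 : ((1 : SpecialLinearGroup (Fin 3) F) : Matrix (Fin 3) (Fin 3) F) = !![1, 0, 0; 0, 1, 0; 0, 0, 1] := by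
  ext i j; fin_cases i <;> fin_cases j <;> rfl
theorem c3_coe : ((c3 F : SpecialLinearGroup (Fin 3) F) : Matrix (Fin 3) (Fin 3) F) = !![0, 0, 1; 1, 0, 0; 0, 1, 0] := rfl
theorem c3i_coe : ((c3i F : SpecialLinearGroup (Fin 3) F) : Matrix (Fin 3) (Fin 3) F) = !![0, 1, 0; 0, 0, 1; 1, 0, 0] := rfl
theorem t3_coe : ((t3 F : SpecialLinearGroup (Fin 3) F) : Matrix (Fin 3) (Fin 3) F) = !![0, 1, 0; -1, 0, 0; 0, 0, 1] := rfl
theorem t3i_coe : ((t3i F : SpecialLinearGroup (Fin 3) F) : Matrix (Fin 3) (Fin 3) F) = !![0, -1, 0; 1, 0, 0; 0, 0, 1] := rfl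
theorem d3_coe (a b c : Fˣ) (h : a * b * c = 1) : ((d3 a b c h : SpecialLinearGroup (Fin 3) F) : Matrix (Fin 3) (Fin 3) F) =
  !![(a : F), 0, 0; 0, (b : F), 0; 0, 0, (c : F)] := rfl
theorem y3_coe (a : F) : ((y3 a : SpecialLinearGroup (Fin 3) F) : Matrix (Fin 3) (Fin 3) F) = !![1, a, 0; 0, 1, 0; 0, 0, 1] := rfl

theorem ext3 {a b : SpecialLinearGroup (Fin 3) F} (h : (a : Matrix (Fin 3) (Fin 3) F) = b) : a = b := Subtype.ext h

theorem c3_inv : (c3 F)⁻¹ = c3i F := by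
  rw [inv_eq_iff_mul_eq_one]
  apply ext3
  rw [mul3, c3_coe, c3i_coe, one3]
  simp [Matrix.mul_fin_three]

theorem t3_inv : (t3 F)⁻¹ = t3i F := by
  rw [inv_eq_iff_mul_eq_one]
  apply ext3
  rw [mul3, t3_coe, t3i_coe, one3]
  simp [Matrix.mul_fin_three]

theorem y3_inv (a : F) : (y3 a)⁻¹ = y3 (-a) := by
  rw [inv_eq_iff_mul_eq_one]
  apply ext3
  rw [mul3, y3_coe, y3_coe, one3]
  simp [Matrix.mul_fin_three]

theorem d3_mul (a b c a' b' c' : Fˣ) (h : a * b * c = 1) (h' : a' * b' * c' = 1) :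
    d3 a b c h * d3 a' b' c' h' = d3 (a * a') (b * b') (c * c') (by
      rw [show a * a' * (b * b') * (c * c') = (a * b * c) * (a' * b' * c') by
        simp only [mul_comm, mul_left_comm, mul_assoc], h, h', one_mul]) := by
  apply ext3
  rw [mul3, d3_coe, d3_coe, d3_coe]
  simp [Matrix.mul_fin_three]

theorem d3_one (h : (1 : Fˣ) * 1 * 1 = 1) : d3 (1 : Fˣ) 1 1 h = 1 := by
  apply ext3
  rw [d3_coe, one3]; simp

theorem d3_inv (a b c : Fˣ) (h : a * b * c = 1) : (d3 a b c h)⁻¹ = d3 a⁻¹ b⁻¹ c⁻¹ (by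
    rw [← mul_inv, ← mul_inv, h, inv_one]) := by
  rw [inv_eq_iff_mul_eq_one, d3_mul]
  simp only [mul_inv_cancel]
  exact d3_one _

theorem d3_pow (a b c : Fˣ) (h : a * b * c = 1) (n : ℕ) : (d3 a b c h) ^ n = d3 (a ^ n) (b ^ n) (c ^ n) (by
    rw [← mul_pow, ← mul_pow, h, one_pow]) := by
  induction n with
  | zero => simp only [pow_zero]; exact (d3_one _).symm
  | succ n ih => simp only [pow_succ, ih, d3_mul]

theorem c3_d3 (a b c : Fˣ) (h : a * b * c = 1) : c3 F * d3 a b c h * (c3 F)⁻¹ = d3 c a b (by rw [← h]; simp only [mul_comm, mul_left_comm]) := by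
  rw [c3_inv]
  apply ext3
  rw [mul3, mul3, c3_coe, d3_coe, c3i_coe, d3_coe]
  simp [Matrix.mul_fin_three]

theorem c3i_d3 (a b c : Fˣ) (h : a * b * c = 1) : (c3 F)⁻¹ * d3 a b c h * c3 F = d3 b c a (by rw [← h]; simp only [mul_comm, mul_left_comm]) := by
  rw [c3_inv]
  apply ext3
  rw [mul3, mul3, c3_coe, d3_coe, c3i_coe, d3_coe]
  simp [Matrix.mul_fin_three]

theorem t3_d3 (a b c : Fˣ) (h : a * b * c = 1) : t3 F * d3 a b c h * (t3 F)⁻¹ = d3 b a c (by rw [← h]; simp only [mul_comm]) := by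
  rw [t3_inv]
  apply ext3
  rw [mul3, mul3, t3_coe, d3_coe, t3i_coe, d3_coe]
  simp [Matrix.mul_fin_three]

theorem d3_y3 (a b c : Fˣ) (h : a * b * c = 1) (x : F) : d3 a b c h * y3 x * (d3 a b c h)⁻¹ = y3 ((a * b⁻¹ : Fˣ) * x) := by
  rw [d3_inv]
  apply ext3
  rw [mul3, mul3, d3_coe, d3_coe, y3_coe, y3_coe]
  simp [Matrix.mul_fin_three]
  ring

def h3 (ζ : Fˣ) : SpecialLinearGroup (Fin 3) F := d3 ζ ζ⁻¹ 1 (by simp)

theorem k3_eq (ζ : Fˣ) : ((c3 F)⁻¹ * h3 ζ * c3 F)⁻¹ = d3 ζ 1 ζ⁻¹ (by simp) := by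
  rw [h3, c3i_d3, d3_inv]
  congr 1 <;> simp

theorem y3_isY2 (ζ : Fˣ) : IsY2 (ζ : F) (h3 ζ) ((c3 F)⁻¹ * h3 ζ * c3 F)⁻¹ (y3 1) (y3 : F → SpecialLinearGroup (Fin 3) F) := by
  refine ⟨?_, rfl, ?_, ?_⟩
  · intro a b
    apply ext3
    rw [mul3, y3_coe, y3_coe, y3_coe]
    simp [Matrix.mul_fin_three, add_comm]
  · intro x
    rw [h3, d3_y3, inv_inv, ← sq, Units.val_pow_eq_pow_val]
  · intro x
    rw [k3_eq, d3_y3, inv_one, mul_one]

theorem k3_model [Fintype F] {q : ℕ} (hq : Fintype.card F = q) {ζ : Fˣ}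
    (hζ : ∀ x : Fˣ, x ∈ Subgroup.zpowers ζ) {R : Fin 4 → FreeGroup (Fin 3)} (hR : BD2 F q (ζ : F) R) :
    K3 q R (y3 1) (h3 ζ) (t3 F) (c3 F) := by
  constructor
  · exact hR.sound _ _ _ _ _ (y3_isY2 ζ)
  · intro ho
    rw [h3, d3_pow]
    apply ext3
    rw [sq, mul3, t3_coe, d3_coe, inv_pow, PresSL2.half_pow hq ho hζ]
    simp [Matrix.mul_fin_three]
  · intro _
    have hz : ζ ^ (q - 1) = 1 := by
      rw [← hq]
      exact Units.ext (by rw [Units.val_pow_eq_pow_val]; exact FiniteField.pow_card_sub_one_eq_one _ ζ.ne_zero)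
    rw [h3, d3_pow]
    apply ext3
    rw [d3_coe, inv_pow, hz, one3]
    simp
  · rw [h3, t3_d3, d3_inv]
    congr 1 <;> simp
  · rw [t3_inv, y3_inv]
    apply ext3
    rw [mul3, mul3, mul3, mul3, t3_coe, t3i_coe, y3_coe, y3_coe]
    simp [Matrix.mul_fin_three]
  · apply ext3
    rw [pow_succ, sq, mul3, mul3, c3_coe, one3]
    simp [Matrix.mul_fin_three]
  · apply ext3
    rw [sq, c3_inv, mul3, mul3, c3i_coe, t3_coe, one3]
    simp [Matrix.mul_fin_three]
  · rw [h3, c3_d3]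
    show _ * _ = _ * _
    rw [d3_mul, d3_mul]
    congr 1 <;> simp
  · rw [h3, c3_d3, c3i_d3, d3_mul, d3_mul]
    apply ext3
    rw [d3_coe, one3]
    simp

theorem relE1_model (a : F) : relE1 (y3 a) (y3 1) (t3 F) (c3 F) = 1 := by
  unfold relE1
  rw [mul_inv_eq_one, mul_inv_eq_iff_eq_mul, c3_inv, t3_inv, y3_inv]
  apply ext3
  simp only [mul3, c3_coe, c3i_coe, t3_coe, t3i_coe, y3_coe]
  simp [Matrix.mul_fin_three]

theorem relE2_model : relE2 (y3 (1 : F)) (t3 F) (c3 F) = 1 := by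
  unfold relE2
  rw [mul_inv_eq_one, c3_inv, t3_inv, y3_inv]
  apply ext3
  simp only [mul3, c3_coe, c3i_coe, t3_coe, t3i_coe, y3_coe]
  simp [Matrix.mul_fin_three]


theorem tv01 (a : F) : tv (0 : Fin 3) 1 a = y3 a := by
  apply ext3
  rw [coe_tv (by decide), y3_coe]
  ext i j
  fin_cases i <;> fin_cases j <;> simp [Matrix.one_apply, Matrix.single_apply]

theorem c3_conj (M : Matrix (Fin 3) (Fin 3) F) : !![0, 0, 1; 1, 0, 0; 0, 1, 0] * M * !![0, 1, 0; 0, 0, 1; 1, 0, 0] =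
    M.submatrix (· + 2) (· + 2) := by
  rw [Matrix.eta_fin_three M, Matrix.mul_fin_three, Matrix.mul_fin_three]
  ext k l
  fin_cases k <;> fin_cases l <;> simp

theorem c3_tv (i j : Fin 3) (hij : i ≠ j) (a : F) : c3 F * tv i j a * (c3 F)⁻¹ = tv (i + 1) (j + 1) a := by
  have hij' : i + 1 ≠ j + 1 := fun h => hij (add_right_cancel h)
  rw [c3_inv]
  apply ext3
  rw [mul3, mul3, coe_tv hij, coe_tv hij', c3_coe, c3i_coe, c3_conj]
  ext k l
  rw [Matrix.submatrix_apply, Matrix.add_apply, Matrix.add_apply, Matrix.one_apply, Matrix.one_apply, Matrix.single_apply, Matrix.single_apply]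
  have e1 : k + 2 = l + 2 ↔ k = l := ⟨fun h => add_right_cancel h, fun h => by rw [h]⟩
  have e2 : ∀ i k : Fin 3, i = k + 2 ↔ i + 1 = k := by decide
  simp only [e1, e2]

theorem t3_tv (a : F) : t3 F * tv 0 1 (-a) * (t3 F)⁻¹ = tv 1 0 a := by
  rw [t3_inv]
  rw [tv01]
  apply ext3
  rw [mul3, mul3, coe_tv (by decide), t3_coe, t3i_coe, y3_coe, Matrix.mul_fin_three, Matrix.mul_fin_three]
  ext k l
  fin_cases k <;> fin_cases l <;> simp [Matrix.one_apply, Matrix.single_apply]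

theorem gen3 [Fintype F] {ζ : Fˣ} (hζ : ∀ x : Fˣ, x ∈ Subgroup.zpowers ζ) (K : Subgroup (SpecialLinearGroup (Fin 3) F))
    (hu : y3 1 ∈ K) (hh : h3 ζ ∈ K) (ht : t3 F ∈ K) (hc : c3 F ∈ K) : K = ⊤ := by
  have key : ∀ a : F, y3 a ∈ K := by
    intro a
    have hY := (y3_isY2 ζ).isY
    obtain ⟨f, rfl⟩ := surj_sq hζ a
    induction f using Polynomial.induction_on' with
    | add f f' hf hf' => rw [map_add, (y3_isY2 ζ).add]; exact K.mul_mem hf hf'
    | monomial m' c' =>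
      have hz : ∀ (c : ℤ) (x : F), (y3 ((c : F) * x) : SpecialLinearGroup (Fin 3) F) = y3 x ^ c := by
        intro c x
        rcases c with c | c
        · rw [Int.ofNat_eq_natCast, Int.cast_natCast, hY.nsmul, zpow_natCast]
        · rw [Int.cast_negSucc, neg_mul, hY.neg, hY.nsmul, zpow_negSucc]
      have e1 : Polynomial.aeval ((ζ : F) ^ 2) (Polynomial.monomial m' c' : Polynomial ℤ) = (c' : F) * ((ζ : F) ^ 2) ^ m' := by
        rw [Polynomial.aeval_monomial]; simp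
      rw [e1, hz]
      apply K.zpow_mem
      have := hY.pow m' 1
      rw [mul_one] at this
      rw [← this]
      exact K.mul_mem (K.mul_mem (K.pow_mem hh _) hu) (K.inv_mem (K.pow_mem hh _))
  have k01 : ∀ a : F, tv 0 1 a ∈ K := fun a => by rw [tv01]; exact key a
  have k10 : ∀ a : F, tv 1 0 a ∈ K := fun a => by rw [← t3_tv]; exact K.mul_mem (K.mul_mem ht (k01 _)) (K.inv_mem ht)
  have step : ∀ i j : Fin 3, i ≠ j → (∀ a : F, tv i j a ∈ K) → ∀ a : F, tv (i + 1) (j + 1) a ∈ K := by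
    intro i j hij h a
    rw [← c3_tv i j hij]
    exact K.mul_mem (K.mul_mem hc (h a)) (K.inv_mem hc)
  have k12 : ∀ a : F, tv 1 2 a ∈ K := step 0 1 (by decide) k01
  have k20 : ∀ a : F, tv 2 0 a ∈ K := step 1 2 (by decide) k12
  have k21 : ∀ a : F, tv 2 1 a ∈ K := step 1 0 (by decide) k10
  have k02 : ∀ a : F, tv 0 2 a ∈ K := step 2 1 (by decide) k21
  apply closure_tv (by norm_num)
  intro i j hij a
  fin_cases i <;> fin_cases j <;> first | exact absurd rfl hij | skip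
  · exact k01 a
  · exact k02 a
  · exact k10 a
  · exact k12 a
  · exact k20 a
  · exact k21 a

/-- `SL₃(q)`: 4 generators, 14 relators. -/
theorem pres_SL3.{v} (F : Type v) [Field F] [Fintype F] :
    ∃ rels : Finset (FreeGroup (Fin 4)), rels.card ≤ 14 ∧
      Nonempty (PresentedGroup (rels : Set (FreeGroup (Fin 4))) ≃* SpecialLinearGroup (Fin 3) F) := by
  classical
  obtain ⟨ζ, hζ⟩ := PresSL2.exists_gen F
  obtain ⟨R, hR⟩ := exists_BD2.{v} (rfl : Fintype.card F = Fintype.card F) hζ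
  set q := Fintype.card F with hq
  set U : FreeGroup (Fin 4) := FreeGroup.of 0 with hU
  set Hh : FreeGroup (Fin 4) := FreeGroup.of 1 with hHh
  set T : FreeGroup (Fin 4) := FreeGroup.of 2 with hT
  set C : FreeGroup (Fin 4) := FreeGroup.of 3 with hC
  obtain ⟨K, hK⟩ : ∃ K : FreeGroup (Fin 4), K = (C⁻¹ * Hh * C)⁻¹ := ⟨_, rfl⟩
  let Z : Fin 4 → SpecialLinearGroup (Fin 3) F := ![y3 1, h3 ζ, t3 F, c3 F]
  have Z0 : FreeGroup.lift Z U = y3 1 := by rw [hU, FreeGroup.lift_apply_of]; rfl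
  have Z1 : FreeGroup.lift Z Hh = h3 ζ := by rw [hHh, FreeGroup.lift_apply_of]; rfl
  have Z2 : FreeGroup.lift Z T = t3 F := by rw [hT, FreeGroup.lift_apply_of]; rfl
  have Z3 : FreeGroup.lift Z C = c3 F := by rw [hC, FreeGroup.lift_apply_of]; rfl
  have ZK : FreeGroup.lift Z K = ((c3 F)⁻¹ * h3 ζ * c3 F)⁻¹ := by
    rw [hK]; simp only [_root_.map_mul, map_inv, Z1, Z3]
  have hgenZ : Subgroup.closure (Set.range Z) = ⊤ := by
    apply gen3 hζ
    · exact Subgroup.subset_closure ⟨0, rfl⟩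
    · exact Subgroup.subset_closure ⟨1, rfl⟩
    · exact Subgroup.subset_closure ⟨2, rfl⟩
    · exact Subgroup.subset_closure ⟨3, rfl⟩
  have hY := y3_isY2 ζ
  have hKm := k3_model (rfl : Fintype.card F = Fintype.card F) hζ hR
  have yk : ((c3 F)⁻¹ * h3 ζ * c3 F)⁻¹ * y3 1 * ((c3 F)⁻¹ * h3 ζ * c3 F)⁻¹⁻¹ = y3 (ζ : F) := by
    have := hY.mulk 1
    rwa [mul_one] at this
  have yh : h3 ζ * y3 1 * (h3 ζ)⁻¹ = y3 ((ζ : F) ^ 2) := by
    have := hY.mulh 1
    rwa [mul_one] at this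
  -- the set of relators
  let E : Finset (FreeGroup (Fin 4)) := if q = 4 then {relE1 U U T C, relE1 (K * U * K⁻¹) U T C, relE1 (Hh * U * Hh⁻¹) U T C}
    else {relE1 U U T C, relE2 U T C}
  let rels : Finset (FreeGroup (Fin 4)) := Finset.univ.image (relK q R U Hh T C) ∪ E
  have hE : E.card ≤ 3 := by
    simp only [E]
    split_ifs
    · exact Finset.card_le_three
    · exact Finset.card_le_two.trans (by norm_num)
  have hcard : rels.card ≤ 14 := by
    refine (Finset.card_union_le _ _).trans ?_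
    have : (Finset.univ.image (relK q R U Hh T C)).card ≤ 11 := Finset.card_image_le.trans (by simp)
    omega
  refine ⟨rels, hcard, ?_⟩
  have hmem1 : ∀ i, relK q R U Hh T C i ∈ rels := fun i =>
    Finset.mem_union_left _ (Finset.mem_image_of_mem _ (Finset.mem_univ _))
  have hrelZ : ∀ r ∈ (rels : Set (FreeGroup (Fin 4))), FreeGroup.lift Z r = 1 := by
    intro r hr
    rw [Finset.mem_coe, Finset.mem_union, Finset.mem_image] at hr
    rcases hr with ⟨i, -, rfl⟩ | hr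
    · rw [map_relK, Z0, Z1, Z2, Z3]
      exact (relK_iff _ _ _ _ _ _).2 hKm i
    · simp only [E] at hr
      split_ifs at hr
      · rw [Finset.mem_insert, Finset.mem_insert, Finset.mem_singleton] at hr
        rcases hr with rfl | rfl | rfl
        · rw [map_relE1, Z0, Z2, Z3]; exact relE1_model 1
        · rw [map_relE1, _root_.map_mul, _root_.map_mul, map_inv, ZK, Z0, Z2, Z3, yk]; exact relE1_model _
        · rw [map_relE1, _root_.map_mul, _root_.map_mul, map_inv, Z1, Z0, Z2, Z3, yh]; exact relE1_model _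
      · rw [Finset.mem_insert, Finset.mem_singleton] at hr
        rcases hr with rfl | rfl
        · rw [map_relE1, Z0, Z2, Z3]; exact relE1_model 1
        · rw [map_relE2, Z0, Z2, Z3]; exact relE2_model
  have key : Finite (PresentedGroup (rels : Set (FreeGroup (Fin 4)))) ∧
      Nat.card (PresentedGroup (rels : Set (FreeGroup (Fin 4)))) ≤ Nat.card (SpecialLinearGroup (Fin 3) F) := by
    set G := PresentedGroup (rels : Set (FreeGroup (Fin 4))) with hG
    let z : Fin 4 → G := fun i => PresentedGroup.of i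
    have hz : ∀ r ∈ rels, FreeGroup.lift z r = 1 := by
      intro r hr
      rw [← mk_eq_lift]
      exact PresentedGroup.one_of_mem (by exact_mod_cast hr)
    have z0 : FreeGroup.lift z U = z 0 := FreeGroup.lift_apply_of
    have z1 : FreeGroup.lift z Hh = z 1 := FreeGroup.lift_apply_of
    have z2 : FreeGroup.lift z T = z 2 := FreeGroup.lift_apply_of
    have z3 : FreeGroup.lift z C = z 3 := FreeGroup.lift_apply_of
    have zK : FreeGroup.lift z K = ((z 3)⁻¹ * z 1 * z 3)⁻¹ := by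
      rw [hK]; simp only [_root_.map_mul, map_inv, z1, z3]
    have hK3 : K3 q R (z 0) (z 1) (z 2) (z 3) := by
      rw [← relK_iff]
      intro i
      have := hz _ (hmem1 i)
      rwa [map_relK, z0, z1, z2, z3] at this
    obtain ⟨mz, y, d⟩ := hK3.exists_C3 (rfl : Fintype.card F = Fintype.card F) hζ hR
    have ey : ∀ a, relE1 (y a) (z 0) (z 2) (z 3) = 1 → y a * C3.x12 (z 3) y 1 * (y a)⁻¹ * (C3.x12 (z 3) y 1)⁻¹ = C3.x02 (z 2) (z 3) y a := by
      intro a ha
      unfold relE1 at ha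
      rw [mul_inv_eq_one] at ha
      unfold C3.x12 C3.x02 C3.x10
      rw [d.y2.one, d.y2.isY.neg]
      exact ha
    have hgen : Subgroup.closure {z 0, z 1, z 2, z 3} = ⊤ := by
      rw [← PresentedGroup.closure_range_of (rels : Set (FreeGroup (Fin 4)))]
      congr 1
      ext g
      constructor
      · rintro (rfl | rfl | rfl | rfl)
        · exact ⟨0, rfl⟩
        · exact ⟨1, rfl⟩
        · exact ⟨2, rfl⟩
        · exact ⟨3, rfl⟩
      · rintro ⟨i, rfl⟩
        fin_cases i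
        · exact Or.inl rfl
        · exact Or.inr (Or.inl rfl)
        · exact Or.inr (Or.inr (Or.inl rfl))
        · exact Or.inr (Or.inr (Or.inr rfl))
    apply d.bound _ hgen
    by_cases hq4 : q = 4
    · have hEm : ∀ r ∈ ({relE1 U U T C, relE1 (K * U * K⁻¹) U T C, relE1 (Hh * U * Hh⁻¹) U T C} : Finset (FreeGroup (Fin 4))), r ∈ rels := by
        intro r hr
        apply Finset.mem_union_right
        simp only [E, if_pos hq4]
        exact hr
      have r1 := hz _ (hEm (relE1 U U T C) (by simp))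
      have r2 := hz _ (hEm (relE1 (K * U * K⁻¹) U T C) (by simp))
      have r3 := hz _ (hEm (relE1 (Hh * U * Hh⁻¹) U T C) (by simp))
      rw [map_relE1, z0, z2, z3] at r1
      rw [map_relE1, _root_.map_mul, _root_.map_mul, map_inv, zK, z0, z2, z3] at r2
      rw [map_relE1, _root_.map_mul, _root_.map_mul, map_inv, z1, z0, z2, z3] at r3
      have e2 : ((z 3)⁻¹ * z 1 * z 3)⁻¹ * z 0 * ((z 3)⁻¹ * z 1 * z 3)⁻¹⁻¹ = y (ζ : F) := by
        have := d.y2.mulk 1
        rwa [d.y2.one, mul_one] at this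
      have e3 : z 1 * z 0 * (z 1)⁻¹ = y ((ζ : F) ^ 2) := by
        have := d.y2.mulh 1
        rwa [d.y2.one, mul_one] at this
      rw [e2] at r2
      rw [e3] at r3
      rw [← d.y2.one] at r1
      have r1' : relE1 (y 1) (z 0) (z 2) (z 3) = 1 := by rw [← d.y2.one]; exact r1
      apply d.rel3_of_one hζ
      intro a ha
      apply ey
      obtain ⟨n, hn⟩ := exists_pow hζ ha
      have hord := order_gen hζ (rfl : Fintype.card F = Fintype.card F)
      have h3 : ζ ^ 3 = 1 := by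
        have := pow_orderOf_eq_one ζ
        rwa [hord, ← hq, hq4] at this
      have hn' : (ζ : F) ^ (n % 3) = a := by
        rw [← hn]
        have : ζ ^ (n % 3) = ζ ^ n := by
          conv_rhs => rw [← Nat.div_add_mod n 3, pow_add, pow_mul, h3, one_pow, one_mul]
        have := congrArg Units.val this
        simpa using this
      have : n % 3 = 0 ∨ n % 3 = 1 ∨ n % 3 = 2 := by omega
      rcases this with h | h | h
      · rw [h, pow_zero] at hn'; rw [← hn']; exact r1'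
      · rw [h, pow_one] at hn'; rw [← hn']; exact r2
      · rw [h] at hn'; rw [← hn']; exact r3
    · have hEm : ∀ r ∈ ({relE1 U U T C, relE2 U T C} : Finset (FreeGroup (Fin 4))), r ∈ rels := by
        intro r hr
        apply Finset.mem_union_right
        simp only [E, if_neg hq4]
        exact hr
      have r1 := hz _ (hEm (relE1 U U T C) (by simp))
      have r2 := hz _ (hEm (relE2 U T C) (by simp))
      rw [map_relE1, z0, z2, z3] at r1
      rw [map_relE2, z0, z2, z3] at r2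
      have r1' : relE1 (y 1) (z 0) (z 2) (z 3) = 1 := by rw [d.y2.one]; exact r1
      apply d.rel3_of_two hζ hq4 (ey 1 r1')
      unfold relE2 at r2
      rw [mul_inv_eq_one] at r2
      unfold C3.x02 C3.x10
      rw [d.y2.isY.neg, d.y2.one]
      exact r2
  obtain ⟨E', -⟩ := pres_iso (rels : Set (FreeGroup (Fin 4))) Z ⊤ hgenZ hrelZ key.1 (by
    rw [Subgroup.card_top]; exact key.2)
  exact ⟨E'.trans Subgroup.topEquiv⟩

end Cfsg.Agent.Lib.PresSL3
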