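import Cfsg.Agent.Lib.PresOA
import Cfsg.Agent.Lib.PresOD
import Cfsg.Agent.Lib.PresSpCore2
import Cfsg.Agent.S2290

set_option autoImplicit false
set_option linter.unusedSectionVars false
set_option linter.unusedSimpArgs false

/-!
Short presentations of `Ω⁺`: from relators to the data (helper38).
-/

namespace Cfsg.Agent.Lib.PresO

open Matrix Cfsg.Agent.Lib.ClSL2 Cfsg.Agent.Lib.H92CT
open scoped MatrixGroups

variable {F : Type*} [Field F] [Fintype F]

/-- two elements generating `SLₙ` modulo the centre -/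
theorem key_gen (n : ℕ) (hn : 1 ≤ n) : ∃ a b : SpecialLinearGroup (Fin (n + 1)) F,
    Subgroup.closure ({a, b} : Set (SpecialLinearGroup (Fin (n + 1)) F)) ⊔ Subgroup.center (SpecialLinearGroup (Fin (n + 1)) F) = ⊤ := by
  have h01 : (0 : Fin (n + 1)) ≠ 1 := by
    intro h
    have h2 := congrArg Fin.val h
    rw [Fin.val_zero, Fin.val_one'] at h2
    rw [Nat.mod_eq_of_lt (by omega)] at h2
    omega
  let x : SpecialLinearGroup (Fin (n + 1)) F := SpecialLinearGroup.transvection h01 1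
  let w : SpecialLinearGroup (Fin (n + 1)) F := ⟨_, Cfsg.Agent.S2290.det_w n⟩
  by_cases hK : 3 < Fintype.card F
  · obtain ⟨k, hk⟩ := Cfsg.Agent.Lib.PresSL2.exists_gen F
    let d : Fin (n + 1) → F := fun i => if i.val = 0 then (k : F) else if i.val = 1 then ((k⁻¹ : Fˣ) : F) else 1
    have hd : (Matrix.diagonal d).det = 1 := by
      rw [det_diagonal, Fin.prod_univ_succ]
      obtain ⟨m, rfl⟩ : ∃ m, n = m + 1 := ⟨n - 1, by omega⟩
      rw [Fin.prod_univ_succ]
      have h1 : ∀ i : Fin m, d i.succ.succ = 1 := by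
        intro i
        simp [d, Fin.val_succ]
      rw [Finset.prod_congr rfl (fun i _ => h1 i), Finset.prod_const_one, mul_one]
      simp [d]
    let h : SpecialLinearGroup (Fin (n + 1)) F := ⟨Matrix.diagonal d, hd⟩
    exact ⟨h, x * w, Cfsg.Agent.S2402.result hK n hn k hk h x w rfl rfl rfl⟩
  · exact ⟨x, w, Cfsg.Agent.S2403.result (by omega) n hn x w rfl rfl⟩

theorem small_field (hK : ¬ 3 < Fintype.card F) (t : F) : t = 0 ∨ t = 1 ∨ t = -1 := by
  have h1 := FiniteField.pow_card t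
  have h2 : 1 < Fintype.card F := Fintype.one_lt_card
  have h3 : Fintype.card F = 2 ∨ Fintype.card F = 3 := by omega
  rcases h3 with h | h
  · rw [h] at h1
    have h4 : t * (t - 1) = 0 := by linear_combination h1
    rcases mul_eq_zero.mp h4 with h5 | h5
    · exact Or.inl h5
    · exact Or.inr (Or.inl (sub_eq_zero.mp h5))
  · rw [h] at h1
    have h4 : t * ((t - 1) * (t + 1)) = 0 := by linear_combination h1
    rcases mul_eq_zero.mp h4 with h5 | h5
    · exact Or.inl h5
    · rcases mul_eq_zero.mp h5 with h6 | h6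
      · exact Or.inr (Or.inl (sub_eq_zero.mp h6))
      · exact Or.inr (Or.inr (eq_neg_of_add_eq_zero_left h6))

theorem big_field (hK : 3 < Fintype.card F) : ∃ k : Fˣ, (∀ u : Fˣ, u ∈ Subgroup.zpowers k) ∧ (k : F) * k ≠ 1 := by
  obtain ⟨k, hk⟩ := Cfsg.Agent.Lib.PresSL2.exists_gen F
  refine ⟨k, hk, fun h => ?_⟩
  have h1 : k ^ 2 = 1 := Units.ext (by rw [pow_two, Units.val_mul, h]; rfl)
  have h2 : Nat.card Fˣ ≤ 2 := by
    have h3 : orderOf k = Nat.card Fˣ := orderOf_eq_card_of_forall_mem_zpowers hk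
    rw [← h3]
    exact orderOf_le_of_pow_eq_one (by norm_num) h1
  rw [Nat.card_units, Nat.card_eq_fintype_card] at h2
  omega

theorem w_lS : nS 1 (-1) * uS 1 * (nS 1 (-1))⁻¹ = (lS (-1) : SL(2, F)) := by
  have := nS_rel (F := F) one_ne_zero 1
  rw [inv_one, one_mul, one_mul] at this
  rw [this, mul_inv_cancel_right]

theorem small_top (hK : ¬ 3 < Fintype.card F) (K : Subgroup SL(2, F)) (h1 : uS 1 ∈ K) (h2 : lS (-1) ∈ K) : K = ⊤ := by
  apply eq_top_of_uS_lS
  · intro b
    rcases small_field hK b with h | h | h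
    · rw [h, uS_zero]; exact one_mem _
    · rw [h]; exact h1
    · rw [h, uS_neg]; exact inv_mem h1
  · intro b
    rcases small_field hK b with h | h | h
    · rw [h, lS_zero]; exact one_mem _
    · have : b = - -1 := by rw [h, neg_neg]
      rw [this, lS_neg]; exact inv_mem h2
    · rw [h]; exact h2

/-- perfect groups generated modulo the centre -/
theorem top_of_center {G : Type*} [Group G] (hperf : commutator G = ⊤) {H : Subgroup G} (hH : H ⊔ Subgroup.center G = ⊤) : H = ⊤ := by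
  have h1 : commutator G ≤ H := by
    have h2 : ∀ x : G, ∃ y ∈ H, ∃ z ∈ Subgroup.center G, x = y * z := by
      intro x
      have h3 : x ∈ H ⊔ Subgroup.center G := by rw [hH]; trivial
      obtain ⟨y, hy, z, hz, h4⟩ := Subgroup.mem_sup_of_normal_right.mp h3
      exact ⟨y, hy, z, hz, h4.symm⟩
    rw [commutator_def, Subgroup.commutator_le]
    intro x _ x' _
    obtain ⟨y, hy, z, hz, rfl⟩ := h2 x
    obtain ⟨y', hy', z', hz', rfl⟩ := h2 x'
    rw [Subgroup.mem_center_iff] at hz hz'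
    rw [commutatorElement_def]
    have h5 : y * z * (y' * z') * (y * z)⁻¹ * (y' * z')⁻¹ = y * y' * y⁻¹ * y'⁻¹ := by
      have e1 := hz (y' * z')
      have e2 := hz' (y⁻¹)
      calc y * z * (y' * z') * (y * z)⁻¹ * (y' * z')⁻¹ = y * (z * (y' * z')) * z⁻¹ * y⁻¹ * (y' * z')⁻¹ := by group
        _ = y * y' * (z' * y⁻¹) * z'⁻¹ * y'⁻¹ := by rw [← e1]; group
        _ = _ := by rw [← e2]; group
    rw [h5]
    exact mul_mem (mul_mem (mul_mem hy hy') (inv_mem hy)) (inv_mem hy')
  rw [hperf] at h1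
  exact eq_top_iff.mpr h1

theorem key_gen' (k : ℕ) : ∃ a b : SL(k + 2, F), Subgroup.closure ({a, b} : Set SL(k + 2, F)) ⊔ Subgroup.center SL(k + 2, F) = ⊤ :=
  key_gen (k + 1) (by omega)

theorem two_SL_small (hK : ¬ 3 < Fintype.card F) : ∃ c d : SL(2, F), Subgroup.closure ({c, d} : Set SL(2, F)) = ⊤ := by
  refine ⟨uS 1, nS 1 (-1), ?_⟩
  have h1 : (uS 1 : SL(2, F)) ∈ Subgroup.closure ({uS 1, nS 1 (-1)} : Set SL(2, F)) := Subgroup.subset_closure (Or.inl rfl)
  have h2 : (nS 1 (-1) : SL(2, F)) ∈ Subgroup.closure ({uS 1, nS 1 (-1)} : Set SL(2, F)) := Subgroup.subset_closure (Or.inr rfl)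
  apply small_top hK _ h1
  rw [← w_lS]
  exact mul_mem (mul_mem h2 h1) (inv_mem h2)

/-- `SLₙ` is generated by two elements -/
theorem two_SL (k : ℕ) : ∃ c d : SL(k + 2, F), Subgroup.closure ({c, d} : Set SL(k + 2, F)) = ⊤ := by
  by_cases h : k = 0 ∧ ¬ 3 < Fintype.card F
  · obtain ⟨rfl, h⟩ := h
    exact two_SL_small h
  · obtain ⟨c, d, hcd⟩ := key_gen' (F := F) k
    refine ⟨c, d, top_of_center (ClSLn.commutator_SL_eq_top' ?_) hcd⟩
    intro h1
    rw [Fintype.card_fin] at h1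
    have hK : 3 < Fintype.card F := by
      by_contra h2
      exact h ⟨by omega, h2⟩
    obtain ⟨k, -, hk⟩ := big_field hK
    exact ⟨k, k.ne_zero, by rwa [pow_two]⟩

/-- two elements of `SL₂`, the first one normally generating -/
theorem gen2 : ∃ a b : SL(2, F), ∀ K : Subgroup SL(2, F), a ∈ K → (∀ x ∈ K, b * x * b⁻¹ ∈ K) → (∀ x ∈ K, b⁻¹ * x * b ∈ K) → K = ⊤ := by
  by_cases hK : 3 < Fintype.card F
  · obtain ⟨k, hk, hk2⟩ := big_field hK
    let x : SpecialLinearGroup (Fin (1 + 1)) F := uS 1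
    let w : SpecialLinearGroup (Fin (1 + 1)) F := ⟨_, Cfsg.Agent.S2290.det_w 1⟩
    have h0 := Cfsg.Agent.S2402.result hK 1 le_rfl k hk (dS k) x w (by
      rw [coe_dS]
      ext i j
      fin_cases i <;> fin_cases j <;> simp [Matrix.diagonal]) rfl rfl
    refine ⟨dS k, x * w, fun K hK1 hK2 hK3 => ?_⟩
    have hN : Subgroup.normalizer (K : Set SL(2, F)) = ⊤ := by
      rw [eq_top_iff, ← h0]
      refine sup_le ?_ (Subgroup.center_le_normalizer _)
      rw [Subgroup.closure_le]
      rintro y (rfl | hy)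
      · exact Subgroup.le_normalizer hK1
      · rw [Set.mem_singleton_iff] at hy
        subst hy
        rw [SetLike.mem_coe, Subgroup.mem_normalizer_iff]
        intro y
        refine ⟨hK2 y, fun hy => ?_⟩
        have := hK3 _ hy
        have e : (x * w)⁻¹ * (x * w * y * (x * w)⁻¹) * (x * w) = y := by group
        rwa [e] at this
    have hnorm : ∀ g y : SL(2, F), y ∈ K → g * y * g⁻¹ ∈ K := by
      intro g y hy
      have h1 : g ∈ Subgroup.normalizer (K : Set SL(2, F)) := by rw [hN]; trivial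
      exact (Subgroup.mem_normalizer_iff.mp h1 y).mp hy
    have hk0 : (1 : F) - k * k ≠ 0 := fun h => hk2 (sub_eq_zero.mp h).symm
    have hk0' : (1 : F) - (k : F)⁻¹ * (k : F)⁻¹ ≠ 0 := fun h => hk2 (by
      have h1 := (sub_eq_zero.mp h).symm
      have h2 : (k : F) ≠ 0 := k.ne_zero
      field_simp at h1
      rw [← pow_two]; exact h1.symm)
    apply eq_top_of_uS_lS
    · intro t
      have h1 : uS t = uS (t / (1 - k * k)) * dS k * (uS (t / (1 - k * k)))⁻¹ * (dS k)⁻¹ := by
        rw [eq_mul_inv_iff_mul_eq, eq_mul_inv_iff_mul_eq]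
        apply ext2
        rw [coe_mul2, coe_mul2, coe_mul2, coe_dS, coe_uS, coe_uS]
        ext i j
        fin_cases i <;> fin_cases j <;> simp [Matrix.mul_apply]
        have h2 : (k : F) ≠ 0 := k.ne_zero
        have h3 : (1 : F) - (k : F) ^ 2 ≠ 0 := by rw [pow_two]; exact hk0
        field_simp
        ring
      rw [h1]
      exact mul_mem (hnorm _ _ hK1) (inv_mem hK1)
    · intro t
      have h1 : lS t = lS (t / (1 - (k : F)⁻¹ * (k : F)⁻¹)) * dS k * (lS (t / (1 - (k : F)⁻¹ * (k : F)⁻¹)))⁻¹ * (dS k)⁻¹ := by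
        rw [eq_mul_inv_iff_mul_eq, eq_mul_inv_iff_mul_eq]
        apply ext2
        rw [coe_mul2, coe_mul2, coe_mul2, coe_dS, coe_lS, coe_lS]
        ext i j
        fin_cases i <;> fin_cases j <;> simp [Matrix.mul_apply]
        have h2 : (k : F) ≠ 0 := k.ne_zero
        have h3 : (k : F) ^ 2 - 1 ≠ 0 := by rw [pow_two]; exact fun h => hk2 (sub_eq_zero.mp h)
        field_simp
        ring
      rw [h1]
      exact mul_mem (hnorm _ _ hK1) (inv_mem hK1)
  · refine ⟨uS 1, nS 1 (-1), fun K hK1 hK2 hK3 => ?_⟩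
    apply small_top hK _ hK1
    rw [← w_lS]
    exact hK2 _ hK1

theorem T01' (t : F) : (T 0 1 t : SL(2, F)) = uS t := by unfold T; rw [dif_pos zero_ne_one]; rfl
theorem T10' (t : F) : (T 1 0 t : SL(2, F)) = lS t := by unfold T; rw [dif_pos one_ne_zero]; rfl

/-- embeddings of special linear groups -/
theorem exists_emb {k n : ℕ} (hn : 3 ≤ n) (f : Fin (k + 2) → Fin n) (hf : Function.Injective f) : ∃ ι : SL(k + 2, F) →* SL(n, F),
    ∀ i j, i ≠ j → ∀ t, ι (T i j t) = T (f i) (f j) t := by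
  have hf' : ∀ i j, i ≠ j → f i ≠ f j := fun i j h h' => h (hf h')
  rcases k with _ | k
  · obtain ⟨φ, h1, h2⟩ := exists_phi2 (F := F) hn (hf' 0 1 (by simp))
    refine ⟨φ, fun i j hij t => ?_⟩
    fin_cases i <;> fin_cases j
    · exact absurd rfl hij
    · change φ (T 0 1 t) = _
      rw [T01', h1]; rfl
    · change φ (T 1 0 t) = _
      rw [T10', h2]; rfl
    · exact absurd rfl hij
  · exact hom_of_St0 (F := F) (G := SL(n, F)) (by omega) (x := fun a b t => T (f a) (f b) t)
      { add := fun a b hab s t => T_add (hf' a b hab) s t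
        comm1 := fun a b c hab hbc hac s t => T_comm1 (hf' a b hab) (hf' b c hbc) (hf' a c hac) s t
        comm0 := fun a b c d hab hcd had hbc s t => T_comm0 (hf' a b hab) (hf' c d hcd) (hf' a d had) (hf' b c hbc) s t }

/-- a subgroup containing the transvections contains the image -/
theorem emb_le {k n : ℕ} {f : Fin (k + 2) → Fin n} {ι : SL(k + 2, F) →* SL(n, F)}
    (hι : ∀ i j, i ≠ j → ∀ t, ι (T i j t) = T (f i) (f j) t) (K : Subgroup SL(n, F))
    (hK : ∀ i j, i ≠ j → ∀ t, T (f i) (f j) t ∈ K) (g : SL(k + 2, F)) : ι g ∈ K := by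
  have : K.comap ι = ⊤ := by
    apply ClSLn.eq_top_of_transvection_mem
    intro i j hij c
    have h2 : (Matrix.SpecialLinearGroup.transvection hij c : SL(k + 2, F)) = T i j c := by unfold T; rw [dif_pos hij]
    rw [h2, Subgroup.mem_comap, hι i j hij]
    exact hK i j hij c
  have h : g ∈ K.comap ι := by rw [this]; trivial
  exact h

/-- the four elements -/
theorem exists_abcd (m : ℕ) : ∃ a b c d : SL(m + 4, F),
    (∀ K : Subgroup SL(m + 4, F), a ∈ K → d ∈ K → b * c ∈ K → (∀ t, T (iq m) (io m) t ∈ K) ∧ (∀ t, T (io m) (iq m) t ∈ K) ∧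
      ∀ k l, k ≠ l → k ≠ io m → k ≠ iq m → l ≠ io m → l ≠ iq m → ∀ t, T k l t ∈ K) ∧
    (∀ K : Subgroup SL(m + 4, F), (∀ t, T (iq m) (io m) t ∈ K) → (∀ t, T (io m) (iq m) t ∈ K) →
      (∀ k l, k ≠ l → k ≠ io m → k ≠ iq m → l ≠ io m → l ≠ iq m → ∀ t, T k l t ∈ K) → a ∈ K ∧ b ∈ K ∧ c ∈ K ∧ d ∈ K) := by
  classical
  have hPQ := (io_ne_iq m).symm
  obtain ⟨φ, hφ1, hφ2⟩ := exists_phi2 (F := F) (by omega : 3 ≤ m + 4) hPQ
  have hcard : Fintype.card {x : Fin (m + 4) // x ≠ io m ∧ x ≠ iq m} = m + 2 := by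
    rw [Fintype.card_subtype]
    have : (Finset.univ.filter fun x : Fin (m + 4) => x ≠ io m ∧ x ≠ iq m) = (Finset.univ.erase (io m)).erase (iq m) := by
      ext x; simp [and_comm]
    rw [this, Finset.card_erase_of_mem (Finset.mem_erase.mpr ⟨hPQ, Finset.mem_univ _⟩), Finset.card_erase_of_mem (Finset.mem_univ _),
      Finset.card_univ, Fintype.card_fin]
    omega
  let e : Fin (m + 2) ≃ {x : Fin (m + 4) // x ≠ io m ∧ x ≠ iq m} := (Fintype.equivFinOfCardEq hcard).symm
  let f : Fin (m + 2) → Fin (m + 4) := fun i => (e i).1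
  have hf : Function.Injective f := fun i j h => e.injective (Subtype.ext h)
  have hf1 : ∀ i, f i ≠ io m := fun i => (e i).2.1
  have hf2 : ∀ i, f i ≠ iq m := fun i => (e i).2.2
  have hfs : ∀ x, x ≠ io m → x ≠ iq m → ∃ i, f i = x := fun x h1 h2 => ⟨e.symm ⟨x, h1, h2⟩, by simp [f]⟩
  obtain ⟨ι, hι⟩ := exists_emb (F := F) (by omega : 3 ≤ m + 4) f hf
  obtain ⟨a, b, hab⟩ := gen2 (F := F)
  obtain ⟨c, d, hcd⟩ := two_SL (F := F) m
  -- commutation
  have hcomm : ∀ (x : SL(2, F)) (y : SL(m + 2, F)), φ x * ι y = ι y * φ x := by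
    intro x y
    have h1 : ∀ i j, i ≠ j → ∀ t, cent φ (T (f i) (f j) t : SL(m + 4, F)) = ⊤ := by
      intro i j hij t
      have hne : f i ≠ f j := fun h => hij (hf h)
      apply eq_top_of_uS_lS
      · intro s
        rw [mem_cent, hφ1]
        exact T_comm0 hPQ hne (hf2 j).symm (hf1 i).symm s t
      · intro s
        rw [mem_cent, hφ2]
        exact T_comm0 hPQ.symm hne (hf1 j).symm (hf2 i).symm s t
    have h2 := emb_le hι (Subgroup.centralizer {φ x}) (fun i j hij t => by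
      rw [Subgroup.mem_centralizer_singleton_iff]
      have h3 : x ∈ cent φ (T (f i) (f j) t : SL(m + 4, F)) := by rw [h1 i j hij t]; trivial
      exact (mem_cent.mp h3).symm) y
    rw [Subgroup.mem_centralizer_singleton_iff] at h2
    exact h2.symm
  refine ⟨φ a, φ b, ι c, ι d, fun K ha hd hbc => ?_, fun K h1 h2 h3 => ?_⟩
  · have hφK : K.comap φ = ⊤ := by
      apply hab
      · exact ha
      · intro x hx
        rw [Subgroup.mem_comap, map_mul, map_mul, map_inv]
        have h4 : φ b * φ x * (φ b)⁻¹ = (φ b * ι c) * φ x * (φ b * ι c)⁻¹ := by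
          calc φ b * φ x * (φ b)⁻¹ = φ b * (φ x * ι c) * (ι c)⁻¹ * (φ b)⁻¹ := by group
            _ = _ := by rw [hcomm x c]; group
        rw [h4]
        exact mul_mem (mul_mem hbc hx) (inv_mem hbc)
      · intro x hx
        rw [Subgroup.mem_comap, map_mul, map_mul, map_inv]
        have h5 : (φ b)⁻¹ * φ x * φ b = φ (b⁻¹ * x * b) := by rw [map_mul, map_mul, map_inv]
        have h4 : (φ b)⁻¹ * φ x * φ b = (φ b * ι c)⁻¹ * φ x * (φ b * ι c) := by
          calc (φ b)⁻¹ * φ x * φ b = (ι c)⁻¹ * (ι c * φ (b⁻¹ * x * b)) := by rw [h5]; group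
            _ = _ := by rw [← hcomm, map_mul, map_mul, map_inv]; group
        rw [h4]
        exact mul_mem (mul_mem (inv_mem hbc) hx) hbc
    have hφK' : ∀ x, φ x ∈ K := fun x => by
      have : x ∈ K.comap φ := by rw [hφK]; trivial
      exact this
    have hc : ι c ∈ K := by
      have : ι c = (φ b)⁻¹ * (φ b * ι c) := by group
      rw [this]; exact mul_mem (inv_mem (hφK' b)) hbc
    have hιK : K.comap ι = ⊤ := by
      rw [eq_top_iff, ← hcd, Subgroup.closure_le]
      rintro x (rfl | hx)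
      · exact hc
      · rw [Set.mem_singleton_iff] at hx; subst hx; exact hd
    refine ⟨fun t => by rw [← hφ1]; exact hφK' _, fun t => by rw [← hφ2]; exact hφK' _, fun k l hkl k1 k2 l1 l2 t => ?_⟩
    obtain ⟨i, rfl⟩ := hfs k k1 k2
    obtain ⟨j, rfl⟩ := hfs l l1 l2
    rw [← hι i j (fun h => hkl (by rw [h]))]
    have : T i j t ∈ K.comap ι := by rw [hιK]; trivial
    exact this
  · have hφK : K.comap φ = ⊤ := eq_top_of_uS_lS _ (fun t => by rw [Subgroup.mem_comap, hφ1]; exact h1 t) (fun t => by rw [Subgroup.mem_comap, hφ2]; exact h2 t)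
    have hφK' : ∀ x, φ x ∈ K := fun x => by
      have : x ∈ K.comap φ := by rw [hφK]; trivial
      exact this
    have hιK := emb_le hι K (fun i j hij t => h3 _ _ (fun h => hij (hf h)) (hf1 i) (hf2 i) (hf1 j) (hf2 j) t)
    exact ⟨hφK' a, hφK' b, hιK c, hιK d⟩

end Cfsg.Agent.Lib.PresO
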