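import Cfsg.Agent.Lib.PresOG

set_option autoImplicit false
set_option linter.unusedSectionVars false
set_option linter.unusedSimpArgs false

/-!
Short presentations of `Ω⁺`: from relators to the data, second part (helper38).
-/

namespace Cfsg.Agent.Lib.PresO

open Matrix Cfsg.Agent.Lib.ClSL2 Cfsg.Agent.Lib.H92CT
open scoped MatrixGroups

variable {F : Type*} [Field F]

theorem T20_rel (α β γ δ : F) (h : α * δ - β * γ = 1) (t : F) :
    i23 (mk2 α β γ δ h) * T 1 0 t = (T 1 0 (α * t) * T 2 0 (γ * t) * i23 (mk2 α β γ δ h) : SL(3, F)) := by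
  apply Subtype.ext
  simp only [coe_mul3, coe_i23, coe_mk2]
  rw [coe_T (by decide), coe_T (by decide), coe_T (by decide)]
  ext i j
  fin_cases i <;> fin_cases j <;> simp [Matrix.mul_apply, Fin.sum_univ_three, Matrix.single_apply]

theorem T02_rel (α β γ δ : F) (h : α * δ - β * γ = 1) (t : F) :
    i23 (mk2 α β γ δ h) * T 0 1 t = (T 0 1 (δ * t) * T 0 2 (-(β * t)) * i23 (mk2 α β γ δ h) : SL(3, F)) := by
  apply Subtype.ext
  simp only [coe_mul3, coe_i23, coe_mk2]
  rw [coe_T (by decide), coe_T (by decide), coe_T (by decide)]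
  ext i j
  fin_cases i <;> fin_cases j <;> simp [Matrix.mul_apply, Fin.sum_univ_three, Matrix.single_apply]
  · linear_combination (-t) * h
  · ring

/-- an element of order prime to the characteristic -/
theorem exists_g0 (p : ℕ) [Fact p.Prime] [CharP F p] : ∃ (α β γ δ : F) (h : α * δ - β * γ = 1), β ≠ 0 ∧ γ ≠ 0 ∧
    ∃ e : ℕ, e.Coprime p ∧ (mk2 α β γ δ h) ^ e = 1 := by
  by_cases hp : p = 3
  · refine ⟨0, 1, -1, 0, by ring, one_ne_zero, neg_ne_zero.mpr one_ne_zero, 4, by rw [hp]; norm_num, ?_⟩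
    apply ext2
    have h4 : ∀ x : SL(2, F), x ^ 4 = x * x * (x * x) := fun x => by rw [pow_succ, pow_succ, pow_two]; simp only [mul_assoc]
    rw [h4]
    simp only [coe_mul2, coe_mk2]
    ext i j
    fin_cases i <;> fin_cases j <;> simp [Matrix.mul_apply]
  · refine ⟨0, -1, 1, -1, by ring, neg_ne_zero.mpr one_ne_zero, one_ne_zero, 3, ?_, ?_⟩
    · exact (Nat.coprime_primes Nat.prime_three Fact.out).mpr (Ne.symm hp)
    · apply ext2
      have h4 : ∀ x : SL(2, F), x ^ 3 = x * x * x := fun x => by rw [pow_succ, pow_two]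
      rw [h4]
      simp only [coe_mul2, coe_mk2]
      ext i j
      fin_cases i <;> fin_cases j <;> simp [Matrix.mul_apply]

theorem exists_g [Finite F] (p : ℕ) [Fact p.Prime] [CharP F p] (m : ℕ) : ∃ g : SL(m + 4, F), (∃ e : ℕ, e.Coprime p ∧ g ^ e = 1) ∧
    (∀ t, g * T (ip m) (iq m) t = T (ip m) (iq m) t * g) ∧
    (∀ K : Subgroup SL(m + 4, F), g ∈ K → (∀ k l, k ≠ l → k ≠ iq m → k ≠ io m → k ≠ ip m → l ≠ iq m → l ≠ io m → l ≠ ip m → ∀ t, T k l t ∈ K) →
      (m = 0 → ∀ t, T (ir m) (io m) t ∈ K) → ∀ k l, k ≠ l → k ≠ ip m → k ≠ iq m → l ≠ ip m → l ≠ iq m → ∀ t, T k l t ∈ K) ∧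
    (∀ K : Subgroup SL(m + 4, F), (∀ t, T (ir m) (io m) t ∈ K) → (∀ t, T (io m) (ir m) t ∈ K) → g ∈ K) := by
  have hJQ := (io_ne_ir m).symm
  have hRP := ip_ne_iq m
  have hQR := io_ne_ip m
  have hQP := io_ne_iq m
  have hJR := ir_ne_ip m
  have hJP := ir_ne_iq m
  obtain ⟨φ, hφ1, hφ2⟩ := exists_phi2 (F := F) (by omega : 3 ≤ m + 4) hJQ
  obtain ⟨α, β, γ, δ, h, hβ, hγ, e, he, hge⟩ := exists_g0 (F := F) p
  set g0 := mk2 α β γ δ h with hg0
  have hin : ∀ K : Subgroup SL(m + 4, F), (∀ t, T (ir m) (io m) t ∈ K) → (∀ t, T (io m) (ir m) t ∈ K) → ∀ x, φ x ∈ K := by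
    intro K h1 h2 x
    have h3 : K.comap φ = ⊤ := eq_top_of_uS_lS _ (fun t => by rw [Subgroup.mem_comap, hφ1]; exact h1 t) (fun t => by rw [Subgroup.mem_comap, hφ2]; exact h2 t)
    have : x ∈ K.comap φ := by rw [h3]; trivial
    exact this
  refine ⟨φ g0, ⟨e, he, by rw [← map_pow, hge, map_one]⟩, ?_, ?_, fun K h1 h2 => hin K h1 h2 g0⟩
  · intro t
    have h1 := hin (Subgroup.centralizer {T (ip m) (iq m) t}) (fun s => by
      rw [Subgroup.mem_centralizer_singleton_iff]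
      exact T_comm0 hJQ hRP hJP hQR s t) (fun s => by
      rw [Subgroup.mem_centralizer_singleton_iff]
      exact T_comm0 hJQ.symm hRP hQP hJR s t) g0
    rwa [Subgroup.mem_centralizer_singleton_iff] at h1
  · intro K hg hK h0
    -- a further index
    have hthird : ∀ k, k ≠ iq m → k ≠ io m → k ≠ ip m → k ≠ ir m → (∀ t, T (io m) k t ∈ K) ∧ ∀ t, T k (io m) t ∈ K := by
      intro k k1 k2 k3 k4
      let f : Fin (1 + 2) → Fin (m + 4) := ![k, ir m, io m]
      have hf : Function.Injective f := by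
        intro i j hij
        fin_cases i <;> fin_cases j
        · rfl
        · exact absurd hij k4
        · exact absurd hij k2
        · exact absurd hij (Ne.symm k4)
        · rfl
        · exact absurd hij hJQ
        · exact absurd hij (Ne.symm k2)
        · exact absurd hij hJQ.symm
        · rfl
      obtain ⟨ι, hι⟩ : ∃ ι : SL(3, F) →* SL(m + 4, F), ∀ i j, i ≠ j → ∀ t, ι (T i j t) = T (f i) (f j) t := by
        haveI := Fintype.ofFinite F
        exact exists_emb (F := F) (k := 1) (by omega : 3 ≤ m + 4) f hf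
      have hι23 : ι.comp i23 = φ := by
        apply hom_ext2
        · intro t
          change ι (i23 (uS t)) = _
          rw [← T12, hι 1 2 (by decide), hφ1]; rfl
        · intro t
          change ι (i23 (lS t)) = _
          rw [← T21, hι 2 1 (by decide), hφ2]; rfl
      have hg' : ι (i23 g0) = φ g0 := by rw [← hι23]; rfl
      constructor
      · intro t
        have e1 := congrArg ι (T20_rel α β γ δ h (γ⁻¹ * t))
        rw [map_mul, map_mul, map_mul, hg', hι 1 0 (by decide), hι 1 0 (by decide), hι 2 0 (by decide)] at e1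
        change φ g0 * T (ir m) k (γ⁻¹ * t) = T (ir m) k (α * (γ⁻¹ * t)) * T (io m) k (γ * (γ⁻¹ * t)) * φ g0 at e1
        rw [mul_inv_cancel_left₀ hγ] at e1
        have e2 : T (io m) k t = (T (ir m) k (α * (γ⁻¹ * t)))⁻¹ * (φ g0 * T (ir m) k (γ⁻¹ * t)) * (φ g0)⁻¹ := by rw [e1]; group
        rw [e2]
        have h1 : ∀ t, T (ir m) k t ∈ K := fun t => hK _ _ (Ne.symm k4) hJP hJQ hJR k1 k2 k3 t
        exact mul_mem (mul_mem (inv_mem (h1 _)) (mul_mem hg (h1 _))) (inv_mem hg)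
      · intro t
        have e1 := congrArg ι (T02_rel α β γ δ h (-(β⁻¹ * t)))
        rw [map_mul, map_mul, map_mul, hg', hι 0 1 (by decide), hι 0 1 (by decide), hι 0 2 (by decide)] at e1
        change φ g0 * T k (ir m) (-(β⁻¹ * t)) = T k (ir m) (δ * -(β⁻¹ * t)) * T k (io m) (-(β * -(β⁻¹ * t))) * φ g0 at e1
        have e0 : -(β * -(β⁻¹ * t)) = t := by rw [mul_neg, neg_neg, mul_inv_cancel_left₀ hβ]
        rw [e0] at e1
        have e2 : T k (io m) t = (T k (ir m) (δ * -(β⁻¹ * t)))⁻¹ * (φ g0 * T k (ir m) (-(β⁻¹ * t))) * (φ g0)⁻¹ := by rw [e1]; group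
        rw [e2]
        have h1 : ∀ t, T k (ir m) t ∈ K := fun t => hK _ _ k4 k1 k2 k3 hJP hJQ hJR t
        exact mul_mem (mul_mem (inv_mem (h1 _)) (mul_mem hg (h1 _))) (inv_mem hg)
    have trans : ∀ i j l : Fin (m + 4), i ≠ j → j ≠ l → i ≠ l → (∀ t : F, T i j t ∈ K) → (∀ t : F, T j l t ∈ K) → ∀ t : F, T i l t ∈ K := by
      intro i j l hij hjl hil ha hb t
      have h3 := T_comm1 hij hjl hil t 1
      rw [mul_one] at h3
      have h4 : T i l t = T i j t * T j l 1 * (T i j t)⁻¹ * (T j l 1)⁻¹ := by rw [h3]; group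
      rw [h4]
      exact mul_mem (mul_mem (mul_mem (ha _) (hb _)) (inv_mem (ha _))) (inv_mem (hb _))
    have hJQK : (∀ t, T (ir m) (io m) t ∈ K) ∧ ∀ t, T (io m) (ir m) t ∈ K := by
      by_cases hm : m = 0
      · have h1 := h0 hm
        refine ⟨h1, ?_⟩
        have h2 : K.comap φ = ⊤ := by
          have hu : ∀ t, uS t ∈ K.comap φ := fun t => by rw [Subgroup.mem_comap, hφ1]; exact h1 t
          have hgK : g0 ∈ K.comap φ := hg
          have hn : nS (-γ⁻¹) (-(-γ⁻¹)⁻¹) ∈ K.comap φ := by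
            have e1 : nS (-γ⁻¹) (-(-γ⁻¹)⁻¹) = (uS (α / γ))⁻¹ * g0 * (uS (δ / γ))⁻¹ := by
              rw [eq_mul_inv_iff_mul_eq, eq_inv_mul_iff_mul_eq, ← mul_assoc]
              apply ext2
              rw [coe_mul2, coe_mul2, coe_n (neg_ne_zero.mpr (inv_ne_zero hγ)), coe_uS, coe_uS, hg0, coe_mk2]
              ext i j
              fin_cases i <;> fin_cases j <;> simp [Matrix.mul_apply, hγ]
              · field_simp
                linear_combination h
              · field_simp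
            rw [e1]
            exact mul_mem (mul_mem (inv_mem (hu _)) hgK) (inv_mem (hu _))
          apply eq_top_of_uS_lS _ hu
          intro t
          have e2 := nS_rel (F := F) (neg_ne_zero.mpr (inv_ne_zero hγ)) (-((γ * γ)⁻¹ * t))
          have e3 : lS t = nS (-γ⁻¹) (-(-γ⁻¹)⁻¹) * uS (-((γ * γ)⁻¹ * t)) * (nS (-γ⁻¹) (-(-γ⁻¹)⁻¹))⁻¹ := by
            rw [e2, mul_inv_cancel_right]
            congr 1
            field_simp
          rw [e3]
          exact mul_mem (mul_mem hn (hu _)) (inv_mem hn)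
        intro t
        have : lS t ∈ K.comap φ := by rw [h2]; trivial
        rwa [Subgroup.mem_comap, hφ2] at this
      · obtain ⟨k, hk⟩ : ∃ k : Fin (m + 4), k ∉ ({iq m, io m, ip m, ir m} : Finset (Fin (m + 4))) := by
          by_contra hcon
          push Not at hcon
          have h1 : (Finset.univ : Finset (Fin (m + 4))) ⊆ {iq m, io m, ip m, ir m} := fun x _ => hcon x
          have h2 := Finset.card_le_card h1
          have h3 : ({iq m, io m, ip m, ir m} : Finset (Fin (m + 4))).card ≤ 4 := Finset.card_le_four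
          rw [Finset.card_univ, Fintype.card_fin] at h2
          omega
        simp only [Finset.mem_insert, Finset.mem_singleton, not_or] at hk
        obtain ⟨k1, k2, k3, k4⟩ := hk
        obtain ⟨a1, a2⟩ := hthird k k1 k2 k3 k4
        exact ⟨trans _ k _ (Ne.symm k4) k2 hJQ (hK _ _ (Ne.symm k4) hJP hJQ hJR k1 k2 k3) a2,
          trans _ k _ (Ne.symm k2) k4 hJQ.symm a1 (hK _ _ k4 k1 k2 k3 hJP hJQ hJR)⟩
    intro k l hkl k1 k2 l1 l2
    by_cases hk : k = io m
    · subst hk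
      by_cases hl : l = ir m
      · subst hl; exact hJQK.2
      · exact (hthird l l2 (Ne.symm hkl) l1 hl).1
    · by_cases hl : l = io m
      · subst hl
        by_cases hk' : k = ir m
        · subst hk'; exact hJQK.1
        · exact (hthird k k2 hk k1 hk').2
      · exact hK _ _ hkl k2 hk k1 l2 hl l1

variable [Fintype F] {m : ℕ} {G : Type*} [Group G]

/-- the relations -/
structure ORel (Θ : SL(m + 4, F) →* G) (s : G) (a b c d g : SL(m + 4, F)) : Prop where
  e1 : s * Θ a = Θ a * s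
  e2 : s * Θ d = Θ d * s
  e3 : s * Θ (b * c) = Θ (b * c) * s
  e5 : s⁻¹ * (Θ (wT (ip m) (iq m)) * s * (Θ (wT (ip m) (iq m)))⁻¹) * s = (Θ (wT (ip m) (iq m)))⁻¹
  e6 : s * s = Θ (wT (iq m) (io m) * wT (iq m) (io m))
  e7 : (s * Θ (T (ip m) (io m) 1) * s⁻¹) * Θ (T (ip m) (iq m) 1 * g) = Θ (T (ip m) (iq m) 1 * g) * (s * Θ (T (ip m) (io m) 1) * s⁻¹)
  e8 : m = 0 → (s * Θ (T (ip m) (io m) 1) * s⁻¹) * Θ (T (ir m) (io m) 1) = Θ (T (ir m) (io m) 1) * (s * Θ (T (ip m) (io m) 1) * s⁻¹)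

theorem pow_coprime {H : Type*} [Group H] {K : Subgroup H} {x : H} {e p : ℕ} (hep : e.Coprime p) (h1 : x ^ e ∈ K) (h2 : x ^ p ∈ K) : x ∈ K := by
  have h3 : (1 : ℤ) = e * Nat.gcdA e p + p * Nat.gcdB e p := by
    have := Nat.gcd_eq_gcd_ab e p
    rw [hep] at this
    exact_mod_cast this
  have h4 : x = (x ^ e) ^ (Nat.gcdA e p) * (x ^ p) ^ (Nat.gcdB e p) := by
    rw [← zpow_natCast x e, ← zpow_natCast x p, ← _root_.zpow_mul, ← _root_.zpow_mul, ← _root_.zpow_add, ← h3, _root_.zpow_one]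
  rw [h4]
  exact mul_mem (zpow_mem h1 _) (zpow_mem h2 _)

theorem T_pow {n : ℕ} {i j : Fin n} (hij : i ≠ j) (p : ℕ) [CharP F p] (t : F) : (T i j t : SL(n, F)) ^ p = 1 := by
  have h1 : ∀ k : ℕ, (T i j t : SL(n, F)) ^ k = T i j (k * t) := by
    intro k
    induction k with
    | zero => rw [pow_zero, Nat.cast_zero, zero_mul, T_zero hij]
    | succ k ih => rw [pow_succ, ih, ← T_add hij]; congr 1; push_cast; ring
  rw [h1, CharP.cast_eq_zero, zero_mul, T_zero hij]

theorem ORel.toOSys {Θ : SL(m + 4, F) →* G} {s : G} {a b c d g : SL(m + 4, F)} (R : ORel Θ s a b c d g) (p : ℕ) [Fact p.Prime] [CharP F p]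
    (habcd : ∀ K : Subgroup SL(m + 4, F), a ∈ K → d ∈ K → b * c ∈ K → (∀ t, T (iq m) (io m) t ∈ K) ∧ (∀ t, T (io m) (iq m) t ∈ K) ∧
      ∀ k l, k ≠ l → k ≠ io m → k ≠ iq m → l ≠ io m → l ≠ iq m → ∀ t, T k l t ∈ K)
    (hg1 : ∃ e : ℕ, e.Coprime p ∧ g ^ e = 1) (hg2 : ∀ t, g * T (ip m) (iq m) t = T (ip m) (iq m) t * g)
    (hg3 : ∀ K : Subgroup SL(m + 4, F), g ∈ K → (∀ k l, k ≠ l → k ≠ iq m → k ≠ io m → k ≠ ip m → l ≠ iq m → l ≠ io m → l ≠ ip m → ∀ t, T k l t ∈ K) →
      (m = 0 → ∀ t, T (ir m) (io m) t ∈ K) → ∀ k l, k ≠ l → k ≠ ip m → k ≠ iq m → l ≠ ip m → l ≠ iq m → ∀ t, T k l t ∈ K) :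
    ∃ S : OSys m F G, S.Θ = Θ ∧ S.s = s := by
  have hJQ := (io_ne_ir m).symm
  have hRP := ip_ne_iq m
  have hQR := io_ne_ip m
  have hQP := io_ne_iq m
  have hJR := ir_ne_ip m
  have hJP := ir_ne_iq m
  obtain ⟨c1, c1', c2⟩ := habcd (cent Θ s) (mem_cent.mpr R.e1.symm) (mem_cent.mpr R.e2.symm) (mem_cent.mpr R.e3.symm)
  set u0 := s * Θ (T (ip m) (io m) 1) * s⁻¹ with hu0
  set K := cent Θ u0 with hK
  -- elements commuting with `s` and the base transvection
  have key : ∀ x : SL(m + 4, F), x ∈ cent Θ s → x * T (ip m) (io m) 1 = T (ip m) (io m) 1 * x → x ∈ K := by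
    intro x h1 h2
    rw [hK, mem_cent, hu0]
    have h3 := mem_cent.mp h1
    have h4 := congrArg Θ h2
    rw [map_mul, map_mul] at h4
    calc Θ x * (s * Θ (T (ip m) (io m) 1) * s⁻¹) = (Θ x * s) * Θ (T (ip m) (io m) 1) * s⁻¹ := by group
      _ = s * (Θ x * Θ (T (ip m) (io m) 1)) * s⁻¹ := by rw [h3]; group
      _ = s * Θ (T (ip m) (io m) 1) * (Θ x * s⁻¹) := by rw [h4]; group
      _ = s * Θ (T (ip m) (io m) 1) * (s⁻¹ * (s * Θ x) * s⁻¹) := by group
      _ = _ := by rw [← h3]; group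
  -- the two commuting factors
  have hxg : T (ip m) (iq m) 1 * g ∈ K := mem_cent.mpr R.e7.symm
  obtain ⟨e, he, hge⟩ := hg1
  have hx : T (ip m) (iq m) 1 ∈ K := by
    apply pow_coprime he
    · have h1 : (T (ip m) (iq m) 1 * g) ^ e = T (ip m) (iq m) 1 ^ e := by
        have h2 : Commute (T (ip m) (iq m) 1) g := (hg2 1).symm
        rw [h2.mul_pow, hge, mul_one]
      rw [← h1]; exact pow_mem hxg e
    · rw [T_pow hRP p]; exact one_mem _
  have hg : g ∈ K := by
    have : g = (T (ip m) (iq m) 1)⁻¹ * (T (ip m) (iq m) 1 * g) := by group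
    rw [this]; exact mul_mem (inv_mem hx) hxg
  have hfar : ∀ k l, k ≠ l → k ≠ iq m → k ≠ io m → k ≠ ip m → l ≠ iq m → l ≠ io m → l ≠ ip m → ∀ t, T k l t ∈ K := by
    intro k l hkl k1 k2 k3 l1 l2 l3 t
    exact key _ (c2 k l hkl k2 k1 l2 l1 t) (T_comm0 hkl hQR.symm k2 l3 t 1)
  -- torus
  have hH : ∀ c : F, c ≠ 0 → dT (ir m) (ip m) c * dT (iq m) (io m) c ∈ K := by
    intro c hc
    apply key
    · refine mul_mem ?_ ?_
      · unfold dT nT
        refine mul_mem (mul_mem (mul_mem ?_ ?_) ?_) (mul_mem (mul_mem ?_ ?_) ?_)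
        all_goals first | exact c2 _ _ hJR hJQ hJP hQR.symm hRP _ | exact c2 _ _ hJR.symm hQR.symm hRP hJQ hJP _
      · unfold dT nT
        refine mul_mem (mul_mem (mul_mem ?_ ?_) ?_) (mul_mem (mul_mem ?_ ?_) ?_)
        all_goals first | exact c1 _ | exact c1' _
    · have h1 := dT_conj (F := F) hQP.symm hc hQR.symm 1
      have h2 := dT_conj (F := F) hJR hc hQR.symm (c * 1)
      have v1 : dE (iq m) (io m) c (ip m) = 1 := by unfold dE; rw [if_neg hRP, if_neg hQR.symm]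
      have v2 : dE (iq m) (io m) c (io m) = c⁻¹ := by unfold dE; rw [if_neg hQP, if_pos rfl]
      have v3 : dE (ir m) (ip m) c (ip m) = c⁻¹ := by unfold dE; rw [if_neg hJR.symm, if_pos rfl]
      have v4 : dE (ir m) (ip m) c (io m) = 1 := by unfold dE; rw [if_neg hJQ.symm, if_neg hQR]
      rw [v1, v2, inv_inv, one_mul] at h1
      rw [v3, v4, inv_one, mul_one, mul_one, inv_mul_cancel₀ hc] at h2
      rw [mul_one] at h1
      have h3 : dT (ir m) (ip m) c * dT (iq m) (io m) c * T (ip m) (io m) 1 * (dT (ir m) (ip m) c * dT (iq m) (io m) c)⁻¹ = T (ip m) (io m) 1 := by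
        calc _ = dT (ir m) (ip m) c * (dT (iq m) (io m) c * T (ip m) (io m) 1 * (dT (iq m) (io m) c)⁻¹) * (dT (ir m) (ip m) c)⁻¹ := by group
          _ = _ := by rw [h1, h2]
      nth_rewrite 2 [← h3]
      group
  have hRPK : ∀ t, T (ip m) (iq m) t ∈ K := by
    intro t
    refine Cfsg.Agent.Lib.PresSpCore.sq_span (P := fun t => T (ip m) (iq m) t ∈ K) ?_ ?_ ?_ ?_ t
    · simp only [T_zero hRP]; exact one_mem _
    · intro x
      have hc : ((x⁻¹ : Fˣ) : F) ≠ 0 := (x⁻¹).ne_zero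
      have h1 := dT_conj (F := F) hQP.symm hc hRP 1
      have v1 : dE (iq m) (io m) ((x⁻¹ : Fˣ) : F) (ip m) = 1 := by unfold dE; rw [if_neg hRP, if_neg hQR.symm]
      have v2 : dE (iq m) (io m) ((x⁻¹ : Fˣ) : F) (iq m) = ((x⁻¹ : Fˣ) : F) := by unfold dE; rw [if_pos rfl]
      rw [v1, v2] at h1
      have h2 := dT_conj (F := F) hJR hc hRP (1 * ((x⁻¹ : Fˣ) : F)⁻¹ * 1)
      have v3 : dE (ir m) (ip m) ((x⁻¹ : Fˣ) : F) (ip m) = ((x⁻¹ : Fˣ) : F)⁻¹ := by unfold dE; rw [if_neg hJR.symm, if_pos rfl]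
      have v4 : dE (ir m) (ip m) ((x⁻¹ : Fˣ) : F) (iq m) = 1 := by unfold dE; rw [if_neg hJP.symm, if_neg hRP.symm]
      rw [v3, v4] at h2
      have h3 : T (ip m) (iq m) ((x : F) ^ 2) = dT (ir m) (ip m) ((x⁻¹ : Fˣ) : F) * dT (iq m) (io m) ((x⁻¹ : Fˣ) : F) * T (ip m) (iq m) 1 *
          (dT (ir m) (ip m) ((x⁻¹ : Fˣ) : F) * dT (iq m) (io m) ((x⁻¹ : Fˣ) : F))⁻¹ := by
        symm
        calc _ = dT (ir m) (ip m) ((x⁻¹ : Fˣ) : F) * (dT (iq m) (io m) ((x⁻¹ : Fˣ) : F) * T (ip m) (iq m) 1 * (dT (iq m) (io m) ((x⁻¹ : Fˣ) : F))⁻¹) *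
              (dT (ir m) (ip m) ((x⁻¹ : Fˣ) : F))⁻¹ := by group
          _ = _ := by
              rw [h1, h2, Units.val_inv_eq_inv_val, inv_inv]
              congr 1; ring
      change T (ip m) (iq m) ((x : F) ^ 2) ∈ K
      rw [h3]
      exact mul_mem (mul_mem (hH _ hc) hx) (inv_mem (hH _ hc))
    · intro s t hs ht
      change T (ip m) (iq m) (s + t) ∈ K
      rw [T_add hRP]; exact mul_mem hs ht
    · intro s hs
      change T (ip m) (iq m) (-s) ∈ K
      rw [T_neg hRP]; exact inv_mem hs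
  have hJQK : m = 0 → ∀ t, T (ir m) (io m) t ∈ K := by
    intro hm t
    have hx' : T (ir m) (io m) 1 ∈ K := mem_cent.mpr (R.e8 hm).symm
    refine Cfsg.Agent.Lib.PresSpCore.sq_span (P := fun t => T (ir m) (io m) t ∈ K) ?_ ?_ ?_ ?_ t
    · simp only [T_zero hJQ]; exact one_mem _
    · intro x
      have hc : (x : F) ≠ 0 := x.ne_zero
      have h1 := dT_conj (F := F) hQP.symm hc hJQ 1
      have v1 : dE (iq m) (io m) (x : F) (ir m) = 1 := by unfold dE; rw [if_neg hJP, if_neg hJQ]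
      have v2 : dE (iq m) (io m) (x : F) (io m) = (x : F)⁻¹ := by unfold dE; rw [if_neg hQP, if_pos rfl]
      rw [v1, v2] at h1
      have h2 := dT_conj (F := F) hJR hc hJQ (1 * (x : F)⁻¹⁻¹ * 1)
      have v3 : dE (ir m) (ip m) (x : F) (ir m) = (x : F) := by unfold dE; rw [if_pos rfl]
      have v4 : dE (ir m) (ip m) (x : F) (io m) = 1 := by unfold dE; rw [if_neg hJQ.symm, if_neg hQR]
      rw [v3, v4] at h2
      have h3 : T (ir m) (io m) ((x : F) ^ 2) = dT (ir m) (ip m) (x : F) * dT (iq m) (io m) (x : F) * T (ir m) (io m) 1 *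
          (dT (ir m) (ip m) (x : F) * dT (iq m) (io m) (x : F))⁻¹ := by
        symm
        calc _ = dT (ir m) (ip m) (x : F) * (dT (iq m) (io m) (x : F) * T (ir m) (io m) 1 * (dT (iq m) (io m) (x : F))⁻¹) *
              (dT (ir m) (ip m) (x : F))⁻¹ := by group
          _ = _ := by
              rw [h1, h2, inv_inv]
              congr 1; ring
      change T (ir m) (io m) ((x : F) ^ 2) ∈ K
      rw [h3]
      exact mul_mem (mul_mem (hH _ hc) hx') (inv_mem (hH _ hc))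
    · intro s t hs ht
      change T (ir m) (io m) (s + t) ∈ K
      rw [T_add hJQ]; exact mul_mem hs ht
    · intro s hs
      change T (ir m) (io m) (-s) ∈ K
      rw [T_neg hJQ]; exact inv_mem hs
  -- the Weyl element
  have hW : wT (ip m) (iq m) ∈ K := by
    rw [hK, mem_cent]
    have h1 := R.e5
    have h2 := congrArg Θ (w_T_left' (F := F) (i := ip m) (j := iq m) (k := io m) hRP hQR.symm hQP.symm 1)
    rw [map_mul, map_mul, map_inv] at h2
    have h3 := mem_cent.mp (c1 (-1))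
    rw [← h2] at h3
    set W := Θ (wT (ip m) (iq m))
    set X := Θ (T (ip m) (io m) 1)
    have h4 : W * s = s * W⁻¹ * s⁻¹ * W := by
      have h5 := congrArg (fun z => s * z * s⁻¹ * W) h1
      rw [← h5]; group
    rw [hu0]
    have h6 : W * (s * X * s⁻¹) * W⁻¹ = s * X * s⁻¹ := by
      calc W * (s * X * s⁻¹) * W⁻¹ = (W * s) * X * (W * s)⁻¹ := by group
        _ = s * W⁻¹ * s⁻¹ * (W * X * W⁻¹ * s) * W * s⁻¹ := by rw [h4]; group
        _ = _ := by rw [h3]; group
    nth_rewrite 2 [← h6]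
    group
  have hPRK : ∀ t, T (iq m) (ip m) t ∈ K := by
    intro t
    have h1 := conj_T (F := F) (g := wT (ip m) (iq m)) (k := ip m) (l := iq m) (k' := iq m) (l' := ip m) (c := -1) (d := 1) hRP hRP.symm
      (wT_bv_left hRP) (by rw [tau_wT hRP, wT_bv_right hRP, one_smul]) (-t)
    have h2 : (-1 : F) * 1 * -t = t := by ring
    rw [h2] at h1
    rw [← h1]
    exact mul_mem (mul_mem hW (hRPK _)) (inv_mem hW)
  exact ⟨{ Θ := Θ, s := s, c1 := fun t => mem_cent.mp (c1 t), c1' := fun t => mem_cent.mp (c1' t),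
           c2 := fun k l h1 h2 h3 h4 h5 t => mem_cent.mp (c2 k l h1 h2 h3 h4 h5 t), r5 := R.e5,
           d1 := fun t => mem_cent.mp (hRPK t), d1' := fun t => mem_cent.mp (hPRK t),
           d2 := fun k l h1 h2 h3 h4 h5 t => mem_cent.mp (hg3 K hg hfar hJQK k l h1 h2 h3 h4 h5 t) }, rfl, rfl⟩

end Cfsg.Agent.Lib.PresO
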