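import Cfsg.Agent.Lib.PresOF
import Cfsg.Agent.Lib.PresOH

set_option autoImplicit false
set_option linter.unusedSectionVars false
set_option linter.unusedSimpArgs false

/-!
Short presentations of `Ω⁺`: the model (helper38).
-/

namespace Cfsg.Agent.Lib.PresO

open Matrix Cfsg.Agent.Lib.ClSL2 Cfsg.Agent.Lib.H92CT Cfsg.Agent.Lib.H92CTO Cfsg.Agent.Lib.Quad
open Cfsg.Agent.Lib.ClOrthSiegel (E E_conj)
open scoped MatrixGroups

variable {F : Type*} [Field F] [Fintype F]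

section model
variable {N : ℕ} (hN : 3 ≤ N)

/-- the Levi embedding -/
theorem exists_lev : ∃ Θ : SL(N, F) →* ↥(Om (quadPlus N F)), ∀ i j, i ≠ j → ∀ t, Θ (T i j t) = XO hN (Sum.inl i) (Sum.inl j) t := by
  have h := frameSt0 (F := F) hN (fun i : Fin N => (Sum.inl i : Sg N)) (fun a b hab => ⟨by simpa using hab, by simp⟩)
  exact hom_of_St0 hN h

/-- Weyl elements in `Om` -/
noncomputable def nO (a b : Sg N) : ↥(Om (quadPlus N F)) := XO hN a b 1 * XO hN b a (-1) * XO hN a b 1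

theorem nO_val (a b : Sg N) : ((nO hN a b : ↥(Om (quadPlus N F))) : (Sg N → F) ≃ₗ[F] (Sg N → F)) = nX a b 1 := by
  unfold nX
  rw [inv_one]; rfl

theorem Om_le_O (x : ↥(Om (quadPlus N F))) : x.1 ∈ O (quadPlus N F) := by
  exact Om_le x.2

end model

section main
variable {m : ℕ}

/-- the dual action of the Levi factor -/
def jo (v : Fin (m + 4) → F) : Sg (m + 4) → F := Sum.elim 0 v

theorem conj_X {N : ℕ} {g : (Sg N → F) ≃ₗ[F] (Sg N → F)} (hg : g ∈ O (quadPlus N F)) {a b a' b' : Sg N} (h1 : g (bl a) = bl a')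
    (h2 : g (bl b.swap) = bl b'.swap) (t : F) : g * X a b t * g⁻¹ = X a' b' t := by
  unfold X
  rw [E_conj _ hg, LinearEquiv.map_smul, h1, h2]

theorem nX_R {i j k : Fin (m + 4)} (hij : i ≠ j) (hki : k ≠ i) (hkj : k ≠ j) :
    (nX (Sum.inl i) (Sum.inr j) (1 : F)) (bl (Sum.inl k)) = bl (Sum.inl k) ∧ (nX (Sum.inl i) (Sum.inr j) (1 : F)) (bl (Sum.inr k)) = bl (Sum.inr k) := by
  have a1 : (Sum.inl i : Sg (m + 4)) ≠ Sum.inr j := by simp
  have a2 : (Sum.inl i : Sg (m + 4)) ≠ (Sum.inr j : Sg (m + 4)).swap := by simpa using hij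
  constructor
  · rw [nX_apply a1 a2 one_ne_zero]
    simp [bl_apply, Ne.symm hki, Ne.symm hkj]
  · rw [nX_apply a1 a2 one_ne_zero]
    simp [bl_apply, Ne.symm hki, Ne.symm hkj]

theorem nX_Q {i j : Fin (m + 4)} (hij : i ≠ j) :
    (nX (Sum.inl i) (Sum.inr j) (1 : F)) (bl (Sum.inr j)) = bl (Sum.inl i) ∧ (nX (Sum.inl i) (Sum.inr j) (1 : F)) (bl (Sum.inl j)) = bl (Sum.inr i) := by
  have a1 : (Sum.inl i : Sg (m + 4)) ≠ Sum.inr j := by simp
  have a2 : (Sum.inl i : Sg (m + 4)) ≠ (Sum.inr j : Sg (m + 4)).swap := by simpa using hij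
  constructor
  · rw [nX_apply a1 a2 one_ne_zero]
    simp [bl_apply, hij]
  · rw [nX_apply a1 a2 one_ne_zero]
    simp [bl_apply, hij]

theorem sq_eq {N : ℕ} {a b : Sg N} (h1 : a ≠ b) (h2 : a ≠ b.swap) (v : Sg N → F) : nX a b (1 : F) (nX a b 1 v) =
    v - (2 * v a) • bl a - (2 * v b) • bl b - (2 * v a.swap) • bl a.swap - (2 * v b.swap) • bl b.swap := by
  have e1 : a.swap ≠ b.swap := fun h => h1 (sw_inj.mp h)
  have e2 : a.swap ≠ b := fun h => h2 (sw_eq.mp h)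
  have e3 := sw_ne a
  have e4 := sw_ne b
  set w := nX a b (1 : F) v with hw
  have hw' := nX_apply (t := (1 : F)) h1 h2 one_ne_zero v
  rw [← hw, inv_one] at hw'
  have w1 : w a = v b := by rw [hw']; simp [bl_apply, h1, h2, e3]
  have w2 : w b = -(v a) := by rw [hw']; simp [bl_apply, h1.symm, e2.symm, e4]
  have w3 : w a.swap = v b.swap := by rw [hw']; simp [bl_apply, e1, e2, e3.symm]
  have w4 : w b.swap = -(v a.swap) := by rw [hw']; simp [bl_apply, e1.symm, h2.symm, e4.symm]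
  rw [nX_apply h1 h2 one_ne_zero, w1, w2, w3, w4, hw']
  ext c
  simp only [Pi.add_apply, Pi.sub_apply, Pi.smul_apply, smul_eq_mul, inv_one]
  ring

variable (hN : 3 ≤ m + 4)

theorem nO_comm {a b : Sg (m + 4)} {y : ↥(Om (quadPlus (m + 4) F))} (h1 : ∀ s, XO hN a b s * y = y * XO hN a b s)
    (h2 : ∀ s, XO hN b a s * y = y * XO hN b a s) : nO hN a b * y = y * nO hN a b := by
  unfold nO
  rw [mul_assoc, h1, ← mul_assoc, mul_assoc (XO hN a b 1), h2, ← mul_assoc, h1, mul_assoc, mul_assoc, mul_assoc]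

variable {Θ : SL(m + 4, F) →* ↥(Om (quadPlus (m + 4) F))} (hΘ : ∀ i j, i ≠ j → ∀ t, Θ (T i j t) = XO hN (Sum.inl i) (Sum.inl j) t)
include hΘ

theorem lev_io (g : SL(m + 4, F)) (v : Fin (m + 4) → F) : (Θ g).1 (io' v) = io' ((g : Matrix (Fin (m + 4)) (Fin (m + 4)) F) *ᵥ v) := by
  let K : Subgroup SL(m + 4, F) :=
    { carrier := {g | ∀ v, (Θ g).1 (io' v) = io' ((g : Matrix (Fin (m + 4)) (Fin (m + 4)) F) *ᵥ v)}
      one_mem' := fun v => by rw [map_one, one_mulVec']; rfl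
      mul_mem' := by
        intro a b ha hb v
        rw [map_mul, mul_mulVec, ← ha, ← hb]; rfl
      inv_mem' := by
        intro a ha v
        have h1 := ha (((a⁻¹ : SL(m + 4, F)) : Matrix (Fin (m + 4)) (Fin (m + 4)) F) *ᵥ v)
        rw [← mul_mulVec, mul_inv_cancel, one_mulVec'] at h1
        rw [← h1, map_inv]
        exact (Θ a).1.symm_apply_apply _ }
  have hK : K = ⊤ := by
    apply ClSLn.eq_top_of_transvection_mem
    intro i j hij c v
    have h2 : (Matrix.SpecialLinearGroup.transvection hij c : SL(m + 4, F)) = T i j c := by unfold T; rw [dif_pos hij]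
    rw [h2, hΘ i j hij]
    change X _ _ _ _ = _
    rw [X_apply (by simpa using hij), T_mulVec hij, io'_add, io'_smul, io'_bv]
    change io' v - (c * io' v (Sum.inr i)) • _ + (c * io' v (Sum.inl j)) • bl (Sum.inl i) = _
    rw [io'_inr, io'_inl, mul_zero, zero_smul, sub_zero]
  have : g ∈ K := by rw [hK]; trivial
  exact this v

theorem lev_jo (g : SL(m + 4, F)) (v : Fin (m + 4) → F) : (Θ g).1 (jo v) = jo (((tau g : SL(m + 4, F)) : Matrix (Fin (m + 4)) (Fin (m + 4)) F) *ᵥ v) := by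
  let K : Subgroup SL(m + 4, F) :=
    { carrier := {g | ∀ v, (Θ g).1 (jo v) = jo (((tau g : SL(m + 4, F)) : Matrix (Fin (m + 4)) (Fin (m + 4)) F) *ᵥ v)}
      one_mem' := fun v => by rw [map_one, map_one, one_mulVec']; rfl
      mul_mem' := by
        intro a b ha hb v
        rw [map_mul, map_mul, mul_mulVec, ← ha, ← hb]; rfl
      inv_mem' := by
        intro a ha v
        have h1 := ha (((tau a⁻¹ : SL(m + 4, F)) : Matrix (Fin (m + 4)) (Fin (m + 4)) F) *ᵥ v)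
        rw [← mul_mulVec, ← map_mul, mul_inv_cancel, map_one, one_mulVec'] at h1
        rw [← h1, map_inv]
        exact (Θ a).1.symm_apply_apply _ }
  have hK : K = ⊤ := by
    apply ClSLn.eq_top_of_transvection_mem
    intro i j hij c v
    have h2 : (Matrix.SpecialLinearGroup.transvection hij c : SL(m + 4, F)) = T i j c := by unfold T; rw [dif_pos hij]
    rw [h2, hΘ i j hij, tau_T hij]
    change X _ _ _ _ = _
    rw [X_apply (by simpa using hij), T_mulVec hij.symm]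
    ext e
    rcases e with e | e
    · simp [jo, bl_apply]
    · simp [jo, bl_apply, bv_apply]
      ring
  have : g ∈ K := by rw [hK]; trivial
  exact this v

theorem s_T1 (t : F) : nO hN (Sum.inl (iq m)) (Sum.inr (io m)) * Θ (T (iq m) (io m) t) = Θ (T (iq m) (io m) t) * nO hN (Sum.inl (iq m)) (Sum.inr (io m)) := by
  have hne := io_ne_iq m
  apply nO_comm
  · intro s
    rw [hΘ _ _ hne.symm]
    exact XO_comm2 hN (by simp) (by simpa using hne.symm) s t
  · intro s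
    rw [hΘ _ _ hne.symm, XO_symm hN (a := Sum.inl (iq m)) (by simpa using hne.symm)]
    exact XO_comm2 hN (by simp) (by simpa using hne) s (-t)

theorem s_T1' (t : F) : nO hN (Sum.inl (iq m)) (Sum.inr (io m)) * Θ (T (io m) (iq m) t) = Θ (T (io m) (iq m) t) * nO hN (Sum.inl (iq m)) (Sum.inr (io m)) := by
  have hne := io_ne_iq m
  apply nO_comm
  · intro s
    rw [hΘ _ _ hne, XO_symm hN (a := Sum.inl (iq m)) (b := Sum.inr (io m)) (by simp)]
    exact XO_comm2 hN (by simp) (by simpa using hne) (-s) t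
  · intro s
    rw [hΘ _ _ hne, XO_symm hN (a := Sum.inl (io m)) (by simpa using hne), XO_symm hN (a := Sum.inr (io m)) (b := Sum.inl (iq m)) (by simp)]
    exact XO_comm2 hN (by simp) (by simpa using hne.symm) (-s) (-t)

theorem s_T2 {k l : Fin (m + 4)} (hkl : k ≠ l) (k1 : k ≠ io m) (k2 : k ≠ iq m) (l1 : l ≠ io m) (l2 : l ≠ iq m) (t : F) :
    nO hN (Sum.inl (iq m)) (Sum.inr (io m)) * Θ (T k l t) = Θ (T k l t) * nO hN (Sum.inl (iq m)) (Sum.inr (io m)) := by
  apply nO_comm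
  · intro s
    rw [hΘ _ _ hkl]
    exact XO_comm0 hN (by simp) (by simpa using hkl) (by simp) (by simpa using l2.symm) (by simp) (by simpa using l1.symm) s t
  · intro s
    rw [hΘ _ _ hkl]
    exact XO_comm0 hN (by simp) (by simpa using hkl) (by simpa using k2.symm) (by simp) (by simpa using k1.symm) (by simp) s t

theorem u0_eq {k : Fin (m + 4)} (k1 : k ≠ io m) (k2 : k ≠ iq m) (t : F) : nO hN (Sum.inl (iq m)) (Sum.inr (io m)) * Θ (T k (io m) t) *
    (nO hN (Sum.inl (iq m)) (Sum.inr (io m)))⁻¹ = XO hN (Sum.inl k) (Sum.inr (iq m)) t := by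
  rw [hΘ _ _ k1]
  apply Subtype.ext
  have h1 := conj_X (g := nX (Sum.inl (iq m)) (Sum.inr (io m)) (1 : F)) (by rw [← nO_val hN]; exact Om_le_O _) (a := Sum.inl k) (b := Sum.inl (io m))
    (a' := Sum.inl k) (b' := Sum.inr (iq m)) (nX_R (io_ne_iq m).symm k2 k1).1 (nX_Q (io_ne_iq m).symm).1 t
  rw [← nO_val hN] at h1
  exact h1

theorem l0_eq {k : Fin (m + 4)} (k1 : k ≠ io m) (k2 : k ≠ iq m) (t : F) : nO hN (Sum.inl (iq m)) (Sum.inr (io m)) * Θ (T (io m) k t) *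
    (nO hN (Sum.inl (iq m)) (Sum.inr (io m)))⁻¹ = XO hN (Sum.inr (iq m)) (Sum.inl k) t := by
  rw [hΘ _ _ k1.symm]
  apply Subtype.ext
  have h1 := conj_X (g := nX (Sum.inl (iq m)) (Sum.inr (io m)) (1 : F)) (by rw [← nO_val hN]; exact Om_le_O _) (a := Sum.inl (io m)) (b := Sum.inl k)
    (a' := Sum.inr (iq m)) (b' := Sum.inl k) (nX_Q (io_ne_iq m).symm).2 (nX_R (io_ne_iq m).symm k2 k1).2 t
  rw [← nO_val hN] at h1
  exact h1

theorem w_val {i j : Fin (m + 4)} (hij : i ≠ j) : (Θ (wT i j)).1 = nX (Sum.inl i) (Sum.inl j) (1 : F) := by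
  have : Θ (wT i j) = nO hN (Sum.inl i) (Sum.inl j) := by
    unfold wT nO
    rw [map_mul, map_mul, hΘ i j hij, hΘ j i hij.symm]
  rw [this, nO_val]

theorem e6_model : nO hN (Sum.inl (iq m)) (Sum.inr (io m)) * nO hN (Sum.inl (iq m)) (Sum.inr (io m)) = Θ (wT (iq m) (io m) * wT (iq m) (io m)) := by
  have hne := (io_ne_iq m).symm
  apply Subtype.ext
  rw [map_mul, Subgroup.coe_mul, Subgroup.coe_mul, w_val hN hΘ hne, nO_val]
  have a1 : (Sum.inl (iq m) : Sg (m + 4)) ≠ Sum.inr (io m) := by simp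
  have a2 : (Sum.inl (iq m) : Sg (m + 4)) ≠ (Sum.inr (io m) : Sg (m + 4)).swap := by simpa using hne
  have a3 : (Sum.inl (iq m) : Sg (m + 4)) ≠ Sum.inl (io m) := by simpa using hne
  have a4 : (Sum.inl (iq m) : Sg (m + 4)) ≠ (Sum.inl (io m) : Sg (m + 4)).swap := by simp
  ext1 v
  rw [LinearEquiv.mul_apply, LinearEquiv.mul_apply, sq_eq a1 a2, sq_eq a3 a4]
  simp only [Sum.swap_inl, Sum.swap_inr]
  abel

theorem e5_model : (nO hN (Sum.inl (iq m)) (Sum.inr (io m)))⁻¹ * (Θ (wT (ip m) (iq m)) * nO hN (Sum.inl (iq m)) (Sum.inr (io m)) *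
    (Θ (wT (ip m) (iq m)))⁻¹) * nO hN (Sum.inl (iq m)) (Sum.inr (io m)) = (Θ (wT (ip m) (iq m)))⁻¹ := by
  have hRP := ip_ne_iq m
  have hQR := io_ne_ip m
  have hQP := io_ne_iq m
  obtain ⟨ψ, h1, h2, h3, h4⟩ := exists_psi (F := F) hN (gen_ll hRP) (gen_lr hQP.symm) (gen_lr hQR.symm)
  have e1 : Θ (wT (ip m) (iq m)) = ψ (i12 (nS 1 (-1))) := by
    unfold wT nS
    simp only [map_mul, h1, h2, hΘ _ _ hRP, hΘ _ _ hRP.symm]
  have e2 : nO hN (Sum.inl (iq m)) (Sum.inr (io m)) = ψ (i23 (nS 1 (-1))) := by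
    unfold nO nS
    simp only [map_mul, h3, h4]
  have k1 : (nS 1 (-1) : SL(2, F))⁻¹ = nS (-1) 1 := by
    have := DSys.inv_nS (F := F) (c := 1)
    rw [inv_one] at this
    rw [this]
    congr 1
    rw [inv_neg, inv_one, neg_neg]
  have k2 : ((nS (-1) 1 : SL(2, F)) : Matrix (Fin 2) (Fin 2) F) = !![0, -1; 1, 0] := by
    have := coe_n' (F := F) one_ne_zero
    rwa [inv_one] at this
  have k3 : (i23 (nS 1 (-1)))⁻¹ * (i12 (nS 1 (-1)) * i23 (nS 1 (-1)) * (i12 (nS 1 (-1)))⁻¹) * i23 (nS 1 (-1)) = ((i12 (nS 1 (-1)))⁻¹ : SL(3, F)) := by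
    rw [← map_inv, ← map_inv, k1]
    apply Subtype.ext
    simp only [coe_mul3, coe_i12, coe_i23, coe_n1, k2]
    ext i j
    fin_cases i <;> fin_cases j <;> simp [Matrix.mul_apply, Fin.sum_univ_three]
  have k4 := congrArg ψ k3
  rw [map_mul, map_mul, map_mul, map_mul, map_inv, map_inv] at k4
  rw [e1, e2]; exact k4

theorem orel_model {a b c d g : SL(m + 4, F)}
    (h1 : ∀ K : Subgroup SL(m + 4, F), (∀ t, T (iq m) (io m) t ∈ K) → (∀ t, T (io m) (iq m) t ∈ K) →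
      (∀ k l, k ≠ l → k ≠ io m → k ≠ iq m → l ≠ io m → l ≠ iq m → ∀ t, T k l t ∈ K) → a ∈ K ∧ b ∈ K ∧ c ∈ K ∧ d ∈ K)
    (h2 : ∀ K : Subgroup SL(m + 4, F), (∀ t, T (ir m) (io m) t ∈ K) → (∀ t, T (io m) (ir m) t ∈ K) → g ∈ K) :
    ORel Θ (nO hN (Sum.inl (iq m)) (Sum.inr (io m))) a b c d g := by
  have hJQ := (io_ne_ir m).symm
  have hRP := ip_ne_iq m
  have hQR := io_ne_ip m
  have hQP := io_ne_iq m
  have hJR := ir_ne_ip m
  have hJP := ir_ne_iq m
  obtain ⟨ha, hb, hc, hd⟩ := h1 (cent Θ (nO hN (Sum.inl (iq m)) (Sum.inr (io m)))) (fun t => mem_cent.mpr (s_T1 hN hΘ t).symm)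
    (fun t => mem_cent.mpr (s_T1' hN hΘ t).symm) (fun k l hkl k1 k2 l1 l2 t => mem_cent.mpr (s_T2 hN hΘ hkl k1 k2 l1 l2 t).symm)
  have hu := u0_eq hN hΘ hQR.symm hRP 1
  have hJ : ∀ t, Θ (T (ir m) (io m) t) * XO hN (Sum.inl (ip m)) (Sum.inr (iq m)) 1 = XO hN (Sum.inl (ip m)) (Sum.inr (iq m)) 1 * Θ (T (ir m) (io m) t) := by
    intro t
    rw [hΘ _ _ hJQ]
    exact XO_comm0 hN (by simpa using hJQ) (by simp) (by simpa using hQR) (by simp) (by simp) (by simpa using hQP) t 1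
  have hJ' : ∀ t, Θ (T (io m) (ir m) t) * XO hN (Sum.inl (ip m)) (Sum.inr (iq m)) 1 = XO hN (Sum.inl (ip m)) (Sum.inr (iq m)) 1 * Θ (T (io m) (ir m) t) := by
    intro t
    rw [hΘ _ _ hJQ.symm]
    exact XO_comm0 hN (by simpa using hJQ.symm) (by simp) (by simpa using hJR) (by simp) (by simp) (by simpa using hJP) t 1
  refine ⟨(mem_cent.mp ha).symm, (mem_cent.mp hd).symm, (mem_cent.mp (mul_mem hb hc)).symm, e5_model hN hΘ, e6_model hN hΘ, ?_, fun _ => ?_⟩
  · rw [hu]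
    have hg := mem_cent.mp (h2 (cent Θ (XO hN (Sum.inl (ip m)) (Sum.inr (iq m)) 1)) (fun t => mem_cent.mpr (hJ t)) (fun t => mem_cent.mpr (hJ' t)))
    have hx : Θ (T (ip m) (iq m) 1) * XO hN (Sum.inl (ip m)) (Sum.inr (iq m)) 1 = XO hN (Sum.inl (ip m)) (Sum.inr (iq m)) 1 * Θ (T (ip m) (iq m) 1) := by
      rw [hΘ _ _ hRP]
      exact XO_comm2 hN (by simpa using hRP) (by simp) 1 1
    exact (OSys.hom_comm hx hg).symm
  · rw [hu]; exact (hJ 1).symm

theorem gen_top : Subgroup.closure (Set.range Θ ∪ {nO hN (Sum.inl (iq m)) (Sum.inr (io m))}) = ⊤ := by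
  have hRP := ip_ne_iq m
  have hQR := io_ne_ip m
  set H := Subgroup.closure (Set.range Θ ∪ {nO hN (Sum.inl (iq m)) (Sum.inr (io m))}) with hH
  have hT : ∀ g, Θ g ∈ H := fun g => Subgroup.subset_closure (Or.inl ⟨g, rfl⟩)
  have hs : nO hN (Sum.inl (iq m)) (Sum.inr (io m)) ∈ H := Subgroup.subset_closure (Or.inr rfl)
  have hu : ∀ t, XO hN (Sum.inl (ip m)) (Sum.inr (iq m)) t ∈ H := fun t => by
    rw [← u0_eq hN hΘ hQR.symm hRP t]
    exact mul_mem (mul_mem hs (hT _)) (inv_mem hs)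
  have hl : ∀ t, XO hN (Sum.inr (iq m)) (Sum.inl (ip m)) t ∈ H := fun t => by
    rw [← l0_eq hN hΘ hQR.symm hRP t]
    exact mul_mem (mul_mem hs (hT _)) (inv_mem hs)
  apply top_of_XO hN
  intro a b hab hab' t
  rcases a with i | i <;> rcases b with j | j
  · rw [← hΘ i j (by simpa using hab)]; exact hT _
  · have hij : i ≠ j := by simpa using hab'
    obtain ⟨g, g1, g2⟩ := DSys.exists_pair (F := F) hij
    have h1 : Θ g * XO hN (Sum.inl (ip m)) (Sum.inr (iq m)) t * (Θ g)⁻¹ = XO hN (Sum.inl i) (Sum.inr j) t := by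
      apply Subtype.ext
      refine conj_X (Om_le_O _) ?_ ?_ t
      · rw [← io'_bv, ← io'_bv, lev_io hN hΘ, g1]
      · change (Θ g).1 (bl (Sum.inl (iq m))) = bl (Sum.inl j)
        rw [← io'_bv, ← io'_bv, lev_io hN hΘ, g2]
    rw [← h1]
    exact mul_mem (mul_mem (hT _) (hu t)) (inv_mem (hT _))
  · have hij : i ≠ j := by simpa using hab'
    obtain ⟨g, g1, g2⟩ := DSys.exists_pair (F := F) hij.symm
    have jb : ∀ k, jo (bv k : Fin (m + 4) → F) = bl (Sum.inr k) := by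
      intro k
      ext a
      rcases a with a | a
      · simp [jo, bl_apply]
      · simp [jo, bl_apply, bv_apply]
    have h1 : Θ (tau g) * XO hN (Sum.inr (iq m)) (Sum.inl (ip m)) t * (Θ (tau g))⁻¹ = XO hN (Sum.inr i) (Sum.inl j) t := by
      apply Subtype.ext
      refine conj_X (Om_le_O _) ?_ ?_ t
      · rw [← jb, ← jb, lev_jo hN hΘ, tau_tau, g2]
      · change (Θ (tau g)).1 (bl (Sum.inr (ip m))) = bl (Sum.inr j)
        rw [← jb, ← jb, lev_jo hN hΘ, tau_tau, g1]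
    rw [← h1]
    exact mul_mem (mul_mem (hT _) (hl t)) (inv_mem (hT _))
  · have hij : i ≠ j := by simpa using hab
    rw [XO_symm hN hab]
    change XO hN (Sum.inl j) (Sum.inl i) (-t) ∈ H
    rw [← hΘ j i hij.symm]; exact hT _

omit hΘ in
/-- the representation of a covering group -/
theorem rep_of {G : Type*} [Group G] {S : OSys m F G} {D : DSys m F G} (hD : D.Θ = S.Θ) (hu : ∀ t, D.A (uS t) = S.ua t)
    (hl : ∀ t, D.A (lS t) = S.la t) (π : G →* ↥(Om (quadPlus (m + 4) F)))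
    (h1 : ∀ i j, i ≠ j → ∀ t, π (S.Θ (T i j t)) = XO hN (Sum.inl i) (Sum.inl j) t)
    (h2 : π S.s = nO hN (Sum.inl (iq m)) (Sum.inr (io m))) : DD.Rep D ((Om (quadPlus (m + 4) F)).subtype.comp π) (1 : F) where
  ne := one_ne_zero
  O x := Om_le_O _
  X i j hij t := by
    rw [hD]
    change (π (S.Θ (T i j t))).1 = _
    rw [h1 i j hij]; rfl
  u t := by
    rw [hu]
    change (π (S.ua t)).1 = _
    unfold OSys.ua
    rw [map_mul, map_mul, map_inv, h2, one_mul]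
    have := u0_eq hN (Θ := π.comp S.Θ) h1 (io_ne_ip m).symm (ip_ne_iq m) t
    change nO hN _ _ * π (S.Θ _) * _ = _ at this
    rw [this]; rfl
  l t := by
    rw [hl]
    change (π (S.la t)).1 = _
    unfold OSys.la
    rw [map_mul, map_mul, map_inv, h2, inv_one, one_mul]
    have := l0_eq hN (Θ := π.comp S.Θ) h1 (io_ne_ip m).symm (ip_ne_iq m) t
    change nO hN _ _ * π (S.Θ _) * _ = _ at this
    rw [this]; rfl

end main

end Cfsg.Agent.Lib.PresO
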