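import Cfsg.Agent.Lib.PresOI
import Cfsg.Agent.Lib.PresHas
import Cfsg.Agent.Lib.PresSLn3

set_option autoImplicit false
set_option linter.unusedSectionVars false
set_option linter.unusedSimpArgs false

/-!
Short presentations of `Ω⁺` (helper38).
-/

namespace Cfsg.Agent.Lib.PresO

open Matrix Cfsg.Agent.Lib.ClSL2 Cfsg.Agent.Lib.H92CT Cfsg.Agent.Lib.H92CTO Cfsg.Agent.Lib.Quad Cfsg.Agent.Lib.PresHas
open Cfsg.Agent.Lib.ClOmega
open scoped MatrixGroups

/-- faithfulness from the relations -/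
theorem inj_of_rel {F : Type*} [Field F] [Fintype F] (p : ℕ) [Fact p.Prime] [CharP F p] {m : ℕ} {G : Type*} [Group G]
    {a b c d g : SL(m + 4, F)}
    (habcd : ∀ K : Subgroup SL(m + 4, F), a ∈ K → d ∈ K → b * c ∈ K → (∀ t, T (iq m) (io m) t ∈ K) ∧ (∀ t, T (io m) (iq m) t ∈ K) ∧
      ∀ k l, k ≠ l → k ≠ io m → k ≠ iq m → l ≠ io m → l ≠ iq m → ∀ t, T k l t ∈ K)
    (hg1 : ∃ e : ℕ, e.Coprime p ∧ g ^ e = 1) (hg2 : ∀ t, g * T (ip m) (iq m) t = T (ip m) (iq m) t * g)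
    (hg3 : ∀ K : Subgroup SL(m + 4, F), g ∈ K → (∀ k l, k ≠ l → k ≠ iq m → k ≠ io m → k ≠ ip m → l ≠ iq m → l ≠ io m → l ≠ ip m → ∀ t, T k l t ∈ K) →
      (m = 0 → ∀ t, T (ir m) (io m) t ∈ K) → ∀ k l, k ≠ l → k ≠ ip m → k ≠ iq m → l ≠ ip m → l ≠ iq m → ∀ t, T k l t ∈ K)
    {Θ : SL(m + 4, F) →* G} {s : G} (R : ORel Θ s a b c d g) (hgen : Subgroup.closure (Set.range Θ ∪ {s}) = ⊤)
    (hN : 3 ≤ m + 4) (π : G →* ↥(Om (quadPlus (m + 4) F)))
    (h1 : ∀ i j, i ≠ j → ∀ t, π (Θ (T i j t)) = XO hN (Sum.inl i) (Sum.inl j) t)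
    (h2 : π s = nO hN (Sum.inl (iq m)) (Sum.inr (io m))) : Function.Injective π := by
  obtain ⟨S, hS1, hS2⟩ := R.toOSys p habcd hg1 hg2 hg3
  subst hS1 hS2
  obtain ⟨D, hD, hu, hl⟩ := S.exists_D
  have hrep := rep_of hN hD hu hl π h1 h2
  have hA : D.A (nS 1 (-1)) = (S.Θ (wT (ip m) (io m)))⁻¹ * S.s * S.Θ (wT (ip m) (io m)) := by
    rw [← S.wA]
    unfold nS wT
    simp only [map_mul, hu, hl]
    unfold OSys.ua OSys.la
    group
  have hinj := hrep.inj (by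
    rw [eq_top_iff, ← hgen, Subgroup.closure_le]
    rintro x (⟨y, rfl⟩ | hx)
    · exact Subgroup.subset_closure (Or.inl ⟨y, by rw [hD]⟩)
    · rw [Set.mem_singleton_iff] at hx
      have e1 : S.s = S.Θ (wT (ip m) (io m)) * D.A (nS 1 (-1)) * (S.Θ (wT (ip m) (io m)))⁻¹ := by rw [hA]; group
      rw [hx, e1]
      have e2 : S.Θ (wT (ip m) (io m)) ∈ Subgroup.closure (Set.range D.Θ ∪ Set.range D.A) := Subgroup.subset_closure (Or.inl ⟨_, by rw [hD]⟩)
      exact mul_mem (mul_mem e2 (Subgroup.subset_closure (Or.inr ⟨_, rfl⟩))) (inv_mem e2)) (by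
    refine ⟨(wT (ip m) (io m))⁻¹ * (wT (iq m) (io m) * wT (iq m) (io m)) * wT (ip m) (io m), ?_⟩
    rw [← w_sq, map_mul, hA, hD, map_mul, map_mul, map_inv, ← R.e6]
    group)
  intro x y hxy
  apply hinj
  change (π x).1 = (π y).1
  rw [hxy]

/-- the relators -/
def relL {E : Type*} [Group E] (a d bc W z T1 xg TJ : E) (f : Bool) : List (Monoid.Coprod E (FreeGroup Unit)) :=
  let s : Monoid.Coprod E (FreeGroup Unit) := Monoid.Coprod.inr (FreeGroup.of ())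
  let i : E →* Monoid.Coprod E (FreeGroup Unit) := Monoid.Coprod.inl
  [s * i a * s⁻¹ * (i a)⁻¹, s * i d * s⁻¹ * (i d)⁻¹, s * i bc * s⁻¹ * (i bc)⁻¹,
    s⁻¹ * (i W * s * (i W)⁻¹) * s * i W, s * s * (i z)⁻¹,
    (s * i T1 * s⁻¹) * i xg * (s * i T1 * s⁻¹)⁻¹ * (i xg)⁻¹] ++
    if f then [(s * i T1 * s⁻¹) * i TJ * (s * i T1 * s⁻¹)⁻¹ * (i TJ)⁻¹] else []

theorem cm_iff {G : Type*} [Group G] {x y : G} : x * y * x⁻¹ * y⁻¹ = 1 ↔ x * y = y * x := by
  rw [mul_inv_eq_one, mul_inv_eq_iff_eq_mul]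

theorem relL_iff {E G : Type*} [Group E] [Group G] (a d bc W z T1 xg TJ : E) (f : Bool) (Θ : E →* G) (s : G) :
    (∀ w ∈ relL a d bc W z T1 xg TJ f, Monoid.Coprod.lift Θ (FreeGroup.lift (fun _ => s)) w = 1) ↔
      s * Θ a = Θ a * s ∧ s * Θ d = Θ d * s ∧ s * Θ bc = Θ bc * s ∧ s⁻¹ * (Θ W * s * (Θ W)⁻¹) * s = (Θ W)⁻¹ ∧ s * s = Θ z ∧
      (s * Θ T1 * s⁻¹) * Θ xg = Θ xg * (s * Θ T1 * s⁻¹) ∧ (f = true → (s * Θ T1 * s⁻¹) * Θ TJ = Θ TJ * (s * Θ T1 * s⁻¹)) := by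
  cases f
  · simp only [relL, List.mem_append, List.mem_cons, List.not_mem_nil, or_false, Bool.false_eq_true, if_false, forall_eq_or_imp, forall_eq,
      map_mul, map_inv, Monoid.Coprod.lift_apply_inl, Monoid.Coprod.lift_apply_inr, FreeGroup.lift_apply_of,
      mul_eq_one_iff_eq_inv, inv_inv, mul_inv_eq_iff_eq_mul, false_imp_iff, and_true]
  · simp only [relL, List.mem_append, List.mem_cons, List.not_mem_nil, or_false, if_true, forall_eq_or_imp, forall_eq, or_imp, forall_and,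
      map_mul, map_inv, Monoid.Coprod.lift_apply_inl, Monoid.Coprod.lift_apply_inr, FreeGroup.lift_apply_of,
      mul_eq_one_iff_eq_inv, inv_inv, mul_inv_eq_iff_eq_mul, true_imp_iff]
    tauto

/-- adding the Weyl element -/
theorem hasPres_Om.{u} {F : Type u} [Field F] [Fintype F] (m : ℕ) {k r : ℕ} (h : HasPres (SL(m + 4, F)) k r) :
    HasPres ↥(Om (quadPlus (m + 4) F)) (k + 1) (r + if m = 0 then 7 else 6) := by
  classical
  obtain ⟨p, hp⟩ := CharP.exists F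
  haveI : Fact p.Prime := ⟨CharP.char_is_prime F p⟩
  have hN : 3 ≤ m + 4 := by omega
  obtain ⟨Θ, hΘ⟩ := exists_lev (F := F) hN
  obtain ⟨a, b, c, d, h1, h2⟩ := exists_abcd (F := F) m
  obtain ⟨g, h3, h4, h5, h6⟩ := exists_g (F := F) p m
  have key := HasPres.adjoin h (relL a d (b * c) (wT (ip m) (iq m)) (wT (iq m) (io m) * wT (iq m) (io m)) (T (ip m) (io m) 1)
    (T (ip m) (iq m) 1 * g) (T (ir m) (io m) 1) (decide (m = 0))) Θ (nO hN (Sum.inl (iq m)) (Sum.inr (io m))) (by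
      rw [relL_iff]
      have R := orel_model hN hΘ h2 h6
      exact ⟨R.e1, R.e2, R.e3, R.e5, R.e6, R.e7, fun hm => R.e8 (by simpa using hm)⟩) (gen_top hN hΘ) (by
      intro Γ _ δ u π hR htop hπ hu
      rw [relL_iff] at hR
      obtain ⟨r1, r2, r3, r5, r6, r7, r8⟩ := hR
      exact inj_of_rel p h1 h3 h4 h5 (Θ := δ) (s := u) ⟨r1, r2, r3, r5, r6, r7, fun hm => r8 (by simpa using hm)⟩ htop hN π
        (fun i j hij t => by rw [← hΘ i j hij, ← hπ]; rfl) hu)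
  refine HasPres.mono key ?_
  apply Nat.add_le_add_left
  by_cases hm : m = 0
  · simp [relL, hm]
  · simp [relL, hm]

/-- presentations of the special linear groups -/
theorem hasPres_SL4 (F : Type*) [Field F] [Fintype F] : HasPres (SL(4, F)) 4 19 := by
  obtain ⟨relsA, hA, ⟨e⟩⟩ := PresSLn.pres_A4
  obtain ⟨rels, h1, h2⟩ := PresSLn.pres_four (F := F) relsA e
  exact ⟨rels, by omega, h2⟩

theorem hasPres_SL5 (F : Type*) [Field F] [Fintype F] : HasPres (SL(5, F)) 4 20 := by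
  obtain ⟨relsA, hA, ⟨e⟩⟩ := PresSLn.pres_A5
  obtain ⟨rels, h1, h2⟩ := PresSLn.pres_five (F := F) (by norm_num) relsA e
  exact ⟨rels, by omega, h2⟩

theorem hasPres_SLn (F : Type*) [Field F] [Fintype F] (n : ℕ) (hn : 5 ≤ n) : HasPres (SL(n, F)) 5 23 := by
  obtain ⟨relsA, hA, ⟨e⟩⟩ := PresFinal.exists_pres_An n hn
  obtain ⟨rels, h1, h2⟩ := PresSLn.pres_five (F := F) hn relsA e
  exact ⟨rels, by omega, h2⟩

theorem hasPres_small (F : Type*) [Field F] [Fintype F] (m : ℕ) (hm : m ≤ 1) : HasPres ↥(Om (quadPlus (m + 4) F)) 8 29 := by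
  rcases Nat.lt_or_ge m 1 with h | h
  · obtain rfl : m = 0 := by omega
    have h1 := hasPres_Om (F := F) 0 (hasPres_SL4 F)
    exact (h1.pad (by norm_num) 3).mono (by norm_num)
  · obtain rfl : m = 1 := by omega
    have h1 := hasPres_Om (F := F) 1 (hasPres_SL5 F)
    exact (h1.pad (by norm_num) 3).mono (by norm_num)

theorem hasPres_big (F : Type*) [Field F] [Fintype F] (m : ℕ) : HasPres ↥(Om (quadPlus (m + 4) F)) 8 31 := by
  rcases Nat.lt_or_ge m 1 with h | h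
  · exact (hasPres_small F m (by omega)).mono (by norm_num)
  · have h1 := hasPres_Om (F := F) m (hasPres_SLn F (m + 4) (by omega))
    rw [if_neg (by omega)] at h1
    exact (h1.pad (by norm_num) 2).mono (by norm_num)

/-- the centre -/
theorem center_Om (F : Type*) [Field F] [Fintype F] (m : ℕ) : ∃ z, Subgroup.center ↥(Om (quadPlus (m + 4) F)) = Subgroup.zpowers z := by
  have hN : 3 ≤ m + 4 := by omega
  have key : Nat.card (Subgroup.center ↥(Om (quadPlus (m + 4) F))) = 1 ∨ Nat.card (Subgroup.center ↥(Om (quadPlus (m + 4) F))) = 2 := by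
    by_cases h : (2 : F) ≠ 0 ∧ (LinearEquiv.neg F : (Sg (m + 4) → F) ≃ₗ[F] (Sg (m + 4) → F)) ∈ Om (quadPlus (m + 4) F)
    · exact Or.inr (card_center_of_mem nd_quadPlus (nd_quadPlus.R_eq_O (genHyp_plus _ hN)) (frame_of_HP (hpPlus (m + 4))) hN h.1 h.2)
    · exact Or.inl (card_center_of_not_mem nd_quadPlus (nd_quadPlus.R_eq_O (genHyp_plus _ hN)) (frame_of_HP (hpPlus (m + 4))) hN
        (fun h2 h3 => h ⟨h2, h3⟩))
  have hcyc : IsCyclic (Subgroup.center ↥(Om (quadPlus (m + 4) F))) := by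
    rcases key with h | h
    · haveI : Subsingleton (Subgroup.center ↥(Om (quadPlus (m + 4) F))) := (Nat.card_eq_one_iff_unique.mp h).1
      infer_instance
    · haveI : Fact (Nat.Prime 2) := ⟨Nat.prime_two⟩
      exact isCyclic_of_prime_card h
  obtain ⟨z, hz⟩ := hcyc.exists_generator
  refine ⟨z, le_antisymm ?_ ?_⟩
  · intro x hx
    obtain ⟨k, hk⟩ := Subgroup.mem_zpowers_iff.1 (hz ⟨x, hx⟩)
    rw [Subgroup.mem_zpowers_iff]
    exact ⟨k, by simpa using congrArg Subtype.val hk⟩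
  · rw [Subgroup.zpowers_le]
    exact z.2

theorem hasPres_P {F : Type*} [Field F] [Fintype F] {m k r : ℕ} (h : HasPres ↥(Om (quadPlus (m + 4) F)) k r) :
    HasPres (Cfsg.POmega F (Cfsg.quadFormPlus (m + 4) F)) k (r + 1) := by
  obtain ⟨z, hz⟩ := center_Om F m
  have h1 := HasPres.central h _ z hz
  let e3 : Cfsg.Omega F (Cfsg.quadFormPlus (m + 4) F) ≃* ↥(Om (quadPlus (m + 4) F)) := omEquiv (quadPlus (m + 4) F)
  refine h1.congr (QuotientGroup.congr _ _ e3.symm ?_)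
  ext x
  simp only [Subgroup.mem_map, Subgroup.mem_center_iff]
  constructor
  · rintro ⟨y, hy, rfl⟩ g
    obtain ⟨g, rfl⟩ := e3.symm.surjective g
    change e3.symm g * e3.symm y = e3.symm y * e3.symm g
    rw [← map_mul, hy, map_mul]
  · intro hx
    refine ⟨e3 x, ?_, e3.symm_apply_apply x⟩
    intro g
    apply e3.symm.injective
    rw [map_mul, map_mul, e3.symm_apply_apply, hx]

theorem hasPres_O {F : Type*} [Field F] [Fintype F] {m k r : ℕ} (h : HasPres ↥(Om (quadPlus (m + 4) F)) k r) :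
    HasPres ↥(Cfsg.Omega F (Cfsg.quadFormPlus (m + 4) F)) k r := h.congr (omEquiv (quadPlus (m + 4) F)).symm

end Cfsg.Agent.Lib.PresO
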