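import Cfsg.Agent.Lib.PresEqv3

/-! Relations for `SL_3` (helper38). -/

set_option autoImplicit false

namespace Cfsg.Agent.Lib.PresSL3

open Polynomial Cfsg.Agent.Lib.PresMod Cfsg.Agent.Lib.PresField Cfsg.Agent.Lib.PresTorus Cfsg.Agent.Lib.PresCore
  Cfsg.Agent.Lib.PresEqv Cfsg.Agent.Lib.SteinbergSL

variable {G : Type*} [Group G] {F : Type*} [Field F]

theorem Act.zpow {g : G} {c : Fˣ} {Y : F → G} (h : Act g c Y) (n : ℤ) : Act (g ^ n) (c ^ n) Y := by
  rcases n with n | n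
  · rw [Int.ofNat_eq_natCast, zpow_natCast, zpow_natCast]; exact h.pow n
  · rw [zpow_negSucc, zpow_negSucc]; exact (h.pow _).inv

theorem Act.congr {g : G} {c c' : Fˣ} {Y : F → G} (h : Act g c Y) (e : c = c') : Act g c' Y := e ▸ h
theorem Act.congrG {g g' : G} {c : Fˣ} {Y : F → G} (h : Act g c Y) (e : g = g') : Act g' c Y := e ▸ h

/-- the relations, with the root subgroup -/
structure C3 (ζ : Fˣ) (mz : ℕ) (u h t c : G) (y : F → G) : Prop where
  y2 : IsY2 (ζ : F) h (c⁻¹ * h * c)⁻¹ u y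
  ht : t * h * t⁻¹ = h⁻¹
  A : t * u * t⁻¹ = u⁻¹ * t * u⁻¹
  c3 : c ^ 3 = 1
  s2 : (t * c⁻¹) ^ 2 = 1
  comm : Commute h (c * h * c⁻¹)
  prod : h * (c * h * c⁻¹) * (c⁻¹ * h * c) = 1
  z : t ^ 2 = h ^ mz
  hz : ζ ^ mz = -1

namespace C3

variable {ζ : Fˣ} {mz : ℕ} {u h t c : G} {y : F → G} (d : C3 ζ mz u h t c y)

/-- the other root groups -/
def x10 (t : G) (y : F → G) (a : F) : G := t * y (-a) * t⁻¹
def x12 (c : G) (y : F → G) (a : F) : G := c * y a * c⁻¹
def x20 (c : G) (y : F → G) (a : F) : G := c⁻¹ * y a * c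
def x21 (t c : G) (y : F → G) (a : F) : G := c * x10 t y a * c⁻¹
def x02 (t c : G) (y : F → G) (a : F) : G := c⁻¹ * x10 t y a * c

include d

theorem cc : c * c = c⁻¹ := by
  have := d.c3
  rw [pow_succ, pow_two] at this
  exact eq_inv_of_mul_eq_one_left this

theorem cci : c⁻¹ * c⁻¹ = c := by
  rw [← mul_inv_rev, d.cc, inv_inv]

theorem tc : t * c⁻¹ = c * t⁻¹ := by
  have := d.s2
  rw [pow_two] at this
  have h1 := eq_inv_of_mul_eq_one_left this
  rw [h1]; group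

/-- the torus elements `h01 = h`, `h12 = c h c⁻¹`, `h20 = c⁻¹ h c` -/
theorem cm1 : Commute h (c⁻¹ * h * c) := by
  have h1 : c⁻¹ * h * c = (h * (c * h * c⁻¹))⁻¹ := eq_inv_of_mul_eq_one_right d.prod
  rw [h1]
  exact ((Commute.refl h).mul_right d.comm).inv_right

theorem cm2 : Commute (c * h * c⁻¹) (c⁻¹ * h * c) := by
  have h1 : c⁻¹ * h * c = (h * (c * h * c⁻¹))⁻¹ := eq_inv_of_mul_eq_one_right d.prod
  rw [h1]
  exact (d.comm.symm.mul_right (Commute.refl _)).inv_right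

theorem h12_eq : c * h * c⁻¹ = h⁻¹ * (c⁻¹ * h * c)⁻¹ := by
  have h1 := d.prod
  rw [mul_assoc] at h1
  have h2 : (c * h * c⁻¹) * (c⁻¹ * h * c) = h⁻¹ := eq_inv_of_mul_eq_one_right h1
  rw [← h2, mul_inv_cancel_right]

theorem a01_01 : Act h (ζ ^ 2) y := by
  intro a
  rw [d.y2.mulh, Units.val_pow_eq_pow_val]

theorem a20_01 : Act (c⁻¹ * h * c) ζ⁻¹ y := by
  have h1 : Act (c⁻¹ * h * c)⁻¹ ζ y := d.y2.mulk
  have := h1.inv
  rwa [inv_inv] at this

theorem a12_01 : Act (c * h * c⁻¹) ζ⁻¹ y := by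
  rw [d.h12_eq]
  refine Act.congr (d.a01_01.inv.mul d.a20_01.inv) ?_
  rw [inv_inv, sq, mul_inv_rev, mul_assoc, inv_mul_cancel, mul_one]

/-- conjugation of torus elements by `c` -/
theorem c01 : c * (c⁻¹ * h * c) * c⁻¹ = h := by group
theorem c12 : c * (c * h * c⁻¹) * c⁻¹ = c⁻¹ * h * c := by
  calc c * (c * h * c⁻¹) * c⁻¹ = (c * c) * h * (c⁻¹ * c⁻¹) := by group
    _ = _ := by rw [d.cc, d.cci]
theorem ci01 : c⁻¹ * (c * h * c⁻¹) * c = h := by group
theorem ci20 : c⁻¹ * (c⁻¹ * h * c) * c = c * h * c⁻¹ := by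
  calc c⁻¹ * (c⁻¹ * h * c) * c = (c⁻¹ * c⁻¹) * h * (c * c) := by group
    _ = _ := by rw [d.cc, d.cci]

theorem a12_12 : Act (c * h * c⁻¹) (ζ ^ 2) (x12 c y) := act_conj (fun _ => rfl) d.a01_01
theorem a01_12 : Act h ζ⁻¹ (x12 c y) :=
  Act.congrG (act_conj (Y' := x12 c y) (fun _ => rfl) d.a20_01) d.c01
theorem a20_12 : Act (c⁻¹ * h * c) ζ⁻¹ (x12 c y) :=
  Act.congrG (act_conj (Y' := x12 c y) (fun _ => rfl) d.a12_01) d.c12

theorem a20_20 : Act (c⁻¹ * h * c) (ζ ^ 2) (x20 c y) := by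
  have := act_conj (g := c⁻¹) (Y' := x20 c y) (fun _ => by rw [inv_inv]; rfl) d.a01_01
  rwa [inv_inv] at this
theorem a01_20 : Act h ζ⁻¹ (x20 c y) := by
  have := act_conj (g := c⁻¹) (Y' := x20 c y) (fun _ => by rw [inv_inv]; rfl) d.a12_01
  rw [inv_inv] at this
  exact Act.congrG this d.ci01
theorem a12_20 : Act (c * h * c⁻¹) ζ⁻¹ (x20 c y) := by
  have := act_conj (g := c⁻¹) (Y' := x20 c y) (fun _ => by rw [inv_inv]; rfl) d.a20_01
  rw [inv_inv] at this
  exact Act.congrG this d.ci20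

/-- conjugation of torus elements by `t` -/
theorem t20 : t * (c⁻¹ * h * c) * t⁻¹ = (c * h * c⁻¹)⁻¹ := by
  have h0 : t⁻¹ * h * t = h⁻¹ := by
    have h1 : t * h⁻¹ * t⁻¹ = h := by
      calc t * h⁻¹ * t⁻¹ = (t * h * t⁻¹)⁻¹ := by group
        _ = h := by rw [d.ht, inv_inv]
    calc t⁻¹ * h * t = t⁻¹ * (t * h⁻¹ * t⁻¹) * t := by rw [h1]
      _ = h⁻¹ := by group
  have e : c * t⁻¹ = (t * c⁻¹) := d.tc.symm
  calc t * (c⁻¹ * h * c) * t⁻¹ = (t * c⁻¹) * h * (t * c⁻¹)⁻¹ := by group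
    _ = (c * t⁻¹) * h * (c * t⁻¹)⁻¹ := by rw [d.tc]
    _ = c * (t⁻¹ * h * t) * c⁻¹ := by group
    _ = _ := by rw [h0]; group

theorem t12 : t * (c * h * c⁻¹) * t⁻¹ = (c⁻¹ * h * c)⁻¹ := by
  rw [d.h12_eq]
  calc t * (h⁻¹ * (c⁻¹ * h * c)⁻¹) * t⁻¹ = (t * h * t⁻¹)⁻¹ * (t * (c⁻¹ * h * c) * t⁻¹)⁻¹ := by group
    _ = h * (c * h * c⁻¹) := by rw [d.ht, d.t20, inv_inv, inv_inv]
    _ = _ := mul_eq_one_iff_eq_inv.1 d.prod

theorem act_neg {g : G} {c' : Fˣ} (h : Act g c' y) : Act g c' (fun a => y (-a)) := by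
  intro a
  show g * y (-a) * g⁻¹ = y (-(c' * a))
  rw [h, mul_neg]

theorem a01_10 : Act h ((ζ ^ 2)⁻¹) (x10 t y) := by
  have := act_conj (g := t) (Y' := x10 t y) (fun _ => rfl) (d.act_neg d.a01_01).inv
  refine Act.congrG this ?_
  calc t * h⁻¹ * t⁻¹ = (t * h * t⁻¹)⁻¹ := by group
    _ = h := by rw [d.ht, inv_inv]
theorem a12_10 : Act (c * h * c⁻¹) ζ (x10 t y) := by
  have := act_conj (g := t) (Y' := x10 t y) (fun _ => rfl) (d.act_neg d.a20_01).inv
  rw [inv_inv] at this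
  refine Act.congrG this ?_
  calc t * (c⁻¹ * h * c)⁻¹ * t⁻¹ = (t * (c⁻¹ * h * c) * t⁻¹)⁻¹ := by group
    _ = _ := by rw [d.t20, inv_inv]
theorem a20_10 : Act (c⁻¹ * h * c) ζ (x10 t y) := by
  have := act_conj (g := t) (Y' := x10 t y) (fun _ => rfl) (d.act_neg d.a12_01).inv
  rw [inv_inv] at this
  refine Act.congrG this ?_
  calc t * (c * h * c⁻¹)⁻¹ * t⁻¹ = (t * (c * h * c⁻¹) * t⁻¹)⁻¹ := by group
    _ = _ := by rw [d.t12, inv_inv]

theorem a12_21 : Act (c * h * c⁻¹) ((ζ ^ 2)⁻¹) (x21 t c y) := act_conj (fun _ => rfl) d.a01_10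
theorem a01_21 : Act h ζ (x21 t c y) := Act.congrG (act_conj (Y' := x21 t c y) (fun _ => rfl) d.a20_10) d.c01
theorem a20_21 : Act (c⁻¹ * h * c) ζ (x21 t c y) := Act.congrG (act_conj (Y' := x21 t c y) (fun _ => rfl) d.a12_10) d.c12

theorem a20_02 : Act (c⁻¹ * h * c) ((ζ ^ 2)⁻¹) (x02 t c y) := by
  have := act_conj (g := c⁻¹) (Y' := x02 t c y) (fun _ => by rw [inv_inv]; rfl) d.a01_10
  rwa [inv_inv] at this
theorem a01_02 : Act h ζ (x02 t c y) := by
  have := act_conj (g := c⁻¹) (Y' := x02 t c y) (fun _ => by rw [inv_inv]; rfl) d.a12_10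
  rw [inv_inv] at this
  exact Act.congrG this d.ci01
theorem a12_02 : Act (c * h * c⁻¹) ζ (x02 t c y) := by
  have := act_conj (g := c⁻¹) (Y' := x02 t c y) (fun _ => by rw [inv_inv]; rfl) d.a20_10
  rw [inv_inv] at this
  exact Act.congrG this d.ci20

/-! the element `z = t²` -/
theorem z01 : Act (t ^ 2) 1 y := by
  rw [d.z]
  refine Act.congr (d.a01_01.pow mz) ?_
  rw [← pow_mul, mul_comm, pow_mul, d.hz]; simp

theorem z20 : Act (t ^ 2) (-1) (x20 c y) := by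
  rw [d.z]
  refine Act.congr (d.a01_20.pow mz) ?_
  rw [inv_pow, d.hz]; simp

theorem z02 : Act (t ^ 2) (-1) (x02 t c y) := by
  rw [d.z]
  exact Act.congr (d.a01_02.pow mz) d.hz

/-! conjugation of root groups by `t` -/
theorem t_01 (a : F) : t * y a * t⁻¹ = x10 t y (-a) := by
  show _ = t * y (- -a) * t⁻¹
  rw [neg_neg]

theorem ti_01 (a : F) : t⁻¹ * y a * t = x10 t y (-a) := by
  have h1 := d.z01 a
  rw [Units.val_one, one_mul] at h1
  rw [← d.t_01]
  calc t⁻¹ * y a * t = t⁻¹ * (t ^ 2 * y a * (t ^ 2)⁻¹) * t := by rw [h1]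
    _ = _ := by group

theorem t_10 (a : F) : t * x10 t y a * t⁻¹ = y (-a) := by
  have h1 := d.z01 (-a)
  rw [Units.val_one, one_mul] at h1
  rw [← h1, sq]
  show t * (t * y (-a) * t⁻¹) * t⁻¹ = _
  group

theorem ti_10 (a : F) : t⁻¹ * x10 t y a * t = y (-a) := by
  show t⁻¹ * (t * y (-a) * t⁻¹) * t = _
  group

theorem t_20 (a : F) : t * x20 c y a * t⁻¹ = x21 t c y (-a) := by
  calc t * x20 c y a * t⁻¹ = (t * c⁻¹) * y a * (t * c⁻¹)⁻¹ := by unfold x20; group
    _ = (c * t⁻¹) * y a * (c * t⁻¹)⁻¹ := by rw [d.tc]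
    _ = c * (t⁻¹ * y a * t) * c⁻¹ := by group
    _ = _ := by rw [d.ti_01]; rfl

theorem t_02 (a : F) : t * x02 t c y a * t⁻¹ = x12 c y (-a) := by
  calc t * x02 t c y a * t⁻¹ = (t * c⁻¹) * x10 t y a * (t * c⁻¹)⁻¹ := by unfold x02; group
    _ = (c * t⁻¹) * x10 t y a * (c * t⁻¹)⁻¹ := by rw [d.tc]
    _ = c * (t⁻¹ * x10 t y a * t) * c⁻¹ := by group
    _ = _ := by rw [d.ti_10]; rfl

theorem t_12 (a : F) : t * x12 c y a * t⁻¹ = x02 t c y a := by
  have h1 := d.t_02 (-a)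
  rw [neg_neg] at h1
  have h2 := d.z02 (-a)
  rw [Units.val_neg, Units.val_one, neg_mul, one_mul, neg_neg] at h2
  rw [← h1, ← h2, sq]; group

theorem t_21 (a : F) : t * x21 t c y a * t⁻¹ = x20 c y a := by
  have h1 := d.t_20 (-a)
  rw [neg_neg] at h1
  have h2 := d.z20 (-a)
  rw [Units.val_neg, Units.val_one, neg_mul, one_mul, neg_neg] at h2
  rw [← h1, ← h2, sq]; group

/-! conjugation by `c` -/
omit d in theorem c_01 (a : F) : c * y a * c⁻¹ = x12 c y a := rfl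
theorem c_12 (a : F) : c * x12 c y a * c⁻¹ = x20 c y a := by
  calc c * (c * y a * c⁻¹) * c⁻¹ = (c * c) * y a * (c⁻¹ * c⁻¹) := by group
    _ = _ := by rw [d.cc, d.cci]; rfl
omit d in theorem c_20 (a : F) : c * x20 c y a * c⁻¹ = y a := by unfold x20; group
omit d in theorem c_10 (a : F) : c * x10 t y a * c⁻¹ = x21 t c y a := rfl
theorem c_21 (a : F) : c * x21 t c y a * c⁻¹ = x02 t c y a := by
  calc c * (c * x10 t y a * c⁻¹) * c⁻¹ = (c * c) * x10 t y a * (c⁻¹ * c⁻¹) := by group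
    _ = _ := by rw [d.cc, d.cci]; rfl
omit d in theorem c_02 (a : F) : c * x02 t c y a * c⁻¹ = x10 t y a := by unfold x02; group

/-! additivity -/
theorem add10 (a b : F) : x10 t y (a + b) = x10 t y a * x10 t y b := by
  unfold x10
  rw [neg_add, d.y2.add]; group
theorem add12 (a b : F) : x12 c y (a + b) = x12 c y a * x12 c y b := by
  unfold x12
  rw [d.y2.add]; group
theorem add20 (a b : F) : x20 c y (a + b) = x20 c y a * x20 c y b := by
  unfold x20
  rw [d.y2.add]; group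
theorem add21 (a b : F) : x21 t c y (a + b) = x21 t c y a * x21 t c y b := by
  unfold x21
  rw [d.add10]; group
theorem add02 (a b : F) : x02 t c y (a + b) = x02 t c y a * x02 t c y b := by
  unfold x02
  rw [d.add10]; group

/-- the three relations from which the others follow -/
structure _root_.Cfsg.Agent.Lib.PresSL3.Rel3 (t c : G) (y : F → G) : Prop where
  com : ∀ a b, y a * x12 c y b * (y a)⁻¹ * (x12 c y b)⁻¹ = x02 t c y (a * b)
  row : ∀ a b, Commute (y a) (x02 t c y b)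
  col : ∀ a b, Commute (x02 t c y a) (x12 c y b)

omit d in
/-- the family -/
def XX (t c : G) (y : F → G) : Fin 3 → Fin 3 → F → G :=
  ![![fun _ => 1, y, x02 t c y], ![x10 t y, fun _ => 1, x12 c y], ![x20 c y, x21 t c y, fun _ => 1]]

theorem com_conj {g a b k a' b' k' : G} (ha : g * a * g⁻¹ = a') (hb : g * b * g⁻¹ = b') (hk : g * k * g⁻¹ = k')
    (h : a * b * a⁻¹ * b⁻¹ = k) : a' * b' * a'⁻¹ * b'⁻¹ = k' := by
  rw [← ha, ← hb, ← hk, ← h]; group

theorem cm_conj {g a b a' b' : G} (ha : g * a * g⁻¹ = a') (hb : g * b * g⁻¹ = b') (h : Commute a b) : Commute a' b' := by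
  rw [← ha, ← hb]; exact commute_conj g h

theorem isSt (r : Rel3 t c y) : IsSt (XX t c y) := by
  have com012 : ∀ a b, y a * x12 c y b * (y a)⁻¹ * (x12 c y b)⁻¹ = x02 t c y (a * b) := r.com
  have com120 : ∀ a b, x12 c y a * x20 c y b * (x12 c y a)⁻¹ * (x20 c y b)⁻¹ = x10 t y (a * b) := fun a b =>
    d.com_conj (c_01 a) (d.c_12 b) (c_02 (a * b)) (com012 a b)
  have com201 : ∀ a b, x20 c y a * y b * (x20 c y a)⁻¹ * (y b)⁻¹ = x21 t c y (a * b) := fun a b =>
    d.com_conj (d.c_12 a) (c_20 b) (c_10 (a * b)) (com120 a b)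
  have com102 : ∀ a b, x10 t y a * x02 t c y b * (x10 t y a)⁻¹ * (x02 t c y b)⁻¹ = x12 c y (a * b) := fun a b => by
    have := d.com_conj (g := t) (d.t_01 (-a)) (d.t_12 b) (d.t_02 (-a * b)) (com012 (-a) b)
    rwa [neg_neg, neg_mul, neg_neg] at this
  have com210 : ∀ a b, x21 t c y a * x10 t y b * (x21 t c y a)⁻¹ * (x10 t y b)⁻¹ = x20 c y (a * b) := fun a b =>
    d.com_conj (c_10 a) (c_02 b) (d.c_12 (a * b)) (com102 a b)
  have com021 : ∀ a b, x02 t c y a * x21 t c y b * (x02 t c y a)⁻¹ * (x21 t c y b)⁻¹ = y (a * b) := fun a b =>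
    d.com_conj (d.c_21 a) (c_10 b) (c_20 (a * b)) (com210 a b)
  have row0 := r.row
  have row1 : ∀ a b, Commute (x12 c y a) (x10 t y b) := fun a b => d.cm_conj (c_01 a) (c_02 b) (row0 a b)
  have row2 : ∀ a b, Commute (x20 c y a) (x21 t c y b) := fun a b => d.cm_conj (d.c_12 a) (c_10 b) (row1 a b)
  have col2 := r.col
  have col0 : ∀ a b, Commute (x10 t y a) (x20 c y b) := fun a b => d.cm_conj (c_02 a) (d.c_12 b) (col2 a b)
  have col1 : ∀ a b, Commute (x21 t c y a) (y b) := fun a b => d.cm_conj (c_10 a) (c_20 b) (col0 a b)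
  have same : ∀ {Y : F → G}, (∀ a b, Y (a + b) = Y a * Y b) → ∀ a b, Commute (Y a) (Y b) := by
    intro Y hY a b
    show Y a * Y b = Y b * Y a
    rw [← hY, ← hY, add_comm]
  refine ⟨?_, ?_, ?_⟩
  · intro i j hij
    fin_cases i <;> fin_cases j <;> first | exact absurd rfl hij | skip
    · exact d.y2.add
    · exact d.add02
    · exact d.add10
    · exact d.add12
    · exact d.add20
    · exact d.add21
  · intro i j k l hij hkl hil hjk a b
    fin_cases i <;> fin_cases j <;> (first | exact absurd rfl hij | skip) <;> fin_cases k <;> (first | exact absurd rfl hjk | skip) <;>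
      fin_cases l <;> first | exact absurd rfl hkl | exact absurd rfl hil | skip
    · exact same d.y2.add a b
    · exact row0 a b
    · exact (col1 b a).symm
    · exact (row0 b a).symm
    · exact same d.add02 a b
    · exact col2 a b
    · exact same d.add10 a b
    · exact (row1 b a).symm
    · exact col0 a b
    · exact (col2 b a).symm
    · exact row1 a b
    · exact same d.add12 a b
    · exact (col0 b a).symm
    · exact same d.add20 a b
    · exact row2 a b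
    · exact col1 a b
    · exact (row2 b a).symm
    · exact same d.add21 a b
  · intro i j k hij hjk hik a b
    fin_cases i <;> fin_cases j <;> (first | exact absurd rfl hij | skip) <;> fin_cases k <;>
      first | exact absurd rfl hjk | exact absurd rfl hik | skip
    · exact com012 a b
    · exact com021 a b
    · exact com102 a b
    · exact com120 a b
    · exact com201 a b
    · exact com210 a b

end C3

end Cfsg.Agent.Lib.PresSL3
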