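import Cfsg.Agent.Lib.PresSL3

/-! Relations for `SL_3`: generation and the order bound (helper38). -/

set_option autoImplicit false

namespace Cfsg.Agent.Lib.PresSL3

open Polynomial Cfsg.Agent.Lib.PresMod Cfsg.Agent.Lib.PresField Cfsg.Agent.Lib.PresTorus Cfsg.Agent.Lib.PresCore
  Cfsg.Agent.Lib.PresEqv Cfsg.Agent.Lib.SteinbergSL

/-- cubes span a finite field with more than four elements or less -/
theorem cubes_span {F : Type*} [Field F] [Fintype F] (h4 : Fintype.card F ≠ 4) {ζ : Fˣ} (hζ : ∀ x : Fˣ, x ∈ Subgroup.zpowers ζ) :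
    AddSubgroup.closure (Set.range (fun i : ℕ => ((ζ : F) ^ 3) ^ i)) = ⊤ := by
  classical
  set A := AddSubgroup.closure (Set.range (fun i : ℕ => ((ζ : F) ^ 3) ^ i)) with hA
  have hset : (Set.range (fun i : ℕ => ((ζ : F) ^ 3) ^ i)) = (Submonoid.powers ((ζ : F) ^ 3) : Set F) := by
    ext x; rfl
  have hmem : ∀ x, x ∈ A ↔ x ∈ Subring.closure (Submonoid.powers ((ζ : F) ^ 3) : Set F) := by
    intro x
    rw [Subring.mem_closure_iff, Submonoid.closure_eq, hA, hset]
  have hmul : ∀ x ∈ A, ∀ y ∈ A, x * y ∈ A := by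
    intro x hx y hy
    rw [hmem] at hx hy ⊢
    exact Subring.mul_mem _ hx hy
  have h1 : (1 : F) ∈ A := by rw [hmem]; exact Subring.one_mem _
  have hpow : ∀ x ∈ A, ∀ n : ℕ, x ^ n ∈ A := by
    intro x hx n
    rw [hmem] at hx ⊢
    exact Subring.pow_mem _ hx n
  set q := Fintype.card F with hq
  have hq1 : 1 < q := Fintype.one_lt_card
  have hinv : ∀ x ∈ A, x⁻¹ ∈ A := by
    intro x hx
    by_cases h0 : x = 0
    · rw [h0, inv_zero]; exact A.zero_mem
    · have : x⁻¹ = x ^ (q - 2) := by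
        apply inv_eq_of_mul_eq_one_right
        rw [← pow_succ']
        have h2 := FiniteField.pow_card_sub_one_eq_one x h0
        rw [← hq] at h2
        rwa [show q - 2 + 1 = q - 1 by omega]
      rw [this]
      exact hpow x hx _
  by_contra hne
  obtain ⟨x, hx⟩ : ∃ x, x ∉ A := by
    by_contra hcon
    push Not at hcon
    exact hne (by rw [eq_top_iff]; exact fun x _ => hcon x)
  -- `|A|^2 ≤ q`
  set k := Nat.card A with hk
  have hkq : k * k ≤ q := by
    have hinj : Function.Injective (fun z : A × A => (z.1 : F) + (z.2 : F) * x) := by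
      rintro ⟨a, b⟩ ⟨a', b'⟩ hab
      simp only at hab
      have hb : (b : F) = b' := by
        by_contra hb
        apply hx
        have hb' : (b : F) - b' ≠ 0 := sub_ne_zero.2 hb
        have : x = ((a' : F) - a) * ((b : F) - b')⁻¹ := by
          rw [eq_mul_inv_iff_mul_eq₀ hb']
          linear_combination hab
        rw [this]
        exact hmul _ (A.sub_mem a'.2 a.2) _ (hinv _ (A.sub_mem b.2 b'.2))
      have ha : (a : F) = a' := by rw [hb] at hab; exact add_right_cancel hab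
      exact Prod.ext (Subtype.ext ha) (Subtype.ext hb)
    have := Nat.card_le_card_of_injective _ hinj
    rw [Nat.card_prod, Nat.card_eq_fintype_card (α := F)] at this
    exact this
  -- `q ≤ 3 (k - 1) + 1`
  have hord : orderOf ζ = q - 1 := order_gen hζ rfl
  have hk2 : orderOf (ζ ^ 3) + 1 ≤ k := by
    let f : Option (Subgroup.zpowers (ζ ^ 3)) → A := fun o => match o with
      | none => 0
      | some g => ⟨((g : Fˣ) : F), by
          obtain ⟨n, hn⟩ := (Subgroup.mem_zpowers_iff.1 g.2)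
          rw [← hn]
          rcases n with n | n
          · rw [Int.ofNat_eq_natCast, zpow_natCast, Units.val_pow_eq_pow_val, Units.val_pow_eq_pow_val]
            exact AddSubgroup.subset_closure ⟨n, rfl⟩
          · rw [zpow_negSucc, Units.val_inv_eq_inv_val, Units.val_pow_eq_pow_val, Units.val_pow_eq_pow_val]
            exact hinv _ (AddSubgroup.subset_closure ⟨n + 1, rfl⟩)⟩
    have hf : Function.Injective f := by
      rintro (_ | g) (_ | g') hgg
      · rfl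
      · have := congrArg Subtype.val hgg
        exact absurd this.symm (Units.ne_zero _)
      · have := congrArg Subtype.val hgg
        exact absurd this (Units.ne_zero _)
      · have := congrArg Subtype.val hgg
        exact congrArg some (Subtype.ext (Units.ext this))
    have h2 := Nat.card_le_card_of_injective f hf
    rw [Nat.card_eq_fintype_card (α := Option _), Fintype.card_option, ← Nat.card_eq_fintype_card, Nat.card_zpowers] at h2
    exact h2
  have hk3 : q ≤ 3 * (k - 1) + 1 := by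
    have h2 : orderOf (ζ ^ 3) = (q - 1) / Nat.gcd (q - 1) 3 := by rw [orderOf_pow, hord]
    have h3 : Nat.gcd (q - 1) 3 ≤ 3 := Nat.gcd_le_right _ (by norm_num)
    have h5 : (q - 1) / Nat.gcd (q - 1) 3 * Nat.gcd (q - 1) 3 = q - 1 := Nat.div_mul_cancel (Nat.gcd_dvd_left _ _)
    rw [h2] at hk2
    have h6 : q - 1 ≤ (q - 1) / Nat.gcd (q - 1) 3 * 3 := by
      calc q - 1 = (q - 1) / Nat.gcd (q - 1) 3 * Nat.gcd (q - 1) 3 := h5.symm
        _ ≤ _ := Nat.mul_le_mul_left _ h3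
    omega
  have hkd : k ∣ q := by
    rw [hk, hq, ← Nat.card_eq_fintype_card]
    exact AddSubgroup.card_addSubgroup_dvd_card A
  obtain ⟨m, hm⟩ := hkd
  have hk0 : 1 < k := by
    have : 0 < orderOf (ζ ^ 3) := orderOf_pos _
    omega
  have hm2 : m ≤ 2 := by
    by_contra hcon
    push Not at hcon
    have : k * 3 ≤ k * m := Nat.mul_le_mul_left _ hcon
    omega
  have hk4 : k ≤ m := by
    rw [hm] at hkq
    exact Nat.le_of_mul_le_mul_left hkq (by omega)
  have : k = 2 := by omega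
  have : m = 2 := by omega
  apply h4
  rw [hm]
  subst_vars
  omega

variable {G : Type*} [Group G] {F : Type*} [Field F]

namespace C3

variable {ζ : Fˣ} {mz : ℕ} {u h t c : G} {y : F → G} (d : C3 ζ mz u h t c y)

include d

theorem zero : y 0 = 1 := by
  have := d.y2.add 0 0
  rw [add_zero] at this
  exact left_eq_mul.1 this

theorem zero12 : x12 c y 0 = 1 := by unfold x12; rw [d.zero]; group
theorem zero10 : x10 t y 0 = 1 := by unfold x10; rw [neg_zero, d.zero]; group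
theorem zero02 : x02 t c y 0 = 1 := by unfold x02; rw [d.zero10]; group

/-- from the full commutator relation -/
theorem rel3_of_com (com : ∀ a b, y a * x12 c y b * (y a)⁻¹ * (x12 c y b)⁻¹ = x02 t c y (a * b)) : Rel3 t c y := by
  refine ⟨com, ?_, ?_⟩
  · intro a b
    have h1 := com (a + b) 1
    have h2 := com b 1
    have h3 := com a 1
    rw [mul_one] at h1 h2 h3
    rw [d.y2.add, add_comm a b, d.add02] at h1
    have e : y a * y b * x12 c y 1 * (y a * y b)⁻¹ * (x12 c y 1)⁻¹ =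
        (y a * (y b * x12 c y 1 * (y b)⁻¹ * (x12 c y 1)⁻¹) * (y a)⁻¹) * (y a * x12 c y 1 * (y a)⁻¹ * (x12 c y 1)⁻¹) := by group
    rw [e, h2, h3] at h1
    have h4 := mul_right_cancel h1
    rw [mul_inv_eq_iff_eq_mul] at h4
    exact h4
  · intro a b
    have h1 := com 1 (b + a)
    have h2 := com 1 a
    have h3 := com 1 b
    rw [one_mul] at h1 h2 h3
    rw [d.add12, d.add02] at h1
    have e : y 1 * (x12 c y b * x12 c y a) * (y 1)⁻¹ * (x12 c y b * x12 c y a)⁻¹ =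
        (y 1 * x12 c y b * (y 1)⁻¹ * (x12 c y b)⁻¹) * (x12 c y b * (y 1 * x12 c y a * (y 1)⁻¹ * (x12 c y a)⁻¹) * (x12 c y b)⁻¹) := by
      group
    rw [e, h2, h3] at h1
    have h4 := mul_left_cancel h1
    rw [mul_inv_eq_iff_eq_mul] at h4
    exact h4.symm

/-- `[x_01(a), x_12(1)] = x_02(a)` for all `a` is enough. -/
theorem rel3_of_one [Fintype F] (hζ : ∀ x : Fˣ, x ∈ Subgroup.zpowers ζ)
    (com : ∀ a, a ≠ 0 → y a * x12 c y 1 * (y a)⁻¹ * (x12 c y 1)⁻¹ = x02 t c y a) : Rel3 t c y := by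
  apply d.rel3_of_com
  intro a b
  by_cases ha : a = 0
  · rw [ha, zero_mul, d.zero, d.zero02]; group
  by_cases hb : b = 0
  · rw [hb, mul_zero, d.zero12, d.zero02]; group
  obtain ⟨n, hn⟩ := Subgroup.mem_zpowers_iff.1 (hζ (Units.mk0 b hb))
  have h1 := (Act.zpow d.a01_01 (-n)) (a * b ^ 2)
  have h2 := (Act.zpow d.a01_12 (-n)) 1
  have h3 := (Act.zpow d.a01_02 (-n)) (a * b ^ 2)
  have e1 : ((((ζ ^ 2) ^ (-n) : Fˣ)) : F) * (a * b ^ 2) = a := by
    have : (ζ ^ 2) ^ (-n) = ((Units.mk0 b hb) ^ 2)⁻¹ := by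
      rw [← hn, zpow_neg, ← zpow_natCast, ← zpow_natCast, ← zpow_mul, ← zpow_mul, mul_comm]
    rw [this, Units.val_inv_eq_inv_val, Units.val_pow_eq_pow_val, Units.val_mk0]
    field_simp
  have e2 : (((ζ⁻¹ ^ (-n) : Fˣ)) : F) * 1 = b := by
    have : ζ⁻¹ ^ (-n) = Units.mk0 b hb := by rw [← hn, inv_zpow, zpow_neg, inv_inv]
    rw [this, Units.val_mk0, mul_one]
  have e3 : (((ζ ^ (-n) : Fˣ)) : F) * (a * b ^ 2) = a * b := by
    have : ζ ^ (-n) = (Units.mk0 b hb)⁻¹ := by rw [← hn, zpow_neg]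
    rw [this, Units.val_inv_eq_inv_val, Units.val_mk0]
    field_simp
  rw [e1] at h1
  rw [e2] at h2
  rw [e3] at h3
  exact d.com_conj h1 h2 h3 (com _ (mul_ne_zero ha (pow_ne_zero 2 hb)))

/-- the torus acting on a pair -/
theorem rel3_of_two [Fintype F] (hζ : ∀ x : Fˣ, x ∈ Subgroup.zpowers ζ) (h4 : Fintype.card F ≠ 4)
    (r1 : y 1 * x12 c y 1 * (y 1)⁻¹ * (x12 c y 1)⁻¹ = x02 t c y 1) (r2 : Commute (y 1) (x02 t c y 1)) : Rel3 t c y := by
  have hspan := cubes_span h4 hζ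
  -- torus elements
  have T1 : ∀ i j : ℤ, Act (h ^ i * (c * h * c⁻¹) ^ j) (ζ ^ (2 * i - j)) y := fun i j =>
    Act.congr ((Act.zpow d.a01_01 i).mul (Act.zpow d.a12_01 j)) (by
      rw [← zpow_natCast, ← zpow_mul, inv_zpow, ← zpow_neg, ← zpow_add]; congr 1)
  have T2 : ∀ i j : ℤ, Act (h ^ i * (c * h * c⁻¹) ^ j) (ζ ^ (-i + 2 * j)) (x12 c y) := fun i j =>
    Act.congr ((Act.zpow d.a01_12 i).mul (Act.zpow d.a12_12 j)) (by
      rw [← zpow_natCast, ← zpow_mul, inv_zpow, ← zpow_neg, ← zpow_add]; congr 1)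
  have T3 : ∀ i j : ℤ, Act (h ^ i * (c * h * c⁻¹) ^ j) (ζ ^ (i + j)) (x02 t c y) := fun i j =>
    Act.congr ((Act.zpow d.a01_02 i).mul (Act.zpow d.a12_02 j)) (by rw [← zpow_add])
  have hcube : ∀ (m : ℕ), ((ζ : F) ^ 3) ^ m = ((ζ ^ ((3 * m : ℕ) : ℤ) : Fˣ) : F) := by
    intro m
    rw [zpow_natCast, Units.val_pow_eq_pow_val, pow_mul]
  have hexp : ∀ b : F, b ≠ 0 → ∃ n : ℤ, b = ((ζ ^ n : Fˣ) : F) := by
    intro b hb
    obtain ⟨n, hn⟩ := Subgroup.mem_zpowers_iff.1 (hζ (Units.mk0 b hb))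
    exact ⟨n, by rw [hn, Units.val_mk0]⟩
  -- additive induction
  have ind : ∀ (P : F → Prop) (b : F), b ≠ 0 → P 0 → (∀ x z, P x → P z → P (x + z)) → (∀ x, P x → P (-x)) →
      (∀ m : ℕ, P (b * ((ζ : F) ^ 3) ^ m)) → ∀ a, P a := by
    intro P b hb h0 hadd hneg hm a
    have h1 : b⁻¹ * a ∈ AddSubgroup.closure (Set.range (fun i : ℕ => ((ζ : F) ^ 3) ^ i)) := by rw [hspan]; trivial
    have h2 : P (b * (b⁻¹ * a)) := by
      refine AddSubgroup.closure_induction (p := fun x _ => P (b * x)) ?_ ?_ ?_ ?_ h1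
      · rintro _ ⟨m, rfl⟩; exact hm m
      · rw [mul_zero]; exact h0
      · intro x z _ _ hx hz; rw [mul_add]; exact hadd _ _ hx hz
      · intro x _ hx; rw [mul_neg]; exact hneg _ hx
    rwa [mul_inv_cancel_left₀ hb] at h2
  have neg : ∀ x, y (-x) = (y x)⁻¹ := by
    intro x
    rw [eq_inv_iff_mul_eq_one, ← d.y2.add, neg_add_cancel, d.zero]
  have row : ∀ a b, Commute (y a) (x02 t c y b) := by
    intro a b
    by_cases hb : b = 0
    · rw [hb, d.zero02]; exact Commute.one_right _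
    obtain ⟨β, hβ⟩ := hexp b hb
    refine ind (fun a => Commute (y a) (x02 t c y b)) b⁻¹ (inv_ne_zero hb) (by rw [d.zero]; exact Commute.one_left _)
      (fun x z hx hz => by rw [d.y2.add]; exact hx.mul_left hz) (fun x hx => by rw [neg]; exact hx.inv_left) ?_ a
    intro m
    have e1 := T1 m (β - m) 1
    have e3 := T3 m (β - m) 1
    rw [mul_one] at e1 e3
    have f1 : b⁻¹ * ((ζ : F) ^ 3) ^ m = ((ζ ^ (2 * (m : ℤ) - (β - m)) : Fˣ) : F) := by
      rw [hβ, hcube, ← Units.val_inv_eq_inv_val, ← Units.val_mul, ← zpow_neg, ← zpow_add]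
      congr 2
      push_cast
      ring
    have f3 : b = ((ζ ^ ((m : ℤ) + (β - m)) : Fˣ) : F) := by rw [hβ]; congr 2; ring
    rw [f1]
    rw [f3]
    exact d.cm_conj e1 e3 r2
  apply d.rel3_of_com
  intro a b
  by_cases hb : b = 0
  · rw [hb, mul_zero, d.zero12, d.zero02]; group
  obtain ⟨β, hβ⟩ := hexp b hb
  refine ind (fun a => y a * x12 c y b * (y a)⁻¹ * (x12 c y b)⁻¹ = x02 t c y (a * b)) b hb ?_ ?_ ?_ ?_ a
  · rw [zero_mul, d.zero, d.zero02]; group
  · intro x z hx hz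
    have e : y (x + z) * x12 c y b * (y (x + z))⁻¹ * (x12 c y b)⁻¹ =
        (y x * (y z * x12 c y b * (y z)⁻¹ * (x12 c y b)⁻¹) * (y x)⁻¹) * (y x * x12 c y b * (y x)⁻¹ * (x12 c y b)⁻¹) := by
      rw [d.y2.add]; group
    rw [e, hx, hz, (row x _).eq, mul_inv_cancel_right, ← d.add02, ← add_mul, add_comm z x]
  · intro x hx
    have e : y (-x) * x12 c y b * (y (-x))⁻¹ * (x12 c y b)⁻¹ =
        ((y x)⁻¹ * (y x * x12 c y b * (y x)⁻¹ * (x12 c y b)⁻¹) * y x)⁻¹ := by
      rw [neg]; group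
    have e2 : (y x)⁻¹ * x02 t c y (x * b) * y x = x02 t c y (x * b) := by
      rw [mul_assoc, ← (row x _).eq, inv_mul_cancel_left]
    have e3 : x02 t c y (-(x * b)) = (x02 t c y (x * b))⁻¹ := by
      rw [eq_inv_iff_mul_eq_one, ← d.add02, neg_add_cancel, d.zero02]
    rw [e, hx, e2, neg_mul, e3]
  · intro m
    have e1 := T1 (β + 2 * m) (β + m) 1
    have e2 := T2 (β + 2 * m) (β + m) 1
    have e3 := T3 (β + 2 * m) (β + m) 1
    rw [mul_one] at e1 e2 e3
    have f1 : b * ((ζ : F) ^ 3) ^ m = ((ζ ^ (2 * (β + 2 * (m : ℤ)) - (β + m)) : Fˣ) : F) := by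
      rw [hβ, hcube, ← Units.val_mul, ← zpow_add]
      congr 2
      push_cast
      ring
    have f2 : b = ((ζ ^ (-(β + 2 * (m : ℤ)) + 2 * (β + m)) : Fˣ) : F) := by rw [hβ]; congr 2; ring
    have f3 : b * ((ζ : F) ^ 3) ^ m * b = ((ζ ^ (β + 2 * (m : ℤ) + (β + m)) : Fˣ) : F) := by
      rw [hβ, hcube, ← Units.val_mul, ← zpow_add, ← Units.val_mul, ← zpow_add]
      congr 2
      push_cast
      ring
    rw [f3]
    rw [f1]
    rw [← f2] at e2
    exact d.com_conj e1 e2 e3 r1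

/-- the order bound -/
theorem bound [Fintype F] (r : Rel3 t c y) (hgen : Subgroup.closure {u, h, t, c} = ⊤) :
    Finite G ∧ Nat.card G ≤ Nat.card (Matrix.SpecialLinearGroup (Fin 3) F) := by
  have hst := St0_of_isSt (d.isSt r)
  have hSt : St (XX t c y) := hst.toSt (fun i j => by
    have : ∀ i j : Fin 3, ∃ k, k ≠ i ∧ k ≠ j := by decide
    exact this i j)
  refine card_le (by norm_num) hSt ?_
  set N : Subgroup G := cl (XX t c y) (fun _ _ => True) with hN
  have hXN : ∀ i j, i ≠ j → ∀ a, XX t c y i j a ∈ N := fun i j hij a => mem_cl hij trivial a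
  have h01 : ∀ a, y a ∈ N := hXN 0 1 (by decide)
  have h02 : ∀ a, x02 t c y a ∈ N := hXN 0 2 (by decide)
  have h10 : ∀ a, x10 t y a ∈ N := hXN 1 0 (by decide)
  have h12 : ∀ a, x12 c y a ∈ N := hXN 1 2 (by decide)
  have h20 : ∀ a, x20 c y a ∈ N := hXN 2 0 (by decide)
  have h21 : ∀ a, x21 t c y a ∈ N := hXN 2 1 (by decide)
  have hstab : ∀ g : G, (∀ a, g * y a * g⁻¹ ∈ N) → (∀ a, g * x02 t c y a * g⁻¹ ∈ N) → (∀ a, g * x10 t y a * g⁻¹ ∈ N) →
      (∀ a, g * x12 c y a * g⁻¹ ∈ N) → (∀ a, g * x20 c y a * g⁻¹ ∈ N) → (∀ a, g * x21 t c y a * g⁻¹ ∈ N) → ∀ x ∈ N, g * x * g⁻¹ ∈ N := by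
    intro g k1 k2 k3 k4 k5 k6 x hx
    refine conj_mem (Q := fun _ _ => True) (fun i j hij _ a => ?_) hx
    fin_cases i <;> fin_cases j <;> first | exact absurd rfl hij | skip
    · exact k1 a
    · exact k2 a
    · exact k3 a
    · exact k4 a
    · exact k5 a
    · exact k6 a
  have hact : ∀ g : G, (∃ c', Act g c' y) → (∃ c', Act g c' (x02 t c y)) → (∃ c', Act g c' (x10 t y)) → (∃ c', Act g c' (x12 c y)) →
      (∃ c', Act g c' (x20 c y)) → (∃ c', Act g c' (x21 t c y)) → g ∈ Subgroup.normalizer (N : Set G) := by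
    rintro g ⟨c1, k1⟩ ⟨c2, k2⟩ ⟨c3, k3⟩ ⟨c4, k4⟩ ⟨c5, k5⟩ ⟨c6, k6⟩
    rw [Subgroup.mem_normalizer_iff]
    intro x
    refine ⟨fun hx => hstab g (fun a => by rw [k1]; exact h01 _) (fun a => by rw [k2]; exact h02 _) (fun a => by rw [k3]; exact h10 _)
      (fun a => by rw [k4]; exact h12 _) (fun a => by rw [k5]; exact h20 _) (fun a => by rw [k6]; exact h21 _) x hx, fun hx => ?_⟩
    have := hstab g⁻¹ (fun a => by rw [k1.inv]; exact h01 _) (fun a => by rw [k2.inv]; exact h02 _) (fun a => by rw [k3.inv]; exact h10 _)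
      (fun a => by rw [k4.inv]; exact h12 _) (fun a => by rw [k5.inv]; exact h20 _) (fun a => by rw [k6.inv]; exact h21 _) _ hx
    have e : g⁻¹ * (g * x * g⁻¹) * g⁻¹⁻¹ = x := by group
    rwa [e] at this
  have hfin : ∀ g : G, (∀ x ∈ N, g * x * g⁻¹ ∈ N) → (∀ x ∈ N, g⁻¹ * x * g⁻¹⁻¹ ∈ N) → g ∈ Subgroup.normalizer (N : Set G) := by
    intro g k1 k2
    rw [Subgroup.mem_normalizer_iff]
    intro x
    refine ⟨fun hx => k1 x hx, fun hx => ?_⟩
    have := k2 _ hx
    have e : g⁻¹ * (g * x * g⁻¹) * g⁻¹⁻¹ = x := by group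
    rwa [e] at this
  have hcN : ∀ x ∈ N, c * x * c⁻¹ ∈ N :=
    hstab c (fun a => by rw [c_01]; exact h12 _) (fun a => by rw [c_02]; exact h10 _) (fun a => by rw [c_10]; exact h21 _)
      (fun a => by rw [d.c_12]; exact h20 _) (fun a => by rw [c_20]; exact h01 _) (fun a => by rw [d.c_21]; exact h02 _)
  have htN : ∀ x ∈ N, t * x * t⁻¹ ∈ N :=
    hstab t (fun a => by rw [d.t_01]; exact h10 _) (fun a => by rw [d.t_02]; exact h12 _) (fun a => by rw [d.t_10]; exact h01 _)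
      (fun a => by rw [d.t_12]; exact h02 _) (fun a => by rw [d.t_20]; exact h21 _) (fun a => by rw [d.t_21]; exact h20 _)
  have hhN : h ∈ Subgroup.normalizer (N : Set G) :=
    hact h ⟨_, d.a01_01⟩ ⟨_, d.a01_02⟩ ⟨_, d.a01_10⟩ ⟨_, d.a01_12⟩ ⟨_, d.a01_20⟩ ⟨_, d.a01_21⟩
  have hc1 : c⁻¹ = c * c := d.cc.symm
  have ht1 : t⁻¹ = (h ^ mz)⁻¹ * t := by rw [← d.z, sq]; group
  have hnorm : N.Normal := by
    rw [← Subgroup.normalizer_eq_top_iff, eq_top_iff, ← hgen, Subgroup.closure_le]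
    have hcn : c ∈ Subgroup.normalizer (N : Set G) := hfin c hcN (fun x hx => by
      have h1 := hcN _ (hcN x hx)
      rw [hc1]
      have e : c * (c * x * c⁻¹) * c⁻¹ = c * c * x * (c * c)⁻¹ := by group
      rwa [e] at h1)
    have htn : t ∈ Subgroup.normalizer (N : Set G) := hfin t htN (fun x hx => by
      have h1 := htN x hx
      have h2 := (Subgroup.mem_normalizer_iff.1 (Subgroup.inv_mem _ (Subgroup.pow_mem _ hhN mz)) _).1 h1
      have e : (h ^ mz)⁻¹ * (t * x * t⁻¹) * (h ^ mz)⁻¹⁻¹ = ((h ^ mz)⁻¹ * t) * x * ((h ^ mz)⁻¹ * t)⁻¹ := by group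
      rw [e, ← ht1] at h2
      exact h2)
    rintro g (rfl | rfl | rfl | hg)
    · rw [← d.y2.one]
      exact Subgroup.le_normalizer (h01 _)
    · exact hhN
    · exact htn
    · rw [Set.mem_singleton_iff] at hg
      rw [hg]; exact hcn
  have huN : u ∈ N := by rw [← d.y2.one]; exact h01 1
  have htN' : t ∈ N := by
    have h1 : t * u * t⁻¹ ∈ N := htN u huN
    rw [d.A] at h1
    have h2 := N.mul_mem (N.mul_mem huN h1) huN
    have e : u * (u⁻¹ * t * u⁻¹) * u = t := by group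
    rwa [e] at h2
  have hcN' : c ∈ N := by
    have h1 : (t * c⁻¹) ^ 2 ∈ N := by rw [d.s2]; exact N.one_mem
    have h2 : ((t * c⁻¹) ^ 2 : G) = t * (c⁻¹ * t * c⁻¹⁻¹) * (c⁻¹ * c⁻¹) := by rw [sq]; group
    rw [h2, d.cci] at h1
    have h3 : c⁻¹ * t * c⁻¹⁻¹ ∈ N := Subgroup.Normal.conj_mem hnorm t htN' _
    exact ((N.mul_mem_cancel_left (N.mul_mem htN' h3)).1 h1)
  have hhN' : h ∈ N := by
    rw [← QuotientGroup.eq_one_iff]
    have e1 : ((t : G) : G ⧸ N) = 1 := (QuotientGroup.eq_one_iff _).2 htN'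
    have e2 : ((c : G) : G ⧸ N) = 1 := (QuotientGroup.eq_one_iff _).2 hcN'
    have e3 := congrArg (fun x : G => (x : G ⧸ N)) d.ht
    have e4 := congrArg (fun x : G => (x : G ⧸ N)) d.prod
    simp only [QuotientGroup.mk_mul, QuotientGroup.mk_one, QuotientGroup.mk_inv, e1, e2, inv_one, mul_one, one_mul] at e3 e4
    have e5 : (h : G ⧸ N) * (h : G ⧸ N) = 1 := by
      nth_rw 2 [e3]
      exact mul_inv_cancel _
    rwa [e5, one_mul] at e4
  rw [eq_top_iff, ← hgen, Subgroup.closure_le]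
  rintro g (rfl | rfl | rfl | hg)
  · exact huN
  · exact hhN'
  · exact htN'
  · rw [Set.mem_singleton_iff] at hg
    rw [hg]; exact hcN'

end C3

end Cfsg.Agent.Lib.PresSL3
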