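import Cfsg.Agent.Lib.PresSp2
import Cfsg.Agent.S2286

/-! Presentations of `Sp_{2n}` and `PSp_{2n}` (helper38). -/

set_option autoImplicit false

namespace Cfsg.Agent.Lib.PresSp

open Equiv Matrix Cfsg.Agent.Lib.PresBC Cfsg.Agent.Lib.PresWr Cfsg.Agent.Lib.ClIso Cfsg.Agent.Lib.ClSymp Cfsg.Agent.Lib.ClSymp2
  Cfsg.Agent.Lib.PresSpMod Cfsg.Agent.Lib.PresSec Cfsg.Agent.Lib.PresSpCore Cfsg.Agent.Lib.PresHas

variable {F : Type*} [Field F]

theorem hasPres_S2 [Fintype F] : HasPres (S2 F) 3 9 := (Cfsg.Agent.S2286.result (F := F)).1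

theorem hasPres_Sg_two [Fintype F] : HasPres (Sg F 2) 6 32 := by
  obtain ⟨ζ, hζ⟩ := IsCyclic.exists_generator (α := Fˣ)
  have hpq : (0 : Fin 2) ≠ 1 := by decide
  have hw := HasPres.wr (hasPres_S2 (F := F)) (n := 2) le_rfl [] 0 1 hpq (by simp) (by
    intro σ h0
    have : σ = 1 := by
      have h1 : σ 1 = 1 := by
        have h2 : σ 1 ≠ σ 0 := fun h => hpq.symm (σ.injective h)
        rw [h0] at h2
        omega
      ext i
      fin_cases i
      · simp [h0]
      · simp [h1]
    rw [this]; exact one_mem _)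
  obtain ⟨D1, h1⟩ := exists_To (F := F) hpq (a := Sum.inl 1) (b := Sum.inr 0) (by simp [ix]) 1
  obtain ⟨D2, h2⟩ := exists_To (F := F) hpq (a := Sum.inl 1) (b := Sum.inr 0) (by simp [ix]) ζ
  obtain ⟨D3, h3⟩ := exists_To (F := F) hpq (a := Sum.inr 0) (b := Sum.inr 1) (by simp [ix]) 1
  rw [Units.val_one] at h1 h3
  have hn : ∀ i : Fin 2, i = 0 ∨ i = 1 := by decide
  exact HasPres.adjoin hw (L2 ζ 0 1 D1 D2 D3) (hat F 2) (uh 0 1) (L2_iff.2 (model_base hpq h1 h2 h3)) (gen_top hpq) (by
    intro Γ _ δ u π hR htop hπ hu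
    exact (spRel_two (L2_iff.1 hR) hζ hpq hn h1 h2 h3).injective hζ htop π (fun d => by rw [← hπ]; rfl) hu)

theorem hasPres_Sg [Fintype F] {n : ℕ} (hn : 3 ≤ n) : HasPres (Sg F n) 6 46 := by
  classical
  obtain ⟨ζ, hζ⟩ := IsCyclic.exists_generator (α := Fˣ)
  let p : Fin n := ⟨0, by omega⟩
  let q : Fin n := ⟨1, by omega⟩
  let r : Fin n := ⟨2, by omega⟩
  have hpq : p ≠ q := by simp [p, q]
  have hrp : r ≠ p := by simp [p, r]
  have hrq : r ≠ q := by simp [q, r]
  obtain ⟨α₀, β₀, ha₀, hb₀, hab₀⟩ := exists_stab (n := n) (fun i => i ≠ p)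
  have hw := HasPres.wr (hasPres_S2 (F := F)) (n := n) (by omega) [α₀, β₀] p q hpq (by
    intro σ hσ
    rw [List.mem_pair] at hσ
    rcases hσ with rfl | rfl
    · exact ha₀ p (by simp)
    · exact hb₀ p (by simp)) (by
    intro σ h0
    have := hab₀ σ (fun x hx => by
      have : x = p := by simpa using hx
      rw [this, h0])
    refine Subgroup.closure_mono ?_ this
    rintro x (rfl | hx)
    · exact List.mem_pair.2 (Or.inl rfl)
    · exact List.mem_pair.2 (Or.inr hx))
  obtain ⟨α, β, ha, hb, hab⟩ := exists_stab (n := n) (fun i => i ≠ p ∧ i ≠ q)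
  have ha1 : α p = p ∧ α q = q := ⟨ha p (by simp), ha q (by simp)⟩
  have hb1 : β p = p ∧ β q = q := ⟨hb p (by simp), hb q (by simp)⟩
  have hab1 : ∀ σ : Perm (Fin n), σ p = p → σ q = q → σ ∈ Subgroup.closure ({α, β} : Set (Perm (Fin n))) := by
    intro σ h0 h1
    refine hab σ (fun x hx => ?_)
    by_cases hxp : x = p
    · rw [hxp, h0]
    · by_cases hxq : x = q
      · rw [hxq, h1]
      · exact absurd ⟨hxp, hxq⟩ hx
  obtain ⟨x, hx⟩ := (hasPres_S2 (F := F)).gens
  obtain ⟨D1, h1⟩ := exists_To (F := F) hpq (a := Sum.inl q) (b := Sum.inr p) (by simpa [ix] using hpq.symm) 1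
  obtain ⟨D2, h2⟩ := exists_To (F := F) hpq (a := Sum.inl q) (b := Sum.inr p) (by simpa [ix] using hpq.symm) ζ
  obtain ⟨D3, h3⟩ := exists_To (F := F) hpq (a := Sum.inr p) (b := Sum.inr q) (by simpa [ix] using hpq) 1
  obtain ⟨D4, h4⟩ := exists_To (F := F) hpq (a := Sum.inl r) (b := Sum.inr p) (by simpa [ix] using hrp) 1
  obtain ⟨D5, h5⟩ := exists_To (F := F) hpq (a := Sum.inl q) (b := Sum.inl r) (by simpa [ix] using hrq.symm) 1
  obtain ⟨D6, h6⟩ := exists_To (F := F) hpq (a := Sum.inl p) (b := Sum.inl r) (by simpa [ix] using hrp.symm) 1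
  rw [Units.val_one] at h1 h3 h4 h5 h6
  have hlen3 : (L3 x α β r D4 D5 D6).length = 7 := by simp [L3]
  by_cases h3n : n = 3
  · have hno : ∀ s : Fin n, s ≠ p → s ≠ q → s = r := by
      intro s hsp hsq
      have := s.2
      apply Fin.ext
      have h1 : s.1 ≠ 0 := fun h => hsp (Fin.ext h)
      have h2 : s.1 ≠ 1 := fun h => hsq (Fin.ext h)
      show s.1 = 2
      omega
    have key := HasPres.adjoin hw (L2 ζ p q D1 D2 D3 ++ L3 x α β r D4 D5 D6) (hat F n) (uh p q) (by
      intro w hw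
      rcases List.mem_append.1 hw with hw | hw
      · exact L2_iff.2 (model_base hpq h1 h2 h3) w hw
      · exact (L3_iff hx ha1 hb1 hab1).2 (model_ext3 hpq hrp hrq h4 h5 h6) w hw) (gen_top hpq) (by
      intro Γ _ δ u π hR htop hπ hu
      have hb := L2_iff.1 (fun w hw => hR w (List.mem_append.2 (Or.inl hw)))
      have he := (L3_iff hx ha1 hb1 hab1).1 (fun w hw => hR w (List.mem_append.2 (Or.inr hw)))
      refine (spRel_of hb hζ hpq h1 h2 h3 hrp hrq he h4 h5 h6 ?_).injective hζ htop π (fun d => by rw [← hπ]; rfl) hu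
      intro _ a b hap haq hbp hbq hab
      exact absurd ((hno a hap haq).trans (hno b hbp hbq).symm) hab)
    refine HasPres.mono key ?_
    rw [List.length_append, hlen3]
    simp [L2]
  · let s : Fin n := ⟨3, by omega⟩
    have hsp : s ≠ p := by simp [p, s]
    have hsq : s ≠ q := by simp [q, s]
    have hrs : r ≠ s := by simp [r, s]
    obtain ⟨D7, h7⟩ := exists_To (F := F) hpq (a := Sum.inl r) (b := Sum.inl s) (by simpa [ix] using hrs) 1
    rw [Units.val_one] at h7
    have key := HasPres.adjoin hw (L2 ζ p q D1 D2 D3 ++ (L3 x α β r D4 D5 D6 ++ L4 D7)) (hat F n) (uh p q) (by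
      intro w hw
      rcases List.mem_append.1 hw with hw | hw
      · exact L2_iff.2 (model_base hpq h1 h2 h3) w hw
      · rcases List.mem_append.1 hw with hw | hw
        · exact (L3_iff hx ha1 hb1 hab1).2 (model_ext3 hpq hrp hrq h4 h5 h6) w hw
        · exact L4_iff.2 (model_ext4 hrs h7) w hw) (gen_top hpq) (by
      intro Γ _ δ u π hR htop hπ hu
      have hb := L2_iff.1 (fun w hw => hR w (List.mem_append.2 (Or.inl hw)))
      have he := (L3_iff hx ha1 hb1 hab1).1 (fun w hw => hR w (List.mem_append.2 (Or.inr (List.mem_append.2 (Or.inl hw)))))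
      have he4 := L4_iff.1 (fun w hw => hR w (List.mem_append.2 (Or.inr (List.mem_append.2 (Or.inr hw)))))
      exact (spRel_of hb hζ hpq h1 h2 h3 hrp hrq he h4 h5 h6 (fun st => re_of hrp hrq hsp hsq hrs st he4 h7)).injective hζ htop π (fun d => by rw [← hπ]; rfl) hu)
    refine HasPres.mono key ?_
    rw [List.length_append, List.length_append, hlen3]
    simp [L2, L4]

theorem center_gen (n : ℕ) (hn : 0 < n) : ∃ z : Matrix.symplecticGroup (Fin n) F, Subgroup.center (Matrix.symplecticGroup (Fin n) F) = Subgroup.zpowers z := by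
  haveI : Nonempty (Fin n) := ⟨⟨0, hn⟩⟩
  haveI : Nontrivial (VV F n) := inferInstance
  let zn : Sg F n := ⟨LinearEquiv.neg F, by
    intro u v
    show BF F n (-u) (-v) = BF F n u v
    rw [map_neg, map_neg, LinearMap.neg_apply, neg_neg]⟩
  have hzn : ∀ v, (zn : VV F n ≃ₗ[F] VV F n) v = -v := fun v => rfl
  refine ⟨(sympEquiv (Fin n) F).symm zn, ?_⟩
  set e := sympEquiv (Fin n) F with he
  have hmem : ∀ g : Matrix.symplecticGroup (Fin n) F, g ∈ Subgroup.center (Matrix.symplecticGroup (Fin n) F) ↔ (e g : Sg F n) ∈ Subgroup.center (Sg F n) := by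
    intro g
    rw [Subgroup.mem_center_iff, Subgroup.mem_center_iff]
    constructor
    · intro h x
      obtain ⟨y, rfl⟩ := e.surjective x
      have := congrArg e (h y)
      rw [map_mul, map_mul] at this
      exact this
    · intro h x
      apply e.injective
      rw [map_mul, map_mul]
      exact h (e x)
  apply le_antisymm
  · intro g hg
    obtain ⟨c, hc⟩ := (mem_center_iff hBF (e g)).1 ((hmem g).1 hg)
    have h2 := scalar_sq hBF hc
    have h3 : c = 1 ∨ c = -1 := by
      have h4 : (c - 1) * (c + 1) = 0 := by linear_combination h2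
      rcases mul_eq_zero.1 h4 with h | h
      · exact Or.inl (sub_eq_zero.1 h)
      · exact Or.inr (eq_neg_of_add_eq_zero_left h)
    rcases h3 with rfl | rfl
    · have : g = 1 := by
        apply e.injective
        rw [map_one]
        apply Spg_ext
        intro x
        rw [hc, one_smul]; rfl
      rw [this]; exact one_mem _
    · have : g = e.symm zn := by
        apply e.injective
        rw [e.apply_symm_apply]
        apply Spg_ext
        intro x
        rw [hc, neg_smul, one_smul]; rfl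
      rw [this]; exact Subgroup.mem_zpowers _
  · rw [Subgroup.zpowers_le, hmem, e.apply_symm_apply]
    exact (mem_center_iff hBF zn).2 ⟨-1, fun v => by rw [hzn, neg_smul, one_smul]⟩

theorem hasPres_symp {n m r : ℕ} (h : HasPres (Sg F n) m r) : HasPres (Matrix.symplecticGroup (Fin n) F) m r :=
  HasPres.congr h (sympEquiv (Fin n) F).symm

theorem hasPres_psp {n m r : ℕ} (hn : 0 < n) (h : HasPres (Sg F n) m r) : HasPres (Cfsg.PSp n F) m (r + 1) := by
  obtain ⟨z, hz⟩ := center_gen (F := F) n hn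
  exact HasPres.central (hasPres_symp h) _ z hz

end Cfsg.Agent.Lib.PresSp
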