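import Cfsg.Agent.Lib.PresField

/-! Short presentations of Borel subgroups of `SU₃(q)`: abstract bounds (helper18). -/

set_option autoImplicit false

namespace Cfsg.Agent.Lib.PresU3A

open Polynomial Cfsg.Agent.Lib.PresMod Cfsg.Agent.Lib.PresField

variable {G : Type*} [Group G]

theorem conj_pow_conj {a b z : G} (hab : Commute a b) (n : ℕ) :
    b * (a ^ n * z * (a ^ n)⁻¹) * b⁻¹ = a ^ n * (b * z * b⁻¹) * (a ^ n)⁻¹ := by
  have hb1 : b * a ^ n = a ^ n * b := (hab.symm.pow_right _).eq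
  have hb2 : (a ^ n)⁻¹ * b⁻¹ = b⁻¹ * (a ^ n)⁻¹ := ((hab.symm.pow_right n).inv_inv.symm).eq
  calc b * (a ^ n * z * (a ^ n)⁻¹) * b⁻¹ = (b * a ^ n) * z * ((a ^ n)⁻¹ * b⁻¹) := by simp only [mul_assoc]
    _ = _ := by rw [hb1, hb2]; simp only [mul_assoc]

/-- mixed Baumslag trick -/
theorem cross {a b u z c : G} (hab : Commute a b) (h1 : b * u * b⁻¹ = u * (a * u * a⁻¹) * c)
    (h2 : b * z * b⁻¹ = z * (a * z * a⁻¹)) (hc : ∀ n : ℕ, Commute c (a ^ n * z * (a ^ n)⁻¹))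
    (c0 : Commute u z) (c1 : Commute u (a * z * a⁻¹)) : ∀ n : ℕ, Commute u (a ^ n * z * (a ^ n)⁻¹) := by
  have hshift : ∀ n : ℕ, Commute u (a ^ n * z * (a ^ n)⁻¹) →
      Commute (a * u * a⁻¹) (a ^ (n + 1) * z * (a ^ (n + 1))⁻¹) := by
    intro n h
    have := commute_conj a h
    rwa [show a * (a ^ n * z * (a ^ n)⁻¹) * a⁻¹ = a ^ (n + 1) * z * (a ^ (n + 1))⁻¹ by
      rw [pow_succ', mul_inv_rev]; simp only [mul_assoc]] at this
  have hbz : ∀ n : ℕ, b * (a ^ n * z * (a ^ n)⁻¹) * b⁻¹ =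
      (a ^ n * z * (a ^ n)⁻¹) * (a ^ (n + 1) * z * (a ^ (n + 1))⁻¹) := by
    intro n
    rw [conj_pow_conj hab, h2, pow_succ, mul_inv_rev]; simp only [mul_assoc, inv_mul_cancel_left]
  have key : ∀ n : ℕ, Commute u (a ^ n * z * (a ^ n)⁻¹) ∧ Commute u (a ^ (n + 1) * z * (a ^ (n + 1))⁻¹) := by
    intro n
    induction n with
    | zero => exact ⟨by simpa using c0, by simpa using c1⟩
    | succ n ih =>
      refine ⟨ih.2, ?_⟩
      have d1 := hshift _ ih.1
      have d2 := hshift _ ih.2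
      have e2 := commute_conj b ih.2
      rw [hbz, h1] at e2
      have e3 : Commute (u * (a * u * a⁻¹)) ((a ^ (n + 1) * z * (a ^ (n + 1))⁻¹) * (a ^ (n + 1 + 1) * z * (a ^ (n + 1 + 1))⁻¹)) := by
        have hcc := ((hc (n + 1)).mul_right (hc (n + 1 + 1))).inv_left
        have := e2.mul_left hcc
        rwa [mul_inv_cancel_right] at this
      exact commute_aux ih.2 d1 d2 e3
  exact fun n => (key n).1

section fields

variable {K : Type*} [Field K]

theorem exists_Y1 {p : ℕ} {θ : K} {a b z : G} {m : ℤ[X]}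
    (hmin : ∀ f : ℤ[X], aeval θ f = 0 → ∃ r s : ℤ[X], f = (p : ℤ[X]) * r + s * m)
    (hsurj : ∀ x : K, ∃ f : ℤ[X], aeval θ f = x) (hab : Commute a b)
    (h1 : b * z * b⁻¹ = z * (a * z * a⁻¹)) (h2 : Commute z (a * z * a⁻¹)) (h3 : z ^ p = 1)
    (h5 : pw a z m = 1) : ∃ y : K → G, IsY θ a z y := by
  obtain ⟨E, hE⟩ := exists_ev a z (baumslag hab h1 h2)
  apply exists_Y hE hsurj
  intro f hf
  obtain ⟨r, s, rfl⟩ := hmin f hf
  have e1 : E ((p : ℤ[X]) * r) = 1 := by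
    rw [mul_comm]
    apply hE.mul_eq_one
    have := hE.natMul p 1
    rw [mul_one] at this
    rw [this, hE.one, h3]
  have e2 : E (s * m) = 1 := hE.mul_eq_one _ _ (by rw [hE.eq_pw, h5])
  rw [hE.add, e1, e2, mul_one]

theorem isY_scale {θ : K} {a z : G} {y : K → G} (hy : IsY θ a z y) (c : K) : IsY θ a (y c) (fun x => y (c * x)) :=
  ⟨fun x x' => by rw [mul_add, hy.add], by rw [mul_one], fun x => by rw [hy.mul]; congr 1; ring⟩

theorem conj_eq {θ : K} {a z h : G} {y : K → G} (hy : IsY θ a z y) (hsurj : ∀ x : K, ∃ f : ℤ[X], aeval θ f = x)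
    (hah : Commute a h) {z' : G} {y' : K → G} (hy' : IsY θ a z' y') (hz : h * z * h⁻¹ = z') (k : K) :
    h * y k * h⁻¹ = y' k := by
  obtain ⟨f, rfl⟩ := hsurj k
  rw [← hy.pw_eq, ← hy'.pw_eq]
  have h1 := map_pw (MulAut.conj h).toMonoidHom a z f
  have h2 : (MulAut.conj h).toMonoidHom a = a := by
    show h * a * h⁻¹ = a
    rw [← hah.eq, mul_inv_cancel_right]
  have h3 : (MulAut.conj h).toMonoidHom z = z' := hz
  rw [h2, h3] at h1
  exact h1

theorem conj_mul {θ : K} {a z h : G} {y : K → G} (hy : IsY θ a z y) (hsurj : ∀ x : K, ∃ f : ℤ[X], aeval θ f = x)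
    (hah : Commute a h) {c : K} (hz : h * z * h⁻¹ = y c) (k : K) : h * y k * h⁻¹ = y (c * k) :=
  conj_eq hy hsurj hah (isY_scale hy c) hz k

theorem commute_Y {θ : K} {a z : G} {y : K → G} (hy : IsY θ a z y) (hsurj : ∀ x : K, ∃ f : ℤ[X], aeval θ f = x)
    {g : G} (hg : ∀ n : ℕ, Commute g (a ^ n * z * (a ^ n)⁻¹)) (k : K) : Commute g (y k) := by
  obtain ⟨f, rfl⟩ := hsurj k
  rw [← hy.pw_eq]
  unfold pw
  apply Commute.list_prod_right
  intro x hx
  rw [List.mem_map] at hx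
  obtain ⟨n, -, rfl⟩ := hx
  exact (hg n).zpow_right _

/-- the range of `y` as a subgroup -/
def rng {θ : K} {a z : G} {y : K → G} (hy : IsY θ a z y) : Subgroup G where
  carrier := Set.range y
  one_mem' := ⟨0, hy.zero⟩
  mul_mem' := by rintro _ _ ⟨k, rfl⟩ ⟨l, rfl⟩; exact ⟨k + l, hy.add k l⟩
  inv_mem' := by rintro _ ⟨k, rfl⟩; exact ⟨-k, hy.neg k⟩

theorem mem_rng {θ : K} {a z : G} {y : K → G} (hy : IsY θ a z y) {g : G} : g ∈ rng hy ↔ ∃ k, y k = g := Iff.rfl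

theorem card_rng [Fintype K] {θ : K} {a z : G} {y : K → G} (hy : IsY θ a z y) :
    Finite (rng hy) ∧ Nat.card (rng hy) ≤ Fintype.card K := by
  let f : K → rng hy := fun k => ⟨y k, k, rfl⟩
  have hf : Function.Surjective f := by
    rintro ⟨_, k, rfl⟩
    exact ⟨k, rfl⟩
  refine ⟨Finite.of_surjective f hf, ?_⟩
  have := Nat.card_le_card_of_surjective f hf
  rwa [Nat.card_eq_fintype_card (α := K)] at this

theorem pw_mem {θ : K} {a z : G} {y : K → G} (hy : IsY θ a z y) (f : ℤ[X]) : pw a z f ∈ rng hy :=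
  ⟨_, (hy.pw_eq f).symm⟩

theorem rng_normal {θ : K} {a z : G} {y : K → G} (hy : IsY θ a z y) {S : Set G} (hS : Subgroup.closure S = ⊤)
    (h : ∀ s ∈ S, ∃ c : K, c ≠ 0 ∧ ∀ k, s * y k * s⁻¹ = y (c * k)) : (rng hy).Normal := by
  rw [← Subgroup.normalizer_eq_top_iff, eq_top_iff, ← hS, Subgroup.closure_le]
  intro s hs
  obtain ⟨c, hc0, hc⟩ := h s hs
  rw [SetLike.mem_coe, Subgroup.mem_normalizer_iff]
  intro g
  constructor
  · rintro ⟨k, rfl⟩
    exact ⟨c * k, (hc k).symm⟩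
  · rintro ⟨k, hk⟩
    refine ⟨c⁻¹ * k, ?_⟩
    have h1 := hc (c⁻¹ * k)
    rw [mul_inv_cancel_left₀ hc0, hk] at h1
    exact mul_left_cancel (mul_right_cancel h1)

end fields

/-- order of a group with a factorisation `N * ⟨h⟩` -/
theorem bnd_aux {ι : Type*} [Finite ι] (e : ι → G) {h u : G} (n : ℕ) (hn : 0 < n) (hh : h ^ n = 1)
    (h1 : ∃ i, e i = 1) (hu : ∀ (k : ℕ) (i : ι), ∃ i', e i * (h ^ k * u * (h ^ k)⁻¹) = e i')
    (hu' : ∀ (k : ℕ) (i : ι), ∃ i', e i * (h ^ k * u⁻¹ * (h ^ k)⁻¹) = e i')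
    (hgen : Subgroup.closure {h, u} = ⊤) : Finite G ∧ Nat.card G ≤ Nat.card ι * n := by
  have hall : ∀ g : G, ∃ (i : ι) (k : ℕ), g = e i * h ^ k := by
    intro g
    have hg : g ∈ Subgroup.closure {h, u} := by rw [hgen]; exact Subgroup.mem_top g
    induction hg using Subgroup.closure_induction_right with
    | one => obtain ⟨i, hi⟩ := h1; exact ⟨i, 0, by rw [hi]; simp⟩
    | mul_right x _ y hy ih =>
      obtain ⟨i, k, rfl⟩ := ih
      rcases hy with rfl | hy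
      · exact ⟨i, k + 1, by rw [pow_succ, mul_assoc]⟩
      · rw [Set.mem_singleton_iff.1 hy]
        obtain ⟨i', hi'⟩ := hu k i
        exact ⟨i', k, by rw [← hi']; group⟩
    | mul_inv_cancel x _ y hy ih =>
      obtain ⟨i, k, rfl⟩ := ih
      rcases hy with rfl | hy
      · refine ⟨i, k + (n - 1), ?_⟩
        have h2 : y⁻¹ = y ^ (n - 1) := by
          rw [inv_eq_iff_mul_eq_one, ← pow_succ', Nat.sub_add_cancel hn, hh]
        rw [h2, pow_add, mul_assoc]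
      · rw [Set.mem_singleton_iff.1 hy]
        obtain ⟨i', hi'⟩ := hu' k i
        exact ⟨i', k, by rw [← hi']; group⟩
  haveI : NeZero n := ⟨hn.ne'⟩
  let f : ι × Fin n → G := fun p => e p.1 * h ^ (p.2 : ℕ)
  have hf : Function.Surjective f := by
    intro g
    obtain ⟨i, k, rfl⟩ := hall g
    refine ⟨(i, ⟨k % n, Nat.mod_lt _ hn⟩), ?_⟩
    show e i * h ^ (k % n) = _
    congr 1
    conv_rhs => rw [← Nat.mod_add_div k n, pow_add, pow_mul, hh, one_pow, mul_one]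
  refine ⟨Finite.of_surjective f hf, ?_⟩
  have := Nat.card_le_card_of_surjective f hf
  rwa [Nat.card_prod, Nat.card_eq_fintype_card (α := Fin n), Fintype.card_fin] at this

variable {K : Type*} [Field K]

theorem bnd1 [Fintype K] {θ : K} {a h u : G} {y : K → G} (hy : IsY θ a u y) {c : K}
    (hc : ∀ k, h * y k * h⁻¹ = y (c * k)) (n : ℕ) (hn : 0 < n) (hh : h ^ n = 1)
    (hgen : Subgroup.closure {h, u} = ⊤) : Finite G ∧ Nat.card G ≤ Fintype.card K * n := by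
  have hpow : ∀ (k : ℕ) (x : K), h ^ k * y x * (h ^ k)⁻¹ = y (c ^ k * x) := by
    intro k
    induction k with
    | zero => intro x; simp
    | succ k ih =>
      intro x
      rw [pow_succ', mul_inv_rev, show h * h ^ k * y x * ((h ^ k)⁻¹ * h⁻¹) = h * (h ^ k * y x * (h ^ k)⁻¹) * h⁻¹ by
        simp only [mul_assoc], ih, hc, pow_succ', mul_assoc]
  have := bnd_aux (G := G) y n hn hh ⟨0, hy.zero⟩ (fun k i => ⟨i + c ^ k * 1, by rw [← hy.one, hpow, hy.add]⟩)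
    (fun k i => ⟨i + c ^ k * (-1), by rw [← hy.one, ← hy.neg, hpow, hy.add]⟩) hgen
  rwa [Nat.card_eq_fintype_card (α := K)] at this

/-- rank two version -/
theorem bnd2 [Fintype K] {θ : K} {a h u u' : G} {y y' : K → G} (hy : IsY θ a u y) (hy' : IsY θ a u' y')
    (hcomm : ∀ k l, Commute (y k) (y' l)) (hc : ∀ k, h * y k * h⁻¹ = y' k) {c1 c2 : K}
    (hc' : ∀ k, h * y' k * h⁻¹ = y (c1 * k) * y' (c2 * k)) (n : ℕ) (hn : 0 < n) (hh : h ^ n = 1)
    (hgen : Subgroup.closure {h, u} = ⊤) : Finite G ∧ Nat.card G ≤ Fintype.card K * Fintype.card K * n := by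
  have hpow : ∀ (k : ℕ) (x x' : K), ∃ w w' : K, h ^ k * (y x * y' x') * (h ^ k)⁻¹ = y w * y' w' := by
    intro k
    induction k with
    | zero => intro x x'; exact ⟨x, x', by simp⟩
    | succ k ih =>
      intro x x'
      obtain ⟨w, w', e⟩ := ih x x'
      refine ⟨c1 * w', w + c2 * w', ?_⟩
      rw [pow_succ', mul_inv_rev, show h * h ^ k * (y x * y' x') * ((h ^ k)⁻¹ * h⁻¹) = h * (h ^ k * (y x * y' x') * (h ^ k)⁻¹) * h⁻¹ by
        simp only [mul_assoc], e, show h * (y w * y' w') * h⁻¹ = (h * y w * h⁻¹) * (h * y' w' * h⁻¹) by group, hc, hc', hy'.add,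
        ← mul_assoc, ← (hcomm _ _).eq, mul_assoc]
  have hadd : ∀ x x' w w', y x * y' x' * (y w * y' w') = y (x + w) * y' (x' + w') := by
    intro x x' w w'
    rw [hy.add, hy'.add, mul_assoc, ← mul_assoc (y' x'), ← (hcomm w x').eq]
    simp only [mul_assoc]
  have := bnd_aux (G := G) (fun p : K × K => y p.1 * y' p.2) n hn hh ⟨(0, 0), by
      show y 0 * y' 0 = 1
      rw [hy.zero, hy'.zero, one_mul]⟩ (fun k i => by
      obtain ⟨w, w', e⟩ := hpow k 1 0
      rw [hy'.zero, mul_one, hy.one] at e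
      exact ⟨(i.1 + w, i.2 + w'), by rw [e]; exact hadd _ _ _ _⟩) (fun k i => by
      obtain ⟨w, w', e⟩ := hpow k (-1) 0
      rw [hy'.zero, mul_one, hy.neg, hy.one] at e
      exact ⟨(i.1 + w, i.2 + w'), by rw [e]; exact hadd _ _ _ _⟩) hgen
  rwa [Nat.card_eq_fintype_card (α := K × K), Fintype.card_prod] at this

theorem ext_bound (V : Subgroup G) [V.Normal] {v w : ℕ} (hV : Finite V ∧ Nat.card V ≤ v)
    (hQ : Finite (G ⧸ V) ∧ Nat.card (G ⧸ V) ≤ w) : Finite G ∧ Nat.card G ≤ v * w := by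
  obtain ⟨h1, h2⟩ := hV
  obtain ⟨h3, h4⟩ := hQ
  have h5 : Finite G := Finite.of_subgroup_quotient V
  refine ⟨h5, ?_⟩
  rw [Subgroup.card_eq_card_quotient_mul_card_subgroup V, mul_comm]
  exact Nat.mul_le_mul h2 h4

end Cfsg.Agent.Lib.PresU3A
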