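import Cfsg.Agent.Lib.PresU3A

/-! Short presentations of Borel subgroups of `SU₃(q)`: the relations and the order bound (helper18). -/

set_option autoImplicit false

namespace Cfsg.Agent.Lib.PresU3B

open Polynomial Cfsg.Agent.Lib.PresMod Cfsg.Agent.Lib.PresField Cfsg.Agent.Lib.PresU3A

variable {G : Type*} [Group G]

/-- relations for the centre -/
structure RelZ (p i j N : ℕ) (m1 g1 : ℤ[X]) (h u z : G) : Prop where
  H : h ^ N = 1
  Z1 : h ^ j * z * (h ^ j)⁻¹ = z * (h ^ i * z * (h ^ i)⁻¹)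
  Z2 : Commute z (h ^ i * z * (h ^ i)⁻¹)
  Z3 : z ^ p = 1
  Z4 : h * z * h⁻¹ = pw (h ^ i) z g1
  Z5 : pw (h ^ i) z m1 = 1
  C1 : Commute u z
  C2 : Commute u (h ^ i * z * (h ^ i)⁻¹)

/-- further relations in odd characteristic -/
structure RelOdd (p i j : ℕ) (m2 g2 f1 f2 f3 f4 f5 : ℤ[X]) (h u z : G) : Prop where
  U1 : h ^ j * u * (h ^ j)⁻¹ = u * (h ^ i * u * (h ^ i)⁻¹) * pw (h ^ i) z f1
  U2 : u * (h ^ i * u * (h ^ i)⁻¹) = (h ^ i * u * (h ^ i)⁻¹) * u * pw (h ^ i) z f2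
  U3 : u ^ p = pw (h ^ i) z f3
  U4 : pw (h ^ i) u m2 = pw (h ^ i) z f4
  U5 : h * u * h⁻¹ = pw (h ^ i) u g2 * pw (h ^ i) z f5

/-- further relations in even characteristic -/
structure RelEven (p i j : ℕ) (m2 g2 g3 f1 f2 f3 f4 f5 f6 f7 : ℤ[X]) (h u z : G) : Prop where
  U1 : h ^ j * u * (h ^ j)⁻¹ = u * (h ^ i * u * (h ^ i)⁻¹) * pw (h ^ i) z f1
  U2 : u * (h ^ i * u * (h ^ i)⁻¹) = (h ^ i * u * (h ^ i)⁻¹) * u * pw (h ^ i) z f2
  U3 : u ^ p = pw (h ^ i) z f3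
  U4 : pw (h ^ i) u m2 = pw (h ^ i) z f4
  U5 : h * (h * u * h⁻¹) * h⁻¹ = pw (h ^ i) u g2 * pw (h ^ i) (h * u * h⁻¹) g3 * pw (h ^ i) z f5
  U6 : u * (h * u * h⁻¹) = (h * u * h⁻¹) * u * pw (h ^ i) z f6
  U7 : u * (h ^ i * (h * u * h⁻¹) * (h ^ i)⁻¹) = (h ^ i * (h * u * h⁻¹) * (h ^ i)⁻¹) * u * pw (h ^ i) z f7

variable {K : Type*} [Field K]

/-- the central subgroup -/
theorem exists_V [Fintype K] {p i j N : ℕ} {m1 g1 : ℤ[X]} {θ : K} {h u z : G}
    (hmin : ∀ f : ℤ[X], aeval θ f = 0 → ∃ r s : ℤ[X], f = (p : ℤ[X]) * r + s * m1)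
    (hsurj : ∀ x : K, ∃ f : ℤ[X], aeval θ f = x) (hg1 : aeval θ g1 ≠ 0)
    (hR : RelZ p i j N m1 g1 h u z) {f1 : ℤ[X]}
    (hU : h ^ j * u * (h ^ j)⁻¹ = u * (h ^ i * u * (h ^ i)⁻¹) * pw (h ^ i) z f1)
    (hgen : Subgroup.closure {h, u, z} = ⊤) :
    ∃ V : Subgroup G, V.Normal ∧ Finite V ∧ Nat.card V ≤ Fintype.card K ∧ z ∈ V ∧ ∀ f, pw (h ^ i) z f ∈ V := by
  have hab : Commute (h ^ i) (h ^ j) := (Commute.refl h).pow_pow i j
  obtain ⟨y, hy⟩ := exists_Y1 hmin hsurj hab hR.Z1 hR.Z2 hR.Z3 hR.Z5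
  have hah : Commute (h ^ i) h := (Commute.refl h).pow_left i
  have hh : ∀ k, h * y k * h⁻¹ = y (aeval θ g1 * k) := conj_mul hy hsurj hah (by rw [hR.Z4, hy.pw_eq])
  have hz : ∀ k, z * y k * z⁻¹ = y (1 * k) := by
    intro k
    rw [one_mul, ← hy.one, (hy.comm 1 k).eq, mul_inv_cancel_right]
  have hzn : ∀ n : ℕ, ∃ k, (h ^ i) ^ n * z * ((h ^ i) ^ n)⁻¹ = y k := by
    intro n
    have := hy.pow n 1
    rw [hy.one] at this
    exact ⟨_, this⟩
  have hu : ∀ k, Commute u (y k) := by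
    apply commute_Y hy hsurj
    apply cross hab hU hR.Z1 _ hR.C1 hR.C2
    intro n
    obtain ⟨k, hk⟩ := hzn n
    rw [hk, hy.pw_eq]
    exact hy.comm _ _
  have hu' : ∀ k, u * y k * u⁻¹ = y (1 * k) := by
    intro k
    rw [one_mul, (hu k).eq, mul_inv_cancel_right]
  refine ⟨rng hy, rng_normal hy hgen ?_, (card_rng hy).1, (card_rng hy).2, ⟨1, hy.one⟩, pw_mem hy⟩
  rintro s (rfl | rfl | hs)
  · exact ⟨_, hg1, hh⟩
  · exact ⟨1, one_ne_zero, hu'⟩
  · rw [Set.mem_singleton_iff.1 hs]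
    exact ⟨1, one_ne_zero, hz⟩

theorem quot_gen {h u z : G} (hgen : Subgroup.closure {h, u, z} = ⊤) (V : Subgroup G) [V.Normal] (hz : z ∈ V) :
    Subgroup.closure {(QuotientGroup.mk' V h), (QuotientGroup.mk' V u)} = ⊤ := by
  rw [eq_top_iff]
  have h1 : Subgroup.map (QuotientGroup.mk' V) ⊤ = ⊤ := by
    rw [← MonoidHom.range_eq_map, MonoidHom.range_eq_top]
    exact QuotientGroup.mk'_surjective V
  rw [← h1, ← hgen, MonoidHom.map_closure, Subgroup.closure_le]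
  rintro _ ⟨x, rfl | rfl | hx, rfl⟩
  · exact Subgroup.subset_closure (Or.inl rfl)
  · exact Subgroup.subset_closure (Or.inr rfl)
  · rw [Set.mem_singleton_iff.1 hx]
    have : QuotientGroup.mk' V z = 1 := (QuotientGroup.eq_one_iff z).2 hz
    rw [SetLike.mem_coe, this]
    exact one_mem _

theorem bound_odd [Fintype K] {F : Type*} [Field F] [Fintype F] {p i j N : ℕ} {m1 g1 m2 g2 f1 f2 f3 f4 f5 : ℤ[X]}
    {θ : K} {τ : F} {h u z : G} (hN : 0 < N)
    (hmin : ∀ f : ℤ[X], aeval θ f = 0 → ∃ r s : ℤ[X], f = (p : ℤ[X]) * r + s * m1)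
    (hsurj : ∀ x : K, ∃ f : ℤ[X], aeval θ f = x) (hg1 : aeval θ g1 ≠ 0)
    (hmin' : ∀ f : ℤ[X], aeval τ f = 0 → ∃ r s : ℤ[X], f = (p : ℤ[X]) * r + s * m2)
    (hsurj' : ∀ x : F, ∃ f : ℤ[X], aeval τ f = x)
    (hR : RelZ p i j N m1 g1 h u z) (hO : RelOdd p i j m2 g2 f1 f2 f3 f4 f5 h u z)
    (hgen : Subgroup.closure {h, u, z} = ⊤) :
    Finite G ∧ Nat.card G ≤ Fintype.card K * (Fintype.card F * N) := by
  obtain ⟨V, hVn, hVf, hVc, hzV, hpV⟩ := exists_V hmin hsurj hg1 hR hO.U1 hgen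
  apply ext_bound V ⟨hVf, hVc⟩
  set π := QuotientGroup.mk' V with hπ
  have hp : ∀ f, π (pw (h ^ i) z f) = 1 := fun f => (QuotientGroup.eq_one_iff _).2 (hpV f)
  have hab : Commute (π h ^ i) (π h ^ j) := (Commute.refl (π h)).pow_pow i j
  have hah : Commute (π h ^ i) (π h) := (Commute.refl (π h)).pow_left i
  obtain ⟨y, hy⟩ := exists_Y1 (G := G ⧸ V) (p := p) (a := π h ^ i) (b := π h ^ j) (z := π u) (m := m2) hmin' hsurj' hab (by
      have := congrArg π hO.U1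
      simp only [map_mul, map_inv, map_pow, hp, mul_one] at this
      exact this) (by
      have := congrArg π hO.U2
      simp only [map_mul, map_inv, map_pow, hp, mul_one] at this
      exact this) (by
      have := congrArg π hO.U3
      simp only [map_pow, hp] at this
      exact this) (by
      have := congrArg π hO.U4
      rw [hp, map_pw, map_pow] at this
      exact this)
  have hh : ∀ k, π h * y k * (π h)⁻¹ = y (aeval τ g2 * k) := conj_mul hy hsurj' hah (by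
    have := congrArg π hO.U5
    rw [map_mul, map_mul, map_mul, map_inv, hp, mul_one, map_pw, map_pow, hy.pw_eq] at this
    exact this)
  exact bnd1 hy hh N hN (by rw [← map_pow, hR.H, map_one]) (quot_gen hgen V hzV)

theorem bound_even [Fintype K] {p i j N : ℕ} {m1 g1 m2 g2 g3 f1 f2 f3 f4 f5 f6 f7 : ℤ[X]}
    {θ τ : K} {h u z : G} (hN : 0 < N)
    (hmin : ∀ f : ℤ[X], aeval θ f = 0 → ∃ r s : ℤ[X], f = (p : ℤ[X]) * r + s * m1)
    (hsurj : ∀ x : K, ∃ f : ℤ[X], aeval θ f = x) (hg1 : aeval θ g1 ≠ 0) (hτ : τ ≠ 0)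
    (hmin' : ∀ f : ℤ[X], aeval τ f = 0 → ∃ r s : ℤ[X], f = (p : ℤ[X]) * r + s * m2)
    (hsurj' : ∀ x : K, ∃ f : ℤ[X], aeval τ f = x)
    (hR : RelZ p i j N m1 g1 h u z) (hO : RelEven p i j m2 g2 g3 f1 f2 f3 f4 f5 f6 f7 h u z)
    (hgen : Subgroup.closure {h, u, z} = ⊤) :
    Finite G ∧ Nat.card G ≤ Fintype.card K * (Fintype.card K * Fintype.card K * N) := by
  obtain ⟨V, hVn, hVf, hVc, hzV, hpV⟩ := exists_V hmin hsurj hg1 hR hO.U1 hgen
  apply ext_bound V ⟨hVf, hVc⟩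
  set π := QuotientGroup.mk' V with hπ
  have hp : ∀ f, π (pw (h ^ i) z f) = 1 := fun f => (QuotientGroup.eq_one_iff _).2 (hpV f)
  have hab : Commute (π h ^ i) (π h ^ j) := (Commute.refl (π h)).pow_pow i j
  have hah : Commute (π h ^ i) (π h) := (Commute.refl (π h)).pow_left i
  have hbh : Commute (π h ^ j) (π h) := (Commute.refl (π h)).pow_left j
  have hU1 : π h ^ j * π u * (π h ^ j)⁻¹ = π u * (π h ^ i * π u * (π h ^ i)⁻¹) := by
    have := congrArg π hO.U1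
    simp only [map_mul, map_inv, map_pow, hp, mul_one] at this
    exact this
  obtain ⟨y, hy⟩ := exists_Y1 (G := G ⧸ V) (p := p) (a := π h ^ i) (b := π h ^ j) (z := π u) (m := m2) hmin' hsurj' hab hU1 (by
      have := congrArg π hO.U2
      simp only [map_mul, map_inv, map_pow, hp, mul_one] at this
      exact this) (by
      have := congrArg π hO.U3
      simp only [map_pow, hp] at this
      exact this) (by
      have := congrArg π hO.U4
      rw [hp, map_pw, map_pow] at this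
      exact this)
  set u' := π h * π u * (π h)⁻¹ with hu'
  have hy' : IsY τ (π h ^ i) u' (fun k => π h * y k * (π h)⁻¹) := by
    refine ⟨fun k l => by rw [hy.add]; group, by rw [hy.one], fun k => ?_⟩
    rw [← hy.mul]
    have h1 : π h ^ i * π h = π h * π h ^ i := hah.eq
    have h2 : (π h)⁻¹ * (π h ^ i)⁻¹ = (π h ^ i)⁻¹ * (π h)⁻¹ := hah.inv_inv.symm.eq
    calc π h ^ i * (π h * y k * (π h)⁻¹) * (π h ^ i)⁻¹ = (π h ^ i * π h) * y k * ((π h)⁻¹ * (π h ^ i)⁻¹) := by simp only [mul_assoc]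
      _ = _ := by rw [h1, h2]; simp only [mul_assoc]
  -- commutation
  have hU1' : π h ^ j * u' * (π h ^ j)⁻¹ = u' * (π h ^ i * u' * (π h ^ i)⁻¹) := by
    have h1 : π h ^ j * π h = π h * π h ^ j := hbh.eq
    have h2 : (π h)⁻¹ * (π h ^ j)⁻¹ = (π h ^ j)⁻¹ * (π h)⁻¹ := hbh.inv_inv.symm.eq
    have h3 : π h ^ i * π h = π h * π h ^ i := hah.eq
    have h4 : (π h)⁻¹ * (π h ^ i)⁻¹ = (π h ^ i)⁻¹ * (π h)⁻¹ := hah.inv_inv.symm.eq
    calc π h ^ j * u' * (π h ^ j)⁻¹ = (π h ^ j * π h) * π u * ((π h)⁻¹ * (π h ^ j)⁻¹) := by simp only [hu', mul_assoc]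
      _ = π h * (π h ^ j * π u * (π h ^ j)⁻¹) * (π h)⁻¹ := by rw [h1, h2]; simp only [mul_assoc]
      _ = π h * (π u * (π h ^ i * π u * (π h ^ i)⁻¹)) * (π h)⁻¹ := by rw [hU1]
      _ = u' * ((π h * π h ^ i) * π u * ((π h ^ i)⁻¹ * (π h)⁻¹)) := by simp only [hu', mul_assoc, inv_mul_cancel_left]
      _ = _ := by rw [← h3, ← h4]; simp only [hu', mul_assoc]
  have hcr : ∀ n : ℕ, Commute (π u) ((π h ^ i) ^ n * u' * ((π h ^ i) ^ n)⁻¹) := by
    refine cross (c := 1) hab (by rw [mul_one]; exact hU1) hU1' (fun n => Commute.one_left _) ?_ ?_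
    · have := congrArg π hO.U6
      simp only [map_mul, map_inv, map_pow, hp, mul_one] at this
      exact this
    · have := congrArg π hO.U7
      simp only [map_mul, map_inv, map_pow, hp, mul_one] at this
      exact this
  have hcu : ∀ l, Commute (π u) ((fun k => π h * y k * (π h)⁻¹) l) := commute_Y hy' hsurj' hcr
  have hcomm : ∀ k l, Commute (y k) ((fun k => π h * y k * (π h)⁻¹) l) := by
    intro k l
    refine (commute_Y hy hsurj' (g := (fun k => π h * y k * (π h)⁻¹) l) ?_ k).symm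
    intro n
    have h1 := hy'.pow n ((τ ^ n)⁻¹ * l)
    rw [mul_inv_cancel_left₀ (pow_ne_zero n hτ)] at h1
    show Commute (π h * y l * (π h)⁻¹) _
    rw [← h1]
    exact commute_conj _ (hcu _).symm
  have hh : ∀ k, π h * ((fun k => π h * y k * (π h)⁻¹) k) * (π h)⁻¹ =
      y (aeval τ g2 * k) * (fun k => π h * y k * (π h)⁻¹) (aeval τ g3 * k) := by
    intro k
    have h5 : π h * u' * (π h)⁻¹ = y (aeval τ g2) * (fun k => π h * y k * (π h)⁻¹) (aeval τ g3) := by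
      have h6 : π (h * u * h⁻¹) = u' := by simp only [map_mul, map_inv, hu']
      have h7 : π (h * (h * u * h⁻¹) * h⁻¹) = π h * u' * (π h)⁻¹ := by rw [map_mul, map_mul, h6, map_inv]
      have h8 := congrArg π hO.U5
      rw [h7, map_mul, map_mul, hp, mul_one, map_pw, map_pw, map_pow, hy.pw_eq, h6, hy'.pw_eq] at h8
      exact h8
    have hy2 : IsY τ (π h ^ i) (π h * u' * (π h)⁻¹) (fun k => y (aeval τ g2 * k) * (π h * y (aeval τ g3 * k) * (π h)⁻¹)) := by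
      refine ⟨?_, ?_, ?_⟩
      · intro x x'
        have e1 : y (aeval τ g2 * x') * (π h * y (aeval τ g3 * x) * (π h)⁻¹) = (π h * y (aeval τ g3 * x) * (π h)⁻¹) * y (aeval τ g2 * x') :=
          (hcomm (aeval τ g2 * x') (aeval τ g3 * x)).eq
        have e2 : π h * y (aeval τ g3 * x + aeval τ g3 * x') * (π h)⁻¹ = (π h * y (aeval τ g3 * x) * (π h)⁻¹) * (π h * y (aeval τ g3 * x') * (π h)⁻¹) :=
          hy'.add (aeval τ g3 * x) (aeval τ g3 * x')
        rw [mul_add, mul_add, hy.add, e2]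
        have e3 : ∀ A B C D : G ⧸ V, B * C = C * B → A * B * (C * D) = A * C * (B * D) := by
          intro A B C D hBC
          rw [mul_assoc, ← mul_assoc B, hBC]
          simp only [mul_assoc]
        exact e3 _ _ _ _ e1
      · rw [mul_one, mul_one, h5]
      · intro x
        have e1 : π h ^ i * y (aeval τ g2 * x) * (π h ^ i)⁻¹ = y (τ * (aeval τ g2 * x)) := hy.mul (aeval τ g2 * x)
        have e2 : π h ^ i * (π h * y (aeval τ g3 * x) * (π h)⁻¹) * (π h ^ i)⁻¹ = π h * y (τ * (aeval τ g3 * x)) * (π h)⁻¹ := hy'.mul (aeval τ g3 * x)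
        rw [show aeval τ g2 * (τ * x) = τ * (aeval τ g2 * x) by ring, show aeval τ g3 * (τ * x) = τ * (aeval τ g3 * x) by ring,
          ← e1, ← e2]
        group
    exact conj_eq hy' hsurj' hah hy2 rfl k
  exact bnd2 hy hy' hcomm (fun k => rfl) hh N hN (by rw [← map_pow, hR.H, map_one]) (quot_gen hgen V hzV)

end Cfsg.Agent.Lib.PresU3B
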