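import Cfsg.Agent.Lib.PresU3B
import Cfsg.Agent.Lib.SU3Gen2

/-! Short presentations of Borel subgroups of `SU₃(q)`: words and soundness (helper18). -/

set_option autoImplicit false

namespace Cfsg.Agent.Lib.PresU3C

open Polynomial Cfsg.Agent.Lib.PresMod Cfsg.Agent.Lib.PresField Cfsg.Agent.Lib.PresU3A Cfsg.Agent.Lib.PresU3B
  Cfsg.Agent.Lib.SU3Gen

/-! ### words -/

section words

variable {G : Type*} [Group G]

def eqZ (p i j N : ℕ) (m1 g1 : ℤ[X]) (h u z : G) : Fin 8 → G × G :=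
  ![(h ^ N, 1), (h ^ j * z * (h ^ j)⁻¹, z * (h ^ i * z * (h ^ i)⁻¹)),
    (z * (h ^ i * z * (h ^ i)⁻¹), (h ^ i * z * (h ^ i)⁻¹) * z), (z ^ p, 1), (h * z * h⁻¹, pw (h ^ i) z g1),
    (pw (h ^ i) z m1, 1), (u * z, z * u), (u * (h ^ i * z * (h ^ i)⁻¹), (h ^ i * z * (h ^ i)⁻¹) * u)]

theorem eqZ_iff (p i j N : ℕ) (m1 g1 : ℤ[X]) (h u z : G) :
    (∀ k, (eqZ p i j N m1 g1 h u z k).1 = (eqZ p i j N m1 g1 h u z k).2) ↔ RelZ p i j N m1 g1 h u z := by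
  constructor
  · intro H
    exact ⟨H 0, H 1, H 2, H 3, H 4, H 5, H 6, H 7⟩
  · rintro ⟨h0, h1, h2, h3, h4, h5, h6, h7⟩ k
    fin_cases k
    exacts [h0, h1, h2, h3, h4, h5, h6, h7]

theorem eqZ_map {G' : Type*} [Group G'] (φ : G →* G') (p i j N : ℕ) (m1 g1 : ℤ[X]) (h u z : G) (k : Fin 8) :
    φ (eqZ p i j N m1 g1 h u z k).1 = (eqZ p i j N m1 g1 (φ h) (φ u) (φ z) k).1 ∧
    φ (eqZ p i j N m1 g1 h u z k).2 = (eqZ p i j N m1 g1 (φ h) (φ u) (φ z) k).2 := by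
  fin_cases k <;> simp [eqZ, map_pw]

def eqO (p i j : ℕ) (m2 g2 f1 f2 f3 f4 f5 : ℤ[X]) (h u z : G) : Fin 5 → G × G :=
  ![(h ^ j * u * (h ^ j)⁻¹, u * (h ^ i * u * (h ^ i)⁻¹) * pw (h ^ i) z f1),
    (u * (h ^ i * u * (h ^ i)⁻¹), (h ^ i * u * (h ^ i)⁻¹) * u * pw (h ^ i) z f2),
    (u ^ p, pw (h ^ i) z f3), (pw (h ^ i) u m2, pw (h ^ i) z f4),
    (h * u * h⁻¹, pw (h ^ i) u g2 * pw (h ^ i) z f5)]

theorem eqO_iff (p i j : ℕ) (m2 g2 f1 f2 f3 f4 f5 : ℤ[X]) (h u z : G) :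
    (∀ k, (eqO p i j m2 g2 f1 f2 f3 f4 f5 h u z k).1 = (eqO p i j m2 g2 f1 f2 f3 f4 f5 h u z k).2) ↔
      RelOdd p i j m2 g2 f1 f2 f3 f4 f5 h u z := by
  constructor
  · intro H
    exact ⟨H 0, H 1, H 2, H 3, H 4⟩
  · rintro ⟨h0, h1, h2, h3, h4⟩ k
    fin_cases k
    exacts [h0, h1, h2, h3, h4]

theorem eqO_map {G' : Type*} [Group G'] (φ : G →* G') (p i j : ℕ) (m2 g2 f1 f2 f3 f4 f5 : ℤ[X]) (h u z : G) (k : Fin 5) :
    φ (eqO p i j m2 g2 f1 f2 f3 f4 f5 h u z k).1 = (eqO p i j m2 g2 f1 f2 f3 f4 f5 (φ h) (φ u) (φ z) k).1 ∧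
    φ (eqO p i j m2 g2 f1 f2 f3 f4 f5 h u z k).2 = (eqO p i j m2 g2 f1 f2 f3 f4 f5 (φ h) (φ u) (φ z) k).2 := by
  fin_cases k <;> simp [eqO, map_pw]

def eqE (p i j : ℕ) (m2 g2 g3 f1 f2 f3 f4 f5 f6 f7 : ℤ[X]) (h u z : G) : Fin 7 → G × G :=
  ![(h ^ j * u * (h ^ j)⁻¹, u * (h ^ i * u * (h ^ i)⁻¹) * pw (h ^ i) z f1),
    (u * (h ^ i * u * (h ^ i)⁻¹), (h ^ i * u * (h ^ i)⁻¹) * u * pw (h ^ i) z f2),
    (u ^ p, pw (h ^ i) z f3), (pw (h ^ i) u m2, pw (h ^ i) z f4),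
    (h * (h * u * h⁻¹) * h⁻¹, pw (h ^ i) u g2 * pw (h ^ i) (h * u * h⁻¹) g3 * pw (h ^ i) z f5),
    (u * (h * u * h⁻¹), (h * u * h⁻¹) * u * pw (h ^ i) z f6),
    (u * (h ^ i * (h * u * h⁻¹) * (h ^ i)⁻¹), (h ^ i * (h * u * h⁻¹) * (h ^ i)⁻¹) * u * pw (h ^ i) z f7)]

theorem eqE_iff (p i j : ℕ) (m2 g2 g3 f1 f2 f3 f4 f5 f6 f7 : ℤ[X]) (h u z : G) :
    (∀ k, (eqE p i j m2 g2 g3 f1 f2 f3 f4 f5 f6 f7 h u z k).1 = (eqE p i j m2 g2 g3 f1 f2 f3 f4 f5 f6 f7 h u z k).2) ↔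
      RelEven p i j m2 g2 g3 f1 f2 f3 f4 f5 f6 f7 h u z := by
  constructor
  · intro H
    exact ⟨H 0, H 1, H 2, H 3, H 4, H 5, H 6⟩
  · rintro ⟨h0, h1, h2, h3, h4, h5, h6⟩ k
    fin_cases k
    exacts [h0, h1, h2, h3, h4, h5, h6]

theorem eqE_map {G' : Type*} [Group G'] (φ : G →* G') (p i j : ℕ) (m2 g2 g3 f1 f2 f3 f4 f5 f6 f7 : ℤ[X]) (h u z : G) (k : Fin 7) :
    φ (eqE p i j m2 g2 g3 f1 f2 f3 f4 f5 f6 f7 h u z k).1 = (eqE p i j m2 g2 g3 f1 f2 f3 f4 f5 f6 f7 (φ h) (φ u) (φ z) k).1 ∧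
    φ (eqE p i j m2 g2 g3 f1 f2 f3 f4 f5 f6 f7 h u z k).2 = (eqE p i j m2 g2 g3 f1 f2 f3 f4 f5 f6 f7 (φ h) (φ u) (φ z) k).2 := by
  fin_cases k <;> simp [eqE, map_pw]

end words

/-! ### first coordinates -/

variable {F : Type*} [Field F] {σ : F →+* F} (hσ : ∀ x, σ (σ x) = x)

/-- `g` is upper unitriangular with first coordinate `a` -/
def P (g : UJ σ) (a : F) : Prop := ∃ b h, g = X hσ a b h

theorem P_X {a b : F} (h : b + σ b + a * σ a = 0) : P hσ (X hσ a b h) a := ⟨b, h, rfl⟩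

theorem P_one : P hσ 1 0 := ⟨0, by simp, (X_one hσ).symm⟩

theorem P_mul {g g' : UJ σ} {a a' : F} (h : P hσ g a) (h' : P hσ g' a') : P hσ (g * g') (a + a') := by
  obtain ⟨b, hb, rfl⟩ := h
  obtain ⟨b', hb', rfl⟩ := h'
  obtain ⟨h'', e⟩ := X_mul hσ hb hb'
  exact ⟨_, h'', e⟩

theorem P_inv {g : UJ σ} {a : F} (h : P hσ g a) : P hσ g⁻¹ (-a) := by
  obtain ⟨b, hb, rfl⟩ := h
  obtain ⟨h'', e⟩ := X_inv hσ hb
  exact ⟨_, h'', e⟩

theorem P_pow {g : UJ σ} {a : F} (h : P hσ g a) (n : ℕ) : P hσ (g ^ n) (n * a) := by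
  induction n with
  | zero => rw [pow_zero, Nat.cast_zero, zero_mul]; exact P_one hσ
  | succ n ih =>
    rw [pow_succ, Nat.cast_succ, add_mul, one_mul]
    exact P_mul hσ ih h

theorem P_zpow {g : UJ σ} {a : F} (h : P hσ g a) (n : ℤ) : P hσ (g ^ n) (n * a) := by
  rcases n with n | n
  · rw [Int.ofNat_eq_natCast, zpow_natCast, Int.cast_natCast]
    exact P_pow hσ h n
  · rw [zpow_negSucc, Int.cast_negSucc, neg_mul]
    exact P_inv hσ (P_pow hσ h _)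

/-- the weight of a torus element on the first coordinate -/
def mu (σ : F →+* F) (t : F) : F := t ^ 2 * (σ t)⁻¹

theorem P_T {t : F} (ht : t ≠ 0) {g : UJ σ} {a : F} (h : P hσ g a) : P hσ (T hσ t ht * g * (T hσ t ht)⁻¹) (mu σ t * a) := by
  obtain ⟨b, hb, rfl⟩ := h
  obtain ⟨h'', e⟩ := T_conj hσ ht hb
  exact ⟨_, h'', e⟩

theorem P_pw {t : UJ σ} {τ : F} (ht : ∀ g a, P hσ g a → P hσ (t * g * t⁻¹) (τ * a)) {v : UJ σ} {a : F} (hv : P hσ v a) (f : ℤ[X]) :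
    P hσ (pw t v f) (aeval τ f * a) := by
  have hp : ∀ n : ℕ, P hσ (t ^ n * v * (t ^ n)⁻¹) (τ ^ n * a) := by
    intro n
    induction n with
    | zero => simpa using hv
    | succ n ih =>
      have := ht _ _ ih
      rw [show t ^ (n + 1) * v * (t ^ (n + 1))⁻¹ = t * (t ^ n * v * (t ^ n)⁻¹) * t⁻¹ by
        rw [pow_succ', mul_inv_rev]; simp only [mul_assoc], pow_succ', mul_assoc τ]
      exact this
  have key : ∀ N : ℕ, P hσ ((List.range N).map (fun i => (t ^ i * v * (t ^ i)⁻¹) ^ (f.coeff i))).prod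
      (∑ i ∈ Finset.range N, (f.coeff i : F) * τ ^ i * a) := by
    intro N
    induction N with
    | zero => simpa using P_one hσ
    | succ N ih =>
      rw [List.range_succ, List.map_append, List.prod_append, Finset.sum_range_succ]
      refine P_mul hσ ih ?_
      rw [List.map_singleton, List.prod_singleton, mul_assoc (f.coeff N : F)]
      exact P_zpow hσ (hp N) _
  have h1 : aeval τ f * a = ∑ i ∈ Finset.range (f.natDegree + 1), (f.coeff i : F) * τ ^ i * a := by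
    rw [Polynomial.aeval_eq_sum_range, Finset.sum_mul]
    apply Finset.sum_congr rfl
    intro i _
    rw [zsmul_eq_mul]
  rw [h1]
  exact key _

/-! ### the torus -/

theorem T_mul {s t : F} (hs : s ≠ 0) (ht : t ≠ 0) : T hσ s hs * T hσ t ht = T hσ (s * t) (mul_ne_zero hs ht) := by
  apply mx_inj
  rw [mx_mul, mx_T, mx_T, mx_T, mul3]
  have h1 : σ s ≠ 0 := (map_ne_zero σ).2 hs
  have h2 : σ t ≠ 0 := (map_ne_zero σ).2 ht
  simp only [map_mul]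
  ext i j; fin_cases i <;> fin_cases j <;> simp <;> field_simp

theorem T_one : T hσ 1 one_ne_zero = 1 := by
  apply mx_inj
  rw [mx_T, mx_one]
  ext i j; fin_cases i <;> fin_cases j <;> simp

theorem T_congr {s t : F} {hs : s ≠ 0} (h : s = t) : T hσ s hs = T hσ t (h ▸ hs) := by subst h; rfl

theorem T_pow {t : F} (ht : t ≠ 0) (n : ℕ) : T hσ t ht ^ n = T hσ (t ^ n) (pow_ne_zero n ht) := by
  induction n with
  | zero => rw [pow_zero, T_congr hσ (pow_zero t), T_one]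
  | succ n ih => rw [pow_succ, ih, T_mul]; exact T_congr hσ (pow_succ t n).symm

/-! ### the centre -/

/-- the fixed field -/
abbrev Fx (σ : F →+* F) : Subfield F := σ.eqLocusField (RingHom.id F)

theorem mem_Fx (x : F) : x ∈ Fx σ ↔ σ x = x := Iff.rfl

/-- central root elements -/
def yz {ε : F} (hε : ε + σ ε = 0) (k : Fx σ) : UJ σ := X hσ 0 (ε * k) (by
  have h : σ (k : F) = k := k.2
  rw [map_mul, h, map_zero, mul_zero, add_zero, ← add_mul, hε, zero_mul])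

theorem yz_add {ε : F} (hε : ε + σ ε = 0) (k l : Fx σ) : yz hσ hε (k + l) = yz hσ hε k * yz hσ hε l := by
  unfold yz
  obtain ⟨h'', e⟩ := X_mul hσ (a := 0) (b := ε * k) (a' := 0) (b' := ε * l) (by
    have h : σ (k : F) = k := k.2
    rw [map_mul, h, map_zero, mul_zero, add_zero, ← add_mul, hε, zero_mul]) (by
    have h : σ (l : F) = l := l.2
    rw [map_mul, h, map_zero, mul_zero, add_zero, ← add_mul, hε, zero_mul])
  rw [e]
  apply X_congr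
  · rw [add_zero]
  · rw [Subfield.coe_add]; ring

theorem isY_z {ε : F} (hε : ε + σ ε = 0) {t : F} (ht : t ≠ 0) :
    IsY (⟨t * σ t, by rw [mem_Fx, map_mul, hσ, mul_comm]⟩ : Fx σ) (T hσ t ht) (yz hσ hε 1) (yz hσ hε) := by
  refine ⟨yz_add hσ hε, rfl, fun k => ?_⟩
  unfold yz
  obtain ⟨h'', e⟩ := T_conj hσ ht (a := 0) (b := ε * k) (by
    have h : σ (k : F) = k := k.2
    rw [map_mul, h, map_zero, mul_zero, add_zero, ← add_mul, hε, zero_mul])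
  rw [e]
  apply X_congr
  · rw [mul_zero]
  · rw [Subfield.coe_mul]; ring

theorem P_eq {ε : F} (hε : ε + σ ε = 0) (hε0 : ε ≠ 0) {t : F} (ht : t ≠ 0)
    (hs : ∀ x : Fx σ, ∃ f : ℤ[X], aeval (⟨t * σ t, by rw [mem_Fx, map_mul, hσ, mul_comm]⟩ : Fx σ) f = x)
    {g g' : UJ σ} {a : F} (h : P hσ g a) (h' : P hσ g' a) : ∃ f : ℤ[X], g = g' * pw (T hσ t ht) (yz hσ hε 1) f := by
  obtain ⟨b, hb, rfl⟩ := h
  obtain ⟨b', hb', rfl⟩ := h'
  have hc : σ ((b - b') * ε⁻¹) = (b - b') * ε⁻¹ := by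
    have h1 : σ ε = - ε := by linear_combination hε
    have h2 : σ b = - b - a * σ a := by linear_combination hb
    have h3 : σ b' = - b' - a * σ a := by linear_combination hb'
    rw [map_mul, map_sub, map_inv₀, h1, h2, h3]
    field_simp
    ring
  obtain ⟨f, hf⟩ := hs ⟨(b - b') * ε⁻¹, hc⟩
  refine ⟨f, ?_⟩
  rw [(isY_z hσ hε ht).pw_eq, hf]
  unfold yz
  obtain ⟨h'', e⟩ := X_mul hσ (a := a) (b := b') (a' := 0) (b' := ε * ((b - b') * ε⁻¹)) hb' (by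
    rw [map_mul, hc, map_zero, mul_zero, add_zero, ← add_mul, hε, zero_mul])
  rw [e]
  apply X_congr
  · rw [add_zero]
  · rw [map_zero]; field_simp; ring

end Cfsg.Agent.Lib.PresU3C
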