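import Cfsg.Agent.Lib.PresU3C

/-! Short presentations of Borel subgroups of `SU₃(q)`: soundness (helper18). -/

set_option autoImplicit false

namespace Cfsg.Agent.Lib.PresU3D

open Polynomial Cfsg.Agent.Lib.PresMod Cfsg.Agent.Lib.PresField Cfsg.Agent.Lib.PresU3A Cfsg.Agent.Lib.PresU3B
  Cfsg.Agent.Lib.PresU3C Cfsg.Agent.Lib.SU3Gen

def wR {ι : Type} (e : ι → FreeGroup (Fin 3) × FreeGroup (Fin 3)) : ι → FreeGroup (Fin 3) := fun k => (e k).1 * ((e k).2)⁻¹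

theorem lift_wR {G : Type*} [Group G] {ι : Type} (x : Fin 3 → G) (e : ι → FreeGroup (Fin 3) × FreeGroup (Fin 3)) (e' : ι → G × G)
    (h : ∀ k, FreeGroup.lift x (e k).1 = (e' k).1 ∧ FreeGroup.lift x (e k).2 = (e' k).2) :
    (∀ k, FreeGroup.lift x (wR e k) = 1) ↔ ∀ k, (e' k).1 = (e' k).2 := by
  apply forall_congr'
  intro k
  unfold wR
  rw [map_mul, map_inv, (h k).1, (h k).2, mul_inv_eq_one]

variable {F : Type*} [Field F] {σ : F →+* F} (hσ : ∀ x, σ (σ x) = x)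

/-- the norm as an element of the fixed field -/
def nm (t : F) : Fx σ := ⟨t * σ t, by rw [mem_Fx, map_mul, hσ, mul_comm]⟩

theorem nm_coe (t : F) : ((nm hσ t : Fx σ) : F) = t * σ t := rfl

theorem X_yz {a b : F} (h : b + σ b + a * σ a = 0) {ε : F} (hε : ε + σ ε = 0) (k : Fx σ) :
    Commute (X hσ a b h) (yz hσ hε k) := by
  unfold yz
  have h0 : ε * (k : F) + σ (ε * k) + 0 * σ 0 = 0 := by
    have h : σ (k : F) = k := k.2
    rw [map_mul, h, map_zero, mul_zero, add_zero, ← add_mul, hε, zero_mul]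
  obtain ⟨h1, e1⟩ := X_mul hσ h h0
  obtain ⟨h2, e2⟩ := X_mul hσ h0 h
  show X hσ a b h * X hσ 0 (ε * k) h0 = X hσ 0 (ε * k) h0 * X hσ a b h
  rw [e1, e2]
  apply X_congr
  · ring
  · simp; ring

/-- soundness of the relations for the centre -/
theorem soundZ {p : ℕ} [CharP F p] {lam : F} (hl : lam ≠ 0) {i j N : ℕ} (hN : lam ^ N = 1) {ε : F} (hε : ε + σ ε = 0)
    (hij : nm hσ (lam ^ j) = 1 + nm hσ (lam ^ i)) {m1 g1 : ℤ[X]} (hm1 : aeval (nm hσ (lam ^ i)) m1 = 0)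
    (hg1 : aeval (nm hσ (lam ^ i)) g1 = nm hσ lam) {b : F} (hb : b + σ b + 1 * σ 1 = 0) :
    RelZ p i j N m1 g1 (T hσ lam hl) (X hσ 1 b hb) (yz hσ hε 1) := by
  haveI : CharP (Fx σ) p := (Fx σ).subtype.charP (Fx σ).subtype.injective p
  have hy := isY_z hσ hε hl
  have hyn : ∀ n : ℕ, IsY (nm hσ (lam ^ n)) (T hσ lam hl ^ n) (yz hσ hε 1) (yz hσ hε) := by
    intro n
    have := isY_z hσ hε (pow_ne_zero n hl)
    rw [T_pow]
    exact this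
  have hi := hyn i
  have hj := hyn j
  have h1 : ∀ n : ℕ, T hσ lam hl ^ n * yz hσ hε 1 * (T hσ lam hl ^ n)⁻¹ = yz hσ hε (nm hσ (lam ^ n)) := by
    intro n
    rw [(hyn n).mul 1, mul_one]
  refine ⟨?_, ?_, ?_, ?_, ?_, ?_, ?_, ?_⟩
  · rw [T_pow, T_congr hσ hN, T_one]
  · rw [h1, h1, ← yz_add, hij]
  · rw [h1]; exact hi.comm _ _
  · have := hi.nsmul p 1
    rw [← this, CharP.cast_eq_zero, zero_mul, hi.zero]
  · have := hy.mul 1
    rw [mul_one] at this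
    rw [this, hi.pw_eq, hg1]
    rfl
  · rw [hi.pw_eq, hm1, hi.zero]
  · exact X_yz hσ hb hε 1
  · rw [h1]; exact X_yz hσ hb hε _

section common

variable {p : ℕ} [CharP F p] {lam : F} (hl : lam ≠ 0) {i j : ℕ} {ε : F} (hε : ε + σ ε = 0) (hε0 : ε ≠ 0)
  (hs : ∀ x : Fx σ, ∃ f : ℤ[X], aeval (nm hσ (lam ^ i)) f = x) {b : F} (hb : b + σ b + 1 * σ 1 = 0)

include hε0 hs in
theorem P_eq' {g g' : UJ σ} {a : F} (h : P hσ g a) (h' : P hσ g' a) :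
    ∃ f : ℤ[X], g = g' * pw (T hσ lam hl ^ i) (yz hσ hε 1) f := by
  obtain ⟨f, hf⟩ := P_eq hσ hε hε0 (pow_ne_zero i hl) hs h h'
  exact ⟨f, by rw [hf, T_pow]⟩

theorem P_Tn (n : ℕ) {g : UJ σ} {a : F} (h : P hσ g a) : P hσ (T hσ lam hl ^ n * g * (T hσ lam hl ^ n)⁻¹) (mu σ (lam ^ n) * a) := by
  rw [T_pow]; exact P_T hσ _ h

theorem P_T1 {g : UJ σ} {a : F} (h : P hσ g a) : P hσ (T hσ lam hl * g * (T hσ lam hl)⁻¹) (mu σ lam * a) := P_T hσ _ h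

include hε0 hs in
/-- soundness, odd case -/
theorem sound_odd (hij : mu σ (lam ^ j) = 1 + mu σ (lam ^ i)) {m2 g2 : ℤ[X]} (hm2 : aeval (mu σ (lam ^ i)) m2 = 0)
    (hg2 : aeval (mu σ (lam ^ i)) g2 = mu σ lam) :
    ∃ f1 f2 f3 f4 f5, RelOdd p i j m2 g2 f1 f2 f3 f4 f5 (T hσ lam hl) (X hσ 1 b hb) (yz hσ hε 1) := by
  have hu : P hσ (X hσ 1 b hb) 1 := P_X hσ hb
  have hi := P_Tn hσ hl i hu
  have hj := P_Tn hσ hl j hu
  have hh := P_T1 hσ hl hu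
  rw [mul_one] at hi hj hh
  rw [hij] at hj
  have hpw : ∀ f : ℤ[X], P hσ (pw (T hσ lam hl ^ i) (X hσ 1 b hb) f) (aeval (mu σ (lam ^ i)) f) := by
    intro f
    have := P_pw hσ (fun g a hg => P_Tn hσ hl i hg) hu f
    rwa [mul_one] at this
  obtain ⟨f1, e1⟩ := P_eq' hσ hl hε hε0 hs hj (P_mul hσ hu hi)
  obtain ⟨f2, e2⟩ := P_eq' hσ hl hε hε0 hs (P_mul hσ hu hi) (by rw [add_comm]; exact P_mul hσ hi hu)
  obtain ⟨f3, e3⟩ := P_eq' hσ hl hε hε0 hs (g := X hσ 1 b hb ^ p) (g' := 1) (a := 0) (by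
    have := P_pow hσ hu p
    rwa [CharP.cast_eq_zero, zero_mul] at this) (P_one hσ)
  obtain ⟨f4, e4⟩ := P_eq' hσ hl hε hε0 hs (g := pw (T hσ lam hl ^ i) (X hσ 1 b hb) m2) (g' := 1) (a := 0) (by
    have := hpw m2
    rwa [hm2] at this) (P_one hσ)
  obtain ⟨f5, e5⟩ := P_eq' hσ hl hε hε0 hs hh (g' := pw (T hσ lam hl ^ i) (X hσ 1 b hb) g2) (by
    have := hpw g2
    rwa [hg2] at this)
  rw [one_mul] at e3 e4
  exact ⟨f1, f2, f3, f4, f5, e1, e2, e3, e4, e5⟩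

include hε0 hs in
/-- soundness, even case -/
theorem sound_even (hij : mu σ (lam ^ j) = 1 + mu σ (lam ^ i)) {m2 g2 g3 : ℤ[X]} (hm2 : aeval (mu σ (lam ^ i)) m2 = 0)
    (hg2 : aeval (mu σ (lam ^ i)) g2 + aeval (mu σ (lam ^ i)) g3 * mu σ lam = mu σ lam * mu σ lam) :
    ∃ f1 f2 f3 f4 f5 f6 f7, RelEven p i j m2 g2 g3 f1 f2 f3 f4 f5 f6 f7 (T hσ lam hl) (X hσ 1 b hb) (yz hσ hε 1) := by
  have hu : P hσ (X hσ 1 b hb) 1 := P_X hσ hb
  have hi := P_Tn hσ hl i hu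
  have hj := P_Tn hσ hl j hu
  have hh := P_T1 hσ hl hu
  rw [mul_one] at hi hj hh
  rw [hij] at hj
  have hhh := P_T1 hσ hl hh
  have hih := P_Tn hσ hl i hh
  have hpw : ∀ f : ℤ[X], P hσ (pw (T hσ lam hl ^ i) (X hσ 1 b hb) f) (aeval (mu σ (lam ^ i)) f) := by
    intro f
    have := P_pw hσ (fun g a hg => P_Tn hσ hl i hg) hu f
    rwa [mul_one] at this
  have hpw' : ∀ f : ℤ[X], P hσ (pw (T hσ lam hl ^ i) (T hσ lam hl * X hσ 1 b hb * (T hσ lam hl)⁻¹) f)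
      (aeval (mu σ (lam ^ i)) f * mu σ lam) := by
    intro f
    exact P_pw hσ (fun g a hg => P_Tn hσ hl i hg) hh f
  obtain ⟨f1, e1⟩ := P_eq' hσ hl hε hε0 hs hj (P_mul hσ hu hi)
  obtain ⟨f2, e2⟩ := P_eq' hσ hl hε hε0 hs (P_mul hσ hu hi) (by rw [add_comm]; exact P_mul hσ hi hu)
  obtain ⟨f3, e3⟩ := P_eq' hσ hl hε hε0 hs (g := X hσ 1 b hb ^ p) (g' := 1) (a := 0) (by
    have := P_pow hσ hu p
    rwa [CharP.cast_eq_zero, zero_mul] at this) (P_one hσ)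
  obtain ⟨f4, e4⟩ := P_eq' hσ hl hε hε0 hs (g := pw (T hσ lam hl ^ i) (X hσ 1 b hb) m2) (g' := 1) (a := 0) (by
    have := hpw m2
    rwa [hm2] at this) (P_one hσ)
  obtain ⟨f5, e5⟩ := P_eq' hσ hl hε hε0 hs hhh (g' := pw (T hσ lam hl ^ i) (X hσ 1 b hb) g2 *
      pw (T hσ lam hl ^ i) (T hσ lam hl * X hσ 1 b hb * (T hσ lam hl)⁻¹) g3) (by
    rw [← hg2]
    exact P_mul hσ (hpw g2) (hpw' g3))
  obtain ⟨f6, e6⟩ := P_eq' hσ hl hε hε0 hs (P_mul hσ hu hh) (by rw [add_comm]; exact P_mul hσ hh hu)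
  obtain ⟨f7, e7⟩ := P_eq' hσ hl hε hε0 hs (P_mul hσ hu hih) (by rw [add_comm]; exact P_mul hσ hih hu)
  rw [one_mul] at e3 e4
  exact ⟨f1, f2, f3, f4, f5, f6, f7, e1, e2, e3, e4, e5, e6, e7⟩

end common

/-- presentation data for the Borel subgroup -/
def HasB (hσ : ∀ x, σ (σ x) = x) {lam : F} (hl : lam ≠ 0) {b : F} (hb : b + σ b + 1 * σ 1 = 0) {ε : F} (hε : ε + σ ε = 0)
    (r M : ℕ) : Prop :=
  ∃ R : Finset (FreeGroup (Fin 3)), R.card ≤ r ∧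
    (∀ w ∈ R, FreeGroup.lift ![T hσ lam hl, X hσ 1 b hb, yz hσ hε 1] w = 1) ∧
    ∀ (Γ : Type) [Group Γ] (h u z : Γ), (∀ w ∈ R, FreeGroup.lift ![h, u, z] w = 1) →
      Subgroup.closure {h, u, z} = ⊤ → Finite Γ ∧ Nat.card Γ ≤ M

theorem lift0 {G : Type*} [Group G] (h u z : G) : FreeGroup.lift ![h, u, z] (FreeGroup.of 0) = h := by simp
theorem lift1 {G : Type*} [Group G] (h u z : G) : FreeGroup.lift ![h, u, z] (FreeGroup.of 1) = u := by simp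
theorem lift2 {G : Type*} [Group G] (h u z : G) : FreeGroup.lift ![h, u, z] (FreeGroup.of 2) = z := by simp

theorem rel_of {G : Type*} [Group G] {ι : Type} [Fintype ι] {x : Fin 3 → G} {e : ι → FreeGroup (Fin 3) × FreeGroup (Fin 3)}
    {R : Finset (FreeGroup (Fin 3))} (hR : ∀ k, wR e k ∈ R) (hx : ∀ w ∈ R, FreeGroup.lift x w = 1) {e' : ι → G × G}
    (h : ∀ k, FreeGroup.lift x (e k).1 = (e' k).1 ∧ FreeGroup.lift x (e k).2 = (e' k).2) : ∀ k, (e' k).1 = (e' k).2 :=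
  (lift_wR x e e' h).1 fun k => hx _ (hR k)

theorem hasB_odd [Fintype F] {p : ℕ} [hp : Fact p.Prime] [CharP F p] {lam : F} (hl : lam ≠ 0) {i j N : ℕ} (hN0 : 0 < N)
    (hN : lam ^ N = 1) {ε : F} (hε : ε + σ ε = 0) (hε0 : ε ≠ 0)
    (hs : ∀ x : Fx σ, ∃ f : ℤ[X], aeval (nm hσ (lam ^ i)) f = x)
    (hs' : ∀ x : F, ∃ f : ℤ[X], aeval (mu σ (lam ^ i)) f = x)
    (hij : nm hσ (lam ^ j) = 1 + nm hσ (lam ^ i)) (hij' : mu σ (lam ^ j) = 1 + mu σ (lam ^ i))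
    {b : F} (hb : b + σ b + 1 * σ 1 = 0) :
    HasB hσ hl hb hε 13 (Nat.card (Fx σ) * (Nat.card F * N)) := by
  classical
  haveI : CharP (Fx σ) p := (Fx σ).subtype.charP (Fx σ).subtype.injective p
  letI : Algebra (ZMod p) (Fx σ) := ZMod.algebra _ p
  letI : Algebra (ZMod p) F := ZMod.algebra _ p
  letI : Fintype (Fx σ) := Fintype.ofFinite _
  obtain ⟨m1, hm1, hmin1⟩ := exists_min p (nm hσ (lam ^ i))
  obtain ⟨m2, hm2, hmin2⟩ := exists_min p (mu σ (lam ^ i))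
  obtain ⟨g1, hg1⟩ := hs (nm hσ lam)
  obtain ⟨g2, hg2⟩ := hs' (mu σ lam)
  have hZ := soundZ hσ (p := p) hl hN hε hij hm1 hg1 hb
  obtain ⟨f1, f2, f3, f4, f5, hO⟩ := sound_odd hσ (p := p) hl hε hε0 hs hb hij' hm2 hg2
  let e1 := eqZ p i j N m1 g1 (FreeGroup.of (0 : Fin 3)) (FreeGroup.of 1) (FreeGroup.of 2)
  let e2 := eqO p i j m2 g2 f1 f2 f3 f4 f5 (FreeGroup.of (0 : Fin 3)) (FreeGroup.of 1) (FreeGroup.of 2)
  let R : Finset (FreeGroup (Fin 3)) := Finset.univ.image (wR e1) ∪ Finset.univ.image (wR e2)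
  refine ⟨R, ?_, ?_, ?_⟩
  · refine (Finset.card_union_le _ _).trans ?_
    have h1 : (Finset.univ.image (wR e1)).card ≤ 8 := Finset.card_image_le
    have h2 : (Finset.univ.image (wR e2)).card ≤ 5 := Finset.card_image_le
    omega
  · intro w hw
    rw [Finset.mem_union, Finset.mem_image, Finset.mem_image] at hw
    rcases hw with ⟨k, -, rfl⟩ | ⟨k, -, rfl⟩
    · refine (lift_wR _ e1 (eqZ p i j N m1 g1 _ _ _) ?_).2 ((eqZ_iff _ _ _ _ _ _ _ _ _).2 hZ) k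
      intro k
      have := eqZ_map (FreeGroup.lift ![T hσ lam hl, X hσ 1 b hb, yz hσ hε 1]) p i j N m1 g1 (FreeGroup.of 0) (FreeGroup.of 1) (FreeGroup.of 2) k
      rwa [lift0, lift1, lift2] at this
    · refine (lift_wR _ e2 (eqO p i j m2 g2 f1 f2 f3 f4 f5 _ _ _) ?_).2 ((eqO_iff _ _ _ _ _ _ _ _ _ _ _ _ _).2 hO) k
      intro k
      have := eqO_map (FreeGroup.lift ![T hσ lam hl, X hσ 1 b hb, yz hσ hε 1]) p i j m2 g2 f1 f2 f3 f4 f5 (FreeGroup.of 0) (FreeGroup.of 1) (FreeGroup.of 2) k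
      rwa [lift0, lift1, lift2] at this
  · intro Γ _ h u z hR hgen
    have hg1' : aeval (nm hσ (lam ^ i)) g1 ≠ 0 := by
      rw [hg1]
      intro h0
      have := congrArg Subtype.val h0
      rw [nm_coe] at this
      exact mul_ne_zero hl ((map_ne_zero σ).2 hl) this
    have h1 := (eqZ_iff p i j N m1 g1 h u z).1 (rel_of (e := e1) (fun k => Finset.mem_union_left _ (Finset.mem_image_of_mem _ (Finset.mem_univ k))) hR (by
      intro k
      have := eqZ_map (FreeGroup.lift ![h, u, z]) p i j N m1 g1 (FreeGroup.of 0) (FreeGroup.of 1) (FreeGroup.of 2) k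
      rwa [lift0, lift1, lift2] at this))
    have h2 := (eqO_iff p i j m2 g2 f1 f2 f3 f4 f5 h u z).1 (rel_of (e := e2) (fun k => Finset.mem_union_right _ (Finset.mem_image_of_mem _ (Finset.mem_univ k))) hR (by
      intro k
      have := eqO_map (FreeGroup.lift ![h, u, z]) p i j m2 g2 f1 f2 f3 f4 f5 (FreeGroup.of 0) (FreeGroup.of 1) (FreeGroup.of 2) k
      rwa [lift0, lift1, lift2] at this))
    have := bound_odd hN0 hmin1 hs hg1' hmin2 hs' h1 h2 hgen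
    rwa [← Nat.card_eq_fintype_card, ← Nat.card_eq_fintype_card] at this

theorem hasB_even [Fintype F] {p : ℕ} [hp : Fact p.Prime] [CharP F p] {lam : F} (hl : lam ≠ 0) {i j N : ℕ} (hN0 : 0 < N)
    (hN : lam ^ N = 1) {ε : F} (hε : ε + σ ε = 0) (hε0 : ε ≠ 0)
    (hs : ∀ x : Fx σ, ∃ f : ℤ[X], aeval (nm hσ (lam ^ i)) f = x) (τ : Fx σ) (hτ : mu σ (lam ^ i) = τ) (hτ0 : τ ≠ 0)
    (hs' : ∀ x : Fx σ, ∃ f : ℤ[X], aeval τ f = x) {k1 k2 : Fx σ} (hk : (k1 : F) + k2 * mu σ lam = mu σ lam * mu σ lam)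
    (hij : nm hσ (lam ^ j) = 1 + nm hσ (lam ^ i)) (hij' : mu σ (lam ^ j) = 1 + mu σ (lam ^ i))
    {b : F} (hb : b + σ b + 1 * σ 1 = 0) :
    HasB hσ hl hb hε 15 (Nat.card (Fx σ) * (Nat.card (Fx σ) * Nat.card (Fx σ) * N)) := by
  classical
  haveI : CharP (Fx σ) p := (Fx σ).subtype.charP (Fx σ).subtype.injective p
  letI : Algebra (ZMod p) (Fx σ) := ZMod.algebra _ p
  letI : Algebra (ZMod p) F := ZMod.algebra _ p
  letI : Fintype (Fx σ) := Fintype.ofFinite _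
  have hco : ∀ f : ℤ[X], aeval (mu σ (lam ^ i)) f = ((aeval τ f : Fx σ) : F) := by
    intro f
    rw [hτ]
    exact (Polynomial.aeval_algHom_apply ((Fx σ).subtype.toIntAlgHom) τ f)
  obtain ⟨m1, hm1, hmin1⟩ := exists_min p (nm hσ (lam ^ i))
  obtain ⟨m2, hm2, hmin2⟩ := exists_min p τ
  obtain ⟨g1, hg1⟩ := hs (nm hσ lam)
  obtain ⟨g2, hg2⟩ := hs' k1
  obtain ⟨g3, hg3⟩ := hs' k2
  have hZ := soundZ hσ (p := p) hl hN hε hij hm1 hg1 hb
  obtain ⟨f1, f2, f3, f4, f5, f6, f7, hO⟩ := sound_even hσ (p := p) hl hε hε0 hs hb hij' (m2 := m2) (g2 := g2) (g3 := g3)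
    (by rw [hco, hm2]; rfl) (by rw [hco, hco, hg2, hg3, hk])
  let e1 := eqZ p i j N m1 g1 (FreeGroup.of (0 : Fin 3)) (FreeGroup.of 1) (FreeGroup.of 2)
  let e2 := eqE p i j m2 g2 g3 f1 f2 f3 f4 f5 f6 f7 (FreeGroup.of (0 : Fin 3)) (FreeGroup.of 1) (FreeGroup.of 2)
  let R : Finset (FreeGroup (Fin 3)) := Finset.univ.image (wR e1) ∪ Finset.univ.image (wR e2)
  refine ⟨R, ?_, ?_, ?_⟩
  · refine (Finset.card_union_le _ _).trans ?_
    have h1 : (Finset.univ.image (wR e1)).card ≤ 8 := Finset.card_image_le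
    have h2 : (Finset.univ.image (wR e2)).card ≤ 7 := Finset.card_image_le
    omega
  · intro w hw
    rw [Finset.mem_union, Finset.mem_image, Finset.mem_image] at hw
    rcases hw with ⟨k, -, rfl⟩ | ⟨k, -, rfl⟩
    · refine (lift_wR _ e1 (eqZ p i j N m1 g1 _ _ _) ?_).2 ((eqZ_iff _ _ _ _ _ _ _ _ _).2 hZ) k
      intro k
      have := eqZ_map (FreeGroup.lift ![T hσ lam hl, X hσ 1 b hb, yz hσ hε 1]) p i j N m1 g1 (FreeGroup.of 0) (FreeGroup.of 1) (FreeGroup.of 2) k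
      rwa [lift0, lift1, lift2] at this
    · refine (lift_wR _ e2 (eqE p i j m2 g2 g3 f1 f2 f3 f4 f5 f6 f7 _ _ _) ?_).2 ((eqE_iff _ _ _ _ _ _ _ _ _ _ _ _ _ _ _ _).2 hO) k
      intro k
      have := eqE_map (FreeGroup.lift ![T hσ lam hl, X hσ 1 b hb, yz hσ hε 1]) p i j m2 g2 g3 f1 f2 f3 f4 f5 f6 f7 (FreeGroup.of 0) (FreeGroup.of 1) (FreeGroup.of 2) k
      rwa [lift0, lift1, lift2] at this
  · intro Γ _ h u z hR hgen
    have hg1' : aeval (nm hσ (lam ^ i)) g1 ≠ 0 := by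
      rw [hg1]
      intro h0
      have := congrArg Subtype.val h0
      rw [nm_coe] at this
      exact mul_ne_zero hl ((map_ne_zero σ).2 hl) this
    have h1 := (eqZ_iff p i j N m1 g1 h u z).1 (rel_of (e := e1) (fun k => Finset.mem_union_left _ (Finset.mem_image_of_mem _ (Finset.mem_univ k))) hR (by
      intro k
      have := eqZ_map (FreeGroup.lift ![h, u, z]) p i j N m1 g1 (FreeGroup.of 0) (FreeGroup.of 1) (FreeGroup.of 2) k
      rwa [lift0, lift1, lift2] at this))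
    have h2 := (eqE_iff p i j m2 g2 g3 f1 f2 f3 f4 f5 f6 f7 h u z).1 (rel_of (e := e2) (fun k => Finset.mem_union_right _ (Finset.mem_image_of_mem _ (Finset.mem_univ k))) hR (by
      intro k
      have := eqE_map (FreeGroup.lift ![h, u, z]) p i j m2 g2 g3 f1 f2 f3 f4 f5 f6 f7 (FreeGroup.of 0) (FreeGroup.of 1) (FreeGroup.of 2) k
      rwa [lift0, lift1, lift2] at this))
    have := bound_even hN0 hmin1 hs hg1' hτ0 hmin2 hs' h1 h2 hgen
    rwa [← Nat.card_eq_fintype_card] at this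

end Cfsg.Agent.Lib.PresU3D
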