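import Cfsg.Agent.Lib.PresU3D

/-! Short presentations of Borel subgroups of `SU₃(q)`: field data (helper18). -/

set_option autoImplicit false

namespace Cfsg.Agent.Lib.PresU3E

open Polynomial Cfsg.Agent.Lib.PresMod Cfsg.Agent.Lib.PresField Cfsg.Agent.Lib.PresU3A Cfsg.Agent.Lib.PresU3B
  Cfsg.Agent.Lib.PresU3C Cfsg.Agent.Lib.PresU3D Cfsg.Agent.Lib.SU3Gen Cfsg.Agent.Lib.ClUnitary Cfsg.Agent.Lib.HermMat

theorem surj_of_closure {A : Type*} [CommRing A] {κ : A} (h : Subring.closure {κ} = ⊤) (x : A) : ∃ f : ℤ[X], aeval κ f = x := by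
  have h1 : Subring.closure {κ} ≤ (aeval (R := ℤ) κ).toRingHom.range := by
    rw [Subring.closure_le]
    rintro _ rfl
    exact ⟨X, by simp⟩
  have h2 : x ∈ (aeval (R := ℤ) κ).toRingHom.range := h1 (by rw [h]; trivial)
  obtain ⟨f, hf⟩ := h2
  exact ⟨f, hf⟩

variable {F : Type*} [Field F] [Fintype F] {q : ℕ}

theorem card_Fx (hF : Fintype.card F = q ^ 2) : Nat.card (Fx (frob hF)) = q := by
  classical
  have hq := two_le_q hF
  have h1 : Nat.card (Fx (frob hF)) = Nat.card {c : F // c ^ q = c} :=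
    Nat.card_congr (Equiv.subtypeEquivRight (fun c => by rw [mem_Fx, frob_apply]))
  rw [h1, Nat.card_eq_fintype_card, Fintype.card_subtype]
  have h2 := card_fixed_ne_zero (F := F) hF
  have h3 : (Finset.univ.filter (fun c : F => c ^ q = c)) =
      insert 0 (Finset.univ.filter (fun c : F => c ≠ 0 ∧ c ^ q = c)) := by
    ext x
    simp only [Finset.mem_filter, Finset.mem_univ, true_and, Finset.mem_insert]
    constructor
    · intro h
      by_cases hx : x = 0
      · left; exact hx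
      · right; exact ⟨hx, h⟩
    · rintro (rfl | h)
      · rw [zero_pow (by omega)]
      · exact h.2
  rw [h3, Finset.card_insert_of_notMem (by simp), h2]
  omega

theorem arith_odd {q r k : ℕ} (hr : r ^ k = q) (hk : 2 ≤ k) (hodd : q % 2 = 1) (hq : 3 ≤ q)
    (hd : (q + 1) ∣ 3 * (r ^ 2 - 1)) : False := by
  have hr3 : 3 ≤ r := by
    rcases Nat.lt_or_ge r 3 with h | h
    · interval_cases r
      · rw [zero_pow (by omega)] at hr; omega
      · rw [one_pow] at hr; omega
      · have : 2 ∣ q := by rw [← hr]; exact dvd_pow_self 2 (by omega)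
        omega
    · exact h
  have hr9 : 9 ≤ r ^ 2 := by nlinarith
  have hpos : 0 < 3 * (r ^ 2 - 1) := by omega
  have hle := Nat.le_of_dvd hpos hd
  rcases Nat.lt_or_ge k 3 with hk3 | hk3
  · have : k = 2 := by omega
    subst this
    rw [← hr] at hd
    have h1 : (r ^ 2 + 1) ∣ 3 * (r ^ 2 + 1) := dvd_mul_left _ _
    have h2 : (r ^ 2 + 1) ∣ 3 * (r ^ 2 + 1) - 3 * (r ^ 2 - 1) := Nat.dvd_sub h1 hd
    have h3 : 3 * (r ^ 2 + 1) - 3 * (r ^ 2 - 1) = 6 := by omega
    rw [h3] at h2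
    have := Nat.le_of_dvd (by norm_num) h2
    omega
  · have h1 : r ^ 3 ≤ q := by rw [← hr]; exact Nat.pow_le_pow_right (by omega) hk3
    have h2 : r ^ 3 = r * r ^ 2 := by ring
    have h3 : 3 * r ^ 2 ≤ r * r ^ 2 := Nat.mul_le_mul_right _ hr3
    omega

theorem arith_six {q : ℕ} (hodd : q % 2 = 1) (hq : 3 ≤ q) (h5 : q ≠ 5) (h : (q + 1) ∣ 6) : False := by
  have h1 := Nat.le_of_dvd (by norm_num) h
  have h2 : q ≤ 5 := by omega
  interval_cases q <;> omega

theorem arith_three {q : ℕ} (hq : 3 ≤ q) (h : (q + 1) ∣ 3) : False := by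
  have := Nat.le_of_dvd (by norm_num) h
  omega

theorem arith_even {q r k : ℕ} (hr : r ^ k = q) (hk : 2 ≤ k) (hq : 3 ≤ q) (hd : (q - 1) ∣ (r - 1)) : False := by
  have hr2 : 2 ≤ r := by
    rcases Nat.lt_or_ge r 2 with h | h
    · interval_cases r
      · rw [zero_pow (by omega)] at hr; omega
      · rw [one_pow] at hr; omega
    · exact h
  have h1 := Nat.le_of_dvd (by omega) hd
  have h2 : r ^ 2 ≤ q := by rw [← hr]; exact Nat.pow_le_pow_right (by omega) hk
  have h3 : q ≤ r := by omega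
  nlinarith

/-- data of a primitive element -/
structure Prim (hF : Fintype.card F = q ^ 2) (lam : F) : Prop where
  ne : lam ≠ 0
  gen : ∀ x : F, x ≠ 0 → ∃ k : ℕ, lam ^ k = x
  ord : ∀ m : ℕ, lam ^ m = 1 → (q ^ 2 - 1) ∣ m
  pow : lam ^ (q ^ 2 - 1) = 1

theorem exists_prim (hF : Fintype.card F = q ^ 2) : ∃ lam : F, Prim hF lam := by
  obtain ⟨ζ, hζ⟩ := IsCyclic.exists_generator (α := Fˣ)
  have ho : orderOf ζ = q ^ 2 - 1 := order_gen hζ hF
  refine ⟨ζ, ζ.ne_zero, fun x hx => exists_pow hζ hx, ?_, ?_⟩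
  · intro m hm
    rw [← ho]
    exact orderOf_dvd_of_pow_eq_one (Units.ext (by simpa using hm))
  · have := pow_orderOf_eq_one ζ
    rw [ho] at this
    have := congrArg Units.val this
    simpa using this

theorem hasB_of_even (hF : Fintype.card F = q ^ 2) (h2 : q ≠ 2) {lam : F} (hP : Prim hF lam) [h2c : CharP F 2] :
    ∃ (ε : F) (hε : ε + frob hF ε = 0), ε ≠ 0 ∧ ∀ (b : F) (hb : b + frob hF b + 1 * frob hF 1 = 0),
      HasB (frob_frob hF) hP.ne hb hε 15 (q ^ 3 * (q ^ 2 - 1)) := by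
  haveI : Fact (Nat.Prime 2) := ⟨Nat.prime_two⟩
  have hq := two_le_q hF
  have hq3 : 3 ≤ q := by omega
  have hσ := frob_frob hF
  letI : Fintype (Fx (frob hF)) := Fintype.ofFinite _
  have hcK : Fintype.card (Fx (frob hF)) = q := by rw [← Nat.card_eq_fintype_card]; exact card_Fx hF
  have two0 : (2 : F) = 0 := CharP.cast_eq_zero F 2
  have hε : (1 : F) + frob hF 1 = 0 := by rw [map_one]; linear_combination two0
  -- q even
  have hqe : q % 2 = 0 := by
    obtain ⟨p', f, hp', hc, hq', hf⟩ := exists_char hF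
    have hpp : 2 = p' := CharP.eq F h2c hc
    subst hpp
    rw [hq']
    exact Nat.mod_eq_zero_of_dvd (dvd_pow_self 2 (by omega))
  set τ : Fx (frob hF) := nm hσ lam with hτ
  have hτF : (τ : F) = lam ^ (q + 1) := by rw [hτ, nm_coe, frob_apply, pow_succ']
  have hτ0 : τ ≠ 0 := by
    intro h0
    have := congrArg Subtype.val h0
    rw [hτF] at this
    exact pow_ne_zero _ hP.ne this
  have hτord : ∀ m : ℕ, τ ^ m = 1 → (q - 1) ∣ m := by
    intro m hm
    have h1 : lam ^ ((q + 1) * m) = 1 := by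
      rw [pow_mul, ← hτF]
      exact congrArg Subtype.val hm
    have h2 := hP.ord _ h1
    have h3 : q ^ 2 - 1 = (q + 1) * (q - 1) := by
      have : q ^ 2 - 1 ^ 2 = (q + 1) * (q - 1) := Nat.sq_sub_sq q 1
      simpa using this
    rw [h3] at h2
    exact Nat.dvd_of_mul_dvd_mul_left (by omega) h2
  have hτ1 : (1 : F) + τ ≠ 0 := by
    intro h0
    have h1 : (τ : F) = 1 := by linear_combination h0 - two0
    have h2 : τ ^ 1 = 1 := by rw [pow_one]; exact Subtype.ext h1
    have h3 := Nat.le_of_dvd one_pos (hτord 1 h2)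
    omega
  obtain ⟨i, hi⟩ := hP.gen τ (fun h => hτ0 (Subtype.ext h))
  obtain ⟨j, hj⟩ := hP.gen (1 + τ) hτ1
  have hfix : frob hF (τ : F) = τ := τ.2
  have hmi : mu (frob hF) (lam ^ i) = τ := by
    rw [mu, hi, hfix]
    have : (τ : F) ≠ 0 := fun h => hτ0 (Subtype.ext h)
    field_simp
  have hmj : mu (frob hF) (lam ^ j) = 1 + mu (frob hF) (lam ^ i) := by
    rw [hmi, mu, hj, map_add, map_one, hfix]
    field_simp
  have hni : nm hσ (lam ^ i) = τ ^ 2 := by
    apply Subtype.ext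
    rw [nm_coe, hi, hfix]
    show _ = (τ : F) ^ 2
    ring
  have hnj : nm hσ (lam ^ j) = 1 + nm hσ (lam ^ i) := by
    apply Subtype.ext
    rw [hni, nm_coe, hj, map_add, map_one, hfix]
    show _ = (1 : F) + (τ : F) ^ 2
    linear_combination (τ : F) * two0
  have hodd : ∀ m : ℕ, (q - 1) ∣ 2 * m → (q - 1) ∣ m := by
    intro m hm
    refine Nat.Coprime.dvd_of_dvd_mul_left ?_ hm
    rw [Nat.coprime_comm, Nat.coprime_two_left, Nat.odd_iff]
    omega
  refine ⟨1, hε, one_ne_zero, fun b hb => ?_⟩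
  have h := hasB_even hσ (p := 2) (i := i) (j := j) (N := q ^ 2 - 1) hP.ne (by
      have : 4 ≤ q ^ 2 := by nlinarith
      omega) hP.pow hε one_ne_zero (by
      rw [hni]
      intro x
      apply surj_of_closure
      apply SU3Gen.closure_eq_top
      · intro r k hrk hk h1
        rw [hcK] at hrk
        rw [← pow_mul] at h1
        exact arith_even hrk hk hq3 (hodd _ (hτord _ h1))
      · exact pow_ne_zero 2 hτ0) τ hmi hτ0 (by
      intro x
      apply surj_of_closure
      apply SU3Gen.closure_eq_top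
      · intro r k hrk hk h1
        rw [hcK] at hrk
        exact arith_even hrk hk hq3 (hτord _ h1)
      · exact hτ0)
    (k1 := -(nm hσ (mu (frob hF) lam))) (k2 := ⟨mu (frob hF) lam + frob hF (mu (frob hF) lam), by
      rw [mem_Fx, map_add, hσ, add_comm]⟩) (by
      show -(mu (frob hF) lam * frob hF (mu (frob hF) lam)) + (mu (frob hF) lam + frob hF (mu (frob hF) lam)) * mu (frob hF) lam = _
      ring) hnj hmj hb
  rw [card_Fx hF] at h
  have e : q ^ 3 * (q ^ 2 - 1) = q * (q * q * (q ^ 2 - 1)) := by ring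
  rw [e]
  exact h

theorem hasB_of_odd (hF : Fintype.card F = q ^ 2) (h5 : q ≠ 5) {lam : F} (hP : Prim hF lam) {p : ℕ} [hp : Fact p.Prime]
    [hpc : CharP F p] (hp2 : p ≠ 2) :
    ∃ (ε : F) (hε : ε + frob hF ε = 0), ε ≠ 0 ∧ ∀ (b : F) (hb : b + frob hF b + 1 * frob hF 1 = 0),
      HasB (frob_frob hF) hP.ne hb hε 15 (q ^ 3 * (q ^ 2 - 1)) := by
  have hq := two_le_q hF
  have hσ := frob_frob hF
  obtain ⟨p', f, hp', hc, hq', hf⟩ := exists_char hF
  have hpp : p = p' := CharP.eq F hpc hc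
  subst hpp
  have hpodd : p % 2 = 1 := (Nat.Prime.eq_two_or_odd hp.out).resolve_left hp2
  have hqo : q % 2 = 1 := by
    rw [← Nat.odd_iff, hq']
    exact (Nat.odd_iff.2 hpodd).pow
  have hq3 : 3 ≤ q := by omega
  have two0 : (2 : F) ≠ 0 := by
    intro h
    have h1 : ((2 : ℕ) : F) = 0 := by exact_mod_cast h
    rw [CharP.cast_eq_zero_iff F p] at h1
    exact hp2 ((Nat.prime_dvd_prime_iff_eq hp.out Nat.prime_two).1 h1)
  have h3 : q ^ 2 - 1 = (q + 1) * (q - 1) := by
    have : q ^ 2 - 1 ^ 2 = (q + 1) * (q - 1) := Nat.sq_sub_sq q 1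
    simpa using this
  have hl := hP.ne
  -- powers of lam ^ (q - 1)
  have hord : ∀ m : ℕ, lam ^ ((q - 1) * m) = 1 → (q + 1) ∣ m := by
    intro m hm
    have h1 := hP.ord _ hm
    rw [h3, mul_comm (q + 1)] at h1
    exact Nat.dvd_of_mul_dvd_mul_left (by omega) h1
  set σ := frob hF with hσd
  letI : Fintype (Fx σ) := Fintype.ofFinite _
  have hcK : Nat.card (Fx σ) = q := card_Fx hF
  have hσp : ∀ x, σ x = x ^ q := frob_apply hF
  set g : F := lam ^ 3 with hg
  have hg0 : g ≠ 0 := pow_ne_zero 3 hl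
  have hσg0 : σ g ≠ 0 := (map_ne_zero σ).2 hg0
  have hσg : σ g = lam ^ (3 * (q - 1)) * g := by
    rw [hσp, hg, ← pow_mul, ← pow_add]
    congr 1
    have : q - 1 + 1 = q := by omega
    calc 3 * q = 3 * (q - 1 + 1) := by rw [this]
      _ = _ := by ring
  set s : F := g + σ g with hs
  have hs0 : s ≠ 0 := by
    intro h0
    have h1 : lam ^ (3 * (q - 1)) = -1 := by
      have h2 : (1 + lam ^ (3 * (q - 1))) * g = 0 := by rw [hs, hσg] at h0; linear_combination h0
      rcases mul_eq_zero.1 h2 with h | h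
      · linear_combination h
      · exact absurd h hg0
    have h4 : lam ^ ((q - 1) * 6) = 1 := by
      rw [show (q - 1) * 6 = 3 * (q - 1) * 2 by ring, pow_mul, h1]; ring
    exact arith_six hqo hq3 h5 (hord _ h4)
  have hσs : σ s = s := by rw [hs, map_add, hσ, add_comm]
  set τ : F := (g - σ g) / s with hτ
  have hτ0 : τ ≠ 0 := by
    intro h0
    have h1 : g - σ g = 0 := by
      rw [hτ, div_eq_zero_iff] at h0
      exact h0.resolve_right hs0
    have h2 : lam ^ ((q - 1) * 3) = 1 := by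
      have h4 : (1 - lam ^ (3 * (q - 1))) * g = 0 := by rw [hσg] at h1; linear_combination h1
      rcases mul_eq_zero.1 h4 with h | h
      · rw [mul_comm (q - 1)]; linear_combination -h
      · exact absurd h hg0
    exact arith_three hq3 (hord _ h2)
  have hστ : σ τ = -τ := by
    rw [hτ, map_div₀, map_sub, hσ, hσs]; ring
  have hε : τ + σ τ = 0 := by rw [hστ]; ring
  have hn0 : lam * σ lam ≠ 0 := mul_ne_zero hl ((map_ne_zero σ).2 hl)
  obtain ⟨i, hi⟩ := hP.gen (-τ) (neg_ne_zero.2 hτ0)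
  obtain ⟨j, hj⟩ := hP.gen (2 * lam * (lam * σ lam) / s) (div_ne_zero (mul_ne_zero (mul_ne_zero two0 hl) hn0) hs0)
  have hmi : mu σ (lam ^ i) = τ := by
    rw [mu, hi, map_neg, hστ]
    field_simp
  have hσl0 : σ lam ≠ 0 := (map_ne_zero σ).2 hl
  have hσg3 : σ g = σ lam ^ 3 := by rw [hg, map_pow]
  have hmj : mu σ (lam ^ j) = 1 + mu σ (lam ^ i) := by
    rw [hmi, mu, hj, map_div₀, hσs]
    simp only [map_mul, hσ, map_ofNat]
    rw [hτ]
    field_simp
    rw [hs, hg]; ring
  have hni : ((nm hσ (lam ^ i) : Fx σ) : F) = -τ ^ 2 := by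
    rw [nm_coe, hi, map_neg, hστ]; ring
  have hnj : nm hσ (lam ^ j) = 1 + nm hσ (lam ^ i) := by
    apply Subtype.ext
    show _ = (1 : F) + ((nm hσ (lam ^ i) : Fx σ) : F)
    rw [hni, nm_coe, hj, map_div₀, hσs]
    simp only [map_mul, hσ, map_ofNat]
    rw [hτ]
    field_simp
    rw [hs, hσg3, hg]; ring
  -- generation of the fixed field
  have hgenK : ∀ x : Fx σ, ∃ f : ℤ[X], aeval (nm hσ (lam ^ i)) f = x := by
    intro x
    apply surj_of_closure
    apply SU3Gen.closure_eq_top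
    · intro r k hrk hk h1
      rw [← Nat.card_eq_fintype_card, hcK] at hrk
      apply arith_odd hrk hk hqo hq3
      have hr0 : r % 2 = 1 := by
        by_contra hcon
        have : 2 ∣ r := by omega
        have : 2 ∣ q := by rw [← hrk]; exact dvd_pow this (by omega)
        omega
      have h2 : (-τ ^ 2) ^ (r - 1) = 1 := by
        rw [← hni]; exact congrArg Subtype.val h1
      have h4 : τ ^ (2 * (r - 1)) = 1 := by
        have he : Even (r - 1) := by rw [Nat.even_iff]; omega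
        rwa [he.neg_pow, ← pow_mul] at h2
      have hr1 : r ^ 2 - 1 = (r + 1) * (r - 1) := by
        have : r ^ 2 - 1 ^ 2 = (r + 1) * (r - 1) := Nat.sq_sub_sq r 1
        simpa using this
      have h5' : τ ^ (r ^ 2 - 1) = 1 := by
        obtain ⟨c, hc'⟩ : 2 ∣ r + 1 := by omega
        rw [hr1, hc', show 2 * c * (r - 1) = 2 * (r - 1) * c by ring, pow_mul, h4, one_pow]
      have hr2 : 1 ≤ r ^ 2 := Nat.one_le_pow _ _ (by omega)
      have h6 : τ ^ (r ^ 2) = τ := by
        rw [show r ^ 2 = r ^ 2 - 1 + 1 by omega, pow_succ, h5', one_mul]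
      -- r is a power of p
      obtain ⟨m, -, hm⟩ : ∃ m, m ≤ f ∧ r = p ^ m := by
        have : r ∣ p ^ f := by rw [← hq', ← hrk]; exact dvd_pow_self r (by omega)
        exact (Nat.dvd_prime_pow hp.out).1 this
      have hadd : ∀ x y : F, (x + y) ^ (r ^ 2) = x ^ (r ^ 2) + y ^ (r ^ 2) := by
        intro x y
        rw [hm, ← pow_mul]
        exact add_pow_char_pow x y p _
      have hsub : ∀ x y : F, (x - y) ^ (r ^ 2) = x ^ (r ^ 2) - y ^ (r ^ 2) := by
        intro x y
        rw [hm, ← pow_mul]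
        exact sub_pow_char_pow x y _
      have h7 : (g ^ (r ^ 2) - σ g ^ (r ^ 2)) * (g + σ g) = (g - σ g) * (g ^ (r ^ 2) + σ g ^ (r ^ 2)) := by
        rw [← hsub, ← hadd]
        have h8 : (g - σ g) = τ * s := by rw [hτ]; field_simp
        rw [h8, mul_pow, h6]; ring
      have h8 : g ^ (r ^ 2) * σ g = g * σ g ^ (r ^ 2) := by
        have : 2 * (g ^ (r ^ 2) * σ g - g * σ g ^ (r ^ 2)) = 0 := by linear_combination h7
        rcases mul_eq_zero.1 this with h | h
        · exact absurd h two0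
        · exact sub_eq_zero.1 h
      rw [hσg, mul_pow] at h8
      have h9 : lam ^ (3 * (q - 1)) = (lam ^ (3 * (q - 1))) ^ (r ^ 2) := by
        have h10 : g ^ (r ^ 2) * g ≠ 0 := mul_ne_zero (pow_ne_zero _ hg0) hg0
        apply mul_left_cancel₀ h10
        linear_combination h8
      have h11 : (lam ^ (3 * (q - 1))) ^ (r ^ 2 - 1) = 1 := by
        have h12 : lam ^ (3 * (q - 1)) ≠ 0 := pow_ne_zero _ hl
        apply mul_left_cancel₀ h12
        rw [← pow_succ', show r ^ 2 - 1 + 1 = r ^ 2 by omega, mul_one]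
        exact h9.symm
      apply hord
      rw [← h11, ← pow_mul]
      congr 1; ring
    · intro h0
      have := congrArg Subtype.val h0
      rw [hni] at this
      exact pow_ne_zero 2 hτ0 (by
        have h1 : -τ ^ 2 = 0 := this
        linear_combination -h1)
  have hco : ∀ f : ℤ[X], ((aeval (nm hσ (lam ^ i)) f : Fx σ) : F) = aeval τ (f.comp (-(Polynomial.X : ℤ[X]) ^ 2)) := by
    intro f
    rw [aeval_comp]
    have h1 : aeval τ (-(Polynomial.X : ℤ[X]) ^ 2) = -τ ^ 2 := by simp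
    rw [h1, ← hni]
    exact (Polynomial.aeval_algHom_apply ((Fx σ).subtype.toIntAlgHom) _ f).symm
  have hgenF : ∀ x : F, ∃ f : ℤ[X], aeval (mu σ (lam ^ i)) f = x := by
    intro x
    have e1 : σ ((x + σ x) / 2) = (x + σ x) / 2 := by
      rw [map_div₀, map_add, hσ, map_ofNat, add_comm]
    have e2 : σ ((x - σ x) / (2 * τ)) = (x - σ x) / (2 * τ) := by
      rw [map_div₀, map_sub, hσ, map_mul, map_ofNat, hστ]
      field_simp
      ring
    obtain ⟨f1, hf1⟩ := hgenK ⟨_, e1⟩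
    obtain ⟨f2, hf2⟩ := hgenK ⟨_, e2⟩
    refine ⟨f1.comp (-(Polynomial.X : ℤ[X]) ^ 2) + (Polynomial.X : ℤ[X]) * f2.comp (-(Polynomial.X : ℤ[X]) ^ 2), ?_⟩
    rw [hmi, map_add, map_mul, Polynomial.aeval_X, ← hco, ← hco, hf1, hf2]
    show (x + σ x) / 2 + τ * ((x - σ x) / (2 * τ)) = x
    field_simp
    ring
  refine ⟨τ, hε, hτ0, fun b hb => ?_⟩
  have hN : 0 < q ^ 2 - 1 := by
    have : 9 ≤ q ^ 2 := by nlinarith
    omega
  obtain ⟨R, h1, h2, h4⟩ := hasB_odd hσ (p := p) hl hN hP.pow hε hτ0 hgenK hgenF hnj hmj hb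
  refine ⟨R, by omega, h2, fun Γ _ h u z hR hgen => ?_⟩
  have := h4 Γ h u z hR hgen
  rw [card_Fx hF, Nat.card_eq_fintype_card (α := F), hF] at this
  refine ⟨this.1, this.2.trans (le_of_eq ?_)⟩
  ring

theorem exists_hasB (hF : Fintype.card F = q ^ 2) (h2 : q ≠ 2) (h5 : q ≠ 5) {lam : F} (hP : Prim hF lam) :
    ∃ (ε : F) (hε : ε + frob hF ε = 0), ε ≠ 0 ∧ ∀ (b : F) (hb : b + frob hF b + 1 * frob hF 1 = 0),
      HasB (frob_frob hF) hP.ne hb hε 15 (q ^ 3 * (q ^ 2 - 1)) := by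
  obtain ⟨p, f, hp, hc, hq', hf⟩ := exists_char hF
  haveI := Fact.mk hp
  by_cases hp2 : p = 2
  · subst hp2
    exact hasB_of_even hF h2 hP
  · exact hasB_of_odd hF h5 hP hp2

end Cfsg.Agent.Lib.PresU3E
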