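import Cfsg.Agent.Lib.PresU3E

/-! Bruhat relations in `SU₃(q)` (helper18). -/

set_option autoImplicit false

namespace Cfsg.Agent.Lib.PresU3F

open Cfsg.Agent.Lib.PresU3C Cfsg.Agent.Lib.SU3Gen

variable {F : Type*} [Field F] {σ : F →+* F} (hσ : ∀ x, σ (σ x) = x)

include hσ in
theorem h1 {a b : F} (h : b + σ b + a * σ a = 0) (hb : b ≠ 0) :
    b⁻¹ + σ b⁻¹ + (-(a * (σ b)⁻¹)) * σ (-(a * (σ b)⁻¹)) = 0 := by
  have hb' : σ b ≠ 0 := (map_ne_zero σ).2 hb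
  simp only [map_neg, map_mul, map_inv₀, hσ]
  field_simp
  linear_combination h

theorem h2 {a b : F} (h : b + σ b + a * σ a = 0) (hb : b ≠ 0) :
    b⁻¹ + σ b⁻¹ + (-(a * b⁻¹)) * σ (-(a * b⁻¹)) = 0 := by
  have hb' : σ b ≠ 0 := (map_ne_zero σ).2 hb
  simp only [map_neg, map_mul, map_inv₀]
  field_simp
  linear_combination h

/-- right factor -/
def xB {a b : F} (h : b + σ b + a * σ a = 0) (hb : b ≠ 0) : UJ σ := X hσ (-(a * b⁻¹)) b⁻¹ (h2 h hb)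

/-- left factor -/
def gB {a b : F} (h : b + σ b + a * σ a = 0) (hb : b ≠ 0) : UJ σ :=
  X hσ (-(a * (σ b)⁻¹)) b⁻¹ (h1 hσ h hb) * T hσ (σ b)⁻¹ (inv_ne_zero ((map_ne_zero σ).2 hb))

theorem bruhat {a b : F} (h : b + σ b + a * σ a = 0) (hb : b ≠ 0) :
    W * X hσ a b h * W = gB hσ h hb * W * xB hσ h hb := by
  have hb' : σ b ≠ 0 := (map_ne_zero σ).2 hb
  have hs : σ b = - b - a * σ a := by linear_combination h
  apply mx_inj
  unfold gB xB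
  rw [mx_mul, mx_mul, mx_mul, mx_mul, mx_mul, mx_W, mx_X, mx_X, mx_X, mx_T, mul3, mul3, mul3, mul3, mul3]
  simp only [map_neg, map_mul, map_inv₀, hσ]
  ext i j; fin_cases i <;> fin_cases j <;> simp <;> field_simp <;>
    first | ring1 | linear_combination h | linear_combination -h

theorem W_sq : (W : UJ σ) * W = 1 := by
  apply mx_inj
  rw [mx_mul, mx_W, mul3, mx_one]
  ext i j; fin_cases i <;> fin_cases j <;> simp

theorem W_T {t : F} (ht : t ≠ 0) : W * T hσ t ht * W = T hσ (σ t)⁻¹ (inv_ne_zero ((map_ne_zero σ).2 ht)) := by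
  apply mx_inj
  rw [mx_mul, mx_mul, mx_W, mx_T, mx_T, mul3, mul3]
  simp only [map_inv₀, hσ]
  ext i j; fin_cases i <;> fin_cases j <;> simp
  field_simp

variable {Γ : Type*} [Group Γ]

/-- a partial model of the Borel subgroup and the Weyl element -/
structure Md (A : Subgroup (UJ σ)) (ψ : UJ σ → Γ) (w : Γ) : Prop where
  hX : ∀ a b (h : b + σ b + a * σ a = 0), X hσ a b h ∈ A
  hT : ∀ t (ht : t ≠ 0), T hσ t ht ∈ A
  mul : ∀ g h, g ∈ A → h ∈ A → ψ (g * h) = ψ g * ψ h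
  ww : w * w = 1
  wT : ∀ t (ht : t ≠ 0), w * ψ (T hσ t ht) * w = ψ (T hσ (σ t)⁻¹ (inv_ne_zero ((map_ne_zero σ).2 ht)))

theorem md_self : Md hσ (⊤ : Subgroup (UJ σ)) id (W : UJ σ) where
  hX := fun _ _ _ => Subgroup.mem_top _
  hT := fun _ _ => Subgroup.mem_top _
  mul := fun _ _ _ _ => rfl
  ww := W_sq
  wT := fun _ ht => W_T hσ ht

variable {A : Subgroup (UJ σ)} {ψ : UJ σ → Γ} {w : Γ}

theorem Md.one (hM : Md hσ A ψ w) : ψ 1 = 1 := by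
  have := hM.mul 1 1 (one_mem _) (one_mem _)
  rw [mul_one] at this
  exact (left_eq_mul.1 this)

theorem Md.inv (hM : Md hσ A ψ w) {g : UJ σ} (hg : g ∈ A) : ψ g⁻¹ = (ψ g)⁻¹ := by
  rw [eq_inv_iff_mul_eq_one, ← hM.mul _ _ (inv_mem hg) hg, inv_mul_cancel, hM.one]

theorem Md.wTl (hM : Md hσ A ψ w) {t s : F} (ht : t ≠ 0) (hs : s ≠ 0) (e : (σ t)⁻¹ = s) :
    w * ψ (T hσ t ht) = ψ (T hσ s hs) * w := by
  subst e
  rw [← hM.wT t ht, mul_assoc _ w w, hM.ww, mul_one]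

theorem Md.xB_mem (hM : Md hσ A ψ w) {a b : F} (h : b + σ b + a * σ a = 0) (hb : b ≠ 0) : xB hσ h hb ∈ A := hM.hX _ _ _

theorem Md.gB_mem (hM : Md hσ A ψ w) {a b : F} (h : b + σ b + a * σ a = 0) (hb : b ≠ 0) : gB hσ h hb ∈ A :=
  mul_mem (hM.hX _ _ _) (hM.hT _ _)

/-- the Bruhat relation -/
def Rl (ψ : UJ σ → Γ) (w : Γ) (a b : F) : Prop := ∀ (h : b + σ b + a * σ a = 0) (hb : b ≠ 0),
  w * ψ (X hσ a b h) * w = ψ (gB hσ h hb) * w * ψ (xB hσ h hb)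

theorem rl_self (a b : F) : Rl hσ id (W : UJ σ) a b := fun h hb => bruhat hσ h hb

theorem g_unique {a b : F} (h : b + σ b + a * σ a = 0) (hb : b ≠ 0) {g : UJ σ}
    (e : W * X hσ a b h * W = g * W * xB hσ h hb) : g = gB hσ h hb := by
  rw [bruhat hσ h hb] at e
  exact (mul_right_cancel (mul_right_cancel e)).symm

theorem mid {x y v : Γ} (hM : v * v = 1) : v * (x * y) * v = (v * x * v) * (v * y * v) := by
  calc v * (x * y) * v = v * x * 1 * y * v := by group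
    _ = v * x * (v * v) * y * v := by rw [hM]
    _ = _ := by group

theorem transfer_aux (hM : Md hσ A ψ w) {t : F} (ht : t ≠ 0) {a b : F} (h : b + σ b + a * σ a = 0) (hb : b ≠ 0)
    (hR : w * ψ (X hσ a b h) * w = ψ (gB hσ h hb) * w * ψ (xB hσ h hb))
    (h' : t * σ t * b + σ (t * σ t * b) + (mu σ t * a) * σ (mu σ t * a) = 0) (hb' : t * σ t * b ≠ 0) :
    w * ψ (X hσ (mu σ t * a) (t * σ t * b) h') * w =
      ψ (T hσ (σ t)⁻¹ (inv_ne_zero ((map_ne_zero σ).2 ht)) * gB hσ h hb * T hσ t⁻¹ (inv_ne_zero ht)) * w * ψ (xB hσ h' hb') := by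
  have hst : σ t ≠ 0 := (map_ne_zero σ).2 ht
  have e1 : X hσ (mu σ t * a) (t * σ t * b) h' = T hσ t ht * X hσ a b h * T hσ t⁻¹ (inv_ne_zero ht) := by
    obtain ⟨h'', e⟩ := T_conj hσ ht h
    have e2 : T hσ t⁻¹ (inv_ne_zero ht) = (T hσ t ht)⁻¹ := by
      rw [eq_inv_iff_mul_eq_one, T_mul]
      rw [T_congr hσ (inv_mul_cancel₀ ht), T_one]
    rw [e2, e]; rfl
  have e3 : xB hσ h hb * T hσ (σ t) hst = T hσ (σ t) hst * xB hσ h' hb' := by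
    rw [eq_comm, ← mul_inv_eq_iff_eq_mul]
    unfold xB
    obtain ⟨h'', e⟩ := T_conj hσ hst (h2 h' hb')
    rw [e]
    apply X_congr
    · rw [mu, hσ]; field_simp
    · rw [hσ]; field_simp
  rw [e1, hM.mul _ _ (mul_mem (hM.hT _ _) (hM.hX _ _ _)) (hM.hT _ _), hM.mul _ _ (hM.hT _ _) (hM.hX _ _ _), mid hM.ww, mid hM.ww,
    hM.wT, hR, hM.wT]
  have e4 : ψ (xB hσ h hb) * ψ (T hσ (σ t⁻¹)⁻¹ (inv_ne_zero ((map_ne_zero σ).2 (inv_ne_zero ht)))) =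
      ψ (T hσ (σ t) hst) * ψ (xB hσ h' hb') := by
    rw [← hM.mul _ _ (hM.hT _ _) (hM.xB_mem hσ _ _), ← e3, hM.mul _ _ (hM.xB_mem hσ _ _) (hM.hT _ _)]
    congr 2
    apply T_congr
    rw [map_inv₀, inv_inv]
  rw [hM.mul _ _ (mul_mem (hM.hT _ _) (hM.gB_mem hσ _ _)) (hM.hT _ _), hM.mul _ _ (hM.hT _ _) (hM.gB_mem hσ _ _)]
  calc _ = ψ (T hσ (σ t)⁻¹ (inv_ne_zero hst)) * ψ (gB hσ h hb) * (w * (ψ (xB hσ h hb) * ψ (T hσ (σ t⁻¹)⁻¹ (inv_ne_zero ((map_ne_zero σ).2 (inv_ne_zero ht)))))) := by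
        simp only [mul_assoc]
    _ = ψ (T hσ (σ t)⁻¹ (inv_ne_zero hst)) * ψ (gB hσ h hb) * ((w * ψ (T hσ (σ t) hst)) * ψ (xB hσ h' hb')) := by rw [e4, mul_assoc w]
    _ = _ := by
        rw [hM.wTl hσ hst (inv_ne_zero ht) (by rw [hσ])]
        simp only [mul_assoc]

theorem transfer (hM : Md hσ A ψ w) {t : F} (ht : t ≠ 0) {a b : F} (h : b + σ b + a * σ a = 0) (hb : b ≠ 0)
    (hR : Rl hσ ψ w a b) : Rl hσ ψ w (mu σ t * a) (t * σ t * b) := by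
  intro h' hb'
  rw [← g_unique hσ h' hb' (transfer_aux hσ (md_self hσ) ht h hb (bruhat hσ h hb) h' hb')]
  exact transfer_aux hσ hM ht h hb (hR h hb) h' hb'

theorem compose_aux (hM : Md hσ A ψ w) {a b b' β : F} (h : b + σ b + a * σ a = 0) (h' : b' + σ b' + a * σ a = 0)
    (hβ : β + σ β + 0 * σ 0 = 0) (hb : b ≠ 0) (hb' : b' ≠ 0) (hβ0 : β ≠ 0) (e : b = b' + β)
    (R1 : w * ψ (X hσ a b' h') * w = ψ (gB hσ h' hb') * w * ψ (xB hσ h' hb'))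
    (R2 : w * ψ (X hσ 0 β hβ) * w = ψ (gB hσ hβ hβ0) * w * ψ (xB hσ hβ hβ0))
    (h3 : b * (b' * β)⁻¹ + σ (b * (b' * β)⁻¹) + (-(a * b'⁻¹)) * σ (-(a * b'⁻¹)) = 0)
    (hb3 : b * (b' * β)⁻¹ ≠ 0)
    (R3 : w * ψ (X hσ (-(a * b'⁻¹)) (b * (b' * β)⁻¹) h3) * w = ψ (gB hσ h3 hb3) * w * ψ (xB hσ h3 hb3)) :
    w * ψ (X hσ a b h) * w = ψ (gB hσ h' hb' * gB hσ h3 hb3 * T hσ (σ β)⁻¹ (inv_ne_zero ((map_ne_zero σ).2 hβ0))) * w *
      ψ (xB hσ h hb) := by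
  have hsβ : σ β = -β := by
    rw [zero_mul, add_zero] at hβ
    linear_combination hβ
  have hsβ0 : σ β ≠ 0 := (map_ne_zero σ).2 hβ0
  have e1 : X hσ a b h = X hσ a b' h' * X hσ 0 β hβ := by
    obtain ⟨h'', e1⟩ := X_mul hσ h' hβ
    rw [e1]
    apply X_congr
    · ring
    · rw [e, map_zero]; ring
  have e2 : xB hσ h' hb' * gB hσ hβ hβ0 = X hσ (-(a * b'⁻¹)) (b * (b' * β)⁻¹) h3 * T hσ (σ β)⁻¹ (inv_ne_zero hsβ0) := by
    unfold xB gB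
    rw [← mul_assoc]
    congr 1
    obtain ⟨h'', e1⟩ := X_mul hσ (h2 h' hb') (h1 hσ hβ hβ0)
    rw [e1]
    apply X_congr
    · ring
    · rw [zero_mul, neg_zero, map_zero, mul_zero, sub_zero, e]; field_simp
  have e3 : xB hσ h3 hb3 * T hσ β hβ0 * xB hσ hβ hβ0 = T hσ β hβ0 * xB hσ h hb := by
    have k0 : (b⁻¹ - β⁻¹) + σ (b⁻¹ - β⁻¹) + (-(a * b⁻¹)) * σ (-(a * b⁻¹)) = 0 := by
      have k1 := h2 h hb
      rw [map_sub, map_inv₀ σ β, hsβ, inv_neg]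
      linear_combination k1
    have k2 : xB hσ h hb = X hσ (-(a * b⁻¹)) (b⁻¹ - β⁻¹) k0 * xB hσ hβ hβ0 := by
      unfold xB
      obtain ⟨h'', k3⟩ := X_mul hσ k0 (h2 hβ hβ0)
      rw [k3]
      apply X_congr
      · ring
      · rw [zero_mul, neg_zero, map_zero, mul_zero]; ring
    rw [k2, ← mul_assoc]
    congr 1
    rw [eq_comm, ← mul_inv_eq_iff_eq_mul]
    obtain ⟨h'', k3⟩ := T_conj hσ hβ0 k0
    rw [k3]
    unfold xB
    apply X_congr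
    · rw [hsβ]; field_simp
    · rw [hsβ]; field_simp; rw [e]; ring
  have xm := fun {a b : F} (h : b + σ b + a * σ a = 0) (hb : b ≠ 0) => hM.xB_mem hσ h hb
  have gm := fun {a b : F} (h : b + σ b + a * σ a = 0) (hb : b ≠ 0) => hM.gB_mem hσ h hb
  have E2 : ψ (xB hσ h' hb') * ψ (gB hσ hβ hβ0) = ψ (X hσ (-(a * b'⁻¹)) (b * (b' * β)⁻¹) h3) * ψ (T hσ (σ β)⁻¹ (inv_ne_zero hsβ0)) := by
    rw [← hM.mul _ _ (xm _ _) (gm _ _), e2, hM.mul _ _ (hM.hX _ _ _) (hM.hT _ _)]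
  have E3 : ψ (xB hσ h3 hb3) * ψ (T hσ β hβ0) * ψ (xB hσ hβ hβ0) = ψ (T hσ β hβ0) * ψ (xB hσ h hb) := by
    rw [← hM.mul _ _ (xm _ _) (hM.hT _ _), ← hM.mul _ _ (mul_mem (xm _ _) (hM.hT _ _)) (xm _ _), e3, hM.mul _ _ (hM.hT _ _) (xm _ _)]
  have E4 : ψ (T hσ (σ β)⁻¹ (inv_ne_zero hsβ0)) * w = w * ψ (T hσ β hβ0) := (hM.wTl hσ hβ0 (inv_ne_zero hsβ0) rfl).symm
  rw [e1, hM.mul _ _ (hM.hX _ _ _) (hM.hX _ _ _), mid hM.ww, R1, R2, hM.mul _ _ (mul_mem (gm _ _) (gm _ _)) (hM.hT _ _),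
    hM.mul _ _ (gm _ _) (gm _ _)]
  calc _ = ψ (gB hσ h' hb') * w * (ψ (xB hσ h' hb') * ψ (gB hσ hβ hβ0)) * w * ψ (xB hσ hβ hβ0) := by simp only [mul_assoc]
    _ = ψ (gB hσ h' hb') * w * ψ (X hσ (-(a * b'⁻¹)) (b * (b' * β)⁻¹) h3) * (ψ (T hσ (σ β)⁻¹ (inv_ne_zero hsβ0)) * w) * ψ (xB hσ hβ hβ0) := by
        rw [E2]; simp only [mul_assoc]
    _ = ψ (gB hσ h' hb') * (w * ψ (X hσ (-(a * b'⁻¹)) (b * (b' * β)⁻¹) h3) * w) * ψ (T hσ β hβ0) * ψ (xB hσ hβ hβ0) := by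
        rw [E4]; simp only [mul_assoc]
    _ = ψ (gB hσ h' hb') * ψ (gB hσ h3 hb3) * w * (ψ (xB hσ h3 hb3) * ψ (T hσ β hβ0) * ψ (xB hσ hβ hβ0)) := by
        rw [R3]; simp only [mul_assoc]
    _ = ψ (gB hσ h' hb') * ψ (gB hσ h3 hb3) * (w * ψ (T hσ β hβ0)) * ψ (xB hσ h hb) := by
        rw [E3]; simp only [mul_assoc]
    _ = _ := by rw [← E4]; simp only [mul_assoc]

theorem compose (hM : Md hσ A ψ w) {a b b' β : F} (h : b + σ b + a * σ a = 0) (h' : b' + σ b' + a * σ a = 0)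
    (hb : b ≠ 0) (hb' : b' ≠ 0) (hβ0 : β ≠ 0) (e : b = b' + β)
    (R1 : Rl hσ ψ w a b') (R2 : Rl hσ ψ w 0 β) (R3 : Rl hσ ψ w (-(a * b'⁻¹)) (b * (b' * β)⁻¹)) : Rl hσ ψ w a b := by
  have hβ : β + σ β + 0 * σ 0 = 0 := by
    have : σ b = σ b' + σ β := by rw [e, map_add]
    rw [zero_mul, add_zero]
    linear_combination h - h' - e - this
  have hsβ : σ β = -β := by
    rw [zero_mul, add_zero] at hβ
    linear_combination hβ
  have hsb' : σ b' ≠ 0 := (map_ne_zero σ).2 hb'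
  have h3 : b * (b' * β)⁻¹ + σ (b * (b' * β)⁻¹) + (-(a * b'⁻¹)) * σ (-(a * b'⁻¹)) = 0 := by
    simp only [map_neg, map_mul, map_inv₀, hsβ]
    field_simp
    linear_combination b * h' - b' * h - a * σ a * e
  have hb3 : b * (b' * β)⁻¹ ≠ 0 := mul_ne_zero hb (inv_ne_zero (mul_ne_zero hb' hβ0))
  intro k kb
  rw [← g_unique hσ k kb (compose_aux hσ (md_self hσ) h h' hβ hb hb' hβ0 e (bruhat hσ _ _) (bruhat hσ _ _) h3 hb3 (bruhat hσ _ _))]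
  exact compose_aux hσ hM h h' hβ hb hb' hβ0 e (R1 _ _) (R2 _ _) h3 hb3 (R3 _ _)

/-- all relations of a given type -/
theorem all_type (hM : Md hσ A ψ w) {E : F} (hE : E * σ E = 1) (hE1 : E ≠ 1)
    (R2 : ∀ β, β ≠ 0 → β + σ β = 0 → Rl hσ ψ w 0 β)
    (R1 : ∀ a b, a ≠ 0 → b + σ b + a * σ a = 0 → σ b = - E * b → Rl hσ ψ w a b) (k : ℕ) :
    ∀ a b, a ≠ 0 → b + σ b + a * σ a = 0 → σ b = - E ^ (k + 1) * b → Rl hσ ψ w a b := by
  induction k with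
  | zero => intro a b ha h hb; exact R1 a b ha h (by rw [hb, zero_add, pow_one])
  | succ k ih =>
    intro a b ha h hsb
    have hsa : σ a ≠ 0 := (map_ne_zero σ).2 ha
    have hE0 : E ≠ 0 := left_ne_zero_of_mul_eq_one hE
    have hb : b ≠ 0 := by
      rintro rfl
      rw [map_zero, zero_add, zero_add] at h
      exact mul_ne_zero ha hsa h
    by_cases hk : E ^ (k + 1) = 1
    · apply R1 a b ha h
      rw [hsb, pow_succ, hk, one_mul]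
    have hd : 1 - E ^ (k + 1) ≠ 0 := sub_ne_zero.2 (Ne.symm hk)
    have hσE : σ (E ^ (k + 1)) * E ^ (k + 1) = 1 := by
      rw [map_pow, ← mul_pow, mul_comm, hE, one_pow]
    have hσd : σ (1 - E ^ (k + 1)) * E ^ (k + 1) = - (1 - E ^ (k + 1)) := by
      rw [map_sub, map_one]; linear_combination -hσE
    have hσd0 : σ (1 - E ^ (k + 1)) ≠ 0 := (map_ne_zero σ).2 hd
    obtain ⟨b', hb'⟩ : ∃ b', b' = -(a * σ a) * (1 - E ^ (k + 1))⁻¹ := ⟨_, rfl⟩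
    have hb'0 : b' ≠ 0 := hb' ▸ mul_ne_zero (neg_ne_zero.2 (mul_ne_zero ha hsa)) (inv_ne_zero hd)
    have hb'd : b' * (1 - E ^ (k + 1)) = -(a * σ a) := by rw [hb', mul_assoc, inv_mul_cancel₀ hd, mul_one]
    have hsb' : σ b' = - E ^ (k + 1) * b' := by
      have k1 := congrArg σ hb'd
      rw [map_mul, map_neg, map_mul, hσ] at k1
      apply mul_right_cancel₀ hσd0
      linear_combination k1 + b' * hσd - hb'd
    have h' : b' + σ b' + a * σ a = 0 := by rw [hsb']; linear_combination hb'd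
    obtain ⟨β, hβ⟩ : ∃ β, β = b - b' := ⟨_, rfl⟩
    have hβ0 : β ≠ 0 := by
      intro h0
      have k1 : b = b' := sub_eq_zero.1 (hβ ▸ h0)
      rw [← k1] at hsb'
      have k2 : E ^ (k + 1) * b * (E - 1) = 0 := by rw [hsb'] at hsb; linear_combination hsb
      rcases mul_eq_zero.1 k2 with k3 | k3
      · exact mul_ne_zero (pow_ne_zero _ hE0) hb k3
      · exact hE1 (sub_eq_zero.1 k3)
    have hsβ : σ β = - β := by
      rw [hβ, map_sub]; linear_combination h - h'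
    refine compose hσ hM h h' hb hb'0 hβ0 (by rw [hβ]; ring) (ih a b' ha h' hsb') (R2 β hβ0 (by rw [hsβ]; ring)) ?_
    have hsb'0 : σ b' ≠ 0 := (map_ne_zero σ).2 hb'0
    apply R1
    · exact neg_ne_zero.2 (mul_ne_zero ha (inv_ne_zero hb'0))
    · simp only [map_neg, map_mul, map_inv₀, hsβ]
      field_simp
      linear_combination b * h' - b' * h + a * σ a * hβ
    · rw [map_mul, map_inv₀, map_mul, hsβ, hsb, hsb']
      have k3 : E ^ (k + 1) ≠ 0 := pow_ne_zero _ hE0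
      field_simp
      ring

end Cfsg.Agent.Lib.PresU3F
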