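import Cfsg.Agent.Lib.PresU3F
import Cfsg.Agent.Lib.PresTool
import Cfsg.Agent.Lib.SU3Gen2
import Cfsg.Agent.Lib.ClUnitary2

/-! Bounded presentations of `SU₃(q)`: counting (helper18). -/

set_option autoImplicit false

namespace Cfsg.Agent.Lib.PresU3G

open Cfsg Cfsg.Agent.Lib.PresTool Cfsg.Agent.Lib.PresU3C Cfsg.Agent.Lib.PresU3D Cfsg.Agent.Lib.PresU3E Cfsg.Agent.Lib.PresU3F
  Cfsg.Agent.Lib.SU3Gen Cfsg.Agent.Lib.ClUnitary Cfsg.Agent.Lib.HermMat

section bound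

variable {F : Type*} [Field F] {σ : F →+* F} (hσ : ∀ x, σ (σ x) = x) {Γ : Type*} [Group Γ] {A : Subgroup (UJ σ)}
  {ψ : UJ σ → Γ} {w : Γ}

/-- parameters of root elements -/
abbrev Us (σ : F →+* F) : Type _ := {p : F × F // p.2 + σ p.2 + p.1 * σ p.1 = 0}

/-- the union of two double cosets -/
def bigS (A : Subgroup (UJ σ)) (ψ : UJ σ → Γ) (w : Γ) : Set Γ :=
  {y | (∃ g ∈ A, y = ψ g) ∨ ∃ g ∈ A, ∃ (a b : F) (h : b + σ b + a * σ a = 0), y = ψ g * w * ψ (X hσ a b h)}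

theorem bigS_mul (hM : Md hσ A ψ w) (hA : ∀ g ∈ A, ∃ (t : F) (ht : t ≠ 0) (a b : F) (h : b + σ b + a * σ a = 0),
      g = T hσ t ht * X hσ a b h) {y : Γ} (hy : y ∈ bigS hσ A ψ w) {g : UJ σ} (hg : g ∈ A) : y * ψ g ∈ bigS hσ A ψ w := by
  rcases hy with ⟨g0, hg0, rfl⟩ | ⟨g0, hg0, a, b, h, rfl⟩
  · left
    exact ⟨g0 * g, mul_mem hg0 hg, (hM.mul _ _ hg0 hg).symm⟩
  · right
    obtain ⟨t, ht, a', b', h', e⟩ := hA _ (mul_mem (hM.hX a b h) hg)
    have hst : (σ t)⁻¹ ≠ 0 := inv_ne_zero ((map_ne_zero σ).2 ht)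
    refine ⟨g0 * T hσ (σ t)⁻¹ hst, mul_mem hg0 (hM.hT _ _), a', b', h', ?_⟩
    rw [mul_assoc, ← hM.mul _ _ (hM.hX a b h) hg, e, hM.mul _ _ (hM.hT _ _) (hM.hX _ _ _), hM.mul _ _ hg0 (hM.hT _ _)]
    calc _ = ψ g0 * (w * ψ (T hσ t ht)) * ψ (X hσ a' b' h') := by simp only [mul_assoc]
      _ = _ := by rw [hM.wTl hσ ht hst rfl]; simp only [mul_assoc]

theorem bigS_mul_w (hM : Md hσ A ψ w) (hR : ∀ a b, Rl hσ ψ w a b) {y : Γ} (hy : y ∈ bigS hσ A ψ w) : y * w ∈ bigS hσ A ψ w := by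
  rcases hy with ⟨g0, hg0, rfl⟩ | ⟨g0, hg0, a, b, h, rfl⟩
  · right
    refine ⟨g0, hg0, 0, 0, by simp, ?_⟩
    rw [X_one, hM.one, mul_one]
  · by_cases hb : b = 0
    · left
      have ha : a = 0 := by
        rw [hb, map_zero, zero_add, zero_add] at h
        rcases mul_eq_zero.1 h with h | h
        · exact h
        · exact (map_eq_zero σ).1 h
      subst ha; subst hb
      refine ⟨g0, hg0, ?_⟩
      rw [X_one, hM.one, mul_one, mul_assoc, hM.ww, mul_one]
    · right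
      refine ⟨g0 * gB hσ h hb, mul_mem hg0 (hM.gB_mem hσ h hb), _, _, h2 h hb, ?_⟩
      rw [hM.mul _ _ hg0 (hM.gB_mem hσ h hb)]
      have := hR a b h hb
      calc _ = ψ g0 * (w * ψ (X hσ a b h) * w) := by simp only [mul_assoc]
        _ = _ := by rw [this]; simp only [mul_assoc]; rfl

theorem bound [Finite A] [Finite (Us σ)] (hM : Md hσ A ψ w) (hR : ∀ a b, Rl hσ ψ w a b)
    (hA : ∀ g ∈ A, ∃ (t : F) (ht : t ≠ 0) (a b : F) (h : b + σ b + a * σ a = 0), g = T hσ t ht * X hσ a b h)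
    (hgen : Subgroup.closure ({y | ∃ g ∈ A, y = ψ g} ∪ {w}) = ⊤) :
    Finite Γ ∧ Nat.card Γ ≤ Nat.card A + Nat.card A * Nat.card (Us σ) := by
  have hwi : w⁻¹ = w := inv_eq_of_mul_eq_one_left hM.ww
  -- the set is everything
  let K : Subgroup Γ :=
    { carrier := {y | ∀ x, x ∈ bigS hσ A ψ w ↔ x * y ∈ bigS hσ A ψ w}
      one_mem' := by intro x; rw [mul_one]
      mul_mem' := by
        intro y y' hy hy' x
        rw [hy x, hy' (x * y), mul_assoc]
      inv_mem' := by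
        intro y hy x
        rw [hy (x * y⁻¹), inv_mul_cancel_right] }
  have hK : K = ⊤ := by
    rw [eq_top_iff, ← hgen, Subgroup.closure_le]
    rintro y (⟨g, hg, rfl⟩ | hy)
    · intro x
      refine ⟨fun hx => bigS_mul hσ hM hA hx hg, fun hx => ?_⟩
      have := bigS_mul hσ hM hA hx (inv_mem hg)
      rwa [hM.inv hσ hg, mul_inv_cancel_right] at this
    · rw [Set.mem_singleton_iff.1 hy]
      intro x
      refine ⟨fun hx => bigS_mul_w hσ hM hR hx, fun hx => ?_⟩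
      have := bigS_mul_w hσ hM hR hx
      rwa [mul_assoc, hM.ww, mul_one] at this
  have hall : ∀ y : Γ, y ∈ bigS hσ A ψ w := by
    intro y
    have h1 : y ∈ K := by rw [hK]; trivial
    have h2 : (1 : Γ) ∈ bigS hσ A ψ w := Or.inl ⟨1, one_mem _, (hM.one).symm⟩
    have := (h1 1).1 h2
    rwa [one_mul] at this
  let f : A ⊕ (A × Us σ) → Γ := fun s => match s with
    | Sum.inl g => ψ g
    | Sum.inr p => ψ p.1 * w * ψ (X hσ p.2.1.1 p.2.1.2 p.2.2)
  have hf : Function.Surjective f := by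
    intro y
    rcases hall y with ⟨g0, hg0, rfl⟩ | ⟨g0, hg0, a, b, h, rfl⟩
    · exact ⟨Sum.inl ⟨g0, hg0⟩, rfl⟩
    · exact ⟨Sum.inr (⟨g0, hg0⟩, ⟨(a, b), h⟩), rfl⟩
  haveI : Finite Γ := Finite.of_surjective f hf
  refine ⟨this, ?_⟩
  have := Nat.card_le_card_of_surjective f hf
  rwa [Nat.card_sum, Nat.card_prod] at this

end bound

section finite

variable {F : Type*} [Field F] [Fintype F] {q : ℕ}

theorem card_Us (hF : Fintype.card F = q ^ 2) : Nat.card (Us (frob hF)) = q ^ 3 := by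
  rw [← SylU3.card_U3 hF]
  apply Nat.card_congr
  refine Equiv.ofBijective (fun p : Us (frob hF) => SylU3.el hF p.1.1 p.1.2 p.2) ⟨?_, ?_⟩
  · rintro ⟨⟨a, b⟩, h⟩ ⟨⟨a', b'⟩, h'⟩ he
    obtain ⟨h1, h2⟩ := SylU3.el_inj he
    apply Subtype.ext
    exact Prod.ext h1 h2
  · intro g
    obtain ⟨a, b, h, rfl⟩ := SylU3.exists_el hF g
    exact ⟨⟨(a, b), h⟩, rfl⟩

open Classical in
theorem card_bor (hF : Fintype.card F = q ^ 2) (A : Subgroup (UJ (frob hF)))
    (hX : ∀ a b h, X (frob_frob hF) a b h ∈ A) (hT : ∀ t ht, T (frob_frob hF) t ht ∈ A) :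
    q ^ 3 * (q ^ 2 - 1) ≤ Nat.card A := by
  have h1 : Nat.card (Fˣ × Us (frob hF)) = q ^ 3 * (q ^ 2 - 1) := by
    rw [Nat.card_prod, card_Us, Nat.card_eq_fintype_card, Fintype.card_units, hF, mul_comm]
  rw [← h1]
  apply Nat.card_le_card_of_injective (fun p : Fˣ × Us (frob hF) =>
    (⟨T (frob_frob hF) p.1 p.1.ne_zero * X (frob_frob hF) p.2.1.1 p.2.1.2 p.2.2, mul_mem (hT _ _) (hX _ _ _)⟩ : A))
  rintro ⟨t, ⟨⟨a, b⟩, h⟩⟩ ⟨t', ⟨⟨a', b'⟩, h'⟩⟩ he
  have h2 := congrArg (fun g : A => mx g.1) he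
  simp only [mx_mul, mx_T, mx_X, mul3] at h2
  have e0 := congrFun (congrFun h2 0) 0
  have e1 := congrFun (congrFun h2 0) 1
  have e2 := congrFun (congrFun h2 0) 2
  simp at e0 e1 e2
  have ht : t = t' := Units.ext e0
  subst ht
  simp at e1 e2
  subst e1; subst e2
  rfl

theorem card_UJ (hF : Fintype.card F = q ^ 2) : Nat.card (UJ (frob hF)) = q ^ 3 * (q ^ 2 - 1) + q ^ 3 * (q ^ 2 - 1) * q ^ 3 := by
  obtain ⟨A, Φ, -, -⟩ := SU3Gen.exists_equiv hF
  have hq := two_le_q hF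
  rw [Nat.card_congr Φ.toEquiv]
  have h1 := ClUnitary.card_SU (n := 3) hF (by norm_num)
  have h2 : (∏ i ∈ Finset.range 3, (if Even i then q ^ (i + 1) + 1 else q ^ (i + 1) - 1)) = (q + 1) * (q ^ 2 - 1) * (q ^ 3 + 1) := by
    rw [Finset.prod_range_succ, Finset.prod_range_succ, Finset.prod_range_one]
    have e1 : Even 0 := by decide
    have e2 : ¬ Even 1 := by decide
    have e3 : Even 2 := by decide
    rw [if_pos e1, if_neg e2, if_pos e3]
    simp
  rw [h2] at h1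
  have h3 : (q + 1) * Nat.card (SU 3 F q) = (q + 1) * (q ^ 3 * (q ^ 2 - 1) + q ^ 3 * (q ^ 2 - 1) * q ^ 3) := by
    rw [h1]
    norm_num
    ring
  exact Nat.eq_of_mul_eq_mul_left (by omega) h3

theorem mem_all (hF : Fintype.card F = q ^ 2) (hq : 3 ≤ q) {lam : F} (hP : Prim hF lam) (K : Subgroup (UJ (frob hF)))
    (h1 : T (frob_frob hF) lam hP.ne ∈ K) {b : F} {hb : b + frob hF b + 1 * frob hF 1 = 0}
    (h2 : X (frob_frob hF) 1 b hb ∈ K) :
    (∀ a b h, X (frob_frob hF) a b h ∈ K) ∧ ∀ t ht, T (frob_frob hF) t ht ∈ K := by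
  constructor
  · obtain ⟨τ, hτ⟩ := exists_trace hF (c := 1) (one_pow q)
    apply all_X_mem (frob_frob hF) K _ (τ := τ) hτ
    intro x
    apply exists_mem (frob_frob hF) K h2 one_ne_zero h1 (l := lam)
    · rw [mul_vec3, mx_T]; simp
    · have hs : (frob hF lam) ≠ 0 := (map_ne_zero _).2 hP.ne
      apply closure_eq_top
      · intro r k hrk hk h3
        rw [hF] at hrk
        have hr2 : 2 ≤ r := by
          rcases Nat.lt_or_ge r 2 with h | h
          · interval_cases r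
            · rw [zero_pow (by omega)] at hrk
              have : 0 < q ^ 2 := by positivity
              omega
            · rw [one_pow] at hrk
              have : 9 ≤ q ^ 2 := by nlinarith
              omega
          · exact h
        have hrq : r ≤ q := by
          have h4 : r ^ 2 ≤ q ^ 2 := by rw [← hrk]; exact Nat.pow_le_pow_right (by omega) hk
          exact (Nat.pow_le_pow_iff_left (by norm_num)).1 h4
        have h4 : lam ^ ((q - 2) * (r - 1)) = 1 := by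
          have h5 : lam ^ (2 * (r - 1)) * (lam ^ (q * (r - 1)))⁻¹ = 1 := by
            rw [frob_apply, mul_pow, inv_pow, ← pow_mul, ← pow_mul] at h3
            exact h3
          have h6 : lam ^ (q * (r - 1)) ≠ 0 := pow_ne_zero _ hP.ne
          have h7 : lam ^ (q * (r - 1)) = lam ^ ((q - 2) * (r - 1)) * lam ^ (2 * (r - 1)) := by
            rw [← pow_add, ← add_mul]; congr 2; omega
          have h8 : lam ^ (2 * (r - 1)) = lam ^ (q * (r - 1)) := by
            have := congrArg (· * lam ^ (q * (r - 1))) h5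
            simpa [h6] using this
          have h9 : lam ^ (2 * (r - 1)) ≠ 0 := pow_ne_zero _ hP.ne
          apply mul_right_cancel₀ h9
          rw [← h7, one_mul, h8]
        have h5 := hP.ord _ h4
        have h6 : 0 < (q - 2) * (r - 1) := Nat.mul_pos (by omega) (by omega)
        have h7 := Nat.le_of_dvd h6 h5
        have h8 : (q - 2) * (r - 1) ≤ (q - 2) * (q - 1) := Nat.mul_le_mul_left _ (by omega)
        obtain ⟨m, rfl⟩ : ∃ m, q = m + 3 := ⟨q - 3, by omega⟩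
        have h9 : (m + 3) ^ 2 - 1 ≤ (m + 3 - 2) * (m + 3 - 1) := h7.trans h8
        have h10 : m + 3 - 2 = m + 1 := by omega
        have h11 : m + 3 - 1 = m + 2 := by omega
        rw [h10, h11] at h9
        have h12 : (m + 3) ^ 2 ≤ (m + 1) * (m + 2) + 1 := by omega
        nlinarith
      · exact mul_ne_zero (pow_ne_zero _ hP.ne) (inv_ne_zero hs)
  · intro t ht
    obtain ⟨k, hk⟩ := hP.gen t ht
    subst hk
    rw [← T_pow (frob_frob hF) hP.ne]
    exact pow_mem h1 k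

theorem top_of_mem (hF : Fintype.card F = q ^ 2) (hq : 3 ≤ q) (K : Subgroup (UJ (frob hF)))
    (hX : ∀ a b h, X (frob_frob hF) a b h ∈ K) (hW : W ∈ K) : K = ⊤ := by
  apply SU3Gen.hgenT hF hq K
  intro v c t hv ht
  refine transvection_mem (frob_frob hF) K hX hW ?_ hv ht
  rintro ⟨l, hl⟩
  have := congrFun hl 2
  rw [mul_vec3, mx_W] at this
  simp at this

end finite

end Cfsg.Agent.Lib.PresU3G
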