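import Cfsg.Agent.Lib.PresU3G

/-! Bounded presentations of `SU₃(q)`: assembly (helper18). -/

set_option autoImplicit false

namespace Cfsg.Agent.Lib.PresU3H

open Cfsg Cfsg.Agent.Lib.PresTool Cfsg.Agent.Lib.PresU3C Cfsg.Agent.Lib.PresU3D Cfsg.Agent.Lib.PresU3E Cfsg.Agent.Lib.PresU3F
  Cfsg.Agent.Lib.PresU3G Cfsg.Agent.Lib.SU3Gen Cfsg.Agent.Lib.ClUnitary Cfsg.Agent.Lib.HermMat

section type

variable {F : Type*} [Field F] {σ : F →+* F} (hσ : ∀ x, σ (σ x) = x)

/-- the normalized second coordinate -/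
def bE (σ : F →+* F) (E c : F) : F := -(c * σ c) * (1 - E)⁻¹

theorem bE_mul {E : F} (hE1 : E ≠ 1) (c : F) : bE σ E c * (1 - E) = -(c * σ c) := by
  unfold bE
  rw [mul_assoc, inv_mul_cancel₀ (sub_ne_zero.2 (Ne.symm hE1)), mul_one]

include hσ in
theorem bE_sigma {E : F} (hE : E * σ E = 1) (hE1 : E ≠ 1) (c : F) : σ (bE σ E c) = - E * bE σ E c := by
  have hd : 1 - E ≠ 0 := sub_ne_zero.2 (Ne.symm hE1)
  have hσd0 : σ (1 - E) ≠ 0 := (map_ne_zero σ).2 hd
  have h1 := bE_mul (σ := σ) hE1 c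
  have k1 := congrArg σ h1
  rw [map_mul, map_neg, map_mul, hσ] at k1
  apply mul_right_cancel₀ hσd0
  have hσd : σ (1 - E) * E = - (1 - E) := by
    rw [map_sub, map_one]; linear_combination -hE
  linear_combination k1 + bE σ E c * hσd - h1

include hσ in
theorem bE_spec {E : F} (hE : E * σ E = 1) (hE1 : E ≠ 1) (c : F) : bE σ E c + σ (bE σ E c) + c * σ c = 0 := by
  rw [bE_sigma hσ hE hE1]
  linear_combination bE_mul (σ := σ) hE1 c

theorem bE_ne {E : F} (hE1 : E ≠ 1) {c : F} (hc : c ≠ 0) : bE σ E c ≠ 0 :=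
  mul_ne_zero (neg_ne_zero.2 (mul_ne_zero hc ((map_ne_zero σ).2 hc))) (inv_ne_zero (sub_ne_zero.2 (Ne.symm hE1)))

end type

section rel

variable {F : Type*} [Field F] [Fintype F] {q : ℕ} {Γ : Type*} [Group Γ]

theorem E_ne (hF : Fintype.card F = q ^ 2) {lam : F} (hP : Prim hF lam) : lam ^ (q - 1) ≠ 1 := by
  have hq := two_le_q hF
  intro h
  have h1 := hP.ord _ h
  have h2 := Nat.le_of_dvd (by omega) h1
  have h3 : q ^ 2 - 1 = (q + 1) * (q - 1) := sq_sub_one q
  rw [h3] at h2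
  have h4 : 3 * (q - 1) ≤ (q + 1) * (q - 1) := Nat.mul_le_mul_right _ (by omega)
  omega

theorem E_norm (hF : Fintype.card F = q ^ 2) {lam : F} (hP : Prim hF lam) : lam ^ (q - 1) * frob hF (lam ^ (q - 1)) = 1 := by
  rw [frob_apply, ← pow_succ', ← pow_mul, mul_comm, ← sq_sub_one]
  exact hP.pow

theorem all_rel (hF : Fintype.card F = q ^ 2) {lam : F} (hP : Prim hF lam) {A : Subgroup (UJ (frob hF))}
    {ψ : UJ (frob hF) → Γ} {w : Γ} (hM : Md (frob_frob hF) A ψ w) {ε : F} (hε0 : ε ≠ 0) (hε : ε + frob hF ε = 0)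
    (R0 : Rl (frob_frob hF) ψ w 0 ε)
    (Rc : ∀ r < 3, Rl (frob_frob hF) ψ w (lam ^ r) (bE (frob hF) (lam ^ (q - 1)) (lam ^ r))) (a b : F) :
    Rl (frob_frob hF) ψ w a b := by
  have hσ := frob_frob hF
  have hq := two_le_q hF
  have hE1 := E_ne hF hP
  have hE := E_norm hF hP
  have hσp : ∀ x, frob hF x = x ^ q := frob_apply hF
  have hl := hP.ne
  have hsε : frob hF ε = -ε := by linear_combination hε
  have R2 : ∀ β, β ≠ 0 → β + frob hF β = 0 → Rl hσ ψ w 0 β := by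
    intro β hβ0 hβ
    have hsβ : frob hF β = -β := by linear_combination hβ
    have hc : (β / ε) ^ q = β / ε := by
      rw [← hσp, map_div₀, hsβ, hsε, neg_div_neg_eq]
    obtain ⟨t, ht⟩ := exists_norm hF hc
    have ht0 : t ≠ 0 := by
      rintro rfl
      rw [zero_pow (by omega)] at ht
      exact div_ne_zero hβ0 hε0 ht.symm
    have h0 : ε + frob hF ε + 0 * frob hF 0 = 0 := by rw [zero_mul, add_zero]; exact hε
    have := transfer hσ hM ht0 h0 hε0 R0
    rw [mul_zero] at this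
    have e : t * frob hF t * ε = β := by
      rw [hσp, ← pow_succ', ht]; field_simp
    rwa [e] at this
  have R1 : ∀ a b, a ≠ 0 → b + frob hF b + a * frob hF a = 0 → frob hF b = - lam ^ (q - 1) * b → Rl hσ ψ w a b := by
    intro a b ha h hsb
    obtain ⟨m, hm⟩ := hP.gen a ha
    obtain ⟨y, hy⟩ : ∃ y, y = lam ^ (m / 3) := ⟨_, rfl⟩
    obtain ⟨c, hc⟩ : ∃ c, c = lam ^ (m % 3) := ⟨_, rfl⟩
    have hy0 : y ≠ 0 := hy ▸ pow_ne_zero _ hl
    have hc0 : c ≠ 0 := hc ▸ pow_ne_zero _ hl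
    have hsy0 : frob hF y ≠ 0 := (map_ne_zero _).2 hy0
    have ht0 : y * (y * frob hF y) ≠ 0 := mul_ne_zero hy0 (mul_ne_zero hy0 hsy0)
    have hmu : mu (frob hF) (y * (y * frob hF y)) = y ^ 3 := by
      rw [mu, map_mul, map_mul, hσ]; field_simp
    have hac : a = mu (frob hF) (y * (y * frob hF y)) * c := by
      rw [hmu, ← hm, hy, hc, ← pow_mul, ← pow_add]
      congr 1; omega
    have hcb := bE_spec hσ hE hE1 c
    have hR := transfer hσ hM ht0 hcb (bE_ne hE1 hc0) (by rw [hc]; exact Rc _ (Nat.mod_lt _ (by norm_num)))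
    have hbb : b = (y * (y * frob hF y)) * frob hF (y * (y * frob hF y)) * bE (frob hF) (lam ^ (q - 1)) c := by
      have hd : 1 - lam ^ (q - 1) ≠ 0 := sub_ne_zero.2 (Ne.symm hE1)
      apply mul_right_cancel₀ hd
      have k1 := bE_mul (σ := frob hF) hE1 c
      have k2 : a * frob hF a = (y * (y * frob hF y)) * frob hF (y * (y * frob hF y)) * (c * frob hF c) := by
        rw [hac, hmu, map_mul, map_pow]
        simp only [map_mul, hσ]
        ring
      rw [hsb] at h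
      linear_combination h - k2 - (y * (y * frob hF y)) * frob hF (y * (y * frob hF y)) * k1
    rw [← hac, ← hbb] at hR
    exact hR
  intro h hb
  by_cases ha : a = 0
  · subst ha
    exact R2 b hb (by rw [zero_mul, add_zero] at h; exact h) h hb
  · have hsb0 : frob hF b ≠ 0 := (map_ne_zero _).2 hb
    have hE' : -(frob hF b / b) ≠ 0 := neg_ne_zero.2 (div_ne_zero hsb0 hb)
    obtain ⟨m, hm⟩ := hP.gen _ hE'
    have h1 : lam ^ (m * (q + 1)) = 1 := by
      rw [pow_mul, hm, pow_succ, ← hσp, map_neg, map_div₀, hσ]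
      field_simp
    have h2 := hP.ord _ h1
    rw [sq_sub_one, mul_comm m] at h2
    obtain ⟨k, hk⟩ := Nat.dvd_of_mul_dvd_mul_left (by omega) h2
    have h3 : frob hF b = - (lam ^ (q - 1)) ^ k * b := by
      rw [← pow_mul, ← hk, hm]; field_simp
    rcases k with _ | k
    · exfalso
      rw [pow_zero] at h3
      have h4 : a * frob hF a = 0 := by rw [h3] at h; linear_combination h
      exact mul_ne_zero ha ((map_ne_zero _).2 ha) h4
    · exact all_type hσ hM hE hE1 R2 R1 k a b ha h h3 h hb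

end rel

section main

variable {F : Type*} [Field F] [Fintype F] {q : ℕ}

theorem lift_map_castSucc {n : ℕ} {Γ : Type*} [Group Γ] (x : Fin (n + 1) → Γ) (V : FreeGroup (Fin n)) :
    FreeGroup.lift x (FreeGroup.map Fin.castSucc V) = FreeGroup.lift (fun i => x (Fin.castSucc i)) V := by
  have : (FreeGroup.lift x).comp (FreeGroup.map Fin.castSucc) = FreeGroup.lift (fun i => x (Fin.castSucc i)) := by
    ext i
    simp
  exact DFunLike.congr_fun this V

theorem bor_form (hF : Fintype.card F = q ^ 2) (A : Subgroup (UJ (frob hF)))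
    (hX : ∀ a b h, X (frob_frob hF) a b h ∈ A) (hT : ∀ t ht, T (frob_frob hF) t ht ∈ A)
    (hc : Nat.card A ≤ q ^ 3 * (q ^ 2 - 1)) (g : UJ (frob hF)) (hg : g ∈ A) :
    ∃ (t : F) (ht : t ≠ 0) (a b : F) (h : b + frob hF b + a * frob hF a = 0),
      g = T (frob_frob hF) t ht * X (frob_frob hF) a b h := by
  classical
  have h1 : Nat.card (Fˣ × Us (frob hF)) = q ^ 3 * (q ^ 2 - 1) := by
    rw [Nat.card_prod, card_Us, Nat.card_eq_fintype_card, Fintype.card_units, hF, mul_comm]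
  let f : (Fˣ × Us (frob hF)) → A := fun p =>
    ⟨T (frob_frob hF) p.1 p.1.ne_zero * X (frob_frob hF) p.2.1.1 p.2.1.2 p.2.2, mul_mem (hT _ _) (hX _ _ _)⟩
  have hf : Function.Injective f := by
    rintro ⟨t, ⟨⟨a, b⟩, h⟩⟩ ⟨t', ⟨⟨a', b'⟩, h'⟩⟩ he
    have h2 := congrArg (fun g : A => mx g.1) he
    simp only [f, mx_mul, mx_T, mx_X, mul3] at h2
    have e0 := congrFun (congrFun h2 0) 0
    have e1 := congrFun (congrFun h2 0) 1
    have e2 := congrFun (congrFun h2 0) 2
    simp at e0 e1 e2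
    have ht : t = t' := Units.ext e0
    subst ht
    simp at e1 e2
    subst e1; subst e2
    rfl
  have hs := (hf.bijective_of_nat_card_le (by rw [h1]; exact hc)).2
  obtain ⟨p, hp⟩ := hs ⟨g, hg⟩
  exact ⟨p.1, p.1.ne_zero, p.2.1.1, p.2.1.2, p.2.2, (congrArg Subtype.val hp).symm⟩

theorem pres_UJ (hF : Fintype.card F = q ^ 2) (hq : 3 ≤ q) {lam : F} (hP : Prim hF lam) {ε : F}
    (hε : ε + frob hF ε = 0) (hε0 : ε ≠ 0) {b : F} (hb : b + frob hF b + 1 * frob hF 1 = 0) {r : ℕ}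
    (hB : HasB (frob_frob hF) hP.ne hb hε r (q ^ 3 * (q ^ 2 - 1))) :
    ∃ rels : Finset (FreeGroup (Fin 3)), rels.card ≤ r + 6 ∧
      Nonempty (PresentedGroup (rels : Set (FreeGroup (Fin 3))) ≃* UJ (frob hF)) := by
  classical
  obtain ⟨R, hRc, hR1, hR2⟩ := hB
  have hσ := frob_frob hF
  have hE1 := E_ne hF hP
  have hE := E_norm hF hP
  have hl := hP.ne
  set X3 : Fin 3 → UJ (frob hF) := ![T (frob_frob hF) lam hP.ne, X (frob_frob hF) 1 b hb, yz (frob_frob hF) hε 1] with hX3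
  obtain ⟨A, hA⟩ : ∃ A, Subgroup.closure (Set.range X3) = A := ⟨_, rfl⟩
  have hm0 : T (frob_frob hF) lam hP.ne ∈ A := hA ▸ Subgroup.subset_closure ⟨0, rfl⟩
  have hm1 : X (frob_frob hF) 1 b hb ∈ A := hA ▸ Subgroup.subset_closure ⟨1, rfl⟩
  obtain ⟨hAX, hAT⟩ := mem_all hF hq hP A hm0 hm1
  -- the presented Borel subgroup
  have hP3 := hR2 (PresentedGroup (R : Set (FreeGroup (Fin 3)))) (PresentedGroup.of 0) (PresentedGroup.of 1)
    (PresentedGroup.of 2) (by
      intro V hV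
      have e : (![PresentedGroup.of 0, PresentedGroup.of 1, PresentedGroup.of 2] : Fin 3 → PresentedGroup (R : Set (FreeGroup (Fin 3)))) =
        fun i => PresentedGroup.of i := by
        funext i; fin_cases i <;> rfl
      rw [e, ← mk_eq_lift]
      exact PresentedGroup.one_of_mem hV) (by
      rw [eq_top_iff, ← PresentedGroup.closure_range_of (R : Set (FreeGroup (Fin 3))), Subgroup.closure_le]
      rintro _ ⟨i, rfl⟩
      fin_cases i
      · exact Subgroup.subset_closure (Or.inl rfl)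
      · exact Subgroup.subset_closure (Or.inr (Or.inl rfl))
      · exact Subgroup.subset_closure (Or.inr (Or.inr rfl)))
  have hcA := card_bor hF A hAX hAT
  have hcA' : Nat.card A ≤ q ^ 3 * (q ^ 2 - 1) := by
    obtain ⟨e, -⟩ := pres_iso (R : Set (FreeGroup (Fin 3))) X3 A hA (fun V hV => hR1 V hV) hP3.1 (hP3.2.trans hcA)
    rw [← Nat.card_congr e.toEquiv]
    exact hP3.2
  have hbor := bor_form hF A hAX hAT hcA'
  -- words
  have hwd : ∀ g : UJ (frob hF), ∃ V : FreeGroup (Fin 3), g ∈ A → FreeGroup.lift X3 V = g := by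
    intro g
    by_cases hg : g ∈ A
    · obtain ⟨V, hV⟩ := word_of_mem (X := X3) (g := g) (hA ▸ hg)
      exact ⟨V, fun _ => hV⟩
    · exact ⟨1, fun h => absurd h hg⟩
  choose wd hwd using hwd
  let m : FreeGroup (Fin 3) →* FreeGroup (Fin 4) := FreeGroup.map Fin.castSucc
  let ω : FreeGroup (Fin 4) := FreeGroup.of 3
  let rr : UJ (frob hF) → UJ (frob hF) → UJ (frob hF) → FreeGroup (Fin 4) :=
    fun x g y => ω * m (wd x) * ω * (m (wd g) * ω * m (wd y))⁻¹
  have hε' : ε + frob hF ε + 0 * frob hF 0 = 0 := by rw [zero_mul, add_zero]; exact hε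
  let rr0 : FreeGroup (Fin 4) := rr (X hσ 0 ε hε') (gB hσ hε' hε0) (xB hσ hε' hε0)
  have hlp : ∀ k : ℕ, lam ^ k ≠ 0 := fun k => pow_ne_zero k hl
  let rrc : ℕ → FreeGroup (Fin 4) := fun k => rr (X hσ (lam ^ k) _ (bE_spec hσ hE hE1 (lam ^ k)))
    (gB hσ (bE_spec hσ hE hE1 (lam ^ k)) (bE_ne hE1 (hlp k))) (xB hσ (bE_spec hσ hE hE1 (lam ^ k)) (bE_ne hE1 (hlp k)))
  let rels4 : Finset (FreeGroup (Fin 4)) := R.image m ∪
    ({ω * ω, ω * FreeGroup.of 0 * ω * FreeGroup.of 0 ^ q, rr0} ∪ (Finset.range 3).image rrc)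
  have hcard4 : rels4.card ≤ r + 6 := by
    refine (Finset.card_union_le _ _).trans ?_
    refine Nat.add_le_add (Finset.card_image_le.trans hRc) ?_
    refine (Finset.card_union_le _ _).trans ?_
    have h3 : ((Finset.range 3).image rrc).card ≤ 3 := Finset.card_image_le.trans (by rw [Finset.card_range])
    exact Nat.add_le_add (Finset.card_le_three) h3
  have hmem4 : ∀ V, V ∈ rels4 ↔ (∃ U ∈ R, m U = V) ∨ (V = ω * ω ∨ V = ω * FreeGroup.of 0 * ω * FreeGroup.of 0 ^ q ∨ V = rr0) ∨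
      ∃ k < 3, rrc k = V := by
    intro V
    simp only [rels4, Finset.mem_union, Finset.mem_image, Finset.mem_insert, Finset.mem_singleton, Finset.mem_range]
  -- the relations hold in the unitary group
  let X4 : Fin 4 → UJ (frob hF) := ![T (frob_frob hF) lam hP.ne, X (frob_frob hF) 1 b hb, yz (frob_frob hF) hε 1, W]
  have hX43 : (fun i => X4 (Fin.castSucc i)) = X3 := by
    funext i; fin_cases i <;> rfl
  have hX4m : ∀ V, FreeGroup.lift X4 (m V) = FreeGroup.lift X3 V := by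
    intro V
    rw [← hX43]
    exact lift_map_castSucc X4 V
  have hX4ω : FreeGroup.lift X4 ω = W := FreeGroup.lift_apply_of
  have hX40 : FreeGroup.lift X4 (FreeGroup.of 0) = T (frob_frob hF) lam hP.ne := FreeGroup.lift_apply_of
  have hrr4 : ∀ x g y, x ∈ A → g ∈ A → y ∈ A → W * x * W = g * W * y → FreeGroup.lift X4 (rr x g y) = 1 := by
    intro x g y hx hg hy e
    simp only [rr, map_mul, map_inv, hX4m, hX4ω]
    rw [hwd x hx, hwd g hg, hwd y hy, e, mul_inv_cancel]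
  have hrel4 : ∀ V ∈ (rels4 : Set (FreeGroup (Fin 4))), FreeGroup.lift X4 V = 1 := by
    intro V hV
    rcases (hmem4 V).1 hV with ⟨U, hU, rfl⟩ | (rfl | rfl | rfl) | ⟨k, -, rfl⟩
    · rw [hX4m]; exact hR1 U hU
    · rw [map_mul, hX4ω, W_sq]
    · rw [map_mul, map_mul, map_mul, map_pow, hX4ω, hX40, W_T, T_pow, T_mul]
      rw [T_congr hσ (t := 1) (by
        rw [frob_apply]
        exact inv_mul_cancel₀ (pow_ne_zero _ hl)), T_one]
    · exact hrr4 _ _ _ (hAX _ _ _) (mul_mem (hAX _ _ _) (hAT _ _)) (hAX _ _ _) (bruhat hσ _ _)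
    · exact hrr4 _ _ _ (hAX _ _ _) (mul_mem (hAX _ _ _) (hAT _ _)) (hAX _ _ _) (bruhat hσ _ _)
  have hgen4 : Subgroup.closure (Set.range X4) = ⊤ := by
    obtain ⟨h1, -⟩ := mem_all hF hq hP (hb := hb) (Subgroup.closure (Set.range X4)) (Subgroup.subset_closure ⟨0, rfl⟩)
      (Subgroup.subset_closure ⟨1, rfl⟩)
    exact top_of_mem hF hq _ h1 (Subgroup.subset_closure ⟨3, rfl⟩)
  -- the bound
  have hbd : Finite (PresentedGroup (rels4 : Set (FreeGroup (Fin 4)))) ∧
      Nat.card (PresentedGroup (rels4 : Set (FreeGroup (Fin 4)))) ≤ Nat.card (⊤ : Subgroup (UJ (frob hF))) := by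
    let x : Fin 4 → PresentedGroup (rels4 : Set (FreeGroup (Fin 4))) := fun i => PresentedGroup.of i
    have hx : ∀ V ∈ rels4, FreeGroup.lift x V = 1 := by
      intro V hV
      rw [← mk_eq_lift]
      exact PresentedGroup.one_of_mem hV
    let x3 : Fin 3 → PresentedGroup (rels4 : Set (FreeGroup (Fin 4))) := fun i => x (Fin.castSucc i)
    have hxm : ∀ V, FreeGroup.lift x (m V) = FreeGroup.lift x3 V := fun V => lift_map_castSucc x V
    obtain ⟨φ, hφ, -⟩ := pres_univ (R : Set (FreeGroup (Fin 3))) X3 A hA (fun V hV => hR1 V hV) hP3.1 (hP3.2.trans hcA) x3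
      (by
        intro V hV
        rw [← hxm]
        exact hx _ ((hmem4 _).2 (Or.inl ⟨V, hV, rfl⟩)))
    let ψ : UJ (frob hF) → PresentedGroup (rels4 : Set (FreeGroup (Fin 4))) := fun g => if h : g ∈ A then φ ⟨g, h⟩ else 1
    have hψ : ∀ g (hg : g ∈ A), ψ g = φ ⟨g, hg⟩ := fun g hg => dif_pos hg
    have hψl : ∀ V g, g ∈ A → FreeGroup.lift X3 V = g → ψ g = FreeGroup.lift x3 V := by
      intro V g hg e
      subst e
      rw [hψ _ hg, hφ]
    have hψw : ∀ g, g ∈ A → FreeGroup.lift x (m (wd g)) = ψ g := by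
      intro g hg
      rw [hxm]
      exact (hψl _ _ hg (hwd g hg)).symm
    have hψ0 : ψ (T (frob_frob hF) lam hP.ne) = x 0 := by
      rw [hψl (FreeGroup.of 0) _ hm0 FreeGroup.lift_apply_of, FreeGroup.lift_apply_of]; rfl
    have hψmul : ∀ g h, g ∈ A → h ∈ A → ψ (g * h) = ψ g * ψ h := by
      intro g h hg hh
      rw [hψ _ hg, hψ _ hh, hψ _ (mul_mem hg hh), ← map_mul]; rfl
    have hww : x 3 * x 3 = 1 := by
      have := hx (ω * ω) ((hmem4 _).2 (Or.inr (Or.inl (Or.inl rfl))))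
      rw [map_mul] at this
      simpa [ω] using this
    have hwh : x 3 * x 0 * x 3 * x 0 ^ q = 1 := by
      have := hx (ω * FreeGroup.of 0 * ω * FreeGroup.of 0 ^ q) ((hmem4 _).2 (Or.inr (Or.inl (Or.inr (Or.inl rfl)))))
      rw [map_mul, map_mul, map_mul, map_pow] at this
      simpa [ω] using this
    have hw3 : (x 3)⁻¹ = x 3 := inv_eq_of_mul_eq_one_left hww
    have hψpow : ∀ k : ℕ, ψ (T (frob_frob hF) lam hP.ne ^ k) = x 0 ^ k := by
      intro k
      induction k with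
      | zero =>
        rw [pow_zero, pow_zero, hψ _ (one_mem _)]
        exact map_one φ
      | succ k ih => rw [pow_succ, hψmul _ _ (pow_mem hm0 k) hm0, ih, hψ0, pow_succ]
    have hM : Md hσ A ψ (x 3) := by
      refine ⟨hAX, hAT, hψmul, hww, ?_⟩
      intro t ht
      obtain ⟨k, hk⟩ := hP.gen t ht
      subst hk
      have e1 : T hσ (lam ^ k) ht = T (frob_frob hF) lam hP.ne ^ k := (T_pow hσ hl k).symm
      have e2 : T hσ (frob hF (lam ^ k))⁻¹ (inv_ne_zero ((map_ne_zero (frob hF)).2 ht)) * T (frob_frob hF) lam hP.ne ^ (k * q) = 1 := by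
        rw [T_pow, T_mul, T_congr hσ (t := 1) (by
          rw [frob_apply, ← pow_mul]
          exact inv_mul_cancel₀ (pow_ne_zero _ hl)), T_one]
      have e3 : ψ (T hσ (frob hF (lam ^ k))⁻¹ (inv_ne_zero ((map_ne_zero (frob hF)).2 ht))) * x 0 ^ (k * q) = 1 := by
        rw [← hψpow, ← hψmul _ _ (hAT _ _) (pow_mem hm0 _), e2, hψ _ (one_mem _)]
        exact map_one φ
      have e4 : x 3 * x 0 ^ k * x 3 * x 0 ^ (k * q) = 1 := by
        have h1 : x 3 * x 0 * (x 3)⁻¹ = (x 0 ^ q)⁻¹ := by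
          rw [hw3]; exact eq_inv_of_mul_eq_one_left hwh
        have h2 : x 3 * x 0 ^ k * (x 3)⁻¹ = (x 0 ^ (k * q))⁻¹ := by
          rw [← conj_pow, h1, inv_pow, ← pow_mul, mul_comm q k]
        rw [hw3] at h2
        rw [h2, inv_mul_cancel]
      rw [e1, hψpow]
      exact mul_right_cancel (e4.trans e3.symm)
    have hrel : ∀ x' g y, x' ∈ A → g ∈ A → y ∈ A → FreeGroup.lift x (rr x' g y) = 1 → x 3 * ψ x' * x 3 = ψ g * x 3 * ψ y := by
      intro x' g y hx' hg hy e
      simp only [rr, map_mul, map_inv, hψw _ hx', hψw _ hg, hψw _ hy] at e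
      have e0 : FreeGroup.lift x ω = x 3 := FreeGroup.lift_apply_of
      rw [e0] at e
      exact mul_inv_eq_one.1 e
    have hR : ∀ a b, Rl hσ ψ (x 3) a b := by
      apply all_rel hF hP hM hε0 hε
      · intro h h0
        exact hrel _ _ _ (hAX _ _ _) (hM.gB_mem hσ _ _) (hM.xB_mem hσ _ _)
          (hx rr0 ((hmem4 _).2 (Or.inr (Or.inl (Or.inr (Or.inr rfl))))))
      · intro k hk h h0
        exact hrel _ _ _ (hAX _ _ _) (hM.gB_mem hσ _ _) (hM.xB_mem hσ _ _)
          (hx (rrc k) ((hmem4 _).2 (Or.inr (Or.inr ⟨k, hk, rfl⟩))))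
    have := bound hσ hM hR hbor (by
      rw [eq_top_iff, ← PresentedGroup.closure_range_of (rels4 : Set (FreeGroup (Fin 4))), Subgroup.closure_le]
      rintro _ ⟨i, rfl⟩
      apply Subgroup.subset_closure
      refine Fin.lastCases ?_ (fun i => ?_) i
      · right; rfl
      · left
        have hi : X3 i ∈ A := hA ▸ Subgroup.subset_closure ⟨i, rfl⟩
        refine ⟨X3 i, hi, ?_⟩
        rw [hψl (FreeGroup.of i) _ hi FreeGroup.lift_apply_of, FreeGroup.lift_apply_of])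
    refine ⟨this.1, ?_⟩
    rw [Nat.card_congr (Subgroup.topEquiv (G := UJ (frob hF))).toEquiv, card_UJ hF, ← card_Us hF]
    refine this.2.trans ?_
    rw [card_Us hF]
    exact Nat.add_le_add hcA' (Nat.mul_le_mul_right _ hcA')
  obtain ⟨e4, he4⟩ := pres_iso (rels4 : Set (FreeGroup (Fin 4))) X4 ⊤ hgen4 hrel4 hbd.1 hbd.2
  let e : PresentedGroup (rels4 : Set (FreeGroup (Fin 4))) ≃* UJ (frob hF) := e4.trans Subgroup.topEquiv
  have he : ∀ i, e (PresentedGroup.of i) = X4 i := he4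
  obtain ⟨rels', hc', e', -⟩ := change_gens rels4 e (b := ![T (frob_frob hF) lam hP.ne, X (frob_frob hF) 1 b hb, W]) (by
      obtain ⟨h1, -⟩ := mem_all hF hq hP (hb := hb) (Subgroup.closure (Set.range ![T (frob_frob hF) lam hP.ne, X (frob_frob hF) 1 b hb, W]))
        (Subgroup.subset_closure ⟨0, rfl⟩) (Subgroup.subset_closure ⟨1, rfl⟩)
      exact top_of_mem hF hq _ h1 (Subgroup.subset_closure ⟨2, rfl⟩)) ∅ ![0, 1, 3] (by
      intro j _
      rw [he]
      fin_cases j <;> rfl) (by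
      intro j _ j' _
      revert j j'
      decide)
  refine ⟨rels', ?_, ⟨e'⟩⟩
  rw [Finset.card_empty] at hc'
  omega

/-- **bounded presentations of `SU₃(q)`** from short presentations of the Borel subgroup -/
theorem pres_SU3 (hF : Fintype.card F = q ^ 2) (h2 : q ≠ 2) (h5 : q ≠ 5) :
    ∃ rels : Finset (FreeGroup (Fin 3)), rels.card ≤ 21 ∧
      Nonempty (PresentedGroup (rels : Set (FreeGroup (Fin 3))) ≃* SU 3 F q) := by
  have hq := two_le_q hF
  obtain ⟨lam, hP⟩ := exists_prim hF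
  obtain ⟨ε, hε, hε0, hB⟩ := exists_hasB hF h2 h5 hP
  obtain ⟨b, hb⟩ := exists_trace hF (c := (-1 : F)) (by rw [neg_pow_q hF, one_pow])
  have hb' : b + frob hF b + 1 * frob hF 1 = 0 := by
    rw [map_one, frob_apply, hb]; ring
  obtain ⟨rels, h1, ⟨e⟩⟩ := pres_UJ hF (by omega) hP hε hε0 hb' (hB b hb')
  obtain ⟨A, Φ, -, -⟩ := SU3Gen.exists_equiv hF
  exact ⟨rels, h1, ⟨e.trans Φ⟩⟩

end main

end Cfsg.Agent.Lib.PresU3H
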