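import Cfsg.Agent.Lib.PresU3H

/-! Short presentations of Borel subgroups of `SU₃(p)`, `p` prime (helper18). -/

set_option autoImplicit false

namespace Cfsg.Agent.Lib.PresU3I

open Cfsg Cfsg.Agent.Lib.PresMod Cfsg.Agent.Lib.PresField Cfsg.Agent.Lib.PresU3A Cfsg.Agent.Lib.PresU3B
  Cfsg.Agent.Lib.PresU3C Cfsg.Agent.Lib.PresU3D Cfsg.Agent.Lib.PresU3E Cfsg.Agent.Lib.PresU3F Cfsg.Agent.Lib.PresU3H
  Cfsg.Agent.Lib.SU3Gen Cfsg.Agent.Lib.ClUnitary Cfsg.Agent.Lib.HermMat

section bd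

variable {G : Type*} [Group G]

/-- the relations -/
structure RelP (p N n c d a b e : ℕ) (h u z : G) : Prop where
  H : h ^ N = 1
  Z3 : z ^ p = 1
  Z4 : h * z * h⁻¹ = z ^ n
  C1 : u * z = z * u
  U2 : u * (h * u * h⁻¹) = (h * u * h⁻¹) * u * z ^ c
  U3 : u ^ p = z ^ d
  U4 : h * (h * u * h⁻¹) * h⁻¹ = u ^ a * (h * u * h⁻¹) ^ b * z ^ e

theorem isY_zmod {p : ℕ} [Fact p.Prime] {u : G} (hu : u ^ p = 1) : IsY (1 : ZMod p) (1 : G) u (fun k : ZMod p => u ^ k.val) := by
  refine ⟨fun k l => ?_, ?_, fun k => ?_⟩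
  · show u ^ (k + l).val = u ^ k.val * u ^ l.val
    rw [ZMod.val_add, ← pow_add, ← pow_eq_pow_mod _ hu]
  · show u ^ (1 : ZMod p).val = u
    rw [ZMod.val_one, pow_one]
  · show 1 * u ^ k.val * 1⁻¹ = u ^ (1 * k).val
    rw [one_mul, one_mul, inv_one, mul_one]

theorem pow_val_mul {p : ℕ} [Fact p.Prime] {u : G} (hu : u ^ p = 1) (n : ℕ) (k : ZMod p) :
    u ^ ((n : ZMod p) * k).val = u ^ (n * k.val) := by
  rw [ZMod.val_mul, ZMod.val_natCast, ← pow_eq_pow_mod _ hu]
  rw [pow_mul, pow_mul, ← pow_eq_pow_mod _ hu]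

theorem bound_prime {p N n c d a b e : ℕ} [Fact p.Prime] (hN : 0 < N) (hn : (n : ZMod p) ≠ 0) {h u z : G}
    (hR : RelP p N n c d a b e h u z) (hgen : Subgroup.closure {h, u, z} = ⊤) :
    Finite G ∧ Nat.card G ≤ p * (p * p * N) := by
  have hz := isY_zmod hR.Z3
  have hV : (rng hz).Normal := by
    apply rng_normal hz hgen
    rintro s (rfl | rfl | hs)
    · refine ⟨n, hn, fun k => ?_⟩
      rw [pow_val_mul hR.Z3, ← conj_pow, hR.Z4, ← pow_mul]
    · refine ⟨1, one_ne_zero, fun k => ?_⟩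
      have h1 : Commute s z := hR.C1
      rw [one_mul, (h1.pow_right _).eq, mul_inv_cancel_right]
    · rw [Set.mem_singleton_iff.1 hs]
      refine ⟨1, one_ne_zero, fun k => ?_⟩
      rw [one_mul, ((Commute.refl z).pow_right _).eq, mul_inv_cancel_right]
  have hzV : z ∈ rng hz := ⟨1, hz.one⟩
  have := ext_bound (rng hz) (w := p * p * N) (card_rng hz) (by
    set π := QuotientGroup.mk' (rng hz) with hπ
    have hpz : π z = 1 := (QuotientGroup.eq_one_iff _).2 hzV
    have hu : (π u) ^ p = 1 := by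
      rw [← map_pow, hR.U3, map_pow, hpz, one_pow]
    obtain ⟨u', hu'⟩ : ∃ u', u' = π h * π u * (π h)⁻¹ := ⟨_, rfl⟩
    have hup : u' ^ p = 1 := by rw [hu', conj_pow, hu, mul_one, mul_inv_cancel]
    have hcu : Commute (π u) u' := by
      have := congrArg π hR.U2
      simp only [map_mul, map_inv, map_pow, hpz, one_pow, mul_one] at this
      rw [hu']
      exact this
    have hh : π h * u' * (π h)⁻¹ = (π u) ^ a * u' ^ b := by
      have := congrArg π hR.U4
      simp only [map_mul, map_inv, map_pow, hpz, one_pow, mul_one] at this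
      rw [hu']
      exact this
    have := bnd2 (isY_zmod hu) (isY_zmod hup) (h := π h) (fun k l => (hcu.pow_right _).pow_left _) (fun k => by
      rw [← conj_pow, ← hu']) (c1 := (a : ZMod p)) (c2 := (b : ZMod p)) (fun k => by
      rw [← conj_pow, hh, pow_val_mul hu, pow_val_mul hup, ((hcu.pow_right b).pow_left a).mul_pow, ← pow_mul, ← pow_mul]) N hN
      (by rw [← map_pow, hR.H, map_one]) (quot_gen hgen (rng hz) hzV)
    rwa [ZMod.card] at this)
  rwa [ZMod.card] at this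

/-- words -/
def eqP (p N n c d a b e : ℕ) (h u z : G) : Fin 7 → G × G :=
  ![(h ^ N, 1), (z ^ p, 1), (h * z * h⁻¹, z ^ n), (u * z, z * u), (u * (h * u * h⁻¹), (h * u * h⁻¹) * u * z ^ c), (u ^ p, z ^ d),
    (h * (h * u * h⁻¹) * h⁻¹, u ^ a * (h * u * h⁻¹) ^ b * z ^ e)]

theorem eqP_iff (p N n c d a b e : ℕ) (h u z : G) :
    (∀ k, (eqP p N n c d a b e h u z k).1 = (eqP p N n c d a b e h u z k).2) ↔ RelP p N n c d a b e h u z := by
  constructor
  · intro H
    exact ⟨H 0, H 1, H 2, H 3, H 4, H 5, H 6⟩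
  · rintro ⟨h0, h1, h2, h3, h4, h5, h6⟩ k
    fin_cases k
    exacts [h0, h1, h2, h3, h4, h5, h6]

theorem eqP_map {G' : Type*} [Group G'] (φ : G →* G') (p N n c d a b e : ℕ) (h u z : G) (k : Fin 7) :
    φ (eqP p N n c d a b e h u z k).1 = (eqP p N n c d a b e (φ h) (φ u) (φ z) k).1 ∧
    φ (eqP p N n c d a b e h u z k).2 = (eqP p N n c d a b e (φ h) (φ u) (φ z) k).2 := by
  fin_cases k <;> simp [eqP]

end bd

section sound

variable {F : Type*} [Field F] [Fintype F] {p : ℕ}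

theorem fx_nat [hp : Fact p.Prime] [CharP F p] (hF : Fintype.card F = p ^ 2) {x : F} (hx : frob hF x = x) : ∃ n : ℕ, (n : F) = x := by
  haveI : CharP (Fx (frob hF)) p := (Fx (frob hF)).subtype.charP (Fx (frob hF)).subtype.injective p
  let f : ZMod p →+* Fx (frob hF) := ZMod.castHom (dvd_refl p) _
  have hf : Function.Injective f := f.injective
  have hs := (hf.bijective_of_nat_card_le (by rw [card_Fx hF, Nat.card_zmod])).2
  obtain ⟨k, hk⟩ := hs ⟨x, hx⟩
  refine ⟨k.val, ?_⟩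
  have h1 : f k = ((k.val : ℕ) : Fx (frob hF)) := by
    conv_lhs => rw [← ZMod.natCast_zmod_val k]
    rw [map_natCast]
  rw [h1] at hk
  exact (map_natCast (Fx (frob hF)).subtype k.val).symm.trans (congrArg Subtype.val hk)

theorem z_pow {σ : F →+* F} (hσ : ∀ x, σ (σ x) = x) {ε : F} (hε : ε + σ ε = 0) (n : ℕ) : yz hσ hε 1 ^ n = yz hσ hε n := by
  induction n with
  | zero =>
    rw [pow_zero, Nat.cast_zero]
    unfold yz
    rw [← X_one hσ]
    apply X_congr
    · rfl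
    · simp
  | succ n ih => rw [pow_succ, ih, ← yz_add, Nat.cast_succ]

theorem P_eqp [hp : Fact p.Prime] [CharP F p] (hF : Fintype.card F = p ^ 2) {ε : F} (hε : ε + frob hF ε = 0) (hε0 : ε ≠ 0)
    {g g' : UJ (frob hF)} {a : F} (h : P (frob_frob hF) g a) (h' : P (frob_frob hF) g' a) :
    ∃ n : ℕ, g = g' * yz (frob_frob hF) hε 1 ^ n := by
  have hσ := frob_frob hF
  obtain ⟨b, hb, rfl⟩ := h
  obtain ⟨b', hb', rfl⟩ := h'
  have hc : frob hF ((b - b') * ε⁻¹) = (b - b') * ε⁻¹ := by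
    have h1 : frob hF ε = - ε := by linear_combination hε
    have h2 : frob hF b = - b - a * frob hF a := by linear_combination hb
    have h3 : frob hF b' = - b' - a * frob hF a := by linear_combination hb'
    rw [map_mul, map_sub, map_inv₀, h1, h2, h3]
    field_simp
    ring
  obtain ⟨n, hn⟩ := fx_nat hF hc
  refine ⟨n, ?_⟩
  rw [z_pow]
  unfold yz
  have h0 : ε * ((n : Fx (frob hF)) : F) + frob hF (ε * ((n : Fx (frob hF)) : F)) + 0 * frob hF 0 = 0 := by
    have h : frob hF ((n : Fx (frob hF)) : F) = (n : Fx (frob hF)) := (n : Fx (frob hF)).2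
    rw [map_mul, h, map_zero, mul_zero, add_zero, ← add_mul, hε, zero_mul]
  obtain ⟨h'', e⟩ := X_mul hσ (a := a) (b := b') (a' := 0) (b' := ε * ((n : Fx (frob hF)) : F)) hb' h0
  rw [e]
  apply X_congr
  · rw [add_zero]
  · have : ((n : Fx (frob hF)) : F) = (n : F) := by simp
    rw [this, hn, map_zero]; field_simp; ring

theorem sound_prime [hp : Fact p.Prime] [CharP F p] (hF : Fintype.card F = p ^ 2) {lam : F} (hP : Prim hF lam) {ε : F}
    (hε : ε + frob hF ε = 0) (hε0 : ε ≠ 0) {b : F} (hb : b + frob hF b + 1 * frob hF 1 = 0) :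
    ∃ n c d a b' e : ℕ, (n : ZMod p) ≠ 0 ∧ RelP p (p ^ 2 - 1) n c d a b' e (T (frob_frob hF) lam hP.ne)
      (X (frob_frob hF) 1 b hb) (yz (frob_frob hF) hε 1) := by
  have hσ := frob_frob hF
  have hl := hP.ne
  have hsl : frob hF lam ≠ 0 := (map_ne_zero _).2 hl
  set h := T (frob_frob hF) lam hP.ne with hh
  set u := X (frob_frob hF) 1 b hb with hu
  set z := yz (frob_frob hF) hε 1 with hz
  have hPu : P hσ u 1 := ⟨b, hb, rfl⟩
  have hPz : P hσ z 0 := ⟨_, _, rfl⟩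
  have hT : ∀ {g : UJ (frob hF)} {a : F}, P hσ g a → P hσ (h * g * h⁻¹) (mu (frob hF) lam * a) := fun hg => P_T hσ hl hg
  have hPh : P hσ (h * u * h⁻¹) (mu (frob hF) lam) := by have := hT hPu; rwa [mul_one] at this
  obtain ⟨n, hn⟩ := fx_nat hF (x := lam * frob hF lam) (by rw [map_mul, hσ, mul_comm])
  have hZ4 : h * z * h⁻¹ = z ^ n := by
    rw [hz, z_pow, hh, (isY_z hσ hε hl).mul]
    congr 1
    apply Subtype.ext
    rw [mul_one]
    show lam * frob hF lam = _
    rw [← hn]; simp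
  have hn0 : (n : ZMod p) ≠ 0 := by
    intro h0
    rw [ZMod.natCast_eq_zero_iff] at h0
    rw [(CharP.cast_eq_zero_iff F p n).2 h0] at hn
    exact mul_ne_zero hl hsl hn.symm
  obtain ⟨c, hc⟩ := P_eqp hF hε hε0 (P_mul hσ hPu hPh) (by rw [add_comm]; exact P_mul hσ hPh hPu)
  obtain ⟨d, hd⟩ := P_eqp hF hε hε0 (g := u ^ p) (g' := 1) (a := 0) (by
    have := P_pow hσ hPu p
    rwa [CharP.cast_eq_zero, zero_mul] at this) (P_one hσ)
  obtain ⟨a, ha⟩ := fx_nat hF (x := -(mu (frob hF) lam * frob hF (mu (frob hF) lam))) (by rw [map_neg, map_mul, hσ, mul_comm])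
  obtain ⟨b', hb'⟩ := fx_nat hF (x := mu (frob hF) lam + frob hF (mu (frob hF) lam)) (by rw [map_add, hσ, add_comm])
  obtain ⟨e, he⟩ := P_eqp hF hε hε0 (hT hPh) (g' := u ^ a * (h * u * h⁻¹) ^ b') (by
    have := P_mul hσ (P_pow hσ hPu a) (P_pow hσ hPh b')
    rw [ha, hb'] at this
    have e : -(mu (frob hF) lam * frob hF (mu (frob hF) lam)) * 1 +
      (mu (frob hF) lam + frob hF (mu (frob hF) lam)) * mu (frob hF) lam = mu (frob hF) lam * mu (frob hF) lam := by ring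
    rwa [e] at this)
  refine ⟨n, c, d, a, b', e, hn0, ?_, ?_, hZ4, ?_, hc, ?_, he⟩
  · rw [hh, T_pow, T_congr hσ (t := 1) hP.pow, T_one]
  · rw [hz, z_pow]
    unfold yz
    rw [← X_one hσ]
    apply X_congr
    · rfl
    · have : ((p : Fx (frob hF)) : F) = (p : F) := by simp
      rw [this, CharP.cast_eq_zero, mul_zero]
  · rw [hu, hz]
    unfold yz
    have hz0 : ε * ((1 : Fx (frob hF)) : F) + frob hF (ε * ((1 : Fx (frob hF)) : F)) + 0 * frob hF 0 = 0 := by
      have : ((1 : Fx (frob hF)) : F) = 1 := rfl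
      rw [this, mul_one, zero_mul, add_zero]; exact hε
    obtain ⟨_, e1⟩ := X_mul hσ hb hz0
    obtain ⟨_, e2⟩ := X_mul hσ hz0 hb
    rw [e1, e2]
    apply X_congr
    · ring
    · rw [map_zero]; ring
  · rw [hd, one_mul]

theorem hasB_prime [hp : Fact p.Prime] [CharP F p] (hF : Fintype.card F = p ^ 2) {lam : F} (hP : Prim hF lam) {ε : F}
    (hε : ε + frob hF ε = 0) (hε0 : ε ≠ 0) {b : F} (hb : b + frob hF b + 1 * frob hF 1 = 0) :
    HasB (frob_frob hF) hP.ne hb hε 7 (p ^ 3 * (p ^ 2 - 1)) := by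
  classical
  obtain ⟨n, c, d, a, b', e, hn, hS⟩ := sound_prime hF hP hε hε0 hb
  let e1 := eqP p (p ^ 2 - 1) n c d a b' e (FreeGroup.of (0 : Fin 3)) (FreeGroup.of 1) (FreeGroup.of 2)
  let R : Finset (FreeGroup (Fin 3)) := Finset.univ.image (wR e1)
  refine ⟨R, Finset.card_image_le, ?_, ?_⟩
  · intro w hw
    rw [Finset.mem_image] at hw
    obtain ⟨k, -, rfl⟩ := hw
    refine (lift_wR _ e1 (eqP p (p ^ 2 - 1) n c d a b' e _ _ _) ?_).2 ((eqP_iff _ _ _ _ _ _ _ _ _ _ _).2 hS) k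
    intro k
    have := eqP_map (FreeGroup.lift ![T (frob_frob hF) lam hP.ne, X (frob_frob hF) 1 b hb, yz (frob_frob hF) hε 1]) p (p ^ 2 - 1) n c d a b' e
      (FreeGroup.of 0) (FreeGroup.of 1) (FreeGroup.of 2) k
    rwa [lift0, lift1, lift2] at this
  · intro Γ _ h u z hR hgen
    have h1 := (eqP_iff p (p ^ 2 - 1) n c d a b' e h u z).1 (rel_of (e := e1) (fun k => Finset.mem_image_of_mem _ (Finset.mem_univ k)) hR (by
      intro k
      have := eqP_map (FreeGroup.lift ![h, u, z]) p (p ^ 2 - 1) n c d a b' e (FreeGroup.of 0) (FreeGroup.of 1) (FreeGroup.of 2) k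
      rwa [lift0, lift1, lift2] at this))
    have h2 : 0 < p ^ 2 - 1 := by
      have := hp.out.two_le
      have : 4 ≤ p ^ 2 := by nlinarith
      omega
    have := bound_prime h2 hn h1 hgen
    refine ⟨this.1, this.2.trans (le_of_eq ?_)⟩
    ring

end sound

section main

variable {F : Type*} [Field F] [Fintype F] {q : ℕ}

/-- **bounded presentations of `SU₃(q)`** -/
theorem pres_SU3 (hF : Fintype.card F = q ^ 2) (h3 : 3 ≤ q) :
    ∃ rels : Finset (FreeGroup (Fin 3)), rels.card ≤ 21 ∧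
      Nonempty (PresentedGroup (rels : Set (FreeGroup (Fin 3))) ≃* SU 3 F q) := by
  by_cases h5 : q = 5
  · subst h5
    haveI : Fact (Nat.Prime 5) := ⟨by norm_num⟩
    obtain ⟨p', f, hp', hc, hq', hf⟩ := exists_char hF
    have hp5 : p' = 5 := by
      have h1 : p' ∣ 5 := by rw [hq']; exact dvd_pow_self p' (by omega)
      rcases (Nat.dvd_prime (by norm_num)).1 h1 with h | h
      · exact absurd h hp'.one_lt.ne'
      · exact h
    subst hp5
    obtain ⟨lam, hP⟩ := exists_prim hF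
    obtain ⟨x, hx⟩ : ∃ x, frob hF x ≠ x := not_forall.1 fun hcon => frob_ne_id hF (RingHom.ext hcon)
    have hε : (x - frob hF x) + frob hF (x - frob hF x) = 0 := by rw [map_sub, frob_frob hF]; ring
    have hε0 : x - frob hF x ≠ 0 := sub_ne_zero.2 (Ne.symm hx)
    obtain ⟨b, hb⟩ := exists_trace hF (c := (-1 : F)) (by rw [neg_pow_q hF, one_pow])
    have hb' : b + frob hF b + 1 * frob hF 1 = 0 := by
      rw [map_one, frob_apply, hb]; ring
    obtain ⟨rels, h1, ⟨e⟩⟩ := pres_UJ hF (by omega) hP hε hε0 hb' (hasB_prime hF hP hε hε0 hb')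
    obtain ⟨A, Φ, -, -⟩ := SU3Gen.exists_equiv hF
    exact ⟨rels, by omega, ⟨e.trans Φ⟩⟩
  · exact PresU3H.pres_SU3 hF (by omega) h5

end main

end Cfsg.Agent.Lib.PresU3I
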