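import Cfsg.Agent.Lib.PhanI

/-! Gluing `SU_3(q)` and the alternating group of permutation matrices: the group `SU_n(q)` (helper38). -/

set_option autoImplicit false
set_option linter.unusedSectionVars false
set_option linter.unusedSimpArgs false

namespace Cfsg.Agent.Lib.PresU

open Module Matrix Cfsg Cfsg.Agent.Lib.Phan Cfsg.Agent.Lib.UnTrans Cfsg.Agent.Lib.UnBridge Cfsg.Agent.Lib.ClUnSimple

variable {F : Type*} [Field F] {q : ℕ} {n k : ℕ}

theorem emb_perm_mul_tr (π : Equiv.Perm (Fin n)) : emb F π.toEmbedding * (emb F π.toEmbedding)ᵀ = 1 := by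
  have h := emb_tr_mul (F := F) π.toEmbedding
  exact mul_eq_one_comm.1 h

theorem blkM_perm (π : Equiv.Perm (Fin n)) (A : Matrix (Fin n) (Fin n) F) :
    blkM π.toEmbedding A = emb F π.toEmbedding * A * (emb F π.toEmbedding)ᵀ := by
  rw [blkM, Matrix.mul_sub, Matrix.sub_mul, Matrix.mul_one, emb_perm_mul_tr]
  abel

theorem emb_perm (π : Equiv.Perm (Fin n)) : emb F π.toEmbedding = (π⁻¹).permMatrix F := by
  ext a b
  rw [emb_apply]
  unfold Equiv.Perm.permMatrix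
  rw [PEquiv.toMatrix_apply]
  show (if a = π b then (1 : F) else 0) = _
  by_cases h : a = π b
  · rw [if_pos h, if_pos]
    rw [Equiv.toPEquiv_apply, h]
    simp
  · rw [if_neg h, if_neg]
    rw [Equiv.toPEquiv_apply]
    intro h1
    apply h
    have h2 : π⁻¹ a = b := by simpa using h1
    rw [← h2]; simp

theorem det_emb_perm (π : Equiv.Perm (Fin n)) : (emb F π.toEmbedding).det = ((Equiv.Perm.sign π : ℤ) : F) := by
  rw [emb_perm, Matrix.det_permutation, Equiv.Perm.sign_inv]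

/-- permutation matrices -/
def pm (F : Type*) [Field F] (q n : ℕ) : alternatingGroup (Fin n) →* SU n F q where
  toFun π := ⟨⟨emb F (π : Equiv.Perm (Fin n)).toEmbedding, by
    rw [det_emb_perm, Equiv.Perm.mem_alternatingGroup.1 π.2]; simp⟩, by
    intro u v
    exact herm_ext _ u v⟩
  map_one' := by
    apply Subtype.ext; apply Subtype.ext
    show emb F (1 : Equiv.Perm (Fin n)).toEmbedding = 1
    ext a b
    rw [emb_apply, Matrix.one_apply]
    rfl
  map_mul' π σ := by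
    apply Subtype.ext; apply Subtype.ext
    show emb F ((π : Equiv.Perm (Fin n)) * σ).toEmbedding = emb F (π : Equiv.Perm (Fin n)).toEmbedding * emb F (σ : Equiv.Perm (Fin n)).toEmbedding
    rw [emb_comp]
    rfl

theorem pm_coe (π : alternatingGroup (Fin n)) : (pm F q n π).1.1 = emb F (π : Equiv.Perm (Fin n)).toEmbedding := rfl

theorem pm_inv_coe (π : alternatingGroup (Fin n)) : (pm F q n π)⁻¹.1.1 = (emb F (π : Equiv.Perm (Fin n)).toEmbedding)ᵀ := by
  rw [← map_inv, pm_coe]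
  ext a b
  rw [Matrix.transpose_apply, emb_apply, emb_apply]
  show (if a = (π : Equiv.Perm (Fin n))⁻¹ b then (1 : F) else 0) = (if b = (π : Equiv.Perm (Fin n)) a then (1 : F) else 0)
  by_cases h : b = (π : Equiv.Perm (Fin n)) a
  · rw [if_pos h, if_pos]; rw [h]; simp
  · rw [if_neg h, if_neg]; intro h1; apply h; rw [h1]; simp

/-- conjugation by permutation matrices -/
theorem pm_conj (π : alternatingGroup (Fin n)) (j : Fin k ↪ Fin n) (A : SU k F q) :
    pm F q n π * blk j A * (pm F q n π)⁻¹ = blk (j.trans (π : Equiv.Perm (Fin n)).toEmbedding) A := by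
  rw [← blk_comp]
  apply Subtype.ext; apply Subtype.ext
  show (pm F q n π).1.1 * (blk j A).1.1 * (pm F q n π)⁻¹.1.1 = _
  rw [pm_coe, pm_inv_coe, blk_coe, blk_coe, blkM_perm, blk_coe]

/-! ### permutations -/

theorem fin_ne {N a b : ℕ} (ha : a < N) (hb : b < N) (h : a ≠ b) : (⟨a, ha⟩ : Fin N) ≠ ⟨b, hb⟩ := fun e => h (congrArg Fin.val e)

/-- the cycle `0 → 1 → 2 → 0` -/
def cc (N : ℕ) : alternatingGroup (Fin (N + 3)) :=
  ⟨Equiv.swap ⟨0, by omega⟩ ⟨1, by omega⟩ * Equiv.swap ⟨1, by omega⟩ ⟨2, by omega⟩, by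
  rw [Equiv.Perm.mem_alternatingGroup, Equiv.Perm.sign_mul, Equiv.Perm.sign_swap (fin_ne _ _ (by norm_num)),
    Equiv.Perm.sign_swap (fin_ne _ _ (by norm_num))]
  rfl⟩

/-- the double transposition `(0 2)(1 3)` -/
def rho (N : ℕ) : alternatingGroup (Fin (N + 4)) :=
  ⟨Equiv.swap ⟨0, by omega⟩ ⟨2, by omega⟩ * Equiv.swap ⟨1, by omega⟩ ⟨3, by omega⟩, by
  rw [Equiv.Perm.mem_alternatingGroup, Equiv.Perm.sign_mul, Equiv.Perm.sign_swap (fin_ne _ _ (by norm_num)),
    Equiv.Perm.sign_swap (fin_ne _ _ (by norm_num))]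
  rfl⟩

theorem sw_ne {N a b c : ℕ} (ha : a < N) (hb : b < N) (hc : c < N) (h1 : c ≠ a) (h2 : c ≠ b) :
    Equiv.swap (⟨a, ha⟩ : Fin N) ⟨b, hb⟩ ⟨c, hc⟩ = ⟨c, hc⟩ := Equiv.swap_apply_of_ne_of_ne (fin_ne _ _ h1) (fin_ne _ _ h2)

theorem cc0 (N : ℕ) : (cc N).1 ⟨0, by omega⟩ = ⟨1, by omega⟩ := by
  rw [cc]
  simp only [Equiv.Perm.mul_apply]
  rw [sw_ne (a := 1) (b := 2) (c := 0) _ _ _ (by norm_num) (by norm_num), Equiv.swap_apply_left]

theorem cc1 (N : ℕ) : (cc N).1 ⟨1, by omega⟩ = ⟨2, by omega⟩ := by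
  rw [cc]
  simp only [Equiv.Perm.mul_apply]
  rw [Equiv.swap_apply_left, sw_ne _ _ _ (by norm_num) (by norm_num)]

theorem cc2 (N : ℕ) : (cc N).1 ⟨2, by omega⟩ = ⟨0, by omega⟩ := by
  rw [cc]
  simp only [Equiv.Perm.mul_apply]
  rw [Equiv.swap_apply_right, Equiv.swap_apply_right]

theorem rho0 (N : ℕ) : (rho N).1 ⟨0, by omega⟩ = ⟨2, by omega⟩ := by
  rw [rho]
  simp only [Equiv.Perm.mul_apply]
  rw [sw_ne (a := 1) (b := 3) (c := 0) _ _ _ (by norm_num) (by norm_num), Equiv.swap_apply_left]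

theorem rho1 (N : ℕ) : (rho N).1 ⟨1, by omega⟩ = ⟨3, by omega⟩ := by
  rw [rho]
  simp only [Equiv.Perm.mul_apply]
  rw [Equiv.swap_apply_left, sw_ne _ _ _ (by norm_num) (by norm_num)]

theorem rho_sq (N : ℕ) : rho N * rho N = 1 := by
  apply Subtype.ext
  show (Equiv.swap _ _ * Equiv.swap _ _) * (Equiv.swap _ _ * Equiv.swap _ _) = 1
  ext x
  rcases eq_or_ne x ⟨0, by omega⟩ with rfl | h0
  · simp [Equiv.Perm.mul_apply, Equiv.swap_apply_def]
  · rcases eq_or_ne x ⟨1, by omega⟩ with rfl | h1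
    · simp [Equiv.Perm.mul_apply, Equiv.swap_apply_def]
    · rcases eq_or_ne x ⟨2, by omega⟩ with rfl | h2
      · simp [Equiv.Perm.mul_apply, Equiv.swap_apply_def]
      · rcases eq_or_ne x ⟨3, by omega⟩ with rfl | h3
        · simp [Equiv.Perm.mul_apply, Equiv.swap_apply_def]
        · simp only [Equiv.Perm.mul_apply]
          rw [Equiv.swap_apply_of_ne_of_ne h1 h3, Equiv.swap_apply_of_ne_of_ne h0 h2, Equiv.swap_apply_of_ne_of_ne h1 h3,
            Equiv.swap_apply_of_ne_of_ne h0 h2]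
          rfl

/-- extension of injections -/
theorem exists_perm {k n : ℕ} (hk : 0 + k ≤ n) (j : Fin k ↪ Fin n) : ∃ π : Equiv.Perm (Fin n), ∀ a, π (sh 0 hk a) = j a := by
  classical
  let e : {x // x ∈ Set.range (sh 0 hk : Fin k ↪ Fin n)} ≃ {x // x ∈ Set.range j} :=
    (Equiv.ofInjective _ (sh 0 hk : Fin k ↪ Fin n).injective).symm.trans (Equiv.ofInjective _ j.injective)
  refine ⟨e.extendSubtype, fun a => ?_⟩
  rw [Equiv.extendSubtype_apply_of_mem e _ ⟨a, rfl⟩]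
  have h1 : (Equiv.ofInjective _ (sh 0 hk : Fin k ↪ Fin n).injective).symm ⟨sh 0 hk a, ⟨a, rfl⟩⟩ = a :=
    Equiv.ofInjective_symm_apply (sh 0 hk : Fin k ↪ Fin n).injective a
  show (Equiv.ofInjective _ j.injective ((Equiv.ofInjective _ (sh 0 hk : Fin k ↪ Fin n).injective).symm ⟨sh 0 hk a, ⟨a, rfl⟩⟩) : Fin n) = j a
  rw [h1]
  rfl

/-- the same with even permutations -/
theorem exists_even {k n : ℕ} (hk : 0 + k ≤ n) (j : Fin k ↪ Fin n) (s : Equiv.Perm (Fin n)) (hs : Equiv.Perm.sign s = -1) :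
    ∃ π : alternatingGroup (Fin n), (∀ a, π.1 (sh 0 hk a) = j a) ∨ (∀ a, π.1 (s (sh 0 hk a)) = j a) := by
  obtain ⟨π, hπ⟩ := exists_perm hk j
  rcases Int.units_eq_one_or (Equiv.Perm.sign π) with h | h
  · exact ⟨⟨π, Equiv.Perm.mem_alternatingGroup.2 h⟩, Or.inl hπ⟩
  · refine ⟨⟨π * s⁻¹, Equiv.Perm.mem_alternatingGroup.2 ?_⟩, Or.inr ?_⟩
    · rw [Equiv.Perm.sign_mul, Equiv.Perm.sign_inv, h, hs]; rfl
    · intro a
      show π (s.symm (s (sh 0 hk a))) = j a
      rw [Equiv.symm_apply_apply]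
      exact hπ a

/-! ### the gluing data -/

variable {G : Type*} [Group G] {N : ℕ}

/-- homomorphisms of `SU_3` and of the alternating group compatible with permutation matrices -/
structure GD (κ : SU 3 F q →* G) (α : alternatingGroup (Fin (N + 4)) →* G) : Prop where
  S : ∀ (π : alternatingGroup (Fin (N + 4))) (τ : Equiv.Perm (Fin 2)), (∀ a : Fin 2, π.1 (sh 0 (by omega) a) = sh 0 (by omega) (τ a)) →
    ∀ s, α π * κ (b0 F q s) * (α π)⁻¹ = κ (b0 F q (blk τ.toEmbedding s))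
  C : κ (pm F q 3 (cc 0)) = α (cc (N + 1))
  X : ∀ s t, κ (b0 F q s) * (α (rho N) * κ (b0 F q t) * (α (rho N))⁻¹) = (α (rho N) * κ (b0 F q t) * (α (rho N))⁻¹) * κ (b0 F q s)

/-- the labelled copies of `SU_2` -/
def LL (κ : SU 3 F q →* G) (α : alternatingGroup (Fin (N + 4)) →* G) (π : alternatingGroup (Fin (N + 4))) (s : SU 2 F q) : G :=
  α π * κ (b0 F q s) * (α π)⁻¹

section gd
variable {κ : SU 3 F q →* G} {α : alternatingGroup (Fin (N + 4)) →* G} (D : GD κ α)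
include D

theorem GD.wd (π π' : alternatingGroup (Fin (N + 4))) (τ : Equiv.Perm (Fin 2))
    (h : ∀ a : Fin 2, π'.1 (sh 0 (by omega) a) = π.1 (sh 0 (by omega) (τ a))) (s : SU 2 F q) :
    LL κ α π' s = LL κ α π (blk τ.toEmbedding s) := by
  have h1 := D.S (π⁻¹ * π') τ (by
    intro a
    show π.1.symm (π'.1 _) = _
    rw [h, Equiv.symm_apply_apply]) s
  rw [LL, LL, ← h1, map_mul, map_inv]
  group

theorem GD.wd1 (π π' : alternatingGroup (Fin (N + 4)))
    (h : ∀ a : Fin 2, π'.1 (sh 0 (by omega) a) = π.1 (sh 0 (by omega) a)) (s : SU 2 F q) :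
    LL κ α π' s = LL κ α π s := by
  have h1 := D.wd π π' 1 h s
  rw [h1]
  congr 1
  apply SU_ext
  intro v
  rw [blk_coe]
  have : (1 : Equiv.Perm (Fin 2)).toEmbedding = Function.Embedding.refl _ := rfl
  rw [blkM_perm]
  have e : emb F (1 : Equiv.Perm (Fin 2)).toEmbedding = 1 := by
    ext a b
    rw [emb_apply, Matrix.one_apply]
    rfl
  rw [e, Matrix.one_mul, Matrix.transpose_one, Matrix.mul_one]

end gd

theorem t1 : ∀ x y : Fin 3, x ≠ y → ∃ (k : Fin 3) (τ : Equiv.Perm (Fin 2)),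
    x = ((Equiv.swap (0 : Fin 3) 1 * Equiv.swap 1 2 : Equiv.Perm (Fin 3)) ^ k.1) (Fin.castSucc (τ 0)) ∧
    y = ((Equiv.swap (0 : Fin 3) 1 * Equiv.swap 1 2 : Equiv.Perm (Fin 3)) ^ k.1) (Fin.castSucc (τ 1)) := by
  decide

theorem t2 (i : Fin 2 ↪ Fin 3) : ∃ (k : Fin 3) (τ : Equiv.Perm (Fin 2)), ∀ a : Fin 2,
    i a = ((cc 0).1 ^ k.1) (sh 0 (show 0 + 2 ≤ 3 by omega) (τ a)) := by
  obtain ⟨k, τ, h0, h1⟩ := t1 (i 0) (i 1) (fun h => absurd (i.injective h) (by decide))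
  refine ⟨k, τ, ?_⟩
  have h2 : ∀ b : Fin 2, sh 0 (show 0 + 2 ≤ 3 by omega) b = Fin.castSucc b := fun b => Fin.ext (by rw [sh_apply]; simp)
  intro a
  rw [h2]
  fin_cases a
  · exact h0
  · exact h1

theorem cc_sh (x : Fin 3) : sh 0 (show 0 + 3 ≤ N + 4 by omega) ((cc 0).1 x) = (cc (N + 1)).1 (sh 0 (show 0 + 3 ≤ N + 4 by omega) x) := by
  fin_cases x
  · have h1 := cc0 0
    have h2 := cc0 (N + 1)
    exact (congrArg (sh 0 (show 0 + 3 ≤ N + 4 by omega)) h1).trans h2.symm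
  · have h1 := cc1 0
    have h2 := cc1 (N + 1)
    exact (congrArg (sh 0 (show 0 + 3 ≤ N + 4 by omega)) h1).trans h2.symm
  · have h1 := cc2 0
    have h2 := cc2 (N + 1)
    exact (congrArg (sh 0 (show 0 + 3 ≤ N + 4 by omega)) h1).trans h2.symm

theorem cc_pow_sh (k : ℕ) (x : Fin 3) : sh 0 (show 0 + 3 ≤ N + 4 by omega) (((cc 0).1 ^ k) x) = ((cc (N + 1)).1 ^ k) (sh 0 (show 0 + 3 ≤ N + 4 by omega) x) := by
  induction k with
  | zero => rfl
  | succ k ih =>
    rw [pow_succ', pow_succ', Equiv.Perm.mul_apply, Equiv.Perm.mul_apply, cc_sh, ih]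

section gd
variable {κ : SU 3 F q →* G} {α : alternatingGroup (Fin (N + 4)) →* G} (D : GD κ α)
include D

/-- every 2-block of the first `SU_3` is labelled -/
theorem GD.kap (i : Fin 2 ↪ Fin 3) (s : SU 2 F q) (π : alternatingGroup (Fin (N + 4)))
    (h : ∀ a : Fin 2, π.1 (sh 0 (by omega) a) = sh 0 (by omega) (i a)) : κ (blk i s) = LL κ α π s := by
  obtain ⟨k, τ, hk⟩ := t2 i
  have e1 : i = (τ.toEmbedding.trans (sh 0 (show 0 + 2 ≤ 3 by omega))).trans ((cc 0 ^ k.1 : alternatingGroup (Fin 3)) : Equiv.Perm (Fin 3)).toEmbedding := by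
    ext a
    rw [hk a]
    rfl
  have e2 : κ (blk i s) = LL κ α (cc (N + 1) ^ k.1) (blk τ.toEmbedding s) := by
    rw [e1, ← pm_conj, LL, map_mul, map_mul, map_inv, map_pow, map_pow, D.C, map_pow, ← blk_comp]
    rfl
  rw [e2]
  symm
  apply D.wd
  intro a
  rw [h, hk, cc_pow_sh]
  show ((cc (N + 1)).1 ^ k.1) _ = ((cc (N + 1)).1 ^ k.1) _
  congr 1
  exact Fin.ext (by simp only [sh_apply]; omega)

/-- the labelled copies of `SU_3` -/
theorem GD.exists3 (j : Fin 3 ↪ Fin (N + 4)) : ∃ ψ : SU 3 F q →* G, ∀ (i : Fin 2 ↪ Fin 3) (s : SU 2 F q) (π : alternatingGroup (Fin (N + 4))),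
    (∀ a : Fin 2, π.1 (sh 0 (by omega) a) = j (i a)) → ψ (blk i s) = LL κ α π s := by
  have hs : Equiv.Perm.sign (Equiv.swap (⟨0, by omega⟩ : Fin (N + 4)) ⟨2, by omega⟩) = -1 := Equiv.Perm.sign_swap (fin_ne _ _ (by norm_num))
  have key : ∀ (τ : Equiv.Perm (Fin 3)) (π1 : alternatingGroup (Fin (N + 4))), (∀ a, π1.1 (sh 0 (show 0 + 3 ≤ N + 4 by omega) (τ a)) = j a) →
      ∃ ψ : SU 3 F q →* G, ∀ (i : Fin 2 ↪ Fin 3) (s : SU 2 F q) (π : alternatingGroup (Fin (N + 4))),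
        (∀ a : Fin 2, π.1 (sh 0 (by omega) a) = j (i a)) → ψ (blk i s) = LL κ α π s := by
    intro τ π1 h1
    refine ⟨((MulAut.conj (α π1)).toMonoidHom.comp κ).comp (blk τ.toEmbedding), ?_⟩
    intro i s π h
    show α π1 * κ (blk τ.toEmbedding (blk i s)) * (α π1)⁻¹ = _
    rw [blk_comp, D.kap (i.trans τ.toEmbedding) s (π1⁻¹ * π) ?_]
    · rw [LL, LL, map_mul, map_inv]; group
    · intro a
      show π1.1.symm (π.1 _) = sh 0 _ (τ (i a))
      rw [h, ← h1, Equiv.symm_apply_apply]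
  obtain ⟨π, hπ | hπ⟩ := exists_even (show 0 + 3 ≤ N + 4 by omega) j _ hs
  · exact key 1 π hπ
  · refine key (Equiv.swap 0 2) π ?_
    intro a
    rw [← hπ a]
    congr 1
    fin_cases a
    · exact (Equiv.swap_apply_left _ _).symm
    · exact (sw_ne (a := 0) (b := 2) (c := 1) _ _ _ (by norm_num) (by norm_num)).symm
    · exact (Equiv.swap_apply_right _ _).symm

/-- disjoint labelled copies commute -/
theorem GD.comm (π π' : alternatingGroup (Fin (N + 4))) (h : ∀ a b : Fin 2, π.1 (sh 0 (by omega) a) ≠ π'.1 (sh 0 (by omega) b)) (s t : SU 2 F q) :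
    LL κ α π s * LL κ α π' t = LL κ α π' t * LL κ α π s := by
  have hs : Equiv.Perm.sign (Equiv.swap (⟨2, by omega⟩ : Fin (N + 4)) ⟨3, by omega⟩) = -1 := Equiv.Perm.sign_swap (fin_ne _ _ (by norm_num))
  have key : ∀ (τ : Equiv.Perm (Fin 2)) (π1 : alternatingGroup (Fin (N + 4))), (∀ a : Fin 2, π1.1 (sh 0 (by omega) a) = π.1 (sh 0 (by omega) a)) →
      (∀ a : Fin 2, π1.1 (sh 2 (by omega) (τ a)) = π'.1 (sh 0 (by omega) a)) → LL κ α π s * LL κ α π' t = LL κ α π' t * LL κ α π s := by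
    intro τ π1 h1 h2
    have e1 := D.wd1 π π1 h1 s
    have e2 := D.wd (π1 * rho N) π' τ (by
      intro a
      rw [← h2]
      show _ = π1.1 ((rho N).1 _)
      congr 1
      generalize τ a = b
      fin_cases b
      · exact (rho0 N).symm
      · exact (rho1 N).symm) t
    rw [← e1, e2, LL, LL, map_mul]
    have h3 := D.X s (blk τ.toEmbedding t)
    have h4 := congrArg (fun x => α π1 * x * (α π1)⁻¹) h3
    calc _ = α π1 * (κ (b0 F q s) * (α (rho N) * κ (b0 F q (blk τ.toEmbedding t)) * (α (rho N))⁻¹)) * (α π1)⁻¹ := by group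
      _ = _ := h4
      _ = _ := by group
  let j : Fin 4 ↪ Fin (N + 4) := ⟨![π.1 ⟨0, by omega⟩, π.1 ⟨1, by omega⟩, π'.1 ⟨0, by omega⟩, π'.1 ⟨1, by omega⟩], by
    have n1 : π.1 ⟨0, by omega⟩ ≠ π.1 ⟨1, by omega⟩ := fun h => absurd (π.1.injective h) (fin_ne _ _ (by norm_num))
    have n2 : π'.1 ⟨0, by omega⟩ ≠ π'.1 ⟨1, by omega⟩ := fun h => absurd (π'.1.injective h) (fin_ne _ _ (by norm_num))
    have n3 := h 0 0
    have n4 := h 0 1
    have n5 := h 1 0
    have n6 := h 1 1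
    intro a b hab
    fin_cases a <;> fin_cases b <;> first | rfl | (exfalso; first | exact n1 hab | exact n2 hab | exact n3 hab | exact n4 hab | exact n5 hab | exact n6 hab | exact n1 hab.symm | exact n2 hab.symm | exact n3 hab.symm | exact n4 hab.symm | exact n5 hab.symm | exact n6 hab.symm)⟩
  obtain ⟨π1, hπ | hπ⟩ := exists_even (show 0 + 4 ≤ N + 4 by omega) j _ hs
  · refine key 1 π1 ?_ ?_
    · intro a
      fin_cases a
      · exact hπ 0
      · exact hπ 1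
    · intro a
      fin_cases a
      · exact hπ 2
      · exact hπ 3
  · refine key (Equiv.swap 0 1) π1 ?_ ?_
    · intro a
      fin_cases a
      · have := hπ 0
        rw [show sh 0 (show 0 + 4 ≤ N + 4 by omega) 0 = ⟨0, by omega⟩ from rfl, sw_ne (a := 2) (b := 3) (c := 0) _ _ _ (by norm_num) (by norm_num)] at this
        exact this
      · have := hπ 1
        rw [show sh 0 (show 0 + 4 ≤ N + 4 by omega) 1 = ⟨1, by omega⟩ from rfl, sw_ne (a := 2) (b := 3) (c := 1) _ _ _ (by norm_num) (by norm_num)] at this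
        exact this
    · intro a
      fin_cases a
      · have := hπ 2
        rw [show sh 0 (show 0 + 4 ≤ N + 4 by omega) 2 = ⟨2, by omega⟩ from rfl, Equiv.swap_apply_left] at this
        exact this
      · have := hπ 3
        rw [show sh 0 (show 0 + 4 ≤ N + 4 by omega) 3 = ⟨3, by omega⟩ from rfl, Equiv.swap_apply_right] at this
        exact this

end gd

end Cfsg.Agent.Lib.PresU
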