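import Cfsg.Agent.Lib.PresUA

/-! Gluing `SU_3(q)` and the alternating group of permutation matrices: the induction (helper38). -/

set_option autoImplicit false
set_option linter.unusedSectionVars false
set_option linter.unusedSimpArgs false

namespace Cfsg.Agent.Lib.PresU

open Module Matrix Cfsg Cfsg.Agent.Lib.Phan Cfsg.Agent.Lib.UnTrans Cfsg.Agent.Lib.UnBridge Cfsg.Agent.Lib.ClUnSimple

/-- adjacent transpositions -/
def sa (m i : ℕ) (h : i + 2 ≤ m) : Equiv.Perm (Fin m) := Equiv.swap ⟨i, by omega⟩ ⟨i + 1, by omega⟩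

theorem sa_sq (m i : ℕ) (h : i + 2 ≤ m) : sa m i h * sa m i h = 1 := Equiv.swap_mul_self _ _

/-- generation of the alternating group by consecutive 3-cycles -/
theorem gen_alt (m : ℕ) (A : Subgroup (alternatingGroup (Fin (m + 3))))
    (hA : ∀ i (h : i + 3 ≤ m + 3), ∃ σ ∈ A, σ.1 = sa (m + 3) i (by omega) * sa (m + 3) (i + 1) (by omega)) : A = ⊤ := by
  let B : Subgroup (Equiv.Perm (Fin (m + 3))) := A.map (alternatingGroup (Fin (m + 3))).subtype
  have hB : ∀ i (h : i + 3 ≤ m + 3), sa (m + 3) i (by omega) * sa (m + 3) (i + 1) (by omega) ∈ B := by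
    intro i h
    obtain ⟨σ, h1, h2⟩ := hA i h
    exact ⟨σ, h1, h2⟩
  have h0 : ∀ i (h : i + 2 ≤ m + 3), sa (m + 3) 0 (by omega) * sa (m + 3) i h ∈ B := by
    intro i
    induction i with
    | zero => intro h; rw [sa_sq]; exact B.one_mem
    | succ i ih =>
      intro h
      have e : sa (m + 3) 0 (by omega) * sa (m + 3) (i + 1) h = (sa (m + 3) 0 (by omega) * sa (m + 3) i (by omega)) * (sa (m + 3) i (by omega) * sa (m + 3) (i + 1) h) := by
        have := sa_sq (m + 3) i (by omega)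
        calc _ = sa (m + 3) 0 (by omega) * 1 * sa (m + 3) (i + 1) h := by rw [mul_one]
          _ = _ := by rw [← this]; group
      rw [e]
      exact B.mul_mem (ih (by omega)) (hB i (by omega))
  have h0' : ∀ i (h : i + 2 ≤ m + 3), sa (m + 3) i h * sa (m + 3) 0 (by omega) ∈ B := by
    intro i h
    have h1 := B.inv_mem (h0 i h)
    rw [_root_.mul_inv_rev, sa, sa, Equiv.swap_inv, Equiv.swap_inv] at h1
    exact h1
  have key : ∀ π : Equiv.Perm (Fin (m + 3)), π ∈ B ∨ π * sa (m + 3) 0 (by omega) ∈ B := by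
    intro π
    have hπ : π ∈ Submonoid.closure (Set.range fun i : Fin (m + 2) ↦ Equiv.swap i.castSucc i.succ) := by
      rw [Equiv.Perm.mclosure_swap_castSucc_succ]; trivial
    induction hπ using Submonoid.closure_induction_right with
    | one => left; exact B.one_mem
    | mul_right x hx y hy ih =>
      obtain ⟨i, rfl⟩ := hy
      have e : Equiv.swap i.castSucc i.succ = sa (m + 3) i.1 (by omega) := rfl
      show x * Equiv.swap i.castSucc i.succ ∈ B ∨ x * Equiv.swap i.castSucc i.succ * _ ∈ B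
      rw [e]
      rcases ih with h | h
      · right
        rw [mul_assoc]
        exact B.mul_mem h (h0' _ _)
      · left
        have e2 : x * sa (m + 3) i.1 (by omega) = (x * sa (m + 3) 0 (by omega)) * (sa (m + 3) 0 (by omega) * sa (m + 3) i.1 (by omega)) := by
          have := sa_sq (m + 3) 0 (by omega)
          calc _ = x * 1 * sa (m + 3) i.1 (by omega) := by rw [mul_one]
            _ = _ := by rw [← this]; group
        rw [e2]
        exact B.mul_mem h (h0 _ _)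
  rw [eq_top_iff]
  intro π _
  rcases key π.1 with h | h
  · obtain ⟨σ, h1, h2⟩ := h
    have : σ = π := Subtype.ext h2
    rw [← this]; exact h1
  · exfalso
    obtain ⟨σ, h1, h2⟩ := h
    have h3 := Equiv.Perm.mem_alternatingGroup.1 σ.2
    have h4 := Equiv.Perm.mem_alternatingGroup.1 π.2
    have h5 : Equiv.Perm.sign (π.1 * sa (m + 3) 0 (by omega)) = 1 := by rw [← h2]; exact h3
    rw [Equiv.Perm.sign_mul, h4, sa, Equiv.Perm.sign_swap (fin_ne _ _ (by norm_num))] at h5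
    exact absurd h5 (by decide)

variable {F : Type*} [Field F] {q : ℕ} {G : Type*} [Group G] {N : ℕ} {κ : SU 3 F q →* G} {α : alternatingGroup (Fin (N + 4)) →* G}

/-- conjugates of the cycle -/
theorem conj_cc {N : ℕ} (π : alternatingGroup (Fin (N + 4))) : (π * cc (N + 1) * π⁻¹).1 =
    Equiv.swap (π.1 ⟨0, by omega⟩) (π.1 ⟨1, by omega⟩) * Equiv.swap (π.1 ⟨1, by omega⟩) (π.1 ⟨2, by omega⟩) := by
  show π.1 * (Equiv.swap _ _ * Equiv.swap _ _) * π.1⁻¹ = _
  rw [Equiv.swap_apply_apply, Equiv.swap_apply_apply]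
  group

theorem blk_refl (x : SU 3 F q) : blk (Function.Embedding.refl (Fin 3)) x = x := by
  apply SU_ext
  intro v
  rw [blk_coe]
  have e : emb F (Function.Embedding.refl (Fin 3)) = 1 := by
    ext a b
    rw [emb_apply, Matrix.one_apply]
    rfl
  rw [blkM, e]
  simp

theorem pm_single {n : ℕ} (π : alternatingGroup (Fin n)) (a : Fin n) : (pm F q n π).1.1 *ᵥ Pi.single a 1 = Pi.single (π.1 a) 1 := by
  rw [pm_coe]
  exact ext_single _ a 1

theorem cc_fix {N : ℕ} (a : Fin (N + 3)) (ha : 3 ≤ a.1) : (cc N).1 a = a := by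
  obtain ⟨a, ha'⟩ := a
  change 3 ≤ a at ha
  rw [cc]
  simp only [Equiv.Perm.mul_apply]
  rw [sw_ne (a := 1) (b := 2) (c := a) _ _ _ (by omega) (by omega), sw_ne (a := 0) (b := 1) (c := a) _ _ _ (by omega) (by omega)]

theorem pm_cc (N : ℕ) : pm F q (N + 4) (cc (N + 1)) = blk (sh 0 (show 0 + 3 ≤ N + 4 by omega)) (pm F q 3 (cc 0)) := by
  apply Subtype.ext; apply Subtype.ext
  apply Matrix.ext_of_mulVec_single
  intro a
  rw [pm_single, blk_coe]
  by_cases ha : a ∈ Set.range (sh 0 (show 0 + 3 ≤ N + 4 by omega) : Fin 3 ↪ Fin (N + 4))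
  · obtain ⟨b, rfl⟩ := ha
    rw [← ext_single, blkM_ext, pm_single, ext_single, cc_sh]
  · rw [blkM_fix]
    · have h1 := range_sh ha
      rw [cc_fix a (by omega)]
    · intro b
      rw [Pi.single_eq_of_ne]
      rintro rfl
      exact ha ⟨b, rfl⟩

section fin
variable [Fintype F] (hF : Fintype.card F = q ^ 2) (D : GD κ α)
include hF D

/-- the condition on homomorphisms from the initial blocks -/
def Lab (κ : SU 3 F q →* G) (α : alternatingGroup (Fin (N + 4)) →* G) (m : ℕ) (hm : m ≤ N + 4) (Φ : SU m F q →* G) : Prop :=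
  ∀ i (hi : i + 2 ≤ m) (s : SU 2 F q) (π : alternatingGroup (Fin (N + 4))),
    (∀ a : Fin 2, π.1 (sh 0 (by omega) a) = sh i (by omega) a) → Φ (blk (sh i hi) s) = LL κ α π s

omit hF in
theorem GD.lab3 : Lab κ α 3 (by omega) κ := by
  intro i hi s π h
  apply D.kap
  intro a
  rw [h]
  exact Fin.ext (by simp only [sh_apply]; omega)

theorem GD.ind (h3 : 3 ≤ q) (m0 : ℕ) (hm0 : 1 ≤ m0) (hq : m0 = 1 → 4 ≤ q) (hmN0 : m0 + 2 ≤ N + 4)
    (hbase : ∃ Φ : SU (m0 + 2) F q →* G, Lab κ α (m0 + 2) hmN0 Φ) (m : ℕ) (hm : m0 ≤ m) (hmN : m + 2 ≤ N + 4) :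
    ∃ Φ : SU (m + 2) F q →* G, Lab κ α (m + 2) hmN Φ := by
  induction m, hm using Nat.le_induction with
  | base => exact hbase
  | succ m hm ih =>
    obtain ⟨Φ, hΦ⟩ := ih (by omega)
    obtain ⟨ψ, hψ⟩ := D.exists3 (sh m (show m + 3 ≤ N + 4 by omega))
    have ex : ∀ (i : ℕ) (hi : i + 2 ≤ N + 4), ∃ π : alternatingGroup (Fin (N + 4)), ∀ a : Fin 2, π.1 (sh 0 (by omega) a) = sh i hi a := by
      intro i hi
      obtain ⟨π, h | h⟩ := exists_even (show 0 + 2 ≤ N + 4 by omega) (sh i hi) (Equiv.swap ⟨2, by omega⟩ ⟨3, by omega⟩) (Equiv.Perm.sign_swap (fin_ne _ _ (by norm_num)))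
      · exact ⟨π, h⟩
      · refine ⟨π, fun a => ?_⟩
        rw [← h a]
        congr 1
        fin_cases a
        · exact (sw_ne (a := 2) (b := 3) (c := 0) _ _ _ (by norm_num) (by norm_num)).symm
        · exact (sw_ne (a := 2) (b := 3) (c := 1) _ _ _ (by norm_num) (by norm_num)).symm
    have hψ0 : ∀ (s : SU 2 F q) (π : alternatingGroup (Fin (N + 4))), (∀ a : Fin 2, π.1 (sh 0 (by omega) a) = sh m (by omega) a) →
        ψ (blk (sh 0 (by omega)) s) = LL κ α π s := by
      intro s π h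
      apply hψ
      intro a
      rw [h]
      exact Fin.ext (by simp only [sh_apply]; omega)
    have hψ1 : ∀ (s : SU 2 F q) (π : alternatingGroup (Fin (N + 4))), (∀ a : Fin 2, π.1 (sh 0 (by omega) a) = sh (m + 1) (by omega) a) →
        ψ (blk (sh 1 (by omega)) s) = LL κ α π s := by
      intro s π h
      apply hψ
      intro a
      rw [h]
      exact Fin.ext (by simp only [sh_apply]; omega)
    obtain ⟨Φ', k1, k2⟩ := step hF (by omega) h3 (by intro h; exact hq (by omega)) Φ ψ (by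
      intro s
      obtain ⟨π, hπ⟩ := ex m (by omega)
      rw [hψ0 s π hπ, hΦ m (by omega) s π hπ]) (by
      intro h k
      obtain ⟨m', rfl⟩ : ∃ m', m = m' + 1 := ⟨m - 1, by omega⟩
      obtain ⟨π', hπ'⟩ := ex (m' + 1 + 1) (by omega)
      rw [hψ1 k π' hπ']
      let Z : Subgroup (SU (m' + 2) F q) := (Subgroup.centralizer {LL κ α π' k}).comap (Φ.comp (blk (sh 0 (show 0 + (m' + 2) ≤ m' + 1 + 2 by omega))))
      have hZ : Z = ⊤ := by
        apply gen_blocks hF h3
        intro i hi s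
        show Φ (blk _ (blk _ s)) ∈ Subgroup.centralizer _
        rw [blk_sh, Subgroup.mem_centralizer_singleton_iff, sh_congr (show 0 + i = i by omega) (by omega) (by omega)]
        obtain ⟨π, hπ⟩ := ex i (by omega)
        rw [hΦ i (by omega) s π hπ]
        apply D.comm
        intro a b hab
        rw [hπ, hπ'] at hab
        have h1 := congrArg Fin.val hab
        simp only [sh_apply] at h1
        omega
      have h7 : h ∈ Z := by rw [hZ]; trivial
      exact Subgroup.mem_centralizer_singleton_iff.1 h7)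
    refine ⟨Φ', ?_⟩
    intro i hi s π hπ
    by_cases h : i + 2 ≤ m + 2
    · rw [← hΦ i h s π hπ, ← k1, blk_sh, sh_congr (show 0 + i = i by omega) (by omega) hi]
    · obtain rfl : i = m + 1 := by omega
      rw [← hψ1 s π hπ, ← k2, blk_sh]

omit hF in
/-- the labelled copies of `SU_3`, explicit form -/
theorem GD.psi (j : Fin 3 ↪ Fin (N + 4)) (τ : Equiv.Perm (Fin 3)) (π1 : alternatingGroup (Fin (N + 4)))
    (h1 : ∀ a, π1.1 (sh 0 (show 0 + 3 ≤ N + 4 by omega) a) = j (τ a)) (i : Fin 2 ↪ Fin 3) (s : SU 2 F q) (π : alternatingGroup (Fin (N + 4)))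
    (h : ∀ a : Fin 2, π.1 (sh 0 (by omega) a) = j (i a)) :
    α π1 * κ (blk (τ⁻¹).toEmbedding (blk i s)) * (α π1)⁻¹ = LL κ α π s := by
  rw [blk_comp, D.kap (i.trans (τ⁻¹).toEmbedding) s (π1⁻¹ * π) ?_]
  · rw [LL, LL, map_mul, map_inv]; group
  · intro a
    show π1.1.symm (π.1 _) = sh 0 _ (τ.symm (i a))
    rw [h]
    have h2 := h1 (τ.symm (i a))
    rw [Equiv.apply_symm_apply] at h2
    rw [← h2, Equiv.symm_apply_apply]

/-- **the gluing theorem** -/
theorem GD.main (h3 : 3 ≤ q) (m0 : ℕ) (hm0 : 1 ≤ m0) (hq : m0 = 1 → 4 ≤ q) (hmN0 : m0 + 2 ≤ N + 4)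
    (hbase : ∃ Φ : SU (m0 + 2) F q →* G, Lab κ α (m0 + 2) hmN0 Φ) (f : G →* SU (N + 4) F q)
    (hfκ : ∀ x, f (κ x) = blk (sh 0 (by omega)) x) (hfα : ∀ π, f (α π) = pm F q (N + 4) π) (hgen : κ.range ⊔ α.range = ⊤) :
    Function.Bijective f := by
  obtain ⟨Φ, hΦ⟩ := D.ind hF h3 m0 hm0 hq hmN0 hbase (N + 2) (by omega) (by omega)
  have ex : ∀ (i : ℕ) (hi : i + 2 ≤ N + 4), ∃ π : alternatingGroup (Fin (N + 4)), ∀ a : Fin 2, π.1 (sh 0 (by omega) a) = sh i hi a := by
    intro i hi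
    obtain ⟨π, h | h⟩ := exists_even (show 0 + 2 ≤ N + 4 by omega) (sh i hi) (Equiv.swap ⟨2, by omega⟩ ⟨3, by omega⟩) (Equiv.Perm.sign_swap (fin_ne _ _ (by norm_num)))
    · exact ⟨π, h⟩
    · refine ⟨π, fun a => ?_⟩
      rw [← h a]
      congr 1
      fin_cases a
      · exact (sw_ne (a := 2) (b := 3) (c := 0) _ _ _ (by norm_num) (by norm_num)).symm
      · exact (sw_ne (a := 2) (b := 3) (c := 1) _ _ _ (by norm_num) (by norm_num)).symm
  have hfL : ∀ (i : ℕ) (hi : i + 2 ≤ N + 4) (s : SU 2 F q) (π : alternatingGroup (Fin (N + 4))),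
      (∀ a : Fin 2, π.1 (sh 0 (by omega) a) = sh i hi a) → f (LL κ α π s) = blk (sh i hi) s := by
    intro i hi s π h
    rw [LL, map_mul, map_mul, map_inv, hfκ, hfα, b0, blk_sh, pm_conj]
    congr 2
    ext a
    rw [← h a]
    rfl
  have h1 : ∀ x, f (Φ x) = x := by
    have hS : ((f.comp Φ).eqLocus (MonoidHom.id (SU (N + 2 + 2) F q))) = ⊤ := by
      apply gen_blocks hF h3
      intro i hi s
      show f (Φ (blk (sh i hi) s)) = blk (sh i hi) s
      obtain ⟨π, hπ⟩ := ex i hi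
      rw [hΦ i hi s π hπ, hfL i hi s π hπ]
    intro x
    have : x ∈ ((f.comp Φ).eqLocus (MonoidHom.id (SU (N + 2 + 2) F q))) := by rw [hS]; trivial
    exact this
  -- the blocks
  have h2 : ∀ (i : ℕ) (hi : i + 3 ≤ N + 4) (τ : Equiv.Perm (Fin 3)) (π1 : alternatingGroup (Fin (N + 4))),
      (∀ a, π1.1 (sh 0 (show 0 + 3 ≤ N + 4 by omega) a) = sh i hi (τ a)) → ∀ x : SU 3 F q,
      Φ (blk (sh i hi) x) = α π1 * κ (blk (τ⁻¹).toEmbedding x) * (α π1)⁻¹ := by
    intro i hi τ π1 hπ1 x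
    have hS : ((Φ.comp (blk (sh i hi))).eqLocus (((MulAut.conj (α π1)).toMonoidHom.comp κ).comp (blk (τ⁻¹).toEmbedding))) = ⊤ := by
      apply gen_blocks (k := 1) hF h3
      intro i' hi' s
      show Φ (blk (sh i hi) (blk (sh i' hi') s)) = α π1 * κ (blk (τ⁻¹).toEmbedding (blk (sh i' hi') s)) * (α π1)⁻¹
      obtain ⟨π, hπ⟩ := ex (i + i') (by omega)
      rw [D.psi (sh i hi) τ π1 hπ1 (sh i' hi') s π (by
        intro a
        rw [hπ]
        exact Fin.ext (by simp only [sh_apply]; omega)), blk_sh, hΦ (i + i') (by omega) s π hπ]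
    have : x ∈ ((Φ.comp (blk (sh i hi))).eqLocus (((MulAut.conj (α π1)).toMonoidHom.comp κ).comp (blk (τ⁻¹).toEmbedding))) := by rw [hS]; trivial
    exact this
  -- permutation matrices
  have h4 : ∀ π, Φ (pm F q (N + 4) π) = α π := by
    have hS : (Φ.comp (pm F q (N + 4))).eqLocus α = ⊤ := by
      apply gen_alt (N + 1)
      intro i hi
      have hcc := pm_cc (F := F) (q := q) N
      have key : ∀ (τ : Equiv.Perm (Fin 3)) (π1 : alternatingGroup (Fin (N + 4))), (∀ a, π1.1 (sh 0 (show 0 + 3 ≤ N + 4 by omega) a) = sh i hi (τ a)) →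
          π1 * cc (N + 1) * π1⁻¹ ∈ (Φ.comp (pm F q (N + 4))).eqLocus α := by
        intro τ π1 hπ1
        show Φ (pm F q (N + 4) (π1 * cc (N + 1) * π1⁻¹)) = α (π1 * cc (N + 1) * π1⁻¹)
        have e1 : pm F q (N + 4) (π1 * cc (N + 1) * π1⁻¹) = blk (sh i hi) (blk τ.toEmbedding (pm F q 3 (cc 0))) := by
          rw [map_mul, map_mul, map_inv, hcc, pm_conj, blk_comp]
          congr 2
          ext a
          have := hπ1 a
          exact congrArg Fin.val this
        rw [e1, h2 i hi τ π1 hπ1, blk_comp]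
        have e2 : (τ.toEmbedding.trans (τ⁻¹).toEmbedding) = Function.Embedding.refl _ := by
          ext a
          show (τ.symm (τ a)).1 = a.1
          rw [Equiv.symm_apply_apply]
        rw [e2]
        have e3 := blk_refl (pm F q 3 (cc 0))
        rw [e3, D.C, map_mul, map_mul, map_inv]
      obtain ⟨π1, hπ | hπ⟩ := exists_even (show 0 + 3 ≤ N + 4 by omega) (sh i hi) (Equiv.swap ⟨0, by omega⟩ ⟨2, by omega⟩) (Equiv.Perm.sign_swap (fin_ne _ _ (by norm_num)))
      · refine ⟨_, key 1 π1 hπ, ?_⟩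
        rw [conj_cc]
        have a0 := hπ 0
        have a1 := hπ 1
        have a2 := hπ 2
        change π1.1 ⟨0, _⟩ = ⟨i, _⟩ at a0
        change π1.1 ⟨1, _⟩ = ⟨i + 1, _⟩ at a1
        change π1.1 ⟨2, _⟩ = ⟨i + 2, _⟩ at a2
        rw [a0, a1, a2]
        rfl
      · refine ⟨(π1 * cc (N + 1) * π1⁻¹)⁻¹, Subgroup.inv_mem _ (key (Equiv.swap 0 2) π1 ?_), ?_⟩
        · intro a
          have := hπ ((Equiv.swap (0 : Fin 3) 2) a)
          rw [← this]
          congr 1
          fin_cases a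
          · exact (Equiv.swap_apply_right _ _).symm
          · exact (sw_ne (a := 0) (b := 2) (c := 1) _ _ _ (by norm_num) (by norm_num)).symm
          · exact (Equiv.swap_apply_left _ _).symm
        · have a0 := hπ 2
          have a1 := hπ 1
          have a2 := hπ 0
          rw [show sh 0 (show 0 + 3 ≤ N + 4 by omega) 2 = ⟨2, by omega⟩ from rfl, Equiv.swap_apply_right] at a0
          rw [show sh 0 (show 0 + 3 ≤ N + 4 by omega) 1 = ⟨1, by omega⟩ from rfl, sw_ne (a := 0) (b := 2) (c := 1) _ _ _ (by norm_num) (by norm_num)] at a1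
          rw [show sh 0 (show 0 + 3 ≤ N + 4 by omega) 0 = ⟨0, by omega⟩ from rfl, Equiv.swap_apply_left] at a2
          change π1.1 ⟨0, _⟩ = ⟨i + 2, _⟩ at a0
          change π1.1 ⟨1, _⟩ = ⟨i + 1, _⟩ at a1
          change π1.1 ⟨2, _⟩ = ⟨i, _⟩ at a2
          show (π1 * cc (N + 1) * π1⁻¹).1⁻¹ = _
          rw [conj_cc, a0, a1, a2, _root_.mul_inv_rev, Equiv.swap_inv, Equiv.swap_inv, sa, sa]
          rw [Equiv.swap_comm (⟨i + 1, _⟩ : Fin (N + 4)) ⟨i, _⟩, Equiv.swap_comm (⟨i + 2, _⟩ : Fin (N + 4)) ⟨i + 1, _⟩]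
    intro π
    have : π ∈ (Φ.comp (pm F q (N + 4))).eqLocus α := by rw [hS]; trivial
    exact this
  have h5 : ∀ x, Φ (blk (sh 0 (by omega)) x) = κ x := by
    intro x
    rw [h2 0 (by omega) 1 1 (fun a => rfl), map_one, one_mul, inv_one, inv_one, mul_one]
    exact congrArg κ (blk_refl x)
  have h6 : Function.Surjective Φ := by
    rw [← MonoidHom.range_eq_top, eq_top_iff, ← hgen, sup_le_iff]
    constructor
    · rintro _ ⟨x, rfl⟩
      exact ⟨_, h5 x⟩
    · rintro _ ⟨π, rfl⟩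
      exact ⟨_, h4 π⟩
  refine ⟨?_, fun x => ⟨Φ x, h1 x⟩⟩
  intro x y hxy
  obtain ⟨x, rfl⟩ := h6 x
  obtain ⟨y, rfl⟩ := h6 y
  rw [h1, h1] at hxy
  rw [hxy]

end fin

end Cfsg.Agent.Lib.PresU
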