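import Cfsg.Agent.Lib.PresUB
import Cfsg.Agent.Lib.PresHas

/-! Gluing `SU_3(q)` and the alternating group of permutation matrices: relation counting (helper38). -/

set_option autoImplicit false
set_option linter.unusedSectionVars false
set_option linter.unusedSimpArgs false

namespace Cfsg.Agent.Lib.PresU

open Module Matrix Cfsg Cfsg.Agent.Lib.Phan Cfsg.Agent.Lib.UnTrans Cfsg.Agent.Lib.UnBridge Cfsg.Agent.Lib.ClUnSimple
open Cfsg.Agent.Lib.PresHas

theorem sign2_bij : Function.Bijective (Equiv.Perm.sign : Equiv.Perm (Fin 2) →* ℤˣ) := by decide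

/-- the sign as a permutation of two points -/
noncomputable def s2 (m : ℕ) : Equiv.Perm (Fin m) →* Equiv.Perm (Fin 2) :=
  (MulEquiv.ofBijective (Equiv.Perm.sign : Equiv.Perm (Fin 2) →* ℤˣ) sign2_bij).symm.toMonoidHom.comp Equiv.Perm.sign

theorem sign_s2 {m : ℕ} (σ : Equiv.Perm (Fin m)) : Equiv.Perm.sign (s2 m σ) = Equiv.Perm.sign σ :=
  (MulEquiv.ofBijective (Equiv.Perm.sign : Equiv.Perm (Fin 2) →* ℤˣ) sign2_bij).apply_symm_apply _

/-- the equivalence of the index sets -/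
def ee (N : ℕ) : Fin 2 ⊕ Fin (N + 2) ≃ Fin (N + 4) := finSumFinEquiv.trans (finCongr (by omega))

theorem ee_inl (N : ℕ) (a : Fin 2) : ee N (Sum.inl a) = sh 0 (by omega) a := by
  apply Fin.ext
  simp [ee, sh_apply]

/-- permutations fixing the set `{0, 1}` -/
noncomputable def tht0 (N : ℕ) : Equiv.Perm (Fin (N + 2)) →* Equiv.Perm (Fin (N + 4)) :=
  ((ee N).permCongrHom.toMonoidHom.comp (Equiv.Perm.sumCongrHom (Fin 2) (Fin (N + 2)))).comp ((s2 (N + 2)).prod (MonoidHom.id _))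

theorem tht0_sign {N : ℕ} (σ : Equiv.Perm (Fin (N + 2))) : Equiv.Perm.sign (tht0 N σ) = 1 := by
  show Equiv.Perm.sign ((ee N).permCongr (Equiv.Perm.sumCongr (s2 (N + 2) σ) σ)) = 1
  rw [Equiv.Perm.sign_permCongr, Equiv.Perm.sign_sumCongr, sign_s2]
  exact Int.units_mul_self _

noncomputable def tht (N : ℕ) : Equiv.Perm (Fin (N + 2)) →* alternatingGroup (Fin (N + 4)) :=
  (tht0 N).codRestrict _ (fun σ => Equiv.Perm.mem_alternatingGroup.2 (tht0_sign σ))

theorem tht_coe {N : ℕ} (σ : Equiv.Perm (Fin (N + 2))) : (tht N σ).1 = (ee N).permCongr (Equiv.Perm.sumCongr (s2 (N + 2) σ) σ) := rfl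

theorem tht_sh {N : ℕ} (σ : Equiv.Perm (Fin (N + 2))) (a : Fin 2) : (tht N σ).1 (sh 0 (by omega) a) = sh 0 (by omega) (s2 (N + 2) σ a) := by
  rw [tht_coe, ← ee_inl, Equiv.permCongr_apply, Equiv.symm_apply_apply, ← ee_inl]
  rfl

theorem tht_surj {N : ℕ} (π : alternatingGroup (Fin (N + 4))) (τ : Equiv.Perm (Fin 2))
    (h : ∀ a : Fin 2, π.1 (sh 0 (by omega) a) = sh 0 (by omega) (τ a)) : ∃ σ, tht N σ = π := by
  set π' : Equiv.Perm (Fin 2 ⊕ Fin (N + 2)) := (ee N).symm.permCongr π.1 with hπ'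
  have h1 : π' ∈ (Equiv.Perm.sumCongrHom (Fin 2) (Fin (N + 2))).range := by
    apply Equiv.Perm.mem_sumCongrHom_range_of_perm_mapsTo_inl
    rintro _ ⟨a, rfl⟩
    refine ⟨τ a, ?_⟩
    rw [hπ', Equiv.permCongr_apply, Equiv.symm_symm, ee_inl, h, ← ee_inl, Equiv.symm_apply_apply]
  obtain ⟨⟨τ', σ⟩, h2⟩ := h1
  have h3 : (ee N).permCongr (Equiv.Perm.sumCongr τ' σ) = π.1 := by
    have : Equiv.Perm.sumCongr τ' σ = π' := h2
    rw [this, hπ']
    ext x
    simp [Equiv.permCongr_apply]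
  have h4 : s2 (N + 2) σ = τ' := by
    apply sign2_bij.1
    have h5 := Equiv.Perm.mem_alternatingGroup.1 π.2
    rw [← h3, Equiv.Perm.sign_permCongr, Equiv.Perm.sign_sumCongr] at h5
    rw [sign_s2]
    have h6 : Equiv.Perm.sign τ' = (Equiv.Perm.sign σ)⁻¹ := eq_inv_of_mul_eq_one_left h5
    rw [h6, Int.units_inv_eq_self]
  refine ⟨σ, ?_⟩
  apply Subtype.ext
  rw [tht_coe, h4, h3]

variable {F : Type*} [Field F] {q : ℕ} {G : Type*} [Group G] {N : ℕ} {κ : SU 3 F q →* G} {α : alternatingGroup (Fin (N + 4)) →* G}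

theorem blk_mul_perm (τ τ' : Equiv.Perm (Fin 2)) (s : SU 2 F q) : blk (τ * τ').toEmbedding s = blk τ.toEmbedding (blk τ'.toEmbedding s) := by
  rw [blk_comp]
  rfl

theorem blk_one_perm (s : SU 2 F q) : blk (1 : Equiv.Perm (Fin 2)).toEmbedding s = s := by
  apply SU_ext
  intro v
  rw [blk_coe]
  have e : emb F (1 : Equiv.Perm (Fin 2)).toEmbedding = 1 := by
    ext a b
    rw [emb_apply, Matrix.one_apply]
    rfl
  rw [blkM, e]
  simp

/-- the gluing data from generators -/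
theorem GD.of_gens (S : Set (Equiv.Perm (Fin (N + 2)))) (hS : Subgroup.closure S = ⊤) (A : Set (SU 2 F q)) (hA : Subgroup.closure A = ⊤)
    (hSA : ∀ σ ∈ S, ∀ a ∈ A, α (tht N σ) * κ (b0 F q a) * (α (tht N σ))⁻¹ = κ (b0 F q (blk (s2 (N + 2) σ).toEmbedding a)))
    (hC : κ (pm F q 3 (cc 0)) = α (cc (N + 1)))
    (hX : ∀ a ∈ A, ∀ b ∈ A, κ (b0 F q a) * (α (rho N) * κ (b0 F q b) * (α (rho N))⁻¹) = (α (rho N) * κ (b0 F q b) * (α (rho N))⁻¹) * κ (b0 F q a)) :
    GD κ α := by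
  refine ⟨?_, hC, ?_⟩
  · have h1 : ∀ σ ∈ S, ∀ s, α (tht N σ) * κ (b0 F q s) * (α (tht N σ))⁻¹ = κ (b0 F q (blk (s2 (N + 2) σ).toEmbedding s)) := by
      intro σ hσ s
      have h2 : ((((MulAut.conj (α (tht N σ))).toMonoidHom.comp κ).comp (b0 F q)).eqLocus ((κ.comp (b0 F q)).comp (blk (s2 (N + 2) σ).toEmbedding))) = ⊤ := by
        rw [eq_top_iff, ← hA, Subgroup.closure_le]
        intro a ha
        exact hSA σ hσ a ha
      have : s ∈ ((((MulAut.conj (α (tht N σ))).toMonoidHom.comp κ).comp (b0 F q)).eqLocus ((κ.comp (b0 F q)).comp (blk (s2 (N + 2) σ).toEmbedding))) := by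
        rw [h2]; trivial
      exact this
    have h2 : ∀ σ, ∀ s, α (tht N σ) * κ (b0 F q s) * (α (tht N σ))⁻¹ = κ (b0 F q (blk (s2 (N + 2) σ).toEmbedding s)) := by
      intro σ
      have hσ : σ ∈ Subgroup.closure S := by rw [hS]; trivial
      induction hσ using Subgroup.closure_induction with
      | one =>
        intro s
        rw [map_one, map_one, map_one, blk_one_perm]; simp
      | mul x y _ _ hx hy =>
        intro s
        rw [map_mul, map_mul, map_mul, blk_mul_perm, ← hx, ← hy]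
        group
      | inv x _ hx =>
        intro s
        have h3 := hx (blk (s2 (N + 2) x⁻¹).toEmbedding s)
        rw [← blk_mul_perm, ← map_mul, mul_inv_cancel, map_one, blk_one_perm] at h3
        rw [← h3, map_inv, map_inv]
        group
      | mem x hx => exact h1 x hx
    intro π τ h s
    obtain ⟨σ, rfl⟩ := tht_surj π τ h
    rw [h2]
    congr 2
    have : s2 (N + 2) σ = τ := by
      ext a
      have h3 := h a
      rw [tht_sh] at h3
      exact congrArg Fin.val ((sh 0 (show 0 + 2 ≤ N + 4 by omega)).injective h3)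
    rw [this]
  · have h1 : ∀ b ∈ A, ∀ s, κ (b0 F q s) * (α (rho N) * κ (b0 F q b) * (α (rho N))⁻¹) = (α (rho N) * κ (b0 F q b) * (α (rho N))⁻¹) * κ (b0 F q s) := by
      intro b hb s
      have h2 : (Subgroup.centralizer {α (rho N) * κ (b0 F q b) * (α (rho N))⁻¹}).comap (κ.comp (b0 F q)) = ⊤ := by
        rw [eq_top_iff, ← hA, Subgroup.closure_le]
        intro a ha
        show κ (b0 F q a) ∈ Subgroup.centralizer _
        rw [Subgroup.mem_centralizer_singleton_iff]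
        exact hX a ha b hb
      have : s ∈ (Subgroup.centralizer {α (rho N) * κ (b0 F q b) * (α (rho N))⁻¹}).comap (κ.comp (b0 F q)) := by rw [h2]; trivial
      exact Subgroup.mem_centralizer_singleton_iff.1 this
    intro s t
    have h2 : (Subgroup.centralizer {κ (b0 F q s)}).comap (((MulAut.conj (α (rho N))).toMonoidHom.comp κ).comp (b0 F q)) = ⊤ := by
      rw [eq_top_iff, ← hA, Subgroup.closure_le]
      intro a ha
      show α (rho N) * κ (b0 F q a) * (α (rho N))⁻¹ ∈ Subgroup.centralizer _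
      rw [Subgroup.mem_centralizer_singleton_iff]
      exact (h1 a ha s).symm
    have : t ∈ (Subgroup.centralizer {κ (b0 F q s)}).comap (((MulAut.conj (α (rho N))).toMonoidHom.comp κ).comp (b0 F q)) := by rw [h2]; trivial
    exact (Subgroup.mem_centralizer_singleton_iff.1 this).symm

/-- the relators -/
noncomputable def relU (N : ℕ) (σ : Fin 2 → Equiv.Perm (Fin (N + 2))) (a : Fin 2 → SU 2 F q) :
    List (Monoid.Coprod (SU 3 F q) (alternatingGroup (Fin (N + 4)))) :=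
  let A := fun i => Monoid.Coprod.inl (b0 F q (a i))
  let B := fun i => (Monoid.Coprod.inr (rho N) * Monoid.Coprod.inl (b0 F q (a i)) * (Monoid.Coprod.inr (rho N))⁻¹ : Monoid.Coprod (SU 3 F q) (alternatingGroup (Fin (N + 4))))
  let C := fun i j => (Monoid.Coprod.inr (tht N (σ i)) * Monoid.Coprod.inl (b0 F q (a j)) * (Monoid.Coprod.inr (tht N (σ i)))⁻¹ *
    (Monoid.Coprod.inl (b0 F q (blk (s2 (N + 2) (σ i)).toEmbedding (a j))))⁻¹ : Monoid.Coprod (SU 3 F q) (alternatingGroup (Fin (N + 4))))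
  [Monoid.Coprod.inl (pm F q 3 (cc 0)) * (Monoid.Coprod.inr (cc (N + 1)))⁻¹, C 0 0, C 0 1, C 1 0, C 1 1,
    A 0 * B 0 * (A 0)⁻¹ * (B 0)⁻¹, A 0 * B 1 * (A 0)⁻¹ * (B 1)⁻¹, A 1 * B 1 * (A 1)⁻¹ * (B 1)⁻¹]

theorem cm_iff {G : Type*} [Group G] {x y : G} : x * y * x⁻¹ * y⁻¹ = 1 ↔ x * y = y * x := by
  rw [mul_inv_eq_one, mul_inv_eq_iff_eq_mul]

/-- the meaning of the relators -/
theorem relU_gd (σ : Fin 2 → Equiv.Perm (Fin (N + 2))) (hσ : Subgroup.closure (Set.range σ) = ⊤) (a : Fin 2 → SU 2 F q)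
    (ha : Subgroup.closure (Set.range a) = ⊤) (h : ∀ w ∈ relU N σ a, Monoid.Coprod.lift κ α w = 1) : GD κ α := by
  rw [relU] at h
  simp only [List.mem_cons, List.not_mem_nil, or_false, forall_eq_or_imp, forall_eq, map_mul, map_inv, Monoid.Coprod.lift_apply_inl,
    Monoid.Coprod.lift_apply_inr] at h
  obtain ⟨r1, r2, r3, r4, r5, r6, r7, r8⟩ := h
  rw [mul_inv_eq_one] at r1 r2 r3 r4 r5
  rw [cm_iff] at r6 r7 r8
  refine GD.of_gens (Set.range σ) hσ (Set.range a) ha ?_ r1 ?_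
  · rintro _ ⟨i, rfl⟩ _ ⟨j, rfl⟩
    fin_cases i <;> fin_cases j
    · exact r2
    · exact r3
    · exact r4
    · exact r5
  · have h7 : κ (b0 F q (a 1)) * (α (rho N) * κ (b0 F q (a 0)) * (α (rho N))⁻¹) = (α (rho N) * κ (b0 F q (a 0)) * (α (rho N))⁻¹) * κ (b0 F q (a 1)) := by
      have e1 : α (rho N) * α (rho N) = 1 := by rw [← map_mul, rho_sq, map_one]
      have e2 : (α (rho N))⁻¹ = α (rho N) := inv_eq_of_mul_eq_one_left e1
      have h8 := congrArg (fun x => α (rho N) * x * (α (rho N))⁻¹) r7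
      have h9 : α (rho N) * (κ (b0 F q (a 0)) * (α (rho N) * κ (b0 F q (a 1)) * (α (rho N))⁻¹)) * (α (rho N))⁻¹ =
          (α (rho N) * κ (b0 F q (a 0)) * (α (rho N))⁻¹) * κ (b0 F q (a 1)) := by
        calc _ = α (rho N) * κ (b0 F q (a 0)) * (α (rho N)) * κ (b0 F q (a 1)) * ((α (rho N))⁻¹ * (α (rho N))⁻¹) := by group
          _ = α (rho N) * κ (b0 F q (a 0)) * (α (rho N)) * κ (b0 F q (a 1)) * (α (rho N) * α (rho N)) := by rw [e2]
          _ = _ := by rw [e1, mul_one]; conv_rhs => rw [e2]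
      have h10 : α (rho N) * (α (rho N) * κ (b0 F q (a 1)) * (α (rho N))⁻¹ * κ (b0 F q (a 0))) * (α (rho N))⁻¹ =
          κ (b0 F q (a 1)) * (α (rho N) * κ (b0 F q (a 0)) * (α (rho N))⁻¹) := by
        calc _ = (α (rho N) * α (rho N)) * κ (b0 F q (a 1)) * (α (rho N))⁻¹ * κ (b0 F q (a 0)) * (α (rho N))⁻¹ := by group
          _ = κ (b0 F q (a 1)) * ((α (rho N))⁻¹ * κ (b0 F q (a 0)) * (α (rho N))⁻¹) := by rw [e1]; group
          _ = _ := by conv_lhs => rw [e2]
                      conv_rhs => rw [e2]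
      rw [← h9, ← h10]
      exact h8.symm
    rintro _ ⟨i, rfl⟩ _ ⟨j, rfl⟩
    fin_cases i <;> fin_cases j
    · exact r6
    · exact r7
    · exact h7
    · exact r8

/-- the relators hold in `SU_n` -/
theorem relU_su (σ : Fin 2 → Equiv.Perm (Fin (N + 2))) (a : Fin 2 → SU 2 F q) :
    ∀ w ∈ relU N σ a, Monoid.Coprod.lift (blk (sh 0 (show 0 + 3 ≤ N + 4 by omega))) (pm F q (N + 4)) w = 1 := by
  have hC : ∀ (σ : Equiv.Perm (Fin (N + 2))) (s : SU 2 F q), pm F q (N + 4) (tht N σ) * blk (sh 0 (show 0 + 3 ≤ N + 4 by omega)) (b0 F q s) *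
      (pm F q (N + 4) (tht N σ))⁻¹ = blk (sh 0 (show 0 + 3 ≤ N + 4 by omega)) (b0 F q (blk (s2 (N + 2) σ).toEmbedding s)) := by
    intro σ s
    rw [b0, blk_sh, blk_sh, pm_conj, blk_comp]
    congr 2
    ext x
    exact congrArg Fin.val (tht_sh σ x)
  have hX : ∀ (s t : SU 2 F q), blk (sh 0 (show 0 + 3 ≤ N + 4 by omega)) (b0 F q s) * (pm F q (N + 4) (rho N) * blk (sh 0 (show 0 + 3 ≤ N + 4 by omega)) (b0 F q t) *
      (pm F q (N + 4) (rho N))⁻¹) = (pm F q (N + 4) (rho N) * blk (sh 0 (show 0 + 3 ≤ N + 4 by omega)) (b0 F q t) *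
      (pm F q (N + 4) (rho N))⁻¹) * blk (sh 0 (show 0 + 3 ≤ N + 4 by omega)) (b0 F q s) := by
    intro s t
    rw [b0, blk_sh, blk_sh, pm_conj]
    apply blk_comm
    intro x y
    fin_cases y
    · show _ ≠ (rho N).1 ⟨0, by omega⟩
      rw [rho0]
      intro h
      have := congrArg Fin.val h
      simp only [sh_apply] at this
      omega
    · show _ ≠ (rho N).1 ⟨1, by omega⟩
      rw [rho1]
      intro h
      have := congrArg Fin.val h
      simp only [sh_apply] at this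
      omega
  rw [relU]
  simp only [List.mem_cons, List.not_mem_nil, or_false, forall_eq_or_imp, forall_eq, map_mul, map_inv, Monoid.Coprod.lift_apply_inl,
    Monoid.Coprod.lift_apply_inr]
  refine ⟨?_, ?_, ?_, ?_, ?_, ?_, ?_, ?_⟩
  · rw [pm_cc, mul_inv_cancel]
  · rw [hC, mul_inv_cancel]
  · rw [hC, mul_inv_cancel]
  · rw [hC, mul_inv_cancel]
  · rw [hC, mul_inv_cancel]
  · rw [cm_iff]; exact hX _ _
  · rw [cm_iff]; exact hX _ _
  · rw [cm_iff]; exact hX _ _

/-- presentations of `SU_n(q)`, `q ≥ 4` -/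
theorem hasPres_glue [Fintype F] (hF : Fintype.card F = q ^ 2) (h4 : 4 ≤ q) {k r kA rA : ℕ} (hK : HasPres (SU 3 F q) k r)
    (hA : HasPres (alternatingGroup (Fin (N + 4))) kA rA) (a : Fin 2 → SU 2 F q) (ha : Subgroup.closure (Set.range a) = ⊤) :
    HasPres (SU (N + 4) F q) (k + kA) (r + rA + 8) := by
  obtain ⟨σ, hσ⟩ := (sn (N + 2)).gens
  have h1 := (hK.coprod hA).quot (relU N σ a)
  refine h1.congr ?_
  set K := Subgroup.normalClosure {x | x ∈ relU N σ a} with hKd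
  let f : (Monoid.Coprod (SU 3 F q) (alternatingGroup (Fin (N + 4))) ⧸ K) →* SU (N + 4) F q :=
    QuotientGroup.lift K (Monoid.Coprod.lift (blk (sh 0 (show 0 + 3 ≤ N + 4 by omega))) (pm F q (N + 4))) (by
      apply Subgroup.normalClosure_le_normal
      intro w hw
      exact relU_su σ a w hw)
  let κ : SU 3 F q →* (Monoid.Coprod (SU 3 F q) (alternatingGroup (Fin (N + 4))) ⧸ K) := (QuotientGroup.mk' K).comp Monoid.Coprod.inl
  let α : alternatingGroup (Fin (N + 4)) →* (Monoid.Coprod (SU 3 F q) (alternatingGroup (Fin (N + 4))) ⧸ K) := (QuotientGroup.mk' K).comp Monoid.Coprod.inr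
  have hlift : Monoid.Coprod.lift κ α = QuotientGroup.mk' K := by
    apply Monoid.Coprod.hom_ext
    · rw [Monoid.Coprod.lift_comp_inl]
    · rw [Monoid.Coprod.lift_comp_inr]
  have D : GD κ α := by
    apply relU_gd σ hσ a ha
    intro w hw
    rw [hlift]
    exact (QuotientGroup.eq_one_iff w).2 (Subgroup.subset_normalClosure hw)
  have hgen : κ.range ⊔ α.range = ⊤ := by
    rw [MonoidHom.range_comp, MonoidHom.range_comp, ← Subgroup.map_sup, Monoid.Coprod.range_inl_sup_range_inr, ← MonoidHom.range_eq_map,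
      MonoidHom.range_eq_top]
    exact QuotientGroup.mk'_surjective K
  have hb := D.main hF (by omega) 1 le_rfl (fun _ => h4) (by omega) ⟨κ, D.lab3⟩ f (by
    intro x
    show Monoid.Coprod.lift (blk (sh 0 (show 0 + 3 ≤ N + 4 by omega))) (pm F q (N + 4)) (Monoid.Coprod.inl x) = _
    rw [Monoid.Coprod.lift_apply_inl]) (by
    intro π
    show Monoid.Coprod.lift (blk (sh 0 (show 0 + 3 ≤ N + 4 by omega))) (pm F q (N + 4)) (Monoid.Coprod.inr π) = _
    rw [Monoid.Coprod.lift_apply_inr]) hgen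
  exact MulEquiv.ofBijective f hb

end Cfsg.Agent.Lib.PresU
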