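import Cfsg.Agent.Lib.PresUC
import Cfsg.Agent.Lib.PresOG
import Cfsg.Agent.Lib.PhanM
import Cfsg.Agent.S2285

/-! Presentations of `SU_n(q)`, `n ≥ 4`, from presentations of `SU_3(q)`, `q ≥ 4` (helper38). -/

set_option autoImplicit false
set_option linter.unusedSectionVars false
set_option linter.unusedSimpArgs false

namespace Cfsg.Agent.Lib.PresU

open Module Matrix Cfsg Cfsg.Agent.Lib.Phan Cfsg.Agent.Lib.UnTrans Cfsg.Agent.Lib.UnBridge Cfsg.Agent.Lib.ClUnSimple
open Cfsg.Agent.Lib.PresHas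

theorem range_pair {X : Type*} (x y : X) : Set.range ![x, y] = {x, y} := by
  ext z
  simp [eq_comm, or_comm]

open scoped commutatorElement in
theorem perf_sup {G : Type*} [Group G] (H : Subgroup G) (hab : H ⊔ Subgroup.center G = ⊤) (hp : commutator G = ⊤) : H = ⊤ := by
  rw [eq_top_iff, ← hp, commutator_def, Subgroup.commutator_le]
  intro x hx y hy
  rw [← hab] at hx hy
  obtain ⟨x1, hx1, x2, hx2, rfl⟩ := Subgroup.mem_sup_of_normal_right.1 hx
  obtain ⟨y1, hy1, y2, hy2, rfl⟩ := Subgroup.mem_sup_of_normal_right.1 hy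
  have e : ⁅x1 * x2, y1 * y2⁆ = ⁅x1, y1⁆ := by
    have c1 : ∀ z, x2 * z = z * x2 := fun z => (Subgroup.mem_center_iff.1 hx2 z).symm
    have c2 : ∀ z, y2 * z = z * y2 := fun z => (Subgroup.mem_center_iff.1 hy2 z).symm
    rw [commutatorElement_def, commutatorElement_def, _root_.mul_inv_rev, _root_.mul_inv_rev]
    calc x1 * x2 * (y1 * y2) * (x2⁻¹ * x1⁻¹) * (y2⁻¹ * y1⁻¹) = x1 * (x2 * (y1 * y2)) * x2⁻¹ * x1⁻¹ * (y2⁻¹ * y1⁻¹) := by group
      _ = x1 * ((y1 * y2) * x2) * x2⁻¹ * x1⁻¹ * (y2⁻¹ * y1⁻¹) := by rw [c1]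
      _ = x1 * y1 * (y2 * x1⁻¹) * y2⁻¹ * y1⁻¹ := by group
      _ = x1 * y1 * (x1⁻¹ * y2) * y2⁻¹ * y1⁻¹ := by rw [c2]
      _ = _ := by group
  rw [e, commutatorElement_def]
  exact H.mul_mem (H.mul_mem (H.mul_mem hx1 hy1) (H.inv_mem hx1)) (H.inv_mem hy1)

/-- two generators of `SL_2(K)`, `|K| ≥ 4` -/
theorem two_gen_sl2 {K : Type*} [Field K] [Fintype K] (hK : 3 < Fintype.card K) :
    ∃ a b : SpecialLinearGroup (Fin 2) K, Subgroup.closure ({a, b} : Set (SpecialLinearGroup (Fin 2) K)) = ⊤ := by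
  classical
  obtain ⟨a, b, hab⟩ := PresO.key_gen (F := K) 1 le_rfl
  refine ⟨a, b, perf_sup _ hab ?_⟩
  apply ClSLn.commutator_SL_eq_top'
  intro _
  obtain ⟨u, hu⟩ := PresSL2.exists_gen K
  refine ⟨u, u.ne_zero, ?_⟩
  intro h
  have h1 : orderOf u = Fintype.card Kˣ := by
    rw [← Nat.card_eq_fintype_card]
    exact orderOf_eq_card_of_forall_mem_zpowers hu
  have h2 : u ^ 2 = 1 := Units.ext (by simpa using h)
  have h3 := Nat.le_of_dvd (by norm_num) (orderOf_dvd_of_pow_eq_one h2)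
  rw [h1, Fintype.card_units] at h3
  omega

section fin
variable {F : Type*} [Field F] [Fintype F] {q : ℕ} (hF : Fintype.card F = q ^ 2)
include hF

theorem two_gen_su2 (h4 : 4 ≤ q) : ∃ a : Fin 2 → SU 2 F q, Subgroup.closure (Set.range a) = ⊤ := by
  obtain ⟨K, P, e, -⟩ := exists_phi hF
  letI : Fintype K := Fintype.ofFinite K
  have h1 := ClSL2.card_SL2 (F := K) rfl
  have h2 := ClUnitary.card_SU (n := 2) (F := F) hF (by norm_num)
  rw [Nat.card_congr e.toEquiv] at h1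
  have hK : 3 < Fintype.card K := by
    by_contra hcon
    push Not at hcon
    rw [Finset.prod_range_succ, Finset.prod_range_one] at h2
    simp only [show Even 0 from Even.zero, show ¬ Even 1 by decide, if_true, if_false, zero_add, pow_one] at h2
    rw [h1] at h2
    have h5 : 4 ^ 2 - 1 ≤ q ^ 2 - 1 := Nat.sub_le_sub_right (Nat.pow_le_pow_left h4 2) 1
    have h6 : q * ((q + 1) * (q ^ 2 - 1)) = (q + 1) * (q * (q ^ 2 - 1)) := by ring
    have h7 : Fintype.card K * (Fintype.card K ^ 2 - 1) = q * (q ^ 2 - 1) := by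
      apply Nat.eq_of_mul_eq_mul_left (show 0 < q + 1 by omega)
      rw [h2, ← h6]
      norm_num
    have h8 : 4 * 15 ≤ q * (q ^ 2 - 1) := Nat.mul_le_mul h4 (by omega)
    rw [← h7] at h8
    interval_cases (Fintype.card K) <;> omega
  obtain ⟨a, b, hab⟩ := two_gen_sl2 hK
  refine ⟨![e a, e b], ?_⟩
  rw [range_pair]
  have h3 : (Subgroup.closure ({a, b} : Set (SpecialLinearGroup (Fin 2) K))).map e.toMonoidHom = ⊤ := by
    rw [hab, ← MonoidHom.range_eq_map, MonoidHom.range_eq_top]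
    exact e.surjective
  rw [MonoidHom.map_closure, Set.image_pair] at h3
  exact h3

theorem center_gen (n : ℕ) (hn : 2 ≤ n) : ∃ z : SU n F q, Subgroup.center (SU n F q) = Subgroup.zpowers z := by
  have hsc : ∀ g : Subgroup.center (SU n F q), ∃ c : F, g.1.1.1 = Matrix.scalar (Fin n) c := fun g => (Cfsg.Agent.Lib.ClUnitary.center_SU hF hn _).1 g.2
  let i0 : Fin n := ⟨0, by omega⟩
  let f : Subgroup.center (SU n F q) →* F :=
    { toFun := fun g => g.1.1.1 i0 i0
      map_one' := by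
        show (1 : Matrix (Fin n) (Fin n) F) i0 i0 = 1
        rw [Matrix.one_apply_eq]
      map_mul' := by
        intro g h
        obtain ⟨c, hc⟩ := hsc g
        obtain ⟨d, hd⟩ := hsc h
        show (g.1.1.1 * h.1.1.1) i0 i0 = g.1.1.1 i0 i0 * h.1.1.1 i0 i0
        rw [hc, hd, ← map_mul]
        simp }
  have hf : Function.Injective f := by
    intro g h hgh
    obtain ⟨c, hc⟩ := hsc g
    obtain ⟨d, hd⟩ := hsc h
    have h1 : g.1.1.1 i0 i0 = h.1.1.1 i0 i0 := hgh
    rw [hc, hd] at h1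
    have h2 : c = d := by simpa using h1
    apply Subtype.ext; apply Subtype.ext; apply Subtype.ext
    rw [hc, hd, h2]
  haveI : IsCyclic (Subgroup.center (SU n F q)) := isCyclic_of_injective_ringHom f hf
  obtain ⟨z, hz⟩ := IsCyclic.exists_generator (α := Subgroup.center (SU n F q))
  refine ⟨z.1, ?_⟩
  apply le_antisymm
  · intro x hx
    obtain ⟨k, hk⟩ := hz ⟨x, hx⟩
    exact ⟨k, congrArg Subtype.val hk⟩
  · rw [Subgroup.zpowers_le]
    exact z.2

end fin

end Cfsg.Agent.Lib.PresU
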