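import Cfsg.Agent.Lib.PresUD
import Cfsg.Agent.Lib.Pres235

/-! Presentations of `SU_n(q)`, `n ≥ 4`, `q ≥ 4` (helper38). -/

set_option autoImplicit false
set_option linter.unusedSectionVars false
set_option linter.unusedSimpArgs false

namespace Cfsg.Agent.Lib.PresU

open Cfsg Cfsg.Agent.Lib.PresHas

section alt
open Cfsg.Agent.Lib.PresAlt Cfsg.Agent.Lib.PresBase Cfsg.Agent.Lib.PresGlue Cfsg.Agent.Lib.PresTool
  Cfsg.Agent.Lib.PresPerm Cfsg.Agent.Lib.PresAn Cfsg.Agent.Lib.PresSn Equiv Equiv.Perm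

open FreeGroup in
theorem alt4 : HasPres (alternatingGroup (Fin 4)) 2 4 := by
  classical
  set rels : Finset (FreeGroup (Fin 2)) := {of 0 ^ 3, of 1 ^ 3, (of 0 * of 1) ^ 2, (of 1 * of 0) ^ 2} with hrels
  refine ⟨rels, Finset.card_le_four, ?_⟩
  have h0 : (PresentedGroup.of 0 : PresentedGroup (rels : Set (FreeGroup (Fin 2)))) ^ 3 = 1 :=
    PresentedGroup.one_of_mem (x := of 0 ^ 3) (by simp [hrels])
  have h1 : (PresentedGroup.of 1 : PresentedGroup (rels : Set (FreeGroup (Fin 2)))) ^ 3 = 1 :=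
    PresentedGroup.one_of_mem (x := of 1 ^ 3) (by simp [hrels])
  have h2 : ((PresentedGroup.of 0 : PresentedGroup (rels : Set (FreeGroup (Fin 2)))) * PresentedGroup.of 1) ^ 2 = 1 :=
    PresentedGroup.one_of_mem (x := (of 0 * of 1) ^ 2) (by simp [hrels])
  have h3 : ((PresentedGroup.of 1 : PresentedGroup (rels : Set (FreeGroup (Fin 2)))) * PresentedGroup.of 0) ^ 2 = 1 :=
    PresentedGroup.one_of_mem (x := (of 1 * of 0) ^ 2) (by simp [hrels])
  let x : ℕ → PresentedGroup (rels : Set (FreeGroup (Fin 2))) := fun i => if i = 0 then PresentedGroup.of 0 else PresentedGroup.of 1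
  obtain ⟨hfin, hcard⟩ := carm_bound 2 x
    (by intro i hi
        interval_cases i
        · exact h0
        · exact h1) (by
        intro i hi j hj hij
        interval_cases i <;> interval_cases j
        · exact absurd rfl hij
        · exact h2
        · exact h3
        · exact absurd rfl hij)
  have htop : gen x 2 = ⊤ := by
    rw [eq_top_iff, ← PresentedGroup.closure_range_of, Subgroup.closure_le]
    rintro _ ⟨i, rfl⟩
    fin_cases i
    · exact Subgroup.subset_closure ⟨0, by norm_num, rfl⟩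
    · exact Subgroup.subset_closure ⟨1, by norm_num, rfl⟩
  rw [htop] at hfin hcard
  rw [Subgroup.card_top] at hcard
  have hfin' : Finite (PresentedGroup (rels : Set (FreeGroup (Fin 2)))) := Finite.of_equiv _ Subgroup.topEquiv.toEquiv
  obtain ⟨e, -⟩ := pres_iso (rels : Set (FreeGroup (Fin 2))) ![swap (0 : Fin 4) 1 * swap 1 2, swap (0 : Fin 4) 1 * swap 1 3] (alternatingGroup (Fin 4)) (by
      apply le_antisymm
      · rw [Subgroup.closure_le]
        rintro _ ⟨i, rfl⟩
        fin_cases i
        · show swap (0 : Fin 4) 1 * swap 1 2 ∈ alternatingGroup (Fin 4)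
          rw [mem_alternatingGroup]; decide
        · show swap (0 : Fin 4) 1 * swap 1 3 ∈ alternatingGroup (Fin 4)
          rw [mem_alternatingGroup]; decide
      · apply alt_le_of_star (a := (0 : Fin 4)) (b := 1) (by decide)
        intro i hi0 hi1
        have : i = 2 ∨ i = 3 := by revert i; decide
        rcases this with rfl | rfl
        · exact Subgroup.subset_closure ⟨0, rfl⟩
        · exact Subgroup.subset_closure ⟨1, rfl⟩) (by
      intro r hr
      simp only [hrels, Finset.coe_insert, Finset.coe_singleton, Set.mem_insert_iff, Set.mem_singleton_iff] at hr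
      rcases hr with rfl | rfl | rfl | rfl
      · simp only [map_pow, FreeGroup.lift_apply_of]; decide
      · simp only [map_pow, FreeGroup.lift_apply_of]; decide
      · simp only [map_pow, _root_.map_mul, FreeGroup.lift_apply_of]; decide
      · simp only [map_pow, _root_.map_mul, FreeGroup.lift_apply_of]; decide) hfin' (by
      have h1 := two_mul_nat_card_alternatingGroup (α := Fin 4)
      rw [Nat.card_eq_fintype_card (α := Perm (Fin 4)), Fintype.card_perm, Fintype.card_fin] at h1
      have h2 : (2 + 2).factorial = Nat.factorial 4 := rfl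
      omega)
  exact ⟨e⟩

theorem alt5 : HasPres (alternatingGroup (Fin 5)) 2 3 := by
  classical
  obtain ⟨e, -, -⟩ := Pres235.equiv
  let R : Finset (FreeGroup (Fin 2)) := {FreeGroup.of (0 : Fin 2) ^ 3, FreeGroup.of (1 : Fin 2) ^ 5,
        (FreeGroup.of (0 : Fin 2) * FreeGroup.of 1) ^ 2}
  have hR : (R : Set (FreeGroup (Fin 2))) = Pres235.rels := by
    simp [R, Pres235.rels]
  refine ⟨R, Finset.card_le_three, ?_⟩
  rw [hR]
  exact ⟨e⟩

theorem altn (n : ℕ) (hn : 5 ≤ n) : HasPres (alternatingGroup (Fin n)) 3 7 := (Cfsg.Agent.S2285.result n hn).2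

end alt

variable {F : Type*} [Field F] [Fintype F] {q : ℕ} (hF : Fintype.card F = q ^ 2)
include hF

theorem pres_psu {n k r : ℕ} (hn : 2 ≤ n) (h : HasPres (SU n F q) k r) : HasPres (PSU n F q) k (r + 1) := by
  obtain ⟨z, hz⟩ := center_gen hF n hn
  exact h.central _ z hz

theorem pres_su4 (h4 : 4 ≤ q) (hK : HasPres (SU 3 F q) 3 21) : HasPres (SU 4 F q) 6 34 := by
  obtain ⟨a, ha⟩ := two_gen_su2 hF h4
  exact ((hasPres_glue (N := 0) hF h4 hK alt4 a ha).pad (by norm_num) 1).mono (by norm_num)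

theorem pres_su5 (h4 : 4 ≤ q) (hK : HasPres (SU 3 F q) 3 21) : HasPres (SU 5 F q) 6 33 := by
  obtain ⟨a, ha⟩ := two_gen_su2 hF h4
  exact ((hasPres_glue (N := 1) hF h4 hK alt5 a ha).pad (by norm_num) 1).mono (by norm_num)

theorem pres_sun (h4 : 4 ≤ q) (hK : HasPres (SU 3 F q) 3 21) (n : ℕ) (hn : 4 ≤ n) : HasPres (SU n F q) 6 36 := by
  rcases Nat.lt_or_ge 4 n with h | h
  · obtain ⟨a, ha⟩ := two_gen_su2 hF h4
    obtain ⟨N, rfl⟩ : ∃ N, n = N + 4 := ⟨n - 4, by omega⟩
    exact hasPres_glue (N := N) hF h4 hK (altn _ (by omega)) a ha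
  · obtain rfl : n = 4 := by omega
    exact (pres_su4 hF h4 hK).mono (by norm_num)

end Cfsg.Agent.Lib.PresU
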