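import Mathlib

/-! Matrices over `F_{p^2}` encoded by natural numbers, `p = 2, 3` (helper38). -/

set_option autoImplicit false

namespace Cfsg.Agent.Lib.PresU.Code

/-- digits -/
def dg (A p : ℕ) : ℕ := Nat.mod (Nat.div A (Nat.pow 32 p)) 32

/-- packing digits -/
def pack (f : ℕ → ℕ) : ℕ → ℕ
  | 0 => 0
  | m + 1 => Nat.add (pack f m) (Nat.mul (f m) (Nat.pow 32 m))

theorem pack_succ (f : ℕ → ℕ) (m : ℕ) : pack f (m + 1) = pack f m + f m * 32 ^ m := rfl

theorem pack_lt {f : ℕ → ℕ} (hf : ∀ p, f p < 32) (m : ℕ) : pack f m < 32 ^ m := by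
  induction m with
  | zero => exact Nat.one_pos
  | succ m ih =>
    rw [pack_succ, pow_succ]
    have h1 : f m * 32 ^ m ≤ 31 * 32 ^ m := Nat.mul_le_mul_right _ (by have := hf m; omega)
    omega

theorem dg_pack {f : ℕ → ℕ} (hf : ∀ p, f p < 32) {m p : ℕ} (hp : p < m) : dg (pack f m) p = f p := by
  induction m with
  | zero => omega
  | succ m ih =>
    change (pack f m + f m * 32 ^ m) / 32 ^ p % 32 = f p
    rcases Nat.lt_succ_iff_lt_or_eq.1 hp with h | rfl
    · have h1 : 32 ^ m = 32 ^ p * 32 ^ (m - p) := by rw [← pow_add]; congr 1; omega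
      obtain ⟨r, hr⟩ : ∃ r, m - p = r + 1 := ⟨m - p - 1, by omega⟩
      rw [h1, hr, pow_succ]
      have h2 : pack f m + f m * (32 ^ p * (32 ^ r * 32)) = pack f m + 32 ^ p * (f m * 32 ^ r * 32) := by ring
      rw [h2, Nat.add_mul_div_left _ _ (Nat.pos_of_ne_zero (by positivity)), Nat.add_mul_mod_self_right]
      exact ih h
    · rw [Nat.add_mul_div_right _ _ (Nat.pos_of_ne_zero (by positivity)), Nat.div_eq_of_lt (pack_lt hf _), zero_add]
      exact Nat.mod_eq_of_lt (hf _)

/-- real parts of scalar products -/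
def re (p c0 n A B i j : ℕ) : ℕ → ℕ
  | 0 => 0
  | k + 1 => Nat.add (re p c0 n A B i j k) (Nat.add
      (Nat.mul (Nat.mod (dg A (Nat.add (Nat.mul n i) k)) p) (Nat.mod (dg B (Nat.add (Nat.mul n k) j)) p))
      (Nat.mul c0 (Nat.mul (Nat.div (dg A (Nat.add (Nat.mul n i) k)) p) (Nat.div (dg B (Nat.add (Nat.mul n k) j)) p))))

/-- imaginary parts of scalar products -/
def im (p c1 n A B i j : ℕ) : ℕ → ℕ
  | 0 => 0
  | k + 1 => Nat.add (im p c1 n A B i j k) (Nat.add (Nat.add
      (Nat.mul (Nat.mod (dg A (Nat.add (Nat.mul n i) k)) p) (Nat.div (dg B (Nat.add (Nat.mul n k) j)) p))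
      (Nat.mul (Nat.div (dg A (Nat.add (Nat.mul n i) k)) p) (Nat.mod (dg B (Nat.add (Nat.mul n k) j)) p)))
      (Nat.mul c1 (Nat.mul (Nat.div (dg A (Nat.add (Nat.mul n i) k)) p) (Nat.div (dg B (Nat.add (Nat.mul n k) j)) p))))

/-- entry of the product -/
def ent (p c0 c1 n A B i j : ℕ) : ℕ := Nat.add (Nat.mod (re p c0 n A B i j n) p) (Nat.mul p (Nat.mod (im p c1 n A B i j n) p))

/-- multiplication of codes -/
def mulC (p c0 c1 n A B : ℕ) : ℕ := pack (fun s => ent p c0 c1 n A B (Nat.div s n) (Nat.mod s n)) (Nat.mul n n)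

/-- value of a digit -/
def vd {F : Type*} [Field F] (p : ℕ) (ι : F) (x : ℕ) : F := ((x % p : ℕ) : F) + ((x / p : ℕ) : F) * ι

/-- value of a code -/
def evalM {F : Type*} [Field F] (p : ℕ) (ι : F) (n A : ℕ) : Matrix (Fin n) (Fin n) F := Matrix.of fun i j => vd p ι (dg A (n * i + j))

section sound
variable {F : Type*} [Field F] {p : ℕ} [hp : Fact p.Prime] [CharP F p] {ι : F} {c0 c1 : ℕ} (hι : ι ^ 2 = (c0 : F) + (c1 : F) * ι)

include hι in
omit hp [CharP F p] in
theorem sum_eq (n A B i j : ℕ) (m : ℕ) : ∑ k ∈ Finset.range m, vd p ι (dg A (n * i + k)) * vd p ι (dg B (n * k + j)) =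
    ((re p c0 n A B i j m : ℕ) : F) + ((im p c1 n A B i j m : ℕ) : F) * ι := by
  induction m with
  | zero => simp [re, im]
  | succ m ih =>
    rw [Finset.sum_range_succ, ih]
    change _ = ((re p c0 n A B i j m + ((dg A (n * i + m)) % p * ((dg B (n * m + j)) % p) + c0 * ((dg A (n * i + m)) / p * ((dg B (n * m + j)) / p))) : ℕ) : F) +
      ((im p c1 n A B i j m + ((dg A (n * i + m)) % p * ((dg B (n * m + j)) / p) + (dg A (n * i + m)) / p * ((dg B (n * m + j)) % p) +
        c1 * ((dg A (n * i + m)) / p * ((dg B (n * m + j)) / p))) : ℕ) : F) * ι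
    unfold vd
    push_cast
    linear_combination ((dg A (n * i + m) / p : ℕ) : F) * ((dg B (n * m + j) / p : ℕ) : F) * hι

omit hp in
theorem cast_mod (x : ℕ) : ((x % p : ℕ) : F) = (x : F) := by
  have h : ((x : ℕ) : F) = ((x % p : ℕ) : F) + (p : F) * ((x / p : ℕ) : F) := by
    exact_mod_cast congrArg (fun y : ℕ => (y : F)) (Nat.mod_add_div x p).symm
  rw [h, CharP.cast_eq_zero F p, zero_mul, add_zero]

include hι in
theorem evalM_mul (hp5 : p ≤ 5) {n : ℕ} (A B : ℕ) : evalM p ι n (mulC p c0 c1 n A B) = evalM p ι n A * evalM p ι n B := by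
  have hp0 : 0 < p := hp.out.pos
  ext i j
  rw [Matrix.mul_apply]
  show vd p ι (dg (mulC p c0 c1 n A B) (n * i + j)) = ∑ k : Fin n, vd p ι (dg A (n * i + k)) * vd p ι (dg B (n * k + j))
  rw [Fin.sum_univ_eq_sum_range (fun k => vd p ι (dg A (n * i + k)) * vd p ι (dg B (n * k + j))) n, sum_eq hι, mulC, dg_pack]
  · have hn : 0 < n := Fin.pos i
    have e1 : Nat.div (n * i + j) n = i := by
      change (n * i + j) / n = i
      rw [Nat.mul_add_div hn, Nat.div_eq_of_lt j.2, add_zero]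
    have e2 : Nat.mod (n * i + j) n = j := by
      change (n * i + j) % n = j
      rw [Nat.mul_add_mod]; exact Nat.mod_eq_of_lt j.2
    rw [e1, e2]
    unfold vd ent
    change ((((re p c0 n A B i j n) % p + p * ((im p c1 n A B i j n) % p)) % p : ℕ) : F) +
      ((((re p c0 n A B i j n) % p + p * ((im p c1 n A B i j n) % p)) / p : ℕ) : F) * ι = _
    rw [Nat.add_mul_mod_self_left, Nat.mod_mod, Nat.add_mul_div_left _ _ hp0, Nat.div_eq_of_lt (Nat.mod_lt _ hp0), zero_add, cast_mod, cast_mod]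
  · intro s
    unfold ent
    change (re p c0 n A B _ _ n) % p + p * ((im p c1 n A B _ _ n) % p) < 32
    have h1 := Nat.mod_lt (re p c0 n A B (Nat.div s n) (Nat.mod s n) n) hp0
    have h2 := Nat.mod_lt (im p c1 n A B (Nat.div s n) (Nat.mod s n) n) hp0
    have h3 : p * (im p c1 n A B (Nat.div s n) (Nat.mod s n) n % p) ≤ 5 * 4 := Nat.mul_le_mul hp5 (by omega)
    omega
  · have h1 : (i : ℕ) + 1 ≤ n := i.2
    have h2 := j.2
    have h3 : n * (i + 1) ≤ n * n := Nat.mul_le_mul_left _ h1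
    rw [Nat.mul_add, mul_one] at h3
    change n * i + j < n * n
    omega

/-- the code of the identity -/
def idC (n : ℕ) : ℕ := pack (fun s => bif Nat.beq (Nat.div s n) (Nat.mod s n) then 1 else 0) (Nat.mul n n)

omit hp [CharP F p] in
theorem evalM_id (hp2 : 2 ≤ p) {n : ℕ} : evalM p ι n (idC n) = 1 := by
  ext i j
  have hn : 0 < n := Fin.pos i
  show vd p ι (dg (idC n) (n * i + j)) = _
  rw [idC, dg_pack]
  · have e1 : Nat.div (n * i + j) n = i := by
      change (n * i + j) / n = i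
      rw [Nat.mul_add_div hn, Nat.div_eq_of_lt j.2, add_zero]
    have e2 : Nat.mod (n * i + j) n = j := by
      change (n * i + j) % n = j
      rw [Nat.mul_add_mod]; exact Nat.mod_eq_of_lt j.2
    rw [e1, e2, Matrix.one_apply]
    by_cases h : i = j
    · rw [h, Nat.beq_refl, cond_true, if_pos rfl, vd, Nat.mod_eq_of_lt (by omega), Nat.div_eq_of_lt (by omega)]
      simp
    · have h1 : Nat.beq i j = false := by
        rw [← Bool.not_eq_true]
        intro h'
        exact h (Fin.ext (Nat.eq_of_beq_eq_true h'))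
      rw [h1, cond_false, if_neg h, vd]
      simp
  · intro s
    cases Nat.beq (Nat.div s n) (Nat.mod s n) <;> simp
  · have h1 : (i : ℕ) + 1 ≤ n := i.2
    have h2 := j.2
    have h3 : n * (i + 1) ≤ n * n := Nat.mul_le_mul_left _ h1
    rw [Nat.mul_add, mul_one] at h3
    change n * i + j < n * n
    omega

end sound

end Cfsg.Agent.Lib.PresU.Code
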