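import Cfsg.Agent.Lib.PresUF
import Cfsg.Agent.Lib.H10Enum

/-! Data: matrices of the letters, `q = 3` (helper38). -/

set_option autoImplicit false
set_option linter.style.longLine false
set_option maxRecDepth 100000

namespace Cfsg.Agent.Lib.PresU.D3

open Cfsg.Agent.Lib.PresU.Code Cfsg.Agent.Lib.H10Enum

/-- list lookup -/
def nth : List ℕ → ℕ → ℕ
  | [], _ => 0
  | a :: _, 0 => a
  | _ :: L, n + 1 => nth L n

/-- words lookup -/
def nthL : List (List ℕ) → ℕ → List ℕ
  | [], _ => []
  | a :: _, 0 => a
  | _ :: L, n + 1 => nthL L n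

/-- base codes -/
def cbL : List ℕ := [0, 0, 0, 0, 0, 0, 0, 0, 34359772160, 1107296288, 1099517919235, 1099514773510, 1099519131780, 1099516051719]

/-- words of the letters `1..8` -/
def WKL : List (List ℕ) := [[], [8, 13, 9, 10, 12, 9], [8, 10, 9, 12, 10], [8, 12, 10, 13, 8, 10], [8], [10], [12], [8, 10, 9], [8, 12, 9]]

/-- words of the letters `7..14` -/
def WPL : List (List ℕ) := [[], [], [], [], [], [], [], [8, 11, 9], [8, 12, 11, 9], [8, 13, 9, 10, 12, 9], [8, 10, 9, 12, 10], [8, 12, 10, 13, 8, 10], [8], [11], [12, 11]]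

/-- codes of the letters `1..8` -/
def cKL : List ℕ := [0, 0, 1172561990816, 1142530776224, 6597077336293, 3298539208840, 2199023354048, 2199023354048, 34359772160, 1107296288, 1099517919235, 1099514773510, 1099519131780, 1099516051719, 6597072912385, 3298541174785, 7868518498305, 4638840455169]

/-- codes of the letters `7..14` -/
def cPL : List ℕ := [0, 0, 0, 0, 0, 0, 0, 0, 0, 0, 0, 0, 0, 0, 3298541174785, 6597072912385, 4535660576769, 7971698376705, 1172561990816, 1142530776224, 6597077336293, 3298539208840, 2199023354048, 2199023354048, 34359772160, 1107296288, 1099514773510, 1099517919235, 1099515953319, 1099519230180]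

/-- evaluation of words -/
def evW (p c0 c1 n : ℕ) (T : List ℕ) : List ℕ → ℕ
  | [] => idC n
  | a :: L => mulC p c0 c1 n (nth T a) (evW p c0 c1 n T L)

/-- the check of one table entry -/
def chkT (p c0 c1 n : ℕ) (T : List ℕ) (W : List (List ℕ)) (T' : List ℕ) (k : ℕ) : Bool :=
  Nat.beq (evW p c0 c1 n T (nthL W k)) (nth T' (2 * k)) && Nat.beq (evW p c0 c1 n T (invw (nthL W k))) (nth T' (2 * k + 1))

theorem chkK : ((List.range 8).all fun k => chkT 3 2 0 3 cbL WKL cKL (k + 1)) = true := by decide +kernel

theorem chkP : ((List.range 8).all fun k => chkT 3 2 0 3 cbL WPL cPL (k + 7)) = true := by decide +kernel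

end Cfsg.Agent.Lib.PresU.D3
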