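import Cfsg.Agent.Lib.PresUE
import Cfsg.Agent.Lib.PhanZa

/-! Homomorphisms from `SU_4(q)` for small `q`: the graph construction, extension of even permutations (helper38). -/

set_option autoImplicit false
set_option linter.unusedSectionVars false
set_option linter.unusedSimpArgs false

namespace Cfsg.Agent.Lib.PresU

open Module Matrix Cfsg Cfsg.Agent.Lib.Phan Cfsg.Agent.Lib.UnTrans Cfsg.Agent.Lib.UnBridge Cfsg.Agent.Lib.ClUnSimple
open Cfsg.Agent.Lib.PresHas

universe u v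

/-- the gluing data hold in `SU_n` -/
theorem GD.su (F : Type*) [Field F] (q N : ℕ) : GD (blk (sh 0 (show 0 + 3 ≤ N + 4 by omega)) : SU 3 F q →* SU (N + 4) F q) (pm F q (N + 4)) := by
  refine ⟨?_, (pm_cc N).symm, ?_⟩
  · intro π τ h s
    rw [b0, blk_sh, blk_sh, pm_conj, blk_comp]
    congr 2
    ext x
    exact congrArg Fin.val (h x)
  · intro s t
    rw [b0, blk_sh, blk_sh, pm_conj]
    apply blk_comm
    intro x y
    fin_cases y
    · show _ ≠ (rho N).1 ⟨0, by omega⟩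
      rw [rho0]
      intro h
      have := congrArg Fin.val h
      simp only [sh_apply] at this
      omega
    · show _ ≠ (rho N).1 ⟨1, by omega⟩
      rw [rho1]
      intro h
      have := congrArg Fin.val h
      simp only [sh_apply] at this
      omega

/-- the graph construction -/
theorem lift4 {F : Type u} [Field F] [Fintype F] {q : ℕ} (E : List (Monoid.Coprod (SU 3 F q) (alternatingGroup (Fin (0 + 4)))))
    (hE : ∀ w ∈ E, Monoid.Coprod.lift (blk (sh 0 (show 0 + 3 ≤ 0 + 4 by omega))) (pm F q (0 + 4)) w = 1)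
    (hgen : (blk (sh 0 (show 0 + 3 ≤ 0 + 4 by omega)) : SU 3 F q →* SU (0 + 4) F q).range ⊔ (pm F q (0 + 4)).range = ⊤)
    (hb : ∀ (Γ : Type (max u v)) [Group Γ] (κ : SU 3 F q →* Γ) (α : alternatingGroup (Fin (0 + 4)) →* Γ), GD κ α →
      (∀ w ∈ E, Monoid.Coprod.lift κ α w = 1) → κ.range ⊔ α.range = ⊤ → Finite Γ ∧ Nat.card Γ ≤ Nat.card (SU (0 + 4) F q))
    {G : Type v} [Group G] (κ : SU 3 F q →* G) (α : alternatingGroup (Fin (0 + 4)) →* G) (D : GD κ α) (hEG : ∀ w ∈ E, Monoid.Coprod.lift κ α w = 1) :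
    ∃ Φ : SU (0 + 4) F q →* G, (∀ x, Φ (blk (sh 0 (show 0 + 3 ≤ 0 + 4 by omega)) x) = κ x) ∧ ∀ π, Φ (pm F q (0 + 4) π) = α π := by
  classical
  have D4 := GD.su F q 0
  set κ1 : SU 3 F q →* SU (0 + 4) F q := blk (sh 0 (show 0 + 3 ≤ 0 + 4 by omega)) with hκ1
  set α1 := pm F q (0 + 4) with hα1
  set Γ : Subgroup (SU (0 + 4) F q × G) := (κ1.prod κ).range ⊔ (α1.prod α).range with hΓ
  let κ2 : SU 3 F q →* Γ := (κ1.prod κ).codRestrict Γ (fun x => Subgroup.mem_sup_left ⟨x, rfl⟩)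
  let α2 : alternatingGroup (Fin (0 + 4)) →* Γ := (α1.prod α).codRestrict Γ (fun x => Subgroup.mem_sup_right ⟨x, rfl⟩)
  have D2 : GD κ2 α2 := by
    refine ⟨?_, ?_, ?_⟩
    · intro π τ h s
      exact Subtype.ext (Prod.ext (D4.S π τ h s) (D.S π τ h s))
    · exact Subtype.ext (Prod.ext D4.C D.C)
    · intro s t
      exact Subtype.ext (Prod.ext (D4.X s t) (D.X s t))
  have hE2 : ∀ w ∈ E, Monoid.Coprod.lift κ2 α2 w = 1 := by
    intro w hw
    have e1 : ((MonoidHom.fst _ _).comp Γ.subtype).comp (Monoid.Coprod.lift κ2 α2) = Monoid.Coprod.lift κ1 α1 := by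
      apply Monoid.Coprod.hom_ext
      · ext x; simp [κ2]
      · ext x; simp [α2]
    have e2 : ((MonoidHom.snd _ _).comp Γ.subtype).comp (Monoid.Coprod.lift κ2 α2) = Monoid.Coprod.lift κ α := by
      apply Monoid.Coprod.hom_ext
      · ext x; simp [κ2]
      · ext x; simp [α2]
    apply Subtype.ext
    apply Prod.ext
    · have := DFunLike.congr_fun e1 w
      exact this.trans (hE w hw)
    · have := DFunLike.congr_fun e2 w
      exact this.trans (hEG w hw)
  have hgen2 : κ2.range ⊔ α2.range = ⊤ := by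
    apply Subgroup.map_injective Γ.subtype_injective
    rw [Subgroup.map_sup, MonoidHom.map_range, MonoidHom.map_range, ← MonoidHom.range_eq_map, Subgroup.range_subtype]
    rfl
  obtain ⟨hfin, hcard⟩ := hb Γ κ2 α2 D2 hE2 hgen2
  let f : Γ →* SU (0 + 4) F q := (MonoidHom.fst _ _).comp Γ.subtype
  have hf : Function.Surjective f := by
    rw [← MonoidHom.range_eq_top, eq_top_iff, ← hgen, sup_le_iff]
    constructor
    · rintro _ ⟨x, rfl⟩; exact ⟨κ2 x, rfl⟩
    · rintro _ ⟨x, rfl⟩; exact ⟨α2 x, rfl⟩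
  haveI := Fintype.ofFinite Γ
  have hbij : Function.Bijective f := by
    rw [Nat.bijective_iff_surjective_and_card]
    exact ⟨hf, le_antisymm hcard (Nat.card_le_card_of_surjective f hf)⟩
  let e := MulEquiv.ofBijective f hbij
  refine ⟨((MonoidHom.snd _ _).comp Γ.subtype).comp e.symm.toMonoidHom, ?_, ?_⟩
  · intro x
    have : e.symm (κ1 x) = κ2 x := by rw [MulEquiv.symm_apply_eq]; rfl
    show (e.symm (κ1 x)).1.2 = κ x
    rw [this]; rfl
  · intro x
    have : e.symm (α1 x) = α2 x := by rw [MulEquiv.symm_apply_eq]; rfl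
    show (e.symm (α1 x)).1.2 = α x
    rw [this]; rfl

/-! ### extension of permutations -/

/-- index sets -/
def e4 (N : ℕ) : Fin 4 ⊕ Fin N ≃ Fin (N + 4) := finSumFinEquiv.trans (finCongr (by omega))

theorem e4_inl (N : ℕ) (a : Fin 4) : e4 N (Sum.inl a) = sh 0 (by omega) a := by
  apply Fin.ext
  simp [e4, sh_apply]

/-- extension of even permutations of four points -/
noncomputable def xt (N : ℕ) : alternatingGroup (Fin (0 + 4)) →* alternatingGroup (Fin (N + 4)) :=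
  ((((e4 N).permCongrHom.toMonoidHom.comp (Equiv.Perm.sumCongrHom (Fin 4) (Fin N))).comp ((MonoidHom.id _).prod 1)).comp
    (alternatingGroup (Fin 4)).subtype).codRestrict _ (fun σ => Equiv.Perm.mem_alternatingGroup.2 (by
      show Equiv.Perm.sign ((e4 N).permCongr (Equiv.Perm.sumCongr σ.1 1)) = 1
      rw [Equiv.Perm.sign_permCongr, Equiv.Perm.sign_sumCongr, Equiv.Perm.sign_one, mul_one]
      exact Equiv.Perm.mem_alternatingGroup.1 σ.2))

theorem xt_coe {N : ℕ} (σ : alternatingGroup (Fin (0 + 4))) : (xt N σ).1 = (e4 N).permCongr (Equiv.Perm.sumCongr (α := Fin 4) σ.1 1) := rfl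

theorem xt_sh {N : ℕ} (σ : alternatingGroup (Fin (0 + 4))) (a : Fin 4) : (xt N σ).1 (sh 0 (by omega) a) = sh 0 (by omega) ((σ.1 : Equiv.Perm (Fin 4)) a) := by
  rw [xt_coe, ← e4_inl, Equiv.permCongr_apply, Equiv.symm_apply_apply, ← e4_inl]
  rfl

theorem xt_ge {N : ℕ} (σ : alternatingGroup (Fin (0 + 4))) (a : Fin (N + 4)) (ha : 4 ≤ a.1) : (xt N σ).1 a = a := by
  obtain ⟨b, hb⟩ := (e4 N).surjective a
  rcases b with b | b
  · exfalso
    rw [e4_inl] at hb
    have := congrArg Fin.val hb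
    rw [sh_apply] at this
    simp only at this
    omega
  · rw [xt_coe, ← hb, Equiv.permCongr_apply, Equiv.symm_apply_apply]
    rfl

theorem perm_ext4 {N : ℕ} {σ τ : alternatingGroup (Fin (N + 4))} (h1 : ∀ a : Fin 4, σ.1 (sh 0 (by omega) a) = τ.1 (sh 0 (by omega) a))
    (h2 : ∀ a : Fin (N + 4), 4 ≤ a.1 → σ.1 a = τ.1 a) : σ = τ := by
  apply Subtype.ext
  apply Equiv.ext
  intro a
  by_cases ha : 4 ≤ a.1
  · exact h2 a ha
  · have := h1 ⟨a.1, by omega⟩
    have e : sh 0 (show 0 + 4 ≤ N + 4 by omega) ⟨a.1, by omega⟩ = a := Fin.ext (by simp [sh_apply])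
    rw [e] at this
    exact this

theorem xt_cc (N : ℕ) : xt N (cc 1) = cc (N + 1) := by
  apply perm_ext4
  · intro a
    rw [xt_sh]
    fin_cases a
    · exact (congrArg (sh 0 (show 0 + 4 ≤ N + 4 by omega)) (cc0 1)).trans (cc0 (N + 1)).symm
    · exact (congrArg (sh 0 (show 0 + 4 ≤ N + 4 by omega)) (cc1 1)).trans (cc1 (N + 1)).symm
    · exact (congrArg (sh 0 (show 0 + 4 ≤ N + 4 by omega)) (cc2 1)).trans (cc2 (N + 1)).symm
    · exact (congrArg (sh 0 (show 0 + 4 ≤ N + 4 by omega)) (cc_fix (N := 1) ⟨3, by omega⟩ (by norm_num))).trans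
        (cc_fix (N := N + 1) ⟨3, by omega⟩ (by norm_num)).symm
  · intro a ha
    rw [xt_ge _ _ ha, cc_fix _ (by omega)]

theorem rho2 (N : ℕ) : (rho N).1 ⟨2, by omega⟩ = ⟨0, by omega⟩ := by
  rw [rho]
  simp only [Equiv.Perm.mul_apply]
  rw [sw_ne (a := 1) (b := 3) (c := 2) _ _ _ (by norm_num) (by norm_num), Equiv.swap_apply_right]

theorem rho3 (N : ℕ) : (rho N).1 ⟨3, by omega⟩ = ⟨1, by omega⟩ := by
  rw [rho]
  simp only [Equiv.Perm.mul_apply]
  rw [Equiv.swap_apply_right, sw_ne _ _ _ (by norm_num) (by norm_num)]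

theorem rho_fix {N : ℕ} (a : Fin (N + 4)) (ha : 4 ≤ a.1) : (rho N).1 a = a := by
  obtain ⟨a, ha'⟩ := a
  change 4 ≤ a at ha
  rw [rho]
  simp only [Equiv.Perm.mul_apply]
  rw [sw_ne (a := 1) (b := 3) (c := a) _ _ _ (by omega) (by omega), sw_ne (a := 0) (b := 2) (c := a) _ _ _ (by omega) (by omega)]

theorem xt_rho (N : ℕ) : xt N (rho 0) = rho N := by
  apply perm_ext4
  · intro a
    rw [xt_sh]
    fin_cases a
    · exact (congrArg (sh 0 (show 0 + 4 ≤ N + 4 by omega)) (rho0 0)).trans (rho0 N).symm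
    · exact (congrArg (sh 0 (show 0 + 4 ≤ N + 4 by omega)) (rho1 0)).trans (rho1 N).symm
    · exact (congrArg (sh 0 (show 0 + 4 ≤ N + 4 by omega)) (rho2 0)).trans (rho2 N).symm
    · exact (congrArg (sh 0 (show 0 + 4 ≤ N + 4 by omega)) (rho3 0)).trans (rho3 N).symm
  · intro a ha
    rw [xt_ge _ _ ha, rho_fix _ ha]

section
variable {F : Type*} [Field F] {q : ℕ} {G : Type*} [Group G] {N : ℕ} {κ : SU 3 F q →* G} {α : alternatingGroup (Fin (N + 4)) →* G}

/-- restriction of gluing data to four points -/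
theorem GD.restr (D : GD κ α) : GD κ (α.comp (xt N)) := by
  refine ⟨?_, ?_, ?_⟩
  · intro π τ h s
    apply D.S
    intro a
    have h1 : sh 0 (show 0 + 2 ≤ N + 4 by omega) a = sh 0 (show 0 + 4 ≤ N + 4 by omega) (sh 0 (show 0 + 2 ≤ 4 by omega) a) :=
      Fin.ext (by simp only [sh_apply]; omega)
    rw [h1, xt_sh]
    have h2 := h a
    have h3 : (π.1 : Equiv.Perm (Fin 4)) (sh 0 (show 0 + 2 ≤ 4 by omega) a) = sh 0 (show 0 + 2 ≤ 4 by omega) (τ a) := h2
    rw [h3]
    exact Fin.ext (by simp only [sh_apply]; omega)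
  · rw [D.C, MonoidHom.comp_apply, xt_cc]
  · intro s t
    have := D.X s t
    rw [MonoidHom.comp_apply, xt_rho]
    exact this

/-- the labels of a homomorphism from `SU_4` -/
theorem GD.lab4 [Fintype F] (D : GD κ α) (Φ : SU (0 + 4) F q →* G) (h1 : ∀ x, Φ (blk (sh 0 (show 0 + 3 ≤ 0 + 4 by omega)) x) = κ x)
    (h2 : ∀ π, Φ (pm F q (0 + 4) π) = α (xt N π)) : Lab κ α (0 + 4) (by omega) Φ := by
  intro i hi s π hπ
  obtain ⟨π4, h | h⟩ := exists_even (show 0 + 2 ≤ 0 + 4 by omega) (sh i hi) (Equiv.swap ⟨2, by omega⟩ ⟨3, by omega⟩) (Equiv.Perm.sign_swap (fin_ne _ _ (by norm_num)))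
  · have e1 : blk (sh i hi) s = pm F q (0 + 4) π4 * blk (sh 0 (show 0 + 3 ≤ 0 + 4 by omega)) (b0 F q s) * (pm F q (0 + 4) π4)⁻¹ := by
      rw [b0, blk_sh, pm_conj]
      congr 2
      ext a
      exact (congrArg Fin.val (h a)).symm
    rw [e1, map_mul, map_mul, map_inv, h1, h2]
    symm
    apply D.wd1
    intro a
    rw [hπ]
    have h3 : sh 0 (show 0 + 2 ≤ N + 4 by omega) a = sh 0 (show 0 + 4 ≤ N + 4 by omega) (sh 0 (show 0 + 2 ≤ 4 by omega) a) :=
      Fin.ext (by simp only [sh_apply]; omega)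
    rw [h3, xt_sh]
    have h4 : (π4.1 : Equiv.Perm (Fin 4)) (sh 0 (show 0 + 2 ≤ 4 by omega) a) = sh i hi a := h a
    rw [h4]
    exact Fin.ext (by simp only [sh_apply]; omega)
  · have h' : ∀ a : Fin 2, π4.1 (sh 0 (show 0 + 2 ≤ 0 + 4 by omega) a) = sh i hi a := by
      intro a
      rw [← h a]
      congr 1
      fin_cases a
      · exact (sw_ne (a := 2) (b := 3) (c := 0) _ _ _ (by norm_num) (by norm_num)).symm
      · exact (sw_ne (a := 2) (b := 3) (c := 1) _ _ _ (by norm_num) (by norm_num)).symm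
    have e1 : blk (sh i hi) s = pm F q (0 + 4) π4 * blk (sh 0 (show 0 + 3 ≤ 0 + 4 by omega)) (b0 F q s) * (pm F q (0 + 4) π4)⁻¹ := by
      rw [b0, blk_sh, pm_conj]
      congr 2
      ext a
      exact (congrArg Fin.val (h' a)).symm
    rw [e1, map_mul, map_mul, map_inv, h1, h2]
    symm
    apply D.wd1
    intro a
    rw [hπ]
    have h3 : sh 0 (show 0 + 2 ≤ N + 4 by omega) a = sh 0 (show 0 + 4 ≤ N + 4 by omega) (sh 0 (show 0 + 2 ≤ 4 by omega) a) :=
      Fin.ext (by simp only [sh_apply]; omega)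
    rw [h3, xt_sh]
    have h4 : (π4.1 : Equiv.Perm (Fin 4)) (sh 0 (show 0 + 2 ≤ 4 by omega) a) = sh i hi a := h' a
    rw [h4]
    exact Fin.ext (by simp only [sh_apply]; omega)

end

end Cfsg.Agent.Lib.PresU
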