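import Cfsg.Agent.Lib.PresUG
import Cfsg.Agent.Lib.PresUI

/-! The letters for `q = 3` (helper38). -/

set_option autoImplicit false
set_option linter.unusedSectionVars false
set_option linter.unusedSimpArgs false
set_option maxRecDepth 100000
set_option linter.style.haveILetI false

namespace Cfsg.Agent.Lib.PresU.D3

open Module Matrix Cfsg Cfsg.Agent.Lib.Phan Cfsg.Agent.Lib.UnTrans Cfsg.Agent.Lib.UnBridge Cfsg.Agent.Lib.ClUnSimple
open Cfsg.Agent.Lib.PresHas Cfsg.Agent.Lib.PresU.Code Cfsg.Agent.Lib.H10Enum Cfsg.Agent.Lib.PresU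

section gen
variable {F : Type*} [Field F] {q n p c0 c1 : ℕ} [Fact p.Prime] [CharP F p] {ι : F}

theorem evW_sound (hι : ι ^ 2 = (c0 : F) + (c1 : F) * ι) (hp5 : p ≤ 5) (hp2 : 2 ≤ p) {y : ℕ → SU n F q} {T : List ℕ} {good : ℕ → Bool}
    (h : ∀ a, good a = true → (val y a).1.1 = evalM p ι n (nth T a)) :
    ∀ L : List ℕ, L.all good = true → (wval y L).1.1 = evalM p ι n (evW p c0 c1 n T L)
  | [], _ => by
    rw [wval_nil, evW, evalM_id hp2]; rfl
  | a :: L, hL => by
    rw [List.all_cons, Bool.and_eq_true] at hL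
    rw [wval_cons, evW, evalM_mul hι hp5, ← h a hL.1, ← evW_sound hι hp5 hp2 h L hL.2]
    rfl

theorem eq_one_of_code (hι : ι ^ 2 = (c0 : F) + (c1 : F) * ι) (hp5 : p ≤ 5) (hp2 : 2 ≤ p) {y : ℕ → SU n F q} {T : List ℕ} {good : ℕ → Bool}
    (h : ∀ a, good a = true → (val y a).1.1 = evalM p ι n (nth T a)) (L : List ℕ) (hL : L.all good = true)
    (hE : Nat.beq (evW p c0 c1 n T L) (idC n) = true) : wval y L = 1 := by
  apply Subtype.ext; apply Subtype.ext
  rw [evW_sound hι hp5 hp2 h L hL, Nat.eq_of_beq_eq_true hE, evalM_id hp2]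
  rfl

/-- values under a homomorphism -/
theorem wval_hom {G H : Type*} [Group G] [Group H] (f : G →* H) {y : ℕ → G} {x : ℕ → H} {good : ℕ → Bool}
    (h : ∀ a, good a = true → val x a = f (val y a)) : ∀ L : List ℕ, L.all good = true → wval x L = f (wval y L)
  | [], _ => by rw [wval_nil, wval_nil, map_one]
  | a :: L, hL => by
    rw [List.all_cons, Bool.and_eq_true] at hL
    rw [wval_cons, wval_cons, map_mul, h a hL.1, wval_hom f h L hL.2]

end gen

section q3
variable {F : Type*} [Field F] [Fintype F] (hF : Fintype.card F = 3 ^ 2) {i : F} (hi : i * i = -1)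
include hF

section vd
omit hF
theorem vd0 : vd 3 i 0 = 0 := by simp [vd]
theorem vd1 : vd 3 i 1 = 1 := by simp [vd]
theorem vd3 : vd 3 i 3 = i := by simp [vd]
theorem vd4 : vd 3 i 4 = 1 + i := by simp [vd]
include hF
theorem vd2 : vd 3 i 2 = -1 := by
  have h3 := three0 hF
  simp only [vd]; norm_num; linear_combination h3
theorem vd5 : vd 3 i 5 = -1 + i := by
  have h3 := three0 hF
  simp only [vd]; norm_num; linear_combination h3
theorem vd6 : vd 3 i 6 = -i := by
  have h3 := three0 hF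
  simp only [vd]; norm_num; linear_combination i * h3
theorem vd7 : vd 3 i 7 = 1 - i := by
  have h3 := three0 hF
  simp only [vd]; norm_num; linear_combination i * h3
theorem vd8 : vd 3 i 8 = -1 - i := by
  have h3 := three0 hF
  simp only [vd]; norm_num; linear_combination i * h3 + h3
end vd

include hi in
theorem hiota : i ^ 2 = ((2 : ℕ) : F) + ((0 : ℕ) : F) * i := by
  have h3 := three0 hF
  push_cast
  linear_combination hi - h3

include hi in
/-- the torus generator -/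
theorem t_ok : i * sig hF i + 0 * sig hF 0 = 1 := by
  rw [sig_i hF hi]; linear_combination -hi

include hi in
theorem u_ok : (1 + i) * sig hF (1 + i) + (1 + i) * sig hF (1 + i) = 1 := by
  have h3 := three0 hF
  rw [map_add, map_one, sig_i hF hi]; linear_combination -2 * hi + h3

/-- the torus element -/
noncomputable def tt : SU 2 F 3 := su2 hF i 0 (t_ok hF hi)
/-- the other generator -/
noncomputable def uu : SU 2 F 3 := su2 hF (1 + i) (1 + i) (u_ok hF hi)

theorem tt_coe : (tt hF hi).1.1 = !![i, 0; 0, -i] := by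
  rw [tt, su2_coe, sig_i hF hi, map_zero, neg_zero]

theorem uu_coe : (uu hF hi).1.1 = !![1 + i, 1 + i; -1 + i, 1 - i] := by
  rw [uu, su2_coe, map_add, map_one, sig_i hF hi]
  ext a b
  fin_cases a <;> fin_cases b <;> simp <;> ring

theorem tt_inv : (tt hF hi)⁻¹ = su2 hF (-i) 0 (by rw [map_neg]; linear_combination t_ok hF hi) := by
  rw [inv_eq_iff_mul_eq_one]
  apply Subtype.ext; apply Subtype.ext
  show (tt hF hi).1.1 * (su2 hF _ _ _).1.1 = 1
  rw [tt_coe, su2_coe, map_neg, sig_i hF hi, map_zero, neg_zero]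
  ext a b
  fin_cases a <;> fin_cases b <;> simp [hi]

theorem tt_inv_coe : (tt hF hi)⁻¹.1.1 = !![-i, 0; 0, i] := by
  rw [tt_inv, su2_coe, map_neg, sig_i hF hi, map_zero, neg_zero, neg_neg]

theorem uu_inv : (uu hF hi)⁻¹ = su2 hF (1 - i) (-1 - i) (by
    have h3 := three0 hF
    rw [map_sub, map_sub, map_neg, map_one, sig_i hF hi]; linear_combination -2 * hi + h3) := by
  have h3 := three0 hF
  rw [inv_eq_iff_mul_eq_one]
  apply Subtype.ext; apply Subtype.ext
  show (uu hF hi).1.1 * (su2 hF _ _ _).1.1 = 1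
  rw [uu_coe, su2_coe, map_sub, map_sub, map_neg, map_one, sig_i hF hi]
  ext a b
  fin_cases a <;> fin_cases b <;> simp <;> first | linear_combination -2 * hi + h3 | ring

theorem uu_inv_coe : (uu hF hi)⁻¹.1.1 = !![1 - i, -1 - i; 1 - i, 1 + i] := by
  rw [uu_inv, su2_coe, map_sub, map_sub, map_neg, map_one, sig_i hF hi]
  ext a b
  fin_cases a <;> fin_cases b <;> simp <;> ring

theorem sw_coe (s : SU 2 F 3) : (blk (Equiv.swap (0 : Fin 2) 1).toEmbedding s).1.1 = !![s.1.1 1 1, s.1.1 1 0; s.1.1 0 1, s.1.1 0 0] := by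
  rw [blk_coe]
  have h := fun a b => blkM_ii (Equiv.swap (0 : Fin 2) 1).toEmbedding s.1.1 a b
  ext a b
  fin_cases a <;> fin_cases b
  · exact h 1 1
  · exact h 1 0
  · exact h 0 1
  · exact h 0 0

theorem sw_tt : blk (Equiv.swap (0 : Fin 2) 1).toEmbedding (tt hF hi) = (tt hF hi)⁻¹ := by
  apply Subtype.ext; apply Subtype.ext
  rw [sw_coe hF, tt_inv_coe, tt_coe]
  ext a b
  fin_cases a <;> fin_cases b <;> simp

theorem sw_uu : blk (Equiv.swap (0 : Fin 2) 1).toEmbedding (uu hF hi) = uu hF hi * (tt hF hi)⁻¹ := by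
  apply Subtype.ext; apply Subtype.ext
  rw [sw_coe hF, uu_coe]
  show _ = (uu hF hi).1.1 * (tt hF hi)⁻¹.1.1
  rw [tt_inv_coe, uu_coe]
  ext a b
  fin_cases a <;> fin_cases b <;> simp <;> first | linear_combination hi | linear_combination -hi

theorem sw_inv (s : SU 2 F 3) : blk (Equiv.swap (0 : Fin 2) 1).toEmbedding s⁻¹ = (blk (Equiv.swap (0 : Fin 2) 1).toEmbedding s)⁻¹ := map_inv _ _

/-- the base letters -/
noncomputable def yb (k : ℕ) : SU 3 F 3 := if k = 4 then pm F 3 3 (cc 0) else if k = 5 then b0 F 3 (tt hF hi) else if k = 6 then b0 F 3 (uu hF hi) else 1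

/-- codes of the base letters -/
def gb (a : ℕ) : Bool := Nat.ble 8 a && Nat.ble a 13

omit hF [Fintype F] in
theorem pmcc_coe (q : ℕ) : (pm F q 3 (cc 0)).1.1 = !![0, 0, 1; 1, 0, 0; 0, 1, 0] := by
  apply Matrix.ext_of_mulVec_single
  intro a
  rw [pm_single]
  fin_cases a
  · rw [show (cc 0).1 ((fun x => x) (⟨0, by omega⟩ : Fin 3)) = ⟨1, by omega⟩ from cc0 0]
    ext b; fin_cases b <;> simp [Matrix.mulVec, dotProduct, Fin.sum_univ_three]
  · rw [show (cc 0).1 ((fun x => x) (⟨1, by omega⟩ : Fin 3)) = ⟨2, by omega⟩ from cc1 0]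
    ext b; fin_cases b <;> simp [Matrix.mulVec, dotProduct, Fin.sum_univ_three]
  · rw [show (cc 0).1 ((fun x => x) (⟨2, by omega⟩ : Fin 3)) = ⟨0, by omega⟩ from cc2 0]
    ext b; fin_cases b <;> simp [Matrix.mulVec, dotProduct, Fin.sum_univ_three]

omit hF [Fintype F] in
theorem pmcc_inv_coe (q : ℕ) : (pm F q 3 (cc 0))⁻¹.1.1 = !![0, 1, 0; 0, 0, 1; 1, 0, 0] := by
  rw [pm_inv_coe, ← pm_coe (q := q), pmcc_coe]
  ext a b
  fin_cases a <;> fin_cases b <;> simp

/-- entrywise evaluation of codes -/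
theorem evalM3 (A : ℕ) : evalM 3 i 3 A = !![vd 3 i (dg A 0), vd 3 i (dg A 1), vd 3 i (dg A 2); vd 3 i (dg A 3), vd 3 i (dg A 4), vd 3 i (dg A 5);
    vd 3 i (dg A 6), vd 3 i (dg A 7), vd 3 i (dg A 8)] := by
  ext a b
  fin_cases a <;> fin_cases b <;> rfl

theorem yb_ok (a : ℕ) (ha : gb a = true) : (val (yb hF hi) a).1.1 = evalM 3 i 3 (nth cbL a) := by
  rw [gb, Bool.and_eq_true, Nat.ble_eq, Nat.ble_eq] at ha
  obtain ⟨h1, h2⟩ := ha
  rw [evalM3 hF]
  interval_cases a
  · show (pm F 3 3 (cc 0)).1.1 = _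
    rw [pmcc_coe]
    rw [show dg (nth cbL 8) 0 = 0 by decide, show dg (nth cbL 8) 1 = 0 by decide, show dg (nth cbL 8) 2 = 1 by decide,
      show dg (nth cbL 8) 3 = 1 by decide, show dg (nth cbL 8) 4 = 0 by decide, show dg (nth cbL 8) 5 = 0 by decide,
      show dg (nth cbL 8) 6 = 0 by decide, show dg (nth cbL 8) 7 = 1 by decide, show dg (nth cbL 8) 8 = 0 by decide, vd0, vd1]
  · show (pm F 3 3 (cc 0))⁻¹.1.1 = _
    rw [pmcc_inv_coe]
    rw [show dg (nth cbL 9) 0 = 0 by decide, show dg (nth cbL 9) 1 = 1 by decide, show dg (nth cbL 9) 2 = 0 by decide,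
      show dg (nth cbL 9) 3 = 0 by decide, show dg (nth cbL 9) 4 = 0 by decide, show dg (nth cbL 9) 5 = 1 by decide,
      show dg (nth cbL 9) 6 = 1 by decide, show dg (nth cbL 9) 7 = 0 by decide, show dg (nth cbL 9) 8 = 0 by decide, vd0, vd1]
  · show (b0 F 3 (tt hF hi)).1.1 = _
    rw [b0_mat, tt_coe]
    rw [show dg (nth cbL 10) 0 = 3 by decide, show dg (nth cbL 10) 1 = 0 by decide, show dg (nth cbL 10) 2 = 0 by decide,
      show dg (nth cbL 10) 3 = 0 by decide, show dg (nth cbL 10) 4 = 6 by decide, show dg (nth cbL 10) 5 = 0 by decide,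
      show dg (nth cbL 10) 6 = 0 by decide, show dg (nth cbL 10) 7 = 0 by decide, show dg (nth cbL 10) 8 = 1 by decide, vd0, vd1, vd3, vd6 hF]
    rfl
  · show (b0 F 3 (tt hF hi))⁻¹.1.1 = _
    rw [← map_inv, b0_mat, tt_inv_coe]
    rw [show dg (nth cbL 11) 0 = 6 by decide, show dg (nth cbL 11) 1 = 0 by decide, show dg (nth cbL 11) 2 = 0 by decide,
      show dg (nth cbL 11) 3 = 0 by decide, show dg (nth cbL 11) 4 = 3 by decide, show dg (nth cbL 11) 5 = 0 by decide,
      show dg (nth cbL 11) 6 = 0 by decide, show dg (nth cbL 11) 7 = 0 by decide, show dg (nth cbL 11) 8 = 1 by decide, vd0, vd1, vd3, vd6 hF]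
    rfl
  · show (b0 F 3 (uu hF hi)).1.1 = _
    rw [b0_mat, uu_coe]
    rw [show dg (nth cbL 12) 0 = 4 by decide, show dg (nth cbL 12) 1 = 4 by decide, show dg (nth cbL 12) 2 = 0 by decide,
      show dg (nth cbL 12) 3 = 5 by decide, show dg (nth cbL 12) 4 = 7 by decide, show dg (nth cbL 12) 5 = 0 by decide,
      show dg (nth cbL 12) 6 = 0 by decide, show dg (nth cbL 12) 7 = 0 by decide, show dg (nth cbL 12) 8 = 1 by decide, vd0, vd1, vd4, vd5 hF, vd7 hF]
    rfl
  · show (b0 F 3 (uu hF hi))⁻¹.1.1 = _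
    rw [← map_inv, b0_mat, uu_inv_coe]
    rw [show dg (nth cbL 13) 0 = 7 by decide, show dg (nth cbL 13) 1 = 8 by decide, show dg (nth cbL 13) 2 = 0 by decide,
      show dg (nth cbL 13) 3 = 7 by decide, show dg (nth cbL 13) 4 = 4 by decide, show dg (nth cbL 13) 5 = 0 by decide,
      show dg (nth cbL 13) 6 = 0 by decide, show dg (nth cbL 13) 7 = 0 by decide, show dg (nth cbL 13) 8 = 1 by decide, vd0, vd1, vd4, vd8 hF, vd7 hF]
    rfl

/-- the letters of the first block -/
noncomputable def yK (k : ℕ) : SU 3 F 3 := wval (yb hF hi) (nthL WKL k)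
/-- the letters of the opposite block -/
noncomputable def yP (k : ℕ) : SU 3 F 3 := wval (yb hF hi) (nthL WPL k)

/-- codes of the first block -/
def gK (a : ℕ) : Bool := Nat.ble 2 a && Nat.ble a 17
/-- codes of the second block -/
def gP (a : ℕ) : Bool := Nat.ble 14 a && Nat.ble a 29

omit hF in
/-- all words are words in the base letters -/
theorem gbK : ((List.range 8).all fun k => (nthL WKL (k + 1)).all gb && (invw (nthL WKL (k + 1))).all gb) = true := by decide +kernel
omit hF in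
theorem gbP : ((List.range 8).all fun k => (nthL WPL (k + 7)).all gb && (invw (nthL WPL (k + 7))).all gb) = true := by decide +kernel

theorem tab_ok {W : List (List ℕ)} {T : List ℕ} {k : ℕ} (hb : ((nthL W k).all gb && (invw (nthL W k)).all gb) = true)
    (hT : chkT 3 2 0 3 cbL W T k = true) :
    (wval (yb hF hi) (nthL W k)).1.1 = evalM 3 i 3 (nth T (2 * k)) ∧ (wval (yb hF hi) (nthL W k))⁻¹.1.1 = evalM 3 i 3 (nth T (2 * k + 1)) := by
  haveI := char3 hF
  haveI : Fact (Nat.Prime 3) := ⟨Nat.prime_three⟩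
  rw [Bool.and_eq_true] at hb
  rw [chkT, Bool.and_eq_true] at hT
  constructor
  · rw [evW_sound (hiota hF hi) (by norm_num) (by norm_num) (yb_ok hF hi) _ hb.1, Nat.eq_of_beq_eq_true hT.1]
  · rw [← wval_invw, evW_sound (hiota hF hi) (by norm_num) (by norm_num) (yb_ok hF hi) _ hb.2, Nat.eq_of_beq_eq_true hT.2]

theorem yK_ok (a : ℕ) (ha : gK a = true) : (val (yK hF hi) a).1.1 = evalM 3 i 3 (nth cKL a) := by
  rw [gK, Bool.and_eq_true, Nat.ble_eq, Nat.ble_eq] at ha
  obtain ⟨h1, h2⟩ := ha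
  have h3 : a / 2 - 1 ∈ List.range 8 := List.mem_range.2 (by omega)
  have h4 := tab_ok hF hi (List.all_eq_true.1 gbK _ h3) (List.all_eq_true.1 chkK _ h3)
  rw [show a / 2 - 1 + 1 = a / 2 by omega] at h4
  unfold val
  split_ifs with h5
  · rw [yK, h4.1, show 2 * (a / 2) = a by omega]
  · rw [yK, h4.2, show 2 * (a / 2) + 1 = a by omega]

theorem yP_ok (a : ℕ) (ha : gP a = true) : (val (yP hF hi) a).1.1 = evalM 3 i 3 (nth cPL a) := by
  rw [gP, Bool.and_eq_true, Nat.ble_eq, Nat.ble_eq] at ha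
  obtain ⟨h1, h2⟩ := ha
  have h3 : a / 2 - 7 ∈ List.range 8 := List.mem_range.2 (by omega)
  have h4 := tab_ok hF hi (List.all_eq_true.1 gbP _ h3) (List.all_eq_true.1 chkP _ h3)
  rw [show a / 2 - 7 + 7 = a / 2 by omega] at h4
  unfold val
  split_ifs with h5
  · rw [yP, h4.1, show 2 * (a / 2) = a by omega]
  · rw [yP, h4.2, show 2 * (a / 2) + 1 = a by omega]

/-- relators of the blocks -/
theorem relK (L : List ℕ) (hL : L.all gK = true) (hE : Nat.beq (evW 3 2 0 3 cKL L) (idC 3) = true) : wval (yK hF hi) L = 1 := by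
  haveI := char3 hF
  haveI : Fact (Nat.Prime 3) := ⟨Nat.prime_three⟩
  exact eq_one_of_code (hiota hF hi) (by norm_num) (by norm_num) (yK_ok hF hi) L hL hE

theorem relP (L : List ℕ) (hL : L.all gP = true) (hE : Nat.beq (evW 3 2 0 3 cPL L) (idC 3) = true) : wval (yP hF hi) L = 1 := by
  haveI := char3 hF
  haveI : Fact (Nat.Prime 3) := ⟨Nat.prime_three⟩
  exact eq_one_of_code (hiota hF hi) (by norm_num) (by norm_num) (yP_ok hF hi) L hL hE

end q3

end Cfsg.Agent.Lib.PresU.D3
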