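import Cfsg.Agent.Lib.PresUJ
import Cfsg.Agent.Lib.PresUH

/-! The relators for `q = 3` (helper38). -/

set_option autoImplicit false
set_option linter.unusedSectionVars false
set_option linter.unusedSimpArgs false
set_option maxRecDepth 100000
set_option linter.style.haveILetI false

namespace Cfsg.Agent.Lib.PresU.D3

open Module Matrix Cfsg Cfsg.Agent.Lib.Phan Cfsg.Agent.Lib.UnTrans Cfsg.Agent.Lib.UnBridge Cfsg.Agent.Lib.ClUnSimple
open Cfsg.Agent.Lib.PresHas Cfsg.Agent.Lib.PresU.Code Cfsg.Agent.Lib.H10Enum Cfsg.Agent.Lib.PresU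

/-- `(0 1)(2 3)` -/
def dd : alternatingGroup (Fin (0 + 4)) := ⟨Equiv.swap (0 : Fin 4) 1 * Equiv.swap (2 : Fin 4) 3, by
  rw [Equiv.Perm.mem_alternatingGroup]; decide⟩
/-- `(0 3)(1 2)` -/
def pp : alternatingGroup (Fin (0 + 4)) := ⟨Equiv.swap (0 : Fin 4) 3 * Equiv.swap (1 : Fin 4) 2, by
  rw [Equiv.Perm.mem_alternatingGroup]; decide⟩

/-- permutations of the letters -/
def xa (k : ℕ) : Equiv.Perm (Fin 4) :=
  if k = 4 then Equiv.swap 0 1 * Equiv.swap 1 2 else if k = 12 then (Equiv.swap 0 3 * Equiv.swap 1 2) * (Equiv.swap 0 1 * Equiv.swap 1 2) * (Equiv.swap 0 3 * Equiv.swap 1 2)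
  else if k = 15 then Equiv.swap 0 1 * Equiv.swap 2 3 else if k = 16 then Equiv.swap 0 2 * Equiv.swap 1 3 else if k = 17 then Equiv.swap 0 3 * Equiv.swap 1 2 else 1

/-- codes of the permutations -/
def gA (a : ℕ) : Bool := (Nat.beq a 8 || Nat.beq a 9) || (Nat.beq a 24 || Nat.beq a 25) || (Nat.ble 30 a && Nat.ble a 35)

/-- the trivial relators -/
def isT : List ℕ → Bool
  | [a, b] => Nat.beq (Nat.mod a 2) 0 && Nat.beq b (Nat.succ a)
  | _ => false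

/-- the special relators -/
def DL : List (List ℕ) := [[10, 26, 11, 27], [10, 28, 11, 29], [12, 26, 13, 27], [12, 28, 13, 29], [30, 10, 30, 10],
  [30, 12, 30, 10, 13], [30, 26, 30, 26], [30, 28, 30, 26, 29], [32, 10, 32, 27], [32, 12, 32, 29], [34, 2, 34, 19],
  [34, 4, 34, 21], [34, 6, 34, 22], [34, 14, 34, 14], [34, 16, 34, 14, 17], [34, 10, 34, 26], [34, 12, 34, 26, 29],
  [9, 30, 2, 9, 30, 2, 9, 30, 2, 9, 30, 2], [30, 10, 8, 2, 30, 10, 8, 2, 30, 10, 8, 2, 30, 10, 8, 2]]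

/-- the families of relators -/
def fam (w : List ℕ) : Bool := (w.all gK && Nat.beq (evW 3 2 0 3 cKL w) (idC 3)) || (w.all gP && Nat.beq (evW 3 2 0 3 cPL w) (idC 3)) ||
  (w.all gA && decide (wval xa w = 1)) || isT w || decide (w ∈ DL)

theorem famR : (Cfsg.Agent.Lib.PresUH.R.all fam) = true := by decide +kernel

theorem isT_spec {G : Type*} [Group G] (x : ℕ → G) : ∀ w : List ℕ, isT w = true → wval x w = 1
  | [a, b], h => by
    rw [isT, Bool.and_eq_true] at h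
    have h1 : a % 2 = 0 := Nat.eq_of_beq_eq_true h.1
    have h2 : b = a + 1 := Nat.eq_of_beq_eq_true h.2
    obtain ⟨c, rfl⟩ : ∃ c, a = 2 * c := ⟨a / 2, by omega⟩
    rw [h2, wval_cons, wval_cons, wval_nil, val_even, val_odd, mul_one, mul_inv_cancel]
  | [], h => by simp [isT] at h
  | [a], h => by simp [isT] at h
  | a :: b :: c :: L, h => by simp [isT] at h

/-- the facts about the letters -/
structure Facts {G : Type*} [Group G] (x : ℕ → G) : Prop where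
  h11 : x 11 * x 11 = 1
  h15 : x 15 * x 15 = 1
  h16 : x 16 * x 16 = 1
  h17 : x 17 * x 17 = 1
  c1 : x 5 * x 13 = x 13 * x 5
  c2 : x 5 * x 14 = x 14 * x 5
  c3 : x 6 * x 13 = x 13 * x 6
  c4 : x 6 * x 14 = x 14 * x 6
  d1 : x 15 * x 5 * (x 15)⁻¹ = (x 5)⁻¹
  d2 : x 15 * x 6 * (x 15)⁻¹ = x 6 * (x 5)⁻¹
  d3 : x 15 * x 13 * (x 15)⁻¹ = (x 13)⁻¹
  d4 : x 15 * x 14 * (x 15)⁻¹ = x 14 * (x 13)⁻¹
  e1 : x 16 * x 5 * (x 16)⁻¹ = x 13
  e2 : x 16 * x 6 * (x 16)⁻¹ = x 14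
  f1 : x 17 * x 1 * (x 17)⁻¹ = x 9
  f2 : x 17 * x 2 * (x 17)⁻¹ = x 10
  f3 : x 17 * x 3 * (x 17)⁻¹ = x 11
  f4 : x 17 * x 7 * (x 17)⁻¹ = (x 7)⁻¹
  f5 : x 17 * x 8 * (x 17)⁻¹ = x 8 * (x 7)⁻¹
  f6 : x 17 * x 5 * (x 17)⁻¹ = (x 13)⁻¹
  f7 : x 17 * x 6 * (x 17)⁻¹ = x 14 * (x 13)⁻¹
  r1 : ((x 4)⁻¹ * x 15 * x 1) ^ 4 = 1
  r4 : (x 15 * x 5 * x 4 * x 1) ^ 4 = 1

theorem inv_self {G : Type*} [Group G] {x : G} (h : x * x = 1) : x⁻¹ = x := inv_eq_of_mul_eq_one_left h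

theorem Facts.rel {G : Type*} [Group G] {x : ℕ → G} (H : Facts x) : ∀ w ∈ DL, wval x w = 1 := by
  have i15 := inv_self H.h15
  have i16 := inv_self H.h16
  have i17 := inv_self H.h17
  have i11 := inv_self H.h11
  have d1 := H.d1
  have d2 := H.d2
  have d3 := H.d3
  have d4 := H.d4
  have e1 := H.e1
  have e2 := H.e2
  have f1 := H.f1
  have f2 := H.f2
  have f3 := H.f3
  have f4 := H.f4
  have f5 := H.f5
  have f6 := H.f6
  have f7 := H.f7
  rw [i15] at d1 d2 d3 d4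
  rw [i16] at e1 e2
  rw [i17] at f1 f2 f3 f4 f5 f6 f7
  intro w hw
  simp only [DL, List.mem_cons, List.not_mem_nil, or_false] at hw
  have hv : ∀ k, val x (2 * k) = x k := val_even x
  have hv' : ∀ k, val x (2 * k + 1) = (x k)⁻¹ := val_odd x
  rcases hw with rfl | rfl | rfl | rfl | rfl | rfl | rfl | rfl | rfl | rfl | rfl | rfl | rfl | rfl | rfl | rfl | rfl | rfl | rfl
  · show x 5 * (x 13 * ((x 5)⁻¹ * ((x 13)⁻¹ * 1))) = 1
    rw [← mul_assoc, H.c1]; group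
  · show x 5 * (x 14 * ((x 5)⁻¹ * ((x 14)⁻¹ * 1))) = 1
    rw [← mul_assoc, H.c2]; group
  · show x 6 * (x 13 * ((x 6)⁻¹ * ((x 13)⁻¹ * 1))) = 1
    rw [← mul_assoc, H.c3]; group
  · show x 6 * (x 14 * ((x 6)⁻¹ * ((x 14)⁻¹ * 1))) = 1
    rw [← mul_assoc, H.c4]; group
  · show x 15 * (x 5 * (x 15 * (x 5 * 1))) = 1
    calc _ = (x 15 * x 5 * x 15) * x 5 := by group
      _ = 1 := by rw [d1]; group
  · show x 15 * (x 6 * (x 15 * (x 5 * ((x 6)⁻¹ * 1)))) = 1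
    calc _ = (x 15 * x 6 * x 15) * x 5 * (x 6)⁻¹ := by group
      _ = 1 := by rw [d2]; group
  · show x 15 * (x 13 * (x 15 * (x 13 * 1))) = 1
    calc _ = (x 15 * x 13 * x 15) * x 13 := by group
      _ = 1 := by rw [d3]; group
  · show x 15 * (x 14 * (x 15 * (x 13 * ((x 14)⁻¹ * 1)))) = 1
    calc _ = (x 15 * x 14 * x 15) * x 13 * (x 14)⁻¹ := by group
      _ = 1 := by rw [d4]; group
  · show x 16 * (x 5 * (x 16 * ((x 13)⁻¹ * 1))) = 1
    calc _ = (x 16 * x 5 * x 16) * (x 13)⁻¹ := by group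
      _ = 1 := by rw [e1]; group
  · show x 16 * (x 6 * (x 16 * ((x 14)⁻¹ * 1))) = 1
    calc _ = (x 16 * x 6 * x 16) * (x 14)⁻¹ := by group
      _ = 1 := by rw [e2]; group
  · show x 17 * (x 1 * (x 17 * ((x 9)⁻¹ * 1))) = 1
    calc _ = (x 17 * x 1 * x 17) * (x 9)⁻¹ := by group
      _ = 1 := by rw [f1]; group
  · show x 17 * (x 2 * (x 17 * ((x 10)⁻¹ * 1))) = 1
    calc _ = (x 17 * x 2 * x 17) * (x 10)⁻¹ := by group
      _ = 1 := by rw [f2]; group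
  · show x 17 * (x 3 * (x 17 * (x 11 * 1))) = 1
    calc _ = (x 17 * x 3 * x 17) * x 11 := by group
      _ = 1 := by rw [f3]; exact H.h11
  · show x 17 * (x 7 * (x 17 * (x 7 * 1))) = 1
    calc _ = (x 17 * x 7 * x 17) * x 7 := by group
      _ = 1 := by rw [f4]; group
  · show x 17 * (x 8 * (x 17 * (x 7 * ((x 8)⁻¹ * 1)))) = 1
    calc _ = (x 17 * x 8 * x 17) * x 7 * (x 8)⁻¹ := by group
      _ = 1 := by rw [f5]; group
  · show x 17 * (x 5 * (x 17 * (x 13 * 1))) = 1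
    calc _ = (x 17 * x 5 * x 17) * x 13 := by group
      _ = 1 := by rw [f6]; group
  · show x 17 * (x 6 * (x 17 * (x 13 * ((x 14)⁻¹ * 1)))) = 1
    calc _ = (x 17 * x 6 * x 17) * x 13 * (x 14)⁻¹ := by group
      _ = 1 := by rw [f7]; group
  · refine Eq.trans ?_ H.r1
    change (x 4)⁻¹ * (x 15 * (x 1 * ((x 4)⁻¹ * (x 15 * (x 1 * ((x 4)⁻¹ * (x 15 * (x 1 * ((x 4)⁻¹ * (x 15 * (x 1 * 1))))))))))) = _
    simp only [pow_succ, pow_zero, one_mul, mul_assoc, mul_one]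
  · refine Eq.trans ?_ H.r4
    change x 15 * (x 5 * (x 4 * (x 1 * (x 15 * (x 5 * (x 4 * (x 1 * (x 15 * (x 5 * (x 4 * (x 1 * (x 15 * (x 5 * (x 4 * (x 1 * 1))))))))))))))) = _
    simp only [pow_succ, pow_zero, one_mul, mul_assoc, mul_one]

section q3
variable {F : Type*} [Field F] [Fintype F] (hF : Fintype.card F = 3 ^ 2) {i : F} (hi : i * i = -1)
variable {G : Type*} [Group G] {κ : SU 3 F 3 →* G} {α : alternatingGroup (Fin (0 + 4)) →* G}

/-- the letters -/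
noncomputable def xx (κ : SU 3 F 3 →* G) (α : alternatingGroup (Fin (0 + 4)) →* G) (k : ℕ) : G :=
  if k ≤ 8 then κ (yK hF hi k) else if k ≤ 14 then α pp * κ (yP hF hi k) * (α pp)⁻¹
  else if k = 15 then α dd else if k = 16 then α (rho 0) else if k = 17 then α pp else 1

theorem yK0 : yK hF hi 0 = 1 := rfl
theorem yK4 : yK hF hi 4 = pm F 3 3 (cc 0) := mul_one _
theorem yK5 : yK hF hi 5 = b0 F 3 (tt hF hi) := mul_one _
theorem yK6 : yK hF hi 6 = b0 F 3 (uu hF hi) := mul_one _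
theorem yK7 : yK hF hi 7 = pm F 3 3 (cc 0) * b0 F 3 (tt hF hi) * (pm F 3 3 (cc 0))⁻¹ := by
  rw [mul_assoc]
  show pm F 3 3 (cc 0) * (b0 F 3 (tt hF hi) * ((pm F 3 3 (cc 0))⁻¹ * 1)) = _
  rw [mul_one]
theorem yK8 : yK hF hi 8 = pm F 3 3 (cc 0) * b0 F 3 (uu hF hi) * (pm F 3 3 (cc 0))⁻¹ := by
  rw [mul_assoc]
  show pm F 3 3 (cc 0) * (b0 F 3 (uu hF hi) * ((pm F 3 3 (cc 0))⁻¹ * 1)) = _
  rw [mul_one]
theorem yP7 : yP hF hi 7 = pm F 3 3 (cc 0) * b0 F 3 (tt hF hi)⁻¹ * (pm F 3 3 (cc 0))⁻¹ := by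
  rw [mul_assoc, map_inv]
  show pm F 3 3 (cc 0) * ((b0 F 3 (tt hF hi))⁻¹ * ((pm F 3 3 (cc 0))⁻¹ * 1)) = _
  rw [mul_one]
theorem yP8 : yP hF hi 8 = pm F 3 3 (cc 0) * b0 F 3 (uu hF hi * (tt hF hi)⁻¹) * (pm F 3 3 (cc 0))⁻¹ := by
  rw [mul_assoc, map_mul, map_inv]
  show pm F 3 3 (cc 0) * (b0 F 3 (uu hF hi) * ((b0 F 3 (tt hF hi))⁻¹ * ((pm F 3 3 (cc 0))⁻¹ * 1))) = _
  rw [mul_one]; group
theorem yP9 : yP hF hi 9 = yK hF hi 1 := rfl
theorem yP10 : yP hF hi 10 = yK hF hi 2 := rfl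
theorem yP11 : yP hF hi 11 = yK hF hi 3 := rfl
theorem yP12 : yP hF hi 12 = pm F 3 3 (cc 0) := mul_one _
theorem yP13 : yP hF hi 13 = b0 F 3 (tt hF hi)⁻¹ := by
  rw [map_inv]; exact mul_one _
theorem yP14 : yP hF hi 14 = b0 F 3 (uu hF hi * (tt hF hi)⁻¹) := by
  rw [map_mul, map_inv]
  show b0 F 3 (uu hF hi) * ((b0 F 3 (tt hF hi))⁻¹ * 1) = _
  rw [mul_one]

section LLs
omit hF [Fintype F]
theorem LL_mul (π : alternatingGroup (Fin (0 + 4))) (s t : SU 2 F 3) : LL κ α π (s * t) = LL κ α π s * LL κ α π t := by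
  rw [LL, LL, LL, map_mul, map_mul]; group
theorem LL_inv (π : alternatingGroup (Fin (0 + 4))) (s : SU 2 F 3) : LL κ α π s⁻¹ = (LL κ α π s)⁻¹ := by
  rw [LL, LL, map_inv, map_inv]; group
theorem LL_conj (ρ π : alternatingGroup (Fin (0 + 4))) (s : SU 2 F 3) : α ρ * LL κ α π s * (α ρ)⁻¹ = LL κ α (ρ * π) s := by
  rw [LL, LL, map_mul]; group
theorem LL_one (s : SU 2 F 3) : LL κ α 1 s = κ (b0 F 3 s) := by
  rw [LL, map_one]; simp
end LLs

variable (D : GD κ α)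

theorem sw_mul (s t : SU 2 F 3) : blk (Equiv.swap (0 : Fin 2) 1).toEmbedding (s * t) = (blk (Equiv.swap (0 : Fin 2) 1).toEmbedding s) * blk (Equiv.swap (0 : Fin 2) 1).toEmbedding t := map_mul _ _ _

theorem sw_ut : blk (Equiv.swap (0 : Fin 2) 1).toEmbedding (uu hF hi * (tt hF hi)⁻¹) = uu hF hi := by
  rw [sw_mul, sw_uu, sw_inv hF, sw_tt]; group

include D

omit hF [Fintype F] in
theorem kc (s : SU 2 F 3) : κ (pm F 3 3 (cc 0) * b0 F 3 s * (pm F 3 3 (cc 0))⁻¹) = LL κ α (cc 1) s := by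
  rw [map_mul, map_mul, map_inv, D.C]; rfl

omit hF [Fintype F] in
theorem pc (s : SU 2 F 3) : α pp * LL κ α (cc 1) s * (α pp)⁻¹ = LL κ α (cc 1) (blk (Equiv.swap (0 : Fin 2) 1).toEmbedding s) := by
  rw [LL_conj]
  exact D.wd (cc 1) (pp * cc 1) (Equiv.swap 0 1) (by decide) s

theorem F7 : κ (yK hF hi 7) = α pp * κ (yP hF hi 7) * (α pp)⁻¹ := by
  rw [yK7, yP7, kc D, kc D, pc D, sw_inv hF, sw_tt, inv_inv]

theorem F8 : κ (yK hF hi 8) = α pp * κ (yP hF hi 8) * (α pp)⁻¹ := by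
  rw [yK8, yP8, kc D, kc D, pc D, sw_ut hF hi]

theorem facts (hr1 : (κ (pm F 3 3 (cc 0))⁻¹ * α dd * κ (yK hF hi 1)) ^ 4 = 1)
    (hr4 : (α dd * κ (b0 F 3 (tt hF hi)) * κ (pm F 3 3 (cc 0)) * κ (yK hF hi 1)) ^ 4 = 1) : Facts (xx hF hi κ α) := by
  have e4 : xx hF hi κ α 4 = κ (pm F 3 3 (cc 0)) := by rw [← yK4 hF hi]; rfl
  have e5 : xx hF hi κ α 5 = LL κ α 1 (tt hF hi) := by rw [LL_one, ← yK5 hF hi]; rfl
  have e6 : xx hF hi κ α 6 = LL κ α 1 (uu hF hi) := by rw [LL_one, ← yK6 hF hi]; rfl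
  have e7 : xx hF hi κ α 7 = LL κ α (cc 1) (tt hF hi) := by rw [← kc D, ← yK7 hF hi]; rfl
  have e8 : xx hF hi κ α 8 = LL κ α (cc 1) (uu hF hi) := by rw [← kc D, ← yK8 hF hi]; rfl
  have e13 : xx hF hi κ α 13 = LL κ α pp (tt hF hi)⁻¹ := by rw [LL, ← yP13 hF hi]; rfl
  have e14 : xx hF hi κ α 14 = LL κ α pp (uu hF hi * (tt hF hi)⁻¹) := by rw [LL, ← yP14 hF hi]; rfl
  have e15 : xx hF hi κ α 15 = α dd := rfl
  have e16 : xx hF hi κ α 16 = α (rho 0) := rfl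
  have e17 : xx hF hi κ α 17 = α pp := rfl
  have hcm : ∀ s t, LL κ α 1 s * LL κ α pp t = LL κ α pp t * LL κ α 1 s := fun s t => D.comm 1 pp (by decide) s t
  have hd1 : ∀ s, α dd * LL κ α 1 s * (α dd)⁻¹ = LL κ α 1 (blk (Equiv.swap (0 : Fin 2) 1).toEmbedding s) := by
    intro s
    rw [LL_conj]
    exact D.wd 1 (dd * 1) (Equiv.swap 0 1) (by decide) s
  have hdp : ∀ s, α dd * LL κ α pp s * (α dd)⁻¹ = LL κ α pp (blk (Equiv.swap (0 : Fin 2) 1).toEmbedding s) := by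
    intro s
    rw [LL_conj]
    exact D.wd pp (dd * pp) (Equiv.swap 0 1) (by decide) s
  have hr : ∀ s, α (rho 0) * LL κ α 1 s * (α (rho 0))⁻¹ = LL κ α pp (blk (Equiv.swap (0 : Fin 2) 1).toEmbedding s) := by
    intro s
    rw [LL_conj]
    exact D.wd pp (rho 0 * 1) (Equiv.swap 0 1) (by decide) s
  have hp : ∀ s, α pp * LL κ α 1 s * (α pp)⁻¹ = LL κ α pp s := by
    intro s
    rw [LL_conj, mul_one]
  refine ⟨?_, ?_, ?_, ?_, ?_, ?_, ?_, ?_, ?_, ?_, ?_, ?_, ?_, ?_, ?_, ?_, ?_, ?_, ?_, ?_, ?_, ?_, ?_⟩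
  · have h : yK hF hi 3 * yK hF hi 3 = 1 := by
      have := relK hF hi [6, 6] (by decide) (by decide +kernel)
      rw [wval_cons, wval_cons, wval_nil, mul_one] at this
      exact this
    show α pp * κ (yP hF hi 11) * (α pp)⁻¹ * (α pp * κ (yP hF hi 11) * (α pp)⁻¹) = 1
    rw [yP11]
    calc _ = α pp * κ (yK hF hi 3 * yK hF hi 3) * (α pp)⁻¹ := by rw [map_mul]; group
      _ = 1 := by rw [h]; simp
  · rw [e15, ← map_mul, show dd * dd = 1 by decide, map_one]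
  · rw [e16, ← map_mul, show rho 0 * rho 0 = 1 by decide, map_one]
  · rw [e17, ← map_mul, show pp * pp = 1 by decide, map_one]
  · rw [e5, e13]; exact hcm _ _
  · rw [e5, e14]; exact hcm _ _
  · rw [e6, e13]; exact hcm _ _
  · rw [e6, e14]; exact hcm _ _
  · rw [e15, e5, hd1, sw_tt, LL_inv]
  · rw [e15, e6, e5, hd1, sw_uu, LL_mul, LL_inv]
  · rw [e15, e13, hdp, sw_inv hF, sw_tt, LL_inv, LL_inv]
  · rw [e15, e14, e13, hdp, sw_ut hF hi, LL_mul, LL_inv, inv_inv, inv_mul_cancel_right]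
  · rw [e16, e5, e13, hr, sw_tt]
  · rw [e16, e6, e14, hr, sw_uu]
  · rfl
  · rfl
  · rfl
  · rw [e17, e7, pc D, sw_tt, LL_inv]
  · rw [e17, e8, e7, pc D, sw_uu, LL_mul, LL_inv]
  · rw [e17, e5, e13, hp, LL_inv, inv_inv]
  · rw [e17, e6, e14, e13, hp, LL_mul, LL_inv, inv_inv, inv_mul_cancel_right]
  · rw [e4, e15, ← map_inv]; exact hr1
  · rw [e15, e4, e5, LL_one]; exact hr4

omit D in
theorem xx_inv (c : ℕ) (hc : Nat.testBit 231432 c = true) (H : Facts (xx hF hi κ α)) (h3 : xx hF hi κ α 3 * xx hF hi κ α 3 = 1) :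
    (xx hF hi κ α c)⁻¹ = xx hF hi κ α c := by
  have hlt : c < 18 := by
    by_contra h
    rw [Nat.testBit_lt_two_pow (show 231432 < 2 ^ c from lt_of_lt_of_le (by norm_num) (Nat.pow_le_pow_right (by norm_num) (not_lt.1 h)))] at hc
    exact Bool.false_ne_true hc
  interval_cases c
  · exact absurd hc (by decide)
  · exact absurd hc (by decide)
  · exact absurd hc (by decide)
  · exact inv_self h3
  · exact absurd hc (by decide)
  · exact absurd hc (by decide)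
  · exact absurd hc (by decide)
  · exact absurd hc (by decide)
  · exact absurd hc (by decide)
  · exact absurd hc (by decide)
  · exact absurd hc (by decide)
  · exact inv_self H.h11
  · exact absurd hc (by decide)
  · exact absurd hc (by decide)
  · exact absurd hc (by decide)
  · exact inv_self H.h15
  · exact inv_self H.h16
  · exact inv_self H.h17

omit D in
theorem xxK (a : ℕ) (ha : gK a = true) : val (xx hF hi κ α) a = κ (val (yK hF hi) a) := by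
  rw [gK, Bool.and_eq_true, Nat.ble_eq, Nat.ble_eq] at ha
  have h1 : xx hF hi κ α (a / 2) = κ (yK hF hi (a / 2)) := by
    unfold xx; rw [if_pos (by omega)]
  unfold val
  split_ifs with h
  · exact h1
  · rw [h1, map_inv]

theorem xxP (a : ℕ) (ha : gP a = true) : val (xx hF hi κ α) a = ((MulAut.conj (α pp)).toMonoidHom.comp κ) (val (yP hF hi) a) := by
  rw [gP, Bool.and_eq_true, Nat.ble_eq, Nat.ble_eq] at ha
  have h1 : xx hF hi κ α (a / 2) = ((MulAut.conj (α pp)).toMonoidHom.comp κ) (yP hF hi (a / 2)) := by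
    by_cases h8 : a / 2 ≤ 8
    · rcases (show a / 2 = 7 ∨ a / 2 = 8 by omega) with h | h
      · rw [h]; exact F7 hF hi D
      · rw [h]; exact F8 hF hi D
    · unfold xx; rw [if_neg h8, if_pos (by omega)]; rfl
  unfold val
  split_ifs with h
  · exact h1
  · rw [h1, map_inv]

omit hF [Fintype F] D in
/-- permutations of the letters -/
def xaA (k : ℕ) : alternatingGroup (Fin (0 + 4)) :=
  if k = 4 then cc 1 else if k = 12 then pp * cc 1 * pp⁻¹ else if k = 15 then dd else if k = 16 then rho 0 else if k = 17 then pp else 1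

omit hF [Fintype F] D in
theorem xa_ok (a : ℕ) (ha : gA a = true) : val xa a = (alternatingGroup (Fin (0 + 4))).subtype (val xaA a) := by
  simp only [gA, Bool.or_eq_true, Bool.and_eq_true, Nat.ble_eq] at ha
  rcases ha with (h | h) | ⟨h1, h2⟩
  · rcases h with h | h
    · rw [Nat.eq_of_beq_eq_true h]; decide
    · rw [Nat.eq_of_beq_eq_true h]; decide
  · rcases h with h | h
    · rw [Nat.eq_of_beq_eq_true h]; decide
    · rw [Nat.eq_of_beq_eq_true h]; decide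
  · interval_cases a <;> decide

theorem xxA (a : ℕ) (ha : gA a = true) : val (xx hF hi κ α) a = α (val xaA a) := by
  have hy : xx hF hi κ α 12 = α (pp * cc 1 * pp⁻¹) := by
    show α pp * κ (yP hF hi 12) * (α pp)⁻¹ = _
    rw [yP12, D.C, map_mul, map_mul, map_inv]
  have h4 : xx hF hi κ α 4 = α (cc 1) := by
    show κ (yK hF hi 4) = _
    rw [yK4, D.C]
  simp only [gA, Bool.or_eq_true, Bool.and_eq_true, Nat.ble_eq] at ha
  rcases ha with (h | h) | ⟨h1, h2⟩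
  · rcases h with h | h
    · rw [Nat.eq_of_beq_eq_true h]; exact h4
    · rw [Nat.eq_of_beq_eq_true h]
      show (xx hF hi κ α 4)⁻¹ = α (cc 1)⁻¹
      rw [h4, map_inv]
  · rcases h with h | h
    · rw [Nat.eq_of_beq_eq_true h]; exact hy
    · rw [Nat.eq_of_beq_eq_true h]
      show (xx hF hi κ α 12)⁻¹ = α (pp * cc 1 * pp⁻¹)⁻¹
      rw [hy, map_inv]
  · interval_cases a
    · rfl
    · exact (map_inv α dd).symm
    · rfl
    · exact (map_inv α (rho 0)).symm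
    · rfl
    · exact (map_inv α pp).symm

/-- **all relators hold** -/
theorem rels_ok (H : Facts (xx hF hi κ α)) : ∀ w ∈ Cfsg.Agent.Lib.PresUH.R, wval (xx hF hi κ α) w = 1 := by
  intro w hw
  have h := List.all_eq_true.1 famR w hw
  simp only [fam, Bool.or_eq_true, Bool.and_eq_true, decide_eq_true_eq] at h
  rcases h with (((⟨h1, h2⟩ | ⟨h1, h2⟩) | ⟨h1, h2⟩) | h) | h
  · rw [wval_hom κ (xxK hF hi) w h1, relK hF hi w h1 h2, map_one]
  · rw [wval_hom _ (xxP hF hi D) w h1, relP hF hi w h1 h2, map_one]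
  · rw [wval_hom _ (xxA hF hi D) w h1]
    have h3 := wval_hom _ xa_ok w h1
    rw [h2] at h3
    have h4 : wval xaA w = 1 := Subtype.ext h3.symm
    rw [h4, map_one]
  · exact isT_spec _ w h
  · exact H.rel w h

end q3

end Cfsg.Agent.Lib.PresU.D3
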