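import Cfsg.Agent.Lib.PresUK

/-! The order bound for `q = 3` (helper38). -/

set_option autoImplicit false
set_option linter.unusedSectionVars false
set_option linter.unusedSimpArgs false
set_option maxRecDepth 100000
set_option linter.style.haveILetI false

namespace Cfsg.Agent.Lib.PresU

open Module Matrix Cfsg Cfsg.Agent.Lib.Phan Cfsg.Agent.Lib.UnTrans Cfsg.Agent.Lib.UnBridge Cfsg.Agent.Lib.ClUnSimple
open Cfsg.Agent.Lib.PresHas Cfsg.Agent.Lib.PresU.Code Cfsg.Agent.Lib.H10Enum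

/-- order of a product with a normalizing cyclic group -/
theorem card_sup_le {G : Type*} [Group G] (N : Subgroup G) (z : G) (hz : z ∈ Subgroup.normalizer (N : Set G)) (m : ℕ) (hm : 0 < m) (hzm : z ^ m = 1)
    (hN : Finite N) (n : ℕ) (hn : Nat.card N ≤ n) : Finite ↥(N ⊔ Subgroup.zpowers z) ∧ Nat.card ↥(N ⊔ Subgroup.zpowers z) ≤ n * m := by
  have hZ : ∀ w ∈ Subgroup.zpowers z, w ∈ Subgroup.normalizer (N : Set G) := by
    intro w hw
    have : Subgroup.zpowers z ≤ Subgroup.normalizer (N : Set G) := by rw [Subgroup.zpowers_le]; exact hz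
    exact this hw
  let P : Subgroup G :=
    { carrier := {g | ∃ a ∈ N, ∃ w ∈ Subgroup.zpowers z, g = a * w}
      one_mem' := ⟨1, N.one_mem, 1, Subgroup.one_mem _, by simp⟩
      mul_mem' := by
        rintro _ _ ⟨a, ha, w, hw, rfl⟩ ⟨b, hb, v, hv, rfl⟩
        refine ⟨a * (w * b * w⁻¹), N.mul_mem ha ?_, w * v, Subgroup.mul_mem _ hw hv, by group⟩
        exact (Subgroup.mem_normalizer_iff.1 (hZ w hw) b).1 hb
      inv_mem' := by
        rintro _ ⟨a, ha, w, hw, rfl⟩
        refine ⟨w⁻¹ * a⁻¹ * w⁻¹⁻¹, ?_, w⁻¹, Subgroup.inv_mem _ hw, by group⟩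
        exact (Subgroup.mem_normalizer_iff.1 (hZ _ (Subgroup.inv_mem _ hw)) a⁻¹).1 (N.inv_mem ha) }
  have hle : N ⊔ Subgroup.zpowers z ≤ P := by
    rw [sup_le_iff]
    constructor
    · intro a ha; exact ⟨a, ha, 1, Subgroup.one_mem _, by simp⟩
    · intro w hw; exact ⟨1, N.one_mem, w, hw, by simp⟩
  have hfinZ : Finite (Subgroup.zpowers z) := by
    have : IsOfFinOrder z := isOfFinOrder_iff_pow_eq_one.2 ⟨m, hm, hzm⟩
    exact this.finite_zpowers
  have hcZ : Nat.card (Subgroup.zpowers z) ≤ m := by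
    rw [Nat.card_zpowers]
    exact orderOf_le_of_pow_eq_one hm hzm
  let f : N × Subgroup.zpowers z → P := fun p => ⟨p.1.1 * p.2.1, p.1.1, p.1.2, p.2.1, p.2.2, rfl⟩
  have hf : Function.Surjective f := by
    rintro ⟨_, a, ha, w, hw, rfl⟩
    exact ⟨(⟨a, ha⟩, ⟨w, hw⟩), rfl⟩
  have hP : Finite P := Finite.of_surjective f hf
  have hcP : Nat.card P ≤ n * m := by
    refine (Nat.card_le_card_of_surjective f hf).trans ?_
    rw [Nat.card_prod]
    exact Nat.mul_le_mul hn hcZ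
  refine ⟨Finite.of_injective _ (Subgroup.inclusion_injective hle), ?_⟩
  exact (Nat.card_le_card_of_injective _ (Subgroup.inclusion_injective hle)).trans hcP

namespace D3

section q3
variable {F : Type*} [Field F] [Fintype F] (hF : Fintype.card F = 3 ^ 2) {i : F} (hi : i * i = -1)

include hF

theorem card_su2 : Nat.card (SU 2 F 3) = 24 := by
  have h := Cfsg.Agent.Lib.ClUnitary.card_SU (n := 2) hF (by norm_num)
  simp [Finset.prod_range_succ] at h
  have e : (if Even 1 then 3 ^ (1 + 1) + 1 else 3 ^ (1 + 1) - 1 : ℕ) = 8 := by norm_num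
  omega

theorem card_su3 : Nat.card (SU 3 F 3) = 6048 := by
  have h := Cfsg.Agent.Lib.ClUnitary.card_SU (n := 3) hF (by norm_num)
  simp [Finset.prod_range_succ] at h
  omega

theorem card_su4 : Nat.card (SU 4 F 3) = 13063680 := by
  have h := Cfsg.Agent.Lib.ClUnitary.card_SU (n := 4) hF (by norm_num)
  have e : 3 ^ (4 * (4 - 1) / 2) * ∏ i ∈ Finset.range 4, (if Even i then 3 ^ (i + 1) + 1 else 3 ^ (i + 1) - 1 : ℕ) = 52254720 := by decide
  rw [e] at h
  omega

theorem tt_sq : (tt hF hi) ^ 2 ≠ 1 := by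
  intro h
  have h1 : ((tt hF hi) ^ 2).1.1 0 0 = (1 : SU 2 F 3).1.1 0 0 := by rw [h]
  have h2 : ((tt hF hi) ^ 2).1.1 = (tt hF hi).1.1 * (tt hF hi).1.1 := by rw [pow_two]; rfl
  rw [h2, tt_coe] at h1
  have h3 : (1 : SU 2 F 3).1.1 0 0 = (1 : F) := rfl
  rw [h3] at h1
  simp [hi] at h1
  have h4 := three0 hF
  exact one_ne_zero (α := F) (by linear_combination h4 + h1)

theorem tt_four : (tt hF hi) ^ 4 = 1 := by
  apply Subtype.ext; apply Subtype.ext
  have h2 : ((tt hF hi) ^ 4).1.1 = ((tt hF hi).1.1 * (tt hF hi).1.1) * ((tt hF hi).1.1 * (tt hF hi).1.1) := by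
    rw [show (4 : ℕ) = 2 + 2 from rfl, pow_add, pow_two]; rfl
  rw [h2, tt_coe]
  show _ = (1 : Matrix (Fin 2) (Fin 2) F)
  ext a b
  fin_cases a <;> fin_cases b <;> simp [hi]

theorem uu_three : (uu hF hi) ^ 3 = 1 := by
  have h3 := three0 hF
  apply Subtype.ext; apply Subtype.ext
  have h2 : ((uu hF hi) ^ 3).1.1 = (uu hF hi).1.1 * (uu hF hi).1.1 * (uu hF hi).1.1 := by
    rw [pow_succ, pow_two]; rfl
  have e1 : (uu hF hi).1.1 * (uu hF hi).1.1 = (uu hF hi)⁻¹.1.1 := by
    rw [uu_inv_coe, uu_coe]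
    ext a b
    fin_cases a <;> fin_cases b <;> simp
    · linear_combination 2 * hi + i * h3 - h3
    · linear_combination i * h3 + h3
    · linear_combination i * h3 - h3
    · linear_combination 2 * hi - i * h3 - h3
  rw [h2, e1]
  show ((uu hF hi)⁻¹ * (uu hF hi)).1.1 = _
  rw [inv_mul_cancel]

theorem gen_tu : Subgroup.closure {tt hF hi, uu hF hi} = ⊤ := by
  set S := Subgroup.closure {tt hF hi, uu hF hi} with hS
  have ht : tt hF hi ∈ S := Subgroup.subset_closure (by simp)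
  have hu : uu hF hi ∈ S := Subgroup.subset_closure (by simp)
  have ot : orderOf (tt hF hi) = 4 := by
    have := orderOf_eq_prime_pow (p := 2) (n := 1) (x := tt hF hi) (by rw [pow_one]; exact tt_sq hF hi) (tt_four hF hi)
    exact this
  have ou : orderOf (uu hF hi) = 3 := by
    haveI : Fact (Nat.Prime 3) := ⟨Nat.prime_three⟩
    refine orderOf_eq_prime (uu_three hF hi) ?_
    intro h
    have h1 : (uu hF hi).1.1 0 0 = (1 : SU 2 F 3).1.1 0 0 := by rw [h]
    have h2 : (uu hF hi).1.1 0 1 = (1 : SU 2 F 3).1.1 0 1 := by rw [h]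
    rw [uu_coe] at h1 h2
    have h3 : (1 : SU 2 F 3).1.1 0 0 = (1 : F) := rfl
    have h4 : (1 : SU 2 F 3).1.1 0 1 = (0 : F) := rfl
    rw [h3] at h1
    rw [h4] at h2
    simp at h1 h2
    rw [h1] at h2
    simp at h2
  have hc : Nat.card (SU 2 F 3) = 24 := card_su2 hF
  haveI : Finite (SU 2 F 3) := Nat.finite_of_card_ne_zero (by omega)
  have d4 : 4 ∣ Nat.card S := by
    have := orderOf_dvd_natCard (⟨tt hF hi, ht⟩ : S)
    rw [Subgroup.orderOf_mk, ot] at this
    exact this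
  have d3 : 3 ∣ Nat.card S := by
    have := orderOf_dvd_natCard (⟨uu hF hi, hu⟩ : S)
    rw [Subgroup.orderOf_mk, ou] at this
    exact this
  have d12 : 12 ∣ Nat.card S := Nat.Coprime.mul_dvd_of_dvd_of_dvd (m := 4) (n := 3) (by norm_num) d4 d3
  have hm := S.card_mul_index
  rw [hc] at hm
  obtain ⟨k, hk⟩ := d12
  have hidx : S.index = 1 ∨ S.index = 2 := by
    have h0 : 0 < Nat.card S := Nat.card_pos
    have hk0 : 0 < k := by
      rcases Nat.eq_zero_or_pos k with rfl | h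
      · omega
      · exact h
    have : S.index ≤ 2 := by
      by_contra hcon
      have : 12 * k * S.index ≥ 12 * 1 * 3 := Nat.mul_le_mul (Nat.mul_le_mul_left _ hk0) (by omega)
      rw [hk] at hm
      omega
    have h1 : S.index ≠ 0 := by
      intro h
      rw [h] at hm
      omega
    omega
  rcases hidx with h | h
  · exact Subgroup.index_eq_one.1 h
  · apply gen3 hF
    intro x hx
    have h2 := Subgroup.sq_mem_of_index_two h (x ^ 2)
    have e : x = (x ^ 2) ^ 2 := by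
      rw [← pow_mul]
      calc x = x * 1 := (mul_one x).symm
        _ = x * x ^ 3 := by rw [hx]
        _ = x ^ (2 * 2) := by rw [← pow_succ']
    rw [e]; exact h2

variable {G : Type*} [Group G] {κ : SU 3 F 3 →* G} {α : alternatingGroup (Fin (0 + 4)) →* G} (D : GD κ α)

omit hF [Fintype F] in
/-- `A_4` is generated by the two letters -/
theorem gen_a4 (A : Subgroup (alternatingGroup (Fin (0 + 4)))) (h1 : cc 1 ∈ A) (h2 : dd ∈ A) : A = ⊤ := by
  apply gen_alt 1
  intro j hj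
  have hp : pp ∈ A := by
    have : pp = cc 1 * dd * (cc 1)⁻¹ := by decide
    rw [this]
    exact A.mul_mem (A.mul_mem h1 h2) (A.inv_mem h1)
  rcases (show j = 0 ∨ j = 1 by omega) with rfl | rfl
  · exact ⟨cc 1, h1, rfl⟩
  · have e : ((pp * cc 1 * pp⁻¹)⁻¹).1 = sa 4 1 (by norm_num) * sa 4 2 (by norm_num) := by decide
    exact ⟨(pp * cc 1 * pp⁻¹)⁻¹, A.inv_mem (A.mul_mem (A.mul_mem hp h1) (A.inv_mem hp)), e⟩

include D

omit hF in
theorem kb1 (s : SU 2 F 3) : κ (blk (sh 1 (show 1 + 2 ≤ 3 by omega)) s) = LL κ α (cc 1) s :=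
  D.kap _ s (cc 1) (by
    intro a
    fin_cases a
    · exact cc0 1
    · exact cc1 1)

/-- generation of the whole group -/
theorem gen_all (hgen : κ.range ⊔ α.range = ⊤) :
    Subgroup.closure {xx hF hi κ α 4, xx hF hi κ α 15, xx hF hi κ α 5, xx hF hi κ α 6} = ⊤ := by
  set A := Subgroup.closure {xx hF hi κ α 4, xx hF hi κ α 15, xx hF hi κ α 5, xx hF hi κ α 6} with hA
  have m4 : xx hF hi κ α 4 ∈ A := Subgroup.subset_closure (by simp)
  have m15 : xx hF hi κ α 15 ∈ A := Subgroup.subset_closure (by simp)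
  have m5 : xx hF hi κ α 5 ∈ A := Subgroup.subset_closure (by simp)
  have m6 : xx hF hi κ α 6 ∈ A := Subgroup.subset_closure (by simp)
  have e4 : xx hF hi κ α 4 = κ (pm F 3 3 (cc 0)) := by rw [← yK4 hF hi]; rfl
  have e5 : xx hF hi κ α 5 = κ (b0 F 3 (tt hF hi)) := by rw [← yK5 hF hi]; rfl
  have e6 : xx hF hi κ α 6 = κ (b0 F 3 (uu hF hi)) := by rw [← yK6 hF hi]; rfl
  have hα : A.comap α = ⊤ := by
    apply gen_a4
    · show α (cc 1) ∈ A
      have := D.C
      rw [← e4] at this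
      rw [← this]; exact m4
    · exact m15
  have h0 : ∀ s, κ (b0 F 3 s) ∈ A := by
    have : A.comap (κ.comp (b0 F 3)) = ⊤ := by
      rw [eq_top_iff, ← gen_tu hF hi, Subgroup.closure_le]
      rintro x (rfl | rfl)
      · show κ (b0 F 3 _) ∈ A
        rw [← e5]; exact m5
      · show κ (b0 F 3 _) ∈ A
        rw [← e6]; exact m6
    intro s
    have hs : s ∈ A.comap (κ.comp (b0 F 3)) := by rw [this]; trivial
    exact hs
  have ha : ∀ π, α π ∈ A := by
    intro π
    have hs : π ∈ A.comap α := by rw [hα]; trivial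
    exact hs
  have hκ : A.comap κ = ⊤ := by
    apply gen_blocks hF (by norm_num) 1
    intro j hj s
    rcases (show j = 0 ∨ j = 1 by omega) with rfl | rfl
    · exact h0 s
    · show κ _ ∈ A
      rw [kb1 D, LL]
      exact A.mul_mem (A.mul_mem (ha _) (h0 s)) (A.inv_mem (ha _))
  rw [eq_top_iff, ← hgen, sup_le_iff]
  constructor
  · rintro _ ⟨x, rfl⟩
    have hs : x ∈ A.comap κ := by rw [hκ]; trivial
    exact hs
  · rintro _ ⟨π, rfl⟩
    exact ha π

/-- the torus element normalizes the block -/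
theorem norm13 : xx hF hi κ α 13 ∈ Subgroup.normalizer (κ.range : Set G) := by
  have e13 : xx hF hi κ α 13 = LL κ α pp (tt hF hi)⁻¹ := by rw [LL, ← yP13 hF hi]; rfl
  have hsub : ∀ x, xx hF hi κ α 13 * κ x * (xx hF hi κ α 13)⁻¹ ∈ κ.range := by
    have : κ.range.comap ((MulAut.conj (xx hF hi κ α 13)).toMonoidHom.comp κ) = ⊤ := by
      apply gen_blocks hF (by norm_num) 1
      intro j hj s
      rcases (show j = 0 ∨ j = 1 by omega) with rfl | rfl
      · show xx hF hi κ α 13 * κ (b0 F 3 s) * (xx hF hi κ α 13)⁻¹ ∈ κ.range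
        have hc := D.comm 1 pp (by decide) s (tt hF hi)⁻¹
        rw [LL_one] at hc
        rw [e13, ← hc, mul_inv_cancel_right]
        exact ⟨_, rfl⟩
      · show xx hF hi κ α 13 * κ _ * (xx hF hi κ α 13)⁻¹ ∈ κ.range
        have hT : (tt hF hi)⁻¹ ∈ Tor F 3 := by
          rw [mem_Tor, tt_inv_coe]; simp
        obtain ⟨s', hs'⟩ := tor_norm0 hF hT (blk (Equiv.swap (0 : Fin 2) 1).toEmbedding s)
        have h1 : ∀ s, κ (b1 F 3 s) = LL κ α (cc 1) s := kb1 D
        have h2 : ∀ s, κ (b1 F 3 s) = α pp * κ (b1 F 3 (blk (Equiv.swap (0 : Fin 2) 1).toEmbedding s)) * (α pp)⁻¹ := by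
          intro s
          rw [h1, h1, pc D, blk_comp]
          congr 1
          exact (congrArg (fun f => blk f s) (by ext a; fin_cases a <;> rfl : (Equiv.swap (0 : Fin 2) 1).toEmbedding.trans (Equiv.swap (0 : Fin 2) 1).toEmbedding = (1 : Equiv.Perm (Fin 2)).toEmbedding)).trans (blk_one_perm s) |>.symm
        refine ⟨b1 F 3 (blk (Equiv.swap (0 : Fin 2) 1).toEmbedding s'), ?_⟩
        have h3 : κ (b1 F 3 (blk (Equiv.swap (0 : Fin 2) 1).toEmbedding s')) = α pp * κ (b1 F 3 s') * (α pp)⁻¹ := by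
          rw [h1, h1, pc D]
        rw [h3, ← hs', e13, LL]
        change _ = _ * κ (b1 F 3 s) * _
        rw [h2 s]
        generalize b0 F 3 (tt hF hi)⁻¹ = T
        rw [map_mul, map_mul, map_inv]
        group
    intro x
    have hs : x ∈ κ.range.comap ((MulAut.conj (xx hF hi κ α 13)).toMonoidHom.comp κ) := by rw [this]; trivial
    exact hs
  haveI : Finite (SU 3 F 3) := Nat.finite_of_card_ne_zero (by rw [card_su3 hF]; norm_num)
  haveI : Finite κ.range := Finite.of_surjective _ κ.rangeRestrict_surjective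
  rw [Subgroup.mem_normalizer_iff]
  have h1 : ∀ h ∈ κ.range, xx hF hi κ α 13 * h * (xx hF hi κ α 13)⁻¹ ∈ κ.range := by
    rintro _ ⟨x, rfl⟩; exact hsub x
  intro h
  refine ⟨h1 h, ?_⟩
  intro hh
  have h4 : (xx hF hi κ α 13) ^ 4 = 1 := by
    rw [e13]
    have h := (map_pow ((MulAut.conj (α pp)).toMonoidHom.comp (κ.comp (b0 F 3))) (tt hF hi)⁻¹ 4).symm
    rw [inv_pow, tt_four, inv_one, map_one] at h
    exact h
  have e := h1 _ (h1 _ (h1 _ hh))
  generalize xx hF hi κ α 13 = y at h4 e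
  have e5 : y * (y * (y * (y * h * y⁻¹) * y⁻¹) * y⁻¹) * y⁻¹ = y ^ 4 * h * (y ^ 4)⁻¹ := by
    simp only [pow_succ, pow_zero, one_mul]; group
  rw [e5, h4] at e
  simpa using e

/-- the order of the fourth power -/
theorem four13 : (xx hF hi κ α 13) ^ 4 = 1 := by
  have e13 : xx hF hi κ α 13 = LL κ α pp (tt hF hi)⁻¹ := by rw [LL, ← yP13 hF hi]; rfl
  rw [e13]
  have h := (map_pow ((MulAut.conj (α pp)).toMonoidHom.comp (κ.comp (b0 F 3))) (tt hF hi)⁻¹ 4).symm
  rw [inv_pow, tt_four, inv_one, map_one] at h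
  exact h

/-- **the order bound** -/
theorem bound (hr1 : (κ (pm F 3 3 (cc 0))⁻¹ * α dd * κ (yK hF hi 1)) ^ 4 = 1)
    (hr4 : (α dd * κ (b0 F 3 (tt hF hi)) * κ (pm F 3 3 (cc 0)) * κ (yK hF hi 1)) ^ 4 = 1)
    (hgen : κ.range ⊔ α.range = ⊤) : Finite G ∧ Nat.card G ≤ Nat.card (SU (0 + 4) F 3) := by
  have H := facts hF hi D hr1 hr4
  have hK3 := card_su3 hF
  haveI : Finite (SU 3 F 3) := Nat.finite_of_card_ne_zero (by rw [hK3]; norm_num)
  haveI : Finite κ.range := Finite.of_surjective _ κ.rangeRestrict_surjective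
  obtain ⟨hfin, hcard⟩ := card_sup_le κ.range (xx hF hi κ α 13) (norm13 hF hi D) 4 (by norm_num) (four13 hF hi D) inferInstance 6048
    (by rw [← hK3]; exact Nat.card_le_card_of_surjective _ κ.rangeRestrict_surjective)
  set Hs := κ.range ⊔ Subgroup.zpowers (xx hF hi κ α 13) with hHs
  have h3 : xx hF hi κ α 3 * xx hF hi κ α 3 = 1 := by
    have h : yK hF hi 3 * yK hF hi 3 = 1 := by
      have := relK hF hi [6, 6] (by decide) (by decide +kernel)
      rw [wval_cons, wval_cons, wval_nil, mul_one] at this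
      exact this
    show κ (yK hF hi 3) * κ (yK hF hi 3) = 1
    rw [← map_mul, h, map_one]
  have hiv : ∀ c, Nat.testBit 231432 c = true → (xx hF hi κ α c)⁻¹ = xx hF hi κ α c := fun c hc => xx_inv hF hi c hc H h3
  have hx0 : xx hF hi κ α 0 = 1 := by
    show κ (yK hF hi 0) = 1
    rw [yK0, map_one]
  have hstab : ∀ c ∈ [1, 2, 3, 4, 5, 6, 7, 8, 13], xx hF hi κ α c • ((1 : G) : G ⧸ Hs) = ((1 : G) : G ⧸ Hs) := by
    intro c hc
    have hm : xx hF hi κ α c ∈ Hs := by
      simp only [List.mem_cons, List.not_mem_nil, or_false] at hc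
      rcases hc with rfl | rfl | rfl | rfl | rfl | rfl | rfl | rfl | rfl
      · exact Subgroup.mem_sup_left ⟨_, rfl⟩
      · exact Subgroup.mem_sup_left ⟨_, rfl⟩
      · exact Subgroup.mem_sup_left ⟨_, rfl⟩
      · exact Subgroup.mem_sup_left ⟨_, rfl⟩
      · exact Subgroup.mem_sup_left ⟨_, rfl⟩
      · exact Subgroup.mem_sup_left ⟨_, rfl⟩
      · exact Subgroup.mem_sup_left ⟨_, rfl⟩
      · exact Subgroup.mem_sup_left ⟨_, rfl⟩
      · exact Subgroup.mem_sup_right (Subgroup.mem_zpowers _)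
    show ((xx hF hi κ α c * 1 : G) : G ⧸ Hs) = _
    rw [mul_one, QuotientGroup.eq]
    simpa using Hs.inv_mem hm
  have hgood := sound (X := G ⧸ Hs) (x := xx hF hi κ α) (p := ((1 : G) : G ⧸ Hs)) hx0 hiv (rels_ok hF hi D H) hstab PresUH.ok
  have hX : Finite (G ⧸ Hs) ∧ Nat.card (G ⧸ Hs) ≤ 540 := by
    apply card_le_of_closed (f := pts PresUH.T (xx hF hi κ α) ((1 : G) : G ⧸ Hs)) (by norm_num) _ (gen_all hF hi D hgen)
    rintro a (rfl | rfl | rfl | rfl)
    · exact chkC_sound hiv hgood 540 PresUH.cl4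
    · exact chkC_sound hiv hgood 540 PresUH.cl15
    · exact chkC_sound hiv hgood 540 PresUH.cl5
    · exact chkC_sound hiv hgood 540 PresUH.cl6
  obtain ⟨hX1, hX2⟩ := hX
  have hG : Nat.card G = Nat.card (G ⧸ Hs) * Nat.card Hs := Subgroup.card_eq_card_quotient_mul_card_subgroup _
  have hpos : 0 < Nat.card G := by rw [hG]; exact Nat.mul_pos Nat.card_pos Nat.card_pos
  refine ⟨Nat.finite_of_card_ne_zero hpos.ne', ?_⟩
  have h4 : Nat.card (SU (0 + 4) F 3) = 13063680 := card_su4 hF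
  rw [h4, hG]
  calc _ ≤ 540 * (6048 * 4) := Nat.mul_le_mul hX2 hcard
    _ = _ := by norm_num

end q3

end D3

end Cfsg.Agent.Lib.PresU
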