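import Cfsg.Agent.Lib.PresUL

/-! The extra relators hold in `SU_4(3)` (helper38). -/

set_option autoImplicit false
set_option linter.unusedSectionVars false
set_option linter.unusedSimpArgs false
set_option maxRecDepth 100000
set_option linter.style.haveILetI false

namespace Cfsg.Agent.Lib.PresU

open Module Matrix Cfsg Cfsg.Agent.Lib.Phan Cfsg.Agent.Lib.UnTrans Cfsg.Agent.Lib.UnBridge Cfsg.Agent.Lib.ClUnSimple
open Cfsg.Agent.Lib.PresHas Cfsg.Agent.Lib.PresU.Code Cfsg.Agent.Lib.H10Enum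

namespace Code

theorem dg_lt (A p : ℕ) : dg A p < 32 := Nat.mod_lt _ (by norm_num)

/-- the code of the extended matrix -/
def extC (A : ℕ) : ℕ := pack (fun s => bif (Nat.blt (Nat.div s 4) 3 && Nat.blt (Nat.mod s 4) 3) then
  dg A (Nat.add (Nat.mul 3 (Nat.div s 4)) (Nat.mod s 4)) else (bif Nat.beq s 15 then 1 else 0)) 16

theorem dg_extC (A s : ℕ) (hs : s < 16) : dg (extC A) s = bif (Nat.blt (Nat.div s 4) 3 && Nat.blt (Nat.mod s 4) 3) then
  dg A (Nat.add (Nat.mul 3 (Nat.div s 4)) (Nat.mod s 4)) else (bif Nat.beq s 15 then 1 else 0) := by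
  rw [extC, dg_pack]
  · intro s
    cases (Nat.blt (Nat.div s 4) 3 && Nat.blt (Nat.mod s 4) 3)
    · rw [cond_false]; cases Nat.beq s 15 <;> norm_num
    · rw [cond_true]; exact dg_lt _ _
  · exact hs

theorem evalM_ext {F : Type*} [Field F] (p : ℕ) (hp : 2 ≤ p) (ι : F) (A : ℕ) : evalM p ι 4 (extC A) = blkM (sh 0 (show 0 + 3 ≤ 4 by omega)) (evalM p ι 3 A) := by
  have h3 : (3 : Fin 4) ∉ Set.range (sh 0 (show 0 + 3 ≤ 4 by omega)) := not_range_sh (Or.inr (by decide))
  have v0 : vd p ι 0 = 0 := by simp [vd]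
  have v1 : vd p ι 1 = 1 := by rw [vd, Nat.mod_eq_of_lt (by omega), Nat.div_eq_of_lt (by omega)]; simp
  ext a b
  fin_cases a <;> fin_cases b
  · show vd p ι (dg (extC A) 0) = _
    rw [dg_extC _ _ (by norm_num)]; exact (blkM_ii _ (evalM p ι 3 A) 0 0).symm
  · show vd p ι (dg (extC A) 1) = _
    rw [dg_extC _ _ (by norm_num)]; exact (blkM_ii _ (evalM p ι 3 A) 0 1).symm
  · show vd p ι (dg (extC A) 2) = _
    rw [dg_extC _ _ (by norm_num)]; exact (blkM_ii _ (evalM p ι 3 A) 0 2).symm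
  · show vd p ι (dg (extC A) 3) = _
    rw [dg_extC _ _ (by norm_num)]; exact v0.trans (blkM_io _ _ h3 0).symm
  · show vd p ι (dg (extC A) 4) = _
    rw [dg_extC _ _ (by norm_num)]; exact (blkM_ii _ (evalM p ι 3 A) 1 0).symm
  · show vd p ι (dg (extC A) 5) = _
    rw [dg_extC _ _ (by norm_num)]; exact (blkM_ii _ (evalM p ι 3 A) 1 1).symm
  · show vd p ι (dg (extC A) 6) = _
    rw [dg_extC _ _ (by norm_num)]; exact (blkM_ii _ (evalM p ι 3 A) 1 2).symm
  · show vd p ι (dg (extC A) 7) = _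
    rw [dg_extC _ _ (by norm_num)]; exact v0.trans (blkM_io _ _ h3 1).symm
  · show vd p ι (dg (extC A) 8) = _
    rw [dg_extC _ _ (by norm_num)]; exact (blkM_ii _ (evalM p ι 3 A) 2 0).symm
  · show vd p ι (dg (extC A) 9) = _
    rw [dg_extC _ _ (by norm_num)]; exact (blkM_ii _ (evalM p ι 3 A) 2 1).symm
  · show vd p ι (dg (extC A) 10) = _
    rw [dg_extC _ _ (by norm_num)]; exact (blkM_ii _ (evalM p ι 3 A) 2 2).symm
  · show vd p ι (dg (extC A) 11) = _
    rw [dg_extC _ _ (by norm_num)]; exact v0.trans (blkM_io _ _ h3 2).symm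
  · show vd p ι (dg (extC A) 12) = _
    rw [dg_extC _ _ (by norm_num)]; exact v0.trans (blkM_oi _ _ h3 0).symm
  · show vd p ι (dg (extC A) 13) = _
    rw [dg_extC _ _ (by norm_num)]; exact v0.trans (blkM_oi _ _ h3 1).symm
  · show vd p ι (dg (extC A) 14) = _
    rw [dg_extC _ _ (by norm_num)]; exact v0.trans (blkM_oi _ _ h3 2).symm
  · show vd p ι (dg (extC A) 15) = _
    rw [dg_extC _ _ (by norm_num)]; exact v1.trans (blkM_oi _ _ h3 3).symm

/-- the code of a permutation matrix -/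
def pmC (π : Equiv.Perm (Fin 4)) : ℕ := pack (fun s => if h : s < 16 then (if (⟨s / 4, by omega⟩ : Fin 4) = π ⟨s % 4, by omega⟩ then 1 else 0) else 0) 16

theorem evalM_pm {F : Type*} [Field F] {q : ℕ} (p : ℕ) (hp : 2 ≤ p) (ι : F) (π : alternatingGroup (Fin 4)) : evalM p ι 4 (pmC π) = (pm F q 4 π).1.1 := by
  have v0 : vd p ι 0 = 0 := by simp [vd]
  have v1 : vd p ι 1 = 1 := by rw [vd, Nat.mod_eq_of_lt (by omega), Nat.div_eq_of_lt (by omega)]; simp
  ext a b
  rw [pm_coe, emb_apply]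
  show vd p ι (dg (pmC π) (4 * a.1 + b.1)) = _
  have hlt : 4 * a.1 + b.1 < 16 := by omega
  rw [pmC, dg_pack _ hlt]
  · rw [dif_pos hlt]
    have e1 : (⟨(4 * a.1 + b.1) / 4, by omega⟩ : Fin 4) = a := Fin.ext (by show (4 * a.1 + b.1) / 4 = a.1; omega)
    have e2 : (⟨(4 * a.1 + b.1) % 4, by omega⟩ : Fin 4) = b := Fin.ext (by show (4 * a.1 + b.1) % 4 = b.1; omega)
    rw [e1, e2]
    by_cases h : a = (π : Equiv.Perm (Fin 4)) b
    · rw [if_pos h, v1]; exact (if_pos h).symm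
    · rw [if_neg h, v0]; exact (if_neg h).symm
  · intro s
    split_ifs <;> norm_num

end Code

namespace D3

/-- codes of the letters in `SU_4` -/
def zT : List ℕ := [0, 0, 0, 0, 0, 0, 0, 0, extC 34359772160, extC 1107296288, extC 1099517919235, extC 1099514773510, extC 1099519131780, extC 1099516051719, pmC dd, pmC dd]

def gz (a : ℕ) : Bool := Nat.ble 8 a && Nat.ble a 15

/-- the word of the order three element -/
def wx : List ℕ := [8, 13, 9, 10, 12, 9]

theorem chk1 : Nat.beq (evW 3 2 0 4 zT ([9, 14] ++ wx ++ [9, 14] ++ wx ++ [9, 14] ++ wx ++ [9, 14] ++ wx)) (idC 4) = true := by decide +kernel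
theorem chk4 : Nat.beq (evW 3 2 0 4 zT ([14, 10, 8] ++ wx ++ [14, 10, 8] ++ wx ++ [14, 10, 8] ++ wx ++ [14, 10, 8] ++ wx)) (idC 4) = true := by decide +kernel

section q3
variable {F : Type*} [Field F] [Fintype F] (hF : Fintype.card F = 3 ^ 2) {i : F} (hi : i * i = -1)
include hF

/-- the letters in `SU_4` -/
noncomputable def zz (k : ℕ) : SU 4 F 3 := if k = 7 then pm F 3 4 dd else blk (sh 0 (show 0 + 3 ≤ 4 by omega)) (yb hF hi k)

theorem zz_ok (a : ℕ) (ha : gz a = true) : (val (zz hF hi) a).1.1 = evalM 3 i 4 (nth zT a) := by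
  rw [gz, Bool.and_eq_true, Nat.ble_eq, Nat.ble_eq] at ha
  obtain ⟨h1, h2⟩ := ha
  rcases Nat.lt_or_ge a 14 with h | h
  · have hb : gb a = true := by
      rw [gb, Bool.and_eq_true, Nat.ble_eq, Nat.ble_eq]; omega
    have e1 : val (zz hF hi) a = blk (sh 0 (show 0 + 3 ≤ 4 by omega)) (val (yb hF hi) a) := by
      have e : zz hF hi (a / 2) = blk (sh 0 (show 0 + 3 ≤ 4 by omega)) (yb hF hi (a / 2)) := by
        unfold zz; rw [if_neg (by omega)]
      unfold val
      split_ifs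
      · exact e
      · rw [e, map_inv]
    have e2 : nth zT a = extC (nth cbL a) := by interval_cases a <;> rfl
    rw [e1, blk_coe, yb_ok hF hi a hb, e2, evalM_ext 3 (by norm_num)]
  · rcases (show a = 14 ∨ a = 15 by omega) with rfl | rfl
    · show (pm F 3 4 dd).1.1 = evalM 3 i 4 (pmC dd)
      exact (evalM_pm 3 (by norm_num) i dd).symm
    · show (pm F 3 4 dd)⁻¹.1.1 = evalM 3 i 4 (pmC dd)
      rw [← map_inv, show dd⁻¹ = dd by decide]
      exact (evalM_pm 3 (by norm_num) i dd).symm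

theorem wx_ok : wval (zz hF hi) wx = blk (sh 0 (show 0 + 3 ≤ 4 by omega)) (yK hF hi 1) := by
  apply wval_hom _ (good := gb) _ wx (by decide)
  intro a ha
  rw [gb, Bool.and_eq_true, Nat.ble_eq, Nat.ble_eq] at ha
  have e : zz hF hi (a / 2) = blk (sh 0 (show 0 + 3 ≤ 4 by omega)) (yb hF hi (a / 2)) := by
    unfold zz; rw [if_neg (by omega)]
  unfold val
  split_ifs
  · exact e
  · rw [e, map_inv]

theorem r1_su4 : (blk (sh 0 (show 0 + 3 ≤ 4 by omega)) (pm F 3 3 (cc 0))⁻¹ * pm F 3 4 dd * blk (sh 0 (show 0 + 3 ≤ 4 by omega)) (yK hF hi 1)) ^ 4 = 1 := by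
  haveI := char3 hF
  haveI : Fact (Nat.Prime 3) := ⟨Nat.prime_three⟩
  have h := eq_one_of_code (hiota hF hi) (by norm_num) (by norm_num) (zz_ok hF hi) _ (by decide) chk1
  simp only [wval_append, wx_ok] at h
  have e : wval (zz hF hi) [9, 14] = blk (sh 0 (show 0 + 3 ≤ 4 by omega)) (pm F 3 3 (cc 0))⁻¹ * pm F 3 4 dd := by
    rw [map_inv, wval_cons, wval_cons, wval_nil, mul_one]; rfl
  rw [e] at h
  refine Eq.trans ?_ h
  simp only [pow_succ, pow_zero, one_mul, mul_assoc]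

theorem r4_su4 : (pm F 3 4 dd * blk (sh 0 (show 0 + 3 ≤ 4 by omega)) (b0 F 3 (tt hF hi)) * blk (sh 0 (show 0 + 3 ≤ 4 by omega)) (pm F 3 3 (cc 0)) *
    blk (sh 0 (show 0 + 3 ≤ 4 by omega)) (yK hF hi 1)) ^ 4 = 1 := by
  haveI := char3 hF
  haveI : Fact (Nat.Prime 3) := ⟨Nat.prime_three⟩
  have h := eq_one_of_code (hiota hF hi) (by norm_num) (by norm_num) (zz_ok hF hi) _ (by decide) chk4
  simp only [wval_append, wx_ok] at h
  have e : wval (zz hF hi) [14, 10, 8] = pm F 3 4 dd * blk (sh 0 (show 0 + 3 ≤ 4 by omega)) (b0 F 3 (tt hF hi)) * blk (sh 0 (show 0 + 3 ≤ 4 by omega)) (pm F 3 3 (cc 0)) := by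
    rw [wval_cons, wval_cons, wval_cons, wval_nil, mul_one, ← mul_assoc]; rfl
  rw [e] at h
  refine Eq.trans ?_ h
  simp only [pow_succ, pow_zero, one_mul, mul_assoc]

/-- the two extra relators -/
noncomputable def E3 : List (Monoid.Coprod (SU 3 F 3) (alternatingGroup (Fin (0 + 4)))) :=
  [(Monoid.Coprod.inl (pm F 3 3 (cc 0))⁻¹ * Monoid.Coprod.inr dd * Monoid.Coprod.inl (yK hF hi 1)) ^ 4,
    (Monoid.Coprod.inr dd * Monoid.Coprod.inl (b0 F 3 (tt hF hi)) * Monoid.Coprod.inl (pm F 3 3 (cc 0)) * Monoid.Coprod.inl (yK hF hi 1)) ^ 4]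

theorem E3_iff {G : Type*} [Group G] (κ : SU 3 F 3 →* G) (α : alternatingGroup (Fin (0 + 4)) →* G) :
    (∀ w ∈ E3 hF hi, Monoid.Coprod.lift κ α w = 1) ↔ (κ (pm F 3 3 (cc 0))⁻¹ * α dd * κ (yK hF hi 1)) ^ 4 = 1 ∧
    (α dd * κ (b0 F 3 (tt hF hi)) * κ (pm F 3 3 (cc 0)) * κ (yK hF hi 1)) ^ 4 = 1 := by
  rw [E3]
  simp only [List.mem_cons, List.not_mem_nil, or_false, forall_eq_or_imp, forall_eq, map_mul, map_pow, Monoid.Coprod.lift_apply_inl,
    Monoid.Coprod.lift_apply_inr]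

end q3

end D3

/-! ### the glue theorem with extra relators -/

section glueE
universe u
variable {F : Type u} [Field F] [Fintype F] {q : ℕ} (hF : Fintype.card F = q ^ 2)

include hF in
/-- generation by the block and permutation matrices -/
theorem su_gen (h3 : 3 ≤ q) (N : ℕ) : (blk (sh 0 (show 0 + 3 ≤ N + 4 by omega)) : SU 3 F q →* SU (N + 4) F q).range ⊔ (pm F q (N + 4)).range = ⊤ := by
  apply gen_blocks (k := N + 2) hF h3
  intro i hi s
  have key : ∀ π : alternatingGroup (Fin (N + 4)), (∀ a : Fin 2, π.1 (sh 0 (show 0 + 2 ≤ N + 4 by omega) a) = sh i hi a) →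
      blk (sh i hi) s ∈ (blk (sh 0 (show 0 + 3 ≤ N + 4 by omega)) : SU 3 F q →* SU (N + 4) F q).range ⊔ (pm F q (N + 4)).range := by
    intro π h
    have e1 : blk (sh i hi) s = pm F q (N + 4) π * blk (sh 0 (show 0 + 3 ≤ N + 4 by omega)) (b0 F q s) * (pm F q (N + 4) π)⁻¹ := by
      rw [b0, blk_sh, pm_conj]
      congr 2
      ext a
      exact (congrArg Fin.val (h a)).symm
    rw [e1]
    exact Subgroup.mul_mem _ (Subgroup.mul_mem _ (Subgroup.mem_sup_right ⟨_, rfl⟩) (Subgroup.mem_sup_left ⟨_, rfl⟩))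
      (Subgroup.inv_mem _ (Subgroup.mem_sup_right ⟨_, rfl⟩))
  obtain ⟨π, h | h⟩ := exists_even (show 0 + 2 ≤ N + 4 by omega) (sh i hi) (Equiv.swap ⟨2, by omega⟩ ⟨3, by omega⟩) (Equiv.Perm.sign_swap (fin_ne _ _ (by norm_num)))
  · exact key π h
  · refine key π fun a => ?_
    rw [← h a]
    congr 1
    fin_cases a
    · exact (sw_ne (a := 2) (b := 3) (c := 0) _ _ _ (by norm_num) (by norm_num)).symm
    · exact (sw_ne (a := 2) (b := 3) (c := 1) _ _ _ (by norm_num) (by norm_num)).symm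

theorem pm_xt (N : ℕ) (π : alternatingGroup (Fin (0 + 4))) : pm F q (N + 4) (xt N π) = blk (sh 0 (show 0 + 4 ≤ N + 4 by omega)) (pm F q (0 + 4) π) := by
  apply Subtype.ext; apply Subtype.ext
  apply Matrix.ext_of_mulVec_single
  intro a
  rw [pm_single, blk_coe]
  by_cases ha : a ∈ Set.range (sh 0 (show 0 + 4 ≤ N + 4 by omega) : Fin (0 + 4) ↪ Fin (N + 4))
  · obtain ⟨b, rfl⟩ := ha
    rw [← ext_single, blkM_ext, pm_single, ext_single]
    congr 1
    exact xt_sh π b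
  · rw [blkM_fix]
    · have h1 := range_sh ha
      rw [xt_ge _ a (by omega)]
    · intro b
      rw [Pi.single_eq_of_ne]
      intro h
      exact ha ⟨b, h⟩

/-- transported relators -/
noncomputable def trE (N : ℕ) (E : List (Monoid.Coprod (SU 3 F q) (alternatingGroup (Fin (0 + 4))))) :
    List (Monoid.Coprod (SU 3 F q) (alternatingGroup (Fin (N + 4)))) := E.map (Monoid.Coprod.map (MonoidHom.id _) (xt N))

theorem trE_iff {N : ℕ} {G : Type*} [Group G] (κ : SU 3 F q →* G) (α : alternatingGroup (Fin (N + 4)) →* G)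
    (E : List (Monoid.Coprod (SU 3 F q) (alternatingGroup (Fin (0 + 4))))) :
    (∀ w ∈ trE N E, Monoid.Coprod.lift κ α w = 1) ↔ ∀ w ∈ E, Monoid.Coprod.lift κ (α.comp (xt N)) w = 1 := by
  have h1 : (Monoid.Coprod.lift κ α).comp (Monoid.Coprod.map (MonoidHom.id _) (xt N)) = Monoid.Coprod.lift κ (α.comp (xt N)) := by
    apply Monoid.Coprod.hom_ext
    · ext x; simp
    · ext x; simp
  rw [trE]
  simp only [List.mem_map, forall_exists_index, and_imp, forall_apply_eq_imp_iff₂]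
  constructor
  · intro h w hw; rw [← h1]; exact h w hw
  · intro h w hw; have := h w hw; rw [← h1] at this; exact this

include hF in
/-- **presentations of `SU_n(q)`, `q ≥ 3`** from extra relators which define `SU_4` -/
theorem hasPres_glueE (h3 : 3 ≤ q) {N k r kA rA : ℕ} (hK : HasPres (SU 3 F q) k r)
    (hA : HasPres (alternatingGroup (Fin (N + 4))) kA rA) (a : Fin 2 → SU 2 F q) (ha : Subgroup.closure (Set.range a) = ⊤)
    (E : List (Monoid.Coprod (SU 3 F q) (alternatingGroup (Fin (0 + 4)))))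
    (hE : ∀ w ∈ E, Monoid.Coprod.lift (blk (sh 0 (show 0 + 3 ≤ 0 + 4 by omega))) (pm F q (0 + 4)) w = 1)
    (hb : ∀ (Γ : Type u) [Group Γ] (κ : SU 3 F q →* Γ) (α : alternatingGroup (Fin (0 + 4)) →* Γ), GD κ α →
      (∀ w ∈ E, Monoid.Coprod.lift κ α w = 1) → κ.range ⊔ α.range = ⊤ → Finite Γ ∧ Nat.card Γ ≤ Nat.card (SU (0 + 4) F q)) :
    HasPres (SU (N + 4) F q) (k + kA) (r + rA + (8 + E.length)) := by
  obtain ⟨σ, hσ⟩ := (sn (N + 2)).gens
  have h1 := (hK.coprod hA).quot (relU N σ a ++ trE N E)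
  have hlen : (relU N σ a ++ trE N E).length = 8 + E.length := by
    rw [List.length_append, trE, List.length_map]; rfl
  rw [hlen] at h1
  refine h1.congr ?_
  set K := Subgroup.normalClosure {x | x ∈ relU N σ a ++ trE N E} with hKd
  have hsu : ∀ w ∈ trE N E, Monoid.Coprod.lift (blk (sh 0 (show 0 + 3 ≤ N + 4 by omega))) (pm F q (N + 4)) w = 1 := by
    rw [trE_iff]
    intro w hw
    have e : Monoid.Coprod.lift (blk (sh 0 (show 0 + 3 ≤ N + 4 by omega))) ((pm F q (N + 4)).comp (xt N)) =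
        (blk (sh 0 (show 0 + 4 ≤ N + 4 by omega))).comp (Monoid.Coprod.lift (blk (sh 0 (show 0 + 3 ≤ 0 + 4 by omega))) (pm F q (0 + 4))) := by
      apply Monoid.Coprod.hom_ext
      · ext1 x
        rw [MonoidHom.comp_apply, MonoidHom.comp_apply, MonoidHom.comp_apply, Monoid.Coprod.lift_apply_inl, Monoid.Coprod.lift_apply_inl, blk_sh]
      · ext1 x
        rw [MonoidHom.comp_apply, MonoidHom.comp_apply, MonoidHom.comp_apply, Monoid.Coprod.lift_apply_inr, Monoid.Coprod.lift_apply_inr]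
        exact pm_xt N x
    rw [e, MonoidHom.comp_apply, hE w hw, map_one]
  let f : (Monoid.Coprod (SU 3 F q) (alternatingGroup (Fin (N + 4))) ⧸ K) →* SU (N + 4) F q :=
    QuotientGroup.lift K (Monoid.Coprod.lift (blk (sh 0 (show 0 + 3 ≤ N + 4 by omega))) (pm F q (N + 4))) (by
      apply Subgroup.normalClosure_le_normal
      intro w hw
      rcases List.mem_append.1 hw with hw | hw
      · exact relU_su σ a w hw
      · exact hsu w hw)
  let κ : SU 3 F q →* (Monoid.Coprod (SU 3 F q) (alternatingGroup (Fin (N + 4))) ⧸ K) := (QuotientGroup.mk' K).comp Monoid.Coprod.inl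
  let α : alternatingGroup (Fin (N + 4)) →* (Monoid.Coprod (SU 3 F q) (alternatingGroup (Fin (N + 4))) ⧸ K) := (QuotientGroup.mk' K).comp Monoid.Coprod.inr
  have hlift : Monoid.Coprod.lift κ α = QuotientGroup.mk' K := by
    apply Monoid.Coprod.hom_ext
    · rw [Monoid.Coprod.lift_comp_inl]
    · rw [Monoid.Coprod.lift_comp_inr]
  have D : GD κ α := by
    apply relU_gd σ hσ a ha
    intro w hw
    rw [hlift]
    exact (QuotientGroup.eq_one_iff w).2 (Subgroup.subset_normalClosure (List.mem_append_left _ hw))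
  have hEG : ∀ w ∈ E, Monoid.Coprod.lift κ (α.comp (xt N)) w = 1 := by
    rw [← trE_iff]
    intro w hw
    rw [hlift]
    exact (QuotientGroup.eq_one_iff w).2 (Subgroup.subset_normalClosure (List.mem_append_right _ hw))
  have hgen : κ.range ⊔ α.range = ⊤ := by
    rw [MonoidHom.range_comp, MonoidHom.range_comp, ← Subgroup.map_sup, Monoid.Coprod.range_inl_sup_range_inr, ← MonoidHom.range_eq_map,
      MonoidHom.range_eq_top]
    exact QuotientGroup.mk'_surjective K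
  have hbase : ∃ Φ : SU (2 + 2) F q →* (Monoid.Coprod (SU 3 F q) (alternatingGroup (Fin (N + 4))) ⧸ K), Lab κ α (2 + 2) (by omega) Φ := by
    obtain ⟨Φ, hΦ1, hΦ2⟩ := lift4.{u, u} E hE (su_gen hF h3 0) hb κ (α.comp (xt N)) D.restr hEG
    exact ⟨Φ, D.lab4 Φ hΦ1 hΦ2⟩
  have hbij := D.main hF h3 2 (by norm_num) (fun h => absurd h (by norm_num)) (by omega) hbase f (by
    intro x
    show Monoid.Coprod.lift (blk (sh 0 (show 0 + 3 ≤ N + 4 by omega))) (pm F q (N + 4)) (Monoid.Coprod.inl x) = _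
    rw [Monoid.Coprod.lift_apply_inl]) (by
    intro π
    show Monoid.Coprod.lift (blk (sh 0 (show 0 + 3 ≤ N + 4 by omega))) (pm F q (N + 4)) (Monoid.Coprod.inr π) = _
    rw [Monoid.Coprod.lift_apply_inr]) hgen
  exact MulEquiv.ofBijective f hbij

/-- presentations of `SU_n(3)` -/
theorem hasPres3 {F : Type u} [Field F] [Fintype F] (hF : Fintype.card F = 3 ^ 2) {N k r kA rA : ℕ} (hK : HasPres (SU 3 F 3) k r)
    (hA : HasPres (alternatingGroup (Fin (N + 4))) kA rA) : HasPres (SU (N + 4) F 3) (k + kA) (r + rA + 10) := by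
  obtain ⟨i, hi⟩ := exists_i hF
  refine hasPres_glueE hF (by norm_num) hK hA ![D3.tt hF hi, D3.uu hF hi] ?_ (D3.E3 hF hi) ?_ ?_
  · rw [range_pair]; exact D3.gen_tu hF hi
  · rw [D3.E3_iff]
    exact ⟨D3.r1_su4 hF hi, D3.r4_su4 hF hi⟩
  · intro Γ _ κ α D hE hgen
    rw [D3.E3_iff] at hE
    exact D3.bound hF hi D hE.1 hE.2 hgen

end glueE

end Cfsg.Agent.Lib.PresU
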