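import Cfsg.Agent.Lib.PresUN
import Cfsg.Agent.Lib.PhanZa

/-! Gluing `SU_3(2)` and the symmetric group (helper38). -/

set_option autoImplicit false
set_option linter.unusedSectionVars false
set_option linter.unusedSimpArgs false
set_option linter.style.haveILetI false

namespace Cfsg.Agent.Lib.PresU.T2

open Module Matrix Cfsg Cfsg.Agent.Lib.Phan Cfsg.Agent.Lib.UnTrans Cfsg.Agent.Lib.UnBridge Cfsg.Agent.Lib.ClUnSimple Cfsg.Agent.Lib.PresU

variable {F : Type*} [Field F] (h2 : (2 : F) = 0) {n k l : ℕ}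

/-- permutation matrices in characteristic two -/
def pms (n : ℕ) : Equiv.Perm (Fin n) →* SU n F 2 where
  toFun π := ⟨⟨emb F π.toEmbedding, by
    rw [det_emb_perm]
    rcases Int.units_eq_one_or (Equiv.Perm.sign π) with h | h
    · rw [h]; simp
    · rw [h]; simp; linear_combination -h2⟩, by
    intro u v
    exact herm_ext _ u v⟩
  map_one' := by
    apply Subtype.ext; apply Subtype.ext
    show emb F (1 : Equiv.Perm (Fin n)).toEmbedding = 1
    ext a b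
    rw [emb_apply, Matrix.one_apply]
    rfl
  map_mul' π σ := by
    apply Subtype.ext; apply Subtype.ext
    show emb F (π * σ).toEmbedding = emb F π.toEmbedding * emb F σ.toEmbedding
    rw [emb_comp]
    rfl

theorem pms_coe (π : Equiv.Perm (Fin n)) : (pms h2 n π).1.1 = emb F π.toEmbedding := rfl

theorem pms_inv_coe (π : Equiv.Perm (Fin n)) : (pms h2 n π)⁻¹.1.1 = (emb F π.toEmbedding)ᵀ := by
  rw [← map_inv, pms_coe]
  ext a b
  rw [Matrix.transpose_apply, emb_apply, emb_apply]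
  show (if a = π⁻¹ b then (1 : F) else 0) = (if b = π a then (1 : F) else 0)
  by_cases h : b = π a
  · rw [if_pos h, if_pos]; rw [h]; simp
  · rw [if_neg h, if_neg]; intro h1; apply h; rw [h1]; simp

/-- conjugation by permutation matrices -/
theorem pms_conj (π : Equiv.Perm (Fin n)) (j : Fin k ↪ Fin n) (A : SU k F 2) :
    pms h2 n π * blk j A * (pms h2 n π)⁻¹ = blk (j.trans π.toEmbedding) A := by
  rw [← blk_comp]
  apply Subtype.ext; apply Subtype.ext
  show (pms h2 n π).1.1 * (blk j A).1.1 * (pms h2 n π)⁻¹.1.1 = _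
  rw [pms_coe, pms_inv_coe, blk_coe, blk_coe, blkM_perm, blk_coe]

theorem pms_single (π : Equiv.Perm (Fin n)) (a : Fin n) : (pms h2 n π).1.1 *ᵥ Pi.single a 1 = Pi.single (π a) 1 := by
  rw [pms_coe]
  exact ext_single _ a 1

/-- extension of permutations -/
noncomputable def ex (j : Fin k ↪ Fin n) : Equiv.Perm (Fin k) →* Equiv.Perm (Fin n) := Equiv.Perm.viaEmbeddingHom j

theorem ex_apply (j : Fin k ↪ Fin n) (τ : Equiv.Perm (Fin k)) (a : Fin k) : ex j τ (j a) = j (τ a) := Equiv.Perm.viaEmbedding_apply τ j a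

theorem ex_out (j : Fin k ↪ Fin n) (τ : Equiv.Perm (Fin k)) (a : Fin n) (ha : a ∉ Set.range j) : ex j τ a = a :=
  Equiv.Perm.viaEmbedding_apply_of_notMem τ j a ha

theorem pms_ex (j : Fin k ↪ Fin n) (τ : Equiv.Perm (Fin k)) : pms h2 n (ex j τ) = blk j (pms h2 k τ) := by
  apply Subtype.ext; apply Subtype.ext
  apply Matrix.ext_of_mulVec_single
  intro a
  rw [pms_single, blk_coe]
  by_cases ha : a ∈ Set.range j
  · obtain ⟨b, rfl⟩ := ha
    rw [← ext_single, blkM_ext, pms_single, ext_single, ex_apply]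
  · rw [blkM_fix]
    · rw [ex_out _ _ _ ha]
    · intro b
      rw [Pi.single_eq_of_ne]
      intro h
      exact ha ⟨b, h⟩

theorem exists_two (hkl : k + l ≤ n) (j1 : Fin k ↪ Fin n) (j2 : Fin l ↪ Fin n) (h : ∀ a b, j1 a ≠ j2 b) :
    ∃ π : Equiv.Perm (Fin n), (∀ a, π (sh 0 (by omega) a) = j1 a) ∧ (∀ b, π (sh k hkl b) = j2 b) := by
  let f : Fin (k + l) → Fin n := Fin.append j1 j2
  have hf : Function.Injective f := by
    intro a b
    refine Fin.addCases (fun a => ?_) (fun a => ?_) a <;> refine Fin.addCases (fun b => ?_) (fun b => ?_) b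
    · intro hab
      simp only [f, Fin.append_left] at hab
      rw [j1.injective hab]
    · intro hab
      simp only [f, Fin.append_left, Fin.append_right] at hab
      exact absurd hab (h _ _)
    · intro hab
      simp only [f, Fin.append_left, Fin.append_right] at hab
      exact absurd hab.symm (h _ _)
    · intro hab
      simp only [f, Fin.append_right] at hab
      rw [j2.injective hab]
  obtain ⟨π, hπ⟩ := exists_perm (show 0 + (k + l) ≤ n by omega) ⟨f, hf⟩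
  refine ⟨π, fun a => ?_, fun b => ?_⟩
  · have h1 := hπ (Fin.castAdd l a)
    change π _ = Fin.append j1 j2 (Fin.castAdd l a) at h1
    rw [Fin.append_left] at h1
    exact h1
  · have h1 := hπ (Fin.natAdd k b)
    change π _ = Fin.append j1 j2 (Fin.natAdd k b) at h1
    rw [Fin.append_right] at h1
    rw [← h1]
    congr 1
    exact Fin.ext (by show k + b.1 = 0 + (k + b.1); omega)

/-- `(0 2)(1 3)` -/
def rhs (N : ℕ) : Equiv.Perm (Fin (N + 4)) := Equiv.swap ⟨0, by omega⟩ ⟨2, by omega⟩ * Equiv.swap ⟨1, by omega⟩ ⟨3, by omega⟩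
/-- `(2 3)` -/
def s23 (N : ℕ) : Equiv.Perm (Fin (N + 4)) := Equiv.swap ⟨2, by omega⟩ ⟨3, by omega⟩

variable {G : Type*} [Group G] {N : ℕ}

/-- the gluing data -/
structure GS (κ : SU 3 F 2 →* G) (α : Equiv.Perm (Fin (N + 4)) →* G) : Prop where
  A : ∀ τ : Equiv.Perm (Fin 3), κ (pms h2 3 τ) = α (ex (sh 0 (show 0 + 3 ≤ N + 4 by omega)) τ)
  C : ∀ σ : Equiv.Perm (Fin (N + 4)), (∀ a : Fin 3, σ (sh 0 (by omega) a) = sh 0 (by omega) a) → ∀ s, Commute (α σ) (κ s)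
  T : ∀ s : SU 2 F 2, Commute (α (s23 N)) (κ (b0 F 2 s))
  X : ∀ s t : SU 2 F 2, Commute (κ (b0 F 2 s)) (α (rhs N) * κ (b0 F 2 t) * (α (rhs N))⁻¹)

/-- the cycle `0 → 1 → 2` -/
def tau3 : Equiv.Perm (Fin 3) := Equiv.swap 0 1 * Equiv.swap 1 2

theorem tau3_sh : ∀ a : Fin 2, tau3 (sh 0 (show 0 + 2 ≤ 3 by omega) a) = sh 1 (show 1 + 2 ≤ 3 by omega) a := by decide

/-- the labelled copies of `SU_3` -/
def KK (κ : SU 3 F 2 →* G) (α : Equiv.Perm (Fin (N + 4)) →* G) (π : Equiv.Perm (Fin (N + 4))) (s : SU 3 F 2) : G := α π * κ s * (α π)⁻¹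

theorem conj_comm {x y g : G} (h : Commute x y) : Commute (g * x * g⁻¹) (g * y * g⁻¹) := (Commute.conj_iff g).2 h

section gs
variable {κ : SU 3 F 2 →* G} {α : Equiv.Perm (Fin (N + 4)) →* G}

theorem KK_conj (ρ π : Equiv.Perm (Fin (N + 4))) (s : SU 3 F 2) : α ρ * KK κ α π s * (α ρ)⁻¹ = KK κ α (ρ * π) s := by
  rw [KK, KK, map_mul]; group

theorem KK_one (s : SU 3 F 2) : KK κ α 1 s = κ s := by rw [KK, map_one]; simp

variable {h2} (D : GS h2 κ α)
include D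

theorem GS.wd (π π' : Equiv.Perm (Fin (N + 4))) (h : ∀ a : Fin 3, π' (sh 0 (by omega) a) = π (sh 0 (by omega) a)) (s : SU 3 F 2) :
    KK κ α π' s = KK κ α π s := by
  have h1 := D.C (π⁻¹ * π') (by
    intro a
    show π.symm (π' _) = _
    rw [h, Equiv.symm_apply_apply]) s
  have h3 : α (π⁻¹ * π') * κ s * (α (π⁻¹ * π'))⁻¹ = κ s := by rw [h1.eq]; group
  rw [KK, KK]
  conv_rhs => rw [← h3, map_mul, map_inv]
  group

/-- permutations fixing `0, 1` commute with the first `SU_2` -/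
theorem GS.C2 (σ : Equiv.Perm (Fin (N + 4))) (h : ∀ a : Fin 2, σ (sh 0 (by omega) a) = sh 0 (by omega) a) (s : SU 2 F 2) :
    Commute (α σ) (κ (b0 F 2 s)) := by
  have h0 : σ ⟨0, by omega⟩ = ⟨0, by omega⟩ := h 0
  have h1 : σ ⟨1, by omega⟩ = ⟨1, by omega⟩ := h 1
  have key : ∀ σ : Equiv.Perm (Fin (N + 4)), σ ⟨0, by omega⟩ = ⟨0, by omega⟩ → σ ⟨1, by omega⟩ = ⟨1, by omega⟩ → σ ⟨2, by omega⟩ = ⟨2, by omega⟩ →
      Commute (α σ) (κ (b0 F 2 s)) := by
    intro σ e0 e1 e2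
    apply D.C
    intro a
    fin_cases a
    · exact e0
    · exact e1
    · exact e2
  by_cases hx : σ ⟨2, by omega⟩ = ⟨2, by omega⟩
  · exact key σ h0 h1 hx
  obtain ⟨x, hxd⟩ : ∃ x, σ ⟨2, by omega⟩ = x := ⟨_, rfl⟩
  have hx0 : x ≠ ⟨0, by omega⟩ := by
    intro e; rw [e, ← h0] at hxd; exact absurd (σ.injective hxd) (fin_ne _ _ (by norm_num))
  have hx1 : x ≠ ⟨1, by omega⟩ := by
    intro e; rw [e, ← h1] at hxd; exact absurd (σ.injective hxd) (fin_ne _ _ (by norm_num))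
  have hx2 : x ≠ ⟨2, by omega⟩ := by intro e; exact hx (hxd.trans e)
  have e : σ = Equiv.swap ⟨3, by omega⟩ x * (s23 N * (s23 N * (Equiv.swap ⟨3, by omega⟩ x * σ))) := by
    have e1 : s23 N * s23 N = 1 := Equiv.swap_mul_self _ _
    have e2 : Equiv.swap (⟨3, by omega⟩ : Fin (N + 4)) x * Equiv.swap ⟨3, by omega⟩ x = 1 := Equiv.swap_mul_self _ _
    rw [← mul_assoc (s23 N), e1, one_mul, ← mul_assoc, e2, one_mul]
  rw [e, map_mul, map_mul]
  refine Commute.mul_left ?_ (Commute.mul_left (D.T s) ?_)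
  · apply key
    · exact Equiv.swap_apply_of_ne_of_ne (fin_ne _ _ (by norm_num)) hx0.symm
    · exact Equiv.swap_apply_of_ne_of_ne (fin_ne _ _ (by norm_num)) hx1.symm
    · exact Equiv.swap_apply_of_ne_of_ne (fin_ne _ _ (by norm_num)) hx2.symm
  · apply key
    · rw [Equiv.Perm.mul_apply, Equiv.Perm.mul_apply, h0, Equiv.swap_apply_of_ne_of_ne (fin_ne _ _ (by norm_num)) hx0.symm, s23,
        sw_ne _ _ _ (by norm_num) (by norm_num)]
    · rw [Equiv.Perm.mul_apply, Equiv.Perm.mul_apply, h1, Equiv.swap_apply_of_ne_of_ne (fin_ne _ _ (by norm_num)) hx1.symm, s23,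
        sw_ne _ _ _ (by norm_num) (by norm_num)]
    · rw [Equiv.Perm.mul_apply, Equiv.Perm.mul_apply, hxd, Equiv.swap_apply_right, s23, Equiv.swap_apply_right]

theorem GS.wd2 (π π' : Equiv.Perm (Fin (N + 4))) (h : ∀ a : Fin 2, π' (sh 0 (by omega) a) = π (sh 0 (by omega) a)) (s : SU 2 F 2) :
    KK κ α π' (b0 F 2 s) = KK κ α π (b0 F 2 s) := by
  have h1 := D.C2 (π⁻¹ * π') (by
    intro a
    show π.symm (π' _) = _
    rw [h, Equiv.symm_apply_apply]) s
  have h3 : α (π⁻¹ * π') * κ (b0 F 2 s) * (α (π⁻¹ * π'))⁻¹ = κ (b0 F 2 s) := by rw [h1.eq]; group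
  rw [KK, KK]
  conv_rhs => rw [← h3, map_mul, map_inv]
  group

/-- the second block -/
theorem GS.kb1 (π π' : Equiv.Perm (Fin (N + 4))) (h : ∀ a : Fin 2, π' (sh 0 (by omega) a) = π (sh 1 (by omega) a)) (s : SU 2 F 2) :
    KK κ α π (b1 F 2 s) = KK κ α π' (b0 F 2 s) := by
  have h1 : b1 F 2 s = pms h2 3 tau3 * b0 F 2 s * (pms h2 3 tau3)⁻¹ := by
    rw [b0, pms_conj, b1]
    congr 2
    ext a
    exact congrArg Fin.val (tau3_sh a).symm
  have h4 : κ (b1 F 2 s) = α (ex (sh 0 (show 0 + 3 ≤ N + 4 by omega)) tau3) * κ (b0 F 2 s) * (α (ex (sh 0 (show 0 + 3 ≤ N + 4 by omega)) tau3))⁻¹ := by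
    rw [h1, map_mul, map_mul, map_inv, D.A]
  have h3 : KK κ α π (b1 F 2 s) = KK κ α (π * ex (sh 0 (by omega)) tau3) (b0 F 2 s) := by
    rw [KK, KK, h4, map_mul α π]
    generalize α (ex (sh 0 (show 0 + 3 ≤ N + 4 by omega)) tau3) = y
    group
  rw [h3]
  apply D.wd2
  intro a
  rw [h, Equiv.Perm.mul_apply]
  congr 1
  have e : sh 0 (show 0 + 2 ≤ N + 4 by omega) a = sh 0 (show 0 + 3 ≤ N + 4 by omega) (sh 0 (show 0 + 2 ≤ 3 by omega) a) :=
    Fin.ext (by simp only [sh_apply]; omega)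
  rw [e, ex_apply, tau3_sh]
  exact Fin.ext (by simp only [sh_apply]; omega)

/-- disjoint copies of `SU_2` commute -/
theorem GS.C22 (π π' : Equiv.Perm (Fin (N + 4))) (h : ∀ a b : Fin 2, π (sh 0 (by omega) a) ≠ π' (sh 0 (by omega) b)) (s t : SU 2 F 2) :
    Commute (KK κ α π (b0 F 2 s)) (KK κ α π' (b0 F 2 t)) := by
  obtain ⟨π1, e1, e2⟩ := exists_two (show 2 + 2 ≤ N + 4 by omega) ((sh 0 (show 0 + 2 ≤ N + 4 by omega)).trans π.toEmbedding)
    ((sh 0 (show 0 + 2 ≤ N + 4 by omega)).trans π'.toEmbedding) h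
  rw [D.wd2 π1 π (fun a => (e1 a).symm), D.wd2 (π1 * rhs N) π' (by
    intro a
    rw [Equiv.Perm.mul_apply]
    have := e2 a
    change π1 _ = π' _ at this
    rw [← this]
    congr 1
    fin_cases a
    · exact (rho0 N).symm
    · exact (rho1 N).symm), ← KK_conj]
  exact conj_comm (D.X s t)

end gs

/-- the condition for `n ≥ 5` -/
def Y5 (κ : SU 3 F 2 →* G) (α : Equiv.Perm (Fin (N + 4)) →* G) : Prop := ∀ (h : 2 + 3 ≤ N + 4), ∃ π : Equiv.Perm (Fin (N + 4)),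
  (∀ a : Fin 3, π (sh 0 (by omega) a) = sh 2 h a) ∧ ∀ (s : SU 2 F 2) (t : SU 3 F 2), Commute (κ (b0 F 2 s)) (KK κ α π t)

/-- the condition for `n ≥ 6` -/
def Y6 (κ : SU 3 F 2 →* G) (α : Equiv.Perm (Fin (N + 4)) →* G) : Prop := ∀ (h : 3 + 3 ≤ N + 4), ∃ π : Equiv.Perm (Fin (N + 4)),
  (∀ a : Fin 3, π (sh 0 (by omega) a) = sh 3 h a) ∧ ∀ (s : SU 3 F 2) (t : SU 3 F 2), Commute (κ s) (KK κ α π t)

section gs2
variable {κ : SU 3 F 2 →* G} {α : Equiv.Perm (Fin (N + 4)) →* G} {h2} (D : GS h2 κ α)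
include D

theorem le_of_disj {π π' : Equiv.Perm (Fin (N + 4))} {k l : ℕ} (hk : 0 + k ≤ N + 4) (hl : 0 + l ≤ N + 4)
    (h : ∀ (a : Fin k) (b : Fin l), π (sh 0 hk a) ≠ π' (sh 0 hl b)) : k + l ≤ N + 4 := by
  have h1 : Function.Injective (Sum.elim (fun a : Fin k => π (sh 0 hk a)) (fun b : Fin l => π' (sh 0 hl b))) := by
    rintro (a | a) (b | b) hab
    · exact congrArg _ ((sh 0 hk).injective (π.injective hab))
    · exact absurd hab (h _ _)
    · exact absurd hab.symm (h _ _)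
    · exact congrArg _ ((sh 0 hl).injective (π'.injective hab))
  have := Fintype.card_le_of_injective _ h1
  simpa using this

theorem GS.C23 (h5 : Y5 κ α) (π π' : Equiv.Perm (Fin (N + 4))) (h : ∀ (a : Fin 2) (b : Fin 3), π (sh 0 (by omega) a) ≠ π' (sh 0 (by omega) b))
    (s : SU 2 F 2) (t : SU 3 F 2) : Commute (KK κ α π (b0 F 2 s)) (KK κ α π' t) := by
  have hN := le_of_disj D _ _ h
  obtain ⟨π1, e1, e2⟩ := exists_two hN ((sh 0 (show 0 + 2 ≤ N + 4 by omega)).trans π.toEmbedding)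
    ((sh 0 (show 0 + 3 ≤ N + 4 by omega)).trans π'.toEmbedding) h
  obtain ⟨ρ, hρ, hc⟩ := h5 hN
  rw [D.wd2 π1 π (fun a => (e1 a).symm), D.wd (π1 * ρ) π' (by
    intro a
    rw [Equiv.Perm.mul_apply, hρ]
    exact (e2 a).symm), ← KK_conj]
  exact conj_comm (hc s t)

theorem GS.C33 (h6 : Y6 κ α) (π π' : Equiv.Perm (Fin (N + 4))) (h : ∀ (a : Fin 3) (b : Fin 3), π (sh 0 (by omega) a) ≠ π' (sh 0 (by omega) b))
    (s : SU 3 F 2) (t : SU 3 F 2) : Commute (KK κ α π s) (KK κ α π' t) := by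
  have hN := le_of_disj D _ _ h
  obtain ⟨π1, e1, e2⟩ := exists_two hN ((sh 0 (show 0 + 3 ≤ N + 4 by omega)).trans π.toEmbedding)
    ((sh 0 (show 0 + 3 ≤ N + 4 by omega)).trans π'.toEmbedding) h
  obtain ⟨ρ, hρ, hc⟩ := h6 hN
  rw [D.wd π1 π (fun a => (e1 a).symm), D.wd (π1 * ρ) π' (by
    intro a
    rw [Equiv.Perm.mul_apply, hρ]
    exact (e2 a).symm), ← KK_conj]
  exact conj_comm (hc s t)

end gs2

end Cfsg.Agent.Lib.PresU.T2
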