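import Cfsg.Agent.Lib.PresUO

/-! Gluing `SU_3(2)` and the symmetric group: the induction (helper38). -/

set_option autoImplicit false
set_option linter.unusedSectionVars false
set_option linter.unusedSimpArgs false
set_option linter.style.haveILetI false

namespace Cfsg.Agent.Lib.PresU.T2

open Module Matrix Cfsg Cfsg.Agent.Lib.Phan Cfsg.Agent.Lib.UnTrans Cfsg.Agent.Lib.UnBridge Cfsg.Agent.Lib.ClUnSimple Cfsg.Agent.Lib.PresU

variable {F : Type*} [Field F] {h2 : (2 : F) = 0} {G : Type*} [Group G] {N : ℕ} {κ : SU 3 F 2 →* G} {α : Equiv.Perm (Fin (N + 4)) →* G}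

/-- labels -/
def Lab2 (κ : SU 3 F 2 →* G) (α : Equiv.Perm (Fin (N + 4)) →* G) (m : ℕ) (hm : m ≤ N + 4) (Φ : SU m F 2 →* G) : Prop :=
  ∀ i (hi : i + 3 ≤ m) (s : SU 3 F 2) (π : Equiv.Perm (Fin (N + 4))),
    (∀ a : Fin 3, π (sh 0 (by omega) a) = sh i (by omega) a) → Φ (blk (sh i hi) s) = KK κ α π s

theorem ex_swap {k n : ℕ} (j : Fin k ↪ Fin n) (a b : Fin k) : ex j (Equiv.swap a b) = Equiv.swap (j a) (j b) := by
  ext x
  by_cases hx : x ∈ Set.range j
  · obtain ⟨c, rfl⟩ := hx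
    rw [ex_apply, j.injective.map_swap]
  · rw [ex_out _ _ _ hx, Equiv.swap_apply_of_ne_of_ne]
    · rintro rfl; exact hx ⟨_, rfl⟩
    · rintro rfl; exact hx ⟨_, rfl⟩

section
variable (D : GS h2 κ α)
include D

theorem GS.two {m : ℕ} {hm : m ≤ N + 4} (h3 : 3 ≤ m) {Φ : SU m F 2 →* G} (hΦ : Lab2 κ α m hm Φ) (i : ℕ) (hi : i + 2 ≤ m) (s : SU 2 F 2)
    (π : Equiv.Perm (Fin (N + 4))) (hπ : ∀ a : Fin 2, π (sh 0 (by omega) a) = sh i (by omega) a) :
    Φ (blk (sh i hi) s) = KK κ α π (b0 F 2 s) := by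
  rcases Nat.lt_or_ge m (i + 3) with h | h
  · obtain ⟨i, rfl⟩ : ∃ i', i = i' + 1 := ⟨i - 1, by omega⟩
    obtain ⟨π3, hπ3⟩ := exists_perm (show 0 + 3 ≤ N + 4 by omega) (sh i (show i + 3 ≤ N + 4 by omega))
    have e : blk (sh (i + 1) hi) s = blk (sh i (show i + 3 ≤ m by omega)) (b1 F 2 s) := by rw [b1, blk_sh]
    rw [e, hΦ i (by omega) _ π3 hπ3]
    apply D.kb1
    intro a
    rw [hπ]
    have e2 : sh 1 (show 1 + 2 ≤ N + 4 by omega) a = sh 0 (show 0 + 3 ≤ N + 4 by omega) (sh 1 (show 1 + 2 ≤ 3 by omega) a) :=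
      Fin.ext (by simp only [sh_apply]; omega)
    rw [e2, hπ3]
    exact Fin.ext (by simp only [sh_apply]; omega)
  · obtain ⟨π3, hπ3⟩ := exists_perm (show 0 + 3 ≤ N + 4 by omega) (sh i (show i + 3 ≤ N + 4 by omega))
    have e : blk (sh i hi) s = blk (sh i (show i + 3 ≤ m by omega)) (b0 F 2 s) := by rw [b0, blk_sh]; rfl
    rw [e, hΦ i (by omega) _ π3 hπ3]
    apply D.wd2
    intro a
    rw [hπ]
    have e2 : sh 0 (show 0 + 2 ≤ N + 4 by omega) a = sh 0 (show 0 + 3 ≤ N + 4 by omega) (sh 0 (show 0 + 2 ≤ 3 by omega) a) :=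
      Fin.ext (by simp only [sh_apply]; omega)
    rw [e2, hπ3]
    exact Fin.ext (by simp only [sh_apply]; omega)

variable [Fintype F] (hF : Fintype.card F = 2 ^ 2)
include hF

/-- the induction -/
theorem GS.ind (h5 : Y5 κ α) (h6 : Y6 κ α) (Φ4 : SU 4 F 2 →* G) (hΦ4 : Lab2 κ α 4 (by omega) Φ4) (m : ℕ) (hmN : m + 1 + 3 ≤ N + 4) :
    ∃ Φ : SU (m + 1 + 3) F 2 →* G, Lab2 κ α (m + 1 + 3) hmN Φ := by
  induction m with
  | zero => exact ⟨Φ4, hΦ4⟩
  | succ m ih =>
    obtain ⟨fH, hfH⟩ := ih (by omega)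
    obtain ⟨ρ, hρ⟩ := exists_perm (show 0 + 4 ≤ N + 4 by omega) (sh (m + 1) (show m + 1 + 4 ≤ N + 4 by omega))
    obtain ⟨Ψ, hΨd⟩ : ∃ Ψ : SU 4 F 2 →* G, ∀ x, Ψ x = α ρ * Φ4 x * (α ρ)⁻¹ := ⟨(MulAut.conj (α ρ)).toMonoidHom.comp Φ4, fun x => rfl⟩
    have hΨ : ∀ i (hi : i + 3 ≤ 4) (s : SU 3 F 2) (π : Equiv.Perm (Fin (N + 4))),
        (∀ a : Fin 3, π (sh 0 (by omega) a) = sh (m + 1 + i) (by omega) a) → Ψ (blk (sh i hi) s) = KK κ α π s := by
      intro i hi s π hπ
      obtain ⟨π3, hπ3⟩ := exists_perm (show 0 + 3 ≤ N + 4 by omega) (sh i (show i + 3 ≤ N + 4 by omega))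
      rw [hΨd, hΦ4 i hi s π3 hπ3, KK_conj]
      symm
      apply D.wd
      intro a
      rw [hπ, Equiv.Perm.mul_apply, hπ3]
      have e : sh i (show i + 3 ≤ N + 4 by omega) a = sh 0 (show 0 + 4 ≤ N + 4 by omega) (sh i hi a) :=
        Fin.ext (by simp only [sh_apply]; omega)
      rw [e, hρ]
      exact Fin.ext (by simp only [sh_apply]; omega)
    have hΨ2 : ∀ (k : SU 2 F 2) (π : Equiv.Perm (Fin (N + 4))),
        (∀ a : Fin 2, π (sh 0 (by omega) a) = sh (m + 3) (by omega) a) → Ψ (blk (sh 2 (show 2 + 2 ≤ 4 by omega)) k) = KK κ α π (b0 F 2 k) := by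
      intro k π hπ
      obtain ⟨π3, hπ3⟩ := exists_perm (show 0 + 3 ≤ N + 4 by omega) (sh (m + 2) (show m + 2 + 3 ≤ N + 4 by omega))
      have e : blk (sh 2 (show 2 + 2 ≤ 4 by omega)) k = blk (sh 1 (show 1 + 3 ≤ 4 by omega)) (b1 F 2 k) := by rw [b1, blk_sh]
      rw [e, hΨ 1 (by omega) _ π3 hπ3]
      apply D.kb1
      intro a
      rw [hπ]
      have e2 : sh 1 (show 1 + 2 ≤ N + 4 by omega) a = sh 0 (show 0 + 3 ≤ N + 4 by omega) (sh 1 (show 1 + 2 ≤ 3 by omega) a) :=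
        Fin.ext (by simp only [sh_apply]; omega)
      rw [e2, hπ3]
      exact Fin.ext (by simp only [sh_apply]; omega)
    obtain ⟨π1, hπ1⟩ := exists_perm (show 0 + 3 ≤ N + 4 by omega) (sh (m + 2) (show m + 2 + 3 ≤ N + 4 by omega))
    obtain ⟨π2, hπ2⟩ := exists_perm (show 0 + 2 ≤ N + 4 by omega) (sh (m + 3) (show m + 3 + 2 ≤ N + 4 by omega))
    have hcompat : ∀ s : SU 3 F 2, fH (blk (sh (m + 1) (by omega)) s) = Ψ (blk (sh 0 (by omega)) s) := by
      intro s
      obtain ⟨π, hπ⟩ := exists_perm (show 0 + 3 ≤ N + 4 by omega) (sh (m + 1) (show m + 1 + 3 ≤ N + 4 by omega))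
      rw [hfH (m + 1) le_rfl s π hπ, hΨ 0 (by omega) s π hπ]
    have one3 : ∀ a : Fin 3, (1 : Equiv.Perm (Fin (N + 4))) (sh 0 (show 0 + 3 ≤ N + 4 by omega) a) = sh 0 (by omega) a := fun a => rfl
    have one2 : ∀ a : Fin 2, (1 : Equiv.Perm (Fin (N + 4))) (sh 0 (show 0 + 2 ≤ N + 4 by omega) a) = sh 0 (by omega) a := fun a => rfl
    -- commutation 1
    have hcomm1 : ∀ (h : SU (m + 1 + 2) F 2) (k : SU 2 F 2), fH (blk (sh 0 (by omega)) h) * Ψ (blk (sh 2 (by omega)) k) =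
        Ψ (blk (sh 2 (by omega)) k) * fH (blk (sh 0 (by omega)) h) := by
      intro h k
      have hS : (Subgroup.centralizer {Ψ (blk (sh 2 (show 2 + 2 ≤ 4 by omega)) k)}).comap (fH.comp (blk (sh 0 (show 0 + (m + 1 + 2) ≤ m + 1 + 3 by omega)))) = ⊤ := by
        apply gen_q2 (k := m) hF
        · intro s
          rw [Subgroup.mem_comap, MonoidHom.comp_apply, Subgroup.mem_centralizer_singleton_iff, blk_sh, hfH 0 (by omega) s 1 one3, hΨ2 k π2 hπ2]
          refine (D.C23 h5 π2 1 ?_ k s).symm.eq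
          intro a b
          rw [hπ2]
          intro hab
          have := congrArg Fin.val hab
          simp only [sh_apply, Equiv.Perm.one_apply] at this
          omega
        · intro i hi s
          obtain ⟨π, hπ⟩ := exists_perm (show 0 + 2 ≤ N + 4 by omega) (sh i (show i + 2 ≤ N + 4 by omega))
          rw [Subgroup.mem_comap, MonoidHom.comp_apply, Subgroup.mem_centralizer_singleton_iff, blk_sh, sh_congr (show 0 + i = i by omega) (by omega) (by omega),
            D.two (by omega) hfH i (by omega) s π hπ, hΨ2 k π2 hπ2]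
          refine (D.C22 π π2 ?_ s k).eq
          intro a b
          rw [hπ2, hπ]
          intro hab
          have := congrArg Fin.val hab
          simp only [sh_apply] at this
          omega
      have : h ∈ (Subgroup.centralizer {Ψ (blk (sh 2 (show 2 + 2 ≤ 4 by omega)) k)}).comap (fH.comp (blk (sh 0 (show 0 + (m + 1 + 2) ≤ m + 1 + 3 by omega)))) := by rw [hS]; trivial
      exact Subgroup.mem_centralizer_singleton_iff.1 this
    -- commutation 3
    have hcomm3 : ∀ (h : SU (m + 1 + 1) F 2) (k : SU 3 F 2), fH (blk (sh 0 (by omega)) h) * Ψ (blk (sh 1 (by omega)) k) =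
        Ψ (blk (sh 1 (by omega)) k) * fH (blk (sh 0 (by omega)) h) := by
      intro h k
      have h23 : ∀ i (hi : i + 2 ≤ m + 1 + 1) (s : SU 2 F 2), Commute (fH (blk (sh i (show i + 2 ≤ m + 1 + 3 by omega)) s)) (Ψ (blk (sh 1 (show 1 + 3 ≤ 4 by omega)) k)) := by
        intro i hi s
        obtain ⟨π, hπ⟩ := exists_perm (show 0 + 2 ≤ N + 4 by omega) (sh i (show i + 2 ≤ N + 4 by omega))
        rw [D.two (by omega) hfH i (by omega) s π hπ, hΨ 1 (by omega) k π1 hπ1]
        refine D.C23 h5 π π1 ?_ s k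
        intro a b
        rw [hπ1, hπ]
        intro hab
        have := congrArg Fin.val hab
        simp only [sh_apply] at this
        omega
      rcases m with _ | m
      · exact (h23 0 (by omega) h).eq
      · have hS : (Subgroup.centralizer {Ψ (blk (sh 1 (show 1 + 3 ≤ 4 by omega)) k)}).comap (fH.comp (blk (sh 0 (show 0 + (m + 1 + 1 + 1) ≤ m + 1 + 1 + 3 by omega)))) = ⊤ := by
          apply gen_q2 (k := m) hF
          · intro s
            rw [Subgroup.mem_comap, MonoidHom.comp_apply, Subgroup.mem_centralizer_singleton_iff, blk_sh, hfH 0 (by omega) s 1 one3, hΨ 1 (by omega) k π1 hπ1]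
            refine (D.C33 h6 1 π1 ?_ s k).eq
            intro a b
            rw [hπ1]
            intro hab
            have := congrArg Fin.val hab
            simp only [sh_apply, Equiv.Perm.one_apply] at this
            omega
          · intro i hi s
            rw [Subgroup.mem_comap, MonoidHom.comp_apply, Subgroup.mem_centralizer_singleton_iff, blk_sh, sh_congr (show 0 + i = i by omega) (by omega) (by omega)]
            exact (h23 i (by omega) s).eq
        have : h ∈ (Subgroup.centralizer {Ψ (blk (sh 1 (show 1 + 3 ≤ 4 by omega)) k)}).comap (fH.comp (blk (sh 0 (show 0 + (m + 1 + 1 + 1) ≤ m + 1 + 1 + 3 by omega)))) := by rw [hS]; trivial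
        exact Subgroup.mem_centralizer_singleton_iff.1 this
    obtain ⟨Φ, hΦ1, hΦ2⟩ := step2 hF (m := m + 1) (by omega) fH Ψ hcompat hcomm1 hcomm3
    refine ⟨Φ, ?_⟩
    intro i hi s π hπ
    rcases Nat.lt_or_ge (i + 3) (m + 1 + 4) with h | h
    · have e : blk (sh i hi) s = blk (sh 0 (show 0 + (m + 1 + 3) ≤ m + 1 + 4 by omega)) (blk (sh i (show i + 3 ≤ m + 1 + 3 by omega)) s) := by
        rw [blk_sh, sh_congr (show 0 + i = i by omega) (by omega) (by omega)]
      have e2 := (congrArg Φ e).trans (hΦ1 _)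
      exact e2.trans (hfH i (by omega) s π hπ)
    · obtain rfl : i = m + 2 := by omega
      have e : blk (sh (m + 2) hi) s = blk (sh (m + 1) (show m + 1 + 4 ≤ m + 1 + 4 by omega)) (blk (sh 1 (show 1 + 3 ≤ 4 by omega)) s) := by
        rw [blk_sh]
      have e2 := (congrArg Φ e).trans (hΦ2 _)
      exact e2.trans (hΨ 1 (by omega) s π hπ)

end

end Cfsg.Agent.Lib.PresU.T2
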