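import Cfsg.Agent.Lib.PresUP

/-! Gluing `SU_3(2)` and the symmetric group: the theorem (helper38). -/

set_option autoImplicit false
set_option linter.unusedSectionVars false
set_option linter.unusedSimpArgs false
set_option linter.style.haveILetI false

namespace Cfsg.Agent.Lib.PresU.T2

open Module Matrix Cfsg Cfsg.Agent.Lib.Phan Cfsg.Agent.Lib.UnTrans Cfsg.Agent.Lib.UnBridge Cfsg.Agent.Lib.ClUnSimple Cfsg.Agent.Lib.PresU

universe u v

section
variable {F : Type*} [Field F] {h2 : (2 : F) = 0} {G : Type*} [Group G] {N : ℕ} {κ : SU 3 F 2 →* G} {α : Equiv.Perm (Fin (N + 4)) →* G}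

/-- the transposition in `SU_2` -/
def uu (h2 : (2 : F) = 0) : SU 2 F 2 := pms h2 2 (Equiv.swap 0 1)

theorem b0_uu : b0 F 2 (uu h2) = pms h2 3 (Equiv.swap 0 1) := by
  rw [uu, b0, ← pms_ex, ex_swap]; rfl

theorem GS.kuu (D : GS h2 κ α) : κ (b0 F 2 (uu h2)) = α (Equiv.swap ⟨0, by omega⟩ ⟨1, by omega⟩) := by
  rw [b0_uu, D.A, ex_swap]; rfl

/-- **the gluing theorem for `q = 2`** -/
theorem GS.main [Fintype F] (hF : Fintype.card F = 2 ^ 2) (D : GS h2 κ α) (h5 : Y5 κ α) (h6 : Y6 κ α) (Φ4 : SU 4 F 2 →* G)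
    (hΦ4 : Lab2 κ α 4 (by omega) Φ4) (f : G →* SU (N + 4) F 2)
    (hfκ : ∀ x, f (κ x) = blk (sh 0 (by omega)) x) (hfα : ∀ π, f (α π) = pms h2 (N + 4) π) (hgen : κ.range ⊔ α.range = ⊤) :
    Function.Bijective f := by
  obtain ⟨Φ, hΦ⟩ := D.ind hF h5 h6 Φ4 hΦ4 N (by omega)
  have one3 : ∀ a : Fin 3, (1 : Equiv.Perm (Fin (N + 4))) (sh 0 (show 0 + 3 ≤ N + 4 by omega) a) = sh 0 (by omega) a := fun a => rfl
  have hf3 : ∀ s, f (Φ (blk (sh 0 (show 0 + 3 ≤ N + 1 + 3 by omega)) s)) = blk (sh 0 (by omega)) s := by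
    intro s
    rw [hΦ 0 (by omega) s 1 one3, KK_one, hfκ]
  have h1 : ∀ x, f (Φ x) = x := by
    have hS : ((f.comp Φ).eqLocus (MonoidHom.id (SU (N + 1 + 3) F 2))) = ⊤ := by
      apply gen_q2 (k := N + 1) hF
      · intro s
        exact hf3 s
      · intro i hi s
        show f (Φ (blk (sh i hi) s)) = blk (sh i hi) s
        obtain ⟨π, hπ⟩ := exists_perm (show 0 + 2 ≤ N + 4 by omega) (sh i (show i + 2 ≤ N + 4 by omega))
        rw [D.two (by omega) hΦ i hi s π hπ, KK, map_mul, map_mul, map_inv, hfκ, hfα, b0, blk_sh]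
        have := pms_conj h2 π (sh (0 + 0) (show 0 + 0 + 2 ≤ N + 4 by omega)) s
        rw [this]
        congr 2
        ext a
        exact congrArg Fin.val (hπ a)
    intro x
    have : x ∈ ((f.comp Φ).eqLocus (MonoidHom.id (SU (N + 1 + 3) F 2))) := by rw [hS]; trivial
    exact this
  have hα : α.range ≤ Φ.range := by
    have hS : Φ.range.comap α = ⊤ := by
      have hcl : Subgroup.closure (Set.range fun i : Fin (N + 3) ↦ Equiv.swap i.castSucc i.succ) = ⊤ := by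
        rw [← Subgroup.toSubmonoid_inj]
        apply le_antisymm le_top
        rw [← Equiv.Perm.mclosure_swap_castSucc_succ]
        exact Subgroup.le_closure_toSubmonoid _
      rw [eq_top_iff, ← hcl, Subgroup.closure_le]
      rintro _ ⟨i, rfl⟩
      show α (Equiv.swap i.castSucc i.succ) ∈ Φ.range
      obtain ⟨π, hπ⟩ := exists_perm (show 0 + 2 ≤ N + 4 by omega) (sh i.1 (show i.1 + 2 ≤ N + 4 by omega))
      have e : Equiv.swap i.castSucc i.succ = π * Equiv.swap ⟨0, by omega⟩ ⟨1, by omega⟩ * π⁻¹ := by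
        have e0 : π ⟨0, by omega⟩ = i.castSucc := hπ 0
        have e1 : π ⟨1, by omega⟩ = i.succ := hπ 1
        rw [← e0, ← e1, Equiv.swap_apply_apply]
      rw [e, map_mul, map_mul, map_inv, ← D.kuu]
      exact ⟨_, D.two (by omega) hΦ i.1 (by omega) (uu h2) π hπ⟩
    rintro _ ⟨π, rfl⟩
    have : π ∈ Φ.range.comap α := by rw [hS]; trivial
    exact this
  have h6 : Function.Surjective Φ := by
    rw [← MonoidHom.range_eq_top, eq_top_iff, ← hgen, sup_le_iff]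
    refine ⟨?_, hα⟩
    rintro _ ⟨x, rfl⟩
    refine ⟨_, (hΦ 0 (by omega) x 1 one3).trans (KK_one x)⟩
  refine ⟨?_, fun x => ⟨Φ x, h1 x⟩⟩
  intro x y hxy
  obtain ⟨x, rfl⟩ := h6 x
  obtain ⟨y, rfl⟩ := h6 y
  rw [h1, h1] at hxy
  rw [hxy]

/-! ### the data in `SU_n` -/

theorem KK_su (π : Equiv.Perm (Fin (N + 4))) (s : SU 3 F 2) : KK (blk (sh 0 (show 0 + 3 ≤ N + 4 by omega))) (pms h2 (N + 4)) π s =
    blk ((sh 0 (show 0 + 3 ≤ N + 4 by omega)).trans π.toEmbedding) s := by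
  rw [KK, pms_conj]

theorem GS.su (h2 : (2 : F) = 0) (N : ℕ) : GS h2 (blk (sh 0 (show 0 + 3 ≤ N + 4 by omega)) : SU 3 F 2 →* SU (N + 4) F 2) (pms h2 (N + 4)) := by
  refine ⟨?_, ?_, ?_, ?_⟩
  · intro τ; rw [pms_ex]
  · intro σ h s
    have e : pms h2 (N + 4) σ * blk (sh 0 (show 0 + 3 ≤ N + 4 by omega)) s * (pms h2 (N + 4) σ)⁻¹ = blk (sh 0 (show 0 + 3 ≤ N + 4 by omega)) s := by
      rw [pms_conj]
      congr 2
      ext a
      exact congrArg Fin.val (h a)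
    show _ * _ = _ * _
    rwa [mul_inv_eq_iff_eq_mul] at e
  · intro s
    have e : pms h2 (N + 4) (s23 N) * blk (sh 0 (show 0 + 3 ≤ N + 4 by omega)) (b0 F 2 s) * (pms h2 (N + 4) (s23 N))⁻¹ =
        blk (sh 0 (show 0 + 3 ≤ N + 4 by omega)) (b0 F 2 s) := by
      rw [b0, blk_sh]
      have := pms_conj h2 (s23 N) (sh (0 + 0) (show 0 + 0 + 2 ≤ N + 4 by omega)) s
      rw [this]
      congr 2
      ext a
      fin_cases a
      · exact congrArg Fin.val (sw_ne (N := N + 4) (a := 2) (b := 3) (c := 0) (by omega) (by omega) (by omega) (by norm_num) (by norm_num))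
      · exact congrArg Fin.val (sw_ne (N := N + 4) (a := 2) (b := 3) (c := 1) (by omega) (by omega) (by omega) (by norm_num) (by norm_num))
    show _ * _ = _ * _
    rwa [mul_inv_eq_iff_eq_mul] at e
  · intro s t
    rw [b0, blk_sh, blk_sh]
    have := pms_conj h2 (rhs N) (sh (0 + 0) (show 0 + 0 + 2 ≤ N + 4 by omega)) t
    rw [this]
    apply blk_comm
    intro x y
    fin_cases y
    · show _ ≠ (rhs N) ⟨0, by omega⟩
      rw [show (rhs N) ⟨0, by omega⟩ = ⟨2, by omega⟩ from rho0 N]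
      intro h
      have := congrArg Fin.val h
      simp only [sh_apply] at this
      omega
    · show _ ≠ (rhs N) ⟨1, by omega⟩
      rw [show (rhs N) ⟨1, by omega⟩ = ⟨3, by omega⟩ from rho1 N]
      intro h
      have := congrArg Fin.val h
      simp only [sh_apply] at this
      omega

theorem su5 (h : 2 + 3 ≤ N + 4) (π : Equiv.Perm (Fin (N + 4))) (hπ : ∀ a : Fin 3, π (sh 0 (by omega) a) = sh 2 h a) (s : SU 2 F 2) (t : SU 3 F 2) :
    Commute (blk (sh 0 (show 0 + 3 ≤ N + 4 by omega)) (b0 F 2 s)) (KK (blk (sh 0 (show 0 + 3 ≤ N + 4 by omega))) (pms h2 (N + 4)) π t) := by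
  rw [KK_su, b0, blk_sh]
  apply blk_comm
  intro x y
  show _ ≠ π (sh 0 _ y)
  rw [hπ]
  intro h
  have := congrArg Fin.val h
  simp only [sh_apply] at this
  omega

theorem su6 (h : 3 + 3 ≤ N + 4) (π : Equiv.Perm (Fin (N + 4))) (hπ : ∀ a : Fin 3, π (sh 0 (by omega) a) = sh 3 h a) (s : SU 3 F 2) (t : SU 3 F 2) :
    Commute (blk (sh 0 (show 0 + 3 ≤ N + 4 by omega)) s) (KK (blk (sh 0 (show 0 + 3 ≤ N + 4 by omega))) (pms h2 (N + 4)) π t) := by
  rw [KK_su]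
  apply blk_comm
  intro x y
  show _ ≠ π (sh 0 _ y)
  rw [hπ]
  intro h
  have := congrArg Fin.val h
  simp only [sh_apply] at this
  omega

/-- generation -/
theorem su_genS [Fintype F] (hF : Fintype.card F = 2 ^ 2) (N : ℕ) :
    (blk (sh 0 (show 0 + 3 ≤ N + 4 by omega)) : SU 3 F 2 →* SU (N + 4) F 2).range ⊔ (pms h2 (N + 4)).range = ⊤ := by
  apply gen_q2 (k := N + 1) hF
  · intro s
    exact Subgroup.mem_sup_left ⟨s, rfl⟩
  · intro i hi s
    obtain ⟨π, hπ⟩ := exists_perm (show 0 + 2 ≤ N + 4 by omega) (sh i (show i + 2 ≤ N + 4 by omega))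
    have e : blk (sh i hi) s = pms h2 (N + 4) π * blk (sh 0 (show 0 + 3 ≤ N + 4 by omega)) (b0 F 2 s) * (pms h2 (N + 4) π)⁻¹ := by
      rw [b0, blk_sh]
      have := pms_conj h2 π (sh (0 + 0) (show 0 + 0 + 2 ≤ N + 4 by omega)) s
      rw [this]
      congr 2
      ext a
      exact (congrArg Fin.val (hπ a)).symm
    rw [e]
    exact Subgroup.mul_mem _ (Subgroup.mul_mem _ (Subgroup.mem_sup_right ⟨_, rfl⟩) (Subgroup.mem_sup_left ⟨_, rfl⟩))
      (Subgroup.inv_mem _ (Subgroup.mem_sup_right ⟨_, rfl⟩))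

/-- restriction to four points -/
theorem GS.restr (D : GS h2 κ α) : GS (N := 0) h2 κ (α.comp (ex (sh 0 (show 0 + (0 + 4) ≤ N + 4 by omega)))) := by
  have e3 : ∀ a : Fin 3, sh 0 (show 0 + 3 ≤ N + 4 by omega) a = sh 0 (show 0 + (0 + 4) ≤ N + 4 by omega) (sh 0 (show 0 + 3 ≤ 0 + 4 by omega) a) := fun a =>
    Fin.ext (by simp only [sh_apply]; omega)
  refine ⟨?_, ?_, ?_, ?_⟩
  · intro τ
    rw [D.A, MonoidHom.comp_apply]
    congr 1
    ext x
    by_cases hx : x ∈ Set.range (sh 0 (show 0 + 3 ≤ N + 4 by omega) : Fin 3 ↪ Fin (N + 4))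
    · obtain ⟨a, rfl⟩ := hx
      rw [ex_apply, e3 a, ex_apply, ex_apply, ← e3]
    · rw [ex_out _ _ _ hx]
      by_cases hx4 : x ∈ Set.range (sh 0 (show 0 + (0 + 4) ≤ N + 4 by omega) : Fin (0 + 4) ↪ Fin (N + 4))
      · obtain ⟨b, rfl⟩ := hx4
        rw [ex_apply, ex_out]
        rintro ⟨a, rfl⟩
        exact hx ⟨a, e3 a⟩
      · rw [ex_out _ _ _ hx4]
  · intro σ h s
    rw [MonoidHom.comp_apply]
    apply D.C
    intro a
    rw [e3 a, ex_apply, h]
  · intro s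
    rw [MonoidHom.comp_apply]
    have e : ex (sh 0 (show 0 + (0 + 4) ≤ N + 4 by omega)) (s23 0) = s23 N := by
      rw [s23, ex_swap]; rfl
    rw [e]
    exact D.T s
  · intro s t
    rw [MonoidHom.comp_apply]
    have e : ex (sh 0 (show 0 + (0 + 4) ≤ N + 4 by omega)) (rhs 0) = rhs N := by
      rw [rhs, map_mul, ex_swap, ex_swap]; rfl
    rw [e]
    exact D.X s t

/-- labels of a homomorphism of `SU_4` -/
theorem GS.lab4 (D : GS h2 κ α) (Φ : SU (0 + 4) F 2 →* G) (h1 : ∀ x, Φ (blk (sh 0 (show 0 + 3 ≤ 0 + 4 by omega)) x) = κ x)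
    (h3 : ∀ π, Φ (pms h2 (0 + 4) π) = α (ex (sh 0 (show 0 + (0 + 4) ≤ N + 4 by omega)) π)) : Lab2 κ α (0 + 4) (by omega) Φ := by
  intro i hi s π hπ
  obtain ⟨ζ, hζ⟩ := exists_perm (show 0 + 3 ≤ 0 + 4 by omega) (sh i hi)
  have e : blk (sh i hi) s = pms h2 (0 + 4) ζ * blk (sh 0 (show 0 + 3 ≤ 0 + 4 by omega)) s * (pms h2 (0 + 4) ζ)⁻¹ := by
    rw [pms_conj]
    congr 2
    ext a
    exact (congrArg Fin.val (hζ a)).symm
  rw [e, map_mul, map_mul, map_inv, h1, h3]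
  show KK κ α _ s = _
  symm
  apply D.wd
  intro a
  have e3 : sh 0 (show 0 + 3 ≤ N + 4 by omega) a = sh 0 (show 0 + (0 + 4) ≤ N + 4 by omega) (sh 0 (show 0 + 3 ≤ 0 + 4 by omega) a) :=
    Fin.ext (by simp only [sh_apply]; omega)
  rw [hπ, e3, ex_apply, hζ]
  exact Fin.ext (by simp only [sh_apply]; omega)

end

end Cfsg.Agent.Lib.PresU.T2
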