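import Cfsg.Agent.Lib.PresUQ

/-! Gluing `SU_3(2)` and the symmetric group: presentations (helper38). -/

set_option autoImplicit false
set_option linter.unusedSectionVars false
set_option linter.unusedSimpArgs false
set_option linter.style.haveILetI false

namespace Cfsg.Agent.Lib.PresU.T2

open Module Matrix Cfsg Cfsg.Agent.Lib.Phan Cfsg.Agent.Lib.UnTrans Cfsg.Agent.Lib.UnBridge Cfsg.Agent.Lib.ClUnSimple Cfsg.Agent.Lib.PresU
open Cfsg.Agent.Lib.PresHas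

universe u v

/-- commutation from generators -/
theorem comm_gen1 {B G : Type*} [Group B] [Group G] (y : G) (g : B →* G) {SB : Set B}
    (hB : Subgroup.closure SB = ⊤) (h : ∀ b ∈ SB, Commute y (g b)) (b : B) : Commute y (g b) := by
  have hS : (Subgroup.centralizer {y}).comap g = ⊤ := by
    rw [eq_top_iff, ← hB, Subgroup.closure_le]
    intro x hx
    show g x ∈ Subgroup.centralizer {y}
    rw [Subgroup.mem_centralizer_singleton_iff]
    exact (h x hx).symm.eq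
  have : b ∈ (Subgroup.centralizer {y}).comap g := by rw [hS]; trivial
  exact (Subgroup.mem_centralizer_singleton_iff.1 this).symm

theorem comm_gen {A B G : Type*} [Group A] [Group B] [Group G] (f : A →* G) (g : B →* G) {SA : Set A} {SB : Set B}
    (hA : Subgroup.closure SA = ⊤) (hB : Subgroup.closure SB = ⊤) (h : ∀ a ∈ SA, ∀ b ∈ SB, Commute (f a) (g b)) (a : A) (b : B) :
    Commute (f a) (g b) :=
  comm_gen1 (f a) g hB (fun b hb => (comm_gen1 (g b) f hA (fun a ha => (h a ha b hb).symm) a).symm) b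

theorem cl_adj (n : ℕ) : Subgroup.closure (Set.range fun i : Fin n ↦ Equiv.swap i.castSucc i.succ) = ⊤ := by
  rw [← Subgroup.toSubmonoid_inj]
  apply le_antisymm le_top
  rw [← Equiv.Perm.mclosure_swap_castSucc_succ]
  exact Subgroup.le_closure_toSubmonoid _

/-- permutations fixing the first three points -/
theorem ex3_surj {N : ℕ} (σ : Equiv.Perm (Fin (N + 4))) (h : ∀ a : Fin 3, σ (sh 0 (by omega) a) = sh 0 (by omega) a) :
    ∃ ρ : Equiv.Perm (Fin (N + 1)), ex (sh 3 (show 3 + (N + 1) ≤ N + 4 by omega)) ρ = σ := by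
  have hmap : ∀ b : Fin (N + 1), ∃ c : Fin (N + 1), σ (sh 3 (show 3 + (N + 1) ≤ N + 4 by omega) b) = sh 3 (show 3 + (N + 1) ≤ N + 4 by omega) c := by
    intro b
    obtain ⟨y, hy⟩ : ∃ y, σ (sh 3 (show 3 + (N + 1) ≤ N + 4 by omega) b) = y := ⟨_, rfl⟩
    rcases Nat.lt_or_ge y.1 3 with h3 | h3
    · exfalso
      have e : sh 0 (show 0 + 3 ≤ N + 4 by omega) ⟨y.1, h3⟩ = y := Fin.ext (by simp [sh_apply])
      have h4 := h ⟨y.1, h3⟩
      rw [e, ← hy] at h4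
      have h5 := congrArg Fin.val (σ.injective h4)
      rw [hy] at h5
      simp only [sh_apply] at h5
      omega
    · refine ⟨⟨y.1 - 3, by omega⟩, ?_⟩
      rw [hy]
      exact Fin.ext (by simp only [sh_apply]; omega)
  choose g hg using hmap
  have hgi : Function.Injective g := by
    intro a b hab
    apply (sh 3 (show 3 + (N + 1) ≤ N + 4 by omega)).injective
    apply σ.injective
    rw [hg, hg, hab]
  refine ⟨Equiv.ofBijective g (Finite.injective_iff_bijective.1 hgi), ?_⟩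
  ext x
  by_cases hx : x ∈ Set.range (sh 3 (show 3 + (N + 1) ≤ N + 4 by omega) : Fin (N + 1) ↪ Fin (N + 4))
  · obtain ⟨b, rfl⟩ := hx
    rw [ex_apply, hg]; rfl
  · rw [ex_out _ _ _ hx]
    have h3 : x.1 < 3 := by
      by_contra hcon
      exact hx ⟨⟨x.1 - 3, by omega⟩, Fin.ext (by simp only [sh_apply]; omega)⟩
    have e : sh 0 (show 0 + 3 ≤ N + 4 by omega) ⟨x.1, h3⟩ = x := Fin.ext (by simp [sh_apply])
    have h4 := h ⟨x.1, h3⟩
    rw [e] at h4
    rw [h4]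

section
variable {F : Type*} [Field F] {h2 : (2 : F) = 0} {G : Type*} [Group G] {N : ℕ} {κ : SU 3 F 2 →* G} {α : Equiv.Perm (Fin (N + 4)) →* G}

theorem rhs_sw : rhs N * Equiv.swap ⟨0, by omega⟩ ⟨1, by omega⟩ * (rhs N)⁻¹ = s23 N := by
  rw [← Equiv.swap_apply_apply, show (rhs N) ⟨0, by omega⟩ = ⟨2, by omega⟩ from rho0 N, show (rhs N) ⟨1, by omega⟩ = ⟨3, by omega⟩ from rho1 N]
  rfl

theorem rhs_sw' : rhs N * s23 N * (rhs N)⁻¹ = Equiv.swap ⟨0, by omega⟩ ⟨1, by omega⟩ := by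
  rw [s23, ← Equiv.swap_apply_apply, show (rhs N) ⟨2, by omega⟩ = ⟨0, by omega⟩ from rho2 N, show (rhs N) ⟨3, by omega⟩ = ⟨1, by omega⟩ from rho3 N]

theorem sw_comm : Commute (s23 N) (Equiv.swap ⟨0, by omega⟩ ⟨1, by omega⟩) := by
  have h : (s23 N) * Equiv.swap ⟨0, by omega⟩ ⟨1, by omega⟩ * (s23 N)⁻¹ = Equiv.swap ⟨0, by omega⟩ ⟨1, by omega⟩ := by
    rw [← Equiv.swap_apply_apply, s23, sw_ne (a := 2) (b := 3) (c := 0) _ _ _ (by norm_num) (by norm_num),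
      sw_ne (a := 2) (b := 3) (c := 1) _ _ _ (by norm_num) (by norm_num)]
  rw [mul_inv_eq_iff_eq_mul] at h
  exact h

/-- gluing data from generators -/
theorem gs_of {t : SU 2 F 2} (ht : Subgroup.closure {t, uu h2} = ⊤) {k : Fin 2 → SU 3 F 2} (hk : Subgroup.closure (Set.range k) = ⊤)
    {σ : Fin 2 → Equiv.Perm (Fin (N + 1))} (hσ : Subgroup.closure (Set.range σ) = ⊤)
    (a1 : κ (pms h2 3 (Equiv.swap 0 1)) = α (ex (sh 0 (show 0 + 3 ≤ N + 4 by omega)) (Equiv.swap 0 1)))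
    (a2 : κ (pms h2 3 (Equiv.swap 1 2)) = α (ex (sh 0 (show 0 + 3 ≤ N + 4 by omega)) (Equiv.swap 1 2)))
    (c : ∀ i j, Commute (α (ex (sh 3 (show 3 + (N + 1) ≤ N + 4 by omega)) (σ i))) (κ (k j)))
    (T : Commute (α (s23 N)) (κ (b0 F 2 t))) (X : Commute (κ (b0 F 2 t)) (α (rhs N) * κ (b0 F 2 t) * (α (rhs N))⁻¹)) : GS h2 κ α := by
  have hA : ∀ τ : Equiv.Perm (Fin 3), κ (pms h2 3 τ) = α (ex (sh 0 (show 0 + 3 ≤ N + 4 by omega)) τ) := by
    have hS : (κ.comp (pms h2 3)).eqLocus (α.comp (ex (sh 0 (show 0 + 3 ≤ N + 4 by omega)))) = ⊤ := by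
      rw [eq_top_iff, ← cl_adj 2, Subgroup.closure_le]
      rintro _ ⟨i, rfl⟩
      fin_cases i
      · exact a1
      · exact a2
    intro τ
    have : τ ∈ (κ.comp (pms h2 3)).eqLocus (α.comp (ex (sh 0 (show 0 + 3 ≤ N + 4 by omega)))) := by rw [hS]; trivial
    exact this
  have hu : κ (b0 F 2 (uu h2)) = α (Equiv.swap ⟨0, by omega⟩ ⟨1, by omega⟩) := by
    rw [b0_uu, hA, ex_swap]; rfl
  have hT : ∀ s : SU 2 F 2, Commute (α (s23 N)) (κ (b0 F 2 s)) := by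
    apply comm_gen1 (α (s23 N)) (κ.comp (b0 F 2)) ht
    rintro b (rfl | rfl)
    · exact T
    · show Commute (α (s23 N)) (κ (b0 F 2 (uu h2)))
      rw [hu]
      exact sw_comm.map α
  refine ⟨hA, ?_, hT, ?_⟩
  · intro σ' h s
    obtain ⟨ρ, rfl⟩ := ex3_surj σ' h
    refine comm_gen (α.comp (ex (sh 3 (show 3 + (N + 1) ≤ N + 4 by omega)))) κ hσ hk ?_ ρ s
    rintro _ ⟨i, rfl⟩ _ ⟨j, rfl⟩
    exact c i j
  · intro s s'
    refine comm_gen (κ.comp (b0 F 2)) ((MulAut.conj (α (rhs N))).toMonoidHom.comp (κ.comp (b0 F 2))) ht ht ?_ s s'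
    have e1 : α (rhs N) * κ (b0 F 2 (uu h2)) * (α (rhs N))⁻¹ = α (s23 N) := by
      rw [hu, ← map_inv, ← map_mul, ← map_mul, rhs_sw]
    have e2 : α (rhs N) * α (s23 N) * (α (rhs N))⁻¹ = κ (b0 F 2 (uu h2)) := by
      rw [hu, ← map_inv, ← map_mul, ← map_mul, rhs_sw']
    rintro _ (rfl | rfl) _ (rfl | rfl)
    · exact X
    · show Commute (κ (b0 F 2 _)) (α (rhs N) * κ (b0 F 2 (uu h2)) * (α (rhs N))⁻¹)
      rw [e1]; exact (hT _).symm
    · show Commute (κ (b0 F 2 (uu h2))) (α (rhs N) * κ (b0 F 2 _) * (α (rhs N))⁻¹)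
      rw [← e2]; exact conj_comm (hT _)
    · show Commute (κ (b0 F 2 (uu h2))) (α (rhs N) * κ (b0 F 2 (uu h2)) * (α (rhs N))⁻¹)
      rw [e1]; exact (hT _).symm

theorem y5_of {t : SU 2 F 2} (ht : Subgroup.closure {t, uu h2} = ⊤) {k : Fin 2 → SU 3 F 2} (hk : Subgroup.closure (Set.range k) = ⊤)
    (D : GS h2 κ α) (h : 2 + 3 ≤ N + 4) (π : Equiv.Perm (Fin (N + 4))) (hπ : ∀ a : Fin 3, π (sh 0 (by omega) a) = sh 2 h a)
    (c : ∀ j, Commute (κ (b0 F 2 t)) (KK κ α π (k j))) : Y5 κ α := by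
  intro _
  refine ⟨π, hπ, ?_⟩
  intro s s'
  refine comm_gen (κ.comp (b0 F 2)) ((MulAut.conj (α π)).toMonoidHom.comp κ) ht hk ?_ s s'
  rintro _ (rfl | rfl) _ ⟨j, rfl⟩
  · exact c j
  · show Commute (κ (b0 F 2 (uu h2))) (KK κ α π (k j))
    rw [D.kuu]
    have e : α (Equiv.swap ⟨0, by omega⟩ ⟨1, by omega⟩) * KK κ α π (k j) * (α (Equiv.swap ⟨0, by omega⟩ ⟨1, by omega⟩))⁻¹ = KK κ α π (k j) := by
      rw [KK_conj]
      apply D.wd
      intro a
      rw [Equiv.Perm.mul_apply, hπ]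
      apply Equiv.swap_apply_of_ne_of_ne
      · intro e; have := congrArg Fin.val e; simp only [sh_apply] at this; omega
      · intro e; have := congrArg Fin.val e; simp only [sh_apply] at this; omega
    show _ * _ = _ * _
    rwa [mul_inv_eq_iff_eq_mul] at e

theorem y6_of {k : Fin 2 → SU 3 F 2} (hk : Subgroup.closure (Set.range k) = ⊤)
    (h : 3 + 3 ≤ N + 4) (π : Equiv.Perm (Fin (N + 4))) (hπ : ∀ a : Fin 3, π (sh 0 (by omega) a) = sh 3 h a)
    (c : ∀ i j, Commute (κ (k i)) (KK κ α π (k j))) : Y6 κ α := by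
  intro _
  refine ⟨π, hπ, ?_⟩
  intro s s'
  refine comm_gen κ ((MulAut.conj (α π)).toMonoidHom.comp κ) hk hk ?_ s s'
  rintro _ ⟨i, rfl⟩ _ ⟨j, rfl⟩
  exact c i j

end

/-- the graph construction -/
theorem lift4S {F : Type u} [Field F] [Fintype F] {h2 : (2 : F) = 0} (hF : Fintype.card F = 2 ^ 2)
    (E : List (Monoid.Coprod (SU 3 F 2) (Equiv.Perm (Fin (0 + 4)))))
    (hE : ∀ w ∈ E, Monoid.Coprod.lift (blk (sh 0 (show 0 + 3 ≤ 0 + 4 by omega))) (pms h2 (0 + 4)) w = 1)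
    (hb : ∀ (Γ : Type (max u v)) [Group Γ] (κ : SU 3 F 2 →* Γ) (α : Equiv.Perm (Fin (0 + 4)) →* Γ), GS h2 κ α →
      (∀ w ∈ E, Monoid.Coprod.lift κ α w = 1) → κ.range ⊔ α.range = ⊤ → Finite Γ ∧ Nat.card Γ ≤ Nat.card (SU (0 + 4) F 2))
    {G : Type v} [Group G] (κ : SU 3 F 2 →* G) (α : Equiv.Perm (Fin (0 + 4)) →* G) (D : GS h2 κ α) (hEG : ∀ w ∈ E, Monoid.Coprod.lift κ α w = 1) :
    ∃ Φ : SU (0 + 4) F 2 →* G, (∀ x, Φ (blk (sh 0 (show 0 + 3 ≤ 0 + 4 by omega)) x) = κ x) ∧ ∀ π, Φ (pms h2 (0 + 4) π) = α π := by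
  classical
  have hgen := su_genS (h2 := h2) hF 0
  have D4 := GS.su h2 0
  set κ1 : SU 3 F 2 →* SU (0 + 4) F 2 := blk (sh 0 (show 0 + 3 ≤ 0 + 4 by omega)) with hκ1
  set α1 := pms h2 (0 + 4) with hα1
  set Γ : Subgroup (SU (0 + 4) F 2 × G) := (κ1.prod κ).range ⊔ (α1.prod α).range with hΓ
  let κ2 : SU 3 F 2 →* Γ := (κ1.prod κ).codRestrict Γ (fun x => Subgroup.mem_sup_left ⟨x, rfl⟩)
  let α2 : Equiv.Perm (Fin (0 + 4)) →* Γ := (α1.prod α).codRestrict Γ (fun x => Subgroup.mem_sup_right ⟨x, rfl⟩)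
  have D2 : GS h2 κ2 α2 := by
    refine ⟨?_, ?_, ?_, ?_⟩
    · intro τ; exact Subtype.ext (Prod.ext (D4.A τ) (D.A τ))
    · intro σ h s; exact Subtype.ext (Prod.ext (D4.C σ h s) (D.C σ h s))
    · intro s; exact Subtype.ext (Prod.ext (D4.T s) (D.T s))
    · intro s t; exact Subtype.ext (Prod.ext (D4.X s t) (D.X s t))
  have hE2 : ∀ w ∈ E, Monoid.Coprod.lift κ2 α2 w = 1 := by
    intro w hw
    have e1 : ((MonoidHom.fst _ _).comp Γ.subtype).comp (Monoid.Coprod.lift κ2 α2) = Monoid.Coprod.lift κ1 α1 := by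
      apply Monoid.Coprod.hom_ext
      · ext x; simp [κ2]
      · ext x; simp [α2]
    have e2 : ((MonoidHom.snd _ _).comp Γ.subtype).comp (Monoid.Coprod.lift κ2 α2) = Monoid.Coprod.lift κ α := by
      apply Monoid.Coprod.hom_ext
      · ext x; simp [κ2]
      · ext x; simp [α2]
    apply Subtype.ext
    apply Prod.ext
    · have := DFunLike.congr_fun e1 w
      exact this.trans (hE w hw)
    · have := DFunLike.congr_fun e2 w
      exact this.trans (hEG w hw)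
  have hgen2 : κ2.range ⊔ α2.range = ⊤ := by
    apply Subgroup.map_injective Γ.subtype_injective
    rw [Subgroup.map_sup, MonoidHom.map_range, MonoidHom.map_range, ← MonoidHom.range_eq_map, Subgroup.range_subtype]
    rfl
  obtain ⟨hfin, hcard⟩ := hb Γ κ2 α2 D2 hE2 hgen2
  let f : Γ →* SU (0 + 4) F 2 := (MonoidHom.fst _ _).comp Γ.subtype
  have hf : Function.Surjective f := by
    rw [← MonoidHom.range_eq_top, eq_top_iff, ← hgen, sup_le_iff]
    constructor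
    · rintro _ ⟨x, rfl⟩; exact ⟨κ2 x, rfl⟩
    · rintro _ ⟨x, rfl⟩; exact ⟨α2 x, rfl⟩
  haveI := Fintype.ofFinite Γ
  have hbij : Function.Bijective f := by
    rw [Nat.bijective_iff_surjective_and_card]
    exact ⟨hf, le_antisymm hcard (Nat.card_le_card_of_surjective f hf)⟩
  let e := MulEquiv.ofBijective f hbij
  refine ⟨((MonoidHom.snd _ _).comp Γ.subtype).comp e.symm.toMonoidHom, ?_, ?_⟩
  · intro x
    have : e.symm (κ1 x) = κ2 x := by rw [MulEquiv.symm_apply_eq]; rfl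
    show (e.symm (κ1 x)).1.2 = κ x
    rw [this]; rfl
  · intro x
    have : e.symm (α1 x) = α2 x := by rw [MulEquiv.symm_apply_eq]; rfl
    show (e.symm (α1 x)).1.2 = α x
    rw [this]; rfl

end Cfsg.Agent.Lib.PresU.T2
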