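import Cfsg.Agent.Lib.PresUR

/-! Gluing `SU_3(2)` and the symmetric group: the presentation theorem (helper38). -/

set_option autoImplicit false
set_option linter.unusedSectionVars false
set_option linter.unusedSimpArgs false
set_option linter.style.haveILetI false

namespace Cfsg.Agent.Lib.PresU.T2

open Module Matrix Cfsg Cfsg.Agent.Lib.Phan Cfsg.Agent.Lib.UnTrans Cfsg.Agent.Lib.UnBridge Cfsg.Agent.Lib.ClUnSimple Cfsg.Agent.Lib.PresU
open Cfsg.Agent.Lib.PresHas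

universe u v

/-- commutators -/
def cm {G : Type*} [Group G] (x y : G) : G := x * y * x⁻¹ * y⁻¹

theorem cm_eq {G : Type*} [Group G] {x y : G} : cm x y = 1 ↔ Commute x y := cm_iff

theorem map_cm {G H : Type*} [Group G] [Group H] (f : G →* H) (x y : G) : f (cm x y) = cm (f x) (f y) := by
  rw [cm, cm, map_mul, map_mul, map_mul, map_inv, map_inv]

variable {F : Type u} [Field F] {N : ℕ}

/-- the relators -/
noncomputable def relS (h2 : (2 : F) = 0) (N : ℕ) (t : SU 2 F 2) (k : Fin 2 → SU 3 F 2) (σ : Fin 2 → Equiv.Perm (Fin (N + 1))) :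
    List (Monoid.Coprod (SU 3 F 2) (Equiv.Perm (Fin (N + 4)))) :=
  [Monoid.Coprod.inl (pms h2 3 (Equiv.swap 0 1)) * (Monoid.Coprod.inr (ex (sh 0 (show 0 + 3 ≤ N + 4 by omega)) (Equiv.swap 0 1)))⁻¹,
   Monoid.Coprod.inl (pms h2 3 (Equiv.swap 1 2)) * (Monoid.Coprod.inr (ex (sh 0 (show 0 + 3 ≤ N + 4 by omega)) (Equiv.swap 1 2)))⁻¹,
   cm (Monoid.Coprod.inr (ex (sh 3 (show 3 + (N + 1) ≤ N + 4 by omega)) (σ 0))) (Monoid.Coprod.inl (k 0)),
   cm (Monoid.Coprod.inr (ex (sh 3 (show 3 + (N + 1) ≤ N + 4 by omega)) (σ 0))) (Monoid.Coprod.inl (k 1)),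
   cm (Monoid.Coprod.inr (ex (sh 3 (show 3 + (N + 1) ≤ N + 4 by omega)) (σ 1))) (Monoid.Coprod.inl (k 0)),
   cm (Monoid.Coprod.inr (ex (sh 3 (show 3 + (N + 1) ≤ N + 4 by omega)) (σ 1))) (Monoid.Coprod.inl (k 1)),
   cm (Monoid.Coprod.inr (s23 N)) (Monoid.Coprod.inl (b0 F 2 t)),
   cm (Monoid.Coprod.inl (b0 F 2 t)) (Monoid.Coprod.inr (rhs N) * Monoid.Coprod.inl (b0 F 2 t) * (Monoid.Coprod.inr (rhs N))⁻¹)]

/-- the relators for `n ≥ 5` -/
noncomputable def rel5 (t : SU 2 F 2) (k : Fin 2 → SU 3 F 2) (π : Equiv.Perm (Fin (N + 4))) :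
    List (Monoid.Coprod (SU 3 F 2) (Equiv.Perm (Fin (N + 4)))) :=
  [cm (Monoid.Coprod.inl (b0 F 2 t)) (KK Monoid.Coprod.inl Monoid.Coprod.inr π (k 0)),
   cm (Monoid.Coprod.inl (b0 F 2 t)) (KK Monoid.Coprod.inl Monoid.Coprod.inr π (k 1))]

/-- the relators for `n ≥ 6` -/
noncomputable def rel6 (k : Fin 2 → SU 3 F 2) (π : Equiv.Perm (Fin (N + 4))) :
    List (Monoid.Coprod (SU 3 F 2) (Equiv.Perm (Fin (N + 4)))) :=
  [cm (Monoid.Coprod.inl (k 0)) (KK Monoid.Coprod.inl Monoid.Coprod.inr π (k 0)),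
   cm (Monoid.Coprod.inl (k 0)) (KK Monoid.Coprod.inl Monoid.Coprod.inr π (k 1)),
   cm (Monoid.Coprod.inl (k 1)) (KK Monoid.Coprod.inl Monoid.Coprod.inr π (k 0)),
   cm (Monoid.Coprod.inl (k 1)) (KK Monoid.Coprod.inl Monoid.Coprod.inr π (k 1))]

section
variable {G : Type*} [Group G] {κ : SU 3 F 2 →* G} {α : Equiv.Perm (Fin (N + 4)) →* G} {h2 : (2 : F) = 0}

theorem lift_KK (π : Equiv.Perm (Fin (N + 4))) (s : SU 3 F 2) :
    Monoid.Coprod.lift κ α (KK Monoid.Coprod.inl Monoid.Coprod.inr π s) = KK κ α π s := by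
  rw [KK, KK, map_mul, map_mul, map_inv, Monoid.Coprod.lift_apply_inl, Monoid.Coprod.lift_apply_inr]

theorem relS_iff (t : SU 2 F 2) (k : Fin 2 → SU 3 F 2) (σ : Fin 2 → Equiv.Perm (Fin (N + 1))) :
    (∀ w ∈ relS h2 N t k σ, Monoid.Coprod.lift κ α w = 1) ↔
    κ (pms h2 3 (Equiv.swap 0 1)) = α (ex (sh 0 (show 0 + 3 ≤ N + 4 by omega)) (Equiv.swap 0 1)) ∧
    κ (pms h2 3 (Equiv.swap 1 2)) = α (ex (sh 0 (show 0 + 3 ≤ N + 4 by omega)) (Equiv.swap 1 2)) ∧
    Commute (α (ex (sh 3 (show 3 + (N + 1) ≤ N + 4 by omega)) (σ 0))) (κ (k 0)) ∧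
    Commute (α (ex (sh 3 (show 3 + (N + 1) ≤ N + 4 by omega)) (σ 0))) (κ (k 1)) ∧
    Commute (α (ex (sh 3 (show 3 + (N + 1) ≤ N + 4 by omega)) (σ 1))) (κ (k 0)) ∧
    Commute (α (ex (sh 3 (show 3 + (N + 1) ≤ N + 4 by omega)) (σ 1))) (κ (k 1)) ∧
    Commute (α (s23 N)) (κ (b0 F 2 t)) ∧ Commute (κ (b0 F 2 t)) (α (rhs N) * κ (b0 F 2 t) * (α (rhs N))⁻¹) := by
  rw [relS]
  simp only [List.mem_cons, List.not_mem_nil, or_false, forall_eq_or_imp, forall_eq, map_cm, map_mul, map_inv, Monoid.Coprod.lift_apply_inl,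
    Monoid.Coprod.lift_apply_inr, cm_eq, mul_inv_eq_one]

theorem rel5_iff (t : SU 2 F 2) (k : Fin 2 → SU 3 F 2) (π : Equiv.Perm (Fin (N + 4))) :
    (∀ w ∈ rel5 t k π, Monoid.Coprod.lift κ α w = 1) ↔ Commute (κ (b0 F 2 t)) (KK κ α π (k 0)) ∧ Commute (κ (b0 F 2 t)) (KK κ α π (k 1)) := by
  rw [rel5]
  simp only [List.mem_cons, List.not_mem_nil, or_false, forall_eq_or_imp, forall_eq, map_cm, lift_KK, Monoid.Coprod.lift_apply_inl, cm_eq]

theorem rel6_iff (k : Fin 2 → SU 3 F 2) (π : Equiv.Perm (Fin (N + 4))) :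
    (∀ w ∈ rel6 k π, Monoid.Coprod.lift κ α w = 1) ↔ Commute (κ (k 0)) (KK κ α π (k 0)) ∧ Commute (κ (k 0)) (KK κ α π (k 1)) ∧
      Commute (κ (k 1)) (KK κ α π (k 0)) ∧ Commute (κ (k 1)) (KK κ α π (k 1)) := by
  rw [rel6]
  simp only [List.mem_cons, List.not_mem_nil, or_false, forall_eq_or_imp, forall_eq, map_cm, lift_KK, Monoid.Coprod.lift_apply_inl, cm_eq]

end

/-- transported relators -/
noncomputable def trS (N : ℕ) (E : List (Monoid.Coprod (SU 3 F 2) (Equiv.Perm (Fin (0 + 4))))) :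
    List (Monoid.Coprod (SU 3 F 2) (Equiv.Perm (Fin (N + 4)))) := E.map (Monoid.Coprod.map (MonoidHom.id _) (ex (sh 0 (show 0 + (0 + 4) ≤ N + 4 by omega))))

theorem trS_iff {G : Type*} [Group G] (κ : SU 3 F 2 →* G) (α : Equiv.Perm (Fin (N + 4)) →* G)
    (E : List (Monoid.Coprod (SU 3 F 2) (Equiv.Perm (Fin (0 + 4))))) :
    (∀ w ∈ trS N E, Monoid.Coprod.lift κ α w = 1) ↔ ∀ w ∈ E, Monoid.Coprod.lift κ (α.comp (ex (sh 0 (show 0 + (0 + 4) ≤ N + 4 by omega)))) w = 1 := by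
  have h1 : (Monoid.Coprod.lift κ α).comp (Monoid.Coprod.map (MonoidHom.id _) (ex (sh 0 (show 0 + (0 + 4) ≤ N + 4 by omega)))) =
      Monoid.Coprod.lift κ (α.comp (ex (sh 0 (show 0 + (0 + 4) ≤ N + 4 by omega)))) := by
    apply Monoid.Coprod.hom_ext
    · ext x; simp
    · ext x; simp
  rw [trS]
  simp only [List.mem_map, forall_exists_index, and_imp, forall_apply_eq_imp_iff₂]
  constructor
  · intro h w hw; rw [← h1]; exact h w hw
  · intro h w hw; have := h w hw; rw [← h1] at this; exact this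

/-- **presentations of `SU_n(2)`** -/
theorem hasPres_glueS [Fintype F] (h2 : (2 : F) = 0) (hF : Fintype.card F = 2 ^ 2) {m r mA rA : ℕ} (hK : HasPres (SU 3 F 2) m r)
    (hA : HasPres (Equiv.Perm (Fin (N + 4))) mA rA) {t : SU 2 F 2} (ht : Subgroup.closure {t, uu h2} = ⊤)
    {k : Fin 2 → SU 3 F 2} (hk : Subgroup.closure (Set.range k) = ⊤)
    (L : List (Monoid.Coprod (SU 3 F 2) (Equiv.Perm (Fin (N + 4)))))
    (hLsu : ∀ w ∈ L, Monoid.Coprod.lift (blk (sh 0 (show 0 + 3 ≤ N + 4 by omega))) (pms h2 (N + 4)) w = 1)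
    (hL : ∀ (G : Type u) [Group G] (κ : SU 3 F 2 →* G) (α : Equiv.Perm (Fin (N + 4)) →* G), GS h2 κ α →
      (∀ w ∈ L, Monoid.Coprod.lift κ α w = 1) → Y5 κ α ∧ Y6 κ α)
    (E : List (Monoid.Coprod (SU 3 F 2) (Equiv.Perm (Fin (0 + 4)))))
    (hE : ∀ w ∈ E, Monoid.Coprod.lift (blk (sh 0 (show 0 + 3 ≤ 0 + 4 by omega))) (pms h2 (0 + 4)) w = 1)
    (hb : ∀ (Γ : Type u) [Group Γ] (κ : SU 3 F 2 →* Γ) (α : Equiv.Perm (Fin (0 + 4)) →* Γ), GS h2 κ α →
      (∀ w ∈ E, Monoid.Coprod.lift κ α w = 1) → κ.range ⊔ α.range = ⊤ → Finite Γ ∧ Nat.card Γ ≤ Nat.card (SU (0 + 4) F 2)) :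
    HasPres (SU (N + 4) F 2) (m + mA) (r + rA + (8 + L.length + E.length)) := by
  obtain ⟨σ, hσ⟩ := (sn (N + 1)).gens
  have h1 := (hK.coprod hA).quot (relS h2 N t k σ ++ L ++ trS N E)
  have hlen : (relS h2 N t k σ ++ L ++ trS N E).length = 8 + L.length + E.length := by
    rw [List.length_append, List.length_append, trS, List.length_map]; rfl
  rw [hlen] at h1
  refine h1.congr ?_
  set K := Subgroup.normalClosure {x | x ∈ relS h2 N t k σ ++ L ++ trS N E} with hKd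
  have hsu : ∀ w ∈ trS N E, Monoid.Coprod.lift (blk (sh 0 (show 0 + 3 ≤ N + 4 by omega))) (pms h2 (N + 4)) w = 1 := by
    rw [trS_iff]
    intro w hw
    have e : Monoid.Coprod.lift (blk (sh 0 (show 0 + 3 ≤ N + 4 by omega))) ((pms h2 (N + 4)).comp (ex (sh 0 (show 0 + (0 + 4) ≤ N + 4 by omega)))) =
        (blk (sh 0 (show 0 + (0 + 4) ≤ N + 4 by omega))).comp (Monoid.Coprod.lift (blk (sh 0 (show 0 + 3 ≤ 0 + 4 by omega))) (pms h2 (0 + 4))) := by
      apply Monoid.Coprod.hom_ext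
      · ext1 x
        rw [MonoidHom.comp_apply, MonoidHom.comp_apply, MonoidHom.comp_apply, Monoid.Coprod.lift_apply_inl, Monoid.Coprod.lift_apply_inl, blk_sh]
      · ext1 x
        rw [MonoidHom.comp_apply, MonoidHom.comp_apply, MonoidHom.comp_apply, Monoid.Coprod.lift_apply_inr, Monoid.Coprod.lift_apply_inr]
        exact pms_ex h2 _ x
    rw [e, MonoidHom.comp_apply, hE w hw, map_one]
  have hrel : ∀ w ∈ relS h2 N t k σ, Monoid.Coprod.lift (blk (sh 0 (show 0 + 3 ≤ N + 4 by omega))) (pms h2 (N + 4)) w = 1 := by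
    have D := GS.su h2 N
    have hC : ∀ (i j : Fin 2), Commute (pms h2 (N + 4) (ex (sh 3 (show 3 + (N + 1) ≤ N + 4 by omega)) (σ i))) (blk (sh 0 (show 0 + 3 ≤ N + 4 by omega)) (k j)) := by
      intro i j
      apply D.C
      intro a
      apply ex_out
      rintro ⟨b, hb⟩
      have := congrArg Fin.val hb
      simp only [sh_apply] at this
      omega
    rw [relS_iff]
    exact ⟨D.A _, D.A _, hC 0 0, hC 0 1, hC 1 0, hC 1 1, D.T t, D.X t t⟩
  let f : (Monoid.Coprod (SU 3 F 2) (Equiv.Perm (Fin (N + 4))) ⧸ K) →* SU (N + 4) F 2 :=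
    QuotientGroup.lift K (Monoid.Coprod.lift (blk (sh 0 (show 0 + 3 ≤ N + 4 by omega))) (pms h2 (N + 4))) (by
      apply Subgroup.normalClosure_le_normal
      intro w hw
      rcases List.mem_append.1 hw with hw | hw
      · rcases List.mem_append.1 hw with hw | hw
        · exact hrel w hw
        · exact hLsu w hw
      · exact hsu w hw)
  let κ : SU 3 F 2 →* (Monoid.Coprod (SU 3 F 2) (Equiv.Perm (Fin (N + 4))) ⧸ K) := (QuotientGroup.mk' K).comp Monoid.Coprod.inl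
  let α : Equiv.Perm (Fin (N + 4)) →* (Monoid.Coprod (SU 3 F 2) (Equiv.Perm (Fin (N + 4))) ⧸ K) := (QuotientGroup.mk' K).comp Monoid.Coprod.inr
  have hlift : Monoid.Coprod.lift κ α = QuotientGroup.mk' K := by
    apply Monoid.Coprod.hom_ext
    · rw [Monoid.Coprod.lift_comp_inl]
    · rw [Monoid.Coprod.lift_comp_inr]
  have hin : ∀ w ∈ relS h2 N t k σ ++ L ++ trS N E, Monoid.Coprod.lift κ α w = 1 := by
    intro w hw
    rw [hlift]
    exact (QuotientGroup.eq_one_iff w).2 (Subgroup.subset_normalClosure hw)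
  have D : GS h2 κ α := by
    have h3 : ∀ w ∈ relS h2 N t k σ, Monoid.Coprod.lift κ α w = 1 := fun w hw => hin w (List.mem_append_left _ (List.mem_append_left _ hw))
    rw [relS_iff] at h3
    obtain ⟨r1, r2, r3, r4, r5, r6, r7, r8⟩ := h3
    refine gs_of ht hk hσ r1 r2 ?_ r7 r8
    intro i j
    fin_cases i <;> fin_cases j
    · exact r3
    · exact r4
    · exact r5
    · exact r6
  have hY := hL _ κ α D (fun w hw => hin w (List.mem_append_left _ (List.mem_append_right _ hw)))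
  have hEG : ∀ w ∈ E, Monoid.Coprod.lift κ (α.comp (ex (sh 0 (show 0 + (0 + 4) ≤ N + 4 by omega)))) w = 1 := by
    rw [← trS_iff]
    exact fun w hw => hin w (List.mem_append_right _ hw)
  have hgen : κ.range ⊔ α.range = ⊤ := by
    rw [MonoidHom.range_comp, MonoidHom.range_comp, ← Subgroup.map_sup, Monoid.Coprod.range_inl_sup_range_inr, ← MonoidHom.range_eq_map,
      MonoidHom.range_eq_top]
    exact QuotientGroup.mk'_surjective K
  have hbij : Function.Bijective f := by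
    obtain ⟨Φ, hΦ1, hΦ2⟩ := lift4S.{u, u} hF E hE hb κ (α.comp (ex (sh 0 (show 0 + (0 + 4) ≤ N + 4 by omega)))) D.restr hEG
    exact D.main hF hY.1 hY.2 Φ (D.lab4 Φ hΦ1 hΦ2) f (by
      intro x
      show Monoid.Coprod.lift (blk (sh 0 (show 0 + 3 ≤ N + 4 by omega))) (pms h2 (N + 4)) (Monoid.Coprod.inl x) = _
      rw [Monoid.Coprod.lift_apply_inl]) (by
      intro π
      show Monoid.Coprod.lift (blk (sh 0 (show 0 + 3 ≤ N + 4 by omega))) (pms h2 (N + 4)) (Monoid.Coprod.inr π) = _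
      rw [Monoid.Coprod.lift_apply_inr]) hgen
  exact MulEquiv.ofBijective f hbij

/-- all `n`: 6 more relators for large `n` -/
theorem hasPres_allS [Fintype F] (h2 : (2 : F) = 0) (hF : Fintype.card F = 2 ^ 2) {m r mA rA : ℕ} (hK : HasPres (SU 3 F 2) m r)
    (hA : HasPres (Equiv.Perm (Fin (N + 4))) mA rA) {t : SU 2 F 2} (ht : Subgroup.closure {t, uu h2} = ⊤)
    {k : Fin 2 → SU 3 F 2} (hk : Subgroup.closure (Set.range k) = ⊤)
    (E : List (Monoid.Coprod (SU 3 F 2) (Equiv.Perm (Fin (0 + 4)))))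
    (hE : ∀ w ∈ E, Monoid.Coprod.lift (blk (sh 0 (show 0 + 3 ≤ 0 + 4 by omega))) (pms h2 (0 + 4)) w = 1)
    (hb : ∀ (Γ : Type u) [Group Γ] (κ : SU 3 F 2 →* Γ) (α : Equiv.Perm (Fin (0 + 4)) →* Γ), GS h2 κ α →
      (∀ w ∈ E, Monoid.Coprod.lift κ α w = 1) → κ.range ⊔ α.range = ⊤ → Finite Γ ∧ Nat.card Γ ≤ Nat.card (SU (0 + 4) F 2)) :
    HasPres (SU (N + 4) F 2) (m + mA) (r + rA + (8 + (if N ≤ 1 then 2 else 6) + E.length)) := by
  obtain ⟨l, hl, L, hlen, hLsu, hL⟩ : ∃ l ≤ (if N ≤ 1 then 2 else 6), ∃ L : List (Monoid.Coprod (SU 3 F 2) (Equiv.Perm (Fin (N + 4)))),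
      L.length = l ∧ (∀ w ∈ L, Monoid.Coprod.lift (blk (sh 0 (show 0 + 3 ≤ N + 4 by omega))) (pms h2 (N + 4)) w = 1) ∧
      (∀ (G : Type u) [Group G] (κ : SU 3 F 2 →* G) (α : Equiv.Perm (Fin (N + 4)) →* G), GS h2 κ α →
      (∀ w ∈ L, Monoid.Coprod.lift κ α w = 1) → Y5 κ α ∧ Y6 κ α) := by
    rcases Nat.lt_or_ge N 2 with hN | hN
    · rw [if_pos (by omega)]
      rcases Nat.lt_or_ge N 1 with hN' | hN'
      · refine ⟨0, by norm_num, [], rfl, by simp, ?_⟩
        intro G _ κ α D _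
        exact ⟨fun h => absurd h (by omega), fun h => absurd h (by omega)⟩
      · obtain ⟨π5, h5⟩ := exists_perm (show 0 + 3 ≤ N + 4 by omega) (sh 2 (show 2 + 3 ≤ N + 4 by omega))
        refine ⟨2, le_rfl, rel5 t k π5, rfl, ?_, ?_⟩
        · rw [rel5_iff]
          exact ⟨su5 (by omega) π5 h5 t _, su5 (by omega) π5 h5 t _⟩
        · intro G _ κ α D h
          rw [rel5_iff] at h
          refine ⟨y5_of ht hk D (by omega) π5 h5 ?_, fun h => absurd h (by omega)⟩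
          intro j
          fin_cases j
          · exact h.1
          · exact h.2
    · rw [if_neg (by omega)]
      obtain ⟨π5, h5⟩ := exists_perm (show 0 + 3 ≤ N + 4 by omega) (sh 2 (show 2 + 3 ≤ N + 4 by omega))
      obtain ⟨π6, h6⟩ := exists_perm (show 0 + 3 ≤ N + 4 by omega) (sh 3 (show 3 + 3 ≤ N + 4 by omega))
      refine ⟨6, le_rfl, rel5 t k π5 ++ rel6 k π6, rfl, ?_, ?_⟩
      · have e5 : ∀ w ∈ rel5 t k π5, Monoid.Coprod.lift (blk (sh 0 (show 0 + 3 ≤ N + 4 by omega))) (pms h2 (N + 4)) w = 1 := by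
          rw [rel5_iff]
          exact ⟨su5 (by omega) π5 h5 t _, su5 (by omega) π5 h5 t _⟩
        have e6 : ∀ w ∈ rel6 k π6, Monoid.Coprod.lift (blk (sh 0 (show 0 + 3 ≤ N + 4 by omega))) (pms h2 (N + 4)) w = 1 := by
          rw [rel6_iff]
          exact ⟨su6 (by omega) π6 h6 _ _, su6 (by omega) π6 h6 _ _, su6 (by omega) π6 h6 _ _, su6 (by omega) π6 h6 _ _⟩
        intro w hw
        rcases List.mem_append.1 hw with hw | hw
        · exact e5 w hw
        · exact e6 w hw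
      · intro G _ κ α D h
        have e5 : ∀ w ∈ rel5 t k π5, Monoid.Coprod.lift κ α w = 1 := fun w hw => h w (List.mem_append_left _ hw)
        have e6 : ∀ w ∈ rel6 k π6, Monoid.Coprod.lift κ α w = 1 := fun w hw => h w (List.mem_append_right _ hw)
        rw [rel5_iff] at e5
        rw [rel6_iff] at e6
        constructor
        · refine y5_of ht hk D (by omega) π5 h5 ?_
          intro j
          fin_cases j
          · exact e5.1
          · exact e5.2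
        · refine y6_of hk (by omega) π6 h6 ?_
          intro i j
          fin_cases i <;> fin_cases j
          · exact e6.1
          · exact e6.2.1
          · exact e6.2.2.1
          · exact e6.2.2.2
  subst hlen
  exact (hasPres_glueS h2 hF hK hA ht hk L hLsu hL E hE hb).mono (by omega)

end Cfsg.Agent.Lib.PresU.T2
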