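import Cfsg.Agent.Lib.PresUS
import Cfsg.Agent.Lib.PresUV

/-! The letters for `q = 2` (helper38). -/

set_option autoImplicit false
set_option linter.unusedSectionVars false
set_option linter.unusedSimpArgs false
set_option linter.style.haveILetI false
set_option maxRecDepth 100000

namespace Cfsg.Agent.Lib.PresU.T2

open Module Matrix Cfsg Cfsg.Agent.Lib.Phan Cfsg.Agent.Lib.UnTrans Cfsg.Agent.Lib.UnBridge Cfsg.Agent.Lib.ClUnSimple Cfsg.Agent.Lib.PresU
open Cfsg.Agent.Lib.PresHas Cfsg.Agent.Lib.PresU.Code Cfsg.Agent.Lib.H10Enum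
open Cfsg.Agent.Lib.PresU.D3 (nth evW evW_sound eq_one_of_code wval_hom isT isT_spec inv_self)

section
variable {F : Type*} [Field F] [Fintype F] {q n : ℕ} (hF : Fintype.card F = q ^ 2)

include hF in
theorem herm_of (A : Matrix (Fin n) (Fin n) F) (h : Aᵀ * A.map (sig hF) = 1) (u v : Fin n → F) :
    hermForm n F q (A *ᵥ u) (A *ᵥ v) = hermForm n F q u v := by
  have e : ∀ u v : Fin n → F, hermForm n F q u v = u ⬝ᵥ (sig hF ∘ v) := by
    intro u v
    simp only [hermForm, dotProduct, Function.comp_apply, sig_apply]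
  rw [e, e]
  have e2 : sig hF ∘ (A *ᵥ v) = A.map (sig hF) *ᵥ (sig hF ∘ v) := by
    funext i
    simp only [Function.comp_apply, Matrix.mulVec, dotProduct, map_sum, map_mul, Matrix.map_apply]
  rw [e2, Matrix.dotProduct_mulVec, ← Matrix.mulVec_transpose, Matrix.mulVec_mulVec]
  have h1 : (A.map (sig hF))ᵀ * A = 1 := by
    have := congrArg Matrix.transpose h
    rw [Matrix.transpose_mul, Matrix.transpose_transpose, Matrix.transpose_one] at this
    exact this
  rw [h1, Matrix.one_mulVec]

/-- elements of `SU_n` from matrices -/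
def mkS (A : Matrix (Fin n) (Fin n) F) (hd : A.det = 1) (h : Aᵀ * A.map (sig hF) = 1) : SU n F q := ⟨⟨A, hd⟩, herm_of hF A h⟩

theorem mkS_coe (A : Matrix (Fin n) (Fin n) F) (hd : A.det = 1) (h : Aᵀ * A.map (sig hF) = 1) : (mkS hF A hd h).1.1 = A := rfl

end

/-- codes of permutation matrices of degree three -/
def pmC3 (π : Equiv.Perm (Fin 3)) : ℕ := pack (fun s => if h : s < 9 then (if (⟨s / 3, by omega⟩ : Fin 3) = π ⟨s % 3, by omega⟩ then 1 else 0) else 0) 9

section q2
variable {F : Type*} [Field F] [Fintype F] (hF : Fintype.card F = 2 ^ 2) {z : F} (hz : z ^ 2 + z + 1 = 0)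
include hF

theorem char2 : CharP F 2 := by
  obtain ⟨p, hp⟩ := CharP.exists F
  haveI : Fact p.Prime := ⟨CharP.char_is_prime F p⟩
  have h1 : ((Fintype.card F : ℕ) : F) = 0 := Nat.cast_card_eq_zero F
  rw [CharP.cast_eq_zero_iff F p, hF] at h1
  have h2 : p ∣ 2 := (Fact.out : p.Prime).dvd_of_dvd_pow h1
  have h3 : p = 2 := (Nat.prime_dvd_prime_iff_eq (Fact.out : p.Prime) Nat.prime_two).1 h2
  rw [← h3]; exact hp

include hz in
theorem sig_z : sig hF z = z ^ 2 := sig_apply hF z

include hz in
omit hF [Fintype F] in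
theorem z0 : z ≠ 0 := by
  rintro rfl
  simp at hz

include hz in
omit hF [Fintype F] in
theorem z3 : z ^ 3 = 1 := by linear_combination (z - 1) * hz

include hz in
theorem iota2 : z ^ 2 = ((1 : ℕ) : F) + ((1 : ℕ) : F) * z := by
  have h2 := q2_char hF
  push_cast
  linear_combination hz - (1 + z) * h2

include hz in
/-- the torus generator -/
theorem t2_ok : z * sig hF z + 0 * sig hF 0 = 1 := by
  rw [sig_apply]; linear_combination (z - 1) * hz

/-- the torus element -/
noncomputable def t2 : SU 2 F 2 := su2 hF z 0 (t2_ok hF hz)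

theorem t2_coe : (t2 hF hz).1.1 = !![z, 0; 0, z ^ 2] := by
  rw [t2, su2_coe, map_zero, neg_zero, sig_apply]

/-- the matrix of order four -/
noncomputable def yM (z : F) : Matrix (Fin 3) (Fin 3) F := !![1, 1, 1; 1, z, z ^ 2; 1, z ^ 2, z]
/-- its twist -/
noncomputable def yN (z : F) : Matrix (Fin 3) (Fin 3) F := !![1, 1, z ^ 2; 1, z, z; z, 1, z]

include hz in
theorem yM_det : (yM z).det = 1 := by
  have h2 := q2_char hF
  have h3 := z3 hz
  rw [yM, Matrix.det_fin_three]
  simp
  linear_combination (1 - z) * h3 + hz - (1 + z) * h2 - h3 + (z ^ 2 - z) * h2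

include hz in
theorem yN_det : (yN z).det = 1 := by
  have h2 := q2_char hF
  have h3 := z3 hz
  rw [yN, Matrix.det_fin_three]
  simp
  linear_combination h3 - (1 + z) * h3 + 3 * hz - (3 * z + 2) * h2

include hz in
theorem yM_form : (yM z)ᵀ * (yM z).map (sig hF) = 1 := by
  have h2 := q2_char hF
  have h3 := z3 hz
  have e1 : sig hF z = z ^ 2 := sig_apply hF z
  have e2 : sig hF (z ^ 2) = z := by rw [map_pow, e1]; linear_combination z * h3
  ext i j
  rw [Matrix.mul_apply, Fin.sum_univ_three, yM]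
  fin_cases i <;> fin_cases j <;> simp [e1, e2, -map_pow]
  all_goals first | linear_combination h2 | linear_combination hz | linear_combination 2 * h3 + h2 | linear_combination hz + z * h3 | linear_combination h3 + h2 | linear_combination hz + h3 | linear_combination 3 * h3 + h2

include hz in
theorem yN_form : (yN z)ᵀ * (yN z).map (sig hF) = 1 := by
  have h2 := q2_char hF
  have h3 := z3 hz
  have e1 : sig hF z = z ^ 2 := sig_apply hF z
  have e2 : sig hF (z ^ 2) = z := by rw [map_pow, e1]; linear_combination z * h3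
  ext i j
  rw [Matrix.mul_apply, Fin.sum_univ_three, yN]
  fin_cases i <;> fin_cases j <;> simp [e1, e2, -map_pow]
  all_goals first | linear_combination h2 | linear_combination hz | linear_combination 2 * h3 + h2 | linear_combination hz + z * h3 | linear_combination h3 + h2 | linear_combination hz + h3 | linear_combination 3 * h3 + h2

/-- the element of order four -/
noncomputable def yY : SU 3 F 2 := mkS hF (yM z) (yM_det hF hz) (yM_form hF hz)
/-- its twist -/
noncomputable def yZ : SU 3 F 2 := mkS hF (yN z) (yN_det hF hz) (yN_form hF hz)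

/-- the letters of the block -/
noncomputable def yK (k : ℕ) : SU 3 F 2 :=
  if k = 1 then pms (q2_char hF) 3 tau3 else if k = 2 then b0 F 2 (t2 hF hz) else if k = 3 then pms (q2_char hF) 3 (Equiv.swap 0 1)
  else if k = 4 then yY hF hz else if k = 5 then yZ hF hz else if k = 8 then pms (q2_char hF) 3 (Equiv.swap 1 2) else 1

/-- codes -/
def cT : List ℕ := [0, 0, 34359772160, 1107296288, 1099514773506, 1099513724931, 1099511660576, 1099511660576, 2303279006753, 3368398390305, 2235599719457, 3403798318113, 0, 0, 0, 0, 34393292801, 34393292801]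

/-- codes of the block -/
def gK (a : ℕ) : Bool := (Nat.ble 2 a && Nat.ble a 11) || (Nat.ble 16 a && Nat.ble a 17)

omit hF [Fintype F] in
theorem w0 : vd 2 z 0 = 0 := by simp [vd]
omit hF [Fintype F] in
theorem w1 : vd 2 z 1 = 1 := by simp [vd]
omit hF [Fintype F] in
theorem w2 : vd 2 z 2 = z := by simp [vd]
include hz in
theorem w3 : vd 2 z 3 = z ^ 2 := by
  have h2 := q2_char hF
  simp only [vd]; norm_num; linear_combination -hz + (1 + z) * h2

omit hF [Fintype F] in
/-- entrywise evaluation of codes -/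
theorem evalM3 (A : ℕ) : evalM 2 z 3 A = !![vd 2 z (dg A 0), vd 2 z (dg A 1), vd 2 z (dg A 2); vd 2 z (dg A 3), vd 2 z (dg A 4), vd 2 z (dg A 5);
    vd 2 z (dg A 6), vd 2 z (dg A 7), vd 2 z (dg A 8)] := by
  ext a b
  fin_cases a <;> fin_cases b <;> rfl

include hz in
/-- codes of inverses -/
theorem inv_code {n : ℕ} {x : SU n F 2} {A B : ℕ} (h : x.1.1 = evalM 2 z n A) (hAB : Nat.beq (mulC 2 1 1 n A B) (idC n) = true) :
    (x⁻¹).1.1 = evalM 2 z n B := by
  haveI := char2 hF
  haveI : Fact (Nat.Prime 2) := ⟨Nat.prime_two⟩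
  have h1 : x.1.1 * evalM 2 z n B = 1 := by
    rw [h, ← evalM_mul (iota2 hF hz) (by norm_num), Nat.eq_of_beq_eq_true hAB, evalM_id (by norm_num)]
  have h2 : (x⁻¹).1.1 * x.1.1 = 1 := by
    show (x⁻¹ * x).1.1 = 1
    rw [inv_mul_cancel]; rfl
  calc (x⁻¹).1.1 = (x⁻¹).1.1 * (x.1.1 * evalM 2 z n B) := by rw [h1, Matrix.mul_one]
    _ = evalM 2 z n B := by rw [← Matrix.mul_assoc, h2, Matrix.one_mul]

omit hF [Fintype F] in
theorem evalM_pms3 (h2 : (2 : F) = 0) (π : Equiv.Perm (Fin 3)) : evalM 2 z 3 (pmC3 π) = (pms h2 3 π).1.1 := by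
  ext a b
  rw [pms_coe, emb_apply]
  show vd 2 z (dg (pmC3 π) (3 * a.1 + b.1)) = _
  have hlt : 3 * a.1 + b.1 < 9 := by omega
  rw [pmC3, dg_pack _ hlt]
  · rw [dif_pos hlt]
    have e1 : (⟨(3 * a.1 + b.1) / 3, by omega⟩ : Fin 3) = a := Fin.ext (by show (3 * a.1 + b.1) / 3 = a.1; omega)
    have e2 : (⟨(3 * a.1 + b.1) % 3, by omega⟩ : Fin 3) = b := Fin.ext (by show (3 * a.1 + b.1) % 3 = b.1; omega)
    rw [e1, e2]
    by_cases h : a = π b
    · rw [if_pos h, w1]; exact (if_pos h).symm
    · rw [if_neg h, w0]; exact (if_neg h).symm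
  · intro s
    split_ifs <;> norm_num

omit hF [Fintype F] in
theorem evalM_pms4 (h2 : (2 : F) = 0) (π : Equiv.Perm (Fin 4)) : evalM 2 z 4 (pmC π) = (pms h2 4 π).1.1 := by
  ext a b
  rw [pms_coe, emb_apply]
  show vd 2 z (dg (pmC π) (4 * a.1 + b.1)) = _
  have hlt : 4 * a.1 + b.1 < 16 := by omega
  rw [pmC, dg_pack _ hlt]
  · rw [dif_pos hlt]
    have e1 : (⟨(4 * a.1 + b.1) / 4, by omega⟩ : Fin 4) = a := Fin.ext (by show (4 * a.1 + b.1) / 4 = a.1; omega)
    have e2 : (⟨(4 * a.1 + b.1) % 4, by omega⟩ : Fin 4) = b := Fin.ext (by show (4 * a.1 + b.1) % 4 = b.1; omega)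
    rw [e1, e2]
    by_cases h : a = π b
    · rw [if_pos h, w1]; exact (if_pos h).symm
    · rw [if_neg h, w0]; exact (if_neg h).symm
  · intro s
    split_ifs <;> norm_num

theorem yK1_code : (yK hF hz 1).1.1 = evalM 2 z 3 34359772160 := by
  show (pms (q2_char hF) 3 tau3).1.1 = _
  rw [← evalM_pms3]
  exact congrArg _ (by decide)

theorem yK3_code : (yK hF hz 3).1.1 = evalM 2 z 3 1099511660576 := by
  show (pms (q2_char hF) 3 (Equiv.swap 0 1)).1.1 = _
  rw [← evalM_pms3]
  exact congrArg _ (by decide)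

theorem yK8_code : (yK hF hz 8).1.1 = evalM 2 z 3 34393292801 := by
  show (pms (q2_char hF) 3 (Equiv.swap 1 2)).1.1 = _
  rw [← evalM_pms3]
  exact congrArg _ (by decide)

theorem yK2_code : (yK hF hz 2).1.1 = evalM 2 z 3 1099514773506 := by
  show (b0 F 2 (t2 hF hz)).1.1 = _
  rw [b0_mat, t2_coe, evalM3, show dg 1099514773506 0 = 2 by decide, show dg 1099514773506 1 = 0 by decide, show dg 1099514773506 2 = 0 by decide,
      show dg 1099514773506 3 = 0 by decide, show dg 1099514773506 4 = 3 by decide, show dg 1099514773506 5 = 0 by decide,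
      show dg 1099514773506 6 = 0 by decide, show dg 1099514773506 7 = 0 by decide, show dg 1099514773506 8 = 1 by decide, w0, w1, w2, w3 hF hz]
  rfl

theorem yK4_code : (yK hF hz 4).1.1 = evalM 2 z 3 2303279006753 := by
  show (yY hF hz).1.1 = _
  rw [yY, mkS_coe, evalM3, show dg 2303279006753 0 = 1 by decide, show dg 2303279006753 1 = 1 by decide, show dg 2303279006753 2 = 1 by decide,
      show dg 2303279006753 3 = 1 by decide, show dg 2303279006753 4 = 2 by decide, show dg 2303279006753 5 = 3 by decide,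
      show dg 2303279006753 6 = 1 by decide, show dg 2303279006753 7 = 3 by decide, show dg 2303279006753 8 = 2 by decide, w1, w2, w3 hF hz]
  rfl

theorem yK5_code : (yK hF hz 5).1.1 = evalM 2 z 3 2235599719457 := by
  show (yZ hF hz).1.1 = _
  rw [yZ, mkS_coe, evalM3, show dg 2235599719457 0 = 1 by decide, show dg 2235599719457 1 = 1 by decide, show dg 2235599719457 2 = 3 by decide,
      show dg 2235599719457 3 = 1 by decide, show dg 2235599719457 4 = 2 by decide, show dg 2235599719457 5 = 2 by decide,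
      show dg 2235599719457 6 = 2 by decide, show dg 2235599719457 7 = 1 by decide, show dg 2235599719457 8 = 2 by decide, w1, w2, w3 hF hz]
  rfl

theorem yK_ok (a : ℕ) (ha : gK a = true) : (val (yK hF hz) a).1.1 = evalM 2 z 3 (nth cT a) := by
  simp only [gK, Bool.or_eq_true, Bool.and_eq_true, Nat.ble_eq] at ha
  have h1 := yK1_code hF hz
  have h2 := yK2_code hF hz
  have h3 := yK3_code hF hz
  have h4 := yK4_code hF hz
  have h5 := yK5_code hF hz
  have h8 := yK8_code hF hz
  rcases ha with ⟨ha1, ha2⟩ | ⟨ha1, ha2⟩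
  · interval_cases a
    · rw [show val (yK hF hz) 2 = yK hF hz 1 from val_even _ 1, show nth cT 2 = 34359772160 from rfl]; exact h1
    · rw [show val (yK hF hz) 3 = (yK hF hz 1)⁻¹ from val_odd _ 1, show nth cT 3 = 1107296288 from rfl]; exact inv_code hF hz h1 (by decide +kernel)
    · rw [show val (yK hF hz) 4 = yK hF hz 2 from val_even _ 2, show nth cT 4 = 1099514773506 from rfl]; exact h2
    · rw [show val (yK hF hz) 5 = (yK hF hz 2)⁻¹ from val_odd _ 2, show nth cT 5 = 1099513724931 from rfl]; exact inv_code hF hz h2 (by decide +kernel)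
    · rw [show val (yK hF hz) 6 = yK hF hz 3 from val_even _ 3, show nth cT 6 = 1099511660576 from rfl]; exact h3
    · rw [show val (yK hF hz) 7 = (yK hF hz 3)⁻¹ from val_odd _ 3, show nth cT 7 = 1099511660576 from rfl]; exact inv_code hF hz h3 (by decide +kernel)
    · rw [show val (yK hF hz) 8 = yK hF hz 4 from val_even _ 4, show nth cT 8 = 2303279006753 from rfl]; exact h4
    · rw [show val (yK hF hz) 9 = (yK hF hz 4)⁻¹ from val_odd _ 4, show nth cT 9 = 3368398390305 from rfl]; exact inv_code hF hz h4 (by decide +kernel)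
    · rw [show val (yK hF hz) 10 = yK hF hz 5 from val_even _ 5, show nth cT 10 = 2235599719457 from rfl]; exact h5
    · rw [show val (yK hF hz) 11 = (yK hF hz 5)⁻¹ from val_odd _ 5, show nth cT 11 = 3403798318113 from rfl]; exact inv_code hF hz h5 (by decide +kernel)
  · interval_cases a
    · rw [show val (yK hF hz) 16 = yK hF hz 8 from val_even _ 8, show nth cT 16 = 34393292801 from rfl]; exact h8
    · rw [show val (yK hF hz) 17 = (yK hF hz 8)⁻¹ from val_odd _ 8, show nth cT 17 = 34393292801 from rfl]; exact inv_code hF hz h8 (by decide +kernel)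

/-- relators of the block -/
theorem relK (L : List ℕ) (hL : L.all gK = true) (hE : Nat.beq (evW 2 1 1 3 cT L) (idC 3) = true) : wval (yK hF hz) L = 1 := by
  haveI := char2 hF
  haveI : Fact (Nat.Prime 2) := ⟨Nat.prime_two⟩
  exact eq_one_of_code (iota2 hF hz) (by norm_num) (by norm_num) (yK_ok hF hz) L hL hE

end q2

end Cfsg.Agent.Lib.PresU.T2
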