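import Cfsg.Agent.Lib.PresUX

/-! The order bound for `q = 2` (helper38). -/

set_option autoImplicit false
set_option linter.unusedSectionVars false
set_option linter.unusedSimpArgs false
set_option linter.style.haveILetI false
set_option maxRecDepth 100000

namespace Cfsg.Agent.Lib.PresU.T2

open Module Matrix Cfsg Cfsg.Agent.Lib.Phan Cfsg.Agent.Lib.UnTrans Cfsg.Agent.Lib.UnBridge Cfsg.Agent.Lib.ClUnSimple Cfsg.Agent.Lib.PresU
open Cfsg.Agent.Lib.PresHas Cfsg.Agent.Lib.PresU.Code Cfsg.Agent.Lib.H10Enum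
open Cfsg.Agent.Lib.PresU.D3 (nth evW evW_sound eq_one_of_code wval_hom isT isT_spec inv_self)

/-- permutations of the letters -/
def xa (k : ℕ) : Equiv.Perm (Fin 4) :=
  if k = 1 then Equiv.swap 0 1 * Equiv.swap 1 2 else if k = 3 then Equiv.swap 0 1 else if k = 8 then Equiv.swap 1 2
  else if k = 6 then Equiv.swap 2 3 else if k = 9 then Equiv.swap 0 2 * Equiv.swap 1 3 else 1

/-- codes of the permutations -/
def gA (a : ℕ) : Bool := ((Nat.beq a 2 || Nat.beq a 3) || (Nat.beq a 6 || Nat.beq a 7)) || ((Nat.beq a 16 || Nat.beq a 17) || (Nat.beq a 12 || Nat.beq a 13)) ||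
  (Nat.beq a 18 || Nat.beq a 19)

/-- the special relators -/
def DL : List (List ℕ) := [[12, 4, 12, 5], [4, 14, 5, 15], [18, 4, 18, 15], [6, 14, 6, 15], [14, 8, 15, 11], [14, 10, 15, 9, 11, 5, 3],
  [12, 10, 3, 12, 2, 11, 12, 10, 3, 12, 2, 11]]

/-- the families of relators -/
def fam (w : List ℕ) : Bool := (w.all gK && Nat.beq (evW 2 1 1 3 cT w) (idC 3)) ||
  (w.all gA && decide (wval xa w = 1)) || isT w || decide (w ∈ DL)

theorem famR : (Cfsg.Agent.Lib.PresUV.R.all fam) = true := by decide +kernel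

/-- the facts about the letters -/
structure Facts {G : Type*} [Group G] (x : ℕ → G) : Prop where
  h3 : x 3 * x 3 = 1
  h6 : x 6 * x 6 = 1
  h8 : x 8 * x 8 = 1
  h9 : x 9 * x 9 = 1
  c1 : Commute (x 6) (x 2)
  c2 : Commute (x 2) (x 7)
  c3 : x 9 * x 2 * (x 9)⁻¹ = x 7
  c4 : Commute (x 3) (x 7)
  e1 : x 7 * x 4 * (x 7)⁻¹ = x 5
  e2 : x 7 * x 5 * (x 7)⁻¹ = x 1 * x 2 * x 5 * x 4
  e3 : (x 6 * x 5 * (x 1)⁻¹ * x 6 * x 1 * (x 5)⁻¹) ^ 2 = 1

theorem Facts.rel {G : Type*} [Group G] {x : ℕ → G} (H : Facts x) : ∀ w ∈ DL, wval x w = 1 := by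
  have i6 := inv_self H.h6
  have i3 := inv_self H.h3
  have i9 := inv_self H.h9
  intro w hw
  simp only [DL, List.mem_cons, List.not_mem_nil, or_false] at hw
  rcases hw with rfl | rfl | rfl | rfl | rfl | rfl | rfl
  · show x 6 * (x 2 * (x 6 * ((x 2)⁻¹ * 1))) = 1
    have := H.c1.eq
    calc _ = (x 6 * x 2) * x 6 * (x 2)⁻¹ := by group
      _ = x 2 * (x 6 * x 6) * (x 2)⁻¹ := by rw [this]; group
      _ = 1 := by rw [H.h6]; group
  · show x 2 * (x 7 * ((x 2)⁻¹ * ((x 7)⁻¹ * 1))) = 1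
    rw [← mul_assoc, H.c2.eq]; group
  · show x 9 * (x 2 * (x 9 * ((x 7)⁻¹ * 1))) = 1
    have := H.c3
    rw [i9] at this
    calc _ = (x 9 * x 2 * x 9) * (x 7)⁻¹ := by group
      _ = 1 := by rw [this]; group
  · show x 3 * (x 7 * (x 3 * ((x 7)⁻¹ * 1))) = 1
    have := H.c4.eq
    calc _ = (x 3 * x 7) * x 3 * (x 7)⁻¹ := by group
      _ = x 7 * (x 3 * x 3) * (x 7)⁻¹ := by rw [this]; group
      _ = 1 := by rw [H.h3]; group
  · show x 7 * (x 4 * ((x 7)⁻¹ * ((x 5)⁻¹ * 1))) = 1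
    calc _ = (x 7 * x 4 * (x 7)⁻¹) * (x 5)⁻¹ := by group
      _ = 1 := by rw [H.e1]; group
  · show x 7 * (x 5 * ((x 7)⁻¹ * ((x 4)⁻¹ * ((x 5)⁻¹ * ((x 2)⁻¹ * ((x 1)⁻¹ * 1)))))) = 1
    calc _ = (x 7 * x 5 * (x 7)⁻¹) * (x 1 * x 2 * x 5 * x 4)⁻¹ := by group
      _ = 1 := by rw [H.e2]; group
  · refine Eq.trans ?_ H.e3
    change x 6 * (x 5 * ((x 1)⁻¹ * (x 6 * (x 1 * ((x 5)⁻¹ * (x 6 * (x 5 * ((x 1)⁻¹ * (x 6 * (x 1 * ((x 5)⁻¹ * 1))))))))))) = _
    simp only [pow_succ, pow_zero, one_mul, mul_assoc, mul_one]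

section q2
variable {F : Type*} [Field F] [Fintype F] (hF : Fintype.card F = 2 ^ 2) {z : F} (hz : z ^ 2 + z + 1 = 0)
variable {G : Type*} [Group G] {κ : SU 3 F 2 →* G} {α : Equiv.Perm (Fin (0 + 4)) →* G}

/-- the torus element of the last two coordinates -/
noncomputable def tp (κ : SU 3 F 2 →* G) (α : Equiv.Perm (Fin (0 + 4)) →* G) : G := α (rhs 0) * κ (b0 F 2 (t2 hF hz)) * (α (rhs 0))⁻¹

/-- the letters -/
noncomputable def xx (κ : SU 3 F 2 →* G) (α : Equiv.Perm (Fin (0 + 4)) →* G) (k : ℕ) : G :=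
  if k = 6 then α (s23 0) else if k = 7 then tp hF hz κ α else if k = 9 then α (rhs 0) else κ (yK hF hz k)

theorem t2_three : (t2 hF hz) ^ 3 = 1 := by
  have h3 := z3 hz
  apply Subtype.ext; apply Subtype.ext
  have e : ((t2 hF hz) ^ 3).1.1 = (t2 hF hz).1.1 * (t2 hF hz).1.1 * (t2 hF hz).1.1 := by
    rw [pow_succ, pow_two]; rfl
  rw [e, t2_coe]
  show _ = (1 : Matrix (Fin 2) (Fin 2) F)
  ext a b
  fin_cases a <;> fin_cases b <;> simp
  · linear_combination h3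
  · linear_combination (z ^ 3 + 1) * h3

variable (D : GS (q2_char hF) κ α)
include D

/-- the relators on the extra elements -/
theorem facts (e1 : tp hF hz κ α * κ (yY hF hz) * (tp hF hz κ α)⁻¹ = κ (yZ hF hz))
    (e2 : tp hF hz κ α * κ (yZ hF hz) * (tp hF hz κ α)⁻¹ = κ (yK hF hz 1 * yK hF hz 2 * yK hF hz 5 * yK hF hz 4))
    (e3 : (α (s23 0) * κ (yZ hF hz) * (κ (yK hF hz 1))⁻¹ * α (s23 0) * κ (yK hF hz 1) * (κ (yZ hF hz))⁻¹) ^ 2 = 1) : Facts (xx hF hz κ α) := by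
  have hsw : Commute (κ (b0 F 2 (uu (q2_char hF)))) (tp hF hz κ α) := by
    have h1 : α (rhs 0) * α (s23 0) * (α (rhs 0))⁻¹ = κ (b0 F 2 (uu (q2_char hF))) := by
      rw [D.kuu, ← map_inv, ← map_mul, ← map_mul, rhs_sw']
    rw [← h1]
    exact conj_comm (D.T _)
  refine ⟨?_, ?_, ?_, ?_, ?_, ?_, ?_, ?_, ?_, ?_, ?_⟩
  · show κ (pms (q2_char hF) 3 (Equiv.swap 0 1)) * κ (pms (q2_char hF) 3 (Equiv.swap 0 1)) = 1
    rw [← map_mul, ← map_mul, Equiv.swap_mul_self, map_one, map_one]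
  · show α (s23 0) * α (s23 0) = 1
    rw [← map_mul, show s23 0 * s23 0 = 1 from Equiv.swap_mul_self _ _, map_one]
  · show κ (pms (q2_char hF) 3 (Equiv.swap 1 2)) * κ (pms (q2_char hF) 3 (Equiv.swap 1 2)) = 1
    rw [← map_mul, ← map_mul, Equiv.swap_mul_self, map_one, map_one]
  · show α (rhs 0) * α (rhs 0) = 1
    rw [← map_mul, show rhs 0 * rhs 0 = 1 by decide, map_one]
  · exact D.T _
  · exact D.X _ _
  · rfl
  · have e : xx hF hz κ α 3 = κ (b0 F 2 (uu (q2_char hF))) := by rw [b0_uu]; rfl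
    rw [e]; exact hsw
  · exact e1
  · show tp hF hz κ α * κ (yZ hF hz) * (tp hF hz κ α)⁻¹ = κ (yK hF hz 1) * κ (yK hF hz 2) * κ (yK hF hz 5) * κ (yK hF hz 4)
    rw [e2, map_mul, map_mul, map_mul]
  · exact e3

omit D in
theorem xx_inv (c : ℕ) (hc : Nat.testBit 840 c = true) (H : Facts (xx hF hz κ α)) :
    (xx hF hz κ α c)⁻¹ = xx hF hz κ α c := by
  have hlt : c < 10 := by
    by_contra h
    rw [Nat.testBit_lt_two_pow (show 840 < 2 ^ c from lt_of_lt_of_le (by norm_num) (Nat.pow_le_pow_right (by norm_num) (not_lt.1 h)))] at hc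
    exact Bool.false_ne_true hc
  interval_cases c
  · exact absurd hc (by decide)
  · exact absurd hc (by decide)
  · exact absurd hc (by decide)
  · exact inv_self H.h3
  · exact absurd hc (by decide)
  · exact absurd hc (by decide)
  · exact inv_self H.h6
  · exact absurd hc (by decide)
  · exact inv_self H.h8
  · exact inv_self H.h9

omit D in
theorem xxK (a : ℕ) (ha : gK a = true) : val (xx hF hz κ α) a = κ (val (yK hF hz) a) := by
  simp only [gK, Bool.or_eq_true, Bool.and_eq_true, Nat.ble_eq] at ha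
  have h1 : xx hF hz κ α (a / 2) = κ (yK hF hz (a / 2)) := by
    unfold xx; rw [if_neg (by omega), if_neg (by omega), if_neg (by omega)]
  unfold val
  split_ifs with h
  · exact h1
  · rw [h1, map_inv]

/-- permutations of the letters -/
theorem xxA (a : ℕ) (ha : gA a = true) : val (xx hF hz κ α) a = α (val xa a) := by
  have h1 : xx hF hz κ α 1 = α (xa 1) := by
    show κ (pms (q2_char hF) 3 tau3) = _
    rw [D.A, tau3, map_mul, ex_swap, ex_swap]; rfl
  have h3 : xx hF hz κ α 3 = α (xa 3) := by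
    show κ (pms (q2_char hF) 3 (Equiv.swap 0 1)) = _
    rw [D.A, ex_swap]; rfl
  have h8 : xx hF hz κ α 8 = α (xa 8) := by
    show κ (pms (q2_char hF) 3 (Equiv.swap 1 2)) = _
    rw [D.A, ex_swap]; rfl
  have h6 : xx hF hz κ α 6 = α (xa 6) := rfl
  have h9 : xx hF hz κ α 9 = α (xa 9) := rfl
  have he : ∀ k, xx hF hz κ α k = α (xa k) → val (xx hF hz κ α) (2 * k) = α (val xa (2 * k)) := by
    intro k h; rw [val_even, val_even, h]
  have ho : ∀ k, xx hF hz κ α k = α (xa k) → val (xx hF hz κ α) (2 * k + 1) = α (val xa (2 * k + 1)) := by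
    intro k h; rw [val_odd, val_odd, h, map_inv]
  simp only [gA, Bool.or_eq_true] at ha
  rcases ha with (((h | h) | (h | h)) | ((h | h) | (h | h))) | (h | h)
  · rw [Nat.eq_of_beq_eq_true h]; exact he 1 h1
  · rw [Nat.eq_of_beq_eq_true h]; exact ho 1 h1
  · rw [Nat.eq_of_beq_eq_true h]; exact he 3 h3
  · rw [Nat.eq_of_beq_eq_true h]; exact ho 3 h3
  · rw [Nat.eq_of_beq_eq_true h]; exact he 8 h8
  · rw [Nat.eq_of_beq_eq_true h]; exact ho 8 h8
  · rw [Nat.eq_of_beq_eq_true h]; exact he 6 h6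
  · rw [Nat.eq_of_beq_eq_true h]; exact ho 6 h6
  · rw [Nat.eq_of_beq_eq_true h]; exact he 9 h9
  · rw [Nat.eq_of_beq_eq_true h]; exact ho 9 h9

/-- **all relators hold** -/
theorem rels_ok (H : Facts (xx hF hz κ α)) : ∀ w ∈ Cfsg.Agent.Lib.PresUV.R, wval (xx hF hz κ α) w = 1 := by
  intro w hw
  have h := List.all_eq_true.1 famR w hw
  simp only [fam, Bool.or_eq_true, Bool.and_eq_true, decide_eq_true_eq] at h
  rcases h with ((⟨h1, h2⟩ | ⟨h1, h2⟩) | h) | h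
  · rw [wval_hom κ (xxK hF hz) w h1, relK hF hz w h1 h2, map_one]
  · rw [wval_hom α (xxA hF hz D) w h1, h2, map_one]
  · exact isT_spec _ w h
  · exact H.rel w h

end q2

end Cfsg.Agent.Lib.PresU.T2
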