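import Cfsg.Agent.Lib.PresUY
import Cfsg.Agent.Lib.PresUW

/-! A presentation of `SU_3(2)` (helper38). -/

set_option autoImplicit false
set_option linter.unusedSectionVars false
set_option linter.unusedSimpArgs false
set_option linter.style.haveILetI false
set_option linter.style.longLine false
set_option maxRecDepth 100000

namespace Cfsg.Agent.Lib.PresU.T2

open Module Matrix Cfsg Cfsg.Agent.Lib.Phan Cfsg.Agent.Lib.UnTrans Cfsg.Agent.Lib.UnBridge Cfsg.Agent.Lib.ClUnSimple Cfsg.Agent.Lib.PresU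
open Cfsg.Agent.Lib.PresHas Cfsg.Agent.Lib.PresU.Code Cfsg.Agent.Lib.H10Enum
open Cfsg.Agent.Lib.PresU.D3 (nth evW evW_sound eq_one_of_code wval_hom isT isT_spec inv_self)

/-- representatives of all elements -/
def ws : List (List ℕ) := [[], [2], [4], [3], [5], [2, 2], [2, 4], [2, 5], [4, 2], [4, 4], [4, 3], [3, 4], [3, 5], [5, 2], [5, 3], [5, 5], [2, 2, 4], [2, 2, 5], [2, 4, 2], [2, 4, 4], [2, 4, 3], [2, 5, 2], [2, 5, 3], [2, 5, 5], [4, 2, 2], [4, 2, 4], [4, 2, 5], [4, 4, 2], [4, 4, 4], [4, 4, 3], [4, 3, 4], [4, 3, 5], [3, 4, 2], [3, 4, 4], [3, 4, 3], [3, 5, 2], [3, 5, 3], [3, 5, 5], [5, 2, 2], [5, 2, 4], [5, 2, 5], [5, 3, 4], [5, 3, 5], [5, 5, 2], [5, 5, 3], [5, 5, 5], [2, 2, 4, 2], [2, 2, 4, 4], [2, 2, 4, 3], [2, 2, 5, 2], [2, 2, 5, 3], [2, 2, 5, 5], [2, 4, 2, 2], [2, 4, 2, 4], [2, 4, 2, 5], [2, 4, 4, 2], [2, 4, 4, 4], [2, 4, 4, 3], [2, 4, 3, 4], [2, 4, 3, 5], [2, 5, 2, 2], [2, 5, 2, 4], [2, 5, 2,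 5], [2, 5, 3, 4], [2, 5, 3, 5], [2, 5, 5, 2], [2, 5, 5, 3], [2, 5, 5, 5], [4, 2, 2, 4], [4, 2, 2, 5], [4, 2, 4, 2], [4, 2, 5, 2], [4, 2, 5, 3], [4, 2, 5, 5], [4, 4, 2, 2], [4, 4, 2, 4], [4, 4, 4, 2], [4, 4, 4, 4], [4, 4, 4, 3], [4, 4, 3, 4], [4, 4, 3, 5], [4, 3, 4, 4], [4, 3, 4, 3], [4, 3, 5, 2], [3, 4, 2, 2], [3, 4, 2, 5], [3, 4, 4, 4], [3, 4, 4, 3], [3, 5, 2, 2], [3, 5, 3, 5], [3, 5, 5, 2], [3, 5, 5, 5], [5, 2, 2, 4], [5, 2, 4, 4], [5, 2, 5, 5], [5, 3, 4, 4], [5, 3, 5, 3], [5, 3, 5, 5], [5, 5, 2, 4], [5, 5, 2, 5], [5, 5, 3, 4], [5, 5, 5, 2], [5, 5, 5, 3], [5, 5, 5, 5], [2, 2, 4, 2, 2], [2, 2, 4, 2, 4], [2, 2, 4, 2, 5], [2, 2, 4, 4, 4], [2, 2, 4, 4, 3], [2, 2, 4, 3, 5], [2, 2, 5, 2, 2], [2, 2, 5, 2, 4], [2, 2, 5, 2, 5], [2, 2, 5, 3, 5], [2, 2, 5, 5, 2], [2, 2, 5, 5, 5], [2, 4, 2, 2, 5], [2, 4, 2, 4, 2], [2, 4, 2, 5, 3], [2, 4, 2, 5, 5], [2, 4, 4, 2, 4], [2, 4, 4, 4, 2], [2, 4, 4, 4, 4], [2, 4, 4, 4,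 3], [2, 4, 4, 3, 4], [2, 4, 4, 3, 5], [2, 4, 3, 4, 4], [2, 4, 3, 5, 2], [2, 5, 2, 2, 4], [2, 5, 2, 4, 4], [2, 5, 2, 5, 5], [2, 5, 3, 4, 4], [2, 5, 3, 5, 3], [2, 5, 3, 5, 5], [2, 5, 5, 2, 4], [2, 5, 5, 2, 5], [2, 5, 5, 3, 4], [2, 5, 5, 5, 2], [2, 5, 5, 5, 3], [2, 5, 5, 5, 5], [4, 2, 2, 4, 2], [4, 2, 2, 5, 2], [4, 2, 2, 5, 3], [4, 2, 2, 5, 5], [4, 2, 4, 2, 4], [4, 2, 5, 2, 2], [4, 2, 5, 3, 4], [4, 2, 5, 5, 2], [4, 2, 5, 5, 3], [4, 2, 5, 5, 5], [4, 4, 4, 2, 2], [4, 4, 4, 4, 4], [4, 4, 4, 4, 3], [4, 4, 4, 3, 4], [4, 4, 3, 4, 4], [4, 4, 3, 4, 3], [4, 4, 3, 5, 2], [4, 3, 4, 4, 4], [4, 3, 4, 4, 3], [3, 4, 2, 2, 5], [3, 4, 2, 5, 5], [3, 4, 4, 3, 4], [3, 5, 2, 2, 4], [3, 5, 5, 5, 5], [5, 2, 2, 4, 2], [5, 2, 2, 4, 4], [5, 2, 2, 4, 3], [5, 2, 4, 4, 3], [5, 2, 5, 5, 2], [5, 2, 5, 5, 5], [5, 5, 2, 5, 5], [5, 5, 5, 5, 5], [2, 2, 4, 2, 2, 5], [2, 2, 4, 2, 4, 2], [2, 2, 4, 2, 5, 3], [2, 2, 4, 2, 5, 5], [2, 2, 4, 4, 4,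 4], [2, 2, 4, 4, 4, 3], [2, 2, 4, 4, 3, 4], [2, 2, 4, 4, 3, 5], [2, 2, 4, 3, 5, 2], [2, 2, 5, 2, 2, 4], [2, 2, 5, 2, 4, 4], [2, 2, 5, 3, 5, 3], [2, 2, 5, 5, 2, 5], [2, 2, 5, 5, 5, 2], [2, 2, 5, 5, 5, 3], [2, 2, 5, 5, 5, 5], [2, 4, 2, 2, 5, 2], [2, 4, 2, 2, 5, 3], [2, 4, 4, 4, 2, 2], [2, 4, 4, 4, 4, 4], [2, 4, 4, 4, 3, 4], [2, 4, 4, 3, 4, 4], [2, 4, 4, 3, 5, 2], [2, 4, 3, 4, 4, 3], [2, 5, 2, 2, 4, 2], [2, 5, 2, 2, 4, 4], [2, 5, 2, 2, 4, 3], [2, 5, 2, 4, 4, 3], [2, 5, 2, 5, 5, 2], [2, 5, 2, 5, 5, 5], [2, 5, 5, 2, 5, 5], [2, 5, 5, 5, 5, 5], [4, 2, 2, 5, 2, 2], [4, 2, 5, 5, 2, 5], [4, 4, 4, 4, 4, 4], [4, 4, 4, 3, 4, 4], [4, 3, 4, 4, 3, 4], [5, 5, 2, 5, 5, 5], [2, 2, 4, 2, 2, 5, 2], [2, 2, 4, 4, 4, 3, 4], [2, 2, 5, 2, 2, 4, 2], [2, 2, 5, 5, 2, 5, 5], [2, 4, 4, 4, 3, 4, 4], [2, 5, 5, 2, 5, 5, 5]]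

/-- codes of the generators -/
def kT : List ℕ := [0, 0, 2235599719457, 3403798318113, 2236705997857, 3368362739809]

/-- codes of the generators -/
def gk (a : ℕ) : Bool := Nat.ble 2 a && Nat.ble a 5

/-- duplicates -/
def nodupB : List ℕ → Bool
  | [] => true
  | a :: L => !(L.any (Nat.beq a)) && nodupB L

theorem nodupB_spec : ∀ L, nodupB L = true → L.Nodup
  | [], _ => List.nodup_nil
  | a :: L, h => by
    rw [nodupB, Bool.and_eq_true] at h
    rw [List.nodup_cons]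
    refine ⟨?_, nodupB_spec L h.2⟩
    intro ha
    have h1 : L.any (Nat.beq a) = true := List.any_eq_true.2 ⟨a, ha, Nat.beq_refl a⟩
    rw [h1] at h
    simp at h

theorem ws_nodup : nodupB (ws.map (evW 2 1 1 3 kT)) = true := by decide +kernel
theorem ws_len : ws.length = 216 := by decide +kernel
theorem ws_gk : (ws.all fun w => w.all gk) = true := by decide +kernel

/-- the relators -/
def R6 : List (List ℕ) := [[2, 2, 2, 2], [5, 5, 3, 5, 2, 5, 3, 3], [5, 5, 3, 5, 2, 5, 2, 2], [5, 5, 3, 3, 5, 3, 4, 3], [5, 5, 2, 2, 5, 3, 4, 3], [5, 3, 5, 2, 4, 2, 5, 2]]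

theorem R6_ok : (R6.all fun w => w.all gk && Nat.beq (evW 2 1 1 3 kT w) (idC 3)) = true := by decide +kernel

/-- all codes are packed small digits -/
theorem evW_pack (n : ℕ) (T : List ℕ) : ∀ L, ∃ f : ℕ → ℕ, (∀ s, f s < 4) ∧ evW 2 1 1 n T L = pack f (n * n)
  | [] => ⟨_, fun s => by
      show (bif Nat.beq (Nat.div s n) (Nat.mod s n) then 1 else 0) < 4
      cases Nat.beq (Nat.div s n) (Nat.mod s n) <;> norm_num, rfl⟩
  | a :: L => ⟨_, fun s => by
      show (re 2 1 n (nth T a) (evW 2 1 1 n T L) (s / n) (s % n) n) % 2 + 2 * ((im 2 1 n (nth T a) (evW 2 1 1 n T L) (s / n) (s % n) n) % 2) < 4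
      omega, rfl⟩

theorem pack_congr {f g : ℕ → ℕ} : ∀ m, (∀ s < m, f s = g s) → pack f m = pack g m
  | 0, _ => rfl
  | m + 1, h => by
    rw [pack_succ, pack_succ, pack_congr m (fun s hs => h s (by omega)), h m (by omega)]

section q2
variable {F : Type*} [Field F] [Fintype F] (hF : Fintype.card F = 2 ^ 2) {z : F} (hz : z ^ 2 + z + 1 = 0)
include hz

omit [Fintype F] in
theorem vd_inj (h2 : (2 : F) = 0) {a b : ℕ} (ha : a < 4) (hb : b < 4) (h : vd 2 z a = vd 2 z b) : a = b := by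
  have e0 : vd 2 z 0 = 0 := w0
  have e1 : vd 2 z 1 = 1 := w1
  have e2 : vd 2 z 2 = z := w2
  have e3 : vd 2 z 3 = 1 + z := by simp [vd]
  have n0 : z ≠ 0 := z0 hz
  have n1 : z ≠ 1 := by
    rintro rfl
    exact one_ne_zero (α := F) (by linear_combination hz - h2)
  have n2 : (1 : F) + z ≠ 0 := by
    intro h
    exact n1 (by linear_combination h - h2)
  interval_cases a <;> interval_cases b
  · rfl
  · rw [e0, e1] at h; exact absurd h.symm one_ne_zero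
  · rw [e0, e2] at h; exact absurd h.symm n0
  · rw [e0, e3] at h; exact absurd h.symm n2
  · rw [e0, e1] at h; exact absurd h one_ne_zero
  · rfl
  · rw [e1, e2] at h; exact absurd h.symm n1
  · rw [e1, e3] at h; exact absurd (by linear_combination -h) n0
  · rw [e0, e2] at h; exact absurd h n0
  · rw [e1, e2] at h; exact absurd h n1
  · rfl
  · rw [e2, e3] at h; exact absurd (by linear_combination -h : (1 : F) = 0) one_ne_zero
  · rw [e0, e3] at h; exact absurd h n2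
  · rw [e1, e3] at h; exact absurd (by linear_combination h) n0
  · rw [e2, e3] at h; exact absurd (by linear_combination h : (1 : F) = 0) one_ne_zero
  · rfl

omit [Fintype F] in
theorem evW_inj (h2 : (2 : F) = 0) (T : List ℕ) (L L' : List ℕ) (h : evalM 2 z 3 (evW 2 1 1 3 T L) = evalM 2 z 3 (evW 2 1 1 3 T L')) :
    evW 2 1 1 3 T L = evW 2 1 1 3 T L' := by
  obtain ⟨f, hf, e⟩ := evW_pack 3 T L
  obtain ⟨g, hg, e'⟩ := evW_pack 3 T L'
  rw [e, e'] at h ⊢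
  apply pack_congr
  intro s hs
  have h1 := congrFun (congrFun h ⟨s / 3, by omega⟩) ⟨s % 3, by omega⟩
  change vd 2 z (dg (pack f (3 * 3)) (3 * (s / 3) + s % 3)) = vd 2 z (dg (pack g (3 * 3)) (3 * (s / 3) + s % 3)) at h1
  rw [Nat.div_add_mod] at h1
  rw [dg_pack (fun p => lt_of_lt_of_le (hf p) (by norm_num)) hs, dg_pack (fun p => lt_of_lt_of_le (hg p) (by norm_num)) hs] at h1
  exact vd_inj hz h2 (hf s) (hg s) h1

include hF

omit hz in
theorem card_su3 : Nat.card (SU 3 F 2) = 216 := by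
  have h := Cfsg.Agent.Lib.ClUnitary.card_SU (n := 3) hF (by norm_num)
  have e : 2 ^ (3 * (3 - 1) / 2) * ∏ i ∈ Finset.range 3, (if Even i then 2 ^ (i + 1) + 1 else 2 ^ (i + 1) - 1 : ℕ) = 648 := by decide
  rw [e] at h
  omega

omit hz in
theorem card_su4 : Nat.card (SU 4 F 2) = 25920 := by
  have h := Cfsg.Agent.Lib.ClUnitary.card_SU (n := 4) hF (by norm_num)
  have e : 2 ^ (4 * (4 - 1) / 2) * ∏ i ∈ Finset.range 4, (if Even i then 2 ^ (i + 1) + 1 else 2 ^ (i + 1) - 1 : ℕ) = 77760 := by decide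
  rw [e] at h
  omega

omit hz in
theorem card_su2 : Nat.card (SU 2 F 2) = 6 := by
  have h := Cfsg.Agent.Lib.ClUnitary.card_SU (n := 2) hF (by norm_num)
  have e : 2 ^ (2 * (2 - 1) / 2) * ∏ i ∈ Finset.range 2, (if Even i then 2 ^ (i + 1) + 1 else 2 ^ (i + 1) - 1 : ℕ) = 18 := by decide
  rw [e] at h
  omega

/-- the generators -/
noncomputable def kk (k : ℕ) : SU 3 F 2 := if k = 1 then yZ hF hz else if k = 2 then yY hF hz * pms (q2_char hF) 3 (Equiv.swap 0 1) else 1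

theorem kk_ok (a : ℕ) (ha : gk a = true) : (val (kk hF hz) a).1.1 = evalM 2 z 3 (nth kT a) := by
  haveI := char2 hF
  haveI : Fact (Nat.Prime 2) := ⟨Nat.prime_two⟩
  simp only [gk, Bool.and_eq_true, Nat.ble_eq] at ha
  have h1 : (kk hF hz 1).1.1 = evalM 2 z 3 2235599719457 := yK5_code hF hz
  have h2 : (kk hF hz 2).1.1 = evalM 2 z 3 2236705997857 := by
    have e : (kk hF hz 2).1.1 = (yK hF hz 4).1.1 * (yK hF hz 3).1.1 := rfl
    rw [e, yK4_code, yK3_code, ← evalM_mul (iota2 hF hz) (by norm_num)]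
    exact congrArg _ (by decide +kernel)
  obtain ⟨ha1, ha2⟩ := ha
  interval_cases a
  · rw [show val (kk hF hz) 2 = kk hF hz 1 from val_even _ 1, show nth kT 2 = 2235599719457 from rfl]; exact h1
  · rw [show val (kk hF hz) 3 = (kk hF hz 1)⁻¹ from val_odd _ 1, show nth kT 3 = 3403798318113 from rfl]; exact inv_code hF hz h1 (by decide +kernel)
  · rw [show val (kk hF hz) 4 = kk hF hz 2 from val_even _ 2, show nth kT 4 = 2236705997857 from rfl]; exact h2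
  · rw [show val (kk hF hz) 5 = (kk hF hz 2)⁻¹ from val_odd _ 2, show nth kT 5 = 3368362739809 from rfl]; exact inv_code hF hz h2 (by decide +kernel)

/-- **generation** -/
theorem gen_kk : Subgroup.closure (Set.range ![kk hF hz 1, kk hF hz 2]) = ⊤ := by
  classical
  haveI := char2 hF
  haveI : Fact (Nat.Prime 2) := ⟨Nat.prime_two⟩
  haveI : Finite (SU 3 F 2) := Nat.finite_of_card_ne_zero (by rw [card_su3 hF]; norm_num)
  set S := Subgroup.closure (Set.range ![kk hF hz 1, kk hF hz 2]) with hS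
  have h1 : kk hF hz 1 ∈ S := Subgroup.subset_closure ⟨0, rfl⟩
  have h2 : kk hF hz 2 ∈ S := Subgroup.subset_closure ⟨1, rfl⟩
  have hv : ∀ a, gk a = true → val (kk hF hz) a ∈ S := by
    intro a ha
    simp only [gk, Bool.and_eq_true, Nat.ble_eq] at ha
    obtain ⟨ha1, ha2⟩ := ha
    interval_cases a
    · rw [show val (kk hF hz) 2 = kk hF hz 1 from val_even _ 1]; exact h1
    · rw [show val (kk hF hz) 3 = (kk hF hz 1)⁻¹ from val_odd _ 1]; exact S.inv_mem h1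
    · rw [show val (kk hF hz) 4 = kk hF hz 2 from val_even _ 2]; exact h2
    · rw [show val (kk hF hz) 5 = (kk hF hz 2)⁻¹ from val_odd _ 2]; exact S.inv_mem h2
  have hw : ∀ L : List ℕ, L.all gk = true → wval (kk hF hz) L ∈ S := by
    intro L
    induction L with
    | nil => intro _; rw [wval_nil]; exact S.one_mem
    | cons a L ih =>
      intro hL
      rw [List.all_cons, Bool.and_eq_true] at hL
      rw [wval_cons]
      exact S.mul_mem (hv a hL.1) (ih hL.2)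
  have hnd : (ws.map (wval (kk hF hz))).Nodup := by
    have h3 := nodupB_spec _ ws_nodup
    rw [List.Nodup, List.pairwise_map] at h3 ⊢
    refine List.Pairwise.imp_of_mem ?_ h3
    intro a b ha hb hab heq
    apply hab
    apply evW_inj hz (q2_char hF)
    rw [← evW_sound (iota2 hF hz) (by norm_num) (by norm_num) (kk_ok hF hz) a (List.all_eq_true.1 ws_gk a ha),
      ← evW_sound (iota2 hF hz) (by norm_num) (by norm_num) (kk_ok hF hz) b (List.all_eq_true.1 ws_gk b hb), heq]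
  have hcard : 216 ≤ Nat.card S := by
    have h3 : (ws.map (wval (kk hF hz))).toFinset.card = 216 := by
      rw [List.toFinset_card_of_nodup hnd, List.length_map, ws_len]
    have h4 : ((ws.map (wval (kk hF hz))).toFinset : Set (SU 3 F 2)) ⊆ S := by
      intro x hx
      rw [Finset.mem_coe, List.mem_toFinset, List.mem_map] at hx
      obtain ⟨w, hw1, rfl⟩ := hx
      exact hw w (List.all_eq_true.1 ws_gk w hw1)
    have h5 := Set.ncard_le_ncard h4 (Set.toFinite _)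
    rw [Set.ncard_coe_finset, h3] at h5
    exact h5
  exact Subgroup.eq_top_of_le_card S (by rw [card_su3 hF]; exact hcard)

/-- words in the free group -/
def gw (k : ℕ) : FreeGroup (Fin 2) := if k = 1 then FreeGroup.of 0 else if k = 2 then FreeGroup.of 1 else 1

/-- **a presentation of `SU_3(2)`** -/
theorem pres_su3 : HasPres (SU 3 F 2) 2 6 := by
  classical
  haveI := char2 hF
  haveI : Fact (Nat.Prime 2) := ⟨Nat.prime_two⟩
  set rels : Finset (FreeGroup (Fin 2)) := (R6.map (wval gw)).toFinset with hrels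
  have hc : rels.card ≤ 6 := by
    refine (List.toFinset_card_le _).trans ?_
    rw [List.length_map]; rfl
  refine ⟨rels, hc, ?_⟩
  have hkv : ∀ a, gk a = true → val (kk hF hz) a = FreeGroup.lift ![kk hF hz 1, kk hF hz 2] (val gw a) := by
    have e1 : kk hF hz 1 = FreeGroup.lift ![kk hF hz 1, kk hF hz 2] (gw 1) := by
      show _ = FreeGroup.lift ![kk hF hz 1, kk hF hz 2] (FreeGroup.of 0)
      rw [FreeGroup.lift_apply_of]; rfl
    have e2 : kk hF hz 2 = FreeGroup.lift ![kk hF hz 1, kk hF hz 2] (gw 2) := by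
      show _ = FreeGroup.lift ![kk hF hz 1, kk hF hz 2] (FreeGroup.of 1)
      rw [FreeGroup.lift_apply_of]; rfl
    intro a ha
    simp only [gk, Bool.and_eq_true, Nat.ble_eq] at ha
    obtain ⟨ha1, ha2⟩ := ha
    interval_cases a
    · rw [show val (kk hF hz) 2 = kk hF hz 1 from val_even _ 1, show val gw 2 = gw 1 from val_even _ 1]; exact e1
    · rw [show val (kk hF hz) 3 = (kk hF hz 1)⁻¹ from val_odd _ 1, show val gw 3 = (gw 1)⁻¹ from val_odd _ 1, map_inv, ← e1]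
    · rw [show val (kk hF hz) 4 = kk hF hz 2 from val_even _ 2, show val gw 4 = gw 2 from val_even _ 2]; exact e2
    · rw [show val (kk hF hz) 5 = (kk hF hz 2)⁻¹ from val_odd _ 2, show val gw 5 = (gw 2)⁻¹ from val_odd _ 2, map_inv, ← e2]
  have hrel : ∀ r ∈ (rels : Set (FreeGroup (Fin 2))), FreeGroup.lift ![kk hF hz 1, kk hF hz 2] r = 1 := by
    intro r hr
    rw [hrels, Finset.mem_coe, List.mem_toFinset, List.mem_map] at hr
    obtain ⟨w, hw, rfl⟩ := hr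
    have h := List.all_eq_true.1 R6_ok w hw
    rw [Bool.and_eq_true] at h
    rw [← wval_hom _ hkv w h.1]
    exact eq_one_of_code (iota2 hF hz) (by norm_num) (by norm_num) (kk_ok hF hz) w h.1 h.2
  let f : PresentedGroup (rels : Set (FreeGroup (Fin 2))) →* SU 3 F 2 := PresentedGroup.toGroup hrel
  have hfs : Function.Surjective f := by
    rw [← MonoidHom.range_eq_top, eq_top_iff, ← gen_kk hF hz, Subgroup.closure_le]
    rintro _ ⟨i, rfl⟩
    exact ⟨PresentedGroup.of i, PresentedGroup.toGroup.of hrel⟩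
  -- the bound
  let x : ℕ → PresentedGroup (rels : Set (FreeGroup (Fin 2))) := fun k => PresentedGroup.mk _ (gw k)
  have hx0 : x 0 = 1 := map_one _
  have hval : ∀ a, (fun _ => true) a = true → val x a = PresentedGroup.mk (rels : Set (FreeGroup (Fin 2))) (val gw a) := by
    intro a _
    unfold val
    split_ifs
    · rfl
    · exact (map_inv _ _).symm
  have hR : ∀ w ∈ PresUW.R, wval x w = 1 := by
    intro w hw
    have hw2 : w ∈ R6 ∨ w = [2, 3] ∨ w = [4, 5] := by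
      simp only [PresUW.R, R6, List.mem_cons, List.not_mem_nil, or_false] at hw ⊢
      tauto
    rcases hw2 with h | rfl | rfl
    · rw [wval_hom (PresentedGroup.mk (rels : Set (FreeGroup (Fin 2)))) hval w (by simp)]
      exact PresentedGroup.one_of_mem (by
        rw [hrels, Finset.mem_coe, List.mem_toFinset]
        exact List.mem_map_of_mem h)
    · exact isT_spec x _ (by decide)
    · exact isT_spec x _ (by decide)
  have hgood := sound (X := PresentedGroup (rels : Set (FreeGroup (Fin 2)))) (x := x) (p := 1) hx0 (fun c hc => by simp at hc) hR (by simp) PresUW.ok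
  have hcl : Subgroup.closure {x 1, x 2} = ⊤ := by
    rw [eq_top_iff, ← PresentedGroup.closure_range_of, Subgroup.closure_le]
    rintro _ ⟨i, rfl⟩
    fin_cases i
    · exact Subgroup.subset_closure (Set.mem_insert _ _)
    · exact Subgroup.subset_closure (Set.mem_insert_of_mem _ rfl)
  obtain ⟨hfin, hcard⟩ := card_le_of_closed (X := PresentedGroup (rels : Set (FreeGroup (Fin 2)))) (f := pts PresUW.T x 1) (n := 216) (by norm_num) _ hcl (by
    rintro a (rfl | rfl)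
    · exact chkC_sound (fun c hc => by simp at hc) hgood 216 PresUW.cl1
    · exact chkC_sound (fun c hc => by simp at hc) hgood 216 PresUW.cl2)
  haveI := Fintype.ofFinite (PresentedGroup (rels : Set (FreeGroup (Fin 2))))
  have hbij : Function.Bijective f := by
    haveI : Finite (SU 3 F 2) := Nat.finite_of_card_ne_zero (by rw [card_su3 hF]; norm_num)
    rw [Nat.bijective_iff_surjective_and_card]
    exact ⟨hfs, le_antisymm (by rw [card_su3 hF]; exact hcard) (Nat.card_le_card_of_surjective f hfs)⟩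
  exact ⟨MulEquiv.ofBijective f hbij⟩

end q2

end Cfsg.Agent.Lib.PresU.T2
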