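import Cfsg.Agent.Lib.PresUZ

/-! Presentations of `SU_n(2)` (helper38). -/

set_option autoImplicit false
set_option linter.unusedSectionVars false
set_option linter.unusedSimpArgs false
set_option linter.style.haveILetI false
set_option maxRecDepth 100000

namespace Cfsg.Agent.Lib.PresU.T2

open Module Matrix Cfsg Cfsg.Agent.Lib.Phan Cfsg.Agent.Lib.UnTrans Cfsg.Agent.Lib.UnBridge Cfsg.Agent.Lib.ClUnSimple Cfsg.Agent.Lib.PresU
open Cfsg.Agent.Lib.PresHas Cfsg.Agent.Lib.PresU.Code Cfsg.Agent.Lib.H10Enum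
open Cfsg.Agent.Lib.PresU.D3 (nth evW evW_sound eq_one_of_code wval_hom isT isT_spec inv_self)

/-- codes of the letters in `SU_4` -/
def zT : List ℕ := [0, 0, extC 34359772160, extC 1107296288, extC 1099514773506, extC 1099513724931, extC 1099511660576, extC 1099511660576,
  extC 2303279006753, extC 3368398390305, extC 2235599719457, extC 3403798318113, pmC (s23 0), pmC (s23 0), 0, 0, 0, 0, pmC (rhs 0), pmC (rhs 0)]

def gz (a : ℕ) : Bool := (Nat.ble 2 a && Nat.ble a 13) || (Nat.ble 18 a && Nat.ble a 19)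

theorem chkE1 : Nat.beq (evW 2 1 1 4 zT ([18, 4, 19] ++ [8] ++ invw [18, 4, 19] ++ invw [10])) (idC 4) = true := by decide +kernel
theorem chkE2 : Nat.beq (evW 2 1 1 4 zT ([18, 4, 19] ++ [10] ++ invw [18, 4, 19] ++ invw [2, 4, 10, 8])) (idC 4) = true := by decide +kernel
theorem chkE3 : Nat.beq (evW 2 1 1 4 zT ([12, 10, 3, 12, 2, 11] ++ [12, 10, 3, 12, 2, 11])) (idC 4) = true := by decide +kernel

section q2
variable {F : Type*} [Field F] [Fintype F] (hF : Fintype.card F = 2 ^ 2) {z : F} (hz : z ^ 2 + z + 1 = 0)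

/-- the letters in `SU_4` -/
noncomputable def zz (k : ℕ) : SU 4 F 2 :=
  if k = 6 then pms (q2_char hF) 4 (s23 0) else if k = 9 then pms (q2_char hF) 4 (rhs 0) else blk (sh 0 (show 0 + 3 ≤ 4 by omega)) (yK hF hz k)

theorem zz_ok (a : ℕ) (ha : gz a = true) : (val (zz hF hz) a).1.1 = evalM 2 z 4 (nth zT a) := by
  simp only [gz, Bool.or_eq_true, Bool.and_eq_true, Nat.ble_eq] at ha
  have hk : ∀ a, 2 ≤ a → a ≤ 11 → (val (zz hF hz) a).1.1 = evalM 2 z 4 (extC (nth cT a)) := by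
    intro a h1 h2
    have e : zz hF hz (a / 2) = blk (sh 0 (show 0 + 3 ≤ 4 by omega)) (yK hF hz (a / 2)) := by
      unfold zz; rw [if_neg (by omega), if_neg (by omega)]
    have e1 : val (zz hF hz) a = blk (sh 0 (show 0 + 3 ≤ 4 by omega)) (val (yK hF hz) a) := by
      unfold val
      split_ifs
      · exact e
      · rw [e, map_inv]
    have hg : gK a = true := by
      simp only [gK, Bool.or_eq_true, Bool.and_eq_true, Nat.ble_eq]; omega
    rw [e1, blk_coe, yK_ok hF hz a hg, evalM_ext 2 (by norm_num)]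
  have h6 : (zz hF hz 6).1.1 = evalM 2 z 4 (pmC (s23 0)) := (evalM_pms4 (q2_char hF) (s23 0)).symm
  have h9 : (zz hF hz 9).1.1 = evalM 2 z 4 (pmC (rhs 0)) := (evalM_pms4 (q2_char hF) (rhs 0)).symm
  have h6' : (zz hF hz 6)⁻¹ = zz hF hz 6 := by
    apply inv_self
    show pms (q2_char hF) 4 (s23 0) * pms (q2_char hF) 4 (s23 0) = 1
    rw [← map_mul, show s23 0 * s23 0 = 1 from Equiv.swap_mul_self _ _, map_one]
  have h9' : (zz hF hz 9)⁻¹ = zz hF hz 9 := by
    apply inv_self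
    show pms (q2_char hF) 4 (rhs 0) * pms (q2_char hF) 4 (rhs 0) = 1
    rw [← map_mul, show rhs 0 * rhs 0 = 1 by decide, map_one]
  rcases ha with ⟨ha1, ha2⟩ | ⟨ha1, ha2⟩
  · rcases Nat.lt_or_ge a 12 with h | h
    · have e := hk a ha1 (by omega)
      rw [e]
      have e2 : nth zT a = extC (nth cT a) := by interval_cases a <;> rfl
      rw [e2]
    · rcases (show a = 12 ∨ a = 13 by omega) with rfl | rfl
      · rw [show val (zz hF hz) 12 = zz hF hz 6 from val_even _ 6]; exact h6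
      · rw [show val (zz hF hz) 13 = (zz hF hz 6)⁻¹ from val_odd _ 6, h6']; exact h6
  · rcases (show a = 18 ∨ a = 19 by omega) with rfl | rfl
    · rw [show val (zz hF hz) 18 = zz hF hz 9 from val_even _ 9]; exact h9
    · rw [show val (zz hF hz) 19 = (zz hF hz 9)⁻¹ from val_odd _ 9, h9']; exact h9

/-- the three extra relators -/
noncomputable def E2 : List (Monoid.Coprod (SU 3 F 2) (Equiv.Perm (Fin (0 + 4)))) :=
  [(Monoid.Coprod.inr (rhs 0) * Monoid.Coprod.inl (b0 F 2 (t2 hF hz)) * (Monoid.Coprod.inr (rhs 0))⁻¹) * Monoid.Coprod.inl (yY hF hz) *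
      (Monoid.Coprod.inr (rhs 0) * Monoid.Coprod.inl (b0 F 2 (t2 hF hz)) * (Monoid.Coprod.inr (rhs 0))⁻¹)⁻¹ * (Monoid.Coprod.inl (yZ hF hz))⁻¹,
    (Monoid.Coprod.inr (rhs 0) * Monoid.Coprod.inl (b0 F 2 (t2 hF hz)) * (Monoid.Coprod.inr (rhs 0))⁻¹) * Monoid.Coprod.inl (yZ hF hz) *
      (Monoid.Coprod.inr (rhs 0) * Monoid.Coprod.inl (b0 F 2 (t2 hF hz)) * (Monoid.Coprod.inr (rhs 0))⁻¹)⁻¹ *
      (Monoid.Coprod.inl (yK hF hz 1 * yK hF hz 2 * yK hF hz 5 * yK hF hz 4))⁻¹,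
    (Monoid.Coprod.inr (s23 0) * Monoid.Coprod.inl (yZ hF hz) * (Monoid.Coprod.inl (yK hF hz 1))⁻¹ * Monoid.Coprod.inr (s23 0) *
      Monoid.Coprod.inl (yK hF hz 1) * (Monoid.Coprod.inl (yZ hF hz))⁻¹) ^ 2]

theorem E2_iff {G : Type*} [Group G] (κ : SU 3 F 2 →* G) (α : Equiv.Perm (Fin (0 + 4)) →* G) :
    (∀ w ∈ E2 hF hz, Monoid.Coprod.lift κ α w = 1) ↔ tp hF hz κ α * κ (yY hF hz) * (tp hF hz κ α)⁻¹ = κ (yZ hF hz) ∧
      tp hF hz κ α * κ (yZ hF hz) * (tp hF hz κ α)⁻¹ = κ (yK hF hz 1 * yK hF hz 2 * yK hF hz 5 * yK hF hz 4) ∧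
      (α (s23 0) * κ (yZ hF hz) * (κ (yK hF hz 1))⁻¹ * α (s23 0) * κ (yK hF hz 1) * (κ (yZ hF hz))⁻¹) ^ 2 = 1 := by
  rw [E2]
  have h1 : Monoid.Coprod.lift κ α (Monoid.Coprod.inr (rhs 0) * Monoid.Coprod.inl (b0 F 2 (t2 hF hz)) * (Monoid.Coprod.inr (rhs 0))⁻¹) = tp hF hz κ α := by
    rw [map_mul, map_mul, map_inv, Monoid.Coprod.lift_apply_inr, Monoid.Coprod.lift_apply_inl]; rfl
  generalize Monoid.Coprod.inr (rhs 0) * Monoid.Coprod.inl (b0 F 2 (t2 hF hz)) * (Monoid.Coprod.inr (rhs 0))⁻¹ = T at h1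
  simp only [List.mem_cons, List.not_mem_nil, or_false, forall_eq_or_imp, forall_eq, map_mul, map_pow, map_inv, h1, Monoid.Coprod.lift_apply_inl,
    Monoid.Coprod.lift_apply_inr, mul_inv_eq_one]

/-- the relators hold in `SU_4` -/
theorem E2_su : ∀ w ∈ E2 hF hz, Monoid.Coprod.lift (blk (sh 0 (show 0 + 3 ≤ 0 + 4 by omega))) (pms (q2_char hF) (0 + 4)) w = 1 := by
  haveI := char2 hF
  haveI : Fact (Nat.Prime 2) := ⟨Nat.prime_two⟩
  rw [E2_iff]
  have ht : tp hF hz (blk (sh 0 (show 0 + 3 ≤ 0 + 4 by omega))) (pms (q2_char hF) (0 + 4)) = wval (zz hF hz) [18, 4, 19] := by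
    show _ * _ * _ = _ * (_ * (_ * 1))
    rw [mul_one, mul_assoc]; rfl
  have h1 := eq_one_of_code (iota2 hF hz) (by norm_num) (by norm_num) (zz_ok hF hz) _ (by decide) chkE1
  have h2 := eq_one_of_code (iota2 hF hz) (by norm_num) (by norm_num) (zz_ok hF hz) _ (by decide) chkE2
  have h3 := eq_one_of_code (iota2 hF hz) (by norm_num) (by norm_num) (zz_ok hF hz) _ (by decide) chkE3
  rw [wval_append, wval_append, wval_append, wval_invw, wval_invw, mul_inv_eq_one, ← ht] at h1 h2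
  refine ⟨?_, ?_, ?_⟩
  · have e1 : wval (zz hF hz) [8] = blk (sh 0 (show 0 + 3 ≤ 0 + 4 by omega)) (yY hF hz) := mul_one _
    have e2 : wval (zz hF hz) [10] = blk (sh 0 (show 0 + 3 ≤ 0 + 4 by omega)) (yZ hF hz) := mul_one _
    rw [e1, e2] at h1
    exact h1
  · have e1 : wval (zz hF hz) [10] = blk (sh 0 (show 0 + 3 ≤ 0 + 4 by omega)) (yZ hF hz) := mul_one _
    have e2 : wval (zz hF hz) [2, 4, 10, 8] = blk (sh 0 (show 0 + 3 ≤ 0 + 4 by omega)) (yK hF hz 1 * yK hF hz 2 * yK hF hz 5 * yK hF hz 4) := by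
      rw [map_mul, map_mul, map_mul, wval_cons, wval_cons, wval_cons, wval_cons, wval_nil, mul_one, ← mul_assoc, ← mul_assoc]; rfl
    rw [e1, e2] at h2
    exact h2
  · rw [wval_append] at h3
    have e : wval (zz hF hz) [12, 10, 3, 12, 2, 11] = pms (q2_char hF) (0 + 4) (s23 0) * blk (sh 0 (show 0 + 3 ≤ 0 + 4 by omega)) (yZ hF hz) *
        (blk (sh 0 (show 0 + 3 ≤ 0 + 4 by omega)) (yK hF hz 1))⁻¹ * pms (q2_char hF) (0 + 4) (s23 0) *
        blk (sh 0 (show 0 + 3 ≤ 0 + 4 by omega)) (yK hF hz 1) * (blk (sh 0 (show 0 + 3 ≤ 0 + 4 by omega)) (yZ hF hz))⁻¹ := by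
      simp only [wval_cons, wval_nil, mul_one, mul_assoc]; rfl
    rw [← e, pow_two]
    exact h3

variable {G : Type*} [Group G] {κ : SU 3 F 2 →* G} {α : Equiv.Perm (Fin (0 + 4)) →* G} (D : GS (q2_char hF) κ α)
include D

/-- generation of the whole group -/
theorem gen_all (hgen : κ.range ⊔ α.range = ⊤) :
    Subgroup.closure {xx hF hz κ α 3, xx hF hz κ α 4, xx hF hz κ α 5, xx hF hz κ α 6} = ⊤ := by
  set A := Subgroup.closure {xx hF hz κ α 3, xx hF hz κ α 4, xx hF hz κ α 5, xx hF hz κ α 6} with hA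
  have m3 : xx hF hz κ α 3 ∈ A := Subgroup.subset_closure (by simp)
  have m4 : xx hF hz κ α 4 ∈ A := Subgroup.subset_closure (by simp)
  have m5 : xx hF hz κ α 5 ∈ A := Subgroup.subset_closure (by simp)
  have m6 : xx hF hz κ α 6 ∈ A := Subgroup.subset_closure (by simp)
  have hκ : A.comap κ = ⊤ := by
    rw [eq_top_iff, ← gen_kk hF hz, Subgroup.closure_le]
    rintro _ ⟨j, rfl⟩
    fin_cases j
    · exact m5
    · show κ (yY hF hz * pms (q2_char hF) 3 (Equiv.swap 0 1)) ∈ A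
      rw [map_mul]
      exact A.mul_mem m4 m3
  have hκ' : ∀ x, κ x ∈ A := by
    intro x
    have hs : x ∈ A.comap κ := by rw [hκ]; trivial
    exact hs
  have hα : A.comap α = ⊤ := by
    rw [eq_top_iff, ← cl_adj 3, Subgroup.closure_le]
    rintro _ ⟨j, rfl⟩
    fin_cases j
    · have : α (Equiv.swap 0 1) ∈ A := by
        have e : α (Equiv.swap 0 1) = κ (pms (q2_char hF) 3 (Equiv.swap 0 1)) := by rw [D.A, ex_swap]; rfl
        rw [e]; exact hκ' _
      exact this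
    · have : α (Equiv.swap 1 2) ∈ A := by
        have e : α (Equiv.swap 1 2) = κ (pms (q2_char hF) 3 (Equiv.swap 1 2)) := by rw [D.A, ex_swap]; rfl
        rw [e]; exact hκ' _
      exact this
    · exact m6
  rw [eq_top_iff, ← hgen, sup_le_iff]
  constructor
  · rintro _ ⟨x, rfl⟩
    exact hκ' x
  · rintro _ ⟨π, rfl⟩
    have hs : π ∈ A.comap α := by rw [hα]; trivial
    exact hs

theorem three_tp : (tp hF hz κ α) ^ 3 = 1 := by
  have h := (map_pow ((MulAut.conj (α (rhs 0))).toMonoidHom.comp (κ.comp (b0 F 2))) (t2 hF hz) 3).symm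
  rw [t2_three, map_one] at h
  exact h

theorem norm_tp (H : Facts (xx hF hz κ α)) : tp hF hz κ α ∈ Subgroup.normalizer (κ.range : Set G) := by
  have hsub : ∀ x, tp hF hz κ α * κ x * (tp hF hz κ α)⁻¹ ∈ κ.range := by
    have : κ.range.comap ((MulAut.conj (tp hF hz κ α)).toMonoidHom.comp κ) = ⊤ := by
      rw [eq_top_iff, ← gen_kk hF hz, Subgroup.closure_le]
      rintro _ ⟨j, rfl⟩
      fin_cases j
      · show tp hF hz κ α * κ (yZ hF hz) * (tp hF hz κ α)⁻¹ ∈ κ.range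
        have h := H.e2
        change tp hF hz κ α * κ (yZ hF hz) * (tp hF hz κ α)⁻¹ = κ (yK hF hz 1) * κ (yK hF hz 2) * κ (yK hF hz 5) * κ (yK hF hz 4) at h
        rw [h]
        exact Subgroup.mul_mem _ (Subgroup.mul_mem _ (Subgroup.mul_mem _ ⟨_, rfl⟩ ⟨_, rfl⟩) ⟨_, rfl⟩) ⟨_, rfl⟩
      · show tp hF hz κ α * κ (yY hF hz * pms (q2_char hF) 3 (Equiv.swap 0 1)) * (tp hF hz κ α)⁻¹ ∈ κ.range
        have h := H.e1
        change tp hF hz κ α * κ (yY hF hz) * (tp hF hz κ α)⁻¹ = κ (yZ hF hz) at h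
        have h' := H.c4
        change Commute (κ (pms (q2_char hF) 3 (Equiv.swap 0 1))) (tp hF hz κ α) at h'
        have e : tp hF hz κ α * κ (yY hF hz * pms (q2_char hF) 3 (Equiv.swap 0 1)) * (tp hF hz κ α)⁻¹ = κ (yZ hF hz) * κ (pms (q2_char hF) 3 (Equiv.swap 0 1)) := by
          rw [map_mul, ← h]
          generalize κ (pms (q2_char hF) 3 (Equiv.swap 0 1)) = u at h'
          generalize tp hF hz κ α = y at h'
          have := h'.eq
          calc y * (κ (yY hF hz) * u) * y⁻¹ = y * κ (yY hF hz) * y⁻¹ * (y * u) * y⁻¹ := by group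
            _ = y * κ (yY hF hz) * y⁻¹ * (u * y) * y⁻¹ := by rw [this]
            _ = _ := by group
        rw [e]
        exact Subgroup.mul_mem _ ⟨_, rfl⟩ ⟨_, rfl⟩
    intro x
    have hs : x ∈ κ.range.comap ((MulAut.conj (tp hF hz κ α)).toMonoidHom.comp κ) := by rw [this]; trivial
    exact hs
  rw [Subgroup.mem_normalizer_iff]
  have h1 : ∀ h ∈ κ.range, tp hF hz κ α * h * (tp hF hz κ α)⁻¹ ∈ κ.range := by
    rintro _ ⟨x, rfl⟩; exact hsub x
  intro h
  refine ⟨h1 h, ?_⟩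
  intro hh
  have h4 := three_tp hF hz D
  have e := h1 _ (h1 _ hh)
  generalize tp hF hz κ α = y at h4 e
  have e5 : y * (y * (y * h * y⁻¹) * y⁻¹) * y⁻¹ = y ^ 3 * h * (y ^ 3)⁻¹ := by
    simp only [pow_succ, pow_zero, one_mul]; group
  rw [e5, h4] at e
  simpa using e

/-- **the order bound** -/
theorem bound (e1 : tp hF hz κ α * κ (yY hF hz) * (tp hF hz κ α)⁻¹ = κ (yZ hF hz))
    (e2 : tp hF hz κ α * κ (yZ hF hz) * (tp hF hz κ α)⁻¹ = κ (yK hF hz 1 * yK hF hz 2 * yK hF hz 5 * yK hF hz 4))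
    (e3 : (α (s23 0) * κ (yZ hF hz) * (κ (yK hF hz 1))⁻¹ * α (s23 0) * κ (yK hF hz 1) * (κ (yZ hF hz))⁻¹) ^ 2 = 1)
    (hgen : κ.range ⊔ α.range = ⊤) : Finite G ∧ Nat.card G ≤ Nat.card (SU (0 + 4) F 2) := by
  have H := facts hF hz D e1 e2 e3
  have hK3 := card_su3 hF
  haveI : Finite (SU 3 F 2) := Nat.finite_of_card_ne_zero (by rw [hK3]; norm_num)
  haveI : Finite κ.range := Finite.of_surjective _ κ.rangeRestrict_surjective
  obtain ⟨hfin, hcard⟩ := card_sup_le κ.range (tp hF hz κ α) (norm_tp hF hz D H) 3 (by norm_num) (three_tp hF hz D) inferInstance 216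
    (by rw [← hK3]; exact Nat.card_le_card_of_surjective _ κ.rangeRestrict_surjective)
  set Hs := κ.range ⊔ Subgroup.zpowers (tp hF hz κ α) with hHs
  have hiv : ∀ c, Nat.testBit 840 c = true → (xx hF hz κ α c)⁻¹ = xx hF hz κ α c := fun c hc => xx_inv hF hz c hc H
  have hx0 : xx hF hz κ α 0 = 1 := map_one κ
  have hstab : ∀ c ∈ [1, 2, 3, 4, 5, 8, 7], xx hF hz κ α c • ((1 : G) : G ⧸ Hs) = ((1 : G) : G ⧸ Hs) := by
    intro c hc
    have hm : xx hF hz κ α c ∈ Hs := by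
      simp only [List.mem_cons, List.not_mem_nil, or_false] at hc
      rcases hc with rfl | rfl | rfl | rfl | rfl | rfl | rfl
      · exact Subgroup.mem_sup_left ⟨_, rfl⟩
      · exact Subgroup.mem_sup_left ⟨_, rfl⟩
      · exact Subgroup.mem_sup_left ⟨_, rfl⟩
      · exact Subgroup.mem_sup_left ⟨_, rfl⟩
      · exact Subgroup.mem_sup_left ⟨_, rfl⟩
      · exact Subgroup.mem_sup_left ⟨_, rfl⟩
      · exact Subgroup.mem_sup_right (Subgroup.mem_zpowers _)
    show ((xx hF hz κ α c * 1 : G) : G ⧸ Hs) = _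
    rw [mul_one, QuotientGroup.eq]
    simpa using Hs.inv_mem hm
  have hgood := sound (X := G ⧸ Hs) (x := xx hF hz κ α) (p := ((1 : G) : G ⧸ Hs)) hx0 hiv (rels_ok hF hz D H) hstab PresUV.ok
  have hX : Finite (G ⧸ Hs) ∧ Nat.card (G ⧸ Hs) ≤ 40 := by
    apply card_le_of_closed (f := pts PresUV.T (xx hF hz κ α) ((1 : G) : G ⧸ Hs)) (by norm_num) _ (gen_all hF hz D hgen)
    rintro a (rfl | rfl | rfl | rfl)
    · exact chkC_sound hiv hgood 40 PresUV.cl3
    · exact chkC_sound hiv hgood 40 PresUV.cl4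
    · exact chkC_sound hiv hgood 40 PresUV.cl5
    · exact chkC_sound hiv hgood 40 PresUV.cl6
  obtain ⟨hX1, hX2⟩ := hX
  have hG : Nat.card G = Nat.card (G ⧸ Hs) * Nat.card Hs := Subgroup.card_eq_card_quotient_mul_card_subgroup _
  have hpos : 0 < Nat.card G := by rw [hG]; exact Nat.mul_pos Nat.card_pos Nat.card_pos
  refine ⟨Nat.finite_of_card_ne_zero hpos.ne', ?_⟩
  have h4 : Nat.card (SU (0 + 4) F 2) = 25920 := card_su4 hF
  rw [h4, hG]
  calc _ ≤ 40 * (216 * 3) := Nat.mul_le_mul hX2 hcard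
    _ = _ := by norm_num

end q2

/-! ### the final presentations -/

section final
universe u
variable {F : Type u} [Field F] [Fintype F] (hF : Fintype.card F = 2 ^ 2)
include hF

theorem gen_tu {z : F} (hz : z ^ 2 + z + 1 = 0) : Subgroup.closure {t2 hF hz, uu (q2_char hF)} = ⊤ := by
  set S := Subgroup.closure {t2 hF hz, uu (q2_char hF)} with hS
  have h2 := q2_char hF
  have ht : t2 hF hz ∈ S := Subgroup.subset_closure (by simp)
  have hu : uu (q2_char hF) ∈ S := Subgroup.subset_closure (by simp)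
  have hc : Nat.card (SU 2 F 2) = 6 := card_su2 hF
  haveI : Finite (SU 2 F 2) := Nat.finite_of_card_ne_zero (by omega)
  have ot : orderOf (t2 hF hz) = 3 := by
    haveI : Fact (Nat.Prime 3) := ⟨Nat.prime_three⟩
    refine orderOf_eq_prime (t2_three hF hz) ?_
    intro h
    have h1 : (t2 hF hz).1.1 0 0 = (1 : SU 2 F 2).1.1 0 0 := by rw [h]
    rw [t2_coe] at h1
    have h3 : (1 : SU 2 F 2).1.1 0 0 = (1 : F) := rfl
    rw [h3] at h1
    change z = 1 at h1
    rw [h1] at hz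
    exact one_ne_zero (α := F) (by linear_combination hz - h2)
  have ou : orderOf (uu (q2_char hF)) = 2 := by
    refine orderOf_eq_prime ?_ ?_
    · rw [uu, pow_two, ← map_mul, Equiv.swap_mul_self, map_one]
    · intro h
      have h1 : (uu (q2_char hF)).1.1 0 0 = (1 : SU 2 F 2).1.1 0 0 := by rw [h]
      rw [uu, pms_coe, emb_apply, if_neg (by decide)] at h1
      have h3 : (1 : SU 2 F 2).1.1 0 0 = (1 : F) := rfl
      rw [h3] at h1
      exact zero_ne_one h1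
  have d3 : 3 ∣ Nat.card S := by
    have := orderOf_dvd_natCard (⟨t2 hF hz, ht⟩ : S)
    rw [Subgroup.orderOf_mk, ot] at this
    exact this
  have d2 : 2 ∣ Nat.card S := by
    have := orderOf_dvd_natCard (⟨uu (q2_char hF), hu⟩ : S)
    rw [Subgroup.orderOf_mk, ou] at this
    exact this
  have d6 : 6 ∣ Nat.card S := Nat.Coprime.mul_dvd_of_dvd_of_dvd (m := 3) (n := 2) (by norm_num) d3 d2
  exact Subgroup.eq_top_of_le_card S (by rw [hc]; exact Nat.le_of_dvd Nat.card_pos d6)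

/-- presentations of `SU_n(2)` -/
theorem hasPres2 (N : ℕ) : HasPres (SU (N + 4) F 2) 4 (6 + 8 + (8 + (if N ≤ 1 then 2 else 6) + 3)) := by
  obtain ⟨z, z0, z1, hz, -, -⟩ := exists_om hF
  exact hasPres_allS (q2_char hF) hF (pres_su3 hF hz) (sn (N + 4)) (gen_tu hF hz) (gen_kk hF hz) (E2 hF hz) (E2_su hF hz) (by
    intro Γ _ κ α D hE hgen
    rw [E2_iff] at hE
    exact bound hF hz D hE.1 hE.2.1 hE.2.2 hgen)

end final

end Cfsg.Agent.Lib.PresU.T2
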