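import Cfsg.Agent.Lib.FTHall
import Cfsg.Agent.Lib.MinNormal
import Cfsg.Agent.Lib.FrobAction
import Cfsg.Agent.Lib.FrobThm
import Cfsg.Agent.Lib.Components

set_option autoImplicit false
set_option linter.all false

/-!
A finite group `H` acting on a 2-group `V` such that all stabilizers of nontrivial vectors are maximal
and core-free is almost simple or solvable (S3521), modulo the odd order theorem.
-/

namespace Cfsg.Agent.Lib.PrimSuborbit

open Subgroup Cfsg Cfsg.Agent.Lib Cfsg.Agent.Lib.MinNormal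
open scoped commutatorElement

universe u v

section Defs

variable {H : Type u} [Group H] {V : Type v} [CommGroup V]

/-- stabilizer -/
def st (act : H →* MulAut V) (x : V) : Subgroup H where
  carrier := {h | act h x = x}
  one_mem' := by simp
  mul_mem' := by
    intro a b ha hb
    show act (a * b) x = x
    rw [map_mul, MulAut.mul_apply, show act b x = x from hb, show act a x = x from ha]
  inv_mem' := by
    intro a ha
    show act a⁻¹ x = x
    rw [map_inv]
    have : act a x = x := ha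
    conv_lhs => rw [← this]
    exact MulAut.inv_apply_self _ _ _

theorem mem_st {act : H →* MulAut V} {x : V} {h : H} : h ∈ st act x ↔ act h x = x := Iff.rfl

theorem st_act {act : H →* MulAut V} {x : V} {g h : H} : h ∈ st act (act g x) ↔ g⁻¹ * h * g ∈ st act x := by
  rw [mem_st, mem_st, map_mul, map_mul, MulAut.mul_apply, MulAut.mul_apply, map_inv]
  constructor
  · intro h1
    rw [h1]
    exact MulAut.inv_apply_self _ _ _
  · intro h1
    have := congrArg (act g) h1
    rwa [MulAut.apply_inv_self] at this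

end Defs

section Main

variable {H : Type u} [Group H] [Finite H] {V : Type v} [CommGroup V] [Finite V] {act : H →* MulAut V}
variable (hI : ∀ M : Subgroup H, M.Normal → (∃ x : V, x ≠ 1 ∧ M ≤ st act x) → M = ⊥)
variable (hmax : ∀ x : V, x ≠ 1 → IsCoatom (st act x))

include hI hmax

theorem sup_eq_top {M : Subgroup H} (hM : M.Normal) (hM1 : M ≠ ⊥) {x : V} (hx : x ≠ 1) : st act x ⊔ M = ⊤ := by
  rcases (hmax x hx).le_iff.1 (le_sup_left : st act x ≤ st act x ⊔ M) with h | h
  · exact h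
  · exfalso
    apply hM1
    exact hI M hM ⟨x, hx, by rw [← h]; exact le_sup_right⟩

/-- a subgroup of a stabilizer normalised by the stabilizer and by something else is trivial -/
theorem eq_bot_of_normalizer {x : V} (hx : x ≠ 1) {A : Subgroup H} (hA : A ≤ st act x)
    (hn : st act x ≤ normalizer (A : Set H)) {g : H} (hg : g ∈ normalizer (A : Set H)) (hgx : g ∉ st act x) : A = ⊥ := by
  have h1 : normalizer (A : Set H) = ⊤ := by
    rcases (hmax x hx).le_iff.1 hn with h | h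
    · exact h
    · exact absurd (h ▸ hg) hgx
  exact hI A (normalizer_eq_top_iff.1 h1) ⟨x, hx, hA⟩

theorem inf_normalizer {M : Subgroup H} (hM : M.Normal) (x : V) :
    st act x ≤ normalizer ((M ⊓ st act x : Subgroup H) : Set H) := by
  intro g hg
  rw [mem_normalizer_iff]
  intro y
  constructor
  · intro hy
    obtain ⟨h1, h2⟩ := Subgroup.mem_inf.1 hy
    exact Subgroup.mem_inf.2 ⟨hM.conj_mem y h1 g, mul_mem (mul_mem hg h2) (inv_mem hg)⟩
  · intro hy
    obtain ⟨h1, h2⟩ := Subgroup.mem_inf.1 hy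
    have e : y = g⁻¹ * (g * y * g⁻¹) * g⁻¹⁻¹ := by group
    rw [e]
    exact Subgroup.mem_inf.2 ⟨hM.conj_mem _ h1 g⁻¹, mul_mem (mul_mem (inv_mem hg) h2) (inv_mem (inv_mem hg))⟩

/-- commuting normal subgroups act semiregularly -/
theorem inf_eq_bot_of_commute {M C : Subgroup H} (hM : M.Normal) (hC : C.Normal) (hC1 : C ≠ ⊥)
    (hMC : ∀ m ∈ M, ∀ c ∈ C, m * c = c * m) {x : V} (hx : x ≠ 1) : M ⊓ st act x = ⊥ := by
  have h1 : ∃ c ∈ C, c ∉ st act x := by
    by_contra hcon
    push Not at hcon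
    exact hC1 (hI C hC ⟨x, hx, hcon⟩)
  obtain ⟨c, hc, hcx⟩ := h1
  refine eq_bot_of_normalizer hI hmax hx inf_le_right (inf_normalizer hI hmax hM x) (g := c) ?_ hcx
  apply Subgroup.mem_normalizer_fintype
  intro n hn
  obtain ⟨h1, h2⟩ := Subgroup.mem_inf.1 hn
  have : c * n * c⁻¹ = n := by rw [← hMC n h1 c hc]; group
  rw [this]
  exact hn

/-- Step A -/
theorem solvable_of_abelian [Nontrivial V] {K : Subgroup H} (hK : K.Normal) (hK1 : K ≠ ⊥)
    (hab : ∀ a ∈ K, ∀ b ∈ K, a * b = b * a) : Group.IsSolvable H := by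
  have hreg : ∀ x : V, x ≠ 1 → K ⊓ st act x = ⊥ := fun x hx =>
    inf_eq_bot_of_commute hI hmax hK hK hK1 hab hx
  obtain ⟨x, hx⟩ := exists_ne (1 : V)
  -- the centralizer of `K` is `K`
  have hC : centralizer (K : Set H) ≤ K := by
    haveI := hK
    haveI hCn : (centralizer (K : Set H)).Normal := inferInstance
    have h1 : centralizer (K : Set H) ⊓ st act x = ⊥ :=
      inf_eq_bot_of_commute hI hmax hCn hK hK1 (fun m hm c hc => ((mem_centralizer_iff.1 hm) c hc).symm) hx
    intro c hc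
    have h2 : c ∈ K ⊔ st act x := by
      rw [sup_comm, sup_eq_top hI hmax hK hK1 hx]; trivial
    obtain ⟨k, hk, s, hs, rfl⟩ := (Subgroup.mem_sup_of_normal_left).1 h2
    have hkC : k ∈ centralizer (K : Set H) := mem_centralizer_iff.2 fun a ha => hab a ha k hk
    have h3 : s ∈ centralizer (K : Set H) ⊓ st act x :=
      Subgroup.mem_inf.2 ⟨(mul_mem_cancel_left hkC).1 hc, hs⟩
    rw [h1, Subgroup.mem_bot] at h3
    rw [h3, mul_one]
    exact hk
  -- `K` is cyclic
  have hfpf : FrobAction.IsFPF (act.comp K.subtype) := by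
    intro a ha y hy
    by_contra hy1
    apply ha
    have h1 : (a : H) ∈ K ⊓ st act y := Subgroup.mem_inf.2 ⟨a.2, hy⟩
    rw [hreg y hy1, Subgroup.mem_bot] at h1
    exact Subtype.ext h1
  have hcyc : IsCyclic K := FrobAction.isCyclic_of_comm hfpf (fun a b => Subtype.ext (hab a a.2 b b.2))
  haveI := hK
  -- conjugation map to `MulAut K`
  have hcomm : ∀ a b : MulAut K, a * b = b * a := by
    obtain ⟨g, hg⟩ := hcyc.exists_generator
    intro a b
    ext k
    obtain ⟨n, rfl⟩ := mem_zpowers_iff.1 (hg k)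
    obtain ⟨i, hi⟩ := mem_zpowers_iff.1 (hg (a g))
    obtain ⟨j, hj⟩ := mem_zpowers_iff.1 (hg (b g))
    rw [map_zpow, map_zpow]
    congr 2
    rw [MulAut.mul_apply, MulAut.mul_apply, ← hi, ← hj, map_zpow, map_zpow, ← hi, ← hj, ← zpow_mul, ← zpow_mul, mul_comm]
  haveI h1 : Group.IsSolvable (MulAut K) := Group.isSolvable_of_comm hcomm
  haveI h2 : Group.IsSolvable K := Group.isSolvable_of_comm fun a b => Subtype.ext (hab a a.2 b b.2)
  refine Group.isSolvable_of_ker_le_range K.subtype (MulAut.conjNormal (H := K)) ?_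
  intro g hg
  rw [Subgroup.range_subtype]
  apply hC
  rw [mem_centralizer_iff]
  intro k hk
  have h3 := congrArg (fun φ : MulAut K => ((φ ⟨k, hk⟩ : K) : H)) (MonoidHom.mem_ker.1 hg)
  have h4 : g * k * g⁻¹ = k := h3
  exact (mul_inv_eq_iff_eq_mul.1 h4).symm

omit [Finite H] [Finite V] hI hmax in
theorem exists_fixed [Nontrivial V] (hV : IsPGroup 2 V) {t : H} (ht : t * t = 1) : ∃ x : V, x ≠ 1 ∧ t ∈ st act x := by
  haveI : Fact (Nat.Prime 2) := ⟨Nat.prime_two⟩
  obtain ⟨z, hz⟩ := exists_ne (1 : V)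
  obtain ⟨k, hk⟩ := (IsPGroup.iff_orderOf.1 hV) z
  have hk0 : k ≠ 0 := by
    rintro rfl
    rw [pow_zero, orderOf_eq_one_iff] at hk
    exact hz hk
  obtain ⟨y, hy, hy2⟩ : ∃ y : V, y ≠ 1 ∧ y * y = 1 := by
    refine ⟨z ^ 2 ^ (k - 1), ?_, ?_⟩
    · intro h
      have h1 := orderOf_dvd_of_pow_eq_one h
      rw [hk] at h1
      have := (Nat.pow_dvd_pow_iff_le_right (by norm_num)).1 h1
      omega
    · rw [← pow_add, ← two_mul, ← pow_succ', Nat.sub_add_cancel (Nat.pos_of_ne_zero hk0), ← hk, pow_orderOf_eq_one]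
  have htt : ∀ w : V, act t (act t w) = w := by
    intro w
    rw [← MulAut.mul_apply, ← map_mul, ht, map_one, MulAut.one_apply]
  by_cases h : y * act t y = 1
  · refine ⟨y, hy, ?_⟩
    show act t y = y
    have h1 : act t y = y⁻¹ := eq_inv_of_mul_eq_one_right h
    rw [h1]
    exact inv_eq_of_mul_eq_one_left hy2
  · refine ⟨_, h, ?_⟩
    show act t (y * act t y) = y * act t y
    rw [map_mul, htt, mul_comm]

omit hI hmax in
theorem commutator_eq {A T : Subgroup H} (hT : MinBy A T) (hna : ¬ ∀ x ∈ T, ∀ y ∈ T, x * y = y * x) : ⁅T, T⁆ = T := by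
  have h1 : InvBy A ⁅T, T⁆ := by
    intro a ha x hx
    have hmap : T.map (MulAut.conj a).toMonoidHom ≤ T := by
      rintro _ ⟨t, ht, rfl⟩
      exact hT.inv a ha t ht
    have h2 : (⁅T, T⁆).map (MulAut.conj a).toMonoidHom ≤ ⁅T, T⁆ := by
      rw [Subgroup.map_commutator]
      exact commutator_mono hmap hmap
    exact h2 ⟨x, hx, rfl⟩
  rcases hT.min _ h1 (commutator_le_self T) with h2 | h2
  · exfalso
    apply hna
    intro x hx y hy
    have h3 : ⁅x, y⁆ ∈ ⁅T, T⁆ := commutator_mem_commutator hx hy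
    rw [h2, Subgroup.mem_bot, commutatorElement_eq_one_iff_commute] at h3
    exact h3
  · exact h2

omit hI hmax in
theorem not_solvable {A T : Subgroup H} (hT : MinBy A T) (hna : ¬ ∀ x ∈ T, ∀ y ∈ T, x * y = y * x) : ¬ Group.IsSolvable T := by
  intro hs
  haveI : Nontrivial T := (Subgroup.nontrivial_iff_ne_bot T).2 hT.ne_bot
  have h1 := IsSolvable.commutator_lt_top_of_nontrivial T
  have h2 := commutator_eq hT hna
  apply h1.ne
  rw [eq_top_iff]
  intro t _
  have h3 : (t : H) ∈ (_root_.commutator T).map T.subtype := by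
    rw [map_subtype_commutator, h2]; exact t.2
  obtain ⟨r, hr, hrt⟩ := h3
  have : r = t := Subtype.ext hrt
  rwa [← this]

omit hI hmax in
theorem exists_involution (hFT : FTHall.FT.{u}) {A T : Subgroup H} (hT : MinBy A T)
    (hna : ¬ ∀ x ∈ T, ∀ y ∈ T, x * y = y * x) : ∃ t ∈ T, t ≠ 1 ∧ t * t = 1 := by
  have h1 : ¬ Odd (Nat.card T) := fun h => not_solvable hT hna (hFT T h)
  rw [Nat.not_odd_iff_even] at h1
  haveI : Fact (Nat.Prime 2) := ⟨Nat.prime_two⟩
  obtain ⟨t, ht⟩ := exists_prime_orderOf_dvd_card' 2 h1.two_dvd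
  refine ⟨t, t.2, ?_, ?_⟩
  · intro h
    have h2 : t = 1 := Subtype.ext h
    rw [h2, orderOf_one] at ht
    omega
  · have := pow_orderOf_eq_one t
    rw [ht, pow_two] at this
    exact congrArg Subtype.val this

/-- Step B -/
theorem centralizer_eq_bot [Nontrivial V] (hFT : FTHall.FT.{u}) (hV : IsPGroup 2 V) {N : Subgroup H} (hN : MinBy ⊤ N)
    (hna : ¬ ∀ x ∈ N, ∀ y ∈ N, x * y = y * x) : centralizer (N : Set H) = ⊥ := by
  by_contra hC1
  haveI hNn := hN.normal
  haveI hCn : (centralizer (N : Set H)).Normal := inferInstance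
  obtain ⟨t, ht, ht1, ht2⟩ := exists_involution hFT hN hna
  obtain ⟨x, hx, hxt⟩ := exists_fixed (act := act) hV ht2
  have h1 := inf_eq_bot_of_commute hI hmax hNn hCn hC1
    (fun m hm c hc => (mem_centralizer_iff.1 hc) m hm) hx
  have h2 : t ∈ N ⊓ st act x := Subgroup.mem_inf.2 ⟨ht, hxt⟩
  rw [h1, Subgroup.mem_bot] at h2
  exact ht1 h2

section Fac

variable {N : Subgroup H} (hN : MinBy ⊤ N) (hna : ¬ ∀ x ∈ N, ∀ y ∈ N, x * y = y * x)

include hN hna

theorem exists_decomp {x : V} (hx : x ≠ 1) (g : H) : ∃ s ∈ st act x, ∃ n ∈ N, g = s * n := by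
  haveI hNn := hN.normal
  have h1 : g ∈ st act x ⊔ N := by rw [sup_eq_top hI hmax hNn hN.ne_bot hx]; trivial
  obtain ⟨s, hs, n, hn, rfl⟩ := (Subgroup.mem_sup_of_normal_right).1 h1
  exact ⟨s, hs, n, hn, rfl⟩

/-- (C1) -/
theorem not_le {T : Subgroup H} (hT : MinBy N T) (hle : T ≤ N) {x : V} (hx : x ≠ 1) : ¬ T ≤ st act x := by
  intro h
  have h1 : N ≤ st act x := by
    apply hN.le_of_conj hle hT.ne_bot
    intro g t ht
    obtain ⟨s, hs, n, hn, rfl⟩ := exists_decomp hI hmax hN hna hx g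
    have e : s * n * t * (s * n)⁻¹ = s * (n * t * n⁻¹) * s⁻¹ := by group
    rw [e]
    exact mul_mem (mul_mem hs (h (hT.inv n hn t ht))) (inv_mem hs)
  exact hN.ne_bot (hI N hN.normal ⟨x, hx, h1⟩)

theorem exists_cj_eq {T : Subgroup H} (hT : MinBy N T) (hle : T ≤ N) (g : H) {x : V} (hx : x ≠ 1) :
    ∃ s ∈ st act x, cj g T = cj s T := by
  obtain ⟨s, hs, n, hn, rfl⟩ := exists_decomp hI hmax hN hna hx g
  refine ⟨s, hs, ?_⟩
  ext y
  rw [mem_cj, mem_cj]
  have e : (s * n)⁻¹ * y * (s * n) = n⁻¹ * (s⁻¹ * y * s) * n⁻¹⁻¹ := by group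
  rw [e]
  constructor
  · intro h
    have h2 := hT.inv n hn _ h
    have e2 : n * (n⁻¹ * (s⁻¹ * y * s) * n⁻¹⁻¹) * n⁻¹ = s⁻¹ * y * s := by group
    rwa [e2] at h2
  · intro h
    exact hT.inv n⁻¹ (inv_mem hn) _ h

/-- (C4) -/
theorem card_inf_cj {T : Subgroup H} (hT : MinBy N T) (hle : T ≤ N) (g : H) {x : V} (hx : x ≠ 1) :
    Nat.card (cj g T ⊓ st act x : Subgroup H) = Nat.card (T ⊓ st act x : Subgroup H) := by
  obtain ⟨s, hs, he⟩ := exists_cj_eq hI hmax hN hna hT hle g hx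
  rw [he, ← MinNormal.card_cj s (T ⊓ st act x)]
  congr 1
  have : cj s T ⊓ st act x = cj s (T ⊓ st act x) := by
    ext y
    rw [Subgroup.mem_inf, mem_cj, mem_cj, Subgroup.mem_inf]
    refine and_congr_right fun _ => ?_
    constructor
    · intro h
      exact mul_mem (mul_mem (inv_mem hs) h) hs
    · intro h
      have h2 := mul_mem (mul_mem hs h) (inv_mem hs)
      have e : s * (s⁻¹ * y * s) * s⁻¹ = y := by group
      rwa [e] at h2
  rw [this]

/-- (C2) -/
theorem proj_mem {T : Subgroup H} (hT : MinBy N T) (hle : T ≤ N) {x : V} (hx : x ≠ 1) (hne : T ⊓ st act x ≠ ⊥)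
    {t c : H} (ht : t ∈ T) (hc : c ∈ N ⊓ centralizer (T : Set H)) (htc : t * c ∈ st act x) : t ∈ st act x := by
  haveI hNn := hN.normal
  set Nx : Subgroup H := N ⊓ st act x with hNx
  set L : Subgroup H := ⨅ g : H, (Nx ⊔ (N ⊓ centralizer (cj g T : Set H))) with hL
  have hNxL : Nx ≤ L := le_iInf fun g => le_sup_left
  have hcj1 : cj (1 : H) T = T := by
    ext y; rw [mem_cj]; simp
  have hL1 : L ≤ Nx ⊔ (N ⊓ centralizer (T : Set H)) := by
    have := iInf_le (fun g : H => (Nx ⊔ (N ⊓ centralizer (cj g T : Set H)))) 1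
    rwa [hcj1] at this
  have hLN : L ≤ N := hL1.trans (sup_le inf_le_left inf_le_left)
  have hnorm : st act x ≤ normalizer (L : Set H) := by
    intro s hs
    apply Subgroup.mem_normalizer_fintype
    intro y hy
    have hy' : ∀ g, y ∈ Nx ⊔ (N ⊓ centralizer (cj g T : Set H)) := fun g => (Subgroup.mem_iInf.1 hy) g
    refine Subgroup.mem_iInf.2 fun g => ?_
    have h1 := hy' (s⁻¹ * g)
    have h2 : s * y * s⁻¹ ∈ (Nx ⊔ (N ⊓ centralizer (cj (s⁻¹ * g) T : Set H))).map (MulAut.conj s).toMonoidHom :=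
      ⟨y, h1, rfl⟩
    rw [Subgroup.map_sup] at h2
    refine (sup_le_sup ?_ ?_ : _ ≤ Nx ⊔ (N ⊓ centralizer (cj g T : Set H))) h2
    · rintro _ ⟨z, hz, rfl⟩
      obtain ⟨hz1, hz2⟩ := Subgroup.mem_inf.1 hz
      exact Subgroup.mem_inf.2 ⟨hNn.conj_mem z hz1 s, mul_mem (mul_mem hs hz2) (inv_mem hs)⟩
    · rintro _ ⟨z, hz, rfl⟩
      obtain ⟨hz1, hz2⟩ := Subgroup.mem_inf.1 hz
      refine Subgroup.mem_inf.2 ⟨hNn.conj_mem z hz1 s, ?_⟩
      show s * z * s⁻¹ ∈ _
      rw [mem_centralizer_iff]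
      intro w hw
      have hw2 : s⁻¹ * w * s ∈ cj (s⁻¹ * g) T := by
        rw [SetLike.mem_coe, mem_cj] at hw
        rw [mem_cj]
        have e : (s⁻¹ * g)⁻¹ * (s⁻¹ * w * s) * (s⁻¹ * g) = g⁻¹ * w * g := by group
        rwa [e]
      have h3 := (mem_centralizer_iff.1 hz2) _ hw2
      calc w * (s * z * s⁻¹) = s * (s⁻¹ * w * s * z) * s⁻¹ := by group
        _ = s * (z * (s⁻¹ * w * s)) * s⁻¹ := by rw [h3]
        _ = s * z * s⁻¹ * w := by group
  have hdec := hN.decomp hT hle hna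
  rcases (hmax x hx).le_iff.1 (le_sup_left : st act x ≤ st act x ⊔ L) with h | h
  · exfalso
    have hNL : N ≤ L := by
      intro n hn
      have h1 : n ∈ st act x ⊔ L := h ▸ trivial
      obtain ⟨s, hs, l, hl, rfl⟩ := (Components.mem_sup_of_le_normalizer hnorm).1 h1
      have hsN : s ∈ N := (mul_mem_cancel_right (hLN hl)).1 hn
      exact mul_mem (hNxL (Subgroup.mem_inf.2 ⟨hsN, hs⟩)) hl
    have hinv : InvBy N (T ⊓ st act x) := by
      have h2 : N ≤ normalizer ((T ⊓ st act x : Subgroup H) : Set H) := by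
        refine (hNL.trans hL1).trans (sup_le ?_ ?_)
        · intro s hs
          obtain ⟨hs1, hs2⟩ := Subgroup.mem_inf.1 hs
          apply Subgroup.mem_normalizer_fintype
          intro y hy
          obtain ⟨hy1, hy2⟩ := Subgroup.mem_inf.1 hy
          exact Subgroup.mem_inf.2 ⟨hT.inv s hs1 y hy1, mul_mem (mul_mem hs2 hy2) (inv_mem hs2)⟩
        · intro s hs
          obtain ⟨hs1, hs2⟩ := Subgroup.mem_inf.1 hs
          apply Subgroup.mem_normalizer_fintype
          intro y hy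
          obtain ⟨hy1, hy2⟩ := Subgroup.mem_inf.1 hy
          have e : s * y * s⁻¹ = y := by rw [← (mem_centralizer_iff.1 hs2) y hy1]; group
          rw [e]
          exact hy
      intro n hn y hy
      exact (mem_normalizer_iff.1 (h2 hn) y).1 hy
    rcases hT.min _ hinv inf_le_left with h3 | h3
    · exact hne h3
    · exact not_le hI hmax hN hna hT hle hx (by rw [← h3]; exact inf_le_right)
  · have hLst : L ≤ st act x := by rw [← h]; exact le_sup_right
    apply hLst
    refine Subgroup.mem_iInf.2 fun g => ?_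
    rcases hN.conj_eq_or_le hT hle g with h1 | h1
    · rw [h1]
      have e : t = t * c * c⁻¹ := by group
      rw [e]
      exact mul_mem (Subgroup.mem_sup_left (Subgroup.mem_inf.2 ⟨mul_mem (hle ht) (Subgroup.mem_inf.1 hc).1, htc⟩))
        (Subgroup.mem_sup_right (inv_mem hc))
    · apply Subgroup.mem_sup_right
      refine Subgroup.mem_inf.2 ⟨hle ht, mem_centralizer_iff.2 fun w hw => ?_⟩
      exact ((mem_centralizer_iff.1 (Subgroup.mem_inf.1 (h1 hw)).2) t ht).symm

/-- (C3) -/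
theorem norm_mem {T : Subgroup H} (hT : MinBy N T) (hle : T ≤ N) {x : V} (hx : x ≠ 1) (hne : T ⊓ st act x ≠ ⊥)
    {n : H} (hn : n ∈ T) (h : ∀ s ∈ T ⊓ st act x, n * s * n⁻¹ ∈ st act x) : n ∈ st act x := by
  by_contra hnx
  haveI hNn := hN.normal
  have hdec := hN.decomp hT hle hna
  have h1 : N ⊓ st act x = ⊥ := by
    refine eq_bot_of_normalizer hI hmax hx inf_le_right (inf_normalizer hI hmax hNn x) (g := n) ?_ hnx
    apply Subgroup.mem_normalizer_fintype
    intro k hk
    obtain ⟨hk1, hk2⟩ := Subgroup.mem_inf.1 hk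
    refine Subgroup.mem_inf.2 ⟨hNn.conj_mem k hk1 n, ?_⟩
    obtain ⟨t, ht, b, hb, rfl⟩ := hdec.prod k hk1
    have ht2 := proj_mem hI hmax hN hna hT hle hx hne ht hb hk2
    have hb2 : b ∈ st act x := (mul_mem_cancel_left ht2).1 hk2
    have e : n * (t * b) * n⁻¹ = n * t * n⁻¹ * (n * b * n⁻¹) := by group
    have e2 : n * b * n⁻¹ = b := by rw [hdec.commute n hn b hb]; group
    rw [e, e2]
    exact mul_mem (h t (Subgroup.mem_inf.2 ⟨ht, ht2⟩)) hb2
  apply hne
  rw [eq_bot_iff, ← h1]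
  exact inf_le_inf_right _ hle

/-- (C7) -/
theorem stab_sum {T₁ T₂ : Subgroup H} (hT₂ : MinBy N T₂) (hle₂ : T₂ ≤ N)
    (hcomm : ∀ s ∈ T₁, ∀ t ∈ T₂, s * t = t * s) {x : V} (hx : x ≠ 1) (hne : T₂ ⊓ st act x ≠ ⊥)
    (hcard : ∀ w : V, w ≠ 1 → Nat.card (T₂ ⊓ st act w : Subgroup H) ≤ Nat.card (T₂ ⊓ st act x : Subgroup H))
    {a b : H} (ha : a ∈ T₁) (hb : b ∈ T₂) (hbx : b ∉ st act x) {t : H} (ht : t ∈ T₁)
    (htx : t ∈ st act (x * act (a * b) x)) : t ∈ st act x ∧ a⁻¹ * t * a ∈ st act x := by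
  have hm : ∀ (g h : H) (y : V), act g (act h y) = act (g * h) y := fun g h y => by rw [map_mul]; rfl
  have hab : a * b = b * a := hcomm a ha b hb
  have hta : t * a ∈ T₁ := mul_mem ht ha
  have A0 : act t x * act (t * (a * b)) x = x * act (a * b) x := by
    have : act t (x * act (a * b) x) = x * act (a * b) x := htx
    rwa [map_mul, hm] at this
  set y := act t x * x⁻¹ with hy
  set z := act a x * (act (t * a) x)⁻¹ with hz
  have hyz : y = act b z := by
    rw [hy, hz, map_mul, map_inv, hm, hm]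
    have e1 : b * (t * a) = t * (a * b) := by rw [← hcomm _ hta b hb, mul_assoc]
    rw [e1, ← hab, mul_inv_eq_iff_eq_mul, mul_right_comm, eq_mul_inv_iff_mul_eq, A0, mul_comm]
  have hRy : ∀ s ∈ T₂ ⊓ st act x, act s y = y := by
    intro s hs
    obtain ⟨hs1, hs2⟩ := Subgroup.mem_inf.1 hs
    rw [hy, map_mul, map_inv, hm, ← hcomm t ht s hs1, ← hm, show act s x = x from hs2]
  have hRz : ∀ s ∈ T₂ ⊓ st act x, act s z = z := by
    intro s hs
    obtain ⟨hs1, hs2⟩ := Subgroup.mem_inf.1 hs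
    rw [hz, map_mul, map_inv, hm, hm, ← hcomm a ha s hs1, ← hcomm _ hta s hs1, ← hm, ← hm, show act s x = x from hs2]
  have hy1 : y = 1 := by
    by_contra hy1
    have hle' : T₂ ⊓ st act x ≤ T₂ ⊓ st act y := fun s hs =>
      Subgroup.mem_inf.2 ⟨(Subgroup.mem_inf.1 hs).1, hRy s hs⟩
    have heq : T₂ ⊓ st act x = T₂ ⊓ st act y := Subgroup.eq_of_le_of_card_ge hle' (hcard y hy1)
    apply hbx
    refine norm_mem hI hmax hN hna hT₂ hle₂ hx hne hb ?_
    intro s hs
    have h1 : b * s * b⁻¹ ∈ T₂ ⊓ st act y := by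
      refine Subgroup.mem_inf.2 ⟨mul_mem (mul_mem hb (Subgroup.mem_inf.1 hs).1) (inv_mem hb), ?_⟩
      show act (b * s * b⁻¹) y = y
      have h2 : act b⁻¹ y = z := by
        rw [hyz, hm, inv_mul_cancel, map_one, MulAut.one_apply]
      rw [← hm, h2, ← hm, hRz s hs, ← hyz]
    rw [← heq] at h1
    exact (Subgroup.mem_inf.1 h1).2
  have hz1 : z = 1 := by
    have h1 : act b z = 1 := hyz ▸ hy1
    have h2 : act b⁻¹ (act b z) = 1 := by rw [h1, map_one]
    rwa [hm, inv_mul_cancel, map_one, MulAut.one_apply] at h2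
  refine ⟨mul_inv_eq_one.1 hy1, ?_⟩
  show act (a⁻¹ * t * a) x = x
  have h3 : act a x = act (t * a) x := mul_inv_eq_one.1 hz1
  rw [mul_assoc, ← hm, ← h3, hm, inv_mul_cancel, map_one, MulAut.one_apply]

omit [Finite H] [Finite V] hI hmax hN hna in
theorem stab_sum_conv {T₁ T₂ : Subgroup H}
    (hcomm : ∀ s ∈ T₁, ∀ t ∈ T₂, s * t = t * s) {x : V}
    {a b : H} (ha : a ∈ T₁) (hb : b ∈ T₂) {t : H} (ht : t ∈ T₁)
    (htx : t ∈ st act x) (htx2 : a⁻¹ * t * a ∈ st act x) : t ∈ st act (x * act (a * b) x) := by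
  have hm : ∀ (g h : H) (y : V), act g (act h y) = act (g * h) y := fun g h y => by rw [map_mul]; rfl
  show act t (x * act (a * b) x) = x * act (a * b) x
  have hc : a⁻¹ * t * a ∈ T₁ := mul_mem (mul_mem (inv_mem ha) ht) ha
  have e : t * (a * b) = a * b * (a⁻¹ * t * a) := by
    calc t * (a * b) = a * ((a⁻¹ * t * a) * b) := by group
      _ = a * (b * (a⁻¹ * t * a)) := by rw [hcomm _ hc b hb]
      _ = _ := by group
  rw [map_mul, show act t x = x from htx, hm, e, ← hm, show act (a⁻¹ * t * a) x = x from htx2]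

/-- the minimal normal subgroup is simple -/
theorem eq_of_minBy [Nontrivial V] (hFT : FTHall.FT.{u}) (hV : IsPGroup 2 V) {T : Subgroup H} (hT : MinBy N T)
    (hle : T ≤ N) : T = N := by
  classical
  by_contra hTN
  haveI hNn := hN.normal
  have hnaT := hN.nonabelian_of hT hle hna
  obtain ⟨g, hg⟩ := hN.exists_conj_le hT hle hTN
  set T₂ := cj g T with hT₂d
  have hN1 : ∀ n ∈ N, g⁻¹ * n * g ∈ N := by
    intro n hn
    have := hNn.conj_mem n hn g⁻¹
    rwa [inv_inv] at this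
  have hT₂ : MinBy N T₂ := hT.conjugate g hN1 (fun n hn => hNn.conj_mem n hn g)
  have hle₂ : T₂ ≤ N := hg.trans inf_le_left
  have hcomm : ∀ s ∈ T, ∀ t ∈ T₂, s * t = t * s := fun s hs t ht =>
    (mem_centralizer_iff.1 (Subgroup.mem_inf.1 (hg ht)).2) s hs
  have hnaT₂ := hN.nonabelian_of hT₂ hle₂ hna
  -- the maximal vector
  obtain ⟨t₀, ht₀, ht₀1, ht₀2⟩ := exists_involution hFT hT hnaT
  obtain ⟨x₀, hx₀, htx₀⟩ := exists_fixed (act := act) hV ht₀2
  haveI : Nonempty {w : V // w ≠ 1} := ⟨⟨x₀, hx₀⟩⟩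
  obtain ⟨⟨x, hx⟩, hxm⟩ := Finite.exists_max (fun w : {w : V // w ≠ 1} => Nat.card (T ⊓ st act w.1 : Subgroup H))
  have hmaxT : ∀ w : V, w ≠ 1 → Nat.card (T ⊓ st act w : Subgroup H) ≤ Nat.card (T ⊓ st act x : Subgroup H) :=
    fun w hw => hxm ⟨w, hw⟩
  have hcardcj : ∀ w : V, w ≠ 1 → Nat.card (T₂ ⊓ st act w : Subgroup H) = Nat.card (T ⊓ st act w : Subgroup H) :=
    fun w hw => card_inf_cj hI hmax hN hna hT hle g hw
  have hmaxT₂ : ∀ w : V, w ≠ 1 → Nat.card (T₂ ⊓ st act w : Subgroup H) ≤ Nat.card (T₂ ⊓ st act x : Subgroup H) := by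
    intro w hw
    rw [hcardcj w hw, hcardcj x hx]
    exact hmaxT w hw
  have hne : T ⊓ st act x ≠ ⊥ := by
    intro h
    have h1 := hmaxT x₀ hx₀
    rw [h, Subgroup.card_bot] at h1
    have h2 : T ⊓ st act x₀ = ⊥ := Subgroup.card_eq_one.1 (le_antisymm h1 Nat.card_pos)
    have h3 : t₀ ∈ T ⊓ st act x₀ := Subgroup.mem_inf.2 ⟨ht₀, htx₀⟩
    rw [h2, Subgroup.mem_bot] at h3
    exact ht₀1 h3
  have hne₂ : T₂ ⊓ st act x ≠ ⊥ := by
    intro h
    have h1 := hcardcj x hx
    rw [h, Subgroup.card_bot] at h1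
    exact hne (Subgroup.card_eq_one.1 h1.symm)
  -- an involution outside the stabilizer
  obtain ⟨a, ha, haa, hax⟩ : ∃ a ∈ T, a * a = 1 ∧ a ∉ st act x := by
    by_contra hcon
    push Not at hcon
    have hM : InvBy N (closure {t : H | t ∈ T ∧ t * t = 1}) := by
      intro n hn y hy
      have h1 : (closure {t : H | t ∈ T ∧ t * t = 1}).map (MulAut.conj n).toMonoidHom ≤
          closure {t : H | t ∈ T ∧ t * t = 1} := by
        rw [MonoidHom.map_closure, closure_le]
        rintro _ ⟨t, ⟨ht1, ht2⟩, rfl⟩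
        apply Subgroup.subset_closure
        refine ⟨hT.inv n hn t ht1, ?_⟩
        show n * t * n⁻¹ * (n * t * n⁻¹) = 1
        calc n * t * n⁻¹ * (n * t * n⁻¹) = n * (t * t) * n⁻¹ := by group
          _ = 1 := by rw [ht2]; group
      exact h1 ⟨y, hy, rfl⟩
    have hMT : closure {t : H | t ∈ T ∧ t * t = 1} ≤ T := by
      rw [closure_le]
      exact fun t ht => ht.1
    rcases hT.min _ hM hMT with h1 | h1
    · have h2 : t₀ ∈ closure {t : H | t ∈ T ∧ t * t = 1} := Subgroup.subset_closure ⟨ht₀, ht₀2⟩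
      rw [h1, Subgroup.mem_bot] at h2
      exact ht₀1 h2
    · apply not_le hI hmax hN hna hT hle hx
      rw [← h1, closure_le]
      exact fun t ht => hcon t ht.1 ht.2
  -- a two-point stabilizer in `T₂` is nontrivial
  obtain ⟨b, hb, hbx, s, hs, hs1, hsx, hsbx⟩ : ∃ b ∈ T₂, b ∉ st act x ∧ ∃ s ∈ T₂, s ≠ 1 ∧ s ∈ st act x ∧
      b⁻¹ * s * b ∈ st act x := by
    by_contra hcon
    push Not at hcon
    have hF : IsFrobeniusComplement ((st act x).subgroupOf T₂) := by
      refine ⟨?_, ?_, ?_⟩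
      · intro h
        apply hne₂
        rw [Subgroup.subgroupOf_eq_bot] at h
        rw [inf_comm]
        exact h.eq_bot
      · intro h
        rw [Subgroup.subgroupOf_eq_top] at h
        exact not_le hI hmax hN hna hT₂ hle₂ hx h
      · rintro ⟨c, hc⟩ hcx
        rw [mem_subgroupOf] at hcx
        rw [eq_bot_iff]
        rintro ⟨y, hy⟩ hyy
        obtain ⟨h1, h2⟩ := Subgroup.mem_inf.1 hyy
        rw [mem_subgroupOf] at h1
        rw [Subgroup.mem_pointwise_smul_iff_inv_smul_mem] at h2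
        rw [Subgroup.mem_bot]
        by_contra hne
        refine hcon c hc hcx y hy (fun h => hne (Subtype.ext h)) h1 ?_
        have h3 : ((MulAut.conj (⟨c, hc⟩ : T₂))⁻¹ • (⟨y, hy⟩ : T₂) : T₂) = ⟨c, hc⟩⁻¹ * ⟨y, hy⟩ * ⟨c, hc⟩ := by
          rw [← map_inv, MulAut.smul_def, MulAut.conj_apply, inv_inv]
        rw [h3] at h2
        exact mem_subgroupOf.1 h2
    obtain ⟨K, -, hKn, hKc⟩ := FrobThm.exists_kernel hF
    have hdec := hN.decomp hT₂ hle₂ hna
    have hinv : InvBy N (K.map T₂.subtype) := by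
      rintro n hn _ ⟨k, hk, rfl⟩
      obtain ⟨t, ht, c, hc, rfl⟩ := hdec.prod n hn
      have e : t * c * (k : H) * (t * c)⁻¹ = t * k * t⁻¹ := by
        have := hdec.commute k k.2 c hc
        calc t * c * (k : H) * (t * c)⁻¹ = t * (c * k) * c⁻¹ * t⁻¹ := by group
          _ = t * (k * c) * c⁻¹ * t⁻¹ := by rw [this]
          _ = _ := by group
      show t * c * (k : H) * (t * c)⁻¹ ∈ _
      rw [e]
      exact ⟨⟨t, ht⟩ * k * ⟨t, ht⟩⁻¹, hKn.conj_mem k hk _, rfl⟩
    rcases hT₂.min _ hinv (map_subtype_le K) with h1 | h1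
    · have h2 : K = ⊥ := (Subgroup.map_eq_bot_iff_of_injective _ T₂.subtype_injective).1 h1
      rw [h2] at hKc
      have h3 := hKc.sup_eq_top
      rw [bot_sup_eq] at h3
      exact hF.2.1 h3
    · have h2 : K = ⊤ := by
        rw [eq_top_iff]
        intro k _
        have h3 : (k : H) ∈ K.map T₂.subtype := by rw [h1]; exact k.2
        obtain ⟨l, hl, hlk⟩ := h3
        have : l = k := Subtype.ext hlk
        rwa [← this]
      rw [h2] at hKc
      have h3 := hKc.disjoint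
      rw [top_disjoint] at h3
      exact hF.1 h3
  -- the vector
  set y := x * act (a * b) x with hy
  have hkey : ∀ t ∈ T, t ∈ st act y → t ∈ st act x ∧ a⁻¹ * t * a ∈ st act x := fun t ht hty =>
    stab_sum hI hmax hN hna hT₂ hle₂ hcomm hx hne₂ hmaxT₂ ha hb hbx ht hty
  have hy1 : y ≠ 1 := by
    intro h
    apply not_le hI hmax hN hna hT hle hx
    intro t ht
    refine (hkey t ht ?_).1
    rw [h]
    exact map_one _
  have hsy : s ∈ st act y := by
    have hcomm' : ∀ s ∈ T₂, ∀ t ∈ T, s * t = t * s := fun s hs t ht => (hcomm t ht s hs).symm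
    have h1 := stab_sum_conv (act := act) hcomm' hb ha hs hsx hsbx
    rwa [← hcomm a ha b hb] at h1
  have hneT : T ⊓ st act y ≠ ⊥ := by
    intro h
    have h1 := hcardcj y hy1
    rw [h, Subgroup.card_bot] at h1
    have h2 := Subgroup.card_eq_one.1 h1
    have h3 : s ∈ T₂ ⊓ st act y := Subgroup.mem_inf.2 ⟨hs, hsy⟩
    rw [h2, Subgroup.mem_bot] at h3
    exact hs1 h3
  have hainv : a⁻¹ = a := inv_eq_of_mul_eq_one_left haa
  have hay : a ∈ st act y := by
    refine norm_mem hI hmax hN hna hT hle hy1 hneT ha ?_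
    intro t ht
    obtain ⟨ht1, ht2⟩ := Subgroup.mem_inf.1 ht
    obtain ⟨h1, h2⟩ := hkey t ht1 ht2
    refine stab_sum_conv hcomm ha hb (mul_mem (mul_mem ha ht1) (inv_mem ha)) ?_ ?_
    · rw [hainv] at h2 ⊢
      exact h2
    · have e : a⁻¹ * (a * t * a⁻¹) * a = t := by group
      rwa [e]
  exact hax (hkey a ha hay).1

end Fac

/-- the abstract theorem -/
theorem almost_simple [Nontrivial V] (hFT : FTHall.FT.{u}) (hV : IsPGroup 2 V) (hns : ¬ Group.IsSolvable H) :
    ∃ T : Subgroup H, T.Normal ∧ IsSimpleGroup T ∧ ¬ IsMulCommutative T ∧ centralizer (T : Set H) = ⊥ := by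
  haveI : Nontrivial H := by
    by_contra h
    rw [not_nontrivial_iff_subsingleton] at h
    exact hns inferInstance
  obtain ⟨N, -, hN⟩ := exists_minBy (⊤ : Subgroup H) ⊤ top_ne_bot (InvBy.self _)
  have hna : ¬ ∀ x ∈ N, ∀ y ∈ N, x * y = y * x := fun hab =>
    hns (solvable_of_abelian hI hmax hN.normal hN.ne_bot hab)
  obtain ⟨T, hTN, hT⟩ := exists_minBy N N hN.ne_bot (InvBy.self N)
  have hTeq := eq_of_minBy hI hmax hN hna hFT hV hT hTN
  have hNN : MinBy N N := by
    have : MinBy N T := hT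
    rwa [hTeq] at this
  refine ⟨N, hN.normal, ?_, ?_, centralizer_eq_bot hI hmax hFT hV hN hna⟩
  · haveI : Nontrivial N := (Subgroup.nontrivial_iff_ne_bot N).2 hN.ne_bot
    refine ⟨fun L hL => ?_⟩
    have h1 : InvBy N (L.map N.subtype) := by
      rintro m hm _ ⟨l, hl, rfl⟩
      exact ⟨⟨m, hm⟩ * l * ⟨m, hm⟩⁻¹, hL.conj_mem l hl _, rfl⟩
    rcases hNN.min _ h1 (map_subtype_le L) with h2 | h2
    · left
      exact (Subgroup.map_eq_bot_iff_of_injective _ N.subtype_injective).1 h2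
    · right
      rw [eq_top_iff]
      intro m _
      have h3 : (m : H) ∈ L.map N.subtype := by rw [h2]; exact m.2
      obtain ⟨l, hl, hlm⟩ := h3
      have : l = m := Subtype.ext hlm
      rwa [← this]
  · intro hc
    apply hna
    intro x hx y hy
    exact congrArg Subtype.val (hc.is_comm.comm (⟨x, hx⟩ : N) ⟨y, hy⟩)

end Main

end Cfsg.Agent.Lib.PrimSuborbit

namespace Cfsg.Agent.Lib.PrimSuborbit

open Subgroup Cfsg.Agent.Lib

universe u v

section Affine

variable {G : Type u} [Group G] [Finite G] {Ω : Type v} [Fintype Ω] [MulAction G Ω] [FaithfulSMul G Ω]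
  {N : Subgroup G} [hNn : N.Normal] (hN : N ≠ ⊥) (hNc : IsMulCommutative N)
  (hNreg : ∀ ω : Ω, MulAction.stabilizer N ω = ⊥) (hprim : MulAction.IsPreprimitive G Ω)

include hNreg in
omit [Finite G] [Fintype Ω] [FaithfulSMul G Ω] hNn in
theorem eq_of_smul_eq {n m : G} (hn : n ∈ N) (hm : m ∈ N) {ω : Ω} (h : n • ω = m • ω) : n = m := by
  have h1 : (⟨m⁻¹ * n, mul_mem (inv_mem hm) hn⟩ : N) ∈ MulAction.stabilizer N ω := by
    rw [MulAction.mem_stabilizer_iff]
    show (m⁻¹ * n) • ω = ω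
    rw [mul_smul, h, inv_smul_smul]
  rw [hNreg ω, Subgroup.mem_bot] at h1
  have h2 : m⁻¹ * n = 1 := congrArg Subtype.val h1
  exact (inv_mul_eq_one.1 h2).symm

include hNreg hprim in
omit [Finite G] [Fintype Ω] [FaithfulSMul G Ω] hNn in
theorem transitive_of_le {K : Subgroup G} (hK : K.Normal) (hK1 : K ≠ ⊥) (hKN : K ≤ N) (α : Ω) (ω : Ω) :
    ∃ k ∈ K, k • α = ω := by
  haveI := hK
  haveI := hprim
  have h1 : MulAction.fixedPoints K Ω ≠ Set.univ := by
    intro h
    obtain ⟨k, hk, hk1⟩ := (Subgroup.ne_bot_iff_exists_ne_one.1 hK1) |> fun ⟨k, hk⟩ => (⟨k.1, k.2, fun h => hk (Subtype.ext h)⟩ : ∃ k : G, k ∈ K ∧ k ≠ 1)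
    apply hk1
    have h2 : α ∈ MulAction.fixedPoints K Ω := h ▸ trivial
    have h3 : k • α = α := h2 ⟨k, hk⟩
    exact eq_of_smul_eq hNreg (hKN hk) (one_mem N) (h3.trans (one_smul G α).symm)
  haveI := MulAction.IsQuasiPreprimitive.isPretransitive_of_normal (N := K) h1
  obtain ⟨k, hk⟩ := MulAction.exists_smul_eq K α ω
  exact ⟨k, k.2, hk⟩

include hNreg hprim in
omit [Finite G] [Fintype Ω] [FaithfulSMul G Ω] hNn in
theorem eq_of_le {K : Subgroup G} (hK : K.Normal) (hK1 : K ≠ ⊥) (hKN : K ≤ N) (α : Ω) : K = N := by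
  apply le_antisymm hKN
  intro n hn
  obtain ⟨k, hk, hkn⟩ := transitive_of_le hNreg hprim hK hK1 hKN α (n • α)
  rw [← eq_of_smul_eq hNreg (hKN hk) hn hkn]
  exact hk

/-- the action of the stabilizer -/
def cact (N : Subgroup G) [N.Normal] (α : Ω) : MulAction.stabilizer G α →* MulAut N :=
  (MulAut.conjNormal (H := N)).comp (MulAction.stabilizer G α).subtype

theorem cact_coe (N : Subgroup G) [N.Normal] (α : Ω) (h : MulAction.stabilizer G α) (n : N) :
    ((cact N α h n : N) : G) = h * n * (h : G)⁻¹ := rfl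

include hN hNreg hprim in
theorem eq_one_of_commute (α : Ω) {h : G} (hh : h • α = α) (hc : ∀ n ∈ N, h * n = n * h) : h = 1 := by
  apply FaithfulSMul.eq_of_smul_eq_smul (M := G) (α := Ω)
  intro ω
  obtain ⟨n, hn, rfl⟩ := transitive_of_le hNreg hprim hNn hN le_rfl α ω
  rw [one_smul, ← mul_smul, hc n hn, mul_smul, hh]

include hN hNreg hprim hNc in
theorem hI_aux (α : Ω) (M : Subgroup (MulAction.stabilizer G α)) (hM : M.Normal) (x : N) (hx : x ≠ 1)
    (hMx : ∀ m ∈ M, cact N α m x = x) : M = ⊥ := by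
  let K : Subgroup G := N ⊓ centralizer ((M.map (MulAction.stabilizer G α).subtype : Subgroup G) : Set G)
  have hmem : ∀ {n : G}, n ∈ K ↔ n ∈ N ∧ ∀ m ∈ M, (m : G) * n = n * m := by
    intro n
    constructor
    · intro h
      obtain ⟨h1, h2⟩ := Subgroup.mem_inf.1 h
      exact ⟨h1, fun m hm => (mem_centralizer_iff.1 h2) m ⟨m, hm, rfl⟩⟩
    · rintro ⟨h1, h2⟩
      refine Subgroup.mem_inf.2 ⟨h1, mem_centralizer_iff.2 ?_⟩
      rintro _ ⟨m, hm, rfl⟩
      exact h2 m hm
  have hKn : K.Normal := by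
    refine ⟨fun n hn g => ?_⟩
    obtain ⟨h1, h2⟩ := hmem.1 hn
    obtain ⟨k, hk, hkα⟩ := transitive_of_le hNreg hprim hNn hN le_rfl α (g • α)
    -- `g = k * s` with `s` in the stabilizer
    have hs : (k⁻¹ * g) • α = α := by rw [mul_smul, ← hkα, inv_smul_smul]
    set s : MulAction.stabilizer G α := ⟨k⁻¹ * g, hs⟩ with hsd
    have e : g * n * g⁻¹ = k * ((s : G) * n * (s : G)⁻¹) * k⁻¹ := by
      rw [hsd]; group
    have h3 : (s : G) * n * (s : G)⁻¹ ∈ N := hNn.conj_mem n h1 _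
    have h4 : k * ((s : G) * n * (s : G)⁻¹) * k⁻¹ = (s : G) * n * (s : G)⁻¹ := by
      have := congrArg Subtype.val (hNc.is_comm.comm (⟨k, hk⟩ : N) ⟨_, h3⟩)
      have h5 : k * ((s : G) * n * (s : G)⁻¹) = (s : G) * n * (s : G)⁻¹ * k := this
      rw [h5, mul_inv_cancel_right]
    rw [e, h4]
    refine hmem.2 ⟨h3, fun m hm => ?_⟩
    have h5 := hM.conj_mem m hm s⁻¹
    have h6 := h2 _ h5
    have h7 : ((s⁻¹ * m * s⁻¹⁻¹ : MulAction.stabilizer G α) : G) = (s : G)⁻¹ * m * s := by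
      simp
    rw [h7] at h6
    calc (m : G) * ((s : G) * n * (s : G)⁻¹) = s * ((s : G)⁻¹ * m * s * n) * (s : G)⁻¹ := by group
      _ = s * (n * ((s : G)⁻¹ * m * s)) * (s : G)⁻¹ := by rw [h6]
      _ = _ := by group
  have hxK : (x : G) ∈ K := by
    refine hmem.2 ⟨x.2, fun m hm => ?_⟩
    have h1 := congrArg Subtype.val (hMx m hm)
    rw [cact_coe] at h1
    exact mul_inv_eq_iff_eq_mul.1 h1
  have hK1 : K ≠ ⊥ := by
    intro h
    rw [h, Subgroup.mem_bot] at hxK
    exact hx (Subtype.ext hxK)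
  have hKN := eq_of_le hNreg hprim hKn hK1 inf_le_left α
  rw [eq_bot_iff]
  intro m hm
  rw [Subgroup.mem_bot]
  apply Subtype.ext
  apply eq_one_of_commute hN hNreg hprim α m.2
  intro n hn
  have : n ∈ K := by rw [hKN]; exact hn
  exact (hmem.1 this).2 m hm

end Affine

end Cfsg.Agent.Lib.PrimSuborbit

namespace Cfsg.Agent.Lib.PrimSuborbit

open Subgroup Cfsg.Agent.Lib

universe u v

theorem affine_main {G : Type u} [Group G] [Finite G] {Ω : Type v} [Fintype Ω] [MulAction G Ω] [FaithfulSMul G Ω]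
    (hFT : FTHall.FT.{u}) (p d : ℕ) (hp : p.Prime) (hcard : Fintype.card Ω = p ^ d) (hsol : ¬ Group.IsSolvable G)
    (N : Subgroup G) [hNn : N.Normal] (hN : N ≠ ⊥) (hNc : IsMulCommutative N) (hNreg : ∀ ω : Ω, MulAction.stabilizer N ω = ⊥)
    (hprim : MulAction.IsPreprimitive G Ω) (hH : ∀ α : Ω, MulAction.stabilizer G α ≠ ⊥)
    (hep : ∀ (α : Ω) (ω : Ω), MulAction.IsPreprimitive (MulAction.stabilizer G α) (MulAction.orbit (MulAction.stabilizer G α) ω))
    (α : Ω) :
    p = 2 ∧ ∃ T : Subgroup (MulAction.stabilizer G α), T.Normal ∧ IsSimpleGroup T ∧ ¬ IsMulCommutative T ∧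
      Subgroup.centralizer (T : Set (MulAction.stabilizer G α)) = ⊥ := by
  classical
  haveI := Fact.mk hp
  letI : CommGroup N := { (inferInstance : Group N) with mul_comm := hNc.is_comm.comm }
  set act := cact N α with hact
  have hI : ∀ M : Subgroup (MulAction.stabilizer G α), M.Normal → (∃ x : N, x ≠ 1 ∧ M ≤ st act x) → M = ⊥ := by
    rintro M hM ⟨x, hx, hMx⟩
    exact hI_aux hN hNc hNreg hprim α M hM x hx (fun m hm => hMx hm)
  have hHne : (⊤ : Subgroup (MulAction.stabilizer G α)) ≠ ⊥ := by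
    intro h
    apply hH α
    rw [eq_bot_iff]
    intro g hg
    have h1 : (⟨g, hg⟩ : MulAction.stabilizer G α) ∈ (⊤ : Subgroup (MulAction.stabilizer G α)) := trivial
    rw [h, Subgroup.mem_bot] at h1
    exact congrArg Subtype.val h1
  have hmax : ∀ x : N, x ≠ 1 → IsCoatom (st act x) := by
    intro x hx
    set ω : Ω := (x : G) • α with hω
    haveI := hep α ω
    have hmem : ω ∈ MulAction.orbit (MulAction.stabilizer G α) ω := MulAction.mem_orbit_self ω
    have hst : MulAction.stabilizer (MulAction.stabilizer G α) (⟨ω, hmem⟩ : MulAction.orbit (MulAction.stabilizer G α) ω) = st act x := by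
      ext h
      rw [MulAction.mem_stabilizer_iff, Subtype.ext_iff, mem_st, Subtype.ext_iff]
      show (h : G) • ω = ω ↔ (h : G) * x * (h : G)⁻¹ = x
      have hhα : (h : G)⁻¹ • α = α := by
        rw [inv_smul_eq_iff]
        exact h.2.symm
      have e : (h : G) • ω = ((h : G) * x * (h : G)⁻¹) • α := by
        rw [hω, mul_smul, mul_smul, hhα]
      rw [e, hω]
      constructor
      · intro h1
        exact eq_of_smul_eq hNreg (hNn.conj_mem x x.2 h) x.2 h1
      · intro h1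
        rw [h1]
    rw [← hst]
    haveI : Nontrivial (MulAction.orbit (MulAction.stabilizer G α) ω) := by
      by_contra hcon
      rw [not_nontrivial_iff_subsingleton] at hcon
      apply hHne
      apply hI ⊤ inferInstance
      refine ⟨x, hx, ?_⟩
      rw [← hst]
      intro h _
      rw [MulAction.mem_stabilizer_iff]
      exact Subsingleton.elim _ _
    exact MulAction.IsPreprimitive.isCoatom_stabilizer_of_isPreprimitive _ _
  have hcardN : Nat.card N = p ^ d := by
    rw [← hcard, ← Nat.card_eq_fintype_card]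
    refine Nat.card_eq_of_bijective (fun n : N => (n : G) • α) ⟨?_, ?_⟩
    · intro n m h
      exact Subtype.ext (eq_of_smul_eq hNreg n.2 m.2 h)
    · intro ω
      obtain ⟨n, hn, hnω⟩ := transitive_of_le hNreg hprim hNn hN le_rfl α ω
      exact ⟨⟨n, hn⟩, hnω⟩
  have hNp : IsPGroup p N := IsPGroup.of_card hcardN
  haveI : Nontrivial N := (Subgroup.nontrivial_iff_ne_bot N).2 hN
  have hns : ¬ Group.IsSolvable (MulAction.stabilizer G α) := by
    intro hs
    apply hsol
    haveI h1 : Group.IsSolvable N := Group.isSolvable_of_comm hNc.is_comm.comm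
    haveI h2 : Group.IsSolvable (G ⧸ N) := by
      let f : MulAction.stabilizer G α →* G ⧸ N := (QuotientGroup.mk' N).comp (MulAction.stabilizer G α).subtype
      have hf : Function.Surjective f := by
        intro q
        obtain ⟨g, rfl⟩ := QuotientGroup.mk'_surjective N q
        obtain ⟨k, hk, hkα⟩ := transitive_of_le hNreg hprim hNn hN le_rfl α (g • α)
        have hs : (k⁻¹ * g) • α = α := by rw [mul_smul, ← hkα, inv_smul_smul]
        refine ⟨⟨k⁻¹ * g, hs⟩, ?_⟩
        show QuotientGroup.mk' N (k⁻¹ * g) = QuotientGroup.mk' N g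
        rw [map_mul, (show QuotientGroup.mk' N k⁻¹ = 1 from (QuotientGroup.eq_one_iff _).2 (inv_mem hk)), one_mul]
      haveI := hs
      exact Group.isSolvable_of_surjective hf
    exact Group.isSolvable_of_ker_le_range N.subtype (QuotientGroup.mk' N)
      (by rw [QuotientGroup.ker_mk', Subgroup.range_subtype])
  have hp2 : p = 2 := by
    by_contra hp2
    have h1 : ¬ Odd (Nat.card (MulAction.stabilizer G α)) := fun h => hns (hFT _ h)
    rw [Nat.not_odd_iff_even] at h1
    haveI : Fact (Nat.Prime 2) := ⟨Nat.prime_two⟩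
    obtain ⟨t, ht⟩ := exists_prime_orderOf_dvd_card' 2 h1.two_dvd
    have htt : t * t = 1 := by rw [← pow_two, ← ht, pow_orderOf_eq_one]
    obtain ⟨n, hn⟩ : ∃ n : N, act t n ≠ n := by
      by_contra hcon
      push Not at hcon
      have h2 : (t : G) = 1 := by
        apply eq_one_of_commute hN hNreg hprim α t.2
        intro n hn
        have h3 := congrArg Subtype.val (hcon ⟨n, hn⟩)
        rw [hact, cact_coe] at h3
        exact mul_inv_eq_iff_eq_mul.1 h3
      have h3 : t = 1 := Subtype.ext h2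
      rw [h3, orderOf_one] at ht
      omega
    set v : N := n⁻¹ * act t n with hv
    have hv1 : v ≠ 1 := fun h => hn (inv_mul_eq_one.1 h).symm
    have htv : act t v = v⁻¹ := by
      rw [hv, map_mul, map_inv, ← MulAut.mul_apply, ← map_mul, htt, map_one, MulAut.one_apply, mul_inv_rev, inv_inv]
    have htnot : t ∉ st act v := by
      intro h
      have h2 : v⁻¹ = v := by rw [← htv]; exact h
      have h3 : v ^ 2 = 1 := by
        rw [pow_two]
        nth_rewrite 1 [← h2]
        exact inv_mul_cancel v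
      obtain ⟨k, hk⟩ := (IsPGroup.iff_orderOf.1 hNp) v
      have h4 := orderOf_dvd_of_pow_eq_one h3
      rw [hk] at h4
      have h5 : (p ^ k).Coprime 2 := Nat.Coprime.pow_left _ ((Nat.coprime_primes hp Nat.prime_two).2 hp2)
      have h6 := Nat.Coprime.eq_one_of_dvd h5 h4
      rw [h6, orderOf_eq_one_iff] at hk
      exact hv1 hk
    have hbot : st act v = ⊥ := by
      refine eq_bot_of_normalizer hI hmax hv1 le_rfl le_normalizer (g := t) ?_ htnot
      apply Subgroup.mem_normalizer_fintype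
      intro s hs
      have hti : t⁻¹ = t := inv_eq_of_mul_eq_one_left htt
      show act (t * s * t⁻¹) v = v
      have hs' : act s v = v := hs
      have e1 : act t v⁻¹ = v := by rw [map_inv (act t), htv, inv_inv]
      have e2 : act (t * s * t⁻¹) v = act t (act s (act t v)) := by
        rw [hti, map_mul act (t * s) t, map_mul act t s]; rfl
      rw [e2, htv, map_inv (act s), hs', e1]
    have hco := hmax v hv1
    rw [hbot] at hco
    apply hns
    have h2 : zpowers t = ⊤ := by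
      apply hco.2
      rw [bot_lt_iff_ne_bot, Ne, zpowers_eq_bot]
      rintro rfl
      rw [orderOf_one] at ht
      omega
    apply Group.isSolvable_of_comm
    intro a b
    obtain ⟨i, rfl⟩ := mem_zpowers_iff.1 (h2 ▸ (trivial : a ∈ (⊤ : Subgroup (MulAction.stabilizer G α))) : a ∈ zpowers t)
    obtain ⟨j, rfl⟩ := mem_zpowers_iff.1 (h2 ▸ (trivial : b ∈ (⊤ : Subgroup (MulAction.stabilizer G α))) : b ∈ zpowers t)
    rw [← zpow_add, ← zpow_add, add_comm]
  refine ⟨hp2, ?_⟩
  subst hp2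
  exact almost_simple hI hmax hFT hNp hns

end Cfsg.Agent.Lib.PrimSuborbit
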