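import Cfsg.Agent.Lib.PrimeGraphExt
import Mathlib.GroupTheory.Sylow
import Mathlib.Data.ZMod.Basic

/-! Variant of `PrimeGraphExt.unbounded` for modules of functions on a finite `K`-set, and a conjugacy
lemma for elements of prime order `p` when `p ^ 2` does not divide the group order. -/

set_option autoImplicit false

namespace Cfsg.Agent.Lib.PrimeGraphFun

open Cfsg.Agent.Lib.PrimeGraphExt
open scoped Pointwise

theorem unbounded_fun {K Y : Type*} [Group K] [Finite K] [MulAction K Y] [Finite Y] (p : ℕ) (hp : p.Prime)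
    (A : AddSubgroup (Y → ZMod p)) (hA : ∀ g : K, ∀ f ∈ A, (fun y => f (g • y)) ∈ A)
    (hA0 : ∃ f ∈ A, f ≠ 0) (hpK : p ∣ Nat.card K)
    (hfix : ∀ r : ℕ, r.Prime → r ≠ p → (∃ g : K, orderOf g = p * r) ∨
      ∀ g : K, orderOf g = r → ∀ f ∈ A, (∀ y, f (g • y) = f y) → f = 0) (N : ℕ) :
    ∃ (H : Type) (_ : Group H) (_ : Finite H), N < Nat.card H ∧ SameGraph K H := by
  have : NeZero p := ⟨hp.ne_zero⟩
  let _ : DistribMulAction K A :=
    { smul := fun g f => ⟨fun y => f.1 (g⁻¹ • y), hA g⁻¹ f.1 f.2⟩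
      one_smul := fun f => Subtype.ext (funext fun y => by
        show f.1 ((1 : K)⁻¹ • y) = f.1 y
        rw [inv_one, one_smul])
      mul_smul := fun g h f => Subtype.ext (funext fun y => by
        show f.1 ((g * h)⁻¹ • y) = f.1 (h⁻¹ • (g⁻¹ • y))
        rw [mul_inv_rev, mul_smul])
      smul_zero := fun g => rfl
      smul_add := fun g f f' => rfl }
  have hsm : ∀ (g : K) (f : A) (y : Y), (g • f).1 y = f.1 (g⁻¹ • y) := fun g f y => rfl
  refine unbounded (K := K) (V := A) p hp ?_ ?_ hpK ?_ N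
  · intro v
    apply Subtype.ext
    funext y
    show p • v.1 y = 0
    simp
  · obtain ⟨f, hf, hf0⟩ := hA0
    exact ⟨⟨f, hf⟩, fun h => hf0 (congrArg Subtype.val h)⟩
  · intro r hr hrp
    rcases hfix r hr hrp with h | h
    · exact Or.inl h
    · right
      intro g hg f hgf
      apply Subtype.ext
      refine h g hg f.1 f.2 ?_
      intro y
      have h1 := congrArg (fun F : A => F.1 (g • y)) hgf
      simp only [hsm] at h1
      rw [inv_smul_smul] at h1
      exact h1.symm

/-- If `p ^ 2 ∤ |G|` then any two elements of order `p` generate conjugate subgroups. -/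
theorem exists_conj_mem_zpowers {G : Type*} [Group G] [Finite G] (p : ℕ) (hp : p.Prime) (hp2 : ¬ p ^ 2 ∣ Nat.card G)
    (g g₀ : G) (hg : orderOf g = p) (hg₀ : orderOf g₀ = p) : ∃ x : G, x * g₀ * x⁻¹ ∈ Subgroup.zpowers g := by
  have : Fact p.Prime := ⟨hp⟩
  have key : ∀ h : G, orderOf h = p → ∃ P : Sylow p G, (P : Subgroup G) = Subgroup.zpowers h := by
    intro h hh
    have h1 : IsPGroup p (Subgroup.zpowers h) := by
      apply IsPGroup.of_card (n := 1)
      rw [Nat.card_zpowers, hh, pow_one]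
    obtain ⟨P, hP⟩ := h1.exists_le_sylow
    refine ⟨P, ?_⟩
    symm
    apply Subgroup.eq_of_le_of_card_ge hP
    obtain ⟨n, hn⟩ := IsPGroup.iff_card.mp P.isPGroup'
    rw [Nat.card_zpowers, hh]
    have hn1 : n ≤ 1 := by
      by_contra hcon
      push Not at hcon
      apply hp2
      refine dvd_trans ?_ (Subgroup.card_subgroup_dvd_card (P : Subgroup G))
      have hc : Nat.card (P : Subgroup G) = p ^ n := hn
      rw [hc]
      exact pow_dvd_pow p hcon
    have hc : Nat.card (P : Subgroup G) = p ^ n := hn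
    rw [hc]
    calc p ^ n ≤ p ^ 1 := Nat.pow_le_pow_right hp.pos hn1
      _ = p := pow_one p
  obtain ⟨P, hP⟩ := key g hg
  obtain ⟨Q, hQ⟩ := key g₀ hg₀
  obtain ⟨x, hx⟩ := MulAction.exists_smul_eq G Q P
  refine ⟨x, ?_⟩
  rw [← hP, ← hx]
  have hm : g₀ ∈ (Q : Subgroup G) := by rw [hQ]; exact Subgroup.mem_zpowers g₀
  have h2 : MulAut.conj x • g₀ ∈ (MulAut.conj x • (Q : Subgroup G)) := Subgroup.smul_mem_pointwise_smul _ _ _ hm
  exact h2

end Cfsg.Agent.Lib.PrimeGraphFun
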