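import Cfsg.Agent.Lib.PrimeGraphExt
import Mathlib.LinearAlgebra.Matrix.ProjectiveSpecialLinearGroup
import Mathlib.LinearAlgebra.Matrix.ToLinearEquiv
import Mathlib.LinearAlgebra.Matrix.Charpoly.Coeff
import Mathlib.Tactic

/-! Groups of unbounded order with the prime graph of `SL(2, 2^n)`. -/

set_option autoImplicit false

namespace Cfsg.Agent.Lib.PrimeGraphSL2

open Matrix Cfsg.Agent.Lib.PrimeGraphExt

/-- the natural action of `SL n F` on column vectors -/
@[reducible] def natAct (n : ℕ) (F : Type*) [CommRing F] : DistribMulAction (SpecialLinearGroup (Fin n) F) (Fin n → F) where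
  smul g v := g.1 *ᵥ v
  one_smul v := by show (1 : SpecialLinearGroup (Fin n) F).1 *ᵥ v = v; simp
  mul_smul g h v := by
    show (g * h).1 *ᵥ v = g.1 *ᵥ (h.1 *ᵥ v)
    rw [Matrix.mulVec_mulVec]; rfl
  smul_zero g := Matrix.mulVec_zero g.1
  smul_add g v w := Matrix.mulVec_add g.1 v w

lemma det_sub_one_eq_zero {n : ℕ} {F : Type*} [Field F] (g : Matrix (Fin n) (Fin n) F) (v : Fin n → F)
    (hv : v ≠ 0) (h : g *ᵥ v = v) : (g - 1).det = 0 := by
  rw [← Matrix.exists_mulVec_eq_zero_iff]
  exact ⟨v, hv, by rw [Matrix.sub_mulVec, h, Matrix.one_mulVec, sub_self]⟩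

lemma center_eq_bot {F : Type*} [Field F] [CharP F 2] :
    Subgroup.center (SpecialLinearGroup (Fin 2) F) = ⊥ := by
  rw [eq_bot_iff]
  intro A hA
  rw [SpecialLinearGroup.mem_center_iff] at hA
  obtain ⟨r, hr, hrA⟩ := hA
  rw [Subgroup.mem_bot]
  have h1 : r = 1 := by
    simp only [Fintype.card_fin] at hr
    have h2 : (r - 1) ^ 2 = 0 := by
      have : (2 : F) = 0 := CharTwo.two_eq_zero
      linear_combination hr + (1 - r) * this
    have := pow_eq_zero_iff (two_ne_zero) |>.mp h2
    exact sub_eq_zero.mp this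
  apply Subtype.ext
  rw [← hrA, h1]
  simp

theorem unbounded_sl2 {F : Type*} [Field F] [Fintype F] [CharP F 2] (N : ℕ) :
    ∃ (H : Type) (_ : Group H) (_ : Finite H), N < Nat.card H ∧ SameGraph (SpecialLinearGroup (Fin 2) F) H := by
  classical
  let _ := natAct 2 F
  refine unbounded (K := SpecialLinearGroup (Fin 2) F) (V := Fin 2 → F) 2 Nat.prime_two ?_ ?_ ?_ ?_ N
  · intro v
    funext i
    show 2 • v i = 0
    rw [two_nsmul, CharTwo.add_self_eq_zero]
  · exact ⟨fun _ => 1, fun h => one_ne_zero (congrFun h 0)⟩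
  · let t : SpecialLinearGroup (Fin 2) F := ⟨!![1, 1; 0, 1], by simp [Matrix.det_fin_two]⟩
    have ht : t ^ 2 = 1 := by
      apply Subtype.ext
      rw [pow_two]
      show !![(1 : F), 1; 0, 1] * !![1, 1; 0, 1] = 1
      ext i j
      fin_cases i <;> fin_cases j <;> simp [Matrix.mul_apply, Fin.sum_univ_succ, CharTwo.add_self_eq_zero]
    have ht1 : t ≠ 1 := by
      intro h
      have := congrFun (congrFun (congrArg Subtype.val h) 0) 1
      have h2 : (1 : F) = 0 := this
      exact one_ne_zero h2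
    have h3 := orderOf_dvd_natCard t
    rw [orderOf_eq_prime ht ht1] at h3
    exact h3
  · intro r hr hr2
    right
    intro g hg v hgv
    by_contra hv
    have hgv' : g.1 *ᵥ v = v := hgv
    have hdet := det_sub_one_eq_zero g.1 v hv hgv'
    have hdg : g.1.det = 1 := g.2
    have h2 : (2 : F) = 0 := CharTwo.two_eq_zero
    rw [Matrix.det_fin_two] at hdet hdg
    simp only [Matrix.sub_apply, Matrix.one_apply_eq, Matrix.one_apply, Fin.zero_eq_one_iff, Fin.one_eq_zero_iff,
      OfNat.ofNat_ne_one, if_false, sub_zero] at hdet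
    have htr : g.1 0 0 + g.1 1 1 = 0 := by
      linear_combination (-1 : F) * hdet + hdg + h2 
    have hg2 : g ^ 2 = 1 := by
      apply Subtype.ext
      rw [pow_two]
      show g.1 * g.1 = 1
      ext i j
      fin_cases i <;> fin_cases j <;> simp [Matrix.mul_apply, Fin.sum_univ_succ]
      · linear_combination (g.1 0 0) * htr - hdg - h2
      · linear_combination (g.1 0 1) * htr
      · linear_combination (g.1 1 0) * htr
      · linear_combination (g.1 1 1) * htr - hdg - h2
    have := orderOf_dvd_of_pow_eq_one hg2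
    rw [hg, Nat.prime_dvd_prime_iff_eq hr Nat.prime_two] at this
    exact hr2 this

end Cfsg.Agent.Lib.PrimeGraphSL2
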