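import Mathlib

/-!
Permutations of prime order: invariant subsets of given size.
-/

namespace Cfsg.Agent.Lib.PrimeOrdPerm

open Equiv Equiv.Perm

variable {α : Type*} [Fintype α] [DecidableEq α]

/-- size of an invariant set is congruent to the number of its fixed points -/
theorem card_inter_fixed_modEq (σ : Perm α) (r : ℕ) [Fact r.Prime] (hσ : σ ^ r = 1) (s : Finset α)
    (hs : ∀ x, σ x ∈ s ↔ x ∈ s) : (s ∩ σ.supportᶜ).card ≡ s.card [MOD r] := by
  classical
  let τ : Perm {x // x ∈ s} := σ.subtypePerm hs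
  have hτ : τ ^ r ^ 1 = 1 := by
    rw [pow_one]
    ext x
    have : ((τ ^ r) x : α) = (σ ^ r) x := by
      rw [Equiv.Perm.subtypePerm_pow]; rfl
    rw [this, hσ]; rfl
  have h1 := Equiv.Perm.card_compl_support_modEq hτ
  rw [Fintype.card_coe] at h1
  have h2 : (τ.supportᶜ).card = (s ∩ σ.supportᶜ).card := by
    refine Finset.card_bij (fun x _ => (x : α)) ?_ ?_ ?_
    · intro x hx
      rw [Finset.mem_compl, Equiv.Perm.notMem_support] at hx
      rw [Finset.mem_inter, Finset.mem_compl, Equiv.Perm.notMem_support]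
      exact ⟨x.2, congrArg Subtype.val hx⟩
    · intro x _ y _ h
      exact Subtype.ext h
    · intro x hx
      rw [Finset.mem_inter, Finset.mem_compl, Equiv.Perm.notMem_support] at hx
      refine ⟨⟨x, hx.1⟩, ?_, rfl⟩
      rw [Finset.mem_compl, Equiv.Perm.notMem_support]
      exact Subtype.ext hx.2
  rw [h2] at h1
  exact h1

theorem exists_cycles (σ : Perm α) (r : ℕ) (hr : r.Prime) (hσ : orderOf σ = r) :
    ∃ c : ℕ, 0 < c ∧ σ.support.card = c * r ∧
      ∀ a ≤ c, ∃ s ⊆ σ.support, s.card = a * r ∧ ∀ x ∈ s, σ x ∈ s := by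
  classical
  obtain ⟨c', hc'⟩ := Equiv.Perm.cycleType_prime_order (σ := σ) (by rw [hσ]; exact hr)
  rw [hσ] at hc'
  have hcard : ∀ g ∈ σ.cycleFactorsFinset, g.support.card = r := by
    intro g hg
    have h1 : g.support.card ∈ σ.cycleType := by
      rw [Equiv.Perm.cycleType_def]
      exact Multiset.mem_map.mpr ⟨g, hg, rfl⟩
    rw [hc'] at h1
    exact Multiset.eq_of_mem_replicate h1
  have hc : σ.cycleFactorsFinset.card = c' + 1 := by
    have h1 := congrArg Multiset.card hc'
    rw [Equiv.Perm.cycleType_def, Multiset.card_map, Multiset.card_replicate] at h1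
    exact h1
  refine ⟨c' + 1, Nat.succ_pos _, ?_, ?_⟩
  · rw [← Equiv.Perm.sum_cycleType, hc', Multiset.sum_replicate, smul_eq_mul]
  · intro a ha
    obtain ⟨A, hA, hAc⟩ := Finset.exists_subset_card_eq (s := σ.cycleFactorsFinset) (n := a) (by omega)
    refine ⟨A.biUnion Equiv.Perm.support, ?_, ?_, ?_⟩
    · intro x hx
      rw [Finset.mem_biUnion] at hx
      obtain ⟨g, hg, hx⟩ := hx
      exact Equiv.Perm.mem_cycleFactorsFinset_support_le (hA hg) hx
    · rw [Finset.card_biUnion, Finset.sum_congr rfl (fun g hg => hcard g (hA hg)), Finset.sum_const, hAc,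
        smul_eq_mul]
      intro g hg h hh hgh
      exact (Equiv.Perm.cycleFactorsFinset_pairwise_disjoint σ (hA hg) (hA hh) hgh).disjoint_support
    · intro x hx
      rw [Finset.mem_biUnion] at hx ⊢
      obtain ⟨g, hg, hx⟩ := hx
      refine ⟨g, hg, ?_⟩
      rw [← (Equiv.Perm.mem_cycleFactorsFinset_iff.mp (hA hg)).2 x hx]
      exact Equiv.Perm.apply_mem_support.mpr hx

omit [Fintype α] in
theorem image_eq_of_maps (σ : Perm α) (s : Finset α) (hs : ∀ x ∈ s, σ x ∈ s) : s.image σ = s := by
  apply Finset.eq_of_subset_of_card_le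
  · intro y hy
    obtain ⟨x, hx, rfl⟩ := Finset.mem_image.mp hy
    exact hs x hx
  · rw [Finset.card_image_of_injective _ σ.injective]

omit [Fintype α] in
theorem mem_iff_of_image_eq (σ : Perm α) (s : Finset α) (hs : s.image σ = s) (x : α) : σ x ∈ s ↔ x ∈ s := by
  constructor
  · intro h
    rw [← hs] at h
    obtain ⟨y, hy, h⟩ := Finset.mem_image.mp h
    rwa [← σ.injective h]
  · intro h
    rw [← hs]
    exact Finset.mem_image_of_mem _ h

/-- For `r ≤ n` prime: every permutation of order `r` of an `n`-set stabilises a `k`-subset iff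
`k % r ≤ n % r`. -/
theorem forall_exists_image_eq_iff (n k r : ℕ) (hr : r.Prime) (hrn : r ≤ n) (hkn : k ≤ n) :
    (∀ σ : Perm (Fin n), orderOf σ = r → ∃ s : Finset (Fin n), s.card = k ∧ s.image σ = s) ↔ k % r ≤ n % r := by
  classical
  haveI : Fact r.Prime := ⟨hr⟩
  have hr2 := hr.two_le
  constructor
  · intro H
    have hdm := Nat.div_add_mod n r
    have hq : 0 < n / r := Nat.div_pos hrn hr.pos
    obtain ⟨σ, hσ⟩ := (Equiv.Perm.exists_with_cycleType_iff (α := Fin n) (m := Multiset.replicate (n / r) r)).mpr (by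
      constructor
      · rw [Multiset.sum_replicate, smul_eq_mul, Fintype.card_fin]
        exact Nat.div_mul_le_self n r
      · intro a ha
        rw [Multiset.eq_of_mem_replicate ha]; exact hr2)
    have hord : orderOf σ = r := by
      rw [← Equiv.Perm.lcm_cycleType, hσ]
      apply Nat.dvd_antisymm
      · rw [Multiset.lcm_dvd]
        intro b hb
        rw [Multiset.eq_of_mem_replicate hb]
      · exact Multiset.dvd_lcm (Multiset.mem_replicate.mpr ⟨hq.ne', rfl⟩)
    have hsup : σ.support.card = n / r * r := by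
      rw [← Equiv.Perm.sum_cycleType, hσ, Multiset.sum_replicate, smul_eq_mul]
    obtain ⟨s, hsk, hs⟩ := H σ hord
    have h1 := card_inter_fixed_modEq σ r (by rw [← hord]; exact pow_orderOf_eq_one σ) s (mem_iff_of_image_eq σ s hs)
    rw [hsk] at h1
    have h2 : (s ∩ σ.supportᶜ).card ≤ n % r := by
      refine (Finset.card_le_card Finset.inter_subset_right).trans ?_
      rw [Finset.card_compl, Fintype.card_fin, hsup]
      rw [mul_comm] at hdm
      omega
    have h3 : (s ∩ σ.supportᶜ).card % r = k % r := h1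
    rw [Nat.mod_eq_of_lt (h2.trans_lt (Nat.mod_lt _ hr.pos))] at h3
    omega
  · intro h σ hσ
    obtain ⟨c, hc0, hc, hex⟩ := exists_cycles σ r hr hσ
    have hcn : c * r ≤ n := by
      rw [← hc]
      exact (Finset.card_le_univ _).trans (by rw [Fintype.card_fin])
    have hfix : (σ.supportᶜ).card = n - c * r := by
      rw [Finset.card_compl, Fintype.card_fin, hc]
    obtain ⟨a, f, ha, hf, haf⟩ : ∃ a f, a ≤ c ∧ f ≤ n - c * r ∧ k = a * r + f := by
      rcases le_total c (k / r) with h1 | h1
      · refine ⟨c, k - c * r, le_rfl, by omega, ?_⟩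
        have : c * r ≤ k := (Nat.mul_le_mul_right r h1).trans (Nat.div_mul_le_self k r)
        omega
      · refine ⟨k / r, k % r, h1, ?_, ?_⟩
        · have h2 : n % r = (n - c * r) % r := by
            conv_lhs => rw [show n = (n - c * r) + r * c by rw [mul_comm r c]; omega]
            rw [Nat.add_mul_mod_self_left]
          rw [h2] at h
          exact h.trans (Nat.mod_le _ _)
        · rw [mul_comm]; exact (Nat.div_add_mod k r).symm
    obtain ⟨s, hs, hsc, hsm⟩ := hex a ha
    obtain ⟨F, hF, hFc⟩ := Finset.exists_subset_card_eq (s := σ.supportᶜ) (n := f) (by omega)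
    refine ⟨s ∪ F, ?_, ?_⟩
    · rw [Finset.card_union_of_disjoint, hsc, hFc, haf]
      rw [Finset.disjoint_left]
      intro x hx hxF
      exact (Finset.mem_compl.mp (hF hxF)) (hs hx)
    · apply image_eq_of_maps
      intro x hx
      rw [Finset.mem_union] at hx ⊢
      rcases hx with hx | hx
      · exact Or.inl (hsm x hx)
      · right
        have := hF hx
        rw [Finset.mem_compl, Equiv.Perm.notMem_support] at this
        rwa [this]

end Cfsg.Agent.Lib.PrimeOrdPerm
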