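import Mathlib

/-! S3399 (pronormal subgroups fix less than half of the points): definitions. -/

set_option autoImplicit false

open scoped Pointwise

namespace Cfsg.Agent.Lib.Pro

/-- closure: intersection of all blocks containing `A` (everything if there is none) -/
def cl {Ω : Type} (B : Set (Set Ω)) (A : Set Ω) : Set Ω := {x | ∀ F ∈ B, A ⊆ F → x ∈ F}

/-- `Y` is invariant under the pointwise stabilizer of `A` -/
def Inv (G : Type) {Ω : Type} [Group G] [MulAction G Ω] (A Y : Set Ω) : Prop :=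
  ∀ g ∈ fixingSubgroup G A, ∀ y ∈ Y, g • y ∈ Y

/-- orbit of `x` under the pointwise stabilizer of `A` -/
def orb (G : Type) {Ω : Type} [Group G] [MulAction G Ω] (A : Set Ω) (x : Ω) : Set Ω :=
  {y | ∃ g ∈ fixingSubgroup G A, g • x = y}

/-- weight `|Y| - 2|Y ∩ F|` -/
noncomputable def w {Ω : Type} (F Y : Set Ω) : ℤ := (Y.ncard : ℤ) - 2 * ((Y ∩ F).ncard : ℤ)

structure Sit (G Ω : Type) [Group G] [MulAction G Ω] (B : Set (Set Ω)) (f : ℕ) : Prop where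
  fin : Finite Ω
  f1 : 1 ≤ f
  card : Nat.card Ω = 2 * f
  ne : B.Nonempty
  bf : ∀ F ∈ B, F.ncard = f
  inv : ∀ F ∈ B, ∀ g : G, g • F ∈ B
  meet : ∀ F ∈ B, ∀ F' ∈ B, (F ∩ F').Nonempty
  conj : ∀ (A : Set Ω), ∀ F ∈ B, ∀ F' ∈ B, A ⊆ F → A ⊆ F' → ∃ g ∈ fixingSubgroup G A, g • F = F'
  mv : ∀ F ∈ B, ∀ b ∉ F, ∃ g ∈ fixingSubgroup G F, g • b ≠ b
  tr1 : ∀ a b : Ω, ∃ g : G, g • a = b
  tr2 : ∀ a x y : Ω, x ≠ a → y ≠ a → ∃ g : G, g • a = a ∧ g • x = y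
  pos : ∀ A : Set Ω, A.Nonempty → ∀ F ∈ B, A ⊆ F → ∀ Y : Set Ω, Y.Nonempty → Inv G A Y →
    Disjoint Y (cl B A) → 1 ≤ w F Y
  gen : ∀ F ∈ B, ∀ AA : Set (Set Ω), AA.Nonempty → (∀ A ∈ AA, A ⊆ F) → ∀ Y : Set Ω, Y.Nonempty →
    Y ≠ Set.univ → (∀ A ∈ AA, Inv G A Y) → ∃ a, ∀ A ∈ AA, a ∈ cl B A

def Closed {Ω : Type} (B : Set (Set Ω)) (j : ℕ) : Prop := ∀ S : Set Ω, S.ncard = j → cl B S = S

def Trans (G : Type) {Ω : Type} [Group G] [MulAction G Ω] (S : Set Ω) : Prop :=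
  ∀ x ∉ S, ∀ y ∉ S, ∃ g ∈ fixingSubgroup G S, g • x = y

/-- all 3-cycles on `T` are induced by `G` -/
def H3 (G : Type) {Ω : Type} [Group G] [MulAction G Ω] (T : Set Ω) : Prop :=
  ∀ x ∈ T, ∀ y ∈ T, ∀ z ∈ T, x ≠ y → y ≠ z → x ≠ z →
    ∃ g : G, g • x = y ∧ g • y = z ∧ g • z = x ∧ ∀ u ∈ T, u ≠ x → u ≠ y → u ≠ z → g • u = u

def Cov {Ω : Type} (B : Set (Set Ω)) (A D : Set Ω) : Prop :=
  A ⊆ D ∧ ∀ x ∈ D, x ∉ A → cl B (insert x A) = D

theorem subset_cl {Ω : Type} (B : Set (Set Ω)) (A : Set Ω) : A ⊆ cl B A :=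
  fun _ hx _ _ h => h hx

theorem cl_mono {Ω : Type} (B : Set (Set Ω)) {A A' : Set Ω} (h : A ⊆ A') : cl B A ⊆ cl B A' :=
  fun _ hx F hF h' => hx F hF (h.trans h')

theorem cl_sub {Ω : Type} {B : Set (Set Ω)} {A F : Set Ω} (hF : F ∈ B) (h : A ⊆ F) :
    cl B A ⊆ F := fun _ hx => hx F hF h

theorem cl_cl {Ω : Type} (B : Set (Set Ω)) (A : Set Ω) : cl B (cl B A) = cl B A := by
  apply Set.Subset.antisymm _ (subset_cl _ _)
  intro x hx F hF h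
  exact hx F hF (cl_sub hF h)

theorem cl_le {Ω : Type} {B : Set (Set Ω)} {A A' : Set Ω} (h : A ⊆ cl B A') :
    cl B A ⊆ cl B A' := by
  have := cl_mono B h
  rwa [cl_cl] at this

theorem smul_cl {G Ω : Type} [Group G] [MulAction G Ω] {B : Set (Set Ω)} {f : ℕ}
    (s : Sit G Ω B f) (g : G) (A : Set Ω) : g • cl B A = cl B (g • A) := by
  ext x
  rw [Set.mem_smul_set_iff_inv_smul_mem]
  constructor
  · intro h F hF hA
    have := h (g⁻¹ • F) (s.inv F hF _) (by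
      intro a ha
      rw [Set.mem_smul_set_iff_inv_smul_mem, inv_inv]
      exact hA (Set.smul_mem_smul_set ha))
    rwa [Set.mem_smul_set_iff_inv_smul_mem, inv_inv, smul_inv_smul] at this
  · intro h F hF hA
    have := h (g • F) (s.inv F hF _) (Set.smul_set_mono hA)
    rwa [Set.mem_smul_set_iff_inv_smul_mem] at this

end Cfsg.Agent.Lib.Pro
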