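import Cfsg.Agent.Lib.Pro0

/-! S3399, piece A: weights (helper42). -/

set_option autoImplicit false
open scoped Pointwise

namespace Cfsg.Agent.Lib.Pro

section A
variable {G Ω : Type} [Group G] [MulAction G Ω] {B : Set (Set Ω)} {f : ℕ}

theorem w_union [Finite Ω] (F Y Z : Set Ω) (h : Disjoint Y Z) : w F (Y ∪ Z) = w F Y + w F Z := by
  unfold w
  rw [Set.union_inter_distrib_right, Set.ncard_union_eq h,
    Set.ncard_union_eq (h.mono Set.inter_subset_left Set.inter_subset_left)]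
  push_cast
  ring

theorem w_smul (F Y : Set Ω) (g : G) : w (g • F) (g • Y) = w F Y := by
  have key : ∀ Z : Set Ω, (g • Z).ncard = Z.ncard := fun Z =>
    Set.ncard_image_of_injective Z (MulAction.injective g)
  unfold w
  rw [← Set.smul_set_inter, key, key]

theorem inv_smul_eq [Finite Ω] {A Y : Set Ω} (h : Inv G A Y) {g : G} (hg : g ∈ fixingSubgroup G A) : g • Y = Y := by
  apply Set.Subset.antisymm
  · rintro y ⟨z, hz, rfl⟩
    exact h g hg z hz
  · intro y hy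
    rw [Set.mem_smul_set_iff_inv_smul_mem]
    exact h g⁻¹ (inv_mem hg) y hy

theorem orb_inv (A : Set Ω) (x : Ω) : Inv G A (orb G A x) := by
  rintro g hg y ⟨k, hk, rfl⟩
  exact ⟨g * k, mul_mem hg hk, mul_smul g k x⟩

theorem self_orb (A : Set Ω) (x : Ω) : x ∈ orb G A x := ⟨1, one_mem _, one_smul _ _⟩

theorem orb_sub {A Y : Set Ω} (h : Inv G A Y) {x : Ω} (hx : x ∈ Y) : orb G A x ⊆ Y := by
  rintro y ⟨k, hk, rfl⟩
  exact h k hk x hx

theorem orb_disj {A : Set Ω} {x : Ω} (hx : x ∉ A) : Disjoint (orb G A x) A := by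
  rw [Set.disjoint_left]
  rintro y ⟨k, hk, rfl⟩ hy
  apply hx
  have h1 := (mem_fixingSubgroup_iff G).1 (inv_mem hk) _ hy
  rw [inv_smul_smul] at h1
  rw [h1]
  exact hy

theorem w_const (s : Sit G Ω B f) {A F F' Y : Set Ω} (hF : F ∈ B) (hF' : F' ∈ B) (h : A ⊆ F)
    (h' : A ⊆ F') (hY : Inv G A Y) : w F Y = w F' Y := by
  haveI := s.fin
  obtain ⟨g, hg, rfl⟩ := s.conj A F hF F' hF' h h'
  conv_rhs => rw [← inv_smul_eq hY hg]
  exact (w_smul F Y g).symm

theorem pos_flat (s : Sit G Ω B f) {A F Y : Set Ω} (hA : A.Nonempty) (hF : F ∈ B) (h : A ⊆ F)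
    (hc : cl B A = A) (hY : Inv G A Y) (hn : Y.Nonempty) (hd : Disjoint Y A) : 1 ≤ w F Y :=
  s.pos A hA F hF h Y hn hY (by rw [hc]; exact hd)

/-- total weight `|A|` outside `A` -/
theorem w_compl (s : Sit G Ω B f) {A F : Set Ω} (hF : F ∈ B) (h : A ⊆ F) : w F Aᶜ = A.ncard := by
  haveI := s.fin
  unfold w
  have h1 : Aᶜ ∩ F = F \ A := by rw [Set.inter_comm]; rfl
  have h2 : A.ncard + Aᶜ.ncard = 2 * f := by rw [Set.ncard_add_ncard_compl, s.card]
  have h3 : (F \ A).ncard + A.ncard = f := by rw [Set.ncard_diff_add_ncard_of_subset h, s.bf F hF]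
  rw [h1]
  omega

theorem w_empty (F : Set Ω) : w F ∅ = 0 := by
  unfold w
  rw [Set.empty_inter, Set.ncard_empty]
  rfl

theorem w_biUnion [Finite Ω] {ι : Type} (F : Set Ω) (Y : ι → Set Ω)
    (hd : Pairwise fun i k => Disjoint (Y i) (Y k)) (t : Finset ι) :
    w F (⋃ i ∈ t, Y i) = ∑ i ∈ t, w F (Y i) := by
  classical
  induction t using Finset.induction_on with
  | empty => simp [w_empty]
  | insert a t ha ih =>
    rw [Finset.set_biUnion_insert, Finset.sum_insert ha, w_union, ih]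
    rw [Set.disjoint_iUnion₂_right]
    intro i hi
    exact hd (fun h => ha (h ▸ hi))

theorem w_iUnion [Finite Ω] {ι : Type} [Fintype ι] (F : Set Ω) (Y : ι → Set Ω)
    (hd : Pairwise fun i k => Disjoint (Y i) (Y k)) : w F (⋃ i, Y i) = ∑ i, w F (Y i) := by
  rw [← w_biUnion F Y hd]
  simp

theorem w_nonneg (s : Sit G Ω B f) {A F Y : Set Ω} (hA : A.Nonempty) (hF : F ∈ B) (h : A ⊆ F)
    (hc : cl B A = A) (hY : Inv G A Y) (hd : Disjoint Y A) : 0 ≤ w F Y := by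
  rcases Y.eq_empty_or_nonempty with he | hn
  · rw [he, w_empty]
  · have := pos_flat s hA hF h hc hY hn hd
    omega

theorem inv_compl [Finite Ω] {A Y : Set Ω} (hY : Inv G A Y) : Inv G A Yᶜ := by
  intro g hg y hy hgy
  apply hy
  have := hY g⁻¹ (inv_mem hg) _ hgy
  rwa [inv_smul_smul] at this

theorem inv_self (A : Set Ω) : Inv G A A := by
  intro g hg y hy
  rw [(mem_fixingSubgroup_iff G).1 hg y hy]
  exact hy

theorem inv_inter {A Y Z : Set Ω} (hY : Inv G A Y) (hZ : Inv G A Z) : Inv G A (Y ∩ Z) :=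
  fun g hg y hy => ⟨hY g hg y hy.1, hZ g hg y hy.2⟩

theorem inv_union {A Y Z : Set Ω} (hY : Inv G A Y) (hZ : Inv G A Z) : Inv G A (Y ∪ Z) :=
  fun g hg y hy => hy.imp (hY g hg y) (hZ g hg y)

theorem inv_iUnion {A : Set Ω} {ι : Type} {Y : ι → Set Ω} (hY : ∀ i, Inv G A (Y i)) : Inv G A (⋃ i, Y i) := by
  intro g hg y hy
  rw [Set.mem_iUnion] at hy ⊢
  obtain ⟨i, hi⟩ := hy
  exact ⟨i, hY i g hg y hi⟩

theorem total (s : Sit G Ω B f) {A F : Set Ω} (hA : A.Nonempty) (hF : F ∈ B) (h : A ⊆ F)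
    (hc : cl B A = A) {ι : Type} [Fintype ι] (Y : ι → Set Ω) (hd : Pairwise fun i k => Disjoint (Y i) (Y k))
    (hi : ∀ i, Inv G A (Y i)) (hYA : ∀ i, Disjoint (Y i) A) : ∑ i, w F (Y i) ≤ A.ncard := by
  haveI := s.fin
  rw [← w_iUnion F Y hd, ← w_compl s hF h]
  have hU : (⋃ i, Y i) ⊆ Aᶜ := by
    intro y hy hyA
    obtain ⟨i, hi'⟩ := Set.mem_iUnion.1 hy
    exact Set.disjoint_left.1 (hYA i) hi' hyA
  have hZ : 0 ≤ w F (Aᶜ ∩ (⋃ i, Y i)ᶜ) := by
    apply w_nonneg s hA hF h hc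
    · exact inv_inter (inv_compl (inv_self A)) (inv_compl (inv_iUnion hi))
    · rw [Set.disjoint_left]
      exact fun y hy hyA => hy.1 hyA
  have e : Aᶜ = (⋃ i, Y i) ∪ (Aᶜ ∩ (⋃ i, Y i)ᶜ) := by
    ext y
    constructor
    · intro hy
      by_cases h : y ∈ ⋃ i, Y i
      · exact Or.inl h
      · exact Or.inr ⟨hy, h⟩
    · rintro (hy | hy)
      · exact hU hy
      · exact hy.1
  rw [e, w_union _ _ _ (by rw [Set.disjoint_left]; exact fun y hy hy2 => hy2.2 hy)]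
  omega

theorem total_eq (s : Sit G Ω B f) {A F : Set Ω} (hF : F ∈ B) (h : A ⊆ F)
    {ι : Type} [Fintype ι] (Y : ι → Set Ω) (hd : Pairwise fun i k => Disjoint (Y i) (Y k))
    (hYA : ∀ i, Disjoint (Y i) A) (hcov : ∀ x ∉ A, ∃ i, x ∈ Y i) : ∑ i, w F (Y i) = A.ncard := by
  haveI := s.fin
  rw [← w_iUnion F Y hd, ← w_compl s hF h]
  congr 1
  ext y
  rw [Set.mem_iUnion]
  exact ⟨fun ⟨i, hi⟩ hyA => Set.disjoint_left.1 (hYA i) hi hyA, fun hy => hcov y hy⟩

theorem card_le (s : Sit G Ω B f) {A F : Set Ω} (hA : A.Nonempty) (hF : F ∈ B) (h : A ⊆ F)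
    (hc : cl B A = A) {ι : Type} [Fintype ι] (Y : ι → Set Ω) (hd : Pairwise fun i k => Disjoint (Y i) (Y k))
    (hi : ∀ i, Inv G A (Y i)) (hYA : ∀ i, Disjoint (Y i) A) (hn : ∀ i, (Y i).Nonempty) :
    Fintype.card ι ≤ A.ncard := by
  have h1 := total s hA hF h hc Y hd hi hYA
  have h2 : ∑ i : ι, (1 : ℤ) ≤ ∑ i, w F (Y i) :=
    Finset.sum_le_sum fun i _ => pos_flat s hA hF h hc (hi i) (hn i) (hYA i)
  rw [Finset.sum_const, Finset.card_univ, nsmul_eq_mul, mul_one] at h2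
  exact_mod_cast h2.trans h1

/-- a flat that is not everything lies in a block -/
theorem ex_block {A : Set Ω} (hA : cl B A ≠ Set.univ) : ∃ F ∈ B, A ⊆ F := by
  by_contra hcon
  push Not at hcon
  apply hA
  rw [Set.eq_univ_iff_forall]
  intro x F hF hAF
  exact absurd hAF (hcon F hF)

end A

end Cfsg.Agent.Lib.Pro
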