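import Cfsg.Agent.Lib.Pro0

/-! S3399, piece H3: `cyc3`. -/

set_option autoImplicit false

open scoped Pointwise

namespace Cfsg.Agent.Lib.Pro

variable {G Ω : Type} [Group G] [MulAction G Ω]

/-- three-transitivity -/
theorem H3_tr3 (htr : ∀ i < 3, ∀ S : Set Ω, S.ncard = i → Trans G S)
    {a b c a' b' c' : Ω} (hab : a ≠ b) (hac : a ≠ c) (hbc : b ≠ c)
    (hab' : a' ≠ b') (hac' : a' ≠ c') (hbc' : b' ≠ c') :
    ∃ g : G, g • a = a' ∧ g • b = b' ∧ g • c = c' := by
  obtain ⟨g1, -, h1⟩ := htr 0 (by norm_num) ∅ (Set.ncard_empty Ω) a (by simp) a' (by simp)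
  have hb1 : g1 • b ≠ a' := by
    rw [← h1]; exact fun h => hab ((MulAction.injective g1 h).symm)
  obtain ⟨g2, hg2, h2⟩ := htr 1 (by norm_num) {a'} (Set.ncard_singleton a') (g1 • b)
    (by simpa using hb1) b' (by simpa using hab'.symm)
  rw [mem_fixingSubgroup_iff] at hg2
  have h2a : g2 • a' = a' := hg2 a' rfl
  have hc1 : g2 • g1 • c ≠ a' := by
    rw [← h2a, ← h1]
    exact fun h => hac ((MulAction.injective g1 (MulAction.injective g2 h)).symm)
  have hc2 : g2 • g1 • c ≠ b' := by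
    rw [← h2]
    exact fun h => hbc ((MulAction.injective g1 (MulAction.injective g2 h)).symm)
  obtain ⟨g3, hg3, h3⟩ := htr 2 (by norm_num) {a', b'} (Set.ncard_pair hab') (g2 • g1 • c)
    (by simp [hc1, hc2]) c' (by simp [hac'.symm, hbc'.symm])
  rw [mem_fixingSubgroup_iff] at hg3
  refine ⟨g3 * g2 * g1, ?_, ?_, ?_⟩
  · rw [mul_smul, mul_smul, h1, h2a, hg3 a' (by simp)]
  · rw [mul_smul, mul_smul, h2, hg3 b' (by simp)]
  · rw [mul_smul, mul_smul, h3]

theorem H3_orb_smul (g : G) (S : Set Ω) (x : Ω) : orb G (g • S) (g • x) = g • orb G S x := by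
  ext y
  constructor
  · rintro ⟨h, hh, rfl⟩
    rw [mem_fixingSubgroup_iff] at hh
    refine ⟨g⁻¹ • h • g • x, ⟨g⁻¹ * h * g, ?_, ?_⟩, ?_⟩
    · rw [mem_fixingSubgroup_iff]
      intro s hs
      rw [mul_smul, mul_smul, hh (g • s) (Set.smul_mem_smul_set hs), inv_smul_smul]
    · rw [mul_smul, mul_smul]
    · simp
  · rintro ⟨z, ⟨h, hh, rfl⟩, rfl⟩
    rw [mem_fixingSubgroup_iff] at hh
    refine ⟨g * h * g⁻¹, ?_, ?_⟩
    · rw [mem_fixingSubgroup_iff]
      rintro s ⟨s', hs', rfl⟩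
      simp only [mul_smul, inv_smul_smul]
      rw [hh s' hs']
    · simp [mul_smul]

theorem H3_orb_card (g : G) (S : Set Ω) (x : Ω) :
    (orb G (g • S) (g • x)).ncard = (orb G S x).ncard := by
  rw [H3_orb_smul]
  exact Set.ncard_image_of_injective _ (MulAction.injective g)

/-- any four injective 4-tuples contain two equivalent ones -/
theorem H3_four (htr : ∀ i < 3, ∀ S : Set Ω, S.ncard = i → Trans G S)
    (horb : ∀ S : Set Ω, S.ncard = 3 → ∀ x : Fin 4 → Ω, (∀ i, x i ∉ S) →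
      ∃ i i', i ≠ i' ∧ x i' ∈ orb G S (x i))
    (t : Fin 4 → Fin 4 → Ω) (ht : ∀ i, Function.Injective (t i)) :
    ∃ i i', i ≠ i' ∧ ∃ g : G, ∀ k, g • t i k = t i' k := by
  have h01 : ∀ i, t i 0 ≠ t i 1 := fun i h => by simpa using ht i h
  have h02 : ∀ i, t i 0 ≠ t i 2 := fun i h => by simpa using ht i h
  have h12 : ∀ i, t i 1 ≠ t i 2 := fun i h => by simpa using ht i h
  have key : ∀ i, ∃ g : G, g • t i 0 = t 0 0 ∧ g • t i 1 = t 0 1 ∧ g • t i 2 = t 0 2 :=
    fun i => H3_tr3 htr (h01 i) (h02 i) (h12 i) (h01 0) (h02 0) (h12 0)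
  choose g hg using key
  have hx : ∀ i, g i • t i 3 ∉ ({t 0 0, t 0 1, t 0 2} : Set Ω) := by
    intro i hi
    simp only [Set.mem_insert_iff, Set.mem_singleton_iff] at hi
    rcases hi with h | h | h
    · rw [← (hg i).1] at h
      simpa using ht i (MulAction.injective _ h)
    · rw [← (hg i).2.1] at h
      simpa using ht i (MulAction.injective _ h)
    · rw [← (hg i).2.2] at h
      simpa using ht i (MulAction.injective _ h)
  obtain ⟨i, i', hne, h, hh, hh2⟩ := horb {t 0 0, t 0 1, t 0 2}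
    (Set.ncard_eq_three.mpr ⟨_, _, _, h01 0, h02 0, h12 0, rfl⟩) (fun i => g i • t i 3) hx
  rw [mem_fixingSubgroup_iff] at hh
  refine ⟨i, i', hne, (g i')⁻¹ * h * g i, ?_⟩
  have e0 := hg i
  have e1 := hg i'
  intro k
  rw [mul_smul, mul_smul, inv_smul_eq_iff]
  fin_cases k
  · simp only [Fin.zero_eta]
    rw [e0.1, e1.1, hh _ (by simp)]
  · simp only [Fin.mk_one]
    rw [e0.2.1, e1.2.1, hh _ (by simp)]
  · simp only [Fin.reduceFinMk]
    rw [e0.2.2, e1.2.2, hh _ (by simp)]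
  · simp only [Fin.reduceFinMk]
    exact hh2

theorem cyc3 [Finite Ω] (htr : ∀ i < 3, ∀ S : Set Ω, S.ncard = i → Trans G S)
    (horb : ∀ S : Set Ω, S.ncard = 3 → ∀ x : Fin 4 → Ω, (∀ i, x i ∉ S) →
      ∃ i i', i ≠ i' ∧ x i' ∈ orb G S (x i)) :
    (∀ T : Set Ω, T.ncard = 4 → H3 G T) ∨
      ((∀ T T' : Set Ω, T.ncard = 4 → T'.ncard = 4 → ∃ g : G, g • T = T') ∧
       (∀ S S' : Set Ω, S.ncard = 3 → S'.ncard = 3 → ∀ x ∉ S, ∀ x' ∉ S',
         (orb G S x).ncard = (orb G S' x').ncard)) := by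
  classical
  by_cases hH : ∀ T : Set Ω, T.ncard = 4 → H3 G T
  · exact Or.inl hH
  right
  push Not at hH
  obtain ⟨T, hT, hnH⟩ := hH
  unfold H3 at hnH
  push Not at hnH
  obtain ⟨x, hx, y, hy, z, hz, hxy, hyz, hxz, hno⟩ := hnH
  -- the fourth point
  have hT3 : (({x, y, z} : Set Ω)).ncard = 3 :=
    Set.ncard_eq_three.mpr ⟨_, _, _, hxy, hxz, hyz, rfl⟩
  have hsub : ({x, y, z} : Set Ω) ⊆ T := by
    intro a ha
    simp only [Set.mem_insert_iff, Set.mem_singleton_iff] at ha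
    rcases ha with rfl | rfl | rfl <;> assumption
  obtain ⟨u, hu, huT⟩ : ∃ u, u ∈ T ∧ u ∉ ({x, y, z} : Set Ω) := by
    by_contra hcon
    push Not at hcon
    have : T ⊆ ({x, y, z} : Set Ω) := hcon
    have := Set.ncard_le_ncard this
    omega
  have hTe : T = {x, y, z, u} := by
    symm
    refine Set.eq_of_subset_of_ncard_le ?_ ?_ (Set.toFinite T)
    · intro a ha
      simp only [Set.mem_insert_iff, Set.mem_singleton_iff] at ha
      rcases ha with rfl | rfl | rfl | rfl <;> assumption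
    · have e : ({x, y, z, u} : Set Ω) = insert u {x, y, z} := by
        ext a; simp only [Set.mem_insert_iff, Set.mem_singleton_iff]; tauto
      rw [e, Set.ncard_insert_of_notMem huT, hT3, hT]
  simp only [Set.mem_insert_iff, Set.mem_singleton_iff, not_or] at huT
  obtain ⟨hux, huy, huz⟩ := huT
  -- there is no cycle
  have hno' : ∀ g : G, g • x = y → g • y = z → g • z = x → g • u = u → False := by
    intro g h1 h2 h3 h4
    obtain ⟨v, hv, hvx, hvy, hvz, hv'⟩ := hno g h1 h2 h3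
    rw [hTe] at hv
    simp only [Set.mem_insert_iff, Set.mem_singleton_iff] at hv
    rcases hv with h | h | h | h
    · exact hvx h
    · exact hvy h
    · exact hvz h
    · exact hv' (h ▸ h4)
  -- every injective 4-tuple is equivalent to one of three
  have main : ∀ s : Fin 4 → Ω, Function.Injective s → ∃ g : G,
      g • s 3 = u ∧ g • ({s 0, s 1, s 2} : Set Ω) = {x, y, z} := by
    intro s hs
    obtain ⟨i, i', hne, g, hg⟩ := H3_four htr horb
      ![![x, y, z, u], ![y, z, x, u], ![z, x, y, u], s] (by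
        intro i
        fin_cases i
        · intro a b hab
          fin_cases a <;> fin_cases b <;> simp_all
        · intro a b hab
          fin_cases a <;> fin_cases b <;> simp_all
        · intro a b hab
          fin_cases a <;> fin_cases b <;> simp_all
        · exact hs)
    have f0 : ∀ h : G, h • s 0 = x → h • s 1 = y → h • s 2 = z →
        h • ({s 0, s 1, s 2} : Set Ω) = {x, y, z} := by
      intro h h1 h2 h3
      rw [← h1, ← h2, ← h3]
      simp [Set.smul_set_insert]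
    have f1 : ∀ h : G, h • s 0 = y → h • s 1 = z → h • s 2 = x →
        h • ({s 0, s 1, s 2} : Set Ω) = {x, y, z} := by
      intro h h1 h2 h3
      have : ({x, y, z} : Set Ω) = {y, z, x} := by
        ext a; simp only [Set.mem_insert_iff, Set.mem_singleton_iff]; tauto
      rw [this, ← h1, ← h2, ← h3]
      simp [Set.smul_set_insert]
    have f2 : ∀ h : G, h • s 0 = z → h • s 1 = x → h • s 2 = y →
        h • ({s 0, s 1, s 2} : Set Ω) = {x, y, z} := by
      intro h h1 h2 h3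
      have : ({x, y, z} : Set Ω) = {z, x, y} := by
        ext a; simp only [Set.mem_insert_iff, Set.mem_singleton_iff]; tauto
      rw [this, ← h1, ← h2, ← h3]
      simp [Set.smul_set_insert]
    have k0 := hg 0
    have k1 := hg 1
    have k2 := hg 2
    have k3 := hg 3
    fin_cases i <;> fin_cases i' <;>
      simp only [Fin.zero_eta, Fin.mk_one, Fin.reduceFinMk, Matrix.cons_val_zero,
        Matrix.cons_val_one, Matrix.cons_val, ne_eq, not_true_eq_false] at hne k0 k1 k2 k3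
    · exact (hno' g k0 k1 k2 k3).elim
    · refine (hno' g⁻¹ ?_ ?_ ?_ ?_).elim <;> rw [inv_smul_eq_iff] <;> simp [k0, k1, k2, k3]
    · refine ⟨g⁻¹, ?_, f0 _ ?_ ?_ ?_⟩ <;> rw [inv_smul_eq_iff] <;> simp [k0, k1, k2, k3]
    · refine (hno' g⁻¹ ?_ ?_ ?_ ?_).elim <;> rw [inv_smul_eq_iff] <;> simp [k0, k1, k2, k3]
    · exact (hno' g k2 k0 k1 k3).elim
    · refine ⟨g⁻¹, ?_, f1 _ ?_ ?_ ?_⟩ <;> rw [inv_smul_eq_iff] <;> simp [k0, k1, k2, k3]
    · exact (hno' g k1 k2 k0 k3).elim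
    · refine (hno' g⁻¹ ?_ ?_ ?_ ?_).elim <;> rw [inv_smul_eq_iff] <;> simp [k0, k1, k2, k3]
    · refine ⟨g⁻¹, ?_, f2 _ ?_ ?_ ?_⟩ <;> rw [inv_smul_eq_iff] <;> simp [k0, k1, k2, k3]
    · exact ⟨g, k3, f0 g k0 k1 k2⟩
    · exact ⟨g, k3, f1 g k0 k1 k2⟩
    · exact ⟨g, k3, f2 g k0 k1 k2⟩
  have main2 : ∀ S : Set Ω, S.ncard = 3 → ∀ v ∉ S, ∃ g : G, g • v = u ∧ g • S = {x, y, z} := by
    intro S hS v hv
    obtain ⟨a, b, c, hab, hac, hbc, rfl⟩ := Set.ncard_eq_three.mp hS
    simp only [Set.mem_insert_iff, Set.mem_singleton_iff, not_or] at hv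
    obtain ⟨hva, hvb, hvc⟩ := hv
    exact main ![a, b, c, v] (by
      intro i j hij
      fin_cases i <;> fin_cases j <;> simp_all)
  constructor
  · have key : ∀ T' : Set Ω, T'.ncard = 4 → ∃ g : G, g • T' = insert u {x, y, z} := by
      intro T' hT'
      obtain ⟨v, S, hvS, rfl, hS⟩ := (Set.ncard_eq_succ (Set.toFinite T')).mp hT'
      obtain ⟨g, h1, h2⟩ := main2 S hS v hvS
      exact ⟨g, by rw [Set.smul_set_insert, h1, h2]⟩
    intro T1 T2 h1 h2
    obtain ⟨g1, e1⟩ := key T1 h1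
    obtain ⟨g2, e2⟩ := key T2 h2
    exact ⟨g2⁻¹ * g1, by rw [mul_smul, e1, ← e2, inv_smul_smul]⟩
  · intro S S' hS hS' v hv v' hv'
    obtain ⟨g1, a1, b1⟩ := main2 S hS v hv
    obtain ⟨g2, a2, b2⟩ := main2 S' hS' v' hv'
    rw [← H3_orb_card g1 S v, ← H3_orb_card g2 S' v', a1, b1, a2, b2]

end Cfsg.Agent.Lib.Pro
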