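import Mathlib
import Cfsg.Agent.Lib.Pro0

/-! S3399, piece H4 (helper57). -/

set_option autoImplicit false
set_option linter.all false

open scoped Pointwise

namespace Cfsg.Agent.Lib.Pro

section H
variable {G Ω : Type} [Group G] [MulAction G Ω] [Finite Ω]

theorem trans_tuples {j : ℕ} (htr : ∀ i < j, ∀ S : Set Ω, S.ncard = i → Trans G S) :
    ∀ m ≤ j, ∀ a b : Fin m → Ω, Function.Injective a → Function.Injective b → ∃ g : G, ∀ i, g • a i = b i := by
  intro m
  induction m with
  | zero => intro _ a b _ _; exact ⟨1, fun i => i.elim0⟩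
  | succ m ih =>
    intro hm a b ha hb
    obtain ⟨g, hg⟩ := ih (by omega) (a ∘ Fin.castSucc) (b ∘ Fin.castSucc)
      (ha.comp (Fin.castSucc_injective m)) (hb.comp (Fin.castSucc_injective m))
    have hS : (Set.range (b ∘ Fin.castSucc)).ncard = m := by
      rw [← Set.image_univ, Set.ncard_image_of_injective _ (hb.comp (Fin.castSucc_injective m)), Set.ncard_univ, Nat.card_fin]
    obtain ⟨h, hh, hx⟩ := htr m (by omega) _ hS (g • a (Fin.last m)) (by
      rintro ⟨i, hi⟩
      have h1 : g • a (Fin.castSucc i) = g • a (Fin.last m) := (hg i).trans hi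
      have h2 := ha (MulAction.injective g h1)
      exact absurd h2 (Fin.castSucc_lt_last i).ne) (b (Fin.last m)) (by
      rintro ⟨i, hi⟩
      exact absurd (hb hi) (Fin.castSucc_lt_last i).ne)
    refine ⟨h * g, ?_⟩
    intro i
    refine Fin.lastCases ?_ (fun i => ?_) i
    · rw [mul_smul]; exact hx
    · rw [mul_smul]
      have h1 : g • a (Fin.castSucc i) = b (Fin.castSucc i) := hg i
      rw [h1]
      exact (mem_fixingSubgroup_iff G).1 hh _ ⟨i, rfl⟩

theorem card_classes {j : ℕ} (htr : ∀ i < j, ∀ S : Set Ω, S.ncard = i → Trans G S)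
    (horb : ∀ S : Set Ω, S.ncard = j → ∀ x : Fin (j + 1) → Ω, (∀ i, x i ∉ S) →
      ∃ i i', i ≠ i' ∧ x i' ∈ orb G S (x i)) (s : Fin j ↪ Ω) :
    Nat.card (MulAction.orbitRel.Quotient G (Fin (j + 1) ↪ Ω)) ≤ j := by
  classical
  haveI := Fintype.ofFinite Ω
  haveI : Finite (MulAction.orbitRel.Quotient G (Fin (j + 1) ↪ Ω)) := Quotient.finite _
  by_contra hcon
  haveI := Fintype.ofFinite (MulAction.orbitRel.Quotient G (Fin (j + 1) ↪ Ω))
  have h1 : Fintype.card (Fin (j + 1)) ≤ Fintype.card (MulAction.orbitRel.Quotient G (Fin (j + 1) ↪ Ω)) := by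
    rw [Fintype.card_fin, ← Nat.card_eq_fintype_card]; omega
  obtain ⟨φ⟩ := Function.Embedding.nonempty_of_card_le h1
  have hS : (Set.range s).ncard = j := by
    rw [← Set.image_univ, Set.ncard_image_of_injective _ s.injective, Set.ncard_univ, Nat.card_fin]
  have h2 : ∀ i, ∃ g : G, ∀ m : Fin j, g • (Quotient.out (φ i)) (Fin.castSucc m) = s m := by
    intro i
    exact trans_tuples htr j le_rfl (fun m => (Quotient.out (φ i)) (Fin.castSucc m)) s
      ((Quotient.out (φ i)).injective.comp (Fin.castSucc_injective j)) s.injective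
  choose g hg using h2
  obtain ⟨i, i', hne, hmem⟩ := horb (Set.range s) hS (fun i => g i • (Quotient.out (φ i)) (Fin.last j)) (by
    rintro i ⟨m, hm⟩
    have h3 : g i • (Quotient.out (φ i)) (Fin.castSucc m) = g i • (Quotient.out (φ i)) (Fin.last j) := (hg i m).trans hm
    have h4 := (Quotient.out (φ i)).injective (MulAction.injective _ h3)
    exact absurd h4 (Fin.castSucc_lt_last m).ne)
  obtain ⟨h, hh, hx⟩ := hmem
  apply hne
  apply φ.injective
  rw [← Quotient.out_eq (φ i), ← Quotient.out_eq (φ i')]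
  apply Quotient.sound
  show MulAction.orbitRel G _ _ _
  rw [MulAction.orbitRel_apply]
  refine ⟨(g i)⁻¹ * h⁻¹ * g i', ?_⟩
  ext m
  show ((g i)⁻¹ * h⁻¹ * g i') • (Quotient.out (φ i')) m = (Quotient.out (φ i)) m
  rw [mul_smul, mul_smul, inv_smul_eq_iff, inv_smul_eq_iff]
  refine Fin.lastCases ?_ (fun m => ?_) m
  · exact hx.symm
  · rw [hg i m, hg i' m]
    exact ((mem_fixingSubgroup_iff G).1 hh _ ⟨m, rfl⟩).symm

/-- the action of permutations of the indices on the classes of tuples -/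
noncomputable def permHom (G Ω : Type) [Group G] [MulAction G Ω] (n : ℕ) :
    Equiv.Perm (Fin n) →* Equiv.Perm (MulAction.orbitRel.Quotient G (Fin n ↪ Ω)) :=
  letI : MulAction (Equiv.Perm (Fin n)) (MulAction.orbitRel.Quotient G (Fin n ↪ Ω)) :=
    { smul := fun σ q => Quotient.map' (fun t : Fin n ↪ Ω => (σ⁻¹).toEmbedding.trans t) (by
        rintro t t' ⟨g, hg⟩
        refine ⟨g, ?_⟩
        ext m
        have := congrArg (fun f : Fin n ↪ Ω => f (σ⁻¹ m)) hg
        exact this) q
      one_smul := by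
        rintro ⟨t⟩
        exact congrArg Quotient.mk'' (show ((1 : Equiv.Perm (Fin n))⁻¹).toEmbedding.trans t = t from by ext m; rfl)
      mul_smul := by
        rintro σ τ ⟨t⟩
        exact congrArg Quotient.mk'' (show ((σ * τ)⁻¹).toEmbedding.trans t =
          (σ⁻¹).toEmbedding.trans ((τ⁻¹).toEmbedding.trans t) from by ext m; rfl) }
  MulAction.toPermHom _ _

theorem permHom_apply {n : ℕ} (σ : Equiv.Perm (Fin n)) (t : Fin n ↪ Ω) :
    permHom G Ω n σ (Quotient.mk'' t) = Quotient.mk'' ((σ⁻¹).toEmbedding.trans t) := rfl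

/-- H4: if `G` is `j`-transitive, and stabilizers of `j` points have at most `j` orbits on the rest, `j ≥ 4` -/
theorem cyc4 {j : ℕ} (hj : 4 ≤ j) (htr : ∀ i < j, ∀ S : Set Ω, S.ncard = i → Trans G S)
    (horb : ∀ S : Set Ω, S.ncard = j → ∀ x : Fin (j + 1) → Ω, (∀ i, x i ∉ S) →
      ∃ i i', i ≠ i' ∧ x i' ∈ orb G S (x i))
    (T : Set Ω) (hT : T.ncard = j + 1) : H3 G T := by
  classical
  haveI := Fintype.ofFinite Ω
  have hcT : Nat.card T = j + 1 := hT
  let e : T ≃ Fin (j + 1) := Finite.equivFinOfCardEq hcT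
  let t : Fin (j + 1) ↪ Ω := e.symm.toEmbedding.trans (Function.Embedding.subtype _)
  let s : Fin j ↪ Ω := (⟨Fin.castSucc, Fin.castSucc_injective j⟩ : Fin j ↪ Fin (j + 1)).trans t
  have hI := card_classes htr horb s
  have hs : IsSimpleGroup (alternatingGroup (Fin (j + 1))) := alternatingGroup.isSimpleGroup (by rw [Nat.card_fin]; omega)
  haveI : Finite (MulAction.orbitRel.Quotient G (Fin (j + 1) ↪ Ω)) := Quotient.finite _
  haveI : Nontrivial (Fin (j + 1)) := Fin.nontrivial_iff_two_le.2 (by omega)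
  let Φ := (permHom G Ω (j + 1)).comp (alternatingGroup (Fin (j + 1))).subtype
  have hker : Φ.ker = ⊤ := by
    rcases (inferInstance : (Φ.ker).Normal).eq_bot_or_eq_top with h | h
    · exfalso
      have hinj : Function.Injective Φ := (MonoidHom.ker_eq_bot_iff Φ).1 h
      have h1 := Nat.card_le_card_of_injective Φ hinj
      rw [Nat.card_perm] at h1
      have h2 : 2 * Nat.card (alternatingGroup (Fin (j + 1))) = Nat.card (Equiv.Perm (Fin (j + 1))) :=
        two_mul_nat_card_alternatingGroup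
      rw [Nat.card_perm, Nat.card_fin, Nat.factorial_succ] at h2
      have h3 := Nat.factorial_le hI
      have h4 := Nat.factorial_pos j
      nlinarith
    · exact h
  intro x hx y hy z hz hxy hyz hxz
  let x' : T := ⟨x, hx⟩
  let y' : T := ⟨y, hy⟩
  let z' : T := ⟨z, hz⟩
  have hxy' : x' ≠ y' := fun h => hxy (congrArg Subtype.val h)
  have hyz' : y' ≠ z' := fun h => hyz (congrArg Subtype.val h)
  have hxz' : x' ≠ z' := fun h => hxz (congrArg Subtype.val h)
  let c : Equiv.Perm T := Equiv.swap x' y' * Equiv.swap y' z'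
  let σ : Equiv.Perm (Fin (j + 1)) := e.permCongr c
  have hσ : σ⁻¹ ∈ alternatingGroup (Fin (j + 1)) := by
    rw [inv_mem_iff, Equiv.Perm.mem_alternatingGroup]
    show Equiv.Perm.sign (e.permCongr c) = 1
    rw [Equiv.Perm.sign_permCongr, Equiv.Perm.sign_mul, Equiv.Perm.sign_swap hxy', Equiv.Perm.sign_swap hyz']
    rfl
  have h1 : Φ ⟨σ⁻¹, hσ⟩ = 1 := by
    have : (⟨σ⁻¹, hσ⟩ : alternatingGroup (Fin (j + 1))) ∈ Φ.ker := by rw [hker]; exact Subgroup.mem_top _
    exact this
  have h2 : permHom G Ω (j + 1) σ⁻¹ (Quotient.mk'' t) = Quotient.mk'' t := by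
    have := congrArg (fun f : Equiv.Perm (MulAction.orbitRel.Quotient G (Fin (j + 1) ↪ Ω)) => f (Quotient.mk'' t)) h1
    exact this
  rw [permHom_apply] at h2
  have h3 := Quotient.exact h2
  obtain ⟨g, hg⟩ : ∃ g : G, g • t = ((σ⁻¹)⁻¹).toEmbedding.trans t := h3
  have key : ∀ u : T, g • (u : Ω) = (c u : Ω) := by
    intro u
    have h4 := congrArg (fun f : Fin (j + 1) ↪ Ω => f (e u)) hg
    have h5 : (g • t) (e u) = g • (u : Ω) := by
      show g • ((e.symm (e u) : T) : Ω) = _
      rw [e.symm_apply_apply]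
    have h6 : (((σ⁻¹)⁻¹).toEmbedding.trans t) (e u) = (c u : Ω) := by
      rw [inv_inv]
      show ((e.symm (e (c (e.symm (e u)))) : T) : Ω) = _
      rw [e.symm_apply_apply, e.symm_apply_apply]
    rw [← h5, ← h6]
    exact h4
  refine ⟨g, ?_, ?_, ?_, ?_⟩
  · have h4 := key x'
    have h5 : c x' = y' := by
      show Equiv.swap x' y' (Equiv.swap y' z' x') = y'
      rw [Equiv.swap_apply_of_ne_of_ne hxy' hxz', Equiv.swap_apply_left]
    rw [h5] at h4; exact h4
  · have h4 := key y'
    have h5 : c y' = z' := by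
      show Equiv.swap x' y' (Equiv.swap y' z' y') = z'
      rw [Equiv.swap_apply_left, Equiv.swap_apply_of_ne_of_ne hxz'.symm hyz'.symm]
    rw [h5] at h4; exact h4
  · have h4 := key z'
    have h5 : c z' = x' := by
      show Equiv.swap x' y' (Equiv.swap y' z' z') = x'
      rw [Equiv.swap_apply_right, Equiv.swap_apply_right]
    rw [h5] at h4; exact h4
  · intro u hu hux huy huz
    have h4 := key ⟨u, hu⟩
    have n1 : (⟨u, hu⟩ : T) ≠ x' := fun h => hux (congrArg Subtype.val h)
    have n2 : (⟨u, hu⟩ : T) ≠ y' := fun h => huy (congrArg Subtype.val h)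
    have n3 : (⟨u, hu⟩ : T) ≠ z' := fun h => huz (congrArg Subtype.val h)
    have h5 : c ⟨u, hu⟩ = ⟨u, hu⟩ := by
      show Equiv.swap x' y' (Equiv.swap y' z' ⟨u, hu⟩) = ⟨u, hu⟩
      rw [Equiv.swap_apply_of_ne_of_ne n2 n3, Equiv.swap_apply_of_ne_of_ne n1 n2]
    rw [h5] at h4; exact h4
end H

end Cfsg.Agent.Lib.Pro
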