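import Cfsg.Agent.Lib.Pro0

/-! S3399, piece Hom (helper29). -/

set_option autoImplicit false
open scoped Pointwise

namespace Cfsg.Agent.Lib.Pro

section H
variable {G Ω : Type} [Group G] [MulAction G Ω] [Finite Ω]

theorem hom_step {T : Set Ω} (hT : H3 G T) (h3 : 3 ≤ T.ncard) {P : Set Ω} (hPT : P ⊆ T) {a b : Ω}
    (ha : a ∈ P) (hb : b ∈ T) (hbP : b ∉ P) : ∃ g : G, g • T = T ∧ g • P = insert b (P \ {a}) := by
  have hab : a ≠ b := by rintro rfl; exact hbP ha
  have haT := hPT ha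
  obtain ⟨c, hc, hca, hcb⟩ : ∃ c ∈ T, c ≠ a ∧ c ≠ b := by
    by_contra hno
    push Not at hno
    have h1 : T ⊆ {a, b} := by
      intro c hc
      by_cases h : c = a
      · exact Or.inl h
      · exact Or.inr (hno c hc h)
    have h2 := Set.ncard_le_ncard h1 (Set.toFinite _)
    have h4 := Set.ncard_insert_le a ({b} : Set Ω)
    rw [Set.ncard_singleton] at h4
    omega
  have key : ∀ (g : G) (x y z : Ω), x ∈ T → y ∈ T → z ∈ T → g • x = y → g • y = z → g • z = x →
      (∀ u ∈ T, u ≠ x → u ≠ y → u ≠ z → g • u = u) → g • T = T := by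
    intro g x y z hx hy hz h1 h2 h4 h5
    apply Set.eq_of_subset_of_ncard_le _ _ (Set.toFinite _)
    · rintro _ ⟨u, hu, rfl⟩
      show g • u ∈ T
      by_cases e1 : u = x
      · rw [e1, h1]; exact hy
      by_cases e2 : u = y
      · rw [e2, h2]; exact hz
      by_cases e3 : u = z
      · rw [e3, h4]; exact hx
      · rw [h5 u hu e1 e2 e3]; exact hu
    · rw [Set.ncard_smul_set]
  have fin : ∀ g : G, g • P ⊆ insert b (P \ {a}) → g • P = insert b (P \ {a}) := by
    intro g hg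
    apply Set.eq_of_subset_of_ncard_le hg _ (Set.toFinite _)
    rw [Set.ncard_smul_set, Set.ncard_insert_of_notMem (fun h => hbP h.1) (Set.toFinite _),
      Set.ncard_diff_singleton_add_one ha (Set.toFinite _)]
  by_cases hcP : c ∈ P
  · -- a → c → b → a
    obtain ⟨g, g1, g2, g3, g4⟩ := hT a haT c hc b hb (Ne.symm hca) hcb hab
    refine ⟨g, key g a c b haT hc hb g1 g2 g3 g4, fin g ?_⟩
    rintro _ ⟨u, hu, rfl⟩
    show g • u ∈ _
    by_cases e1 : u = a
    · rw [e1, g1]; exact Or.inr ⟨hcP, hca⟩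
    by_cases e2 : u = c
    · rw [e2, g2]; exact Or.inl rfl
    have e3 : u ≠ b := by rintro rfl; exact hbP hu
    rw [g4 u (hPT hu) e1 e2 e3]
    exact Or.inr ⟨hu, e1⟩
  · obtain ⟨g, g1, g2, g3, g4⟩ := hT a haT b hb c hc hab (Ne.symm hcb) (Ne.symm hca)
    refine ⟨g, key g a b c haT hb hc g1 g2 g3 g4, fin g ?_⟩
    rintro _ ⟨u, hu, rfl⟩
    show g • u ∈ _
    by_cases e1 : u = a
    · rw [e1, g1]; exact Or.inl rfl
    have e2 : u ≠ b := by rintro rfl; exact hbP hu
    have e3 : u ≠ c := by rintro rfl; exact hcP hu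
    rw [g4 u (hPT hu) e1 e2 e3]
    exact Or.inr ⟨hu, e1⟩

/-- HOM -/
theorem hom {T : Set Ω} (hT : H3 G T) (h3 : 3 ≤ T.ncard) (Q : Set (Set Ω)) (hQ : ∀ P ∈ Q, P ⊆ T)
    (hinv : ∀ g : G, g • T = T → ∀ P ∈ Q, g • P ∈ Q) {P P' : Set Ω} (hP : P ∈ Q) (hP' : P' ⊆ T)
    (hc : P'.ncard = P.ncard) : P' ∈ Q := by
  obtain ⟨n, hn⟩ : ∃ n, n = (P \ P').ncard := ⟨_, rfl⟩
  induction n using Nat.strong_induction_on generalizing P with
  | _ n ih =>
    by_cases h0 : (P \ P') = ∅
    · have h1 : P ⊆ P' := Set.diff_eq_empty.1 h0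
      have h2 : P = P' := Set.eq_of_subset_of_ncard_le h1 (le_of_eq hc) (Set.toFinite _)
      rw [← h2]; exact hP
    · obtain ⟨a, ha, haP'⟩ := Set.nonempty_iff_ne_empty.2 h0
      obtain ⟨b, hb, hbP⟩ : ∃ b ∈ P', b ∉ P := by
        by_contra hno
        push Not at hno
        have h1 : P' = P := Set.eq_of_subset_of_ncard_le hno (le_of_eq hc.symm) (Set.toFinite _)
        exact haP' (h1 ▸ ha)
      obtain ⟨g, hg, hgP⟩ := hom_step hT h3 (hQ P hP) ha (hP' hb) hbP
      have h4 : insert b (P \ {a}) ∈ Q := hgP ▸ hinv g hg P hP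
      have h5 : (insert b (P \ {a})).ncard = P.ncard := by
        rw [← hgP, Set.ncard_smul_set]
      have h6 : (insert b (P \ {a}) \ P').ncard < n := by
        rw [hn]
        apply Set.ncard_lt_ncard _ (Set.toFinite _)
        refine ⟨?_, ?_⟩
        · rintro x ⟨hx | hx, hx'⟩
          · rw [hx] at hx'; exact absurd hb hx'
          · exact ⟨hx.1, hx'⟩
        · intro hsub
          obtain ⟨h7 | h7, -⟩ := hsub ⟨ha, haP'⟩
          · exact hbP (h7 ▸ ha)
          · exact h7.2 rfl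
      exact ih _ h6 h4 (by rw [h5]; exact hc) rfl

end H

end Cfsg.Agent.Lib.Pro
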