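import Cfsg.Agent.Lib.ProP1
import Cfsg.Agent.Lib.ProA

set_option autoImplicit false
open scoped Pointwise

namespace Cfsg.Agent.Lib.Pro

theorem ex_mem_block62 {G Ω : Type} [Group G] [MulAction G Ω] {B : Set (Set Ω)} {f : ℕ}
    (s : Sit G Ω B f) (a : Ω) : ∃ F ∈ B, a ∈ F := by
  obtain ⟨F0, hF0⟩ := s.ne
  have h0 : F0.Nonempty := by
    have := s.meet F0 hF0 F0 hF0
    simpa using this
  obtain ⟨b, hb⟩ := h0
  obtain ⟨g, hg⟩ := s.tr1 b a
  exact ⟨g • F0, s.inv F0 hF0 g, hg ▸ Set.smul_mem_smul_set hb⟩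

theorem block_ne_univ62 {G Ω : Type} [Group G] [MulAction G Ω] {B : Set (Set Ω)} {f : ℕ}
    (s : Sit G Ω B f) {F : Set Ω} (hF : F ∈ B) : F ≠ Set.univ := by
  intro h
  have h1 := s.bf F hF
  rw [h, Set.ncard_univ, s.card] at h1
  have := s.f1
  omega

theorem closed1 {G Ω : Type} [Group G] [MulAction G Ω] {B : Set (Set Ω)} {f : ℕ} (s : Sit G Ω B f) :
    Closed B 1 := by
  intro S hS
  obtain ⟨a, rfl⟩ := Set.ncard_eq_one.mp hS
  apply Set.Subset.antisymm _ (subset_cl _ _)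
  intro x hx
  by_contra hxa
  have hxa' : x ≠ a := hxa
  obtain ⟨F, hF, haF⟩ := ex_mem_block62 s a
  apply block_ne_univ62 s hF
  rw [Set.eq_univ_iff_forall]
  intro y
  by_cases hy : y = a
  · rw [hy]; exact haF
  · obtain ⟨g, hga, hgx⟩ := s.tr2 a x y hxa' hy
    have h1 : y ∈ g • cl B {a} := hgx ▸ Set.smul_mem_smul_set hx
    rw [smul_cl s, Set.smul_set_singleton, hga] at h1
    exact h1 F hF (by simpa using haF)

theorem closed2 {G Ω : Type} [Group G] [MulAction G Ω] {B : Set (Set Ω)} {f : ℕ} (s : Sit G Ω B f)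
    (h2 : 2 ≤ f) : Closed B 2 := by
  intro S hS
  obtain ⟨a, b, hab, rfl⟩ := Set.ncard_eq_two.mp hS
  haveI := s.fin
  apply Set.Subset.antisymm _ (subset_cl _ _)
  have hca : cl B {a} = {a} := closed1 s {a} (Set.ncard_singleton a)
  obtain ⟨F, hF, haF⟩ := ex_mem_block62 s a
  have haF' : ({a} : Set Ω) ⊆ F := by simpa using haF
  have hb : b ∉ ({a} : Set Ω) := fun h => hab (by simpa using h.symm)
  have ho : orb G {a} b = ({a} : Set Ω)ᶜ := by
    ext y
    constructor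
    · rintro ⟨g, hg, rfl⟩ hy
      have h1 : g • a = a := (mem_fixingSubgroup_iff G).mp hg a rfl
      have h2 : g • b = a := hy
      exact hb (MulAction.injective g (h2.trans h1.symm))
    · intro hy
      obtain ⟨g, hga, hgx⟩ := s.tr2 a b y (Ne.symm hab) hy
      refine ⟨g, (mem_fixingSubgroup_iff G).mpr ?_, hgx⟩
      intro z hz
      rw [Set.mem_singleton_iff.mp hz]
      exact hga
  have hp := part (G := G) s hF haF' hca hb
  rw [ho, w_compl s hF haF', Set.ncard_singleton] at hp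
  have h1 : (cl B (insert b {a}) ∩ ({a} : Set Ω)ᶜ).ncard = 1 := by
    have : (cl B (insert b {a}) ∩ ({a} : Set Ω)ᶜ).ncard ∣ 1 := by exact_mod_cast hp
    exact Nat.dvd_one.mp this
  obtain ⟨z, hz⟩ := Set.ncard_eq_one.mp h1
  have hbz : b = z := by
    have : b ∈ cl B (insert b {a}) ∩ ({a} : Set Ω)ᶜ := ⟨subset_cl _ _ (Set.mem_insert _ _), hb⟩
    rw [hz] at this
    exact this
  intro x hx
  rw [Set.pair_comm] at hx
  by_cases hxa : x = a
  · left; exact hxa
  · right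
    have : x ∈ cl B (insert b {a}) ∩ ({a} : Set Ω)ᶜ := ⟨hx, hxa⟩
    rw [hz] at this
    rw [hbz]
    exact this

end Cfsg.Agent.Lib.Pro
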