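import Cfsg.Agent.Lib.ProA

/-! Piece P1 of S3399 (helper30): partition of an orbit, covers. -/

set_option autoImplicit false
open scoped Pointwise

namespace Cfsg.Agent.Lib.Pro

section P
variable {G Ω : Type} [Group G] [MulAction G Ω] {B : Set (Set Ω)} {f : ℕ}

theorem P1.dvd_of_fibers {Ω β : Type*} [Finite Ω] (Z : Set Ω) (κ : Ω → β) (c : ℕ)
    (h : ∀ y ∈ Z, {y' | y' ∈ Z ∧ κ y' = κ y}.ncard = c) : c ∣ Z.ncard := by
  classical
  have hZ := Z.toFinite
  rw [Set.ncard_eq_toFinset_card Z hZ, Finset.card_eq_sum_card_image κ]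
  apply Finset.dvd_sum
  intro b hb
  obtain ⟨y, hy, rfl⟩ := Finset.mem_image.1 hb
  rw [Set.Finite.mem_toFinset] at hy
  have h1 := h y hy
  apply dvd_of_eq
  rw [← h1, Set.ncard_eq_toFinset_card _ (Set.toFinite _)]
  congr 1
  ext z
  simp

theorem P1.insert_smul {A : Set Ω} {g : G} (hg : g ∈ fixingSubgroup G A) (y : Ω) :
    g • (insert y A) = insert (g • y) A := by
  have h1 : g • A = A := by
    ext a
    rw [Set.mem_smul_set_iff_inv_smul_mem]
    have hg' := (fixingSubgroup G A).inv_mem hg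
    rw [mem_fixingSubgroup_iff] at hg hg'
    constructor
    · intro ha
      have := hg _ ha
      rw [smul_inv_smul] at this
      rw [this]
      exact ha
    · intro ha
      rw [hg' a ha]
      exact ha
  rw [Set.smul_set_insert, h1]

theorem P1.cl_insert_smul (s : Sit G Ω B f) {A : Set Ω} {g : G} (hg : g ∈ fixingSubgroup G A) (y : Ω) :
    g • cl B (insert y A) = cl B (insert (g • y) A) := by
  rw [smul_cl s, P1.insert_smul hg]

theorem P1.ncard_cl_insert (s : Sit G Ω B f) {A : Set Ω} {g : G} (hg : g ∈ fixingSubgroup G A) (y : Ω) :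
    (cl B (insert (g • y) A)).ncard = (cl B (insert y A)).ncard := by
  rw [← P1.cl_insert_smul s hg, Set.ncard_smul_set]

theorem P1.notMem_smul {A : Set Ω} {g : G} (hg : g ∈ fixingSubgroup G A) {y : Ω} (hy : y ∉ A) : g • y ∉ A := by
  intro h
  have hg' := (fixingSubgroup G A).inv_mem hg
  rw [mem_fixingSubgroup_iff] at hg'
  have := hg' _ h
  rw [inv_smul_smul] at this
  rw [this] at hy
  exact hy h

theorem P1.orb_eq {A : Set Ω} {x y : Ω} (h : y ∈ orb G A x) : orb G A y = orb G A x := by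
  obtain ⟨g, hg, rfl⟩ := h
  ext z
  constructor
  · rintro ⟨k, hk, rfl⟩
    exact ⟨k * g, mul_mem hk hg, mul_smul _ _ _⟩
  · rintro ⟨k, hk, rfl⟩
    exact ⟨k * g⁻¹, mul_mem hk (inv_mem hg), by rw [mul_smul, inv_smul_smul]⟩

theorem P1.cl_eq_of_mem (s : Sit G Ω B f) {A : Set Ω} {y y' : Ω} (h1 : y' ∈ orb G A y)
    (h2 : y' ∈ cl B (insert y A)) : cl B (insert y' A) = cl B (insert y A) := by
  have := s.fin
  have hsub : cl B (insert y' A) ⊆ cl B (insert y A) := by
    apply cl_le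
    rw [Set.insert_subset_iff]
    exact ⟨h2, (Set.subset_insert _ _).trans (subset_cl _ _)⟩
  obtain ⟨g, hg, rfl⟩ := h1
  exact Set.eq_of_subset_of_ncard_le hsub (by rw [P1.ncard_cl_insert s hg]) (Set.toFinite _)

theorem part (s : Sit G Ω B f) {A F : Set Ω} (hF : F ∈ B) (h : A ⊆ F) (hc : cl B A = A) {x : Ω} (hx : x ∉ A) :
    ((cl B (insert x A) ∩ orb G A x).ncard : ℤ) ∣ w F (orb G A x) := by
  have := s.fin
  -- sizes of parts
  have hsize : ∀ y ∈ orb G A x, (cl B (insert y A) ∩ orb G A x).ncard = (cl B (insert x A) ∩ orb G A x).ncard := by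
    intro y hy
    obtain ⟨g, hg, rfl⟩ := hy
    have h1 : g • (cl B (insert x A) ∩ orb G A x) = cl B (insert (g • x) A) ∩ orb G A x := by
      rw [Set.smul_set_inter, P1.cl_insert_smul s hg, inv_smul_eq (orb_inv A x) hg]
    rw [← h1, Set.ncard_smul_set]
  have hclass : ∀ y ∈ orb G A x, ∀ y' ∈ orb G A x,
      cl B (insert y' A) = cl B (insert y A) ↔ y' ∈ cl B (insert y A) := by
    intro y hy y' hy'
    constructor
    · intro h1
      rw [← h1]
      exact subset_cl _ _ (Set.mem_insert _ _)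
    · intro h1
      exact P1.cl_eq_of_mem s (by rw [P1.orb_eq hy]; exact hy') h1
  have h1 : (cl B (insert x A) ∩ orb G A x).ncard ∣ (orb G A x).ncard := by
    apply P1.dvd_of_fibers _ (fun y => cl B (insert y A))
    intro y hy
    rw [← hsize y hy]
    congr 1
    ext z
    constructor
    · rintro ⟨hz, hz'⟩
      exact ⟨(hclass y hy z hz).1 hz', hz⟩
    · rintro ⟨hz, hz'⟩
      exact ⟨hz', (hclass y hy z hz').2 hz⟩
  have h2 : (cl B (insert x A) ∩ orb G A x).ncard ∣ (orb G A x ∩ F).ncard := by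
    apply P1.dvd_of_fibers _ (fun y => cl B (insert y A))
    rintro y ⟨hy, hyF⟩
    rw [← hsize y hy]
    congr 1
    ext z
    constructor
    · rintro ⟨⟨hz, -⟩, hz'⟩
      exact ⟨(hclass y hy z hz).1 hz', hz⟩
    · rintro ⟨hz, hz'⟩
      refine ⟨⟨hz', ?_⟩, (hclass y hy z hz').2 hz⟩
      exact cl_sub hF (by rw [Set.insert_subset_iff]; exact ⟨hyF, h⟩) hz
  rw [w]
  exact dvd_sub (Int.natCast_dvd_natCast.2 h1) (Dvd.dvd.mul_left (Int.natCast_dvd_natCast.2 h2) 2)

theorem P1.inv_diff {A Y : Set Ω} (hY : Inv G A Y) (x : Ω) : Inv G A (Y \ orb G A x) := by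
  rintro g hg y ⟨hy, hy'⟩
  refine ⟨hY g hg y hy, fun h => hy' ?_⟩
  have := orb_inv A x g⁻¹ (inv_mem hg) _ h
  rwa [inv_smul_smul] at this

theorem P1.w_diff [Finite Ω] {Y O : Set Ω} (F : Set Ω) (h : O ⊆ Y) : w F Y = w F O + w F (Y \ O) := by
  conv_lhs => rw [← Set.union_diff_cancel h]
  exact w_union F O (Y \ O) Set.disjoint_sdiff_right

theorem P1.w_empty1 (F : Set Ω) : w F ∅ = 0 := by
  rw [w]
  simp

theorem cov_le (s : Sit G Ω B f) {A F D Y : Set Ω} (hA : A.Nonempty) (hF : F ∈ B) (h : A ⊆ F)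
    (hc : cl B A = A) (hD : Cov B A D) (hY : Inv G A Y) (hd : Disjoint Y A) :
    ((D ∩ Y).ncard : ℤ) ≤ w F Y := by
  have := s.fin
  obtain ⟨n, hn⟩ : ∃ n, Y.ncard = n := ⟨_, rfl⟩
  induction n using Nat.strong_induction_on generalizing Y with
  | _ n ih =>
  rcases Y.eq_empty_or_nonempty with rfl | ⟨x, hx⟩
  · rw [P1.w_empty1]
    simp
  · have hO : orb G A x ⊆ Y := orb_sub hY hx
    have hdO : Disjoint (orb G A x) A := hd.mono_left hO
    have h1 : ((D ∩ orb G A x).ncard : ℤ) ≤ w F (orb G A x) := by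
      have hpos := pos_flat s hA hF h hc (orb_inv A x) ⟨x, self_orb A x⟩ hdO
      rcases (D ∩ orb G A x).eq_empty_or_nonempty with he | ⟨y, hyD, hyO⟩
      · rw [he, Set.ncard_empty]
        push_cast
        omega
      · have hyA : y ∉ A := fun h' => (Set.disjoint_left.1 hdO hyO) h'
        have h2 := part s hF h hc hyA
        rw [hD.2 y hyD hyA, P1.orb_eq hyO] at h2
        exact Int.le_of_dvd (by omega) h2
    have hlt : (Y \ orb G A x).ncard < n := by
      rw [← hn]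
      apply Set.ncard_lt_ncard _ (Set.toFinite _)
      refine ⟨Set.diff_subset, fun hsub => ?_⟩
      exact (hsub hx).2 (self_orb A x)
    have h2 := ih _ hlt (P1.inv_diff hY x) (hd.mono_left Set.diff_subset) rfl
    have h3 : ((D ∩ Y).ncard : ℤ) = (D ∩ orb G A x).ncard + (D ∩ (Y \ orb G A x)).ncard := by
      rw [← Nat.cast_add, ← Set.ncard_union_eq (by
        rw [Set.disjoint_left]
        rintro z ⟨-, hz⟩ ⟨-, hz'⟩
        exact hz'.2 hz) (Set.toFinite _) (Set.toFinite _), ← Set.inter_union_distrib_left, Set.union_diff_cancel hO]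
    rw [h3, P1.w_diff F hO]
    omega

theorem P1.compl_inv (A : Set Ω) : Inv G A Aᶜ := fun _ hg _ hy => P1.notMem_smul hg hy

theorem P1.ncard_cov [Finite Ω] {A D : Set Ω} (h : A ⊆ D) : D.ncard = A.ncard + (D ∩ Aᶜ).ncard := by
  rw [← Set.ncard_union_eq (by
    rw [Set.disjoint_left]
    rintro z hz ⟨-, hz'⟩
    exact hz' hz) (Set.toFinite _) (Set.toFinite _)]
  congr 1
  ext z
  constructor
  · intro hz
    by_cases hzA : z ∈ A
    · exact Or.inl hzA
    · exact Or.inr ⟨hz, hzA⟩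
  · rintro (hz | hz)
    · exact h hz
    · exact hz.1

theorem cov_card (s : Sit G Ω B f) {A F D : Set Ω} (hA : A.Nonempty) (hF : F ∈ B) (h : A ⊆ F)
    (hc : cl B A = A) (hD : Cov B A D) : D.ncard ≤ 2 * A.ncard := by
  have := s.fin
  have h1 := cov_le s hA hF h hc hD (P1.compl_inv A) disjoint_compl_left
  rw [w_compl s hF h] at h1
  have h2 := P1.ncard_cov hD.1
  omega

/-- if equality holds, `D` meets every orbit, so closures of all `insert y A` are translates of `D` -/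
theorem cov_eq (s : Sit G Ω B f) {A F D : Set Ω} (hA : A.Nonempty) (hF : F ∈ B) (h : A ⊆ F)
    (hc : cl B A = A) (hD : Cov B A D) (he : D.ncard = 2 * A.ncard) (y : Ω) (hy : y ∉ A) :
    Cov B A (cl B (insert y A)) ∧ (cl B (insert y A)).ncard = 2 * A.ncard := by
  have := s.fin
  have hmeet : ∃ x ∈ D, x ∈ orb G A y := by
    by_contra hcon
    push Not at hcon
    have hO : orb G A y ⊆ Aᶜ := orb_sub (P1.compl_inv A) hy
    have h1 := cov_le s hA hF h hc hD (P1.inv_diff (P1.compl_inv A) y) (disjoint_compl_left.mono_left Set.diff_subset)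
    have h2 : D ∩ (Aᶜ \ orb G A y) = D ∩ Aᶜ := by
      ext z
      constructor
      · rintro ⟨hz, hz', -⟩
        exact ⟨hz, hz'⟩
      · rintro ⟨hz, hz'⟩
        exact ⟨hz, hz', hcon z hz⟩
    have h3 := P1.w_diff F hO
    rw [w_compl s hF h] at h3
    have h4 := pos_flat s hA hF h hc (orb_inv A y) ⟨y, self_orb A y⟩ (disjoint_compl_left.mono_left hO)
    have h5 := P1.ncard_cov hD.1
    rw [h2] at h1
    omega
  obtain ⟨x, hxD, g, hg, rfl⟩ := hmeet
  have hxA : g • y ∉ A := P1.notMem_smul hg hy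
  have h1 : g • cl B (insert y A) = D := by rw [P1.cl_insert_smul s hg, hD.2 _ hxD hxA]
  refine ⟨⟨(Set.subset_insert _ _).trans (subset_cl _ _), ?_⟩, ?_⟩
  · intro z hz hzA
    have h2 : g • z ∈ D := by
      rw [← h1]
      exact Set.smul_mem_smul_set hz
    have h3 := hD.2 _ h2 (P1.notMem_smul hg hzA)
    rw [← P1.cl_insert_smul s hg, ← h1] at h3
    exact (MulAction.injective g) h3
  · rw [← Set.ncard_smul_set g, h1, he]

/-- existence of a cover inside a bigger flat (or everything) -/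
theorem ex_cov [Finite Ω] {A D : Set Ω} (hc : cl B A = A) (hD : cl B D = D) (h : A ⊂ D) :
    ∃ E, Cov B A E ∧ A ⊂ E ∧ E ⊆ D ∧ cl B E = E := by
  obtain ⟨E, ⟨hAE, hED, hE⟩, hmin⟩ := Set.exists_min_image {E : Set Ω | A ⊂ E ∧ E ⊆ D ∧ cl B E = E} Set.ncard
    (Set.toFinite _) ⟨D, h, subset_rfl, hD⟩
  refine ⟨E, ⟨hAE.1, fun x hx hxA => ?_⟩, hAE, hED, hE⟩
  have h1 : cl B (insert x A) ⊆ E := by
    rw [← hE]
    apply cl_le
    rw [hE, Set.insert_subset_iff]
    exact ⟨hx, hAE.1⟩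
  have h2 := hmin (cl B (insert x A)) ⟨⟨(Set.subset_insert _ _).trans (subset_cl _ _), fun hsub =>
    hxA (hsub (subset_cl _ _ (Set.mem_insert _ _)))⟩, h1.trans hED, cl_cl _ _⟩
  exact Set.eq_of_subset_of_ncard_le h1 h2 (Set.toFinite _)

end P

end Cfsg.Agent.Lib.Pro
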