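import Cfsg.Agent.Lib.Pro0

/-! S3399, piece P2: `star`, `cov_one`. -/

set_option autoImplicit false

open scoped Pointwise

namespace Cfsg.Agent.Lib.Pro

section P2
variable {G Ω : Type} [Group G] [MulAction G Ω] {B : Set (Set Ω)} {f : ℕ}

theorem p2_fix {A : Set Ω} {g : G} (hg : g ∈ fixingSubgroup G A) : g • A = A := by
  ext z
  rw [Set.mem_smul_set_iff_inv_smul_mem]
  rw [mem_fixingSubgroup_iff] at hg
  constructor
  · intro hz
    have := hg _ hz
    rw [smul_inv_smul] at this
    rw [this]; exact hz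
  · intro hz
    have h1 := hg z hz
    have : g⁻¹ • z = z := by rw [inv_smul_eq_iff, h1]
    rw [this]; exact hz

theorem p2_orb {A : Set Ω} {x : Ω} {g : G} (hg : g ∈ fixingSubgroup G A) : g • orb G A x = orb G A x := by
  ext z
  rw [Set.mem_smul_set_iff_inv_smul_mem]
  constructor
  · rintro ⟨k, hk, hkz⟩
    exact ⟨g * k, mul_mem hg hk, by rw [mul_smul, hkz, smul_inv_smul]⟩
  · rintro ⟨k, hk, hkz⟩
    exact ⟨g⁻¹ * k, mul_mem (inv_mem hg) hk, by rw [mul_smul, hkz]⟩

theorem p2_cl (s : Sit G Ω B f) {A : Set Ω} {x : Ω} {g : G} (hg : g ∈ fixingSubgroup G A) :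
    cl B (insert (g • x) A) = g • cl B (insert x A) := by
  rw [smul_cl s, Set.smul_set_insert, p2_fix hg]

theorem p2_ncard (g : G) (Y : Set Ω) : (g • Y).ncard = Y.ncard := by
  rw [show g • Y = (fun y => g • y) '' Y from rfl]
  exact Set.ncard_image_of_injective _ (MulAction.injective g)

theorem p2_const (s : Sit G Ω B f) {A F F' : Set Ω} {x : Ω} (hF : F ∈ B) (hF' : F' ∈ B) (h : A ⊆ F)
    (h' : A ⊆ F') : w F (orb G A x) = w F' (orb G A x) := by
  obtain ⟨g, hg, rfl⟩ := s.conj A F hF F' hF' h h'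
  unfold w
  have : orb G A x ∩ g • F = g • (orb G A x ∩ F) := by
    rw [Set.smul_set_inter, p2_orb hg]
  rw [this, p2_ncard]

theorem p2_self (A : Set Ω) (x : Ω) : x ∈ orb G A x := ⟨1, one_mem _, one_smul _ _⟩

theorem p2_inv (A : Set Ω) (x : Ω) : Inv G A (orb G A x) := by
  rintro g hg y ⟨k, hk, rfl⟩
  exact ⟨g * k, mul_mem hg hk, mul_smul _ _ _⟩

theorem p2_disj {A : Set Ω} {x : Ω} (hx : x ∉ A) : Disjoint (orb G A x) A := by
  rw [Set.disjoint_left]
  rintro y ⟨k, hk, rfl⟩ hy
  apply hx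
  rw [mem_fixingSubgroup_iff] at hk
  have h1 := hk _ hy
  have : k • x = x := by
    have := MulAction.injective k h1
    rw [this]
  rwa [this] at hy

theorem star (s : Sit G Ω B f) {A F : Set Ω} (hA : A.Nonempty) (hF : F ∈ B) (h : A ⊆ F)
    (hc : cl B A = A) {x y : Ω} (hx : x ∉ A) (hy : y ∉ A) (hyx : y ∈ cl B (insert x A))
    (hxy : x ∉ cl B (insert y A)) (hne : cl B (insert x A) ≠ Set.univ) : 3 ≤ w F (orb G A x) := by
  classical
  have hfin := s.fin
  have : Fintype Ω := Fintype.ofFinite Ω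
  have nc : ∀ S : Set Ω, S.ncard = (Finset.univ.filter (· ∈ S)).card := by
    intro S
    rw [← Set.ncard_coe_finset]
    congr 1
    ext z
    simp
  -- a block containing `C`
  obtain ⟨F₁, hF₁, hF₁x⟩ : ∃ F₁ ∈ B, insert x A ⊆ F₁ := by
    by_contra hcon
    push Not at hcon
    apply hne
    ext z
    simp only [Set.mem_univ, iff_true]
    intro F' hF' h'
    exact absurd h' (hcon F' hF')
  have hAF : A ⊆ F₁ := (Set.subset_insert _ _).trans hF₁x
  have hxF : x ∈ F₁ := hF₁x (Set.mem_insert _ _)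
  rw [p2_const s hF hF₁ h hAF]
  set O : Finset Ω := Finset.univ.filter (· ∈ orb G A x) with hO
  set O' : Finset Ω := Finset.univ.filter (· ∈ orb G A y) with hO'
  have mO : ∀ v, v ∈ O ↔ v ∈ orb G A x := by intro v; simp [hO]
  have mO' : ∀ v, v ∈ O' ↔ v ∈ orb G A y := by intro v; simp [hO']
  set r : Ω → Ω → Prop := fun v u => u ∈ cl B (insert v A) with hr
  set d := (cl B (insert x A) ∩ orb G A y).ncard with hd
  set Γ : Ω → Set Ω := fun u => {v | v ∈ orb G A x ∧ u ∈ cl B (insert v A)} with hΓ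
  set k := (Γ y).ncard with hk
  have hΓg : ∀ g ∈ fixingSubgroup G A, Γ (g • y) = g • Γ y := by
    intro g hg
    ext v
    rw [Set.mem_smul_set_iff_inv_smul_mem]
    simp only [hΓ, Set.mem_setOf_eq]
    have e1 : v ∈ orb G A x ↔ g⁻¹ • v ∈ orb G A x := by
      rw [← Set.mem_smul_set_iff_inv_smul_mem, p2_orb hg]
    have e2 : g • y ∈ cl B (insert v A) ↔ y ∈ cl B (insert (g⁻¹ • v) A) := by
      rw [p2_cl s (inv_mem hg), Set.mem_inv_smul_set_iff]
    rw [e1, e2]
  have hkc : ∀ u ∈ orb G A y, (Γ u).ncard = k := by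
    rintro u ⟨g, hg, rfl⟩
    rw [hΓg g hg, p2_ncard]
  have hdc : ∀ v ∈ orb G A x, (cl B (insert v A) ∩ orb G A y).ncard = d := by
    rintro v ⟨g, hg, rfl⟩
    rw [p2_cl s hg]
    have : g • cl B (insert x A) ∩ orb G A y = g • (cl B (insert x A) ∩ orb G A y) := by
      rw [Set.smul_set_inter, p2_orb hg]
    rw [this, p2_ncard]
  -- positivity for `Γ u`
  have hpos : ∀ u ∈ orb G A y, u ∈ F₁ → 2 * (Γ u ∩ F₁).ncard + 1 ≤ k := by
    intro u hu huF
    have h1 : 1 ≤ w F₁ (Γ u) := by
      apply s.pos (insert u A) (Set.insert_nonempty _ _) F₁ hF₁ (Set.insert_subset huF hAF)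
      · obtain ⟨g, hg, rfl⟩ := hu
        refine ⟨g • x, ⟨g, hg, rfl⟩, ?_⟩
        rw [p2_cl s hg]
        exact Set.smul_mem_smul_set hyx
      · intro g hg v hv
        have hgA : g ∈ fixingSubgroup G A := by
          rw [mem_fixingSubgroup_iff] at hg ⊢
          exact fun a ha => hg a (Set.mem_insert_of_mem _ ha)
        have hgu : g • u = u := by
          rw [mem_fixingSubgroup_iff] at hg
          exact hg u (Set.mem_insert _ _)
        refine ⟨p2_inv A x g hgA v hv.1, ?_⟩
        rw [p2_cl s hgA, ← hgu]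
        exact Set.smul_mem_smul_set hv.2
      · rw [Set.disjoint_left]
        rintro v hv hv'
        have e1 : cl B (insert v A) ⊆ cl B (insert u A) :=
          cl_le (Set.insert_subset hv' ((Set.subset_insert _ _).trans (subset_cl _ _)))
        have e2 : cl B (insert u A) ⊆ cl B (insert v A) :=
          cl_le (Set.insert_subset hv.2 ((Set.subset_insert _ _).trans (subset_cl _ _)))
        have e3 := Set.Subset.antisymm e1 e2
        obtain ⟨g, hg, rfl⟩ := hu
        obtain ⟨⟨g', hg', rfl⟩, -⟩ := hv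
        rw [p2_cl s hg, p2_cl s hg'] at e3
        have e4 : (cl B (insert x A)).ncard = (cl B (insert y A)).ncard := by
          rw [← p2_ncard g' (cl B (insert x A)), ← p2_ncard g (cl B (insert y A)), e3]
        have e5 : cl B (insert y A) ⊆ cl B (insert x A) :=
          cl_le (Set.insert_subset hyx ((Set.subset_insert _ _).trans (subset_cl _ _)))
        have e6 : cl B (insert y A) = cl B (insert x A) :=
          Set.eq_of_subset_of_ncard_le e5 e4.le (Set.toFinite _)
        apply hxy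
        rw [e6]
        exact subset_cl _ _ (Set.mem_insert _ _)
    unfold w at h1
    rw [hkc u hu] at h1
    omega
  -- weight of the orbit of `y`
  have hwy : 2 * (orb G A y ∩ F₁).ncard + 1 ≤ (orb G A y).ncard := by
    have := s.pos A hA F₁ hF₁ hAF (orb G A y) ⟨y, p2_self A y⟩ (p2_inv A y) (by
      rw [hc]; exact p2_disj hy)
    unfold w at this
    omega
  -- double counting
  have dc1 : d * (orb G A x).ncard = k * (orb G A y).ncard := by
    have := Finset.sum_card_bipartiteAbove_eq_sum_card_bipartiteBelow (s := O) (t := O') r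
    have s1 : ∑ v ∈ O, (Finset.bipartiteAbove r O' v).card = O.card * d := by
      rw [Finset.sum_const_nat]
      intro v hv
      rw [← hdc v ((mO v).1 hv), nc]
      congr 1
      ext u
      simp [Finset.bipartiteAbove, hO', hr, and_comm]
    have s2 : ∑ u ∈ O', (Finset.bipartiteBelow r O u).card = O'.card * k := by
      rw [Finset.sum_const_nat]
      intro u hu
      rw [← hkc u ((mO' u).1 hu), nc]
      congr 1
      ext v
      simp [Finset.bipartiteBelow, hO, hr, hΓ]
    rw [s1, s2] at this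
    rw [nc (orb G A x), nc (orb G A y), mul_comm d, mul_comm k]
    exact this
  have dc2 : 4 * (d * (orb G A x ∩ F₁).ncard) ≤ (k - 1) * ((orb G A y).ncard - 1) := by
    set OF : Finset Ω := Finset.univ.filter (· ∈ orb G A x ∩ F₁) with hOF
    set OF' : Finset Ω := Finset.univ.filter (· ∈ orb G A y ∩ F₁) with hOF'
    have := Finset.sum_card_bipartiteAbove_eq_sum_card_bipartiteBelow (s := OF) (t := OF') r
    have s1 : ∑ v ∈ OF, (Finset.bipartiteAbove r OF' v).card = OF.card * d := by
      rw [Finset.sum_const_nat]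
      intro v hv
      have hv' : v ∈ orb G A x ∩ F₁ := by simpa [hOF] using hv
      rw [← hdc v hv'.1, nc]
      congr 1
      ext u
      have hsub : cl B (insert v A) ⊆ F₁ := cl_sub hF₁ (Set.insert_subset hv'.2 hAF)
      simp only [Finset.bipartiteAbove, hOF', hr, Finset.mem_filter, Finset.mem_univ, true_and,
        Set.mem_inter_iff]
      constructor
      · rintro ⟨⟨a, _⟩, c⟩; exact ⟨c, a⟩
      · rintro ⟨c, a⟩; exact ⟨⟨a, hsub c⟩, c⟩
    have s2 : ∑ u ∈ OF', 2 * (Finset.bipartiteBelow r OF u).card ≤ ∑ _u ∈ OF', (k - 1) := by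
      apply Finset.sum_le_sum
      intro u hu
      have hu' : u ∈ orb G A y ∩ F₁ := by simpa [hOF'] using hu
      have h1 := hpos u hu'.1 hu'.2
      have h2 : (Finset.bipartiteBelow r OF u).card = (Γ u ∩ F₁).ncard := by
        rw [nc]
        congr 1
        ext v
        simp only [Finset.bipartiteBelow, hOF, hr, hΓ, Finset.mem_filter, Finset.mem_univ, true_and,
          Set.mem_inter_iff, Set.mem_setOf_eq]
        tauto
      omega
    rw [← Finset.mul_sum, Finset.sum_const, smul_eq_mul] at s2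
    have e1 : OF.card = (orb G A x ∩ F₁).ncard := by
      rw [nc (orb G A x ∩ F₁), hOF]
      congr 1
      ext v
      simp
    have e2 : OF'.card = (orb G A y ∩ F₁).ncard := by
      rw [nc (orb G A y ∩ F₁), hOF']
      congr 1
      ext v
      simp
    rw [s1] at this
    rw [← this, e1, e2] at s2
    have h3 : 2 * (orb G A y ∩ F₁).ncard ≤ (orb G A y).ncard - 1 := by omega
    calc 4 * (d * (orb G A x ∩ F₁).ncard) = 2 * (2 * ((orb G A x ∩ F₁).ncard * d)) := by ring
      _ ≤ 2 * ((orb G A y ∩ F₁).ncard * (k - 1)) := Nat.mul_le_mul_left _ s2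
      _ = (2 * (orb G A y ∩ F₁).ncard) * (k - 1) := by ring
      _ ≤ ((orb G A y).ncard - 1) * (k - 1) := Nat.mul_le_mul_right _ h3
      _ = _ := by ring
  have hk1 : 1 ≤ k := by
    have : (Γ y).Nonempty := ⟨x, p2_self A x, hyx⟩
    exact (Set.ncard_pos (Set.toFinite _)).2 this
  have hO1 : 1 ≤ (orb G A y).ncard := (Set.ncard_pos (Set.toFinite _)).2 ⟨y, p2_self A y⟩
  have hxO : 1 ≤ (orb G A x ∩ F₁).ncard := (Set.ncard_pos (Set.toFinite _)).2 ⟨x, p2_self A x, hxF⟩
  have hlt : (k - 1) * ((orb G A y).ncard - 1) < k * (orb G A y).ncard := by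
    calc (k - 1) * ((orb G A y).ncard - 1) ≤ (k - 1) * (orb G A y).ncard :=
          Nat.mul_le_mul_left _ (Nat.sub_le _ _)
      _ < k * (orb G A y).ncard := Nat.mul_lt_mul_of_pos_right (by omega) hO1
  have h4 : 4 * (orb G A x ∩ F₁).ncard < (orb G A x).ncard := by
    have : d * (4 * (orb G A x ∩ F₁).ncard) < d * (orb G A x).ncard := by
      rw [dc1]
      calc d * (4 * (orb G A x ∩ F₁).ncard) = 4 * (d * (orb G A x ∩ F₁).ncard) := by ring
        _ ≤ _ := dc2
        _ < _ := hlt
    exact lt_of_mul_lt_mul_left this (Nat.zero_le _)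
  unfold w
  omega

/-- the classes of `cl (insert · A)` on an orbit have equal size -/
theorem p2_part (s : Sit G Ω B f) {A : Set Ω} {x : Ω} (Z : Set Ω) (hZ : Z ⊆ orb G A x)
    (hcl : ∀ v ∈ Z, cl B (insert v A) ∩ orb G A x ⊆ Z) :
    (cl B (insert x A) ∩ orb G A x).ncard ∣ Z.ncard := by
  classical
  have hfin := s.fin
  have : Fintype Ω := Fintype.ofFinite Ω
  have nc : ∀ S : Set Ω, S.ncard = (Finset.univ.filter (· ∈ S)).card := by
    intro S
    rw [← Set.ncard_coe_finset]
    congr 1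
    ext z
    simp
  set c := (cl B (insert x A) ∩ orb G A x).ncard with hcdef
  have hcc : ∀ v ∈ orb G A x, (cl B (insert v A) ∩ orb G A x).ncard = c := by
    rintro v ⟨g, hg, rfl⟩
    rw [p2_cl s hg]
    have : g • cl B (insert x A) ∩ orb G A x = g • (cl B (insert x A) ∩ orb G A x) := by
      rw [Set.smul_set_inter, p2_orb hg]
    rw [this, p2_ncard]
  have hsz : ∀ v ∈ orb G A x, (cl B (insert v A)).ncard = (cl B (insert x A)).ncard := by
    rintro v ⟨g, hg, rfl⟩
    rw [p2_cl s hg, p2_ncard]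
  have hcls : ∀ u ∈ orb G A x, ∀ v ∈ orb G A x, cl B (insert v A) = cl B (insert u A) ↔
      v ∈ cl B (insert u A) := by
    intro u hu v hv
    constructor
    · intro h; rw [← h]; exact subset_cl _ _ (Set.mem_insert _ _)
    · intro h
      apply Set.eq_of_subset_of_ncard_le _ _ (Set.toFinite _)
      · exact cl_le (Set.insert_subset h ((Set.subset_insert _ _).trans (subset_cl _ _)))
      · rw [hsz u hu, hsz v hv]
  rw [nc Z]
  rw [Finset.card_eq_sum_card_image (fun v => cl B (insert v A)) (Finset.univ.filter (· ∈ Z))]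
  apply Finset.dvd_sum
  intro D hD
  rw [Finset.mem_image] at hD
  obtain ⟨u, hu, rfl⟩ := hD
  have huZ : u ∈ Z := by simpa using hu
  have : (Finset.filter (fun v => cl B (insert v A) = cl B (insert u A))
      (Finset.univ.filter (· ∈ Z))).card = c := by
    rw [← hcc u (hZ huZ), nc]
    congr 1
    ext v
    simp only [Finset.mem_filter, Finset.mem_univ, true_and, Set.mem_inter_iff]
    constructor
    · rintro ⟨hv, he⟩
      exact ⟨(hcls u (hZ huZ) v (hZ hv)).1 he, hZ hv⟩
    · rintro ⟨hv, ho⟩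
      exact ⟨hcl u huZ ⟨hv, ho⟩, (hcls u (hZ huZ) v ho).2 hv⟩
  rw [this]

theorem cov_one (s : Sit G Ω B f) {A F : Set Ω} (hA : A.Nonempty) (hF : F ∈ B) (h : A ⊆ F)
    (hc : cl B A = A) {x : Ω} (hx : x ∉ A) (hw : w F (orb G A x) = 1) :
    Cov B A (cl B (insert x A)) ∧ cl B (insert x A) ≠ Set.univ ∧ cl B (insert x A) ∩ orb G A x = {x} := by
  have hfin := s.fin
  -- a block containing `x` and `A`
  have hOF : (orb G A x ∩ F).Nonempty := by
    by_contra hemp
    rw [Set.not_nonempty_iff_eq_empty] at hemp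
    have h1 : (orb G A x).ncard = 1 := by
      unfold w at hw
      rw [hemp, Set.ncard_empty] at hw
      omega
    obtain ⟨z, hz⟩ := Set.ncard_eq_one.1 h1
    have hxz : x = z := by
      have := p2_self (G := G) A x
      rw [hz] at this
      exact this
    have h2 : x ∉ cl B A := by rw [hc]; exact hx
    have : ∃ F₂ ∈ B, A ⊆ F₂ ∧ x ∉ F₂ := by
      by_contra hcon
      push Not at hcon
      exact h2 (fun F' hF' h' => hcon F' hF' h')
    obtain ⟨F₂, hF₂, hAF₂, hxF₂⟩ := this
    obtain ⟨g, hg, hgx⟩ := s.mv F₂ hF₂ x hxF₂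
    apply hgx
    have hgA : g ∈ fixingSubgroup G A := by
      rw [mem_fixingSubgroup_iff] at hg ⊢
      exact fun a ha => hg a (hAF₂ ha)
    have : g • x ∈ orb G A x := ⟨g, hgA, rfl⟩
    rw [hz] at this
    rw [hxz] at this ⊢
    exact this
  obtain ⟨u, ⟨g, hg, rfl⟩, huF⟩ := hOF
  have hF₁ : g⁻¹ • F ∈ B := s.inv F hF _
  have hxF₁ : x ∈ g⁻¹ • F := by rw [Set.mem_inv_smul_set_iff]; exact huF
  have hAF₁ : A ⊆ g⁻¹ • F := by
    intro a ha
    rw [Set.mem_inv_smul_set_iff]
    rw [mem_fixingSubgroup_iff] at hg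
    rw [hg a ha]
    exact h ha
  have hsub : cl B (insert x A) ⊆ g⁻¹ • F := cl_sub hF₁ (Set.insert_subset hxF₁ hAF₁)
  have hne : cl B (insert x A) ≠ Set.univ := by
    intro he
    have h1 : (Set.univ : Set Ω).ncard ≤ (g⁻¹ • F).ncard := by
      rw [← he]; exact Set.ncard_le_ncard hsub (Set.toFinite _)
    rw [s.bf _ hF₁, Set.ncard_univ, s.card] at h1
    have := s.f1
    omega
  refine ⟨⟨(Set.subset_insert _ _).trans (subset_cl _ _), ?_⟩, hne, ?_⟩
  · intro z hz hzA
    by_contra hcon
    have hsub' : cl B (insert z A) ⊆ cl B (insert x A) :=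
      cl_le (Set.insert_subset hz ((Set.subset_insert _ _).trans (subset_cl _ _)))
    have hxz : x ∉ cl B (insert z A) := by
      intro hx'
      apply hcon
      apply Set.Subset.antisymm hsub'
      exact cl_le (Set.insert_subset hx' ((Set.subset_insert _ _).trans (subset_cl _ _)))
    have := star s hA hF h hc hx hzA hz hxz hne
    omega
  · -- divisibility
    have h1 : (cl B (insert x A) ∩ orb G A x).ncard ∣ (orb G A x).ncard :=
      p2_part s _ (fun _ hv => hv) (fun _ _ _ hu => hu.2)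
    have h2 : (cl B (insert x A) ∩ orb G A x).ncard ∣ (orb G A x ∩ F).ncard := by
      apply p2_part s _ Set.inter_subset_left
      rintro v ⟨_, hvF⟩ u ⟨hu, huo⟩
      exact ⟨huo, cl_sub hF (Set.insert_subset hvF h) hu⟩
    have h3 : (((cl B (insert x A) ∩ orb G A x).ncard : ℕ) : ℤ) ∣ 1 := by
      rw [← hw]
      unfold w
      apply dvd_sub
      · exact_mod_cast h1
      · exact Dvd.dvd.mul_left (by exact_mod_cast h2) _
    have h4 : (cl B (insert x A) ∩ orb G A x).ncard = 1 := by
      have := Int.natCast_dvd_natCast.1 (by simpa using h3 : (((cl B (insert x A) ∩ orb G A x).ncard : ℕ) : ℤ) ∣ ((1 : ℕ) : ℤ))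
      exact Nat.dvd_one.1 this
    obtain ⟨z, hz⟩ := Set.ncard_eq_one.1 h4
    have hxm : x ∈ cl B (insert x A) ∩ orb G A x := ⟨subset_cl _ _ (Set.mem_insert _ _), p2_self A x⟩
    rw [hz] at hxm ⊢
    rw [show x = z from hxm]

end P2

end Cfsg.Agent.Lib.Pro
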