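import Cfsg.Agent.Lib.Pro0

/-! S3399, piece Q (helper90): no quadruple systems. -/

set_option autoImplicit false
set_option linter.style.haveILetI false

open scoped Pointwise

namespace Cfsg.Agent.Lib.Pro

section
variable {G Ω : Type} [Group G] [MulAction G Ω] {B : Set (Set Ω)} {f : ℕ}

theorem q_ncard3 {a b c : Ω} (h1 : a ≠ b) (h2 : a ≠ c) (h3 : b ≠ c) : ({a, b, c} : Set Ω).ncard = 3 :=
  Set.ncard_eq_three.2 ⟨a, b, c, h1, h2, h3, rfl⟩

/-- the fourth point -/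
theorem q_four (s : Sit G Ω B f) (h : ∀ S : Set Ω, S.ncard = 3 → (cl B S).ncard = 4)
    {a b c : Ω} (h1 : a ≠ b) (h2 : a ≠ c) (h3 : b ≠ c) :
    ∃ d, d ≠ a ∧ d ≠ b ∧ d ≠ c ∧ cl B {a, b, c} = {a, b, c, d} := by
  haveI := s.fin
  have hS := q_ncard3 h1 h2 h3
  have hC := h _ hS
  have hsub := subset_cl B ({a, b, c} : Set Ω)
  have hd : (cl B {a, b, c} \ {a, b, c}).ncard = 1 := by
    have := Set.ncard_sdiff_add_ncard_of_subset hsub
    omega
  obtain ⟨d, hd⟩ := Set.ncard_eq_one.1 hd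
  have hd' : d ∈ cl B {a, b, c} \ {a, b, c} := by rw [hd]; rfl
  have hnd := hd'.2
  simp only [Set.mem_insert_iff, Set.mem_singleton_iff, not_or] at hnd
  refine ⟨d, hnd.1, hnd.2.1, hnd.2.2, ?_⟩
  apply Set.Subset.antisymm
  · intro z hz
    by_cases hz' : z ∈ ({a, b, c} : Set Ω)
    · simp only [Set.mem_insert_iff, Set.mem_singleton_iff] at hz' ⊢
      tauto
    · have : z ∈ cl B {a, b, c} \ {a, b, c} := ⟨hz, hz'⟩
      rw [hd] at this
      have : z = d := this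
      rw [this]; simp
  · rintro z hz
    simp only [Set.mem_insert_iff, Set.mem_singleton_iff] at hz
    rcases hz with rfl | rfl | rfl | rfl
    · exact hsub (by simp)
    · exact hsub (by simp)
    · exact hsub (by simp)
    · exact hd'.1

theorem q_cl_eq (s : Sit G Ω B f) (h : ∀ S : Set Ω, S.ncard = 3 → (cl B S).ncard = 4)
    {S S' : Set Ω} (hS : S.ncard = 3) (hS' : S'.ncard = 3) (hs : S ⊆ cl B S') : cl B S = cl B S' := by
  haveI := s.fin
  exact Set.eq_of_subset_of_ncard_le (cl_le hs) (by rw [h _ hS, h _ hS'])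

/-- the involution attached to `a`, `x` -/
theorem q_inv (s : Sit G Ω B f) (h : ∀ S : Set Ω, S.ncard = 3 → (cl B S).ncard = 4) {a x : Ω} (hax : a ≠ x) :
    ∃ i : Ω → Ω, (∀ y, y ≠ a → y ≠ x → i y ≠ a ∧ i y ≠ x ∧ i y ≠ y ∧ cl B {a, x, y} = {a, x, y, i y}) ∧
      (∀ y, y ≠ a → y ≠ x → i (i y) = y) := by
  classical
  have h1 : ∀ y, ∃ d, y ≠ a → y ≠ x → d ≠ a ∧ d ≠ x ∧ d ≠ y ∧ cl B {a, x, y} = {a, x, y, d} := by
    intro y
    by_cases hy : y ≠ a ∧ y ≠ x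
    · obtain ⟨d, hd⟩ := q_four s h hax (Ne.symm hy.1) (Ne.symm hy.2)
      exact ⟨d, fun _ _ => hd⟩
    · exact ⟨y, fun h1 h2 => absurd ⟨h1, h2⟩ hy⟩
  choose i hi using h1
  refine ⟨i, hi, fun y hya hyx => ?_⟩
  obtain ⟨e1, e2, e3, e4⟩ := hi y hya hyx
  obtain ⟨f1, f2, f3, f4⟩ := hi (i y) e1 e2
  have h2 : cl B {a, x, i y} = cl B {a, x, y} := by
    apply q_cl_eq s h (q_ncard3 hax (Ne.symm e1) (Ne.symm e2)) (q_ncard3 hax (Ne.symm hya) (Ne.symm hyx))
    rw [e4]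
    rintro z hz
    simp only [Set.mem_insert_iff, Set.mem_singleton_iff] at hz ⊢
    tauto
  have h3 : y ∈ ({a, x, i y, i (i y)} : Set Ω) := by
    rw [← f4, h2, e4]; simp
  simp only [Set.mem_insert_iff, Set.mem_singleton_iff] at h3
  rcases h3 with h3 | h3 | h3 | h3
  · exact absurd h3 hya
  · exact absurd h3 hyx
  · exact absurd h3.symm e3
  · exact h3.symm

theorem q_compl (s : Sit G Ω B f) {F : Set Ω} (hF : F ∈ B) : Fᶜ.ncard = f := by
  haveI := s.fin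
  have h1 := Set.ncard_add_ncard_compl F
  rw [s.card, s.bf F hF] at h1
  omega

/-- step (1) -/
theorem q_one (s : Sit G Ω B f) (h : ∀ S : Set Ω, S.ncard = 3 → (cl B S).ncard = 4) {a x : Ω} (hax : a ≠ x)
    (i : Ω → Ω) (hi : ∀ y, y ≠ a → y ≠ x → i y ≠ a ∧ i y ≠ x ∧ i y ≠ y ∧ cl B {a, x, y} = {a, x, y, i y})
    (hii : ∀ y, y ≠ a → y ≠ x → i (i y) = y) {F : Set Ω} (hF : F ∈ B) (ha : a ∈ F) (hx : x ∉ F)
    (y : Ω) (hya : y ≠ a) (hyx : y ≠ x) : y ∈ F ↔ i y ∉ F := by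
  haveI := s.fin
  have h1 : ∀ y, y ≠ a → y ≠ x → y ∈ F → i y ∉ F := by
    intro y hya hyx hy hiy
    obtain ⟨e1, e2, e3, e4⟩ := hi y hya hyx
    have h2 : cl B {a, y, i y} = cl B {a, x, y} := by
      apply q_cl_eq s h (q_ncard3 (Ne.symm hya) (Ne.symm e1) (Ne.symm e3)) (q_ncard3 hax (Ne.symm hya) (Ne.symm hyx))
      rw [e4]
      rintro z hz
      simp only [Set.mem_insert_iff, Set.mem_singleton_iff] at hz ⊢
      tauto
    have h3 : x ∈ cl B {a, y, i y} := by rw [h2, e4]; simp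
    refine hx (h3 F hF ?_)
    rintro z hz
    simp only [Set.mem_insert_iff, Set.mem_singleton_iff] at hz
    rcases hz with rfl | rfl | rfl
    · exact ha
    · exact hy
    · exact hiy
  refine ⟨h1 y hya hyx, fun hiy => ?_⟩
  by_contra hy
  have h2 : i '' (F \ {a}) ⊆ Fᶜ \ {x} := by
    rintro _ ⟨z, ⟨hz, hza⟩, rfl⟩
    have hzx : z ≠ x := fun hc => hx (hc ▸ hz)
    exact ⟨h1 z hza hzx hz, (hi z hza hzx).2.1⟩
  have hinj : Set.InjOn i (F \ {a}) := by
    rintro z ⟨hz, hza⟩ z' ⟨hz', hza'⟩ he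
    have hzx : z ≠ x := fun hc => hx (hc ▸ hz)
    have hzx' : z' ≠ x := fun hc => hx (hc ▸ hz')
    rw [← hii z hza hzx, he, hii z' hza' hzx']
  have h3 : i '' (F \ {a}) = Fᶜ \ {x} := by
    apply Set.eq_of_subset_of_ncard_le h2
    rw [Set.ncard_image_of_injOn hinj, Set.ncard_sdiff_singleton_of_mem ha, Set.ncard_sdiff_singleton_of_mem (show x ∈ Fᶜ from hx),
      q_compl s hF, s.bf F hF]
  have h4 : y ∈ i '' (F \ {a}) := by rw [h3]; exact ⟨hy, hyx⟩
  obtain ⟨z, ⟨hz, hza⟩, hzy⟩ := h4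
  have hzx : z ≠ x := fun hc => hx (hc ▸ hz)
  rw [← hzy, hii z hza hzx] at hiy
  exact hiy hz

/-- step (2) -/
theorem q_two (s : Sit G Ω B f) (h : ∀ S : Set Ω, S.ncard = 3 → (cl B S).ncard = 4) {F F' : Set Ω}
    (hF : F ∈ B) (hF' : F' ∈ B) (hne : F ≠ F') : 2 * (F ∩ F').ncard = f := by
  haveI := s.fin
  obtain ⟨a, ha, ha'⟩ := s.meet F hF F' hF'
  have hx : ∃ x ∈ F, x ∉ F' := by
    by_contra hc
    push Not at hc
    exact hne (Set.eq_of_subset_of_ncard_le hc (by rw [s.bf F hF, s.bf F' hF']))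
  obtain ⟨x, hx, hx'⟩ := hx
  have hax : a ≠ x := fun hc => hx' (hc ▸ ha')
  obtain ⟨i, hi, hii⟩ := q_inv s h hax
  have h1 := q_one s h hax i hi hii hF' ha' hx'
  have hiF : ∀ y, y ≠ a → y ≠ x → y ∈ F → i y ∈ F := by
    intro y hya hyx hy
    have h2 : i y ∈ cl B {a, x, y} := by rw [(hi y hya hyx).2.2.2]; simp
    apply h2 F hF
    rintro z hz
    simp only [Set.mem_insert_iff, Set.mem_singleton_iff] at hz
    rcases hz with rfl | rfl | rfl
    · exact ha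
    · exact hx
    · exact hy
  have h3 : ((F ∩ F') \ {a}).ncard ≤ ((F \ F') \ {x}).ncard := by
    apply Set.ncard_le_ncard_of_injOn i _ _ (Set.toFinite _)
    · rintro y ⟨⟨hy, hy'⟩, hya⟩
      have hyx : y ≠ x := fun hc => hx' (hc ▸ hy')
      exact ⟨⟨hiF y hya hyx hy, (h1 y hya hyx).1 hy'⟩, (hi y hya hyx).2.1⟩
    · rintro z ⟨⟨hz, hz'⟩, hza⟩ u ⟨⟨hu, hu'⟩, hua⟩ he
      have hzx : z ≠ x := fun hc => hx' (hc ▸ hz')
      have hux : u ≠ x := fun hc => hx' (hc ▸ hu')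
      rw [← hii z hza hzx, he, hii u hua hux]
  have h4 : ((F \ F') \ {x}).ncard ≤ ((F ∩ F') \ {a}).ncard := by
    apply Set.ncard_le_ncard_of_injOn i _ _ (Set.toFinite _)
    · rintro y ⟨⟨hy, hy'⟩, hyx⟩
      have hya : y ≠ a := fun hc => hy' (hc ▸ ha')
      refine ⟨⟨hiF y hya hyx hy, ?_⟩, (hi y hya hyx).1⟩
      by_contra hc
      exact hy' ((h1 y hya hyx).2 hc)
    · rintro z ⟨⟨hz, hz'⟩, hzx⟩ u ⟨⟨hu, hu'⟩, hux⟩ he
      have hza : z ≠ a := fun hc => hz' (hc ▸ ha')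
      have hua : u ≠ a := fun hc => hu' (hc ▸ ha')
      rw [← hii z hza hzx, he, hii u hua hux]
  rw [Set.ncard_sdiff_singleton_of_mem (show a ∈ F ∩ F' from ⟨ha, ha'⟩),
    Set.ncard_sdiff_singleton_of_mem (show x ∈ F \ F' from ⟨hx, hx'⟩)] at h3 h4
  have h5 : (F \ F').ncard + (F ∩ F').ncard = F.ncard := by
    have := Set.ncard_inter_add_ncard_sdiff_eq_ncard F F'
    omega
  rw [s.bf F hF] at h5
  have h6 : 0 < (F ∩ F').ncard := (Set.ncard_pos).2 ⟨a, ha, ha'⟩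
  have h7 : 0 < (F \ F').ncard := (Set.ncard_pos).2 ⟨x, hx, hx'⟩
  omega

end

theorem sqs {G Ω : Type} [Group G] [MulAction G Ω] {B : Set (Set Ω)} {f : ℕ} (s : Sit G Ω B f)
    (h3 : 3 ≤ f) (h : ∀ S : Set Ω, S.ncard = 3 → (cl B S).ncard = 4) : False := by
  classical
  haveI := s.fin
  haveI := Fintype.ofFinite Ω
  haveI : Fintype B := Fintype.ofFinite B
  let v : B → Ω → ℤ := fun F x => if x ∈ F.1 then 1 else -1
  have hcard : Fintype.card Ω = 2 * f := by rw [← Nat.card_eq_fintype_card, s.card]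
  have hcF : ∀ (F : Set Ω) [DecidablePred (· ∈ F)], (∑ x : Ω, if x ∈ F then (1 : ℤ) else 0) = F.ncard := by
    intro F _
    rw [Finset.sum_ite, Finset.sum_const_zero, add_zero, Finset.sum_const, nsmul_eq_mul, mul_one,
      Set.ncard_eq_toFinset_card']
    congr 2
    ext x; simp
  have hv0 : ∀ F : B, ∑ x, v F x = 0 := by
    intro F
    have : ∀ x, v F x = 2 * (if x ∈ F.1 then (1 : ℤ) else 0) - 1 := by
      intro x; simp only [v]; split_ifs <;> norm_num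
    rw [Finset.sum_congr rfl fun x _ => this x, Finset.sum_sub_distrib, ← Finset.mul_sum, hcF, s.bf F.1 F.2,
      Finset.sum_const, Finset.card_univ, hcard]
    simp
  have hvv : ∀ F F' : B, ∑ x, v F x * v F' x = 4 * ((F.1 ∩ F'.1).ncard : ℤ) - 2 * f := by
    intro F F'
    have : ∀ x, v F x * v F' x = 4 * (if x ∈ F.1 ∩ F'.1 then (1 : ℤ) else 0) - v F x - v F' x - 1 := by
      intro x; simp only [v, Set.mem_inter_iff]
      by_cases h1 : x ∈ F.1 <;> by_cases h2 : x ∈ F'.1 <;> simp [h1, h2]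
    rw [Finset.sum_congr rfl fun x _ => this x, Finset.sum_sub_distrib, Finset.sum_sub_distrib, Finset.sum_sub_distrib,
      ← Finset.mul_sum, hcF, hv0, hv0, Finset.sum_const, Finset.card_univ, hcard]
    simp
  have hconst : ∀ a b : Ω, ∑ F, v F a = ∑ F, v F b := by
    intro a b
    obtain ⟨g, hg⟩ := s.tr1 a b
    refine Fintype.sum_equiv (Equiv.ofBijective (fun F : B => (⟨g • F.1, s.inv F.1 F.2 g⟩ : B))
      ((Finite.injective_iff_bijective).1 fun F F' he => Subtype.ext (smul_left_cancel g (congrArg Subtype.val he)))) _ _ ?_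
    intro F
    change (if a ∈ F.1 then (1 : ℤ) else -1) = if b ∈ g • F.1 then 1 else -1
    rw [← hg, Set.smul_mem_smul_set_iff]
  obtain ⟨F0, hF0⟩ := s.ne
  have hpos : 0 < F0.ncard := by rw [s.bf F0 hF0]; omega
  obtain ⟨a0, -⟩ := (Set.ncard_pos).1 hpos
  have hz : ∀ x, ∑ F, v F x = 0 := by
    have h1 : ∑ x, ∑ F, v F x = 0 := by
      rw [Finset.sum_comm]
      exact Finset.sum_eq_zero fun F _ => hv0 F
    intro x
    rw [Finset.sum_congr rfl fun y _ => hconst y x, Finset.sum_const, Finset.card_univ, hcard, nsmul_eq_mul] at h1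
    rcases mul_eq_zero.1 h1 with h2 | h2
    · exfalso
      have : 2 * f = 0 := by exact_mod_cast h2
      omega
    · exact h2
  have h1 : ∑ x, (∑ F, v F x) * v ⟨F0, hF0⟩ x = 0 := Finset.sum_eq_zero fun x _ => by rw [hz, zero_mul]
  simp only [Finset.sum_mul] at h1
  rw [Finset.sum_comm] at h1
  have h2 : ∀ F : B, ∑ x, v F x * v ⟨F0, hF0⟩ x = if F = ⟨F0, hF0⟩ then 2 * (f : ℤ) else 0 := by
    intro F
    rw [hvv]
    by_cases he : F = ⟨F0, hF0⟩
    · rw [if_pos he, he]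
      change 4 * ((F0 ∩ F0).ncard : ℤ) - 2 * f = _
      rw [Set.inter_self, s.bf F0 hF0]; ring
    · rw [if_neg he]
      have h5 := q_two s h F.2 hF0 (fun hc => he (Subtype.ext hc))
      have h6 : 2 * ((F.1 ∩ F0).ncard : ℤ) = f := by exact_mod_cast h5
      change 4 * ((F.1 ∩ F0).ncard : ℤ) - 2 * f = 0
      linarith
  rw [Finset.sum_congr rfl fun F _ => h2 F, Finset.sum_ite_eq' Finset.univ _ (fun _ => 2 * (f : ℤ)), if_pos (Finset.mem_univ _)] at h1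
  have : (2 * f : ℕ) = 0 := by exact_mod_cast h1
  omega

end Cfsg.Agent.Lib.Pro
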