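import Cfsg.Agent.Lib.ProA
import Cfsg.Agent.Lib.ProP1
import Cfsg.Agent.Lib.ProP2
import Cfsg.Agent.Lib.ProQ

set_option autoImplicit false
open scoped Pointwise

namespace Cfsg.Agent.Lib.Pro

/-- double counting -/
theorem l2_count {Ω : Type} [Finite Ω] (R : Ω → Ω → Prop) (a : Ω) (m m' : ℕ)
    (h2 : 2 ≤ Nat.card Ω)
    (h : ∀ u, u ≠ a → {v | R u v}.ncard = m) (ha : ∀ v, ¬ R a v)
    (h' : ∀ v, v ≠ a → {u | R u v}.ncard = m') (ha' : ∀ u, ¬ R u a) : m = m' := by
  classical
  haveI : Fintype Ω := Fintype.ofFinite Ω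
  have key := Finset.sum_card_bipartiteAbove_eq_sum_card_bipartiteBelow
    (s := (Finset.univ : Finset Ω)) (t := (Finset.univ : Finset Ω)) R
  have e1 : ∀ u, (Finset.bipartiteAbove R (Finset.univ : Finset Ω) u).card
      = if u = a then 0 else m := by
    intro u
    have : (Finset.bipartiteAbove R (Finset.univ : Finset Ω) u).card = {v | R u v}.ncard := by
      rw [← Set.ncard_coe_finset]
      congr 1
      ext v
      simp [Finset.bipartiteAbove]
    rw [this]
    split_ifs with hu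
    · subst hu
      rw [show {v | R u v} = ∅ from Set.eq_empty_of_forall_notMem (fun v hv => ha v hv)]
      simp
    · exact h u hu
  have e2 : ∀ v, (Finset.bipartiteBelow R (Finset.univ : Finset Ω) v).card
      = if v = a then 0 else m' := by
    intro v
    have : (Finset.bipartiteBelow R (Finset.univ : Finset Ω) v).card = {u | R u v}.ncard := by
      rw [← Set.ncard_coe_finset]
      congr 1
      ext u
      simp [Finset.bipartiteBelow]
    rw [this]
    split_ifs with hu
    · subst hu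
      rw [show {u | R u v} = ∅ from Set.eq_empty_of_forall_notMem (fun v hv => ha' v hv)]
      simp
    · exact h' v hu
  simp only [e1, e2] at key
  rw [Finset.sum_ite, Finset.sum_ite] at key
  simp only [Finset.sum_const_zero, zero_add, Finset.sum_const, smul_eq_mul] at key
  have hpos : 0 < (Finset.filter (fun x => ¬ x = a) (Finset.univ : Finset Ω)).card := by
    rw [Finset.card_pos]
    have : 1 < Fintype.card Ω := by
      rw [← Nat.card_eq_fintype_card]; omega
    obtain ⟨b, hb⟩ := Fintype.exists_ne_of_one_lt_card this a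
    exact ⟨b, by simp [hb]⟩
  exact Nat.eq_of_mul_eq_mul_left hpos key

/-- parity -/
theorem l2_parity {Ω : Type} [Finite Ω] (R : Ω → Ω → Prop) (a : Ω) (m f : ℕ)
    (h2 : Nat.card Ω = 2 * f) (hf : 1 ≤ f)
    (h : ∀ u, u ≠ a → {v | R u v}.ncard = m) (ha : ∀ v, ¬ R a v)
    (hirr : ∀ u, ¬ R u u) (hsym : ∀ u v, R u v → R v u) (hm : Odd m) : False := by
  classical
  haveI : Fintype Ω := Fintype.ofFinite Ω
  let Gr : SimpleGraph Ω :=
    { Adj := R
      symm := ⟨fun u v huv => hsym u v huv⟩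
      loopless := ⟨fun u hu => hirr u hu⟩ }
  have hd : ∀ u, Gr.degree u = {v | R u v}.ncard := by
    intro u
    rw [← SimpleGraph.card_neighborFinset_eq_degree, ← Set.ncard_coe_finset]
    congr 1
    ext v
    simp [Gr]
  have he := Gr.even_card_odd_degree_vertices
  have hfil : (Finset.filter (fun v => Odd (Gr.degree v)) (Finset.univ : Finset Ω))
      = Finset.univ.erase a := by
    ext u
    simp only [Finset.mem_filter, Finset.mem_univ, true_and, Finset.mem_erase, and_true]
    rw [hd]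
    constructor
    · intro ho hu
      subst hu
      rw [show {v | R u v} = ∅ from Set.eq_empty_of_forall_notMem (fun v hv => ha v hv)] at ho
      simp at ho
    · intro hu
      rw [h u hu]; exact hm
  rw [hfil, Finset.card_erase_of_mem (Finset.mem_univ a), Finset.card_univ,
    ← Nat.card_eq_fintype_card, h2] at he
  obtain ⟨k, hk⟩ := he
  omega

theorem l2_fix {G Ω : Type} [Group G] [MulAction G Ω] {a b : Ω} {g : G} :
    g ∈ fixingSubgroup G ({a, b} : Set Ω) ↔ g • a = a ∧ g • b = b := by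
  rw [mem_fixingSubgroup_iff]
  constructor
  · intro h
    exact ⟨h a (by simp), h b (by simp)⟩
  · rintro ⟨h1, h2⟩ y hy
    rcases hy with rfl | hy
    · exact h1
    · rw [Set.mem_singleton_iff.mp hy]; exact h2

/-- sizes of the two suborbits agree -/
theorem l2_size {G Ω : Type} [Group G] [MulAction G Ω] {B : Set (Set Ω)} {f : ℕ}
    (s : Sit G Ω B f) {a b c : Ω} (hab : a ≠ b) (hca : c ≠ a) (hcb : c ≠ b)
    (hodd : Odd (orb G {a, b} c).ncard)
    (htwo : ∀ e, e ≠ a → e ≠ b → e ∉ orb G {a, b} c → ∀ y, y ≠ a → y ≠ b →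
      y ∉ orb G {a, b} c → y ∈ orb G {a, b} e) :
    (orb G {a, b} c).ncard = f - 1 := by
  classical
  haveI := s.fin
  let R : Ω → Ω → Prop := fun u v => ∃ g : G, g • a = a ∧ g • b = u ∧ g • c = v
  have fib : ∀ (e : Ω), ∀ u, u ≠ a →
      {v | ∃ g : G, g • a = a ∧ g • b = u ∧ g • e = v}.ncard = (orb G {a, b} e).ncard := by
    intro e u hu
    obtain ⟨g, hga, hgb⟩ := s.tr2 a b u hab.symm hu
    have : {v | ∃ g : G, g • a = a ∧ g • b = u ∧ g • e = v} = g • orb G {a, b} e := by
      ext v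
      rw [Set.mem_smul_set_iff_inv_smul_mem]
      constructor
      · rintro ⟨k, hka, hkb, hke⟩
        refine ⟨g⁻¹ * k, l2_fix.mpr ⟨?_, ?_⟩, ?_⟩
        · rw [mul_smul, hka, inv_smul_eq_iff, hga]
        · rw [mul_smul, hkb, inv_smul_eq_iff, hgb]
        · rw [mul_smul, hke]
      · rintro ⟨k, hk, hke⟩
        obtain ⟨hka, hkb⟩ := l2_fix.mp hk
        refine ⟨g * k, ?_, ?_, ?_⟩
        · rw [mul_smul, hka, hga]
        · rw [mul_smul, hkb, hgb]
        · rw [mul_smul, hke, smul_inv_smul]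
    rw [this, Set.ncard_smul_set]
  have hRa : ∀ v, ¬ R a v := by
    rintro v ⟨g, hga, hgb, -⟩
    exact hab (MulAction.injective g (hga.trans hgb.symm))
  have hRa' : ∀ v, ¬ R v a := by
    rintro v ⟨g, hga, -, hgc⟩
    exact hca (MulAction.injective g (hgc.trans hga.symm))
  have hirr : ∀ u, ¬ R u u := by
    rintro u ⟨g, -, hgb, hgc⟩
    exact hcb (MulAction.injective g (hgc.trans hgb.symm))
  -- not symmetric
  have hns : ¬ R c b := by
    intro hcb'
    obtain ⟨k, hka, hkb, hkc⟩ := hcb'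
    refine l2_parity R a _ f s.card s.f1 (fib c) hRa hirr ?_ hodd
    rintro u v ⟨g, hga, hgb, hgc⟩
    refine ⟨g * k, ?_, ?_, ?_⟩
    · rw [mul_smul, hka, hga]
    · rw [mul_smul, hkb, hgc]
    · rw [mul_smul, hkc, hgb]
  obtain ⟨h, hha, hhb⟩ := s.tr2 a b c hab.symm hca
  obtain ⟨e, he⟩ : ∃ e, h • e = b := ⟨h⁻¹ • b, smul_inv_smul _ _⟩
  have hea : e ≠ a := by
    intro h1
    rw [h1, hha] at he
    exact hab he
  have heb : e ≠ b := by
    intro h1
    rw [h1, hhb] at he
    exact hcb he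
  have heo : e ∉ orb G {a, b} c := by
    rintro ⟨k, hk, hkc⟩
    obtain ⟨hka, hkb⟩ := l2_fix.mp hk
    apply hns
    refine ⟨h * k, ?_, ?_, ?_⟩
    · rw [mul_smul, hka, hha]
    · rw [mul_smul, hkb, hhb]
    · rw [mul_smul, hkc, he]
  have hswap : ∀ u v, R u v ↔ ∃ g : G, g • a = a ∧ g • b = v ∧ g • e = u := by
    intro u v
    constructor
    · rintro ⟨g, hga, hgb, hgc⟩
      refine ⟨g * h, ?_, ?_, ?_⟩
      · rw [mul_smul, hha, hga]
      · rw [mul_smul, hhb, hgc]
      · rw [mul_smul, he, hgb]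
    · rintro ⟨g, hga, hgb, hgc⟩
      refine ⟨g * h⁻¹, ?_, ?_, ?_⟩
      · rw [mul_smul, inv_smul_eq_iff.mpr hha.symm, hga]
      · rw [mul_smul, inv_smul_eq_iff.mpr he.symm, hgc]
      · rw [mul_smul, inv_smul_eq_iff.mpr hhb.symm, hgb]
  have hcount : (orb G {a, b} c).ncard = (orb G {a, b} e).ncard := by
    refine l2_count R a _ _ ?_ (fib c) hRa ?_ hRa'
    · have := s.f1
      rw [s.card]; omega
    · intro v hv
      rw [← fib e v hv]
      congr 1
      ext u
      exact hswap u v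
  have hdisj : Disjoint (orb G {a, b} c) (orb G {a, b} e) := by
    rw [Set.disjoint_left]
    rintro z ⟨k, hk, rfl⟩ ⟨l, hl, hle⟩
    apply heo
    refine ⟨l⁻¹ * k, mul_mem (inv_mem hl) hk, ?_⟩
    rw [mul_smul, ← hle, inv_smul_smul]
  have hun : orb G {a, b} c ∪ orb G {a, b} e = ({a, b} : Set Ω)ᶜ := by
    apply Set.Subset.antisymm
    · rintro z (hz | hz)
      · have hd := orb_disj (G := G) (A := ({a, b} : Set Ω)) (x := c) (by simp [hca, hcb])
        exact Set.disjoint_left.mp hd hz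
      · have hd := orb_disj (G := G) (A := ({a, b} : Set Ω)) (x := e) (by simp [hea, heb])
        exact Set.disjoint_left.mp hd hz
    · intro z hz
      by_cases hzc : z ∈ orb G {a, b} c
      · left; exact hzc
      · right
        have hza : z ≠ a := fun h => hz (by simp [h])
        have hzb : z ≠ b := fun h => hz (by simp [h])
        exact htwo e hea heb heo z hza hzb hzc
  have hcard : (orb G {a, b} c).ncard + (orb G {a, b} e).ncard = 2 * f - 2 := by
    rw [← Set.ncard_union_eq hdisj, hun, Set.ncard_compl, s.card, Set.ncard_pair hab]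
  omega

theorem l2_inv_pair {G Ω : Type} [Group G] [MulAction G Ω] {g : G} {a b : Ω} :
    g • ({a, b} : Set Ω) = {g • a, g • b} := by
  rw [Set.smul_set_insert, Set.smul_set_singleton]

/-- the facts at level two -/
theorem l2_ntr {G Ω : Type} [Group G] [MulAction G Ω] {B : Set (Set Ω)} {f : ℕ}
    (s : Sit G Ω B f) {S : Set Ω} (hS : S.ncard = 2) (hn : ¬ Trans G S) {a b : Ω} (hab : a ≠ b) :
    ∀ x, x ≠ a → x ≠ b → ∃ y, y ≠ a ∧ y ≠ b ∧ y ∉ orb G {a, b} x := by
  obtain ⟨p, q, hpq, rfl⟩ := Set.ncard_eq_two.mp hS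
  intro x hxa hxb
  by_contra hcon
  push Not at hcon
  apply hn
  -- g maps p to a, q to b
  obtain ⟨g0, hg0⟩ := s.tr1 p a
  have hq : g0 • q ≠ a := fun h => hpq (MulAction.injective g0 (hg0.trans h.symm))
  obtain ⟨g1, hg1, hg1'⟩ := s.tr2 a (g0 • q) b hq hab.symm
  obtain ⟨g, hgp, hgq⟩ : ∃ g : G, g • p = a ∧ g • q = b := by
    refine ⟨g1 * g0, ?_, ?_⟩
    · rw [mul_smul, hg0, hg1]
    · rw [mul_smul, hg1']
  have key : ∀ u, u ∉ ({p, q} : Set Ω) → ∃ k : G, k • a = a ∧ k • b = b ∧ k • x = g • u := by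
    intro u hu
    have h1 : g • u ≠ a := by
      intro h
      exact hu (by left; exact MulAction.injective g (h.trans hgp.symm))
    have h2 : g • u ≠ b := by
      intro h
      exact hu (by right; exact MulAction.injective g (h.trans hgq.symm))
    obtain ⟨k, hk, hkx⟩ := hcon (g • u) h1 h2
    obtain ⟨hka, hkb⟩ := l2_fix.mp hk
    exact ⟨k, hka, hkb, hkx⟩
  intro u hu v hv
  obtain ⟨k, hka, hkb, hkx⟩ := key u hu
  obtain ⟨l, hla, hlb, hlx⟩ := key v hv
  refine ⟨g⁻¹ * (l * (k⁻¹ * g)), l2_fix.mpr ⟨?_, ?_⟩, ?_⟩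
  · rw [mul_smul, mul_smul, mul_smul, hgp, inv_smul_eq_iff.mpr hka.symm, hla,
      inv_smul_eq_iff, hgp]
  · rw [mul_smul, mul_smul, mul_smul, hgq, inv_smul_eq_iff.mpr hkb.symm, hlb,
      inv_smul_eq_iff, hgq]
  · rw [mul_smul, mul_smul, mul_smul, inv_smul_eq_iff.mpr hkx.symm, hlx, inv_smul_eq_iff]

theorem orb_symm62 {G Ω : Type} [Group G] [MulAction G Ω] {A : Set Ω} {x y : Ω}
    (h : y ∈ orb G A x) : x ∈ orb G A y := by
  obtain ⟨g, hg, rfl⟩ := h
  exact ⟨g⁻¹, inv_mem hg, inv_smul_smul _ _⟩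

theorem orb_trans62 {G Ω : Type} [Group G] [MulAction G Ω] {A : Set Ω} {x y z : Ω}
    (h : y ∈ orb G A x) (h' : z ∈ orb G A y) : z ∈ orb G A x := by
  obtain ⟨g, hg, rfl⟩ := h
  obtain ⟨k, hk, rfl⟩ := h'
  exact ⟨k * g, mul_mem hk hg, mul_smul _ _ _⟩

theorem orb_disj62 {G Ω : Type} [Group G] [MulAction G Ω] {A : Set Ω} {x y : Ω}
    (h : y ∉ orb G A x) : Disjoint (orb G A x) (orb G A y) := by
  rw [Set.disjoint_left]
  intro z hz hz'
  exact h (orb_trans62 hz (orb_symm62 hz'))

section lev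
variable {G Ω : Type} [Group G] [MulAction G Ω] {B : Set (Set Ω)} {f : ℕ}

theorem l2_block (s : Sit G Ω B f) (h2 : 3 ≤ f) (hc : Closed B 2) {a b : Ω} (hab : a ≠ b) :
    ∃ F ∈ B, ({a, b} : Set Ω) ⊆ F := by
  have := s.fin
  apply ex_block
  rw [hc _ (Set.ncard_pair hab)]
  intro h
  have h1 := Set.ncard_pair hab
  rw [h, Set.ncard_univ, s.card] at h1
  omega

theorem l2_two (s : Sit G Ω B f) (hc : Closed B 2) {a b : Ω} (hab : a ≠ b)
    {F : Set Ω} (hF : F ∈ B) (hS : ({a, b} : Set Ω) ⊆ F)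
    {x y z : Ω} (hxa : x ≠ a) (hxb : x ≠ b) (hya : y ≠ a) (hyb : y ≠ b) (hza : z ≠ a) (hzb : z ≠ b)
    (hyx : y ∉ orb G {a, b} x) (hzx : z ∉ orb G {a, b} x) : z ∈ orb G {a, b} y := by
  by_contra hzy
  have := card_le (G := G) s (A := {a, b}) ⟨a, by simp⟩ hF hS (hc _ (Set.ncard_pair hab))
    (ι := Fin 3) ![orb G {a, b} x, orb G {a, b} y, orb G {a, b} z] ?_ ?_ ?_ ?_
  · rw [Set.ncard_pair hab] at this
    simp at this
  · have d1 := orb_disj62 hyx
    have d2 := orb_disj62 hzx
    have d3 := orb_disj62 hzy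
    intro i k hik
    fin_cases i <;> fin_cases k <;>
      first
        | exact absurd rfl hik
        | exact d1
        | exact d2
        | exact d3
        | exact d1.symm
        | exact d2.symm
        | exact d3.symm
  · intro i
    fin_cases i
    · exact orb_inv _ _
    · exact orb_inv _ _
    · exact orb_inv _ _
  · intro i
    fin_cases i
    · exact orb_disj (by simp [hxa, hxb])
    · exact orb_disj (by simp [hya, hyb])
    · exact orb_disj (by simp [hza, hzb])
  · intro i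
    fin_cases i
    · exact ⟨_, self_orb _ _⟩
    · exact ⟨_, self_orb _ _⟩
    · exact ⟨_, self_orb _ _⟩

theorem l2_w1 (s : Sit G Ω B f) (hc : Closed B 2) {a b : Ω} (hab : a ≠ b)
    {S : Set Ω} (hS2 : S.ncard = 2) (hn : ¬ Trans G S)
    {F : Set Ω} (hF : F ∈ B) (hS : ({a, b} : Set Ω) ⊆ F)
    {x : Ω} (hxa : x ≠ a) (hxb : x ≠ b) : w F (orb G {a, b} x) = 1 := by
  obtain ⟨y, hya, hyb, hy⟩ := l2_ntr s hS2 hn hab x hxa hxb
  have hcS := hc _ (Set.ncard_pair hab)
  have e := total_eq (G := G) s (A := {a, b}) hF hS (ι := Fin 2)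
    ![orb G {a, b} x, orb G {a, b} y] ?_ ?_ ?_
  · rw [Set.ncard_pair hab, Fin.sum_univ_two] at e
    have p1 := pos_flat (G := G) s (A := {a, b}) (Y := orb G {a, b} x) ⟨a, by simp⟩ hF hS hcS
      (orb_inv _ _) ⟨_, self_orb _ _⟩ (orb_disj (by simp [hxa, hxb]))
    have p2 := pos_flat (G := G) s (A := {a, b}) (Y := orb G {a, b} y) ⟨a, by simp⟩ hF hS hcS
      (orb_inv _ _) ⟨_, self_orb _ _⟩ (orb_disj (by simp [hya, hyb]))
    simp only [Matrix.cons_val_zero, Matrix.cons_val_one] at e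
    push_cast at e
    omega
  · have d1 := orb_disj62 hy
    intro i k hik
    fin_cases i <;> fin_cases k <;>
      first
        | exact absurd rfl hik
        | exact d1
        | exact d1.symm
  · intro i
    fin_cases i
    · exact orb_disj (by simp [hxa, hxb])
    · exact orb_disj (by simp [hya, hyb])
  · intro z hz
    by_cases hzx : z ∈ orb G {a, b} x
    · exact ⟨0, hzx⟩
    · exact ⟨1, l2_two s hc hab hF hS hxa hxb hya hyb (fun h => hz (by simp [h]))
        (fun h => hz (by simp [h])) hy hzx⟩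

theorem l2_card (s : Sit G Ω B f) (h2 : 3 ≤ f) (hc : Closed B 2) {a b : Ω} (hab : a ≠ b)
    {S : Set Ω} (hS2 : S.ncard = 2) (hn : ¬ Trans G S)
    {x : Ω} (hxa : x ≠ a) (hxb : x ≠ b) : (orb G {a, b} x).ncard = f - 1 := by
  obtain ⟨F, hF, hS⟩ := l2_block s h2 hc hab
  apply l2_size s hab hxa hxb
  · have h1 := l2_w1 s hc hab hS2 hn hF hS hxa hxb
    unfold w at h1
    refine ⟨(orb G {a, b} x ∩ F).ncard, ?_⟩
    omega
  · intro e hea heb he y hya hyb hy
    exact l2_two s hc hab hF hS hxa hxb hea heb hya hyb he hy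

/-- case: a non-closed triple -/
theorem l2_nc (s : Sit G Ω B f) (h2 : 3 ≤ f) (hc : Closed B 2) {a b c d : Ω} (hab : a ≠ b)
    {S : Set Ω} (hS2 : S.ncard = 2) (hn : ¬ Trans G S) (hca : c ≠ a) (hcb : c ≠ b)
    (hd : d ∈ cl B (insert c {a, b})) (hda : d ≠ a) (hdb : d ≠ b) (hdc : d ≠ c) : False := by
  have := s.fin
  obtain ⟨F, hF, hS⟩ := l2_block s h2 hc hab
  have hcS := hc _ (Set.ncard_pair hab)
  obtain ⟨cv1, cv2, cv3⟩ := cov_one (G := G) s (A := {a, b}) (x := c) ⟨a, by simp⟩ hF hS hcS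
    (by simp [hca, hcb]) (l2_w1 s hc hab hS2 hn hF hS hca hcb)
  have hdo : d ∉ orb G {a, b} c := by
    intro h
    have : d ∈ cl B (insert c {a, b}) ∩ orb G {a, b} c := ⟨hd, h⟩
    rw [cv3] at this
    exact hdc this
  have hcd : cl B (insert d {a, b}) = cl B (insert c {a, b}) := cv1.2 d hd (by simp [hda, hdb])
  obtain ⟨dv1, dv2, dv3⟩ := cov_one (G := G) s (A := {a, b}) (x := d) ⟨a, by simp⟩ hF hS hcS
    (by simp [hda, hdb]) (l2_w1 s hc hab hS2 hn hF hS hda hdb)
  have h4 : cl B (insert c {a, b}) = {c, d, a, b} := by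
    apply Set.Subset.antisymm
    · intro z hz
      by_cases hza : z = a
      · simp [hza]
      by_cases hzb : z = b
      · simp [hzb]
      by_cases hzc : z ∈ orb G {a, b} c
      · have : z ∈ cl B (insert c {a, b}) ∩ orb G {a, b} c := ⟨hz, hzc⟩
        rw [cv3] at this
        left; exact this
      · have hzd := l2_two s hc hab hF hS hca hcb hda hdb hza hzb hdo hzc
        have : z ∈ cl B (insert d {a, b}) ∩ orb G {a, b} d := ⟨by rw [hcd]; exact hz, hzd⟩
        rw [dv3] at this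
        right; left; exact this
    · intro z hz
      rcases hz with rfl | rfl | hz
      · exact subset_cl _ _ (Set.mem_insert _ _)
      · exact hd
      · exact subset_cl _ _ (Set.mem_insert_of_mem _ hz)
  have h4c : (cl B (insert c {a, b})).ncard = 4 := by
    rw [h4, Set.ncard_insert_of_notMem, Set.ncard_insert_of_notMem, Set.ncard_pair hab]
    · simp [hda, hdb]
    · simp [hca, hcb, Ne.symm hdc]
  have hall : ∀ y, y ≠ a → y ≠ b → (cl B (insert y {a, b})).ncard = 4 := by
    intro y hya hyb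
    have tr : ∀ e, (cl B (insert e {a, b})).ncard = 4 → y ∈ orb G {a, b} e →
        (cl B (insert y {a, b})).ncard = 4 := by
      rintro e he ⟨g, hg, rfl⟩
      obtain ⟨hga, hgb⟩ := l2_fix.mp hg
      have : g • cl B (insert e {a, b}) = cl B (insert (g • e) {a, b}) := by
        rw [smul_cl s, Set.smul_set_insert, l2_inv_pair, hga, hgb]
      rw [← this, Set.ncard_smul_set, he]
    by_cases hy : y ∈ orb G {a, b} c
    · exact tr c h4c hy
    · exact tr d (by rw [hcd]; exact h4c) (l2_two s hc hab hF hS hca hcb hda hdb hya hyb hdo hy)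
  apply sqs s h2
  intro T hT
  obtain ⟨p, q, r, hpq, hpr, hqr, rfl⟩ := Set.ncard_eq_three.mp hT
  obtain ⟨g0, hg0⟩ := s.tr1 p a
  have hq : g0 • q ≠ a := fun h => hpq (MulAction.injective g0 (hg0.trans h.symm))
  obtain ⟨g1, hg1, hg1'⟩ := s.tr2 a (g0 • q) b hq hab.symm
  obtain ⟨g, hgp, hgq⟩ : ∃ g : G, g • p = a ∧ g • q = b := by
    refine ⟨g1 * g0, ?_, ?_⟩
    · rw [mul_smul, hg0, hg1]
    · rw [mul_smul, hg1']
  have e1 : g • cl B {p, q, r} = cl B (insert (g • r) {a, b}) := by
    rw [smul_cl s]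
    congr 1
    rw [Set.smul_set_insert, Set.smul_set_insert, Set.smul_set_singleton, hgp, hgq]
    ext z
    simp only [Set.mem_insert_iff, Set.mem_singleton_iff]
    tauto
  rw [← Set.ncard_smul_set g (cl B {p, q, r}), e1]
  apply hall
  · intro h
    exact hpr (MulAction.injective g (hgp.trans h.symm))
  · intro h
    exact hqr (MulAction.injective g (hgq.trans h.symm))

/-- the suborbit of a closed triple missing the third point -/
theorem l2_V (s : Sit G Ω B f) (h2 : 3 ≤ f) (hc : Closed B 2) {p q r : Ω} (hpq : p ≠ q)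
    {S : Set Ω} (hS2 : S.ncard = 2) (hn : ¬ Trans G S) (hrp : r ≠ p) (hrq : r ≠ q)
    {F : Set Ω} (hF : F ∈ B) {T : Set Ω} (hT : T = {p, q, r}) (hTF : T ⊆ F) (hTc : cl B T = T) :
    ∃ V : Set Ω, V.Nonempty ∧ V.ncard = f - 1 ∧ Inv G {p, q} V ∧ Disjoint V T ∧
      ∀ W : Set Ω, Inv G T W → V ⊆ W ∨ Disjoint V W := by
  have := s.fin
  have hpqF : ({p, q} : Set Ω) ⊆ F := by
    refine Set.Subset.trans ?_ hTF
    rw [hT]
    intro z hz
    rcases hz with rfl | hz
    · simp
    · simp [Set.mem_singleton_iff.mp hz]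
  have hsub : ({p, q} : Set Ω) ⊆ T := by
    rw [hT]
    intro z hz
    rcases hz with rfl | hz
    · simp
    · simp [Set.mem_singleton_iff.mp hz]
  obtain ⟨y, hyp, hyq, hy⟩ := l2_ntr s hS2 hn hpq r hrp hrq
  have hfix : fixingSubgroup G T ≤ fixingSubgroup G ({p, q} : Set Ω) :=
    fixingSubgroup_antitone G Ω hsub
  have hVT : Disjoint (orb G {p, q} y) T := by
    rw [Set.disjoint_left]
    intro z hz hzT
    have hd := orb_disj (G := G) (A := ({p, q} : Set Ω)) (x := y) (by simp [hyp, hyq])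
    have hz' : z ∉ ({p, q} : Set Ω) := Set.disjoint_left.mp hd hz
    have hzr : z = r := by
      rw [hT] at hzT
      rcases hzT with rfl | rfl | h
      · exact absurd (by simp) hz'
      · exact absurd (by simp) hz'
      · exact h
    rw [hzr] at hz
    exact hy (orb_symm62 hz)
  refine ⟨orb G {p, q} y, ⟨_, self_orb _ _⟩, l2_card s h2 hc hpq hS2 hn hyp hyq,
    orb_inv _ _, hVT, ?_⟩
  intro W hW
  by_contra hcon
  push Not at hcon
  obtain ⟨h1, h3⟩ := hcon
  have n1 : (orb G {p, q} y \ W).Nonempty := by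
    rw [Set.diff_nonempty]; exact h1
  have n2 : (orb G {p, q} y ∩ W).Nonempty := by
    rwa [Set.not_disjoint_iff_nonempty_inter] at h3
  have i0 : Inv G T (orb G {p, q} y) := fun g hg z hz => orb_inv _ _ g (hfix hg) z hz
  have i2 : Inv G T (orb G {p, q} y ∩ W) := fun g hg z hz => ⟨i0 g hg z hz.1, hW g hg z hz.2⟩
  have i1 : Inv G T (orb G {p, q} y \ W) := by
    intro g hg z hz
    refine ⟨i0 g hg z hz.1, fun h => hz.2 ?_⟩
    have := hW g⁻¹ (inv_mem hg) _ h
    rwa [inv_smul_smul] at this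
  have hTn : T.Nonempty := ⟨p, hsub (by simp)⟩
  have p1 := pos_flat (G := G) s hTn hF hTF hTc i1 n1 (hVT.mono_left Set.diff_subset)
  have p2 := pos_flat (G := G) s hTn hF hTF hTc i2 n2 (hVT.mono_left Set.inter_subset_left)
  have hu := w_union F (orb G {p, q} y \ W) (orb G {p, q} y ∩ W)
    (by
      rw [Set.disjoint_left]
      intro z hz hz'
      exact hz.2 hz'.2)
  rw [Set.diff_union_inter] at hu
  have hw := l2_w1 s hc hpq hS2 hn hF hpqF hyp hyq
  omega

theorem lev2 {G Ω : Type} [Group G] [MulAction G Ω] {B : Set (Set Ω)} {f : ℕ} (s : Sit G Ω B f)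
    (h2 : 3 ≤ f) (hc : Closed B 2) : ∀ S : Set Ω, S.ncard = 2 → Trans G S := by
  intro S hS2
  by_contra hn
  have := s.fin
  obtain ⟨a, b, hab, hSab⟩ := Set.ncard_eq_two.mp hS2
  obtain ⟨F, hF, habF⟩ := l2_block s h2 hc hab
  obtain ⟨c, hcF, hc'⟩ : ∃ c ∈ F, c ∉ ({a, b} : Set Ω) := by
    by_contra hcon
    push Not at hcon
    have h1 : F.ncard ≤ ({a, b} : Set Ω).ncard := Set.ncard_le_ncard hcon
    rw [Set.ncard_pair hab, s.bf F hF] at h1
    omega
  have hca : c ≠ a := fun h => hc' (by simp [h])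
  have hcb : c ≠ b := fun h => hc' (by simp [h])
  set T : Set Ω := {a, b, c} with hT
  have hTins : insert c ({a, b} : Set Ω) = T := by
    rw [hT]
    ext z
    simp only [Set.mem_insert_iff, Set.mem_singleton_iff]
    tauto
  by_cases hTc : cl B T = T
  · have hTF : T ⊆ F := by
      rw [← hTins]
      exact Set.insert_subset hcF habF
    obtain ⟨V1, n1, k1, i1, d1, w1⟩ := l2_V s h2 hc hab hS2 hn hca hcb hF hT hTF hTc
    obtain ⟨V2, n2, k2, i2, d2, w2⟩ := l2_V s h2 hc (Ne.symm hca) hS2 hn (Ne.symm hab)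
      (Ne.symm hcb) hF (T := T) (by
        rw [hT]
        ext z
        simp only [Set.mem_insert_iff, Set.mem_singleton_iff]
        tauto) hTF hTc
    obtain ⟨V3, n3, k3, i3, d3, w3⟩ := l2_V s h2 hc (Ne.symm hcb) hS2 hn hab
      (Ne.symm hca) hF (T := T) (by
        rw [hT]
        ext z
        simp only [Set.mem_insert_iff, Set.mem_singleton_iff]
        tauto) hTF hTc
    have hTcard : T.ncard = 3 := by
      rw [hT, Set.ncard_eq_three]
      exact ⟨a, b, c, hab, Ne.symm hca, Ne.symm hcb, rfl⟩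
    have hbig : ∀ V V' : Set Ω, V.ncard = f - 1 → V'.ncard = f - 1 → Disjoint V T →
        Disjoint V' T → ¬ Disjoint V V' := by
      intro V V' hV hV' hd hd' hdd
      have h1 : (V ∪ V').ncard ≤ (Tᶜ).ncard := by
        exact Set.ncard_le_ncard (Set.union_subset (Set.subset_compl_iff_disjoint_right.mpr hd)
          (Set.subset_compl_iff_disjoint_right.mpr hd')) (Set.toFinite _)
      rw [Set.ncard_union_eq hdd, Set.ncard_compl, s.card, hTcard] at h1
      omega
    have iT : ∀ {p q : Ω} {V : Set Ω}, ({p, q} : Set Ω) ⊆ T → Inv G {p, q} V → Inv G T V := by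
      intro p q V hsub hi g hg z hz
      exact hi g (fixingSubgroup_antitone G Ω hsub hg) z hz
    have s1 : ({a, b} : Set Ω) ⊆ T := by
      intro z hz; rcases hz with rfl | hz
      · simp [hT]
      · simp [hT, Set.mem_singleton_iff.mp hz]
    have s2 : ({a, c} : Set Ω) ⊆ T := by
      intro z hz; rcases hz with rfl | hz
      · simp [hT]
      · simp [hT, Set.mem_singleton_iff.mp hz]
    have s3 : ({b, c} : Set Ω) ⊆ T := by
      intro z hz; rcases hz with rfl | hz
      · simp [hT]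
      · simp [hT, Set.mem_singleton_iff.mp hz]
    have e12 : V2 = V1 := by
      have h1 : V2 ⊆ V1 := (w2 V1 (iT s1 i1)).resolve_right (hbig _ _ k2 k1 d2 d1)
      exact Set.eq_of_subset_of_ncard_le h1 (by rw [k1, k2])
    have e13 : V3 = V1 := by
      have h1 : V3 ⊆ V1 := (w3 V1 (iT s1 i1)).resolve_right (hbig _ _ k3 k1 d3 d1)
      exact Set.eq_of_subset_of_ncard_le h1 (by rw [k1, k3])
    subst e12
    subst e13
    obtain ⟨z, hz⟩ := s.gen F hF ({{a, b}, {a, c}, {b, c}} : Set (Set Ω)) ⟨{a, b}, by simp⟩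
      (by
        rintro A (rfl | rfl | hA)
        · exact s1.trans hTF
        · exact s2.trans hTF
        · rw [Set.mem_singleton_iff.mp hA]
          exact s3.trans hTF)
      _ n1
      (by
        intro h
        have : a ∈ T := by simp [hT]
        exact Set.disjoint_left.mp d1 (h ▸ Set.mem_univ a) this)
      (by
        rintro A (rfl | rfl | hA)
        · exact i1
        · exact i2
        · rw [Set.mem_singleton_iff.mp hA]
          exact i3)
    have z1 := hz {a, b} (by simp)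
    have z2 := hz {a, c} (by simp)
    have z3 := hz {b, c} (by simp)
    rw [hc _ (Set.ncard_pair hab)] at z1
    rw [hc _ (Set.ncard_pair (Ne.symm hca))] at z2
    rw [hc _ (Set.ncard_pair (Ne.symm hcb))] at z3
    simp only [Set.mem_insert_iff, Set.mem_singleton_iff] at z1 z2 z3
    rcases z1 with rfl | rfl
    · rcases z3 with rfl | rfl
      · exact hab rfl
      · exact hca rfl
    · rcases z2 with rfl | rfl
      · exact hab rfl
      · exact hcb rfl
  · obtain ⟨d, hd, hdT⟩ : ∃ d ∈ cl B T, d ∉ T := by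
      by_contra hcon
      push Not at hcon
      exact hTc (Set.Subset.antisymm hcon (subset_cl _ _))
    rw [← hTins] at hd
    refine l2_nc s h2 hc hab hS2 hn hca hcb hd ?_ ?_ ?_
    · rintro rfl; exact hdT (by simp [hT])
    · rintro rfl; exact hdT (by simp [hT])
    · rintro rfl; exact hdT (by simp [hT])

end lev

end Cfsg.Agent.Lib.Pro
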