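import Mathlib
import Cfsg.Agent.Lib.Pro0
import Cfsg.Agent.Lib.ProA
import Cfsg.Agent.Lib.ProP1

/-! S3399, piece N1: Tits' inequality against the cover inequality (helper1) -/

set_option autoImplicit false
set_option linter.all false
open scoped Pointwise

namespace Cfsg.Agent.Lib.Pro


/-- N1, counting: the inequality for one cover -/
theorem tits_aux {Ω : Type} [Finite Ω] {B : Set (Set Ω)} {J k : ℕ}
    (h : ∀ S : Set Ω, S.ncard = J → (cl B S).ncard = k) (hk : J < k) {S D : Set Ω} (hS : S.ncard = J)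
    (hD : Cov B (cl B S) D) (hlt : cl B S ⊂ D) : (J + 1) + (J + 1) * (k - J) ≤ D.ncard := by
  classical
  obtain ⟨y, hyD, hyA⟩ := Set.exists_of_ssubset hlt
  have hyS : y ∉ S := fun h' => hyA (subset_cl B S h')
  have hDc : cl B D = D := by
    have := hD.2 y hyD hyA
    rw [← this, cl_cl]
  set U := insert y S with hU
  have hUc : U.ncard = J + 1 := by
    rw [hU, Set.ncard_insert_of_notMem hyS, hS]
  have hUD : U ⊆ D := by
    rw [hU]
    exact Set.insert_subset hyD ((subset_cl B S).trans hD.1)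
  have hSU : S ⊆ U := Set.subset_insert _ _
  have hCz : ∀ z ∈ U, (cl B (U \ {z})).ncard = k := by
    intro z hz
    apply h
    rw [Set.ncard_diff_singleton_of_mem hz, hUc]
    omega
  have hCD : ∀ z, cl B (U \ {z}) ⊆ D := by
    intro z
    rw [← hDc]
    exact cl_mono B (Set.diff_subset.trans hUD)
  -- a closed set of size `k` cannot contain `U`
  have hno : ∀ V : Set Ω, cl B V = V → V.ncard = k → ¬ U ⊆ V := by
    intro V hV hVk hUV
    have h1 : cl B S ⊆ V := by rw [← hV]; exact cl_mono B (hSU.trans hUV)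
    have h2 : cl B S = V := Set.eq_of_subset_of_ncard_le h1 (by rw [hVk, h S hS])
    apply hyA
    rw [h2]
    exact hUV (Set.mem_insert _ _)
  have hzC : ∀ z ∈ U, z ∉ cl B (U \ {z}) := by
    intro z hz h'
    apply hno _ (cl_cl B _) (hCz z hz)
    intro u hu
    by_cases huz : u = z
    · rw [huz]; exact h'
    · exact subset_cl B _ ⟨hu, huz⟩
  -- the sets `C_z \ U`
  have hEc : ∀ z ∈ U, (cl B (U \ {z}) \ U).ncard = k - J := by
    intro z hz
    have e1 : cl B (U \ {z}) \ U = cl B (U \ {z}) \ (U \ {z}) := by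
      ext u
      constructor
      · rintro ⟨h1, h2⟩
        exact ⟨h1, fun h3 => h2 h3.1⟩
      · rintro ⟨h1, h2⟩
        refine ⟨h1, fun h3 => h2 ⟨h3, ?_⟩⟩
        intro h4
        rw [Set.mem_singleton_iff] at h4
        rw [h4] at h1
        exact hzC z hz h1
    have h2 := Set.ncard_diff_add_ncard_of_subset (subset_cl B (U \ {z}))
    rw [Set.ncard_diff_singleton_of_mem hz, hUc, hCz z hz] at h2
    rw [e1]
    omega
  have hdisj : ∀ z ∈ U, ∀ z' ∈ U, z ≠ z' → Disjoint (cl B (U \ {z}) \ U) (cl B (U \ {z'}) \ U) := by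
    intro z hz z' hz' hne
    rw [Set.disjoint_left]
    rintro p ⟨hp, hpU⟩ ⟨hp', _⟩
    set V := insert p ((U \ {z}) \ {z'}) with hV
    have hVc : V.ncard = J := by
      rw [hV, Set.ncard_insert_of_notMem (fun h' => hpU h'.1.1),
        Set.ncard_diff_singleton_of_mem (show z' ∈ U \ {z} from ⟨hz', fun h' => hne h'.symm⟩),
        Set.ncard_diff_singleton_of_mem hz, hUc]
      have : 1 ≤ J := by
        have h9 : 1 < U.ncard := by
          rw [Set.one_lt_ncard]
          exact ⟨z, hz, z', hz', hne⟩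
        omega
      omega
    have h1 : cl B V = cl B (U \ {z}) := by
      apply Set.eq_of_subset_of_ncard_le
      · apply cl_le
        rw [hV]
        exact Set.insert_subset hp (Set.diff_subset.trans (subset_cl B _))
      · rw [hCz z hz, h V hVc]
      · exact Set.toFinite _
    have h2 : cl B V = cl B (U \ {z'}) := by
      apply Set.eq_of_subset_of_ncard_le
      · apply cl_le
        rw [hV]
        apply Set.insert_subset hp'
        intro u hu
        exact subset_cl B _ ⟨hu.1.1, hu.2⟩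
      · rw [hCz z' hz', h V hVc]
      · exact Set.toFinite _
    apply hno _ (cl_cl B V) (h V hVc)
    intro u hu
    by_cases huz : u = z
    · rw [h2, huz]
      exact subset_cl B _ ⟨hz, hne⟩
    · rw [h1]
      exact subset_cl B _ ⟨hu, huz⟩
  -- count
  have hfin : U.Finite := Set.toFinite _
  set UF := hfin.toFinset with hUF
  have hUFc : UF.card = J + 1 := by
    rw [hUF, ← Set.ncard_eq_toFinset_card U hfin, hUc]
  let E : Ω → Finset Ω := fun z => (Set.toFinite (cl B (U \ {z}) \ U)).toFinset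
  have hEcard : ∀ z ∈ UF, (E z).card = k - J := by
    intro z hz
    have hz' : z ∈ U := hfin.mem_toFinset.mp hz
    rw [← hEc z hz', Set.ncard_eq_toFinset_card _ (Set.toFinite _)]
  have hbi : (UF.biUnion E).card = (J + 1) * (k - J) := by
    rw [Finset.card_biUnion, Finset.sum_congr rfl hEcard, Finset.sum_const, hUFc, smul_eq_mul]
    intro z hz z' hz' hne
    have hz1 : z ∈ U := hfin.mem_toFinset.mp hz
    have hz2 : z' ∈ U := hfin.mem_toFinset.mp hz'
    have := hdisj z hz1 z' hz2 hne
    show Disjoint (E z) (E z')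
    rw [Finset.disjoint_left]
    intro p hp hp'
    rw [Set.Finite.mem_toFinset] at hp hp'
    exact Set.disjoint_left.mp this hp hp'
  have hdj : Disjoint UF (UF.biUnion E) := by
    rw [Finset.disjoint_left]
    intro p hp hp'
    have hp1 : p ∈ U := hfin.mem_toFinset.mp hp
    rw [Finset.mem_biUnion] at hp'
    obtain ⟨z, _, hz⟩ := hp'
    rw [Set.Finite.mem_toFinset] at hz
    exact hz.2 hp1
  have hsub : (↑(UF ∪ UF.biUnion E) : Set Ω) ⊆ D := by
    intro p hp
    rw [Finset.mem_coe, Finset.mem_union] at hp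
    rcases hp with hp | hp
    · exact hUD (hfin.mem_toFinset.mp hp)
    · rw [Finset.mem_biUnion] at hp
      obtain ⟨z, _, hz⟩ := hp
      rw [Set.Finite.mem_toFinset] at hz
      exact hCD z hz.1
  have hcard := Set.ncard_le_ncard hsub (Set.toFinite _)
  rw [Set.ncard_coe_finset, Finset.card_union_of_disjoint hdj, hUFc, hbi] at hcard
  exact hcard

/-- N1: Tits' inequality against the cover inequality -/
theorem tits {G Ω : Type} [Group G] [MulAction G Ω] {B : Set (Set Ω)} {f : ℕ} (s : Sit G Ω B f)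
    {J k : ℕ} (hJ : 3 ≤ J) (hJf : J ≤ f) (hk : J < k) (h : ∀ S : Set Ω, S.ncard = J → (cl B S).ncard = k) :
    k = J + 1 ∧ ∀ S : Set Ω, S.ncard = J → ∀ D, Cov B (cl B S) D → cl B S ⊂ D → D.ncard = 2 * (J + 1) := by
  haveI := s.fin
  obtain ⟨F, hF⟩ := s.ne
  obtain ⟨S0, hS0, hS0c⟩ := Set.exists_subset_card_eq (s := F) (n := J) (by rw [s.bf F hF]; exact hJf)
  have hkf : k ≤ f := by
    have h1 : cl B S0 ⊆ F := cl_sub hF hS0
    have h2 := Set.ncard_le_ncard h1 (Set.toFinite _)
    rw [h S0 hS0c, s.bf F hF] at h2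
    exact h2
  have huniv : (Set.univ : Set Ω).ncard = 2 * f := by rw [Set.ncard_univ, s.card]
  have hmain : ∀ S : Set Ω, S.ncard = J → ∀ D, Cov B (cl B S) D → cl B S ⊂ D →
      k = J + 1 ∧ D.ncard = 2 * (J + 1) := by
    intro S hS D hD hlt
    have h1 := tits_aux h hk hS hD hlt
    have hne : cl B S ≠ Set.univ := by
      intro h'
      have h2 := h S hS
      rw [h', huniv] at h2
      have := s.f1
      omega
    obtain ⟨F', hF', hSF'⟩ := ex_block hne
    have h2 := cov_card s (A := cl B S) (F := F') (D := D)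
      (by
        rw [← Set.ncard_pos, h S hS]
        omega) hF' (cl_sub hF' hSF') (cl_cl B S) hD
    rw [h S hS] at h2
    obtain ⟨d, rfl⟩ : ∃ d, k = J + 1 + d := ⟨k - (J + 1), by omega⟩
    have h3 : J + 1 + d - J = 1 + d := by omega
    rw [h3] at h1
    have h4 : d = 0 := by
      by_contra hd
      have : 1 ≤ d := Nat.one_le_iff_ne_zero.mpr hd
      nlinarith
    subst h4
    refine ⟨by omega, ?_⟩
    apply le_antisymm
    · omega
    · nlinarith
  refine ⟨?_, fun S hS D hD hlt => (hmain S hS D hD hlt).2⟩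
  have hlt0 : cl B S0 ⊂ Set.univ := by
    rw [Set.ssubset_univ_iff]
    intro h'
    have h2 := h S0 hS0c
    rw [h', huniv] at h2
    have := s.f1
    omega
  have hcu : cl B (Set.univ : Set Ω) = Set.univ := Set.eq_univ_of_univ_subset (subset_cl B _)
  obtain ⟨E, hE1, hE2, _, _⟩ := ex_cov (cl_cl B S0) hcu hlt0
  exact (hmain S0 hS0c E hE1 hE2).1

end Cfsg.Agent.Lib.Pro
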