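import Cfsg.Agent.Lib.ProN2x

/-! S3399, piece N2: `J ≥ 4` impossible (helper85). -/

set_option autoImplicit false
open scoped Pointwise

namespace Cfsg.Agent.Lib.Pro

section N2y
variable {G Ω : Type} [Group G] [MulAction G Ω] {B : Set (Set Ω)} {f : ℕ}

theorem N2x.case_ne (s : Sit G Ω B f) {J : ℕ} (hJ : 4 ≤ J) (hJf : J ≤ f) (hf : f ≠ J + 1)
    (h : ∀ S : Set Ω, S.ncard = J → (cl B S).ncard = J + 1)
    (h2 : ∀ S : Set Ω, S.ncard = J → ∀ D, Cov B (cl B S) D → cl B S ⊂ D → D.ncard = 2 * (J + 1)) :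
    False := by
  have := s.fin
  obtain ⟨S, -, hS⟩ := Set.exists_subset_card_eq (s := (Set.univ : Set Ω)) (n := J)
    (by rw [Set.ncard_univ, s.card]; omega)
  have hSn : S.Nonempty := by
    rw [← Set.ncard_pos, hS]; omega
  obtain ⟨c0, hc0⟩ := hSn
  obtain ⟨S', hS'S, hS'⟩ : ∃ S' : Set Ω, S' ⊆ S ∧ S'.ncard = J - 1 :=
    ⟨S \ {c0}, fun x hx => hx.1, by rw [Set.ncard_diff_singleton_of_mem hc0, hS]⟩
  have hins : ∀ b ∉ S', (insert b S').ncard = J := by
    intro b hb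
    rw [Set.ncard_insert_of_notMem hb, hS']; omega
  -- the cover `D` of `C = cl S`
  have hCne : ∃ y, y ∉ cl B S := by
    by_contra hcon
    push Not at hcon
    have h1 : cl B S = Set.univ := Set.eq_univ_of_forall hcon
    have h3 := h S hS
    rw [h1, Set.ncard_univ, s.card] at h3
    omega
  obtain ⟨y, hy⟩ := hCne
  obtain ⟨-, hDc⟩ := N2x.gf s h h2 hS hy
  obtain ⟨D, hD⟩ : ∃ D, D = cl B (insert y (cl B S)) := ⟨_, rfl⟩
  rw [← hD] at hDc
  have hDcl : cl B D = D := by rw [hD, cl_cl]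
  have hSD : S ⊆ D := by
    rw [hD]
    exact ((subset_cl B S).trans (Set.subset_insert _ _)).trans (subset_cl B _)
  have hS'D : S' ⊆ D := hS'S.trans hSD
  have hDne : D ≠ Set.univ := by
    intro hu
    rw [hu, Set.ncard_univ, s.card] at hDc
    omega
  have hDn : D.Nonempty := by
    rw [← Set.ncard_pos, hDc]; omega
  obtain ⟨F', hF', hDF'⟩ := ex_block (B := B) (A := D) (by rw [hDcl]; exact hDne)
  obtain ⟨E, hE1, hE2, -, hE4⟩ := ex_cov hDcl N2x.univ_cl (Set.ssubset_univ_iff.2 hDne)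
  have hEc := cov_card s hDn hF' hDF' hDcl hE1
  rw [hDc] at hEc
  obtain ⟨b2, hb2E, hb2D⟩ := Set.exists_of_ssubset hE2
  have hb2S : b2 ∉ S' := fun hb => hb2D (hS'D hb)
  obtain ⟨C2, hC2⟩ : ∃ C2, C2 = cl B (insert b2 S') := ⟨_, rfl⟩
  have hC2c : C2.ncard = J + 1 := by rw [hC2]; exact h _ (hins b2 hb2S)
  have hb2C : b2 ∈ C2 := by rw [hC2]; exact subset_cl B _ (Set.mem_insert _ _)
  have hS'C : S' ⊆ C2 := by
    rw [hC2]; exact (Set.subset_insert _ _).trans (subset_cl B _)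
  have hC2E : C2 ⊆ E := by
    rw [hC2, ← hE4]
    apply cl_mono
    exact Set.insert_subset hb2E (hS'D.trans hE2.subset)
  -- blocks inside `D`
  have hCD : ∀ b ∈ D, cl B (insert b S') ⊆ D := by
    intro b hb
    conv_rhs => rw [← hDcl]
    exact cl_mono B (Set.insert_subset hb hS'D)
  have hbC2 : ∀ b ∈ D, b ∉ S' → b ∉ C2 := by
    intro b hb hbS hbC
    have h1 : cl B (insert b S') = C2 := by
      apply N2x.gen h (hins b hbS) (Set.insert_subset hbC hS'C) _ hC2c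
      rw [hC2, cl_cl]
    apply hb2D
    apply hCD b hb
    rw [h1]; exact hb2C
  have hL : ∀ b ∈ D, b ∉ S' → Cov B C2 (cl B (insert b C2)) ∧
      (cl B (insert b C2)).ncard = 2 * (J + 1) := by
    intro b hb hbS
    have h1 := hbC2 b hb hbS
    rw [hC2] at h1 ⊢
    exact N2x.gf s h h2 (hins b2 hb2S) h1
  have hC2L : ∀ b : Ω, C2 ⊆ cl B (insert b C2) := fun b =>
    (Set.subset_insert _ _).trans (subset_cl B _)
  have hLE : ∀ b ∈ D, cl B (insert b C2) ⊆ E := by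
    intro b hb
    rw [← hE4]
    apply cl_mono
    exact Set.insert_subset (hE2.subset hb) hC2E
  have dis : ∀ b ∈ D, b ∉ S' → ∀ b' ∈ D, b' ∉ S' → b' ∉ cl B (insert b S') →
      Disjoint (cl B (insert b C2) \ C2) (cl B (insert b' C2) \ C2) := by
    intro b hb hbS b' hb' hbS' hbb
    rw [Set.disjoint_left]
    rintro p ⟨hp1, hp2⟩ ⟨hp3, -⟩
    obtain ⟨hc1, hn1⟩ := hL b hb hbS
    obtain ⟨hc2, hn2⟩ := hL b' hb' hbS'
    have e1 := hc1.2 p hp1 hp2
    have e2 := hc2.2 p hp3 hp2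
    have e3 : cl B (insert b C2) = cl B (insert b' C2) := e1.symm.trans e2
    have hCb : cl B (insert b S') ⊆ cl B (insert b C2) :=
      cl_mono B (Set.insert_subset_insert hS'C)
    have hb'L : b' ∈ cl B (insert b C2) := by
      rw [e3]; exact subset_cl B _ (Set.mem_insert _ _)
    have h3 : cl B (insert b' (cl B (insert b S'))) ⊆ cl B (insert b C2) := by
      apply cl_le
      exact Set.insert_subset hb'L hCb
    obtain ⟨-, h4⟩ := N2x.gf s h h2 (hins b hbS) hbb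
    have h5 : cl B (insert b' (cl B (insert b S'))) = cl B (insert b C2) :=
      Set.eq_of_subset_of_ncard_le h3 (by rw [h4, hn1]) (Set.toFinite _)
    have h6 : cl B (insert b' (cl B (insert b S'))) ⊆ D := by
      conv_rhs => rw [← hDcl]
      exact cl_mono B (Set.insert_subset hb' (hCD b hb))
    apply hb2D
    apply h6
    rw [h5]
    exact hC2L b hb2C
  -- choose four points
  have hCb : ∀ b ∉ S', (cl B (insert b S')).ncard = J + 1 := fun b hb => h _ (hins b hb)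
  have hS'b : ∀ b : Ω, S' ⊆ cl B (insert b S') := fun b =>
    (Set.subset_insert _ _).trans (subset_cl B _)
  have hdb : ∀ b ∉ S', (cl B (insert b S') \ S').ncard = 2 := by
    intro b hb
    rw [Set.ncard_diff (hS'b b), hCb b hb, hS']; omega
  have hex : ∀ T : Set Ω, T.ncard < 2 * (J + 1) → ∃ b ∈ D, b ∉ T := by
    intro T hT
    rw [← hDc] at hT
    exact Set.exists_mem_notMem_of_ncard_lt_ncard hT
  obtain ⟨x1, hx1D, hx1⟩ := hex S' (by omega)
  obtain ⟨x2, hx2D, hx2⟩ := hex (cl B (insert x1 S')) (by rw [hCb x1 hx1]; omega)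
  have hx2S : x2 ∉ S' := fun hx => hx2 (hS'b x1 hx)
  have hu2 : (cl B (insert x1 S') ∪ cl B (insert x2 S')).ncard ≤ J + 3 := by
    have e : cl B (insert x1 S') ∪ cl B (insert x2 S') ⊆
        cl B (insert x1 S') ∪ (cl B (insert x2 S') \ S') := by
      rintro z (hz | hz)
      · exact Or.inl hz
      · by_cases hzS : z ∈ S'
        · exact Or.inl (hS'b x1 hzS)
        · exact Or.inr ⟨hz, hzS⟩
    have e2 := Set.ncard_le_ncard e (Set.toFinite _)
    have e3 := Set.ncard_union_le (cl B (insert x1 S')) (cl B (insert x2 S') \ S')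
    rw [hCb x1 hx1, hdb x2 hx2S] at e3
    omega
  obtain ⟨x3, hx3D, hx3⟩ := hex (cl B (insert x1 S') ∪ cl B (insert x2 S')) (by omega)
  have hx3S : x3 ∉ S' := fun hx => hx3 (Or.inl (hS'b x1 hx))
  have hu3 : ((cl B (insert x1 S') ∪ cl B (insert x2 S')) ∪ cl B (insert x3 S')).ncard ≤ J + 5 := by
    have e : (cl B (insert x1 S') ∪ cl B (insert x2 S')) ∪ cl B (insert x3 S') ⊆
        (cl B (insert x1 S') ∪ cl B (insert x2 S')) ∪ (cl B (insert x3 S') \ S') := by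
      rintro z (hz | hz)
      · exact Or.inl hz
      · by_cases hzS : z ∈ S'
        · exact Or.inl (Or.inl (hS'b x1 hzS))
        · exact Or.inr ⟨hz, hzS⟩
    have e2 := Set.ncard_le_ncard e (Set.toFinite _)
    have e3 := Set.ncard_union_le (cl B (insert x1 S') ∪ cl B (insert x2 S'))
      (cl B (insert x3 S') \ S')
    rw [hdb x3 hx3S] at e3
    omega
  obtain ⟨x4, hx4D, hx4⟩ := hex ((cl B (insert x1 S') ∪ cl B (insert x2 S')) ∪
    cl B (insert x3 S')) (by omega)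
  have hx4S : x4 ∉ S' := fun hx => hx4 (Or.inl (Or.inl (hS'b x1 hx)))
  have d12 := dis x1 hx1D hx1 x2 hx2D hx2S hx2
  have d13 := dis x1 hx1D hx1 x3 hx3D hx3S (fun hx => hx3 (Or.inl hx))
  have d23 := dis x2 hx2D hx2S x3 hx3D hx3S (fun hx => hx3 (Or.inr hx))
  have d14 := dis x1 hx1D hx1 x4 hx4D hx4S (fun hx => hx4 (Or.inl (Or.inl hx)))
  have d24 := dis x2 hx2D hx2S x4 hx4D hx4S (fun hx => hx4 (Or.inl (Or.inr hx)))
  have d34 := dis x3 hx3D hx3S x4 hx4D hx4S (fun hx => hx4 (Or.inr hx))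
  have hn : ∀ b ∈ D, b ∉ S' → (cl B (insert b C2) \ C2).ncard = J + 1 := by
    intro b hb hbS
    rw [Set.ncard_diff (hC2L b), (hL b hb hbS).2, hC2c]; omega
  have c1 := hn x1 hx1D hx1
  have c2 := hn x2 hx2D hx2S
  have c3 := hn x3 hx3D hx3S
  have c4 := hn x4 hx4D hx4S
  obtain ⟨P1, hP1⟩ : ∃ P, P = cl B (insert x1 C2) \ C2 := ⟨_, rfl⟩
  obtain ⟨P2, hP2⟩ : ∃ P, P = cl B (insert x2 C2) \ C2 := ⟨_, rfl⟩
  obtain ⟨P3, hP3⟩ : ∃ P, P = cl B (insert x3 C2) \ C2 := ⟨_, rfl⟩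
  obtain ⟨P4, hP4⟩ : ∃ P, P = cl B (insert x4 C2) \ C2 := ⟨_, rfl⟩
  have e1 : P1 ⊆ E := by rw [hP1]; exact fun z hz => hLE x1 hx1D hz.1
  have e2 : P2 ⊆ E := by rw [hP2]; exact fun z hz => hLE x2 hx2D hz.1
  have e3 : P3 ⊆ E := by rw [hP3]; exact fun z hz => hLE x3 hx3D hz.1
  have e4 : P4 ⊆ E := by rw [hP4]; exact fun z hz => hLE x4 hx4D hz.1
  have q1 : Disjoint C2 P1 := by rw [hP1]; exact Set.disjoint_sdiff_right
  have q2 : Disjoint C2 P2 := by rw [hP2]; exact Set.disjoint_sdiff_right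
  have q3 : Disjoint C2 P3 := by rw [hP3]; exact Set.disjoint_sdiff_right
  have q4 : Disjoint C2 P4 := by rw [hP4]; exact Set.disjoint_sdiff_right
  rw [← hP1] at d12 d13 d14 c1
  rw [← hP2] at d12 d23 d24 c2
  rw [← hP3] at d13 d23 d34 c3
  rw [← hP4] at d14 d24 d34 c4
  have n1 : (C2 ∪ P1).ncard = C2.ncard + P1.ncard :=
    Set.ncard_union_eq q1 (Set.toFinite _) (Set.toFinite _)
  have n2 : (C2 ∪ P1 ∪ P2).ncard = (C2 ∪ P1).ncard + P2.ncard :=
    Set.ncard_union_eq (Set.disjoint_union_left.2 ⟨q2, d12⟩) (Set.toFinite _) (Set.toFinite _)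
  have n3 : (C2 ∪ P1 ∪ P2 ∪ P3).ncard = (C2 ∪ P1 ∪ P2).ncard + P3.ncard :=
    Set.ncard_union_eq (Set.disjoint_union_left.2 ⟨Set.disjoint_union_left.2 ⟨q3, d13⟩, d23⟩)
      (Set.toFinite _) (Set.toFinite _)
  have n4 : (C2 ∪ P1 ∪ P2 ∪ P3 ∪ P4).ncard = (C2 ∪ P1 ∪ P2 ∪ P3).ncard + P4.ncard :=
    Set.ncard_union_eq (Set.disjoint_union_left.2 ⟨Set.disjoint_union_left.2
      ⟨Set.disjoint_union_left.2 ⟨q4, d14⟩, d24⟩, d34⟩) (Set.toFinite _) (Set.toFinite _)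
  have n5 : (C2 ∪ P1 ∪ P2 ∪ P3 ∪ P4).ncard ≤ E.ncard := by
    apply Set.ncard_le_ncard _ (Set.toFinite _)
    exact Set.union_subset (Set.union_subset (Set.union_subset (Set.union_subset hC2E e1) e2) e3) e4
  omega

/-- N2: `J ≥ 4` impossible -/
theorem stein4 {G Ω : Type} [Group G] [MulAction G Ω] {B : Set (Set Ω)} {f : ℕ} (s : Sit G Ω B f)
    {J : ℕ} (hJ : 4 ≤ J) (hJf : J ≤ f) (h : ∀ S : Set Ω, S.ncard = J → (cl B S).ncard = J + 1)
    (h2 : ∀ S : Set Ω, S.ncard = J → ∀ D, Cov B (cl B S) D → cl B S ⊂ D → D.ncard = 2 * (J + 1)) : False := by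
  by_cases hf : f = J + 1
  · exact N2x.case_univ s hJ hf h
  · exact N2x.case_ne s hJ hJf hf h h2

end N2y

end Cfsg.Agent.Lib.Pro
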