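import Cfsg.Agent.Lib.ProQ
import Cfsg.Agent.Lib.ProN1
import Cfsg.Agent.Lib.ProN2

/-! S3399: no Steiner system situation. -/

set_option autoImplicit false
open scoped Pointwise

namespace Cfsg.Agent.Lib.Pro

theorem stein {G Ω : Type} [Group G] [MulAction G Ω] {B : Set (Set Ω)} {f : ℕ} (s : Sit G Ω B f)
    {J k : ℕ} (hJ : 3 ≤ J) (hJf : J ≤ f) (hk : J < k) (h : ∀ S : Set Ω, S.ncard = J → (cl B S).ncard = k) :
    False := by
  obtain ⟨rfl, h2⟩ := tits s hJ hJf hk h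
  rcases Nat.lt_or_ge J 4 with h4 | h4
  · obtain rfl : J = 3 := by omega
    exact sqs s hJf h
  · exact stein4 s h4 hJf h h2

end Cfsg.Agent.Lib.Pro
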