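import Mathlib
import Cfsg.Agent.Lib.Pro0
import Cfsg.Agent.Lib.ProA
import Cfsg.Agent.Lib.ProHom

/-! S3399, piece T0: profiles -/

set_option autoImplicit false
set_option linter.all false

open scoped Pointwise

namespace Cfsg.Agent.Lib.Pro

section T0
variable {G Ω : Type} [Group G] [MulAction G Ω] {B : Set (Set Ω)} {f : ℕ}

theorem inv_diff {A V Y : Set Ω} (hV : Inv G A V) (hY : Inv G A Y) : Inv G A (V \ Y) := by
  intro g hg y hy
  refine ⟨hV g hg y hy.1, fun h => hy.2 ?_⟩
  have := hY g⁻¹ (inv_mem hg) _ h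
  rwa [inv_smul_smul] at this

theorem card_le_w (s : Sit G Ω B f) {A F : Set Ω} (hA : A.Nonempty) (hF : F ∈ B) (h : A ⊆ F)
    (hc : cl B A = A) {ι : Type} (Y : ι → Set Ω) (t : Finset ι) :
    (∀ i ∈ t, ∀ k ∈ t, i ≠ k → Disjoint (Y i) (Y k)) → (∀ i ∈ t, Inv G A (Y i)) →
    (∀ i ∈ t, (Y i).Nonempty) → ∀ V : Set Ω, Inv G A V → Disjoint V A → (∀ i ∈ t, Y i ⊆ V) →
    (t.card : ℤ) ≤ w F V := by
  classical
  haveI := s.fin
  induction t using Finset.induction_on with
  | empty =>
    intro _ _ _ V hV hd _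
    rcases V.eq_empty_or_nonempty with rfl | hn
    · simp [w]
    · have := pos_flat s hA hF h hc hV hn hd
      simp only [Finset.card_empty, Nat.cast_zero]
      omega
  | insert i t hi ih =>
    intro h1 h2 h3 V hV hd hs
    have hiV : Y i ⊆ V := hs i (Finset.mem_insert_self _ _)
    have e : V = Y i ∪ (V \ Y i) := (Set.union_diff_cancel hiV).symm
    have hw1 : w F V = w F (Y i) + w F (V \ Y i) := by
      conv_lhs => rw [e]
      exact w_union F _ _ Set.disjoint_sdiff_right
    have a1 := pos_flat s hA hF h hc (h2 i (Finset.mem_insert_self _ _))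
      (h3 i (Finset.mem_insert_self _ _)) (hd.mono_left hiV)
    have a2 := ih (fun a ha b hb => h1 a (Finset.mem_insert_of_mem ha) b (Finset.mem_insert_of_mem hb))
      (fun a ha => h2 a (Finset.mem_insert_of_mem ha)) (fun a ha => h3 a (Finset.mem_insert_of_mem ha))
      (V \ Y i) (inv_diff hV (h2 i (Finset.mem_insert_self _ _))) (hd.mono_left Set.diff_subset)
      (fun a ha => Set.subset_diff.2 ⟨hs a (Finset.mem_insert_of_mem ha),
        h1 a (Finset.mem_insert_of_mem ha) i (Finset.mem_insert_self _ _) (fun e => hi (e ▸ ha))⟩)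
    rw [Finset.card_insert_of_notMem hi, hw1]
    push_cast
    omega

/-- profile class -/
def PR (C T : Set Ω) (V : Ω → Set Ω) (P : Set Ω) : Set Ω := {y | y ∉ C ∧ ∀ z ∈ T, y ∈ V z ↔ z ∈ P}

theorem choose_two_le_aux {n : ℕ} : ∀ k : ℕ, 2 ≤ k → 2 * k ≤ n → n.choose 2 ≤ n.choose k := by
  intro k
  induction k with
  | zero => intro h; omega
  | succ k ih =>
    intro h2 hk
    rcases Nat.lt_or_ge k 2 with h | h
    · have : k = 1 := by omega
      subst this
      exact le_rfl
    · exact (ih h (by omega)).trans (Nat.choose_le_succ_of_lt_half_left (by omega))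

theorem choose_two_le {n k : ℕ} (h2 : 2 ≤ k) (hk : k + 2 ≤ n) : n.choose 2 ≤ n.choose k := by
  rcases Nat.le_total (2 * k) n with h | h
  · exact choose_two_le_aux k h2 h
  · have e : n.choose k = n.choose (n - k) := (Nat.choose_symm (by omega)).symm
    rw [e]
    exact choose_two_le_aux (n - k) (by omega) (by omega)

theorem prof (s : Sit G Ω B f) {j : ℕ} (hj : 3 ≤ j) {T C F : Set Ω} (hF : F ∈ B) (hCF : C ⊆ F)
    (hTC : T ⊆ C) (hT : T.ncard = j + 1) (hcl : cl B T = C) (h3 : H3 G T)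
    (hcS : ∀ x ∈ T, cl B (T \ {x}) = T \ {x}) (hcard : C.ncard < (j + 1).choose 2)
    (V : Ω → Set Ω) (hVi : ∀ x ∈ T, Inv G (T \ {x}) (V x)) (hVC : ∀ x ∈ T, Disjoint (V x) C)
    (hVn : ∀ x ∈ T, (V x).Nonempty) (hVe : ∀ g : G, g • T = T → ∀ x ∈ T, g • V x = V (g • x))
    (hw : ∀ x ∈ T, w F (V x) < j) :
    (∀ x ∈ T, {y | y ∉ C ∧ ∀ z ∈ T, y ∈ V z ↔ z = x}.Nonempty) ∧
    (∀ y ∉ C, (∀ z ∈ T, y ∉ V z) ∨ (∀ z ∈ T, y ∈ V z) ∨ ∃ x ∈ T, ∀ z ∈ T, y ∈ V z ↔ z = x) := by
  classical
  haveI := s.fin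
  have hTne : T.Nonempty := by
    rw [Set.nonempty_iff_ne_empty]; rintro rfl; simp at hT
  have hCne : C.Nonempty := hTne.mono hTC
  have hcC : cl B C = C := by rw [← hcl, cl_cl]
  -- invariance under `G_(C)`
  have hfix : ∀ g ∈ fixingSubgroup G C, ∀ x, g ∈ fixingSubgroup G (T \ {x}) := by
    intro g hg x
    rw [mem_fixingSubgroup_iff] at hg ⊢
    exact fun y hy => hg y (hTC hy.1)
  have hVC' : ∀ g ∈ fixingSubgroup G C, ∀ z ∈ T, ∀ y, g • y ∈ V z ↔ y ∈ V z := by
    intro g hg z hz y
    constructor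
    · intro h
      have := hVi z hz g⁻¹ (inv_mem (hfix g hg z)) _ h
      rwa [inv_smul_smul] at this
    · intro h
      exact hVi z hz g (hfix g hg z) y h
  have hCi : ∀ g ∈ fixingSubgroup G C, ∀ y, y ∉ C → g • y ∉ C := by
    intro g hg y hy h
    have h1 := (mem_fixingSubgroup_iff G).1 (inv_mem hg) _ h
    rw [inv_smul_smul] at h1
    exact hy (h1 ▸ h)
  have hPRi : ∀ P, Inv G C (PR C T V P) := by
    intro P g hg y hy
    refine ⟨hCi g hg y hy.1, fun z hz => ?_⟩
    rw [hVC' g hg z hz]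
    exact hy.2 z hz
  have hPRd : ∀ P, Disjoint (PR C T V P) C := fun P => Set.disjoint_left.2 fun y hy h => hy.1 h
  have hPRdd : ∀ P P', P ⊆ T → P' ⊆ T → P ≠ P' → Disjoint (PR C T V P) (PR C T V P') := by
    intro P P' hP hP' hne
    rw [Set.disjoint_left]
    intro y hy hy'
    apply hne
    ext z
    constructor
    · intro hz
      exact (hy'.2 z (hP hz)).1 ((hy.2 z (hP hz)).2 hz)
    · intro hz
      exact (hy.2 z (hP' hz)).1 ((hy'.2 z (hP' hz)).2 hz)
  -- the set of profiles
  let Q : Set (Set Ω) := {P | P ⊆ T ∧ (PR C T V P).Nonempty}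
  have hQinv : ∀ g : G, g • T = T → ∀ P ∈ Q, g • P ∈ Q := by
    rintro g hg P ⟨hPT, y, hy⟩
    refine ⟨?_, g • y, ?_, ?_⟩
    · rw [← hg]; exact Set.smul_set_mono hPT
    · have hgC : g • C = C := by rw [← hcl, smul_cl s, hg]
      intro h
      rw [← hgC, Set.smul_mem_smul_set_iff] at h
      exact hy.1 h
    · intro z hz
      obtain ⟨z', hz', rfl⟩ : ∃ z' ∈ T, g • z' = z := by
        rw [← hg] at hz
        obtain ⟨z', h1, h2⟩ := hz
        exact ⟨z', h1, h2⟩
      rw [← hVe g hg z' hz', Set.smul_mem_smul_set_iff, Set.smul_mem_smul_set_iff]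
      exact hy.2 z' hz'
  have hhom : ∀ P P', P ∈ Q → P' ⊆ T → P'.ncard = P.ncard → P' ∈ Q := by
    intro P P' hP hP' hc
    exact hom h3 (by omega) Q (fun P hP => hP.1) hQinv hP hP' hc
  -- profiles as sets
  have hprof : ∀ y ∉ C, {z | z ∈ T ∧ y ∈ V z} ∈ Q := by
    intro y hy
    refine ⟨fun z hz => hz.1, y, hy, fun z hz => ?_⟩
    simp [hz]
  have key : ∀ P ∈ Q, P.Nonempty → P ≠ T → P.ncard = 1 := by
    intro P hP hPn hPT
    have hPle : P.ncard ≤ j := by
      have := Set.ncard_lt_ncard (lt_of_le_of_ne hP.1 hPT) (Set.toFinite T)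
      omega
    have hP1 : 1 ≤ P.ncard := by
      have := (Set.ncard_pos (Set.toFinite P)).2 hPn
      omega
    by_contra hne
    set k := P.ncard with hk
    -- `binom(j+1,k) ≤ |C|`
    let Tf : Finset Ω := (Set.toFinite T).toFinset
    have hTf : Tf.card = j + 1 := by rw [← hT, Set.ncard_eq_toFinset_card T (Set.toFinite T)]
    have hcnt : (j + 1).choose k ≤ C.ncard := by
      have h1 := card_le s hCne hF hCF hcC (ι := {p : Finset Ω // p ∈ Tf.powersetCard k})
        (fun p => PR C T V (p.1 : Set Ω)) ?_ (fun p => hPRi _) (fun p => hPRd _) ?_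
      · rw [Fintype.card_coe, Finset.card_powersetCard, hTf] at h1
        exact h1
      · intro p q hpq
        refine hPRdd _ _ ?_ ?_ ?_
        · intro z hz
          have := (Finset.mem_powersetCard.1 p.2).1 hz
          simpa [Tf] using this
        · intro z hz
          have := (Finset.mem_powersetCard.1 q.2).1 hz
          simpa [Tf] using this
        · intro e
          exact hpq (Subtype.ext (Finset.coe_injective e))
      · intro p
        have hp := Finset.mem_powersetCard.1 p.2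
        refine (hhom P _ hP ?_ ?_).2
        · intro z hz
          have := hp.1 hz
          simpa [Tf] using this
        · rw [Set.ncard_coe_finset, hp.2]
    have hkj : k = j := by
      by_contra h
      have := choose_two_le (n := j + 1) (k := k) (by omega) (by omega)
      omega
    -- now `k = j`
    obtain ⟨x, hx⟩ := hTne
    have hle : ((Tf.erase x).card : ℤ) ≤ w F (V x) := by
      refine card_le_w s hCne hF hCF hcC (fun z => PR C T V (T \ {z})) (Tf.erase x) ?_ (fun z _ => hPRi _) ?_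
        (V x) ?_ (hVC x hx) ?_
      · intro z hz z' hz' hne'
        refine hPRdd _ _ Set.diff_subset Set.diff_subset ?_
        intro e
        have hzT : z ∈ T := by
          have := Finset.mem_of_mem_erase hz
          simpa [Tf] using this
        have : z ∈ T \ {z'} := ⟨hzT, hne'⟩
        rw [← e] at this
        exact this.2 rfl
      · intro z hz
        have hzT : z ∈ T := by
          have := Finset.mem_of_mem_erase hz
          simpa [Tf] using this
        refine (hhom P _ hP Set.diff_subset ?_).2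
        rw [Set.ncard_diff_singleton_of_mem hzT, hT, ← hk, hkj]
        rfl
      · intro g hg y hy
        exact (hVC' g hg x hx y).2 hy
      · intro z hz y hy
        have hne' : x ≠ z := fun e => (Finset.ne_of_mem_erase hz) e.symm
        exact (hy.2 x hx).2 ⟨hx, hne'⟩
    have hxTf : x ∈ Tf := by simpa [Tf] using hx
    rw [Finset.card_erase_of_mem hxTf, hTf] at hle
    have := hw x hx
    simp at hle
    omega
  have hex : ∃ P ∈ Q, P.Nonempty ∧ P ≠ T := by
    by_contra hno
    push_neg at hno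
    have hall : ∀ y ∉ C, (∃ z ∈ T, y ∈ V z) → ∀ z ∈ T, y ∈ V z := by
      rintro y hy ⟨z, hz, hyz⟩ z' hz'
      have h1 := hno _ (hprof y hy) ⟨z, hz, hyz⟩
      have : z' ∈ {z | z ∈ T ∧ y ∈ V z} := by rw [h1]; exact hz'
      exact this.2
    obtain ⟨x0, hx0⟩ := hTne
    have hsub : ∀ x ∈ T, ∀ y, y ∈ V x0 → y ∈ V x := by
      intro x hx y hy
      exact hall y (Set.disjoint_left.1 (hVC x0 hx0) hy) ⟨x0, hx0, hy⟩ x hx
    have hsub' : ∀ x ∈ T, ∀ y, y ∈ V x → y ∈ V x0 := by
      intro x hx y hy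
      exact hall y (Set.disjoint_left.1 (hVC x hx) hy) ⟨x, hx, hy⟩ x0 hx0
    obtain ⟨a, ha⟩ := s.gen F hF {A | ∃ x ∈ T, A = T \ {x}} ⟨_, x0, hx0, rfl⟩
      (by rintro _ ⟨x, hx, rfl⟩; exact Set.diff_subset.trans (hTC.trans hCF))
      (V x0) (hVn x0 hx0)
      (by
        intro e
        obtain ⟨c, hc⟩ := hCne
        exact Set.disjoint_left.1 (hVC x0 hx0) (by rw [e]; trivial) hc)
      (by
        rintro _ ⟨x, hx, rfl⟩ g hg y hy
        exact hsub' x hx _ (hVi x hx g hg y (hsub x hx y hy)))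
    have h0 := ha _ ⟨x0, hx0, rfl⟩
    rw [hcS x0 hx0] at h0
    have h1 := ha _ ⟨a, h0.1, rfl⟩
    rw [hcS a h0.1] at h1
    exact h1.2 rfl
  obtain ⟨P, hP, hPn, hPT⟩ := hex
  have hP1 := key P hP hPn hPT
  constructor
  · intro x hx
    obtain ⟨_, y, hy⟩ := hhom P {x} hP (by simpa using hx) (by rw [Set.ncard_singleton, hP1])
    exact ⟨y, hy.1, fun z hz => by simpa using hy.2 z hz⟩
  · intro y hy
    have hyQ := hprof y hy
    rcases Set.eq_empty_or_nonempty {z | z ∈ T ∧ y ∈ V z} with he | hn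
    · left
      intro z hz hyz
      have : z ∈ {z | z ∈ T ∧ y ∈ V z} := ⟨hz, hyz⟩
      rw [he] at this
      exact this
    · right
      by_cases hT' : {z | z ∈ T ∧ y ∈ V z} = T
      · left
        intro z hz
        rw [← hT'] at hz
        exact hz.2
      · right
        have h1 := key _ hyQ hn hT'
        obtain ⟨x, hx⟩ := Set.ncard_eq_one.1 h1
        have hxT : x ∈ {z | z ∈ T ∧ y ∈ V z} := by rw [hx]; rfl
        refine ⟨x, hxT.1, fun z hz => ?_⟩
        constructor
        · intro h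
          have : z ∈ {z | z ∈ T ∧ y ∈ V z} := ⟨hz, h⟩
          rw [hx] at this
          exact this
        · rintro rfl
          exact hxT.2

end T0

end Cfsg.Agent.Lib.Pro
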