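import Mathlib
import Cfsg.Agent.Lib.Pro0
import Cfsg.Agent.Lib.ProA
import Cfsg.Agent.Lib.ProP2
import Cfsg.Agent.Lib.ProT0

/-! S3399, piece T1 -/

set_option autoImplicit false
set_option linter.all false

open scoped Pointwise

namespace Cfsg.Agent.Lib.Pro

section T1
variable {G Ω : Type} [Group G] [MulAction G Ω] {B : Set (Set Ω)} {f : ℕ}

theorem smul_orb (g : G) (A : Set Ω) (x : Ω) : g • orb G A x = orb G (g • A) (g • x) := by
  ext y
  rw [Set.mem_smul_set_iff_inv_smul_mem]
  constructor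
  · rintro ⟨h, hh, e⟩
    refine ⟨g * h * g⁻¹, ?_, ?_⟩
    · rw [mem_fixingSubgroup_iff] at hh ⊢
      rintro _ ⟨a, ha, rfl⟩
      show (g * h * g⁻¹) • g • a = g • a
      rw [smul_smul, inv_mul_cancel_right, mul_smul, hh a ha]
    · rw [smul_smul, inv_mul_cancel_right, mul_smul, e, smul_inv_smul]
  · rintro ⟨h, hh, e⟩
    refine ⟨g⁻¹ * h * g, ?_, ?_⟩
    · rw [mem_fixingSubgroup_iff] at hh ⊢
      intro a ha
      rw [mul_assoc, mul_smul, mul_smul, hh _ (Set.smul_mem_smul_set ha), inv_smul_smul]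
    · rw [mul_assoc, mul_smul, mul_smul, e]

/-- the points outside `T \ {x}` not conjugate to `x` -/
def VV (G : Type) {Ω : Type} [Group G] [MulAction G Ω] (T : Set Ω) (x : Ω) : Set Ω :=
  {y | y ∉ T \ {x} ∧ y ∉ orb G (T \ {x}) x}

theorem inv_compl2 {A Y : Set Ω} (hY : Inv G A Y) : Inv G A {y | y ∉ A ∧ y ∉ Y} := by
  intro g hg y hy
  have hg' := (mem_fixingSubgroup_iff G).1 (inv_mem hg)
  refine ⟨fun h => hy.1 ?_, fun h => hy.2 ?_⟩
  · have := hg' _ h
    rw [inv_smul_smul] at this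
    rwa [← this] at h
  · have := hY g⁻¹ (inv_mem hg) _ h
    rwa [inv_smul_smul] at this

theorem closedT (s : Sit G Ω B f) {j : ℕ} (hj : 3 ≤ j) (hcl : ∀ i ≤ j, Closed B i)
    (hn : ∀ S : Set Ω, S.ncard = j → ¬ Trans G S) {T F : Set Ω} (h3 : H3 G T)
    (hT : T.ncard = j + 1) (hTc : cl B T = T) (hF : F ∈ B) (hTF : T ⊆ F) {x : Ω} (hx : x ∈ T) :
    w F (orb G (T \ {x}) x) = j - 1 ∧ w F (VV G T x) = 1 ∧ (VV G T x).Nonempty := by
  classical
  have := s.fin
  have hTne : T.Nonempty := ⟨x, hx⟩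
  have hScard : ∀ z ∈ T, (T \ {z}).ncard = j := by
    intro z hz
    rw [Set.ncard_sdiff_singleton_of_mem hz, hT]; rfl
  have hcS : ∀ z ∈ T, cl B (T \ {z}) = T \ {z} := fun z hz => hcl j le_rfl _ (hScard z hz)
  have hSn : ∀ z ∈ T, (T \ {z}).Nonempty := by
    intro z hz
    rw [Set.nonempty_iff_ne_empty]
    intro e
    have := hScard z hz
    rw [e, Set.ncard_empty] at this
    omega
  have hVi : ∀ z ∈ T, Inv G (T \ {z}) (VV G T z) := fun z _ => inv_compl2 (orb_inv _ _)
  have hVC : ∀ z ∈ T, Disjoint (VV G T z) T := by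
    intro z hz
    rw [Set.disjoint_left]
    intro y hy hyT
    by_cases h : y = z
    · subst h
      exact hy.2 (self_orb _ _)
    · exact hy.1 ⟨hyT, h⟩
  have hVn : ∀ z ∈ T, (VV G T z).Nonempty := by
    intro z hz
    by_contra hne
    apply hn _ (hScard z hz)
    have hall : ∀ y, y ∉ T \ {z} → y ∈ orb G (T \ {z}) z := by
      intro y hy
      by_contra h
      exact hne ⟨y, hy, h⟩
    intro a ha b hb
    obtain ⟨g, hg, hga⟩ := hall a ha
    obtain ⟨h, hh, hhb⟩ := hall b hb
    exact ⟨h * g⁻¹, mul_mem hh (inv_mem hg), by rw [mul_smul, ← hga, inv_smul_smul, hhb]⟩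
  have hVe : ∀ g : G, g • T = T → ∀ z ∈ T, g • VV G T z = VV G T (g • z) := by
    intro g hg z hz
    have e1 : g • (T \ {z}) = T \ {g • z} := by
      rw [Set.smul_set_sdiff, hg, Set.smul_set_singleton]
    ext y
    rw [Set.mem_smul_set_iff_inv_smul_mem]
    have a1 : g⁻¹ • y ∈ T \ {z} ↔ y ∈ T \ {g • z} := by
      rw [← e1, Set.mem_smul_set_iff_inv_smul_mem]
    have a2 : g⁻¹ • y ∈ orb G (T \ {z}) z ↔ y ∈ orb G (T \ {g • z}) (g • z) := by
      rw [← e1, ← smul_orb, Set.mem_smul_set_iff_inv_smul_mem]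
    show (_ ∉ _ ∧ _ ∉ _) ↔ (_ ∉ _ ∧ _ ∉ _)
    rw [a1, a2]
  -- weights
  have hsum : ∀ z ∈ T, w F (orb G (T \ {z}) z) + w F (VV G T z) = j := by
    intro z hz
    have h1 := total_eq s hF (Set.sdiff_subset.trans hTF : T \ {z} ⊆ F) (ι := Bool)
      (fun b => if b then orb G (T \ {z}) z else VV G T z) ?_ ?_ ?_
    · rw [Fintype.sum_bool, hScard z hz] at h1
      simpa using h1
    · intro b c hbc
      have hd : Disjoint (orb G (T \ {z}) z) (VV G T z) :=
        Set.disjoint_left.2 fun y hy hy' => hy'.2 hy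
      cases b <;> cases c <;> simp at hbc ⊢
      · exact hd.symm
      · exact hd
    · intro b
      cases b
      · simp only [Bool.false_eq_true, if_false]
        exact Set.disjoint_left.2 fun y hy hy' => hy.1 hy'
      · simp only [if_true]
        exact orb_disj (fun h => h.2 rfl)
    · intro y hy
      by_cases h : y ∈ orb G (T \ {z}) z
      · exact ⟨true, by simpa using h⟩
      · exact ⟨false, by simp only [Bool.false_eq_true, if_false]; exact ⟨hy, h⟩⟩
  have horb1 : ∀ z ∈ T, 1 ≤ w F (orb G (T \ {z}) z) := by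
    intro z hz
    exact pos_flat s (hSn z hz) hF (Set.sdiff_subset.trans hTF) (hcS z hz) (orb_inv _ _)
      ⟨z, self_orb _ _⟩ (orb_disj (fun h => h.2 rfl))
  have hV1 : ∀ z ∈ T, 1 ≤ w F (VV G T z) := by
    intro z hz
    exact pos_flat s (hSn z hz) hF (Set.sdiff_subset.trans hTF) (hcS z hz) (hVi z hz)
      (hVn z hz) (Set.disjoint_left.2 fun y hy hy' => hy.1 hy')
  have hchoose : T.ncard < (j + 1).choose 2 := by
    rw [hT, Nat.choose_two_right]
    simp only [Nat.add_sub_cancel]
    have h5 : (j + 1) * 3 ≤ (j + 1) * j := Nat.mul_le_mul_left _ hj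
    omega
  have hprof := prof s hj hF hTF (le_refl T) hT hTc h3 hcS hchoose (VV G T) hVi hVC hVn hVe
    (by intro z hz; have := hsum z hz; have := horb1 z hz; omega)
  set P : Ω → Set Ω := fun z => {y | y ∉ T ∧ ∀ u ∈ T, y ∈ VV G T u ↔ u = z} with hP
  have hfix : ∀ g ∈ fixingSubgroup G T, ∀ z, g ∈ fixingSubgroup G (T \ {z}) := by
    intro g hg z
    rw [mem_fixingSubgroup_iff] at hg ⊢
    exact fun y hy => hg y hy.1
  have hPi : ∀ z, Inv G T (P z) := by
    intro z g hg y hy
    have hgT : g • y ∉ T := by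
      intro h
      have h1 := (mem_fixingSubgroup_iff G).1 (inv_mem hg) _ h
      rw [inv_smul_smul] at h1
      exact hy.1 (h1 ▸ h)
    refine ⟨hgT, fun u hu => ?_⟩
    rw [← hy.2 u hu]
    constructor
    · intro h
      have := hVi u hu g⁻¹ (inv_mem (hfix g hg u)) _ h
      rwa [inv_smul_smul] at this
    · exact hVi u hu g (hfix g hg u) y
  have hPd : ∀ z z', z ∈ T → z' ∈ T → z ≠ z' → Disjoint (P z) (P z') := by
    intro z z' hz hz' hne
    rw [Set.disjoint_left]
    intro y hy hy'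
    exact hne ((hy'.2 z hz).1 ((hy.2 z hz).2 rfl))
  have hPn : ∀ z ∈ T, (P z).Nonempty := hprof.1
  have hPT : ∀ z, Disjoint (P z) T := fun z => Set.disjoint_left.2 fun y hy h => hy.1 h
  have hfint : Fintype T := Fintype.ofFinite T
  have hcardT : Fintype.card T = j + 1 := by
    rw [← hT, ← Nat.card_coe_set_eq, Nat.card_eq_fintype_card]
  -- nothing else
  have hcover : ∀ y, y ∉ T → ∃ z : T, y ∈ P z := by
    by_contra hno
    push Not at hno
    obtain ⟨y0, hy0, hy0'⟩ := hno
    let R : Set Ω := {y | y ∉ T ∧ y ∉ ⋃ z : T, P z}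
    have hR : Inv G T R := by
      apply inv_compl2
      intro g hg y hy
      obtain ⟨z, hz⟩ := Set.mem_iUnion.1 hy
      exact Set.mem_iUnion.2 ⟨z, hPi z g hg y hz⟩
    have hc := card_le s hTne hF hTF hTc (ι := Option T)
      (fun o => match o with | none => R | some z => P z) ?_ ?_ ?_ ?_
    · rw [Fintype.card_option, hcardT, hT] at hc
      omega
    · rintro (_ | z) (_ | z') hne
      · exact absurd rfl hne
      · exact Set.disjoint_left.2 fun y hy hy' => hy.2 (Set.mem_iUnion.2 ⟨z', hy'⟩)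
      · exact Set.disjoint_left.2 fun y hy' hy => hy.2 (Set.mem_iUnion.2 ⟨z, hy'⟩)
      · exact hPd z z' z.2 z'.2 (fun e => hne (by rw [Subtype.ext e]))
    · rintro (_ | z)
      · exact hR
      · exact hPi z
    · rintro (_ | z)
      · exact Set.disjoint_left.2 fun y hy h => hy.1 h
      · exact hPT z
    · rintro (_ | z)
      · exact ⟨y0, hy0, fun h => by
          obtain ⟨z, hz⟩ := Set.mem_iUnion.1 h
          exact hy0' z hz⟩
      · exact hPn z z.2
  have hsumP : ∑ z : T, w F (P z) = j + 1 := by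
    have := total_eq s hF hTF (ι := T) (fun z => P z)
      (fun z z' hne => hPd z z' z.2 z'.2 (fun e => hne (Subtype.ext e))) (fun z => hPT z)
      (fun y hy => hcover y hy)
    rw [this, hT]; push_cast; rfl
  have hP1 : ∀ z : T, 1 ≤ w F (P z) := fun z =>
    pos_flat s hTne hF hTF hTc (hPi z) (hPn z z.2) (hPT z)
  have hPx : w F (P x) = 1 := by
    have h0 : ∑ z : T, (w F (P z) - 1) = 0 := by
      rw [Finset.sum_sub_distrib, hsumP]
      simp [hcardT]
    have h1 := (Finset.sum_eq_zero_iff_of_nonneg (fun z _ => by have := hP1 z; omega)).1 h0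
      ⟨x, hx⟩ (Finset.mem_univ _)
    simp only at h1
    omega
  have hVP : VV G T x = P x := by
    ext y
    constructor
    · intro hy
      obtain ⟨z, hz⟩ := hcover y (Set.disjoint_left.1 (hVC x hx) hy)
      have : x = z := (hz.2 x hx).1 hy
      rw [this]
      exact hz
    · intro hy
      exact (hy.2 x hx).2 rfl
  have hVw : w F (VV G T x) = 1 := by rw [hVP]; exact hPx
  refine ⟨?_, hVw, hVn x hx⟩
  have := hsum x hx
  omega

/-- T1: no closed `(j+1)`-sets (uses prof, star/cov_one, A) -/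
theorem nonclosed (s : Sit G Ω B f) {j : ℕ} (hj : 3 ≤ j) (hjf : j < f)
    (htr : ∀ i < j, ∀ S : Set Ω, S.ncard = i → Trans G S) (hcl : ∀ i ≤ j, Closed B i)
    (hn : ∀ S : Set Ω, S.ncard = j → ¬ Trans G S) (h3 : ∀ T : Set Ω, T.ncard = j + 1 → H3 G T)
    (T : Set Ω) (hT : T.ncard = j + 1) : cl B T ≠ T := by
  classical
  have := s.fin
  intro hTc
  have hcardne : ∀ A : Set Ω, A.ncard = j + 1 → A ≠ Set.univ := by
    rintro A hA rfl
    rw [Set.ncard_univ, s.card] at hA
    omega
  obtain ⟨F, hF, hTF⟩ := ex_block (B := B) (A := T) (by rw [hTc]; exact hcardne T hT)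
  obtain ⟨x, hx⟩ : T.Nonempty := by
    rw [Set.nonempty_iff_ne_empty]; rintro rfl; simp at hT
  obtain ⟨-, hV1, x', hx'⟩ := closedT s hj hcl hn (h3 T hT) hT hTc hF hTF hx
  set S := T \ {x} with hS
  have hScard : S.ncard = j := by
    rw [hS, Set.ncard_sdiff_singleton_of_mem hx, hT]; rfl
  have hSc : cl B S = S := hcl j le_rfl _ hScard
  have hSF : S ⊆ F := Set.sdiff_subset.trans hTF
  have hSn : S.Nonempty := by
    rw [Set.nonempty_iff_ne_empty]; rintro h; rw [h, Set.ncard_empty] at hScard; omega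
  have hxS : x ∉ S := fun h => h.2 rfl
  have hx'S : x' ∉ S := hx'.1
  have hVi : Inv G S (VV G T x) := inv_compl2 (orb_inv _ _)
  have hVS : Disjoint (VV G T x) S := Set.disjoint_left.2 fun y hy hy' => hy.1 hy'
  have hosub : orb G S x' ⊆ VV G T x := orb_sub hVi hx'
  have hVo : VV G T x = orb G S x' := by
    by_contra hne
    have hn' : (VV G T x \ orb G S x').Nonempty := by
      rw [Set.sdiff_nonempty]
      intro h
      exact hne (Set.Subset.antisymm h hosub)
    have e : w F (VV G T x) = w F (orb G S x') + w F (VV G T x \ orb G S x') := by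
      conv_lhs => rw [(Set.union_sdiff_cancel hosub).symm]
      exact w_union F _ _ Set.disjoint_sdiff_right
    have a1 := pos_flat s hSn hF hSF hSc (orb_inv S x') ⟨x', self_orb _ _⟩ (orb_disj hx'S)
    have a2 := pos_flat s hSn hF hSF hSc (inv_diff hVi (orb_inv S x')) hn'
      (hVS.mono_left Set.sdiff_subset)
    omega
  have hwo : w F (orb G S x') = 1 := by rw [← hVo]; exact hV1
  obtain ⟨hcov, huniv, hint⟩ := cov_one s hSn hF hSF hSc hx'S hwo
  obtain ⟨F', hF', hT'F'⟩ := ex_block huniv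
  have hT'card : (insert x' S).ncard = j + 1 := by
    rw [Set.ncard_insert_of_notMem hx'S, hScard]
  have hnc : cl B (insert x' S) ≠ insert x' S := by
    intro hc
    obtain ⟨h1, -, -⟩ := closedT s hj hcl hn (h3 _ hT'card) hT'card hc hF' hT'F' (Set.mem_insert x' S)
    have e : insert x' S \ {x'} = S := by
      rw [Set.insert_sdiff_self_of_notMem hx'S]
    rw [e] at h1
    have h2 := w_const s hF hF' hSF ((Set.subset_insert _ _).trans hT'F') (orb_inv (G := G) S x')
    omega
  obtain ⟨d, hd, hdT⟩ : ∃ d ∈ cl B (insert x' S), d ∉ insert x' S := by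
    by_contra hno
    push Not at hno
    exact hnc (Set.Subset.antisymm hno (subset_cl _ _))
  have hdS : d ∉ S := fun h => hdT (Set.mem_insert_of_mem _ h)
  have hdx : d ≠ x' := fun h => hdT (h ▸ Set.mem_insert _ _)
  have hdV : d ∉ VV G T x := by
    rw [hVo]
    intro h
    have : d ∈ ({x'} : Set Ω) := by rw [← hint]; exact ⟨hd, h⟩
    exact hdx this
  have hdo : d ∈ orb G S x := by
    by_contra h
    exact hdV ⟨hdS, h⟩
  obtain ⟨g, hg, hgx⟩ := hdo
  have h1 : cl B (insert d S) = cl B (insert x' S) := hcov.2 d hd hdS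
  have hgS : g • S = S := by
    have hg' := (mem_fixingSubgroup_iff G).1 hg
    ext y
    constructor
    · rintro ⟨a, ha, rfl⟩
      show g • a ∈ S
      rw [hg' a ha]; exact ha
    · intro hy
      exact ⟨y, hy, hg' y hy⟩
  have hxT : insert x S = T := by rw [hS, Set.insert_sdiff_singleton, Set.insert_eq_of_mem hx]
  have h2 : cl B (insert d S) = insert d S := by
    have e : insert d S = g • T := by
      rw [← hxT, Set.smul_set_insert, hgS, hgx]
    rw [e, ← smul_cl s, hTc]
  have h3' : x' ∈ cl B (insert x' S) := subset_cl _ _ (Set.mem_insert _ _)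
  rw [← h1, h2] at h3'
  rcases h3' with h | h
  · exact hdx h.symm
  · exact hx'S h

end T1

end Cfsg.Agent.Lib.Pro
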