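import Mathlib
import Cfsg.Agent.Lib.Pro0
import Cfsg.Agent.Lib.ProA

/-! S3399, piece T2 (helper83): a minimal closure. -/

set_option autoImplicit false
set_option linter.all false
open scoped Pointwise

namespace Cfsg.Agent.Lib.Pro

variable {G Ω : Type} [Group G] [MulAction G Ω] {B : Set (Set Ω)} {f : ℕ}

theorem fix_smul_eq {S : Set Ω} {g : G} (hg : g ∈ fixingSubgroup G S) : g • S = S := by
  have h1 : ∀ x ∈ S, g • x = x := fun x hx => (mem_fixingSubgroup_iff G).1 hg x hx
  ext x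
  rw [Set.mem_smul_set]
  constructor
  · rintro ⟨y, hy, rfl⟩
    rw [h1 y hy]; exact hy
  · intro hx
    exact ⟨x, hx, h1 x hx⟩

theorem fix_not_mem {S : Set Ω} {g : G} (hg : g ∈ fixingSubgroup G S) {y : Ω} (hy : y ∉ S) : g • y ∉ S := by
  intro h
  have h1 : g • (g • y) = g • y := (mem_fixingSubgroup_iff G).1 hg _ h
  have h2 : g • y = y := smul_left_cancel g h1
  rw [h2] at h
  exact hy h

theorem trans_sets [Finite Ω] {j : ℕ} (htr : ∀ i < j, ∀ S : Set Ω, S.ncard = i → Trans G S) :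
    ∀ i ≤ j, ∀ S S' : Set Ω, S.ncard = i → S'.ncard = i → ∃ g : G, g • S = S' := by
  intro i
  induction i with
  | zero =>
    intro _ S S' hS hS'
    have h1 : S = ∅ := (Set.ncard_eq_zero (Set.toFinite S)).1 hS
    have h2 : S' = ∅ := (Set.ncard_eq_zero (Set.toFinite S')).1 hS'
    exact ⟨1, by rw [h1, h2, one_smul]⟩
  | succ i ih =>
    intro hi S S' hS hS'
    obtain ⟨x, A, hxA, hA, hAc⟩ := Set.eq_insert_of_ncard_eq_succ hS
    obtain ⟨x', A', hxA', hA', hAc'⟩ := Set.eq_insert_of_ncard_eq_succ hS'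
    obtain ⟨g, hg⟩ := ih (by omega) A A' hAc hAc'
    have h1 : g • x ∉ A' := by
      rw [← hg]
      intro h
      exact hxA (Set.smul_mem_smul_set_iff.1 h)
    obtain ⟨h, hh, hhx⟩ := htr i (by omega) A' hAc' (g • x) h1 x' hxA'
    refine ⟨h * g, ?_⟩
    rw [← hA, ← hA', mul_smul, Set.smul_set_insert, Set.smul_set_insert, hg, hhx, fix_smul_eq hh]

theorem minC_of (s : Sit G Ω B f) {j : ℕ} (hj : 3 ≤ j) (hjf : j < f)
    (cov_le' : ∀ {A F D Y : Set Ω}, A.Nonempty → F ∈ B → A ⊆ F → cl B A = A → Cov B A D → Inv G A Y →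
      Disjoint Y A → ((D ∩ Y).ncard : ℤ) ≤ w F Y)
    (stein' : ∀ k : ℕ, j + 1 < k → (∀ S : Set Ω, S.ncard = j + 1 → (cl B S).ncard = k) → False)
    (htr : ∀ i < j, ∀ S : Set Ω, S.ncard = i → Trans G S) (hcl : ∀ i ≤ j, Closed B i)
    (hnc : ∀ T : Set Ω, T.ncard = j + 1 → cl B T ≠ T) :
    ∃ C F q, F ∈ B ∧ C ⊆ F ∧ cl B C = C ∧ C.ncard = j + q ∧ 2 ≤ q ∧ q + 1 ≤ j ∧
      (∀ T ⊆ C, T.ncard = j + 1 → cl B T = C) ∧
      ∀ S ⊆ C, S.ncard = j → {y | ∀ g ∈ fixingSubgroup G S, g • y ∉ C}.Nonempty ∧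
        w F {y | ∀ g ∈ fixingSubgroup G S, g • y ∉ C} + q ≤ j := by
  classical
  haveI := s.fin
  obtain ⟨F0, hF0⟩ := s.ne
  have hF0c := s.bf F0 hF0
  obtain ⟨T1, hT1F, hT1⟩ := Set.exists_subset_card_eq (s := F0) (n := j + 1) (by omega)
  -- minimal closure
  have hex : ∃ n, ∃ T : Set Ω, T.ncard = j + 1 ∧ (cl B T).ncard = n := ⟨_, T1, hT1, rfl⟩
  obtain ⟨T0, hT0, hT0n⟩ := Nat.find_spec hex
  have hmin : ∀ T : Set Ω, T.ncard = j + 1 → Nat.find hex ≤ (cl B T).ncard :=
    fun T hT => Nat.find_min' hex ⟨T, hT, rfl⟩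
  set C := cl B T0 with hC
  have hCf : C.ncard ≤ f := by
    rw [hT0n]
    refine (hmin T1 hT1).trans ?_
    rw [← hF0c]
    exact Set.ncard_le_ncard (cl_sub hF0 hT1F) (Set.toFinite _)
  have hblock : ∃ F ∈ B, T0 ⊆ F := by
    by_contra hcon
    push Not at hcon
    have : C = Set.univ := by
      ext x
      simp only [Set.mem_univ, iff_true]
      intro F hF hT
      exact absurd hT (hcon F hF)
    rw [this, Set.ncard_univ, s.card] at hCf
    have := s.f1
    omega
  obtain ⟨F, hF, hT0F⟩ := hblock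
  have hCF : C ⊆ F := cl_sub hF hT0F
  have hCC : cl B C = C := cl_cl _ _
  have hgen : ∀ T ⊆ C, T.ncard = j + 1 → cl B T = C := by
    intro T hTC hT
    apply Set.eq_of_subset_of_ncard_le (cl_le hTC) _ (Set.toFinite _)
    rw [hT0n]
    exact hmin T hT
  have hC1 : j + 2 ≤ C.ncard := by
    have h1 : T0 ⊆ C := subset_cl _ _
    have h2 : T0.ncard ≤ C.ncard := Set.ncard_le_ncard h1 (Set.toFinite _)
    rcases Nat.lt_or_ge (j + 1) C.ncard with h3 | h3
    · exact h3
    · exfalso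
      apply hnc T0 hT0
      exact (Set.eq_of_subset_of_ncard_le h1 (by omega) (Set.toFinite _)).symm
  obtain ⟨q, hq⟩ : ∃ q, C.ncard = j + q := ⟨C.ncard - j, by omega⟩
  have hcov : ∀ S ⊆ C, S.ncard = j → Cov B S C := by
    intro S hS hSj
    refine ⟨hS, fun x hx hxS => ?_⟩
    apply hgen _ (Set.insert_subset hx hS)
    rw [Set.ncard_insert_of_notMem hxS (Set.toFinite _), hSj]
  have hWn : ∀ S ⊆ C, S.ncard = j → {y | ∀ g ∈ fixingSubgroup G S, g • y ∉ C}.Nonempty := by
    intro S hS hSj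
    by_contra hcon
    rw [Set.not_nonempty_iff_eq_empty] at hcon
    have hall : ∀ y ∉ S, (cl B (insert y S)).ncard = C.ncard := by
      intro y hy
      have h1 : y ∉ {y | ∀ g ∈ fixingSubgroup G S, g • y ∉ C} := by rw [hcon]; exact Set.notMem_empty _
      simp only [Set.mem_setOf_eq, not_forall, not_not] at h1
      obtain ⟨g, hg, hgy⟩ := h1
      have h2 := (hcov S hS hSj).2 (g • y) hgy (fix_not_mem hg hy)
      have h3 : g • cl B (insert y S) = C := by
        rw [smul_cl s, Set.smul_set_insert, fix_smul_eq hg, h2]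
      rw [← h3, Set.ncard_smul_set]
    refine stein' C.ncard (by omega) ?_
    intro T hT
    obtain ⟨y, A, hyA, hA, hAc⟩ := Set.eq_insert_of_ncard_eq_succ hT
    obtain ⟨g, hg⟩ := trans_sets htr j le_rfl A S hAc hSj
    have h1 : g • y ∉ S := by
      rw [← hg]
      intro h
      exact hyA (Set.smul_mem_smul_set_iff.1 h)
    have h2 : g • cl B T = cl B (insert (g • y) S) := by
      rw [smul_cl s, ← hA, Set.smul_set_insert, hg]
    rw [← hall _ h1, ← h2, Set.ncard_smul_set]
  have hmain : ∀ S ⊆ C, S.ncard = j →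
      1 ≤ w F {y | ∀ g ∈ fixingSubgroup G S, g • y ∉ C} ∧
      w F {y | ∀ g ∈ fixingSubgroup G S, g • y ∉ C} + q ≤ j := by
    intro S hS hSj
    have hSn : S.Nonempty := by
      rw [← Set.ncard_pos (Set.toFinite _)]
      omega
    have hSF : S ⊆ F := hS.trans hCF
    have hSc : cl B S = S := hcl j le_rfl S hSj
    set W := {y | ∀ g ∈ fixingSubgroup G S, g • y ∉ C} with hW
    have hWi : Inv G S W := by
      intro g hg y hy h hh
      rw [← mul_smul]
      exact hy (h * g) (mul_mem hh hg)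
    have hWC : Disjoint W C := by
      rw [Set.disjoint_left]
      intro y hy hyC
      have := hy 1 (one_mem _)
      rw [one_smul] at this
      exact this hyC
    have hWS : Disjoint W S := hWC.mono_right hS
    have hw1 := pos_flat s hSn hF hSF hSc hWi (hWn S hS hSj) hWS
    refine ⟨hw1, ?_⟩
    set Z := (S ∪ W)ᶜ with hZ
    have hZi : Inv G S Z := by
      intro g hg y hy
      rw [hZ, Set.mem_compl_iff, Set.mem_union, not_or] at hy ⊢
      refine ⟨fix_not_mem hg hy.1, fun h => hy.2 ?_⟩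
      have := hWi g⁻¹ (inv_mem hg) _ h
      rwa [inv_smul_smul] at this
    have hZS : Disjoint Z S := by
      rw [Set.disjoint_left]
      intro y hy hyS
      exact hy (Or.inl hyS)
    have h1 := cov_le' hSn hF hSF hSc (hcov S hS hSj) hZi hZS
    have h2 : C ∩ Z = C \ S := by
      ext y
      constructor
      · rintro ⟨hy, hy'⟩
        exact ⟨hy, fun h => hy' (Or.inl h)⟩
      · rintro ⟨hy, hy'⟩
        refine ⟨hy, ?_⟩
        rintro (h | h)
        · exact hy' h
        · exact (Set.disjoint_left.1 hWC h) hy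
    have h3 : (C \ S).ncard = q := by
      have := Set.ncard_sdiff_add_ncard_of_subset hS (Set.toFinite _)
      omega
    have h4 : Sᶜ = Z ∪ W := by
      ext y
      simp only [hZ, Set.mem_compl_iff, Set.mem_union, not_or]
      constructor
      · intro hy
        by_cases hyW : y ∈ W
        · exact Or.inr hyW
        · exact Or.inl ⟨hy, hyW⟩
      · rintro (h | h)
        · exact h.1
        · exact Set.disjoint_left.1 hWS h
    have h5 : Disjoint Z W := by
      rw [Set.disjoint_left]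
      intro y hy hyW
      exact hy (Or.inr hyW)
    have h6 := w_compl s hF hSF
    rw [h4, w_union F Z W h5, hSj] at h6
    rw [h2, h3] at h1
    linarith
  obtain ⟨S0, hS0, hS0j⟩ := Set.exists_subset_card_eq (s := T0) (n := j) (by omega)
  have hS0C : S0 ⊆ C := hS0.trans (subset_cl _ _)
  have h7 := hmain S0 hS0C hS0j
  refine ⟨C, F, q, hF, hCF, hCC, hq, by omega, ?_, hgen, fun S hS hSj => ⟨hWn S hS hSj, (hmain S hS hSj).2⟩⟩
  have h8 := h7.1
  have h9 := h7.2
  have : (1 : ℤ) + q ≤ j := by linarith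
  omega

end Cfsg.Agent.Lib.Pro
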