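import Mathlib
import Cfsg.Agent.Lib.ProP1
import Cfsg.Agent.Lib.ProP2
import Cfsg.Agent.Lib.ProT0

set_option autoImplicit false
set_option linter.all false

open scoped Pointwise

namespace Cfsg.Agent.Lib.Pro

namespace T3

section
variable {G Ω : Type} [Group G] [MulAction G Ω] {B : Set (Set Ω)} {f : ℕ}

/-- points never moved into `C` by `G_(T \ x)` -/
def VV (G : Type) {Ω : Type} [Group G] [MulAction G Ω] (C T : Set Ω) (x : Ω) : Set Ω :=
  {y | ∀ g ∈ fixingSubgroup G (T \ {x}), g • y ∉ C}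

theorem VV_smul {C T : Set Ω} {g : G} (hT : g • T = T) (hC : g • C = C) {x y : Ω} (hy : y ∈ VV G C T x) :
    g • y ∈ VV G C T (g • x) := by
  intro h hh hc
  have h1 : g⁻¹ * h * g ∈ fixingSubgroup G (T \ {x}) := by
    rw [mem_fixingSubgroup_iff]
    intro t ht
    have h2 : g • t ∈ T \ {g • x} := by
      refine ⟨?_, ?_⟩
      · rw [← hT]; exact Set.smul_mem_smul_set ht.1
      · intro h3
        exact ht.2 (smul_left_cancel g h3)
    have h3 := (mem_fixingSubgroup_iff G).1 hh _ h2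
    rw [mul_smul, mul_smul, h3, inv_smul_smul]
  apply hy _ h1
  rw [mul_smul, mul_smul]
  rw [← Set.mem_smul_set_iff_inv_smul_mem, hC]
  exact hc

theorem inv_set {T : Set Ω} {g : G} (hT : g • T = T) : g⁻¹ • T = T := by
  rw [inv_smul_eq_iff, hT]

theorem VV_smul_iff {C T : Set Ω} {g : G} (hT : g • T = T) (hC : g • C = C) {x y : Ω} :
    g • y ∈ VV G C T (g • x) ↔ y ∈ VV G C T x := by
  constructor
  · intro h
    have := VV_smul (inv_set hT) (inv_set hC) h
    rwa [inv_smul_smul, inv_smul_smul] at this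
  · exact VV_smul hT hC

theorem VV_eq {C T : Set Ω} {g : G} (hT : g • T = T) (hC : g • C = C) (x : Ω) :
    g • VV G C T x = VV G C T (g • x) := by
  ext y
  rw [Set.mem_smul_set_iff_inv_smul_mem, ← VV_smul_iff hT hC, smul_inv_smul]

theorem VV_inv (C T : Set Ω) (x : Ω) : Inv G (T \ {x}) (VV G C T x) := by
  intro g hg y hy h hh
  rw [← mul_smul]
  exact hy _ (mul_mem hh hg)

theorem VV_disj (C T : Set Ω) (x : Ω) : Disjoint (VV G C T x) C := by
  rw [Set.disjoint_left]
  intro y hy hc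
  apply hy 1 (one_mem _)
  rwa [one_smul]

theorem fix_smul_set {A : Set Ω} {g : G} (hg : g ∈ fixingSubgroup G A) {A' : Set Ω} (h : A' ⊆ A) : g • A' = A' := by
  ext y
  rw [Set.mem_smul_set_iff_inv_smul_mem]
  constructor
  · intro hy
    have h1 := (mem_fixingSubgroup_iff G).1 hg _ (h hy)
    rw [smul_inv_smul] at h1
    rw [h1]; exact hy
  · intro hy
    have h1 := (mem_fixingSubgroup_iff G).1 hg _ (h hy)
    have h2 : g⁻¹ • y = y := by rw [inv_smul_eq_iff, h1]
    rw [h2]; exact hy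

theorem fix_mono {A A' : Set Ω} (h : A' ⊆ A) {g : G} (hg : g ∈ fixingSubgroup G A) : g ∈ fixingSubgroup G A' := by
  rw [mem_fixingSubgroup_iff] at hg ⊢
  exact fun y hy => hg y (h hy)

theorem VV_fix {C T : Set Ω} (hTC : T ⊆ C) {g : G} (hg : g ∈ fixingSubgroup G C) {x : Ω} (y : Ω) (hx : x ∈ T) :
    g • y ∈ VV G C T x ↔ y ∈ VV G C T x := by
  have h1 := (mem_fixingSubgroup_iff G).1 hg x (hTC hx)
  have h2 := VV_smul_iff (G := G) (C := C) (T := T) (g := g) (x := x) (y := y) (fix_smul_set hg hTC) (fix_smul_set hg subset_rfl)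
  rw [h1] at h2
  exact h2

/-- profile sets -/
def PP (G : Type) {Ω : Type} [Group G] [MulAction G Ω] (C T : Set Ω) (x : Ω) : Set Ω :=
  {y | y ∉ C ∧ ∀ z ∈ T, y ∈ VV G C T z ↔ z = x}

def EE (G : Type) {Ω : Type} [Group G] [MulAction G Ω] (C T : Set Ω) : Set Ω :=
  {y | y ∉ C ∧ ∀ z ∈ T, y ∉ VV G C T z}

theorem PP_inv {C T : Set Ω} (hTC : T ⊆ C) (x : Ω) : Inv G C (PP G C T x) := by
  intro g hg y hy
  refine ⟨?_, fun z hz => ?_⟩
  · intro h
    apply hy.1
    rw [← fix_smul_set hg (subset_rfl : C ⊆ C)] at h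
    rwa [Set.smul_mem_smul_set_iff] at h
  · rw [VV_fix hTC hg y hz]
    exact hy.2 z hz

theorem EE_inv {C T : Set Ω} (hTC : T ⊆ C) : Inv G C (EE G C T) := by
  intro g hg y hy
  refine ⟨?_, fun z hz => ?_⟩
  · intro h
    apply hy.1
    rw [← fix_smul_set hg (subset_rfl : C ⊆ C)] at h
    rwa [Set.smul_mem_smul_set_iff] at h
  · rw [VV_fix hTC hg y hz]
    exact hy.2 z hz

/-- equivariance of profiles -/
theorem PP_smul {C T : Set Ω} {g : G} (hT : g • T = T) (hC : g • C = C) {x y : Ω} (hx : x ∈ T) (hy : y ∈ PP G C T x) :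
    g • y ∈ PP G C T (g • x) := by
  refine ⟨?_, fun z hz => ?_⟩
  · intro h
    apply hy.1
    rw [← hC] at h
    rwa [Set.smul_mem_smul_set_iff] at h
  · have h1 : g⁻¹ • z ∈ T := by rw [← inv_set hT]; exact Set.smul_mem_smul_set hz
    have h2 := VV_smul_iff (G := G) (C := C) (T := T) (g := g) (x := g⁻¹ • z) (y := y) hT hC
    rw [smul_inv_smul] at h2
    rw [h2, hy.2 _ h1, inv_smul_eq_iff]

theorem ncard_smul' (g : G) (S : Set Ω) : (g • S).ncard = S.ncard :=
  Set.ncard_image_of_injective _ (MulAction.injective g)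

end
end T3

open T3

/-- T3: contradiction for `j ≥ 4` (uses prof, cov_one, cov_le) -/
theorem kill4 {G Ω : Type} [Group G] [MulAction G Ω] {B : Set (Set Ω)} {f : ℕ} (s : Sit G Ω B f) {j : ℕ} (hj : 4 ≤ j)
    (hcl : ∀ i ≤ j, Closed B i) (h3 : ∀ T : Set Ω, T.ncard = j + 1 → H3 G T)
    {C F : Set Ω} {q : ℕ} (hF : F ∈ B) (hCF : C ⊆ F) (hCc : cl B C = C) (hC : C.ncard = j + q) (hq : 2 ≤ q)
    (hqj : q + 1 ≤ j) (hgen : ∀ T ⊆ C, T.ncard = j + 1 → cl B T = C)
    (hW : ∀ S ⊆ C, S.ncard = j → {y | ∀ g ∈ fixingSubgroup G S, g • y ∉ C}.Nonempty ∧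
        w F {y | ∀ g ∈ fixingSubgroup G S, g • y ∉ C} + q ≤ j) : False := by
  classical
  haveI := s.fin
  obtain ⟨T, hTC, hT⟩ := Set.exists_subset_card_eq (s := C) (n := j + 1) (by omega)
  have hclT : cl B T = C := hgen T hTC hT
  have hSm : ∀ x ∈ T, (T \ {x}).ncard = j := by
    intro x hx
    rw [Set.ncard_diff_singleton_of_mem hx, hT]; rfl
  have hcS : ∀ x ∈ T, cl B (T \ {x}) = T \ {x} := fun x hx => hcl j le_rfl _ (hSm x hx)
  have gC : ∀ g : G, g • T = T → g • C = C := by
    intro g hg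
    rw [← hclT, smul_cl s, hg]
  have hCne : C.Nonempty := by
    apply (Set.ncard_pos (Set.toFinite C)).1; omega
  have hcard : C.ncard < (j + 1).choose 2 := by
    rw [Nat.choose_two_right, hC]
    have : 2 * j ≤ (j + 1) * (j + 1 - 1) / 2 := by
      rw [Nat.le_div_iff_mul_le (by norm_num)]
      rw [Nat.add_sub_cancel]
      nlinarith
    omega
  obtain ⟨hP, hpr⟩ := prof s (by omega) hF hCF hTC hT hclT (h3 T hT) hcS hcard (VV G C T)
    (fun x _ => VV_inv C T x) (fun x _ => VV_disj C T x)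
    (fun x hx => (hW (T \ {x}) (Set.diff_subset.trans hTC) (hSm x hx)).1)
    (fun g hg x _ => VV_eq hg (gC g hg) x)
    (fun x hx => by
      have h1 := (hW (T \ {x}) (Set.diff_subset.trans hTC) (hSm x hx)).2
      have h2 : w F (VV G C T x) + q ≤ j := h1
      omega)
  -- total weight
  letI : Fintype T := Fintype.ofFinite T
  let Y : Option T → Set Ω := fun o => o.elim (EE G C T) (fun x => PP G C T x)
  have hYsome : ∀ x : T, Y (some x) = PP G C T x := fun x => rfl
  have hYnone : Y none = EE G C T := rfl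
  have hdis1 : ∀ x ∈ T, Disjoint (EE G C T) (PP G C T x) := by
    intro x hx
    rw [Set.disjoint_left]
    intro y hy hy'
    exact hy.2 x hx ((hy'.2 x hx).2 rfl)
  have hdis2 : ∀ x ∈ T, ∀ x' ∈ T, x ≠ x' → Disjoint (PP G C T x) (PP G C T x') := by
    intro x hx x' hx' hne
    rw [Set.disjoint_left]
    intro y hy hy'
    exact hne ((hy'.2 x hx).1 ((hy.2 x hx).2 rfl))
  have hYA : ∀ i, Disjoint (Y i) C := by
    intro i
    rw [Set.disjoint_left]
    rcases i with _ | x
    · intro y hy; exact hy.1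
    · intro y hy; exact hy.1
  have hYi : ∀ i, Inv G C (Y i) := by
    intro i
    rcases i with _ | x
    · exact EE_inv hTC
    · exact PP_inv hTC _
  have hYd : Pairwise fun i k => Disjoint (Y i) (Y k) := by
    intro i k hik
    rcases i with _ | x <;> rcases k with _ | x'
    · exact absurd rfl hik
    · exact hdis1 _ x'.2
    · exact (hdis1 _ x.2).symm
    · exact hdis2 _ x.2 _ x'.2 (fun h => hik (by rw [Subtype.ext h]))
  have htot := total s hCne hF hCF hCc Y hYd hYi hYA
  rw [Fintype.sum_option] at htot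
  have hone : ∀ x : T, 1 ≤ w F (Y (some x)) := fun x =>
    pos_flat s hCne hF hCF hCc (PP_inv hTC _) (hP x x.2) (hYA (some x))
  have hE0 : 0 ≤ w F (Y none) := by
    rcases Set.eq_empty_or_nonempty (Y none) with h | h
    · rw [h]; simp [w]
    · have := pos_flat s hCne hF hCF hCc (hYi none) h (hYA none)
      omega
  have hTcard : Fintype.card T = j + 1 := by
    rw [← Nat.card_eq_fintype_card, Nat.card_coe_set_eq, hT]
  have hz : ∃ z : T, w F (Y (some z)) = 1 := by
    by_contra hcon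
    push Not at hcon
    have h1 : ∀ x : T, 2 ≤ w F (Y (some x)) := by
      intro x
      have := hone x
      have := hcon x
      omega
    have h2 : ∑ x : T, (2 : ℤ) ≤ ∑ x : T, w F (Y (some x)) := Finset.sum_le_sum fun x _ => h1 x
    rw [Finset.sum_const, Finset.card_univ, hTcard, nsmul_eq_mul] at h2
    push_cast at h2
    omega
  have hEq : w F (EE G C T) ≤ q - 1 := by
    have h2 : ∑ x : T, (1 : ℤ) ≤ ∑ x : T, w F (Y (some x)) := Finset.sum_le_sum fun x _ => hone x
    rw [Finset.sum_const, Finset.card_univ, hTcard, nsmul_eq_mul] at h2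
    push_cast at h2
    rw [hYnone] at htot
    omega
  obtain ⟨⟨z, hzT⟩, hwz⟩ := hz
  change w F (PP G C T z) = 1 at hwz
  obtain ⟨y, hy⟩ : (PP G C T z).Nonempty := hP z hzT
  have hyC : y ∉ C := hy.1
  have hsub : orb G C y ⊆ PP G C T z := orb_sub (PP_inv hTC z) hy
  have horb : PP G C T z = orb G C y := by
    have h1 : PP G C T z = orb G C y ∪ (PP G C T z \ orb G C y) := (Set.union_diff_cancel hsub).symm
    have h2 := w_union F (orb G C y) (PP G C T z \ orb G C y) Set.disjoint_sdiff_right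
    rw [← h1, hwz] at h2
    have h3 : 1 ≤ w F (orb G C y) := pos_flat s hCne hF hCF hCc (orb_inv C y) ⟨y, self_orb C y⟩ (orb_disj hyC)
    rcases Set.eq_empty_or_nonempty (PP G C T z \ orb G C y) with h4 | h4
    · exact Set.Subset.antisymm (Set.diff_eq_empty.1 h4) hsub
    · have h5 := pos_flat s hCne hF hCF hCc (Y := PP G C T z \ orb G C y) (by
        intro g hg u hu
        refine ⟨PP_inv hTC z g hg u hu.1, fun h6 => hu.2 ?_⟩
        obtain ⟨k, hk, hk'⟩ := h6
        exact ⟨g⁻¹ * k, mul_mem (inv_mem hg) hk, by rw [mul_smul, hk', inv_smul_smul]⟩) h4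
        (Set.disjoint_left.2 fun u hu => hu.1.1)
      omega
  have hworb : w F (orb G C y) = 1 := by rw [← horb]; exact hwz
  obtain ⟨hCov, -, hDorb⟩ := cov_one s hCne hF hCF hCc hyC hworb
  set D := cl B (insert y C) with hD
  have hyT : ∀ v, y ∉ T \ {v} := fun v h => hyC (hTC h.1)
  have hins : ∀ v ∈ T, (insert y (T \ {v})).ncard = j + 1 := by
    intro v hv
    rw [Set.ncard_insert_of_notMem (hyT v), hSm v hv]
  -- the closures C_v
  have ha : ∀ v ∈ T, v ≠ z → ∃ g ∈ fixingSubgroup G (T \ {v}), g • y ∈ C ∧ g • cl B (insert y (T \ {v})) = C := by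
    intro v hv hvz
    have h1 : y ∉ VV G C T v := fun h => hvz ((hy.2 v hv).1 h)
    have h2 : ∃ g ∈ fixingSubgroup G (T \ {v}), g • y ∈ C := by
      by_contra hcon
      push Not at hcon
      exact h1 hcon
    obtain ⟨g, hg, hgy⟩ := h2
    refine ⟨g, hg, hgy, ?_⟩
    rw [smul_cl s]
    have h4 : g • (insert y (T \ {v})) = insert (g • y) (T \ {v}) := by
      have h5 : g • (insert y (T \ {v})) = insert (g • y) (g • (T \ {v})) := Set.image_insert_eq
      rw [h5, fix_smul_set hg subset_rfl]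
    rw [h4]
    apply hgen
    · rw [Set.insert_subset_iff]
      exact ⟨hgy, Set.diff_subset.trans hTC⟩
    · rw [Set.ncard_insert_of_notMem, hSm v hv]
      intro h5
      have h6 := (mem_fixingSubgroup_iff G).1 hg _ h5
      exact hyT v (by rw [smul_left_cancel g h6] at h5; exact h5)
  have hb : ∀ v ∈ T, v ≠ z → (cl B (insert y (T \ {v}))).ncard = j + q := by
    intro v hv hvz
    obtain ⟨g, -, -, h1⟩ := ha v hv hvz
    rw [← ncard_smul' g, h1, hC]
  have hd : ∀ v ∈ T, v ≠ z → ∀ U ⊆ cl B (insert y (T \ {v})), U.ncard = j + 1 → cl B U = cl B (insert y (T \ {v})) := by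
    intro v hv hvz U hU hUc
    obtain ⟨g, -, -, h1⟩ := ha v hv hvz
    have h2 : g • U ⊆ C := by rw [← h1]; exact Set.smul_set_mono hU
    have h4 := hgen (g • U) h2 (by rw [ncard_smul', hUc])
    rw [← smul_cl s, ← h1] at h4
    exact smul_left_cancel g h4
  have hyCv : ∀ v, y ∈ cl B (insert y (T \ {v})) := fun v => subset_cl _ _ (Set.mem_insert _ _)
  have he : ∀ v ∈ T, v ≠ z → ∀ p ∈ cl B (insert y (T \ {v})), p ∈ C → p ∈ T \ {v} := by
    intro v hv hvz p hp hpC
    by_contra hcon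
    have h1 : (insert p (T \ {v})).ncard = j + 1 := by
      rw [Set.ncard_insert_of_notMem hcon, hSm v hv]
    have h2 := hd v hv hvz (insert p (T \ {v})) (by
      rw [Set.insert_subset_iff]
      exact ⟨hp, (Set.subset_insert _ _).trans (subset_cl _ _)⟩) h1
    have h4 := hgen (insert p (T \ {v})) (by
      rw [Set.insert_subset_iff]
      exact ⟨hpC, Set.diff_subset.trans hTC⟩) h1
    rw [h4] at h2
    exact hyC (by rw [h2]; exact hyCv v)
  have hCvD : ∀ v, cl B (insert y (T \ {v})) ⊆ D := fun v =>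
    cl_mono B (Set.insert_subset_insert (Set.diff_subset.trans hTC))
  have hf : ∀ v ∈ T, v ≠ z → ∀ p ∈ cl B (insert y (T \ {v})) \ insert y (T \ {v}),
      p ∈ EE G C T ∨ ∃ x ∈ T, x ≠ v ∧ x ≠ z ∧ p ∈ PP G C T x := by
    intro v hv hvz p hp
    have hpC : p ∉ C := fun h => hp.2 (Set.mem_insert_of_mem _ (he v hv hvz p hp.1 h))
    have hpv : p ∉ VV G C T v := by
      intro h
      obtain ⟨g, hg, -, h1⟩ := ha v hv hvz
      apply h g hg
      rw [← h1]; exact Set.smul_mem_smul_set hp.1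
    have hpz : p ∉ PP G C T z := by
      intro h
      rw [horb] at h
      have h1 : p ∈ D ∩ orb G C y := ⟨hCvD v hp.1, h⟩
      rw [hDorb] at h1
      exact hp.2 (by rw [Set.mem_singleton_iff.1 h1]; exact Set.mem_insert _ _)
    rcases hpr p hpC with h | h | ⟨x, hx, h⟩
    · exact Or.inl ⟨hpC, h⟩
    · exact absurd (h v hv) hpv
    · right
      refine ⟨x, hx, ?_, ?_, hpC, h⟩
      · rintro rfl
        exact hpv ((h x hx).2 rfl)
      · rintro rfl
        exact hpz ⟨hpC, h⟩
  have hNv : ∀ v ∈ T, v ≠ z → (cl B (insert y (T \ {v})) \ insert y (T \ {v})).ncard = q - 1 := by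
    intro v hv hvz
    rw [Set.ncard_diff (subset_cl _ _), hb v hv hvz, hins v hv]
    omega
  -- step 4
  have hEE : ∀ v ∈ T, v ≠ z → ∀ p ∈ cl B (insert y (T \ {v})) \ insert y (T \ {v}), p ∈ EE G C T := by
    intro v hv hvz p hp
    rcases hf v hv hvz p hp with h | ⟨x, hx, hxv, hxz, hpx⟩
    · exact h
    exfalso
    have hall : ∀ x' ∈ T \ {z, v}, ∃ p' ∈ cl B (insert y (T \ {v})) \ insert y (T \ {v}), p' ∈ PP G C T x' := by
      intro x' hx'
      by_cases hxx : x = x'
      · rw [← hxx]; exact ⟨p, hp, hpx⟩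
      have hx'T := hx'.1
      have hx'z : x' ≠ z := fun h => hx'.2 (by rw [h]; simp)
      have hx'v : x' ≠ v := fun h => hx'.2 (by rw [h]; simp)
      obtain ⟨x'', hx''T, hx''⟩ : ∃ e ∈ T, e ∉ ({z, v, x, x'} : Set Ω) := by
        refine Set.exists_mem_notMem_of_ncard_lt_ncard ?_ (Set.toFinite _)
        have h1 : ({z, v, x, x'} : Set Ω).ncard ≤ 4 := by
          have a1 := Set.ncard_insert_le z ({v, x, x'} : Set Ω)
          have a2 := Set.ncard_insert_le v ({x, x'} : Set Ω)
          have a3 := Set.ncard_insert_le x ({x'} : Set Ω)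
          have a4 := Set.ncard_singleton x'
          omega
        omega
      simp only [Set.mem_insert_iff, Set.mem_singleton_iff, not_or] at hx''
      obtain ⟨hz'', hv'', hxx'', hx'x''⟩ := hx''
      obtain ⟨g, g1, g2, g3, g4⟩ := h3 T hT x hx x' hx'T x'' hx''T hxx (Ne.symm hx'x'') (Ne.symm hxx'')
      have hgT' : ∀ u ∈ T, g • u ∈ T := by
        intro u hu
        by_cases h1 : u = x
        · rw [h1, g1]; exact hx'T
        by_cases h2 : u = x'
        · rw [h2, g2]; exact hx''T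
        by_cases h4 : u = x''
        · rw [h4, g3]; exact hx
        · rw [g4 u hu h1 h2 h4]; exact hu
      have hgz : g • z = z := g4 z hzT (Ne.symm hxz) (Ne.symm hx'z) (Ne.symm hz'')
      have hgv : g • v = v := g4 v hv (Ne.symm hxv) (Ne.symm hx'v) (Ne.symm hv'')
      have hgT : g • T = T := by
        refine Set.eq_of_subset_of_ncard_le ?_ ?_ (Set.toFinite _)
        · rintro _ ⟨u, hu, rfl⟩
          exact hgT' u hu
        · rw [ncard_smul']
      have h5 := PP_smul hgT (gC g hgT) hzT hy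
      rw [hgz, horb] at h5
      obtain ⟨k, hk, hky⟩ := h5
      have hkinv : ∀ c ∈ C, k⁻¹ • c = c := by
        intro c hc
        rw [inv_smul_eq_iff, (mem_fixingSubgroup_iff G).1 hk c hc]
      have hg'y : (k⁻¹ * g) • y = y := by rw [mul_smul, ← hky, inv_smul_smul]
      have hg't : ∀ t ∈ T, (k⁻¹ * g) • t = g • t := by
        intro t ht
        rw [mul_smul, hkinv _ (hTC (hgT' t ht))]
      have hg'T : (k⁻¹ * g) • T = T := by
        refine Set.eq_of_subset_of_ncard_le ?_ ?_ (Set.toFinite _)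
        · rintro _ ⟨u, hu, rfl⟩
          show (k⁻¹ * g) • u ∈ T
          rw [hg't u hu]; exact hgT' u hu
        · rw [ncard_smul']
      have hg'Tv : (k⁻¹ * g) • (T \ {v}) = T \ {v} := by
        rw [Set.smul_set_sdiff, hg'T, Set.smul_set_singleton, hg't v hv, hgv]
      have hg'ins : (k⁻¹ * g) • (insert y (T \ {v})) = insert y (T \ {v}) := by
        have h6 : (k⁻¹ * g) • (insert y (T \ {v})) = insert ((k⁻¹ * g) • y) ((k⁻¹ * g) • (T \ {v})) := Set.image_insert_eq
        rw [h6, hg'y, hg'Tv]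
      have hg'Cv : (k⁻¹ * g) • cl B (insert y (T \ {v})) = cl B (insert y (T \ {v})) := by
        rw [smul_cl s, hg'ins]
      refine ⟨(k⁻¹ * g) • p, ⟨?_, ?_⟩, ?_⟩
      · rw [← hg'Cv]; exact Set.smul_mem_smul_set hp.1
      · intro h6
        rw [← hg'ins, Set.smul_mem_smul_set_iff] at h6
        exact hp.2 h6
      · have h6 := PP_smul hg'T (gC _ hg'T) hx hpx
        rw [hg't x hx, g1] at h6
        exact h6
    choose! φ hφ1 hφ2 using hall
    have h6 : (T \ {z, v}).ncard ≤ (cl B (insert y (T \ {v})) \ insert y (T \ {v})).ncard := by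
      refine Set.ncard_le_ncard_of_injOn φ hφ1 ?_ (Set.toFinite _)
      intro a ha' b hb' hab
      by_contra hne
      exact Set.disjoint_left.1 (hdis2 a ha'.1 b hb'.1 hne) (hφ2 a ha') (by rw [hab]; exact hφ2 b hb')
    rw [hNv v hv hvz, Set.ncard_diff (by
      intro t ht
      rcases ht with rfl | ht
      · exact hzT
      · rw [Set.mem_singleton_iff.1 ht]; exact hv), hT, Set.ncard_pair (Ne.symm hvz)] at h6
    omega
  -- step 5
  obtain ⟨v, hv, hvz⟩ : ∃ e ∈ T, e ∉ ({z} : Set Ω) := by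
    refine Set.exists_mem_notMem_of_ncard_lt_ncard ?_ (Set.toFinite _)
    rw [Set.ncard_singleton, hT]; omega
  rw [Set.mem_singleton_iff] at hvz
  obtain ⟨v', hv', hvz'⟩ : ∃ e ∈ T, e ∉ ({z, v} : Set Ω) := by
    refine Set.exists_mem_notMem_of_ncard_lt_ncard ?_ (Set.toFinite _)
    rw [Set.ncard_pair (Ne.symm hvz), hT]; omega
  simp only [Set.mem_insert_iff, Set.mem_singleton_iff, not_or] at hvz'
  obtain ⟨hv'z, hv'v⟩ := hvz'
  have hdisj : Disjoint (cl B (insert y (T \ {v})) \ insert y (T \ {v}))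
      (cl B (insert y (T \ {v'})) \ insert y (T \ {v'})) := by
    rw [Set.disjoint_left]
    intro p hp hp'
    have hyU : y ∉ T \ {v, v'} := fun h => hyC (hTC h.1)
    have hpU : p ∉ insert y (T \ {v, v'}) := by
      intro h
      apply hp.2
      rcases h with h | h
      · exact Or.inl h
      · exact Or.inr ⟨h.1, fun h1 => h.2 (Or.inl h1)⟩
    have hU : (insert p (insert y (T \ {v, v'}))).ncard = j + 1 := by
      rw [Set.ncard_insert_of_notMem hpU, Set.ncard_insert_of_notMem hyU, Set.ncard_diff (by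
        intro t ht
        rcases ht with rfl | ht
        · exact hv
        · rw [Set.mem_singleton_iff.1 ht]; exact hv'), hT, Set.ncard_pair (Ne.symm hv'v)]
      omega
    have h1 := hd v hv hvz (insert p (insert y (T \ {v, v'}))) (by
      rw [Set.insert_subset_iff]
      refine ⟨hp.1, ?_⟩
      refine Set.Subset.trans ?_ (subset_cl _ _)
      apply Set.insert_subset_insert
      exact fun t ht => ⟨ht.1, fun h => ht.2 (Or.inl h)⟩) hU
    have h2 := hd v' hv' hv'z (insert p (insert y (T \ {v, v'}))) (by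
      rw [Set.insert_subset_iff]
      refine ⟨hp'.1, ?_⟩
      refine Set.Subset.trans ?_ (subset_cl _ _)
      apply Set.insert_subset_insert
      exact fun t ht => ⟨ht.1, fun h => ht.2 (Or.inr h)⟩) hU
    have h4 : T ⊆ cl B (insert y (T \ {v})) := by
      intro t ht
      by_cases htv : t = v
      · rw [← h1, h2]
        exact subset_cl _ _ (Or.inr ⟨ht, fun h => hv'v ((Set.mem_singleton_iff.1 h) ▸ htv)⟩)
      · exact subset_cl _ _ (Or.inr ⟨ht, htv⟩)
    have h5 := hd v hv hvz T h4 hT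
    rw [hclT] at h5
    exact hyC (by rw [h5]; exact hyCv v)
  have h1 := Set.ncard_union_eq hdisj
  rw [hNv v hv hvz, hNv v' hv' hv'z] at h1
  have h2 : (cl B (insert y (T \ {v})) \ insert y (T \ {v})) ∪
      (cl B (insert y (T \ {v'})) \ insert y (T \ {v'})) ⊆ D ∩ EE G C T := by
    rintro p (hp | hp)
    · exact ⟨hCvD v hp.1, hEE v hv hvz p hp⟩
    · exact ⟨hCvD v' hp.1, hEE v' hv' hv'z p hp⟩
  have h4 := Set.ncard_le_ncard h2
  have h5 := cov_le s hCne hF hCF hCc hCov (EE_inv hTC) (hYA none)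
  rw [h1] at h4
  omega

end Cfsg.Agent.Lib.Pro
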