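import Cfsg.Agent.Lib.ProA
import Cfsg.Agent.Lib.ProT0

/-! S3399, piece T4: contradiction for `j = 3`. -/

set_option autoImplicit false
open scoped Pointwise

namespace Cfsg.Agent.Lib.Pro

section T4
variable {G Ω : Type} [Group G] [MulAction G Ω] {B : Set (Set Ω)} {f : ℕ}

/-- points whose orbit misses `C` -/
def WW4 (G : Type) {Ω : Type} [Group G] [MulAction G Ω] (C S : Set Ω) : Set Ω :=
  {y | ∀ g ∈ fixingSubgroup G S, g • y ∉ C}

theorem WW4_inv (C S : Set Ω) : Inv G S (WW4 G C S) := by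
  intro g hg y hy h hh
  rw [← mul_smul]
  exact hy _ (mul_mem hh hg)

theorem WW4_disj (C S : Set Ω) : Disjoint (WW4 G C S) C := by
  rw [Set.disjoint_left]
  intro y hy hyC
  exact hy 1 (one_mem _) (by rwa [one_smul])

theorem Inv_mono4 {A A' Y : Set Ω} (h : A ⊆ A') (hY : Inv G A Y) : Inv G A' Y := by
  intro g hg y hy
  refine hY g ?_ y hy
  rw [mem_fixingSubgroup_iff] at hg ⊢
  intro x hx
  exact hg x (h hx)

theorem fix_conj4 {g k : G} {S : Set Ω} (hk : k ∈ fixingSubgroup G S) : g * k * g⁻¹ ∈ fixingSubgroup G (g • S) := by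
  rw [mem_fixingSubgroup_iff] at hk ⊢
  rintro _ ⟨x, hx, rfl⟩
  show (g * k * g⁻¹) • g • x = g • x
  rw [← mul_smul, inv_mul_cancel_right, mul_smul, hk x hx]

theorem WW4_smul {C S : Set Ω} {g : G} (hg : g • C = C) : g • WW4 G C S = WW4 G C (g • S) := by
  ext y
  rw [Set.mem_smul_set_iff_inv_smul_mem]
  constructor
  · intro h k hk hkC
    have h1 := fix_conj4 (g := g⁻¹) hk
    rw [inv_smul_smul, inv_inv] at h1
    apply h _ h1
    rw [← mul_smul, mul_assoc, mul_assoc, mul_inv_cancel, mul_one, mul_smul]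
    rw [← hg, Set.mem_smul_set_iff_inv_smul_mem] at hkC
    exact hkC
  · intro h k hk hkC
    apply h _ (fix_conj4 (g := g) hk)
    rw [mul_smul, mul_smul, ← hg]
    exact Set.smul_mem_smul_set hkC

/-- T4: contradiction for `j = 3` (then `q = 2`, `|C| = 5`) -/
theorem kill3 (s : Sit G Ω B f) (hcl : ∀ i ≤ 3, Closed B i) (h3 : ∀ T : Set Ω, T.ncard = 4 → H3 G T)
    {C F : Set Ω} (hF : F ∈ B) (hCF : C ⊆ F) (hCc : cl B C = C) (hC : C.ncard = 5)
    (hgen : ∀ T ⊆ C, T.ncard = 4 → cl B T = C)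
    (hW : ∀ S ⊆ C, S.ncard = 3 → {y | ∀ g ∈ fixingSubgroup G S, g • y ∉ C}.Nonempty ∧
        w F {y | ∀ g ∈ fixingSubgroup G S, g • y ∉ C} + 2 ≤ 3) : False := by
  have hfin : Finite Ω := s.fin
  have hCfin : C.Finite := Set.toFinite _
  have hCn : C.Nonempty := by
    rw [← Set.ncard_pos hCfin]; omega
  have hW' : ∀ S ⊆ C, S.ncard = 3 → (WW4 G C S).Nonempty ∧ w F (WW4 G C S) = 1 := by
    intro S hS hS3
    obtain ⟨h1, h2⟩ := hW S hS hS3
    refine ⟨h1, ?_⟩
    have h3 : 1 ≤ w F (WW4 G C S) := by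
      apply pos_flat s (A := S) _ hF (hS.trans hCF) (hcl 3 le_rfl S hS3) (WW4_inv C S) h1
      · exact (WW4_disj C S).mono_right hS
      · rw [← Set.ncard_pos (Set.toFinite _)]; omega
    have h4 : w F (WW4 G C S) + 2 ≤ 3 := h2
    omega
  -- equal or disjoint
  have hsub : ∀ S ⊆ C, S.ncard = 3 → ∀ S' ⊆ C, S'.ncard = 3 → ¬ Disjoint (WW4 G C S) (WW4 G C S') →
      WW4 G C S ⊆ WW4 G C S' := by
    intro S hS hS3 S' hS' hS'3 hd
    by_contra hn
    have e1 : WW4 G C S = (WW4 G C S ∩ WW4 G C S') ∪ (WW4 G C S \ WW4 G C S') := (Set.inter_union_sdiff _ _).symm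
    have hdd : Disjoint (WW4 G C S ∩ WW4 G C S') (WW4 G C S \ WW4 G C S') := by
      rw [Set.disjoint_left]
      intro y hy hy'
      exact hy'.2 hy.2
    have i1 : Inv G C (WW4 G C S) := Inv_mono4 hS (WW4_inv C S)
    have i2 : Inv G C (WW4 G C S') := Inv_mono4 hS' (WW4_inv C S')
    have w1 : 1 ≤ w F (WW4 G C S ∩ WW4 G C S') := by
      apply pos_flat s hCn hF hCF hCc
      · intro g hg y hy
        exact ⟨i1 g hg y hy.1, i2 g hg y hy.2⟩
      · rwa [Set.not_disjoint_iff_nonempty_inter] at hd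
      · exact (WW4_disj C S).mono_left Set.inter_subset_left
    have w2 : 1 ≤ w F (WW4 G C S \ WW4 G C S') := by
      apply pos_flat s hCn hF hCF hCc
      · intro g hg y hy
        refine ⟨i1 g hg y hy.1, fun hcon => hy.2 ?_⟩
        have := i2 g⁻¹ (inv_mem hg) _ hcon
        rwa [inv_smul_smul] at this
      · rw [Set.nonempty_iff_ne_empty]
        intro h0
        exact hn (Set.sdiff_eq_empty.1 h0)
      · exact (WW4_disj C S).mono_left Set.sdiff_subset
    have w3 := w_union F _ _ hdd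
    rw [← e1, (hW' S hS hS3).2] at w3
    omega
  -- five points
  obtain ⟨p, hp, hpr⟩ : ∃ p : Fin 5 → Ω, Function.Injective p ∧ Set.range p = C := by
    have h5 : Nat.card C = 5 := by rw [Nat.card_coe_set_eq]; exact hC
    have e := (Finite.equivFinOfCardEq h5).symm
    refine ⟨fun i => (e i : Ω), fun i k h => e.injective (Subtype.ext h), ?_⟩
    ext x
    constructor
    · rintro ⟨i, rfl⟩; exact (e i).2
    · intro hx
      exact ⟨e.symm ⟨x, hx⟩, by simp⟩
  have hpC : ∀ i, p i ∈ C := fun i => by rw [← hpr]; exact ⟨i, rfl⟩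
  have hcard4 : ∀ a, (C \ {p a}).ncard = 4 := by
    intro a
    rw [Set.ncard_sdiff_singleton_of_mem (hpC a), hC]
  have hcard3 : ∀ a b, a ≠ b → (C \ {p a, p b}).ncard = 3 := by
    intro a b hab
    have e1 : C \ {p a, p b} = (C \ {p a}) \ {p b} := by
      ext x; simp only [Set.mem_sdiff, Set.mem_insert_iff, Set.mem_singleton_iff]; tauto
    rw [e1, Set.ncard_sdiff_singleton_of_mem, hcard4]
    exact ⟨hpC b, fun h => hab (hp h).symm⟩
  have hsw : ∀ a b, C \ {p a, p b} = C \ {p b, p a} := by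
    intro a b
    rw [Set.pair_comm]
  have hsm : ∀ (g : G), g • C = C → ∀ a b a' b', g • p a = p a' → g • p b = p b' →
      g • WW4 G C (C \ {p a, p b}) = WW4 G C (C \ {p a', p b'}) := by
    intro g hg a b a' b' ha hb
    rw [WW4_smul hg, Set.smul_set_sdiff, hg, Set.smul_set_insert, Set.smul_set_singleton, ha, hb]
  -- pairs with a common point
  have key1 : ∀ a b c, a ≠ b → a ≠ c → b ≠ c → WW4 G C (C \ {p a, p b}) ≠ WW4 G C (C \ {p a, p c}) := by
    intro a b c hab hac hbc heq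
    have hTC : C \ {p a} ⊆ C := Set.sdiff_subset
    have hTx : ∀ x ∈ C \ {p a}, (C \ {p a}) \ {x} ⊆ C ∧ ((C \ {p a}) \ {x}).ncard = 3 := by
      intro x hx
      refine ⟨Set.sdiff_subset.trans hTC, ?_⟩
      rw [Set.ncard_sdiff_singleton_of_mem hx, hcard4]
    have hgC : ∀ g : G, g • (C \ {p a}) = C \ {p a} → g • C = C := by
      intro g hg
      rw [← hgen _ hTC (hcard4 a), smul_cl s, hg]
    obtain ⟨h1, -⟩ := prof s (j := 3) le_rfl hF hCF hTC (hcard4 a) (hgen _ hTC (hcard4 a)) (h3 _ (hcard4 a))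
      (fun x hx => hcl 3 le_rfl _ (hTx x hx).2) (by rw [hC]; decide)
      (fun x => WW4 G C ((C \ {p a}) \ {x}))
      (fun x hx => WW4_inv _ _) (fun x hx => WW4_disj _ _) (fun x hx => (hW' _ (hTx x hx).1 (hTx x hx).2).1)
      (fun g hg x hx => by
        have := hgC g hg
        rw [WW4_smul this, Set.smul_set_sdiff, hg, Set.smul_set_singleton])
      (fun x hx => by rw [(hW' _ (hTx x hx).1 (hTx x hx).2).2]; norm_num)
    obtain ⟨y, -, hy⟩ := h1 (p b) ⟨hpC b, fun h => hab (hp h).symm⟩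
    have hb := (hy (p b) ⟨hpC b, fun h => hab (hp h).symm⟩).2 rfl
    have hc := (hy (p c) ⟨hpC c, fun h => hac (hp h).symm⟩).not.2 (fun h => hbc (hp h).symm)
    have e1 : ∀ x, (C \ {p a}) \ {x} = C \ {p a, x} := by
      intro x
      ext z; simp only [Set.mem_sdiff, Set.mem_insert_iff, Set.mem_singleton_iff]; tauto
    simp only [e1] at hb hc
    exact hc (heq ▸ hb)
  -- disjoint pairs
  have key2 : ∀ a b c d, a ≠ b → a ≠ c → a ≠ d → b ≠ c → b ≠ d → c ≠ d →
      WW4 G C (C \ {p a, p b}) ≠ WW4 G C (C \ {p c, p d}) := by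
    intro a b c d hab hac had hbc hbd hcd heq
    obtain ⟨r, hra, hrb, hrc, hrd⟩ : ∃ r : Fin 5, r ≠ a ∧ r ≠ b ∧ r ≠ c ∧ r ≠ d := by
      have : ∀ a b c d : Fin 5, ∃ r : Fin 5, r ≠ a ∧ r ≠ b ∧ r ≠ c ∧ r ≠ d := by decide
      exact this a b c d
    have hT : ∀ i, i ≠ b → p i ∈ C \ {p b} := fun i hi => ⟨hpC i, fun h => hi (hp h)⟩
    obtain ⟨g, g1, g2, g3, g4⟩ := h3 (C \ {p b}) (hcard4 b) (p c) (hT c hbc.symm) (p d) (hT d hbd.symm) (p r) (hT r hrb)
      (fun h => hcd (hp h)) (fun h => hrd (hp h).symm) (fun h => hrc (hp h).symm)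
    have gT : g • (C \ {p b}) = C \ {p b} := by
      refine Set.eq_of_subset_of_ncard_le ?_ ?_ (Set.toFinite _)
      · rintro _ ⟨x, hx, rfl⟩
        show g • x ∈ C \ {p b}
        by_cases hxc : x = p c
        · rw [hxc, g1]; exact hT d hbd.symm
        by_cases hxd : x = p d
        · rw [hxd, g2]; exact hT r hrb
        by_cases hxr : x = p r
        · rw [hxr, g3]; exact hT c hbc.symm
        rw [g4 x hx hxc hxd hxr]; exact hx
      · rw [Set.ncard_smul_set]
    have gC : g • C = C := by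
      rw [← hgen _ Set.sdiff_subset (hcard4 b), smul_cl s, gT]
    have ga : g • p a = p a := g4 _ (hT a hab) (fun h => hac (hp h)) (fun h => had (hp h)) (fun h => hra (hp h).symm)
    have gb : g • p b = p b := by
      have h1 : g • p b ∈ C := by
        have : g • p b ∈ g • C := Set.smul_mem_smul_set (hpC b)
        rwa [gC] at this
      by_contra hne
      have h2 : g • p b ∈ g • (C \ {p b}) := by rw [gT]; exact ⟨h1, hne⟩
      rw [Set.smul_mem_smul_set_iff] at h2
      exact h2.2 rfl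
    have h1 := hsm g gC a b a b ga gb
    have h2 := hsm g gC c d d r g1 g2
    rw [heq, h2, ← heq, heq, hsw c d] at h1
    exact key1 d r c hrd.symm hcd.symm hrc h1
  have key3 : ∀ a b c d, a ≠ b → c ≠ d → ¬ (a = c ∧ b = d) → ¬ (a = d ∧ b = c) →
      WW4 G C (C \ {p a, p b}) ≠ WW4 G C (C \ {p c, p d}) := by
    intro a b c d hab hcd h1 h2
    by_cases hac : a = c
    · subst hac
      exact key1 a b d hab hcd (fun h => h1 ⟨rfl, h⟩)
    by_cases had : a = d
    · subst had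
      rw [hsw c a]
      exact key1 a b c hab hcd.symm (fun h => h2 ⟨rfl, h⟩)
    by_cases hbc : b = c
    · subst hbc
      rw [hsw a b]
      exact key1 b a d hab.symm hcd had
    by_cases hbd : b = d
    · subst hbd
      rw [hsw a b, hsw c b]
      exact key1 b a c hab.symm hcd.symm hac
    exact key2 a b c d hab hac had hbc hbd hcd
  -- counting
  let P : Fin 6 → Fin 5 × Fin 5 := ![(0, 1), (0, 2), (0, 3), (1, 2), (1, 3), (2, 3)]
  have hP1 : ∀ i, (P i).1 ≠ (P i).2 := by decide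
  have hP2 : ∀ i k, i ≠ k → ¬ ((P i).1 = (P k).1 ∧ (P i).2 = (P k).2) ∧ ¬ ((P i).1 = (P k).2 ∧ (P i).2 = (P k).1) := by
    decide
  have hS : ∀ i, C \ {p (P i).1, p (P i).2} ⊆ C ∧ (C \ {p (P i).1, p (P i).2}).ncard = 3 := fun i =>
    ⟨Set.sdiff_subset, hcard3 _ _ (hP1 i)⟩
  have h6 := card_le s hCn hF hCF hCc (fun i : Fin 6 => WW4 G C (C \ {p (P i).1, p (P i).2})) (by
      intro i k hik
      by_contra hd
      have hd' : ¬ Disjoint (WW4 G C (C \ {p (P k).1, p (P k).2})) (WW4 G C (C \ {p (P i).1, p (P i).2})) := by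
        rwa [disjoint_comm]
      have heq := Set.Subset.antisymm (hsub _ (hS i).1 (hS i).2 _ (hS k).1 (hS k).2 hd)
        (hsub _ (hS k).1 (hS k).2 _ (hS i).1 (hS i).2 hd')
      exact key3 _ _ _ _ (hP1 i) (hP1 k) (hP2 i k hik).1 (hP2 i k hik).2 heq)
    (fun i => Inv_mono4 (hS i).1 (WW4_inv _ _)) (fun i => WW4_disj _ _) (fun i => (hW' _ (hS i).1 (hS i).2).1)
  rw [Fintype.card_fin, hC] at h6
  omega

end T4

end Cfsg.Agent.Lib.Pro
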