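import Cfsg.Agent.Lib.ProA


/-! S3399, piece T5: the exceptional case of `cyc3`. -/

set_option autoImplicit false
open scoped Pointwise

namespace Cfsg.Agent.Lib.Pro

section T5
variable {G Ω : Type} [Group G] [MulAction G Ω] {B : Set (Set Ω)} {f : ℕ}

theorem t5_orb_eq {A : Set Ω} {u v : Ω} (h : v ∈ orb G A u) : orb G A v = orb G A u := by
  obtain ⟨g, hg, rfl⟩ := h
  ext y
  constructor
  · rintro ⟨k, hk, rfl⟩
    exact ⟨k * g, mul_mem hk hg, mul_smul _ _ _⟩
  · rintro ⟨k, hk, rfl⟩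
    exact ⟨k * g⁻¹, mul_mem hk (inv_mem hg), by rw [mul_smul, inv_smul_smul]⟩

theorem t5_self {A : Set Ω} (u : Ω) : u ∈ orb G A u := ⟨1, one_mem _, one_smul _ _⟩

theorem t5_symm {A : Set Ω} {u v : Ω} (h : v ∈ orb G A u) : u ∈ orb G A v := by
  rw [t5_orb_eq h]; exact t5_self u

theorem t5_disj {A : Set Ω} {u v : Ω} (h : v ∉ orb G A u) : Disjoint (orb G A u) (orb G A v) := by
  rw [Set.disjoint_left]
  intro y hy hy'
  apply h
  rw [← t5_orb_eq hy, t5_orb_eq hy']
  exact t5_self v

theorem t5_ex {S : Set Ω} (hn : ¬ Trans G S) (x : Ω) : ∃ y, y ∉ S ∧ y ∉ orb G S x := by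
  by_contra hcon
  push Not at hcon
  apply hn
  intro a ha b hb
  have h1 := hcon a ha
  have h2 := hcon b hb
  rw [← t5_orb_eq h1] at h2
  exact h2

theorem t5_key (s : Sit G Ω B f) (hcl : Closed B 3)
    (hn : ∀ S : Set Ω, S.ncard = 3 → ¬ Trans G S)
    (he : ∀ S S' : Set Ω, S.ncard = 3 → S'.ncard = 3 → ∀ x ∉ S, ∀ x' ∉ S',
         (orb G S x).ncard = (orb G S' x').ncard)
    {S F : Set Ω} (hF : F ∈ B) (hS : S.ncard = 3) (hSF : S ⊆ F) {x : Ω} (hx : x ∉ S) :
    w F (orb G S x) = 1 := by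
  haveI := s.fin
  have hc : cl B S = S := hcl S hS
  have hSn : S.Nonempty := by
    rw [← Set.ncard_pos]; omega
  obtain ⟨y, hyS, hy⟩ := t5_ex (hn S hS) x
  have hex : ∃ z, z ∉ S ∧ z ∉ orb G S x ∧ z ∉ orb G S y := by
    by_contra hcon
    push Not at hcon
    have hU : Sᶜ = orb G S x ∪ orb G S y := by
      ext z
      constructor
      · intro hz
        by_cases h1 : z ∈ orb G S x
        · exact Or.inl h1
        · exact Or.inr (hcon z hz h1)
      · rintro (h | h) hzS
        · exact Set.disjoint_left.1 (orb_disj hx) h hzS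
        · exact Set.disjoint_left.1 (orb_disj hyS) h hzS
    have h1 : (Sᶜ).ncard = (orb G S x).ncard + (orb G S y).ncard := by
      rw [hU]
      exact Set.ncard_union_eq (t5_disj hy) (Set.toFinite _) (Set.toFinite _)
    have h2 : S.ncard + (Sᶜ).ncard = Nat.card Ω := Set.ncard_add_ncard_compl S
    have h3 := s.card
    have h4 := he S S hS hS x hx y hyS
    omega
  obtain ⟨z, hzS, hzx, hzy⟩ := hex
  have htot := total s hSn hF hSF hc ![orb G S x, orb G S y, orb G S z]
    (by
      have d1 := t5_disj hy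
      have d2 := t5_disj hzx
      have d3 := t5_disj hzy
      intro i k hik
      fin_cases i <;> fin_cases k <;>
        first
        | exact absurd rfl hik
        | exact d1
        | exact d1.symm
        | exact d2
        | exact d2.symm
        | exact d3
        | exact d3.symm)
    (by
      intro i
      fin_cases i
      · exact orb_inv S x
      · exact orb_inv S y
      · exact orb_inv S z)
    (by
      intro i
      fin_cases i
      · exact orb_disj hx
      · exact orb_disj hyS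
      · exact orb_disj hzS)
  rw [Fin.sum_univ_three, hS] at htot
  have p1 := pos_flat s hSn hF hSF hc (orb_inv S x) ⟨x, t5_self x⟩ (orb_disj hx)
  have p2 := pos_flat s hSn hF hSF hc (orb_inv S y) ⟨y, t5_self y⟩ (orb_disj hyS)
  have p3 := pos_flat s hSn hF hSF hc (orb_inv S z) ⟨z, t5_self z⟩ (orb_disj hzS)
  simp only [Matrix.cons_val_zero, Matrix.cons_val_one, Matrix.cons_val] at htot
  push_cast at htot
  linarith

theorem t5_fix_mono {S T : Set Ω} (h : S ⊆ T) {g : G} (hg : g ∈ fixingSubgroup G T) :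
    g ∈ fixingSubgroup G S := fixingSubgroup_antitone G Ω h hg

theorem t5_fix {S : Set Ω} {g : G} (hg : g ∈ fixingSubgroup G S) {x : Ω} (hx : x ∈ S) :
    g • x = x := (mem_fixingSubgroup_iff G).1 hg x hx

theorem exc3_aux (s : Sit G Ω B f) (hjf : 3 < f)
    (hst : ∀ k : ℕ, 4 < k → (∀ S : Set Ω, S.ncard = 4 → (cl B S).ncard = k) → False)
    (htr : ∀ i < 3, ∀ S : Set Ω, S.ncard = i → Trans G S) (hcl : ∀ i ≤ 3, Closed B i)
    (hn : ∀ S : Set Ω, S.ncard = 3 → ¬ Trans G S)
    (h4 : ∀ T T' : Set Ω, T.ncard = 4 → T'.ncard = 4 → ∃ g : G, g • T = T')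
    (he : ∀ S S' : Set Ω, S.ncard = 3 → S'.ncard = 3 → ∀ x ∉ S, ∀ x' ∉ S',
         (orb G S x).ncard = (orb G S' x').ncard) : False := by
  haveI := s.fin
  obtain ⟨F, hF⟩ := s.ne
  have hFc := s.bf F hF
  obtain ⟨T, hTF, hT⟩ := Set.exists_subset_card_eq (s := F) (n := 4) (by omega)
  have hk : ∀ T' : Set Ω, T'.ncard = 4 → (cl B T').ncard = (cl B T).ncard := by
    intro T' hT'
    obtain ⟨g, hg⟩ := h4 T T' hT hT'
    rw [← hg, ← smul_cl s, Set.ncard_smul_set]
  have hk4 : 4 ≤ (cl B T).ncard := by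
    rw [← hT]; exact Set.ncard_le_ncard (subset_cl B T) (Set.toFinite _)
  rcases Nat.lt_or_ge 4 (cl B T).ncard with hlt | hge
  · exact hst _ hlt hk
  have hc4 : ∀ T' : Set Ω, T'.ncard = 4 → cl B T' = T' := by
    intro T' hT'
    exact (Set.eq_of_subset_of_ncard_le (subset_cl B T')
      (by rw [hk T' hT', hT']; exact hge) (Set.toFinite _)).symm
  have hTn : T.Nonempty := by
    rw [← Set.ncard_pos]; omega
  obtain ⟨x0, hx0⟩ := hTn
  have hS3 : ∀ x ∈ T, (T \ {x}).ncard = 3 := by
    intro x hx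
    rw [Set.ncard_diff_singleton_of_mem hx, hT]
  have hxS : ∀ x : Ω, x ∉ T \ {x} := fun x h => h.2 rfl
  let g0 : ℕ := (orb G (T \ {x0}) x0).ncard
  have hg0 : ∀ x ∈ T, ∀ y ∉ T \ {x}, (orb G (T \ {x}) y).ncard = g0 := fun x hx y hy =>
    he _ _ (hS3 x hx) (hS3 x0 hx0) y hy x0 (hxS x0)
  let V : Set Ω := {y | y ∉ T ∧ (orb G T y).ncard = g0}
  have hV : ∀ x ∈ T, ∀ y, y ∈ V ↔ (y ∉ T ∧ y ∉ orb G (T \ {x}) x) := by
    intro x hx y
    have hST : T \ {x} ⊆ T := Set.diff_subset
    constructor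
    · rintro ⟨hyT, hy⟩
      refine ⟨hyT, fun hyx => ?_⟩
      have hsub : orb G T y ⊆ orb G (T \ {x}) x \ {x} := by
        rintro z ⟨g, hg, rfl⟩
        refine ⟨orb_inv (T \ {x}) x g (t5_fix_mono hST hg) y hyx, ?_⟩
        intro hgx
        rw [Set.mem_singleton_iff] at hgx
        have h1 : g • x = x := t5_fix hg hx
        have h2 : y = x := by
          apply smul_left_cancel g
          rw [hgx, h1]
        exact hyT (h2 ▸ hx)
      have h1 : (orb G T y).ncard ≤ (orb G (T \ {x}) x \ {x}).ncard :=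
        Set.ncard_le_ncard hsub (Set.toFinite _)
      rw [Set.ncard_diff_singleton_of_mem (t5_self x), hg0 x hx x (hxS x), hy] at h1
      have h2 : 0 < g0 := by
        have : (orb G (T \ {x}) x).Nonempty := ⟨x, t5_self x⟩
        have h3 := (Set.ncard_pos (Set.toFinite _)).2 this
        rw [hg0 x hx x (hxS x)] at h3
        exact h3
      omega
    · rintro ⟨hyT, hyx⟩
      refine ⟨hyT, ?_⟩
      have hyS : y ∉ T \ {x} := fun h => hyT h.1
      have hw := t5_key s (hcl 3 le_rfl) hn he hF (hS3 x hx) (hST.trans hTF) hyS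
      have hdT : Disjoint (orb G (T \ {x}) y) T := by
        rw [Set.disjoint_left]
        intro z hz hzT
        by_cases hzx : z = x
        · subst hzx
          exact hyx (t5_symm hz)
        · exact Set.disjoint_left.1 (orb_disj hyS) hz ⟨hzT, hzx⟩
      have hsub : orb G T y ⊆ orb G (T \ {x}) y := by
        rintro z ⟨g, hg, rfl⟩
        exact ⟨g, t5_fix_mono hST hg, rfl⟩
      have heq : orb G T y = orb G (T \ {x}) y := by
        by_contra hne
        have hne2 : (orb G (T \ {x}) y \ orb G T y).Nonempty := by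
          rw [Set.diff_nonempty]
          intro h
          exact hne (Set.Subset.antisymm hsub h)
        have hu : orb G (T \ {x}) y = orb G T y ∪ (orb G (T \ {x}) y \ orb G T y) := by
          rw [Set.union_diff_self]
          exact (Set.union_eq_self_of_subset_left hsub).symm
        have hw2 : w F (orb G (T \ {x}) y) = w F (orb G T y) +
            w F (orb G (T \ {x}) y \ orb G T y) := by
          conv_lhs => rw [hu]
          exact w_union F _ _ Set.disjoint_sdiff_right
        have p1 := pos_flat s ⟨x0, hx0⟩ hF hTF (hc4 T hT) (orb_inv T y) ⟨y, t5_self y⟩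
          (orb_disj hyT)
        have p2 := pos_flat s ⟨x0, hx0⟩ hF hTF (hc4 T hT)
          (Y := orb G (T \ {x}) y \ orb G T y)
          (by
            rintro g hg z ⟨hz1, hz2⟩
            refine ⟨orb_inv (T \ {x}) y g (t5_fix_mono hST hg) z hz1, fun h => hz2 ?_⟩
            have := orb_inv T y g⁻¹ (inv_mem hg) _ h
            rwa [inv_smul_smul] at this)
          hne2
          (hdT.mono_left Set.diff_subset)
        linarith
      rw [heq]
      exact hg0 x hx y hyS
  obtain ⟨a, ha⟩ := s.gen F hF {A | ∃ x ∈ T, A = T \ {x}} ⟨_, x0, hx0, rfl⟩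
    (by
      rintro A ⟨x, hx, rfl⟩
      exact Set.diff_subset.trans hTF)
    V
    (by
      obtain ⟨y, hyS, hy⟩ := t5_ex (hn _ (hS3 x0 hx0)) x0
      refine ⟨y, (hV x0 hx0 y).2 ⟨fun hyT => ?_, hy⟩⟩
      by_cases hyx : y = x0
      · exact hy (hyx ▸ t5_self _)
      · exact hyS ⟨hyT, hyx⟩)
    (by
      intro h
      have : x0 ∈ V := h ▸ Set.mem_univ _
      exact this.1 hx0)
    (by
      rintro A ⟨x, hx, rfl⟩ g hg y hy
      obtain ⟨hyT, hyx⟩ := (hV x hx y).1 hy
      refine (hV x hx _).2 ⟨fun h => ?_, fun h => ?_⟩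
      · by_cases hgx : g • y = x
        · exact hyx (t5_symm ⟨g, hg, hgx⟩)
        · have h1 : g • (g • y) = g • y := t5_fix hg ⟨h, hgx⟩
          have h2 : g • y = y := smul_left_cancel g h1
          exact hyT (h2 ▸ h)
      · apply hyx
        have := orb_inv (T \ {x}) x g⁻¹ (inv_mem hg) _ h
        rwa [inv_smul_smul] at this)
  have h1 : a ∈ T \ {x0} := by
    have := ha _ ⟨x0, hx0, rfl⟩
    rwa [hcl 3 le_rfl _ (hS3 x0 hx0)] at this
  have h2 : a ∈ T \ {a} := by
    have := ha _ ⟨a, h1.1, rfl⟩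
    rwa [hcl 3 le_rfl _ (hS3 a h1.1)] at this
  exact h2.2 rfl

end T5

end Cfsg.Agent.Lib.Pro
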