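import Cfsg.Agent.Lib.ProA
import Cfsg.Agent.Lib.ProP1
import Cfsg.Agent.Lib.ProP2
import Cfsg.Agent.Lib.ProL1
import Cfsg.Agent.Lib.ProL2
import Cfsg.Agent.Lib.ProH3
import Cfsg.Agent.Lib.ProH4
import Cfsg.Agent.Lib.ProT1
import Cfsg.Agent.Lib.ProT2a
import Cfsg.Agent.Lib.ProT3
import Cfsg.Agent.Lib.ProT4
import Cfsg.Agent.Lib.ProT5a
import Cfsg.Agent.Lib.ProN

/-! S3399: assembly of the main theorem (no situation `Sit` exists). -/

set_option autoImplicit false
open scoped Pointwise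

namespace Cfsg.Agent.Lib.Pro

variable {G Ω : Type} [Group G] [MulAction G Ω] {B : Set (Set Ω)} {f : ℕ}

theorem minC' (s : Sit G Ω B f) {j : ℕ} (hj : 3 ≤ j) (hjf : j < f)
    (htr : ∀ i < j, ∀ S : Set Ω, S.ncard = i → Trans G S) (hcl : ∀ i ≤ j, Closed B i)
    (hnc : ∀ T : Set Ω, T.ncard = j + 1 → cl B T ≠ T) :
    ∃ C F q, F ∈ B ∧ C ⊆ F ∧ cl B C = C ∧ C.ncard = j + q ∧ 2 ≤ q ∧ q + 1 ≤ j ∧
      (∀ T ⊆ C, T.ncard = j + 1 → cl B T = C) ∧
      ∀ S ⊆ C, S.ncard = j → {y | ∀ g ∈ fixingSubgroup G S, g • y ∉ C}.Nonempty ∧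
        w F {y | ∀ g ∈ fixingSubgroup G S, g • y ∉ C} + q ≤ j :=
  minC_of s hj hjf (fun hA hF h hc hD hY hd => cov_le s hA hF h hc hD hY hd)
    (fun k hk h => stein s (by omega) (by omega) hk h) htr hcl hnc

theorem exc3' (s : Sit G Ω B f) (hjf : 3 < f)
    (htr : ∀ i < 3, ∀ S : Set Ω, S.ncard = i → Trans G S) (hcl : ∀ i ≤ 3, Closed B i)
    (hn : ∀ S : Set Ω, S.ncard = 3 → ¬ Trans G S)
    (h4 : ∀ T T' : Set Ω, T.ncard = 4 → T'.ncard = 4 → ∃ g : G, g • T = T')
    (he : ∀ S S' : Set Ω, S.ncard = 3 → S'.ncard = 3 → ∀ x ∉ S, ∀ x' ∉ S',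
         (orb G S x).ncard = (orb G S' x').ncard) : False :=
  exc3_aux s hjf (fun _ hk h => stein s (J := 4) (by norm_num) (by omega) hk h) htr hcl hn h4 he

/-- stabilizers of `j` points have at most `j` orbits on the remaining points -/
theorem horb (s : Sit G Ω B f) {j : ℕ} (hj : 1 ≤ j) (hjf : j ≤ f) (hc : Closed B j)
    (S : Set Ω) (hS : S.ncard = j) (x : Fin (j + 1) → Ω) (hx : ∀ i, x i ∉ S) :
    ∃ i i', i ≠ i' ∧ x i' ∈ orb G S (x i) := by
  have := s.fin
  by_contra hcon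
  push Not at hcon
  have hcl : cl B S = S := hc S hS
  have hne : cl B S ≠ Set.univ := by
    intro h
    rw [hcl] at h
    have h1 := s.card
    have h2 := s.f1
    rw [h, Set.ncard_univ, h1] at hS
    omega
  obtain ⟨F, hF, hSF⟩ := ex_block hne
  have hSn : S.Nonempty := by
    rw [← Set.ncard_pos]
    omega
  have h := card_le s hSn hF hSF hcl (fun i : Fin (j + 1) => orb G S (x i)) (by
    intro i k hik
    show Disjoint (orb G S (x i)) (orb G S (x k))
    rw [Set.disjoint_left]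
    rintro y ⟨g, hg, rfl⟩ ⟨g', hg', h⟩
    apply hcon i k hik
    refine ⟨g'⁻¹ * g, mul_mem (inv_mem hg') hg, ?_⟩
    rw [mul_smul, ← h, inv_smul_smul]) (fun i => orb_inv _ _) (fun i => orb_disj (hx i))
    (fun i => ⟨x i, self_orb _ _⟩)
  rw [hS, Fintype.card_fin] at h
  omega

/-- all sets of the same size `i` are equivalent if the lower levels are transitive -/
theorem equiv_sets [Finite Ω] {j : ℕ} (htr : ∀ i < j, ∀ S : Set Ω, S.ncard = i → Trans G S) :
    ∀ i ≤ j, ∀ S S' : Set Ω, S.ncard = i → S'.ncard = i → ∃ g : G, g • S = S' := by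
  intro i
  induction i with
  | zero =>
    intro _ S S' h h'
    rw [Set.ncard_eq_zero] at h h'
    exact ⟨1, by rw [h, h']; simp⟩
  | succ i ih =>
    intro hi S S' h h'
    obtain ⟨x, S1, hx, rfl, h1⟩ := Set.eq_insert_of_ncard_eq_succ h
    obtain ⟨x', S1', hx', rfl, h1'⟩ := Set.eq_insert_of_ncard_eq_succ h'
    obtain ⟨g, hg⟩ := ih (by omega) S1 S1' h1 h1'
    obtain ⟨k, hk, hkx⟩ := htr i (by omega) S1' h1' (g • x) (by
      intro hc
      rw [← hg, Set.smul_mem_smul_set_iff] at hc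
      exact hx hc) x' hx'
    refine ⟨k * g, ?_⟩
    rw [Set.smul_set_insert, mul_smul, mul_smul, hkx, hg]
    congr 1
    ext y
    rw [mem_fixingSubgroup_iff] at hk
    rw [Set.mem_smul_set]
    constructor
    · rintro ⟨z, hz, rfl⟩
      rwa [hk z hz]
    · intro hy
      exact ⟨y, hy, hk y hy⟩

theorem trans_smul {S : Set Ω} (g : G) (h : Trans G S) : Trans G (g • S) := by
  intro x hx y hy
  obtain ⟨k, hk, hkx⟩ := h (g⁻¹ • x) (by rwa [← Set.mem_smul_set_iff_inv_smul_mem]) (g⁻¹ • y)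
    (by rwa [← Set.mem_smul_set_iff_inv_smul_mem])
  refine ⟨g * k * g⁻¹, ?_, ?_⟩
  · rw [mem_fixingSubgroup_iff] at hk ⊢
    rintro _ ⟨z, hz, rfl⟩
    show (g * k * g⁻¹) • (g • z) = g • z
    rw [mul_smul, inv_smul_smul, mul_smul, hk z hz]
  · rw [mul_smul, mul_smul, hkx, smul_inv_smul]

/-- step T -/
theorem stepT (s : Sit G Ω B f) {j : ℕ} (hj : 2 ≤ j) (hjf : j < f)
    (htr : ∀ i < j, ∀ S : Set Ω, S.ncard = i → Trans G S) (hcl : ∀ i ≤ j, Closed B i) :
    ∀ S : Set Ω, S.ncard = j → Trans G S := by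
  have := s.fin
  rcases Nat.lt_or_ge j 3 with h3 | h3
  · obtain rfl : j = 2 := by omega
    exact lev2 s (by omega) (hcl 2 le_rfl)
  by_contra hcon
  push Not at hcon
  obtain ⟨S0, hS0, hnt⟩ := hcon
  have hn : ∀ S : Set Ω, S.ncard = j → ¬ Trans G S := by
    intro S hS ht
    obtain ⟨g, hg⟩ := equiv_sets htr j le_rfl S S0 hS hS0
    exact hnt (hg ▸ trans_smul g ht)
  have key : (∀ T : Set Ω, T.ncard = j + 1 → H3 G T) → False := by
    intro hH
    have hnc := fun T hT => nonclosed s h3 hjf htr hcl hn hH T hT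
    obtain ⟨C, F, q, hF, hCF, hCc, hC, hq, hqj, hgen, hW⟩ := minC' s h3 hjf htr hcl hnc
    rcases Nat.lt_or_ge j 4 with h4 | h4
    · obtain rfl : j = 3 := by omega
      obtain rfl : q = 2 := by omega
      exact kill3 s hcl hH hF hCF hCc hC hgen hW
    · exact kill4 s h4 hcl hH hF hCF hCc hC hq hqj hgen hW
  rcases Nat.lt_or_ge j 4 with h4 | h4
  · obtain rfl : j = 3 := by omega
    rcases cyc3 htr (horb s (by omega) (by omega) (hcl 3 le_rfl)) with h | ⟨h4', he⟩
    · exact key h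
    · exact exc3' s hjf htr hcl hn h4' he
  · exact key (cyc4 h4 htr (horb s (by omega) (by omega) (hcl j le_rfl)))

/-- step C -/
theorem stepC (s : Sit G Ω B f) {j : ℕ} (hj : 2 ≤ j) (hjf : j < f)
    (htr : ∀ i < j + 1, ∀ S : Set Ω, S.ncard = i → Trans G S) : Closed B (j + 1) := by
  have := s.fin
  intro T hT
  by_contra hne
  have hlt : j + 1 < (cl B T).ncard := by
    rw [← hT]
    exact Set.ncard_lt_ncard ((subset_cl B T).ssubset_of_ne (Ne.symm hne))
  apply stein s (J := j + 1) (k := (cl B T).ncard) (by omega) (by omega) hlt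
  intro S hS
  obtain ⟨g, hg⟩ := equiv_sets htr (j + 1) le_rfl T S hT hS
  rw [← hg, ← smul_cl s, Set.ncard_smul_set]

theorem trans0 (s : Sit G Ω B f) (S : Set Ω) (hS : S.ncard = 0) : Trans G S := by
  have := s.fin
  rw [Set.ncard_eq_zero] at hS
  subst hS
  intro x _ y _
  obtain ⟨g, hg⟩ := s.tr1 x y
  exact ⟨g, by rw [mem_fixingSubgroup_iff]; simp, hg⟩

theorem trans1 (s : Sit G Ω B f) (S : Set Ω) (hS : S.ncard = 1) : Trans G S := by
  rw [Set.ncard_eq_one] at hS
  obtain ⟨a, rfl⟩ := hS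
  intro x hx y hy
  obtain ⟨g, hg, h⟩ := s.tr2 a x y hx hy
  refine ⟨g, ?_, h⟩
  rw [mem_fixingSubgroup_iff]
  rintro _ rfl
  exact hg

theorem closed0 (s : Sit G Ω B f) : Closed B 0 := by
  have := s.fin
  intro S hS
  rw [Set.ncard_eq_zero] at hS
  subst hS
  obtain ⟨F, hF⟩ := s.ne
  have h1 := s.bf F hF
  have h2 := s.card
  have h3 := s.f1
  have : ∃ b, b ∉ F := by
    by_contra hcon
    push Not at hcon
    have : F = Set.univ := Set.eq_univ_of_forall hcon
    rw [this, Set.ncard_univ] at h1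
    omega
  obtain ⟨b, hb⟩ := this
  rw [Set.eq_empty_iff_forall_notMem]
  intro x hx
  obtain ⟨g, hg⟩ := s.tr1 x b
  have h := smul_cl s g (∅ : Set Ω)
  rw [Set.smul_set_empty] at h
  have h4 : b ∈ cl B (∅ : Set Ω) := by
    rw [← h, ← hg]
    exact Set.smul_mem_smul_set hx
  exact hb (h4 F hF (Set.empty_subset _))

theorem levels (s : Sit G Ω B f) : ∀ j ≤ f, (∀ i < j, ∀ S : Set Ω, S.ncard = i → Trans G S) ∧
    (∀ i ≤ j, Closed B i) := by
  intro j
  induction j with
  | zero => exact fun _ => ⟨fun i hi => absurd hi (by omega), fun i hi => by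
      obtain rfl : i = 0 := by omega
      exact closed0 s⟩
  | succ j ih =>
    intro hj
    obtain ⟨h1, h2⟩ := ih (by omega)
    have h3 : ∀ i < j + 1, ∀ S : Set Ω, S.ncard = i → Trans G S := by
      intro i hi
      rcases Nat.lt_or_ge i j with h | h
      · exact h1 i h
      obtain rfl : i = j := by omega
      rcases Nat.lt_or_ge i 2 with h' | h'
      · interval_cases i
        · exact trans0 s
        · exact trans1 s
      · exact stepT s h' (by omega) h1 h2
    refine ⟨h3, ?_⟩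
    intro i hi
    rcases Nat.lt_or_ge i (j + 1) with h | h
    · exact h2 i (by omega)
    obtain rfl : i = j + 1 := by omega
    rcases Nat.lt_or_ge j 2 with h' | h'
    · interval_cases j
      · exact closed1 s
      · exact closed2 s (by omega)
    · exact stepC s h' (by omega) h3

theorem no_sit (s : Sit G Ω B f) : False := by
  have := s.fin
  obtain ⟨F, hF⟩ := s.ne
  have h := (levels s f le_rfl).2 f le_rfl
  have h1 := s.bf F hF
  have h2 := s.card
  have h3 := s.f1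
  have hc : (Fᶜ).ncard = f := by
    have := Set.ncard_add_ncard_compl F
    omega
  have h4 := h Fᶜ hc
  have hne : cl B Fᶜ ≠ Set.univ := by
    intro h5
    rw [h4] at h5
    rw [h5, Set.ncard_univ] at hc
    omega
  obtain ⟨F', hF', hs⟩ := ex_block hne
  have h5 : Fᶜ = F' := Set.eq_of_subset_of_ncard_le hs (by rw [s.bf F' hF', hc])
  obtain ⟨x, hx, hx'⟩ := s.meet F hF F' hF'
  rw [← h5] at hx'
  exact hx' hx

end Cfsg.Agent.Lib.Pro
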