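import Cfsg.Agent.Lib.ProA
import Cfsg.Agent.Lib.ProP1

/-! S3399, piece N2: `J ≥ 4` impossible (helper85). -/

set_option autoImplicit false
open scoped Pointwise

namespace Cfsg.Agent.Lib.Pro

section N2x
variable {G Ω : Type} [Group G] [MulAction G Ω] {B : Set (Set Ω)} {f : ℕ}

theorem N2x.univ_cl : cl B (Set.univ : Set Ω) = Set.univ :=
  Set.eq_univ_of_univ_subset (subset_cl B _)

/-- `J`-subsets of a closed `J`-block generate it -/
theorem N2x.gen [Finite Ω] {J : ℕ} (h : ∀ S : Set Ω, S.ncard = J → (cl B S).ncard = J + 1)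
    {X L : Set Ω} (hX : X.ncard = J) (hXL : X ⊆ L) (hL : cl B L = L) (hLc : L.ncard = J + 1) :
    cl B X = L := by
  have h1 : cl B X ⊆ L := by rw [← hL]; exact cl_mono B hXL
  exact Set.eq_of_subset_of_ncard_le h1 (by rw [hLc, h X hX]) (Set.toFinite _)

theorem N2x.gf (s : Sit G Ω B f) {J : ℕ}
    (h : ∀ S : Set Ω, S.ncard = J → (cl B S).ncard = J + 1)
    (h2 : ∀ S : Set Ω, S.ncard = J → ∀ D, Cov B (cl B S) D → cl B S ⊂ D → D.ncard = 2 * (J + 1))
    {S : Set Ω} (hS : S.ncard = J) {y : Ω} (hy : y ∉ cl B S) :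
    Cov B (cl B S) (cl B (insert y (cl B S))) ∧
      (cl B (insert y (cl B S))).ncard = 2 * (J + 1) := by
  have := s.fin
  have hc : cl B (cl B S) = cl B S := cl_cl B S
  have hne : cl B (cl B S) ≠ Set.univ := by
    rw [hc]; intro hu; exact hy (hu ▸ Set.mem_univ _)
  obtain ⟨F, hF, hSF⟩ := ex_block hne
  have hn : (cl B S).Nonempty := by
    rw [← Set.ncard_pos, h S hS]; omega
  have hss : cl B S ⊂ Set.univ := by
    rw [Set.ssubset_univ_iff]
    rw [hc] at hne; exact hne
  obtain ⟨E, hE1, hE2, -, -⟩ := ex_cov hc N2x.univ_cl hss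
  have hEc := h2 S hS E hE1 hE2
  have := cov_eq s hn hF hSF hc hE1 (by rw [hEc, h S hS]) y hy
  rw [h S hS] at this
  exact this

theorem N2x.odd (s : Sit G Ω B f) {J : ℕ} (hJ : 4 ≤ J) (hJf : J ≤ f)
    (h : ∀ S : Set Ω, S.ncard = J → (cl B S).ncard = J + 1) : Odd J := by
  classical
  have := s.fin
  have := Fintype.ofFinite Ω
  obtain ⟨S', -, hS'⟩ := Set.exists_subset_card_eq (s := (Set.univ : Set Ω)) (n := J - 1)
    (by rw [Set.ncard_univ, s.card]; omega)
  have hins : ∀ b ∉ S', (insert b S').ncard = J := by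
    intro b hb
    rw [Set.ncard_insert_of_notMem hb, hS']; omega
  have hex : ∀ b ∉ S', ∃ c, c ∉ S' ∧ c ≠ b ∧ cl B (insert b S') = insert c (insert b S') := by
    intro b hb
    have h1 := h _ (hins b hb)
    have h2 : (cl B (insert b S') \ insert b S').ncard = 1 := by
      rw [Set.ncard_diff (subset_cl B _), h1, hins b hb]; omega
    obtain ⟨c, hc⟩ := Set.ncard_eq_one.1 h2
    have hc' : c ∈ cl B (insert b S') \ insert b S' := by rw [hc]; rfl
    refine ⟨c, fun hcS => hc'.2 (Set.mem_insert_of_mem _ hcS),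
      fun hcb => hc'.2 (hcb ▸ Set.mem_insert _ _), ?_⟩
    rw [← Set.union_diff_cancel (subset_cl B (insert b S')), hc, Set.union_comm]
    rfl
  choose! φ hφ using hex
  have hinv : ∀ b ∉ S', φ (φ b) = b := by
    intro b hb
    obtain ⟨h1, h2, h3⟩ := hφ b hb
    obtain ⟨h4, h5, h6⟩ := hφ (φ b) h1
    have h7 : cl B (insert (φ b) S') = cl B (insert b S') := by
      apply N2x.gen h (hins _ h1) _ (cl_cl B _) (h _ (hins b hb))
      rw [h3]
      intro x hx
      rcases hx with rfl | hx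
      · exact Set.mem_insert _ _
      · exact Set.mem_insert_of_mem _ (Set.mem_insert_of_mem _ hx)
    have h8 : b ∈ cl B (insert (φ b) S') := by
      rw [h7]; exact subset_cl B _ (Set.mem_insert _ _)
    rw [h6] at h8
    rcases h8 with h8 | h8 | h8
    · exact h8.symm
    · exact absurd h8.symm h2
    · exact absurd h8 hb
  have hsum : ∑ _x ∈ (S'ᶜ).toFinset, (1 : ZMod 2) = 0 := by
    refine Finset.sum_involution (fun b _ => φ b) ?_ ?_ ?_ ?_
    · intro b _
      decide
    · intro b hb _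
      rw [Set.mem_toFinset] at hb
      exact (hφ b hb).2.1
    · intro b hb
      rw [Set.mem_toFinset] at hb ⊢
      exact (hφ b hb).1
    · intro b hb
      rw [Set.mem_toFinset] at hb
      exact hinv b hb
  rw [Finset.sum_const, nsmul_one] at hsum
  have hev : 2 ∣ (S'ᶜ).toFinset.card := (ZMod.natCast_eq_zero_iff _ _).1 hsum
  rw [← Set.ncard_eq_toFinset_card'] at hev
  have h3 : S'.ncard + (S'ᶜ).ncard = Nat.card Ω := Set.ncard_add_ncard_compl S'
  rw [s.card, hS'] at h3
  rw [Nat.odd_iff]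
  omega

theorem N2x.case_univ (s : Sit G Ω B f) {J : ℕ} (hJ : 4 ≤ J) (hf : f = J + 1)
    (h : ∀ S : Set Ω, S.ncard = J → (cl B S).ncard = J + 1) : False := by
  have := s.fin
  have hB : ∀ S : Set Ω, S.ncard = J → cl B S ∈ B := by
    intro S hS
    have hne : cl B S ≠ Set.univ := by
      intro hu
      have h1 := h S hS
      rw [hu, Set.ncard_univ, s.card] at h1
      omega
    obtain ⟨F, hF, hSF⟩ := ex_block hne
    have h1 : cl B S ⊆ F := cl_sub hF hSF
    have h2 : cl B S = F :=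
      Set.eq_of_subset_of_ncard_le h1 (by rw [h S hS, s.bf F hF, hf]) (Set.toFinite _)
    rw [h2]; exact hF
  obtain ⟨F, hF⟩ := s.ne
  have hFc := s.bf F hF
  have hcomp : F.ncard + (Fᶜ).ncard = Nat.card Ω := Set.ncard_add_ncard_compl F
  rw [s.card] at hcomp
  have hFn : (Fᶜ).Nonempty := by
    rw [← Set.ncard_pos]; omega
  obtain ⟨b, hb⟩ := hFn
  obtain ⟨g, hg, hgb⟩ := s.mv F hF b hb
  have hgF : ∀ z ∈ F, g • z = z := fun z hz => (mem_fixingSubgroup_iff G).1 hg z hz
  have hgc : ∀ z ∉ F, g • z ∉ F := by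
    intro z hz hz'
    apply hz
    have h1 : g • (g • z) = g • z := hgF _ hz'
    have h2 : g • z = z := smul_left_cancel g h1
    rwa [h2] at hz'
  let X : Set Ω := Fᶜ \ {b}
  have hXc : X.ncard = J := by
    show (Fᶜ \ {b}).ncard = J
    rw [Set.ncard_diff_singleton_of_mem hb]; omega
  let L : Set Ω := cl B X
  have hL : L ∈ B := hB X hXc
  have hLc : L.ncard = J + 1 := h X hXc
  have hXL : X ⊆ L := subset_cl B X
  obtain ⟨z, hzL, hzF⟩ := s.meet L hL F hF
  have hzX : z ∉ X := fun hz => hz.1 hzF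
  have hLeq : L = insert z X := by
    symm
    apply Set.eq_of_subset_of_ncard_le _ _ (Set.toFinite _)
    · exact Set.insert_subset hzL hXL
    · rw [Set.ncard_insert_of_notMem hzX, hXc, hLc]
  have hgbL : g • b ∈ L := by
    rw [hLeq]
    exact Set.mem_insert_of_mem _ ⟨hgc b hb, hgb⟩
  have hbL : b ∉ L := by
    rw [hLeq]
    rintro (hbz | hbX)
    · exact hb (hbz ▸ hzF)
    · exact hbX.2 rfl
  let Y : Set Ω := insert z (Fᶜ \ {b, g • b})
  have hYL : Y ⊆ L := by
    rw [hLeq]
    apply Set.insert_subset_insert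
    intro x hx
    exact ⟨hx.1, fun hxb => hx.2 (Or.inl hxb)⟩
  have hYgL : Y ⊆ g • L := by
    rintro x (rfl | hx)
    · rw [Set.mem_smul_set_iff_inv_smul_mem]
      have : g⁻¹ • x = x := by rw [inv_smul_eq_iff]; exact (hgF x hzF).symm
      rw [this]; exact hzL
    · rw [Set.mem_smul_set_iff_inv_smul_mem, hLeq]
      refine Set.mem_insert_of_mem _ ⟨fun hxF => hx.1 ?_, fun hxb => hx.2 (Or.inr ?_)⟩
      · have := hgF _ hxF
        rw [smul_inv_smul] at this
        rw [this]; exact hxF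
      · rw [Set.mem_singleton_iff] at hxb ⊢
        rw [← hxb, smul_inv_smul]
  have hYc : Y.ncard = J := by
    show (insert z (Fᶜ \ {b, g • b})).ncard = J
    rw [Set.ncard_insert_of_notMem (fun hz => hz.1 hzF),
      Set.ncard_diff (by
        rintro x (rfl | rfl)
        · exact hb
        · exact hgc b hb), Set.ncard_pair (Ne.symm hgb)]
    omega
  have h1 : cl B Y = L := N2x.gen h hYc hYL (cl_cl B X) hLc
  have h2 : cl B Y = g • L := by
    apply N2x.gen h hYc hYgL
    · rw [← smul_cl s, cl_cl]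
    · rw [Set.ncard_smul_set]; exact hLc
  have h3 : g • b ∈ g • L := by rw [← h2, h1]; exact hgbL
  rw [Set.smul_mem_smul_set_iff] at h3
  exact hbL h3

end N2x

end Cfsg.Agent.Lib.Pro
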