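import Mathlib

/-! S3399: definitions for the reduction. -/

set_option autoImplicit false

namespace Cfsg.Agent.Lib.Pro

def Pron {G : Type} [Group G] (K : Subgroup G) : Prop :=
  ∀ g : G, ∃ v ∈ K ⊔ K.map (MulAut.conj g).toMonoidHom,
    K.map (MulAut.conj v).toMonoidHom = K.map (MulAut.conj g).toMonoidHom

def PN (G Ω : Type) [Group G] [MulAction G Ω] : Prop :=
  ∀ K : Subgroup G, Pron K → (∃ k ∈ K, ∃ a : Ω, k • a ≠ a) →
    2 * {a : Ω | ∀ k ∈ K, k • a = a}.ncard + 1 ≤ Nat.card Ω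

end Cfsg.Agent.Lib.Pro
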