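import Cfsg.Agent.Lib.ProR0

/-! S3399, piece RA (helper90): the weight inequality for invariant sets of a subgroup containing `K`. -/

set_option autoImplicit false

namespace Cfsg.Agent.Lib.Pro

theorem pron_sub {G : Type} [Group G] {K H : Subgroup G} (hKH : K ≤ H) (hp : Pron K) : Pron (K.subgroupOf H) := by
  intro g
  obtain ⟨v, hv, he⟩ := hp (g : G)
  have hle : K ⊔ K.map (MulAut.conj (g : G)).toMonoidHom ≤ H := by
    refine sup_le hKH ?_
    rintro _ ⟨k, hk, rfl⟩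
    exact H.mul_mem (H.mul_mem g.2 (hKH hk)) (H.inv_mem g.2)
  have hcm : ∀ u : H, ((K.subgroupOf H).map (MulAut.conj u).toMonoidHom).map H.subtype
      = K.map (MulAut.conj (u : G)).toMonoidHom := by
    intro u
    rw [Subgroup.map_map]
    have : H.subtype.comp (MulAut.conj u).toMonoidHom = (MulAut.conj (u : G)).toMonoidHom.comp H.subtype := by
      ext x; rfl
    rw [this, ← Subgroup.map_map, Subgroup.subgroupOf_map_subtype, inf_eq_left.2 hKH]
  refine ⟨⟨v, hle hv⟩, ?_, ?_⟩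
  · have key : (K.subgroupOf H ⊔ (K.subgroupOf H).map (MulAut.conj g).toMonoidHom).map H.subtype
        = K ⊔ K.map (MulAut.conj (g : G)).toMonoidHom := by
      rw [Subgroup.map_sup, hcm, Subgroup.subgroupOf_map_subtype, inf_eq_left.2 hKH]
    have hv' := hv
    rw [← key] at hv'
    obtain ⟨u, hu, huv⟩ := hv'
    have : (⟨v, hle hv⟩ : H) = u := Subtype.ext huv.symm
    rw [this]; exact hu
  · apply Subgroup.map_injective H.subtype_injective
    rw [hcm, hcm]
    exact he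

variable {G Ω : Type} [Group G] [Finite G] [MulAction G Ω] [Finite Ω]

theorem orbit_step {K H : Subgroup G} (hKH : K ≤ H) (hp : Pron K) (IH : ∀ x : Ω, PN H (MulAction.orbit H x))
    (y : Ω) (hn : ∃ h ∈ H, ∃ k ∈ K, (h * k * h⁻¹) • y ≠ y) :
    2 * (MulAction.orbit H y ∩ {a | ∀ k ∈ K, k • a = a}).ncard + 1 ≤ (MulAction.orbit H y).ncard := by
  have h1 := IH y (K.subgroupOf H) (pron_sub hKH hp) (by
    obtain ⟨h, hh, k, hk, hne⟩ := hn
    refine ⟨⟨k, hKH hk⟩, hk, ⟨h⁻¹ • y, ⟨⟨h⁻¹, H.inv_mem hh⟩, rfl⟩⟩, fun hc => hne ?_⟩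
    have hc' : k • h⁻¹ • y = h⁻¹ • y := congrArg Subtype.val hc
    rw [mul_smul, mul_smul, hc', smul_inv_smul])
  have h2 : {a : MulAction.orbit H y | ∀ k ∈ K.subgroupOf H, k • a = a}.ncard
      = (MulAction.orbit H y ∩ {a | ∀ k ∈ K, k • a = a}).ncard := by
    rw [← Set.ncard_image_of_injective _ Subtype.val_injective]
    congr 1
    ext a
    constructor
    · rintro ⟨b, hb, rfl⟩
      refine ⟨b.2, fun k hk => ?_⟩
      exact congrArg Subtype.val (hb ⟨k, hKH hk⟩ hk)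
    · rintro ⟨ha, hb⟩
      exact ⟨⟨a, ha⟩, fun k hk => Subtype.ext (hb k hk), rfl⟩
  rw [h2] at h1
  exact h1

/-- RA -/
theorem posH {K H : Subgroup G} (hKH : K ≤ H) (hp : Pron K) (IH : ∀ x : Ω, PN H (MulAction.orbit H x))
    {Y : Set Ω} (hY : Y.Nonempty) (hinv : ∀ h ∈ H, ∀ y ∈ Y, h • y ∈ Y)
    (hn : ∀ y ∈ Y, ∃ h ∈ H, ∃ k ∈ K, (h * k * h⁻¹) • y ≠ y) :
    2 * (Y ∩ {a | ∀ k ∈ K, k • a = a}).ncard + 1 ≤ Y.ncard := by
  generalize hm : Y.ncard = m
  rw [← hm]
  induction m using Nat.strong_induction_on generalizing Y with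
  | _ m ih =>
    obtain ⟨y, hy⟩ := hY
    have hO := orbit_step hKH hp IH y (hn y hy)
    set O := MulAction.orbit H y with hOdef
    have hyO : y ∈ O := MulAction.mem_orbit_self y
    have hOY : O ⊆ Y := by
      rintro _ ⟨h, rfl⟩
      exact hinv h.1 h.2 y hy
    by_cases hYO : (Y \ O).Nonempty
    · have hlt : (Y \ O).ncard < m := by
        rw [← hm]
        exact Set.ncard_lt_ncard ⟨Set.diff_subset, fun hc => (hc hy).2 hyO⟩ (Set.toFinite _)
      have h1 := ih _ hlt (Y := Y \ O) hYO (fun h hh z hz => ⟨hinv h hh z hz.1, fun hc => hz.2 (by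
          have := (MulAction.mem_orbit_iff.1 hc)
          obtain ⟨u, hu⟩ := this
          refine MulAction.mem_orbit_iff.2 ⟨(⟨h, hh⟩ : H)⁻¹ * u, ?_⟩
          rw [mul_smul, hu]
          exact inv_smul_smul (⟨h, hh⟩ : H) z)⟩) (fun z hz => hn z hz.1) rfl
      have h2 : (Y \ O).ncard + O.ncard = Y.ncard := Set.ncard_diff_add_ncard_of_subset hOY
      have h3 : (Y ∩ {a | ∀ k ∈ K, k • a = a}).ncard ≤ ((Y \ O) ∩ {a | ∀ k ∈ K, k • a = a}).ncard
          + (O ∩ {a | ∀ k ∈ K, k • a = a}).ncard := by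
        refine le_trans (Set.ncard_le_ncard ?_ (Set.toFinite _)) (Set.ncard_union_le _ _)
        rintro z ⟨hz, hz'⟩
        by_cases hzO : z ∈ O
        · exact Or.inr ⟨hzO, hz'⟩
        · exact Or.inl ⟨⟨hz, hzO⟩, hz'⟩
      omega
    · have : Y = O := by
        apply Set.Subset.antisymm _ hOY
        intro z hz
        by_contra hc
        exact hYO ⟨z, hz, hc⟩
      rw [this]
      exact hO

end Cfsg.Agent.Lib.Pro
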