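import Cfsg.Agent.Lib.ProR0
import Cfsg.Agent.Lib.ProRA

/-! S3399, piece RB (helper45) -/

set_option autoImplicit false
set_option linter.unusedSectionVars false
set_option linter.unusedVariables false

open scoped Pointwise

namespace Cfsg.Agent.Lib.Pro

namespace RB

variable {G Ω : Type} [Group G] [Finite G] [MulAction G Ω] [Finite Ω]

/-- fixed points -/
def fx {G : Type} (Ω : Type) [Group G] [MulAction G Ω] (L : Subgroup G) : Set Ω := {a | ∀ k ∈ L, k • a = a}

theorem fx_smul (K : Subgroup G) (g : G) : g • fx Ω K = fx Ω (K.map (MulAut.conj g).toMonoidHom) := by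
  ext y
  rw [Set.mem_smul_set_iff_inv_smul_mem]
  constructor
  · rintro h κ ⟨k, hk, rfl⟩
    show (g * k * g⁻¹) • y = y
    have h1 : k • g⁻¹ • y = g⁻¹ • y := h k hk
    rw [mul_smul, mul_smul, h1, smul_inv_smul]
  · intro h k hk
    have h1 : (g * k * g⁻¹) • y = y := h (g * k * g⁻¹) ⟨k, hk, rfl⟩
    rw [mul_smul, mul_smul] at h1
    have h3 := congrArg (fun z => g⁻¹ • z) h1
    simpa using h3

/-- the block of `x` -/
def bc (G : Type) {Ω : Type} [Group G] [MulAction G Ω] (F : Set Ω) (x : Ω) : Set Ω := {b | ∀ g : G, x ∈ g • F → b ∈ g • F}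

theorem self_bc (F : Set Ω) (x : Ω) : x ∈ bc G F x := fun _ h => h

theorem bc_smul (F : Set Ω) (x : Ω) (g : G) : g • bc G F x = bc G F (g • x) := by
  ext b
  rw [Set.mem_smul_set_iff_inv_smul_mem]
  constructor
  · intro h h' hx
    have h1 := h (g⁻¹ * h') (by
      rw [mul_smul, Set.mem_smul_set_iff_inv_smul_mem, inv_inv]; exact hx)
    rw [mul_smul, Set.mem_smul_set_iff_inv_smul_mem, inv_inv, smul_inv_smul] at h1
    exact h1
  · intro h h' hx
    have h1 := h (g * h') (by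
      rw [mul_smul, Set.mem_smul_set_iff_inv_smul_mem, inv_smul_smul]; exact hx)
    rwa [mul_smul, Set.mem_smul_set_iff_inv_smul_mem] at h1

theorem bc_sub {F : Set Ω} {x y : Ω} (h : y ∈ bc G F x) : bc G F y ⊆ bc G F x :=
  fun _ hb g hx => hb g (h g hx)

theorem bc_card (F : Set Ω) (x : Ω) (g : G) : (bc G F (g • x)).ncard = (bc G F x).ncard := by
  rw [← bc_smul, Set.ncard_smul_set]

theorem bc_eq (tr : ∀ a b : Ω, ∃ g : G, g • a = b) {F : Set Ω} {x y : Ω} (h : y ∈ bc G F x) : bc G F y = bc G F x := by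
  obtain ⟨g, hg⟩ := tr x y
  refine Set.eq_of_subset_of_ncard_le (bc_sub h) ?_ (Set.toFinite _)
  rw [← hg, bc_card]

theorem bc_le {F : Set Ω} {x : Ω} (g : G) (h : x ∈ g • F) : bc G F x ⊆ g • F := fun _ hb => hb g h

/-- counting with blocks -/
theorem count (tr : ∀ a b : Ω, ∃ g : G, g • a = b) (F : Set Ω) (a : Ω) (P : MulAction.orbit G (bc G F a) → Prop)
    (hF : ∀ x ∈ F, ∀ σ : MulAction.orbit G (bc G F a), (σ : Set Ω) = bc G F x → P σ) :
    Nat.card Ω = (bc G F a).ncard * Nat.card (MulAction.orbit G (bc G F a)) ∧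
      F.ncard ≤ (bc G F a).ncard * {σ : MulAction.orbit G (bc G F a) | P σ}.ncard := by
  classical
  have h0 : ∀ x : Ω, bc G F x ∈ MulAction.orbit G (bc G F a) := by
    intro x
    obtain ⟨g, hg⟩ := tr a x
    exact ⟨g, by show g • bc G F a = _; rw [bc_smul, hg]⟩
  let φ : Ω → MulAction.orbit G (bc G F a) := fun x => ⟨bc G F x, h0 x⟩
  have : Fintype Ω := Fintype.ofFinite Ω
  have : Finite (MulAction.orbit G (bc G F a)) := Finite.of_surjective (fun g : G => (⟨g • bc G F a, ⟨g, rfl⟩⟩ : MulAction.orbit G (bc G F a)))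
    (by rintro ⟨_, g, rfl⟩; exact ⟨g, rfl⟩)
  have : Fintype (MulAction.orbit G (bc G F a)) := Fintype.ofFinite _
  have hfib : ∀ σ : MulAction.orbit G (bc G F a), (Finset.univ.filter (fun x => φ x = σ)).card = (bc G F a).ncard := by
    rintro ⟨_, g, rfl⟩
    have h1 : ((Finset.univ.filter (fun x => φ x = (⟨g • bc G F a, ⟨g, rfl⟩⟩ : MulAction.orbit G (bc G F a)))) : Set Ω) = bc G F (g • a) := by
      ext x
      rw [Finset.coe_filter, Set.mem_ofPred_eq]
      constructor
      · rintro ⟨-, h⟩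
        have h3 : bc G F x = g • bc G F a := congrArg Subtype.val h
        rw [bc_smul] at h3
        rw [← h3]
        exact self_bc F x
      · intro h
        refine ⟨Finset.mem_univ _, Subtype.ext ?_⟩
        show bc G F x = g • bc G F a
        rw [bc_smul]
        exact bc_eq tr h
    have h4 := Set.ncard_coe_finset (Finset.univ.filter (fun x => φ x = (⟨g • bc G F a, ⟨g, rfl⟩⟩ : MulAction.orbit G (bc G F a))))
    rw [h1, bc_card] at h4
    exact h4.symm
  constructor
  · have h1 := Finset.card_eq_sum_card_fiberwise (f := φ) (s := Finset.univ) (t := Finset.univ) (fun x _ => Finset.mem_coe.2 (Finset.mem_univ _))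
    rw [Finset.sum_congr rfl (fun σ _ => hfib σ), Finset.sum_const, smul_eq_mul, Finset.card_univ, Finset.card_univ] at h1
    rw [Nat.card_eq_fintype_card, Nat.card_eq_fintype_card, h1, mul_comm]
  · have h1 := Finset.card_eq_sum_card_fiberwise (f := φ) (s := Finset.univ.filter (fun x => x ∈ F)) (t := Finset.univ.filter (fun σ => P σ)) (by
      intro x hx
      rw [Finset.mem_coe, Finset.mem_filter] at hx
      rw [Finset.mem_coe, Finset.mem_filter]
      exact ⟨Finset.mem_univ _, hF x hx.2 _ rfl⟩)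
    have h3 : (Finset.univ.filter (fun x => x ∈ F)).card = F.ncard := by
      rw [← Set.ncard_coe_finset]
      congr 1
      ext x
      simp
    have h4 : (Finset.univ.filter (fun σ => P σ)).card = {σ : MulAction.orbit G (bc G F a) | P σ}.ncard := by
      rw [← Set.ncard_coe_finset]
      congr 1
      ext x
      simp
    rw [← h3, h1, ← h4, mul_comm, ← smul_eq_mul, ← Finset.sum_const]
    refine Finset.sum_le_sum fun σ _ => ?_
    rw [← hfib σ]
    refine Finset.card_le_card fun x hx => ?_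
    rw [Finset.mem_filter] at hx ⊢
    exact ⟨Finset.mem_univ _, hx.2⟩

end RB

open RB in
/-- RB -/
theorem redB {G Ω : Type} [Group G] [Finite G] [MulAction G Ω] [Finite Ω] (tr : ∀ a b : Ω, ∃ g : G, g • a = b) {K : Subgroup G} (hp : Pron K)
    (hK : ∃ k ∈ K, ∃ a : Ω, k • a ≠ a)
    (bad : Nat.card Ω ≤ 2 * {a : Ω | ∀ k ∈ K, k • a = a}.ncard)
    (IH1 : ∀ H : Subgroup G, H ≠ ⊤ → ∀ x : Ω, PN H (MulAction.orbit H x))
    (IH2 : ∀ A : Set Ω, Nat.card (MulAction.orbit G A) < Nat.card Ω → PN G (MulAction.orbit G A)) :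
    Nat.card Ω = 2 * {a : Ω | ∀ k ∈ K, k • a = a}.ncard ∧
      ∀ a x y : Ω, x ≠ a → y ≠ a → ∃ g : G, g • a = a ∧ g • x = y := by
  classical
  obtain ⟨k0, hk0, b0, hb0⟩ := hK
  have hΩ : Nonempty Ω := ⟨b0⟩
  have hpos : 0 < Nat.card Ω := Nat.card_pos
  change Nat.card Ω ≤ 2 * (fx Ω K).ncard at bad
  change Nat.card Ω = 2 * (fx Ω K).ncard ∧ _
  have hFne : (fx Ω K).Nonempty := by
    rw [Set.nonempty_iff_ne_empty]
    intro h
    rw [h, Set.ncard_empty] at bad
    omega
  have hb0F : b0 ∉ fx Ω K := fun h => hb0 (h k0 hk0)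
  -- translates
  have htr : ∀ g : G, ∃ v ∈ K ⊔ K.map (MulAut.conj g).toMonoidHom, v • fx Ω K = g • fx Ω K ∧
      K.map (MulAut.conj v).toMonoidHom = K.map (MulAut.conj g).toMonoidHom := by
    intro g
    obtain ⟨v, hv, h⟩ := hp g
    exact ⟨v, hv, by rw [fx_smul, fx_smul, h], h⟩
  obtain ⟨a, ha⟩ := hFne
  -- blocks are single points
  have hone : (bc G (fx Ω K) a).ncard = 1 := by
    by_contra hne
    have h1 : 0 < (bc G (fx Ω K) a).ncard := (Set.ncard_pos (Set.toFinite _)).2 ⟨a, self_bc _ _⟩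
    obtain ⟨hc1, hc2⟩ := count tr (fx Ω K) a (fun σ => ∀ k ∈ K, k • σ = σ) (by
      intro x hx σ hσ k hk
      apply Subtype.ext
      show k • (σ : Set Ω) = σ
      rw [hσ, bc_smul, hx k hk])
    have hSig : 0 < Nat.card (MulAction.orbit G (bc G (fx Ω K) a)) := by
      rcases Nat.eq_zero_or_pos (Nat.card (MulAction.orbit G (bc G (fx Ω K) a))) with h | h
      · rw [h, mul_zero] at hc1; omega
      · exact h
    have hlt : Nat.card (MulAction.orbit G (bc G (fx Ω K) a)) < Nat.card Ω := by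
      rw [hc1]
      have : 2 ≤ (bc G (fx Ω K) a).ncard := by omega
      nlinarith
    by_cases hact : ∃ k ∈ K, ∃ σ : MulAction.orbit G (bc G (fx Ω K) a), k • σ ≠ σ
    · have h3 := IH2 _ hlt K hp hact
      have h4 : {σ : MulAction.orbit G (bc G (fx Ω K) a) | ∀ k ∈ K, k • σ = σ}.ncard = {σ : MulAction.orbit G (bc G (fx Ω K) a) | (fun σ => ∀ k ∈ K, k • σ = σ) σ}.ncard := rfl
      rw [← h4] at hc2
      have h5 := Nat.mul_le_mul_left (bc G (fx Ω K) a).ncard h3
      rw [mul_add, mul_one, ← hc1] at h5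
      have h6 : (bc G (fx Ω K) a).ncard * (2 * {σ : MulAction.orbit G (bc G (fx Ω K) a) | ∀ k ∈ K, k • σ = σ}.ncard) = 2 * ((bc G (fx Ω K) a).ncard * {σ : MulAction.orbit G (bc G (fx Ω K) a) | ∀ k ∈ K, k • σ = σ}.ncard) := by ring
      omega
    · -- `K` fixes every block
      have hfixK : ∀ k ∈ K, ∀ x : Ω, k • bc G (fx Ω K) x = bc G (fx Ω K) x := by
        intro k hk x
        obtain ⟨g, hg⟩ := tr a x
        by_contra h
        refine hact ⟨k, hk, ⟨bc G (fx Ω K) x, g, by show g • bc G (fx Ω K) a = _; rw [bc_smul, hg]⟩, fun h' => h ?_⟩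
        exact congrArg Subtype.val h'
      obtain ⟨g, hg⟩ := tr a b0
      obtain ⟨v, hv, hvF, -⟩ := htr g
      have hfix : ∀ x : Ω, v • bc G (fx Ω K) x = bc G (fx Ω K) x := by
        let L : Subgroup G :=
          { carrier := {u | ∀ x : Ω, u • bc G (fx Ω K) x = bc G (fx Ω K) x}
            mul_mem' := fun {u u'} h h' x => by rw [mul_smul, h' x, h x]
            one_mem' := fun x => one_smul _ _
            inv_mem' := fun {u} h x => by rw [inv_smul_eq_iff, h x] }
        have hL : K ⊔ K.map (MulAut.conj g).toMonoidHom ≤ L := by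
          refine sup_le (fun k hk x => hfixK k hk x) ?_
          rintro _ ⟨k, hk, rfl⟩ x
          show (g * k * g⁻¹) • bc G (fx Ω K) x = _
          rw [mul_smul, mul_smul, bc_smul, hfixK k hk, bc_smul, smul_inv_smul]
        exact hL hv
      have hvs : v • fx Ω K = fx Ω K := by
        refine Set.eq_of_subset_of_ncard_le ?_ (by rw [Set.ncard_smul_set]) (Set.toFinite _)
        rintro _ ⟨x, hx, rfl⟩
        have h3 : v • x ∈ bc G (fx Ω K) x := by
          rw [← hfix x]
          exact Set.smul_mem_smul_set (self_bc _ _)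
        have h4 := h3 1 (by rw [one_smul]; exact hx)
        rwa [one_smul] at h4
      apply hb0F
      rw [← hvs, hvF, ← hg]
      exact Set.smul_mem_smul_set ha
  have hsing : bc G (fx Ω K) a = {a} := by
    obtain ⟨z, hz⟩ := Set.ncard_eq_one.1 hone
    have := self_bc (G := G) (fx Ω K) a
    rw [hz, Set.mem_singleton_iff] at this
    rw [hz, this]
  -- the stabilizer
  have hKH : K ≤ MulAction.stabilizer G a := fun k hk => ha k hk
  have hH : MulAction.stabilizer G a ≠ ⊤ := by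
    intro h
    obtain ⟨g, hg⟩ := tr a b0
    have h1 : g ∈ MulAction.stabilizer G a := by rw [h]; exact Subgroup.mem_top g
    rw [MulAction.mem_stabilizer_iff.1 h1] at hg
    exact hb0F (hg ▸ ha)
  have hmove : ∀ y : Ω, y ≠ a → ∃ h ∈ MulAction.stabilizer G a, ∃ k ∈ K, (h * k * h⁻¹) • y ≠ y := by
    intro y hy
    have h1 : y ∉ bc G (fx Ω K) a := by rw [hsing]; exact hy
    have h3 : ∃ g : G, a ∈ g • fx Ω K ∧ y ∉ g • fx Ω K := by
      by_contra h
      apply h1
      intro g hg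
      by_contra hyg
      exact h ⟨g, hg, hyg⟩
    obtain ⟨g, hga, hgy⟩ := h3
    obtain ⟨v, hv, hvF, -⟩ := htr g
    refine ⟨v, ?_, ?_⟩
    · refine (sup_le hKH ?_ : K ⊔ K.map (MulAut.conj g).toMonoidHom ≤ MulAction.stabilizer G a) hv
      rw [fx_smul] at hga
      exact fun κ hκ => hga κ hκ
    · by_contra hno
      apply hgy
      rw [← hvF, fx_smul]
      rintro _ ⟨k, hk, rfl⟩
      by_contra hne
      exact hno ⟨k, hk, hne⟩
  have hb0a : b0 ≠ a := fun h => hb0F (h ▸ ha)
  have hcompl : ({a}ᶜ : Set Ω).ncard + 1 = Nat.card Ω := by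
    have := Set.ncard_add_ncard_compl ({a} : Set Ω)
    rw [Set.ncard_singleton] at this
    omega
  have hFa : (({a}ᶜ : Set Ω) ∩ {b | ∀ k ∈ K, k • b = b}).ncard + 1 = (fx Ω K).ncard := by
    have h1 : (({a}ᶜ : Set Ω) ∩ {b | ∀ k ∈ K, k • b = b}) = fx Ω K \ {a} := by
      ext z
      simp [fx, and_comm]
    rw [h1]
    exact Set.ncard_sdiff_singleton_add_one ha (Set.toFinite _)
  have hA := posH hKH hp (IH1 _ hH) (Y := ({a}ᶜ : Set Ω)) ⟨b0, hb0a⟩ (by
    intro h hh y hy hya
    apply hy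
    have h1 : h • a = a := hh
    exact smul_left_cancel h (hya.trans h1.symm)) (fun y hy => hmove y hy)
  have hN : Nat.card Ω = 2 * (fx Ω K).ncard := by omega
  refine ⟨hN, ?_⟩
  -- transitivity at `a`
  have hta : ∀ x y : Ω, x ≠ a → y ≠ a → ∃ g : G, g • a = a ∧ g • x = y := by
    intro x y hx hy
    by_contra hno
    have hYx : ∀ z ∈ {z : Ω | ∃ g ∈ MulAction.stabilizer G a, g • x = z}, z ≠ a := by
      rintro _ ⟨g, hg, rfl⟩ h
      exact hx (smul_left_cancel g (h.trans (show g • a = a from hg).symm))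
    have h1 := posH hKH hp (IH1 _ hH) (Y := {z : Ω | ∃ g ∈ MulAction.stabilizer G a, g • x = z}) ⟨x, 1, one_mem _, one_smul _ _⟩ (by
      rintro h hh _ ⟨g, hg, rfl⟩
      exact ⟨h * g, mul_mem hh hg, mul_smul _ _ _⟩) (fun z hz => hmove z (hYx z hz))
    have h3 := posH hKH hp (IH1 _ hH) (Y := {z : Ω | z ≠ a ∧ ¬ ∃ g ∈ MulAction.stabilizer G a, g • x = z}) ⟨y, hy, fun ⟨g, hg, h⟩ => hno ⟨g, hg, h⟩⟩ (by
      rintro h hh z ⟨hz, hz'⟩
      refine ⟨fun h' => hz (smul_left_cancel h (h'.trans (show h • a = a from hh).symm)), ?_⟩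
      rintro ⟨g, hg, h4⟩
      exact hz' ⟨h⁻¹ * g, mul_mem (inv_mem hh) hg, by rw [mul_smul, h4, inv_smul_smul]⟩) (fun z hz => hmove z hz.1)
    have hu : ({a}ᶜ : Set Ω) = {z : Ω | ∃ g ∈ MulAction.stabilizer G a, g • x = z} ∪ {z : Ω | z ≠ a ∧ ¬ ∃ g ∈ MulAction.stabilizer G a, g • x = z} := by
      ext z
      rw [Set.mem_union, Set.mem_compl_iff, Set.mem_singleton_iff, Set.mem_ofPred_eq, Set.mem_ofPred_eq]
      constructor
      · intro hz
        by_cases h : ∃ g ∈ MulAction.stabilizer G a, g • x = z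
        · exact Or.inl h
        · exact Or.inr ⟨hz, h⟩
      · rintro (h | h)
        · exact hYx z h
        · exact h.1
    have hdis : Disjoint {z : Ω | ∃ g ∈ MulAction.stabilizer G a, g • x = z} {z : Ω | z ≠ a ∧ ¬ ∃ g ∈ MulAction.stabilizer G a, g • x = z} := by
      rw [Set.disjoint_left]
      exact fun z hz hz' => hz'.2 hz
    have e1 := Set.ncard_union_eq hdis (Set.toFinite _) (Set.toFinite _)
    rw [← hu] at e1
    have e2 := Set.ncard_union_eq (hdis.mono (Set.inter_subset_left (t := {b | ∀ k ∈ K, k • b = b})) (Set.inter_subset_left (t := {b | ∀ k ∈ K, k • b = b}))) (Set.toFinite _) (Set.toFinite _)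
    rw [← Set.union_inter_distrib_right, ← hu] at e2
    omega
  intro a' x y hx hy
  obtain ⟨g0, hg0⟩ := tr a' a
  obtain ⟨g1, h1, h3⟩ := hta (g0 • x) (g0 • y) (fun h => hx (smul_left_cancel g0 (h.trans hg0.symm))) (fun h => hy (smul_left_cancel g0 (h.trans hg0.symm)))
  refine ⟨g0⁻¹ * g1 * g0, ?_, ?_⟩
  · rw [mul_smul, mul_smul, hg0, h1, ← hg0, inv_smul_smul]
  · rw [mul_smul, mul_smul, h3, inv_smul_smul]

end Cfsg.Agent.Lib.Pro
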