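import Cfsg.Agent.Lib.Pro0
import Cfsg.Agent.Lib.ProRA

set_option autoImplicit false
set_option linter.all false
open scoped Pointwise

namespace Cfsg.Agent.Lib.Pro

/-! S3399: the reduction to the main situation (piece RC of helper4's plan, helper91). -/

namespace RC91

section RC

variable {G Ω : Type} [Group G] [MulAction G Ω]

/-- fixed points -/
def FxK (Ω : Type) [MulAction G Ω] (K : Subgroup G) : Set Ω := {a : Ω | ∀ k ∈ K, k • a = a}

theorem fxK_map (K : Subgroup G) (g : G) : FxK Ω (K.map (MulAut.conj g).toMonoidHom) = g • FxK Ω K := by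
  ext a
  rw [Set.mem_smul_set_iff_inv_smul_mem]
  constructor
  · intro h k hk
    have h1 := h (g * k * g⁻¹) ⟨k, hk, rfl⟩
    rw [← mul_smul, eq_inv_smul_iff, ← mul_smul, ← mul_assoc]
    exact h1
  · rintro h _ ⟨k, hk, rfl⟩
    show (g * k * g⁻¹) • a = a
    have h1 : k • g⁻¹ • a = g⁻¹ • a := h k hk
    rw [mul_smul, mul_smul, h1, smul_inv_smul]

theorem map_map_conj (K : Subgroup G) (g h : G) : (K.map (MulAut.conj g).toMonoidHom).map (MulAut.conj h).toMonoidHom =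
    K.map (MulAut.conj (h * g)).toMonoidHom := by
  rw [Subgroup.map_map]
  congr 1
  ext x
  show h * (g * x * g⁻¹) * h⁻¹ = h * g * x * (h * g)⁻¹
  group

theorem pron_map {K : Subgroup G} (hp : Pron K) (g : G) : Pron (K.map (MulAut.conj g).toMonoidHom) := by
  intro h
  obtain ⟨v, hv, hv2⟩ := hp (g⁻¹ * h * g)
  refine ⟨g * v * g⁻¹, ?_, ?_⟩
  · have h1 : (MulAut.conj g).toMonoidHom v ∈ (K ⊔ K.map (MulAut.conj (g⁻¹ * h * g)).toMonoidHom).map (MulAut.conj g).toMonoidHom :=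
      ⟨v, hv, rfl⟩
    rw [Subgroup.map_sup, map_map_conj] at h1
    rw [map_map_conj]
    have h3 : g * (g⁻¹ * h * g) = h * g := by group
    rw [h3] at h1
    exact h1
  · rw [map_map_conj, map_map_conj]
    have h3 : g * v * g⁻¹ * g = g * v := by group
    rw [h3, ← map_map_conj, hv2, map_map_conj]
    have h4 : g * (g⁻¹ * h * g) = h * g := by group
    rw [h4]

/-- any two translates are conjugate in the join -/
theorem pron_key {K : Subgroup G} (hp : Pron K) (g₁ g₂ : G) : ∃ v ∈ K.map (MulAut.conj g₁).toMonoidHom ⊔ K.map (MulAut.conj g₂).toMonoidHom,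
    v • (g₁ • FxK Ω K) = g₂ • FxK Ω K := by
  obtain ⟨v, hv, hv2⟩ := pron_map hp g₁ (g₂ * g₁⁻¹)
  rw [map_map_conj, inv_mul_cancel_right] at hv
  rw [map_map_conj, map_map_conj, inv_mul_cancel_right] at hv2
  refine ⟨v, hv, ?_⟩
  rw [← fxK_map, ← fxK_map, map_map_conj, hv2, fxK_map]

theorem fxK_mono_fix {K : Subgroup G} {A : Set Ω} (h : A ⊆ FxK Ω K) : K ≤ fixingSubgroup G A := by
  intro k hk
  rw [mem_fixingSubgroup_iff]
  exact fun a ha => h ha k hk

end RC

end RC91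

section RC

open RC91

variable {G Ω : Type} [Group G] [MulAction G Ω] [Finite G] [Finite Ω]


/-- RC: `B` = all translates of `Fix K` -/
theorem redC (tr : ∀ a b : Ω, ∃ g : G, g • a = b) {K : Subgroup G} (hp : Pron K)
    (hK : ∃ k ∈ K, ∃ a : Ω, k • a ≠ a)
    (hc : Nat.card Ω = 2 * {a : Ω | ∀ k ∈ K, k • a = a}.ncard)
    (tr2 : ∀ a x y : Ω, x ≠ a → y ≠ a → ∃ g : G, g • a = a ∧ g • x = y)
    (IH1 : ∀ H : Subgroup G, H ≠ ⊤ → ∀ x : Ω, PN H (MulAction.orbit H x)) :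
    Sit G Ω {F | ∃ g : G, F = g • {a : Ω | ∀ k ∈ K, k • a = a}} {a : Ω | ∀ k ∈ K, k • a = a}.ncard := by
  classical
  have hFx : {a : Ω | ∀ k ∈ K, k • a = a} = FxK Ω K := rfl
  rw [hFx] at hc ⊢
  set f := (FxK Ω K).ncard with hf
  obtain ⟨k0, hk0, a0, ha0⟩ := hK
  have hf1 : 1 ≤ f := by
    have h1 : 0 < Nat.card Ω := Nat.card_pos_iff.mpr ⟨⟨a0⟩, inferInstance⟩
    omega
  have hbf : ∀ g : G, (g • FxK Ω K).ncard = f := fun g => Set.ncard_smul_set g _
  have hfixL : ∀ (g : G) (k : G), k ∈ K.map (MulAut.conj g).toMonoidHom → ∀ a ∈ g • FxK Ω K, k • a = a := by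
    intro g k hk a ha
    rw [← fxK_map] at ha
    exact ha k hk
  have hconj : ∀ (A : Set Ω) (g₁ g₂ : G), A ⊆ g₁ • FxK Ω K → A ⊆ g₂ • FxK Ω K →
      ∃ v ∈ fixingSubgroup G A, v • (g₁ • FxK Ω K) = g₂ • FxK Ω K := by
    intro A g₁ g₂ h1 h2
    obtain ⟨v, hv, hv2⟩ := pron_key (Ω := Ω) hp g₁ g₂
    refine ⟨v, ?_, hv2⟩
    have h3 : K.map (MulAut.conj g₁).toMonoidHom ⊔ K.map (MulAut.conj g₂).toMonoidHom ≤ fixingSubgroup G A :=
      sup_le (fxK_mono_fix (by rw [fxK_map]; exact h1)) (fxK_mono_fix (by rw [fxK_map]; exact h2))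
    exact h3 hv
  have hnotin : ∀ (g : G) (b : Ω), b ∉ g • FxK Ω K → ∃ k ∈ K.map (MulAut.conj g).toMonoidHom, k • b ≠ b := by
    intro g b hb
    rw [← fxK_map] at hb
    by_contra hcon
    push Not at hcon
    exact hb hcon
  refine ⟨inferInstance, hf1, hc, ⟨FxK Ω K, 1, (one_smul G _).symm⟩, ?_, ?_, ?_, ?_, ?_, tr, tr2, ?_, ?_⟩
  · rintro _ ⟨g, rfl⟩
    exact hbf g
  · rintro _ ⟨g, rfl⟩ h
    exact ⟨h * g, (mul_smul h g _).symm⟩
  · rintro _ ⟨g₁, rfl⟩ _ ⟨g₂, rfl⟩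
    by_contra hcon
    rw [Set.not_nonempty_iff_eq_empty] at hcon
    have hdis : Disjoint (g₁ • FxK Ω K) (g₂ • FxK Ω K) := Set.disjoint_iff_inter_eq_empty.mpr hcon
    have hcompl : (g₂ • FxK Ω K) = (g₁ • FxK Ω K)ᶜ := by
      apply Set.eq_of_subset_of_ncard_le
      · exact hdis.subset_compl_left
      · have h1 := Set.ncard_add_ncard_compl (g₁ • FxK Ω K)
        rw [hbf, hc] at h1
        rw [hbf]
        omega
      · exact Set.toFinite _
    obtain ⟨v, hv, hv2⟩ := pron_key (Ω := Ω) hp g₁ g₂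
    have h3 : K.map (MulAut.conj g₁).toMonoidHom ⊔ K.map (MulAut.conj g₂).toMonoidHom ≤ MulAction.stabilizer G (g₁ • FxK Ω K) := by
      refine sup_le ?_ ?_
      · intro k hk
        rw [MulAction.mem_stabilizer_iff]
        apply Set.eq_of_subset_of_ncard_le
        · rintro _ ⟨a, ha, rfl⟩
          show k • a ∈ _
          rw [hfixL g₁ k hk a ha]; exact ha
        · exact (Set.ncard_smul_set _ _).ge
        · exact Set.toFinite _
      · intro k hk
        have hk' : k • (g₂ • FxK Ω K) = g₂ • FxK Ω K := by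
          apply Set.eq_of_subset_of_ncard_le
          · rintro _ ⟨a, ha, rfl⟩
            show k • a ∈ _
            rw [hfixL g₂ k hk a ha]; exact ha
          · exact (Set.ncard_smul_set _ _).ge
          · exact Set.toFinite _
        rw [hcompl, Set.smul_set_compl, compl_inj_iff] at hk'
        rw [MulAction.mem_stabilizer_iff]
        exact hk'
    have h4 := h3 hv
    rw [MulAction.mem_stabilizer_iff, hv2, hcompl] at h4
    have hne : (g₁ • FxK Ω K).Nonempty := by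
      rw [← Set.ncard_pos (Set.toFinite _), hbf]; omega
    obtain ⟨a, ha⟩ := hne
    have h5 : a ∈ (g₁ • FxK Ω K)ᶜ := by rw [h4]; exact ha
    exact h5 ha
  · rintro A _ ⟨g₁, rfl⟩ _ ⟨g₂, rfl⟩ h1 h2
    exact hconj A g₁ g₂ h1 h2
  · rintro _ ⟨g, rfl⟩ b hb
    obtain ⟨k, hk, hkb⟩ := hnotin g b hb
    exact ⟨k, fxK_mono_fix (by rw [fxK_map]) hk, hkb⟩
  · rintro A hA _ ⟨g, rfl⟩ hAF Y hY hYi hYd
    have hKg : K.map (MulAut.conj g).toMonoidHom ≤ fixingSubgroup G A := fxK_mono_fix (by rw [fxK_map]; exact hAF)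
    have hne : fixingSubgroup G A ≠ ⊤ := by
      intro htop
      obtain ⟨a, ha⟩ := hA
      have h1 : ∀ x : G, x • a = a := by
        intro x
        have : x ∈ fixingSubgroup G A := by rw [htop]; trivial
        exact (mem_fixingSubgroup_iff G).mp this a ha
      have h2 : ∀ b : Ω, b = a := by
        intro b
        obtain ⟨x, hx⟩ := tr a b
        rw [← hx, h1]
      exact ha0 (by rw [h2 (k0 • a0), ← h2 a0])
    have h5 := posH hKg (pron_map hp g) (IH1 _ hne) hY (fun h hh y hy => hYi h hh y hy) (by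
      intro y hy
      have hy' : y ∉ cl {F | ∃ g : G, F = g • FxK Ω K} A := fun h => (Set.disjoint_left.mp hYd hy h)
      rw [cl, Set.mem_setOf_eq] at hy'
      push Not at hy'
      obtain ⟨_, ⟨g', rfl⟩, hA', hyF'⟩ := hy'
      obtain ⟨v, hv, hv2⟩ := hconj A g g' hAF hA'
      rw [← hv2, Set.mem_smul_set_iff_inv_smul_mem] at hyF'
      obtain ⟨k, hk, hkb⟩ := hnotin g _ hyF'
      refine ⟨v, hv, k, hk, fun h => hkb ?_⟩
      rw [mul_smul, mul_smul] at h
      rw [eq_inv_smul_iff]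
      exact h)
    have h6 : {a : Ω | ∀ k ∈ K.map (MulAut.conj g).toMonoidHom, k • a = a} = g • FxK Ω K := fxK_map K g
    rw [h6] at h5
    show (1 : ℤ) ≤ (Y.ncard : ℤ) - 2 * ((Y ∩ (g • FxK Ω K)).ncard : ℤ)
    have h7 : ((2 * (Y ∩ (g • FxK Ω K)).ncard + 1 : ℕ) : ℤ) ≤ (Y.ncard : ℤ) := by exact_mod_cast h5
    push_cast at h7
    omega
  · rintro _ ⟨g, rfl⟩ AA hAA hAF Y hY hYu hYi
    have hle : ∀ A ∈ AA, fixingSubgroup G A ≤ MulAction.stabilizer G Y := by
      intro A hA x hx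
      rw [MulAction.mem_stabilizer_iff]
      apply Set.eq_of_subset_of_ncard_le
      · rintro _ ⟨y, hy, rfl⟩
        exact hYi A hA x hx y hy
      · exact (Set.ncard_smul_set _ _).ge
      · exact Set.toFinite _
    have hst : MulAction.stabilizer G Y ≠ ⊤ := by
      intro htop
      obtain ⟨y, hy⟩ := hY
      apply hYu
      rw [Set.eq_univ_iff_forall]
      intro b
      obtain ⟨x, hx⟩ := tr y b
      have h1 : x ∈ MulAction.stabilizer G Y := by rw [htop]; trivial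
      rw [MulAction.mem_stabilizer_iff] at h1
      rw [← h1, ← hx]
      exact Set.smul_mem_smul_set hy
    obtain ⟨A₀, hA₀⟩ := hAA
    have hKg : K.map (MulAut.conj g).toMonoidHom ≤ MulAction.stabilizer G Y :=
      (fxK_mono_fix (by rw [fxK_map]; exact hAF A₀ hA₀)).trans (hle A₀ hA₀)
    obtain ⟨a, ha⟩ : ∃ a : Ω, ∀ h ∈ MulAction.stabilizer G Y, ∀ k ∈ K.map (MulAut.conj g).toMonoidHom, (h * k * h⁻¹) • a = a := by
      by_contra hcon
      push Not at hcon
      have h5 := posH hKg (pron_map hp g) (IH1 _ hst) (Y := Set.univ) ⟨a0, trivial⟩ (fun _ _ _ _ => trivial)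
        (fun y _ => hcon y)
      have h6 : {a : Ω | ∀ k ∈ K.map (MulAut.conj g).toMonoidHom, k • a = a} = g • FxK Ω K := fxK_map K g
      rw [h6, Set.univ_inter, Set.ncard_univ, hbf, hc] at h5
      omega
    refine ⟨a, fun A hA F' hF' hAF' => ?_⟩
    obtain ⟨g', rfl⟩ := hF'
    obtain ⟨v, hv, hv2⟩ := hconj A g g' (hAF A hA) hAF'
    rw [← hv2, Set.mem_smul_set_iff_inv_smul_mem, ← fxK_map]
    intro k hk
    have h7 := ha v (hle A hA hv) k hk
    rw [mul_smul, mul_smul] at h7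
    rw [eq_inv_smul_iff]
    exact h7

end RC

end Cfsg.Agent.Lib.Pro
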