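import Cfsg.Agent.Lib.ProRB
import Cfsg.Agent.Lib.ProRC

/-! Piece RD of S3399 (helper30): the induction. -/

set_option autoImplicit false
open scoped Pointwise

namespace Cfsg.Agent.Lib.Pro

theorem RD.aux (h : ∀ (G Ω : Type) [Group G] [MulAction G Ω] (B : Set (Set Ω)) (f : ℕ), ¬ Sit G Ω B f) (n : ℕ) :
    ∀ m : ℕ, ∀ (G Ω : Type) [Group G] [Finite G] [MulAction G Ω] [Finite Ω], Nat.card G = n → Nat.card Ω = m →
      (∀ a b : Ω, ∃ g : G, g • a = b) → PN G Ω := by
  induction n using Nat.strong_induction_on with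
  | _ n ihn =>
  intro m
  induction m using Nat.strong_induction_on with
  | _ m ihm =>
  intro G Ω _ _ _ _ hG hΩ tr K hp hK
  by_contra hcon
  have bad : Nat.card Ω ≤ 2 * {a : Ω | ∀ k ∈ K, k • a = a}.ncard := by omega
  have IH1 : ∀ H : Subgroup G, H ≠ ⊤ → ∀ x : Ω, PN H (MulAction.orbit H x) := by
    intro H hH x
    have hlt : Nat.card H < n := by
      rw [← hG]
      exact lt_of_le_of_ne (Subgroup.card_le_card_group H) (fun h => hH (Subgroup.eq_top_of_card_eq H h))
    exact ihn _ hlt _ H (MulAction.orbit H x) rfl rfl (fun a b => MulAction.exists_smul_eq H a b)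
  have IH2 : ∀ A : Set Ω, Nat.card (MulAction.orbit G A) < Nat.card Ω → PN G (MulAction.orbit G A) := by
    intro A hA
    exact ihm _ (by rw [← hΩ]; exact hA) G (MulAction.orbit G A) hG rfl (fun a b => MulAction.exists_smul_eq G a b)
  obtain ⟨hc, tr2⟩ := redB tr hp hK bad IH1 IH2
  exact h G Ω _ _ (redC tr hp hK hc tr2 IH1)

/-- RD: induction on `|G|`, then `|Ω|` -/
theorem redD (h : ∀ (G Ω : Type) [Group G] [MulAction G Ω] (B : Set (Set Ω)) (f : ℕ), ¬ Sit G Ω B f)
    {G Ω : Type} [Group G] [Finite G] [MulAction G Ω] [Finite Ω] (tr : ∀ a b : Ω, ∃ g : G, g • a = b) :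
    PN G Ω :=
  RD.aux h _ _ G Ω rfl rfl tr

end Cfsg.Agent.Lib.Pro
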