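import Mathlib
import Cfsg.Agent.Lib.DkSub
import Cfsg.Agent.Lib.WrPN
import Cfsg.Agent.Lib.OverSU2
import Cfsg.Agent.Lib.SLCrit
import Cfsg.Agent.S2431
import Cfsg.Agent.S3820

/-!
(helper43) subgroups of odd index of `PSL_2(q)` are pronormal.
-/

set_option autoImplicit false

namespace Cfsg.Agent.Lib.PronPSL2

open Cfsg.Agent.Lib.RelSylow

section General

variable {K : Type*} [Group K] [Finite K]

theorem enum4 (S : Subgroup K) (hS4 : Nat.card S = 4) {z a : K} (hz : z ∈ S) (ha : a ∈ S) (hz1 : z ≠ 1)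
    (ha1 : a ≠ 1) (haz : a ≠ z) (hza : z * a ≠ 1) : ∀ w ∈ S, w = 1 ∨ w = z ∨ w = a ∨ w = z * a := by
  classical
  let T : Finset K := {1, z, a, z * a}
  have hT : T.card = 4 := by
    show ({1, z, a, z * a} : Finset K).card = 4
    rw [Finset.card_insert_of_notMem, Finset.card_insert_of_notMem, Finset.card_insert_of_notMem, Finset.card_singleton]
    · rw [Finset.mem_singleton]
      intro h
      exact hz1 (mul_eq_right.1 h.symm)
    · rw [Finset.mem_insert, Finset.mem_singleton]
      rintro (h | h)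
      · exact haz h.symm
      · exact ha1 (mul_eq_left.1 h.symm)
    · rw [Finset.mem_insert, Finset.mem_insert, Finset.mem_singleton]
      rintro (h | h | h)
      · exact hz1 h.symm
      · exact ha1 h.symm
      · exact hza h.symm
  have hsub : (T : Set K) ⊆ (S : Set K) := by
    intro w hw
    have hw' : w ∈ T := hw
    rw [Finset.mem_insert, Finset.mem_insert, Finset.mem_insert, Finset.mem_singleton] at hw'
    rcases hw' with rfl | rfl | rfl | rfl
    · exact S.one_mem
    · exact hz
    · exact ha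
    · exact S.mul_mem hz ha
  have heq : (T : Set K) = (S : Set K) := by
    apply Set.eq_of_subset_of_ncard_le hsub _ (Set.toFinite _)
    rw [Set.ncard_coe_finset, hT, ← Nat.card_coe_set_eq]
    exact hS4.le
  intro w hw
  have hw' : w ∈ (T : Set K) := by rw [heq]; exact hw
  have hw' : w ∈ T := hw'
  rw [Finset.mem_insert, Finset.mem_insert, Finset.mem_insert, Finset.mem_singleton] at hw'
  exact hw'

omit [Finite K] in
theorem eq_one_of_odd (S : Subgroup K) (hS4 : Nat.card S = 4) {x : K} (hx : x ∈ S) (ho : Odd (orderOf x)) : x = 1 := by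
  have h1 : orderOf x ∣ 2 ^ 2 := by
    have := orderOf_dvd_natCard (⟨x, hx⟩ : S)
    rwa [Subgroup.orderOf_mk, hS4] at this
  have h2 : Nat.Coprime (orderOf x) (2 ^ 2) := Nat.Coprime.pow_right _ (Nat.coprime_two_right.2 ho)
  rw [← orderOf_eq_one_iff]
  exact Nat.eq_one_of_dvd_coprimes h2 dvd_rfl h1

theorem general (S : Sylow 2 K) (hS4 : Nat.card S = 4) (hsq : ∀ s ∈ (S : Subgroup K), s * s = 1)
    (hC : ∀ x, (∀ s ∈ (S : Subgroup K), x * s = s * x) → x ∈ (S : Subgroup K))
    (hN : Nat.card (Subgroup.normalizer ((S : Subgroup K) : Set K)) = 12)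
    (hL : ∀ L : Subgroup K, (S : Subgroup K) ≤ L → (∃ O : Subgroup L, O.Normal ∧ Odd (Nat.card O) ∧ O.index = 4) →
      ∃ z ∈ (S : Subgroup K), z ≠ 1 ∧ ∀ x ∈ L, Odd (orderOf x) → z * x = x * z)
    {H : Subgroup K} (hSH : (S : Subgroup K) ≤ H) : Cfsg.IsPronormal H := by
  classical
  have hcomm : ∀ a ∈ (S : Subgroup K), ∀ b ∈ (S : Subgroup K), a * b = b * a := by
    intro a ha b hb
    have h1 := hsq _ (mul_mem ha hb)
    have h2 : (a * b)⁻¹ = a * b := inv_eq_of_mul_eq_one_right h1
    have h3 : a⁻¹ = a := inv_eq_of_mul_eq_one_right (hsq a ha)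
    have h4 : b⁻¹ = b := inv_eq_of_mul_eq_one_right (hsq b hb)
    rw [← h2, mul_inv_rev, h3, h4]
  rw [S3820.result (S : Subgroup K) H hSH (S2222.sylow_pronormal S)]
  intro g hg
  by_cases hgL : g ∈ H ⊔ H.map (MulAut.conj g).toMonoidHom
  · exact ⟨g, hgL, rfl⟩
  set L := H ⊔ H.map (MulAut.conj g).toMonoidHom with hLdef
  have hHL : H ≤ L := le_sup_left
  have hSL : (S : Subgroup K) ≤ L := hSH.trans hHL
  have hNL : ∀ y ∈ L, y ∈ Subgroup.normalizer ((S : Subgroup K) : Set K) → y ∈ (S : Subgroup K) := by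
    let M : Subgroup K := Subgroup.normalizer ((S : Subgroup K) : Set K) ⊓ L
    have hSM : (S : Subgroup K) ≤ M := le_inf Subgroup.le_normalizer hSL
    have h1 : Nat.card M ∣ 12 := by
      rw [← hN]; exact Subgroup.card_dvd_of_le inf_le_left
    have h2 : 4 ∣ Nat.card M := by
      rw [← hS4]; exact Subgroup.card_dvd_of_le hSM
    have h3 : Nat.card M ≠ 12 := by
      intro h
      have : M = Subgroup.normalizer ((S : Subgroup K) : Set K) :=
        Subgroup.eq_of_le_of_card_ge inf_le_left (by rw [h, hN])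
      rw [← this] at hg
      exact hgL hg.2
    have h4 : Nat.card M = 4 := by
      obtain ⟨c, hc⟩ := h2
      rw [hc] at h1 h3 ⊢
      have h5 : c ∣ 3 := by
        have : 4 * c ∣ 4 * 3 := h1
        exact Nat.dvd_of_mul_dvd_mul_left (by norm_num) this
      rcases (Nat.dvd_prime Nat.prime_three).mp h5 with h6 | h6
      · rw [h6]
      · exact absurd (by rw [h6]) h3
    have h5 : (S : Subgroup K) = M := Subgroup.eq_of_le_of_card_ge hSM (by rw [h4]; exact hS4.ge)
    intro y hy hyN
    rw [h5]
    exact ⟨hyN, hy⟩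
  -- Burnside
  let P : Sylow 2 L := S.subtype hSL
  have hPmem : ∀ y : L, y ∈ (P : Subgroup L) ↔ (y : K) ∈ (S : Subgroup K) := fun y => Iff.rfl
  have hP4 : Nat.card P = 4 := by
    rw [← hS4]
    exact Nat.card_congr (Subgroup.subgroupOfEquivOfLe hSL).toEquiv
  have hPN : Subgroup.normalizer ((P : Subgroup L) : Set L) ≤ Subgroup.centralizer ((P : Subgroup L) : Set L) := by
    intro y hy
    rw [Subgroup.mem_normalizer_iff] at hy
    have h1 : (y : K) ∈ Subgroup.normalizer ((S : Subgroup K) : Set K) := by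
      rw [Subgroup.mem_normalizer_iff]
      intro s
      by_cases hs : s ∈ L
      · exact hy ⟨s, hs⟩
      · constructor
        · intro h; exact absurd (hSL h) hs
        · intro h
          exfalso
          apply hs
          have h2 := L.mul_mem (L.mul_mem (L.inv_mem y.2) (hSL h)) y.2
          have e : (y : K)⁻¹ * (y * s * (y : K)⁻¹) * y = s := by group
          rwa [e] at h2
    have h2 := hNL y y.2 h1
    rw [Subgroup.mem_centralizer_iff]
    intro s hs
    exact Subtype.ext (hcomm s hs y h2)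
  have hcompl := MonoidHom.ker_transferSylow_isComplement' P hPN
  obtain ⟨z, hzS, hz1, hz⟩ := hL L hSL ⟨_, inferInstance, by
    have h1 := hcompl.card_mul_card
    have h2 := Subgroup.card_mul_index (P : Subgroup L)
    have h3 : Nat.card (MonoidHom.transferSylow P hPN).ker = (P : Subgroup L).index := by
      have h4 : 0 < Nat.card P := Nat.card_pos
      rw [← h2, mul_comm] at h1
      exact Nat.eq_of_mul_eq_mul_left h4 h1
    rw [h3, ← Nat.not_even_iff_odd, even_iff_two_dvd]
    exact P.not_dvd_index, by rw [hcompl.symm.index_eq_card]; exact hP4⟩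
  have hginv : ∀ s ∈ (S : Subgroup K), g⁻¹ * s * g ∈ (S : Subgroup K) := by
    intro s hs
    have h1 := (Subgroup.mem_normalizer_iff.1 (inv_mem hg) s).1 hs
    rwa [inv_inv] at h1
  have hgn : g⁻¹ * z * g ≠ z := by
    intro h
    have hgz : g * z = z * g := by
      calc g * z = g * (g⁻¹ * z * g) := by rw [h]
        _ = z * g := by group
    have hg12 : g ^ 12 = 1 := by
      have h1 : (⟨g, hg⟩ : Subgroup.normalizer ((S : Subgroup K) : Set K)) ^ 12 = 1 := by
        rw [← hN]; exact pow_card_eq_one'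
      exact congrArg Subtype.val h1
    have hu3 : (g ^ 4) ^ 3 = 1 := by rw [← pow_mul]; exact hg12
    have huN : g ^ 4 ∈ Subgroup.normalizer ((S : Subgroup K) : Set K) := pow_mem hg 4
    have huz : g ^ 4 * z = z * g ^ 4 := (Commute.pow_left (show Commute g z from hgz) 4)
    have hu1 : g ^ 4 ≠ 1 := by
      intro hu
      apply hgL
      apply hSL
      apply S2431.mem_of_two S hg
      apply S2431.mem_of_two S (pow_mem hg 2)
      rw [← pow_mul, hu]
      exact (S : Subgroup K).one_mem
    generalize g ^ 4 = u at hu3 huN huz hu1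
    apply hu1
    have huo : Odd (orderOf u) := by
      have : orderOf u ∣ 3 := orderOf_dvd_of_pow_eq_one hu3
      exact Odd.of_dvd_nat (by decide) this
    refine eq_one_of_odd (S : Subgroup K) hS4 (hC u ?_) huo
    intro a ha
    by_cases ha1 : a = 1
    · rw [ha1, mul_one, one_mul]
    by_cases haz : a = z
    · rw [haz]; exact huz
    have hza : z * a ≠ 1 := by
      intro e
      apply haz
      have h3 : z⁻¹ = z := inv_eq_of_mul_eq_one_right (hsq z hzS)
      rw [← h3]
      exact eq_inv_of_mul_eq_one_right e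
    have hmem := (Subgroup.mem_normalizer_iff.1 huN a).1 ha
    have hcz : u * z * u⁻¹ = z := by rw [huz]; group
    rcases enum4 (S : Subgroup K) hS4 hzS ha hz1 ha1 haz hza _ hmem with h4 | h4 | h4 | h4
    · exfalso
      apply ha1
      calc a = u⁻¹ * (u * a * u⁻¹) * u := by group
        _ = 1 := by rw [h4]; group
    · exfalso
      apply haz
      calc a = u⁻¹ * (u * a * u⁻¹) * u := by group
        _ = u⁻¹ * (u * z * u⁻¹) * u := by rw [h4, hcz]
        _ = z := by group
    · exact mul_inv_eq_iff_eq_mul.1 h4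
    · exfalso
      apply hz1
      have h5 : u * (u * a * u⁻¹) * u⁻¹ = a := by
        rw [h4]
        calc u * (z * a) * u⁻¹ = (u * z * u⁻¹) * (u * a * u⁻¹) := by group
          _ = z * (z * a) := by rw [hcz, h4]
          _ = z * z * a := by group
          _ = a := by rw [hsq z hzS, one_mul]
      have h6 : u * (u * (u * a * u⁻¹) * u⁻¹) * u⁻¹ = a := by
        have hu3' : u * u * u = 1 := by rw [← hu3, pow_succ, pow_two]
        calc u * (u * (u * a * u⁻¹) * u⁻¹) * u⁻¹ = (u * u * u) * a * (u * u * u)⁻¹ := by group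
          _ = a := by rw [hu3']; group
      rw [h5, h4] at h6
      exact mul_eq_right.1 h6
  -- odd order elements of H are trivial
  have hodd : ∀ x ∈ H, Odd (orderOf x) → x = 1 := by
    intro x hx hxo
    have h1 := hz x (hHL hx) hxo
    have h2 := hz (g * x * g⁻¹) (le_sup_right (a := H) ⟨x, hx, rfl⟩) (by
      have := MulEquiv.orderOf_eq (MulAut.conj g) x
      rw [MulAut.conj_apply] at this
      rwa [this])
    have h3 : (g⁻¹ * z * g) * x = x * (g⁻¹ * z * g) := by
      calc (g⁻¹ * z * g) * x = g⁻¹ * (z * (g * x * g⁻¹)) * g := by group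
        _ = _ := by rw [h2]; group
    have hz'S := hginv z hzS
    have hz'1 : g⁻¹ * z * g ≠ 1 := by
      intro e
      apply hz1
      calc z = g * (g⁻¹ * z * g) * g⁻¹ := by group
        _ = 1 := by rw [e]; group
    generalize g⁻¹ * z * g = z' at hgn h3 hz'S hz'1
    have hzz' : z * z' ≠ 1 := by
      intro e
      apply hgn
      have h5 : z⁻¹ = z := inv_eq_of_mul_eq_one_right (hsq z hzS)
      rw [← h5]
      exact eq_inv_of_mul_eq_one_right e
    refine eq_one_of_odd (S : Subgroup K) hS4 (hC x ?_) hxo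
    intro s hs
    rcases enum4 (S : Subgroup K) hS4 hzS hz'S hz1 hz'1 hgn hzz' s hs with h4 | h4 | h4 | h4
    · rw [h4, mul_one, one_mul]
    · rw [h4]; exact h1.symm
    · rw [h4]; exact h3.symm
    · rw [h4, ← mul_assoc, ← h1, mul_assoc, mul_assoc, h3]
  have hH2 : IsPGroup 2 H := by
    rintro ⟨x, hx⟩
    obtain ⟨k, m, hm, hk⟩ := Nat.exists_eq_two_pow_mul_odd (orderOf_pos x).ne'
    refine ⟨k, Subtype.ext ?_⟩
    show x ^ (2 ^ k) = 1
    apply hodd _ (pow_mem hx _)
    rw [orderOf_pow, hk, Nat.gcd_mul_right_left, Nat.mul_div_cancel_left _ (by positivity)]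
    exact hm
  have hHS : H = (S : Subgroup K) := S.is_maximal' hH2 hSH
  refine ⟨1, one_mem _, ?_⟩
  rw [hHS, conj_eq_of_mem_normalizer hg, conj_one]

end General

section PSL

open Cfsg.Agent.Lib.MobCount Cfsg.Agent.Lib.DkSub MulAction Matrix
open scoped LinearAlgebra.Projectivization MatrixGroups

variable {F : Type*} [Field F] [Fintype F]

/-- the projection -/
abbrev pr (F : Type*) [Field F] : SL(2, F) →* P2 F := QuotientGroup.mk' (Subgroup.center (SL(2, F)))

omit [Fintype F] in
theorem pr_surj : Function.Surjective (pr F) := QuotientGroup.mk'_surjective _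

theorem exists_lift (hodd : Odd (Fintype.card F)) (S : Sylow 2 (P2 F)) :
    ∃ T : Sylow 2 (SL(2, F)), (T : Subgroup (SL(2, F))) = (S : Subgroup (P2 F)).comap (pr F) := by
  have hker : IsPGroup 2 (pr F).ker := by
    rw [QuotientGroup.ker_mk']
    apply IsPGroup.of_card (n := 1)
    rw [ClSL2Syl.card_center_SL2 hodd, pow_one]
  exact ⟨S.comapOfKerIsPGroup (pr F) hker (by rw [MonoidHom.range_eq_top.2 pr_surj]; exact le_top), rfl⟩

theorem cent_le (hodd : Odd (Fintype.card F)) (S : Sylow 2 (P2 F)) (x : P2 F)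
    (hx : ∀ s ∈ (S : Subgroup (P2 F)), x * s = s * x) : x ∈ (S : Subgroup (P2 F)) := by
  obtain ⟨T, hT⟩ := exists_lift hodd S
  have hTm : ∀ y, y ∈ (T : Subgroup (SL(2, F))) ↔ pr F y ∈ (S : Subgroup (P2 F)) := by
    intro y; rw [hT]; rfl
  obtain ⟨y, rfl⟩ := pr_surj x
  rw [← hTm]
  have hyN : y ∈ Subgroup.normalizer ((T : Subgroup (SL(2, F))) : Set (SL(2, F))) := by
    rw [Subgroup.mem_normalizer_iff]
    intro s
    rw [hTm, hTm]
    simp only [map_mul, map_inv]
    constructor
    · intro hs
      rw [hx _ hs, mul_inv_cancel_right]; exact hs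
    · intro hs
      have h1 := hx _ hs
      have h2 : pr F y * (pr F y * pr F s * (pr F y)⁻¹) * (pr F y)⁻¹ = pr F y * pr F s * (pr F y)⁻¹ := by
        rw [h1]; group
      have h3 : pr F s = pr F y * pr F s * (pr F y)⁻¹ := by
        have h4 := mul_left_cancel (mul_right_cancel h2)
        exact h4.symm
      rw [h3]; exact hs
  apply S2431.mem_of_two T hyN
  -- `y ^ 2` centralizes `T`
  have h1 : y ^ 2 ∈ Subgroup.centralizer ((T : Subgroup (SL(2, F))) : Set (SL(2, F))) := by
    rw [Subgroup.mem_centralizer_iff]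
    intro s hs
    have h2 := hx _ ((hTm s).1 hs)
    rw [← map_mul, ← map_mul] at h2
    have h3 : (s * y)⁻¹ * (y * s) ∈ Subgroup.center (SL(2, F)) := QuotientGroup.eq.1 h2.symm
    obtain ⟨c, hc⟩ : ∃ c, c = (s * y)⁻¹ * (y * s) := ⟨_, rfl⟩
    rw [← hc] at h3
    have h4 : y * s = s * y * c := by rw [hc]; group
    have hcc : ∀ g, g * c = c * g := fun g => (Subgroup.mem_center_iff.1 h3 g)
    have hc2 : c * c = 1 := by
      have h5 := ClSL2Syl.card_center_SL2 hodd
      have h6 : (⟨c, h3⟩ : Subgroup.center (SL(2, F))) ^ Nat.card (Subgroup.center (SL(2, F))) = 1 := pow_card_eq_one'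
      rw [h5] at h6
      rw [← pow_two]
      exact congrArg Subtype.val h6
    calc s * y ^ 2 = s * y * y * (c * c) := by rw [hc2, mul_one, pow_two, mul_assoc]
      _ = (s * y * c) * (y * c) := by
          calc s * y * y * (c * c) = s * y * (y * c) * c := by simp only [mul_assoc]
            _ = s * y * (c * y) * c := by rw [hcc y]
            _ = _ := by simp only [mul_assoc]
      _ = y * s * (y * c) := by rw [← h4]
      _ = y * (s * y * c) := by simp only [mul_assoc]
      _ = y * (y * s) := by rw [← h4]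
      _ = y ^ 2 * s := by rw [pow_two, mul_assoc]
  rw [S2431.part1 hodd T] at h1
  apply (hTm _).2
  have : pr F (y ^ 2) = 1 := (QuotientGroup.eq_one_iff _).2 h1
  rw [this]
  exact one_mem _

theorem card_norm (hq : Fintype.card F % 8 = 3 ∨ Fintype.card F % 8 = 5) (S : Sylow 2 (P2 F))
    (hS4 : Nat.card S = 4) : Nat.card (Subgroup.normalizer ((S : Subgroup (P2 F)) : Set (P2 F))) = 12 := by
  have hodd : Odd (Fintype.card F) := by rw [Nat.odd_iff]; omega
  obtain ⟨T, hT⟩ := exists_lift hodd S
  have h1 := S2431.part3 hodd T hq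
  have h2 : Subgroup.normalizer ((T : Subgroup (SL(2, F))) : Set (SL(2, F))) =
      (Subgroup.normalizer ((S : Subgroup (P2 F)) : Set (P2 F))).comap (pr F) := by
    rw [hT, Subgroup.comap_normalizer_eq_of_surjective _ pr_surj]
  have h3 : ∀ A : Subgroup (P2 F), Nat.card (A.comap (pr F)) * A.index = Nat.card (SL(2, F)) := by
    intro A
    rw [← Subgroup.index_comap_of_surjective A pr_surj]
    exact Subgroup.card_mul_index _
  have h4 := h3 (Subgroup.normalizer ((S : Subgroup (P2 F)) : Set (P2 F)))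
  have h5 := h3 (S : Subgroup (P2 F))
  rw [← h2, h1] at h4
  rw [← hT, ← h4] at h5
  have h6 := Subgroup.card_mul_index (S : Subgroup (P2 F))
  have h7 := Subgroup.card_mul_index (Subgroup.normalizer ((S : Subgroup (P2 F)) : Set (P2 F)))
  have hT0 : 0 < Nat.card T := Nat.card_pos
  have h8 : (S : Subgroup (P2 F)).index = 3 * (Subgroup.normalizer ((S : Subgroup (P2 F)) : Set (P2 F))).index := by
    apply Nat.eq_of_mul_eq_mul_left hT0
    rw [h5]; ring
  rw [h8, ← h7] at h6
  have h9 : 0 < (Subgroup.normalizer ((S : Subgroup (P2 F)) : Set (P2 F))).index :=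
    Nat.pos_of_ne_zero Subgroup.FiniteIndex.index_ne_zero
  have h10 : Nat.card S * 3 * (Subgroup.normalizer ((S : Subgroup (P2 F)) : Set (P2 F))).index =
      Nat.card (Subgroup.normalizer ((S : Subgroup (P2 F)) : Set (P2 F))) *
        (Subgroup.normalizer ((S : Subgroup (P2 F)) : Set (P2 F))).index := by rw [← h6]; ring
  have h11 := Nat.eq_of_mul_eq_mul_right h9 h10
  rw [← h11, hS4]

theorem odd_mem {L : Type*} [Group L] [Finite L] {O : Subgroup L} [O.Normal] (hO : O.index = 4) {x : L}
    (hx : Odd (orderOf x)) : x ∈ O := by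
  have h1 : orderOf (QuotientGroup.mk' O x) ∣ orderOf x := orderOf_map_dvd _ x
  have h2 : orderOf (QuotientGroup.mk' O x) ∣ 2 ^ 2 := by
    have := orderOf_dvd_natCard (QuotientGroup.mk' O x)
    rwa [← Subgroup.index_eq_card, hO] at this
  have h3 : orderOf (QuotientGroup.mk' O x) = 1 :=
    Nat.eq_one_of_dvd_coprimes (Nat.Coprime.pow_right 2 (Nat.coprime_two_right.2 hx)) h1 h2
  rw [orderOf_eq_one_iff] at h3
  exact (QuotientGroup.eq_one_iff x).1 h3

theorem dick (hodd : Odd (Fintype.card F)) (S : Sylow 2 (P2 F)) (hS4 : Nat.card S = 4)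
    (hsq : ∀ s ∈ (S : Subgroup (P2 F)), s * s = 1) (L : Subgroup (P2 F)) (hSL : (S : Subgroup (P2 F)) ≤ L)
    (O : Subgroup L) [O.Normal] (hOo : Odd (Nat.card O)) (hOi : O.index = 4) :
    ∃ z ∈ (S : Subgroup (P2 F)), z ≠ 1 ∧ ∀ x ∈ L, Odd (orderOf x) → z * x = x * z := by
  classical
  obtain ⟨p, hpF⟩ := CharP.exists F
  have hp : Fact p.Prime := ⟨CharP.char_is_prime F p⟩
  have hcardL : Nat.card L = Nat.card O * 4 := by rw [← hOi]; exact (Subgroup.card_mul_index O).symm
  -- two distinct involutions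
  obtain ⟨a, ha, b, hb, ha1, hb1, hab⟩ : ∃ a ∈ (S : Subgroup (P2 F)), ∃ b ∈ (S : Subgroup (P2 F)),
      a ≠ 1 ∧ b ≠ 1 ∧ a * b ≠ 1 := by
    have : Finite S := inferInstance
    have hnt : Nontrivial S := by
      rw [← Finite.one_lt_card_iff_nontrivial, hS4]; norm_num
    obtain ⟨a, ha⟩ := exists_ne (1 : S)
    have h2 : ∃ b : S, b ∉ ({1, a} : Finset S) := by
      by_contra hcon
      push Not at hcon
      have h3 := Fintype.ofFinite S
      have h4 : (Finset.univ : Finset S) ⊆ {1, a} := fun x _ => hcon x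
      have h5 := Finset.card_le_card h4
      have h6 : ({1, a} : Finset S).card ≤ 2 := Finset.card_le_two
      rw [Finset.card_univ, ← Nat.card_eq_fintype_card] at h5
      omega
    obtain ⟨b, hb⟩ := h2
    rw [Finset.mem_insert, Finset.mem_singleton, not_or] at hb
    refine ⟨a, a.2, b, b.2, fun e => ha (Subtype.ext e), fun e => hb.1 (Subtype.ext e), fun e => hb.2 ?_⟩
    apply Subtype.ext
    have h3 : (a : P2 F)⁻¹ = a := inv_eq_of_mul_eq_one_right (hsq a a.2)
    rw [← h3]
    exact (inv_eq_of_mul_eq_one_right e).symm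
  have hinj : Function.Injective ((tP F).comp L.subtype) := tP_inj.comp (Subgroup.subtype_injective L)
  rcases dickson p ((tP F).comp L.subtype) hinj with ⟨-, h⟩ | ⟨C, hC1, -, hC2, hC3, -⟩ | ⟨-, h1, ⟨e⟩⟩ | ⟨-, h1, -⟩ |
    ⟨-, h1, h2⟩ | ⟨-, x, hx⟩ | ⟨g, k, hk⟩
  · -- cyclic
    exfalso
    have h1 : IsCyclic L := h
    have h2 : Fintype L := Fintype.ofFinite L
    have h3 := IsCyclic.card_pow_eq_one_le (α := L) (n := 2) (by norm_num)
    have h4 : ({(1 : L), ⟨a, hSL ha⟩, ⟨b, hSL hb⟩} : Finset L) ⊆ Finset.univ.filter (fun y : L => y ^ 2 = 1) := by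
      intro y hy
      rw [Finset.mem_insert, Finset.mem_insert, Finset.mem_singleton] at hy
      rw [Finset.mem_filter]
      refine ⟨Finset.mem_univ _, ?_⟩
      rcases hy with rfl | rfl | rfl
      · exact one_pow 2
      · rw [pow_two]; exact Subtype.ext (hsq a ha)
      · rw [pow_two]; exact Subtype.ext (hsq b hb)
    have h5 := Finset.card_le_card h4
    have hne : a ≠ b := by
      rintro rfl
      exact hab (hsq a ha)
    have h6 : ({(1 : L), ⟨a, hSL ha⟩, ⟨b, hSL hb⟩} : Finset L).card = 3 := by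
      rw [Finset.card_insert_of_notMem, Finset.card_insert_of_notMem, Finset.card_singleton]
      · rw [Finset.mem_singleton]; exact fun h => hne (congrArg Subtype.val h)
      · rw [Finset.mem_insert, Finset.mem_singleton]
        rintro (h | h)
        · exact ha1 (congrArg Subtype.val h).symm
        · exact hb1 (congrArg Subtype.val h).symm
    omega
  · -- dihedral
    have hidx : C.index = 2 := by
      have h1 := Subgroup.card_mul_index C
      rw [hC2, mul_comm] at h1
      exact Nat.eq_of_mul_eq_mul_right Nat.card_pos h1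
    have hoddC : ∀ x : L, Odd (orderOf x) → x ∈ C := by
      intro x hx
      by_contra hxC
      have h1 : orderOf x ∣ 2 := orderOf_dvd_of_pow_eq_one (by rw [pow_two]; exact hC3 x hxC)
      have h2 : orderOf x = 1 := by
        rcases (Nat.dvd_prime Nat.prime_two).1 h1 with h | h
        · exact h
        · rw [h] at hx; exact absurd hx (by decide)
      rw [orderOf_eq_one_iff] at h2
      exact hxC (by rw [h2]; exact one_mem _)
    obtain ⟨z, hzS, hz1, hzC⟩ : ∃ z : L, (z : P2 F) ∈ (S : Subgroup (P2 F)) ∧ (z : P2 F) ≠ 1 ∧ z ∈ C := by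
      by_cases h1 : (⟨a, hSL ha⟩ : L) ∈ C
      · exact ⟨_, ha, ha1, h1⟩
      by_cases h2 : (⟨b, hSL hb⟩ : L) ∈ C
      · exact ⟨_, hb, hb1, h2⟩
      · refine ⟨⟨a, hSL ha⟩ * ⟨b, hSL hb⟩, mul_mem ha hb, hab, ?_⟩
        rw [Subgroup.mul_mem_iff_of_index_two hidx]
        exact ⟨fun h => absurd h h1, fun h => absurd h h2⟩
    refine ⟨z, hzS, hz1, fun x hxL hx => ?_⟩
    have h1 : (⟨x, hxL⟩ : L) ∈ C := hoddC _ (by rwa [Subgroup.orderOf_mk])
    have := hC1
    have h2 := IsMulCommutative.is_comm.comm (⟨z, hzC⟩ : C) ⟨_, h1⟩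
    exact congrArg (fun t : C => ((t : L) : P2 F)) h2
  · -- A4
    exfalso
    have hO3 : Nat.card O = 3 := by
      rw [h1] at hcardL; omega
    have hmemO : ∀ y : alternatingGroup (Fin 4), y ^ 3 = 1 → e.symm y ∈ O := by
      intro y hy
      apply odd_mem hOi
      have h2 : orderOf (e.symm y) ∣ 3 := orderOf_dvd_of_pow_eq_one (by rw [← map_pow, hy, map_one])
      exact Odd.of_dvd_nat (by decide) h2
    have hcyc : IsCyclic O := isCyclic_of_prime_card (p := 3) hO3
    have hcomm : ∀ y y' : alternatingGroup (Fin 4), y ^ 3 = 1 → y' ^ 3 = 1 → y * y' = y' * y := by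
      intro y y' hy hy'
      have h2 := IsMulCommutative.is_comm.comm (⟨_, hmemO y hy⟩ : O) ⟨_, hmemO y' hy'⟩
      have h3 : e.symm y * e.symm y' = e.symm y' * e.symm y := congrArg Subtype.val h2
      rw [← map_mul, ← map_mul] at h3
      exact e.symm.injective h3
    revert hcomm
    decide
  · rw [h1] at hcardL
    obtain ⟨c, hc⟩ := hOo
    omega
  · exfalso
    have hO15 : Nat.card O = 15 := by rw [h1] at hcardL; omega
    rcases h2.eq_bot_or_eq_top_of_normal O inferInstance with h3 | h3
    · rw [h3, Subgroup.card_bot] at hO15; omega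
    · rw [h3, Subgroup.index_top] at hOi; omega
  · -- Borel
    exfalso
    have h1 : L ≤ stabilizer (P2 F) x := by
      intro y hy
      rw [mem_stabilizer_iff, ← toPGL_smul]
      exact hx ⟨y, hy⟩
    have h2 := index_stab (F := F) rfl x
    have h3 : (stabilizer (P2 F) x).index ∣ (S : Subgroup (P2 F)).index := Subgroup.index_dvd_of_le (hSL.trans h1)
    rw [h2] at h3
    apply S.not_dvd_index
    refine dvd_trans ?_ h3
    obtain ⟨c, hc⟩ := hodd
    omega
  · -- subfield
    exfalso
    have hkf : Fintype k := Fintype.ofFinite k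
    have hp2 : Odd p := by
      have h1 : p ∣ Fintype.card F := ClSLn.dvd_card_field (F := F) p
      exact Odd.of_dvd_nat hodd h1
    have hkp : CharP k p := inferInstance
    have hkodd : Odd (Fintype.card k) := by
      obtain ⟨n, -, hn⟩ := ClSLn.exists_card_eq_pow (F := k) p
      rw [hn]; exact hp2.pow
    rcases hk with hk | hk
    · -- `PSL_2(k)`
      let e1 : P2 k ≃* (pslMap k.subtype).range := MonoidHom.ofInjective (pslMap_injective _)
      let e2 : L ≃* ((tP F).comp L.subtype).range := MonoidHom.ofInjective hinj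
      let e3 : ((tP F).comp L.subtype).range ≃* (((tP F).comp L.subtype).range.map (MulAut.conj g).toMonoidHom :
        Subgroup _) := Subgroup.equivMapOfInjective _ _ (MulAut.conj g).injective
      let e : L ≃* P2 k := e2.trans (e3.trans ((MulEquiv.subgroupCongr hk).trans e1.symm))
      have htop : (O.comap (e.symm.toMonoidHom.comp (pr k))) = ⊤ := by
        apply ClSLn.eq_top_of_transvection_mem
        intro i j hij c
        show e.symm (pr k (SpecialLinearGroup.transvection hij c)) ∈ O
        apply odd_mem hOi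
        have h2 : orderOf (e.symm (pr k (SpecialLinearGroup.transvection hij c))) ∣ p :=
          orderOf_dvd_of_pow_eq_one (by
            rw [← map_pow, ← map_pow, SLCrit.tv_pow_p (p := p), map_one, map_one])
        exact Odd.of_dvd_nat hp2 h2
      have hOtop : O = ⊤ := by
        rw [eq_top_iff]
        intro y _
        obtain ⟨w, hw⟩ := pr_surj (e y)
        have h3 : w ∈ (O.comap (e.symm.toMonoidHom.comp (pr k))) := by rw [htop]; trivial
        have h4 : e.symm (pr k w) ∈ O := h3
        rw [hw, MulEquiv.symm_apply_apply] at h4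
        exact h4
      rw [hOtop, Subgroup.index_top] at hOi
      omega
    · -- `PGL_2(k)`
      have h1 : Nat.card L = Nat.card (PGL(Fin 2, k)) := by
        rw [← card_pglRange k.subtype, ← hk, Subgroup.card_map_of_injective (MulAut.conj g).injective]
        exact Nat.card_congr (MonoidHom.ofInjective hinj).toEquiv
      rw [card_G2 rfl, hcardL] at h1
      obtain ⟨c, hc⟩ := hkodd
      obtain ⟨d, hd⟩ := hOo
      have h2 : Fintype.card k ^ 2 - 1 = 4 * (c * (c + 1)) := by
        have : Fintype.card k ^ 2 = 4 * (c * (c + 1)) + 1 := by rw [hc]; ring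
        omega
      obtain ⟨f, hf⟩ := Nat.even_mul_succ_self c
      rw [h2, hf, hd] at h1
      have h3 : 2 * d + 1 = Fintype.card k * (2 * f) := by
        have : 4 * (2 * d + 1) = 4 * (Fintype.card k * (2 * f)) := by
          rw [mul_comm 4 (2 * d + 1), h1]; ring
        omega
      have h4 : Fintype.card k * (2 * f) = 2 * (Fintype.card k * f) := by ring
      omega

theorem pronormal_klein (hq : Fintype.card F % 8 = 3 ∨ Fintype.card F % 8 = 5) {H : Subgroup (P2 F)}
    (hH : Odd H.index) : Cfsg.IsPronormal H := by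
  have hodd : Odd (Fintype.card F) := by rw [Nat.odd_iff]; omega
  obtain ⟨S, hS⟩ := S2222.exists_sylow_le hH
  have hkl := ClSL2Syl.sylow_two_PSL2_klein (F := F) rfl hq S
  have hS4 : Nat.card S = 4 := hkl.card_four
  have hsq : ∀ s ∈ (S : Subgroup (P2 F)), s * s = 1 := by
    intro s hs
    have h1 := hkl.exponent_two
    have h2 := Monoid.pow_exponent_eq_one (⟨s, hs⟩ : (S : Subgroup (P2 F)))
    rw [h1, pow_two] at h2
    exact congrArg Subtype.val h2
  refine general S hS4 hsq (fun x hx => cent_le hodd S x hx) (card_norm hq S hS4) ?_ hS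
  rintro L hSL ⟨O, hO, hOo, hOi⟩
  exact dick hodd S hS4 hsq L hSL O hOo hOi

theorem SN_PSL2 (hq : Fintype.card F % 8 = 1 ∨ Fintype.card F % 8 = 7) : SylowTwoAlt.SN (P2 F) := by
  have hodd : Odd (Fintype.card F) := by rw [Nat.odd_iff]; omega
  refine WrTwo.SN_quot _ ?_ ?_
  · apply IsPGroup.of_card (n := 1)
    rw [ClSL2Syl.card_center_SL2 hodd, pow_one]
  · intro P
    exact (S2431.part2 hodd P hq).le

theorem pronormal_PSL2 (hodd : Odd (Fintype.card F)) {H : Subgroup (P2 F)} (hH : Odd H.index) :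
    Cfsg.IsPronormal H := by
  rw [Nat.odd_iff] at hodd
  rcases (by omega : (Fintype.card F % 8 = 1 ∨ Fintype.card F % 8 = 7) ∨
    (Fintype.card F % 8 = 3 ∨ Fintype.card F % 8 = 5)) with h | h
  · exact WrTwo.pronormal_of_SN (SN_PSL2 h) hH
  · exact pronormal_klein h hH

end PSL


end Cfsg.Agent.Lib.PronPSL2
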