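import Cfsg.Agent.Lib.SfUniq
import Cfsg.Agent.Lib.H23Nilp
import Cfsg.Agent.Lib.HallPi
import Cfsg.Agent.Lib.CriticalOdd
import Cfsg.Agent.Lib.BaerSuzuki

/-!
# Groups in which every `p'`-subgroup is nilpotent: basic facts (helper68)
-/

set_option autoImplicit false
set_option linter.unusedSectionVars false

namespace Cfsg.Agent.Lib.QNil

open Subgroup Cfsg Cfsg.Agent.Lib.LocBase

universe u

/-- every subgroup of order prime to `p` is nilpotent -/
def NP (p : ℕ) (G : Type*) [Group G] : Prop :=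
  ∀ H : Subgroup G, (Nat.card ↥H).Coprime p → Group.IsNilpotent ↥H

variable {G : Type u} [Group G] [Finite G] {p : ℕ}

theorem NP.sub (h : NP p G) (K : Subgroup G) : NP p K := by
  intro H hH
  have e : Nat.card (H.map K.subtype) = Nat.card H := card_map_of_injective K.subtype_injective
  have h1 := h (H.map K.subtype) (by rw [e]; exact hH)
  exact (Group.isNilpotent_congr (H.equivMapOfInjective K.subtype K.subtype_injective)).mpr h1

theorem NP.of_equiv (h : NP p G) {X : Type*} [Group X] (e : X ≃* G) : NP p X := by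
  intro H hH
  have e1 := H.equivMapOfInjective e.toMonoidHom e.injective
  have e : Nat.card (H.map e.toMonoidHom) = Nat.card H := (Nat.card_congr e1.toEquiv).symm
  have h1 := h (H.map _) (by rw [e]; exact hH)
  exact (Group.isNilpotent_congr e1).mpr h1

theorem card_sup_dvd {A B : Subgroup G} (h : B ≤ normalizer (A : Set G)) :
    Nat.card ↥(A ⊔ B) ∣ Nat.card A * Nat.card B := by
  have h1 := LocTrace.relIndex_sup_of_le_normalizer h
  have h2 := FrakM.card_mul_relIndex (le_sup_left : A ≤ A ⊔ B)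
  rw [← h2, h1]
  exact Nat.mul_dvd_mul_left _ (relIndex_dvd_card _ _)

/-- a subgroup of coprime order normalizing `A` centralizes it -/
theorem NP.comm (h : NP p G) {A B : Subgroup G} (hBA : B ≤ normalizer (A : Set G))
    (hA : (Nat.card A).Coprime p) (hB : (Nat.card B).Coprime p) (hAB : (Nat.card A).Coprime (Nat.card B)) :
    B ≤ centralizer (A : Set G) := by
  have h1 : (Nat.card ↥(A ⊔ B)).Coprime p :=
    Nat.Coprime.coprime_dvd_left (card_sup_dvd hBA) (Nat.Coprime.mul_left hA hB)
  have h2 := h _ h1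
  intro b hb
  rw [mem_centralizer_iff]
  intro a ha
  refine H23Nilp.commute_of_coprime_of_mem h2 ((le_sup_left : A ≤ A ⊔ B) ha) ((le_sup_right : B ≤ A ⊔ B) hb) ?_
  exact Nat.Coprime.coprime_dvd_left (orderOf_dvd_natCard_of_mem ha)
    (Nat.Coprime.coprime_dvd_right (orderOf_dvd_natCard_of_mem hb) hAB)
where
  orderOf_dvd_natCard_of_mem {A : Subgroup G} {a : G} (ha : a ∈ A) : orderOf a ∣ Nat.card A := by
    have := orderOf_dvd_natCard (⟨a, ha⟩ : A)
    rwa [Subgroup.orderOf_mk] at this

/-- elements of odd order prime to `p` normalizing a 2-group centralize it -/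
theorem NP.odd_comm (h : NP p G) (hp2 : p.Coprime 2) {Q : Subgroup G} (hQ : IsPGroup 2 Q) {x : G}
    (hx : x ∈ normalizer (Q : Set G)) (hxp : (orderOf x).Coprime p) (hxo : Odd (orderOf x)) :
    x ∈ centralizer (Q : Set G) := by
  have : Fact (Nat.Prime 2) := ⟨Nat.prime_two⟩
  obtain ⟨n, hn⟩ := IsPGroup.iff_card.mp hQ
  have h1 := h.comm (A := Q) (B := zpowers x) (by rwa [zpowers_le])
    (by rw [hn]; exact Nat.Coprime.pow_left _ hp2.symm) (by rwa [Nat.card_zpowers])
    (by rw [hn, Nat.card_zpowers]; exact Nat.Coprime.pow_left _ (Nat.coprime_two_left.mpr hxo))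
  exact h1 (mem_zpowers x)

theorem conj_pow_of_inv {t x : G} (hinv : t * x * t⁻¹ = x⁻¹) (n : ℕ) : t * x ^ n * t⁻¹ = (x ^ n)⁻¹ := by
  rw [← inv_pow, ← hinv, conj_pow]

/-- an odd order element inverted by an involution is a `p`-element -/
theorem NP.inv (h : NP p G) (hp : p.Prime) (hp2 : p ≠ 2) {t x : G} (ht : orderOf t = 2) (hx : Odd (orderOf x))
    (hinv : t * x * t⁻¹ = x⁻¹) : ∃ k, orderOf x = p ^ k := by
  refine ⟨_, Nat.eq_prime_pow_of_unique_prime_dvd (orderOf_pos x).ne' ?_⟩
  intro r hr hrx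
  by_contra hne
  have hr2 : r ≠ 2 := by
    rintro rfl
    rw [Nat.odd_iff] at hx
    omega
  set y := x ^ (orderOf x / r) with hy
  have hyo : orderOf y = r := orderOf_pow_orderOf_div (orderOf_pos x).ne' hrx
  have hyi : t * y * t⁻¹ = y⁻¹ := conj_pow_of_inv hinv _
  have h1 := h.comm (A := zpowers y) (B := zpowers t) (by
      rw [zpowers_le, mem_normalizer_iff_map_conj_eq]
      rw [MonoidHom.map_zpowers]
      change zpowers (t * y * t⁻¹) = _
      rw [hyi, zpowers_inv])
    (by rw [Nat.card_zpowers, hyo]; exact (Nat.coprime_primes hr hp).mpr hne)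
    (by rw [Nat.card_zpowers, ht]; exact (Nat.coprime_primes Nat.prime_two hp).mpr (Ne.symm hp2))
    (by rw [Nat.card_zpowers, Nat.card_zpowers, ht, hyo]; exact (Nat.coprime_primes hr Nat.prime_two).mpr hr2)
  have h2 := mem_centralizer_iff.mp (h1 (mem_zpowers t)) y (mem_zpowers y)
  rw [← h2, mul_assoc, mul_inv_cancel, mul_one] at hyi
  have h3 : y ^ 2 = 1 := by
    rw [pow_two]
    nth_rewrite 2 [hyi]
    exact mul_inv_cancel y
  have h4 := orderOf_dvd_of_pow_eq_one h3
  rw [hyo] at h4
  exact hr2 ((Nat.prime_dvd_prime_iff_eq hr Nat.prime_two).mp h4)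

/-- an `r`-group (`r ≠ p` odd) normalized by an involution is centralized by it -/
theorem NP.invol_comm (h : NP p G) (hp : p.Prime) (hp2 : p ≠ 2) {t : G} (ht : orderOf t = 2) {R : Subgroup G}
    (hR : (Nat.card R).Coprime p) (hRo : Odd (Nat.card R)) (htR : t ∈ normalizer (R : Set G)) :
    t ∈ centralizer (R : Set G) := by
  have h1 := h.comm (A := R) (B := zpowers t) (by rwa [zpowers_le]) hR
    (by rw [Nat.card_zpowers, ht]; exact (Nat.coprime_primes Nat.prime_two hp).mpr (Ne.symm hp2))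
    (by rw [Nat.card_zpowers, ht]; exact Nat.coprime_two_right.mpr hRo)
  exact h1 (mem_zpowers t)

end Cfsg.Agent.Lib.QNil
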