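import Cfsg.Agent.Lib.QNilA
import Cfsg.Agent.Lib.PSolvTools

/-!
# Groups in which every `p'`-subgroup is nilpotent: quotients, `S₄`, rank of the 2-core (helper68)
-/

set_option autoImplicit false
set_option linter.unusedSectionVars false

namespace Cfsg.Agent.Lib.QNil

open Subgroup Cfsg Cfsg.Agent.Lib.LocBase

universe u

variable {G : Type u} [Group G] [Finite G] {p : ℕ}

theorem NP.surj (h : NP p G) (hp : p.Prime) (hs : Group.IsSolvable G) {X : Type*} [Group X] (f : G →* X)
    (hf : Function.Surjective f) : NP p X := by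
  intro H hH
  have hX : Finite X := Finite.of_surjective f hf
  have hYs : Group.IsSolvable (H.comap f) := inferInstance
  obtain ⟨K, hK⟩ := HallPi.exists_isPiHall (G := ↥(H.comap f)) ({p} : Set ℕ)ᶜ
  rw [HallPi.isPiHall_iff] at hK
  have hK1 : (Nat.card K).Coprime p :=
    ((hp.coprime_iff_not_dvd).mpr ((PSolvTools.piNum_compl_iff hp).1 hK.1)).symm
  obtain ⟨k, hk⟩ := PSolvTools.exists_eq_pow hp Subgroup.index_ne_zero_of_finite hK.2
  have hKn : Group.IsNilpotent K := h.sub _ K hK1
  have hg := MonoidHom.subgroupComap_surjective_of_surjective f H hf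
  set g := f.subgroupComap H with hgdef
  have h1 : (K.map g).index ∣ p ^ k := by
    rw [← hk]; exact Subgroup.index_map_dvd K hg
  have h2 : (K.map g).index ∣ Nat.card H := Subgroup.index_dvd_card _
  have h3 : (K.map g).index = 1 :=
    Nat.Coprime.eq_one_of_dvd (Nat.Coprime.coprime_dvd_left h2 (Nat.Coprime.pow_right k hH)) h1
  rw [Subgroup.index_eq_one] at h3
  have h4 : Function.Surjective (g.comp K.subtype) := by
    intro y
    have hy : y ∈ K.map g := by rw [h3]; exact mem_top y
    obtain ⟨x, hx, rfl⟩ := hy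
    exact ⟨⟨x, hx⟩, rfl⟩
  exact Group.nilpotent_of_surjective _ h4

/-- no sections isomorphic to `S₄` -/
theorem NP.s4free (h : NP p G) (hp : p.Prime) (hp3 : 3 < p) (hs : Group.IsSolvable G) :
    ¬ Cfsg.Involves (Equiv.Perm (Fin 4)) G := by
  rintro ⟨A, R, hR, ⟨e⟩⟩
  have h1 : NP p (Equiv.Perm (Fin 4)) := by
    have hA : NP p A := h.sub A
    have hAs : Group.IsSolvable A := inferInstance
    exact hA.surj hp hAs (e.toMonoidHom.comp (QuotientGroup.mk' _))
      (e.surjective.comp (QuotientGroup.mk'_surjective _))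
  have h2 := h1 ⊤ (by
    have e1 : Nat.card (⊤ : Subgroup (Equiv.Perm (Fin 4))) = 24 := by
      rw [Subgroup.card_top, Nat.card_eq_fintype_card, Fintype.card_perm, Fintype.card_fin]
      rfl
    rw [e1]
    have h3 : ¬ p ∣ 24 := by
      intro hd
      have h4 : p ∣ 2 ^ 3 * 3 := by norm_num; exact hd
      rcases (Nat.Prime.dvd_mul hp).mp h4 with h5 | h5
      · have := hp.dvd_of_dvd_pow h5
        have := Nat.le_of_dvd (by norm_num) this
        omega
      · have := Nat.le_of_dvd (by norm_num) h5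
        omega
    exact ((hp.coprime_iff_not_dvd).mpr h3).symm)
  have h5 := H23Nilp.commute_of_coprime_of_mem h2 (x := Equiv.swap (0 : Fin 4) 1)
    (y := Equiv.swap (0 : Fin 4) 1 * Equiv.swap 1 2) (mem_top _) (mem_top _) (by
      have e1 : orderOf (Equiv.swap (0 : Fin 4) 1) = 2 := orderOf_eq_prime (by decide) (by decide)
      have e2 : orderOf (Equiv.swap (0 : Fin 4) 1 * Equiv.swap 1 2) = 3 := by
        have : Fact (Nat.Prime 3) := ⟨Nat.prime_three⟩
        exact orderOf_eq_prime (by decide) (by decide)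
      rw [e1, e2]; norm_num)
  revert h5
  decide

/-- a `p`-element (`p ≥ 5`) with centralizer of index at most 4 in the 2-group `Q` centralizes `Q` -/
theorem cent_of_index_le (hp : p.Prime) (hp3 : 3 < p) {Q : Subgroup G} (hQ : IsPGroup 2 Q) {x : G} {k : ℕ}
    (hx : orderOf x = p ^ k) (hxQ : x ∈ normalizer (Q : Set G))
    (hidx : (centralizer (zpowers x : Set G)).relIndex Q ≤ 4) : Q ≤ centralizer (zpowers x : Set G) := by
  have : Fact p.Prime := ⟨hp⟩
  have : Fact (Nat.Prime 2) := ⟨Nat.prime_two⟩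
  have h1 : IsPGroup p (zpowers x) := IsPGroup.of_card (n := k) (by rw [Nat.card_zpowers, hx])
  have h2 := CriticalOdd.card_modEq_centralizer h1 (H := Q) (by rwa [zpowers_le])
  set C := Q ⊓ centralizer (zpowers x : Set G) with hC
  have h3 : Nat.card C * (centralizer (zpowers x : Set G)).relIndex Q = Nat.card Q := by
    have := FrakM.card_mul_relIndex (inf_le_left : C ≤ Q)
    rwa [Subgroup.inf_relIndex_left] at this
  set i := (centralizer (zpowers x : Set G)).relIndex Q with hi
  obtain ⟨n, hn⟩ := IsPGroup.iff_card.mp hQ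
  have h4 : i ∣ 2 ^ n := by rw [← hn, ← h3]; exact Dvd.intro_left _ rfl
  obtain ⟨j, -, hj⟩ := (Nat.dvd_prime_pow Nat.prime_two).mp h4
  have h5 : Nat.card C ∣ 2 ^ n := by rw [← hn, ← h3]; exact Dvd.intro _ rfl
  have h6 : (Nat.card C).Coprime p :=
    Nat.Coprime.coprime_dvd_left h5 (Nat.Coprime.pow_left _ ((Nat.coprime_primes Nat.prime_two hp).mpr (by omega)))
  have h7 : Nat.card C * i ≡ Nat.card C * 1 [MOD p] := by rw [h3, mul_one]; exact h2
  have h8 : i ≡ 1 [MOD p] := Nat.ModEq.cancel_left_of_coprime h6.symm h7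
  have h9 : p ∣ i - 1 := by
    have hpos : 1 ≤ i := by
      rw [hj]; exact Nat.one_le_two_pow
    exact (Nat.modEq_iff_dvd' hpos).mp h8.symm
  have h10 : i = 1 := by
    have hpos : 1 ≤ i := by
      rw [hj]; exact Nat.one_le_two_pow
    by_contra hne
    have := Nat.le_of_dvd (by omega) h9
    omega
  rw [hi, Subgroup.relIndex_eq_one] at h10
  exact h10

theorem card_commutators {T V Q : Subgroup G} {v : G} (hv : v ∈ V) (hVT : T ≤ normalizer (V : Set G)) (hQT : Q ≤ T)
    (hvQ : v ∈ normalizer (Q : Set G)) :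
    (centralizer ({v} : Set G)).relIndex Q ≤ Nat.card ↥(V ⊓ Q) := by
  classical
  -- the cosets of `C_Q(v)` inject into the commutators
  let f : Q ⧸ ((centralizer ({v} : Set G)).subgroupOf Q) → ↥(V ⊓ Q) := fun q =>
    Quotient.liftOn' q (fun q => ⟨(q : G) * v * (q : G)⁻¹ * v⁻¹,
      ⟨V.mul_mem ((mem_normalizer_iff.mp (hVT (hQT q.2)) v).mp hv) (V.inv_mem hv), by
        have h1 : (q : G) * v * (q : G)⁻¹ * v⁻¹ = q * (v * (q : G)⁻¹ * v⁻¹) := by group
        rw [h1]
        exact Q.mul_mem q.2 ((mem_normalizer_iff.mp hvQ _).mp (Q.inv_mem q.2))⟩⟩) (by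
      intro a b hab
      rw [QuotientGroup.leftRel_apply] at hab
      have h1 : (a : G)⁻¹ * b * v = v * ((a : G)⁻¹ * b) := by
        have := mem_centralizer_singleton_iff.mp (mem_subgroupOf.mp hab)
        simpa using this
      apply Subtype.ext
      change (a : G) * v * (a : G)⁻¹ * v⁻¹ = (b : G) * v * (b : G)⁻¹ * v⁻¹
      have h2 : (b : G) * v * (b : G)⁻¹ = a * ((a : G)⁻¹ * b * v) * (b : G)⁻¹ := by group
      rw [h2, h1]; group)
  have hf : Function.Injective f := by
    intro a b
    induction a using QuotientGroup.induction_on with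
    | H a =>
    induction b using QuotientGroup.induction_on with
    | H b =>
    intro hab
    have h1 : (a : G) * v * (a : G)⁻¹ * v⁻¹ = (b : G) * v * (b : G)⁻¹ * v⁻¹ := congrArg Subtype.val hab
    rw [QuotientGroup.eq, mem_subgroupOf, mem_centralizer_singleton_iff]
    change (a : G)⁻¹ * b * v = v * ((a : G)⁻¹ * b)
    have h2 : (a : G) * v * (a : G)⁻¹ = (b : G) * v * (b : G)⁻¹ := mul_right_cancel h1
    have h3 : (a : G)⁻¹ * b * v = (a : G)⁻¹ * (b * v * (b : G)⁻¹) * b := by group
    rw [h3, ← h2]; group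
  have h1 := Nat.card_le_card_of_injective f hf
  exact h1

/-- **the rank of the 2-core** -/
theorem core_rank (hNP : NP p G) (hp : p.Prime) (hp3 : 3 < p)
    (hch : centralizer (pCore 2 G : Set G) ≤ pCore 2 G) {T V : Subgroup G}
    (hQT : pCore 2 G ≤ T) (hVT : V ≤ T) (hn : T ≤ normalizer (V : Set G)) (hV : IsElementaryAbelian 2 V)
    (hV4 : 2 < Nat.card V) : ∃ U ≤ pCore 2 G, IsElementaryAbelian 2 U ∧ 2 < Nat.card U ∧ U ≤ V := by
  by_contra hcon
  push Not at hcon
  have hQp : IsPGroup 2 (pCore 2 G) := isPGroup_pCore 2 G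
  have hQn : (pCore 2 G).Normal := pCore_normal 2 G
  set Q := pCore 2 G with hQ
  have h1 : Nat.card ↥(V ⊓ Q) ≤ 2 := by
    by_contra hlt
    exact (hcon (V ⊓ Q) inf_le_right (PReduced.elem_mono hV inf_le_left) (by omega)) inf_le_left
  have h2 : ∃ v ∈ V, v ∉ Q := by
    by_contra hc
    push Not at hc
    have : V ⊓ Q = V := inf_eq_left.mpr hc
    rw [this] at h1
    omega
  obtain ⟨v, hvV, hvQ⟩ := h2
  have hv1 : v ≠ 1 := by
    rintro rfl
    exact hvQ (one_mem _)
  have hv2 : orderOf v = 2 := orderOf_eq_prime ((PReduced.elem_iff.mp hV).2 v hvV) hv1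
  obtain ⟨x, hx1, hxo, hxi⟩ := BaerSuzuki.exists_inverted_odd v hv2 (by
    intro N hN hNp hvN
    exact hvQ (le_pCore hN hNp hvN))
  obtain ⟨k, hk⟩ := hNP.inv hp (by omega) hv2 hxo hxi
  -- square root
  obtain ⟨m, hm⟩ := hxo
  set y := x ^ (m + 1) with hy
  have hyx : y * y = x := by
    rw [hy, ← pow_add]
    have : m + 1 + (m + 1) = orderOf x + 1 := by omega
    rw [this, pow_succ, pow_orderOf_eq_one, one_mul]
  have hyi : v * y * v⁻¹ = y⁻¹ := conj_pow_of_inv hxi _
  have hvv : v * v = 1 := by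
    have := pow_orderOf_eq_one v
    rwa [hv2, pow_two] at this
  have hvi : v⁻¹ = v := inv_eq_of_mul_eq_one_left hvv
  -- `x = v^y v`
  have hxv : x = (y * v * y⁻¹) * v := by
    have h3 : y⁻¹ = v * y * v := by rw [← hyi, hvi]
    calc x = y * y := hyx.symm
      _ = y * (v * v) * y * (v * v) := by rw [hvv, mul_one, mul_one]
      _ = y * v * (v * y * v) * v := by group
      _ = (y * v * y⁻¹) * v := by rw [← h3]
  -- centralizers
  have hc1 : (centralizer ({v} : Set G)).relIndex Q ≤ 2 := by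
    refine (card_commutators hvV hn hQT ?_).trans h1
    rw [(normalizer_eq_top_iff (H := Q)).mpr hQn]; exact mem_top _
  have hc2 : (centralizer ({y * v * y⁻¹} : Set G)).relIndex Q ≤ 2 := by
    have e1 : centralizer ({y * v * y⁻¹} : Set G) = (centralizer ({v} : Set G)).map (MulAut.conj y).toMonoidHom := by
      ext g
      rw [mem_map_conj, mem_centralizer_singleton_iff, mem_centralizer_singleton_iff]
      constructor
      · intro h
        calc y⁻¹ * g * y * v = y⁻¹ * (g * (y * v * y⁻¹)) * y := by group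
          _ = y⁻¹ * ((y * v * y⁻¹) * g) * y := by rw [h]
          _ = v * (y⁻¹ * g * y) := by group
      · intro h
        calc g * (y * v * y⁻¹) = y * ((y⁻¹ * g * y) * v) * y⁻¹ := by group
          _ = y * (v * (y⁻¹ * g * y)) * y⁻¹ := by rw [h]
          _ = (y * v * y⁻¹) * g := by group
    have e2 : Q = Q.map (MulAut.conj y).toMonoidHom := by
      rw [map_conj_eq_of_mem]
      rw [(normalizer_eq_top_iff (H := Q)).mpr hQn]; exact mem_top _
    rw [e1, e2, Subgroup.relIndex_map_map_of_injective _ _ (MulAut.conj y).injective]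
    exact hc1
  have hle : centralizer ({v} : Set G) ⊓ centralizer ({y * v * y⁻¹} : Set G) ≤ centralizer (zpowers x : Set G) := by
    rintro g ⟨hg1, hg2⟩
    replace hg1 := mem_centralizer_singleton_iff.mp hg1
    replace hg2 := mem_centralizer_singleton_iff.mp hg2
    rw [Subgroup.zpowers_eq_closure, centralizer_closure, mem_centralizer_singleton_iff]
    rw [hxv]
    calc g * (y * v * y⁻¹ * v) = (g * (y * v * y⁻¹)) * v := by group
      _ = (y * v * y⁻¹) * (g * v) := by rw [hg2]; group
      _ = (y * v * y⁻¹) * v * g := by rw [hg1]; group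
  have hidx : (centralizer (zpowers x : Set G)).relIndex Q ≤ 4 := by
    have h3 := Subgroup.relIndex_inf_le (H := centralizer ({v} : Set G)) (K := centralizer ({y * v * y⁻¹} : Set G)) (L := Q)
    have h4 := Subgroup.relIndex_le_of_le_left hle (SfMin.ri_pos (centralizer ({v} : Set G) ⊓ centralizer ({y * v * y⁻¹} : Set G)) Q).ne'
    calc _ ≤ _ := h4
      _ ≤ _ := h3
      _ ≤ 2 * 2 := Nat.mul_le_mul hc1 hc2
      _ = 4 := rfl
  have h5 := cent_of_index_le hp hp3 hQp hk (by
    rw [(normalizer_eq_top_iff (H := Q)).mpr hQn]; exact mem_top _) hidx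
  have h6 : x ∈ Q := by
    apply hch
    rw [mem_centralizer_iff]
    intro q hq
    exact (mem_centralizer_iff.mp (h5 hq) x (mem_zpowers x)).symm
  obtain ⟨j, hj⟩ := IsPGroup.iff_orderOf.mp hQp ⟨x, h6⟩
  rw [Subgroup.orderOf_mk, hk] at hj
  apply hx1
  rw [← orderOf_eq_one_iff, hk]
  have h7 : (p ^ k).Coprime (2 ^ j) :=
    Nat.Coprime.pow _ _ ((Nat.coprime_primes hp Nat.prime_two).mpr (by omega))
  rw [hj] at h7 ⊢
  rwa [Nat.coprime_self] at h7

end Cfsg.Agent.Lib.QNil
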