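import Mathlib

/-!
Degeneration of a quadratic subspace along a one-parameter group `1 + t y`, `y ^ 2 = 0`.
-/

set_option autoImplicit false

namespace Cfsg.Agent.Lib.QOffA

theorem card_le_of_fib {α β : Type*} [Finite α] [Finite β] (f : α → β) (k : ℕ)
    (h : ∀ z, Nat.card {t : α // f t = z} ≤ k) : Nat.card α ≤ Nat.card β * k := by
  classical
  have : Fintype β := Fintype.ofFinite _
  have e : α ≃ Σ z : β, {t : α // f t = z} := (Equiv.sigmaFiberEquiv f).symm
  rw [Nat.card_congr e, Nat.card_sigma]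
  calc ∑ z : β, Nat.card {t : α // f t = z} ≤ ∑ _z : β, k :=
        Finset.sum_le_sum fun z _ => h z
    _ = Nat.card β * k := by
        rw [Finset.sum_const, Finset.card_univ, smul_eq_mul, Nat.card_eq_fintype_card]

variable {K R : Type*} [Field K] [Ring R] [Algebra K R]

/-- the limit at infinity of `(1 - t y) X (1 + t y)` -/
def Xinf (X : Submodule K R) (y : R) : Submodule K R where
  carrier := {z | ∃ x0 ∈ X, ∃ x1 ∈ X, ∃ x2 ∈ X, x0 * y - y * x0 - y * x1 * y ∈ X ∧
    y * x0 * y ∈ X ∧ z = x0 + (x1 * y - y * x1) - y * x2 * y}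
  zero_mem' := by
    refine ⟨0, X.zero_mem, 0, X.zero_mem, 0, X.zero_mem, ?_, ?_, ?_⟩
    · simp
    · simp
    · simp
  add_mem' := by
    rintro z z' ⟨x0, h0, x1, h1, x2, h2, hp, hq, rfl⟩ ⟨x0', h0', x1', h1', x2', h2', hp', hq', rfl⟩
    refine ⟨x0 + x0', X.add_mem h0 h0', x1 + x1', X.add_mem h1 h1', x2 + x2', X.add_mem h2 h2', ?_, ?_, ?_⟩
    · have := X.add_mem hp hp'
      convert this using 1
      noncomm_ring
    · have := X.add_mem hq hq'
      convert this using 1
      noncomm_ring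
    · noncomm_ring
  smul_mem' := by
    rintro c z ⟨x0, h0, x1, h1, x2, h2, hp, hq, rfl⟩
    refine ⟨c • x0, X.smul_mem c h0, c • x1, X.smul_mem c h1, c • x2, X.smul_mem c h2, ?_, ?_, ?_⟩
    · have := X.smul_mem c hp
      convert this using 1
      simp only [smul_sub, smul_mul_assoc, mul_smul_comm]
    · have := X.smul_mem c hq
      convert this using 1
      simp only [smul_mul_assoc, mul_smul_comm]
    · simp only [smul_sub, smul_add, smul_mul_assoc, mul_smul_comm]

theorem mem_Xinf {X : Submodule K R} {y z : R} : z ∈ Xinf X y ↔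
    ∃ x0 ∈ X, ∃ x1 ∈ X, ∃ x2 ∈ X, x0 * y - y * x0 - y * x1 * y ∈ X ∧
    y * x0 * y ∈ X ∧ z = x0 + (x1 * y - y * x1) - y * x2 * y := Iff.rfl

/-- (c) products vanish -/
theorem Xinf_mul {X : Submodule K R} {y : R} (hy : y * y = 0) (hX : ∀ a ∈ X, ∀ b ∈ X, a * b = 0)
    {z z' : R} (hz : z ∈ Xinf X y) (hz' : z' ∈ Xinf X y) : z * z' = 0 := by
  obtain ⟨x0, h0, x1, h1, x2, h2, hp, hq, rfl⟩ := hz
  obtain ⟨x0', h0', x1', h1', x2', h2', hp', hq', rfl⟩ := hz'
  have e1 : ∀ t ∈ X, x0 * y * t = y * x1 * y * t := by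
    intro t ht
    have := hX _ hp t ht
    have h := hX _ h0 t ht
    have : x0 * y * t - y * (x0 * t) - y * x1 * y * t = 0 := by rw [← this]; noncomm_ring
    rw [h, mul_zero, sub_zero, sub_eq_zero] at this
    exact this
  have e2 : ∀ t ∈ X, t * y * x0' = - (t * y * x1' * y) := by
    intro t ht
    have := hX t ht _ hp'
    have h := hX t ht _ h0'
    have : (t * x0') * y - t * y * x0' - t * y * x1' * y = 0 := by rw [← this]; noncomm_ring
    rw [h, zero_mul, zero_sub] at this
    have h3 : t * y * x0' + t * y * x1' * y = 0 := by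
      rw [← neg_eq_zero, neg_add, ← sub_eq_add_neg]; exact this
    exact eq_neg_of_add_eq_zero_left h3
  have f1 := e1 x1' h1'
  have f2 : x0 * y * x2' = y * x1 * y * x2' := e1 x2' h2'
  have g1 := e2 x1 h1
  have g2 := e2 x2 h2
  have a00 := hX _ h0 _ h0'
  have a01 := hX _ h0 _ h1'
  have a10 := hX _ h1 _ h0'
  have a11 := hX _ h1 _ h1'
  calc (x0 + (x1 * y - y * x1) - y * x2 * y) * (x0' + (x1' * y - y * x1') - y * x2' * y)
      = (x0 * x0') + (x0 * x1') * y - x0 * y * x1' - x0 * y * x2' * y + x1 * y * x0' + x1 * y * x1' * y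
        - x1 * (y * y) * x1' - x1 * (y * y) * x2' * y - y * (x1 * x0') - y * (x1 * x1') * y + y * x1 * y * x1'
        + y * x1 * y * x2' * y - y * (x2 * y * x0') - y * (x2 * y * x1' * y) + y * x2 * (y * y) * x1'
        + y * x2 * (y * y) * x2' * y := by noncomm_ring
    _ = 0 := by
        rw [a00, a01, a10, a11, hy, f1, f2, g1, g2]
        noncomm_ring

/-- (b) stability under `y` -/
theorem Xinf_N {X : Submodule K R} {y : R} (hy : y * y = 0)
    {z : R} (hz : z ∈ Xinf X y) : z * y - y * z ∈ Xinf X y ∧ y * z * y ∈ Xinf X y := by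
  obtain ⟨x0, h0, x1, h1, x2, h2, hp, hq, rfl⟩ := hz
  constructor
  · refine ⟨x0 * y - y * x0 - y * x1 * y, hp, 0, X.zero_mem, x1, h1, ?_, ?_, ?_⟩
    · have h : (x0 * y - y * x0 - y * x1 * y) * y - y * (x0 * y - y * x0 - y * x1 * y) - y * 0 * y
          = x0 * (y * y) - y * x0 * y - y * x1 * (y * y) - y * x0 * y + (y * y) * x0 + (y * y) * x1 * y := by
        noncomm_ring
      rw [h, hy]
      have : x0 * 0 - y * x0 * y - y * x1 * 0 - y * x0 * y + 0 * x0 + 0 * x1 * y
        = - (y * x0 * y) - (y * x0 * y) := by simp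
      rw [this]
      exact X.sub_mem (X.neg_mem hq) hq
    · have h : y * (x0 * y - y * x0 - y * x1 * y) * y
          = y * x0 * (y * y) - (y * y) * x0 * y - (y * y) * x1 * y * y := by noncomm_ring
      rw [h, hy]; simp
    · have h : (x0 + (x1 * y - y * x1) - y * x2 * y) * y - y * (x0 + (x1 * y - y * x1) - y * x2 * y)
          = x0 * y - y * x0 - y * x1 * y - y * x1 * y + x1 * (y * y) - y * x2 * (y * y) + (y * y) * x1
            + (y * y) * x2 * y := by noncomm_ring
      rw [h, hy]; noncomm_ring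
  · refine ⟨y * x0 * y, hq, 0, X.zero_mem, 0, X.zero_mem, ?_, ?_, ?_⟩
    · have h : (y * x0 * y) * y - y * (y * x0 * y) - y * 0 * y = y * x0 * (y * y) - (y * y) * x0 * y := by
        noncomm_ring
      rw [h, hy]; simp
    · have h : y * (y * x0 * y) * y = (y * y) * x0 * y * y := by noncomm_ring
      rw [h, hy]; simp
    · have h : y * (x0 + (x1 * y - y * x1) - y * x2 * y) * y = y * x0 * y + y * x1 * (y * y)
          - (y * y) * x1 * y - (y * y) * x2 * (y * y) := by noncomm_ring
      rw [h, hy]; simp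

theorem Xinf_conj {X : Submodule K R} {y : R} (hy : y * y = 0)
    {z : R} (hz : z ∈ Xinf X y) : (1 - y) * z * (1 + y) ∈ Xinf X y ∧ (1 + y) * z * (1 - y) ∈ Xinf X y := by
  obtain ⟨h1, h2⟩ := Xinf_N hy hz
  constructor
  · have : (1 - y) * z * (1 + y) = z + (z * y - y * z) - y * z * y := by noncomm_ring
    rw [this]
    exact Submodule.sub_mem _ (Submodule.add_mem _ hz h1) h2
  · have : (1 + y) * z * (1 - y) = z - (z * y - y * z) - y * z * y := by noncomm_ring
    rw [this]
    exact Submodule.sub_mem _ (Submodule.sub_mem _ hz h1) h2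

/-- (a) dimension -/
theorem card_le_Xinf [Finite R] {X : Submodule K R} {y : R} (hy : y * y = 0) :
    Nat.card X ≤ Nat.card (Xinf X y) := by
  classical
  -- `R2 = {(x0, x1)}`
  let R2 : Set (R × R) := {t | t.1 ∈ X ∧ t.2 ∈ X ∧ t.1 * y - y * t.1 - y * t.2 * y ∈ X ∧ y * t.1 * y ∈ X}
  let f : R2 × X → Xinf X y := fun t =>
    ⟨t.1.1.1 + (t.1.1.2 * y - y * t.1.1.2) - y * (t.2 : R) * y,
      t.1.1.1, t.1.2.1, t.1.1.2, t.1.2.2.1, t.2, t.2.2, t.1.2.2.2.1, t.1.2.2.2.2, rfl⟩
  -- fibres have at most `#R2` elements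
  have hfib : ∀ z : Xinf X y, Nat.card {t : R2 × X // f t = z} ≤ Nat.card R2 := by
    intro z
    by_cases hne : Nonempty {t : R2 × X // f t = z}
    · obtain ⟨⟨s, hs⟩⟩ := hne
      refine Nat.card_le_card_of_injective
        (fun t : {t : R2 × X // f t = z} => (⟨(t.1.1.1.2 - s.1.1.2, (t.1.2 : R) - s.2), ?_⟩ : R2)) ?_
      · obtain ⟨t, ht⟩ := t
        have hfe : f t = f s := by rw [ht, hs]
        have hfe' : t.1.1.1 + (t.1.1.2 * y - y * t.1.1.2) - y * (t.2 : R) * y
          = s.1.1.1 + (s.1.1.2 * y - y * s.1.1.2) - y * (s.2 : R) * y := congrArg Subtype.val hfe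
        set a := t.1.1.2 - s.1.1.2 with ha
        set b := (t.2 : R) - s.2 with hb
        have e : a * y - y * a - y * b * y = s.1.1.1 - t.1.1.1 := by
          have : (t.1.1.1 + (t.1.1.2 * y - y * t.1.1.2) - y * (t.2 : R) * y)
            - (s.1.1.1 + (s.1.1.2 * y - y * s.1.1.2) - y * (s.2 : R) * y) = 0 := by rw [hfe', sub_self]
          have h2 : a * y - y * a - y * b * y - (s.1.1.1 - t.1.1.1) = 0 := by
            rw [← this, ha, hb]; noncomm_ring
          exact sub_eq_zero.1 h2
        refine ⟨X.sub_mem t.1.2.2.1 s.1.2.2.1, X.sub_mem t.2.2 s.2.2, ?_, ?_⟩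
        · show a * y - y * a - y * b * y ∈ X
          rw [e]; exact X.sub_mem s.1.2.1 t.1.2.1
        · show y * a * y ∈ X
          have h3 : (s.1.1.1 - t.1.1.1) * y - y * (s.1.1.1 - t.1.1.1)
              + y * a * y ∈ X := by
            have := X.sub_mem s.1.2.2.2.1 t.1.2.2.2.1
            convert this using 1
            rw [ha]; noncomm_ring
          rw [← e] at h3
          have h4 : (a * y - y * a - y * b * y) * y - y * (a * y - y * a - y * b * y) + y * a * y
              = - (y * a * y) + a * (y * y) - y * b * (y * y) + (y * y) * a + (y * y) * b * y := by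
            noncomm_ring
          rw [h4, hy] at h3
          simp only [mul_zero, zero_mul, add_zero, sub_zero] at h3
          exact (Submodule.neg_mem_iff X).1 h3
      · rintro ⟨t, ht⟩ ⟨t', ht'⟩ h
        have h' := congrArg Subtype.val h
        simp only [Prod.mk.injEq, sub_left_inj] at h'
        obtain ⟨ha, hb⟩ := h'
        have hfe' : t.1.1.1 + (t.1.1.2 * y - y * t.1.1.2) - y * (t.2 : R) * y
          = t'.1.1.1 + (t'.1.1.2 * y - y * t'.1.1.2) - y * (t'.2 : R) * y :=
            congrArg Subtype.val (ht.trans ht'.symm)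
        rw [ha, hb] at hfe'
        have hc : t.1.1.1 = t'.1.1.1 := by
          have := sub_left_injective hfe'
          exact add_right_cancel this
        apply Subtype.ext
        show t = t'
        apply Prod.ext
        · apply Subtype.ext
          exact Prod.ext hc ha
        · exact Subtype.ext hb
    · have : IsEmpty {t : R2 × X // f t = z} := not_nonempty_iff.1 hne
      rw [Nat.card_of_isEmpty]; exact Nat.zero_le _
  have hR2pos : 0 < Nat.card R2 := by
    have : Nonempty R2 := ⟨⟨(0, 0), by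
      refine ⟨X.zero_mem, X.zero_mem, ?_, ?_⟩ <;> simp⟩⟩
    exact Nat.card_pos
  have htot : Nat.card (R2 × X) ≤ Nat.card (Xinf X y) * Nat.card R2 := card_le_of_fib f _ hfib
  rw [Nat.card_prod, mul_comm] at htot
  exact Nat.le_of_mul_le_mul_right htot hR2pos

section Cent

variable {M : Type*} [AddCommGroup M] [Module K M]

/-- the fixed vectors of `1 + X` -/
def cent (X : Submodule K (Module.End K M)) : Submodule K M where
  carrier := {v | ∀ x ∈ X, x v = 0}
  zero_mem' := by intro x _; exact map_zero x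
  add_mem' := by
    intro a b ha hb x hx
    rw [map_add, ha x hx, hb x hx, add_zero]
  smul_mem' := by
    intro c v hv x hx
    rw [map_smul, hv x hx, smul_zero]

theorem mem_cent {X : Submodule K (Module.End K M)} {v : M} : v ∈ cent X ↔ ∀ x ∈ X, x v = 0 := Iff.rfl

theorem card_cent_le [Finite M] {X : Submodule K (Module.End K M)} {y : Module.End K M}
    (hy : y * y = 0) : Nat.card (cent X) ≤ Nat.card (cent (Xinf X y)) := by
  classical
  have hyy : ∀ v, y (y v) = 0 := fun v => by
    have := congrArg (fun t : Module.End K M => t v) hy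
    simpa using this
  let C := cent X
  let C1 : Set M := {c | c ∈ C ∧ y c ∈ C}
  have hmem : ∀ c0 c1 : M, c0 ∈ C → y c0 ∈ C → c1 ∈ C → c0 + y c1 ∈ cent (Xinf X y) := by
    rintro c0 c1 h0 h0' h1 z ⟨x0, hx0, x1, hx1, x2, hx2, hp, hq, rfl⟩
    have e1 : (x0 * y - y * x0 - y * x1 * y) c1 = 0 := h1 _ hp
    simp only [LinearMap.sub_apply, Module.End.mul_apply, h1 x0 hx0, map_zero, sub_zero] at e1
    have e2 : x1 (y c0) = 0 := h0' _ hx1
    have e3 : x2 (y c0) = 0 := h0' _ hx2
    simp only [LinearMap.sub_apply, LinearMap.add_apply, Module.End.mul_apply, map_add, hyy,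
      h0 x0 hx0, h0 x1 hx1, e2, e3, map_zero, sub_zero, zero_add, add_zero, zero_sub]
    simp only [sub_eq_zero] at e1
    rw [e1]; simp
  let f : C1 × C → cent (Xinf X y) := fun t => ⟨t.1.1 + y t.2.1, hmem _ _ t.1.2.1 t.1.2.2 t.2.2⟩
  have hfib : ∀ z : cent (Xinf X y), Nat.card {t : C1 × C // f t = z} ≤ Nat.card C1 := by
    intro z
    by_cases hne : Nonempty {t : C1 × C // f t = z}
    · obtain ⟨⟨s, hs⟩⟩ := hne
      refine Nat.card_le_card_of_injective
        (fun t : {t : C1 × C // f t = z} => (⟨(t.1.2 : M) - s.2, ?_⟩ : C1)) ?_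
      · obtain ⟨t, ht⟩ := t
        have hfe : (t.1 : M) + y t.2 = s.1 + y s.2 := congrArg Subtype.val (ht.trans hs.symm)
        refine ⟨C.sub_mem t.2.2 s.2.2, ?_⟩
        show y ((t.2 : M) - s.2) ∈ C
        have : y ((t.2 : M) - s.2) = s.1 - t.1 := by
          rw [map_sub, sub_eq_sub_iff_add_eq_add]
          rw [add_comm, hfe]
        rw [this]
        exact C.sub_mem s.1.2.1 t.1.2.1
      · rintro ⟨t, ht⟩ ⟨t', ht'⟩ h
        have h' := congrArg Subtype.val h
        simp only [sub_left_inj] at h'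
        have hfe : (t.1 : M) + y t.2 = t'.1 + y t'.2 := congrArg Subtype.val (ht.trans ht'.symm)
        rw [h'] at hfe
        have hc : (t.1 : M) = t'.1 := add_right_cancel hfe
        apply Subtype.ext
        show t = t'
        exact Prod.ext (Subtype.ext hc) (Subtype.ext h')
    · have : IsEmpty {t : C1 × C // f t = z} := not_nonempty_iff.1 hne
      rw [Nat.card_of_isEmpty]; exact Nat.zero_le _
  have hpos : 0 < Nat.card C1 := by
    have : Nonempty C1 := ⟨⟨0, C.zero_mem, by rw [map_zero]; exact C.zero_mem⟩⟩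
    exact Nat.card_pos
  have htot : Nat.card (C1 × C) ≤ Nat.card (cent (Xinf X y)) * Nat.card C1 := card_le_of_fib f _ hfib
  rw [Nat.card_prod, mul_comm] at htot
  exact Nat.le_of_mul_le_mul_right htot hpos

end Cent

end Cfsg.Agent.Lib.QOffA
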