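import Cfsg.Agent.Lib.QOffA

/-!
Invariance of the degeneration under quadratic elements that normalise the whole family.
-/

set_option autoImplicit false
set_option linter.unusedSimpArgs false

namespace Cfsg.Agent.Lib.QOffA

variable {K R : Type*} [Field K] [Ring R] [Algebra K R]

theorem mem_of_nsmul_mem {X : Submodule K R} (k : ℕ) (hk : (k : K) ≠ 0) {t : R} (h : k • t ∈ X) : t ∈ X := by
  have h1 : t = (k : K)⁻¹ • (k • t) := by
    rw [← Nat.cast_smul_eq_nsmul K k t, smul_smul, inv_mul_cancel₀ hk, one_smul]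
  rw [h1]; exact X.smul_mem _ h

def T0 (v x : R) : R := (1 - v) * x * (1 + v)
def T1 (v b x : R) : R := x * b - b * x - (v * x * b + b * x * v)
def T2 (v b c x : R) : R := x * c - c * x - (v * x * c + c * x * v + b * x * b)
def T3 (b c x : R) : R := -(b * x * c + c * x * b)
def T4 (c x : R) : R := -(c * x * c)

theorem conj_expand1 (v b c x : R) : (1 - (v + b + c)) * x * (1 + (v + b + c)) =
    T0 v x + T1 v b x + T2 v b c x + T3 b c x + T4 c x := by
  unfold T0 T1 T2 T3 T4; noncomm_ring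

theorem conj_expand1' (v b c x : R) : (1 - (v - b + c)) * x * (1 + (v - b + c)) =
    T0 v x - T1 v b x + T2 v b c x - T3 b c x + T4 c x := by
  unfold T0 T1 T2 T3 T4; noncomm_ring

theorem conj_expand2 (v b c x : R) : (1 - (v + 2 • b + 4 • c)) * x * (1 + (v + 2 • b + 4 • c)) =
    T0 v x + 2 • T1 v b x + 4 • T2 v b c x + 8 • T3 b c x + 16 • T4 c x := by
  unfold T0 T1 T2 T3 T4; noncomm_ring

theorem conj_expand2' (v b c x : R) : (1 - (v - 2 • b + 4 • c)) * x * (1 + (v - 2 • b + 4 • c)) =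
    T0 v x - 2 • T1 v b x + 4 • T2 v b c x - 8 • T3 b c x + 16 • T4 c x := by
  unfold T0 T1 T2 T3 T4; noncomm_ring

/-- the coefficients preserve `X` -/
theorem coeffs {X : Submodule K R} (h2 : (2 : K) ≠ 0) (h3 : (3 : K) ≠ 0) {v b c : R}
    (f0 : ∀ x ∈ X, (1 - v) * x * (1 + v) ∈ X)
    (f1 : ∀ x ∈ X, (1 - (v + b + c)) * x * (1 + (v + b + c)) ∈ X)
    (f1' : ∀ x ∈ X, (1 - (v - b + c)) * x * (1 + (v - b + c)) ∈ X)
    (f2 : ∀ x ∈ X, (1 - (v + 2 • b + 4 • c)) * x * (1 + (v + 2 • b + 4 • c)) ∈ X)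
    (f2' : ∀ x ∈ X, (1 - (v - 2 • b + 4 • c)) * x * (1 + (v - 2 • b + 4 • c)) ∈ X) :
    ∀ x ∈ X, T0 v x ∈ X ∧ T1 v b x ∈ X ∧ T2 v b c x ∈ X ∧ T3 b c x ∈ X ∧ T4 c x ∈ X := by
  intro x hx
  have g0 : T0 v x ∈ X := f0 x hx
  have g1 := f1 x hx
  have g1' := f1' x hx
  have g2 := f2 x hx
  have g2' := f2' x hx
  rw [conj_expand1] at g1
  rw [conj_expand1'] at g1'
  rw [conj_expand2] at g2
  rw [conj_expand2'] at g2'
  generalize T0 v x = t0 at *
  generalize T1 v b x = t1 at *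
  generalize T2 v b c x = t2 at *
  generalize T3 b c x = t3 at *
  generalize T4 c x = t4 at *
  have k24 : ((24 : ℕ) : K) ≠ 0 := by
    have : ((24 : ℕ) : K) = 2 * 2 * 2 * 3 := by norm_num
    rw [this]
    exact mul_ne_zero (mul_ne_zero (mul_ne_zero h2 h2) h2) h3
  have k2 : ((2 : ℕ) : K) ≠ 0 := by simpa using h2
  have k12 : ((12 : ℕ) : K) ≠ 0 := by
    have : ((12 : ℕ) : K) = 2 * 2 * 3 := by norm_num
    rw [this]
    exact mul_ne_zero (mul_ne_zero h2 h2) h3
  have e4 : 24 • t4 ∈ X := by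
    have : 24 • t4 = (t0 + 2 • t1 + 4 • t2 + 8 • t3 + 16 • t4) + (t0 - 2 • t1 + 4 • t2 - 8 • t3 + 16 • t4)
        - 4 • ((t0 + t1 + t2 + t3 + t4) + (t0 - t1 + t2 - t3 + t4)) + 6 • t0 := by abel
    rw [this]
    exact X.add_mem (X.sub_mem (X.add_mem g2 g2') (X.nsmul_mem (X.add_mem g1 g1') 4)) (X.nsmul_mem g0 6)
  have m4 := mem_of_nsmul_mem 24 k24 e4
  have e2 : 2 • t2 ∈ X := by
    have : 2 • t2 = ((t0 + t1 + t2 + t3 + t4) + (t0 - t1 + t2 - t3 + t4)) - 2 • t0 - 2 • t4 := by abel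
    rw [this]
    exact X.sub_mem (X.sub_mem (X.add_mem g1 g1') (X.nsmul_mem g0 2)) (X.nsmul_mem m4 2)
  have m2 := mem_of_nsmul_mem 2 k2 e2
  have e3 : 12 • t3 ∈ X := by
    have : 12 • t3 = ((t0 + 2 • t1 + 4 • t2 + 8 • t3 + 16 • t4) - (t0 - 2 • t1 + 4 • t2 - 8 • t3 + 16 • t4))
        - 2 • ((t0 + t1 + t2 + t3 + t4) - (t0 - t1 + t2 - t3 + t4)) := by abel
    rw [this]
    exact X.sub_mem (X.sub_mem g2 g2') (X.nsmul_mem (X.sub_mem g1 g1') 2)
  have m3 := mem_of_nsmul_mem 12 k12 e3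
  have m1 : t1 ∈ X := by
    have : t1 = (t0 + t1 + t2 + t3 + t4) - t0 - t2 - t3 - t4 := by abel
    rw [this]
    exact X.sub_mem (X.sub_mem (X.sub_mem (X.sub_mem g1 g0) m2) m3) m4
  exact ⟨g0, m1, m2, m3, m4⟩

section ids

variable {y v : R} (hy : y * y = 0) (hv : v * v = 0)

include hy hv

theorem J1 (x : R) : (1 - v) * (x * y - y * x) * (1 + v) =
    T1 v (y * v - v * y) x + (T0 v x) * y - y * (T0 v x) := by
  have hy' : ∀ r, y * (y * r) = 0 := fun r => by rw [← mul_assoc, hy, zero_mul]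
  have hv' : ∀ r, v * (v * r) = 0 := fun r => by rw [← mul_assoc, hv, zero_mul]
  unfold T0 T1
  simp only [mul_add, add_mul, mul_sub, sub_mul, mul_neg, neg_mul, mul_assoc, mul_one, one_mul, hy, hv, hy', hv',
    mul_zero, zero_mul, neg_zero, add_zero, zero_add, sub_zero, zero_sub, neg_neg]
  abel

theorem J2 (x : R) : -((1 - v) * (y * x * y) * (1 + v)) =
    T2 v (y * v - v * y) (-(y * v * y)) x + (T1 v (y * v - v * y) x) * y - y * (T1 v (y * v - v * y) x)
      - y * (T0 v x) * y := by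
  have hy' : ∀ r, y * (y * r) = 0 := fun r => by rw [← mul_assoc, hy, zero_mul]
  have hv' : ∀ r, v * (v * r) = 0 := fun r => by rw [← mul_assoc, hv, zero_mul]
  unfold T0 T1 T2
  simp only [mul_add, add_mul, mul_sub, sub_mul, mul_neg, neg_mul, mul_assoc, mul_one, one_mul, hy, hv, hy', hv',
    mul_zero, zero_mul, neg_zero, add_zero, zero_add, sub_zero, zero_sub, neg_neg]
  abel

theorem J3 (x : R) : (T2 v (y * v - v * y) (-(y * v * y)) x) * y - y * (T2 v (y * v - v * y) (-(y * v * y)) x)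
      - y * (T1 v (y * v - v * y) x) * y = - T3 (y * v - v * y) (-(y * v * y)) x := by
  have hy' : ∀ r, y * (y * r) = 0 := fun r => by rw [← mul_assoc, hy, zero_mul]
  have hv' : ∀ r, v * (v * r) = 0 := fun r => by rw [← mul_assoc, hv, zero_mul]
  unfold T1 T2 T3
  simp only [mul_add, add_mul, mul_sub, sub_mul, mul_neg, neg_mul, mul_assoc, mul_one, one_mul, hy, hv, hy', hv',
    mul_zero, zero_mul, neg_zero, add_zero, zero_add, sub_zero, zero_sub, neg_neg]
  abel

theorem J4 (x : R) : -(y * (T0 v x) * y) = -(T0 v (y * x * y)) - T1 v (y * v - v * y) (x * y - y * x)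
      + T2 v (y * v - v * y) (-(y * v * y)) x := by
  have hy' : ∀ r, y * (y * r) = 0 := fun r => by rw [← mul_assoc, hy, zero_mul]
  have hv' : ∀ r, v * (v * r) = 0 := fun r => by rw [← mul_assoc, hv, zero_mul]
  unfold T0 T1 T2
  simp only [mul_add, add_mul, mul_sub, sub_mul, mul_neg, neg_mul, mul_assoc, mul_one, one_mul, hy, hv, hy', hv',
    mul_zero, zero_mul, neg_zero, add_zero, zero_add, sub_zero, zero_sub, neg_neg]
  abel

theorem J5 (x : R) : -(y * (T1 v (y * v - v * y) x) * y) = T1 v (y * v - v * y) (y * x * y)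
      + T3 (y * v - v * y) (-(y * v * y)) x := by
  have hy' : ∀ r, y * (y * r) = 0 := fun r => by rw [← mul_assoc, hy, zero_mul]
  have hv' : ∀ r, v * (v * r) = 0 := fun r => by rw [← mul_assoc, hv, zero_mul]
  unfold T1 T3
  simp only [mul_add, add_mul, mul_sub, sub_mul, mul_neg, neg_mul, mul_assoc, mul_one, one_mul, hy, hv, hy', hv',
    mul_zero, zero_mul, neg_zero, add_zero, zero_add, sub_zero, zero_sub, neg_neg]
  abel

theorem J6 (x : R) : -(y * (T2 v (y * v - v * y) (-(y * v * y)) x) * y) = T4 (-(y * v * y)) x := by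
  have hy' : ∀ r, y * (y * r) = 0 := fun r => by rw [← mul_assoc, hy, zero_mul]
  have hv' : ∀ r, v * (v * r) = 0 := fun r => by rw [← mul_assoc, hv, zero_mul]
  unfold T2 T4
  simp only [mul_add, add_mul, mul_sub, sub_mul, mul_neg, neg_mul, mul_assoc, mul_one, one_mul, hy, hv, hy', hv',
    mul_zero, zero_mul, neg_zero, add_zero, zero_add, sub_zero, zero_sub, neg_neg]

end ids

theorem T0_add (v a b : R) : T0 v (a + b) = T0 v a + T0 v b := by unfold T0; noncomm_ring
theorem T1_add (v c a b : R) : T1 v c (a + b) = T1 v c a + T1 v c b := by unfold T1; noncomm_ring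
theorem T2_add (v c d a b : R) : T2 v c d (a + b) = T2 v c d a + T2 v c d b := by unfold T2; noncomm_ring
theorem T0_sub (v a b : R) : T0 v (a - b) = T0 v a - T0 v b := by unfold T0; noncomm_ring
theorem T1_sub (v c a b : R) : T1 v c (a - b) = T1 v c a - T1 v c b := by unfold T1; noncomm_ring

/-- (e) -/
theorem Xinf_T0 {X : Submodule K R} {y v : R} (hy : y * y = 0) (hv : v * v = 0)
    (hT : ∀ x ∈ X, T0 v x ∈ X ∧ T1 v (y * v - v * y) x ∈ X ∧ T2 v (y * v - v * y) (-(y * v * y)) x ∈ X ∧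
      T3 (y * v - v * y) (-(y * v * y)) x ∈ X ∧ T4 (-(y * v * y)) x ∈ X)
    {z : R} (hz : z ∈ Xinf X y) : (1 - v) * z * (1 + v) ∈ Xinf X y := by
  obtain ⟨x0, h0, x1, h1, x2, h2, hp, hq, rfl⟩ := hz
  obtain ⟨a00, a10, a20, a30, a40⟩ := hT x0 h0
  obtain ⟨a01, a11, a21, a31, a41⟩ := hT x1 h1
  obtain ⟨a02, a12, a22, a32, a42⟩ := hT x2 h2
  obtain ⟨p0, p1, -, -, -⟩ := hT _ hp
  obtain ⟨q0, q1, -, -, -⟩ := hT _ hq
  have j1 := J1 hy hv x0
  have j1' := J1 hy hv x1
  have j2 := J2 hy hv x1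
  have j2' := J2 hy hv x2
  have j3 := J3 hy hv x2
  have j4 := J4 hy hv x0
  have j5 := J5 hy hv x1
  have j6 := J6 hy hv x2
  set b := y * v - v * y with hb
  set c := -(y * v * y) with hc
  refine ⟨T0 v x0 + T1 v b x1 + T2 v b c x2, X.add_mem (X.add_mem a00 a11) a22,
    T0 v x1 + T1 v b x2, X.add_mem a01 a12, T0 v x2, a02, ?_, ?_, ?_⟩
  · -- `[x0*, y] - y x1* y = T0 p - T1 x0 - T2 x1 - T3 x2`
    have e : (T0 v x0 + T1 v b x1 + T2 v b c x2) * y - y * (T0 v x0 + T1 v b x1 + T2 v b c x2)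
        - y * (T0 v x1 + T1 v b x2) * y
        = T0 v (x0 * y - y * x0 - y * x1 * y) - T1 v b x0 - T2 v b c x1 - T3 b c x2 := by
      have k1 : T0 v x0 * y - y * T0 v x0 = T0 v (x0 * y - y * x0) - T1 v b x0 := by
        have : T0 v (x0 * y - y * x0) = (1 - v) * (x0 * y - y * x0) * (1 + v) := rfl
        rw [this, j1]; abel
      have k2 : T1 v b x1 * y - y * T1 v b x1 - y * T0 v x1 * y = - T0 v (y * x1 * y) - T2 v b c x1 := by
        have : T0 v (y * x1 * y) = (1 - v) * (y * x1 * y) * (1 + v) := rfl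
        rw [this, j2]; abel
      have k3 := j3
      rw [T0_sub]
      calc (T0 v x0 + T1 v b x1 + T2 v b c x2) * y - y * (T0 v x0 + T1 v b x1 + T2 v b c x2)
          - y * (T0 v x1 + T1 v b x2) * y
          = (T0 v x0 * y - y * T0 v x0) + (T1 v b x1 * y - y * T1 v b x1 - y * T0 v x1 * y)
            + (T2 v b c x2 * y - y * T2 v b c x2 - y * T1 v b x2 * y) := by noncomm_ring
        _ = _ := by rw [k1, k2, k3]; abel
    rw [e]
    exact X.sub_mem (X.sub_mem (X.sub_mem p0 a10) a21) a32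
  · have e : y * (T0 v x0 + T1 v b x1 + T2 v b c x2) * y
        = T0 v (y * x0 * y) + T1 v b (x0 * y - y * x0 - y * x1 * y) - T2 v b c x0 - T3 b c x1 - T4 c x2 := by
      have k1 : y * T0 v x0 * y = T0 v (y * x0 * y) + T1 v b (x0 * y - y * x0) - T2 v b c x0 := by
        have : y * T0 v x0 * y = - (-(y * T0 v x0 * y)) := (neg_neg _).symm
        rw [this, j4]; abel
      have k2 : y * T1 v b x1 * y = - T1 v b (y * x1 * y) - T3 b c x1 := by
        have : y * T1 v b x1 * y = - (-(y * T1 v b x1 * y)) := (neg_neg _).symm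
        rw [this, j5]; abel
      have k3 : y * T2 v b c x2 * y = - T4 c x2 := by
        have : y * T2 v b c x2 * y = - (-(y * T2 v b c x2 * y)) := (neg_neg _).symm
        rw [this, j6]
      rw [T1_sub]
      calc y * (T0 v x0 + T1 v b x1 + T2 v b c x2) * y
          = y * T0 v x0 * y + y * T1 v b x1 * y + y * T2 v b c x2 * y := by noncomm_ring
        _ = _ := by rw [k1, k2, k3]; abel
    rw [e]
    exact X.sub_mem (X.sub_mem (X.sub_mem (X.add_mem q0 p1) a20) a31) a42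
  · calc (1 - v) * (x0 + (x1 * y - y * x1) - y * x2 * y) * (1 + v)
        = (1 - v) * x0 * (1 + v) + (1 - v) * (x1 * y - y * x1) * (1 + v) + -((1 - v) * (y * x2 * y) * (1 + v)) := by
          noncomm_ring
      _ = T0 v x0 + (T1 v b x1 + T0 v x1 * y - y * T0 v x1)
          + (T2 v b c x2 + T1 v b x2 * y - y * T1 v b x2 - y * T0 v x2 * y) := by
          rw [j1', j2']; rfl
      _ = _ := by noncomm_ring

/-- from `±` to the commutator: `[x, z] ∈ X` if `(1 ∓ z) x (1 ± z) ∈ X` -/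
theorem comm_mem {X : Submodule K R} (h2 : (2 : K) ≠ 0) {x z : R}
    (h : (1 - z) * x * (1 + z) ∈ X) (h' : (1 + z) * x * (1 - z) ∈ X) : x * z - z * x ∈ X := by
  have k2 : ((2 : ℕ) : K) ≠ 0 := by simpa using h2
  refine mem_of_nsmul_mem 2 k2 ?_
  have : 2 • (x * z - z * x) = (1 - z) * x * (1 + z) - (1 + z) * x * (1 - z) := by noncomm_ring
  rw [this]; exact X.sub_mem h h'

/-- coefficient extraction of degree two -/
theorem coeff2 {X : Submodule K R} (h2 : (2 : K) ≠ 0) {a b c : R}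
    (f0 : a ∈ X) (f1 : a + b + c ∈ X) (f1' : a - b + c ∈ X) : b ∈ X ∧ c ∈ X := by
  have k2 : ((2 : ℕ) : K) ≠ 0 := by simpa using h2
  have hc : c ∈ X := by
    refine mem_of_nsmul_mem 2 k2 ?_
    have : 2 • c = (a + b + c) + (a - b + c) - 2 • a := by abel
    rw [this]; exact X.sub_mem (X.add_mem f1 f1') (X.nsmul_mem f0 2)
  refine ⟨?_, hc⟩
  have : b = (a + b + c) - a - c := by abel
  rw [this]; exact X.sub_mem (X.sub_mem f1 f0) hc

/-- the triple product relation -/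
theorem triple {X : Submodule K R} (h2 : (2 : K) ≠ 0) {y : R} 
    (hX : ∀ a ∈ X, ∀ b ∈ X, a * b = 0)
    (hN : ∀ v ∈ X, ∀ x ∈ X, 
      ((1 - (v + (y * v - v * y) + -(y * v * y))) * x * (1 + (v + (y * v - v * y) + -(y * v * y))) ∈ X) ∧
      ((1 - (v - (y * v - v * y) + -(y * v * y))) * x * (1 + (v - (y * v - v * y) + -(y * v * y))) ∈ X)) :
    ∀ a ∈ X, ∀ b ∈ X, ∀ c ∈ X, a * y * b * y * c = 0 := by
  intro a ha v hv x hx
  obtain ⟨n1, n2⟩ := hN v hv x hx
  obtain ⟨m1, m2⟩ := hN (-v) (X.neg_mem hv) x hx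
  have c1 : x * (v + (y * v - v * y) + -(y * v * y)) - (v + (y * v - v * y) + -(y * v * y)) * x ∈ X := by
    apply comm_mem h2 n1
    convert m1 using 1
    noncomm_ring
  have c2 : x * (v - (y * v - v * y) + -(y * v * y)) - (v - (y * v - v * y) + -(y * v * y)) * x ∈ X := by
    apply comm_mem h2 n2
    convert m2 using 1
    noncomm_ring
  have c0 : x * v - v * x ∈ X := by
    rw [hX x hx v hv, hX v hv x hx, sub_zero]; exact X.zero_mem
  have hc : x * (-(y * v * y)) - (-(y * v * y)) * x ∈ X := by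
    refine (coeff2 (X := X) h2 (a := x * v - v * x)
      (b := x * (y * v - v * y) - (y * v - v * y) * x) c0 ?_ ?_).2
    · convert c1 using 1
      noncomm_ring
    · convert c2 using 1
      noncomm_ring
  have := hX a ha _ hc
  have e : a * (x * (-(y * v * y)) - (-(y * v * y)) * x) = - (a * x * (y * v * y)) + a * y * v * y * x := by
    noncomm_ring
  rw [e, hX a ha x hx, zero_mul, neg_zero, zero_add] at this
  exact this

end Cfsg.Agent.Lib.QOffA
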