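import Cfsg.Agent.Lib.QOffB

/-!
The degeneration stays inside the group.
-/

set_option autoImplicit false
set_option linter.unusedSimpArgs false

namespace Cfsg.Agent.Lib.QOffA

variable {K R : Type*} [Field K] [Ring R] [Algebra K R]

theorem trip {a b c y : R} (hy : y * y = 0) (hab : a * b = 0) (hbc : b * c = 0)
    (h5 : a * y * b * y * c = 0) (e f g : K) :
    ((1 - e • y) * a * (1 + e • y)) * (((1 - f • y) * b * (1 + f • y)) * ((1 - g • y) * c * (1 + g • y))) = 0 := by
  have h1 : ∀ (e f : K) (a b : R), a * b = 0 →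
      (a * (1 + e • y)) * ((1 - f • y) * b) = (e - f) • (a * y * b) := by
    intro e f a b hab
    have hab' : ∀ r, a * (b * r) = 0 := fun r => by rw [← mul_assoc, hab, zero_mul]
    have hy' : ∀ r, y * (y * r) = 0 := fun r => by rw [← mul_assoc, hy, zero_mul]
    simp only [mul_add, add_mul, mul_sub, sub_mul, smul_mul_assoc, mul_smul_comm, mul_assoc, mul_one, one_mul,
      hab, hy', mul_zero, smul_zero, zero_add, sub_zero, sub_smul, smul_sub]
    abel
  have e1 : ((1 - e • y) * a * (1 + e • y)) * (((1 - f • y) * b * (1 + f • y)) * ((1 - g • y) * c * (1 + g • y)))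
      = (1 - e • y) * ((a * (1 + e • y)) * ((1 - f • y) * b)) * ((1 + f • y) * (1 - g • y)) * c * (1 + g • y) := by
    noncomm_ring
  rw [e1, h1 e f a b hab]
  have e2 : (1 - e • y) * ((e - f) • (a * y * b)) * ((1 + f • y) * (1 - g • y)) * c * (1 + g • y)
      = (e - f) • ((1 - e • y) * (a * y) * ((b * (1 + f • y)) * ((1 - g • y) * c)) * (1 + g • y)) := by
    simp only [smul_mul_assoc, mul_smul_comm, mul_assoc]
  rw [e2, h1 f g b c hbc]
  have e3 : (1 - e • y) * (a * y) * ((f - g) • (b * y * c)) * (1 + g • y)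
      = (f - g) • ((1 - e • y) * (a * y * b * y * c) * (1 + g • y)) := by
    simp only [smul_mul_assoc, mul_smul_comm, mul_assoc]
  rw [e3, h5]
  simp

theorem one_add_pow {c : R} (hc : c * c = 0) (k : ℕ) : (1 + c) ^ k = 1 + k • c := by
  induction k with
  | zero => simp
  | succ n ih =>
    rw [pow_succ, ih, add_smul, one_smul]
    simp only [mul_add, add_mul, mul_one, one_mul, smul_mul_assoc, hc, smul_zero, add_zero]
    abel

theorem sum_mem_aux (P : Submonoid R) (s : Fin 3 → R) (h3 : ∀ i j k, s i * (s j * s k) = 0)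
    (h2 : ∀ i, s i * s i = 0) (hz : (s 0 + s 1 + s 2) * (s 0 + s 1 + s 2) = 0)
    (hp : ∀ i, 1 + s i ∈ P) (hm : ∀ i, 1 - s i ∈ P) (k : ℕ) (hk : ∀ r : R, (2 * k + 1) • r = 0) :
    1 + (s 0 + s 1 + s 2) ∈ P := by
  have h3' : ∀ i j k r, s i * (s j * (s k * r)) = 0 := fun i j k r => by
    have : s i * (s j * (s k * r)) = s i * (s j * s k) * r := by noncomm_ring
    rw [this, h3, zero_mul]
  have hc : ∀ i j, 1 + k • (s i * s j - s j * s i) ∈ P := by
    intro i j
    have e1 : (1 + s i) * (1 + s j) * (1 - s i) * (1 - s j) = 1 + (s i * s j - s j * s i) := by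
      simp only [mul_add, add_mul, mul_sub, sub_mul, mul_assoc, mul_one, one_mul, h3, h3', h2, mul_zero,
        zero_add, add_zero, sub_zero, zero_sub]
      abel
    have e2 : (s i * s j - s j * s i) * (s i * s j - s j * s i) = 0 := by
      simp only [mul_add, add_mul, mul_sub, sub_mul, mul_assoc, h3, h3', h2, mul_zero,
        zero_add, add_zero, sub_zero, zero_sub]
    rw [← one_add_pow e2, ← e1]
    exact P.pow_mem (P.mul_mem (P.mul_mem (P.mul_mem (hp i) (hp j)) (hm i)) (hm j)) k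
  have hQ : (s 0 * s 1 + s 0 * s 2 + s 1 * s 2) + (s 1 * s 0 + s 2 * s 0 + s 2 * s 1) = 0 := by
    rw [← hz]
    simp only [mul_add, add_mul, h2]
    abel
  have key : 1 + (s 0 + s 1 + s 2) = (1 + s 0) * (1 + s 1) * (1 + s 2) *
      ((1 + k • (s 0 * s 1 - s 1 * s 0)) * (1 + k • (s 0 * s 2 - s 2 * s 0)) * (1 + k • (s 1 * s 2 - s 2 * s 1))) := by
    have e1 : (1 + k • (s 0 * s 1 - s 1 * s 0)) * (1 + k • (s 0 * s 2 - s 2 * s 0)) * (1 + k • (s 1 * s 2 - s 2 * s 1))
        = 1 + (2 * k) • (s 0 * s 1 + s 0 * s 2 + s 1 * s 2) := by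
      have hsum : k • (s 0 * s 1 - s 1 * s 0) + k • (s 0 * s 2 - s 2 * s 0) + k • (s 1 * s 2 - s 2 * s 1)
          = (2 * k) • (s 0 * s 1 + s 0 * s 2 + s 1 * s 2) := by
        have : s 1 * s 0 + s 2 * s 0 + s 2 * s 1 = -(s 0 * s 1 + s 0 * s 2 + s 1 * s 2) := by
          rw [eq_neg_iff_add_eq_zero, add_comm]; exact hQ
        rw [← smul_add, ← smul_add]
        have e : s 0 * s 1 - s 1 * s 0 + (s 0 * s 2 - s 2 * s 0) + (s 1 * s 2 - s 2 * s 1)
            = (s 0 * s 1 + s 0 * s 2 + s 1 * s 2) - (s 1 * s 0 + s 2 * s 0 + s 2 * s 1) := by abel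
        rw [e, this, sub_neg_eq_add, ← two_nsmul, smul_smul, mul_comm]
      rw [← hsum]
      simp only [mul_add, add_mul, mul_sub, sub_mul, smul_mul_assoc, mul_smul_comm, mul_assoc, mul_one, one_mul,
        h3, h3', h2, mul_zero, smul_zero, zero_add, add_zero, sub_zero, zero_sub, smul_sub]
      abel
    rw [e1]
    have e2 : (1 + s 0) * (1 + s 1) * (1 + s 2) * (1 + (2 * k) • (s 0 * s 1 + s 0 * s 2 + s 1 * s 2))
        = 1 + (s 0 + s 1 + s 2) + (2 * k + 1) • (s 0 * s 1 + s 0 * s 2 + s 1 * s 2) := by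
      rw [add_smul, one_smul]
      simp only [mul_add, add_mul, mul_sub, sub_mul, smul_mul_assoc, mul_smul_comm, mul_assoc, mul_one, one_mul,
        h3, h3', h2, mul_zero, smul_zero, zero_add, add_zero, sub_zero, zero_sub, smul_add]
      abel
    rw [e2, hk, add_zero]
  rw [key]
  exact P.mul_mem (P.mul_mem (P.mul_mem (hp 0) (hp 1)) (hp 2))
    (P.mul_mem (P.mul_mem (hc 0 1) (hc 0 2)) (hc 1 2))

/-- (f) -/
theorem Xinf_mem {X : Submodule K R} {y : R} (P : Submonoid R) (h2 : (2 : K) ≠ 0) (hy : y * y = 0)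
    (hX : ∀ a ∈ X, ∀ b ∈ X, a * b = 0) (ht : ∀ a ∈ X, ∀ b ∈ X, ∀ c ∈ X, a * y * b * y * c = 0)
    (hP : ∀ x ∈ X, 1 + x ∈ P) (hp : 1 + y ∈ P) (hm : 1 - y ∈ P) (k : ℕ) (hk : ∀ r : R, (2 * k + 1) • r = 0)
    {z : R} (hz : z ∈ Xinf X y) : 1 + z ∈ P := by
  have hzz : z * z = 0 := Xinf_mul hy hX hz hz
  obtain ⟨x0, h0, x1, h1, x2, h2', hpp, hq, rfl⟩ := hz
  set r : R := (2 : K)⁻¹ • (x1 + x2) with hr
  set r' : R := (2 : K)⁻¹ • (x2 - x1) with hr'
  have mr : r ∈ X := X.smul_mem _ (X.add_mem h1 h2')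
  have mr' : r' ∈ X := X.smul_mem _ (X.sub_mem h2' h1)
  have er : r + r' = x2 := by
    rw [hr, hr', ← smul_add]
    have : x1 + x2 + (x2 - x1) = (2 : K) • x2 := by rw [two_smul]; abel
    rw [this, smul_smul, inv_mul_cancel₀ h2, one_smul]
  have er' : r - r' = x1 := by
    rw [hr, hr', ← smul_sub]
    have : x1 + x2 - (x2 - x1) = (2 : K) • x1 := by rw [two_smul]; abel
    rw [this, smul_smul, inv_mul_cancel₀ h2, one_smul]
  -- the three pieces as members of a family
  let e : Fin 3 → K := ![0, 1, -1]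
  let a : Fin 3 → R := ![x0 - x2, r, r']
  have ma : ∀ i, a i ∈ X := by
    intro i; fin_cases i
    · exact X.sub_mem h0 h2'
    · exact mr
    · exact mr'
  let s : Fin 3 → R := fun i => (1 - e i • y) * a i * (1 + e i • y)
  have hs0 : s 0 = x0 - x2 := by
    show (1 - (0 : K) • y) * (x0 - x2) * (1 + (0 : K) • y) = _
    simp
  have hs1 : s 1 = (1 - y) * r * (1 + y) := by
    show (1 - (1 : K) • y) * r * (1 + (1 : K) • y) = _
    simp
  have hs2 : s 2 = (1 + y) * r' * (1 - y) := by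
    show (1 - (-1 : K) • y) * r' * (1 + (-1 : K) • y) = _
    simp [sub_eq_add_neg]
  have hsum : s 0 + s 1 + s 2 = x0 + (x1 * y - y * x1) - y * x2 * y := by
    rw [hs0, hs1, hs2, ← er, ← er']
    noncomm_ring
  have hinv : ∀ t : K, (1 + t • y) * (1 - t • y) = 1 := by
    intro t
    simp only [mul_add, add_mul, mul_sub, sub_mul, smul_mul_assoc, mul_smul_comm, mul_one, one_mul, hy, smul_zero]
    abel
  rw [← hsum]
  refine sum_mem_aux P s ?_ ?_ ?_ ?_ ?_ k hk
  · intro i j l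
    exact trip hy (hX _ (ma i) _ (ma j)) (hX _ (ma j) _ (ma l)) (ht _ (ma i) _ (ma j) _ (ma l)) _ _ _
  · intro i
    have : s i * s i = (1 - e i • y) * a i * ((1 + e i • y) * (1 - e i • y)) * a i * (1 + e i • y) := by
      show ((1 - e i • y) * a i * (1 + e i • y)) * ((1 - e i • y) * a i * (1 + e i • y)) = _
      noncomm_ring
    rw [this, hinv, mul_one, mul_assoc (1 - e i • y), hX _ (ma i) _ (ma i), mul_zero, zero_mul]
  · rw [hsum]; exact hzz
  · intro i
    fin_cases i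
    · show 1 + s 0 ∈ P
      rw [hs0]; exact hP _ (X.sub_mem h0 h2')
    · show 1 + s 1 ∈ P
      have : 1 + s 1 = (1 - y) * (1 + r) * (1 + y) := by
        rw [hs1]
        have : (1 - y) * (1 + r) * (1 + y) = 1 - y * y + (1 - y) * r * (1 + y) := by noncomm_ring
        rw [this, hy, sub_zero]
      rw [this]
      exact P.mul_mem (P.mul_mem hm (hP _ mr)) hp
    · show 1 + s 2 ∈ P
      have : 1 + s 2 = (1 + y) * (1 + r') * (1 - y) := by
        rw [hs2]
        have : (1 + y) * (1 + r') * (1 - y) = 1 - y * y + (1 + y) * r' * (1 - y) := by noncomm_ring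
        rw [this, hy, sub_zero]
      rw [this]
      exact P.mul_mem (P.mul_mem hp (hP _ mr')) hm
  · intro i
    fin_cases i
    · show 1 - s 0 ∈ P
      rw [hs0, sub_eq_add_neg]; exact hP _ (X.neg_mem (X.sub_mem h0 h2'))
    · show 1 - s 1 ∈ P
      have : 1 - s 1 = (1 - y) * (1 + -r) * (1 + y) := by
        rw [hs1]
        have : (1 - y) * (1 + -r) * (1 + y) = 1 - y * y - (1 - y) * r * (1 + y) := by noncomm_ring
        rw [this, hy, sub_zero]
      rw [this]
      exact P.mul_mem (P.mul_mem hm (hP _ (X.neg_mem mr))) hp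
    · show 1 - s 2 ∈ P
      have : 1 - s 2 = (1 + y) * (1 + -r') * (1 - y) := by
        rw [hs2]
        have : (1 + y) * (1 + -r') * (1 - y) = 1 - y * y - (1 + y) * r' * (1 - y) := by noncomm_ring
        rw [this, hy, sub_zero]
      rw [this]
      exact P.mul_mem (P.mul_mem hp (hP _ (X.neg_mem mr'))) hm

end Cfsg.Agent.Lib.QOffA
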