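import Cfsg.Agent.Lib.QOffC

/-!
Quadratic offenders of a `p`-group, `p ≥ 5`: one of them is normalised by all quadratic elements.
-/

set_option autoImplicit false
set_option linter.unusedSimpArgs false

namespace Cfsg.Agent.Lib.QOffA

variable {p : ℕ} [Fact p.Prime] {M : Type*} [AddCommGroup M] [Module (ZMod p) M]
  {G : Type*} [Group G] (ρ : G →* Module.End (ZMod p) M)

structure Off (X : Submodule (ZMod p) (Module.End (ZMod p) M)) : Prop where
  ne : X ≠ ⊥
  sq : ∀ a ∈ X, ∀ b ∈ X, a * b = 0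
  mem : ∀ x ∈ X, 1 + x ∈ MonoidHom.mrange ρ
  card : Nat.card M ≤ Nat.card X * Nat.card (cent X)

def Nz (X : Submodule (ZMod p) (Module.End (ZMod p) M)) : Subgroup G where
  carrier := {g | (∀ x ∈ X, ρ g⁻¹ * x * ρ g ∈ X) ∧ (∀ x ∈ X, ρ g * x * ρ g⁻¹ ∈ X)}
  one_mem' := by
    constructor <;> intro x hx <;> simpa using hx
  mul_mem' := by
    rintro g h ⟨g1, g2⟩ ⟨h1, h2⟩
    constructor
    · intro x hx
      have := h1 _ (g1 x hx)
      convert this using 1
      rw [mul_inv_rev, map_mul, map_mul]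
      simp only [mul_assoc]
    · intro x hx
      have := g2 _ (h2 x hx)
      convert this using 1
      rw [mul_inv_rev, map_mul, map_mul]
      simp only [mul_assoc]
  inv_mem' := by
    rintro g ⟨g1, g2⟩
    refine ⟨?_, ?_⟩
    · intro x hx; rw [inv_inv]; exact g2 x hx
    · intro x hx; rw [inv_inv]; exact g1 x hx

theorem mem_Nz {X : Submodule (ZMod p) (Module.End (ZMod p) M)} {g : G} :
    g ∈ Nz ρ X ↔ (∀ x ∈ X, ρ g⁻¹ * x * ρ g ∈ X) ∧ (∀ x ∈ X, ρ g * x * ρ g⁻¹ ∈ X) := Iff.rfl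

def UU : Set G := {g | (ρ g - 1) * (ρ g - 1) = 0}

theorem rho_inv {g : G} (hg : g ∈ UU ρ) : ρ g⁻¹ = 1 - (ρ g - 1) := by
  have h1 : ρ g⁻¹ * ρ g = 1 := by rw [← map_mul, inv_mul_cancel, map_one]
  have h2 : ρ g * (1 - (ρ g - 1)) = 1 := by
    have h : (ρ g - 1) * (ρ g - 1) = 0 := hg
    have e : ρ g * (1 - (ρ g - 1)) = 1 - (ρ g - 1) * (ρ g - 1) := by noncomm_ring
    rw [e, h, sub_zero]
  calc ρ g⁻¹ = ρ g⁻¹ * (ρ g * (1 - (ρ g - 1))) := by rw [h2, mul_one]
    _ = 1 - (ρ g - 1) := by rw [← mul_assoc, h1, one_mul]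

theorem inv_mem_UU {g : G} (hg : g ∈ UU ρ) : g⁻¹ ∈ UU ρ := by
  show (ρ g⁻¹ - 1) * (ρ g⁻¹ - 1) = 0
  rw [rho_inv ρ hg]
  have h : (ρ g - 1) * (ρ g - 1) = 0 := hg
  have : (1 - (ρ g - 1) - 1) * (1 - (ρ g - 1) - 1) = (ρ g - 1) * (ρ g - 1) := by noncomm_ring
  rw [this, h]

theorem conj_mem_UU {g : G} (hg : g ∈ UU ρ) (h : G) : h * g * h⁻¹ ∈ UU ρ := by
  show (ρ (h * g * h⁻¹) - 1) * (ρ (h * g * h⁻¹) - 1) = 0
  have h1 : ρ h * ρ h⁻¹ = 1 := by rw [← map_mul, mul_inv_cancel, map_one]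
  have h1' : ρ h⁻¹ * ρ h = 1 := by rw [← map_mul, inv_mul_cancel, map_one]
  have e : ρ (h * g * h⁻¹) - 1 = ρ h * (ρ g - 1) * ρ h⁻¹ := by
    rw [map_mul, map_mul, mul_sub, sub_mul, mul_one, h1]
  rw [e]
  have hg' : (ρ g - 1) * (ρ g - 1) = 0 := hg
  calc ρ h * (ρ g - 1) * ρ h⁻¹ * (ρ h * (ρ g - 1) * ρ h⁻¹)
      = ρ h * ((ρ g - 1) * (ρ h⁻¹ * ρ h) * (ρ g - 1)) * ρ h⁻¹ := by noncomm_ring
    _ = 0 := by rw [h1', mul_one, hg', mul_zero, zero_mul]

def WW (X : Submodule (ZMod p) (Module.End (ZMod p) M)) : Subgroup G :=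
  Subgroup.closure (UU ρ ∩ (Nz ρ X : Set G))

theorem WW_le (X : Submodule (ZMod p) (Module.End (ZMod p) M)) : WW ρ X ≤ Nz ρ X :=
  (Subgroup.closure_le _).2 Set.inter_subset_right

variable [Finite M]

instance : Finite (Module.End (ZMod p) M) := Finite.of_injective (fun f => (f : M → M)) DFunLike.coe_injective

/-- the step -/
theorem step (hp : 5 ≤ p) {X : Submodule (ZMod p) (Module.End (ZMod p) M)} (hX : Off ρ X)
    {u : G} (hu : u ∈ UU ρ) (hun : u ∉ Nz ρ X)
    (huW : ∀ w ∈ WW ρ X, u * w * u⁻¹ ∈ WW ρ X ∧ u⁻¹ * w * u ∈ WW ρ X) :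
    ∃ X' : Submodule (ZMod p) (Module.End (ZMod p) M), Off ρ X' ∧ WW ρ X < WW ρ X' := by
  have h2 : (2 : ZMod p) ≠ 0 := by
    intro h
    have : ((2 : ℕ) : ZMod p) = 0 := by exact_mod_cast h
    rw [ZMod.natCast_eq_zero_iff] at this
    exact absurd (Nat.le_of_dvd (by norm_num) this) (by omega)
  have h3 : (3 : ZMod p) ≠ 0 := by
    intro h
    have : ((3 : ℕ) : ZMod p) = 0 := by exact_mod_cast h
    rw [ZMod.natCast_eq_zero_iff] at this
    exact absurd (Nat.le_of_dvd (by norm_num) this) (by omega)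
  set y := ρ u - 1 with hy
  have hyy : y * y = 0 := hu
  have hru : ρ u = 1 + y := by rw [hy]; abel
  have hru' : ρ u⁻¹ = 1 - y := rho_inv ρ hu
  -- generic fact for elements of `W`
  have hgen : ∀ g ∈ WW ρ X, ∀ x ∈ X, ρ g⁻¹ * x * ρ g ∈ X := fun g hg => (WW_le ρ X hg).1
  have hcoef : ∀ w, w ∈ UU ρ → w ∈ Nz ρ X → ∀ x ∈ X, T0 (ρ w - 1) x ∈ X ∧
      T1 (ρ w - 1) (y * (ρ w - 1) - (ρ w - 1) * y) x ∈ X ∧
      T2 (ρ w - 1) (y * (ρ w - 1) - (ρ w - 1) * y) (-(y * (ρ w - 1) * y)) x ∈ X ∧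
      T3 (y * (ρ w - 1) - (ρ w - 1) * y) (-(y * (ρ w - 1) * y)) x ∈ X ∧
      T4 (-(y * (ρ w - 1) * y)) x ∈ X := by
    intro w hw hwN
    have hwW : w ∈ WW ρ X := Subgroup.subset_closure ⟨hw, hwN⟩
    set v := ρ w - 1 with hv
    have hrw : ρ w = 1 + v := by rw [hv]; abel
    have hrw' : ρ w⁻¹ = 1 - v := rho_inv ρ hw
    have m1 := (huW w hwW).1
    have m1' := (huW w hwW).2
    have m2 := (huW _ m1).1
    have m2' := (huW _ m1').2
    have z1 : ρ (u * w * u⁻¹) = 1 + (v + (y * v - v * y) + -(y * v * y)) := by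
      rw [map_mul, map_mul, hru, hrw, hru']
      have : (1 + y) * (1 + v) * (1 - y) = 1 + (v + (y * v - v * y) + -(y * v * y)) - y * y := by noncomm_ring
      rw [this, hyy, sub_zero]
    have z1i : ρ (u * w * u⁻¹)⁻¹ = 1 - (v + (y * v - v * y) + -(y * v * y)) := by
      have : (u * w * u⁻¹)⁻¹ = u * w⁻¹ * u⁻¹ := by group
      rw [this, map_mul, map_mul, hru, hrw', hru']
      have : (1 + y) * (1 - v) * (1 - y) = 1 - (v + (y * v - v * y) + -(y * v * y)) - y * y := by noncomm_ring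
      rw [this, hyy, sub_zero]
    have z1' : ρ (u⁻¹ * w * u) = 1 + (v - (y * v - v * y) + -(y * v * y)) := by
      rw [map_mul, map_mul, hru, hrw, hru']
      have : (1 - y) * (1 + v) * (1 + y) = 1 + (v - (y * v - v * y) + -(y * v * y)) - y * y := by noncomm_ring
      rw [this, hyy, sub_zero]
    have z1i' : ρ (u⁻¹ * w * u)⁻¹ = 1 - (v - (y * v - v * y) + -(y * v * y)) := by
      have : (u⁻¹ * w * u)⁻¹ = u⁻¹ * w⁻¹ * u := by group
      rw [this, map_mul, map_mul, hru, hrw', hru']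
      have : (1 - y) * (1 - v) * (1 + y) = 1 - (v - (y * v - v * y) + -(y * v * y)) - y * y := by noncomm_ring
      rw [this, hyy, sub_zero]
    have hyr : ∀ r, y * (y * r) = 0 := fun r => by rw [← mul_assoc, hyy, zero_mul]
    have z2 : ρ (u * (u * w * u⁻¹) * u⁻¹) = 1 + (v + 2 • (y * v - v * y) + 4 • -(y * v * y)) := by
      rw [map_mul, map_mul, z1, hru, hru']
      simp only [mul_add, add_mul, mul_sub, sub_mul, mul_neg, neg_mul, mul_assoc, mul_one, one_mul, hyy, hyr,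
        mul_zero, zero_mul, neg_zero, add_zero, zero_add, sub_zero, zero_sub]
      abel
    have z2i : ρ (u * (u * w * u⁻¹) * u⁻¹)⁻¹ = 1 - (v + 2 • (y * v - v * y) + 4 • -(y * v * y)) := by
      have : (u * (u * w * u⁻¹) * u⁻¹)⁻¹ = u * (u * w * u⁻¹)⁻¹ * u⁻¹ := by
        simp only [mul_inv_rev, inv_inv, mul_assoc]
      rw [this, map_mul, map_mul, z1i, hru, hru']
      simp only [mul_add, add_mul, mul_sub, sub_mul, mul_neg, neg_mul, mul_assoc, mul_one, one_mul, hyy, hyr,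
        mul_zero, zero_mul, neg_zero, add_zero, zero_add, sub_zero, zero_sub]
      abel
    have z2' : ρ (u⁻¹ * (u⁻¹ * w * u) * u) = 1 + (v - 2 • (y * v - v * y) + 4 • -(y * v * y)) := by
      rw [map_mul, map_mul, z1', hru, hru']
      simp only [mul_add, add_mul, mul_sub, sub_mul, mul_neg, neg_mul, mul_assoc, mul_one, one_mul, hyy, hyr,
        mul_zero, zero_mul, neg_zero, add_zero, zero_add, sub_zero, zero_sub]
      abel
    have z2i' : ρ (u⁻¹ * (u⁻¹ * w * u) * u)⁻¹ = 1 - (v - 2 • (y * v - v * y) + 4 • -(y * v * y)) := by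
      have : (u⁻¹ * (u⁻¹ * w * u) * u)⁻¹ = u⁻¹ * (u⁻¹ * w * u)⁻¹ * u := by
        simp only [mul_inv_rev, inv_inv, mul_assoc]
      rw [this, map_mul, map_mul, z1i', hru, hru']
      simp only [mul_add, add_mul, mul_sub, sub_mul, mul_neg, neg_mul, mul_assoc, mul_one, one_mul, hyy, hyr,
        mul_zero, zero_mul, neg_zero, add_zero, zero_add, sub_zero, zero_sub]
      abel
    refine coeffs h2 h3 ?_ ?_ ?_ ?_ ?_
    · intro x hx
      have := hgen w hwW x hx
      rw [hrw, hrw'] at this; exact this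
    · intro x hx
      have := hgen _ m1 x hx
      rw [z1, z1i] at this; exact this
    · intro x hx
      have := hgen _ m1' x hx
      rw [z1', z1i'] at this; exact this
    · intro x hx
      have := hgen _ m2 x hx
      rw [z2, z2i] at this; exact this
    · intro x hx
      have := hgen _ m2' x hx
      rw [z2', z2i'] at this; exact this
  -- members of `U ∩ N(X)` normalise `Xinf`
  have hfor : ∀ w, w ∈ UU ρ → w ∈ Nz ρ X → ∀ z ∈ Xinf X y, ρ w⁻¹ * z * ρ w ∈ Xinf X y := by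
    intro w hw hwN z hz
    have := Xinf_T0 hyy hw (hcoef w hw hwN) hz
    rw [rho_inv ρ hw]
    convert this using 2
    abel
  have hboth : UU ρ ∩ (Nz ρ X : Set G) ⊆ UU ρ ∩ (Nz ρ (Xinf X y) : Set G) := by
    rintro w ⟨hw, hwN⟩
    refine ⟨hw, hfor w hw hwN, ?_⟩
    intro z hz
    have := hfor w⁻¹ (inv_mem_UU ρ hw) ((Nz ρ X).inv_mem hwN) z hz
    rwa [inv_inv] at this
  have huN : u ∈ Nz ρ (Xinf X y) := by
    refine ⟨?_, ?_⟩
    · intro z hz
      rw [hru, hru']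
      exact (Xinf_conj hyy hz).1
    · intro z hz
      rw [hru, hru']
      exact (Xinf_conj hyy hz).2
  -- elements of `1 + X`
  have hone : ∀ x ∈ X, ∃ w : G, w ∈ UU ρ ∧ w ∈ Nz ρ X ∧ ρ w = 1 + x := by
    intro x hx
    obtain ⟨w, hw⟩ := hX.mem x hx
    have hwU : w ∈ UU ρ := by
      show (ρ w - 1) * (ρ w - 1) = 0
      rw [hw, add_sub_cancel_left]; exact hX.sq x hx x hx
    have hwi : ρ w⁻¹ = 1 - x := by rw [rho_inv ρ hwU, hw, add_sub_cancel_left]
    refine ⟨w, hwU, ⟨?_, ?_⟩, hw⟩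
    · intro a ha
      rw [hw, hwi]
      have : (1 - x) * a * (1 + x) = a + a * x - x * a - x * a * x := by noncomm_ring
      rw [this, hX.sq a ha x hx, hX.sq x hx a ha]
      simpa using ha
    · intro a ha
      rw [hw, hwi]
      have : (1 + x) * a * (1 - x) = a - a * x + x * a - x * a * x := by noncomm_ring
      rw [this, hX.sq a ha x hx, hX.sq x hx a ha]
      simpa using ha
  have htr : ∀ a ∈ X, ∀ b ∈ X, ∀ c ∈ X, a * y * b * y * c = 0 := by
    refine triple h2 hX.sq ?_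
    intro v hv x hx
    obtain ⟨w, hw, hwN, hrw⟩ := hone v hv
    have hv' : ρ w - 1 = v := by rw [hrw, add_sub_cancel_left]
    obtain ⟨t0, t1, t2, t3, t4⟩ := hcoef w hw hwN x hx
    rw [hv'] at t0 t1 t2 t3 t4
    constructor
    · rw [conj_expand1]
      exact X.add_mem (X.add_mem (X.add_mem (X.add_mem t0 t1) t2) t3) t4
    · rw [conj_expand1']
      exact X.add_mem (X.sub_mem (X.add_mem (X.sub_mem t0 t1) t2) t3) t4
  refine ⟨Xinf X y, ⟨?_, ?_, ?_, ?_⟩, ?_⟩
  · intro hbot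
    have h1 := card_le_Xinf (X := X) hyy
    rw [hbot] at h1
    have h2 : Nat.card (⊥ : Submodule (ZMod p) (Module.End (ZMod p) M)) = 1 := Nat.card_unique
    rw [h2] at h1
    apply hX.ne
    haveI : Subsingleton X := (Finite.card_le_one_iff_subsingleton).1 h1
    exact (Submodule.subsingleton_iff_eq_bot).1 this
  · intro a ha b hb
    exact Xinf_mul hyy hX.sq ha hb
  · intro z hz
    have hpodd : p % 2 = 1 := by
      have := (Fact.out : p.Prime).eq_two_or_odd
      omega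
    refine Xinf_mem (MonoidHom.mrange ρ) h2 hyy hX.sq htr hX.mem ⟨u, hru⟩ ⟨u⁻¹, hru'⟩ ((p - 1) / 2) ?_ hz
    intro r
    have : 2 * ((p - 1) / 2) + 1 = p := by omega
    rw [this, ← Nat.cast_smul_eq_nsmul (ZMod p) p r, CharP.cast_eq_zero, zero_smul]
  · exact hX.card.trans (Nat.mul_le_mul (card_le_Xinf hyy) (card_cent_le hyy))
  · refine lt_of_le_of_ne (Subgroup.closure_mono hboth) ?_
    intro heq
    have h1 : u ∈ WW ρ (Xinf X y) := Subgroup.subset_closure ⟨hu, huN⟩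
    rw [← heq] at h1
    exact hun (WW_le ρ X h1)

/-- **Lynd** : some quadratic offender is normalised by all quadratic elements. -/
theorem exists_normalised [Finite G] (hG : IsPGroup p G) (hp : 5 ≤ p)
    (h : ∃ X : Submodule (ZMod p) (Module.End (ZMod p) M), Off ρ X) :
    ∃ X : Submodule (ZMod p) (Module.End (ZMod p) M), Off ρ X ∧ ∀ u ∈ UU ρ, u ∈ Nz ρ X := by
  -- choose `X` with `WW X` maximal
  let S : Set (Subgroup G) := {H | ∃ X, Off ρ X ∧ WW ρ X = H}
  have hS : S.Nonempty := by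
    obtain ⟨X, hX⟩ := h
    exact ⟨_, X, hX, rfl⟩
  obtain ⟨H, hH⟩ := S.toFinite.exists_maximal hS
  obtain ⟨X, hX, rfl⟩ := hH.prop
  refine ⟨X, hX, ?_⟩
  by_contra hcon
  push Not at hcon
  obtain ⟨u0, hu0, hu0N⟩ := hcon
  haveI : Group.IsNilpotent G := hG.isNilpotent
  have hnc : NormalizerCondition G := Group.normalizerCondition_of_isNilpotent
  set W := WW ρ X with hW
  by_cases hex : ∃ u ∈ UU ρ, u ∈ Subgroup.normalizer (W : Set G) ∧ u ∉ Nz ρ X
  · obtain ⟨u, hu, hun, hunN⟩ := hex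
    obtain ⟨X', hX', hlt⟩ := step ρ hp hX hu hunN (by
      intro w hw
      exact ⟨(Subgroup.mem_normalizer_iff.1 hun w).1 hw, (Subgroup.mem_normalizer_iff''.1 hun w).1 hw⟩)
    exact hlt.not_ge (hH.le_of_ge ⟨X', hX', rfl⟩ hlt.le)
  · push Not at hex
    -- `W` is generated by `U ∩ N(W)`
    have hWeq : W = Subgroup.closure (UU ρ ∩ (Subgroup.normalizer (W : Set G) : Set G)) := by
      apply le_antisymm
      · refine Subgroup.closure_mono ?_
        rintro g ⟨hg, hgN⟩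
        exact ⟨hg, Subgroup.le_normalizer (Subgroup.subset_closure ⟨hg, hgN⟩)⟩
      · refine Subgroup.closure_mono ?_
        rintro g ⟨hg, hgN⟩
        exact ⟨hg, hex g hg hgN⟩
    have hNN : Subgroup.normalizer (Subgroup.normalizer (W : Set G) : Set G) ≤ Subgroup.normalizer (W : Set G) := by
      intro g hg
      have key : ∀ g ∈ Subgroup.normalizer (Subgroup.normalizer (W : Set G) : Set G), ∀ w ∈ W, g * w * g⁻¹ ∈ W := by
        intro g hg w hw
        have hle : W ≤ W.comap (MulAut.conj g).toMonoidHom := by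
          conv_lhs => rw [hWeq]
          rw [Subgroup.closure_le]
          rintro x ⟨hx, hxN⟩
          show g * x * g⁻¹ ∈ W
          rw [hWeq]
          refine Subgroup.subset_closure ⟨conj_mem_UU ρ hx g, ?_⟩
          exact (Subgroup.mem_normalizer_iff.1 hg x).1 hxN
        exact hle hw
      rw [Subgroup.mem_normalizer_iff]
      intro w
      refine ⟨key g hg w, fun hw => ?_⟩
      have := key g⁻¹ (Subgroup.inv_mem _ hg) _ hw
      have e : g⁻¹ * (g * w * g⁻¹) * g⁻¹⁻¹ = w := by group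
      rwa [e] at this
    have htop : Subgroup.normalizer (W : Set G) = ⊤ := by
      by_contra hne
      have := hnc _ (lt_top_iff_ne_top.2 hne)
      exact this.not_ge hNN
    exact hu0N (hex u0 hu0 (by rw [htop]; exact Subgroup.mem_top _))

end Cfsg.Agent.Lib.QOffA
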