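import Cfsg.Agent.Lib.QOffD

/-!
Timmesfeld replacement for elementary abelian offenders.
-/

set_option autoImplicit false
set_option linter.unusedSimpArgs false

namespace Cfsg.Agent.Lib.QOffA

variable {p : ℕ} [Fact p.Prime] {M : Type*} [AddCommGroup M] [Module (ZMod p) M]
  {G : Type*} [Group G] (ρ : G →* Module.End (ZMod p) M)

def fixM (B : Subgroup G) : Submodule (ZMod p) M where
  carrier := {v | ∀ b ∈ B, ρ b v = v}
  zero_mem' := by intro b _; exact map_zero _
  add_mem' := by
    intro x y hx hy b hb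
    rw [map_add, hx b hb, hy b hb]
  smul_mem' := by
    intro c x hx b hb
    rw [map_smul, hx b hb]

theorem mem_fixM {B : Subgroup G} {v : M} : v ∈ fixM ρ B ↔ ∀ b ∈ B, ρ b v = v := Iff.rfl

/-- the elements of `A` fixing all `ρ c v - v` -/
def fixA (A : Subgroup G) (v : M) : Subgroup G where
  carrier := {a | a ∈ A ∧ ∀ c ∈ A, ρ a (ρ c v - v) = ρ c v - v}
  one_mem' := ⟨A.one_mem, fun c _ => by simp⟩
  mul_mem' := by
    rintro a b ⟨ha, ha'⟩ ⟨hb, hb'⟩
    refine ⟨A.mul_mem ha hb, fun c hc => ?_⟩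
    rw [map_mul, Module.End.mul_apply, hb' c hc, ha' c hc]
  inv_mem' := by
    rintro a ⟨ha, ha'⟩
    refine ⟨A.inv_mem ha, fun c hc => ?_⟩
    conv_lhs => rw [← ha' c hc]
    rw [← Module.End.mul_apply, ← map_mul, inv_mul_cancel, map_one, Module.End.one_apply]

theorem fixA_le (A : Subgroup G) (v : M) : fixA ρ A v ≤ A := fun _ h => h.1

variable [Finite M] [Finite G]

/-- Thompson's counting -/
theorem count {A : Subgroup G} (hcomm : ∀ a ∈ A, ∀ b ∈ A, a * b = b * a) (v : M) :
    Nat.card A * Nat.card (fixM ρ A) ≤ Nat.card (fixA ρ A v) * Nat.card (fixM ρ (fixA ρ A v)) ∧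
    (∀ a ∈ A, ∀ b ∈ A, ρ a v - ρ b v ∈ fixM ρ A → b⁻¹ * a ∈ fixA ρ A v) := by
  classical
  set C := fixM ρ A with hC
  set CA := fixA ρ A v with hCA
  have hinj : ∀ a ∈ A, ∀ b ∈ A, ρ a v - ρ b v ∈ C → b⁻¹ * a ∈ CA := by
    intro a ha b hb h
    refine ⟨A.mul_mem (A.inv_mem hb) ha, fun c hc => ?_⟩
    have e1 : ρ a (ρ c v - v) = ρ b (ρ c v - v) := by
      have h1 : ρ a (ρ c v) = ρ c (ρ a v) := by
        rw [← Module.End.mul_apply, ← map_mul, hcomm a ha c hc, map_mul, Module.End.mul_apply]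
      have h2 : ρ b (ρ c v) = ρ c (ρ b v) := by
        rw [← Module.End.mul_apply, ← map_mul, hcomm b hb c hc, map_mul, Module.End.mul_apply]
      have h3 : ρ c (ρ a v - ρ b v) = ρ a v - ρ b v := h c hc
      rw [map_sub] at h3
      rw [map_sub, map_sub, h1, h2]
      have : ρ c (ρ a v) = ρ c (ρ b v) + (ρ a v - ρ b v) := by rw [← h3]; abel
      rw [this]; abel
    rw [map_mul, Module.End.mul_apply, e1, ← Module.End.mul_apply, ← map_mul, inv_mul_cancel, map_one,
      Module.End.one_apply]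
  refine ⟨?_, hinj⟩
  let φ : A → M ⧸ C := fun a => Submodule.Quotient.mk (ρ (a : G) v - v)
  have hφ : ∀ a b : A, φ a = φ b → (b : G)⁻¹ * a ∈ CA := by
    intro a b hab
    have := (Submodule.Quotient.eq C).1 hab
    refine hinj _ a.2 _ b.2 ?_
    convert this using 1
    abel
  let φ' : A → Set.range φ := fun a => ⟨φ a, a, rfl⟩
  have h1 : Nat.card A ≤ Nat.card (Set.range φ) * Nat.card CA := by
    refine card_le_of_fib φ' _ ?_
    intro z
    by_cases hne : Nonempty {t : A // φ' t = z}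
    · obtain ⟨⟨s, hs⟩⟩ := hne
      refine Nat.card_le_card_of_injective
        (fun t : {t : A // φ' t = z} => (⟨(s : G)⁻¹ * (t.1 : G), hφ _ _ ?_⟩ : CA)) ?_
      · exact congrArg Subtype.val (t.2.trans hs.symm)
      · rintro ⟨t, ht⟩ ⟨t', ht'⟩ h
        have := congrArg Subtype.val h
        simp only [mul_right_inj] at this
        exact Subtype.ext (Subtype.ext this)
    · have : IsEmpty {t : A // φ' t = z} := not_nonempty_iff.1 hne
      rw [Nat.card_of_isEmpty]; exact Nat.zero_le _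
  have h2 : Nat.card (Set.range φ) * Nat.card C ≤ Nat.card (fixM ρ CA) := by
    rw [← Nat.card_prod]
    have hmem : ∀ a : A, ρ (a : G) v - v ∈ fixM ρ CA := fun a b hb => hb.2 a a.2
    have hmemC : ∀ c ∈ C, c ∈ fixM ρ CA := fun c hc b hb => hc b hb.1
    let rep : Set.range φ → A := fun z => Classical.choose z.2
    have hrep : ∀ z, φ (rep z) = z := fun z => Classical.choose_spec z.2
    refine Nat.card_le_card_of_injective
      (fun t : Set.range φ × C => (⟨(ρ (rep t.1 : G) v - v) + t.2,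
        Submodule.add_mem _ (hmem _) (hmemC _ t.2.2)⟩ : fixM ρ CA)) ?_
    rintro ⟨z, c⟩ ⟨z', c'⟩ h
    have h' : (ρ (rep z : G) v - v) + (c : M) = (ρ (rep z' : G) v - v) + c' := congrArg Subtype.val h
    have hz : z = z' := by
      apply Subtype.ext
      rw [← hrep z, ← hrep z']
      refine (Submodule.Quotient.eq C).2 ?_
      have : (ρ (rep z : G) v - v) - (ρ (rep z' : G) v - v) = (c' : M) - c := by
        rw [sub_eq_sub_iff_add_eq_add, h', add_comm]
      rw [this]; exact C.sub_mem c'.2 c.2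
    subst hz
    have : (c : M) = c' := add_left_cancel h'
    exact Prod.ext rfl (Subtype.ext this)
  calc Nat.card A * Nat.card C ≤ (Nat.card (Set.range φ) * Nat.card CA) * Nat.card C :=
        Nat.mul_le_mul_right _ h1
    _ = Nat.card CA * (Nat.card (Set.range φ) * Nat.card C) := by ring
    _ ≤ Nat.card CA * Nat.card (fixM ρ CA) := Nat.mul_le_mul_left _ h2

/-- the subspace attached to a quadratic subgroup -/
theorem off_of_quad (hinj : Function.Injective ρ) {A : Subgroup G} (hA : A ≠ ⊥)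
    (hq : ∀ a ∈ A, ∀ c ∈ A, ∀ v, ρ a (ρ c v - v) = ρ c v - v)
    (hcard : Nat.card M ≤ Nat.card A * Nat.card (fixM ρ A)) : ∃ X, Off ρ X := by
  have hqq : ∀ a ∈ A, ∀ c ∈ A, (ρ a - 1) * (ρ c - 1) = 0 := by
    intro a ha c hc
    ext v
    have := hq a ha c hc v
    simp only [Module.End.mul_apply, LinearMap.sub_apply, Module.End.one_apply, LinearMap.zero_apply]
    rw [this, sub_self]
  let Xa : AddSubgroup (Module.End (ZMod p) M) :=
    { carrier := {r | ∃ a ∈ A, r = ρ a - 1}
      zero_mem' := ⟨1, A.one_mem, by rw [map_one, sub_self]⟩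
      add_mem' := by
        rintro _ _ ⟨a, ha, rfl⟩ ⟨b, hb, rfl⟩
        refine ⟨a * b, A.mul_mem ha hb, ?_⟩
        have h := hqq a ha b hb
        have : ρ (a * b) - 1 = (ρ a - 1) * (ρ b - 1) + ((ρ a - 1) + (ρ b - 1)) := by
          rw [map_mul]; noncomm_ring
        rw [this, h, zero_add]
      neg_mem' := by
        rintro _ ⟨a, ha, rfl⟩
        refine ⟨a⁻¹, A.inv_mem ha, ?_⟩
        have h := rho_inv ρ (g := a) (hqq a ha a ha)
        rw [h]; abel }
  let X : Submodule (ZMod p) (Module.End (ZMod p) M) := AddSubgroup.toZModSubmodule p Xa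
  have hX : ∀ r, r ∈ X ↔ ∃ a ∈ A, r = ρ a - 1 := fun r => Iff.rfl
  refine ⟨X, ?_, ?_, ?_, ?_⟩
  · intro hbot
    apply hA
    rw [Subgroup.eq_bot_iff_forall]
    intro a ha
    have : ρ a - 1 ∈ X := (hX _).2 ⟨a, ha, rfl⟩
    rw [hbot, Submodule.mem_bot, sub_eq_zero] at this
    exact hinj (by rw [this, map_one])
  · rintro x hx y hy
    obtain ⟨a, ha, rfl⟩ := (hX x).1 hx
    obtain ⟨b, hb, rfl⟩ := (hX y).1 hy
    exact hqq a ha b hb
  · intro x hx
    obtain ⟨a, ha, rfl⟩ := (hX x).1 hx
    exact ⟨a, by abel⟩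
  · refine hcard.trans (Nat.mul_le_mul ?_ ?_)
    · refine Nat.card_le_card_of_injective (fun a : A => (⟨ρ (a : G) - 1, (hX _).2 ⟨a, a.2, rfl⟩⟩ : X)) ?_
      intro a b hab
      have : ρ (a : G) - 1 = ρ (b : G) - 1 := congrArg Subtype.val hab
      exact Subtype.ext (hinj (sub_left_injective this))
    · refine Nat.card_le_card_of_injective (fun v : fixM ρ A => (⟨(v : M), ?_⟩ : cent X)) ?_
      · intro x hx
        obtain ⟨a, ha, rfl⟩ := (hX x).1 hx
        rw [LinearMap.sub_apply, Module.End.one_apply, v.2 a ha, sub_self]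
      · intro v w h
        have h' := congrArg (fun z : cent X => (z : M)) h
        exact Subtype.ext h'

/-- Timmesfeld replacement -/
theorem exists_off (hinj : Function.Injective ρ) {E : Subgroup G} (hE : E ≠ ⊥)
    (hcomm : ∀ a ∈ E, ∀ b ∈ E, a * b = b * a) (hexp : ∀ a ∈ E, a ^ p = 1)
    (hcard : Nat.card M ≤ Nat.card E * Nat.card (fixM ρ E)) : ∃ X, Off ρ X := by
  classical
  let m : Subgroup G → ℕ := fun B => Nat.card B * Nat.card (fixM ρ B)
  have hmbot : m ⊥ = Nat.card M := by
    show Nat.card (⊥ : Subgroup G) * Nat.card (fixM ρ (⊥ : Subgroup G)) = _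
    have : fixM ρ (⊥ : Subgroup G) = ⊤ := by
      rw [eq_top_iff]
      intro v _ b hb
      rw [Subgroup.mem_bot.1 hb, map_one, Module.End.one_apply]
    rw [this, Subgroup.card_bot, one_mul]
    exact Nat.card_congr Submodule.topEquiv.toEquiv
  -- the maximum
  obtain ⟨B0, hB0, hmax⟩ := Set.exists_max_image {B : Subgroup G | B ≤ E} m (Set.toFinite _) ⟨E, le_refl E⟩
  have hmax' : ∀ B, B ≤ E → m B ≤ m B0 := fun B hB => hmax B hB
  let S : Set (Subgroup G) := {B | B ≤ E ∧ B ≠ ⊥ ∧ m B = m B0}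
  have hS : S.Nonempty := by
    by_cases hb : B0 = ⊥
    · refine ⟨E, le_rfl, hE, ?_⟩
      apply le_antisymm (hmax' E le_rfl)
      rw [hb, hmbot]; exact hcard
    · exact ⟨B0, hB0, hb, rfl⟩
  obtain ⟨A, hA⟩ := S.toFinite.exists_minimal hS
  obtain ⟨hAE, hAne, hAm⟩ := hA.prop
  have hAcomm : ∀ a ∈ A, ∀ b ∈ A, a * b = b * a := fun a ha b hb => hcomm a (hAE ha) b (hAE hb)
  have hAcard : Nat.card M ≤ m A := by
    rw [hAm, ← hmbot]; exact hmax' ⊥ bot_le
  refine off_of_quad ρ hinj hAne ?_ hAcard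
  -- for every `v`, `fixA A v = A`
  suffices hv : ∀ v, fixA ρ A v = A by
    intro a ha c hc v
    have : a ∈ fixA ρ A v := by rw [hv]; exact ha
    exact this.2 c hc
  intro v
  obtain ⟨hcnt, hdiff⟩ := count ρ hAcomm v
  have hmCA : m (fixA ρ A v) = m B0 := by
    apply le_antisymm (hmax' _ ((fixA_le ρ A v).trans hAE))
    rw [← hAm]; exact hcnt
  by_cases hCA : fixA ρ A v = ⊥
  · exfalso
    -- `|M| = |A| |C|`
    have hM : Nat.card M = Nat.card A * Nat.card (fixM ρ A) := by
      rw [← hmbot, ← hCA, hmCA, ← hAm]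
    set C := fixM ρ A with hC
    let φ : A → M ⧸ C := fun a => Submodule.Quotient.mk (ρ (a : G) v - v)
    have hφinj : Function.Injective φ := by
      intro a b hab
      have h1 := (Submodule.Quotient.eq C).1 hab
      have h2 : (b : G)⁻¹ * a ∈ fixA ρ A v := by
        refine hdiff _ a.2 _ b.2 ?_
        convert h1 using 1
        abel
      rw [hCA, Subgroup.mem_bot, inv_mul_eq_one] at h2
      exact Subtype.ext h2.symm
    have hcq : Nat.card A = Nat.card (M ⧸ C) := by
      have h1 : Nat.card M = Nat.card (M ⧸ C) * Nat.card C := by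
        have := AddSubgroup.card_eq_card_quotient_mul_card_addSubgroup C.toAddSubgroup
        exact this
      rw [h1] at hM
      have hpos : 0 < Nat.card C := Nat.card_pos
      exact (Nat.eq_of_mul_eq_mul_right hpos hM).symm
    have : Finite (M ⧸ C) := Quot.finite _
    have hφsurj : Function.Surjective φ :=
      ((Nat.bijective_iff_injective_and_card φ).2 ⟨hφinj, hcq⟩).2
    obtain ⟨a, ha⟩ := hφsurj (Submodule.Quotient.mk v)
    have h1 : (ρ (a : G) v - v) - v ∈ C := (Submodule.Quotient.eq C).1 ha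
    set c := (ρ (a : G) v - v) - v with hc
    have hac : ρ (a : G) c = c := h1 a a.2
    -- `w = v + c`, `ρ a w = 2 w`
    have hw : ρ (a : G) (v + c) = (2 : ZMod p) • (v + c) := by
      rw [map_add, hac]
      have : ρ (a : G) v = v + v + c := by rw [hc]; abel
      rw [this, two_smul]; abel
    have hpow : ∀ n : ℕ, ρ ((a : G) ^ n) (v + c) = ((2 : ZMod p) ^ n) • (v + c) := by
      intro n
      induction n with
      | zero => simp
      | succ n ih =>
        rw [pow_succ, map_mul, Module.End.mul_apply, hw, map_smul, ih, smul_smul, pow_succ]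
        ring_nf
    have h2 := hpow p
    rw [hexp a (hAE a.2), map_one, Module.End.one_apply, ZMod.pow_card] at h2
    have hw0 : v + c = 0 := by
      have : v + c = (v + c) + (v + c) := by
        conv_lhs => rw [h2]
        rw [two_smul]
      have h3 := this
      conv_lhs at h3 => rw [← add_zero (v + c)]
      exact (add_left_cancel h3).symm
    have hvC : v ∈ C := by
      have : v = -c := eq_neg_of_add_eq_zero_left hw0
      rw [this]; exact C.neg_mem h1
    apply hAne
    rw [Subgroup.eq_bot_iff_forall]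
    intro b hb
    have : φ ⟨b, hb⟩ = φ ⟨1, A.one_mem⟩ := by
      show Submodule.Quotient.mk (ρ b v - v) = Submodule.Quotient.mk (ρ 1 v - v)
      rw [hvC b hb, map_one, Module.End.one_apply]
    exact congrArg Subtype.val (hφinj this)
  · exact le_antisymm (fixA_le ρ A v) (hA.le_of_le ⟨(fixA_le ρ A v).trans hAE, hCA, hmCA⟩ (fixA_le ρ A v))

end Cfsg.Agent.Lib.QOffA
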