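import Cfsg.Agent.Lib.QOffE

/-!
Group theoretic form.
-/

set_option autoImplicit false
set_option linter.unusedSimpArgs false

namespace Cfsg.Agent.Lib.QOffA

theorem mainM {p : ℕ} [Fact p.Prime] {M : Type*} [AddCommGroup M] [Module (ZMod p) M] [Finite M]
    {G : Type*} [Group G] [Finite G] (hp : 5 ≤ p)
    (hG : IsPGroup p G) (ρ : G →* Module.End (ZMod p) M) (hρinj : Function.Injective ρ)
    (E : Subgroup G) (hE : E ≠ ⊥) (hcomm : ∀ a ∈ E, ∀ b ∈ E, a * b = b * a) (hexp : ∀ a ∈ E, a ^ p = 1)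
    (hcard : Nat.card M ≤ Nat.card E * Nat.card {n : M // ∀ b ∈ E, ρ b n = n}) :
    ∃ A : Subgroup G, A ≠ ⊥ ∧ (∀ a ∈ A, ∀ b ∈ A, a * b = b * a) ∧ (∀ a ∈ A, a ^ p = 1) ∧
      Nat.card M ≤ Nat.card A * Nat.card {n : M // ∀ b ∈ A, ρ b n = n} ∧
      (∀ a ∈ A, ∀ b ∈ A, ∀ n : M, ρ b (n - ρ a n) = n - ρ a n) ∧
      ∃ Nn : Subgroup G, (∀ h : G, ∀ a ∈ A, h * a * h⁻¹ ∈ Nn) ∧ ∀ g ∈ Nn, ∀ a ∈ A, g * a * g⁻¹ ∈ A := by
  classical
  have hoff : ∃ X, Off ρ X := by
    refine exists_off ρ hρinj (E := E) hE hcomm hexp ?_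
    refine hcard.trans (Nat.mul_le_mul le_rfl ?_)
    refine Nat.card_le_card_of_injective
      (fun v : {n : M // ∀ b ∈ E, ρ b n = n} => (⟨v.1, ?_⟩ : fixM ρ E)) ?_
    · intro b hb
      exact v.2 b hb
    · intro v w h
      have h' := congrArg (fun z : fixM ρ E => (z : M)) h
      exact Subtype.ext h'
  obtain ⟨X, hX, hXN⟩ := exists_normalised ρ hG hp hoff
  let A : Subgroup G :=
    { carrier := {g | ρ g - 1 ∈ X}
      one_mem' := by
        show ρ 1 - 1 ∈ X
        rw [map_one, sub_self]; exact X.zero_mem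
      mul_mem' := by
        intro a b ha hb
        show ρ (a * b) - 1 ∈ X
        have h := hX.sq _ ha _ hb
        have : ρ (a * b) - 1 = (ρ a - 1) * (ρ b - 1) + ((ρ a - 1) + (ρ b - 1)) := by
          rw [map_mul]; noncomm_ring
        rw [this, h, zero_add]
        exact X.add_mem ha hb
      inv_mem' := by
        intro a ha
        show ρ a⁻¹ - 1 ∈ X
        rw [rho_inv ρ (g := a) (hX.sq _ ha _ ha)]
        have : 1 - (ρ a - 1) - 1 = -(ρ a - 1) := by abel
        rw [this]; exact X.neg_mem ha }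
  have hA' : ∀ g, g ∈ A ↔ ρ g - 1 ∈ X := fun g => Iff.rfl
  have hAU : ∀ g, g ∈ A → g ∈ UU ρ := fun g hg => hX.sq _ hg _ hg
  refine ⟨A, ?_, ?_, ?_, ?_, ?_, Nz ρ X, ?_, ?_⟩
  · intro hbot
    apply hX.ne
    rw [Submodule.eq_bot_iff]
    intro x hx
    obtain ⟨g, hg⟩ := hX.mem x hx
    have hgA : g ∈ A := by
      rw [hA', hg, add_sub_cancel_left]; exact hx
    rw [hbot, Subgroup.mem_bot] at hgA
    rw [hgA, map_one] at hg
    have : x = 1 - 1 := by
      nth_rewrite 1 [hg]
      abel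
    rw [this, sub_self]
  · intro a ha b hb
    apply hρinj
    have h1 := hX.sq _ ha _ hb
    have h2 := hX.sq _ hb _ ha
    have e1 : ρ (a * b) = (ρ a - 1) * (ρ b - 1) + (ρ a + ρ b - 1) := by
      rw [map_mul]; noncomm_ring
    have e2 : ρ (b * a) = (ρ b - 1) * (ρ a - 1) + (ρ a + ρ b - 1) := by
      rw [map_mul]; noncomm_ring
    rw [e1, e2, h1, h2]
  · intro a ha
    apply hρinj
    have h1 : ρ a = 1 + (ρ a - 1) := by abel
    rw [map_pow, h1, one_add_pow (hX.sq _ ha _ ha), map_one, ← Nat.cast_smul_eq_nsmul (ZMod p) p,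
      CharP.cast_eq_zero, zero_smul, add_zero]
  · refine hX.card.trans (Nat.mul_le_mul ?_ ?_)
    · let f : X → A := fun x =>
        ⟨Classical.choose (hX.mem x x.2), by
          have := Classical.choose_spec (hX.mem x x.2)
          rw [hA', this, add_sub_cancel_left]; exact x.2⟩
      refine Nat.card_le_card_of_injective f ?_
      intro x y hxy
      have e1 := Classical.choose_spec (hX.mem x x.2)
      have e2 := Classical.choose_spec (hX.mem y y.2)
      have h2 : Classical.choose (hX.mem x x.2) = Classical.choose (hX.mem y y.2) :=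
        congrArg Subtype.val hxy
      rw [h2] at e1
      exact Subtype.ext (add_left_cancel (e1.symm.trans e2))
    · refine Nat.card_le_card_of_injective
        (fun v : cent X => (⟨(v : M), ?_⟩ : {n : M // ∀ b ∈ A, ρ b n = n})) ?_
      · intro a ha
        have h2 := v.2 _ ha
        rw [LinearMap.sub_apply, Module.End.one_apply, sub_eq_zero] at h2
        exact h2
      · intro v w h
        have h' := congrArg Subtype.val h
        exact Subtype.ext h'
  · intro a ha b hb n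
    have h3 := hX.sq _ hb _ ha
    have h4 := congrArg (fun t : Module.End (ZMod p) M => t n) h3
    simp only [Module.End.mul_apply, LinearMap.sub_apply, Module.End.one_apply, LinearMap.zero_apply] at h4
    rw [sub_eq_zero] at h4
    have e : n - ρ a n = -(ρ a n - n) := by abel
    rw [e, map_neg, h4]
  · intro h a ha
    exact hXN _ (conj_mem_UU ρ (hAU a ha) h)
  · intro g hg a ha
    show ρ (g * a * g⁻¹) - 1 ∈ X
    have h1 := hg.2 _ ha
    have h2 : ρ g * ρ g⁻¹ = 1 := by rw [← map_mul, mul_inv_cancel, map_one]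
    have : ρ (g * a * g⁻¹) - 1 = ρ g * (ρ a - 1) * ρ g⁻¹ := by
      rw [map_mul, map_mul, mul_sub, sub_mul, mul_one, h2]
    rw [this]; exact h1

end Cfsg.Agent.Lib.QOffA
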