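import Cfsg.Agent.Lib.QmCh
set_option autoImplicit false
set_option linter.unusedSectionVars false

/-! The case `b = 1` of the pushing up theorem. -/
namespace Cfsg.Agent.Lib.QmCore

open Matrix Cfsg.Agent.Lib.ClSL2 Cfsg.Agent.Lib.LocBase
open scoped MatrixGroups commutatorElement

universe u

theorem isPGroup_of_coprime {p : ℕ} [hp : Fact p.Prime] {G : Type*} [Group G] [Finite G] {C : Subgroup G}
    (h : ∀ x ∈ C, Nat.Coprime (orderOf x) p → x = 1) : IsPGroup p C := by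
  rintro ⟨x, hx⟩
  obtain ⟨k, m, hm, hxm⟩ := Nat.exists_eq_pow_mul_and_not_dvd (orderOf_pos x).ne' p hp.out.ne_one
  refine ⟨k, ?_⟩
  apply Subtype.ext
  show x ^ p ^ k = 1
  apply h _ (pow_mem hx _)
  have h1 : orderOf (x ^ p ^ k) = m := by
    rw [orderOf_pow' _ (pow_ne_zero _ hp.out.ne_zero), hxm, Nat.gcd_eq_right (dvd_mul_right _ _)]
    exact Nat.mul_div_cancel_left _ (pow_pos hp.out.pos k)
  rw [h1]
  exact ((Nat.Prime.coprime_iff_not_dvd hp.out).2 hm).symm

/-- quotient by the kernel of a natural representation -/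
theorem NH.iso {G : Type*} [Group G] {Y D : Subgroup G} {F : Type*} [Field F] (N : NH Y D F) {Q : Subgroup G} [Q.Normal]
    (h : N.ρ.ker = Q) : Nonempty (G ⧸ Q ≃* SL(2, F)) := by
  subst h
  exact ⟨QuotientGroup.quotientKerEquivOfSurjective N.ρ N.ρs⟩

/-- chief factor -/
theorem NH.chief {G : Type*} [Group G] [Finite G] {Y D : Subgroup G} {F : Type*} [Field F] [Fintype F] (N : NH Y D F) (hDY : D ≤ Y)
    (hY : Y.Normal) (hD : D.Normal) : Cfsg.IsChiefFactor Y D ∧ ¬ ⁅Y, (⊤ : Subgroup G)⁆ ≤ D := by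
  have hYD : ¬ Y ≤ D := by
    intro h
    obtain ⟨x, hx, hxc⟩ := N.surj (Pi.single 0 1)
    have h1 := (N.ker x hx).2 (h hx)
    rw [h1] at hxc
    have h2 := congrFun hxc 0
    rw [Pi.single_eq_same] at h2
    exact zero_ne_one h2
  refine ⟨⟨lt_of_le_of_ne hDY (fun h => hYD h.symm.le), hY, hD, ?_⟩, ?_⟩
  · intro W hW hDW hWY
    by_cases h : W ≤ D
    · left; exact le_antisymm h hDW
    · right
      apply le_antisymm hWY
      intro y hy
      obtain ⟨w, hw, d, hd, rfl⟩ := N.irr hDY (fun g x hx => hW.conj_mem x hx g) hWY h y hy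
      exact mul_mem hw (hDW hd)
  · intro h
    obtain ⟨g, hg⟩ := N.ρs (uS 1)
    have h1 : N.ρ g = 1 := by
      rw [N.ρ_eq_one_iff hDY]
      intro x hx
      exact Crit.comm_swap (h (Subgroup.commutator_mem_commutator hx trivial))
    obtain ⟨x, hx, hxc⟩ := N.surj (Pi.single 1 1)
    have h2 := mulVec_uS' (1 : F) (Pi.single 1 1)
    rw [← hg, h1] at h2
    have h3 := congrFun h2 0
    simp at h3

section Main
variable {p : ℕ} [hp : Fact p.Prime] {G X : Type u} [Group G] [Group X] [Finite G] [Finite X] {ι : G →* X} {S : Sylow p G}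
  {M : Subgroup G} {F : Type*} [Field F] [Fintype F] [CharP F p] {φ : G →* PSL(2, F)}

/-- the centre of the amalgam -/
abbrev PU.zz (S : Sylow p G) : Subgroup G := PU.VZ S ⊓ Subgroup.centralizer ((⊤ : Subgroup G) : Set G)

theorem PUF.nh (hf : PUF S F) : ∃ N : NH (PU.VZ S) (PU.zz S) F,
    N.ρ.ker = Subgroup.centralizer (PU.VZ S : Set G) ∧ ∀ s ∈ (S : Subgroup G), ∃ t, N.ρ s = uS t := by
  obtain ⟨N, hk, hu⟩ := hf.nat
  obtain ⟨N', hN'⟩ := NH.of_nat (MonoidHom.id G) Function.surjective_id N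
  have key : ∀ A B : Subgroup G, A = PU.VZ S → B = PU.zz S → (∃ N' : NH A B F, ∀ g, N'.ρ g = N.ρ g) →
      ∃ N' : NH (PU.VZ S) (PU.zz S) F, ∀ g, N'.ρ g = N.ρ g := by
    rintro A B rfl rfl h; exact h
  have e1 : (PU.VZ S).comap (MonoidHom.id G) = PU.VZ S := Subgroup.comap_id _
  have e2 : (AM.sub (fx (⊤ : Subgroup G) : AddSubgroup (AM (PU.VZ S) (PU.comm_of hf.elem) (MonoidHom.id G)
      (PU.norm_all hf.norm)))).comap (MonoidHom.id G) = PU.zz S := by
    rw [Subgroup.comap_id]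
    ext x
    constructor
    · rintro ⟨hx, h⟩
      refine Subgroup.mem_inf.2 ⟨hx, ?_⟩
      rw [AM.mem_fx, Subgroup.map_id] at h
      exact h
    · intro hx
      refine ⟨hx.1, ?_⟩
      rw [AM.mem_fx, Subgroup.map_id]
      exact hx.2
  obtain ⟨N'', hN''⟩ := key _ _ e1 e2 ⟨N', hN'⟩
  refine ⟨N'', ?_, ?_⟩
  · rw [← hk]
    ext g
    rw [MonoidHom.mem_ker, MonoidHom.mem_ker, hN'']
  · intro s hs
    obtain ⟨t, ht⟩ := hu s hs
    exact ⟨t, (hN'' s).trans ht⟩

theorem zz_normal (hf : PUF S F) : (PU.zz S).Normal := by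
  have h1 := hf.norm
  infer_instance

/-- if `x` is a `p'`-element centralizing `V` and acting trivially modulo `V` on `Q`, then `x = 1` -/
theorem eq_one_of_twice (hchar : Subgroup.centralizer (Cfsg.pCore p G : Set G) ≤ Cfsg.pCore p G)
    {V : Subgroup G} (hVQ : V ≤ Cfsg.pCore p G) {x : G} (hx : Nat.Coprime (orderOf x) p)
    (h1 : ∀ a ∈ Cfsg.pCore p G, a⁻¹ * (x * a * x⁻¹) ∈ V) (h2 : ∀ v ∈ V, x * v = v * x) : x = 1 := by
  have hQp : IsPGroup p (Cfsg.pCore p G) := AmalgamCharP.isPGroup_pCore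
  have h3 : x ∈ Subgroup.centralizer (Cfsg.pCore p G : Set G) := by
    rw [Subgroup.mem_centralizer_iff]
    intro a ha
    obtain ⟨k, hk⟩ := hQp ⟨_, hVQ (h1 a ha)⟩
    have hk' : (a⁻¹ * (x * a * x⁻¹)) ^ p ^ k = 1 := congrArg Subtype.val hk
    exact (comm_of_twice hx (h2 _ (h1 a ha)) hk').symm
  obtain ⟨k, hk⟩ := hQp ⟨x, hchar h3⟩
  have hk' : x ^ p ^ k = 1 := congrArg Subtype.val hk
  have h4 : orderOf x ∣ p ^ k := orderOf_dvd_of_pow_eq_one hk'
  rw [← orderOf_eq_one_iff]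
  exact Nat.eq_one_of_dvd_coprimes (Nat.Coprime.pow_right k hx) dvd_rfl h4

/-- `L` centralizes `Q/V` and `LQ = G`. -/
theorem B1.top (h : PU p S M φ) (hf : PUF S F) {U Q₂ : Subgroup G}
    (hb : B1 (S : Subgroup G) (Cfsg.pCore p G) (PU.VZ S) U Q₂) :
    ctr (⊤ : Subgroup G) (Cfsg.pCore p G) (PU.VZ S) hf.loc.Vn ⊔ Cfsg.pCore p G = ⊤ := by
  have hQ : ∀ g ∈ (⊤ : Subgroup G), ∀ v ∈ Cfsg.pCore p G, g * v * g⁻¹ ∈ Cfsg.pCore p G := hf.loc.Qn
  set L := ctr (⊤ : Subgroup G) (Cfsg.pCore p G) (PU.VZ S) hf.loc.Vn with hL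
  have hLn : L.Normal := ⟨fun x hx g => ctr_conj hQ (trivial : g ∈ (⊤ : Subgroup G)) hx⟩
  have hUL : U ≤ L := by
    intro u hu
    rw [hL, mem_ctr]
    exact ⟨trivial, fun a ha => Crit.comm_swap (hb.comm u hu a (hb.QS ha))⟩
  have hpn : (Cfsg.pCore p G).Normal := pCore_normal p G
  have hSL : (S : Subgroup G) ≤ L ⊔ Cfsg.pCore p G := by
    intro s hs
    obtain ⟨u, hu, a, ha, rfl⟩ := hb.sup s hs
    exact mul_mem (Subgroup.mem_sup_left (hUL hu)) (Subgroup.mem_sup_right ha)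
  obtain ⟨x, hx⟩ := h.exists_not_mem
  rw [eq_top_iff, ← h.gen_conj hx]
  refine sup_le hSL ((cj_mono hSL x).trans ?_)
  exact cj_le_normal (Subgroup.sup_normal L (Cfsg.pCore p G)) x

theorem B1.cent_eq (h : PU p S M φ) (hf : PUF S F)
    (hchar : Subgroup.centralizer (Cfsg.pCore p G : Set G) ≤ Cfsg.pCore p G) {U Q₂ : Subgroup G}
    (hb : B1 (S : Subgroup G) (Cfsg.pCore p G) (PU.VZ S) U Q₂) :
    Subgroup.centralizer (PU.VZ S : Set G) = Cfsg.pCore p G := by
  have hVn := hf.norm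
  apply le_antisymm
  · apply AmalgamCharP.le_pCore (PU.cent_normal hf.norm)
    apply isPGroup_of_coprime
    intro x hx hxp
    rw [Subgroup.mem_centralizer_iff] at hx
    apply eq_one_of_twice hchar hf.loc.VQ hxp
    · intro a ha
      have h1 := hb.res_comm h hf x (Subgroup.subset_closure hxp) a⁻¹ (inv_mem ha)
      have e : a⁻¹ * (x * a * x⁻¹) = ⁅a⁻¹, x⁆ := by rw [commutatorElement_def]; group
      rw [e]; exact h1
    · intro v hv; exact (hx v hv).symm
  · intro a ha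
    rw [Subgroup.mem_centralizer_iff]
    intro v hv
    exact (hf.loc.QV a ha v hv).symm

theorem B1.dec {S Q V U Q₂ : Subgroup G} (hb : B1 S Q V U Q₂) {s : G} (hs : s ∈ S) :
    ∃ u ∈ U, ∃ v ∈ V, ∃ d ∈ Q ⊓ Q₂, s = u * v * d := by
  obtain ⟨u, hu, a, ha, rfl⟩ := hb.sup s hs
  obtain ⟨v, hv, b, hb', rfl⟩ := hb.sup2 a (hb.QS ha)
  refine ⟨u, hu, v, hv, b, Subgroup.mem_inf.2 ⟨?_, hb'⟩, by group⟩
  have h1 := mul_mem (inv_mem (hb.VQ hv)) ha
  rwa [inv_mul_cancel_left] at h1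

theorem B1.sup_eq {S Q V U Q₂ : Subgroup G} (hb : B1 S Q V U Q₂) : (U ⊔ V) ⊔ (Q ⊓ Q₂) = S := by
  apply le_antisymm
  · exact sup_le (sup_le hb.US (hb.VQ.trans hb.QS)) (inf_le_left.trans hb.QS)
  · intro s hs
    obtain ⟨u, hu, v, hv, d, hd, rfl⟩ := hb.dec hs
    exact mul_mem (Subgroup.mem_sup_left (mul_mem (Subgroup.mem_sup_left hu) (Subgroup.mem_sup_right hv)))
      (Subgroup.mem_sup_right hd)

theorem B1.sup_eqQ {S Q V U Q₂ : Subgroup G} (hb : B1 S Q V U Q₂) : V ⊔ (Q ⊓ Q₂) = Q := by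
  apply le_antisymm
  · exact sup_le hb.VQ inf_le_left
  · intro a ha
    obtain ⟨v, hv, b, hb', rfl⟩ := hb.sup2 a (hb.QS ha)
    refine mul_mem (Subgroup.mem_sup_left hv) (Subgroup.mem_sup_right (Subgroup.mem_inf.2 ⟨?_, hb'⟩))
    have h1 := mul_mem (inv_mem (hb.VQ hv)) ha
    rwa [inv_mul_cancel_left] at h1

theorem commute_sup {A B C : Subgroup G} (hA : ∀ x ∈ A, ∀ y ∈ C, x * y = y * x) (hB : ∀ x ∈ B, ∀ y ∈ C, x * y = y * x) :
    ∀ x ∈ A ⊔ B, ∀ y ∈ C, x * y = y * x := by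
  intro x hx y hy
  have h1 : A ⊔ B ≤ Subgroup.centralizer {y} := by
    apply sup_le
    · intro a ha
      rw [Subgroup.mem_centralizer_singleton_iff]; exact hA a ha y hy
    · intro a ha
      rw [Subgroup.mem_centralizer_singleton_iff]; exact hB a ha y hy
  have h2 := h1 hx
  rw [Subgroup.mem_centralizer_singleton_iff] at h2
  exact h2

theorem B1.comm_D {S Q V U Q₂ : Subgroup G} (hb : B1 S Q V U Q₂) : ∀ x ∈ U ⊔ V, ∀ y ∈ Q ⊓ Q₂, x * y = y * x :=
  commute_sup (fun x hx y hy => (hb.centQ2 y hy.2 x hx).symm) (fun x hx y hy => (hb.centQ y hy.1 x hx).symm)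

/-- `[U,V]` is central in `S`, so `U ⊔ V` has class two. -/
theorem B1.lcs_H {S Q V U Q₂ : Subgroup G} (hb : B1 S Q V U Q₂) : (U ⊔ V).lowerCentralSeries 2 = ⊥ := by
  have hZ : (U ⊔ V).lowerCentralSeries 1 ≤ Subgroup.centralizer ((U ⊔ V : Subgroup G) : Set G) := by
    show ⁅U ⊔ V, U ⊔ V⁆ ≤ _
    have hle : U ⊔ V ≤ S := sup_le hb.US (hb.VQ.trans hb.QS)
    rw [Subgroup.commutator_le]
    intro x hx y hy
    obtain ⟨u, hu, v, hv, rfl⟩ := mem_sup_of_norm (fun a ha b hb' => hb.normV a (hb.US ha) b hb') hx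
    obtain ⟨u', hu', v', hv', rfl⟩ := mem_sup_of_norm (fun a ha b hb' => hb.normV a (hb.US ha) b hb') hy
    have hUU : ∀ a ∈ U, ∀ b ∈ U, a * b = b * a := fun a ha b hb' => hb.centQ2 a (hb.UQ2 ha) b hb'
    have hVV : ∀ a ∈ V, ∀ b ∈ V, a * b = b * a := fun a ha b hb' => hb.centQ a (hb.VQ ha) b hb'
    set c := ⁅u, v'⁆ with hc
    set d := ⁅u', v⁆ with hd
    have hcc : ∀ s ∈ S, s * c = c * s := hb.central u hu v' hv'
    have hdc : ∀ s ∈ S, s * d = d * s := hb.central u' hu' v hv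
    have e1 : u * v' = c * (v' * u) := by rw [hc, commutatorElement_def]; group
    have e2 : u' * v = d * (v * u') := by rw [hd, commutatorElement_def]; group
    have hS : ∀ {a : G}, a ∈ U → a ∈ S := fun ha => hb.US ha
    have hS' : ∀ {a : G}, a ∈ V → a ∈ S := fun ha => hb.QS (hb.VQ ha)
    have e : ⁅u * v, u' * v'⁆ = c * d⁻¹ := by
      have h1 : (u * v) * (u' * v') = c * d⁻¹ * ((u' * v') * (u * v)) := by
        have k1 : v * u' = d⁻¹ * (u' * v) := by rw [e2]; group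
        have k2 : v' * u = c⁻¹ * (u * v') := by rw [e1]; group
        have c1 : Commute u d⁻¹ := (show Commute u d from hdc u (hS hu)).inv_right
        have c2 : Commute u' c⁻¹ := (show Commute u' c from hcc u' (hS hu')).inv_right
        have c3 : Commute d⁻¹ c⁻¹ := by
          have : Commute d c := hcc d (hb.QS (hb.VQ (by
            have := hb.comm u' hu' v (hS' hv)
            exact this)))
          exact this.inv_inv
        calc (u * v) * (u' * v') = u * (v * u') * v' := by group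
          _ = (u * d⁻¹) * u' * v * v' := by rw [k1]; group
          _ = d⁻¹ * (u * u') * (v * v') := by rw [c1.eq]; group
          _ = d⁻¹ * (u' * u) * (v' * v) := by rw [hUU u hu u' hu', hVV v hv v' hv']
          _ = d⁻¹ * u' * (c * (c⁻¹ * (u * v'))) * v := by group
          _ = d⁻¹ * (u' * c) * (c⁻¹ * (u * v')) * v := by group
          _ = d⁻¹ * (c * u') * (v' * u) * v := by rw [(show Commute u' c from hcc u' (hS hu')).eq, ← k2]
          _ = d⁻¹ * c * ((u' * v') * (u * v)) := by group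
          _ = c * d⁻¹ * ((u' * v') * (u * v)) := by
              have : Commute d⁻¹ c := by simpa using c3.inv_right
              rw [this.eq]
      rw [commutatorElement_def, h1]; group
    rw [e, Subgroup.mem_centralizer_iff]
    intro s hs
    have hsS := hle hs
    have h1 : Commute s c := hcc s hsS
    have h2 : Commute s d := hdc s hsS
    exact (h1.mul_right h2.inv_right).eq
  rw [eq_bot_iff]
  show ⁅(U ⊔ V).lowerCentralSeries 1, U ⊔ V⁆ ≤ ⊥
  rw [Subgroup.commutator_le]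
  intro x hx y hy
  rw [Subgroup.mem_bot, commutatorElement_eq_one_iff_mul_comm]
  exact (Subgroup.mem_centralizer_iff.1 (hZ hx) y hy).symm

theorem B1.lcs_S {S Q V U Q₂ : Subgroup G} (hb : B1 S Q V U Q₂) :
    S.lowerCentralSeries 2 = Q.lowerCentralSeries 2 := by
  have h1 : S.lowerCentralSeries 2 = (Q ⊓ Q₂).lowerCentralSeries 2 := by
    conv_lhs => rw [← hb.sup_eq]
    rw [lcs_sup hb.comm_D, hb.lcs_H, bot_sup_eq]
  have h2 : Q.lowerCentralSeries 2 = (Q ⊓ Q₂).lowerCentralSeries 2 := by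
    conv_lhs => rw [← hb.sup_eqQ]
    rw [lcs_sup (fun x hx y (hy : y ∈ Q ⊓ Q₂) => (hb.centQ y hy.1 x hx).symm),
      lcs_succ_of_bot (lcs_one_of_comm fun x hx y hy => hb.centQ x (hb.VQ hx) y hy), bot_sup_eq]
  rw [h1, h2]

theorem B1.pow_eq {S Q V U Q₂ : Subgroup G} (hb : B1 S Q V U Q₂) {m : ℕ} (hm : ∀ v ∈ V, v ^ (m * (m - 1) / 2) = 1)
    (hU : ∀ v ∈ U, v ^ m = 1) (hV : ∀ v ∈ V, v ^ m = 1) {s : G} (hs : s ∈ S) : ∃ d ∈ Q, s ^ m = d ^ m := by
  obtain ⟨u, hu, v, hv, d, hd, rfl⟩ := hb.dec hs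
  refine ⟨d, hd.1, ?_⟩
  have h1 : Commute (u * v) d := hb.comm_D _ (mul_mem (Subgroup.mem_sup_left hu) (Subgroup.mem_sup_right hv)) d hd
  have hc := hb.central u hu v hv
  have hcV : ⁅u, v⁆ ∈ V := hb.comm u hu v (hb.QS (hb.VQ hv))
  have hinv : ⁅v, u⁆ = ⁅u, v⁆⁻¹ := by simp only [commutatorElement_def]; group
  have c1 : Commute ⁅v, u⁆ u := by
    rw [hinv]
    exact (show Commute u ⁅u, v⁆ from hc u (hb.US hu)).symm.inv_left
  have c2 : Commute ⁅v, u⁆ v := by
    rw [hinv]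
    exact (show Commute v ⁅u, v⁆ from hc v (hb.QS (hb.VQ hv))).symm.inv_left
  have h2 := mul_pow_class_two (u := u) (v := v) (c := ⁅v, u⁆) (by simp only [commutatorElement_def]; group) c1 c2 m
  rw [h1.mul_pow, h2, hinv, inv_pow, hm _ hcV, hU u hu, hV v hv]
  simp

theorem powerClosure_eq_bot {H : Subgroup G} {p n : ℕ} (h : Cfsg.powerClosure p n H = ⊥) : ∀ x ∈ H, x ^ p ^ n = 1 := by
  intro x hx
  have h1 : x ^ p ^ n ∈ Cfsg.powerClosure p n H := Subgroup.subset_closure ⟨x, hx, rfl⟩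
  rw [h] at h1
  exact h1

theorem powerClosure_normal {H : Subgroup G} {p n : ℕ} (h : H.Normal) : (Cfsg.powerClosure p n H).Normal := by
  constructor
  intro x hx g
  have h1 : (Cfsg.powerClosure p n H).map (MulAut.conj g).toMonoidHom ≤ Cfsg.powerClosure p n H := by
    unfold Cfsg.powerClosure
    rw [MonoidHom.map_closure, Subgroup.closure_le]
    rintro _ ⟨_, ⟨y, hy, rfl⟩, rfl⟩
    apply Subgroup.subset_closure
    refine ⟨g * y * g⁻¹, h.conj_mem y hy g, ?_⟩
    show g * y ^ p ^ n * g⁻¹ = _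
    rw [conj_pow]
  exact h1 ⟨x, hx, rfl⟩

theorem powerClosure_le {H : Subgroup G} {p n : ℕ} : Cfsg.powerClosure p n H ≤ H := by
  unfold Cfsg.powerClosure
  rw [Subgroup.closure_le]
  rintro _ ⟨x, hx, rfl⟩
  exact pow_mem hx _

/-- the final result for `b = 1` -/
structure B1Res (p : ℕ) {G : Type*} [Group G] [Finite G] (S Q V z : Subgroup G) (F : Type*) [Field F] : Prop where
  cls : S.lowerCentralSeries 2 = ⊥
  ncls : S.lowerCentralSeries 1 ≠ ⊥
  exp2 : p = 2 → Monoid.exponent ↥S = 4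
  exp : p ≠ 2 → Monoid.exponent ↥S = p
  cent : Subgroup.centralizer (V : Set G) = Q
  nh : ∃ N : NH V z F, N.ρ.ker = Q ∧ ∀ s ∈ S, ∃ t, N.ρ s = uS t
  it1 : Cfsg.iterCommutator z (⊤ : Subgroup G) 1 = ⊥
  it2 : Cfsg.iterCommutator Q (⊤ : Subgroup G) 2 ≤ V
  nat : ∀ (U W : Subgroup G) [W.Normal], U ≤ Q → Cfsg.IsChiefFactor U W → ¬ ⁅U, (⊤ : Subgroup G)⁆ ≤ W →
    Cfsg.IsNaturalSL2Module F (U.map (QuotientGroup.mk' W)) (⊤ : Subgroup (G ⧸ W))

theorem b1_res (hι : Function.Injective ι) (h : PU p S M φ) (hf : PUF S F)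
    (hchar : Subgroup.centralizer (Cfsg.pCore p G : Set G) ≤ Cfsg.pCore p G)
    (hd : ∀ T : Subgroup G, T ≤ S → T ≠ ⊥ → NI ι (S : Subgroup G) T → ¬ T.Normal) {n : X}
    (hn : n ∈ Subgroup.normalizer (((S : Subgroup G).map ι : Subgroup X) : Set X))
    (hnV : ¬ (PU.VZ S).map ι ≤ cj n ((Cfsg.pCore p G).map ι)) :
    B1Res p (S : Subgroup G) (Cfsg.pCore p G) (PU.VZ S) (PU.zz S) F := by
  obtain ⟨U, Q₂, hU, hQ₂, hb⟩ := b1_facts hι hf hn hnV
  have hpn : (Cfsg.pCore p G).Normal := pCore_normal p G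
  have hVn := hf.norm
  have hzn := zz_normal hf
  have hle : ∀ k, (S : Subgroup G).lowerCentralSeries k ≤ S := fun k =>
    (Subgroup.lowerCentralSeries_antitone (S : Subgroup G) (Nat.zero_le k)).trans le_rfl
  have hlcsQn : ∀ k, ((Cfsg.pCore p G).lowerCentralSeries k).Normal := fun k =>
    ⟨fun x hx g => lcs_conj (fun x hx => hpn.conj_mem x hx g) k x hx⟩
  have hcls : (S : Subgroup G).lowerCentralSeries 2 = ⊥ := by
    by_contra hne
    refine hd _ (hle 2) hne (NI.lcs NI.self 2) ?_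
    rw [hb.lcs_S]; exact hlcsQn 2
  have hncls : (S : Subgroup G).lowerCentralSeries 1 ≠ ⊥ := by
    intro h1
    apply hb.UQ
    intro u hu
    apply hf.loc.mem_Q (hb.US hu)
    intro v hv
    have h2 : ⁅u, v⁆ ∈ (S : Subgroup G).lowerCentralSeries 1 :=
      Subgroup.commutator_mem_commutator (hb.US hu) (hb.QS (hb.VQ hv))
    rw [h1, Subgroup.mem_bot, commutatorElement_eq_one_iff_mul_comm] at h2
    exact h2
  have hVp : ∀ v ∈ PU.VZ S, v ^ p = 1 := hf.elem.2
  have hUp : ∀ v ∈ U, v ^ p = 1 := by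
    intro v hv
    have h1 : ι v ∈ cj n ((PU.VZ S).map ι) := by rw [← hU]; exact ⟨v, hv, rfl⟩
    obtain ⟨_, ⟨w, hw, rfl⟩, hwv⟩ := h1
    apply hι
    rw [map_pow, ← hwv, map_one]
    show (n * ι w * n⁻¹) ^ p = 1
    rw [conj_pow, ← map_pow, hVp w hw, map_one, mul_one, mul_inv_cancel]
  have hpow : ∀ k : ℕ, (∀ s ∈ (S : Subgroup G), ∃ d ∈ Cfsg.pCore p G, s ^ p ^ k = d ^ p ^ k) →
      ∀ s ∈ (S : Subgroup G), s ^ p ^ k = 1 := by
    intro k hk
    apply powerClosure_eq_bot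
    by_contra hne
    refine hd _ powerClosure_le hne (NI.pow' NI.self) ?_
    have h1 : Cfsg.powerClosure p k (S : Subgroup G) = Cfsg.powerClosure p k (Cfsg.pCore p G) := by
      apply le_antisymm
      · unfold Cfsg.powerClosure
        rw [Subgroup.closure_le]
        rintro _ ⟨s, hs, rfl⟩
        obtain ⟨d, hd', hsd⟩ := hk s hs
        rw [hsd]
        exact Subgroup.subset_closure ⟨d, hd', rfl⟩
      · unfold Cfsg.powerClosure
        apply Subgroup.closure_mono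
        rintro _ ⟨s, hs, rfl⟩
        exact ⟨s, hb.QS hs, rfl⟩
    rw [h1]
    exact powerClosure_normal hpn
  obtain ⟨N, hNk, hNu⟩ := hf.nh
  have hcent := hb.cent_eq h hf hchar
  have hLn : ∀ a ∈ Cfsg.pCore p G, ∀ l ∈ ctr (⊤ : Subgroup G) (Cfsg.pCore p G) (PU.VZ S) hf.loc.Vn, ⁅a, l⁆ ∈ PU.VZ S :=
    fun a ha l hl => (mem_ctr.1 hl).2 a ha
  have hQp : IsPGroup p (Cfsg.pCore p G) := AmalgamCharP.isPGroup_pCore
  refine ⟨hcls, hncls, ?_, ?_, hcent, ⟨N, hNk.trans hcent, hNu⟩, ?_, ?_, ?_⟩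
  · intro hp2
    subst hp2
    have h4 : ∀ s ∈ (S : Subgroup G), s ^ 4 = 1 := by
      have h1 := hpow 2 (fun s hs => by
        refine hb.pow_eq (m := 2 ^ 2) ?_ ?_ ?_ hs
        · intro v hv
          have : 2 ^ 2 * (2 ^ 2 - 1) / 2 = 2 * 3 := by norm_num
          rw [this, pow_mul, hVp v hv, one_pow]
        · intro v hv; rw [pow_two 2, pow_mul, hUp v hv, one_pow]
        · intro v hv; rw [pow_two 2, pow_mul, hVp v hv, one_pow])
      exact h1
    have hdvd : Monoid.exponent ↥(S : Subgroup G) ∣ 2 ^ 2 :=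
      Monoid.exponent_dvd_of_forall_pow_eq_one (fun s => Subtype.ext (h4 s s.2))
    obtain ⟨k, hk, hke⟩ := (Nat.dvd_prime_pow Nat.prime_two).1 hdvd
    have hk2 : k = 2 := by
      by_contra hne
      apply hncls
      apply lcs_one_of_comm
      have h2 : ∀ x ∈ (S : Subgroup G), x ^ 2 = 1 := by
        intro x hx
        have h3 : (⟨x, hx⟩ : ↥(S : Subgroup G)) ^ 2 = 1 := by
          rw [← orderOf_dvd_iff_pow_eq_one]
          refine (Monoid.order_dvd_exponent _).trans ?_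
          rw [hke]
          exact pow_dvd_pow 2 (show k ≤ 1 by omega)
        exact congrArg Subtype.val h3
      intro x hx y hy
      have h5 := h2 _ (mul_mem hx hy)
      have h6 := h2 x hx
      have h7 := h2 y hy
      rw [pow_two] at h5 h6 h7
      have h8 : x⁻¹ = x := inv_eq_of_mul_eq_one_right h6
      have h9 : y⁻¹ = y := inv_eq_of_mul_eq_one_right h7
      have h10 : (x * y)⁻¹ = x * y := inv_eq_of_mul_eq_one_right h5
      rw [_root_.mul_inv_rev, h8, h9] at h10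
      exact h10.symm
    rw [hke, hk2]
    norm_num
  · intro hp2
    have h1 : ∀ s ∈ (S : Subgroup G), s ^ p = 1 := by
      have h1 := hpow 1 (fun s hs => by
        refine hb.pow_eq (m := p ^ 1) ?_ ?_ ?_ hs
        · intro v hv
          rw [pow_one]
          have hodd : p % 2 = 1 := (hp.out.eq_two_or_odd).resolve_left hp2
          have : p * (p - 1) / 2 = p * ((p - 1) / 2) := Nat.mul_div_assoc _ (by omega)
          rw [this, pow_mul, hVp v hv, one_pow]
        · intro v hv; rw [pow_one, hUp v hv]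
        · intro v hv; rw [pow_one, hVp v hv])
      simpa using h1
    have hdvd : Monoid.exponent ↥(S : Subgroup G) ∣ p :=
      Monoid.exponent_dvd_of_forall_pow_eq_one (fun s => Subtype.ext (h1 s s.2))
    rcases (Nat.dvd_prime hp.out).1 hdvd with h2 | h2
    · exfalso
      apply hncls
      have h3 : ∀ s ∈ (S : Subgroup G), s = 1 := by
        intro s hs
        have h4 := Monoid.pow_exponent_eq_one (⟨s, hs⟩ : ↥(S : Subgroup G))
        rw [h2, pow_one] at h4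
        exact congrArg Subtype.val h4
      apply lcs_one_of_comm
      intro x hx y hy
      rw [h3 x hx, h3 y hy]
    · exact h2
  · rw [eq_bot_iff]
    show ⁅PU.zz S, (⊤ : Subgroup G)⁆ ≤ ⊥
    rw [Subgroup.commutator_le]
    intro x hx y hy
    rw [Subgroup.mem_bot, commutatorElement_eq_one_iff_mul_comm]
    exact ((Subgroup.mem_centralizer_iff.1 hx.2) y hy).symm
  · have h1 := iter_le (A := PU.VZ S) hpn hf.norm hf.loc.VQ hLn (hb.top h hf) 2
    rw [← hb.lcs_S, hcls, sup_bot_eq] at h1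
    exact h1
  · intro U W hWn hUQ hc hnc
    have hcov := chief_cover hQp hpn hUQ hc hf.norm hLn (hb.top h hf) hnc
    have hWQ : W ≤ Cfsg.pCore p G := hc.1.le.trans hUQ
    rcases chief_nat hc N inf_le_left hzn hcov (fun w hw => by
      have : w ∈ N.ρ.ker := by rw [hNk, hcent]; exact hWQ hw
      exact this) with h1 | h1
    · exfalso
      have h2 := chief_skip (B := ⊥) hc inferInstance (fun a ha g => by
        rw [Subgroup.mem_bot, commutatorElement_eq_one_iff_mul_comm]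
        exact ((Subgroup.mem_centralizer_iff.1 (Subgroup.mem_inf.1 ha).2) g trivial).symm) h1 hnc
      rw [inf_bot_eq, bot_sup_eq] at h2
      exact absurd h2 hc.1.ne
    · exact h1

end Main

end Cfsg.Agent.Lib.QmCore
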