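import Cfsg.Agent.Lib.QmB9
set_option autoImplicit false
set_option linter.unusedSectionVars false

/-! The case `b = 2`, `p = 3` of the pushing up theorem: structure of `S`. -/
namespace Cfsg.Agent.Lib.QmCore

open Matrix Cfsg.Agent.Lib.ClSL2 Cfsg.Agent.Lib.LocBase
open scoped MatrixGroups commutatorElement

universe u

section Gen
variable {X : Type*} [Group X]

theorem comm_swap' {v w : X} {H : Subgroup X} (h : ⁅v, w⁆ ∈ H) : ⁅w, v⁆ ∈ H := by
  rw [← commutatorElement_inv]; exact inv_mem h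

theorem gen_comm {W : Set X} {P : Subgroup X} (hP : ∀ h ∈ Subgroup.closure W, ∀ x ∈ P, h * x * h⁻¹ ∈ P)
    (hc : ∀ v ∈ W, ∀ w ∈ W, ⁅v, w⁆ ∈ P) : ∀ x ∈ Subgroup.closure W, ∀ y ∈ Subgroup.closure W, ⁅x, y⁆ ∈ P := by
  have h1 : ∀ v ∈ W, ∀ x ∈ Subgroup.closure W, ⁅v, x⁆ ∈ P := by
    intro v hv
    have h2 : Subgroup.closure W ≤ ctr1 (Subgroup.closure W) P v hP := by
      rw [Subgroup.closure_le]
      intro w hw
      exact mem_ctr1.2 ⟨Subgroup.subset_closure hw, hc v hv w hw⟩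
    intro x hx
    exact (mem_ctr1.1 (h2 hx)).2
  intro x hx y hy
  have h2 : Subgroup.closure W ≤ ctr1 (Subgroup.closure W) P y hP := by
    rw [Subgroup.closure_le]
    intro w hw
    exact mem_ctr1.2 ⟨Subgroup.subset_closure hw, comm_swap' (h1 w hw y hy)⟩
  exact comm_swap' (mem_ctr1.1 (h2 hx)).2

theorem engel {S : Subgroup X} (h : ∀ g ∈ S, g ^ 3 = 1) {x y : X} (hx : x ∈ S) (hy : y ∈ S) : ⁅⁅x, y⁆, y⁆ = 1 := by
  have h1 := h _ (mul_mem hx hy)
  have h2 := h _ (mul_mem (inv_mem hx) hy)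
  have h3 := h x hx
  have e1 : y * x * y = x⁻¹ * y⁻¹ * x⁻¹ := by
    have : y * x * y = x⁻¹ * (x * y) ^ 3 * (y⁻¹ * x⁻¹) := by simp only [pow_succ, pow_zero, one_mul]; group
    rw [this, h1]; group
  have e2 : y * x⁻¹ * y = x * y⁻¹ * x := by
    have : y * x⁻¹ * y = x * (x⁻¹ * y) ^ 3 * (y⁻¹ * x) := by simp only [pow_succ, pow_zero, one_mul]; group
    rw [this, h2]; group
  have e3 : x * x = x⁻¹ := by
    have : x * x = x ^ 3 * x⁻¹ := by simp only [pow_succ, pow_zero, one_mul]; group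
    rw [this, h3, one_mul]
  have e4 : x⁻¹ * x⁻¹ = x := by rw [← _root_.mul_inv_rev, e3, inv_inv]
  have h4 : y * (x * y * x⁻¹) = (x * y * x⁻¹) * y := by
    calc y * (x * y * x⁻¹) = (y * x * y) * x⁻¹ := by group
      _ = x⁻¹ * y⁻¹ * (x⁻¹ * x⁻¹) := by rw [e1]; group
      _ = (x * x) * y⁻¹ * x := by rw [e4, e3]
      _ = x * (x * y⁻¹ * x) := by group
      _ = x * (y * x⁻¹ * y) := by rw [e2]
      _ = _ := by group
  rw [commutatorElement_eq_one_iff_mul_comm]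
  have e5 : ⁅x, y⁆ = (x * y * x⁻¹) * y⁻¹ := by rw [commutatorElement_def]
  rw [e5]
  calc x * y * x⁻¹ * y⁻¹ * y = x * y * x⁻¹ := by group
    _ = (x * y * x⁻¹ * y) * y⁻¹ := by group
    _ = (y * (x * y * x⁻¹)) * y⁻¹ := by rw [h4]
    _ = _ := by group

theorem cube_mem {H Z : Subgroup X} (hZc : ∀ z ∈ Z, ∀ h ∈ H, h * z = z * h)
    (hcl : ∀ x ∈ H, ∀ y ∈ H, ∀ w ∈ H, ⁅w, ⁅x, y⁆⁆ ∈ Z) {W : Set X} (hW : H = Subgroup.closure W) (hW3 : ∀ w ∈ W, w ^ 3 = 1) :
    ∀ h ∈ H, h ^ 3 ∈ Z := by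
  have hn : (Z.subgroupOf H).Normal := by
    constructor
    rintro ⟨z, hz'⟩ hz ⟨g, hg⟩
    show g * z * g⁻¹ ∈ Z
    rw [hZc z hz g hg, mul_assoc, mul_inv_cancel, mul_one]
    exact hz
  set π := QuotientGroup.mk' (Z.subgroupOf H) with hπ
  have hk : ∀ x : ↥H, π x = 1 ↔ (x : X) ∈ Z := fun x => QuotientGroup.eq_one_iff x
  have hcl' : ∀ x y w : ↥H, Commute (π w) (π ⁅x, y⁆) := by
    intro x y w
    have h1 : π ⁅w, ⁅x, y⁆⁆ = 1 := (hk _).2 (hcl x x.2 y y.2 w w.2)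
    rw [map_commutatorElement, commutatorElement_eq_one_iff_mul_comm] at h1
    exact h1
  have key : ∀ x ∈ Subgroup.closure W, ∀ (hx : x ∈ H), (π ⟨x, hx⟩) ^ 3 = 1 := by
    intro x hx
    refine Subgroup.closure_induction (p := fun x _ => ∀ (hx : x ∈ H), (π ⟨x, hx⟩) ^ 3 = 1) ?_ ?_ ?_ ?_ hx
    · intro w hw hwH
      rw [← map_pow, hk]
      show w ^ 3 ∈ Z
      rw [hW3 w hw]; exact one_mem _
    · intro _
      have : (⟨1, one_mem H⟩ : ↥H) = 1 := rfl
      rw [this, map_one, one_pow]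
    · intro a b ha hb iha ihb hab
      have haH : a ∈ H := by rw [hW]; exact ha
      have hbH : b ∈ H := by rw [hW]; exact hb
      have h1 := iha haH
      have h2 := ihb hbH
      have h3 : (⟨a * b, hab⟩ : ↥H) = ⟨a, haH⟩ * ⟨b, hbH⟩ := rfl
      rw [h3, map_mul]
      set u := π ⟨a, haH⟩
      set v := π ⟨b, hbH⟩
      have hc : π ⁅(⟨b, hbH⟩ : ↥H), ⟨a, haH⟩⁆ = ⁅v, u⁆ := map_commutatorElement _ _ _
      have c1 : Commute ⁅v, u⁆ u := by rw [← hc]; exact (hcl' _ _ _).symm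
      have c2 : Commute ⁅v, u⁆ v := by rw [← hc]; exact (hcl' _ _ _).symm
      have e0 : v * u = ⁅v, u⁆ * (u * v) := by rw [commutatorElement_def]; group
      have h4 := mul_pow_class_two e0 c1 c2 3
      have h5 : ⁅v, u⁆ ^ 3 = 1 := by
        have k1 : ∀ k : ℕ, v ^ k * u = ⁅v, u⁆ ^ k * (u * v ^ k) := by
          intro k
          induction k with
          | zero => simp
          | succ k ih =>
            calc v ^ (k + 1) * u = v * (v ^ k * u) := by rw [pow_succ']; group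
              _ = v * (⁅v, u⁆ ^ k * (u * v ^ k)) := by rw [ih]
              _ = (v * ⁅v, u⁆ ^ k) * (u * v ^ k) := by group
              _ = (⁅v, u⁆ ^ k * v) * (u * v ^ k) := by rw [(c2.pow_left k).eq]
              _ = ⁅v, u⁆ ^ k * (v * u) * v ^ k := by group
              _ = ⁅v, u⁆ ^ k * (⁅v, u⁆ * (u * v)) * v ^ k := by rw [← e0]
              _ = ⁅v, u⁆ ^ (k + 1) * (u * v ^ (k + 1)) := by rw [pow_succ, pow_succ']; group
        have k3 := k1 3
        rw [h2, one_mul, mul_one] at k3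
        exact (right_eq_mul.1 k3)
      rw [h4, show 3 * (3 - 1) / 2 = 3 by norm_num, h5, h1, h2]
      simp
    · intro a ha iha haH
      have haH' : a ∈ H := by rw [hW]; exact ha
      have h3 : (⟨a⁻¹, haH⟩ : ↥H) = (⟨a, haH'⟩ : ↥H)⁻¹ := rfl
      rw [h3, map_inv, inv_pow, iha haH', inv_one]
  intro h hh
  have h1 := key h (by rw [← hW]; exact hh) hh
  rw [← map_pow, hk] at h1
  exact h1

end Gen

namespace Amal
namespace Seq
variable {X : Type*} [Group X] [Finite X] {q : ℕ} {G S Q V z : Subgroup X}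
variable {g : X} {n y : ℕ → X}

/-- generating set -/
def WW (y : ℕ → X) (V : Subgroup X) : Set X := {x | x ∈ cj (y 0) V ∨ x ∈ cj (y 1) V ∨ x ∈ cj (y 2) V ∨ x ∈ cj (y 3) V}

def CC (y : ℕ → X) (Q : Subgroup X) : Subgroup X := cj (y 0) Q ⊓ cj (y 1) Q ⊓ cj (y 2) Q ⊓ cj (y 3) Q

theorem WW_le (s : Seq q G S Q V z 2 g n y) : Subgroup.closure (WW y V) ≤ cj (y 2) S := by
  rw [Subgroup.closure_le]
  rintro x (hx | hx | hx | hx)
  · exact (s.crit 0).h1 hx
  · exact (s.locL 2).QS (s.near (i := 1) (j := 2) (by omega) (by omega) hx)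
  · exact (s.locL 2).VleS hx
  · exact (s.crit 1).h2 hx

theorem V_le_H {i : ℕ} (hi : i ≤ 3) : cj (y i) V ≤ Subgroup.closure (WW y V) := by
  intro x hx
  apply Subgroup.subset_closure
  interval_cases i
  · exact Or.inl hx
  · exact Or.inr (Or.inl hx)
  · exact Or.inr (Or.inr (Or.inl hx))
  · exact Or.inr (Or.inr (Or.inr hx))

theorem H_CC (s : Seq q G S Q V z 2 g n y) : ∀ x ∈ Subgroup.closure (WW y V), ∀ c ∈ CC y Q, x * c = c * x := by
  intro x hx c hc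
  have h1 : Subgroup.closure (WW y V) ≤ Subgroup.centralizer {c} := by
    rw [Subgroup.closure_le]
    rintro x (hx | hx | hx | hx)
    · exact Subgroup.mem_centralizer_singleton_iff.2 ((s.locL 0).QV c hc.1.1.1 x hx).symm
    · exact Subgroup.mem_centralizer_singleton_iff.2 ((s.locL 1).QV c hc.1.1.2 x hx).symm
    · exact Subgroup.mem_centralizer_singleton_iff.2 ((s.locL 2).QV c hc.1.2 x hx).symm
    · exact Subgroup.mem_centralizer_singleton_iff.2 ((s.locL 3).QV c hc.2 x hx).symm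
  exact Subgroup.mem_centralizer_singleton_iff.1 (h1 hx)

theorem Q_dec (s : Seq q G S Q V z 2 g n y) : ∀ a ∈ cj (y 2) Q, ∃ h ∈ cj (y 1) V ⊔ cj (y 2) V ⊔ cj (y 3) V, ∃ c ∈ CC y Q, a = h * c := by
  intro a ha
  have haS : a ∈ cj (y 2) S := (s.locL 2).QS ha
  obtain ⟨v3, hv3, b, hb, rfl⟩ := (s.crit 1).mem_S haS
  have hv3Q : v3 ∈ cj (y 2) Q := s.near' (i := 2) (j := 3) (by omega) (by omega) hv3
  have hb2 : b ∈ cj (y 2) Q := by
    have := mul_mem (inv_mem hv3Q) ha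
    rwa [inv_mul_cancel_left] at this
  have hbS1 : b ∈ cj (y 1) S := (s.locL 1).QS hb
  obtain ⟨v2, hv2, d, hd, rfl⟩ := (s.crit 0).mem_S hbS1
  have hv21 : v2 ∈ cj (y 1) Q := s.near' (i := 1) (j := 2) (by omega) (by omega) hv2
  have hv22 : v2 ∈ cj (y 2) Q := (s.locL 2).VQ hv2
  have hd1 : d ∈ cj (y 1) Q := by
    have := mul_mem (inv_mem hv21) hb
    rwa [inv_mul_cancel_left] at this
  have hd2 : d ∈ cj (y 2) Q := by
    have := mul_mem (inv_mem hv22) hb2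
    rwa [inv_mul_cancel_left] at this
  have hdS3 : d ∈ cj (y 3) S := (s.locR 2).QS hd2
  obtain ⟨v1, hv1, e, he, rfl⟩ := (s.crit 1).mem_S' hdS3
  have hv10 : v1 ∈ cj (y 0) Q := s.near' (i := 0) (j := 1) (by omega) (by omega) hv1
  have hv11 : v1 ∈ cj (y 1) Q := (s.locL 1).VQ hv1
  have hv12 : v1 ∈ cj (y 2) Q := s.near (i := 1) (j := 2) (by omega) (by omega) hv1
  have he0 : e ∈ cj (y 0) Q := by
    have := mul_mem (inv_mem hv10) hd
    rwa [inv_mul_cancel_left] at this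
  have he1 : e ∈ cj (y 1) Q := by
    have := mul_mem (inv_mem hv11) hd1
    rwa [inv_mul_cancel_left] at this
  have he2 : e ∈ cj (y 2) Q := by
    have := mul_mem (inv_mem hv12) hd2
    rwa [inv_mul_cancel_left] at this
  refine ⟨v3 * v2 * v1, ?_, e, ?_, by group⟩
  · exact mul_mem (mul_mem (Subgroup.mem_sup_right hv3) (Subgroup.mem_sup_left (Subgroup.mem_sup_right hv2)))
      (Subgroup.mem_sup_left (Subgroup.mem_sup_left hv1))
  · exact Subgroup.mem_inf.2 ⟨Subgroup.mem_inf.2 ⟨Subgroup.mem_inf.2 ⟨he0, he1⟩, he2⟩, he⟩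

theorem H'_le : cj (y 1) V ⊔ cj (y 2) V ⊔ cj (y 3) V ≤ Subgroup.closure (WW y V) :=
  sup_le (sup_le (V_le_H (by omega)) (V_le_H (by omega))) (V_le_H (by omega))

theorem S_dec (s : Seq q G S Q V z 2 g n y) : ∀ a ∈ cj (y 2) S, ∃ h ∈ Subgroup.closure (WW y V), ∃ c ∈ CC y Q, a = h * c := by
  intro a ha
  obtain ⟨v0, hv0, b, hb, rfl⟩ := (s.crit 0).mem_S' ha
  obtain ⟨h, hh, c, hc, rfl⟩ := s.Q_dec b hb
  exact ⟨v0 * h, mul_mem (V_le_H (i := 0) (by omega) hv0) (H'_le hh), c, hc, by group⟩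

theorem S_eq (s : Seq q G S Q V z 2 g n y) : Subgroup.closure (WW y V) ⊔ CC y Q = cj (y 2) S := by
  apply le_antisymm
  · exact sup_le s.WW_le ((inf_le_left.trans inf_le_right).trans (s.locL 2).QS)
  · intro a ha
    obtain ⟨h, hh, c, hc, rfl⟩ := s.S_dec a ha
    exact mul_mem (Subgroup.mem_sup_left hh) (Subgroup.mem_sup_right hc)

theorem Q_eq (s : Seq q G S Q V z 2 g n y) : (cj (y 1) V ⊔ cj (y 2) V ⊔ cj (y 3) V) ⊔ CC y Q = cj (y 2) Q := by
  apply le_antisymm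
  · refine sup_le (sup_le (sup_le ?_ ?_) ?_) (inf_le_left.trans inf_le_right)
    · exact s.near (by omega) (by omega)
    · exact (s.locL 2).VQ
    · exact s.near' (by omega) (by omega)
  · intro a ha
    obtain ⟨h, hh, c, hc, rfl⟩ := s.Q_dec a ha
    exact mul_mem (Subgroup.mem_sup_left hh) (Subgroup.mem_sup_right hc)

/-- `z₁ z₂` -/
def ZT (y : ℕ → X) (z : Subgroup X) : Subgroup X := cj (y 1) z ⊔ cj (y 2) z

theorem ZT_central (s : Seq q G S Q V z 2 g n y) : ∀ x ∈ ZT y z, ∀ h ∈ cj (y 2) S, h * x = x * h := by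
  intro x hx h hh
  have h1 : ZT y z ≤ Subgroup.centralizer {h} := by
    apply sup_le
    · intro x hx
      exact Subgroup.mem_centralizer_singleton_iff.2 ((((s.locL 1).zz x).1 hx).2 h ((s.locR 1).SG hh)).symm
    · intro x hx
      exact Subgroup.mem_centralizer_singleton_iff.2 ((((s.locL 2).zz x).1 hx).2 h ((s.locL 2).SG hh)).symm
  exact (Subgroup.mem_centralizer_singleton_iff.1 (h1 hx)).symm

theorem ZT_le (s : Seq q G S Q V z 2 g n y) : ZT y z ≤ Subgroup.closure (WW y V) :=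
  sup_le ((s.locL 1).z_le.trans (V_le_H (by omega))) ((s.locL 2).z_le.trans (V_le_H (by omega)))

/-- `[H,H,H] ≤ z₁z₂` -/
theorem HHH (s : Seq q G S Q V z 2 g n y) : ∀ x ∈ Subgroup.closure (WW y V), ∀ x' ∈ Subgroup.closure (WW y V),
    ∀ w ∈ Subgroup.closure (WW y V), ⁅w, ⁅x, x'⁆⁆ ∈ ZT y z := by
  have hZn : ∀ h ∈ Subgroup.closure (WW y V), ∀ x ∈ ZT y z, h * x * h⁻¹ ∈ ZT y z := by
    intro h hh x hx
    rw [s.ZT_central x hx h (s.WW_le hh), mul_assoc, mul_inv_cancel, mul_one]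
    exact hx
  set H := Subgroup.closure (WW y V) with hH
  have hHn : ∀ h ∈ H, ∀ x ∈ H, h * x * h⁻¹ ∈ H := fun h hh x hx => mul_mem (mul_mem hh hx) (inv_mem hh)
  set P := ctr H H (ZT y z) hZn with hP
  have hPn : ∀ h ∈ H, ∀ x ∈ P, h * x * h⁻¹ ∈ P := fun h hh x hx => ctr_conj hHn hh hx
  have hVH : ∀ {i : ℕ}, i ≤ 3 → cj (y i) V ≤ H := fun hi => V_le_H hi
  have hcH : ∀ {a b : X}, a ∈ H → b ∈ H → ⁅a, b⁆ ∈ H := fun ha hb =>
    mul_mem (mul_mem (mul_mem ha hb) (inv_mem ha)) (inv_mem hb)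
  -- elements of `ZT`
  have hZP : ZT y z ≤ P := by
    intro x hx
    refine mem_ctr.2 ⟨s.ZT_le hx, fun h hh => ?_⟩
    rw [commutatorElement_eq_one_iff_mul_comm.2 (s.ZT_central x hx h (s.WW_le hh))]
    exact one_mem _
  have hone : ∀ {a b : X}, a * b = b * a → ⁅a, b⁆ ∈ P := by
    intro a b h
    rw [commutatorElement_eq_one_iff_mul_comm.2 h]; exact one_mem _
  have h01 : ∀ i, ∀ v ∈ cj (y i) V, ∀ w ∈ cj (y (i + 1)) V, v * w = w * v := by
    intro i v hv w hw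
    exact (s.locL (i + 1)).QV v (s.near (by omega) (by omega) hv) w hw
  have h00 : ∀ i, ∀ v ∈ cj (y i) V, ∀ w ∈ cj (y i) V, v * w = w * v := by
    intro i v hv w hw
    exact (s.locL i).QV v ((s.locL i).VQ hv) w hw
  have h02 : ∀ v ∈ cj (y 0) V, ∀ w ∈ cj (y 2) V, ⁅v, w⁆ ∈ P := fun v hv w hw =>
    hZP (Subgroup.mem_sup_left (s.comm_z (i := 0) hv hw))
  have h13 : ∀ v ∈ cj (y 1) V, ∀ w ∈ cj (y 3) V, ⁅v, w⁆ ∈ P := fun v hv w hw =>
    hZP (Subgroup.mem_sup_right (s.comm_z (i := 1) hv hw))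
  have h03 : ∀ v ∈ cj (y 0) V, ∀ w ∈ cj (y 3) V, ⁅v, w⁆ ∈ P := by
    intro v hv w hw
    have hv1 : v ∈ cj (y 1) Q := s.near (i := 0) (j := 1) (by omega) (by omega) hv
    have hw2 : w ∈ cj (y 2) Q := s.near' (i := 2) (j := 3) (by omega) (by omega) hw
    have hvS : v ∈ cj (y 2) S := (s.crit 0).h1 hv
    have hwS : w ∈ cj (y 2) S := (s.crit 1).h2 hw
    have hr1 : ⁅v, w⁆ ∈ cj (y 1) Q := by
      have e : ⁅v, w⁆ = v * (w * v⁻¹ * w⁻¹) := by rw [commutatorElement_def]; group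
      rw [e]
      exact mul_mem hv1 ((s.locL 1).Qn w ((s.locR 1).SG hwS) _ (inv_mem hv1))
    have hr2 : ⁅v, w⁆ ∈ cj (y 2) Q := by
      have e : ⁅v, w⁆ = (v * w * v⁻¹) * w⁻¹ := by rw [commutatorElement_def]
      rw [e]
      exact mul_mem ((s.locL 2).Qn v ((s.locL 2).SG hvS) _ hw2) (inv_mem hw2)
    refine mem_ctr.2 ⟨hcH (hVH (by omega) hv) (hVH (by omega) hw), ?_⟩
    have h1 : H ≤ ctr1 H (ZT y z) ⁅v, w⁆ hZn := by
      refine (Subgroup.closure_le _).2 ?_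
      rintro x (hx | hx | hx | hx)
      · exact mem_ctr1.2 ⟨hVH (by omega : 0 ≤ 3) hx, Crit.comm_swap (Subgroup.mem_sup_left (s.commQ (i := 0) hx hr1))⟩
      · refine mem_ctr1.2 ⟨hVH (by omega : 1 ≤ 3) hx, ?_⟩
        rw [commutatorElement_eq_one_iff_mul_comm.2 ((s.locL 1).QV _ hr1 x hx)]; exact one_mem _
      · refine mem_ctr1.2 ⟨hVH (by omega : 2 ≤ 3) hx, ?_⟩
        rw [commutatorElement_eq_one_iff_mul_comm.2 ((s.locL 2).QV _ hr2 x hx)]; exact one_mem _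
      · exact mem_ctr1.2 ⟨hVH (by omega : 3 ≤ 3) hx, Crit.comm_swap (Subgroup.mem_sup_right (s.commQ' (i := 1) hx hr2))⟩
    intro h hh
    exact Crit.comm_swap (mem_ctr1.1 (h1 hh)).2
  have key := gen_comm (W := WW y V) (P := P) hPn (by
    rintro v (hv | hv | hv | hv) w (hw | hw | hw | hw)
    · exact hone (h00 0 v hv w hw)
    · exact hone (h01 0 v hv w hw)
    · exact h02 v hv w hw
    · exact h03 v hv w hw
    · exact hone (h01 0 w hw v hv).symm
    · exact hone (h00 1 v hv w hw)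
    · exact hone (h01 1 v hv w hw)
    · exact h13 v hv w hw
    · exact Crit.comm_swap (h02 w hw v hv)
    · exact hone (h01 1 w hw v hv).symm
    · exact hone (h00 2 v hv w hw)
    · exact hone (h01 2 v hv w hw)
    · exact Crit.comm_swap (h03 w hw v hv)
    · exact Crit.comm_swap (h13 w hw v hv)
    · exact hone (h01 2 w hw v hv).symm
    · exact hone (h00 3 v hv w hw))
  intro x hx x' hx' w hw
  exact (mem_ctr.1 (key x hx x' hx')).2 w hw

theorem H_lcs (s : Seq q G S Q V z 2 g n y) : (Subgroup.closure (WW y V)).lowerCentralSeries 3 = ⊥ := by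
  have h2 : (Subgroup.closure (WW y V)).lowerCentralSeries 2 ≤ ZT y z := by
    show ⁅(Subgroup.closure (WW y V)).lowerCentralSeries 1, Subgroup.closure (WW y V)⁆ ≤ _
    rw [Subgroup.commutator_comm]
    have hZn : ∀ h ∈ Subgroup.closure (WW y V), ∀ x ∈ ZT y z, h * x * h⁻¹ ∈ ZT y z := by
      intro h hh x hx
      rw [s.ZT_central x hx h (s.WW_le hh), mul_assoc, mul_inv_cancel, mul_one]
      exact hx
    set H := Subgroup.closure (WW y V) with hH
    have h1 : H.lowerCentralSeries 1 ≤ ctr H H (ZT y z) hZn := by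
      show ⁅H, H⁆ ≤ _
      rw [Subgroup.commutator_le]
      intro x hx x' hx'
      exact mem_ctr.2 ⟨mul_mem (mul_mem (mul_mem hx hx') (inv_mem hx)) (inv_mem hx'), fun w hw => s.HHH x hx x' hx' w hw⟩
    rw [Subgroup.commutator_le]
    intro w hw x hx
    exact (mem_ctr.1 (h1 hx)).2 w hw
  rw [eq_bot_iff]
  show ⁅(Subgroup.closure (WW y V)).lowerCentralSeries 2, Subgroup.closure (WW y V)⁆ ≤ ⊥
  rw [Subgroup.commutator_le]
  intro x hx h hh
  rw [Subgroup.mem_bot, commutatorElement_eq_one_iff_mul_comm]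
  exact (s.ZT_central x (h2 hx) h (s.WW_le hh)).symm

theorem lcs_mono {H K : Subgroup X} (h : H ≤ K) (k : ℕ) : H.lowerCentralSeries k ≤ K.lowerCentralSeries k := by
  induction k with
  | zero => exact h
  | succ k ih => exact Subgroup.commutator_mono ih h

theorem lcs_eq (s : Seq q G S Q V z 2 g n y) : (cj (y 2) S).lowerCentralSeries 3 = (cj (y 2) Q).lowerCentralSeries 3 := by
  have h1 : (cj (y 2) S).lowerCentralSeries 3 = (CC y Q).lowerCentralSeries 3 := by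
    rw [← s.S_eq, lcs_sup s.H_CC, s.H_lcs, bot_sup_eq]
  have h2 : (cj (y 1) V ⊔ cj (y 2) V ⊔ cj (y 3) V).lowerCentralSeries 3 = ⊥ := by
    rw [eq_bot_iff, ← s.H_lcs]
    exact lcs_mono H'_le 3
  have h3 : (cj (y 2) Q).lowerCentralSeries 3 = (CC y Q).lowerCentralSeries 3 := by
    rw [← s.Q_eq, lcs_sup (fun x hx c hc => s.H_CC x (H'_le hx) c hc), h2, bot_sup_eq]
  rw [h1, h3]

/-- ninth powers -/
theorem pow9 (s : Seq q G S Q V z 2 g n y) (h3 : ∀ v ∈ V, v ^ 3 = 1) : ∀ a ∈ cj (y 2) S, ∃ c ∈ cj (y 2) Q, a ^ 9 = c ^ 9 := by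
  intro a ha
  obtain ⟨h, hh, c, hc, rfl⟩ := s.S_dec a ha
  refine ⟨c, hc.1.2, ?_⟩
  have h1 : Commute h c := s.H_CC h hh c hc
  have hV3 : ∀ i, ∀ v ∈ cj (y i) V, v ^ 3 = 1 := by
    rintro i _ ⟨v, hv, rfl⟩
    show (y i * v * (y i)⁻¹) ^ 3 = 1
    rw [conj_pow, h3 v hv, mul_one, mul_inv_cancel]
  have h2 := cube_mem (fun z hz h hh => s.ZT_central z hz h (s.WW_le hh)) s.HHH (W := WW y V) rfl (by
    rintro w (hw | hw | hw | hw)
    · exact hV3 _ w hw
    · exact hV3 _ w hw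
    · exact hV3 _ w hw
    · exact hV3 _ w hw) h hh
  have h4 : ∀ x ∈ ZT y z, x ^ 3 = 1 := by
    intro x hx
    obtain ⟨a, ha, b, hb, rfl⟩ := mem_sup_of_norm (A := cj (y 1) z) (B := cj (y 2) z) (fun a ha b hb => by
      have h5 := s.ZT_central b (Subgroup.mem_sup_right hb) a ((s.WW_le) (V_le_H (i := 1) (by omega) ((s.locL 1).z_le ha)))
      rw [h5, mul_assoc, mul_inv_cancel, mul_one]; exact hb) hx
    have h5 : Commute a b := s.ZT_central b (Subgroup.mem_sup_right hb) a ((s.WW_le) (V_le_H (i := 1) (by omega) ((s.locL 1).z_le ha)))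
    rw [h5.mul_pow, hV3 1 a ((s.locL 1).z_le ha), hV3 2 b ((s.locL 2).z_le hb), mul_one]
  have h5 : h ^ 9 = 1 := by
    rw [show 9 = 3 * 3 by norm_num, pow_mul]; exact h4 _ h2
  rw [h1.mul_pow, h5, one_mul]

end Seq
end Amal

end Cfsg.Agent.Lib.QmCore
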