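import Cfsg.Agent.Lib.QmB10
set_option autoImplicit false
set_option linter.unusedSectionVars false

/-! The pushing up theorem. -/
namespace Cfsg.Agent.Lib.QmCore

open Matrix Cfsg.Agent.Lib.ClSL2 Cfsg.Agent.Lib.LocBase
open scoped MatrixGroups commutatorElement

universe u

/-- the final result for `b = 2` -/
structure B2Res {G : Type*} [Group G] [Finite G] (S Q V z : Subgroup G) (F : Type*) [Field F] : Prop where
  cls : S.lowerCentralSeries 3 = ⊥
  ncls : S.lowerCentralSeries 2 ≠ ⊥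
  exp : Monoid.exponent ↥S = 9
  nh : ∃ N : NH V z F, N.ρ.ker = Q
  chain : ∃ Y D : Subgroup G, V ≤ D ∧ D ≤ Y ∧ Y ≤ Q ∧ D.Normal ∧ Y.Normal ∧ Nonempty (NH Y D F) ∧
    Cfsg.iterCommutator D (⊤ : Subgroup G) 1 ≤ V ∧ Cfsg.iterCommutator Q (⊤ : Subgroup G) 3 ≤ Y
  it1 : Cfsg.iterCommutator z (⊤ : Subgroup G) 1 = ⊥
  nat : ∀ (U W : Subgroup G) [W.Normal], U ≤ Q → Cfsg.IsChiefFactor U W → ¬ ⁅U, (⊤ : Subgroup G)⁆ ≤ W →
    Cfsg.IsNaturalSL2Module F (U.map (QuotientGroup.mk' W)) (⊤ : Subgroup (G ⧸ W))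

section Main
variable {G X : Type u} [Group G] [Group X] [Finite G] [Finite X] {ι : G →* X} {S : Sylow 3 G}
  {M : Subgroup G} {F : Type*} [Field F] [Fintype F] [CharP F 3] {φ : G →* PSL(2, F)}

theorem b2_res (hι : Function.Injective ι) (h : PU 3 S M φ) (hf : PUF S F)
    (hchar : Subgroup.centralizer (Cfsg.pCore 3 G : Set G) ≤ Cfsg.pCore 3 G)
    (hd : ∀ T : Subgroup G, T ≤ S → T ≠ ⊥ → NI ι (S : Subgroup G) T → ¬ T.Normal) {g : X} {n y : ℕ → X}
    (s : Amal.Seq (Fintype.card F) ((⊤ : Subgroup G).map ι) ((S : Subgroup G).map ι) ((Cfsg.pCore 3 G).map ι) ((PU.VZ S).map ι)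
      ((PU.zz S).map ι) 2 g n y) : B2Res (S : Subgroup G) (Cfsg.pCore 3 G) (PU.VZ S) (PU.zz S) F := by
  classical
  have hpn : (Cfsg.pCore 3 G).Normal := pCore_normal 3 G
  have hVn := hf.norm
  have hzn := zz_normal hf
  have hV3 : ∀ v ∈ (PU.VZ S).map ι, v ^ 3 = 1 := by
    rintro _ ⟨v, hv, rfl⟩
    rw [← map_pow, hf.elem.2 v hv, map_one]
  have hle : ∀ k, (S : Subgroup G).lowerCentralSeries k ≤ S := fun k =>
    (Subgroup.lowerCentralSeries_antitone (S : Subgroup G) (Nat.zero_le k)).trans le_rfl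
  have hlcsQn : ∀ k, ((Cfsg.pCore 3 G).lowerCentralSeries k).Normal := fun k =>
    ⟨fun x hx g => lcs_conj (fun x hx => hpn.conj_mem x hx g) k x hx⟩
  -- embedding centred at `y 2`
  have hcomp : ∀ (a : X) (H : Subgroup G), cj a (H.map ι) = H.map ((MulAut.conj a).toMonoidHom.comp ι) := fun a H => by
    rw [← Subgroup.map_map]; rfl
  have hinj : ∀ a : X, Function.Injective ((MulAut.conj a).toMonoidHom.comp ι) := fun a => (MulAut.conj a).injective.comp hι
  have hlcs : (S : Subgroup G).lowerCentralSeries 3 = (Cfsg.pCore 3 G).lowerCentralSeries 3 := by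
    have h1 := s.lcs_eq
    rw [hcomp, hcomp, ← Subgroup.map_lowerCentralSeries, ← Subgroup.map_lowerCentralSeries] at h1
    exact Subgroup.map_injective (hinj _) h1
  have hcls : (S : Subgroup G).lowerCentralSeries 3 = ⊥ := by
    by_contra hne
    refine hd _ (hle 3) hne (NI.lcs NI.self 3) ?_
    rw [hlcs]; exact hlcsQn 3
  have hncls : (S : Subgroup G).lowerCentralSeries 2 ≠ ⊥ := by
    intro h1
    have h2 : (cj (y 3) ((S : Subgroup G).map ι)).lowerCentralSeries 2 = ⊥ := by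
      rw [hcomp, ← Subgroup.map_lowerCentralSeries, h1, Subgroup.map_bot]
    apply s.no_two_of_quad
    intro t ht w hw
    have ht3 : t ∈ cj (y 3) ((S : Subgroup G).map ι) := (s.crit 1).h1 ht
    have hw3 : w ∈ cj (y 3) ((S : Subgroup G).map ι) := (s.crit 2).h2 hw
    have h3 : ∀ a ∈ cj (y 3) ((S : Subgroup G).map ι), ∀ b ∈ cj (y 3) ((S : Subgroup G).map ι),
        ⁅⁅a, b⁆, b⁆ = 1 := by
      intro a ha b hb
      have h4 : ⁅⁅a, b⁆, b⁆ ∈ (cj (y 3) ((S : Subgroup G).map ι)).lowerCentralSeries 2 :=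
        Subgroup.commutator_mem_commutator (Subgroup.commutator_mem_commutator ha hb) hb
      rw [h2] at h4
      exact h4
    rw [h3 t ht3 w hw3, h3 w hw3 t ht3]
    exact ⟨one_mem _, one_mem _⟩
  have hpow9 : ∀ a ∈ (S : Subgroup G), a ^ 9 = 1 := by
    have h0 : Cfsg.powerClosure 3 2 (S : Subgroup G) = ⊥ := by
      by_contra hne
      refine hd _ powerClosure_le hne (NI.pow' NI.self) ?_
      have h1 : Cfsg.powerClosure 3 2 (S : Subgroup G) = Cfsg.powerClosure 3 2 (Cfsg.pCore 3 G) := by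
        apply le_antisymm
        · unfold Cfsg.powerClosure
          rw [Subgroup.closure_le]
          rintro _ ⟨a, ha, rfl⟩
          have ha' : y 2 * ι a * (y 2)⁻¹ ∈ cj (y 2) ((S : Subgroup G).map ι) := conj_mem_cj ⟨a, ha, rfl⟩
          obtain ⟨_, ⟨_, ⟨c, hc, rfl⟩, rfl⟩, hac⟩ := s.pow9 hV3 _ ha'
          have hac' : (y 2 * ι a * (y 2)⁻¹) ^ 9 = (y 2 * ι c * (y 2)⁻¹) ^ 9 := hac
          rw [conj_pow, conj_pow] at hac'
          have h2 : ι (a ^ 9) = ι (c ^ 9) := by
            rw [map_pow, map_pow]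
            exact mul_left_cancel (mul_right_cancel hac')
          have h3 : a ^ 3 ^ 2 = c ^ 3 ^ 2 := hι h2
          rw [h3]
          exact Subgroup.subset_closure ⟨c, hc, rfl⟩
        · unfold Cfsg.powerClosure
          apply Subgroup.closure_mono
          rintro _ ⟨a, ha, rfl⟩
          exact ⟨a, hf.loc.QS ha, rfl⟩
      rw [h1]
      exact powerClosure_normal hpn
    exact powerClosure_eq_bot h0
  have hexp : Monoid.exponent ↥(S : Subgroup G) = 9 := by
    have hdvd : Monoid.exponent ↥(S : Subgroup G) ∣ 3 ^ 2 :=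
      Monoid.exponent_dvd_of_forall_pow_eq_one (fun a => Subtype.ext (hpow9 a a.2))
    obtain ⟨k, hk, hke⟩ := (Nat.dvd_prime_pow Nat.prime_three).1 hdvd
    have hk2 : k = 2 := by
      by_contra hne
      have h3 : ∀ a ∈ (S : Subgroup G), a ^ 3 = 1 := by
        intro a ha
        have h3 : (⟨a, ha⟩ : ↥(S : Subgroup G)) ^ 3 = 1 := by
          rw [← orderOf_dvd_iff_pow_eq_one]
          refine (Monoid.order_dvd_exponent _).trans ?_
          rw [hke]
          exact pow_dvd_pow 3 (show k ≤ 1 by omega)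
        exact congrArg Subtype.val h3
      have h4 : ∀ a ∈ cj (y 3) ((S : Subgroup G).map ι), a ^ 3 = 1 := by
        rintro _ ⟨_, ⟨a, ha, rfl⟩, rfl⟩
        show (y 3 * ι a * (y 3)⁻¹) ^ 3 = 1
        rw [conj_pow, ← map_pow, h3 a ha, map_one, mul_one, mul_inv_cancel]
      apply s.no_two_of_quad
      intro t ht w hw
      have ht3 : t ∈ cj (y 3) ((S : Subgroup G).map ι) := (s.crit 1).h1 ht
      have hw3 : w ∈ cj (y 3) ((S : Subgroup G).map ι) := (s.crit 2).h2 hw
      rw [engel h4 ht3 hw3, engel h4 hw3 ht3]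
      exact ⟨one_mem _, one_mem _⟩
    rw [hke, hk2]
    norm_num
  have hcentle : Subgroup.centralizer (PU.VZ S : Set G) ≤ Cfsg.pCore 3 G := by
    by_contra hne
    exact s.false_of_quad hι hf (B2.quad_of_cent (by norm_num) h hf hchar hne)
  have hcent : Subgroup.centralizer (PU.VZ S : Set G) = Cfsg.pCore 3 G := by
    apply le_antisymm hcentle
    intro a ha
    rw [Subgroup.mem_centralizer_iff]
    intro v hv
    exact (hf.loc.QV a ha v hv).symm
  obtain ⟨N₁, hN1, hN1u⟩ := hf.nh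
  -- the configuration
  have c0 := s.b2 hV3 0
  rw [hcomp (y (0 + 1)), hcomp (y (0 + 1)), hcomp (y (0 + 1)), hcomp (y (0 + 1)) (PU.VZ S), hcomp (y (0 + 1))] at c0
  have c := c0.comap (hinj _)
  clear c0
  generalize (cj (y 0) ((PU.VZ S).map ι)).comap ((MulAut.conj (y (0 + 1))).toMonoidHom.comp ι) = T at c
  obtain ⟨D, N, nn⟩ := c.exists_NN h hf
  have hYn : (B2.YY T).Normal := Subgroup.normalClosure_normal
  have hQp : IsPGroup 3 (Cfsg.pCore 3 G) := AmalgamCharP.isPGroup_pCore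
  have hLn : ∀ a ∈ Cfsg.pCore 3 G, ∀ l ∈ ctr (⊤ : Subgroup G) (Cfsg.pCore 3 G) (B2.YY T)
      (fun g _ v hv => (Subgroup.normalClosure_normal (s := (T : Set G))).conj_mem v hv g), ⁅a, l⁆ ∈ B2.YY T :=
    fun a ha l hl => (mem_ctr.1 hl).2 a ha
  refine ⟨hcls, hncls, hexp, ⟨N₁, hN1.trans hcent⟩, ⟨B2.YY T, D, nn.VD, nn.DY, c.Y_le_Q, nn.Dn, hYn, ⟨N⟩, ?_, ?_⟩, ?_, ?_⟩
  · show ⁅D, (⊤ : Subgroup G)⁆ ≤ _
    rw [Subgroup.commutator_le]
    intro d hd g _
    exact nn.DV d hd g
  · have h1 := iter_le hpn hYn c.Y_le_Q hLn (c.YL_top hf) 3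
    rw [← hlcs, hcls, sup_bot_eq] at h1
    exact h1
  · rw [eq_bot_iff]
    show ⁅PU.zz S, (⊤ : Subgroup G)⁆ ≤ ⊥
    rw [Subgroup.commutator_le]
    intro x hx y hy
    rw [Subgroup.mem_bot, commutatorElement_eq_one_iff_mul_comm]
    exact ((Subgroup.mem_centralizer_iff.1 hx.2) y hy).symm
  · intro U W hWn hUQ hc hnc
    have hcov := chief_cover hQp hpn hUQ hc hYn hLn (c.YL_top hf) hnc
    have hWQ : W ≤ Cfsg.pCore 3 G := hc.1.le.trans hUQ
    rcases chief_nat hc N nn.DY nn.Dn hcov (fun w hw => nn.of_Q hf c (hWQ hw)) with h1 | h1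
    · have h2 := chief_skip (B := PU.VZ S) hc hVn (fun a ha g => nn.DV a ha g) h1 hnc
      rcases chief_nat hc N₁ inf_le_left hzn h2 (fun w hw => by
        have : w ∈ N₁.ρ.ker := by rw [hN1, hcent]; exact hWQ hw
        exact this) with h3 | h3
      · exfalso
        have h4 := chief_skip (B := ⊥) hc inferInstance (fun a ha g => by
          rw [Subgroup.mem_bot, commutatorElement_eq_one_iff_mul_comm]
          exact ((Subgroup.mem_centralizer_iff.1 (Subgroup.mem_inf.1 ha).2) g trivial).symm) h3 hnc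
        rw [inf_bot_eq, bot_sup_eq] at h4
        exact absurd h4 hc.1.ne
      · exact h3
    · exact h1

end Main

/-- the pushing up theorem -/
theorem pushing_up {p : ℕ} [hp : Fact p.Prime] {G X : Type u} [Group G] [Group X] [Finite G] [Finite X] {ι : G →* X} {S : Sylow p G}
    {M : Subgroup G} {F : Type*} [Field F] [Fintype F] [CharP F p] {φ : G →* PSL(2, F)}
    (hι : Function.Injective ι) (h : PU p S M φ)
    (hchar : Subgroup.centralizer (Cfsg.pCore p G : Set G) ≤ Cfsg.pCore p G)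
    (hd : ∀ T : Subgroup G, T ≤ S → T ≠ ⊥ → NI ι (S : Subgroup G) T → ¬ T.Normal) :
    PUF S F ∧ ((∃ n ∈ Subgroup.normalizer (((S : Subgroup G).map ι : Subgroup X) : Set X),
        ¬ (PU.VZ S).map ι ≤ cj n ((Cfsg.pCore p G).map ι)) ∨
      (p = 3 ∧ B2Res (S : Subgroup G) (Cfsg.pCore p G) (PU.VZ S) (PU.zz S) F)) := by
  have hf : PUF S F := exists_PUF hι h hchar hd
  refine ⟨hf, ?_⟩
  rcases exists_b1_of_dich hι hf hd with h1 | ⟨g, n, y, s⟩
  · exact Or.inl h1
  · by_cases h2 : p = 2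
    · subst h2
      exact Or.inl (exists_b1_two hι hf hd)
    · by_cases h3 : p = 3
      · subst h3
        exact Or.inr ⟨rfl, b2_res hι h hf hchar hd s⟩
      · exfalso
        have hp5 : 5 ≤ p := by
          have := hp.out.two_le
          by_contra hlt
          have : p = 4 := by omega
          subst this
          exact absurd hp.out (by norm_num)
        exact s.false_of_quad hι hf (allQuad_of_big hp5 h hf)

/-- characteristic subgroups and the regular embedding -/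
theorem hd_of_char {p : ℕ} [hp : Fact p.Prime] {G : Type u} [Group G] {S : Sylow p G}
    (hd : ∀ T : Subgroup ↥(S : Subgroup G), T ≠ ⊥ → T.Characteristic → ¬ (T.map (S : Subgroup G).subtype).Normal) :
    ∀ T : Subgroup G, T ≤ S → T ≠ ⊥ → NI (iR G) (S : Subgroup G) T → ¬ T.Normal := by
  intro T' hT' hne hni hn
  have h1 := char_of_NI hT' hni
  have h2 : (T'.subgroupOf (S : Subgroup G)).map (S : Subgroup G).subtype = T' := Subgroup.map_subgroupOf_eq_of_le hT'
  apply hd _ _ h1 (by rw [h2]; exact hn)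
  intro h3
  apply hne
  rw [← h2, h3, Subgroup.map_bot]

end Cfsg.Agent.Lib.QmCore
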