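import Cfsg.Agent.Lib.QmB1
set_option autoImplicit false
set_option linter.unusedSectionVars false

/-! The case `b = 2` of the pushing up theorem: the local configuration. -/
namespace Cfsg.Agent.Lib.QmCore

open Matrix Cfsg.Agent.Lib.ClSL2 Cfsg.Agent.Lib.LocBase
open scoped MatrixGroups commutatorElement

universe u

/-- the configuration around `G` in the case `b = 2` -/
structure B2 {X : Type*} [Group X] (p q : ℕ) (G S Q V z T A R w S' : Subgroup X) : Prop where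
  TQ : T ≤ Q
  nT : ∀ s ∈ S, ∀ t ∈ T, s * t * s⁻¹ ∈ T
  TS : ∀ t ∈ T, ∀ s ∈ S, ⁅t, s⁆ ∈ z
  Tab : ∀ t ∈ T, ∀ t' ∈ T, t * t' = t' * t
  Tp : ∀ t ∈ T, t ^ p = 1
  TR : T ⊓ R = zc S
  cT : Nat.card T = q * Nat.card (zc S)
  conj : ∃ g ∈ G, S' = cj g S
  gen : S ⊔ S' = G
  AS : A ≤ S'
  AQ : ∀ s ∈ S', ∃ a ∈ A, ∃ b ∈ Q, s = a * b
  RS : R ≤ S'
  TRS : ∀ s ∈ S', ∃ t ∈ T, ∃ r ∈ R, s = t * r
  nR : ∀ s ∈ S', ∀ r ∈ R, s * r * s⁻¹ ∈ R
  VR : V ≤ R
  RA : ∀ r ∈ R, ∀ a ∈ A, ⁅r, a⁆ ∈ w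
  wz : w ≤ zc S'
  nn : ¬ (∀ g ∈ G, ∀ x ∈ T ⊔ V, g * x * g⁻¹ ∈ T ⊔ V)

namespace Amal
namespace Seq
variable {X : Type*} [Group X] [Finite X] {q : ℕ} {G S Q V z : Subgroup X}
variable {b : ℕ} {g : X} {n y : ℕ → X}

theorem not_norm' (s : Seq q G S Q V z 2 g n y) (i : ℕ) :
    ¬ (∀ t ∈ cj (y (i + 2)) G, ∀ x ∈ cj (y (i + 3)) V ⊔ cj (y (i + 2)) V,
      t * x * t⁻¹ ∈ cj (y (i + 3)) V ⊔ cj (y (i + 2)) V) := by
  intro hE
  apply (s.crit (i + 1)).h4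
  have e1 : y (i + 3) = y (i + 2) * g * n (i + 2) := s.step (i + 2)
  have e2 : y (i + 2) = y (i + 1) * g * n (i + 1) := s.step (i + 1)
  set h := (y (i + 2) * g * (y (i + 2))⁻¹)⁻¹ with hh
  have hhG : h ∈ cj (y (i + 2)) G := inv_mem (s.hG (i + 2))
  have h1 : cj h (cj (y (i + 3)) V ⊔ cj (y (i + 2)) V) = cj (y (i + 3)) V ⊔ cj (y (i + 2)) V := cj_eq_of hE hhG
  have h2 : cj h (cj (y (i + 2)) V) = cj (y (i + 2)) V := cj_eq_of (s.locL (i + 2)).Vn hhG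
  have h3 : cj h (cj (y (i + 3)) V) = cj (y (i + 2) * n (i + 2)) V := by
    rw [cj_cj]
    congr 1
    rw [e1, hh]; group
  rw [cj_sup, h2, h3] at h1
  have h4 : cj (y (i + 2) * n (i + 2)) V ≤ cj (y (i + 1)) Q := by
    apply Amal.near' s.hmin (k := 1) (by norm_num)
    exact Stp.dst ⟨g, s.hg, n (i + 1) * n (i + 2), mul_mem (s.hn _) (s.hn _), by rw [e2]; group⟩
  have h5 : cj (y (i + 2)) V ≤ cj (y (i + 1)) Q := s.near' (by omega) (by omega)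
  have h6 : cj (y (i + 3)) V ≤ cj (y (i + 1)) Q := by
    calc cj (y (i + 3)) V ≤ cj (y (i + 3)) V ⊔ cj (y (i + 2)) V := le_sup_left
      _ = _ := h1.symm
      _ ≤ _ := sup_le h4 h5
  exact h6

theorem b2 (s : Seq q G S Q V z 2 g n y) {p : ℕ} (hp : ∀ v ∈ V, v ^ p = 1) (i : ℕ) :
    B2 p q (cj (y (i + 1)) G) (cj (y (i + 1)) S) (cj (y (i + 1)) Q) (cj (y (i + 1)) V) (cj (y (i + 1)) z)
      (cj (y i) V) (cj (y (i + 3)) V) (cj (y (i + 2)) Q) (cj (y (i + 2)) z) (cj (y (i + 2)) S) where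
  TQ := s.near (by omega) (by omega)
  nT := fun a ha t ht => (s.locR i).Vn a ((s.locR i).SG ha) t ht
  TS := by
    intro t ht a ha
    obtain ⟨w, hw, e⟩ := (s.crit i).comm_eq ht ha
    rw [e]
    exact s.comm_z ht hw
  Tab := fun t ht t' ht' => (s.locR i).QV t ((s.locR i).VQ ht) t' ht'
  Tp := by
    rintro _ ⟨v, hv, rfl⟩
    show (y i * v * (y i)⁻¹) ^ p = 1
    rw [conj_pow, hp v hv, mul_one, mul_inv_cancel]
  TR := (s.crit i).inf_eq
  cT := (s.locR i).cV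
  conj := ⟨_, s.hG (i + 1), s.S_conj (i + 1)⟩
  gen := (s.genG (i + 1)).symm
  AS := (s.crit (i + 1)).h2
  AQ := fun a ha => (s.crit (i + 1)).mem_S ha
  RS := (s.locL (i + 2)).QS
  TRS := fun a ha => (s.crit i).mem_S' ha
  nR := fun a ha r hr => (s.locL (i + 2)).Qn a ((s.locL (i + 2)).SG ha) r hr
  VR := s.near (by omega) (by omega)
  RA := fun r hr a ha => Crit.comm_swap (s.commQ' (i := i + 1) ha hr)
  wz := (s.locL (i + 2)).z_le_zc
  nn := s.not_norm i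

theorem b2' (s : Seq q G S Q V z 2 g n y) {p : ℕ} (hp : ∀ v ∈ V, v ^ p = 1) (i : ℕ) :
    B2 p q (cj (y (i + 2)) G) (cj (y (i + 3)) S) (cj (y (i + 2)) Q) (cj (y (i + 2)) V) (cj (y (i + 2)) z)
      (cj (y (i + 3)) V) (cj (y i) V) (cj (y (i + 1)) Q) (cj (y (i + 1)) z) (cj (y (i + 2)) S) where
  TQ := s.near' (by omega) (by omega)
  nT := fun a ha t ht => (s.locL (i + 3)).Vn a ((s.locL (i + 3)).SG ha) t ht
  TS := by
    intro t ht a ha
    obtain ⟨w, hw, e⟩ := (s.crit (i + 1)).symm.comm_eq ht ha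
    rw [e]
    exact Crit.comm_swap (s.comm_z hw ht)
  Tab := fun t ht t' ht' => (s.locL (i + 3)).QV t ((s.locL (i + 3)).VQ ht) t' ht'
  Tp := by
    rintro _ ⟨v, hv, rfl⟩
    show (y (i + 3) * v * (y (i + 3))⁻¹) ^ p = 1
    rw [conj_pow, hp v hv, mul_one, mul_inv_cancel]
  TR := (s.crit (i + 1)).symm.inf_eq
  cT := (s.locL (i + 3)).cV
  conj := by
    refine ⟨_, inv_mem (s.hG (i + 2)), ?_⟩
    have h1 := s.S_conj (i + 2)
    rw [show i + 3 = i + 2 + 1 from rfl, h1, cj_cj, inv_mul_cancel, cj_one]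
  gen := by rw [sup_comm]; exact (s.genG (i + 2)).symm
  AS := (s.crit i).h1
  AQ := fun a ha => (s.crit i).mem_S' ha
  RS := (s.locR (i + 1)).QS
  TRS := fun a ha => (s.crit (i + 1)).mem_S ha
  nR := fun a ha r hr => (s.locR (i + 1)).Qn a ((s.locR (i + 1)).SG ha) r hr
  VR := s.near' (by omega) (by omega)
  RA := fun r hr a ha => Crit.comm_swap (s.commQ (i := i) ha hr)
  wz := (s.locR (i + 1)).z_le_zc
  nn := s.not_norm' i

end Seq
end Amal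

theorem zc_comap {G X : Type*} [Group G] [Group X] {f : G →* X} (hf : Function.Injective f) {S : Subgroup G} :
    zc (S.map f) = (zc S).map f := by
  ext x
  rw [mem_zc]
  constructor
  · rintro ⟨⟨s, hs, rfl⟩, h⟩
    refine ⟨s, mem_zc.2 ⟨hs, fun t ht => hf ?_⟩, rfl⟩
    rw [map_mul, map_mul]
    exact h (f t) ⟨t, ht, rfl⟩
  · rintro ⟨s, hs, rfl⟩
    rw [SetLike.mem_coe, mem_zc] at hs
    refine ⟨⟨s, hs.1, rfl⟩, ?_⟩
    rintro _ ⟨t, ht, rfl⟩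
    rw [← map_mul, ← map_mul, hs.2 t ht]

/-- pull back along an embedding -/
theorem B2.comap {G X : Type*} [Group G] [Group X] {f : G →* X} (hf : Function.Injective f) {p q : ℕ} {S Q V z : Subgroup G}
    {T A R w S' : Subgroup X} (h : B2 p q ((⊤ : Subgroup G).map f) (S.map f) (Q.map f) (V.map f) (z.map f) T A R w S') :
    B2 p q (⊤ : Subgroup G) S Q V z (T.comap f) (A.comap f) (R.comap f) (w.comap f) (S'.comap f) := by
  have hQm : ∀ {H : Subgroup G} {x : G}, f x ∈ H.map f ↔ x ∈ H := fun {H x} =>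
    ⟨fun ⟨y, hy, hyx⟩ => by rwa [← hf hyx], fun hx => ⟨x, hx, rfl⟩⟩
  have hG : ∀ {x : X}, x ∈ (⊤ : Subgroup G).map f ↔ ∃ y, f y = x := fun {x} =>
    ⟨fun ⟨y, _, hy⟩ => ⟨y, hy⟩, fun ⟨y, hy⟩ => ⟨y, trivial, hy⟩⟩
  have hS'G : S' ≤ (⊤ : Subgroup G).map f := by rw [← h.gen]; exact le_sup_right
  have hTG : T ≤ (⊤ : Subgroup G).map f := h.TQ.trans (Subgroup.map_mono le_top)
  have hmc : ∀ {H : Subgroup X}, H ≤ (⊤ : Subgroup G).map f → (H.comap f).map f = H := by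
    intro H hH
    rw [Subgroup.map_comap_eq, inf_eq_right]
    intro x hx
    obtain ⟨y, hy⟩ := hG.1 (hH hx)
    exact ⟨y, hy⟩
  refine ⟨?_, ?_, ?_, ?_, ?_, ?_, ?_, ?_, ?_, ?_, ?_, ?_, ?_, ?_, ?_, ?_, ?_, ?_⟩
  · intro t ht; exact hQm.1 (h.TQ ht)
  · intro s hs t ht
    show f (s * t * s⁻¹) ∈ T
    rw [map_mul, map_mul, map_inv]
    exact h.nT (f s) (hQm.2 hs) (f t) ht
  · intro t ht s hs
    apply hQm.1
    rw [map_commutatorElement]
    exact h.TS (f t) ht (f s) (hQm.2 hs)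
  · intro t ht t' ht'
    apply hf
    rw [map_mul, map_mul]
    exact h.Tab (f t) ht (f t') ht'
  · intro t ht
    apply hf
    rw [map_pow, map_one]
    exact h.Tp (f t) ht
  · apply Subgroup.map_injective hf
    rw [← zc_comap hf, ← h.TR, ← Subgroup.comap_inf]
    exact hmc (inf_le_left.trans hTG)
  · have h1 := h.cT
    rw [zc_comap hf, Subgroup.card_map_of_injective hf, ← hmc hTG, Subgroup.card_map_of_injective hf] at h1
    exact h1
  · obtain ⟨g, hg, hgS⟩ := h.conj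
    obtain ⟨g, rfl⟩ := hG.1 hg
    refine ⟨g, trivial, ?_⟩
    ext x
    show f x ∈ S' ↔ _
    rw [hgS, mem_cj, mem_cj, ← map_inv, ← map_mul, ← map_mul]
    exact hQm
  · apply Subgroup.map_injective hf
    rw [Subgroup.map_sup, hmc hS'G, h.gen]
  · intro a ha; exact h.AS ha
  · intro s hs
    obtain ⟨a, ha, b, ⟨b, hb, rfl⟩, e⟩ := h.AQ (f s) hs
    obtain ⟨a, rfl⟩ := hG.1 (hS'G (h.AS ha))
    exact ⟨a, ha, b, hb, hf (by rw [e, map_mul])⟩
  · intro a ha; exact h.RS ha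
  · intro s hs
    obtain ⟨a, ha, b, hb, e⟩ := h.TRS (f s) hs
    obtain ⟨a, rfl⟩ := hG.1 (hTG ha)
    obtain ⟨b, rfl⟩ := hG.1 (hS'G (h.RS hb))
    exact ⟨a, ha, b, hb, hf (by rw [e, map_mul])⟩
  · intro s hs t ht
    show f (s * t * s⁻¹) ∈ R
    rw [map_mul, map_mul, map_inv]
    exact h.nR (f s) hs (f t) ht
  · intro v hv
    exact h.VR (hQm.2 hv)
  · intro t ht s hs
    show f ⁅t, s⁆ ∈ w
    rw [map_commutatorElement]
    exact h.RA (f t) ht (f s) hs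
  · intro x hx
    have h1 := h.wz hx
    rw [mem_zc] at h1
    refine mem_zc.2 ⟨h1.1, fun s hs => hf ?_⟩
    rw [map_mul, map_mul]
    exact h1.2 (f s) hs
  · intro hn
    apply h.nn
    have e : T ⊔ V.map f = (T.comap f ⊔ V).map f := by rw [Subgroup.map_sup, hmc hTG]
    rw [e]
    intro g hg x hx
    obtain ⟨g, rfl⟩ := hG.1 hg
    obtain ⟨x, hx, rfl⟩ := hx
    exact ⟨_, hn g trivial x hx, by rw [map_mul, map_mul, map_inv]⟩

end Cfsg.Agent.Lib.QmCore
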