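import Cfsg.Agent.Lib.QmB2
set_option autoImplicit false
set_option linter.unusedSectionVars false

/-! The case `b = 2` of the pushing up theorem: the second natural module. -/
namespace Cfsg.Agent.Lib.QmCore

open Matrix Cfsg.Agent.Lib.ClSL2 Cfsg.Agent.Lib.LocBase
open scoped MatrixGroups commutatorElement

universe u

section Quot
variable {p : ℕ} [hp : Fact p.Prime] {G : Type*} [Group G] [Finite G] {S : Sylow p G} {M : Subgroup G}
  {F : Type*} [Field F] [Fintype F] [CharP F p] {φ : G →* PSL(2, F)}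

theorem PU.quot (h : PU p S M φ) (N : Subgroup G) [hN : N.Normal] (h2 : N ≤ φ.ker) :
    PU p (S.mapSurjective (QuotientGroup.mk'_surjective N)) (M.map (QuotientGroup.mk' N))
      (QuotientGroup.lift N φ h2 : G ⧸ N →* PSL(2, F)) := by
  set f := QuotientGroup.mk' N with hf
  have hfs : Function.Surjective f := QuotientGroup.mk'_surjective N
  have hfk : f.ker = N := QuotientGroup.ker_mk' N
  have hNM : N ≤ M := h2.trans h.ker_le
  have hcm : ∀ X : Subgroup G, N ≤ X → (X.map f).comap f = X := by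
    intro X hX
    rw [Subgroup.comap_map_eq, hfk, sup_eq_left.2 hX]
  have hmc : ∀ X : Subgroup (G ⧸ N), (X.comap f).map f = X := fun X => Subgroup.map_comap_eq_self_of_surjective hfs X
  refine ⟨?_, ?_, ?_, ?_⟩
  · constructor
    · intro htop
      apply h.coatom.1
      rw [← hcm M hNM, htop, Subgroup.comap_top]
    · intro X hX
      have h3 : M < X.comap f := by
        rw [lt_iff_le_and_ne]
        constructor
        · rw [← hcm M hNM]; exact Subgroup.comap_mono hX.le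
        · intro heq
          apply hX.ne
          rw [heq, hmc]
      rw [← hmc X, h.coatom.2 _ h3, ← MonoidHom.range_eq_map, MonoidHom.range_eq_top]
      exact hfs
  · rw [Sylow.coe_mapSurjective]; exact Subgroup.map_mono h.le
  · intro X hX hSX
    rw [Sylow.coe_mapSurjective] at hSX
    have h3 : IsCoatom (X.comap f) := by
      constructor
      · intro htop
        apply hX.1
        rw [← hmc X, htop, ← MonoidHom.range_eq_map, MonoidHom.range_eq_top]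
        exact hfs
      · intro Y hY
        have hNX : N ≤ X.comap f := hfk.symm.le.trans (Subgroup.ker_le_comap f X)
        have h4 : X < Y.map f := by
          rw [lt_iff_le_and_ne]
          constructor
          · rw [← hmc X]; exact Subgroup.map_mono hY.le
          · intro heq
            apply hY.ne
            rw [heq, hcm Y (hNX.trans hY.le)]
        rw [← hcm Y (hNX.trans hY.le), hX.2 _ h4, Subgroup.comap_top]
    have h5 := h.uniq _ h3 (fun s hs => hSX ⟨s, hs, rfl⟩)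
    rw [← h5, hmc]
  · intro y
    obtain ⟨x, hx⟩ := h.surj y
    exact ⟨f x, hx⟩

theorem PU.quot_pCore (h : PU p S M φ) (N : Subgroup G) [hN : N.Normal] (h2 : N ≤ φ.ker) (h3 : N ≤ (S : Subgroup G)) :
    Cfsg.pCore p (G ⧸ N) = (Cfsg.pCore p G).map (QuotientGroup.mk' N) := by
  rw [(h.quot N h2).pCore_eq, h.pCore_eq, Sylow.coe_mapSurjective]
  ext x
  rw [Subgroup.mem_inf]
  constructor
  · rintro ⟨⟨s, hs, rfl⟩, hx⟩
    exact ⟨s, Subgroup.mem_inf.2 ⟨hs, hx⟩, rfl⟩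
  · rintro ⟨s, hs, rfl⟩
    exact ⟨⟨s, hs.1, rfl⟩, hs.2⟩

end Quot

section Cls
variable {G : Type*} [Group G]

theorem zc_cj {S : Subgroup G} (g : G) : zc (cj g S) = cj g (zc S) := by
  ext x
  rw [mem_zc, mem_cj, mem_cj, mem_zc]
  refine and_congr_right fun _ => ?_
  constructor
  · intro h s hs
    have h1 := h (g * s * g⁻¹) (conj_mem_cj hs)
    calc s * (g⁻¹ * x * g) = g⁻¹ * ((g * s * g⁻¹) * x) * g := by group
      _ = g⁻¹ * (x * (g * s * g⁻¹)) * g := by rw [h1]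
      _ = _ := by group
  · intro h s hs
    rw [mem_cj] at hs
    have h1 := h _ hs
    calc s * x = g * ((g⁻¹ * s * g) * (g⁻¹ * x * g)) * g⁻¹ := by group
      _ = g * ((g⁻¹ * x * g) * (g⁻¹ * s * g)) * g⁻¹ := by rw [h1]
      _ = _ := by group

end Cls

namespace B2
section Main
variable {p : ℕ} [hp : Fact p.Prime] {G : Type u} [Group G] [Finite G] {S : Sylow p G} {M : Subgroup G}
  {F : Type*} [Field F] [Fintype F] [CharP F p] {φ : G →* PSL(2, F)}
  {T A R w S' : Subgroup G}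

/-- the normal closure of `T` -/
abbrev YY (T : Subgroup G) : Subgroup G := Subgroup.normalClosure (T : Set G)

theorem T_le_Y : T ≤ YY T := Subgroup.le_normalClosure

theorem Y_le_Q (c : B2 p (Fintype.card F) (⊤ : Subgroup G) (S : Subgroup G) (Cfsg.pCore p G) (PU.VZ S) (PU.zz S) T A R w S') :
    YY T ≤ Cfsg.pCore p G := by
  have hpn : (Cfsg.pCore p G).Normal := pCore_normal p G
  exact Subgroup.normalClosure_le_normal c.TQ

theorem V_le_Y (c : B2 p (Fintype.card F) (⊤ : Subgroup G) (S : Subgroup G) (Cfsg.pCore p G) (PU.VZ S) (PU.zz S) T A R w S') :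
    PU.VZ S ≤ YY T := by
  have h1 : zc (S : Subgroup G) ≤ T := by rw [← c.TR]; exact inf_le_left
  exact Subgroup.normalClosure_le_normal (h1.trans T_le_Y)

theorem YQ (hf : PUF S F) (c : B2 p (Fintype.card F) (⊤ : Subgroup G) (S : Subgroup G) (Cfsg.pCore p G) (PU.VZ S) (PU.zz S) T A R w S') :
    ∀ y ∈ YY T, ∀ a ∈ Cfsg.pCore p G, ⁅y, a⁆ ∈ PU.zz S := by
  have hzn := zz_normal hf
  have hQ : ∀ g ∈ (⊤ : Subgroup G), ∀ v ∈ Cfsg.pCore p G, g * v * g⁻¹ ∈ Cfsg.pCore p G := hf.loc.Qn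
  set L := ctr (⊤ : Subgroup G) (Cfsg.pCore p G) (PU.zz S) (fun g _ v hv => hzn.conj_mem v hv g) with hL
  have hLn : L.Normal := ⟨fun x hx g => ctr_conj hQ (trivial : g ∈ (⊤ : Subgroup G)) hx⟩
  have hTL : T ≤ L := by
    intro t ht
    rw [hL, mem_ctr]
    exact ⟨trivial, fun a ha => Crit.comm_swap (c.TS t ht a (hf.loc.QS ha))⟩
  have h1 : YY T ≤ L := Subgroup.normalClosure_le_normal hTL
  intro y hy a ha
  exact Crit.comm_swap ((mem_ctr.1 (h1 hy)).2 a ha)

theorem Y_comm (hf : PUF S F) (c : B2 p (Fintype.card F) (⊤ : Subgroup G) (S : Subgroup G) (Cfsg.pCore p G) (PU.VZ S) (PU.zz S) T A R w S') :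
    ∀ y ∈ YY T, ∀ a ∈ YY T, ⁅y, a⁆ ∈ PU.zz S := fun y hy a ha => c.YQ hf y hy a (c.Y_le_Q ha)

theorem Y_pow (hf : PUF S F) (c : B2 p (Fintype.card F) (⊤ : Subgroup G) (S : Subgroup G) (Cfsg.pCore p G) (PU.VZ S) (PU.zz S) T A R w S') :
    ∀ y ∈ YY T, y ^ p ∈ PU.zz S := by
  have hzn := zz_normal hf
  intro y hy
  have key : YY T ≤ (YY T) ⊓ Subgroup.closure {y : G | y ∈ YY T ∧ y ^ p ∈ PU.zz S} := by
    apply le_inf le_rfl
    unfold YY Subgroup.normalClosure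
    rw [Subgroup.closure_le]
    intro x hx
    apply Subgroup.subset_closure
    refine ⟨Subgroup.subset_closure hx, ?_⟩
    obtain ⟨t, ht, hc⟩ := Group.mem_conjugatesOfSet_iff.1 hx
    obtain ⟨g, rfl⟩ := isConj_iff.1 hc
    rw [conj_pow, c.Tp t ht, mul_one, mul_inv_cancel]
    exact one_mem _
  have h1 := (key hy).2
  have h2 : y ∈ YY T ∧ y ^ p ∈ PU.zz S := by
    refine Subgroup.closure_induction (p := fun y _ => y ∈ YY T ∧ y ^ p ∈ PU.zz S) (fun x hx => hx) ?_ ?_ ?_ h1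
    · exact ⟨one_mem _, by rw [one_pow]; exact one_mem _⟩
    · rintro a b _ _ ⟨ha, ha'⟩ ⟨hb, hb'⟩
      refine ⟨mul_mem ha hb, ?_⟩
      have h3 : QuotientGroup.mk' (PU.zz S) ((a * b) ^ p) = 1 := by
        have h4 : Commute (QuotientGroup.mk' (PU.zz S) a) (QuotientGroup.mk' (PU.zz S) b) := by
          have h5 : QuotientGroup.mk' (PU.zz S) ⁅a, b⁆ = 1 := (QuotientGroup.eq_one_iff _).2 (c.Y_comm hf a ha b hb)
          rw [map_commutatorElement, commutatorElement_eq_one_iff_mul_comm] at h5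
          exact h5
        rw [map_pow, map_mul, h4.mul_pow, ← map_pow, ← map_pow]
        have h5 : QuotientGroup.mk' (PU.zz S) (a ^ p) = 1 := (QuotientGroup.eq_one_iff _).2 ha'
        have h6 : QuotientGroup.mk' (PU.zz S) (b ^ p) = 1 := (QuotientGroup.eq_one_iff _).2 hb'
        rw [h5, h6, mul_one]
      exact (QuotientGroup.eq_one_iff _).1 h3
    · rintro a _ ⟨ha, ha'⟩
      exact ⟨inv_mem ha, by rw [inv_pow]; exact inv_mem ha'⟩
  exact h2.2

theorem Q_le_S' (hf : PUF S F) (c : B2 p (Fintype.card F) (⊤ : Subgroup G) (S : Subgroup G) (Cfsg.pCore p G) (PU.VZ S) (PU.zz S) T A R w S') :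
    Cfsg.pCore p G ≤ S' := by
  obtain ⟨g, -, hg⟩ := c.conj
  have hpn : (Cfsg.pCore p G).Normal := pCore_normal p G
  rw [hg]
  intro x hx
  rw [mem_cj]
  apply hf.loc.QS
  have := hpn.conj_mem x hx g⁻¹
  simpa using this

theorem zc_S'_le (hf : PUF S F) (c : B2 p (Fintype.card F) (⊤ : Subgroup G) (S : Subgroup G) (Cfsg.pCore p G) (PU.VZ S) (PU.zz S) T A R w S') :
    zc S' ≤ PU.VZ S := by
  obtain ⟨g, -, hg⟩ := c.conj
  rw [hg, zc_cj]
  intro x hx
  rw [mem_cj] at hx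
  have h1 := hf.norm.conj_mem _ (hf.loc.zcV hx) g
  have e : g * (g⁻¹ * x * g) * g⁻¹ = x := by group
  rwa [e] at h1

theorem zz_le_zc (c : B2 p (Fintype.card F) (⊤ : Subgroup G) (S : Subgroup G) (Cfsg.pCore p G) (PU.VZ S) (PU.zz S) T A R w S') :
    PU.zz S ≤ zc S' := by
  intro x hx
  refine mem_zc.2 ⟨c.RS (c.VR hx.1), fun s _ => ?_⟩
  exact (Subgroup.mem_centralizer_iff.1 hx.2) s trivial

/-- `[S',S'] ≤ R` -/
theorem comm_R (hf : PUF S F) (c : B2 p (Fintype.card F) (⊤ : Subgroup G) (S : Subgroup G) (Cfsg.pCore p G) (PU.VZ S) (PU.zz S) T A R w S') :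
    ∀ a ∈ S', ∀ b ∈ S', ⁅a, b⁆ ∈ R := by
  have hTS : T ≤ S' := c.TQ.trans (c.Q_le_S' hf)
  intro a ha b hb
  obtain ⟨t, ht, r, hr, rfl⟩ := c.TRS a ha
  obtain ⟨t', ht', r', hr', rfl⟩ := c.TRS b hb
  have h1 : ∀ x ∈ S', ∀ y ∈ R, ⁅x, y⁆ ∈ R := by
    intro x hx y hy
    have e : ⁅x, y⁆ = (x * y * x⁻¹) * y⁻¹ := by rw [commutatorElement_def]
    rw [e]
    exact mul_mem (c.nR x hx y hy) (inv_mem hy)
  have h2 : ∀ x ∈ S', ⁅x, t'⁆ ∈ R → ⁅x, t' * r'⁆ ∈ R := by
    intro x hx hxt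
    have e : ⁅x, t' * r'⁆ = ⁅x, t'⁆ * (t' * ⁅x, r'⁆ * t'⁻¹) := by simp only [commutatorElement_def]; group
    rw [e]
    exact mul_mem hxt (c.nR t' (hTS ht') _ (h1 x hx r' hr'))
  apply h2 _ ha
  have e : ⁅t * r, t'⁆ = (t * ⁅r, t'⁆ * t⁻¹) * ⁅t, t'⁆ := by simp only [commutatorElement_def]; group
  rw [e]
  refine mul_mem (c.nR t (hTS ht) _ (Crit.comm_swap (h1 t' (hTS ht') r hr))) ?_
  rw [commutatorElement_eq_one_iff_mul_comm.2 (c.Tab t ht t' ht')]
  exact one_mem _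

/-- elements of `Y ∩ R` -/
theorem YR_comm (hf : PUF S F) (c : B2 p (Fintype.card F) (⊤ : Subgroup G) (S : Subgroup G) (Cfsg.pCore p G) (PU.VZ S) (PU.zz S) T A R w S') :
    ∀ r ∈ YY T ⊓ R, ∀ s ∈ S', ⁅r, s⁆ ∈ zc S' := by
  intro r hr s hs
  obtain ⟨a, ha, b, hb, rfl⟩ := c.AQ s hs
  have h1 : ⁅r, a⁆ ∈ zc S' := c.wz (c.RA r hr.2 a ha)
  have h2 : ⁅r, b⁆ ∈ zc S' := c.zz_le_zc (c.YQ hf r hr.1 b hb)
  have e : ⁅r, a * b⁆ = ⁅r, a⁆ * (a * ⁅r, b⁆ * a⁻¹) := by simp only [commutatorElement_def]; group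
  have e2 : a * ⁅r, b⁆ * a⁻¹ = ⁅r, b⁆ := by
    rw [(mem_zc.1 h2).2 a (c.AS ha), mul_assoc, mul_inv_cancel, mul_one]
  rw [e, e2]
  exact mul_mem h1 h2

theorem Y_comm_R (hf : PUF S F) (c : B2 p (Fintype.card F) (⊤ : Subgroup G) (S : Subgroup G) (Cfsg.pCore p G) (PU.VZ S) (PU.zz S) T A R w S') :
    ∀ y ∈ YY T, ∀ s ∈ S', ⁅y, s⁆ ∈ YY T ⊓ R := by
  intro y hy s hs
  have hYn : (YY T).Normal := Subgroup.normalClosure_normal
  refine Subgroup.mem_inf.2 ⟨?_, c.comm_R hf y (c.Q_le_S' hf (c.Y_le_Q hy)) s hs⟩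
  have e : ⁅y, s⁆ = y * (s * y⁻¹ * s⁻¹) := by rw [commutatorElement_def]; group
  rw [e]
  exact mul_mem hy (hYn.conj_mem _ (inv_mem hy) s)

theorem Y_dec (hf : PUF S F) (c : B2 p (Fintype.card F) (⊤ : Subgroup G) (S : Subgroup G) (Cfsg.pCore p G) (PU.VZ S) (PU.zz S) T A R w S') :
    ∀ y ∈ YY T, ∃ t ∈ T, ∃ r ∈ YY T ⊓ R, y = t * r := by
  intro y hy
  obtain ⟨t, ht, r, hr, rfl⟩ := c.TRS y (c.Q_le_S' hf (c.Y_le_Q hy))
  refine ⟨t, ht, r, Subgroup.mem_inf.2 ⟨?_, hr⟩, rfl⟩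
  have h1 := mul_mem (inv_mem (T_le_Y ht)) hy
  rwa [inv_mul_cancel_left] at h1

theorem card_S' (hf : PUF S F) (c : B2 p (Fintype.card F) (⊤ : Subgroup G) (S : Subgroup G) (Cfsg.pCore p G) (PU.VZ S) (PU.zz S) T A R w S') :
    Nat.card S' = Fintype.card F * Nat.card R := by
  have hTS : T ≤ S' := c.TQ.trans (c.Q_le_S' hf)
  have h1 : T ⊔ R = S' := by
    apply le_antisymm (sup_le hTS c.RS)
    intro s hs
    obtain ⟨t, ht, r, hr, rfl⟩ := c.TRS s hs
    exact mul_mem (Subgroup.mem_sup_left ht) (Subgroup.mem_sup_right hr)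
  have hcz : 0 < Nat.card (zc (S : Subgroup G)) := Nat.card_pos
  have h2 : Nat.card S' * Nat.card (zc (S : Subgroup G)) = Nat.card T * Nat.card R := by
    rw [← c.TR]
    have hfin : Finite S' := inferInstance
    -- counting in `S'`
    have hRn : (R.subgroupOf S').Normal := by
      constructor
      rintro ⟨x, hx⟩ hxR ⟨s, hs⟩
      exact c.nR s hs x hxR
    have h3 := card_sup_inf (N := R.subgroupOf S') (H := T.subgroupOf S') hRn
    rw [← Subgroup.subgroupOf_sup c.RS hTS, sup_comm, h1, Subgroup.subgroupOf_self] at h3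
    have h4 : ∀ {H : Subgroup G}, H ≤ S' → Nat.card (H.subgroupOf S') = Nat.card H := fun {H} hH =>
      Nat.card_congr (Subgroup.subgroupOfEquivOfLe hH).toEquiv
    have h5 : (R.subgroupOf S') ⊓ (T.subgroupOf S') = (T ⊓ R).subgroupOf S' := by
      rw [inf_comm]; rfl
    rw [h5, h4 c.RS, h4 hTS, h4 (inf_le_left.trans hTS), Subgroup.card_top] at h3
    rw [h3, mul_comm]
  rw [c.cT] at h2
  have h3 : Nat.card S' * Nat.card (zc (S : Subgroup G)) = Fintype.card F * Nat.card R * Nat.card (zc (S : Subgroup G)) := by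
    rw [h2]; ring
  exact Nat.eq_of_mul_eq_mul_right hcz h3

theorem card_Y (hf : PUF S F) (c : B2 p (Fintype.card F) (⊤ : Subgroup G) (S : Subgroup G) (Cfsg.pCore p G) (PU.VZ S) (PU.zz S) T A R w S') :
    Nat.card (YY T) ≤ Fintype.card F * Nat.card ↥(YY T ⊓ R) := by
  have h1 := card_mul_le_sup (P := YY T) (Q := R) (R := S') (c.Y_le_Q.trans (c.Q_le_S' hf)) c.RS
  rw [c.card_S' hf] at h1
  have hR : 0 < Nat.card R := Nat.card_pos
  refine Nat.le_of_mul_le_mul_right (c := Nat.card R) ?_ hR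
  calc Nat.card (YY T) * Nat.card R ≤ Fintype.card F * Nat.card R * Nat.card ↥(YY T ⊓ R) := h1
    _ = _ := by ring

end Main
end B2

end Cfsg.Agent.Lib.QmCore
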