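import Cfsg.Agent.Lib.QmB3
set_option autoImplicit false
set_option linter.unusedSectionVars false

/-! The case `b = 2` of the pushing up theorem: the second natural module. -/
namespace Cfsg.Agent.Lib.QmCore

open Matrix Cfsg.Agent.Lib.ClSL2 Cfsg.Agent.Lib.LocBase
open scoped MatrixGroups commutatorElement

universe u

namespace B2
section Main
variable {p : ℕ} [hp : Fact p.Prime] {G : Type u} [Group G] [Finite G] {S : Sylow p G} {M : Subgroup G}
  {F : Type*} [Field F] [Fintype F] [CharP F p] {φ : G →* PSL(2, F)}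
  {T A R w S' : Subgroup G}

theorem card_map_quot {G : Type*} [Group G] [Finite G] {N H : Subgroup G} [N.Normal] (h : N ≤ H) :
    Nat.card (H.map (QuotientGroup.mk' N)) * Nat.card N = Nat.card H := by
  have h1 : Nat.card (H.map (QuotientGroup.mk' N)) = N.relIndex H := by
    rw [← Subgroup.relIndex_ker, QuotientGroup.ker_mk']
  have h2 := Subgroup.relIndex_mul_relIndex (⊥ : Subgroup G) N H bot_le h
  rw [Subgroup.relIndex_bot_left, Subgroup.relIndex_bot_left] at h2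
  rw [h1, mul_comm, h2]

theorem exists_N2 (h : PU p S M φ) (hf : PUF S F)
    (c : B2 p (Fintype.card F) (⊤ : Subgroup G) (S : Subgroup G) (Cfsg.pCore p G) (PU.VZ S) (PU.zz S) T A R w S') :
    ∃ (D : Subgroup G) (N : NH (YY T) D F), D.Normal ∧ D ≤ YY T ∧ PU.VZ S ≤ D ∧ (∀ d ∈ D, ∀ g : G, ⁅d, g⁆ ∈ PU.VZ S) ∧
      (∀ g, N.ρ g = 1 ↔ ∀ y ∈ YY T, ⁅g, y⁆ ∈ PU.VZ S) ∧ (∀ s ∈ (S : Subgroup G), ∃ t, N.ρ s = uS t) := by
  classical
  have hVn : (PU.VZ S).Normal := hf.norm
  have hpn : (Cfsg.pCore p G).Normal := pCore_normal p G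
  have hYn : (YY T).Normal := Subgroup.normalClosure_normal
  have hVk : PU.VZ S ≤ φ.ker := by
    refine hf.loc.VQ.trans ?_
    rw [h.pCore_eq]; exact inf_le_right
  set f := QuotientGroup.mk' (PU.VZ S) with hfdef
  have hfs : Function.Surjective f := QuotientGroup.mk'_surjective _
  have hfk : ∀ x, f x = 1 ↔ x ∈ PU.VZ S := fun x => QuotientGroup.eq_one_iff x
  have hP := h.quot (PU.VZ S) hVk
  have hpc := h.quot_pCore (PU.VZ S) hVk hf.loc.VleS
  have hzV : PU.zz S ≤ PU.VZ S := inf_le_left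
  have hVY := c.V_le_Y
  have hVR := c.VR
  have hYbn : ((YY T).map f).Normal := hYn.map f hfs
  -- `Y/V` elementary abelian
  have hel : Cfsg.IsElementaryAbelian p ((YY T).map f) := by
    constructor
    · refine ⟨⟨?_⟩⟩
      rintro ⟨_, ⟨x, hx, rfl⟩⟩ ⟨_, ⟨y, hy, rfl⟩⟩
      apply Subtype.ext
      show f x * f y = f y * f x
      rw [← commutatorElement_eq_one_iff_mul_comm, ← map_commutatorElement, hfk]
      exact hzV (c.Y_comm hf x hx y hy)
    · rintro _ ⟨x, hx, rfl⟩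
      rw [← map_pow, hfk]
      exact hzV (c.Y_pow hf x hx)
  have hcent : ∀ g : G, f g ∈ Subgroup.centralizer ((YY T).map f : Set (G ⧸ PU.VZ S)) ↔ ∀ y ∈ YY T, ⁅g, y⁆ ∈ PU.VZ S := by
    intro g
    rw [Subgroup.mem_centralizer_iff]
    constructor
    · intro h1 y hy
      rw [← hfk, map_commutatorElement, commutatorElement_eq_one_iff_mul_comm]
      exact (h1 (f y) ⟨y, hy, rfl⟩).symm
    · rintro h1 _ ⟨y, hy, rfl⟩
      have h2 := h1 y hy
      rw [← hfk, map_commutatorElement, commutatorElement_eq_one_iff_mul_comm] at h2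
      exact h2.symm
  have hQc : Cfsg.pCore p (G ⧸ PU.VZ S) ≤ Subgroup.centralizer ((YY T).map f : Set (G ⧸ PU.VZ S)) := by
    rw [hpc]
    rintro _ ⟨a, ha, rfl⟩
    show f a ∈ _
    rw [hcent]
    intro y hy
    exact hzV (Crit.comm_swap (c.YQ hf y hy a ha))
  have hCn : (Subgroup.centralizer ((YY T).map f : Set (G ⧸ PU.VZ S))).Normal := PU.cent_normal hYbn
  have hCM : Subgroup.centralizer ((YY T).map f : Set (G ⧸ PU.VZ S)) ≤ M.map f := by
    rcases hP.le_or_sup (Subgroup.centralizer ((YY T).map f : Set (G ⧸ PU.VZ S))) with h1 | h1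
    · exact h1
    · exfalso
      apply c.nn
      rw [Sylow.coe_mapSurjective] at h1
      -- `T̄` is normal
      have h2 : ∀ g ∈ Subgroup.centralizer ((YY T).map f : Set (G ⧸ PU.VZ S)) ⊔ (S : Subgroup G).map f,
          ∀ x ∈ T.map f, g * x * g⁻¹ ∈ T.map f := by
        apply norm_sup
        · rintro g hg _ ⟨t, ht, rfl⟩
          rw [Subgroup.mem_centralizer_iff] at hg
          rw [← hg (f t) ⟨t, T_le_Y ht, rfl⟩, mul_assoc, mul_inv_cancel, mul_one]
          exact ⟨t, ht, rfl⟩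
        · rintro _ ⟨s, hs, rfl⟩ _ ⟨t, ht, rfl⟩
          exact ⟨s * t * s⁻¹, c.nT s hs t ht, by rw [map_mul, map_mul, map_inv]⟩
      rw [h1] at h2
      intro g _ x hx
      have h3 : (T.map f).comap f = T ⊔ PU.VZ S := by
        rw [Subgroup.comap_map_eq, QuotientGroup.ker_mk']
      rw [← h3] at hx ⊢
      show f (g * x * g⁻¹) ∈ T.map f
      rw [map_mul, map_mul, map_inv]
      exact h2 (f g) trivial (f x) hx
  have hSC : ¬ (S : Subgroup G).map f ≤ Subgroup.centralizer ((YY T).map f : Set (G ⧸ PU.VZ S)) := by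
    intro h1
    have h2 := hP.le_ker_of_normal hCn hCM
    have h3 : (S : Subgroup G) ≤ φ.ker := by
      intro s hs
      exact h2 (h1 ⟨s, hs, rfl⟩)
    have h4 : Cfsg.pCore p G = S := by rw [h.pCore_eq, inf_eq_left.2 h3]
    have h5 := hf.loc.cS
    rw [h4] at h5
    have h6 := hf.loc.q1
    have h7 : 0 < Nat.card (S : Subgroup G) := Nat.card_pos
    nlinarith
  -- counting
  have hS'n : Nat.card ↥((YY T).map f ⊓ Subgroup.centralizer ((S'.map f : Subgroup (G ⧸ PU.VZ S)) : Set (G ⧸ PU.VZ S))) =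
      Nat.card ↥((YY T).map f ⊓ Subgroup.centralizer (((S : Subgroup G).map f : Subgroup (G ⧸ PU.VZ S)) : Set (G ⧸ PU.VZ S))) := by
    obtain ⟨g, -, hg⟩ := c.conj
    have h1 : (YY T).map f ⊓ Subgroup.centralizer ((S'.map f : Subgroup (G ⧸ PU.VZ S)) : Set (G ⧸ PU.VZ S)) =
        cj (f g) ((YY T).map f ⊓ Subgroup.centralizer (((S : Subgroup G).map f : Subgroup (G ⧸ PU.VZ S)) : Set (G ⧸ PU.VZ S))) := by
      ext x
      rw [mem_cj, Subgroup.mem_inf, Subgroup.mem_inf, Subgroup.mem_centralizer_iff, Subgroup.mem_centralizer_iff]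
      refine and_congr ?_ ?_
      · have := hYbn.mem_comm_iff (a := x * f g) (b := (f g)⁻¹)
        rw [show x * f g * (f g)⁻¹ = x by group, show (f g)⁻¹ * (x * f g) = (f g)⁻¹ * x * f g by group] at this
        exact this
      · constructor
        · rintro h1 _ ⟨s, hs, rfl⟩
          have h2 := h1 (f (g * s * g⁻¹)) ⟨_, by rw [hg]; exact conj_mem_cj hs, rfl⟩
          rw [map_mul, map_mul, map_inv] at h2
          calc f s * ((f g)⁻¹ * x * f g) = (f g)⁻¹ * ((f g * f s * (f g)⁻¹) * x) * f g := by group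
            _ = (f g)⁻¹ * (x * (f g * f s * (f g)⁻¹)) * f g := by rw [h2]
            _ = _ := by group
        · rintro h1 _ ⟨s, hs, rfl⟩
          rw [hg] at hs
          obtain ⟨s, hs, rfl⟩ := hs
          have h2 := h1 (f s) ⟨s, hs, rfl⟩
          show f (g * s * g⁻¹) * x = x * f (g * s * g⁻¹)
          rw [map_mul, map_mul, map_inv]
          calc f g * f s * (f g)⁻¹ * x = f g * (f s * ((f g)⁻¹ * x * f g)) * (f g)⁻¹ := by group
            _ = f g * (((f g)⁻¹ * x * f g) * f s) * (f g)⁻¹ := by rw [h2]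
            _ = _ := by group
    rw [h1]
    exact Subgroup.card_map_of_injective (MulAut.conj (f g)).injective
  have hYRc : (YY T ⊓ R).map f ≤ (YY T).map f ⊓ Subgroup.centralizer ((S'.map f : Subgroup (G ⧸ PU.VZ S)) : Set (G ⧸ PU.VZ S)) := by
    apply le_inf (Subgroup.map_mono inf_le_left)
    rintro _ ⟨r, hr, rfl⟩
    rw [Subgroup.mem_centralizer_iff]
    rintro _ ⟨s, hs, rfl⟩
    have h1 := c.zc_S'_le hf (c.YR_comm hf r hr s hs)
    rw [← hfk, map_commutatorElement, commutatorElement_eq_one_iff_mul_comm] at h1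
    exact h1.symm
  have hoff : Nat.card ((YY T).map f) * Nat.card ↥(((S.mapSurjective hfs : Sylow p (G ⧸ PU.VZ S)) : Subgroup (G ⧸ PU.VZ S)) ⊓
      Subgroup.centralizer ((YY T).map f : Set (G ⧸ PU.VZ S))) ≤
      Nat.card ((S.mapSurjective hfs : Sylow p (G ⧸ PU.VZ S)) : Subgroup (G ⧸ PU.VZ S)) *
        Nat.card ↥((YY T).map f ⊓ Subgroup.centralizer (((S.mapSurjective hfs : Sylow p (G ⧸ PU.VZ S)) : Subgroup (G ⧸ PU.VZ S)) : Set (G ⧸ PU.VZ S))) := by
    rw [hP.inf_eq hQc (hP.le_ker_of_normal hCn hCM), hpc, Sylow.coe_mapSurjective, ← hS'n]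
    have hVpos : 0 < Nat.card (PU.VZ S) := Nat.card_pos
    have h1 := card_map_quot (N := PU.VZ S) (H := YY T) hVY
    have h2 := card_map_quot (N := PU.VZ S) (H := YY T ⊓ R) (le_inf hVY hVR)
    have h3 := card_map_quot (N := PU.VZ S) (H := (S : Subgroup G)) hf.loc.VleS
    have h4 := card_map_quot (N := PU.VZ S) (H := Cfsg.pCore p G) hf.loc.VQ
    have h5 := c.card_Y hf
    have h6 := hf.loc.cS
    have h7 : Nat.card ((YY T ⊓ R).map f) ≤ Nat.card ↥((YY T).map f ⊓ Subgroup.centralizer ((S'.map f : Subgroup (G ⧸ PU.VZ S)) : Set (G ⧸ PU.VZ S))) :=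
      Subgroup.card_le_of_le hYRc
    have h8 : Nat.card ((YY T).map f) ≤ Fintype.card F * Nat.card ((YY T ⊓ R).map f) := by
      refine Nat.le_of_mul_le_mul_right (c := Nat.card (PU.VZ S)) ?_ hVpos
      rw [h1, mul_assoc, h2]; exact h5
    have h9 : Nat.card ((S : Subgroup G).map f) = Fintype.card F * Nat.card ((Cfsg.pCore p G).map f) := by
      refine Nat.eq_of_mul_eq_mul_right hVpos ?_
      rw [h3, mul_assoc, h4]; exact h6
    rw [h9]
    calc Nat.card ((YY T).map f) * Nat.card ((Cfsg.pCore p G).map f)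
        ≤ (Fintype.card F * Nat.card ((YY T ⊓ R).map f)) * Nat.card ((Cfsg.pCore p G).map f) := Nat.mul_le_mul_right _ h8
      _ ≤ (Fintype.card F * Nat.card ↥((YY T).map f ⊓ Subgroup.centralizer ((S'.map f : Subgroup (G ⧸ PU.VZ S)) : Set (G ⧸ PU.VZ S)))) * Nat.card ((Cfsg.pCore p G).map f) :=
          Nat.mul_le_mul_right _ (Nat.mul_le_mul_left _ h7)
      _ = _ := by ring
  obtain ⟨N, hN1, hN2, -⟩ := hP.ff hYbn hel hQc hCM (A := ((S.mapSurjective hfs : Sylow p (G ⧸ PU.VZ S)) : Subgroup (G ⧸ PU.VZ S)))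
    le_rfl (by rw [Sylow.coe_mapSurjective]; exact hSC) hoff
  obtain ⟨N', hN'⟩ := NH.of_nat f hfs N
  have e1 : ((YY T).map f).comap f = YY T := by
    rw [Subgroup.comap_map_eq, QuotientGroup.ker_mk', sup_eq_left.2 hVY]
  have key : ∀ B D : Subgroup G, B = YY T → (∃ N' : NH B D F, ∀ g, N'.ρ g = N.ρ (f g)) →
      ∃ N' : NH (YY T) D F, ∀ g, N'.ρ g = N.ρ (f g) := by
    rintro B D rfl h; exact h
  obtain ⟨N'', hN''⟩ := key _ _ e1 ⟨N', hN'⟩
  have hD : ∀ d, d ∈ (AM.sub (fx (⊤ : Subgroup (G ⧸ PU.VZ S)) : AddSubgroup (AM ((YY T).map f) (PU.comm_of hel) (MonoidHom.id _)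
      (PU.norm_all hYbn)))).comap f ↔ d ∈ YY T ∧ ∀ g : G, ⁅d, g⁆ ∈ PU.VZ S := by
    intro d
    constructor
    · rintro ⟨hx, h⟩
      refine ⟨by rw [← e1]; exact hx, ?_⟩
      rw [AM.mem_fx, Subgroup.map_id] at h
      intro g
      rw [← hfk, map_commutatorElement, commutatorElement_eq_one_iff_mul_comm]
      exact ((Subgroup.mem_centralizer_iff.1 h) (f g) trivial).symm
    · rintro ⟨hx, h⟩
      refine ⟨⟨d, hx, rfl⟩, ?_⟩
      rw [AM.mem_fx, Subgroup.map_id]
      show f d ∈ _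
      rw [Subgroup.mem_centralizer_iff]
      intro x _
      obtain ⟨g, rfl⟩ := hfs x
      have h1 := h g
      rw [← hfk, map_commutatorElement, commutatorElement_eq_one_iff_mul_comm] at h1
      exact h1.symm
  refine ⟨_, N'', ?_, ?_, ?_, ?_, ?_, ?_⟩
  · constructor
    intro x hx g
    rw [hD] at hx ⊢
    refine ⟨hYn.conj_mem x hx.1 g, fun k => ?_⟩
    have e : ⁅g * x * g⁻¹, k⁆ = g * ⁅x, g⁻¹ * k * g⁆ * g⁻¹ := by simp only [commutatorElement_def]; group
    rw [e]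
    exact hVn.conj_mem _ (hx.2 _) g
  · intro x hx
    exact ((hD x).1 hx).1
  · intro x hx
    rw [hD]
    refine ⟨hVY hx, fun g => ?_⟩
    have e : ⁅x, g⁆ = x * (g * x⁻¹ * g⁻¹) := by rw [commutatorElement_def]; group
    rw [e]
    exact mul_mem hx (hVn.conj_mem _ (inv_mem hx) g)
  · intro d hd
    exact ((hD d).1 hd).2
  · intro g
    rw [hN'', ← hcent, ← hN1, MonoidHom.mem_ker]
  · intro s hs
    obtain ⟨t, ht⟩ := hN2 (f s) (by rw [Sylow.coe_mapSurjective]; exact ⟨s, hs, rfl⟩)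
    exact ⟨t, (hN'' s).trans ht⟩

end Main
end B2

end Cfsg.Agent.Lib.QmCore
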