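import Cfsg.Agent.Lib.QmB4
set_option autoImplicit false
set_option linter.unusedSectionVars false

/-! The case `b = 2` of the pushing up theorem: the action on `Y/z`. -/
namespace Cfsg.Agent.Lib.QmCore

open Matrix Cfsg.Agent.Lib.ClSL2 Cfsg.Agent.Lib.LocBase
open scoped MatrixGroups commutatorElement

universe u

section Tau
variable {G : Type*} [Group G] {X : Type*} [AddCommGroup X] [DistribMulAction G X]

/-- second difference -/
def tau (s s' : G) (x : X) : X := s' • (s • x - x) - (s • x - x)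

theorem tau_add (s s' : G) (x y : X) : tau s s' (x + y) = tau s s' x + tau s s' y := by
  simp only [tau, smul_add, smul_sub]; abel

theorem tau_zero (s s' : G) : tau s s' (0 : X) = 0 := by simp [tau]

theorem tau_neg (s s' : G) (x : X) : tau s s' (-x) = - tau s s' x := by
  have h := tau_add s s' x (-x)
  rw [add_neg_cancel, tau_zero] at h
  exact (neg_eq_of_add_eq_zero_right h.symm).symm

theorem tau_sub (s s' : G) (x y : X) : tau s s' (x - y) = tau s s' x - tau s s' y := by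
  rw [sub_eq_add_neg, tau_add, tau_neg, sub_eq_add_neg]

theorem tau_nsmul (s s' : G) (n : ℕ) (x : X) : tau s s' (n • x) = n • tau s s' x := by
  induction n with
  | zero => simp [tau_zero]
  | succ n ih => rw [succ_nsmul, tau_add, ih, succ_nsmul]

theorem smul_tau (h s s' : G) (x : X) : h • tau s s' x = tau (h * s * h⁻¹) (h * s' * h⁻¹) (h • x) := by
  have e : ∀ (a : G) (y : X), (h * a * h⁻¹) • (h • y) = h • (a • y) := by
    intro a y
    rw [← mul_smul, ← mul_smul]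
    congr 1
    group
  unfold tau
  rw [e, ← smul_sub, e, ← smul_sub]

theorem tau_congr {s s' k k' : G} (hk : ∀ x : X, k • x = x) (hk' : ∀ x : X, k' • x = x) (x : X) :
    tau (s * k) (s' * k') x = tau s s' x := by
  simp only [tau, mul_smul, hk, hk']

/-- additivity in the first variable -/
theorem tau_mul_left {S : Subgroup G} (cub : ∀ s ∈ S, ∀ s' ∈ S, ∀ s'' ∈ S, ∀ x : X, s'' • tau s s' x = tau s s' x)
    {s₁ s₂ s' : G} (h₁ : s₁ ∈ S) (h₂ : s₂ ∈ S) (h' : s' ∈ S) (x : X) :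
    tau (s₁ * s₂) s' x = tau s₁ s' x + tau s₂ s' x := by
  have h3 := cub s₂ h₂ s₁ h₁ s' h' x
  simp only [tau] at h3 ⊢
  have e1 : (s₁ * s₂) • x - x = (s₁ • (s₂ • x - x) - (s₂ • x - x)) + (s₂ • x - x) + (s₁ • x - x) := by
    rw [smul_sub, mul_smul]; abel
  rw [e1, smul_add, smul_add, h3]
  abel

theorem tau_mul_right {S : Subgroup G} (cub : ∀ s ∈ S, ∀ s' ∈ S, ∀ s'' ∈ S, ∀ x : X, s'' • tau s s' x = tau s s' x)
    {s₁ s₂ s : G} (h₁ : s₁ ∈ S) (h₂ : s₂ ∈ S) (h : s ∈ S) (x : X) :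
    tau s (s₁ * s₂) x = tau s s₁ x + tau s s₂ x := by
  have h3 := cub s h s₂ h₂ s₁ h₁ x
  simp only [tau] at h3 ⊢
  rw [mul_smul]
  have e1 : s₂ • (s • x - x) = (s₂ • (s • x - x) - (s • x - x)) + (s • x - x) := by abel
  rw [e1, smul_add, h3]
  abel

theorem tau_pow {S : Subgroup G} (cub : ∀ s ∈ S, ∀ s' ∈ S, ∀ s'' ∈ S, ∀ x : X, s'' • tau s s' x = tau s s' x)
    {s s' : G} (h : s ∈ S) (h' : s' ∈ S) (x : X) (m n : ℕ) : tau (s ^ m) (s' ^ n) x = (m * n) • tau s s' x := by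
  have h1 : ∀ (s : G), s ∈ S → ∀ n : ℕ, tau s (s' ^ n) x = n • tau s s' x := by
    intro s hs n
    induction n with
    | zero => simp [tau]
    | succ n ih => rw [pow_succ, tau_mul_right cub (pow_mem h' n) h' hs, ih, succ_nsmul]
  rw [h1 _ (pow_mem h m)]
  have h2 : ∀ m : ℕ, tau (s ^ m) s' x = m • tau s s' x := by
    intro m
    induction m with
    | zero => simp [tau]
    | succ n ih => rw [pow_succ, tau_mul_left cub (pow_mem h n) h h', ih, succ_nsmul]
  rw [h2, ← mul_nsmul', mul_comm]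

/-- the key weight argument -/
theorem tau_eq_zero {p : ℕ} (hp : p.Prime) (hp5 : 5 ≤ p) (hX : ∀ x : X, p • x = 0) {S : Subgroup G} {h : G}
    (hS : ∀ s ∈ S, ∃ k : G, h * s * h⁻¹ = s ^ 4 * k ∧ ∀ x : X, k • x = x)
    (cub : ∀ s ∈ S, ∀ s' ∈ S, ∀ s'' ∈ S, ∀ x : X, s'' • tau s s' x = tau s s' x)
    (wt : ∀ s ∈ S, ∀ s' ∈ S, ∀ x : X, h • tau s s' x = 2 • tau s s' x)
    (hE : ∀ s ∈ S, ∀ s' ∈ S, ∀ x : X, tau s s' (2 • (h • x)) = tau s s' x) :
    ∀ s ∈ S, ∀ s' ∈ S, ∀ x : X, tau s s' x = 0 := by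
  intro s hs s' hs' x
  obtain ⟨k, hk, hk1⟩ := hS s hs
  obtain ⟨k', hk', hk1'⟩ := hS s' hs'
  have h1 := wt s hs s' hs' x
  rw [smul_tau, hk, hk', tau_congr hk1 hk1', tau_pow cub hs hs'] at h1
  have h2 := hE s hs s' hs' x
  rw [tau_nsmul] at h2
  have h3 : 8 • tau s s' x = 2 • tau s s' x := by
    rw [← h1]
    conv_lhs => rw [← h2]
    rw [← mul_nsmul']
  have h4 : 6 • tau s s' x = 0 := by
    have h5 : (6 + 2) • tau s s' x = 2 • tau s s' x := h3
    rw [add_nsmul] at h5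
    exact add_eq_right.1 h5
  have h5 := hX (tau s s' x)
  have h6 : Nat.Coprime 6 p := by
    rw [Nat.coprime_comm, Nat.Prime.coprime_iff_not_dvd hp]
    intro h7
    have := Nat.le_of_dvd (by norm_num) h7
    interval_cases p <;> revert hp h7 <;> decide
  have h7 : addOrderOf (tau s s' x) ∣ 6 := addOrderOf_dvd_of_nsmul_eq_zero h4
  have h8 : addOrderOf (tau s s' x) ∣ p := addOrderOf_dvd_of_nsmul_eq_zero h5
  have h9 := Nat.dvd_gcd h7 h8
  rw [h6.gcd_eq_one] at h9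
  exact AddMonoid.addOrderOf_eq_one_iff.1 (Nat.dvd_one.1 h9)

end Tau

section SLX
variable {F : Type*} [Field F] [Fintype F]

/-- base change -/
def NH.conj {G : Type*} [Group G] {Y D : Subgroup G} (N : NH Y D F) (m : SL(2, F)) : NH Y D F where
  θ x := mulVec (m : Matrix (Fin 2) (Fin 2) F) (N.θ x)
  ρ := (MulAut.conj m).toMonoidHom.comp N.ρ
  add x hx y hy := by rw [N.add x hx y hy, mulVec_add]
  ker x hx := by
    rw [← N.ker x hx]
    constructor
    · intro h
      have h1 : mulVec ((m⁻¹ : SL(2, F)) : Matrix (Fin 2) (Fin 2) F) (mulVec (m : Matrix (Fin 2) (Fin 2) F) (N.θ x)) = N.θ x := by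
        rw [mulVec_mulVec, ← Matrix.SpecialLinearGroup.coe_mul, inv_mul_cancel, Matrix.SpecialLinearGroup.coe_one, one_mulVec]
      rw [← h1, h, mulVec_zero]
    · intro h; rw [h, mulVec_zero]
  surj c := by
    obtain ⟨x, hx, hxc⟩ := N.surj (mulVec ((m⁻¹ : SL(2, F)) : Matrix (Fin 2) (Fin 2) F) c)
    refine ⟨x, hx, ?_⟩
    rw [hxc, mulVec_mulVec, ← Matrix.SpecialLinearGroup.coe_mul, mul_inv_cancel, Matrix.SpecialLinearGroup.coe_one, one_mulVec]
  ρs := (MulAut.conj m).surjective.comp N.ρs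
  nY := N.nY
  act g x hx := by
    rw [N.act g x hx, mulVec_mulVec, mulVec_mulVec]
    congr 1
    show (m : Matrix (Fin 2) (Fin 2) F) * (N.ρ g : Matrix (Fin 2) (Fin 2) F) = ((m * N.ρ g * m⁻¹ : SL(2, F)) : Matrix (Fin 2) (Fin 2) F) * (m : Matrix (Fin 2) (Fin 2) F)
    rw [← Matrix.SpecialLinearGroup.coe_mul, ← Matrix.SpecialLinearGroup.coe_mul, inv_mul_cancel_right]

theorem NH.conj_ρ {G : Type*} [Group G] {Y D : Subgroup G} (N : NH Y D F) (m : SL(2, F)) (g : G) :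
    (N.conj m).ρ g = m * N.ρ g * m⁻¹ := rfl

theorem uS_mul (a b : F) : (uS a : SL(2, F)) * uS b = uS (a + b) := by
  apply Subtype.ext
  show (uS a : SL(2, F)).1 * (uS b : SL(2, F)).1 = _
  ext i j
  fin_cases i <;> fin_cases j <;> simp [Matrix.mul_apply, Fin.sum_univ_two, add_comm]

theorem lS_mul (a b : F) : (lS a : SL(2, F)) * lS b = lS (a + b) := by
  apply Subtype.ext
  show (lS a : SL(2, F)).1 * (lS b : SL(2, F)).1 = _
  ext i j
  fin_cases i <;> fin_cases j <;> simp [Matrix.mul_apply, Fin.sum_univ_two, add_comm]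

theorem lS_zero : lS (0 : F) = 1 := by
  apply Subtype.ext
  show (lS 0 : SL(2, F)).1 = 1
  ext i j
  fin_cases i <;> fin_cases j <;> simp

theorem uS_inv (a : F) : (uS a : SL(2, F))⁻¹ = uS (-a) := by
  rw [inv_eq_iff_mul_eq_one, uS_mul, add_neg_cancel, uS_zero]

theorem lS_inv (a : F) : (lS a : SL(2, F))⁻¹ = lS (-a) := by
  rw [inv_eq_iff_mul_eq_one, lS_mul, add_neg_cancel, lS_zero]

theorem uS_pow (a : F) (n : ℕ) : (uS a : SL(2, F)) ^ n = uS (n * a) := by
  induction n with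
  | zero => simp [uS_zero]
  | succ n ih => rw [pow_succ, ih, uS_mul]; congr 1; push_cast; ring

theorem lS_pow (a : F) (n : ℕ) : (lS a : SL(2, F)) ^ n = lS (n * a) := by
  induction n with
  | zero => simp [lS_zero]
  | succ n ih => rw [pow_succ, ih, lS_mul]; congr 1; push_cast; ring

end SLX

end Cfsg.Agent.Lib.QmCore
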