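import Cfsg.Agent.Lib.QmB5
set_option autoImplicit false
set_option linter.unusedSectionVars false

/-! The case `b = 2` of the pushing up theorem: comparing the two representations. -/
namespace Cfsg.Agent.Lib.QmCore

open Matrix Cfsg.Agent.Lib.ClSL2 Cfsg.Agent.Lib.LocBase
open scoped MatrixGroups commutatorElement

universe u

section SL
variable {F : Type*} [Field F] [Fintype F]

theorem SL_ext {m m' : SL(2, F)} (h00 : m.1 0 0 = m'.1 0 0) (h01 : m.1 0 1 = m'.1 0 1) (h10 : m.1 1 0 = m'.1 1 0)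
    (h11 : m.1 1 1 = m'.1 1 1) : m = m' := by
  apply Subtype.ext
  ext i j
  fin_cases i <;> fin_cases j <;> assumption

/-- the Weyl element -/
def wS (a : F) : SL(2, F) := uS a * lS (-a⁻¹) * uS a

theorem wS_val {a : F} (ha : a ≠ 0) : (wS a : SL(2, F)).1 = !![0, a; -a⁻¹, 0] := by
  show (uS a : SL(2, F)).1 * (lS (-a⁻¹) : SL(2, F)).1 * (uS a : SL(2, F)).1 = _
  rw [coe_uS, coe_lS]
  ext i j
  fin_cases i <;> fin_cases j <;> simp [Matrix.mul_apply, Fin.sum_univ_two, ha]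

theorem wS_sq {a : F} (ha : a ≠ 0) : (wS a : SL(2, F)) * wS a = -1 := by
  apply Subtype.ext
  show (wS a : SL(2, F)).1 * (wS a : SL(2, F)).1 = _
  rw [wS_val ha, Matrix.SpecialLinearGroup.coe_neg, Matrix.SpecialLinearGroup.coe_one]
  ext i j
  fin_cases i <;> fin_cases j <;> simp [Matrix.mul_apply, Fin.sum_univ_two, ha]

theorem neg_one_center : (-1 : SL(2, F)) ∈ Subgroup.center SL(2, F) := by
  rw [Subgroup.mem_center_iff]
  intro g
  apply Subtype.ext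
  show g.1 * (-1 : SL(2, F)).1 = (-1 : SL(2, F)).1 * g.1
  rw [Matrix.SpecialLinearGroup.coe_neg, Matrix.SpecialLinearGroup.coe_one]
  simp

theorem inv_val (m : SL(2, F)) : (m⁻¹).1 = !![m.1 1 1, -m.1 0 1; -m.1 1 0, m.1 0 0] := by
  show ((m⁻¹ : SL(2, F)) : Matrix (Fin 2) (Fin 2) F) = _
  rw [Matrix.SpecialLinearGroup.coe_inv, Matrix.adjugate_fin_two]

theorem conj_ent (m : SL(2, F)) (c d : F) :
    (uS c * m * uS d : SL(2, F)).1 0 0 = m.1 0 0 + c * m.1 1 0 ∧ (uS c * m * uS d : SL(2, F)).1 1 0 = m.1 1 0 := by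
  constructor
  · show ((uS c : SL(2, F)).1 * m.1 * (uS d : SL(2, F)).1) 0 0 = _
    rw [coe_uS, coe_uS, Matrix.mul_apply, Fin.sum_univ_two, Matrix.mul_apply, Matrix.mul_apply, Fin.sum_univ_two, Fin.sum_univ_two]
    simp
  · show ((uS c : SL(2, F)).1 * m.1 * (uS d : SL(2, F)).1) 1 0 = _
    rw [coe_uS, coe_uS, Matrix.mul_apply, Fin.sum_univ_two, Matrix.mul_apply, Matrix.mul_apply, Fin.sum_univ_two, Fin.sum_univ_two]
    simp

theorem conj_low {m : SL(2, F)} (h : m.1 0 0 = 0) (hd : m.1 0 1 * m.1 1 0 = -1) (a : F) :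
    m * uS (-a) * m⁻¹ = lS (a * (m.1 1 0) ^ 2) := by
  apply Subtype.ext
  show (m.1 * (uS (-a) : SL(2, F)).1 * (m⁻¹).1) = _
  rw [inv_val, coe_uS, coe_lS]
  ext i j
  rw [Matrix.mul_apply, Fin.sum_univ_two, Matrix.mul_apply, Matrix.mul_apply, Fin.sum_univ_two, Fin.sum_univ_two]
  fin_cases i <;> fin_cases j <;> simp [h]
  · linear_combination -hd
  · ring
  · linear_combination -hd

theorem w_sq_ent (a b : F) : ((uS a * lS (-b) * uS a) * (uS a * lS (-b) * uS a) : SL(2, F)).1 1 0 = 2 * b * (a * b - 1) := by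
  show (((uS a : SL(2, F)).1 * (lS (-b) : SL(2, F)).1 * (uS a : SL(2, F)).1) *
      ((uS a : SL(2, F)).1 * (lS (-b) : SL(2, F)).1 * (uS a : SL(2, F)).1)) 1 0 = _
  rw [coe_uS, coe_lS]
  simp [Matrix.mul_apply, Fin.sum_univ_two]
  ring

/-- the word for the torus element -/
theorem word_val {a k : F} (ha : a ≠ 0) (hk : 2 * k = 1) :
    ((uS (2 * a) * lS (-(k * a⁻¹)) * uS (2 * a) * (wS a)⁻¹ : SL(2, F))).1 = !![2, 0; 0, k] := by
  show (uS (2 * a) : SL(2, F)).1 * (lS (-(k * a⁻¹)) : SL(2, F)).1 * (uS (2 * a) : SL(2, F)).1 * ((wS a)⁻¹ : SL(2, F)).1 = _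
  rw [coe_uS, coe_lS, inv_val, wS_val ha]
  have h2 : 2 * a * (k * a⁻¹) = 1 := by rw [show 2 * a * (k * a⁻¹) = (2 * k) * (a * a⁻¹) by ring, hk, mul_inv_cancel₀ ha, one_mul]
  have h3 : k * a⁻¹ * (2 * a) = 1 := by rw [← h2]; ring
  have h4 : a⁻¹ * a = 1 := inv_mul_cancel₀ ha
  ext i j
  fin_cases i <;> fin_cases j <;> simp [Matrix.mul_apply, Fin.sum_univ_two]
  · rw [h2]
    linear_combination 2 * h4
  · left; rw [h2]; ring
  · left; rw [h3]; ring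
  · linear_combination k * h4

end SL

section Main
variable {p : ℕ} [hp : Fact p.Prime] {G : Type u} [Group G] [Finite G] {S : Sylow p G} {M : Subgroup G}
  {F : Type*} [Field F] [Fintype F] [CharP F p] {φ : G →* PSL(2, F)}

/-- `M` is the preimage of the Borel subgroup. -/
theorem PU.borel (h : PU p S M φ) (ρ : G →* SL(2, F)) (hs : Function.Surjective ρ)
    (hS : ∀ s ∈ (S : Subgroup G), ∃ t, ρ s = uS t) : (BS F).comap ρ = M := by
  apply h.uniq _ (Subgroup.isCoatom_comap_of_surjective hs BS_coatom)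
  intro s hs'
  obtain ⟨t, ht⟩ := hS s hs'
  show ρ s ∈ BS F
  rw [ht]
  exact (rk_SL2 F).le (uS_mem t)

theorem PU.central_transfer (h : PU p S M φ) {ρ₁ ρ₂ : G →* SL(2, F)} (hs₁ : Function.Surjective ρ₁)
    (hS₁ : ∀ s ∈ (S : Subgroup G), ∃ t, ρ₁ s = uS t) (hs₂ : Function.Surjective ρ₂)
    (hS₂ : ∀ s ∈ (S : Subgroup G), ∃ t, ρ₂ s = uS t) {g : G} (hg : ρ₁ g ∈ Subgroup.center SL(2, F)) :
    ρ₂ g ∈ Subgroup.center SL(2, F) := by
  have h1 : (Subgroup.center SL(2, F)).comap ρ₁ ≤ M := by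
    rw [← h.borel ρ₁ hs₁ hS₁]
    exact Subgroup.comap_mono center_le_BS
  have h2 : (((Subgroup.center SL(2, F)).comap ρ₁).map ρ₂).Normal := (inferInstance : ((Subgroup.center SL(2, F)).comap ρ₁).Normal).map ρ₂ hs₂
  have h3 : ((Subgroup.center SL(2, F)).comap ρ₁).map ρ₂ ≤ BS F := by
    rw [Subgroup.map_le_iff_le_comap, h.borel ρ₂ hs₂ hS₂]
    exact h1
  exact normal_le_BS h2 h3 ⟨g, hg, rfl⟩

/-- `S` maps onto the unipotent group -/
theorem PU.exists_u (_h : PU p S M φ) {ρ : G →* SL(2, F)} (hs : Function.Surjective ρ)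
    (hS : ∀ s ∈ (S : Subgroup G), ∃ t, ρ s = uS t) (t : F) : ∃ s ∈ (S : Subgroup G), ρ s = uS t := by
  have h1 : ((S.mapSurjective hs : Sylow p SL(2, F)) : Subgroup SL(2, F)) ≤ ((sylowUS F p : Sylow p SL(2, F)) : Subgroup SL(2, F)) := by
    rw [Sylow.coe_mapSurjective, coe_sylowUS]
    rintro _ ⟨s, hs', rfl⟩
    obtain ⟨t, ht⟩ := hS s hs'
    rw [ht]; exact uS_mem t
  have h2 := (S.mapSurjective hs).is_maximal' (sylowUS F p).2 h1
  rw [Sylow.coe_mapSurjective, coe_sylowUS] at h2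
  have h3 : (uS t : SL(2, F)) ∈ (S : Subgroup G).map ρ := by rw [← h2]; exact uS_mem t
  obtain ⟨s, hs', hst⟩ := h3
  exact ⟨s, hs', hst⟩

theorem pelt_mem {N Q : Subgroup G} (hN : N.Normal) (hQ : Q.Normal) (S : Sylow p G)
    (hNS : ∀ s ∈ (S : Subgroup G), s ∈ N → s ∈ Q) {x : G} (hx : x ∈ N) {e : ℕ} (he : x ^ p ^ e = 1) : x ∈ Q := by
  have h1 : IsPGroup p (Subgroup.zpowers x) := by
    rintro ⟨_, k, rfl⟩
    refine ⟨e, Subtype.ext ?_⟩
    show (x ^ k) ^ p ^ e = 1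
    rw [← zpow_natCast, ← _root_.zpow_mul, mul_comm, _root_.zpow_mul, zpow_natCast, he, _root_.one_zpow]
  obtain ⟨P, hP⟩ := h1.exists_le_sylow
  obtain ⟨g, rfl⟩ := MulAction.exists_smul_eq G S P
  have h2 : x ∈ ((g • S : Sylow p G) : Subgroup G) := hP (Subgroup.mem_zpowers x)
  rw [Sylow.coe_subgroup_smul] at h2
  obtain ⟨s, hs, hsx⟩ := h2
  have hsx' : g * s * g⁻¹ = x := hsx
  have h3 : s ∈ N := by
    have := hN.conj_mem x hx g⁻¹
    rw [← hsx'] at this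
    simpa [mul_assoc] using this
  rw [← hsx']
  exact hQ.conj_mem s (hNS s hs h3) g

/-- decomposition into `p'`-part and `p`-part -/
theorem mem_of_parts {E : Subgroup G} {k : G} (h1 : ∀ n : ℕ, Nat.Coprime (orderOf (k ^ n)) p → k ^ n ∈ E)
    (h2 : ∀ n e : ℕ, (k ^ n) ^ p ^ e = 1 → k ^ n ∈ E) : k ∈ E := by
  obtain ⟨e, m, hm, hn⟩ := Nat.exists_eq_pow_mul_and_not_dvd (orderOf_pos k).ne' p hp.out.ne_one
  have hc : Nat.Coprime (p ^ e) m := Nat.Coprime.pow_left e ((Nat.Prime.coprime_iff_not_dvd hp.out).2 hm)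
  have ha : k ^ p ^ e ∈ E := by
    apply h1
    have h3 : orderOf (k ^ p ^ e) = m := by
      rw [orderOf_pow' _ (pow_ne_zero _ hp.out.ne_zero), hn, Nat.gcd_eq_right (dvd_mul_right _ _)]
      exact Nat.mul_div_cancel_left _ (pow_pos hp.out.pos e)
    rw [h3]
    exact ((Nat.Prime.coprime_iff_not_dvd hp.out).2 hm).symm
  have hb : k ^ m ∈ E := by
    apply h2 m e
    rw [← pow_mul, mul_comm, ← hn, pow_orderOf_eq_one]
  have h3 := Nat.gcd_eq_gcd_ab (p ^ e) m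
  rw [hc.gcd_eq_one] at h3
  have h4 : k = (k ^ p ^ e) ^ (Nat.gcdA (p ^ e) m) * (k ^ m) ^ (Nat.gcdB (p ^ e) m) := by
    rw [← zpow_natCast, ← _root_.zpow_mul, ← zpow_natCast, ← _root_.zpow_mul, ← _root_.zpow_add]
    have : ((p ^ e : ℕ) : ℤ) * Nat.gcdA (p ^ e) m + ((m : ℕ) : ℤ) * Nat.gcdB (p ^ e) m = 1 := by rw [← h3]; rfl
    rw [this, _root_.zpow_one]
  rw [h4]
  exact mul_mem (zpow_mem ha _) (zpow_mem hb _)

/-- a torus element acting in the same way in both representations -/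
theorem exists_torus (h : PU p S M φ) {Y₁ D₁ Y₂ D₂ : Subgroup G} (N₁ : NH Y₁ D₁ F) (N₂ : NH Y₂ D₂ F)
    (h1 : ∀ s ∈ (S : Subgroup G), ∃ t, N₁.ρ s = uS t) (h2 : ∀ s ∈ (S : Subgroup G), ∃ t, N₂.ρ s = uS t)
    (h12 : ∀ s ∈ (S : Subgroup G), N₂.ρ s = 1 → N₁.ρ s = 1) (hp2 : p ≠ 2) :
    ∃ (N : NH Y₂ D₂ F) (x : G) (k : F), 2 * k = 1 ∧ (∀ g, N.ρ g = 1 ↔ N₂.ρ g = 1) ∧
      (∀ s ∈ (S : Subgroup G), ∃ t, N.ρ s = uS t) ∧ (N₁.ρ x).1 = !![2, 0; 0, k] ∧ (N.ρ x).1 = !![2, 0; 0, k] := by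
  have h20 : (2 : F) ≠ 0 := by
    intro h0
    have h3 : ((2 : ℕ) : F) = 0 := by exact_mod_cast h0
    rw [CharP.cast_eq_zero_iff F p] at h3
    exact hp2 ((Nat.prime_dvd_prime_iff_eq hp.out Nat.prime_two).1 h3)
  set k : ℕ := (p + 1) / 2 with hkdef
  have hk : (2 : F) * (k : F) = 1 := by
    have hodd : p % 2 = 1 := (hp.out.eq_two_or_odd).resolve_left hp2
    have h3 : 2 * k = p + 1 := by omega
    have h4 : ((2 * k : ℕ) : F) = ((p + 1 : ℕ) : F) := by rw [h3]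
    push_cast at h4
    rw [h4, CharP.cast_eq_zero, zero_add]
  obtain ⟨u, hu, hu1⟩ := h.exists_u N₁.ρs h1 1
  obtain ⟨a, hu2⟩ := h2 u hu
  have ha : a ≠ 0 := by
    rintro rfl
    rw [uS_zero] at hu2
    have := h12 u hu hu2
    rw [hu1] at this
    have h3 := congrArg (fun m : SL(2, F) => m.1 0 1) this
    simp at h3
  obtain ⟨x, hx⟩ := N₁.ρs (wS 1)
  have hxM : x ∉ M := by
    rw [← h.borel N₁.ρ N₁.ρs h1]
    show N₁.ρ x ∉ BS F
    rw [hx, mem_BS]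
    show (wS (1 : F) : SL(2, F)).1 1 0 ≠ 0
    rw [wS_val one_ne_zero]
    simp
  have hx2 : (N₂.ρ x).1 1 0 ≠ 0 := by
    intro h3
    apply hxM
    rw [← h.borel N₂.ρ N₂.ρs h2]
    exact h3
  -- base change
  set c : F := - (N₂.ρ x).1 0 0 * ((N₂.ρ x).1 1 0)⁻¹ with hc
  set N := N₂.conj (uS c) with hN
  have hNS : ∀ s t, N₂.ρ s = uS t → N.ρ s = uS t := by
    intro s t hst
    rw [hN, NH.conj_ρ, hst, uS_inv, uS_mul, uS_mul]
    congr 1; ring
  have hNu := hNS u a hu2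
  set m := N.ρ x with hm
  have hm00 : m.1 0 0 = 0 := by
    rw [hm, hN, NH.conj_ρ, uS_inv, (conj_ent _ _ _).1, hc, mul_assoc, inv_mul_cancel₀ hx2]
    ring
  have hm10 : m.1 1 0 ≠ 0 := by
    rw [hm, hN, NH.conj_ρ, uS_inv, (conj_ent _ _ _).2]
    exact hx2
  have hdet := m.2
  rw [Matrix.det_fin_two, hm00] at hdet
  have hdet' : m.1 0 1 * m.1 1 0 = -1 := by linear_combination -hdet
  set b : F := a * (m.1 1 0) ^ 2 with hb
  have hb0 : b ≠ 0 := mul_ne_zero ha (pow_ne_zero 2 hm10)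
  set v := x * u⁻¹ * x⁻¹ with hv
  have hv1 : N₁.ρ v = lS 1 := by
    rw [hv, map_mul, map_mul, map_inv, map_inv, hx, hu1, uS_inv]
    apply Subtype.ext
    show (wS (1 : F) : SL(2, F)).1 * (uS (-1) : SL(2, F)).1 * ((wS (1 : F))⁻¹ : SL(2, F)).1 = _
    rw [inv_val, wS_val one_ne_zero, coe_uS, coe_lS]
    ext i j
    fin_cases i <;> fin_cases j <;> simp [Matrix.mul_apply, Fin.sum_univ_two]
  have hv2 : N.ρ v = lS b := by
    rw [hv, map_mul, map_mul, map_inv, map_inv, ← hm, hNu, uS_inv, conj_low hm00 hdet']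
  set w := u * v⁻¹ * u with hw
  have hw1 : N₁.ρ w = wS 1 := by
    rw [hw, map_mul, map_mul, map_inv, hu1, hv1, lS_inv, wS]
    simp
  have hw2 : N.ρ w = uS a * lS (-b) * uS a := by
    rw [hw, map_mul, map_mul, map_inv, hNu, hv2, lS_inv]
  have hNSS : ∀ s ∈ (S : Subgroup G), ∃ t, N.ρ s = uS t := fun s hs => by
    obtain ⟨t, ht⟩ := h2 s hs
    exact ⟨t, hNS s t ht⟩
  have hab : a * b = 1 := by
    have h3 : N₁.ρ (w * w) ∈ Subgroup.center SL(2, F) := by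
      rw [map_mul, hw1, wS_sq one_ne_zero]; exact neg_one_center
    have h4 := h.central_transfer N₁.ρs h1 N.ρs hNSS h3
    have h5 := center_le_BS h4
    rw [mem_BS, map_mul, hw2] at h5
    have h7 : (2 * b) * (a * b - 1) = 0 := by
      rw [← w_sq_ent]; exact h5
    rcases mul_eq_zero.1 h7 with h8 | h8
    · exact absurd h8 (mul_ne_zero h20 hb0)
    · exact sub_eq_zero.1 h8
  have hba : b = a⁻¹ := eq_inv_of_mul_eq_one_right hab
  refine ⟨N, u ^ 2 * (v⁻¹) ^ k * u ^ 2 * w⁻¹, (k : F), hk, ?_, hNSS, ?_, ?_⟩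
  · intro g
    rw [hN, NH.conj_ρ, conj_eq_one_iff]
  · have e : N₁.ρ (u ^ 2 * (v⁻¹) ^ k * u ^ 2 * w⁻¹) = uS (2 * 1) * lS (-((k : F) * 1⁻¹)) * uS (2 * 1) * (wS 1)⁻¹ := by
      rw [map_mul, map_mul, map_mul, map_pow, map_pow, map_inv, map_inv, hu1, hv1, hw1, uS_pow, lS_inv, lS_pow]
      simp
    rw [e, word_val one_ne_zero hk]
  · have e : N.ρ (u ^ 2 * (v⁻¹) ^ k * u ^ 2 * w⁻¹) = uS (2 * a) * lS (-((k : F) * a⁻¹)) * uS (2 * a) * (wS a)⁻¹ := by
      rw [map_mul, map_mul, map_mul, map_pow, map_pow, map_inv, map_inv, hNu, hv2, hw2, uS_pow, lS_inv, lS_pow, wS, hba]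
      simp
    rw [e, word_val ha hk]

end Main

end Cfsg.Agent.Lib.QmCore
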