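import Cfsg.Agent.Lib.QmB6
set_option autoImplicit false
set_option linter.unusedSectionVars false

/-! The case `b = 2` of the pushing up theorem: facts about `Y`. -/
namespace Cfsg.Agent.Lib.QmCore

open Matrix Cfsg.Agent.Lib.ClSL2 Cfsg.Agent.Lib.LocBase
open scoped MatrixGroups commutatorElement

universe u

theorem fix_uS {F : Type*} [Field F] {a : F} (ha : a ≠ 0) {v : Fin 2 → F}
    (h : mulVec (uS a : SL(2, F)).1 v = v) : v 1 = 0 := by
  rw [mulVec_uS'] at h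
  have h1 := congrFun h 0
  simp only [Matrix.cons_val_zero] at h1
  have h2 : a * v 1 = 0 := by linear_combination h1
  exact (mul_eq_zero.1 h2).resolve_left ha

namespace B2

/-- data on the second module -/
structure NN {p : ℕ} [Fact p.Prime] {G : Type u} [Group G] [Finite G] (S : Sylow p G) (T : Subgroup G) {F : Type*} [Field F]
    (D : Subgroup G) (N : NH (YY T) D F) : Prop where
  Dn : D.Normal
  DY : D ≤ YY T
  VD : PU.VZ S ≤ D
  DV : ∀ d ∈ D, ∀ g : G, ⁅d, g⁆ ∈ PU.VZ S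
  ker : ∀ g, N.ρ g = 1 ↔ ∀ y ∈ YY T, ⁅g, y⁆ ∈ PU.VZ S
  uu : ∀ s ∈ (S : Subgroup G), ∃ t, N.ρ s = uS t

section Main
variable {p : ℕ} [hp : Fact p.Prime] {G : Type u} [Group G] [Finite G] {S : Sylow p G} {M : Subgroup G}
  {F : Type*} [Field F] [Fintype F] [CharP F p] {φ : G →* PSL(2, F)}
  {T A R w S' : Subgroup G}

theorem exists_NN (h : PU p S M φ) (hf : PUF S F)
    (c : B2 p (Fintype.card F) (⊤ : Subgroup G) (S : Subgroup G) (Cfsg.pCore p G) (PU.VZ S) (PU.zz S) T A R w S') :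
    ∃ (D : Subgroup G) (N : NH (YY T) D F), NN S T D N := by
  obtain ⟨D, N, h1, h2, h3, h4, h5, h6⟩ := c.exists_N2 h hf
  exact ⟨D, N, ⟨h1, h2, h3, h4, h5, h6⟩⟩

variable {D : Subgroup G} {N : NH (YY T) D F}

theorem NN.ker_mem (h : PU p S M φ) (nn : NN S T D N) {s : G} (hs : s ∈ (S : Subgroup G)) (h1 : N.ρ s = 1) :
    s ∈ Cfsg.pCore p G := by
  have hk : N.ρ.ker ≤ M := by
    rw [← h.borel N.ρ N.ρs nn.uu]
    intro x hx
    show N.ρ x ∈ BS F
    rw [(MonoidHom.mem_ker).1 hx]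
    exact one_mem _
  rw [h.pCore_eq]
  exact Subgroup.mem_inf.2 ⟨hs, h.le_ker_of_normal N.ρ.normal_ker hk h1⟩

theorem NN.of_Q (hf : PUF S F) (nn : NN S T D N)
    (c : B2 p (Fintype.card F) (⊤ : Subgroup G) (S : Subgroup G) (Cfsg.pCore p G) (PU.VZ S) (PU.zz S) T A R w S')
    {a : G} (ha : a ∈ Cfsg.pCore p G) : N.ρ a = 1 := by
  rw [nn.ker]
  intro y hy
  exact (Crit.comm_swap (c.YQ hf y hy a ha)).1

/-- the common kernel acts trivially on `Y/z` -/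
theorem NN.triv (hf : PUF S F) (nn : NN S T D N)
    (c : B2 p (Fintype.card F) (⊤ : Subgroup G) (S : Subgroup G) (Cfsg.pCore p G) (PU.VZ S) (PU.zz S) T A R w S')
    {k : G} (hk1 : k ∈ Subgroup.centralizer (PU.VZ S : Set G)) (hk2 : N.ρ k = 1) : ∀ y ∈ YY T, ⁅k, y⁆ ∈ PU.zz S := by
  have hzn := zz_normal hf
  have hpn : (Cfsg.pCore p G).Normal := pCore_normal p G
  have hVp : ∀ v ∈ PU.VZ S, v ^ p = 1 := hf.elem.2
  set E := ctr (⊤ : Subgroup G) (YY T) (PU.zz S) (fun g _ v hv => hzn.conj_mem v hv g) with hE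
  have hkE : k ∈ E := by
    apply mem_of_parts (p := p)
    · intro n hn
      rw [hE, mem_ctr]
      refine ⟨trivial, fun y hy => ?_⟩
      have h1 : k ^ n ∈ Subgroup.centralizer (PU.VZ S : Set G) := pow_mem hk1 n
      have h2 : N.ρ (k ^ n) = 1 := by rw [map_pow, hk2, one_pow]
      have h3 := (nn.ker _).1 h2 y⁻¹ (inv_mem hy)
      have e : y⁻¹ * (k ^ n * y * (k ^ n)⁻¹) = ⁅k ^ n, y⁻¹⁆⁻¹ := by rw [commutatorElement_def]; group
      have h4 : y⁻¹ * (k ^ n * y * (k ^ n)⁻¹) ∈ PU.VZ S := by rw [e]; exact inv_mem h3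
      have h5 := comm_of_twice hn ((Subgroup.mem_centralizer_iff.1 h1 _ h4).symm) (k := 1) (by rw [pow_one]; exact hVp _ h4)
      have h6 : ⁅y, k ^ n⁆ = 1 := by rw [commutatorElement_eq_one_iff_mul_comm]; exact h5.symm
      rw [h6]; exact one_mem _
    · intro n e he
      have hNn : (Subgroup.centralizer (PU.VZ S : Set G)).Normal := PU.cent_normal hf.norm
      have h1 : k ^ n ∈ Cfsg.pCore p G := by
        apply pelt_mem hNn hpn S _ (pow_mem hk1 n) he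
        intro s hs hsc
        exact hf.loc.mem_Q hs (fun v hv => (Subgroup.mem_centralizer_iff.1 hsc v hv).symm)
      rw [hE, mem_ctr]
      exact ⟨trivial, fun y hy => c.YQ hf y hy _ h1⟩
  intro y hy
  exact Crit.comm_swap ((mem_ctr.1 hkE).2 y hy)

theorem NN.T_theta (h : PU p S M φ) (nn : NN S T D N)
    (c : B2 p (Fintype.card F) (⊤ : Subgroup G) (S : Subgroup G) (Cfsg.pCore p G) (PU.VZ S) (PU.zz S) T A R w S')
    {t : G} (ht : t ∈ T) : N.θ t 1 = 0 := by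
  obtain ⟨u, hu, hu1⟩ := h.exists_u N.ρs nn.uu 1
  apply fix_uS one_ne_zero
  have h1 : ⁅u, t⁆ ∈ D := nn.VD (Crit.comm_swap (c.TS t ht u hu)).1
  have h2 := N.comm (T_le_Y ht) u
  rw [(N.ker _ (nn.DY h1)).2 h1, hu1] at h2
  exact (sub_eq_zero.1 h2.symm)

theorem g_not_mem (h : PU p S M φ)
    (c : B2 p (Fintype.card F) (⊤ : Subgroup G) (S : Subgroup G) (Cfsg.pCore p G) (PU.VZ S) (PU.zz S) T A R w S')
    {g : G} (hg : S' = cj g S) : g ∉ M := by
  intro hgM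
  apply h.coatom.1
  rw [eq_top_iff, ← c.gen, hg]
  exact sup_le h.le (cj_le_of_mem h.le hgM)

theorem NN.R_theta (h : PU p S M φ) (hf : PUF S F) (nn : NN S T D N)
    (c : B2 p (Fintype.card F) (⊤ : Subgroup G) (S : Subgroup G) (Cfsg.pCore p G) (PU.VZ S) (PU.zz S) T A R w S') :
    ∃ α β : F, α ≠ 0 ∧ ∀ r ∈ YY T ⊓ R, α * N.θ r 0 = β * N.θ r 1 := by
  obtain ⟨u, hu, hu1⟩ := h.exists_u N.ρs nn.uu 1
  obtain ⟨g, -, hg⟩ := c.conj
  have hgM := c.g_not_mem h hg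
  refine ⟨(N.ρ g).1 1 0, (N.ρ g).1 0 0, ?_, ?_⟩
  · intro h1
    apply hgM
    rw [← h.borel N.ρ N.ρs nn.uu]
    exact h1
  · intro r hr
    have hu' : g * u * g⁻¹ ∈ S' := by rw [hg]; exact conj_mem_cj hu
    have h1 : ⁅g * u * g⁻¹, r⁆ ∈ D := nn.VD (c.zc_S'_le hf (Crit.comm_swap (c.YR_comm hf r hr _ hu')))
    have h2 := N.comm hr.1 (g * u * g⁻¹)
    rw [(N.ker _ (nn.DY h1)).2 h1] at h2
    have h3 := sub_eq_zero.1 h2.symm
    rw [map_mul, map_mul, map_inv, hu1, Matrix.SpecialLinearGroup.coe_mul, Matrix.SpecialLinearGroup.coe_mul,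
      ← mulVec_mulVec, ← mulVec_mulVec] at h3
    have h4 : mulVec (uS (1 : F) : SL(2, F)).1 (mulVec ((N.ρ g)⁻¹).1 (N.θ r)) = mulVec ((N.ρ g)⁻¹).1 (N.θ r) := by
      have h5 := congrArg (mulVec ((N.ρ g)⁻¹).1) h3
      rw [mulVec_mulVec, ← Matrix.SpecialLinearGroup.coe_mul, inv_mul_cancel, Matrix.SpecialLinearGroup.coe_one, one_mulVec] at h5
      exact h5
    have h5 := fix_uS one_ne_zero h4
    rw [inv_val] at h5
    simp [mulVec, dotProduct, Fin.sum_univ_two] at h5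
    linear_combination -h5

/-- decomposition of elements with `θ₁ = 0` -/
theorem NN.dec (h : PU p S M φ) (hf : PUF S F) (nn : NN S T D N)
    (c : B2 p (Fintype.card F) (⊤ : Subgroup G) (S : Subgroup G) (Cfsg.pCore p G) (PU.VZ S) (PU.zz S) T A R w S')
    {y : G} (hy : y ∈ YY T) (hy1 : N.θ y 1 = 0) : ∃ t ∈ T, ∃ r ∈ YY T ⊓ R, y = t * r ∧ N.θ t = N.θ y ∧ r ∈ D := by
  obtain ⟨t, ht, r, hr, rfl⟩ := c.Y_dec hf y hy
  have ht1 := nn.T_theta h c ht
  obtain ⟨α, β, hα, hαβ⟩ := nn.R_theta h hf c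
  have h1 := N.add t (T_le_Y ht) r hr.1
  have hr1 : N.θ r 1 = 0 := by
    have h2 := congrFun h1 1
    rw [Pi.add_apply, ht1, zero_add, hy1] at h2
    exact h2.symm
  have hr0 : N.θ r 0 = 0 := by
    have h2 := hαβ r hr
    rw [hr1, mul_zero] at h2
    exact (mul_eq_zero.1 h2).resolve_left hα
  have hr' : N.θ r = 0 := by
    ext i; fin_cases i
    · exact hr0
    · exact hr1
  refine ⟨t, ht, r, hr, rfl, ?_, ?_⟩
  · rw [h1, hr', add_zero]
  · exact (N.ker r hr.1).1 hr'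

theorem NN.T_surj (h : PU p S M φ) (hf : PUF S F) (nn : NN S T D N)
    (c : B2 p (Fintype.card F) (⊤ : Subgroup G) (S : Subgroup G) (Cfsg.pCore p G) (PU.VZ S) (PU.zz S) T A R w S')
    (a : F) : ∃ t ∈ T, N.θ t = ![a, 0] := by
  obtain ⟨y, hy, hya⟩ := N.surj ![a, 0]
  obtain ⟨t, ht, r, -, -, h1, -⟩ := nn.dec h hf c hy (by rw [hya]; rfl)
  exact ⟨t, ht, h1.trans hya⟩

/-- `T ∩ D = T ∩ R` -/
theorem NN.TD (h : PU p S M φ) (hf : PUF S F) (nn : NN S T D N)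
    (c : B2 p (Fintype.card F) (⊤ : Subgroup G) (S : Subgroup G) (Cfsg.pCore p G) (PU.VZ S) (PU.zz S) T A R w S') :
    T ⊓ D ≤ R := by
  have hle : zc (S : Subgroup G) ≤ T ⊓ D := by
    refine le_inf ?_ (hf.loc.zcV.trans nn.VD)
    rw [← c.TR]; exact inf_le_left
  let f : ↥T →* Multiplicative F :=
    { toFun := fun t => Multiplicative.ofAdd (N.θ t 0)
      map_one' := by
        show Multiplicative.ofAdd (N.θ 1 0) = 1
        rw [N.one]; rfl
      map_mul' := fun a b => by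
        show Multiplicative.ofAdd (N.θ ((a : G) * b) 0) = _
        rw [N.add _ (T_le_Y a.2) _ (T_le_Y b.2)]; rfl }
  have hf1 : Function.Surjective f := by
    intro a
    obtain ⟨t, ht, hta⟩ := nn.T_surj h hf c (Multiplicative.toAdd a)
    refine ⟨⟨t, ht⟩, ?_⟩
    show Multiplicative.ofAdd (N.θ t 0) = a
    rw [hta]; rfl
  have hk : f.ker = (T ⊓ D).subgroupOf T := by
    ext ⟨t, ht⟩
    rw [MonoidHom.mem_ker, Subgroup.mem_subgroupOf]
    show Multiplicative.ofAdd (N.θ t 0) = 1 ↔ t ∈ T ⊓ D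
    constructor
    · intro h1
      have h2 : N.θ t 0 = 0 := h1
      refine Subgroup.mem_inf.2 ⟨ht, (N.ker t (T_le_Y ht)).1 ?_⟩
      ext i; fin_cases i
      · exact h2
      · exact nn.T_theta h c ht
    · intro h1
      rw [(N.ker t (T_le_Y ht)).2 h1.2]; rfl
  have h1 : Nat.card T = Fintype.card F * Nat.card ↥(T ⊓ D) := by
    have h2 := Subgroup.card_mul_index f.ker
    rw [Subgroup.index_ker, MonoidHom.range_eq_top.2 hf1, Subgroup.card_top, hk,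
      Nat.card_congr (Subgroup.subgroupOfEquivOfLe (inf_le_left : T ⊓ D ≤ T)).toEquiv] at h2
    rw [← h2, mul_comm]
    congr 1
    rw [← Nat.card_eq_fintype_card]; rfl
  rw [c.cT] at h1
  have h3 : Nat.card (zc (S : Subgroup G)) = Nat.card ↥(T ⊓ D) := Nat.eq_of_mul_eq_mul_left Fintype.card_pos h1
  have h4 : zc (S : Subgroup G) = T ⊓ D := Subgroup.eq_of_le_of_card_ge hle h3.ge
  rw [← h4, ← c.TR]
  exact inf_le_right

theorem NN.D_le_R (h : PU p S M φ) (hf : PUF S F) (nn : NN S T D N)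
    (c : B2 p (Fintype.card F) (⊤ : Subgroup G) (S : Subgroup G) (Cfsg.pCore p G) (PU.VZ S) (PU.zz S) T A R w S') :
    D ≤ R := by
  intro d hd
  have h0 := (N.ker d (nn.DY hd)).2 hd
  obtain ⟨t, ht, r, hr, rfl, h1, h2⟩ := nn.dec h hf c (nn.DY hd) (by rw [h0]; rfl)
  have h3 : t ∈ D := (N.ker t (T_le_Y ht)).1 (h1.trans h0)
  exact mul_mem (nn.TD h hf c (Subgroup.mem_inf.2 ⟨ht, h3⟩)) hr.2

/-- `[D, S, S] = 1` -/
theorem NN.DSS (h : PU p S M φ) (hf : PUF S F) (nn : NN S T D N)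
    (c : B2 p (Fintype.card F) (⊤ : Subgroup G) (S : Subgroup G) (Cfsg.pCore p G) (PU.VZ S) (PU.zz S) T A R w S') :
    ∀ d ∈ D, ∀ s ∈ (S : Subgroup G), ⁅s, d⁆ ∈ zc (S : Subgroup G) := by
  intro d hd s hs
  obtain ⟨g, -, hg⟩ := c.conj
  have h1 : g * d * g⁻¹ ∈ YY T ⊓ R := by
    have h2 := nn.Dn.conj_mem d hd g
    exact Subgroup.mem_inf.2 ⟨nn.DY h2, nn.D_le_R h hf c h2⟩
  have h2 : g * s * g⁻¹ ∈ S' := by rw [hg]; exact conj_mem_cj hs
  have h3 := Crit.comm_swap (c.YR_comm hf _ h1 _ h2)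
  rw [hg, zc_cj, mem_cj] at h3
  have e : g⁻¹ * ⁅g * s * g⁻¹, g * d * g⁻¹⁆ * g = ⁅s, d⁆ := by simp only [commutatorElement_def]; group
  rwa [e] at h3

/-- `[Y, S, S] ≤ Z(S)` -/
theorem YSS (hf : PUF S F)
    (c : B2 p (Fintype.card F) (⊤ : Subgroup G) (S : Subgroup G) (Cfsg.pCore p G) (PU.VZ S) (PU.zz S) T A R w S') :
    ∀ y ∈ YY T, ∀ s ∈ (S : Subgroup G), ∀ s' ∈ (S : Subgroup G), ⁅s', ⁅s, y⁆⁆ ∈ zc (S : Subgroup G) := by
  intro y hy s hs s' hs'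
  obtain ⟨g, -, hg⟩ := c.conj
  have hYn : (YY T).Normal := Subgroup.normalClosure_normal
  have h2 : ∀ s ∈ (S : Subgroup G), g * s * g⁻¹ ∈ S' := fun s hs => by rw [hg]; exact conj_mem_cj hs
  have h1 := Crit.comm_swap (c.Y_comm_R hf _ (hYn.conj_mem y hy g) _ (h2 s hs))
  have h3 := Crit.comm_swap (c.YR_comm hf _ h1 _ (h2 s' hs'))
  rw [hg, zc_cj, mem_cj] at h3
  have e : g⁻¹ * ⁅g * s' * g⁻¹, ⁅g * s * g⁻¹, g * y * g⁻¹⁆⁆ * g = ⁅s', ⁅s, y⁆⁆ := by simp only [commutatorElement_def]; group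
  rwa [e] at h3

end Main
end B2

end Cfsg.Agent.Lib.QmCore
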