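import Cfsg.Agent.Lib.QmB7
set_option autoImplicit false
set_option linter.unusedSectionVars false

/-! The case `b = 2` of the pushing up theorem: quadratic action. -/
namespace Cfsg.Agent.Lib.QmCore

open Matrix Cfsg.Agent.Lib.ClSL2 Cfsg.Agent.Lib.LocBase
open scoped MatrixGroups commutatorElement

universe u

section Mod
variable {G : Type*} [Group G] {z Y : Subgroup G} [z.Normal]
  {hab : ∀ x ∈ Y.map (QuotientGroup.mk' z), ∀ y ∈ Y.map (QuotientGroup.mk' z), x * y = y * x}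
  {hφ : ∀ g, QuotientGroup.mk' z g ∈ Subgroup.normalizer ((Y.map (QuotientGroup.mk' z) : Subgroup (G ⧸ z)) : Set (G ⧸ z))}

theorem mod_rep (x : AM (Y.map (QuotientGroup.mk' z)) hab (QuotientGroup.mk' z) hφ) :
    ∃ y ∈ Y, x.v = QuotientGroup.mk' z y := by
  obtain ⟨y, hy, hyx⟩ := x.v_mem
  exact ⟨y, hy, hyx.symm⟩

theorem tau_v (x : AM (Y.map (QuotientGroup.mk' z)) hab (QuotientGroup.mk' z) hφ) {y : G} (hx : x.v = QuotientGroup.mk' z y) (s s' : G) :
    (tau s s' x).v = QuotientGroup.mk' z ⁅s', ⁅s, y⁆⁆ := by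
  unfold tau
  rw [AM.v_sub, AM.v_smul, AM.v_sub, AM.v_smul, hx]
  simp only [commutatorElement_def, map_mul, map_inv]

end Mod

theorem half {X : Type*} [AddCommGroup X] {p : ℕ} (hp : p.Prime) (hp2 : p ≠ 2) {x : X} (h1 : p • x = 0) (h2 : x + x = 0) : x = 0 := by
  have h3 : addOrderOf x ∣ p := addOrderOf_dvd_of_nsmul_eq_zero h1
  have h4 : addOrderOf x ∣ 2 := addOrderOf_dvd_of_nsmul_eq_zero (by rw [two_nsmul]; exact h2)
  have h5 : Nat.Coprime p 2 := by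
    rw [Nat.coprime_primes hp Nat.prime_two]; exact hp2
  have h6 := Nat.dvd_gcd h3 h4
  rw [h5.gcd_eq_one] at h6
  exact AddMonoid.addOrderOf_eq_one_iff.1 (Nat.dvd_one.1 h6)

namespace B2
section Main
variable {p : ℕ} [hp : Fact p.Prime] {G : Type u} [Group G] [Finite G] {S : Sylow p G} {M : Subgroup G}
  {F : Type*} [Field F] [Fintype F] [CharP F p] {φ : G →* PSL(2, F)}
  {T A R w S' : Subgroup G} {D : Subgroup G} {N : NH (YY T) D F}

theorem zc_theta (h : PU p S M φ) (hf : PUF S F) {N₁ : NH (PU.VZ S) (PU.zz S) F}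
    (h2 : ∀ s ∈ (S : Subgroup G), ∃ t, N₁.ρ s = uS t) {v : G} (hv : v ∈ zc (S : Subgroup G)) : N₁.θ v 1 = 0 := by
  obtain ⟨u, hu, hu1⟩ := h.exists_u N₁.ρs h2 1
  apply fix_uS one_ne_zero
  have h1 : ⁅u, v⁆ = 1 := by
    rw [commutatorElement_eq_one_iff_mul_comm]; exact (mem_zc.1 hv).2 u hu
  have h3 := N₁.comm (hf.loc.zcV hv) u
  rw [h1, N₁.one, hu1] at h3
  exact (sub_eq_zero.1 h3.symm)

/-- `b = 2`, `p ≥ 5`: quadratic action on `Y/z` -/
theorem quad (hp5 : 5 ≤ p) (h : PU p S M φ) (hf : PUF S F)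
    (c : B2 p (Fintype.card F) (⊤ : Subgroup G) (S : Subgroup G) (Cfsg.pCore p G) (PU.VZ S) (PU.zz S) T A R w S') :
    ∀ y ∈ YY T, ∀ s ∈ (S : Subgroup G), ∀ s' ∈ (S : Subgroup G), ⁅s', ⁅s, y⁆⁆ ∈ PU.zz S := by
  classical
  have hzn := zz_normal hf
  have hp2 : p ≠ 2 := by omega
  obtain ⟨D, N₂, nn₂⟩ := c.exists_NN h hf
  obtain ⟨N₁, hN1, hN1u⟩ := hf.nh
  obtain ⟨N, x, k, hk, hNk, hNu, hx1, hx2⟩ := exists_torus h N₁ N₂ hN1u nn₂.uu (by
    intro s hs h1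
    have h2 := nn₂.ker_mem h hs h1
    have h3 : s ∈ N₁.ρ.ker := by
      rw [hN1, Subgroup.mem_centralizer_iff]
      intro v hv
      exact (hf.loc.QV s h2 v hv).symm
    exact h3) hp2
  have nn : NN S T D N := ⟨nn₂.Dn, nn₂.DY, nn₂.VD, nn₂.DV, fun g => (hNk g).trans (nn₂.ker g), hNu⟩
  set f := QuotientGroup.mk' (PU.zz S) with hfdef
  have hfs : Function.Surjective f := QuotientGroup.mk'_surjective _
  have hfk : ∀ x, f x = 1 ↔ x ∈ PU.zz S := fun x => QuotientGroup.eq_one_iff x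
  have hYn : (YY T).Normal := Subgroup.normalClosure_normal
  have hab : ∀ x ∈ (YY T).map f, ∀ y ∈ (YY T).map f, x * y = y * x := by
    rintro _ ⟨x, hx, rfl⟩ _ ⟨y, hy, rfl⟩
    rw [← commutatorElement_eq_one_iff_mul_comm, ← map_commutatorElement, hfk]
    exact c.Y_comm hf x hx y hy
  have hφ : ∀ g, f g ∈ Subgroup.normalizer (((YY T).map f : Subgroup (G ⧸ PU.zz S)) : Set (G ⧸ PU.zz S)) := by
    intro g
    have := hYn.map f hfs
    rw [Subgroup.normalizer_eq_top]; trivial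
  -- the module
  have hXp : ∀ x : AM ((YY T).map f) hab f hφ, p • x = 0 := by
    intro x
    obtain ⟨y, hy, hxy⟩ := mod_rep x
    apply AM.v_inj
    rw [AM.v_nsmul, hxy, ← map_pow]
    exact (hfk _).2 (c.Y_pow hf y hy)
  have hk0 : ∀ k : G, N₁.ρ k = 1 → N.ρ k = 1 → ∀ x : AM ((YY T).map f) hab f hφ, k • x = x := by
    intro k hk1 hk2 x
    obtain ⟨y, hy, hxy⟩ := mod_rep x
    have h1 := nn.triv hf c (by rw [← hN1]; exact hk1) hk2 y hy
    rw [← hfk, map_commutatorElement, commutatorElement_eq_one_iff_mul_comm] at h1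
    rw [AM.smul_eq_iff, hxy]
    exact h1
  have hdiag : ∀ (N' : SL(2, F)) (t : F), N'.1 = !![2, 0; 0, k] → N' * uS t * N'⁻¹ = (uS t) ^ 4 := by
    intro N' t hN'
    rw [uS_pow]
    apply Subtype.ext
    show N'.1 * (uS t : SL(2, F)).1 * (N'⁻¹).1 = _
    rw [inv_val, hN', coe_uS, coe_uS]
    ext i j
    fin_cases i <;> fin_cases j <;> simp [Matrix.mul_apply, Fin.sum_univ_two]
    · exact hk
    · ring
    · linear_combination hk
  have hmain := tau_eq_zero (X := AM ((YY T).map f) hab f hφ) hp.out hp5 hXp (S := (S : Subgroup G)) (h := x) ?_ ?_ ?_ ?_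
  · intro y hy s hs s' hs'
    have h1 := hmain s hs s' hs' (AM.mk (f y) ⟨y, hy, rfl⟩)
    have h2 := tau_v (AM.mk (f y) ⟨y, hy, rfl⟩ : AM ((YY T).map f) hab f hφ) rfl s s'
    rw [h1] at h2
    exact (hfk _).1 h2.symm
  · -- `x s x⁻¹ = s⁴ k`
    intro s hs
    refine ⟨(s ^ 4)⁻¹ * (x * s * x⁻¹), by group, hk0 _ ?_ ?_⟩
    · obtain ⟨t, ht⟩ := hN1u s hs
      rw [map_mul, map_inv, map_mul, map_mul, map_inv, map_pow, ht, hdiag _ t hx1, inv_mul_cancel]
    · obtain ⟨t, ht⟩ := hNu s hs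
      rw [map_mul, map_inv, map_mul, map_mul, map_inv, map_pow, ht, hdiag _ t hx2, inv_mul_cancel]
  · -- cubic
    intro s hs s' hs' s'' hs'' y
    obtain ⟨y', hy', hyy⟩ := mod_rep y
    rw [AM.smul_eq_iff, tau_v y hyy, ← map_mul, ← map_mul]
    congr 1
    exact (mem_zc.1 (c.YSS hf y' hy' s hs s' hs')).2 s'' hs''
  · -- weight
    intro s hs s' hs' y
    obtain ⟨y', hy', hyy⟩ := mod_rep y
    have hv := c.YSS hf y' hy' s hs s' hs'
    have hvV := hf.loc.zcV hv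
    apply AM.v_inj
    rw [AM.v_smul, AM.v_nsmul, tau_v y hyy]
    have h1 := zc_theta h hf hN1u hv
    set v := ⁅s', ⁅s, y'⁆⁆
    have h2 : x * v * x⁻¹ * (v ^ 2)⁻¹ ∈ PU.zz S := by
      rw [← N₁.ker _ (mul_mem (N₁.nY x v hvV) (inv_mem (pow_mem hvV 2))), N₁.add _ (N₁.nY x v hvV) _ (inv_mem (pow_mem hvV 2)),
        N₁.act x v hvV, N₁.inv (pow_mem hvV 2), N₁.pow hvV, hx1]
      ext i; fin_cases i
      · simp [dotProduct, Fin.sum_univ_two, h1]
      · simp [dotProduct, Fin.sum_univ_two, h1]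
    rw [← hfk, map_mul, map_inv, mul_inv_eq_one, map_mul, map_mul, map_inv, map_pow] at h2
    exact h2
  · -- `hE`
    intro s hs s' hs' y
    obtain ⟨y', hy', hyy⟩ := mod_rep y
    have hxy : x * y' * x⁻¹ ∈ YY T := hYn.conj_mem y' hy' x
    set y₂ := (x * y' * x⁻¹) ^ 2 * y'⁻¹ with hy₂
    have hy₂Y : y₂ ∈ YY T := mul_mem (pow_mem hxy 2) (inv_mem hy')
    have h1 : N.θ y₂ 1 = 0 := by
      rw [hy₂, N.add _ (pow_mem hxy 2) _ (inv_mem hy'), N.pow hxy, N.act x y' hy', N.inv hy', hx2]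
      simp [dotProduct, Fin.sum_univ_two]
      linear_combination N.θ y' 1 * hk
    obtain ⟨t, ht, r, hr, hy₂e, -, hrD⟩ := nn.dec h hf c hy₂Y h1
    have hrY : r ∈ YY T := hr.1
    have h3 : (2 • (x • y) - y : AM ((YY T).map f) hab f hφ) = AM.mk (f t) (Subgroup.mem_map_of_mem f (T_le_Y ht)) + AM.mk (f r) (Subgroup.mem_map_of_mem f hrY) := by
      apply AM.v_inj
      rw [AM.v_sub, AM.v_nsmul, AM.v_smul, AM.v_add, hyy]
      show (f x * f y' * (f x)⁻¹) ^ 2 * (f y')⁻¹ = f t * f r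
      rw [← map_mul f t r, ← hy₂e, hy₂]
      simp only [map_mul, map_inv, map_pow]
    have h4 : tau s s' (AM.mk (f t) (Subgroup.mem_map_of_mem f (T_le_Y ht)) : AM ((YY T).map f) hab f hφ) = 0 := by
      apply AM.v_inj
      rw [tau_v _ (AM.v_mk _ _)]
      apply (hfk _).2
      have h5 : ⁅s, t⁆ ∈ PU.zz S := Crit.comm_swap (c.TS t ht s hs)
      have h6 : ⁅s', ⁅s, t⁆⁆ = 1 := by
        rw [commutatorElement_eq_one_iff_mul_comm]
        exact Subgroup.mem_centralizer_iff.1 h5.2 s' trivial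
      rw [h6]; exact one_mem _
    have h5 : tau s s' (AM.mk (f r) (Subgroup.mem_map_of_mem f hrY) : AM ((YY T).map f) hab f hφ) = 0 := by
      apply AM.v_inj
      rw [tau_v _ (AM.v_mk _ _)]
      apply (hfk _).2
      have h6 : ⁅s', ⁅s, r⁆⁆ = 1 := by
        rw [commutatorElement_eq_one_iff_mul_comm]
        exact (mem_zc.1 (nn.DSS h hf c r hrD s hs)).2 s' hs'
      rw [h6]; exact one_mem _
    have h6 := congrArg (tau s s') h3
    rw [tau_sub, tau_add, h4, h5, add_zero, sub_eq_zero] at h6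
    exact h6

/-- an element inverting `Y/D` and centralizing `V` gives quadratic action -/
theorem quad_of_neg (hp2 : p ≠ 2) (h : PU p S M φ) (hf : PUF S F)
    (c : B2 p (Fintype.card F) (⊤ : Subgroup G) (S : Subgroup G) (Cfsg.pCore p G) (PU.VZ S) (PU.zz S) T A R w S')
    (nn : NN S T D N) {x : G} (hx1 : x ∈ Subgroup.centralizer (PU.VZ S : Set G)) (hx2 : N.ρ x = -1) :
    ∀ y ∈ YY T, ∀ s ∈ (S : Subgroup G), ∀ s' ∈ (S : Subgroup G), ⁅s', ⁅s, y⁆⁆ ∈ PU.zz S := by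
  classical
  have hzn := zz_normal hf
  set f := QuotientGroup.mk' (PU.zz S) with hfdef
  have hfs : Function.Surjective f := QuotientGroup.mk'_surjective _
  have hfk : ∀ x, f x = 1 ↔ x ∈ PU.zz S := fun x => QuotientGroup.eq_one_iff x
  have hYn : (YY T).Normal := Subgroup.normalClosure_normal
  have hab : ∀ x ∈ (YY T).map f, ∀ y ∈ (YY T).map f, x * y = y * x := by
    rintro _ ⟨x, hx, rfl⟩ _ ⟨y, hy, rfl⟩
    rw [← commutatorElement_eq_one_iff_mul_comm, ← map_commutatorElement, hfk]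
    exact c.Y_comm hf x hx y hy
  have hφ : ∀ g, f g ∈ Subgroup.normalizer (((YY T).map f : Subgroup (G ⧸ PU.zz S)) : Set (G ⧸ PU.zz S)) := by
    intro g
    have := hYn.map f hfs
    rw [Subgroup.normalizer_eq_top]; trivial
  have hXp : ∀ x : AM ((YY T).map f) hab f hφ, p • x = 0 := by
    intro x
    obtain ⟨y, hy, hxy⟩ := mod_rep x
    apply AM.v_inj
    rw [AM.v_nsmul, hxy, ← map_pow]
    exact (hfk _).2 (c.Y_pow hf y hy)
  have hCn : (Subgroup.centralizer (PU.VZ S : Set G)).Normal := PU.cent_normal hf.norm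
  have hk0 : ∀ s : G, ∀ y : AM ((YY T).map f) hab f hφ, (s⁻¹ * (x * s * x⁻¹)) • y = y := by
    intro s y
    obtain ⟨y', hy', hyy⟩ := mod_rep y
    have h2 : N.ρ (s⁻¹ * (x * s * x⁻¹)) = 1 := by
      rw [map_mul, map_inv, map_mul, map_mul, map_inv, hx2]
      have h3 : (-1 : SL(2, F)) * N.ρ s = N.ρ s * -1 := (Subgroup.mem_center_iff.1 neg_one_center (N.ρ s)).symm
      rw [h3]; group
    have h3 : s⁻¹ * (x * s * x⁻¹) ∈ Subgroup.centralizer (PU.VZ S : Set G) := by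
      have e : s⁻¹ * (x * s * x⁻¹) = (s⁻¹ * x * s⁻¹⁻¹) * x⁻¹ := by group
      rw [e]
      exact mul_mem (hCn.conj_mem x hx1 s⁻¹) (inv_mem hx1)
    have h1 := nn.triv hf c h3 h2 y' hy'
    rw [← hfk, map_commutatorElement, commutatorElement_eq_one_iff_mul_comm] at h1
    rw [AM.smul_eq_iff, hyy]
    exact h1
  have key : ∀ s ∈ (S : Subgroup G), ∀ s' ∈ (S : Subgroup G), ∀ y : AM ((YY T).map f) hab f hφ, tau s s' y = 0 := by
    intro s hs s' hs' y
    obtain ⟨y', hy', hyy⟩ := mod_rep y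
    apply half hp.out hp2 (hXp _)
    -- `x` fixes `τ`
    have hv := c.YSS hf y' hy' s hs s' hs'
    have h1 : x • tau s s' y = tau s s' y := by
      rw [AM.smul_eq_iff, tau_v y hyy, ← map_mul, ← map_mul]
      congr 1
      exact (Subgroup.mem_centralizer_iff.1 hx1 _ (hf.loc.zcV hv)).symm
    have h2 : tau s s' (x • y) = tau s s' y := by
      rw [← h1, smul_tau]
      have e1 : x * s * x⁻¹ = s * (s⁻¹ * (x * s * x⁻¹)) := by group
      have e2 : x * s' * x⁻¹ = s' * (s'⁻¹ * (x * s' * x⁻¹)) := by group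
      rw [e1, e2, tau_congr (hk0 s) (hk0 s')]
    have hxy : x * y' * x⁻¹ ∈ YY T := hYn.conj_mem y' hy' x
    have hD : y' * (x * y' * x⁻¹) ∈ D := by
      rw [← N.ker _ (mul_mem hy' hxy), N.add _ hy' _ hxy, N.act x y' hy', hx2, Matrix.SpecialLinearGroup.coe_neg,
        Matrix.SpecialLinearGroup.coe_one, Matrix.neg_mulVec, Matrix.one_mulVec, add_neg_cancel]
    have h3 : tau s s' (y + x • y) = 0 := by
      have h4 : (y + x • y : AM ((YY T).map f) hab f hφ).v = f (y' * (x * y' * x⁻¹)) := by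
        rw [AM.v_add, AM.v_smul, hyy]
        simp only [map_mul, map_inv]
        rfl
      apply AM.v_inj
      rw [tau_v _ h4]
      apply (hfk _).2
      have h6 : ⁅s', ⁅s, y' * (x * y' * x⁻¹)⁆⁆ = 1 := by
        rw [commutatorElement_eq_one_iff_mul_comm]
        exact (mem_zc.1 (nn.DSS h hf c _ hD s hs)).2 s' hs'
      rw [h6]; exact one_mem _
    rw [tau_add, h2] at h3
    exact h3
  intro y hy s hs s' hs'
  have h1 := key s hs s' hs' (AM.mk (f y) ⟨y, hy, rfl⟩)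
  have h2 := tau_v (AM.mk (f y) ⟨y, hy, rfl⟩ : AM ((YY T).map f) hab f hφ) rfl s s'
  rw [h1] at h2
  exact (hfk _).1 h2.symm

/-- transfer to `S'` -/
theorem quad' (hf : PUF S F)
    (c : B2 p (Fintype.card F) (⊤ : Subgroup G) (S : Subgroup G) (Cfsg.pCore p G) (PU.VZ S) (PU.zz S) T A R w S')
    (hq : ∀ y ∈ YY T, ∀ s ∈ (S : Subgroup G), ∀ s' ∈ (S : Subgroup G), ⁅s', ⁅s, y⁆⁆ ∈ PU.zz S) :
    ∀ t ∈ T, ∀ a ∈ A, ⁅a, ⁅t, a⁆⁆ ∈ PU.zz S := by
  intro t ht a ha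
  obtain ⟨g, -, hg⟩ := c.conj
  have hzn := zz_normal hf
  have hYn : (YY T).Normal := Subgroup.normalClosure_normal
  have ha' : g⁻¹ * a * g ∈ (S : Subgroup G) := by
    have := c.AS ha
    rwa [hg, mem_cj] at this
  have hty : g⁻¹ * t * g ∈ YY T := by
    have := hYn.conj_mem t (T_le_Y ht) g⁻¹
    simpa using this
  have h1 := hq _ hty _ ha' _ ha'
  have h2 := hzn.conj_mem _ h1 g
  have e : g * ⁅g⁻¹ * a * g, ⁅g⁻¹ * a * g, g⁻¹ * t * g⁆⁆ * g⁻¹ = ⁅a, ⁅a, t⁆⁆ := by simp only [commutatorElement_def]; group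
  rw [e] at h2
  -- `⁅a, ⁅t, a⁆⁆` versus `⁅a, ⁅a, t⁆⁆`
  have e2 : ⁅a, ⁅t, a⁆⁆ = ⁅t, a⁆ * ⁅a, ⁅a, t⁆⁆⁻¹ * ⁅t, a⁆⁻¹ := by simp only [commutatorElement_def]; group
  rw [e2]
  exact hzn.conj_mem _ (inv_mem h2) _

end Main
end B2

end Cfsg.Agent.Lib.QmCore
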