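import Cfsg.Agent.Lib.QmB8
set_option autoImplicit false
set_option linter.unusedSectionVars false

/-! The case `b = 2` of the pushing up theorem: contradiction for `p ≥ 5`; the case `p = 3`. -/
namespace Cfsg.Agent.Lib.QmCore

open Matrix Cfsg.Agent.Lib.ClSL2 Cfsg.Agent.Lib.LocBase
open scoped MatrixGroups commutatorElement

universe u

theorem SL_center_cases {F : Type*} [Field F] [Fintype F] {m : SL(2, F)} (hm : m ∈ Subgroup.center SL(2, F)) (h1 : m ≠ 1) : m = -1 := by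
  obtain ⟨r, hr, hm'⟩ := Matrix.SpecialLinearGroup.mem_center_iff.1 hm
  simp only [Fintype.card_fin] at hr
  rcases mul_self_eq_one_iff.1 (show r * r = 1 by rw [← pow_two]; exact hr) with h | h
  · exfalso
    apply h1
    apply Subtype.ext
    rw [← hm', h]
    simp
  · apply Subtype.ext
    rw [← hm', h]
    ext i j
    fin_cases i <;> fin_cases j <;> simp

section Main
variable {p : ℕ} [hp : Fact p.Prime] {G X : Type u} [Group G] [Group X] [Finite G] [Finite X] {ι : G →* X} {S : Sylow p G}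
  {M : Subgroup G} {F : Type*} [Field F] [Fintype F] [CharP F p] {φ : G →* PSL(2, F)}

/-- quadratic action, as a property of all configurations -/
def AllQuad (S : Sylow p G) (F : Type*) [Field F] [Fintype F] : Prop :=
  ∀ T A R w S' : Subgroup G, B2 p (Fintype.card F) (⊤ : Subgroup G) (S : Subgroup G) (Cfsg.pCore p G) (PU.VZ S) (PU.zz S) T A R w S' →
    ∀ y ∈ B2.YY T, ∀ s ∈ (S : Subgroup G), ∀ s' ∈ (S : Subgroup G), ⁅s', ⁅s, y⁆⁆ ∈ PU.zz S

theorem B2.quadX (hf : PUF S F) (hQ : AllQuad S F) {f : G →* X} (hfi : Function.Injective f) {T A R w S' : Subgroup X}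
    (c : B2 p (Fintype.card F) ((⊤ : Subgroup G).map f) ((S : Subgroup G).map f) ((Cfsg.pCore p G).map f) ((PU.VZ S).map f)
      ((PU.zz S).map f) T A R w S') : ∀ t ∈ T, ∀ a ∈ A, ⁅⁅t, a⁆, a⁆ ∈ (PU.zz S).map f := by
  intro t ht a ha
  have c' := c.comap hfi
  obtain ⟨t, -, rfl⟩ : t ∈ (⊤ : Subgroup G).map f := (c.TQ.trans (Subgroup.map_mono le_top)) ht
  obtain ⟨a, -, rfl⟩ : a ∈ (⊤ : Subgroup G).map f := by
    rw [← c.gen]
    exact Subgroup.mem_sup_right (c.AS ha)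
  have h1 := Crit.comm_swap (c'.quad' hf (hQ _ _ _ _ _ c') t ht a ha)
  exact ⟨_, h1, by rw [map_commutatorElement, map_commutatorElement]⟩

theorem Amal.Seq.false_of_quad (hι : Function.Injective ι) (hf : PUF S F) {g : X} {n y : ℕ → X}
    (s : Amal.Seq (Fintype.card F) ((⊤ : Subgroup G).map ι) ((S : Subgroup G).map ι) ((Cfsg.pCore p G).map ι) ((PU.VZ S).map ι)
      ((PU.zz S).map ι) 2 g n y) (hQ : AllQuad S F) : False := by
  have hVp : ∀ v ∈ (PU.VZ S).map ι, v ^ p = 1 := by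
    rintro _ ⟨v, hv, rfl⟩
    rw [← map_pow, hf.elem.2 v hv, map_one]
  apply s.no_two_of_quad
  intro t ht w hw
  have hcomp : ∀ (a : X) (H : Subgroup G), cj a (H.map ι) = H.map ((MulAut.conj a).toMonoidHom.comp ι) := fun a H => by
    rw [← Subgroup.map_map]; rfl
  constructor
  · have c := s.b2 hVp 1
    rw [hcomp (y (1 + 1)), hcomp (y (1 + 1)), hcomp (y (1 + 1)), hcomp (y (1 + 1)) (PU.VZ S), hcomp (y (1 + 1))] at c
    have h1 := c.quadX hf hQ ((MulAut.conj (y (1 + 1))).injective.comp hι) t ht w hw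
    rw [← hcomp] at h1
    exact h1
  · have c := s.b2' hVp 1
    have hgy : y (1 + 3) = y (1 + 2) * g * n (1 + 2) := s.step (1 + 2)
    have hS : cj (y (1 + 3)) ((S : Subgroup G).map ι) = cj (y (1 + 2) * g) ((S : Subgroup G).map ι) := by
      rw [hgy]; exact Amal.cjS (s.hn _)
    have hG' : cj (y (1 + 2)) ((⊤ : Subgroup G).map ι) = cj (y (1 + 2) * g) ((⊤ : Subgroup G).map ι) := (Amal.cjG s.hg).symm
    have hQ' : cj (y (1 + 2)) ((Cfsg.pCore p G).map ι) = cj (y (1 + 2) * g) ((Cfsg.pCore p G).map ι) := (s.A.cjQ s.hg).symm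
    have hV' : cj (y (1 + 2)) ((PU.VZ S).map ι) = cj (y (1 + 2) * g) ((PU.VZ S).map ι) := (s.A.cjV s.hg).symm
    have hz' : cj (y (1 + 2)) ((PU.zz S).map ι) = cj (y (1 + 2) * g) ((PU.zz S).map ι) := (s.A.cjz s.hg).symm
    rw [hG', hS, hQ', hV', hz', hcomp (y (1 + 2) * g), hcomp (y (1 + 2) * g), hcomp (y (1 + 2) * g), hcomp (y (1 + 2) * g),
      hcomp (y (1 + 2) * g)] at c
    have h1 := c.quadX hf hQ ((MulAut.conj (y (1 + 2) * g)).injective.comp hι) w hw t ht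
    rw [← hcomp, ← hz'] at h1
    exact h1

/-- `b = 1` for `p ≥ 5` -/
theorem exists_b1_of_dich (hι : Function.Injective ι) (hf : PUF S F)
    (hd : ∀ T : Subgroup G, T ≤ S → T ≠ ⊥ → NI ι (S : Subgroup G) T → ¬ T.Normal) :
    (∃ n ∈ Subgroup.normalizer (((S : Subgroup G).map ι : Subgroup X) : Set X),
      ¬ (PU.VZ S).map ι ≤ cj n ((Cfsg.pCore p G).map ι)) ∨
    ∃ g n y, Amal.Seq (Fintype.card F) ((⊤ : Subgroup G).map ι) ((S : Subgroup G).map ι) ((Cfsg.pCore p G).map ι) ((PU.VZ S).map ι)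
      ((PU.zz S).map ι) 2 g n y := by
  rcases (exists_amal hι hf hd).dichotomy with h1 | ⟨b, g, n, y, s⟩
  · exact Or.inl h1
  · right
    have hb : b = 2 := by have := s.b_lt; have := s.hb; omega
    subst hb
    exact ⟨g, n, y, s⟩

theorem allQuad_of_big (hp5 : 5 ≤ p) (h : PU p S M φ) (hf : PUF S F) : AllQuad S F :=
  fun _ _ _ _ _ c => c.quad hp5 h hf

end Main

namespace B2
section Main
variable {p : ℕ} [hp : Fact p.Prime] {G : Type u} [Group G] [Finite G] {S : Sylow p G} {M : Subgroup G}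
  {F : Type*} [Field F] [Fintype F] [CharP F p] {φ : G →* PSL(2, F)}
  {T A R w S' : Subgroup G} {D : Subgroup G} {N : NH (YY T) D F}

/-- `L` centralizes `Q/Y` -/
theorem YL_top (hf : PUF S F)
    (c : B2 p (Fintype.card F) (⊤ : Subgroup G) (S : Subgroup G) (Cfsg.pCore p G) (PU.VZ S) (PU.zz S) T A R w S') :
    ctr (⊤ : Subgroup G) (Cfsg.pCore p G) (YY T) (fun g _ v hv => (Subgroup.normalClosure_normal (s := (T : Set G))).conj_mem v hv g) ⊔
      Cfsg.pCore p G = ⊤ := by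
  have hYn : (YY T).Normal := Subgroup.normalClosure_normal
  have hQ : ∀ g ∈ (⊤ : Subgroup G), ∀ v ∈ Cfsg.pCore p G, g * v * g⁻¹ ∈ Cfsg.pCore p G := hf.loc.Qn
  have hpn : (Cfsg.pCore p G).Normal := pCore_normal p G
  set L := ctr (⊤ : Subgroup G) (Cfsg.pCore p G) (YY T)
    (fun g _ v hv => (Subgroup.normalClosure_normal (s := (T : Set G))).conj_mem v hv g) with hL
  have hLn : L.Normal := ⟨fun x hx g => ctr_conj hQ (trivial : g ∈ (⊤ : Subgroup G)) hx⟩
  have hAL : A ≤ L := by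
    intro a ha
    rw [hL, mem_ctr]
    refine ⟨trivial, fun b hb => ?_⟩
    obtain ⟨t, ht, r, hr, rfl⟩ := c.TRS b (c.Q_le_S' hf hb)
    have h1 : ⁅r, a⁆ ∈ YY T := c.V_le_Y (c.zc_S'_le hf (c.wz (c.RA r hr a ha)))
    have h2 : ⁅t, a⁆ ∈ YY T := by
      have e : ⁅t, a⁆ = t * (a * t⁻¹ * a⁻¹) := by rw [commutatorElement_def]; group
      rw [e]
      exact mul_mem (T_le_Y ht) (hYn.conj_mem _ (inv_mem (T_le_Y ht)) a)
    have e : ⁅t * r, a⁆ = (t * ⁅r, a⁆ * t⁻¹) * ⁅t, a⁆ := by simp only [commutatorElement_def]; group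
    rw [e]
    exact mul_mem (hYn.conj_mem _ h1 t) h2
  have hS'L : S' ≤ L ⊔ Cfsg.pCore p G := by
    intro s hs
    obtain ⟨a, ha, b, hb, rfl⟩ := c.AQ s hs
    exact mul_mem (Subgroup.mem_sup_left (hAL ha)) (Subgroup.mem_sup_right hb)
  have hn : (L ⊔ Cfsg.pCore p G).Normal := Subgroup.sup_normal _ _
  obtain ⟨g, -, hg⟩ := c.conj
  rw [eq_top_iff, ← c.gen]
  refine sup_le ?_ hS'L
  intro s hs
  have h1 : g * s * g⁻¹ ∈ L ⊔ Cfsg.pCore p G := hS'L (by rw [hg]; exact conj_mem_cj hs)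
  have h2 := hn.conj_mem _ h1 g⁻¹
  have e : g⁻¹ * (g * s * g⁻¹) * g⁻¹⁻¹ = s := by group
  rwa [e] at h2

theorem res_Y (hf : PUF S F)
    (c : B2 p (Fintype.card F) (⊤ : Subgroup G) (S : Subgroup G) (Cfsg.pCore p G) (PU.VZ S) (PU.zz S) T A R w S') :
    ∀ x ∈ Cfsg.pResidual p G, ∀ a ∈ Cfsg.pCore p G, ⁅a, x⁆ ∈ YY T := by
  have htop := c.YL_top hf
  have hQ : ∀ g ∈ (⊤ : Subgroup G), ∀ v ∈ Cfsg.pCore p G, g * v * g⁻¹ ∈ Cfsg.pCore p G := hf.loc.Qn
  set L := ctr (⊤ : Subgroup G) (Cfsg.pCore p G) (YY T)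
    (fun g _ v hv => (Subgroup.normalClosure_normal (s := (T : Set G))).conj_mem v hv g) with hL
  have hLn : L.Normal := ⟨fun x hx g => ctr_conj hQ (trivial : g ∈ (⊤ : Subgroup G)) hx⟩
  have hLp : IsPGroup p (G ⧸ L) := by
    have h1 : (Cfsg.pCore p G).map (QuotientGroup.mk' L) = ⊤ := by
      have h2 : (L ⊔ Cfsg.pCore p G).map (QuotientGroup.mk' L) = (Cfsg.pCore p G).map (QuotientGroup.mk' L) := by
        rw [Subgroup.map_sup, (Subgroup.map_eq_bot_iff L).2 (by rw [QuotientGroup.ker_mk']), bot_sup_eq]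
      rw [← h2, htop, ← MonoidHom.range_eq_map, MonoidHom.range_eq_top]
      exact QuotientGroup.mk'_surjective L
    have h3 : IsPGroup p ((Cfsg.pCore p G).map (QuotientGroup.mk' L)) := (AmalgamCharP.isPGroup_pCore).map _
    rw [h1] at h3
    exact h3.of_equiv Subgroup.topEquiv
  have hle := PNilp.pResidual_le_of_isPGroup_quotient L hLp
  intro x hx a ha
  exact (mem_ctr.1 (hle hx)).2 a ha

theorem cent_of_triv (hf : PUF S F)
    (hchar : Subgroup.centralizer (Cfsg.pCore p G : Set G) ≤ Cfsg.pCore p G)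
    (c : B2 p (Fintype.card F) (⊤ : Subgroup G) (S : Subgroup G) (Cfsg.pCore p G) (PU.VZ S) (PU.zz S) T A R w S')
    (nn : NN S T D N) (ht : ∀ x ∈ Subgroup.centralizer (PU.VZ S : Set G), N.ρ x = 1) :
    Subgroup.centralizer (PU.VZ S : Set G) ≤ Cfsg.pCore p G := by
  have hVp : ∀ v ∈ PU.VZ S, v ^ p = 1 := hf.elem.2
  apply AmalgamCharP.le_pCore (PU.cent_normal hf.norm)
  apply isPGroup_of_coprime
  intro x hx hxp
  apply eq_one_of_twice hchar c.Y_le_Q hxp
  · intro a ha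
    have h1 := c.res_Y hf x (Subgroup.subset_closure hxp) a⁻¹ (inv_mem ha)
    have e : a⁻¹ * (x * a * x⁻¹) = ⁅a⁻¹, x⁆ := by rw [commutatorElement_def]; group
    rw [e]; exact h1
  · intro y hy
    have h3 := (nn.ker _).1 (ht x hx) y⁻¹ (inv_mem hy)
    have e : y⁻¹ * (x * y * x⁻¹) = ⁅x, y⁻¹⁆⁻¹ := by rw [commutatorElement_def]; group
    have h4 : y⁻¹ * (x * y * x⁻¹) ∈ PU.VZ S := by rw [e]; exact inv_mem h3
    exact comm_of_twice hxp ((Subgroup.mem_centralizer_iff.1 hx _ h4).symm) (k := 1) (by rw [pow_one]; exact hVp _ h4)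

/-- if `C(V) ≠ Q` then the action is quadratic -/
theorem quad_of_cent (hp2 : p ≠ 2) (h : PU p S M φ) (hf : PUF S F)
    (hchar : Subgroup.centralizer (Cfsg.pCore p G : Set G) ≤ Cfsg.pCore p G)
    (hne : ¬ Subgroup.centralizer (PU.VZ S : Set G) ≤ Cfsg.pCore p G) : AllQuad S F := by
  intro T A R w S' c
  obtain ⟨D, N, nn⟩ := c.exists_NN h hf
  obtain ⟨N₁, hN1, hN1u⟩ := hf.nh
  have h1 : ¬ ∀ x ∈ Subgroup.centralizer (PU.VZ S : Set G), N.ρ x = 1 := fun ht => hne (c.cent_of_triv hf hchar nn ht)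
  push Not at h1
  obtain ⟨x, hx, hx1⟩ := h1
  have h2 : N₁.ρ x ∈ Subgroup.center SL(2, F) := by
    have : x ∈ N₁.ρ.ker := by rw [hN1]; exact hx
    rw [MonoidHom.mem_ker.1 this]; exact one_mem _
  have h3 := h.central_transfer N₁.ρs hN1u N.ρs nn.uu h2
  exact c.quad_of_neg hp2 h hf nn hx (SL_center_cases h3 hx1)

end Main
end B2

end Cfsg.Agent.Lib.QmCore
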