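import Cfsg.Agent.Lib.QmNH
import Cfsg.Agent.Lib.QmNC2
import Cfsg.Agent.Lib.H32PGroup
set_option autoImplicit false
set_option linter.unusedSectionVars false

/-! Chief factors and central products. -/
namespace Cfsg.Agent.Lib.QmCore

open Matrix Cfsg.Agent.Lib.ClSL2 Cfsg.Agent.Lib.LocBase
open scoped MatrixGroups commutatorElement

section Lcs
variable {G : Type*} [Group G]

/-- lower central series of a central product -/
theorem lcs_sup {H C : Subgroup G} (h : ∀ x ∈ H, ∀ y ∈ C, x * y = y * x) (k : ℕ) :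
    (H ⊔ C).lowerCentralSeries k = H.lowerCentralSeries k ⊔ C.lowerCentralSeries k := by
  have hle : ∀ (S : Subgroup G) (k : ℕ), S.lowerCentralSeries k ≤ S := fun S k =>
    (Subgroup.lowerCentralSeries_antitone S (Nat.zero_le k)).trans le_rfl
  induction k with
  | zero => rfl
  | succ k ih =>
    rw [Subgroup.lowerCentralSeries_succ, Subgroup.lowerCentralSeries_succ, Subgroup.lowerCentralSeries_succ, ih]
    apply le_antisymm
    · rw [Subgroup.commutator_le]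
      intro x hx y hy
      obtain ⟨a, ha, b, hb, rfl⟩ := mem_sup_of_norm (A := H.lowerCentralSeries k) (B := C.lowerCentralSeries k)
        (fun a ha b hb => by
          rw [h a (hle _ _ ha) b (hle _ _ hb), mul_assoc, mul_inv_cancel, mul_one]; exact hb) hx
      obtain ⟨c, hc, d, hd, rfl⟩ := mem_sup_of_norm (A := H) (B := C)
        (fun a ha b hb => by rw [h a ha b hb, mul_assoc, mul_inv_cancel, mul_one]; exact hb) hy
      have h1 : Commute b c := (h c hc b (hle _ _ hb)).symm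
      have h2 : Commute d a := (h a (hle _ _ ha) d hd).symm
      have h3 : Commute b a := (h a (hle _ _ ha) b (hle _ _ hb)).symm
      have h4 : Commute d c := (h c hc d hd).symm
      have e : ⁅a * b, c * d⁆ = ⁅a, c⁆ * ⁅b, d⁆ := by
        simp only [commutatorElement_def, _root_.mul_inv_rev]
        calc a * b * (c * d) * (b⁻¹ * a⁻¹) * (d⁻¹ * c⁻¹) = a * (b * c) * d * b⁻¹ * (a⁻¹ * d⁻¹) * c⁻¹ := by group
          _ = a * (c * b) * d * b⁻¹ * (d⁻¹ * a⁻¹) * c⁻¹ := by rw [h1.eq, (h2.symm.inv_inv).eq]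
          _ = a * c * (b * d * b⁻¹ * d⁻¹) * a⁻¹ * c⁻¹ := by group
          _ = a * c * (a⁻¹ * (b * d * b⁻¹ * d⁻¹)) * c⁻¹ := by
              have h5 : Commute (b * d * b⁻¹ * d⁻¹) a⁻¹ :=
                (((h3.mul_left h2).mul_left h3.inv_left).mul_left h2.inv_left).inv_right
              rw [mul_assoc (a * c), h5.eq, mul_assoc (a * c)]
          _ = a * c * a⁻¹ * (c⁻¹ * (b * d * b⁻¹ * d⁻¹)) := by
              have h5 : Commute (b * d * b⁻¹ * d⁻¹) c⁻¹ :=
                (((h1.mul_left h4).mul_left h1.inv_left).mul_left h4.inv_left).inv_right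
              rw [← h5.eq]; group
          _ = _ := by group
      rw [e]
      exact mul_mem (Subgroup.mem_sup_left (Subgroup.commutator_mem_commutator ha hc))
        (Subgroup.mem_sup_right (Subgroup.commutator_mem_commutator hb hd))
    · exact sup_le (Subgroup.commutator_mono le_sup_left le_sup_left) (Subgroup.commutator_mono le_sup_right le_sup_right)

theorem lcs_one_of_comm {H : Subgroup G} (h : ∀ x ∈ H, ∀ y ∈ H, x * y = y * x) : H.lowerCentralSeries 1 = ⊥ := by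
  rw [eq_bot_iff]
  show ⁅H, H⁆ ≤ ⊥
  rw [Subgroup.commutator_le]
  intro x hx y hy
  rw [Subgroup.mem_bot, commutatorElement_eq_one_iff_mul_comm]
  exact h x hx y hy

theorem lcs_succ_of_bot {H : Subgroup G} {k : ℕ} (h : H.lowerCentralSeries k = ⊥) : H.lowerCentralSeries (k + 1) = ⊥ := by
  rw [eq_bot_iff, ← h]
  exact Subgroup.lowerCentralSeries_antitone H (Nat.le_succ k)

theorem lcs_conj {H : Subgroup G} {g : G} (h : ∀ x ∈ H, g * x * g⁻¹ ∈ H) (k : ℕ) :
    ∀ x ∈ H.lowerCentralSeries k, g * x * g⁻¹ ∈ H.lowerCentralSeries k := by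
  induction k with
  | zero => exact h
  | succ k ih =>
    have h1 : (H.lowerCentralSeries (k + 1)).map (MulAut.conj g).toMonoidHom ≤ H.lowerCentralSeries (k + 1) := by
      rw [Subgroup.lowerCentralSeries_succ, Subgroup.map_commutator]
      apply Subgroup.commutator_mono
      · rintro _ ⟨x, hx, rfl⟩; exact ih x hx
      · rintro _ ⟨x, hx, rfl⟩; exact h x hx
    exact fun x hx => h1 ⟨x, hx, rfl⟩

/-- class-two power formula -/
theorem mul_pow_class_two {u v c : G} (hc : v * u = c * (u * v)) (h1 : Commute c u) (h2 : Commute c v) (n : ℕ) :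
    (u * v) ^ n = c ^ (n * (n - 1) / 2) * (u ^ n * v ^ n) := by
  have hvn : ∀ k : ℕ, v ^ k * u = c ^ k * (u * v ^ k) := by
    intro k
    induction k with
    | zero => simp
    | succ k ih =>
      calc v ^ (k + 1) * u = v * (v ^ k * u) := by rw [pow_succ']; group
        _ = v * (c ^ k * (u * v ^ k)) := by rw [ih]
        _ = (v * c ^ k) * (u * v ^ k) := by group
        _ = (c ^ k * v) * (u * v ^ k) := by rw [(h2.pow_left k).eq]
        _ = c ^ k * (v * u) * v ^ k := by group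
        _ = c ^ k * (c * (u * v)) * v ^ k := by rw [hc]
        _ = c ^ (k + 1) * (u * v ^ (k + 1)) := by rw [pow_succ, pow_succ']; group
  induction n with
  | zero => simp
  | succ n ih =>
    have e : (n + 1) * (n + 1 - 1) / 2 = n * (n - 1) / 2 + n := by
      rcases n with _ | n
      · simp
      · have h3 : (n + 1 + 1) * (n + 1 + 1 - 1) = (n + 1) * (n + 1 - 1) + (n + 1) * 2 := by
          simp only [Nat.add_sub_cancel]; ring
        rw [h3, Nat.add_mul_div_right _ _ (by norm_num : 0 < 2)]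
    have h4 : Commute (c ^ n) (u ^ n) := (h1.pow_pow n n)
    rw [pow_succ, ih, e, pow_add]
    calc c ^ (n * (n - 1) / 2) * (u ^ n * v ^ n) * (u * v) = c ^ (n * (n - 1) / 2) * (u ^ n * (v ^ n * u)) * v := by group
      _ = c ^ (n * (n - 1) / 2) * (u ^ n * (c ^ n * (u * v ^ n))) * v := by rw [hvn]
      _ = c ^ (n * (n - 1) / 2) * ((u ^ n * c ^ n) * (u * v ^ n)) * v := by group
      _ = c ^ (n * (n - 1) / 2) * ((c ^ n * u ^ n) * (u * v ^ n)) * v := by rw [h4.eq]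
      _ = _ := by rw [pow_succ u n, pow_succ v n]; group

end Lcs

theorem NI.lcs {G X : Type*} [Group G] [Group X] {ι : G →* X} {D A : Subgroup G} (hA : ∀ n ∈ Subgroup.normalizer ((D.map ι : Subgroup X) : Set X), ∀ x ∈ A.map ι, n * x * n⁻¹ ∈ A.map ι) (k : ℕ) :
    ∀ n ∈ Subgroup.normalizer ((D.map ι : Subgroup X) : Set X), ∀ x ∈ (A.lowerCentralSeries k).map ι,
      n * x * n⁻¹ ∈ (A.lowerCentralSeries k).map ι := by
  intro n hn x hx
  rw [Subgroup.map_lowerCentralSeries] at hx ⊢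
  exact lcs_conj (hA n hn) k x hx

theorem NI.pow' {G X : Type*} [Group G] [Group X] {ι : G →* X} {D A : Subgroup G} {p k : ℕ} (hA : ∀ n ∈ Subgroup.normalizer ((D.map ι : Subgroup X) : Set X), ∀ x ∈ A.map ι, n * x * n⁻¹ ∈ A.map ι) :
    ∀ n ∈ Subgroup.normalizer ((D.map ι : Subgroup X) : Set X), ∀ x ∈ (Cfsg.powerClosure p k A).map ι,
      n * x * n⁻¹ ∈ (Cfsg.powerClosure p k A).map ι := by
  intro n hn
  have key : ((Cfsg.powerClosure p k A).map ι).map (MulAut.conj n).toMonoidHom ≤ (Cfsg.powerClosure p k A).map ι := by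
    unfold Cfsg.powerClosure
    rw [MonoidHom.map_closure, MonoidHom.map_closure, Subgroup.closure_le]
    rintro _ ⟨_, ⟨_, ⟨x, hx, rfl⟩, rfl⟩, rfl⟩
    obtain ⟨y, hy, hyx⟩ := hA n hn (ι x) ⟨x, hx, rfl⟩
    apply Subgroup.subset_closure
    refine ⟨y ^ p ^ k, ⟨y, hy, rfl⟩, ?_⟩
    show ι (y ^ p ^ k) = n * ι (x ^ p ^ k) * n⁻¹
    rw [map_pow, map_pow, hyx, conj_pow]
  intro x hx
  exact key ⟨x, hx, rfl⟩

section Chief
variable {G : Type*} [Group G] [Finite G] {p : ℕ} [hp : Fact p.Prime]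

/-- a normal `p`-subgroup centralizes chief factors inside it -/
theorem chief_comm {U W Q : Subgroup G} (hQ : IsPGroup p Q) (hQn : Q.Normal) (hUQ : U ≤ Q) (hc : Cfsg.IsChiefFactor U W) :
    ∀ u ∈ U, ∀ a ∈ Q, ⁅u, a⁆ ∈ W := by
  obtain ⟨hlt, hUn, hWn, hirr⟩ := hc
  by_contra hcon
  push Not at hcon
  -- `C = {u ∈ U | [u, Q] ≤ W}`
  have hWn' : ∀ g ∈ (⊤ : Subgroup G), ∀ v ∈ W, g * v * g⁻¹ ∈ W := fun g _ v hv => hWn.conj_mem v hv g
  set C : Subgroup G := U ⊓ ctr (⊤ : Subgroup G) Q W hWn' with hC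
  have hCn : C.Normal := by
    constructor
    intro x hx g
    refine Subgroup.mem_inf.2 ⟨hUn.conj_mem x hx.1 g, ?_⟩
    exact ctr_conj (fun g _ v hv => hQn.conj_mem v hv g) (trivial : g ∈ (⊤ : Subgroup G)) hx.2
  have hWC : W ≤ C := by
    intro w hw
    refine Subgroup.mem_inf.2 ⟨hlt.le hw, mem_ctr.2 ⟨trivial, fun a ha => ?_⟩⟩
    have e : ⁅a, w⁆ = (a * w * a⁻¹) * w⁻¹ := by rw [commutatorElement_def]
    rw [e]
    exact mul_mem (hWn.conj_mem w hw a) (inv_mem hw)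
  rcases hirr C hCn hWC inf_le_left with h | h
  · -- `U/W` has no fixed points under `Q`
    have hWQn : (W.subgroupOf Q).Normal := hWn.subgroupOf Q
    have hpq : IsPGroup p (Q ⧸ W.subgroupOf Q) := hQ.to_quotient _
    have hUm : ((U.subgroupOf Q).map (QuotientGroup.mk' (W.subgroupOf Q))).Normal :=
      (hUn.subgroupOf Q).map _ (QuotientGroup.mk'_surjective _)
    have hne : (U.subgroupOf Q).map (QuotientGroup.mk' (W.subgroupOf Q)) ≠ ⊥ := by
      intro h1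
      rw [Subgroup.map_eq_bot_iff, QuotientGroup.ker_mk'] at h1
      obtain ⟨u, hu, huW⟩ := SetLike.exists_of_lt hlt
      exact huW (h1 (show (⟨u, hUQ hu⟩ : ↥Q) ∈ U.subgroupOf Q from hu))
    have hnt : Nontrivial ((U.subgroupOf Q).map (QuotientGroup.mk' (W.subgroupOf Q))) :=
      (Subgroup.nontrivial_iff_ne_bot _).2 hne
    obtain ⟨y, ⟨hy1, hy2⟩, hy3⟩ : ∃ y, (y ∈ (U.subgroupOf Q).map (QuotientGroup.mk' (W.subgroupOf Q)) ∧
        y ∈ Subgroup.center (Q ⧸ W.subgroupOf Q)) ∧ y ≠ 1 := by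
      obtain ⟨y, hy1, hy2, hy3⟩ := H32PGroup.exists_mem_center_of_normal hpq _ hne
      exact ⟨y, ⟨hy1, hy3⟩, hy2⟩
    obtain ⟨⟨u, huQ⟩, hu, rfl⟩ := hy1
    apply hy3
    apply (QuotientGroup.eq_one_iff _).2
    show u ∈ W
    rw [← h]
    refine Subgroup.mem_inf.2 ⟨hu, mem_ctr.2 ⟨trivial, fun a ha => ?_⟩⟩
    have h2 := Subgroup.mem_center_iff.1 hy2 (QuotientGroup.mk' (W.subgroupOf Q) ⟨a, ha⟩)
    have h3 : QuotientGroup.mk' (W.subgroupOf Q) ⁅(⟨a, ha⟩ : ↥Q), ⟨u, huQ⟩⁆ = 1 := by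
      rw [map_commutatorElement, commutatorElement_eq_one_iff_mul_comm]; exact h2
    have h4 : (⁅(⟨a, ha⟩ : ↥Q), ⟨u, huQ⟩⁆ : ↥Q) ∈ W.subgroupOf Q := (QuotientGroup.eq_one_iff _).1 h3
    exact h4
  · obtain ⟨u, hu, a, ha, hua⟩ := hcon
    rw [← h] at hu
    exact hua (Crit.comm_swap ((mem_ctr.1 hu.2).2 a ha))

theorem chief_step {U W A : Subgroup G} (hc : Cfsg.IsChiefFactor U W) (hA : A.Normal) (hne : ¬ U ⊓ A ≤ W) :
    (U ⊓ A) ⊔ W = U := by
  obtain ⟨hlt, hUn, hWn, hirr⟩ := hc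
  have hn : ((U ⊓ A) ⊔ W).Normal := by
    have := PU.inf_normal' hUn hA
    exact Subgroup.sup_normal _ _
  rcases hirr _ hn le_sup_right (sup_le inf_le_left hlt.le) with h | h
  · exfalso
    apply hne
    rw [← h]; exact le_sup_left
  · exact h

/-- noncentral chief factors are covered by `A` if `L` centralizes `Q/A` and `LQ = G` -/
theorem chief_cover {U W Q A L : Subgroup G} (hQ : IsPGroup p Q) (hQn : Q.Normal) (hUQ : U ≤ Q)
    (hc : Cfsg.IsChiefFactor U W) (hA : A.Normal) (hLA : ∀ a ∈ Q, ∀ l ∈ L, ⁅a, l⁆ ∈ A) (hLQ : L ⊔ Q = ⊤)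
    (hnc : ¬ ⁅U, (⊤ : Subgroup G)⁆ ≤ W) : (U ⊓ A) ⊔ W = U := by
  apply chief_step hc hA
  intro hle
  apply hnc
  have hc' := hc
  obtain ⟨hlt, hUn, hWn, hirr⟩ := hc
  rw [Subgroup.commutator_le]
  intro u hu g _
  have h1 : ∀ x ∈ L ⊔ Q, ⁅u, x⁆ ∈ W := by
    have h2 : L ⊔ Q ≤ ctr1 (⊤ : Subgroup G) W u (fun g _ v hv => hWn.conj_mem v hv g) := by
      apply sup_le
      · intro l hl
        refine mem_ctr1.2 ⟨trivial, hle (Subgroup.mem_inf.2 ⟨?_, hLA u (hUQ hu) l hl⟩)⟩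
        have e : ⁅u, l⁆ = u * (l * u⁻¹ * l⁻¹) := by rw [commutatorElement_def]; group
        rw [e]
        exact mul_mem hu (hUn.conj_mem _ (inv_mem hu) l)
      · intro a ha
        exact mem_ctr1.2 ⟨trivial, chief_comm hQ hQn hUQ hc' u hu a ha⟩
    intro x hx
    exact (mem_ctr1.1 (h2 hx)).2
  apply h1
  rw [hLQ]; trivial

/-- skipping a central section -/
theorem chief_skip {U W A B : Subgroup G} (hc : Cfsg.IsChiefFactor U W) (hB : B.Normal)
    (hAB : ∀ a ∈ A, ∀ g : G, ⁅a, g⁆ ∈ B) (hcov : (U ⊓ A) ⊔ W = U)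
    (hnc : ¬ ⁅U, (⊤ : Subgroup G)⁆ ≤ W) : (U ⊓ B) ⊔ W = U := by
  apply chief_step hc hB
  intro hle
  apply hnc
  obtain ⟨hlt, hUn, hWn, hirr⟩ := hc
  rw [Subgroup.commutator_le]
  intro u hu g _
  rw [← hcov] at hu
  obtain ⟨a, ha, w, hw, rfl⟩ := mem_sup_of_norm (fun a _ b hb => hWn.conj_mem b hb a) hu
  have h1 : ⁅a, g⁆ ∈ W := by
    apply hle
    refine Subgroup.mem_inf.2 ⟨?_, hAB a ha.2 g⟩
    have e : ⁅a, g⁆ = a * (g * a⁻¹ * g⁻¹) := by rw [commutatorElement_def]; group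
    rw [e]
    exact mul_mem ha.1 (hUn.conj_mem _ (inv_mem ha.1) g)
  have h2 : ⁅w, g⁆ ∈ W := by
    have e : ⁅w, g⁆ = w * (g * w⁻¹ * g⁻¹) := by rw [commutatorElement_def]; group
    rw [e]
    exact mul_mem hw (hWn.conj_mem _ (inv_mem hw) g)
  have e : ⁅a * w, g⁆ = (a * ⁅w, g⁆ * a⁻¹) * ⁅a, g⁆ := by simp only [commutatorElement_def]; group
  rw [e]
  exact mul_mem (hWn.conj_mem _ h2 a) h1

/-- the case of a natural section -/
theorem chief_nat {F : Type*} [Field F] [Fintype F] {U W Y D : Subgroup G} [W.Normal] (hc : Cfsg.IsChiefFactor U W) (N : NH Y D F)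
    (hDY : D ≤ Y) (hDn : D.Normal) (hcov : (U ⊓ Y) ⊔ W = U) (hρ : ∀ w ∈ W, N.ρ w = 1) :
    (U ⊓ D) ⊔ W = U ∨ Cfsg.IsNaturalSL2Module F (U.map (QuotientGroup.mk' W)) (⊤ : Subgroup (G ⧸ W)) := by
  by_cases hle : U ⊓ D ≤ W
  · right
    obtain ⟨hlt, hUn, hWn, hirr⟩ := hc
    have hUYn : ∀ g : G, ∀ x ∈ U ⊓ Y, g * x * g⁻¹ ∈ U ⊓ Y := fun g x hx =>
      Subgroup.mem_inf.2 ⟨hUn.conj_mem x hx.1 g, N.nY g x hx.2⟩
    have hWYn : ∀ g : G, ∀ x ∈ W ⊓ Y, g * x * g⁻¹ ∈ W ⊓ Y := fun g x hx =>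
      Subgroup.mem_inf.2 ⟨hWn.conj_mem x hx.1 g, N.nY g x hx.2⟩
    have hnUY : ¬ U ⊓ Y ≤ W := by
      intro h
      have h1 : U ≤ W := by rw [← hcov]; exact sup_le h le_rfl
      exact absurd h1 (not_le_of_gt hlt)
    have hUD : ¬ U ⊓ Y ≤ D := fun h => hnUY (fun x hx => hle (Subgroup.mem_inf.2 ⟨hx.1, h hx⟩))
    have hWD : W ⊓ Y ≤ D := by
      by_contra h
      apply hnUY
      intro x hx
      obtain ⟨w, hw, d, hd, rfl⟩ := N.irr hDY hWYn inf_le_right h x hx.2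
      have h2 : d ∈ W := by
        apply hle
        refine Subgroup.mem_inf.2 ⟨?_, hd⟩
        have h3 := mul_mem (inv_mem (hlt.le hw.1)) hx.1
        rwa [inv_mul_cancel_left] at h3
      exact mul_mem hw.1 h2
    apply N.natural hDY hUn
    · intro u hu
      rw [← hcov] at hu
      exact mem_sup_of_norm (fun a _ b hb => hWn.conj_mem b hb a) hu
    · intro x hx
      exact ⟨fun h => hWD (Subgroup.mem_inf.2 ⟨h, hx.2⟩), fun h => hle (Subgroup.mem_inf.2 ⟨hx.1, h⟩)⟩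
    · intro c
      obtain ⟨y, hy, rfl⟩ := N.surj c
      obtain ⟨w, hw, d, hd, rfl⟩ := N.irr hDY hUYn inf_le_right hUD y hy
      refine ⟨w, hw, ?_⟩
      rw [N.add _ hw.2 _ (hDY hd), (N.ker d (hDY hd)).2 hd, add_zero]
    · exact hρ
    · exact hlt.le
  · left
    exact chief_step hc hDn hle

/-- hypercentrality of `Q/A` -/
theorem iter_le {Q A L : Subgroup G} (hQn : Q.Normal) (hA : A.Normal) (hAQ : A ≤ Q) (hLA : ∀ a ∈ Q, ∀ l ∈ L, ⁅a, l⁆ ∈ A)
    (hLQ : L ⊔ Q = ⊤) (k : ℕ) : Cfsg.iterCommutator Q (⊤ : Subgroup G) k ≤ A ⊔ Q.lowerCentralSeries k := by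
  have hln : ∀ k, (Q.lowerCentralSeries k).Normal := fun k =>
    ⟨fun x hx g => lcs_conj (fun x hx => hQn.conj_mem x hx g) k x hx⟩
  have hle : ∀ k, Q.lowerCentralSeries k ≤ Q := fun k =>
    (Subgroup.lowerCentralSeries_antitone Q (Nat.zero_le k)).trans le_rfl
  induction k with
  | zero => exact le_sup_right
  | succ k ih =>
    show ⁅Cfsg.iterCommutator Q (⊤ : Subgroup G) k, (⊤ : Subgroup G)⁆ ≤ _
    refine (Subgroup.commutator_mono ih le_rfl).trans ?_
    have hn := hln (k + 1)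
    have hN : (A ⊔ Q.lowerCentralSeries (k + 1)).Normal := Subgroup.sup_normal _ _
    rw [Subgroup.commutator_le]
    intro x hx g _
    obtain ⟨a, ha, c, hc, rfl⟩ := mem_sup_of_norm (fun a _ b hb => (hln k).conj_mem b hb a) hx
    have h1 : ⁅a, g⁆ ∈ A ⊔ Q.lowerCentralSeries (k + 1) := by
      apply Subgroup.mem_sup_left
      have e : ⁅a, g⁆ = a * (g * a⁻¹ * g⁻¹) := by rw [commutatorElement_def]; group
      rw [e]
      exact mul_mem ha (hA.conj_mem _ (inv_mem ha) g)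
    have h2 : ⁅c, g⁆ ∈ A ⊔ Q.lowerCentralSeries (k + 1) := by
      have h3 : L ⊔ Q ≤ ctr1 (⊤ : Subgroup G) (A ⊔ Q.lowerCentralSeries (k + 1)) c (fun g _ v hv => hN.conj_mem v hv g) := by
        apply sup_le
        · intro l hl
          exact mem_ctr1.2 ⟨trivial, Subgroup.mem_sup_left (hLA c (hle k hc) l hl)⟩
        · intro b hb
          exact mem_ctr1.2 ⟨trivial, Subgroup.mem_sup_right (Subgroup.commutator_mem_commutator hc hb)⟩
      rw [hLQ] at h3
      exact (mem_ctr1.1 (h3 (trivial : g ∈ (⊤ : Subgroup G)))).2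
    have e : ⁅a * c, g⁆ = (a * ⁅c, g⁆ * a⁻¹) * ⁅a, g⁆ := by simp only [commutatorElement_def]; group
    rw [e]
    exact mul_mem (hN.conj_mem _ h2 a) h1

end Chief

end Cfsg.Agent.Lib.QmCore
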