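import Cfsg.Agent.Lib.QmNC
set_option autoImplicit false
set_option linter.unusedSectionVars false

/-! Natural `SL₂`-sections of a group, in terms of a coordinate map. -/
namespace Cfsg.Agent.Lib.QmCore

open Matrix Cfsg.Agent.Lib.ClSL2 Cfsg.Agent.Lib.LocBase
open scoped MatrixGroups commutatorElement

/-- `Y/D` is a natural `SL₂(F)`-module for `G` -/
structure NH {G : Type*} [Group G] (Y D : Subgroup G) (F : Type*) [Field F] where
  θ : G → (Fin 2 → F)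
  ρ : G →* SL(2, F)
  add : ∀ x ∈ Y, ∀ y ∈ Y, θ (x * y) = θ x + θ y
  ker : ∀ x ∈ Y, θ x = 0 ↔ x ∈ D
  surj : ∀ c, ∃ x ∈ Y, θ x = c
  ρs : Function.Surjective ρ
  nY : ∀ g : G, ∀ x ∈ Y, g * x * g⁻¹ ∈ Y
  act : ∀ g : G, ∀ x ∈ Y, θ (g * x * g⁻¹) = mulVec (ρ g : Matrix (Fin 2) (Fin 2) F) (θ x)

namespace NH
variable {G : Type*} [Group G] {Y D : Subgroup G} {F : Type*} [Field F]

theorem one (N : NH Y D F) : N.θ 1 = 0 := by
  have h := N.add 1 (one_mem _) 1 (one_mem _)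
  rw [mul_one] at h
  exact left_eq_add.1 h

theorem inv (N : NH Y D F) {x : G} (hx : x ∈ Y) : N.θ x⁻¹ = - N.θ x := by
  have h := N.add x hx x⁻¹ (inv_mem hx)
  rw [mul_inv_cancel, N.one] at h
  exact (neg_eq_of_add_eq_zero_right h.symm).symm

theorem pow (N : NH Y D F) {x : G} (hx : x ∈ Y) (k : ℕ) : N.θ (x ^ k) = k • N.θ x := by
  induction k with
  | zero => rw [pow_zero, zero_smul, N.one]
  | succ k ih => rw [pow_succ, N.add _ (pow_mem hx k) _ hx, ih, succ_nsmul]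

theorem comm (N : NH Y D F) {x : G} (hx : x ∈ Y) (g : G) :
    N.θ ⁅g, x⁆ = mulVec (N.ρ g : Matrix (Fin 2) (Fin 2) F) (N.θ x) - N.θ x := by
  have e : ⁅g, x⁆ = (g * x * g⁻¹) * x⁻¹ := by rw [commutatorElement_def]
  rw [e, N.add _ (N.nY g x hx) _ (inv_mem hx), N.act g x hx, N.inv hx, sub_eq_add_neg]

theorem nD (N : NH Y D F) (hDY : D ≤ Y) (g : G) {x : G} (hx : x ∈ D) : g * x * g⁻¹ ∈ D := by
  rw [← N.ker _ (N.nY g x (hDY hx)), N.act g x (hDY hx), (N.ker x (hDY hx)).2 hx, mulVec_zero]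

/-- the kernel of `ρ` -/
theorem ρ_eq_one_iff (N : NH Y D F) (hDY : D ≤ Y) (g : G) : N.ρ g = 1 ↔ ∀ x ∈ Y, ⁅g, x⁆ ∈ D := by
  constructor
  · intro h x hx
    have hc : ⁅g, x⁆ ∈ Y := by
      rw [commutatorElement_def]; exact mul_mem (N.nY g x hx) (inv_mem hx)
    rw [← N.ker _ hc, N.comm hx, h]
    simp
  · intro h
    apply Subtype.ext
    apply Matrix.ext_of_mulVec_single
    intro i
    obtain ⟨x, hx, hxi⟩ := N.surj (Pi.single i 1)
    have hc : ⁅g, x⁆ ∈ Y := by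
      rw [commutatorElement_def]; exact mul_mem (N.nY g x hx) (inv_mem hx)
    have h1 := (N.ker _ hc).2 (h x hx)
    rw [N.comm hx, sub_eq_zero, hxi] at h1
    rw [h1, Matrix.SpecialLinearGroup.coe_one, Matrix.one_mulVec]

/-- irreducibility -/
theorem irr [Fintype F] (N : NH Y D F) (hDY : D ≤ Y) {W : Subgroup G} (hW : ∀ g : G, ∀ x ∈ W, g * x * g⁻¹ ∈ W) (hWY : W ≤ Y)
    (hWD : ¬ W ≤ D) : ∀ y ∈ Y, ∃ w ∈ W, ∃ d ∈ D, y = w * d := by
  let Wb : AddSubgroup (Fin 2 → F) :=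
    { carrier := {c | ∃ w ∈ W, N.θ w = c}
      zero_mem' := ⟨1, one_mem _, N.one⟩
      add_mem' := by
        rintro _ _ ⟨w, hw, rfl⟩ ⟨w', hw', rfl⟩
        exact ⟨w * w', mul_mem hw hw', N.add _ (hWY hw) _ (hWY hw')⟩
      neg_mem' := by
        rintro _ ⟨w, hw, rfl⟩
        exact ⟨w⁻¹, inv_mem hw, N.inv (hWY hw)⟩ }
  obtain ⟨w, hw, hwD⟩ := SetLike.not_le_iff_exists.1 hWD
  have htop : Wb = ⊤ := by
    refine irr_SL (w := N.θ w) ?_ (show N.θ w ∈ Wb from ⟨w, hw, rfl⟩) (fun h => hwD ((N.ker w (hWY hw)).1 h))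
    rintro g _ ⟨w, hw, rfl⟩
    obtain ⟨x, rfl⟩ := N.ρs g
    exact ⟨_, hW x w hw, N.act x w (hWY hw)⟩
  intro y hy
  have h1 : N.θ y ∈ Wb := by rw [htop]; trivial
  obtain ⟨w, hw, hwy⟩ := h1
  refine ⟨w, hw, w⁻¹ * y, ?_, by group⟩
  rw [← N.ker _ (mul_mem (inv_mem (hWY hw)) hy), N.add _ (inv_mem (hWY hw)) _ hy, N.inv (hWY hw), hwy]
  simp

/-- a section isomorphic to `Y/D` is a natural module -/
theorem natural (N : NH Y D F) (hDY : D ≤ Y) {U W : Subgroup G} [W.Normal] (hUn : U.Normal)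
    (h1 : ∀ u ∈ U, ∃ x ∈ U ⊓ Y, ∃ w ∈ W, u = x * w) (h2 : ∀ x ∈ U ⊓ Y, x ∈ W ↔ x ∈ D)
    (h3 : ∀ c, ∃ x ∈ U ⊓ Y, N.θ x = c) (h4 : ∀ w ∈ W, N.ρ w = 1) (hWU : W ≤ U) :
    Cfsg.IsNaturalSL2Module F (U.map (QuotientGroup.mk' W)) (⊤ : Subgroup (G ⧸ W)) := by
  classical
  have hWn : W.Normal := inferInstance
  set f := QuotientGroup.mk' W with hf
  have hfs : Function.Surjective f := QuotientGroup.mk'_surjective W
  have hfk : ∀ x, f x = 1 ↔ x ∈ W := fun x => QuotientGroup.eq_one_iff x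
  have hUfn : (U.map f).Normal := hUn.map f hfs
  refine ⟨by rw [Subgroup.normalizer_eq_top], ?_⟩
  -- representatives
  have hrep : ∀ v : ↥(U.map f), ∃ x, x ∈ U ⊓ Y ∧ f x = (v : G ⧸ W) := by
    rintro ⟨_, ⟨u, hu, rfl⟩⟩
    obtain ⟨x, hx, w, hw, rfl⟩ := h1 u hu
    refine ⟨x, hx, ?_⟩
    show f x = f (x * w)
    rw [map_mul, (hfk w).2 hw, mul_one]
  choose r hr1 hr2 using hrep
  have hrY : ∀ v, r v ∈ Y := fun v => (hr1 v).2
  have key : ∀ x ∈ U ⊓ Y, ∀ x' ∈ U ⊓ Y, f x = f x' → N.θ x = N.θ x' := by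
    intro x hx x' hx' h
    have h5 : x⁻¹ * x' ∈ W := by
      rw [← hfk, map_mul, map_inv, h, inv_mul_cancel]
    have h6 : x⁻¹ * x' ∈ U ⊓ Y := mul_mem (inv_mem hx) hx'
    have h7 := (N.ker _ h6.2).2 ((h2 _ h6).1 h5)
    rw [N.add _ (inv_mem hx.2) _ hx'.2, N.inv hx.2] at h7
    exact (neg_add_eq_zero.1 h7)
  let ψ0 : Additive ↥(U.map f) →+ (Fin 2 → F) :=
    { toFun := fun v => N.θ (r v.toMul)
      map_zero' := by
        have h5 : r (Additive.toMul (0 : Additive ↥(U.map f))) ∈ D := by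
          rw [← h2 _ (hr1 _), ← hfk, hr2]
          rfl
        exact (N.ker _ (hrY _)).2 h5
      map_add' := fun v w => by
        rw [← N.add _ (hrY _) _ (hrY _)]
        apply key _ (hr1 _) _ (mul_mem (hr1 _) (hr1 _))
        rw [map_mul, hr2, hr2, hr2]
        rfl }
  have hψ : ∀ x (hx : x ∈ U ⊓ Y), ψ0 (Additive.ofMul ⟨f x, ⟨x, hx.1, rfl⟩⟩) = N.θ x := by
    intro x hx
    show N.θ (r _) = N.θ x
    apply key _ (hr1 _) _ hx
    rw [hr2]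
    rfl
  have hinj : Function.Injective ψ0 := by
    rw [injective_iff_map_eq_zero]
    intro v hv
    have h5 : N.θ (r v.toMul) = 0 := hv
    rw [N.ker _ (hrY _), ← h2 _ (hr1 _), ← hfk, hr2] at h5
    exact Subtype.ext h5
  have hsurj : Function.Surjective ψ0 := by
    intro c
    obtain ⟨x, hx, hxc⟩ := h3 c
    exact ⟨_, (hψ x hx).trans hxc⟩
  let ψ : Additive ↥(U.map f) ≃+ (Fin 2 → F) := AddEquiv.ofBijective ψ0 ⟨hinj, hsurj⟩
  let ρ0 : G ⧸ W →* SL(2, F) := QuotientGroup.lift W N.ρ h4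
  have hρ0 : ∀ x, ρ0 (f x) = N.ρ x := fun x => rfl
  refine ⟨ρ0.comp (⊤ : Subgroup (G ⧸ W)).subtype, ψ, ?_, ?_, ?_⟩
  · intro m
    obtain ⟨x, rfl⟩ := N.ρs m
    exact ⟨⟨f x, trivial⟩, rfl⟩
  · ext ⟨y, hy⟩
    obtain ⟨x, rfl⟩ := hfs y
    rw [MonoidHom.mem_ker, Subgroup.mem_subgroupOf]
    show N.ρ x = 1 ↔ f x ∈ Subgroup.centralizer ((U.map f : Subgroup (G ⧸ W)) : Set (G ⧸ W))
    rw [Subgroup.mem_centralizer_iff]
    constructor
    · intro hx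
      rintro _ ⟨u, hu, rfl⟩
      obtain ⟨v, hv, w, hw, rfl⟩ := h1 u hu
      have h5 := (N.ρ_eq_one_iff hDY x).1 hx v hv.2
      have h6 : ⁅x, v⁆ ∈ U ⊓ Y := by
        have e : ⁅x, v⁆ = (x * v * x⁻¹) * v⁻¹ := by rw [commutatorElement_def]
        rw [e]
        exact mul_mem (Subgroup.mem_inf.2 ⟨hUn.conj_mem v hv.1 x, N.nY x v hv.2⟩) (inv_mem hv)
      have h7 := (h2 _ h6).2 h5
      rw [← hfk, map_commutatorElement, commutatorElement_eq_one_iff_mul_comm] at h7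
      rw [map_mul, (hfk w).2 hw, mul_one]
      exact h7.symm
    · intro hx
      apply Subtype.ext
      apply Matrix.ext_of_mulVec_single
      intro i
      obtain ⟨v, hv, hvi⟩ := h3 (Pi.single i 1)
      have h5 := hx (f v) ⟨v, hv.1, rfl⟩
      have h6 : ⁅x, v⁆ ∈ W := by
        rw [← hfk, map_commutatorElement, commutatorElement_eq_one_iff_mul_comm]
        exact h5.symm
      have h7 : ⁅x, v⁆ ∈ U ⊓ Y := by
        have e : ⁅x, v⁆ = (x * v * x⁻¹) * v⁻¹ := by rw [commutatorElement_def]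
        rw [e]
        exact mul_mem (Subgroup.mem_inf.2 ⟨hUn.conj_mem v hv.1 x, N.nY x v hv.2⟩) (inv_mem hv)
      have h8 := (N.ker _ h7.2).2 ((h2 _ h7).1 h6)
      rw [N.comm hv.2, sub_eq_zero, hvi] at h8
      rw [h8, Matrix.SpecialLinearGroup.coe_one, Matrix.one_mulVec]
  · rintro ⟨y, hy⟩ ⟨_, ⟨u, hu, rfl⟩⟩
    obtain ⟨g, rfl⟩ := hfs y
    obtain ⟨v, hv, w, hw, rfl⟩ := h1 u hu
    have hgv : g * v * g⁻¹ ∈ U ⊓ Y := Subgroup.mem_inf.2 ⟨hUn.conj_mem v hv.1 g, N.nY g v hv.2⟩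
    have e1 : f (v * w) = f v := by rw [map_mul, (hfk w).2 hw, mul_one]
    refine ⟨⟨f (g * v * g⁻¹), ⟨_, hgv.1, rfl⟩⟩, ?_, ?_⟩
    · show f (g * v * g⁻¹) = f g * f (v * w) * (f g)⁻¹
      rw [e1, map_mul, map_mul, map_inv]
    · have h5 : ψ (Additive.ofMul ⟨f (g * v * g⁻¹), ⟨_, hgv.1, rfl⟩⟩) = N.θ (g * v * g⁻¹) := hψ _ hgv
      have h6 : ψ (Additive.ofMul ⟨f (v * w), ⟨_, hu, rfl⟩⟩) = N.θ v := by
        have e2 : (⟨f (v * w), ⟨_, hu, rfl⟩⟩ : ↥(U.map f)) = ⟨f v, ⟨_, hv.1, rfl⟩⟩ := Subtype.ext e1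
        rw [e2]
        exact hψ _ hv
      rw [h5, h6, N.act g v hv.2]
      rfl

end NH

/-- conversion from modules -/
theorem NH.of_nat {G H : Type*} [Group G] [Group H] (f : G →* H) (hf : Function.Surjective f) {F : Type*} [Field F]
    {V : Subgroup H} {hV : ∀ x ∈ V, ∀ y ∈ V, x * y = y * x} {hφ : ∀ g : H, (MonoidHom.id H) g ∈ Subgroup.normalizer (V : Set H)}
    {W : AddSubgroup (AM V hV (MonoidHom.id H) hφ)} {hW : ∀ (g : H), ∀ w ∈ W, g • w ∈ W} (N : NatAct F H (QA W hW)) :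
    ∃ N' : NH (V.comap f) ((AM.sub W).comap f) F, ∀ g, N'.ρ g = N.ρ (f g) := by
  classical
  let θ : G → (Fin 2 → F) := fun x => if h : f x ∈ V then N.ψ (QA.π (AM.mk (f x) h)) else 0
  have hθ : ∀ x (h : f x ∈ V), θ x = N.ψ (QA.π (AM.mk (f x) h)) := fun x h => dif_pos h
  have hn : ∀ g : G, ∀ x ∈ V.comap f, g * x * g⁻¹ ∈ V.comap f := by
    intro g x hx
    show f (g * x * g⁻¹) ∈ V
    rw [map_mul, map_mul, map_inv]
    exact (Subgroup.mem_normalizer_iff.1 (hφ (f g)) (f x)).1 hx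
  refine ⟨⟨θ, N.ρ.comp f, ?_, ?_, ?_, N.surj.comp hf, hn, ?_⟩, fun g => rfl⟩
  · intro x hx y hy
    rw [hθ x hx, hθ y hy, hθ (x * y) (mul_mem hx hy), ← map_add, ← map_add]
    congr 2
    apply AM.v_inj
    show f (x * y) = f x * f y
    rw [map_mul]
  · intro x hx
    rw [hθ x hx, map_eq_zero_iff _ N.ψ.injective, QA.π_eq_zero]
    constructor
    · intro h; exact ⟨hx, h⟩
    · rintro ⟨_, h⟩; exact h
  · intro c
    obtain ⟨y, hy⟩ := N.ψ.surjective c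
    obtain ⟨x, rfl⟩ := QA.π_surj y
    obtain ⟨g, hg⟩ := hf x.v
    have hgV : f g ∈ V := by rw [hg]; exact x.v_mem
    refine ⟨g, hgV, ?_⟩
    rw [hθ g hgV, ← hy]
    congr 2
    apply AM.v_inj
    exact hg
  · intro g x hx
    rw [hθ x hx, hθ _ (hn g x hx)]
    have h1 := N.act (f g) (QA.π (AM.mk (f x) hx))
    rw [QA.smul_π] at h1
    rw [← MonoidHom.comp_apply] at h1
    show _ = mulVec ((N.ρ.comp f) g : Matrix (Fin 2) (Fin 2) F) _
    rw [← h1]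
    congr 2
    apply AM.v_inj
    show f (g * x * g⁻¹) = f g * f x * (f g)⁻¹
    rw [map_mul, map_mul, map_inv]

end Cfsg.Agent.Lib.QmCore
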