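import Cfsg.Agent.Lib.QmB11
import Cfsg.Agent.Lib.QdAffine
import Cfsg.Agent.Lib.TransferApps
set_option autoImplicit false
set_option linter.unusedSectionVars false

/-! Splitting off `Qd(q)`. -/
namespace Cfsg.Agent.Lib.QmCore

open Matrix Cfsg.Agent.Lib.ClSL2 Cfsg.Agent.Lib.LocBase
open scoped MatrixGroups commutatorElement

universe u

/-- central elements in `G' ∩ S` lie in `S'` -/
theorem mem_comm_of_central {p : ℕ} [hp : Fact p.Prime] {G : Type*} [Group G] [Finite G] (S : Sylow p G) {x : G}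
    (hx : x ∈ (S : Subgroup G)) (hc : x ∈ Subgroup.center G) (hG : x ∈ commutator G) : x ∈ ⁅(S : Subgroup G), (S : Subgroup G)⁆ := by
  have h1 := TransferApps.transfer_of_mem_center (Abelianization.of (G := ↥(S : Subgroup G))) x hc hx
  have h2 := TransferApps.transfer_of_mem_commutator (Abelianization.of (G := ↥(S : Subgroup G))) x hG
  rw [h2] at h1
  have h3 : (⟨x, hx⟩ : ↥(S : Subgroup G)) ^ Nat.card (S : Subgroup G) = 1 := pow_card_eq_one'
  have h4 : (Abelianization.of (⟨x, hx⟩ : ↥(S : Subgroup G))) ^ Nat.card (S : Subgroup G) = 1 := by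
    rw [← map_pow, h3, map_one]
  have h5 := TransferApps.eq_one_of_pow_of_pow S.card_coprime_index h4 h1.symm
  have h6 : (⟨x, hx⟩ : ↥(S : Subgroup G)) ∈ commutator ↥(S : Subgroup G) := (QuotientGroup.eq_one_iff _).1 h5
  have h7 : x ∈ (commutator ↥(S : Subgroup G)).map (S : Subgroup G).subtype := ⟨_, h6, rfl⟩
  rw [commutator_def, Subgroup.map_commutator, ← MonoidHom.range_eq_map, Subgroup.range_subtype] at h7
  exact h7

theorem two_ne {p : ℕ} [hp : Fact p.Prime] {F : Type*} [Field F] [CharP F p] (hp2 : p ≠ 2) : (2 : F) ≠ 0 := by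
  intro h0
  have h3 : ((2 : ℕ) : F) = 0 := by exact_mod_cast h0
  rw [CharP.cast_eq_zero_iff F p] at h3
  exact hp2 ((Nat.prime_dvd_prime_iff_eq hp.out Nat.prime_two).1 h3)

section Split
variable {p : ℕ} [hp : Fact p.Prime] {G : Type*} [Group G] [Finite G] {F : Type*} [Field F] [Fintype F] [CharP F p]
  {V z : Subgroup G}

/-- the homomorphism to `Qd(q)` -/
theorem NH.exists_qd (N : NH V z F) (hzV : z ≤ V) (hp2 : p ≠ 2) (hk : N.ρ.ker = V) :
    ∃ f : G →* ↥(Cfsg.qdOver F), Function.Surjective f ∧ f.ker = z := by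
  have h20 : (2 : F) ≠ 0 := two_ne (p := p) hp2
  obtain ⟨i, hi⟩ := N.ρs (-1)
  have hV : ∀ g : G, ⁅g, i⁆ ∈ V := by
    intro g
    rw [← hk, MonoidHom.mem_ker, map_commutatorElement, hi, commutatorElement_eq_one_iff_mul_comm]
    exact Subgroup.mem_center_iff.1 neg_one_center (N.ρ g)
  have hmul : ∀ g h : G, N.θ ⁅g * h, i⁆ = N.θ ⁅g, i⁆ + mulVec (N.ρ g : Matrix (Fin 2) (Fin 2) F) (N.θ ⁅h, i⁆) := by
    intro g h
    have e : ⁅g * h, i⁆ = (g * ⁅h, i⁆ * g⁻¹) * ⁅g, i⁆ := by simp only [commutatorElement_def]; group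
    rw [e, N.add _ (N.nY g _ (hV h)) _ (hV g), N.act g _ (hV h), add_comm]
  let f : G →* ↥(Cfsg.qdOver F) :=
    { toFun := fun g => QdAffine.tr ((2 : F)⁻¹ • N.θ ⁅g, i⁆) * QdAffine.emb (N.ρ g)
      map_one' := by
        rw [commutatorElement_one_left, N.one, smul_zero, QdAffine.tr_zero, map_one, map_one, mul_one]
      map_mul' := fun g h => by
        have e1 := QdAffine.conj_tr (QdAffine.emb (N.ρ g)) ((2 : F)⁻¹ • N.θ ⁅h, i⁆)
        rw [QdAffine.block_emb] at e1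
        have e2 : QdAffine.emb (N.ρ g) * QdAffine.tr ((2 : F)⁻¹ • N.θ ⁅h, i⁆) =
            QdAffine.tr ((N.ρ g : Matrix (Fin 2) (Fin 2) F) *ᵥ ((2 : F)⁻¹ • N.θ ⁅h, i⁆)) * QdAffine.emb (N.ρ g) := by
          rw [← e1, inv_mul_cancel_right]
        rw [hmul, smul_add, QdAffine.tr_add, map_mul, map_mul, ← Matrix.mulVec_smul]
        calc QdAffine.tr ((2 : F)⁻¹ • N.θ ⁅g, i⁆) * QdAffine.tr ((N.ρ g : Matrix (Fin 2) (Fin 2) F) *ᵥ ((2 : F)⁻¹ • N.θ ⁅h, i⁆)) *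
              (QdAffine.emb (N.ρ g) * QdAffine.emb (N.ρ h))
            = QdAffine.tr ((2 : F)⁻¹ • N.θ ⁅g, i⁆) * (QdAffine.tr ((N.ρ g : Matrix (Fin 2) (Fin 2) F) *ᵥ ((2 : F)⁻¹ • N.θ ⁅h, i⁆)) *
              QdAffine.emb (N.ρ g)) * QdAffine.emb (N.ρ h) := by simp only [mul_assoc]
          _ = QdAffine.tr ((2 : F)⁻¹ • N.θ ⁅g, i⁆) * (QdAffine.emb (N.ρ g) * QdAffine.tr ((2 : F)⁻¹ • N.θ ⁅h, i⁆)) *
              QdAffine.emb (N.ρ h) := by rw [e2]
          _ = _ := by simp only [mul_assoc] }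
  have hf : ∀ g, f g = QdAffine.tr ((2 : F)⁻¹ • N.θ ⁅g, i⁆) * QdAffine.emb (N.ρ g) := fun g => rfl
  have hv : ∀ v ∈ V, N.θ ⁅v, i⁆ = (2 : F) • N.θ v := by
    intro v hv
    have e : ⁅v, i⁆ = v * (i * v⁻¹ * i⁻¹) := by rw [commutatorElement_def]; group
    rw [e, N.add _ hv _ (N.nY i _ (inv_mem hv)), N.act i _ (inv_mem hv), N.inv hv, hi, Matrix.SpecialLinearGroup.coe_neg,
      Matrix.SpecialLinearGroup.coe_one, Matrix.neg_mulVec, Matrix.one_mulVec, neg_neg, two_smul]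
  have hρv : ∀ v ∈ V, N.ρ v = 1 := by
    intro v hv
    have : v ∈ N.ρ.ker := by rw [hk]; exact hv
    exact this
  have hfv : ∀ v ∈ V, f v = QdAffine.tr (N.θ v) := by
    intro v hv'
    rw [hf, hv v hv', hρv v hv', map_one, mul_one, smul_smul, inv_mul_cancel₀ h20, one_smul]
  refine ⟨f, ?_, ?_⟩
  · intro m
    obtain ⟨g, hg⟩ := N.ρs (QdAffine.block m)
    obtain ⟨v, hv', hvc⟩ := N.surj (![QdAffine.ent m 0 2, QdAffine.ent m 1 2] - (2 : F)⁻¹ • N.θ ⁅g, i⁆)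
    refine ⟨v * g, ?_⟩
    rw [map_mul, hfv v hv', hf, ← mul_assoc, ← QdAffine.tr_add, hvc, sub_add_cancel, hg, ← QdAffine.eq_tr_mul_emb]
  · ext g
    rw [MonoidHom.mem_ker]
    constructor
    · intro h1
      have h2 : N.ρ g = 1 := by
        have h3 := congrArg QdAffine.block h1
        rw [hf, map_mul, QdAffine.block_emb, (MonoidHom.mem_ker).1 (QdAffine.tr_mem_ker _), one_mul, map_one] at h3
        exact h3
      have hgV : g ∈ V := by rw [← hk]; exact h2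
      rw [hfv g hgV, ← QdAffine.tr_zero] at h1
      exact (N.ker g hgV).1 (QdAffine.tr_injective h1)
    · intro hg
      rw [hfv g (hzV hg), (N.ker g (hzV hg)).2 hg, QdAffine.tr_zero]

theorem qd_split (N : NH V z F) (hzV : z ≤ V) (hp2 : p ≠ 2) (hq : 4 ≤ Fintype.card F) (hk : N.ρ.ker = V)
    (hVn : V.Normal) (hVab : ∀ v ∈ V, ∀ w ∈ V, v * w = w * v) (hVp : ∀ v ∈ V, v ^ p = 1) (hzc : z ≤ Subgroup.center G)
    (S : Sylow p G) {U : Subgroup G} (hU : ∀ v ∈ U, ∀ w ∈ U, v * w = w * v) (hSU : ∀ s ∈ (S : Subgroup G), ∃ u ∈ U, ∃ v ∈ V, s = u * v)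
    (hVS : V ≤ S) :
    ∃ G₀ : Subgroup G, G₀ ⊓ z = ⊥ ∧ G₀ ⊔ z = ⊤ ∧ Nonempty (↥G₀ ≃* ↥(Cfsg.qdOver F)) := by
  have h20 : (2 : F) ≠ 0 := two_ne (p := p) hp2
  have hzn : z.Normal := ⟨fun x hx g => by
    rw [Subgroup.mem_center_iff.1 (hzc hx) g, mul_assoc, mul_inv_cancel, mul_one]; exact hx⟩
  obtain ⟨i, hi⟩ := N.ρs (-1)
  -- the inverted subgroup
  let N₀ : Subgroup G :=
    { carrier := {v | v ∈ V ∧ i * v * i⁻¹ = v⁻¹}
      one_mem' := ⟨one_mem _, by group⟩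
      mul_mem' := by
        rintro a b ⟨ha, ha'⟩ ⟨hb, hb'⟩
        refine ⟨mul_mem ha hb, ?_⟩
        calc i * (a * b) * i⁻¹ = (i * a * i⁻¹) * (i * b * i⁻¹) := by group
          _ = a⁻¹ * b⁻¹ := by rw [ha', hb']
          _ = (b * a)⁻¹ := by group
          _ = _ := by rw [hVab b hb a ha]
      inv_mem' := by
        rintro a ⟨ha, ha'⟩
        refine ⟨inv_mem ha, ?_⟩
        calc i * a⁻¹ * i⁻¹ = (i * a * i⁻¹)⁻¹ := by group
          _ = _ := by rw [ha'] }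
  have hN₀ : ∀ v, v ∈ N₀ ↔ v ∈ V ∧ i * v * i⁻¹ = v⁻¹ := fun v => Iff.rfl
  have hN₀n : ∀ g, ∀ v ∈ N₀, g * v * g⁻¹ ∈ N₀ := by
    intro g v hv
    rw [hN₀] at hv ⊢
    refine ⟨hVn.conj_mem v hv.1 g, ?_⟩
    have hc : i⁻¹ * g⁻¹ * i * g ∈ V := by
      rw [← hk, MonoidHom.mem_ker]
      simp only [map_mul, map_inv, hi]
      have h3 : (-1 : SL(2, F)) * N.ρ g = N.ρ g * -1 := (Subgroup.mem_center_iff.1 neg_one_center (N.ρ g)).symm
      calc (-1 : SL(2, F))⁻¹ * (N.ρ g)⁻¹ * -1 * N.ρ g = (-1 : SL(2, F))⁻¹ * (N.ρ g)⁻¹ * (-1 * N.ρ g) := by group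
        _ = (-1 : SL(2, F))⁻¹ * (N.ρ g)⁻¹ * (N.ρ g * -1) := by rw [h3]
        _ = 1 := by group
    set c := i⁻¹ * g⁻¹ * i * g with hcdef
    have e1 : i * g = g * i * c := by rw [hcdef]; group
    calc i * (g * v * g⁻¹) * i⁻¹ = (i * g) * v * (i * g)⁻¹ := by group
      _ = g * i * (c * v) * c⁻¹ * i⁻¹ * g⁻¹ := by rw [e1]; group
      _ = g * (i * v * i⁻¹) * g⁻¹ := by rw [hVab c hc v hv.1]; group
      _ = _ := by rw [hv.2]; group
  have hi2 : ∀ v ∈ V, i * (i * v * i⁻¹) * i⁻¹ = v := by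
    intro v hv
    have h1 : i * i ∈ V := by
      rw [← hk, MonoidHom.mem_ker, map_mul, hi]; simp
    calc i * (i * v * i⁻¹) * i⁻¹ = (i * i) * v * (i * i)⁻¹ := by group
      _ = _ := by rw [hVab _ h1 v hv]; group
  obtain ⟨m, hm⟩ : ∃ m : ℕ, 2 * m = p + 1 := by
    have hodd : p % 2 = 1 := (hp.out.eq_two_or_odd).resolve_left hp2
    exact ⟨(p + 1) / 2, by omega⟩
  have hdec : ∀ v ∈ V, ∃ a ∈ N₀, ∃ e ∈ z, v = a * e := by
    intro v hv
    have hiv : i * v * i⁻¹ ∈ V := hVn.conj_mem v hv i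
    have h1 : v * (i * v * i⁻¹)⁻¹ ∈ N₀ := by
      rw [hN₀]
      refine ⟨mul_mem hv (inv_mem hiv), ?_⟩
      calc i * (v * (i * v * i⁻¹)⁻¹) * i⁻¹ = (i * v * i⁻¹) * (i * (i * v * i⁻¹) * i⁻¹)⁻¹ := by group
        _ = (i * v * i⁻¹) * v⁻¹ := by rw [hi2 v hv]
        _ = _ := by group
    have h2 : v * (i * v * i⁻¹) ∈ z := by
      rw [← N.ker _ (mul_mem hv hiv), N.add _ hv _ hiv, N.act i v hv, hi, Matrix.SpecialLinearGroup.coe_neg,
        Matrix.SpecialLinearGroup.coe_one, Matrix.neg_mulVec, Matrix.one_mulVec, add_neg_cancel]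
    refine ⟨_, pow_mem h1 m, _, pow_mem h2 m, ?_⟩
    have hc1 : Commute (v * (i * v * i⁻¹)⁻¹) (v * (i * v * i⁻¹)) :=
      hVab _ (mul_mem hv (inv_mem hiv)) _ (mul_mem hv hiv)
    rw [← hc1.mul_pow]
    have e : v * (i * v * i⁻¹)⁻¹ * (v * (i * v * i⁻¹)) = v ^ 2 := by
      have h3 := hVab _ (inv_mem hiv) v hv
      calc v * (i * v * i⁻¹)⁻¹ * (v * (i * v * i⁻¹)) = v * ((i * v * i⁻¹)⁻¹ * v) * (i * v * i⁻¹) := by group
        _ = v * (v * (i * v * i⁻¹)⁻¹) * (i * v * i⁻¹) := by rw [h3]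
        _ = v ^ 2 := by rw [pow_two]; group
    rw [e, ← pow_mul, hm, pow_succ, hVp v hv, one_mul]
  -- `[S,S] ≤ N₀`
  have hSS : ⁅(S : Subgroup G), (S : Subgroup G)⁆ ≤ N₀ := by
    have h1 : ∀ g : G, ∀ v ∈ V, ⁅g, v⁆ ∈ N₀ := by
      intro g v hv
      obtain ⟨a, ha, e, he, rfl⟩ := hdec v hv
      have hce := Subgroup.mem_center_iff.1 (hzc he)
      have e1 : ⁅g, a * e⁆ = (g * a * g⁻¹) * a⁻¹ := by
        rw [commutatorElement_def]
        calc g * (a * e) * g⁻¹ * (a * e)⁻¹ = g * a * (e * g⁻¹) * e⁻¹ * a⁻¹ := by group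
          _ = g * a * (g⁻¹ * e) * e⁻¹ * a⁻¹ := by rw [hce g⁻¹]
          _ = _ := by group
      rw [e1]
      exact mul_mem (hN₀n g a ha) (inv_mem ha)
    rw [Subgroup.commutator_le]
    intro s hs t ht
    obtain ⟨u, hu, v, hv, rfl⟩ := hSU s hs
    obtain ⟨u', hu', v', hv', rfl⟩ := hSU t ht
    have e1 : ⁅u * v, u' * v'⁆ = (u * ⁅v, u' * v'⁆ * u⁻¹) * ⁅u, u' * v'⁆ := by simp only [commutatorElement_def]; group
    have e2 : ⁅u, u' * v'⁆ = ⁅u, u'⁆ * (u' * ⁅u, v'⁆ * u'⁻¹) := by simp only [commutatorElement_def]; group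
    have e3 : ⁅u, u'⁆ = 1 := commutatorElement_eq_one_iff_mul_comm.2 (hU u hu u' hu')
    rw [e1, e2, e3, one_mul]
    have h2 : ⁅v, u' * v'⁆ ∈ N₀ := by
      rw [← commutatorElement_inv]; exact inv_mem (h1 _ v hv)
    exact mul_mem (hN₀n u _ h2) (hN₀n u' _ (h1 u v' hv'))
  have hGz : commutator G ⊓ z = ⊥ := by
    rw [eq_bot_iff]
    intro x hx
    have hxS : x ∈ (S : Subgroup G) := hVS (hzV hx.2)
    have h1 := hSS (mem_comm_of_central S hxS (hzc hx.2) hx.1)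
    rw [hN₀] at h1
    have h2 : x = x⁻¹ := by
      rw [← h1.2, ← (Subgroup.mem_center_iff.1 (hzc hx.2) i).symm]
      group
    have h3 : x ^ 2 = 1 := by
      rw [pow_two]; nth_rewrite 1 [h2]; group
    have h4 := hVp x h1.1
    have h5 : Nat.Coprime p 2 := by
      rw [Nat.coprime_primes hp.out Nat.prime_two]; exact hp2
    exact TransferApps.eq_one_of_pow_of_pow h5 h4 h3
  have hGV : commutator G ⊔ V = ⊤ := by
    have h1 : (commutator G).map N.ρ = ⊤ := by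
      rw [commutator_def, Subgroup.map_commutator, ← MonoidHom.range_eq_map, MonoidHom.range_eq_top.2 N.ρs, ← commutator_def]
      exact ClSLn.commutator_SL_eq_top' (fun _ => exists_sq_ne hq)
    have h2 := Subgroup.comap_map_eq N.ρ (commutator G)
    rw [h1, Subgroup.comap_top, hk] at h2
    exact h2.symm
  have hVGz : V ≤ commutator G ⊔ z := by
    have hWn : ∀ g : G, ∀ x ∈ commutator G ⊓ V, g * x * g⁻¹ ∈ commutator G ⊓ V := fun g x hx =>
      Subgroup.mem_inf.2 ⟨(inferInstance : (commutator G).Normal).conj_mem x hx.1 g, hVn.conj_mem x hx.2 g⟩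
    have hnle : ¬ commutator G ⊓ V ≤ z := by
      intro hle
      apply (N.chief hzV hVn hzn).2
      rw [Subgroup.commutator_le]
      intro v hv g hg
      apply hle
      refine Subgroup.mem_inf.2 ⟨Subgroup.commutator_mem_commutator trivial hg, ?_⟩
      have e : ⁅v, g⁆ = v * (g * v⁻¹ * g⁻¹) := by rw [commutatorElement_def]; group
      rw [e]
      exact mul_mem hv (hVn.conj_mem _ (inv_mem hv) g)
    intro v hv
    obtain ⟨w, hw, d, hd, rfl⟩ := N.irr hzV hWn inf_le_right hnle v hv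
    exact mul_mem (Subgroup.mem_sup_left hw.1) (Subgroup.mem_sup_right hd)
  have htop : commutator G ⊔ z = ⊤ := by
    rw [eq_top_iff, ← hGV]
    exact sup_le le_sup_left hVGz
  refine ⟨commutator G, hGz, htop, ?_⟩
  obtain ⟨f, hfs, hfk⟩ := N.exists_qd hzV hp2 hk
  have hb : Function.Bijective (f.comp (commutator G).subtype) := by
    constructor
    · rw [injective_iff_map_eq_one]
      rintro ⟨x, hx⟩ h1
      apply Subtype.ext
      have h2 : x ∈ commutator G ⊓ z := Subgroup.mem_inf.2 ⟨hx, by rw [← hfk]; exact h1⟩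
      rw [hGz] at h2
      exact h2
    · intro y
      obtain ⟨g, rfl⟩ := hfs y
      have hg : g ∈ commutator G ⊔ z := by rw [htop]; trivial
      obtain ⟨a, ha, e, he, rfl⟩ := mem_sup_of_norm (fun a _ b hb => hzn.conj_mem b hb a) hg
      refine ⟨⟨a, ha⟩, ?_⟩
      show f a = f (a * e)
      have h1 : f e = 1 := by
        have : e ∈ f.ker := by rw [hfk]; exact he
        exact this
      rw [map_mul, h1, mul_one]
  exact ⟨MulEquiv.ofBijective _ hb⟩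

end Split

end Cfsg.Agent.Lib.QmCore
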