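import Cfsg.Agent.Lib.QmQd
set_option autoImplicit false
set_option linter.unusedSectionVars false

/-! A maximal `p`-local subgroup that is not pushed up. -/
namespace Cfsg.Agent.Lib.QmCore

open Matrix Cfsg.Agent.Lib.ClSL2 Cfsg.Agent.Lib.LocBase
open scoped MatrixGroups commutatorElement

universe u

/-- the case where `Q` is abelian: `Q = V` -/
theorem Q_eq_V {p : ℕ} [hp : Fact p.Prime] {G : Type u} [Group G] [Finite G] {S : Sylow p G}
    {M : Subgroup G} {F : Type*} [Field F] [Fintype F] [CharP F p] {φ : G →* PSL(2, F)}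
    (hp2 : p ≠ 2) (hq : 4 ≤ Fintype.card F) (h : PU p S M φ) (hf : PUF S F) {U Q₂ : Subgroup G}
    (hb : B1 (S : Subgroup G) (Cfsg.pCore p G) (PU.VZ S) U Q₂)
    (hab : ∀ x ∈ Cfsg.pCore p G, ∀ y ∈ Cfsg.pCore p G, x * y = y * x) (hQp : ∀ x ∈ Cfsg.pCore p G, x ^ p = 1)
    (N : NH (PU.VZ S) (PU.zz S) F) (hN : N.ρ.ker = Cfsg.pCore p G) : Cfsg.pCore p G = PU.VZ S := by
  have h20 : (2 : F) ≠ 0 := two_ne (p := p) hp2
  have hpn : (Cfsg.pCore p G).Normal := pCore_normal p G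
  have hVn := hf.norm
  obtain ⟨i, hi⟩ := N.ρs (-1)
  -- `[Q,G] ≤ V`
  have hQG : ∀ a ∈ Cfsg.pCore p G, ∀ g : G, ⁅a, g⁆ ∈ PU.VZ S := by
    intro a ha g
    have h1 : ctr (⊤ : Subgroup G) (Cfsg.pCore p G) (PU.VZ S) hf.loc.Vn ⊔ Cfsg.pCore p G ≤
        ctr1 (⊤ : Subgroup G) (PU.VZ S) a hf.loc.Vn := by
      apply sup_le
      · intro l hl
        exact mem_ctr1.2 ⟨trivial, (mem_ctr.1 hl).2 a ha⟩
      · intro b hb'
        refine mem_ctr1.2 ⟨trivial, ?_⟩
        rw [commutatorElement_eq_one_iff_mul_comm.2 (hab a ha b hb')]; exact one_mem _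
    rw [hb.top h hf] at h1
    exact (mem_ctr1.1 (h1 (trivial : g ∈ (⊤ : Subgroup G)))).2
  have hi2 : i * i ∈ Cfsg.pCore p G := by
    rw [← hN, MonoidHom.mem_ker, map_mul, hi]; simp
  -- fixed points of `i` in `Q` are central
  have hfix : ∀ e ∈ Cfsg.pCore p G, i * e * i⁻¹ = e → e ∈ PU.VZ S := by
    intro e he hie
    have hzz : ∀ g : G, ⁅e, g⁆ ∈ PU.zz S := by
      intro g
      have hV := hQG e he g
      have hc : i⁻¹ * g⁻¹ * i * g ∈ Cfsg.pCore p G := by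
        rw [← hN, MonoidHom.mem_ker]
        simp only [map_mul, map_inv, hi]
        have h3 : (-1 : SL(2, F)) * N.ρ g = N.ρ g * -1 := (Subgroup.mem_center_iff.1 neg_one_center (N.ρ g)).symm
        calc (-1 : SL(2, F))⁻¹ * (N.ρ g)⁻¹ * -1 * N.ρ g = (-1 : SL(2, F))⁻¹ * (N.ρ g)⁻¹ * (-1 * N.ρ g) := by group
          _ = (-1 : SL(2, F))⁻¹ * (N.ρ g)⁻¹ * (N.ρ g * -1) := by rw [h3]
          _ = 1 := by group
      set c := i⁻¹ * g⁻¹ * i * g with hcdef
      have e1 : i * g * i⁻¹ = g * (i * c * i⁻¹) := by rw [hcdef]; group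
      have hc' : i * c * i⁻¹ ∈ Cfsg.pCore p G := hpn.conj_mem c hc i
      have h1 : i * ⁅e, g⁆ * i⁻¹ = ⁅e, g⁆ := by
        have e2 : i * ⁅e, g⁆ * i⁻¹ = ⁅i * e * i⁻¹, i * g * i⁻¹⁆ := by simp only [commutatorElement_def]; group
        rw [e2, hie, e1]
        have e3 : ⁅e, g * (i * c * i⁻¹)⁆ = ⁅e, g⁆ * (g * ⁅e, i * c * i⁻¹⁆ * g⁻¹) := by simp only [commutatorElement_def]; group
        rw [e3, commutatorElement_eq_one_iff_mul_comm.2 (hab e he _ hc')]
        group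
      rw [← N.ker _ hV]
      have h2 := N.act i _ hV
      rw [h1, hi, Matrix.SpecialLinearGroup.coe_neg, Matrix.SpecialLinearGroup.coe_one, Matrix.neg_mulVec,
        Matrix.one_mulVec] at h2
      have h3 : (2 : F) • N.θ ⁅e, g⁆ = 0 := by
        rw [two_smul]
        nth_rewrite 1 [h2]
        rw [neg_add_cancel]
      exact (smul_eq_zero.1 h3).resolve_left h20
    -- a homomorphism to an abelian group
    have hzc : ∀ x ∈ PU.zz S, ∀ g : G, g * x = x * g := fun x hx g => Subgroup.mem_centralizer_iff.1 hx.2 g trivial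
    let k : G →* ↥(PU.zz S) :=
      { toFun := fun g => ⟨⁅e, g⁆, hzz g⟩
        map_one' := Subtype.ext (commutatorElement_one_right e)
        map_mul' := fun g g' => Subtype.ext (by
          show ⁅e, g * g'⁆ = ⁅e, g⁆ * ⁅e, g'⁆
          have e3 : ⁅e, g * g'⁆ = ⁅e, g⁆ * (g * ⁅e, g'⁆ * g⁻¹) := by simp only [commutatorElement_def]; group
          rw [e3, hzc _ (hzz g') g]
          group) }
    have hcomm : commutator G ≤ k.ker := by
      rw [commutator_def, Subgroup.commutator_le]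
      intro a _ b _
      rw [MonoidHom.mem_ker, map_commutatorElement, commutatorElement_eq_one_iff_mul_comm]
      exact Subtype.ext (hzc _ (k b).2 _)
    have hQk : Cfsg.pCore p G ≤ k.ker := by
      intro a ha
      rw [MonoidHom.mem_ker]
      exact Subtype.ext (commutatorElement_eq_one_iff_mul_comm.2 (hab e he a ha))
    have hGV : commutator G ⊔ Cfsg.pCore p G = ⊤ := by
      have h1 : (commutator G).map N.ρ = ⊤ := by
        rw [commutator_def, Subgroup.map_commutator, ← MonoidHom.range_eq_map, MonoidHom.range_eq_top.2 N.ρs, ← commutator_def]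
        exact ClSLn.commutator_SL_eq_top' (fun _ => exists_sq_ne hq)
      have h2 := Subgroup.comap_map_eq N.ρ (commutator G)
      rw [h1, Subgroup.comap_top, hN] at h2
      exact h2.symm
    have hker : k.ker = ⊤ := by
      rw [eq_top_iff, ← hGV]; exact sup_le hcomm hQk
    apply hf.loc.ZV e (hf.loc.QS he)
    intro s _
    have h1 : s ∈ k.ker := by rw [hker]; trivial
    have h2 : ⁅e, s⁆ = 1 := congrArg Subtype.val h1
    exact (commutatorElement_eq_one_iff_mul_comm.1 h2).symm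
  apply le_antisymm _ hf.loc.VQ
  intro a ha
  have hia : i * a * i⁻¹ ∈ Cfsg.pCore p G := hpn.conj_mem a ha i
  have h1 : a * (i * a * i⁻¹) ∈ PU.VZ S := by
    apply hfix _ (mul_mem ha hia)
    have e1 : i * (i * a * i⁻¹) * i⁻¹ = a := by
      calc i * (i * a * i⁻¹) * i⁻¹ = (i * i) * a * (i * i)⁻¹ := by group
        _ = _ := by rw [hab _ hi2 a ha]; group
    calc i * (a * (i * a * i⁻¹)) * i⁻¹ = (i * a * i⁻¹) * (i * (i * a * i⁻¹) * i⁻¹) := by group
      _ = (i * a * i⁻¹) * a := by rw [e1]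
      _ = _ := hab _ hia a ha
  have h2 : a * (i * a * i⁻¹)⁻¹ ∈ PU.VZ S := by
    have e : a * (i * a * i⁻¹)⁻¹ = ⁅a, i⁆ := by rw [commutatorElement_def]; group
    rw [e]; exact hQG a ha i
  have h3 : a ^ 2 ∈ PU.VZ S := by
    have h4 := mul_mem h2 h1
    have h5 := hab _ (inv_mem hia) a ha
    have e : a * (i * a * i⁻¹)⁻¹ * (a * (i * a * i⁻¹)) = a ^ 2 := by
      calc a * (i * a * i⁻¹)⁻¹ * (a * (i * a * i⁻¹)) = a * ((i * a * i⁻¹)⁻¹ * a) * (i * a * i⁻¹) := by group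
        _ = a * (a * (i * a * i⁻¹)⁻¹) * (i * a * i⁻¹) := by rw [h5]
        _ = a ^ 2 := by rw [pow_two]; group
    rwa [e] at h4
  obtain ⟨m, hm⟩ : ∃ m : ℕ, 2 * m = p + 1 := by
    have hodd : p % 2 = 1 := (hp.out.eq_two_or_odd).resolve_left hp2
    exact ⟨(p + 1) / 2, by omega⟩
  have h4 := pow_mem h3 m
  rwa [← pow_mul, hm, pow_succ, hQp a ha, one_mul] at h4

theorem B1.sup_eqQ2 {G : Type*} [Group G] {S Q V U Q₂ : Subgroup G} (hb : B1 S Q V U Q₂) : U ⊔ (Q ⊓ Q₂) = Q₂ := by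
  apply le_antisymm
  · exact sup_le hb.UQ2 inf_le_right
  · intro a ha
    obtain ⟨u, hu, b, hb', rfl⟩ := hb.sup a (hb.Q2S ha)
    refine mul_mem (Subgroup.mem_sup_left hu) (Subgroup.mem_sup_right (Subgroup.mem_inf.2 ⟨hb', ?_⟩))
    have h1 := mul_mem (inv_mem (hb.UQ2 hu)) ha
    rwa [inv_mul_cancel_left] at h1

theorem B1.comm_eqQ {G : Type*} [Group G] [Finite G] {S Q V U Q₂ : Subgroup G} (hb : B1 S Q V U Q₂) :
    Q.lowerCentralSeries 1 = Q₂.lowerCentralSeries 1 := by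
  have h1 : Q.lowerCentralSeries 1 = (Q ⊓ Q₂).lowerCentralSeries 1 := by
    conv_lhs => rw [← hb.sup_eqQ]
    rw [lcs_sup (fun x hx y (hy : y ∈ Q ⊓ Q₂) => (hb.centQ y hy.1 x hx).symm),
      lcs_one_of_comm (fun x hx y hy => hb.centQ x (hb.VQ hx) y hy), bot_sup_eq]
  have h2 : Q₂.lowerCentralSeries 1 = (Q ⊓ Q₂).lowerCentralSeries 1 := by
    conv_lhs => rw [← hb.sup_eqQ2]
    rw [lcs_sup (fun x hx y (hy : y ∈ Q ⊓ Q₂) => (hb.centQ2 y hy.2 x hx).symm),
      lcs_one_of_comm (fun x hx y hy => hb.centQ2 x (hb.UQ2 hx) y hy), bot_sup_eq]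
  rw [h1, h2]

theorem qd_main {H : Type u} [Group H] [Finite H] {p : ℕ} [hp : Fact p.Prime] (hp5 : 5 ≤ p) (G : Subgroup H)
    (hmax : ∀ R : Subgroup H, IsPGroup p ↥R → R ≠ ⊥ → G ≤ Subgroup.normalizer (R : Set H) → Subgroup.normalizer (R : Set H) = G)
    (S : Sylow p ↥G) (hE₁ : Subgroup.centralizer (Cfsg.pCore p ↥G : Set ↥G) ≤ Cfsg.pCore p ↥G)
    {F : Type*} [Field F] [Fintype F] [CharP F p] (hq : 4 ≤ Fintype.card F) {M : Subgroup ↥G} {φ : ↥G →* PSL(2, F)}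
    (hP : PU p S M φ)
    (hN : ¬ Subgroup.normalizer (((S : Subgroup ↥G).map G.subtype : Subgroup H) : Set H) ≤ G) :
    ∃ G₀ E : Subgroup H, Cfsg.IsInternalDirectProduct G₀ E G ∧ Cfsg.IsElementaryAbelian p E ∧ Nonempty (↥G₀ ≃* ↥(Cfsg.qdOver F)) := by
  have hp2 : p ≠ 2 := by omega
  have hι : Function.Injective G.subtype := G.subtype_injective
  have hpn : (Cfsg.pCore p ↥G).Normal := pCore_normal p ↥G
  have hGle : ∀ {T : Subgroup ↥G}, T.Normal → G ≤ Subgroup.normalizer ((T.map G.subtype : Subgroup H) : Set H) := by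
    intro T hT
    apply le_norm_of
    rintro g hg _ ⟨t, ht, rfl⟩
    exact ⟨⟨g, hg⟩ * t * ⟨g, hg⟩⁻¹, hT.conj_mem t ht _, rfl⟩
  have hd : ∀ T : Subgroup ↥G, T ≤ S → T ≠ ⊥ → NI G.subtype (S : Subgroup ↥G) T → ¬ T.Normal := by
    intro T hTS hne hni hn
    have hpT : IsPGroup p ↥(T.map G.subtype) := (S.2.to_le hTS).map _
    have hne' : T.map G.subtype ≠ ⊥ := by
      intro h1
      exact hne ((Subgroup.map_eq_bot_iff_of_injective _ hι).1 h1)
    have h1 := hmax _ hpT hne' (hGle hn)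
    apply hN
    exact (le_norm_of hni).trans h1.le
  obtain ⟨hf, h1 | ⟨hp3, -⟩⟩ := pushing_up hι hP hE₁ hd
  swap
  · omega
  obtain ⟨n, hn, hnV⟩ := h1
  have r := b1_res hι hP hf hE₁ hd hn hnV
  obtain ⟨U, Q₂, hU, hQ₂, hb⟩ := b1_facts hι hf hn hnV
  -- exponent
  have hexp : ∀ s ∈ (S : Subgroup ↥G), s ^ p = 1 := by
    intro s hs
    have h1 := Monoid.pow_exponent_eq_one (⟨s, hs⟩ : ↥(S : Subgroup ↥G))
    rw [r.exp hp2] at h1
    exact congrArg Subtype.val h1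
  -- `Q` is abelian
  have hQ1 : (Cfsg.pCore p ↥G).lowerCentralSeries 1 = ⊥ := by
    by_contra hne
    have hnorm : ((Cfsg.pCore p ↥G).lowerCentralSeries 1).Normal :=
      ⟨fun x hx g => lcs_conj (fun x hx => hpn.conj_mem x hx g) 1 x hx⟩
    have hpT : IsPGroup p ↥(((Cfsg.pCore p ↥G).lowerCentralSeries 1).map G.subtype) := by
      have h1 : IsPGroup p ↥(Cfsg.pCore p ↥G) := AmalgamCharP.isPGroup_pCore
      exact (h1.to_le ((Subgroup.lowerCentralSeries_antitone (Cfsg.pCore p ↥G) (Nat.zero_le 1)).trans le_rfl)).map _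
    have hne' : ((Cfsg.pCore p ↥G).lowerCentralSeries 1).map G.subtype ≠ ⊥ := by
      intro h1
      exact hne ((Subgroup.map_eq_bot_iff_of_injective _ hι).1 h1)
    have h1 := hmax _ hpT hne' (hGle hnorm)
    have h2 : cj n (((Cfsg.pCore p ↥G).lowerCentralSeries 1).map G.subtype) = ((Cfsg.pCore p ↥G).lowerCentralSeries 1).map G.subtype := by
      have h3 : cj n (((Cfsg.pCore p ↥G).lowerCentralSeries 1).map G.subtype) = (Q₂.lowerCentralSeries 1).map G.subtype := by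
        rw [Subgroup.map_lowerCentralSeries, Subgroup.map_lowerCentralSeries, hQ₂]
        show (((Cfsg.pCore p ↥G).map G.subtype).lowerCentralSeries 1).map (MulAut.conj n).toMonoidHom = _
        rw [Subgroup.map_lowerCentralSeries]
        rfl
      rw [h3, ← hb.comm_eqQ]
    have h3 : n ∈ Subgroup.normalizer ((((Cfsg.pCore p ↥G).lowerCentralSeries 1).map G.subtype : Subgroup H) : Set H) := by
      rw [Subgroup.mem_normalizer_iff]
      intro x
      constructor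
      · intro hx
        rw [← h2]
        exact conj_mem_cj hx
      · intro hx
        rw [← h2, mem_cj] at hx
        have e : n⁻¹ * (n * x * n⁻¹) * n = x := by group
        rwa [e] at hx
    rw [h1] at h3
    apply hnV
    have h4 : cj n ((Cfsg.pCore p ↥G).map G.subtype) = (Cfsg.pCore p ↥G).map G.subtype := by
      apply cj_eq_of (G := G) _ h3
      rintro g hg _ ⟨t, ht, rfl⟩
      exact ⟨⟨g, hg⟩ * t * ⟨g, hg⟩⁻¹, hpn.conj_mem t ht _, rfl⟩
    rw [h4]
    exact Subgroup.map_mono hf.loc.VQ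
  have hab : ∀ x ∈ Cfsg.pCore p ↥G, ∀ y ∈ Cfsg.pCore p ↥G, x * y = y * x := by
    intro x hx y hy
    have h1 : ⁅x, y⁆ ∈ (Cfsg.pCore p ↥G).lowerCentralSeries 1 := Subgroup.commutator_mem_commutator hx hy
    rw [hQ1] at h1
    exact commutatorElement_eq_one_iff_mul_comm.1 h1
  obtain ⟨N, hNk, -⟩ := r.nh
  have hQV := Q_eq_V hp2 hq hP hf hb hab (fun x hx => hexp x (hf.loc.QS hx)) N hNk
  have hzc : PU.zz S ≤ Subgroup.center ↥G := by
    intro x hx
    rw [Subgroup.mem_center_iff]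
    intro g
    exact Subgroup.mem_centralizer_iff.1 hx.2 g trivial
  obtain ⟨G₀, h1, h2, ⟨e⟩⟩ := qd_split N inf_le_left hp2 hq (hNk.trans hQV) hf.norm
    (fun v hv w hw => hf.loc.QV v (hf.loc.VQ hv) w hw) hf.elem.2 hzc S (U := U)
    (fun v hv w hw => hb.centQ2 v (hb.UQ2 hv) w hw) (fun s hs => by
      obtain ⟨u, hu, a, ha, rfl⟩ := hb.sup s hs
      exact ⟨u, hu, a, by rw [← hQV]; exact ha, rfl⟩) hf.loc.VleS
  refine ⟨G₀.map G.subtype, (PU.zz S).map G.subtype, ⟨?_, ?_, ?_, ?_, ?_⟩, ⟨?_, ?_⟩, ⟨?_⟩⟩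
  · rintro _ ⟨x, -, rfl⟩; exact x.2
  · rintro _ ⟨x, -, rfl⟩; exact x.2
  · rintro _ ⟨x, -, rfl⟩ _ ⟨y, hy, rfl⟩
    rw [← map_mul, ← map_mul]
    congr 1
    exact Subgroup.mem_center_iff.1 (hzc hy) x
  · rw [← Subgroup.map_inf _ _ _ hι, h1, Subgroup.map_bot]
  · rw [← Subgroup.map_sup, h2, ← MonoidHom.range_eq_map, Subgroup.range_subtype]
  · refine ⟨⟨?_⟩⟩
    rintro ⟨_, ⟨x, hx, rfl⟩⟩ ⟨_, ⟨y, hy, rfl⟩⟩
    apply Subtype.ext
    show G.subtype x * G.subtype y = G.subtype y * G.subtype x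
    rw [← map_mul, ← map_mul]
    congr 1
    exact Subgroup.mem_center_iff.1 (hzc hy) x
  · rintro _ ⟨x, hx, rfl⟩
    rw [← map_pow, hf.elem.2 x hx.1, map_one]
  · exact (G₀.equivMapOfInjective _ hι).symm.trans e

end Cfsg.Agent.Lib.QmCore
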