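import Cfsg.Agent.Lib.QmFF
import Cfsg.Agent.S2904
set_option autoImplicit false

/-! Lower bounds for `|X / C_X(a)|` from semiregular actions. -/
namespace Cfsg.Agent.Lib.QmCore

open scoped MatrixGroups

section Semi

variable {P : Type*} [Group P] {X : Type*} [AddCommGroup X] [DistribMulAction P X]

theorem mem_fx_zpowers {h : P} {x : X} : x ∈ (fx (Subgroup.zpowers h) : AddSubgroup X) ↔ h • x = x := by
  constructor
  · intro hx
    exact hx h (Subgroup.mem_zpowers h)
  · intro hx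
    have : Subgroup.zpowers h ≤ MulAction.stabilizer P x := by
      rw [Subgroup.zpowers_le]; exact hx
    exact fun a ha => this ha

theorem pow_gcd_mem (g : P) (i N : ℕ) (hN : g ^ N = 1) : g ^ (Nat.gcd i N) ∈ Subgroup.zpowers (g ^ i) := by
  refine ⟨Nat.gcdA i N, ?_⟩
  show (g ^ i) ^ (Nat.gcdA i N) = g ^ (Nat.gcd i N)
  have h1 : (g ^ i) ^ (Nat.gcdA i N) = g ^ ((i : ℤ) * Nat.gcdA i N) := by
    rw [zpow_mul, zpow_natCast]
  have h2 : g ^ ((N : ℤ) * Nat.gcdB i N) = 1 := by
    rw [zpow_mul, zpow_natCast, hN, one_zpow]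
  have h3 : g ^ ((Nat.gcd i N : ℕ) : ℤ) = g ^ ((i : ℤ) * Nat.gcdA i N) := by
    rw [Nat.gcd_eq_gcd_ab, zpow_add, h2, mul_one]
  rw [h1, ← h3, zpow_natCast]

/-- in a cyclic `r`-group every nontrivial subgroup contains the socle. -/
theorem socle_mem {g : P} {r e : ℕ} (hr : r.Prime) (ho : orderOf g = r ^ (e + 1)) {k : P}
    (hk : k ∈ Subgroup.zpowers g) (hk1 : k ≠ 1) : g ^ (r ^ e) ∈ Subgroup.zpowers k := by
  have hfin : IsOfFinOrder g := by
    rw [← orderOf_pos_iff, ho]; exact pow_pos hr.pos _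
  classical
  obtain ⟨i, -, rfl⟩ := Finset.mem_image.1 (hfin.mem_zpowers_iff_mem_range_orderOf.1 hk)
  have h1 := pow_gcd_mem g i (r ^ (e + 1)) (by rw [← ho]; exact pow_orderOf_eq_one g)
  obtain ⟨a, ha, hga⟩ := (Nat.dvd_prime_pow hr).1 (Nat.gcd_dvd_right i (r ^ (e + 1)))
  have hae : a ≤ e := by
    by_contra hcon
    have : a = e + 1 := by omega
    apply hk1
    apply orderOf_dvd_iff_pow_eq_one.1
    rw [ho, ← this, ← hga]
    exact Nat.gcd_dvd_left _ _
  rw [hga] at h1
  have h2 : g ^ r ^ e = (g ^ r ^ a) ^ (r ^ (e - a)) := by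
    rw [← pow_mul, ← pow_add]
    congr 2; omega
  rw [h2]
  exact pow_mem h1 _

/-- the order of a cyclic `r`-group divides the number of points moved by its socle. -/
theorem dvd_moved [Finite X] {g : P} {r e : ℕ} (hr : r.Prime) (ho : orderOf g = r ^ (e + 1)) :
    r ^ (e + 1) ∣ Nat.card {x : X // g ^ (r ^ e) • x ≠ x} := by
  set h := g ^ (r ^ e) with hh
  have hcomm : ∀ k ∈ Subgroup.zpowers g, k * h = h * k := by
    rintro k ⟨i, rfl⟩
    show g ^ i * h = h * g ^ i
    rw [hh, ← zpow_natCast, ← zpow_add, ← zpow_add, add_comm]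
  let _ : MulAction (Subgroup.zpowers g) {x : X // h • x ≠ x} :=
    { smul := fun k x => ⟨(k : P) • x.1, by
        intro h1
        apply x.2
        rw [← mul_smul, ← hcomm k.1 k.2, mul_smul] at h1
        exact smul_left_cancel _ h1⟩
      one_smul := fun x => Subtype.ext (one_smul P x.1)
      mul_smul := fun k l x => Subtype.ext (mul_smul (k : P) (l : P) x.1) }
  have hst : ∀ x : {x : X // h • x ≠ x}, MulAction.stabilizer (Subgroup.zpowers g) x = ⊥ := by
    intro x
    rw [eq_bot_iff]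
    intro k hk
    rw [Subgroup.mem_bot]
    by_contra hk1
    apply x.2
    have h1 : (k : P) • x.1 = x.1 := congrArg Subtype.val hk
    have h2 : h ∈ Subgroup.zpowers (k : P) := socle_mem hr ho k.2 (fun h => hk1 (Subtype.ext h))
    have h3 : Subgroup.zpowers (k : P) ≤ MulAction.stabilizer P x.1 := by
      rw [Subgroup.zpowers_le]; exact h1
    exact h3 h2
  have e1 := MulAction.selfEquivOrbitsQuotientProd (G := Subgroup.zpowers g) (X := {x : X // h • x ≠ x}) hst
  rw [Nat.card_congr e1, Nat.card_prod, Nat.card_zpowers, ho]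
  exact Dvd.intro_left _ rfl

theorem card_moved [Finite X] (h : P) :
    Nat.card {x : X // h • x ≠ x} + Nat.card (fx (Subgroup.zpowers h) : AddSubgroup X) = Nat.card X := by
  have h1 : Nat.card (fx (Subgroup.zpowers h) : AddSubgroup X) = Nat.card {x : X // h • x = x} :=
    Nat.card_congr (Equiv.subtypeEquivRight (fun x => mem_fx_zpowers))
  classical
  have e := Equiv.sumCompl (fun x : X => h • x = x)
  rw [h1, add_comm, ← Nat.card_sum, Nat.card_congr e]

/-- cardinalities of additive subgroups of `p`-torsion groups are powers of `p` -/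
theorem card_pow {p : ℕ} [hp : Fact p.Prime] [Finite X] (hX : ∀ x : X, p • x = 0) : ∃ n, Nat.card X = p ^ n := by
  have h1 : IsPGroup p (Multiplicative X) := by
    intro g
    refine ⟨1, ?_⟩
    rw [pow_one]
    exact hX (Multiplicative.toAdd g)
  obtain ⟨n, hn⟩ := IsPGroup.iff_card.1 h1
  exact ⟨n, hn⟩

theorem ge_of_semireg {p : ℕ} [hp : Fact p.Prime] [Finite X] (hX : ∀ x : X, p • x = 0)
    {g : P} {r e : ℕ} (hr : r.Prime) (hrp : r ≠ p) (ho : orderOf g = r ^ (e + 1))
    (hne : ∃ x : X, g ^ (r ^ e) • x ≠ x) {d : ℕ} (hd : ∀ k, 0 < k → k < d → ¬ r ^ (e + 1) ∣ p ^ k - 1) :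
    p ^ d * Nat.card (fx (Subgroup.zpowers (g ^ (r ^ e))) : AddSubgroup X) ≤ Nat.card X := by
  set h := g ^ (r ^ e) with hh
  set C : AddSubgroup X := fx (Subgroup.zpowers h) with hC
  obtain ⟨t, ht⟩ := card_pow hX
  have h1 : Nat.card C ∣ p ^ t := ht ▸ AddSubgroup.card_addSubgroup_dvd_card C
  obtain ⟨s, hs, hCs⟩ := (Nat.dvd_prime_pow hp.out).1 h1
  have h2 := card_moved (X := X) h
  have h3 : r ^ (e + 1) ∣ Nat.card {x : X // h • x ≠ x} := dvd_moved hr ho
  have hst : s < t := by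
    rcases hs.eq_or_lt with h4 | h4
    · exfalso
      obtain ⟨x, hx⟩ := hne
      have h5 : Nonempty {x : X // h • x ≠ x} := ⟨⟨x, hx⟩⟩
      have h6 : 0 < Nat.card {x : X // h • x ≠ x} := Nat.card_pos
      rw [← hC, hCs, ht, h4] at h2
      omega
    · exact h4
  have h4 : Nat.card {x : X // h • x ≠ x} = p ^ s * (p ^ (t - s) - 1) := by
    have h5 : Nat.card {x : X // h • x ≠ x} = p ^ t - p ^ s := by
      rw [← hC, hCs, ht] at h2; omega
    rw [h5, Nat.mul_sub, mul_one, ← pow_add]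
    congr 2; omega
  rw [h4] at h3
  have h5 : r ^ (e + 1) ∣ p ^ (t - s) - 1 := by
    apply Nat.Coprime.dvd_of_dvd_mul_left _ h3
    exact Nat.Coprime.pow _ _ ((Nat.coprime_primes hr hp.out).2 hrp)
  have h6 : d ≤ t - s := by
    by_contra hcon
    exact hd (t - s) (by omega) (by omega) h5
  rw [hCs, ht, ← pow_add]
  exact Nat.pow_le_pow_right hp.out.pos (by omega)

/-- the bound for a conjugate pair. -/
theorem ge_of_pair {p : ℕ} [hp : Fact p.Prime] [Finite X] (hX : ∀ x : X, p • x = 0) {a b c g : P}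
    (hb : b = c * a * c⁻¹) {r e : ℕ} (hr : r.Prime) (hrp : r ≠ p) (ho : orderOf g = r ^ (e + 1))
    (hg : g ∈ Subgroup.zpowers a ⊔ Subgroup.zpowers b)
    (hne : ∃ x : X, g ^ (r ^ e) • x ≠ x) {n : ℕ} (hd : ∀ k, 0 < k → k < 2 * n → ¬ r ^ (e + 1) ∣ p ^ k - 1) :
    p ^ n * Nat.card (fx (Subgroup.zpowers a) : AddSubgroup X) ≤ Nat.card X := by
  have h1 := ge_of_semireg hX hr hrp ho hne hd
  set C : AddSubgroup X := fx (Subgroup.zpowers (g ^ (r ^ e))) with hC
  have h2 := H31PGV8.card_mul_le (P := (fx (Subgroup.zpowers a) : AddSubgroup X))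
    (Q := (fx (Subgroup.zpowers b) : AddSubgroup X)) (R := ⊤) le_top le_top
  have h3 : (fx (Subgroup.zpowers a) ⊓ fx (Subgroup.zpowers b) : AddSubgroup X) ≤ C := by
    intro x hx
    have h4 := mem_fx_sup hx.1 hx.2
    rw [hC, mem_fx_zpowers]
    exact h4 _ (pow_mem hg _)
  have h4 : Nat.card (fx (Subgroup.zpowers b) : AddSubgroup X) = Nat.card (fx (Subgroup.zpowers a) : AddSubgroup X) := by
    have : Subgroup.zpowers b = cj c (Subgroup.zpowers a) := by
      rw [hb, cj, MonoidHom.map_zpowers]; rfl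
    rw [this, card_fx_cj]
  rw [h4, AddSubgroup.card_top] at h2
  have h5 : Nat.card (fx (Subgroup.zpowers a) : AddSubgroup X) * Nat.card (fx (Subgroup.zpowers a) : AddSubgroup X)
      ≤ Nat.card X * Nat.card C := h2.trans (Nat.mul_le_mul_left _ (AddSubgroup.card_le_of_le h3))
  by_contra hcon
  push Not at hcon
  have h6 : Nat.card X * Nat.card X < (p ^ n * Nat.card (fx (Subgroup.zpowers a) : AddSubgroup X)) *
      (p ^ n * Nat.card (fx (Subgroup.zpowers a) : AddSubgroup X)) := Nat.mul_lt_mul'' hcon hcon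
  have h7 : (p ^ n * Nat.card (fx (Subgroup.zpowers a) : AddSubgroup X)) *
      (p ^ n * Nat.card (fx (Subgroup.zpowers a) : AddSubgroup X)) ≤ Nat.card X * Nat.card X := by
    calc _ = p ^ (2 * n) * (Nat.card (fx (Subgroup.zpowers a) : AddSubgroup X) *
          Nat.card (fx (Subgroup.zpowers a) : AddSubgroup X)) := by rw [two_mul, pow_add]; ring
      _ ≤ p ^ (2 * n) * (Nat.card X * Nat.card C) := Nat.mul_le_mul_left _ h5
      _ = Nat.card X * (p ^ (2 * n) * Nat.card C) := by ring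
      _ ≤ Nat.card X * Nat.card X := Nat.mul_le_mul_left _ h1
  exact absurd h6 (not_lt.2 h7)

end Semi

section Mat

open Matrix Cfsg.Agent.Lib.ClSL2

variable {F : Type*} [Field F]

/-- powers of matrices with a given quadratic relation. -/
theorem pow_formula (τ : F) (n : ℕ) : ∃ c d : F, ∀ M : Matrix (Fin 2) (Fin 2) F, M * M = τ • M - 1 →
    M ^ n = c • M + d • (1 : Matrix (Fin 2) (Fin 2) F) := by
  induction n with
  | zero => exact ⟨0, 1, fun M _ => by simp⟩
  | succ n ih =>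
    obtain ⟨c, d, h⟩ := ih
    refine ⟨c * τ + d, -c, fun M hM => ?_⟩
    rw [pow_succ, h M hM, add_mul, Matrix.smul_mul, hM, Matrix.smul_mul, Matrix.one_mul, smul_sub, smul_smul,
      add_smul, neg_smul]
    abel

theorem quad_rel (M : Matrix (Fin 2) (Fin 2) F) (hd : M.det = 1) : M * M = M.trace • M - 1 := by
  rw [Matrix.det_fin_two] at hd
  ext i j
  fin_cases i <;> fin_cases j <;> simp [Matrix.mul_apply, Fin.sum_univ_two, Matrix.trace_fin_two]
  · linear_combination (-1 : F) * hd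
  · ring
  · ring
  · linear_combination (-1 : F) * hd

/-- a matrix with the trace of a nonscalar matrix of exponent `N` has exponent `N`. -/
theorem pow_eq_one_of_trace {K M : Matrix (Fin 2) (Fin 2) F} (hK : K.det = 1) (hM : M.det = 1)
    (ht : M.trace = K.trace) (hns : ∀ c : F, K ≠ c • (1 : Matrix (Fin 2) (Fin 2) F)) {N : ℕ} (hN : K ^ N = 1) :
    M ^ N = 1 := by
  obtain ⟨c, d, h⟩ := pow_formula K.trace N
  have h1 := h K (quad_rel K hK)
  have h2 := h M (by rw [quad_rel M hM, ht])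
  rw [hN] at h1
  have hc : c = 0 := by
    by_contra hc
    apply hns (c⁻¹ * (1 - d))
    have h3 : c • K = (1 - d) • (1 : Matrix (Fin 2) (Fin 2) F) := by
      rw [sub_smul, one_smul, eq_sub_iff_add_eq]; exact h1.symm
    rw [← smul_smul, ← h3, smul_smul, inv_mul_cancel₀ hc, one_smul]
  rw [h2, hc, zero_smul, zero_add]
  rw [hc, zero_smul, zero_add] at h1
  exact h1.symm

end Mat

end Cfsg.Agent.Lib.QmCore
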