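import Cfsg.Agent.Lib.QmSemi
import Cfsg.Agent.Lib.NatSL2
set_option autoImplicit false

/-! Pairs of transvections in `SL₂(q)` whose product has order divisible by a primitive prime. -/
namespace Cfsg.Agent.Lib.QmCore

open Matrix Cfsg.Agent.Lib.ClSL2
open scoped MatrixGroups

variable {F : Type*} [Field F]

theorem conj_uS_lS {x s : F} (hx : x ≠ 0) (hs : s ≠ 0) :
    ∃ c : SL(2, F), (lS (-(s ^ 2) / x) : SL(2, F)) = c * uS x * c⁻¹ := by
  obtain ⟨c, hc⟩ : ∃ c : SL(2, F), (c : Matrix (Fin 2) (Fin 2) F) = !![0, x / s; -(s / x), 0] :=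
    ⟨⟨!![0, x / s; -(s / x), 0], by rw [Matrix.det_fin_two]; simp; field_simp⟩, rfl⟩
  refine ⟨c, ?_⟩
  rw [eq_mul_inv_iff_mul_eq]
  apply Subtype.ext
  rw [Matrix.SpecialLinearGroup.coe_mul, Matrix.SpecialLinearGroup.coe_mul, coe_uS, coe_lS, hc]
  ext i j
  fin_cases i <;> fin_cases j <;> simp
  field_simp

theorem trace_uS_lS (x y : F) :
    ((uS x * lS y : SL(2, F)) : Matrix (Fin 2) (Fin 2) F).trace = 2 + x * y := by
  rw [Matrix.SpecialLinearGroup.coe_mul, coe_uS, coe_lS, Matrix.trace_fin_two]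
  simp
  ring

theorem entry_uS_lS (x y : F) :
    ((uS x * lS y : SL(2, F)) : Matrix (Fin 2) (Fin 2) F) 0 1 = x := by
  rw [Matrix.SpecialLinearGroup.coe_mul, coe_uS, coe_lS]
  simp

theorem neg_pow_even {M : Matrix (Fin 2) (Fin 2) F} (n : ℕ) : (-M) ^ (2 * n) = M ^ (2 * n) := by
  rw [pow_mul, pow_mul, neg_sq]

theorem exists_pair_prime {p n : ℕ} [hp : Fact p.Prime] [Fintype F] (hF : Fintype.card F = p ^ n) (hn : 2 ≤ n)
    (h8 : ¬ (p = 2 ∧ n = 3)) {x : F} (hx : x ≠ 0) :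
    ∃ (b c g : SL(2, F)) (r e : ℕ), b = c * uS x * c⁻¹ ∧ r.Prime ∧ r ≠ p ∧ orderOf g = r ^ (e + 1) ∧
      g ∈ Subgroup.zpowers (uS x : SL(2, F)) ⊔ Subgroup.zpowers b ∧
      ∀ k, 0 < k → k < 2 * n → ¬ r ^ (e + 1) ∣ p ^ k - 1 := by
  classical
  obtain ⟨r, hr, hrd, hrn⟩ := S2904.result p (2 * n) hp.out.one_lt (by omega) (by
    rintro ⟨rfl, h⟩; exact h8 ⟨rfl, by omega⟩) (by rintro ⟨h, -⟩; omega)
  have hp1 := hp.out.one_lt
  have hrp : r ≠ p := by
    rintro rfl
    have h1 : r ∣ r ^ (2 * n) := dvd_pow_self _ (by omega)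
    have h2 : 1 ≤ r ^ (2 * n) := Nat.one_le_pow _ _ (by omega)
    have h3 := (Nat.dvd_sub h1 hrd)
    rw [Nat.sub_sub_self h2] at h3
    exact hr.one_lt.ne' (Nat.dvd_one.1 h3)
  have hr2 : r ≠ 2 := by
    rintro rfl
    have h1 := hrn 1 one_pos (by omega)
    rw [pow_one] at h1
    rcases hp.out.eq_two_or_odd with h | h
    · exact hrp h.symm
    · exact h1 (by omega)
  have hodd : Odd r := hr.odd_of_ne_two hr2
  -- an element of order `r`
  have hcard : r ∣ Nat.card SL(2, F) := by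
    rw [card_SL2 rfl, hF, ← pow_mul, mul_comm n 2]
    exact Dvd.dvd.mul_left hrd _
  have : Fact r.Prime := ⟨hr⟩
  obtain ⟨k₀, hk₀⟩ := exists_prime_orderOf_dvd_card' r hcard
  set s := (k₀ : Matrix (Fin 2) (Fin 2) F).trace with hs
  have hKm : (k₀ : Matrix (Fin 2) (Fin 2) F) * k₀ = s • (k₀ : Matrix (Fin 2) (Fin 2) F) - 1 :=
    quad_rel _ k₀.2
  set K : Matrix (Fin 2) (Fin 2) F := (k₀ : Matrix (Fin 2) (Fin 2) F) * k₀ with hK
  have hKdet : K.det = 1 := by rw [hK, Matrix.det_mul, k₀.2, mul_one]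
  have hKtr : K.trace = s ^ 2 - 2 := by
    rw [hKm, Matrix.trace_sub, Matrix.trace_smul, ← hs, Matrix.trace_one, smul_eq_mul]
    simp; ring
  have hKns : ∀ c : F, K ≠ c • (1 : Matrix (Fin 2) (Fin 2) F) := by
    intro c hc
    have h1 : c * c = 1 := by
      have := hKdet
      rw [hc, Matrix.det_smul, Matrix.det_one, mul_one] at this
      simpa [pow_two] using this
    have h2 : K * K = 1 := by
      rw [hc, Matrix.smul_mul, Matrix.one_mul, smul_smul, h1, one_smul]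
    have h3 : k₀ ^ 4 = 1 := by
      apply Subtype.ext
      rw [Matrix.SpecialLinearGroup.coe_pow, Matrix.SpecialLinearGroup.coe_one]
      calc (k₀ : Matrix (Fin 2) (Fin 2) F) ^ 4 = K * K := by rw [hK]; noncomm_ring
        _ = 1 := h2
    have h4 := orderOf_dvd_of_pow_eq_one h3
    rw [hk₀, show (4 : ℕ) = 2 ^ 2 by norm_num] at h4
    exact hr2 ((Nat.prime_dvd_prime_iff_eq hr Nat.prime_two).1 (hr.dvd_of_dvd_pow h4))
  have hKr : K ^ r = 1 := by
    have h1 : (k₀ * k₀) ^ r = 1 := by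
      rw [← pow_two, ← pow_mul, mul_comm, pow_mul, ← hk₀, pow_orderOf_eq_one, one_pow]
    have h2 := congrArg (Subtype.val : SL(2, F) → _) h1
    rw [Matrix.SpecialLinearGroup.coe_pow, Matrix.SpecialLinearGroup.coe_mul, Matrix.SpecialLinearGroup.coe_one] at h2
    exact h2
  have hs0 : s ≠ 0 := by
    intro h
    apply hKns (-1)
    rw [hKm, h, zero_smul, zero_sub, neg_smul, one_smul]
  obtain ⟨c, hc⟩ := conj_uS_lS hx hs0
  set y : F := -(s ^ 2) / x with hy
  set m : SL(2, F) := uS x * lS y with hm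
  set M : Matrix (Fin 2) (Fin 2) F := -(m : Matrix (Fin 2) (Fin 2) F) with hM
  have hMdet : M.det = 1 := by
    rw [hM, Matrix.det_neg, m.2]; simp
  have hMtr : M.trace = K.trace := by
    rw [hM, Matrix.trace_neg, hm, trace_uS_lS, hKtr, hy]
    field_simp; ring
  have hMr : M ^ r = 1 := pow_eq_one_of_trace hKdet hMdet hMtr hKns hKr
  have hg1 : (m ^ 2) ^ r = 1 := by
    apply Subtype.ext
    rw [← pow_mul, Matrix.SpecialLinearGroup.coe_pow, Matrix.SpecialLinearGroup.coe_one, ← neg_pow_even, ← hM, mul_comm,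
      pow_mul, hMr, one_pow]
  have hg2 : m ^ 2 ≠ 1 := by
    intro h
    have h1 : M ^ 2 = 1 := by
      have := congrArg (Subtype.val : SL(2, F) → _) h
      rw [Matrix.SpecialLinearGroup.coe_pow, Matrix.SpecialLinearGroup.coe_one] at this
      rw [hM, neg_sq]; exact this
    obtain ⟨t, ht⟩ := hodd
    have h2 : M = 1 := by
      have : M ^ r = M := by rw [ht, pow_succ, pow_mul, h1, one_pow, one_mul]
      rw [← this, hMr]
    have h3 : (m : Matrix (Fin 2) (Fin 2) F) 0 1 = 0 := by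
      have := congrArg (fun N : Matrix (Fin 2) (Fin 2) F => N 0 1) h2
      simpa [hM] using this
    rw [hm, entry_uS_lS] at h3
    exact hx h3
  refine ⟨lS y, c, m ^ 2, r, 0, hc, hr, hrp, ?_, ?_, ?_⟩
  · rw [zero_add, pow_one]
    exact orderOf_eq_prime hg1 hg2
  · apply pow_mem
    exact mul_mem (Subgroup.mem_sup_left (Subgroup.mem_zpowers _)) (Subgroup.mem_sup_right (Subgroup.mem_zpowers _))
  · intro k hk hk2
    rw [zero_add, pow_one]
    exact hrn k hk hk2

theorem exists_pair_eight [Fintype F] (hF : Fintype.card F = 2 ^ 3) {x : F} (hx : x ≠ 0) :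
    ∃ (b c g : SL(2, F)) (r e : ℕ), b = c * uS x * c⁻¹ ∧ r.Prime ∧ r ≠ 2 ∧ orderOf g = r ^ (e + 1) ∧
      g ∈ Subgroup.zpowers (uS x : SL(2, F)) ⊔ Subgroup.zpowers b ∧
      ∀ k, 0 < k → k < 2 * 3 → ¬ r ^ (e + 1) ∣ 2 ^ k - 1 := by
  classical
  have hchar : CharP F 2 := by
    have : Fact (Nat.Prime 2) := ⟨Nat.prime_two⟩
    exact Cfsg.Agent.Lib.NatSL2.charP_of_card hF
  have h20 : (2 : F) = 0 := by exact_mod_cast CharP.cast_eq_zero F 2
  -- roots
  obtain ⟨τ, hτ⟩ : ∃ τ : F, τ ^ 3 + τ + 1 = 0 := by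
    obtain ⟨θ, hθ⟩ : ∃ θ : F, θ ∉ ({0, 1} : Finset F) := by
      by_contra hcon
      push Not at hcon
      have h1 : (Finset.univ : Finset F) ⊆ {0, 1} := fun θ _ => hcon θ
      have h2 := Finset.card_le_card h1
      have h3 := Finset.card_le_two (a := (0 : F)) (b := 1)
      rw [Finset.card_univ, hF] at h2
      omega
    simp only [Finset.mem_insert, Finset.mem_singleton, not_or] at hθ
    have h8 : θ ^ 8 = θ := by
      have := FiniteField.pow_card θ
      rw [hF] at this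
      simpa using this
    have h7 : (θ ^ 3 + θ + 1) * (θ ^ 3 + θ ^ 2 + 1) = 0 := by
      have h9 : θ * (θ - 1) * ((θ ^ 3 + θ + 1) * (θ ^ 3 + θ ^ 2 + 1)) = 0 := by
        linear_combination h8 + (θ ^ 4 * (θ - 1)) * h20
      rcases mul_eq_zero.1 h9 with h | h
      · rcases mul_eq_zero.1 h with h | h
        · exact absurd h hθ.1
        · exact absurd (sub_eq_zero.1 h) hθ.2
      · exact h
    rcases mul_eq_zero.1 h7 with h | h
    · exact ⟨θ, h⟩
    · refine ⟨θ⁻¹, ?_⟩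
      have h0 := hθ.1
      field_simp
      linear_combination h
  have hτ0 : τ ≠ 0 := by
    rintro rfl
    simp at hτ
  have hτ8 : τ ^ 8 = τ := by
    have := FiniteField.pow_card τ
    rw [hF] at this
    simpa using this
  set s := τ ^ 4 with hs
  have hs2 : s ^ 2 = τ := by rw [hs, ← pow_mul]; exact hτ8
  have hs0 : s ≠ 0 := pow_ne_zero _ hτ0
  obtain ⟨c, hc⟩ := conj_uS_lS hx hs0
  set y : F := -(s ^ 2) / x with hy
  set m : SL(2, F) := uS x * lS y with hm
  set M : Matrix (Fin 2) (Fin 2) F := (m : Matrix (Fin 2) (Fin 2) F) with hM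
  have hMtr : M.trace = τ := by
    have : x * y = -(s ^ 2) := by rw [hy]; field_simp
    rw [hM, hm, trace_uS_lS, this, hs2]
    linear_combination (1 - τ) * h20
  have hM2 : M * M = τ • M - 1 := by rw [← hMtr]; exact quad_rel M m.2
  have h2M : ∀ N : Matrix (Fin 2) (Fin 2) F, N + N = 0 := by
    intro N; ext i j
    show N i j + N i j = 0
    linear_combination (N i j) * h20
  set N : Matrix (Fin 2) (Fin 2) F := M ^ 3 with hN
  have hN3 : N = (τ ^ 2 - 1) • M - τ • 1 := by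
    have : M ^ 3 = M * M * M := by noncomm_ring
    rw [hN, this, hM2, sub_mul, Matrix.smul_mul, hM2, Matrix.one_mul, smul_sub, smul_smul, sub_smul, one_smul,
      ← pow_two]
    abel
  have hNtr : N.trace = 1 := by
    rw [hN3, Matrix.trace_sub, Matrix.trace_smul, Matrix.trace_smul, hMtr, Matrix.trace_one, smul_eq_mul, smul_eq_mul]
    simp
    linear_combination hτ - (2 * τ + 1) * h20
  have hNdet : N.det = 1 := by rw [hN, Matrix.det_pow, m.2, one_pow]
  have hN2 : N * N = N - 1 := by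
    have := quad_rel N hNdet
    rwa [hNtr, one_smul] at this
  have hN3' : N ^ 3 = 1 := by
    have h1 : N ^ 3 = N * N * N := by noncomm_ring
    rw [h1, hN2, sub_mul, hN2, one_mul]
    have h3 := h2M (1 : Matrix (Fin 2) (Fin 2) F)
    have h4 : N - 1 - N = -1 := by abel
    rw [h4, neg_eq_iff_add_eq_zero]; exact h3
  have hNne : N ≠ 1 := by
    intro h
    rw [h, Matrix.trace_one] at hNtr
    simp [h20] at hNtr
  refine ⟨lS y, c, m, 3, 1, hc, Nat.prime_three, by norm_num, ?_, ?_, ?_⟩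
  · have : Fact (Nat.Prime 3) := ⟨Nat.prime_three⟩
    apply orderOf_eq_prime_pow
    · intro h
      apply hNne
      have := congrArg (Subtype.val : SL(2, F) → _) h
      rw [Matrix.SpecialLinearGroup.coe_pow, Matrix.SpecialLinearGroup.coe_one] at this
      rw [hN, ← this, hM]; norm_num
    · apply Subtype.ext
      rw [Matrix.SpecialLinearGroup.coe_pow, Matrix.SpecialLinearGroup.coe_one]
      calc (m : Matrix (Fin 2) (Fin 2) F) ^ 3 ^ (1 + 1) = (M ^ 3) ^ 3 := by rw [← pow_mul, hM]; norm_num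
        _ = 1 := hN3'
  · exact mul_mem (Subgroup.mem_sup_left (Subgroup.mem_zpowers _)) (Subgroup.mem_sup_right (Subgroup.mem_zpowers _))
  · intro k hk hk6
    interval_cases k <;> decide

theorem exists_pair {p n : ℕ} [hp : Fact p.Prime] [Fintype F] (hF : Fintype.card F = p ^ n) (hn : 2 ≤ n)
    {x : F} (hx : x ≠ 0) :
    ∃ (b c g : SL(2, F)) (r e : ℕ), b = c * uS x * c⁻¹ ∧ r.Prime ∧ r ≠ p ∧ orderOf g = r ^ (e + 1) ∧
      g ∈ Subgroup.zpowers (uS x : SL(2, F)) ⊔ Subgroup.zpowers b ∧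
      ∀ k, 0 < k → k < 2 * n → ¬ r ^ (e + 1) ∣ p ^ k - 1 := by
  by_cases h8 : p = 2 ∧ n = 3
  · obtain ⟨rfl, rfl⟩ := h8
    exact exists_pair_eight hF hx
  · exact exists_pair_prime hF hn h8 hx

end Cfsg.Agent.Lib.QmCore
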