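import Mathlib
import Cfsg.Agent.Lib.QuadF2
import Cfsg.Agent.Lib.MobKlein

set_option autoImplicit false

/-! Sylow 2-subgroups of the orthogonal group of plus type over the field of two elements
(helper42). -/

namespace Cfsg.Agent.Lib.QuadF2Syl

open Module Cfsg.Agent.Lib.QuadF2

variable {V : Type*} [AddCommGroup V] [Module (ZMod 2) V] [Fintype V] {q : V → ZMod 2}
  {f : V → V → ZMod 2}

/-- the perp of a subspace -/
noncomputable abbrev pp (h : IsQ q f) (U : Submodule (ZMod 2) V) : Submodule (ZMod 2) V :=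
  (bil h).orthogonal U

theorem sum_perp (h : IsQ q f) (U : Submodule (ZMod 2) V) (hU : ∀ u ∈ U, q u = 0)
    [Fintype (pp h U)] : ∑ v : pp h U, chi (q v) = IsQ.S q := by
  classical
  have h1 : (Nat.card U : ℤ) * IsQ.S q = ∑ v : V, chi (q v) * ∑ u : U, chi (f v u) := by
    have : ∀ u : U, IsQ.S q = ∑ v : V, chi (q v) * chi (f v u) := by
      intro u
      unfold IsQ.S
      rw [← Equiv.sum_comp (Equiv.addRight (u : V)) (fun v => chi (q v))]
      apply Finset.sum_congr rfl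
      intro v _
      simp only [Equiv.coe_addRight]
      rw [← chi_add, h.pol, hU u u.2, add_zero]
    calc (Nat.card U : ℤ) * IsQ.S q = ∑ u : U, IsQ.S q := by
          rw [Finset.sum_const, Finset.card_univ, Nat.card_eq_fintype_card, nsmul_eq_mul]
      _ = ∑ u : U, ∑ v : V, chi (q v) * chi (f v u) := Finset.sum_congr rfl fun u _ => this u
      _ = ∑ v : V, chi (q v) * ∑ u : U, chi (f v u) := by
          rw [Finset.sum_comm]
          simp only [Finset.mul_sum]
  have h2 : ∀ v : V, chi (q v) * ∑ u : U, chi (f v u) =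
      if v ∈ pp h U then (Nat.card U : ℤ) * chi (q v) else 0 := by
    intro v
    by_cases hv : v ∈ pp h U
    · rw [if_pos hv]
      have hv' := (mem_perp h U v).mp hv
      have : ∀ u : U, chi (f v u) = 1 := fun u => by rw [hv' u u.2, chi_zero]
      rw [Finset.sum_congr rfl fun u _ => this u]
      simp [Nat.card_eq_fintype_card, mul_comm]
    · rw [if_neg hv]
      obtain ⟨x, hx, hx1⟩ : ∃ x ∈ U, f v x = 1 := by
        by_contra hcon
        push Not at hcon
        exact hv ((mem_perp h U v).mpr fun u hu => (two_cases _).resolve_right (hcon u hu))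
      have h3 : ∑ u : U, chi (f v u) = - ∑ u : U, chi (f v u) := by
        conv_lhs => rw [← Equiv.sum_comp (Equiv.addRight (⟨x, hx⟩ : U)) (fun u : U => chi (f v u))]
        rw [← Finset.sum_neg_distrib]
        apply Finset.sum_congr rfl
        intro u _
        simp only [Equiv.coe_addRight, Submodule.coe_add]
        rw [h.add_right, hx1, chi_add, chi_one]
        ring
      have : ∑ u : U, chi (f v u) = 0 := by linarith
      rw [this, mul_zero]
  rw [Finset.sum_congr rfl fun v _ => h2 v, ← Finset.sum_filter, ← Finset.mul_sum] at h1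
  have h5 : (Nat.card U : ℤ) ≠ 0 := by
    have : 0 < Nat.card U := Nat.card_pos
    exact_mod_cast this.ne'
  have h6 := mul_left_cancel₀ h5 h1
  rw [h6]
  symm
  apply Finset.sum_subtype
  intro x
  simp

/-- the set of singular vectors in the perp of a singular subspace -/
abbrev XX (h : IsQ q f) (U : Submodule (ZMod 2) V) : Type _ := {v : V // v ∈ pp h U ∧ q v = 0}

theorem card_XX (h : IsQ q f) (hnd : ∀ u, (∀ v, f u v = 0) → u = 0) {m k : ℕ}
    (hdim : finrank (ZMod 2) V = 2 * m) (hS : IsQ.S q = 2 ^ m)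
    (U : Submodule (ZMod 2) V) (hU : ∀ u ∈ U, q u = 0) (hk : finrank (ZMod 2) U = k) :
    2 * Nat.card (XX h U) = 2 ^ (2 * m - k) + 2 ^ m := by
  classical
  have h1 := IsQ.two_mul_card_zeros (fun v : pp h U => q v)
  have h2 : IsQ.S (fun v : pp h U => q v) = 2 ^ m := by
    rw [← hS, ← sum_perp h U hU]
    rfl
  have h3 : Fintype.card (pp h U) = 2 ^ (2 * m - k) := by
    rw [← Nat.card_eq_fintype_card, Module.natCard_eq_pow_finrank (K := ZMod 2),
      finrank_perp h hnd, hdim, hk, Nat.card_zmod]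
  have h4 : Nat.card {v : pp h U // q v = 0} = Nat.card (XX h U) := by
    refine Nat.card_congr ⟨fun v => ⟨v.1.1, v.1.2, v.2⟩, fun v => ⟨⟨v.1, v.2.1⟩, v.2.2⟩, ?_, ?_⟩
    · rintro ⟨⟨v, h1⟩, h2⟩; rfl
    · rintro ⟨v, h1, h2⟩; rfl
  rw [h2, h3, h4] at h1
  exact_mod_cast h1

section Action

variable {G : Type*} [Group G] (ρ : G →* (V ≃ₗ[ZMod 2] V))

theorem f_map (h : IsQ q f) {g : V ≃ₗ[ZMod 2] V} (hg : ∀ v, q (g v) = q v) (u v : V) :
    f (g u) (g v) = f u v := by
  have h1 := h.pol (g u) (g v)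
  rw [← map_add, hg, hg, hg, h.pol] at h1
  linear_combination -h1

/-- cosets of `U` consisting of singular vectors of the perp -/
def QQ (h : IsQ q f) (U : Submodule (ZMod 2) V) : Type _ :=
  {c : V ⧸ U // ∃ v : V, (Submodule.Quotient.mk v : V ⧸ U) = c ∧ v ∈ pp h U ∧ q v = 0}

theorem q_of_coset (h : IsQ q f) (U : Submodule (ZMod 2) V) (hU : ∀ u ∈ U, q u = 0) {v w : V}
    (hv : v ∈ pp h U) (hw : w - v ∈ U) : w ∈ pp h U ∧ q w = q v := by
  have h1 : w - v ∈ pp h U := (mem_perp h U _).mpr fun u hu =>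
    isotropic_of_singular h U hU _ hw u hu
  have h2 : w = v + (w - v) := by abel
  constructor
  · rw [h2]; exact Submodule.add_mem _ hv h1
  · rw [h2, h.pol, hU _ hw, (mem_perp h U v).mp hv _ hw, add_zero, add_zero]

theorem card_QQ (h : IsQ q f) (U : Submodule (ZMod 2) V) (hU : ∀ u ∈ U, q u = 0) :
    Nat.card (XX h U) = Nat.card U * Nat.card (QQ h U) := by
  have : Finite (V ⧸ U) := Quotient.finite _
  have : Finite (QQ h U) := Subtype.finite
  apply Cfsg.Agent.Lib.MobKlein.card_of_fibers (fun x : XX h U => (⟨Submodule.Quotient.mk x.1, x.1, rfl, x.2⟩ : QQ h U))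
  rintro ⟨c, v, rfl, hv1, hv2⟩
  refine Nat.card_congr ⟨fun a => ⟨a.1.1 - v, ?_⟩, fun u => ⟨⟨v + u.1, ?_⟩, ?_⟩, ?_, ?_⟩
  · have h1 : (Submodule.Quotient.mk a.1.1 : V ⧸ U) = Submodule.Quotient.mk v := congrArg Subtype.val a.2
    exact (Submodule.Quotient.eq U).mp h1
  · have := q_of_coset h U hU (w := v + u.1) hv1 (by simp)
    exact ⟨this.1, by rw [this.2, hv2]⟩
  · apply Subtype.ext
    exact (Submodule.Quotient.eq U).mpr (by simp)
  · rintro ⟨⟨a, ha⟩, h1⟩
    apply Subtype.ext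
    apply Subtype.ext
    simp
  · rintro ⟨u, hu⟩
    apply Subtype.ext
    simp

variable {P : Subgroup (V ≃ₗ[ZMod 2] V)}

theorem perp_map (h : IsQ q f) (hP : ∀ g ∈ P, ∀ v, q (g v) = q v) (U : Submodule (ZMod 2) V)
    (hPU : ∀ g ∈ P, ∀ u ∈ U, g u ∈ U) {g : V ≃ₗ[ZMod 2] V} (hg : g ∈ P) {v : V} (hv : v ∈ pp h U) :
    g v ∈ pp h U := by
  rw [mem_perp] at hv ⊢
  intro u hu
  have h1 := hPU g⁻¹ (P.inv_mem hg) u hu
  have h2 := f_map h (hP g hg) v (g⁻¹ u)
  have h3 : g (g⁻¹ u) = u := by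
    show (g * g⁻¹) u = u
    rw [mul_inv_cancel]; rfl
  rw [h3, hv _ h1] at h2
  exact h2

/-- action on cosets -/
@[reducible] def actQ (h : IsQ q f) (hP : ∀ g ∈ P, ∀ v, q (g v) = q v) (U : Submodule (ZMod 2) V)
    (hPU : ∀ g ∈ P, ∀ u ∈ U, g u ∈ U) : MulAction P (QQ h U) where
  smul g c := ⟨Submodule.mapQ U U g.1.toLinearMap (fun u hu => hPU g.1 g.2 u hu) c.1, by
    obtain ⟨c, v, rfl, h1, h2⟩ := c
    exact ⟨g.1 v, rfl, perp_map h hP U hPU g.2 h1, by rw [hP g.1 g.2, h2]⟩⟩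
  one_smul c := by
    obtain ⟨c, v, rfl, h1, h2⟩ := c
    rfl
  mul_smul g k c := by
    obtain ⟨c, v, rfl, h1, h2⟩ := c
    rfl

/-- A `2`-group of isometries fixing a small singular subspace fixes a larger one. -/
theorem exists_larger (h : IsQ q f) (hnd : ∀ u, (∀ v, f u v = 0) → u = 0) {m k : ℕ}
    (hdim : finrank (ZMod 2) V = 2 * m) (hS : IsQ.S q = 2 ^ m)
    (hP : ∀ g ∈ P, ∀ v, q (g v) = q v) (hp : IsPGroup 2 P)
    (U : Submodule (ZMod 2) V) (hU : ∀ u ∈ U, q u = 0) (hk : finrank (ZMod 2) U = k) (hkm : k + 2 ≤ m)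
    (hPU : ∀ g ∈ P, ∀ u ∈ U, g u ∈ U) :
    ∃ U' : Submodule (ZMod 2) V, (∀ u ∈ U', q u = 0) ∧ finrank (ZMod 2) U' = k + 1 ∧
      ∀ g ∈ P, ∀ u ∈ U', g u ∈ U' := by
  classical
  have : Finite (V ⧸ U) := Quotient.finite _
  have hfin : Finite (QQ h U) := Subtype.finite
  let _ := actQ h hP U hPU
  have hcard := card_XX h hnd hdim hS U hU hk
  rw [card_QQ h U hU, Module.natCard_eq_pow_finrank (K := ZMod 2) (V := U), hk, Nat.card_zmod] at hcard
  have heven : 2 ∣ Nat.card (QQ h U) := by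
    obtain ⟨j, rfl⟩ := Nat.exists_eq_add_of_le hkm
    have e1 : 2 * (k + 2 + j) - k = k + (4 + 2 * j) := by omega
    rw [e1] at hcard
    have e2 : 2 ^ k * (2 * Nat.card (QQ h U)) = 2 ^ k * (2 * (2 * (2 ^ (2 + 2 * j) + 2 ^ j))) := by
      calc 2 ^ k * (2 * Nat.card (QQ h U)) = 2 * (2 ^ k * Nat.card (QQ h U)) := by ring
        _ = 2 ^ (k + (4 + 2 * j)) + 2 ^ (k + 2 + j) := hcard
        _ = _ := by ring
    have e3 := Nat.eq_of_mul_eq_mul_left (Nat.two_pow_pos k) e2
    have e4 := Nat.eq_of_mul_eq_mul_left (by norm_num : 0 < 2) e3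
    exact ⟨_, e4⟩
  have : Fact (Nat.Prime 2) := ⟨Nat.prime_two⟩
  let a : QQ h U := ⟨0, 0, rfl, Submodule.zero_mem _, h.q_zero⟩
  have ha : a ∈ MulAction.fixedPoints P (QQ h U) := by
    intro g
    apply Subtype.ext
    show Submodule.mapQ U U g.1.toLinearMap _ 0 = 0
    exact map_zero _
  obtain ⟨b, hb, hab⟩ := hp.exists_fixed_point_of_prime_dvd_card_of_fixed_point (QQ h U) heven ha
  obtain ⟨c, v, rfl, hv1, hv2⟩ := b
  have hvU : v ∉ U := by
    intro hv
    apply hab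
    apply Subtype.ext
    exact ((Submodule.Quotient.mk_eq_zero U).mpr hv).symm
  have hfix : ∀ g ∈ P, g v - v ∈ U := by
    intro g hg
    have h1 := congrArg Subtype.val (hb ⟨g, hg⟩)
    exact (Submodule.Quotient.eq U).mp h1
  refine ⟨U ⊔ (ZMod 2) ∙ v, ?_, ?_, ?_⟩
  · intro x hx
    obtain ⟨u, hu, y, hy, rfl⟩ := Submodule.mem_sup.mp hx
    obtain ⟨c, rfl⟩ := Submodule.mem_span_singleton.mp hy
    rcases two_cases c with rfl | rfl
    · rw [zero_smul, add_zero, hU u hu]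
    · rw [one_smul, h.pol, hU u hu, hv2, h.symm, (mem_perp h U v).mp hv1 u hu]; rfl
  · have hne : v ≠ 0 := fun h0 => hvU (h0 ▸ U.zero_mem)
    have h2 : finrank (ZMod 2) ((ZMod 2) ∙ v) = 1 := finrank_span_singleton hne
    have h3 : U ⊓ (ZMod 2) ∙ v = ⊥ := by
      rw [eq_bot_iff]
      rintro x ⟨hx1, hx2⟩
      obtain ⟨c, rfl⟩ := Submodule.mem_span_singleton.mp hx2
      rcases two_cases c with rfl | rfl
      · simp
      · rw [one_smul] at hx1; exact absurd hx1 hvU
    have h4 := Submodule.finrank_sup_add_finrank_inf_eq U ((ZMod 2) ∙ v)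
    rw [h3, finrank_bot, h2, hk] at h4
    exact h4
  · intro g hg x hx
    obtain ⟨u, hu, y, hy, rfl⟩ := Submodule.mem_sup.mp hx
    obtain ⟨c, rfl⟩ := Submodule.mem_span_singleton.mp hy
    rw [map_add, map_smul]
    apply Submodule.add_mem _ (Submodule.mem_sup_left (hPU g hg u hu))
    apply Submodule.smul_mem
    have : g v = (g v - v) + v := by abel
    rw [this]
    exact Submodule.add_mem _ (Submodule.mem_sup_left (hfix g hg)) (Submodule.mem_sup_right (Submodule.mem_span_singleton_self v))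

/-- A `2`-group of isometries fixes a singular subspace of dimension `m - 1`. -/
theorem exists_fixed (h : IsQ q f) (hnd : ∀ u, (∀ v, f u v = 0) → u = 0) {m : ℕ}
    (hdim : finrank (ZMod 2) V = 2 * m) (hS : IsQ.S q = 2 ^ m)
    (hP : ∀ g ∈ P, ∀ v, q (g v) = q v) (hp : IsPGroup 2 P) (k : ℕ) (hkm : k + 1 ≤ m) :
    ∃ U : Submodule (ZMod 2) V, (∀ u ∈ U, q u = 0) ∧ finrank (ZMod 2) U = k ∧
      ∀ g ∈ P, ∀ u ∈ U, g u ∈ U := by
  induction k with
  | zero =>
    refine ⟨⊥, ?_, finrank_bot _ _, ?_⟩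
    · intro u hu
      rw [(Submodule.mem_bot _).mp hu, h.q_zero]
    · intro g _ u hu
      rw [(Submodule.mem_bot _).mp hu, map_zero]
      exact Submodule.zero_mem _
  | succ k ih =>
    obtain ⟨U, h1, h2, h3⟩ := ih (by omega)
    exact exists_larger h hnd hdim hS hP hp U h1 h2 (by omega) h3

end Action

end Cfsg.Agent.Lib.QuadF2Syl
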