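import Mathlib
import Cfsg.Agent.Lib.QuadF2Syl

set_option autoImplicit false

/-! Sylow 2-subgroups of the orthogonal group of plus type over the field of two elements, II
(helper42). -/

namespace Cfsg.Agent.Lib.QuadF2Syl

open Module Cfsg.Agent.Lib.QuadF2

variable {V : Type*} [AddCommGroup V] [Module (ZMod 2) V] [Fintype V] {q : V → ZMod 2}
  {f : V → V → ZMod 2}

theorem exists_na (h : IsQ q f) (hnd : ∀ u, (∀ v, f u v = 0) → u = 0) {m : ℕ}
    (hdim : finrank (ZMod 2) V = 2 * m) (hS : IsQ.S q = 2 ^ m) (hm : 1 ≤ m)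
    (W : Submodule (ZMod 2) V) (hW : ∀ u ∈ W, q u = 0) (hk : finrank (ZMod 2) W = m - 1) :
    ∃ n a : V, n ∈ pp h W ∧ a ∈ pp h W ∧ q n = 1 ∧ q a = 0 ∧ f n a = 1 := by
  classical
  obtain ⟨j, rfl⟩ := Nat.exists_eq_add_of_le hm
  -- n
  have hn : ∃ n ∈ pp h W, q n = 1 := by
    by_contra hcon
    push Not at hcon
    have h1 := singular_finrank_le h hnd hdim (pp h W) (fun u hu => (two_cases _).resolve_right (hcon u hu))
    rw [finrank_perp h hnd, hdim, hk] at h1
    omega
  have ha : ∃ a ∈ pp h W, q a = 0 ∧ a ∉ W := by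
    by_contra hcon
    push Not at hcon
    have h1 : Nat.card (XX h W) ≤ Nat.card W :=
      Nat.card_le_card_of_injective (fun x : XX h W => (⟨x.1, hcon x.1 x.2.1 x.2.2⟩ : W))
        (fun x y hxy => Subtype.ext (congrArg (fun z : W => z.1) hxy))
    have h2 := card_XX h hnd hdim hS W hW hk
    rw [Module.natCard_eq_pow_finrank (K := ZMod 2) (V := W), hk, Nat.card_zmod] at h1
    have e1 : 2 * (1 + j) - (1 + j - 1) = j + 2 := by omega
    have e2 : 1 + j - 1 = j := by omega
    rw [e1] at h2
    rw [e2] at h1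
    have e3 : 2 ^ (j + 2) = 4 * 2 ^ j := by ring
    have e4 : 2 ^ (1 + j) = 2 * 2 ^ j := by ring
    have : 0 < 2 ^ j := Nat.two_pow_pos j
    omega
  obtain ⟨n, hn1, hn2⟩ := hn
  obtain ⟨a, ha1, ha2, ha3⟩ := ha
  refine ⟨n, a, hn1, ha1, hn2, ha2, ?_⟩
  by_contra hfa
  have hfa' : f n a = 0 := (two_cases _).resolve_right hfa
  -- `W + ⟨a⟩` is totally singular of dimension `m`
  have hane : a ≠ 0 := fun h0 => ha3 (h0 ▸ W.zero_mem)
  have hsing : ∀ u ∈ W ⊔ (ZMod 2) ∙ a, q u = 0 := by
    intro x hx
    obtain ⟨u, hu, y, hy, rfl⟩ := Submodule.mem_sup.mp hx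
    obtain ⟨c, rfl⟩ := Submodule.mem_span_singleton.mp hy
    rcases two_cases c with rfl | rfl
    · rw [zero_smul, add_zero, hW u hu]
    · rw [one_smul, h.pol, hW u hu, ha2, h.symm, (mem_perp h W a).mp ha1 u hu]; rfl
  have hfr : finrank (ZMod 2) (W ⊔ (ZMod 2) ∙ a : Submodule (ZMod 2) V) = 1 + j := by
    have h2 : finrank (ZMod 2) ((ZMod 2) ∙ a) = 1 := finrank_span_singleton hane
    have h3 : W ⊓ (ZMod 2) ∙ a = ⊥ := by
      rw [eq_bot_iff]
      rintro x ⟨hx1, hx2⟩
      obtain ⟨c, rfl⟩ := Submodule.mem_span_singleton.mp hx2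
      rcases two_cases c with rfl | rfl
      · simp
      · rw [one_smul] at hx1; exact absurd hx1 ha3
    have h4 := Submodule.finrank_sup_add_finrank_inf_eq W ((ZMod 2) ∙ a)
    rw [h3, finrank_bot, h2, hk] at h4
    omega
  have h5 := singular_perp h hnd hdim _ hsing hfr.ge n (by
    intro x hx
    obtain ⟨u, hu, y, hy, rfl⟩ := Submodule.mem_sup.mp hx
    obtain ⟨c, rfl⟩ := Submodule.mem_span_singleton.mp hy
    rw [h.add_right, f_smul_right h, hfa', mul_zero, add_zero]
    exact (mem_perp h W n).mp hn1 u hu)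
  have h6 := hsing n h5
  rw [hn2] at h6
  exact one_ne_zero h6

theorem mem_of_orth (h : IsQ q f) (hnd : ∀ u, (∀ v, f u v = 0) → u = 0) {m : ℕ}
    (hdim : finrank (ZMod 2) V = 2 * m) (hm : 1 ≤ m)
    (W : Submodule (ZMod 2) V) (hk : finrank (ZMod 2) W = m - 1)
    {n a : V} (hn : n ∈ pp h W) (ha : a ∈ pp h W) (hna : f n a = 1) (hW : ∀ u ∈ W, q u = 0)
    {x : V} (hx : x ∈ pp h W) (hxn : f x n = 0) (hxa : f x a = 0) : x ∈ W := by
  classical
  have hnW : n ∉ W := fun hnW => by
    have := (mem_perp h W a).mp ha n hnW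
    rw [h.symm, hna] at this
    exact one_ne_zero this
  have haW : a ∉ W ⊔ (ZMod 2) ∙ n := by
    intro haW
    obtain ⟨u, hu, y, hy, hey⟩ := Submodule.mem_sup.mp haW
    obtain ⟨c, rfl⟩ := Submodule.mem_span_singleton.mp hy
    have : f n a = 0 := by
      rw [← hey, h.add_right, f_smul_right h, h.self, mul_zero, add_zero]
      exact (mem_perp h W n).mp hn u hu
    rw [hna] at this
    exact one_ne_zero this
  have key : ∀ (U : Submodule (ZMod 2) V) (v : V), v ∉ U →
      finrank (ZMod 2) (U ⊔ (ZMod 2) ∙ v : Submodule (ZMod 2) V) = finrank (ZMod 2) U + 1 := by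
    intro U v hv
    have hne : v ≠ 0 := fun h0 => hv (h0 ▸ U.zero_mem)
    have h2 : finrank (ZMod 2) ((ZMod 2) ∙ v) = 1 := finrank_span_singleton hne
    have h3 : U ⊓ (ZMod 2) ∙ v = ⊥ := by
      rw [eq_bot_iff]
      rintro x ⟨hx1, hx2⟩
      obtain ⟨c, rfl⟩ := Submodule.mem_span_singleton.mp hx2
      rcases two_cases c with rfl | rfl
      · simp
      · rw [one_smul] at hx1; exact absurd hx1 hv
    have h4 := Submodule.finrank_sup_add_finrank_inf_eq U ((ZMod 2) ∙ v)
    rw [h3, finrank_bot, h2] at h4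
    exact h4
  set T : Submodule (ZMod 2) V := (W ⊔ (ZMod 2) ∙ n) ⊔ (ZMod 2) ∙ a with hT
  have hTf : finrank (ZMod 2) T = m + 1 := by
    rw [hT, key _ _ haW, key _ _ hnW, hk]; omega
  have hperp : finrank (ZMod 2) (pp h T) = m - 1 := by
    rw [finrank_perp h hnd, hdim, hTf]; omega
  have hsub : W ≤ pp h T := by
    intro w hw
    rw [mem_perp]
    intro t ht
    obtain ⟨s, hs, y, hy, rfl⟩ := Submodule.mem_sup.mp ht
    obtain ⟨u, hu, z, hz, rfl⟩ := Submodule.mem_sup.mp hs
    obtain ⟨c, rfl⟩ := Submodule.mem_span_singleton.mp hy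
    obtain ⟨d, rfl⟩ := Submodule.mem_span_singleton.mp hz
    rw [h.add_right, h.add_right, f_smul_right h, f_smul_right h, isotropic_of_singular h W hW w hw u hu,
      h.symm w n, h.symm w a, (mem_perp h W n).mp hn w hw, (mem_perp h W a).mp ha w hw]
    ring
  have heq : W = pp h T := Submodule.eq_of_le_of_finrank_le hsub (by rw [hperp, hk])
  rw [heq, mem_perp]
  intro t ht
  obtain ⟨s, hs, y, hy, rfl⟩ := Submodule.mem_sup.mp ht
  obtain ⟨u, hu, z, hz, rfl⟩ := Submodule.mem_sup.mp hs
  obtain ⟨c, rfl⟩ := Submodule.mem_span_singleton.mp hy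
  obtain ⟨d, rfl⟩ := Submodule.mem_span_singleton.mp hz
  rw [h.add_right, h.add_right, f_smul_right h, f_smul_right h, (mem_perp h W x).mp hx u hu, hxn, hxa]
  ring

theorem add_self' (v : V) : v + v = 0 := by
  rw [← two_smul (ZMod 2) v]
  have : (2 : ZMod 2) = 0 := rfl
  rw [this, zero_smul]

/-- The pointwise stabilizer of a singular subspace of dimension `m - 1` has exponent dividing `8`. -/
theorem pow_eight (h : IsQ q f) (hnd : ∀ u, (∀ v, f u v = 0) → u = 0) {m : ℕ}
    (hdim : finrank (ZMod 2) V = 2 * m) (hS : IsQ.S q = 2 ^ m) (hm : 1 ≤ m)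
    (W : Submodule (ZMod 2) V) (hW : ∀ u ∈ W, q u = 0) (hk : finrank (ZMod 2) W = m - 1)
    (g : V ≃ₗ[ZMod 2] V) (hg : ∀ v, q (g v) = q v) (hgW : ∀ w ∈ W, g w = w) : g ^ 8 = 1 := by
  classical
  obtain ⟨n, a, hn, ha, hqn, hqa, hna⟩ := exists_na h hnd hdim hS hm W hW hk
  have hmem : ∀ {x : V}, x ∈ pp h W → f x n = 0 → f x a = 0 → x ∈ W := fun {x} =>
    mem_of_orth h hnd hdim hm W hk hn ha hna hW
  -- `g` maps the perp into itself and is trivial on `V / W^⊥`
  have hgf := f_map h hg
  have h1 : ∀ v, g v - v ∈ pp h W := by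
    intro v
    rw [mem_perp]
    intro w hw
    have e1 := hgf v w
    rw [hgW w hw] at e1
    have e2 : g v = (g v - v) + v := by abel
    rw [e2, h.add_left] at e1
    linear_combination e1
  have h2 : ∀ {v}, v ∈ pp h W → g v ∈ pp h W := by
    intro v hv
    have : g v = (g v - v) + v := by abel
    rw [this]; exact Submodule.add_mem _ (h1 v) hv
  have hsub : ∀ x y : V, x - y = x + y := fun x y => by
    rw [sub_eq_add_neg, neg_eq_of_add_eq_zero_left (add_self' y)]
  -- representation of elements of the perp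
  have hrep : ∀ y ∈ pp h W, y + f y a • n + f y n • a ∈ W := by
    intro y hy
    apply hmem
    · exact Submodule.add_mem _ (Submodule.add_mem _ hy (Submodule.smul_mem _ _ hn)) (Submodule.smul_mem _ _ ha)
    · rw [h.add_left, h.add_left, f_smul_left h, f_smul_left h, h.self, h.symm a n, hna]
      have := add_self (f y n)
      linear_combination this
    · rw [h.add_left, h.add_left, f_smul_left h, f_smul_left h, h.self, hna]
      have := add_self (f y a)
      linear_combination this
  have hq : ∀ y ∈ pp h W, q y = f y a * f y a + f y a * f y n := by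
    intro y hy
    have e1 : y = (f y a • n + f y n • a) + (y + f y a • n + f y n • a) := by
      have := add_self' (f y a • n + f y n • a)
      calc y = y + ((f y a • n + f y n • a) + (f y a • n + f y n • a)) := by rw [this, add_zero]
        _ = _ := by abel
    have e2 : q (f y a • n + f y n • a) = f y a * f y a + f y a * f y n := by
      rcases two_cases (f y a) with h3 | h3 <;> rcases two_cases (f y n) with h4 | h4 <;>
        rw [h3, h4] <;> simp [h.q_zero, hqn, hqa, h.pol, hna]
    have e3 : f y a • n + f y n • a ∈ pp h W :=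
      Submodule.add_mem _ (Submodule.smul_mem _ _ hn) (Submodule.smul_mem _ _ ha)
    rw [e1, h.pol, hW _ (hrep y hy), (mem_perp h W _).mp e3 _ (hrep y hy), e2, ← e1, add_zero, add_zero]
  -- images of n and a
  have hgn : g n + n ∈ W := by
    have e1 := hq (g n) (h2 hn)
    rw [hg, hqn] at e1
    have e2 : f (g n) a = 1 ∧ f (g n) n = 0 := by
      revert e1
      generalize f (g n) a = A
      generalize f (g n) n = B
      revert A B
      decide
    have e3 := hrep (g n) (h2 hn)
    rw [e2.1, e2.2, one_smul, zero_smul, add_zero] at e3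
    exact e3
  have hga : g a + f (g a) a • n + a ∈ W := by
    have e1 : f (g a) (g n) = 1 := by rw [hgf, h.symm, hna]
    have e2 : f (g a) n = 1 := by
      have e3 := (mem_perp h W _).mp (h2 ha) _ hgn
      rw [h.add_right, e1] at e3
      revert e3
      generalize f (g a) n = B
      revert B
      decide
    have e3 := hrep (g a) (h2 ha)
    rw [e2, one_smul] at e3
    exact e3
  have hgga : g (g a) + a ∈ W := by
    set c := f (g a) a with hc
    have e1 : g a = (g a + c • n + a) + (c • n + a) := by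
      have := add_self' (c • n + a)
      calc g a = g a + ((c • n + a) + (c • n + a)) := by rw [this, add_zero]
        _ = _ := by abel
    have e2 : g (g a) = (g a + c • n + a) + (c • g n + g a) := by
      conv_lhs => rw [e1]
      rw [map_add, hgW _ hga, map_add, map_smul]
    have e3 : g (g a) + a = (g a + c • n + a) + (c • (g n + n)) + (g a + c • n + a) := by
      rw [e2, smul_add]
      have := add_self' (c • n)
      calc (g a + c • n + a) + (c • g n + g a) + a = (g a + c • n + a) + c • g n + (g a + a) := by abel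
        _ = (g a + c • n + a) + c • g n + (g a + a) + (c • n + c • n) := by rw [this, add_zero]
        _ = _ := by abel
    rw [e3]
    exact Submodule.add_mem _ (Submodule.add_mem _ hga (Submodule.smul_mem _ _ hgn)) hga
  have hggn : g (g n) + n ∈ W := by
    have e1 : g (g n) = (g n + n) + g n := by
      have e2 : g n = (g n + n) + n := by
        have := add_self' n
        calc g n = g n + (n + n) := by rw [this, add_zero]
          _ = _ := by abel
      conv_lhs => rw [e2]
      rw [map_add, hgW _ hgn]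
    rw [e1, add_assoc]
    exact Submodule.add_mem _ hgn hgn
  have hgg : ∀ y ∈ pp h W, g (g y) + y ∈ W := by
    intro y hy
    have e1 := hrep y hy
    set w := y + f y a • n + f y n • a with hw
    have e2 : y = w + (f y a • n + f y n • a) := by
      have := add_self' (f y a • n + f y n • a)
      calc y = y + ((f y a • n + f y n • a) + (f y a • n + f y n • a)) := by rw [this, add_zero]
        _ = _ := by rw [hw]; abel
    have e3 : g (g y) + y = f y a • (g (g n) + n) + f y n • (g (g a) + a) := by
      have e4 : g (g y) = w + (f y a • g (g n) + f y n • g (g a)) := by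
        conv_lhs => rw [e2]
        rw [map_add, hgW _ e1, map_add, hgW _ e1]
        simp only [map_add, map_smul]
      have e5 : (w + (f y a • g (g n) + f y n • g (g a))) + (w + (f y a • n + f y n • a)) =
          f y a • (g (g n) + n) + f y n • (g (g a) + a) := by
        rw [smul_add, smul_add]
        have := add_self' w
        calc _ = (w + w) + (f y a • g (g n) + f y a • n + (f y n • g (g a) + f y n • a)) := by abel
          _ = _ := by rw [this, zero_add]
      rw [← e5, ← e4, ← e2]
    rw [e3]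
    exact Submodule.add_mem _ (Submodule.smul_mem _ _ hggn) (Submodule.smul_mem _ _ hgga)
  -- k = g ^ 2
  set k : V ≃ₗ[ZMod 2] V := g ^ 2 with hkdef
  have hk1 : ∀ v, k v = g (g v) := fun v => rfl
  have hkW : ∀ w ∈ W, k w = w := fun w hw => by rw [hk1, hgW w hw, hgW w hw]
  have hk2 : ∀ v, k v + v ∈ pp h W := by
    intro v
    have e1 : k v + v = (g (g v) - g v) + (g v - v) + (v + v) := by rw [hk1]; abel
    rw [e1, add_self', add_zero]
    exact Submodule.add_mem _ (h1 _) (h1 _)
  have hk3 : ∀ v, k (k v) = v + (k (k v + v) + (k v + v)) := by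
    intro v
    rw [map_add]
    have := add_self' v
    have t2 := add_self' (k v)
    calc k (k v) = k (k v) + (v + v) + (k v + k v) := by rw [this, t2, add_zero, add_zero]
      _ = _ := by abel
  have hk4 : ∀ v, k (k (k (k v))) = v := by
    intro v
    have e1 := hgg _ (hk2 v)
    rw [← hk1] at e1
    rw [hk3 v, map_add, map_add, hkW _ e1, hkW _ e1]
    conv_lhs => rw [hk3 v]
    rw [add_assoc, add_self', add_zero]
  have h8 : g ^ 8 = k ^ 4 := by rw [hkdef, ← pow_mul]
  rw [h8]
  ext v
  exact hk4 v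

end Cfsg.Agent.Lib.QuadF2Syl
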