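import Mathlib
import Cfsg.Agent.Lib.QuadF2Syl2

set_option autoImplicit false

/-! Sylow 2-subgroups of the orthogonal group of plus type over the field of two elements, III
(helper42). -/

namespace Cfsg.Agent.Lib.QuadF2Syl

open Module Cfsg.Agent.Lib.QuadF2
open scoped Pointwise

variable {V : Type*} [AddCommGroup V] [Module (ZMod 2) V] [Fintype V] {q : V → ZMod 2}
  {f : V → V → ZMod 2}

/-- the reflection -/
theorem exists_refl (h : IsQ q f) (hnd : ∀ u, (∀ v, f u v = 0) → u = 0) {a : V} (ha : q a = 1) :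
    ∃ g : V ≃ₗ[ZMod 2] V, g ≠ 1 ∧ (∀ v, q (g v) = q v) ∧ ∀ v, f a v = 0 → g v = v := by
  classical
  let T : V →ₗ[ZMod 2] V :=
    { toFun := fun v => v + f v a • a
      map_add' := fun u v => by rw [h.add_left, add_smul]; abel
      map_smul' := fun c v => by rw [f_smul_left h, mul_smul, smul_add]; rfl }
  have hTT : ∀ v, T (T v) = v := by
    intro v
    show (v + f v a • a) + f (v + f v a • a) a • a = v
    rw [h.add_left, f_smul_left h, h.self, mul_zero, add_zero, add_assoc, ← add_smul, add_self,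
      zero_smul, add_zero]
  have hane : a ≠ 0 := by
    rintro rfl
    rw [h.q_zero] at ha
    exact zero_ne_one ha
  refine ⟨LinearEquiv.ofInvolutive T hTT, ?_, ?_, ?_⟩
  · intro hg
    obtain ⟨v, hv⟩ : ∃ v, f a v = 1 := by
      by_contra hcon
      push Not at hcon
      exact hane (hnd a fun v => (two_cases _).resolve_right (hcon v))
    have h1 : T v = v := congrArg (fun e : V ≃ₗ[ZMod 2] V => e v) hg
    have h2 : T v = v + f v a • a := rfl
    rw [h2, h.symm, hv, one_smul] at h1
    exact hane (by simpa using h1)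
  · intro v
    show q (v + f v a • a) = q v
    rcases two_cases (f v a) with h' | h'
    · rw [h', zero_smul, add_zero]
    · rw [h', one_smul, h.pol, ha, h']
      have := add_self (1 : ZMod 2)
      linear_combination this
  · intro v hv
    show v + f v a • a = v
    rw [h.symm, hv, zero_smul, add_zero]

/-- the Siegel transformation -/
theorem exists_siegel (h : IsQ q f) (hnd : ∀ u, (∀ v, f u v = 0) → u = 0) {a b : V} (ha : q a = 0)
    (hb : q b = 0) (hab : f a b = 0) (ha0 : a ≠ 0) (hb0 : b ≠ 0) (hne : a ≠ b) :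
    ∃ g : V ≃ₗ[ZMod 2] V, g ≠ 1 ∧ (∀ v, q (g v) = q v) ∧ ∀ v, f a v = 0 → f b v = 0 → g v = v := by
  classical
  let T : V →ₗ[ZMod 2] V :=
    { toFun := fun v => v + (f v a • b + f v b • a)
      map_add' := fun u v => by rw [h.add_left, h.add_left, add_smul, add_smul]; abel
      map_smul' := fun c v => by
        rw [f_smul_left h, f_smul_left h, mul_smul, mul_smul, smul_add, smul_add]; rfl }
  have hba : f b a = 0 := by rw [h.symm, hab]
  have hT : ∀ v, T v = v + (f v a • b + f v b • a) := fun v => rfl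
  have hTa : ∀ v, f (T v) a = f v a := by
    intro v
    rw [hT, h.add_left, h.add_left, f_smul_left h, f_smul_left h, h.self, hba]; ring
  have hTb : ∀ v, f (T v) b = f v b := by
    intro v
    rw [hT, h.add_left, h.add_left, f_smul_left h, f_smul_left h, h.self, hab]; ring
  have hTT : ∀ v, T (T v) = v := by
    intro v
    rw [hT (T v), hTa, hTb, hT, add_assoc, add_self', add_zero]
  refine ⟨LinearEquiv.ofInvolutive T hTT, ?_, ?_, ?_⟩
  · intro hg
    obtain ⟨v, hv⟩ : ∃ v, f a v = 1 := by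
      by_contra hcon
      push Not at hcon
      exact ha0 (hnd a fun v => (two_cases _).resolve_right (hcon v))
    have h1 : T v = v := congrArg (fun e : V ≃ₗ[ZMod 2] V => e v) hg
    rw [hT, h.symm v a, hv, one_smul] at h1
    have h2 : b + f v b • a = 0 := by simpa using h1
    rcases two_cases (f v b) with h3 | h3
    · rw [h3, zero_smul, add_zero] at h2; exact hb0 h2
    · rw [h3, one_smul] at h2
      apply hne
      have h4 := add_self' a
      have h5 : b = a := by
        calc b = b + (a + a) := by rw [h4, add_zero]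
          _ = (b + a) + a := by abel
          _ = a := by rw [h2, zero_add]
      exact h5.symm
  · intro v
    show q (v + (f v a • b + f v b • a)) = q v
    rw [h.pol, h.add_right, f_smul_right h, f_smul_right h]
    have e1 : q (f v a • b + f v b • a) = 0 := by
      rcases two_cases (f v a) with h3 | h3 <;> rcases two_cases (f v b) with h4 | h4 <;>
        rw [h3, h4] <;> simp [h.q_zero, ha, hb, h.pol, hba]
    rw [e1]
    have := add_self (f v a * f v b)
    linear_combination this
  · intro v hv1 hv2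
    show v + (f v a • b + f v b • a) = v
    rw [h.symm v a, h.symm v b, hv1, hv2, zero_smul, zero_smul, add_zero, add_zero]

/-- A subspace of codimension at least two is centralized by a nontrivial isometry. -/
theorem exists_isometry (h : IsQ q f) (hnd : ∀ u, (∀ v, f u v = 0) → u = 0)
    (T : Submodule (ZMod 2) V) (hT : 2 ≤ finrank (ZMod 2) (pp h T)) :
    ∃ g : V ≃ₗ[ZMod 2] V, g ≠ 1 ∧ (∀ v, q (g v) = q v) ∧ ∀ v ∈ T, g v = v := by
  classical
  by_cases hex : ∃ a ∈ pp h T, q a = 1
  · obtain ⟨a, ha, hqa⟩ := hex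
    obtain ⟨g, h1, h2, h3⟩ := exists_refl h hnd hqa
    exact ⟨g, h1, h2, fun v hv => h3 v ((mem_perp h T a).mp ha v hv)⟩
  · push Not at hex
    have hsing : ∀ u ∈ pp h T, q u = 0 := fun u hu => (two_cases _).resolve_right (hex u hu)
    have hcard : 2 < Nat.card (pp h T) := by
      rw [Module.natCard_eq_pow_finrank (K := ZMod 2), Nat.card_zmod]
      calc 2 < 2 ^ 2 := by norm_num
        _ ≤ _ := Nat.pow_le_pow_right (by norm_num) hT
    obtain ⟨a, b, ha, hb, hab⟩ : ∃ a b : pp h T, a ≠ 0 ∧ b ≠ 0 ∧ a ≠ b := by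
      rw [Nat.card_eq_fintype_card] at hcard
      obtain ⟨x, y, z, h1, h2, h3⟩ := Fintype.two_lt_card_iff.mp hcard
      by_cases hx : x = 0
      · exact ⟨y, z, fun e => h1 (hx.trans e.symm), fun e => h2 (hx.trans e.symm), h3⟩
      · by_cases hy : y = 0
        · exact ⟨x, z, hx, fun e => h3 (hy.trans e.symm), h2⟩
        · exact ⟨x, y, hx, hy, h1⟩
    obtain ⟨g, h1, h2, h3⟩ := exists_siegel h hnd (a := a.1) (b := b.1) (hsing _ a.2) (hsing _ b.2)
      (isotropic_of_singular h _ hsing _ a.2 _ b.2) (fun e => ha (Subtype.ext e)) (fun e => hb (Subtype.ext e))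
      (fun e => hab (Subtype.ext e))
    exact ⟨g, h1, h2, fun v hv => h3 v ((mem_perp h T _).mp a.2 v hv) ((mem_perp h T _).mp b.2 v hv)⟩

/-- Any two Sylow 2-subgroups of the orthogonal group of plus type over `F_2` intersect
nontrivially. -/
theorem sylow_meet {G : Type*} [Group G] [Finite G] (ρ : G →* (V ≃ₗ[ZMod 2] V))
    (hinj : Function.Injective ρ) (hρ1 : ∀ g v, q (ρ g v) = q v)
    (hρ2 : ∀ k : V ≃ₗ[ZMod 2] V, (∀ v, q (k v) = q v) → ∃ g, ρ g = k)
    (h : IsQ q f) (hnd : ∀ u, (∀ v, f u v = 0) → u = 0) {m : ℕ}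
    (hdim : finrank (ZMod 2) V = 2 * m) (hS : IsQ.S q = 2 ^ m) (hm : 1 ≤ m)
    (H : Sylow 2 G) (x : G) :
    (H : Subgroup G) ⊓ MulAut.conj x • (H : Subgroup G) ≠ ⊥ := by
  classical
  have : Fact (Nat.Prime 2) := ⟨Nat.prime_two⟩
  have hP : ∀ g ∈ (H : Subgroup G).map ρ, ∀ v, q (g v) = q v := by
    rintro _ ⟨g, _, rfl⟩ v
    exact hρ1 g v
  obtain ⟨W, hW, hk, hHW⟩ := exists_fixed h hnd hdim hS hP (H.isPGroup'.map ρ) (m - 1) (by omega)
  let PW : Subgroup G :=
    { carrier := {g | ∀ w ∈ W, ρ g w = w}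
      one_mem' := fun w _ => by rw [map_one]; rfl
      mul_mem' := fun {a b} ha hb w hw => by
        rw [map_mul]
        show ρ a (ρ b w) = w
        rw [hb w hw, ha w hw]
      inv_mem' := fun {a} ha w hw => by
        rw [map_inv]
        show (ρ a).symm w = w
        rw [LinearEquiv.symm_apply_eq, ha w hw] }
  have hPWmem : ∀ g, g ∈ PW ↔ ∀ w ∈ W, ρ g w = w := fun g => Iff.rfl
  have hPW2 : IsPGroup 2 PW := by
    intro g
    refine ⟨3, ?_⟩
    apply Subtype.ext
    apply hinj
    show ρ (g.1 ^ (2 ^ 3)) = ρ 1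
    rw [map_pow, map_one]
    exact pow_eight h hnd hdim hS hm W hW hk (ρ g.1) (hρ1 g.1) g.2
  have hnorm : (H : Subgroup G) ≤ Subgroup.normalizer (PW : Set G) := by
    intro g hg
    have key : ∀ g ∈ (H : Subgroup G), ∀ k ∈ PW, g * k * g⁻¹ ∈ PW := by
      intro g hg k hk w hw
      have h1 : ρ g⁻¹ w ∈ W := hHW _ ⟨g⁻¹, (H : Subgroup G).inv_mem hg, rfl⟩ w hw
      rw [map_mul, map_mul]
      show ρ g (ρ k (ρ g⁻¹ w)) = w
      rw [hk _ h1]
      show (ρ g * ρ g⁻¹) w = w
      rw [← map_mul, mul_inv_cancel, map_one]; rfl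
    rw [Subgroup.mem_normalizer_iff]
    intro k
    constructor
    · exact key g hg k
    · intro hk
      have := key g⁻¹ ((H : Subgroup G).inv_mem hg) _ hk
      have e : g⁻¹ * (g * k * g⁻¹) * g⁻¹⁻¹ = k := by group
      rwa [e] at this
  have hle : PW ≤ (H : Subgroup G) := by
    have h1 : IsPGroup 2 ((H : Subgroup G) ⊔ PW : Subgroup G) :=
      IsPGroup.to_sup_of_normal_right' H.isPGroup' hPW2 hnorm
    have h2 := H.is_maximal' h1 le_sup_left
    calc PW ≤ (H : Subgroup G) ⊔ PW := le_sup_right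
      _ = _ := h2
  -- the common stabilizer
  set T : Submodule (ZMod 2) V := W ⊔ W.map (ρ x).toLinearMap with hT
  have hTf : 2 ≤ finrank (ZMod 2) (pp h T) := by
    rw [finrank_perp h hnd, hdim]
    have h1 := Submodule.finrank_sup_add_finrank_inf_eq W (W.map (ρ x).toLinearMap)
    have h2 : finrank (ZMod 2) (W.map (ρ x).toLinearMap) = m - 1 := by
      rw [LinearEquiv.finrank_map_eq, hk]
    rw [h2, hk] at h1
    rw [hT]
    omega
  obtain ⟨g, hg1, hg2, hg3⟩ := exists_isometry h hnd T hTf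
  obtain ⟨k, rfl⟩ := hρ2 g hg2
  intro hbot
  have hk1 : k ∈ (H : Subgroup G) := hle fun w hw => hg3 w (Submodule.mem_sup_left hw)
  have hk2 : k ∈ MulAut.conj x • (H : Subgroup G) := by
    rw [Subgroup.mem_pointwise_smul_iff_inv_smul_mem]
    apply hle
    intro w hw
    have h1 := hg3 (ρ x w) (Submodule.mem_sup_right ⟨w, hw, rfl⟩)
    have e : (MulAut.conj x)⁻¹ • k = x⁻¹ * k * x := by
      rw [← map_inv, MulAut.smul_def, MulAut.conj_apply, inv_inv]
    rw [e, map_mul, map_mul]
    show ρ x⁻¹ (ρ k (ρ x w)) = w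
    rw [h1]
    show (ρ x⁻¹ * ρ x) w = w
    rw [← map_mul, inv_mul_cancel, map_one]; rfl
  have hk3 : k ∈ (H : Subgroup G) ⊓ MulAut.conj x • (H : Subgroup G) := ⟨hk1, hk2⟩
  rw [hbot, Subgroup.mem_bot] at hk3
  apply hg1
  rw [hk3, map_one]

end Cfsg.Agent.Lib.QuadF2Syl
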