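import Cfsg.Agent.Lib.RMck9
import Cfsg.Agent.Lib.PSolvTools

/-!
# The relative McKay count: the induction (helper74)
-/

set_option autoImplicit false
set_option linter.all false

namespace Cfsg.Agent.Lib.RMck

open scoped ComplexConjugate Pointwise
open Cfsg Cfsg.Agent.Lib.CharBasic Cfsg.Agent.Lib.Clifford Cfsg.Agent.Lib.CliffordCorr
open Cfsg.Agent.Lib.CanonExt Cfsg.Agent.Lib.GlaubCorr Cfsg.Agent.Lib.BlockRing

universe u

attribute [local instance 5000] Fintype.ofFinite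

section prep

variable {G : Type u} [Group G] [Finite G] {p : ℕ} [hp : Fact p.Prime]

theorem cnt_sub {L J H : Subgroup G} (hLH : L ≤ H) (hJH : J ≤ H) (ν : G → ℂ) :
    cnt p (J.subgroupOf H) (L.subgroupOf H) (fun h : H => ν h) = cnt p J L ν := by
  unfold cnt
  refine (Nat.card_congr ((subIrr hJH).subtypeEquiv (fun χ => ?_))).symm
  rw [dg_subIrr, ip_subIrr hLH hJH]

theorem normalizer_sub {P H : Subgroup G} (hPH : P ≤ H) :
    Subgroup.normalizer ((P.subgroupOf H : Subgroup H) : Set H) = (H ⊓ Subgroup.normalizer (P : Set G)).subgroupOf H := by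
  ext x
  rw [Subgroup.mem_subgroupOf]
  constructor
  · intro h
    refine Subgroup.mem_inf.mpr ⟨x.2, ?_⟩
    apply mem_normalizer_of
    intro n hn
    exact ((Subgroup.mem_normalizer_iff.mp h) ⟨n, hPH hn⟩).mp hn
  · intro h
    apply mem_normalizer_of
    intro n hn
    exact ((Subgroup.mem_normalizer_iff.mp (Subgroup.mem_inf.mp h).2) n).mp hn

theorem invariant_case_sub {H L K S : Subgroup G} (hLK : L ≤ K) (hKH : K ≤ H) (hSH : S ≤ H)
    (hnL : H ≤ Subgroup.normalizer (L : Set G)) (hnK : H ≤ Subgroup.normalizer (K : Set G))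
    (hKp : ¬ p ∣ L.relIndex K) (hS : IsPGroup p S) (hidx : ¬ p ∣ (L ⊔ S).relIndex H)
    (hnKS : H ≤ Subgroup.normalizer ((K ⊔ S : Subgroup G) : Set G)) {ν : G → ℂ} (hν : IrrOn L ν) (hinv : H ≤ stab L ν) :
    cnt p H L ν = cnt p (H ⊓ Subgroup.normalizer ((L ⊔ S : Subgroup G) : Set G)) L ν := by
  have hLH := hLK.trans hKH
  have h1 : (L.subgroupOf H).Normal := SubgroupTools.normal_subgroupOf_iff_le_normalizer' hnL
  have h2 : (K.subgroupOf H).Normal := SubgroupTools.normal_subgroupOf_iff_le_normalizer' hnK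
  have e1 : L.subgroupOf H ⊔ S.subgroupOf H = (L ⊔ S).subgroupOf H := (Subgroup.subgroupOf_sup hLH hSH).symm
  have e2 : K.subgroupOf H ⊔ S.subgroupOf H = (K ⊔ S).subgroupOf H := (Subgroup.subgroupOf_sup hKH hSH).symm
  have h3 : (K.subgroupOf H ⊔ S.subgroupOf H).Normal := by
    rw [e2]
    exact SubgroupTools.normal_subgroupOf_iff_le_normalizer' hnKS
  have hmain := invariant_case (p := p) (L := L.subgroupOf H) (K := K.subgroupOf H) (S := S.subgroupOf H)
    (Subgroup.comap_mono hLK) (by rw [Subgroup.relIndex_subgroupOf hKH]; exact hKp)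
    (hS.comap_of_injective H.subtype H.subtype_injective) (by rw [e1]; exact hidx) h3
    (ν := fun h : H => ν h) ((irrOn_sub hLH).mpr hν) (by
      intro H' x hx
      exact ⟨mem_norm_of_normal x, fun n hn => (hinv x.2).2 n hn⟩)
  rw [e1, normalizer_sub (sup_le hLH hSH), cnt_sub hLH inf_le_left, ← Subgroup.subgroupOf_self, cnt_sub hLH le_rfl] at hmain
  exact hmain

theorem exists_step_amb (hG : IsPSolvable p G) {H L : Subgroup G} (hLH : L ≤ H)
    (hn : H ≤ Subgroup.normalizer (L : Set G)) (hne : L ≠ H) :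
    ∃ K : Subgroup G, L < K ∧ K ≤ H ∧ H ≤ Subgroup.normalizer (K : Set G) ∧
      ((∃ k, L.relIndex K = p ^ k) ∨ ¬ p ∣ L.relIndex K) := by
  have h1 : (L.subgroupOf H).Normal := SubgroupTools.normal_subgroupOf_iff_le_normalizer' hn
  obtain ⟨M, hM, hLM, h2⟩ := PSolvTools.exists_step (PSolvTools.isPSolvable_subgroup hp.out hG H) (L.subgroupOf H) (by
    intro h
    rw [Subgroup.subgroupOf_eq_top] at h
    exact hne (le_antisymm hLH h))
  have hMH : M.map H.subtype ≤ H := Subgroup.map_subtype_le M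
  have hMe : (M.map H.subtype).subgroupOf H = M := Subgroup.comap_map_eq_self_of_injective H.subtype_injective M
  have hidx : L.relIndex (M.map H.subtype) = (L.subgroupOf H).relIndex M := by
    rw [← Subgroup.relIndex_subgroupOf hMH, hMe]
  refine ⟨M.map H.subtype, ?_, hMH, ?_, ?_⟩
  · rw [lt_iff_le_and_ne]
    constructor
    · intro x hx
      exact ⟨⟨x, hLH hx⟩, hLM.le hx, rfl⟩
    · intro h
      apply hLM.ne
      rw [← hMe, ← h]
  · intro y hy
    apply mem_normalizer_of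
    rintro _ ⟨m, hm, rfl⟩
    exact ⟨⟨y, hy⟩ * m * ⟨y, hy⟩⁻¹, hM.conj_mem m hm _, rfl⟩
  · rw [hidx]
    rcases h2 with ⟨k, hk⟩ | h2
    · left
      obtain ⟨j, -, hj⟩ := (Nat.dvd_prime_pow hp.out).mp hk
      exact ⟨j, hj⟩
    · right
      exact (Nat.Prime.coprime_iff_not_dvd hp.out).mp h2.symm

/-- some `S`-invariant constituent -/
theorem exists_fixed {K S L : Subgroup G} (hSK : S ≤ Subgroup.normalizer (K : Set G)) (hS : IsPGroup p S)
    (hLK : L ≤ K) (hSL : S ≤ Subgroup.normalizer (L : Set G)) {χ ν : G → ℂ} (hχ : ChOn K χ) (hχS : TI S K χ)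
    (hν : IrrOn L ν) (hνS : TI S L ν) (hnd : ¬ p ∣ mu L χ ν) :
    ∃ η : IrrCharacter K, TI S K (lf K η) ∧ ip K χ (lf K η) ≠ 0 ∧ ip L (lf K η) ν ≠ 0 := by
  classical
  obtain ⟨M, hM⟩ := H76Char.exists_isPModular p
  haveI := BlockRing.isPrime hM
  letI := irrAct (conjAct K S (norm_mem hSK))
  by_contra hno
  push Not at hno
  apply hnd
  have hsm : ∀ (t : S) (η : IrrCharacter K), ∀ k ∈ K, lf K ((t • η : IrrCharacter K) : K → ℂ) k =
      lf K η ((t⁻¹ : S) * k * ((t⁻¹ : S) : G)⁻¹) := by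
    intro t η k hk
    rw [lf_mem K _ hk, lf_mem K (η : K → ℂ) (norm_mem hSK _ (t⁻¹).2 k hk)]
    rfl
  let f : IrrCharacter K → ℕ := fun η => mu K χ (lf K η) * mu L (lf K η) ν
  have hCf : ∀ η : IrrCharacter K, ChOn L (lf K η) := fun η => (chOn_lf η).ch.res hLK
  have hf : ∀ (t : S) (η : IrrCharacter K), f (t • η) = f η := by
    intro t η
    have h1 : mu K χ (lf K ((t • η : IrrCharacter K) : K → ℂ)) = mu K χ (lf K η) := by
      rw [← mu_conj (hSK (t⁻¹).2) χ (lf K η)]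
      apply mu_congr
      · intro k hk
        exact (hχS _ (t⁻¹).2 k hk).symm
      · exact hsm t η
    have h3 : mu L (lf K ((t • η : IrrCharacter K) : K → ℂ)) ν = mu L (lf K η) ν := by
      rw [← mu_conj (hSL (t⁻¹).2) (lf K η) ν]
      apply mu_congr
      · intro k hk
        exact hsm t η k (hLK hk)
      · intro k hk
        exact (hνS _ (t⁻¹).2 k hk).symm
    show mu K χ _ * mu L _ ν = _
    rw [h1, h3]
  have h1 := BlockRes.idl_sum_sub_fixed hM hS (fun η : IrrCharacter K => (f η : ℂ)) (fun t η => by rw [hf]) (fun η => loc_natCast _)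
  have hall : ∑ η : IrrCharacter K, (f η : ℂ) = (mu L χ ν : ℂ) := by
    rw [← mu_spec (hχ.res hLK) hν.ch, ip_trans hLK hχ ν]
    apply Finset.sum_congr rfl
    intro η _
    rw [mu_spec hχ (chOn_lf η).ch, mu_spec (hCf η) hν.ch]
    push_cast [f]
    rfl
  have hfix : ∀ η : IrrCharacter K, η ∈ MulAction.fixedPoints S (IrrCharacter K) ↔ TI S K (lf K η) := by
    intro η
    rw [← inv_iff hSK]
    exact fixed_iff (conjAct K S (norm_mem hSK)) η
  have hzero : ∑ η ∈ Finset.univ.filter (· ∈ MulAction.fixedPoints S (IrrCharacter K)), (f η : ℂ) = 0 := by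
    apply Finset.sum_eq_zero
    intro η hη
    rw [Finset.mem_filter] at hη
    have h2 := hno η ((hfix η).mp hη.2)
    by_cases h3 : ip K χ (lf K η) = 0
    · have h4 : mu K χ (lf K η) = 0 := by unfold mu; rw [h3]; simp
      show ((mu K χ (lf K η) * mu L (lf K η) ν : ℕ) : ℂ) = 0
      rw [h4, zero_mul, Nat.cast_zero]
    · have h4 : mu L (lf K η) ν = 0 := by unfold mu; rw [h2 h3]; simp
      show ((mu K χ (lf K η) * mu L (lf K η) ν : ℕ) : ℂ) = 0
      rw [h4, mul_zero, Nat.cast_zero]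
  rw [hall, hzero, sub_zero, idl_natCast_iff hM] at h1
  exact h1

/-- multiplicities of characters of `p'`-degree -/
theorem ndvd_mu {L H : Subgroup G} (hLH : L ≤ H) (hn : H ≤ Subgroup.normalizer (L : Set G)) {χ ν : G → ℂ}
    (hχ : IrrOn H χ) (hν : IrrOn L ν) (ho : ip L χ ν ≠ 0) (hd : ¬ p ∣ dg χ) : ¬ p ∣ mu L χ ν := by
  have hn' : (L.subgroupOf H).Normal := SubgroupTools.normal_subgroupOf_iff_le_normalizer' hn
  have hip : classInner (fun n : L.subgroupOf H => χ ((n : H) : G)) (fun n => ν ((n : H) : G)) = ip L χ ν := ip_sub hLH χ ν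
  have h1 := degree_clifford (N := L.subgroupOf H) (show IsIrrCharacter H (fun h : H => χ h) from hχ)
    ((irrOn_sub hLH).mpr hν) (by rw [hip]; exact ho)
  rw [hip, mu_spec (hχ.ch.res hLH) hν.ch] at h1
  have h2 : ((dg χ : ℕ) : ℂ) = ((mu L χ ν * ((inertia (L.subgroupOf H) (fun n => ν ((n : H) : G))).index * dg ν) : ℕ) : ℂ) := by
    push_cast
    rw [← dg_spec hχ.ch, ← dg_spec hν.ch]
    exact h1
  have h3 : dg χ = mu L χ ν * ((inertia (L.subgroupOf H) (fun n => ν ((n : H) : G))).index * dg ν) := by exact_mod_cast h2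
  intro h4
  apply hd
  rw [h3]
  exact h4.mul_right _

/-- Sylow's theorem modulo `K` -/
theorem sylow_conj_over {K A B I : Subgroup G} (hKA : K ≤ A) (hKB : K ≤ B) (hAI : A ≤ I) (hBI : B ≤ I)
    (hn : I ≤ Subgroup.normalizer (K : Set G)) (hA : ∃ a, K.relIndex A = p ^ a) (hB : ∃ b, K.relIndex B = p ^ b)
    (hAi : ¬ p ∣ A.relIndex I) (hBi : ¬ p ∣ B.relIndex I) : ∃ i ∈ I, ∀ x, x ∈ A ↔ i * x * i⁻¹ ∈ B := by
  have h1 : (K.subgroupOf I).Normal := SubgroupTools.normal_subgroupOf_iff_le_normalizer' hn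
  have key : ∀ C : Subgroup G, K ≤ C → C ≤ I → (∃ a, K.relIndex C = p ^ a) → ¬ p ∣ C.relIndex I →
      ∃ P : Sylow p (I ⧸ K.subgroupOf I), ∀ x : I, (x : I ⧸ K.subgroupOf I) ∈ P ↔ (x : G) ∈ C := by
    intro C hKC hCI hC hCi
    have hk : (QuotientGroup.mk' (K.subgroupOf I)).ker ≤ C.subgroupOf I := by
      rw [QuotientGroup.ker_mk']; exact Subgroup.comap_mono hKC
    obtain ⟨a, ha⟩ := hC
    have c1 : Nat.card ((C.subgroupOf I).map (QuotientGroup.mk' (K.subgroupOf I))) = p ^ a := by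
      rw [← Subgroup.relIndex_ker, QuotientGroup.ker_mk', Subgroup.relIndex_subgroupOf hCI]
      exact ha
    have i1 : ¬ p ∣ ((C.subgroupOf I).map (QuotientGroup.mk' (K.subgroupOf I))).index := by
      rw [Subgroup.index_map_eq _ (QuotientGroup.mk'_surjective _) hk]
      exact hCi
    refine ⟨(IsPGroup.of_card c1).toSylow i1, fun x => ?_⟩
    rw [IsPGroup.mem_toSylow]
    have h2 : (x : I ⧸ K.subgroupOf I) ∈ (C.subgroupOf I).map (QuotientGroup.mk' (K.subgroupOf I)) ↔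
        x ∈ ((C.subgroupOf I).map (QuotientGroup.mk' (K.subgroupOf I))).comap (QuotientGroup.mk' (K.subgroupOf I)) := Iff.rfl
    rw [h2, Subgroup.comap_map_eq_self hk, Subgroup.mem_subgroupOf]
  obtain ⟨P, hP⟩ := key A hKA hAI hA hAi
  obtain ⟨P', hP'⟩ := key B hKB hBI hB hBi
  obtain ⟨g, hg⟩ := MulAction.exists_smul_eq (I ⧸ K.subgroupOf I) P P'
  obtain ⟨i, rfl⟩ := QuotientGroup.mk_surjective g
  have hmem : ∀ x : I, (x : G) ∈ A ↔ ((i * x * i⁻¹ : I) : G) ∈ B := by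
    intro x
    rw [← hP x, ← hP' (i * x * i⁻¹), ← hg]
    have h2 : ((i * x * i⁻¹ : I) : I ⧸ K.subgroupOf I) ∈ ((i : I ⧸ K.subgroupOf I) • P : Sylow p _) ↔
        ((i * x * i⁻¹ : I) : I ⧸ K.subgroupOf I) ∈ MulAut.conj (i : I ⧸ K.subgroupOf I) • (P : Subgroup (I ⧸ K.subgroupOf I)) := Iff.rfl
    rw [h2, SubgroupTools.mem_conj_smul]
    have h3 : (i : I ⧸ K.subgroupOf I)⁻¹ * ((i * x * i⁻¹ : I) : I ⧸ K.subgroupOf I) * (i : I ⧸ K.subgroupOf I) = (x : I ⧸ K.subgroupOf I) := by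
      rw [← QuotientGroup.mk_inv, ← QuotientGroup.mk_mul, ← QuotientGroup.mk_mul]
      congr 1
      group
    rw [h3]
    rfl
  refine ⟨i, i.2, fun x => ?_⟩
  constructor
  · intro hx
    exact (hmem ⟨x, hAI hx⟩).mp hx
  · intro hx
    have hxI : x ∈ I := by
      have h2 := I.mul_mem (I.mul_mem (I.inv_mem i.2) (hBI hx)) i.2
      have h3 : (i : G)⁻¹ * (i * x * (i : G)⁻¹) * i = x := by group
      rwa [h3] at h2
    exact (hmem ⟨x, hxI⟩).mpr hx

theorem cnt_clifford {H L T : Subgroup G} (hLH : L ≤ H) (hn : H ≤ Subgroup.normalizer (L : Set G)) {ν : G → ℂ}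
    (hν : IrrOn L ν) (hT : T = H ⊓ stab L ν) (hidx : ¬ p ∣ T.relIndex H) : cnt p H L ν = cnt p T L ν := by
  obtain ⟨F, hF⟩ := clifford_equiv hLH hn hν hT
  have hiff : ∀ ψ, p ∣ dg (lf H (F ψ).1) ↔ p ∣ dg (lf T ψ.1) := by
    intro ψ
    rw [hF, hp.out.dvd_mul]
    exact ⟨fun h => h.resolve_left hidx, Or.inr⟩
  unfold cnt
  symm
  refine Nat.card_congr
    { toFun := fun ψ => ⟨(F ⟨ψ.1, ψ.2.2⟩).1, by rw [hiff]; exact ψ.2.1, (F ⟨ψ.1, ψ.2.2⟩).2⟩
      invFun := fun χ => ⟨(F.symm ⟨χ.1, χ.2.2⟩).1, by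
        rw [← hiff, Equiv.apply_symm_apply]; exact χ.2.1, (F.symm ⟨χ.1, χ.2.2⟩).2⟩
      left_inv := fun ψ => by
        apply Subtype.ext
        show (F.symm ⟨(F ⟨ψ.1, ψ.2.2⟩).1, _⟩).1 = ψ.1
        have : F.symm ⟨(F ⟨ψ.1, ψ.2.2⟩).1, (F ⟨ψ.1, ψ.2.2⟩).2⟩ = ⟨ψ.1, ψ.2.2⟩ := F.symm_apply_apply _
        rw [this]
      right_inv := fun χ => by
        apply Subtype.ext
        show (F ⟨(F.symm ⟨χ.1, χ.2.2⟩).1, _⟩).1 = χ.1
        have : F ⟨(F.symm ⟨χ.1, χ.2.2⟩).1, (F.symm ⟨χ.1, χ.2.2⟩).2⟩ = ⟨χ.1, χ.2.2⟩ := F.apply_symm_apply _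
        rw [this] }

end prep

section main

variable {G : Type u} [Group G] [Finite G] {p : ℕ} [hp : Fact p.Prime]

/-- the weighted count -/
theorem step_count {H L K S : Subgroup G} (hLK : L ≤ K) (hKH : K ≤ H) (hSH : S ≤ H)
    (hnL : H ≤ Subgroup.normalizer (L : Set G)) (hnK : H ≤ Subgroup.normalizer (K : Set G)) (hS : IsPGroup p S)
    (hidx : ¬ p ∣ (K ⊔ S).relIndex H) {ν : G → ℂ} (hν : IrrOn L ν) (hνS : S ≤ stab L ν)
    (hind : ∀ η : G → ℂ, IrrOn K η → S ≤ stab K η →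
      cnt p H K η = cnt p (H ⊓ Subgroup.normalizer ((K ⊔ S : Subgroup G) : Set G)) K η) :
    cnt p H L ν = cnt p (H ⊓ Subgroup.normalizer ((K ⊔ S : Subgroup G) : Set G)) L ν := by
  classical
  obtain ⟨N₁, hN₁⟩ : ∃ N₁ : Subgroup G, N₁ = H ⊓ Subgroup.normalizer ((K ⊔ S : Subgroup G) : Set G) := ⟨_, rfl⟩
  have hKSH : K ⊔ S ≤ H := sup_le hKH hSH
  have hN₁H : N₁ ≤ H := by rw [hN₁]; exact inf_le_left
  have hKSN₁ : K ⊔ S ≤ N₁ := by rw [hN₁]; exact le_inf hKSH Subgroup.le_normalizer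
  have hKN₁ : K ≤ N₁ := le_sup_left.trans hKSN₁
  have hSN₁ : S ≤ N₁ := le_sup_right.trans hKSN₁
  have hSK : S ≤ Subgroup.normalizer (K : Set G) := hSH.trans hnK
  have hTI : ∀ η : G → ℂ, TI S K η ↔ S ≤ stab K η := fun η =>
    ⟨fun h t ht => ⟨hSK ht, fun n hn => h t ht n hn⟩, fun h t ht k hk => (h ht).2 k hk⟩
  rw [← hN₁]
  let s : Setoid {η : IrrCharacter K // TI S K (lf K η) ∧ ip L (lf K η) ν ≠ 0} :=
    { r := fun a b => ∃ n ∈ N₁, ∀ x ∈ K, lf K b.1 x = lf K a.1 (n * x * n⁻¹)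
      iseqv :=
        { refl := fun a => ⟨1, Subgroup.one_mem _, fun x _ => by simp⟩
          symm := by
            rintro a b ⟨n, hn, h⟩
            refine ⟨n⁻¹, Subgroup.inv_mem _ hn, fun x hx => ?_⟩
            have h1 : n⁻¹ * x * n⁻¹⁻¹ ∈ K := norm_mem hnK _ (hN₁H (Subgroup.inv_mem _ hn)) x hx
            rw [h _ h1]
            congr 1
            group
          trans := by
            rintro a b c ⟨n, hn, h⟩ ⟨m, hm, h'⟩
            refine ⟨n * m, Subgroup.mul_mem _ hn hm, fun x hx => ?_⟩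
            rw [h' x hx, h _ (norm_mem hnK _ (hN₁H hm) x hx)]
            congr 1
            group } }
  have hfixed : ∀ J : Subgroup G, K ≤ J → S ≤ J → J ≤ H → ∀ χ : G → ℂ, IrrOn J χ → ¬ p ∣ dg χ → ip L χ ν ≠ 0 →
      ∃ η : IrrCharacter K, TI S K (lf K η) ∧ ip K χ (lf K η) ≠ 0 ∧ ip L (lf K η) ν ≠ 0 := by
    intro J hKJ hSJ hJH χ hχ hd ho
    exact exists_fixed hSK hS hLK (hSH.trans hnL) (hχ.ch.res hKJ) (fun t ht k hk => hχ.ch.cls (hKJ hk) (hSJ ht)) hν
      (fun t ht k hk => (hνS ht).2 k hk) (ndvd_mu (hLK.trans hKJ) (hJH.trans hnL) hχ hν ho hd)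
  have hcard : ∀ J : Subgroup G, K ≤ J → ∀ η : IrrCharacter K, ip L (lf K η) ν ≠ 0 →
      Nat.card {x : {χ : IrrCharacter J // ¬ p ∣ dg (lf J χ) ∧ ip L (lf J χ) ν ≠ 0} // ip K (lf J x.1) (lf K η) ≠ 0} =
        cnt p J K (lf K η) := by
    intro J hKJ η hη
    unfold cnt
    exact Nat.card_congr
      { toFun := fun x => ⟨x.1.1, x.1.2.1, x.2⟩
        invFun := fun x => ⟨⟨x.1, x.2.1, over_trans_amb hLK hKJ (chOn_lf x.1).ch (chOn_lf η) hν x.2.2 hη⟩, x.2.2⟩
        left_inv := fun x => rfl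
        right_inv := fun x => rfl }
  refine wc s (fun χ η => ip K (lf H χ.1) (lf K η.1) ≠ 0) (fun ψ η => ip K (lf N₁ ψ.1) (lf K η.1) ≠ 0) ?_ ?_ ?_
  · rintro ⟨χ, hχ1, hχ2⟩
    obtain ⟨η, hη1, hη2, hη3⟩ := hfixed H hKH hSH le_rfl _ (chOn_lf χ) hχ1 hχ2
    refine ⟨⟨η, hη1, hη3⟩, fun η₂ => ?_⟩
    constructor
    · intro h2
      obtain ⟨h, hh, h3⟩ := exists_conj_amb hKH hnK (chOn_lf χ) (chOn_lf η) (chOn_lf η₂.1) hη2 h2
      -- two Sylow subgroups modulo `K` of the stabiliser of `η₂`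
      have hst1 : S ≤ stab K (lf K η) := (hTI _).mp hη1
      have hst2 : S ≤ stab K (lf K η₂.1) := (hTI _).mp η₂.2.1
      have hKst : K ≤ stab K (lf K η₂.1) := le_stab (chOn_lf η₂.1).ch
      -- the conjugate of `K ⊔ S`
      have hhn : h⁻¹ ∈ Subgroup.normalizer (K : Set G) := hnK (H.inv_mem hh)
      let B : Subgroup G := (K ⊔ S).comap (MulAut.conj h).toMonoidHom
      have hB : ∀ x, x ∈ B ↔ h * x * h⁻¹ ∈ K ⊔ S := fun x => Iff.rfl
      have hKB : K ≤ B := by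
        intro x hx
        rw [hB]
        exact Subgroup.mem_sup_left (norm_mem hnK h hh x hx)
      have hstc : ∀ y ∈ H, h * y * h⁻¹ ∈ stab K (lf K η) → y ∈ stab K (lf K η₂.1) := by
        intro y hy h4
        refine ⟨hnK hy, fun n hn => ?_⟩
        rw [h3 _ (norm_mem hnK y hy n hn), h3 n hn]
        have h5 : h * (y * n * y⁻¹) * h⁻¹ = (h * y * h⁻¹) * (h * n * h⁻¹) * (h * y * h⁻¹)⁻¹ := by group
        rw [h5]
        exact h4.2 _ (norm_mem hnK h hh n hn)
      have hBH : B ≤ H := by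
        intro x hx
        rw [hB] at hx
        have h4 := H.mul_mem (H.mul_mem (H.inv_mem hh) (hKSH hx)) hh
        have h5 : h⁻¹ * (h * x * h⁻¹) * h = x := by group
        rwa [h5] at h4
      have hBI : B ≤ H ⊓ stab K (lf K η₂.1) := by
        intro x hx
        refine Subgroup.mem_inf.mpr ⟨hBH hx, hstc x (hBH hx) ?_⟩
        rw [hB] at hx
        exact (sup_le (le_stab (chOn_lf η).ch) hst1) hx
      have hAI : K ⊔ S ≤ H ⊓ stab K (lf K η₂.1) := le_inf hKSH (sup_le hKst hst2)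
      have hcB : Nat.card B = Nat.card (K ⊔ S : Subgroup G) := by
        have h4 : B = (K ⊔ S).comap (MulAut.conj h).toMonoidHom := rfl
        have h5 : B.map (MulAut.conj h).toMonoidHom = K ⊔ S := by
          rw [h4]
          exact Subgroup.map_comap_eq_self_of_surjective (MulAut.conj h).surjective _
        rw [← h5, Subgroup.card_map_of_injective (MulAut.conj h).injective]
      have hrel : ∀ {X Y Z : Subgroup G}, X ≤ Z → Y ≤ Z → Nat.card X = Nat.card Y → X.relIndex Z = Y.relIndex Z := by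
        intro X Y Z hXZ hYZ hc
        have h4 := SubgroupTools.card_mul_relIndex_of_le hXZ
        have h5 := SubgroupTools.card_mul_relIndex_of_le hYZ
        rw [← h5, hc] at h4
        exact Nat.eq_of_mul_eq_mul_left Nat.card_pos h4
      have hrel2 : K.relIndex B = K.relIndex (K ⊔ S) := by
        have h4 := SubgroupTools.card_mul_relIndex_of_le hKB
        have h5 := SubgroupTools.card_mul_relIndex_of_le (le_sup_left : K ≤ K ⊔ S)
        rw [hcB, ← h5] at h4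
        exact Nat.eq_of_mul_eq_mul_left Nat.card_pos h4
      have hidxI : ¬ p ∣ (K ⊔ S).relIndex (H ⊓ stab K (lf K η₂.1)) := by
        intro h4
        apply hidx
        rw [← Subgroup.relIndex_mul_relIndex (K ⊔ S) _ H hAI inf_le_left]
        exact h4.mul_right _
      obtain ⟨i, hi, hiAB⟩ := sylow_conj_over (p := p) (A := K ⊔ S) (B := B) (I := H ⊓ stab K (lf K η₂.1))
        le_sup_left hKB hAI hBI (inf_le_left.trans hnK) (relIndex_sup_pow hS hSK)
        (by rw [hrel2]; exact relIndex_sup_pow hS hSK) hidxI (by rw [hrel hBI hAI hcB]; exact hidxI)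
      obtain ⟨hiH, hist⟩ := Subgroup.mem_inf.mp hi
      refine ⟨h * i, ?_, fun x hx => ?_⟩
      · rw [hN₁]
        refine Subgroup.mem_inf.mpr ⟨H.mul_mem hh hiH, mem_normalizer_of fun x hx => ?_⟩
        have h4 := (hiAB x).mp hx
        rw [hB] at h4
        have h5 : h * i * x * (h * i)⁻¹ = h * (i * x * i⁻¹) * h⁻¹ := by group
        rw [h5]
        exact h4
      · have h5 : h * i * x * (h * i)⁻¹ = h * (i * x * i⁻¹) * h⁻¹ := by group
        rw [h5, ← h3 _ (norm_mem hnK i hiH x hx)]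
        exact (hist.2 x hx).symm
    · rintro ⟨n, hn, h⟩
      show ip K (lf H χ) (lf K η₂.1) ≠ 0
      rw [ip_congr (fun _ _ => rfl) h, ip_conj_left hKH (chOn_lf χ).ch _ (hN₁H hn) (hnK (hN₁H hn))]
      exact hη2
  · rintro ⟨ψ, hψ1, hψ2⟩
    obtain ⟨η, hη1, hη2, hη3⟩ := hfixed N₁ hKN₁ hSN₁ hN₁H _ (chOn_lf ψ) hψ1 hψ2
    refine ⟨⟨η, hη1, hη3⟩, fun η₂ => ?_⟩
    constructor
    · intro h2
      obtain ⟨n, hn, h3⟩ := exists_conj_amb hKN₁ (hN₁H.trans hnK) (chOn_lf ψ) (chOn_lf η) (chOn_lf η₂.1) hη2 h2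
      exact ⟨n, hn, h3⟩
    · rintro ⟨n, hn, h⟩
      show ip K (lf N₁ ψ) (lf K η₂.1) ≠ 0
      rw [ip_congr (fun _ _ => rfl) h, ip_conj_left hKN₁ (chOn_lf ψ).ch _ hn (hnK (hN₁H hn))]
      exact hη2
  · rintro ⟨η, hη1, hη3⟩
    rw [hcard H hKH η hη3, hcard N₁ hKN₁ η hη3, hN₁]
    exact hind _ (chOn_lf η) ((hTI _).mp hη1)

/-- **The relative McKay count for `p`-soluble groups.** -/
theorem relmckay (hG : IsPSolvable p G) (n : ℕ) : ∀ (H L S : Subgroup G) (ν : G → ℂ), L.relIndex H = n → L ≤ H →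
    H ≤ Subgroup.normalizer (L : Set G) → S ≤ H → IsPGroup p S → ¬ p ∣ (L ⊔ S).relIndex H → IrrOn L ν →
    S ≤ stab L ν → cnt p H L ν = cnt p (H ⊓ Subgroup.normalizer ((L ⊔ S : Subgroup G) : Set G)) L ν := by
  induction n using Nat.strong_induction_on with
  | _ n ih =>
  intro H L S ν hn hLH hnL hSH hS hidx hν hνS
  have hPH : L ⊔ S ≤ H := sup_le hLH hSH
  by_cases htriv : H ≤ Subgroup.normalizer ((L ⊔ S : Subgroup G) : Set G)
  · rw [inf_eq_left.mpr htriv]
  have hne : L ≠ H := by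
    rintro rfl
    apply htriv
    exact le_sup_left.trans Subgroup.le_normalizer
  obtain ⟨K, hLK, hKH, hnK, hstep⟩ := exists_step_amb hG hLH hnL hne
  have hidxK : ¬ p ∣ (K ⊔ S).relIndex H := by
    intro h
    apply hidx
    rw [← Subgroup.relIndex_mul_relIndex (L ⊔ S) (K ⊔ S) H (sup_le_sup_right hLK.le S) (sup_le hKH hSH)]
    exact h.mul_left _
  have hpos : ∀ A B : Subgroup G, 0 < A.relIndex B := fun A B => Nat.pos_of_ne_zero (Subgroup.index_ne_zero_of_finite (H := A.subgroupOf B))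
  have hLKlt : 1 < L.relIndex K := by
    refine lt_of_le_of_ne (hpos _ _) (fun h => ?_)
    exact hLK.not_ge (Subgroup.relIndex_eq_one.mp h.symm)
  have hlt1 : K.relIndex H < n := by
    rw [← hn, ← Subgroup.relIndex_mul_relIndex L K H hLK.le hKH]
    exact lt_mul_of_one_lt_left (hpos _ _) hLKlt
  -- passage to `N₁`
  have h1 : cnt p H L ν = cnt p (H ⊓ Subgroup.normalizer ((K ⊔ S : Subgroup G) : Set G)) L ν :=
    step_count hLK.le hKH hSH hnL hnK hS hidxK hν hνS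
      (fun η hη hηS => ih _ hlt1 H K S η rfl hKH hnK hSH hS hidxK hη hηS)
  have hKLS : K ⊔ S = K ⊔ (L ⊔ S) := by rw [← sup_assoc, sup_eq_left.mpr hLK.le]
  have hsub : ∀ J : Subgroup G, J ≤ H → L.relIndex J ∣ L.relIndex H → L ≤ J → J ≠ H → L.relIndex J < n := by
    intro J hJH hd hLJ hJne
    rw [← hn]
    refine lt_of_le_of_ne (Nat.le_of_dvd (hpos _ _) hd) (fun h => hJne ?_)
    have h2 := Subgroup.relIndex_mul_relIndex L J H hLJ hJH
    rw [h] at h2
    have h3 : J.relIndex H = 1 := Nat.eq_of_mul_eq_mul_left (hpos L H) (by rw [h2, mul_one])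
    exact le_antisymm hJH (Subgroup.relIndex_eq_one.mp h3)
  by_cases hN₁ : H ≤ Subgroup.normalizer ((K ⊔ S : Subgroup G) : Set G)
  swap
  · -- `N₁ < H`
    have hN₁H : H ⊓ Subgroup.normalizer ((K ⊔ S : Subgroup G) : Set G) ≤ H := inf_le_left
    have hKSN : K ⊔ S ≤ H ⊓ Subgroup.normalizer ((K ⊔ S : Subgroup G) : Set G) :=
      le_inf (sup_le hKH hSH) Subgroup.le_normalizer
    have hLN₁ : L ≤ H ⊓ Subgroup.normalizer ((K ⊔ S : Subgroup G) : Set G) := hLK.le.trans (le_sup_left.trans hKSN)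
    have hSN₁ : S ≤ H ⊓ Subgroup.normalizer ((K ⊔ S : Subgroup G) : Set G) := le_sup_right.trans hKSN
    have h2 := ih _ (hsub _ hN₁H (Dvd.intro _ (Subgroup.relIndex_mul_relIndex L _ H hLN₁ hN₁H)) hLN₁
      (fun h => hN₁ (by rw [← h]; exact inf_le_right)))
      (H ⊓ Subgroup.normalizer ((K ⊔ S : Subgroup G) : Set G)) L S ν rfl hLN₁ (hN₁H.trans hnL) hSN₁ hS (by
        intro h
        apply hidx
        rw [← Subgroup.relIndex_mul_relIndex (L ⊔ S) _ H (sup_le hLN₁ hSN₁) hN₁H]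
        exact h.mul_right _) hν hνS
    rw [h1, h2]
    congr 1
    apply le_antisymm
    · exact inf_le_inf_right _ hN₁H
    · intro y hy
      obtain ⟨hy1, hy2⟩ := Subgroup.mem_inf.mp hy
      refine Subgroup.mem_inf.mpr ⟨Subgroup.mem_inf.mpr ⟨hy1, ?_⟩, hy2⟩
      rw [hKLS]
      exact mem_norm_sup (hnK hy1) hy2
  -- `K ⊔ S` is normal in `H`
  rcases hstep with ⟨k, hk⟩ | hp'
  · -- `K / L` a `p`-group
    exfalso
    apply htriv
    obtain ⟨m, hm⟩ := relIndex_sup_pow (L := K) hS (hSH.trans hnK)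
    have h2 : (L ⊔ S).relIndex (K ⊔ S) ∣ p ^ (k + m) := by
      rw [pow_add, ← hk, ← hm, Subgroup.relIndex_mul_relIndex L K (K ⊔ S) hLK.le le_sup_left]
      exact Subgroup.relIndex_dvd_of_le_left _ le_sup_left
    have h3 : (L ⊔ S).relIndex (K ⊔ S) ∣ (L ⊔ S).relIndex H :=
      Dvd.intro _ (Subgroup.relIndex_mul_relIndex (L ⊔ S) (K ⊔ S) H (sup_le_sup_right hLK.le S) (sup_le hKH hSH))
    obtain ⟨j, -, hj⟩ := (Nat.dvd_prime_pow hp.out).mp h2
    have hj0 : j = 0 := by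
      by_contra hj0
      apply hidx
      rw [hj] at h3
      exact (dvd_pow_self p hj0).trans h3
    rw [hj0, pow_zero] at hj
    have h4 : K ⊔ S = L ⊔ S := le_antisymm (Subgroup.relIndex_eq_one.mp hj) (sup_le_sup_right hLK.le S)
    rw [← h4]
    exact hN₁
  -- `K / L` a `p'`-group
  by_cases hT : H ≤ stab L ν
  · exact invariant_case_sub hLK.le hKH hSH hnL hnK hp' hS hidx hN₁ hν hT
  · have hTH : H ⊓ stab L ν ≤ H := inf_le_left
    have hLT : L ≤ H ⊓ stab L ν := le_inf hLH (le_stab hν.ch)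
    have hST : S ≤ H ⊓ stab L ν := le_inf hSH hνS
    have hPT : L ⊔ S ≤ H ⊓ stab L ν := sup_le hLT hST
    have hidxT : ¬ p ∣ (H ⊓ stab L ν).relIndex H := by
      intro h
      apply hidx
      rw [← Subgroup.relIndex_mul_relIndex (L ⊔ S) _ H hPT hTH]
      exact h.mul_left _
    have hidxT' : ¬ p ∣ (L ⊔ S).relIndex (H ⊓ stab L ν) := by
      intro h
      apply hidx
      rw [← Subgroup.relIndex_mul_relIndex (L ⊔ S) _ H hPT hTH]
      exact h.mul_right _
    have h2 := ih _ (hsub _ hTH (Dvd.intro _ (Subgroup.relIndex_mul_relIndex L _ H hLT hTH)) hLT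
      (fun h => hT (by rw [← h]; exact inf_le_right)))
      (H ⊓ stab L ν) L S ν rfl hLT (hTH.trans hnL) hST hS hidxT' hν hνS
    have hNH : H ⊓ Subgroup.normalizer ((L ⊔ S : Subgroup G) : Set G) ≤ H := inf_le_left
    have hPN : L ⊔ S ≤ H ⊓ Subgroup.normalizer ((L ⊔ S : Subgroup G) : Set G) := le_inf hPH Subgroup.le_normalizer
    have e1 := cnt_clifford (p := p) hLH hnL hν rfl hidxT
    have e2 := cnt_clifford (p := p) (H := H ⊓ Subgroup.normalizer ((L ⊔ S : Subgroup G) : Set G)) (L := L)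
      (T := (H ⊓ stab L ν) ⊓ Subgroup.normalizer ((L ⊔ S : Subgroup G) : Set G)) (le_sup_left.trans hPN) (hNH.trans hnL) hν
      (by rw [inf_right_comm]) (by
        intro h
        apply hidx
        have h5 : L ⊔ S ≤ (H ⊓ stab L ν) ⊓ Subgroup.normalizer ((L ⊔ S : Subgroup G) : Set G) :=
          le_inf hPT Subgroup.le_normalizer
        rw [← Subgroup.relIndex_mul_relIndex (L ⊔ S) _ H hPN hNH,
          ← Subgroup.relIndex_mul_relIndex (L ⊔ S) _ _ h5 (inf_le_inf_right _ hTH)]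
        exact (h.mul_left _).mul_right _)
    rw [e1, e2, h2]

end main

end Cfsg.Agent.Lib.RMck
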