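import Cfsg.Agent.Lib.RMck2
import Cfsg.Agent.Lib.GlaubCorrConj
import Cfsg.Agent.Lib.H76Char

/-!
# Glauberman correspondence for subgroups and extensions: the core lemma (helper74)
-/

set_option autoImplicit false
set_option linter.all false

namespace Cfsg.Agent.Lib.RMck

open scoped ComplexConjugate
open Cfsg Cfsg.Agent.Lib.CharBasic Cfsg.Agent.Lib.Clifford Cfsg.Agent.Lib.CliffordCorr
open Cfsg.Agent.Lib.CanonExt Cfsg.Agent.Lib.GlaubCorr Cfsg.Agent.Lib.BlockRing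

universe u

attribute [local instance 5000] Fintype.ofFinite

section mult

variable {G : Type u} [Group G] [Finite G]

/-- multiplicity -/
noncomputable def mu (H : Subgroup G) (f g : G → ℂ) : ℕ := ⌊(ip H f g).re⌋₊

theorem mu_spec {H : Subgroup G} {f g : G → ℂ} (hf : ChOn H f) (hg : ChOn H g) : ip H f g = (mu H f g : ℂ) := by
  obtain ⟨n, hn⟩ := IsCharacter.classInner_nat (show IsCharacter H (fun h : H => f h) from hf)
    (show IsCharacter H (fun h : H => g h) from hg)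
  have : ip H f g = (n : ℂ) := hn
  unfold mu
  rw [this]
  simp

theorem mu_congr {H : Subgroup G} {f f' g g' : G → ℂ} (h1 : ∀ x ∈ H, f x = f' x) (h2 : ∀ x ∈ H, g x = g' x) :
    mu H f g = mu H f' g' := by
  unfold mu
  rw [ip_congr h1 h2]

theorem mu_symm {H : Subgroup G} {f g : G → ℂ} (hf : ChOn H f) (hg : ChOn H g) : mu H f g = mu H g f := by
  have h1 := mu_spec hf hg
  have h2 := mu_spec hg hf
  have h3 : ip H g f = conj (ip H f g) := (conj_classInner _ _).symm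
  rw [h1, Complex.conj_natCast, h2] at h3
  exact_mod_cast h3.symm

theorem mu_self {H : Subgroup G} {f : G → ℂ} (hf : IrrOn H f) : mu H f f = 1 := by
  have h1 := mu_spec hf.ch hf.ch
  have h2 : ip H f f = 1 := IsIrrCharacter.classInner_self hf
  rw [h2] at h1
  exact_mod_cast h1.symm

theorem ip_trans {C K : Subgroup G} (hCK : C ≤ K) {χ : G → ℂ} (hχ : ChOn K χ) (g : G → ℂ) :
    ip C χ g = ∑ η : IrrCharacter K, ip K χ (lf K η) * ip C (lf K η) g := by
  have hχ' : IsCharacter K (fun k : K => χ k) := hχ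
  have h1 : (fun c : C => χ c) = ∑ η : IrrCharacter K, ip K χ (lf K η) • fun c : C => lf K η c := by
    funext c
    have h2 := hχ'.isClassFunction.expansion_apply ⟨c, hCK c.2⟩
    rw [Finset.sum_apply]
    show χ c = _
    rw [show χ c = χ ((⟨c, hCK c.2⟩ : K) : G) from rfl, h2]
    apply Finset.sum_congr rfl
    intro η _
    rw [Pi.smul_apply, smul_eq_mul, lf_mem K (η : K → ℂ) (hCK c.2)]
    congr 1
    unfold ip
    rw [lf_fun]
  unfold ip at *
  rw [h1, classInner_sum_left]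
  apply Finset.sum_congr rfl
  intro η _
  rw [classInner_smul_left]

theorem chOn_lf {K : Subgroup G} (η : IrrCharacter K) : IrrOn K (lf K η) := irrOn_lf.mpr η.2

/-- invariance under `T` -/
def TI (T K : Subgroup G) (f : G → ℂ) : Prop := ∀ t ∈ T, ∀ k ∈ K, f (t * k * t⁻¹) = f k

theorem norm_mem {K T : Subgroup G} (hKT : T ≤ Subgroup.normalizer (K : Set G)) :
    ∀ s ∈ T, ∀ g ∈ K, s * g * s⁻¹ ∈ K := fun s hs g hg =>
  ((Subgroup.mem_normalizer_iff.mp (hKT hs)) g).mp hg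

theorem inv_iff {K T : Subgroup G} (hKT : T ≤ Subgroup.normalizer (K : Set G)) (η : K → ℂ) :
    Inv (conjAct K T (norm_mem hKT)) η ↔ TI T K (lf K η) := by
  constructor
  · intro h t ht k hk
    rw [lf_mem K η hk, lf_mem K η (norm_mem hKT t ht k hk)]
    exact h ⟨t, ht⟩ ⟨k, hk⟩
  · intro h t k
    have := h t t.2 k k.2
    rw [lf_coe, lf_mem K η (norm_mem hKT t t.2 k k.2)] at this
    exact this

theorem inv_iff' {K T : Subgroup G} (hKT : T ≤ Subgroup.normalizer (K : Set G)) (f : G → ℂ) :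
    Inv (conjAct K T (norm_mem hKT)) (fun k : K => f k) ↔ TI T K f := by
  constructor
  · intro h t ht k hk
    exact h ⟨t, ht⟩ ⟨k, hk⟩
  · intro h t k
    exact h t t.2 k k.2

/-- The congruence -/
theorem cong {p : ℕ} [hp : Fact p.Prime] {K T C : Subgroup G} (hKT : T ≤ Subgroup.normalizer (K : Set G))
    (hT : IsPGroup p T) (hCK : C ≤ K) (hCT : C ≤ Subgroup.centralizer (T : Set G)) {χ ψ : G → ℂ}
    (hχ : ChOn K χ) (hχT : TI T K χ) (hψ : ChOn C ψ) {θ : G → ℂ} (hθ : IrrOn K θ) (hθT : TI T K θ)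
    (h : ∀ η : G → ℂ, IrrOn K η → TI T K η → ¬ (∀ k ∈ K, η k = θ k) → p ∣ mu K χ η * mu C η ψ) :
    mu C χ ψ ≡ mu K χ θ * mu C θ ψ [MOD p] := by
  classical
  obtain ⟨M, hM⟩ := H76Char.exists_isPModular p
  haveI := BlockRing.isPrime hM
  letI := irrAct (conjAct K T (norm_mem hKT))
  have hinvK : ∀ t ∈ T, ∀ f g : G → ℂ, ip K (fun x => f (t * x * t⁻¹)) (fun x => g (t * x * t⁻¹)) = ip K f g := by
    intro t ht f g
    exact classInner_comp_equiv (conjAct K T (norm_mem hKT) ⟨t, ht⟩) (fun k : K => f k) (fun k : K => g k)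
  have hinvC : ∀ t ∈ T, ∀ f : G → ℂ, ip C (fun x => f (t * x * t⁻¹)) ψ = ip C f ψ := by
    intro t ht f
    apply ip_congr _ (fun _ _ => rfl)
    intro c hc
    have h1 := (Subgroup.mem_centralizer_iff.mp (hCT hc)) t ht
    rw [h1, mul_inv_cancel_right]
  have hsm : ∀ (t : T) (η : IrrCharacter K), ∀ k ∈ K, lf K ((t • η : IrrCharacter K) : K → ℂ) k =
      lf K η ((t⁻¹ : T) * k * ((t⁻¹ : T) : G)⁻¹) := by
    intro t η k hk
    rw [lf_mem K _ hk, lf_mem K (η : K → ℂ) (norm_mem hKT _ (t⁻¹).2 k hk)]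
    rfl
  let f : IrrCharacter K → ℕ := fun η => mu K χ (lf K η) * mu C (lf K η) ψ
  have hCf : ∀ η : IrrCharacter K, ChOn C (lf K η) := fun η => (chOn_lf η).ch.res hCK
  have hf : ∀ (t : T) (η : IrrCharacter K), f (t • η) = f η := by
    intro t η
    have h1 : mu K χ (lf K ((t • η : IrrCharacter K) : K → ℂ)) = mu K χ (lf K η) := by
      have h2 : (mu K χ (lf K ((t • η : IrrCharacter K) : K → ℂ)) : ℂ) = (mu K χ (lf K η) : ℂ) := by
        rw [← mu_spec hχ (chOn_lf _).ch, ← mu_spec hχ (chOn_lf _).ch]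
        rw [← hinvK _ (t⁻¹).2 χ (lf K η)]
        apply ip_congr
        · intro k hk
          exact (hχT _ (t⁻¹).2 k hk).symm
        · exact hsm t η
      exact_mod_cast h2
    have h3 : mu C (lf K ((t • η : IrrCharacter K) : K → ℂ)) ψ = mu C (lf K η) ψ := by
      have h2 : (mu C (lf K ((t • η : IrrCharacter K) : K → ℂ)) ψ : ℂ) = (mu C (lf K η) ψ : ℂ) := by
        rw [← mu_spec (hCf _) hψ, ← mu_spec (hCf _) hψ]
        rw [← hinvC _ (t⁻¹).2 (lf K η)]
        exact ip_congr (fun k hk => hsm t η k (hCK hk)) (fun _ _ => rfl)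
      exact_mod_cast h2
    show mu K χ _ * mu C _ ψ = _
    rw [h1, h3]
  have h1 := BlockRes.idl_sum_sub_fixed hM hT (fun η : IrrCharacter K => (f η : ℂ)) (fun t η => by rw [hf]) (fun η => loc_natCast _)
  have hall : ∑ η : IrrCharacter K, (f η : ℂ) = (mu C χ ψ : ℂ) := by
    rw [← mu_spec (hχ.res hCK) hψ, ip_trans hCK hχ ψ]
    apply Finset.sum_congr rfl
    intro η _
    rw [mu_spec hχ (chOn_lf η).ch, mu_spec (hCf η) hψ]
    push_cast [f]
    rfl
  have hθ' : IsIrrCharacter K (fun k : K => θ k) := hθ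
  have hfix : ∀ η : IrrCharacter K, η ∈ MulAction.fixedPoints T (IrrCharacter K) ↔ TI T K (lf K η) := by
    intro η
    rw [← inv_iff hKT]
    exact fixed_iff (conjAct K T (norm_mem hKT)) η
  have hθlf : ∀ k ∈ K, lf K (fun k : K => θ k) k = θ k := fun k hk => lf_mem K _ hk
  have hmem : (⟨_, hθ'⟩ : IrrCharacter K) ∈ Finset.univ.filter (· ∈ MulAction.fixedPoints T (IrrCharacter K)) := by
    rw [Finset.mem_filter]
    refine ⟨Finset.mem_univ _, ?_⟩
    rw [hfix, ← inv_iff hKT, inv_iff' hKT]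
    exact hθT
  have hsplit : ∑ η ∈ Finset.univ.filter (· ∈ MulAction.fixedPoints T (IrrCharacter K)), f η ≡
      mu K χ θ * mu C θ ψ [MOD p] := by
    rw [← Finset.add_sum_erase _ _ hmem]
    have h2 : p ∣ ∑ η ∈ (Finset.univ.filter (· ∈ MulAction.fixedPoints T (IrrCharacter K))).erase ⟨_, hθ'⟩, f η := by
      apply Finset.dvd_sum
      intro η hη
      rw [Finset.mem_erase, Finset.mem_filter] at hη
      apply h _ (chOn_lf η) ((hfix η).mp hη.2.2)
      intro h3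
      apply hη.1
      apply Subtype.ext
      funext k
      have := h3 k k.2
      rw [lf_coe] at this
      exact this
    have h4 : f ⟨_, hθ'⟩ = mu K χ θ * mu C θ ψ := by
      show mu K χ _ * mu C _ ψ = _
      rw [mu_congr (fun _ _ => rfl) hθlf, mu_congr (fun k hk => hθlf k (hCK hk)) (fun _ _ => rfl)]
    rw [h4]
    exact (Nat.modEq_zero_iff_dvd.mpr h2).add_left _
  rw [hall] at h1
  have h5 : ((mu C χ ψ : ℂ) - ∑ η ∈ Finset.univ.filter (· ∈ MulAction.fixedPoints T (IrrCharacter K)), (f η : ℂ)) =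
      (((mu C χ ψ : ℤ) - ((∑ η ∈ Finset.univ.filter (· ∈ MulAction.fixedPoints T (IrrCharacter K)), f η : ℕ) : ℤ) : ℤ) : ℂ) := by
    push_cast
    rfl
  rw [h5, idl_intCast_iff hM] at h1
  refine Nat.ModEq.trans ?_ hsplit
  exact ((Nat.modEq_iff_dvd).mpr h1).symm

end mult

section corr

variable {G : Type u} [Group G] [Finite G]

/-- fixed points -/
def cc (K T : Subgroup G) : Subgroup G := K ⊓ Subgroup.centralizer (T : Set G)

theorem cc_le (K T : Subgroup G) : cc K T ≤ K := inf_le_left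

theorem cc_le' (K T : Subgroup G) : cc K T ≤ Subgroup.centralizer (T : Set G) := inf_le_right

/-- a `p'`-group with a `p`-group of operators -/
structure Sys (p : ℕ) (K T : Subgroup G) : Prop where
  hK : ¬ p ∣ Nat.card K
  hT : IsPGroup p T
  hn : T ≤ Subgroup.normalizer (K : Set G)

theorem mult_mu {C K : Subgroup G} (hCK : C ≤ K) {f g : G → ℂ} (hf : IrrOn K f) (hg : IrrOn C g) :
    mult (Subgroup.inclusion hCK) ⟨_, hf⟩ ⟨_, hg⟩ = mu C f g :=
  mult_eq (mu_spec (hf.ch.res hCK) hg.ch)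

variable {p : ℕ} [hp : Fact p.Prime] {K T : Subgroup G}

theorem Sys.data (hs : Sys p K T) {M : Ideal AlgInt} (hM : IsPModular p M) :
    Data p M (conjAct K T (norm_mem hs.hn)) (Subgroup.inclusion (cc_le K T)) :=
  data_conj (norm_mem hs.hn) hM hs.hT hs.hK rfl (cc_le K T)

theorem Sys.uniq_up (hs : Sys p K T) {f₁ f₂ g : G → ℂ} (h1 : IrrOn K f₁) (i1 : TI T K f₁) (h2 : IrrOn K f₂)
    (i2 : TI T K f₂) (hg : IrrOn (cc K T) g) (n1 : ¬ p ∣ mu (cc K T) f₁ g) (n2 : ¬ p ∣ mu (cc K T) f₂ g) :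
    ∀ k ∈ K, f₁ k = f₂ k := by
  obtain ⟨M, hM⟩ := H76Char.exists_isPModular p
  have h := unique_chi (hs.data hM) (β := ⟨_, hg⟩) (χ := ⟨_, h1⟩) (χ' := ⟨_, h2⟩) ((inv_iff' hs.hn f₁).mpr i1)
    ((inv_iff' hs.hn f₂).mpr i2) (by rwa [mult_mu]) (by rwa [mult_mu])
  intro k hk
  exact congrArg (fun f : IrrCharacter K => (f : K → ℂ) ⟨k, hk⟩) h

theorem Sys.uniq_down (hs : Sys p K T) {f g₁ g₂ : G → ℂ} (h1 : IrrOn K f) (i1 : TI T K f)
    (hg₁ : IrrOn (cc K T) g₁) (hg₂ : IrrOn (cc K T) g₂) (n1 : ¬ p ∣ mu (cc K T) f g₁)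
    (n2 : ¬ p ∣ mu (cc K T) f g₂) : ∀ k ∈ cc K T, g₁ k = g₂ k := by
  obtain ⟨M, hM⟩ := H76Char.exists_isPModular p
  have h := unique_beta (hs.data hM) (β := ⟨_, hg₁⟩) (β' := ⟨_, hg₂⟩) (χ := ⟨_, h1⟩) ((inv_iff' hs.hn f).mpr i1)
    (by rwa [mult_mu]) (by rwa [mult_mu])
  intro k hk
  exact congrArg (fun f : IrrCharacter (cc K T) => (f : cc K T → ℂ) ⟨k, hk⟩) h

theorem Sys.ex_down (hs : Sys p K T) {f : G → ℂ} (h1 : IrrOn K f) :
    ∃ g, IrrOn (cc K T) g ∧ ¬ p ∣ mu (cc K T) f g := by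
  obtain ⟨M, hM⟩ := H76Char.exists_isPModular p
  obtain ⟨β, hβ⟩ := exists_beta (hs.data hM) (⟨_, h1⟩ : IrrCharacter K)
  refine ⟨lf (cc K T) β, chOn_lf β, fun h => hβ ?_⟩
  rw [← mult_mu (cc_le K T) h1 (chOn_lf β)] at h
  convert h using 2
  apply Subtype.ext
  exact (lf_fun _ _).symm

theorem Sys.ex_up (hs : Sys p K T) {g : G → ℂ} (h1 : IrrOn (cc K T) g) :
    ∃ f, IrrOn K f ∧ TI T K f ∧ ¬ p ∣ mu (cc K T) f g := by
  obtain ⟨M, hM⟩ := H76Char.exists_isPModular p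
  obtain ⟨χ, hχ, hχ'⟩ := exists_chi (hs.data hM) (⟨_, h1⟩ : IrrCharacter (cc K T))
  refine ⟨lf K χ, chOn_lf χ, (inv_iff hs.hn _).mp hχ, fun h => hχ' ?_⟩
  rw [← mult_mu (cc_le K T) (chOn_lf χ) h1] at h
  convert h using 2
  apply Subtype.ext
  exact (lf_fun _ _).symm

/-- Glauberman correspondence -/
structure Corr (p : ℕ) (K T : Subgroup G) (θ θ' : G → ℂ) : Prop where
  irr : IrrOn K θ
  inv : TI T K θ
  irr' : IrrOn (cc K T) θ'
  nd : ¬ p ∣ mu (cc K T) θ θ'

theorem Corr.congr {θ θ' η η' : G → ℂ} (h : Corr p K T θ θ') (hn : T ≤ Subgroup.normalizer (K : Set G))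
    (h1 : ∀ k ∈ K, θ k = η k) (h2 : ∀ k ∈ cc K T, θ' k = η' k) : Corr p K T η η' where
  irr := h.irr.congr h1
  inv := by
    intro t ht k hk
    rw [← h1 _ (norm_mem hn t ht k hk), ← h1 k hk]
    exact h.inv t ht k hk
  irr' := h.irr'.congr h2
  nd := by
    rw [mu_congr (fun k hk => (h1 k (cc_le _ _ hk)).symm) (fun k hk => (h2 k hk).symm)]
    exact h.nd

theorem mem_norm_cc {y : G} (hy : y ∈ Subgroup.normalizer (K : Set G)) (hy' : y ∈ Subgroup.normalizer (T : Set G)) :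
    y ∈ Subgroup.normalizer ((cc K T : Subgroup G) : Set G) := by
  apply mem_normalizer_of
  intro k hk
  refine ⟨((Subgroup.mem_normalizer_iff.mp hy) k).mp hk.1, ?_⟩
  show y * k * y⁻¹ ∈ Subgroup.centralizer (T : Set G)
  rw [Subgroup.mem_centralizer_iff]
  intro t ht
  have h1 : y⁻¹ * t * y ∈ T := by
    have := ((Subgroup.mem_normalizer_iff.mp (Subgroup.inv_mem _ hy')) t).mp ht
    rwa [inv_inv] at this
  have h2 := (Subgroup.mem_centralizer_iff.mp (cc_le' K T hk)) _ h1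
  calc t * (y * k * y⁻¹) = y * ((y⁻¹ * t * y) * k) * y⁻¹ := by group
    _ = _ := by rw [h2]; group

theorem ip_conj {H : Subgroup G} {y : G} (hy : y ∈ Subgroup.normalizer (H : Set G)) (f g : G → ℂ) :
    ip H (fun x => f (y * x * y⁻¹)) (fun x => g (y * x * y⁻¹)) = ip H f g := by
  let e : H ≃* H :=
    { toFun := fun g => ⟨y * g * y⁻¹, ((Subgroup.mem_normalizer_iff.mp hy) _).mp g.2⟩
      invFun := fun g => ⟨y⁻¹ * g * y, by
        have := ((Subgroup.mem_normalizer_iff.mp (Subgroup.inv_mem _ hy)) _).mp g.2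
        rwa [inv_inv] at this⟩
      left_inv := fun g => Subtype.ext (by simp [mul_assoc])
      right_inv := fun g => Subtype.ext (by simp [mul_assoc])
      map_mul' := fun a b => Subtype.ext (by simp [mul_assoc]) }
  exact classInner_comp_equiv e (fun h : H => f h) (fun h : H => g h)

theorem mu_conj {H : Subgroup G} {y : G} (hy : y ∈ Subgroup.normalizer (H : Set G)) (f g : G → ℂ) :
    mu H (fun x => f (y * x * y⁻¹)) (fun x => g (y * x * y⁻¹)) = mu H f g := by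
  unfold mu
  rw [ip_conj hy]

theorem TI.conj {f : G → ℂ} (h : TI T K f) {y : G} (hy : y ∈ Subgroup.normalizer (K : Set G))
    (hy' : y ∈ Subgroup.normalizer (T : Set G)) : TI T K (fun g => f (y * g * y⁻¹)) := by
  intro t ht k hk
  show f (y * (t * k * t⁻¹) * y⁻¹) = f (y * k * y⁻¹)
  have h1 : y * (t * k * t⁻¹) * y⁻¹ = (y * t * y⁻¹) * (y * k * y⁻¹) * (y * t * y⁻¹)⁻¹ := by group
  rw [h1]
  exact h _ (((Subgroup.mem_normalizer_iff.mp hy') t).mp ht) _ (((Subgroup.mem_normalizer_iff.mp hy) k).mp hk)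

theorem Corr.conj {θ θ' : G → ℂ} (h : Corr p K T θ θ') {y : G} (hy : y ∈ Subgroup.normalizer (K : Set G))
    (hy' : y ∈ Subgroup.normalizer (T : Set G)) :
    Corr p K T (fun g => θ (y * g * y⁻¹)) (fun g => θ' (y * g * y⁻¹)) where
  irr := h.irr.conj hy
  inv := h.inv.conj hy hy'
  irr' := h.irr'.conj (mem_norm_cc hy hy')
  nd := by
    rw [mu_conj (mem_norm_cc hy hy')]
    exact h.nd

theorem Corr.up (hs : Sys p K T) {θ₁ θ₂ θ' η' : G → ℂ} (h : Corr p K T θ₁ θ') (h' : Corr p K T θ₂ η')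
    (he : ∀ k ∈ cc K T, θ' k = η' k) : ∀ k ∈ K, θ₁ k = θ₂ k := by
  apply hs.uniq_up h.irr h.inv h'.irr h'.inv h.irr' h.nd
  rw [mu_congr (fun _ _ => rfl) he]
  exact h'.nd

theorem Corr.down (hs : Sys p K T) {θ₁ θ₂ θ' η' : G → ℂ} (h : Corr p K T θ₁ θ') (h' : Corr p K T θ₂ η')
    (he : ∀ k ∈ K, θ₁ k = θ₂ k) : ∀ k ∈ cc K T, θ' k = η' k := by
  apply hs.uniq_down h.irr h.inv h.irr' h'.irr' h.nd
  rw [mu_congr (fun k hk => he k (cc_le _ _ hk)) (fun _ _ => rfl)]
  exact h'.nd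

/-- `y` fixes `θ` iff it fixes the correspondent -/
theorem Corr.stab_iff (hs : Sys p K T) {θ θ' : G → ℂ} (h : Corr p K T θ θ') {y : G}
    (hy : y ∈ Subgroup.normalizer (K : Set G)) (hy' : y ∈ Subgroup.normalizer (T : Set G)) :
    y ∈ stab K θ ↔ y ∈ stab (cc K T) θ' := by
  constructor
  · intro h1
    refine ⟨mem_norm_cc hy hy', fun k hk => ?_⟩
    exact (h.conj hy hy').down hs h (fun k hk => h1.2 k hk) k hk
  · intro h1
    refine ⟨hy, fun k hk => ?_⟩
    exact (h.conj hy hy').up hs h (fun k hk => h1.2 k hk) k hk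

/-- the key congruence for a subgroup -/
theorem over_iff {E : Subgroup G} (hKE : K ≤ E) (hE : Sys p E T) (hs : Sys p K T) {χ β θ θ' : G → ℂ}
    (h1 : Corr p E T χ β) (h2 : Corr p K T θ θ') : p ∣ mu K χ θ ↔ p ∣ mu (cc K T) β θ' := by
  have hcc : cc K T ≤ cc E T := inf_le_inf_right _ hKE
  have e1 : mu (cc K T) χ θ' ≡ mu K χ θ * mu (cc K T) θ θ' [MOD p] := by
    apply cong hs.hn hs.hT (cc_le K T) (cc_le' K T) (h1.irr.ch.res hKE) (fun t ht k hk => h1.inv t ht k (hKE hk))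
      h2.irr'.ch h2.irr h2.inv
    intro η hη hηT hne
    by_contra hnd
    apply hne
    apply hs.uniq_up hη hηT h2.irr h2.inv h2.irr' (fun h => hnd (h.mul_left _)) h2.nd
  have e2 : mu (cc K T) χ θ' ≡ mu (cc E T) χ β * mu (cc K T) β θ' [MOD p] := by
    have hTcc : T ≤ Subgroup.normalizer ((cc E T : Subgroup G) : Set G) := fun t ht =>
      mem_norm_cc (hE.hn ht) (Subgroup.le_normalizer ht)
    have htriv : ∀ f : G → ℂ, TI T (cc E T) f := by
      intro f t ht k hk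
      rw [(Subgroup.mem_centralizer_iff.mp (cc_le' E T hk)) t ht, mul_inv_cancel_right]
    apply cong (K := cc E T) (T := T) (C := cc K T) hTcc hs.hT hcc (cc_le' K T) (h1.irr.ch.res (cc_le E T))
      (htriv χ) h2.irr'.ch h1.irr' (htriv β)
    intro η hη _ hne
    by_contra hnd
    apply hne
    apply hE.uniq_down h1.irr h1.inv hη h1.irr' (fun h => hnd (h.mul_right _)) h1.nd
  have hpp : p.Prime := hp.out
  constructor
  · intro h
    have h3 : p ∣ mu (cc K T) χ θ' := (Nat.ModEq.dvd_iff e1 dvd_rfl).mpr (h.mul_right _)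
    have h4 : p ∣ mu (cc E T) χ β * mu (cc K T) β θ' := (Nat.ModEq.dvd_iff e2 dvd_rfl).mp h3
    exact (hpp.dvd_mul.mp h4).resolve_left h1.nd
  · intro h
    have h3 : p ∣ mu (cc K T) χ θ' := (Nat.ModEq.dvd_iff e2 dvd_rfl).mpr (h.mul_left _)
    have h4 : p ∣ mu K χ θ * mu (cc K T) θ θ' := (Nat.ModEq.dvd_iff e1 dvd_rfl).mp h3
    exact (hpp.dvd_mul.mp h4).resolve_right h2.nd

/-- counting extensions -/
theorem card_ext {N H : Subgroup G} (hNH : N ≤ H) (hn : H ≤ Subgroup.normalizer (N : Set G))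
    (hab : ∀ a ∈ H, ∀ b ∈ H, a * b * a⁻¹ * b⁻¹ ∈ N) {e : G → ℂ} (hN : IrrOn N e) (he : IrrOn H e) :
    Nat.card {ψ : IrrCharacter H // ∀ n ∈ N, lf H ψ n = e n} = N.relIndex H := by
  classical
  have hn' : (N.subgroupOf H).Normal := by
    refine ⟨fun n hn' g => ?_⟩
    rw [Subgroup.mem_subgroupOf] at hn' ⊢
    exact ((Subgroup.mem_normalizer_iff.mp (hn g.2)) _).mp hn'
  have hϑ : IsIrrCharacter (N.subgroupOf H) (fun n => e ((n : H) : G)) := (irrOn_sub hNH).mpr hN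
  have he' : IsIrrCharacter H (fun h : H => e h) := he
  have hinv : ∀ g : H, cj (N.subgroupOf H) g (fun n => e ((n : H) : G)) = fun n : N.subgroupOf H => e ((n : H) : G) := by
    intro g
    funext n
    exact he.ch.cls (hNH n.2) g.2
  have h1 := sum_sq_mult hϑ hinv
  have h2 : ∀ β : IrrCharacter H, classInner (indFun (N.subgroupOf H) (fun n => e ((n : H) : G))) (β : H → ℂ) *
      conj (classInner (indFun (N.subgroupOf H) (fun n => e ((n : H) : G))) (β : H → ℂ)) =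
      if (∀ n ∈ N, lf H β n = e n) then 1 else 0 := by
    intro β
    split_ifs with h
    · have h3 : (fun n : N.subgroupOf H => (β : H → ℂ) n) = fun n : N.subgroupOf H => e ((n : H) : G) := by
        funext n
        rw [← h n n.2, lf_coe]
      have h4 : classInner (indFun (N.subgroupOf H) (fun n => e ((n : H) : G))) (β : H → ℂ) = 1 := by
        rw [IndFun.frobenius_reciprocity _ _ _ β.2.isClassFunction, h3]
        exact hϑ.classInner_self
      rw [h4]; simp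
    · by_cases h3 : classInner (indFun (N.subgroupOf H) (fun n => e ((n : H) : G))) (β : H → ℂ) = 0
      · rw [h3, zero_mul]
      · exfalso
        apply h
        obtain ⟨γ, ⟨hγ, hγc⟩, hγ'⟩ := (CanonExt.bijOn hϑ he' (fun n => rfl)).surjOn ⟨β.2, h3⟩
        obtain ⟨δ, hδ, hδ'⟩ := hγ.deflate (N.subgroupOf H) (fun n hn1 => hγc ⟨n, hn1⟩)
        have h5 : γ 1 = 1 := by
          rw [← hδ' 1]
          apply hδ.one_eq_one_of_comm
          intro a b
          obtain ⟨a, rfl⟩ := QuotientGroup.mk_surjective a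
          obtain ⟨b, rfl⟩ := QuotientGroup.mk_surjective b
          rw [← QuotientGroup.mk_mul, ← QuotientGroup.mk_mul, QuotientGroup.eq, Subgroup.mem_subgroupOf]
          have h6 := hab _ (b⁻¹).2 _ (a⁻¹).2
          push_cast at h6 ⊢
          simpa [mul_assoc] using h6
        intro n hn1
        have h7 := congrFun hγ' ⟨n, hNH hn1⟩
        rw [lf_mem H _ (hNH hn1), ← h7]
        show γ _ * e n = e n
        rw [hγc ⟨⟨n, hNH hn1⟩, hn1⟩, h5, one_mul]
  rw [Finset.sum_congr rfl (fun β _ => h2 β), ← Finset.sum_filter, Finset.sum_const, nsmul_eq_mul, mul_one,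
    ← Fintype.card_subtype, ← Nat.card_eq_fintype_card] at h1
  have h8 : (Nat.card {ψ : IrrCharacter H // ∀ n ∈ N, lf H ψ n = e n} : ℂ) = ((N.relIndex H : ℕ) : ℂ) := h1
  exact_mod_cast h8

/-- a large family over an invariant character consists of extensions -/
theorem over_family {N H : Subgroup G} (hNH : N ≤ H) {θ : G → ℂ} (hN : IrrOn N θ) (hinv : H ≤ stab N θ)
    {ι : Type*} [Finite ι] (F : ι → IrrCharacter H) (hF : Function.Injective F)
    (hcard : Nat.card ι = N.relIndex H) (hover : ∀ i, ip N (lf H (F i)) θ ≠ 0) :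
    ∀ i, ∀ n ∈ N, lf H (F i) n = θ n := by
  classical
  have hn' : (N.subgroupOf H).Normal := by
    refine ⟨fun n hn' g => ?_⟩
    rw [Subgroup.mem_subgroupOf] at hn' ⊢
    exact ((Subgroup.mem_normalizer_iff.mp (hinv g.2).1) _).mp hn'
  have hϑ : IsIrrCharacter (N.subgroupOf H) (fun n => θ ((n : H) : G)) := (irrOn_sub hNH).mpr hN
  have hinv' : ∀ g : H, cj (N.subgroupOf H) g (fun n => θ ((n : H) : G)) = fun n : N.subgroupOf H => θ ((n : H) : G) := by
    intro g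
    funext n
    exact (hinv g.2).2 _ n.2
  have h1 := sum_sq_mult hϑ hinv'
  have h2 : ∀ β : IrrCharacter H, classInner (indFun (N.subgroupOf H) (fun n => θ ((n : H) : G))) (β : H → ℂ) =
      (mu N (lf H β) θ : ℂ) := by
    intro β
    rw [IndFun.frobenius_reciprocity _ _ _ β.2.isClassFunction, ← conj_classInner]
    have h3 : classInner (fun n : N.subgroupOf H => (β : H → ℂ) n) (fun n => θ ((n : H) : G)) =
        ip N (lf H β) θ := by
      rw [← ip_sub hNH]
      congr 1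
      funext n
      exact (lf_coe H β n).symm
    rw [h3, mu_spec ((chOn_lf β).ch.res hNH) hN.ch, Complex.conj_natCast]
  have h3 : ∑ β : IrrCharacter H, mu N (lf H β) θ * mu N (lf H β) θ = N.relIndex H := by
    have h4 : ((∑ β : IrrCharacter H, mu N (lf H β) θ * mu N (lf H β) θ : ℕ) : ℂ) = ((N.relIndex H : ℕ) : ℂ) := by
      push_cast
      rw [show ((N.relIndex H : ℕ) : ℂ) = ((N.subgroupOf H).index : ℂ) from rfl, ← h1]
      apply Finset.sum_congr rfl
      intro β _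
      rw [h2 β, Complex.conj_natCast]
    exact_mod_cast h4
  have h4 : ∀ i, 1 ≤ mu N (lf H (F i)) θ * mu N (lf H (F i)) θ := by
    intro i
    have h5 : mu N (lf H (F i)) θ ≠ 0 := by
      intro h6
      apply hover i
      rw [mu_spec ((chOn_lf (F i)).ch.res hNH) hN.ch, h6, Nat.cast_zero]
    exact Nat.one_le_iff_ne_zero.mpr (mul_ne_zero h5 h5)
  have h5 : ∑ i : ι, mu N (lf H (F i)) θ * mu N (lf H (F i)) θ ≤ ∑ i : ι, 1 := by
    rw [Finset.sum_const, Finset.card_univ, smul_eq_mul, mul_one, ← Nat.card_eq_fintype_card, hcard, ← h3]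
    have h6 := Finset.sum_image (s := (Finset.univ : Finset ι)) (g := F) (f := fun β : IrrCharacter H => mu N (lf H β) θ * mu N (lf H β) θ)
      (fun a _ b _ h => hF h)
    rw [← h6]
    exact Finset.sum_le_sum_of_subset (Finset.subset_univ _)
  have h6 : ∀ i, mu N (lf H (F i)) θ * mu N (lf H (F i)) θ = 1 := by
    have h7 := (Finset.sum_eq_sum_iff_of_le (s := (Finset.univ : Finset ι)) (f := fun _ => 1)
      (g := fun i => mu N (lf H (F i)) θ * mu N (lf H (F i)) θ) (fun i _ => h4 i)).mp (le_antisymm (Finset.sum_le_sum fun i _ => h4 i) h5)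
    intro i
    exact (h7 i (Finset.mem_univ i)).symm
  intro i n hn1
  have h7 : mu N (lf H (F i)) θ = 1 := Nat.eq_one_of_mul_eq_one_right (h6 i)
  have h8 := res_eq_smul_of_invariant (F i).2 hϑ hinv' (by
    have h3 : classInner (fun n : N.subgroupOf H => (F i : H → ℂ) n) (fun n => θ ((n : H) : G)) =
        ip N (lf H (F i)) θ := by
      rw [← ip_sub hNH]
      congr 1
      funext n
      exact (lf_coe H (F i) n).symm
    rw [h3]
    exact hover i)
  have h3 : classInner (fun n : N.subgroupOf H => (F i : H → ℂ) n) (fun n => θ ((n : H) : G)) = 1 := by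
    have h9 : classInner (fun n : N.subgroupOf H => (F i : H → ℂ) n) (fun n => θ ((n : H) : G)) =
        ip N (lf H (F i)) θ := by
      rw [← ip_sub hNH]
      congr 1
      funext n
      exact (lf_coe H (F i) n).symm
    rw [h9, mu_spec ((chOn_lf (F i)).ch.res hNH) hN.ch, h7, Nat.cast_one]
  rw [h3, one_smul] at h8
  rw [lf_mem H _ (hNH hn1)]
  exact congrFun h8 ⟨⟨n, hNH hn1⟩, hn1⟩

/-- an extension of a `T`-invariant character to a `p'`-group on which `T` acts trivially modulo `K` is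
`T`-invariant -/
theorem ext_TI {E : Subgroup G} (hKE : K ≤ E) (hE : Sys p E T) (hKn : E ≤ Subgroup.normalizer (K : Set G))
    (hcomm : ∀ t ∈ T, ∀ g ∈ E, t * g * t⁻¹ * g⁻¹ ∈ K) {χ : G → ℂ} (hχ : IrrOn E χ) (hK : IrrOn K χ)
    (hTK : TI T K χ) : TI T E χ := by
  intro t ht g hg
  have htE : t ∈ Subgroup.normalizer (E : Set G) := hE.hn ht
  obtain ⟨β, hβ1, hβ2⟩ := exists_twist hKE hKn hK hχ (hχ.conj htE) (fun k hk => hTK t ht k hk)
  have hmem : ∀ n : ℕ, ∀ x ∈ E, t ^ n * x * (t ^ n)⁻¹ ∈ E := by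
    intro n x hx
    exact ((Subgroup.mem_normalizer_iff.mp (Subgroup.pow_mem _ htE n)) x).mp hx
  have hstep : ∀ n : ℕ, ∀ x, ∀ hx : x ∈ E, χ (t ^ n * x * (t ^ n)⁻¹) = (β ⟨x, hx⟩ : ℂ) ^ n * χ x := by
    intro n
    induction n with
    | zero => intro x hx; simp
    | succ n ih =>
      intro x hx
      have h1 : t ^ (n + 1) * x * (t ^ (n + 1))⁻¹ = t * (t ^ n * x * (t ^ n)⁻¹) * t⁻¹ := by
        rw [pow_succ']; group
      rw [h1]
      have h2 := hβ2 ⟨_, hmem n x hx⟩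
      have h3 : χ (t * (t ^ n * x * (t ^ n)⁻¹) * t⁻¹) = (β ⟨_, hmem n x hx⟩ : ℂ) * χ (t ^ n * x * (t ^ n)⁻¹) := h2
      have h4 : t ^ n * x * (t ^ n)⁻¹ * x⁻¹ ∈ K := hcomm _ (T.pow_mem ht n) x hx
      have h5 : β ⟨_, hmem n x hx⟩ = β ⟨x, hx⟩ := by
        have h6 : (⟨_, hmem n x hx⟩ : E) = ⟨_, hKE h4⟩ * ⟨x, hx⟩ := by
          apply Subtype.ext
          show t ^ n * x * (t ^ n)⁻¹ = t ^ n * x * (t ^ n)⁻¹ * x⁻¹ * x
          group
        rw [h6, map_mul, hβ1 ⟨_, hKE h4⟩ h4, one_mul]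
      rw [h3, h5, ih x hx, pow_succ']
      ring
  have hone : ∀ x, ∀ hx : x ∈ E, β ⟨x, hx⟩ = 1 := by
    intro x hx
    obtain ⟨k, hk, hne⟩ := exists_ne_zero hKE hKn hK hχ hx
    have hkx : k * x ∈ E := E.mul_mem (hKE hk) hx
    have h1 := hstep (orderOf t) (k * x) hkx
    rw [pow_orderOf_eq_one, one_mul, inv_one, mul_one] at h1
    have h2 : (β ⟨k * x, hkx⟩ : ℂ) ^ orderOf t = 1 := (mul_right_cancel₀ hne (by rw [one_mul]; exact h1)).symm
    have h3 : β ⟨k * x, hkx⟩ = β ⟨x, hx⟩ := by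
      have h6 : (⟨k * x, hkx⟩ : E) = ⟨k, hKE hk⟩ * ⟨x, hx⟩ := rfl
      rw [h6, map_mul, hβ1 ⟨k, hKE hk⟩ hk, one_mul]
    rw [h3] at h2
    have h4 : (β ⟨x, hx⟩) ^ orderOf t = 1 := by
      apply Units.ext
      push_cast
      exact h2
    have h5 : (β ⟨x, hx⟩) ^ Nat.card E = 1 := by
      rw [← map_pow, pow_card_eq_one', map_one]
    have h6 : (orderOf t).Coprime (Nat.card E) := by
      obtain ⟨n, hn⟩ := hE.hT ⟨t, ht⟩
      have h7 : t ^ p ^ n = 1 := congrArg Subtype.val hn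
      have h8 : orderOf t ∣ p ^ n := orderOf_dvd_of_pow_eq_one h7
      exact Nat.Coprime.coprime_dvd_left h8 (Nat.Coprime.pow_left n ((Nat.Prime.coprime_iff_not_dvd hp.out).mpr hE.hK))
    have h7 := pow_gcd_eq_one.mpr ⟨h4, h5⟩
    rwa [Nat.Coprime.gcd_eq_one h6, pow_one] at h7
  have h1 := hβ2 ⟨g, hg⟩
  rw [hone g hg, Units.val_one, one_mul] at h1
  exact h1

theorem lf_inj {H : Subgroup G} {χ ψ : IrrCharacter H} (h : ∀ x ∈ H, lf H χ x = lf H ψ x) : χ = ψ := by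
  apply Subtype.ext
  funext x
  have := h x x.2
  rwa [lf_coe, lf_coe] at this

/-- the core lemma -/
theorem core {E : Subgroup G} (hs : Sys p K T) (hE : Sys p E T) (hKE : K ≤ E)
    (hKn : E ≤ Subgroup.normalizer (K : Set G)) (hgen : E ≤ K ⊔ cc E T)
    (hab : ∀ a ∈ E, ∀ b ∈ E, a * b * a⁻¹ * b⁻¹ ∈ K) {θ θ' : G → ℂ} (h : Corr p K T θ θ') (A : Set G)
    (hAE : ∀ a ∈ A, a ∈ Subgroup.normalizer (E : Set G)) (hAT : ∀ a ∈ A, a ∈ Subgroup.normalizer (T : Set G)) :
    (∃ χ, IrrOn E χ ∧ (∀ k ∈ K, χ k = θ k) ∧ ∀ a ∈ A, ∀ g ∈ E, χ (a * g * a⁻¹) = χ g) ↔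
      ∃ β, IrrOn (cc E T) β ∧ (∀ k ∈ cc K T, β k = θ' k) ∧ ∀ a ∈ A, ∀ g ∈ cc E T, β (a * g * a⁻¹) = β g := by
  have hcc : cc K T ≤ cc E T := inf_le_inf_right _ hKE
  have hccn : cc E T ≤ Subgroup.normalizer (K : Set G) := (cc_le E T).trans hKn
  have hsup : K ⊔ cc E T = E := le_antisymm (sup_le hKE (cc_le E T)) hgen
  have hinf : K ⊓ cc E T = cc K T := by
    unfold cc
    rw [← inf_assoc, inf_eq_left.mpr hKE]
  have hcTn : cc E T ≤ Subgroup.normalizer (T : Set G) := (cc_le' E T).trans (by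
    intro x hx
    rw [Subgroup.mem_normalizer_iff]
    intro t
    constructor
    · intro ht
      rw [← (Subgroup.mem_centralizer_iff.mp hx) t ht, mul_inv_cancel_right]
      exact ht
    · intro ht
      have h1 := (Subgroup.mem_centralizer_iff.mp hx) _ ht
      have h2 : x * t * x⁻¹ = t := by
        have h3 : x * t * x⁻¹ * x = x * (x * t * x⁻¹) := h1
        rw [inv_mul_cancel_right] at h3
        exact (mul_left_cancel h3).symm
      rwa [h2] at ht)
  have hccE : cc E T ≤ Subgroup.normalizer ((cc K T : Subgroup G) : Set G) := fun x hx =>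
    mem_norm_cc (hccn hx) (hcTn hx)
  have hidx : K.relIndex E = (cc K T).relIndex (cc E T) := by
    have h1 := SubgroupTools.card_mul_relIndex_of_le hKE
    have h2 := SubgroupTools.card_mul_relIndex_of_le hcc
    have h3 := SubgroupTools.card_sup_mul_card_inf (N := K) (H := cc E T) hccn
    rw [hsup, hinf, ← h1] at h3
    have h4 : Nat.card K * (Nat.card (cc K T) * K.relIndex E) = Nat.card K * Nat.card (cc E T) := by
      rw [← h3]; ring
    have h5 := Nat.eq_of_mul_eq_mul_left Nat.card_pos h4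
    rw [← h2] at h5
    exact Nat.eq_of_mul_eq_mul_left Nat.card_pos h5
  have hcomm : ∀ t ∈ T, ∀ g ∈ E, t * g * t⁻¹ * g⁻¹ ∈ K := by
    intro t ht g hg
    rw [← hsup, SubgroupTools.mem_sup_of_le_normalizer hccn] at hg
    obtain ⟨k, hk, d, hd, rfl⟩ := hg
    have h1 := (Subgroup.mem_centralizer_iff.mp (cc_le' E T hd)) t ht
    have h2 : t * (k * d) * t⁻¹ * (k * d)⁻¹ = (t * k * t⁻¹) * k⁻¹ := by
      have h3 : t * (k * d) * t⁻¹ * (k * d)⁻¹ = t * k * (d * t⁻¹ * d⁻¹) * k⁻¹ := by group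
      have h4 : d * t⁻¹ * d⁻¹ = t⁻¹ := by
        have h5 := (Subgroup.mem_centralizer_iff.mp (cc_le' E T hd)) t⁻¹ (T.inv_mem ht)
        rw [← h5, mul_inv_cancel_right]
      rw [h3, h4]
    rw [h2]
    exact K.mul_mem (norm_mem hs.hn t ht k hk) (K.inv_mem hk)
  have hab' : ∀ a ∈ cc E T, ∀ b ∈ cc E T, a * b * a⁻¹ * b⁻¹ ∈ cc K T := by
    intro a ha b hb
    rw [← hinf]
    exact ⟨hab a (cc_le _ _ ha) b (cc_le _ _ hb), Subgroup.mul_mem _ (Subgroup.mul_mem _ (Subgroup.mul_mem _ ha hb)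
      (Subgroup.inv_mem _ ha)) (Subgroup.inv_mem _ hb)⟩
  constructor
  · rintro ⟨χ, hχ, hχθ, hχA⟩
    have hKχ : IrrOn K χ := h.irr.congr (fun k hk => (hχθ k hk).symm)
    have hX : Nat.card {ψ : IrrCharacter E // ∀ n ∈ K, lf E ψ n = χ n} = K.relIndex E := card_ext hKE hKn hab hKχ hχ
    have hTK : ∀ ψ : {ψ : IrrCharacter E // ∀ n ∈ K, lf E ψ n = χ n}, TI T E (lf E ψ.1) := by
      intro ψ
      apply ext_TI hKE hE hKn hcomm (chOn_lf ψ.1) (hKχ.congr fun k hk => (ψ.2 k hk).symm)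
      intro t ht k hk
      rw [ψ.2 _ (norm_mem hs.hn t ht k hk), ψ.2 k hk, hχθ _ (norm_mem hs.hn t ht k hk), hχθ k hk]
      exact h.inv t ht k hk
    have hex : ∀ ψ : {ψ : IrrCharacter E // ∀ n ∈ K, lf E ψ n = χ n}, ∃ β : IrrCharacter (cc E T),
        Corr p E T (lf E ψ.1) (lf (cc E T) β) := by
      intro ψ
      obtain ⟨g, hg, hg'⟩ := hE.ex_down (chOn_lf ψ.1)
      refine ⟨⟨_, hg⟩, ⟨chOn_lf ψ.1, hTK ψ, chOn_lf _, ?_⟩⟩
      rw [mu_congr (fun _ _ => rfl) (fun k hk => lf_mem (cc E T) _ hk)]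
      exact hg'
    choose F hF using hex
    have hFinj : Function.Injective F := by
      intro a b hab1
      apply Subtype.ext
      apply lf_inj
      exact (hF a).up hE (hF b) (fun k _ => by rw [hab1])
    have hover : ∀ ψ, ip (cc K T) (lf (cc E T) (F ψ)) θ' ≠ 0 := by
      intro ψ h0
      have h1 := over_iff hKE hE hs (hF ψ) h
      have h2 : mu K (lf E ψ.1) θ = 1 := by
        rw [mu_congr (fun k hk => by rw [ψ.2 k hk, hχθ k hk]) (fun _ _ => rfl)]
        exact mu_self h.irr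
      rw [h2] at h1
      have h3 : mu (cc K T) (lf (cc E T) (F ψ)) θ' = 0 := by
        unfold mu
        rw [h0]
        simp
      rw [h3] at h1
      exact hp.out.one_lt.ne' (Nat.dvd_one.mp (h1.mpr (dvd_zero p)))
    have hstab : cc E T ≤ stab (cc K T) θ' := by
      intro y hy
      rw [← h.stab_iff hs (hccn hy) (hcTn hy)]
      refine ⟨hccn hy, fun k hk => ?_⟩
      rw [← hχθ _ (((Subgroup.mem_normalizer_iff.mp (hccn hy)) k).mp hk), ← hχθ k hk]
      exact hχ.ch.cls (hKE hk) (cc_le E T hy)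
    have hall := over_family hcc h.irr' hstab F hFinj (hX.trans hidx) hover
    have hmem : ∀ n ∈ K, lf E (⟨_, hχ⟩ : IrrCharacter E) n = χ n := fun n hn => lf_mem E _ (hKE hn)
    refine ⟨lf (cc E T) (F ⟨⟨_, hχ⟩, hmem⟩), chOn_lf _, hall _, fun a ha g hg => ?_⟩
    have h1 := (hF ⟨⟨_, hχ⟩, hmem⟩).stab_iff hE (hAE a ha) (hAT a ha)
    have h2 : a ∈ stab E (lf E (⟨_, hχ⟩ : IrrCharacter E)) := by
      refine ⟨hAE a ha, fun k hk => ?_⟩
      rw [lf_mem E _ hk, lf_mem E _ (((Subgroup.mem_normalizer_iff.mp (hAE a ha)) k).mp hk)]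
      exact hχA a ha k hk
    exact (h1.mp h2).2 g hg
  · rintro ⟨β, hβ, hβθ, hβA⟩
    have hKβ : IrrOn (cc K T) β := h.irr'.congr (fun k hk => (hβθ k hk).symm)
    have hY : Nat.card {ψ : IrrCharacter (cc E T) // ∀ n ∈ cc K T, lf (cc E T) ψ n = β n} = (cc K T).relIndex (cc E T) :=
      card_ext hcc hccE hab' hKβ hβ
    have hex : ∀ ψ : {ψ : IrrCharacter (cc E T) // ∀ n ∈ cc K T, lf (cc E T) ψ n = β n}, ∃ χ : IrrCharacter E,
        Corr p E T (lf E χ) (lf (cc E T) ψ.1) := by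
      intro ψ
      obtain ⟨g, hg, hgT, hg'⟩ := hE.ex_up (chOn_lf ψ.1)
      refine ⟨⟨_, hg⟩, ⟨chOn_lf _, ?_, chOn_lf _, ?_⟩⟩
      · intro t ht k hk
        rw [lf_mem E _ hk, lf_mem E _ (norm_mem hE.hn t ht k hk)]
        exact hgT t ht k hk
      · rw [mu_congr (fun k hk => lf_mem E _ (cc_le E T hk)) (fun _ _ => rfl)]
        exact hg'
    choose F hF using hex
    have hFinj : Function.Injective F := by
      intro a b hab1
      apply Subtype.ext
      apply lf_inj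
      exact (hF a).down hE (hF b) (fun k _ => by rw [hab1])
    have hover : ∀ ψ, ip K (lf E (F ψ)) θ ≠ 0 := by
      intro ψ h0
      have h1 := over_iff hKE hE hs (hF ψ) h
      have h2 : mu (cc K T) (lf (cc E T) ψ.1) θ' = 1 := by
        rw [mu_congr (fun k hk => by rw [ψ.2 k hk, hβθ k hk]) (fun _ _ => rfl)]
        exact mu_self h.irr'
      rw [h2] at h1
      have h3 : mu K (lf E (F ψ)) θ = 0 := by
        unfold mu
        rw [h0]
        simp
      rw [h3] at h1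
      exact hp.out.one_lt.ne' (Nat.dvd_one.mp (h1.mp (dvd_zero p)))
    have hstab : E ≤ stab K θ := by
      rw [← hsup]
      refine sup_le (le_stab h.irr.ch) ?_
      intro y hy
      rw [h.stab_iff hs (hccn hy) (hcTn hy)]
      refine ⟨hccE hy, fun k hk => ?_⟩
      rw [← hβθ _ (((Subgroup.mem_normalizer_iff.mp (hccE hy)) k).mp hk), ← hβθ k hk]
      exact hβ.ch.cls (hcc hk) hy
    have hall := over_family hKE h.irr hstab F hFinj (hY.trans hidx.symm) hover
    have hmem : ∀ n ∈ cc K T, lf (cc E T) (⟨_, hβ⟩ : IrrCharacter (cc E T)) n = β n :=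
      fun n hn => lf_mem (cc E T) _ (hcc hn)
    refine ⟨lf E (F ⟨⟨_, hβ⟩, hmem⟩), chOn_lf _, hall _, fun a ha g hg => ?_⟩
    have h1 := (hF ⟨⟨_, hβ⟩, hmem⟩).stab_iff hE (hAE a ha) (hAT a ha)
    have h2 : a ∈ stab (cc E T) (lf (cc E T) (⟨_, hβ⟩ : IrrCharacter (cc E T))) := by
      have ha' := mem_norm_cc (hAE a ha) (hAT a ha)
      refine ⟨ha', fun k hk => ?_⟩
      rw [lf_mem (cc E T) _ hk, lf_mem (cc E T) _ (((Subgroup.mem_normalizer_iff.mp ha') k).mp hk)]
      exact hβA a ha k hk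
    exact (h1.mpr h2).2 g hg

end corr

end Cfsg.Agent.Lib.RMck
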