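import Cfsg.Agent.Lib.RMck3
import Cfsg.Agent.Lib.FrobAction
import Cfsg.Agent.Lib.CoprimeAction2

/-!
# Extendibility and the Glauberman correspondence (helper74)
-/

set_option autoImplicit false
set_option linter.all false

namespace Cfsg.Agent.Lib.RMck

open scoped ComplexConjugate commutatorElement
open Cfsg Cfsg.Agent.Lib.CharBasic Cfsg.Agent.Lib.Clifford Cfsg.Agent.Lib.CliffordCorr
open Cfsg.Agent.Lib.CanonExt Cfsg.Agent.Lib.GlaubCorr Cfsg.Agent.Lib.BlockRing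

universe u

attribute [local instance 5000] Fintype.ofFinite

section step

variable {G : Type u} [Group G] [Finite G]

theorem Ext.congr {K H : Subgroup G} {φ ψ : G → ℂ} (h : ∀ k ∈ K, φ k = ψ k) : Ext K φ H ↔ Ext K ψ H := by
  constructor
  · rintro ⟨e, he, he'⟩
    exact ⟨e, he, fun k hk => (he' k hk).trans (h k hk)⟩
  · rintro ⟨e, he, he'⟩
    exact ⟨e, he, fun k hk => (he' k hk).trans (h k hk).symm⟩

theorem ext_iff_cyc {N H₀ H : Subgroup G} {d : G} (hN : N ≤ H₀) (hH : H₀ ≤ H) (hd : d ∈ H)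
    (hgen : H ≤ H₀ ⊔ Subgroup.zpowers d) (hdn : d ∈ Subgroup.normalizer (H₀ : Set G)) {φ : G → ℂ}
    (hφ : IrrOn N φ) :
    Ext N φ H ↔ ∃ χ, IrrOn H₀ χ ∧ (∀ k ∈ N, χ k = φ k) ∧ ∀ a ∈ ({d} : Set G), ∀ g ∈ H₀, χ (a * g * a⁻¹) = χ g := by
  constructor
  · rintro ⟨e, he, he'⟩
    refine ⟨e, irrOn_of_res hN (he.ch.res hH) (hφ.congr fun k hk => (he' k hk).symm), he', ?_⟩
    rintro a rfl g hg
    exact he.ch.cls (hH hg) hd
  · rintro ⟨χ, hχ, hχφ, hχd⟩
    obtain ⟨e, he, he'⟩ := exists_ext hH hgen hd hχ ⟨hdn, fun n hn => hχd d rfl n hn⟩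
    exact ⟨e, he, fun k hk => by rw [he' k (hN hk), hχφ k hk]⟩

theorem comm_mem_sup {N D : Subgroup G} (hD : D ≤ Subgroup.normalizer (N : Set G))
    (h : ∀ a ∈ D, ∀ b ∈ D, a * b * a⁻¹ * b⁻¹ ∈ N) : ∀ a ∈ N ⊔ D, ∀ b ∈ N ⊔ D, a * b * a⁻¹ * b⁻¹ ∈ N := by
  intro a ha b hb
  rw [SubgroupTools.mem_sup_of_le_normalizer hD] at ha hb
  obtain ⟨c, hc, d, hd, rfl⟩ := ha
  obtain ⟨c', hc', d', hd', rfl⟩ := hb
  have h1 : c * d * (c' * d') * (c * d)⁻¹ * (c' * d')⁻¹ =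
      c * (d * c' * d⁻¹) * (d * d' * d⁻¹ * d'⁻¹) * (d' * c⁻¹ * d'⁻¹) * c'⁻¹ := by group
  rw [h1]
  exact N.mul_mem (N.mul_mem (N.mul_mem (N.mul_mem hc (norm_mem hD d hd _ hc')) (h d hd d' hd'))
    (norm_mem hD d' hd' _ (N.inv_mem hc))) (N.inv_mem hc')

theorem centralizer_le_normalizer (T : Subgroup G) :
    Subgroup.centralizer (T : Set G) ≤ Subgroup.normalizer (T : Set G) := by
  intro x hx
  apply mem_normalizer_of
  intro t ht
  rw [← (Subgroup.mem_centralizer_iff.mp hx) t ht, mul_inv_cancel_right]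
  exact ht

theorem mem_norm_centralizer {T : Subgroup G} {y : G} (hy' : y ∈ Subgroup.normalizer (T : Set G)) :
    y ∈ Subgroup.normalizer ((Subgroup.centralizer (T : Set G) : Subgroup G) : Set G) := by
  have h := mem_norm_cc (K := ⊤) (T := T) (y := y) (by
    rw [Subgroup.normalizer_eq_top_iff.mpr inferInstance]; trivial) hy'
  unfold cc at h
  rwa [top_inf_eq] at h

theorem mem_norm_inf {A B : Subgroup G} {y : G} (hA : y ∈ Subgroup.normalizer (A : Set G))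
    (hB : y ∈ Subgroup.normalizer (B : Set G)) : y ∈ Subgroup.normalizer ((A ⊓ B : Subgroup G) : Set G) := by
  apply mem_normalizer_of
  intro t ht
  exact ⟨((Subgroup.mem_normalizer_iff.mp hA) t).mp ht.1, ((Subgroup.mem_normalizer_iff.mp hB) t).mp ht.2⟩

theorem mem_norm_sup {A B : Subgroup G} {y : G} (hA : y ∈ Subgroup.normalizer (A : Set G))
    (hB : y ∈ Subgroup.normalizer (B : Set G)) : y ∈ Subgroup.normalizer ((A ⊔ B : Subgroup G) : Set G) := by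
  apply mem_normalizer_of
  intro t ht
  have : A ⊔ B ≤ (A ⊔ B).comap (MulAut.conj y).toMonoidHom := by
    refine sup_le ?_ ?_
    · intro m hm
      exact Subgroup.mem_sup_left (((Subgroup.mem_normalizer_iff.mp hA) m).mp hm)
    · intro m hm
      exact Subgroup.mem_sup_right (((Subgroup.mem_normalizer_iff.mp hB) m).mp hm)
  exact this ht

variable {p : ℕ} [hp : Fact p.Prime]

theorem Sys.of_le {K T E : Subgroup G} (hT : IsPGroup p T) (hE : ¬ p ∣ Nat.card E) (hn : T ≤ Subgroup.normalizer (E : Set G)) :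
    Sys p E T := ⟨hE, hT, hn⟩

/-- the step -/
theorem step {K T D : Subgroup G} (hs : Sys p K T) (hDK : D ≤ Subgroup.normalizer (K : Set G))
    (hDT : D ≤ Subgroup.normalizer (T : Set G)) (hp' : ¬ p ∣ Nat.card (K ⊔ D : Subgroup G))
    (hKD : K ⊓ D = cc K T) (hab : ∀ a ∈ D, ∀ b ∈ D, a * b * a⁻¹ * b⁻¹ ∈ K) {d₀ : G} (hd₀ : d₀ ∈ D)
    (hgen : D ≤ (D ⊓ Subgroup.centralizer (T : Set G)) ⊔ Subgroup.zpowers d₀) {θ θ' : G → ℂ}
    (h : Corr p K T θ θ') : Ext K θ (K ⊔ D) ↔ Ext (cc K T) θ' D := by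
  have hD₀D : D ⊓ Subgroup.centralizer (T : Set G) ≤ D := inf_le_left
  have hCD : cc K T ≤ D := by rw [← hKD]; exact inf_le_right
  have hCD₀ : cc K T ≤ D ⊓ Subgroup.centralizer (T : Set G) := le_inf hCD (cc_le' K T)
  have hEle : K ⊔ (D ⊓ Subgroup.centralizer (T : Set G)) ≤ K ⊔ D := sup_le_sup_left hD₀D _
  have hE : Sys p (K ⊔ (D ⊓ Subgroup.centralizer (T : Set G)) : Subgroup G) T :=
    ⟨fun hd => hp' (hd.trans (Subgroup.card_dvd_of_le hEle)), hs.hT, fun t ht => mem_norm_sup (hs.hn ht)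
      (by
        apply mem_normalizer_of
        intro x hx
        have h1 := (Subgroup.mem_centralizer_iff.mp hx.2) t ht
        rw [h1, mul_inv_cancel_right]
        exact hx)⟩
  have hccE : cc (K ⊔ (D ⊓ Subgroup.centralizer (T : Set G))) T = D ⊓ Subgroup.centralizer (T : Set G) := by
    apply le_antisymm
    · intro x hx
      have hx1 := cc_le _ _ hx
      rw [SubgroupTools.mem_sup_of_le_normalizer (hD₀D.trans hDK)] at hx1
      obtain ⟨k, hk, d, hd, rfl⟩ := hx1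
      have hkc : k ∈ Subgroup.centralizer (T : Set G) := by
        have h1 := Subgroup.mul_mem _ (cc_le' _ _ hx) (Subgroup.inv_mem _ hd.2)
        rwa [mul_inv_cancel_right] at h1
      exact Subgroup.mul_mem _ (hCD₀ ⟨hk, hkc⟩) hd
    · exact le_inf le_sup_right inf_le_right
  have hEK : K ⊔ (D ⊓ Subgroup.centralizer (T : Set G)) ≤ Subgroup.normalizer (K : Set G) :=
    sup_le Subgroup.le_normalizer (hD₀D.trans hDK)
  have hd₀C : d₀ ∈ Subgroup.normalizer ((D ⊓ Subgroup.centralizer (T : Set G) : Subgroup G) : Set G) :=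
    mem_norm_inf (Subgroup.le_normalizer hd₀) (mem_norm_centralizer (hDT hd₀))
  have hd₀E : d₀ ∈ Subgroup.normalizer ((K ⊔ (D ⊓ Subgroup.centralizer (T : Set G)) : Subgroup G) : Set G) :=
    mem_norm_sup (hDK hd₀) hd₀C
  have hcore := core hs hE le_sup_left hEK (by rw [hccE])
    (comm_mem_sup (hD₀D.trans hDK) (fun a ha b hb => hab a (hD₀D ha) b (hD₀D hb))) h {d₀}
    (by rintro a rfl; exact hd₀E) (by rintro a rfl; exact hDT hd₀)
  rw [hccE] at hcore
  rw [ext_iff_cyc le_sup_left hEle (Subgroup.mem_sup_right hd₀) (by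
      rw [sup_assoc]
      exact sup_le_sup_left hgen _) hd₀E h.irr, hcore,
    ext_iff_cyc hCD₀ hD₀D hd₀ hgen hd₀C h.irr']

theorem mem_norm_comm {S : Subgroup G} {y : G} (hy : y ∈ Subgroup.normalizer (S : Set G)) :
    y ∈ Subgroup.normalizer ((⁅S, S⁆ : Subgroup G) : Set G) := by
  apply mem_normalizer_of
  intro x hx
  have : ⁅S, S⁆ ≤ (⁅S, S⁆ : Subgroup G).comap (MulAut.conj y).toMonoidHom := by
    rw [Subgroup.commutator_le]
    intro a ha b hb
    show y * ⁅a, b⁆ * y⁻¹ ∈ ⁅S, S⁆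
    have h1 : y * ⁅a, b⁆ * y⁻¹ = ⁅y * a * y⁻¹, y * b * y⁻¹⁆ := by
      simp only [commutatorElement_def]
      group
    rw [h1]
    exact Subgroup.commutator_mem_commutator (((Subgroup.mem_normalizer_iff.mp hy) a).mp ha)
      (((Subgroup.mem_normalizer_iff.mp hy) b).mp hb)
  exact this hx

set_option maxHeartbeats 600000 in
theorem chief_step {S D : Subgroup G} (hS : IsPGroup p S) (hS1 : S ≠ ⊥) (hp' : ¬ p ∣ Nat.card D)
    (hDS : D ≤ Subgroup.normalizer (S : Set G))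
    (hab : ∀ a ∈ D, ∀ b ∈ D, a * b * a⁻¹ * b⁻¹ ∈ Subgroup.centralizer (S : Set G)) :
    ∃ S₁ T : Subgroup G, ∃ d₀ ∈ D, S₁ < S ∧ T ≤ S ∧ S ≤ Subgroup.normalizer (S₁ : Set G) ∧
      D ≤ Subgroup.normalizer (S₁ : Set G) ∧ D ≤ Subgroup.normalizer (T : Set G) ∧ S ≤ S₁ ⊔ T ∧
      D ≤ (D ⊓ Subgroup.centralizer (T : Set G)) ⊔ Subgroup.zpowers d₀ := by
  classical
  -- the maximal invariant subgroup
  obtain ⟨S₁, hmem, hmax⟩ := (Set.toFinite {R : Subgroup G | ⁅S, S⁆ ≤ R ∧ R < S ∧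
    D ≤ Subgroup.normalizer (R : Set G)}).exists_maximal
      ⟨⁅S, S⁆, le_rfl, CoprimeAction2.commutator_lt_of_pgroup hS hS Subgroup.le_normalizer hS1,
        fun y hy => mem_norm_comm (hDS hy)⟩
  obtain ⟨hcS₁, hltS, hDS₁⟩ := hmem
  have hleS : S₁ ≤ S := hltS.le
  have hSS₁ : S ≤ Subgroup.normalizer (S₁ : Set G) := by
    intro y hy
    apply mem_normalizer_of
    intro x hx
    have h1 : y * x * y⁻¹ = ⁅y, x⁆ * x := by simp only [commutatorElement_def]; group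
    rw [h1]
    exact S₁.mul_mem (hcS₁ (Subgroup.commutator_mem_commutator hy (hleS hx))) hx
  have hn' : (S₁.subgroupOf S).Normal := by
    refine ⟨fun n hn' g => ?_⟩
    rw [Subgroup.mem_subgroupOf] at hn' ⊢
    exact ((Subgroup.mem_normalizer_iff.mp (hSS₁ g.2)) _).mp hn'
  let V := S ⧸ S₁.subgroupOf S
  have hVc : ∀ a b : V, a * b = b * a := by
    intro a b
    obtain ⟨a, rfl⟩ := QuotientGroup.mk_surjective a
    obtain ⟨b, rfl⟩ := QuotientGroup.mk_surjective b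
    rw [← QuotientGroup.mk_mul, ← QuotientGroup.mk_mul, QuotientGroup.eq, Subgroup.mem_subgroupOf]
    have h1 : (((a * b)⁻¹ * (b * a) : S) : G) = ⁅(b : G)⁻¹, (a : G)⁻¹⁆ := by
      simp only [commutatorElement_def]
      push_cast
      group
    rw [h1]
    exact hcS₁ (Subgroup.commutator_mem_commutator (S.inv_mem b.2) (S.inv_mem a.2))
  letI : CommGroup V := { (inferInstance : Group V) with mul_comm := hVc }
  have hcmap : ∀ d : D, (S₁.subgroupOf S).map (conjAct S D (norm_mem hDS) d).toMonoidHom = S₁.subgroupOf S := by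
    intro d
    apply Subgroup.eq_of_le_of_card_ge
    · rintro _ ⟨x, hx, rfl⟩
      exact norm_mem hDS₁ d d.2 _ hx
    · rw [Subgroup.card_map_of_injective (conjAct S D (norm_mem hDS) d).injective]
  let φ : D →* MulAut V := MonoidHom.mk' (fun d => QuotientGroup.congr _ _ (conjAct S D (norm_mem hDS) d) (hcmap d)) (by
    intro a b
    ext x
    obtain ⟨x, rfl⟩ := QuotientGroup.mk_surjective x
    show ((conjAct S D (norm_mem hDS) (a * b) x : S) : V) = ((conjAct S D (norm_mem hDS) a (conjAct S D (norm_mem hDS) b x) : S) : V)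
    rw [map_mul]
    rfl)
  have hφ : ∀ (d : D) (s : S), φ d (s : V) = ((conjAct S D (norm_mem hDS) d s : S) : V) := fun d s => rfl
  have hφfix : ∀ (d : D) (s : S), φ d (s : V) = (s : V) ↔ (d : G) * s * (d : G)⁻¹ * (s : G)⁻¹ ∈ S₁ := by
    intro d s
    rw [hφ, QuotientGroup.eq, Subgroup.mem_subgroupOf]
    have h1 : (((conjAct S D (norm_mem hDS) d s)⁻¹ * s : S) : G) =
        ((d : G) * s * (d : G)⁻¹)⁻¹ * ((d : G) * s * (d : G)⁻¹ * (s : G)⁻¹)⁻¹ * ((d : G) * s * (d : G)⁻¹)⁻¹⁻¹ := by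
      push_cast [conjAct_coe]
      group
    rw [h1, ← (Subgroup.mem_normalizer_iff.mp (hSS₁ (S.inv_mem (norm_mem hDS d d.2 s s.2)))) _]
    exact S₁.inv_mem_iff
  -- commutators of `D` centralise `S`
  have hfix : ∀ a b : D, ∀ x ∈ S, (a : G) * b * x * ((a : G) * b)⁻¹ = (b : G) * a * x * ((b : G) * a)⁻¹ := by
    intro a b x hx
    have h1 := hab a a.2 b b.2
    have h2 : (b : G) * a * x * ((b : G) * a)⁻¹ ∈ S := norm_mem hDS _ (D.mul_mem b.2 a.2) x hx
    have h3 := (Subgroup.mem_centralizer_iff.mp h1) _ h2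
    have h4 : (a : G) * b * x * ((a : G) * b)⁻¹ = (a * b * (a : G)⁻¹ * (b : G)⁻¹) *
        ((b : G) * a * x * ((b : G) * a)⁻¹) * (a * b * (a : G)⁻¹ * (b : G)⁻¹)⁻¹ := by group
    rw [h4, ← h3, mul_inv_cancel_right]
  have hφc : ∀ a b : D, φ a * φ b = φ b * φ a := by
    intro a b
    rw [← map_mul, ← map_mul]
    ext x
    obtain ⟨x, rfl⟩ := QuotientGroup.mk_surjective x
    rw [hφ, hφ]
    congr 1
    apply Subtype.ext
    rw [conjAct_coe, conjAct_coe]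
    push_cast
    exact hfix a b x x.2
  have hfpf : FrobAction.IsFPF φ.range.subtype := by
    rintro ⟨_, d, rfl⟩ hne v hv
    obtain ⟨v, rfl⟩ := QuotientGroup.mk_surjective v
    have hv' : (d : G) * v * (d : G)⁻¹ * (v : G)⁻¹ ∈ S₁ := (hφfix d v).mp hv
    -- the fixed subgroup
    let R : Subgroup G :=
      { carrier := {s | s ∈ S ∧ (d : G) * s * (d : G)⁻¹ * s⁻¹ ∈ S₁}
        one_mem' := ⟨S.one_mem, by simp [S₁.one_mem]⟩
        mul_mem' := by
          rintro a b ⟨ha, ha'⟩ ⟨hb, hb'⟩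
          refine ⟨S.mul_mem ha hb, ?_⟩
          have h1 : (d : G) * (a * b) * (d : G)⁻¹ * (a * b)⁻¹ =
              ((d : G) * a * (d : G)⁻¹ * a⁻¹) * (a * ((d : G) * b * (d : G)⁻¹ * b⁻¹) * a⁻¹) := by group
          rw [h1]
          exact S₁.mul_mem ha' (norm_mem hSS₁ a ha _ hb')
        inv_mem' := by
          rintro a ⟨ha, ha'⟩
          refine ⟨S.inv_mem ha, ?_⟩
          have h1 : (d : G) * a⁻¹ * (d : G)⁻¹ * a⁻¹⁻¹ =
              ((d : G) * a * (d : G)⁻¹)⁻¹ * a := by group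
          have h2 : ((d : G) * a * (d : G)⁻¹)⁻¹ * a = a⁻¹ * ((d : G) * a * (d : G)⁻¹ * a⁻¹)⁻¹ * a⁻¹⁻¹ := by group
          rw [h1, h2]
          exact norm_mem hSS₁ _ (S.inv_mem ha) _ (S₁.inv_mem ha') }
    have hRS : R ≤ S := fun x hx => hx.1
    have hS₁R : S₁ ≤ R := fun x hx => ⟨hleS hx, S₁.mul_mem (norm_mem hDS₁ d d.2 x hx) (S₁.inv_mem hx)⟩
    have hDR : D ≤ Subgroup.normalizer (R : Set G) := by
      intro e he
      apply mem_normalizer_of
      rintro x ⟨hx, hx'⟩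
      refine ⟨norm_mem hDS e he x hx, ?_⟩
      have h1 := hfix d ⟨e, he⟩ x hx
      have h2 : (d : G) * (e * x * e⁻¹) * (d : G)⁻¹ * (e * x * e⁻¹)⁻¹ =
          ((d : G) * e * x * ((d : G) * e)⁻¹) * (e * x * e⁻¹)⁻¹ := by group
      have h3 : (d : G) * e * x * ((d : G) * e)⁻¹ = e * d * x * (e * (d : G))⁻¹ := h1
      rw [h2, h3]
      have h4 : e * d * x * (e * (d : G))⁻¹ * (e * x * e⁻¹)⁻¹ = e * ((d : G) * x * (d : G)⁻¹ * x⁻¹) * e⁻¹ := by group
      rw [h4]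
      exact norm_mem hDS₁ e he _ hx'
    by_cases hRe : R = S
    · exfalso
      apply hne
      apply Subtype.ext
      show φ d = 1
      ext x
      obtain ⟨x, rfl⟩ := QuotientGroup.mk_surjective x
      have h1 : (x : G) ∈ R := by rw [hRe]; exact x.2
      exact (hφfix d x).mpr h1.2
    · have h1 : R ≤ S₁ := hmax ⟨hcS₁.trans hS₁R, lt_of_le_of_ne hRS hRe, hDR⟩ hS₁R
      have h2 : (v : G) ∈ S₁ := h1 ⟨v.2, hv'⟩
      exact (QuotientGroup.eq_one_iff v).mpr h2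
  haveI : Nontrivial V := by
    obtain ⟨x, hx, hx'⟩ := SetLike.exists_of_lt hltS
    refine ⟨⟨((⟨x, hx⟩ : S) : V), 1, fun h => hx' ?_⟩⟩
    exact (QuotientGroup.eq_one_iff (⟨x, hx⟩ : S)).mp h
  have hcyc : IsCyclic φ.range := FrobAction.isCyclic_of_comm hfpf (by
    rintro ⟨_, a, rfl⟩ ⟨_, b, rfl⟩
    exact Subtype.ext (hφc a b))
  obtain ⟨⟨_, d₀, rfl⟩, hgen⟩ := hcyc
  let D₀ : Subgroup G := φ.ker.map D.subtype
  have hD₀D : D₀ ≤ D := Subgroup.map_subtype_le _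
  have hD₀S : ∀ a ∈ D₀, ∀ s ∈ S, a * s * a⁻¹ * s⁻¹ ∈ S₁ := by
    rintro _ ⟨a, ha, rfl⟩ s hs
    rw [SetLike.mem_coe, MonoidHom.mem_ker] at ha
    apply (hφfix a ⟨s, hs⟩).mp
    rw [ha]
    rfl
  have hDD₀ : D ≤ Subgroup.normalizer (D₀ : Set G) := by
    intro e he
    apply mem_normalizer_of
    rintro _ ⟨a, ha, rfl⟩
    have hk : (⟨e, he⟩ * a * ⟨e, he⟩⁻¹ : D) ∈ φ.ker := by
      rw [MonoidHom.mem_ker, map_mul, map_mul, map_inv]
      rw [SetLike.mem_coe, MonoidHom.mem_ker] at ha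
      rw [ha, mul_one, mul_inv_cancel]
    exact Subgroup.mem_map.mpr ⟨_, hk, by push_cast; rfl⟩
  have hDT : D ≤ Subgroup.normalizer ((S ⊓ Subgroup.centralizer (D₀ : Set G) : Subgroup G) : Set G) := fun e he =>
    mem_norm_inf (hDS he) (mem_norm_centralizer (hDD₀ he))
  refine ⟨S₁, S ⊓ Subgroup.centralizer (D₀ : Set G), d₀, d₀.2, hltS, inf_le_left, hSS₁, hDS₁, hDT, ?_, ?_⟩
  · intro s hs
    have hcop : (Nat.card D₀).Coprime (Nat.card S₁) := by
      obtain ⟨n, hn⟩ := (IsPGroup.iff_card.mp (hS.to_le hleS))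
      rw [hn]
      apply Nat.Coprime.pow_right
      exact ((Nat.Prime.coprime_iff_not_dvd hp.out).mpr (fun h => hp' (h.trans (Subgroup.card_dvd_of_le hD₀D)))).symm
    have hsol : Group.IsSolvable S₁ := by
      haveI : Group.IsNilpotent S₁ := (hS.to_le hleS).isNilpotent
      infer_instance
    obtain ⟨c, hc, hc'⟩ := CoprimeAction.exists_mem_centralizer_of_quotient (A := D₀) (N := S₁) (hD₀D.trans hDS₁)
      hcop (Or.inr hsol) s (hSS₁ hs) (fun a ha => hD₀S a ha s hs)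
    have hcS : c ∈ S := by
      have h1 := S.mul_mem hs (hleS hc')
      rwa [mul_inv_cancel_left] at h1
    rw [sup_comm]
    have h1 : s = c * (s⁻¹ * c)⁻¹ := by group
    rw [h1]
    exact Subgroup.mul_mem_sup ⟨hcS, hc⟩ (S₁.inv_mem hc')
  · intro d hd
    obtain ⟨i, hi⟩ := Subgroup.mem_zpowers_iff.mp (hgen ⟨φ ⟨d, hd⟩, ⟨d, hd⟩, rfl⟩)
    have h1 : φ d₀ ^ i = φ ⟨d, hd⟩ := congrArg Subtype.val hi
    have h2 : (⟨d, hd⟩ * (d₀ ^ i)⁻¹ : D) ∈ φ.ker := by
      rw [MonoidHom.mem_ker, map_mul, map_inv, map_zpow, h1, mul_inv_cancel]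
    have h3 : d * ((d₀ : G) ^ i)⁻¹ ∈ D₀ := ⟨_, h2, by push_cast; rfl⟩
    have h4 : d = (d * ((d₀ : G) ^ i)⁻¹) * (d₀ : G) ^ i := by group
    have h5 : d * ((d₀ : G) ^ i)⁻¹ ∈ Subgroup.centralizer ((S ⊓ Subgroup.centralizer (D₀ : Set G) : Subgroup G) : Set G) := by
      rw [Subgroup.mem_centralizer_iff]
      rintro t ⟨_, ht⟩
      exact ((Subgroup.mem_centralizer_iff.mp ht) _ h3).symm
    rw [h4]
    exact Subgroup.mul_mem_sup (Subgroup.mem_inf.mpr ⟨hD₀D h3, h5⟩) (Subgroup.zpow_mem_zpowers _ _)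

theorem cc_bot (K : Subgroup G) : cc K ⊥ = K := by
  unfold cc
  rw [inf_eq_left]
  intro x _
  rw [Subgroup.mem_centralizer_iff]
  intro t ht
  rw [SetLike.mem_coe, Subgroup.mem_bot] at ht
  rw [ht, one_mul, mul_one]

theorem centralizer_mono' {A B : Subgroup G} (h : A ≤ B) :
    Subgroup.centralizer (B : Set G) ≤ Subgroup.centralizer (A : Set G) :=
  Subgroup.centralizer_le h

/-- transitivity of the correspondence -/
theorem Corr.trans {K S S₁ T : Subgroup G} (hs : Sys p K S) (hS₁S : S₁ ≤ S) (hTS : T ≤ S)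
    (hSS₁ : S ≤ Subgroup.normalizer (S₁ : Set G)) (hgen : S ≤ S₁ ⊔ T) {θ θ' θ₁ : G → ℂ} (h : Corr p K S θ θ')
    (h1 : Corr p K S₁ θ θ₁) :
    Sys p (cc K S₁) T ∧ cc (cc K S₁) T = cc K S ∧ Corr p (cc K S₁) T θ₁ θ' := by
  have hs₁ : Sys p K S₁ := ⟨hs.hK, hs.hT.to_le hS₁S, hS₁S.trans hs.hn⟩
  have hcc : cc (cc K S₁) T = cc K S := by
    apply le_antisymm
    · intro x hx
      refine ⟨cc_le _ _ (cc_le _ _ hx), ?_⟩
      have h2 : S ≤ Subgroup.centralizer ({x} : Set G) := by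
        refine hgen.trans (sup_le ?_ ?_)
        · intro t ht
          rw [Subgroup.mem_centralizer_singleton_iff]
          exact (Subgroup.mem_centralizer_iff.mp (cc_le' _ _ (cc_le _ _ hx))) t ht
        · intro t ht
          rw [Subgroup.mem_centralizer_singleton_iff]
          exact (Subgroup.mem_centralizer_iff.mp (cc_le' _ _ hx)) t ht
      show x ∈ Subgroup.centralizer (S : Set G)
      rw [Subgroup.mem_centralizer_iff]
      intro t ht
      have := h2 ht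
      rwa [Subgroup.mem_centralizer_singleton_iff] at this
    · intro x hx
      exact ⟨⟨hx.1, centralizer_mono' hS₁S hx.2⟩, centralizer_mono' hTS hx.2⟩
  have hTK : T ≤ Subgroup.normalizer ((cc K S₁ : Subgroup G) : Set G) := fun t ht =>
    mem_norm_cc (hs.hn (hTS ht)) (hSS₁ (hTS ht))
  have hs₂ : Sys p (cc K S₁) T := ⟨fun hd => hs.hK (hd.trans (Subgroup.card_dvd_of_le (cc_le _ _))),
    hs.hT.to_le hTS, hTK⟩
  have hinv : TI T (cc K S₁) θ₁ := by
    intro t ht k hk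
    have h2 := (h1.stab_iff hs₁ (hs.hn (hTS ht)) (hSS₁ (hTS ht))).mp
      ⟨hs.hn (hTS ht), fun n hn => h.inv t (hTS ht) n hn⟩
    exact h2.2 k hk
  obtain ⟨g, hg, hg'⟩ := hs₂.ex_down h1.irr'
  have h3 : mu (cc (cc K S₁) T) θ g ≡ mu (cc K S₁) θ θ₁ * mu (cc (cc K S₁) T) θ₁ g [MOD p] := by
    apply cong hs₂.hn hs₂.hT (cc_le _ _) (cc_le' _ _) (h.irr.ch.res (cc_le _ _)) _ hg.ch h1.irr' hinv
    · intro η hη _ hne
      by_contra hnd
      apply hne
      exact hs₁.uniq_down h1.irr h1.inv hη h1.irr' (fun h => hnd (h.mul_right _)) h1.nd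
    · intro t ht k hk
      exact h.inv t (hTS ht) k (cc_le _ _ hk)
  have h4 : ¬ p ∣ mu (cc (cc K S₁) T) θ g := by
    intro hd
    have h5 := (Nat.ModEq.dvd_iff h3 dvd_rfl).mp hd
    rcases hp.out.dvd_mul.mp h5 with h6 | h6
    · exact h1.nd h6
    · exact hg' h6
  rw [hcc] at hg hg' h4
  have h5 := hs.uniq_down h.irr h.inv hg h.irr' h4 h.nd
  refine ⟨hs₂, hcc, ⟨h1.irr', hinv, by rw [hcc]; exact h.irr', ?_⟩⟩
  rw [hcc, ← mu_congr (fun _ _ => rfl) h5]
  exact hg'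

/-- **The chain.** -/
theorem chain (n : ℕ) : ∀ (S K D : Subgroup G) (θ θ' : G → ℂ), Nat.card S = n → Sys p K S →
    D ≤ Subgroup.normalizer (K : Set G) → D ≤ Subgroup.normalizer (S : Set G) →
    ¬ p ∣ Nat.card (K ⊔ D : Subgroup G) → K ⊓ D ≤ Subgroup.centralizer (S : Set G) →
    (∀ a ∈ D, ∀ b ∈ D, a * b * a⁻¹ * b⁻¹ ∈ K) → Corr p K S θ θ' →
    (Ext K θ (K ⊔ D) ↔ Ext (cc K S) θ' (cc K S ⊔ D)) := by
  induction n using Nat.strong_induction_on with
  | _ n ih =>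
  intro S K D θ θ' hn hs hDK hDS hp' hKD hab h
  by_cases hS1 : S = ⊥
  · subst hS1
    have h1 := h.nd
    have h2 := h.irr'
    rw [cc_bot] at h1 h2 ⊢
    apply Ext.congr
    by_contra hne
    apply h1
    have h3 : ip K θ θ' = 0 := by
      refine IsIrrCharacter.classInner_eq_zero h.irr h2 ?_
      intro h4
      apply hne
      intro k hk
      exact congrFun h4 ⟨k, hk⟩
    unfold mu
    rw [h3]
    simp
  -- the chief step
  have hpD : ¬ p ∣ Nat.card D := fun hd => hp' (hd.trans (Subgroup.card_dvd_of_le le_sup_right))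
  obtain ⟨S₁, T, d₀, hd₀, hlt, hTS, hSS₁, hDS₁, hDT, hgen, hcyc⟩ := chief_step hs.hT hS1 hpD hDS
    (fun a ha b hb => hKD ⟨hab a ha b hb, D.mul_mem (D.mul_mem (D.mul_mem ha hb) (D.inv_mem ha)) (D.inv_mem hb)⟩)
  have hs₁ : Sys p K S₁ := ⟨hs.hK, hs.hT.to_le hlt.le, hlt.le.trans hs.hn⟩
  obtain ⟨θ₁, hθ₁, hθ₁'⟩ := hs₁.ex_down h.irr
  have h1 : Corr p K S₁ θ θ₁ := ⟨h.irr, fun t ht k hk => h.inv t (hlt.le ht) k hk, hθ₁, hθ₁'⟩
  obtain ⟨hs₂, hcc, h2⟩ := h.trans hs hlt.le hTS hSS₁ hgen h1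
  have hcard : Nat.card S₁ < n := by
    rw [← hn]
    refine lt_of_le_of_ne (Nat.le_of_dvd Nat.card_pos (Subgroup.card_dvd_of_le hlt.le)) ?_
    intro h0
    exact hlt.ne (Subgroup.eq_of_le_of_card_ge hlt.le h0.ge)
  rw [ih _ hcard S₁ K D θ θ₁ rfl hs₁ hDK hDS₁ hp' (hKD.trans (centralizer_mono' hlt.le)) hab h1]
  -- the step
  have hCK₁ : cc K S ≤ cc K S₁ := by rw [← hcc]; exact cc_le _ _
  have hDK₁ : D ≤ Subgroup.normalizer ((cc K S₁ : Subgroup G) : Set G) := fun d hd =>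
    mem_norm_cc (hDK hd) (hDS₁ hd)
  have hDC : D ≤ Subgroup.normalizer ((cc K S : Subgroup G) : Set G) := fun d hd =>
    mem_norm_cc (hDK hd) (hDS hd)
  have hDsK₁ : cc K S ⊔ D ≤ Subgroup.normalizer ((cc K S₁ : Subgroup G) : Set G) :=
    sup_le (hCK₁.trans Subgroup.le_normalizer) hDK₁
  have hCT : cc K S ≤ Subgroup.centralizer (T : Set G) := (cc_le' _ _).trans (centralizer_mono' hTS)
  have hsup : cc K S₁ ⊔ (cc K S ⊔ D) = cc K S₁ ⊔ D := by
    rw [← sup_assoc, sup_eq_left.mpr hCK₁]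
  have hstep := step hs₂ hDsK₁ (sup_le (hCT.trans (centralizer_le_normalizer T)) hDT) (by
      rw [hsup]
      exact fun hd => hp' (hd.trans (Subgroup.card_dvd_of_le (sup_le_sup_right (cc_le _ _) _)))) (by
      rw [hcc]
      apply le_antisymm
      · intro x hx
        obtain ⟨hx1, hx2⟩ := Subgroup.mem_inf.mp hx
        rw [SubgroupTools.mem_sup_of_le_normalizer hDC] at hx2
        obtain ⟨c, hc, d, hd, rfl⟩ := hx2
        have hdK : d ∈ K := by
          have h3 := K.mul_mem (K.inv_mem (cc_le _ _ hc)) (cc_le _ _ hx1)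
          rwa [inv_mul_cancel_left] at h3
        exact Subgroup.mul_mem _ hc ⟨hdK, hKD ⟨hdK, hd⟩⟩
      · exact le_inf hCK₁ le_sup_left)
      (by
        have h3 : ∀ a ∈ D, ∀ b ∈ D, a * b * a⁻¹ * b⁻¹ ∈ cc K S := fun a ha b hb =>
          ⟨hab a ha b hb, hKD ⟨hab a ha b hb, D.mul_mem (D.mul_mem (D.mul_mem ha hb) (D.inv_mem ha)) (D.inv_mem hb)⟩⟩
        intro a ha b hb
        exact hCK₁ (comm_mem_sup hDC h3 a ha b hb))
      (d₀ := d₀) (Subgroup.mem_sup_right hd₀) (by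
        refine sup_le ?_ ?_
        · exact (le_inf le_sup_left hCT).trans le_sup_left
        · refine hcyc.trans (sup_le_sup_right ?_ _)
          exact inf_le_inf_right _ le_sup_right) h2
  rw [hsup, hcc] at hstep
  exact hstep

end step

end Cfsg.Agent.Lib.RMck
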