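import Cfsg.Agent.Lib.RMck4
import Cfsg.Agent.Lib.DegRatio
import Cfsg.Agent.Lib.CoprimeCount

/-!
# Characters of `KS` of degree prime to `p` (helper74)
-/

set_option autoImplicit false
set_option linter.all false

namespace Cfsg.Agent.Lib.RMck

open scoped ComplexConjugate
open Cfsg Cfsg.Agent.Lib.CharBasic Cfsg.Agent.Lib.Clifford Cfsg.Agent.Lib.CliffordCorr
open Cfsg.Agent.Lib.CanonExt Cfsg.Agent.Lib.GlaubCorr Cfsg.Agent.Lib.BlockRing

universe u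

attribute [local instance 5000] Fintype.ofFinite

section degree

variable {G : Type u} [Group G]

/-- degree -/
noncomputable def dg (f : G → ℂ) : ℕ := ⌊(f 1).re⌋₊

theorem dg_spec {H : Subgroup G} {f : G → ℂ} (h : ChOn H f) : f 1 = (dg f : ℂ) := by
  have h' : IsCharacter H (fun x : H => f x) := h
  obtain ⟨n, hn⟩ := h'.exists_degree
  have h1 : f 1 = n := hn
  unfold dg
  rw [h1]
  simp

theorem dg_pos {H : Subgroup G} {f : G → ℂ} (h : IrrOn H f) : 0 < dg f := by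
  have h1 := h.one_ne
  rw [dg_spec h.ch] at h1
  exact Nat.pos_of_ne_zero (by exact_mod_cast h1)

theorem charDegree_eq_dg {H : Subgroup G} (χ : H → ℂ) : charDegree χ = dg (lf H χ) := by
  unfold charDegree dg
  rw [lf_mem H χ H.one_mem]
  rfl

theorem dg_congr {f g : G → ℂ} (h : f 1 = g 1) : dg f = dg g := by
  unfold dg
  rw [h]

theorem dg_conj (f : G → ℂ) (y : G) : dg (fun g => f (y * g * y⁻¹)) = dg f := by
  apply dg_congr
  simp

variable [Finite G]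

theorem dg_dvd {H : Subgroup G} {f : G → ℂ} (h : IrrOn H f) : dg f ∣ Nat.card H :=
  CharApps.irr_degree_dvd_card (show IsIrrCharacter H (fun x : H => f x) from h) (dg_spec h.ch)

theorem dg_over {N H : Subgroup G} (hNH : N ≤ H) (hn : H ≤ Subgroup.normalizer (N : Set G)) {χ θ : G → ℂ}
    (hχ : IrrOn H χ) (hθ : IrrOn N θ) (ho : ip N χ θ ≠ 0) : ∃ f, dg χ = f * dg θ ∧ f ∣ N.relIndex H := by
  have hn' : (N.subgroupOf H).Normal := SubgroupTools.normal_subgroupOf_iff_le_normalizer' hn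
  have hϑ : IsIrrCharacter (N.subgroupOf H) (fun n => θ ((n : H) : G)) := (irrOn_sub hNH).mpr hθ
  exact DegRatio.degree_ratio (show IsIrrCharacter H (fun x : H => χ x) from hχ) hϑ (by
    rw [show classInner (fun n : N.subgroupOf H => χ ((n : H) : G)) (fun n => θ ((n : H) : G)) = ip N χ θ from ip_sub hNH χ θ]
    exact ho) (dg_spec hχ.ch) (dg_spec hθ.ch)

variable {p : ℕ} [hp : Fact p.Prime]

theorem dvd_dg_iff {N H : Subgroup G} (hNH : N ≤ H) (hn : H ≤ Subgroup.normalizer (N : Set G)) {χ θ : G → ℂ}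
    (hχ : IrrOn H χ) (hθ : IrrOn N θ) (ho : ip N χ θ ≠ 0) (hidx : ¬ p ∣ N.relIndex H) : p ∣ dg χ ↔ p ∣ dg θ := by
  obtain ⟨f, h1, h2⟩ := dg_over hNH hn hχ hθ ho
  rw [h1, hp.out.dvd_mul]
  exact ⟨fun h => h.resolve_left (fun h3 => hidx (h3.trans h2)), Or.inr⟩

theorem ndvd_of_over {N H : Subgroup G} (hNH : N ≤ H) (hn : H ≤ Subgroup.normalizer (N : Set G)) {χ θ : G → ℂ}
    (hχ : IrrOn H χ) (hθ : IrrOn N θ) (ho : ip N χ θ ≠ 0) (h : ¬ p ∣ dg χ) : ¬ p ∣ dg θ := by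
  obtain ⟨f, h1, h2⟩ := dg_over hNH hn hχ hθ ho
  rw [h1] at h
  exact fun h3 => h (h3.mul_left _)

/-- existence of a constituent -/
theorem exists_const {N H : Subgroup G} (hNH : N ≤ H) {χ : G → ℂ} (hχ : IrrOn H χ) :
    ∃ θ : IrrCharacter N, ip N χ (lf N θ) ≠ 0 := by
  obtain ⟨θ, hθ⟩ := Clifford.exists_constituent (show IsCharacter N (fun x : N => χ x) from hχ.ch.res hNH) (by
    intro h
    exact hχ.one_ne (congrFun h 1))
  refine ⟨θ, ?_⟩
  unfold ip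
  rwa [lf_fun]

/-- a character of degree prime to `p` stays irreducible on a normal subgroup of `p`-power index -/
theorem irr_of_index {N H : Subgroup G} (hNH : N ≤ H) (hn : H ≤ Subgroup.normalizer (N : Set G)) {χ : G → ℂ}
    (hχ : IrrOn H χ) (hidx : ∃ n, N.relIndex H = p ^ n) (h : ¬ p ∣ dg χ) : IrrOn N χ := by
  obtain ⟨θ, hθ⟩ := exists_const hNH hχ
  obtain ⟨f, h1, h2⟩ := dg_over hNH hn hχ (chOn_lf θ) hθ
  obtain ⟨n, hn'⟩ := hidx
  rw [hn'] at h2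
  obtain ⟨k, hk, rfl⟩ := (Nat.dvd_prime_pow hp.out).mp h2
  have hk0 : k = 0 := by
    by_contra hk0
    apply h
    rw [h1]
    exact (dvd_pow_self p hk0).mul_right _
  subst hk0
  rw [pow_zero, one_mul] at h1
  have h3 := (Clifford.degree_le_of_constituent' (show IsCharacter N (fun x : N => χ x) from hχ.ch.res hNH)
    (chOn_lf θ) hθ (dg_spec (hχ.ch.res hNH)) (dg_spec (chOn_lf θ).ch)).2 h1.le
  apply (chOn_lf θ).congr
  intro x hx
  exact (congrFun h3 ⟨x, hx⟩).symm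

end degree

section det

variable {G : Type u} [Group G] [Finite G]

/-- determinant -/
noncomputable def dt (M : Subgroup G) (φ : G → ℂ) : G → ℂ := lf M (detChar (fun m : M => φ m))

theorem exists_dt {M : Subgroup G} {φ : G → ℂ} (h : ChOn M φ) : ∃ δ : M →* ℂˣ, ∀ m : M, dt M φ m = δ m := by
  obtain ⟨δ, hδ⟩ := DetChar.exists_detHom (show IsCharacter M (fun m : M => φ m) from h)
  exact ⟨δ, fun m => by rw [dt, lf_coe, hδ]⟩

theorem dt_congr {M : Subgroup G} {φ ψ : G → ℂ} (h : ∀ m ∈ M, φ m = ψ m) : dt M φ = dt M ψ := by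
  unfold dt
  rw [show (fun m : M => φ m) = fun m : M => ψ m from funext fun m => h m m.2]

theorem dt_conj {M : Subgroup G} {y : G} (hy : y ∈ Subgroup.normalizer (M : Set G)) {φ : G → ℂ} (h : ChOn M φ)
    {m : G} (hm : m ∈ M) : dt M (fun g => φ (y * g * y⁻¹)) m = dt M φ (y * m * y⁻¹) := by
  have hym : y * m * y⁻¹ ∈ M := ((Subgroup.mem_normalizer_iff.mp hy) m).mp hm
  let e : M →* M :=
    { toFun := fun g => ⟨y * g * y⁻¹, ((Subgroup.mem_normalizer_iff.mp hy) _).mp g.2⟩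
      map_one' := Subtype.ext (by simp)
      map_mul' := fun a b => Subtype.ext (by simp [mul_assoc]) }
  unfold dt
  rw [lf_mem M _ hm, lf_mem M _ hym]
  exact DetChar.detChar_comp (show IsCharacter M (fun m : M => φ m) from h) e ⟨m, hm⟩

theorem dt_mul {M : Subgroup G} {φ ψ : G → ℂ} (h : ChOn M φ) {β : M →* ℂˣ} (h' : ∀ m : M, ψ m = β m * φ m)
    (m : M) : dt M ψ m = (β m : ℂ) ^ dg φ * dt M φ m := by
  unfold dt
  rw [lf_coe, lf_coe, ← DetChar.detChar_mul_linear (show IsCharacter M (fun m : M => φ m) from h) (dg_spec h) β m]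
  congr 1
  funext x
  exact h' x

theorem dt_central {M : Subgroup G} {φ : G → ℂ} (h : IrrOn M φ) {z : G} (hz : z ∈ M) (hc : ∀ m ∈ M, z * m = m * z) :
    ∃ ω : ℂ, dt M φ z = ω ^ dg φ ∧ ∀ m ∈ M, φ (m * z) = φ m * ω := by
  obtain ⟨n, ρ, hρ, hρ'⟩ := (show IsIrrCharacter M (fun m : M => φ m) from h)
  have := hρ
  obtain ⟨ω, hω⟩ := CharCentral.exists_scalar_of_commute ρ (ρ ⟨z, hz⟩) (by
    intro g v
    rw [← Module.End.mul_apply, ← Module.End.mul_apply, ← map_mul, ← map_mul]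
    congr 2
    exact Subtype.ext (hc g g.2))
  have hdg : n = dg φ := by
    have h1 := congrFun hρ' 1
    have h2 : φ 1 = (n : ℂ) := by
      rw [show φ 1 = (fun m : M => φ m) 1 from rfl, ← hρ']
      simp
    rw [dg_spec h.ch] at h2
    exact_mod_cast h2.symm
  refine ⟨ω, ?_, ?_⟩
  · unfold dt
    rw [lf_mem M _ hz, ← hρ', DetChar.detChar_character, hω, LinearMap.det_smul, LinearMap.det_id, mul_one, ← hdg]
    congr 1
    simp
  · intro m hm
    have h1 : φ (m * z) = ρ.character (⟨m, hm⟩ * ⟨z, hz⟩) := (congrFun hρ' (⟨m, hm⟩ * ⟨z, hz⟩)).symm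
    have h2 : φ m = ρ.character ⟨m, hm⟩ := (congrFun hρ' ⟨m, hm⟩).symm
    rw [h1, h2]
    unfold Representation.character
    rw [map_mul, hω, Module.End.mul_eq_comp, LinearMap.comp_smul, LinearMap.comp_id, map_smul, smul_eq_mul, mul_comm]

variable {p : ℕ} [hp : Fact p.Prime]

theorem eq_of_pow_eq {a b : ℂ} {k n m : ℕ} (hk : ¬ p ∣ k) (ha : a ^ p ^ n = 1) (hb : b ^ p ^ m = 1)
    (hab : a ^ k = b ^ k) : a = b := by
  have hb0 : b ≠ 0 := by
    rintro rfl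
    rw [zero_pow (pow_ne_zero _ hp.out.ne_zero)] at hb
    exact zero_ne_one hb
  have h1 : (a / b) ^ k = 1 := by
    rw [div_pow, hab, div_self (pow_ne_zero _ hb0)]
  have h2 : (a / b) ^ p ^ (n + m) = 1 := by
    rw [div_pow, pow_add, pow_mul, ha, one_pow, mul_comm (p ^ n) (p ^ m), pow_mul, hb, one_pow, div_one]
  have h3 := pow_gcd_eq_one.mpr ⟨h1, h2⟩
  have h4 : k.gcd (p ^ (n + m)) = 1 := by
    apply Nat.Coprime.pow_right
    exact ((Nat.Prime.coprime_iff_not_dvd hp.out).mpr hk).symm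
  rw [h4, pow_one, div_eq_one_iff_eq hb0] at h3
  exact h3

theorem dt_pow {M S : Subgroup G} (hS : IsPGroup p S) (hSM : S ≤ M) {φ : G → ℂ} (h : ChOn M φ) {s : G} (hs : s ∈ S) :
    ∃ n, dt M φ s ^ p ^ n = 1 := by
  obtain ⟨δ, hδ⟩ := exists_dt h
  obtain ⟨n, hn⟩ := hS ⟨s, hs⟩
  refine ⟨n, ?_⟩
  have h1 := hδ ⟨s, hSM hs⟩
  rw [show dt M φ s = dt M φ ((⟨s, hSM hs⟩ : M) : G) from rfl, h1, ← Units.val_pow_eq_pow_val, ← map_pow]
  have h2 : (⟨s, hSM hs⟩ : M) ^ p ^ n = 1 := by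
    apply Subtype.ext
    have := congrArg Subtype.val hn
    push_cast at this ⊢
    exact this
  rw [h2, map_one, Units.val_one]

theorem Sys.disj {K S : Subgroup G} (hs : Sys p K S) : K ⊓ S = ⊥ := by
  apply SubgroupTools.inf_eq_bot_of_coprime'
  obtain ⟨n, hn⟩ := IsPGroup.iff_card.mp hs.hT
  rw [hn]
  apply Nat.Coprime.pow_right
  exact ((Nat.Prime.coprime_iff_not_dvd hp.out).mpr hs.hK).symm

theorem Sys.normK {K S : Subgroup G} (hs : Sys p K S) : K ⊔ S ≤ Subgroup.normalizer (K : Set G) :=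
  sup_le Subgroup.le_normalizer hs.hn

theorem Sys.index {K S : Subgroup G} (hs : Sys p K S) : K.relIndex (K ⊔ S) = Nat.card S := by
  have h1 := SubgroupTools.card_mul_relIndex_of_le (le_sup_left : K ≤ K ⊔ S)
  have h2 := SubgroupTools.card_sup_of_disjoint hs.hn (disjoint_iff.mpr hs.disj)
  rw [h2] at h1
  exact Nat.eq_of_mul_eq_mul_left Nat.card_pos h1

theorem Sys.index' {K S : Subgroup G} (hs : Sys p K S) : ∃ n, K.relIndex (K ⊔ S) = p ^ n := by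
  obtain ⟨n, hn⟩ := IsPGroup.iff_card.mp hs.hT
  exact ⟨n, by rw [hs.index, hn]⟩

/-- inflation of a linear character of the complement -/
theorem exists_inflate {K S : Subgroup G} (hn : S ≤ Subgroup.normalizer (K : Set G)) (hd : K ⊓ S = ⊥)
    (β : S →* ℂˣ) : ∃ B : (K ⊔ S : Subgroup G) →* ℂˣ, (∀ x : (K ⊔ S : Subgroup G), (x : G) ∈ K → B x = 1) ∧
      ∀ s (hs : s ∈ S), B ⟨s, Subgroup.mem_sup_right hs⟩ = β ⟨s, hs⟩ := by
  have hnn : K ⊔ S ≤ Subgroup.normalizer (K : Set G) := sup_le Subgroup.le_normalizer hn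
  have hex : ∀ x : (K ⊔ S : Subgroup G), ∃ s : S, (x : G) * (s : G)⁻¹ ∈ K := by
    intro x
    have hx := x.2
    rw [SubgroupTools.mem_sup_of_le_normalizer hn] at hx
    obtain ⟨k, hk, s, hs, h⟩ := hx
    refine ⟨⟨s, hs⟩, ?_⟩
    rw [← h]
    simpa using hk
  have huniq : ∀ (x : G) (s t : S), x * (s : G)⁻¹ ∈ K → x * (t : G)⁻¹ ∈ K → s = t := by
    intro x s t h1 h2
    have h3 : (t : G) * (s : G)⁻¹ ∈ K ⊓ S := by
      refine ⟨?_, S.mul_mem t.2 (S.inv_mem s.2)⟩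
      have h4 := K.mul_mem (K.inv_mem h2) h1
      have h5 : (x * (t : G)⁻¹)⁻¹ * (x * (s : G)⁻¹) = (t : G) * (s : G)⁻¹ := by group
      rwa [h5] at h4
    rw [hd, Subgroup.mem_bot, mul_inv_eq_one] at h3
    exact Subtype.ext h3.symm
  choose σ hσ using hex
  have hmul : ∀ x y, σ (x * y) = σ x * σ y := by
    intro x y
    apply huniq ((x * y : (K ⊔ S : Subgroup G)) : G) _ _ (hσ (x * y))
    have h1 : ((x * y : (K ⊔ S : Subgroup G)) : G) * ((σ x * σ y : S) : G)⁻¹ =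
        ((x : G) * ((y : G) * (σ y : G)⁻¹) * (x : G)⁻¹) * ((x : G) * (σ x : G)⁻¹) := by
      push_cast
      group
    rw [h1]
    exact K.mul_mem (norm_mem hnn x x.2 _ (hσ y)) (hσ x)
  refine ⟨β.comp (MonoidHom.mk' σ hmul), fun x hx => ?_, fun s hs => ?_⟩
  · have : σ x = 1 := huniq x _ _ (hσ x) (by simpa using hx)
    show β (σ x) = 1
    rw [this, map_one]
  · have : σ ⟨s, Subgroup.mem_sup_right hs⟩ = ⟨s, hs⟩ := huniq s _ _ (hσ ⟨s, Subgroup.mem_sup_right hs⟩) (by simp [K.one_mem])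
    show β (σ _) = _
    rw [this]

theorem det_unique {K S : Subgroup G} (hs : Sys p K S) {φ₁ φ₂ : G → ℂ} (h1 : IrrOn (K ⊔ S) φ₁)
    (h2 : IrrOn (K ⊔ S) φ₂) (hK : IrrOn K φ₁) (he : ∀ k ∈ K, φ₂ k = φ₁ k)
    (hd : ∀ s ∈ S, dt (K ⊔ S) φ₁ s = dt (K ⊔ S) φ₂ s) : ∀ x ∈ K ⊔ S, φ₁ x = φ₂ x := by
  obtain ⟨β, hβ1, hβ2⟩ := exists_twist (le_sup_left : K ≤ K ⊔ S) hs.normK hK h1 h2 he
  have hS : ∀ s (hs' : s ∈ S), β ⟨s, Subgroup.mem_sup_right hs'⟩ = 1 := by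
    intro s hs'
    have h3 := dt_mul h1.ch hβ2 ⟨s, Subgroup.mem_sup_right hs'⟩
    have h4 : dt (K ⊔ S) φ₂ s = (β ⟨s, Subgroup.mem_sup_right hs'⟩ : ℂ) ^ dg φ₁ * dt (K ⊔ S) φ₁ s := h3
    rw [← hd s hs'] at h4
    obtain ⟨δ, hδ⟩ := exists_dt h1.ch
    have hne : dt (K ⊔ S) φ₁ s ≠ 0 := by
      rw [show dt (K ⊔ S) φ₁ s = dt (K ⊔ S) φ₁ ((⟨s, Subgroup.mem_sup_right hs'⟩ : (K ⊔ S : Subgroup G)) : G) from rfl, hδ]
      exact Units.ne_zero _
    have h5 : (β ⟨s, Subgroup.mem_sup_right hs'⟩ : ℂ) ^ dg φ₁ = 1 ^ dg φ₁ := by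
      rw [one_pow]
      exact (mul_right_cancel₀ hne (by rw [one_mul]; exact h4)).symm
    obtain ⟨n, hn⟩ := hs.hT ⟨s, hs'⟩
    have h6 : (β ⟨s, Subgroup.mem_sup_right hs'⟩ : ℂ) ^ p ^ n = 1 := by
      rw [← Units.val_pow_eq_pow_val, ← map_pow]
      have h7 : (⟨s, Subgroup.mem_sup_right hs'⟩ : (K ⊔ S : Subgroup G)) ^ p ^ n = 1 := by
        apply Subtype.ext
        have := congrArg Subtype.val hn
        push_cast at this ⊢
        exact this
      rw [h7, map_one, Units.val_one]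
    have h8 : ¬ p ∣ dg φ₁ := fun h => hs.hK (h.trans (dg_dvd hK))
    have h9 := eq_of_pow_eq (p := p) (n := n) (m := 0) h8 h6 (one_pow _) h5
    exact Units.ext h9
  intro x hx
  have hx' := hx
  rw [SubgroupTools.mem_sup_of_le_normalizer hs.hn] at hx'
  obtain ⟨k, hk, s, hs', rfl⟩ := hx'
  have h3 := hβ2 ⟨k * s, hx⟩
  have h4 : (⟨k * s, hx⟩ : (K ⊔ S : Subgroup G)) = ⟨k, Subgroup.mem_sup_left hk⟩ * ⟨s, Subgroup.mem_sup_right hs'⟩ := rfl
  rw [h4, map_mul, hβ1 _ hk, hS s hs', one_mul, Units.val_one, one_mul] at h3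
  exact h3.symm

theorem det_exists {K S : Subgroup G} (hs : Sys p K S) {θ : G → ℂ} (hθ : IrrOn K θ) (hT : TI S K θ)
    (β : S →* ℂˣ) : ∃ φ, IrrOn (K ⊔ S) φ ∧ (∀ k ∈ K, φ k = θ k) ∧
      ∀ s : S, dt (K ⊔ S) φ s = (β s : ℂ) ^ dg θ := by
  have hKM : K ≤ K ⊔ S := le_sup_left
  have hn' : (K.subgroupOf (K ⊔ S)).Normal := SubgroupTools.normal_subgroupOf_iff_le_normalizer' hs.normK
  have hϑ : IsIrrCharacter (K.subgroupOf (K ⊔ S)) (fun n => θ ((n : (K ⊔ S : Subgroup G)) : G)) := (irrOn_sub hKM).mpr hθ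
  have hstab : K ⊔ S ≤ stab K θ := sup_le (le_stab hθ.ch) (fun t ht => ⟨hs.hn ht, fun n hn => hT t ht n hn⟩)
  have hinv : ∀ g : (K ⊔ S : Subgroup G), cj (K.subgroupOf (K ⊔ S)) g (fun n => θ ((n : (K ⊔ S : Subgroup G)) : G)) =
      fun n : K.subgroupOf (K ⊔ S) => θ ((n : (K ⊔ S : Subgroup G)) : G) := by
    intro g
    funext n
    exact (hstab g.2).2 _ n.2
  have hcardK : Nat.card (K.subgroupOf (K ⊔ S)) = Nat.card K := Nat.card_congr (subEquiv K (K ⊔ S) hKM).toEquiv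
  have hpK : ∀ d, d ∣ Nat.card (K.subgroupOf (K ⊔ S)) → Nat.Coprime (K.subgroupOf (K ⊔ S)).index d := by
    intro d hd
    rw [hcardK] at hd
    obtain ⟨n, hn⟩ := hs.index'
    have h1 : (K.subgroupOf (K ⊔ S)).index = p ^ n := hn
    rw [h1]
    apply Nat.Coprime.pow_left
    exact (Nat.Prime.coprime_iff_not_dvd hp.out).mpr (fun h => hs.hK (h.trans hd))
  have hd1 : (fun n : K.subgroupOf (K ⊔ S) => θ ((n : (K ⊔ S : Subgroup G)) : G)) 1 = (dg θ : ℂ) := dg_spec hθ.ch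
  obtain ⟨χ, ⟨hχ, hχK, hχd⟩, -⟩ := canonical_extension hϑ hinv hd1
    (Nat.Coprime.mul_right (hpK _ (CoprimeCount.detOrder_dvd_card hϑ.isCharacter))
      (hpK _ (CharApps.irr_degree_dvd_card hϑ hd1)))
  obtain ⟨B, hB1, hB2⟩ := exists_inflate hs.hn hs.disj β
  have hlf : IrrOn (K ⊔ S) (lf (K ⊔ S) χ) := irrOn_lf.mpr hχ
  have hlfK : ∀ k ∈ K, lf (K ⊔ S) χ k = θ k := by
    intro k hk
    rw [lf_mem (K ⊔ S) χ (hKM hk)]
    exact hχK ⟨⟨k, hKM hk⟩, hk⟩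
  -- the determinant of the canonical extension is trivial on `S`
  have hdet : ∀ s ∈ S, dt (K ⊔ S) (lf (K ⊔ S) χ) s = 1 := by
    intro s hs'
    obtain ⟨n, hn⟩ := dt_pow hs.hT le_sup_right hlf.ch hs'
    have h1 : dt (K ⊔ S) (lf (K ⊔ S) χ) s = detChar χ ⟨s, Subgroup.mem_sup_right hs'⟩ := by
      unfold dt
      rw [lf_mem (K ⊔ S) _ (Subgroup.mem_sup_right hs'), lf_fun]
    have h2 : dt (K ⊔ S) (lf (K ⊔ S) χ) s ^ detOrder χ = 1 ^ detOrder χ := by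
      rw [h1, one_pow]
      have h3 := pow_orderOf_eq_one (detChar χ)
      exact congrFun h3 ⟨s, Subgroup.mem_sup_right hs'⟩
    have h4 : ¬ p ∣ detOrder χ := by
      rw [hχd]
      intro h
      have h5 := h.trans (CoprimeCount.detOrder_dvd_card hϑ.isCharacter)
      rw [hcardK] at h5
      exact hs.hK h5
    exact eq_of_pow_eq (p := p) (n := n) (m := 0) h4 hn (one_pow _) h2
  let φ : G → ℂ := lf (K ⊔ S) (fun x => (B x : ℂ) * χ x)
  have hφ : ∀ x : (K ⊔ S : Subgroup G), φ x = B x * lf (K ⊔ S) χ x := by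
    intro x
    show lf (K ⊔ S) (fun x => (B x : ℂ) * χ x) x = _
    rw [lf_coe, lf_coe]
  have hφirr : IrrOn (K ⊔ S) φ := by
    apply irrOn_lf.mpr
    have h := hχ.mul_linear (isCharacter_of_unitsHom B) (by simp)
    convert h using 1
    funext g
    exact mul_comm _ _
  refine ⟨φ, hφirr, ?_, ?_⟩
  · intro k hk
    have h1 := hφ ⟨k, hKM hk⟩
    rw [hB1 _ hk, Units.val_one, one_mul] at h1
    exact h1.trans (hlfK k hk)
  · intro s
    have h1 := dt_mul hlf.ch hφ ⟨s, Subgroup.mem_sup_right s.2⟩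
    have h2 : dg (lf (K ⊔ S) χ) = dg θ := dg_congr (hlfK 1 K.one_mem)
    rw [h2] at h1
    have h3 : dt (K ⊔ S) (lf (K ⊔ S) χ) ((⟨s, Subgroup.mem_sup_right s.2⟩ : (K ⊔ S : Subgroup G)) : G) = 1 := hdet s s.2
    rw [h3, mul_one, hB2 s s.2] at h1
    exact h1

theorem exists_root {S : Subgroup G} (hS : IsPGroup p S) (δ : S →* ℂˣ) {d : ℕ} (hd : ¬ p ∣ d) :
    ∃ β : S →* ℂˣ, ∀ s, β s ^ d = δ s := by
  obtain ⟨n, hn⟩ := IsPGroup.iff_card.mp hS
  have hcop : Nat.Coprime d (p ^ n) := Nat.Coprime.pow_right n ((Nat.Prime.coprime_iff_not_dvd hp.out).mpr hd).symm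
  obtain ⟨m, hm⟩ : ∃ k : ℕ, k * d ≡ 1 [MOD p ^ n] := by
    by_cases h1 : p ^ n = 1
    · exact ⟨0, by rw [h1]; exact Nat.modEq_one⟩
    · have h0 : p ^ n ≠ 0 := pow_ne_zero _ hp.out.ne_zero
      obtain ⟨k, hk⟩ := Nat.exists_mul_mod_eq_one_of_coprime (k := p ^ n) (n := d) hcop (by omega)
      refine ⟨k, ?_⟩
      unfold Nat.ModEq
      rw [mul_comm, hk.2, Nat.mod_eq_of_lt]
      omega
  refine ⟨δ ^ m, fun s => ?_⟩
  rw [MonoidHom.pow_apply, ← pow_mul]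
  have h1 : δ s ^ (m * d) = δ s ^ 1 := by
    rw [pow_eq_pow_iff_modEq]
    apply hm.of_dvd
    apply orderOf_dvd_of_pow_eq_one
    rw [← map_pow, ← hn, pow_card_eq_one', map_one]
  rw [h1, pow_one]

end det

section rel

variable {G : Type u} [Group G] [Finite G] {p : ℕ} [hp : Fact p.Prime]

theorem Sys.ccs {K S : Subgroup G} (hs : Sys p K S) : Sys p (cc K S) S where
  hK := fun h => hs.hK (h.trans (Subgroup.card_dvd_of_le (cc_le _ _)))
  hT := hs.hT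
  hn := fun t ht => mem_norm_cc (hs.hn ht) (Subgroup.le_normalizer ht)

/-- the relation between characters of `KS` and `C_K(S)S` -/
structure Rel (p : ℕ) (K S : Subgroup G) (φ φ' : G → ℂ) : Prop where
  irr : IrrOn (K ⊔ S) φ
  irrC : IrrOn (cc K S ⊔ S) φ'
  corr : Corr p K S φ φ'
  det : ∀ s ∈ S, dt (K ⊔ S) φ s ^ dg φ' = dt (cc K S ⊔ S) φ' s ^ dg φ

variable {K S : Subgroup G} {φ φ' : G → ℂ}

theorem Rel.nd (h : Rel p K S φ φ') (hs : Sys p K S) : ¬ p ∣ dg φ := fun h1 => hs.hK (h1.trans (dg_dvd h.corr.irr))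

theorem Rel.nd' (h : Rel p K S φ φ') (hs : Sys p K S) : ¬ p ∣ dg φ' := fun h1 =>
  hs.ccs.hK (h1.trans (dg_dvd h.corr.irr'))

theorem Rel.congr {ψ ψ' : G → ℂ} (h : Rel p K S φ φ') (hs : Sys p K S) (h1 : ∀ x ∈ K ⊔ S, φ x = ψ x)
    (h2 : ∀ x ∈ cc K S ⊔ S, φ' x = ψ' x) : Rel p K S ψ ψ' where
  irr := h.irr.congr h1
  irrC := h.irrC.congr h2
  corr := h.corr.congr hs.hn (fun k hk => h1 k (Subgroup.mem_sup_left hk)) (fun k hk => h2 k (Subgroup.mem_sup_left hk))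
  det := by
    intro s hs'
    rw [← dt_congr h1, ← dt_congr h2, ← dg_congr (h1 1 (Subgroup.one_mem _)), ← dg_congr (h2 1 (Subgroup.one_mem _))]
    exact h.det s hs'

theorem Rel.up (hs : Sys p K S) {φ₁ φ₂ η' : G → ℂ} (h : Rel p K S φ₁ φ') (h' : Rel p K S φ₂ η')
    (he : ∀ k ∈ cc K S ⊔ S, φ' k = η' k) : ∀ k ∈ K ⊔ S, φ₁ k = φ₂ k := by
  have h1 : ∀ k ∈ K, φ₁ k = φ₂ k := h.corr.up hs h'.corr (fun k hk => he k (Subgroup.mem_sup_left hk))
  apply det_unique hs h.irr h'.irr h.corr.irr (fun k hk => (h1 k hk).symm)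
  intro s hs'
  obtain ⟨n, hn⟩ := dt_pow hs.hT le_sup_right h.irr.ch hs'
  obtain ⟨m, hm⟩ := dt_pow hs.hT le_sup_right h'.irr.ch hs'
  apply eq_of_pow_eq (h.nd' hs) hn hm
  rw [h.det s hs', dg_congr (he 1 (Subgroup.one_mem _)), h'.det s hs', dt_congr he, dg_congr (h1 1 K.one_mem)]

theorem Rel.down (hs : Sys p K S) {φ₁ φ₂ η' : G → ℂ} (h : Rel p K S φ₁ φ') (h' : Rel p K S φ₂ η')
    (he : ∀ k ∈ K ⊔ S, φ₁ k = φ₂ k) : ∀ k ∈ cc K S ⊔ S, φ' k = η' k := by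
  have h1 : ∀ k ∈ cc K S, φ' k = η' k := h.corr.down hs h'.corr (fun k hk => he k (Subgroup.mem_sup_left hk))
  apply det_unique hs.ccs h.irrC h'.irrC h.corr.irr' (fun k hk => (h1 k hk).symm)
  intro s hs'
  obtain ⟨n, hn⟩ := dt_pow hs.hT le_sup_right h.irrC.ch hs'
  obtain ⟨m, hm⟩ := dt_pow hs.hT le_sup_right h'.irrC.ch hs'
  apply eq_of_pow_eq (h.nd hs) hn hm
  rw [← h.det s hs', dg_congr (he 1 (Subgroup.one_mem _)), ← h'.det s hs', dt_congr he, dg_congr (h1 1 (Subgroup.one_mem _))]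

theorem Rel.conj (h : Rel p K S φ φ') {y : G} (hy : y ∈ Subgroup.normalizer (K : Set G))
    (hy' : y ∈ Subgroup.normalizer (S : Set G)) :
    Rel p K S (fun g => φ (y * g * y⁻¹)) (fun g => φ' (y * g * y⁻¹)) where
  irr := h.irr.conj (mem_norm_sup hy hy')
  irrC := h.irrC.conj (mem_norm_sup (mem_norm_cc hy hy') hy')
  corr := h.corr.conj hy hy'
  det := by
    intro s hs
    rw [dt_conj (mem_norm_sup hy hy') h.irr.ch (Subgroup.mem_sup_right hs),
      dt_conj (mem_norm_sup (mem_norm_cc hy hy') hy') h.irrC.ch (Subgroup.mem_sup_right hs), dg_conj, dg_conj]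
    exact h.det _ (((Subgroup.mem_normalizer_iff.mp hy') s).mp hs)

theorem Rel.stab_iff (hs : Sys p K S) (h : Rel p K S φ φ') {y : G} (hy : y ∈ Subgroup.normalizer (K : Set G))
    (hy' : y ∈ Subgroup.normalizer (S : Set G)) : y ∈ stab (K ⊔ S) φ ↔ y ∈ stab (cc K S ⊔ S) φ' := by
  constructor
  · intro h1
    refine ⟨mem_norm_sup (mem_norm_cc hy hy') hy', fun k hk => ?_⟩
    exact (h.conj hy hy').down hs h (fun k hk => h1.2 k hk) k hk
  · intro h1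
    refine ⟨mem_norm_sup hy hy', fun k hk => ?_⟩
    exact (h.conj hy hy').up hs h (fun k hk => h1.2 k hk) k hk

theorem rel_down_exists (hs : Sys p K S) (h : IrrOn (K ⊔ S) φ) (hd : ¬ p ∣ dg φ) : ∃ φ', Rel p K S φ φ' := by
  have hK : IrrOn K φ := irr_of_index le_sup_left hs.normK h hs.index' hd
  have hT : TI S K φ := fun t ht k hk => h.ch.cls (Subgroup.mem_sup_left hk) (Subgroup.mem_sup_right ht)
  obtain ⟨θ', hθ', hnd⟩ := hs.ex_down hK
  obtain ⟨δ, hδ⟩ := exists_dt h.ch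
  obtain ⟨β, hβ⟩ := exists_root hs.hT (δ.comp (Subgroup.inclusion (le_sup_right : S ≤ K ⊔ S))) hd
  obtain ⟨φ', hφ', hφ'1, hφ'2⟩ := det_exists hs.ccs hθ' (fun t ht k hk => by
    rw [(Subgroup.mem_centralizer_iff.mp (cc_le' K S hk)) t ht, mul_inv_cancel_right]) β
  refine ⟨φ', h, hφ', ⟨hK, hT, hθ'.congr fun k hk => (hφ'1 k hk).symm, ?_⟩, ?_⟩
  · rw [mu_congr (fun _ _ => rfl) hφ'1]
    exact hnd
  · intro s hs'
    have h1 := hφ'2 ⟨s, hs'⟩
    have h2 : dt (cc K S ⊔ S) φ' s = (β ⟨s, hs'⟩ : ℂ) ^ dg θ' := h1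
    have h3 : dt (K ⊔ S) φ s = (β ⟨s, hs'⟩ : ℂ) ^ dg φ := by
      rw [← Units.val_pow_eq_pow_val, hβ]
      exact hδ ⟨s, Subgroup.mem_sup_right hs'⟩
    rw [h2, h3, dg_congr (hφ'1 1 (Subgroup.one_mem _)), ← pow_mul, ← pow_mul, mul_comm]

theorem rel_up_exists (hs : Sys p K S) (h : IrrOn (cc K S ⊔ S) φ') (hd : ¬ p ∣ dg φ') : ∃ φ, Rel p K S φ φ' := by
  have hK : IrrOn (cc K S) φ' := irr_of_index le_sup_left hs.ccs.normK h hs.ccs.index' hd
  obtain ⟨θ, hθ, hT, hnd⟩ := hs.ex_up hK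
  obtain ⟨δ, hδ⟩ := exists_dt h.ch
  obtain ⟨β, hβ⟩ := exists_root hs.hT (δ.comp (Subgroup.inclusion (le_sup_right : S ≤ cc K S ⊔ S))) hd
  obtain ⟨φ, hφ, hφ1, hφ2⟩ := det_exists hs hθ hT β
  refine ⟨φ, hφ, h, ⟨hθ.congr fun k hk => (hφ1 k hk).symm, ?_, hK, ?_⟩, ?_⟩
  · intro t ht k hk
    rw [hφ1 k hk, hφ1 _ (norm_mem hs.hn t ht k hk)]
    exact hT t ht k hk
  · rw [mu_congr (fun k hk => hφ1 k (cc_le _ _ hk)) (fun _ _ => rfl)]
    exact hnd
  · intro s hs'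
    have h2 : dt (K ⊔ S) φ s = (β ⟨s, hs'⟩ : ℂ) ^ dg θ := hφ2 ⟨s, hs'⟩
    have h3 : dt (cc K S ⊔ S) φ' s = (β ⟨s, hs'⟩ : ℂ) ^ dg φ' := by
      rw [← Units.val_pow_eq_pow_val, hβ]
      exact hδ ⟨s, Subgroup.mem_sup_right hs'⟩
    rw [h2, h3, dg_congr (hφ1 1 K.one_mem), ← pow_mul, ← pow_mul, mul_comm]

theorem pow_scalar {M : Subgroup G} {f : G → ℂ} {z : G} (hz : z ∈ M) {ω : ℂ} (h : ∀ m ∈ M, f (m * z) = f m * ω) (n : ℕ) :
    f (z ^ n) = f 1 * ω ^ n := by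
  induction n with
  | zero => simp
  | succ n ih => rw [pow_succ, h _ (M.pow_mem hz n), ih, pow_succ, mul_assoc]

theorem mem_ccs_of_central (hs : Sys p K S) {z : G} (hz : z ∈ K ⊔ S) (hc : ∀ x : G, z * x = x * z) :
    ∃ k ∈ cc K S, ∃ s ∈ S, z = k * s ∧ k * s = s * k := by
  have hz' := hz
  rw [SubgroupTools.mem_sup_of_le_normalizer hs.hn] at hz'
  obtain ⟨k, hk, s, hs', h⟩ := hz'
  have hks : k = z * s⁻¹ := by rw [← h]; group
  refine ⟨k, ⟨hk, ?_⟩, s, hs', h.symm, ?_⟩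
  · show k ∈ Subgroup.centralizer (S : Set G)
    rw [Subgroup.mem_centralizer_iff]
    intro t ht
    have h1 : t * k * t⁻¹ * k⁻¹ ∈ K ⊓ S := by
      refine ⟨K.mul_mem (norm_mem hs.hn t ht k hk) (K.inv_mem hk), ?_⟩
      have h2 : t * k * t⁻¹ * k⁻¹ = t * s⁻¹ * t⁻¹ * s := by
        rw [hks]
        have h3 : t * (z * s⁻¹) * t⁻¹ * (z * s⁻¹)⁻¹ = t * z * s⁻¹ * t⁻¹ * s * z⁻¹ := by group
        rw [h3, ← hc t]
        have h4 : z * t * s⁻¹ * t⁻¹ * s * z⁻¹ = z * (t * s⁻¹ * t⁻¹ * s) * z⁻¹ := by group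
        rw [h4, hc, mul_inv_cancel_right]
      rw [h2]
      exact S.mul_mem (S.mul_mem (S.mul_mem ht (S.inv_mem hs')) (S.inv_mem ht)) hs'
    rw [hs.disj, Subgroup.mem_bot, mul_inv_eq_one, mul_inv_eq_iff_eq_mul] at h1
    exact h1
  · rw [hks, inv_mul_cancel_right, hc]
    group

/-- central characters agree -/
theorem Rel.central (hs : Sys p K S) (h : Rel p K S φ φ') {z : G} (hz : z ∈ K ⊔ S) (hc : ∀ x : G, z * x = x * z) :
    ∃ ω : ℂ, φ z = φ 1 * ω ∧ φ' z = φ' 1 * ω := by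
  have hmemc : ∀ z : G, z ∈ K ⊔ S → (∀ x : G, z * x = x * z) → z ∈ cc K S ⊔ S := by
    intro z hz hc
    obtain ⟨k, hk, s, hs', h1, -⟩ := mem_ccs_of_central hs hz hc
    rw [h1]
    exact Subgroup.mul_mem_sup hk hs'
  have key1 : ∀ z : G, z ∈ K → (∀ x : G, z * x = x * z) → ∀ ω ω' : ℂ, (∀ m ∈ K ⊔ S, φ (m * z) = φ m * ω) →
      (∀ m ∈ cc K S ⊔ S, φ' (m * z) = φ' m * ω') → ω = ω' := by
    intro z hz hc ω ω' hω hω'
    have hzc : z ∈ cc K S := ⟨hz, by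
      show z ∈ Subgroup.centralizer (S : Set G)
      rw [Subgroup.mem_centralizer_iff]
      intro t _
      exact (hc t).symm⟩
    have hmu : ip (cc K S) φ φ' ≠ 0 := by
      rw [mu_spec (h.corr.irr.ch.res (cc_le _ _)) h.corr.irr'.ch]
      intro h0
      apply h.corr.nd
      have : mu (cc K S) φ φ' = 0 := by exact_mod_cast h0
      rw [this]
      exact dvd_zero p
    have h1 : ip (cc K S) φ φ' = ω * conj ω' * ip (cc K S) φ φ' := by
      conv_lhs => rw [ip, classInner_def]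
      rw [ip, classInner_def]
      have h2 : ∑ g : cc K S, φ g * conj (φ' g) = ∑ g : cc K S, φ (g * z) * conj (φ' (g * z)) := by
        symm
        exact Fintype.sum_equiv (Equiv.mulRight (⟨z, hzc⟩ : cc K S)) _ _ (fun g => rfl)
      conv_lhs => rw [h2]
      have h3 : ∀ g : cc K S, φ (g * z) * conj (φ' (g * z)) = ω * conj ω' * (φ g * conj (φ' g)) := by
        intro g
        rw [hω g (Subgroup.mem_sup_left (cc_le _ _ g.2)), hω' g (Subgroup.mem_sup_left g.2), map_mul]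
        ring
      rw [Finset.sum_congr rfl (fun g _ => h3 g), ← Finset.mul_sum]
      ring
    have h2 : ω * conj ω' = 1 := (mul_right_cancel₀ hmu (by rw [one_mul]; exact h1)).symm
    -- `ω'` is a root of unity
    have h3 : ω' ^ orderOf z = 1 := by
      have h4 := pow_scalar (Subgroup.mem_sup_left hzc) hω' (orderOf z)
      rw [pow_orderOf_eq_one] at h4
      exact (mul_left_cancel₀ h.irrC.one_ne (by rw [mul_one]; exact h4)).symm
    have h4 : ‖ω'‖ = 1 := Complex.norm_eq_one_of_pow_eq_one h3 (orderOf_pos z).ne'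
    have h5 : ω' * conj ω' = 1 := by
      rw [Complex.mul_conj, Complex.normSq_eq_norm_sq, h4]
      simp
    have h6 : conj ω' ≠ 0 := by
      intro h7
      rw [h7, mul_zero] at h5
      exact zero_ne_one h5
    exact mul_right_cancel₀ h6 (h2.trans h5.symm)
  have key2 : ∀ z : G, z ∈ S → (∀ x : G, z * x = x * z) → ∀ ω ω' : ℂ, (∀ m ∈ K ⊔ S, φ (m * z) = φ m * ω) →
      (∀ m ∈ cc K S ⊔ S, φ' (m * z) = φ' m * ω') → ω = ω' := by
    intro z hz hc ω ω' hω hω'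
    obtain ⟨ω₁, h1, h2⟩ := dt_central h.irr (Subgroup.mem_sup_right hz) (fun m _ => hc m)
    obtain ⟨ω₂, h3, h4⟩ := dt_central h.irrC (Subgroup.mem_sup_right hz) (fun m _ => hc m)
    have e1 : ω₁ = ω := by
      apply mul_left_cancel₀ h.irr.one_ne
      rw [← h2 1 (Subgroup.one_mem _), ← hω 1 (Subgroup.one_mem _)]
    have e2 : ω₂ = ω' := by
      apply mul_left_cancel₀ h.irrC.one_ne
      rw [← h4 1 (Subgroup.one_mem _), ← hω' 1 (Subgroup.one_mem _)]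
    subst e1 e2
    obtain ⟨n, hn⟩ := hs.hT ⟨z, hz⟩
    have hn' : z ^ p ^ n = 1 := congrArg Subtype.val hn
    have h5 : ω₁ ^ p ^ n = 1 := by
      have h4 := pow_scalar (Subgroup.mem_sup_right hz) hω (p ^ n)
      rw [hn'] at h4
      exact (mul_left_cancel₀ h.irr.one_ne (by rw [mul_one]; exact h4)).symm
    have h6 : ω₂ ^ p ^ n = 1 := by
      have h4 := pow_scalar (Subgroup.mem_sup_right hz) hω' (p ^ n)
      rw [hn'] at h4
      exact (mul_left_cancel₀ h.irrC.one_ne (by rw [mul_one]; exact h4)).symm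
    apply eq_of_pow_eq (k := dg φ * dg φ') ?_ h5 h6
    · have h7 := h.det z hz
      rw [h1, h3, ← pow_mul, ← pow_mul] at h7
      rw [h7, mul_comm (dg φ')]
    · intro h8
      rcases hp.out.dvd_mul.mp h8 with h9 | h9
      · exact h.nd hs h9
      · exact h.nd' hs h9
  obtain ⟨k, hk, s, hs', hzks, hks⟩ := mem_ccs_of_central hs hz hc
  obtain ⟨ω, -, hω⟩ := dt_central h.irr hz (fun m _ => hc m)
  obtain ⟨ω', -, hω'⟩ := dt_central h.irrC (hmemc z hz hc) (fun m _ => hc m)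
  have hpc : ∀ n : ℕ, ∀ x : G, z ^ n * x = x * z ^ n := fun n x => ((show Commute z x from hc x).pow_left n)
  have hωn : ∀ n : ℕ, ∀ m ∈ K ⊔ S, φ (m * z ^ n) = φ m * ω ^ n := by
    intro n
    induction n with
    | zero => intro m _; simp
    | succ n ih => intro m hm; rw [pow_succ, ← mul_assoc, hω _ (Subgroup.mul_mem _ hm (Subgroup.pow_mem _ hz n)), ih m hm, pow_succ, mul_assoc]
  have hωn' : ∀ n : ℕ, ∀ m ∈ cc K S ⊔ S, φ' (m * z ^ n) = φ' m * ω' ^ n := by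
    intro n
    induction n with
    | zero => intro m _; simp
    | succ n ih => intro m hm; rw [pow_succ, ← mul_assoc, hω' _ (Subgroup.mul_mem _ hm (Subgroup.pow_mem _ (hmemc z hz hc) n)), ih m hm, pow_succ, mul_assoc]
  have hzS : z ^ Nat.card S ∈ K := by
    have hn' : (K.subgroupOf (K ⊔ S)).Normal := SubgroupTools.normal_subgroupOf_iff_le_normalizer' hs.normK
    have h1 := Subgroup.pow_index_mem (K.subgroupOf (K ⊔ S)) (⟨z, hz⟩ : (K ⊔ S : Subgroup G))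
    rw [show (K.subgroupOf (K ⊔ S)).index = Nat.card S from hs.index, Subgroup.mem_subgroupOf] at h1
    exact h1
  have hzK : z ^ Nat.card K ∈ S := by
    have h1 : k ^ Nat.card K = 1 := by
      have := congrArg Subtype.val (pow_card_eq_one' (x := (⟨k, cc_le _ _ hk⟩ : K)))
      exact this
    rw [hzks, (show Commute k s from hks).mul_pow, h1, one_mul]
    exact S.pow_mem hs' _
  have h1 := key1 _ hzS (hpc _) _ _ (hωn _) (hωn' _)
  have h2 := key2 _ hzK (hpc _) _ _ (hωn _) (hωn' _)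
  have hω0 : ω' ≠ 0 := by
    rintro rfl
    have h3 := hωn' (orderOf z) 1 (Subgroup.one_mem _)
    rw [pow_orderOf_eq_one, zero_pow (orderOf_pos z).ne', mul_zero, mul_one] at h3
    exact h.irrC.one_ne h3
  have h3 : (ω / ω') ^ Nat.card S = 1 := by rw [div_pow, h1, div_self (pow_ne_zero _ hω0)]
  have h4 : (ω / ω') ^ Nat.card K = 1 := by rw [div_pow, h2, div_self (pow_ne_zero _ hω0)]
  have h5 := pow_gcd_eq_one.mpr ⟨h3, h4⟩
  have h6 : (Nat.card S).gcd (Nat.card K) = 1 := by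
    obtain ⟨n, hn⟩ := IsPGroup.iff_card.mp hs.hT
    rw [hn]
    apply Nat.Coprime.pow_left
    exact (Nat.Prime.coprime_iff_not_dvd hp.out).mpr hs.hK
  rw [h6, pow_one, div_eq_one_iff_eq hω0] at h5
  refine ⟨ω, ?_, ?_⟩
  · have := hω 1 (Subgroup.one_mem _)
    rwa [one_mul] at this
  · have := hω' 1 (Subgroup.one_mem _)
    rw [one_mul] at this
    rw [this, h5]

end rel

end Cfsg.Agent.Lib.RMck
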