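import Cfsg.Agent.Lib.RMck5

/-!
# Clifford correspondence and fiber counts (helper74)
-/

set_option autoImplicit false
set_option linter.all false

namespace Cfsg.Agent.Lib.RMck

open scoped ComplexConjugate
open Cfsg Cfsg.Agent.Lib.CharBasic Cfsg.Agent.Lib.Clifford Cfsg.Agent.Lib.CliffordCorr
open Cfsg.Agent.Lib.CanonExt Cfsg.Agent.Lib.GlaubCorr Cfsg.Agent.Lib.BlockRing

universe u

attribute [local instance 5000] Fintype.ofFinite

section transfer

variable {G : Type u} [Group G] [Finite G]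

/-- irreducible characters of `J` as characters of `J.subgroupOf H` -/
noncomputable def subIrr {J H : Subgroup G} (hJH : J ≤ H) : IrrCharacter J ≃ IrrCharacter (J.subgroupOf H) where
  toFun χ := ⟨fun x => (χ : J → ℂ) (subEquiv J H hJH x), (isIrrCharacter_comp_mulEquiv_iff (subEquiv J H hJH)).mpr χ.2⟩
  invFun ψ := ⟨fun x => (ψ : J.subgroupOf H → ℂ) ((subEquiv J H hJH).symm x),
    (isIrrCharacter_comp_mulEquiv_iff (subEquiv J H hJH).symm).mpr ψ.2⟩
  left_inv χ := by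
    apply Subtype.ext
    funext x
    show (χ : J → ℂ) (subEquiv J H hJH ((subEquiv J H hJH).symm x)) = _
    rw [MulEquiv.apply_symm_apply]
  right_inv ψ := by
    apply Subtype.ext
    funext x
    show (ψ : J.subgroupOf H → ℂ) ((subEquiv J H hJH).symm (subEquiv J H hJH x)) = _
    rw [MulEquiv.symm_apply_apply]

theorem lf_subIrr {J H : Subgroup G} (hJH : J ≤ H) (χ : IrrCharacter J) (h : H) :
    lf (J.subgroupOf H) (subIrr hJH χ) h = lf J χ h := by
  by_cases hh : (h : G) ∈ J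
  · rw [lf_mem J _ hh, lf_mem (J.subgroupOf H) _ (Subgroup.mem_subgroupOf.mpr hh)]
    rfl
  · unfold lf
    rw [dif_neg hh, dif_neg (fun h' => hh (Subgroup.mem_subgroupOf.mp h'))]

theorem dg_subIrr {J H : Subgroup G} (hJH : J ≤ H) (χ : IrrCharacter J) :
    dg (lf (J.subgroupOf H) (subIrr hJH χ)) = dg (lf J χ) := by
  unfold dg
  rw [lf_subIrr hJH χ 1]
  rfl

theorem dg_lf {H : Subgroup G} (χ : H → ℂ) : dg (lf H χ) = dg χ := by
  unfold dg
  rw [lf_mem H χ H.one_mem]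
  rfl

theorem ip_subIrr {M J H : Subgroup G} (hMH : M ≤ H) (hJH : J ≤ H) (χ : IrrCharacter J) (φ : G → ℂ) :
    ip (M.subgroupOf H) (lf (J.subgroupOf H) (subIrr hJH χ)) (fun h : H => φ h) = ip M (lf J χ) φ := by
  rw [← ip_sub hMH]
  unfold ip
  congr 1

theorem stab_sub {M H : Subgroup G} (hMH : M ≤ H) (hn : H ≤ Subgroup.normalizer (M : Set G)) (φ : G → ℂ) :
    stab (M.subgroupOf H) (fun h : H => φ h) = (H ⊓ stab M φ).subgroupOf H := by
  ext x
  rw [Subgroup.mem_subgroupOf]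
  constructor
  · rintro ⟨-, h2⟩
    exact ⟨x.2, hn x.2, fun n hn' => h2 ⟨n, hMH hn'⟩ hn'⟩
  · rintro ⟨-, -, h2⟩
    have : (M.subgroupOf H).Normal := SubgroupTools.normal_subgroupOf_iff_le_normalizer' hn
    refine ⟨by rw [Subgroup.normalizer_eq_top_iff.mpr this]; trivial, fun n hn' => ?_⟩
    exact h2 n hn'

end transfer

section clifford

variable {G : Type u} [Group G] [Finite G]

theorem clifford_top {M : Subgroup G} [hM : M.Normal] {φ : G → ℂ} (h : IrrOn M φ) {I : Subgroup G} (hI : I = stab M φ) :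
    ∃ F : {ψ : IrrCharacter I // ip M (lf I ψ) φ ≠ 0} ≃ {χ : IrrCharacter G // ip M (χ : G → ℂ) φ ≠ 0},
      ∀ ψ, dg ((F ψ).1 : G → ℂ) = I.index * dg (lf I ψ.1) := by
  classical
  have hMI : M ≤ I := by rw [hI]; exact le_stab h.ch
  have hT : ∀ g : G, g ∈ I ↔ cj M g (fun m : M => φ m) = fun m : M => φ m := by
    intro g
    rw [hI]
    constructor
    · intro hg
      funext m
      exact hg.2 m m.2
    · intro hg
      refine ⟨by rw [Subgroup.normalizer_eq_top_iff.mpr hM]; trivial, fun n hn => ?_⟩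
      exact congrFun hg ⟨n, hn⟩
  have hθ : IsIrrCharacter M (fun m : M => φ m) := h
  have hres : ∀ ψ : IrrCharacter I, classInner (resTo M I hMI (ψ : I → ℂ)) (fun m : M => φ m) = ip M (lf I ψ) φ := by
    intro ψ
    unfold ip
    congr 1
    funext m
    rw [lf_mem I _ (hMI m.2)]
    rfl
  let f : {ψ : IrrCharacter I // ip M (lf I ψ) φ ≠ 0} → {χ : IrrCharacter G // ip M (χ : G → ℂ) φ ≠ 0} := fun ψ =>
    ⟨⟨indFun I (ψ.1 : I → ℂ), (corr_irr hMI hθ hT ψ.1.2 (by rw [hres]; exact ψ.2)).1⟩, by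
      have h1 := (corr_irr hMI hθ hT ψ.1.2 (by rw [hres]; exact ψ.2)).2
      rw [hres] at h1
      have h2 : ip M (indFun I (ψ.1 : I → ℂ)) φ = ip M (lf I ψ.1) φ := h1
      show ip M (indFun I (ψ.1 : I → ℂ)) φ ≠ 0
      rw [h2]
      exact ψ.2⟩
  have hf : Function.Bijective f := by
    constructor
    · intro a b hab
      apply Subtype.ext
      apply Subtype.ext
      apply corr_inj hMI hθ hT a.1.2 b.1.2 (by rw [hres]; exact a.2) (by rw [hres]; exact b.2)
      exact congrArg (fun x : {χ : IrrCharacter G // ip M (χ : G → ℂ) φ ≠ 0} => ((x.1 : IrrCharacter G) : G → ℂ)) hab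
    · intro χ
      obtain ⟨ψ, hψ, h1, h2⟩ := corr_surj hMI hθ hT χ.1.2 χ.2
      refine ⟨⟨⟨ψ, hψ⟩, ?_⟩, ?_⟩
      · rw [← hres ⟨ψ, hψ⟩]
        show classInner (resTo M I hMI ψ) _ ≠ 0
        rw [h2]
        exact χ.2
      · apply Subtype.ext
        apply Subtype.ext
        exact h1
  refine ⟨Equiv.ofBijective f hf, fun ψ => ?_⟩
  show dg (indFun I (ψ.1 : I → ℂ)) = I.index * dg (lf I ψ.1)
  have h1 : indFun I (ψ.1 : I → ℂ) 1 = ((I.index * dg (lf I ψ.1) : ℕ) : ℂ) := by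
    rw [IndFun.indFun_one]
    push_cast
    rw [← dg_spec (chOn_lf ψ.1).ch, lf_mem I _ I.one_mem]
    rfl
  show ⌊(indFun I (ψ.1 : I → ℂ) 1).re⌋₊ = _
  rw [h1, Complex.natCast_re, Nat.floor_natCast]

theorem clifford_equiv {M H : Subgroup G} (hMH : M ≤ H) (hn : H ≤ Subgroup.normalizer (M : Set G)) {φ : G → ℂ}
    (h : IrrOn M φ) {I : Subgroup G} (hI : I = H ⊓ stab M φ) :
    ∃ F : {ψ : IrrCharacter I // ip M (lf I ψ) φ ≠ 0} ≃ {χ : IrrCharacter H // ip M (lf H χ) φ ≠ 0},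
      ∀ ψ, dg (lf H (F ψ).1) = I.relIndex H * dg (lf I ψ.1) := by
  have hn' : (M.subgroupOf H).Normal := SubgroupTools.normal_subgroupOf_iff_le_normalizer' hn
  have hIH : I ≤ H := by rw [hI]; exact inf_le_left
  obtain ⟨F, hF⟩ := clifford_top (M := M.subgroupOf H) (φ := fun h : H => φ h) ((irrOn_sub hMH).mpr h)
    (I := I.subgroupOf H) (by rw [hI, stab_sub hMH hn])
  let e1 : {ψ : IrrCharacter I // ip M (lf I ψ) φ ≠ 0} ≃
      {ψ : IrrCharacter (I.subgroupOf H) // ip (M.subgroupOf H) (lf (I.subgroupOf H) ψ) (fun h : H => φ h) ≠ 0} :=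
    (subIrr hIH).subtypeEquiv (fun ψ => by rw [ip_subIrr hMH hIH])
  have hip : ∀ χ : IrrCharacter H, ip (M.subgroupOf H) (χ : H → ℂ) (fun h : H => φ h) = ip M (lf H χ) φ := by
    intro χ
    rw [← ip_sub hMH]
    unfold ip
    congr 1
    funext n
    exact (lf_coe H _ n).symm
  let e2 : {χ : IrrCharacter H // ip (M.subgroupOf H) (χ : H → ℂ) (fun h : H => φ h) ≠ 0} ≃
      {χ : IrrCharacter H // ip M (lf H χ) φ ≠ 0} :=
    (Equiv.refl _).subtypeEquiv (fun χ => by rw [hip]; rfl)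
  refine ⟨(e1.trans F).trans e2, fun ψ => ?_⟩
  have h1 := hF (e1 ψ)
  have h2 : dg (lf (I.subgroupOf H) (e1 ψ).1) = dg (lf I ψ.1) := dg_subIrr hIH ψ.1
  rw [h2] at h1
  rw [show I.relIndex H = (I.subgroupOf H).index from rfl, ← h1, dg_lf]
  rfl

end clifford

section ggcsub

variable {G : Type u} [Group G] [Finite G]

theorem ext_sub {K E H : Subgroup G} (hKE : K ≤ E) (hEH : E ≤ H) (φ : G → ℂ) :
    Ext (K.subgroupOf H) (fun h : H => φ h) (E.subgroupOf H) ↔ Ext K φ E := by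
  constructor
  · rintro ⟨e, he, he'⟩
    refine ⟨lf H e, (irrOn_ofSub hEH).mp he, fun k hk => ?_⟩
    rw [lf_mem H e (hEH (hKE hk))]
    exact he' ⟨k, hEH (hKE hk)⟩ hk
  · rintro ⟨e, he, he'⟩
    exact ⟨fun h : H => e h, (irrOn_sub hEH).mpr he, fun k hk => he' k hk⟩

theorem closure_pair_sub {H : Subgroup G} (a b : H) :
    (Subgroup.closure {(a : G), (b : G)}).subgroupOf H = Subgroup.closure {a, b} := by
  have h1 : Subgroup.closure {(a : G), (b : G)} = (Subgroup.closure {a, b}).map H.subtype := by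
    rw [MonoidHom.map_closure, Set.image_pair]
    rfl
  rw [h1]
  exact Subgroup.comap_map_eq_self_of_injective H.subtype_injective _

open scoped Classical in
theorem ggc_sub {H M K D : Subgroup G} (hMH : M ≤ H) (hDH : D ≤ H) (hnM : H ≤ Subgroup.normalizer (M : Set G))
    (hnK : H ≤ Subgroup.normalizer (K : Set G)) (hKM : K ≤ M) (hMD : H ≤ M ⊔ D)
    (hMD' : M ⊓ D ≤ K) {φ : G → ℂ} (h1 : IrrOn M φ) (h2 : IrrOn K φ) (h3 : H ≤ stab M φ) :
    (Nat.card {χ : IrrCharacter H // ip M (lf H χ) φ ≠ 0} : ℂ) * Nat.card D * Nat.card (M ⊓ D : Subgroup G) =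
      ∑ d : D, if (∀ d' ∈ D, d' * d * d'⁻¹ * (d : G)⁻¹ ∈ M → Ext K φ (K ⊔ Subgroup.closure {(d : G), d'})) then
        (cD M D d : ℂ) else 0 := by
  have hn1 : (M.subgroupOf H).Normal := SubgroupTools.normal_subgroupOf_iff_le_normalizer' hnM
  have hn2 : (K.subgroupOf H).Normal := SubgroupTools.normal_subgroupOf_iff_le_normalizer' hnK
  have hKH : K ≤ H := hKM.trans hMH
  have hmain := ggc (M := M.subgroupOf H) (K := K.subgroupOf H) (D := D.subgroupOf H)
    (Subgroup.comap_mono hKM) (by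
      rw [← Subgroup.subgroupOf_sup hMH hDH, Subgroup.subgroupOf_eq_top]
      exact hMD) (by
      intro x hx
      exact hMD' ⟨hx.1, hx.2⟩) (φ := fun h : H => φ h) ((irrOn_sub hMH).mpr h1) ((irrOn_sub hKH).mpr h2)
    (fun g m hm => (h3 g.2).2 m hm)
  have hip : ∀ χ : IrrCharacter H, ip (M.subgroupOf H) (χ : H → ℂ) (fun h : H => φ h) = ip M (lf H χ) φ := by
    intro χ
    rw [← ip_sub hMH]
    unfold ip
    congr 1
    funext n
    exact (lf_coe H _ n).symm
  simp only [hip] at hmain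
  rw [SubgroupTools.card_subgroupOf_of_le hDH] at hmain
  have hc : Nat.card (M.subgroupOf H ⊓ D.subgroupOf H : Subgroup H) = Nat.card (M ⊓ D : Subgroup G) := by
    rw [← SubgroupTools.card_subgroupOf_of_le (inf_le_left.trans hMH : M ⊓ D ≤ H)]
    rfl
  rw [hc] at hmain
  rw [hmain]
  refine Fintype.sum_equiv (subEquiv D H hDH).toEquiv _ _ (fun d => ?_)
  have hd : (((subEquiv D H hDH).toEquiv d : D) : G) = ((d : H) : G) := rfl
  have hcond : (∀ d' ∈ D.subgroupOf H, d' * d * d'⁻¹ * (d : H)⁻¹ ∈ M.subgroupOf H →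
      Ext (K.subgroupOf H) (fun h : H => φ h) (K.subgroupOf H ⊔ Subgroup.closure {(d : H), d'})) ↔
      (∀ d' ∈ D, d' * ((d : H) : G) * d'⁻¹ * ((d : H) : G)⁻¹ ∈ M → Ext K φ (K ⊔ Subgroup.closure {((d : H) : G), d'})) := by
    have hE : ∀ d' : H, (Ext (K.subgroupOf H) (fun h : H => φ h) (K.subgroupOf H ⊔ Subgroup.closure {(d : H), d'}) ↔
        Ext K φ (K ⊔ Subgroup.closure {((d : H) : G), (d' : G)})) := by
      intro d'
      have hle : Subgroup.closure {((d : H) : G), (d' : G)} ≤ H := by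
        rw [Subgroup.closure_le]
        rintro z (rfl | rfl)
        · exact (d : H).2
        · exact d'.2
      rw [← closure_pair_sub, ← Subgroup.subgroupOf_sup hKH hle, ext_sub le_sup_left (sup_le hKH hle)]
    constructor
    · intro h d' hd' hd''
      exact (hE ⟨d', hDH hd'⟩).mp (h ⟨d', hDH hd'⟩ hd' hd'')
    · intro h d' hd' hd''
      exact (hE d').mpr (h d' hd' hd'')
  have hcD : cD (M.subgroupOf H) (D.subgroupOf H) d = cD M D ((d : H) : G) := by
    unfold cD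
    refine Nat.card_congr ((subEquiv D H hDH).toEquiv.subtypeEquiv (fun d' => Iff.rfl))
  by_cases hcnd : (∀ d' ∈ D, d' * ((d : H) : G) * d'⁻¹ * ((d : H) : G)⁻¹ ∈ M → Ext K φ (K ⊔ Subgroup.closure {((d : H) : G), d'}))
  · rw [if_pos (hcond.mpr hcnd), hcD]
    exact (if_pos hcnd).symm
  · rw [if_neg (fun h => hcnd (hcond.mp h))]
    exact (if_neg hcnd).symm

end ggcsub

section fiber

variable {G : Type u} [Group G] [Finite G] {p : ℕ} [hp : Fact p.Prime]

theorem le_norm_of_normal {K H : Subgroup G} [hK : K.Normal] : H ≤ Subgroup.normalizer (K : Set G) := by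
  rw [Subgroup.normalizer_eq_top_iff.mpr hK]; exact le_top

theorem mem_norm_of_normal {K : Subgroup G} [hK : K.Normal] (x : G) : x ∈ Subgroup.normalizer (K : Set G) := by
  rw [Subgroup.normalizer_eq_top_iff.mpr hK]; trivial

theorem comm_closure {K : Subgroup G} [hK : K.Normal] {d d' : G} (h : d' * d * d'⁻¹ * d⁻¹ ∈ K) :
    ∀ a ∈ Subgroup.closure {d, d'}, ∀ b ∈ Subgroup.closure {d, d'}, a * b * a⁻¹ * b⁻¹ ∈ K := by
  have hsymm : ∀ x y : G, x ∈ cM K y → y ∈ cM K x := by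
    intro x y h
    rw [mem_cM] at h ⊢
    have h1 : y * x * y⁻¹ * x⁻¹ = (x * y * x⁻¹ * y⁻¹)⁻¹ := by group
    rw [h1]
    exact K.inv_mem h
  have hself : ∀ x : G, x ∈ cM K x := by
    intro x
    rw [mem_cM]
    simp [K.one_mem]
  have h1 : ∀ a ∈ ({d, d'} : Set G), Subgroup.closure {d, d'} ≤ cM K a := by
    intro a ha
    rw [Subgroup.closure_le]
    rintro z hz
    rcases ha with rfl | rfl <;> rcases hz with rfl | rfl
    · exact hself _
    · exact h
    · exact hsymm _ _ h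
    · exact hself _
  intro a ha b hb
  have h2 : Subgroup.closure {d, d'} ≤ cM K b := by
    rw [Subgroup.closure_le]
    intro z hz
    exact hsymm _ _ (h1 z hz hb)
  exact h2 ha

theorem inf_normalizer {K S : Subgroup G} (hs : Sys p K S) [hKn : K.Normal] :
    K ⊓ Subgroup.normalizer (S : Set G) = cc K S := by
  apply le_antisymm
  · rintro x ⟨hx, hx'⟩
    refine ⟨hx, ?_⟩
    show x ∈ Subgroup.centralizer (S : Set G)
    rw [Subgroup.mem_centralizer_iff]
    intro t ht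
    have h1 : t * x * t⁻¹ * x⁻¹ ∈ K ⊓ S := by
      refine ⟨K.mul_mem (hKn.conj_mem x hx t) (K.inv_mem hx), ?_⟩
      have h2 : t * x * t⁻¹ * x⁻¹ = t * (x * t⁻¹ * x⁻¹) := by group
      rw [h2]
      exact S.mul_mem ht (((Subgroup.mem_normalizer_iff.mp hx') _).mp (S.inv_mem ht))
    rw [hs.disj, Subgroup.mem_bot, mul_inv_eq_one, mul_inv_eq_iff_eq_mul] at h1
    exact h1
  · exact inf_le_inf_left _ (centralizer_le_normalizer S)

theorem frattini_sup {M S : Subgroup G} [hM : M.Normal] (hSM : S ≤ M) (hS : IsPGroup p S) (hSyl : ¬ p ∣ S.index) :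
    Subgroup.normalizer (S : Set G) ⊔ M = ⊤ := by
  have h1 : IsPGroup p (S.subgroupOf M) := hS.comap_of_injective M.subtype M.subtype_injective
  have h2 : ¬ p ∣ (S.subgroupOf M).index := fun h => hSyl (h.trans (Dvd.intro _ (Subgroup.relIndex_mul_index hSM)))
  have h3 := Sylow.normalizer_sup_eq_top (h1.toSylow h2)
  have h4 : ((h1.toSylow h2 : Subgroup M).map M.subtype) = S := by
    show (S.subgroupOf M).map M.subtype = S
    rw [Subgroup.map_subgroupOf_eq_of_le hSM]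
  rwa [h4] at h3

theorem mem_of_sup_pgroup {K S : Subgroup G} (hs : Sys p K S) [hKn : K.Normal] {x : G} (hx : x ∈ K ⊔ S) {n : ℕ}
    (hn : x ^ n = 1) (hpn : ¬ p ∣ n) : x ∈ K := by
  rw [SubgroupTools.mem_sup_of_le_normalizer hs.hn] at hx
  obtain ⟨k, hk, s, hs', rfl⟩ := hx
  have h1 : ((k * s : G) : G ⧸ K) = (s : G ⧸ K) := by
    rw [QuotientGroup.mk_mul, (QuotientGroup.eq_one_iff k).mpr hk, one_mul]
  have h2 : s ^ n ∈ K := by
    rw [← QuotientGroup.eq_one_iff, QuotientGroup.mk_pow, ← h1, ← QuotientGroup.mk_pow, hn, QuotientGroup.mk_one]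
  have h3 : s ^ n ∈ K ⊓ S := ⟨h2, S.pow_mem hs' n⟩
  rw [hs.disj, Subgroup.mem_bot] at h3
  obtain ⟨m, hm⟩ := hs.hT ⟨s, hs'⟩
  have h4 : s ^ p ^ m = 1 := congrArg Subtype.val hm
  have h5 := pow_gcd_eq_one.mpr ⟨h3, h4⟩
  have h6 : n.gcd (p ^ m) = 1 := Nat.Coprime.pow_right _ ((Nat.Prime.coprime_iff_not_dvd hp.out).mpr hpn).symm
  rw [h6, pow_one] at h5
  rw [h5, mul_one]
  exact hk

/-- **The fiber counts agree.** -/
theorem fiber_eq {K S : Subgroup G} (hs : Sys p K S) [hKn : K.Normal] [hMn : (K ⊔ S).Normal] (hSyl : ¬ p ∣ S.index)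
    {φ φ' : G → ℂ} (h : Rel p K S φ φ') :
    Nat.card {χ : IrrCharacter G // ip (K ⊔ S) (χ : G → ℂ) φ ≠ 0} =
      Nat.card {ψ : IrrCharacter (Subgroup.normalizer (S : Set G)) //
        ip (cc K S ⊔ S) (lf (Subgroup.normalizer (S : Set G)) ψ) φ' ≠ 0} := by
  classical
  have hKM : K ≤ K ⊔ S := le_sup_left
  have hSM : S ≤ K ⊔ S := le_sup_right
  have hCK : cc K S ≤ K := cc_le _ _
  have hSN : S ≤ Subgroup.normalizer (S : Set G) := Subgroup.le_normalizer
  have hCN : cc K S ≤ Subgroup.normalizer (S : Set G) := (cc_le' K S).trans (centralizer_le_normalizer S)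
  have hCSM : cc K S ⊔ S ≤ K ⊔ S := sup_le_sup_right hCK _
  have hMI : K ⊔ S ≤ stab (K ⊔ S) φ := le_stab h.irr.ch
  have hNC : Subgroup.normalizer (S : Set G) ≤ Subgroup.normalizer ((cc K S : Subgroup G) : Set G) := fun y hy =>
    mem_norm_cc (mem_norm_of_normal y) hy
  have hNCS : Subgroup.normalizer (S : Set G) ≤ Subgroup.normalizer ((cc K S ⊔ S : Subgroup G) : Set G) := fun y hy =>
    mem_norm_sup (hNC hy) hy
  -- the inertia groups
  obtain ⟨T, hT⟩ : ∃ T : Subgroup G, T = Subgroup.normalizer (S : Set G) ⊓ stab (K ⊔ S) φ := ⟨_, rfl⟩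
  have hT' : T = Subgroup.normalizer (S : Set G) ⊓ stab (cc K S ⊔ S) φ' := by
    rw [hT]
    ext y
    rw [Subgroup.mem_inf, Subgroup.mem_inf]
    constructor
    · rintro ⟨h1, h2⟩
      exact ⟨h1, (h.stab_iff hs (mem_norm_of_normal y) h1).mp h2⟩
    · rintro ⟨h1, h2⟩
      exact ⟨h1, (h.stab_iff hs (mem_norm_of_normal y) h1).mpr h2⟩
  have hTN : T ≤ Subgroup.normalizer (S : Set G) := by rw [hT]; exact inf_le_left
  have hTI : T ≤ stab (K ⊔ S) φ := by rw [hT]; exact inf_le_right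
  have hST : S ≤ T := by rw [hT]; exact le_inf hSN (hSM.trans hMI)
  have hCT : cc K S ≤ T := by rw [hT]; exact le_inf hCN (hCK.trans (hKM.trans hMI))
  have hIMT : stab (K ⊔ S) φ ≤ (K ⊔ S) ⊔ T := by
    intro x hx
    have h1 : x ∈ (K ⊔ S) ⊔ Subgroup.normalizer (S : Set G) := by
      rw [sup_comm, frattini_sup hSM hs.hT hSyl]; trivial
    rw [SubgroupTools.mem_sup_of_le_normalizer le_norm_of_normal] at h1
    obtain ⟨m, hm, n, hn, rfl⟩ := h1
    refine Subgroup.mul_mem_sup hm ?_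
    rw [hT]
    refine Subgroup.mem_inf.mpr ⟨hn, ?_⟩
    have h2 := Subgroup.mul_mem _ (Subgroup.inv_mem _ (hMI hm)) hx
    rwa [inv_mul_cancel_left] at h2
  -- the complement
  have hSTi : S ⊓ T = S := inf_eq_left.mpr hST
  have hpT : ¬ p ∣ S.relIndex T := fun h => hSyl (h.trans (Dvd.intro _ (Subgroup.relIndex_mul_index hST)))
  obtain ⟨n, hn⟩ := IsPGroup.iff_card.mp hs.hT
  obtain ⟨D, hDT, hDc, hSD, hgen⟩ := CoprimeAction.exists_complement_rel (N := S) (S := T) hTN (by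
    rw [hSTi, hn]
    exact Nat.Coprime.pow_left _ ((Nat.Prime.coprime_iff_not_dvd hp.out).mpr hpT))
  rw [hSTi] at hgen
  rw [← hDc] at hpT
  have hDS : D ≤ Subgroup.normalizer (S : Set G) := hDT.trans hTN
  have hCD : cc K S ≤ D := by
    have h1 : ¬ p ∣ Nat.card (cc K S ⊔ D : Subgroup G) := by
      intro h2
      have h3 := SubgroupTools.card_sup_mul_card_inf (N := cc K S) (H := D) (hDS.trans hNC)
      have h4 : p ∣ Nat.card (cc K S) * Nat.card D := by rw [← h3]; exact h2.mul_right _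
      rcases hp.out.dvd_mul.mp h4 with h5 | h5
      · exact hs.ccs.hK h5
      · exact hpT h5
    have h2 : S ⊓ (cc K S ⊔ D) = ⊥ := by
      apply SubgroupTools.inf_eq_bot_of_coprime'
      rw [hn]
      exact Nat.Coprime.pow_left _ ((Nat.Prime.coprime_iff_not_dvd hp.out).mpr h1)
    have h3 := SubgroupTools.card_sup_of_disjoint (N := S) (H := cc K S ⊔ D) (sup_le hCN hDS) (disjoint_iff.mpr h2)
    have h4 := SubgroupTools.card_sup_of_disjoint (N := S) (H := D) hDS (disjoint_iff.mpr hSD)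
    have h5 : S ⊔ (cc K S ⊔ D) = S ⊔ D := by
      apply le_antisymm
      · rw [hgen]
        exact sup_le hST (sup_le hCT hDT)
      · exact sup_le_sup_left le_sup_right _
    rw [h5, h4] at h3
    have h6 := Nat.eq_of_mul_eq_mul_left Nat.card_pos h3
    have h7 : D = cc K S ⊔ D := Subgroup.eq_of_le_of_card_ge le_sup_right h6.ge
    rw [h7]
    exact le_sup_left
  have hDpow : ∀ x ∈ D, x ^ Nat.card D = 1 := by
    intro x hx
    have := congrArg Subtype.val (pow_card_eq_one' (x := (⟨x, hx⟩ : D)))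
    exact this
  have hKD : K ⊓ D ≤ cc K S := by
    rw [← inf_normalizer hs]
    exact inf_le_inf_left _ hDS
  have hMD : ∀ x ∈ D, x ∈ K ⊔ S ↔ x ∈ cc K S := by
    intro x hx
    constructor
    · intro h1
      exact hKD ⟨mem_of_sup_pgroup hs h1 (hDpow x hx) hpT, hx⟩
    · intro h1
      exact hKM (hCK h1)
  have hCSD : ∀ x ∈ D, x ∈ cc K S ⊔ S ↔ x ∈ cc K S := by
    intro x hx
    constructor
    · intro h1
      exact (hMD x hx).mp (hCSM h1)
    · intro h1
      exact Subgroup.mem_sup_left h1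
  have hMDe : (K ⊔ S) ⊓ D = cc K S := by
    apply le_antisymm
    · rintro x ⟨h1, h2⟩
      exact (hMD x h2).mp h1
    · exact le_inf (hCK.trans hKM) hCD
  have hCSDe : (cc K S ⊔ S) ⊓ D = cc K S := by
    apply le_antisymm
    · rintro x ⟨h1, h2⟩
      exact (hCSD x h2).mp h1
    · exact le_inf le_sup_left hCD
  -- the two counts
  have g1 := ggc_sub (H := stab (K ⊔ S) φ) (M := K ⊔ S) (K := K) (D := D) hMI (hDT.trans hTI) le_norm_of_normal
    le_norm_of_normal hKM (hIMT.trans (by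
      rw [← hgen, ← sup_assoc, sup_assoc K S S, sup_idem])) (by rw [hMDe]; exact hCK) h.irr h.corr.irr le_rfl
  have g2 := ggc_sub (H := T) (M := cc K S ⊔ S) (K := cc K S) (D := D) (sup_le hCT hST) hDT (hTN.trans hNCS)
    (hTN.trans hNC) le_sup_left (by rw [← hgen]; exact sup_le_sup_right le_sup_right _) (by rw [hCSDe]) h.irrC h.corr.irr'
    (by rw [hT']; exact inf_le_right)
  have hsum : (∑ d : D, if (∀ d' ∈ D, d' * d * d'⁻¹ * (d : G)⁻¹ ∈ K ⊔ S → Ext K φ (K ⊔ Subgroup.closure {(d : G), d'})) then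
        (cD (K ⊔ S) D d : ℂ) else 0) =
      ∑ d : D, if (∀ d' ∈ D, d' * d * d'⁻¹ * (d : G)⁻¹ ∈ cc K S ⊔ S → Ext (cc K S) φ' (cc K S ⊔ Subgroup.closure {(d : G), d'})) then
        (cD (cc K S ⊔ S) D d : ℂ) else 0 := by
    apply Finset.sum_congr rfl
    intro d _
    have hcm : ∀ d' ∈ D, d' * d * d'⁻¹ * (d : G)⁻¹ ∈ D := fun d' hd' =>
      D.mul_mem (D.mul_mem (D.mul_mem hd' d.2) (D.inv_mem hd')) (D.inv_mem d.2)
    have hiff : (∀ d' ∈ D, d' * d * d'⁻¹ * (d : G)⁻¹ ∈ K ⊔ S → Ext K φ (K ⊔ Subgroup.closure {(d : G), d'})) ↔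
        (∀ d' ∈ D, d' * d * d'⁻¹ * (d : G)⁻¹ ∈ cc K S ⊔ S → Ext (cc K S) φ' (cc K S ⊔ Subgroup.closure {(d : G), d'})) := by
      refine forall_congr' fun d' => forall_congr' fun hd' => ?_
      rw [hMD _ (hcm d' hd'), hCSD _ (hcm d' hd')]
      refine forall_congr' fun hC => ?_
      have hD₁ : Subgroup.closure {(d : G), d'} ≤ D := by
        rw [Subgroup.closure_le]
        rintro z (rfl | rfl)
        · exact d.2
        · exact hd'
      apply chain (p := p) _ S K (Subgroup.closure {(d : G), d'}) φ φ' rfl hs le_norm_of_normal (hD₁.trans hDS)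
      · intro h2
        have h3 := SubgroupTools.card_sup_mul_card_inf (N := K) (H := Subgroup.closure {(d : G), d'}) le_norm_of_normal
        have h4 : p ∣ Nat.card K * Nat.card (Subgroup.closure {(d : G), d'}) := by rw [← h3]; exact h2.mul_right _
        rcases hp.out.dvd_mul.mp h4 with h5 | h5
        · exact hs.hK h5
        · exact hpT (h5.trans (Subgroup.card_dvd_of_le hD₁))
      · exact ((inf_le_inf_left _ hD₁).trans hKD).trans (cc_le' _ _)
      · exact comm_closure (hCK hC)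
      · exact h.corr
    have hcD : cD (K ⊔ S) D d = cD (cc K S ⊔ S) D d := by
      unfold cD
      refine Nat.card_congr ((Equiv.refl D).subtypeEquiv (fun d' => ?_))
      rw [hMD _ (hcm d' d'.2)]
      exact (hCSD _ (hcm d' d'.2)).symm
    rw [hcD]
    by_cases hcnd : (∀ d' ∈ D, d' * d * d'⁻¹ * (d : G)⁻¹ ∈ cc K S ⊔ S → Ext (cc K S) φ' (cc K S ⊔ Subgroup.closure {(d : G), d'}))
    · rw [if_pos (hiff.mpr hcnd), if_pos hcnd]
    · rw [if_neg (fun h => hcnd (hiff.mp h)), if_neg hcnd]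
  rw [hMDe] at g1
  rw [hCSDe] at g2
  rw [hsum, ← g2] at g1
  have hC0 : (Nat.card (cc K S) : ℂ) ≠ 0 := by exact_mod_cast Nat.card_pos.ne'
  have hD0 : (Nat.card D : ℂ) ≠ 0 := by exact_mod_cast Nat.card_pos.ne'
  have g3 := mul_right_cancel₀ hD0 (mul_right_cancel₀ hC0 g1)
  have g4 : Nat.card {χ : IrrCharacter (stab (K ⊔ S) φ) // ip (K ⊔ S) (lf (stab (K ⊔ S) φ) χ) φ ≠ 0} =
      Nat.card {χ : IrrCharacter T // ip (cc K S ⊔ S) (lf T χ) φ' ≠ 0} := by exact_mod_cast g3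
  obtain ⟨F, -⟩ := clifford_top h.irr rfl
  obtain ⟨F', -⟩ := clifford_equiv (sup_le hCN hSN) hNCS h.irrC hT'
  rw [← Nat.card_congr F, g4, Nat.card_congr F']

end fiber

end Cfsg.Agent.Lib.RMck
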