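import Cfsg.Agent.Lib.RMck6

/-!
# The central case of the relative McKay count (helper74)
-/

set_option autoImplicit false
set_option linter.all false

namespace Cfsg.Agent.Lib.RMck

open scoped ComplexConjugate
open Cfsg Cfsg.Agent.Lib.CharBasic Cfsg.Agent.Lib.Clifford Cfsg.Agent.Lib.CliffordCorr
open Cfsg.Agent.Lib.CanonExt Cfsg.Agent.Lib.GlaubCorr Cfsg.Agent.Lib.BlockRing

universe u

attribute [local instance 5000] Fintype.ofFinite

/-- counting by classes -/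
theorem wc {X Y Ω : Type*} [Finite X] [Finite Y] [Finite Ω] (s : Setoid Ω) (r : X → Ω → Prop) (r' : Y → Ω → Prop)
    (h1 : ∀ x, ∃ ω, ∀ ω', r x ω' ↔ s.r ω ω') (h1' : ∀ y, ∃ ω, ∀ ω', r' y ω' ↔ s.r ω ω')
    (h2 : ∀ ω, Nat.card {x // r x ω} = Nat.card {y // r' y ω}) : Nat.card X = Nat.card Y := by
  classical
  choose f hf using h1
  choose f' hf' using h1'
  have key : ∀ c : Quotient s, Nat.card {x // (Quotient.mk s (f x)) = c} = Nat.card {y // (Quotient.mk s (f' y)) = c} := by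
    intro c
    obtain ⟨ω, rfl⟩ := Quotient.exists_rep c
    have e1 : ∀ x, (Quotient.mk s (f x) = Quotient.mk s ω) ↔ r x ω := by
      intro x
      rw [hf x ω]
      exact Quotient.eq
    have e2 : ∀ x, (Quotient.mk s (f' x) = Quotient.mk s ω) ↔ r' x ω := by
      intro x
      rw [hf' x ω]
      exact Quotient.eq
    simp only [e1, e2]
    exact h2 ω
  rw [Nat.card_congr (Equiv.sigmaFiberEquiv (fun x => Quotient.mk s (f x))).symm,
    Nat.card_congr (Equiv.sigmaFiberEquiv (fun x => Quotient.mk s (f' x))).symm, Nat.card_sigma, Nat.card_sigma]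
  exact Finset.sum_congr rfl fun c _ => key c

section amb

variable {G : Type u} [Group G] [Finite G]

theorem exists_conj_amb {M H : Subgroup G} (hMH : M ≤ H) (hn : H ≤ Subgroup.normalizer (M : Set G)) {χ φ₁ φ₂ : G → ℂ}
    (hχ : IrrOn H χ) (h1 : IrrOn M φ₁) (h2 : IrrOn M φ₂) (o1 : ip M χ φ₁ ≠ 0) (o2 : ip M χ φ₂ ≠ 0) :
    ∃ h ∈ H, ∀ x ∈ M, φ₂ x = φ₁ (h * x * h⁻¹) := by
  have hn' : (M.subgroupOf H).Normal := SubgroupTools.normal_subgroupOf_iff_le_normalizer' hn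
  obtain ⟨g, hg⟩ := exists_cj_eq (N := M.subgroupOf H) (show IsIrrCharacter H (fun h : H => χ h) from hχ)
    ((irrOn_sub hMH).mpr h1) ((irrOn_sub hMH).mpr h2) (by
      rw [show classInner (fun n : M.subgroupOf H => χ ((n : H) : G)) (fun n => φ₁ ((n : H) : G)) = ip M χ φ₁ from ip_sub hMH χ φ₁]
      exact o1) (by
      rw [show classInner (fun n : M.subgroupOf H => χ ((n : H) : G)) (fun n => φ₂ ((n : H) : G)) = ip M χ φ₂ from ip_sub hMH χ φ₂]
      exact o2)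
  refine ⟨g, g.2, fun x hx => ?_⟩
  exact congrFun hg ⟨⟨x, hMH hx⟩, hx⟩

theorem ip_conj_left {M H : Subgroup G} (hMH : M ≤ H) {χ : G → ℂ} (hχ : ChOn H χ) (φ : G → ℂ) {h : G} (hh : h ∈ H)
    (hn : h ∈ Subgroup.normalizer (M : Set G)) : ip M χ (fun x => φ (h * x * h⁻¹)) = ip M χ φ := by
  rw [← ip_conj hn χ φ]
  apply ip_congr _ (fun _ _ => rfl)
  intro x hx
  exact (hχ.cls (hMH hx) hh).symm

theorem over_trans_amb {Z M H : Subgroup G} (hZM : Z ≤ M) (hMH : M ≤ H) {χ φ μ : G → ℂ} (hχ : ChOn H χ)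
    (hφ : IrrOn M φ) (hμ : IrrOn Z μ) (o1 : ip M χ φ ≠ 0) (o2 : ip Z φ μ ≠ 0) : ip Z χ μ ≠ 0 := by
  have h := FongSwan.over_trans (M := Z.subgroupOf M) (show IsCharacter M (fun m : M => χ m) from hχ.res hMH)
    (show IsIrrCharacter M (fun m : M => φ m) from hφ) o1 ((irrOn_sub hZM).mpr hμ) (by
      rw [show classInner (fun n : Z.subgroupOf M => φ ((n : M) : G)) (fun n => μ ((n : M) : G)) = ip Z φ μ from ip_sub hZM φ μ]
      exact o2)
  rw [show classInner (fun n : Z.subgroupOf M => χ ((n : M) : G)) (fun n => μ ((n : M) : G)) = ip Z χ μ from ip_sub hZM χ μ] at h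
  exact h

theorem over_unique {Z H : Subgroup G} (hZH : Z ≤ H) {χ lam μ : G → ℂ} (hχ : IrrOn H χ) (hlam : IrrOn Z lam)
    (hinv : H ≤ stab Z lam) (hμ : IrrOn Z μ) (o1 : ip Z χ lam ≠ 0) (o2 : ip Z χ μ ≠ 0) : ∀ z ∈ Z, μ z = lam z := by
  obtain ⟨h, hh, h1⟩ := exists_conj_amb hZH (hinv.trans (stab_le_normalizer _ _)) hχ hlam hμ o1 o2
  intro z hz
  rw [h1 z hz]
  exact (hinv hh).2 z hz

theorem over_down {Z M H : Subgroup G} (hZM : Z ≤ M) (hMH : M ≤ H) {χ φ lam : G → ℂ} (hχ : IrrOn H χ)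
    (hφ : IrrOn M φ) (hlam : IrrOn Z lam) (hinv : H ≤ stab Z lam) (o1 : ip M χ φ ≠ 0) (o2 : ip Z χ lam ≠ 0) :
    ip Z φ lam ≠ 0 := by
  obtain ⟨μ, hμ⟩ := exists_const hZM hφ
  have h1 := over_trans_amb hZM hMH hχ.ch hφ (chOn_lf μ) o1 hμ
  have h2 := over_unique (hZM.trans hMH) hχ hlam hinv (chOn_lf μ) o2 h1
  rw [ip_congr (fun _ _ => rfl) h2] at hμ
  exact hμ

theorem res_scal_amb {N H : Subgroup G} (hNH : N ≤ H) {χ θ : G → ℂ} (hχ : IrrOn H χ) (hθ : IrrOn N θ)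
    (hinv : H ≤ stab N θ) (o : ip N χ θ ≠ 0) : ∀ n ∈ N, χ n = ip N χ θ * θ n := by
  have hn' : (N.subgroupOf H).Normal :=
    SubgroupTools.normal_subgroupOf_iff_le_normalizer' (hinv.trans (stab_le_normalizer _ _))
  have hip : classInner (fun n : N.subgroupOf H => χ ((n : H) : G)) (fun n => θ ((n : H) : G)) = ip N χ θ := ip_sub hNH χ θ
  have h := res_eq_smul_of_invariant (N := N.subgroupOf H) (show IsIrrCharacter H (fun h : H => χ h) from hχ)
    ((irrOn_sub hNH).mpr hθ) (by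
      intro g
      funext n
      exact (hinv g.2).2 _ n.2) (by rw [hip]; exact o)
  intro n hn
  have h1 := congrFun h ⟨⟨n, hNH hn⟩, hn⟩
  rw [hip] at h1
  exact h1

/-- lying over a linear character of a central subgroup -/
theorem over_central {Z H : Subgroup G} (hZH : Z ≤ H) (hZ : ∀ z ∈ Z, ∀ x : G, z * x = x * z) {χ lam : G → ℂ}
    (hχ : IrrOn H χ) (hlam : IrrOn Z lam) : ip Z χ lam ≠ 0 ↔ ∀ z ∈ Z, χ z = χ 1 * lam z := by
  have hstab : H ≤ stab Z lam := by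
    intro h _
    have h0 : ∀ n ∈ Z, h * n * h⁻¹ = n := fun n hn => by rw [← hZ n hn h, mul_inv_cancel_right]
    exact ⟨mem_normalizer_of (fun n hn => by rw [h0 n hn]; exact hn), fun n hn => by rw [h0 n hn]⟩
  have hl1 : lam 1 = 1 := by
    have hl : IsIrrCharacter Z (fun z : Z => lam z) := hlam
    exact hl.one_eq_one_of_comm (fun a b => Subtype.ext (hZ a a.2 b))
  constructor
  · intro o z hz
    have h1 := res_scal_amb hZH hχ hlam hstab o
    have h2 := h1 1 Z.one_mem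
    rw [hl1, mul_one] at h2
    rw [h1 z hz, ← h2]
  · intro h h0
    have h1 : ip Z χ lam = χ 1 * ip Z lam lam := by
      unfold ip
      rw [← classInner_smul_left]
      congr 1
      funext z
      exact h z z.2
    rw [h0, show ip Z lam lam = 1 from IsIrrCharacter.classInner_self hlam, mul_one] at h1
    exact hχ.one_ne h1.symm

theorem irrOn_top {χ : G → ℂ} : IrrOn ⊤ χ ↔ IsIrrCharacter G χ :=
  isIrrCharacter_comp_mulEquiv_iff (χ := χ) (Subgroup.topEquiv : (⊤ : Subgroup G) ≃* G)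

end amb

section final

variable {G : Type u} [Group G] [Finite G] {p : ℕ} [hp : Fact p.Prime]

theorem over_Z_iff {Z K S : Subgroup G} (hs : Sys p K S) (hZc : ∀ z ∈ Z, ∀ x : G, z * x = x * z) (hZM : Z ≤ K ⊔ S)
    {φ φ' lam : G → ℂ} (h : Rel p K S φ φ') (hlam : IrrOn Z lam) (hZC : Z ≤ cc K S ⊔ S) :
    ip Z φ lam ≠ 0 ↔ ip Z φ' lam ≠ 0 := by
  rw [over_central hZM hZc h.irr hlam, over_central hZC hZc h.irrC hlam]
  constructor
  · intro h1 z hz
    obtain ⟨ω, h2, h3⟩ := h.central hs (hZM hz) (hZc z hz)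
    have h4 := h1 z hz
    rw [h2] at h4
    rw [h3, mul_left_cancel₀ h.irr.one_ne h4]
  · intro h1 z hz
    obtain ⟨ω, h2, h3⟩ := h.central hs (hZM hz) (hZc z hz)
    have h4 := h1 z hz
    rw [h3] at h4
    rw [h2, mul_left_cancel₀ h.irrC.one_ne h4]

theorem final_case {Z K S : Subgroup G} (hZc : ∀ z ∈ Z, ∀ x : G, z * x = x * z) (hs : Sys p K S) [hKn : K.Normal]
    [hMn : (K ⊔ S).Normal] (hSyl : ¬ p ∣ S.index) (hZM : Z ≤ K ⊔ S) {lam : G → ℂ} (hlam : IrrOn Z lam) :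
    Nat.card {χ : IrrCharacter G // ¬ p ∣ dg (χ : G → ℂ) ∧ ip Z (χ : G → ℂ) lam ≠ 0} =
      Nat.card {ψ : IrrCharacter (Subgroup.normalizer (S : Set G)) //
        ¬ p ∣ dg (lf (Subgroup.normalizer (S : Set G)) ψ) ∧ ip Z (lf (Subgroup.normalizer (S : Set G)) ψ) lam ≠ 0} := by
  classical
  have hKM : K ≤ K ⊔ S := le_sup_left
  have hSM : S ≤ K ⊔ S := le_sup_right
  have hSN : S ≤ Subgroup.normalizer (S : Set G) := Subgroup.le_normalizer
  have hCN : cc K S ≤ Subgroup.normalizer (S : Set G) := (cc_le' K S).trans (centralizer_le_normalizer S)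
  have hCSN : cc K S ⊔ S ≤ Subgroup.normalizer (S : Set G) := sup_le hCN hSN
  have hNCS : Subgroup.normalizer (S : Set G) ≤ Subgroup.normalizer ((cc K S ⊔ S : Subgroup G) : Set G) := fun y hy =>
    mem_norm_sup (mem_norm_cc (mem_norm_of_normal y) hy) hy
  have hstab : ∀ H : Subgroup G, H ≤ stab Z lam := by
    intro H h _
    have h0 : ∀ n ∈ Z, h * n * h⁻¹ = n := fun n hn => by rw [← hZc n hn h, mul_inv_cancel_right]
    exact ⟨mem_normalizer_of (fun n hn => by rw [h0 n hn]; exact hn), fun n hn => by rw [h0 n hn]⟩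
  have hZC : Z ≤ cc K S ⊔ S := by
    intro z hz
    obtain ⟨k, hk, s, hs', h1, -⟩ := mem_ccs_of_central hs (hZM hz) (hZc z hz)
    rw [h1]
    exact Subgroup.mul_mem_sup hk hs'
  have hidxM : ¬ p ∣ (K ⊔ S).relIndex ⊤ := by
    rw [Subgroup.relIndex_top_right]
    exact fun h => hSyl (h.trans (Subgroup.index_dvd_of_le hSM))
  have hidxC : ¬ p ∣ (cc K S ⊔ S).relIndex (Subgroup.normalizer (S : Set G)) := by
    intro h
    apply hSyl
    have h1 : (cc K S ⊔ S).relIndex (Subgroup.normalizer (S : Set G)) ∣ (cc K S ⊔ S).index :=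
      Dvd.intro _ (Subgroup.relIndex_mul_index hCSN)
    exact (h.trans h1).trans (Subgroup.index_dvd_of_le le_sup_right)
  let s : Setoid {φ : IrrCharacter (K ⊔ S : Subgroup G) // ¬ p ∣ dg (lf (K ⊔ S) φ) ∧ ip Z (lf (K ⊔ S) φ) lam ≠ 0} :=
    { r := fun a b => ∃ n ∈ Subgroup.normalizer (S : Set G), ∀ x ∈ K ⊔ S, lf (K ⊔ S) b.1 x = lf (K ⊔ S) a.1 (n * x * n⁻¹)
      iseqv :=
        { refl := fun a => ⟨1, Subgroup.one_mem _, fun x _ => by simp⟩
          symm := by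
            rintro a b ⟨n, hn, h⟩
            refine ⟨n⁻¹, Subgroup.inv_mem _ hn, fun x hx => ?_⟩
            have h1 : n⁻¹ * x * n⁻¹⁻¹ ∈ K ⊔ S := hMn.conj_mem x hx n⁻¹
            rw [h _ h1]
            congr 1
            group
          trans := by
            rintro a b c ⟨n, hn, h⟩ ⟨m, hm, h'⟩
            refine ⟨n * m, Subgroup.mul_mem _ hn hm, fun x hx => ?_⟩
            rw [h' x hx, h _ (hMn.conj_mem x hx m)]
            congr 1
            group } }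
  refine wc s (fun χ φ => ip (K ⊔ S) (χ.1 : G → ℂ) (lf (K ⊔ S) φ.1) ≠ 0)
    (fun ψ φ => ∃ φ', Rel p K S (lf (K ⊔ S) φ.1) φ' ∧ ip (cc K S ⊔ S) (lf (Subgroup.normalizer (S : Set G)) ψ.1) φ' ≠ 0)
    ?_ ?_ ?_
  · -- orbits for `G`
    rintro ⟨χ, hχ1, hχ2⟩
    have hχ : IrrOn ⊤ (χ : G → ℂ) := irrOn_top.mpr χ.2
    obtain ⟨φ, hφ⟩ := exists_const (le_top : K ⊔ S ≤ ⊤) hχ
    have hφ1 : ¬ p ∣ dg (lf (K ⊔ S) φ) := ndvd_of_over le_top le_norm_of_normal hχ (chOn_lf φ) hφ hχ1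
    have hφ2 : ip Z (lf (K ⊔ S) φ) lam ≠ 0 := over_down hZM le_top hχ (chOn_lf φ) hlam (hstab _) hφ hχ2
    refine ⟨⟨φ, hφ1, hφ2⟩, fun φ₂ => ?_⟩
    constructor
    · intro h2
      obtain ⟨g, -, hg⟩ := exists_conj_amb (le_top : K ⊔ S ≤ ⊤) le_norm_of_normal hχ (chOn_lf φ) (chOn_lf φ₂.1) hφ h2
      have hg' : g ∈ (K ⊔ S) ⊔ Subgroup.normalizer (S : Set G) := by
        rw [sup_comm, frattini_sup hSM hs.hT hSyl]; trivial
      rw [SubgroupTools.mem_sup_of_le_normalizer' le_norm_of_normal] at hg'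
      obtain ⟨n, hn, m, hm, rfl⟩ := hg'
      refine ⟨n, hn, fun x hx => ?_⟩
      have h3 : ∀ x ∈ K ⊔ S, lf (K ⊔ S) φ (n * (m * x * m⁻¹) * n⁻¹) = lf (K ⊔ S) φ (n * x * n⁻¹) := by
        intro x hx
        exact ((chOn_lf φ).conj (mem_norm_of_normal n)).ch.cls hx hm
      rw [hg x hx, ← h3 x hx]
      congr 1
      group
    · rintro ⟨n, hn, h⟩
      show ip (K ⊔ S) (χ : G → ℂ) (lf (K ⊔ S) φ₂.1) ≠ 0
      rw [ip_congr (fun _ _ => rfl) h, ip_conj_left (le_top : K ⊔ S ≤ ⊤) hχ.ch _ (Subgroup.mem_top n) (mem_norm_of_normal n)]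
      exact hφ
  · -- orbits for `N`
    rintro ⟨ψ, hψ1, hψ2⟩
    have hψ := chOn_lf ψ
    obtain ⟨φ', hφ'⟩ := exists_const hCSN hψ
    have hφ'1 : ¬ p ∣ dg (lf (cc K S ⊔ S) φ') := ndvd_of_over hCSN hNCS hψ (chOn_lf φ') hφ' hψ1
    have hφ'2 : ip Z (lf (cc K S ⊔ S) φ') lam ≠ 0 := over_down hZC hCSN hψ (chOn_lf φ') hlam (hstab _) hφ' hψ2
    obtain ⟨φ, hrel⟩ := rel_up_exists hs (chOn_lf φ') hφ'1
    have hlf : ∀ x ∈ K ⊔ S, lf (K ⊔ S) (fun m : (K ⊔ S : Subgroup G) => φ m) x = φ x := fun x hx => lf_mem _ _ hx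
    have hrel' : Rel p K S (lf (K ⊔ S) (fun m : (K ⊔ S : Subgroup G) => φ m)) (lf (cc K S ⊔ S) φ') :=
      hrel.congr hs (fun x hx => (hlf x hx).symm) (fun _ _ => rfl)
    refine ⟨⟨⟨fun m : (K ⊔ S : Subgroup G) => φ m, hrel.irr⟩, hrel'.nd hs, ?_⟩, fun φ₂ => ?_⟩
    · rw [over_Z_iff hs hZc hZM hrel' hlam hZC]
      exact hφ'2
    constructor
    · rintro ⟨φ₂', h2, h3⟩
      obtain ⟨n, hn, h4⟩ := exists_conj_amb hCSN hNCS hψ (chOn_lf φ') h2.irrC hφ' h3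
      refine ⟨n, hn, fun x hx => ?_⟩
      exact h2.up hs (hrel'.conj (mem_norm_of_normal n) hn) h4 x hx
    · rintro ⟨n, hn, h⟩
      refine ⟨_, (hrel'.conj (mem_norm_of_normal n) hn).congr hs (fun x hx => (h x hx).symm) (fun _ _ => rfl), ?_⟩
      rw [ip_conj_left hCSN hψ.ch _ hn (hNCS hn)]
      exact hφ'
  · -- fibers
    rintro ⟨φ, hφ1, hφ2⟩
    obtain ⟨φ', hrel⟩ := rel_down_exists hs (chOn_lf φ) hφ1
    have hφ'2 : ip Z φ' lam ≠ 0 := (over_Z_iff hs hZc hZM hrel hlam hZC).mp hφ2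
    have e1 : Nat.card {x : {χ : IrrCharacter G // ¬ p ∣ dg (χ : G → ℂ) ∧ ip Z (χ : G → ℂ) lam ≠ 0} //
        ip (K ⊔ S) (x.1 : G → ℂ) (lf (K ⊔ S) φ) ≠ 0} = Nat.card {χ : IrrCharacter G // ip (K ⊔ S) (χ : G → ℂ) (lf (K ⊔ S) φ) ≠ 0} := by
      refine Nat.card_congr
        { toFun := fun x => ⟨x.1.1, x.2⟩
          invFun := fun x => ⟨⟨x.1, ?_, ?_⟩, x.2⟩
          left_inv := fun x => rfl
          right_inv := fun x => rfl }
      · rw [dvd_dg_iff le_top le_norm_of_normal (irrOn_top.mpr x.1.2) (chOn_lf φ) x.2 hidxM]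
        exact hφ1
      · exact over_trans_amb hZM le_top (irrOn_top.mpr x.1.2).ch (chOn_lf φ) hlam x.2 hφ2
    have e2 : Nat.card {y : {ψ : IrrCharacter (Subgroup.normalizer (S : Set G)) //
        ¬ p ∣ dg (lf (Subgroup.normalizer (S : Set G)) ψ) ∧ ip Z (lf (Subgroup.normalizer (S : Set G)) ψ) lam ≠ 0} //
        ∃ φ', Rel p K S (lf (K ⊔ S) φ) φ' ∧ ip (cc K S ⊔ S) (lf (Subgroup.normalizer (S : Set G)) y.1) φ' ≠ 0} =
        Nat.card {ψ : IrrCharacter (Subgroup.normalizer (S : Set G)) //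
          ip (cc K S ⊔ S) (lf (Subgroup.normalizer (S : Set G)) ψ) φ' ≠ 0} := by
      refine Nat.card_congr
        { toFun := fun x => ⟨x.1.1, ?_⟩
          invFun := fun x => ⟨⟨x.1, ?_, ?_⟩, φ', hrel, x.2⟩
          left_inv := fun x => rfl
          right_inv := fun x => rfl }
      · obtain ⟨φ'', h1, h2⟩ := x.2
        rw [ip_congr (fun _ _ => rfl) (hrel.down hs h1 (fun _ _ => rfl))]
        exact h2
      · rw [dvd_dg_iff hCSN hNCS (chOn_lf x.1) hrel.irrC x.2 hidxC]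
        exact hrel.nd' hs
      · exact over_trans_amb hZC hCSN (chOn_lf x.1).ch hrel.irrC hlam x.2 hφ'2
    exact e1.trans ((fiber_eq hs hSyl hrel).trans e2.symm)

end final

end Cfsg.Agent.Lib.RMck
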