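import Cfsg.Agent.Lib.RMck7
import Cfsg.Agent.Lib.FongSwan2
import Cfsg.Agent.Lib.CharTripleCentral

/-!
# The relative McKay count: transfer to a central extension (helper74)
-/

set_option autoImplicit false
set_option linter.all false

namespace Cfsg.Agent.Lib.RMck

open scoped ComplexConjugate
open Cfsg Cfsg.Agent.Lib.CharBasic Cfsg.Agent.Lib.Clifford Cfsg.Agent.Lib.CliffordCorr
open Cfsg.Agent.Lib.CanonExt Cfsg.Agent.Lib.CharTriple Cfsg.Agent.Lib.FongSwan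

universe u

attribute [local instance 5000] Fintype.ofFinite

section triple

variable {A : Type u} [Group A] [Finite A] {N : Subgroup A} {θ : A → ℂ}

local instance triple_norm (t : Triple N (fun n : N => θ n)) : t.j.range.Normal := t.j_norm

/-- the corresponding subgroup -/
def hat (t : Triple N (fun n : N => θ n)) (W : Subgroup A) : Subgroup (t.Y ⧸ t.j.range) :=
  (W.comap t.π).map (QuotientGroup.mk' t.j.range)

theorem mem_hat {t : Triple N (fun n : N => θ n)} {W : Subgroup A} (hNW : N ≤ W) {y : t.Y} :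
    (y : t.Y ⧸ t.j.range) ∈ hat t W ↔ t.π y ∈ W := by
  constructor
  · rintro ⟨x, hx, hxy⟩
    have h1 : x⁻¹ * y ∈ t.j.range := QuotientGroup.eq.mp hxy
    obtain ⟨n, hn⟩ := h1
    have h2 : t.π y = t.π x * n := by
      rw [← t.π_j n, ← map_mul, hn, mul_inv_cancel_left]
    rw [h2]
    exact W.mul_mem hx (hNW n.2)
  · intro h
    exact ⟨y, h, rfl⟩

theorem comap_hat {t : Triple N (fun n : N => θ n)} {W : Subgroup A} (hNW : N ≤ W) :
    (hat t W).comap (QuotientGroup.mk' t.j.range) = W.comap t.π := by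
  ext y
  exact mem_hat hNW

theorem hat_sup (t : Triple N (fun n : N => θ n)) (V W : Subgroup A) : hat t (V ⊔ W) = hat t V ⊔ hat t W := by
  unfold hat
  rw [← Subgroup.comap_sup_eq _ _ _ t.π_surj, Subgroup.map_sup]

theorem hat_mono (t : Triple N (fun n : N => θ n)) {V W : Subgroup A} (h : V ≤ W) : hat t V ≤ hat t W :=
  Subgroup.map_mono (Subgroup.comap_mono h)

theorem hat_normal (t : Triple N (fun n : N => θ n)) {W : Subgroup A} (h : W.Normal) : (hat t W).Normal :=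
  (h.comap t.π).map _ (QuotientGroup.mk'_surjective _)

theorem hat_top (t : Triple N (fun n : N => θ n)) : hat t ⊤ = ⊤ := by
  unfold hat
  rw [Subgroup.comap_top, ← MonoidHom.range_eq_map, MonoidHom.range_eq_top]
  exact QuotientGroup.mk'_surjective _

theorem hat_normalizer (t : Triple N (fun n : N => θ n)) {W : Subgroup A} (hNW : N ≤ W) :
    hat t (Subgroup.normalizer (W : Set A)) = Subgroup.normalizer ((hat t W : Subgroup _) : Set (t.Y ⧸ t.j.range)) := by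
  ext x
  obtain ⟨y, rfl⟩ := QuotientGroup.mk_surjective x
  rw [mem_hat (hNW.trans Subgroup.le_normalizer)]
  constructor
  · intro h
    apply mem_normalizer_of
    intro w hw
    obtain ⟨v, rfl⟩ := QuotientGroup.mk_surjective w
    rw [mem_hat hNW] at hw
    show ((y * v * y⁻¹ : t.Y) : t.Y ⧸ t.j.range) ∈ hat t W
    rw [mem_hat hNW, map_mul, map_mul, map_inv]
    exact ((Subgroup.mem_normalizer_iff.mp h) _).mp hw
  · intro h
    apply mem_normalizer_of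
    intro w hw
    obtain ⟨v, rfl⟩ := t.π_surj w
    have h1 : ((y * v * y⁻¹ : t.Y) : t.Y ⧸ t.j.range) ∈ hat t W :=
      ((Subgroup.mem_normalizer_iff.mp h) _).mp ((mem_hat hNW).mpr hw)
    rw [mem_hat hNW, map_mul, map_mul, map_inv] at h1
    exact h1

theorem hat_relIndex (t : Triple N (fun n : N => θ n)) {V W : Subgroup A} (hNV : N ≤ V) (hNW : N ≤ W) :
    (hat t V).relIndex (hat t W) = V.relIndex W := by
  have h1 : (hat t V).relIndex (hat t W) = (V.comap t.π).relIndex (W.comap t.π) := by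
    have h2 : hat t W = (W.comap t.π).map (QuotientGroup.mk' t.j.range) := rfl
    rw [h2, ← Subgroup.relIndex_comap, comap_hat hNV]
  rw [h1, Subgroup.relIndex_comap, Subgroup.map_comap_eq_self_of_surjective t.π_surj]

theorem zq_range_eq (t : Triple N (fun n : N => θ n)) : (zq t).range = hat t N := by
  ext x
  constructor
  · rintro ⟨z, rfl⟩
    exact ⟨(z : t.Y), by
      show t.π z ∈ N
      rw [show t.π z = 1 from z.2]
      exact N.one_mem, rfl⟩
  · rintro ⟨y, hy, rfl⟩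
    have hy' : t.π y ∈ N := hy
    refine ⟨⟨y * (t.j ⟨t.π y, hy'⟩)⁻¹, ?_⟩, ?_⟩
    · rw [MonoidHom.mem_ker, map_mul, map_inv, t.π_j, mul_inv_cancel]
    · show ((y * (t.j ⟨t.π y, hy'⟩)⁻¹ : t.Y) : t.Y ⧸ t.j.range) = (y : t.Y ⧸ t.j.range)
      rw [QuotientGroup.eq]
      have : (y * (t.j ⟨t.π y, hy'⟩)⁻¹)⁻¹ * y = t.j ⟨t.π y, hy'⟩ := by group
      rw [this]
      exact ⟨_, rfl⟩

variable [hNn : N.Normal]

/-- the relation between characters of `W` and of `hat W` -/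
def Cor (t : Triple N (fun n : N => θ n)) (W : Subgroup A) (χ : A → ℂ) (ψ : t.Y ⧸ t.j.range → ℂ) : Prop :=
  ∀ y : t.Y, t.π y ∈ W → χ (t.π y) = ψ y * t.ρ y

/-- the linear character of the centre -/
noncomputable def lamQ (t : Triple N (fun n : N => θ n)) : t.Y ⧸ t.j.range → ℂ := lf (zq t).range (lamZ t)

theorem lamQ_irr (t : Triple N (fun n : N => θ n)) : IrrOn (zq t).range (lamQ t) := irrOn_lf.mpr (lamZ_irr t)

theorem lamQ_zq (t : Triple N (fun n : N => θ n)) (z : t.π.ker) :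
    lamQ t ((z : t.Y) : t.Y ⧸ t.j.range) = ((t.lam z : ℂˣ) : ℂ)⁻¹ := by
  have h : ((z : t.Y) : t.Y ⧸ t.j.range) = ((eZ t z : (zq t).range) : t.Y ⧸ t.j.range) := rfl
  unfold lamQ
  rw [h, lf_coe, lamZ_eZ]

theorem zq_central (t : Triple N (fun n : N => θ n)) : ∀ z ∈ (zq t).range, ∀ x, z * x = x * z := by
  intro z hz x
  exact (Subgroup.mem_center_iff.mp (range_le_center t hz) x).symm

theorem rho_irrOn (t : Triple N (fun n : N => θ n)) (hθ : IrrOn N θ) : IrrOn t.j.range t.ρ := by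
  have hjinj : Function.Injective t.j := by
    intro a b hab
    have := congrArg t.π hab
    rw [t.π_j, t.π_j] at this
    exact Subtype.ext this
  let e : N ≃* t.j.range := MonoidHom.ofInjective hjinj
  have h1 : (fun n : N => (fun x : t.j.range => t.ρ x) (e n)) = fun n : N => θ n := by
    funext n
    exact t.ρ_j n
  have h2 := isIrrCharacter_comp_mulEquiv_iff (χ := fun x : t.j.range => t.ρ x) e
  rw [h1] at h2
  exact h2.mp hθ

theorem rho_ch (t : Triple N (fun n : N => θ n)) (X : Subgroup t.Y) : ChOn X t.ρ := t.ρ_char.restrict X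

theorem rho_one (t : Triple N (fun n : N => θ n)) : t.ρ 1 = θ 1 := by
  have := t.ρ_j 1
  rw [map_one] at this
  exact this

theorem Cor.one {t : Triple N (fun n : N => θ n)} {W : Subgroup A} {χ : A → ℂ} {ψ : t.Y ⧸ t.j.range → ℂ}
    (h : Cor t W χ ψ) : χ 1 = ψ 1 * θ 1 := by
  have h1 := h 1 (by rw [map_one]; exact W.one_mem)
  rw [map_one, rho_one] at h1
  exact h1

theorem cor_exists_chi (t : Triple N (fun n : N => θ n)) (hθ : IrrOn N θ) {W : Subgroup A} (hNW : N ≤ W)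
    {ψ : t.Y ⧸ t.j.range → ℂ} (hψ : IrrOn (hat t W) ψ) (ho : ip (zq t).range ψ (lamQ t) ≠ 0) :
    ∃ χ, IrrOn W χ ∧ Cor t W χ ψ ∧ ip N χ θ ≠ 0 := by
  have hZ : (zq t).range ≤ hat t W := by rw [zq_range_eq]; exact hat_mono t hNW
  have hsc := (over_central hZ (zq_central t) hψ (lamQ_irr t)).mp ho
  let f : W.comap t.π →* hat t W :=
    { toFun := fun x => ⟨((x : t.Y) : t.Y ⧸ t.j.range), (mem_hat hNW).mpr x.2⟩
      map_one' := rfl
      map_mul' := fun a b => rfl }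
  have hf : Function.Surjective f := by
    rintro ⟨x, hx⟩
    obtain ⟨y, rfl⟩ := QuotientGroup.mk_surjective x
    exact ⟨⟨y, (mem_hat hNW).mp hx⟩, rfl⟩
  have hβ : IsIrrCharacter (W.comap t.π) (fun x => ψ ((x : t.Y) : t.Y ⧸ t.j.range)) :=
    IsIrrCharacter.comp_surjective (show IsIrrCharacter (hat t W) (fun x => ψ x) from hψ) f hf
  have hqj : ∀ n : N, ((t.j n : t.Y) : t.Y ⧸ t.j.range) = 1 := fun n => (QuotientGroup.eq_one_iff _).2 ⟨n, rfl⟩
  obtain ⟨χ, hχ, h1, h2⟩ := t.mul_irr hθ hNW hβ (by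
      intro n hn
      show ψ ((t.j n : t.Y) : t.Y ⧸ t.j.range) = ψ 1
      rw [hqj]) (by
      intro z hz x
      show ψ ((((z : t.Y) * (x : t.Y) : t.Y)) : t.Y ⧸ t.j.range) = _ * ψ ((x : t.Y) : t.Y ⧸ t.j.range)
      have hzz : ((z : t.Y) : t.Y ⧸ t.j.range) ∈ (zq t).range := ⟨z, rfl⟩
      obtain ⟨ω, -, hω⟩ := dt_central hψ (hZ hzz) (fun m _ => zq_central t _ hzz m)
      have h3 := hω 1 (Subgroup.one_mem _)
      rw [one_mul, hsc _ hzz] at h3
      have h4 : lamQ t ((z : t.Y) : t.Y ⧸ t.j.range) = ω := mul_left_cancel₀ hψ.one_ne h3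
      rw [QuotientGroup.mk_mul, zq_central t _ hzz, hω _ ((mem_hat hNW).mpr x.2), ← h4, lamQ_zq, mul_comm])
  refine ⟨lf W χ, irrOn_lf.mpr hχ, ?_, ?_⟩
  · intro y hy
    rw [lf_mem W χ hy]
    exact h1 ⟨y, hy⟩
  · have h3 : ip N (lf W χ) θ = ψ 1 * ip N θ θ := by
      unfold ip
      rw [← classInner_smul_left]
      congr 1
      funext n
      rw [lf_mem W χ (hNW n.2)]
      exact h2 n
    rw [h3, show ip N θ θ = 1 from IsIrrCharacter.classInner_self hθ, mul_one]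
    exact hψ.one_ne

theorem cor_exists_psi (t : Triple N (fun n : N => θ n)) (hθ : IrrOn N θ) {W : Subgroup A} (hNW : N ≤ W)
    (hinv : W ≤ stab N θ) {χ : A → ℂ} (hχ : IrrOn W χ) (ho : ip N χ θ ≠ 0) :
    ∃ ψ, IrrOn (hat t W) ψ ∧ Cor t W χ ψ ∧ ip (zq t).range ψ (lamQ t) ≠ 0 := by
  have hZ : (zq t).range ≤ hat t W := by rw [zq_range_eq]; exact hat_mono t hNW
  have hJX : t.j.range ≤ W.comap t.π := by
    rintro _ ⟨n, rfl⟩
    show t.π (t.j n) ∈ W
    rw [t.π_j]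
    exact hNW n.2
  have hn' : (t.j.range.subgroupOf (W.comap t.π)).Normal := inferInstance
  have hϑ : IsIrrCharacter (t.j.range.subgroupOf (W.comap t.π)) (fun n => t.ρ ((n : W.comap t.π) : t.Y)) :=
    (irrOn_sub hJX).mpr (rho_irrOn t hθ)
  have hρ : IsIrrCharacter (W.comap t.π) (fun x => t.ρ x) := irrOn_of_res hJX (rho_ch t _) (rho_irrOn t hθ)
  let f : W.comap t.π →* W :=
    { toFun := fun x => ⟨t.π (x : t.Y), x.2⟩
      map_one' := Subtype.ext (map_one t.π)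
      map_mul' := fun a b => Subtype.ext (map_mul t.π (a : t.Y) (b : t.Y)) }
  have hf : Function.Surjective f := by
    rintro ⟨g, hg⟩
    obtain ⟨y, hy⟩ := t.π_surj g
    exact ⟨⟨y, by rw [Subgroup.mem_comap, hy]; exact hg⟩, Subtype.ext hy⟩
  have hχf : IsIrrCharacter (W.comap t.π) (fun x => χ (t.π (x : t.Y))) :=
    IsIrrCharacter.comp_surjective (show IsIrrCharacter W (fun x => χ x) from hχ) f hf
  have hsc := res_scal_amb hNW hχ hθ hinv ho
  have hover : classInner (fun n : t.j.range.subgroupOf (W.comap t.π) => χ (t.π ((n : W.comap t.π) : t.Y)))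
      (fun n => t.ρ ((n : W.comap t.π) : t.Y)) ≠ 0 := by
    have h1 : ∀ ξ : t.j.range.subgroupOf (W.comap t.π) → ℂ, (fun n : t.j.range.subgroupOf (W.comap t.π) => t.ρ ((n : W.comap t.π) : t.Y)) = ξ →
        (fun n : t.j.range.subgroupOf (W.comap t.π) => χ (t.π ((n : W.comap t.π) : t.Y))) = ip N χ θ • ξ := by
      rintro _ rfl
      funext n
      obtain ⟨m, hm⟩ : ((n : W.comap t.π) : t.Y) ∈ t.j.range := n.2
      show χ (t.π ((n : W.comap t.π) : t.Y)) = ip N χ θ * t.ρ ((n : W.comap t.π) : t.Y)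
      rw [← hm, t.π_j, t.ρ_j]
      exact hsc m m.2
    rw [h1 _ rfl, classInner_smul_left, hϑ.classInner_self, mul_one]
    exact ho
  obtain ⟨β, hβ, hβc, hβe⟩ := exists_gallagher hϑ hρ (fun n => rfl) hχf hover
  let g : W.comap t.π →* hat t W :=
    { toFun := fun x => ⟨((x : t.Y) : t.Y ⧸ t.j.range), (mem_hat hNW).mpr x.2⟩
      map_one' := rfl
      map_mul' := fun a b => rfl }
  have hg : Function.Surjective g := by
    rintro ⟨x, hx⟩
    obtain ⟨y, rfl⟩ := QuotientGroup.mk_surjective x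
    exact ⟨⟨y, (mem_hat hNW).mp hx⟩, rfl⟩
  obtain ⟨ψ, hψ, hψβ⟩ := irr_deflate hg hβ (by
    intro x hx
    have h1 : ((x : t.Y) : t.Y ⧸ t.j.range) = 1 := congrArg Subtype.val hx
    exact hβc ⟨x, Subgroup.mem_subgroupOf.mpr ((QuotientGroup.eq_one_iff (x : t.Y)).mp h1)⟩)
  have hcor : Cor t W χ (lf (hat t W) ψ) := by
    intro y hy
    have h1 := congrFun hβe ⟨y, hy⟩
    have h2 : χ (t.π y) = β ⟨y, hy⟩ * t.ρ y := h1
    rw [h2, ← hψβ, lf_mem (hat t W) ψ ((mem_hat hNW).mpr hy)]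
    rfl
  refine ⟨lf (hat t W) ψ, irrOn_lf.mpr hψ, hcor, ?_⟩
  rw [over_central hZ (zq_central t) (irrOn_lf.mpr hψ) (lamQ_irr t)]
  rintro _ ⟨z, rfl⟩
  have h1 := hcor (z : t.Y) (by rw [show t.π (z : t.Y) = 1 from z.2]; exact W.one_mem)
  have h2 := hcor 1 (by rw [map_one]; exact W.one_mem)
  rw [show t.π (z : t.Y) = 1 from z.2] at h1
  rw [map_one, h1] at h2
  have h3 : t.ρ (z : t.Y) = ((t.lam z : ℂˣ) : ℂ) * t.ρ 1 := by
    have := t.ρ_mul z 1
    rwa [mul_one] at this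
  have hρ1 : t.ρ 1 ≠ 0 := by rw [rho_one]; exact hθ.one_ne
  rw [h3, ← mul_assoc] at h2
  have h4 := mul_right_cancel₀ hρ1 h2
  have h5 : lamQ t (zq t z) = ((t.lam z : ℂˣ) : ℂ)⁻¹ := lamQ_zq t z
  rw [h5]
  have h6 : ((t.lam z : ℂˣ) : ℂ) ≠ 0 := Units.ne_zero _
  rw [eq_mul_inv_iff_mul_eq₀ h6]
  exact h4

theorem cor_unique_chi {t : Triple N (fun n : N => θ n)} {W : Subgroup A} {χ₁ χ₂ : A → ℂ}
    {ψ : t.Y ⧸ t.j.range → ℂ} (h1 : Cor t W χ₁ ψ) (h2 : Cor t W χ₂ ψ) : ∀ x ∈ W, χ₁ x = χ₂ x := by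
  intro x hx
  obtain ⟨y, rfl⟩ := t.π_surj x
  rw [h1 y hx, h2 y hx]

theorem cor_unique_psi {t : Triple N (fun n : N => θ n)} (hθ : IrrOn N θ) {W : Subgroup A} (hNW : N ≤ W) {χ : A → ℂ}
    {ψ₁ ψ₂ : t.Y ⧸ t.j.range → ℂ} (h1 : Cor t W χ ψ₁) (h2 : Cor t W χ ψ₂) : ∀ x ∈ hat t W, ψ₁ x = ψ₂ x := by
  intro x hx
  obtain ⟨y, rfl⟩ := QuotientGroup.mk_surjective x
  rw [mem_hat hNW] at hx
  have hJX : t.j.range ≤ W.comap t.π := by
    rintro _ ⟨n, rfl⟩
    show t.π (t.j n) ∈ W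
    rw [t.π_j]
    exact hNW n.2
  obtain ⟨_, ⟨n, rfl⟩, hne⟩ := exists_ne_zero hJX le_norm_of_normal (rho_irrOn t hθ)
    (irrOn_of_res hJX (rho_ch t _) (rho_irrOn t hθ)) (show y ∈ W.comap t.π from hx)
  have h3 : t.π (t.j n * y) ∈ W := by
    rw [map_mul, t.π_j]
    exact W.mul_mem (hNW n.2) hx
  have h4 : ((t.j n * y : t.Y) : t.Y ⧸ t.j.range) = (y : t.Y ⧸ t.j.range) := by
    have h6 : ((t.j n : t.Y) : t.Y ⧸ t.j.range) = 1 := (QuotientGroup.eq_one_iff _).2 ⟨n, rfl⟩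
    rw [QuotientGroup.mk_mul, h6, one_mul]
  have h5 := h1 _ h3
  rw [h2 _ h3, h4] at h5
  exact (mul_right_cancel₀ hne h5).symm

theorem triple_card {p : ℕ} [hp : Fact p.Prime] (t : Triple N (fun n : N => θ n)) (hθ : IrrOn N θ) {W : Subgroup A}
    (hNW : N ≤ W) (hinv : W ≤ stab N θ) (hpθ : ¬ p ∣ dg θ) :
    Nat.card {χ : IrrCharacter W // ¬ p ∣ dg (lf W χ) ∧ ip N (lf W χ) θ ≠ 0} =
      Nat.card {ψ : IrrCharacter (hat t W) // ¬ p ∣ dg (lf (hat t W) ψ) ∧ ip (zq t).range (lf (hat t W) ψ) (lamQ t) ≠ 0} := by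
  have hdg : ∀ (χ : A → ℂ) (ψ : t.Y ⧸ t.j.range → ℂ), IrrOn W χ → IrrOn (hat t W) ψ → Cor t W χ ψ →
      (p ∣ dg χ ↔ p ∣ dg ψ) := by
    intro χ ψ hχ hψ hc
    have h1 := hc.one
    rw [dg_spec hχ.ch, dg_spec hψ.ch, dg_spec hθ.ch] at h1
    have h2 : dg χ = dg ψ * dg θ := by exact_mod_cast h1
    rw [h2, hp.out.dvd_mul]
    exact ⟨fun h => h.resolve_right hpθ, Or.inl⟩
  have hZ : (zq t).range ≤ hat t W := by rw [zq_range_eq]; exact hat_mono t hNW
  have key1 : ∀ χ : {χ : IrrCharacter W // ¬ p ∣ dg (lf W χ) ∧ ip N (lf W χ) θ ≠ 0},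
      ∃ ψ : {ψ : IrrCharacter (hat t W) // ¬ p ∣ dg (lf (hat t W) ψ) ∧ ip (zq t).range (lf (hat t W) ψ) (lamQ t) ≠ 0},
        Cor t W (lf W χ.1) (lf (hat t W) ψ.1) := by
    intro χ
    obtain ⟨ψ, hψ, hc, ho⟩ := cor_exists_psi t hθ hNW hinv (chOn_lf χ.1) χ.2.2
    have hlf : ∀ x ∈ hat t W, lf (hat t W) (fun x : hat t W => ψ x) x = ψ x := fun x hx => lf_mem _ _ hx
    have hc' : Cor t W (lf W χ.1) (lf (hat t W) (fun x : hat t W => ψ x)) := by
      intro y hy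
      rw [hlf _ ((mem_hat hNW).mpr hy)]
      exact hc y hy
    refine ⟨⟨⟨_, hψ⟩, ?_, ?_⟩, hc'⟩
    · have h1 : IrrOn (hat t W) (lf (hat t W) (fun x : hat t W => ψ x)) := irrOn_lf.mpr hψ
      show ¬ p ∣ dg (lf (hat t W) (fun x : hat t W => ψ x))
      rw [← hdg _ _ (chOn_lf χ.1) h1 hc']
      exact χ.2.1
    · show ip (zq t).range (lf (hat t W) (fun x : hat t W => ψ x)) (lamQ t) ≠ 0
      rw [ip_congr (fun x hx => hlf x (hZ hx)) (fun _ _ => rfl)]
      exact ho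
  have key2 : ∀ ψ : {ψ : IrrCharacter (hat t W) // ¬ p ∣ dg (lf (hat t W) ψ) ∧ ip (zq t).range (lf (hat t W) ψ) (lamQ t) ≠ 0},
      ∃ χ : {χ : IrrCharacter W // ¬ p ∣ dg (lf W χ) ∧ ip N (lf W χ) θ ≠ 0},
        Cor t W (lf W χ.1) (lf (hat t W) ψ.1) := by
    intro ψ
    obtain ⟨χ, hχ, hc, ho⟩ := cor_exists_chi t hθ hNW (chOn_lf ψ.1) ψ.2.2
    have hlf : ∀ x ∈ W, lf W (fun x : W => χ x) x = χ x := fun x hx => lf_mem _ _ hx
    have hc' : Cor t W (lf W (fun x : W => χ x)) (lf (hat t W) ψ.1) := by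
      intro y hy
      rw [hlf _ hy]
      exact hc y hy
    refine ⟨⟨⟨_, hχ⟩, ?_, ?_⟩, hc'⟩
    · have h1 : IrrOn W (lf W (fun x : W => χ x)) := irrOn_lf.mpr hχ
      show ¬ p ∣ dg (lf W (fun x : W => χ x))
      rw [hdg _ _ h1 (chOn_lf ψ.1) hc']
      exact ψ.2.1
    · show ip N (lf W (fun x : W => χ x)) θ ≠ 0
      rw [ip_congr (fun x hx => hlf x (hNW hx)) (fun _ _ => rfl)]
      exact ho
  choose F hF using key1
  choose F' hF' using key2
  apply le_antisymm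
  · apply Nat.card_le_card_of_injective F
    intro a b hab
    apply Subtype.ext
    apply lf_inj
    exact cor_unique_chi (hF a) (hab ▸ hF b)
  · apply Nat.card_le_card_of_injective F'
    intro a b hab
    apply Subtype.ext
    apply lf_inj
    exact cor_unique_psi hθ hNW (hF' a) (hab ▸ hF' b)

end triple

end Cfsg.Agent.Lib.RMck
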