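import Cfsg.Agent.Lib.RMck8

/-!
# The relative McKay count: the invariant case (helper74)
-/

set_option autoImplicit false
set_option linter.all false

namespace Cfsg.Agent.Lib.RMck

open scoped ComplexConjugate
open Cfsg Cfsg.Agent.Lib.CharBasic Cfsg.Agent.Lib.Clifford Cfsg.Agent.Lib.CliffordCorr
open Cfsg.Agent.Lib.CanonExt Cfsg.Agent.Lib.CharTriple Cfsg.Agent.Lib.FongSwan

universe u

attribute [local instance 5000] Fintype.ofFinite
attribute [local instance] Triple.j_norm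

section grp

variable {G : Type u} [Group G] [Finite G] {p : ℕ} [hp : Fact p.Prime]

theorem le_of_pgroup {S R : Subgroup G} (hSR : S ≤ R) (hR : IsPGroup p R) (hidx : ¬ p ∣ S.index) : R ≤ S := by
  obtain ⟨n, hn⟩ := IsPGroup.iff_card.mp hR
  have h1 : S.relIndex R ∣ p ^ n := by
    rw [← hn]
    exact Dvd.intro_left _ (SubgroupTools.card_mul_relIndex_of_le hSR)
  have h2 : S.relIndex R ∣ S.index := Dvd.intro _ (Subgroup.relIndex_mul_index hSR)
  obtain ⟨k, hk, hk'⟩ := (Nat.dvd_prime_pow hp.out).mp h1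
  have hk0 : k = 0 := by
    by_contra hk0
    apply hidx
    rw [hk'] at h2
    exact (dvd_pow_self p hk0).trans h2
  rw [hk0, pow_zero] at hk'
  exact Subgroup.relIndex_eq_one.mp hk'

theorem le_of_central_pgroup {S Z : Subgroup G} (hS : IsPGroup p S) (hidx : ¬ p ∣ S.index) (hZ : IsPGroup p Z)
    (hZc : ∀ z ∈ Z, ∀ x : G, z * x = x * z) : Z ≤ S := by
  have hZn : Z.Normal := ⟨fun z hz g => by rw [← hZc z hz g, mul_inv_cancel_right]; exact hz⟩
  have h1 : IsPGroup p (S ⊔ Z : Subgroup G) := hS.to_sup_of_normal_right hZ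
  exact le_sup_right.trans (le_of_pgroup le_sup_left h1 hidx)

theorem relIndex_sup_pow {L S : Subgroup G} (hS : IsPGroup p S) (hn : S ≤ Subgroup.normalizer (L : Set G)) :
    ∃ n, L.relIndex (L ⊔ S) = p ^ n := by
  have h1 := SubgroupTools.card_mul_relIndex_of_le (le_sup_left : L ≤ L ⊔ S)
  have h2 := SubgroupTools.card_sup_mul_card_inf (N := L) (H := S) hn
  rw [← h1] at h2
  have h3 : Nat.card L * (Nat.card (L ⊓ S : Subgroup G) * L.relIndex (L ⊔ S)) = Nat.card L * Nat.card S := by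
    rw [← h2]; ring
  have h4 := Nat.eq_of_mul_eq_mul_left Nat.card_pos h3
  obtain ⟨n, hn'⟩ := IsPGroup.iff_card.mp hS
  rw [hn'] at h4
  obtain ⟨k, -, hk⟩ := (Nat.dvd_prime_pow hp.out).mp (Dvd.intro_left _ h4)
  exact ⟨k, hk⟩

/-- the number of characters of `p'`-degree over `ν` -/
noncomputable def cnt (p : ℕ) (H L : Subgroup G) (ν : G → ℂ) : ℕ :=
  Nat.card {χ : IrrCharacter H // ¬ p ∣ dg (lf H χ) ∧ ip L (lf H χ) ν ≠ 0}

theorem lf_top (χ : G → ℂ) : lf ⊤ (fun x : (⊤ : Subgroup G) => χ x) = χ := by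
  funext x
  exact lf_mem _ _ (Subgroup.mem_top x)

theorem card_top (P : (G → ℂ) → Prop) :
    Nat.card {χ : IrrCharacter (⊤ : Subgroup G) // P (lf ⊤ χ)} = Nat.card {χ : IrrCharacter G // P (χ : G → ℂ)} := by
  refine Nat.card_congr
    { toFun := fun χ => ⟨⟨lf ⊤ χ.1, irrOn_top.mp (chOn_lf χ.1)⟩, χ.2⟩
      invFun := fun χ => ⟨⟨fun x : (⊤ : Subgroup G) => (χ.1 : G → ℂ) x, irrOn_top.mpr χ.1.2⟩, by
        show P (lf ⊤ (fun x : (⊤ : Subgroup G) => (χ.1 : G → ℂ) x))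
        rw [lf_top]
        exact χ.2⟩
      left_inv := fun χ => by
        apply Subtype.ext
        apply Subtype.ext
        funext x
        exact lf_coe _ _ x
      right_inv := fun χ => by
        apply Subtype.ext
        apply Subtype.ext
        exact lf_top _ }

theorem cnt_top (L : Subgroup G) (ν : G → ℂ) :
    cnt p ⊤ L ν = Nat.card {χ : IrrCharacter G // ¬ p ∣ dg (χ : G → ℂ) ∧ ip L (χ : G → ℂ) ν ≠ 0} :=
  card_top (fun f => ¬ p ∣ dg f ∧ ip L f ν ≠ 0)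

theorem cnt_zero {H L : Subgroup G} (hLH : L ≤ H) (hn : H ≤ Subgroup.normalizer (L : Set G)) {ν : G → ℂ}
    (hν : IrrOn L ν) (hp' : p ∣ dg ν) : cnt p H L ν = 0 := by
  unfold cnt
  rw [Nat.card_eq_zero]
  left
  refine ⟨fun χ => χ.2.1 ?_⟩
  obtain ⟨f, h1, -⟩ := dg_over hLH hn (chOn_lf χ.1) hν χ.2.2
  rw [h1]
  exact hp'.mul_left _

end grp

section inv

variable {A : Type u} [Group A] [Finite A] {p : ℕ} [hp : Fact p.Prime]

theorem invariant_case {L K S : Subgroup A} [hL : L.Normal] [hK : K.Normal] (hLK : L ≤ K) (hKp : ¬ p ∣ L.relIndex K)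
    (hS : IsPGroup p S) (hidx : ¬ p ∣ (L ⊔ S).index) (hKS : (K ⊔ S).Normal) {ν : A → ℂ} (hν : IrrOn L ν)
    (hinv : ∀ H : Subgroup A, H ≤ stab L ν) :
    cnt p ⊤ L ν = cnt p (Subgroup.normalizer ((L ⊔ S : Subgroup A) : Set A)) L ν := by
  by_cases hpν : p ∣ dg ν
  · rw [cnt_zero le_top le_norm_of_normal hν hpν, cnt_zero (le_sup_left.trans Subgroup.le_normalizer) le_norm_of_normal hν hpν]
  obtain ⟨t⟩ := exists_triple (N := L) (θ := fun n : L => ν n) hν (by
    intro g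
    funext n
    exact (hinv ⊤ (Subgroup.mem_top g)).2 _ n.2)
  have hLP : L ≤ L ⊔ S := le_sup_left
  have hZc := zq_central t
  have hZP : (zq t).range ≤ hat t (L ⊔ S) := by rw [zq_range_eq]; exact hat_mono t hLP
  -- the Sylow subgroup
  obtain ⟨S₀, hS₀, hS₀P, hS₀i⟩ : ∃ S₀ : Subgroup (t.Y ⧸ t.j.range), IsPGroup p S₀ ∧ S₀ ≤ hat t (L ⊔ S) ∧
      ¬ p ∣ S₀.relIndex (hat t (L ⊔ S)) := by
    let R : Sylow p (hat t (L ⊔ S)) := default
    refine ⟨(R : Subgroup (hat t (L ⊔ S))).map (hat t (L ⊔ S)).subtype, R.2.map _, Subgroup.map_subtype_le _, ?_⟩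
    rw [Subgroup.relIndex, Subgroup.subgroupOf, Subgroup.comap_map_eq_self_of_injective (Subgroup.subtype_injective _)]
    exact R.not_dvd_index
  have hPi : (hat t (L ⊔ S)).index = (L ⊔ S).index := by
    have h1 := hat_relIndex t hLP (le_top : L ≤ ⊤)
    rwa [hat_top, Subgroup.relIndex_top_right, Subgroup.relIndex_top_right] at h1
  have hS₀idx : ¬ p ∣ S₀.index := by
    rw [← Subgroup.relIndex_mul_index hS₀P, hPi]
    intro h
    rcases hp.out.dvd_mul.mp h with h1 | h1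
    · exact hS₀i h1
    · exact hidx h1
  -- `P̂ = Z S₀`
  have hPeq : hat t (L ⊔ S) = (zq t).range ⊔ S₀ := by
    apply le_antisymm _ (sup_le hZP hS₀P)
    obtain ⟨n, hn⟩ := relIndex_sup_pow (L := L) hS le_norm_of_normal
    have h1 : (zq t).range.relIndex (hat t (L ⊔ S)) = p ^ n := by
      rw [zq_range_eq, hat_relIndex t le_rfl hLP, hn]
    have h2 : ((zq t).range ⊔ S₀).relIndex (hat t (L ⊔ S)) ∣ p ^ n := by
      rw [← h1]
      exact Subgroup.relIndex_dvd_of_le_left _ le_sup_left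
    have h3 : ((zq t).range ⊔ S₀).relIndex (hat t (L ⊔ S)) ∣ S₀.relIndex (hat t (L ⊔ S)) :=
      Subgroup.relIndex_dvd_of_le_left _ le_sup_right
    obtain ⟨k, hk, hk'⟩ := (Nat.dvd_prime_pow hp.out).mp h2
    have hk0 : k = 0 := by
      by_contra hk0
      apply hS₀i
      rw [hk'] at h3
      exact (dvd_pow_self p hk0).trans h3
    rw [hk0, pow_zero] at hk'
    exact Subgroup.relIndex_eq_one.mp hk'
  -- the normalizers
  have hnorm : Subgroup.normalizer ((hat t (L ⊔ S) : Subgroup _) : Set (t.Y ⧸ t.j.range)) =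
      Subgroup.normalizer (S₀ : Set (t.Y ⧸ t.j.range)) := by
    apply le_antisymm
    · intro y hy
      apply mem_normalizer_of
      intro s hs
      have h1 : y * s * y⁻¹ ∈ (zq t).range ⊔ S₀ := by
        rw [← hPeq]
        exact ((Subgroup.mem_normalizer_iff.mp hy) s).mp (hS₀P hs)
      rw [SubgroupTools.mem_sup_of_le_normalizer le_norm_of_normal] at h1
      obtain ⟨z, hz, s', hs', h2⟩ := h1
      obtain ⟨n, hn⟩ := hS₀ ⟨s, hs⟩
      obtain ⟨m, hm⟩ := hS₀ ⟨s', hs'⟩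
      have hn' : s ^ p ^ n = 1 := congrArg Subtype.val hn
      have hm' : s' ^ p ^ m = 1 := congrArg Subtype.val hm
      have h3 : z ^ p ^ (n + m) = 1 := by
        have h4 : (z * s') ^ p ^ (n + m) = 1 := by
          rw [h2, conj_pow, pow_add, pow_mul, hn', one_pow, mul_one, mul_inv_cancel]
        rw [(show Commute z s' from hZc z hz s').mul_pow] at h4
        have h5 : s' ^ p ^ (n + m) = 1 := by
          rw [pow_add, mul_comm (p ^ n), pow_mul, hm', one_pow]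
        rwa [h5, mul_one] at h4
      have h4 : Subgroup.zpowers z ≤ S₀ := by
        apply le_of_central_pgroup hS₀ hS₀idx
        · rintro ⟨_, k, rfl⟩
          refine ⟨n + m, Subtype.ext ?_⟩
          show (z ^ k) ^ p ^ (n + m) = 1
          rw [← zpow_natCast, ← zpow_mul, mul_comm, zpow_mul, zpow_natCast, h3, one_zpow]
        · rintro _ ⟨k, rfl⟩ x
          exact ((show Commute z x from hZc z hz x).zpow_left k)
      rw [← h2]
      exact S₀.mul_mem (h4 (Subgroup.mem_zpowers z)) hs'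
    · intro y hy
      rw [hPeq]
      exact mem_norm_sup (mem_norm_of_normal y) hy
  -- the Hall subgroup
  have hZK : (zq t).range ≤ hat t K := by rw [zq_range_eq]; exact hat_mono t hLK
  have hKn : (hat t K).Normal := hat_normal t hK
  obtain ⟨K₀, Zp, hK₀n, hK₀K, hZpZ, -, hK₀Zp, hK₀c, hZp⟩ := exists_hall (zq t).range (hat t K) hZK hZc p (by
    rw [zq_range_eq, hat_relIndex t le_rfl hLK]
    exact ((Nat.Prime.coprime_iff_not_dvd hp.out).mpr hKp).symm)
  have hZpp : IsPGroup p Zp := by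
    have h1 := Nat.eq_prime_pow_of_unique_prime_dvd (n := Nat.card Zp) (p := p) Nat.card_pos.ne' (fun {d} hd hd' =>
      (Nat.prime_dvd_prime_iff_eq hd hp.out).mp (hZp d hd hd'))
    exact IsPGroup.of_card h1
  have hZpS : Zp ≤ S₀ := le_of_central_pgroup hS₀ hS₀idx hZpp (fun z hz => hZc z (hZpZ hz))
  have hs : Sys p K₀ S₀ := ⟨fun h => hp.out.one_lt.ne' (Nat.eq_one_of_dvd_coprimes hK₀c h dvd_rfl), hS₀, le_norm_of_normal⟩
  have hMeq : hat t (K ⊔ S) = K₀ ⊔ S₀ := by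
    have h1 : K ⊔ S = K ⊔ (L ⊔ S) := by rw [← sup_assoc, sup_eq_left.mpr hLK]
    rw [h1, hat_sup, hPeq, ← sup_assoc, sup_eq_left.mpr hZK, ← hK₀Zp, sup_assoc, sup_eq_right.mpr hZpS]
  have hMn : (K₀ ⊔ S₀).Normal := by
    rw [← hMeq]
    exact hat_normal t hKS
  have hZM : (zq t).range ≤ K₀ ⊔ S₀ := by
    rw [← hMeq]
    exact hZK.trans (hat_mono t le_sup_left)
  have hfin := final_case hZc hs hS₀idx hZM (lamQ_irr t)
  have e1 := triple_card (p := p) t hν (W := ⊤) le_top (hinv _) hpν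
  have e2 := triple_card (p := p) t hν (W := Subgroup.normalizer ((L ⊔ S : Subgroup A) : Set A))
    (hLP.trans Subgroup.le_normalizer) (hinv _) hpν
  have e3 : ∀ W : Subgroup (t.Y ⧸ t.j.range), W = ⊤ →
      Nat.card {ψ : IrrCharacter W // ¬ p ∣ dg (lf W ψ) ∧ ip (zq t).range (lf W ψ) (lamQ t) ≠ 0} =
      Nat.card {χ : IrrCharacter (t.Y ⧸ t.j.range) // ¬ p ∣ dg (χ : t.Y ⧸ t.j.range → ℂ) ∧ ip (zq t).range (χ : t.Y ⧸ t.j.range → ℂ) (lamQ t) ≠ 0} := by
    rintro W rfl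
    exact card_top (fun f => ¬ p ∣ dg f ∧ ip (zq t).range f (lamQ t) ≠ 0)
  have e4 : ∀ W W' : Subgroup (t.Y ⧸ t.j.range), W = W' →
      Nat.card {ψ : IrrCharacter W // ¬ p ∣ dg (lf W ψ) ∧ ip (zq t).range (lf W ψ) (lamQ t) ≠ 0} =
      Nat.card {ψ : IrrCharacter W' // ¬ p ∣ dg (lf W' ψ) ∧ ip (zq t).range (lf W' ψ) (lamQ t) ≠ 0} := by
    rintro W _ rfl
    rfl
  unfold cnt
  rw [e1, e3 _ (hat_top t), hfin, e2]
  exact e4 _ _ (by rw [hat_normalizer t hLP, hnorm])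

end inv

end Cfsg.Agent.Lib.RMck
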