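import Cfsg.Agent.Lib.OddTranspMain
import Cfsg.Agent.Lib.BaerSuzuki
import Cfsg.Agent.Lib.FTHall
import Cfsg.Agent.Lib.ZStarIso

/-!
# Rank three classes of involutions are 3-transpositions (helper69)
-/

set_option autoImplicit false

namespace Cfsg.Agent.Lib.RankThreeInvol

open Subgroup Pointwise Cfsg.Agent.Lib.OddTransp

universe u

variable {G : Type u} [Group G] {D : Set G}

structure R3 (D : Set G) : Prop where
  sq : ∀ d ∈ D, d * d = 1
  ne : ∀ d ∈ D, d ≠ 1
  cj : ∀ g : G, ∀ d ∈ D, g * d * g⁻¹ ∈ D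
  cls : ∀ d ∈ D, ∀ e ∈ D, ∃ g, g * d * g⁻¹ = e
  gen : closure D = ⊤
  t1 : ∀ x ∈ D, ∀ w ∈ D, ∀ w' ∈ D, w ≠ x → w' ≠ x → Commute x w → Commute x w' → ∃ g, Commute g x ∧ g * w * g⁻¹ = w'
  t2 : ∀ x ∈ D, ∀ w ∈ D, ∀ w' ∈ D, ¬ Commute x w → ¬ Commute x w' → ∃ g, Commute g x ∧ g * w * g⁻¹ = w'
  sol : ∀ N : Subgroup G, N.Normal → Group.IsSolvable N → N = ⊥
  e1 : ∃ x ∈ D, ∃ w ∈ D, w ≠ x ∧ Commute x w
  e2 : ∃ x ∈ D, ∃ w ∈ D, ¬ Commute x w

theorem conj_comm {g a b : G} (h : Commute a b) : Commute (g * a * g⁻¹) (g * b * g⁻¹) := h.map (MulAut.conj g)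

theorem conj_comm_iff {g a b : G} : Commute (g * a * g⁻¹) (g * b * g⁻¹) ↔ Commute a b := by
  refine ⟨fun h => ?_, conj_comm⟩
  have h1 := conj_comm (g := g⁻¹) h
  have e1 : g⁻¹ * (g * a * g⁻¹) * g⁻¹⁻¹ = a := by group
  have e2 : g⁻¹ * (g * b * g⁻¹) * g⁻¹⁻¹ = b := by group
  rwa [e1, e2] at h1

theorem conj_of_comm {g x : G} (h : Commute g x) : g * x * g⁻¹ = x := by rw [h.eq, mul_inv_cancel_right]

namespace R3

variable (R : R3 D)

include R

/-- all noncommuting pairs are conjugate -/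
theorem pair2 {x w x' w' : G} (hx : x ∈ D) (hw : w ∈ D) (hx' : x' ∈ D) (hw' : w' ∈ D) (h : ¬ Commute x w)
    (h' : ¬ Commute x' w') : ∃ g, g * x * g⁻¹ = x' ∧ g * w * g⁻¹ = w' := by
  obtain ⟨g, hg⟩ := R.cls x hx x' hx'
  have h1 : ¬ Commute x' (g * w * g⁻¹) := by
    rw [← hg, conj_comm_iff]; exact h
  obtain ⟨k, hk, hk'⟩ := R.t2 x' hx' _ (R.cj g w hw) w' hw' h1 h'
  refine ⟨k * g, ?_, ?_⟩
  · rw [← conj_of_comm hk, ← hg]; group
  · rw [← hk']; group

theorem pair1 {x w x' w' : G} (hx : x ∈ D) (hw : w ∈ D) (hx' : x' ∈ D) (hw' : w' ∈ D) (hne : w ≠ x) (hne' : w' ≠ x')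
    (h : Commute x w) (h' : Commute x' w') : ∃ g, g * x * g⁻¹ = x' ∧ g * w * g⁻¹ = w' := by
  obtain ⟨g, hg⟩ := R.cls x hx x' hx'
  have h1 : Commute x' (g * w * g⁻¹) := by
    rw [← hg, conj_comm_iff]; exact h
  have h2 : g * w * g⁻¹ ≠ x' := by
    rw [← hg]; intro hh; apply hne; simpa using hh
  obtain ⟨k, hk, hk'⟩ := R.t1 x' hx' _ (R.cj g w hw) w' hw' h2 hne' h1 h'
  refine ⟨k * g, ?_, ?_⟩
  · rw [← conj_of_comm hk, ← hg]; group
  · rw [← hk']; group

theorem order_eq {x w x' w' : G} (hx : x ∈ D) (hw : w ∈ D) (hx' : x' ∈ D) (hw' : w' ∈ D) (h : ¬ Commute x w)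
    (h' : ¬ Commute x' w') : orderOf (x * w) = orderOf (x' * w') := by
  obtain ⟨g, h1, h2⟩ := R.pair2 hx hw hx' hw' h h'
  rw [← h1, ← h2]
  have : g * x * g⁻¹ * (g * w * g⁻¹) = g * (x * w) * g⁻¹ := by group
  rw [this]
  exact (MulEquiv.orderOf_eq (MulAut.conj g) (x * w)).symm

theorem cj' {d e : G} (hd : d ∈ D) (he : e ∈ D) : d * e * d ∈ D := by
  have := R.cj d e he
  rwa [inv_of_sq (R.sq d hd)] at this

variable [Finite G]

/-- the common order of the product of two noncommuting members is an odd prime -/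
theorem exists_prime : ∃ p : ℕ, p.Prime ∧ Odd p ∧ OT p D := by
  obtain ⟨x, hx, w, hw, hxw⟩ := R.e2
  set n := orderOf (x * w) with hn
  have hn0 : 0 < n := orderOf_pos _
  have hall : ∀ {d e : G}, d ∈ D → e ∈ D → ¬ Commute d e → orderOf (d * e) = n :=
    fun hd he hde => R.order_eq hd he hx hw hde hxw
  have hodd : Odd n := by
    by_contra hne
    rw [Nat.not_odd_iff_even] at hne
    -- `n = 4`
    have hn4 : n = 4 := by
      have h1 : x * (w * x * w) = (x * w) ^ 2 := by rw [pow_two]; group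
      have h2 : orderOf (x * (w * x * w)) = n / 2 := by
        rw [h1, orderOf_pow_of_dvd (by norm_num) hne.two_dvd]
      obtain ⟨k, hk⟩ := hne.two_dvd
      have h3 : n / 2 = k := by omega
      rw [h3] at h2
      by_cases hc : Commute x (w * x * w)
      · have h4 := mul_comm_of_comm_sq (R.sq x hx) (R.sq _ (R.cj' hw hx)) hc
        have h5 : orderOf (x * (w * x * w)) ∣ 2 := orderOf_dvd_of_pow_eq_one (by rw [pow_two]; exact h4)
        rw [h2] at h5
        rcases (Nat.dvd_prime Nat.prime_two).1 h5 with h6 | h6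
        · exfalso
          -- `n = 2`
          have h7 : (x * w) ^ 2 = 1 := by
            have : n = 2 := by omega
            rw [← this, hn]; exact pow_orderOf_eq_one _
          rw [pow_two] at h7
          apply hxw
          have h8 := eq_inv_of_mul_eq_one_left h7
          rw [mul_inv_rev, inv_of_sq (R.sq x hx), inv_of_sq (R.sq w hw)] at h8
          exact h8
        · omega
      · have := hall hx (R.cj' hw hx) hc
        rw [h2] at this
        omega
    -- Baer-Suzuki
    have hx2 : orderOf x = 2 := by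
      rw [orderOf_eq_prime_iff]
      exact ⟨by rw [pow_two, R.sq x hx], R.ne x hx⟩
    obtain ⟨h, hh1, hho, hinv⟩ := BaerSuzuki.exists_inverted_odd x hx2 (by
      intro N hN hNp hxN
      have h1 := R.sol N hN (by
        haveI : Fact (Nat.Prime 2) := ⟨Nat.prime_two⟩
        haveI := hNp.isNilpotent
        infer_instance)
      rw [h1] at hxN
      exact R.ne x hx (mem_bot.1 hxN))
    obtain ⟨k, hk⟩ := hho
    have hxi := inv_of_sq (R.sq x hx)
    have hxh : x * h * x = h⁻¹ := by rw [← hinv, hxi]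
    have hpow : ∀ m : ℕ, x * h ^ m = (h ^ m)⁻¹ * x := by
      intro m
      induction m with
      | zero => simp
      | succ m ih =>
        have e1 : x * h = h⁻¹ * x := by
          rw [← hxh, mul_assoc _ x x, R.sq x hx, mul_one]
        rw [pow_succ, ← mul_assoc, ih, mul_assoc, e1, ← mul_assoc, mul_inv_rev]
        congr 1
        rw [← mul_inv_rev, ← mul_inv_rev, ← pow_succ', ← pow_succ]
    have h1 : x * h ∈ D := by
      have h2 : x * h = (h ^ (k + 1))⁻¹ * x * ((h ^ (k + 1))⁻¹)⁻¹ := by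
        rw [← hpow, inv_inv, mul_assoc, ← pow_add]
        congr 1
        have : k + 1 + (k + 1) = orderOf h + 1 := by omega
        rw [this, pow_succ, pow_orderOf_eq_one, one_mul]
      rw [h2]; exact R.cj _ x hx
    have h2 : x * (x * h) = h := by rw [← mul_assoc, R.sq x hx, one_mul]
    have h3 : ¬ Commute x (x * h) := by
      intro hc
      have h4 := mul_comm_of_comm_sq (R.sq x hx) (R.sq _ h1) hc
      rw [h2, ← pow_two] at h4
      have h5 := orderOf_dvd_of_pow_eq_one h4
      rcases (Nat.dvd_prime Nat.prime_two).1 h5 with h6 | h6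
      · exact hh1 (orderOf_eq_one_iff.1 h6)
      · omega
    have h4 := hall hx h1 h3
    rw [h2, hn4] at h4
    omega
  -- prime
  have hn1 : n ≠ 1 := by
    intro h1
    rw [hn, orderOf_eq_one_iff] at h1
    apply hxw
    have := eq_inv_of_mul_eq_one_left h1
    rw [inv_of_sq (R.sq w hw)] at this
    rw [this]
  obtain ⟨q, hq, k, hk⟩ := Nat.exists_prime_and_dvd hn1
  have hnq : n = q := by
    -- `x (x w)^k`
    have hqo : Odd q := hodd.of_dvd_nat ⟨k, hk⟩
    have hk0 : 0 < k := Nat.pos_of_ne_zero (by rintro rfl; omega)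
    have hy : orderOf ((x * w) ^ k) = q := by
      rw [orderOf_pow_of_dvd hk0.ne' (by rw [← hn, hk]; exact dvd_mul_left k q), ← hn, hk, Nat.mul_div_cancel _ hk0]
    have hcj := inv_pow_conj (R.sq x hx) (R.sq w hw)
    obtain ⟨j, hj⟩ := hodd
    have h1 : x * (x * w) ^ k ∈ D := by
      have h2 : x * (x * w) ^ k = ((x * w) ^ (k * (j + 1)))⁻¹ * x * (((x * w) ^ (k * (j + 1)))⁻¹)⁻¹ := by
        have h3 : ((x * w) ^ (k * (j + 1)))⁻¹ * x = x * (x * w) ^ (k * (j + 1)) := by
          rw [← hcj, mul_assoc, R.sq x hx, mul_one]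
        rw [h3, inv_inv, mul_assoc, ← pow_add]
        congr 1
        have h4 : k * (j + 1) + k * (j + 1) = n * k + k := by rw [hj]; ring
        rw [h4, pow_add, pow_mul, hn, pow_orderOf_eq_one, one_pow, one_mul]
      rw [h2]; exact R.cj _ x hx
    have h2 : x * (x * (x * w) ^ k) = (x * w) ^ k := by rw [← mul_assoc, R.sq x hx, one_mul]
    have h3 : ¬ Commute x (x * (x * w) ^ k) := by
      intro hc
      have h4 := mul_comm_of_comm_sq (R.sq x hx) (R.sq _ h1) hc
      rw [h2, ← pow_two] at h4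
      have h5 := orderOf_dvd_of_pow_eq_one h4
      rw [hy] at h5
      have h6 := (Nat.prime_dvd_prime_iff_eq hq Nat.prime_two).1 h5
      rw [h6] at hqo
      exact absurd hqo (by decide)
    have h4 := hall hx h1 h3
    rw [h2, hy] at h4
    exact h4.symm
  refine ⟨n, by rw [hnq]; exact hq, hodd, R.sq, R.ne, R.cj, ?_⟩
  intro d hd e he
  by_cases hde : Commute d e
  · left; exact hde
  · right
    rw [← hall hd he hde]; exact pow_orderOf_eq_one _


omit [Finite G] in
/-- two commuting members and a third commuting with none of them -/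
theorem exists_conf : ∃ a ∈ D, ∃ b ∈ D, ∃ g ∈ D, a ≠ b ∧ Commute a b ∧ ¬ Commute g a ∧ ¬ Commute g b := by
  by_contra hcon
  have key : ∀ a ∈ D, ∀ b ∈ D, a ≠ b → Commute a b → ∀ g ∈ D, ¬ Commute g a → Commute g b := by
    intro a ha b hb hne hab g hg hga
    by_contra hgb
    exact hcon ⟨a, ha, b, hb, g, hg, hne, hab, hga, hgb⟩
  obtain ⟨a, ha, b0, hb0, hne0, hab0⟩ := R.e1
  -- the set of members commuting with `a` and different from `a`
  set C : Set G := {b | b ∈ D ∧ b ≠ a ∧ Commute a b} with hC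
  have hb0C : b0 ∈ C := ⟨hb0, hne0, hab0⟩
  -- members of `C` commute with members outside of `C`
  have hcomm : ∀ b ∈ C, ∀ g ∈ D, g ∉ C → Commute g b := by
    intro b hb g hg hgC
    by_cases hga : Commute g a
    · have : g = a := by
        by_contra hne
        exact hgC ⟨hg, hne, hga.symm⟩
      rw [this]; exact hb.2.2
    · exact key a ha b hb.1 hb.2.1.symm hb.2.2 g hg hga
  -- `C` is invariant
  have hinv1 : ∀ g ∈ D, ∀ b ∈ C, g * b * g⁻¹ ∈ C := by
    intro g hg b hb
    by_cases hgC : g ∈ C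
    · by_contra hn
      have h1 := hcomm g hgC (g * b * g⁻¹) (R.cj g b hb.1) hn
      have h2 : g * b * g⁻¹ = b := by
        have h3 : (g * b * g⁻¹) * g = g * (g * b * g⁻¹) := h1.eq
        rw [inv_mul_cancel_right] at h3
        exact (mul_left_cancel h3).symm
      rw [h2] at hn
      exact hn hb
    · rw [(hcomm b hb g hg hgC).eq, mul_inv_cancel_right]
      exact hb
  have hinv : ∀ g : G, ∀ b, b ∈ C ↔ g * b * g⁻¹ ∈ C := by
    intro g
    have hg : g ∈ closure D := by rw [R.gen]; trivial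
    induction hg using closure_induction with
    | mem x hx =>
      intro b
      refine ⟨hinv1 x hx b, fun hb => ?_⟩
      have h1 := hinv1 x hx _ hb
      have e1 : x * (x * b * x⁻¹) * x⁻¹ = (x * x) * b * (x * x)⁻¹ := by group
      rwa [e1, R.sq x hx, one_mul, inv_one, mul_one] at h1
    | one => intro b; simp
    | mul x y _ _ h1 h2 =>
      intro b
      rw [h2, h1]
      have e1 : x * (y * b * y⁻¹) * x⁻¹ = x * y * b * (x * y)⁻¹ := by group
      rw [e1]
    | inv x hx h1 =>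
      intro b
      rw [h1 (x⁻¹ * b * x⁻¹⁻¹)]
      have e1 : x * (x⁻¹ * b * x⁻¹⁻¹) * x⁻¹ = b := by group
      rw [e1]
  obtain ⟨g, hg⟩ := R.cls b0 hb0 a ha
  have := (hinv g b0).1 hb0C
  rw [hg] at this
  exact this.2.1 rfl

omit [Finite G] R in
/-- the four-set argument -/
theorem comm_trans {p : ℕ} (hp : p.Prime) (hodd : Odd p) (h3 : p ≠ 3) (h : OT p D)
    (hno : ∀ c c' e : G, ¬ T2p D c c' e) {a b g : G} (ha : a ∈ D) (hb : b ∈ D) (hg : g ∈ D) (hne : a ≠ b)
    (hab : Commute a b) (hga : ¬ Commute g a) (hgb : ¬ Commute g b) {u : G} (hu : u ∈ D) (hua : Commute u a) :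
    Commute u b := by
  -- `z = a b`, `w = g g^z`
  have hT : ∀ {c c' e : G}, c ∈ D → c' ∈ D → e ∈ D → Commute c c' → c ≠ c' → ¬ Commute e c → ¬ Commute e c' →
      Commute e ((c * c') * e * (c * c')⁻¹) := by
    intro c c' e hc hc' he h1 h2 h4 h5
    by_contra hn
    exact hno c c' e ⟨hc, hc', he, h1, h2, h4, h5, hn⟩
  have hgz := hT ha hb hg hab hne hga hgb
  have hz : (a * b) * (a * b) = 1 := mul_comm_of_comm_sq (h.sq a ha) (h.sq b hb) hab
  set z := a * b with hzdef
  have hzi : z⁻¹ = z := inv_of_sq hz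
  set g' := z * g * z⁻¹ with hg'
  have hg'D : g' ∈ D := h.cj z g hg
  have hgg' : g ≠ g' := by
    intro hh
    have h1 : Commute g z := by
      have h2 : z * g = g * z := by
        have h4 : z * g * z⁻¹ * z = g * z := by rw [← hg', ← hh]
        rwa [inv_mul_cancel_right] at h4
      exact h2.symm
    exact hga (tau h hodd ha hb hg hab hne h1).1
  set w := g * g' with hw
  have hww : w * w = 1 := mul_comm_of_comm_sq (h.sq g hg) (h.sq g' hg'D) hgz
  have hwi : w⁻¹ = w := inv_of_sq hww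
  have hzg' : z * g' * z⁻¹ = g := by
    rw [hg']
    have : z * (z * g * z⁻¹) * z⁻¹ = (z * z) * g * (z * z)⁻¹ := by group
    rw [this, hz, one_mul, inv_one, mul_one]
  have hzw : Commute w z := by
    have h1 : z * w * z⁻¹ = w := by
      have : z * w * z⁻¹ = (z * g * z⁻¹) * (z * g' * z⁻¹) := by rw [hw]; group
      rw [this, hzg', ← hg', hw]
      exact hgz.eq.symm
    have h2 : z * w = w * z := by
      have h4 : z * w * z⁻¹ * z = w * z := by rw [h1]
      rwa [inv_mul_cancel_right] at h4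
    exact h2.symm
  -- `a ^ w`, `b ^ w`
  have haw : w * a * w⁻¹ ∈ D := h.cj w a ha
  have hbw : w * b * w⁻¹ ∈ D := h.cj w b hb
  have hprod : (w * a * w⁻¹) * (w * b * w⁻¹) = a * b := by
    have : (w * a * w⁻¹) * (w * b * w⁻¹) = w * z * w⁻¹ := by rw [hzdef]; group
    rw [this, hzw.eq, mul_inv_cancel_right]
  have hcomm : ∀ c : G, Commute c z → Commute (w * c * w⁻¹) z := by
    intro c hc
    exact (hzw.mul_left hc).mul_left hzw.inv_left
  have haz : Commute a z := (Commute.refl a).mul_right hab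
  have hbz : Commute b z := hab.symm.mul_right (Commute.refl b)
  obtain ⟨hbwa, hbwb⟩ := tau h hodd ha hb hbw hab hne (hcomm b hbz)
  obtain ⟨hawa, hawb⟩ := tau h hodd ha hb haw hab hne (hcomm a haz)
  -- `b ^ w ≠ a`
  have hbwne : w * b * w⁻¹ ≠ a := by
    intro hh
    apply h3
    -- `(b g)^3 = 1`
    have hgi := h.inv hg
    have hg'i := h.inv hg'D
    have e1 : g' * b * g' = g * a * g := by
      have h4 : g' * b * g' = g * (w * b * w⁻¹) * g := by
        rw [hw, mul_inv_rev, hgi, hg'i]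
        have : g * (g * g' * b * (g' * g)) * g = (g * g) * (g' * b * g') * (g * g) := by group
        rw [this, h.sq g hg, one_mul, mul_one]
      rw [h4, hh]
    -- conjugate by `z`
    have e2 : g * b * g = z * (g * a * g) * z := by
      rw [← e1]
      have h4 : z * (g' * b * g') * z = (z * g' * z⁻¹) * (z * b * z⁻¹) * (z * g' * z⁻¹) := by
        rw [hzi]
        have : z * g' * z * (z * b * z) * (z * g' * z) = z * g' * (z * z) * b * (z * z) * g' * z := by group
        rw [this, hz]; group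
      rw [h4, hzg', ← hbz.eq, mul_inv_cancel_right]
    -- `b g b g b = a g a g a`
    have e3 : b * (g * b * g) * b = a * (g * a * g) * a := by
      rw [e2, hzdef]
      have h4 : b * (a * b * (g * a * g) * (a * b)) * b = b * (a * b) * (g * a * g) * (a * (b * b)) := by group
      rw [h4, h.sq b hb, mul_one, hab.eq, ← mul_assoc b b a, h.sq b hb, one_mul]
    have hag := h.pw ha hg (fun hc => hga hc.symm)
    have hbg := h.pw hb hg (fun hc => hgb hc.symm)
    have hgb' := h.pw hg hb hgb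
    have hga' := h.pw hg ha hga
    -- the member `x0 = b g b g b`
    set x0 := b * (g * b * g) * b with hx0
    have hx0D : x0 ∈ D := h.cj' hb (h.cj' hg hb)
    -- `g x0 = (g b)^3` and `g x0 = (g a)^3`
    have e4 : g * x0 = (g * b) ^ 3 := by
      rw [hx0, pow_succ, pow_two]; group
    have e5 : g * x0 = (g * a) ^ 3 := by
      rw [e3, pow_succ, pow_two]; group
    -- cubes equal implies equal unless `p = 3`
    by_contra hp3
    have hcop : Nat.Coprime p 3 := (Nat.coprime_primes hp Nat.prime_three).2 hp3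
    have hpos : 1 < p := hp.one_lt
    obtain ⟨m, hm⟩ : ∃ m : ℕ, 3 * m ≡ 1 [MOD p] := by
      obtain ⟨m, -, hm⟩ := Nat.exists_mul_mod_eq_one_of_coprime hcop.symm hpos
      exact ⟨m, by rw [Nat.ModEq, hm, Nat.mod_eq_of_lt hpos]⟩
    have hroot : ∀ y : G, y ^ p = 1 → (y ^ 3) ^ m = y := by
      intro y hy
      rw [← pow_mul]
      have h4 : y ^ (3 * m) = y ^ 1 := by
        rw [pow_eq_pow_iff_modEq]
        exact hm.of_dvd (orderOf_dvd_of_pow_eq_one hy)
      rw [h4, pow_one]
    have e6 : g * b = g * a := by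
      rw [← hroot _ hgb', ← hroot _ hga', ← e4, ← e5]
    exact hne (mul_left_cancel e6).symm
  have hawne : w * a * w⁻¹ ≠ b := by
    intro hh
    apply hbwne
    rw [← hh]
    have : w * (w * a * w⁻¹) * w⁻¹ = (w * w) * a * (w * w)⁻¹ := by group
    rw [this, hww, one_mul, inv_one, mul_one]
  have hcw : ∀ {c : G}, c ∈ D → (Commute g c → False) → w * c * w⁻¹ ≠ c := by
    intro c hc hgc hh
    have h1 : Commute c w := by
      have h2 : w * c = c * w := by
        have h4 : w * c * w⁻¹ * w = c * w := by rw [hh]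
        rwa [inv_mul_cancel_right] at h4
      exact h2.symm
    exact hgc (tau h hodd hg hg'D hc hgz hgg' h1).1.symm
  have hawa' := hcw ha hga
  have hbwb' := hcw hb hgb
  have hawbw : w * a * w⁻¹ ≠ w * b * w⁻¹ := by
    intro hh; apply hne; simpa using hh
  have hawbwc : Commute (w * a * w⁻¹) (w * b * w⁻¹) := hab.map (MulAut.conj w)
  set c3 := w * a * w⁻¹ with hc3
  set c4 := w * b * w⁻¹ with hc4
  -- main argument
  by_contra hub
  -- products
  have hc3i := h.inv haw
  have hc4i := h.inv hbw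
  have hbc3 : b * c3 = a * c4 := by
    -- `c3 c4 = a b`
    have h1 : c3 = a * b * c4 := by
      rw [← hprod, mul_assoc, h.sq c4 hbw, mul_one]
    have h2 : b * (a * b) = a := by rw [hab.eq, ← mul_assoc, h.sq b hb, one_mul]
    rw [h1, ← mul_assoc b (a * b) c4, h2]
  have hac3 : a * c3 = b * c4 := by
    have h1 : c3 = a * b * c4 := by
      rw [← hprod, mul_assoc, h.sq c4 hbw, mul_one]
    have h2 : a * (a * b) = b := by rw [← mul_assoc, h.sq a ha, one_mul]
    rw [h1, ← mul_assoc a (a * b) c4, h2]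
  have huc3 : ¬ Commute u c3 := by
    intro hc
    have h1 : Commute u (b * c4) := by rw [← hac3]; exact hua.mul_right hc
    exact hub (tau h hodd hb hbw hu hbwb.symm (Ne.symm hbwb') h1).1
  have huc4 : ¬ Commute u c4 := by
    intro hc
    have h1 : Commute u (b * c3) := by rw [hbc3]; exact hua.mul_right hc
    exact hub (tau h hodd hb haw hu hawb.symm (Ne.symm hawne) h1).1
  have h5 := hT hb haw hu hawb.symm (Ne.symm hawne) hub huc3
  have h6 : (b * c3) * u * (b * c3)⁻¹ = c4 * u * c4 := by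
    rw [hbc3, hbwa.symm.eq, mul_inv_rev, hc4i]
    have : c4 * a * u * (a⁻¹ * c4) = c4 * (a * u * a⁻¹) * c4 := by group
    rw [this, ← hua.eq, mul_inv_cancel_right]
  rw [h6] at h5
  exact huc4 (h.fix hodd hu hbw h5)


/-- the equivalence relation case -/
theorem false_of_eqv {p : ℕ} (hodd : Odd p) (h : OT p D)
    (heqv : ∀ {s c t : G}, s ∈ D → c ∈ D → t ∈ D → Commute s c → Commute s t → Commute c t) : False := by
  have hnonc : ∀ {c : G}, c ∈ D → ∃ t ∈ D, ¬ Commute t c := by
    intro c hc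
    obtain ⟨x, hx, w, hw, hxw⟩ := R.e2
    obtain ⟨g, hg⟩ := R.cls w hw c hc
    refine ⟨g * x * g⁻¹, R.cj g x hx, ?_⟩
    rw [← hg, conj_comm_iff]; exact hxw
  have M : BlkH p D := ⟨hodd, h, R.cls, heqv, hnonc⟩
  -- no product of noncommuting members fixes a block
  have hfix : ∀ d ∈ D, ∀ e ∈ D, ¬ Commute d e → ∀ b : M.Blk, (d * e) • b ≠ b := by
    intro d hd e he hde b hb
    obtain ⟨x, hx, w, hw, hxw⟩ := R.e2
    obtain ⟨y, hy, hyx, hf⟩ := M.exists_fpf hx
    obtain ⟨g, hg1, hg2⟩ := R.pair2 hd he hx hy hde (fun hh => hyx hh.symm)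
    apply hf (g • b)
    have e1 : (x * y) * g = g * (d * e) := by rw [← hg1, ← hg2]; group
    rw [smul_smul, e1, mul_smul, hb]
  -- commuting members act the same way
  have hact : ∀ d ∈ D, ∀ d' ∈ D, Commute d d' → ∀ b : M.Blk, d • b = d' • b := by
    intro d hd d' hd' hdd' b
    by_cases hb : b = M.bk hd
    · have h1 : M.bk hd = M.bk hd' := (M.bk_eq_iff hd hd').2 hdd'
      rw [hb, M.smul_self hd, h1, M.smul_self hd']
    · have hne : b ≠ d • b := fun hh => hb (M.eq_bk_of_smul hd hh.symm)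
      have hsub : M.Sw b (d • b) ⊆ M.N (M.bk hd) := by
        rintro e ⟨he, heb⟩
        refine ⟨he, (M.bk_eq_iff he hd).2 ?_⟩
        by_contra hn
        apply hfix e he d hd hn (d • b)
        rw [mul_smul, M.smul_smul_self hd, heb]
      have hcard : (M.Sw b (d • b)).ncard = (M.N (M.bk hd)).ncard := by
        rw [← Nat.card_coe_set_eq, ← Nat.card_coe_set_eq, M.card_Sw hne, M.card_N]
      have heq := Set.eq_of_subset_of_ncard_le hsub hcard.ge (Set.toFinite _)
      have h1 : d' ∈ M.Sw b (d • b) := by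
        rw [heq]; exact ⟨hd', (M.bk_eq_iff hd' hd).2 hdd'.symm⟩
      exact h1.2.symm
  -- kernel
  obtain ⟨x, hx, w, hw, hwx, hxw⟩ := R.e1
  set K : Subgroup G := (MulAction.toPermHom G M.Blk).ker with hK
  have hxwK : x * w ∈ K := by
    rw [hK, MonoidHom.mem_ker]
    ext b
    show (x * w) • b = b
    rw [mul_smul, ← hact x hx w hw hxw, M.smul_smul_self hx]
  set A : Subgroup G := closure (Dl D x) with hA
  have hAcomm : ∀ a ∈ Dl D x, ∀ b ∈ Dl D x, Commute a b := fun a ha b hb =>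
    heqv hx ha.1 hb.1 ha.2.symm hb.2.symm
  have hKA : ∀ k ∈ K, ∀ a ∈ A, k * a * k⁻¹ ∈ A := by
    intro k hk a ha
    induction ha using closure_induction with
    | mem y hy =>
      refine subset_closure ⟨h.cj k y hy.1, ?_⟩
      have h1 : k • M.bk hx = M.bk hx := by
        have := MonoidHom.mem_ker.1 hk
        exact congrFun (congrArg DFunLike.coe this) (M.bk hx)
      rw [M.smul_bk, M.bk_eq_iff] at h1
      have h2 := conj_comm (g := k) hy.2
      exact heqv (h.cj k x hx) (h.cj k y hy.1) hx h2.symm h1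
    | one => simp
    | mul y z _ _ h1 h2 =>
      have e1 : k * (y * z) * k⁻¹ = (k * y * k⁻¹) * (k * z * k⁻¹) := by group
      rw [e1]; exact mul_mem h1 h2
    | inv y _ h1 =>
      have e1 : k * y⁻¹ * k⁻¹ = (k * y * k⁻¹)⁻¹ := by group
      rw [e1]; exact inv_mem h1
  have hVn : (A.subgroupOf K).Normal := by
    constructor
    intro a ha k
    rw [mem_subgroupOf] at ha ⊢
    exact hKA k k.2 a ha
  have hVp : IsPGroup 2 (A.subgroupOf K) := by
    intro a
    refine ⟨1, ?_⟩
    apply Subtype.ext; apply Subtype.ext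
    show ((a : K) : G) ^ 2 ^ 1 = 1
    rw [pow_one, pow_two]
    exact sq_closure (fun x hx => h.sq x hx.1) hAcomm _ (mem_subgroupOf.1 a.2)
  have h1 : A.subgroupOf K ≤ pCore 2 K := Cores.le_pCore hVn hVp
  have h2 := Cores.map_pCore_subtype_le 2 K
  have hO : pCore 2 G = ⊥ := by
    apply R.sol _ inferInstance
    haveI : Fact (Nat.Prime 2) := ⟨Nat.prime_two⟩
    haveI := (Cores.isPGroup_pCore 2 G).isNilpotent
    infer_instance
  have h3 : x * w ∈ pCore 2 G := by
    apply h2
    refine ⟨⟨x * w, hxwK⟩, h1 ?_, rfl⟩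
    rw [mem_subgroupOf]
    exact mul_mem (subset_closure (MinT.self_mem hx)) (subset_closure ⟨hw, hxw.symm⟩)
  rw [hO, mem_bot] at h3
  apply hwx
  have h4 := eq_inv_of_mul_eq_one_left h3
  rw [h.inv hw] at h4
  exact h4.symm

theorem main : ∀ d ∈ D, ∀ e ∈ D, (d * e) ^ 2 = 1 ∨ (d * e) ^ 3 = 1 := by
  obtain ⟨p, hp, hodd, h⟩ := R.exists_prime
  by_cases h3 : p = 3
  · intro d hd e he
    rcases h.od d hd e he with h1 | h1
    · left; rw [pow_two]; exact mul_comm_of_comm_sq (h.sq d hd) (h.sq e he) h1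
    · right; rw [← h3]; exact h1
  exfalso
  have hno : ∀ c c' e : G, ¬ T2p D c c' e := fun c c' e t => no_t2p hp hodd _ G le_rfl D h c c' e t
  obtain ⟨a, ha, b, hb, g, hg, hne, hab, hga, hgb⟩ := R.exists_conf
  have key : ∀ u ∈ D, Commute u a → Commute u b := fun u hu hua =>
    comm_trans hp hodd h3 h hno ha hb hg hne hab hga hgb hu hua
  apply R.false_of_eqv hodd h
  intro s c t hs hc ht hsc hst
  by_cases hcs : c = s
  · rw [hcs]; exact hst
  obtain ⟨k, hk1, hk2⟩ := R.pair1 ha hb hs hc hne.symm hcs hab hsc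
  have h1 := key (k⁻¹ * t * k) (by simpa using R.cj k⁻¹ t ht) (by
    rw [← hk1] at hst
    have h2 := conj_comm (g := k⁻¹) hst
    have e1 : k⁻¹ * (k * a * k⁻¹) * k⁻¹⁻¹ = a := by group
    rw [e1, inv_inv] at h2
    exact h2.symm)
  have h2 := conj_comm (g := k) h1
  have e1 : k * (k⁻¹ * t * k) * k⁻¹ = t := by group
  rw [e1, hk2] at h2
  exact h2.symm

end R3

/-- the rank three hypothesis gives `R3` -/
theorem of_rank [Finite G] (hFT : FTHall.FT.{u})
    (hsol : ∀ N : Subgroup G, N.Normal → Group.IsSolvable ↥N → N = ⊥) (hinv : ∀ d ∈ D, orderOf d = 2)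
    (hconj : ∃ d ∈ D, D = conjugatesOf d) (hgen : Subgroup.closure D = ⊤)
    (hrank : ∀ x ∈ D, ∃ y ∈ D, ∃ z ∈ D, {w : G | ∃ g : G, Commute g x ∧ g * y * g⁻¹ = w} ≠ {w : G | ∃ g : G, Commute g x ∧ g * x * g⁻¹ = w} ∧ {w : G | ∃ g : G, Commute g x ∧ g * z * g⁻¹ = w} ≠ {w : G | ∃ g : G, Commute g x ∧ g * x * g⁻¹ = w} ∧ {w : G | ∃ g : G, Commute g x ∧ g * y * g⁻¹ = w} ≠ {w : G | ∃ g : G, Commute g x ∧ g * z * g⁻¹ = w} ∧ D = {w : G | ∃ g : G, Commute g x ∧ g * x * g⁻¹ = w} ∪ {w : G | ∃ g : G, Commute g x ∧ g * y * g⁻¹ = w} ∪ {w : G | ∃ g : G, Commute g x ∧ g * z * g⁻¹ = w}) :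
    R3 D := by
  obtain ⟨d0, hd0, hD⟩ := hconj
  have hmem : ∀ x, x ∈ D ↔ ∃ g : G, g * d0 * g⁻¹ = x := by
    intro x
    rw [hD]
    exact isConj_iff
  have hcj : ∀ g : G, ∀ d ∈ D, g * d * g⁻¹ ∈ D := by
    intro g d hd
    obtain ⟨k, hk⟩ := (hmem d).1 hd
    exact (hmem _).2 ⟨g * k, by rw [← hk]; group⟩
  have hcls : ∀ d ∈ D, ∀ e ∈ D, ∃ g, g * d * g⁻¹ = e := by
    intro d hd e he
    obtain ⟨k, hk⟩ := (hmem d).1 hd
    obtain ⟨l, hl⟩ := (hmem e).1 he
    exact ⟨l * k⁻¹, by rw [← hk, ← hl]; group⟩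
  have hne1 : ∀ d ∈ D, d ≠ 1 := by
    intro d hd h
    have := hinv d hd
    rw [h, orderOf_one] at this
    omega
  have hcen : center G = ⊥ := hsol _ inferInstance (Group.isSolvable_of_comm (fun a b => mul_comm' a b))
  have hcen' : ∀ x ∈ D, (∀ g : G, g * x = x * g) → False := by
    intro x hx hg
    have : x ∈ center G := mem_center_iff.2 hg
    rw [hcen, mem_bot] at this
    exact hne1 x hx this
  have hnonc : ∀ x ∈ D, ∃ w ∈ D, ¬ Commute x w := by
    intro x hx
    by_contra hcon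
    push Not at hcon
    refine hcen' x hx ?_
    intro g
    have hle : closure D ≤ centralizer {x} := by
      rw [closure_le]
      intro d hd
      exact mem_centralizer_singleton_iff.2 (hcon d hd).eq.symm
    rw [hgen] at hle
    exact mem_centralizer_singleton_iff.1 (hle (trivial : g ∈ ⊤))
  have hcomm : ∀ x ∈ D, ∃ w ∈ D, w ≠ x ∧ Commute x w := by
    intro x hx
    by_contra hcon
    have hiso : IsIsolated x := by
      intro g hg
      by_contra hne
      exact hcon ⟨g * x * g⁻¹, hcj g x hx, hne, hg⟩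
    have hz := ZStarIso.inZStar_of_isIsolated_two H55ThreeInv.bs G x (hinv x hx) hiso
    have hO : pPrimeCore 2 G = ⊥ := by
      apply hsol _ inferInstance
      apply hFT
      rw [← Nat.coprime_two_right]
      exact Cores.coprime_card_pPrimeCore 2 G
    refine hcen' x hx ?_
    intro g
    have h1 := hz g
    rw [hO, mem_bot] at h1
    have h2 := mul_inv_eq_one.1 h1
    have h3 : g * x * g⁻¹ * g = x * g := by rw [h2]
    rwa [inv_mul_cancel_right] at h3
  have hself : ∀ x : G, {w : G | ∃ g : G, Commute g x ∧ g * x * g⁻¹ = w} = {x} := by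
    intro x
    ext w
    constructor
    · rintro ⟨g, hg, rfl⟩
      exact conj_of_comm hg
    · rintro rfl
      exact ⟨1, Commute.one_left _, by simp⟩
  have hcase : ∀ x ∈ D, ∃ y z : G, (∀ w ∈ D, w ≠ x → Commute x w → ∃ g, Commute g x ∧ g * y * g⁻¹ = w) ∧
      (∀ w ∈ D, ¬ Commute x w → ∃ g, Commute g x ∧ g * z * g⁻¹ = w) := by
    intro x hx
    obtain ⟨y, hy, z, hz, h1, h2, -, h4⟩ := hrank x hx
    rw [hself] at h1 h2 h4
    have hdec : ∀ w ∈ D, w ≠ x → (∃ g, Commute g x ∧ g * y * g⁻¹ = w) ∨ (∃ g, Commute g x ∧ g * z * g⁻¹ = w) := by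
      intro w hw hwx
      rw [h4] at hw
      rcases hw with (hw | hw) | hw
      · exact absurd hw hwx
      · exact Or.inl hw
      · exact Or.inr hw
    have hcc : ∀ {y w : G}, (∃ g, Commute g x ∧ g * y * g⁻¹ = w) → (Commute x w ↔ Commute x y) := by
      rintro y w ⟨g, hg, rfl⟩
      have h5 := conj_comm_iff (g := g) (a := x) (b := y)
      rwa [conj_of_comm hg] at h5
    obtain ⟨c, hc, hcx, hxc⟩ := hcomm x hx
    obtain ⟨n, hn, hxn⟩ := hnonc x hx
    have hnx : n ≠ x := by rintro rfl; exact hxn (Commute.refl _)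
    by_cases hxy : Commute x y
    · have hxz : ¬ Commute x z := by
        intro hxz
        rcases hdec n hn hnx with h | h
        · exact hxn ((hcc h).2 hxy)
        · exact hxn ((hcc h).2 hxz)
      refine ⟨y, z, ?_, ?_⟩
      · intro w hw hwx hxw
        rcases hdec w hw hwx with h | h
        · exact h
        · exact absurd ((hcc h).1 hxw) hxz
      · intro w hw hxw
        rcases hdec w hw (by rintro rfl; exact hxw (Commute.refl _)) with h | h
        · exact absurd ((hcc h).2 hxy) hxw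
        · exact h
    · have hxz : Commute x z := by
        rcases hdec c hc hcx with h | h
        · exact absurd ((hcc h).1 hxc) hxy
        · exact (hcc h).1 hxc
      refine ⟨z, y, ?_, ?_⟩
      · intro w hw hwx hxw
        rcases hdec w hw hwx with h | h
        · exact absurd ((hcc h).1 hxw) hxy
        · exact h
      · intro w hw hxw
        rcases hdec w hw (by rintro rfl; exact hxw (Commute.refl _)) with h | h
        · exact h
        · exact absurd ((hcc h).2 hxz) hxw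
  have htr : ∀ {x y w w' : G}, (∃ g, Commute g x ∧ g * y * g⁻¹ = w) → (∃ g, Commute g x ∧ g * y * g⁻¹ = w') →
      ∃ g, Commute g x ∧ g * w * g⁻¹ = w' := by
    rintro x y w w' ⟨g, hg, rfl⟩ ⟨k, hk, rfl⟩
    refine ⟨k * g⁻¹, hk.mul_left hg.inv_left, by group⟩
  refine ⟨fun d hd => ?_, hne1, hcj, hcls, hgen, ?_, ?_, hsol, ?_, ?_⟩
  · rw [← pow_two, ← hinv d hd]; exact pow_orderOf_eq_one d
  · intro x hx w hw w' hw' hwx hwx' h h'
    obtain ⟨y, z, h1, -⟩ := hcase x hx
    exact htr (h1 w hw hwx h) (h1 w' hw' hwx' h')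
  · intro x hx w hw w' hw' h h'
    obtain ⟨y, z, -, h2⟩ := hcase x hx
    exact htr (h2 w hw h) (h2 w' hw' h')
  · obtain ⟨w, hw, h1, h2⟩ := hcomm d0 hd0
    exact ⟨d0, hd0, w, hw, h1, h2⟩
  · obtain ⟨w, hw, h1⟩ := hnonc d0 hd0
    exact ⟨d0, hd0, w, hw, h1⟩

end Cfsg.Agent.Lib.RankThreeInvol
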