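import Cfsg.Agent.Lib.CoprimeAction2
import Cfsg.Agent.Lib.Transfer
import Cfsg.Agent.Lib.FourClass2

set_option autoImplicit false

/-!
Odd order automorphisms of 2-groups without real elements of order greater than two.
-/

namespace Cfsg.Agent.Lib.RealTwo

open Subgroup
open scoped commutatorElement

universe u

/-- fixed points in an abelian section `U / R` with `[U, A] = U` -/
theorem inf_centralizer_le {G : Type u} [Group G] [Finite G] (U A R : Subgroup G) (hRU : R ≤ U)
    (hUR : U ≤ normalizer (R : Set G)) (hAR : A ≤ normalizer (R : Set G)) (hAU : A ≤ normalizer (U : Set G))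
    (hcop : (Nat.card A).Coprime (Nat.card U)) (hab : ⁅U, U⁆ ≤ R) (hUA : ⁅U, A⁆ = U) :
    U ⊓ centralizer (A : Set G) ≤ R := by
  classical
  set X : Subgroup G := U ⊔ A with hX
  have hUX : U ≤ X := le_sup_left
  have hAX : A ≤ X := le_sup_right
  have hRX : R ≤ X := hRU.trans hUX
  have hRn : (R.subgroupOf X).Normal := (Subgroup.normal_subgroupOf_iff_le_normalizer hRX).2 (sup_le hUR hAR)
  set q := QuotientGroup.mk' (R.subgroupOf X) with hq
  set U1 := (U.subgroupOf X).map q with hU1
  set A1 := (A.subgroupOf X).map q with hA1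
  have hcomm : ⁅U.subgroupOf X, A.subgroupOf X⁆ = U.subgroupOf X := by
    apply Subgroup.map_injective X.subtype_injective
    rw [Subgroup.map_commutator, Subgroup.subgroupOf_map_subtype, Subgroup.subgroupOf_map_subtype,
      inf_eq_left.2 hUX, inf_eq_left.2 hAX, hUA]
  have hcomm1 : ⁅U1, A1⁆ = U1 := by
    rw [hU1, hA1, ← Subgroup.map_commutator, hcomm]
  have hab1 : IsMulCommutative U1 := by
    refine ⟨⟨?_⟩⟩
    rintro ⟨_, ⟨a, ha, rfl⟩⟩ ⟨_, ⟨b, hb, rfl⟩⟩
    apply Subtype.ext
    show q a * q b = q b * q a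
    rw [← commutatorElement_eq_one_iff_mul_comm]
    have h1 : ⁅q a, q b⁆ = q ⁅a, b⁆ := (map_commutatorElement q a b).symm
    rw [h1]
    apply (QuotientGroup.eq_one_iff _).2
    rw [mem_subgroupOf]
    apply hab
    exact Subgroup.commutator_mem_commutator ha hb
  have hAU1 : A1 ≤ normalizer (U1 : Set (X ⧸ R.subgroupOf X)) := by
    have h1 : A.subgroupOf X ≤ normalizer ((U.subgroupOf X : Subgroup X) : Set X) := by
      have : (U.subgroupOf X).Normal := (Subgroup.normal_subgroupOf_iff_le_normalizer hUX).2 (sup_le le_normalizer hAU)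
      exact le_normalizer_of_normal
    exact (Subgroup.map_mono h1).trans (Subgroup.le_normalizer_map _)
  have hcop1 : (Nat.card A1).Coprime (Nat.card U1) := by
    have e1 : Nat.card A1 ∣ Nat.card A := by
      rw [← SubgroupTools.card_subgroupOf_of_le hAX]; exact Subgroup.card_map_dvd _ _
    have e2 : Nat.card U1 ∣ Nat.card U := by
      rw [← SubgroupTools.card_subgroupOf_of_le hUX]; exact Subgroup.card_map_dvd _ _
    exact Nat.Coprime.coprime_dvd_left e1 (Nat.Coprime.coprime_dvd_right e2 hcop)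
  have hbot := CoprimeAction2.inf_commutator_eq_bot_of_abelian hAU1 hcop1
  rw [hcomm1] at hbot
  rintro d ⟨hdU, hdA⟩
  have hd1 : q ⟨d, hUX hdU⟩ ∈ (U1 ⊓ centralizer (A1 : Set (X ⧸ R.subgroupOf X))) ⊓ U1 := by
    have h1 : q ⟨d, hUX hdU⟩ ∈ U1 := ⟨_, hdU, rfl⟩
    refine Subgroup.mem_inf.2 ⟨Subgroup.mem_inf.2 ⟨h1, ?_⟩, h1⟩
    rw [mem_centralizer_iff]
    rintro _ ⟨a, ha, rfl⟩
    rw [← map_mul, ← map_mul]
    congr 1
    apply Subtype.ext
    exact mem_centralizer_iff.1 hdA a ha
  rw [hbot, mem_bot] at hd1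
  exact (QuotientGroup.eq_one_iff (N := R.subgroupOf X) _).1 hd1

theorem le_normalizer_of_conj_mem {G : Type u} [Group G] {A B : Subgroup G}
    (h : ∀ a ∈ A, ∀ b ∈ B, a * b * a⁻¹ ∈ B) : A ≤ normalizer (B : Set G) := by
  intro a ha
  rw [mem_normalizer_iff]
  intro b
  constructor
  · intro hb; exact h a ha b hb
  · intro hb
    have h1 := h a⁻¹ (inv_mem ha) _ hb
    have h2 : a⁻¹ * (a * b * a⁻¹) * a⁻¹⁻¹ = b := by group
    rwa [h2] at h1

/-- An element `y` of odd order acting on a 2-group `U`, centralizing its involutions, where no element of order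
greater than two is real in `U`, centralizes `U`. -/
theorem mem_centralizer_of_no_real {G : Type u} [Group G] [Finite G] (y : G) (hy : Odd (orderOf y)) (n : ℕ) :
    ∀ U : Subgroup G, Nat.card U = n → IsPGroup 2 U → y ∈ normalizer (U : Set G) →
    (∀ x ∈ U, orderOf x = 2 → Commute x y) → (∀ x ∈ U, ∀ v ∈ U, v * x * v⁻¹ = x⁻¹ → x * x = 1) →
    U ≤ centralizer (zpowers y : Set G) := by
  induction n using Nat.strong_induction_on with
  | _ n ih =>
  intro U hUn hU2 hyU hinv hreal
  classical
  have hF2 : Fact (Nat.Prime 2) := ⟨Nat.prime_two⟩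
  set A := zpowers y with hA
  have hAU : A ≤ normalizer (U : Set G) := by rwa [hA, zpowers_le]
  have hcop : (Nat.card A).Coprime (Nat.card U) := by
    obtain ⟨k, hk⟩ := IsPGroup.iff_card.1 hU2
    rw [hA, Nat.card_zpowers, hk]
    exact Nat.Coprime.pow_right k (Nat.coprime_two_right.2 hy)
  have hUnil : Group.IsNilpotent U := hU2.isNilpotent
  have hUsol : Group.IsSolvable U := inferInstance
  -- proper invariant subgroups are centralized
  have hprop : ∀ W : Subgroup G, W ≤ U → W ≠ U → A ≤ normalizer (W : Set G) → W ≤ centralizer (A : Set G) := by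
    intro W hWU hne hAW
    have hlt : Nat.card W < n := by
      rw [← hUn]
      refine lt_of_le_of_ne (Subgroup.card_le_of_le hWU) fun h => hne ?_
      exact Subgroup.eq_of_le_of_card_ge hWU h.ge
    refine ih _ hlt W rfl (hU2.to_le hWU) (hAW (mem_zpowers y)) (fun x hx => hinv x (hWU hx))
      (fun x hx v hv => hreal x (hWU hx) v (hWU hv))
  by_contra hcon
  have hUne : U ≠ ⊥ := by
    rintro rfl
    exact hcon bot_le
  have hUA : ⁅U, A⁆ = U := by
    have hle : ⁅U, A⁆ ≤ U := le_normalizer_iff_commutator_le_left.1 hAU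
    by_contra hne
    have h1 := hprop _ hle hne (normalizer_commutator_ge_right U A)
    rw [← commutator_eq_bot_iff_le_centralizer] at h1
    have h2 := CoprimeAction2.commutator_eq_bot_of_commutator_commutator hAU hcop (Or.inr hUsol) h1
    rw [commutator_eq_bot_iff_le_centralizer] at h2
    exact hcon h2
  set D := U ⊓ centralizer (A : Set G) with hD
  have hDU : D ≤ U := inf_le_left
  have hDA : D ≤ centralizer (A : Set G) := inf_le_right
  have hDne : D ≠ U := fun h => hcon (h ▸ hDA)
  have hlowD : ∀ W : Subgroup G, W ≤ U → W ≠ U → A ≤ normalizer (W : Set G) → W ≤ D := fun W h1 h2 h3 =>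
    le_inf h1 (hprop W h1 h2 h3)
  have hU'D : ⁅U, U⁆ ≤ D := by
    apply hlowD _ (Subgroup.commutator_le_self _)
    · have h1 := CoprimeAction2.commutator_lt_of_pgroup hU2 hU2 (le_normalizer) hUne
      exact h1.ne
    · intro a ha
      rw [SubgroupTools.mem_normalizer_iff_conj_smul, SubgroupTools.conj_smul_eq_map, Subgroup.map_commutator,
        ← SubgroupTools.conj_smul_eq_map, SubgroupTools.conj_smul_of_mem_normalizer (hAU ha)]
  have hDn : U ≤ normalizer (D : Set G) := by
    rw [le_normalizer_iff_commutator_le_left]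
    exact (Subgroup.commutator_mono hDU le_rfl).trans hU'D
  have hDZ : ⁅U, D⁆ = ⊥ := by
    have h1 : ⁅⁅D, A⁆, U⁆ = ⊥ := by
      rw [commutator_eq_bot_iff_le_centralizer.2 hDA, Subgroup.commutator_bot_left]
    have h2 : ⁅⁅U, D⁆, A⁆ = ⊥ := by
      rw [commutator_eq_bot_iff_le_centralizer]
      exact (le_normalizer_iff_commutator_le_right.1 hDn).trans hDA
    have h3 := CoprimeAction2.commutator_commutator_eq_bot h2 h1
    -- h3 : ⁅⁅A, U⁆, D⁆ = ⊥
    rwa [Subgroup.commutator_comm A U, hUA] at h3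
  have hDcent : ∀ d ∈ D, ∀ v ∈ U, d * v = v * d := by
    intro d hd v hv
    have : ⁅v, d⁆ ∈ ⁅U, D⁆ := Subgroup.commutator_mem_commutator hv hd
    rw [hDZ, mem_bot] at this
    exact (commutatorElement_eq_one_iff_mul_comm.1 this).symm
  have hcomD : ∀ a ∈ U, ∀ b ∈ U, ⁅a, b⁆ ∈ D := fun a ha b hb => hU'D (Subgroup.commutator_mem_commutator ha hb)
  have hmulr : ∀ z ∈ U, ∀ g ∈ U, ∀ k ∈ U, ⁅z, g * k⁆ = ⁅z, g⁆ * ⁅z, k⁆ := by
    intro z hz g hg k hk
    have h1 : ⁅z, g * k⁆ = ⁅z, g⁆ * (g * ⁅z, k⁆ * g⁻¹) := by simp only [commutatorElement_def]; group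
    have h2 := hDcent _ (hcomD z hz k hk) g hg
    rw [h1, ← h2, mul_inv_cancel_right]
  have hmull : ∀ x ∈ U, ∀ w ∈ U, ∀ g ∈ U, ⁅x * w, g⁆ = ⁅x, g⁆ * ⁅w, g⁆ := by
    intro x hx w hw g hg
    have h1 : ⁅x * w, g⁆ = x * ⁅w, g⁆ * x⁻¹ * ⁅x, g⁆ := by simp only [commutatorElement_def]; group
    have h2 := hDcent _ (hcomD w hw g hg) x hx
    have h3 := hDcent _ (hcomD w hw g hg) _ (hDU (hcomD x hx g hg))
    rw [h1, ← h2, mul_inv_cancel_right, h3]
  -- an element outside D
  obtain ⟨x, hxU, hxD⟩ : ∃ x ∈ U, x ∉ D := by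
    by_contra h
    push Not at h
    exact hDne (le_antisymm hDU h)
  -- the subgroup of commutators with x
  let R : Subgroup G :=
    { carrier := {r | ∃ v ∈ U, ⁅x, v⁆ = r}
      one_mem' := ⟨1, one_mem _, by simp⟩
      mul_mem' := by
        rintro _ _ ⟨v, hv, rfl⟩ ⟨w, hw, rfl⟩
        exact ⟨v * w, mul_mem hv hw, hmulr x hxU v hv w hw⟩
      inv_mem' := by
        rintro _ ⟨v, hv, rfl⟩
        refine ⟨v⁻¹, inv_mem hv, ?_⟩
        apply eq_inv_of_mul_eq_one_left
        rw [← hmulr x hxU _ (inv_mem hv) _ hv, inv_mul_cancel]; simp }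
  have hRD : R ≤ D := by
    rintro _ ⟨v, hv, rfl⟩
    exact hcomD x hxU v hv
  let CR : Subgroup G :=
    { carrier := {w | w ∈ U ∧ ∀ v ∈ U, ⁅w, v⁆ ∈ R}
      one_mem' := ⟨one_mem _, fun v _ => by rw [commutatorElement_one_left]; exact one_mem _⟩
      mul_mem' := by
        rintro a b ⟨ha, ha'⟩ ⟨hb, hb'⟩
        exact ⟨mul_mem ha hb, fun v hv => by rw [hmull a ha b hb v hv]; exact mul_mem (ha' v hv) (hb' v hv)⟩
      inv_mem' := by
        rintro a ⟨ha, ha'⟩
        refine ⟨inv_mem ha, fun v hv => ?_⟩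
        have h1 : ⁅a⁻¹, v⁆ = ⁅a, v⁆⁻¹ := by
          apply eq_inv_of_mul_eq_one_left
          rw [← hmull _ (inv_mem ha) _ ha v hv, inv_mul_cancel]; simp
        rw [h1]; exact inv_mem (ha' v hv) }
  have hCRU : CR = U := by
    by_contra hne
    have h1 : A ≤ normalizer (CR : Set G) := by
      have key : ∀ a ∈ A, ∀ w ∈ CR, a * w * a⁻¹ ∈ CR := by
        rintro a ha w ⟨hwU, hw⟩
        refine ⟨(mem_normalizer_iff.1 (hAU ha) w).1 hwU, fun v hv => ?_⟩
        have hv' : a⁻¹ * v * a ∈ U := by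
          have := (mem_normalizer_iff.1 (hAU (inv_mem ha)) v).1 hv
          rwa [inv_inv] at this
        have h2 : ⁅a * w * a⁻¹, v⁆ = a * ⁅w, a⁻¹ * v * a⁆ * a⁻¹ := by
          simp only [commutatorElement_def]; group
        have h3 : a * ⁅w, a⁻¹ * v * a⁆ = ⁅w, a⁻¹ * v * a⁆ * a :=
          mem_centralizer_iff.1 (hDA (hcomD w hwU _ hv')) a ha
        rw [h2, h3, mul_inv_cancel_right]
        exact hw _ hv'
      exact le_normalizer_of_conj_mem key
    have h2 := hlowD CR (fun w hw => hw.1) hne h1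
    exact hxD (h2 ⟨hxU, fun v hv => ⟨v, hv, rfl⟩⟩)
  have hU'R : ⁅U, U⁆ ≤ R := by
    rw [Subgroup.commutator_le]
    intro a ha b hb
    rw [← hCRU] at ha
    exact ha.2 b hb
  have hDR : D ≤ R := by
    apply inf_centralizer_le U A R (hRD.trans hDU) ?_ ?_ hAU hcop hU'R hUA
    · rw [le_normalizer_iff_commutator_le_left]
      exact (Subgroup.commutator_mono (hRD.trans hDU) le_rfl).trans hU'R
    · have h1 : A ≤ centralizer (R : Set G) := by
        rw [Subgroup.le_centralizer_iff]; exact hRD.trans hDA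
      exact h1.trans (Subgroup.centralizer_le_normalizer _)
  -- x² ∈ D
  have hx2 : x * x ∈ D := by
    -- the subgroup D·⟨squares⟩ : U/D is abelian and A acts irreducibly, so its elements have order dividing 2
    by_contra hx2
    let W : Subgroup G :=
      { carrier := {w | w ∈ U ∧ w * w ∈ D}
        one_mem' := ⟨one_mem _, by rw [mul_one]; exact one_mem _⟩
        mul_mem' := by
          rintro a b ⟨ha, ha'⟩ ⟨hb, hb'⟩
          refine ⟨mul_mem ha hb, ?_⟩
          have h1 : a * b * (a * b) = a * a * (b * b) * (b⁻¹ * ⁅b⁻¹, a⁻¹⁆ * b⁻¹⁻¹) := by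
            simp only [commutatorElement_def]; group
          rw [h1]
          refine mul_mem (mul_mem ha' hb') ?_
          have h2 := hDcent _ (hcomD _ (inv_mem hb) _ (inv_mem ha)) _ (inv_mem hb)
          rw [← h2, mul_inv_cancel_right]
          exact hcomD _ (inv_mem hb) _ (inv_mem ha)
        inv_mem' := by
          rintro a ⟨ha, ha'⟩
          refine ⟨inv_mem ha, ?_⟩
          rw [← mul_inv_rev]; exact inv_mem ha' }
    have hWA : A ≤ normalizer (W : Set G) := by
      have key : ∀ a ∈ A, ∀ w ∈ W, a * w * a⁻¹ ∈ W := by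
        rintro a ha w ⟨hwU, hw⟩
        refine ⟨(mem_normalizer_iff.1 (hAU ha) w).1 hwU, ?_⟩
        have h3 : a * (w * w) = (w * w) * a := mem_centralizer_iff.1 (hDA hw) a ha
        have h4 : a * w * a⁻¹ * (a * w * a⁻¹) = a * (w * w) * a⁻¹ := by group
        rw [h4, h3, mul_inv_cancel_right]
        exact hw
      exact le_normalizer_of_conj_mem key
    have hWU : W ≠ U := by
      intro h
      have : x ∈ W := by rw [h]; exact hxU
      exact hx2 this.2
    have hWD := hlowD W (fun w hw => hw.1) hWU hWA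
    -- so U/D has no elements of order 2, hence U = D
    apply hxD
    obtain ⟨k, hk⟩ := hU2 ⟨x, hxU⟩
    have hk' : x ^ 2 ^ k = 1 := congrArg Subtype.val hk
    have key : ∀ j : ℕ, ∀ z ∈ U, z ^ 2 ^ j ∈ D → z ∈ D := by
      intro j
      induction j with
      | zero => intro z _ hz; rwa [pow_zero, pow_one] at hz
      | succ j ihj =>
        intro z hz hzj
        apply ihj z hz
        apply hWD
        refine ⟨pow_mem hz _, ?_⟩
        rw [← pow_add, ← two_mul, ← pow_succ']
        exact hzj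
    exact key k x hxU (by rw [hk']; exact one_mem _)
  -- x is real
  obtain ⟨v, hv, hvx⟩ := hDR (inv_mem hx2)
  have hxreal : v * x * v⁻¹ = x⁻¹ := by
    -- x v x⁻¹ v⁻¹ = (x x)⁻¹ and this commutes with everything in U
    have h1 : x * v * x⁻¹ * v⁻¹ = (x * x)⁻¹ := hvx
    have h4 : v * x⁻¹ * v⁻¹ = x⁻¹ * (x * x)⁻¹ := by rw [← h1]; group
    have h5 : (v * x * v⁻¹) = (x⁻¹ * (x * x)⁻¹)⁻¹ := by rw [← h4]; group
    have h6 : ⁅x * x, v⁆ = 1 := commutatorElement_eq_one_iff_mul_comm.2 (hDcent _ hx2 v hv)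
    rw [hmull x hxU x hxU v hv, hvx] at h6
    have h7 : x * x * (x * x) = 1 := by
      have h8 : (x * x * (x * x))⁻¹ = 1 := by rw [mul_inv_rev]; exact h6
      exact inv_eq_one.1 h8
    rw [h5]
    calc (x⁻¹ * (x * x)⁻¹)⁻¹ = x * x * x := by simp [mul_inv_rev]
      _ = x * x * (x * x) * x⁻¹ := by simp [mul_assoc]
      _ = x⁻¹ := by rw [h7, one_mul]
  have hxx := hreal x hxU v hv hxreal
  -- then x is an involution, hence in D
  apply hxD
  refine Subgroup.mem_inf.2 ⟨hxU, ?_⟩
  have hx1 : x ≠ 1 := by rintro rfl; exact hxD (one_mem _)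
  have hxo : orderOf x = 2 := orderOf_eq_prime (by rw [pow_two]; exact hxx) hx1
  have hcomm := hinv x hxU hxo
  rw [mem_centralizer_iff]
  rintro _ ⟨i, rfl⟩
  exact (hcomm.zpow_right i).eq.symm

/-- real elements of 2-subgroups are central involutions of their Sylow subgroups -/
theorem main (hFT : ∀ (G : Type u) [Group G] [Finite G], Odd (Nat.card G) → Group.IsSolvable G)
    {G : Type u} [Group G] [Finite G] (a : ℕ)
    (h : ∀ x : G, IsConj x x⁻¹ → x ∉ Subgroup.center G → ((Subgroup.centralizer ({x} : Set G)).index).factorization 2 = a)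
    (S : Sylow 2 G) (hS : ∀ s : ↥(S : Subgroup G), IsConj s s⁻¹ → s ∈ Subgroup.center ↥(S : Subgroup G)) :
    Group.IsSolvable G ∧ Cfsg.HasNormalPComplement 2 ↥(Subgroup.closure {g : G | ∃ k : ℕ, orderOf g = 2 ^ k}) := by
  classical
  have hF2 : Fact (Nat.Prime 2) := ⟨Nat.prime_two⟩
  -- real elements in arbitrary Sylow 2-subgroups
  have hS' : ∀ (T : Sylow 2 G), ∀ s ∈ (T : Subgroup G), ∀ v ∈ (T : Subgroup G), v * s * v⁻¹ = s⁻¹ →
      ∀ w ∈ (T : Subgroup G), w * s = s * w := by
    intro T s hs v hv hvs w hw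
    obtain ⟨g, hg⟩ := MulAction.exists_smul_eq G T S
    have key : ∀ x ∈ (T : Subgroup G), g * x * g⁻¹ ∈ (S : Subgroup G) := by
      intro x hx
      rw [← hg]
      exact Subgroup.smul_mem_pointwise_smul x (MulAut.conj g) _ hx
    have h1 : (⟨g * s * g⁻¹, key s hs⟩ : (S : Subgroup G)) ∈ center (S : Subgroup G) := by
      apply hS
      rw [isConj_iff]
      refine ⟨⟨g * v * g⁻¹, key v hv⟩, ?_⟩
      apply Subtype.ext
      show g * v * g⁻¹ * (g * s * g⁻¹) * (g * v * g⁻¹)⁻¹ = (g * s * g⁻¹)⁻¹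
      have : g * v * g⁻¹ * (g * s * g⁻¹) * (g * v * g⁻¹)⁻¹ = g * (v * s * v⁻¹) * g⁻¹ := by group
      rw [this, hvs]; group
    have h2 := mem_center_iff.1 h1 ⟨g * w * g⁻¹, key w hw⟩
    have h3 : g * w * g⁻¹ * (g * s * g⁻¹) = g * s * g⁻¹ * (g * w * g⁻¹) := congrArg Subtype.val h2
    have h4 : g * (w * s) * g⁻¹ = g * (s * w) * g⁻¹ := by
      calc g * (w * s) * g⁻¹ = g * w * g⁻¹ * (g * s * g⁻¹) := by group
        _ = g * s * g⁻¹ * (g * w * g⁻¹) := h3
        _ = _ := by group
    exact mul_left_cancel (mul_right_cancel h4)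
  have hreal : ∀ (U : Subgroup G), IsPGroup 2 U → ∀ x ∈ U, ∀ v ∈ U, v * x * v⁻¹ = x⁻¹ → x * x = 1 := by
    intro U hU x hx v hv hvx
    obtain ⟨T, hT⟩ := hU.exists_le_sylow
    have h1 := hS' T x (hT hx) v (hT hv) hvx v (hT hv)
    rw [h1, mul_inv_cancel_right] at hvx
    nth_rewrite 1 [hvx]
    exact inv_mul_cancel x
  by_cases hinv : ∀ t x : G, (∃ k, orderOf t = 2 ^ k) → Odd (orderOf x) → t * x * t⁻¹ = x⁻¹ → x = 1
  · refine ⟨FourClass.solvable_of_no_inverted hFT G hinv, ?_⟩
    -- the 2-elements generate a 2-group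
    set N := Cfsg.pCore 2 G with hN
    have hNn : N.Normal := inferInstance
    have hNp : IsPGroup 2 N := Cores.isPGroup_pCore 2 G
    have hodd := FourClass.odd_quotient_of_no_inverted G hinv
    have hle : Subgroup.closure {g : G | ∃ k : ℕ, orderOf g = 2 ^ k} ≤ N := by
      rw [Subgroup.closure_le]
      rintro g ⟨k, hk⟩
      have h1 : orderOf (g : G ⧸ N) = 1 := by
        have e1 : orderOf (g : G ⧸ N) ∣ 2 ^ k := by
          rw [← hk]; exact orderOf_map_dvd (QuotientGroup.mk' N) g
        have e2 : orderOf (g : G ⧸ N) ∣ Nat.card (G ⧸ N) := orderOf_dvd_natCard _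
        exact Nat.eq_one_of_dvd_coprimes (Nat.Coprime.pow_left k (Nat.coprime_two_left.2 hodd)) e1 e2
      rw [orderOf_eq_one_iff] at h1
      exact (QuotientGroup.eq_one_iff g).1 h1
    exact PNilp.hasNormalPComplement_of_isPGroup (hNp.to_le hle)
  · push Not at hinv
    obtain ⟨t, x, ⟨k, hk⟩, hx, htx, hx1⟩ := hinv
    -- a ≥ 1
    have hxx : x⁻¹ ≠ x := by
      intro h
      apply hx1
      have h1 : x ^ 2 = 1 := by
        rw [pow_two]; nth_rewrite 1 [← h]; rw [inv_mul_cancel]
      have h2 := orderOf_dvd_of_pow_eq_one h1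
      rw [← orderOf_eq_one_iff]
      exact Nat.eq_one_of_dvd_coprimes (Nat.coprime_two_left.2 hx) h2 dvd_rfl
    have hxc : x ∉ center G := by
      intro hc
      apply hxx
      rw [← htx, mem_center_iff.1 hc t, mul_inv_cancel_right]
    have hxa := h x (isConj_iff.2 ⟨t, htx⟩) hxc
    have heven : 2 ∣ (centralizer ({x} : Set G)).index := by
      -- the extended centralizer
      let E : Subgroup G :=
        { carrier := {g | g * x * g⁻¹ = x ∨ g * x * g⁻¹ = x⁻¹}
          one_mem' := by left; group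
          mul_mem' := by
            intro a b ha hb
            have e1 : a * b * x * (a * b)⁻¹ = a * (b * x * b⁻¹) * a⁻¹ := by group
            have e2 : a * x⁻¹ * a⁻¹ = (a * x * a⁻¹)⁻¹ := by group
            rcases ha with ha | ha <;> rcases hb with hb | hb
            · left; rw [e1, hb, ha]
            · right; rw [e1, hb, e2, ha]
            · right; rw [e1, hb, ha]
            · left; rw [e1, hb, e2, ha, inv_inv]
          inv_mem' := by
            intro a ha
            rcases ha with ha | ha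
            · left
              calc a⁻¹ * x * a⁻¹⁻¹ = a⁻¹ * (a * x * a⁻¹) * a⁻¹⁻¹ := by rw [ha]
                _ = x := by group
            · right
              have : x⁻¹ = a * x * a⁻¹ := ha.symm
              calc a⁻¹ * x * a⁻¹⁻¹ = (a⁻¹ * x⁻¹ * a)⁻¹ := by group
                _ = (a⁻¹ * (a * x * a⁻¹) * a)⁻¹ := by rw [this]
                _ = x⁻¹ := by group }
      have hCE : centralizer ({x} : Set G) ≤ E := by
        intro g hg
        left
        rw [mem_centralizer_singleton_iff] at hg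
        rw [hg, mul_inv_cancel_right]
      have hrel : (centralizer ({x} : Set G)).relIndex E = 2 := by
        show ((centralizer ({x} : Set G)).subgroupOf E).index = 2
        rw [Subgroup.index_eq_two_iff]
        refine ⟨⟨t, Or.inr htx⟩, ?_⟩
        rintro ⟨b, hb⟩
        have key : ∀ c : E, c ∈ (centralizer ({x} : Set G)).subgroupOf E ↔ (c : G) * x * (c : G)⁻¹ = x := by
          rintro ⟨c, hc⟩
          rw [mem_subgroupOf, mem_centralizer_singleton_iff, mul_inv_eq_iff_eq_mul]
        rw [key, key]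
        show Xor (b * t * x * (b * t)⁻¹ = x) (b * x * b⁻¹ = x)
        have e1 : b * t * x * (b * t)⁻¹ = (b * x * b⁻¹)⁻¹ := by
          calc b * t * x * (b * t)⁻¹ = b * (t * x * t⁻¹) * b⁻¹ := by group
            _ = b * x⁻¹ * b⁻¹ := by rw [htx]
            _ = _ := by group
        rw [e1]
        rcases hb with h | h
        · right
          refine ⟨h, ?_⟩
          rw [h]; exact hxx
        · left
          refine ⟨by rw [h, inv_inv], ?_⟩
          rw [h]; exact hxx
      rw [← Subgroup.relIndex_mul_index hCE, hrel]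
      exact dvd_mul_right _ _
    have ha1 : a ≠ 0 := by
      rintro rfl
      have h1 := (Nat.factorization_eq_zero_iff _ _).1 hxa
      rcases h1 with h1 | h1 | h1
      · exact h1 Nat.prime_two
      · exact h1 heven
      · exact Subgroup.index_ne_zero_of_finite h1
    -- involutions are central
    have hcent : ∀ s : G, orderOf s = 2 → s ∈ center G := by
      intro s hs
      by_contra hsc
      have hss : s * s = 1 := by rw [← pow_two, ← hs]; exact pow_orderOf_eq_one s
      have hsi : s⁻¹ = s := inv_eq_of_mul_eq_one_left hss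
      have h1 := h s (isConj_iff.2 ⟨1, by rw [hsi]; group⟩) hsc
      -- s is central in a Sylow subgroup
      have h2 : IsPGroup 2 (zpowers s) := IsPGroup.of_card (n := 1) (by rw [Nat.card_zpowers, hs, pow_one])
      obtain ⟨T, hT⟩ := h2.exists_le_sylow
      have hsT : s ∈ (T : Subgroup G) := hT (mem_zpowers s)
      have h3 : (T : Subgroup G) ≤ centralizer ({s} : Set G) := by
        intro w hw
        rw [mem_centralizer_singleton_iff]
        exact hS' T s hsT 1 (one_mem _) (by rw [hsi]; group) w hw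
      have h4 : ¬ 2 ∣ (centralizer ({s} : Set G)).index := fun hd =>
        T.not_dvd_index (hd.trans (Subgroup.index_dvd_of_le h3))
      rw [Nat.factorization_eq_zero_of_not_dvd h4] at h1
      exact ha1 h1.symm
    -- G is 2-nilpotent
    have hnp : Cfsg.HasNormalPComplement 2 G := by
      apply Transfer.hasNormalPComplement_of_local
      intro D hD _ g hg hgo
      have h1 := mem_centralizer_of_no_real g (Nat.coprime_two_right.1 hgo) _ D rfl hD hg
        (fun z _ hz => (mem_center_iff.1 (hcent z hz) g).symm) (hreal D hD)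
      rw [Subgroup.le_centralizer_iff] at h1
      exact h1 (mem_zpowers g)
    refine ⟨?_, PNilp.HasNormalPComplement.subgroup hnp _⟩
    obtain ⟨P, N, hN, hc⟩ := hnp
    have hNodd : Odd (Nat.card N) := by
      rw [← Nat.not_even_iff_odd]
      intro he
      have h1 : Nat.card N = (P : Subgroup G).index := hc.index_eq_card.symm
      exact P.not_dvd_index (h1 ▸ he.two_dvd)
    have hNs : Group.IsSolvable N := hFT N hNodd
    have hQs : Group.IsSolvable (G ⧸ N) := by
      have h1 : IsPGroup 2 (G ⧸ N) := by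
        obtain ⟨j, hj⟩ := IsPGroup.iff_card.1 P.isPGroup'
        apply IsPGroup.of_card (n := j)
        rw [← Subgroup.index_eq_card, ← hj]
        exact hc.symm.index_eq_card
      have := h1.isNilpotent
      infer_instance
    exact Group.isSolvable_of_ker_le_range N.subtype (QuotientGroup.mk' N) (by simp)

end Cfsg.Agent.Lib.RealTwo
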