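import Mathlib
import Cfsg.Agent.Lib.ReePSL

/-!
Abstract small Ree groups, part A: the 2-transitive action, fixed points (helper18).
-/

set_option autoImplicit false

namespace Cfsg.Agent.Lib.ReeA0

open Cfsg.Agent.Lib.ReePSL

/-- The data from which the structure of the small Ree groups is derived. -/
structure RD0 (G : Type*) [Group G] (K : Type*) [Field K] [Fintype K] (m : ℕ) where
  hK : Fintype.card K = 3 ^ (2 * m + 1)
  B : Subgroup G
  U : Subgroup G
  H : Subgroup G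
  n : G
  card_G : Nat.card G = Fintype.card K ^ 3 * (Fintype.card K - 1) * (Fintype.card K ^ 3 + 1)
  card_B : Nat.card B = Fintype.card K ^ 3 * (Fintype.card K - 1)
  card_U : Nat.card U = Fintype.card K ^ 3
  card_H : Nat.card H = Fintype.card K - 1
  hUB : U ≤ B
  hHB : H ≤ B
  nU : ∀ b ∈ B, ∀ u ∈ U, b * u * b⁻¹ ∈ U
  cyc : IsCyclic H
  nH : ∀ h ∈ H, n * h * n⁻¹ ∈ H
  nB : n ∉ B
  inter : ∀ b ∈ B, n⁻¹ * b * n ∈ B → b ∈ H
  odd : ∀ h ∈ H, h ≠ 1 → Odd (orderOf h) → ∀ u ∈ U, u * h = h * u → u = 1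

theorem pow_mod (m : ℕ) : 3 ^ (2 * m + 1) % 8 = 3 := by
  induction m with
  | zero => norm_num
  | succ k ih =>
    have : 3 ^ (2 * (k + 1) + 1) = 3 ^ (2 * k + 1) * 9 := by ring
    rw [this, Nat.mul_mod, ih]

namespace RD0

variable {G : Type*} [Group G] {K : Type*} [Field K] [Fintype K] {m : ℕ} (D : RD0 G K m)

local notation "q" => Fintype.card K

theorem q_mod (D : RD0 G K m) : q % 8 = 3 := by rw [D.hK]; exact pow_mod m
theorem q_ge (D : RD0 G K m) : 3 ≤ q := by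
  rw [D.hK]
  calc 3 = 3 ^ 1 := by norm_num
    _ ≤ 3 ^ (2 * m + 1) := Nat.pow_le_pow_right (by norm_num) (by omega)

theorem three_not_dvd_sub (D : RD0 G K m) : ¬ 3 ∣ q - 1 := by
  have h1 : 3 ∣ q := by rw [D.hK]; exact dvd_pow_self 3 (by omega)
  have := D.q_ge
  omega

theorem dvd_q (D : RD0 G K m) : 3 ∣ q := by rw [D.hK]; exact dvd_pow_self 3 (by omega)

theorem finite (D : RD0 G K m) : Finite G := by
  have h1 := D.card_G
  have h2 := D.q_ge
  have h3 : 0 < Nat.card G := by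
    rw [h1]; have : 0 < q - 1 := by omega
    positivity
  exact Nat.finite_of_card_ne_zero (by omega)

/-- the base point -/
def o : G ⧸ D.B := QuotientGroup.mk 1
/-- the opposite base point -/
def z : G ⧸ D.B := QuotientGroup.mk D.n

theorem smul_o {g : G} : g • D.o = D.o ↔ g ∈ D.B := by
  unfold o
  show (QuotientGroup.mk (g * 1) : G ⧸ D.B) = QuotientGroup.mk 1 ↔ _
  rw [QuotientGroup.eq, mul_one, mul_one, inv_mem_iff]

theorem smul_z {g : G} : g • D.z = D.z ↔ D.n⁻¹ * g * D.n ∈ D.B := by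
  unfold z
  show (QuotientGroup.mk (g * D.n) : G ⧸ D.B) = QuotientGroup.mk D.n ↔ _
  rw [QuotientGroup.eq, ← inv_mem_iff, mul_inv_rev, inv_inv, mul_assoc]

theorem o_ne_z : D.o ≠ D.z := by
  intro h
  apply D.nB
  unfold o z at h
  rw [QuotientGroup.eq, inv_one, one_mul] at h
  exact h

theorem card_X : Nat.card (G ⧸ D.B) = q ^ 3 + 1 := by
  have h1 := Subgroup.card_eq_card_quotient_mul_card_subgroup D.B
  rw [D.card_G, D.card_B] at h1
  have h2 : 0 < q ^ 3 * (q - 1) := by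
    have := D.q_ge
    have : 0 < q - 1 := by omega
    positivity
  rw [mul_comm (q ^ 3 * (q - 1))] at h1
  exact (Nat.eq_of_mul_eq_mul_right h2 h1).symm

theorem U_inf_H {u : G} (hu : u ∈ D.U) (hh : u ∈ D.H) : u = 1 := by
  haveI := D.finite
  have h1 : orderOf u ∣ q ^ 3 := by
    have := Subgroup.orderOf_dvd_natCard D.U hu
    rwa [D.card_U] at this
  have h2 : orderOf u ∣ q - 1 := by
    have := Subgroup.orderOf_dvd_natCard D.H hh
    rwa [D.card_H] at this
  have h3 : Nat.Coprime (q ^ 3) (q - 1) := by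
    apply Nat.Coprime.pow_left
    have : 1 ≤ q := by have := D.q_ge; omega
    have h5 := (Nat.coprime_self_sub_right this).mpr (Nat.coprime_one_right q)
    exact h5
  have h4 := Nat.Coprime.eq_one_of_dvd (Nat.Coprime.coprime_dvd_left h1 h3) h2
  exact orderOf_eq_one_iff.mp h4

theorem H_smul_z {h : G} (hh : h ∈ D.H) : h • D.z = D.z := by
  haveI := D.finite
  rw [smul_z]
  -- conjugation by `n` is a bijection of `H`
  have : ∃ k ∈ D.H, D.n * k * D.n⁻¹ = h := by
    let f : D.H → D.H := fun k => ⟨D.n * k * D.n⁻¹, D.nH k k.2⟩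
    have hf : Function.Injective f := by
      intro a b hab
      have := congrArg Subtype.val hab
      simpa [f] using this
    obtain ⟨k, hk⟩ := (Finite.injective_iff_surjective.mp hf) ⟨h, hh⟩
    exact ⟨k, k.2, congrArg Subtype.val hk⟩
  obtain ⟨k, hk, rfl⟩ := this
  have : D.n⁻¹ * (D.n * k * D.n⁻¹) * D.n = k := by group
  rw [this]
  exact D.hHB hk

theorem stab2 {g : G} : (g • D.o = D.o ∧ g • D.z = D.z) ↔ g ∈ D.H := by
  constructor
  · rintro ⟨h1, h2⟩
    exact D.inter g (D.smul_o.mp h1) (D.smul_z.mp h2)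
  · intro h
    exact ⟨D.smul_o.mpr (D.hHB h), D.H_smul_z h⟩

theorem exists_u {x : G ⧸ D.B} (hx : x ≠ D.o) : ∃ u ∈ D.U, u • D.z = x := by
  haveI := D.finite
  classical
  let f : D.U → {x : G ⧸ D.B // x ≠ D.o} := fun u => ⟨(u : G) • D.z, by
    intro h
    have : (u : G)⁻¹ • ((u : G) • D.z) = (u : G)⁻¹ • D.o := by rw [h]
    rw [inv_smul_smul, D.smul_o.mpr (inv_mem (D.hUB u.2))] at this
    exact D.o_ne_z this.symm⟩
  have hf : Function.Injective f := by
    intro a b hab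
    have h1 : (a : G) • D.z = (b : G) • D.z := congrArg Subtype.val hab
    have h2 : ((b : G)⁻¹ * a) • D.z = D.z := by rw [mul_smul, h1, inv_smul_smul]
    have h3 : (b : G)⁻¹ * a ∈ D.U := mul_mem (inv_mem b.2) a.2
    have h4 := D.U_inf_H h3 (D.stab2.mp ⟨D.smul_o.mpr (D.hUB h3), h2⟩)
    apply Subtype.ext
    rw [inv_mul_eq_one] at h4
    exact h4.symm
  have hc : Nat.card {x : G ⧸ D.B // x ≠ D.o} = Nat.card D.U := by
    have h1 : Nat.card {x : G ⧸ D.B // x ≠ D.o} + 1 = Nat.card (G ⧸ D.B) := by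
      haveI : Fintype (G ⧸ D.B) := Fintype.ofFinite _
      rw [Nat.card_eq_fintype_card, Nat.card_eq_fintype_card, Fintype.card_subtype_compl]
      have : Fintype.card {x // x = D.o} = 1 := Fintype.card_subtype_eq D.o
      rw [this]
      have : 0 < Fintype.card (G ⧸ D.B) := Fintype.card_pos
      omega
    rw [D.card_X] at h1
    rw [D.card_U]; omega
  have hb : Function.Bijective f := by
    rw [Nat.bijective_iff_injective_and_card]
    exact ⟨hf, hc.symm⟩
  obtain ⟨u, hu⟩ := hb.2 ⟨x, hx⟩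
  exact ⟨u, u.2, congrArg Subtype.val hu⟩

/-- 2-transitivity. -/
theorem two_trans {x y : G ⧸ D.B} (hxy : x ≠ y) : ∃ g : G, g • D.o = x ∧ g • D.z = y := by
  obtain ⟨a, rfl⟩ := QuotientGroup.mk_surjective x
  have ha : (QuotientGroup.mk a : G ⧸ D.B) = a • D.o := by
    unfold o
    show _ = (QuotientGroup.mk (a * 1) : G ⧸ D.B)
    rw [mul_one]
  rw [ha] at hxy ⊢
  have h1 : a⁻¹ • y ≠ D.o := by
    intro h
    apply hxy
    rw [← h, smul_inv_smul]
  obtain ⟨u, hu, hu2⟩ := D.exists_u h1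
  refine ⟨a * u, ?_, ?_⟩
  · rw [mul_smul, D.smul_o.mpr (D.hUB hu)]
  · rw [mul_smul, hu2, smul_inv_smul]

theorem H_fix {h u : G} (hh : h ∈ D.H) (hu : u ∈ D.U) : h • (u • D.z) = u • D.z ↔ u * h = h * u := by
  constructor
  · intro h1
    have h2 : (u⁻¹ * (h * u * h⁻¹)) • D.z = D.z := by
      rw [mul_smul, mul_smul, mul_smul, D.H_smul_z (inv_mem hh), h1, inv_smul_smul]
    have h3 : u⁻¹ * (h * u * h⁻¹) ∈ D.U := mul_mem (inv_mem hu) (D.nU h (D.hHB hh) u hu)
    have h4 := D.U_inf_H h3 (D.stab2.mp ⟨D.smul_o.mpr (D.hUB h3), h2⟩)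
    rw [inv_mul_eq_one] at h4
    rw [eq_mul_inv_iff_mul_eq] at h4
    exact h4
  · intro h1
    rw [← mul_smul, ← h1, mul_smul, D.H_smul_z hh]

theorem orderOf_H {h : G} (hh : h ∈ D.H) : orderOf h ∣ q - 1 := by
  have := Subgroup.orderOf_dvd_natCard D.H hh
  rwa [D.card_H] at this

/-- Elements of `H` of order `> 2` act fixed point freely on `U`. -/
theorem fpf {h u : G} (hh : h ∈ D.H) (h2 : h * h ≠ 1) (hu : u ∈ D.U) (hc : u * h = h * u) : u = 1 := by
  haveI := D.finite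
  refine D.odd (h * h) (mul_mem hh hh) h2 ?_ u hu ?_
  · have h1 : (h * h) ^ ((q - 1) / 2) = 1 := by
      rw [← pow_two, ← pow_mul]
      have : 2 * ((q - 1) / 2) = q - 1 := by have := D.q_mod; omega
      rw [this]
      exact orderOf_dvd_iff_pow_eq_one.mp (D.orderOf_H hh)
    have h3 := orderOf_dvd_of_pow_eq_one h1
    have h4 : Odd ((q - 1) / 2) := by rw [Nat.odd_iff]; have := D.q_mod; omega
    exact Odd.of_dvd_nat h4 h3
  · rw [← mul_assoc, hc, mul_assoc, hc, mul_assoc]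

/-- An element fixing three points is an involution or trivial. -/
theorem three {g : G} {x y w : G ⧸ D.B} (hxy : x ≠ y) (hxw : x ≠ w) (hyw : y ≠ w)
    (hx : g • x = x) (hy : g • y = y) (hw : g • w = w) : g * g = 1 := by
  obtain ⟨a, rfl, rfl⟩ := D.two_trans hxy
  set h := a⁻¹ * g * a with hh
  have h1 : h • D.o = D.o := by rw [hh, mul_smul, mul_smul, hx, inv_smul_smul]
  have h2 : h • D.z = D.z := by rw [hh, mul_smul, mul_smul, hy, inv_smul_smul]
  have hH := D.stab2.mp ⟨h1, h2⟩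
  have h3 : a⁻¹ • w ≠ D.o := by
    intro h
    apply hxw
    rw [← h, smul_inv_smul]
  obtain ⟨u, hu, hu2⟩ := D.exists_u h3
  have h4 : h • (u • D.z) = u • D.z := by
    rw [hu2, hh, mul_smul, mul_smul, smul_inv_smul, hw]
  have h5 := (D.H_fix hH hu).mp h4
  have h6 : h * h = 1 := by
    by_contra hne
    have h7 := D.fpf hH hne hu h5
    rw [h7, one_smul] at hu2
    apply hyw
    rw [hu2, smul_inv_smul]
  have h7 : g = a * h * a⁻¹ := by rw [hh]; group
  rw [h7]
  have : a * h * a⁻¹ * (a * h * a⁻¹) = a * (h * h) * a⁻¹ := by group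
  rw [this, h6]; group

theorem card_three_le {x y w : G ⧸ D.B} (hxy : x ≠ y) (hxw : x ≠ w) (hyw : y ≠ w) :
    Nat.card ↥(MulAction.stabilizer G x ⊓ MulAction.stabilizer G y ⊓ MulAction.stabilizer G w) ≤ 2 := by
  haveI := D.finite
  classical
  obtain ⟨a, ha1, ha2⟩ := D.two_trans hxy
  haveI := D.cyc
  haveI : Fintype D.H := Fintype.ofFinite _
  have h1 := IsCyclic.card_pow_eq_one_le (α := D.H) (n := 2) (by norm_num)
  have h2 : Nat.card {h : D.H // h ^ 2 = 1} ≤ 2 := by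
    rw [Nat.card_eq_fintype_card, Fintype.card_subtype]; exact h1
  refine le_trans ?_ h2
  have key : ∀ g : ↥(MulAction.stabilizer G x ⊓ MulAction.stabilizer G y ⊓ MulAction.stabilizer G w),
      a⁻¹ * g * a ∈ D.H ∧ (a⁻¹ * g * a) * (a⁻¹ * g * a) = 1 := by
    rintro ⟨g, ⟨⟨hgx, hgy⟩, hgw⟩⟩
    have e1 : g • x = x := MulAction.mem_stabilizer_iff.mp hgx
    have e2 : g • y = y := MulAction.mem_stabilizer_iff.mp hgy
    have e3 : g • w = w := MulAction.mem_stabilizer_iff.mp hgw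
    refine ⟨D.stab2.mp ⟨?_, ?_⟩, ?_⟩
    · show (a⁻¹ * g * a) • D.o = D.o
      rw [mul_smul, mul_smul, ha1, e1, ← ha1, inv_smul_smul]
    · show (a⁻¹ * g * a) • D.z = D.z
      rw [mul_smul, mul_smul, ha2, e2, ← ha2, inv_smul_smul]
    · have h3 := D.three hxy hxw hyw e1 e2 e3
      show (a⁻¹ * g * a) * (a⁻¹ * g * a) = 1
      have : (a⁻¹ * g * a) * (a⁻¹ * g * a) = a⁻¹ * (g * g) * a := by group
      rw [this, h3]; group
  refine Nat.card_le_card_of_injective (fun g => (⟨⟨_, (key g).1⟩, by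
    apply Subtype.ext
    rw [pow_two]; exact (key g).2⟩ : {h : D.H // h ^ 2 = 1})) ?_
  intro g g' h
  have h3 : a⁻¹ * (g : G) * a = a⁻¹ * (g' : G) * a := congrArg (fun z => ((z.1 : D.H) : G)) h
  exact Subtype.ext (mul_left_cancel (mul_right_cancel h3))

theorem exists_three {i u : G} (hi : i ∈ D.H) (hi1 : i ≠ 1) (hu : u ∈ D.U) (hu1 : u ≠ 1) (hc : u * i = i * u) :
    ∃ x y w : G ⧸ D.B, x ≠ y ∧ x ≠ w ∧ y ≠ w ∧
      Nat.card ↥(MulAction.stabilizer G x ⊓ MulAction.stabilizer G y ⊓ MulAction.stabilizer G w) = 2 := by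
  haveI := D.finite
  have h1 : D.o ≠ u • D.z := by
    intro h
    have h2 : u⁻¹ • D.o = D.z := by rw [h, inv_smul_smul]
    rw [D.smul_o.mpr (inv_mem (D.hUB hu))] at h2
    exact D.o_ne_z h2
  have h2 : D.z ≠ u • D.z := by
    intro h
    apply hu1
    exact D.U_inf_H hu (D.stab2.mp ⟨D.smul_o.mpr (D.hUB hu), h.symm⟩)
  refine ⟨D.o, D.z, u • D.z, D.o_ne_z, h1, h2, ?_⟩
  apply le_antisymm (D.card_three_le D.o_ne_z h1 h2)
  have h3 : i ∈ MulAction.stabilizer G D.o ⊓ MulAction.stabilizer G D.z ⊓ MulAction.stabilizer G (u • D.z) :=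
    ⟨⟨MulAction.mem_stabilizer_iff.mpr (D.stab2.mpr hi).1, MulAction.mem_stabilizer_iff.mpr (D.stab2.mpr hi).2⟩,
      MulAction.mem_stabilizer_iff.mpr ((D.H_fix hi hu).mpr hc)⟩
  have h4 : Nontrivial ↥(MulAction.stabilizer G D.o ⊓ MulAction.stabilizer G D.z ⊓ MulAction.stabilizer G (u • D.z)) :=
    ⟨⟨i, h3⟩, 1, fun h => hi1 (congrArg Subtype.val h)⟩
  exact (Finite.one_lt_card_iff_nontrivial).mpr h4

end RD0

end Cfsg.Agent.Lib.ReeA0
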