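import Cfsg.Agent.Lib.BrauerApp
import Cfsg.Agent.Lib.CharGalois
import Cfsg.Agent.Lib.BlockPair
import Cfsg.Agent.Lib.DefectZero
import Cfsg.Prelude.Def_BlockRank

/-!
# The p-regular part of a character is `p^{-a}` times a generalized character, and
`p^{-d}` times a combination of irreducible characters of the block
-/

set_option autoImplicit false
set_option linter.all false

namespace Cfsg.Agent.Lib.RegGen

open Cfsg Cfsg.Agent.Lib.BlockRing Cfsg.Agent.Lib.BlockGA Cfsg.Agent.Lib.BlockIdem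
open Cfsg.Agent.Lib.BlockPair Cfsg.Agent.Lib.CharBasic
open scoped ComplexConjugate

universe u

variable {G : Type u} [Group G]

/-- an algebraic integer fixed by all field endomorphisms of `ℂ` is an integer -/
theorem exists_int_of_fixed {z : ℂ} (hz : z ∈ AlgInt) (h : ∀ σ : ℂ →+* ℂ, σ z = z) :
    ∃ n : ℤ, z = n := by
  have hzi : IsIntegral ℤ z := hz
  obtain ⟨q, hq⟩ := CharGalois.exists_rat_of_fixed (hzi.tower_top) h
  rw [hq] at hzi
  have h1 : IsIntegral ℤ q := by
    have : ((q : ℚ) : ℂ) = algebraMap ℚ ℂ q := rfl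
    rw [this] at hzi
    exact (isIntegral_algebraMap_iff (algebraMap ℚ ℂ).injective).mp hzi
  obtain ⟨n, hn⟩ := IsIntegrallyClosed.isIntegral_iff.mp h1
  refine ⟨n, ?_⟩
  rw [hq, ← hn]
  simp

variable [Finite G]

/-- `p^a` on `p`-regular elements and zero elsewhere -/
theorem preg_const_mem [Fintype G] (p : ℕ) [hp : Fact p.Prime] :
    preg p (fun _ : G => ((p ^ (Nat.card G).factorization p : ℕ) : ℂ)) ∈
      Submodule.span AlgInt {θ : G → ℂ | IsCharacter G θ} := by
  classical
  set a := (Nat.card G).factorization p with ha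
  set m := Nat.card G / p ^ a with hm
  have hcard : Nat.card G = m * p ^ a := by
    rw [mul_comm]
    exact (Nat.ordProj_mul_ordCompl_eq_self _ _).symm
  have hcop : Nat.Coprime m (p ^ a) := by
    apply Nat.Coprime.pow_right
    exact (Nat.coprime_ordCompl hp.out Nat.card_pos.ne').symm
  obtain ⟨e, f, he0, he1, _⟩ := BrauerApp.exists_exp hcop
  have h1 := BrauerApp.section_function_mem m (p ^ a) hcard hcop he0 he1 (1 : G)
  have h2 : (fun x : G => if IsConj (x ^ e) 1 then ((p ^ a : ℕ) : ℂ) else 0) =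
      preg p (fun _ : G => ((p ^ a : ℕ) : ℂ)) := by
    funext x
    unfold preg
    have h3 : IsConj (x ^ e) 1 ↔ ¬ p ∣ orderOf x := by
      rw [isConj_one_left]
      constructor
      · intro h hpx
        have h4 := orderOf_dvd_of_pow_eq_one h
        have h5 : p ∣ e := hpx.trans h4
        have ha0 : a ≠ 0 := by
          intro h0
          have h6 : p ∣ Nat.card G := hpx.trans (orderOf_dvd_natCard x)
          have := (Nat.Prime.factorization_pos_of_dvd hp.out Nat.card_pos.ne' h6)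
          omega
        have h7 : e ≡ 1 [MOD p] := he1.of_dvd (dvd_pow_self p ha0)
        have h8 : p ∣ 1 := (h7.dvd_iff dvd_rfl).mp h5
        exact hp.out.one_lt.not_ge (Nat.le_of_dvd one_pos h8)
      · intro hpx
        apply orderOf_dvd_iff_pow_eq_one.mp
        have h4 : orderOf x ∣ m * p ^ a := by rw [← hcard]; exact orderOf_dvd_natCard x
        have h5 : (orderOf x).Coprime (p ^ a) :=
          (((Nat.Prime.coprime_iff_not_dvd hp.out).mpr hpx).symm).pow_right _
        exact (h5.dvd_of_dvd_mul_right h4).trans ((Nat.modEq_zero_iff_dvd).mp he0)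
    by_cases hx : p ∣ orderOf x
    · rw [if_pos hx, if_neg (by rw [h3]; exact not_not.mpr hx)]
    · rw [if_neg hx, if_pos (h3.mpr hx)]
  rw [h2] at h1
  exact h1

theorem pow_bijective {k : ℕ} (hk : k.Coprime (Nat.card G)) :
    Function.Bijective (fun x : G => x ^ k) := by
  have h1 : Function.Injective (fun x : G => x ^ k) := by
    intro x y hxy
    have h2 : (powCoprime hk.symm) x = (powCoprime hk.symm) y := hxy
    exact (powCoprime hk.symm).injective h2
  exact ⟨h1, Finite.surjective_of_injective h1⟩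

theorem orderOf_pow_coprime {k : ℕ} (hk : k.Coprime (Nat.card G)) (x : G) :
    orderOf (x ^ k) = orderOf x := by
  apply Nat.Coprime.orderOf_pow
  exact (hk.coprime_dvd_right (orderOf_dvd_natCard x)).symm

/-- `p^a` on `p`-regular elements and zero elsewhere is a generalized character -/
theorem isGeneralized_preg_const [Fintype G] (p : ℕ) [hp : Fact p.Prime] :
    IsGeneralizedCharacter G
      (preg p (fun _ : G => ((p ^ (Nat.card G).factorization p : ℕ) : ℂ))) := by
  classical
  apply isGeneralized_of_classInner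
  · exact isClassFunction_preg (fun _ _ => rfl)
  intro χ hχ
  have h1 := BrauerApp.classInner_mem_of_mem_span (preg_const_mem (G := G) p) ⟨χ, hχ⟩
  apply exists_int_of_fixed h1
  intro σ
  obtain ⟨k, hk, hσ⟩ := CharGalois.exists_pow_of_ringHom (n := Nat.card G) Nat.card_pos σ
  show σ (classInner _ χ) = classInner _ χ
  rw [classInner_def, map_mul, map_inv₀, map_natCast, map_sum]
  congr 1
  rw [← Equiv.sum_comp (Equiv.ofBijective _ (pow_bijective hk))
    (fun x => preg p (fun _ : G => ((p ^ (Nat.card G).factorization p : ℕ) : ℂ)) x * conj (χ x))]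
  apply Finset.sum_congr rfl
  intro x _
  rw [Equiv.ofBijective_apply, map_mul]
  have e1 : σ (preg p (fun _ : G => ((p ^ (Nat.card G).factorization p : ℕ) : ℂ)) x) =
      preg p (fun _ : G => ((p ^ (Nat.card G).factorization p : ℕ) : ℂ)) (x ^ k) := by
    unfold preg
    rw [orderOf_pow_coprime hk]
    split_ifs
    · exact map_zero σ
    · exact map_natCast σ _
  rw [e1]
  congr 1
  rw [← hχ.isCharacter.inv, ← hχ.isCharacter.inv,
    CharGalois.map_apply_eq hχ.isCharacter σ k x⁻¹ (fun μ hμ => hσ μ (by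
      rw [orderOf_inv] at hμ
      obtain ⟨c, hc⟩ := orderOf_dvd_natCard x
      rw [hc, pow_mul, hμ, one_pow]))]
  rw [inv_pow]

theorem preg_eq_mul [Fintype G] (p : ℕ) (χ : G → ℂ) (c : ℂ) :
    c • preg p χ = χ * preg p (fun _ => c) := by
  funext x
  simp only [Pi.smul_apply, Pi.mul_apply, preg, smul_eq_mul]
  split_ifs
  · ring
  · ring

/-- `p^a χ°` is a generalized character -/
theorem isGeneralized_preg [Fintype G] (p : ℕ) [hp : Fact p.Prime] {χ : G → ℂ}
    (hχ : IsGeneralizedCharacter G χ) :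
    IsGeneralizedCharacter G (((p ^ (Nat.card G).factorization p : ℕ) : ℂ) • preg p χ) := by
  rw [preg_eq_mul]
  exact hχ.mul (isGeneralized_preg_const p)

/-- `p^d ⟨χ°, ψ⟩` is an integer for `χ, ψ` in a block of defect `d` -/
theorem pow_defect_inner [Fintype G] {p : ℕ} [hp : Fact p.Prime] {M : Ideal AlgInt}
    (hM : IsPModular p M) {B : Set (IrrCharacter G)} {χ : IrrCharacter G} (hχ : χ ∈ B)
    (ψ : IrrCharacter G) :
    ∃ n : ℤ, ((p ^ blockDefect p B : ℕ) : ℂ) * classInner (preg p (χ : G → ℂ)) (ψ : G → ℂ) = n := by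
  have hMp := isPrime hM
  set a := (Nat.card G).factorization p with ha
  set d := blockDefect p B with hd
  have hda : d ≤ a := Nat.sub_le _ _
  obtain ⟨n, hn⟩ := (isGeneralized_preg p χ.2.isGeneralized).classInner_int ψ.2.isGeneralized
  rw [classInner_smul_left] at hn
  have hp0 : (p : ℂ) ≠ 0 := Nat.cast_ne_zero.mpr hp.out.ne_zero
  -- local integrality
  have h1 := omega_pel (p := p) (ψ : G → ℂ) (χ : G → ℂ)
  have h2 : MemLocalRing M (omega (χ : G → ℂ) (pel p (ψ : G → ℂ))) :=
    loc_omega χ.2 (pel_mem_center ψ.2.isClassFunction) (locA_pel ψ.2.isCharacter)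
  rw [h1, pair_eq_classInner, ← DefectZero.charDegree_eq χ.2.isCharacter] at h2
  have hdeg : charDegree (χ : G → ℂ) ≠ 0 := (DefectZero.charDegree_pos χ.2).ne'
  have h3 : MemLocalRing M (((p ^ d * charDegree (χ : G → ℂ) : ℕ) : ℂ) / ((Nat.card G : ℕ) : ℂ)) := by
    rw [loc_div_natCast_iff hM (mul_ne_zero (pow_ne_zero _ hp.out.ne_zero) hdeg) Nat.card_pos.ne',
      Nat.factorization_mul (pow_ne_zero _ hp.out.ne_zero) hdeg, Finsupp.add_apply,
      Nat.Prime.factorization_pow hp.out, Finsupp.single_eq_same]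
    have h4 : sInf ((fun χ : IrrCharacter G => (charDegree (χ : G → ℂ)).factorization p) '' B) ≤
        (charDegree (χ : G → ℂ)).factorization p := Nat.sInf_le ⟨χ, hχ, rfl⟩
    have h5 : d = a - sInf ((fun χ : IrrCharacter G => (charDegree (χ : G → ℂ)).factorization p) '' B) :=
      rfl
    omega
  have h4 := loc_mul h3 h2
  have hG : (Nat.card G : ℂ) ≠ 0 := Nat.cast_ne_zero.mpr Nat.card_pos.ne'
  have hdegC : (charDegree (χ : G → ℂ) : ℂ) ≠ 0 := Nat.cast_ne_zero.mpr hdeg
  have h5 : (((p ^ d * charDegree (χ : G → ℂ) : ℕ) : ℂ) / ((Nat.card G : ℕ) : ℂ)) *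
      ((Nat.card G : ℂ) * classInner (preg p (χ : G → ℂ)) (ψ : G → ℂ) /
        (charDegree (χ : G → ℂ) : ℂ)) =
      ((p ^ d : ℕ) : ℂ) * classInner (preg p (χ : G → ℂ)) (ψ : G → ℂ) := by
    push_cast
    field_simp
  rw [h5] at h4
  -- `n = p^(a-d) * (p^d * inner)`
  have h6 : ((p ^ (a - d) : ℕ) : ℂ) * (((p ^ d : ℕ) : ℂ) *
      classInner (preg p (χ : G → ℂ)) (ψ : G → ℂ)) = n := by
    rw [← hn, ← mul_assoc, ← Nat.cast_mul, ← pow_add, Nat.sub_add_cancel hda]
  by_cases hn0 : n = 0
  · refine ⟨0, ?_⟩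
    rw [hn0, Int.cast_zero] at h6
    rw [Int.cast_zero]
    exact (mul_eq_zero.mp h6).resolve_left (Nat.cast_ne_zero.mpr (pow_ne_zero _ hp.out.ne_zero))
  have hpa : ((p ^ (a - d) : ℕ) : ℂ) ≠ 0 := Nat.cast_ne_zero.mpr (pow_ne_zero _ hp.out.ne_zero)
  have h7 : ((p ^ d : ℕ) : ℂ) * classInner (preg p (χ : G → ℂ)) (ψ : G → ℂ) =
      (n : ℂ) / ((p ^ (a - d) : ℕ) : ℂ) := by
    rw [eq_div_iff hpa, mul_comm]; exact h6
  have h8 : MemLocalRing M ((n.natAbs : ℂ) / ((p ^ (a - d) : ℕ) : ℂ)) := by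
    rw [h7] at h4
    rcases Int.natAbs_eq n with h | h
    · have : ((n.natAbs : ℕ) : ℂ) = (n : ℂ) := by
        conv_rhs => rw [h]
        simp
      rw [this]; exact h4
    · have : ((n.natAbs : ℕ) : ℂ) = -(n : ℂ) := by
        conv_rhs => rw [h]
        simp
      rw [this, neg_div]
      exact loc_neg h4
  rw [loc_div_natCast_iff hM (Int.natAbs_ne_zero.mpr hn0) (pow_ne_zero _ hp.out.ne_zero),
    Nat.Prime.factorization_pow hp.out, Finsupp.single_eq_same] at h8
  have h9 : p ^ (a - d) ∣ n.natAbs :=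
    (hp.out.pow_dvd_iff_le_factorization (Int.natAbs_ne_zero.mpr hn0)).mpr h8
  have h10 : ((p ^ (a - d) : ℕ) : ℤ) ∣ n := Int.natCast_dvd.mpr h9
  obtain ⟨c, hc⟩ := h10
  refine ⟨c, ?_⟩
  rw [h7, hc]
  push_cast
  field_simp

end Cfsg.Agent.Lib.RegGen
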