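import Mathlib.FieldTheory.Finite.Basic
import Mathlib.FieldTheory.Fixed
import Mathlib.RingTheory.IntegralDomain
import Mathlib.Tactic

/-!
Linear groups regular on the non-zero vectors: the field generated by a normal abelian subgroup
(helper12).
-/

set_option autoImplicit false

namespace Cfsg.Agent.Lib.RegLin

variable {p : ℕ} [hp : Fact p.Prime] {V : Type*} [AddCommGroup V] [Module (ZMod p) V]

/-- The image of a subgroup in the endomorphism ring. -/
def img (H : Subgroup (V ≃ₗ[ZMod p] V)) (A : Subgroup H) : Set (Module.End (ZMod p) V) :=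
  {x | ∃ a ∈ A, x = ((a : H) : V ≃ₗ[ZMod p] V).toLinearMap}

/-- The algebra generated by `A`. -/
def EA (H : Subgroup (V ≃ₗ[ZMod p] V)) (A : Subgroup H) : Subalgebra (ZMod p) (Module.End (ZMod p) V) :=
  Algebra.adjoin (ZMod p) (img H A)

variable {H : Subgroup (V ≃ₗ[ZMod p] V)} {A : Subgroup H}

theorem mem_EA {a : H} (ha : a ∈ A) : ((a : H) : V ≃ₗ[ZMod p] V).toLinearMap ∈ EA H A :=
  Algebra.subset_adjoin ⟨a, ha, rfl⟩

theorem img_comm (hA : ∀ x ∈ A, ∀ y ∈ A, x * y = y * x) :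
    ∀ a ∈ img H A, ∀ b ∈ img H A, a * b = b * a := by
  rintro _ ⟨a, ha, rfl⟩ _ ⟨b, hb, rfl⟩
  ext v
  have := congrArg (fun h : H => ((h : H) : V ≃ₗ[ZMod p] V) v) (hA a ha b hb)
  exact this

theorem EA_comm (hA : ∀ x ∈ A, ∀ y ∈ A, x * y = y * x) {x y : Module.End (ZMod p) V}
    (hx : x ∈ EA H A) (hy : y ∈ EA H A) : x * y = y * x := by
  have h1 := Algebra.isMulCommutative_adjoin (ZMod p) (img_comm hA)
  have := h1.is_comm.comm (⟨x, hx⟩ : Algebra.adjoin (ZMod p) (img H A)) ⟨y, hy⟩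
  exact congrArg Subtype.val this

/-- conjugation preserves `EA`. -/
theorem conj_mem (hAn : A.Normal) (h : H) {x : Module.End (ZMod p) V} (hx : x ∈ EA H A) :
    (h : V ≃ₗ[ZMod p] V).toLinearMap * x * (h⁻¹ : V ≃ₗ[ZMod p] V).toLinearMap ∈ EA H A := by
  have h1 : ((h : V ≃ₗ[ZMod p] V)⁻¹ : V ≃ₗ[ZMod p] V).toLinearMap * (h : V ≃ₗ[ZMod p] V).toLinearMap = 1 := by
    ext v
    exact (h : V ≃ₗ[ZMod p] V).symm_apply_apply v
  have h2 : (h : V ≃ₗ[ZMod p] V).toLinearMap * ((h : V ≃ₗ[ZMod p] V)⁻¹ : V ≃ₗ[ZMod p] V).toLinearMap = 1 := by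
    ext v
    exact (h : V ≃ₗ[ZMod p] V).apply_symm_apply v
  induction hx using Algebra.adjoin_induction with
  | mem x hx =>
    obtain ⟨a, ha, rfl⟩ := hx
    have := mem_EA (hAn.conj_mem a ha h)
    have e : (h : V ≃ₗ[ZMod p] V).toLinearMap * ((a : H) : V ≃ₗ[ZMod p] V).toLinearMap *
        ((h : V ≃ₗ[ZMod p] V)⁻¹ : V ≃ₗ[ZMod p] V).toLinearMap =
        ((h * a * h⁻¹ : H) : V ≃ₗ[ZMod p] V).toLinearMap := by
      ext v; rfl
    rw [e]; exact this
  | algebraMap r =>
    rw [← Algebra.commutes, mul_assoc, h2, mul_one]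
    exact Subalgebra.algebraMap_mem _ r
  | add x y _ _ hx hy =>
    rw [mul_add, add_mul]; exact add_mem hx hy
  | mul x y _ _ hx hy =>
    have : (h : V ≃ₗ[ZMod p] V).toLinearMap * (x * y) * ((h : V ≃ₗ[ZMod p] V)⁻¹ : V ≃ₗ[ZMod p] V).toLinearMap =
        ((h : V ≃ₗ[ZMod p] V).toLinearMap * x * ((h : V ≃ₗ[ZMod p] V)⁻¹ : V ≃ₗ[ZMod p] V).toLinearMap) *
        ((h : V ≃ₗ[ZMod p] V).toLinearMap * y * ((h : V ≃ₗ[ZMod p] V)⁻¹ : V ≃ₗ[ZMod p] V).toLinearMap) := by
      calc _ = (h : V ≃ₗ[ZMod p] V).toLinearMap * x * 1 * y * ((h : V ≃ₗ[ZMod p] V)⁻¹ : V ≃ₗ[ZMod p] V).toLinearMap := by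
              simp only [mul_assoc, one_mul]
        _ = _ := by rw [← h1]; simp only [mul_assoc]
    rw [this]; exact mul_mem hx hy

/-- transitivity forces all annihilators to vanish. -/
theorem faithful [Finite V] (hAn : A.Normal) (hA : ∀ x ∈ A, ∀ y ∈ A, x * y = y * x)
    (htr : ∀ v w : V, v ≠ 0 → w ≠ 0 → ∃ h : H, (h : V ≃ₗ[ZMod p] V) v = w)
    {x : Module.End (ZMod p) V} (hx : x ∈ EA H A) (hx0 : x ≠ 0) {v : V} (hv : v ≠ 0) : x v ≠ 0 := by
  classical
  have hfin : Finite (Module.End (ZMod p) V) :=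
    Finite.of_injective (fun f : Module.End (ZMod p) V => (f : V → V)) DFunLike.coe_injective
  let ann : V → Set (Module.End (ZMod p) V) := fun v => {x | x ∈ EA H A ∧ x v = 0}
  have hcard : ∀ v w : V, v ≠ 0 → w ≠ 0 → (ann w).ncard ≤ (ann v).ncard := by
    intro v w hv hw
    obtain ⟨h, hh⟩ := htr w v hw hv
    apply Set.ncard_le_ncard_of_injOn (fun x => (h : V ≃ₗ[ZMod p] V).toLinearMap * x *
      ((h : V ≃ₗ[ZMod p] V)⁻¹ : V ≃ₗ[ZMod p] V).toLinearMap)
    · rintro x ⟨hx, hxw⟩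
      refine ⟨conj_mem hAn h hx, ?_⟩
      show (h : V ≃ₗ[ZMod p] V) (x ((h : V ≃ₗ[ZMod p] V).symm v)) = 0
      have : (h : V ≃ₗ[ZMod p] V).symm v = w := by rw [← hh]; exact LinearEquiv.symm_apply_apply _ _
      rw [this, hxw, map_zero]
    · intro x _ y _ hxy
      have hxy' : (h : V ≃ₗ[ZMod p] V).toLinearMap * x *
        ((h : V ≃ₗ[ZMod p] V)⁻¹ : V ≃ₗ[ZMod p] V).toLinearMap = (h : V ≃ₗ[ZMod p] V).toLinearMap * y *
        ((h : V ≃ₗ[ZMod p] V)⁻¹ : V ≃ₗ[ZMod p] V).toLinearMap := hxy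
      ext u
      have h1 := congrArg (fun f : Module.End (ZMod p) V => f ((h : V ≃ₗ[ZMod p] V) u)) hxy'
      have h2 : ∀ z : Module.End (ZMod p) V, ((h : V ≃ₗ[ZMod p] V).toLinearMap * z *
        ((h : V ≃ₗ[ZMod p] V)⁻¹ : V ≃ₗ[ZMod p] V).toLinearMap) ((h : V ≃ₗ[ZMod p] V) u) =
          (h : V ≃ₗ[ZMod p] V) (z u) := by
        intro z
        show (h : V ≃ₗ[ZMod p] V) (z ((h : V ≃ₗ[ZMod p] V).symm ((h : V ≃ₗ[ZMod p] V) u))) = _
        rw [LinearEquiv.symm_apply_apply]
      rw [h2 x, h2 y] at h1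
      exact (h : V ≃ₗ[ZMod p] V).injective h1
  have hsub : ∀ v w : V, v ≠ 0 → w ≠ 0 → ann v ⊆ ann w → ann v = ann w := fun v w hv hw h =>
    Set.eq_of_subset_of_ncard_le h (hcard v w hv hw) (Set.toFinite _)
  -- annihilators agree after applying an element
  have happ : ∀ (y : Module.End (ZMod p) V), y ∈ EA H A → ∀ u : V, u ≠ 0 → y u ≠ 0 →
      ann u = ann (y u) := by
    intro y hy u hu hyu
    apply hsub u (y u) hu hyu
    rintro z ⟨hz, hzu⟩
    refine ⟨hz, ?_⟩
    have : z (y u) = (z * y) u := rfl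
    rw [this, EA_comm hA hz hy]
    show y (z u) = 0
    rw [hzu, map_zero]
  intro hxv
  -- some u with x u ≠ 0
  obtain ⟨u, hu⟩ : ∃ u, x u ≠ 0 := by
    by_contra hno
    push Not at hno
    apply hx0
    ext w
    exact hno w
  have hu0 : u ≠ 0 := by rintro rfl; exact hu (map_zero x)
  have hw : x (v + u) ≠ 0 := by rw [map_add, hxv, zero_add]; exact hu
  have hw0 : v + u ≠ 0 := by intro h; rw [h, map_zero] at hw; exact hw rfl
  have e1 : ann (v + u) = ann u := by
    rw [happ x hx (v + u) hw0 hw, map_add, hxv, zero_add, ← happ x hx u hu0 hu]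
  have e2 : ann u ⊆ ann v := by
    rintro y ⟨hy, hyu⟩
    have : y ∈ ann (v + u) := by rw [e1]; exact ⟨hy, hyu⟩
    refine ⟨hy, ?_⟩
    have h3 := this.2
    rw [map_add, hyu, add_zero] at h3
    exact h3
  have e3 := hsub u v hu0 hv e2
  have : x ∈ ann u := by rw [e3]; exact ⟨hx, hxv⟩
  exact hu this.2

theorem exists_ne (hV : ∃ v : V, v ≠ 0) : (1 : Module.End (ZMod p) V) ≠ 0 := by
  obtain ⟨v, hv⟩ := hV
  intro h
  exact hv (congrArg (fun f : Module.End (ZMod p) V => f v) h)

/-- `EA` is a field. -/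
theorem isField [Finite V] (hV : ∃ v : V, v ≠ 0) (hAn : A.Normal)
    (hA : ∀ x ∈ A, ∀ y ∈ A, x * y = y * x)
    (htr : ∀ v w : V, v ≠ 0 → w ≠ 0 → ∃ h : H, (h : V ≃ₗ[ZMod p] V) v = w) : IsField (EA H A) := by
  have hfin : Finite (Module.End (ZMod p) V) :=
    Finite.of_injective (fun f : Module.End (ZMod p) V => (f : V → V)) DFunLike.coe_injective
  have hfinE : Finite (EA H A) := Subtype.finite
  let _ : CommRing (EA H A) :=
    { (inferInstance : Ring (EA H A)) with
      mul_comm := fun x y => Subtype.ext (EA_comm hA x.2 y.2) }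
  have : Nontrivial (EA H A) := ⟨⟨1, 0, fun h => exists_ne hV (congrArg Subtype.val h)⟩⟩
  have : NoZeroDivisors (EA H A) := by
    constructor
    intro x y hxy
    by_contra hcon
    push Not at hcon
    obtain ⟨hx, hy⟩ := hcon
    have hx' : (x : Module.End (ZMod p) V) ≠ 0 := fun h => hx (Subtype.ext h)
    have hy' : (y : Module.End (ZMod p) V) ≠ 0 := fun h => hy (Subtype.ext h)
    obtain ⟨v, hv⟩ := hV
    have h1 := faithful hAn hA htr y.2 hy' hv
    have h2 := faithful hAn hA htr x.2 hx' h1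
    exact h2 (congrArg (fun f : EA H A => (f : Module.End (ZMod p) V) v) hxy)
  have : IsDomain (EA H A) := NoZeroDivisors.to_isDomain _
  exact Finite.isField_of_domain (EA H A)

/-- The hom `A → E`. -/
def toE (H : Subgroup (V ≃ₗ[ZMod p] V)) (A : Subgroup H) : A →* EA H A where
  toFun a := ⟨(((a : H) : V ≃ₗ[ZMod p] V)).toLinearMap, mem_EA a.2⟩
  map_one' := Subtype.ext (by ext v; rfl)
  map_mul' a b := Subtype.ext (by ext v; rfl)

theorem toE_injective : Function.Injective (toE H A) := by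
  intro a b hab
  have h1 := congrArg Subtype.val hab
  apply Subtype.ext
  apply Subtype.ext
  ext v
  exact congrArg (fun f : Module.End (ZMod p) V => f v) h1

section

variable [Finite V] (hV : ∃ v : V, v ≠ 0) (hAn : A.Normal) (hA : ∀ x ∈ A, ∀ y ∈ A, x * y = y * x)
    (htr : ∀ v w : V, v ≠ 0 → w ≠ 0 → ∃ h : H, (h : V ≃ₗ[ZMod p] V) v = w)

include hV hAn hA htr

omit hV hAn hA htr in
theorem finite_E : Finite (EA H A) := by
  have hfin : Finite (Module.End (ZMod p) V) :=
    Finite.of_injective (fun f : Module.End (ZMod p) V => (f : V → V)) DFunLike.coe_injective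
  exact Subtype.finite

theorem cyclic : IsCyclic A := by
  classical
  have hfinE := finite_E (H := H) (A := A)
  have hF := isField hV hAn hA htr
  let _ : CommRing (EA H A) :=
    { (inferInstance : Ring (EA H A)) with
      mul_comm := fun x y => Subtype.ext (EA_comm hA x.2 y.2) }
  have : IsDomain (EA H A) := hF.isDomain
  have : Finite A := Finite.of_injective _ (toE_injective (H := H) (A := A))
  exact isCyclic_of_injective_ringHom (toE H A) toE_injective

theorem card_dvd : Nat.card A ∣ Nat.card (EA H A) - 1 := by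
  classical
  have hfinE := finite_E (H := H) (A := A)
  have hF := isField hV hAn hA htr
  let _ : Field (EA H A) := hF.toField
  have h1 : Function.Injective (toE H A).toHomUnits := by
    intro a b hab
    apply toE_injective (H := H) (A := A)
    exact congrArg Units.val hab
  have h2 := Subgroup.card_dvd_of_injective _ h1
  rw [Nat.card_units] at h2
  exact h2

omit hV in
/-- the line spanned by a non-zero vector. -/
theorem line {v : V} (hv : v ≠ 0) : ∃ L : Submodule (ZMod p) V,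
    (∀ w, w ∈ L ↔ ∃ x ∈ EA H A, x v = w) ∧ L ≠ ⊥ ∧
    (∀ a ∈ A, ∀ w ∈ L, ((a : H) : V ≃ₗ[ZMod p] V) w ∈ L) ∧
    (∀ W : Submodule (ZMod p) V, v ∈ W → (∀ a ∈ A, ∀ w ∈ W, ((a : H) : V ≃ₗ[ZMod p] V) w ∈ W) →
      L ≤ W) ∧ Nat.card L = Nat.card (EA H A) := by
  classical
  let f : (EA H A) →ₗ[ZMod p] V :=
    (LinearMap.applyₗ v).comp (Subalgebra.toSubmodule (EA H A)).subtype
  have hf : ∀ x : EA H A, f x = (x : Module.End (ZMod p) V) v := fun x => rfl
  have hinj : Function.Injective f := by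
    intro x y hxy
    by_contra hne
    have h1 : ((x : Module.End (ZMod p) V) - y) ≠ 0 := fun h => hne (Subtype.ext (sub_eq_zero.mp h))
    apply faithful hAn hA htr (sub_mem x.2 y.2) h1 hv
    rw [LinearMap.sub_apply, ← hf, ← hf, hxy, sub_self]
  refine ⟨LinearMap.range f, ?_, ?_, ?_, ?_, ?_⟩
  · intro w
    rw [LinearMap.mem_range]
    exact ⟨fun ⟨x, hx⟩ => ⟨x, x.2, hx⟩, fun ⟨x, hx, h⟩ => ⟨⟨x, hx⟩, h⟩⟩
  · intro h
    have h1 : f 1 ∈ LinearMap.range f := LinearMap.mem_range_self f 1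
    rw [h, Submodule.mem_bot] at h1
    exact hv h1
  · rintro a ha _ ⟨x, rfl⟩
    exact ⟨⟨_, mem_EA ha⟩ * x, rfl⟩
  · intro W hvW hW
    rintro _ ⟨x, rfl⟩
    rw [hf]
    have hx := x.2
    -- every element of EA preserves W
    have key : ∀ x ∈ EA H A, ∀ w ∈ W, x w ∈ W := by
      intro x hx
      induction hx using Algebra.adjoin_induction with
      | mem x hx =>
        obtain ⟨a, ha, rfl⟩ := hx
        exact hW a ha
      | algebraMap r =>
        intro w hw
        rw [Module.algebraMap_end_apply]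
        exact W.smul_mem r hw
      | add x y _ _ hx hy =>
        intro w hw
        rw [LinearMap.add_apply]; exact W.add_mem (hx w hw) (hy w hw)
      | mul x y _ _ hx hy =>
        intro w hw
        exact hx _ (hy w hw)
    exact key x x.2 v hvW
  · exact (Nat.card_congr (LinearEquiv.ofInjective f hinj).toEquiv).symm

omit hV in
/-- `EA`-lines are irreducible. -/
theorem line_irreducible {v : V} (hv : v ≠ 0) : ∃ L : Submodule (ZMod p) V, v ∈ L ∧ L ≠ ⊥ ∧
    (∀ a ∈ A, ∀ w ∈ L, ((a : H) : V ≃ₗ[ZMod p] V) w ∈ L) ∧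
    (∀ W : Submodule (ZMod p) V, v ∈ W → (∀ a ∈ A, ∀ w ∈ W, ((a : H) : V ≃ₗ[ZMod p] V) w ∈ W) →
      L ≤ W) ∧
    (∀ W : Submodule (ZMod p) V, W ≤ L → (∀ a ∈ A, ∀ w ∈ W, ((a : H) : V ≃ₗ[ZMod p] V) w ∈ W) →
      W = ⊥ ∨ W = L) ∧
    Nat.card L = Nat.card (EA H A) := by
  obtain ⟨L, hL, hLb, hLinv, hLle, hLcard⟩ := line hAn hA htr hv
  refine ⟨L, (hL v).mpr ⟨1, one_mem _, rfl⟩, hLb, hLinv, hLle, ?_, hLcard⟩
  intro W hW hWinv
  by_cases hWb : W = ⊥
  · exact Or.inl hWb
  · right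
    obtain ⟨w, hw, hw0⟩ := Submodule.exists_mem_ne_zero_of_ne_bot hWb
    obtain ⟨L', hL', _, _, hLle', hLcard'⟩ := line hAn hA htr hw0
    have h1 : L' ≤ W := hLle' W hw hWinv
    have h2 : L' = L := by
      apply SetLike.coe_injective
      apply Set.eq_of_subset_of_ncard_le (h1.trans hW) _ (Set.toFinite _)
      rw [← Nat.card_coe_set_eq, ← Nat.card_coe_set_eq]
      exact (hLcard.trans hLcard'.symm).le
    exact le_antisymm hW (h2 ▸ h1)

/-- `[H : C_H(A)] ≤ dim E`. -/
theorem index_le : (Subgroup.centralizer (A : Set H)).index ≤ Module.finrank (ZMod p) (EA H A) := by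
  classical
  have hfinE := finite_E (H := H) (A := A)
  have hF := isField hV hAn hA htr
  let _ : Field (EA H A) := { hF.toField with }
  let φ : H → (EA H A →ₐ[ZMod p] EA H A) := fun h =>
    { toFun := fun x => ⟨_, conj_mem hAn h x.2⟩
      map_one' := by
        apply Subtype.ext
        ext v
        exact (h : V ≃ₗ[ZMod p] V).apply_symm_apply v
      map_mul' := by
        intro x y
        apply Subtype.ext
        ext v
        show (h : V ≃ₗ[ZMod p] V) ((x : Module.End (ZMod p) V) ((y : Module.End (ZMod p) V)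
          ((h : V ≃ₗ[ZMod p] V).symm v))) = (h : V ≃ₗ[ZMod p] V) ((x : Module.End (ZMod p) V)
          ((h : V ≃ₗ[ZMod p] V).symm ((h : V ≃ₗ[ZMod p] V) ((y : Module.End (ZMod p) V)
          ((h : V ≃ₗ[ZMod p] V).symm v)))))
        rw [LinearEquiv.symm_apply_apply]
      map_zero' := by
        apply Subtype.ext
        ext v
        show (h : V ≃ₗ[ZMod p] V) 0 = 0
        rw [map_zero]
      map_add' := by
        intro x y
        apply Subtype.ext
        ext v
        show (h : V ≃ₗ[ZMod p] V) ((x : Module.End (ZMod p) V) _ + (y : Module.End (ZMod p) V) _) = _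
        rw [map_add]; rfl
      commutes' := by
        intro r
        apply Subtype.ext
        ext v
        show (h : V ≃ₗ[ZMod p] V) (r • ((h : V ≃ₗ[ZMod p] V).symm v)) = r • v
        rw [map_smul, LinearEquiv.apply_symm_apply] }
  have hφ : ∀ h h' : H, φ h = φ h' → h⁻¹ * h' ∈ Subgroup.centralizer (A : Set H) := by
    intro h h' hh
    rw [Subgroup.mem_centralizer_iff]
    intro a ha
    have h1 := congrArg (fun f : EA H A →ₐ[ZMod p] EA H A =>
      ((f ⟨_, mem_EA ha⟩ : EA H A) : Module.End (ZMod p) V)) hh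
    have h2 : h * a * h⁻¹ = h' * a * h'⁻¹ := by
      apply Subtype.ext
      ext v
      exact congrArg (fun f : Module.End (ZMod p) V => f v) h1
    calc a * (h⁻¹ * h') = h⁻¹ * (h * a * h⁻¹) * h' := by group
      _ = h⁻¹ * (h' * a * h'⁻¹) * h' := by rw [h2]
      _ = h⁻¹ * h' * a := by group
  have hinj : Function.Injective (fun c : H ⧸ Subgroup.centralizer (A : Set H) => φ c.out) := by
    intro c c' hcc
    have h1 := hφ _ _ hcc
    rw [← QuotientGroup.eq, QuotientGroup.out_eq', QuotientGroup.out_eq'] at h1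
    exact h1
  have hfinalg : Finite (EA H A →ₐ[ZMod p] EA H A) :=
    Finite.of_injective (fun f => (f : EA H A → EA H A)) DFunLike.coe_injective
  have h1 := Nat.card_le_card_of_injective _ hinj
  exact h1.trans (card_algHom_le_finrank (ZMod p) (EA H A) (EA H A))

omit hV hAn hA htr in
theorem card_E : Nat.card (EA H A) = p ^ Module.finrank (ZMod p) (EA H A) := by
  have hfinE := finite_E (H := H) (A := A)
  rw [Module.natCard_eq_pow_finrank (K := ZMod p), Nat.card_zmod]

/-- if `A` is reducible then `|V| ≥ |E|^2`. -/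
theorem sq_le (W : Submodule (ZMod p) V) (hWb : W ≠ ⊥) (hWt : W ≠ ⊤)
    (hW : ∀ a ∈ A, ∀ w ∈ W, ((a : H) : V ≃ₗ[ZMod p] V) w ∈ W) :
    Nat.card (EA H A) ^ 2 ≤ Nat.card V := by
  classical
  have hfinE := finite_E (H := H) (A := A)
  obtain ⟨v, hv, hv0⟩ := Submodule.exists_mem_ne_zero_of_ne_bot hWb
  obtain ⟨L, hL, hLb, hLinv, hLle, hLcard⟩ := line hAn hA htr hv0
  have hLW := hLle W hv hW
  obtain ⟨u, hu⟩ : ∃ u, u ∉ L := by
    by_contra hno
    push Not at hno
    apply hWt
    rw [eq_top_iff]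
    exact fun x _ => hLW (hno x)
  have hF := isField hV hAn hA htr
  let f : (EA H A) × (EA H A) → V := fun x =>
    (x.1 : Module.End (ZMod p) V) v + (x.2 : Module.End (ZMod p) V) u
  have hinj : Function.Injective f := by
    rintro ⟨x, y⟩ ⟨x', y'⟩ hxy
    have hxy' : (x : Module.End (ZMod p) V) v + (y : Module.End (ZMod p) V) u =
      (x' : Module.End (ZMod p) V) v + (y' : Module.End (ZMod p) V) u := hxy
    have hyy : y = y' := by
      by_contra hne
      apply hu
      obtain ⟨z, hz⟩ := hF.mul_inv_cancel (a := y - y') (sub_ne_zero.mpr hne)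
      rw [hL]
      refine ⟨((x' - x) * z : EA H A), ((x' - x) * z : EA H A).2, ?_⟩
      have h1 : ((x' - x : EA H A) : Module.End (ZMod p) V) v =
          ((y - y' : EA H A) : Module.End (ZMod p) V) u := by
        show (x' : Module.End (ZMod p) V) v - (x : Module.End (ZMod p) V) v =
          (y : Module.End (ZMod p) V) u - (y' : Module.End (ZMod p) V) u
        rw [sub_eq_sub_iff_add_eq_add, ← hxy']; abel
      have h2 : ((x' - x) * z : EA H A) = z * (x' - x) := by
        apply Subtype.ext; exact EA_comm hA (x' - x).2 z.2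
      rw [h2]
      show (z : Module.End (ZMod p) V) (((x' - x : EA H A) : Module.End (ZMod p) V) v) = u
      rw [h1]
      have h3 : z * (y - y') = 1 := by
        rw [← hz]; apply Subtype.ext; exact EA_comm hA z.2 (y - y').2
      exact congrArg (fun t : EA H A => (t : Module.End (ZMod p) V) u) h3
    have hxx : x = x' := by
      by_contra hne
      rw [hyy, add_left_inj] at hxy'
      have h1 : ((x : Module.End (ZMod p) V) - x') ≠ 0 := fun h => hne (Subtype.ext (sub_eq_zero.mp h))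
      apply faithful hAn hA htr (sub_mem x.2 x'.2) h1 hv0
      rw [LinearMap.sub_apply, hxy', sub_self]
    rw [hxx, hyy]
  have h1 := Nat.card_le_card_of_injective f hinj
  rwa [Nat.card_prod, ← sq] at h1

end

end Cfsg.Agent.Lib.RegLin
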