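import Mathlib

set_option autoImplicit false

/-! Regular nilpotent endomorphisms: `N ^ n = 0` with `finrank V = n` and `finrank (range N) = n - 1` (helper43). -/

namespace Cfsg.Agent.Lib.RegNil

open Module

variable {F V : Type*} [Field F] [AddCommGroup V] [Module F V] [FiniteDimensional F V]

/-- Kernels of powers of an endomorphism with one-dimensional kernel grow by at most one. -/
theorem finrank_ker_pow_le (N : V →ₗ[F] V) (h : finrank F (LinearMap.ker N) ≤ 1) (k : ℕ) :
    finrank F (LinearMap.ker (N ^ k)) ≤ k := by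
  induction k with
  | zero => simp [pow_zero, LinearMap.ker_eq_bot'.mpr]
  | succ k ih =>
    -- `ker N^(k+1) → ker N ^ k` by `N` has kernel `ker N`
    let L : LinearMap.ker (N ^ (k + 1)) →ₗ[F] LinearMap.ker (N ^ k) :=
      N.restrict (fun v hv => by
        rw [LinearMap.mem_ker] at hv ⊢
        rw [pow_succ] at hv
        exact hv)
    have h1 := LinearMap.finrank_range_add_finrank_ker L
    have h2 : finrank F (LinearMap.range L) ≤ finrank F (LinearMap.ker (N ^ k)) := Submodule.finrank_le _
    have h3 : finrank F (LinearMap.ker L) ≤ finrank F (LinearMap.ker N) := by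
      let f : LinearMap.ker L →ₗ[F] LinearMap.ker N :=
        { toFun := fun v => ⟨(v : LinearMap.ker (N ^ (k+1))), by
            have := v.2
            rw [LinearMap.mem_ker] at this
            have := congrArg Subtype.val this
            rw [LinearMap.mem_ker]
            exact this⟩
          map_add' := fun a b => rfl
          map_smul' := fun c a => rfl }
      apply LinearMap.finrank_le_finrank_of_injective (f := f)
      intro a b hab
      have := congrArg Subtype.val hab
      exact Subtype.ext (Subtype.ext this)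
    omega

variable {n : ℕ}

/-- For a regular nilpotent `N`, `ker (N ^ k)` has dimension exactly `k` for `k ≤ n`. -/
theorem finrank_ker_pow (N : V →ₗ[F] V) (hn : finrank F V = n) (hnil : N ^ n = 0)
    (h : finrank F (LinearMap.ker N) ≤ 1) {k : ℕ} (hk : k ≤ n) :
    finrank F (LinearMap.ker (N ^ k)) = k := by
  apply le_antisymm (finrank_ker_pow_le N h k)
  -- `N ^ k : V → ker (N ^ (n - k))`
  let L : V →ₗ[F] LinearMap.ker (N ^ (n - k)) :=
    (N ^ k).codRestrict _ (fun v => by
      rw [LinearMap.mem_ker, ← Module.End.mul_apply, ← pow_add, Nat.sub_add_cancel hk, hnil]; rfl)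
  have h1 := LinearMap.finrank_range_add_finrank_ker L
  have h2 : finrank F (LinearMap.range L) ≤ finrank F (LinearMap.ker (N ^ (n - k))) := Submodule.finrank_le _
  have h3 := finrank_ker_pow_le N h (n - k)
  have h4 : LinearMap.ker L = LinearMap.ker (N ^ k) := LinearMap.ker_codRestrict _ _ _
  rw [h4] at h1
  omega

/-- Every invariant subspace of a regular nilpotent endomorphism is the kernel of a power. -/
theorem eq_ker_pow (N : V →ₗ[F] V) (hn : finrank F V = n) (hnil : N ^ n = 0)
    (h : finrank F (LinearMap.ker N) ≤ 1) (W : Submodule F V) (hW : ∀ v ∈ W, N v ∈ W) :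
    W = LinearMap.ker (N ^ (finrank F W)) := by
  -- the restriction to `W`
  let NW : W →ₗ[F] W := N.restrict hW
  have hker : finrank F (LinearMap.ker NW) ≤ 1 := by
    refine le_trans ?_ h
    let f : LinearMap.ker NW →ₗ[F] LinearMap.ker N :=
      { toFun := fun v => ⟨(v : W), by
          have := v.2
          rw [LinearMap.mem_ker] at this
          have := congrArg Subtype.val this
          rw [LinearMap.mem_ker]
          exact this⟩
        map_add' := fun a b => rfl
        map_smul' := fun c a => rfl }
    apply LinearMap.finrank_le_finrank_of_injective (f := f)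
    intro a b hab
    have := congrArg Subtype.val hab
    exact Subtype.ext (Subtype.ext this)
  have hpow : ∀ k (w : W), ((NW ^ k) w : V) = (N ^ k) w := by
    intro k
    induction k with
    | zero => intro w; rfl
    | succ k ih =>
      intro w
      rw [pow_succ, pow_succ, Module.End.mul_apply, Module.End.mul_apply, ih]
      rfl
  have hle : finrank F W ≤ n := hn ▸ Submodule.finrank_le W
  -- `NW` is nilpotent, so `NW ^ (finrank W) = 0`
  have hNWnil : IsNilpotent NW := ⟨n, by
    ext w
    rw [hpow, hnil]; rfl⟩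
  have h0 : NW ^ (finrank F W) = 0 := by
    have h2 : NW.charpoly = Polynomial.X ^ finrank F W := IsNilpotent.charpoly_eq_X_pow_finrank hNWnil
    have h3 := LinearMap.aeval_self_charpoly NW
    rw [h2] at h3
    simpa using h3
  have hWle : W ≤ LinearMap.ker (N ^ (finrank F W)) := by
    intro w hw
    have := hpow (finrank F W) ⟨w, hw⟩
    rw [h0] at this
    rw [LinearMap.mem_ker]
    exact this.symm
  apply Submodule.eq_of_le_of_finrank_eq hWle
  rw [finrank_ker_pow N hn hnil h hle]

/-! ### Cyclic bases -/

section Cyclic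

variable {V' : Type*} [AddCommGroup V'] [Module F V'] [FiniteDimensional F V']

omit [FiniteDimensional F V] in
theorem linearIndependent_pow (N : V →ₗ[F] V) (hnil : N ^ n = 0) (v : V) (hv : (N ^ (n - 1)) v ≠ 0) :
    LinearIndependent F (fun i : Fin n => (N ^ (i : ℕ)) v) := by
  rw [Fintype.linearIndependent_iff]
  intro g hg
  have key : ∀ k : ℕ, ∀ i : Fin n, (i : ℕ) = k → g i = 0 := by
    intro k
    induction k using Nat.strong_induction_on with
    | _ k ih =>
      intro i hik
      have h1 : (N ^ (n - 1 - (i : ℕ))) (∑ j : Fin n, g j • (N ^ (j : ℕ)) v) = 0 := by rw [hg, map_zero]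
      rw [map_sum, Finset.sum_eq_single i] at h1
      · rw [map_smul, ← Module.End.mul_apply, ← pow_add, Nat.sub_add_cancel (by omega)] at h1
        exact (smul_eq_zero.mp h1).resolve_right hv
      · intro j _ hji
        rw [map_smul, ← Module.End.mul_apply, ← pow_add]
        rcases lt_or_gt_of_ne (fun h => hji (Fin.ext h) : (j : ℕ) ≠ i) with h | h
        · rw [ih j (by omega) j rfl, zero_smul]
        · have : n - 1 - (i : ℕ) + (j : ℕ) = n + (j - 1 - i) := by omega
          rw [this, pow_add, hnil, zero_mul, LinearMap.zero_apply, smul_zero]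
      · intro h; exact absurd (Finset.mem_univ _) h
  exact fun i => key i i rfl

/-- The basis `v, N v, N² v, …` -/
noncomputable def cycBasis (N : V →ₗ[F] V) (hn : finrank F V = n) (hnil : N ^ n = 0) (v : V)
    (hv : (N ^ (n - 1)) v ≠ 0) : Basis (Fin n) F V :=
  haveI : Nonempty (Fin n) := by
    rcases n with _ | n
    · exfalso
      have : Subsingleton V := Module.finrank_zero_iff.mp hn
      exact hv (Subsingleton.elim _ _)
    · exact ⟨0⟩
  basisOfLinearIndependentOfCardEqFinrank (linearIndependent_pow N hnil v hv) (by simp [hn])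

theorem cycBasis_apply (N : V →ₗ[F] V) (hn : finrank F V = n) (hnil : N ^ n = 0) (v : V)
    (hv : (N ^ (n - 1)) v ≠ 0) (i : Fin n) : cycBasis N hn hnil v hv i = (N ^ (i : ℕ)) v := by
  simp [cycBasis]

/-- Two regular nilpotent maps with cyclic vectors are intertwined by a unique isomorphism matching the vectors. -/
theorem exists_equiv (N : V →ₗ[F] V) (hn : finrank F V = n) (hnil : N ^ n = 0) (v : V)
    (hv : (N ^ (n - 1)) v ≠ 0) (N' : V' →ₗ[F] V') (hn' : finrank F V' = n) (hnil' : N' ^ n = 0) (v' : V')
    (hv' : (N' ^ (n - 1)) v' ≠ 0) : ∃ e : V ≃ₗ[F] V', (∀ x, e (N x) = N' (e x)) ∧ e v = v' := by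
  have hpos : 0 < n := by
    rcases n with _ | n
    · exfalso
      have : Subsingleton V := Module.finrank_zero_iff.mp hn
      exact hv (Subsingleton.elim _ _)
    · omega
  let b := cycBasis N hn hnil v hv
  let b' := cycBasis N' hn' hnil' v' hv'
  have hb : ∀ i, b i = (N ^ (i : ℕ)) v := cycBasis_apply N hn hnil v hv
  have hb' : ∀ i, b' i = (N' ^ (i : ℕ)) v' := cycBasis_apply N' hn' hnil' v' hv'
  have he : ∀ i, (b.equiv b' (Equiv.refl _)) (b i) = b' i := fun i => by simp
  refine ⟨b.equiv b' (Equiv.refl _), ?_, ?_⟩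
  · have : ((b.equiv b' (Equiv.refl _)) : V →ₗ[F] V') ∘ₗ N = N' ∘ₗ ((b.equiv b' (Equiv.refl _)) : V →ₗ[F] V') := by
      apply b.ext
      intro i
      simp only [LinearMap.comp_apply, LinearEquiv.coe_coe]
      rw [he, hb', hb, ← Module.End.mul_apply, ← Module.End.mul_apply, ← pow_succ', ← pow_succ']
      by_cases hi : (i : ℕ) + 1 < n
      · have h1 := he ⟨i + 1, hi⟩
        rw [hb, hb'] at h1
        exact h1
      · have : (i : ℕ) + 1 = n := by omega
        rw [this, hnil, hnil', LinearMap.zero_apply, LinearMap.zero_apply, map_zero]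
    intro x
    exact congrArg (fun f => f x) this
  · have h1 := he ⟨0, hpos⟩
    rw [hb, hb'] at h1
    simpa using h1

omit [FiniteDimensional F V'] in
/-- An endomorphism commuting with `N` is determined by its value at a cyclic vector. -/
theorem ext_of_commute (N : V →ₗ[F] V) (hn : finrank F V = n) (hnil : N ^ n = 0) (v : V)
    (hv : (N ^ (n - 1)) v ≠ 0) (N' : V' →ₗ[F] V') (f g : V →ₗ[F] V') (hf : ∀ x, f (N x) = N' (f x))
    (hg : ∀ x, g (N x) = N' (g x)) (h : f v = g v) : f = g := by
  have hpow : ∀ (f : V →ₗ[F] V'), (∀ x, f (N x) = N' (f x)) → ∀ k x, f ((N ^ k) x) = (N' ^ k) (f x) := by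
    intro f hf k
    induction k with
    | zero => intro x; rfl
    | succ k ih => intro x; rw [pow_succ, pow_succ, Module.End.mul_apply, Module.End.mul_apply, ih, hf]
  apply (cycBasis N hn hnil v hv).ext
  intro i
  rw [cycBasis_apply, hpow f hf, hpow g hg, h]

/-- A regular nilpotent map on a nonzero space has a cyclic vector. -/
theorem exists_cyclic (N : V →ₗ[F] V) (hn : finrank F V = n) (hpos : 1 ≤ n)
    (h : finrank F (LinearMap.ker N) ≤ 1) : ∃ v, (N ^ (n - 1)) v ≠ 0 := by
  by_contra hcon
  push Not at hcon
  have h1 : LinearMap.ker (N ^ (n - 1)) = ⊤ := by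
    rw [LinearMap.ker_eq_top]
    ext v
    exact hcon v
  have h2 := finrank_ker_pow_le N h (n - 1)
  rw [h1, finrank_top, hn] at h2
  omega

end Cyclic

/-! ### Matrices -/

theorem mulVecLin_pow {ι : Type*} [Fintype ι] [DecidableEq ι]
    (N : Matrix ι ι F) (k : ℕ) : (N ^ k).mulVecLin = N.mulVecLin ^ k := by
  induction k with
  | zero => rw [pow_zero, pow_zero, Matrix.mulVecLin_one]; rfl
  | succ k ih => rw [pow_succ, pow_succ, Matrix.mulVecLin_mul, ih]; rfl

theorem ker_le_one {ι : Type*} [Fintype ι] [DecidableEq ι] (hι : Fintype.card ι = n)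
    (N : Matrix ι ι F) (hreg : N.rank = n - 1) : finrank F (LinearMap.ker N.mulVecLin) ≤ 1 := by
  have h1 := LinearMap.finrank_range_add_finrank_ker N.mulVecLin
  have h2 : finrank F (LinearMap.range N.mulVecLin) = n - 1 := hreg
  rw [Module.finrank_fintype_fun_eq_card, hι] at h1
  omega

end Cfsg.Agent.Lib.RegNil
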