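import Cfsg.Agent.Lib.UnTrans

/-! Generation of `SU(n,q)` by conjugate regular unipotent elements: centre of the unipotent radical. -/

set_option autoImplicit false
set_option linter.unusedSectionVars false

namespace Cfsg.Agent.Lib.RegSU

open Cfsg.Agent.Lib.SpTrans (isom mem_isom)
open Cfsg.Agent.Lib.UnTrans

variable {F V : Type*} [Field F] [AddCommGroup V] [Module F V] {σ : F →+* F} {f : V → V → F}

/-- `v ↦ f(v,x) z - f(v,z) x` -/
def D (f : V → V → F) (x z : V) : V → V := fun v => f v x • z - f v z • x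

/-- `v ↦ c f(v,x) x` -/
def Q (f : V → V → F) (x : V) (c : F) : V → V := fun v => (c * f v x) • x

/-- `1 + T` is in `G` -/
def In (G : Subgroup (V ≃ₗ[F] V)) (T : V → V) : Prop := ∃ g ∈ G, ∀ v, g v = v + T v

section basic

variable (H : HS σ f) {G : Subgroup (V ≃ₗ[F] V)}

theorem apply_inv (g : V ≃ₗ[F] V) (v : V) : g (g⁻¹ v) = v := by
  rw [← LinearEquiv.mul_apply, mul_inv_cancel]; rfl

theorem inv_apply (g : V ≃ₗ[F] V) (v : V) : g⁻¹ (g v) = v := by
  rw [← LinearEquiv.mul_apply, inv_mul_cancel]; rfl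

theorem form_inv {g : V ≃ₗ[F] V} (hg : g ∈ isom f) (v x : V) : f (g⁻¹ v) x = f v (g x) := by
  rw [← hg (g⁻¹ v) x, apply_inv]

theorem In.conjD {g : V ≃ₗ[F] V} (hg : g ∈ G) (hgi : g ∈ isom f) {x z : V} (h : In G (D f x z)) :
    In G (D f (g x) (g z)) := by
  obtain ⟨t, ht, e⟩ := h
  refine ⟨g * t * g⁻¹, G.mul_mem (G.mul_mem hg ht) (G.inv_mem hg), fun v => ?_⟩
  rw [LinearEquiv.mul_apply, LinearEquiv.mul_apply, e, map_add, apply_inv, D, D, map_sub, LinearEquiv.map_smul,
    LinearEquiv.map_smul, form_inv hgi, form_inv hgi]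

theorem In.conjQ {g : V ≃ₗ[F] V} (hg : g ∈ G) (hgi : g ∈ isom f) {x : V} {c : F} (h : In G (Q f x c)) :
    In G (Q f (g x) c) := by
  obtain ⟨t, ht, e⟩ := h
  refine ⟨g * t * g⁻¹, G.mul_mem (G.mul_mem hg ht) (G.inv_mem hg), fun v => ?_⟩
  rw [LinearEquiv.mul_apply, LinearEquiv.mul_apply, e, map_add, apply_inv, Q, Q, LinearEquiv.map_smul, form_inv hgi]

theorem In.congr {T T' : V → V} (h : In G T) (e : ∀ v, T v = T' v) : In G T' := by
  obtain ⟨t, ht, h⟩ := h
  exact ⟨t, ht, fun v => by rw [h, e]⟩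

/-- products -/
theorem In.add {T T' : V → V} (h : In G T) (h' : In G T') (e : ∀ v, T (v + T' v) = T v) :
    In G (fun v => T v + T' v) := by
  obtain ⟨t, ht, h⟩ := h
  obtain ⟨t', ht', h'⟩ := h'
  refine ⟨t * t', G.mul_mem ht ht', fun v => ?_⟩
  rw [LinearEquiv.mul_apply, h', h, e]
  abel

theorem In.neg {T : V → V} (h : In G T) (e : ∀ v, T (v - T v) = T v) : In G (fun v => - T v) := by
  obtain ⟨t, ht, h⟩ := h
  refine ⟨t⁻¹, G.inv_mem ht, fun v => ?_⟩
  have h1 : t (v - T v) = v := by rw [h, e]; abel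
  have h2 := inv_apply t (v - T v)
  rw [h1] at h2
  rw [h2]
  abel

end basic

/-- the standing data: a totally isotropic family -/
structure Tot (f : V → V → F) (E : Submodule F V) : Prop where
  tot : ∀ x ∈ E, ∀ y ∈ E, f x y = 0

/-- `T` maps into `E`, kills `E`-translations, and `1 + T ∈ G` -/
def Z (E : Submodule F V) (G : Subgroup (V ≃ₗ[F] V)) (T : V → V) : Prop :=
  (∀ v, T v ∈ E) ∧ (∀ v, ∀ x ∈ E, T (v + x) = T v) ∧ In G T

section Z

variable (H : HS σ f) {G : Subgroup (V ≃ₗ[F] V)} {E : Submodule F V} (hE : Tot f E)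

theorem Z.add {T T' : V → V} (h : Z E G T) (h' : Z E G T') : Z E G (fun v => T v + T' v) := by
  refine ⟨fun v => E.add_mem (h.1 v) (h'.1 v), fun v x hx => ?_, h.2.2.add h'.2.2 fun v => h.2.1 _ _ (h'.1 v)⟩
  show T (v + x) + T' (v + x) = T v + T' v
  rw [h.2.1 v x hx, h'.2.1 v x hx]

theorem Z.neg {T : V → V} (h : Z E G T) : Z E G (fun v => - T v) := by
  refine ⟨fun v => E.neg_mem (h.1 v), fun v x hx => ?_, h.2.2.neg fun v => ?_⟩
  · show - T (v + x) = - T v
    rw [h.2.1 v x hx]
  · rw [sub_eq_add_neg]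
    exact h.2.1 _ _ (E.neg_mem (h.1 v))

theorem Z.congr {T T' : V → V} (h : Z E G T) (e : ∀ v, T v = T' v) : Z E G T' := by
  have : T = T' := funext e
  rwa [← this]

include H hE

theorem Z.ofD {x z : V} (hx : x ∈ E) (hz : z ∈ E) (h : In G (D f x z)) : Z E G (D f x z) := by
  refine ⟨fun v => E.sub_mem (E.smul_mem _ hz) (E.smul_mem _ hx), fun v y hy => ?_, h⟩
  simp only [D, H.add_left, hE.tot y hy x hx, hE.tot y hy z hz, add_zero]

theorem Z.ofQ {x : V} {c : F} (hx : x ∈ E) (h : In G (Q f x c)) : Z E G (Q f x c) := by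
  refine ⟨fun v => E.smul_mem _ hx, fun v y hy => ?_, h⟩
  simp only [Q, H.add_left, hE.tot y hy x hx, add_zero]

end Z

/-- membership of `D` on `E` -/
def DI (f : V → V → F) (E : Submodule F V) (G : Subgroup (V ≃ₗ[F] V)) (x z : V) : Prop := Z E G (D f x z)

/-- membership of `Q` on `E` -/
def QI (f : V → V → F) (E : Submodule F V) (G : Subgroup (V ≃ₗ[F] V)) (x : V) (c : F) : Prop := Z E G (Q f x c)

section DI

variable (H : HS σ f) {G : Subgroup (V ≃ₗ[F] V)} {E : Submodule F V} (hE : Tot f E)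

include H

theorem DI.add_right {x z z' : V} (h : DI f E G x z) (h' : DI f E G x z') : DI f E G x (z + z') := by
  refine (Z.add h h').congr fun v => ?_
  simp only [D, H.add_right]
  module

theorem DI.add_left {x x' z : V} (h : DI f E G x z) (h' : DI f E G x' z) : DI f E G (x + x') z := by
  refine (Z.add h h').congr fun v => ?_
  simp only [D, H.add_right]
  module

theorem DI.neg_right {x z : V} (h : DI f E G x z) : DI f E G x (-z) := by
  refine (Z.neg h).congr fun v => ?_
  simp only [D, H.neg_right]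
  module

theorem DI.swap {x z : V} (h : DI f E G x z) : DI f E G z (-x) := by
  refine Z.congr h fun v => ?_
  simp only [D, H.neg_right]
  module

theorem DI.swap' {x z : V} (h : DI f E G x z) : DI f E G (-z) x := by
  refine Z.congr h fun v => ?_
  simp only [D, H.neg_right]
  module

theorem DI.sub_right {x z z' : V} (h : DI f E G x z) (h' : DI f E G x z') : DI f E G x (z - z') := by
  rw [sub_eq_add_neg]; exact DI.add_right H h (DI.neg_right H h')

theorem DI.neg_left {x z : V} (h : DI f E G x z) : DI f E G (-x) z := by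
  refine (Z.neg h).congr fun v => ?_
  simp only [D, H.neg_right]
  module

theorem DI.sub_left {x x' z : V} (h : DI f E G x z) (h' : DI f E G x' z) : DI f E G (x - x') z := by
  rw [sub_eq_add_neg]; exact DI.add_left H h (DI.neg_left H h')

/-- scalars -/
theorem DI.smul {x z : V} {c : F} (h : DI f E G (c • x) z) : DI f E G x (σ c • z) := by
  refine Z.congr h fun v => ?_
  simp only [D, H.smul_right, H.inv]
  module

theorem DI.smul' {x z : V} {c : F} (h : DI f E G x (σ c • z)) : DI f E G (c • x) z := by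
  refine Z.congr h fun v => ?_
  simp only [D, H.smul_right, H.inv]
  module

theorem DI.zero {x : V} : DI f E G x 0 := by
  refine ⟨fun v => ?_, fun v y _ => ?_, 1, G.one_mem, fun v => ?_⟩
  · simp [D, H.zero_right]
  · simp [D, H.zero_right]
  · simp [D, H.zero_right]

theorem QI.zero {x : V} : QI f E G x 0 := by
  refine ⟨fun v => ?_, fun v y _ => ?_, 1, G.one_mem, fun v => ?_⟩
  · simp [Q]
  · simp [Q]
  · simp [Q]

theorem DI.self {x : V} {μ : F} (h : DI f E G x (μ • x)) : QI f E G x (μ - σ μ) := by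
  refine Z.congr h fun v => ?_
  simp only [D, Q, H.smul_right]
  module

theorem QI.self {x : V} {μ : F} (h : QI f E G x (μ - σ μ)) : DI f E G x (μ • x) := by
  refine Z.congr h fun v => ?_
  simp only [D, Q, H.smul_right]
  module

theorem QI.add {x : V} {c c' : F} (h : QI f E G x c) (h' : QI f E G x c') : QI f E G x (c + c') := by
  refine (Z.add h h').congr fun v => ?_
  simp only [Q]
  module

theorem QI.neg {x : V} {c : F} (h : QI f E G x c) : QI f E G x (-c) := by
  refine (Z.neg h).congr fun v => ?_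
  simp only [Q]
  module

theorem QI.smul {x : V} {c r : F} (h : QI f E G x (c * (r * σ r))) : QI f E G (r • x) c := by
  refine Z.congr h fun v => ?_
  simp only [Q, H.smul_right]
  module

theorem QI.smul' {x : V} {c r : F} (h : QI f E G (r • x) c) : QI f E G x (c * (r * σ r)) := by
  refine Z.congr h fun v => ?_
  simp only [Q, H.smul_right]
  module

/-- expansion of `Q(x + z, c)` -/
theorem QI.expand {x z : V} {c : F} (hc : c + σ c = 0) (h : QI f E G (x + z) c) (hx : QI f E G x c)
    (hz : QI f E G z c) : DI f E G x (c • z) := by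
  have hc' : σ c = -c := by linear_combination hc
  refine ((Z.add h (Z.neg hx)).add (Z.neg hz)).congr fun v => ?_
  simp only [D, Q, H.add_right, H.smul_right, hc']
  module

theorem QI.combine {x z : V} {c : F} (hc : c + σ c = 0) (h : DI f E G x (c • z)) (hx : QI f E G x c)
    (hz : QI f E G z c) : QI f E G (x + z) c := by
  have hc' : σ c = -c := by linear_combination hc
  refine ((Z.add h hx).add hz).congr fun v => ?_
  simp only [D, Q, H.add_right, H.smul_right, hc']
  module

end DI

end Cfsg.Agent.Lib.RegSU
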