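import Cfsg.Agent.Lib.RegSU1

/-! Generation of `SU(n,q)` by conjugate regular unipotent elements: scalars. -/

set_option autoImplicit false
set_option linter.unusedSectionVars false

namespace Cfsg.Agent.Lib.RegSU

open Cfsg.Agent.Lib.SpTrans (isom mem_isom)
open Cfsg.Agent.Lib.UnTrans

variable {F V : Type*} [Field F] [AddCommGroup V] [Module F V] {σ : F →+* F} {f : V → V → F}

/-- two opposite regular unipotent elements acting on a totally isotropic subspace -/
structure Sys (f : V → V → F) (G : Subgroup (V ≃ₗ[F] V)) (E : Submodule F V) (e : ℕ → V) (l : ℕ)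
    (u v : V ≃ₗ[F] V) : Prop where
  le : G ≤ isom f
  tot : Tot f E
  mem : ∀ i ≤ l, e i ∈ E
  hu : u ∈ G
  hv : v ∈ G
  u0 : u (e 0) = e 0
  u1 : ∀ i < l, u (e i + e (i + 1)) = e (i + 1)
  v1 : ∀ i < l, v (e i) = e i + e (i + 1)

section sys

variable {G : Subgroup (V ≃ₗ[F] V)} {E : Submodule F V} {e : ℕ → V} {l : ℕ} {u v : V ≃ₗ[F] V}
variable (H : HS σ f) (S : Sys f G E e l u v)

include H S

theorem conj_DI {g : V ≃ₗ[F] V} (hg : g ∈ G) {x z x' z' : V} (hx : g x = x') (hz : g z = z') (hx' : x' ∈ E)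
    (hz' : z' ∈ E) (h : DI f E G x z) : DI f E G x' z' := by
  rw [← hx, ← hz]
  rw [← hx] at hx'
  rw [← hz] at hz'
  exact Z.ofD H S.tot hx' hz' (In.conjD hg (S.le hg) h.2.2)

theorem conj_QI {g : V ≃ₗ[F] V} (hg : g ∈ G) {x x' : V} {c : F} (hx : g x = x') (hx' : x' ∈ E)
    (h : QI f E G x c) : QI f E G x' c := by
  rw [← hx]
  rw [← hx] at hx'
  exact Z.ofQ H S.tot hx' (In.conjQ hg (S.le hg) h.2.2)

omit H in
theorem uinv (i : ℕ) (hi : i < l) : u⁻¹ (e (i + 1)) = e i + e (i + 1) := by
  conv_lhs => rw [← S.u1 i hi]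
  rw [inv_apply]

omit H in
theorem uinv0 : u⁻¹ (e 0) = e 0 := by
  conv_lhs => rw [← S.u0]
  rw [inv_apply]

omit H in
theorem vinv (i : ℕ) (hi : i < l) : v⁻¹ (e i + e (i + 1)) = e i := by
  rw [← S.v1 i hi, inv_apply]

theorem shift {β : F} {i j : ℕ} (hi : i < l) (hj : j < l) (h : DI f E G (e i) (β • e j)) :
    DI f E G (e (i + 1)) (β • e (j + 1)) := by
  have h1 : DI f E G (e i + e (i + 1)) (β • (e j + e (j + 1))) :=
    conj_DI H S S.hv (S.v1 i hi) (by rw [LinearEquiv.map_smul, S.v1 j hj])
      (E.add_mem (S.mem _ (by omega)) (S.mem _ (by omega)))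
      (E.smul_mem _ (E.add_mem (S.mem _ (by omega)) (S.mem _ (by omega)))) h
  exact conj_DI H S S.hu (S.u1 i hi) (by rw [LinearEquiv.map_smul, S.u1 j hj]) (S.mem _ (by omega))
    (E.smul_mem _ (S.mem _ (by omega))) h1

theorem shiftQ {c : F} {i : ℕ} (hi : i < l) (h : QI f E G (e i) c) : QI f E G (e (i + 1)) c := by
  have h1 : QI f E G (e i + e (i + 1)) c :=
    conj_QI H S S.hv (S.v1 i hi) (E.add_mem (S.mem _ (by omega)) (S.mem _ (by omega))) h
  exact conj_QI H S S.hu (S.u1 i hi) (S.mem _ (by omega)) h1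

theorem allQ {c : F} (h : QI f E G (e 0) c) (i : ℕ) (hi : i ≤ l) : QI f E G (e i) c := by
  induction i with
  | zero => exact h
  | succ i ih => exact shiftQ H S (by omega) (ih (by omega))

theorem row_step {β : F} {j : ℕ} (hj : j < l) (h : DI f E G (e 0) (β • e (j + 1))) : DI f E G (e 0) (β • e j) := by
  have h1 : DI f E G (e 0) (β • (e j + e (j + 1))) :=
    conj_DI H S (G.inv_mem S.hu) (uinv0 S) (by rw [LinearEquiv.map_smul, uinv S j hj])
      (S.mem _ (by omega)) (E.smul_mem _ (E.add_mem (S.mem _ (by omega)) (S.mem _ (by omega)))) h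
  have h2 := DI.sub_right H h1 h
  convert h2 using 1
  rw [smul_add]; abel

theorem row {β : F} (h : DI f E G (e 0) (β • e l)) (d : ℕ) (hd : d ≤ l) : DI f E G (e 0) (β • e (l - d)) := by
  induction d with
  | zero => exact h
  | succ d ih =>
    apply row_step H S (by omega)
    rw [show l - (d + 1) + 1 = l - d by omega]
    exact ih (by omega)

theorem dist {β : F} (h0 : ∀ i ≤ l, DI f E G (e i) (β • e i)) (h1 : ∀ i < l, DI f E G (e i) (β • e (i + 1))) (d : ℕ) :
    ∀ i, i + d ≤ l → DI f E G (e i) (β • e (i + d)) := by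
  induction d using Nat.strong_induction_on with
  | _ d ih =>
    rcases d with _ | _ | d
    · intro i hi; exact h0 i (by omega)
    · intro i hi; exact h1 i (by omega)
    · intro i hi
      have k1 := ih (d + 1) (by omega) (i + 1) (by omega)
      have k2 := ih d (by omega) (i + 1) (by omega)
      have k3 := ih (d + 1) (by omega) i (by omega)
      have e1 : i + 1 + (d + 1) = (i + d + 1) + 1 := by ring
      have e2 : i + 1 + d = i + d + 1 := by ring
      have e3 : i + (d + 1) = i + d + 1 := by ring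
      have e4 : i + (d + 1 + 1) = i + d + 1 + 1 := by ring
      rw [e1] at k1
      rw [e2] at k2
      rw [e3] at k3
      rw [e4]
      have k4 : DI f E G (e i + e (i + 1)) (β • (e (i + d + 1) + e (i + d + 1 + 1))) :=
        conj_DI H S (G.inv_mem S.hu) (uinv S i (by omega)) (by rw [LinearEquiv.map_smul, uinv S _ (by omega)])
          (E.add_mem (S.mem _ (by omega)) (S.mem _ (by omega)))
          (E.smul_mem _ (E.add_mem (S.mem _ (by omega)) (S.mem _ (by omega)))) k1
      -- expand on the left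
      have k5 : DI f E G (e (i + 1)) (β • (e (i + d + 1) + e (i + d + 1 + 1))) := by
        rw [smul_add]; exact DI.add_right H k2 k1
      have k6 := DI.sub_left H k4 k5
      rw [add_sub_cancel_right] at k6
      have k7 := DI.sub_right H k6 k3
      convert k7 using 1
      rw [smul_add]; abel

theorem up {β : F} (hl : 1 ≤ l) (h : DI f E G (e 0) (β • e 1)) (i j : ℕ) (hij : i ≤ j) (hj : j ≤ l) :
    DI f E G (e i) (β • e j) := by
  have h0 : DI f E G (e 0) (β • e 0) := row_step H S (by omega) h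
  have h0' : ∀ i ≤ l, DI f E G (e i) (β • e i) := by
    intro i
    induction i with
    | zero => intro _; exact h0
    | succ i ih => intro hi; exact shift H S (by omega) (by omega) (ih (by omega))
  have h1' : ∀ i < l, DI f E G (e i) (β • e (i + 1)) := by
    intro i
    induction i with
    | zero => intro _; exact h
    | succ i ih => intro hi; exact shift H S (by omega) (by omega) (ih (by omega))
  have := dist H S h0' h1' (j - i) i (by omega)
  rwa [Nat.add_sub_cancel' hij] at this

theorem of_Q {c : F} (hl : 1 ≤ l) (hc : c + σ c = 0) (h : QI f E G (e 0) c) : DI f E G (e 0) (c • e 1) := by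
  have h1 := shiftQ H S (i := 0) (by omega) h
  have h2 : QI f E G (e 0 + e 1) c :=
    conj_QI H S S.hv (S.v1 0 (by omega)) (E.add_mem (S.mem _ (by omega)) (S.mem _ (by omega))) h
  exact QI.expand H hc h2 h h1

omit H S in
/-- the set of scalars -/
def Rm (f : V → V → F) (G : Subgroup (V ≃ₗ[F] V)) (E : Submodule F V) (e : ℕ → V) (l : ℕ) (β : F) : Prop :=
  ∀ i j, i ≤ l → j ≤ l → DI f E G (e i) (β • e j)

omit S in
theorem Rm.sub {β γ : F} (h : Rm f G E e l β) (h' : Rm f G E e l γ) : Rm f G E e l (β - γ) := by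
  intro i j hi hj
  rw [sub_smul]
  exact DI.sub_right H (h i j hi hj) (h' i j hi hj)

omit S in
theorem Rm.add {β γ : F} (h : Rm f G E e l β) (h' : Rm f G E e l γ) : Rm f G E e l (β + γ) := by
  intro i j hi hj
  rw [add_smul]
  exact DI.add_right H (h i j hi hj) (h' i j hi hj)

omit S in
theorem Rm.neg {β : F} (h : Rm f G E e l β) : Rm f G E e l (-β) := by
  intro i j hi hj
  rw [neg_smul]
  exact DI.neg_right H (h i j hi hj)

theorem full {β : F} (hl : 1 ≤ l) (h : DI f E G (e 0) (β • e 1)) : Rm f G E e l β ∧ Rm f G E e l (σ β) := by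
  have h0 : DI f E G (e 0) (β • e 0) := row_step H S (by omega) h
  have h1 := DI.self H h0
  have hc : (β - σ β) + σ (β - σ β) = 0 := by rw [map_sub, H.inv]; ring
  have h2 := of_Q H S hl hc h1
  have h3 : DI f E G (e 0) (σ β • e 1) := by
    have := DI.sub_right H h h2
    rw [← sub_smul, sub_sub_cancel] at this
    exact this
  have k1 := up H S hl h
  have k2 := up H S hl h3
  have key : ∀ β : F, (∀ i j, i ≤ j → j ≤ l → DI f E G (e i) (β • e j)) →
      (∀ i j, i ≤ j → j ≤ l → DI f E G (e i) (σ β • e j)) → Rm f G E e l β := by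
    intro β k1 k2 i j hi hj
    rcases le_total i j with hij | hij
    · exact k1 i j hij hj
    · have k3 := DI.smul' H (k2 j i hij hi)
      have k4 := DI.neg_right H (DI.swap H k3)
      rwa [neg_neg] at k4
  refine ⟨key β k1 k2, key (σ β) k2 ?_⟩
  rw [H.inv]
  exact k1

/-- `Q` from `R` -/
theorem Q_of_Rm {β : F} (h : Rm f G E e l β) : QI f E G (e 0) (β - σ β) := DI.self H (h 0 0 (by omega) (by omega))

theorem Rm_of_Q {c : F} (hl : 1 ≤ l) (hc : c + σ c = 0) (h : QI f E G (e 0) c) : Rm f G E e l c :=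
  (full H S hl (of_Q H S hl hc h)).1

theorem Rm.conj {β : F} (hl : 1 ≤ l) (h : Rm f G E e l β) : Rm f G E e l (σ β) :=
  (full H S hl (h 0 1 (by omega) hl)).2

/-- the commutator with `v` -/
theorem exists_g {β : F} {j : ℕ} (hj : j < l) (h : Rm f G E e l β) : ∃ g ∈ G, (∀ i < l, g (v (e i)) = v (e i)) ∧
    g (e l) = e l - (σ β * f (e l) (v (e l))) • v (e j) := by
  obtain ⟨g, hg, hgx⟩ := In.conjD S.hv (S.le S.hv) (h j l (by omega) le_rfl).2.2
  have hvi := S.le S.hv
  refine ⟨g, hg, fun i hi => ?_, ?_⟩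
  · rw [hgx, D, hvi, LinearEquiv.map_smul, H.smul_right, hvi, S.tot.tot _ (S.mem i (by omega)) _ (S.mem j (by omega)),
      S.tot.tot _ (S.mem i (by omega)) _ (S.mem l (by omega))]
    simp
  · have h1 : f (e l) (v (e j)) = 0 := by
      rw [S.v1 j hj]
      exact S.tot.tot _ (S.mem l le_rfl) _ (E.add_mem (S.mem _ (by omega)) (S.mem _ (by omega)))
    rw [hgx, D, LinearEquiv.map_smul, H.smul_right, h1]
    module

omit H in
theorem v_mem (i : ℕ) (hi : i < l) : v (e i) ∈ E := by
  rw [S.v1 i hi]; exact E.add_mem (S.mem _ (by omega)) (S.mem _ (by omega))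

/-- the multiplication rule -/
theorem ruleX {γ β : F} {i j : ℕ} (hi : i < l) (hj : j < l) (hγ : Rm f G E e l γ) (hβ : Rm f G E e l β) :
    DI f E G (e i) ((γ * (σ β * f (e l) (v (e l)))) • e j) := by
  obtain ⟨g, hg, g1, g2⟩ := exists_g H S hj hβ
  set θ := f (e l) (v (e l)) with hθ
  have h1 : DI f E G (v (e i)) (γ • e l) := by
    rw [S.v1 i hi]
    exact DI.add_left H (hγ i l (by omega) le_rfl) (hγ (i + 1) l (by omega) le_rfl)
  have h2 : DI f E G (v (e i)) (γ • (e l - (σ β * θ) • v (e j))) :=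
    conj_DI H S hg (g1 i hi) (by rw [LinearEquiv.map_smul, g2]) (v_mem S i hi)
      (E.smul_mem _ (E.sub_mem (S.mem _ le_rfl) (E.smul_mem _ (v_mem S j hj)))) h1
  have h3 := DI.sub_right H h1 h2
  have h4 : DI f E G (v (e i)) ((γ * (σ β * θ)) • v (e j)) := by
    convert h3 using 1
    module
  exact conj_DI H S (G.inv_mem S.hv) (inv_apply v _) (by rw [LinearEquiv.map_smul, inv_apply]) (S.mem _ (by omega))
    (E.smul_mem _ (S.mem _ (by omega))) h4

/-- **all scalars** -/
theorem all_Rm (hl : 1 ≤ l) (h1 : Rm f G E e l 1) {θ : F} (hθ : f (e l) (v (e l)) = θ) (hne : θ ≠ σ θ)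
    (hT0 : θ + σ θ ≠ 0) (hT : ∀ r, σ r = r → r = 0 ∨ ∃ k : ℕ, r = (θ + σ θ) ^ k) :
    (∀ c, c + σ c = 0 → QI f E G (e 0) c) ∧ ∀ β, Rm f G E e l β := by
  have hsk : (θ - σ θ) + σ (θ - σ θ) = 0 := by rw [map_sub, H.inv]; ring
  have hτ0 : θ - σ θ ≠ 0 := sub_ne_zero.2 hne
  have hfT : σ (θ + σ θ) = θ + σ θ := by rw [map_add, H.inv, add_comm]
  have hC : ∀ c, c + σ c = 0 → QI f E G (e 0) c → QI f E G (e 0) (c * (θ + σ θ)) := by
    intro c hc h
    have k1 := ruleX H S (i := 0) (j := 0) (by omega) (by omega) (Rm_of_Q H S hl hc h) h1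
    rw [hθ, map_one, one_mul] at k1
    have k2 := DI.self H k1
    rw [map_mul] at k2
    have hc' : σ c = -c := by linear_combination hc
    rw [hc'] at k2
    convert k2 using 1
    ring
  have hpow : ∀ k : ℕ, QI f E G (e 0) ((θ - σ θ) * (θ + σ θ) ^ k) := by
    intro k
    induction k with
    | zero =>
      have k1 := ruleX H S (i := 0) (j := 0) (by omega) (by omega) h1 h1
      rw [hθ, map_one, one_mul, one_mul] at k1
      have k2 := DI.self H k1
      rwa [pow_zero, mul_one]
    | succ k ih =>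
      have := hC _ (by rw [map_mul, map_pow, hfT]; linear_combination (θ + σ θ) ^ k * hsk) ih
      rwa [pow_succ, ← mul_assoc]
  have hall : ∀ c, c + σ c = 0 → QI f E G (e 0) c := by
    intro c hc
    have hc' : σ c = -c := by linear_combination hc
    have hs' : σ (θ - σ θ) = -(θ - σ θ) := by linear_combination hsk
    have hr : σ (c / (θ - σ θ)) = c / (θ - σ θ) := by
      rw [map_div₀, hc', hs', neg_div_neg_eq]
    rcases hT _ hr with h0 | ⟨k, hk⟩
    · rw [div_eq_zero_iff] at h0
      rw [h0.resolve_right hτ0]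
      exact QI.zero H
    · have := hpow k
      rw [← hk, mul_div_cancel₀ _ hτ0] at this
      exact this
  refine ⟨hall, ?_⟩
  -- multiples of `θ`
  have hθr : ∀ r, σ r = r → Rm f G E e l (r * θ) := by
    intro r hr
    -- `r = - c c'`
    set c := θ - σ θ with hc
    set c' := -(r / c) with hc'
    have hs' : σ c = -c := by linear_combination hsk
    have h2 : c' + σ c' = 0 := by
      rw [hc', map_neg, map_div₀, hr, hs', div_neg]; ring
    have h3 : c * -c' = r := by
      rw [hc', neg_neg]; field_simp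
    have hσc' : σ c' = -c' := by linear_combination h2
    rcases Nat.lt_or_ge 1 l with hl2 | hl2
    · have k1 := ruleX H S (i := 0) (j := 1) (by omega) (by omega) (Rm_of_Q H S hl hsk (hall _ hsk))
        (Rm_of_Q H S hl h2 (hall _ h2))
      rw [hθ, hσc', ← mul_assoc, h3] at k1
      exact (full H S hl k1).1
    · obtain rfl : l = 1 := by omega
      obtain ⟨g, hg, g1, g2⟩ := exists_g H S (j := 0) (by omega) (Rm_of_Q H S hl h2 (hall _ h2))
      rw [hθ, hσc', S.v1 0 (by omega)] at g2
      set s := c' * θ with hs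
      have g3 : g (e 1) = s • e 0 + (1 + s) • e 1 := by
        rw [g2, hs]; module
      have m0 : e 0 ∈ E := S.mem 0 (by omega)
      have m1 : e 1 ∈ E := S.mem 1 (by omega)
      have k1 := conj_QI H S hg g3 (E.add_mem (E.smul_mem _ m0) (E.smul_mem _ m1)) (allQ H S (hall c hsk) 1 le_rfl)
      have hN : ∀ r : F, c * (r * σ r) + σ (c * (r * σ r)) = 0 := by
        intro r
        rw [map_mul, map_mul, H.inv]
        linear_combination (r * σ r) * hsk
      have k2 : QI f E G (s • e 0) c := QI.smul H (hall _ (hN s))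
      have k3 : QI f E G ((1 + s) • e 1) c := QI.smul H (allQ H S (hall _ (hN (1 + s))) 1 le_rfl)
      have k4 := QI.expand H hsk k1 k2 k3
      have k5 := DI.smul H k4
      rw [smul_smul, smul_smul] at k5
      have k6 := (full H S hl k5).1
      have k7 := Rm_of_Q H S hl (hN s) (hall _ (hN s))
      have k8 : Rm f G E e 1 (c * σ s) := by
        have := Rm.sub H k6 k7
        convert this using 1
        ring
      have k9 := Rm.conj H S hl k8
      have k10 : σ (c * σ s) = r * θ := by
        rw [map_mul, H.inv, hs, hs', ← h3]; ring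
      rwa [k10] at k9
  intro x
  -- `x = s + r θ`
  have hr : σ ((x + σ x) / (θ + σ θ)) = (x + σ x) / (θ + σ θ) := by
    rw [map_div₀, hfT, map_add, H.inv, add_comm (σ x)]
  have hsk2 : (x - (x + σ x) / (θ + σ θ) * θ) + σ (x - (x + σ x) / (θ + σ θ) * θ) = 0 := by
    rw [map_sub, map_mul, hr]
    field_simp
    ring
  have k1 := Rm_of_Q H S hl hsk2 (hall _ hsk2)
  have k2 := Rm.add H k1 (hθr _ hr)
  rwa [sub_add_cancel] at k2

/-- **centre of the unipotent radical** -/
theorem all_E (hl : 1 ≤ l) (hE : E = Submodule.span F (e '' {i | i ≤ l}))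
    (hQ : ∀ c, c + σ c = 0 → QI f E G (e 0) c) (hR : ∀ β, Rm f G E e l β) :
    (∀ x ∈ E, ∀ c, c + σ c = 0 → QI f E G x c) := by
  have k1 : ∀ z ∈ E, ∀ i ≤ l, ∀ β : F, DI f E G (e i) (β • z) := by
    intro z hz
    have hz' : z ∈ Submodule.span F (e '' {i | i ≤ l}) := by rw [← hE]; exact hz
    induction hz' using Submodule.span_induction with
    | mem z hz' =>
      obtain ⟨j, hj, rfl⟩ := hz'
      intro i hi β
      exact hR β i j hi hj
    | zero => intro i _ β; rw [smul_zero]; exact DI.zero H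
    | add x y hx hy ihx ihy =>
      intro i hi β
      rw [← hE] at hx hy
      rw [smul_add]
      exact DI.add_right H (ihx hx i hi β) (ihy hy i hi β)
    | smul c x hx ihx =>
      intro i hi β
      rw [← hE] at hx
      rw [smul_smul]
      exact ihx hx i hi _
  have k2 : ∀ x ∈ E, ∀ z ∈ E, DI f E G x z := by
    intro x hx
    have hx' : x ∈ Submodule.span F (e '' {i | i ≤ l}) := by rw [← hE]; exact hx
    induction hx' using Submodule.span_induction with
    | mem x hx' =>
      obtain ⟨j, hj, rfl⟩ := hx'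
      intro z hz
      have := k1 z hz j hj 1
      rwa [one_smul] at this
    | zero =>
      intro z hz
      have := DI.swap' H (DI.zero H (f := f) (E := E) (G := G) (x := z))
      rw [neg_zero] at this
      exact this
    | add x y hx1 hy1 ihx ihy =>
      intro z hz
      rw [← hE] at hx1 hy1
      exact DI.add_left H (ihx hx1 z hz) (ihy hy1 z hz)
    | smul c x hx1 ihx =>
      intro z hz
      rw [← hE] at hx1
      exact DI.smul' H (ihx hx1 _ (E.smul_mem _ hz))
  intro x hx
  have hx' : x ∈ Submodule.span F (e '' {i | i ≤ l}) := by rw [← hE]; exact hx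
  induction hx' using Submodule.span_induction with
  | mem x hx' =>
    obtain ⟨j, hj, rfl⟩ := hx'
    intro c hc
    exact allQ H S (hQ c hc) j hj
  | zero =>
    intro c hc
    have := QI.smul H (f := f) (E := E) (G := G) (x := e 0) (c := c) (r := 0) (by rw [zero_mul, mul_zero]; exact QI.zero H)
    rwa [zero_smul] at this
  | add x y hx1 hy1 ihx ihy =>
    intro c hc
    rw [← hE] at hx1 hy1
    exact QI.combine H hc (k2 x hx1 _ (E.smul_mem _ hy1)) (ihx hx1 c hc) (ihy hy1 c hc)
  | smul r x hx1 ihx =>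
    intro c hc
    rw [← hE] at hx1
    exact QI.smul H (ihx hx1 _ (by rw [map_mul, map_mul, H.inv]; linear_combination (r * σ r) * hc))

end sys

end Cfsg.Agent.Lib.RegSU
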