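import Cfsg.Agent.Lib.RegSU2

/-! Generation of `SU(n,q)` by conjugate regular unipotent elements: hermitian geometry. A set of isotropic
vectors closed under the full transvection groups of its members, spanning the space and containing a maximal
totally isotropic subspace of dimension at least two, contains all isotropic vectors. -/

set_option autoImplicit false
set_option linter.unusedSectionVars false

namespace Cfsg.Agent.Lib.RegSU

open Cfsg.Agent.Lib.SpTrans (isom mem_isom)
open Cfsg.Agent.Lib.UnTrans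

variable {F V : Type*} [Field F] [AddCommGroup V] [Module F V] {σ : F →+* F} {f : V → V → F}

/-- closed sets of isotropic vectors -/
structure Geo (σ : F →+* F) (f : V → V → F) (E : Submodule F V) (X : Set V) : Prop where
  tot : Tot f E
  max : ∀ x, f x x = 0 → (∀ y ∈ E, f x y = 0) → x ∈ E
  iso : ∀ x ∈ X, f x x = 0
  smul : ∀ x ∈ X, ∀ c : F, c • x ∈ X
  move : ∀ x ∈ X, ∀ y ∈ X, ∀ c, c + σ c = 0 → x + (c * f x y) • y ∈ X
  sub : ∀ x ∈ E, x ∈ X

section geo

variable {E : Submodule F V} {X : Set V} (H : HS σ f) (S : Geo σ f E X)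

include H S

theorem expand_add {x y : V} (hx : f x x = 0) (hy : f y y = 0) : f (x + y) (x + y) = f x y + f y x := by
  rw [H.add_left, H.add_right, H.add_right, hx, hy]; ring

theorem add_E1 {y e : V} (hy : y ∈ X) (he : e ∈ E) (h0 : f e y ≠ 0) (h1 : f (y + e) (y + e) = 0) : y + e ∈ X := by
  rw [expand_add H S (S.iso y hy) (S.tot.tot e he e he)] at h1
  have h2 : f y e = σ (f e y) := H.herm y e
  have hs : σ (f e y) ≠ 0 := H.sigma_ne h0
  have h3 := S.move y hy e (S.sub e he) (σ (f e y))⁻¹ (by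
    rw [map_inv₀, H.inv]
    have h4 : σ (f e y) = - f e y := by rw [← h2]; linear_combination h1
    rw [h4, inv_neg]; ring)
  rw [h2, inv_mul_cancel₀ hs, one_smul] at h3
  exact h3

theorem add_E {y e : V} (hy : y ∈ X) (he : e ∈ E) (h1 : f (y + e) (y + e) = 0) : y + e ∈ X := by
  by_cases h0 : f e y = 0
  · by_cases hyE : y ∈ E
    · exact S.sub _ (E.add_mem hyE he)
    · obtain ⟨z, hz, hyz⟩ : ∃ z ∈ E, f y z ≠ 0 := by
        by_contra hcon
        push Not at hcon
        exact hyE (S.max y (S.iso y hy) hcon)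
      have hzy : f z y ≠ 0 := H.symm_ne hyz
      obtain ⟨τ, hτ0, hτ⟩ := H.exists_tr0
      set z' := (τ / f z y) • z with hz'
      have hz'E : z' ∈ E := E.smul_mem _ hz
      have e1 : f z' y = τ := by rw [hz', H.smul_left]; field_simp
      have e2 : f y z' = σ τ := by rw [H.herm, e1]
      have e0 : f y e = 0 := by rw [H.herm, h0, map_zero]
      have k1 : y + (e + z') ∈ X := by
        apply add_E1 H S hy (E.add_mem he hz'E)
        · rw [H.add_left, h0, zero_add, e1]; exact hτ0
        · rw [expand_add H S (S.iso y hy) (S.tot.tot _ (E.add_mem he hz'E) _ (E.add_mem he hz'E)), H.add_right, H.add_left,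
            h0, e0, e1, e2]
          linear_combination hτ
      have k2 : y + (e + z') + -z' ∈ X := by
        apply add_E1 H S k1 (E.neg_mem hz'E)
        · rw [H.neg_left, H.add_right, e1, S.tot.tot _ hz'E _ (E.add_mem he hz'E), add_zero]
          exact neg_ne_zero.2 hτ0
        · rw [show y + (e + z') + -z' = y + e by abel]
          exact h1
      rwa [show y + (e + z') + -z' = y + e by abel] at k2
  · exact add_E1 H S hy he h0 h1

/-- combining two vectors of `X` -/
theorem comb {x x' e w : V} (hx : x ∈ X) (hx' : x' ∈ X) (he : e ∈ E) (h0 : f e x' = 0) (h1 : f e x ≠ 0)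
    (hw : f w w = 0) (hwE : w - (x + x') ∈ E) : w ∈ X := by
  obtain ⟨τ, hτ0, hτ⟩ := H.exists_tr0
  have h2 : f x e ≠ 0 := H.symm_ne h1
  -- `x' + λ e`
  obtain ⟨r, hr⟩ : ∃ r : F, σ r * f x e = τ⁻¹ - f x x' := by
    refine ⟨σ ((τ⁻¹ - f x x') / f x e), ?_⟩
    rw [H.inv]; field_simp
  have k0 : f x' e = 0 := by rw [H.herm, h0, map_zero]
  have k1 : x' + r • e ∈ X := by
    apply add_E H S hx' (E.smul_mem _ he)
    rw [expand_add H S (S.iso _ hx') (S.tot.tot _ (E.smul_mem _ he) _ (E.smul_mem _ he)), H.smul_left, H.smul_right, h0, k0]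
    ring
  have k2 := S.move x hx _ k1 τ hτ
  have k3 : τ * f x (x' + r • e) = 1 := by
    rw [H.add_right, H.smul_right, hr]
    field_simp
    ring
  rw [k3, one_smul] at k2
  have k4 := add_E H S k2 (e := w - (x + x') - r • e) (E.sub_mem hwE (E.smul_mem _ he)) (by
    rw [show x + (x' + r • e) + (w - (x + x') - r • e) = w by abel]; exact hw)
  rwa [show x + (x' + r • e) + (w - (x + x') - r • e) = w by abel] at k4

omit H S in
/-- all isotropic vectors of `z + E` are in `X` -/
def Wi (f : V → V → F) (E : Submodule F V) (X : Set V) (z : V) : Prop := ∀ w, f w w = 0 → w - z ∈ E → w ∈ X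

theorem Wi_of_mem {x : V} (hx : x ∈ X) : Wi f E X x := by
  intro w hw h
  have := add_E H S hx h (by rw [add_sub_cancel]; exact hw)
  rwa [add_sub_cancel] at this

theorem Wi_perp {z : V} (hz : ∀ y ∈ E, f z y = 0) : Wi f E X z := by
  intro w hw h
  apply S.sub
  apply S.max w hw
  intro y hy
  have : w = z + (w - z) := by abel
  rw [this, H.add_left, hz y hy, S.tot.tot _ h _ hy, add_zero]

theorem Wi_smul {z : V} (h : Wi f E X z) {c : F} (hc : c ≠ 0) : Wi f E X (c • z) := by
  intro w hw hwz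
  have k1 : c⁻¹ • w ∈ X := by
    apply h
    · rw [H.smul_left, H.smul_right, hw]; ring
    · have := E.smul_mem c⁻¹ hwz
      rwa [smul_sub, smul_smul, inv_mul_cancel₀ hc, one_smul] at this
  have := S.smul _ k1 c
  rwa [smul_smul, mul_inv_cancel₀ hc, one_smul] at this

omit H S in
theorem Wi_add_E {z e : V} (h : Wi f E X z) (he : e ∈ E) : Wi f E X (z + e) := by
  intro w hw hwz
  apply h w hw
  have := E.add_mem hwz he
  rwa [show w - (z + e) + e = w - z by abel] at this

theorem Wi_add {z z' e : V} (h : Wi f E X z) (h' : Wi f E X z') (he : e ∈ E) (h0 : f e z' = 0) (h1 : f e z ≠ 0)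
    (h2 : ∃ e' ∈ E, f e' z' ≠ 0) : Wi f E X (z + z') := by
  obtain ⟨e', he', h2⟩ := h2
  obtain ⟨a, ha⟩ := H.exists_add_norm (u := z) (S.tot.tot e he e he) h1 (map_zero σ)
  obtain ⟨a', ha'⟩ := H.exists_add_norm (u := z') (S.tot.tot e' he' e' he') h2 (map_zero σ)
  have k1 : z + a • e ∈ X := h _ ha (by rw [add_sub_cancel_left]; exact E.smul_mem _ he)
  have k2 : z' + a' • e' ∈ X := h' _ ha' (by rw [add_sub_cancel_left]; exact E.smul_mem _ he')
  intro w hw hwz
  apply comb H S k1 k2 he
  · rw [H.add_right, h0, S.tot.tot _ he _ (E.smul_mem _ he'), add_zero]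
  · rw [H.add_right, S.tot.tot _ he _ (E.smul_mem _ he), add_zero]; exact h1
  · exact hw
  · have := E.sub_mem (E.sub_mem hwz (E.smul_mem a he)) (E.smul_mem a' he')
    convert this using 1
    abel

omit H S in
/-- independence of the functionals on `E` -/
def Ind (f : V → V → F) (E : Submodule F V) (z z' : V) : Prop := ∃ e ∈ E, f e z' = 0 ∧ f e z ≠ 0

omit S in
theorem not_ind {z z' : V} (h : ¬ Ind f E z z') : ∃ c : F, ∀ e ∈ E, f e z = c * f e z' := by
  unfold Ind at h
  push Not at h
  by_cases h0 : ∀ e ∈ E, f e z' = 0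
  · exact ⟨0, fun e he => by rw [h e he (h0 e he), zero_mul]⟩
  · push Not at h0
    obtain ⟨e0, he0, h0⟩ := h0
    refine ⟨f e0 z / f e0 z', fun e he => ?_⟩
    have h1 := h (e - (f e z' / f e0 z') • e0) (E.sub_mem he (E.smul_mem _ he0)) (by
      rw [H.sub_left, H.smul_left]; field_simp; ring)
    rw [H.sub_left, H.smul_left] at h1
    linear_combination h1

/-- the closure property -/
structure Good (f : V → V → F) (E : Submodule F V) (X : Set V) (M : Submodule F V) : Prop where
  le : E ≤ M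
  wi : ∀ z ∈ M, Wi f E X z
  rk : ∃ z₁ ∈ M, ∃ z₂ ∈ M, Ind f E z₁ z₂ ∧ ∃ e ∈ E, f e z₂ ≠ 0

theorem Good.step {M : Submodule F V} (h : Good f E X M) {x : V} (hx : x ∈ X) :
    Good f E X (M ⊔ Submodule.span F {x}) := by
  by_cases hxE : ∀ y ∈ E, f x y = 0
  · have h1 : x ∈ M := h.le (S.max x (S.iso x hx) hxE)
    have h2 : M ⊔ Submodule.span F {x} = M := by
      rw [sup_eq_left, Submodule.span_singleton_le_iff_mem]; exact h1
    rw [h2]; exact h
  have hx0 : ∃ e' ∈ E, f e' x ≠ 0 := by
    push Not at hxE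
    obtain ⟨y, hy, hxy⟩ := hxE
    exact ⟨y, hy, H.symm_ne hxy⟩
  have key : ∀ z ∈ M, Wi f E X (z + x) := by
    intro z hz
    by_cases hi : Ind f E z x
    · obtain ⟨e, he, h0, h1⟩ := hi
      exact Wi_add H S (h.wi z hz) (Wi_of_mem H S hx) he h0 h1 hx0
    obtain ⟨c, hc⟩ := not_ind H hi
    by_cases hc1 : c + 1 = 0
    · apply Wi_perp H S
      intro y hy
      rw [H.herm, H.add_right, hc y hy]
      have : c * f y x + f y x = 0 := by linear_combination (f y x) * hc1
      rw [this, map_zero]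
    · -- an auxiliary element
      obtain ⟨z₁, hz₁, hi1⟩ : ∃ z₁ ∈ M, Ind f E z₁ x := by
        by_contra hcon
        push Not at hcon
        obtain ⟨z₁, hz₁, z₂, hz₂, ⟨e, he, h0, h1⟩, e2, he2, h2⟩ := h.rk
        obtain ⟨c1, hc1⟩ := not_ind H (hcon z₁ hz₁)
        obtain ⟨c2, hc2⟩ := not_ind H (hcon z₂ hz₂)
        have hc20 : c2 ≠ 0 := by
          rintro rfl
          rw [hc2 e2 he2, zero_mul] at h2
          exact h2 rfl
        rw [hc2 e he] at h0
        apply h1
        rw [hc1 e he, (mul_eq_zero.1 h0).resolve_left hc20, mul_zero]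
      obtain ⟨e1, he1, k0, k1⟩ := hi1
      have hi2 : Ind f E x z₁ := by
        by_contra hcon
        obtain ⟨c2, hc2⟩ := not_ind H hcon
        rw [hc2 e1 he1] at k0
        obtain ⟨e', he', hx0⟩ := hx0
        apply hx0
        rw [hc2 e' he', (mul_eq_zero.1 k0).resolve_right k1, zero_mul]
      obtain ⟨e2, he2, k2, k3⟩ := hi2
      have w1 : Wi f E X ((z - z₁) + x) := by
        apply Wi_add H S (h.wi _ (M.sub_mem hz hz₁)) (Wi_of_mem H S hx) he1 k0 _ hx0
        rw [H.sub_right, hc e1 he1, k0, mul_zero, zero_sub]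
        exact neg_ne_zero.2 k1
      have w2 : Wi f E X (((z - z₁) + x) + z₁) := by
        apply Wi_add H S w1 (h.wi _ hz₁) he2 k2 _ ⟨e1, he1, k1⟩
        rw [H.add_right, H.sub_right, hc e2 he2, k2]
        have : c * f e2 x - 0 + f e2 x = (c + 1) * f e2 x := by ring
        rw [this]
        exact mul_ne_zero hc1 k3
      rwa [show ((z - z₁) + x) + z₁ = z + x by abel] at w2
  refine ⟨h.le.trans le_sup_left, ?_, ?_⟩
  · intro w hw
    obtain ⟨z, hz, y, hy, rfl⟩ := Submodule.mem_sup.1 hw
    obtain ⟨c, rfl⟩ := Submodule.mem_span_singleton.1 hy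
    by_cases hc : c = 0
    · rw [hc, zero_smul, add_zero]; exact h.wi z hz
    · have := Wi_smul H S (key (c⁻¹ • z) (M.smul_mem _ hz)) hc
      rwa [smul_add, smul_smul, mul_inv_cancel₀ hc, one_smul] at this
  · obtain ⟨z₁, hz₁, z₂, hz₂, h1, h2⟩ := h.rk
    exact ⟨z₁, Submodule.mem_sup_left hz₁, z₂, Submodule.mem_sup_left hz₂, h1, h2⟩

theorem Good.base {x₁ x₂ : V} (h1 : x₁ ∈ X) (h2 : x₂ ∈ X) (hi : Ind f E x₁ x₂) (h0 : ∃ e ∈ E, f e x₂ ≠ 0) :
    Good f E X (E ⊔ Submodule.span F {x₁, x₂}) := by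
  refine ⟨le_sup_left, ?_, x₁, Submodule.mem_sup_right (Submodule.subset_span (by simp)), x₂,
    Submodule.mem_sup_right (Submodule.subset_span (by simp)), hi, h0⟩
  intro w hw
  obtain ⟨e, he, y, hy, rfl⟩ := Submodule.mem_sup.1 hw
  obtain ⟨a, b, rfl⟩ := Submodule.mem_span_pair.1 hy
  rw [add_comm]
  apply Wi_add_E _ he
  by_cases ha : a = 0
  · by_cases hb : b = 0
    · rw [ha, hb, zero_smul, zero_smul, zero_add]
      exact Wi_perp H S (fun y _ => H.zero_left y)
    · rw [ha, zero_smul, zero_add]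
      exact Wi_smul H S (Wi_of_mem H S h2) hb
  · by_cases hb : b = 0
    · rw [hb, zero_smul, add_zero]
      exact Wi_smul H S (Wi_of_mem H S h1) ha
    · obtain ⟨e', he', k0, k1⟩ := hi
      obtain ⟨e2, he2, k2⟩ := h0
      apply Wi_add H S (Wi_smul H S (Wi_of_mem H S h1) ha) (Wi_smul H S (Wi_of_mem H S h2) hb) he'
      · rw [H.smul_right, k0, mul_zero]
      · rw [H.smul_right]
        exact mul_ne_zero (H.sigma_ne ha) k1
      · exact ⟨e2, he2, by rw [H.smul_right]; exact mul_ne_zero (H.sigma_ne hb) k2⟩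

/-- **main geometric lemma** -/
theorem geo_all [FiniteDimensional F V] (hnd : Nd f (⊤ : Submodule F V)) (h2 : 2 ≤ Module.finrank F E)
    (hspan : Submodule.span F X = ⊤) {x : V} (hx : f x x = 0) : x ∈ X := by
  -- two independent vectors
  have hEne : ∃ e ∈ E, e ≠ 0 := by
    have : E ≠ ⊥ := by rintro rfl; rw [finrank_bot] at h2; omega
    exact E.exists_mem_ne_zero_of_ne_bot this
  have hperp : ∀ e, (∀ y ∈ X, f e y = 0) → e = 0 := by
    intro e he
    by_contra hne
    obtain ⟨y, -, hy⟩ := hnd e Submodule.mem_top hne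
    apply hy
    have hyX : y ∈ Submodule.span F X := by rw [hspan]; exact Submodule.mem_top
    induction hyX using Submodule.span_induction with
    | mem y hy' => exact he y hy'
    | zero => exact H.zero_right _
    | add y z _ _ ih1 ih2 =>
      by_contra h3
      rw [H.add_right] at h3
      by_cases h4 : f e y = 0
      · by_cases h5 : f e z = 0
        · rw [h4, h5, add_zero] at h3; exact h3 rfl
        · exact h5 (ih2 h5)
      · exact h4 (ih1 h4)
    | smul c y _ ih =>
      by_contra h3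
      rw [H.smul_right] at h3
      by_cases h4 : f e y = 0
      · rw [h4, mul_zero] at h3; exact h3 rfl
      · exact h4 (ih h4)
  obtain ⟨x₂, hx₂, e₂, he₂, h20⟩ : ∃ x₂ ∈ X, ∃ e ∈ E, f e x₂ ≠ 0 := by
    by_contra hcon
    push Not at hcon
    obtain ⟨e, he, he0⟩ := hEne
    exact he0 (hperp e fun y hy => hcon y hy e he)
  obtain ⟨x₁, hx₁, hi⟩ : ∃ x₁ ∈ X, Ind f E x₁ x₂ := by
    by_contra hcon
    push Not at hcon
    -- the kernel of `f · x₂` on `E`
    have h3 := HS.finrank_inf_ker E (H.fl x₂)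
    have h4 : E ⊓ LinearMap.ker (H.fl x₂) = ⊥ := by
      rw [eq_bot_iff]
      intro e he
      rw [Submodule.mem_bot]
      apply hperp
      intro y hy
      obtain ⟨c, hc⟩ := not_ind H (hcon y hy)
      rw [hc e he.1]
      have : f e x₂ = 0 := he.2
      rw [this, mul_zero]
    rw [h4, finrank_bot] at h3
    omega
  have hbase := Good.base H S hx₁ hx₂ hi ⟨e₂, he₂, h20⟩
  obtain ⟨M, hM, hmax⟩ := set_has_maximal_iff_noetherian.2 (inferInstance : IsNoetherian F V)
    {M : Submodule F V | Good f E X M} ⟨_, hbase⟩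
  have hXM : X ⊆ M := by
    intro y hy
    have h3 := hmax _ (Good.step H S hM hy)
    by_contra hyM
    apply h3
    refine lt_of_le_of_ne le_sup_left fun h4 => hyM ?_
    rw [h4]
    exact Submodule.mem_sup_right (Submodule.mem_span_singleton_self y)
  have hMtop : M = ⊤ := by
    rw [eq_top_iff, ← hspan, Submodule.span_le]
    exact hXM
  have h5 : Wi f E X x := hM.wi x (by rw [hMtop]; exact Submodule.mem_top)
  exact h5 x hx (by rw [sub_self]; exact E.zero_mem)

end geo

end Cfsg.Agent.Lib.RegSU
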