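import Cfsg.Agent.Lib.RegSU3

/-! Generation of `SU(n,q)` by conjugate regular unipotent elements: the abstract theorem. -/

set_option autoImplicit false
set_option linter.unusedSectionVars false

namespace Cfsg.Agent.Lib.RegSU

open Cfsg.Agent.Lib.SpTrans (isom mem_isom)
open Cfsg.Agent.Lib.UnTrans

variable {F V : Type*} [Field F] [AddCommGroup V] [Module F V] {σ : F →+* F} {f : V → V → F}

theorem nilp_pow {W : Type*} [AddCommGroup W] [Module F W] [FiniteDimensional F W] {N : Module.End F W}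
    (h : IsNilpotent N) : N ^ Module.finrank F W = 0 := by
  have h1 := IsNilpotent.charpoly_eq_X_pow_finrank h
  have h2 := LinearMap.aeval_self_charpoly N
  rw [h1, map_pow, Polynomial.aeval_X] at h2
  exact h2

theorem cyc [FiniteDimensional F V] {N : Module.End F V} (hN : IsNilpotent N) {k : ℕ}
    (hk : Module.finrank F V = k + 1) {x : V} (hx : (N ^ k) x ≠ 0) (S : Submodule F V) (hxS : x ∈ S)
    (hS : ∀ y ∈ S, N y ∈ S) : S = ⊤ := by
  by_contra hne
  have h1 : Module.finrank F S < k + 1 := by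
    rw [← hk]
    exact Submodule.finrank_lt hne
  have hpow : ∀ (j : ℕ) (y : S), (((N.restrict hS) ^ j) y : V) = (N ^ j) y := by
    intro j
    induction j with
    | zero => intro y; rfl
    | succ j ih =>
      intro y
      rw [pow_succ, pow_succ, Module.End.mul_apply, Module.End.mul_apply, ih]
      rfl
  have h2 : IsNilpotent (N.restrict hS) := by
    obtain ⟨j, hj⟩ := hN
    refine ⟨j, LinearMap.ext fun y => Subtype.ext ?_⟩
    rw [hpow, hj]
    rfl
  have h3 := nilp_pow h2
  have h4 := hpow (Module.finrank F S) ⟨x, hxS⟩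
  rw [h3] at h4
  apply hx
  have h5 : k = (k - Module.finrank F S) + Module.finrank F S := by omega
  rw [h5, pow_add, Module.End.mul_apply, ← h4]
  simp

section final

variable {G : Subgroup (V ≃ₗ[F] V)} {E : Submodule F V} {e : ℕ → V} {l : ℕ} {u v : V ≃ₗ[F] V}
variable (H : HS σ f) (S : Sys f G E e l u v)

/-- the centres of full transvection groups -/
def Cn (σ : F →+* F) (f : V → V → F) (G : Subgroup (V ≃ₗ[F] V)) : Set V :=
  {x | f x x = 0 ∧ ∀ c, c + σ c = 0 → In G (Q f x c)}

include H in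
theorem Cn_smul {x : V} (hx : x ∈ Cn σ f G) (r : F) : r • x ∈ Cn σ f G := by
  refine ⟨by rw [H.smul_left, H.smul_right, hx.1]; ring, fun c hc => ?_⟩
  have h1 := hx.2 (c * (r * σ r)) (by rw [map_mul, map_mul, H.inv]; linear_combination (r * σ r) * hc)
  refine h1.congr fun v => ?_
  simp only [Q, H.smul_right]
  module

include H in
theorem Cn_apply (hG : G ≤ isom f) {g : V ≃ₗ[F] V} (hg : g ∈ G) {x : V} (hx : x ∈ Cn σ f G) : g x ∈ Cn σ f G :=
  ⟨by rw [hG hg]; exact hx.1, fun c hc => In.conjQ hg (hG hg) (hx.2 c hc)⟩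

include H in
theorem Cn_move (hG : G ≤ isom f) {x y : V} (hx : x ∈ Cn σ f G) (hy : y ∈ Cn σ f G) {c : F} (hc : c + σ c = 0) :
    x + (c * f x y) • y ∈ Cn σ f G := by
  obtain ⟨g, hg, hgx⟩ := hy.2 c hc
  have := Cn_apply H hG hg hx
  rw [hgx] at this
  exact this

/-- **the abstract generation theorem** -/
theorem su_of_sys [FiniteDimensional F V] (H : HS σ f) (S : Sys f G E e l u v) (hl : 1 ≤ l)
    (hE : E = Submodule.span F (e '' {i | i ≤ l}))
    {θ : F} (hθ : f (e l) (v (e l)) = θ) (hne : θ ≠ σ θ) (hT0 : θ + σ θ ≠ 0)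
    (hT : ∀ r, σ r = r → r = 0 ∨ ∃ k : ℕ, r = (θ + σ θ) ^ k)
    (hin : In G (D f (e 0) (e l)))
    (hmax : ∀ x, f x x = 0 → (∀ y ∈ E, f x y = 0) → x ∈ E)
    (hnd : Nd f (⊤ : Submodule F V)) (h2 : 2 ≤ Module.finrank F E) (h4 : 4 ≤ Module.finrank F V)
    {k : ℕ} (hk : Module.finrank F V = k + 1)
    (hnil : IsNilpotent ((v : V →ₗ[F] V) - 1 : Module.End F V)) (hcyc : (((v : V →ₗ[F] V) - 1 : Module.End F V) ^ k) (e 0) ≠ 0)
    {g : V ≃ₗ[F] V} (hg : g ∈ isom f) (hdet : LinearMap.det ((g : V ≃ₗ[F] V) : V →ₗ[F] V) = 1) : g ∈ G := by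
  have m0 := S.mem 0 (by omega)
  have ml := S.mem l le_rfl
  have k1 : DI f E G (e 0) ((1 : F) • e l) := by
    rw [one_smul]
    exact Z.ofD H S.tot m0 ml hin
  have k2 : DI f E G (e 0) ((1 : F) • e 1) := by
    have := row H S k1 (l - 1) (by omega)
    rwa [show l - (l - 1) = 1 by omega] at this
  obtain ⟨hQ, hR⟩ := all_Rm H S hl (full H S hl k2).1 hθ hne hT0 hT
  have hall := all_E H S hl hE hQ hR
  have hEX : ∀ x ∈ E, x ∈ Cn σ f G := fun x hx => ⟨S.tot.tot x hx x hx, fun c hc => (hall x hx c hc).2.2⟩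
  have hgeo : Geo σ f E (Cn σ f G) :=
    { tot := S.tot
      max := hmax
      iso := fun x hx => hx.1
      smul := fun x hx c => Cn_smul H hx c
      move := fun x hx y hy c hc => Cn_move H S.le hx hy hc
      sub := hEX }
  have hspan : Submodule.span F (Cn σ f G) = ⊤ := by
    apply cyc hnil hk hcyc _ (Submodule.subset_span (hEX _ m0))
    intro y hy
    have h5 : v y ∈ Submodule.span F (Cn σ f G) := by
      induction hy using Submodule.span_induction with
      | mem y hy => exact Submodule.subset_span (Cn_apply H S.le S.hv hy)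
      | zero => rw [map_zero]; exact Submodule.zero_mem _
      | add y z _ _ ih1 ih2 => rw [map_add]; exact Submodule.add_mem _ ih1 ih2
      | smul c y _ ih => rw [LinearEquiv.map_smul]; exact Submodule.smul_mem _ _ ih
    exact Submodule.sub_mem _ h5 hy
  have hX : ∀ x, f x x = 0 → x ∈ Cn σ f G := fun x hx => geo_all H hgeo hnd h2 hspan hx
  have h6 : tgrp H (⊤ : Submodule F V) ≤ G := by
    rw [tgrp, Subgroup.closure_le]
    rintro t ⟨w, -, hw, a, ha, rfl⟩
    obtain ⟨g, hg, e⟩ := (hX w hw).2 a ha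
    have : tv H w hw a ha = g := by
      ext x
      rw [tv_apply, e, Q]
    rw [this]
    exact hg
  exact h6 (su_le H hnd h4 hg hdet)

end final

end Cfsg.Agent.Lib.RegSU
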