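import Cfsg.Agent.Lib.RegSp5

/-! Generation of `Sp(2n,F)` by conjugate regular unipotent elements: main theorem. -/

set_option autoImplicit false
set_option linter.unusedSectionVars false

namespace Cfsg.Agent.Lib.RegSp

open Matrix RootCalcSL Cfsg.Agent.Lib.SympMat

variable {F : Type*} [Field F] {n : ℕ}

section unip

theorem levi_mem : (fromBlocks (A n F) 0 0 (A' n F) : Mt2 n F) ∈ Matrix.symplecticGroup (Fin n) F :=
  fromBlocks_mem A_mul

theorem um_mem (a : F) : um n a ∈ Matrix.symplecticGroup (Fin n) F := by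
  have h1 := (Matrix.symplecticGroup (Fin n) F).mul_mem (levi_mem (n := n) (F := F))
    (Um_mem (S := a • sq (el n F)) (by rw [Matrix.transpose_smul, sq_transpose]))
  have h2 : fromBlocks (A n F) 0 0 (A' n F) * Um (a • sq (el n F)) = um n a := by
    unfold Um um
    rw [Matrix.fromBlocks_multiply]
    simp
  rwa [h2] at h1

/-- the regular unipotent element -/
noncomputable def uu (n : ℕ) (a : F) : Sp n F := ⟨um n a, um_mem a⟩

theorem coe_uu (a : F) : ((uu n a : Sp n F) : Mt2 n F) = um n a := rfl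

theorem A_sub_one : A n F - 1 = -((A' n F - 1)ᵀ * A n F) := by
  rw [Matrix.transpose_sub, Matrix.transpose_one, Matrix.sub_mul, mul_A, Matrix.one_mul]
  abel

theorem A_sub_one' : A n F - 1 = -(A n F * (A' n F - 1)ᵀ) := by
  rw [Matrix.transpose_sub, Matrix.transpose_one, Matrix.mul_sub, A_mul, Matrix.mul_one]
  abel

theorem A_comm : Commute ((A' n F - 1)ᵀ) (A n F) := by
  have := A_sub_one (n := n) (F := F)
  rw [A_sub_one'] at this
  exact (neg_injective this).symm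

theorem isNilpotent_A : IsNilpotent (A n F - 1) := by
  rw [A_sub_one]
  apply IsNilpotent.neg
  apply A_comm.isNilpotent_mul_right
  obtain ⟨k, hk⟩ := isNilpotent_jm (F := F) (N := n)
  exact ⟨k, by rw [← Matrix.transpose_pow, hk, Matrix.transpose_zero]⟩

theorem blocks_pow (P Q R : Mt n F) (k : ℕ) :
    ∃ Q', (fromBlocks P Q 0 R : Mt2 n F) ^ k = fromBlocks (P ^ k) Q' 0 (R ^ k) := by
  induction k with
  | zero => exact ⟨0, by rw [pow_zero, pow_zero, pow_zero, Matrix.fromBlocks_one]⟩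
  | succ k ih =>
    obtain ⟨Q', hQ⟩ := ih
    refine ⟨P ^ k * Q + Q' * R, ?_⟩
    rw [pow_succ, hQ, Matrix.fromBlocks_multiply, pow_succ, pow_succ]
    simp

theorem um_sub_one (a : F) : um n a - 1 = fromBlocks (A n F - 1) (A n F * (a • sq (el n F))) 0 (A' n F - 1) := by
  unfold um
  rw [← Matrix.fromBlocks_one, sub_eq_add_neg, Matrix.fromBlocks_neg, Matrix.fromBlocks_add]
  congr 1
  · abel
  · simp
  · simp
  · abel

theorem um_nilpotent (a : F) : IsNilpotent (um n a - 1) := by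
  rw [um_sub_one]
  obtain ⟨k, hk⟩ := isNilpotent_A (n := n) (F := F)
  obtain ⟨l, hl⟩ := isNilpotent_jm (F := F) (N := n)
  obtain ⟨Q', hQ⟩ := blocks_pow (A n F - 1) (A n F * (a • sq (el n F))) (A' n F - 1) (k + l)
  refine ⟨(k + l) * 2, ?_⟩
  rw [pow_mul, hQ, pow_add, pow_add (A' n F - 1), hk, hl, zero_mul, mul_zero, pow_two, Matrix.fromBlocks_multiply]
  simp

theorem vecMul_low (k : ℕ) (hk : k + 1 < n) (X : Mt n F) :
    e F n k ᵥ* ((A' n F - 1)ᵀ * X) = e F n (k + 1) ᵥ* X := by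
  rw [← Matrix.vecMul_vecMul, Matrix.vecMul_transpose, sub_one_mulVec]

theorem row_pow (j : ℕ) (hj : j < n) : e F n 0 ᵥ* (A n F - 1) ^ j = ((-1 : F) ^ j) • (e F n j ᵥ* (A n F) ^ j) := by
  induction j with
  | zero => rw [pow_zero, pow_zero, pow_zero, one_smul, Matrix.vecMul_one]
  | succ j ih =>
    rw [pow_succ, ← Matrix.vecMul_vecMul, ih (by omega), Matrix.smul_vecMul, Matrix.vecMul_vecMul, A_sub_one,
      Matrix.mul_neg, ← Matrix.mul_assoc, ((A_comm (n := n) (F := F)).pow_right j).symm.eq, Matrix.mul_assoc,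
      ← pow_succ, Matrix.vecMul_neg, vecMul_low j hj, pow_succ]
    module

theorem last_vecMul (hn : 1 ≤ n) (X : Mt n F) : el n F ᵥ* (A n F * X) = el n F ᵥ* X := by
  have h1 : el n F ᵥ* (A' n F)ᵀ = el n F := by
    rw [Matrix.vecMul_transpose, A'_last hn]
  conv_lhs => rw [← h1]
  rw [Matrix.vecMul_vecMul, ← Matrix.mul_assoc, mul_A, Matrix.one_mul]

theorem last_pow (hn : 1 ≤ n) (j : ℕ) (X : Mt n F) : el n F ᵥ* ((A n F) ^ j * X) = el n F ᵥ* X := by
  induction j with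
  | zero => rw [pow_zero, Matrix.one_mul]
  | succ j ih => rw [pow_succ', Matrix.mul_assoc, last_vecMul hn, ih]

theorem um_low (a : F) (j : ℕ) (hj : j < n) :
    (um n a - 1) ^ j *ᵥ (Sum.elim (0 : Fin n → F) (e F n 0)) = Sum.elim (0 : Fin n → F) (e F n j) := by
  induction j with
  | zero => rw [pow_zero, Matrix.one_mulVec]
  | succ j ih =>
    rw [pow_succ', ← Matrix.mulVec_mulVec, ih (by omega), um_sub_one, Matrix.fromBlocks_mulVec]
    simp only [Sum.elim_comp_inl, Sum.elim_comp_inr, Matrix.mulVec_zero, zero_add]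
    rw [sub_one_mulVec]
    congr 1
    rw [← Matrix.mulVec_mulVec, Matrix.smul_mulVec, sq, Matrix.vecMulVec_mulVec,
      show el n F ⬝ᵥ e F n j = 0 from e_dot_ne (by omega)]
    simp

theorem um_high (a : F) (j : ℕ) (x : Fin n → F) :
    (um n a - 1) ^ j *ᵥ (Sum.elim x (0 : Fin n → F)) = Sum.elim ((A n F - 1) ^ j *ᵥ x) (0 : Fin n → F) := by
  induction j with
  | zero => rw [pow_zero, pow_zero, Matrix.one_mulVec, Matrix.one_mulVec]
  | succ j ih =>
    rw [pow_succ', ← Matrix.mulVec_mulVec, ih, um_sub_one, Matrix.fromBlocks_mulVec]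
    simp only [Sum.elim_comp_inl, Sum.elim_comp_inr, Matrix.mulVec_zero, add_zero, Matrix.zero_mulVec]
    rw [Matrix.mulVec_mulVec, ← pow_succ']

theorem um_regular (hn : 1 ≤ n) {a : F} (ha : a ≠ 0) : (um n a - 1) ^ (2 * n - 1) ≠ 0 := by
  intro h
  have h1 : (um n a - 1) ^ (2 * n - 1) *ᵥ (Sum.elim (0 : Fin n → F) (e F n 0)) = 0 := by rw [h, Matrix.zero_mulVec]
  rw [show 2 * n - 1 = (n - 1) + (1 + (n - 1)) by omega, pow_add, pow_add, pow_one, ← Matrix.mulVec_mulVec,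
    ← Matrix.mulVec_mulVec, um_low a (n - 1) (by omega)] at h1
  have h2 : (um n a - 1) *ᵥ (Sum.elim (0 : Fin n → F) (e F n (n - 1))) =
      Sum.elim (a • (A n F *ᵥ el n F)) (0 : Fin n → F) := by
    rw [um_sub_one, Matrix.fromBlocks_mulVec]
    simp only [Sum.elim_comp_inl, Sum.elim_comp_inr, Matrix.mulVec_zero, zero_add]
    rw [sub_one_mulVec, e_eq_zero (show n ≤ n - 1 + 1 by omega), ← Matrix.mulVec_mulVec, Matrix.smul_mulVec, sq,
      Matrix.vecMulVec_mulVec, show el n F ⬝ᵥ e F n (n - 1) = 1 from e_dot_self (by omega)]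
    congr 1
    simp [Matrix.mulVec_smul]
  rw [h2, um_high] at h1
  have h3 : (A n F - 1) ^ (n - 1) *ᵥ (a • (A n F *ᵥ el n F)) = 0 := by
    funext i
    exact congrFun h1 (Sum.inl i)
  have h4 : e F n 0 ⬝ᵥ ((A n F - 1) ^ (n - 1) *ᵥ (a • (A n F *ᵥ el n F))) = 0 := by rw [h3, dotProduct_zero]
  rw [Matrix.dotProduct_mulVec, row_pow _ (by omega), dotProduct_smul, smul_dotProduct, Matrix.dotProduct_mulVec,
    Matrix.vecMul_vecMul, last_pow hn] at h4
  have h5 := last_vecMul hn (1 : Mt n F)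
  rw [Matrix.mul_one, Matrix.vecMul_one] at h5
  rw [h5, show el n F ⬝ᵥ el n F = 1 from e_dot_self (by omega)] at h4
  simp only [smul_eq_mul, mul_one] at h4
  rcases mul_eq_zero.1 h4 with h6 | h6
  · exact ha h6
  · exact pow_ne_zero _ (neg_ne_zero.2 one_ne_zero) h6

end unip

section third

variable {G : Subgroup (Sp n F)} {a : F}

/-- third generator from conjugation by `U(T)` -/
theorem third_U {T : Mt n F} (hT : Tᵀ = T) (hu : Mem G (um n a))
    (h : (⟨Um T, Um_mem hT⟩ : Sp n F) * uu n a * (⟨Um T, Um_mem hT⟩ : Sp n F)⁻¹ ∈ G) :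
    UM G (T - A n F * T * (A n F)ᵀ) := by
  set H : Sp n F := ⟨Um T, Um_mem hT⟩ with hH
  apply Mem.div ⟨_, h, rfl⟩ hu
  have h1 : Um (T - A n F * T * (A n F)ᵀ) * um n a * Um T = Um T * um n a := by
    unfold Um um
    rw [Matrix.fromBlocks_multiply, Matrix.fromBlocks_multiply, Matrix.fromBlocks_multiply]
    simp only [Matrix.one_mul, Matrix.mul_zero, Matrix.mul_one, Matrix.zero_mul, add_zero, zero_add]
    congr 1
    rw [Matrix.sub_mul, Matrix.mul_assoc (A n F * T), A_transpose_mul, Matrix.mul_one]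
    abel
  rw [Submonoid.coe_mul, Submonoid.coe_mul, coe_uu]
  show _ = Um T * um n a * ((H⁻¹ : Sp n F) : Mt2 n F)
  rw [← h1, show Um T = (H : Mt2 n F) from rfl, Matrix.mul_assoc _ (H : Mt2 n F) _, coe_mul_inv, Matrix.mul_one]

theorem A_one (hn : 2 ≤ n) : A n F *ᵥ e F n 1 = e F n 1 - e F n 0 := by
  have := A_pair (F := F) (n := n) 0 (by omega)
  rw [Matrix.mulVec_add, A_zero] at this
  rw [eq_sub_iff_add_eq, add_comm]
  exact this

theorem A_two (hn : 3 ≤ n) : A n F *ᵥ e F n 2 = e F n 2 - e F n 1 + e F n 0 := by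
  have := A_pair (F := F) (n := n) 1 (by omega)
  rw [Matrix.mulVec_add, A_one (by omega)] at this
  have h : A n F *ᵥ e F n (1 + 1) = e F n (1 + 1) - (e F n 1 - e F n 0) := by
    rw [eq_sub_iff_add_eq, add_comm]
    exact this
  rw [show (2 : ℕ) = 1 + 1 from rfl, h]
  abel

theorem sy_neg_right (x y : Fin n → F) : sy x (-y) = -sy x y := by
  unfold sy; rw [Matrix.vecMulVec_neg, Matrix.neg_vecMulVec]; abel

theorem sy_sub_right (x y z : Fin n → F) : sy x (y - z) = sy x y - sy x z := by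
  rw [sub_eq_add_neg, sy_add_right, sy_neg_right, sub_eq_add_neg]

theorem sq_sub (x y : Fin n → F) : sq (x - y) = sq x + sq y - sy x y := by
  unfold sq sy; rw [Matrix.sub_vecMulVec, Matrix.vecMulVec_sub, Matrix.vecMulVec_sub]; abel

theorem z_odd (hn : 2 ≤ n) (c : F) :
    c • sy (e F n 0) (e F n 1) - A n F * (c • sy (e F n 0) (e F n 1)) * (A n F)ᵀ = (2 * c) • sq (e F n 0) := by
  rw [smul_conj, conj_sy, A_zero, A_one hn, sy_sub_right, sy_self]
  module

theorem z_big (hn : 3 ≤ n) (c : F) :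
    c • (sq (e F n 1) - sy (e F n 0) (e F n 2)) - A n F * (c • (sq (e F n 1) - sy (e F n 0) (e F n 2))) * (A n F)ᵀ =
      c • sq (e F n 0) := by
  rw [smul_conj, Matrix.mul_sub, Matrix.sub_mul, conj_sy, conj_sq, A_zero, A_one (by omega), A_two hn, sq_sub,
    sy_add_right, sy_sub_right, sy_self, sy_comm (e F n 1) (e F n 0)]
  module

theorem z_two (c : F) :
    c • sq (e F 2 1) - A 2 F * (c • sq (e F 2 1)) * (A 2 F)ᵀ = c • (sy (e F 2 0) (e F 2 1) - sq (e F 2 0)) := by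
  rw [smul_conj, conj_sq, A_one (by omega), sq_sub, sy_comm (e F 2 1) (e F 2 0)]
  module

theorem A2_mul_A2 (h2 : (2 : F) = 0) : A 2 F * A 2 F = 1 := by
  apply Matrix.ext_of_mulVec_single
  intro i
  rw [← e_eq_single, Matrix.one_mulVec, ← Matrix.mulVec_mulVec]
  fin_cases i
  · show A 2 F *ᵥ A 2 F *ᵥ e F 2 0 = e F 2 0
    rw [A_zero, A_zero]
  · show A 2 F *ᵥ A 2 F *ᵥ e F 2 1 = e F 2 1
    rw [A_one le_rfl, Matrix.mulVec_sub, A_one le_rfl, A_zero]
    have : (2 : F) • e F 2 0 = 0 := by rw [h2, zero_smul]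
    rw [two_smul] at this
    calc e F 2 1 - e F 2 0 - e F 2 0 = e F 2 1 - (e F 2 0 + e F 2 0) := by abel
      _ = _ := by rw [this, sub_zero]

theorem A'2_mul_A'2 (h2 : (2 : F) = 0) : A' 2 F * A' 2 F = 1 := by
  have h1 := A2_mul_A2 h2
  calc A' 2 F * A' 2 F = (A' 2 F * (A' 2 F * ((A 2 F)ᵀ * (A 2 F)ᵀ))) := by
        rw [← Matrix.transpose_mul, h1, Matrix.transpose_one, Matrix.mul_one]
    _ = A' 2 F * ((A' 2 F * (A 2 F)ᵀ) * (A 2 F)ᵀ) := by rw [Matrix.mul_assoc]
    _ = 1 := by rw [mul_A_transpose, Matrix.one_mul, mul_A_transpose]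

/-- the square of `u`, characteristic 2 -/
theorem u_sq (h2 : (2 : F) = 0) {G : Subgroup (Sp 2 F)} {a : F} (hu : Mem G (um 2 a)) :
    UM G (a • (sq (e F 2 0) + sy (e F 2 0) (e F 2 1))) := by
  apply (hu.mul hu).congr
  unfold um Um
  rw [Matrix.fromBlocks_multiply, A2_mul_A2 h2, A'2_mul_A'2 h2]
  simp only [Matrix.mul_zero, Matrix.zero_mul, add_zero, zero_add]
  congr 1
  rw [← Matrix.mul_assoc, A2_mul_A2 h2, Matrix.one_mul]
  have h3 : A' 2 F = (A 2 F)ᵀ := by
    calc A' 2 F = A' 2 F * ((A 2 F)ᵀ * (A 2 F)ᵀ) := by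
          rw [← Matrix.transpose_mul, A2_mul_A2 h2, Matrix.transpose_one, Matrix.mul_one]
      _ = _ := by rw [← Matrix.mul_assoc, mul_A_transpose, Matrix.one_mul]
  rw [h3, smul_conj, conj_sq, el_two, A_one le_rfl, sq_sub, sy_comm (e F 2 1)]
  have h4 : (2 : F) • (a • sq (e F 2 1) - a • sy (e F 2 0) (e F 2 1)) = 0 := by rw [h2, zero_smul]
  calc a • sq (e F 2 1) + a • (sq (e F 2 1) + sq (e F 2 0) - sy (e F 2 0) (e F 2 1)) =
        a • (sq (e F 2 0) + sy (e F 2 0) (e F 2 1)) + (2 : F) • (a • sq (e F 2 1) - a • sy (e F 2 0) (e F 2 1)) := by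
          module
    _ = _ := by rw [h4, add_zero]

end third

end Cfsg.Agent.Lib.RegSp
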