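import Cfsg.Agent.Lib.RegSU4
import Cfsg.Agent.Lib.RegSp6

/-! Generation of `SU(n,q)` by conjugate regular unipotent elements: the model. -/

set_option autoImplicit false
set_option linter.unusedSectionVars false

namespace Cfsg.Agent.Lib.RegSU

open Matrix
open Cfsg.Agent.Lib.SpTrans (isom mem_isom)
open Cfsg.Agent.Lib.UnTrans
open Cfsg.Agent.Lib.RootCalcSL (e jm js_mulVec e_eq_single e_eq_zero exists_prim sub_one_mulVec isNilpotent_jm)
open Cfsg.Agent.Lib.RegSp (A A' A_mul mul_A A_transpose_mul mul_A_transpose A_pair A_zero last_vecMul last_pow row_pow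
  isNilpotent_A e_dot_self e_dot_ne A'_last)

variable {F : Type*} [Field F] {m : ℕ} {σ : F →+* F}

/-- the model space -/
abbrev Mo (m : ℕ) (F : Type*) := (Fin m → F) × F × (Fin m → F)

/-- conjugate vector -/
def cv (σ : F →+* F) (x : Fin m → F) : Fin m → F := fun i => σ (x i)

/-- the model form -/
def fm (σ : F →+* F) (p p' : Mo m F) : F := p.1 ⬝ᵥ cv σ p'.2.2 + p.2.1 * σ p'.2.1 + p.2.2 ⬝ᵥ cv σ p'.1

theorem cv_add (x y : Fin m → F) : cv σ (x + y) = cv σ x + cv σ y := by
  funext i; simp [cv]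

theorem cv_smul (c : F) (x : Fin m → F) : cv σ (c • x) = σ c • cv σ x := by
  funext i; simp [cv]

theorem cv_e (k : ℕ) : cv σ (e F m k) = e F m k := by
  funext i; simp only [cv, e]; split_ifs <;> simp

theorem cv_dot (x y : Fin m → F) : cv σ x ⬝ᵥ cv σ y = σ (x ⬝ᵥ y) := by
  simp only [cv, dotProduct, map_sum, map_mul]

theorem cv_cv (hinv : ∀ a, σ (σ a) = a) (x : Fin m → F) : cv σ (cv σ x) = x := by
  funext i; simp [cv, hinv]

theorem fm_HS [Finite F] (hinv : ∀ a, σ (σ a) = a) (hne : ∃ a, σ a ≠ a) : HS σ (fm σ : Mo m F → Mo m F → F) := by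
  apply HS.of_finite hinv hne
  · intro x y z
    simp only [fm, Prod.fst_add, Prod.snd_add, add_dotProduct, add_mul]
    ring
  · intro c x y
    simp only [fm, Prod.smul_fst, Prod.smul_snd, smul_dotProduct, smul_eq_mul]
    ring
  · intro x y
    simp only [fm, map_add, map_mul, hinv]
    rw [← cv_dot, ← cv_dot, cv_cv hinv, cv_cv hinv, dotProduct_comm (cv σ y.1), dotProduct_comm (cv σ y.2.2)]
    ring

theorem fm_nd : Nd (fm σ : Mo m F → Mo m F → F) (⊤ : Submodule F (Mo m F)) := by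
  intro x _ hx
  by_contra hcon
  push Not at hcon
  apply hx
  obtain ⟨x1, x2, x3⟩ := x
  have h1 : x1 = 0 := by
    funext i
    have := hcon (0, 0, Pi.single i 1) Submodule.mem_top
    simp only [fm, map_zero, mul_zero, add_zero] at this
    have e1 : cv σ (Pi.single i (1 : F)) = Pi.single i 1 := by
      rw [← e_eq_single, cv_e]
    have e2 : cv σ (0 : Fin m → F) = 0 := by funext i; simp [cv]
    rw [e1, e2, dotProduct_zero, add_zero, dotProduct_single, mul_one] at this
    exact this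
  have h3 : x3 = 0 := by
    funext i
    have := hcon (Pi.single i 1, 0, 0) Submodule.mem_top
    simp only [fm, map_zero, mul_zero, add_zero] at this
    have e1 : cv σ (Pi.single i (1 : F)) = Pi.single i 1 := by
      rw [← e_eq_single, cv_e]
    have e2 : cv σ (0 : Fin m → F) = 0 := by funext i; simp [cv]
    rw [e1, e2, dotProduct_zero, zero_add, dotProduct_single, mul_one] at this
    exact this
  have h2 : x2 = 0 := by
    have := hcon (0, 1, 0) Submodule.mem_top
    have e2 : cv σ (0 : Fin m → F) = 0 := by funext i; simp [cv]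
    simp only [fm, map_one, mul_one, e2, dotProduct_zero, zero_add, add_zero] at this
    exact this
  rw [h1, h2, h3]
  rfl

/-- basis vectors -/
def ev (m : ℕ) (F : Type*) [Field F] (i : ℕ) : Mo m F := (e F m i, 0, 0)

def fv (m : ℕ) (F : Type*) [Field F] (i : ℕ) : Mo m F := (0, 0, e F m i)

def wv (m : ℕ) (F : Type*) [Field F] : Mo m F := (0, 1, 0)

/-- the Levi element -/
noncomputable def LA (m : ℕ) (F : Type*) [Field F] : Mo m F ≃ₗ[F] Mo m F where
  toFun p := (A m F *ᵥ p.1, p.2.1, A' m F *ᵥ p.2.2)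
  invFun p := ((A' m F)ᵀ *ᵥ p.1, p.2.1, (A m F)ᵀ *ᵥ p.2.2)
  map_add' p p' := by simp [Matrix.mulVec_add]
  map_smul' c p := by simp [Matrix.mulVec_smul]
  left_inv p := by simp [Matrix.mulVec_mulVec, mul_A, A_transpose_mul]
  right_inv p := by simp [Matrix.mulVec_mulVec, A_mul, mul_A_transpose]

theorem cv_A' (x : Fin m → F) : cv σ (A' m F *ᵥ x) = A' m F *ᵥ cv σ x := by
  funext i
  simp only [cv, Matrix.mulVec, dotProduct, map_sum, map_mul]
  refine Finset.sum_congr rfl fun j _ => ?_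
  congr 1
  simp only [jm, Matrix.of_apply]
  split_ifs <;> simp

theorem cv_A't (x : Fin m → F) : cv σ ((A' m F)ᵀ *ᵥ x) = (A' m F)ᵀ *ᵥ cv σ x := by
  funext i
  simp only [cv, Matrix.mulVec, dotProduct, map_sum, map_mul]
  refine Finset.sum_congr rfl fun j _ => ?_
  congr 1
  simp only [jm, Matrix.of_apply, Matrix.transpose_apply]
  split_ifs <;> simp

theorem cv_A (x : Fin m → F) : cv σ (A m F *ᵥ x) = A m F *ᵥ cv σ x := by
  have h1 := cv_A't (σ := σ) (A m F *ᵥ x)
  rw [Matrix.mulVec_mulVec, mul_A, Matrix.one_mulVec] at h1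
  rw [h1, Matrix.mulVec_mulVec, A_mul, Matrix.one_mulVec]

theorem dot_AA' (x y : Fin m → F) : (A m F *ᵥ x) ⬝ᵥ (A' m F *ᵥ y) = x ⬝ᵥ y := by
  rw [Matrix.dotProduct_mulVec, ← Matrix.vecMul_transpose, Matrix.vecMul_vecMul, A_transpose_mul, Matrix.vecMul_one]

theorem LA_isom : LA m F ∈ isom (fm σ : Mo m F → Mo m F → F) := by
  intro x y
  show (A m F *ᵥ x.1) ⬝ᵥ cv σ (A' m F *ᵥ y.2.2) + x.2.1 * σ y.2.1 + (A' m F *ᵥ x.2.2) ⬝ᵥ cv σ (A m F *ᵥ y.1) = _
  rw [cv_A', cv_A, dot_AA', dotProduct_comm (A' m F *ᵥ x.2.2), dot_AA', dotProduct_comm (cv σ y.1)]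
  rfl

/-- the swap -/
def JL (m : ℕ) (F : Type*) [Field F] : Mo m F ≃ₗ[F] Mo m F where
  toFun p := (p.2.2, p.2.1, p.1)
  invFun p := (p.2.2, p.2.1, p.1)
  map_add' p p' := rfl
  map_smul' c p := rfl
  left_inv p := rfl
  right_inv p := rfl

theorem JL_isom : JL m F ∈ isom (fm σ : Mo m F → Mo m F → F) := by
  intro x y
  show x.2.2 ⬝ᵥ cv σ y.1 + x.2.1 * σ y.2.1 + x.1 ⬝ᵥ cv σ y.2.2 = _
  unfold fm
  ring

theorem det_mulEquiv (a b : Mo m F ≃ₗ[F] Mo m F) :
    LinearMap.det ((a * b : Mo m F ≃ₗ[F] Mo m F) : Mo m F →ₗ[F] Mo m F) =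
      LinearMap.det (a : Mo m F →ₗ[F] Mo m F) * LinearMap.det (b : Mo m F →ₗ[F] Mo m F) := by
  rw [← LinearMap.det_comp]; rfl

theorem det_JL_sq : LinearMap.det (JL m F : Mo m F →ₗ[F] Mo m F) * LinearMap.det (JL m F : Mo m F →ₗ[F] Mo m F) = 1 := by
  rw [← det_mulEquiv]
  have : (JL m F * JL m F : Mo m F ≃ₗ[F] Mo m F) = 1 := by
    ext1 x
    rfl
  rw [this]
  exact LinearMap.det_id

theorem det_jmA : (A m F).det = 1 := by
  unfold RegSp.A
  rw [Matrix.det_nonsing_inv, Matrix.det_transpose, RootCalcSL.det_jm, Ring.inverse_one]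

theorem det_LA : LinearMap.det (LA m F : Mo m F →ₗ[F] Mo m F) = 1 := by
  have h : (LA m F : Mo m F →ₗ[F] Mo m F) =
      LinearMap.prodMap (Matrix.toLin' (A m F)) (LinearMap.prodMap LinearMap.id (Matrix.toLin' (A' m F))) := by
    apply LinearMap.ext
    intro x
    rfl
  rw [h, LinearMap.det_prodMap, LinearMap.det_prodMap, LinearMap.det_toLin', LinearMap.det_toLin', det_jmA,
    LinearMap.det_id, RootCalcSL.det_jm]
  ring

/-! ### the unipotent elements -/

/-- the isotropic subspace -/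
def EE (m : ℕ) (F : Type*) [Field F] : Submodule F (Mo m F) :=
  LinearMap.range (LinearMap.inl F (Fin m → F) (F × (Fin m → F)))

theorem mem_EE {x : Mo m F} : x ∈ EE m F ↔ x.2 = 0 := by
  unfold EE
  rw [LinearMap.mem_range]
  constructor
  · rintro ⟨y, rfl⟩; rfl
  · intro h; exact ⟨x.1, Prod.ext rfl h.symm⟩

theorem mem_EE' (y : Fin m → F) : (y, (0 : F × (Fin m → F))) ∈ EE m F := mem_EE.2 rfl

theorem tot_EE : Tot (fm σ) (EE m F) := by
  refine ⟨fun x hx y hy => ?_⟩
  rw [mem_EE] at hx hy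
  have e2 : cv σ (0 : Fin m → F) = 0 := by funext i; simp [cv]
  simp only [fm, hx, hy, Prod.fst_zero, Prod.snd_zero, zero_mul, zero_dotProduct, add_zero, e2, dotProduct_zero]

theorem finrank_EE : Module.finrank F (EE m F) = m := by
  unfold EE
  rw [LinearMap.finrank_range_of_inj LinearMap.inl_injective]
  simp

theorem EE_span {l : ℕ} : EE (l + 1) F = Submodule.span F (ev (l + 1) F '' {i | i ≤ l}) := by
  apply le_antisymm
  · intro x hx
    rw [mem_EE] at hx
    have h1 : x = ∑ i : Fin (l + 1), x.1 i • ev (l + 1) F i.val := by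
      apply Prod.ext
      · rw [Prod.fst_sum]
        funext j
        rw [Finset.sum_apply, Finset.sum_eq_single j]
        · simp [ev, e]
        · intro b _ hb
          have : j.val ≠ b.val := fun h => hb (Fin.ext h.symm)
          simp [ev, e, this]
        · intro h; exact absurd (Finset.mem_univ _) h
      · rw [hx, Prod.snd_sum]
        symm
        apply Finset.sum_eq_zero
        intro i _
        simp [ev]
    rw [h1]
    exact Submodule.sum_mem _ fun i _ => Submodule.smul_mem _ _ (Submodule.subset_span ⟨i.val, by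
      show i.val ≤ l; omega, rfl⟩)
  · rw [Submodule.span_le]
    rintro _ ⟨i, _, rfl⟩
    exact mem_EE' _

theorem EE_max (x : Mo m F) (hx : fm σ x x = 0) (h : ∀ y ∈ EE m F, fm σ x y = 0) : x ∈ EE m F := by
  have e2 : cv σ (0 : Fin m → F) = 0 := by funext i; simp [cv]
  have h3 : x.2.2 = 0 := by
    funext i
    have := h _ (mem_EE' (Pi.single i 1))
    have e1 : cv σ (Pi.single i (1 : F)) = Pi.single i 1 := by
      rw [← e_eq_single, cv_e]
    simp only [fm, Prod.fst_zero, Prod.snd_zero, e2, dotProduct_zero, map_zero, mul_zero, add_zero, zero_add, e1,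
      dotProduct_single, mul_one] at this
    exact this
  have h2 : x.2.1 = 0 := by
    simp only [fm, h3, e2, dotProduct_zero, zero_dotProduct, zero_add, add_zero] at hx
    rcases mul_eq_zero.1 hx with h | h
    · exact h
    · exact (map_eq_zero σ).1 h
  rw [mem_EE]
  exact Prod.ext h2 h3

theorem finrank_Mo : Module.finrank F (Mo m F) = 2 * m + 1 := by
  simp only [Module.finrank_prod, Module.finrank_fin_fun, Module.finrank_self]
  ring

end Cfsg.Agent.Lib.RegSU
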