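import Cfsg.Agent.Lib.RegSU5

/-! Generation of `SU(n,q)` by conjugate regular unipotent elements: the generators. -/

set_option autoImplicit false
set_option linter.unusedSectionVars false

namespace Cfsg.Agent.Lib.RegSU

open Matrix
open Cfsg.Agent.Lib.SpTrans (isom mem_isom)
open Cfsg.Agent.Lib.UnTrans
open Cfsg.Agent.Lib.RootCalcSL (e jm js_mulVec e_eq_single e_eq_zero exists_prim sub_one_mulVec isNilpotent_jm)
open Cfsg.Agent.Lib.RegSp (A A' A_mul mul_A A_transpose_mul mul_A_transpose A_pair A_zero last_vecMul last_pow row_pow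
  isNilpotent_A e_dot_self e_dot_ne A'_last)

section unip

variable {F : Type*} [Field F] {l : ℕ} {σ : F →+* F} {a b : F} {u : Mo (l + 1) F ≃ₗ[F] Mo (l + 1) F}

/-- the formula of the regular unipotent element -/
def UF (a b a' : F) (u : Mo (l + 1) F ≃ₗ[F] Mo (l + 1) F) : Prop :=
  ∀ x, u x = (A (l + 1) F *ᵥ (x.1 + (a * x.2.1 + b * (x.2.2 ⬝ᵥ e F (l + 1) l)) • e F (l + 1) l),
    x.2.1 - a' * (x.2.2 ⬝ᵥ e F (l + 1) l), A' (l + 1) F *ᵥ x.2.2)

variable {a' : F} (hu : UF a b a' u)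

/-- the nilpotent part -/
abbrev Nn (u : Mo (l + 1) F ≃ₗ[F] Mo (l + 1) F) : Module.End F (Mo (l + 1) F) :=
  ((u : Mo (l + 1) F →ₗ[F] Mo (l + 1) F) - 1 : Module.End F (Mo (l + 1) F))

theorem Nn_apply (x : Mo (l + 1) F) : Nn u x = u x - x := rfl

include hu

theorem pow_third (k : ℕ) (x : Mo (l + 1) F) : ((Nn u ^ k) x).2.2 = (A' (l + 1) F - 1) ^ k *ᵥ x.2.2 := by
  induction k with
  | zero => rw [pow_zero, pow_zero, Matrix.one_mulVec]; rfl
  | succ k ih =>
    rw [pow_succ', Module.End.mul_apply, Nn_apply, hu, pow_succ', ← Matrix.mulVec_mulVec, ← ih]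
    rw [Matrix.sub_mulVec, Matrix.one_mulVec]
    rfl

theorem pow_E (k : ℕ) (y : Fin (l + 1) → F) :
    (Nn u ^ k) (y, (0 : F × (Fin (l + 1) → F))) = ((A (l + 1) F - 1) ^ k *ᵥ y, 0) := by
  induction k with
  | zero => rw [pow_zero, pow_zero, Matrix.one_mulVec]; rfl
  | succ k ih =>
    rw [pow_succ', Module.End.mul_apply, ih, Nn_apply, hu, pow_succ', ← Matrix.mulVec_mulVec]
    refine Prod.ext ?_ (Prod.ext ?_ ?_)
    · simp [Matrix.sub_mulVec, Matrix.sub_mul]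
    · simp
    · simp

theorem u_nilp : IsNilpotent (Nn u) := by
  rw [((LinearMap.charpoly_nilpotent_tfae (Nn u)).out 0 2 : IsNilpotent (Nn u) ↔ ∀ m, ∃ n : ℕ, (Nn u ^ n) m = 0)]
  intro x
  obtain ⟨k1, hk1⟩ := isNilpotent_jm (F := F) (N := l + 1)
  obtain ⟨k2, hk2⟩ := isNilpotent_A (n := l + 1) (F := F)
  refine ⟨k2 + (1 + k1), ?_⟩
  rw [pow_add, pow_add, Module.End.mul_apply, Module.End.mul_apply, pow_one]
  set y := (Nn u ^ k1) x with hy
  have h3 : y.2.2 = 0 := by rw [hy, pow_third hu, hk1, Matrix.zero_mulVec]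
  have h4 : (Nn u) y = ((u y).1 - y.1, 0) := by
    rw [Nn_apply, hu]
    refine Prod.ext rfl (Prod.ext ?_ ?_)
    · show y.2.1 - a' * (y.2.2 ⬝ᵥ e F (l + 1) l) - y.2.1 = 0
      rw [h3, zero_dotProduct]; ring
    · show A' (l + 1) F *ᵥ y.2.2 - y.2.2 = 0
      rw [h3, Matrix.mulVec_zero, sub_zero]
  rw [h4, pow_E hu, hk2, Matrix.zero_mulVec]
  rfl

theorem pow_fv (j : ℕ) (hj : j ≤ l) : (Nn u ^ j) (fv (l + 1) F 0) = fv (l + 1) F j := by
  induction j with
  | zero => rfl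
  | succ j ih =>
    rw [pow_succ', Module.End.mul_apply, ih (by omega), Nn_apply, hu]
    have h0 : e F (l + 1) j ⬝ᵥ e F (l + 1) l = 0 := e_dot_ne (by omega)
    refine Prod.ext ?_ (Prod.ext ?_ ?_)
    · simp [fv, h0]
    · simp [fv, h0]
    · show A' (l + 1) F *ᵥ e F (l + 1) j - e F (l + 1) j = e F (l + 1) (j + 1)
      rw [js_mulVec, add_sub_cancel_left]

theorem ll_A (X : Fin (l + 1) → F) : e F (l + 1) l ⬝ᵥ (A (l + 1) F *ᵥ X) = e F (l + 1) l ⬝ᵥ X := by
  have h := last_vecMul (n := l + 1) (F := F) (by omega) 1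
  rw [Matrix.mul_one, Matrix.vecMul_one] at h
  rw [Matrix.dotProduct_mulVec]
  exact congrArg (fun z => z ⬝ᵥ X) h

theorem ll_pow (k : ℕ) (X : Fin (l + 1) → F) : e F (l + 1) l ⬝ᵥ ((A (l + 1) F) ^ k *ᵥ X) = e F (l + 1) l ⬝ᵥ X := by
  have h := last_pow (n := l + 1) (F := F) (by omega) k 1
  rw [Matrix.mul_one, Matrix.vecMul_one] at h
  rw [Matrix.dotProduct_mulVec]
  exact congrArg (fun z => z ⬝ᵥ X) h

theorem u_cyc (ha : a ≠ 0) (ha' : a' ≠ 0) : (Nn u ^ (2 * l + 2)) (fv (l + 1) F 0) ≠ 0 := by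
  intro h
  have hll : e F (l + 1) l ⬝ᵥ e F (l + 1) l = 1 := e_dot_self (by omega)
  rw [show 2 * l + 2 = l + (1 + (1 + l)) by ring, pow_add, pow_add, pow_add, Module.End.mul_apply,
    Module.End.mul_apply, Module.End.mul_apply, pow_one, pow_fv hu l le_rfl] at h
  have h1 : Nn u (fv (l + 1) F l) = (b • (A (l + 1) F *ᵥ e F (l + 1) l), -a', 0) := by
    rw [Nn_apply, hu]
    refine Prod.ext ?_ (Prod.ext ?_ ?_)
    · simp [fv, hll, Matrix.mulVec_smul]
    · simp [fv, hll]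
    · show A' (l + 1) F *ᵥ e F (l + 1) l - e F (l + 1) l = 0
      rw [js_mulVec, add_sub_cancel_left, e_eq_zero (by omega)]
  rw [h1] at h
  have h2 : Nn u (b • (A (l + 1) F *ᵥ e F (l + 1) l), -a', 0) =
      (A (l + 1) F *ᵥ (b • (A (l + 1) F *ᵥ e F (l + 1) l) - (a * a') • e F (l + 1) l) -
        b • (A (l + 1) F *ᵥ e F (l + 1) l), (0 : F × (Fin (l + 1) → F))) := by
    rw [Nn_apply, hu]
    refine Prod.ext ?_ (Prod.ext ?_ ?_)
    · simp only [zero_dotProduct, mul_zero, add_zero, mul_neg, neg_smul, Prod.fst_sub]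
      rw [sub_eq_add_neg (b • _) ((a * a') • _)]
    · simp
    · simp
  rw [h2, pow_E hu] at h
  have h3 := congrArg (fun x : Mo (l + 1) F => e F (l + 1) 0 ⬝ᵥ x.1) h
  simp only [Prod.fst_zero, dotProduct_zero] at h3
  rw [Matrix.dotProduct_mulVec, row_pow l (by omega), smul_dotProduct, ← Matrix.dotProduct_mulVec, ll_pow hu,
    dotProduct_sub, ll_A hu, dotProduct_sub, dotProduct_smul, dotProduct_smul, ll_A hu, hll] at h3
  simp only [smul_eq_mul, mul_one] at h3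
  have h4 : (-1 : F) ^ l * (a * a') = 0 := by linear_combination -h3
  rcases mul_eq_zero.1 h4 with h5 | h5
  · exact pow_ne_zero l (neg_ne_zero.2 one_ne_zero) h5
  · exact mul_ne_zero ha ha' h5

end unip

section third

variable {F V : Type*} [Field F] [AddCommGroup V] [Module F V] {σ : F →+* F} {f : V → V → F}

/-- the third generator -/
theorem third (H : HS σ f) {G : Subgroup (V ≃ₗ[F] V)} {u h : V ≃ₗ[F] V} (hu : u ∈ G) (hui : u ∈ isom f)
    (hh : h * u * h⁻¹ ∈ G) {e0 w d : V} {γ c : F} (hhx : ∀ x, h x = rho f e0 (γ • w) c x)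
    (h0 : u e0 = e0) (hw : u w = w + d) (k0 : f e0 e0 = 0) (k1 : f w e0 = 0) (k2 : f d e0 = 0) (k3 : f e0 d = 0)
    (k4 : f w d = 0) (k5 : f d d = 0) : In G (D f e0 (-γ • d)) := by
  refine ⟨h * u * h⁻¹ * u⁻¹, G.mul_mem hh (G.inv_mem hu), ?_⟩
  -- it suffices to check on `u (h x)`
  have key : ∀ x, h (u x) = u (h x) + D f e0 (-γ • d) (u (h x)) := by
    intro x
    have e1 : f x e0 = f (u x) e0 := by
      conv_rhs => rw [← h0]
      rw [hui]
    have e2 : f x w = f (u x) w + f (u x) d := by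
      rw [← H.add_right, ← hw, hui]
    rw [hhx, hhx]
    simp only [rho, D, map_add, map_sub, LinearEquiv.map_smul, h0, hw, e1, H.smul_right, H.add_left, H.sub_left,
      H.smul_left, k0, k1, k2, k3, k4, k5, e2]
    simp only [mul_zero, add_zero, sub_zero, map_neg]
    module
  intro y
  obtain ⟨x, hx⟩ : ∃ x, u (h x) = y := ⟨h⁻¹ (u⁻¹ y), by rw [apply_inv, apply_inv]⟩
  rw [← hx, LinearEquiv.mul_apply, LinearEquiv.mul_apply, LinearEquiv.mul_apply, inv_apply, inv_apply]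
  exact key x

end third

section theta

variable {F : Type*} [Field F] [Finite F] {σ : F →+* F}

theorem exists_theta {V : Type*} [AddCommGroup V] [Module F V] {f : V → V → F} (H : HS σ f) :
    ∃ θ : F, θ ≠ σ θ ∧ θ + σ θ ≠ 0 ∧ ∀ r, σ r = r → r = 0 ∨ ∃ k : ℕ, r = (θ + σ θ) ^ k := by
  obtain ⟨ζ, hζ⟩ := exists_prim F
  set T : F := ζ * σ ζ with hT
  have hT0 : T ≠ 0 := mul_ne_zero ζ.ne_zero (H.sigma_ne ζ.ne_zero)
  have hTf : σ T = T := by rw [hT, map_mul, H.inv, mul_comm]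
  have hTp : ∀ r, σ r = r → r = 0 ∨ ∃ k : ℕ, r = T ^ k := by
    intro r hr
    by_cases h0 : r = 0
    · exact Or.inl h0
    right
    obtain ⟨x, hx⟩ := H.norm r hr
    have hx0 : x ≠ 0 := by rintro rfl; apply h0; rw [← hx, zero_mul]
    obtain ⟨k, hk⟩ := hζ (Units.mk0 x hx0)
    refine ⟨k, ?_⟩
    have h1 : x = (ζ : F) ^ k := by rw [← Units.val_pow_eq_pow_val, hk, Units.val_mk0]
    rw [hT, mul_pow, ← map_pow, ← h1, hx]
  obtain ⟨θ, hθ⟩ := H.exists_trace T hTf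
  by_cases h : θ = σ θ
  · obtain ⟨τ, hτ0, hτ⟩ := H.exists_tr0
    have h2 : (2 : F) ≠ 0 := by
      intro h2
      apply hT0
      rw [← hθ, ← h]
      linear_combination θ * h2
    have hs : θ + τ + σ (θ + τ) = T := by rw [map_add, ← hθ]; linear_combination hτ
    refine ⟨θ + τ, ?_, ?_, ?_⟩
    · intro h3
      rw [map_add] at h3
      have h4 : 2 * τ = 0 := by linear_combination h3 + hτ - h
      rcases mul_eq_zero.1 h4 with h5 | h5
      · exact h2 h5
      · exact hτ0 h5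
    · rw [hs]; exact hT0
    · rw [hs]; exact hTp
  · exact ⟨θ, h, by rw [hθ]; exact hT0, by rw [hθ]; exact hTp⟩

end theta

end Cfsg.Agent.Lib.RegSU
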