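import Cfsg.Agent.Lib.RegSU6

/-! Generation of `SU(n,q)` by conjugate regular unipotent elements: the model theorem. -/

set_option autoImplicit false
set_option linter.unusedSectionVars false

namespace Cfsg.Agent.Lib.RegSU

open Matrix
open Cfsg.Agent.Lib.SpTrans (isom mem_isom)
open Cfsg.Agent.Lib.UnTrans
open Cfsg.Agent.Lib.RootCalcSL (e jm js_mulVec e_eq_single e_eq_zero exists_prim sub_one_mulVec isNilpotent_jm)
open Cfsg.Agent.Lib.RegSp (A A' A_mul mul_A A_transpose_mul mul_A_transpose A_pair A_zero last_vecMul last_pow row_pow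
  isNilpotent_A e_dot_self e_dot_ne A'_last)

variable {F : Type*} [Field F] [Finite F] {l : ℕ} {σ : F →+* F}

theorem cv_zero {m : ℕ} : cv σ (0 : Fin m → F) = 0 := by funext i; simp [cv]

theorem det_inv_equiv {m : ℕ} {g : Mo m F ≃ₗ[F] Mo m F} (h : LinearMap.det (g : Mo m F →ₗ[F] Mo m F) = 1) :
    LinearMap.det ((g⁻¹ : Mo m F ≃ₗ[F] Mo m F) : Mo m F →ₗ[F] Mo m F) = 1 := by
  have h1 := det_mulEquiv g g⁻¹
  rw [mul_inv_cancel, h, one_mul] at h1
  rw [← h1]
  exact LinearMap.det_id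

theorem main_model (hl : 1 ≤ l) (hinv : ∀ a, σ (σ a) = a) (hne : ∃ a, σ a ≠ a) :
    ∃ u g h : Mo (l + 1) F ≃ₗ[F] Mo (l + 1) F,
      (u ∈ isom (fm σ) ∧ LinearMap.det (u : Mo (l + 1) F →ₗ[F] Mo (l + 1) F) = 1) ∧
      (g ∈ isom (fm σ) ∧ LinearMap.det (g : Mo (l + 1) F →ₗ[F] Mo (l + 1) F) = 1) ∧
      (h ∈ isom (fm σ) ∧ LinearMap.det (h : Mo (l + 1) F →ₗ[F] Mo (l + 1) F) = 1) ∧
      IsNilpotent (Nn u) ∧ Nn u ^ (2 * l + 2) ≠ 0 ∧
      ∀ s : Mo (l + 1) F ≃ₗ[F] Mo (l + 1) F, s ∈ isom (fm σ) →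
        LinearMap.det (s : Mo (l + 1) F →ₗ[F] Mo (l + 1) F) = 1 →
        s ∈ Subgroup.closure ({u, g * u * g⁻¹, h * u * h⁻¹} : Set (Mo (l + 1) F ≃ₗ[F] Mo (l + 1) F)) := by
  have H : HS σ (fm σ : Mo (l + 1) F → Mo (l + 1) F → F) := fm_HS hinv hne
  have hnd : Nd (fm σ : Mo (l + 1) F → Mo (l + 1) F → F) ⊤ := fm_nd
  have hfr : Module.finrank F (Mo (l + 1) F) = 2 * (l + 1) + 1 := finrank_Mo
  have h4 : 4 ≤ Module.finrank F (⊤ : Submodule F (Mo (l + 1) F)) := by rw [finrank_top, hfr]; omega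
  obtain ⟨θ, hne', hT0, hT⟩ := exists_theta H
  -- scalars
  obtain ⟨a, ha⟩ := H.norm (-(θ + σ θ)) (by rw [map_neg, map_add, hinv, add_comm])
  have ha0 : a ≠ 0 := by
    rintro rfl
    rw [zero_mul] at ha
    exact hT0 (by linear_combination ha)
  have hll : e F (l + 1) l ⬝ᵥ e F (l + 1) l = 1 := e_dot_self (by omega)
  have hwv : ∀ x : Mo (l + 1) F, fm σ x (wv (l + 1) F) = x.2.1 := by
    intro x
    simp [fm, wv, cv_zero]
  have hev : ∀ (x : Mo (l + 1) F) (i : ℕ), fm σ x (ev (l + 1) F i) = x.2.2 ⬝ᵥ e F (l + 1) i := by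
    intro x i
    simp [fm, ev, cv_zero, cv_e]
  -- the element `U`
  obtain ⟨U, hU, hUx⟩ := rhoIn_all H (M := tgrp H ⊤) le_rfl hnd h4 (e := ev (l + 1) F l) (u := (-σ a) • wv (l + 1) F)
    Submodule.mem_top (by rw [hev]; simp [ev]) Submodule.mem_top (by rw [hev]; simp [wv]) (σ θ) (by
      rw [H.smul_left, H.smul_right, hwv, hinv, map_neg, hinv]
      simp only [wv]
      linear_combination ha)
  set u : Mo (l + 1) F ≃ₗ[F] Mo (l + 1) F := LA (l + 1) F * U with hu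
  have huF : UF a (σ θ) (σ a) u := by
    intro x
    rw [hu, LinearEquiv.mul_apply, hUx]
    have e1 : rho (fm σ) (ev (l + 1) F l) ((-σ a) • wv (l + 1) F) (σ θ) x =
        (x.1 + (a * x.2.1 + σ θ * (x.2.2 ⬝ᵥ e F (l + 1) l)) • e F (l + 1) l,
          x.2.1 - σ a * (x.2.2 ⬝ᵥ e F (l + 1) l), x.2.2) := by
      rw [rho, hev, H.smul_right, hwv, map_neg, hinv]
      refine Prod.ext ?_ (Prod.ext ?_ ?_)
      · simp only [Prod.fst_add, Prod.fst_sub, Prod.smul_fst, wv, ev, smul_zero, add_zero]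
        module
      · simp only [Prod.fst_add, Prod.snd_add, Prod.fst_sub, Prod.snd_sub, Prod.smul_fst, Prod.smul_snd, wv, ev,
          smul_zero, add_zero, smul_eq_mul, sub_zero]
        ring
      · simp only [Prod.snd_add, Prod.snd_sub, Prod.smul_snd, wv, ev, smul_zero, add_zero, sub_zero]
    rw [e1]
    rfl
  have hui : u ∈ isom (fm σ) := mul_mem LA_isom (tgrp_le_isom H _ hU)
  have hud : LinearMap.det (u : Mo (l + 1) F →ₗ[F] Mo (l + 1) F) = 1 := by
    rw [hu, det_mulEquiv, det_LA, tgrp_det H hU, mul_one]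
  have hnil := u_nilp huF
  have hcyc := u_cyc huF ha0 (H.sigma_ne ha0)
  -- the element `g`
  set δ := LinearMap.det (JL (l + 1) F : Mo (l + 1) F →ₗ[F] Mo (l + 1) F) with hδ
  have hδ2 : δ * δ = 1 := det_JL_sq
  have hδσ : σ δ = δ := by
    have h1 : (δ - 1) * (δ + 1) = 0 := by linear_combination hδ2
    rcases mul_eq_zero.1 h1 with h2 | h2
    · rw [sub_eq_zero.1 h2, map_one]
    · rw [eq_neg_of_add_eq_zero_left h2, map_neg, map_one]
  have hww : fm σ (wv (l + 1) F) (wv (l + 1) F) = 1 := by rw [hwv]; rfl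
  have hκ : (δ - 1) + σ (δ - 1) + (δ - 1) * σ (δ - 1) * fm σ (wv (l + 1) F) (wv (l + 1) F) = 0 := by
    rw [hww, map_sub, hδσ, map_one]
    linear_combination hδ2
  set t := el H (wv (l + 1) F) (δ - 1) hκ with ht
  set g : Mo (l + 1) F ≃ₗ[F] Mo (l + 1) F := t * JL (l + 1) F with hg
  have hgx : ∀ x, g x = (x.2.2, δ * x.2.1, x.1) := by
    intro x
    rw [hg, LinearEquiv.mul_apply, ht, el_apply, hwv]
    refine Prod.ext ?_ (Prod.ext ?_ ?_)
    · simp [JL, wv]
    · simp [JL, wv]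
      ring
    · simp [JL, wv]
  have hgi : g ∈ isom (fm σ) := mul_mem (el_mem H _ _ _) JL_isom
  have hgd : LinearMap.det (g : Mo (l + 1) F →ₗ[F] Mo (l + 1) F) = 1 := by
    rw [hg, det_mulEquiv, ht, el_det, hww, mul_one, ← hδ]
    linear_combination hδ2
  have hgg : ∀ x, g (g x) = x := by
    intro x
    rw [hgx, hgx]
    refine Prod.ext rfl (Prod.ext ?_ rfl)
    show δ * (δ * x.2.1) = x.2.1
    linear_combination x.2.1 * hδ2
  have hginv : ∀ x, g⁻¹ x = g x := by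
    intro x
    conv_lhs => rw [← hgg x]
    exact inv_apply g _
  -- the element `h`
  obtain ⟨c, hc⟩ := H.exists_trace (-(-a⁻¹ * σ (-a⁻¹))) (by rw [map_neg, map_mul, hinv]; ring)
  have h00 : e F (l + 1) 0 ⬝ᵥ e F (l + 1) 0 = 1 := e_dot_self (by omega)
  obtain ⟨h, hh, hhx⟩ := rhoIn_all H (M := tgrp H ⊤) le_rfl hnd h4 (e := ev (l + 1) F 0) (u := (-a⁻¹) • wv (l + 1) F)
    Submodule.mem_top (by rw [hev]; simp [ev]) Submodule.mem_top (by rw [hev]; simp [wv]) c (by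
      rw [H.smul_left, H.smul_right, hwv]
      simp only [wv]
      linear_combination hc)
  have hhi : h ∈ isom (fm σ) := tgrp_le_isom H _ hh
  set G := Subgroup.closure ({u, g * u * g⁻¹, h * u * h⁻¹} : Set (Mo (l + 1) F ≃ₗ[F] Mo (l + 1) F)) with hG
  have huG : u ∈ G := Subgroup.subset_closure (Set.mem_insert _ _)
  have hvG : g * u * g⁻¹ ∈ G := Subgroup.subset_closure (Set.mem_insert_of_mem _ (Set.mem_insert _ _))
  have hhG : h * u * h⁻¹ ∈ G := Subgroup.subset_closure (Set.mem_insert_of_mem _ (Set.mem_insert_of_mem _ rfl))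
  have hle : G ≤ isom (fm σ) := by
    rw [hG, Subgroup.closure_le]
    rintro x (rfl | rfl | rfl)
    · exact hui
    · exact mul_mem (mul_mem hgi hui) (inv_mem hgi)
    · exact mul_mem (mul_mem hhi hui) (inv_mem hhi)
  -- action
  have u0 : u (ev (l + 1) F 0) = ev (l + 1) F 0 := by
    rw [huF]
    refine Prod.ext ?_ (Prod.ext ?_ ?_)
    · simp [ev, A_zero]
    · simp [ev]
    · simp [ev]
  have u1 : ∀ i < l, u (ev (l + 1) F i + ev (l + 1) F (i + 1)) = ev (l + 1) F (i + 1) := by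
    intro i hi
    rw [huF]
    refine Prod.ext ?_ (Prod.ext ?_ ?_)
    · simp [ev, A_pair i (show i + 1 < l + 1 by omega)]
    · simp [ev]
    · simp [ev]
  have v1 : ∀ i < l, (g * u * g⁻¹) (ev (l + 1) F i) = ev (l + 1) F i + ev (l + 1) F (i + 1) := by
    intro i hi
    have h0 : e F (l + 1) i ⬝ᵥ e F (l + 1) l = 0 := e_dot_ne (by omega)
    rw [LinearEquiv.mul_apply, LinearEquiv.mul_apply, hginv, hgx (ev (l + 1) F i), huF, hgx]
    refine Prod.ext ?_ (Prod.ext ?_ ?_)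
    · simp [ev, js_mulVec]
    · simp [ev, h0]
    · simp [ev, h0]
  have vl : (g * u * g⁻¹) (ev (l + 1) F l) = (e F (l + 1) l, δ * (-σ a), σ θ • (A (l + 1) F *ᵥ e F (l + 1) l)) := by
    rw [LinearEquiv.mul_apply, LinearEquiv.mul_apply, hginv, hgx (ev (l + 1) F l), huF, hgx]
    refine Prod.ext ?_ (Prod.ext ?_ ?_)
    · simp [ev, js_mulVec, e_eq_zero (show l + 1 ≤ l + 1 from le_rfl)]
    · simp [ev, hll]
    · simp [ev, hll, Matrix.mulVec_smul]
  have S : Sys (fm σ) G (EE (l + 1) F) (ev (l + 1) F) l u (g * u * g⁻¹) :=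
    { le := hle
      tot := tot_EE
      mem := fun i _ => mem_EE' _
      hu := huG
      hv := hvG
      u0 := u0
      u1 := u1
      v1 := v1 }
  have hθ : fm σ (ev (l + 1) F l) ((g * u * g⁻¹) (ev (l + 1) F l)) = θ := by
    rw [vl]
    have h1 := ll_A huF (e F (l + 1) l)
    rw [hll] at h1
    have h2 : e F (l + 1) l ⬝ᵥ cv σ (A (l + 1) F *ᵥ e F (l + 1) l) = 1 := by
      rw [cv_A, cv_e, h1]
    simp only [fm, ev, cv_smul, hinv, dotProduct_smul, h2, zero_mul, zero_dotProduct, add_zero, smul_eq_mul, mul_one]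
  -- the root element
  have hd : u (wv (l + 1) F) = wv (l + 1) F + (a • (A (l + 1) F *ᵥ e F (l + 1) l), 0) := by
    rw [huF]
    refine Prod.ext ?_ (Prod.ext ?_ ?_)
    · simp [wv, Matrix.mulVec_smul]
    · simp [wv]
    · simp [wv]
  have hin1 := third H huG hui hhG hhx u0 hd (by rw [hev]; simp [ev]) (by rw [hev]; simp [wv]) (by rw [hev]; simp)
    (by simp [fm, ev, cv_zero]) (by simp [fm, wv, cv_zero]) (by simp [fm, cv_zero])
  have hin : In G (D (fm σ) (ev (l + 1) F 0) (ev (l + 1) F l)) := by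
    have h1 := In.conjD (G.inv_mem huG) (hle (G.inv_mem huG)) hin1
    have h2 : u⁻¹ (ev (l + 1) F 0) = ev (l + 1) F 0 := by
      conv_lhs => rw [← u0]
      exact inv_apply u _
    have h3 : u (ev (l + 1) F l) = - -a⁻¹ • (a • (A (l + 1) F *ᵥ e F (l + 1) l), (0 : F × (Fin (l + 1) → F))) := by
      rw [huF]
      refine Prod.ext ?_ (Prod.ext ?_ ?_)
      · simp [ev, smul_smul, inv_mul_cancel₀ ha0]
      · simp [ev]
      · simp [ev]
    rw [h2, ← h3, inv_apply] at h1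
    exact h1
  refine ⟨u, g, h, ⟨hui, hud⟩, ⟨hgi, hgd⟩, ⟨hhi, tgrp_det H hh⟩, hnil, ?_, ?_⟩
  · intro h0
    apply hcyc
    rw [h0]
    rfl
  · intro s hs hsd
    have hconj : ∀ (j : ℕ) (x : Mo (l + 1) F), (Nn (g * u * g⁻¹) ^ j) (g x) = g ((Nn u ^ j) x) := by
      intro j
      induction j with
      | zero => intro x; rfl
      | succ j ih =>
        intro x
        rw [pow_succ, pow_succ, Module.End.mul_apply, Module.End.mul_apply, ← ih]
        congr 1
        rw [Nn_apply, Nn_apply, map_sub, LinearEquiv.mul_apply, LinearEquiv.mul_apply, inv_apply]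
    have hgf : g (fv (l + 1) F 0) = ev (l + 1) F 0 := by
      rw [hgx]
      refine Prod.ext rfl (Prod.ext ?_ rfl)
      simp [fv, ev]
    have hnilv : IsNilpotent (Nn (g * u * g⁻¹)) := by
      obtain ⟨j, hj⟩ := hnil
      refine ⟨j, LinearMap.ext fun x => ?_⟩
      have := hconj j (g⁻¹ x)
      rw [apply_inv, hj] at this
      rw [this]
      simp
    have hcycv : (Nn (g * u * g⁻¹) ^ (2 * l + 2)) (ev (l + 1) F 0) ≠ 0 := by
      rw [← hgf, hconj]
      intro h0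
      exact hcyc ((map_eq_zero_iff g g.injective).1 h0)
    exact su_of_sys H S hl EE_span hθ hne' hT0 hT hin EE_max hnd (by rw [finrank_EE]; omega)
      (by rw [hfr]; omega) (k := 2 * l + 2) (by rw [hfr]; ring) hnilv hcycv hs hsd

end Cfsg.Agent.Lib.RegSU
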