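import Cfsg.Agent.Lib.RegSU7
import Cfsg.Agent.Lib.UnSpec
import Cfsg.Agent.Lib.ClUnSimple

/-! Generation of `SU(n,q)` by conjugate regular unipotent elements: transport to matrices. -/

set_option autoImplicit false
set_option linter.unusedSectionVars false

namespace Cfsg.Agent.Lib.RegSU

open Matrix Cfsg
open Cfsg.Agent.Lib.SpTrans (isom mem_isom)
open Cfsg.Agent.Lib.UnTrans
open Cfsg.Agent.Lib.ClUnitary (frob frob_frob)
open Cfsg.Agent.Lib.HermAlg (IsHerm)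

variable {F : Type*} [Field F] [Fintype F] {q l n : ℕ}

theorem exists_psi (hF : Fintype.card F = q ^ 2) (hn : n = 2 * (l + 1) + 1) :
    ∃ ψ : Mo (l + 1) F ≃ₗ[F] (Fin n → F), ∀ x y, hermForm n F q (ψ x) (ψ y) = fm (frob hF) x y := by
  have hinv : ∀ a, frob hF (frob hF a) = a := frob_frob hF
  have hne := UnSpec.exists_ne hF
  have H : HS (frob hF) (fm (frob hF) : Mo (l + 1) F → Mo (l + 1) F → F) := fm_HS hinv hne
  have hh : IsHerm (frob hF) 1 (fm (frob hF) : Mo (l + 1) F → Mo (l + 1) F → F) :=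
    { add_left := H.add_left
      smul_left := H.smul_left
      symm := fun x y => by rw [one_mul]; exact H.herm y x
      nondeg := fun x hx => by
        by_contra hne
        obtain ⟨y, -, hy⟩ := fm_nd x Submodule.mem_top hne
        exact hy (hx y) }
  exact UnSpec.exists_standard hF n hh (by rw [finrank_Mo, hn])

section transport

variable (ψ : Mo (l + 1) F ≃ₗ[F] (Fin n → F))

/-- the matrix `A` induces `s` -/
def Ind' (A : SU n F q) (s : Mo (l + 1) F ≃ₗ[F] Mo (l + 1) F) : Prop := ∀ x, ψ (s x) = A.1.1 *ᵥ ψ x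

variable {ψ}

theorem Ind'.mul {A B : SU n F q} {s t : Mo (l + 1) F ≃ₗ[F] Mo (l + 1) F} (h : Ind' ψ A s) (h' : Ind' ψ B t) :
    Ind' ψ (A * B) (s * t) := by
  intro x
  rw [LinearEquiv.mul_apply, h, h', Matrix.mulVec_mulVec]
  rfl

theorem Ind'.inv {A : SU n F q} {s : Mo (l + 1) F ≃ₗ[F] Mo (l + 1) F} (h : Ind' ψ A s) : Ind' ψ A⁻¹ s⁻¹ := by
  intro x
  have h1 := h (s⁻¹ x)
  rw [apply_inv] at h1
  rw [h1, Matrix.mulVec_mulVec]
  have h2 : (A⁻¹ : SU n F q).1.1 * A.1.1 = 1 := by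
    have : (A⁻¹ * A : SU n F q).1.1 = (1 : Matrix (Fin n) (Fin n) F) := by rw [inv_mul_cancel]; rfl
    exact this
  rw [h2, Matrix.one_mulVec]

theorem Ind'.ext {A B : SU n F q} {s : Mo (l + 1) F ≃ₗ[F] Mo (l + 1) F} (h : Ind' ψ A s) (h' : Ind' ψ B s) :
    A = B := by
  apply Subtype.ext
  apply Subtype.ext
  apply Matrix.ext_of_mulVec_single
  intro i
  have h1 := h (ψ.symm (Pi.single i 1))
  have h2 := h' (ψ.symm (Pi.single i 1))
  rw [LinearEquiv.apply_symm_apply] at h1 h2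
  rw [← h1, ← h2]

theorem exists_mat (hF : Fintype.card F = q ^ 2)
    (hψ : ∀ x y, hermForm n F q (ψ x) (ψ y) = fm (frob hF) x y) {s : Mo (l + 1) F ≃ₗ[F] Mo (l + 1) F}
    (hs : s ∈ isom (fm (frob hF))) (hd : LinearMap.det (s : Mo (l + 1) F →ₗ[F] Mo (l + 1) F) = 1) :
    ∃ A : SU n F q, Ind' ψ A s := by
  let s' : (Fin n → F) ≃ₗ[F] (Fin n → F) := ψ.symm.trans (s.trans ψ)
  have hs' : s' ∈ ClUnSimple.SUg n F q := by
    refine ⟨fun x y => ?_, ?_⟩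
    · show hermForm n F q (ψ (s (ψ.symm x))) (ψ (s (ψ.symm y))) = _
      rw [hψ, hs, ← hψ, LinearEquiv.apply_symm_apply, LinearEquiv.apply_symm_apply]
    · have : (s' : (Fin n → F) →ₗ[F] (Fin n → F)) =
          (ψ : Mo (l + 1) F →ₗ[F] (Fin n → F)) ∘ₗ (s : Mo (l + 1) F →ₗ[F] Mo (l + 1) F) ∘ₗ
            (ψ.symm : (Fin n → F) →ₗ[F] Mo (l + 1) F) := rfl
      rw [this, LinearMap.det_conj]
      exact hd
  refine ⟨(ClUnSimple.suIso n F q).symm ⟨s', hs'⟩, fun x => ?_⟩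
  rw [← ClUnSimple.suIso_apply, MulEquiv.apply_symm_apply]
  show ψ (s x) = ψ (s (ψ.symm (ψ x)))
  rw [LinearEquiv.symm_apply_apply]

theorem exists_lin (hF : Fintype.card F = q ^ 2)
    (hψ : ∀ x y, hermForm n F q (ψ x) (ψ y) = fm (frob hF) x y) (A : SU n F q) :
    ∃ s : Mo (l + 1) F ≃ₗ[F] Mo (l + 1) F, s ∈ isom (fm (frob hF)) ∧
      LinearMap.det (s : Mo (l + 1) F →ₗ[F] Mo (l + 1) F) = 1 ∧ Ind' ψ A s := by
  obtain ⟨s', hs'⟩ := ClUnSimple.suIso n F q A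
  set t := (ClUnSimple.suIso n F q A : (Fin n → F) ≃ₗ[F] (Fin n → F)) with ht
  have hti := (ClUnSimple.suIso n F q A).2
  rw [← ht] at hti
  refine ⟨ψ.trans (t.trans ψ.symm), fun x y => ?_, ?_, fun x => ?_⟩
  · show fm (frob hF) (ψ.symm (t (ψ x))) (ψ.symm (t (ψ y))) = _
    rw [← hψ, LinearEquiv.apply_symm_apply, LinearEquiv.apply_symm_apply, hti.1, hψ]
  · have : ((ψ.trans (t.trans ψ.symm) : Mo (l + 1) F ≃ₗ[F] Mo (l + 1) F) : Mo (l + 1) F →ₗ[F] Mo (l + 1) F) =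
        (ψ.symm : (Fin n → F) →ₗ[F] Mo (l + 1) F) ∘ₗ (t : (Fin n → F) →ₗ[F] (Fin n → F)) ∘ₗ
          (ψ.symm.symm : Mo (l + 1) F →ₗ[F] (Fin n → F)) := rfl
    rw [this, LinearMap.det_conj]
    exact hti.2
  · show ψ (ψ.symm (t (ψ x))) = _
    rw [LinearEquiv.apply_symm_apply]
    rfl

theorem Ind'.pow {A : SU n F q} {s : Mo (l + 1) F ≃ₗ[F] Mo (l + 1) F} (h : Ind' ψ A s) (k : ℕ) (x : Mo (l + 1) F) :
    ψ ((Nn s ^ k) x) = (A.1.1 - 1) ^ k *ᵥ ψ x := by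
  induction k with
  | zero => rw [pow_zero, pow_zero, Matrix.one_mulVec]; rfl
  | succ k ih =>
    rw [pow_succ', Module.End.mul_apply, Nn_apply, map_sub, h, ih, pow_succ', ← Matrix.mulVec_mulVec,
      Matrix.sub_mulVec, Matrix.one_mulVec]

end transport

theorem main_big (hF : Fintype.card F = q ^ 2) (hl : 1 ≤ l) (hn : n = 2 * (l + 1) + 1) :
    ∃ u g h : ↥(SU n F q), (IsNilpotent (((u : Matrix.SpecialLinearGroup (Fin n) F) : Matrix (Fin n) (Fin n) F) - 1) ∧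
      (((u : Matrix.SpecialLinearGroup (Fin n) F) : Matrix (Fin n) (Fin n) F) - 1) ^ (n - 1) ≠ 0) ∧
      Subgroup.closure ({u, g * u * g⁻¹, h * u * h⁻¹} : Set ↥(SU n F q)) = ⊤ := by
  have hinv : ∀ a, frob hF (frob hF a) = a := frob_frob hF
  have hne := UnSpec.exists_ne hF
  obtain ⟨ψ, hψ⟩ := exists_psi (l := l) hF hn
  obtain ⟨u, g, h, ⟨hui, hud⟩, ⟨hgi, hgd⟩, ⟨hhi, hhd⟩, hnil, hreg, hgen⟩ := main_model (F := F) hl hinv hne
  obtain ⟨Au, hAu⟩ := exists_mat hF hψ hui hud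
  obtain ⟨Ag, hAg⟩ := exists_mat hF hψ hgi hgd
  obtain ⟨Ah, hAh⟩ := exists_mat hF hψ hhi hhd
  refine ⟨Au, Ag, Ah, ⟨?_, ?_⟩, ?_⟩
  · obtain ⟨k, hk⟩ := hnil
    refine ⟨k, Matrix.ext_of_mulVec_single fun i => ?_⟩
    have := hAu.pow k (ψ.symm (Pi.single i 1))
    rw [hk, LinearEquiv.apply_symm_apply] at this
    rw [← this, Matrix.zero_mulVec]
    exact map_zero ψ
  · intro h0
    apply hreg
    apply LinearMap.ext
    intro x
    have := hAu.pow (2 * l + 2) x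
    rw [show n - 1 = 2 * l + 2 by omega] at h0
    have h1 : (Au.1.1 - 1) ^ (2 * l + 2) = 0 := h0
    rw [h1, Matrix.zero_mulVec] at this
    exact (map_eq_zero_iff ψ ψ.injective).1 this
  · set G' := Subgroup.closure ({Au, Ag * Au * Ag⁻¹, Ah * Au * Ah⁻¹} : Set ↥(SU n F q)) with hG'
    let K : Subgroup (Mo (l + 1) F ≃ₗ[F] Mo (l + 1) F) :=
      { carrier := {s | ∃ A ∈ G', Ind' ψ A s}
        mul_mem' := by
          rintro s t ⟨A, hA, h1⟩ ⟨B, hB, h2⟩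
          exact ⟨A * B, G'.mul_mem hA hB, h1.mul h2⟩
        one_mem' := ⟨1, G'.one_mem, fun x => by
          show ψ x = (1 : Matrix (Fin n) (Fin n) F) *ᵥ ψ x
          rw [Matrix.one_mulVec]⟩
        inv_mem' := by
          rintro s ⟨A, hA, h1⟩
          exact ⟨A⁻¹, G'.inv_mem hA, h1.inv⟩ }
    have hK : Subgroup.closure ({u, g * u * g⁻¹, h * u * h⁻¹} : Set (Mo (l + 1) F ≃ₗ[F] Mo (l + 1) F)) ≤ K := by
      rw [Subgroup.closure_le]
      rintro x (rfl | rfl | rfl)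
      · exact ⟨Au, Subgroup.subset_closure (Set.mem_insert _ _), hAu⟩
      · exact ⟨Ag * Au * Ag⁻¹, Subgroup.subset_closure (Set.mem_insert_of_mem _ (Set.mem_insert _ _)),
          (hAg.mul hAu).mul hAg.inv⟩
      · exact ⟨Ah * Au * Ah⁻¹, Subgroup.subset_closure (Set.mem_insert_of_mem _ (Set.mem_insert_of_mem _ rfl)),
          (hAh.mul hAu).mul hAh.inv⟩
    rw [eq_top_iff]
    intro A _
    obtain ⟨s, hs, hsd, hA⟩ := exists_lin hF hψ A
    obtain ⟨B, hB, hB'⟩ := hK (hgen s hs hsd)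
    rw [hA.ext hB']
    exact hB

end Cfsg.Agent.Lib.RegSU
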