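import Cfsg.Agent.Lib.RootCalcSL
import Cfsg.Agent.Lib.SympGen

/-! Generation of `Sp(2n,F)` by conjugate regular unipotent elements: block matrix calculus. -/

set_option autoImplicit false
set_option linter.unusedSectionVars false

namespace Cfsg.Agent.Lib.RegSp

open Matrix RootCalcSL

variable {F : Type*} [Field F] {n : ℕ}

/-- the symplectic group -/
abbrev Sp (n : ℕ) (F : Type*) [Field F] := Matrix.symplecticGroup (Fin n) F

abbrev Mt (n : ℕ) (F : Type*) [Field F] := Matrix (Fin n) (Fin n) F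

abbrev Mt2 (n : ℕ) (F : Type*) [Field F] := Matrix (Fin n ⊕ Fin n) (Fin n ⊕ Fin n) F

def Mem (G : Subgroup (Sp n F)) (X : Mt2 n F) : Prop := ∃ g ∈ G, (g : Mt2 n F) = X

section mem

variable {G : Subgroup (Sp n F)} {X Y Z : Mt2 n F}

theorem coe_mul_inv (g : Sp n F) : (g : Mt2 n F) * ((g⁻¹ : Sp n F) : Mt2 n F) = 1 := by
  rw [← Submonoid.coe_mul, mul_inv_cancel, Submonoid.coe_one]

theorem coe_inv_mul (g : Sp n F) : ((g⁻¹ : Sp n F) : Mt2 n F) * (g : Mt2 n F) = 1 := by
  rw [← Submonoid.coe_mul, inv_mul_cancel, Submonoid.coe_one]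

theorem Mem.mul (hX : Mem G X) (hY : Mem G Y) : Mem G (X * Y) := by
  obtain ⟨x, hx, rfl⟩ := hX
  obtain ⟨y, hy, rfl⟩ := hY
  exact ⟨x * y, G.mul_mem hx hy, rfl⟩

theorem Mem.one : Mem G (1 : Mt2 n F) := ⟨1, G.one_mem, rfl⟩

theorem Mem.conj (hX : Mem G X) (hY : Mem G Y) (h : Z * X = X * Y) : Mem G Z := by
  obtain ⟨x, hx, rfl⟩ := hX
  obtain ⟨y, hy, rfl⟩ := hY
  refine ⟨x * y * x⁻¹, G.mul_mem (G.mul_mem hx hy) (G.inv_mem hx), ?_⟩
  rw [Submonoid.coe_mul, Submonoid.coe_mul, ← h, mul_assoc, coe_mul_inv, mul_one]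

theorem Mem.conj' (hX : Mem G X) (hY : Mem G Y) (h : X * Z = Y * X) : Mem G Z := by
  obtain ⟨x, hx, rfl⟩ := hX
  obtain ⟨y, hy, rfl⟩ := hY
  refine ⟨x⁻¹ * y * x, G.mul_mem (G.mul_mem (G.inv_mem hx) hy) hx, ?_⟩
  rw [Submonoid.coe_mul, Submonoid.coe_mul, mul_assoc, ← h, ← mul_assoc, coe_inv_mul, one_mul]

theorem Mem.div (hX : Mem G X) (hY : Mem G Y) (h : Z * Y = X) : Mem G Z := by
  obtain ⟨x, hx, rfl⟩ := hX
  obtain ⟨y, hy, rfl⟩ := hY
  refine ⟨x * y⁻¹, G.mul_mem hx (G.inv_mem hy), ?_⟩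
  rw [Submonoid.coe_mul, ← h, mul_assoc, coe_mul_inv, mul_one]

theorem Mem.div' (hX : Mem G X) (hY : Mem G Y) (h : Y * Z = X) : Mem G Z := by
  obtain ⟨x, hx, rfl⟩ := hX
  obtain ⟨y, hy, rfl⟩ := hY
  refine ⟨y⁻¹ * x, G.mul_mem (G.inv_mem hy) hx, ?_⟩
  rw [Submonoid.coe_mul, ← h, ← mul_assoc, coe_inv_mul, one_mul]

theorem Mem.inv (hX : Mem G X) (h : Z * X = 1) : Mem G Z := Mem.div Mem.one hX h

end mem

/-- symmetric outer product -/
def sy (x y : Fin n → F) : Mt n F := vecMulVec x y + vecMulVec y x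

/-- square -/
def sq (x : Fin n → F) : Mt n F := vecMulVec x x

theorem sq_transpose (x : Fin n → F) : (sq x)ᵀ = sq x := by
  unfold sq; rw [Matrix.transpose_vecMulVec]

theorem sy_transpose (x y : Fin n → F) : (sy x y)ᵀ = sy x y := by
  unfold sy; rw [Matrix.transpose_add, Matrix.transpose_vecMulVec, Matrix.transpose_vecMulVec, add_comm]

theorem sy_comm (x y : Fin n → F) : sy x y = sy y x := by unfold sy; rw [add_comm]

theorem sq_add (x y : Fin n → F) : sq (x + y) = sq x + sq y + sy x y := by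
  unfold sq sy; rw [Matrix.add_vecMulVec, Matrix.vecMulVec_add, Matrix.vecMulVec_add]; abel

theorem sy_add_left (x y z : Fin n → F) : sy (x + y) z = sy x z + sy y z := by
  unfold sy; rw [Matrix.add_vecMulVec, Matrix.vecMulVec_add]; abel

theorem sy_add_right (x y z : Fin n → F) : sy x (y + z) = sy x y + sy x z := by
  rw [sy_comm, sy_add_left, sy_comm y, sy_comm z]

theorem sy_self (x : Fin n → F) : sy x x = (2 : F) • sq x := by
  unfold sy sq; rw [two_smul]

theorem sy_smul_left (c : F) (x y : Fin n → F) : sy (c • x) y = c • sy x y := by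
  unfold sy; rw [Matrix.smul_vecMulVec, Matrix.vecMulVec_smul, smul_add]

theorem sq_smul (c : F) (x : Fin n → F) : sq (c • x) = c ^ 2 • sq x := by
  unfold sq; rw [Matrix.smul_vecMulVec, Matrix.vecMulVec_smul, smul_smul, pow_two]

theorem conj_sq (B : Mt n F) (x : Fin n → F) : B * sq x * Bᵀ = sq (B *ᵥ x) := by
  unfold sq; rw [Matrix.mul_vecMulVec, Matrix.vecMulVec_mul, Matrix.vecMul_transpose]

theorem conj_sy (B : Mt n F) (x y : Fin n → F) : B * sy x y * Bᵀ = sy (B *ᵥ x) (B *ᵥ y) := by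
  unfold sy; rw [Matrix.mul_add, Matrix.add_mul, Matrix.mul_vecMulVec, Matrix.vecMulVec_mul, Matrix.vecMul_transpose,
    Matrix.mul_vecMulVec, Matrix.vecMulVec_mul, Matrix.vecMul_transpose]

/-- upper unipotent block -/
def Um (S : Mt n F) : Mt2 n F := fromBlocks 1 S 0 1

/-- lower unipotent block -/
def Lm (S : Mt n F) : Mt2 n F := fromBlocks 1 0 S 1

theorem Um_mul (S T : Mt n F) : Um S * Um T = Um (S + T) := by
  unfold Um; rw [Matrix.fromBlocks_multiply]; simp [add_comm]

theorem Lm_mul (S T : Mt n F) : Lm S * Lm T = Lm (S + T) := by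
  unfold Lm; rw [Matrix.fromBlocks_multiply]; simp

theorem Um_zero : Um (0 : Mt n F) = 1 := by unfold Um; rw [Matrix.fromBlocks_one]

/-- `Um S ∈ G` -/
def UM (G : Subgroup (Sp n F)) (S : Mt n F) : Prop := Mem G (Um S)

section um

variable {G : Subgroup (Sp n F)} {S T : Mt n F}

theorem UM.add (h : UM G S) (h' : UM G T) : UM G (S + T) := by
  unfold UM at *; rw [← Um_mul]; exact h.mul h'

theorem UM.zero : UM G (0 : Mt n F) := by
  unfold UM; rw [Um_zero]; exact Mem.one

theorem UM.neg (h : UM G S) : UM G (-S) := by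
  unfold UM at *
  apply h.inv
  rw [Um_mul, neg_add_cancel, Um_zero]

theorem UM.sub (h : UM G S) (h' : UM G T) : UM G (S - T) := by
  rw [sub_eq_add_neg]; exact h.add h'.neg

theorem UM.nsmul (h : UM G S) (k : ℕ) : UM G ((k : F) • S) := by
  induction k with
  | zero => rw [Nat.cast_zero, zero_smul]; exact UM.zero
  | succ k ih => rw [Nat.cast_succ, add_smul, one_smul]; exact ih.add h

end um

/-- `A' = 1 + Nᵀ`: `e i ↦ e i + e (i+1)` -/
abbrev A' (n : ℕ) (F : Type*) [Field F] : Mt n F := jm F n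

/-- `A = (A'ᵀ)⁻¹` -/
noncomputable def A (n : ℕ) (F : Type*) [Field F] : Mt n F := ((jm F n)ᵀ)⁻¹

theorem A_mul : A n F * (A' n F)ᵀ = 1 := by
  unfold A
  apply Matrix.nonsing_inv_mul
  rw [Matrix.det_transpose, det_jm]
  exact isUnit_one

theorem mul_A : (A' n F)ᵀ * A n F = 1 := by
  unfold A
  apply Matrix.mul_nonsing_inv
  rw [Matrix.det_transpose, det_jm]
  exact isUnit_one

theorem A_transpose_mul : (A n F)ᵀ * A' n F = 1 := by
  have := congrArg Matrix.transpose (mul_A (n := n) (F := F))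
  rwa [Matrix.transpose_mul, Matrix.transpose_transpose, Matrix.transpose_one] at this

theorem mul_A_transpose : A' n F * (A n F)ᵀ = 1 := by
  have := congrArg Matrix.transpose (A_mul (n := n) (F := F))
  rwa [Matrix.transpose_mul, Matrix.transpose_transpose, Matrix.transpose_one] at this

/-- last vector -/
abbrev el (n : ℕ) (F : Type*) [Field F] : Fin n → F := e F n (n - 1)

/-- the regular unipotent `u` -/
noncomputable def um (n : ℕ) (a : F) : Mt2 n F := fromBlocks (A n F) (A n F * (a • sq (el n F))) 0 (A' n F)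

/-- the opposite `J u J⁻¹` -/
noncomputable def vm (n : ℕ) (a : F) : Mt2 n F := fromBlocks (A' n F) 0 (-(A n F * (a • sq (el n F)))) (A n F)

section struct

variable {G : Subgroup (Sp n F)} {a : F}

/-- conjugation by `u` -/
theorem UM.conjA (hu : Mem G (um n a)) {S : Mt n F} (h : UM G S) : UM G (A n F * S * (A n F)ᵀ) := by
  apply Mem.conj hu h
  unfold Um um
  rw [Matrix.fromBlocks_multiply, Matrix.fromBlocks_multiply]
  simp only [Matrix.one_mul, Matrix.mul_zero, Matrix.mul_one, Matrix.zero_mul, add_zero, zero_add]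
  rw [Matrix.mul_assoc (A n F * S), A_transpose_mul, Matrix.mul_one, add_comm]

theorem UM.conjA_inv (hu : Mem G (um n a)) {S : Mt n F} (h : UM G (A n F * S * (A n F)ᵀ)) : UM G S := by
  apply Mem.conj' hu h
  unfold Um um
  rw [Matrix.fromBlocks_multiply, Matrix.fromBlocks_multiply]
  simp only [Matrix.one_mul, Matrix.mul_zero, Matrix.mul_one, Matrix.zero_mul, add_zero, zero_add]
  rw [Matrix.mul_assoc (A n F * S), A_transpose_mul, Matrix.mul_one, add_comm]

/-- conjugation by `v` of elements away from the last index -/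
theorem UM.conjA' (hv : Mem G (vm n a)) {S : Mt n F} (hS : sq (el n F) * S = 0) (hS' : S * sq (el n F) = 0)
    (h : UM G S) : UM G (A' n F * S * (A' n F)ᵀ) := by
  apply Mem.conj hv h
  unfold Um vm
  rw [Matrix.fromBlocks_multiply, Matrix.fromBlocks_multiply]
  simp only [Matrix.one_mul, Matrix.mul_zero, Matrix.mul_one, Matrix.zero_mul, add_zero, zero_add]
  congr 1
  · have e1 : A' n F * S * (A' n F)ᵀ * -(A n F * (a • sq (el n F))) = 0 := by
      rw [Matrix.mul_neg, Matrix.mul_assoc (A' n F * S), ← Matrix.mul_assoc ((A' n F)ᵀ), mul_A, Matrix.one_mul,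
        Matrix.mul_assoc, Matrix.mul_smul, hS', smul_zero, Matrix.mul_zero, neg_zero]
    rw [e1, add_zero]
  · rw [Matrix.mul_assoc (A' n F * S), mul_A, Matrix.mul_one]
  · rw [Matrix.neg_mul, Matrix.mul_assoc, Matrix.smul_mul, hS, smul_zero, Matrix.mul_zero, neg_zero, zero_add]

theorem UM.conjA'_inv (hv : Mem G (vm n a)) {S : Mt n F} (hS : sq (el n F) * S = 0) (hS' : S * sq (el n F) = 0)
    (h : UM G (A' n F * S * (A' n F)ᵀ)) : UM G S := by
  apply Mem.conj' hv h
  unfold Um vm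
  rw [Matrix.fromBlocks_multiply, Matrix.fromBlocks_multiply]
  simp only [Matrix.one_mul, Matrix.mul_zero, Matrix.mul_one, Matrix.zero_mul, add_zero, zero_add]
  congr 1
  · have e1 : A' n F * S * (A' n F)ᵀ * -(A n F * (a • sq (el n F))) = 0 := by
      rw [Matrix.mul_neg, Matrix.mul_assoc (A' n F * S), ← Matrix.mul_assoc ((A' n F)ᵀ), mul_A, Matrix.one_mul,
        Matrix.mul_assoc, Matrix.mul_smul, hS', smul_zero, Matrix.mul_zero, neg_zero]
    rw [e1, add_zero]
  · rw [Matrix.mul_assoc (A' n F * S), mul_A, Matrix.mul_one]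
  · rw [Matrix.neg_mul, Matrix.mul_assoc, Matrix.smul_mul, hS, smul_zero, Matrix.mul_zero, neg_zero, zero_add]

end struct

section vectors

theorem e_dot (i j : ℕ) : e F n i ⬝ᵥ e F n j = if i = j ∧ i < n then 1 else 0 := by
  by_cases hi : i < n
  · rw [show e F n i = Pi.single (⟨i, hi⟩ : Fin n) 1 from e_eq_single ⟨i, hi⟩, single_dotProduct, one_mul]
    simp only [e]
    by_cases h : i = j
    · rw [if_pos h, if_pos ⟨h, hi⟩]
    · rw [if_neg h, if_neg (fun h2 => h h2.1)]
  · rw [e_eq_zero (by omega), zero_dotProduct, if_neg (fun h => hi h.2)]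

theorem e_dot_self {i : ℕ} (hi : i < n) : e F n i ⬝ᵥ e F n i = 1 := by rw [e_dot, if_pos ⟨rfl, hi⟩]

theorem e_dot_ne {i j : ℕ} (h : i ≠ j) : e F n i ⬝ᵥ e F n j = 0 := by rw [e_dot, if_neg (fun h2 => h h2.1)]

theorem At_succ (k : ℕ) (hk : k + 1 < n) : (A' n F)ᵀ *ᵥ e F n (k + 1) = e F n (k + 1) + e F n k := by
  rw [Matrix.mulVec_transpose]
  ext j
  rw [vecMul_js, Pi.add_apply]
  simp only [e]
  congr 1
  by_cases h : j.val + 1 < n
  · rw [dif_pos h]
    simp only [Nat.add_right_cancel_iff]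
  · rw [dif_neg h, if_neg (by omega)]

theorem At_zero : (A' n F)ᵀ *ᵥ e F n 0 = e F n 0 := by
  rw [Matrix.mulVec_transpose]
  ext j
  rw [vecMul_js]
  simp only [e]
  by_cases h : j.val + 1 < n
  · rw [dif_pos h]; simp
  · rw [dif_neg h, add_zero]

theorem A_pair (k : ℕ) (hk : k + 1 < n) : A n F *ᵥ (e F n k + e F n (k + 1)) = e F n (k + 1) := by
  rw [add_comm, ← At_succ k hk, Matrix.mulVec_mulVec, A_mul, Matrix.one_mulVec]

theorem A_zero : A n F *ᵥ e F n 0 = e F n 0 := by
  conv_lhs => rw [← At_zero]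
  rw [Matrix.mulVec_mulVec, A_mul, Matrix.one_mulVec]

theorem A'_last (hn : 1 ≤ n) : A' n F *ᵥ el n F = el n F := by
  rw [js_mulVec, show e F n (n - 1 + 1) = 0 from e_eq_zero (by omega), add_zero]

theorem sq_mul_sq (x y : Fin n → F) : sq x * sq y = (x ⬝ᵥ y) • vecMulVec x y := by
  unfold sq; rw [RootCalc.vmv]

/-- `S` avoids the last index -/
def Off (S : Mt n F) : Prop := sq (el n F) * S = 0 ∧ S * sq (el n F) = 0

theorem Off.smul {S : Mt n F} (h : Off S) (c : F) : Off (c • S) := by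
  refine ⟨by rw [Matrix.mul_smul, h.1, smul_zero], by rw [Matrix.smul_mul, h.2, smul_zero]⟩

theorem off_sq {x : Fin n → F} (h : el n F ⬝ᵥ x = 0) : Off (sq x) := by
  refine ⟨?_, ?_⟩
  · rw [sq_mul_sq, h, zero_smul]
  · rw [sq_mul_sq, dotProduct_comm, h, zero_smul]

theorem off_sy {x y : Fin n → F} (h : el n F ⬝ᵥ x = 0) (h' : el n F ⬝ᵥ y = 0) : Off (sy x y) := by
  have h1 : x ⬝ᵥ el n F = 0 := by rw [dotProduct_comm]; exact h
  have h2 : y ⬝ᵥ el n F = 0 := by rw [dotProduct_comm]; exact h'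
  unfold sy
  refine ⟨?_, ?_⟩
  · unfold sq
    rw [Matrix.mul_add, RootCalc.vmv, RootCalc.vmv, h, h', zero_smul, zero_smul, add_zero]
  · unfold sq
    rw [Matrix.add_mul, RootCalc.vmv, RootCalc.vmv, h1, h2, zero_smul, zero_smul, add_zero]

theorem off_e {i : ℕ} (hi : i + 1 < n) : el n F ⬝ᵥ e F n i = 0 := e_dot_ne (by omega)

end vectors

section K

variable {G : Subgroup (Sp n F)} {a : F} (hu : Mem G (um n a)) (hv : Mem G (vm n a))

include hu in
theorem UM.conjN {S : Mt n F} (h : UM G S) : UM G ((A' n F)ᵀ * S * ((A' n F)ᵀ)ᵀ) := by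
  apply UM.conjA_inv hu
  have : A n F * ((A' n F)ᵀ * S * ((A' n F)ᵀ)ᵀ) * (A n F)ᵀ = (A n F * (A' n F)ᵀ) * S * (A' n F * (A n F)ᵀ) := by
    rw [Matrix.transpose_transpose]
    simp only [Matrix.mul_assoc]
  rw [this, A_mul, mul_A_transpose, Matrix.one_mul, Matrix.mul_one]
  exact h

theorem smul_conj (B S : Mt n F) (c : F) : B * (c • S) * Bᵀ = c • (B * S * Bᵀ) := by
  rw [Matrix.mul_smul, Matrix.smul_mul]

include hu hv

theorem K_pair {r : F} {i : ℕ} (hi : i + 1 < n) (h : UM G (r • sq (e F n i))) :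
    UM G (r • sq (e F n i + e F n (i + 1))) := by
  have h1 := UM.conjA' hv ((off_sq (off_e hi)).smul r).1 ((off_sq (off_e hi)).smul r).2 h
  rwa [smul_conj, conj_sq, js_mulVec] at h1

theorem K_shift {r : F} {i : ℕ} (hi : i + 1 < n) (h : UM G (r • sq (e F n i))) :
    UM G (r • sq (e F n (i + 1))) := by
  have h1 := UM.conjA hu (K_pair hu hv hi h)
  rwa [smul_conj, conj_sq, A_pair _ hi] at h1

theorem K_unshift {r : F} {i : ℕ} (hi : i + 1 < n) (h : UM G (r • sq (e F n (i + 1)))) :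
    UM G (r • sq (e F n i)) := by
  have h1 := UM.conjN hu h
  rw [smul_conj, conj_sq, At_succ _ hi] at h1
  apply UM.conjA'_inv hv ((off_sq (off_e hi)).smul r).1 ((off_sq (off_e hi)).smul r).2
  rw [smul_conj, conj_sq, js_mulVec, add_comm]
  exact h1

theorem K_sq {r : F} (h : UM G (r • sq (e F n 0))) (i : ℕ) (hi : i < n) : UM G (r • sq (e F n i)) := by
  induction i with
  | zero => exact h
  | succ i ih => exact K_shift hu hv hi (ih (by omega))

theorem K_zero {r : F} {i : ℕ} (hi : i < n) (h : UM G (r • sq (e F n i))) : UM G (r • sq (e F n 0)) := by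
  induction i with
  | zero => exact h
  | succ i ih => exact ih (by omega) (K_unshift hu hv hi h)

theorem K_sy1 {r : F} (h : UM G (r • sq (e F n 0))) (i : ℕ) (hi : i + 1 < n) :
    UM G (r • sy (e F n i) (e F n (i + 1))) := by
  have h1 := K_pair hu hv hi (K_sq hu hv h i (by omega))
  rw [sq_add, smul_add, smul_add] at h1
  have h2 := (h1.sub (K_sq hu hv h i (by omega))).sub (K_sq hu hv h (i + 1) hi)
  convert h2 using 1
  abel

/-- shift of pairs -/
theorem K_sy_shift {r : F} {i j : ℕ} (hi : i + 1 < n) (hj : j + 1 < n) (h : UM G (r • sy (e F n i) (e F n j))) :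
    UM G (r • sy (e F n (i + 1)) (e F n (j + 1))) := by
  have ho := (off_sy (off_e (F := F) hi) (off_e hj)).smul r
  have h1 := UM.conjA hu (UM.conjA' hv ho.1 ho.2 h)
  rwa [smul_conj, conj_sy, js_mulVec, js_mulVec, smul_conj, conj_sy, A_pair _ hi, A_pair _ hj] at h1

theorem K_sy_unshift {r : F} {i j : ℕ} (hi : i + 1 < n) (hj : j + 1 < n)
    (h : UM G (r • sy (e F n (i + 1)) (e F n (j + 1)))) : UM G (r • sy (e F n i) (e F n j)) := by
  have h1 := UM.conjN hu h
  rw [smul_conj, conj_sy, At_succ _ hi, At_succ _ hj] at h1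
  have ho := (off_sy (off_e (F := F) hi) (off_e hj)).smul r
  apply UM.conjA'_inv hv ho.1 ho.2
  rw [smul_conj, conj_sy, js_mulVec, js_mulVec, add_comm (e F n i), add_comm (e F n j)]
  exact h1

/-- all symmetric products from distances 0 and 1 -/
theorem K_sy_aux {r : F} (h0 : ∀ i, i < n → UM G (r • sy (e F n i) (e F n i)))
    (h1 : ∀ i, i + 1 < n → UM G (r • sy (e F n i) (e F n (i + 1)))) (d : ℕ) :
    ∀ i, i + d < n → UM G (r • sy (e F n i) (e F n (i + d))) := by
  induction d using Nat.strong_induction_on with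
  | _ d ih =>
    rcases d with _ | _ | d
    · exact h0
    · exact h1
    · intro i hi
      have h2 := UM.conjN hu (ih (d + 1) (by omega) (i + 1) (by omega))
      have e1 : i + 1 + (d + 1) = (i + d + 1) + 1 := by ring
      rw [e1, smul_conj, conj_sy, At_succ i (by omega), At_succ (i + d + 1) (by omega)] at h2
      have h3 := ih (d + 1) (by omega) (i + 1) (by omega)
      have h4 := ih d (by omega) (i + 1) (by omega)
      have h5 := ih (d + 1) (by omega) i (by omega)
      rw [e1] at h3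
      rw [show i + 1 + d = i + d + 1 by ring] at h4
      rw [show i + (d + 1) = i + d + 1 by ring] at h5
      rw [sy_add_left, sy_add_right, sy_add_right] at h2
      have h6 := ((h2.sub h3).sub h4).sub h5
      rw [show i + (d + 1 + 1) = i + d + 1 + 1 by ring]
      convert h6 using 1
      module

theorem K_sy {r : F} (h : UM G (r • sq (e F n 0))) (i j : ℕ) (hi : i < n) (hj : j < n) :
    UM G (r • sy (e F n i) (e F n j)) := by
  have h0 : ∀ i, i < n → UM G (r • sy (e F n i) (e F n i)) := by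
    intro i hi
    rw [sy_self, smul_smul, mul_comm, ← smul_smul, two_smul]
    exact (K_sq hu hv h i hi).add (K_sq hu hv h i hi)
  have key := K_sy_aux hu hv h0 (K_sy1 hu hv h)
  rcases le_total i j with hij | hij
  · have := key (j - i) i (by omega)
    rwa [Nat.add_sub_cancel' hij] at this
  · have := key (i - j) j (by omega)
    rw [Nat.add_sub_cancel' hij] at this
    rwa [sy_comm]

/-- characteristic 2: from one product to all -/
theorem K_alt {r : F} (h2 : (2 : F) = 0) (h : UM G (r • sy (e F n 0) (e F n 1))) (i j : ℕ) (hi : i < n) (hj : j < n) :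
    UM G (r • sy (e F n i) (e F n j)) := by
  have h0 : ∀ i, i < n → UM G (r • sy (e F n i) (e F n i)) := by
    intro i hi
    rw [sy_self, h2, zero_smul, smul_zero]
    exact UM.zero
  have h1 : ∀ i, i + 1 < n → UM G (r • sy (e F n i) (e F n (i + 1))) := by
    intro i
    induction i with
    | zero => intro _; exact h
    | succ i ih => intro hi; exact K_sy_shift hu hv (by omega) hi (ih (by omega))
  have key := K_sy_aux hu hv h0 h1
  rcases le_total i j with hij | hij
  · have := key (j - i) i (by omega)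
    rwa [Nat.add_sub_cancel' hij] at this
  · have := key (i - j) j (by omega)
    rw [Nat.add_sub_cancel' hij] at this
    rwa [sy_comm]

end K

section hat

theorem fromBlocks_mem {P R : Mt n F} (h : P * Rᵀ = 1) :
    (fromBlocks P 0 0 R : Mt2 n F) ∈ Matrix.symplecticGroup (Fin n) F := by
  have h' : R * Pᵀ = 1 := by
    have := congrArg Matrix.transpose h
    rwa [Matrix.transpose_mul, Matrix.transpose_transpose, Matrix.transpose_one] at this
  rw [SymplecticGroup.mem_iff]
  unfold Matrix.J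
  rw [Matrix.fromBlocks_transpose, Matrix.fromBlocks_multiply, Matrix.fromBlocks_multiply]
  simp [h, h']

theorem Um_mem {S : Mt n F} (hS : Sᵀ = S) : Um S ∈ Matrix.symplecticGroup (Fin n) F := by
  rw [SymplecticGroup.mem_iff]
  unfold Matrix.J Um
  rw [Matrix.fromBlocks_transpose, Matrix.fromBlocks_multiply, Matrix.fromBlocks_multiply]
  simp [hS]

theorem Lm_mem {S : Mt n F} (hS : Sᵀ = S) : Lm S ∈ Matrix.symplecticGroup (Fin n) F := by
  rw [SymplecticGroup.mem_iff]
  unfold Matrix.J Lm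
  rw [Matrix.fromBlocks_transpose, Matrix.fromBlocks_multiply, Matrix.fromBlocks_multiply]
  simp [hS]

/-- the Levi element `diag(A', A)` -/
noncomputable def lam (n : ℕ) (F : Type*) [Field F] : Sp n F :=
  ⟨fromBlocks (A' n F) 0 0 (A n F), fromBlocks_mem mul_A_transpose⟩

theorem coe_lam : ((lam n F : Sp n F) : Mt2 n F) = fromBlocks (A' n F) 0 0 (A n F) := rfl

/-- the lower root element in `v` -/
noncomputable def lw (n : ℕ) (a : F) : Sp n F := ⟨Lm (-(a • sq (el n F))), Lm_mem (by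
  rw [Matrix.transpose_neg, Matrix.transpose_smul, sq_transpose])⟩

theorem coe_lw (a : F) : ((lw n a : Sp n F) : Mt2 n F) = Lm (-(a • sq (el n F))) := rfl

theorem lam_mul_lw (a : F) : ((lam n F * lw n a : Sp n F) : Mt2 n F) = vm n a := by
  rw [Submonoid.coe_mul, coe_lam, coe_lw]
  unfold Lm vm
  rw [Matrix.fromBlocks_multiply]
  simp

/-- the conjugate group -/
noncomputable def hat (G : Subgroup (Sp n F)) : Subgroup (Sp n F) := G.comap (MulAut.conj (lam n F)).toMonoidHom

theorem mem_hat {G : Subgroup (Sp n F)} {x : Sp n F} : x ∈ hat G ↔ lam n F * x * (lam n F)⁻¹ ∈ G := Iff.rfl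

variable {G : Subgroup (Sp n F)} {a : F} (hu : Mem G (um n a)) (hv : Mem G (vm n a))

theorem lam_conj_Um {S : Mt n F} (x : Sp n F) (hx : (x : Mt2 n F) = Um S) :
    ((lam n F * x * (lam n F)⁻¹ : Sp n F) : Mt2 n F) = Um (A' n F * S * (A' n F)ᵀ) := by
  have h1 : Um (A' n F * S * (A' n F)ᵀ) * (lam n F : Mt2 n F) = (lam n F : Mt2 n F) * Um S := by
    rw [coe_lam]
    unfold Um
    rw [Matrix.fromBlocks_multiply, Matrix.fromBlocks_multiply]
    simp only [Matrix.one_mul, Matrix.mul_zero, Matrix.mul_one, Matrix.zero_mul, add_zero, zero_add]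
    rw [Matrix.mul_assoc (A' n F * S), mul_A, Matrix.mul_one]
  rw [Submonoid.coe_mul, Submonoid.coe_mul, hx, ← h1, mul_assoc, coe_mul_inv, mul_one]

theorem hat_of {S : Mt n F} (hS : Sᵀ = S) (h : UM G (A' n F * S * (A' n F)ᵀ)) : UM (hat G) S := by
  obtain ⟨g, hg, e⟩ := h
  refine ⟨⟨Um S, Um_mem hS⟩, ?_, rfl⟩
  rw [mem_hat]
  have h1 := lam_conj_Um (S := S) ⟨Um S, Um_mem hS⟩ rfl
  have h2 : lam n F * ⟨Um S, Um_mem hS⟩ * (lam n F)⁻¹ = g := Subtype.ext (by rw [h1, e])
  rw [h2]; exact hg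

theorem of_hat {S : Mt n F} (h : UM (hat G) S) : UM G (A' n F * S * (A' n F)ᵀ) := by
  obtain ⟨g, hg, e⟩ := h
  exact ⟨_, hg, lam_conj_Um g e⟩

include hv in
theorem of_hat_off {S : Mt n F} (ho : Off S) (h : UM (hat G) S) : UM G S :=
  UM.conjA'_inv hv ho.1 ho.2 (of_hat h)

include hv in
/-- conjugates by the lower root element -/
theorem hat_lower {x : Sp n F} (hx : x ∈ G) : lw n a * x * (lw n a)⁻¹ ∈ hat G := by
  obtain ⟨v, hv, ev⟩ := hv
  have e1 : lam n F * lw n a = v := Subtype.ext (by rw [lam_mul_lw, ev])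
  rw [mem_hat]
  have e2 : lam n F * (lw n a * x * (lw n a)⁻¹) * (lam n F)⁻¹ = (lam n F * lw n a) * x * (lam n F * lw n a)⁻¹ := by
    group
  rw [e2, e1]
  exact G.mul_mem (G.mul_mem hv hx) (G.inv_mem hv)

include hv in
theorem hat_lower' {S : Mt n F} {X : Mt2 n F} (h : UM G S)
    (hX : X * Lm (-(a • sq (el n F))) = Lm (-(a • sq (el n F))) * Um S) : Mem (hat G) X := by
  obtain ⟨x, hx, ex⟩ := h
  refine ⟨_, hat_lower hv hx, ?_⟩
  rw [Submonoid.coe_mul, Submonoid.coe_mul, ex, coe_lw, ← hX, mul_assoc, ← coe_lw, coe_mul_inv, mul_one]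

/-- the element `L U(c sy(e_j, e_l)) L⁻¹` -/
theorem hat_sy {c : F} {j : ℕ} (hj : j + 1 < n) (hv : Mem G (vm n a)) (h : UM G (c • sy (e F n j) (el n F))) :
    Mem (hat G) (fromBlocks (1 + (c * a) • vecMulVec (e F n j) (el n F)) (c • sy (e F n j) (el n F)) 0
      (1 - (c * a) • vecMulVec (el n F) (e F n j))) := by
  apply hat_lower' hv h
  have h0 : e F n j ⬝ᵥ el n F = 0 := e_dot_ne (by omega)
  have h0' : el n F ⬝ᵥ e F n j = 0 := e_dot_ne (by omega)
  have h1 : el n F ⬝ᵥ el n F = 1 := e_dot_self (by omega)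
  unfold Lm Um
  rw [Matrix.fromBlocks_multiply, Matrix.fromBlocks_multiply]
  simp only [Matrix.one_mul, Matrix.mul_zero, Matrix.mul_one, Matrix.zero_mul, add_zero, zero_add]
  unfold sy sq
  congr 1
  · simp only [Matrix.mul_neg, Matrix.mul_smul, Matrix.smul_mul, Matrix.add_mul, RootCalc.vmv, h0, h1, zero_smul,
      add_zero, one_smul, smul_add]
    module
  · simp only [Matrix.mul_neg, Matrix.mul_smul, Matrix.smul_mul, Matrix.sub_mul, Matrix.one_mul, RootCalc.vmv, h0,
      zero_smul, smul_zero, sub_zero]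
  · simp only [Matrix.neg_mul, Matrix.mul_smul, Matrix.smul_mul, Matrix.mul_add, RootCalc.vmv, h0', h1, zero_smul,
      zero_add, one_smul]
    module

/-- `ξ_j(c)` -/
theorem hat_xi {c : F} {j : ℕ} (hj : j + 1 < n) (hv : Mem G (vm n a)) (h : UM G (c • sy (e F n j) (el n F)))
    (h' : UM (hat G) (c • sy (e F n j) (el n F))) :
    Mem (hat G) (fromBlocks (1 + (c * a) • vecMulVec (e F n j) (el n F)) (-((c ^ 2 * a) • sq (e F n j))) 0
      (1 - (c * a) • vecMulVec (el n F) (e F n j))) := by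
  apply Mem.div (hat_sy hj hv h) h'
  have h0 : e F n j ⬝ᵥ el n F = 0 := e_dot_ne (by omega)
  have h0' : el n F ⬝ᵥ e F n j = 0 := e_dot_ne (by omega)
  have h1 : el n F ⬝ᵥ el n F = 1 := e_dot_self (by omega)
  unfold Um
  rw [Matrix.fromBlocks_multiply]
  simp only [Matrix.one_mul, Matrix.mul_zero, Matrix.mul_one, Matrix.zero_mul, add_zero, zero_add]
  congr 1
  unfold sy sq
  simp only [Matrix.add_mul, Matrix.one_mul, Matrix.mul_smul, Matrix.smul_mul, Matrix.mul_add, RootCalc.vmv, h0', h1,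
    zero_smul, zero_add, one_smul, smul_add, smul_zero]
  module

end hat

end Cfsg.Agent.Lib.RegSp
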