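import Cfsg.Agent.Lib.RegSp

/-! Generation of `Sp(2n,F)` by conjugate regular unipotent elements: scalars. -/

set_option autoImplicit false
set_option linter.unusedSectionVars false

namespace Cfsg.Agent.Lib.RegSp

open Matrix RootCalcSL

variable {F : Type*} [Field F] {n : ℕ} {G : Subgroup (Sp n F)} {a : F} (hu : Mem G (um n a)) (hv : Mem G (vm n a))

theorem Mem.congr {G : Subgroup (Sp n F)} {X Y : Mt2 n F} (h : Mem G X) (e : X = Y) : Mem G Y := e ▸ h

section closure

include hu hv

/-- hat membership of the symmetric products -/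
theorem hat_sy_mem {r : F} (h : ∀ i j, i < n → j < n → UM G (r • sy (e F n i) (e F n j))) {j : ℕ} (hj : j + 1 < n) :
    UM (hat G) (r • sy (e F n j) (el n F)) := by
  apply hat_of
  · rw [Matrix.transpose_smul, sy_transpose]
  · rw [smul_conj, conj_sy, js_mulVec, A'_last (by omega), sy_add_left, smul_add]
    exact (h _ _ (by omega) (by omega)).add (h _ _ (by omega) (by omega))

theorem hat_sq_mem {r : F} (hn : 1 ≤ n) (h : UM G (r • sq (el n F))) : UM (hat G) (r • sq (el n F)) := by
  apply hat_of
  · rw [Matrix.transpose_smul, sq_transpose]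
  · rw [smul_conj, conj_sq, A'_last hn]
    exact h

/-- `-2 r² a ∈ R` -/
theorem rule_odd (hn : 2 ≤ n) {r : F} (h : UM G (r • sq (e F n 0))) : UM G ((-(2 * r ^ 2 * a)) • sq (e F n 0)) := by
  have hsy := K_sy hu hv h
  have hneg : UM G ((-r) • sq (e F n 0)) := by rw [neg_smul]; exact h.neg
  have hsy' := K_sy hu hv hneg
  have x1 := hat_xi (by omega) hv (hsy 0 (n - 1) (by omega) (by omega)) (hat_sy_mem hu hv hsy (by omega))
  have x2 := hat_xi (by omega) hv (hsy' 0 (n - 1) (by omega) (by omega)) (hat_sy_mem hu hv hsy' (by omega))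
  apply of_hat_off hv ((off_sq (off_e (by omega))).smul _)
  apply (x1.mul x2).congr
  have h0 : e F n 0 ⬝ᵥ el n F = 0 := e_dot_ne (by omega)
  have h0' : el n F ⬝ᵥ e F n 0 = 0 := e_dot_ne (by omega)
  rw [Matrix.fromBlocks_multiply]
  unfold Um
  simp only [Matrix.mul_zero, Matrix.zero_mul, add_zero, zero_add]
  unfold sq
  congr 1
  · simp only [Matrix.mul_add, Matrix.add_mul, Matrix.mul_one, Matrix.one_mul, Matrix.mul_smul, Matrix.smul_mul,
      RootCalc.vmv, h0', zero_smul, smul_zero]
    module
  · simp only [Matrix.mul_sub, Matrix.add_mul, Matrix.mul_one, Matrix.one_mul, Matrix.mul_smul, Matrix.smul_mul,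
      Matrix.mul_neg, Matrix.neg_mul, RootCalc.vmv, h0', h0, zero_smul, smul_zero]
    module
  · simp only [Matrix.mul_sub, Matrix.sub_mul, Matrix.mul_one, Matrix.one_mul, Matrix.mul_smul, Matrix.smul_mul,
      RootCalc.vmv, h0, zero_smul, smul_zero]
    module

theorem halve {h2 : F} {k : ℕ} (hk : (k : F) * 2 = 1) {r : F} {S : Mt n F} (h : UM G ((2 * r) • S)) : UM G (r • S) := by
  have := h.nsmul k
  rwa [smul_smul, ← mul_assoc, hk, one_mul] at this

theorem rule_odd' (hn : 2 ≤ n) {k : ℕ} (hk : (k : F) * 2 = 1) {r r' : F} (h : UM G (r • sq (e F n 0)))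
    (h' : UM G (r' • sq (e F n 0))) : UM G ((r * r' * a) • sq (e F n 0)) := by
  have hadd : UM G ((r + r') • sq (e F n 0)) := by rw [add_smul]; exact h.add h'
  have h1 := (((rule_odd hu hv hn hadd).sub (rule_odd hu hv hn h)).sub (rule_odd hu hv hn h')).neg
  have h2 : UM G ((2 * (2 * (r * r' * a))) • sq (e F n 0)) := by
    convert h1 using 1
    module
  exact halve hu hv (h2 := 0) hk (halve hu hv (h2 := 0) hk h2)

/-- odd characteristic: all scalars -/
theorem all_odd (hn : 2 ≤ n) {k : ℕ} (hk : (k : F) * 2 = 1) (h1 : UM G ((1 : F) • sq (e F n 0)))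
    (hgen : Subring.closure {a} = ⊤) (c : F) : UM G (c • sq (e F n 0)) := by
  let T : Subring F :=
    { carrier := {x | ∀ r, UM G (r • sq (e F n 0)) → UM G ((r * x) • sq (e F n 0))}
      mul_mem' := by
        intro x y hx hy r hr
        rw [← mul_assoc]
        exact hy _ (hx r hr)
      one_mem' := by
        intro r hr
        rwa [mul_one]
      add_mem' := by
        intro x y hx hy r hr
        rw [mul_add, add_smul]
        exact (hx r hr).add (hy r hr)
      zero_mem' := by
        intro r hr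
        rw [mul_zero, zero_smul]
        exact UM.zero
      neg_mem' := by
        intro x hx r hr
        rw [mul_neg, neg_smul]
        exact (hx r hr).neg }
  have hT : Subring.closure {a} ≤ T := by
    rw [Subring.closure_le, Set.singleton_subset_iff]
    intro r hr
    have := rule_odd' hu hv hn hk hr h1
    rwa [mul_one] at this
  have hc : c ∈ Subring.closure {a} := by rw [hgen]; exact Subring.mem_top c
  have := hT hc 1 h1
  rwa [one_mul] at this

/-- conjugation of `U(S)` by `ξ` -/
theorem hat_conj {r y : F} {j : ℕ} (hj : j + 1 < n) {Y S : Mt n F}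
    (hx : Mem (hat G) (fromBlocks (1 + r • vecMulVec (e F n j) (el n F)) Y 0 (1 - r • vecMulVec (el n F) (e F n j))))
    (h : UM (hat G) S) : UM (hat G) ((1 + r • vecMulVec (e F n j) (el n F)) * S *
      (1 + r • vecMulVec (e F n j) (el n F))ᵀ) := by
  apply Mem.conj hx h
  have h0 : e F n j ⬝ᵥ el n F = 0 := e_dot_ne (by omega)
  unfold Um
  rw [Matrix.fromBlocks_multiply, Matrix.fromBlocks_multiply]
  simp only [Matrix.one_mul, Matrix.mul_zero, Matrix.mul_one, Matrix.zero_mul, add_zero, zero_add]
  congr 1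
  have e1 : (1 + r • vecMulVec (e F n j) (el n F))ᵀ * (1 - r • vecMulVec (el n F) (e F n j)) = 1 := by
    rw [Matrix.transpose_add, Matrix.transpose_one, Matrix.transpose_smul, Matrix.transpose_vecMulVec]
    simp only [Matrix.mul_sub, Matrix.add_mul, Matrix.mul_one, Matrix.one_mul, Matrix.mul_smul, Matrix.smul_mul,
      RootCalc.vmv, h0, zero_smul, smul_zero]
    module
  rw [Matrix.mul_assoc ((1 + r • vecMulVec (e F n j) (el n F)) * S), e1, Matrix.mul_one, add_comm]

theorem B_mulVec (r : F) (j : ℕ) (x : Fin n → F) :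
    (1 + r • vecMulVec (e F n j) (el n F)) *ᵥ x = x + (r * (el n F ⬝ᵥ x)) • e F n j := by
  rw [Matrix.add_mulVec, Matrix.one_mulVec, Matrix.smul_mulVec, Matrix.vecMulVec_mulVec]
  congr 1
  ext i
  simp only [Pi.smul_apply, smul_eq_mul, MulOpposite.smul_eq_mul_unop, MulOpposite.unop_op]
  ring

/-- char 2, `n ≥ 3`: `S` is closed under multiplication by `a` -/
theorem rule_alt (hn : 3 ≤ n) (h2 : (2 : F) = 0) {r : F} (h : UM G (r • sy (e F n 0) (e F n 1)))
    (h1 : UM G ((1 : F) • sy (e F n 0) (e F n 1))) : UM G ((r * a) • sy (e F n 0) (e F n 1)) := by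
  have k1 := K_alt hu hv h2 h
  have k2 := K_alt hu hv h2 h1
  have x1 := hat_xi (by omega) hv (k1 0 (n - 1) (by omega) (by omega)) (hat_sy_mem hu hv k1 (by omega))
  have x2 := hat_sy_mem hu hv k2 (j := 1) (by omega)
  have x3 := hat_conj hu hv (y := 0) (by omega) x1 x2
  rw [smul_conj, conj_sy, B_mulVec hu hv, B_mulVec hu hv, off_e (by omega), e_dot_self (by omega), mul_zero, zero_smul,
    add_zero, mul_one, sy_add_right, smul_add] at x3
  have x4 := x3.sub x2
  rw [add_sub_cancel_left] at x4
  rw [sy_comm (e F n 1), sy_smul_left, one_smul] at x4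
  exact of_hat_off hv ((off_sy (off_e (by omega)) (off_e (by omega))).smul _) x4

theorem all_alt (hn : 3 ≤ n) (h2 : (2 : F) = 0) (h1 : UM G ((1 : F) • sy (e F n 0) (e F n 1)))
    (hgen : Subring.closure {a} = ⊤) (c : F) : UM G (c • sy (e F n 0) (e F n 1)) := by
  let T : Subring F :=
    { carrier := {x | ∀ r, UM G (r • sy (e F n 0) (e F n 1)) → UM G ((r * x) • sy (e F n 0) (e F n 1))}
      mul_mem' := by
        intro x y hx hy r hr
        rw [← mul_assoc]
        exact hy _ (hx r hr)
      one_mem' := by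
        intro r hr
        rwa [mul_one]
      add_mem' := by
        intro x y hx hy r hr
        rw [mul_add, add_smul]
        exact (hx r hr).add (hy r hr)
      zero_mem' := by
        intro r hr
        rw [mul_zero, zero_smul]
        exact UM.zero
      neg_mem' := by
        intro x hx r hr
        rw [mul_neg, neg_smul]
        exact (hx r hr).neg }
  have hT : Subring.closure {a} ≤ T := by
    rw [Subring.closure_le, Set.singleton_subset_iff]
    intro r hr
    exact rule_alt hu hv hn h2 hr h1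
  have hc : c ∈ Subring.closure {a} := by rw [hgen]; exact Subring.mem_top c
  have := hT hc 1 h1
  rwa [one_mul] at this

/-- char 2, `n ≥ 3`: all scalars -/
theorem all_even (hn : 3 ≤ n) (h2 : (2 : F) = 0) (hsq : ∀ c : F, ∃ r : F, r ^ 2 = c) (ha : a ≠ 0)
    (h1 : UM G ((1 : F) • sq (e F n 0)))
    (hgen : Subring.closure {a} = ⊤) (c : F) : UM G (c • sq (e F n 0)) := by
  have k1 : ∀ c : F, UM G (c • sy (e F n 0) (e F n 1)) :=
    all_alt hu hv hn h2 (K_sy hu hv h1 0 1 (by omega) (by omega)) hgen
  have k2 : ∀ c : F, ∀ i j, i < n → j < n → UM G (c • sy (e F n i) (e F n j)) := fun c => K_alt hu hv h2 (k1 c)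
  obtain ⟨r, hr⟩ := hsq (c / a ^ 2)
  have x1 := hat_xi (by omega) hv (k2 r 0 (n - 1) (by omega) (by omega)) (hat_sy_mem hu hv (k2 r) (by omega))
  have x2 := hat_sq_mem hu hv (by omega) (K_sq hu hv h1 (n - 1) (by omega))
  have x3 := hat_conj hu hv (y := 0) (by omega) x1 x2
  rw [smul_conj, conj_sq, B_mulVec hu hv, e_dot_self (by omega), mul_one, sq_add, one_smul, sq_smul] at x3
  rw [one_smul] at x2
  have x4 := x3.sub x2
  have x5 : UM (hat G) ((r * a) • sy (e F n 0) (el n F)) := hat_sy_mem hu hv (k2 (r * a)) (by omega)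
  rw [sy_comm (el n F), sy_smul_left] at x4
  have x6 := x4.sub x5
  have x7 : UM (hat G) (c • sq (e F n 0)) := by
    convert x6 using 1
    rw [mul_pow, hr, div_mul_cancel₀ _ (pow_ne_zero 2 ha)]
    abel
  exact of_hat_off hv ((off_sq (off_e (by omega))).smul _) x7

end closure

end Cfsg.Agent.Lib.RegSp
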