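import Cfsg.Agent.Lib.RegSp2

/-! Generation of `Sp(2n,F)` by conjugate regular unipotent elements: `n = 2`, characteristic 2. -/

set_option autoImplicit false
set_option linter.unusedSectionVars false

namespace Cfsg.Agent.Lib.RegSp

open Matrix RootCalcSL

section two

variable {F : Type*} [Field F] {G : Subgroup (Sp 2 F)} {a : F} (hu : Mem G (um 2 a)) (hv : Mem G (vm 2 a))

theorem el_two : el 2 F = e F 2 1 := rfl

/-- the element `L U(c (sq e0 + sy e0 e1)) L⁻¹` -/
theorem hat_omega {c : F} (hv : Mem G (vm 2 a)) (h : UM G (c • (sq (e F 2 0) + sy (e F 2 0) (e F 2 1)))) :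
    Mem (hat G) (fromBlocks (1 + (c * a) • vecMulVec (e F 2 0) (el 2 F)) (c • (sq (e F 2 0) + sy (e F 2 0) (e F 2 1))) 0
      (1 - (c * a) • vecMulVec (el 2 F) (e F 2 0))) := by
  apply hat_lower' hv h
  have h0 : e F 2 0 ⬝ᵥ el 2 F = 0 := e_dot_ne (by omega)
  have h0' : el 2 F ⬝ᵥ e F 2 0 = 0 := e_dot_ne (by omega)
  have h1 : el 2 F ⬝ᵥ el 2 F = 1 := e_dot_self (by omega)
  rw [← el_two]
  unfold Lm Um
  rw [Matrix.fromBlocks_multiply, Matrix.fromBlocks_multiply]
  simp only [Matrix.one_mul, Matrix.mul_zero, Matrix.mul_one, Matrix.zero_mul, add_zero, zero_add]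
  unfold sy sq
  congr 1
  · simp only [Matrix.mul_neg, Matrix.mul_smul, Matrix.smul_mul, Matrix.add_mul, RootCalc.vmv, h0, h1, zero_smul,
      add_zero, zero_add, one_smul, smul_add, smul_zero]
    module
  · simp only [Matrix.mul_neg, Matrix.mul_smul, Matrix.smul_mul, Matrix.sub_mul, Matrix.one_mul, RootCalc.vmv, h0,
      zero_smul, smul_zero, sub_zero]
  · simp only [Matrix.neg_mul, Matrix.mul_smul, Matrix.smul_mul, Matrix.mul_add, RootCalc.vmv, h0', h1, zero_smul,
      zero_add, one_smul, smul_add, smul_zero]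
    module

/-- `c (sq e1 + sq e0)` in the hat group -/
theorem hat_sqsq {c : F} (h2 : (2 : F) = 0) (h : UM G (c • (sq (e F 2 0) + sy (e F 2 0) (e F 2 1)))) :
    UM (hat G) (c • (sq (e F 2 1) + sq (e F 2 0))) := by
  apply hat_of
  · rw [Matrix.transpose_smul, Matrix.transpose_add, sq_transpose, sq_transpose]
  · rw [smul_conj, Matrix.mul_add, Matrix.add_mul, conj_sq, conj_sq, ← el_two, A'_last (by omega), js_mulVec, sq_add,
      zero_add, el_two]
    have : sq (e F 2 1) + (sq (e F 2 0) + sq (e F 2 1) + sy (e F 2 0) (e F 2 1)) =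
        sq (e F 2 0) + sy (e F 2 0) (e F 2 1) := by
      have h3 : sq (e F 2 1) + sq (e F 2 1) = 0 := by rw [← two_smul F, h2, zero_smul]
      calc _ = (sq (e F 2 1) + sq (e F 2 1)) + (sq (e F 2 0) + sy (e F 2 0) (e F 2 1)) := by abel
        _ = _ := by rw [h3, zero_add]
    rw [this]
    exact h

include hu hv

/-- four elements and more: if all `U(c (sq e0 + sy e0 e1))` are in `G` -/
theorem all_two_of (h2 : (2 : F) = 0) (ha : a = 1) (t : F) (ht0 : t ≠ 0) (ht1 : t ≠ 1)
    (h : ∀ c : F, UM G (c • (sq (e F 2 0) + sy (e F 2 0) (e F 2 1)))) (c : F) : UM G (c • sq (e F 2 0)) := by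
  have key : ∀ γ γ' : F, UM (hat G) ((γ' * γ ^ 2) • sq (e F 2 0) + (γ' * γ) • sy (e F 2 0) (e F 2 1)) := by
    intro γ γ'
    have x1 := hat_omega hv (h γ)
    have x2 := hat_sqsq h2 (h γ')
    have x3 := hat_conj hu hv (y := 0) (by omega) x1 x2
    rw [smul_conj, Matrix.mul_add, Matrix.add_mul, conj_sq, conj_sq, B_mulVec hu hv, B_mulVec hu hv, ← el_two,
      e_dot_self (by omega), off_e (by omega), mul_one, mul_zero, zero_smul, add_zero, sq_add, ha, mul_one, sq_smul,
      el_two] at x3
    have x4 := x3.sub x2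
    convert x4 using 1
    rw [sy_comm (e F 2 1), sy_smul_left]
    module
  have k1 := key 1 (c / (1 + t))
  have k2 := key t (c / (1 + t) / t)
  have ht : 1 + t ≠ 0 := by
    intro h
    apply ht1
    linear_combination h - h2
  have k3 := k1.add k2
  have k4 : UM (hat G) (c • sq (e F 2 0)) := by
    convert k3 using 1
    have e1 : c / (1 + t) * 1 ^ 2 + c / (1 + t) / t * t ^ 2 = c := by
      field_simp
    have e2 : c / (1 + t) * 1 + c / (1 + t) / t * t = 0 := by
      have : c / (1 + t) * 1 + c / (1 + t) / t * t = 2 * (c / (1 + t)) := by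
        field_simp
        ring
      rw [this, h2, zero_mul]
    calc c • sq (e F 2 0) = (c / (1 + t) * 1 ^ 2 + c / (1 + t) / t * t ^ 2) • sq (e F 2 0) +
          (c / (1 + t) * 1 + c / (1 + t) / t * t) • sy (e F 2 0) (e F 2 1) := by rw [e1, e2, zero_smul, add_zero]
      _ = _ := by rw [add_smul, add_smul]; abel
  exact of_hat_off hv ((off_sq (off_e (by omega))).smul _) k4

/-- the basic rule -/
theorem rule_two (h2 : (2 : F) = 0) (h : UM G (a • (sq (e F 2 0) + sy (e F 2 0) (e F 2 1)))) {r : F}
    (hr : UM G (r • sq (e F 2 0))) (hr' : UM G ((r * a ^ 2) • sq (e F 2 0))) : UM G ((r * a ^ 4) • sq (e F 2 0)) := by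
  have x1 := hat_omega hv h
  have x2 : UM (hat G) (r • sq (el 2 F)) := hat_sq_mem hu hv (by omega) (K_sq hu hv hr 1 (by omega))
  have x3 := hat_conj hu hv (y := 0) (by omega) x1 x2
  rw [smul_conj, conj_sq, B_mulVec hu hv, e_dot_self (by omega), mul_one, sq_add, sq_smul] at x3
  have x5 : UM (hat G) ((r * a ^ 2) • sy (e F 2 0) (el 2 F)) := hat_sy_mem hu hv (K_sy hu hv hr') (by omega)
  have x6 := (x3.sub x2).sub x5
  have x7 : UM (hat G) ((r * a ^ 4) • sq (e F 2 0)) := by
    convert x6 using 1
    rw [sy_comm (el 2 F), sy_smul_left]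
    module
  exact of_hat_off hv ((off_sq (off_e (by omega))).smul _) x7

theorem rule_two' (h2 : (2 : F) = 0) (h : UM G (a • (sq (e F 2 0) + sy (e F 2 0) (e F 2 1))))
    (hr : UM G ((a ^ 3) • sq (e F 2 0))) : UM G ((a ^ 5) • sq (e F 2 0)) := by
  have x1 := hat_omega hv h
  have x2 := hat_sqsq h2 h
  have x3 := hat_conj hu hv (y := 0) (by omega) x1 x2
  rw [smul_conj, Matrix.mul_add, Matrix.add_mul, conj_sq, conj_sq, B_mulVec hu hv, B_mulVec hu hv, ← el_two,
    e_dot_self (by omega), off_e (by omega), mul_one, mul_zero, zero_smul, add_zero, sq_add, sq_smul] at x3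
  have x5 : UM (hat G) ((a ^ 3) • sy (e F 2 0) (el 2 F)) := hat_sy_mem hu hv (K_sy hu hv hr) (by omega)
  rw [← el_two] at x2
  have x6 := (x3.sub x2).sub x5
  have x7 : UM (hat G) ((a ^ 5) • sq (e F 2 0)) := by
    convert x6 using 1
    rw [sy_comm (el 2 F), sy_smul_left]
    module
  exact of_hat_off hv ((off_sq (off_e (by omega))).smul _) x7

theorem all_two (h2 : (2 : F) = 0) (ha : a ≠ 0) (h : UM G (a • (sq (e F 2 0) + sy (e F 2 0) (e F 2 1))))
    (hr : UM G ((a ^ 3) • sq (e F 2 0))) (hgen : Subring.closure {a ^ 2} = ⊤) (c : F) : UM G (c • sq (e F 2 0)) := by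
  have key : ∀ j : ℕ, UM G ((a ^ (2 * j + 3)) • sq (e F 2 0)) := by
    intro j
    induction j using Nat.strong_induction_on with
    | _ j ih =>
      rcases j with _ | _ | j
      · exact hr
      · exact rule_two' hu hv h2 h hr
      · have k1 := ih j (by omega)
        have k2 := ih (j + 1) (by omega)
        have := rule_two hu hv h2 h k1 (by rw [← pow_add]; exact k2)
        rw [← pow_add] at this
        exact this
  -- the additive group
  let D : AddSubgroup F := AddSubgroup.closure (Set.range fun j : ℕ => a ^ (2 * j + 3))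
  have hD : ∀ x ∈ D, UM G (x • sq (e F 2 0)) := by
    intro x hx
    induction hx using AddSubgroup.closure_induction with
    | mem x hx => obtain ⟨j, rfl⟩ := hx; exact key j
    | zero => rw [zero_smul]; exact UM.zero
    | add x y _ _ hx hy => rw [add_smul]; exact hx.add hy
    | neg x _ hx => rw [neg_smul]; exact hx.neg
  let T : Subring F :=
    { carrier := {x | ∀ y ∈ D, y * x ∈ D}
      mul_mem' := by
        intro x y hx hy z hz
        rw [← mul_assoc]
        exact hy _ (hx z hz)
      one_mem' := by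
        intro z hz
        rwa [mul_one]
      add_mem' := by
        intro x y hx hy z hz
        rw [mul_add]
        exact D.add_mem (hx z hz) (hy z hz)
      zero_mem' := by
        intro z _
        rw [mul_zero]
        exact D.zero_mem
      neg_mem' := by
        intro x hx z hz
        rw [mul_neg]
        exact D.neg_mem (hx z hz) }
  have hT : Subring.closure {a ^ 2} ≤ T := by
    rw [Subring.closure_le, Set.singleton_subset_iff]
    intro y hy
    induction hy using AddSubgroup.closure_induction with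
    | mem x hx =>
      obtain ⟨j, rfl⟩ := hx
      apply AddSubgroup.subset_closure
      exact ⟨j + 1, by simp only; ring⟩
    | zero => rw [zero_mul]; exact D.zero_mem
    | add x y _ _ hx hy => rw [add_mul]; exact D.add_mem hx hy
    | neg x _ hx => rw [neg_mul]; exact D.neg_mem hx
  have h3 : a ^ 3 ∈ D := AddSubgroup.subset_closure ⟨0, by norm_num⟩
  have hc : c / a ^ 3 ∈ Subring.closure {a ^ 2} := by rw [hgen]; exact Subring.mem_top _
  have := hT hc (a ^ 3) h3
  rw [mul_div_cancel₀ _ (pow_ne_zero 3 ha)] at this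
  exact hD _ this

end two

end Cfsg.Agent.Lib.RegSp
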