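import Cfsg.Agent.Lib.RegSp3

/-! Generation of `Sp(2n,F)` by conjugate regular unipotent elements: final stage. -/

set_option autoImplicit false
set_option linter.unusedSectionVars false

namespace Cfsg.Agent.Lib.RegSp

open Matrix RootCalcSL Cfsg.Agent.Lib.SympMat

variable {F : Type*} [Field F] {n : ℕ}

section vecs

variable {G : Subgroup (Sp n F)}

theorem submodule_top (S : Submodule F (Fin n → F)) (h : ∀ i, i < n → e F n i ∈ S) : S = ⊤ := by
  rw [eq_top_iff, ← (Pi.basisFun F (Fin n)).span_eq, Submodule.span_le]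
  rintro _ ⟨i, rfl⟩
  rw [Pi.basisFun_apply, ← e_eq_single]
  exact h i.val i.isLt

theorem all_sq (hsq : ∀ c : F, ∀ i, i < n → UM G (c • sq (e F n i)))
    (hsy : ∀ c : F, ∀ i j, i < n → j < n → UM G (c • sy (e F n i) (e F n j))) (c : F) (x : Fin n → F) :
    UM G (c • sq x) := by
  have h1 : ∀ i, i < n → ∀ x (c : F), UM G (c • sy x (e F n i)) := by
    intro i hi
    let S : Submodule F (Fin n → F) :=
      { carrier := {x | ∀ c : F, UM G (c • sy x (e F n i))}
        add_mem' := by
          intro x y hx hy c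
          rw [sy_add_left, smul_add]
          exact (hx c).add (hy c)
        zero_mem' := by
          intro c
          rw [show sy (0 : Fin n → F) (e F n i) = 0 by unfold sy; simp, smul_zero]
          exact UM.zero
        smul_mem' := by
          intro r x hx c
          rw [sy_smul_left, smul_smul]
          exact hx _ }
    have hS : S = ⊤ := submodule_top S (fun j hj c => hsy c j i hj hi)
    intro x
    have : x ∈ S := by rw [hS]; exact Submodule.mem_top
    exact this
  have h2 : ∀ (y x : Fin n → F) (c : F), UM G (c • sy x y) := by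
    let S : Submodule F (Fin n → F) :=
      { carrier := {y | ∀ (x : Fin n → F) (c : F), UM G (c • sy x y)}
        add_mem' := by
          intro y z hy hz x c
          rw [sy_add_right, smul_add]
          exact (hy x c).add (hz x c)
        zero_mem' := by
          intro x c
          rw [show sy x (0 : Fin n → F) = 0 by unfold sy; simp, smul_zero]
          exact UM.zero
        smul_mem' := by
          intro r y hy x c
          rw [sy_comm, sy_smul_left, smul_smul, sy_comm]
          exact hy _ _ }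
    have hS : S = ⊤ := submodule_top S (fun j hj x c => h1 j hj x c)
    intro y
    have : y ∈ S := by rw [hS]; exact Submodule.mem_top
    exact this
  let S : Submodule F (Fin n → F) :=
    { carrier := {x | ∀ (c : F), UM G (c • sq x)}
      add_mem' := by
        intro y z hy hz c
        rw [sq_add, smul_add, smul_add]
        exact ((hy c).add (hz c)).add (h2 _ _ c)
      zero_mem' := by
        intro c
        rw [show sq (0 : Fin n → F) = 0 by unfold sq; simp, smul_zero]
        exact UM.zero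
      smul_mem' := by
        intro r y hy c
        rw [sq_smul, smul_smul]
        exact hy _ }
  have hS : S = ⊤ := submodule_top S (fun j hj c => hsq c j hj)
  have : x ∈ S := by rw [hS]; exact Submodule.mem_top
  exact this c

end vecs

section low

variable {G : Subgroup (Sp n F)} {a : F}

theorem hat_low (hn : 1 ≤ n) (ha : a ≠ 0) (hu : Mem G (um n a)) (hv : Mem G (vm n a))
    (h : ∀ c : F, UM G (c • sq (el n F))) (z : F) : Mem (hat G) (Lm (z • sq (el n F))) := by
  have h1 : el n F ⬝ᵥ el n F = 1 := e_dot_self (by omega)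
  -- the element `L U(y) L⁻¹`
  have key : ∀ y : F, Mem (hat G) (fromBlocks (1 + (a * y) • sq (el n F)) (y • sq (el n F))
      (-((a ^ 2 * y) • sq (el n F))) (1 - (a * y) • sq (el n F))) := by
    intro y
    apply hat_lower' hv (h y)
    unfold Lm Um
    rw [Matrix.fromBlocks_multiply, Matrix.fromBlocks_multiply]
    simp only [Matrix.one_mul, Matrix.mul_zero, Matrix.mul_one, Matrix.zero_mul, add_zero, zero_add]
    unfold sq
    congr 1
    · simp only [Matrix.mul_neg, Matrix.mul_smul, Matrix.smul_mul, Matrix.add_mul, RootCalc.vmv, h1, one_smul]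
      module
    · simp only [Matrix.mul_neg, Matrix.mul_smul, Matrix.smul_mul, Matrix.sub_mul, Matrix.one_mul, RootCalc.vmv, h1,
        one_smul, smul_add]
      module
    · simp only [Matrix.neg_mul, Matrix.mul_smul, Matrix.smul_mul, RootCalc.vmv, h1, one_smul]
      module
  have hup : ∀ c : F, UM (hat G) (c • sq (el n F)) := fun c => hat_sq_mem hu hv hn (h c)
  -- conjugate by `U(1/a)`
  have k1 := key (-z / a ^ 2)
  apply Mem.conj (hup (1 / a)) k1
  have e1 : a ^ 2 * (-z / a ^ 2) = -z := by field_simp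
  have e2 : a * (-z / a ^ 2) = -z / a := by field_simp
  rw [e1, e2]
  unfold Lm Um
  rw [Matrix.fromBlocks_multiply, Matrix.fromBlocks_multiply]
  simp only [Matrix.one_mul, Matrix.mul_zero, Matrix.mul_one, Matrix.zero_mul, add_zero, zero_add]
  unfold sq
  congr 1
  · simp only [Matrix.mul_neg, Matrix.mul_smul, Matrix.smul_mul, Matrix.add_mul, RootCalc.vmv, h1, one_smul]
    rw [show (1 : Mt n F) = 1 + (0 : F) • vecMulVec (el n F) (el n F) by rw [zero_smul, add_zero]]
    module
  · simp only [Matrix.mul_sub, Matrix.mul_smul, Matrix.smul_mul, Matrix.mul_one, RootCalc.vmv, h1, one_smul,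
      smul_smul]
    have : (-z / a ^ 2 : F) = 1 / a * (-z / a) := by field_simp
    rw [this]
    module
  · module
  · simp only [Matrix.mul_neg, Matrix.mul_smul, Matrix.smul_mul, Matrix.add_mul, RootCalc.vmv, h1, one_smul]
    module

/-- the Levi element is in `G` -/
theorem lam_mem (hn : 1 ≤ n) (ha : a ≠ 0) (hu : Mem G (um n a)) (hv : Mem G (vm n a))
    (h : ∀ c : F, UM G (c • sq (el n F))) : lam n F ∈ G := by
  obtain ⟨w, hw, ew⟩ := hat_low hn ha hu hv h (-a)
  have hlw : w = lw n a := Subtype.ext (by rw [ew, coe_lw, neg_smul])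
  rw [hlw, mem_hat] at hw
  obtain ⟨v, hvG, ev⟩ := hv
  have e1 : lam n F * lw n a = v := Subtype.ext (by rw [lam_mul_lw, ev])
  rw [e1] at hw
  have := (Subgroup.mul_mem_cancel_left G hvG).1 hw
  exact (Subgroup.inv_mem_iff G).1 this

theorem low_mem (hn : 1 ≤ n) (ha : a ≠ 0) (hu : Mem G (um n a)) (hv : Mem G (vm n a))
    (h : ∀ c : F, UM G (c • sq (el n F))) (z : F) : Mem G (Lm (z • sq (el n F))) := by
  obtain ⟨w, hw, ew⟩ := hat_low hn ha hu hv h z
  have hl := lam_mem hn ha hu hv h
  rw [mem_hat] at hw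
  have h1 := (Subgroup.mul_mem_cancel_right G (G.inv_mem hl)).1 hw
  exact ⟨w, (Subgroup.mul_mem_cancel_left G hl).1 h1, ew⟩

end low

section J

/-- the Weyl element -/
noncomputable def jj (n : ℕ) (F : Type*) [Field F] : Sp n F := ⟨Matrix.J (Fin n) F, SymplecticGroup.J_mem _ _⟩

theorem coe_jj : ((jj n F : Sp n F) : Mt2 n F) = fromBlocks 0 (-1) 1 0 := rfl

/-- the conjugate group -/
noncomputable def jat (G : Subgroup (Sp n F)) : Subgroup (Sp n F) := G.comap (MulAut.conj (jj n F)).toMonoidHom

theorem mem_jat {G : Subgroup (Sp n F)} {x : Sp n F} : x ∈ jat G ↔ jj n F * x * (jj n F)⁻¹ ∈ G := Iff.rfl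

theorem jj_conj {P Q R S : Mt n F} (x : Sp n F) (hx : (x : Mt2 n F) = fromBlocks P Q R S) :
    ((jj n F * x * (jj n F)⁻¹ : Sp n F) : Mt2 n F) = fromBlocks S (-R) (-Q) P := by
  have h1 : fromBlocks S (-R) (-Q) P * (jj n F : Mt2 n F) = (jj n F : Mt2 n F) * fromBlocks P Q R S := by
    rw [coe_jj, Matrix.fromBlocks_multiply, Matrix.fromBlocks_multiply]
    simp
  rw [Submonoid.coe_mul, Submonoid.coe_mul, hx, ← h1, mul_assoc, coe_mul_inv, mul_one]

theorem jj_conj' {P Q R S : Mt n F} (x : Sp n F) (hx : (x : Mt2 n F) = fromBlocks P Q R S) :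
    (((jj n F)⁻¹ * x * jj n F : Sp n F) : Mt2 n F) = fromBlocks S (-R) (-Q) P := by
  have h1 : (jj n F : Mt2 n F) * fromBlocks S (-R) (-Q) P = fromBlocks P Q R S * (jj n F : Mt2 n F) := by
    rw [coe_jj, Matrix.fromBlocks_multiply, Matrix.fromBlocks_multiply]
    simp
  rw [Submonoid.coe_mul, Submonoid.coe_mul, hx, mul_assoc, ← h1, ← mul_assoc, coe_inv_mul, one_mul]

theorem jat_of {G : Subgroup (Sp n F)} {P Q R S : Mt n F} (h : Mem G (fromBlocks S (-R) (-Q) P)) :
    Mem (jat G) (fromBlocks P Q R S) := by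
  obtain ⟨x, hx, ex⟩ := h
  refine ⟨(jj n F)⁻¹ * x * jj n F, ?_, ?_⟩
  · rw [mem_jat]
    have : jj n F * ((jj n F)⁻¹ * x * jj n F) * (jj n F)⁻¹ = x := by group
    rw [this]
    exact hx
  · rw [jj_conj' x ex, neg_neg, neg_neg]

theorem of_jat {G : Subgroup (Sp n F)} {P Q R S : Mt n F} (h : Mem (jat G) (fromBlocks P Q R S)) :
    Mem G (fromBlocks S (-R) (-Q) P) := by
  obtain ⟨x, hx, ex⟩ := h
  exact ⟨_, hx, jj_conj x ex⟩

variable {G : Subgroup (Sp n F)} {a : F}

theorem jat_u (hv : Mem G (vm n a)) : Mem (jat G) (um n a) := by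
  apply jat_of
  rw [neg_zero]
  exact hv

theorem jat_v (hu : Mem G (um n a)) : Mem (jat G) (vm n a) := by
  apply jat_of
  rw [neg_zero, neg_neg]
  exact hu

end J

section final

variable {G : Subgroup (Sp n F)} {a : F}

theorem upper_all (hu : Mem G (um n a)) (hv : Mem G (vm n a)) (h : ∀ c : F, UM G (c • sq (e F n 0))) (c : F)
    (x : Fin n → F) : UM G (c • sq x) :=
  all_sq (fun c i hi => K_sq hu hv (h c) i hi) (fun c i j hi hj => K_sy hu hv (h c) i j hi hj) c x

theorem lower_all (hn : 1 ≤ n) (ha : a ≠ 0) (hu : Mem G (um n a)) (hv : Mem G (vm n a))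
    (h : ∀ c : F, UM G (c • sq (e F n 0))) (c : F) (x : Fin n → F) : Mem G (Lm (c • sq x)) := by
  have h1 : ∀ c : F, UM G (c • sq (el n F)) := fun c => K_sq hu hv (h c) (n - 1) (by omega)
  have h2 : ∀ c : F, UM (jat G) (c • sq (el n F)) := by
    intro c
    apply jat_of
    rw [neg_zero, ← neg_smul]
    exact low_mem hn ha hu hv h1 (-c)
  have h3 : ∀ c : F, UM (jat G) (c • sq (e F n 0)) := fun c => K_zero (jat_u hv) (jat_v hu) (by omega) (h2 c)
  have h4 := of_jat (upper_all (jat_u hv) (jat_v hu) h3 (-c) x)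
  rw [neg_zero, neg_smul, neg_neg] at h4
  exact h4

/-- the centre vectors -/
def Cen (G : Subgroup (Sp n F)) (v : Fin n ⊕ Fin n → F) : Prop := ∀ c : F, Mem G (sympTransvection n v c)

theorem Cen.add {v w : Fin n ⊕ Fin n → F} (hv : Cen G v) (hw : Cen G w) (h : sympForm n F v w ≠ 0) :
    Cen G (v + w) := by
  intro c
  apply Mem.conj (hw (1 / sympForm n F v w)) (hv c)
  rw [transvection_conj v (transvection_mem w _), transvection_mulVec, one_div, inv_mul_cancel₀ h, one_smul]

theorem cen_inl (h : ∀ (c : F) (x : Fin n → F), UM G (c • sq x)) (x : Fin n → F) : Cen G (Sum.elim x 0) := by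
  intro c
  apply (h c x).congr
  have hJ : Matrix.J (Fin n) F *ᵥ (Sum.elim x 0) = Sum.elim (0 : Fin n → F) x := by
    funext i
    rcases i with i | i
    · rw [J_mulVec_inl]; simp
    · rw [J_mulVec_inr]; simp
  unfold Um sympTransvection
  rw [hJ]
  ext i j
  rcases i with i | i <;> rcases j with j | j <;> simp [sq, Matrix.vecMulVec_apply, Matrix.one_apply]

theorem cen_inr (h : ∀ (c : F) (x : Fin n → F), Mem G (Lm (c • sq x))) (x : Fin n → F) : Cen G (Sum.elim 0 x) := by
  intro c
  apply (h (-c) x).congr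
  have hJ : Matrix.J (Fin n) F *ᵥ (Sum.elim 0 x) = Sum.elim (-x) 0 := by
    funext i
    rcases i with i | i
    · rw [J_mulVec_inl]; simp
    · rw [J_mulVec_inr]; simp
  unfold Lm sympTransvection
  rw [hJ]
  ext i j
  rcases i with i | i <;> rcases j with j | j <;> simp [sq, Matrix.vecMulVec_apply, Matrix.one_apply]

theorem form_elim (x y : Fin n → F) : sympForm n F (Sum.elim x 0) (Sum.elim 0 y) = -(x ⬝ᵥ y) := by
  rw [sympForm_apply]
  simp only [Sum.elim_inl, Sum.elim_inr, Pi.zero_apply, mul_zero, zero_sub, dotProduct, Finset.sum_neg_distrib]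

theorem form_elim' (x y z : Fin n → F) : sympForm n F (Sum.elim x z) (Sum.elim 0 y) = -(x ⬝ᵥ y) := by
  rw [sympForm_apply]
  simp only [Sum.elim_inl, Sum.elim_inr, Pi.zero_apply, mul_zero, zero_sub, dotProduct, Finset.sum_neg_distrib]

theorem cen_all (hU : ∀ (c : F) (x : Fin n → F), UM G (c • sq x)) (hL : ∀ (c : F) (x : Fin n → F), Mem G (Lm (c • sq x)))
    (v : Fin n ⊕ Fin n → F) : Cen G v := by
  obtain ⟨x, y, rfl⟩ : ∃ x y, v = Sum.elim x y := ⟨v ∘ Sum.inl, v ∘ Sum.inr, (Sum.elim_comp_inl_inr v).symm⟩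
  by_cases hx : x = 0
  · rw [hx]; exact cen_inr hL y
  have hsum : ∀ y, x ⬝ᵥ y ≠ 0 → Cen G (Sum.elim x y) := by
    intro y hy
    have : Sum.elim x y = Sum.elim x (0 : Fin n → F) + Sum.elim (0 : Fin n → F) y := by
      funext i
      rcases i with i | i <;> simp
    rw [this]
    apply (cen_inl hU x).add (cen_inr hL y)
    rw [form_elim]
    exact neg_ne_zero.2 hy
  by_cases hxy : x ⬝ᵥ y = 0
  · obtain ⟨i, hi⟩ := Function.ne_iff.1 hx
    have h1 : x ⬝ᵥ Pi.single i 1 ≠ 0 := by
      rw [dotProduct_single, mul_one]; exact hi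
    have : Sum.elim x y = Sum.elim x (Pi.single i 1) + Sum.elim (0 : Fin n → F) (y - Pi.single i 1) := by
      funext j
      rcases j with j | j <;> simp
    rw [this]
    apply (hsum _ h1).add (cen_inr hL _)
    rw [form_elim', dotProduct_sub, hxy, zero_sub, neg_neg]
    exact h1
  · exact hsum y hxy

theorem top_of_cen (h : ∀ v, Cen G v) : G = ⊤ := by
  rw [eq_top_iff, ← SympGen.closure_transvections n F, Subgroup.closure_le]
  rintro A ⟨w, c, hA⟩
  obtain ⟨g, hg, eg⟩ := h w c
  rw [show A = g from Subtype.ext (by rw [hA, eg])]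
  exact hg

/-- **Final stage** -/
theorem eq_top (hn : 1 ≤ n) (ha : a ≠ 0) (hu : Mem G (um n a)) (hv : Mem G (vm n a))
    (h : ∀ c : F, UM G (c • sq (e F n 0))) : G = ⊤ :=
  top_of_cen (cen_all (upper_all hu hv h) (lower_all hn ha hu hv h))

end final

end Cfsg.Agent.Lib.RegSp
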