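import Cfsg.Agent.Lib.RegSp4

/-! Generation of `Sp(2n,F)` by conjugate regular unipotent elements: field facts. -/

set_option autoImplicit false
set_option linter.unusedSectionVars false

namespace Cfsg.Agent.Lib.RegSp

open RootCalcSL

variable {F : Type*} [Field F] [Finite F]

theorem quad_gen (h2 : (2 : F) = 0) (s : F) (hs : Subring.closure {s} = ⊤) :
    Subring.closure {s ^ 2 + s} = ⊤ ∨ ∃ q0 : ℕ, Nat.card F = q0 ^ 2 ∧ s ^ q0 = s + 1 := by
  classical
  haveI := Fintype.ofFinite F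
  haveI : CharP F 2 := CharTwo.of_one_ne_zero_of_two_eq_zero one_ne_zero h2
  set R := Subring.closure {s ^ 2 + s} with hR
  have ht : s ^ 2 + s ∈ R := Subring.subset_closure (Set.mem_singleton _)
  set K := toSubfield R with hK
  have hKR : ∀ x, x ∈ K ↔ x ∈ R := fun x => Iff.rfl
  have hcard := Module.card_eq_pow_finrank (K := K) (V := F)
  set q0 := Fintype.card K with hq0
  set d := Module.finrank K F with hd
  have hq0' : 2 ≤ q0 := Fintype.one_lt_card
  -- `F = K + K s`
  let S : Subring F :=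
    { carrier := {x | ∃ a ∈ R, ∃ b ∈ R, x = a + b * s}
      mul_mem' := by
        rintro _ _ ⟨a, ha, b, hb, rfl⟩ ⟨a', ha', b', hb', rfl⟩
        refine ⟨a * a' + b * b' * (s ^ 2 + s), R.add_mem (R.mul_mem ha ha') (R.mul_mem (R.mul_mem hb hb') ht),
          a * b' + a' * b - b * b', R.sub_mem (R.add_mem (R.mul_mem ha hb') (R.mul_mem ha' hb)) (R.mul_mem hb hb'), ?_⟩
        ring
      one_mem' := ⟨1, R.one_mem, 0, R.zero_mem, by ring⟩
      add_mem' := by
        rintro _ _ ⟨a, ha, b, hb, rfl⟩ ⟨a', ha', b', hb', rfl⟩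
        exact ⟨a + a', R.add_mem ha ha', b + b', R.add_mem hb hb', by ring⟩
      zero_mem' := ⟨0, R.zero_mem, 0, R.zero_mem, by ring⟩
      neg_mem' := by
        rintro _ ⟨a, ha, b, hb, rfl⟩
        exact ⟨-a, R.neg_mem ha, -b, R.neg_mem hb, by ring⟩ }
  have hS : S = ⊤ := by
    rw [eq_top_iff, ← hs, Subring.closure_le, Set.singleton_subset_iff]
    exact ⟨0, R.zero_mem, 1, R.one_mem, by ring⟩
  have hle : Fintype.card F ≤ q0 ^ 2 := by
    have hsurj : Function.Surjective (fun p : K × K => (p.1 : F) + p.2 * s) := by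
      intro x
      have hx : x ∈ S := by rw [hS]; exact Subring.mem_top x
      obtain ⟨a, ha, b, hb, rfl⟩ := hx
      exact ⟨(⟨a, ha⟩, ⟨b, hb⟩), rfl⟩
    have := Fintype.card_le_of_surjective _ hsurj
    rwa [Fintype.card_prod, ← pow_two] at this
  by_cases hd1 : d ≤ 1
  · left
    have hd1' : d = 1 := by
      have : 0 < d := Module.finrank_pos
      omega
    rw [hd1', pow_one] at hcard
    have hsurj : Function.Bijective (Subtype.val : K → F) := by
      rw [Fintype.bijective_iff_injective_and_card]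
      exact ⟨Subtype.val_injective, hcard.symm⟩
    rw [eq_top_iff]
    intro x _
    obtain ⟨y, rfl⟩ := hsurj.2 x
    exact y.2
  · right
    have hd2 : d = 2 := by
      have h1 : d ≤ 2 := by
        rw [hcard] at hle
        exact (Nat.pow_le_pow_iff_right (by omega)).1 hle
      omega
    rw [hd2] at hcard
    refine ⟨q0, by rw [Nat.card_eq_fintype_card, hcard], ?_⟩
    haveI : CharP K 2 := (algebraMap K F).charP (algebraMap K F).injective 2
    obtain ⟨k, hp, hk⟩ := FiniteField.card K 2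
    have hk' : q0 = 2 ^ (k : ℕ) := hk
    let φ : F →+* F := iterateFrobenius F 2 k
    have hφ : ∀ x, φ x = x ^ q0 := fun x => by rw [hk']; exact iterateFrobenius_def 2 k x
    have hfix : (s ^ 2 + s) ^ q0 = s ^ 2 + s := by
      have h1 : ((⟨s ^ 2 + s, ht⟩ : K) : K) ^ q0 = ⟨s ^ 2 + s, ht⟩ := FiniteField.pow_card _
      exact congrArg Subtype.val h1
    have h3 : (φ s) ^ 2 + φ s = s ^ 2 + s := by
      rw [← map_pow, ← map_add, hφ, hfix]
    have h4 : (φ s - s) * (φ s - (s + 1)) = 0 := by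
      linear_combination h3 + (-φ s * s - φ s + s ^ 2 + s) * h2
    rcases mul_eq_zero.1 h4 with h5 | h5
    · exfalso
      have h6 : φ.eqLocus (RingHom.id F) = ⊤ := by
        rw [eq_top_iff, ← hs, Subring.closure_le, Set.singleton_subset_iff]
        exact sub_eq_zero.1 h5
      have h7 : ∀ x : F, x ^ q0 = x := by
        intro x
        have hx : x ∈ φ.eqLocus (RingHom.id F) := by rw [h6]; exact Subring.mem_top x
        rw [← hφ]
        exact hx
      obtain ⟨ζ, hζ⟩ := exists_prim F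
      have hord : orderOf ζ = Fintype.card F - 1 := by
        rw [← Fintype.card_units, ← Nat.card_eq_fintype_card]
        apply orderOf_eq_card_of_forall_mem_zpowers
        intro x
        obtain ⟨k, hk⟩ := hζ x
        exact ⟨k, by simpa using hk⟩
      have h8 : ζ ^ (q0 - 1) = 1 := by
        have h9 := h7 ζ
        have h10 : ζ ^ q0 = ζ := by
          apply Units.ext
          rw [Units.val_pow_eq_pow_val, h9]
        have h11 : ζ ^ (q0 - 1) * ζ = ζ := by
          rw [← pow_succ, Nat.sub_add_cancel (by omega), h10]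
        exact mul_eq_right.1 h11
      have h12 := Nat.le_of_dvd (by omega) (orderOf_dvd_of_pow_eq_one h8)
      rw [hord, hcard] at h12
      nlinarith [Nat.sub_add_cancel (show 1 ≤ q0 by omega), Nat.sub_add_cancel (show 1 ≤ q0 ^ 2 by nlinarith)]
    · rw [← hφ]
      exact sub_eq_zero.1 h5

theorem exists_quad (h2 : (2 : F) = 0) (h4 : 4 < Nat.card F) : ∃ s : F, s ≠ 0 ∧ Subring.closure {s ^ 2 + s} = ⊤ := by
  classical
  haveI := Fintype.ofFinite F
  obtain ⟨ζ, hζ⟩ := exists_prim F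
  have hord : orderOf ζ = Fintype.card F - 1 := by
    rw [← Fintype.card_units, ← Nat.card_eq_fintype_card]
    apply orderOf_eq_card_of_forall_mem_zpowers
    intro x
    obtain ⟨k, hk⟩ := hζ x
    exact ⟨k, by simpa using hk⟩
  have hζ' : ∀ x : Fˣ, ∃ k : ℕ, (ζ⁻¹) ^ k = x := by
    intro x
    obtain ⟨k, hk⟩ := hζ x⁻¹
    exact ⟨k, by rw [inv_pow, hk, inv_inv]⟩
  rcases quad_gen h2 (ζ : F) (closure_prim hζ) with h | ⟨q0, hq0, e0⟩
  · exact ⟨ζ, ζ.ne_zero, h⟩
  rcases quad_gen h2 ((ζ⁻¹ : Fˣ) : F) (closure_prim hζ') with h | ⟨q1, hq1, e1⟩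
  · exact ⟨_, (ζ⁻¹).ne_zero, h⟩
  exfalso
  have hq : q0 = q1 := by
    rw [hq1] at hq0
    exact (Nat.pow_left_injective (by norm_num : (2 : ℕ) ≠ 0) hq0).symm
  subst hq
  have h5 : (ζ : F) ^ q0 * ((ζ⁻¹ : Fˣ) : F) ^ q0 = 1 := by
    rw [← mul_pow, Units.mul_inv, one_pow]
  rw [e0, e1] at h5
  have h6 : (ζ : F) * ((ζ⁻¹ : Fˣ) : F) = 1 := Units.mul_inv ζ
  have h7 : (ζ : F) ^ 2 + ζ + 1 = 0 := by
    linear_combination ζ * h5 - ((ζ : F) + 1) * h6 
  have h8 : (ζ : F) ^ 3 = 1 := by linear_combination (ζ - 1) * h7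
  have h9 : ζ ^ 3 = 1 := by
    apply Units.ext
    rw [Units.val_pow_eq_pow_val, h8, Units.val_one]
  have h10 := Nat.le_of_dvd (by norm_num) (orderOf_dvd_of_pow_eq_one h9)
  rw [hord] at h10
  rw [Nat.card_eq_fintype_card] at h4
  omega

theorem sqrt_two (h2 : (2 : F) = 0) (c : F) : ∃ r : F, r ^ 2 = c := by
  have hinj : Function.Injective (fun x : F => x ^ 2) := by
    intro x y hxy
    have h : (x - y) ^ 2 = 0 := by
      have h' : x ^ 2 = y ^ 2 := hxy
      linear_combination h' + (y ^ 2 - x * y) * h2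
    exact sub_eq_zero.1 (pow_eq_zero_iff (by norm_num) |>.1 h)
  exact (Finite.injective_iff_surjective.1 hinj) c

theorem exists_half (h2 : (2 : F) ≠ 0) : ∃ k : ℕ, (k : F) * 2 = 1 := by
  haveI := Fintype.ofFinite F
  obtain ⟨p, hp⟩ := CharP.exists F
  have hpp : p.Prime := CharP.char_is_prime F p
  have hp2 : p ≠ 2 := by
    intro h
    apply h2
    rw [h] at hp
    exact_mod_cast CharP.cast_eq_zero F 2
  obtain ⟨m, hm⟩ := hpp.odd_of_ne_two hp2
  refine ⟨m + 1, ?_⟩
  have h1 : ((p : ℕ) : F) = 0 := CharP.cast_eq_zero F p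
  rw [hm] at h1
  push_cast at h1 ⊢
  linear_combination h1

end Cfsg.Agent.Lib.RegSp
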