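import Cfsg.Agent.Lib.RegSp6

/-! Generation of `Sp(2n,F)` by conjugate regular unipotent elements: main theorem. -/

set_option autoImplicit false
set_option linter.unusedSectionVars false

namespace Cfsg.Agent.Lib.RegSp

open Matrix RootCalcSL Cfsg.Agent.Lib.SympMat

variable {F : Type*} [Field F] {n : ℕ}

section two8

theorem A'2_eq : A' 2 F = !![1, 0; 1, 1] := by
  ext i j
  fin_cases i <;> fin_cases j <;> simp [jm]

theorem A2_eq : A 2 F = !![1, -1; 0, 1] := by
  unfold A
  apply Matrix.inv_eq_left_inv
  rw [show jm F 2 = !![1, 0; 1, 1] from A'2_eq]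
  ext i j
  fin_cases i <;> fin_cases j <;> simp [Matrix.mul_apply, Fin.sum_univ_two]

theorem e20 : e F 2 0 = ![1, 0] := by
  ext i
  fin_cases i <;> simp [e]

theorem e21 : e F 2 1 = ![0, 1] := by
  ext i
  fin_cases i <;> simp [e]

theorem sq20 : sq (e F 2 0) = !![1, 0; 0, 0] := by
  rw [e20]
  ext i j
  fin_cases i <;> fin_cases j <;> simp [sq, Matrix.vecMulVec_apply]

theorem sq21 : sq (e F 2 1) = !![0, 0; 0, 1] := by
  rw [e21]
  ext i j
  fin_cases i <;> fin_cases j <;> simp [sq, Matrix.vecMulVec_apply]

theorem hB (s : F) : (!![1, s; 0, 1] : Mt 2 F) * (!![1, 0; -s, 1] : Mt 2 F)ᵀ = 1 := by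
  ext i j
  fin_cases i <;> fin_cases j <;> simp [Matrix.mul_apply, Fin.sum_univ_two]

/-- the conjugating element -/
noncomputable def hh (a s : F) : Sp 2 F :=
  ⟨Um ((a * s) • sq (e F 2 1)), Um_mem (by rw [Matrix.transpose_smul, sq_transpose])⟩ *
    ⟨fromBlocks !![1, s; 0, 1] 0 0 !![1, 0; -s, 1], fromBlocks_mem (hB s)⟩

theorem coe_hh (a s : F) : ((hh a s : Sp 2 F) : Mt2 2 F) =
    Um ((a * s) • sq (e F 2 1)) * fromBlocks !![1, s; 0, 1] 0 0 !![1, 0; -s, 1] := rfl

theorem third_two (h2 : (2 : F) = 0) {G : Subgroup (Sp 2 F)} {a s : F} (hu : Mem G (um 2 a))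
    (h : hh a s * uu 2 a * (hh a s)⁻¹ ∈ G) : UM G ((a * (s ^ 2 + s)) • sq (e F 2 0)) := by
  apply Mem.div ⟨_, h, rfl⟩ hu
  have h1 : Um ((a * (s ^ 2 + s)) • sq (e F 2 0)) * um 2 a * (hh a s : Mt2 2 F) = (hh a s : Mt2 2 F) * um 2 a := by
    rw [coe_hh]
    unfold Um um
    simp only [Matrix.fromBlocks_multiply, Matrix.one_mul, Matrix.mul_zero, Matrix.mul_one, Matrix.zero_mul, add_zero,
      zero_add]
    rw [A'2_eq, A2_eq, el_two, sq20, sq21]
    congr 1
    · ext i j
      fin_cases i <;> fin_cases j <;> simp [Matrix.mul_apply, Fin.sum_univ_two]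
      ring
    · ext i j
      fin_cases i <;> fin_cases j <;> simp [Matrix.mul_apply, Fin.sum_univ_two]
      · linear_combination (a * s ^ 2 + a * s) * h2
      · linear_combination (-(a * s)) * h2
      · linear_combination (-(a * s)) * h2
      · ring
    · ext i j
      fin_cases i <;> fin_cases j <;> simp [Matrix.mul_apply, Fin.sum_univ_two]
      ring
  rw [Submonoid.coe_mul, Submonoid.coe_mul, coe_uu, ← h1, Matrix.mul_assoc _ (hh a s : Mt2 2 F) _, coe_mul_inv,
    Matrix.mul_one]

end two8

section main

theorem coe_conj_jj (a : F) : ((jj n F * uu n a * (jj n F)⁻¹ : Sp n F) : Mt2 n F) = vm n a := by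
  rw [jj_conj (uu n a) rfl, neg_zero]
  rfl

theorem reg_main [Finite F] (hn : 2 ≤ n) (h22 : ¬ (n = 2 ∧ Nat.card F = 2)) :
    ∃ (a : F) (h : Sp n F), a ≠ 0 ∧
      Subgroup.closure ({uu n a, jj n F * uu n a * (jj n F)⁻¹, h * uu n a * h⁻¹} : Set (Sp n F)) = ⊤ := by
  obtain ⟨ζ, hζ⟩ := exists_prim F
  have hζc := closure_prim hζ
  have hmem : ∀ (a : F) (h : Sp n F), Mem (Subgroup.closure ({uu n a, jj n F * uu n a * (jj n F)⁻¹, h * uu n a * h⁻¹} :
      Set (Sp n F))) (um n a) ∧ Mem (Subgroup.closure ({uu n a, jj n F * uu n a * (jj n F)⁻¹, h * uu n a * h⁻¹} :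
      Set (Sp n F))) (vm n a) ∧ h * uu n a * h⁻¹ ∈ Subgroup.closure ({uu n a, jj n F * uu n a * (jj n F)⁻¹,
        h * uu n a * h⁻¹} : Set (Sp n F)) := by
    intro a h
    exact ⟨⟨_, Subgroup.subset_closure (Set.mem_insert _ _), coe_uu a⟩,
      ⟨_, Subgroup.subset_closure (Set.mem_insert_of_mem _ (Set.mem_insert _ _)), coe_conj_jj a⟩,
      Subgroup.subset_closure (Set.mem_insert_of_mem _ (Set.mem_insert_of_mem _ rfl))⟩
  by_cases h2 : (2 : F) = 0
  · rcases Nat.lt_or_ge 2 n with hn3 | hn3
    · -- characteristic 2, n ≥ 3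
      have hT : ((1 : F) • (sq (e F n 1) - sy (e F n 0) (e F n 2)))ᵀ =
          (1 : F) • (sq (e F n 1) - sy (e F n 0) (e F n 2)) := by
        rw [Matrix.transpose_smul, Matrix.transpose_sub, sq_transpose, sy_transpose]
      refine ⟨ζ, ⟨Um ((1 : F) • (sq (e F n 1) - sy (e F n 0) (e F n 2))), Um_mem hT⟩, ζ.ne_zero, ?_⟩
      obtain ⟨m1, m2, m3⟩ := hmem ζ ⟨Um ((1 : F) • (sq (e F n 1) - sy (e F n 0) (e F n 2))), Um_mem hT⟩
      have m4 := third_U hT m1 m3
      rw [z_big (by omega)] at m4
      exact eq_top (by omega) ζ.ne_zero m1 m2 (all_even m1 m2 (by omega) h2 (sqrt_two h2) ζ.ne_zero m4 hζc)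
    · obtain rfl : n = 2 := by omega
      have hcard : Nat.card F ≠ 2 := fun h => h22 ⟨rfl, h⟩
      by_cases h4 : 4 < Nat.card F
      · -- characteristic 2, n = 2, q ≥ 8
        obtain ⟨s, hs0, hs⟩ := exists_quad h2 h4
        obtain ⟨a, ha⟩ := sqrt_two h2 (s ^ 2 + s)
        have ha0 : a ≠ 0 := by
          rintro rfl
          rw [zero_pow (by norm_num)] at ha
          rw [← ha] at hs
          have hz : Subring.closure {(0 : F)} = ⊤ := hs
          -- the prime field
          have h5 : ∀ x : F, x = 0 ∨ x = 1 := by
            intro x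
            have hx : x ∈ Subring.closure {(0 : F)} := by rw [hz]; exact Subring.mem_top x
            induction hx using Subring.closure_induction with
            | mem x hx => exact Or.inl hx
            | zero => exact Or.inl rfl
            | one => exact Or.inr rfl
            | add x y _ _ hx hy =>
              rcases hx with rfl | rfl <;> rcases hy with rfl | rfl
              · left; ring
              · right; ring
              · right; ring
              · left; linear_combination h2
            | neg x _ hx =>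
              rcases hx with rfl | rfl
              · left; ring
              · right; linear_combination -h2
            | mul x y _ _ hx hy =>
              rcases hx with rfl | rfl <;> rcases hy with rfl | rfl
              · left; ring
              · left; ring
              · left; ring
              · right; ring
          have h6 : s = 1 := (h5 s).resolve_left hs0
          have h7 : Nat.card F ≤ 2 := by
            have : Function.Surjective (fun b : Bool => if b then (1 : F) else 0) := by
              intro x
              rcases h5 x with rfl | rfl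
              · exact ⟨false, rfl⟩
              · exact ⟨true, rfl⟩
            have := Nat.card_le_card_of_surjective _ this
            simpa using this
          omega
        refine ⟨a, hh a s, ha0, ?_⟩
        obtain ⟨m1, m2, m3⟩ := hmem a (hh a s)
        have m4 := third_two h2 m1 m3
        rw [← ha, show a * a ^ 2 = a ^ 3 by ring] at m4
        exact eq_top (by omega) ha0 m1 m2 (all_two m1 m2 h2 ha0 (u_sq h2 m1) m4 (by rw [ha]; exact hs))
      · -- q = 4
        haveI := Fintype.ofFinite F
        obtain ⟨ω, hω0, hω1⟩ : ∃ ω : F, ω ≠ 0 ∧ ω ≠ 1 := by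
          by_contra hcon
          push Not at hcon
          apply hcard
          have h7 : Nat.card F ≤ 2 := by
            have : Function.Surjective (fun b : Bool => if b then (1 : F) else 0) := by
              intro x
              by_cases hx : x = 0
              · exact ⟨false, hx.symm⟩
              · exact ⟨true, (hcon x hx).symm⟩
            have := Nat.card_le_card_of_surjective _ this
            simpa using this
          have h8 : 2 ≤ Nat.card F := by rw [Nat.card_eq_fintype_card]; exact Fintype.one_lt_card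
          omega
        have hT : (ω • sq (e F 2 1))ᵀ = ω • sq (e F 2 1) := by
          rw [Matrix.transpose_smul, sq_transpose]
        refine ⟨1, ⟨Um (ω • sq (e F 2 1)), Um_mem hT⟩, one_ne_zero, ?_⟩
        obtain ⟨m1, m2, m3⟩ := hmem 1 ⟨Um (ω • sq (e F 2 1)), Um_mem hT⟩
        have m4 := third_U hT m1 m3
        rw [z_two] at m4
        have m5 := u_sq h2 m1
        set G := Subgroup.closure ({uu 2 (1 : F), jj 2 F * uu 2 1 * (jj 2 F)⁻¹,
          (⟨Um (ω • sq (e F 2 1)), Um_mem hT⟩ : Sp 2 F) * uu 2 1 * (⟨Um (ω • sq (e F 2 1)), Um_mem hT⟩ : Sp 2 F)⁻¹} :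
            Set (Sp 2 F)) with hG
        let D : AddSubgroup F :=
          { carrier := {c | UM G (c • (sq (e F 2 0) + sy (e F 2 0) (e F 2 1)))}
            add_mem' := by
              intro a b ha hb
              show UM G ((a + b) • _)
              rw [add_smul]
              exact UM.add ha hb
            zero_mem' := by
              show UM G ((0 : F) • _)
              rw [zero_smul]
              exact UM.zero
            neg_mem' := by
              intro a ha
              show UM G ((-a) • _)
              rw [neg_smul]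
              exact UM.neg ha }
        have hD1 : (1 : F) ∈ D := m5
        have hD2 : ω ∈ D := by
          show UM G (ω • (sq (e F 2 0) + sy (e F 2 0) (e F 2 1)))
          convert m4 using 1
          have h4 : (2 : F) • (ω • sq (e F 2 0)) = 0 := by rw [h2, zero_smul]
          calc ω • (sq (e F 2 0) + sy (e F 2 0) (e F 2 1)) =
              ω • (sy (e F 2 0) (e F 2 1) - sq (e F 2 0)) + (2 : F) • (ω • sq (e F 2 0)) := by module
            _ = _ := by rw [h4, add_zero]
        have hDtop : D = ⊤ := by
          apply AddSubgroup.eq_top_of_card_eq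
          have h3 : 3 ≤ Nat.card D := by
            have h5 : ({0, 1, ω} : Set F) ⊆ (D : Set F) := by
              rintro x (rfl | rfl | rfl)
              · exact D.zero_mem
              · exact hD1
              · exact hD2
            have h6 : ({0, 1, ω} : Set F).ncard = 3 := by
              rw [Set.ncard_insert_of_notMem, Set.ncard_pair]
              · exact Ne.symm hω1
              · simp only [Set.mem_insert_iff, Set.mem_singleton_iff, not_or]
                exact ⟨zero_ne_one, Ne.symm hω0⟩
            calc 3 = ({0, 1, ω} : Set F).ncard := h6.symm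
              _ ≤ (D : Set F).ncard := Set.ncard_le_ncard h5
              _ = _ := rfl
          obtain ⟨m, hm⟩ := AddSubgroup.card_addSubgroup_dvd_card D
          have hpos : 0 < Nat.card F := Nat.card_pos
          rcases m with _ | _ | m
          · omega
          · omega
          · nlinarith
        have hall : ∀ c : F, UM G (c • (sq (e F 2 0) + sy (e F 2 0) (e F 2 1))) := by
          intro c
          have : c ∈ D := by rw [hDtop]; exact AddSubgroup.mem_top c
          exact this
        exact eq_top (by omega) one_ne_zero m1 m2 (all_two_of m1 m2 h2 rfl ω hω0 hω1 hall)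
  · -- odd characteristic
    obtain ⟨k, hk⟩ := exists_half h2
    have hT : ((k : F) • sy (e F n 0) (e F n 1))ᵀ = (k : F) • sy (e F n 0) (e F n 1) := by
      rw [Matrix.transpose_smul, sy_transpose]
    refine ⟨ζ, ⟨Um ((k : F) • sy (e F n 0) (e F n 1)), Um_mem hT⟩, ζ.ne_zero, ?_⟩
    obtain ⟨m1, m2, m3⟩ := hmem ζ ⟨Um ((k : F) • sy (e F n 0) (e F n 1)), Um_mem hT⟩
    have m4 := third_U hT m1 m3
    rw [z_odd hn, mul_comm, hk] at m4
    exact eq_top (by omega) ζ.ne_zero m1 m2 (all_odd m1 m2 hn hk m4 hζc)

end main

end Cfsg.Agent.Lib.RegSp
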