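import Mathlib
import Cfsg.Agent.Lib.ClSLn

set_option autoImplicit false
set_option linter.unusedSectionVars false

/-!
Generation of `SL_n(q)` by three conjugate regular unipotent elements: rank one (transvection)
calculus inside a subgroup of `SL_n`.
-/

namespace Cfsg.Agent.Lib.RegUniGen

open Matrix

variable {F : Type*} [Field F] {ι : Type*} [Fintype ι] [DecidableEq ι]

/-- the matrix of an element of `SL`. -/
noncomputable abbrev mt : SpecialLinearGroup ι F →* Matrix ι ι F := SpecialLinearGroup.coeMonoidHom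

/-- the subgroup contains the element `1 + v φ`. -/
def P (G : Subgroup (SpecialLinearGroup ι F)) (v φ : ι → F) : Prop :=
  ∃ g ∈ G, mt g = 1 + vecMulVec v φ

variable {G : Subgroup (SpecialLinearGroup ι F)}

theorem vmv_mul (v φ w ψ : ι → F) :
    vecMulVec v φ * vecMulVec w ψ = (φ ⬝ᵥ w) • vecMulVec v ψ := by
  rw [Matrix.vecMulVec_mul_vecMulVec, Matrix.vecMulVec_smul]

theorem P_zero_right (v : ι → F) : P G v 0 := ⟨1, G.one_mem, by simp⟩

theorem P_zero_left (φ : ι → F) : P G 0 φ := ⟨1, G.one_mem, by simp⟩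

theorem P_smul_comm (v φ : ι → F) (c : F) : P G v (c • φ) ↔ P G (c • v) φ := by
  unfold P
  rw [Matrix.vecMulVec_smul, Matrix.smul_vecMulVec]

theorem P_add {v w φ : ι → F} (hv : P G v φ) (hw : P G w φ) (h : φ ⬝ᵥ w = 0) : P G (v + w) φ := by
  obtain ⟨a, ha, ha'⟩ := hv
  obtain ⟨b, hb, hb'⟩ := hw
  refine ⟨a * b, G.mul_mem ha hb, ?_⟩
  rw [map_mul, ha', hb', Matrix.add_vecMulVec]
  simp only [Matrix.add_mul, Matrix.mul_add, Matrix.one_mul, Matrix.mul_one, vmv_mul, h,
    zero_smul, add_zero]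
  abel

theorem eq_of_mul_eq {a b : SpecialLinearGroup ι F} {M : Matrix ι ι F}
    (h : M * mt b = mt a * mt b) : mt a = M := by
  have h1 := congrArg (fun X => X * mt b⁻¹) h
  simp only [mul_assoc, ← map_mul, mul_inv_cancel, map_one, mul_one] at h1
  exact h1.symm

theorem P_neg {v φ : ι → F} (hv : P G v φ) (h : φ ⬝ᵥ v = 0) : P G (-v) φ := by
  obtain ⟨a, ha, ha'⟩ := hv
  refine ⟨a⁻¹, G.inv_mem ha, ?_⟩
  apply eq_of_mul_eq (b := a)
  rw [← map_mul, inv_mul_cancel, map_one, ha', Matrix.neg_vecMulVec]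
  simp only [Matrix.add_mul, Matrix.mul_add, Matrix.one_mul, Matrix.mul_one, Matrix.neg_mul,
    vmv_mul, h, zero_smul, add_zero]
  abel

theorem P_conj {v φ : ι → F} {g : SpecialLinearGroup ι F} (hg : g ∈ G) (hv : P G v φ) :
    P G (mt g *ᵥ v) (φ ᵥ* mt g⁻¹) := by
  obtain ⟨a, ha, ha'⟩ := hv
  refine ⟨g * a * g⁻¹, G.mul_mem (G.mul_mem hg ha) (G.inv_mem hg), ?_⟩
  rw [map_mul, map_mul, ha', Matrix.mul_add, Matrix.add_mul,
    Matrix.mul_one, ← map_mul, mul_inv_cancel, map_one,
    Matrix.mul_vecMulVec, Matrix.vecMulVec_mul]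

theorem P_comm {v φ w ψ : ι → F} (hv : P G v φ) (hw : P G w ψ) (h1 : φ ⬝ᵥ v = 0)
    (h2 : ψ ⬝ᵥ w = 0) (h3 : ψ ⬝ᵥ v = 0) : P G ((φ ⬝ᵥ w) • v) ψ := by
  obtain ⟨a, ha, ha'⟩ := hv
  obtain ⟨b, hb, hb'⟩ := hw
  refine ⟨a * b * (b * a)⁻¹, G.mul_mem (G.mul_mem ha hb) (G.inv_mem (G.mul_mem hb ha)), ?_⟩
  apply eq_of_mul_eq (b := b * a)
  rw [← map_mul, inv_mul_cancel_right, map_mul,
    map_mul, ha', hb', Matrix.smul_vecMulVec]
  simp only [Matrix.add_mul, Matrix.mul_add, Matrix.one_mul, Matrix.mul_one, vmv_mul, h2, h3,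
    zero_smul, add_zero, smul_mul_assoc, smul_zero]
  abel

/-- covectors whose full transvection group is in `G`. -/
def Full (G : Subgroup (SpecialLinearGroup ι F)) (φ : ι → F) : Prop := ∀ v, φ ⬝ᵥ v = 0 → P G v φ

theorem full_zero : Full G (0 : ι → F) := fun v _ => P_zero_right v

theorem full_smul {φ : ι → F} (h : Full G φ) (c : F) : Full G (c • φ) := by
  intro v hv
  rw [P_smul_comm]
  apply h
  rw [smul_dotProduct] at hv
  rw [dotProduct_smul]
  exact hv

theorem mulVec_inv_cancel (g : SpecialLinearGroup ι F) (v : ι → F) :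
    mt g *ᵥ (mt g⁻¹ *ᵥ v) = v := by
  rw [Matrix.mulVec_mulVec, ← map_mul, mul_inv_cancel, map_one, Matrix.one_mulVec]

theorem full_conj {φ : ι → F} {g : SpecialLinearGroup ι F} (hg : g ∈ G) (h : Full G φ) :
    Full G (φ ᵥ* mt g⁻¹) := by
  intro v hv
  have h1 := P_conj hg (h (mt g⁻¹ *ᵥ v) (by
    rw [Matrix.dotProduct_mulVec]; exact hv))
  rwa [mulVec_inv_cancel] at h1

theorem full_add {φ ψ : ι → F} (h1 : Full G φ) (h2 : Full G ψ) : Full G (φ + ψ) := by
  by_cases hc : ∀ v, ψ ⬝ᵥ v = 0 → φ ⬝ᵥ v = 0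
  · -- `φ` is a multiple of `ψ`
    by_cases hψ : ψ = 0
    · rw [hψ, add_zero]; exact h1
    obtain ⟨i, hi⟩ : ∃ i, ψ i ≠ 0 := by
      by_contra hcon
      push Not at hcon
      exact hψ (funext hcon)
    have hφ : φ = (φ i / ψ i) • ψ := by
      funext j
      have h3 := hc (Pi.single j (ψ i) - Pi.single i (ψ j)) (by
        rw [dotProduct_sub, dotProduct_single, dotProduct_single]; ring)
      rw [dotProduct_sub, dotProduct_single, dotProduct_single] at h3
      rw [Pi.smul_apply, smul_eq_mul]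
      field_simp
      linear_combination h3
    rw [hφ, show (φ i / ψ i) • ψ + ψ = (φ i / ψ i + 1) • ψ by rw [add_smul, one_smul]]
    exact full_smul h2 _
  · push Not at hc
    obtain ⟨v, hv, hv'⟩ := hc
    -- `1 + t v ψ ∈ G`
    obtain ⟨g, hg, hg'⟩ := h2 ((φ ⬝ᵥ v)⁻¹ • v) (by rw [dotProduct_smul, hv, smul_zero])
    have h3 := full_conj (G.inv_mem hg) h1
    rw [inv_inv, hg', Matrix.vecMul_add, Matrix.vecMul_one, Matrix.vecMul_vecMulVec,
      dotProduct_smul, smul_eq_mul, inv_mul_cancel₀ hv', one_smul] at h3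
    exact h3

theorem eq_top_of_full (h : ∀ j : ι, Full G (Pi.single j 1)) : G = ⊤ := by
  apply ClSLn.eq_top_of_transvection_mem
  intro i j hij c
  obtain ⟨g, hg, hg'⟩ := h j (Pi.single i c) (by
    rw [dotProduct_single, Pi.single_eq_of_ne hij, zero_mul])
  have : g = SpecialLinearGroup.transvection hij c := by
    apply SpecialLinearGroup.coeMonoidHom_injective
    rw [hg']
    have h1 : (SpecialLinearGroup.coeMonoidHom (SpecialLinearGroup.transvection hij c) :
        Matrix ι ι F) = 1 + Matrix.single i j c := rfl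
    rw [h1]
    congr 1
    ext a b
    rw [Matrix.vecMulVec_apply, Pi.single_apply, Pi.single_apply, Matrix.single_apply]
    grind
  rw [← this]
  exact hg


section Gen

variable {k : ℕ} [Finite F]

theorem gen (G : Subgroup (SpecialLinearGroup (Fin (k + 3)) F))
    (u w : SpecialLinearGroup (Fin (k + 3)) F) (hu : u ∈ G) (hw : w ∈ G)
    (m : Fin (k + 2) → F) (hm : ∀ i, m i ≠ 0)
    (hu1 : mt u *ᵥ (Pi.single 1 1) = Pi.single 1 1 + Pi.single 0 1)
    (hu0 : mt u *ᵥ (Pi.single 0 1) = Pi.single 0 1)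
    (hul : (Pi.single (Fin.last (k + 2)) 1 : Fin (k + 3) → F) ᵥ* mt u =
      Pi.single (Fin.last (k + 2)) 1)
    (hw1 : ∀ i : Fin (k + 2), mt w *ᵥ (Pi.single i.castSucc 1) =
      Pi.single i.castSucc 1 + m i • Pi.single i.succ 1)
    (hw2 : mt w *ᵥ (Pi.single (Fin.last (k + 2)) 1) = Pi.single (Fin.last (k + 2)) 1)
    (a : F)
    (hgen : ∀ x : F, x ≠ 0 → ∃ r : ℕ, (mt w⁻¹ (Fin.last (k + 2)) 0 * m 0 * a) ^ (r + 1) = x)
    (hP : P G (a • Pi.single 0 1) (Pi.single (Fin.last (k + 2)) 1)) : G = ⊤ := by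
  classical
  set f : Fin (k + 3) → F := Pi.single (Fin.last (k + 2)) 1 with hf
  set ψ : Fin (k + 3) → F := f ᵥ* mt w⁻¹ with hψ
  have hψw : ∀ v, ψ ⬝ᵥ (mt w *ᵥ v) = f ⬝ᵥ v := by
    intro v
    rw [Matrix.dotProduct_mulVec, hψ, Matrix.vecMul_vecMul, ← map_mul, inv_mul_cancel, map_one,
      Matrix.vecMul_one]
  have hfe : ∀ i : Fin (k + 2), f ⬝ᵥ Pi.single i.castSucc 1 = 0 := by
    intro i
    rw [dotProduct_single, hf, Pi.single_eq_of_ne (Fin.castSucc_lt_last i).ne, zero_mul]
  have hfl : f ⬝ᵥ Pi.single (Fin.last (k + 2)) 1 = 1 := by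
    rw [dotProduct_single, hf, Pi.single_eq_same, one_mul]
  have hψe : ∀ i : Fin (k + 3), ψ ⬝ᵥ Pi.single i 1 ≠ 0 := by
    intro i
    induction i using Fin.reverseInduction with
    | last =>
      have h1 := hψw f
      rw [hw2] at h1
      have h2 : f ⬝ᵥ f = 1 := hfl
      rw [← hf, h1, h2]
      exact one_ne_zero
    | cast i ih =>
      have h1 := hψw (Pi.single i.castSucc 1)
      rw [hw1, hfe, dotProduct_add, dotProduct_smul, smul_eq_mul] at h1
      intro h0
      rw [h0, zero_add] at h1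
      exact (mul_ne_zero (hm i) ih) h1
  have hκ : ψ ⬝ᵥ Pi.single 0 1 = mt w⁻¹ (Fin.last (k + 2)) 0 := by
    rw [dotProduct_single, mul_one, hψ, hf, Matrix.single_one_vecMul]
    rfl
  set κ : F := mt w⁻¹ (Fin.last (k + 2)) 0 with hκd
  have hκ0 : κ ≠ 0 := by rw [← hκ]; exact hψe 0
  have hf0 : f ⬝ᵥ Pi.single 0 1 = 0 := hfe 0
  have hf1 : f ⬝ᵥ Pi.single 1 1 = 0 := hfe 1
  have hw0 : mt w *ᵥ (Pi.single 0 1) = Pi.single 0 1 + m 0 • Pi.single 1 1 := hw1 0
  have hfw : f ⬝ᵥ (mt w *ᵥ (Pi.single 0 1)) = 0 := by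
    rw [hw0, dotProduct_add, dotProduct_smul, hf0, hf1]; simp
  -- key step
  have hQ : ∀ t t' : F, P G (t • Pi.single 0 1) f → P G (t' • Pi.single 0 1) f →
      P G ((κ * t * t') • (Pi.single 0 1 + m 0 • Pi.single 1 1)) f := by
    intro t t' h1 h2
    have h3 := P_conj hw h1
    rw [← hψ] at h3
    have h4 := P_comm h3 h2 (by rw [hψw, dotProduct_smul, hf0, smul_zero])
      (by rw [dotProduct_smul, hf0, smul_zero]) (by
        rw [Matrix.mulVec_smul, dotProduct_smul, hfw, smul_zero])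
    rw [dotProduct_smul, hκ, Matrix.mulVec_smul, hw0, smul_smul, smul_eq_mul] at h4
    rwa [show κ * t * t' = t' * κ * t by ring]
  have hful : f ᵥ* mt u⁻¹ = f := by
    have h1 : (f ᵥ* mt u) ᵥ* mt u⁻¹ = f ᵥ* mt u⁻¹ := by rw [hul]
    rw [Matrix.vecMul_vecMul, ← map_mul, mul_inv_cancel, map_one, Matrix.vecMul_one] at h1
    exact h1.symm
  have hR : ∀ t t' : F, P G (t • Pi.single 0 1) f → P G (t' • Pi.single 0 1) f →
      P G ((κ * m 0 * t * t') • Pi.single 0 1) f := by
    intro t t' h1 h2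
    have h3 := hQ t t' h1 h2
    have h4 := P_conj hu h3
    rw [hful, Matrix.mulVec_smul, Matrix.mulVec_add, Matrix.mulVec_smul, hu0, hu1] at h4
    have h5 := P_neg h3 (by rw [dotProduct_smul, dotProduct_add, dotProduct_smul, hf0, hf1]; simp)
    have h6 := P_add h4 h5 (by
      rw [dotProduct_neg, dotProduct_smul, dotProduct_add, dotProduct_smul, hf0, hf1]; simp)
    convert h6 using 1
    module
  have hRpow : ∀ r : ℕ, P G (((κ * m 0 * a) ^ r * a) • Pi.single 0 1) f := by
    intro r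
    induction r with
    | zero => simpa using hP
    | succ r ih =>
      have h1 := hR _ _ ih hP
      convert h1 using 2
      ring
  have hRall : ∀ t : F, P G (t • Pi.single 0 1) f := by
    intro t
    by_cases ht : t = 0
    · rw [ht, zero_smul]; exact P_zero_left _
    · obtain ⟨r, hr⟩ := hgen (κ * m 0 * t) (mul_ne_zero (mul_ne_zero hκ0 (hm 0)) ht)
      have h1 := hRpow r
      convert h1 using 2
      have h2 : κ * m 0 ≠ 0 := mul_ne_zero hκ0 (hm 0)
      apply mul_left_cancel₀ h2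
      rw [← hr]
      ring
  -- the space `W`
  have hW : ∀ v, (∀ t : F, P G (t • v) f) → f ⬝ᵥ v = 0 → f ⬝ᵥ (mt w *ᵥ v) = 0 →
      ∀ t : F, P G (t • (mt w *ᵥ v)) f := by
    intro v hv hv0 hwv t
    have h3 := P_conj hw (hv (t * κ⁻¹))
    rw [← hψ] at h3
    have h4 := P_comm h3 (hRall 1) (by rw [hψw, dotProduct_smul, hv0, smul_zero])
      (by rw [dotProduct_smul, hf0, smul_zero]) (by
        rw [Matrix.mulVec_smul, dotProduct_smul, hwv, smul_zero])
    rw [dotProduct_smul, hκ, Matrix.mulVec_smul, smul_smul, smul_eq_mul] at h4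
    convert h4 using 2
    field_simp
  have hWe : ∀ i : Fin (k + 2), ∀ t : F, P G (t • Pi.single i.castSucc 1) f := by
    intro i
    induction i using Fin.induction with
    | zero => exact hRall
    | succ i ih =>
      intro t
      have hwi := hw1 i.castSucc
      have h0 : f ⬝ᵥ (mt w *ᵥ Pi.single (i.castSucc).castSucc 1) = 0 := by
        rw [hwi, dotProduct_add, dotProduct_smul, hfe, Fin.succ_castSucc, hfe]; simp
      have h1 := hW _ ih (hfe _) h0 (t * (m i.castSucc)⁻¹)
      have h2 := P_neg (ih (t * (m i.castSucc)⁻¹)) (by rw [dotProduct_smul, hfe, smul_zero])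
      have h3 := P_add h1 h2 (by rw [dotProduct_neg, dotProduct_smul, hfe, smul_zero, neg_zero])
      rw [hwi, Fin.succ_castSucc] at h3
      convert h3 using 1
      rw [smul_add, smul_smul, inv_mul_cancel_right₀ (hm _)]
      abel
  have hfull : Full G f := by
    intro v hv
    have hvl : v (Fin.last (k + 2)) = 0 := by
      rw [hf, single_dotProduct, one_mul] at hv
      exact hv
    have h1 : v = ∑ i : Fin (k + 2), v i.castSucc • Pi.single i.castSucc (1 : F) := by
      funext j
      rw [Finset.sum_apply]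
      refine Fin.lastCases ?_ (fun j => ?_) j
      · rw [hvl]
        symm
        apply Finset.sum_eq_zero
        intro i _
        rw [Pi.smul_apply, Pi.single_eq_of_ne (Fin.castSucc_lt_last i).ne', smul_zero]
      · rw [Finset.sum_eq_single j]
        · simp
        · intro i _ hij
          rw [Pi.smul_apply, Pi.single_eq_of_ne, smul_zero]
          exact fun h => hij (Fin.castSucc_injective _ h).symm
        · simp
    have h2 : ∀ s : Finset (Fin (k + 2)), P G (∑ i ∈ s, v i.castSucc • Pi.single i.castSucc 1) f := by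
      intro s
      induction s using Finset.induction_on with
      | empty => rw [Finset.sum_empty]; exact P_zero_left _
      | insert i s hi ih =>
        rw [Finset.sum_insert hi]
        apply P_add (hWe i _) ih
        rw [dotProduct_sum]
        apply Finset.sum_eq_zero
        intro j _
        rw [dotProduct_smul, hfe, smul_zero]
    rw [h1]
    exact h2 _
  -- all coordinates
  apply eq_top_of_full
  intro j
  induction j using Fin.reverseInduction with
  | last => exact hfull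
  | cast i ih =>
    have h1 := full_conj (G.inv_mem hw) ih
    rw [inv_inv] at h1
    -- `f_{i+1} w = f_{i+1} + m_i f_i`
    have h2 : (Pi.single i.succ (1 : F)) ᵥ* mt w = Pi.single i.succ 1 + m i • Pi.single i.castSucc 1 := by
      funext l
      have h3 : (Pi.single i.succ (1 : F) ᵥ* mt w) l = (mt w *ᵥ Pi.single l 1) i.succ := by
        rw [Matrix.single_one_vecMul, Matrix.mulVec_single_one]; rfl
      rw [h3]
      induction l using Fin.lastCases with
      | last =>
        rw [← hf, hw2, hf, Pi.add_apply, Pi.smul_apply,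
          Pi.single_eq_of_ne (Fin.castSucc_lt_last i).ne', smul_zero, add_zero, Pi.single_apply,
          Pi.single_apply]
        simp only [eq_comm]
      | cast l =>
        rw [hw1, Pi.add_apply, Pi.add_apply, Pi.smul_apply, Pi.smul_apply]
        simp only [Pi.single_apply, Fin.succ_inj, Fin.castSucc_inj, smul_eq_mul]
        have e1 : (i.succ = l.castSucc) = (l.castSucc = i.succ) := propext eq_comm
        simp only [e1]
        congr 1
        by_cases hli : l = i
        · subst hli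
          rfl
        · rw [if_neg (fun h => hli h.symm), if_neg hli]
          simp
    rw [h2] at h1
    have h3 := full_add h1 (full_smul ih (-1))
    have h4 := full_smul h3 (m i)⁻¹
    convert h4 using 1
    rw [show (Pi.single i.succ (1 : F) + m i • Pi.single i.castSucc 1 + (-1 : F) • Pi.single i.succ 1 :
      Fin (k + 2 + 1) → F) = m i • Pi.single i.castSucc 1 by module, smul_smul,
      inv_mul_cancel₀ (hm i), one_smul]

end Gen

end Cfsg.Agent.Lib.RegUniGen
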