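import Mathlib
import Cfsg.Agent.Lib.RegUniGen

set_option autoImplicit false
set_option linter.unusedSectionVars false

/-!
`SL_n(q)`, `n ≥ 3`, is generated by three conjugate regular unipotent elements.
-/

namespace Cfsg.Agent.Lib.RegUniGen

open Matrix

variable {F : Type*} [Field F] {k : ℕ}

/-- the nilpotent shift matrix. -/
def Nm (F : Type*) [Field F] (n : ℕ) : Matrix (Fin n) (Fin n) F :=
  fun i j => if (i : ℕ) + 1 = j then 1 else 0

theorem Nm_pow (n r : ℕ) :
    (Nm F n) ^ r = Matrix.of fun (i j : Fin n) => if (i : ℕ) + r = (j : ℕ) then (1 : F) else 0 := by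
  induction r with
  | zero =>
    ext i j
    rw [pow_zero, Matrix.one_apply]
    simp [Fin.ext_iff]
  | succ r ih =>
    ext i j
    rw [pow_succ, ih, Matrix.mul_apply]
    simp only [Matrix.of_apply]
    by_cases h : (i : ℕ) + (r + 1) = j
    · rw [if_pos h, Finset.sum_eq_single (⟨(i : ℕ) + r, by have := j.2; omega⟩ : Fin n)]
      · simp only [Nm, if_true, one_mul]
        rw [if_pos (by omega)]
      · intro b _ hb
        rw [if_neg, zero_mul]
        intro h2
        exact hb (Fin.ext h2.symm)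
      · simp
    · rw [if_neg h]
      apply Finset.sum_eq_zero
      intro l _
      by_cases h2 : (i : ℕ) + r = l
      · rw [if_pos h2, one_mul, Nm, if_neg (by omega)]
      · rw [if_neg h2, zero_mul]

theorem det_one_add_Nm (n : ℕ) : (1 + Nm F n).det = 1 := by
  rw [Matrix.det_of_upperTriangular]
  · apply Finset.prod_eq_one
    intro i _
    simp [Nm]
  · intro i j hij
    simp only [id_eq] at hij
    rw [Matrix.add_apply, Matrix.one_apply_ne (ne_of_gt hij), Nm, if_neg, add_zero]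
    have : (j : ℕ) < i := hij
    omega

/-- the standard regular unipotent element. -/
def uu (F : Type*) [Field F] (n : ℕ) : SpecialLinearGroup (Fin n) F := ⟨1 + Nm F n, det_one_add_Nm n⟩

theorem mt_uu (n : ℕ) : mt (uu F n) = 1 + Nm F n := rfl

theorem uu_succ (j : Fin (k + 2)) : mt (uu F (k + 3)) *ᵥ (Pi.single j.succ 1) =
    Pi.single j.succ 1 + Pi.single j.castSucc 1 := by
  rw [mt_uu, Matrix.add_mulVec, Matrix.one_mulVec]
  congr 1
  funext i
  rw [Matrix.mulVec_single_one]
  simp only [Matrix.col_apply, Nm, Pi.single_apply, Fin.val_succ, Fin.ext_iff, Fin.val_castSucc,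
    Nat.add_right_cancel_iff]

theorem uu_zero : mt (uu F (k + 3)) *ᵥ (Pi.single 0 1) = Pi.single 0 1 := by
  rw [mt_uu, Matrix.add_mulVec, Matrix.one_mulVec]
  have : Nm F (k + 3) *ᵥ (Pi.single 0 1) = 0 := by
    funext i
    rw [Matrix.mulVec_single_one]
    simp [Matrix.col_apply, Nm]
  rw [this, add_zero]

theorem last_uu : (Pi.single (Fin.last (k + 2)) 1 : Fin (k + 3) → F) ᵥ* mt (uu F (k + 3)) =
    Pi.single (Fin.last (k + 2)) 1 := by
  rw [mt_uu, Matrix.vecMul_add, Matrix.vecMul_one]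
  have : (Pi.single (Fin.last (k + 2)) 1 : Fin (k + 3) → F) ᵥ* Nm F (k + 3) = 0 := by
    funext i
    rw [Matrix.single_one_vecMul]
    have := i.2
    simp only [Matrix.row_apply, Nm, Fin.val_last, Pi.zero_apply]
    rw [if_neg (by omega)]
  rw [this, add_zero]

/-- the reversing permutation matrix. -/
def Jm (F : Type*) [Field F] (n : ℕ) : Matrix (Fin n) (Fin n) F :=
  fun i j => if i = j.rev then 1 else 0

theorem Jm_mul (n : ℕ) : Jm F n * Jm F n = 1 := by
  ext i j
  rw [Matrix.mul_apply, Finset.sum_eq_single j.rev]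
  · simp only [Jm, Fin.rev_rev, if_true, mul_one, Matrix.one_apply]
  · intro l _ hl
    simp only [Jm]
    rw [if_neg hl, mul_zero]
  · simp

theorem det_Jm_ne (n : ℕ) : (Jm F n).det ≠ 0 := by
  intro h
  have := congrArg Matrix.det (Jm_mul (F := F) n)
  rw [Matrix.det_mul, h, Matrix.det_one, mul_zero] at this
  exact zero_ne_one this

/-- the scaling vector. -/
noncomputable def cc (F : Type*) [Field F] (k : ℕ) : Fin (k + 3) → F :=
  Function.update (fun _ => 1) 0 ((Jm F (k + 3)).det)⁻¹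

theorem cc_ne (i : Fin (k + 3)) : cc F k i ≠ 0 := by
  unfold cc
  rw [Function.update_apply]
  split_ifs
  · exact inv_ne_zero (det_Jm_ne _)
  · exact one_ne_zero

theorem det_hh : (Jm F (k + 3) * Matrix.diagonal (cc F k)).det = 1 := by
  rw [Matrix.det_mul, Matrix.det_diagonal, cc, Finset.prod_update_of_mem (Finset.mem_univ _)]
  simp [det_Jm_ne]

/-- the reversing element. -/
noncomputable def hh (F : Type*) [Field F] (k : ℕ) : SpecialLinearGroup (Fin (k + 3)) F :=
  ⟨Jm F (k + 3) * Matrix.diagonal (cc F k), det_hh⟩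

theorem hh_single (j : Fin (k + 3)) : mt (hh F k) *ᵥ (Pi.single j 1) =
    cc F k j • Pi.single j.rev 1 := by
  have h1 : mt (hh F k) = Jm F (k + 3) * Matrix.diagonal (cc F k) := rfl
  rw [h1]
  funext i
  rw [Matrix.mulVec_single_one]
  simp only [Matrix.col_apply, Matrix.mul_diagonal, Jm, Pi.smul_apply, Pi.single_apply, smul_eq_mul]
  ring

/-- the lower regular unipotent. -/
noncomputable def ww (F : Type*) [Field F] (k : ℕ) : SpecialLinearGroup (Fin (k + 3)) F :=
  hh F k * uu F (k + 3) * (hh F k)⁻¹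

theorem ww_hh (v : Fin (k + 3) → F) : mt (ww F k) *ᵥ (mt (hh F k) *ᵥ v) =
    mt (hh F k) *ᵥ (mt (uu F (k + 3)) *ᵥ v) := by
  rw [Matrix.mulVec_mulVec, Matrix.mulVec_mulVec, ← map_mul, ← map_mul, ww, inv_mul_cancel_right]

theorem ww_castSucc (i : Fin (k + 2)) : mt (ww F k) *ᵥ (Pi.single i.castSucc 1) =
    Pi.single i.castSucc 1 + (cc F k i.rev.castSucc / cc F k i.rev.succ) • Pi.single i.succ 1 := by
  have h1 := ww_hh (F := F) (k := k) (Pi.single i.rev.succ 1)
  rw [uu_succ, Matrix.mulVec_add, hh_single, hh_single, Fin.rev_succ, Fin.rev_castSucc, Fin.rev_rev,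
    Matrix.mulVec_smul] at h1
  have h2 := cc_ne (F := F) (k := k) i.rev.succ
  have h3 := congrArg (fun X => (cc F k i.rev.succ)⁻¹ • X) h1
  simp only [smul_smul, inv_mul_cancel₀ h2, one_smul, smul_add] at h3
  rw [h3, div_eq_inv_mul]

theorem ww_last : mt (ww F k) *ᵥ (Pi.single (Fin.last (k + 2)) 1) =
    Pi.single (Fin.last (k + 2)) 1 := by
  have h1 := ww_hh (F := F) (k := k) (Pi.single 0 1)
  rw [uu_zero, hh_single, Fin.rev_zero, Matrix.mulVec_smul] at h1
  have h2 := cc_ne (F := F) (k := k) 0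
  exact smul_right_injective _ h2 h1

theorem zero_ne_p : (0 : Fin (k + 3)) ≠ (Fin.last (k + 1)).castSucc := by
  intro h
  have := congrArg Fin.val h
  simp at this

theorem zero_ne_l : (0 : Fin (k + 3)) ≠ Fin.last (k + 2) := by
  intro h
  have := congrArg Fin.val h
  simp at this

theorem conj_uu (a : F) : SpecialLinearGroup.transvection (zero_ne_p (k := k)) a * uu F (k + 3) =
    uu F (k + 3) * SpecialLinearGroup.transvection (zero_ne_l (k := k)) a *
      SpecialLinearGroup.transvection (zero_ne_p (k := k)) a := by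
  apply SpecialLinearGroup.coeMonoidHom_injective
  have ht : ∀ {i j : Fin (k + 3)} (hij : i ≠ j), mt (SpecialLinearGroup.transvection hij a) =
      1 + vecMulVec (a • Pi.single i 1) (Pi.single j 1) := by
    intro i j hij
    have h1 : (SpecialLinearGroup.coeMonoidHom (SpecialLinearGroup.transvection hij a) :
        Matrix (Fin (k + 3)) (Fin (k + 3)) F) = 1 + Matrix.single i j a := rfl
    rw [h1]
    congr 1
    ext x y
    rw [Matrix.vecMulVec_apply, Pi.smul_apply, Pi.single_apply, Pi.single_apply, Matrix.single_apply]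
    simp only [smul_eq_mul]
    grind
  rw [map_mul, map_mul, map_mul, ht, ht, mt_uu]
  have hN0 : Nm F (k + 3) *ᵥ (Pi.single 0 1) = 0 := by
    funext i
    rw [Matrix.mulVec_single_one]
    simp [Matrix.col_apply, Nm]
  have hNp : (Pi.single (Fin.last (k + 1)).castSucc 1 : Fin (k + 3) → F) ᵥ* Nm F (k + 3) =
      Pi.single (Fin.last (k + 2)) 1 := by
    funext i
    rw [Matrix.single_one_vecMul]
    simp only [Matrix.row_apply, Nm, Fin.val_last, Fin.val_castSucc, Pi.single_apply, Fin.ext_iff]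
    simp only [eq_comm]
  have e1 : vecMulVec (a • (Pi.single 0 1 : Fin (k + 3) → F)) (Pi.single (Fin.last (k + 1)).castSucc 1) *
      Nm F (k + 3) = vecMulVec (a • Pi.single 0 1) (Pi.single (Fin.last (k + 2)) 1) := by
    rw [Matrix.vecMulVec_mul, hNp]
  have e2 : Nm F (k + 3) * vecMulVec (a • Pi.single 0 1) (Pi.single (Fin.last (k + 2)) 1) = 0 := by
    rw [Matrix.mul_vecMulVec, Matrix.mulVec_smul, hN0, smul_zero, Matrix.zero_vecMulVec]
  have e3 : Nm F (k + 3) * vecMulVec (a • Pi.single 0 1)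
      (Pi.single (Fin.last (k + 1)).castSucc 1) = 0 := by
    rw [Matrix.mul_vecMulVec, Matrix.mulVec_smul, hN0, smul_zero, Matrix.zero_vecMulVec]
  have e4 : vecMulVec (a • (Pi.single 0 1 : Fin (k + 3) → F)) (Pi.single (Fin.last (k + 2)) 1) *
      vecMulVec (a • Pi.single 0 1) (Pi.single (Fin.last (k + 1)).castSucc 1) = 0 := by
    rw [vmv_mul, dotProduct_smul, single_dotProduct, Pi.single_eq_of_ne (zero_ne_l (k := k)).symm]
    simp
  generalize vecMulVec (a • (Pi.single 0 1 : Fin (k + 3) → F))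
    (Pi.single (Fin.last (k + 1)).castSucc 1) = V1 at *
  generalize vecMulVec (a • (Pi.single 0 1 : Fin (k + 3) → F))
    (Pi.single (Fin.last (k + 2)) 1) = V2 at *
  have e5 : Nm F (k + 3) * (1 + V2) = Nm F (k + 3) := by rw [Matrix.mul_add, Matrix.mul_one, e2, add_zero]
  have e6 : Nm F (k + 3) * (1 + V1) = Nm F (k + 3) := by rw [Matrix.mul_add, Matrix.mul_one, e3, add_zero]
  rw [Matrix.add_mul (1 : Matrix (Fin (k + 3)) (Fin (k + 3)) F) (Nm F (k + 3)) (1 + V2), e5,
    Matrix.add_mul _ _ (1 + V1), e6, Matrix.one_mul, Matrix.add_mul 1 V2, Matrix.mul_add V2,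
    e4, Matrix.mul_add (1 + V1), Matrix.add_mul 1 V1 (Nm F (k + 3)), e1]
  simp only [Matrix.one_mul, Matrix.mul_one, add_zero]
  abel

theorem kappa_ne : mt (ww F k)⁻¹ (Fin.last (k + 2)) 0 ≠ 0 := by
  set f : Fin (k + 3) → F := Pi.single (Fin.last (k + 2)) 1 with hf
  set ψ : Fin (k + 3) → F := f ᵥ* mt (ww F k)⁻¹ with hψ
  have hψw : ∀ v, ψ ⬝ᵥ (mt (ww F k) *ᵥ v) = f ⬝ᵥ v := by
    intro v
    rw [Matrix.dotProduct_mulVec, hψ, Matrix.vecMul_vecMul, ← map_mul, inv_mul_cancel, map_one,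
      Matrix.vecMul_one]
  have hfe : ∀ i : Fin (k + 2), f ⬝ᵥ Pi.single i.castSucc 1 = 0 := by
    intro i
    rw [dotProduct_single, hf, Pi.single_eq_of_ne (Fin.castSucc_lt_last i).ne, zero_mul]
  have hfl : f ⬝ᵥ Pi.single (Fin.last (k + 2)) 1 = 1 := by
    rw [dotProduct_single, hf, Pi.single_eq_same, one_mul]
  have hψe : ∀ i : Fin (k + 3), ψ ⬝ᵥ Pi.single i 1 ≠ 0 := by
    intro i
    induction i using Fin.reverseInduction with
    | last =>
      have h1 := hψw f
      rw [hf, ww_last, ← hf] at h1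
      have h2 : f ⬝ᵥ f = 1 := hfl
      rw [← hf, h1, h2]
      exact one_ne_zero
    | cast i ih =>
      have h1 := hψw (Pi.single i.castSucc 1)
      rw [ww_castSucc, hfe, dotProduct_add, dotProduct_smul, smul_eq_mul] at h1
      intro h0
      rw [h0, zero_add] at h1
      exact (mul_ne_zero (div_ne_zero (cc_ne _) (cc_ne _)) ih) h1
  have hκ : ψ ⬝ᵥ Pi.single 0 1 = mt (ww F k)⁻¹ (Fin.last (k + 2)) 0 := by
    rw [dotProduct_single, mul_one, hψ, hf, Matrix.single_one_vecMul]
    rfl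
  rw [← hκ]
  exact hψe 0

theorem main {F : Type*} [Field F] [Finite F] (n : ℕ) (hn : 3 ≤ n) :
    ∃ u g h : SpecialLinearGroup (Fin n) F,
      (IsNilpotent ((u : Matrix (Fin n) (Fin n) F) - 1) ∧
        ((u : Matrix (Fin n) (Fin n) F) - 1) ^ (n - 1) ≠ 0) ∧
      Subgroup.closure ({u, g * u * g⁻¹, h * u * h⁻¹} : Set (SpecialLinearGroup (Fin n) F)) = ⊤ := by
  obtain ⟨k, rfl⟩ : ∃ k, n = k + 3 := ⟨n - 3, by omega⟩
  obtain ⟨ζ, hζ⟩ := IsCyclic.exists_generator (α := Fˣ)
  have hζ' : ∀ x : F, x ≠ 0 → ∃ r : ℕ, (ζ : F) ^ (r + 1) = x := by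
    intro x hx
    obtain ⟨r, hr⟩ := (Submonoid.mem_powers_iff _ _).1
      ((mem_powers_iff_mem_zpowers (x := ζ)).2 (hζ (Units.mk0 x hx * ζ⁻¹)))
    refine ⟨r, ?_⟩
    have h1 : ζ ^ (r + 1) = Units.mk0 x hx := by rw [pow_succ, hr, inv_mul_cancel_right]
    have h2 := congrArg Units.val h1
    simpa using h2
  set m : Fin (k + 2) → F := fun i => cc F k i.rev.castSucc / cc F k i.rev.succ with hm
  have hm0 : ∀ i, m i ≠ 0 := fun i => div_ne_zero (cc_ne _) (cc_ne _)
  set κ : F := mt (ww F k)⁻¹ (Fin.last (k + 2)) 0 with hκ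
  set a : F := (κ * m 0)⁻¹ * ζ with ha
  refine ⟨uu F (k + 3), SpecialLinearGroup.transvection (zero_ne_p (k := k)) a, hh F k,
    ⟨?_, ?_⟩, ?_⟩
  · have h1 : ((uu F (k + 3) : SpecialLinearGroup (Fin (k + 3)) F) : Matrix (Fin (k + 3))
      (Fin (k + 3)) F) - 1 = Nm F (k + 3) := by
      show (1 + Nm F (k + 3)) - 1 = _
      rw [add_sub_cancel_left]
    rw [h1]
    refine ⟨k + 3, ?_⟩
    rw [Nm_pow]
    ext i j
    have := j.2
    rw [Matrix.of_apply, if_neg (by omega)]
    rfl
  · have h1 : ((uu F (k + 3) : SpecialLinearGroup (Fin (k + 3)) F) : Matrix (Fin (k + 3))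
      (Fin (k + 3)) F) - 1 = Nm F (k + 3) := by
      show (1 + Nm F (k + 3)) - 1 = _
      rw [add_sub_cancel_left]
    rw [h1, Nm_pow]
    intro h
    have := congrFun (congrFun h 0) (Fin.last (k + 2))
    simp at this
  · set G := Subgroup.closure ({uu F (k + 3),
      SpecialLinearGroup.transvection (zero_ne_p (k := k)) a * uu F (k + 3) *
        (SpecialLinearGroup.transvection (zero_ne_p (k := k)) a)⁻¹,
      hh F k * uu F (k + 3) * (hh F k)⁻¹} : Set (SpecialLinearGroup (Fin (k + 3)) F)) with hG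
    have hu : uu F (k + 3) ∈ G := Subgroup.subset_closure (by simp)
    have hw : ww F k ∈ G := Subgroup.subset_closure (by simp [ww])
    have hx : SpecialLinearGroup.transvection (zero_ne_l (k := k)) a ∈ G := by
      have h1 : SpecialLinearGroup.transvection (zero_ne_p (k := k)) a * uu F (k + 3) *
        (SpecialLinearGroup.transvection (zero_ne_p (k := k)) a)⁻¹ ∈ G :=
        Subgroup.subset_closure (by simp)
      rw [conj_uu, mul_inv_cancel_right] at h1
      exact (G.mul_mem_cancel_left hu).1 h1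
    refine gen G (uu F (k + 3)) (ww F k) hu hw m hm0 (uu_succ 0) uu_zero last_uu ww_castSucc ww_last
      a ?_ ?_
    · intro x hx0
      obtain ⟨r, hr⟩ := hζ' x hx0
      refine ⟨r, ?_⟩
      rw [← hr]
      congr 1
      have h0 : κ * m 0 ≠ 0 := mul_ne_zero kappa_ne (hm0 0)
      rw [ha, mul_inv_cancel_left₀ h0]
    · refine ⟨_, hx, ?_⟩
      have h1 : (SpecialLinearGroup.coeMonoidHom (SpecialLinearGroup.transvection
          (zero_ne_l (k := k)) a) : Matrix (Fin (k + 3)) (Fin (k + 3)) F) =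
          1 + Matrix.single 0 (Fin.last (k + 2)) a := rfl
      rw [h1]
      congr 1
      ext x y
      rw [Matrix.vecMulVec_apply, Pi.smul_apply, Pi.single_apply, Pi.single_apply,
        Matrix.single_apply]
      simp only [smul_eq_mul]
      grind

end Cfsg.Agent.Lib.RegUniGen
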