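import Mathlib

/-!
# Lower bounds for dimensions from eigencharacters (helper39)

* `vec_dedekind`: vectors with distinct eigencharacters are independent.
* `exists_eigen`: a non-trivial action of a finite abelian group has a non-trivial eigencharacter.
* `card_mul_finrank_le`: translates of an eigenspace with distinct characters are independent.
* `card_le_finrank_sq`: operators with distinct commutation characters are independent.
-/

set_option autoImplicit false

namespace Cfsg.Agent.Lib.RepBound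

open scoped BigOperators

theorem vec_dedekind {M E ι : Type*} [Monoid M] [AddCommGroup E] [Module ℂ E] [Fintype ι] (χ : ι → (M →* ℂ))
    (hχ : Function.Injective χ) (u : ι → E) (h : ∀ x : M, ∑ i, χ i x • u i = 0) (i : ι) : u i = 0 := by
  refine (Module.forall_dual_apply_eq_zero_iff ℂ (u i)).1 fun φ => ?_
  have hli : LinearIndependent ℂ (fun i => (χ i : M → ℂ)) :=
    (linearIndependent_monoidHom M ℂ).comp χ hχ
  refine Fintype.linearIndependent_iff.1 hli (fun i => φ (u i)) ?_ i
  ext x
  have := congrArg φ (h x)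
  rw [map_sum, map_zero] at this
  simp only [map_smul, smul_eq_mul] at this
  simp only [Finset.sum_apply, Pi.smul_apply, smul_eq_mul, Pi.zero_apply]
  rw [← this]
  exact Finset.sum_congr rfl fun i _ => mul_comm _ _

theorem exists_eigen {A V : Type*} [AddCommGroup A] [Finite A] [AddCommGroup V] [Module ℂ V]
    (r : A → (V →ₗ[ℂ] V)) (hadd : ∀ a b, r (a + b) = r a * r b) (h0 : r 0 = 1) (hne : ∃ a, r a ≠ 1) :
    ∃ ψ : AddChar A ℂ, ψ ≠ 1 ∧ ∃ v : V, v ≠ 0 ∧ ∀ a, r a v = ψ a • v := by
  classical
  have := Fintype.ofFinite A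
  let P : AddChar A ℂ → (V →ₗ[ℂ] V) := fun ψ => ∑ a, ψ (-a) • r a
  have hP : ∀ ψ b, r b * P ψ = ψ b • P ψ := by
    intro ψ b
    have h1 : r b * P ψ = ∑ a, ψ (-a) • r (b + a) := by
      simp only [P, Finset.mul_sum, mul_smul_comm, hadd]
    have h2 : ψ b • P ψ = ∑ a, (ψ b * ψ (-(b + a))) • r (b + a) := by
      simp only [P, Finset.smul_sum, smul_smul]
      exact (Equiv.sum_comp (Equiv.addLeft b) (fun a => (ψ b * ψ (-a)) • r a)).symm
    rw [h1, h2]
    refine Finset.sum_congr rfl fun a _ => ?_
    rw [← AddChar.map_add_eq_mul]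
    congr 2
    abel
  by_cases hall : ∀ ψ : AddChar A ℂ, ψ ≠ 1 → P ψ = 0
  · exfalso
    have hsum : ∑ ψ : AddChar A ℂ, P ψ = (Fintype.card A : ℂ) • (1 : V →ₗ[ℂ] V) := by
      simp only [P]
      rw [Finset.sum_comm]
      have : ∀ a : A, ∑ ψ : AddChar A ℂ, ψ (-a) • r a = (if a = 0 then (Fintype.card A : ℂ) else 0) • r a := by
        intro a
        rw [← Finset.sum_smul, AddChar.sum_apply_eq_ite]
        simp only [neg_eq_zero]
      rw [Finset.sum_congr rfl fun a _ => this a]
      simp only [ite_smul, zero_smul, Finset.sum_ite_eq', Finset.mem_univ, if_true, h0]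
    rw [Finset.sum_eq_single (1 : AddChar A ℂ) (fun ψ _ h => hall ψ h) (fun h => absurd (Finset.mem_univ _) h)] at hsum
    obtain ⟨a, ha⟩ := hne
    apply ha
    have h1 := hP 1 a
    rw [hsum, AddChar.one_apply, one_smul, mul_smul_comm, mul_one] at h1
    have hc : (Fintype.card A : ℂ) ≠ 0 := Nat.cast_ne_zero.2 Fintype.card_ne_zero
    exact smul_right_injective _ hc h1
  · push Not at hall
    obtain ⟨ψ, hψ, hPψ⟩ := hall
    obtain ⟨w, hw⟩ : ∃ w, P ψ w ≠ 0 := by
      by_contra hcon
      push Not at hcon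
      exact hPψ (LinearMap.ext fun w => by rw [hcon w]; rfl)
    refine ⟨ψ, hψ, P ψ w, hw, fun a => ?_⟩
    have := congrArg (fun f : V →ₗ[ℂ] V => f w) (hP ψ a)
    exact this

/-- Translates `T j W` with distinct eigencharacters: `#J * dim W ≤ dim V`. -/
theorem card_mul_finrank_le {M V J : Type*} [Monoid M] [AddCommGroup V] [Module ℂ V] [FiniteDimensional ℂ V]
    [Fintype J] (W : Submodule ℂ V) (T : J → (V →ₗ[ℂ] V)) (hT : ∀ j, ∀ w ∈ W, T j w = 0 → w = 0)
    (Z : M → (V →ₗ[ℂ] V)) (χ : J → (M →* ℂ)) (hχ : Function.Injective χ)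
    (h : ∀ x j, ∀ w ∈ W, Z x (T j w) = χ j x • T j w) :
    Fintype.card J * Module.finrank ℂ W ≤ Module.finrank ℂ V := by
  classical
  let Φ : (J → W) →ₗ[ℂ] V := ∑ j, (T j).comp (W.subtype.comp (LinearMap.proj j))
  have hΦ : ∀ f : J → W, Φ f = ∑ j, T j (f j : V) := by
    intro f; simp [Φ]
  have hinj : Function.Injective Φ := by
    rw [← LinearMap.ker_eq_bot, LinearMap.ker_eq_bot']
    intro f hf
    rw [hΦ] at hf
    have h1 : ∀ j, T j (f j : V) = 0 := by
      refine vec_dedekind χ hχ (fun j => T j (f j : V)) fun x => ?_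
      have h2 := congrArg (Z x) hf
      rw [map_sum, map_zero] at h2
      rw [← h2]
      exact Finset.sum_congr rfl fun j _ => (h x j _ (f j).2).symm
    ext j
    exact hT j _ (f j).2 (h1 j)
  have h3 := LinearMap.finrank_le_finrank_of_injective hinj
  rw [Module.finrank_pi_fintype, Finset.sum_const, Finset.card_univ, smul_eq_mul] at h3
  exact h3

/-- Non-zero operators with distinct commutation characters are independent. -/
theorem card_le_finrank_sq {M W I : Type*} [Monoid M] [AddCommGroup W] [Module ℂ W] [FiniteDimensional ℂ W]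
    [Fintype I] (A : I → (W →ₗ[ℂ] W)) (hA : ∀ i, A i ≠ 0)
    (S : M → (W →ₗ[ℂ] W)) (hS : ∀ x, IsUnit (S x)) (χ : I → (M →* ℂ)) (hχ : Function.Injective χ)
    (h : ∀ x i, S x * A i = χ i x • (A i * S x)) :
    Fintype.card I ≤ Module.finrank ℂ W ^ 2 := by
  classical
  have hli : LinearIndependent ℂ A := by
    rw [Fintype.linearIndependent_iff]
    intro c hc i
    have h1 : ∀ i, c i • A i = 0 := by
      refine vec_dedekind χ hχ (fun i => c i • A i) fun x => ?_
      have h2 : (∑ i, χ i x • (c i • A i)) * S x = 0 := by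
        have h3 : S x * ∑ i, c i • A i = 0 := by rw [hc, mul_zero]
        rw [Finset.mul_sum] at h3
        rw [Finset.sum_mul, ← h3]
        refine Finset.sum_congr rfl fun i _ => ?_
        rw [mul_smul_comm, h, smul_mul_assoc, smul_mul_assoc, smul_comm]
      exact ((hS x).mul_left_eq_zero).1 h2
    rcases smul_eq_zero.1 (h1 i) with h2 | h2
    · exact h2
    · exact absurd h2 (hA i)
  have h4 := hli.fintype_card_le_finrank
  rwa [Module.finrank_linearMap, ← sq] at h4

end Cfsg.Agent.Lib.RepBound
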