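import Cfsg.Agent.Lib.CharBasic

/-!
# Irreducibility from the commutant (helper39)
-/

set_option autoImplicit false

namespace Cfsg.Agent.Lib.RepSchur2

variable {G V : Type*} [Group G] [Finite G] [AddCommGroup V] [Module ℂ V]

/-- If the commutant consists of scalars, the representation is irreducible. -/
theorem irreducible_of_commutant [Nontrivial V] [FiniteDimensional ℂ V] (ρ : Representation ℂ G V)
    (h : ∀ X : Module.End ℂ V, (∀ g, X * ρ g = ρ g * X) → ∃ c : ℂ, X = c • 1) : ρ.IsIrreducible := by
  have hnt2 : Nontrivial (Subrepresentation ρ) := by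
    refine ⟨⊥, ⊤, fun h => ?_⟩
    have h3 : (⊥ : Subrepresentation ρ).toSubmodule = (⊤ : Subrepresentation ρ).toSubmodule := by
      rw [h]
    exact bot_ne_top (α := Submodule ℂ V) h3
  refine ⟨fun S => ?_⟩
  obtain ⟨S', hS'⟩ := exists_isCompl S
  have hc := CharBasic.isCompl_toSubmodule hS'
  obtain ⟨c, hcπ⟩ := h (S.toSubmodule.projection S'.toSubmodule hc) (fun g => by
    refine LinearMap.ext fun x => ?_
    obtain ⟨s, s', hx, -⟩ := Submodule.existsUnique_add_of_isCompl hc x
    rw [Module.End.mul_apply, Module.End.mul_apply, ← hx, map_add, map_add, map_add,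
      Submodule.projection_apply_of_mem_left hc (S.apply_mem_toSubmodule g s.2),
      Submodule.projection_apply_of_mem_right hc (S'.apply_mem_toSubmodule g s'.2),
      Submodule.projection_apply_of_mem_left hc s.2, Submodule.projection_apply_of_mem_right hc s'.2, add_zero, add_zero])
  by_cases hS : S = ⊥
  · exact Or.inl hS
  · right
    have hS2 : S.toSubmodule ≠ ⊥ := fun h => hS (Subrepresentation.toSubmodule_injective h)
    obtain ⟨s, hs, hs0⟩ := S.toSubmodule.ne_bot_iff.1 hS2
    have h1 := Submodule.projection_apply_of_mem_left hc hs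
    rw [hcπ] at h1
    have h2 : c = 1 := by
      have h3 : (c - 1) • s = 0 := by rw [sub_smul, one_smul]; exact sub_eq_zero.2 h1
      exact sub_eq_zero.1 ((smul_eq_zero.1 h3).resolve_right hs0)
    rw [h2, one_smul] at hcπ
    apply Subrepresentation.toSubmodule_injective
    have h3 := Submodule.range_projection hc
    rw [hcπ] at h3
    rw [← h3]
    exact LinearMap.range_id

end Cfsg.Agent.Lib.RepSchur2
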