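import Cfsg.Agent.Lib.GlaubRepl3

/-! Rank part of Glauberman's replacement theorem (S3078). (helper51) -/

set_option autoImplicit false

namespace Cfsg.Agent.Lib.Repl78

open Subgroup Cfsg.Agent.Lib.GlaubRepl1 Cfsg.Agent.Lib.GlaubRepl2 Cfsg.Agent.Lib.GlaubRepl3
open scoped commutatorElement

theorem mem_omega_of {G : Type*} [Group G] {p : ℕ} {A : Subgroup G} {x : G} (h : x ∈ A) (hx : x ^ p = 1) :
    x ∈ Cfsg.omegaOne p A := subset_closure ⟨h, hx⟩

theorem omega_le {G : Type*} [Group G] (p : ℕ) (A : Subgroup G) : Cfsg.omegaOne p A ≤ A := by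
  unfold Cfsg.omegaOne
  rw [closure_le]
  exact fun x hx => hx.1

theorem pow_of_mem_omega {G : Type*} [Group G] {p : ℕ} {A : Subgroup G}
    (hA : ∀ a ∈ A, ∀ c ∈ A, a * c = c * a) {x : G} (h : x ∈ Cfsg.omegaOne p A) : x ^ p = 1 := by
  have h1 : x ∈ A ∧ x ^ p = 1 := by
    unfold Cfsg.omegaOne at h
    induction h using closure_induction with
    | mem x hx => exact hx
    | one => exact ⟨A.one_mem, one_pow p⟩
    | mul x y _ _ hx hy =>
      refine ⟨A.mul_mem hx.1 hy.1, ?_⟩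
      have : Commute x y := hA x hx.1 y hy.1
      rw [this.mul_pow, hx.2, hy.2, one_mul]
    | inv x _ hx => exact ⟨A.inv_mem hx.1, by rw [inv_pow, hx.2, inv_one]⟩
  exact h1.2

theorem card_omega_le {S : Type*} [Group S] [Finite S] {p : ℕ} [Fact p.Prime] (hp : p ≠ 2)
    (B : Subgroup S) [hBn : B.Normal] (A : Subgroup S) (hA : IsMulCommutative A)
    (hBA : ⁅B, B⁆ ≤ A) (b : S) (hb : b ∈ B)
    (hbN : b ∈ normalizer ((normalizer (A : Set S)) : Set S)) (As : Subgroup S) (hAs : IsMulCommutative As)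
    (hD : A ⊓ A.map (MulAut.conj (b⁻¹)).toMonoidHom ≤ As) (hX : ∀ a ∈ A, a * b⁻¹ * a⁻¹ * b ∈ As) :
    Nat.card (Cfsg.omegaOne p A) ≤ Nat.card (Cfsg.omegaOne p As) := by
  set Ab := A.map (MulAut.conj (b⁻¹)).toMonoidHom with hAb
  set D := A ⊓ Ab with hD
  have hAc : ∀ a ∈ A, ∀ c ∈ A, a * c = c * a := by
    rw [← le_centralizer_iff_isMulCommutative] at hA
    intro a ha c hc
    exact mem_centralizer_iff.1 (hA hc) a ha
  have hAsc : ∀ a ∈ As, ∀ c ∈ As, a * c = c * a := by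
    rw [← le_centralizer_iff_isMulCommutative] at hAs
    intro a ha c hc
    exact mem_centralizer_iff.1 (hAs hc) a ha
  have memAb : ∀ x : S, x ∈ Ab ↔ b * x * b⁻¹ ∈ A := by
    intro x
    constructor
    · rintro ⟨y, hy, rfl⟩
      show b * (b⁻¹ * y * (b⁻¹)⁻¹) * b⁻¹ ∈ A
      have : b * (b⁻¹ * y * (b⁻¹)⁻¹) * b⁻¹ = y := by group
      rwa [this]
    · intro h
      refine ⟨b * x * b⁻¹, h, ?_⟩
      show b⁻¹ * (b * x * b⁻¹) * (b⁻¹)⁻¹ = x
      group
  have cAb : ∀ a ∈ A, b⁻¹ * a * b ∈ Ab := by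
    intro a ha
    rw [memAb]
    have : b * (b⁻¹ * a * b) * b⁻¹ = a := by group
    rwa [this]
  -- 0
  have hn1 : ∀ n ∈ normalizer (A : Set S), b * n * b⁻¹ ∈ normalizer (A : Set S) := fun n hn =>
    (mem_normalizer_iff.1 hbN n).1 hn
  have hn2 : ∀ n ∈ normalizer (A : Set S), b⁻¹ * n * b ∈ normalizer (A : Set S) := fun n hn => by
    have := (mem_normalizer_iff.1 (inv_mem hbN) n).1 hn
    simpa using this
  -- 1
  have h1 : Ab ≤ normalizer (A : Set S) := by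
    intro x hx
    have h := hn2 _ (le_normalizer ((memAb x).1 hx))
    have : b⁻¹ * (b * x * b⁻¹) * b = x := by group
    rwa [this] at h
  -- 2
  have h2 : ∀ n ∈ normalizer (A : Set S), n ∈ normalizer (Ab : Set S) := by
    intro n hn
    rw [mem_normalizer_iff]
    intro x
    rw [memAb, memAb]
    have : b * (n * x * n⁻¹) * b⁻¹ = (b * n * b⁻¹) * (b * x * b⁻¹) * (b * n * b⁻¹)⁻¹ := by group
    rw [this]
    exact mem_normalizer_iff.1 (hn1 n hn) _
  have h2A : A ≤ normalizer (Ab : Set S) := fun a ha => h2 a (le_normalizer ha)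
  -- 3
  have h3A : ∀ d ∈ D, ∀ a ∈ A, d * a = a * d := fun d hd a ha => hAc d hd.1 a ha
  have h3Ab : ∀ d ∈ D, ∀ x ∈ Ab, d * x = x * d := by
    intro d hd x hx
    have := hAc _ ((memAb d).1 hd.2) _ ((memAb x).1 hx)
    have := congrArg (fun t => b⁻¹ * t * b) this
    simpa [mul_assoc] using this
  -- 4
  have h4 : ∀ a ∈ A, ∀ x ∈ Ab, ⁅a, x⁆ ∈ D := by
    intro a ha x hx
    rw [commutatorElement_def]
    refine ⟨?_, ?_⟩
    · have := A.mul_mem ha ((mem_normalizer_iff.1 (h1 hx) a⁻¹).1 (inv_mem ha))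
      have e : a * (x * a⁻¹ * x⁻¹) = a * x * a⁻¹ * x⁻¹ := by group
      rwa [e] at this
    · exact Ab.mul_mem ((mem_normalizer_iff.1 (h2A ha) x).1 hx) (inv_mem hx)
  -- 5
  have h5' : ∀ u ∈ A, u ∈ B → b * u * b⁻¹ ∈ A := by
    intro u huA huB
    have h : b * u * b⁻¹ = ⁅b, u⁆ * u := by rw [commutatorElement_def]; group
    rw [h]
    exact A.mul_mem (hBA (commutator_mem_commutator hb huB)) huA
  -- 6
  have h6 : b ∈ normalizer (D : Set S) := by
    apply mem_normalizer_of_conj_mem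
    intro u hu
    have hfu : b * u * b⁻¹ ∈ A := (memAb u).1 hu.2
    refine ⟨hfu, (memAb _).2 ?_⟩
    have hcB : b * u * b⁻¹ * u⁻¹ ∈ B := by
      have : b * u * b⁻¹ * u⁻¹ = b * (u * b⁻¹ * u⁻¹) := by group
      rw [this]
      exact B.mul_mem hb (hBn.conj_mem _ (inv_mem hb) u)
    have hcA : b * u * b⁻¹ * u⁻¹ ∈ A := A.mul_mem hfu (inv_mem hu.1)
    have h7 := A.mul_mem (h5' _ hcA hcB) hfu
    have e : b * (b * u * b⁻¹ * u⁻¹) * b⁻¹ * (b * u * b⁻¹) = b * (b * u * b⁻¹) * b⁻¹ := by group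
    rwa [e] at h7
  have h6' : ∀ u ∈ D, b⁻¹ * u * b ∈ D := by
    intro u hu
    have := (mem_normalizer_iff.1 (inv_mem h6) u).1 hu
    simpa using this
  have hDM : ∀ d ∈ D, ∀ m ∈ A ⊔ Ab, d * m = m * d := by
    intro d hd m hm
    have : A ⊔ Ab ≤ centralizer {d} := by
      refine sup_le ?_ ?_
      · intro a ha
        rw [mem_centralizer_iff]
        rintro _ rfl
        exact h3A _ hd a ha
      · intro a ha
        rw [mem_centralizer_iff]
        rintro _ rfl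
        exact h3Ab _ hd a ha
    exact mem_centralizer_iff.1 (this hm) d rfl
  set E := Cfsg.omegaOne p A with hE
  set Es := Cfsg.omegaOne p As with hEs
  have hEA : E ≤ A := omega_le p A
  have hEsA : Es ≤ As := omega_le p As
  have hpow : ∀ a ∈ E, a ^ p = 1 := fun a ha => pow_of_mem_omega hAc ha
  -- p-th power of x_a
  have hxp : ∀ a ∈ E, (a * b⁻¹ * a⁻¹ * b) ^ p = 1 := by
    intro a ha
    set a' := b⁻¹ * a⁻¹ * b with ha'
    have e0 : a * b⁻¹ * a⁻¹ * b = a * a' := by rw [ha']; group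
    have ha'A : a' ∈ Ab := cAb _ (inv_mem (hEA ha))
    have hcD : ⁅a', a⁆ ∈ D := by
      rw [← commutatorElement_inv]
      exact inv_mem (h4 a (hEA ha) a' ha'A)
    have c1 : Commute ⁅a', a⁆ a := h3A _ hcD a (hEA ha)
    have c2 : Commute ⁅a', a⁆ a' := h3Ab _ hcD a' ha'A
    rw [e0, class_two_pow c1 c2, hpow a ha]
    have h7 : a' ^ p = 1 := by
      have : a' = b⁻¹ * a⁻¹ * (b⁻¹)⁻¹ := by rw [ha', inv_inv]
      rw [this, conj_pow, inv_pow, hpow a ha]; group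
    rw [h7, one_mul, one_mul]
    -- commutator to the p
    have h8 : ⁅a', a⁆ ^ p = 1 := by
      have h9 : (⁅a', a⁆ * a) ^ p = 1 := by
        have : ⁅a', a⁆ * a = a' * a * a'⁻¹ := by rw [commutatorElement_def]; group
        rw [this, conj_pow, hpow a ha]; group
      rwa [c1.mul_pow, hpow a ha, mul_one] at h9
    have hpp : p ∣ p * (p - 1) / 2 := by
      have h2 : Even (p - 1) := by
        have := (Fact.out : p.Prime).odd_of_ne_two hp
        obtain ⟨k, hk⟩ := this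
        exact ⟨k, by omega⟩
      obtain ⟨k, hk⟩ := h2
      refine ⟨k, ?_⟩
      rw [hk]
      have : p * (k + k) = 2 * (p * k) := by ring
      rw [this, Nat.mul_div_cancel_left _ (by norm_num)]
    obtain ⟨k, hk⟩ := hpp
    rw [hk, pow_mul, h8, one_pow]
  have hxE : ∀ a ∈ E, a * b⁻¹ * a⁻¹ * b ∈ Es := fun a ha => mem_omega_of (hX a (hEA ha)) (hxp a ha)
  have hDn : (D.subgroupOf Es).Normal := by
    refine ⟨?_⟩
    intro n hn g
    have : g * n * g⁻¹ = n := by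
      apply Subtype.ext
      show (g : S) * n * (g : S)⁻¹ = n
      rw [hAsc g (hEsA g.2) n (hEsA n.2)]; group
    rwa [this]
  let φ : ↥E →* (↥Es ⧸ D.subgroupOf Es) :=
    { toFun := fun a => QuotientGroup.mk ⟨(a : S) * b⁻¹ * (a : S)⁻¹ * b, hxE a a.2⟩
      map_one' := by
        rw [QuotientGroup.eq_one_iff]
        show (((1 : ↥E) : S) * b⁻¹ * ((1 : ↥E) : S)⁻¹ * b) ∈ D
        simp
      map_mul' := by
        intro a c
        rw [← QuotientGroup.mk_mul]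
        rw [QuotientGroup.eq]
        show (((a * c : ↥E) : S) * b⁻¹ * ((a * c : ↥E) : S)⁻¹ * b)⁻¹ *
          (((a : S) * b⁻¹ * (a : S)⁻¹ * b) * ((c : S) * b⁻¹ * (c : S)⁻¹ * b)) ∈ D
        have haA : (a : S) ∈ A := hEA a.2
        have hcA : (c : S) ∈ A := hEA c.2
        have ha' : b⁻¹ * (a : S)⁻¹ * b ∈ Ab := cAb _ (inv_mem haA)
        have hc' : b⁻¹ * (c : S)⁻¹ * b ∈ Ab := cAb _ (inv_mem hcA)
        have hk := h4 c hcA _ ha'
        have e1 : ((a * c : ↥E) : S) * b⁻¹ * ((a * c : ↥E) : S)⁻¹ * b =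
            (a : S) * ((c : S) * (b⁻¹ * (c : S)⁻¹ * b)) * (b⁻¹ * (a : S)⁻¹ * b) := by
          rw [Subgroup.coe_mul]; group
        have hcc : (b⁻¹ * (c : S)⁻¹ * b) * (b⁻¹ * (a : S)⁻¹ * b) =
            (b⁻¹ * (a : S)⁻¹ * b) * (b⁻¹ * (c : S)⁻¹ * b) := by
          have : (c : S)⁻¹ * (a : S)⁻¹ = (a : S)⁻¹ * (c : S)⁻¹ :=
            hAc _ (inv_mem hcA) _ (inv_mem haA)
          calc (b⁻¹ * (c : S)⁻¹ * b) * (b⁻¹ * (a : S)⁻¹ * b) = b⁻¹ * ((c : S)⁻¹ * (a : S)⁻¹) * b := by group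
            _ = b⁻¹ * ((a : S)⁻¹ * (c : S)⁻¹) * b := by rw [this]
            _ = _ := by group
        set a' := b⁻¹ * (a : S)⁻¹ * b with ha'def
        set c' := b⁻¹ * (c : S)⁻¹ * b with hc'def
        have e2 : ((a : S) * b⁻¹ * (a : S)⁻¹ * b) * ((c : S) * b⁻¹ * (c : S)⁻¹ * b) =
            (a : S) * a' * ((c : S) * c') := by rw [ha'def, hc'def]; group
        have e3 : (a : S) * ((c : S) * c') * a' = ⁅(c : S), a'⁆ * ((a : S) * a' * ((c : S) * c')) := by
          have f1 : (c : S) * a' = ⁅(c : S), a'⁆ * (a' * c) := by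
            rw [commutatorElement_def]; group
          have f2 : (a : S) * ⁅(c : S), a'⁆ = ⁅(c : S), a'⁆ * a := (h3A _ hk a haA).symm
          calc (a : S) * ((c : S) * c') * a' = (a : S) * (c : S) * (c' * a') := by group
            _ = (a : S) * ((c : S) * a') * c' := by rw [hcc]; group
            _ = (a : S) * ⁅(c : S), a'⁆ * (a' * c) * c' := by rw [f1]; group
            _ = ⁅(c : S), a'⁆ * a * (a' * c) * c' := by rw [f2]
            _ = _ := by group
        rw [e1, e2, e3]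
        have e4 : (⁅(c : S), a'⁆ * ((a : S) * a' * ((c : S) * c')))⁻¹ * ((a : S) * a' * ((c : S) * c')) =
            ((a : S) * a' * ((c : S) * c'))⁻¹ * ⁅(c : S), a'⁆⁻¹ * ((a : S) * a' * ((c : S) * c')) := by group
        rw [e4]
        have hm : (a : S) * a' * ((c : S) * c') ∈ A ⊔ Ab :=
          mul_mem (mul_mem_sup haA ha') (mul_mem_sup hcA hc')
        have e5 := hDM _ (inv_mem hk) _ hm
        rw [mul_assoc, e5]
        have e6 : ((a : S) * a' * ((c : S) * c'))⁻¹ * (((a : S) * a' * ((c : S) * c')) * ⁅(c : S), a'⁆⁻¹) = ⁅(c : S), a'⁆⁻¹ := by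
          group
        rw [e6]
        exact inv_mem hk }
  have hφ : ∀ a : ↥E, φ a = QuotientGroup.mk ⟨(a : S) * b⁻¹ * (a : S)⁻¹ * b, hxE a a.2⟩ := fun _ => rfl
  have hker : φ.ker = D.subgroupOf E := by
    ext a
    rw [MonoidHom.mem_ker, hφ, QuotientGroup.eq_one_iff, mem_subgroupOf, mem_subgroupOf]
    show (a : S) * b⁻¹ * (a : S)⁻¹ * b ∈ D ↔ (a : S) ∈ D
    constructor
    · intro h
      have e1 : b⁻¹ * (a : S)⁻¹ * b ∈ A := by
        have := A.mul_mem (inv_mem (hEA a.2)) h.1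
        have e : (a : S)⁻¹ * ((a : S) * b⁻¹ * (a : S)⁻¹ * b) = b⁻¹ * (a : S)⁻¹ * b := by group
        rwa [e] at this
      have e2 : b⁻¹ * (a : S)⁻¹ * b ∈ D := ⟨e1, cAb _ (inv_mem (hEA a.2))⟩
      have e3 := D.mul_mem h (inv_mem e2)
      have e : (a : S) * b⁻¹ * (a : S)⁻¹ * b * (b⁻¹ * (a : S)⁻¹ * b)⁻¹ = a := by group
      rwa [e] at e3
    · intro h
      have e1 : (a : S) * b⁻¹ * (a : S)⁻¹ * b = (a : S) * (b⁻¹ * (a : S)⁻¹ * b) := by group
      rw [e1]
      exact D.mul_mem h (h6' _ (inv_mem h))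
  have c1 : Nat.card ↥Es = Nat.card (D.subgroupOf Es) * Nat.card (↥Es ⧸ D.subgroupOf Es) := by
    rw [← index_eq_card, card_mul_index]
  have c2 : Nat.card E = Nat.card (D.subgroupOf E) * Nat.card φ.range := by
    rw [← hker, ← index_ker, card_mul_index]
  have c3 : Nat.card φ.range ≤ Nat.card (↥Es ⧸ D.subgroupOf Es) := Subgroup.card_le_card_group _
  have c4 : Nat.card (D.subgroupOf E) ≤ Nat.card (D.subgroupOf Es) := by
    refine Nat.card_le_card_of_injective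
      (fun x : D.subgroupOf E => (⟨⟨(x : ↥E), mem_omega_of (‹D ≤ As› x.2) (hpow _ x.1.2)⟩, x.2⟩ : D.subgroupOf Es)) ?_
    intro x y hxy
    have h1 : ((x : ↥E) : S) = ((y : ↥E) : S) := congrArg (fun z : D.subgroupOf Es => ((z : ↥Es) : S)) hxy
    exact Subtype.ext (Subtype.ext h1)
  rw [c1, c2]
  exact Nat.mul_le_mul c4 c3

theorem omega_map {G H : Type*} [Group G] [Group H] (f : G →* H) (hf : Function.Injective f) (p : ℕ) (A : Subgroup G) :
    Cfsg.omegaOne p (A.map f) = (Cfsg.omegaOne p A).map f := by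
  unfold Cfsg.omegaOne
  rw [MonoidHom.map_closure]
  congr 1
  ext x
  constructor
  · rintro ⟨⟨a, ha, rfl⟩, hx⟩
    refine ⟨a, ⟨ha, ?_⟩, rfl⟩
    apply hf
    rw [map_pow, hx, map_one]
  · rintro ⟨a, ⟨ha, hx⟩, rfl⟩
    exact ⟨⟨a, ha, rfl⟩, by rw [← map_pow, hx, map_one]⟩

end Cfsg.Agent.Lib.Repl78
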