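import Cfsg.Agent.Lib.OddCore
import Cfsg.Agent.Lib.Rigid
import Cfsg.Agent.Lib.QuadIndex2
import Cfsg.Agent.Lib.QuadStd
import Cfsg.Agent.Lib.LinAux

/-!
# Rigidity for orthogonal groups (helper45)
-/

set_option autoImplicit false
set_option linter.unusedSectionVars false

namespace Cfsg.Agent.Lib.Rigid

open Matrix QuadraticMap Module
open Cfsg.Agent.Lib.Quad

variable {K F : Type*} [Field K] [Field F] {ι : Type} [Fintype ι] [DecidableEq ι] {Q : QuadraticForm K (ι → K)}

/-- matrix of a linear automorphism -/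
noncomputable abbrev mt (x : (ι → K) ≃ₗ[K] (ι → K)) : GL ι K := (LinAux.glEquiv ι K).symm x

theorem mt_mulVec (x : (ι → K) ≃ₗ[K] (ι → K)) (v : ι → K) : (mt x).1 *ᵥ v = x v := LinAux.glEquiv_symm_mulVec x v

theorem det_mt_refl {v : ι → K} (hv : Q v ≠ 0) : (mt (refl Q v)).1.det = -1 := by
  have h1 : (mt (refl Q v)).1 = Cfsg.reflectionMatrix ⇑Q v := by
    apply LinAux.matrix_ext
    intro x
    rw [mt_mulVec, reflectionMatrix_mulVec]
  rw [h1, det_reflectionMatrix (Q := Q) hv]

theorem polar_sum_single (z x : ι → K) : polar Q z x = (fun i => polar Q z (Pi.single i 1)) ⬝ᵥ x := by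
  have h2 : x = ∑ i, x i • (Pi.single i 1 : ι → K) := by
    ext k
    simp [Finset.sum_apply, Pi.single_apply]
  have h3 := congrArg (polarBilin Q z) h2
  rw [map_sum] at h3
  simp only [map_smul, polarBilin_apply_apply, smul_eq_mul] at h3
  rw [h3, dotProduct]
  exact Finset.sum_congr rfl fun i _ => mul_comm _ _

/-- the product of two reflections in a degenerate plane -/
theorem unip (hQ : Nd Q) (h2 : (2 : K) ≠ 0) {z a : ι → K} (hz0 : z ≠ 0) (hz : Q z = 0) (ha : Q a ≠ 0) (hza : polar Q z a = 0) :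
    IsNilpotent ((mt (refl Q a * refl Q (a + z))).1 - 1) ∧
      ∃ φ : ι → K, φ ≠ 0 ∧ ((mt (refl Q a * refl Q (a + z))).1 - 1) ^ 2 = vecMulVec z φ := by
  obtain ⟨s, hs⟩ : ∃ s, s = Q a := ⟨_, rfl⟩
  have hs0 : s ≠ 0 := by rw [hs]; exact ha
  have haz : polar Q a z = 0 := by rw [polar_comm, hza]
  have hQb : Q (a + z) = s := by rw [Q_add, hz, haz, ← hs]; ring
  have hb : Q (a + z) ≠ 0 := by rw [hQb]; exact hs0
  obtain ⟨M, hM⟩ : ∃ M, M = (mt (refl Q a * refl Q (a + z))).1 - 1 := ⟨_, rfl⟩
  have hMv : ∀ x, M *ᵥ x = (s⁻¹ * polar Q z x) • a - (s⁻¹ * (polar Q a x + polar Q z x)) • z := by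
    intro x
    rw [hM, Matrix.sub_mulVec, mt_mulVec, Matrix.one_mulVec, LinearEquiv.mul_apply, refl_apply ha, refl_apply hb, hQb, ← hs,
      polar_sub_right, polar_smul_right, polar_add_right, polar_self', haz, polar_add_left, ← hs, smul_eq_mul]
    have e1 : s⁻¹ * (polar Q a x - s⁻¹ * (polar Q a x + polar Q z x) * (2 * s + 0)) =
        - (s⁻¹ * polar Q a x) - 2 * (s⁻¹ * polar Q z x) := by
      field_simp; ring
    rw [e1]
    module
  have hM2 : ∀ x, M *ᵥ (M *ᵥ x) = (-(2 * s⁻¹ * polar Q z x)) • z := by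
    intro x
    have e1 : polar Q z (M *ᵥ x) = 0 := by
      rw [hMv, polar_sub_right, polar_smul_right, polar_smul_right, hza, polar_self', hz]; simp
    have e2 : polar Q a (M *ᵥ x) = 2 * polar Q z x := by
      rw [hMv, polar_sub_right, polar_smul_right, polar_smul_right, haz, polar_self', ← hs, smul_eq_mul, smul_zero, sub_zero]
      field_simp
    rw [hMv (M *ᵥ x), e1, e2]
    module
  rw [← hM]
  constructor
  · refine ⟨3, ?_⟩
    apply LinAux.matrix_ext
    intro x
    rw [pow_succ, pow_two, ← Matrix.mulVec_mulVec, ← Matrix.mulVec_mulVec, hM2]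
    have e1 : polar Q z (M *ᵥ x) = 0 := by
      rw [hMv, polar_sub_right, polar_smul_right, polar_smul_right, hza, polar_self', hz]; simp
    rw [e1, Matrix.zero_mulVec]
    simp
  · refine ⟨(-(2 * s⁻¹)) • fun i => polar Q z (Pi.single i 1), ?_, ?_⟩
    · intro h0
      apply hz0
      apply hQ.eq_zero
      intro y
      rw [polar_sum_single]
      have : (fun i => polar Q z (Pi.single i 1)) = (0 : ι → K) := by
        ext i
        have h3 := congrFun h0 i
        simp only [Pi.zero_apply] at h3 ⊢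
        exact (mul_eq_zero.1 h3).resolve_left (neg_ne_zero.2 (mul_ne_zero h2 (inv_ne_zero hs0)))
      rw [this, zero_dotProduct]
    · apply LinAux.matrix_ext
      intro x
      rw [pow_two, ← Matrix.mulVec_mulVec, hM2, Matrix.vecMulVec_mulVec, polar_sum_single z x]
      rw [smul_dotProduct, smul_eq_mul]
      ext i
      simp only [Pi.smul_apply, smul_eq_mul, MulOpposite.smul_eq_mul_unop, MulOpposite.unop_op]
      ring

/-- a nonsingular vector perpendicular to an isotropic vector -/
theorem exists_nonsing [Finite K] (hQ : Nd Q) (hn : 3 ≤ Fintype.card ι) {z : ι → K} (hz0 : z ≠ 0) (hz : Q z = 0) :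
    ∃ a, Q a ≠ 0 ∧ polar Q z a = 0 := by
  by_contra hcon
  push Not at hcon
  have hs : ∀ a, polar Q z a = 0 → Q a = 0 := by
    intro a ha
    by_contra h
    exact hcon a h ha
  obtain ⟨y, hy⟩ := hQ.exists_polar_one' hz0
  have hzero : ∀ a, polar Q z a = 0 → polar Q a y = 0 → a = 0 := by
    intro a ha hay
    apply hQ.eq_zero
    intro w
    have h1 : polar Q z (w - polar Q z w • y) = 0 := by
      rw [polar_sub_right, polar_smul_right, hy, smul_eq_mul, mul_one, sub_self]
    have h3 : polar Q a (w - polar Q z w • y) = 0 := by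
      rw [polar, hs _ ha, hs _ h1, hs _ (by rw [polar_add_right, ha, h1, add_zero])]; ring
    rw [polar_sub_right, polar_smul_right, hay, smul_zero, sub_zero] at h3
    exact h3
  have hspan : ∀ v : ι → K, ∃ p r : K, v = p • z + r • y := by
    intro v
    obtain ⟨b, hb⟩ : ∃ b, b = v - polar Q z v • y := ⟨_, rfl⟩
    have hzb : polar Q z b = 0 := by
      rw [hb, polar_sub_right, polar_smul_right, hy, smul_eq_mul, mul_one, sub_self]
    have h5 := hzero (b - polar Q b y • z) (by rw [polar_sub_right, polar_smul_right, hzb, polar_self', hz]; simp)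
      (by rw [polar_sub_left, polar_smul_left, hy, smul_eq_mul, mul_one, sub_self])
    refine ⟨polar Q b y, polar Q z v, ?_⟩
    rw [sub_eq_zero] at h5
    rw [← h5, hb]; abel
  have := OddCore.finrank_le_two hspan
  rw [Module.finrank_fintype_fun_eq_card] at this
  omega

/-- rigidity of the orthogonal group -/
theorem rigid_orth [Finite K] (hQ : Nd Q) (h2 : (2 : K) ≠ 0) (hn : 3 ≤ Fintype.card ι) {f₁ f₂ : K →+* F} {h : GL ι F}
    (H : ∀ a b, Q a ≠ 0 → Q b ≠ 0 → ∃ c : F, h.1 * (mt (refl Q a * refl Q b)).1.map f₁ =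
      c • ((mt (refl Q a * refl Q b)).1.map f₂ * h.1)) :
    (∃ u : Fˣ, ∀ v, h.1 *ᵥ v = (u : F) • v) ∧ ∀ y, f₁ y = f₂ y := by
  have hne : Nonempty ι := by rw [← Fintype.card_pos_iff]; omega
  have hfr : finrank K (ι → K) = Fintype.card ι := Module.finrank_fintype_fun_eq_card K
  have hB : HermClass.IsHerm (RingEquiv.refl K) (fun x y : ι → K => polar Q x y) :=
    ⟨fun u v w => polar_add_left Q u v w, fun a u v => by
      show polar Q (a • u) v = a * polar Q u v
      rw [polar_smul_left, smul_eq_mul], fun u v => by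
      show polar Q v u = polar Q u v
      exact polar_comm _ _ _⟩
  obtain ⟨e, he0, he⟩ := hQ.exists_singular (by omega)
  obtain ⟨y, hy⟩ := hQ.exists_polar_one' he0
  obtain ⟨hf, hef⟩ := adjust_singular he hy
  refine iso_lines hB h2 ?_ (e := e) (f := y - Q y • e) ?_ ?_ hef ?_
  · intro z hz0 hzz
    have hz : Q z = 0 := by
      have h3 : 2 * Q z = 0 := by rw [← polar_self']; exact hzz
      exact (mul_eq_zero.1 h3).resolve_left h2
    obtain ⟨a, ha, hza⟩ := exists_nonsing hQ hn hz0 hz
    obtain ⟨hnil, φ, hφ, hk⟩ := unip hQ h2 hz0 hz ha hza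
    have hb : Q (a + z) ≠ 0 := by
      rw [Q_add, hz, polar_comm, hza]
      simpa using ha
    obtain ⟨c, hc⟩ := H a (a + z) ha hb
    exact line_of_unip hnil hk hφ hc
  · show polar Q e e = 0
    rw [polar_self', he, mul_zero]
  · show polar Q _ _ = 0
    rw [polar_self', hf, mul_zero]
  · by_contra hcon
    push Not at hcon
    obtain ⟨f, hfd⟩ : ∃ f, f = y - Q y • e := ⟨_, rfl⟩
    rw [← hfd] at hf hef hcon
    have hfe : polar Q f e = 1 := by rw [polar_comm, hef]
    have hspan : ∀ v : ι → K, ∃ p r : K, v = p • e + r • f := by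
      intro v
      refine ⟨polar Q v f, polar Q v e, ?_⟩
      by_contra hne
      refine hcon (v - (polar Q v f • e + polar Q v e • f)) (sub_ne_zero.2 hne) ?_ ?_
      · show polar Q _ e = 0
        rw [polar_sub_left, polar_add_left, polar_smul_left, polar_smul_left, polar_self', he, hfe]; simp
      · show polar Q _ f = 0
        rw [polar_sub_left, polar_add_left, polar_smul_left, polar_smul_left, polar_self', hf, hef]; simp
    have := OddCore.finrank_le_two hspan
    omega

end Cfsg.Agent.Lib.Rigid
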