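import Cfsg.Agent.Lib.ClSLn

/-! Root-element calculus for subgroups of `GL n F`: `In G w φ` says that the transvection `1 + w ⊗ φ` lies in `G`.
Used for generation by regular unipotent elements. -/

set_option autoImplicit false
set_option linter.unusedSectionVars false

namespace Cfsg.Agent.Lib.RootCalc

open Matrix

variable {F : Type*} [Field F] {n : Type*} [Fintype n] [DecidableEq n]

/-- the transvection `1 + w ⊗ φ` lies in `G` -/
def In (G : Subgroup (GL n F)) (w φ : n → F) : Prop :=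
  φ ⬝ᵥ w = 0 ∧ ∃ g ∈ G, (g : Matrix n n F) = 1 + vecMulVec w φ

section basic

theorem vmv (a b c d : n → F) : vecMulVec a b * vecMulVec c d = (b ⬝ᵥ c) • vecMulVec a d := by
  rw [Matrix.vecMulVec_mul_vecMulVec, Matrix.vecMulVec_smul]

theorem coe_inv_mul (g : GL n F) : ((g⁻¹ : GL n F) : Matrix n n F) * (g : Matrix n n F) = 1 := by
  rw [← Units.val_mul, inv_mul_cancel, Units.val_one]

theorem coe_mul_inv (g : GL n F) : (g : Matrix n n F) * ((g⁻¹ : GL n F) : Matrix n n F) = 1 := by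
  rw [← Units.val_mul, mul_inv_cancel, Units.val_one]

variable {G : Subgroup (GL n F)}

/-- recognizing a commutator -/
theorem comm_mem {a b : GL n F} (ha : a ∈ G) (hb : b ∈ G) (Z : Matrix n n F)
    (h : Z * ((b : Matrix n n F) * a) = a * b) : ∃ z ∈ G, (z : Matrix n n F) = Z := by
  refine ⟨a * b * (b * a)⁻¹, G.mul_mem (G.mul_mem ha hb) (G.inv_mem (G.mul_mem hb ha)), ?_⟩
  rw [Units.val_mul, Units.val_mul, ← h, ← Units.val_mul b a, mul_assoc, coe_mul_inv, mul_one]

theorem coe_inv_eq {a : GL n F} {B : Matrix n n F} (h : B * a = 1) : ((a⁻¹ : GL n F) : Matrix n n F) = B := by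
  calc ((a⁻¹ : GL n F) : Matrix n n F) = B * a * ((a⁻¹ : GL n F) : Matrix n n F) := by rw [h, one_mul]
    _ = B := by rw [mul_assoc, coe_mul_inv, mul_one]

theorem In.zero (w : n → F) : In G w 0 := ⟨by simp, 1, G.one_mem, by simp⟩

theorem In.zero' (φ : n → F) : In G 0 φ := ⟨by simp, 1, G.one_mem, by simp⟩

theorem In.add {w φ ψ : n → F} (h1 : In G w φ) (h2 : In G w ψ) : In G w (φ + ψ) := by
  obtain ⟨h1, g, hg, e⟩ := h1
  obtain ⟨h2, g', hg', e'⟩ := h2
  refine ⟨by rw [add_dotProduct, h1, h2, add_zero], g * g', G.mul_mem hg hg', ?_⟩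
  rw [Units.val_mul, e, e', Matrix.vecMulVec_add]
  simp only [mul_add, add_mul, mul_one, one_mul, vmv, h1, zero_smul]
  abel

theorem In.neg {w φ : n → F} (h1 : In G w φ) : In G w (-φ) := by
  obtain ⟨h1, g, hg, e⟩ := h1
  refine ⟨by rw [neg_dotProduct, h1, neg_zero], g⁻¹, G.inv_mem hg, ?_⟩
  apply coe_inv_eq
  rw [e]
  simp only [mul_add, add_mul, mul_one, one_mul, vmv, neg_dotProduct, h1, neg_zero, zero_smul, Matrix.vecMulVec_neg,
    neg_mul]
  abel

theorem In.sub {w φ ψ : n → F} (h1 : In G w φ) (h2 : In G w ψ) : In G w (φ - ψ) := by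
  rw [sub_eq_add_neg]; exact h1.add h2.neg

theorem In.dot {w φ : n → F} (h1 : In G w φ) : φ ⬝ᵥ w = 0 := h1.1

theorem In.smul_left {w φ : n → F} {c : F} (h : In G w (c • φ)) : In G (c • w) φ := by
  obtain ⟨h1, g, hg, e⟩ := h
  refine ⟨?_, g, hg, ?_⟩
  · rw [dotProduct_smul]
    rw [smul_dotProduct] at h1
    exact h1
  · rw [e, Matrix.vecMulVec_smul, Matrix.smul_vecMulVec]

theorem In.of_smul_left {w φ : n → F} {c : F} (h : In G (c • w) φ) : In G w (c • φ) := by
  obtain ⟨h1, g, hg, e⟩ := h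
  refine ⟨?_, g, hg, ?_⟩
  · rw [smul_dotProduct]
    rw [dotProduct_smul] at h1
    exact h1
  · rw [e, Matrix.vecMulVec_smul, Matrix.smul_vecMulVec]

theorem In.conj {w φ : n → F} (h : In G w φ) {x : GL n F} (hx : x ∈ G) :
    In G ((x : Matrix n n F) *ᵥ w) (φ ᵥ* ((x⁻¹ : GL n F) : Matrix n n F)) := by
  obtain ⟨h1, g, hg, e⟩ := h
  refine ⟨?_, x * g * x⁻¹, G.mul_mem (G.mul_mem hx hg) (G.inv_mem hx), ?_⟩
  · rw [← Matrix.dotProduct_mulVec, Matrix.mulVec_mulVec, coe_inv_mul, Matrix.one_mulVec, h1]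
  · rw [Units.val_mul, Units.val_mul, e, mul_add, add_mul, mul_one, coe_mul_inv, Matrix.mul_vecMulVec,
      Matrix.vecMulVec_mul]

/-- commutator of two root elements -/
theorem In.comm {w φ w' φ' : n → F} (h : In G w φ) (h' : In G w' φ') (h0 : φ' ⬝ᵥ w = 0) :
    In G w ((φ ⬝ᵥ w') • φ') := by
  obtain ⟨h1, g, hg, e⟩ := h
  obtain ⟨h1', g', hg', e'⟩ := h'
  refine ⟨by rw [smul_dotProduct, h0, smul_zero], ?_⟩
  apply comm_mem hg hg'
  rw [e, e', Matrix.vecMulVec_smul]
  simp only [mul_add, add_mul, mul_one, one_mul, vmv, smul_mul_assoc, mul_smul_comm, h1, h1', h0, zero_smul, smul_zero,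
    add_zero]
  abel

end basic

section shift

/-- `u ^ i w` -/
def W (u : GL n F) (w : n → F) (i : ℤ) : n → F := ((u ^ i : GL n F) : Matrix n n F) *ᵥ w

/-- `φ u ^ (-i)` -/
def P (u : GL n F) (φ : n → F) (i : ℤ) : n → F := φ ᵥ* ((u ^ (-i) : GL n F) : Matrix n n F)

/-- `φ (u ^ k w)` -/
def m (u : GL n F) (w φ : n → F) (k : ℤ) : F := φ ⬝ᵥ W u w k

variable {u : GL n F} {w φ : n → F}

theorem W_zero : W u w 0 = w := by simp [W]

theorem P_zero : P u φ 0 = φ := by simp [P]

theorem shiftW (k i : ℤ) : ((u ^ k : GL n F) : Matrix n n F) *ᵥ W u w i = W u w (i + k) := by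
  unfold W
  rw [Matrix.mulVec_mulVec, ← Units.val_mul, ← _root_.zpow_add, add_comm]

theorem shiftP (k j : ℤ) : P u φ j ᵥ* (((u ^ k : GL n F)⁻¹ : GL n F) : Matrix n n F) = P u φ (j + k) := by
  unfold P
  rw [Matrix.vecMul_vecMul, ← Units.val_mul, ← _root_.zpow_neg, ← _root_.zpow_add, neg_add, add_comm]

theorem dotPW (j i : ℤ) : P u φ j ⬝ᵥ W u w i = m u w φ (i - j) := by
  unfold P m
  rw [← Matrix.dotProduct_mulVec, shiftW, sub_eq_add_neg]

theorem vmvE (i j k l : ℤ) : vecMulVec (W u w i) (P u φ j) * vecMulVec (W u w k) (P u φ l) =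
    (m u w φ (k - j)) • vecMulVec (W u w i) (P u φ l) := by
  rw [vmv, dotPW]

variable {G : Subgroup (GL n F)} (hu : u ∈ G)

include hu in
theorem In.shift {i j : ℤ} {c : F} (h : In G (W u w i) (c • P u φ j)) (k : ℤ) :
    In G (W u w (i + k)) (c • P u φ (j + k)) := by
  have h1 := h.conj (G.zpow_mem hu k)
  rwa [shiftW, Matrix.smul_vecMul, shiftP] at h1

/-- the commutator rule -/
theorem In.rule {i j k l : ℤ} {c d : F} (h : In G (W u w i) (c • P u φ j)) (h' : In G (W u w k) (d • P u φ l))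
    (h0 : m u w φ (i - l) = 0) : In G (W u w i) ((c * d * m u w φ (k - j)) • P u φ l) := by
  have h1 := h.comm h' (by rw [smul_dotProduct, dotPW, h0, smul_zero])
  rw [smul_dotProduct, dotPW, smul_smul] at h1
  convert h1 using 2
  rw [smul_eq_mul]
  ring

variable {T0 : GL n F} (hT0 : T0 ∈ G)
  (eT0 : (T0 : Matrix n n F) = (1 + vecMulVec (W u w 0) (P u φ 0)) * (1 - vecMulVec (W u w 1) (P u φ 1)))

include hu hT0 eT0 in
theorem exists_Tk (k : ℤ) : ∃ T ∈ G,
    (T : Matrix n n F) = (1 + vecMulVec (W u w k) (P u φ k)) * (1 - vecMulVec (W u w (k + 1)) (P u φ (k + 1))) := by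
  refine ⟨u ^ k * T0 * (u ^ k)⁻¹, G.mul_mem (G.mul_mem (G.zpow_mem hu k) hT0) (G.inv_mem (G.zpow_mem hu k)), ?_⟩
  rw [Units.val_mul, Units.val_mul, eT0]
  set x := u ^ k with hx
  have e1 : ∀ i j : ℤ, (x : Matrix n n F) * vecMulVec (W u w i) (P u φ j) * ((x⁻¹ : GL n F) : Matrix n n F) =
      vecMulVec (W u w (i + k)) (P u φ (j + k)) := by
    intro i j
    rw [Matrix.mul_vecMulVec, Matrix.vecMulVec_mul, hx, shiftW, shiftP]
  have hc : ∀ A B : Matrix n n F, (x : Matrix n n F) * (A * B) * ((x⁻¹ : GL n F) : Matrix n n F) =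
      (x * A * ((x⁻¹ : GL n F) : Matrix n n F)) * (x * B * ((x⁻¹ : GL n F) : Matrix n n F)) := by
    intro A B
    calc (x : Matrix n n F) * (A * B) * ((x⁻¹ : GL n F) : Matrix n n F) =
        x * A * 1 * B * ((x⁻¹ : GL n F) : Matrix n n F) := by rw [mul_one]; simp only [mul_assoc]
      _ = _ := by rw [← coe_inv_mul x]; simp only [mul_assoc]
  rw [hc, mul_add, add_mul, mul_sub, sub_mul, e1, e1, mul_one, coe_mul_inv, zero_add, add_comm 1 k]

include hu hT0 eT0 in
theorem exists_T1 : ∃ T1 ∈ G,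
    (T1 : Matrix n n F) = (1 + vecMulVec (W u w 1) (P u φ 1)) * (1 - vecMulVec (W u w 2) (P u φ 2)) :=
  exists_Tk hu hT0 eT0 1

include hu hT0 eT0 in
/-- the first transvection -/
theorem stage1 (h0 : m u w φ 0 = 0) (h1 : m u w φ (-1) = 0) (h2 : m u w φ (-2) = 0) :
    In G (W u w 0) ((m u w φ 1 ^ 2) • P u φ 2) := by
  obtain ⟨T1, hT1, eT1⟩ := exists_T1 hu hT0 eT0
  set s := m u w φ 1 with hs
  set c := m u w φ 2 with hc
  have r01 : (0 : ℤ) - 1 = -1 := by norm_num
  have r02 : (0 : ℤ) - 2 = -2 := by norm_num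
  have r12 : (1 : ℤ) - 2 = -1 := by norm_num
  have r21 : (2 : ℤ) - 1 = 1 := by norm_num
  have f0 : (T0 : Matrix n n F) = 1 + vecMulVec (W u w 0) (P u φ 0) - vecMulVec (W u w 1) (P u φ 1) -
      s • vecMulVec (W u w 0) (P u φ 1) := by
    rw [eT0]
    simp only [mul_add, add_mul, mul_sub, sub_mul, mul_one, one_mul, smul_mul_assoc, mul_smul_comm, vmvE, sub_zero,
      ← hs]
    module
  have f1 : (T1 : Matrix n n F) = 1 + vecMulVec (W u w 1) (P u φ 1) - vecMulVec (W u w 2) (P u φ 2) -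
      s • vecMulVec (W u w 1) (P u φ 2) := by
    rw [eT1]
    simp only [mul_add, add_mul, mul_sub, sub_mul, mul_one, one_mul, smul_mul_assoc, mul_smul_comm, vmvE, r21,
      ← hs]
    module
  obtain ⟨Z, hZ, eZ⟩ := comm_mem hT0 hT1 (1 + s • vecMulVec (W u w 0) (P u φ 1) + s • vecMulVec (W u w 1) (P u φ 2) +
      (s ^ 2 - c) • vecMulVec (W u w 0) (P u φ 2)) (by
    rw [f0, f1]
    simp only [mul_add, add_mul, mul_sub, sub_mul, mul_one, one_mul, smul_mul_assoc, mul_smul_comm, vmvE, sub_zero,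
      sub_self, r01, r02, r12, r21, h0, h1, h2, ← hs, ← hc, zero_smul, smul_zero, mul_zero, zero_mul]
    module)
  refine ⟨?_, ?_⟩
  · rw [smul_dotProduct, dotPW, zero_sub, h2, smul_zero]
  · apply comm_mem hT0 hZ
    rw [f0, eZ, Matrix.vecMulVec_smul]
    simp only [mul_add, add_mul, mul_sub, sub_mul, mul_one, one_mul, smul_mul_assoc, mul_smul_comm, vmvE, sub_zero,
      sub_self, r01, r02, r12, r21, h0, h1, h2, ← hs, ← hc, zero_smul, smul_zero, mul_zero, zero_mul]
    module

include hu hT0 eT0 in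
/-- the first transvection, variant -/
theorem stageB1 (h0 : m u w φ 0 = 0) (h1 : m u w φ (-1) = 0) (h2 : m u w φ (-2) = 0) (h3 : m u w φ 1 = 0) :
    In G (W u w 0) ((-m u w φ 2) • P u φ 2) := by
  obtain ⟨T1, hT1, eT1⟩ := exists_T1 hu hT0 eT0
  set c := m u w φ 2 with hc
  have r01 : (0 : ℤ) - 1 = -1 := by norm_num
  have r02 : (0 : ℤ) - 2 = -2 := by norm_num
  have r12 : (1 : ℤ) - 2 = -1 := by norm_num
  have r21 : (2 : ℤ) - 1 = 1 := by norm_num
  refine ⟨?_, ?_⟩
  · rw [smul_dotProduct, dotPW, zero_sub, h2, smul_zero]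
  · apply comm_mem hT0 hT1
    rw [eT0, eT1, Matrix.vecMulVec_smul]
    simp only [mul_add, add_mul, mul_sub, sub_mul, mul_one, one_mul, smul_mul_assoc, mul_smul_comm, vmvE, sub_zero,
      sub_self, r01, r02, r12, r21, h0, h1, h2, h3, ← hc, zero_smul, smul_zero, mul_zero, zero_mul]
    module

omit u w φ hu in
theorem In.move {G : Subgroup (GL n F)} {w η a α b β : n → F} (h : In G w η) {x : GL n F} (hx : x ∈ G)
    (ex : (x : Matrix n n F) = (1 + vecMulVec a α) * (1 - vecMulVec b β)) (ha : α ⬝ᵥ a = 0) (hb : β ⬝ᵥ b = 0)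
    (h1 : β ⬝ᵥ w = 0) (h2 : α ⬝ᵥ w = 0) : In G w (η + (η ⬝ᵥ b) • β - ((η + (η ⬝ᵥ b) • β) ⬝ᵥ a) • α) := by
  have h3 := h.conj hx
  have e1 : (x : Matrix n n F) *ᵥ w = w := by
    rw [ex, ← Matrix.mulVec_mulVec, Matrix.sub_mulVec, Matrix.one_mulVec, Matrix.vecMulVec_mulVec, h1]
    simp only [MulOpposite.op_zero, zero_smul, sub_zero]
    rw [Matrix.add_mulVec, Matrix.one_mulVec, Matrix.vecMulVec_mulVec, h2]
    simp
  have e2 : ((x⁻¹ : GL n F) : Matrix n n F) = (1 + vecMulVec b β) * (1 - vecMulVec a α) := by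
    apply coe_inv_eq
    rw [ex]
    have e3 : (1 - vecMulVec a α) * (1 + vecMulVec a α) = 1 := by
      simp only [mul_add, sub_mul, mul_one, one_mul, vmv, ha, zero_smul]
      abel
    have e4 : (1 + vecMulVec b β) * (1 - vecMulVec b β) = 1 := by
      simp only [mul_sub, add_mul, mul_one, one_mul, vmv, hb, zero_smul]
      abel
    calc (1 + vecMulVec b β) * (1 - vecMulVec a α) * ((1 + vecMulVec a α) * (1 - vecMulVec b β)) =
        (1 + vecMulVec b β) * ((1 - vecMulVec a α) * (1 + vecMulVec a α)) * (1 - vecMulVec b β) := by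
          simp only [mul_assoc]
      _ = 1 := by rw [e3, mul_one, e4]
  rw [e1, e2, ← Matrix.vecMul_vecMul, Matrix.vecMul_add, Matrix.vecMul_one, Matrix.vecMul_vecMulVec,
    Matrix.vecMul_sub, Matrix.vecMul_one, Matrix.vecMul_vecMulVec] at h3
  exact h3

include hu hT0 eT0 in
theorem stage2 (h0 : m u w φ 0 = 0) (h1 : m u w φ (-1) = 0) (h2 : m u w φ (-2) = 0) {η : n → F}
    (h : In G (W u w 0) η) : In G (W u w 0) ((η ⬝ᵥ W u w 2) • P u φ 2) := by
  obtain ⟨T1, hT1, eT1⟩ := exists_T1 hu hT0 eT0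
  have k1 := h.move hT0 eT0 (by rw [dotPW]; simpa using h0) (by rw [dotPW]; simpa using h0)
    (by rw [dotPW]; simpa using h1) (by rw [dotPW]; simpa using h0)
  have k2 := h.move hT1 eT1 (by rw [dotPW]; simpa using h0) (by rw [dotPW]; simpa using h0)
    (by rw [dotPW]; simpa using h2) (by rw [dotPW]; simpa using h1)
  rw [add_dotProduct, h.1, smul_dotProduct, dotPW, show (0 : ℤ) - 1 = -1 by norm_num, h1, smul_zero, add_zero,
    zero_smul, sub_zero] at k1
  rw [add_dotProduct, smul_dotProduct (m := n), dotPW, show (1 : ℤ) - 2 = -1 by norm_num, h1, smul_zero,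
    add_zero] at k2
  have k3 := (k2.add k1).sub (h.add h)
  convert k3 using 1
  module

include hu hT0 eT0 in
theorem stageB2 (h0 : m u w φ 0 = 0) (h1 : m u w φ (-1) = 0) (h3 : m u w φ 1 = 0) {η : n → F}
    (h : In G (W u w 0) η) : In G (W u w 0) ((η ⬝ᵥ W u w (-1)) • P u φ (-1)) := by
  obtain ⟨T1, hT1, eT1⟩ := exists_Tk hu hT0 eT0 (-1)
  have k2 := h.move hT1 eT1 (by rw [dotPW]; simpa using h0) (by rw [dotPW]; simpa using h0)
    (by rw [dotPW]; simpa using h0) (by rw [dotPW]; simpa using h3)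
  norm_num at k2
  rw [h.1, zero_smul, add_zero] at k2
  have k3 := h.sub k2
  rwa [sub_sub_cancel, zero_mul, add_zero] at k3

include hu hT0 eT0 in
theorem stageB3 (h0 : m u w φ 0 = 0) (h1 : m u w φ (-1) = 0) {η : n → F}
    (h : In G (W u w 0) η) : In G (W u w 0) ((η ⬝ᵥ W u w 1) • P u φ 1) := by
  have k1 := h.move hT0 eT0 (by rw [dotPW]; simpa using h0) (by rw [dotPW]; simpa using h0)
    (by rw [dotPW]; simpa using h1) (by rw [dotPW]; simpa using h0)
  rw [add_dotProduct, h.1, smul_dotProduct, dotPW, show (0 : ℤ) - 1 = -1 by norm_num, h1, smul_zero, add_zero,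
    zero_smul, sub_zero] at k1
  have k2 := k1.sub h
  rwa [add_sub_cancel_left] at k2

/-- the set of scalars -/
def Sc (G : Subgroup (GL n F)) (u : GL n F) (w φ : n → F) (j : ℤ) : Set F := {c | In G (W u w 0) (c • P u φ j)}

include hu hT0 eT0 in
theorem stage3 (h0 : m u w φ 0 = 0) (h1 : m u w φ (-1) = 0) (h2 : m u w φ (-2) = 0) {c d : F}
    (hc : In G (W u w 0) (c • P u φ 2)) (hd : In G (W u w 0) (d • P u φ 2)) :
    In G (W u w 0) ((c * d * m u w φ (-3)) • P u φ 1) := by
  have hc' := hc.shift hu 1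
  have := hc'.rule hd (by norm_num; exact h1)
  have h3 := this.shift hu (-1)
  norm_num at h3
  exact h3

include hu hT0 eT0 in
theorem stage4 (h0 : m u w φ 0 = 0) (h1 : m u w φ (-1) = 0) (h2 : m u w φ (-2) = 0) {c d : F}
    (hc : In G (W u w 0) (c • P u φ 2)) (hd : In G (W u w 0) (d • P u φ 2)) :
    In G (W u w 0) ((c * d * m u w φ (-3) * m u w φ 1) • P u φ 2) := by
  have h3 := stage2 hu hT0 eT0 h0 h1 h2 (stage3 hu hT0 eT0 h0 h1 h2 hc hd)
  rw [smul_dotProduct, dotPW] at h3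
  norm_num at h3
  exact h3

include hu hT0 eT0 in
/-- all scalars -/
theorem stage5 (h0 : m u w φ 0 = 0) (h1 : m u w φ (-1) = 0) (h2 : m u w φ (-2) = 0) (hs : m u w φ 1 ≠ 0)
    (hgen : Subring.closure {m u w φ 1 ^ 3 * m u w φ (-3)} = ⊤) (c : F) :
    In G (W u w 0) (c • P u φ 2) := by
  set s := m u w φ 1 with hs'
  set r := m u w φ (-3) with hr'
  have key : ∀ x : F, In G (W u w 0) ((s ^ 2 * x) • P u φ 2) := by
    intro x
    have hx : x ∈ Subring.closure {s ^ 3 * r} := by rw [hgen]; exact Subring.mem_top x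
    have h3 := stage1 hu hT0 eT0 h0 h1 h2
    have hmul : ∀ y : F, In G (W u w 0) ((s ^ 2 * y) • P u φ 2) →
        In G (W u w 0) ((s ^ 2 * (y * (s ^ 3 * r))) • P u φ 2) := by
      intro y hy
      have := stage4 hu hT0 eT0 h0 h1 h2 hy h3
      rw [← hs', ← hr'] at this
      convert this using 2
      ring
    -- closure under all
    let A : Subring F :=
      { carrier := {z | ∀ y, In G (W u w 0) ((s ^ 2 * y) • P u φ 2) → In G (W u w 0) ((s ^ 2 * (y * z)) • P u φ 2)}
        mul_mem' := by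
          intro a b ha hb y hy
          have := hb _ (ha y hy)
          rwa [mul_assoc] at this
        one_mem' := by
          intro y hy
          rwa [mul_one]
        add_mem' := by
          intro a b ha hb y hy
          have := (ha y hy).add (hb y hy)
          convert this using 1
          module
        zero_mem' := by
          intro y hy
          rw [mul_zero, mul_zero, zero_smul]
          exact In.zero _
        neg_mem' := by
          intro a ha y hy
          have := (ha y hy).neg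
          convert this using 1
          module }
    have hA : Subring.closure {s ^ 3 * r} ≤ A := by
      rw [Subring.closure_le, Set.singleton_subset_iff]
      exact hmul
    have := hA hx 1 (by rw [mul_one]; exact h3)
    rwa [one_mul] at this
  have := key ((s ^ 2)⁻¹ * c)
  rwa [← mul_assoc, mul_inv_cancel₀ (pow_ne_zero 2 hs), one_mul] at this

end shift

section full

variable {G : Subgroup (GL n F)}

theorem In.add_left {w w' φ : n → F} (h : In G w φ) (h' : In G w' φ) : In G (w + w') φ := by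
  obtain ⟨h1, g, hg, e⟩ := h
  obtain ⟨h2, g', hg', e'⟩ := h'
  refine ⟨by rw [dotProduct_add, h1, h2, add_zero], g * g', G.mul_mem hg hg', ?_⟩
  rw [Units.val_mul, e, e', Matrix.add_vecMulVec]
  simp only [mul_add, add_mul, mul_one, one_mul, vmv, h2, zero_smul]
  abel

/-- all transvections with centre `w` lie in `G` -/
def Full (G : Subgroup (GL n F)) (w : n → F) : Prop := ∀ η : n → F, η ⬝ᵥ w = 0 → In G w η

theorem Full.zero : Full G (0 : n → F) := fun η _ => In.zero' η

theorem Full.smul {w : n → F} (h : Full G w) (c : F) : Full G (c • w) := by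
  by_cases hc : c = 0
  · rw [hc, zero_smul]; exact Full.zero
  intro η hη
  rw [dotProduct_smul, smul_eq_mul, mul_eq_zero] at hη
  have h1 : In G w (c • η) := h _ (by rw [smul_dotProduct, hη.resolve_left hc, smul_zero])
  exact h1.smul_left

theorem Full.conj {w : n → F} (h : Full G w) {x : GL n F} (hx : x ∈ G) : Full G ((x : Matrix n n F) *ᵥ w) := by
  intro η hη
  have h1 := (h (η ᵥ* (x : Matrix n n F)) (by rw [← Matrix.dotProduct_mulVec]; exact hη)).conj hx
  rwa [Matrix.vecMul_vecMul, coe_mul_inv, Matrix.vecMul_one] at h1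

theorem exists_dual {w w' : n → F} (h : w' ∉ Submodule.span F {w}) : ∃ ψ : n → F, ψ ⬝ᵥ w = 0 ∧ ψ ⬝ᵥ w' = 1 := by
  obtain ⟨f, hf, hle⟩ := Submodule.exists_le_ker_of_notMem h
  refine ⟨fun i => (f w')⁻¹ * f (Pi.single i 1), ?_, ?_⟩
  · have h1 : f w = 0 := hle (Submodule.mem_span_singleton_self w)
    have h2 : f w = ∑ i, w i * f (Pi.single i 1) := by
      conv_lhs => rw [pi_eq_sum_univ' w, map_sum]
      apply Finset.sum_congr rfl
      intro i _
      rw [map_smul, smul_eq_mul]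
    simp only [dotProduct]
    have h3 : ∑ i, (f w')⁻¹ * f (Pi.single i 1) * w i = (f w')⁻¹ * f w := by
      rw [h2, Finset.mul_sum]
      apply Finset.sum_congr rfl
      intro i _
      ring
    rw [h3, h1, mul_zero]
  · have h2 : f w' = ∑ i, w' i * f (Pi.single i 1) := by
      conv_lhs => rw [pi_eq_sum_univ' w', map_sum]
      apply Finset.sum_congr rfl
      intro i _
      rw [map_smul, smul_eq_mul]
    simp only [dotProduct]
    have h3 : ∑ i, (f w')⁻¹ * f (Pi.single i 1) * w' i = (f w')⁻¹ * f w' := by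
      conv_rhs => rw [h2]
      rw [Finset.mul_sum]
      apply Finset.sum_congr rfl
      intro i _
      rw [← h2]
      ring
    rw [h3, inv_mul_cancel₀ hf]

theorem Full.add {w w' : n → F} (h : Full G w) (h' : Full G w') : Full G (w + w') := by
  by_cases hw : w' ∈ Submodule.span F {w}
  · obtain ⟨c, rfl⟩ := Submodule.mem_span_singleton.mp hw
    have : w + c • w = (1 + c) • w := by module
    rw [this]
    exact h.smul _
  · obtain ⟨ψ, h1, h2⟩ := exists_dual hw
    obtain ⟨-, x, hx, e⟩ := h ψ h1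
    have h3 := h'.conj hx
    rw [e, Matrix.add_mulVec, Matrix.one_mulVec, Matrix.vecMulVec_mulVec, h2] at h3
    simp only [MulOpposite.op_one, one_smul] at h3
    rwa [add_comm]

/-- the submodule of full vectors -/
def fullSub (G : Subgroup (GL n F)) : Submodule F (n → F) where
  carrier := {w | Full G w}
  add_mem' := Full.add
  zero_mem' := Full.zero
  smul_mem' := fun c _ h => h.smul c

/-- recognition of `SL` -/
theorem eq_top_of_full [Nontrivial n] (H : Subgroup (Matrix.SpecialLinearGroup n F))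
    (h : fullSub (H.map (Matrix.SpecialLinearGroup.toGL)) = ⊤) : H = ⊤ := by
  apply ClSLn.eq_top_of_transvection_mem
  intro i j hij c
  have h1 : (Pi.single i 1 : n → F) ∈ fullSub (H.map (Matrix.SpecialLinearGroup.toGL)) := by
    rw [h]; exact Submodule.mem_top
  obtain ⟨-, g, ⟨g', hg', rfl⟩, e⟩ := h1 (Pi.single j c) (by
    rw [single_dotProduct, Pi.single_eq_of_ne hij.symm, mul_zero])
  have : g' = Matrix.SpecialLinearGroup.transvection hij c := by
    apply Subtype.ext
    have e' : (g' : Matrix n n F) = 1 + vecMulVec (Pi.single i 1) (Pi.single j c) := e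
    rw [e', Matrix.SpecialLinearGroup.transvection_coe]
    congr 1
    ext a b
    simp only [Matrix.vecMulVec_apply, Pi.single_apply, Matrix.single_apply]
    have ea : (a = i) ↔ (i = a) := eq_comm
    have eb : (b = j) ↔ (j = b) := eq_comm
    by_cases ha : i = a <;> by_cases hb : j = b <;> simp [ea, eb, ha, hb]
  rw [← this]
  exact hg'

end full

section final

variable {G : Subgroup (GL n F)} {u : GL n F} {w φ : n → F} (hu : u ∈ G)

/-- functionals `η` with `1 + c w ⊗ η ∈ G` for all `c` -/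
def Ph (G : Subgroup (GL n F)) (w : n → F) : Submodule F (n → F) where
  carrier := {η | ∀ c : F, In G w (c • η)}
  add_mem' := by
    intro a b ha hb c
    rw [smul_add]
    exact (ha c).add (hb c)
  zero_mem' := by
    intro c
    rw [smul_zero]
    exact In.zero w
  smul_mem' := by
    intro d a ha c
    rw [smul_smul]
    exact ha _

theorem mem_Ph {η : n → F} : η ∈ Ph G w ↔ ∀ c : F, In G w (c • η) := Iff.rfl

theorem Ph.dot {η : n → F} (h : η ∈ Ph G w) : η ⬝ᵥ w = 0 := by
  have := (h 1).1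
  rwa [one_smul] at this

include hu in
/-- the basic closure rule (*) -/
theorem star {i : ℤ} {η₀ η : n → F} (h0 : η₀ ∈ Ph G (W u w 0)) (hi : η₀ ⬝ᵥ W u w i ≠ 0) (h : η ∈ Ph G (W u w 0))
    (hη : (η ᵥ* ((u ^ (-i) : GL n F) : Matrix n n F)) ⬝ᵥ W u w 0 = 0) :
    η ᵥ* ((u ^ (-i) : GL n F) : Matrix n n F) ∈ Ph G (W u w 0) := by
  intro c
  have h1 := (h 1).conj (G.zpow_mem hu i)
  rw [one_smul, shiftW, zero_add, ← _root_.zpow_neg] at h1
  have h2 := (h0 ((η₀ ⬝ᵥ W u w i)⁻¹ * c)).comm h1 hη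
  rw [smul_dotProduct, smul_eq_mul] at h2
  convert h2 using 2
  field_simp

include hu in
theorem final (hr : m u w φ (-3) ≠ 0) (H1 : P u φ 1 ∈ Ph G (W u w 0)) (H2 : P u φ 2 ∈ Ph G (W u w 0))
    (E1 : ∃ η ∈ Ph G (W u w 0), η ⬝ᵥ W u w 1 ≠ 0) (E2 : ∃ η ∈ Ph G (W u w 0), η ⬝ᵥ W u w 2 ≠ 0)
    (hφ : ∀ S : Submodule F (n → F), P u φ 1 ∈ S → (∀ x ∈ S, x ᵥ* ((u⁻¹ : GL n F) : Matrix n n F) ∈ S) → S = ⊤) :
    Full G (W u w 0) := by
  obtain ⟨η₁, hη₁, hd1⟩ := E1
  obtain ⟨η₂, hη₂, hd2⟩ := E2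
  have e3 : P u φ 3 ⬝ᵥ W u w 0 = m u w φ (-3) := by rw [dotPW]; norm_num
  have hS : Ph G (W u w 0) ⊔ Submodule.span F {P u φ 3} = ⊤ := by
    apply hφ
    · exact Submodule.mem_sup_left H1
    · intro x hx
      obtain ⟨η, hη, z, hz, rfl⟩ := Submodule.mem_sup.mp hx
      obtain ⟨c, rfl⟩ := Submodule.mem_span_singleton.mp hz
      rw [Matrix.add_vecMul, Matrix.smul_vecMul]
      apply Submodule.add_mem
      · -- η u⁻¹
        set d := (η ᵥ* ((u⁻¹ : GL n F) : Matrix n n F)) ⬝ᵥ W u w 0 with hd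
        have h1 : η - (d / m u w φ (-3)) • P u φ 2 ∈ Ph G (W u w 0) := Submodule.sub_mem _ hη (Submodule.smul_mem _ _ H2)
        have h2 : (η - (d / m u w φ (-3)) • P u φ 2) ᵥ* ((u ^ (-1 : ℤ) : GL n F) : Matrix n n F) =
            η ᵥ* ((u⁻¹ : GL n F) : Matrix n n F) - (d / m u w φ (-3)) • P u φ 3 := by
          rw [Matrix.sub_vecMul, Matrix.smul_vecMul]
          have := shiftP (u := u) (φ := φ) 1 2
          rw [zpow_one] at this
          rw [_root_.zpow_neg, zpow_one, this]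
          norm_num
        have h3 := star hu hη₁ hd1 h1 (by
          rw [h2, sub_dotProduct, smul_dotProduct, e3, ← hd, smul_eq_mul, div_mul_cancel₀ _ hr, sub_self])
        rw [h2] at h3
        have h4 : η ᵥ* ((u⁻¹ : GL n F) : Matrix n n F) = (η ᵥ* ((u⁻¹ : GL n F) : Matrix n n F) -
            (d / m u w φ (-3)) • P u φ 3) + (d / m u w φ (-3)) • P u φ 3 := by module
        rw [h4]
        exact Submodule.add_mem_sup h3 (Submodule.smul_mem _ _ (Submodule.mem_span_singleton_self _))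
      · -- P 4
        apply Submodule.smul_mem
        have e4 : P u φ 3 ᵥ* ((u⁻¹ : GL n F) : Matrix n n F) = P u φ 4 := by
          have := shiftP (u := u) (φ := φ) 1 3
          rw [zpow_one] at this
          rw [this]
          norm_num
        rw [e4]
        set d := m u w φ (-4) with hd
        have h1 : P u φ 2 - (d / m u w φ (-3)) • P u φ 1 ∈ Ph G (W u w 0) :=
          Submodule.sub_mem _ H2 (Submodule.smul_mem _ _ H1)
        have h2 : (P u φ 2 - (d / m u w φ (-3)) • P u φ 1) ᵥ* ((u ^ (-2 : ℤ) : GL n F) : Matrix n n F) =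
            P u φ 4 - (d / m u w φ (-3)) • P u φ 3 := by
          rw [Matrix.sub_vecMul, Matrix.smul_vecMul, _root_.zpow_neg, shiftP, shiftP]
          norm_num
        have h3 := star hu hη₂ hd2 h1 (by
          rw [h2, sub_dotProduct, smul_dotProduct, e3, dotPW, show (0 : ℤ) - 4 = -4 by norm_num, ← hd, smul_eq_mul,
            div_mul_cancel₀ _ hr, sub_self])
        rw [h2] at h3
        have h4 : P u φ 4 = (P u φ 4 - (d / m u w φ (-3)) • P u φ 3) + (d / m u w φ (-3)) • P u φ 3 := by module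
        rw [h4]
        exact Submodule.add_mem_sup h3 (Submodule.smul_mem _ _ (Submodule.mem_span_singleton_self _))
  intro η hη
  have hx : η ∈ Ph G (W u w 0) ⊔ Submodule.span F {P u φ 3} := by rw [hS]; exact Submodule.mem_top
  obtain ⟨η', hη', z, hz, rfl⟩ := Submodule.mem_sup.mp hx
  obtain ⟨c, rfl⟩ := Submodule.mem_span_singleton.mp hz
  rw [add_dotProduct, Ph.dot hη', smul_dotProduct, e3, zero_add, smul_eq_mul, mul_eq_zero] at hη
  rw [hη.resolve_right hr, zero_smul, add_zero]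
  have := hη' 1
  rwa [one_smul] at this

include hu in
theorem Full.shift (h : Full G (W u w 0)) (i : ℤ) : Full G (W u w i) := by
  have := h.conj (G.zpow_mem hu i)
  rwa [shiftW, zero_add] at this

include hu in
theorem Full.all (h : Full G (W u w 0)) (hw : Submodule.span F (Set.range (W u w)) = ⊤) : fullSub G = ⊤ := by
  rw [eq_top_iff, ← hw, Submodule.span_le]
  rintro _ ⟨i, rfl⟩
  exact h.shift hu i

end final

end Cfsg.Agent.Lib.RootCalc
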