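import Cfsg.Agent.Lib.RootCalc

/-! Generation of `SL n F` by a regular unipotent element and one of its conjugates under a transvection. -/

set_option autoImplicit false
set_option linter.unusedSectionVars false

namespace Cfsg.Agent.Lib.RootCalcSL

open Matrix RootCalc

variable {F : Type*} [Field F]

section pair

variable {n : Type*} [Fintype n] [DecidableEq n]

/-- `SL → GL` -/
abbrev tg : Matrix.SpecialLinearGroup n F →* GL n F := Matrix.SpecialLinearGroup.toGL

theorem coe_tg (g : Matrix.SpecialLinearGroup n F) : ((tg g : GL n F) : Matrix n n F) = (g : Matrix n n F) := rfl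

/-- data extracted from a group containing `u` and `g u g⁻¹` -/
theorem exists_T0 (H : Subgroup (Matrix.SpecialLinearGroup n F)) (u g : Matrix.SpecialLinearGroup n F) {w φ : n → F}
    (hg : (g : Matrix n n F) = 1 + vecMulVec w φ) (h0 : φ ⬝ᵥ w = 0) (hu : u ∈ H) (hv : g * u * g⁻¹ ∈ H) :
    ∃ T0 ∈ H.map tg, (T0 : Matrix n n F) = (1 + vecMulVec (W (tg u) w 0) (P (tg u) φ 0)) *
      (1 - vecMulVec (W (tg u) w 1) (P (tg u) φ 1)) := by
  refine ⟨tg (g * u * g⁻¹ * u⁻¹), ⟨_, H.mul_mem hv (H.inv_mem hu), rfl⟩, ?_⟩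
  have e1 : g * u * g⁻¹ * u⁻¹ = g * (u * g⁻¹ * u⁻¹) := by group
  rw [e1, map_mul, Units.val_mul, coe_tg, hg, W_zero, P_zero]
  congr 1
  have e2 : (tg u * (tg g)⁻¹ * (tg u)⁻¹ : GL n F) = tg (u * g⁻¹ * u⁻¹) := by
    rw [map_mul, map_mul, map_inv, map_inv]
  rw [← e2, Units.val_mul, Units.val_mul]
  have e3 : (((tg g)⁻¹ : GL n F) : Matrix n n F) = 1 - vecMulVec w φ := by
    apply coe_inv_eq
    rw [coe_tg, hg]
    simp only [mul_add, sub_mul, mul_one, one_mul, vmv, h0, zero_smul]
    abel
  rw [e3, mul_sub, sub_mul, mul_one, coe_mul_inv, Matrix.mul_vecMulVec, Matrix.vecMulVec_mul]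
  simp only [W, P, zpow_one, _root_.zpow_neg]

theorem top_of_full [Nontrivial n] (H : Subgroup (Matrix.SpecialLinearGroup n F)) (u : Matrix.SpecialLinearGroup n F)
    (huH : u ∈ H) {w φ : n → F}
    (h0 : m (tg u) w φ 0 = 0) (h1 : m (tg u) w φ (-1) = 0)
    (hs : m (tg u) w φ 1 ≠ 0) (hr : m (tg u) w φ (-3) ≠ 0)
    (k2 : ∀ c : F, In (H.map tg) (W (tg u) w 0) (c • P (tg u) φ 2))
    (k1 : ∀ c : F, In (H.map tg) (W (tg u) w 0) (c • P (tg u) φ 1))
    (hφ : ∀ S : Submodule F (n → F), P (tg u) φ 1 ∈ S → (∀ x ∈ S, x ᵥ* (((tg u)⁻¹ : GL n F) : Matrix n n F) ∈ S) →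
      S = ⊤) (hw : Submodule.span F (Set.range (W (tg u) w)) = ⊤) : H = ⊤ := by
  have hu : tg u ∈ H.map tg := ⟨u, huH, rfl⟩
  have k0 : ∀ c : F, In (H.map tg) (W (tg u) w 0) (c • P (tg u) φ 0) := by
    intro c
    have h3 := (k1 1).shift hu (-1)
    norm_num at h3
    have h4 : In (H.map tg) (W (tg u) w (-1)) ((1 : F) • P (tg u) φ 0) := by rw [one_smul]; exact h3
    have h5 := (k2 (c / m (tg u) w φ (-3))).rule h4 (by rw [sub_zero]; exact h0)
    rw [mul_one] at h5
    norm_num at h5
    rwa [div_mul_cancel₀ _ hr] at h5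
  apply eq_top_of_full
  apply Full.all hu _ hw
  apply RootCalc.final hu hr k1 k2 ⟨_, k0, ?_⟩ ⟨_, k1, ?_⟩ hφ
  · rw [dotPW, sub_zero]; exact hs
  · rw [dotPW]; norm_num; exact hs

theorem pair_top [Nontrivial n] (u g : Matrix.SpecialLinearGroup n F) {w φ : n → F}
    (hg : (g : Matrix n n F) = 1 + vecMulVec w φ) (h0 : m (tg u) w φ 0 = 0) (h1 : m (tg u) w φ (-1) = 0)
    (h2 : m (tg u) w φ (-2) = 0) (hs : m (tg u) w φ 1 ≠ 0) (hr : m (tg u) w φ (-3) ≠ 0)
    (hgen : Subring.closure {m (tg u) w φ 1 ^ 3 * m (tg u) w φ (-3)} = ⊤)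
    (hφ : ∀ S : Submodule F (n → F), P (tg u) φ 1 ∈ S → (∀ x ∈ S, x ᵥ* (((tg u)⁻¹ : GL n F) : Matrix n n F) ∈ S) →
      S = ⊤) (hw : Submodule.span F (Set.range (W (tg u) w)) = ⊤) :
    Subgroup.closure {u, g * u * g⁻¹} = ⊤ := by
  set H := Subgroup.closure {u, g * u * g⁻¹} with hH
  have huH : u ∈ H := Subgroup.subset_closure (by simp)
  have hvH : g * u * g⁻¹ ∈ H := Subgroup.subset_closure (by simp)
  have h00 : φ ⬝ᵥ w = 0 := by
    have := h0
    unfold m at this
    rwa [W_zero] at this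
  obtain ⟨T0, hT0, eT0⟩ := exists_T0 H u g hg h00 huH hvH
  have hu : tg u ∈ H.map tg := ⟨u, huH, rfl⟩
  have k2 := stage5 hu hT0 eT0 h0 h1 h2 hs hgen
  have k1 : ∀ c : F, In (H.map tg) (W (tg u) w 0) (c • P (tg u) φ 1) := by
    intro c
    have := stage3 hu hT0 eT0 h0 h1 h2 (k2 (c / m (tg u) w φ (-3))) (k2 1)
    rwa [mul_one, div_mul_cancel₀ _ hr] at this
  exact top_of_full H u huH h0 h1 hs hr k2 k1 hφ hw

/-- the case of the field with 9 elements -/
theorem pair_top_nine [Nontrivial n] (u g : Matrix.SpecialLinearGroup n F) {w φ : n → F}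
    (hg : (g : Matrix n n F) = 1 + vecMulVec w φ) (h0 : m (tg u) w φ 0 = 0) (h1 : m (tg u) w φ (-1) = 0)
    (h2 : m (tg u) w φ (-2) = 0) (i : F) (hi : i ^ 2 = -1) (hs : m (tg u) w φ 1 = i) (hr : m (tg u) w φ (-3) = -i)
    (h4 : m (tg u) w φ (-4) = -i) (h5 : m (tg u) w φ 2 = i)
    (hgen : AddSubgroup.closure {(1 : F), i} = ⊤)
    (hφ : ∀ S : Submodule F (n → F), P (tg u) φ 1 ∈ S → (∀ x ∈ S, x ᵥ* (((tg u)⁻¹ : GL n F) : Matrix n n F) ∈ S) →
      S = ⊤) (hw : Submodule.span F (Set.range (W (tg u) w)) = ⊤) :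
    Subgroup.closure {u, g * u * g⁻¹} = ⊤ := by
  set H := Subgroup.closure {u, g * u * g⁻¹} with hH
  have huH : u ∈ H := Subgroup.subset_closure (by simp)
  have hvH : g * u * g⁻¹ ∈ H := Subgroup.subset_closure (by simp)
  have h00 : φ ⬝ᵥ w = 0 := by
    have := h0
    unfold m at this
    rwa [W_zero] at this
  obtain ⟨T0, hT0, eT0⟩ := exists_T0 H u g hg h00 huH hvH
  have hu : tg u ∈ H.map tg := ⟨u, huH, rfl⟩
  have hi0 : i ≠ 0 := by
    rintro rfl
    rw [zero_pow two_ne_zero] at hi
    have : (1 : F) = 0 := by linear_combination hi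
    exact one_ne_zero this
  have a2 := stage1 hu hT0 eT0 h0 h1 h2
  rw [hs, hi] at a2
  have a1 := stage3 hu hT0 eT0 h0 h1 h2 a2 a2
  rw [hr] at a1
  have a2' := a2.shift hu (-2)
  norm_num at a2'
  have a2'' : In (H.map tg) (W (tg u) w (-2)) ((-1 : F) • P (tg u) φ 0) := by
    rw [neg_one_smul]; exact a2'
  have b1 := a1.rule a2'' (by rw [sub_zero]; exact h0)
  have b2 := a2.rule a2'' (by rw [sub_zero]; exact h0)
  rw [show (-2 : ℤ) - 1 = -3 by norm_num, hr] at b1
  rw [show (-2 : ℤ) - 2 = -4 by norm_num, h4] at b2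
  have c1 : (1 : F) ∈ {c : F | In (H.map tg) (W (tg u) w 0) (c • P (tg u) φ 0)} := by
    show In _ _ _
    convert b1 using 2
    linear_combination hi
  have c2 : i ∈ {c : F | In (H.map tg) (W (tg u) w 0) (c • P (tg u) φ 0)} := by
    show In _ _ _
    have := b2.neg
    convert this using 1
    rw [← neg_smul]
    congr 1
    ring
  have k0 : ∀ c : F, In (H.map tg) (W (tg u) w 0) (c • P (tg u) φ 0) := by
    intro c
    let A : AddSubgroup F :=
      { carrier := {c : F | In (H.map tg) (W (tg u) w 0) (c • P (tg u) φ 0)}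
        add_mem' := by
          intro a b ha hb
          show In _ _ _
          rw [add_smul]
          exact In.add ha hb
        zero_mem' := by
          show In _ _ _
          rw [zero_smul]
          exact In.zero _
        neg_mem' := by
          intro a ha
          show In _ _ _
          rw [neg_smul]
          exact In.neg ha }
    have hA : AddSubgroup.closure {(1 : F), i} ≤ A := by
      rw [AddSubgroup.closure_le]
      rintro x (rfl | hx)
      · exact c1
      · rw [Set.mem_singleton_iff] at hx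
        rw [hx]; exact c2
    have : c ∈ AddSubgroup.closure {(1 : F), i} := by rw [hgen]; exact AddSubgroup.mem_top c
    exact hA this
  have k2 : ∀ c : F, In (H.map tg) (W (tg u) w 0) (c • P (tg u) φ 2) := by
    intro c
    have h3 := (k0 1).shift hu 2
    rw [zero_add] at h3
    have h6 := (k0 (c / i)).rule h3 (by rw [zero_sub]; exact h2)
    rw [sub_zero, h5, mul_one, div_mul_cancel₀ _ hi0] at h6
    exact h6
  have k1 : ∀ c : F, In (H.map tg) (W (tg u) w 0) (c • P (tg u) φ 1) := by
    intro c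
    have h3 := (k0 1).shift hu 1
    rw [zero_add] at h3
    have h6 := (k0 (c / i)).rule h3 (by rw [zero_sub]; exact h1)
    rw [sub_zero, hs, mul_one, div_mul_cancel₀ _ hi0] at h6
    exact h6
  exact top_of_full H u huH h0 h1 (by rw [hs]; exact hi0) (by rw [hr]; exact neg_ne_zero.mpr hi0) k2 k1 hφ hw

/-- the case of the field with 2 elements, dimension 5 -/
theorem pair_top_two [Nontrivial n] (u g : Matrix.SpecialLinearGroup n F) {w φ : n → F}
    (hg : (g : Matrix n n F) = 1 + vecMulVec w φ) (h0 : m (tg u) w φ 0 = 0) (h1 : m (tg u) w φ (-1) = 0)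
    (h2 : m (tg u) w φ (-2) = 0) (h3 : m (tg u) w φ 1 = 0) (h4 : m (tg u) w φ 2 = 1) (hr : m (tg u) w φ (-3) = 1)
    (hF : ∀ c : F, c = 0 ∨ c = 1)
    (hφ : ∀ S : Submodule F (n → F), P (tg u) φ 1 ∈ S → (∀ x ∈ S, x ᵥ* (((tg u)⁻¹ : GL n F) : Matrix n n F) ∈ S) →
      S = ⊤) (hw : Submodule.span F (Set.range (W (tg u) w)) = ⊤) :
    Subgroup.closure {u, g * u * g⁻¹} = ⊤ := by
  set H := Subgroup.closure {u, g * u * g⁻¹} with hH
  have huH : u ∈ H := Subgroup.subset_closure (by simp)
  have hvH : g * u * g⁻¹ ∈ H := Subgroup.subset_closure (by simp)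
  have h00 : φ ⬝ᵥ w = 0 := by
    have := h0
    unfold m at this
    rwa [W_zero] at this
  obtain ⟨T0, hT0, eT0⟩ := exists_T0 H u g hg h00 huH hvH
  have hu : tg u ∈ H.map tg := ⟨u, huH, rfl⟩
  have hall : ∀ η : n → F, In (H.map tg) (W (tg u) w 0) η → ∀ c : F, In (H.map tg) (W (tg u) w 0) (c • η) := by
    intro η hη c
    rcases hF c with rfl | rfl
    · rw [zero_smul]; exact In.zero _
    · rw [one_smul]; exact hη
  have a2 := (stageB1 hu hT0 eT0 h0 h1 h2 h3).neg
  rw [neg_smul, neg_neg, h4, one_smul] at a2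
  have a3 := stageB2 hu hT0 eT0 h0 h1 h3 a2
  rw [dotPW, show (-1 : ℤ) - 2 = -3 by norm_num, hr, one_smul] at a3
  have a1 := stageB3 hu hT0 eT0 h0 h1 a3
  rw [dotPW, show (1 : ℤ) - (-1) = 2 by norm_num, h4, one_smul] at a1
  have a4 := (hall _ a3 1).shift hu 1
  norm_num at a4
  have a4' : In (H.map tg) (W (tg u) w 1) ((1 : F) • P (tg u) φ 0) := by rw [one_smul]; exact a4
  have a0 := (hall _ a3 1).rule a4' (by rw [sub_zero]; exact h0)
  rw [show (1 : ℤ) - (-1) = 2 by norm_num, h4, one_mul, one_mul, one_smul] at a0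
  apply eq_top_of_full
  apply Full.all hu _ hw
  apply RootCalc.final hu (by rw [hr]; exact one_ne_zero) (hall _ a1) (hall _ a2) ⟨_, hall _ a3, ?_⟩
    ⟨_, hall _ a0, ?_⟩ hφ
  · rw [dotPW, show (1 : ℤ) - (-1) = 2 by norm_num, h4]; exact one_ne_zero
  · rw [dotPW, sub_zero, h4]; exact one_ne_zero

end pair

section jordan

variable (F) (N : ℕ)

/-- unit vectors, zero beyond `N` -/
def e (k : ℕ) : Fin N → F := fun i => if i.val = k then 1 else 0

/-- the lower Jordan block -/
def jm : Matrix (Fin N) (Fin N) F := Matrix.of fun i j => if i = j then 1 else if i.val = j.val + 1 then 1 else 0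

theorem det_jm : (jm F N).det = 1 := by
  rw [Matrix.det_of_lowerTriangular]
  · apply Finset.prod_eq_one
    intro i _
    simp [jm]
  · intro i j hij
    have h1 : i < j := hij
    have h2 : i.val < j.val := h1
    have h3 : i ≠ j := ne_of_lt h1
    simp only [jm, Matrix.of_apply, h3, if_false]
    rw [if_neg (by omega)]

def js : Matrix.SpecialLinearGroup (Fin N) F := ⟨jm F N, det_jm F N⟩

variable {F} {N}

theorem js_mulVec (k : ℕ) : jm F N *ᵥ e F N k = e F N k + e F N (k + 1) := by
  ext i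
  simp only [Matrix.mulVec, dotProduct, jm, Matrix.of_apply, e, Pi.add_apply]
  by_cases hk : k < N
  · rw [Finset.sum_eq_single (⟨k, hk⟩ : Fin N)]
    · simp only [if_true, mul_one]
      by_cases h1 : i.val = k
      · have : i = ⟨k, hk⟩ := Fin.ext h1
        simp [this]
      · have : i ≠ ⟨k, hk⟩ := fun h => h1 (by rw [h])
        simp [this, h1]
    · intro b _ hb
      have : b.val ≠ k := fun h => hb (Fin.ext h)
      simp [this]
    · intro h; exact absurd (Finset.mem_univ _) h
  · rw [Finset.sum_eq_zero]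
    · have h1 : i.val ≠ k := by have := i.2; omega
      have h2 : i.val ≠ k + 1 := by have := i.2; omega
      simp [h1, h2]
    · intro b _
      have h1 : b.val ≠ k := by have := b.2; omega
      simp [h1]

theorem vecMul_js (x : Fin N → F) (j : Fin N) : (x ᵥ* jm F N) j = x j + (if h : j.val + 1 < N then x ⟨j.val + 1, h⟩ else 0) := by
  simp only [Matrix.vecMul, dotProduct, jm, Matrix.of_apply]
  have h1 : ∀ i : Fin N, x i * (if i = j then (1 : F) else if i.val = j.val + 1 then 1 else 0) =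
      (if i = j then x i else 0) + (if i.val = j.val + 1 then x i else 0) := by
    intro i
    by_cases h : i = j
    · subst h
      simp
    · simp [h]
  rw [Finset.sum_congr rfl (fun i _ => h1 i), Finset.sum_add_distrib]
  congr 1
  · simp
  · split_ifs with h
    · rw [Finset.sum_eq_single (⟨j.val + 1, h⟩ : Fin N)]
      · simp
      · intro b _ hb
        rw [if_neg (fun h2 => hb (Fin.ext h2))]
      · intro h; exact absurd (Finset.mem_univ _) h
    · apply Finset.sum_eq_zero
      intro b _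
      rw [if_neg (by have := b.2; omega)]

/-- `jm - 1` shifts -/
theorem sub_one_mulVec (k : ℕ) : (jm F N - 1) *ᵥ e F N k = e F N (k + 1) := by
  rw [Matrix.sub_mulVec, js_mulVec, Matrix.one_mulVec, add_sub_cancel_left]

theorem sub_one_pow_mulVec (l k : ℕ) : ((jm F N - 1) ^ l) *ᵥ e F N k = e F N (k + l) := by
  induction l generalizing k with
  | zero => simp
  | succ l ih =>
    rw [pow_succ, ← Matrix.mulVec_mulVec, sub_one_mulVec, ih]
    congr 1
    omega

theorem e_eq_single (i : Fin N) : e F N i = Pi.single i 1 := by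
  ext j
  simp only [e, Pi.single_apply, Fin.ext_iff]

theorem e_eq_zero {k : ℕ} (h : N ≤ k) : e F N k = 0 := by
  ext i
  have := i.2
  simp only [e, Pi.zero_apply]
  rw [if_neg (by omega)]

theorem isNilpotent_jm : IsNilpotent (jm F N - 1) := by
  refine ⟨N, ?_⟩
  ext i j
  have h1 := sub_one_pow_mulVec (F := F) (N := N) N j
  rw [show e F N (j.val + N) = 0 from e_eq_zero (by omega), e_eq_single] at h1
  have h2 := congrFun h1 i
  rw [Matrix.mulVec_single_one] at h2
  simpa using h2

theorem jm_pow_ne (hN : 1 ≤ N) : (jm F N - 1) ^ (N - 1) ≠ 0 := by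
  intro h
  have h1 := sub_one_pow_mulVec (F := F) (N := N) (N - 1) 0
  rw [h, Matrix.zero_mulVec, zero_add] at h1
  have h2 := congrFun h1 ⟨N - 1, by omega⟩
  simp [e] at h2

/-- the vectors `e k` are cyclic -/
theorem cyclic_w (S : Submodule F (Fin N → F)) (h0 : e F N 0 ∈ S) (h : ∀ x ∈ S, jm F N *ᵥ x ∈ S) : S = ⊤ := by
  have h1 : ∀ k, e F N k ∈ S := by
    intro k
    induction k with
    | zero => exact h0
    | succ k ih =>
      have h2 := S.sub_mem (h _ ih) ih
      rwa [js_mulVec, add_sub_cancel_left] at h2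
  rw [eq_top_iff]
  intro x _
  rw [pi_eq_sum_univ' x]
  apply S.sum_mem
  intro i _
  apply S.smul_mem
  have h2 := h1 i
  rw [e_eq_single] at h2
  convert h2 using 1

theorem cyclic_phi (S : Submodule F (Fin N → F)) (φ : Fin N → F) (hN : 1 ≤ N) (hφ : φ ⟨N - 1, by omega⟩ ≠ 0)
    (h0 : φ ∈ S) (h : ∀ x ∈ S, x ᵥ* jm F N ∈ S) : S = ⊤ := by
  -- shifted functionals
  have h1 : ∀ k : ℕ, (fun j : Fin N => if h : j.val + k < N then φ ⟨j.val + k, h⟩ else 0) ∈ S := by
    intro k
    induction k with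
    | zero =>
      convert h0 using 1
      ext j
      have := j.2
      simp
    | succ k ih =>
      have h2 := S.sub_mem (h _ ih) ih
      convert h2 using 1
      ext j
      rw [Pi.sub_apply, vecMul_js, add_sub_cancel_left]
      by_cases h3 : j.val + (k + 1) < N
      · have h4 : j.val + 1 < N := by omega
        have h5 : j.val + 1 + k < N := by omega
        rw [dif_pos h3, dif_pos h4]
        simp only [h5, dif_pos]
        congr 2
        omega
      · rw [dif_neg h3]
        by_cases h4 : j.val + 1 < N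
        · have h5 : ¬ (j.val + 1 + k < N) := by omega
          rw [dif_pos h4]
          simp only [h5, dif_neg, not_false_eq_true]
        · rw [dif_neg h4]
  have h2 : ∀ k : ℕ, ∀ x : Fin N → F, (∀ j : Fin N, k ≤ j.val → x j = 0) → x ∈ S := by
    intro k
    induction k with
    | zero =>
      intro x hx
      have : x = 0 := by
        ext j
        exact hx j (Nat.zero_le _)
      rw [this]; exact S.zero_mem
    | succ k ih =>
      intro x hx
      by_cases hk : k < N
      · set y : Fin N → F := (fun j : Fin N => if h : j.val + (N - 1 - k) < N then φ ⟨j.val + (N - 1 - k), h⟩ else 0) with hy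
        have hyS : y ∈ S := h1 _
        have hyk : y ⟨k, hk⟩ = φ ⟨N - 1, by omega⟩ := by
          rw [hy]
          simp only
          rw [dif_pos (by omega)]
          congr 2
          omega
        have h3 : x - (x ⟨k, hk⟩ / φ ⟨N - 1, by omega⟩) • y ∈ S := by
          apply ih
          intro j hj
          rcases Nat.eq_or_lt_of_le hj with h4 | h4
          · have h5 : j = ⟨k, hk⟩ := Fin.ext h4.symm
            rw [h5, Pi.sub_apply, Pi.smul_apply, hyk, smul_eq_mul, div_mul_cancel₀ _ hφ, sub_self]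
          · rw [Pi.sub_apply, Pi.smul_apply, hx j h4]
            have h5 : y j = 0 := by
              rw [hy]
              simp only
              rw [dif_neg (by omega)]
            rw [h5, smul_zero, sub_zero]
        have h4 := S.add_mem h3 (S.smul_mem (x ⟨k, hk⟩ / φ ⟨N - 1, by omega⟩) hyS)
        rwa [sub_add_cancel] at h4
      · apply ih
        intro j hj
        have := j.2
        omega
  rw [eq_top_iff]
  intro x _
  exact h2 N x (fun j hj => absurd j.2 (by omega))

end jordan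

section main

variable {N : ℕ}

/-- `u = 1 + N` in `GL` -/
theorem coe_js : ((tg (js F N) : GL (Fin N) F) : Matrix (Fin N) (Fin N) F) = jm F N := rfl

theorem W_js_succ (w : Fin N → F) (i : ℤ) : W (tg (js F N)) w (i + 1) = jm F N *ᵥ W (tg (js F N)) w i := by
  have := shiftW (u := tg (js F N)) (w := w) 1 i
  rw [zpow_one, coe_js] at this
  exact this.symm

theorem W_comp (u : GL (Fin N) F) (w : Fin N → F) (i j : ℤ) : W u (W u w i) j = W u w (i + j) := by
  have := shiftW (u := u) (w := w) j i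
  unfold W at this ⊢
  exact this

/-- the vector `w = u ^ 3 e₀` -/
noncomputable def wv (F : Type*) [Field F] (N : ℕ) : Fin N → F := W (tg (js F N)) (e F N 0) 3

theorem m_wv (φ : Fin N → F) (k : ℤ) : m (tg (js F N)) (wv F N) φ k = φ ⬝ᵥ W (tg (js F N)) (e F N 0) (3 + k) := by
  unfold m wv
  rw [W_comp]

theorem W0 : W (tg (js F N)) (e F N 0) 0 = e F N 0 := W_zero
theorem W1 : W (tg (js F N)) (e F N 0) 1 = e F N 0 + e F N 1 := by
  have := W_js_succ (F := F) (N := N) (e F N 0) 0
  rw [W0, js_mulVec] at this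
  simpa using this
theorem W2 : W (tg (js F N)) (e F N 0) 2 = e F N 0 + (2 : F) • e F N 1 + e F N 2 := by
  have := W_js_succ (F := F) (N := N) (e F N 0) 1
  rw [W1, Matrix.mulVec_add, js_mulVec, js_mulVec] at this
  norm_num at this
  rw [this]
  module
theorem W3 : W (tg (js F N)) (e F N 0) 3 = e F N 0 + (3 : F) • e F N 1 + (3 : F) • e F N 2 + e F N 3 := by
  have := W_js_succ (F := F) (N := N) (e F N 0) 2
  rw [W2, Matrix.mulVec_add, Matrix.mulVec_add, Matrix.mulVec_smul, js_mulVec, js_mulVec, js_mulVec] at this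
  norm_num at this
  rw [this]
  module
theorem W4 : W (tg (js F N)) (e F N 0) 4 = e F N 0 + (4 : F) • e F N 1 + (6 : F) • e F N 2 + (4 : F) • e F N 3 +
    e F N 4 := by
  have := W_js_succ (F := F) (N := N) (e F N 0) 3
  rw [W3] at this
  simp only [Matrix.mulVec_add, Matrix.mulVec_smul, js_mulVec] at this
  norm_num at this
  rw [this]
  module
theorem W5 : W (tg (js F N)) (e F N 0) 5 = e F N 0 + (5 : F) • e F N 1 + (10 : F) • e F N 2 + (10 : F) • e F N 3 +
    (5 : F) • e F N 4 + e F N 5 := by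
  have := W_js_succ (F := F) (N := N) (e F N 0) 4
  rw [W4] at this
  simp only [Matrix.mulVec_add, Matrix.mulVec_smul, js_mulVec] at this
  norm_num at this
  rw [this]
  module

/-- functional with prescribed values -/
def fv (f : ℕ → F) : Fin N → F := fun i => f i.val

theorem fv_dot (f : ℕ → F) (k : ℕ) : (fv f : Fin N → F) ⬝ᵥ e F N k = if k < N then f k else 0 := by
  simp only [dotProduct, e, fv]
  split_ifs with h
  · rw [Finset.sum_eq_single (⟨k, h⟩ : Fin N)]
    · simp
    · intro b _ hb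
      have : b.val ≠ k := fun h2 => hb (Fin.ext h2)
      simp [this]
    · intro h; exact absurd (Finset.mem_univ _) h
  · apply Finset.sum_eq_zero
    intro b _
    have h1 : b.val ≠ k := by have := b.2; omega
    simp [h1]

theorem span_W_wv : Submodule.span F (Set.range (W (tg (js F N)) (wv F N))) = ⊤ := by
  apply cyclic_w
  · have : W (tg (js F N)) (wv F N) (-3) = e F N 0 := by
      unfold wv
      rw [W_comp]
      norm_num
      exact W0
    rw [← this]
    exact Submodule.subset_span ⟨_, rfl⟩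
  · intro x hx
    induction hx using Submodule.span_induction with
    | mem x hx =>
      obtain ⟨i, rfl⟩ := hx
      rw [← W_js_succ]
      exact Submodule.subset_span ⟨_, rfl⟩
    | zero => rw [Matrix.mulVec_zero]; exact Submodule.zero_mem _
    | add x y _ _ hx hy => rw [Matrix.mulVec_add]; exact Submodule.add_mem _ hx hy
    | smul c x _ hx => rw [Matrix.mulVec_smul]; exact Submodule.smul_mem _ _ hx

theorem cyc_phi [Finite F] (φ : Fin N → F) (hN : 1 ≤ N) (hφ : φ ⟨N - 1, by omega⟩ ≠ 0) (S : Submodule F (Fin N → F))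
    (h0 : P (tg (js F N)) φ 1 ∈ S)
    (h : ∀ x ∈ S, x ᵥ* (((tg (js F N))⁻¹ : GL (Fin N) F) : Matrix (Fin N) (Fin N) F) ∈ S) : S = ⊤ := by
  classical
  set U := tg (js F N) with hU
  have hp : ∀ k : ℕ, ∀ x ∈ S, x ᵥ* (((U⁻¹) ^ k : GL (Fin N) F) : Matrix (Fin N) (Fin N) F) ∈ S := by
    intro k
    induction k with
    | zero => intro x hx; simpa using hx
    | succ k ih =>
      intro x hx
      rw [pow_succ, Units.val_mul, ← Matrix.vecMul_vecMul]
      exact h _ (ih x hx)
  have hfin : IsOfFinOrder U⁻¹ := isOfFinOrder_of_finite _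
  have hpos := hfin.orderOf_pos
  have hU' : U = (U⁻¹) ^ (orderOf U⁻¹ - 1) := by
    have h1 : (U⁻¹) ^ (orderOf U⁻¹ - 1) * U⁻¹ = 1 := by
      rw [← pow_succ, Nat.sub_add_cancel hpos, pow_orderOf_eq_one]
    exact (eq_inv_of_mul_eq_one_left h1).symm ▸ (inv_inv U).symm
  have hmul : ∀ x ∈ S, x ᵥ* jm F N ∈ S := by
    intro x hx
    have := hp (orderOf U⁻¹ - 1) x hx
    rw [← hU', coe_js] at this
    exact this
  apply cyclic_phi S φ hN hφ _ hmul
  have h2 := hmul _ h0
  have h3 := shiftP (u := U) (φ := φ) (-1) 1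
  have h4 : P U φ 1 ᵥ* jm F N = φ := by
    rw [show jm F N = (((U ^ (-1 : ℤ))⁻¹ : GL (Fin N) F) : Matrix (Fin N) (Fin N) F) by
      rw [_root_.zpow_neg, zpow_one, inv_inv]; rfl, h3]
    norm_num
    exact P_zero
  rwa [h4] at h2


/-- the transvection `1 + w ⊗ φ` as an element of `SL` -/
theorem exists_SL {n : Type*} [Fintype n] [DecidableEq n] {w φ : n → F} (h : φ ⬝ᵥ w = 0) :
    ∃ g : Matrix.SpecialLinearGroup n F, (g : Matrix n n F) = 1 + vecMulVec w φ := by
  refine ⟨⟨1 + vecMulVec w φ, ?_⟩, rfl⟩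
  rw [Matrix.vecMulVec_eq Unit, Matrix.det_one_add_replicateCol_mul_replicateRow, h, add_zero]

/-- the general construction -/
theorem exists_gen [Finite F] (hN : 4 ≤ N) (r s : F) (hr : r ≠ 0) (hs : s ≠ 0)
    (hgen : Subring.closure {s ^ 3 * r} = ⊤) (h4 : N = 4 → s = -r) (h5 : N = 5 → r + s ≠ 0) :
    ∃ g : Matrix.SpecialLinearGroup (Fin N) F, Subgroup.closure {js F N, g * js F N * g⁻¹} = ⊤ := by
  haveI : Nontrivial (Fin N) := Fin.nontrivial_iff_two_le.mpr (by omega)
  set f : ℕ → F := fun k => if k = 0 then r else if k = 1 then -r else if k = 2 then r else if k = 3 then -r else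
    if k = 4 then r + s else if k + 1 = N then 1 else 0 with hf
  have f0 : f 0 = r := by simp [hf]
  have f1 : f 1 = -r := by simp [hf]
  have f2 : f 2 = r := by simp [hf]
  have f3 : f 3 = -r := by simp [hf]
  have f4 : f 4 = r + s := by simp [hf]
  have m3 : m (tg (js F N)) (wv F N) (fv f) (-3) = r := by
    rw [m_wv, show (3 : ℤ) + -3 = 0 by norm_num, W0, fv_dot, if_pos (by omega), f0]
  have m2 : m (tg (js F N)) (wv F N) (fv f) (-2) = 0 := by
    rw [m_wv, show (3 : ℤ) + -2 = 1 by norm_num, W1, dotProduct_add, fv_dot, fv_dot, if_pos (by omega),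
      if_pos (by omega), f0, f1]
    ring
  have m1 : m (tg (js F N)) (wv F N) (fv f) (-1) = 0 := by
    rw [m_wv, show (3 : ℤ) + -1 = 2 by norm_num, W2]
    simp only [dotProduct_add, dotProduct_smul, fv_dot]
    rw [if_pos (by omega), if_pos (by omega), if_pos (by omega), f0, f1, f2]
    simp only [smul_eq_mul]
    ring
  have m0 : m (tg (js F N)) (wv F N) (fv f) 0 = 0 := by
    rw [m_wv, show (3 : ℤ) + 0 = 3 by norm_num, W3]
    simp only [dotProduct_add, dotProduct_smul, fv_dot]
    rw [if_pos (by omega), if_pos (by omega), if_pos (by omega), if_pos (by omega), f0, f1, f2, f3]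
    simp only [smul_eq_mul]
    ring
  have ms : m (tg (js F N)) (wv F N) (fv f) 1 = s := by
    rw [m_wv, show (3 : ℤ) + 1 = 4 by norm_num, W4]
    simp only [dotProduct_add, dotProduct_smul, fv_dot]
    rw [if_pos (by omega), if_pos (by omega), if_pos (by omega), if_pos (by omega), f0, f1, f2, f3, f4]
    by_cases h : N = 4
    · rw [if_neg (by omega), h4 h]
      simp only [smul_eq_mul]
      ring
    · rw [if_pos (by omega)]
      simp only [smul_eq_mul]
      ring
  have h00 : (fv f : Fin N → F) ⬝ᵥ wv F N = 0 := by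
    have := m0
    unfold m at this
    rwa [W_zero] at this
  obtain ⟨g, hg⟩ := exists_SL h00
  refine ⟨g, pair_top (js F N) g hg m0 m1 m2 (by rw [ms]; exact hs) (by rw [m3]; exact hr) (by rw [ms, m3]; exact hgen)
    (fun S hS1 hS2 => cyc_phi (fv f) (by omega) ?_ S hS1 hS2) span_W_wv⟩
  show f (N - 1) ≠ 0
  by_cases h : N = 4
  · rw [h]; show f 3 ≠ 0; rw [f3]; exact neg_ne_zero.mpr hr
  by_cases h' : N = 5
  · rw [h']; show f 4 ≠ 0; rw [f4]; exact h5 h'
  have : f (N - 1) = 1 := by
    simp only [hf]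
    rw [if_neg (by omega), if_neg (by omega), if_neg (by omega), if_neg (by omega), if_neg (by omega),
      if_pos (by omega)]
  rw [this]; exact one_ne_zero

/-- dimension 4, nine elements -/
theorem exists_gen_nine [Finite F] (i : F) (hi : i ^ 2 = -1) (h3 : (3 : F) = 0)
    (hgen : AddSubgroup.closure {(1 : F), i} = ⊤) :
    ∃ g : Matrix.SpecialLinearGroup (Fin 4) F, Subgroup.closure {js F 4, g * js F 4 * g⁻¹} = ⊤ := by
  have hi0 : i ≠ 0 := by
    rintro rfl
    rw [zero_pow two_ne_zero] at hi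
    have : (1 : F) = 0 := by linear_combination hi
    exact one_ne_zero this
  set f : ℕ → F := fun k => if k = 0 then -i else if k = 1 then i else if k = 2 then -i else i with hf
  have f0 : f 0 = -i := by simp [hf]
  have f1 : f 1 = i := by simp [hf]
  have f2 : f 2 = -i := by simp [hf]
  have f3 : f 3 = i := by simp [hf]
  have l0 : (0 : ℕ) < 4 := by norm_num
  have l1 : (1 : ℕ) < 4 := by norm_num
  have l2 : (2 : ℕ) < 4 := by norm_num
  have l3 : (3 : ℕ) < 4 := by norm_num
  have l4 : ¬ (4 : ℕ) < 4 := by norm_num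
  have l5 : ¬ (5 : ℕ) < 4 := by norm_num
  have m3 : m (tg (js F 4)) (wv F 4) (fv f) (-3) = -i := by
    rw [m_wv, show (3 : ℤ) + -3 = 0 by norm_num, W0, fv_dot, if_pos (by omega), f0]
  have m2 : m (tg (js F 4)) (wv F 4) (fv f) (-2) = 0 := by
    rw [m_wv, show (3 : ℤ) + -2 = 1 by norm_num, W1, dotProduct_add, fv_dot, fv_dot, if_pos (by omega),
      if_pos (by omega), f0, f1]
    ring
  have m1 : m (tg (js F 4)) (wv F 4) (fv f) (-1) = 0 := by
    rw [m_wv, show (3 : ℤ) + -1 = 2 by norm_num, W2]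
    simp only [dotProduct_add, dotProduct_smul, fv_dot, l0, l1, l2, if_true, f0, f1, f2, smul_eq_mul]
    ring
  have m0 : m (tg (js F 4)) (wv F 4) (fv f) 0 = 0 := by
    rw [m_wv, show (3 : ℤ) + 0 = 3 by norm_num, W3]
    simp only [dotProduct_add, dotProduct_smul, fv_dot, l0, l1, l2, l3, if_true, f0, f1, f2, f3, smul_eq_mul]
    ring
  have ms : m (tg (js F 4)) (wv F 4) (fv f) 1 = i := by
    rw [m_wv, show (3 : ℤ) + 1 = 4 by norm_num, W4]
    simp only [dotProduct_add, dotProduct_smul, fv_dot, l0, l1, l2, l3, l4, if_true, if_false, f0, f1, f2, f3,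
      smul_eq_mul]
    ring
  have mt : m (tg (js F 4)) (wv F 4) (fv f) 2 = i := by
    rw [m_wv, show (3 : ℤ) + 2 = 5 by norm_num, W5]
    simp only [dotProduct_add, dotProduct_smul, fv_dot, l0, l1, l2, l3, l4, l5, if_true, if_false, f0, f1, f2, f3,
      smul_eq_mul]
    linear_combination i * h3
  have m4 : m (tg (js F 4)) (wv F 4) (fv f) (-4) = -i := by
    -- W (-1)
    have hinv : W (tg (js F 4)) (e F 4 0) (-1) = e F 4 0 - e F 4 1 + e F 4 2 - e F 4 3 := by
      have h6 := W_js_succ (F := F) (N := 4) (e F 4 0) (-1)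
      rw [show (-1 : ℤ) + 1 = 0 by norm_num, W0] at h6
      have h7 : jm F 4 *ᵥ (e F 4 0 - e F 4 1 + e F 4 2 - e F 4 3) = e F 4 0 := by
        simp only [Matrix.mulVec_sub, Matrix.mulVec_add, js_mulVec]
        rw [show e F 4 (3 + 1) = 0 from e_eq_zero (by norm_num)]
        norm_num
        abel
      have h8 : jm F 4 *ᵥ W (tg (js F 4)) (e F 4 0) (-1) = jm F 4 *ᵥ (e F 4 0 - e F 4 1 + e F 4 2 - e F 4 3) := by
        rw [← h6, h7]
      have h9 := congrArg (fun z => (((tg (js F 4))⁻¹ : GL (Fin 4) F) : Matrix (Fin 4) (Fin 4) F) *ᵥ z) h8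
      simp only [Matrix.mulVec_mulVec, ← coe_js, coe_inv_mul, Matrix.one_mulVec] at h9
      exact h9
    rw [m_wv, show (3 : ℤ) + -4 = -1 by norm_num, hinv]
    simp only [dotProduct_add, dotProduct_sub, fv_dot, l0, l1, l2, l3, if_true, f0, f1, f2, f3]
    linear_combination (-i) * h3
  have h00 : (fv f : Fin 4 → F) ⬝ᵥ wv F 4 = 0 := by
    have := m0
    unfold m at this
    rwa [W_zero] at this
  obtain ⟨g, hg⟩ := exists_SL h00
  refine ⟨g, pair_top_nine (js F 4) g hg m0 m1 m2 i hi ms m3 m4 mt hgen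
    (fun S hS1 hS2 => cyc_phi (fv f) (by omega) ?_ S hS1 hS2) span_W_wv⟩
  show f 3 ≠ 0
  rw [f3]; exact hi0

/-- dimension 5, two elements -/
theorem exists_gen_two [Finite F] (hF : ∀ c : F, c = 0 ∨ c = 1) :
    ∃ g : Matrix.SpecialLinearGroup (Fin 5) F, Subgroup.closure {js F 5, g * js F 5 * g⁻¹} = ⊤ := by
  have h2 : (2 : F) = 0 := by
    rcases hF (-1) with h | h
    · have : (1 : F) = 0 := by linear_combination -h
      exact absurd this one_ne_zero
    · linear_combination -h
  set f : ℕ → F := fun k => 1 with hf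
  have f0 : ∀ k, f k = 1 := fun k => rfl
  have l0 : (0 : ℕ) < 5 := by norm_num
  have l1 : (1 : ℕ) < 5 := by norm_num
  have l2 : (2 : ℕ) < 5 := by norm_num
  have l3 : (3 : ℕ) < 5 := by norm_num
  have l4 : (4 : ℕ) < 5 := by norm_num
  have l5 : ¬ (5 : ℕ) < 5 := by norm_num
  have m3 : m (tg (js F 5)) (wv F 5) (fv f) (-3) = 1 := by
    rw [m_wv, show (3 : ℤ) + -3 = 0 by norm_num, W0, fv_dot, if_pos (by omega), f0 0]
  have m2 : m (tg (js F 5)) (wv F 5) (fv f) (-2) = 0 := by
    rw [m_wv, show (3 : ℤ) + -2 = 1 by norm_num, W1, dotProduct_add, fv_dot, fv_dot, if_pos (by omega),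
      if_pos (by omega), f0 0]
    linear_combination h2
  have m1 : m (tg (js F 5)) (wv F 5) (fv f) (-1) = 0 := by
    rw [m_wv, show (3 : ℤ) + -1 = 2 by norm_num, W2]
    simp only [dotProduct_add, dotProduct_smul, fv_dot, l0, l1, l2, if_true, f0, smul_eq_mul]
    linear_combination 2 * h2
  have m0 : m (tg (js F 5)) (wv F 5) (fv f) 0 = 0 := by
    rw [m_wv, show (3 : ℤ) + 0 = 3 by norm_num, W3]
    simp only [dotProduct_add, dotProduct_smul, fv_dot, l0, l1, l2, l3, if_true, f0, smul_eq_mul]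
    linear_combination 4 * h2
  have ms : m (tg (js F 5)) (wv F 5) (fv f) 1 = 0 := by
    rw [m_wv, show (3 : ℤ) + 1 = 4 by norm_num, W4]
    simp only [dotProduct_add, dotProduct_smul, fv_dot, l0, l1, l2, l3, l4, if_true, if_false, f0, smul_eq_mul]
    linear_combination 8 * h2
  have mt : m (tg (js F 5)) (wv F 5) (fv f) 2 = 1 := by
    rw [m_wv, show (3 : ℤ) + 2 = 5 by norm_num, W5]
    simp only [dotProduct_add, dotProduct_smul, fv_dot, l0, l1, l2, l3, l4, l5, if_true, if_false, f0, smul_eq_mul]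
    linear_combination 15 * h2
  have h00 : (fv f : Fin 5 → F) ⬝ᵥ wv F 5 = 0 := by
    have := m0
    unfold m at this
    rwa [W_zero] at this
  obtain ⟨g, hg⟩ := exists_SL h00
  refine ⟨g, pair_top_two (js F 5) g hg m0 m1 m2 ms mt m3 hF
    (fun S hS1 hS2 => cyc_phi (fv f) (by omega) ?_ S hS1 hS2) span_W_wv⟩
  show f 4 ≠ 0
  rw [f0 4]; exact one_ne_zero

end main

section fieldpart

variable [Finite F]

theorem exists_prim (F : Type*) [Field F] [Finite F] : ∃ ζ : Fˣ, ∀ x : Fˣ, ∃ k : ℕ, ζ ^ k = x := by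
  obtain ⟨ζ, hζ⟩ := IsCyclic.exists_generator (α := Fˣ)
  refine ⟨ζ, fun x => ?_⟩
  have := hζ x
  rw [← mem_powers_iff_mem_zpowers] at this
  exact this

theorem closure_prim {ζ : Fˣ} (h : ∀ x : Fˣ, ∃ k : ℕ, ζ ^ k = x) : Subring.closure {(ζ : F)} = ⊤ := by
  rw [eq_top_iff]
  intro x _
  by_cases hx : x = 0
  · rw [hx]; exact Subring.zero_mem _
  · obtain ⟨k, hk⟩ := h (Units.mk0 x hx)
    have : x = (ζ : F) ^ k := by
      rw [← Units.val_pow_eq_pow_val, hk, Units.val_mk0]
    rw [this]
    exact Subring.pow_mem _ (Subring.subset_closure (Set.mem_singleton _)) k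

/-- a subring of a finite field as a subfield -/
def toSubfield (R : Subring F) : Subfield F :=
  { R with
    inv_mem' := by
      intro x hx
      classical
      haveI := Fintype.ofFinite F
      by_cases h : x = 0
      · rw [h, _root_.inv_zero]; exact R.zero_mem
      · have h1 : x ^ (Fintype.card F - 1) = 1 := FiniteField.pow_card_sub_one_eq_one x h
        have hc : 2 ≤ Fintype.card F := Fintype.one_lt_card
        have h2 : x * x ^ (Fintype.card F - 2) = 1 := by
          rw [← pow_succ', show Fintype.card F - 2 + 1 = Fintype.card F - 1 by omega, h1]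
        have h3 : x⁻¹ = x ^ (Fintype.card F - 2) := (eq_inv_of_mul_eq_one_right h2).symm
        show x⁻¹ ∈ R
        rw [h3]
        exact R.pow_mem hx _ }

theorem closure_pow_four {ζ : Fˣ} (h : ∀ x : Fˣ, ∃ k : ℕ, ζ ^ k = x) (h9 : Nat.card F ≠ 9) (R : Subring F)
    (hR : (ζ : F) ^ 4 ∈ R) : R = ⊤ := by
  classical
  haveI := Fintype.ofFinite F
  set K := toSubfield R with hK
  have hKR : ∀ x, x ∈ K ↔ x ∈ R := fun x => Iff.rfl
  have hord : orderOf ζ = Fintype.card F - 1 := by
    rw [← Fintype.card_units, ← Nat.card_eq_fintype_card]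
    apply orderOf_eq_card_of_forall_mem_zpowers
    intro x
    obtain ⟨k, hk⟩ := h x
    exact ⟨k, by simpa using hk⟩
  have hcard := Module.card_eq_pow_finrank (K := K) (V := F)
  set q0 := Fintype.card K with hq0
  set d := Module.finrank K F with hd
  have hq0' : 2 ≤ q0 := Fintype.one_lt_card
  have h1 : ((⟨(ζ : F) ^ 4, hR⟩ : K) : K) ^ (q0 - 1) = 1 := by
    apply FiniteField.pow_card_sub_one_eq_one
    intro h2
    have h3 : (ζ : F) ^ 4 = 0 := congrArg Subtype.val h2
    exact pow_ne_zero 4 ζ.ne_zero h3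
  have h2 : ζ ^ (4 * (q0 - 1)) = 1 := by
    apply Units.ext
    rw [Units.val_pow_eq_pow_val, pow_mul, Units.val_one]
    exact congrArg Subtype.val h1
  have h3 : Fintype.card F - 1 ∣ 4 * (q0 - 1) := by rw [← hord]; exact orderOf_dvd_of_pow_eq_one h2
  have hd1 : d = 1 := by
    by_contra hne
    have hd0 : 0 < d := Module.finrank_pos
    have hd2 : 2 ≤ d := by omega
    have h4 : q0 ^ 2 ≤ Fintype.card F := by rw [hcard]; exact Nat.pow_le_pow_right (by omega) hd2
    have h5 := Nat.le_of_dvd (by omega) h3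
    have h6 : q0 ≤ 3 := by
      by_contra h7
      have h8 : 4 ≤ q0 := by omega
      have h9 : 4 * q0 ≤ q0 ^ 2 := by nlinarith
      omega
    interval_cases q0
    · -- 2
      have h7 : Fintype.card F - 1 ∣ 4 := by simpa using h3
      have h8 : 2 ∣ Fintype.card F := by rw [hcard]; exact dvd_pow_self 2 (by omega)
      have h10 := Nat.le_of_dvd (by norm_num) h7
      have h11 : Fintype.card F ≤ 5 := by omega
      have h12 : 4 ≤ Fintype.card F := by omega
      interval_cases hc : Fintype.card F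
      · revert h7; decide
      · revert h8; decide
    · -- 3
      have h7 : Fintype.card F - 1 ∣ 8 := by simpa using h3
      have h10 := Nat.le_of_dvd (by norm_num) h7
      apply h9
      rw [Nat.card_eq_fintype_card]
      omega
  rw [hd1, pow_one] at hcard
  -- K = ⊤
  have hsurj : Function.Bijective (Subtype.val : K → F) := by
    rw [Fintype.bijective_iff_injective_and_card]
    exact ⟨Subtype.val_injective, hcard.symm⟩
  rw [eq_top_iff]
  intro x _
  obtain ⟨y, rfl⟩ := hsurj.2 x
  exact y.2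

/-- the field with nine elements -/
theorem nine (h9 : Nat.card F = 9) : ∃ i : F, i ^ 2 = -1 ∧ (3 : F) = 0 ∧ AddSubgroup.closure {(1 : F), i} = ⊤ := by
  classical
  haveI := Fintype.ofFinite F
  rw [Nat.card_eq_fintype_card] at h9
  have h3 : (3 : F) = 0 := by
    have h1 : ((Fintype.card F : ℕ) : F) = 0 := Nat.cast_card_eq_zero F
    rw [h9] at h1
    have h2 : (3 : F) ^ 2 = 0 := by
      push_cast at h1
      linear_combination h1
    exact pow_eq_zero_iff two_ne_zero |>.mp h2
  have h1 : (1 : F) ≠ -1 := by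
    intro h
    have h2 : (2 : F) = 0 := by linear_combination h
    have : (1 : F) = 0 := by linear_combination h3 - h2
    exact one_ne_zero this
  obtain ⟨ζ, hζ⟩ := exists_prim F
  have hord : orderOf ζ = 8 := by
    have : orderOf ζ = Fintype.card F - 1 := by
      rw [← Fintype.card_units, ← Nat.card_eq_fintype_card]
      apply orderOf_eq_card_of_forall_mem_zpowers
      intro x
      obtain ⟨k, hk⟩ := hζ x
      exact ⟨k, by simpa using hk⟩
    rw [this, h9]
  have h8 : (ζ : F) ^ 8 = 1 := by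
    rw [← Units.val_pow_eq_pow_val, ← hord, pow_orderOf_eq_one, Units.val_one]
  have h4 : (ζ : F) ^ 4 ≠ 1 := by
    intro h
    have h5 : ζ ^ 4 = 1 := Units.ext (by rw [Units.val_pow_eq_pow_val, h, Units.val_one])
    have := orderOf_dvd_of_pow_eq_one h5
    rw [hord] at this
    revert this; decide
  have h4' : (ζ : F) ^ 4 = -1 := by
    have h5 : ((ζ : F) ^ 4 - 1) * ((ζ : F) ^ 4 + 1) = 0 := by linear_combination h8
    rcases mul_eq_zero.mp h5 with h6 | h6
    · exact absurd (by linear_combination h6) h4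
    · linear_combination h6
  set i : F := (ζ : F) ^ 2 with hi
  have hi2 : i ^ 2 = -1 := by rw [hi, ← pow_mul, h4']
  refine ⟨i, hi2, h3, ?_⟩
  set A := AddSubgroup.closure {(1 : F), i} with hA
  have a1 : (1 : F) ∈ A := AddSubgroup.subset_closure (by simp)
  have ai : i ∈ A := AddSubgroup.subset_closure (by simp)
  have am : (-1 : F) ∈ A := A.neg_mem a1
  have a0 : (0 : F) ∈ A := A.zero_mem
  have hcard : Nat.card A ∣ 9 := by
    have := AddSubgroup.card_addSubgroup_dvd_card A
    rwa [Nat.card_eq_fintype_card (α := F), h9] at this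
  have hi1 : i ≠ 1 := by
    intro h
    rw [h, one_pow] at hi2
    exact h1 hi2
  have him : i ≠ -1 := by
    intro h
    rw [h, neg_one_sq] at hi2
    exact h1 hi2
  have hi0 : i ≠ 0 := pow_ne_zero 2 ζ.ne_zero
  have h5 : 4 ≤ Nat.card A := by
    have hinj : Function.Injective (![⟨0, a0⟩, ⟨1, a1⟩, ⟨-1, am⟩, ⟨i, ai⟩] : Fin 4 → A) := by
      intro a b hab
      have hab' := congrArg Subtype.val hab
      fin_cases a <;> fin_cases b <;>
        simp [hi1, him, hi0, hi1.symm, him.symm, hi0.symm, h1, h1.symm] at hab' ⊢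
    have := Nat.card_le_card_of_injective _ hinj
    simpa using this
  have h6 : Nat.card A = 9 := by
    have h7 := Nat.le_of_dvd (by norm_num) hcard
    interval_cases hc : Nat.card A <;> first | rfl | (exfalso; revert hcard; decide)
  apply AddSubgroup.eq_top_of_card_eq
  rw [h6, Nat.card_eq_fintype_card, h9]

/-- **Main theorem**: for `N ≥ 4`, `SL N F` is generated by a regular unipotent and a conjugate. -/
theorem exists_conj_gen {N : ℕ} (hN : 4 ≤ N) :
    ∃ g : Matrix.SpecialLinearGroup (Fin N) F, Subgroup.closure {js F N, g * js F N * g⁻¹} = ⊤ := by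
  classical
  obtain ⟨ζ, hζ⟩ := exists_prim F
  have hgen := closure_prim hζ
  by_cases h4 : N = 4
  · subst h4
    by_cases h9 : Nat.card F = 9
    · obtain ⟨i, h1, h2, h3⟩ := nine h9
      exact exists_gen_nine i h1 h2 h3
    · apply exists_gen (le_refl 4) (-(ζ : F)) (ζ : F) (neg_ne_zero.mpr ζ.ne_zero) ζ.ne_zero
      · apply closure_pow_four hζ h9
        have h1 : (ζ : F) ^ 3 * -(ζ : F) ∈ Subring.closure {(ζ : F) ^ 3 * -(ζ : F)} :=
          Subring.subset_closure (Set.mem_singleton _)
        have h2 := Subring.neg_mem _ h1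
        convert h2 using 1
        ring
      · intro _
        rw [neg_neg]
      · intro h; omega
  by_cases h5 : N = 5
  · subst h5
    by_cases hm : (ζ : F) = -1
    · have h1 : Subring.closure {(1 : F) ^ 3 * 1} = ⊤ := by
        rw [eq_top_iff, ← hgen, Subring.closure_le, Set.singleton_subset_iff, hm]
        exact Subring.neg_mem _ (Subring.one_mem _)
      by_cases h2 : (1 : F) + 1 = 0
      · apply exists_gen_two
        intro c
        by_cases hc : c = 0
        · left; exact hc
        · right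
          obtain ⟨k, hk⟩ := hζ (Units.mk0 c hc)
          have h3 : (ζ : F) = 1 := by rw [hm]; linear_combination -h2
          have h4 : ζ = 1 := Units.ext h3
          rw [h4, one_pow] at hk
          have := congrArg Units.val hk
          simpa using this.symm
      · exact exists_gen (by norm_num) 1 1 one_ne_zero one_ne_zero h1 (fun h => by omega) (fun _ => h2)
    · exact exists_gen (by norm_num) (ζ : F) 1 ζ.ne_zero one_ne_zero (by rw [one_pow, one_mul]; exact hgen)
        (fun h => by omega) (fun _ h => hm (by linear_combination h))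
  · exact exists_gen hN (ζ : F) 1 ζ.ne_zero one_ne_zero (by rw [one_pow, one_mul]; exact hgen)
      (fun h => absurd h h4) (fun h => absurd h h5)

end fieldpart

section regular

/-- regular unipotent -/
def Reg {N : ℕ} (u : Matrix.SpecialLinearGroup (Fin N) F) : Prop :=
  IsNilpotent ((u : Matrix (Fin N) (Fin N) F) - 1) ∧ ((u : Matrix (Fin N) (Fin N) F) - 1) ^ (N - 1) ≠ 0

theorem reg_js {N : ℕ} (hN : 1 ≤ N) : Reg (js F N) := ⟨isNilpotent_jm, jm_pow_ne hN⟩

theorem conj_sub_one_pow {N : ℕ} (u g : Matrix.SpecialLinearGroup (Fin N) F) (k : ℕ) :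
    (((g * u * g⁻¹ : Matrix.SpecialLinearGroup (Fin N) F) : Matrix (Fin N) (Fin N) F) - 1) ^ k =
      (g : Matrix (Fin N) (Fin N) F) * ((u : Matrix (Fin N) (Fin N) F) - 1) ^ k *
        ((g⁻¹ : Matrix.SpecialLinearGroup (Fin N) F) : Matrix (Fin N) (Fin N) F) := by
  have e1 : (g : Matrix (Fin N) (Fin N) F) * ((g⁻¹ : Matrix.SpecialLinearGroup (Fin N) F) : Matrix (Fin N) (Fin N) F) = 1 := by
    rw [← Matrix.SpecialLinearGroup.coe_mul, mul_inv_cancel, Matrix.SpecialLinearGroup.coe_one]
  have e2 : ((g⁻¹ : Matrix.SpecialLinearGroup (Fin N) F) : Matrix (Fin N) (Fin N) F) * (g : Matrix (Fin N) (Fin N) F) = 1 := by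
    rw [← Matrix.SpecialLinearGroup.coe_mul, inv_mul_cancel, Matrix.SpecialLinearGroup.coe_one]
  have e3 : (((g * u * g⁻¹ : Matrix.SpecialLinearGroup (Fin N) F) : Matrix (Fin N) (Fin N) F) - 1) =
      (g : Matrix (Fin N) (Fin N) F) * ((u : Matrix (Fin N) (Fin N) F) - 1) *
        ((g⁻¹ : Matrix.SpecialLinearGroup (Fin N) F) : Matrix (Fin N) (Fin N) F) := by
    rw [mul_sub, sub_mul, mul_one, e1, Matrix.SpecialLinearGroup.coe_mul, Matrix.SpecialLinearGroup.coe_mul]
  rw [e3]
  induction k with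
  | zero => rw [pow_zero, pow_zero, mul_one, e1]
  | succ k ih =>
    rw [pow_succ, ih, pow_succ]
    calc _ = (g : Matrix (Fin N) (Fin N) F) * ((u : Matrix (Fin N) (Fin N) F) - 1) ^ k *
        (((g⁻¹ : Matrix.SpecialLinearGroup (Fin N) F) : Matrix (Fin N) (Fin N) F) * (g : Matrix (Fin N) (Fin N) F)) *
        ((u : Matrix (Fin N) (Fin N) F) - 1) *
        ((g⁻¹ : Matrix.SpecialLinearGroup (Fin N) F) : Matrix (Fin N) (Fin N) F) := by simp only [mul_assoc]
      _ = _ := by rw [e2, mul_one]; simp only [mul_assoc]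

theorem Reg.conj {N : ℕ} {u : Matrix.SpecialLinearGroup (Fin N) F} (h : Reg u)
    (g : Matrix.SpecialLinearGroup (Fin N) F) : Reg (g * u * g⁻¹) := by
  obtain ⟨⟨k, hk⟩, h2⟩ := h
  refine ⟨⟨k, by rw [conj_sub_one_pow, hk, mul_zero, zero_mul]⟩, ?_⟩
  intro h3
  apply h2
  have h4 := conj_sub_one_pow (g * u * g⁻¹) g⁻¹ (N - 1)
  rw [h3, mul_zero, zero_mul] at h4
  have e : g⁻¹ * (g * u * g⁻¹) * g⁻¹⁻¹ = u := by group
  rw [e] at h4
  exact h4

end regular

end Cfsg.Agent.Lib.RootCalcSL
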