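import Cfsg.Agent.Lib.RudA
import Cfsg.Agent.Lib.H70Frattini

/-!
# Sylow 2-subgroups of Rudvalis type, II: counting (helper80)
-/

set_option autoImplicit false

open Subgroup
open scoped commutatorElement

namespace Cfsg.Agent.Lib.RudB

open Cfsg.Agent.Lib.RudA

variable {T : Type*} [Group T]

/-- coordinates of an element of `W` -/
noncomputable def Phi (W : Subgroup T) [W.Normal] (lam : W →* Multiplicative (ZMod 2)) :
    W →* (T ⧸ W → Multiplicative (ZMod 2)) where
  toFun w q := lam (MulAut.conjNormal q.out⁻¹ w)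
  map_one' := by ext q; simp
  map_mul' := by intro v w; ext q; simp

theorem Phi_mk (W : Subgroup T) [W.Normal] (lam : W →* Multiplicative (ZMod 2)) (w : W) (g : T) :
    Phi W lam w (g : T ⧸ W) = lam (MulAut.conjNormal g⁻¹ w) := by
  obtain ⟨h, hh⟩ := QuotientGroup.mk_out_eq_mul W g
  show lam (MulAut.conjNormal ((g : T ⧸ W).out)⁻¹ w) = _
  have h1 : MulAut.conjNormal ((g : T ⧸ W).out)⁻¹ w = h⁻¹ * MulAut.conjNormal g⁻¹ w * h := by
    apply Subtype.ext
    simp only [MulAut.conjNormal_apply, hh, Subgroup.coe_mul, Subgroup.coe_inv]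
    group
  rw [h1, map_mul, map_mul, map_inv, mul_comm, mul_inv_cancel_left]

theorem Phi_conj (W : Subgroup T) [W.Normal] (lam : W →* Multiplicative (ZMod 2)) (w : W) (g : T) (q : T ⧸ W) :
    Phi W lam (MulAut.conjNormal g w) q = Phi W lam w ((g : T ⧸ W)⁻¹ * q) := by
  obtain ⟨h, rfl⟩ := QuotientGroup.mk_surjective q
  rw [← QuotientGroup.mk_inv, ← QuotientGroup.mk_mul, Phi_mk, Phi_mk]
  congr 1
  apply Subtype.ext
  simp only [MulAut.conjNormal_apply]
  group

theorem Phi_ker [Finite T] (hT : IsPGroup 2 T) (W : Subgroup T) [hW : W.Normal]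
    (lam : W →* Multiplicative (ZMod 2)) {F : Subgroup T} (hF : F.Normal)
    (hcore : ∀ w : W, (w : T) ∉ F → (∀ g : T, g * w * g⁻¹ * (w : T)⁻¹ ∈ F) → lam w ≠ 1)
    {w : W} (hw : Phi W lam w = 1) : (w : T) ∈ F := by
  have hK : ((Phi W lam).ker.map W.subtype).Normal := by
    constructor
    rintro _ ⟨v, hv, rfl⟩ g
    refine ⟨MulAut.conjNormal g v, ?_, by simp⟩
    have hv' : Phi W lam v = 1 := hv
    show Phi W lam (MulAut.conjNormal g v) = 1
    ext q
    rw [Phi_conj, hv']
    rfl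
  by_contra hwF
  obtain ⟨v, hvK, hvF, hv⟩ := exists_central_mod hT hF hK (fun h => hwF (h ⟨w, hw, rfl⟩))
  obtain ⟨u, hu, rfl⟩ := hvK
  apply hcore u hvF (fun g => (hv g).2)
  have hu' : Phi W lam u = 1 := hu
  have := congrFun hu' ((1 : T) : T ⧸ W)
  rw [Phi_mk] at this
  simpa using this

theorem card_le [Finite T] (hT : IsPGroup 2 T) (W : Subgroup T) [hW : W.Normal]
    (lam : W →* Multiplicative (ZMod 2)) {F : Subgroup T} (hF : F.Normal)
    (hcore : ∀ w : W, (w : T) ∉ F → (∀ g : T, g * w * g⁻¹ * (w : T)⁻¹ ∈ F) → lam w ≠ 1) :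
    Nat.card W ≤ Nat.card F * 2 ^ W.index ∧
      (Nat.card W = Nat.card F * 2 ^ W.index → Function.Surjective (Phi W lam)) := by
  have hker : Nat.card (Phi W lam).ker ≤ Nat.card F := by
    refine Nat.card_le_card_of_injective (fun w : (Phi W lam).ker => (⟨(w : W), Phi_ker hT W lam hF hcore w.2⟩ : F)) ?_
    intro a b hab
    have h1 : ((a : W) : T) = ((b : W) : T) := congrArg (fun x : F => (x : T)) hab
    exact Subtype.ext (Subtype.ext h1)
  have hcod : Nat.card (T ⧸ W → Multiplicative (ZMod 2)) = 2 ^ W.index := by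
    rw [Nat.card_fun]
    have : Nat.card (Multiplicative (ZMod 2)) = 2 := by
      rw [Nat.card_congr Multiplicative.toAdd, Nat.card_zmod]
    rw [this, index_eq_card]
  have hfin : Finite (T ⧸ W → Multiplicative (ZMod 2)) := by
    apply Nat.finite_of_card_ne_zero
    rw [hcod]
    positivity
  have hrange : Nat.card (Phi W lam).range ≤ 2 ^ W.index := by
    rw [← hcod]
    exact Nat.card_le_card_of_injective _ Subtype.val_injective
  have hmul : Nat.card (Phi W lam).ker * Nat.card (Phi W lam).range = Nat.card W := by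
    rw [← index_ker, card_mul_index]
  constructor
  · rw [← hmul]; exact Nat.mul_le_mul hker hrange
  · intro heq
    have h1 : Nat.card (Phi W lam).range = 2 ^ W.index := by
      apply le_antisymm hrange
      by_contra hlt
      push Not at hlt
      have h2 : Nat.card W < Nat.card F * 2 ^ W.index := by
        rw [← hmul]
        calc _ ≤ Nat.card F * Nat.card (Phi W lam).range := Nat.mul_le_mul_right _ hker
          _ < _ := Nat.mul_lt_mul_of_pos_left hlt Nat.card_pos
      omega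
    rw [← MonoidHom.range_eq_top]
    apply Subgroup.eq_top_of_card_eq
    rw [h1, hcod]

theorem exists_lam {W : Type*} [Group W] {M : Subgroup W} (hM : M.index = 2) :
    ∃ lam : W →* Multiplicative (ZMod 2), lam.ker = M := by
  have hn : M.Normal := normal_of_index_eq_two hM
  have h1 : Nat.card (W ⧸ M) = 2 := by rw [← index_eq_card, hM]
  have h2 : Nat.card (Multiplicative (ZMod 2)) = 2 := by
    rw [Nat.card_congr Multiplicative.toAdd, Nat.card_zmod]
  let e : W ⧸ M ≃* Multiplicative (ZMod 2) := mulEquivOfPrimeCardEq (p := 2) h1 h2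
  refine ⟨e.toMonoidHom.comp (QuotientGroup.mk' M), ?_⟩
  ext w
  rw [MonoidHom.mem_ker, MonoidHom.comp_apply]
  show e (w : W ⧸ M) = 1 ↔ _
  rw [map_eq_one_iff _ e.injective, QuotientGroup.eq_one_iff]

/-- the hypotheses -/
structure Hyp (T : Type*) [Group T] [Finite T] (W : Subgroup T) : Prop where
  hT : IsPGroup 2 T
  ha : 2 ^ 14 ≤ Nat.card T
  hb : Nat.card ↥(Subgroup.upperCentralSeries T 4) = 16
  hW : W = Subgroup.centralizer ((Subgroup.upperCentralSeries T 3 : Subgroup T) : Set T)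
  hc : Nat.card ↥(frattini ↥W) ≤ 8
  hd : ∀ U : Subgroup ↥W, U.index ≤ 16 → frattini ↥W ≤ U

theorem mul_mem_of_card {A B : Subgroup T} [Finite T] (hAB : A ≤ B) (hc : Nat.card B = 2 * Nat.card A) {x y : T} (hx : x ∈ B)
    (hy : y ∈ B) (hxA : x ∉ A) (hyA : y ∉ A) : x * y ∈ A := by
  have h1 : (A.subgroupOf B).index = 2 := by
    have h2 := (A.subgroupOf B).card_mul_index
    rw [Nat.card_congr (Subgroup.subgroupOfEquivOfLe hAB).toEquiv, hc, mul_comm] at h2
    exact Nat.eq_of_mul_eq_mul_right Nat.card_pos h2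
  have h3 := (mul_mem_iff_of_index_two h1 (a := ⟨x, hx⟩) (b := ⟨y, hy⟩)).2
    (by
      rw [mem_subgroupOf, mem_subgroupOf]
      exact ⟨fun h => absurd h hxA, fun h => absurd h hyA⟩)
  exact h3

variable [Finite T] {W : Subgroup T}

namespace Hyp

theorem cZ (h : Hyp T W) : ∀ i ≤ 4, Nat.card ↥(Subgroup.upperCentralSeries T i) = 2 ^ i :=
  card_ucs h.hT (by rw [h.hb]; norm_num) (by have := h.ha; norm_num at this ⊢; omega)

theorem normal (h : Hyp T W) : W.Normal := by
  rw [h.hW]; infer_instance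

theorem zmul (h : Hyp T W) {i : ℕ} (hi : i < 4) {x y : T} (hx : x ∈ Subgroup.upperCentralSeries T (i + 1))
    (hy : y ∈ Subgroup.upperCentralSeries T (i + 1)) (hx' : x ∉ Subgroup.upperCentralSeries T i)
    (hy' : y ∉ Subgroup.upperCentralSeries T i) : x * y ∈ Subgroup.upperCentralSeries T i :=
  mul_mem_of_card (Subgroup.upperCentralSeries_mono T (Nat.le_succ i))
    (by rw [h.cZ i hi.le, h.cZ (i + 1) hi, pow_succ, mul_comm]) hx hy hx' hy'

theorem exz (h : Hyp T W) {i : ℕ} (hi : i < 4) :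
    ∃ z ∈ Subgroup.upperCentralSeries T (i + 1), z ∉ Subgroup.upperCentralSeries T i := by
  by_contra hcon
  push Not at hcon
  have h1 : Subgroup.upperCentralSeries T (i + 1) = Subgroup.upperCentralSeries T i :=
    le_antisymm hcon (Subgroup.upperCentralSeries_mono T (Nat.le_succ i))
  have h2 := h.cZ (i + 1) hi
  rw [h1, h.cZ i hi.le, pow_succ] at h2
  have : 0 < 2 ^ i := by positivity
  omega

/-- membership in `W` -/
theorem mem_W (h : Hyp T W) {z2 z3 : T} (h2 : z2 ∈ Subgroup.upperCentralSeries T 2) (h2' : z2 ∉ Subgroup.upperCentralSeries T 1)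
    (h3 : z3 ∈ Subgroup.upperCentralSeries T 3) (h3' : z3 ∉ Subgroup.upperCentralSeries T 2) {g : T} :
    g ∈ W ↔ g * z2 = z2 * g ∧ g * z3 = z3 * g := by
  constructor
  · intro hg
    rw [h.hW, mem_centralizer_iff] at hg
    exact ⟨(hg z2 (Subgroup.upperCentralSeries_mono T (by norm_num : 2 ≤ 3) h2)).symm, (hg z3 h3).symm⟩
  · rintro ⟨hg2, hg3⟩
    rw [h.hW, mem_centralizer_iff]
    have hc1 : ∀ x ∈ Subgroup.upperCentralSeries T 1, x * g = g * x := by
      intro x hx
      rw [Subgroup.upperCentralSeries_one] at hx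
      exact ((mem_center_iff.1 hx) g).symm
    have hc2 : ∀ x ∈ Subgroup.upperCentralSeries T 2, x * g = g * x := by
      intro x hx
      by_cases hx1 : x ∈ Subgroup.upperCentralSeries T 1
      · exact hc1 x hx1
      · have h5 := h.zmul (i := 1) (by norm_num) (inv_mem h2) hx (by rwa [inv_mem_iff]) hx1
        have h6 : x = z2 * (z2⁻¹ * x) := by group
        rw [h6, mul_assoc, hc1 _ h5, ← mul_assoc, ← hg2, mul_assoc]
    intro x hx
    by_cases hx1 : x ∈ Subgroup.upperCentralSeries T 2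
    · exact hc2 x hx1
    · have h5 := h.zmul (i := 2) (by norm_num) (inv_mem h3) hx (by rwa [inv_mem_iff]) hx1
      have h6 : x = z3 * (z3⁻¹ * x) := by group
      rw [h6, mul_assoc, hc2 _ h5, ← mul_assoc, ← hg3, mul_assoc]

/-- `|T : W| ≤ 8` -/
theorem index_le (h : Hyp T W) : W.index ≤ 8 := by
  obtain ⟨z2, h2, h2'⟩ := h.exz (i := 1) (by norm_num)
  obtain ⟨z3, h3, h3'⟩ := h.exz (i := 2) (by norm_num)
  have hn := h.normal
  have hcard : Nat.card (↥(Subgroup.upperCentralSeries T 1) × ↥(Subgroup.upperCentralSeries T 2)) = 8 := by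
    rw [Nat.card_prod, h.cZ 1 (by norm_num), h.cZ 2 (by norm_num)]; norm_num
  rw [index_eq_card, ← hcard]
  let κ : T ⧸ W → ↥(Subgroup.upperCentralSeries T 1) × ↥(Subgroup.upperCentralSeries T 2) := fun q =>
    (⟨q.out * z2 * q.out⁻¹ * z2⁻¹, mem_ucs_succ.1 h2 _⟩, ⟨q.out * z3 * q.out⁻¹ * z3⁻¹, mem_ucs_succ.1 h3 _⟩)
  apply Nat.card_le_card_of_injective κ
  intro p q hpq
  have e2 : p.out * z2 * p.out⁻¹ * z2⁻¹ = q.out * z2 * q.out⁻¹ * z2⁻¹ :=
    congrArg (fun x => ((x.1 : ↥(Subgroup.upperCentralSeries T 1)) : T)) hpq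
  have e3 : p.out * z3 * p.out⁻¹ * z3⁻¹ = q.out * z3 * q.out⁻¹ * z3⁻¹ :=
    congrArg (fun x => ((x.2 : ↥(Subgroup.upperCentralSeries T 2)) : T)) hpq
  have key : ∀ {z : T}, p.out * z * p.out⁻¹ * z⁻¹ = q.out * z * q.out⁻¹ * z⁻¹ →
      (p.out⁻¹ * q.out) * z = z * (p.out⁻¹ * q.out) := by
    intro z hz
    have h5 := mul_right_cancel hz
    calc (p.out⁻¹ * q.out) * z = p.out⁻¹ * (q.out * z * q.out⁻¹) * q.out := by group
      _ = p.out⁻¹ * (p.out * z * p.out⁻¹) * q.out := by rw [h5]
      _ = _ := by group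
  have hmem : p.out⁻¹ * q.out ∈ W := (h.mem_W h2 h2' h3 h3').2 ⟨key e2, key e3⟩
  rw [← QuotientGroup.out_eq' p, ← QuotientGroup.out_eq' q]
  exact QuotientGroup.eq.2 hmem

theorem pW (h : Hyp T W) : IsPGroup 2 W := h.hT.to_subgroup W

theorem sq_mem (h : Hyp T W) (w : W) : w * w ∈ frattini W := by
  have := Lib.H70Frattini.pow_mem_frattini h.pW w
  rwa [pow_two] at this

theorem Fr_normal (h : Hyp T W) : ((frattini W).map W.subtype).Normal := by
  have := h.normal
  infer_instance

omit [Finite T] in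
theorem card_Fr : Nat.card ↥((frattini W).map W.subtype) = Nat.card ↥(frattini W) :=
  (Nat.card_congr ((frattini W).equivMapOfInjective W.subtype W.subtype_injective).toEquiv).symm

/-- the counting argument -/
theorem count (h : Hyp T W) [hn : W.Normal] : W.index = 8 ∧ Nat.card W = 2 ^ 11 ∧
    (frattini W).map W.subtype = Subgroup.upperCentralSeries T 3 ∧
    Subgroup.upperCentralSeries T 4 ≤ W ∧
    ∃ lam : W →* Multiplicative (ZMod 2), (∀ w : W, Phi W lam w = 1 ↔ (w : T) ∈ Subgroup.upperCentralSeries T 3) ∧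
      Function.Surjective (Phi W lam) := by
  set F := (frattini W).map W.subtype with hFdef
  have hF : F.Normal := h.Fr_normal
  have hFcard : Nat.card F ≤ 8 := by rw [hFdef, card_Fr]; exact h.hc
  have hFp : ∃ k, k ≤ 3 ∧ Nat.card F = 2 ^ k := by
    obtain ⟨k, hk⟩ := IsPGroup.iff_card.1 (h.hT.to_subgroup F)
    refine ⟨k, ?_, hk⟩
    by_contra hlt
    push Not at hlt
    have : 2 ^ 4 ≤ 2 ^ k := Nat.pow_le_pow_right (by norm_num) hlt
    omega
  obtain ⟨k, hk3, hk⟩ := hFp
  have hFW : F ≤ W := Subgroup.map_subtype_le _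
  have hcT : W.index * Nat.card W = Nat.card T := by rw [mul_comm]; exact W.card_mul_index
  have hidx := h.index_le
  have hWne : ¬ W ≤ F := by
    intro hle
    have h1 : Nat.card W ≤ Nat.card F := Subgroup.card_le_of_le hle
    have h2 : Nat.card T ≤ 8 * 8 := by
      rw [← hcT]; exact Nat.mul_le_mul hidx (h1.trans hFcard)
    have := h.ha
    norm_num at this h2
    omega
  obtain ⟨w0, hw0W, hw0F, hw0⟩ := exists_central_mod h.hT hF hn hWne
  -- the elements central modulo `F`
  have hFk : F ≤ Subgroup.upperCentralSeries T k := normal_le_ucs h.hT hF k hk.le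
  have hFeq : F = Subgroup.upperCentralSeries T k :=
    Subgroup.eq_of_le_of_card_ge hFk (by rw [h.cZ k (by omega), hk])
  have hcen : ∀ w : T, (∀ g : T, g * w * g⁻¹ * w⁻¹ ∈ F) → w ∈ Subgroup.upperCentralSeries T (k + 1) := by
    intro w hw
    rw [mem_ucs_succ]
    intro g
    exact hFk (hw g)
  have hw0Z : w0 ∈ Subgroup.upperCentralSeries T (k + 1) := hcen w0 (fun g => (hw0 g).2)
  -- the hyperplane
  obtain ⟨M, hM2, hFM, hcM⟩ := exists_hyper (frattini W) (fun w => h.sq_mem w) (c := ⟨w0, hw0W⟩) (by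
    intro hmem
    exact hw0F ⟨_, hmem, rfl⟩)
  obtain ⟨lam, hlam⟩ := exists_lam hM2
  have hcore : ∀ w : W, (w : T) ∉ F → (∀ g : T, g * w * g⁻¹ * (w : T)⁻¹ ∈ F) → lam w ≠ 1 := by
    intro w hwF hwc hl
    have h1 := hcen w hwc
    have h2 : w0 * (w : T) ∈ Subgroup.upperCentralSeries T k := by
      apply h.zmul (by omega) hw0Z h1 _ _
      · rwa [← hFeq]
      · rwa [← hFeq]
    rw [← hFeq] at h2
    obtain ⟨v, hv, hve⟩ := h2
    have h3 : v = ⟨w0, hw0W⟩ * w := Subtype.ext hve
    have h4 : (⟨w0, hw0W⟩ : W) * w ∈ M := by rw [← h3]; exact hFM hv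
    have h5 : w ∈ M := by rw [← hlam]; exact hl
    exact hcM ((M.mul_mem_cancel_right h5).1 h4)
  obtain ⟨hle, hsurj⟩ := card_le h.hT W lam hF hcore
  have hcount : W.index = 8 ∧ Nat.card F = 8 ∧ Nat.card W = Nat.card F * 2 ^ W.index := by
    have ha := h.ha
    have h1 : W.index ≠ 0 := index_ne_zero_of_finite
    generalize hi : W.index = n at *
    generalize hf : Nat.card F = f at *
    generalize hw : Nat.card W = w at *
    generalize ht : Nat.card T = t at *
    have h6 : n = 8 := by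
      by_contra hne
      have h7 : n ≤ 7 := by omega
      have h8 : w ≤ 8 * 2 ^ 7 := hle.trans (Nat.mul_le_mul hFcard (Nat.pow_le_pow_right (by norm_num) h7))
      have h9 : n * w ≤ 7 * (8 * 2 ^ 7) := Nat.mul_le_mul h7 h8
      norm_num at h9 ha
      omega
    subst h6
    norm_num at hle ha
    refine ⟨rfl, by omega, by norm_num; omega⟩
  obtain ⟨hi, hf, hw⟩ := hcount
  have hk' : k = 3 := by
    rw [hf] at hk
    have : 2 ^ 3 = 2 ^ k := by rw [← hk]; norm_num
    exact (Nat.pow_right_injective (le_refl 2) this).symm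
  subst hk'
  have hsj := hsurj hw
  rw [hf, hi] at hw
  refine ⟨hi, by rw [hw]; norm_num, hFeq, ?_, lam, ?_, hsj⟩
  · -- `Z₄ ≤ W`
    intro x hx
    by_cases hx3 : x ∈ Subgroup.upperCentralSeries T 3
    · rw [← hFeq] at hx3
      exact hFW hx3
    · have h2 : x * w0 ∈ Subgroup.upperCentralSeries T 3 :=
        h.zmul (by norm_num) hx hw0Z hx3 (by rwa [← hFeq])
      rw [← hFeq] at h2
      exact (W.mul_mem_cancel_right hw0W).1 (hFW h2)
  · intro w
    constructor
    · intro h1
      rw [← hFeq]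
      exact Phi_ker h.hT W lam hF hcore h1
    · intro h1
      rw [← hFeq] at h1
      have hFn : ∀ g : T, MulAut.conjNormal g w ∈ lam.ker := by
        intro g
        have h2 : ((MulAut.conjNormal g w : W) : T) ∈ F := by
          rw [MulAut.conjNormal_apply]; exact hF.conj_mem _ h1 g
        obtain ⟨v, hv, hve⟩ := h2
        have h3 : v = MulAut.conjNormal g w := Subtype.ext hve
        rw [hlam, ← h3]
        exact hFM hv
      funext q
      exact hFn q.out⁻¹

end Hyp

end Cfsg.Agent.Lib.RudB
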