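import Cfsg.Agent.Lib.RudB

/-!
# Sylow 2-subgroups of Rudvalis type, III: the derived subgroup of `W` (helper80)
-/

set_option autoImplicit false

open Subgroup
open scoped commutatorElement

namespace Cfsg.Agent.Lib.RudB.Hyp

open Cfsg.Agent.Lib.RudA Cfsg.Agent.Lib.RudB

variable {T : Type*} [Group T] [Finite T] {W : Subgroup T}

theorem idx (h : Hyp T W) : W.index = 8 := by
  have := h.normal
  exact h.count.1

theorem cardW (h : Hyp T W) : Nat.card W = 2 ^ 11 := by
  have := h.normal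
  exact h.count.2.1

theorem FrZ (h : Hyp T W) : (frattini W).map W.subtype = Subgroup.upperCentralSeries T 3 := by
  have := h.normal
  exact h.count.2.2.1

theorem Z4W (h : Hyp T W) : Subgroup.upperCentralSeries T 4 ≤ W := by
  have := h.normal
  exact h.count.2.2.2.1

theorem Z3W (h : Hyp T W) : Subgroup.upperCentralSeries T 3 ≤ W := by
  rw [← h.FrZ]; exact Subgroup.map_subtype_le _

theorem cen (h : Hyp T W) {w z : T} (hw : w ∈ W) (hz : z ∈ Subgroup.upperCentralSeries T 3) : w * z = z * w := by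
  rw [h.hW, mem_centralizer_iff] at hw
  exact (hw z hz).symm

theorem mem_Fr (h : Hyp T W) (w : W) : w ∈ frattini W ↔ (w : T) ∈ Subgroup.upperCentralSeries T 3 := by
  rw [← h.FrZ]
  constructor
  · intro hw; exact ⟨w, hw, rfl⟩
  · rintro ⟨v, hv, hve⟩
    have : v = w := Subtype.ext hve
    rwa [← this]

theorem sqZ (h : Hyp T W) {w : T} (hw : w ∈ W) : w * w ∈ Subgroup.upperCentralSeries T 3 := by
  have h1 := (h.mem_Fr (⟨w, hw⟩ * ⟨w, hw⟩)).1 (h.sq_mem _)
  rwa [Subgroup.coe_mul] at h1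

theorem commZ (h : Hyp T W) {a b : T} (ha : a ∈ W) (hb : b ∈ W) :
    a * b * a⁻¹ * b⁻¹ ∈ Subgroup.upperCentralSeries T 3 := by
  have h1 := h.sqZ (W.mul_mem ha hb)
  have h2 := h.sqZ (W.inv_mem ha)
  have h3 := h.sqZ (W.inv_mem hb)
  have h4 := (inferInstance : (Subgroup.upperCentralSeries T 3).Normal).conj_mem _ h2 b⁻¹
  have h5 : a * b * a⁻¹ * b⁻¹ = (a * b * (a * b)) * (b⁻¹ * (a⁻¹ * a⁻¹) * b⁻¹⁻¹) * (b⁻¹ * b⁻¹) := by group
  rw [h5]
  exact mul_mem (mul_mem h1 h4) h3

/-- no large subgroup of `W` is abelian modulo `Z₂` -/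
theorem lemmaA (h : Hyp T W) (A : Subgroup W) (hA : A.index ≤ 4)
    (hab : ∀ a ∈ A, ∀ b ∈ A, ((a * b * a⁻¹ * b⁻¹ : W) : T) ∈ Subgroup.upperCentralSeries T 2) : False := by
  have hFA : frattini W ≤ A := h.hd A (by omega)
  have hZ2n : (Subgroup.upperCentralSeries T 2).Normal := inferInstance
  have hsq : ∀ {a b : W}, a ∈ A → b ∈ A →
      (((a * b) * (a * b) : W) : T) * ((a * a : W) * (b * b : W) : T)⁻¹ ∈ Subgroup.upperCentralSeries T 2 := by
    intro a b ha hb
    have h1 := hab b hb a ha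
    have h2 := hZ2n.conj_mem _ h1 (a : T)
    simp only [Subgroup.coe_mul, Subgroup.coe_inv] at h1 h2 ⊢
    have h3 : (a : T) * b * ((a : T) * b) * ((a : T) * (a : T) * ((b : T) * (b : T)))⁻¹ =
        (a : T) * (b * a * (b : T)⁻¹ * (a : T)⁻¹) * (a : T)⁻¹ := by
      group
    rw [h3]
    exact h2
  let A1 : Subgroup W :=
    { carrier := {a | a ∈ A ∧ ((a * a : W) : T) ∈ Subgroup.upperCentralSeries T 2}
      one_mem' := ⟨A.one_mem, by simp⟩
      mul_mem' := by
        rintro a b ⟨ha, ha2⟩ ⟨hb, hb2⟩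
        refine ⟨A.mul_mem ha hb, ?_⟩
        have h1 := hsq ha hb
        exact (Subgroup.mul_mem_cancel_right _ (inv_mem (mul_mem ha2 hb2))).1 h1
      inv_mem' := by
        rintro a ⟨ha, ha2⟩
        refine ⟨A.inv_mem ha, ?_⟩
        have := inv_mem ha2
        simpa [mul_inv_rev] using this }
  have hA1A : A1 ≤ A := fun a ha => ha.1
  have hrel : A1.relIndex A ≤ 2 := by
    by_cases hle : A ≤ A1
    · rw [relIndex_eq_one.2 hle]; norm_num
    · obtain ⟨a, haA, ha1⟩ := SetLike.not_le_iff_exists.1 hle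
      have h2 : (A1.subgroupOf A).index = 2 := by
        rw [index_eq_two_iff_exists_notMem_and]
        refine ⟨⟨a, haA⟩, ha1, fun b => ?_⟩
        by_cases hb : (b : W) ∈ A1
        · exact Or.inr hb
        · left
          refine ⟨A.mul_mem b.2 haA, ?_⟩
          have h1 := hsq b.2 haA
          have h3 : (((b : W) * b : W) : T) ∉ Subgroup.upperCentralSeries T 2 := fun h4 => hb ⟨b.2, h4⟩
          have h4 : ((a * a : W) : T) ∉ Subgroup.upperCentralSeries T 2 := fun h4 => ha1 ⟨haA, h4⟩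
          have h5 := h.zmul (i := 2) (by norm_num) (h.sqZ (b : W).2) (h.sqZ a.2) h3 h4
          exact (Subgroup.mul_mem_cancel_right _ (inv_mem h5)).1 h1
      exact h2.le
  obtain ⟨z3, hz3, hz3'⟩ := h.exz (i := 2) (by norm_num)
  have hz3F : (⟨z3, h.Z3W hz3⟩ : W) ∈ frattini W := (h.mem_Fr _).2 hz3
  have hz3A : (⟨z3, h.Z3W hz3⟩ : W) ∈ A1 := ⟨hFA hz3F, h.zmul (i := 2) (by norm_num) hz3 hz3 hz3' hz3'⟩
  obtain ⟨M, hM2, hFM, hcM⟩ := exists_hyper (H := A1) ((Subgroup.upperCentralSeries T 2).comap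
    (W.subtype.comp A1.subtype)) (fun a => a.2.2) (c := ⟨_, hz3A⟩) hz3'
  have hU : (M.map A1.subtype).index ≤ 16 := by
    rw [Subgroup.index_map_subtype, hM2, ← relIndex_mul_index hA1A]
    calc 2 * (A1.relIndex A * A.index) ≤ 2 * (2 * 4) := Nat.mul_le_mul_left _ (Nat.mul_le_mul hrel hA)
      _ = 16 := by norm_num
  obtain ⟨v, hv, hve⟩ := h.hd _ hU hz3F
  apply hcM
  have : v = ⟨_, hz3A⟩ := Subtype.ext hve
  rwa [← this]

theorem exists_comm (h : Hyp T W) : ∃ a ∈ W, ∃ b ∈ W, a * b * a⁻¹ * b⁻¹ ∉ Subgroup.upperCentralSeries T 2 := by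
  by_contra hcon
  push Not at hcon
  exact h.lemmaA ⊤ (by simp) (fun a _ b _ => hcon a a.2 b b.2)

/-- `W' = Z₃` -/
theorem derived (h : Hyp T W) : (commutator W).map W.subtype = Subgroup.upperCentralSeries T 3 := by
  have hn := h.normal
  have hle : (commutator W).map W.subtype ≤ Subgroup.upperCentralSeries T 3 := by
    rw [← h.FrZ]
    apply Subgroup.map_mono
    rw [commutator_eq_closure, closure_le]
    rintro _ ⟨a, b, rfl⟩
    rw [SetLike.mem_coe, h.mem_Fr]
    exact h.commZ a.2 b.2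
  by_contra hne
  have h1 := two_mul_card_le hle hne
  rw [h.cZ 3 (by norm_num)] at h1
  have h2 : ((commutator W).map W.subtype).Normal := inferInstance
  have h3 := normal_le_ucs h.hT h2 2 (by omega)
  obtain ⟨a, ha, b, hb, hab⟩ := h.exists_comm
  apply hab
  apply h3
  exact ⟨⁅⟨a, ha⟩, ⟨b, hb⟩⁆, Subgroup.commutator_mem_commutator (mem_top _) (mem_top _), rfl⟩

/-- `Z₃` is elementary abelian -/
theorem elem (h : Hyp T W) {z : T} (hz : z ∈ Subgroup.upperCentralSeries T 3) : z * z = 1 := by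
  rw [← h.derived] at hz
  obtain ⟨y, hy, rfl⟩ := hz
  rw [commutator_eq_closure] at hy
  have hgen : ∀ a b : W, (⁅a, b⁆ * ⁅a, b⁆ : W) = 1 := by
    intro a b
    apply Subtype.ext
    have h1 := h.cen b.2 (h.sqZ a.2)
    have h2 := h.cen a.2 (h.commZ a.2 b.2)
    simp only [commutatorElement_def, Subgroup.coe_mul, Subgroup.coe_inv, Subgroup.coe_one]
    have h3 : ((a : T) * b * (a : T)⁻¹ * (b : T)⁻¹) * ((a : T) * b * (a : T)⁻¹ * (b : T)⁻¹) =
        (a : T) * ((a : T) * b * (a : T)⁻¹ * (b : T)⁻¹) * b * (a : T)⁻¹ * (b : T)⁻¹ := by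
      rw [h2]; group
    rw [h3]
    have h4 : (a : T) * ((a : T) * b * (a : T)⁻¹ * (b : T)⁻¹) * b * (a : T)⁻¹ * (b : T)⁻¹ =
        ((a : T) * a) * b * ((a : T) * a)⁻¹ * (b : T)⁻¹ := by group
    rw [h4, ← h1]; group
  have hcomm : ∀ y ∈ closure {g : W | ∃ a b : W, ⁅a, b⁆ = g}, (y * y : W) = 1 ∧ ∀ w : W, w * y = y * w := by
    intro y hy
    induction hy using closure_induction with
    | mem y hy =>
      obtain ⟨a, b, rfl⟩ := hy
      exact ⟨hgen a b, fun w => Subtype.ext (h.cen w.2 (h.commZ a.2 b.2))⟩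
    | one => exact ⟨one_mul 1, fun w => by rw [one_mul, mul_one]⟩
    | mul x y _ _ hx hy =>
      refine ⟨?_, fun w => ?_⟩
      · calc x * y * (x * y) = x * (y * x) * y := by group
          _ = x * (x * y) * y := by rw [← hx.2 y]
          _ = (x * x) * (y * y) := by group
          _ = 1 := by rw [hx.1, hy.1, one_mul]
      · calc w * (x * y) = (w * x) * y := by group
          _ = x * (w * y) := by rw [hx.2 w]; group
          _ = x * y * w := by rw [hy.2 w]; group
    | inv x _ hx =>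
      refine ⟨?_, fun w => ?_⟩
      · rw [← mul_inv_rev, hx.1, inv_one]
      · have := hx.2 w
        calc w * x⁻¹ = x⁻¹ * (x * w) * x⁻¹ := by group
          _ = x⁻¹ * (w * x) * x⁻¹ := by rw [this]
          _ = _ := by group
  have := (hcomm y hy).1
  exact congrArg Subtype.val this

end Cfsg.Agent.Lib.RudB.Hyp
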