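import Cfsg.Agent.Lib.RudC
import Cfsg.Agent.Lib.DihedralHom

/-!
# Sylow 2-subgroups of Rudvalis type, IV: `T/W` is dihedral (helper80)
-/

set_option autoImplicit false

open Subgroup
open scoped commutatorElement

namespace Cfsg.Agent.Lib.RudB.Hyp

open Cfsg.Agent.Lib.RudA Cfsg.Agent.Lib.RudB

variable {T : Type*} [Group T] [Finite T] {W : Subgroup T}

omit [Finite T] in
theorem z1c {z : T} (hz : z ∈ Subgroup.upperCentralSeries T 1) (g : T) : g * z = z * g := by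
  rw [Subgroup.upperCentralSeries_one] at hz
  exact mem_center_iff.1 hz g

/-- all pairs of values occur -/
theorem exg (h : Hyp T W) {z2 z3 : T} (h2 : z2 ∈ Subgroup.upperCentralSeries T 2)
    (h2' : z2 ∉ Subgroup.upperCentralSeries T 1) (h3 : z3 ∈ Subgroup.upperCentralSeries T 3)
    (h3' : z3 ∉ Subgroup.upperCentralSeries T 2) {u v : T} (hu : u ∈ Subgroup.upperCentralSeries T 1)
    (hv : v ∈ Subgroup.upperCentralSeries T 2) : ∃ g : T, g * z2 * g⁻¹ = u * z2 ∧ g * z3 * g⁻¹ = v * z3 := by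
  have hn := h.normal
  have hcard : Nat.card (↥(Subgroup.upperCentralSeries T 1) × ↥(Subgroup.upperCentralSeries T 2)) = 8 := by
    rw [Nat.card_prod, h.cZ 1 (by norm_num), h.cZ 2 (by norm_num)]; norm_num
  let κ : T ⧸ W → ↥(Subgroup.upperCentralSeries T 1) × ↥(Subgroup.upperCentralSeries T 2) := fun q =>
    (⟨q.out * z2 * q.out⁻¹ * z2⁻¹, mem_ucs_succ.1 h2 _⟩, ⟨q.out * z3 * q.out⁻¹ * z3⁻¹, mem_ucs_succ.1 h3 _⟩)
  have hκ : Function.Injective κ := by
    intro p q hpq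
    have e2 : p.out * z2 * p.out⁻¹ * z2⁻¹ = q.out * z2 * q.out⁻¹ * z2⁻¹ :=
      congrArg (fun x => ((x.1 : ↥(Subgroup.upperCentralSeries T 1)) : T)) hpq
    have e3 : p.out * z3 * p.out⁻¹ * z3⁻¹ = q.out * z3 * q.out⁻¹ * z3⁻¹ :=
      congrArg (fun x => ((x.2 : ↥(Subgroup.upperCentralSeries T 2)) : T)) hpq
    have key : ∀ {z : T}, p.out * z * p.out⁻¹ * z⁻¹ = q.out * z * q.out⁻¹ * z⁻¹ →
        (p.out⁻¹ * q.out) * z = z * (p.out⁻¹ * q.out) := by
      intro z hz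
      have h5 := mul_right_cancel hz
      calc (p.out⁻¹ * q.out) * z = p.out⁻¹ * (q.out * z * q.out⁻¹) * q.out := by group
        _ = p.out⁻¹ * (p.out * z * p.out⁻¹) * q.out := by rw [h5]
        _ = _ := by group
    have hmem : p.out⁻¹ * q.out ∈ W := (h.mem_W h2 h2' h3 h3').2 ⟨key e2, key e3⟩
    rw [← QuotientGroup.out_eq' p, ← QuotientGroup.out_eq' q]
    exact QuotientGroup.eq.2 hmem
  have hbij : Function.Bijective κ := by
    rw [Nat.bijective_iff_injective_and_card]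
    exact ⟨hκ, by rw [hcard, ← index_eq_card, h.idx]⟩
  obtain ⟨q, hq⟩ := hbij.2 (⟨u, hu⟩, ⟨v, hv⟩)
  refine ⟨q.out, ?_, ?_⟩
  · have : q.out * z2 * q.out⁻¹ * z2⁻¹ = u :=
      congrArg (fun x => ((x.1 : ↥(Subgroup.upperCentralSeries T 1)) : T)) hq
    rw [← this]; group
  · have : q.out * z3 * q.out⁻¹ * z3⁻¹ = v :=
      congrArg (fun x => ((x.2 : ↥(Subgroup.upperCentralSeries T 2)) : T)) hq
    rw [← this]; group

/-- the dihedral structure of `T/W` -/
theorem dih (h : Hyp T W) [hn : W.Normal] {z2 z3 : T} (h2 : z2 ∈ Subgroup.upperCentralSeries T 2)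
    (h2' : z2 ∉ Subgroup.upperCentralSeries T 1) (h3 : z3 ∈ Subgroup.upperCentralSeries T 3)
    (h3' : z3 ∉ Subgroup.upperCentralSeries T 2) :
    ∃ (e : DihedralGroup 4 ≃* T ⧸ W) (s ρ : T), e (DihedralGroup.sr 0) = (s : T ⧸ W) ∧
      e (DihedralGroup.r 1) = (ρ : T ⧸ W) ∧ s * z2 = z2 * s ∧ (ρ * ρ) * z2 = z2 * (ρ * ρ) := by
  obtain ⟨z1, h1, h1'⟩ := h.exz (i := 0) (by norm_num)
  rw [zero_add] at h1
  rw [Subgroup.upperCentralSeries_zero, mem_bot] at h1'
  obtain ⟨s, s2, s3⟩ := h.exg h2 h2' h3 h3' (one_mem _) h2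
  obtain ⟨t, t2, t3⟩ := h.exg h2 h2' h3 h3' h1 (one_mem _)
  rw [one_mul] at s2 t3
  have e1 := h.elem (Subgroup.upperCentralSeries_mono T (by norm_num : 1 ≤ 3) h1)
  have e2 := h.elem (Subgroup.upperCentralSeries_mono T (by norm_num : 2 ≤ 3) h2)
  have c1 : ∀ g : T, g * z1 * g⁻¹ = z1 := fun g => by rw [z1c h1 g]; group
  have c12 : z1 * z2 = z2 * z1 := (z1c h1 z2).symm
  have c13 : z1 * z3 = z3 * z1 := (z1c h1 z3).symm
  have cj : ∀ g a b : T, g * (a * b) * g⁻¹ = (g * a * g⁻¹) * (g * b * g⁻¹) := fun g a b => by group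
  have cjj : ∀ g k a : T, (g * k) * a * (g * k)⁻¹ = g * (k * a * k⁻¹) * g⁻¹ := fun g k a => by group
  have com : ∀ {g a : T}, g * a * g⁻¹ = a → g * a = a * g := fun {g a} hg => by
    calc g * a = (g * a * g⁻¹) * g := by group
      _ = a * g := by rw [hg]
  have memW : ∀ {g : T}, g * z2 * g⁻¹ = z2 → g * z3 * g⁻¹ = z3 → g ∈ W := fun {g} ha hb =>
    (h.mem_W h2 h2' h3 h3').2 ⟨com ha, com hb⟩
  -- actions
  have ss2 : (s * s) * z2 * (s * s)⁻¹ = z2 := by rw [cjj, s2, s2]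
  have ss3 : (s * s) * z3 * (s * s)⁻¹ = z3 := by
    rw [cjj, s3, cj, s2, s3, ← mul_assoc, e2, one_mul]
  have tt2 : (t * t) * z2 * (t * t)⁻¹ = z2 := by
    rw [cjj, t2, cj, c1, t2, ← mul_assoc, e1, one_mul]
  have tt3 : (t * t) * z3 * (t * t)⁻¹ = z3 := by rw [cjj, t3, t3]
  have r2 : (t * s) * z2 * (t * s)⁻¹ = z1 * z2 := by rw [cjj, s2, t2]
  have r3 : (t * s) * z3 * (t * s)⁻¹ = z1 * z2 * z3 := by rw [cjj, s3, cj, t2, t3]
  have rr2 : ((t * s) * (t * s)) * z2 * ((t * s) * (t * s))⁻¹ = z2 := by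
    rw [cjj, r2, cj, c1, r2, ← mul_assoc, e1, one_mul]
  have rr3 : ((t * s) * (t * s)) * z3 * ((t * s) * (t * s))⁻¹ = z1 * z3 := by
    rw [cjj, r3, cj, cj, c1, r2, r3]
    calc z1 * (z1 * z2) * (z1 * z2 * z3) = (z1 * z1) * z2 * (z1 * z2) * z3 := by group
      _ = z2 * (z2 * z1) * z3 := by rw [e1, one_mul, c12]
      _ = (z2 * z2) * z1 * z3 := by group
      _ = z1 * z3 := by rw [e2, one_mul]
  have hssW : s * s ∈ W := memW ss2 ss3
  have httW : t * t ∈ W := memW tt2 tt3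
  -- elements of the quotient
  let sb : T ⧸ W := (s : T ⧸ W)
  let tb : T ⧸ W := (t : T ⧸ W)
  have hss : sb * sb = 1 := (QuotientGroup.eq_one_iff (s * s)).2 hssW
  have htt : tb * tb = 1 := (QuotientGroup.eq_one_iff (t * t)).2 httW
  have hsinv : sb⁻¹ = sb := inv_eq_of_mul_eq_one_left hss
  have htinv : tb⁻¹ = tb := inv_eq_of_mul_eq_one_left htt
  have hz3ne : z1 * z3 ≠ z3 := by
    intro hh
    exact h1' (mul_right_cancel (b := z3) (by rw [one_mul]; exact hh))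
  have hρ2 : (tb * sb) ^ 2 ≠ 1 := by
    intro hh
    rw [pow_two] at hh
    have : (t * s) * (t * s) ∈ W := (QuotientGroup.eq_one_iff _).1 hh
    have h5 := ((h.mem_W h2 h2' h3 h3').1 this).2
    apply hz3ne
    rw [← rr3, h5]; group
  have hρ4 : (tb * sb) ^ 4 = 1 := by
    have h5 : ((t * s) * (t * s)) * ((t * s) * (t * s)) ∈ W := by
      apply memW
      · rw [cjj, rr2, rr2]
      · rw [cjj, rr3, cj, c1, rr3, ← mul_assoc, e1, one_mul]
    have h6 : (tb * sb) ^ 4 = (tb * sb) * (tb * sb) * ((tb * sb) * (tb * sb)) := by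
      rw [pow_succ, pow_succ, pow_two]; group
    rw [h6]
    exact (QuotientGroup.eq_one_iff _).2 h5
  have hord : orderOf (tb * sb) = 4 := by
    have h5 : orderOf (tb * sb) ∣ 2 ^ 2 := orderOf_dvd_of_pow_eq_one hρ4
    obtain ⟨k, hk, hk2⟩ := (Nat.dvd_prime_pow Nat.prime_two).1 h5
    interval_cases k
    · exfalso; apply hρ2; rw [← orderOf_dvd_iff_pow_eq_one, hk2]; norm_num
    · exfalso; apply hρ2; rw [← orderOf_dvd_iff_pow_eq_one, hk2, pow_one]
    · rw [hk2]; norm_num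
  have hsr : sb * (tb * sb) * sb = (tb * sb)⁻¹ := by
    rw [mul_inv_rev, hsinv, htinv]
    calc sb * (tb * sb) * sb = sb * tb * (sb * sb) := by group
      _ = sb * tb := by rw [hss, mul_one]
  let f := DihedralHom.lift (n := 4) (tb * sb) sb hρ4 hss hsr
  have hsne : sb ∉ zpowers (tb * sb) := by
    intro hmem
    -- then `s` and `ts` commute
    obtain ⟨k, hk⟩ := mem_zpowers_iff.1 hmem
    have h5 : sb * (tb * sb) = (tb * sb) * sb := by
      have h7 : Commute ((tb * sb) ^ k) (tb * sb) := (Commute.refl _).zpow_left k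
      rw [hk] at h7
      exact h7.eq
    have h6 : sb * (tb * sb) * sb = tb * sb := by rw [h5, mul_assoc, hss, mul_one]
    rw [hsr] at h6
    apply hρ2
    rw [pow_two]
    nth_rewrite 1 [← h6]
    rw [inv_mul_cancel]
  have hinj : Function.Injective f := by
    rw [injective_iff_map_eq_one]
    have hr : ∀ i : ZMod 4, f (DihedralGroup.r i) = (tb * sb) ^ i.val := by
      intro i
      have : DihedralGroup.r i = (DihedralGroup.r 1 : DihedralGroup 4) ^ i.val := by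
        rw [DihedralGroup.r_one_pow, ZMod.natCast_zmod_val]
      rw [this, map_pow, DihedralHom.lift_r_one]
    rintro (i | i) hi
    · rw [hr] at hi
      have h5 := orderOf_dvd_of_pow_eq_one hi
      rw [hord] at h5
      have h6 := Nat.eq_zero_of_dvd_of_lt h5 (ZMod.val_lt i)
      rw [ZMod.val_eq_zero] at h6
      rw [h6]; rfl
    · exfalso
      have h5 : DihedralGroup.sr i = (DihedralGroup.sr 0 : DihedralGroup 4) * DihedralGroup.r i := by
        rw [DihedralGroup.sr_mul_r, zero_add]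
      rw [h5, map_mul, DihedralHom.lift_sr_zero, hr] at hi
      have h8 : sb = ((tb * sb) ^ i.val)⁻¹ := eq_inv_of_mul_eq_one_left hi
      have h9 : ((tb * sb) ^ i.val)⁻¹ ∈ zpowers (tb * sb) := inv_mem (pow_mem (mem_zpowers _) _)
      rw [← h8] at h9
      exact hsne h9
  have hcardQ : Nat.card (T ⧸ W) = 8 := by rw [← index_eq_card, h.idx]
  have hcardD : Nat.card (DihedralGroup 4) = 8 := by rw [DihedralGroup.nat_card]
  have hbij : Function.Bijective f := by
    rw [Nat.bijective_iff_injective_and_card]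
    exact ⟨hinj, by rw [hcardQ, hcardD]⟩
  refine ⟨MulEquiv.ofBijective f hbij, s, t * s, ?_, ?_, com s2, com rr2⟩
  · exact DihedralHom.lift_sr_zero (n := 4) (tb * sb) sb hρ4 hss hsr
  · exact DihedralHom.lift_r_one (n := 4) (tb * sb) sb hρ4 hss hsr

end Cfsg.Agent.Lib.RudB.Hyp
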