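import Cfsg.Agent.Lib.RudD

/-!
# Sylow 2-subgroups of Rudvalis type, V: the commutator form modulo `Z₂` (helper80)
-/

set_option autoImplicit false

open Subgroup
open scoped commutatorElement

namespace Cfsg.Agent.Lib.RudB.Hyp

open Cfsg.Agent.Lib.RudA Cfsg.Agent.Lib.RudB

variable {T : Type*} [Group T]

open Classical in
/-- `Z₃/Z₂` as `ZMod 2` -/
noncomputable def mu (z : T) : ZMod 2 := if z ∈ Subgroup.upperCentralSeries T 2 then 0 else 1

theorem mu_eq_zero {z : T} : mu z = 0 ↔ z ∈ Subgroup.upperCentralSeries T 2 := by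
  unfold mu
  split_ifs with h
  · simp [h]
  · simp [h]

theorem mu_of_not {z : T} (h : z ∉ Subgroup.upperCentralSeries T 2) : mu z = 1 := by
  unfold mu; rw [if_neg h]

theorem mu_congr {a b : T} (h : a ∈ Subgroup.upperCentralSeries T 2 ↔ b ∈ Subgroup.upperCentralSeries T 2) :
    mu a = mu b := by
  by_cases hb : b ∈ Subgroup.upperCentralSeries T 2
  · rw [mu_eq_zero.2 hb, mu_eq_zero.2 (h.2 hb)]
  · rw [mu_of_not hb, mu_of_not (fun ha => hb (h.1 ha))]

theorem mu_inv (z : T) : mu z⁻¹ = mu z := mu_congr inv_mem_iff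

theorem mu_conj (g z : T) : mu (g * z * g⁻¹) = mu z := by
  have hn : (Subgroup.upperCentralSeries T 2).Normal := inferInstance
  have h : g * z * g⁻¹ ∈ Subgroup.upperCentralSeries T 2 ↔ z ∈ Subgroup.upperCentralSeries T 2 := by
    constructor
    · intro h1
      have h2 := hn.conj_mem _ h1 g⁻¹
      have h3 : g⁻¹ * (g * z * g⁻¹) * g⁻¹⁻¹ = z := by group
      rwa [h3] at h2
    · intro h1; exact hn.conj_mem _ h1 g
  exact mu_congr h

/-- the commutator form -/
noncomputable def B (w v : T) : ZMod 2 := mu (w * v * w⁻¹ * v⁻¹)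

theorem B_symm (w v : T) : B v w = B w v := by
  unfold B
  rw [← mu_inv]
  congr 1
  group

theorem B_self (w : T) : B w w = 0 := by
  unfold B
  rw [mu_eq_zero]
  have : w * w * w⁻¹ * w⁻¹ = 1 := by group
  rw [this]; exact one_mem _

theorem B_conj (g w v : T) : B (g * w * g⁻¹) (g * v * g⁻¹) = B w v := by
  unfold B
  rw [← mu_conj g (w * v * w⁻¹ * v⁻¹)]
  congr 1
  group

variable [Finite T] {W : Subgroup T}

theorem mu_mul (h : Hyp T W) {x y : T} (hx : x ∈ Subgroup.upperCentralSeries T 3)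
    (hy : y ∈ Subgroup.upperCentralSeries T 3) : mu (x * y) = mu x + mu y := by
  by_cases hx2 : x ∈ Subgroup.upperCentralSeries T 2
  · rw [mu_eq_zero.2 hx2, zero_add]
    exact mu_congr (Subgroup.mul_mem_cancel_left _ hx2)
  · by_cases hy2 : y ∈ Subgroup.upperCentralSeries T 2
    · rw [mu_eq_zero.2 hy2, add_zero]
      exact mu_congr (Subgroup.mul_mem_cancel_right _ hy2)
    · rw [mu_of_not hx2, mu_of_not hy2, mu_eq_zero.2 (h.zmul (i := 2) (by norm_num) hx hy hx2 hy2)]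
      decide

theorem B_mul_left (h : Hyp T W) {w w' v : T} (hw : w ∈ W) (hw' : w' ∈ W) (hv : v ∈ W) :
    B (w * w') v = B w v + B w' v := by
  unfold B
  rw [← h.mu_mul (h.commZ hw hv) (h.commZ hw' hv)]
  congr 1
  have h1 := h.cen hw (h.commZ hw' hv)
  have h2 := h.cen (W.mul_mem (W.mul_mem hw hv) (W.inv_mem hw)) (h.commZ hw' hv)
  calc w * w' * v * (w * w')⁻¹ * v⁻¹ = w * (w' * v * w'⁻¹ * v⁻¹) * (v * w⁻¹ * v⁻¹) := by group
    _ = (w' * v * w'⁻¹ * v⁻¹) * w * (v * w⁻¹ * v⁻¹) := by rw [h1]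
    _ = (w' * v * w'⁻¹ * v⁻¹) * (w * v * w⁻¹ * v⁻¹) := by group
    _ = _ := (h.cen (h.Z3W (h.commZ hw' hv)) (h.commZ hw hv))

theorem B_mul_right (h : Hyp T W) {w v v' : T} (hw : w ∈ W) (hv : v ∈ W) (hv' : v' ∈ W) :
    B w (v * v') = B w v + B w v' := by
  rw [B_symm, h.B_mul_left hv hv' hw, B_symm, B_symm w v']

theorem B_Z3 (h : Hyp T W) {w v : T} (hw : w ∈ Subgroup.upperCentralSeries T 3) (hv : v ∈ W) : B w v = 0 := by
  unfold B
  rw [mu_eq_zero, ← h.cen hv hw]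
  have : v * w * w⁻¹ * v⁻¹ = 1 := by group
  rw [this]; exact one_mem _

/-- `B(x, x^g) = 0` for `g ∈ C_T(Z₂)` -/
theorem B_S (h : Hyp T W) {z2 : T} (h2 : z2 ∈ Subgroup.upperCentralSeries T 2)
    (h2' : z2 ∉ Subgroup.upperCentralSeries T 1) {g x : T} (hg : g * z2 = z2 * g) (hx : x ∈ W) :
    B x (g * x * g⁻¹) = 0 := by
  have hn := h.normal
  obtain ⟨z3, h3, h3'⟩ := h.exz (i := 2) (by norm_num)
  have hxg : g * x * g⁻¹ ∈ W := hn.conj_mem x hx g
  by_cases hgW : g ∈ W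
  · have h4 : g * x * g⁻¹ = (g * x * g⁻¹ * x⁻¹) * x := by group
    rw [h4, h.B_mul_right hx (h.Z3W (h.commZ hgW hx)) hx, B_self, B_symm, h.B_Z3 (h.commZ hgW hx) hx, add_zero]
  · -- `g` centralizes `Z₂`
    have hc1 : ∀ u ∈ Subgroup.upperCentralSeries T 1, g * u = u * g := fun u hu => z1c hu g
    have hc2 : ∀ u ∈ Subgroup.upperCentralSeries T 2, g * u = u * g := by
      intro u hu
      by_cases hu1 : u ∈ Subgroup.upperCentralSeries T 1
      · exact hc1 u hu1
      · have h5 := h.zmul (i := 1) (by norm_num) (inv_mem h2) hu (by rwa [inv_mem_iff]) hu1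
        have h6 : u = z2 * (z2⁻¹ * u) := by group
        rw [h6, ← mul_assoc, hg, mul_assoc, hc1 _ h5, ← mul_assoc]
    set v := g * z3 * g⁻¹ * z3⁻¹ with hv
    have hvZ : v ∈ Subgroup.upperCentralSeries T 2 := mem_ucs_succ.1 h3 g
    have hgz3 : g * z3 * g⁻¹ = v * z3 := by rw [hv]; group
    have hv1 : v ≠ 1 := by
      intro hv1
      apply hgW
      refine (h.mem_W h2 h2' h3 h3').2 ⟨hg, ?_⟩
      rw [hv1, one_mul] at hgz3
      calc g * z3 = (g * z3 * g⁻¹) * g := by group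
        _ = z3 * g := by rw [hgz3]
    have hgg : g * g ∈ W := by
      refine (h.mem_W h2 h2' h3 h3').2 ⟨?_, ?_⟩
      · rw [mul_assoc, hg, ← mul_assoc, hg, mul_assoc]
      · have h5 : (g * g) * z3 * (g * g)⁻¹ = z3 := by
          calc (g * g) * z3 * (g * g)⁻¹ = g * (g * z3 * g⁻¹) * g⁻¹ := by group
            _ = (g * v) * z3 * g⁻¹ := by rw [hgz3]; group
            _ = v * (g * z3 * g⁻¹) := by rw [hc2 v hvZ]; group
            _ = (v * v) * z3 := by rw [hgz3]; group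
            _ = z3 := by
                rw [h.elem (Subgroup.upperCentralSeries_mono T (by norm_num : 2 ≤ 3) hvZ), one_mul]
        calc (g * g) * z3 = ((g * g) * z3 * (g * g)⁻¹) * (g * g) := by group
          _ = _ := by rw [h5]
    -- the commutator is fixed by `g`
    set c := x * (g * x * g⁻¹) * x⁻¹ * (g * x * g⁻¹)⁻¹ with hc
    have hcZ : c ∈ Subgroup.upperCentralSeries T 3 := h.commZ hx hxg
    have hgc : g * c * g⁻¹ = c := by
      have h5 : g * c * g⁻¹ = (g * x * g⁻¹) * ((g * g) * x * (g * g)⁻¹) * (g * x * g⁻¹)⁻¹ *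
          ((g * g) * x * (g * g)⁻¹)⁻¹ := by rw [hc]; group
      set k := (g * g) * x * (g * g)⁻¹ * x⁻¹ with hk
      have hkZ : k ∈ Subgroup.upperCentralSeries T 3 := h.commZ hgg hx
      have h6 : (g * g) * x * (g * g)⁻¹ = k * x := by rw [hk]; group
      rw [h5, h6]
      have h7 := h.cen hxg hkZ
      have h8 : (g * x * g⁻¹) * (k * x) * (g * x * g⁻¹)⁻¹ * (k * x)⁻¹ =
          k * ((g * x * g⁻¹) * x * (g * x * g⁻¹)⁻¹ * x⁻¹) * k⁻¹ := by
        rw [← mul_assoc, h7]; group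
      have h9 : (g * x * g⁻¹) * x * (g * x * g⁻¹)⁻¹ * x⁻¹ = c⁻¹ := by rw [hc]; group
      rw [h8, h9, h.cen (h.Z3W hkZ) (inv_mem hcZ), mul_inv_cancel_right]
      exact inv_eq_of_mul_eq_one_left (h.elem hcZ)
    show mu c = 0
    rw [mu_eq_zero]
    by_contra hc2'
    have h5 := h.zmul (i := 2) (by norm_num) hcZ (inv_mem h3) hc2' (by rwa [inv_mem_iff])
    have h6 : c = (c * z3⁻¹) * z3 := by group
    apply hv1
    have h7 : g * c * g⁻¹ = v * c := by
      rw [h6]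
      calc g * ((c * z3⁻¹) * z3) * g⁻¹ = (g * (c * z3⁻¹)) * z3 * g⁻¹ := by group
        _ = (c * z3⁻¹) * (g * z3 * g⁻¹) := by rw [hc2 _ h5]; group
        _ = ((c * z3⁻¹) * v) * z3 := by rw [hgz3]; group
        _ = (v * (c * z3⁻¹)) * z3 := by
            rw [h.cen (h.Z3W (Subgroup.upperCentralSeries_mono T (by norm_num : 2 ≤ 3) h5))
              (Subgroup.upperCentralSeries_mono T (by norm_num : 2 ≤ 3) hvZ)]
        _ = _ := by group
    rw [hgc] at h7
    exact (mul_eq_right.1 h7.symm)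

end Cfsg.Agent.Lib.RudB.Hyp
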