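import Cfsg.Agent.Lib.RudE

/-!
# Sylow 2-subgroups of Rudvalis type, VI: nondegeneracy (helper80)
-/

set_option autoImplicit false
set_option linter.unusedSectionVars false

open Subgroup
open scoped commutatorElement

namespace Cfsg.Agent.Lib.RudB.Hyp

open Cfsg.Agent.Lib.RudA Cfsg.Agent.Lib.RudB

variable {T : Type*} [Group T] [Finite T] {W : Subgroup T}

/-- coordinates in terms of a group isomorphism `D ≃* T/W` -/
structure Coord (W : Subgroup T) (D : Type*) [Group D] (Ψ : W → D → ZMod 2) (e : T → D) : Prop where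
  emul : ∀ g h, e (g * h) = e g * e h
  esurj : Function.Surjective e
  eW : ∀ g, e g = 1 ↔ g ∈ W
  mul : ∀ v w, Ψ (v * w) = Ψ v + Ψ w
  ker : ∀ w, Ψ w = 0 ↔ (w : T) ∈ Subgroup.upperCentralSeries T 3
  surj : Function.Surjective Ψ
  conj : ∀ (g : T) (w w' : W), (w' : T) = g * w * g⁻¹ → ∀ d, Ψ w' d = Ψ w ((e g)⁻¹ * d)

theorem exists_coord (h : Hyp T W) [hn : W.Normal] {D : Type*} [Group D] (e : D ≃* T ⧸ W) :
    ∃ Ψ : W → D → ZMod 2, Coord W D Ψ (fun g => e.symm (g : T ⧸ W)) := by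
  obtain ⟨-, -, -, -, lam, hker, hsurj⟩ := h.count
  refine ⟨fun w d => Multiplicative.toAdd (Phi W lam w (e d)), ?_⟩
  constructor
  · intro g h; simp
  · intro d
    obtain ⟨g, hg⟩ := QuotientGroup.mk_surjective (e d)
    exact ⟨g, by simp only [hg, MulEquiv.symm_apply_apply]⟩
  · intro g
    show e.symm (g : T ⧸ W) = 1 ↔ g ∈ W
    rw [map_eq_one_iff _ e.symm.injective, QuotientGroup.eq_one_iff]
  · intro v w; ext d; simp
  · intro w
    rw [← hker w]
    constructor
    · intro h1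
      funext q
      have := congrFun h1 (e.symm q)
      simp only [MulEquiv.apply_symm_apply] at this
      exact Multiplicative.toAdd.injective this
    · intro h1
      funext d
      simp only [h1]
      rfl
  · intro φ
    obtain ⟨w, hw⟩ := hsurj (fun q => Multiplicative.ofAdd (φ (e.symm q)))
    exact ⟨w, by funext d; simp [hw]⟩
  · intro g w w' hw d
    have h1 : w' = MulAut.conjNormal g w := Subtype.ext (by rw [hw, MulAut.conjNormal_apply])
    show Multiplicative.toAdd (Phi W lam w' (e d)) =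
      Multiplicative.toAdd (Phi W lam w (e ((e.symm (g : T ⧸ W))⁻¹ * d)))
    rw [h1, Phi_conj]
    simp

variable {D : Type*} [Group D] [Fintype D] [DecidableEq D] {Ψ : W → D → ZMod 2} {e : T → D}

theorem zmod2 (c : ZMod 2) : c = 0 ∨ c = 1 := by
  revert c; decide

/-- additive functions on `W` trivial on `Z₃` -/
theorem Coord.fac (C : Coord W D Ψ e) (x : D → W) (hx : ∀ p, Ψ (x p) = Pi.single p 1) (β : W → ZMod 2)
    (hmul : ∀ v w, β (v * w) = β v + β w) (hker : ∀ w : W, (w : T) ∈ Subgroup.upperCentralSeries T 3 → β w = 0)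
    (w : W) : β w = ∑ p, Ψ w p * β (x p) := by
  have hinj : ∀ v w : W, Ψ v = Ψ w → β v = β w := by
    intro v w hvw
    have h0 : Ψ (1 : W) = 0 := by rw [C.ker]; exact one_mem _
    have h1 : Ψ (v * w⁻¹) = 0 := by
      have h2 : Ψ (w * w⁻¹) = 0 := by rw [mul_inv_cancel, h0]
      rw [C.mul] at h2 ⊢
      rw [hvw, h2]
    have h2 := hker _ ((C.ker _).1 h1)
    have h3 : v = (v * w⁻¹) * w := by group
    rw [h3, hmul, h2, zero_add]
  choose σ hσ using C.surj
  let l : (D → ZMod 2) →+ ZMod 2 :=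
    { toFun := fun φ => β (σ φ)
      map_zero' := by
        apply hker
        rw [← C.ker, hσ]
      map_add' := by
        intro φ ψ
        rw [← hmul]
        apply hinj
        rw [hσ, C.mul, hσ, hσ] }
  have hl : ∀ v : W, β v = l (Ψ v) := fun v => hinj _ _ (hσ _).symm
  have hs : ∀ (p : D) (c : ZMod 2), l (Pi.single p c) = c * β (x p) := by
    intro p c
    rcases zmod2 c with rfl | rfl
    · rw [Pi.single_zero, map_zero, zero_mul]
    · rw [one_mul, hl, hx]
  calc β w = l (Ψ w) := hl w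
    _ = l (∑ p, Pi.single p (Ψ w p)) := by rw [Finset.univ_sum_single]
    _ = _ := by rw [map_sum]; simp only [hs]

theorem Coord.exists_x (C : Coord W D Ψ e) : ∃ x : D → W, ∀ p, Ψ (x p) = Pi.single p 1 :=
  ⟨fun p => (C.surj (Pi.single p 1)).choose, fun p => (C.surj (Pi.single p 1)).choose_spec⟩

/-- two elements with the same coordinates give the same form values -/
theorem Coord.B_congr (C : Coord W D Ψ e) (h : Hyp T W) {v w u : W} (hvw : Ψ v = Ψ w) :
    B (v : T) (u : T) = B (w : T) (u : T) := by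
  have h0 : Ψ (1 : W) = 0 := by rw [C.ker]; exact one_mem _
  have h1 : Ψ (v * w⁻¹) = 0 := by
    have h2 : Ψ (w * w⁻¹) = 0 := by rw [mul_inv_cancel, h0]
    rw [C.mul] at h2 ⊢
    rw [hvw, h2]
  have h2 := (C.ker _).1 h1
  have h3 : (v : T) = ((v * w⁻¹ : W) : T) * w := by
    rw [← Subgroup.coe_mul]; congr 1; group
  rw [h3, h.B_mul_left (v * w⁻¹).2 w.2 u.2, h.B_Z3 h2 u.2, zero_add]

theorem Coord.Psi_conj (C : Coord W D Ψ e) (h : Hyp T W) (x : D → W) (hx : ∀ p, Ψ (x p) = Pi.single p 1) (g : T)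
    (d : D) : Ψ ⟨g * (x d : T) * g⁻¹, h.normal.conj_mem _ (x d).2 g⟩ = Ψ (x (e g * d)) := by
  funext c
  rw [C.conj g (x d) _ rfl, hx, hx]
  by_cases hc : (e g)⁻¹ * c = d
  · have : c = e g * d := by rw [← hc]; group
    rw [hc, this, Pi.single_eq_same, Pi.single_eq_same]
  · rw [Pi.single_eq_of_ne hc, Pi.single_eq_of_ne]
    intro hc'
    apply hc
    rw [hc']; group

theorem Coord.B_x (C : Coord W D Ψ e) (h : Hyp T W) (x : D → W) (hx : ∀ p, Ψ (x p) = Pi.single p 1) (p q : D) :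
    B (x p : T) (x q : T) = B (x 1 : T) (x (p⁻¹ * q) : T) := by
  have hn := h.normal
  obtain ⟨g, hg⟩ := C.esurj p
  have k2 := C.B_congr h (u := x q) (C.Psi_conj h x hx g 1)
  rw [mul_one] at k2
  have k3 := C.B_congr h (u := ⟨g * (x 1 : T) * g⁻¹, hn.conj_mem _ (x 1).2 g⟩) (C.Psi_conj h x hx g (p⁻¹ * q))
  have k4 : e g * (p⁻¹ * q) = q := by rw [hg]; group
  rw [k4] at k3
  rw [← hg, ← k2, B_symm, ← k3, B_symm, B_conj, hg]

theorem Coord.B_sum (C : Coord W D Ψ e) (h : Hyp T W) (x : D → W) (hx : ∀ p, Ψ (x p) = Pi.single p 1) (w v : W) :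
    B (w : T) (v : T) = ∑ p, ∑ q, Ψ w p * Ψ v q * B (x 1 : T) (x (p⁻¹ * q) : T) := by
  have hn := h.normal
  have h1 : ∀ v : W, B (w : T) (v : T) = ∑ p, Ψ w p * B (x p : T) (v : T) := fun v =>
    C.fac x hx (fun w => B (w : T) (v : T)) (fun a b => h.B_mul_left a.2 b.2 v.2)
      (fun a ha => h.B_Z3 ha v.2) w
  have h2 : ∀ p, B (x p : T) (v : T) = ∑ q, Ψ v q * B (x p : T) (x q : T) := fun p =>
    C.fac x hx (fun v => B (x p : T) (v : T)) (fun a b => h.B_mul_right (x p).2 a.2 b.2)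
      (fun a ha => by
        show B (x p : T) (a : T) = 0
        rw [B_symm]; exact h.B_Z3 ha (x p).2) v
  rw [h1 v]
  apply Finset.sum_congr rfl
  intro p _
  rw [h2 p, Finset.mul_sum]
  apply Finset.sum_congr rfl
  intro q _
  rw [C.B_x h x hx p q, mul_assoc]

theorem sum_dih (f : DihedralGroup 4 → ZMod 2) : ∑ p, f p =
    f (DihedralGroup.r 0) + f (DihedralGroup.r 1) + f (DihedralGroup.r 2) + f (DihedralGroup.r 3) +
    (f (DihedralGroup.sr 0) + f (DihedralGroup.sr 1) + f (DihedralGroup.sr 2) + f (DihedralGroup.sr 3)) := by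
  have huniv : (Finset.univ : Finset (DihedralGroup 4)) = {DihedralGroup.r 0, DihedralGroup.r 1, DihedralGroup.r 2,
    DihedralGroup.r 3, DihedralGroup.sr 0, DihedralGroup.sr 1, DihedralGroup.sr 2, DihedralGroup.sr 3} := by decide
  rw [huniv, Finset.sum_insert (by decide), Finset.sum_insert (by decide), Finset.sum_insert (by decide),
    Finset.sum_insert (by decide), Finset.sum_insert (by decide), Finset.sum_insert (by decide),
    Finset.sum_insert (by decide), Finset.sum_singleton]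
  ring

/-- the coset `{1, z, s, sz}` -/
def inS (d : DihedralGroup 4) : Prop :=
  d = DihedralGroup.r 0 ∨ d = DihedralGroup.r 2 ∨ d = DihedralGroup.sr 0 ∨ d = DihedralGroup.sr 2

instance : DecidablePred inS := fun d => by unfold inS; infer_instance

theorem f_z (f : DihedralGroup 4 → ZMod 2) (hS : ∀ d, inS d → f d = 0) (hinv : ∀ d, f d⁻¹ = f d) (hsum : ∑ d, f d = 0)
    (d : DihedralGroup 4) : f (d * DihedralGroup.r 2) = f d := by
  have h1 : f (DihedralGroup.r 3) = f (DihedralGroup.r 1) := hinv (DihedralGroup.r 1)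
  have h2 : f (DihedralGroup.sr 3) = f (DihedralGroup.sr 1) := by
    rw [sum_dih, hS _ (show inS (DihedralGroup.r 0) by decide), hS _ (show inS (DihedralGroup.r 2) by decide),
      hS _ (show inS (DihedralGroup.sr 0) by decide), hS _ (show inS (DihedralGroup.sr 2) by decide), h1] at hsum
    have h3 : ∀ a b c : ZMod 2, 0 + a + 0 + a + (0 + b + 0 + c) = 0 → c = b := by decide
    exact h3 _ _ _ hsum
  by_cases hd : inS d
  · have hd2 : inS (d * DihedralGroup.r 2) := by revert d; decide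
    rw [hS _ hd, hS _ hd2]
  · have hd2 : d = DihedralGroup.r 1 ∨ d = DihedralGroup.r 3 ∨ d = DihedralGroup.sr 1 ∨ d = DihedralGroup.sr 3 := by
      revert d; decide
    rcases hd2 with rfl | rfl | rfl | rfl
    · exact h1
    · exact h1.symm
    · exact h2
    · exact h2.symm

theorem double_sum (f : DihedralGroup 4 → ZMod 2) (hS : ∀ d, inS d → f d = 0)
    (hz : ∀ d, f (d * DihedralGroup.r 2) = f d) (φ ψ : DihedralGroup 4 → ZMod 2)
    (hφ : ∀ d, ¬ inS d → φ (d * DihedralGroup.r 2) = φ d) (hψ : ∀ d, ¬ inS d → ψ (d * DihedralGroup.r 2) = ψ d) :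
    ∑ p, ∑ q, φ p * ψ q * f (p⁻¹ * q) = 0 := by
  rw [← Finset.sum_product']
  have hz' : ∀ d, f (DihedralGroup.r 2 * d) = f d := by
    intro d
    have h1 : DihedralGroup.r 2 * d = d * DihedralGroup.r 2 := by revert d; decide
    rw [h1, hz]
  have two : ∀ a : ZMod 2, a + a = 0 := by decide
  have hne : ∀ a : DihedralGroup 4, a * DihedralGroup.r 2 ≠ a := by decide
  refine Finset.sum_involution (fun x _ => if inS x.2 then (x.1 * DihedralGroup.r 2, x.2) else
    (x.1, x.2 * DihedralGroup.r 2)) ?_ ?_ ?_ ?_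
  · rintro ⟨p, q⟩ -
    by_cases hq : inS q
    · simp only [hq, if_true]
      by_cases hp : inS p
      · have h1 : inS (p⁻¹ * q) := by revert hp hq; revert p q; decide
        have h2 : inS ((p * DihedralGroup.r 2)⁻¹ * q) := by revert hp hq; revert p q; decide
        rw [hS _ h1, hS _ h2, mul_zero, mul_zero, add_zero]
      · have h1 : (p * DihedralGroup.r 2)⁻¹ * q = DihedralGroup.r 2 * (p⁻¹ * q) := by
          rw [mul_inv_rev, mul_assoc]; congr 1
        rw [hφ p hp, h1, hz']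
        exact two _
    · simp only [hq, if_false]
      rw [hψ q hq, ← mul_assoc p⁻¹, hz]
      exact two _
  · rintro ⟨p, q⟩ - _
    by_cases hq : inS q
    · simp only [hq, if_true]
      intro hh
      exact hne p (congrArg Prod.fst hh)
    · simp only [hq, if_false]
      intro hh
      exact hne q (congrArg Prod.snd hh)
  · intro x _; exact Finset.mem_univ _
  · rintro ⟨p, q⟩ -
    have h22 : ∀ a : DihedralGroup 4, a * DihedralGroup.r 2 * DihedralGroup.r 2 = a := by decide
    by_cases hq : inS q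
    · simp only [hq, if_true, h22]
    · have hq2 : ¬ inS (q * DihedralGroup.r 2) := by revert hq; revert q; decide
      simp only [hq, hq2, if_false, h22]

/-- `[Z₄, W]` is not contained in `Z₂` -/
theorem nd0 (h : Hyp T W) (hZ4 : ∀ n ∈ Subgroup.upperCentralSeries T 4, ∀ w ∈ W,
    n * w * n⁻¹ * w⁻¹ ∈ Subgroup.upperCentralSeries T 2) : False := by
  have hn := h.normal
  obtain ⟨z2, h2, h2'⟩ := h.exz (i := 1) (by norm_num)
  obtain ⟨z3, h3, h3'⟩ := h.exz (i := 2) (by norm_num)
  obtain ⟨e, s, ρ, hes, heρ, hs, hρ⟩ := h.dih h2 h2' h3 h3'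
  obtain ⟨Ψ, C⟩ := h.exists_coord e
  obtain ⟨x, hx⟩ := C.exists_x
  set f : DihedralGroup 4 → ZMod 2 := fun d => B (x 1 : T) (x d : T) with hf
  have hfg : ∀ g : T, g * z2 = z2 * g → f (e.symm (g : T ⧸ W)) = 0 := by
    intro g hg
    have k1 := C.Psi_conj h x hx g 1
    have k2 := C.B_congr h (u := x 1) k1
    rw [mul_one] at k2
    show B (x 1 : T) (x (e.symm (g : T ⧸ W)) : T) = 0
    rw [B_symm, ← k2, B_symm]
    exact h.B_S h2 h2' hg (x 1).2
  have hS : ∀ d, inS d → f d = 0 := by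
    rintro d (rfl | rfl | rfl | rfl)
    · have := hfg 1 (by simp)
      rwa [QuotientGroup.mk_one, map_one] at this
    · have := hfg (ρ * ρ) hρ
      rw [QuotientGroup.mk_mul, map_mul, ← heρ, e.symm_apply_apply] at this
      exact this
    · have := hfg s hs
      rwa [← hes, e.symm_apply_apply] at this
    · have := hfg (s * (ρ * ρ)) (by rw [mul_assoc, hρ, ← mul_assoc, hs, mul_assoc])
      rw [QuotientGroup.mk_mul, QuotientGroup.mk_mul, map_mul, map_mul, ← heρ, ← hes, e.symm_apply_apply,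
        e.symm_apply_apply] at this
      exact this
  have hinv : ∀ d, f d⁻¹ = f d := by
    intro d
    show B (x 1 : T) (x d⁻¹ : T) = B (x 1 : T) (x d : T)
    have := C.B_x h x hx d 1
    rw [mul_one] at this
    rw [← this, B_symm]
  have hsum : ∑ d, f d = 0 := by
    obtain ⟨n, hnn⟩ := C.surj (fun _ => 1)
    have hn4 : (n : T) ∈ Subgroup.upperCentralSeries T 4 := by
      rw [mem_ucs_succ]
      intro g
      have k1 : Ψ ⟨g * (n : T) * g⁻¹, hn.conj_mem _ n.2 g⟩ = Ψ n := by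
        funext d
        rw [C.conj g n _ rfl, hnn]
      have h0 : Ψ (1 : W) = 0 := by rw [C.ker]; exact one_mem _
      have k2 : Ψ (⟨g * (n : T) * g⁻¹, hn.conj_mem _ n.2 g⟩ * n⁻¹) = 0 := by
        have h5 : Ψ (n * n⁻¹) = 0 := by rw [mul_inv_cancel, h0]
        rw [C.mul] at h5 ⊢
        rw [k1, h5]
      have k3 := (C.ker _).1 k2
      exact k3
    have k4 : B (n : T) (x 1 : T) = 0 := mu_eq_zero.2 (hZ4 n hn4 (x 1) (x 1).2)
    rw [B_symm] at k4
    have k5 := C.fac x hx (fun v => B (x 1 : T) (v : T)) (fun a b => h.B_mul_right (x 1).2 a.2 b.2)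
      (fun a ha => by
        show B (x 1 : T) (a : T) = 0
        rw [B_symm]; exact h.B_Z3 ha (x 1).2) n
    simp only [hnn, one_mul] at k5
    rw [k4] at k5
    exact k5.symm
  have hz := f_z f hS hinv hsum
  let χ : W →* Multiplicative (ZMod 2 × ZMod 2) :=
    { toFun := fun w => Multiplicative.ofAdd (Ψ w (DihedralGroup.r 1) + Ψ w (DihedralGroup.r 3),
        Ψ w (DihedralGroup.sr 1) + Ψ w (DihedralGroup.sr 3))
      map_one' := by
        have h0 : Ψ (1 : W) = 0 := by rw [C.ker]; exact one_mem _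
        rw [h0]; rfl
      map_mul' := by
        intro v w
        rw [C.mul, ← ofAdd_add]
        congr 1
        simp only [Pi.add_apply, Prod.mk_add_mk]
        rw [add_add_add_comm, add_add_add_comm (Ψ v (DihedralGroup.sr 1))] }
  have hidx : χ.ker.index ≤ 4 := by
    rw [index_ker]
    have h5 : Nat.card χ.range ≤ Nat.card (Multiplicative (ZMod 2 × ZMod 2)) :=
      Nat.card_le_card_of_injective _ Subtype.val_injective
    have h6 : Nat.card (Multiplicative (ZMod 2 × ZMod 2)) = 4 := by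
      rw [Nat.card_congr Multiplicative.toAdd, Nat.card_prod, Nat.card_zmod]
    omega
  have hχ : ∀ w : W, w ∈ χ.ker → ∀ d, ¬ inS d → Ψ w (d * DihedralGroup.r 2) = Ψ w d := by
    intro w hw d hd
    have h5 : (Ψ w (DihedralGroup.r 1) + Ψ w (DihedralGroup.r 3),
        Ψ w (DihedralGroup.sr 1) + Ψ w (DihedralGroup.sr 3)) = ((0, 0) : ZMod 2 × ZMod 2) :=
      Multiplicative.ofAdd.injective hw
    have h6 := congrArg Prod.fst h5
    have h7 := congrArg Prod.snd h5
    simp only at h6 h7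
    have h8 : ∀ a b : ZMod 2, a + b = 0 → b = a := by decide
    have hd2 : d = DihedralGroup.r 1 ∨ d = DihedralGroup.r 3 ∨ d = DihedralGroup.sr 1 ∨ d = DihedralGroup.sr 3 := by
      revert d; decide
    rcases hd2 with rfl | rfl | rfl | rfl
    · exact h8 _ _ h6
    · exact (h8 _ _ h6).symm
    · exact h8 _ _ h7
    · exact (h8 _ _ h7).symm
  apply h.lemmaA χ.ker hidx
  intro a ha b hb
  have h5 : B (a : T) (b : T) = 0 := by
    rw [C.B_sum h x hx]
    exact double_sum f hS hz (Ψ a) (Ψ b) (hχ a ha) (hχ b hb)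
  exact mu_eq_zero.1 h5

/-- the form is nondegenerate -/
theorem nd (h : Hyp T W) {w : T} (hw : w ∈ W) (hr : ∀ v ∈ W, w * v * w⁻¹ * v⁻¹ ∈ Subgroup.upperCentralSeries T 2) :
    w ∈ Subgroup.upperCentralSeries T 3 := by
  have hn := h.normal
  by_contra hw3
  have hZ2n : (Subgroup.upperCentralSeries T 2).Normal := inferInstance
  -- the radical
  let R : Subgroup T :=
    { carrier := {u | u ∈ W ∧ ∀ v ∈ W, B u v = 0}
      one_mem' := ⟨W.one_mem, fun v hv => h.B_Z3 (one_mem _) hv⟩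
      mul_mem' := by
        rintro a b ⟨ha, ha'⟩ ⟨hb, hb'⟩
        exact ⟨W.mul_mem ha hb, fun v hv => by rw [h.B_mul_left ha hb hv, ha' v hv, hb' v hv, add_zero]⟩
      inv_mem' := by
        rintro a ⟨ha, ha'⟩
        refine ⟨W.inv_mem ha, fun v hv => ?_⟩
        have h5 := h.B_mul_left ha (W.inv_mem ha) hv
        rw [mul_inv_cancel, h.B_Z3 (one_mem _) hv, ha' v hv, zero_add] at h5
        exact h5.symm }
  have hRn : R.Normal := by
    constructor
    rintro u ⟨hu, hu'⟩ g
    refine ⟨hn.conj_mem u hu g, fun v hv => ?_⟩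
    have h5 := hu' (g⁻¹ * v * g⁻¹⁻¹) (hn.conj_mem v hv g⁻¹)
    rw [← B_conj g] at h5
    have h6 : g * (g⁻¹ * v * g⁻¹⁻¹) * g⁻¹ = v := by group
    rwa [h6] at h5
  obtain ⟨y, hyR, hy3, hy⟩ := exists_central_mod h.hT (F := Subgroup.upperCentralSeries T 3) inferInstance hRn
    (fun hle => hw3 (hle ⟨hw, fun v hv => mu_eq_zero.2 (hr v hv)⟩))
  have hy4 : y ∈ Subgroup.upperCentralSeries T 4 := mem_ucs_succ.2 fun g => (hy g).2
  apply h.nd0
  intro n hn4 v hv
  have hnR : n ∈ R := by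
    by_cases hn3 : n ∈ Subgroup.upperCentralSeries T 3
    · exact ⟨h.Z3W hn3, fun v hv => h.B_Z3 hn3 hv⟩
    · have h5 := h.zmul (i := 3) (by norm_num) hn4 (inv_mem hy4) hn3 (by rwa [inv_mem_iff])
      have h6 : n = (n * y⁻¹) * y := by group
      rw [h6]
      exact R.mul_mem ⟨h.Z3W h5, fun v hv => h.B_Z3 h5 hv⟩ hyR
  exact mu_eq_zero.1 (hnR.2 v hv)

end Cfsg.Agent.Lib.RudB.Hyp
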