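import Cfsg.Agent.Lib.RudF

/-!
# Sylow 2-subgroups of Rudvalis type, VII: automorphisms of odd order (helper80)
-/

set_option autoImplicit false
set_option linter.unusedSectionVars false

open Subgroup
open scoped commutatorElement

namespace Cfsg.Agent.Lib.RudB.Hyp

open Cfsg.Agent.Lib.RudA Cfsg.Agent.Lib.RudB

variable {T : Type*} [Group T] [Finite T] {W : Subgroup T}

/-- an automorphism of odd order which is trivial on `K` and moves `z` inside its coset of `K` fixes `z` -/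
theorem fix_of_fix (hT : IsPGroup 2 T) (φ : MulAut T) {n : ℕ} (hn : Odd n) (hφ : φ ^ n = 1) {c z : T} (hc : φ c = c)
    (hz : φ z = c * z) : φ z = z := by
  have h1 : ∀ m : ℕ, (φ ^ m) z = c ^ m * z := by
    intro m
    induction m with
    | zero => simp
    | succ m ih =>
      rw [pow_succ', MulAut.mul_apply, ih, map_mul, map_pow, hc, hz, ← mul_assoc, ← pow_succ]
  have h2 : c ^ n = 1 := by
    have h3 := h1 n
    rw [hφ, MulAut.one_apply] at h3
    exact (mul_eq_right.1 h3.symm)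
  obtain ⟨k, hk⟩ := hT c
  have h3 : orderOf c ∣ n := orderOf_dvd_of_pow_eq_one h2
  have h4 : orderOf c ∣ 2 ^ k := orderOf_dvd_of_pow_eq_one hk
  have h5 : Nat.Coprime n (2 ^ k) := Nat.Coprime.pow_right k (Nat.coprime_two_right.2 hn)
  have h6 : orderOf c = 1 := Nat.eq_one_of_dvd_coprimes h5 h3 h4
  rw [orderOf_eq_one_iff] at h6
  rw [hz, h6, one_mul]

theorem ucs_map (φ : MulAut T) (i : ℕ) {z : T} : φ z ∈ Subgroup.upperCentralSeries T i ↔
    z ∈ Subgroup.upperCentralSeries T i := by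
  have h1 : (Subgroup.upperCentralSeries T i).Characteristic := inferInstance
  have h2 := (characteristic_iff_comap_eq.1 h1) φ
  constructor
  · intro h; rw [← h2]; exact h
  · intro h; rw [← h2] at h; exact h

/-- automorphisms of odd order are trivial -/
theorem aut_odd (h : Hyp T W) (φ : MulAut T) {n : ℕ} (hodd : Odd n) (hφ : φ ^ n = 1) : φ = 1 := by
  have hn := h.normal
  -- trivial on `Z_i`, `i ≤ 3`
  have hZ : ∀ i ≤ 3, ∀ z ∈ Subgroup.upperCentralSeries T i, φ z = z := by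
    intro i
    induction i with
    | zero =>
      intro _ z hz
      rw [Subgroup.upperCentralSeries_zero, mem_bot] at hz
      rw [hz, map_one]
    | succ i ih =>
      intro hi z hz
      have h1 : φ z * z⁻¹ ∈ Subgroup.upperCentralSeries T i := by
        by_cases hzi : z ∈ Subgroup.upperCentralSeries T i
        · exact mul_mem ((ucs_map φ i).2 hzi) (inv_mem hzi)
        · exact h.zmul (by omega) ((ucs_map φ _).2 hz) (inv_mem hz) (by rwa [ucs_map]) (by rwa [inv_mem_iff])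
      exact fix_of_fix h.hT φ hodd hφ (ih (by omega) _ h1) (by group)
  have hZ3 := hZ 3 le_rfl
  -- trivial on `T/W`
  have hTW : ∀ t : T, φ t * t⁻¹ ∈ W := by
    intro t
    rw [h.hW, mem_centralizer_iff]
    intro z hz
    have hz3 : z ∈ Subgroup.upperCentralSeries T 3 := hz
    have hn3 : (Subgroup.upperCentralSeries T 3).Normal := inferInstance
    have h1 : t⁻¹ * z * t⁻¹⁻¹ ∈ Subgroup.upperCentralSeries T 3 := hn3.conj_mem _ hz3 t⁻¹
    have h2 := hZ3 _ h1
    rw [map_mul, map_mul, map_inv, map_inv, hZ3 z hz3, map_inv] at h2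
    have h3 : z * (φ t * t⁻¹) = φ t * ((φ t)⁻¹ * z * (φ t)⁻¹⁻¹) * t⁻¹ := by group
    rw [h3, h2]; group
  have hWW : ∀ w ∈ W, φ w ∈ W := by
    intro w hw
    have := W.mul_mem (hTW w) hw
    have h1 : φ w * w⁻¹ * w = φ w := by group
    rwa [h1] at this
  have hWWi : ∀ (i : ℕ), ∀ w ∈ W, (φ ^ i) w ∈ W := by
    intro i
    induction i with
    | zero => intro w hw; simpa using hw
    | succ i ih => intro w hw; rw [pow_succ', MulAut.mul_apply]; exact hWW _ (ih w hw)
  have hTWi : ∀ (i : ℕ) (t : T), (φ ^ i) t * t⁻¹ ∈ W := by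
    intro i t
    induction i with
    | zero => simp
    | succ i ih =>
      rw [pow_succ', MulAut.mul_apply]
      have h1 : φ ((φ ^ i) t) * t⁻¹ = (φ ((φ ^ i) t) * ((φ ^ i) t)⁻¹) * ((φ ^ i) t * t⁻¹) := by group
      rw [h1]
      exact W.mul_mem (hTW _) ih
  -- coordinates
  obtain ⟨Ψ, C⟩ := h.exists_coord (MulEquiv.refl (T ⧸ W))
  set e : T → T ⧸ W := fun g => (MulEquiv.refl (T ⧸ W)).symm (g : T ⧸ W) with he
  have h0 : Ψ (1 : W) = 0 := by rw [C.ker]; exact one_mem _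
  have hΨinv : ∀ v : W, Ψ v⁻¹ = - Ψ v := by
    intro v
    rw [eq_neg_iff_add_eq_zero, ← C.mul, inv_mul_cancel, h0]
  let a : ℕ → W → W := fun i w => ⟨(φ ^ i) (w : T), hWWi i w w.2⟩
  have amul : ∀ i v w, a i (v * w) = a i v * a i w := fun i v w => Subtype.ext (by simp [a])
  have ainv : ∀ i v, a i v⁻¹ = (a i v)⁻¹ := fun i v => Subtype.ext (by simp [a])
  let π : W → (T ⧸ W → ZMod 2) := fun w => ∑ i ∈ Finset.range n, Ψ (a i w)
  have πmul : ∀ v w, π (v * w) = π v + π w := by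
    intro v w
    simp only [π, amul, C.mul, Finset.sum_add_distrib]
  have π1 : π 1 = 0 := by
    have := πmul 1 1
    rw [mul_one] at this
    exact left_eq_add.1 this
  have πinv : ∀ v, π v⁻¹ = - π v := by
    intro v
    rw [eq_neg_iff_add_eq_zero, ← πmul, inv_mul_cancel, π1]
  -- the kernel of `π`
  let K : Subgroup T :=
    { carrier := {u | ∃ hu : u ∈ W, π ⟨u, hu⟩ = 0}
      one_mem' := ⟨W.one_mem, π1⟩
      mul_mem' := by
        rintro u v ⟨hu, hu'⟩ ⟨hv, hv'⟩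
        refine ⟨W.mul_mem hu hv, ?_⟩
        have := πmul ⟨u, hu⟩ ⟨v, hv⟩
        rw [hu', hv', add_zero] at this
        exact this
      inv_mem' := by
        rintro u ⟨hu, hu'⟩
        refine ⟨W.inv_mem hu, ?_⟩
        have := πinv ⟨u, hu⟩
        rw [hu', neg_zero] at this
        exact this }
  have hKn : K.Normal := by
    constructor
    rintro u ⟨hu, hu'⟩ g
    refine ⟨hn.conj_mem u hu g, ?_⟩
    have key : ∀ i d, Ψ (a i ⟨g * u * g⁻¹, hn.conj_mem u hu g⟩) d = Ψ (a i ⟨u, hu⟩) ((e g)⁻¹ * d) := by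
      intro i d
      have h1 : e ((φ ^ i) g) = e g := by
        show (MulEquiv.refl (T ⧸ W)).symm (((φ ^ i) g : T) : T ⧸ W) = (MulEquiv.refl (T ⧸ W)).symm (g : T ⧸ W)
        congr 1
        have h2 := hTWi i g
        rw [QuotientGroup.eq]
        have h3 : ((φ ^ i) g)⁻¹ * g = g⁻¹ * ((φ ^ i) g * g⁻¹)⁻¹ * g⁻¹⁻¹ := by group
        rw [h3]
        exact hn.conj_mem _ (W.inv_mem h2) _
      rw [← h1]
      exact C.conj ((φ ^ i) g) (a i ⟨u, hu⟩) _ (by simp [a]) d
    funext d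
    have h2 := congrFun hu' ((e g)⁻¹ * d)
    simp only [π, Finset.sum_apply] at h2 ⊢
    simp only [key]
    exact h2
  have hK3 : K ≤ Subgroup.upperCentralSeries T 3 := by
    by_contra hne
    obtain ⟨y, ⟨hyW, hyK⟩, hy3, hy⟩ := exists_central_mod h.hT (F := Subgroup.upperCentralSeries T 3) inferInstance
      hKn hne
    have hy4 : y ∈ Subgroup.upperCentralSeries T 4 := mem_ucs_succ.2 fun g => (hy g).2
    have h1 : ∀ i, Ψ (a i ⟨y, hyW⟩) = Ψ ⟨y, hyW⟩ := by
      intro i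
      have h2 : (φ ^ i) y * y⁻¹ ∈ Subgroup.upperCentralSeries T 3 :=
        h.zmul (i := 3) (by norm_num) ((ucs_map (φ ^ i) 4).2 hy4) (inv_mem hy4) (by rwa [ucs_map])
          (by rwa [inv_mem_iff])
      have h3 : Ψ (a i ⟨y, hyW⟩ * (⟨y, hyW⟩ : W)⁻¹) = 0 := (C.ker _).2 h2
      rw [C.mul, hΨinv, ← sub_eq_add_neg, sub_eq_zero] at h3
      exact h3
    have h2 : π ⟨y, hyW⟩ = Ψ ⟨y, hyW⟩ := by
      simp only [π, h1, Finset.sum_const, Finset.card_range]
      obtain ⟨k, hk⟩ := hodd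
      have two : ∀ a : ZMod 2, a + a = 0 := by decide
      rw [hk, add_smul, one_smul, mul_comm, mul_smul, two_smul]
      have : Ψ ⟨y, hyW⟩ + Ψ ⟨y, hyW⟩ = 0 := by funext d; exact two _
      rw [this, smul_zero, zero_add]
    rw [h2, C.ker] at hyK
    exact hy3 hyK
  have hW3 : ∀ w ∈ W, φ w * w⁻¹ ∈ Subgroup.upperCentralSeries T 3 := by
    intro w hw
    apply hK3
    refine ⟨hTW w, ?_⟩
    have h1 : (⟨φ w * w⁻¹, hTW w⟩ : W) = a 1 ⟨w, hw⟩ * (⟨w, hw⟩ : W)⁻¹ := Subtype.ext (by simp [a])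
    rw [h1, πmul, πinv]
    have h2 : ∀ i, a i (a 1 ⟨w, hw⟩) = a (i + 1) ⟨w, hw⟩ := by
      intro i
      apply Subtype.ext
      show (φ ^ i) ((φ ^ 1) w) = (φ ^ (i + 1)) w
      rw [pow_one, pow_succ, MulAut.mul_apply]
    simp only [π, h2]
    rw [← sub_eq_add_neg, ← Finset.sum_sub_distrib, Finset.sum_range_sub (fun i => Ψ (a i ⟨w, hw⟩))]
    have h3 : a n ⟨w, hw⟩ = a 0 ⟨w, hw⟩ := by
      apply Subtype.ext
      show (φ ^ n) w = (φ ^ 0) w
      rw [hφ, pow_zero]
    rw [h3, sub_self]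
  have hWfix : ∀ w ∈ W, φ w = w := fun w hw =>
    fix_of_fix h.hT φ hodd hφ (hZ3 _ (hW3 w hw)) (by group)
  ext t
  exact fix_of_fix h.hT φ hodd hφ (hWfix _ (hTW t)) (by group)

end Cfsg.Agent.Lib.RudB.Hyp
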