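import Cfsg.Agent.Lib.RudG

/-!
# Sylow 2-subgroups of Rudvalis type, VIII: `W` is the only subgroup of its isomorphism type of `T` (helper80)
-/

set_option autoImplicit false
set_option linter.unusedSectionVars false

open Subgroup
open scoped commutatorElement

namespace Cfsg.Agent.Lib.RudB.Hyp

open Cfsg.Agent.Lib.RudA Cfsg.Agent.Lib.RudB

variable {T : Type*} [Group T] [Finite T] {W : Subgroup T}

theorem card_inf_mul (H K : Subgroup T) : Nat.card ↥(H ⊓ K : Subgroup T) * H.relIndex K = Nat.card K := by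
  rw [← relIndex_bot_left, ← relIndex_bot_left, ← inf_relIndex_right H K]
  exact relIndex_mul_relIndex _ _ _ bot_le inf_le_right

/-- functions invariant under a nontrivial translation -/
theorem inv_card {D : Type*} [Group D] [Finite D] (hD : Nat.card D = 8) {u : D} (hu : u ≠ 1) :
    Nat.card {φ : D → ZMod 2 // ∀ d, φ (u⁻¹ * d) = φ d} ≤ 16 := by
  have hinv : ∀ (φ : D → ZMod 2), (∀ d, φ (u⁻¹ * d) = φ d) → ∀ v ∈ zpowers u, ∀ d, φ (v * d) = φ d := by
    intro φ hφ v hv
    let S : Subgroup D :=
      { carrier := {v | ∀ d, φ (v * d) = φ d}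
        one_mem' := fun d => by rw [one_mul]
        mul_mem' := by
          intro a b ha hb d
          rw [mul_assoc, ha, hb]
        inv_mem' := by
          intro a ha d
          rw [← ha (a⁻¹ * d), mul_inv_cancel_left] }
    have h1 : u⁻¹ ∈ S := hφ
    have h2 : u ∈ S := by
      have := S.inv_mem h1
      rwa [inv_inv] at this
    exact (zpowers_le.2 h2) hv
  let F : {φ : D → ZMod 2 // ∀ d, φ (u⁻¹ * d) = φ d} → (Quotient (QuotientGroup.rightRel (zpowers u)) → ZMod 2) :=
    fun φ => Quotient.lift φ.1 (by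
      intro a b hab
      have h1 : b * a⁻¹ ∈ zpowers u := QuotientGroup.rightRel_apply.1 hab
      have h2 := hinv φ.1 φ.2 _ h1 a
      rw [inv_mul_cancel_right] at h2
      exact h2.symm)
  have hF : Function.Injective F := by
    intro φ ψ h
    apply Subtype.ext
    funext d
    exact congrFun h (Quotient.mk _ d)
  have hfin : Finite (Quotient (QuotientGroup.rightRel (zpowers u))) := Quotient.finite _
  have h1 : Nat.card (Quotient (QuotientGroup.rightRel (zpowers u))) ≤ 4 := by
    have h2 : Nat.card (Quotient (QuotientGroup.rightRel (zpowers u))) = (zpowers u).index := by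
      rw [index_eq_card]
      exact Nat.card_congr (QuotientGroup.quotientRightRelEquivQuotientLeftRel _)
    rw [h2]
    have h3 := (zpowers u).card_mul_index
    rw [hD, Nat.card_zpowers] at h3
    have h4 : orderOf u ≠ 1 := by rwa [Ne, orderOf_eq_one_iff]
    have h5 : 0 < orderOf u := orderOf_pos u
    by_contra hlt
    push Not at hlt
    have : 2 * 5 ≤ orderOf u * (zpowers u).index := Nat.mul_le_mul (by omega) hlt
    omega
  calc _ ≤ Nat.card (Quotient (QuotientGroup.rightRel (zpowers u)) → ZMod 2) := Nat.card_le_card_of_injective F hF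
    _ = 2 ^ Nat.card (Quotient (QuotientGroup.rightRel (zpowers u))) := by rw [Nat.card_fun, Nat.card_zmod]
    _ ≤ 2 ^ 4 := Nat.pow_le_pow_right (by norm_num) h1
    _ = 16 := by norm_num

/-- totally isotropic subgroups are small -/
theorem iso_card (h : Hyp T W) (A : Subgroup T) (hA : A ≤ W)
    (hiso : ∀ a ∈ A, ∀ b ∈ A, a * b * a⁻¹ * b⁻¹ ∈ Subgroup.upperCentralSeries T 2) :
    Nat.card A ≤ 8 * A.relIndex W := by
  -- the perp of `A'` inside `A`
  let R : Subgroup T → Subgroup T := fun A' =>
    { carrier := {a | a ∈ A ∧ ∀ v ∈ A' ⊓ W, B a v = 0}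
      one_mem' := ⟨A.one_mem, fun v hv => h.B_Z3 (one_mem _) hv.2⟩
      mul_mem' := by
        rintro a b ⟨ha, ha'⟩ ⟨hb, hb'⟩
        exact ⟨A.mul_mem ha hb, fun v hv => by
          rw [h.B_mul_left (hA ha) (hA hb) hv.2, ha' v hv, hb' v hv, add_zero]⟩
      inv_mem' := by
        rintro a ⟨ha, ha'⟩
        refine ⟨A.inv_mem ha, fun v hv => ?_⟩
        have h5 := h.B_mul_left (hA ha) (W.inv_mem (hA ha)) hv.2
        rw [mul_inv_cancel, h.B_Z3 (one_mem _) hv.2, ha' v hv, zero_add] at h5
        exact h5.symm }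
  have hbase : A ∈ {A' : Subgroup T | A ≤ A' ∧ A' ≤ W ∧ Nat.card A ≤ Nat.card (R A') * A.relIndex A'} := by
    refine ⟨le_rfl, hA, ?_⟩
    rw [relIndex_self, mul_one]
    apply Subgroup.card_le_of_le
    intro a ha
    exact ⟨ha, fun v hv => mu_eq_zero.2 (hiso a ha v hv.1)⟩
  obtain ⟨A', hA'⟩ := (Set.toFinite {A' : Subgroup T | A ≤ A' ∧ A' ≤ W ∧
    Nat.card A ≤ Nat.card (R A') * A.relIndex A'}).exists_maximal ⟨A, hbase⟩
  obtain ⟨⟨h1, h2, h3⟩, hmax⟩ := hA'
  have hA'W : A' = W := by
    by_contra hne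
    obtain ⟨w, hw, hw'⟩ := SetLike.not_le_iff_exists.1 (fun hle : W ≤ A' => hne (le_antisymm h2 hle))
    have hsup : A' ⊔ zpowers w ≤ W := sup_le h2 (zpowers_le.2 hw)
    have hlt : A' ≤ A' ⊔ zpowers w := le_sup_left
    have hwm : w ∈ A' ⊔ zpowers w := (le_sup_right : zpowers w ≤ A' ⊔ zpowers w) (mem_zpowers w)
    have hmem : A' ⊔ zpowers w ∈ {A' : Subgroup T | A ≤ A' ∧ A' ≤ W ∧
        Nat.card A ≤ Nat.card (R A') * A.relIndex A'} := by
      refine ⟨h1.trans hlt, hsup, ?_⟩
      -- index grows
      have e1 : A.relIndex A' * A'.relIndex (A' ⊔ zpowers w) = A.relIndex (A' ⊔ zpowers w) :=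
        relIndex_mul_relIndex _ _ _ h1 hlt
      have e2 : 2 ≤ A'.relIndex (A' ⊔ zpowers w) := by
        have k1 : A'.relIndex (A' ⊔ zpowers w) ≠ 1 := by
          rw [Ne, relIndex_eq_one]
          intro hle
          exact hw' (hle hwm)
        have k2 : A'.relIndex (A' ⊔ zpowers w) ≠ 0 := by
          have k3 := card_inf_mul A' (A' ⊔ zpowers w)
          intro k4
          rw [k4, mul_zero] at k3
          exact Nat.card_pos.ne k3
        omega
      -- perps
      have e3 : Nat.card (R A') ≤ 2 * Nat.card (R (A' ⊔ zpowers w)) := by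
        have hle : R (A' ⊔ zpowers w) ≤ R A' := fun a ha => ⟨ha.1, fun v hv => ha.2 v ⟨hlt hv.1, hv.2⟩⟩
        -- elements of `R A'` orthogonal to `w` lie in the smaller group
        have hperp : ∀ a ∈ R A', B a w = 0 → a ∈ R (A' ⊔ zpowers w) := by
          intro a ha haw
          refine ⟨ha.1, fun v hv => ?_⟩
          let S : Subgroup T :=
            { carrier := {v | v ∈ W ∧ B a v = 0}
              one_mem' := ⟨W.one_mem, by rw [B_symm]; exact h.B_Z3 (one_mem _) (hA ha.1)⟩
              mul_mem' := by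
                rintro x y ⟨hx, hx'⟩ ⟨hy, hy'⟩
                exact ⟨W.mul_mem hx hy, by rw [h.B_mul_right (hA ha.1) hx hy, hx', hy', add_zero]⟩
              inv_mem' := by
                rintro x ⟨hx, hx'⟩
                refine ⟨W.inv_mem hx, ?_⟩
                have h5 := h.B_mul_right (hA ha.1) hx (W.inv_mem hx)
                rw [mul_inv_cancel, hx', zero_add, B_symm, h.B_Z3 (one_mem _) (hA ha.1)] at h5
                exact h5.symm }
          have hS : A' ⊔ zpowers w ≤ S := sup_le (fun x hx => ⟨h2 hx, ha.2 x ⟨hx, h2 hx⟩⟩)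
            (zpowers_le.2 ⟨hw, haw⟩)
          exact (hS hv.1).2
        have k1 : (R (A' ⊔ zpowers w)).relIndex (R A') ∣ 2 := by
          rw [relIndex_dvd_two_iff]
          by_cases hex : ∃ a ∈ R A', B a w ≠ 0
          · obtain ⟨a, ha, haw⟩ := hex
            refine ⟨a, ha, fun b hb => ?_⟩
            rcases zmod2 (B b w) with hb0 | hb1
            · exact Or.inr (hperp b hb hb0)
            · left
              apply hperp _ ((R A').mul_mem hb ha)
              rw [h.B_mul_left (hA hb.1) (hA ha.1) hw, hb1]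
              rcases zmod2 (B a w) with ha0 | ha1
              · exact absurd ha0 haw
              · rw [ha1]; decide
          · push Not at hex
            exact ⟨1, (R A').one_mem, fun b hb => Or.inr (hperp b hb (hex b hb))⟩
        have k2 := card_inf_mul (R (A' ⊔ zpowers w)) (R A')
        rw [inf_eq_left.2 hle] at k2
        rw [← k2, mul_comm]
        exact Nat.mul_le_mul_right _ (Nat.le_of_dvd (by norm_num) k1)
      calc Nat.card A ≤ Nat.card (R A') * A.relIndex A' := h3
        _ ≤ (2 * Nat.card (R (A' ⊔ zpowers w))) * A.relIndex A' := Nat.mul_le_mul_right _ e3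
        _ = Nat.card (R (A' ⊔ zpowers w)) * (A.relIndex A' * 2) := by ring
        _ ≤ Nat.card (R (A' ⊔ zpowers w)) * A.relIndex (A' ⊔ zpowers w) := by
            rw [← e1]
            exact Nat.mul_le_mul_left _ (Nat.mul_le_mul_left _ e2)
    exact hw' (hmax hmem hlt hwm)
  subst hA'W
  have h4 : Nat.card (R A') ≤ 8 := by
    have h5 : R A' ≤ Subgroup.upperCentralSeries T 3 := fun a ha =>
      h.nd (hA ha.1) (fun v hv => mu_eq_zero.1 (ha.2 v ⟨hv, hv⟩))
    calc Nat.card (R A') ≤ Nat.card (Subgroup.upperCentralSeries T 3) := Subgroup.card_le_of_le h5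
      _ = 8 := by rw [h.cZ 3 (by norm_num)]; norm_num
  exact h3.trans (Nat.mul_le_mul_right _ h4)

/-- the main result on embeddings `W → T` -/
theorem weak (h : Hyp T W) (c : W →* T) (hc : Function.Injective c) : c.range = W := by
  have hn := h.normal
  have hcW1 : Nat.card c.range = 2 ^ 11 := by
    rw [← h.cardW]
    exact (Nat.card_congr (MonoidHom.ofInjective hc).toEquiv).symm
  have hcT : Nat.card T = 2 ^ 14 := by
    rw [← W.card_mul_index, h.cardW, h.idx]; norm_num
  have hi1 : c.range.index = 8 := by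
    have h1 := c.range.card_mul_index
    rw [hcW1, hcT] at h1
    norm_num at h1
    omega
  by_contra hne
  have hm8 : W.relIndex c.range ≤ 8 := by
    have h1 : W.relIndex (⊤ : Subgroup T) ≠ 0 := by rw [relIndex_top_right, h.idx]; norm_num
    have h2 := relIndex_le_of_le_right (le_top : c.range ≤ ⊤) h1
    rwa [relIndex_top_right, h.idx] at h2
  have hm8' : c.range.relIndex W ≤ 8 := by
    have h1 : c.range.relIndex (⊤ : Subgroup T) ≠ 0 := by rw [relIndex_top_right, hi1]; norm_num
    have h2 := relIndex_le_of_le_right (le_top : W ≤ ⊤) h1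
    rwa [relIndex_top_right, hi1] at h2
  have hcard1 := card_inf_mul W c.range
  have hcard2 := card_inf_mul c.range W
  rw [hcW1] at hcard1
  rw [h.cardW, inf_comm] at hcard2
  -- `Z₃ ≤ W₁`
  have hZ3W1 : Subgroup.upperCentralSeries T 3 ≤ c.range := by
    have h1 : frattini W ≤ c.range.subgroupOf W := h.hd _ (by
      show c.range.relIndex W ≤ 16
      omega)
    rw [← h.FrZ]
    rintro _ ⟨v, hv, rfl⟩
    exact h1 hv
  -- `Z* ≤ W`
  set Zs : Subgroup T := (frattini W).map c with hZs
  have hZsW : Zs ≤ W := by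
    have h1 : frattini W ≤ W.comap c := h.hd _ (by
      rw [index_comap]; omega)
    rintro _ ⟨v, hv, rfl⟩
    exact h1 hv
  have hZscard : Nat.card Zs = 8 := by
    rw [hZs, ← Nat.card_congr ((frattini W).equivMapOfInjective c hc).toEquiv, ← card_Fr, h.FrZ,
      h.cZ 3 (by norm_num)]
    norm_num
  have hZscen : ∀ z ∈ Zs, ∀ y ∈ c.range, y * z = z * y := by
    rintro _ ⟨v, hv, rfl⟩ _ ⟨w, rfl⟩
    rw [← map_mul, ← map_mul]
    congr 1
    exact Subtype.ext (h.cen w.2 ((h.mem_Fr v).1 hv))
  have hZscomm : ∀ a ∈ c.range, ∀ b ∈ c.range, a * b * a⁻¹ * b⁻¹ ∈ Zs := by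
    rintro _ ⟨a, rfl⟩ _ ⟨b, rfl⟩
    refine ⟨a * b * a⁻¹ * b⁻¹, ?_, by simp⟩
    show a * b * a⁻¹ * b⁻¹ ∈ frattini W
    rw [h.mem_Fr]
    exact h.commZ a.2 b.2
  have hnle : ¬ c.range ≤ W := by
    intro hle
    exact hne (Subgroup.eq_of_le_of_card_ge hle (by rw [hcW1, h.cardW]))
  obtain ⟨y, hy, hyW⟩ := SetLike.not_le_iff_exists.1 hnle
  set m := W.relIndex c.range with hm
  have hmm : c.range.relIndex W = m := by
    have : Nat.card ↥(W ⊓ c.range : Subgroup T) * m = Nat.card ↥(W ⊓ c.range : Subgroup T) * c.range.relIndex W := by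
      rw [hcard1, hcard2]
    exact (Nat.eq_of_mul_eq_mul_left Nat.card_pos this).symm
  by_cases hm2 : m ≤ 2
  · -- `m = 2`
    obtain ⟨Ψ, C⟩ := h.exists_coord (MulEquiv.refl (T ⧸ W))
    set e : T → T ⧸ W := fun g => (MulEquiv.refl (T ⧸ W)).symm (g : T ⧸ W) with he
    have h0 : Ψ (1 : W) = 0 := by rw [C.ker]; exact one_mem _
    have hΨinv : ∀ v : W, Ψ v⁻¹ = - Ψ v := by
      intro v
      rw [eq_neg_iff_add_eq_zero, ← C.mul, inv_mul_cancel, h0]
    let ΨM : W →* Multiplicative (T ⧸ W → ZMod 2) :=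
      { toFun := fun w => Multiplicative.ofAdd (Ψ w)
        map_one' := by rw [h0]; rfl
        map_mul' := fun v w => by rw [C.mul]; rfl }
    have hΨM : ∀ w, ΨM w = 1 ↔ (w : T) ∈ Subgroup.upperCentralSeries T 3 := by
      intro w
      rw [← C.ker]
      rfl
    let cy : W →* W := (MulAut.conjNormal y).toMonoidHom
    have hcy : ∀ w : W, ((cy w : W) : T) = y * w * y⁻¹ := fun w => MulAut.conjNormal_apply y w
    let δ : W →* Multiplicative (T ⧸ W → ZMod 2) :=
      { toFun := fun w => ΨM (cy w) * (ΨM w)⁻¹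
        map_one' := by simp
        map_mul' := fun v w => by
          simp only [map_mul, mul_inv_rev]
          rw [mul_comm (ΨM w)⁻¹ (ΨM v)⁻¹, mul_mul_mul_comm] }
    set A : Subgroup W := c.range.subgroupOf W with hA
    have hAcard : 2 ^ 10 ≤ Nat.card A := by
      have h1 := A.card_mul_index
      have h2 : A.index = m := hmm
      rw [h2, h.cardW] at h1
      have h3 : Nat.card A * m ≤ Nat.card A * 2 := Nat.mul_le_mul_left _ hm2
      norm_num at h1 ⊢
      omega
    -- kernel
    have hker : Nat.card δ.ker ≤ 2 ^ 7 := by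
      have hu : e y ≠ 1 := fun h1 => hyW ((C.eW y).1 h1)
      have hDcard : Nat.card (T ⧸ W) = 8 := by rw [← index_eq_card, h.idx]
      have hfix : ∀ w : W, w ∈ δ.ker → ∀ d, Ψ w ((e y)⁻¹ * d) = Ψ w d := by
        intro w hw d
        have h1 : ΨM (cy w) * (ΨM w)⁻¹ = 1 := hw
        rw [mul_inv_eq_one] at h1
        have h2 : Ψ (cy w) = Ψ w := h1
        rw [← C.conj y w (cy w) (hcy w), h2]
      let G : δ.ker → {φ : T ⧸ W → ZMod 2 // ∀ d, φ ((e y)⁻¹ * d) = φ d} × Unit := fun w =>
        (⟨Ψ w, hfix w w.2⟩, ())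
      -- count by the hom `ΨM` restricted to `ker δ`
      have h1 := (ΨM.comp δ.ker.subtype).ker.card_mul_index
      rw [index_ker] at h1
      have h2 : Nat.card (ΨM.comp δ.ker.subtype).ker ≤ 8 := by
        have h3 : Nat.card (Subgroup.upperCentralSeries T 3) = 8 := by rw [h.cZ 3 (by norm_num)]; norm_num
        rw [← h3]
        refine Nat.card_le_card_of_injective (fun w : (ΨM.comp δ.ker.subtype).ker =>
          (⟨((w : δ.ker) : W), (hΨM _).1 w.2⟩ : Subgroup.upperCentralSeries T 3)) ?_
        intro a b hab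
        have h4 : (((a : δ.ker) : W) : T) = (((b : δ.ker) : W) : T) :=
          congrArg (fun x : Subgroup.upperCentralSeries T 3 => (x : T)) hab
        exact Subtype.ext (Subtype.ext (Subtype.ext h4))
      have h3 : Nat.card (ΨM.comp δ.ker.subtype).range ≤ 16 := by
        refine le_trans ?_ (inv_card hDcard hu)
        refine Nat.card_le_card_of_injective (fun φ : (ΨM.comp δ.ker.subtype).range =>
          (⟨Multiplicative.toAdd (φ : Multiplicative (T ⧸ W → ZMod 2)), ?_⟩ :
            {φ : T ⧸ W → ZMod 2 // ∀ d, φ ((e y)⁻¹ * d) = φ d})) ?_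
        · obtain ⟨w, hw⟩ := φ.2
          rw [← hw]
          exact hfix w w.2
        · intro a b hab
          exact Subtype.ext (congrArg (fun x : {φ : T ⧸ W → ZMod 2 // ∀ d, φ ((e y)⁻¹ * d) = φ d} => x.1) hab)
      rw [← h1]
      calc _ ≤ 8 * 16 := Nat.mul_le_mul h2 h3
        _ = 2 ^ 7 := by norm_num
    -- image
    have himg : Nat.card (A.map δ) ≤ 4 := by
      have h1 : A.map δ ≤ (Zs.subgroupOf W).map ΨM := by
        rintro _ ⟨a, ha, rfl⟩
        have ha' : (a : T) ∈ c.range := ha
        refine ⟨cy a * a⁻¹, ?_, ?_⟩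
        · show ((cy a * a⁻¹ : W) : T) ∈ Zs
          rw [Subgroup.coe_mul, hcy, Subgroup.coe_inv]
          exact hZscomm y hy a ha'
        · show ΨM (cy a * a⁻¹) = ΨM (cy a) * (ΨM a)⁻¹
          rw [map_mul, map_inv]
      refine (Subgroup.card_le_of_le h1).trans ?_
      -- a nontrivial element of `Z* ∩ Z₃`
      obtain ⟨z, hz3, hzy⟩ : ∃ z ∈ Subgroup.upperCentralSeries T 3, y * z ≠ z * y := by
        by_contra hcon
        push Not at hcon
        apply hyW
        rw [h.hW, mem_centralizer_iff]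
        exact fun z hz => (hcon z hz).symm
      set k := y * z * y⁻¹ * z⁻¹ with hk
      have hkZs : k ∈ Zs := hZscomm y hy z (hZ3W1 hz3)
      have hk3 : k ∈ Subgroup.upperCentralSeries T 3 :=
        mul_mem ((inferInstance : (Subgroup.upperCentralSeries T 3).Normal).conj_mem z hz3 y) (inv_mem hz3)
      have hk1 : k ≠ 1 := by
        intro h1
        apply hzy
        calc y * z = k * z * y := by rw [hk]; group
          _ = z * y := by rw [h1, one_mul]
      have h2 := ((ΨM.comp (Zs.subgroupOf W).subtype).ker).card_mul_index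
      rw [index_ker] at h2
      have h3 : Nat.card (Zs.subgroupOf W) = 8 := by
        rw [Nat.card_congr (Subgroup.subgroupOfEquivOfLe hZsW).toEquiv, hZscard]
      have h4 : (ΨM.comp (Zs.subgroupOf W).subtype).range = (Zs.subgroupOf W).map ΨM := by
        rw [MonoidHom.range_comp, Subgroup.range_subtype]
      have h5 : 2 ≤ Nat.card (ΨM.comp (Zs.subgroupOf W).subtype).ker := by
        have h6 : Nat.card (ΨM.comp (Zs.subgroupOf W).subtype).ker ≠ 1 := by
          rw [Ne, Subgroup.card_eq_one]
          intro h7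
          have h8 : (⟨⟨k, hZsW hkZs⟩, hkZs⟩ : Zs.subgroupOf W) ∈ (ΨM.comp (Zs.subgroupOf W).subtype).ker :=
            (hΨM _).2 hk3
          rw [h7, mem_bot] at h8
          exact hk1 (congrArg (fun x : Zs.subgroupOf W => ((x : W) : T)) h8)
        have h7 : 0 < Nat.card (ΨM.comp (Zs.subgroupOf W).subtype).ker := Nat.card_pos
        omega
      rw [← h4]
      rw [h3] at h2
      by_contra hlt
      push Not at hlt
      have : 2 * 5 ≤ Nat.card (ΨM.comp (Zs.subgroupOf W).subtype).ker *
        Nat.card (ΨM.comp (Zs.subgroupOf W).subtype).range := Nat.mul_le_mul h5 hlt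
      omega
    -- contradiction
    have h1 := (δ.comp A.subtype).ker.card_mul_index
    rw [index_ker] at h1
    have h2 : (δ.comp A.subtype).range = A.map δ := by
      rw [MonoidHom.range_comp, Subgroup.range_subtype]
    have h3 : Nat.card (δ.comp A.subtype).ker ≤ Nat.card δ.ker := by
      refine Nat.card_le_card_of_injective (fun w : (δ.comp A.subtype).ker => (⟨((w : A) : W), w.2⟩ : δ.ker)) ?_
      intro a b hab
      exact Subtype.ext (Subtype.ext (congrArg (fun x : δ.ker => (x : W)) hab))
    rw [h2] at h1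
    have h4 : Nat.card A ≤ 2 ^ 7 * 4 := by
      rw [← h1]
      exact Nat.mul_le_mul (h3.trans hker) himg
    norm_num at h4 hAcard
    omega
  · -- `m ≥ 3`
    push Not at hm2
    have hA8 : Nat.card ↥(W ⊓ c.range : Subgroup T) ≤ 8 * m := by
      have h1 := h.iso_card (W ⊓ c.range) inf_le_left ?_
      · rw [inf_comm, inf_relIndex_right, hmm] at h1
        rwa [inf_comm]
      · rintro a ⟨haW, hac⟩ b ⟨hbW, hbc⟩
        have h2 := h.commZ haW hbW
        have h3 := hZscen _ (hZscomm a hac b hbc)
        by_contra hcon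
        -- `z = [a,b]` is centralized by `W₁`
        obtain ⟨z2, hz2, hz2'⟩ := h.exz (i := 1) (by norm_num)
        have h4 : W.relIndex c.range ∣ 2 := by
          rw [relIndex_dvd_two_iff]
          by_cases hex : ∃ g ∈ c.range, g * z2 ≠ z2 * g
          · obtain ⟨g, hg, hgz⟩ := hex
            refine ⟨g, hg, fun k hk => ?_⟩
            by_cases hkz : k * z2 = z2 * k
            · exact Or.inr ((h.mem_W hz2 hz2' h2 hcon).2 ⟨hkz, h3 k hk⟩)
            · left
              refine (h.mem_W hz2 hz2' h2 hcon).2 ⟨?_, h3 _ (c.range.mul_mem hk hg)⟩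
              -- both move `z2` by the same central element
              have k1 : k * z2 * k⁻¹ * z2⁻¹ ∈ Subgroup.upperCentralSeries T 1 := mem_ucs_succ.1 hz2 k
              have k2 : g * z2 * g⁻¹ * z2⁻¹ ∈ Subgroup.upperCentralSeries T 1 := mem_ucs_succ.1 hz2 g
              have k3 : k * z2 * k⁻¹ * z2⁻¹ ∉ Subgroup.upperCentralSeries T 0 := by
                rw [Subgroup.upperCentralSeries_zero, mem_bot]
                intro k4
                apply hkz
                calc k * z2 = (k * z2 * k⁻¹ * z2⁻¹) * z2 * k := by group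
                  _ = z2 * k := by rw [k4, one_mul]
              have k4 : g * z2 * g⁻¹ * z2⁻¹ ∉ Subgroup.upperCentralSeries T 0 := by
                rw [Subgroup.upperCentralSeries_zero, mem_bot]
                intro k4
                apply hgz
                calc g * z2 = (g * z2 * g⁻¹ * z2⁻¹) * z2 * g := by group
                  _ = z2 * g := by rw [k4, one_mul]
              have k5 := h.zmul (i := 0) (by norm_num) k2 k1 k4 k3
              rw [Subgroup.upperCentralSeries_zero, mem_bot] at k5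
              have k6 := z1c k2 k
              have k7 : (k * g) * z2 * (k * g)⁻¹ = z2 := by
                calc (k * g) * z2 * (k * g)⁻¹ = k * (g * z2 * g⁻¹ * z2⁻¹) * z2 * k⁻¹ := by group
                  _ = (g * z2 * g⁻¹ * z2⁻¹) * k * z2 * k⁻¹ := by rw [k6]
                  _ = ((g * z2 * g⁻¹ * z2⁻¹) * (k * z2 * k⁻¹ * z2⁻¹)) * z2 := by group
                  _ = z2 := by rw [k5, one_mul]
              calc (k * g) * z2 = ((k * g) * z2 * (k * g)⁻¹) * (k * g) := by group
                _ = _ := by rw [k7]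
          · push Not at hex
            exact ⟨1, c.range.one_mem, fun k hk => Or.inr
              ((h.mem_W hz2 hz2' h2 hcon).2 ⟨hex k hk, h3 k hk⟩)⟩
        have h5 := Nat.le_of_dvd (by norm_num) h4
        omega
    have h6 : 2 ^ 11 ≤ 8 * m * m := by
      rw [← hcard1]
      exact Nat.mul_le_mul_right _ hA8
    have h7 : 8 * m * m ≤ 8 * 8 * 8 := Nat.mul_le_mul (Nat.mul_le_mul_left _ hm8) hm8
    norm_num at h6 h7
    omega

end Cfsg.Agent.Lib.RudB.Hyp
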