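import Cfsg.Agent.Lib.S3344SetupA
import Cfsg.Prelude

/-! S3344 setup: generators and relations of the centralizer of the involution `s`. -/

set_option autoImplicit false
set_option linter.all false

namespace Cfsg.Agent.Lib.S3344Setup

open Cfsg.Agent.Lib.S3344SetupA
open scoped commutatorElement

variable {G : Type*} [Group G]

structure Base (Q : Subgroup G) (s p : G) : Prop where
  s1 : s ≠ 1
  ss : s * s = 1
  sQ : s ∈ Q
  sc : ∀ x ∈ Q, x * s = s * x
  comm : ∀ x ∈ Q, ∀ y ∈ Q, x * y = y * x ∨ x * y = s * (y * x)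
  sq : ∀ x ∈ Q, x * x = 1 ∨ x * x = s
  cent : ∀ x ∈ Q, (∀ y ∈ Q, x * y = y * x) → x = 1 ∨ x = s
  pn : ∀ x ∈ Q, p * x * p⁻¹ ∈ Q
  ppp : p * p * p = 1
  ps : p * s * p⁻¹ = s
  fix : ∀ x ∈ Q, p * x * p⁻¹ = x → x = 1 ∨ x = s

variable {Q : Subgroup G} {s p : G}

theorem Base.c3 (h : Base Q s p) (u : G) : p * (p * (p * u * p⁻¹) * p⁻¹) * p⁻¹ = u := by
  have : p * (p * (p * u * p⁻¹) * p⁻¹) * p⁻¹ = (p * p * p) * u * (p * p * p)⁻¹ := by group
  rw [this, h.ppp]; group

/-- the norm lemma -/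
theorem Base.norm (h : Base Q s p) {u : G} (hu : u ∈ Q) :
    u * (p * u * p⁻¹) * (p * (p * u * p⁻¹) * p⁻¹) = 1 ∨ u * (p * u * p⁻¹) * (p * (p * u * p⁻¹) * p⁻¹) = s := by
  set v := p * u * p⁻¹ with hv
  set w := p * v * p⁻¹ with hw
  have hvQ : v ∈ Q := h.pn _ hu
  have hwQ : w ∈ Q := h.pn _ hvQ
  have h3 : p * w * p⁻¹ = u := h.c3 u
  set n := u * v * w with hn
  have hnQ : n ∈ Q := Q.mul_mem (Q.mul_mem hu hvQ) hwQ
  have h1 : p * n * p⁻¹ = v * w * u := by
    rw [hn, ← h3]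
    rw [show p * (p * w * p⁻¹ * v * w) * p⁻¹ = (p * (p * w * p⁻¹) * p⁻¹) * (p * v * p⁻¹) * (p * w * p⁻¹) by group, h3, ← hv, ← hw]
  have h2 : u * (p * n * p⁻¹) = n * u := by rw [h1, hn]; group
  apply h.fix n hnQ
  rcases h.comm n hnQ u hu with h4 | h4
  · rw [h4] at h2
    exact mul_left_cancel h2
  · exfalso
    rw [h4] at h2
    have h5 : p * n * p⁻¹ = s * n := by
      apply mul_left_cancel (a := u)
      rw [h2]
      calc s * (u * n) = (s * u) * n := (mul_assoc _ _ _).symm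
        _ = (u * s) * n := by rw [h.sc u hu]
        _ = u * (s * n) := mul_assoc _ _ _
    have h6 := h.c3 n
    have h7 : p * (p * n * p⁻¹) * p⁻¹ = n := by
      rw [h5]
      calc p * (s * n) * p⁻¹ = (p * s * p⁻¹) * (p * n * p⁻¹) := by group
        _ = s * (s * n) := by rw [h.ps, h5]
        _ = (s * s) * n := (mul_assoc _ _ _).symm
        _ = n := by rw [h.ss, one_mul]
    rw [h7, h5] at h6
    exact h.s1 (mul_eq_right.mp h6)

/-- lemma A -/
theorem Base.lemA (h : Base Q s p) {u : G} (hu : u ∈ Q) (huu : u * u = 1) (hu1 : u ≠ 1) (hus : u ≠ s) :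
    ∃ a : G, (a = u ∨ a = u * s) ∧ a ∈ Q ∧ a * a = 1 ∧ a ≠ 1 ∧ a ≠ s ∧
      p * (p * a * p⁻¹) * p⁻¹ = a * (p * a * p⁻¹) ∧ (p * a * p⁻¹) * a = a * (p * a * p⁻¹) := by
  have hN := h.norm hu
  have h3 := h.c3 u
  have hvv : (p * u * p⁻¹) * (p * u * p⁻¹) = 1 := by
    rw [show (p * u * p⁻¹) * (p * u * p⁻¹) = p * (u * u) * p⁻¹ by group, huu]; group
  have hww : (p * (p * u * p⁻¹) * p⁻¹) * (p * (p * u * p⁻¹) * p⁻¹) = 1 := by
    rw [show (p * (p * u * p⁻¹) * p⁻¹) * (p * (p * u * p⁻¹) * p⁻¹) = p * ((p * u * p⁻¹) * (p * u * p⁻¹)) * p⁻¹ by group, hvv]; group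
  have hvQ : p * u * p⁻¹ ∈ Q := h.pn _ hu
  have hwQ : p * (p * u * p⁻¹) * p⁻¹ ∈ Q := h.pn _ hvQ
  set v := p * u * p⁻¹ with hv
  set w := p * v * p⁻¹ with hw
  have huv : v * u = u * v := by
    rcases h.comm u hu v hvQ with h4 | h4
    · exact h4.symm
    · exfalso
      have h5 : (u * v) * (u * v) = s := by
        calc (u * v) * (u * v) = (s * (v * u)) * (u * v) := by nth_rewrite 1 [h4]; rfl
          _ = s * (v * (u * u) * v) := by group
          _ = s := by rw [huu, mul_one, hvv, mul_one]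
      have h6 : (u * v) * (u * v) = 1 := by
        rcases hN with h7 | h7
        · have h8 : u * v = w⁻¹ := eq_inv_of_mul_eq_one_left h7
          rw [h8, ← mul_inv_rev, hww, inv_one]
        · have h8 : u * v = s * w⁻¹ := by rw [← h7]; group
          have h9 : s * w⁻¹ = w⁻¹ * s := by
            have := h.sc w⁻¹ (Q.inv_mem hwQ)
            exact this.symm
          rw [h8]
          calc s * w⁻¹ * (s * w⁻¹) = s * (w⁻¹ * s) * w⁻¹ := by group
            _ = (s * s) * (w * w)⁻¹ := by rw [← h9]; group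
            _ = 1 := by rw [h.ss, hww]; group
      rw [h5] at h6
      exact h.s1 h6
  rcases hN with h7 | h7
  · refine ⟨u, Or.inl rfl, hu, huu, hu1, hus, ?_, huv⟩
    have h8 : w = (u * v)⁻¹ := eq_inv_of_mul_eq_one_right h7
    show w = u * v
    rw [h8, inv_eq_iff_mul_eq_one]
    calc u * v * (u * v) = u * (v * u) * v := by group
      _ = (u * u) * (v * v) := by rw [huv]; group
      _ = 1 := by rw [huu, hvv, one_mul]
  · have hus' : p * (u * s) * p⁻¹ = v * s := by
      rw [show p * (u * s) * p⁻¹ = (p * u * p⁻¹) * (p * s * p⁻¹) by group, h.ps]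
    have hus2 : (u * s) * (u * s) = 1 := by
      rw [show (u * s) * (u * s) = u * (s * u) * s by group, ← h.sc u hu, show u * (u * s) * s = (u * u) * (s * s) by group, huu, h.ss, one_mul]
    refine ⟨u * s, Or.inr rfl, Q.mul_mem hu h.sQ, hus2, ?_, ?_, ?_, ?_⟩
    · intro h8
      apply hus
      calc u = (u * s) * s⁻¹ := by group
        _ = s⁻¹ := by rw [h8, one_mul]
        _ = s := by rw [inv_eq_iff_mul_eq_one]; exact h.ss
    · intro h8
      exact hu1 (mul_eq_right.mp h8)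
    · rw [hus', show p * (v * s) * p⁻¹ = (p * v * p⁻¹) * (p * s * p⁻¹) by group, h.ps, ← hw]
      have h8 : w = (u * v)⁻¹ * s := by rw [← h7]; group
      have h9 : (u * v)⁻¹ = u * v := by
        rw [inv_eq_iff_mul_eq_one]
        calc u * v * (u * v) = u * (v * u) * v := by group
          _ = (u * u) * (v * v) := by rw [huv]; group
          _ = 1 := by rw [huu, hvv, one_mul]
      rw [h8, h9]
      calc u * v * s * s = u * v * (s * s) := by group
        _ = u * (s * s) * v := by rw [h.ss]; group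
        _ = u * s * (s * v) := by group
        _ = u * s * (v * s) := by rw [← h.sc v hvQ]
    · rw [hus']
      calc v * s * (u * s) = v * (s * u) * s := by group
        _ = (v * u) * (s * s) := by rw [← h.sc u hu]; group
        _ = (u * v) * (s * s) := by rw [huv]
        _ = u * (v * s) * s := by group
        _ = u * (s * v) * s := by rw [h.sc v hvQ]
        _ = u * s * (v * s) := by group

/-- existence of `x` with `[x,a] = 1`, `[x,b] = s` -/
theorem Base.exists_x (h : Base Q s p) {a b : G} (ha : a ∈ Q) (hb : b ∈ Q) (ha1 : a ≠ 1) (has : a ≠ s)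
    (hpa : p * a * p⁻¹ = b) (hpb : p * b * p⁻¹ = a * b) : ∃ x ∈ Q, x * a = a * x ∧ x * b = s * (b * x) := by
  by_contra hcon
  push Not at hcon
  have H : ∀ x ∈ Q, x * a = a * x → x * b = b * x := by
    intro x hx hxa
    rcases h.comm x hx b hb with h1 | h1
    · exact h1
    · exact (hcon x hx hxa h1).elim
  have hinj : ∀ y : G, p * y * p⁻¹ = 1 ∨ p * y * p⁻¹ = s → y = 1 ∨ y = s := by
    intro y hy
    rcases hy with hy | hy
    · left
      calc y = p⁻¹ * (p * y * p⁻¹) * p := by group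
        _ = 1 := by rw [hy]; group
    · right
      calc y = p⁻¹ * (p * y * p⁻¹) * p := by group
        _ = p⁻¹ * (p * s * p⁻¹) * p := by rw [hy, h.ps]
        _ = s := by group
  have hbc : ¬ (b = 1 ∨ b = s) := by
    intro hb'
    rw [← hpa] at hb'
    rcases hinj a hb' with h1 | h1
    · exact ha1 h1
    · exact has h1
  have habc : ¬ (a * b = 1 ∨ a * b = s) := by
    intro hb'
    rw [← hpb] at hb'
    exact hbc (hinj b hb')
  have : ∃ y ∈ Q, y * a = s * (a * y) := by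
    by_contra h1
    push Not at h1
    have h2 := h.cent a ha (by
      intro y hy
      rcases h.comm y hy a ha with h3 | h3
      · exact h3.symm
      · exact (h1 y hy h3).elim)
    rcases h2 with h2 | h2
    · exact ha1 h2
    · exact has h2
  obtain ⟨y, hy, hya⟩ := this
  have key : ∀ z ∈ Q, z * a = s * (a * z) → (z * y) * a = a * (z * y) := by
    intro z hz hza
    calc (z * y) * a = z * (y * a) := by group
      _ = (z * s) * a * y := by rw [hya]; group
      _ = s * (z * a) * y := by rw [h.sc z hz]; group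
      _ = (s * s) * (a * (z * y)) := by rw [hza]; group
      _ = _ := by rw [h.ss, one_mul]
  rcases h.comm y hy b hb with hyb | hyb
  · apply hbc
    apply h.cent b hb
    intro z hz
    rcases h.comm z hz a ha with h3 | h3
    · exact (H z hz h3).symm
    · have h4 := H _ (Q.mul_mem hz hy) (key z hz h3)
      have h5 : z * b * y = b * z * y := by
        calc z * b * y = z * (b * y) := by group
          _ = z * y * b := by rw [← hyb]; group
          _ = b * z * y := by rw [h4]; group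
      exact (mul_right_cancel h5).symm
  · apply habc
    apply h.cent _ (Q.mul_mem ha hb)
    intro z hz
    rcases h.comm z hz a ha with h3 | h3
    · have h4 := H z hz h3
      calc a * b * z = a * (b * z) := by group
        _ = (a * z) * b := by rw [← h4]; group
        _ = z * (a * b) := by rw [← h3]; group
    · have h4 := H _ (Q.mul_mem hz hy) (key z hz h3)
      have h5 : (s * (z * b)) * y = (b * z) * y := by
        calc (s * (z * b)) * y = (s * z) * (b * y) := by group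
          _ = (z * s) * (b * y) := by rw [h.sc z hz]
          _ = z * (s * (b * y)) := by group
          _ = z * y * b := by rw [← hyb]; group
          _ = b * z * y := by rw [h4]; group
      have h6 := mul_right_cancel h5
      calc a * b * z = a * (b * z) := by group
        _ = a * (s * (z * b)) := by rw [h6]
        _ = (a * s) * z * b := by group
        _ = (s * (a * z)) * b := by rw [h.sc a ha]; group
        _ = z * (a * b) := by rw [← h3]; group

/-- the generators of `Q` -/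
theorem Base.exists_QR (h : Base Q s p) {r : G} (hr : r ∈ Q) (hrr : r * r = 1) (hr1 : r ≠ 1) (hrs : r ≠ s) :
    ∃ a b c d : G, (a = r ∨ a = r * s) ∧ a ∈ Q ∧ b ∈ Q ∧ c ∈ Q ∧ d ∈ Q ∧ QR s a b c d p := by
  obtain ⟨a, har, ha, haa, ha1, has, hpp, hcomm⟩ := h.lemA hr hrr hr1 hrs
  set b := p * a * p⁻¹ with hb
  have hbQ : b ∈ Q := h.pn _ ha
  have hbb : b * b = 1 := by
    rw [hb, show (p * a * p⁻¹) * (p * a * p⁻¹) = p * (a * a) * p⁻¹ by group, haa]; group
  obtain ⟨x, hx, hxa, hxb⟩ := h.exists_x ha hbQ ha1 has rfl hpp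
  have hsr : ∀ y ∈ Q, s * y = y * s := fun y hy => (h.sc y hy).symm
  have hx2 : ∃ x ∈ Q, x * x = 1 ∧ x * a = a * x ∧ x * b = s * (b * x) := by
    rcases h.sq x hx with h1 | h1
    · exact ⟨x, hx, h1, hxa, hxb⟩
    · refine ⟨x * b, Q.mul_mem hx hbQ, ?_, ?_, ?_⟩
      · have h2 : b * x = s * (x * b) := by
          rw [hxb, ← mul_assoc, h.ss, one_mul]
        calc x * b * (x * b) = x * (b * x) * b := by group
          _ = x * s * (x * b) * b := by rw [h2]; group
          _ = s * (x * x) * (b * b) := by rw [h.sc x hx]; group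
          _ = 1 := by rw [h1, hbb, mul_one, h.ss]
      · calc x * b * a = x * (b * a) := by group
          _ = (x * a) * b := by rw [hcomm]; group
          _ = a * (x * b) := by rw [hxa]; group
      · calc x * b * b = (x * b) * b := rfl
          _ = s * (b * x) * b := by rw [hxb]
          _ = s * (b * (x * b)) := by group
  obtain ⟨x, hx, hxx, hxa, hxb⟩ := hx2
  have hx1 : x ≠ 1 := by
    intro h1
    rw [h1, one_mul, mul_one] at hxb
    exact h.s1 (mul_eq_right.mp hxb.symm)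
  have hxs : x ≠ s := by
    intro h1
    rw [h1] at hxb
    have h2 := mul_left_cancel hxb
    exact h.s1 (mul_eq_left.mp h2.symm)
  obtain ⟨c, hcx, hc, hcc, hc1, hcs, hpc, hcd⟩ := h.lemA hx hxx hx1 hxs
  have hca : c * a = a * c := by
    rcases hcx with h1 | h1
    · rw [h1, hxa]
    · rw [h1]
      calc x * s * a = x * (s * a) := by group
        _ = (x * a) * s := by rw [hsr a ha]; group
        _ = a * (x * s) := by rw [hxa]; group
  have hcb : c * b = s * (b * c) := by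
    rcases hcx with h1 | h1
    · rw [h1, hxb]
    · rw [h1]
      calc x * s * b = x * (s * b) := by group
        _ = (x * b) * s := by rw [hsr b hbQ]; group
        _ = s * (b * (x * s)) := by rw [hxb]; group
  set d := p * c * p⁻¹ with hd
  have hdQ : d ∈ Q := h.pn _ hc
  have hdd : d * d = 1 := by
    rw [hd, show (p * c * p⁻¹) * (p * c * p⁻¹) = p * (c * c) * p⁻¹ by group, hcc]; group
  have hdb : d * b = b * d := by
    calc d * b = p * (c * a) * p⁻¹ := by rw [hd, hb]; group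
      _ = b * d := by rw [hca, hd, hb]; group
  have hda : d * a = s * (a * d) := by
    rcases h.comm d hdQ a ha with h1 | h1
    · exfalso
      have e1 : (c * d) * (a * b) = (a * b) * (c * d) := by
        rw [← hpc, ← hpp]
        calc p * d * p⁻¹ * (p * b * p⁻¹) = p * (d * b) * p⁻¹ := by group
          _ = p * (b * d) * p⁻¹ := by rw [hdb]
          _ = _ := by group
      have e2 : (c * d) * (a * b) = s * ((a * b) * (c * d)) := by
        calc (c * d) * (a * b) = c * (d * a) * b := by group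
          _ = (c * a) * (d * b) := by rw [h1]; group
          _ = a * (c * b) * d := by rw [hca, hdb]; group
          _ = (a * s) * (b * c * d) := by rw [hcb]; group
          _ = s * ((a * b) * (c * d)) := by rw [h.sc a ha]; group
      rw [e1] at e2
      exact h.s1 (mul_eq_right.mp e2.symm)
    · exact h1
  exact ⟨a, b, c, d, har, ha, hbQ, hc, hdQ,
    ⟨h.s1, h.ss, haa, hbb, hcc, hdd, h.sc a ha, h.sc b hbQ, h.sc c hc, h.sc d hdQ, hcomm, hcd, hca, hdb, hda, hcb, h.ppp,
      h.ps, rfl, hpp, rfl, hpc⟩⟩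

theorem perm3 : ∀ x y : Equiv.Perm (Fin 3), x * x = 1 → x ≠ 1 → y * y * y = 1 → y ≠ 1 → y * (x * y * x⁻¹) = 1 := by decide

theorem Base.exists_t (h : Base Q s p) {L : Subgroup G} (hQL : Q ≤ L) (hpL : p ∈ L)
    (hLs : ∀ x ∈ L, x * s = s * x) (φ : L →* Equiv.Perm (Fin 3)) (hφ : ∀ x : L, φ x = 1 ↔ (x : G) ∈ Q)
    (hnorm : ∀ x ∈ L, ∀ q ∈ Q, x * q * x⁻¹ ∈ Q) (hpQ : p ∉ Q) {x : G} (hx : x ∈ L) (hxx : x * x = 1) (hxQ : x ∉ Q) :
    ∃ t ∈ L, t * t = 1 ∧ t * p * t⁻¹ = p⁻¹ := by
  have hφm : ∀ (y z : G) (hy : y ∈ L) (hz : z ∈ L), φ ⟨y * z, L.mul_mem hy hz⟩ = φ ⟨y, hy⟩ * φ ⟨z, hz⟩ := by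
    intro y z hy hz
    rw [← map_mul]; rfl
  -- q1
  have hq1 : p * (x * p * x⁻¹) ∈ Q := by
    have h1 := perm3 (φ ⟨x, hx⟩) (φ ⟨p, hpL⟩) (by
      rw [← map_mul]
      rw [hφ]; show x * x ∈ Q; rw [hxx]; exact Q.one_mem) (by
      intro h2; exact hxQ ((hφ ⟨x, hx⟩).mp h2)) (by
      rw [← map_mul, ← map_mul, hφ]; show p * p * p ∈ Q; rw [h.ppp]; exact Q.one_mem) (by
      intro h2; exact hpQ ((hφ ⟨p, hpL⟩).mp h2))
    rw [← map_inv, ← map_mul, ← map_mul, ← map_mul, hφ] at h1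
    exact h1
  set u := p * (x * p * x⁻¹) with hu
  have hN := h.norm hq1
  have hvQ : p * u * p⁻¹ ∈ Q := h.pn _ hq1
  have hwQ : p * (p * u * p⁻¹) * p⁻¹ ∈ Q := h.pn _ hvQ
  have h3 := h.c3 u
  obtain ⟨v, hv⟩ : ∃ v, v = p * u * p⁻¹ := ⟨_, rfl⟩
  rw [← hv] at hN hvQ hwQ h3
  obtain ⟨w, hw⟩ : ∃ w, w = p * v * p⁻¹ := ⟨_, rfl⟩
  rw [← hw] at hN hwQ h3
  have hεc : ∀ ε : G, ε = 1 ∨ ε = s → ∀ y ∈ L, y * ε = ε * y := by
    intro ε hε y hy
    rcases hε with rfl | rfl
    · rw [mul_one, one_mul]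
    · exact hLs y hy
  have hsinv : s⁻¹ = s := by rw [inv_eq_iff_mul_eq_one]; exact h.ss
  have hwuv : w * u * v = 1 ∨ w * u * v = s := by
    have h4 : w * u * v = w * (u * v * w) * w⁻¹ := by group
    have h5 := hεc _ hN w (hQL hwQ)
    rw [h4, h5]
    rw [mul_assoc, mul_inv_cancel, mul_one]
    exact hN
  have hwuv' : w * u * v⁻¹ = 1 ∨ w * u * v⁻¹ = s := by
    have hv2 : v⁻¹ = v ∨ v⁻¹ = v * s := by
      rcases h.sq v hvQ with h6 | h6
      · left; rw [inv_eq_iff_mul_eq_one]; exact h6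
      · right
        rw [inv_eq_iff_mul_eq_one, ← mul_assoc, h6, h.ss]
    rcases hv2 with h6 | h6
    · rw [h6]; exact hwuv
    · rw [h6, ← mul_assoc]
      rcases hwuv with h7 | h7
      · right; rw [h7, one_mul]
      · left; rw [h7, h.ss]
  -- t
  have htp0 : (v * x) * p * (v * x)⁻¹ = p⁻¹ * (w * u * v⁻¹) := by
    have : x * p * x⁻¹ = p⁻¹ * u := by rw [hu]; group
    calc (v * x) * p * (v * x)⁻¹ = v * (x * p * x⁻¹) * v⁻¹ := by group
      _ = v * p⁻¹ * u * v⁻¹ := by rw [this]; group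
      _ = p⁻¹ * (p * v * p⁻¹) * u * v⁻¹ := by group
      _ = _ := by rw [← hw]; group
  have hpinv3 : p⁻¹ * p⁻¹ * p⁻¹ = 1 := by
    have : p⁻¹ * p⁻¹ * p⁻¹ = (p * p * p)⁻¹ := by group
    rw [this, h.ppp, inv_one]
  have htp : (v * x) * p * (v * x)⁻¹ = p⁻¹ := by
    rcases hwuv' with h6 | h6
    · rw [htp0, h6, mul_one]
    · exfalso
      rw [h6] at htp0
      have h7 : ((v * x) * p * (v * x)⁻¹) * ((v * x) * p * (v * x)⁻¹) * ((v * x) * p * (v * x)⁻¹) = 1 := by
        rw [show ((v * x) * p * (v * x)⁻¹) * ((v * x) * p * (v * x)⁻¹) * ((v * x) * p * (v * x)⁻¹) =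
          (v * x) * (p * p * p) * (v * x)⁻¹ by group, h.ppp]
        group
      rw [htp0] at h7
      have h8 := hLs _ (L.inv_mem hpL)
      have h9 : p⁻¹ * s * (p⁻¹ * s) * (p⁻¹ * s) = s := by
        calc p⁻¹ * s * (p⁻¹ * s) * (p⁻¹ * s) = p⁻¹ * (s * p⁻¹) * s * (p⁻¹ * s) := by group
          _ = p⁻¹ * p⁻¹ * (s * s) * (p⁻¹ * s) := by rw [← h8]; group
          _ = p⁻¹ * p⁻¹ * p⁻¹ * s := by rw [h.ss]; group
          _ = s := by rw [hpinv3, one_mul]
      rw [h9] at h7
      exact h.s1 h7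
  have htL : v * x ∈ L := L.mul_mem (hQL hvQ) hx
  obtain ⟨t, ht⟩ : ∃ t, t = v * x := ⟨_, rfl⟩
  rw [← ht] at htp htL
  have htt : t * t = 1 ∨ t * t = s := by
    apply h.fix
    · have h6 : φ ⟨t * t, L.mul_mem htL htL⟩ = 1 := by
        rw [hφm t t htL htL]
        have h7 : φ ⟨t, htL⟩ = φ ⟨x, hx⟩ := by
          have h8 : (⟨t, htL⟩ : L) = ⟨v, hQL hvQ⟩ * ⟨x, hx⟩ := Subtype.ext ht
          rw [h8, map_mul, (hφ ⟨v, hQL hvQ⟩).mpr hvQ, one_mul]
        rw [h7, ← map_mul, hφ]
        show x * x ∈ Q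
        rw [hxx]; exact Q.one_mem
      exact (hφ _).mp h6
    · have h6 : t * p = p⁻¹ * t := by
        calc t * p = (t * p * t⁻¹) * t := by group
          _ = _ := by rw [htp]
      have h7 : t * p⁻¹ = p * t := by
        calc t * p⁻¹ = (t * p * t⁻¹)⁻¹ * t := by group
          _ = _ := by rw [htp, inv_inv]
      have h8 : (t * t) * p = p * (t * t) := by
        calc (t * t) * p = t * (t * p) := by group
          _ = (t * p⁻¹) * t := by rw [h6]; group
          _ = _ := by rw [h7]; group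
      calc p * (t * t) * p⁻¹ = (t * t) * p * p⁻¹ := by rw [h8]
        _ = _ := by group
  rcases htt with htt | htt
  · exact ⟨t, htL, htt, htp⟩
  · exfalso
    -- the element `y = v⁻¹`
    have hyQ : v⁻¹ ∈ Q := Q.inv_mem hvQ
    have h6 : t * v⁻¹ * t⁻¹ = v * s := by
      have h7 : x = v⁻¹ * t := by rw [ht]; group
      have h8 : v⁻¹ * t * (v⁻¹ * t) = 1 := by rw [← h7]; exact hxx
      calc t * v⁻¹ * t⁻¹ = v * (v⁻¹ * t * (v⁻¹ * t)) * (t * t)⁻¹ := by group
        _ = v * s := by rw [h8, htt, hsinv, mul_one]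
    have hN' := h.norm hyQ
    obtain ⟨y, hy⟩ : ∃ y, y = v⁻¹ := ⟨_, rfl⟩
    rw [← hy] at hN' h6 hyQ
    have hyv : v = y⁻¹ := by rw [hy, inv_inv]
    rw [hyv] at h6
    have e2 : t * p = p⁻¹ * t := by
      calc t * p = (t * p * t⁻¹) * t := by group
        _ = _ := by rw [htp]
    have e3 : t * p⁻¹ = p * t := by
      calc t * p⁻¹ = (t * p * t⁻¹)⁻¹ * t := by group
        _ = _ := by rw [htp, inv_inv]
    have hps : p * s * p⁻¹ = s := h.ps
    have hps' : p⁻¹ * s * p = s := by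
      calc p⁻¹ * s * p = p⁻¹ * (p * s * p⁻¹) * p := by rw [h.ps]
        _ = s := by group
    have hw' : p * (p * y * p⁻¹) * p⁻¹ = p⁻¹ * y * p := by
      have h7 := h.c3 (p⁻¹ * y * p)
      calc p * (p * y * p⁻¹) * p⁻¹ = p * (p * (p * (p⁻¹ * y * p) * p⁻¹) * p⁻¹) * p⁻¹ := by group
        _ = _ := h7
    rw [hw'] at hN'
    -- conj by t
    have f1 : t * (p * y * p⁻¹) * t⁻¹ = (p⁻¹ * y * p)⁻¹ * s := by
      calc t * (p * y * p⁻¹) * t⁻¹ = (t * p) * y * (t * p)⁻¹ := by group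
        _ = p⁻¹ * (t * y * t⁻¹) * p := by rw [e2]; group
        _ = (p⁻¹ * y⁻¹ * p) * (p⁻¹ * s * p) := by rw [h6]; group
        _ = _ := by rw [hps']; group
    have f2 : t * (p⁻¹ * y * p) * t⁻¹ = (p * y * p⁻¹)⁻¹ * s := by
      calc t * (p⁻¹ * y * p) * t⁻¹ = (t * p⁻¹) * y * (t * p⁻¹)⁻¹ := by group
        _ = p * (t * y * t⁻¹) * p⁻¹ := by rw [e3]; group
        _ = (p * y⁻¹ * p⁻¹) * (p * s * p⁻¹) := by rw [h6]; group
        _ = _ := by rw [hps]; group
    have hv1Q : p * y * p⁻¹ ∈ Q := h.pn _ hyQ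
    have hw1Q : p⁻¹ * y * p ∈ Q := by rw [← hw']; exact h.pn _ hv1Q
    obtain ⟨v1, hv1⟩ : ∃ v1, v1 = p * y * p⁻¹ := ⟨_, rfl⟩
    obtain ⟨w1, hw1⟩ : ∃ w1, w1 = p⁻¹ * y * p := ⟨_, rfl⟩
    rw [← hv1, ← hw1] at f1 f2
    rw [← hv1, ← hw1] at hN'
    rw [← hv1] at hv1Q
    rw [← hw1] at hw1Q
    obtain ⟨ε, hε⟩ : ∃ ε, ε = y * v1 * w1 := ⟨_, rfl⟩
    rw [← hε] at hN'
    have g1 : t * ε * t⁻¹ = ε := by
      rw [hεc ε hN' t htL]; group
    have g2 : t * ε * t⁻¹ = y⁻¹ * s * (w1⁻¹ * s) * (v1⁻¹ * s) := by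
      rw [hε, ← f1, ← f2, ← h6]; group
    have g3 : y⁻¹ * s * (w1⁻¹ * s) * (v1⁻¹ * s) = y⁻¹ * w1⁻¹ * v1⁻¹ * s := by
      have a1 := h.sc _ (Q.inv_mem hw1Q)
      have a2 := h.sc _ (Q.inv_mem hv1Q)
      calc y⁻¹ * s * (w1⁻¹ * s) * (v1⁻¹ * s) = y⁻¹ * (s * w1⁻¹) * s * (v1⁻¹ * s) := by group
        _ = y⁻¹ * w1⁻¹ * (s * s) * (v1⁻¹ * s) := by rw [← a1]; group
        _ = _ := by rw [h.ss]; group
    have g4 : y⁻¹ * w1⁻¹ * v1⁻¹ = ε⁻¹ := by
      have b1 : v1 * w1 * y = ε := by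
        calc v1 * w1 * y = y⁻¹ * ε * y := by rw [hε]; group
          _ = y⁻¹ * (y * ε) := by rw [mul_assoc, ← hεc ε hN' y (hQL hyQ)]
          _ = ε := by group
      rw [← b1]; group
    rw [g1, g3, g4] at g2
    rcases hN' with h7 | h7
    · rw [h7, inv_one, one_mul] at g2
      exact h.s1 g2.symm
    · rw [h7, inv_mul_cancel] at g2
      exact h.s1 g2

theorem setup {G : Type*} [Group G] [Finite G]
    (s : G) (hs : orderOf s = 2) (L : Subgroup G) (hL : L = Subgroup.centralizer ({s} : Set G))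
    (Q : Subgroup G) (hQ : Q = (Cfsg.pCore 2 L).map L.subtype)
    (hQex : Cfsg.IsExtraspecial 2 Q) (hQcard : Nat.card Q = 32)
    (e : L ⧸ Cfsg.pCore 2 L ≃* Equiv.Perm (Fin 3))
    (X : Sylow 3 L) (hCQX : Q ⊓ Subgroup.centralizer (((X : Subgroup L).map L.subtype : Subgroup G) : Set G) = Subgroup.zpowers s)
    (hnwc : ∃ g : G, g * s * g⁻¹ ∈ Q ∧ g * s * g⁻¹ ≠ s) :
    Nat.card (Subgroup.centralizer ({s} : Set G)) = 192 ∧
    ∃ a b c d p t : G, (IsConj s a ∧ M12A.Rel s a b c d p t) ∨ ((IsConj s a ∨ IsConj s c) ∧ M12B.Rel s a b c d p t) := by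
  have hcardL : Nat.card L = 192 := by
    have h1 := Subgroup.card_eq_card_quotient_mul_card_subgroup (Cfsg.pCore 2 L)
    have h2 : Nat.card (L ⧸ Cfsg.pCore 2 L) = 6 := by
      rw [Nat.card_congr e.toEquiv, Nat.card_eq_fintype_card]; rfl
    have h3 : Nat.card (Cfsg.pCore 2 L) = 32 := by
      rw [← hQcard, hQ]
      exact Nat.card_congr ((Cfsg.pCore 2 L).equivMapOfInjective L.subtype L.subtype_injective).toEquiv
    rw [h1, h2, h3]
  refine ⟨by rw [← hL]; exact hcardL, ?_⟩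
  have s1 : s ≠ 1 := by
    intro h; rw [h, orderOf_one] at hs; norm_num at hs
  have ss : s * s = 1 := by rw [← pow_two, ← hs]; exact pow_orderOf_eq_one s
  have hLs : ∀ x ∈ L, x * s = s * x := by
    intro x hx
    rw [hL, Subgroup.mem_centralizer_singleton_iff] at hx
    exact hx
  have hQL : Q ≤ L := by
    rw [hQ]
    rintro _ ⟨y, _, rfl⟩
    exact y.2
  have hQmem : ∀ x : L, x ∈ Cfsg.pCore 2 L ↔ (x : G) ∈ Q := by
    intro x
    rw [hQ]
    constructor
    · intro h; exact ⟨x, h, rfl⟩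
    · rintro ⟨y, hy, hyx⟩
      have : y = x := Subtype.ext hyx
      rw [← this]; exact hy
  have hnorm : ∀ x ∈ L, ∀ q ∈ Q, x * q * x⁻¹ ∈ Q := by
    intro x hx q hq
    have h1 := (inferInstance : (Cfsg.pCore 2 L).Normal).conj_mem ⟨q, hQL hq⟩ ((hQmem _).mpr hq) ⟨x, hx⟩
    exact (hQmem _).mp h1
  let φ : L →* Equiv.Perm (Fin 3) := e.toMonoidHom.comp (QuotientGroup.mk' (Cfsg.pCore 2 L))
  have hφ : ∀ x : L, φ x = 1 ↔ (x : G) ∈ Q := by
    intro x
    rw [← hQmem]
    show e (QuotientGroup.mk' _ x) = 1 ↔ _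
    rw [map_eq_one_iff e e.injective]
    exact QuotientGroup.eq_one_iff x
  have hsQ : s ∈ Q := by
    have : s ∈ Subgroup.zpowers s := Subgroup.mem_zpowers s
    rw [← hCQX] at this
    exact this.1
  have hsc : ∀ x ∈ Q, x * s = s * x := fun x hx => hLs x (hQL hx)
  -- centre
  have hcen : ∀ z : Q, z ∈ Subgroup.center Q → (z : G) = 1 ∨ (z : G) = s := by
    have hsz : (⟨s, hsQ⟩ : Q) ∈ Subgroup.center Q := by
      rw [Subgroup.mem_center_iff]
      intro y
      exact Subtype.ext (hsc y y.2)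
    have hle : Subgroup.zpowers (⟨s, hsQ⟩ : Q) ≤ Subgroup.center Q := by
      rw [Subgroup.zpowers_le]; exact hsz
    have hcz : Nat.card (Subgroup.zpowers (⟨s, hsQ⟩ : Q)) = 2 := by
      rw [Nat.card_zpowers, ← hs]
      exact Subgroup.orderOf_mk s hsQ
    have heq : Subgroup.zpowers (⟨s, hsQ⟩ : Q) = Subgroup.center Q :=
      Subgroup.eq_of_le_of_card_ge hle (by rw [hQex.2, hcz])
    intro z hz
    rw [← heq] at hz
    obtain ⟨k, hk⟩ := Subgroup.mem_zpowers_iff.mp hz
    have hk' : s ^ k = (z : G) := by rw [← hk]; rfl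
    rcases Int.even_or_odd k with ⟨j, hj⟩ | ⟨j, hj⟩
    · left
      rw [← hk', hj, ← two_mul, zpow_mul, zpow_two, ss, one_zpow]
    · right
      rw [← hk', hj, zpow_add, zpow_mul, zpow_two, ss, one_zpow, one_mul, zpow_one]
  have hcomm : ∀ x ∈ Q, ∀ y ∈ Q, x * y = y * x ∨ x * y = s * (y * x) := by
    intro x hx y hy
    have h1 : ⁅(⟨x, hx⟩ : Q), (⟨y, hy⟩ : Q)⁆ ∈ commutator Q :=
      Subgroup.commutator_mem_commutator (Subgroup.mem_top _) (Subgroup.mem_top _)
    rw [hQex.1.2.2] at h1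
    have h2 := hcen _ h1
    have h3 : ((⁅(⟨x, hx⟩ : Q), (⟨y, hy⟩ : Q)⁆ : Q) : G) = x * y * x⁻¹ * y⁻¹ := rfl
    rw [h3] at h2
    have h4 : x * y = (x * y * x⁻¹ * y⁻¹) * (y * x) := by group
    rcases h2 with h2 | h2
    · left; rw [h4, h2, one_mul]
    · right; nth_rewrite 1 [h4]; rw [h2]
  have hcent : ∀ x ∈ Q, (∀ y ∈ Q, x * y = y * x) → x = 1 ∨ x = s := by
    intro x hx h
    apply hcen ⟨x, hx⟩
    rw [Subgroup.mem_center_iff]
    intro y
    exact Subtype.ext (h y y.2).symm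
  have hsq : ∀ x ∈ Q, x * x = 1 ∨ x * x = s := by
    intro x hx
    apply hcent _ (Q.mul_mem hx hx)
    intro y hy
    rcases hcomm x hx y hy with h1 | h1
    · calc x * x * y = x * (x * y) := mul_assoc _ _ _
        _ = x * (y * x) := by rw [h1]
        _ = (x * y) * x := (mul_assoc _ _ _).symm
        _ = (y * x) * x := by rw [h1]
        _ = y * (x * x) := mul_assoc _ _ _
    · calc x * x * y = x * (x * y) := mul_assoc _ _ _
        _ = x * (s * (y * x)) := by rw [h1]
        _ = (x * s) * (y * x) := (mul_assoc _ _ _).symm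
        _ = (s * x) * (y * x) := by rw [hsc x hx]
        _ = s * (x * y) * x := by group
        _ = s * (s * (y * x)) * x := by rw [h1]
        _ = (s * s) * (y * (x * x)) := by group
        _ = y * (x * x) := by rw [ss, one_mul]
  -- p
  haveI : Fact (Nat.Prime 3) := ⟨Nat.prime_three⟩
  have hX3 : Nat.card (X : Subgroup L) = 3 := by
    have h1 := X.card_eq_multiplicity
    rw [hcardL] at h1
    rw [h1]
    have : (192 : ℕ).factorization 3 = 1 := by
      rw [show (192 : ℕ) = 3 ^ 1 * 64 by norm_num]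
      rw [Nat.factorization_mul (by norm_num) (by norm_num), Nat.Prime.factorization_pow Nat.prime_three]
      simp only [Finsupp.add_apply, Finsupp.single_eq_same]
      rw [Nat.factorization_eq_zero_of_not_dvd (by norm_num)]
    rw [this]; norm_num
  obtain ⟨x0, hx0⟩ : ∃ x0 : (X : Subgroup L), x0 ≠ 1 := by
    haveI : Nontrivial (X : Subgroup L) := Finite.one_lt_card_iff_nontrivial.mp (by rw [hX3]; norm_num)
    exact exists_ne 1
  have hx0o : orderOf x0 = 3 := by
    have h1 : orderOf x0 ∣ 3 := by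
      have h2 := orderOf_dvd_natCard x0
      rwa [hX3] at h2
    rcases (Nat.dvd_prime Nat.prime_three).mp h1 with h2 | h2
    · exact absurd (orderOf_eq_one_iff.mp h2) hx0
    · exact h2
  have hgen : ∀ y : (X : Subgroup L), y ∈ Subgroup.zpowers x0 := by
    intro y
    have : Subgroup.zpowers x0 = ⊤ := by
      apply Subgroup.eq_top_of_card_eq
      rw [Nat.card_zpowers, hx0o, hX3]
    rw [this]; exact Subgroup.mem_top _
  obtain ⟨p, hp⟩ : ∃ p : G, p = ((x0 : L) : G) := ⟨_, rfl⟩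
  have hpL : p ∈ L := by rw [hp]; exact (x0 : L).2
  have hpo : orderOf p = 3 := by
    rw [hp, Subgroup.orderOf_coe, Subgroup.orderOf_coe, hx0o]
  have hppp : p * p * p = 1 := by
    have := pow_orderOf_eq_one p
    rw [hpo, pow_succ, pow_two] at this
    exact this
  have hfix : ∀ x ∈ Q, p * x * p⁻¹ = x → x = 1 ∨ x = s := by
    intro x hx hpx
    have hxz : x ∈ Subgroup.zpowers s := by
      rw [← hCQX]
      refine ⟨hx, ?_⟩
      show x ∈ Subgroup.centralizer _
      rw [Subgroup.mem_centralizer_iff]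
      rintro _ ⟨y, hy, rfl⟩
      obtain ⟨k, hk⟩ := Subgroup.mem_zpowers_iff.mp (hgen ⟨y, hy⟩)
      have hk' : (L.subtype y) = p ^ k := by
        rw [hp]
        have := congrArg (fun z : (X : Subgroup L) => ((z : L) : G)) hk
        simp only at this
        rw [show L.subtype y = ((y : L) : G) from rfl]
        rw [← this]
        rfl
      rw [hk']
      have hc : Commute p x := by
        show p * x = x * p
        calc p * x = (p * x * p⁻¹) * p := by group
          _ = x * p := by rw [hpx]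
      exact (hc.zpow_left k).eq
    obtain ⟨k, hk⟩ := Subgroup.mem_zpowers_iff.mp hxz
    rcases Int.even_or_odd k with ⟨j, hj⟩ | ⟨j, hj⟩
    · left
      rw [← hk, hj, ← two_mul, zpow_mul, zpow_two, ss, one_zpow]
    · right
      rw [← hk, hj, zpow_add, zpow_mul, zpow_two, ss, one_zpow, one_mul, zpow_one]
  have hps : p * s * p⁻¹ = s := by rw [hLs p hpL]; group
  have hB : Base Q s p := ⟨s1, ss, hsQ, hsc, hcomm, hsq, hcent, fun x hx => hnorm p hpL x hx, hppp, hps, hfix⟩
  have hpQ : p ∉ Q := by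
    intro hpQ
    have h1 : orderOf p ∣ 32 := by
      rw [← hQcard]
      have := orderOf_dvd_natCard (⟨p, hpQ⟩ : Q)
      rwa [Subgroup.orderOf_mk] at this
    rw [hpo] at h1
    norm_num at h1
  -- r
  obtain ⟨g, hgQ, hgs⟩ := hnwc
  obtain ⟨r, hr⟩ : ∃ r, r = g * s * g⁻¹ := ⟨_, rfl⟩
  rw [← hr] at hgQ hgs
  have hsr : IsConj s r := isConj_iff.mpr ⟨g, hr.symm⟩
  have hrr : r * r = 1 := by
    rw [hr, show g * s * g⁻¹ * (g * s * g⁻¹) = g * (s * s) * g⁻¹ by group, ss]; group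
  have hr1 : r ≠ 1 := by
    intro h
    rw [h] at hsr
    exact s1 (isConj_one_left.mp hsr)
  obtain ⟨a, b, c, d, har, ha, hb, hc, hd, hR⟩ := hB.exists_QR hgQ hrr hr1 hgs
  have hsa : IsConj s a := by
    rcases har with h1 | h1
    · rw [h1]; exact hsr
    · have : ∃ y ∈ Q, y * r = s * (r * y) := by
        by_contra h2
        push Not at h2
        have h3 := hcent r hgQ (by
          intro y hy
          rcases hcomm y hy r hgQ with h4 | h4
          · exact h4.symm
          · exact (h2 y hy h4).elim)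
        rcases h3 with h3 | h3
        · exact hr1 h3
        · exact hgs h3
      obtain ⟨y, hy, hyr⟩ := this
      have h3 : y * r * y⁻¹ = a := by
        rw [h1, hyr, hsc r hgQ]; group
      exact hsr.trans (isConj_iff.mpr ⟨y, h3⟩)
  -- an involution outside Q
  have hinv : ∃ x ∈ L, x * x = 1 ∧ x ∉ Q := by
    by_contra hcon
    push Not at hcon
    obtain ⟨k, hk⟩ := isConj_iff.mp hsa
    have hk' : k⁻¹ * a * k = s := by rw [← hk]; group
    have hmem : ∀ y : G, y * y = 1 → a * y = y * a → k⁻¹ * y * k ∈ Q := by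
      intro y hyy hya
      apply hcon
      · rw [hL, Subgroup.mem_centralizer_singleton_iff, ← hk']
        calc k⁻¹ * y * k * (k⁻¹ * a * k) = k⁻¹ * (y * a) * k := by group
          _ = k⁻¹ * (a * y) * k := by rw [hya]
          _ = _ := by group
      · rw [show k⁻¹ * y * k * (k⁻¹ * y * k) = k⁻¹ * (y * y) * k by group, hyy]; group
    have h1 := hmem b hR.bb hR.ab.symm
    have h2 := hmem c hR.cc hR.ac.symm
    rcases hcomm _ h1 _ h2 with h3 | h3
    · have h4 : b * c = c * b := by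
        calc b * c = k * (k⁻¹ * b * k * (k⁻¹ * c * k)) * k⁻¹ := by group
          _ = _ := by rw [h3]; group
      have h5 := hR.bc
      rw [h4] at h5
      exact s1 (mul_eq_right.mp h5.symm)
    · have h4 : b * c = a * (c * b) := by
        calc b * c = k * (k⁻¹ * b * k * (k⁻¹ * c * k)) * k⁻¹ := by group
          _ = (k * s * k⁻¹) * (c * b) := by rw [h3]; group
          _ = _ := by rw [hk]
      rw [hR.bc] at h4
      have h5 : a * s = 1 := by
        have h6 : (a * s) * (b * c) = b * c := by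
          calc (a * s) * (b * c) = a * (s * (b * c)) := by group
            _ = b * c := h4.symm
        exact mul_eq_right.mp h6
      have h6 : a = s := by
        calc a = (a * s) * s⁻¹ := by group
          _ = s⁻¹ := by rw [h5, one_mul]
          _ = s := by rw [inv_eq_iff_mul_eq_one]; exact ss
      have h7 := hR.ad
      rw [h6, hR.sd] at h7
      exact s1 (mul_eq_right.mp h7.symm)
  obtain ⟨x, hx, hxx, hxQ⟩ := hinv
  obtain ⟨t, htL, htt, htp⟩ := hB.exists_t hQL hpL hLs φ hφ hnorm hpQ hx hxx hxQ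
  obtain ⟨Xa, hXa⟩ := hR.surj Q hQcard hsQ ha hb hc hd _ (hnorm t htL a ha)
  obtain ⟨Xc, hXc⟩ := hR.surj Q hQcard hsQ ha hb hc hd _ (hnorm t htL c hc)
  have hk : TH s a b c d p t Xa Xc := ⟨htt, by rw [hLs t htL]; group, htp, hXa, hXc⟩
  exact hR.final hk hsa

end Cfsg.Agent.Lib.S3344Setup
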