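import Cfsg.Agent.Lib.M12RelA
import Cfsg.Agent.Lib.M12RelB

/-! S3344 setup, part A: computations in the extraspecial group `Q` of order 32 with generators `s a b c d`. -/

set_option autoImplicit false
set_option linter.all false

namespace Cfsg.Agent.Lib.S3344SetupA

/-- codes of elements of `Q`: exponents of `s a b c d` -/
abbrev E5 := Bool × Bool × Bool × Bool × Bool

def mulE (x y : E5) : E5 :=
  (xor (xor x.1 y.1) (xor (x.2.2.2.2 && y.2.1) (x.2.2.2.1 && y.2.2.1)), xor x.2.1 y.2.1, xor x.2.2.1 y.2.2.1,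
    xor x.2.2.2.1 y.2.2.2.1, xor x.2.2.2.2 y.2.2.2.2)

def oneE : E5 := (false, false, false, false, false)
def sE : E5 := (true, false, false, false, false)
def aE : E5 := (false, true, false, false, false)
def bE : E5 := (false, false, true, false, false)
def cE : E5 := (false, false, false, true, false)
def dE : E5 := (false, false, false, false, true)
def acsE : E5 := (true, true, false, true, false)
def bdsE : E5 := (true, false, true, false, true)

def pwE (x : E5) (e : Bool) : E5 := if e then x else oneE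

def img (Xa Xb Xc Xd : E5) (x : E5) : E5 :=
  mulE (pwE sE x.1) (mulE (pwE Xa x.2.1) (mulE (pwE Xb x.2.2.1) (mulE (pwE Xc x.2.2.2.1) (pwE Xd x.2.2.2.2))))

def P : E5 → E5 := img bE (mulE aE bE) dE (mulE cE dE)
def P2 (x : E5) : E5 := P (P x)

def T (Xa Xc : E5) : E5 → E5 := img Xa (P2 Xa) Xc (P2 Xc)

def Ti (Xa Xc : E5) (i : Fin 3) (x : E5) : E5 :=
  if i = 0 then T Xa Xc x else if i = 1 then P (T Xa Xc (P2 x)) else P2 (T Xa Xc (P x))

def cond (Xa Xc : E5) : Bool :=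
  decide (T Xa Xc Xa = aE) && decide (T Xa Xc Xc = cE) && decide (mulE Xa Xa = oneE) && decide (mulE Xc Xc = oneE) &&
  decide (mulE Xa Xc = mulE Xc Xa) && decide (mulE Xa (P2 Xa) = P2 (P2 Xa)) &&
  decide (mulE Xa (P2 Xc) = mulE (mulE (P2 Xc) Xa) sE) && decide (mulE Xc (P2 Xc) = P2 (P2 Xc))

structure RelQ (a b c d : E5) : Prop where
  aa : mulE a a = oneE
  bb : mulE b b = oneE
  cc : mulE c c = oneE
  dd : mulE d d = oneE
  ab : mulE (mulE (mulE a b) a) b = oneE
  cd : mulE (mulE (mulE c d) c) d = oneE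
  ac : mulE (mulE (mulE a c) a) c = oneE
  bd : mulE (mulE (mulE b d) b) d = oneE
  ad : mulE (mulE (mulE (mulE a d) a) d) sE = oneE
  bc : mulE (mulE (mulE (mulE b c) b) c) sE = oneE
  pa : mulE (P a) b = oneE
  pb : mulE (mulE (P b) b) a = oneE
  pc : mulE (P c) d = oneE
  pd : mulE (mulE (P d) d) c = oneE

theorem relQ1 : RelQ aE bE cE dE := by constructor <;> decide
theorem relQ2 : RelQ cE dE aE bE := by constructor <;> decide
theorem relQ3 : RelQ acsE bdsE aE bE := by constructor <;> decide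

def RA (t : E5 → E5) (a b c d : E5) : Bool :=
  decide (t a = a) && decide (mulE (mulE (t b) b) a = oneE) && decide (t c = c) && decide (mulE (mulE (t d) d) c = oneE)

def RB (t : E5 → E5) (a b c d : E5) : Bool :=
  decide (t a = a) && decide (mulE (mulE (t b) b) a = oneE) && decide (mulE (mulE (mulE (t c) sE) c) a = oneE) &&
    decide (mulE (mulE (mulE (mulE (mulE (t d) sE) d) c) b) a = oneE)

theorem check : ∀ Xa Xc : E5, cond Xa Xc = true → ∃ i : Fin 3, RA (Ti Xa Xc i) aE bE cE dE = true ∨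
    RB (Ti Xa Xc i) aE bE cE dE = true ∨ RB (Ti Xa Xc i) cE dE aE bE = true ∨ RB (Ti Xa Xc i) acsE bdsE aE bE = true := by
  decide +kernel

section group

variable {G : Type*} [Group G]

def pw (g : G) (e : Bool) : G := if e then g else 1

def ev (s a b c d : G) (x : E5) : G :=
  pw s x.1 * (pw a x.2.1 * (pw b x.2.2.1 * (pw c x.2.2.2.1 * pw d x.2.2.2.2)))

/-- relations of `Q` and `p` -/
structure QR (s a b c d p : G) : Prop where
  s1 : s ≠ 1
  ss : s * s = 1
  aa : a * a = 1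
  bb : b * b = 1
  cc : c * c = 1
  dd : d * d = 1
  sa : a * s = s * a
  sb : b * s = s * b
  sc : c * s = s * c
  sd : d * s = s * d
  ab : b * a = a * b
  cd : d * c = c * d
  ac : c * a = a * c
  bd : d * b = b * d
  ad : d * a = s * (a * d)
  bc : c * b = s * (b * c)
  ppp : p * p * p = 1
  sp : p * s * p⁻¹ = s
  pa : p * a * p⁻¹ = b
  pb : p * b * p⁻¹ = a * b
  pc : p * c * p⁻¹ = d
  pd : p * d * p⁻¹ = c * d

variable {s a b c d p : G}

theorem assoc_rule {x y z : G} (h : x * y = z) (w : G) : x * (y * w) = z * w := by rw [← mul_assoc, h]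

theorem assoc_one {x y : G} (h : x * y = 1) (w : G) : x * (y * w) = w := by rw [← mul_assoc, h, one_mul]

theorem assoc_comm {x y : G} (h : x * y = y * x) (w : G) : x * (y * w) = y * (x * w) := by
  rw [← mul_assoc, h, mul_assoc]

theorem assoc_s {x y : G} (h : x * y = s * (y * x)) (w : G) : x * (y * w) = s * (y * (x * w)) := by
  rw [← mul_assoc, h, mul_assoc, mul_assoc]

theorem QR.mul_gen (h : QR s a b c d p) (x : E5) :
    ev s a b c d x * s = ev s a b c d (mulE x sE) ∧ ev s a b c d x * a = ev s a b c d (mulE x aE) ∧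
    ev s a b c d x * b = ev s a b c d (mulE x bE) ∧ ev s a b c d x * c = ev s a b c d (mulE x cE) ∧
    ev s a b c d x * d = ev s a b c d (mulE x dE) := by
  obtain ⟨i, j, k, l, m⟩ := x
  refine ⟨?_, ?_, ?_, ?_, ?_⟩ <;> cases i <;> cases j <;> cases k <;> cases l <;> cases m <;>
    simp [ev, pw, mulE, sE, aE, bE, cE, dE, mul_assoc, h.ss, h.aa, h.bb, h.cc, h.dd, h.sa, h.sb, h.sc, h.sd, h.ab, h.cd, h.ac,
      h.bd, h.ad, h.bc, assoc_one h.ss, assoc_one h.aa, assoc_one h.bb, assoc_one h.cc, assoc_one h.dd,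
      assoc_comm h.sa, assoc_comm h.sb, assoc_comm h.sc, assoc_comm h.sd, assoc_comm h.ab, assoc_comm h.cd, assoc_comm h.ac,
      assoc_comm h.bd, assoc_s h.ad, assoc_s h.bc]

theorem mul_decomp : ∀ x y : E5, mulE (mulE (mulE (mulE (mulE x (pwE sE y.1)) (pwE aE y.2.1)) (pwE bE y.2.2.1)) (pwE cE y.2.2.2.1))
    (pwE dE y.2.2.2.2) = mulE x y := by decide +kernel

theorem mulE_one : ∀ x : E5, mulE x oneE = x := by decide

theorem QR.ev_mul (h : QR s a b c d p) (x y : E5) : ev s a b c d x * ev s a b c d y = ev s a b c d (mulE x y) := by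
  have g1 : ∀ (x : E5) (e : Bool), ev s a b c d x * pw s e = ev s a b c d (mulE x (pwE sE e)) := by
    intro x e
    cases e
    · simp [pw, pwE, mulE_one]
    · simpa [pw, pwE] using (h.mul_gen x).1
  have g2 : ∀ (x : E5) (e : Bool), ev s a b c d x * pw a e = ev s a b c d (mulE x (pwE aE e)) := by
    intro x e
    cases e
    · simp [pw, pwE, mulE_one]
    · simpa [pw, pwE] using (h.mul_gen x).2.1
  have g3 : ∀ (x : E5) (e : Bool), ev s a b c d x * pw b e = ev s a b c d (mulE x (pwE bE e)) := by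
    intro x e
    cases e
    · simp [pw, pwE, mulE_one]
    · simpa [pw, pwE] using (h.mul_gen x).2.2.1
  have g4 : ∀ (x : E5) (e : Bool), ev s a b c d x * pw c e = ev s a b c d (mulE x (pwE cE e)) := by
    intro x e
    cases e
    · simp [pw, pwE, mulE_one]
    · simpa [pw, pwE] using (h.mul_gen x).2.2.2.1
  have g5 : ∀ (x : E5) (e : Bool), ev s a b c d x * pw d e = ev s a b c d (mulE x (pwE dE e)) := by
    intro x e
    cases e
    · simp [pw, pwE, mulE_one]
    · simpa [pw, pwE] using (h.mul_gen x).2.2.2.2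
  have e1 : ev s a b c d y = pw s y.1 * (pw a y.2.1 * (pw b y.2.2.1 * (pw c y.2.2.2.1 * pw d y.2.2.2.2))) := rfl
  rw [e1, ← mul_assoc, ← mul_assoc, ← mul_assoc, ← mul_assoc, g1, g2, g3, g4, g5, mul_decomp]

theorem ev_one : ev s a b c d oneE = 1 := by simp [ev, pw, oneE]
theorem ev_s : ev s a b c d sE = s := by simp [ev, pw, sE]
theorem ev_a : ev s a b c d aE = a := by simp [ev, pw, aE]
theorem ev_b : ev s a b c d bE = b := by simp [ev, pw, bE]
theorem ev_c : ev s a b c d cE = c := by simp [ev, pw, cE]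
theorem ev_d : ev s a b c d dE = d := by simp [ev, pw, dE]

theorem fl1 : ∀ i j k l : Bool, mulE (i, j, k, l, true) aE = mulE sE (mulE aE (i, j, k, l, true)) := by decide
theorem fl2 : ∀ i j k : Bool, mulE (i, j, k, true, false) bE = mulE sE (mulE bE (i, j, k, true, false)) := by decide
theorem fl3 : ∀ i j : Bool, mulE cE (i, j, true, false, false) = mulE sE (mulE (i, j, true, false, false) cE) := by decide
theorem fl4 : ∀ i : Bool, mulE dE (i, true, false, false, false) = mulE sE (mulE (i, true, false, false, false) dE) := by decide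

theorem QR.ev_eq_one (h : QR s a b c d p) (x : E5) (hx : ev s a b c d x = 1) : x = oneE := by
  have hflip : ∀ (y z : E5), z = mulE sE y → ev s a b c d z = ev s a b c d y → False := by
    intro y z hz h1
    rw [hz, ← h.ev_mul, ev_s] at h1
    exact h.s1 (mul_eq_right.mp h1)
  have hc : ∀ g : E5, ev s a b c d (mulE x g) = ev s a b c d (mulE g x) := by
    intro g
    rw [← h.ev_mul, ← h.ev_mul, hx, one_mul, mul_one]
  obtain ⟨i, j, k, l, m⟩ := x
  have hm : m = false := by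
    cases m
    · rfl
    · exact (hflip _ _ (fl1 i j k l) (hc aE)).elim
  subst hm
  have hl : l = false := by
    cases l
    · rfl
    · exact (hflip _ _ (fl2 i j k) (hc bE)).elim
  subst hl
  have hk : k = false := by
    cases k
    · rfl
    · exact (hflip _ _ (fl3 i j) (hc cE).symm).elim
  subst hk
  have hj : j = false := by
    cases j
    · rfl
    · exact (hflip _ _ (fl4 i) (hc dE).symm).elim
  subst hj
  have hi : i = false := by
    cases i
    · rfl
    · exfalso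
      apply h.s1
      simpa [ev, pw] using hx
  subst hi
  rfl

def invE (x : E5) : E5 := (xor x.1 (xor (x.2.2.2.2 && x.2.1) (x.2.2.2.1 && x.2.2.1)), x.2.1, x.2.2.1, x.2.2.2.1, x.2.2.2.2)

theorem mul_inv : ∀ x : E5, mulE x (invE x) = oneE := by decide +kernel

theorem eq_of_mul_inv : ∀ x y : E5, mulE x (invE y) = oneE → x = y := by decide +kernel

theorem QR.ev_inj (h : QR s a b c d p) : Function.Injective (ev s a b c d) := by
  intro x y hxy
  apply eq_of_mul_inv
  apply h.ev_eq_one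
  rw [← h.ev_mul, hxy, h.ev_mul, mul_inv, ev_one]

theorem conj_pw (g x : G) (X : E5) (e : Bool) (hx : g * x * g⁻¹ = ev s a b c d X) :
    g * pw x e * g⁻¹ = ev s a b c d (pwE X e) := by
  cases e
  · simp [pw, pwE, ev_one]
  · simpa [pw, pwE] using hx

theorem QR.conj_ev (h : QR s a b c d p) (g : G) (Xa Xb Xc Xd : E5) (hs : g * s * g⁻¹ = s)
    (ha : g * a * g⁻¹ = ev s a b c d Xa) (hb : g * b * g⁻¹ = ev s a b c d Xb) (hc : g * c * g⁻¹ = ev s a b c d Xc)
    (hd : g * d * g⁻¹ = ev s a b c d Xd) (x : E5) :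
    g * ev s a b c d x * g⁻¹ = ev s a b c d (img Xa Xb Xc Xd x) := by
  have hs' : g * s * g⁻¹ = ev s a b c d sE := by rw [ev_s]; exact hs
  unfold img
  rw [← h.ev_mul, ← h.ev_mul, ← h.ev_mul, ← h.ev_mul, ← conj_pw g s sE x.1 hs', ← conj_pw g a Xa x.2.1 ha,
    ← conj_pw g b Xb x.2.2.1 hb, ← conj_pw g c Xc x.2.2.2.1 hc, ← conj_pw g d Xd x.2.2.2.2 hd]
  unfold ev
  group

theorem QR.conj_p (h : QR s a b c d p) (x : E5) : p * ev s a b c d x * p⁻¹ = ev s a b c d (P x) := by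
  apply h.conj_ev p bE (mulE aE bE) dE (mulE cE dE) h.sp
  · rw [ev_b]; exact h.pa
  · rw [← h.ev_mul, ev_a, ev_b]; exact h.pb
  · rw [ev_d]; exact h.pc
  · rw [← h.ev_mul, ev_c, ev_d]; exact h.pd

theorem QR.pinv (h : QR s a b c d p) : p⁻¹ = p * p := by
  have := h.ppp
  rw [inv_eq_iff_mul_eq_one, ← mul_assoc]; exact this

theorem QR.conj_p2 (h : QR s a b c d p) (x : E5) : p⁻¹ * ev s a b c d x * p = ev s a b c d (P2 x) := by
  have h1 : p⁻¹ * ev s a b c d x * p = p * (p * ev s a b c d x * p⁻¹) * p⁻¹ := by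
    have h3 : p = p⁻¹ * p⁻¹ := by rw [← mul_inv_rev, ← h.pinv, inv_inv]
    calc p⁻¹ * ev s a b c d x * p = (p * p) * ev s a b c d x * (p⁻¹ * p⁻¹) := by rw [← h.pinv, ← h3]
      _ = _ := by group
  rw [h1, h.conj_p, h.conj_p]
  rfl

/-- the hypotheses on `t` -/
structure TH (s a b c d p t : G) (Xa Xc : E5) : Prop where
  tt : t * t = 1
  ts : t * s * t⁻¹ = s
  tp : t * p * t⁻¹ = p⁻¹
  ta : t * a * t⁻¹ = ev s a b c d Xa
  tc : t * c * t⁻¹ = ev s a b c d Xc

variable {t : G} {Xa Xc : E5}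

theorem QR.tb (h : QR s a b c d p) (k : TH s a b c d p t Xa Xc) : t * b * t⁻¹ = ev s a b c d (P2 Xa) := by
  have h1 : t * p = p⁻¹ * t := by rw [← k.tp]; group
  rw [← h.conj_p2, ← k.ta]
  calc t * b * t⁻¹ = t * (p * a * p⁻¹) * t⁻¹ := by rw [h.pa]
    _ = (t * p) * a * (t * p)⁻¹ := by group
    _ = _ := by rw [h1]; group

theorem QR.td (h : QR s a b c d p) (k : TH s a b c d p t Xa Xc) : t * d * t⁻¹ = ev s a b c d (P2 Xc) := by
  have h1 : t * p = p⁻¹ * t := by rw [← k.tp]; group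
  rw [← h.conj_p2, ← k.tc]
  calc t * d * t⁻¹ = t * (p * c * p⁻¹) * t⁻¹ := by rw [h.pc]
    _ = (t * p) * c * (t * p)⁻¹ := by group
    _ = _ := by rw [h1]; group

theorem QR.conj_t (h : QR s a b c d p) (k : TH s a b c d p t Xa Xc) (x : E5) :
    t * ev s a b c d x * t⁻¹ = ev s a b c d (T Xa Xc x) :=
  h.conj_ev t Xa (P2 Xa) Xc (P2 Xc) k.ts k.ta (h.tb k) k.tc (h.td k) x

theorem QR.cond (h : QR s a b c d p) (k : TH s a b c d p t Xa Xc) : cond Xa Xc = true := by
  have hti : t⁻¹ = t := by rw [inv_eq_iff_mul_eq_one]; exact k.tt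
  have hh : ∀ x y z : G, t * x * t⁻¹ * (t * y * t⁻¹) = t * (x * y) * t⁻¹ := by intro x y z; group
  unfold S3344SetupA.cond
  simp only [Bool.and_eq_true, decide_eq_true_eq]
  refine ⟨⟨⟨⟨⟨⟨⟨?_, ?_⟩, ?_⟩, ?_⟩, ?_⟩, ?_⟩, ?_⟩, ?_⟩
  · apply h.ev_inj
    rw [← h.conj_t k, ← k.ta, ev_a, hti, show t * (t * a * t) * t = (t * t) * a * (t * t) by group, k.tt, one_mul, mul_one]
  · apply h.ev_inj
    rw [← h.conj_t k, ← k.tc, ev_c, hti, show t * (t * c * t) * t = (t * t) * c * (t * t) by group, k.tt, one_mul, mul_one]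
  · apply h.ev_inj
    rw [← h.ev_mul, ← k.ta, ev_one, show t * a * t⁻¹ * (t * a * t⁻¹) = t * (a * a) * t⁻¹ by group, h.aa]
    group
  · apply h.ev_inj
    rw [← h.ev_mul, ← k.tc, ev_one, show t * c * t⁻¹ * (t * c * t⁻¹) = t * (c * c) * t⁻¹ by group, h.cc]
    group
  · apply h.ev_inj
    rw [← h.ev_mul, ← h.ev_mul, ← k.tc, ← k.ta, show t * a * t⁻¹ * (t * c * t⁻¹) = t * (a * c) * t⁻¹ by group, ← h.ac]
    group
  · apply h.ev_inj
    rw [← h.ev_mul, ← h.conj_p2 (P2 Xa), ← h.tb k, ← k.ta]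
    have h1 : t * p = p⁻¹ * t := by rw [← k.tp]; group
    have h2 : p⁻¹ * (t * b * t⁻¹) * p = (t * p) * b * (t * p)⁻¹ := by rw [h1]; group
    rw [h2, show t * a * t⁻¹ * (t * b * t⁻¹) = t * (a * b) * t⁻¹ by group, ← h.pb]
    group
  · apply h.ev_inj
    rw [← h.ev_mul, ← h.ev_mul, ← h.ev_mul, ← h.td k, ← k.ta, ev_s]
    rw [show t * d * t⁻¹ * (t * a * t⁻¹) = t * (d * a) * t⁻¹ by group, h.ad]
    have h3 : t * s = s * t := by
      calc t * s = (t * s * t⁻¹) * t := by group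
        _ = s * t := by rw [k.ts]
    calc t * a * t⁻¹ * (t * d * t⁻¹) = t * (a * d) * t⁻¹ := by group
      _ = t * (s * s) * (a * d) * t⁻¹ := by rw [h.ss]; group
      _ = t * (s * (s * a * d)) * t⁻¹ := by group
      _ = t * (s * (a * d) * s) * t⁻¹ := by
        rw [show s * a * d = a * d * s by rw [← h.sa, mul_assoc, ← h.sd, ← mul_assoc]]; group
      _ = t * (s * (a * d)) * (s * t⁻¹) := by group
      _ = t * (s * (a * d)) * (t⁻¹ * s) := by
        rw [show s * t⁻¹ = t⁻¹ * s by rw [hti, h3]]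
      _ = _ := by group
  · apply h.ev_inj
    rw [← h.ev_mul, ← h.conj_p2 (P2 Xc), ← h.td k, ← k.tc]
    have h1 : t * p = p⁻¹ * t := by rw [← k.tp]; group
    have h2 : p⁻¹ * (t * d * t⁻¹) * p = (t * p) * d * (t * p)⁻¹ := by rw [h1]; group
    rw [h2, show t * c * t⁻¹ * (t * d * t⁻¹) = t * (c * d) * t⁻¹ by group, ← h.pd]
    group

/-- translation of the `Q`-relations -/
theorem QR.relQ (h : QR s a b c d p) {A B C D : E5} (r : RelQ A B C D) :
    ∃ A' B' C' D' : G, A' = ev s a b c d A ∧ B' = ev s a b c d B ∧ C' = ev s a b c d C ∧ D' = ev s a b c d D ∧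
      A' * A' = 1 ∧ B' * B' = 1 ∧ C' * C' = 1 ∧ D' * D' = 1 ∧ A' * B' * A' * B' = 1 ∧ C' * D' * C' * D' = 1 ∧
      A' * C' * A' * C' = 1 ∧ B' * D' * B' * D' = 1 ∧ A' * D' * A' * D' * s = 1 ∧ B' * C' * B' * C' * s = 1 ∧
      p * A' * p⁻¹ * B' = 1 ∧ p * B' * p⁻¹ * B' * A' = 1 ∧ p * C' * p⁻¹ * D' = 1 ∧ p * D' * p⁻¹ * D' * C' = 1 := by
  refine ⟨_, _, _, _, rfl, rfl, rfl, rfl, ?_⟩
  have e := @ev_one G _ s a b c d
  refine ⟨?_, ?_, ?_, ?_, ?_, ?_, ?_, ?_, ?_, ?_, ?_, ?_, ?_, ?_⟩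
  · rw [h.ev_mul, r.aa, e]
  · rw [h.ev_mul, r.bb, e]
  · rw [h.ev_mul, r.cc, e]
  · rw [h.ev_mul, r.dd, e]
  · rw [h.ev_mul, h.ev_mul, h.ev_mul, r.ab, e]
  · rw [h.ev_mul, h.ev_mul, h.ev_mul, r.cd, e]
  · rw [h.ev_mul, h.ev_mul, h.ev_mul, r.ac, e]
  · rw [h.ev_mul, h.ev_mul, h.ev_mul, r.bd, e]
  · have := r.ad
    rw [h.ev_mul, h.ev_mul, h.ev_mul]
    nth_rewrite 2 [← @ev_s G _ s a b c d]
    rw [h.ev_mul, r.ad, e]
  · rw [h.ev_mul, h.ev_mul, h.ev_mul]
    nth_rewrite 2 [← @ev_s G _ s a b c d]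
    rw [h.ev_mul, r.bc, e]
  · rw [h.conj_p, h.ev_mul, r.pa, e]
  · rw [h.conj_p, h.ev_mul, h.ev_mul, r.pb, e]
  · rw [h.conj_p, h.ev_mul, r.pc, e]
  · rw [h.conj_p, h.ev_mul, h.ev_mul, r.pd, e]

/-- conjugation by `p^i t p^{-i}` -/
theorem QR.exists_ti (h : QR s a b c d p) (k : TH s a b c d p t Xa Xc) (i : Fin 3) :
    ∃ u : G, u * u = 1 ∧ s * u * s * u = 1 ∧ u * p * u * p = 1 ∧ u⁻¹ = u ∧ u * s = s * u ∧
      ∀ x : E5, u * ev s a b c d x * u⁻¹ = ev s a b c d (Ti Xa Xc i x) := by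
  have hs1 : p * s = s * p := by
    calc p * s = (p * s * p⁻¹) * p := by group
      _ = s * p := by rw [h.sp]
  have hs2 : t * s = s * t := by
    calc t * s = (t * s * t⁻¹) * t := by group
      _ = s * t := by rw [k.ts]
  have main : ∀ g : G, g * s = s * g → g * p = p * g → ∀ u : G, u = g * t * g⁻¹ →
      u * u = 1 ∧ s * u * s * u = 1 ∧ u * p * u * p = 1 ∧ u⁻¹ = u ∧ u * s = s * u := by
    intro g hg hgp u hu
    have h1 : u * u = 1 := by
      rw [hu, show g * t * g⁻¹ * (g * t * g⁻¹) = g * (t * t) * g⁻¹ by group, k.tt]; group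
    have h2 : u⁻¹ = u := by rw [inv_eq_iff_mul_eq_one]; exact h1
    have h3 : u * s = s * u := by
      have h4 : g⁻¹ * s = s * g⁻¹ := by
        calc g⁻¹ * s = g⁻¹ * (s * g) * g⁻¹ := by group
          _ = g⁻¹ * (g * s) * g⁻¹ := by rw [hg]
          _ = _ := by group
      calc u * s = g * t * (g⁻¹ * s) := by rw [hu]; group
        _ = g * (t * s) * g⁻¹ := by rw [h4]; group
        _ = (g * s) * t * g⁻¹ := by rw [hs2]; group
        _ = s * (g * t * g⁻¹) := by rw [hg]; group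
        _ = _ := by rw [hu]
    have h5 : u * p * u⁻¹ = p⁻¹ := by
      have h6 : g⁻¹ * p * g = p := by
        calc g⁻¹ * p * g = g⁻¹ * (p * g) := by group
          _ = g⁻¹ * (g * p) := by rw [hgp]
          _ = p := by group
      calc u * p * u⁻¹ = g * t * (g⁻¹ * p * g) * t⁻¹ * g⁻¹ := by rw [hu]; group
        _ = g * (t * p * t⁻¹) * g⁻¹ := by rw [h6]; group
        _ = (g * p * g⁻¹)⁻¹ := by rw [k.tp]; group
        _ = p⁻¹ := by rw [hgp]; group
    refine ⟨h1, ?_, ?_, h2, h3⟩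
    · rw [show s * u * s * u = s * (u * s) * u by group, h3, show s * (s * u) * u = (s * s) * (u * u) by group, h.ss, h1, one_mul]
    · rw [h2] at h5
      rw [h5]; group
  fin_cases i
  · obtain ⟨h1, h2, h3, h4, h5⟩ := main 1 (by group) (by group) t (by group)
    refine ⟨t, h1, h2, h3, h4, h5, ?_⟩
    intro x
    have : Ti Xa Xc ⟨0, by norm_num⟩ x = T Xa Xc x := rfl
    exact h.conj_t k x
  · obtain ⟨h1, h2, h3, h4, h5⟩ := main p hs1 rfl (p * t * p⁻¹) rfl
    refine ⟨p * t * p⁻¹, h1, h2, h3, h4, h5, ?_⟩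
    intro x
    show _ = ev s a b c d (P (T Xa Xc (P2 x)))
    rw [← h.conj_p, ← h.conj_t k, ← h.conj_p2]
    group
  · obtain ⟨h1, h2, h3, h4, h5⟩ := main p⁻¹ (by
      calc p⁻¹ * s = p⁻¹ * (s * p) * p⁻¹ := by group
          _ = p⁻¹ * (p * s) * p⁻¹ := by rw [hs1]
          _ = _ := by group) (by group) (p⁻¹ * t * p) (by group)
    refine ⟨p⁻¹ * t * p, h1, h2, h3, h4, h5, ?_⟩
    intro x
    show _ = ev s a b c d (P2 (T Xa Xc (P x)))
    rw [← h.conj_p2, ← h.conj_t k, ← h.conj_p]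
    group

theorem QR.final (h : QR s a b c d p) (k : TH s a b c d p t Xa Xc) (ha : IsConj s a) :
    ∃ a b c d p t : G, (IsConj s a ∧ M12A.Rel s a b c d p t) ∨ ((IsConj s a ∨ IsConj s c) ∧ M12B.Rel s a b c d p t) := by
  obtain ⟨i, hi⟩ := check Xa Xc (h.cond k)
  obtain ⟨u, uu, su, up, ui, us, hu⟩ := h.exists_ti k i
  have e1 := @ev_one G _ s a b c d
  have es := @ev_s G _ s a b c d
  have qs : ∀ A : E5, s * ev s a b c d A * s * ev s a b c d A * 1 = ev s a b c d (mulE (mulE (mulE sE A) sE) A) := by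
    intro A
    rw [← h.ev_mul, ← h.ev_mul, ← h.ev_mul, es, mul_one]
  have hB : ∀ A B C D : E5, RelQ A B C D → RB (Ti Xa Xc i) A B C D = true →
      mulE (mulE (mulE sE A) sE) A = oneE → mulE (mulE (mulE sE B) sE) B = oneE →
      mulE (mulE (mulE sE C) sE) C = oneE → mulE (mulE (mulE sE D) sE) D = oneE →
      M12B.Rel s (ev s a b c d A) (ev s a b c d B) (ev s a b c d C) (ev s a b c d D) p u := by
    intro A B C D r hr q1 q2 q3 q4
    obtain ⟨A', B', C', D', hA, hB, hC, hD, k1, k2, k3, k4, k5, k6, k7, k8, k9, k10, k11, k12, k13, k14⟩ := h.relQ r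
    unfold RB at hr
    simp only [Bool.and_eq_true, decide_eq_true_eq] at hr
    obtain ⟨⟨⟨r1, r2⟩, r3⟩, r4⟩ := hr
    have m1 := hu A
    have m2 := hu B
    have m3 := hu C
    have m4 := hu D
    have qA := qs A
    have qB := qs B
    have qC := qs C
    have qD := qs D
    rw [q1, e1, mul_one] at qA
    rw [q2, e1, mul_one] at qB
    rw [q3, e1, mul_one] at qC
    rw [q4, e1, mul_one] at qD
    rw [r1] at m1
    rw [ui] at m1 m2 m3 m4
    have n2 : u * B' * u * B' * A' = 1 := by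
      rw [hB, hA, m2, h.ev_mul, h.ev_mul, r2, e1]
    have n3 : u * C' * u * s * C' * A' = 1 := by
      have : ev s a b c d (Ti Xa Xc i C) * s * ev s a b c d C * ev s a b c d A = 1 := by
        rw [← e1, ← r3, ← h.ev_mul, ← h.ev_mul, ← h.ev_mul, es]
      rw [hC, hA, m3, this]
    have n4 : u * D' * u * s * D' * C' * B' * A' = 1 := by
      have : ev s a b c d (Ti Xa Xc i D) * s * ev s a b c d D * ev s a b c d C * ev s a b c d B * ev s a b c d A = 1 := by
        rw [← e1, ← r4, ← h.ev_mul, ← h.ev_mul, ← h.ev_mul, ← h.ev_mul, ← h.ev_mul, es]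
      rw [hD, hC, hB, hA, m4, this]
    rw [← hA] at m1 qA
    rw [← hB] at qB
    rw [← hC] at qC
    rw [← hD] at qD
    rw [← hA, ← hB, ← hC, ← hD]
    have hps : s * p * s * p⁻¹ = 1 := by
      rw [show s * p * s * p⁻¹ = s * (p * s * p⁻¹) by group, h.sp, h.ss]
    exact ⟨h.ss, k1, k2, k3, k4, uu, qA, qB, qC, qD, k5, k6, k7, k8, k9, k10, h.ppp, hps, k11, k12, k13, k14, su, up,
      by rw [show A' * u * A' * u = A' * (u * A' * u) by group, m1, k1], n2, n3, n4⟩
  have hA' : ∀ A B C D : E5, RelQ A B C D → RA (Ti Xa Xc i) A B C D = true →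
      mulE (mulE (mulE sE A) sE) A = oneE → mulE (mulE (mulE sE B) sE) B = oneE →
      mulE (mulE (mulE sE C) sE) C = oneE → mulE (mulE (mulE sE D) sE) D = oneE →
      M12A.Rel s (ev s a b c d A) (ev s a b c d B) (ev s a b c d C) (ev s a b c d D) p u := by
    intro A B C D r hr q1 q2 q3 q4
    obtain ⟨A', B', C', D', hA, hB, hC, hD, k1, k2, k3, k4, k5, k6, k7, k8, k9, k10, k11, k12, k13, k14⟩ := h.relQ r
    unfold RA at hr
    simp only [Bool.and_eq_true, decide_eq_true_eq] at hr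
    obtain ⟨⟨⟨r1, r2⟩, r3⟩, r4⟩ := hr
    have m1 := hu A
    have m2 := hu B
    have m3 := hu C
    have m4 := hu D
    have qA := qs A
    have qB := qs B
    have qC := qs C
    have qD := qs D
    rw [q1, e1, mul_one] at qA
    rw [q2, e1, mul_one] at qB
    rw [q3, e1, mul_one] at qC
    rw [q4, e1, mul_one] at qD
    rw [r1] at m1
    rw [r3] at m3
    rw [ui] at m1 m2 m3 m4
    have n2 : u * B' * u * B' * A' = 1 := by
      rw [hB, hA, m2, h.ev_mul, h.ev_mul, r2, e1]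
    have n4 : u * D' * u * D' * C' = 1 := by
      rw [hD, hC, m4, h.ev_mul, h.ev_mul, r4, e1]
    rw [← hA] at m1 qA
    rw [← hC] at m3
    rw [← hB] at qB
    rw [← hC] at qC
    rw [← hD] at qD
    rw [← hA, ← hB, ← hC, ← hD]
    have hps : s * p * s * p⁻¹ = 1 := by
      rw [show s * p * s * p⁻¹ = s * (p * s * p⁻¹) by group, h.sp, h.ss]
    exact ⟨h.ss, k1, k2, k3, k4, uu, qA, qB, qC, qD, k5, k6, k7, k8, k9, k10, h.ppp, hps, k11, k12, k13, k14, su, up,
      by rw [show A' * u * A' * u = A' * (u * A' * u) by group, m1, k1], n2,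
      by rw [show C' * u * C' * u = C' * (u * C' * u) by group, m3, k3], n4⟩
  rcases hi with hi | hi | hi | hi
  · have := hA' _ _ _ _ relQ1 hi (by decide) (by decide) (by decide) (by decide)
    rw [ev_a, ev_b, ev_c, ev_d] at this
    exact ⟨_, _, _, _, _, _, Or.inl ⟨ha, this⟩⟩
  · have := hB _ _ _ _ relQ1 hi (by decide) (by decide) (by decide) (by decide)
    rw [ev_a, ev_b, ev_c, ev_d] at this
    exact ⟨_, _, _, _, _, _, Or.inr ⟨Or.inl ha, this⟩⟩
  · have := hB _ _ _ _ relQ2 hi (by decide) (by decide) (by decide) (by decide)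
    rw [ev_a, ev_b, ev_c, ev_d] at this
    exact ⟨_, _, _, _, _, _, Or.inr ⟨Or.inr ha, this⟩⟩
  · have := hB _ _ _ _ relQ3 hi (by decide) (by decide) (by decide) (by decide)
    rw [ev_a, ev_b] at this
    exact ⟨_, _, _, _, _, _, Or.inr ⟨Or.inr ha, this⟩⟩

/-- surjectivity onto `Q` -/
theorem QR.surj [Finite G] (h : QR s a b c d p) (Q : Subgroup G) (hQ : Nat.card Q = 32) (hs : s ∈ Q) (ha : a ∈ Q) (hb : b ∈ Q)
    (hc : c ∈ Q) (hd : d ∈ Q) (q : G) (hq : q ∈ Q) : ∃ x : E5, q = ev s a b c d x := by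
  have hm : ∀ x : E5, ev s a b c d x ∈ Q := by
    have hp : ∀ (g : G) (e : Bool), g ∈ Q → pw g e ∈ Q := by
      intro g e hg
      cases e
      · exact Q.one_mem
      · exact hg
    intro x
    exact Q.mul_mem (hp _ _ hs) (Q.mul_mem (hp _ _ ha) (Q.mul_mem (hp _ _ hb) (Q.mul_mem (hp _ _ hc) (hp _ _ hd))))
  let f : E5 → Q := fun x => ⟨ev s a b c d x, hm x⟩
  have hf : Function.Injective f := fun x y hxy => h.ev_inj (congrArg Subtype.val hxy)
  have hc32 : Nat.card E5 = 32 := by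
    rw [Nat.card_eq_fintype_card]; rfl
  have hb := hf.bijective_of_nat_card_le (by rw [hQ, hc32])
  obtain ⟨x, hx⟩ := hb.2 ⟨q, hq⟩
  exact ⟨x, (congrArg Subtype.val hx).symm⟩

end group

end Cfsg.Agent.Lib.S3344SetupA
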