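import Cfsg.Agent.Lib.S4Plane
import Cfsg.Agent.Lib.PConstraint

/-!
# S4-free groups with Sylow 2-subgroups of class two (helper11)

The Thompson factorization without solvability.
-/

set_option autoImplicit false

namespace Cfsg.Agent.Lib.S4ClassTwo

open Subgroup Cfsg.Agent.Lib.H34Basic Cfsg.Agent.Lib.H34SolvOff Cfsg.Agent.Lib.H34S4 Cfsg.Agent.Lib.H34ClassTwo
  Cfsg.Agent.Lib.S4Min Cfsg.Agent.Lib.S4Core
open scoped commutatorElement

variable {G : Type*} [Group G]

theorem claimA [Finite G] (S : Sylow 2 G) (T V J : Subgroup G) [hTn : T.Normal] [hVn : V.Normal]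
    (hT : IsPGroup 2 T) (hTmax : ∀ N : Subgroup G, N.Normal → IsPGroup 2 N → N ≤ T) (hTS : T ≤ (S : Subgroup G))
    (hCT : Subgroup.centralizer (T : Set G) ≤ T)
    (hcl : ∀ a ∈ (S : Subgroup G), ∀ b ∈ (S : Subgroup G), ∀ c ∈ (S : Subgroup G), c * ⁅a, b⁆ = ⁅a, b⁆ * c)
    (hV : omegaCenter (S : Subgroup G) ≤ V) (hVB : V ≤ omegaCenter T)
    (hJS : J ≤ (S : Subgroup G)) (hJV : J ≤ Subgroup.centralizer (V : Set G)) : J ≤ T := by
  classical
  have h2p : Fact (Nat.Prime 2) := ⟨Nat.prime_two⟩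
  let ZT : Subgroup G := T ⊓ Subgroup.centralizer (T : Set G)
  have hZTn : ZT.Normal := inferInstance
  have hBn : (omegaCenter T).Normal := omegaCenter_normal T
  let L : Subgroup G := Subgroup.normalClosure (J : Set G)
  have hCn : (Subgroup.centralizer (V : Set G)).Normal := inferInstance
  have hL1 : L ≤ Subgroup.centralizer (V : Set G) := Subgroup.normalClosure_le_normal hJV
  have hstab1 : (stab T ZT).Normal := stab_normal T ZT
  have hstab2 : (stab (omegaCenter T) V).Normal := stab_normal (omegaCenter T) V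
  have hL2 : L ≤ stab T ZT := by
    apply Subgroup.normalClosure_le_normal
    intro s hs
    have hsS := hJS hs
    show s ∈ stab T ZT
    rw [mem_stab]
    intro t ht
    refine ⟨T.mul_mem (T.inv_mem ht) (hTn.conj_mem _ ht s), ?_⟩
    show _ ∈ Subgroup.centralizer (T : Set G)
    rw [Subgroup.mem_centralizer_iff]
    intro u hu
    have h1 : t⁻¹ * (s * t * s⁻¹) = ⁅t⁻¹, s⁆ := by rw [commutatorElement_def]; group
    rw [h1]
    exact hcl _ ((S : Subgroup G).inv_mem (hTS ht)) _ hsS _ (hTS hu)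
  have hL3 : L ≤ stab (omegaCenter T) V := by
    apply Subgroup.normalClosure_le_normal
    intro s hs
    have hsS := hJS hs
    show s ∈ stab (omegaCenter T) V
    rw [mem_stab]
    intro b hb
    have h1 : b⁻¹ * (s * b * s⁻¹) = ⁅b⁻¹, s⁆ := by rw [commutatorElement_def]; group
    have h2 : b⁻¹ * (s * b * s⁻¹) ∈ omegaCenter T :=
      (omegaCenter T).mul_mem ((omegaCenter T).inv_mem hb) (hBn.conj_mem _ hb s)
    apply hV
    refine ⟨hTS h2.1, ?_, h2.2.2⟩
    intro t ht
    rw [h1]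
    exact hcl _ ((S : Subgroup G).inv_mem (hTS hb.1)) _ hsS _ ht
  have hLp : IsPGroup 2 L := by
    rintro ⟨x, hx⟩
    have hx0 : orderOf x ≠ 0 := (orderOf_pos x).ne'
    set k := (orderOf x).factorization 2 with hk
    refine ⟨k, ?_⟩
    apply Subtype.ext
    show x ^ 2 ^ k = 1
    have hord : orderOf (x ^ 2 ^ k) = orderOf x / 2 ^ k :=
      orderOf_pow_of_dvd (pow_pos (by norm_num) _).ne' (Nat.ordProj_dvd _ _)
    have hodd : Odd (orderOf (x ^ 2 ^ k)) := by
      rw [hord]
      exact (Nat.coprime_two_left).1 (Nat.coprime_ordCompl Nat.prime_two hx0)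
    have hyL : x ^ 2 ^ k ∈ L := Subgroup.pow_mem _ hx _
    set y := x ^ 2 ^ k with hy
    refine odd_trivial T V hT hCT y (orderOf y) hodd (pow_orderOf_eq_one y) ?_ ?_ ?_ ?_ ?_
    · intro v hv
      have h1 := Subgroup.mem_centralizer_iff.1 (hL1 hyL) v hv
      rw [← h1]; group
    · intro b hb hbc hb2
      exact (mem_stab _ _ _).1 (hL3 hyL) b ⟨hb, hbc, hb2⟩
    · intro v hv
      exact (hVB hv).2.2
    · intro t ht
      exact hTn.conj_mem _ ht y
    · intro t ht s hs
      have h1 := (mem_stab _ _ _).1 (hL2 hyL) t ht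
      exact Subgroup.mem_centralizer_iff.1 h1.2 s hs
  have hLn : L.Normal := Subgroup.normalClosure_normal
  exact (Subgroup.subset_normalClosure).trans (hTmax L hLn hLp)

theorem pCore_map_equiv (p : ℕ) {P Q : Type*} [Group P] [Group Q] [Finite P] [Fact p.Prime] (e : P ≃* Q) :
    (Cfsg.pCore p P).map e.toMonoidHom ≤ Cfsg.pCore p Q := by
  have hn : (Cfsg.pCore p P).Normal := Subgroup.sSup_normal _ (fun _ h => h.1)
  refine le_sSup ⟨?_, ?_⟩
  · exact Subgroup.Normal.map hn _ e.surjective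
  · exact (isPGroup_pCore p).map _

/-- a minimal subgroup `H ≥ A` with `A ≰ O_p(H)` -/
theorem exists_minimal {M : Type*} [Group M] [Finite M] {p : ℕ} [Fact p.Prime] (K A : Subgroup M) (hAK : A ≤ K)
    (hA : ¬ A.subgroupOf K ≤ Cfsg.pCore p K) :
    ∃ H : Subgroup M, H ≤ K ∧ A ≤ H ∧ ¬ A.subgroupOf H ≤ Cfsg.pCore p H ∧
      ∀ X : Subgroup H, A.subgroupOf H ≤ X → X ≠ ⊤ → A.subgroupOf H ≤ (Cfsg.pCore p X).map X.subtype := by
  classical
  let 𝒳 : Set (Subgroup M) := {H | H ≤ K ∧ A ≤ H ∧ ¬ A.subgroupOf H ≤ Cfsg.pCore p H}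
  obtain ⟨H, ⟨hHK, hAH, hH⟩, hmin⟩ :=
    (Set.toFinite 𝒳).exists_minimalFor (fun X : Subgroup M => X) _ ⟨K, le_rfl, hAK, hA⟩
  refine ⟨H, hHK, hAH, hH, ?_⟩
  intro X hAX hXt
  let X' : Subgroup M := X.map H.subtype
  have hX'H : X' ≤ H := Subgroup.map_subtype_le X
  have hAX' : A ≤ X' := by
    intro a ha
    exact ⟨⟨a, hAH ha⟩, hAX ha, rfl⟩
  have hX'ne : ¬ H ≤ X' := by
    intro h
    apply hXt
    rw [eq_top_iff]
    rintro ⟨x, hx⟩ -
    obtain ⟨y, hy, hyx⟩ := h hx
    have : y = ⟨x, hx⟩ := Subtype.ext hyx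
    rwa [this] at hy
  have h1 : A.subgroupOf X' ≤ Cfsg.pCore p X' := by
    by_contra hcon
    have h2 := hmin (j := X') ⟨hX'H.trans hHK, hAX', hcon⟩ hX'H
    exact hX'ne h2
  let e : X ≃* X' := X.equivMapOfInjective H.subtype H.subtype_injective
  intro a ha
  have ha' : (a : M) ∈ A := ha
  have h2 : (⟨(a : M), hAX' ha'⟩ : X') ∈ Cfsg.pCore p X' := h1 ha'
  have h3 : e.symm ⟨(a : M), hAX' ha'⟩ ∈ Cfsg.pCore p X :=
    pCore_map_equiv p e.symm ⟨_, h2, rfl⟩
  refine ⟨_, h3, ?_⟩
  have h4 := e.apply_symm_apply ⟨(a : M), hAX' ha'⟩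
  apply Subtype.ext
  have h5 := congrArg (fun z : X' => (z : M)) h4
  exact h5

/-- commuting product: `|U| |C| ≤ |U ∩ C| |UC|` -/
theorem card_mul_comm_le [Finite G] (U C : Subgroup G) (hUC : ∀ u ∈ U, ∀ c ∈ C, u * c = c * u) :
    Nat.card U * Nat.card C ≤ Nat.card (U ⊓ C : Subgroup G) * Nat.card (U ⊔ C : Subgroup G) := by
  let F : (U × C) →* G :=
    { toFun := fun p => (p.1 : G) * (p.2 : G)
      map_one' := by simp
      map_mul' := by
        rintro ⟨u, c⟩ ⟨v, d⟩
        show ((u : G) * v) * ((c : G) * d) = (u * c) * (v * d)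
        have h1 := hUC v v.2 c c.2
        calc ((u : G) * v) * ((c : G) * d) = u * (v * c) * d := by group
          _ = u * (c * v) * d := by rw [h1]
          _ = _ := by group }
  have h1 := F.ker.card_mul_index
  rw [Subgroup.index_ker, Nat.card_prod] at h1
  rw [← h1]
  apply Nat.mul_le_mul
  · apply Nat.card_le_card_of_injective (fun x : F.ker => (⟨(x.1.1 : G), by
      have hx : (x.1.1 : G) * (x.1.2 : G) = 1 := x.2
      refine ⟨x.1.1.2, ?_⟩
      show (x.1.1 : G) ∈ C
      rw [mul_eq_one_iff_eq_inv.1 hx]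
      exact C.inv_mem x.1.2.2⟩ : (U ⊓ C : Subgroup G)))
    rintro ⟨⟨a, c⟩, hx⟩ ⟨⟨b, d⟩, hy⟩ hab'
    have h1 : (a : G) = b := by
      have := congrArg (fun x : (U ⊓ C : Subgroup G) => (x : G)) hab'
      exact this
    have h2 : a = b := Subtype.ext h1
    subst h2
    have hx' : (a : G) * (c : G) = 1 := hx
    have hy' : (a : G) * (d : G) = 1 := hy
    have h3 : (c : G) = d := mul_left_cancel (hx'.trans hy'.symm)
    have h4 : c = d := Subtype.ext h3
    subst h4
    rfl
  · apply Subgroup.card_le_of_le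
    rintro _ ⟨⟨u, c⟩, rfl⟩
    exact Subgroup.mul_mem_sup u.2 c.2

theorem card_map_ker [Finite G] {M : Type*} [Group M] (ρ : G →* M) (X : Subgroup G) :
    Nat.card X = Nat.card (X.map ρ) * Nat.card (ρ.ker ⊓ X : Subgroup G) := by
  let f : X →* M := ρ.comp X.subtype
  have h1 : f.range = X.map ρ := by
    show (ρ.comp X.subtype).range = X.map ρ
    rw [MonoidHom.range_comp, Subgroup.range_subtype]
  have h2 : f.ker = (ρ.ker ⊓ X).subgroupOf X := by
    ext a
    rw [MonoidHom.mem_ker, Subgroup.mem_subgroupOf]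
    constructor
    · intro h
      exact ⟨h, a.2⟩
    · intro h
      exact h.1
  have h3 := f.ker.card_mul_index
  rw [Subgroup.index_ker, h1, h2] at h3
  have h4 : Nat.card ((ρ.ker ⊓ X).subgroupOf X) = Nat.card (ρ.ker ⊓ X : Subgroup G) :=
    Nat.card_congr (Subgroup.subgroupOfEquivOfLe inf_le_right).toEquiv
  rw [h4] at h3
  rw [← h3, mul_comm]

theorem claimB [Finite G] (hS4 : ¬ Cfsg.Involves (Equiv.Perm (Fin 4)) G) (S : Sylow 2 G)
    (T V : Subgroup G) [hTn : T.Normal] [hVn : V.Normal] (hTp : IsPGroup 2 T) (hTS : T ≤ (S : Subgroup G))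
    (hcl : ∀ a ∈ (S : Subgroup G), ∀ b ∈ (S : Subgroup G), ∀ c ∈ (S : Subgroup G), c * ⁅a, b⁆ = ⁅a, b⁆ * c)
    (hV : V = Subgroup.normalClosure (omegaCenter (S : Subgroup G) : Set G)) (hVB : V ≤ omegaCenter T) :
    Cfsg.thompsonSubgroupOf 2 (S : Subgroup G) ≤ Subgroup.centralizer (V : Set G) := by
  classical
  have h2p : Fact (Nat.Prime 2) := ⟨Nat.prime_two⟩
  unfold Cfsg.thompsonSubgroupOf
  rw [Subgroup.map_le_iff_le_comap]
  apply sSup_le
  rintro A ⟨⟨hAc, hA2⟩, hAmax⟩
  rw [← Subgroup.map_le_iff_le_comap]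
  by_contra hcon
  apply hS4
  set ρ : G →* MulAut V := MulAut.conjNormal with hρ
  have hρapp : ∀ (g : G) (v : V), ((ρ g v : V) : G) = g * v * g⁻¹ := fun g v => MulAut.conjNormal_apply g v
  let AG : Subgroup G := A.map (S : Subgroup G).subtype
  have hAGS : AG ≤ (S : Subgroup G) := Subgroup.map_subtype_le _
  have hAGc : ∀ a ∈ AG, ∀ b ∈ AG, a * b = b * a := by
    rintro _ ⟨a, ha, rfl⟩ _ ⟨b, hb, rfl⟩
    have := hAc.is_comm.comm ⟨a, ha⟩ ⟨b, hb⟩
    exact congrArg (fun x : A => ((x : (S : Subgroup G)) : G)) this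
  have hAG2 : ∀ a ∈ AG, a * a = 1 := by
    rintro _ ⟨a, ha, rfl⟩
    have := hA2 a ha
    rw [pow_two] at this
    exact congrArg Subtype.val this
  have hAG4 : Nat.card AG = Nat.card A := Subgroup.card_map_of_injective (Subgroup.subtype_injective _)
  have hVc : ∀ u ∈ V, ∀ v ∈ V, u * v = v * u := fun u hu v hv => (hVB hv).2.1 u (hVB hu).1
  have hV2 : ∀ v ∈ V, v * v = 1 := fun v hv => (hVB hv).2.2
  have hVS : V ≤ (S : Subgroup G) := fun v hv => hTS (hVB hv).1
  have hVc' : ∀ u v : V, u * v = v * u := fun u v => Subtype.ext (hVc u u.2 v v.2)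
  have hV2' : ∀ v : V, v * v = 1 := fun v => Subtype.ext (hV2 v v.2)
  let _ : CommGroup V := { (inferInstance : Group V) with mul_comm := hVc' }
  -- the offender inequality in `G`
  have hoffG : ∀ U : Subgroup G, U ≤ V → ∀ C : Subgroup G, C ≤ AG → (∀ u ∈ U, ∀ c ∈ C, u * c = c * u) →
      Nat.card U * Nat.card C ≤ Nat.card (U ⊓ C : Subgroup G) * Nat.card AG := by
    intro U hU C hC hUC
    refine (card_mul_comm_le U C hUC).trans (Nat.mul_le_mul_left _ ?_)
    set E : Subgroup G := U ⊔ C with hE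
    have hES : E ≤ (S : Subgroup G) := sup_le (hU.trans hVS) (hC.trans hAGS)
    have hmem : ∀ e ∈ E, ∃ u ∈ U, ∃ c ∈ C, e = u * c := by
      let E' : Subgroup G :=
        { carrier := {e | ∃ u ∈ U, ∃ c ∈ C, e = u * c}
          mul_mem' := by
            rintro _ _ ⟨u, hu, c, hc, rfl⟩ ⟨u', hu', c', hc', rfl⟩
            refine ⟨u * u', U.mul_mem hu hu', c * c', C.mul_mem hc hc', ?_⟩
            calc u * c * (u' * c') = u * (c * u') * c' := by group
              _ = u * (u' * c) * c' := by rw [hUC u' hu' c hc]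
              _ = _ := by group
          one_mem' := ⟨1, U.one_mem, 1, C.one_mem, by simp⟩
          inv_mem' := by
            rintro _ ⟨u, hu, c, hc, rfl⟩
            refine ⟨u⁻¹, U.inv_mem hu, c⁻¹, C.inv_mem hc, ?_⟩
            rw [mul_inv_rev]
            exact (hUC _ (U.inv_mem hu) _ (C.inv_mem hc)).symm }
      have h1 : E ≤ E' := by
        apply sup_le
        · intro u hu; exact ⟨u, hu, 1, C.one_mem, by simp⟩
        · intro c hc; exact ⟨1, U.one_mem, c, hc, by simp⟩
      intro e he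
      exact h1 he
    have hE2 : ∀ e ∈ E, e * e = 1 := by
      intro e he
      obtain ⟨u, hu, c, hc, rfl⟩ := hmem e he
      calc u * c * (u * c) = u * (c * u) * c := by group
        _ = u * (u * c) * c := by rw [hUC u hu c hc]
        _ = (u * u) * (c * c) := by group
        _ = 1 := by rw [hV2 u (hU hu), hAG2 c (hC hc), one_mul]
    have hEc : ∀ e ∈ E, ∀ f ∈ E, e * f = f * e := by
      intro e he f hf
      have h1 := hE2 _ (E.mul_mem he hf)
      have h2 := hE2 e he
      have h3 := hE2 f hf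
      have h4 : (e * f)⁻¹ = e * f := inv_eq_of_mul_eq_one_left h1
      have h5 : e⁻¹ = e := inv_eq_of_mul_eq_one_left h2
      have h6 : f⁻¹ = f := inv_eq_of_mul_eq_one_left h3
      rw [mul_inv_rev, h5, h6] at h4
      exact h4.symm
    have h1 : Cfsg.IsElementaryAbelian 2 (E.subgroupOf (S : Subgroup G)) := by
      refine ⟨⟨⟨?_⟩⟩, ?_⟩
      · rintro ⟨a, ha⟩ ⟨b, hb⟩
        apply Subtype.ext
        apply Subtype.ext
        exact hEc _ ha _ hb
      · intro a ha
        apply Subtype.ext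
        show (a : G) ^ 2 = 1
        rw [pow_two]; exact hE2 _ ha
    have h2 := hAmax _ h1
    have h3 : Nat.card (E.subgroupOf (S : Subgroup G)) = Nat.card E :=
      Nat.card_congr (Subgroup.subgroupOfEquivOfLe hES).toEquiv
    rw [h3] at h2
    rw [hAG4]; exact h2
  -- the image of `A`
  let Ab : Subgroup (MulAut V) := AG.map ρ
  have hAbH : Ab ≤ ρ.range := by
    rintro _ ⟨a, _, rfl⟩
    exact ⟨a, rfl⟩
  have hAbp : IsPGroup 2 Ab := (S.2.to_le hAGS).map ρ
  have hcore := reduced S V hV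
  have hAbne : ¬ Ab.subgroupOf ρ.range ≤ Cfsg.pCore 2 ρ.range := by
    rw [hcore]
    intro h
    apply hcon
    intro a ha
    rw [Subgroup.mem_centralizer_iff]
    intro v hv
    have h1 : (⟨ρ a, ⟨a, rfl⟩⟩ : ρ.range) ∈ Ab.subgroupOf ρ.range := ⟨a, ha, rfl⟩
    have h2 := h h1
    rw [Subgroup.mem_bot] at h2
    have h3 : ρ a = 1 := congrArg Subtype.val h2
    have h4 := hρapp a ⟨v, hv⟩
    rw [h3] at h4
    have h5 : v = a * v * a⁻¹ := h4
    conv_lhs => rw [h5]
    group
  -- quadratic action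
  have hq0 : ∀ P : Subgroup (MulAut V), P ≤ ρ.range → IsPGroup 2 P → ∀ x ∈ P, ∀ y ∈ P, ∀ v : V,
      x (v * y v) = v * y v := by
    intro P hP hPp x hx y hy v
    let Sb : Sylow 2 ρ.range := S.mapSurjective ρ.rangeRestrict_surjective
    have hPp' : IsPGroup 2 (P.subgroupOf ρ.range) := hPp.comap_subtype
    obtain ⟨Q, hQ⟩ := hPp'.exists_le_sylow
    obtain ⟨g, hg⟩ := MulAction.exists_smul_eq ρ.range Sb Q
    obtain ⟨g0, hg0⟩ := ρ.rangeRestrict_surjective g
    have hmem : ∀ z ∈ P, ∃ s ∈ (S : Subgroup G), z = ρ (g0 * s * g0⁻¹) := by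
      intro z hz
      have h1 : (⟨z, hP hz⟩ : ρ.range) ∈ Q := hQ hz
      rw [← hg] at h1
      have h2 : (⟨z, hP hz⟩ : ρ.range) ∈ ((g • Sb : Sylow 2 ρ.range) : Subgroup ρ.range) := h1
      rw [Sylow.coe_subgroup_smul, Subgroup.mem_pointwise_smul_iff_inv_smul_mem] at h2
      obtain ⟨s, hs, hsz⟩ := h2
      refine ⟨s, hs, ?_⟩
      have h3 : ρ s = (g : MulAut V)⁻¹ * z * (g : MulAut V) := by
        have := congrArg (fun w : ρ.range => (w : MulAut V)) hsz
        simpa using this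
      have h4 : (g : MulAut V) = ρ g0 := by rw [← hg0]; rfl
      rw [map_mul, map_mul, h3, h4, map_inv]
      group
    obtain ⟨s, hs, rfl⟩ := hmem x hx
    obtain ⟨t, ht, rfl⟩ := hmem y hy
    apply Subtype.ext
    rw [hρapp]
    show g0 * s * g0⁻¹ * ((v : G) * (ρ (g0 * t * g0⁻¹) v : V)) * (g0 * s * g0⁻¹)⁻¹ = (v : G) * (ρ (g0 * t * g0⁻¹) v : V)
    rw [hρapp]
    have hv' : g0⁻¹ * (v : G) * g0 ∈ V := by
      have := hVn.conj_mem _ v.2 g0⁻¹
      rwa [inv_inv] at this
    have hvi : (v : G) = (v : G)⁻¹ := (inv_eq_of_mul_eq_one_left (hV2 v v.2)).symm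
    have h1 := hcl _ ((S : Subgroup G).inv_mem (hVS hv')) t ht s hs
    rw [commutatorElement_def] at h1
    have h2 : (v : G) * (g0 * t * g0⁻¹ * v * (g0 * t * g0⁻¹)⁻¹) =
        g0 * ((g0⁻¹ * (v : G) * g0)⁻¹ * t * (g0⁻¹ * (v : G) * g0)⁻¹⁻¹ * t⁻¹) * g0⁻¹ := by
      conv_lhs => rw [hvi]
      have h3 : (v : G)⁻¹⁻¹ = (v : G) := inv_inv _
      rw [← hvi]
      conv_rhs => rw [show (g0⁻¹ * (v : G) * g0)⁻¹ = g0⁻¹ * (v : G)⁻¹ * g0 by group, ← hvi]
      have h4 : (g0⁻¹ * (v : G) * g0)⁻¹ = g0⁻¹ * (v : G)⁻¹ * g0 := by group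
      rw [h4, ← hvi]
      group
    rw [h2]
    set c := (g0⁻¹ * (v : G) * g0)⁻¹ * t * (g0⁻¹ * (v : G) * g0)⁻¹⁻¹ * t⁻¹ with hc
    calc g0 * s * g0⁻¹ * (g0 * c * g0⁻¹) * (g0 * s * g0⁻¹)⁻¹ = g0 * (s * c) * s⁻¹ * g0⁻¹ := by group
      _ = g0 * (c * s) * s⁻¹ * g0⁻¹ := by rw [h1]
      _ = _ := by group
  -- the minimal subgroup
  obtain ⟨H, hHK, hAH, hH, hHmin⟩ := exists_minimal ρ.range Ab hAbH hAbne
  have hcore2 : ∃ a b : H, a * a = 1 ∧ b * b = 1 ∧ 3 ∣ orderOf (a * b) := by
    refine core hV2' H.subtype H.subtype_injective ?_ (Ab.subgroupOf H) hAbp.comap_subtype hH hHmin ?_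
    · intro P hP x hx y hy v
      exact hq0 (P.map H.subtype) ((Subgroup.map_subtype_le P).trans hHK) (hP.map _) _ ⟨x, hx, rfl⟩ _ ⟨y, hy, rfl⟩ v
    · intro U
      -- translate
      set U' : Subgroup G := U.map V.subtype with hU'
      have hU'V : U' ≤ V := Subgroup.map_subtype_le U
      have hU'c : Nat.card U' = Nat.card U := Subgroup.card_map_of_injective V.subtype_injective
      set C : Subgroup G := AG ⊓ Subgroup.centralizer (U' : Set G) with hC
      have h1 := hoffG U' hU'V C inf_le_left (fun u hu c hc => (Subgroup.mem_centralizer_iff.1 hc.2 u hu))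
      rw [hU'c] at h1
      have hker : ρ.ker ⊓ C = ρ.ker ⊓ AG := by
        apply le_antisymm
        · exact inf_le_inf_left _ inf_le_left
        · rintro x ⟨hx, hxA⟩
          refine ⟨hx, hxA, ?_⟩
          show x ∈ Subgroup.centralizer (U' : Set G)
          rw [Subgroup.mem_centralizer_iff]
          intro u hu
          have h4 := hρapp x ⟨u, hU'V hu⟩
          have h5 : ρ x = 1 := hx
          rw [h5] at h4
          have h6 : u = x * u * x⁻¹ := h4
          conv_lhs => rw [h6]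
          group
      have h2 := card_map_ker ρ C
      have h3 := card_map_ker ρ AG
      rw [hker] at h2
      have hcentc : Nat.card (centIn H.subtype (Ab.subgroupOf H) U) = Nat.card (C.map ρ) := by
        have hle : C.map ρ ≤ H := (Subgroup.map_mono inf_le_left).trans hAH
        rw [← Nat.card_congr (Subgroup.subgroupOfEquivOfLe hle).toEquiv]
        congr 2
        ext x
        rw [mem_centIn, Subgroup.mem_subgroupOf, Subgroup.mem_subgroupOf]
        constructor
        · rintro ⟨⟨a, ha, hax⟩, hx⟩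
          refine ⟨a, ⟨ha, ?_⟩, hax⟩
          show a ∈ Subgroup.centralizer (U' : Set G)
          rw [Subgroup.mem_centralizer_iff]
          rintro _ ⟨u, hu, rfl⟩
          have h4 := hx u hu
          have h5 : (x : MulAut V) u = u := h4
          rw [← hax] at h5
          have h6 := hρapp a u
          rw [h5] at h6
          show (u : G) * a = a * (u : G)
          conv_lhs => rw [h6]
          group
        · rintro ⟨a, ⟨ha, hac⟩, hax⟩
          refine ⟨⟨a, ha, hax⟩, ?_⟩
          intro u hu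
          show (x : MulAut V) u = u
          rw [← hax]
          apply Subtype.ext
          rw [hρapp]
          have h4 := Subgroup.mem_centralizer_iff.1 hac (u : G) ⟨u, hu, rfl⟩
          rw [← h4]; group
      have hAbc : Nat.card (Ab.subgroupOf H) = Nat.card Ab :=
        Nat.card_congr (Subgroup.subgroupOfEquivOfLe hAH).toEquiv
      have hfixc : Nat.card (U' ⊓ C : Subgroup G) ≤ Nat.card (fixIn H.subtype (Ab.subgroupOf H) U) := by
        apply Nat.card_le_card_of_injective (fun x : (U' ⊓ C : Subgroup G) => (⟨⟨(x : G), hU'V x.2.1⟩, by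
          obtain ⟨u, hu, hux⟩ := x.2.1
          have h4 : (⟨(x : G), hU'V x.2.1⟩ : V) = u := Subtype.ext hux.symm
          rw [mem_fixIn]
          refine ⟨by rw [h4]; exact hu, ?_⟩
          rintro a ⟨a0, ha0, ha0x⟩
          show (a : MulAut V) _ = _
          have h5 : ρ a0 = (a : MulAut V) := ha0x
          rw [← h5]
          apply Subtype.ext
          rw [hρapp]
          show a0 * (x : G) * a0⁻¹ = (x : G)
          rw [hAGc a0 ha0 _ x.2.2.1]
          group⟩ : fixIn H.subtype (Ab.subgroupOf H) U))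
        intro x y hxy
        have := congrArg (fun z : fixIn H.subtype (Ab.subgroupOf H) U => ((z : V) : G)) hxy
        exact Subtype.ext this
      rw [hcentc, hAbc]
      have hpos : 0 < Nat.card (ρ.ker ⊓ AG : Subgroup G) := Nat.card_pos
      have h6 : (Nat.card U * Nat.card (C.map ρ)) * Nat.card (ρ.ker ⊓ AG : Subgroup G) ≤
          (Nat.card Ab * Nat.card (fixIn H.subtype (Ab.subgroupOf H) U)) * Nat.card (ρ.ker ⊓ AG : Subgroup G) := by
        calc (Nat.card U * Nat.card (C.map ρ)) * Nat.card (ρ.ker ⊓ AG : Subgroup G) = Nat.card U * Nat.card C := by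
              rw [h2]; ring
          _ ≤ Nat.card (U' ⊓ C : Subgroup G) * Nat.card AG := h1
          _ ≤ Nat.card (fixIn H.subtype (Ab.subgroupOf H) U) * Nat.card AG := Nat.mul_le_mul_right _ hfixc
          _ = _ := by rw [h3]; ring
      exact Nat.le_of_mul_le_mul_right h6 hpos
  obtain ⟨a, b, ha2, hb2, h3⟩ := hcore2
  refine Cfsg.Agent.Lib.S4Plane.s4_of_dihedral V (hTp.to_le (fun v hv => (hVB hv).1)) hVc' hV2' (a : MulAut V) (b : MulAut V)
    (hHK a.2) (hHK b.2) (congrArg Subtype.val ha2) (congrArg Subtype.val hb2) ?_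
  have h4 : orderOf ((a : MulAut V) * (b : MulAut V)) = orderOf (a * b) := by
    rw [← Subgroup.orderOf_coe]; rfl
  rw [h4]; exact h3

theorem thompson_normal [Finite G] (hCT0 : Subgroup.centralizer ((Cfsg.pCore 2 G : Subgroup G) : Set G) ≤ Cfsg.pCore 2 G)
    (hS4 : ¬ Cfsg.Involves (Equiv.Perm (Fin 4)) G) (S : Sylow 2 G)
    (hcl : (S : Subgroup G).lowerCentralSeries 2 = ⊥) :
    (Cfsg.thompsonSubgroupOf 2 (S : Subgroup G)).Normal := by
  classical
  have h2p : Fact (Nat.Prime 2) := ⟨Nat.prime_two⟩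
  set T := Cfsg.pCore 2 G with hTdef
  have hTn : T.Normal := Subgroup.sSup_normal _ (fun _ h => h.1)
  have hTp : IsPGroup 2 T := isPGroup_pCore 2
  have hTS : T ≤ (S : Subgroup G) := hTp.le_sylow_of_normal S
  have hCT : Subgroup.centralizer (T : Set G) ≤ T := hCT0
  have hTmax : ∀ N : Subgroup G, N.Normal → IsPGroup 2 N → N ≤ T := fun N h1 h2 => le_sSup ⟨h1, h2⟩
  have hcl' : ∀ a ∈ (S : Subgroup G), ∀ b ∈ (S : Subgroup G), ∀ c ∈ (S : Subgroup G), c * ⁅a, b⁆ = ⁅a, b⁆ * c := by
    intro a ha b hb c hc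
    have h1 : ⁅⁅a, b⁆, c⁆ ∈ (S : Subgroup G).lowerCentralSeries 2 := by
      rw [Subgroup.lowerCentralSeries_succ, Subgroup.lowerCentralSeries_succ, Subgroup.lowerCentralSeries_zero]
      exact Subgroup.commutator_mem_commutator (Subgroup.commutator_mem_commutator ha hb) hc
    rw [hcl, Subgroup.mem_bot, commutatorElement_eq_one_iff_mul_comm] at h1
    exact h1.symm
  let V : Subgroup G := Subgroup.normalClosure (omegaCenter (S : Subgroup G) : Set G)
  have hVn : V.Normal := Subgroup.normalClosure_normal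
  have hVB : V ≤ omegaCenter T := by
    have := omegaCenter_normal T
    apply Subgroup.normalClosure_le_normal
    rintro z ⟨hz, hzc, hz2⟩
    refine ⟨hCT ?_, fun t ht => hzc t (hTS ht), hz2⟩
    rw [Subgroup.mem_centralizer_iff]
    intro t ht
    exact hzc t (hTS ht)
  have hJS : Cfsg.thompsonSubgroupOf 2 (S : Subgroup G) ≤ (S : Subgroup G) := Subgroup.map_subtype_le _
  have hJV := claimB hS4 S T V hTp hTS hcl' rfl hVB
  have hJT := claimA S T V _ hTp hTmax hTS hCT hcl' Subgroup.subset_normalClosure hVB hJS hJV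
  -- normality
  refine ⟨fun x hx g => ?_⟩
  have key : (Cfsg.thompsonSubgroupOf 2 (S : Subgroup G)).map (MulAut.conj g).toMonoidHom ≤
      Cfsg.thompsonSubgroupOf 2 (S : Subgroup G) := by
    rw [Subgroup.map_le_iff_le_comap]
    conv_lhs => unfold Cfsg.thompsonSubgroupOf
    rw [Subgroup.map_le_iff_le_comap]
    apply sSup_le
    rintro A hA
    have hAJ : A.map (S : Subgroup G).subtype ≤ Cfsg.thompsonSubgroupOf 2 (S : Subgroup G) :=
      Subgroup.map_mono (le_sSup hA)
    obtain ⟨⟨hAc, hA2⟩, hAmax⟩ := hA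
    intro a ha
    rw [Subgroup.mem_comap, Subgroup.mem_comap]
    -- the conjugate of `A`
    let A' : Subgroup G := (A.map (S : Subgroup G).subtype).map (MulAut.conj g).toMonoidHom
    have hA'S : A' ≤ (S : Subgroup G) := by
      rintro _ ⟨y, hy, rfl⟩
      exact hTS (hTn.conj_mem _ (hJT (hAJ hy)) g)
    have hA'c : ∀ x ∈ A', ∀ y ∈ A', x * y = y * x := by
      rintro _ ⟨_, ⟨u, hu', rfl⟩, rfl⟩ _ ⟨_, ⟨v, hv', rfl⟩, rfl⟩
      show (MulAut.conj g) (u : G) * (MulAut.conj g) (v : G) = (MulAut.conj g) (v : G) * (MulAut.conj g) (u : G)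
      have h1 := hAc.is_comm.comm ⟨u, hu'⟩ ⟨v, hv'⟩
      have h2 : (u : G) * v = v * u := congrArg (fun x : A => ((x : (S : Subgroup G)) : G)) h1
      rw [← map_mul, h2, map_mul]
    have hA'2 : ∀ x ∈ A', x ^ 2 = 1 := by
      rintro _ ⟨_, ⟨u, hu', rfl⟩, rfl⟩
      show ((MulAut.conj g) (u : G)) ^ 2 = 1
      have h1 : (u : G) ^ 2 = 1 := congrArg Subtype.val (hA2 u hu')
      rw [← map_pow, h1, map_one]
    have hA'e : Cfsg.IsElementaryAbelian 2 (A'.subgroupOf (S : Subgroup G)) := by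
      refine ⟨⟨⟨?_⟩⟩, ?_⟩
      · rintro ⟨a, ha⟩ ⟨b, hb⟩
        apply Subtype.ext
        apply Subtype.ext
        exact hA'c _ ha _ hb
      · intro a ha
        apply Subtype.ext
        exact hA'2 _ ha
    have hA'card : Nat.card (A'.subgroupOf (S : Subgroup G)) = Nat.card A := by
      rw [Nat.card_congr (Subgroup.subgroupOfEquivOfLe hA'S).toEquiv]
      show Nat.card ((A.map (S : Subgroup G).subtype).map (MulAut.conj g).toMonoidHom : Subgroup G) = _
      rw [Subgroup.card_map_of_injective (MulAut.conj g).injective,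
        Subgroup.card_map_of_injective (Subgroup.subtype_injective _)]
    have hA'm : A'.subgroupOf (S : Subgroup G) ∈ Cfsg.maxElementaryAbelianSubgroups 2 (S : Subgroup G) := by
      refine ⟨hA'e, fun B hB => ?_⟩
      rw [hA'card]; exact hAmax B hB
    have h3 : (A'.subgroupOf (S : Subgroup G)).map (S : Subgroup G).subtype ≤ Cfsg.thompsonSubgroupOf 2 (S : Subgroup G) :=
      Subgroup.map_mono (le_sSup hA'm)
    rw [Subgroup.subgroupOf_map_subtype, inf_eq_left.2 hA'S] at h3
    exact h3 ⟨_, ⟨a, ha, rfl⟩, rfl⟩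
  exact key ⟨x, hx, rfl⟩

theorem main [Finite G] (hcon : Cfsg.IsPConstrained 2 G) (hS4 : ¬ Cfsg.Involves (Equiv.Perm (Fin 4)) G) (S : Sylow 2 G)
    (hcl : (S : Subgroup G).lowerCentralSeries 2 = ⊥) :
    Subgroup.normalizer ((Cfsg.thompsonSubgroupOf 2 (S : Subgroup G)) : Set G) ⊔ Cfsg.pPrimeCore 2 G = ⊤ := by
  classical
  have h2p : Fact (Nat.Prime 2) := ⟨Nat.prime_two⟩
  set N := Cfsg.pPrimeCore 2 G with hN
  have hNn : N.Normal := Subgroup.sSup_normal _ (fun _ h => h.1)
  have hNc : (Nat.card N).Coprime 2 := pPrimeCore_card_coprime 2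
  let π : G →* G ⧸ N := QuotientGroup.mk' N
  have hπ : Function.Surjective π := QuotientGroup.mk'_surjective N
  let Sb : Sylow 2 (G ⧸ N) := S.mapSurjective hπ
  have hSb : (Sb : Subgroup (G ⧸ N)) = (S : Subgroup G).map π := rfl
  have hO : Cfsg.pPrimeCore 2 (G ⧸ N) = ⊥ := by
    set M := Cfsg.pPrimeCore 2 (G ⧸ N) with hM
    have hMn : M.Normal := Subgroup.sSup_normal _ (fun _ h => h.1)
    have hMc : (Nat.card M).Coprime 2 := pPrimeCore_card_coprime 2
    have h1 : M.comap π ≤ N := by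
      refine le_sSup ⟨inferInstance, ?_⟩
      have h2 : Nat.card (M.comap π) = Nat.card N * Nat.card M := by
        have h3 : Nat.card N * N.relIndex (M.comap π) = Nat.card (M.comap π) := by
          have hle : N ≤ M.comap π := by
            intro x hx
            show π x ∈ M
            have : π x = 1 := (QuotientGroup.eq_one_iff x).2 hx
            rw [this]; exact M.one_mem
          have := Subgroup.card_mul_index (N.subgroupOf (M.comap π))
          rw [← this]
          congr 1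
          exact (Nat.card_congr (Subgroup.subgroupOfEquivOfLe hle).toEquiv).symm
        rw [← h3]
        congr 1
        have h4 : N = (⊥ : Subgroup (G ⧸ N)).comap π := by
          rw [MonoidHom.comap_bot, QuotientGroup.ker_mk']
        have h5 : ((⊥ : Subgroup (G ⧸ N)).comap π).relIndex (M.comap π) = (⊥ : Subgroup (G ⧸ N)).relIndex M := by
          rw [Subgroup.relIndex_comap, Subgroup.map_comap_eq_self_of_surjective hπ]
        rw [← h4] at h5
        rw [h5, Subgroup.relIndex_bot_left]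
      rw [h2]
      exact Nat.Coprime.mul_left hNc hMc
    rw [eq_bot_iff]
    intro x hx
    obtain ⟨g, rfl⟩ := hπ x
    have h2 : g ∈ N := h1 hx
    rw [Subgroup.mem_bot]
    exact (QuotientGroup.eq_one_iff g).2 h2
  have hS4b : ¬ Cfsg.Involves (Equiv.Perm (Fin 4)) (G ⧸ N) := fun h => hS4 (involves_of_involves_quotient N h)
  have hclb : (Sb : Subgroup (G ⧸ N)).lowerCentralSeries 2 = ⊥ := by
    rw [hSb, ← Subgroup.map_lowerCentralSeries, hcl, Subgroup.map_bot]
  have hcb : Subgroup.centralizer ((Cfsg.pCore 2 (G ⧸ N) : Subgroup (G ⧸ N)) : Set (G ⧸ N)) ≤ Cfsg.pCore 2 (G ⧸ N) :=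
    (Cfsg.Agent.Lib.PConstraint.isPConstrained_iff 2 G).1 hcon
  have hnorm := thompson_normal hcb hS4b Sb hclb
  -- `J(S)` maps onto `J(S̄)`
  have hdis : (S : Subgroup G) ⊓ N = ⊥ := by
    have h1 : Nat.Coprime (Nat.card (S : Subgroup G)) (Nat.card N) := by
      obtain ⟨k, hk⟩ := IsPGroup.iff_card.1 S.2
      have hk' : Nat.card (S : Subgroup G) = 2 ^ k := hk
      rw [hk']
      exact Nat.Coprime.pow_left _ hNc.symm
    exact Subgroup.inf_eq_bot_of_coprime h1
  let e0 : (S : Subgroup G) →* (Sb : Subgroup (G ⧸ N)) := π.subgroupMap (S : Subgroup G)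
  have he0 : Function.Bijective e0 := by
    constructor
    · rw [injective_iff_map_eq_one]
      intro a ha
      have h1 : π (a : G) = 1 := congrArg Subtype.val ha
      have h2 : (a : G) ∈ N := (QuotientGroup.eq_one_iff _).1 h1
      have h3 : (a : G) ∈ (S : Subgroup G) ⊓ N := ⟨a.2, h2⟩
      rw [hdis, Subgroup.mem_bot] at h3
      exact Subtype.ext h3
    · exact π.subgroupMap_surjective _
  let e : (S : Subgroup G) ≃* (Sb : Subgroup (G ⧸ N)) := MulEquiv.ofBijective e0 he0
  set J := Cfsg.thompsonSubgroupOf 2 (S : Subgroup G) with hJ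
  have hJmap : J.map π = Cfsg.thompsonSubgroupOf 2 (Sb : Subgroup (G ⧸ N)) := by
    rw [hJ]
    unfold Cfsg.thompsonSubgroupOf
    rw [← thompson_map_equiv 2 e, Subgroup.map_map, Subgroup.map_map]
    rfl
  have hJS : J ≤ (S : Subgroup G) := Subgroup.map_subtype_le _
  let M : Subgroup G := J ⊔ N
  have hMeq : M = (J.map π).comap π := by
    rw [Subgroup.comap_map_eq, QuotientGroup.ker_mk']
  have hMn : M.Normal := by
    rw [hMeq, hJmap]
    infer_instance
  -- `J` is a Sylow subgroup of `M`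
  have hJM : J ≤ M := le_sup_left
  have hJp : IsPGroup 2 (J.subgroupOf M) := (S.2.to_le hJS).comap_subtype
  have hJidx : ¬ 2 ∣ (J.subgroupOf M).index := by
    have h1 : (J.subgroupOf M).index ∣ Nat.card N := by
      have h2 := card_sup_mul_card_inf N J
      have h3 : N ⊓ J = ⊥ := by
        rw [eq_bot_iff, ← hdis, inf_comm]
        exact inf_le_inf_right _ hJS
      rw [h3] at h2
      have h4 : Nat.card (⊥ : Subgroup G) = 1 := by simp
      rw [h4, mul_one, sup_comm] at h2
      have h5 := (J.subgroupOf M).card_mul_index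
      rw [Nat.card_congr (Subgroup.subgroupOfEquivOfLe hJM).toEquiv] at h5
      have h6 : Nat.card J * (J.subgroupOf M).index = Nat.card J * Nat.card N := by
        rw [h5]
        show Nat.card (J ⊔ N : Subgroup G) = _
        rw [h2, mul_comm]
      exact (Nat.eq_of_mul_eq_mul_left Nat.card_pos h6).dvd
    intro h
    have h2 := h.trans h1
    have h3 : 2 ∣ 1 := by
      have := Nat.dvd_gcd h2 (dvd_refl 2)
      rwa [hNc.gcd_eq_one] at this
    omega
  let P : Sylow 2 M := hJp.toSylow hJidx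
  have hfr := Sylow.normalizer_sup_eq_top P
  have hP : (P : Subgroup M).map M.subtype = J := by
    show (J.subgroupOf M).map M.subtype = J
    rw [Subgroup.subgroupOf_map_subtype, inf_eq_left.2 hJM]
  rw [eq_top_iff, ← hfr]
  apply sup_le
  · refine le_trans (le_of_eq ?_) le_sup_left
    rw [← hP]
  · exact sup_le (Subgroup.le_normalizer.trans le_sup_left) le_sup_right

end Cfsg.Agent.Lib.S4ClassTwo
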