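import Mathlib
import Cfsg.Prelude.Def_CaseTheorems
import Cfsg.Agent.Lib.FourClass
import Cfsg.Agent.Lib.Burnside
import Cfsg.Agent.Lib.Cores
import Cfsg.Agent.S0205

/-!
# Nonsolvable subgroups of `A₈` with a nontrivial normal subgroup of odd order (helper61, S3104)
-/

set_option autoImplicit false
set_option linter.all false

namespace Cfsg.Agent.Lib.S4R6

open Subgroup Cfsg Equiv Equiv.Perm

universe u

theorem sol_not4 {H : Type u} [Group H] [Finite H] (h : ¬ 4 ∣ Nat.card H) : Group.IsSolvable H := by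
  apply FourClass.solvable_of_not_four_dvd (fun G _ _ hG => Cfsg.Agent.S0205.result hG) H
  intro x hx
  exact h (hx.trans (Subgroup.index_dvd_card _))

theorem sol_pq {H : Type u} [Group H] [Finite H] {p q a b : ℕ} (hp : p.Prime) (hq : q.Prime)
    (h : Nat.card H = p ^ a * q ^ b) : Group.IsSolvable H :=
  Lib.Burnside.isSolvable_of_card_eq _ p q a b hp hq h rfl

theorem sol_120 {H : Type u} [Group H] [Finite H] (h : Nat.card H ∣ 120) (h' : ¬ 60 ∣ Nat.card H) :
    Group.IsSolvable H := by
  have h1 : Nat.card H ∈ Nat.divisors 120 := Nat.mem_divisors.mpr ⟨h, by norm_num⟩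
  have h2 : Nat.divisors 120 = {1,2,3,4,5,6,8,10,12,15,20,24,30,40,60,120} := by decide +kernel
  rw [h2] at h1
  simp only [Finset.mem_insert, Finset.mem_singleton] at h1
  have h3 : ∀ {p q a b : ℕ}, p.Prime → q.Prime → Nat.card H = p ^ a * q ^ b → Group.IsSolvable H :=
    fun hp hq h => sol_pq hp hq h
  rcases h1 with h1|h1|h1|h1|h1|h1|h1|h1|h1|h1|h1|h1|h1|h1|h1|h1
  · exact @h3 2 3 0 0 (by norm_num) (by norm_num) (by rw [h1]; norm_num)
  · exact @h3 2 3 1 0 (by norm_num) (by norm_num) (by rw [h1]; norm_num)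
  · exact @h3 2 3 0 1 (by norm_num) (by norm_num) (by rw [h1]; norm_num)
  · exact @h3 2 3 2 0 (by norm_num) (by norm_num) (by rw [h1]; norm_num)
  · exact @h3 2 5 0 1 (by norm_num) (by norm_num) (by rw [h1]; norm_num)
  · exact @h3 2 3 1 1 (by norm_num) (by norm_num) (by rw [h1]; norm_num)
  · exact @h3 2 3 3 0 (by norm_num) (by norm_num) (by rw [h1]; norm_num)
  · exact @h3 2 5 1 1 (by norm_num) (by norm_num) (by rw [h1]; norm_num)
  · exact @h3 2 3 2 1 (by norm_num) (by norm_num) (by rw [h1]; norm_num)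
  · exact @h3 3 5 1 1 (by norm_num) (by norm_num) (by rw [h1]; norm_num)
  · exact @h3 2 5 2 1 (by norm_num) (by norm_num) (by rw [h1]; norm_num)
  · exact @h3 2 3 3 1 (by norm_num) (by norm_num) (by rw [h1]; norm_num)
  · exact sol_not4 (by rw [h1]; norm_num)
  · exact @h3 2 5 3 1 (by norm_num) (by norm_num) (by rw [h1]; norm_num)
  · exact absurd (by rw [h1]) h'
  · exact absurd (by rw [h1]; norm_num) h'

theorem cent5 {g : Perm (Fin 8)} (h : orderOf g = 5) : Nat.card (Subgroup.centralizer {g}) = 30 := by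
  obtain ⟨n, hn⟩ := cycleType_prime_order (σ := g) (by rw [h]; norm_num)
  rw [h] at hn
  have h1 := sum_cycleType g
  have h2 : g.support.card ≤ 8 := by
    have := Finset.card_le_univ g.support
    simpa using this
  rw [hn, Multiset.sum_replicate, smul_eq_mul] at h1
  have h3 : n = 0 := by omega
  subst h3
  rw [nat_card_centralizer, hn]
  decide +kernel

theorem cent7 {g : Perm (Fin 8)} (h : orderOf g = 7) : Nat.card (Subgroup.centralizer {g}) = 7 := by
  obtain ⟨n, hn⟩ := cycleType_prime_order (σ := g) (by rw [h]; norm_num)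
  rw [h] at hn
  have h1 := sum_cycleType g
  have h2 : g.support.card ≤ 8 := by
    have := Finset.card_le_univ g.support
    simpa using this
  rw [hn, Multiset.sum_replicate, smul_eq_mul] at h1
  have h3 : n = 0 := by omega
  subst h3
  rw [nat_card_centralizer, hn]
  decide +kernel

theorem cent3 {g : Perm (Fin 8)} (h : orderOf g = 3) :
    g.cycleType = {3} ∨ Nat.card (Subgroup.centralizer {g}) = 36 := by
  obtain ⟨n, hn⟩ := cycleType_prime_order (σ := g) (by rw [h]; norm_num)
  rw [h] at hn
  have h1 := sum_cycleType g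
  have h2 : g.support.card ≤ 8 := by
    have := Finset.card_le_univ g.support
    simpa using this
  rw [hn, Multiset.sum_replicate, smul_eq_mul] at h1
  have h3 : n = 0 ∨ n = 1 := by omega
  rcases h3 with h3 | h3
  · subst h3
    left
    rw [hn]; rfl
  · subst h3
    right
    rw [nat_card_centralizer, hn]
    decide +kernel

variable {H : Type u} [Group H] [Finite H]

theorem card_cent_dvd (F : H →* Perm (Fin 8)) (hF : Function.Injective F) (x : H) :
    Nat.card (centralizer ({x} : Set H)) ∣ Nat.card (centralizer ({F x} : Set (Perm (Fin 8)))) := by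
  have h1 : Nat.card ((centralizer ({x} : Set H)).map F) = Nat.card (centralizer ({x} : Set H)) :=
    (Nat.card_congr ((centralizer ({x} : Set H)).equivMapOfInjective F hF).toEquiv).symm
  rw [← h1]
  apply Subgroup.card_dvd_of_le
  rintro _ ⟨y, hy, rfl⟩
  rw [mem_centralizer_iff]
  rintro _ rfl
  have h2 := mem_centralizer_iff.mp hy x rfl
  rw [← map_mul, ← map_mul, h2]

theorem card_dvd_8 (F : H →* Perm (Fin 8)) (hF : Function.Injective F) : Nat.card H ∣ 40320 := by
  have h1 := Subgroup.card_dvd_of_injective F hF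
  have h2 : Nat.card (Perm (Fin 8)) = 40320 := by
    rw [Nat.card_eq_fintype_card, Fintype.card_perm, Fintype.card_fin]; decide
  rwa [h2] at h1

/-- the centralizer of a normal subgroup of prime order is solvable only if the group is. -/
theorem sol_of_cent {P : Subgroup H} [P.Normal] [IsCyclic P] [hs : Group.IsSolvable (centralizer (P : Set H))] :
    Group.IsSolvable H := by
  haveI : Group.IsSolvable (MulAut P) := by
    apply Group.isSolvable_of_comm
    intro a b
    apply (IsCyclic.mulAutMulEquiv P).injective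
    rw [map_mul, map_mul, mul_comm]
  apply Group.isSolvable_of_ker_le_range (centralizer (P : Set H)).subtype (MulAut.conjNormal (H := P))
  intro x hx
  rw [range_subtype, mem_centralizer_iff]
  intro y hy
  rw [MonoidHom.mem_ker] at hx
  have h1 := congrArg Subtype.val (DFunLike.congr_fun hx ⟨y, hy⟩)
  rw [MulAut.conjNormal_apply] at h1
  change x * y * x⁻¹ = y at h1
  calc y * x = (x * y * x⁻¹) * x := by rw [h1]
    _ = x * y := by group

theorem sol_57 (F : H →* Perm (Fin 8)) (hF : Function.Injective F) {r : ℕ} (hr : r = 5 ∨ r = 7)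
    (hP : pCore r H ≠ ⊥) : Group.IsSolvable H := by
  have hrp : r.Prime := by rcases hr with rfl | rfl <;> norm_num
  haveI : Fact r.Prime := ⟨hrp⟩
  have hc : Nat.card (pCore r H) ∣ 40320 := (Subgroup.card_subgroup_dvd_card _).trans (card_dvd_8 F hF)
  obtain ⟨n, hn⟩ := IsPGroup.iff_card.mp (Cores.isPGroup_pCore r (G := H))
  have h1 : n ≤ 1 := by
    by_contra h
    have h2 : r ^ 2 ∣ 40320 := (pow_dvd_pow r (by omega : 2 ≤ n)).trans (hn ▸ hc)
    rcases hr with rfl | rfl <;> norm_num at h2
  have h3 : n = 1 := by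
    rcases Nat.eq_zero_or_pos n with h | h
    · subst h
      exact absurd (Subgroup.card_eq_one.mp (by rw [hn, pow_zero])) hP
    · omega
  subst h3
  rw [pow_one] at hn
  haveI : IsCyclic (pCore r H) := isCyclic_of_prime_card hn
  obtain ⟨z, hz⟩ := exists_prime_orderOf_dvd_card' (G := pCore r H) r (by rw [hn])
  have hz1 : orderOf (F (z : H)) = r := by
    rw [orderOf_injective F hF, Subgroup.orderOf_coe, hz]
  haveI : Group.IsSolvable (centralizer ((pCore r H : Subgroup H) : Set H)) := by
    apply sol_not4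
    intro h4
    have h5 : Nat.card (centralizer ((pCore r H : Subgroup H) : Set H)) ∣ Nat.card (centralizer ({(z : H)} : Set H)) :=
      Subgroup.card_dvd_of_le (centralizer_le (by simp))
    have h6 := (h4.trans h5).trans (card_cent_dvd F hF z)
    rcases hr with rfl | rfl
    · rw [cent5 hz1] at h6; norm_num at h6
    · rw [cent7 hz1] at h6; norm_num at h6
  exact sol_of_cent (P := pCore r H)

theorem exists_57 (F : H →* Perm (Fin 8)) (hF : Function.Injective F) (hns : ¬ Group.IsSolvable H) :
    5 ∣ Nat.card H ∨ 7 ∣ Nat.card H := by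
  by_contra hcon
  push Not at hcon
  apply hns
  have h1 := card_dvd_8 F hF
  have h5 : (Nat.card H).Coprime 5 := ((Nat.Prime.coprime_iff_not_dvd (by norm_num)).mpr hcon.1).symm
  have h7 : (Nat.card H).Coprime 7 := ((Nat.Prime.coprime_iff_not_dvd (by norm_num)).mpr hcon.2).symm
  have h2 : Nat.card H ∣ 8064 * 5 := by norm_num; exact h1
  have h3 : Nat.card H ∣ 1152 * 7 := h5.dvd_of_dvd_mul_right h2
  have h4 : Nat.card H ∣ 2 ^ 7 * 3 ^ 2 := by
    have := h7.dvd_of_dvd_mul_right h3
    norm_num; exact this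
  obtain ⟨k1, k2, hk1, hk2, hk⟩ := (Nat.dvd_mul).mp h4
  obtain ⟨a, _, ha⟩ := (Nat.dvd_prime_pow Nat.prime_two).mp hk1
  obtain ⟨b, _, hb⟩ := (Nat.dvd_prime_pow Nat.prime_three).mp hk2
  exact sol_pq Nat.prime_two Nat.prime_three (a := a) (b := b) (by rw [← hk, ha, hb])

/-- number of fixed points of an element of prime order on a normal subgroup. -/
theorem fixed_modEq {P : Subgroup H} [P.Normal] {x : H} {r : ℕ} [Fact r.Prime] (hx : orderOf x = r) :
    Nat.card P ≡ Nat.card (P ⊓ centralizer ({x} : Set H) : Subgroup H) [MOD r] := by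
  letI : MulAction (zpowers x) P := MulAction.compHom P
    ((MulAut.conjNormal (H := P)).comp (zpowers x).subtype)
  have hp : IsPGroup r (zpowers x) := IsPGroup.of_card (n := 1) (by rw [Nat.card_zpowers, hx, pow_one])
  have h1 := hp.card_modEq_card_fixedPoints P
  refine h1.trans ?_
  have h2 : Nat.card (MulAction.fixedPoints (zpowers x) P) = Nat.card (P ⊓ centralizer ({x} : Set H) : Subgroup H) := by
    refine Nat.card_congr ⟨fun a => ⟨a.1.1, a.1.2, ?_⟩, fun b => ⟨⟨b.1, b.2.1⟩, ?_⟩, ?_, ?_⟩
    · change (a.1.1 : H) ∈ centralizer ({x} : Set H)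
      rw [mem_centralizer_iff]
      intro y hy
      rw [Set.mem_singleton_iff] at hy
      rw [hy]
      have h3 := congrArg Subtype.val (a.2 ⟨x, mem_zpowers x⟩)
      change x * (a.1.1 : H) * x⁻¹ = a.1.1 at h3
      calc x * (a.1.1 : H) = (x * (a.1.1 : H) * x⁻¹) * x := by group
        _ = a.1.1 * x := by rw [h3]
    · rintro ⟨y, hy⟩
      apply Subtype.ext
      change y * (b.1 : H) * y⁻¹ = b.1
      have h3 := mem_centralizer_iff.mp b.2.2 x rfl
      have h4 : y ∈ centralizer ({(b.1 : H)} : Set H) := by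
        have h5 : zpowers x ≤ centralizer ({(b.1 : H)} : Set H) := by
          rw [zpowers_le, mem_centralizer_iff]
          rintro _ rfl
          exact h3.symm
        exact h5 hy
      rw [← mem_centralizer_iff.mp h4 b.1 rfl, mul_inv_cancel_right]
    · intro a; rfl
    · intro b; rfl
  rw [h2]

/-- `O₃` of a nonsolvable group of permutations of 8 points. -/
theorem three_core (F : H →* Perm (Fin 8)) (hF : Function.Injective F) (hns : ¬ Group.IsSolvable H)
    (hP : pCore 3 H ≠ ⊥) : Nat.card (pCore 3 H) = 3 ∧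
      ∃ z : H, zpowers z = pCore 3 H ∧ (F z).cycleType = {3} := by
  have hc : Nat.card (pCore 3 H) ∣ 40320 := (Subgroup.card_subgroup_dvd_card _).trans (card_dvd_8 F hF)
  haveI : Fact (Nat.Prime 3) := ⟨by norm_num⟩
  obtain ⟨n, hn⟩ := IsPGroup.iff_card.mp (Cores.isPGroup_pCore 3 (G := H))
  have h1 : n ≤ 2 := by
    by_contra h
    have h2 : 3 ^ 3 ∣ 40320 := (pow_dvd_pow 3 (by omega : 3 ≤ n)).trans (hn ▸ hc)
    norm_num at h2
  have h3 : n = 1 ∨ n = 2 := by
    rcases Nat.eq_zero_or_pos n with h | h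
    · subst h
      exact absurd (Subgroup.card_eq_one.mp (by rw [hn, pow_zero])) hP
    · omega
  obtain ⟨r, hr, hrH⟩ : ∃ r : ℕ, (r = 5 ∨ r = 7) ∧ r ∣ Nat.card H := by
    rcases exists_57 F hF hns with h | h
    · exact ⟨5, Or.inl rfl, h⟩
    · exact ⟨7, Or.inr rfl, h⟩
  have hrp : r.Prime := by rcases hr with rfl | rfl <;> norm_num
  haveI : Fact r.Prime := ⟨hrp⟩
  obtain ⟨x, hx⟩ := exists_prime_orderOf_dvd_card' (G := H) r hrH
  have hxF : orderOf (F x) = r := by rw [orderOf_injective F hF, hx]
  have h4 := fixed_modEq (P := pCore 3 H) hx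
  have h5 : Nat.card (pCore 3 H ⊓ centralizer ({x} : Set H) : Subgroup H) ∣ Nat.card (pCore 3 H) :=
    Subgroup.card_dvd_of_le inf_le_left
  have h6 : Nat.card (pCore 3 H ⊓ centralizer ({x} : Set H) : Subgroup H) = Nat.card (pCore 3 H) := by
    rw [hn] at h5 h4 ⊢
    obtain ⟨m, hm, hm'⟩ := (Nat.dvd_prime_pow Nat.prime_three).mp h5
    rw [hm'] at h4 ⊢
    rcases h3 with rfl | rfl <;> interval_cases m <;> rcases hr with rfl | rfl <;>
      first | rfl | (exfalso; revert h4; decide)
  have h7 : pCore 3 H ≤ centralizer ({x} : Set H) := by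
    have h8 : (pCore 3 H ⊓ centralizer ({x} : Set H) : Subgroup H) = pCore 3 H :=
      Subgroup.eq_of_le_of_card_ge inf_le_left h6.ge
    rw [← h8]; exact inf_le_right
  have h8 : Nat.card (pCore 3 H) ∣ Nat.card (centralizer ({F x} : Set (Perm (Fin 8)))) :=
    (Subgroup.card_dvd_of_le h7).trans (card_cent_dvd F hF x)
  have h9 : r = 5 ∧ n = 1 := by
    rcases hr with rfl | rfl
    · rw [cent5 hxF, hn] at h8
      rcases h3 with rfl | rfl
      · exact ⟨rfl, rfl⟩
      · norm_num at h8
    · rw [cent7 hxF, hn] at h8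
      rcases h3 with rfl | rfl <;> norm_num at h8
  obtain ⟨rfl, rfl⟩ := h9
  rw [pow_one] at hn
  refine ⟨hn, ?_⟩
  obtain ⟨z, hz⟩ := exists_prime_orderOf_dvd_card' (G := pCore 3 H) 3 (by rw [hn])
  have hz1 : orderOf (z : H) = 3 := by rw [Subgroup.orderOf_coe, hz]
  refine ⟨z, ?_, ?_⟩
  · apply Subgroup.eq_of_le_of_card_ge
    · rw [zpowers_le]; exact z.2
    · rw [Nat.card_zpowers, hz1, hn]
  · have h10 : x ∈ centralizer ({(z : H)} : Set H) := by
      rw [mem_centralizer_iff]
      rintro _ rfl
      exact (mem_centralizer_iff.mp (h7 z.2) x rfl).symm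
    have h11 : 5 ∣ Nat.card (centralizer ({F z} : Set (Perm (Fin 8)))) := by
      have h12 : orderOf (⟨x, h10⟩ : centralizer ({(z : H)} : Set H)) = 5 := by
        rw [← Subgroup.orderOf_coe, hx]
      have h13 : 5 ∣ Nat.card (centralizer ({(z : H)} : Set H)) := h12 ▸ orderOf_dvd_natCard _
      exact h13.trans (card_cent_dvd F hF z)
    rcases cent3 (g := F z) (by rw [orderOf_injective F hF, hz1]) with h | h
    · exact h
    · rw [h] at h11; norm_num at h11

/-- The structure in the presence of a normal subgroup generated by a 3-cycle. -/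
theorem five_points (F : H →* Perm (Fin 8)) (hF : Function.Injective F) (heven : ∀ h, sign (F h) = 1)
    {z : H} (hz : (F z).cycleType = {3}) [hN : (zpowers z).Normal] :
    ∃ φ : H →* Perm (Fin 5), φ.ker = zpowers z := by
  have h3 : (F z).IsThreeCycle := hz
  have hcard : (F z).support.card = 3 := h3.card_support
  have hfix : ∀ (h : H) (i : Fin 8), F z i = i → F z (F h i) = F h i := by
    intro h i hi
    have h1 : h⁻¹ * z * h ∈ zpowers z := by
      have := hN.conj_mem z (mem_zpowers z) h⁻¹
      rwa [inv_inv] at this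
    obtain ⟨k, hk⟩ := h1
    have hk' : z ^ k = h⁻¹ * z * h := hk
    have h2 : F z * F h = F h * F z ^ k := by
      rw [← map_zpow, ← map_mul, ← map_mul, hk']; group
    have h4 : (F z ^ k) i = i := by
      exact Equiv.Perm.zpow_apply_eq_self_of_apply_eq_self hi k
    have h5 := DFunLike.congr_fun h2 i
    rw [mul_apply, mul_apply, h4] at h5
    exact h5
  have hfix' : ∀ (h : H) (i : Fin 8), F z (F h i) = F h i ↔ F z i = i := by
    intro h i
    refine ⟨fun h1 => ?_, hfix h i⟩
    have h2 := hfix h⁻¹ _ h1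
    rw [← mul_apply (F h⁻¹), ← map_mul, inv_mul_cancel, map_one, one_apply] at h2
    exact h2
  let φ : H →* Perm {i : Fin 8 // F z i = i} :=
    { toFun := fun h => (F h).subtypePerm (fun i => hfix' h i)
      map_one' := by ext i; simp
      map_mul' := fun a b => by ext i; simp; rfl }
  have hφ : ∀ h (i : {i : Fin 8 // F z i = i}), (φ h i : Fin 8) = F h i := fun h i => rfl
  have hker : φ.ker = zpowers z := by
    apply le_antisymm
    · intro h hh
      rw [MonoidHom.mem_ker] at hh
      have h1 : ∀ i, F z i = i → F h i = i := by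
        intro i hi
        have h2 := hφ h ⟨i, hi⟩
        rw [hh] at h2
        exact h2.symm
      obtain ⟨a, ha⟩ : (F z).support.Nonempty := by
        rw [← Finset.card_pos, hcard]; norm_num
      have ha' : F z a ≠ a := mem_support.mp ha
      have hb : F z (F h a) ≠ F h a := fun hb => ha' ((hfix' h a).mp hb)
      obtain ⟨k, hk⟩ := h3.isCycle.sameCycle ha' hb
      have hg1 : ∀ i, F z i = i → F (z ^ (-k) * h) i = i := by
        intro i hi
        rw [map_mul, mul_apply, h1 i hi, map_zpow]
        exact Equiv.Perm.zpow_apply_eq_self_of_apply_eq_self hi _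
      have hg2 : F (z ^ (-k) * h) a = a := by
        rw [map_mul, mul_apply, ← hk, ← mul_apply, map_zpow, ← zpow_add, neg_add_cancel, zpow_zero, one_apply]
      have hsub : (F (z ^ (-k) * h)).support ⊆ (F z).support.erase a := by
        intro i hi
        rw [mem_support] at hi
        rw [Finset.mem_erase, mem_support]
        exact ⟨fun h => hi (by rw [h, hg2]), fun h => hi (hg1 i h)⟩
      have hle : (F (z ^ (-k) * h)).support.card ≤ 2 := by
        have := Finset.card_le_card hsub
        rw [Finset.card_erase_of_mem ha, hcard] at this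
        exact this
      have hg : F (z ^ (-k) * h) = 1 := by
        rcases Nat.lt_or_ge (F (z ^ (-k) * h)).support.card 2 with h4 | h4
        · exact card_support_le_one.mp (by omega)
        · have h5 := (card_support_eq_two.mp (le_antisymm hle h4)).sign_eq
          rw [heven] at h5
          exact absurd h5 (by decide)
      have h6 : z ^ (-k) * h = 1 := hF (by rw [hg, map_one])
      have h7 : h = z ^ k := by
        rw [zpow_neg] at h6
        exact (inv_mul_eq_one.mp h6).symm
      rw [h7]
      exact zpow_mem (mem_zpowers z) k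
    · rw [zpowers_le, MonoidHom.mem_ker]
      ext i
      rw [hφ, one_apply]
      exact congrArg Fin.val i.2
  have hT : Fintype.card {i : Fin 8 // F z i = i} = 5 := by
    have h1 : (Finset.univ.filter fun i : Fin 8 => F z i = i) = (F z).supportᶜ := by
      ext i; simp
    rw [Fintype.card_subtype, h1, Finset.card_compl, hcard, Fintype.card_fin]
  have e : {i : Fin 8 // F z i = i} ≃ Fin 5 := Fintype.equivFinOfCardEq hT
  refine ⟨(permCongrHom e).toMonoidHom.comp φ, ?_⟩
  rw [← hker]
  ext h
  simp [MonoidHom.mem_ker]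

/-- **Case B.** -/
theorem case_B (f : H →* alternatingGroup (Fin 8)) (hf : Function.Injective f) (hns : ¬ Group.IsSolvable H)
    (hP : pCore 3 H ≠ ⊥) : Nat.card (pCore 3 H) = 3 ∧
      (Nonempty (H ⧸ pCore 3 H ≃* alternatingGroup (Fin 5)) ∨ Nonempty (H ⧸ pCore 3 H ≃* Perm (Fin 5))) := by
  set F : H →* Perm (Fin 8) := (alternatingGroup (Fin 8)).subtype.comp f with hFdef
  have hF : Function.Injective F := (alternatingGroup (Fin 8)).subtype_injective.comp hf
  obtain ⟨h3, z, hz, hz3⟩ := three_core F hF hns hP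
  refine ⟨h3, ?_⟩
  haveI : (zpowers z).Normal := by rw [hz]; infer_instance
  obtain ⟨φ, hφ⟩ := five_points F hF (fun h => (f h).2) hz3
  rw [hz] at hφ
  let e : H ⧸ pCore 3 H ≃* φ.range := (QuotientGroup.quotientMulEquivOfEq hφ.symm).trans
    (QuotientGroup.quotientKerEquivRange φ)
  have hrns : ¬ Group.IsSolvable φ.range := by
    intro hs
    apply hns
    haveI : Group.IsSolvable (pCore 3 H) := by
      haveI : Fact (Nat.Prime 3) := ⟨by norm_num⟩
      haveI : IsCyclic (pCore 3 H) := isCyclic_of_prime_card h3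
      apply Group.isSolvable_of_comm
      intro a b
      letI := IsCyclic.commGroup (α := pCore 3 H)
      exact mul_comm a b
    apply Group.isSolvable_of_ker_le_range (pCore 3 H).subtype φ.rangeRestrict
    rw [range_subtype, MonoidHom.ker_rangeRestrict, hφ]
  have h120 : Nat.card (Perm (Fin 5)) = 120 := by
    rw [Nat.card_eq_fintype_card, Fintype.card_perm, Fintype.card_fin]; decide
  have hd : Nat.card φ.range ∣ 120 := h120 ▸ Subgroup.card_subgroup_dvd_card φ.range
  have h60 : 60 ∣ Nat.card φ.range := by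
    by_contra h
    exact hrns (sol_120 hd h)
  obtain ⟨c, hc⟩ := h60
  have hmul := Subgroup.card_mul_index φ.range
  rw [h120, hc] at hmul
  have hc2 : c * φ.range.index = 2 := by
    have : 60 * (c * φ.range.index) = 60 * 2 := by rw [← mul_assoc, hmul]
    exact Nat.eq_of_mul_eq_mul_left (by norm_num) this
  have hi : φ.range.index = 1 ∨ φ.range.index = 2 :=
    (Nat.dvd_prime Nat.prime_two).mp ⟨c, by rw [← hc2, mul_comm]⟩
  rcases hi with hi | hi
  · right
    rw [Subgroup.index_eq_one] at hi
    exact ⟨e.trans ((MulEquiv.subgroupCongr hi).trans Subgroup.topEquiv)⟩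
  · left
    have h1 := eq_alternatingGroup_of_index_eq_two hi
    exact ⟨e.trans (MulEquiv.subgroupCongr h1)⟩

/-- a nonsolvable group with `O₂ = 1` and a faithful even action on eight points and `O ≠ 1` has `O₃ ≠ 1` -/
theorem odd_core_case (f : H →* alternatingGroup (Fin 8)) (hf : Function.Injective f) (hns : ¬ Group.IsSolvable H)
    (h2 : pCore 2 H = ⊥) (hO : pPrimeCore 2 H ≠ ⊥) : pCore 3 H ≠ ⊥ := by
  set F : H →* Perm (Fin 8) := (alternatingGroup (Fin 8)).subtype.comp f with hFdef
  have hF : Function.Injective F := (alternatingGroup (Fin 8)).subtype_injective.comp hf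
  set N := pPrimeCore 2 H with hN
  haveI : Group.IsSolvable N := by
    apply Cfsg.Agent.S0205.result
    have h1 := Cores.coprime_card_pPrimeCore (G := H) 2
    rw [← Nat.coprime_two_right]
    first | exact h1 | exact h1.symm
  have hnt : Nontrivial N := (Subgroup.nontrivial_iff_ne_bot N).2 hO
  have h1 : Cfsg.fittingSubgroup N ≠ ⊥ := Cores.fittingSubgroup_ne_bot
  obtain ⟨r, hr, hr1⟩ : ∃ r : ℕ, r.Prime ∧ pCore r H ≠ ⊥ := by
    by_contra hcon
    push Not at hcon
    apply h1
    rw [Cores.fittingSubgroup_eq_iSup, eq_bot_iff]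
    apply iSup_le
    intro r
    have h2 := Cores.map_pCore_subtype_le (r : ℕ) N
    rw [hcon r r.2, le_bot_iff, map_eq_bot_iff_of_injective _ N.subtype_injective] at h2
    rw [h2]
  haveI : Fact r.Prime := ⟨hr⟩
  have hrd : r ∣ 40320 := by
    obtain ⟨n, hn⟩ := IsPGroup.iff_card.mp (Cores.isPGroup_pCore r (G := H))
    have hn0 : n ≠ 0 := by
      rintro rfl
      exact hr1 (Subgroup.card_eq_one.mp (by rw [hn, pow_zero]))
    have h3 : r ∣ Nat.card (pCore r H) := hn ▸ dvd_pow_self r hn0
    exact (h3.trans (Subgroup.card_subgroup_dvd_card _)).trans (card_dvd_8 F hF)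
  have hr2 : r ≠ 2 := by rintro rfl; exact hr1 h2
  have h4 : r = 3 ∨ r = 5 ∨ r = 7 := by
    have h5 : r ∣ 2 ^ 7 * (3 ^ 2 * (5 * 7)) := by norm_num; exact hrd
    rcases hr.dvd_mul.mp h5 with h | h
    · exact absurd ((Nat.prime_dvd_prime_iff_eq hr Nat.prime_two).mp (hr.dvd_of_dvd_pow h)) hr2
    rcases hr.dvd_mul.mp h with h | h
    · exact Or.inl ((Nat.prime_dvd_prime_iff_eq hr Nat.prime_three).mp (hr.dvd_of_dvd_pow h))
    rcases hr.dvd_mul.mp h with h | h
    · exact Or.inr (Or.inl ((Nat.prime_dvd_prime_iff_eq hr (by norm_num)).mp h))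
    · exact Or.inr (Or.inr ((Nat.prime_dvd_prime_iff_eq hr (by norm_num)).mp h))
  rcases h4 with rfl | h4
  · exact hr1
  · exact absurd (sol_57 F hF h4 hr1) hns

end Cfsg.Agent.Lib.S4R6
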