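import Mathlib

/-!
# Arithmetic for S3280 (helper20)
-/

set_option autoImplicit false

namespace Cfsg.Agent.Lib.S4X

theorem inv_ge {Y : ℤ} {m : ℕ} (hm : 0 < m) (h : 0 < Y ∨ Y ≤ -(m : ℤ)) : -(1 / (m : ℚ)) ≤ 1 / (Y : ℚ) := by
  have hmq : (0 : ℚ) < m := by exact_mod_cast hm
  rcases h with h | h
  · have hY : (0 : ℚ) < Y := by exact_mod_cast h
    have h1 : (0 : ℚ) < 1 / Y := by positivity
    have h2 : (0 : ℚ) < 1 / m := by positivity
    linarith
  · have hY : (Y : ℚ) ≤ -m := by exact_mod_cast h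
    have hY0 : (Y : ℚ) < 0 := by linarith
    rw [neg_le, ← one_div_neg_eq_neg_one_div]
    apply one_div_le_one_div_of_le hmq
    linarith

theorem sq_dvd_of {e a b : ℤ} (h : e ^ 2 ∣ a * b) (hc : IsCoprime e b) : e ^ 2 ∣ a :=
  (hc.pow_left).dvd_of_dvd_mul_right h

theorem coprime_poly (e : ℤ) : IsCoprime e ((1 + 8 * e) * (1 + 4 * e)) := by
  refine ⟨-(12 + 32 * e), 1, by ring⟩

theorem coprime_poly2 (e : ℤ) : IsCoprime e ((1 + 4 * e) * (1 + 2 * e)) := by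
  refine ⟨-(6 + 8 * e), 1, by ring⟩

/-- `X ≡ 1 (mod 8)` from the order formula. -/
theorem mod_eight {X a b : ℤ} {g : ℤ} (hg : g % 2 = 1) (hb : b % 2 = 0) (hX : X % 4 = 1)
    (h : 8 * g * (X - 1) ^ 2 = 64 * a * b ^ 2 * (X * (X + 1))) :
    ∃ e : ℤ, X = 1 + 8 * e ∧ 4 * g * e ^ 2 = a * b ^ 2 * ((1 + 8 * e) * (1 + 4 * e)) := by
  obtain ⟨f, rfl⟩ : ∃ f, X = 1 + 4 * f := ⟨X / 4, by omega⟩
  obtain ⟨c, rfl⟩ : ∃ c, b = 2 * c := ⟨b / 2, by omega⟩
  have h1 : g * f ^ 2 = 4 * (a * c ^ 2 * ((1 + 4 * f) * (1 + 2 * f))) := by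
    have h2 : 128 * (g * f ^ 2) = 128 * (4 * (a * c ^ 2 * ((1 + 4 * f) * (1 + 2 * f)))) := by
      linear_combination h
    linarith
  have h2 : (2 : ℤ) ∣ f := by
    have h3 : (2 : ℤ) ∣ g * f ^ 2 := by rw [h1]; exact ⟨2 * (a * c ^ 2 * ((1 + 4 * f) * (1 + 2 * f))), by ring⟩
    rcases Int.prime_two.dvd_mul.1 h3 with h4 | h4
    · omega
    · exact Int.prime_two.dvd_of_dvd_pow h4
  obtain ⟨e, rfl⟩ := h2
  refine ⟨e, by ring, ?_⟩
  have h3 : 4 * (g * e ^ 2) = 4 * (a * c ^ 2 * ((1 + 4 * (2 * e)) * (1 + 2 * (2 * e)))) := by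
    rw [← h1]; ring
  linear_combination h3

theorem upper {X : ℤ} (h : ∃ e : ℤ, X = 1 + 8 * e) (h1 : X ≠ 1) : 64 * (X * (X + 1)) ≤ 90 * (X - 1) ^ 2 := by
  obtain ⟨e, rfl⟩ := h
  have he : e ≠ 0 := by rintro rfl; simp at h1
  rcases lt_or_gt_of_ne he with h2 | h2
  · nlinarith
  · have : 1 ≤ e := h2
    nlinarith

theorem lower {X : ℤ} (h : 5 ≤ X ∨ X ≤ -7) : 42 * (X - 1) ^ 2 ≤ 64 * (X * (X + 1)) := by
  rcases h with h | h <;> nlinarith

theorem sq_pos {X : ℤ} (h : X ≠ 1) : 0 < (X - 1) ^ 2 := by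
  have : X - 1 ≠ 0 := by omega
  positivity

/-- The case `K = C_K(y)`. -/
theorem arithA {X Y V : ℤ} {n g : ℕ} (hn : n % 2 = 1) (hn3 : 3 ≤ n) (hg : g % 2 = 1)
    (h0 : 1 + X + Y + V = 0) (hX : X % 4 = 1) (hY : Y % 4 = 3) (hV : V % 4 = 3) (hX1 : X ≠ 1)
    (hY1 : Y ≠ -1) (hV1 : V ≠ -1)
    (e1 : 256 * (n : ℚ) * 1 * n = ((8 * g : ℕ) : ℚ) * (1 + 1 / X + 1 / Y + 1 / V))
    (e2 : ((8 * g : ℕ) : ℤ) * (X - 1) ^ 2 = 64 * n * (n + 1) ^ 2 * (X * (X + 1))) :
    (n = 3 ∧ 8 * g = 2520) ∨ (n = 5 ∧ 8 * g = 7560) := by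
  have hnq : (3 : ℚ) ≤ n := by exact_mod_cast hn3
  have hgpos : 0 < g := by omega
  obtain ⟨e, he, e3⟩ := mod_eight (X := X) (a := n) (b := n + 1) (g := g) (by omega) (by omega) hX
    (by push_cast at e2; linear_combination e2)
  have he0 : e ≠ 0 := by rintro rfl; omega
  have hsq := sq_pos hX1
  -- bound on `n`
  have hYq := inv_ge (Y := Y) (m := 5) (by norm_num) (by omega)
  have hVq := inv_ge (Y := V) (m := 5) (by norm_num) (by omega)
  push_cast at hYq hVq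
  have hn7 : n ≤ 7 ∧ (9 ≤ X → n ≤ 4) := by
    rcases lt_or_ge X 2 with hneg | hpos
    · have hX7 : X ≤ -7 := by omega
      refine ⟨?_, fun h => by omega⟩
      have hXq := inv_ge (Y := X) (m := 7) (by norm_num) (by omega)
      push_cast at hXq
      have hS : (23 : ℚ) / 35 ≤ 1 + 1 / X + 1 / Y + 1 / V := by
        rcases lt_or_ge 0 Y with h3 | h3
        · have : (0 : ℚ) < 1 / Y := by
            have : (0 : ℚ) < Y := by exact_mod_cast h3
            positivity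
          linarith
        · have h4 : 0 < V := by omega
          have : (0 : ℚ) < 1 / V := by
            have : (0 : ℚ) < V := by exact_mod_cast h4
            positivity
          linarith
      have h4 := lower (X := X) (by omega)
      have h5 : (42 * n * (n + 1) ^ 2 : ℤ) ≤ ((8 * g : ℕ) : ℤ) := by
        have h6 : (42 * n * (n + 1) ^ 2 : ℤ) * (X - 1) ^ 2 ≤ ((8 * g : ℕ) : ℤ) * (X - 1) ^ 2 := by
          rw [e2]
          have : (0 : ℤ) ≤ n * (n + 1) ^ 2 := by positivity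
          nlinarith [mul_le_mul_of_nonneg_left h4 this]
        exact le_of_mul_le_mul_right h6 hsq
      have h5q : (42 * n * (n + 1) ^ 2 : ℚ) ≤ ((8 * g : ℕ) : ℚ) := by exact_mod_cast h5
      have h6 : (42 * n * (n + 1) ^ 2 : ℚ) * (23 / 35) ≤ 256 * n * 1 * n := by
        rw [e1]
        apply mul_le_mul h5q hS (by norm_num) (by positivity)
      by_contra hc
      have h7 : (8 : ℚ) ≤ n := by exact_mod_cast (by omega : 8 ≤ n)
      have h8 : (42 * (n + 1) ^ 2 : ℚ) * (23 / 35) ≤ 256 * n := by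
        have h9 : (n : ℚ) * ((42 * (n + 1) ^ 2 : ℚ) * (23 / 35)) ≤ n * (256 * n) := by linarith
        exact le_of_mul_le_mul_left h9 (by linarith)
      nlinarith
    · have hX9 : 9 ≤ X := by omega
      have hXq : (0 : ℚ) < 1 / X := by
        have : (0 : ℚ) < X := by exact_mod_cast (by omega : 0 < X)
        positivity
      have hS : (3 : ℚ) / 5 ≤ 1 + 1 / X + 1 / Y + 1 / V := by linarith
      have h4 : (X - 1) ^ 2 ≤ X * (X + 1) := by nlinarith
      have h5 : (64 * n * (n + 1) ^ 2 : ℤ) ≤ ((8 * g : ℕ) : ℤ) := by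
        have h6 : (64 * n * (n + 1) ^ 2 : ℤ) * (X - 1) ^ 2 ≤ ((8 * g : ℕ) : ℤ) * (X - 1) ^ 2 := by
          rw [e2]
          have : (0 : ℤ) ≤ 64 * n * (n + 1) ^ 2 := by positivity
          exact mul_le_mul_of_nonneg_left h4 this
        exact le_of_mul_le_mul_right h6 hsq
      have h5q : (64 * n * (n + 1) ^ 2 : ℚ) ≤ ((8 * g : ℕ) : ℚ) := by exact_mod_cast h5
      have h6 : (64 * n * (n + 1) ^ 2 : ℚ) * (3 / 5) ≤ 256 * n * 1 * n := by
        rw [e1]
        apply mul_le_mul h5q hS (by norm_num) (by positivity)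
      have h8 : (64 * (n + 1) ^ 2 : ℚ) * (3 / 5) ≤ 256 * n := by
        have h9 : (n : ℚ) * ((64 * (n + 1) ^ 2 : ℚ) * (3 / 5)) ≤ n * (256 * n) := by linarith
        exact le_of_mul_le_mul_left h9 (by linarith)
      have h10 : n ≤ 4 := by
        by_contra hc
        have h7 : (5 : ℚ) ≤ n := by exact_mod_cast (by omega : 5 ≤ n)
        nlinarith
      exact ⟨by omega, fun _ => h10⟩
  -- integral form of `e1`
  have hX0 : (X : ℚ) ≠ 0 := by exact_mod_cast (by omega : X ≠ 0)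
  have hY0 : (Y : ℚ) ≠ 0 := by exact_mod_cast (by omega : Y ≠ 0)
  have hV0 : (V : ℚ) ≠ 0 := by exact_mod_cast (by omega : V ≠ 0)
  have e4 : (256 : ℤ) * n ^ 2 * (X * (Y * V)) = (8 * g) * ((X + 1) * (Y * V) - X * (X + 1)) := by
    have h3 : (256 : ℚ) * n ^ 2 * (X * (Y * V)) = (8 * g) * ((X + 1) * (Y * V) - X * (X + 1)) := by
      have h0q : (1 : ℚ) + X + Y + V = 0 := by exact_mod_cast h0
      push_cast at e1
      field_simp at e1
      linear_combination e1 + 8 * g * X * h0q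
    exact_mod_cast h3
  set P := Y * V with hP
  have hdvd : e ^ 2 ∣ (n : ℤ) * (n + 1) ^ 2 := by
    apply sq_dvd_of (b := (1 + 8 * e) * (1 + 4 * e)) _ (coprime_poly e)
    rw [← e3]
    exact ⟨4 * g, by ring⟩
  have hle : e ^ 2 ≤ (n : ℤ) * (n + 1) ^ 2 := Int.le_of_dvd (by positivity) hdvd
  obtain ⟨hn7, hn4⟩ := hn7
  have hcases : n = 3 ∨ n = 5 ∨ n = 7 := by omega
  subst he
  have e5 : 1024 * e ^ 2 * (n : ℤ) ^ 2 * (1 + 8 * e) * P =
      8 * (n * (n + 1) ^ 2 * ((1 + 8 * e) * (1 + 4 * e))) * ((2 + 8 * e) * P - (1 + 8 * e) * (2 + 8 * e)) := by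
    rw [← e3]
    linear_combination 4 * e ^ 2 * e4
  clear e1 e2 hYq hVq hX0 hY0 hV0 hsq hP e4 hX1 hX hY hV hY1 hV1 h0 hnq
  clear_value P
  rcases hcases with rfl | rfl | rfl
  · norm_num at hle e3 e5
    have h5 : e ≤ 6 := by nlinarith
    have h6 : -6 ≤ e := by nlinarith
    clear hle hdvd
    interval_cases e <;> omega
  · norm_num at hle e3 e5
    have h5 : e ≤ 13 := by nlinarith
    have h6 : -13 ≤ e := by nlinarith
    clear hle hdvd
    interval_cases e <;> omega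
  · norm_num at hle e3 e5
    have h5 : e ≤ 21 := by nlinarith
    have h6 : -21 ≤ e := by nlinarith
    clear hle hdvd
    interval_cases e <;> omega

/-- The order of the normalizer of `K` when `K = C_K(y)`. -/
theorem arithC {X : ℤ} {n k L : ℕ} (hn : 0 < n) (hL : L = 8 * n * k) (hX : X % 4 = 1) (hX1 : X ≠ 1)
    (e : (L : ℤ) * (X - 1) ^ 2 = 64 * n * 1 ^ 2 * (X * (X + 1))) : k = 3 ∨ k = 15 := by
  obtain ⟨f, rfl⟩ : ∃ f, X = 1 + 4 * f := ⟨X / 4, by omega⟩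
  have hf0 : f ≠ 0 := by rintro rfl; simp at hX1
  subst hL
  have h1 : (k : ℤ) * f ^ 2 = (1 + 4 * f) * (1 + 2 * f) := by
    have hn' : (128 * n : ℤ) ≠ 0 := by positivity
    apply mul_left_cancel₀ hn'
    push_cast at e
    linear_combination e
  have h2 : IsUnit f := by
    have h3 := coprime_poly2 f
    have h4 : f ∣ (1 + 4 * f) * (1 + 2 * f) := by rw [← h1]; exact ⟨k * f, by ring⟩
    exact h3.isUnit_of_dvd' dvd_rfl h4
  rcases Int.isUnit_iff.1 h2 with rfl | rfl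
  · right
    norm_num at h1
    omega
  · left
    norm_num at h1
    omega

/-- Only one class of involutions in `L`: impossible. -/
theorem arithOne {X X' : ℤ} {a b g l : ℕ} (hg : g % 2 = 1) (hl : l % 2 = 1) (ha : 0 < a)
    (hb : b % 2 = 0) (hb0 : 0 < b) (hX : X % 4 = 1) (hX1 : X ≠ 1) (hX' : X' % 4 = 1) (hX1' : X' ≠ 1)
    (e : ((8 * g : ℕ) : ℤ) * (X - 1) ^ 2 = 64 * a * b ^ 2 * (X * (X + 1)))
    (e' : ((8 * l : ℕ) : ℤ) * (X' - 1) ^ 2 = 64 * a * b ^ 2 * (X' * (X' + 1))) (hlg : l ∣ g) : g = l := by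
  obtain ⟨d, rfl⟩ := hlg
  obtain ⟨c, hc, -⟩ := mod_eight (X := X) (a := a) (b := b) (g := (l * d : ℕ)) (by omega) (by omega) hX
    (by push_cast at e ⊢; linear_combination e)
  obtain ⟨c', hc', -⟩ := mod_eight (X := X') (a := a) (b := b) (g := l) (by omega) (by omega) hX'
    (by push_cast at e' ⊢; linear_combination e')
  have hup := upper ⟨c, hc⟩ hX1
  have hlo := lower (X := X') (by omega)
  have hs := sq_pos hX1
  have hs' := sq_pos hX1'
  have hpos : (0 : ℤ) < a * b ^ 2 := by positivity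
  have h1 : ((8 * (l * d) : ℕ) : ℤ) ≤ 90 * (a * b ^ 2) := by
    have h6 : ((8 * (l * d) : ℕ) : ℤ) * (X - 1) ^ 2 ≤ (90 * (a * b ^ 2)) * (X - 1) ^ 2 := by
      rw [e]
      nlinarith [mul_le_mul_of_nonneg_left hup hpos.le]
    exact le_of_mul_le_mul_right h6 hs
  have h2 : 42 * (a * b ^ 2 : ℤ) ≤ ((8 * l : ℕ) : ℤ) := by
    have h6 : (42 * (a * b ^ 2) : ℤ) * (X' - 1) ^ 2 ≤ ((8 * l : ℕ) : ℤ) * (X' - 1) ^ 2 := by
      rw [e']
      nlinarith [mul_le_mul_of_nonneg_left hlo hpos.le]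
    exact le_of_mul_le_mul_right h6 hs'
  have hd : d < 3 := by
    by_contra hd
    push Not at hd
    have h3 : (3 : ℤ) * (8 * l) ≤ 8 * (l * d) := by
      have : (3 : ℤ) ≤ d := by exact_mod_cast hd
      nlinarith [Int.natCast_nonneg l]
    push_cast at h1 h2
    nlinarith
  have hd1 : d % 2 = 1 := by
    rcases Nat.even_or_odd d with h | h
    · exfalso
      have : Even (l * d) := h.mul_left l
      rw [Nat.even_iff] at this
      omega
    · exact Nat.odd_iff.1 h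
  have : d = 1 := by omega
  subst this
  omega

/-- The index of the normalizer. -/
theorem arithB1 {X X' : ℤ} {a b g l d : ℕ} (hg : g % 2 = 1) (ha : a % 2 = 1) (hb : b % 2 = 1)
    (hb3 : 3 ≤ b) (hab : b ≤ a) (hX : X % 4 = 1) (hX1 : X ≠ 1) (hX' : X' % 4 = 1) (hX1' : X' ≠ 1)
    (e : ((8 * g : ℕ) : ℤ) * (X - 1) ^ 2 = 64 * (a * b : ℕ) * (a + b) ^ 2 * (X * (X + 1)))
    (e' : (l : ℤ) * (X' - 1) ^ 2 = 64 * (a * b : ℕ) * a ^ 2 * (X' * (X' + 1))) (hlg : 8 * g = l * d) :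
    2520 < 8 * g ∧ (d ≤ 8 ∨ (l = 24 * (a ^ 3 * b) ∧ d ≤ 15)) := by
  obtain ⟨c, hc, -⟩ := mod_eight (X := X) (a := (a * b : ℕ)) (b := a + b) (g := g) (by omega) (by omega) hX
    (by push_cast at e ⊢; linear_combination e)
  have hup := upper ⟨c, hc⟩ hX1
  have hlo' := lower (X := X) (by omega)
  have hs := sq_pos hX1
  have hs' := sq_pos hX1'
  have haz : (3 : ℤ) ≤ a := by exact_mod_cast (by omega : 3 ≤ a)
  have hbz : (3 : ℤ) ≤ b := by exact_mod_cast hb3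
  have habz : (b : ℤ) ≤ a := by exact_mod_cast hab
  have hpos : (0 : ℤ) < a * b * (a + b) ^ 2 := by positivity
  have hpos2 : (0 : ℤ) < a * b * a ^ 2 := by positivity
  have h1 : ((8 * g : ℕ) : ℤ) ≤ 90 * (a * b * (a + b) ^ 2) := by
    have h6 : ((8 * g : ℕ) : ℤ) * (X - 1) ^ 2 ≤ (90 * (a * b * (a + b) ^ 2)) * (X - 1) ^ 2 := by
      rw [e]
      push_cast
      nlinarith [mul_le_mul_of_nonneg_left hup hpos.le]
    exact le_of_mul_le_mul_right h6 hs
  have h2 : 42 * (a * b * (a + b) ^ 2 : ℤ) ≤ ((8 * g : ℕ) : ℤ) := by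
    have h6 : (42 * (a * b * (a + b) ^ 2) : ℤ) * (X - 1) ^ 2 ≤ ((8 * g : ℕ) : ℤ) * (X - 1) ^ 2 := by
      rw [e]
      push_cast
      nlinarith [mul_le_mul_of_nonneg_left hlo' hpos.le]
    exact le_of_mul_le_mul_right h6 hs
  have h3 : (a * b * (a + b) ^ 2 : ℤ) ≤ 4 * (a * b * a ^ 2) := by
    have h31 : ((a : ℤ) + b) ^ 2 ≤ (2 * a) ^ 2 := pow_le_pow_left₀ (by positivity) (by linarith) 2
    have h32 := mul_le_mul_of_nonneg_left h31 (by positivity : (0 : ℤ) ≤ a * b)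
    linarith
  have h9 : (3 * 3 : ℤ) ≤ a * b := mul_le_mul haz hbz (by norm_num) (by positivity)
  have h36 : (6 ^ 2 : ℤ) ≤ (a + b) ^ 2 := pow_le_pow_left₀ (by norm_num) (by linarith) 2
  have h4 : (3 * 3 * 6 ^ 2 : ℤ) ≤ a * b * (a + b) ^ 2 := mul_le_mul h9 h36 (by norm_num) (by positivity)
  refine ⟨?_, ?_⟩
  · have h21 : (2520 : ℤ) < ((8 * g : ℕ) : ℤ) := by linarith
    exact_mod_cast h21
  have hdz : ((8 * g : ℕ) : ℤ) = l * d := by exact_mod_cast hlg
  by_cases h5 : X' = -3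
  · right
    subst h5
    norm_num at e'
    have h6 : (l : ℤ) = 24 * (a ^ 3 * b) := by
      have : (16 : ℤ) * l = 16 * (24 * (a ^ 3 * b)) := by linear_combination e'
      linarith
    have h7 : l = 24 * (a ^ 3 * b) := by exact_mod_cast h6
    refine ⟨h7, ?_⟩
    by_contra hd
    push Not at hd
    have h8 : (16 : ℤ) ≤ d := by exact_mod_cast hd
    have h10 : (24 * (a * b * a ^ 2) : ℤ) * 16 ≤ l * d := by
      rw [h6]
      have : (24 * (a ^ 3 * b) : ℤ) = 24 * (a * b * a ^ 2) := by ring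
      rw [this]
      exact mul_le_mul_of_nonneg_left h8 (by positivity)
    rw [hdz] at h1
    have h11 : (0 : ℤ) < a * b * a ^ 2 := hpos2
    linarith
  · left
    have hlo := lower (X := X') (by omega)
    have h6 : (42 * (a * b * a ^ 2) : ℤ) ≤ l := by
      have h6 : (42 * (a * b * a ^ 2) : ℤ) * (X' - 1) ^ 2 ≤ l * (X' - 1) ^ 2 := by
        rw [e']
        push_cast
        nlinarith [mul_le_mul_of_nonneg_left hlo hpos2.le]
      exact le_of_mul_le_mul_right h6 hs'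
    by_contra hd
    push Not at hd
    have h8 : (9 : ℤ) ≤ d := by exact_mod_cast hd
    have h10 : (42 * (a * b * a ^ 2) : ℤ) * 9 ≤ l * d := by
      exact mul_le_mul h6 h8 (by norm_num) (by positivity)
    rw [hdz] at h1
    have h11 : (0 : ℤ) < a * b * a ^ 2 := hpos2
    linarith

def cubeCheck : Bool := (List.range 1270).all fun a => a % 2 == 0 || a < 3 ||
  !((Nat.factorial 15) % (24 * a ^ 3) == 0) || a == 3 || a == 5 || a == 15

theorem cubeCheck_eq : cubeCheck = true := by decide +kernel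

def smallCheck : Bool := [3, 5, 15].all fun a => (List.range 16).all fun b => (List.range 61).all fun e =>
  (List.range 16).all fun d =>
    b % 2 == 0 || b < 3 || a < b || d < 9 || !((Nat.factorial 15) % (24 * (a ^ 3 * b) * d) == 0) || e == 30 ||
    !((12 * a ^ 2 * d * ((e : ℤ) - 30) ^ 2 : ℤ) == (a + b) ^ 2 * ((1 + 8 * ((e : ℤ) - 30)) * (1 + 4 * ((e : ℤ) - 30))))
    || (a == 3 && b == 3 && d == 15)

theorem smallCheck_eq : smallCheck = true := by decide +kernel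

theorem arithB2 {X : ℤ} {a b g l d : ℕ} (hg : g % 2 = 1) (ha : a % 2 = 1) (hb : b % 2 = 1)
    (hb3 : 3 ≤ b) (hab : b ≤ a) (hX : X % 4 = 1) (hX1 : X ≠ 1)
    (e : ((8 * g : ℕ) : ℤ) * (X - 1) ^ 2 = 64 * (a * b : ℕ) * (a + b) ^ 2 * (X * (X + 1)))
    (hlg : 8 * g = l * d) (hl : l = 24 * (a ^ 3 * b)) (hd9 : 9 ≤ d) (hd15 : d ≤ 15)
    (hdvd : 8 * g ∣ Nat.factorial 15) : 8 * g = 29160 ∧ d = 15 := by
  obtain ⟨c, hc, e2⟩ := mod_eight (X := X) (a := (a * b : ℕ)) (b := a + b) (g := g) (by omega) (by omega) hX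
    (by push_cast at e ⊢; linear_combination e)
  have hc0 : c ≠ 0 := by rintro rfl; omega
  have hab0 : 0 < a * b := Nat.mul_pos (by omega) (by omega)
  have e3 : (12 * a ^ 2 * d * c ^ 2 : ℤ) = (a + b) ^ 2 * ((1 + 8 * c) * (1 + 4 * c)) := by
    have h1 : ((8 * g : ℕ) : ℤ) = l * d := by exact_mod_cast hlg
    rw [hl] at h1
    have h2 : ((2 * (a * b) : ℕ) : ℤ) ≠ 0 := by exact_mod_cast (by omega : 2 * (a * b) ≠ 0)
    apply mul_left_cancel₀ h2
    push_cast at h1 e2 ⊢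
    linear_combination 2 * e2 - c ^ 2 * h1
  -- bound `a`
  have ha5 : 24 * a ^ 3 ∣ Nat.factorial 15 := by
    refine dvd_trans ?_ hdvd
    rw [hlg, hl]
    exact ⟨b * d, by ring⟩
  have ha6 : a < 1270 := by
    by_contra h
    push Not at h
    have h1 : 24 * (a ^ 3 * b) * d ≤ Nat.factorial 15 := by
      rw [← hl, ← hlg]
      exact Nat.le_of_dvd (Nat.factorial_pos _) hdvd
    have h2 : 1270 ^ 3 ≤ a ^ 3 := Nat.pow_le_pow_left h 3
    have h3 : 1270 ^ 3 * 3 ≤ a ^ 3 * b := Nat.mul_le_mul h2 hb3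
    have h4 : 24 * (1270 ^ 3 * 3) * 9 ≤ 24 * (a ^ 3 * b) * d :=
      Nat.mul_le_mul (Nat.mul_le_mul_left _ h3) hd9
    have h5 : Nat.factorial 15 < 24 * (1270 ^ 3 * 3) * 9 := by decide
    omega
  have ha7 : a = 3 ∨ a = 5 ∨ a = 15 := by
    have h := cubeCheck_eq
    unfold cubeCheck at h
    rw [List.all_eq_true] at h
    have h1 := h a (List.mem_range.2 ha6)
    simp only [Bool.or_eq_true, beq_iff_eq, decide_eq_true_eq, Bool.not_eq_true'] at h1
    have h2 : (Nat.factorial 15) % (24 * a ^ 3) = 0 := Nat.mod_eq_zero_of_dvd ha5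
    rw [h2] at h1
    have h3 : ¬ a < 3 := by omega
    simp only [beq_self_eq_true, Bool.true_eq_false, or_false] at h1
    omega
  have hcd : c ^ 2 ∣ ((a : ℤ) + b) ^ 2 := by
    apply sq_dvd_of (b := (1 + 8 * c) * (1 + 4 * c)) _ (coprime_poly c)
    rw [← e3]
    exact ⟨12 * a ^ 2 * d, by ring⟩
  have hcle : c ^ 2 ≤ ((a : ℤ) + b) ^ 2 := Int.le_of_dvd (by positivity) hcd
  have ha15 : a ≤ 15 := by omega
  have hb15 : b ≤ 15 := by omega
  have hc30 : c ≤ 30 ∧ -30 ≤ c := by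
    have h1 : ((a : ℤ) + b) ^ 2 ≤ 30 ^ 2 := by
      have : (a : ℤ) + b ≤ 30 := by exact_mod_cast (by omega : a + b ≤ 30)
      exact pow_le_pow_left₀ (by positivity) this 2
    have h2 : c ^ 2 ≤ 30 ^ 2 := le_trans hcle h1
    exact ⟨(abs_le.1 (abs_le_of_sq_le_sq h2 (by norm_num))).2, (abs_le.1 (abs_le_of_sq_le_sq h2 (by norm_num))).1⟩
  have hfin : a = 3 ∧ b = 3 ∧ d = 15 := by
    have h := smallCheck_eq
    unfold smallCheck at h
    rw [List.all_eq_true] at h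
    have h1 := h a (by simp; omega)
    rw [List.all_eq_true] at h1
    have h2 := h1 b (List.mem_range.2 (by omega))
    rw [List.all_eq_true] at h2
    have h3 := h2 (c + 30).toNat (List.mem_range.2 (by omega))
    rw [List.all_eq_true] at h3
    have h4 := h3 d (List.mem_range.2 (by omega))
    have h5 : (((c + 30).toNat : ℕ) : ℤ) - 30 = c := by omega
    rw [h5] at h4
    have h6 : (Nat.factorial 15) % (24 * (a ^ 3 * b) * d) = 0 := by
      apply Nat.mod_eq_zero_of_dvd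
      rw [← hl, ← hlg]; exact hdvd
    rw [h6] at h4
    simp only [Bool.or_eq_true, beq_iff_eq, decide_eq_true_eq, Bool.not_eq_true', Bool.and_eq_true,
      beq_self_eq_true, Bool.true_eq_false, or_false, beq_eq_false_iff_ne, ne_eq] at h4
    have h7 : ¬ (c + 30).toNat = 30 := by omega
    have h8 : ¬ ¬ (12 * (a : ℤ) ^ 2 * d * c ^ 2 = (a + b) ^ 2 * ((1 + 8 * c) * (1 + 4 * c))) := not_not.2 e3
    rcases h4 with ((((((h4 | h4) | h4) | h4) | h4) | h4)) | h4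
    · omega
    · omega
    · omega
    · omega
    · exact absurd h4 h7
    · exact absurd h4 h8
    · exact ⟨h4.1.1, h4.1.2, h4.2⟩
  obtain ⟨rfl, rfl, rfl⟩ := hfin
  exact ⟨by rw [hlg, hl]; norm_num, rfl⟩

end Cfsg.Agent.Lib.S4X
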