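import Mathlib
import Cfsg.Agent.Lib.H52Dih10

/-!
# Counting pairs of conjugates of the central involution (helper20)

A version of `H52Dih9.count` for the conjugacy class of the central involution, and the resulting
order formulas for groups with a dihedral Sylow 2-subgroup of order 8.
-/

set_option autoImplicit false

open Subgroup

namespace Cfsg.Agent.Lib.S4X

open Cfsg Cfsg.Agent.Lib.DihSylow Cfsg.Agent.Lib.H52Dih1 Cfsg.Agent.Lib.H52Dih2 Cfsg.Agent.Lib.H52Dih4
open Cfsg.Agent.Lib.H52Dih5 Cfsg.Agent.Lib.H52Dih6 Cfsg.Agent.Lib.H52Dih7 Cfsg.Agent.Lib.H52Dih8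
open Cfsg.Agent.Lib.H52Dih9 Cfsg.Agent.Lib.BlockThird Cfsg.Agent.Lib.BlockRing Cfsg.Agent.Lib.CharBasic
open Cfsg.Agent.Lib.StructConst
open scoped ComplexConjugate

universe u

variable {G : Type u} [Group G] {S : Sylow 2 G} {x y : G} {q n : ℕ} {K : Subgroup G}
variable {M : Ideal AlgInt} {ζ : ℂ}

open scoped Classical in
theorem conjCount_conj [Fintype G] (z g : G) :
    conjCount z g = if IsConj z g then (Nat.card (Subgroup.centralizer ({z} : Set G)) : ℂ) else 0 := by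
  unfold conjCount
  split_ifs with hg
  · obtain ⟨x, hx⟩ := isConj_iff.1 hg
    congr 1
    rw [← Fintype.card_subtype, ← Nat.card_eq_fintype_card]
    refine Nat.card_congr
      { toFun := fun b => ⟨x⁻¹ * b.1, ?_⟩
        invFun := fun z => ⟨x * z.1, ?_⟩
        left_inv := fun b => Subtype.ext (by simp)
        right_inv := fun z => Subtype.ext (by simp) }
    · rw [Subgroup.mem_centralizer_singleton_iff]
      have h1 : b.1 * z * (b.1)⁻¹ = x * z * x⁻¹ := b.2.trans hx.symm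
      calc x⁻¹ * b.1 * z = x⁻¹ * (b.1 * z * (b.1)⁻¹) * b.1 := by group
        _ = x⁻¹ * (x * z * x⁻¹) * b.1 := by rw [h1]
        _ = z * (x⁻¹ * b.1) := by group
    · have h1 := (Subgroup.mem_centralizer_singleton_iff.mp z.2)
      show x * z.1 * _ * (x * z.1)⁻¹ = g
      rw [← hx]
      rw [mul_assoc x, h1]; group
  · have h1 : (Finset.univ.filter fun b : G => b * z * b⁻¹ = g) = ∅ := by
      rw [Finset.filter_eq_empty_iff]
      intro b _ hb
      exact hg (isConj_iff.2 ⟨b, hb⟩)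
    rw [h1]
    simp

open scoped Classical in
/-- pairs of conjugates of `z` with product in `x^l K` -/
noncomputable def B [Fintype G] (z x : G) (K : Subgroup G) (l : ℤ) : Finset (G × G) :=
  Finset.univ.filter fun p => IsConj z p.1 ∧ IsConj z p.2 ∧ (x ^ l)⁻¹ * (p.1 * p.2) ∈ K

open scoped Classical in
theorem mem_B [Fintype G] {z : G} {l : ℤ} {p : G × G} :
    p ∈ B z x K l ↔ IsConj z p.1 ∧ IsConj z p.2 ∧ (x ^ l)⁻¹ * (p.1 * p.2) ∈ K := by
  simp [B]

open scoped Classical in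
theorem lhs_conj [Fintype G] {z : G} (hz : orderOf z = 2) (l : ℤ) :
    ∑ a, ∑ b, Fl x K l (a * z * a⁻¹ * (b * z * b⁻¹)⁻¹) =
      (Nat.card (Subgroup.centralizer ({z} : Set G)) : ℂ) ^ 2 * ((B z x K l).card : ℂ) := by
  set c : ℂ := (Nat.card (Subgroup.centralizer ({z} : Set G)) : ℂ) with hc
  have h1 : ∀ a : G, ∑ b, Fl x K l (a * z * a⁻¹ * (b * z * b⁻¹)⁻¹) =
      ∑ j, conjCount z j * Fl x K l (a * z * a⁻¹ * j⁻¹) :=
    fun a => sum_conj_eq z (fun j => Fl x K l (a * z * a⁻¹ * j⁻¹))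
  rw [Finset.sum_congr rfl (fun a _ => h1 a),
    sum_conj_eq z (fun i => ∑ j, conjCount z j * Fl x K l (i * j⁻¹))]
  simp only [conjCount_conj, ← hc, Finset.mul_sum]
  rw [B, Finset.card_filter]
  push_cast
  rw [Fintype.sum_prod_type, Finset.mul_sum]
  refine Finset.sum_congr rfl fun i _ => ?_
  rw [Finset.mul_sum]
  refine Finset.sum_congr rfl fun j _ => ?_
  by_cases hi : IsConj z i
  · by_cases hj : IsConj z j
    · have hjj : j⁻¹ = j := by
        apply inv_eq_of_mul_eq_one_right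
        obtain ⟨b, hb⟩ := isConj_iff.1 hj
        have h2 : orderOf j = 2 := by rw [← hb, ← hz]; exact BlockThird.orderOf_conj z b
        have := pow_orderOf_eq_one j
        rwa [h2, pow_two] at this
      unfold Fl
      rw [if_pos hi, if_pos hj, hjj]
      by_cases hK : (x ^ l)⁻¹ * (i * j) ∈ K
      · rw [if_pos hK, if_pos ⟨hi, hj, hK⟩]; ring
      · rw [if_neg hK, if_neg (fun hh => hK hh.2.2)]; ring
    · have : ¬ (IsConj z i ∧ IsConj z j ∧ (x ^ l)⁻¹ * (i * j) ∈ K) := fun hh => hj hh.2.1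
      rw [if_neg this, if_neg hj]; ring
  · have : ¬ (IsConj z i ∧ IsConj z j ∧ (x ^ l)⁻¹ * (i * j) ∈ K) := fun hh => hi hh.1
    rw [if_neg this, if_neg hi]; ring

open scoped Classical in
/-- The counting formula. -/
theorem count_conj [Fintype G] (hM : IsPModular 2 M) (h : DH (S : Subgroup G) x y q n)
    (c : Comp S (x ^ (q : ℤ)) K) {l : ℕ} (hl0 : 0 < l) (hl : l < 2 * q) :
    (Nat.card (Subgroup.centralizer ({x ^ (q : ℤ)} : Set G)) : ℂ) ^ 2 *
      ((B (x ^ (q : ℤ)) x K (l : ℤ)).card : ℂ) =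
      (Nat.card G : ℂ) * (Nat.card K : ℂ) * ∑ χ ∈ PB M G,
        (χ : G → ℂ) (x ^ l) * ((χ : G → ℂ) (x ^ q)) ^ 2 / (χ : G → ℂ) 1 := by
  have hz : orderOf (x ^ (q : ℤ)) = 2 := orderOf_eq_prime (by rw [pow_two]; exact h.z_sq) h.z_ne
  have hl' : x ^ (l : ℤ) ≠ 1 := by
    rw [Ne, h.zpow_eq_one_iff]
    intro hd
    have : 2 * q ∣ l := by exact_mod_cast hd
    have := Nat.le_of_dvd hl0 this
    omega
  have h1 := sum_sum_conj (Fl x K (l : ℤ)) (x ^ (q : ℤ)) (x ^ (q : ℤ))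
  rw [lhs_conj hz (l : ℤ)] at h1
  rw [h1, sq, mul_assoc, mul_assoc]
  congr 1
  rw [Finset.mul_sum, Finset.mul_sum]
  have h2 : ∀ χ : IrrCharacter G, (Nat.card G : ℂ) * (classInner (Fl x K (l : ℤ)) (χ : G → ℂ) *
      (χ : G → ℂ) (x ^ (q : ℤ)) * conj ((χ : G → ℂ) (x ^ (q : ℤ))) / (χ : G → ℂ) 1) =
      if χ ∈ principalBlock M G then (Nat.card K : ℂ) * ((χ : G → ℂ) (x ^ l) *
        ((χ : G → ℂ) (x ^ q)) ^ 2 / (χ : G → ℂ) 1) else 0 := by
    intro χ
    have h3 := inner_Fl hM h c hl' χ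
    calc (Nat.card G : ℂ) * (classInner (Fl x K (l : ℤ)) (χ : G → ℂ) *
      (χ : G → ℂ) (x ^ (q : ℤ)) * conj ((χ : G → ℂ) (x ^ (q : ℤ))) / (χ : G → ℂ) 1) =
        ((Nat.card G : ℂ) * classInner (Fl x K (l : ℤ)) (χ : G → ℂ)) *
      (χ : G → ℂ) (x ^ (q : ℤ)) * conj ((χ : G → ℂ) (x ^ (q : ℤ))) / (χ : G → ℂ) 1 := by ring
      _ = _ := by
        rw [h3, zpow_natCast, zpow_natCast, conj_val h, conj_val h]
        split_ifs
        · ring
        · simp
  rw [Finset.sum_congr rfl (fun χ _ => h2 χ), ← Finset.sum_filter]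
  refine Finset.sum_congr ?_ fun χ _ => rfl
  ext χ
  simp [PB]

/-- The involutions of `x^i y K` are conjugate to `x^i y`. -/
theorem isConj_of_mem_I [Fintype G] (h : DH (S : Subgroup G) x y q n) (c : Comp S (x ^ (q : ℤ)) K)
    {i : ℤ} {s : G} (hs : s ∈ I x y K i) : IsConj (x ^ i * y) s := by
  rw [mem_I] at hs
  set t := x ^ i * y with ht
  have htt : t * t = 1 := h.sq i
  have hti : t⁻¹ = t := inv_eq_of_mul_eq_one_right htt
  set k := t⁻¹ * s with hk
  have hsk : s = t * k := by rw [hk]; group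
  have hss : s * s = 1 := by
    have := pow_orderOf_eq_one s
    rwa [hs.1, sq] at this
  -- `t k t = k⁻¹`
  have hkt : t * k * t = k⁻¹ := by
    rw [eq_inv_iff_mul_eq_one]
    calc t * k * t * k = (t * k) * (t * k) := by group
      _ = 1 := by rw [← hsk]; exact hss
  -- `k = j * j` with `j` a power of `k`
  have hodd : Odd (orderOf k) := by
    have h1 : orderOf k ∣ Nat.card K := Subgroup.orderOf_dvd_natCard K hs.2
    have h2 : Odd (Nat.card K) := oddK c
    exact h2.of_dvd_nat h1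
  obtain ⟨m, hm⟩ := hodd
  set j := k ^ (m + 1) with hj
  have hjj : j * j = k := by
    rw [hj, ← pow_add]
    have : m + 1 + (m + 1) = orderOf k + 1 := by omega
    rw [this, pow_succ, pow_orderOf_eq_one, one_mul]
  have hjt : t * j * t = j⁻¹ := by
    have h1 : t * j * t = (t * k * t⁻¹) ^ (m + 1) := by
      rw [conj_pow, hti]
    rw [h1, hti, hkt, hj, inv_pow]
  refine isConj_iff.mpr ⟨j⁻¹, ?_⟩
  rw [inv_inv, hsk, ← hjj]
  calc j⁻¹ * t * j = (t * j * t) * t * j := by rw [hjt]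
    _ = t * j * (t * t) * j := by group
    _ = t * (j * j) := by rw [htt]; group

end Cfsg.Agent.Lib.S4X
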