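import Mathlib
import Cfsg.Agent.Lib.S4XCount
import Cfsg.Agent.Lib.BlockDefZero

/-!
# Order formulas for groups with dihedral Sylow 2-subgroups of order 8 (helper20)
-/

set_option autoImplicit false

open Subgroup

namespace Cfsg.Agent.Lib.S4X

open Cfsg Cfsg.Agent.Lib.DihSylow Cfsg.Agent.Lib.H52Dih1 Cfsg.Agent.Lib.H52Dih2 Cfsg.Agent.Lib.H52Dih4
open Cfsg.Agent.Lib.H52Dih5 Cfsg.Agent.Lib.H52Dih6 Cfsg.Agent.Lib.H52Dih7 Cfsg.Agent.Lib.H52Dih8
open Cfsg.Agent.Lib.H52Dih9 Cfsg.Agent.Lib.BlockThird Cfsg.Agent.Lib.BlockRing Cfsg.Agent.Lib.CharBasic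
open Cfsg.Agent.Lib.StructConst
open scoped ComplexConjugate

universe u

variable {G : Type u} [Group G] {S : Sylow 2 G} {x y : G} {K : Subgroup G}
variable {M : Ideal AlgInt} {ζ : ℂ}

theorem sum_zpowers_four [Finite G] (hx : orderOf x = 4) [Fintype (zpowers x)] (f : G → ℂ) :
    ∑ g : zpowers x, f g = f 1 + f x + f (x ^ 2) + f (x ^ 3) := by
  have h1 : ∑ g : zpowers x, f g = ∑ i : Fin (orderOf x), f (x ^ (i : ℕ)) := by
    symm
    apply Fintype.sum_equiv (finEquivZPowers (isOfFinOrder_of_finite x))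
    intro i
    rfl
  rw [h1, Fin.sum_univ_eq_sum_range (fun i => f (x ^ i)), hx]
  simp [Finset.sum_range_succ]

theorem sum_PB [Finite G] {a b d : IrrCharacter G} {o : ℕ → IrrCharacter G} {δ β γ : ℤ}
    (L : Lab M x 2 ζ a b d o δ β γ) (F : IrrCharacter G → ℂ) :
    ∑ χ ∈ PB M G, F χ = F (triv G) + F a + F b + F d + F (o 1) := by
  classical
  have h1 : PB M G = {triv G, a, b, d, o 1} := by
    ext χ
    rw [mem_PB, L.mem]
    simp only [Finset.mem_insert, Finset.mem_singleton]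
    constructor
    · rintro (h | h | h | h | ⟨j, h1, h2, rfl⟩)
      · tauto
      · tauto
      · tauto
      · tauto
      · have : j = 1 := by omega
        subst this; tauto
    · rintro (h | h | h | h | rfl)
      · tauto
      · tauto
      · tauto
      · tauto
      · exact Or.inr (Or.inr (Or.inr (Or.inr ⟨1, le_rfl, by norm_num, rfl⟩)))
  have o1 := L.o1 1 le_rfl (by norm_num)
  have oa := L.oa 1 le_rfl (by norm_num)
  have ob := L.ob 1 le_rfl (by norm_num)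
  have oc := L.oc 1 le_rfl (by norm_num)
  rw [h1, Finset.sum_insert, Finset.sum_insert, Finset.sum_insert, Finset.sum_insert,
    Finset.sum_singleton]
  · ring
  · simp [Ne.symm oc]
  · simp [L.bc, Ne.symm ob]
  · simp [L.ab, L.ac, Ne.symm oa]
  · simp [Ne.symm L.a1, Ne.symm L.b1, Ne.symm L.c1, Ne.symm o1]

/-- A signed degree. -/
theorem signed_degree [Finite G] (χ : IrrCharacter G) {δ : ℤ} (hδ : δ = 1 ∨ δ = -1) :
    ∃ X : ℤ, X ≠ 0 ∧ ((χ : G → ℂ) 1 = δ * X) ∧ (X = -1 → (χ : G → ℂ) 1 = 1) ∧ (X = 1 → (χ : G → ℂ) 1 = 1) := by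
  obtain ⟨n, hn, hn1⟩ := χ.2.exists_degree
  refine ⟨δ * n, ?_, ?_, ?_, ?_⟩
  · rcases hδ with rfl | rfl <;> simp <;> omega
  · have : (δ : ℂ) * δ = 1 := by rcases hδ with rfl | rfl <;> norm_num
    push_cast
    rw [← mul_assoc, this, one_mul, hn1]
  · intro h
    rw [hn1]
    rcases hδ with rfl | rfl
    · omega
    · have : n = 1 := by omega
      simp [this]
  · intro h
    rw [hn1]
    rcases hδ with rfl | rfl
    · have : n = 1 := by omega
      simp [this]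
    · omega

/-- The generic formulas. -/
theorem generic [Fintype G] (hM : IsPModular 2 M) (h : DH (S : Subgroup G) x y 2 1)
    (c : Comp S (x ^ ((2 : ℕ) : ℤ)) K) {N1 N2 : ℕ}
    (h1 : (B (x ^ ((2 : ℕ) : ℤ)) x K (1 : ℤ)).card = N1)
    (h2 : (B (x ^ ((2 : ℕ) : ℤ)) x K (2 : ℤ)).card = N2) :
    ∃ X Y V : ℤ, 1 + X + Y + V = 0 ∧ X % 4 = 1 ∧ Y % 4 = 3 ∧ V % 4 = 3 ∧
      ((Y = -1 ∨ V = -1 ∨ X = 1) → ∃ χ : IrrCharacter G, (χ : G → ℂ) ≠ 1 ∧ (χ : G → ℂ) 1 = 1) ∧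
      64 * (Nat.card K : ℚ) * N1 = (Nat.card G : ℚ) * (1 + 1 / X + 1 / Y + 1 / V) ∧
      64 * (Nat.card K : ℚ) * N2 = (Nat.card G : ℚ) * (1 + 1 / X - 1 / Y - 1 / V - 8 / (1 + X)) := by
  classical
  have hx4 : orderOf x = 4 := h.hx
  have hζ : IsPrimitiveRoot Complex.I (2 * 2) := by
    have := Complex.isPrimitiveRoot_I
    simpa using this
  obtain ⟨a, b, d, o, δ, β, γ, L⟩ := exists_lab hM h c le_rfl hζ
  obtain ⟨X, hX0, hX, hX1, hX1'⟩ := signed_degree a L.dδ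
  obtain ⟨Y, hY0, hY, hY1, hY1'⟩ := signed_degree b L.dβ
  obtain ⟨V, hV0, hV, hV1, hV1'⟩ := signed_degree d L.dγ
  have hδ2 : (δ : ℂ) * δ = 1 := by rcases L.dδ with e | e <;> rw [e] <;> norm_num
  have hβ2 : (β : ℂ) * β = 1 := by rcases L.dβ with e | e <;> rw [e] <;> norm_num
  have hγ2 : (γ : ℂ) * γ = 1 := by rcases L.dγ with e | e <;> rw [e] <;> norm_num
  have hδ0 : (δ : ℂ) ≠ 0 := by rcases L.dδ with e | e <;> rw [e] <;> norm_num
  have hβ0 : (β : ℂ) ≠ 0 := by rcases L.dβ with e | e <;> rw [e] <;> norm_num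
  have hγ0 : (γ : ℂ) ≠ 0 := by rcases L.dγ with e | e <;> rw [e] <;> norm_num
  have hne2 : ¬ 2 ∣ orderOf (1 : G) := by rw [orderOf_one]; norm_num
  have hr1 := L.rel1 1 hne2
  have hr2 := L.rel2 1 le_rfl (by norm_num) 1 hne2
  rw [hX, hY, hV] at hr1
  rw [hX] at hr2
  have hsum : ((1 + X + Y + V : ℤ) : ℂ) = 0 := by
    push_cast
    linear_combination hr1 + (-(X : ℂ)) * hδ2 + (-(Y : ℂ)) * hβ2 + (-(V : ℂ)) * hγ2
  have ho : (o 1 : G → ℂ) 1 = δ * (1 + X) := by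
    linear_combination (-(δ : ℂ)) * hr2 + (δ * X - (o 1 : G → ℂ) 1) * hδ2
  have ho0 : (o 1 : G → ℂ) 1 ≠ 0 := IsIrrCharacter.one_ne_zero (o 1).2
  have hX1n : (1 : ℂ) + X ≠ 0 := by
    intro e; rw [ho, e, mul_zero] at ho0; exact ho0 rfl
  -- values
  have hval : ∀ (χ : IrrCharacter G) (e : ℤ), (∀ l, 0 < l → l < 2 * 2 → (χ : G → ℂ) (x ^ l) = e * 1) → True :=
    fun _ _ _ => trivial
  have a1 : (a : G → ℂ) (x ^ 1) = δ := L.va 1 (by norm_num) (by norm_num)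
  have a2 : (a : G → ℂ) (x ^ 2) = δ := L.va 2 (by norm_num) (by norm_num)
  have a3 : (a : G → ℂ) (x ^ 3) = δ := L.va 3 (by norm_num) (by norm_num)
  have b1 : (b : G → ℂ) (x ^ 1) = β := by rw [L.vb 1 (by norm_num) (by norm_num)]; norm_num
  have b2 : (b : G → ℂ) (x ^ 2) = -β := by rw [L.vb 2 (by norm_num) (by norm_num)]; norm_num
  have b3 : (b : G → ℂ) (x ^ 3) = β := by rw [L.vb 3 (by norm_num) (by norm_num)]; norm_num
  have c1 : (d : G → ℂ) (x ^ 1) = γ := by rw [L.vc 1 (by norm_num) (by norm_num)]; norm_num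
  have c2 : (d : G → ℂ) (x ^ 2) = -γ := by rw [L.vc 2 (by norm_num) (by norm_num)]; norm_num
  have c3 : (d : G → ℂ) (x ^ 3) = γ := by rw [L.vc 3 (by norm_num) (by norm_num)]; norm_num
  have o1 : (o 1 : G → ℂ) (x ^ 1) = 0 := by
    rw [L.vo 1 le_rfl (by norm_num) 1 (by norm_num) (by norm_num)]
    simp
  have o2 : (o 1 : G → ℂ) (x ^ 2) = -2 * δ := by
    rw [L.vo 1 le_rfl (by norm_num) 2 (by norm_num) (by norm_num)]
    simp [Complex.I_sq]
    ring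
  -- congruences
  have hmod : ∀ (χ : IrrCharacter G) (e X : ℤ) (t : ℤ), (e = 1 ∨ e = -1) → (χ : G → ℂ) 1 = e * X →
      (χ : G → ℂ) (x ^ 1) + (χ : G → ℂ) (x ^ 2) + (χ : G → ℂ) (x ^ 3) = e * t → (4 : ℤ) ∣ X + t := by
    intro χ e X t he h1 h2
    haveI : Fintype (zpowers x) := Fintype.ofFinite _
    obtain ⟨m, hm⟩ := BlockDefZero.sum_over_subgroup (zpowers x) χ.2.isCharacter
    rw [sum_zpowers_four hx4, Nat.card_zpowers, hx4] at hm
    have h3 : (e : ℂ) * (X + t) = 4 * m := by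
      push_cast at hm
      rw [← hm, mul_add, ← h1, ← h2, pow_one]; ring
    have h4 : e * (X + t) = 4 * m := by exact_mod_cast h3
    rcases he with rfl | rfl
    · exact ⟨m, by linarith⟩
    · exact ⟨-m, by linarith⟩
  have hXm := hmod a δ X 3 L.dδ hX (by rw [a1, a2, a3]; push_cast; ring)
  have hYm := hmod b β Y 1 L.dβ hY (by rw [b1, b2, b3]; push_cast; ring)
  have hVm := hmod d γ V 1 L.dγ hV (by rw [c1, c2, c3]; push_cast; ring)
  -- the two sums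
  have hXc : (X : ℂ) ≠ 0 := by exact_mod_cast hX0
  have hYc : (Y : ℂ) ≠ 0 := by exact_mod_cast hY0
  have hVc : (V : ℂ) ≠ 0 := by exact_mod_cast hV0
  have hKc : (Nat.card K : ℂ) ≠ 0 := by exact_mod_cast Nat.card_pos.ne'
  have hδi : (δ : ℂ)⁻¹ = δ := by rcases L.dδ with e | e <;> rw [e] <;> norm_num
  have hβi : (β : ℂ)⁻¹ = β := by rcases L.dβ with e | e <;> rw [e] <;> norm_num
  have hγi : (γ : ℂ)⁻¹ = γ := by rcases L.dγ with e | e <;> rw [e] <;> norm_num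
  have hC : (Nat.card (Subgroup.centralizer ({x ^ ((2 : ℕ) : ℤ)} : Set G)) : ℂ) = 8 * Nat.card K := by
    rw [H52Dih10.card_H h c]; push_cast; ring
  have e1 := count_conj (l := 1) hM h c (by norm_num) (by norm_num)
  have e2 := count_conj (l := 2) hM h c (by norm_num) (by norm_num)
  rw [sum_PB L, hC] at e1 e2
  have e1' : (64 : ℂ) * Nat.card K * N1 = Nat.card G * (1 + 1 / X + 1 / Y + 1 / V) := by
    have hh : ((B (x ^ ((2 : ℕ) : ℤ)) x K ((1 : ℕ) : ℤ)).card : ℂ) = N1 := by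
      rw [← h1]; norm_num
    rw [hh] at e1
    have e3 : (triv G : G → ℂ) (x ^ 1) * (triv G : G → ℂ) (x ^ 2) ^ 2 / (triv G : G → ℂ) 1 +
        (a : G → ℂ) (x ^ 1) * (a : G → ℂ) (x ^ 2) ^ 2 / (a : G → ℂ) 1 +
        (b : G → ℂ) (x ^ 1) * (b : G → ℂ) (x ^ 2) ^ 2 / (b : G → ℂ) 1 +
        (d : G → ℂ) (x ^ 1) * (d : G → ℂ) (x ^ 2) ^ 2 / (d : G → ℂ) 1 +
        (o 1 : G → ℂ) (x ^ 1) * (o 1 : G → ℂ) (x ^ 2) ^ 2 / (o 1 : G → ℂ) 1 =
        1 + 1 / X + 1 / Y + 1 / V := by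
      rw [a1, a2, b1, b2, c1, c2, o1, o2, hX, hY, hV, coe_triv]
      simp only [Pi.one_apply]
      rw [zero_mul, zero_div, add_zero]
      have s1 : (δ : ℂ) * δ ^ 2 / (δ * X) = 1 / X := by
        rw [pow_two, hδ2, mul_one, ← div_div, div_self hδ0]
      have s2 : (β : ℂ) * (-β) ^ 2 / (β * Y) = 1 / Y := by
        rw [neg_sq, pow_two, hβ2, mul_one, ← div_div, div_self hβ0]
      have s3 : (γ : ℂ) * (-γ) ^ 2 / (γ * V) = 1 / V := by
        rw [neg_sq, pow_two, hγ2, mul_one, ← div_div, div_self hγ0]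
      rw [s1, s2, s3]; norm_num
    rw [e3] at e1
    apply mul_left_cancel₀ hKc
    linear_combination e1
  have e2' : (64 : ℂ) * Nat.card K * N2 = Nat.card G * (1 + 1 / X - 1 / Y - 1 / V - 8 / (1 + X)) := by
    have hh : ((B (x ^ ((2 : ℕ) : ℤ)) x K ((2 : ℕ) : ℤ)).card : ℂ) = N2 := by
      rw [← h2]; norm_num
    rw [hh] at e2
    have e3 : (triv G : G → ℂ) (x ^ 2) * (triv G : G → ℂ) (x ^ 2) ^ 2 / (triv G : G → ℂ) 1 +
        (a : G → ℂ) (x ^ 2) * (a : G → ℂ) (x ^ 2) ^ 2 / (a : G → ℂ) 1 +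
        (b : G → ℂ) (x ^ 2) * (b : G → ℂ) (x ^ 2) ^ 2 / (b : G → ℂ) 1 +
        (d : G → ℂ) (x ^ 2) * (d : G → ℂ) (x ^ 2) ^ 2 / (d : G → ℂ) 1 +
        (o 1 : G → ℂ) (x ^ 2) * (o 1 : G → ℂ) (x ^ 2) ^ 2 / (o 1 : G → ℂ) 1 =
        1 + 1 / X - 1 / Y - 1 / V - 8 / (1 + X) := by
      rw [a2, b2, c2, o2, hX, hY, hV, ho, coe_triv]
      simp only [Pi.one_apply]
      have s1 : (δ : ℂ) * δ ^ 2 / (δ * X) = 1 / X := by
        rw [pow_two, hδ2, mul_one, ← div_div, div_self hδ0]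
      have s2 : (-β : ℂ) * (-β) ^ 2 / (β * Y) = -(1 / Y) := by
        rw [neg_sq, pow_two, hβ2, mul_one, ← div_div, neg_div, div_self hβ0, neg_div]
      have s3 : (-γ : ℂ) * (-γ) ^ 2 / (γ * V) = -(1 / V) := by
        rw [neg_sq, pow_two, hγ2, mul_one, ← div_div, neg_div, div_self hγ0, neg_div]
      have s4 : (-2 * δ : ℂ) * (-2 * δ) ^ 2 / (δ * (1 + X)) = -(8 / (1 + X)) := by
        have : (-2 * δ : ℂ) * (-2 * δ) ^ 2 = -(8 * (δ * (δ * δ))) := by ring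
        rw [this, hδ2, mul_one, ← div_div, neg_div, mul_div_assoc, div_self hδ0, mul_one, neg_div]
      rw [s1, s2, s3, s4]; norm_num; ring
    rw [e3] at e2
    apply mul_left_cancel₀ hKc
    linear_combination e2
  refine ⟨X, Y, V, by exact_mod_cast hsum, by omega, by omega, by omega, ?_, ?_, ?_⟩
  · rintro (h | h | h)
    · refine ⟨b, ?_, hY1 h⟩
      intro hb; apply L.b1; apply Subtype.ext; rw [hb]; rfl
    · refine ⟨d, ?_, hV1 h⟩
      intro hb; apply L.c1; apply Subtype.ext; rw [hb]; rfl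
    · refine ⟨a, ?_, hX1' h⟩
      intro hb; apply L.a1; apply Subtype.ext; rw [hb]; rfl
  · have := e1'
    exact_mod_cast this
  · have := e2'
    exact_mod_cast this

end Cfsg.Agent.Lib.S4X
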