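import Mathlib
import Cfsg.Agent.Lib.S4XForm
import Cfsg.Agent.Lib.H76Char

/-!
# Order formulas for groups with dihedral Sylow 2-subgroups of order 8, II (helper20)
-/

set_option autoImplicit false

open Subgroup

namespace Cfsg.Agent.Lib.S4X

open Cfsg Cfsg.Agent.Lib.DihSylow Cfsg.Agent.Lib.H52Dih1 Cfsg.Agent.Lib.H52Dih2 Cfsg.Agent.Lib.H52Dih4
open Cfsg.Agent.Lib.H52Dih5 Cfsg.Agent.Lib.H52Dih6 Cfsg.Agent.Lib.H52Dih7 Cfsg.Agent.Lib.H52Dih8
open Cfsg.Agent.Lib.H52Dih9 Cfsg.Agent.Lib.BlockThird Cfsg.Agent.Lib.BlockRing Cfsg.Agent.Lib.CharBasic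
open Cfsg.Agent.Lib.StructConst
open scoped ComplexConjugate

universe u

variable {G : Type u} [Group G] {S : Sylow 2 G} {x y : G} {K : Subgroup G}
variable {M : Ideal AlgInt} {ζ : ℂ}

theorem exists_pmod : ∃ M : Ideal AlgInt, IsPModular 2 M := Cfsg.Agent.Lib.H76Char.exists_isPModular 2

theorem B_eq_A [Fintype G] {z : G} (hz : orderOf z = 2)
    (hone : ∀ s : G, orderOf s = 2 → IsConj z s) (l : ℤ) : B z x K l = A x K l := by
  classical
  have key : ∀ s : G, IsConj z s ↔ orderOf s = 2 := by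
    intro s
    constructor
    · intro h
      obtain ⟨b, hb⟩ := isConj_iff.1 h
      rw [← hb, ← hz]; exact BlockThird.orderOf_conj z b
    · exact hone s
  ext p
  rw [mem_B, mem_A, key, key]

theorem ord_z (h : DH (S : Subgroup G) x y 2 1) : orderOf (x ^ ((2 : ℕ) : ℤ)) = 2 :=
  orderOf_eq_prime (by rw [pow_two]; exact h.z_sq) h.z_ne

theorem card_B_one [Fintype G] (h : DH (S : Subgroup G) x y 2 1) (c : Comp S (x ^ ((2 : ℕ) : ℤ)) K)
    (hone : ∀ s : G, orderOf s = 2 → IsConj (x ^ ((2 : ℕ) : ℤ)) s) :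
    (B (x ^ ((2 : ℕ) : ℤ)) x K (1 : ℤ)).card = 4 * ((I x y K 0).card * (I x y K 1).card) ∧
    (B (x ^ ((2 : ℕ) : ℤ)) x K (2 : ℤ)).card =
      2 * ((I x y K 0).card ^ 2 + (I x y K 1).card ^ 2) := by
  have hI : ∀ i : ℤ, (Even i → (I x y K i).card = (I x y K 0).card) ∧
    (Odd i → (I x y K i).card = (I x y K 1).card) := card_I_parity h c
  have i2 : (I x y K 2).card = (I x y K 0).card := (hI 2).1 (by decide)
  have i3 : (I x y K 3).card = (I x y K 1).card := (hI 3).2 (by decide)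
  have i4 : (I x y K 4).card = (I x y K 0).card := (hI 4).1 (by decide)
  have i5 : (I x y K 5).card = (I x y K 1).card := (hI 5).2 (by decide)
  have hl : ∀ l : ℤ, ¬ ((2 * (2 : ℕ) : ℤ) ∣ l) → x ^ l ≠ 1 := by
    intro l hl h1
    rw [h.zpow_eq_one_iff] at h1
    exact hl h1
  constructor
  · rw [B_eq_A (ord_z h) hone, card_A h c (hl 1 (by norm_num))]
    simp only [Finset.sum_range_succ, Finset.sum_range_zero, Nat.cast_zero, Nat.cast_one, Nat.cast_ofNat]
    norm_num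
    rw [i2, i3, i4]
    ring
  · rw [B_eq_A (ord_z h) hone, card_A h c (hl 2 (by norm_num))]
    simp only [Finset.sum_range_succ, Finset.sum_range_zero, Nat.cast_zero, Nat.cast_one, Nat.cast_ofNat]
    norm_num
    rw [i2, i3, i4, i5]
    ring

theorem card_B_two [Fintype G] (h : DH (S : Subgroup G) x y 2 1) (c : Comp S (x ^ ((2 : ℕ) : ℤ)) K)
    (h0 : ¬ IsConj (x ^ ((2 : ℕ) : ℤ)) y) (h1 : IsConj (x ^ ((2 : ℕ) : ℤ)) (x * y)) :
    (B (x ^ ((2 : ℕ) : ℤ)) x K (1 : ℤ)).card = 0 ∧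
    (B (x ^ ((2 : ℕ) : ℤ)) x K (2 : ℤ)).card = 2 * (I x y K 1).card ^ 2 := by
  classical
  set z := x ^ ((2 : ℕ) : ℤ) with hz
  have hzo : orderOf z = 2 := ord_z h
  have hev : ∀ i : ℤ, Even i → IsConj y (x ^ i * y) := by
    rintro i ⟨j, rfl⟩
    refine isConj_iff.mpr ⟨x ^ j, ?_⟩
    have := h.conj_xy j 0
    rw [zpow_zero, one_mul] at this
    rw [this]; congr 2; omega
  have hod : ∀ i : ℤ, Odd i → IsConj (x * y) (x ^ i * y) := by
    rintro i ⟨j, rfl⟩
    refine isConj_iff.mpr ⟨x ^ j, ?_⟩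
    have := h.conj_xy j 1
    rw [zpow_one] at this
    rw [this]; congr 2; omega
  have key : ∀ (i : ℤ) (s : G), s ∈ I x y K i → (IsConj z s ↔ Odd i) := by
    intro i s hs
    have h3 := isConj_of_mem_I h c hs
    constructor
    · intro h4
      by_contra h5
      rw [Int.not_odd_iff_even] at h5
      exact h0 (h4.trans (h3.symm.trans (hev i h5).symm))
    · intro h4
      exact h1.trans ((hod i h4).trans h3)
  have hsub : ∀ l : ℤ, ∀ p, p ∈ B z x K l → p ∈ A x K l := by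
    intro l p hp
    rw [mem_B] at hp
    rw [mem_A]
    have key : ∀ s : G, IsConj z s → orderOf s = 2 := by
      intro s h
      obtain ⟨b, hb⟩ := isConj_iff.1 h
      rw [← hb, ← hzo]; exact BlockThird.orderOf_conj z b
    exact ⟨key _ hp.1, key _ hp.2.1, hp.2.2⟩
  have hl : ∀ l : ℤ, ¬ ((2 * (2 : ℕ) : ℤ) ∣ l) → x ^ l ≠ 1 := by
    intro l hl h1
    rw [h.zpow_eq_one_iff] at h1
    exact hl h1
  have hfor : ∀ l : ℤ, ¬ ((2 * (2 : ℕ) : ℤ) ∣ l) → ∀ p, p ∈ B z x K l →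
      ∃ i : ℤ, p.2 ∈ I x y K i ∧ p.1 ∈ I x y K (i + l) := by
    intro l hl' p hp
    have h3 := mem_A.1 (hsub l p hp)
    obtain ⟨i, h4, h5⟩ := pair_forw h c h3.1 h3.2.1 (hl l hl') h3.2.2
    exact ⟨i, mem_I.2 ⟨h3.2.1, h4⟩, mem_I.2 ⟨h3.1, h5⟩⟩
  constructor
  · rw [Finset.card_eq_zero, Finset.eq_empty_iff_forall_notMem]
    intro p hp
    obtain ⟨i, h3, h4⟩ := hfor 1 (by norm_num) p hp
    have h5 := (key i _ h3).1 (mem_B.1 hp).2.1
    have h6 := (key _ _ h4).1 (mem_B.1 hp).1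
    rw [Int.odd_iff] at h5 h6
    omega
  · have i3 : (I x y K 3).card = (I x y K 1).card := (card_I_parity h c 3).2 (by decide)
    have e : B z x K 2 = (I x y K 3 ×ˢ I x y K 1) ∪ (I x y K 1 ×ˢ I x y K 3) := by
      ext p
      rw [Finset.mem_union, Finset.mem_product, Finset.mem_product]
      constructor
      · intro hp
        obtain ⟨i, h3, h4⟩ := hfor 2 (by norm_num) p hp
        have h5 := (key i _ h3).1 (mem_B.1 hp).2.1
        have h6 : i % 4 = 1 ∨ i % 4 = 3 := by rw [Int.odd_iff] at h5; omega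
        rcases h6 with h6 | h6
        · left
          refine ⟨?_, ?_⟩
          · rwa [I_congr h (i := 3) (j := i + 2) (by push_cast; omega)]
          · rwa [I_congr h (i := 1) (j := i) (by push_cast; omega)]
        · right
          refine ⟨?_, ?_⟩
          · rwa [I_congr h (i := 1) (j := i + 2) (by push_cast; omega)]
          · rwa [I_congr h (i := 3) (j := i) (by push_cast; omega)]
      · rintro (⟨h3, h4⟩ | ⟨h3, h4⟩)
        · rw [mem_B]
          refine ⟨(key _ _ h3).2 (by decide), (key _ _ h4).2 (by decide), ?_⟩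
          refine pair_back h c (mem_I.1 h4).2 ?_
          have h5 : p.1 ∈ I x y K (1 + 2) := h3
          exact (mem_I.1 h5).2
        · rw [mem_B]
          refine ⟨(key _ _ h3).2 (by decide), (key _ _ h4).2 (by decide), ?_⟩
          refine pair_back h c (mem_I.1 h4).2 ?_
          have h5 : p.1 ∈ I x y K (3 + 2) := by
            rwa [I_congr h (i := 3 + 2) (j := 1) (by norm_num)]
          exact (mem_I.1 h5).2
    rw [e, Finset.card_union_of_disjoint, Finset.card_product, Finset.card_product, i3]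
    · ring
    · rw [Finset.disjoint_left]
      intro p h3 h4
      rw [Finset.mem_product] at h3 h4
      have := I_disj h c h3.1 h4.1
      norm_num at this

/-- Order formulas, all involutions conjugate. -/
theorem formG [Finite G] (h : DH (S : Subgroup G) x y 2 1) (c : Comp S (x ^ ((2 : ℕ) : ℤ)) K)
    (hone : ∀ s : G, orderOf s = 2 → IsConj (x ^ ((2 : ℕ) : ℤ)) s) {k0 k1 n0 n1 : ℕ}
    (hk0 : Nat.card ↥(K ⊓ centralizer {y}) = k0) (hk1 : Nat.card ↥(K ⊓ centralizer {x * y}) = k1)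
    (h0 : Nat.card K = k0 * n0) (h1 : Nat.card K = k1 * n1) :
    ∃ X Y V : ℤ, 1 + X + Y + V = 0 ∧ X % 4 = 1 ∧ Y % 4 = 3 ∧ V % 4 = 3 ∧ X ≠ 1 ∧
      ((Y = -1 ∨ V = -1) → ∃ χ : IrrCharacter G, (χ : G → ℂ) ≠ 1 ∧ (χ : G → ℂ) 1 = 1) ∧
      256 * (Nat.card K : ℚ) * n0 * n1 = (Nat.card G : ℚ) * (1 + 1 / X + 1 / Y + 1 / V) ∧
      (Nat.card G : ℤ) * (X - 1) ^ 2 = 64 * Nat.card K * (n0 + n1) ^ 2 * (X * (X + 1)) := by
  classical
  haveI := Fintype.ofFinite G
  obtain ⟨M, hM⟩ := exists_pmod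
  have hK0 : Nat.card K ≠ 0 := Nat.card_pos.ne'
  have c0 : (I x y K 0).card = n0 := by
    have e := card_I h c 0
    rw [zpow_zero, one_mul, hk0, h0] at e
    have : k0 ≠ 0 := by rintro rfl; rw [zero_mul] at h0; exact hK0 h0
    exact (Nat.eq_of_mul_eq_mul_left (by omega) e).symm
  have c1 : (I x y K 1).card = n1 := by
    have e := card_I h c 1
    rw [zpow_one, hk1, h1] at e
    have : k1 ≠ 0 := by rintro rfl; rw [zero_mul] at h1; exact hK0 h1
    exact (Nat.eq_of_mul_eq_mul_left (by omega) e).symm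
  obtain ⟨b1, b2⟩ := card_B_one h c hone
  rw [c0, c1] at b1 b2
  obtain ⟨X, Y, V, hs, hX, hY, hV, hlin, e1, e2⟩ := generic hM h c b1 b2
  have hX0 : (X : ℚ) ≠ 0 := by
    have : X ≠ 0 := by omega
    exact_mod_cast this
  have hX1 : (1 : ℚ) + X ≠ 0 := by
    have : 1 + X ≠ 0 := by omega
    exact_mod_cast this
  have e3 : (Nat.card G : ℚ) * ((X - 1) ^ 2) = 64 * Nat.card K * ((n0 + n1) ^ 2) * (X * (X + 1)) := by
    have h3 : 64 * (Nat.card K : ℚ) * (2 * (n0 + n1) ^ 2) =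
        (Nat.card G : ℚ) * (2 + 2 / X - 8 / (1 + X)) := by
      push_cast at e1 e2
      linear_combination e1 + e2
    have h4 : (2 : ℚ) + 2 / X - 8 / (1 + X) = 2 * (X - 1) ^ 2 / (X * (1 + X)) := by
      field_simp; ring
    rw [h4] at h3
    field_simp at h3
    linear_combination (-1 : ℚ) * h3
  have e4 : (Nat.card G : ℤ) * (X - 1) ^ 2 = 64 * Nat.card K * (n0 + n1) ^ 2 * (X * (X + 1)) := by
    exact_mod_cast e3
  refine ⟨X, Y, V, hs, hX, hY, hV, ?_, fun hh => hlin (by tauto), ?_, e4⟩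
  · rintro rfl
    have hn : n0 + n1 ≠ 0 := by
      rintro hh
      have : n0 = 0 := by omega
      rw [this, mul_zero] at h0
      exact hK0 h0
    have h5 : (0 : ℤ) < 64 * Nat.card K * (n0 + n1) ^ 2 * (1 * (1 + 1)) := by
      have : (0 : ℤ) < Nat.card K := by exact_mod_cast Nat.pos_of_ne_zero hK0
      have : (0 : ℤ) < n0 + n1 := by exact_mod_cast Nat.pos_of_ne_zero hn
      positivity
    rw [← e4] at h5
    norm_num at h5
  · push_cast at e1
    linear_combination e1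

/-- Order formula, the central involution fused with `x y` but not with `y`. -/
theorem formL [Finite G] (h : DH (S : Subgroup G) x y 2 1) (c : Comp S (x ^ ((2 : ℕ) : ℤ)) K)
    (h0 : ¬ IsConj (x ^ ((2 : ℕ) : ℤ)) y) (h1 : IsConj (x ^ ((2 : ℕ) : ℤ)) (x * y)) {k1 n1 : ℕ}
    (hk1 : Nat.card ↥(K ⊓ centralizer {x * y}) = k1) (hn1 : Nat.card K = k1 * n1) :
    ∃ X : ℤ, X % 4 = 1 ∧ X ≠ 1 ∧
      (Nat.card G : ℤ) * (X - 1) ^ 2 = 64 * Nat.card K * n1 ^ 2 * (X * (X + 1)) := by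
  classical
  haveI := Fintype.ofFinite G
  obtain ⟨M, hM⟩ := exists_pmod
  have hK0 : Nat.card K ≠ 0 := Nat.card_pos.ne'
  have c1 : (I x y K 1).card = n1 := by
    have e := card_I h c 1
    rw [zpow_one, hk1, hn1] at e
    have : k1 ≠ 0 := by rintro rfl; rw [zero_mul] at hn1; exact hK0 hn1
    exact (Nat.eq_of_mul_eq_mul_left (by omega) e).symm
  obtain ⟨b1, b2⟩ := card_B_two h c h0 h1
  rw [c1] at b2
  obtain ⟨X, Y, V, hs, hX, hY, hV, hlin, e1, e2⟩ := generic hM h c b1 b2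
  have hX0 : (X : ℚ) ≠ 0 := by
    have : X ≠ 0 := by omega
    exact_mod_cast this
  have hX1 : (1 : ℚ) + X ≠ 0 := by
    have : 1 + X ≠ 0 := by omega
    exact_mod_cast this
  have e3 : (Nat.card G : ℚ) * ((X - 1) ^ 2) = 64 * Nat.card K * (n1 ^ 2) * (X * (X + 1)) := by
    have h3 : 64 * (Nat.card K : ℚ) * (2 * n1 ^ 2) =
        (Nat.card G : ℚ) * (2 + 2 / X - 8 / (1 + X)) := by
      push_cast at e1 e2
      linear_combination e1 + e2
    have h4 : (2 : ℚ) + 2 / X - 8 / (1 + X) = 2 * (X - 1) ^ 2 / (X * (1 + X)) := by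
      field_simp; ring
    rw [h4] at h3
    field_simp at h3
    linear_combination (-1 : ℚ) * h3
  have e4 : (Nat.card G : ℤ) * (X - 1) ^ 2 = 64 * Nat.card K * n1 ^ 2 * (X * (X + 1)) := by
    exact_mod_cast e3
  refine ⟨X, hX, ?_, e4⟩
  rintro rfl
  have hn : n1 ≠ 0 := by
    rintro rfl
    rw [mul_zero] at hn1
    exact hK0 hn1
  have h5 : (0 : ℤ) < 64 * Nat.card K * n1 ^ 2 * (1 * (1 + 1)) := by
    have : (0 : ℤ) < Nat.card K := by exact_mod_cast Nat.pos_of_ne_zero hK0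
    have : (0 : ℤ) < n1 := by exact_mod_cast Nat.pos_of_ne_zero hn
    positivity
  rw [← e4] at h5
  norm_num at h5

end Cfsg.Agent.Lib.S4X
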