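import Mathlib
import Cfsg.Agent.Lib.SmallSimple2
import Cfsg.Agent.Lib.SylowTools

/-!
# There is no simple group of order 29160 with a subgroup of index 15 (helper20)
-/

set_option autoImplicit false

open Subgroup MulAction Equiv.Perm

namespace Cfsg.Agent.Lib.S4X

open Cfsg

universe u

variable {G : Type u} [Group G] [Finite G]

theorem no_29160 [IsSimpleGroup G] (hG : ¬ IsMulCommutative G) (hcard : Nat.card G = 29160)
    (L : Subgroup G) (hL : L.index = 15) : False := by
  classical
  haveI : Fact (Nat.Prime 3) := ⟨Nat.prime_three⟩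
  set Ω := G ⧸ L with hΩ
  haveI : Fintype Ω := Fintype.ofFinite Ω
  have hcΩ : Nat.card Ω = 15 := hL
  haveI : Nontrivial Ω := by
    rw [← Finite.one_lt_card_iff_nontrivial, hcΩ]; norm_num
  have hco : IsCoatom L := by
    refine ⟨?_, ?_⟩
    · rintro rfl
      rw [Subgroup.index_top] at hL
      norm_num at hL
    · intro M hM
      by_contra hne
      have h1 := Subgroup.relIndex_mul_index hM.le
      rw [hL] at h1
      have h2 := SmallSimple.two_mul_card_dvd_factorial_index hG M hne
      rw [hcard] at h2
      have h3 : M.index ∣ 15 := ⟨_, by rw [mul_comm]; exact h1.symm⟩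
      have h4 : M.index ≤ 15 := Nat.le_of_dvd (by norm_num) h3
      have h5 : M.index ≠ 15 := by
        intro h5
        rw [h5] at h1
        have h6 : L.relIndex M = 1 := by omega
        rw [Subgroup.relIndex_eq_one] at h6
        exact absurd h6 (not_le_of_gt hM)
      have h6 : M.index = 1 ∨ M.index = 3 ∨ M.index = 5 := by
        generalize M.index = i at *
        interval_cases i <;> simp_all <;> omega
      rcases h6 with h6 | h6 | h6
      · exact hne (Subgroup.index_eq_one.1 h6)
      · rw [h6] at h2; revert h2; decide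
      · rw [h6] at h2; revert h2; decide
  haveI hprim : IsPreprimitive G Ω := by
    have h1 : stabilizer G ((1 : G) : G ⧸ L) = L := MulAction.stabilizer_quotient L
    refine (isCoatom_stabilizer_iff_preprimitive G ((1 : G) : G ⧸ L)).1 ?_
    rw [h1]
    exact hco
  set φ := MulAction.toPermHom G Ω with hφ
  have hinj : Function.Injective φ := by
    rw [← MonoidHom.ker_eq_bot_iff]
    rcases (inferInstance : φ.ker.Normal).eq_bot_or_eq_top with h | h
    · exact h
    · exfalso
      have h1 : φ.ker ≤ L := by
        intro g hg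
        have h2 : φ g ((1 : G) : Ω) = ((1 : G) : Ω) := by
          rw [(MonoidHom.mem_ker).1 hg]; rfl
        have h3 : ((g * 1 : G) : Ω) = ((1 : G) : Ω) := h2
        rw [mul_one, eq_comm, QuotientGroup.eq] at h3
        simpa using h3
      rw [h, top_le_iff] at h1
      rw [h1, Subgroup.index_top] at hL
      norm_num at hL
  set R : Subgroup (Equiv.Perm Ω) := φ.range with hR
  have hRcard : Nat.card R = 29160 := by
    rw [← hcard]
    exact (Nat.card_congr (MonoidHom.ofInjective hinj).toEquiv).symm
  have hRprim : IsPreprimitive R Ω := by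
    let f : Ω →ₑ[φ.rangeRestrict] Ω := ⟨id, fun g x => rfl⟩
    exact IsPreprimitive.of_surjective (f := f) Function.surjective_id
  -- a 3-cycle in `R`
  have hcS : Nat.card (Equiv.Perm Ω) = Nat.factorial 15 := by
    rw [Nat.card_perm, hcΩ]
  obtain ⟨Q⟩ : Nonempty (Sylow 3 R) := inferInstance
  set Q' : Subgroup (Equiv.Perm Ω) := (Q : Subgroup R).map R.subtype with hQ'
  have hQcard : Nat.card Q' = 3 ^ 6 := by
    rw [hQ', Subgroup.card_map_of_injective R.subtype_injective, Q.card_eq_multiplicity, hRcard]
    congr 1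
    rw [show (29160 : ℕ) = 3 ^ 6 * 40 by norm_num, Nat.factorization_mul (by norm_num) (by norm_num),
      Nat.Prime.factorization_pow Nat.prime_three]
    simp [Nat.factorization_eq_zero_of_not_dvd (show ¬ 3 ∣ 40 by norm_num)]
  have hQp : IsPGroup 3 Q' := IsPGroup.of_card hQcard
  have hidx : ¬ 3 ∣ Q'.relIndex ⊤ := by
    rw [Subgroup.relIndex_top_right]
    have h1 := Q'.card_mul_index
    rw [hQcard, hcS] at h1
    have h2 : Q'.index = 1793792000 := by
      have h3 : Nat.factorial 15 = 3 ^ 6 * 1793792000 := by decide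
      rw [h3] at h1
      exact Nat.eq_of_mul_eq_mul_left (by norm_num) h1
    rw [h2]
    norm_num
  obtain ⟨a, b, c, hab, hac, hbc⟩ : ∃ a b c : Ω, a ≠ b ∧ a ≠ c ∧ b ≠ c := by
    have h1 : 2 < Fintype.card Ω := by rw [← Nat.card_eq_fintype_card, hcΩ]; norm_num
    obtain ⟨a, b, c, h⟩ := Fintype.two_lt_card_iff.1 h1
    exact ⟨a, b, c, h⟩
  have h3c : (Equiv.swap a b * Equiv.swap a c).IsThreeCycle := isThreeCycle_swap_mul_swap_same hab hac hbc
  obtain ⟨k, -, hk⟩ := SylowTools.conj_elem_into_of_subgroup (K := ⊤) (P := Q') (p := 3) le_top hQp hidx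
    (y := Equiv.swap a b * Equiv.swap a c) (Subgroup.mem_top _) ⟨1, by rw [h3c.orderOf]; rfl⟩
  have hkR : k * (Equiv.swap a b * Equiv.swap a c) * k⁻¹ ∈ R := by
    exact (Subgroup.map_subtype_le _) hk
  have hk3 : (k * (Equiv.swap a b * Equiv.swap a c) * k⁻¹).IsThreeCycle := by
    rw [IsThreeCycle, cycleType_conj]; exact h3c
  have hle := alternatingGroup_le_of_isPreprimitive_of_isThreeCycle_mem hRprim hk3 hkR
  have h1 := Subgroup.card_le_of_le hle
  have h2 : 2 * Nat.card (alternatingGroup Ω) = Nat.factorial 15 := by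
    rw [← hcS, Nat.card_eq_fintype_card, Nat.card_eq_fintype_card]
    exact two_mul_card_alternatingGroup
  rw [hRcard] at h1
  have h3 : Nat.factorial 15 = 1307674368000 := by decide
  omega

end Cfsg.Agent.Lib.S4X
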