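import Mathlib

/-!
# The sign of a permutation with fourth power one (helper20)
-/

set_option autoImplicit false

open Equiv Equiv.Perm

namespace Cfsg.Agent.Lib.S4X

theorem sign_four_aux {Ω : Type*} [Fintype Ω] [DecidableEq Ω] (σ : Perm Ω) :
    σ ^ 4 = 1 → ∃ m : ℕ, 2 * σ.support.card = (σ ^ 2).support.card + 4 * m ∧ sign σ = (-1) ^ m := by
  refine cycle_induction_on (fun σ => σ ^ 4 = 1 → ∃ m : ℕ,
    2 * σ.support.card = (σ ^ 2).support.card + 4 * m ∧ sign σ = (-1) ^ m) σ ?_ ?_ ?_
  · intro _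
    exact ⟨0, by simp, by simp⟩
  · intro σ hσ h4
    have ho : orderOf σ = σ.support.card := hσ.orderOf
    have hd : orderOf σ ∣ 4 := orderOf_dvd_of_pow_eq_one h4
    have h2 := hσ.two_le_card_support
    have h3 : σ.support.card = 2 ∨ σ.support.card = 4 := by
      rw [ho] at hd
      have := Nat.le_of_dvd (by norm_num) hd
      interval_cases h : σ.support.card <;> simp_all
    rcases h3 with h3 | h3
    · refine ⟨1, ?_, ?_⟩
      · have : σ ^ 2 = 1 := by rw [← h3, ← ho]; exact pow_orderOf_eq_one σ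
        rw [this, h3]; simp
      · rw [hσ.sign, h3]; simp
    · refine ⟨1, ?_, ?_⟩
      · have h5 : (σ ^ 2).support = σ.support := by
          apply hσ.support_pow_of_pos_of_lt_orderOf (by norm_num)
          rw [ho, h3]; norm_num
        rw [h5, h3]
      · rw [hσ.sign, h3]
        rfl
  · intro σ τ hd hc hσ hτ h4
    have h5 : σ ^ 4 * τ ^ 4 = 1 := by rw [← hd.commute.mul_pow]; exact h4
    obtain ⟨h6, h7⟩ := (hd.pow_disjoint_pow 4 4).mul_eq_one_iff.1 h5
    obtain ⟨m, hm, hs⟩ := hσ h6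
    obtain ⟨m', hm', hs'⟩ := hτ h7
    refine ⟨m + m', ?_, ?_⟩
    · rw [hd.card_support_mul, hd.commute.mul_pow, (hd.pow_disjoint_pow 2 2).card_support_mul]
      omega
    · rw [Perm.sign_mul, hs, hs', pow_add]

/-- The sign of a permutation `σ` with `σ ^ 4 = 1`. -/
theorem sign_four {Ω : Type*} [Fintype Ω] [DecidableEq Ω] {σ : Perm Ω} (h : σ ^ 4 = 1)
    (hs : sign σ = 1) :
    ∃ m : ℕ, Fintype.card Ω + Fintype.card (Function.fixedPoints ⇑(σ ^ 2)) =
      2 * Fintype.card (Function.fixedPoints σ) + 8 * m := by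
  obtain ⟨m, hm, hs'⟩ := sign_four_aux σ h
  have hfix : ∀ τ : Perm Ω, Fintype.card (Function.fixedPoints τ) + τ.support.card = Fintype.card Ω := by
    intro τ
    have h1 : Fintype.card (Function.fixedPoints τ) = (Finset.univ.filter fun x => τ x = x).card := by
      rw [Fintype.card_subtype]
      rfl
    have h2 : τ.support = Finset.univ.filter fun x => ¬ τ x = x := rfl
    rw [h1, h2, Finset.card_filter_add_card_filter_not]
    rfl
  have h1 := hfix σ
  have h2 := hfix (σ ^ 2)
  have hev : Even m := by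
    rw [hs] at hs'
    by_contra hm2
    rw [Nat.not_even_iff_odd] at hm2
    rw [hm2.neg_one_pow] at hs'
    exact absurd hs' (by decide)
  obtain ⟨j, hj⟩ := hev
  exact ⟨j, by omega⟩

end Cfsg.Agent.Lib.S4X
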