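import Mathlib
import Cfsg.Agent.Lib.SHK2
import Cfsg.Agent.Lib.BrauerMap

/-!
Hecke operators on the `U`-fixed vectors of a representation in characteristic `p` of a group with a split (B,N)-pair.
-/

set_option autoImplicit false
set_option linter.unusedSectionVars false

namespace Cfsg.Agent.Lib.SHK
open Cfsg Cfsg.Agent.Lib.Exchange Cfsg.Agent.Lib.BNPair Cfsg.Agent.Lib.StTits Cfsg.Agent.Lib.StWeyl
  Cfsg.Agent.Lib.SplitCore Cfsg.Agent.Lib.WBN

section general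

variable {G : Type*} [Group G] [Finite G] (U : Subgroup G)
variable {k : Type*} [Field k] {V : Type*} [AddCommGroup V] [Module k V] (ρ : G →* Module.End k V)

/-- the cosets in `U n U` -/
noncomputable def orb (n : G) : Finset (G ⧸ U) :=
  (Set.toFinite {c : G ⧸ U | ∃ u ∈ U, c = ((u * n : G) : G ⧸ U)}).toFinset

theorem mem_orb {n : G} {c : G ⧸ U} : c ∈ orb U n ↔ ∃ u ∈ U, c = ((u * n : G) : G ⧸ U) := by
  unfold orb
  rw [Set.Finite.mem_toFinset]
  rfl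

/-- the Hecke operator -/
noncomputable def T (n : G) : Module.End k V := ∑ c ∈ orb U n, ρ c.out

theorem T_apply (n : G) (y : V) : T U ρ n y = ∑ c ∈ orb U n, ρ c.out y := by
  unfold T
  rw [LinearMap.sum_apply]

/-- the fixed vectors -/
def Fx : Submodule k V where
  carrier := {y | ∀ u ∈ U, ρ u y = y}
  add_mem' := by
    intro a b ha hb u hu
    rw [map_add, ha u hu, hb u hu]
  zero_mem' := by
    intro u _
    rw [map_zero]
  smul_mem' := by
    intro c y hy u hu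
    rw [map_smul, hy u hu]

theorem mem_Fx {y : V} : y ∈ Fx U ρ ↔ ∀ u ∈ U, ρ u y = y := Iff.rfl

variable {U ρ}

theorem act_mk {y : V} (hy : y ∈ Fx U ρ) (g : G) : ρ ((g : G ⧸ U)).out y = ρ g y := by
  obtain ⟨h, hh⟩ := QuotientGroup.mk_out_eq_mul U g
  rw [hh, map_mul, Module.End.mul_apply, hy h h.2]

theorem act_of {y : V} (hy : y ∈ Fx U ρ) {c : G ⧸ U} {g : G} (h : c = (g : G ⧸ U)) : ρ c.out y = ρ g y := by
  rw [h, act_mk hy]

theorem mk_out (c : G ⧸ U) : ((c.out : G) : G ⧸ U) = c := QuotientGroup.out_eq' c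

theorem T_fix {y : V} (hy : y ∈ Fx U ρ) (n : G) : T U ρ n y ∈ Fx U ρ := by
  intro u hu
  rw [T_apply, map_sum]
  refine Finset.sum_bij (fun c _ => u • c) ?_ ?_ ?_ ?_
  · intro c hc
    obtain ⟨x, hx, rfl⟩ := (mem_orb U).mp hc
    exact (mem_orb U).mpr ⟨u * x, mul_mem hu hx, by rw [mul_assoc]; rfl⟩
  · intro a _ b _ h
    exact smul_left_cancel u h
  · intro b hb
    obtain ⟨x, hx, rfl⟩ := (mem_orb U).mp hb
    refine ⟨((u⁻¹ * x * n : G) : G ⧸ U), (mem_orb U).mpr ⟨u⁻¹ * x, mul_mem (inv_mem hu) hx, rfl⟩, ?_⟩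
    change ((u * (u⁻¹ * x * n) : G) : G ⧸ U) = _
    congr 1
    group
  · intro c _
    obtain ⟨g, rfl⟩ := QuotientGroup.mk_surjective c
    rw [act_mk hy]
    change ρ u (ρ g y) = ρ (((u * g : G)) : G ⧸ U).out y
    rw [act_mk hy, map_mul, Module.End.mul_apply]

end general

section bn

variable {G : Type*} [Group G] [Finite G] {P : Cfsg.BNPair G} {p : ℕ} [hp : Fact p.Prime] (D : SBN P p)
include D

theorem conj_mem_U {n x : G} (hx : x ∈ D.U) (h : n⁻¹ * x * n ∈ P.B) : n⁻¹ * x * n ∈ D.U := by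
  obtain ⟨k, hk⟩ := (ofSBN D).pow_U hx
  refine (ofSBN D).mem_U h (k := k) ?_
  have := conj_pow (i := p ^ k) (a := n⁻¹) (b := x)
  rw [inv_inv] at this
  rw [this, hk]
  group

omit [Finite G] hp in
theorem norm_U' {b u : G} (hb : b ∈ P.B) (hu : u ∈ D.U) : b⁻¹ * u * b ∈ D.U := by
  have := D.U_norm b⁻¹ (inv_mem hb) u hu
  rwa [inv_inv] at this

/-- `n x m ∈ U n m U` if the lengths add -/
theorem nxm {n m x : G} (hn : n ∈ P.N) (hm : m ∈ P.N) (hx : x ∈ D.U)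
    (hl : len (sW P) (beta P n * beta P m) = len (sW P) (beta P n) + len (sW P) (beta P m)) :
    ∃ u ∈ D.U, ∃ u' ∈ D.U, n * x * m = u * (n * m) * u' := by
  have hxB := D.U_le hx
  have b0 : beta P (x * m) = beta P m := beta_B_mul hxB
  have b1 : beta P (n * m) = beta P n * beta P m := beta_mul_N hn hm
  have b2 : beta P (n * (x * m)) = beta P n * beta P m := by
    rw [beta_mul_of_len (by rw [b0]; exact hl), b0]
  obtain ⟨b, hb, b', hb', e⟩ := beta_eq_iff.mp (b1.trans b2.symm)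
  obtain ⟨u, hu, h, hh, rfl⟩ := D.U_sup b hb
  obtain ⟨u1, hu1, h1, hh1, e1⟩ := D.U_sup b'⁻¹ (inv_mem hb')
  have eb' : b' = h1⁻¹ * u1⁻¹ := by rw [← mul_inv_rev, ← e1, inv_inv]
  have hnm := mul_mem hn hm
  set h2 := (n * m)⁻¹ * h * (n * m) * h1⁻¹ with hh2
  have h2H : h2 ∈ P.B ⊓ P.N := mul_mem (conj_H hnm hh) (inv_mem hh1)
  have e2 : n * (x * m) = (u * n) * (m * (h2 * u1⁻¹)) := by rw [e, eb', hh2]; group
  have h2B : h2 * u1⁻¹ ∈ P.B := mul_mem h2H.1 (inv_mem (D.U_le hu1))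
  have g1 := gate (P := P) (g := n) (g' := u * n) (m := x * m) (m' := m * (h2 * u1⁻¹))
    (beta_B_mul (D.U_le hu)) (by rw [beta_mul_B h2B, b0]) (by rw [b0]; exact hl) e2
  have g2 : n⁻¹ * u * n ∈ D.U := conj_mem_U D hu (by rw [mul_assoc]; exact g1)
  -- now `h2 = 1`
  have e3 : m * h2 * m⁻¹ * (m * u1⁻¹ * m⁻¹) = (n⁻¹ * u * n)⁻¹ * x := by
    have : m * (h2 * u1⁻¹) = (n⁻¹ * u * n)⁻¹ * (x * m) := by
      have h3 : m * (h2 * u1⁻¹) = (u * n)⁻¹ * (n * (x * m)) := by rw [e2]; group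
      rw [h3]; group
    calc m * h2 * m⁻¹ * (m * u1⁻¹ * m⁻¹) = (m * (h2 * u1⁻¹)) * m⁻¹ := by group
      _ = _ := by rw [this]; group
  have hyU : (n⁻¹ * u * n)⁻¹ * x ∈ D.U := mul_mem (inv_mem g2) hx
  have hmh : m * h2 * m⁻¹ ∈ P.B ⊓ P.N := by
    have := conj_H (inv_mem hm) h2H
    rwa [inv_inv] at this
  have h4 : m * u1⁻¹ * m⁻¹ ∈ D.U := by
    have h5 : m⁻¹⁻¹ * u1⁻¹ * m⁻¹ ∈ P.B := by
      rw [inv_inv]
      have : m * u1⁻¹ * m⁻¹ = (m * h2 * m⁻¹)⁻¹ * ((n⁻¹ * u * n)⁻¹ * x) := by rw [← e3]; group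
      rw [this]
      exact mul_mem (inv_mem hmh.1) (D.U_le hyU)
    have := conj_mem_U D (inv_mem hu1) h5
    rwa [inv_inv] at this
  have h6 : m * h2 * m⁻¹ = 1 := by
    apply D.U_inf
    · have : m * h2 * m⁻¹ = ((n⁻¹ * u * n)⁻¹ * x) * (m * u1⁻¹ * m⁻¹)⁻¹ := by rw [← e3]; group
      rw [this]
      exact mul_mem hyU (inv_mem h4)
    · exact hmh.2
  have h7 : h2 = 1 := by
    have : h2 = m⁻¹ * (m * h2 * m⁻¹) * m := by group
    rw [this, h6]; group
  refine ⟨u, hu, u1⁻¹, inv_mem hu1, ?_⟩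
  rw [mul_assoc n, e2, h7]
  group

omit [Finite G] hp in
theorem beta_orb {n : G} {g : G} (h : ((g : G) : G ⧸ D.U) = ((n : G) : G ⧸ D.U)) : beta P g = beta P n := by
  rw [QuotientGroup.eq] at h
  have : n = g * (g⁻¹ * n) := by group
  rw [this, beta_mul_B (D.U_le h)]

variable {k : Type*} [Field k] {V : Type*} [AddCommGroup V] [Module k V] {ρ : G →* Module.End k V}

/-- the Hecke operators multiply if the lengths add -/
theorem T_T {y : V} (hy : y ∈ Fx D.U ρ) {n m : G} (hn : n ∈ P.N) (hm : m ∈ P.N)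
    (hl : len (sW P) (beta P n * beta P m) = len (sW P) (beta P n) + len (sW P) (beta P m)) :
    T D.U ρ n (T D.U ρ m y) = T D.U ρ (n * m) y := by
  rw [T_apply, T_apply, T_apply]
  have h1 : ∀ c ∈ orb D.U n, ρ c.out (∑ d ∈ orb D.U m, ρ d.out y) = ∑ d ∈ orb D.U m, ρ (c.out • d).out y := by
    intro c _
    rw [map_sum]
    refine Finset.sum_congr rfl fun d _ => ?_
    have : (c.out • d : G ⧸ D.U) = ((c.out * d.out : G) : G ⧸ D.U) := by
      nth_rewrite 1 [← mk_out d]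
      rfl
    rw [act_of hy this, map_mul, Module.End.mul_apply]
  rw [Finset.sum_congr rfl h1, ← Finset.sum_product']
  -- representatives
  have hrep : ∀ {n : G} {c : G ⧸ D.U}, c ∈ orb D.U n → ∃ u ∈ D.U, ∃ u1 ∈ D.U, c.out = u * n * u1 := by
    intro n c hc
    obtain ⟨u, hu, rfl⟩ := (mem_orb D.U).mp hc
    obtain ⟨h, hh⟩ := QuotientGroup.mk_out_eq_mul D.U (u * n)
    exact ⟨u, hu, h, h.2, hh⟩
  refine Finset.sum_bij (fun x _ => (x.1.out • x.2 : G ⧸ D.U)) ?_ ?_ ?_ (fun _ _ => rfl)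
  · rintro ⟨c, d⟩ hx
    rw [Finset.mem_product] at hx
    obtain ⟨u, hu, u1, hu1, e⟩ := hrep hx.1
    obtain ⟨u2, hu2, rfl⟩ := (mem_orb D.U).mp hx.2
    obtain ⟨v, hv, v', hv', e2⟩ := nxm D hn hm (mul_mem hu1 hu2) hl
    rw [mem_orb]
    refine ⟨u * v, mul_mem hu hv, ?_⟩
    change ((c.out * (u2 * m) : G) : G ⧸ D.U) = _
    rw [eq_comm, QuotientGroup.eq, e]
    have : (u * v * (n * m))⁻¹ * (u * n * u1 * (u2 * m)) = v' := by
      have h3 : u * n * u1 * (u2 * m) = u * (n * (u1 * u2) * m) := by group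
      rw [h3, e2]; group
    rw [this]
    exact hv'
  · rintro ⟨c, d⟩ hx ⟨c', d'⟩ hx' h
    rw [Finset.mem_product] at hx hx'
    obtain ⟨u, hu, u1, hu1, e⟩ := hrep hx.1
    obtain ⟨u', hu', u1', hu1', e'⟩ := hrep hx'.1
    obtain ⟨v, hv, v1, hv1, f⟩ := hrep hx.2
    obtain ⟨v', hv', v1', hv1', f'⟩ := hrep hx'.2
    simp only at h
    have h0 : ((c.out * d.out : G) : G ⧸ D.U) = ((c'.out * d'.out : G) : G ⧸ D.U) := by
      have a1 : (c.out • d : G ⧸ D.U) = ((c.out * d.out : G) : G ⧸ D.U) := by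
        nth_rewrite 1 [← mk_out d]
        rfl
      have a2 : (c'.out • d' : G ⧸ D.U) = ((c'.out * d'.out : G) : G ⧸ D.U) := by
        nth_rewrite 1 [← mk_out d']
        rfl
      rw [← a1, ← a2]
      exact h
    rw [QuotientGroup.eq] at h0
    set w := (c.out * d.out)⁻¹ * (c'.out * d'.out) with hw
    have bc : beta P c.out = beta P n := by
      rw [e, beta_mul_B (D.U_le hu1), beta_B_mul (D.U_le hu)]
    have bc' : beta P c'.out = beta P n := by
      rw [e', beta_mul_B (D.U_le hu1'), beta_B_mul (D.U_le hu')]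
    have bd : beta P d.out = beta P m := by
      rw [f, beta_mul_B (D.U_le hv1), beta_B_mul (D.U_le hv)]
    have bd' : beta P d'.out = beta P m := by
      rw [f', beta_mul_B (D.U_le hv1'), beta_B_mul (D.U_le hv')]
    have g1 := gate (P := P) (g := c.out) (g' := c'.out) (m := d.out * w) (m' := d'.out)
      (by rw [bc, bc']) (by rw [beta_mul_B (D.U_le h0), bd, bd'])
      (by rw [beta_mul_B (D.U_le h0), bc, bd]; exact hl) (by rw [hw]; group)
    have g2 : n⁻¹ * (u⁻¹ * u') * n ∈ P.B := by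
      have : n⁻¹ * (u⁻¹ * u') * n = u1 * (c.out⁻¹ * c'.out) * u1'⁻¹ := by rw [e, e']; group
      rw [this]
      exact mul_mem (mul_mem (D.U_le hu1) g1) (inv_mem (D.U_le hu1'))
    have g3 := conj_mem_U D (mul_mem (inv_mem hu) hu') g2
    have g4 : c.out⁻¹ * c'.out ∈ D.U := by
      have : c.out⁻¹ * c'.out = u1⁻¹ * (n⁻¹ * (u⁻¹ * u') * n) * u1' := by rw [e, e']; group
      rw [this]
      exact mul_mem (mul_mem (inv_mem hu1) g3) hu1'
    have hcc : c = c' := by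
      rw [← mk_out c, ← mk_out c', QuotientGroup.eq]
      exact g4
    subst hcc
    have hdd : d = d' := smul_left_cancel _ h
    rw [hdd]
  · intro b hb
    obtain ⟨u, hu, rfl⟩ := (mem_orb D.U).mp hb
    obtain ⟨h, hh⟩ := QuotientGroup.mk_out_eq_mul D.U (u * n)
    refine ⟨(((u * n : G) : G ⧸ D.U), (((h : G)⁻¹ * m : G) : G ⧸ D.U)), ?_, ?_⟩
    · rw [Finset.mem_product]
      exact ⟨(mem_orb D.U).mpr ⟨u, hu, rfl⟩, (mem_orb D.U).mpr ⟨_, inv_mem h.2, rfl⟩⟩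
    · simp only
      rw [hh]
      change ((u * n * h * ((h : G)⁻¹ * m) : G) : G ⧸ D.U) = _
      congr 1
      group

omit hp in
theorem T_H {y : V} (hy : y ∈ Fx D.U ρ) {h : G} (hh : h ∈ P.B) : T D.U ρ h y = ρ h y := by
  rw [T_apply]
  have h1 : orb D.U h = {((h : G) : G ⧸ D.U)} := by
    ext c
    rw [mem_orb, Finset.mem_singleton]
    constructor
    · rintro ⟨u, hu, rfl⟩
      rw [eq_comm, QuotientGroup.eq]
      have : h⁻¹ * (u * h) = h⁻¹ * u * h := by group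
      rw [this]
      exact norm_U' D hh hu
    · rintro rfl
      exact ⟨1, one_mem _, by rw [one_mul]⟩
  rw [h1, Finset.sum_singleton, act_mk hy]

omit hp in
theorem fix_H {y : V} (hy : y ∈ Fx D.U ρ) {h : G} (hh : h ∈ P.B) : ρ h y ∈ Fx D.U ρ := by
  rw [← T_H D hy hh]
  exact T_fix hy h

theorem T_mul_H {y : V} (hy : y ∈ Fx D.U ρ) {n h : G} (hn : n ∈ P.N) (hh : h ∈ P.B ⊓ P.N) :
    T D.U ρ n (ρ h y) = T D.U ρ (n * h) y := by
  rw [← T_H D hy hh.1, T_T D hy hn hh.2]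
  rw [beta_eq_one_iff.mpr hh.1, mul_one, (len_eq_zero_iff (isExch P) 1).mpr rfl, add_zero]

theorem H_mul_T {y : V} (hy : y ∈ Fx D.U ρ) {n h : G} (hn : n ∈ P.N) (hh : h ∈ P.B ⊓ P.N) :
    ρ h (T D.U ρ n y) = T D.U ρ (h * n) y := by
  rw [← T_H D (T_fix hy n) hh.1, T_T D hy hh.2 hn]
  rw [beta_eq_one_iff.mpr hh.1, one_mul, (len_eq_zero_iff (isExch P) 1).mpr rfl, zero_add]

end bn

end Cfsg.Agent.Lib.SHK
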