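import Mathlib
import Cfsg.Agent.Lib.SHK3

/-!
Hecke operators in characteristic `p`, continued: the quadratic relation, the action of the centre of the group algebra
on `U`-fixed vectors, the main alternative.
-/

set_option autoImplicit false
set_option linter.unusedSectionVars false

namespace Cfsg.Agent.Lib.SHK
open Cfsg Cfsg.Agent.Lib.Exchange Cfsg.Agent.Lib.BNPair Cfsg.Agent.Lib.StTits Cfsg.Agent.Lib.StWeyl
  Cfsg.Agent.Lib.SplitCore Cfsg.Agent.Lib.WBN

variable {G : Type*} [Group G] [Finite G] {P : Cfsg.BNPair G} {p : ℕ} [hp : Fact p.Prime] (D : SBN P p)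
include D

variable {k : Type*} [Field k] [CharP k p] {V : Type*} [AddCommGroup V] [Module k V] {ρ : G →* Module.End k V}

omit hp in
/-- `U ∩ s U s⁻¹` is normal in `U` -/
theorem vs_norm {s : P.S} {x f : G} (hx : x ∈ D.U) (hf : f ∈ D.U) (h : (s : G)⁻¹ * x * s ∈ P.B) :
    (s : G)⁻¹ * (f⁻¹ * x * f) * s ∈ D.U := by
  have h1 : x ∈ D.UJ {s} := (mem_UJ_iff D (P.subset s.2) (by rw [beta_S, wlong_singleton D]) hx).mpr h
  have h2 := norm_inv D (B_le_par {s} (D.U_le hf)) h1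
  have h3 := norm_inv D (i_mem_par s) h2
  exact D.UJ_le _ h3

omit [Finite G] hp D in
theorem s_not {s : P.S} : (s : G)⁻¹ ∉ P.B := fun h => S_not_mem_B s.2 (by simpa using inv_mem h)

/-- the number of cosets in `U s U` is divisible by `p` -/
theorem dvd_orb (s : P.S) : p ∣ (orb D.U (s : G)).card := by
  have h1 : (orb D.U (s : G)).card = Nat.card (MulAction.orbit D.U ((s : G) : G ⧸ D.U)) := by
    unfold orb
    rw [← Nat.card_eq_card_finite_toFinset]
    have : {c : G ⧸ D.U | ∃ u ∈ D.U, c = ((u * (s : G) : G) : G ⧸ D.U)} = MulAction.orbit D.U ((s : G) : G ⧸ D.U) := by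
      ext c
      constructor
      · rintro ⟨u, hu, rfl⟩
        exact ⟨⟨u, hu⟩, rfl⟩
      · rintro ⟨u, rfl⟩
        exact ⟨u, u.2, rfl⟩
    rw [this]
  obtain ⟨n, hn⟩ := D.U_p.card_orbit ((s : G) : G ⧸ D.U)
  rw [h1, hn]
  rcases Nat.eq_zero_or_pos n with rfl | h
  · exfalso
    rw [pow_zero, Nat.card_eq_one_iff_unique] at hn
    obtain ⟨hs, -⟩ := hn
    apply s_not (P := P) (s := s)
    apply (ofSBN D).mem_B
    intro u hu
    have h2 := hs.elim ⟨_, MulAction.mem_orbit ((s : G) : G ⧸ D.U) (⟨u, hu⟩ : D.U)⟩ ⟨_, MulAction.mem_orbit_self _⟩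
    have h3 : ((u * s : G) : G ⧸ D.U) = ((s : G) : G ⧸ D.U) := congrArg Subtype.val h2
    rw [eq_comm, QuotientGroup.eq] at h3
    rw [inv_inv]
    have : (s : G)⁻¹ * u * s = (s : G)⁻¹ * (u * s) := by group
    rw [this]
    exact D.U_le h3
  · exact dvd_pow_self p h.ne'

omit [CharP k p] in
/-- right translation by `U` permutes the cosets in `U s U` -/
theorem T_shift {s : P.S} {y : V} (hy : y ∈ Fx D.U ρ) {f : G} (hf : f ∈ D.U) (x : G ⧸ D.U → G)
    (hx : ∀ c ∈ orb D.U (s : G), x c ∈ D.U ∧ c = ((x c * s : G) : G ⧸ D.U)) :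
    ∑ c ∈ orb D.U (s : G), ρ (x c * f * s) y = T D.U ρ s y := by
  rw [T_apply]
  have key : ∀ {a b : G}, a ∈ D.U → b ∈ D.U → ((a * s : G) : G ⧸ D.U) = ((b * s : G) : G ⧸ D.U) →
      ((a * f * s : G) : G ⧸ D.U) = ((b * f * s : G) : G ⧸ D.U) := by
    intro a b ha hb h
    rw [QuotientGroup.eq] at h ⊢
    have h1 : (s : G)⁻¹ * (a⁻¹ * b) * s ∈ P.B := by
      have : (s : G)⁻¹ * (a⁻¹ * b) * s = (a * s)⁻¹ * (b * s) := by group
      rw [this]
      exact D.U_le h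
    have h2 := vs_norm D (mul_mem (inv_mem ha) hb) hf h1
    have : (a * f * s)⁻¹ * (b * f * s) = (s : G)⁻¹ * (f⁻¹ * (a⁻¹ * b) * f) * s := by group
    rw [this]
    exact h2
  have key' : ∀ {a b : G}, a ∈ D.U → b ∈ D.U → ((a * f * s : G) : G ⧸ D.U) = ((b * f * s : G) : G ⧸ D.U) →
      ((a * s : G) : G ⧸ D.U) = ((b * s : G) : G ⧸ D.U) := by
    intro a b ha hb h
    rw [QuotientGroup.eq] at h ⊢
    have h1 : (s : G)⁻¹ * (f⁻¹ * (a⁻¹ * b) * f) * s ∈ P.B := by
      have : (s : G)⁻¹ * (f⁻¹ * (a⁻¹ * b) * f) * s = (a * f * s)⁻¹ * (b * f * s) := by group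
      rw [this]
      exact D.U_le h
    have h2 := vs_norm D (mul_mem (mul_mem (inv_mem hf) (mul_mem (inv_mem ha) hb)) hf) (inv_mem hf) h1
    have : (a * s)⁻¹ * (b * s) = (s : G)⁻¹ * (f⁻¹⁻¹ * (f⁻¹ * (a⁻¹ * b) * f) * f⁻¹) * s := by group
    rw [this]
    exact h2
  refine Finset.sum_bij (fun c _ => ((x c * f * s : G) : G ⧸ D.U)) ?_ ?_ ?_ ?_
  · intro c hc
    exact (mem_orb D.U).mpr ⟨x c * f, mul_mem (hx c hc).1 hf, rfl⟩
  · intro c hc c' hc' h
    rw [(hx c hc).2, (hx c' hc').2]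
    exact key' (hx c hc).1 (hx c' hc').1 h
  · intro b hb
    obtain ⟨u, hu, rfl⟩ := (mem_orb D.U).mp hb
    have hc : ((u * f⁻¹ * s : G) : G ⧸ D.U) ∈ orb D.U (s : G) :=
      (mem_orb D.U).mpr ⟨u * f⁻¹, mul_mem hu (inv_mem hf), rfl⟩
    refine ⟨_, hc, ?_⟩
    have h1 := key (hx _ hc).1 (mul_mem hu (inv_mem hf)) (hx _ hc).2.symm
    rw [h1]
    congr 1
    group
  · intro c hc
    rw [act_mk hy]

/-- the quadratic relation -/
theorem T_sq {s : P.S} {K : Submodule k V} (hK : K ≤ Fx D.U ρ) (hKH : ∀ h ∈ P.B ⊓ P.N, ∀ y ∈ K, ρ h y ∈ K)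
    {y : V} (hy : y ∈ K) : ∃ y' ∈ K, T D.U ρ s (T D.U ρ s y) = T D.U ρ s y' := by
  classical
  have hyF := hK hy
  set S0 := orb D.U (s : G) with hS0
  have hs0 : ((s : G) : G ⧸ D.U) ∈ S0 := (mem_orb D.U).mpr ⟨1, one_mem _, by rw [one_mul]⟩
  have hx : ∀ c : G ⧸ D.U, ∃ u : G, c ∈ S0 → u ∈ D.U ∧ c = ((u * s : G) : G ⧸ D.U) := by
    intro c
    by_cases hc : c ∈ S0
    · obtain ⟨u, hu, h⟩ := (mem_orb D.U).mp hc
      exact ⟨u, fun _ => ⟨hu, h⟩⟩
    · exact ⟨1, fun h => absurd h hc⟩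
  choose x hx using hx
  have hsq : (s : G) * s ∈ P.B := P.sq_mem s s.2
  have hd : ∀ d : G ⧸ D.U, ∃ f h : G, d ∈ S0 → d ≠ ((s : G) : G ⧸ D.U) → f ∈ D.U ∧ h ∈ P.B ⊓ P.N ∧
      ((s : G) • d : G ⧸ D.U) = ((f * (s * h) : G) : G ⧸ D.U) := by
    intro d
    by_cases hd : d ∈ S0 ∧ d ≠ ((s : G) : G ⧸ D.U)
    · obtain ⟨u, hu, rfl⟩ := (mem_orb D.U).mp hd.1
      have h1 : (s : G) * u * s ∉ P.B := by
        intro h1
        apply hd.2
        rw [eq_comm, QuotientGroup.eq]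
        have h2 : (s : G)⁻¹ * u * s ∈ P.B := by
          have : (s : G)⁻¹ * u * s = ((s : G) * s)⁻¹ * (s * u * s) := by group
          rw [this]
          exact mul_mem (inv_mem hsq) h1
        have h3 := conj_mem_U D hu h2
        rwa [mul_assoc] at h3
      have h2 : (s : G) * u * s ∈ par P {s} :=
        mul_mem (mul_mem (i_mem_par s) (B_le_par _ (D.U_le hu))) (i_mem_par s)
      obtain ⟨f, hf, b, hb, e⟩ := (ofSBN D).exists_usb s h2 h1
      obtain ⟨u1, hu1, h, hh, e1⟩ := D.U_sup b⁻¹ (inv_mem hb)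
      refine ⟨f, h⁻¹, fun _ _ => ⟨hf, inv_mem hh, ?_⟩⟩
      change ((s * (u * s) : G) : G ⧸ D.U) = _
      rw [eq_comm, QuotientGroup.eq]
      have eb : b = h⁻¹ * u1⁻¹ := by rw [← mul_inv_rev, ← e1, inv_inv]
      have : (f * ((s : G) * h⁻¹))⁻¹ * (s * (u * s)) = u1⁻¹ := by
        have h3 : (s : G) * (u * s) = f * s * b := by rw [← e]; group
        rw [h3, eb]; group
      rw [this]
      exact inv_mem hu1
    · exact ⟨1, 1, fun h1 h2 => absurd ⟨h1, h2⟩ hd⟩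
  choose f h hfh using hd
  set y' : V := ∑ d ∈ S0.erase ((s : G) : G ⧸ D.U), ρ (h d) y with hy'
  have hmemE : ∀ d ∈ S0.erase ((s : G) : G ⧸ D.U), f d ∈ D.U ∧ h d ∈ P.B ⊓ P.N ∧
      ((s : G) • d : G ⧸ D.U) = ((f d * (s * h d) : G) : G ⧸ D.U) := by
    intro d hd
    rw [Finset.mem_erase] at hd
    exact hfh d hd.2 hd.1
  have hyK : y' ∈ K := Submodule.sum_mem _ fun d hd => hKH _ (hmemE d hd).2.1 _ hy
  refine ⟨y', hyK, ?_⟩
  have hTF := T_fix hyF (s : G)
  -- `ρ s (T s y)`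
  have e1 : ρ (s : G) (T D.U ρ s y) = ρ ((s : G) * s) y +
      ∑ d ∈ S0.erase ((s : G) : G ⧸ D.U), ρ (f d * s) (ρ (h d) y) := by
    rw [T_apply, map_sum, ← hS0, ← Finset.add_sum_erase _ _ hs0]
    congr 1
    · rw [act_mk hyF, map_mul, Module.End.mul_apply]
    · refine Finset.sum_congr rfl fun d hd => ?_
      have h1 : ρ (s : G) (ρ d.out y) = ρ ((s : G) • d : G ⧸ D.U).out y := by
        have : ((s : G) • d : G ⧸ D.U) = (((s : G) * d.out : G) : G ⧸ D.U) := by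
          nth_rewrite 1 [← mk_out d]
          rfl
        rw [act_of hyF this, map_mul, Module.End.mul_apply]
      rw [h1, act_of hyF (hmemE d hd).2.2, ← mul_assoc, map_mul, Module.End.mul_apply]
  have e2 : T D.U ρ s (T D.U ρ s y) = ∑ c ∈ S0, ρ (x c) (ρ (s : G) (T D.U ρ s y)) := by
    rw [T_apply D.U ρ (s : G) (T D.U ρ s y)]
    refine Finset.sum_congr rfl fun c hc => ?_
    rw [act_of hTF (hx c hc).2, map_mul, Module.End.mul_apply]
  rw [e2, e1]
  simp only [map_add, map_sum]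
  rw [Finset.sum_add_distrib, Finset.sum_comm]
  have e3 : ∑ c ∈ S0, ρ (x c) (ρ ((s : G) * s) y) = 0 := by
    have h1 : ∀ c ∈ S0, ρ (x c) (ρ ((s : G) * s) y) = ρ ((s : G) * s) y :=
      fun c hc => fix_H D hyF hsq _ (hx c hc).1
    rw [Finset.sum_congr rfl h1, Finset.sum_const, ← Nat.cast_smul_eq_nsmul k]
    have h2 : ((S0.card : ℕ) : k) = 0 := (CharP.cast_eq_zero_iff k p _).mpr (dvd_orb D s)
    rw [h2, zero_smul]
  rw [e3, zero_add, hy', map_sum]
  refine Finset.sum_congr rfl fun d hd => ?_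
  obtain ⟨hf1, hh1, -⟩ := hmemE d hd
  rw [← T_shift D (fix_H D hyF hh1.1) hf1 x (fun c hc => hx c hc)]
  refine Finset.sum_congr rfl fun c hc => ?_
  rw [← Module.End.mul_apply, ← map_mul, mul_assoc (x c)]

omit hp [CharP k p] in
theorem zero_of_len {K0 : Submodule k V} {n : G} (h : ¬ ∀ y ∈ K0, T D.U ρ n y = 0) : ∃ y ∈ K0, T D.U ρ n y ≠ 0 := by
  push Not at h
  exact h

/-- the main alternative: a kernel of the longest Hecke operator gives a fixed vector killed by all Hecke operators of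
full support -/
theorem exists_killed {n0 : G} (hn0 : n0 ∈ P.N) (hw0 : beta P n0 = wlong (isExch P) Set.univ)
    (h : ∃ y ∈ Fx D.U ρ, y ≠ 0 ∧ T D.U ρ n0 y = 0) :
    ∃ e ∈ Fx D.U ρ, e ≠ 0 ∧ ∀ n ∈ P.N, (∀ J : Set P.S, J ≠ Set.univ → beta P n ∉ WP (sW P) J) → T D.U ρ n e = 0 := by
  classical
  have H := isExch P
  -- the kernel
  let K0 : Submodule k V := Fx D.U ρ ⊓ LinearMap.ker (T D.U ρ n0)
  have hK0F : K0 ≤ Fx D.U ρ := inf_le_left
  have hN : ∀ n ∈ P.N, ∀ h ∈ P.B ⊓ P.N, n * h * n⁻¹ ∈ P.B ⊓ P.N := by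
    intro n hn h hh
    have := conj_H (inv_mem hn) hh
    rwa [inv_inv] at this
  have hK0H : ∀ h ∈ P.B ⊓ P.N, ∀ y ∈ K0, ρ h y ∈ K0 := by
    rintro h hh y ⟨hy, hy0⟩
    refine ⟨fix_H D hy hh.1, ?_⟩
    rw [SetLike.mem_coe, LinearMap.mem_ker] at hy0
    rw [SetLike.mem_coe, LinearMap.mem_ker, T_mul_H D hy hn0 hh]
    have : n0 * h = (n0 * h * n0⁻¹) * n0 := by group
    rw [this, ← H_mul_T D hy hn0 (hN n0 hn0 h hh), hy0, map_zero]
  -- a longest element not killing the kernel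
  obtain ⟨y0, hy0F, hy0, hy0T⟩ := h
  have hy0K : y0 ∈ K0 := ⟨hy0F, hy0T⟩
  let L : Set (W P) := {w | ∃ n ∈ P.N, beta P n = w ∧ ∃ y ∈ K0, T D.U ρ n y ≠ 0}
  have hLne : L.Nonempty := ⟨1, 1, one_mem _, beta_eq_one_iff.mpr (one_mem _), y0, hy0K, by
    rw [T_H D hy0F (one_mem _), map_one]
    exact hy0⟩
  obtain ⟨w1, ⟨n1, hn1, hnw1, y1, hy1, hne1⟩, hmax⟩ := Set.exists_max_image L (len (sW P)) (Set.toFinite L) hLne
  have hkill : ∀ n ∈ P.N, len (sW P) w1 < len (sW P) (beta P n) → ∀ y ∈ K0, T D.U ρ n y = 0 := by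
    intro n hn hl y hy
    by_contra hne
    have := hmax (beta P n) ⟨n, hn, rfl, y, hy, hne⟩
    omega
  have hw1 : w1 ≠ wlong H Set.univ := by
    intro he
    apply hne1
    -- `n1 = h n0`
    have h1 := N_of_beta (P := P) hn0 hn1 (by rw [hnw1, he, hw0])
    have e : n1 = (n0 * (n0⁻¹ * n1) * n0⁻¹) * n0 := by group
    rw [e, ← H_mul_T D (hK0F hy1) hn0 (hN n0 hn0 _ h1), LinearMap.mem_ker.mp hy1.2, map_zero]
  obtain ⟨s, hs⟩ : ∃ s : P.S, len (sW P) w1 < len (sW P) (sW P s * w1) := by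
    by_contra hcon
    push Not at hcon
    apply hw1
    apply eq_w0_of_LD H
    intro j _
    have h1 := hcon j
    have h2 := len_simple_mul_ne H j w1
    omega
  let E : Submodule k V := K0.map (T D.U ρ n1)
  have hEF : E ≤ Fx D.U ρ := by
    rintro _ ⟨y, hy, rfl⟩
    exact T_fix (hK0F hy) n1
  -- stability under the simple Hecke operators
  have hst : ∀ s' : P.S, len (sW P) w1 < len (sW P) (sW P s' * w1) → ∀ e ∈ E, T D.U ρ s' e = 0 := by
    rintro s' hl _ ⟨y, hy, rfl⟩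
    have hl2 : len (sW P) (sW P s' * w1) = 1 + len (sW P) w1 := by
      rcases len_simple_mul_cases H s' w1 with h | h <;> omega
    rw [T_T D (hK0F hy) (P.subset s'.2) hn1 (by rw [beta_S, hnw1, len_simple H]; exact hl2)]
    apply hkill _ (mul_mem (P.subset s'.2) hn1) _ y hy
    rw [beta_mul_N (P.subset s'.2) hn1, beta_S, hnw1]
    exact hl
  have hst2 : ∀ s' : P.S, ∀ e ∈ E, T D.U ρ s' e ∈ E := by
    intro s' e he
    by_cases hl : len (sW P) w1 < len (sW P) (sW P s' * w1)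
    · rw [hst s' hl e he]
      exact zero_mem _
    · obtain ⟨y, hy, rfl⟩ := he
      have hl2 : len (sW P) w1 = 1 + len (sW P) (sW P s' * w1) := by
        rcases len_simple_mul_cases H s' w1 with h | h <;> omega
      set m := (s' : G)⁻¹ * n1 with hm
      have hmN : m ∈ P.N := mul_mem (inv_mem (P.subset s'.2)) hn1
      have hmb : beta P m = sW P s' * w1 := by
        rw [hm, beta_mul_N (inv_mem (P.subset s'.2)) hn1, beta_inv, beta_S, sW_inv, hnw1]
      have hn1m : n1 = s' * m := by rw [hm]; group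
      have hladd : len (sW P) (beta P (s' : G) * beta P m) = len (sW P) (beta P (s' : G)) + len (sW P) (beta P m) := by
        rw [beta_S, hmb, ← mul_assoc, sW_sq, one_mul, len_simple H]
        exact hl2
      have hTT : ∀ y ∈ K0, T D.U ρ s' (T D.U ρ m y) = T D.U ρ n1 y := by
        intro y hy
        rw [T_T D (hK0F hy) (P.subset s'.2) hmN hladd, ← hn1m]
      -- the quadratic relation
      obtain ⟨y', hy', e⟩ := T_sq D (s := s') (K := K0.map (T D.U ρ m)) (y := T D.U ρ m y)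
        (by rintro _ ⟨y, hy, rfl⟩; exact T_fix (hK0F hy) m)
        (by
          rintro h hh _ ⟨y, hy, rfl⟩
          refine ⟨ρ (m⁻¹ * h * m) y, hK0H _ (conj_H hmN hh) y hy, ?_⟩
          rw [T_mul_H D (hK0F hy) hmN (conj_H hmN hh), H_mul_T D (hK0F hy) hmN hh]
          congr 2
          group)
        ⟨y, hy, rfl⟩
      obtain ⟨y2, hy2, rfl⟩ := hy'
      rw [← hTT y hy, e, hTT y2 hy2]
      exact ⟨y2, hy2, rfl⟩
  have hEH : ∀ h ∈ P.B ⊓ P.N, ∀ e ∈ E, ρ h e ∈ E := by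
    rintro h hh _ ⟨y, hy, rfl⟩
    refine ⟨ρ (n1⁻¹ * h * n1) y, hK0H _ (conj_H hn1 hh) y hy, ?_⟩
    rw [T_mul_H D (hK0F hy) hn1 (conj_H hn1 hh), H_mul_T D (hK0F hy) hn1 hh]
    congr 2
    group
  -- all elements
  have hall : ∀ l : ℕ, ∀ n ∈ P.N, len (sW P) (beta P n) = l →
      (∀ e ∈ E, T D.U ρ n e ∈ E) ∧ (beta P n ∉ WP (sW P) {s}ᶜ → ∀ e ∈ E, T D.U ρ n e = 0) := by
    intro l
    induction l with
    | zero =>
      intro n hn hl
      rw [len_eq_zero_iff H] at hl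
      have hnB : n ∈ P.B := beta_eq_one_iff.mp hl
      refine ⟨fun e he => ?_, fun h => absurd (by rw [hl]; exact one_mem _) h⟩
      rw [T_H D (hEF he) hnB]
      exact hEH n ⟨hnB, hn⟩ e he
    | succ l ih =>
      intro n hn hl
      obtain ⟨ω, h1, h2⟩ := exists_reduced H.gen (beta P n)
      rcases ω with _ | ⟨s1, ω⟩
      · simp at h2; omega
      have hred : (s1 :: ω).length = len (sW P) (wp (sW P) (s1 :: ω)) := by rw [h1]; exact h2
      have hred' := reduced_tail H hred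
      rw [wp_cons] at h1
      simp only [List.length_cons] at h2
      set m := (s1 : G)⁻¹ * n with hm
      have hmN : m ∈ P.N := mul_mem (inv_mem (P.subset s1.2)) hn
      have hmb : beta P m = wp (sW P) ω := by
        rw [hm, beta_mul_N (inv_mem (P.subset s1.2)) hn, beta_inv, beta_S, sW_inv, ← h1, ← mul_assoc, sW_sq, one_mul]
      have hml : len (sW P) (beta P m) = l := by rw [hmb]; omega
      obtain ⟨i1, i2⟩ := ih m hmN hml
      have hnm : n = s1 * m := by rw [hm]; group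
      have hTT : ∀ e ∈ E, T D.U ρ n e = T D.U ρ s1 (T D.U ρ m e) := by
        intro e he
        rw [T_T D (hEF he) (P.subset s1.2) hmN, ← hnm]
        rw [beta_S, hmb, h1, len_simple H, hl, ← hmb, hml]
        ring
      refine ⟨fun e he => ?_, fun hnot e he => ?_⟩
      · rw [hTT e he]
        exact hst2 s1 _ (i1 e he)
      · rw [hTT e he]
        by_cases hs1 : s1 = s
        · rw [hs1]
          exact hst s hs _ (i1 e he)
        · have h3 : beta P m ∉ WP (sW P) {s}ᶜ := by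
            intro h3
            apply hnot
            rw [← h1, ← hmb]
            exact mul_mem (simple_mem_WP (by simpa using hs1)) h3
          rw [i2 h3 e he, map_zero]
  refine ⟨T D.U ρ n1 y1, T_fix (hK0F hy1) n1, hne1, ?_⟩
  intro n hn hfull
  refine (hall _ n hn rfl).2 (hfull _ ?_) _ ⟨y1, hy1, rfl⟩
  rw [Ne, Set.compl_univ_iff]
  exact Set.singleton_ne_empty s

end Cfsg.Agent.Lib.SHK
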