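import Mathlib
import Cfsg.Agent.Lib.SHK4

/-!
Central elements of the group algebra acting on `U`-fixed vectors killed by the Hecke operators of full support;
freeness over `U` if the longest Hecke operator is injective.
-/

set_option autoImplicit false
set_option linter.unusedSectionVars false

namespace Cfsg.Agent.Lib.SHK
open Cfsg Cfsg.Agent.Lib.Exchange Cfsg.Agent.Lib.BNPair Cfsg.Agent.Lib.StTits Cfsg.Agent.Lib.StWeyl
  Cfsg.Agent.Lib.SplitCore Cfsg.Agent.Lib.WBN

variable {G : Type*} [Group G] [Fintype G] {P : Cfsg.BNPair G} {p : ℕ} [hp : Fact p.Prime] (D : SBN P p)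
include D

variable {k : Type*} [Field k] [CharP k p] {V : Type*} [AddCommGroup V] [Module k V] {ρ : G →* Module.End k V}

open Classical in
/-- class functions have zero sum over the cosets of `U` in proper parabolic subgroups, other than `U` -/
theorem coset_sum [IsSimpleGroup G] (hpG : p ∣ Nat.card G) {f : G → k} (hf : ∀ g x, f (x * g * x⁻¹) = f g)
    {J : Set P.S} (hJ : J ≠ Set.univ) {g : G} (hg : g ∈ par P J) (hgU : g ∉ D.U) :
    ∑ x : G, (if ((x : G) : G ⧸ D.U) = ((g : G) : G ⧸ D.U) then f x else 0) = 0 := by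
  rw [BrauerMap.sum_conj_fixed (p := p) (D.UJ J) (D.U_p.to_le (D.UJ_le J))]
  · apply Finset.sum_eq_zero
    intro x hx
    rw [Finset.mem_filter] at hx
    have h1 : x ∈ D.UJ J := cent_UJ D hpG hJ (fun v hv => (Subgroup.mem_centralizer_iff.mp hx.2 v hv).symm)
    rw [if_neg]
    intro h2
    apply hgU
    rw [QuotientGroup.eq] at h2
    have := mul_mem (D.UJ_le _ h1) h2
    rwa [mul_inv_cancel_left] at this
  · intro v hv x
    have h1 : ((v * x * v⁻¹ : G) : G ⧸ D.U) = ((g : G) : G ⧸ D.U) ↔ ((x : G) : G ⧸ D.U) = ((g : G) : G ⧸ D.U) := by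
      have key : ∀ v ∈ D.UJ J, ∀ x : G, ((x : G) : G ⧸ D.U) = ((g : G) : G ⧸ D.U) →
          ((v * x * v⁻¹ : G) : G ⧸ D.U) = ((g : G) : G ⧸ D.U) := by
        intro v hv x hx
        rw [eq_comm, QuotientGroup.eq] at hx ⊢
        have h2 := norm_inv D hg hv
        have : g⁻¹ * (v * x * v⁻¹) = (g⁻¹ * v * g) * (g⁻¹ * x) * v⁻¹ := by group
        rw [this]
        exact mul_mem (mul_mem (D.UJ_le _ h2) hx) (inv_mem (D.UJ_le _ hv))
      constructor
      · intro h
        have := key v⁻¹ (inv_mem hv) _ h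
        have e : v⁻¹ * (v * x * v⁻¹) * v⁻¹⁻¹ = x := by group
        rwa [e] at this
      · exact key v hv x
    simp only [h1, hf]

open Classical in
/-- the action of a central element on a fixed vector killed by the Hecke operators of full support -/
theorem central_act [IsSimpleGroup G] (hpG : p ∣ Nat.card G) {f : G → k} (hf : ∀ g x, f (x * g * x⁻¹) = f g)
    {y : V} (hy : y ∈ Fx D.U ρ)
    (hk : ∀ n ∈ P.N, (∀ J : Set P.S, J ≠ Set.univ → beta P n ∉ WP (sW P) J) → T D.U ρ n y = 0) :
    ∑ g : G, f g • ρ g y = (∑ x : G, (if x ∈ D.U then f x else 0)) • y := by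
  have : Fintype (G ⧸ D.U) := Fintype.ofFinite _
  set F : G ⧸ D.U → k := fun c => ∑ x : G, (if ((x : G) : G ⧸ D.U) = c then f x else 0) with hF
  have h1 : ∑ g : G, f g • ρ g y = ∑ c : G ⧸ D.U, F c • ρ c.out y := by
    have e1 : ∀ c : G ⧸ D.U, F c • ρ c.out y = ∑ x : G, (if ((x : G) : G ⧸ D.U) = c then f x • ρ x y else 0) := by
      intro c
      rw [hF, Finset.sum_smul]
      refine Finset.sum_congr rfl fun x _ => ?_
      split_ifs with h
      · rw [act_of hy h.symm]
      · rw [zero_smul]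
    rw [Finset.sum_congr rfl (fun c _ => e1 c), Finset.sum_comm]
    refine Finset.sum_congr rfl fun x _ => ?_
    rw [Finset.sum_ite_eq]
    simp
  -- the invariance of `F`
  have hFu : ∀ u ∈ D.U, ∀ c : G ⧸ D.U, F (u • c) = F c := by
    intro u hu c
    rw [hF]
    refine (Fintype.sum_equiv (MulAut.conj u).toEquiv _ _ fun x => ?_).symm
    change (if ((x : G) : G ⧸ D.U) = c then f x else 0) =
      if ((u * x * u⁻¹ : G) : G ⧸ D.U) = u • c then f (u * x * u⁻¹) else 0
    rw [hf]
    have e : ((u * x * u⁻¹ : G) : G ⧸ D.U) = u • ((x : G) : G ⧸ D.U) := by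
      change _ = ((u * x : G) : G ⧸ D.U)
      rw [QuotientGroup.eq]
      have : (u * x * u⁻¹)⁻¹ * (u * x) = u := by group
      rw [this]
      exact hu
    rw [e]
    congr 1
    rw [eq_iff_iff]
    exact (smul_left_cancel_iff u).symm
  set Full : Finset (G ⧸ D.U) := Finset.univ.filter (fun c => ∀ J : Set P.S, J ≠ Set.univ → c.out ∉ par P J) with hFull
  set Rest : Finset (G ⧸ D.U) := Finset.univ.filter (fun c => ¬ ∀ J : Set P.S, J ≠ Set.univ → c.out ∉ par P J) with hRest
  rw [h1, ← Finset.sum_filter_add_sum_filter_not Finset.univ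
    (fun c : G ⧸ D.U => ∀ J : Set P.S, J ≠ Set.univ → c.out ∉ par P J)]
  have h2 : ∑ c ∈ Full, F c • ρ c.out y = 0 := by
    apply Finset.sum_cancels_of_partition_cancels (MulAction.orbitRel D.U (G ⧸ D.U))
    intro c hc
    rw [hFull, Finset.mem_filter] at hc
    obtain ⟨u, hu, u', hu', n, hn, e, hb⟩ := exists_unu D c.out
    have hnfull : ∀ J : Set P.S, J ≠ Set.univ → beta P n ∉ WP (sW P) J := by
      intro J hJ h
      rw [hb, ← mem_par] at h
      exact hc.2 J hJ h
    have h3 : (Full.filter fun a => MulAction.orbitRel D.U (G ⧸ D.U) a c) = orb D.U n := by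
      ext a
      rw [Finset.mem_filter, mem_orb, hFull, Finset.mem_filter]
      have hcn : c = ((u * n : G) : G ⧸ D.U) := by
        rw [← mk_out c, QuotientGroup.eq, e]
        have : (u * n * u')⁻¹ * (u * n) = u'⁻¹ := by group
        rw [this]
        exact inv_mem hu'
      constructor
      · rintro ⟨-, h⟩
        obtain ⟨v, rfl⟩ := h
        refine ⟨v * u, mul_mem v.2 hu, ?_⟩
        rw [hcn, mul_assoc]
        rfl
      · rintro ⟨v, hv, rfl⟩
        refine ⟨⟨Finset.mem_univ _, ?_⟩, ?_⟩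
        · intro J hJ h
          obtain ⟨w, hw⟩ := QuotientGroup.mk_out_eq_mul D.U (v * n)
          rw [hw] at h
          apply hnfull J hJ
          rw [← mem_par]
          have : n = v⁻¹ * (v * n * w) * (w : G)⁻¹ := by group
          rw [this]
          exact mul_mem (mul_mem (inv_mem (B_le_par _ (D.U_le hv))) h) (inv_mem (B_le_par _ (D.U_le w.2)))
        · refine ⟨⟨v * u⁻¹, mul_mem hv (inv_mem hu)⟩, ?_⟩
          rw [hcn]
          change ((v * u⁻¹ * (u * n) : G) : G ⧸ D.U) = _
          congr 1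
          group
    rw [h3]
    have h4 : ∀ a ∈ orb D.U n, F a • ρ a.out y = F ((n : G) : G ⧸ D.U) • ρ a.out y := by
      intro a ha
      obtain ⟨v, hv, rfl⟩ := (mem_orb D.U).mp ha
      have e2 : ((v * n : G) : G ⧸ D.U) = v • ((n : G) : G ⧸ D.U) := rfl
      rw [e2, hFu v hv]
    rw [Finset.sum_congr rfl h4, ← Finset.smul_sum, ← T_apply, hk n hn hnfull, smul_zero]
  rw [show (∑ c ∈ Finset.univ.filter (fun c : G ⧸ D.U => ∀ J : Set P.S, J ≠ Set.univ → c.out ∉ par P J),
    F c • ρ c.out y) = 0 from h2, zero_add]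
  -- the rest
  by_cases hy0 : y = 0
  · rw [hy0]
    simp
  have hSne : (∅ : Set P.S) ≠ Set.univ := by
    intro h
    apply hy0
    have h1 := hk 1 (one_mem _) (fun J hJ => absurd (by
      rw [Set.eq_univ_iff_forall]
      intro x
      have : x ∈ (∅ : Set P.S) := by rw [h]; trivial
      exact this.elim) hJ)
    rwa [T_H D hy (one_mem _), map_one, Module.End.one_apply] at h1
  rw [Finset.sum_eq_single ((1 : G) : G ⧸ D.U)]
  · rw [act_mk hy, map_one, Module.End.one_apply]
    congr 1
    rw [hF]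
    refine Finset.sum_congr rfl fun x _ => ?_
    have : ((x : G) : G ⧸ D.U) = ((1 : G) : G ⧸ D.U) ↔ x ∈ D.U := by
      rw [eq_comm, QuotientGroup.eq, inv_one, one_mul]
    simp only [this]
  · intro c hc hc1
    rw [Finset.mem_filter] at hc
    obtain ⟨-, hc2⟩ := hc
    push Not at hc2
    obtain ⟨J, hJ, hcJ⟩ := hc2
    have hcU : c.out ∉ D.U := by
      intro h
      apply hc1
      rw [← mk_out c, eq_comm, QuotientGroup.eq, inv_one, one_mul]
      exact h
    have := coset_sum D hpG hf hJ hcJ hcU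
    rw [mk_out] at this
    have e : F c = 0 := by
      rw [← this]
    rw [e, zero_smul]
  · intro h
    exfalso
    apply h
    rw [Finset.mem_filter]
    refine ⟨Finset.mem_univ _, ?_⟩
    push Not
    refine ⟨∅, hSne, ?_⟩
    rw [par_empty]
    obtain ⟨w, hw⟩ := QuotientGroup.mk_out_eq_mul D.U (1 : G)
    rw [hw, one_mul]
    exact D.U_le w.2

end Cfsg.Agent.Lib.SHK
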