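import Mathlib

/-!
Representations of `p`-groups in characteristic `p`: fixed vectors; a representation in which every fixed vector is a
norm is free, in the form `∑ h π h⁻¹ = 1`.
-/

set_option autoImplicit false
set_option linter.unusedSectionVars false

namespace Cfsg.Agent.Lib.SHK

section
variable {H : Type*} [Group H] {p : ℕ} [hp : Fact p.Prime]
variable {k : Type*} [Field k] [CharP k p] {V : Type*} [AddCommGroup V] [Module k V]

theorem exists_fix_aux [Finite H] [Module (ZMod p) V] (hH : IsPGroup p H) (ρ : H →* Module.End k V)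
    (W : Submodule k V) (hW : ∀ h, ∀ w ∈ W, ρ h w ∈ W) (hne : W ≠ ⊥) : ∃ w ∈ W, w ≠ 0 ∧ ∀ h, ρ h w = w := by
  obtain ⟨w, hw, hw0⟩ := (Submodule.ne_bot_iff W).mp hne
  have hpV : ∀ x : V, p • x = 0 := by
    intro x
    rw [← Nat.cast_smul_eq_nsmul k, CharP.cast_eq_zero, zero_smul]
  let X : Submodule (ZMod p) V := Submodule.span (ZMod p) (Set.range fun h => ρ h w)
  have hfin : Module.Finite (ZMod p) X := Module.Finite.span_of_finite (ZMod p) (Set.finite_range fun h => ρ h w)
  have : Finite X := Module.finite_of_finite (ZMod p)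
  have hst : ∀ h : H, ∀ x ∈ X, ρ h x ∈ X := by
    intro h x hx
    induction hx using Submodule.span_induction with
    | mem x hx =>
      obtain ⟨h', rfl⟩ := hx
      apply Submodule.subset_span
      exact ⟨h * h', by simp⟩
    | zero => rw [map_zero]; exact zero_mem _
    | add x y _ _ hx hy => rw [map_add]; exact add_mem hx hy
    | smul a x _ hx =>
      rw [ZMod.map_smul]
      exact Submodule.smul_mem _ _ hx
  have hXW : ∀ x ∈ X, x ∈ W := by
    intro x hx
    induction hx using Submodule.span_induction with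
    | mem x hx =>
      obtain ⟨h', rfl⟩ := hx
      exact hW h' w hw
    | zero => exact zero_mem _
    | add x y _ _ hx hy => exact add_mem hx hy
    | smul a x _ hx =>
      obtain ⟨n, rfl⟩ := ZMod.natCast_zmod_surjective a
      rw [Nat.cast_smul_eq_nsmul]
      exact nsmul_mem hx n
  let _ : MulAction H X :=
    { smul := fun h x => ⟨ρ h x, hst h x x.2⟩
      one_smul := fun x => Subtype.ext (by change ρ 1 (x : V) = x; rw [map_one, Module.End.one_apply])
      mul_smul := fun a b x => Subtype.ext (by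
        change ρ (a * b) (x : V) = ρ a (ρ b x)
        rw [map_mul, Module.End.mul_apply]) }
  have h1 := hH.card_modEq_card_fixedPoints X
  have hwX : w ∈ X := Submodule.subset_span ⟨1, by simp⟩
  have h2 : p ∣ Nat.card X := by
    have h3 : addOrderOf (⟨w, hwX⟩ : X) = p := by
      apply addOrderOf_eq_prime
      · apply Subtype.ext
        change p • w = 0
        exact hpV w
      · intro h
        exact hw0 (congrArg Subtype.val h)
    exact (dvd_of_eq h3.symm).trans (addOrderOf_dvd_natCard _)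
  by_contra hcon
  push Not at hcon
  have h3 : Nat.card (MulAction.fixedPoints H X) = 1 := by
    rw [Nat.card_eq_one_iff_unique]
    constructor
    · constructor
      have key : ∀ x : MulAction.fixedPoints H X, ((x : X) : V) = 0 := by
        rintro ⟨x, hx⟩
        by_contra h0
        obtain ⟨h, hh⟩ := hcon x (hXW x x.2) h0
        exact hh (congrArg Subtype.val (hx h))
      intro x y
      exact Subtype.ext (Subtype.ext ((key x).trans (key y).symm))
    · exact ⟨⟨0, fun h => Subtype.ext (map_zero (ρ h))⟩⟩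
  rw [h3] at h1
  have h4 := (Nat.modEq_zero_iff_dvd.mpr h2).symm.trans h1
  have := Nat.modEq_zero_iff_dvd.mp h4.symm
  exact hp.out.one_lt.ne' (Nat.dvd_one.mp this)

/-- a `p`-group has a nonzero fixed vector on each nonzero invariant subspace -/
theorem exists_fix [Finite H] (hH : IsPGroup p H) (ρ : H →* Module.End k V) (W : Submodule k V)
    (hW : ∀ h, ∀ w ∈ W, ρ h w ∈ W) (hne : W ≠ ⊥) : ∃ w ∈ W, w ≠ 0 ∧ ∀ h, ρ h w = w := by
  have hpV : ∀ x : V, p • x = 0 := by
    intro x
    rw [← Nat.cast_smul_eq_nsmul k, CharP.cast_eq_zero, zero_smul]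
  exact @exists_fix_aux H _ p hp k _ _ V _ _ _ (AddCommGroup.zmodModule hpV) hH ρ W hW hne

/-- if every fixed vector is a norm, the representation is free -/
theorem exists_trace [Fintype H] (hH : IsPGroup p H) (ρ : H →* Module.End k V)
    (hsurj : ∀ y, (∀ h, ρ h y = y) → ∃ x, ∑ h : H, ρ h x = y) :
    ∃ π : Module.End k V, ∑ h : H, ρ h * π * ρ h⁻¹ = 1 := by
  classical
  let F : Submodule k V :=
    { carrier := {y | ∀ h, ρ h y = y}
      add_mem' := fun {a b} ha hb h => by rw [map_add, ha h, hb h]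
      zero_mem' := fun h => map_zero _
      smul_mem' := fun c y hy h => by rw [map_smul, hy h] }
  have hN : ∀ x, ∑ h : H, ρ h x ∈ F := by
    intro x h
    rw [map_sum]
    refine Fintype.sum_equiv (Equiv.mulLeft h) _ _ fun y => ?_
    rw [Equiv.coe_mulLeft, map_mul, Module.End.mul_apply]
  let N : V →ₗ[k] F := LinearMap.codRestrict F (∑ h : H, ρ h) (fun x => by
    rw [LinearMap.sum_apply]; exact hN x)
  have hNs : Function.Surjective N := by
    rintro ⟨y, hy⟩
    obtain ⟨x, hx⟩ := hsurj y hy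
    refine ⟨x, Subtype.ext ?_⟩
    change (∑ h : H, ρ h) x = y
    rw [LinearMap.sum_apply, hx]
  obtain ⟨σ, hσ⟩ := N.exists_rightInverse_of_surjective (LinearMap.range_eq_top.mpr hNs)
  have hσ' : ∀ c : F, ∑ h : H, ρ h (σ c) = c := by
    intro c
    have := congrArg Subtype.val (LinearMap.congr_fun hσ c)
    change (∑ h : H, ρ h) (σ c) = c at this
    rwa [LinearMap.sum_apply] at this
  let Φ : (H → F) →ₗ[k] V := ∑ h : H, (ρ h) ∘ₗ σ ∘ₗ (LinearMap.proj h)
  have hΦ : ∀ f, Φ f = ∑ h : H, ρ h (σ (f h)) := by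
    intro f
    change (∑ h : H, (ρ h) ∘ₗ σ ∘ₗ (LinearMap.proj h)) f = _
    rw [LinearMap.sum_apply]
    rfl
  let τ : H →* Module.End k (H → F) :=
    { toFun := fun h =>
        { toFun := fun f x => f (h⁻¹ * x)
          map_add' := fun _ _ => rfl
          map_smul' := fun _ _ => rfl }
      map_one' := by
        refine LinearMap.ext fun f => funext fun x => ?_
        change f (1⁻¹ * x) = f x
        rw [inv_one, one_mul]
      map_mul' := fun a b => by
        refine LinearMap.ext fun f => funext fun x => ?_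
        change f ((a * b)⁻¹ * x) = f (b⁻¹ * (a⁻¹ * x))
        rw [mul_inv_rev, mul_assoc] }
  have hτ : ∀ h f x, τ h f x = f (h⁻¹ * x) := fun _ _ _ => rfl
  have hΦτ : ∀ h f, Φ (τ h f) = ρ h (Φ f) := by
    intro h f
    rw [hΦ, hΦ, map_sum]
    refine (Fintype.sum_equiv (Equiv.mulLeft h) _ _ fun y => ?_).symm
    rw [Equiv.coe_mulLeft, hτ, inv_mul_cancel_left, map_mul, Module.End.mul_apply]
  have hker : LinearMap.ker Φ = ⊥ := by
    by_contra hne
    obtain ⟨f, hf, hf0, hfx⟩ := exists_fix hH τ (LinearMap.ker Φ) (by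
      intro h f hf
      rw [LinearMap.mem_ker] at hf ⊢
      rw [hΦτ, hf, map_zero]) hne
    apply hf0
    have hconst : ∀ x, f x = f 1 := by
      intro x
      have := congrFun (hfx x) x
      rw [hτ, inv_mul_cancel] at this
      exact this.symm
    rw [LinearMap.mem_ker, hΦ] at hf
    have h1 : ∑ h : H, ρ h (σ (f h)) = f 1 := by
      rw [← hσ' (f 1)]
      exact Finset.sum_congr rfl fun h _ => by rw [hconst h]
    rw [h1] at hf
    funext x
    rw [hconst x]
    exact Subtype.ext hf
  obtain ⟨Ψ, hΨ⟩ := Φ.exists_leftInverse_of_injective hker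
  have hΨ' : ∀ f, Ψ (Φ f) = f := fun f => LinearMap.congr_fun hΨ f
  let π : Module.End k V := σ ∘ₗ (LinearMap.proj 1) ∘ₗ Ψ
  have hπ : ∀ v, π v = σ (Ψ v 1) := fun v => rfl
  set θ : Module.End k V := ∑ h : H, ρ h * π * ρ h⁻¹ with hθ
  have hθv : ∀ v, θ v = Φ (fun h => Ψ (ρ h⁻¹ v) 1) := by
    intro v
    rw [hθ, LinearMap.sum_apply, hΦ]
    rfl
  have hθΦ : ∀ f, θ (Φ f) = Φ f := by
    intro f
    rw [hθv]
    congr 1
    funext h
    rw [← hΦτ, hΨ', hτ, inv_inv, mul_one]
  have hθρ : ∀ g v, θ (ρ g v) = ρ g (θ v) := by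
    intro g v
    rw [hθ, LinearMap.sum_apply, LinearMap.sum_apply, map_sum]
    refine (Fintype.sum_equiv (Equiv.mulLeft g) _ _ fun h => ?_).symm
    rw [Equiv.coe_mulLeft]
    simp only [Module.End.mul_apply]
    rw [map_mul, Module.End.mul_apply]
    congr 3
    rw [← Module.End.mul_apply, ← map_mul]
    congr 2
    group
  have hθker : LinearMap.ker θ = ⊥ := by
    by_contra hne
    obtain ⟨m, hm, hm0, hmx⟩ := exists_fix hH ρ (LinearMap.ker θ) (by
      intro h v hv
      rw [LinearMap.mem_ker] at hv ⊢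
      rw [hθρ, hv, map_zero]) hne
    apply hm0
    have h1 : m = Φ (fun _ => (⟨m, hmx⟩ : F)) := by
      rw [hΦ]
      exact (hσ' ⟨m, hmx⟩).symm
    rw [LinearMap.mem_ker, h1, hθΦ, ← h1] at hm
    exact hm
  refine ⟨π, ?_⟩
  rw [← hθ]
  ext v
  rw [Module.End.one_apply]
  have h2 : θ (θ v - v) = 0 := by
    rw [map_sub, hθv v, hθΦ, sub_self]
  have h3 := LinearMap.mem_ker.mpr h2
  rw [hθker, Submodule.mem_bot, sub_eq_zero] at h3
  exact h3

/-- the trace from a subgroup -/
theorem trace_of {G : Type*} [Group G] [Fintype G] (U : Subgroup G) [Fintype U] (ρ : G →* Module.End k V)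
    (π : Module.End k V) (h : ∑ u : U, ρ u * π * ρ (u : G)⁻¹ = 1) :
    ∑ g : G, ρ g * π * ρ g⁻¹ = ((U.index : ℕ) : k) • (1 : Module.End k V) := by
  classical
  have : Fintype (G ⧸ U) := Fintype.ofFinite _
  have e : Function.Bijective (fun x : (G ⧸ U) × U => x.1.out * (x.2 : G)) := by
    constructor
    · rintro ⟨c, u⟩ ⟨c', u'⟩ h
      simp only at h
      have h1 : c = c' := by
        rw [← QuotientGroup.out_eq' c, ← QuotientGroup.out_eq' c', QuotientGroup.eq]
        have : c.out⁻¹ * c'.out = u * (u' : G)⁻¹ := by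
          rw [inv_mul_eq_iff_eq_mul, ← mul_assoc, h, mul_inv_cancel_right]
        rw [this]
        exact mul_mem u.2 (inv_mem u'.2)
      subst h1
      rw [Subtype.ext (mul_left_cancel h)]
    · intro g
      obtain ⟨u, hu⟩ := QuotientGroup.mk_out_eq_mul U g
      refine ⟨(((g : G) : G ⧸ U), u⁻¹), ?_⟩
      simp only
      rw [hu]
      simp
  rw [← Fintype.sum_equiv (Equiv.ofBijective _ e) (fun x => ρ (x.1.out * (x.2 : G)) * π * ρ (x.1.out * (x.2 : G))⁻¹) _
    (fun x => rfl), Fintype.sum_prod_type]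
  have h1 : ∀ c : G ⧸ U, ∑ u : U, ρ (c.out * (u : G)) * π * ρ (c.out * (u : G))⁻¹ = 1 := by
    intro c
    have h2 : ∀ u : U, ρ (c.out * (u : G)) * π * ρ (c.out * (u : G))⁻¹ =
        ρ c.out * (ρ u * π * ρ (u : G)⁻¹) * ρ c.out⁻¹ := by
      intro u
      rw [mul_inv_rev, map_mul, map_mul]
      simp only [mul_assoc]
    rw [Finset.sum_congr rfl fun u _ => h2 u, ← Finset.sum_mul, ← Finset.mul_sum, h, mul_one, ← map_mul,
      mul_inv_cancel, map_one]
  rw [Finset.sum_congr rfl fun c _ => h1 c, Finset.sum_const, Finset.card_univ, ← Nat.card_eq_fintype_card,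
    ← Subgroup.index, Nat.cast_smul_eq_nsmul]

end

end Cfsg.Agent.Lib.SHK
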