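import Mathlib
import Cfsg.Agent.Lib.SHK5
import Cfsg.Agent.Lib.SHK6

/-!
Simple modules of a finite simple group with a split (B,N)-pair of characteristic `p`, over an algebraically closed field
of characteristic `p`: the central character is the principal one, or there is a class of defect zero on which it
does not vanish.
-/

set_option autoImplicit false
set_option linter.unusedSectionVars false

namespace Cfsg.Agent.Lib.SHK
open Cfsg Cfsg.Agent.Lib.Exchange Cfsg.Agent.Lib.BNPair Cfsg.Agent.Lib.StTits Cfsg.Agent.Lib.StWeyl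
  Cfsg.Agent.Lib.SplitCore Cfsg.Agent.Lib.WBN

section counting

variable {G : Type*} [Group G] [Fintype G]

open Classical in
theorem card_conj_eq (h x : G) : (Finset.univ.filter (fun g : G => g * h * g⁻¹ = x)).card =
    if IsConj h x then Nat.card (Subgroup.centralizer ({h} : Set G)) else 0 := by
  split_ifs with hc
  · obtain ⟨g0, rfl⟩ := isConj_iff.mp hc
    rw [Nat.card_eq_fintype_card, ← Finset.card_univ]
    symm
    refine Finset.card_bij (fun c _ => g0 * (c : G)) ?_ ?_ ?_
    · intro c _
      rw [Finset.mem_filter]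
      refine ⟨Finset.mem_univ _, ?_⟩
      have := Subgroup.mem_centralizer_iff.mp c.2 h rfl
      calc g0 * c * h * (g0 * c)⁻¹ = g0 * (c * h) * (c : G)⁻¹ * g0⁻¹ := by group
        _ = g0 * (h * c) * (c : G)⁻¹ * g0⁻¹ := by rw [this]
        _ = _ := by group
    · intro a _ b _ hab
      exact Subtype.ext (mul_left_cancel hab)
    · intro g hg
      rw [Finset.mem_filter] at hg
      refine ⟨⟨g0⁻¹ * g, ?_⟩, Finset.mem_univ _, by simp⟩
      rw [Subgroup.mem_centralizer_iff]
      intro z hz
      rw [Set.mem_singleton_iff] at hz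
      rw [hz]
      have h1 := hg.2
      have h2 : g0⁻¹ * (g * h * g⁻¹) * g0 = h := by rw [h1]; group
      calc h * (g0⁻¹ * g) = (g0⁻¹ * (g * h * g⁻¹) * g0) * (g0⁻¹ * g) := by rw [h2]
        _ = g0⁻¹ * g * h := by group
  · rw [Finset.card_eq_zero, Finset.filter_eq_empty_iff]
    intro g _ hg
    exact hc (isConj_iff.mpr ⟨g, hg⟩)

open Classical in
theorem sum_conj {A : Type*} [AddCommMonoid A] (F : G → A) (h : G) :
    ∑ g : G, F (g * h * g⁻¹) = Nat.card (Subgroup.centralizer ({h} : Set G)) •
      ∑ x : G, if IsConj h x then F x else 0 := by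
  rw [← Finset.sum_fiberwise Finset.univ (fun g : G => g * h * g⁻¹), Finset.smul_sum]
  refine Finset.sum_congr rfl fun x _ => ?_
  have h1 : ∀ g ∈ Finset.univ.filter (fun g : G => g * h * g⁻¹ = x), F (g * h * g⁻¹) = F x := by
    intro g hg
    rw [Finset.mem_filter] at hg
    rw [hg.2]
  rw [Finset.sum_congr rfl h1, Finset.sum_const, card_conj_eq]
  split_ifs
  · rfl
  · rw [zero_smul, smul_zero]

end counting

section main

variable {G : Type*} [Group G] [Fintype G] {P : Cfsg.BNPair G} {p : ℕ} [hp : Fact p.Prime] (D : SBN P p)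
variable {k : Type*} [Field k] [CharP k p] [IsAlgClosed k] {V : Type*} [AddCommGroup V] [Module k V]
  [Module (MonoidAlgebra k G) V] [IsScalarTower k (MonoidAlgebra k G) V] [FiniteDimensional k V]
  [IsSimpleModule (MonoidAlgebra k G) V]

variable (k G V) in
/-- the representation on a module over the group algebra -/
noncomputable def rep : G →* Module.End k V :=
  ((Algebra.lsmul k k V : MonoidAlgebra k G →ₐ[k] Module.End k V) : MonoidAlgebra k G →* Module.End k V).comp
    (MonoidAlgebra.of k G)

omit [Fintype G] [CharP k p] [IsAlgClosed k] [FiniteDimensional k V] [IsSimpleModule (MonoidAlgebra k G) V] in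
theorem rep_apply (g : G) (v : V) : rep G k V g v = (MonoidAlgebra.of k G g) • v := rfl

omit [CharP k p] [IsAlgClosed k] [FiniteDimensional k V] [IsSimpleModule (MonoidAlgebra k G) V] in
theorem smul_eq (a : MonoidAlgebra k G) (v : V) : a • v = (∑ g : G, a.coeff g • rep G k V g) v := by
  have h1 : a = ∑ g : G, a.coeff g • MonoidAlgebra.of k G g := by
    classical
    apply BrauerMap.ext_coeff
    intro x
    rw [BrauerMap.sum_coeff, Finset.sum_eq_single x]
    · simp
    · intro b _ hb
      simp [hb]
    · intro h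
      exact absurd (Finset.mem_univ x) h
  nth_rewrite 1 [h1]
  rw [Finset.sum_smul, LinearMap.sum_apply]
  refine Finset.sum_congr rfl fun g _ => ?_
  rw [smul_assoc]
  rfl

omit [CharP k p] in
/-- density: every endomorphism is the action of an element of the group algebra -/
theorem density (π : Module.End k V) : ∃ a : G → k, π = ∑ g : G, a g • rep G k V g := by
  classical
  have hsc : ∀ f : Module.End (MonoidAlgebra k G) V, ∃ c : k, ∀ v, f v = c • v := by
    intro f
    obtain ⟨c, hc⟩ := (IsSimpleModule.algebraMap_end_bijective_of_isAlgClosed (A := MonoidAlgebra k G) (V := V) k).2 f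
    exact ⟨c, fun v => by rw [← hc]; rfl⟩
  let f : Module.End (Module.End (MonoidAlgebra k G) V) V :=
    { toFun := fun v => π v
      map_add' := fun v w => map_add _ _ _
      map_smul' := fun f v => by
        obtain ⟨c, hc⟩ := hsc f
        simp only [Module.End.smul_def, RingHom.id_apply, hc, map_smul] }
  obtain ⟨a, ha⟩ := jacobson_density (R := MonoidAlgebra k G) (M := V) f
    (Finset.univ.image (Module.finBasis k V))
  refine ⟨fun g => a.coeff g, ?_⟩
  apply (Module.finBasis k V).ext
  intro i
  rw [← smul_eq]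
  exact ha _ (Finset.mem_image_of_mem _ (Finset.mem_univ i))

omit [CharP k p] [IsAlgClosed k] [FiniteDimensional k V] in
/-- invariant subspaces -/
theorem irr {W : Submodule k V} (hW : ∀ g : G, ∀ w ∈ W, rep G k V g w ∈ W) (hne : W ≠ ⊥) : W = ⊤ := by
  let W' : Submodule (MonoidAlgebra k G) V :=
    { carrier := W
      add_mem' := fun ha hb => W.add_mem ha hb
      zero_mem' := W.zero_mem
      smul_mem' := fun a w hw => by
        change a • w ∈ W
        rw [smul_eq, LinearMap.sum_apply]
        exact Submodule.sum_mem _ fun g _ => W.smul_mem _ (hW g w hw) }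
  rcases eq_bot_or_eq_top W' with h | h
  · exfalso
    apply hne
    rw [eq_bot_iff]
    intro x hx
    have h1 : x ∈ W' := hx
    rw [h] at h1
    exact h1
  · rw [eq_top_iff]
    intro x _
    have h1 : x ∈ W' := by rw [h]; trivial
    exact h1

include D in
open Classical in
/-- the central character of a simple module is the principal one, or there is a class of defect zero on which it does
not vanish -/
theorem dichotomy [IsSimpleGroup G] (hpG : p ∣ Nat.card G) :
    (∀ f : G → k, (∀ g x, f (x * g * x⁻¹) = f g) →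
      ∑ g : G, f g • rep G k V g = (∑ x : G, (if x ∈ D.U then f x else 0)) • (1 : Module.End k V)) ∨
    ∃ h : G, ¬ p ∣ Nat.card (Subgroup.centralizer ({h} : Set G)) ∧
      ∑ x : G, (if IsConj h x then rep G k V x else 0) ≠ 0 := by
  have : Nontrivial V := IsSimpleModule.nontrivial (MonoidAlgebra k G) V
  set ρ := rep G k V with hρ
  obtain ⟨n0, hn0, hw0, hst⟩ := D.exists_nJ Set.univ
  have : Fintype D.U := Fintype.ofFinite _
  -- injectivity of `u ↦ u n0 U`
  have hfree : ∀ u ∈ D.U, n0⁻¹ * u * n0 ∈ P.B → u = 1 := by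
    intro u hu h
    have h1 : (⟨u, D.U_le hu⟩ : P.B) ∈ stab P n0 := h
    rw [hst] at h1
    have h2 := mem_UJ_of D hu h1
    rwa [D.UJ_univ, Subgroup.mem_bot] at h2
  by_cases hA : ∃ y ∈ Fx D.U ρ, y ≠ 0 ∧ T D.U ρ n0 y = 0
  · left
    obtain ⟨e, heF, he0, hek⟩ := exists_killed D hn0 hw0 hA
    intro f hf
    set c := ∑ x : G, (if x ∈ D.U then f x else 0) with hc
    have h1 := central_act D hpG hf heF hek
    set Z : Module.End k V := ∑ g : G, f g • ρ g with hZ
    have hZe : Z e = c • e := by
      rw [hZ, LinearMap.sum_apply, ← h1]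
      rfl
    have hcomm : ∀ g, Z * ρ g = ρ g * Z := by
      intro g
      rw [hZ, Finset.sum_mul, Finset.mul_sum]
      refine Fintype.sum_equiv (MulAut.conj g⁻¹).toEquiv _ _ fun x => ?_
      change f x • ρ x * ρ g = ρ g * (f (g⁻¹ * x * g⁻¹⁻¹) • ρ (g⁻¹ * x * g⁻¹⁻¹))
      rw [hf, smul_mul_assoc, mul_smul_comm, ← map_mul, ← map_mul, inv_inv]
      congr 2
      group
    have h2 : LinearMap.ker (Z - c • 1) = ⊤ := by
      apply irr (G := G)
      · intro g w hw
        rw [LinearMap.mem_ker, LinearMap.sub_apply, sub_eq_zero] at hw ⊢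
        have h3 : Z (ρ g w) = ρ g (Z w) := LinearMap.congr_fun (hcomm g) w
        rw [← hρ, h3, hw]
        change ρ g (c • w) = c • ρ g w
        rw [map_smul]
      · rw [Submodule.ne_bot_iff]
        refine ⟨e, ?_, he0⟩
        rw [LinearMap.mem_ker, LinearMap.sub_apply, sub_eq_zero]
        exact hZe
    rw [LinearMap.ker_eq_top, sub_eq_zero] at h2
    exact h2
  · right
    push Not at hA
    -- the longest Hecke operator is onto
    have hT : ∀ y ∈ Fx D.U ρ, T D.U ρ n0 y = ∑ u : D.U, ρ (u : G) (ρ n0 y) := by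
      intro y hy
      rw [T_apply]
      symm
      refine Finset.sum_bij (fun (u : D.U) _ => (((u : G) * n0 : G) : G ⧸ D.U)) ?_ ?_ ?_ ?_
      · intro u _
        exact (mem_orb D.U).mpr ⟨u, u.2, rfl⟩
      · intro a _ b _ h
        rw [QuotientGroup.eq] at h
        have h3 : n0⁻¹ * ((a : G)⁻¹ * b) * n0 ∈ P.B := by
          have : n0⁻¹ * ((a : G)⁻¹ * b) * n0 = ((a : G) * n0)⁻¹ * (b * n0) := by group
          rw [this]
          exact D.U_le h
        have h4 := hfree _ (mul_mem (inv_mem a.2) b.2) h3
        exact Subtype.ext (inv_mul_eq_one.mp h4)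
      · intro c hc
        obtain ⟨u, hu, rfl⟩ := (mem_orb D.U).mp hc
        exact ⟨⟨u, hu⟩, Finset.mem_univ _, rfl⟩
      · intro u _
        rw [act_mk hy, map_mul, Module.End.mul_apply]
    let T0 : Fx D.U ρ →ₗ[k] Fx D.U ρ := (T D.U ρ n0).restrict (fun y hy => T_fix hy n0)
    have hinj : Function.Injective T0 := by
      rw [← LinearMap.ker_eq_bot, eq_bot_iff]
      rintro ⟨y, hy⟩ hy0
      rw [LinearMap.mem_ker] at hy0
      have h1 : T D.U ρ n0 y = 0 := congrArg Subtype.val hy0
      by_contra hne
      exact hA y hy (fun h => hne (by rw [Submodule.mem_bot]; exact Subtype.ext h)) h1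
    have hsurj : Function.Surjective T0 := LinearMap.injective_iff_surjective.mp hinj
    obtain ⟨π, hπ⟩ := exists_trace (p := p) D.U_p (ρ.comp D.U.subtype) (by
      intro y hy
      obtain ⟨⟨y', hy'⟩, h⟩ := hsurj ⟨y, fun u hu => hy ⟨u, hu⟩⟩
      have h1 : T D.U ρ n0 y' = y := congrArg Subtype.val h
      rw [hT y' hy'] at h1
      exact ⟨_, h1⟩)
    have htr := trace_of (k := k) D.U ρ π (by
      rw [← hπ]
      rfl)
    obtain ⟨a, ha⟩ := density (G := G) π
    -- if all class sums vanish we get a contradiction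
    by_contra hcon
    push Not at hcon
    have h1 : ∑ g : G, ρ g * π * ρ g⁻¹ = 0 := by
      have e1 : ∀ g : G, ρ g * π * ρ g⁻¹ = ∑ h : G, a h • ρ (g * h * g⁻¹) := by
        intro g
        rw [ha, Finset.mul_sum, Finset.sum_mul]
        refine Finset.sum_congr rfl fun h _ => ?_
        rw [mul_smul_comm, smul_mul_assoc, map_mul, map_mul]
      rw [Finset.sum_congr rfl fun g _ => e1 g, Finset.sum_comm]
      apply Finset.sum_eq_zero
      intro h _
      rw [← Finset.smul_sum, sum_conj (fun x => ρ x) h]
      by_cases hd : p ∣ Nat.card (Subgroup.centralizer ({h} : Set G))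
      · rw [← Nat.cast_smul_eq_nsmul k, (CharP.cast_eq_zero_iff k p _).mpr hd, zero_smul, smul_zero]
      · rw [hcon h hd, smul_zero, smul_zero]
    rw [htr] at h1
    have h2 : ((D.U.index : ℕ) : k) ≠ 0 := by
      rw [Ne, CharP.cast_eq_zero_iff k p]
      exact (ofSBN D).index_U
    rcases smul_eq_zero.mp h1 with h | h
    · exact h2 h
    · exact one_ne_zero h

end main

end Cfsg.Agent.Lib.SHK
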