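import Mathlib
import Cfsg.Agent.Lib.SHK7
import Cfsg.Agent.Lib.BlockReg
import Cfsg.Agent.Lib.BlockAlg
import Cfsg.Agent.Lib.BlockThird
import Cfsg.Agent.Lib.H76BDim

/-!
The `p`-blocks of a finite simple group with a split (B,N)-pair of characteristic `p`: the principal block and blocks of
defect zero.
-/

set_option autoImplicit false
set_option linter.unusedSectionVars false

namespace Cfsg.Agent.Lib.SHK
open Cfsg Cfsg.Agent.Lib.StTits Cfsg.Agent.Lib.SplitCore Cfsg.Agent.Lib.WBN Cfsg.Agent.Lib.BlockRing
  Cfsg.Agent.Lib.BlockGA Cfsg.Agent.Lib.BlockIdem Cfsg.Agent.Lib.BlockAlg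

universe u

variable {G : Type u} [Group G] [Finite G] {M : Ideal AlgInt}

/-- a simple left ideal in a block -/
theorem exists_simple [M.IsMaximal] {E : MonoidAlgebra (Kf M) G} (hE0 : E ≠ 0) (hE2 : E * E = E)
    (hEc : ∀ a, E * a = a * E) :
    ∃ L : Submodule (MonoidAlgebra (Kf M) G) (MonoidAlgebra (Kf M) G), IsSimpleModule (MonoidAlgebra (Kf M) G) L ∧
      ∀ x ∈ L, E * x = x := by
  let N : Submodule (MonoidAlgebra (Kf M) G) (MonoidAlgebra (Kf M) G) :=
    { carrier := {x | E * x = x}
      add_mem' := fun {a b} ha hb => by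
        change E * (a + b) = a + b
        rw [mul_add, ha, hb]
      zero_mem' := mul_zero _
      smul_mem' := fun a x hx => by
        change E * (a * x) = a * x
        rw [← mul_assoc, hEc, mul_assoc, hx] }
  have hN : N ≠ ⊥ := by
    intro h
    have h1 : E ∈ N := hE2
    rw [h, Submodule.mem_bot] at h1
    exact hE0 h1
  have hfd : Module.Finite (Kf M) (MonoidAlgebra (Kf M) G) := inferInstance
  have hart : IsArtinian (MonoidAlgebra (Kf M) G) (MonoidAlgebra (Kf M) G) :=
    isArtinian_of_tower (Kf M) inferInstance
  obtain ⟨L, hL, hLN⟩ := (IsAtomic.eq_bot_or_exists_atom_le N).resolve_left hN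
  exact ⟨L, isSimpleModule_iff_isAtom.mpr hL, fun x hx => hLN hx⟩

open Classical in
/-- class functions: the sum over the group is the sum over `U` -/
theorem sum_eq_sum_U [Fintype G] {P : Cfsg.BNPair G} {p : ℕ} [hp : Fact p.Prime] (D : SBN P p) [IsSimpleGroup G]
    (hpG : p ∣ Nat.card G) {k : Type*} [Field k] [CharP k p] {f : G → k} (hf : ∀ g x, f (x * g * x⁻¹) = f g) :
    ∑ x : G, f x = ∑ x : G, (if x ∈ D.U then f x else 0) := by
  have hc : ∀ x ∈ Subgroup.centralizer (D.U : Set G), x ∈ D.U := by
    intro x hx
    exact (ofSBN D).cent_U hpG (fun u hu => (Subgroup.mem_centralizer_iff.mp hx u hu).symm)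
  rw [BrauerMap.sum_conj_fixed (p := p) D.U D.U_p f (fun u _ x => hf x u),
    BrauerMap.sum_conj_fixed (p := p) D.U D.U_p (fun x => if x ∈ D.U then f x else 0)]
  · refine Finset.sum_congr rfl fun x hx => ?_
    rw [Finset.mem_filter] at hx
    rw [if_pos (hc x hx.2)]
  · intro u hu x
    have : u * x * u⁻¹ ∈ D.U ↔ x ∈ D.U := by
      constructor
      · intro h
        have := mul_mem (mul_mem (inv_mem hu) h) hu
        have e : u⁻¹ * (u * x * u⁻¹) * u = x := by group
        rwa [e] at this
      · intro h
        exact mul_mem (mul_mem hu h) (inv_mem hu)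
    simp only [this, hf]

theorem redA_central [hMm : M.IsMaximal] {z : GA G} (hz : z ∈ Subalgebra.center ℂ (GA G)) (hl : LocA M z)
    (a : MonoidAlgebra (Kf M) G) : redA M z * a = a * redA M z := by
  have := hMm.isPrime
  rw [← redA_lftA a, ← redA_mul hl (locA_lftA a), ← redA_mul (locA_lftA a) hl, center_comm hz]

set_option maxHeartbeats 1000000 in
/-- the blocks of a simple group with a split (B,N)-pair of characteristic `p` -/
theorem block_alt {P : Cfsg.BNPair G} {p : ℕ} (D : SBN P p) [IsSimpleGroup G] (hpG : p ∣ Nat.card G)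
    (hM : IsPModular p M) {B : Set (IrrCharacter G)} (hB : IsPBlock M B) :
    blockDefect p B = 0 ∨ B = principalBlock M G := by
  classical
  have hMm : M.IsMaximal := isMax hM
  have hMp := isPrime hM
  have hp : Fact p.Prime := ⟨hM.1⟩
  have : Fintype G := Fintype.ofFinite G
  have : CharP (Kf M) p := charP_Kf hM
  have : IsAlgClosed (Kf M) := H76BDim.isAlgClosed_Kf
  set E := redA M (eB B) with hE
  have hEc : ∀ a, E * a = a * E := redA_central (eB_mem_center B) (locA_eB hB)
  have hE2 : E * E = E := by rw [hE, ← redA_mul (locA_eB hB) (locA_eB hB), eB_mul_self]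
  obtain ⟨L, hL, hEL⟩ := exists_simple (redA_eB_ne_zero hB) hE2 hEc
  have hfd : FiniteDimensional (Kf M) L :=
    Module.Finite.of_injective (L.subtype.restrictScalars (Kf M)) L.injective_subtype
  have hnt : Nontrivial L := IsSimpleModule.nontrivial (MonoidAlgebra (Kf M) G) L
  rcases dichotomy (k := Kf M) (V := L) D hpG with h | ⟨h, hh, hS⟩
  · right
    by_contra hne
    set B0 := principalBlock M G with hB0
    have hB0b : IsPBlock M B0 := BlockThird.isPBlock_principal
    set E0 := redA M (eB B0) with hE0
    have hcl : ∀ g x, E0.coeff (x * g * x⁻¹) = E0.coeff g := by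
      intro g x
      have h3 := (mem_center_iff.mp (eB_mem_center B0)) g x
      exact congrArg (red M) h3
    have h1 := h (fun g => E0.coeff g) hcl
    rw [← sum_eq_sum_U D hpG hcl] at h1
    have h2 : ∑ x : G, E0.coeff x = 1 := by
      have h3 : ∑ x : G, E0.coeff x = red M (∑ x : G, (eB B0).coeff x) := by
        rw [red_sum (fun x _ => locA_eB hB0b x)]
        rfl
      rw [h3]
      have h4 : omega ((BlockThird.triv G : IrrCharacter G) : G → ℂ) (eB B0) = 1 :=
        omega_eB_mem BlockThird.triv_mem
      have h5 : ∑ x : G, (eB B0).coeff x = 1 := by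
        rw [← h4, omega, lin_apply]
        simp
      rw [h5, red_one]
    rw [h2, one_smul] at h1
    obtain ⟨v, hv⟩ := exists_ne (0 : L)
    apply hv
    have h6 : E0 • v = v := by
      refine (smul_eq (V := L) E0 v).trans ?_
      rw [h1, Module.End.one_apply]
    have h7 : E * E0 = 0 := by
      rw [hE, hE0, ← redA_mul (locA_eB hB) (locA_eB hB0b), eB_mul_eB, (block_disjoint hB hB0b hne).inter_eq, eB_empty,
        redA_zero]
    apply Subtype.ext
    have h8 : (v : MonoidAlgebra (Kf M) G) = E0 * v := (congrArg Subtype.val h6).symm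
    change (v : MonoidAlgebra (Kf M) G) = 0
    rw [← hEL v v.2, h8, ← mul_assoc, h7, zero_mul]
  · left
    obtain ⟨χ, hχ⟩ := isPBlock_nonempty hB
    have h1 : ¬ MemLocalIdeal M (centralChar (χ : G → ℂ) h) := by
      intro hc
      rw [← omega_classSum χ.2.isClassFunction] at hc
      have h2 := nilp_key hB hχ (classSum_mem_center h) (locA_classSum h)
      rw [red_eq_zero hc, zero_smul, sub_zero] at h2
      obtain ⟨n, hn⟩ := h2
      set Z := redA M (classSum h) with hZ
      set S : Module.End (Kf M) L := ∑ x : G, (if IsConj h x then rep G (Kf M) L x else 0) with hSdef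
      have hZS0 : ∑ x : G, Z.coeff x • rep G (Kf M) L x = S := by
        rw [hSdef]
        refine Finset.sum_congr rfl fun x _ => ?_
        have h3 : Z.coeff x = red M ((classSum h).coeff x) := by rw [hZ]; rfl
        rw [h3, coeff_classSum]
        by_cases hx : IsConj h x
        · rw [if_pos hx, if_pos hx, red_one, one_smul]
        · rw [if_neg hx, if_neg hx, red_zero, zero_smul]
      have hZS : ∀ v : L, Z • v = S v := by
        intro v
        rw [← hZS0]
        exact smul_eq (V := L) Z v
      have hEv : ∀ v : L, E • v = v := fun v => Subtype.ext (hEL v v.2)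
      have hZE : ∀ v : L, (Z * E) • v = S v := by
        intro v
        rw [mul_smul, hEv, hZS]
      have hpow : ∀ (m : ℕ) (v : L), (Z * E) ^ m • v = (S ^ m) v := by
        intro m
        induction m with
        | zero => intro v; rw [pow_zero, pow_zero, one_smul, Module.End.one_apply]
        | succ m ih => intro v; rw [pow_succ, mul_smul, hZE, ih, pow_succ, Module.End.mul_apply]
      have hSn : S ^ n = 0 := by
        ext1 v
        rw [← hpow, hn, zero_smul]
        rfl
      have hcomm : ∀ g v, S (rep G (Kf M) L g v) = rep G (Kf M) L g (S v) := by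
        intro g v
        rw [← hZS, ← hZS, rep_apply, rep_apply, ← mul_smul, ← mul_smul,
          redA_central (classSum_mem_center h) (locA_classSum h)]
      apply hS
      have hker : LinearMap.ker S = ⊤ := by
        apply irr (G := G)
        · intro g w hw
          rw [LinearMap.mem_ker] at hw ⊢
          rw [hcomm, hw, map_zero]
        · intro hbot
          have hinj : ∀ v, S v = 0 → v = 0 := by
            intro v hv
            have h3 : v ∈ LinearMap.ker S := hv
            rw [hbot, Submodule.mem_bot] at h3
            exact h3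
          have hinj' : ∀ (m : ℕ) (v : L), (S ^ m) v = 0 → v = 0 := by
            intro m
            induction m with
            | zero => intro v hv; rwa [pow_zero, Module.End.one_apply] at hv
            | succ m ih =>
              intro v hv
              rw [pow_succ, Module.End.mul_apply] at hv
              exact hinj v (ih _ hv)
          obtain ⟨v, hv⟩ := exists_ne (0 : L)
          apply hv
          apply hinj' n
          rw [hSn]
          rfl
      exact LinearMap.ker_eq_top.mp hker
    have h2 := BlockReg.fact_of_omega hM hB hχ h1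
    rw [Nat.factorization_eq_zero_of_not_dvd hh] at h2
    exact Nat.le_zero.mp h2

theorem block_defect {P : Cfsg.BNPair G} {p : ℕ} (D : SBN P p) [IsSimpleGroup G] (hpG : p ∣ Nat.card G)
    (hM : IsPModular p M) {B : Set (IrrCharacter G)} (hB : IsPBlock M B) :
    blockDefect p B = 0 ∨ blockDefect p B = (Nat.card G).factorization p := by
  have hMp := isPrime hM
  rcases block_alt D hpG hM hB with h | h
  · exact Or.inl h
  · right
    rw [blockDefect]
    have h1 : sInf ((fun χ : IrrCharacter G => (charDegree (χ : G → ℂ)).factorization p) '' B) = 0 := by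
      apply Nat.sInf_eq_zero.mpr
      left
      refine ⟨BlockThird.triv G, ?_, ?_⟩
      · rw [h]; exact BlockThird.triv_mem
      · simp [charDegree]
    rw [h1, Nat.sub_zero]

end Cfsg.Agent.Lib.SHK
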