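import Cfsg.Agent.Lib.SL2Deg
import Cfsg.Agent.Lib.DicyclicCount

/-! Numbers of classes and of irreducible characters of `SL₂(q)`. -/

namespace Cfsg.Agent.Lib.SL2Count

open Cfsg Classical Matrix ComplexConjugate
open Cfsg.Agent.Lib.SL2Basic Cfsg.Agent.Lib.SL2Tori Cfsg.Agent.Lib.SL2Int Cfsg.Agent.Lib.SL2Ind
open Cfsg.Agent.Lib.CharBasic Cfsg.Agent.Lib.LinChar Cfsg.Agent.Lib.SL2Ortho
open Cfsg.Agent.Lib.SL2Class Cfsg.Agent.Lib.SL2Vals Cfsg.Agent.Lib.SL2Deg

universe u

section general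

variable {G : Type u} [Group G]

theorem centralizer_card_class (g h : G) :
    Nat.card (Subgroup.centralizer ({h * g * h⁻¹} : Set G)) =
      Nat.card (Subgroup.centralizer ({g} : Set G)) := by
  symm
  apply Nat.card_congr
  refine ⟨fun x => ⟨h * x * h⁻¹, ?_⟩, fun x => ⟨h⁻¹ * x * h, ?_⟩, ?_, ?_⟩
  · have hx := Subgroup.mem_centralizer_singleton_iff.1 x.2
    rw [Subgroup.mem_centralizer_singleton_iff]
    calc h * (x : G) * h⁻¹ * (h * g * h⁻¹) = h * (x * g) * h⁻¹ := by group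
      _ = h * (g * x) * h⁻¹ := by rw [hx]
      _ = h * g * h⁻¹ * (h * x * h⁻¹) := by group
  · have hx := Subgroup.mem_centralizer_singleton_iff.1 x.2
    rw [Subgroup.mem_centralizer_singleton_iff]
    calc h⁻¹ * (x : G) * h * g = h⁻¹ * (x * (h * g * h⁻¹)) * h := by group
      _ = h⁻¹ * (h * g * h⁻¹ * x) * h := by rw [hx]
      _ = g * (h⁻¹ * x * h) := by group
  · intro x; apply Subtype.ext; simp only; group
  · intro x; apply Subtype.ext; simp only; group

variable [Fintype G]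

/-- a character of norm two has exactly two irreducible constituents -/
theorem card_constituents {φ : G → ℂ} (hφ : IsCharacter G φ) (h2 : classInner φ φ = 2) :
    Nat.card {χ : IrrCharacter G // classInner (χ : G → ℂ) φ ≠ 0} = 2 := by
  obtain ⟨a, b, ha, hb, hab, hR⟩ := exists_two_irr hφ h2
  rw [Nat.card_eq_two_iff]
  refine ⟨⟨⟨a, ha⟩, ?_⟩, ⟨⟨b, hb⟩, ?_⟩, ?_, ?_⟩
  · simp only [hR, classInner_add_right, ha.classInner_self, ha.classInner_eq_zero hb hab, add_zero]
    exact one_ne_zero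
  · simp only [hR, classInner_add_right, hb.classInner_self, hb.classInner_eq_zero ha hab.symm, zero_add]
    exact one_ne_zero
  · intro h
    apply hab
    exact congrArg (fun x => ((x : {χ : IrrCharacter G // classInner (χ : G → ℂ) φ ≠ 0}) : IrrCharacter G).1) h
  · apply Set.eq_univ_of_forall
    rintro ⟨⟨χ, hχ⟩, hne⟩
    simp only [Set.mem_insert_iff, Set.mem_singleton_iff, Subtype.mk.injEq]
    by_contra hcon
    push Not at hcon
    apply hne
    simp only [hR, classInner_add_right]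
    rw [hχ.classInner_eq_zero ha hcon.1, hχ.classInner_eq_zero hb hcon.2, add_zero]

end general

variable {F : Type u} [Field F]

local notation "SL2" => Matrix.SpecialLinearGroup (Fin 2) F
local notation "M2" => Matrix (Fin 2) (Fin 2) F
local notation "q" => (Nat.card F : ℂ)

theorem centralizer_SP {s : SL2} (hs : s ∈ (SP : Set SL2)) (x : SL2) :
    x ∈ Subgroup.centralizer ({s} : Set SL2) ↔ ∃ z ∈ Zs F, ∃ c : F, x = z * uu c := by
  obtain ⟨h10, h00, h01⟩ := hs
  constructor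
  · intro hx
    rw [Subgroup.mem_centralizer_singleton_iff] at hx
    have hconj : x * s * x⁻¹ = s := by rw [hx]; group
    have hB := (sp_ti s ⟨h10, h00, h01⟩ x).1 (by rw [hconj]; exact ⟨h10, h00, h01⟩)
    rw [mem_bor] at hB
    obtain ⟨e00, e01, e10, e11⟩ := conj_entries x s h10
    rw [hconj] at e01
    have hd := det2 x
    rw [hB] at hd
    rw [h00] at e01
    have h2 : (s : M2) 0 1 * ((x : M2) 0 0 ^ 2 - 1) = 0 := by linear_combination -e01
    have h3 : (x : M2) 0 0 ^ 2 = 1 := by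
      rcases mul_eq_zero.1 h2 with h | h
      · exact absurd h h01
      · exact sub_eq_zero.1 h
    have h4 : (x : M2) 0 0 = (x : M2) 1 1 := by
      have h5 : (x : M2) 0 0 * ((x : M2) 0 0 - (x : M2) 1 1) = 0 := by linear_combination h3 - hd
      rcases mul_eq_zero.1 h5 with h | h
      · rw [h] at h3; norm_num at h3
      · exact sub_eq_zero.1 h
    by_cases h5 : (x : M2) 0 1 = 0
    · refine ⟨x, mem_Zs.2 ((mem_center_iff_entries x).2 ⟨h5, hB, h4⟩), 0, ?_⟩
      have : (uu (0 : F) : SL2) = 1 := by apply ext2 <;> simp [coe_uu]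
      rw [this, mul_one]
    · obtain ⟨z, hz, b, hb⟩ := exists_of_mem_SP (g := x) ⟨hB, h4, h5⟩
      exact ⟨z, hz, b, hb⟩
  · rintro ⟨z, hz, c, rfl⟩
    obtain ⟨w, hw, b, rfl⟩ := exists_of_mem_SP (g := s) ⟨h10, h00, h01⟩
    rw [Subgroup.mem_centralizer_singleton_iff]
    have hzc := Subgroup.mem_center_iff.1 (mem_Zs.1 hz)
    have hwc := Subgroup.mem_center_iff.1 (mem_Zs.1 hw)
    have huu : ∀ a b : F, (uu a * uu b : SL2) = uu (a + b) := by
      intro a b
      apply ext2 <;> simp [coe_uu, add_comm]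
    calc z * uu c * (w * uu (b : F)) = z * (uu c * w) * uu (b : F) := by group
      _ = z * (w * uu c) * uu (b : F) := by rw [hwc]
      _ = (z * w) * (uu c * uu (b : F)) := by group
      _ = (w * z) * (uu (b : F) * uu c) := by rw [hwc z, huu, huu, add_comm]
      _ = w * (z * uu (b : F)) * uu c := by group
      _ = w * (uu (b : F) * z) * uu c := by rw [← hzc]
      _ = w * uu (b : F) * (z * uu c) := by group

theorem mul_uu_inj' {z w : SL2} (hz : z ∈ Zs F) (hw : w ∈ Zs F) {b c : F}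
    (h : z * uu b = w * uu c) : z = w ∧ b = c := by
  rw [mem_Zs, mem_center_iff_entries] at hz hw
  have e01 := congrArg (fun A : SL2 => (A : M2) 0 1) h
  have e00 := congrArg (fun A : SL2 => (A : M2) 0 0) h
  simp [coe_uu, Matrix.mul_apply, Fin.sum_univ_two, hz.1, hw.1] at e00 e01
  have h1 : z = w := by
    apply ext2
    · exact e00
    · rw [hz.1, hw.1]
    · rw [hz.2.1, hw.2.1]
    · rw [← hz.2.2, ← hw.2.2, e00]
  refine ⟨h1, ?_⟩
  have h2 := det2 w
  rw [hw.1, hw.2.1, ← hw.2.2] at h2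
  have hne : (w : M2) 0 0 ≠ 0 := by
    intro h0; rw [h0] at h2; simp at h2
  rw [e00] at e01
  exact mul_left_cancel₀ hne e01

theorem card_centralizer_SP {s : SL2} (hs : s ∈ (SP : Set SL2)) :
    Nat.card (Subgroup.centralizer ({s} : Set SL2)) = (Zs F).card * Nat.card F := by
  have e : (Zs F) × F ≃ Subgroup.centralizer ({s} : Set SL2) := by
    apply Equiv.ofBijective (fun p => ⟨(p.1 : SL2) * uu p.2,
      (centralizer_SP hs _).2 ⟨p.1, p.1.2, p.2, rfl⟩⟩)
    constructor
    · rintro ⟨⟨z, hz⟩, b⟩ ⟨⟨w, hw⟩, c⟩ h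
      have := mul_uu_inj' hz hw (congrArg Subtype.val h)
      simp only [Prod.mk.injEq, Subtype.mk.injEq]
      exact this
    · rintro ⟨x, hx⟩
      obtain ⟨z, hz, c, rfl⟩ := (centralizer_SP hs x).1 hx
      exact ⟨(⟨z, hz⟩, c), rfl⟩
  rw [← Nat.card_congr e, Nat.card_prod, Nat.card_eq_fintype_card (α := Zs F), Fintype.card_coe]

variable [Finite F] [Fintype (Matrix.SpecialLinearGroup (Fin 2) F)]

theorem card_conjClasses : Nat.card (ConjClasses SL2) = Nat.card F + (Zs F).card ^ 2 := by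
  have : Fintype F := Fintype.ofFinite F
  obtain ⟨A₀, h0⟩ := exists_isEll (F := F)
  set f : SL2 → ℂ := fun g => (Nat.card (Subgroup.centralizer ({g} : Set SL2)) : ℂ) with hf
  have hcl : IsClassFunction SL2 f := by
    intro g h
    rw [hf]; simp only
    rw [centralizer_card_class]
  have hsum := Cfsg.Agent.Lib.DicyclicCount.sum_card_centralizer (G := SL2)
  have h := sum_formula' hcl h0 (fun _ => q - 1) (fun _ => q + 1) ?_ ?_
  · have e0 : ∑ g : SL2, f g = (Nat.card (ConjClasses SL2) : ℂ) * (q * ((q - 1) * (q + 1))) := by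
      rw [← card_SL2_cast, hf, ← Nat.cast_mul, ← hsum]
      push_cast
      rfl
    have e1 : ∑ z ∈ Zs F, f z = (Zs F).card * (q * ((q - 1) * (q + 1))) := by
      rw [← nsmul_eq_mul, ← Finset.sum_const]
      apply Finset.sum_congr rfl
      intro z hz
      rw [hf]
      simp only
      have : Subgroup.centralizer ({z} : Set SL2) = ⊤ := by
        rw [eq_top_iff]
        intro x _
        rw [Subgroup.mem_centralizer_singleton_iff]
        exact Subgroup.mem_center_iff.1 (mem_Zs.1 hz) x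
      rw [this, Subgroup.card_top, card_SL2_cast]
    have e2 : ∑ z ∈ Zs F, ∑ b : Fˣ, f (z * uu (b : F)) =
        (Zs F).card * ((q - 1) * ((Zs F).card * q)) := by
      have e3 : ∀ z ∈ Zs F, ∑ b : Fˣ, f (z * uu (b : F)) = (q - 1) * ((Zs F).card * q) := by
        intro z hz
        have e4 : ∀ b : Fˣ, f (z * uu (b : F)) = (Zs F).card * q := by
          intro b
          rw [hf]; simp only
          rw [card_centralizer_SP (mul_uu_mem_SP hz b)]
          push_cast; ring
        rw [Finset.sum_congr rfl (fun b _ => e4 b), Finset.sum_const, Finset.card_univ, nsmul_eq_mul,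
          ← Nat.card_eq_fintype_card, Nat.card_units]
        have h2 : 1 ≤ Nat.card F := Finite.card_pos
        push_cast [Nat.cast_sub h2]
        ring
      rw [Finset.sum_congr rfl e3, Finset.sum_const, nsmul_eq_mul]
    rw [e0, e1, e2] at h
    simp only [Finset.sum_const, Finset.card_univ, nsmul_eq_mul] at h
    rw [← Nat.card_eq_fintype_card (α := Fˣ), Nat.card_units,
      ← Nat.card_eq_fintype_card (α := Subgroup.centralizer ({A₀} : Set SL2)), C_card h0] at h
    have h2 : 1 ≤ Nat.card F := Finite.card_pos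
    push_cast [Nat.cast_sub h2] at h
    have h1 := q_ne_zero (F := F)
    have h2 := q_sub_one_ne_zero (F := F)
    have h3 := q_add_one_ne_zero (F := F)
    have h4 : 2 * (q * ((q - 1) * (q + 1))) ≠ 0 := mul_ne_zero two_ne_zero (mul_ne_zero h1 (mul_ne_zero h2 h3))
    have h5 : (Nat.card (ConjClasses SL2) : ℂ) = q + (Zs F).card ^ 2 := by
      apply mul_left_cancel₀ h4
      linear_combination h
    exact_mod_cast h5
  · intro g hg
    obtain ⟨c, hc, rfl⟩ := exists_dg_of_mem_ST hg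
    rw [hf]; simp only
    rw [centralizer_dg hc, card_range_dgHom]
    have h2 : 1 ≤ Nat.card F := Finite.card_pos
    push_cast [Nat.cast_sub h2]
    rfl
  · intro g hg
    rw [hf]; simp only
    rw [centralizer_eq_of_mem_SC (not_mem_center_of_tr (sq_ne_four_of_no_root h0)) hg, C_card h0]
    push_cast; rfl

omit [Finite F] [Fintype (Matrix.SpecialLinearGroup (Fin 2) F)] in
theorem card_Zs_odd (h2 : (2 : F) ≠ 0) : (Zs F).card = 2 := by
  rw [Zs, Finset.card_pair]
  intro h
  apply h2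
  have := congrArg (fun A : SL2 => (A : M2) 0 0) h
  simp at this
  linear_combination this

omit [Finite F] [Fintype (Matrix.SpecialLinearGroup (Fin 2) F)] in
theorem card_Zs_even (h2 : (2 : F) = 0) : (Zs F).card = 1 := by
  have : (-1 : SL2) = 1 := by
    have : (-1 : F) = 1 := by linear_combination -h2
    apply ext2 <;> simp [this]
  rw [Zs, this]; simp

/-! ### Numbers of irreducible characters -/

theorem card_ps : 2 * Nat.card {χ : IrrCharacter SL2 // ∃ α : MulChar F ℂ, α ^ 2 ≠ 1 ∧ (χ : SL2 → ℂ) = R α} =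
    Nat.card {α : MulChar F ℂ // α ^ 2 ≠ 1} := by
  have hinv : ∀ α : MulChar F ℂ, α ^ 2 ≠ 1 → α⁻¹ ^ 2 ≠ 1 := by
    intro α h h5
    apply h
    rw [inv_pow] at h5
    exact inv_eq_one.1 h5
  let f : {α : MulChar F ℂ // α ^ 2 ≠ 1} → IrrCharacter SL2 := fun α => ⟨R α.1, R_isIrr α.2⟩
  have h := two_mul_card_image f (fun α => ⟨α.1⁻¹, hinv α.1 α.2⟩) ?_ ?_
  · rw [← h]
    congr 2
    have : (Set.range f) = {χ : IrrCharacter SL2 | ∃ α : MulChar F ℂ, α ^ 2 ≠ 1 ∧ (χ : SL2 → ℂ) = R α} := by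
      ext χ
      constructor
      · rintro ⟨α, rfl⟩
        exact ⟨α.1, α.2, rfl⟩
      · rintro ⟨α, hα, h⟩
        exact ⟨⟨α, hα⟩, Subtype.ext h.symm⟩
    rw [this]
    rfl
  · intro α h
    have h1 : α.1⁻¹ = α.1 := congrArg Subtype.val h
    apply α.2
    rw [pow_two]
    nth_rewrite 2 [← h1]
    exact mul_inv_cancel α.1
  · intro α β
    rw [Subtype.mk.injEq, R_eq_iff α.2, Subtype.ext_iff, Subtype.ext_iff]

theorem card_half_ps {α : MulChar F ℂ} (h : α ^ 2 = 1) :
    Nat.card {χ : IrrCharacter SL2 // classInner (χ : SL2 → ℂ) (R α) ≠ 0} = 2 := by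
  apply card_constituents (R_isCharacter α)
  have hinv : α = α⁻¹ := mul_eq_one_iff_eq_inv.1 (by rw [← pow_two]; exact h)
  rw [inner_R_R, if_pos rfl, if_pos hinv]; norm_num

section

variable {A₀ : Matrix.SpecialLinearGroup (Fin 2) F}

omit [Fintype (Matrix.SpecialLinearGroup (Fin 2) F)] in
theorem card_homC (h0 : IsEll A₀) :
    Nat.card (Subgroup.centralizer ({A₀} : Set (Matrix.SpecialLinearGroup (Fin 2) F)) →* ℂˣ) =
      Nat.card F + 1 := by
  rw [card_hom (C_comm h0), C_card h0]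

theorem card_cusp (h0 : IsEll A₀) : 2 * Nat.card {χ : IrrCharacter SL2 //
      ∃ θ : Subgroup.centralizer ({A₀} : Set (Matrix.SpecialLinearGroup (Fin 2) F)) →* ℂˣ,
        θ ^ 2 ≠ 1 ∧ (χ : SL2 → ℂ) = cusp θ} =
    Nat.card {θ : Subgroup.centralizer ({A₀} : Set (Matrix.SpecialLinearGroup (Fin 2) F)) →* ℂˣ //
      θ ^ 2 ≠ 1} := by
  have := finite_homC (F := F) h0
  have hinv : ∀ θ : Subgroup.centralizer ({A₀} : Set (Matrix.SpecialLinearGroup (Fin 2) F)) →* ℂˣ,
      θ ^ 2 ≠ 1 → θ⁻¹ ^ 2 ≠ 1 := by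
    intro θ h h5
    apply h
    ext a
    have h6 := DFunLike.congr_fun h5 a
    rw [MonoidHom.pow_apply, MonoidHom.inv_apply, inv_pow, MonoidHom.one_apply, inv_eq_one] at h6
    rw [MonoidHom.pow_apply, h6]; rfl
  let f : {θ : Subgroup.centralizer ({A₀} : Set (Matrix.SpecialLinearGroup (Fin 2) F)) →* ℂˣ //
      θ ^ 2 ≠ 1} → IrrCharacter SL2 := fun θ => ⟨cusp θ.1, cusp_isIrr h0 θ.2⟩
  have h := two_mul_card_image f (fun α => ⟨α.1⁻¹, hinv α.1 α.2⟩) ?_ ?_
  · rw [← h]
    congr 2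
    have : (Set.range f) = {χ : IrrCharacter SL2 |
        ∃ θ : Subgroup.centralizer ({A₀} : Set (Matrix.SpecialLinearGroup (Fin 2) F)) →* ℂˣ,
        θ ^ 2 ≠ 1 ∧ (χ : SL2 → ℂ) = cusp θ} := by
      ext χ
      constructor
      · rintro ⟨α, rfl⟩
        exact ⟨α.1, α.2, rfl⟩
      · rintro ⟨α, hα, h⟩
        exact ⟨⟨α, hα⟩, Subtype.ext h.symm⟩
    rw [this]
    rfl
  · intro θ h
    have h1 : θ.1⁻¹ = θ.1 := congrArg Subtype.val h
    exact θ.2 ((hom_eq_inv_iff θ.1).1 h1.symm)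
  · intro θ θ'
    rw [Subtype.mk.injEq, cusp_eq_iff h0 θ.2, Subtype.ext_iff, Subtype.ext_iff]

theorem card_half_cusp (h0 : IsEll A₀)
    {θ : Subgroup.centralizer ({A₀} : Set (Matrix.SpecialLinearGroup (Fin 2) F)) →* ℂˣ}
    (h : θ ^ 2 = 1) (h1 : θ ≠ 1) :
    Nat.card {χ : IrrCharacter SL2 // classInner (χ : SL2 → ℂ) (cusp θ) ≠ 0} = 2 := by
  apply card_constituents (cusp_isCharacter h0 h h1)
  rw [inner_cusp_cusp h0, if_pos rfl, if_pos ((hom_eq_inv_iff θ).2 h)]; norm_num

omit [Fintype (Matrix.SpecialLinearGroup (Fin 2) F)] in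
theorem card_compl {X : Type*} [Finite X] (P : X → Prop) :
    Nat.card {x // ¬ P x} = Nat.card X - Nat.card {x // P x} := by
  have := Fintype.ofFinite X
  rw [Nat.card_eq_fintype_card, Nat.card_eq_fintype_card, Nat.card_eq_fintype_card,
    Fintype.card_subtype_compl]

omit [Fintype (Matrix.SpecialLinearGroup (Fin 2) F)] in
theorem card_alpha_odd (hodd : Odd (Nat.card F)) :
    Nat.card {α : MulChar F ℂ // α ^ 2 ≠ 1} = Nat.card F - 3 := by
  rw [card_compl, card_mulChar, card_mulChar_sq_one hodd]; omega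

omit [Fintype (Matrix.SpecialLinearGroup (Fin 2) F)] in
theorem card_alpha_even (hev : Even (Nat.card F)) :
    Nat.card {α : MulChar F ℂ // α ^ 2 ≠ 1} = Nat.card F - 2 := by
  rw [card_compl, card_mulChar]
  have : Nat.card {α : MulChar F ℂ // α ^ 2 = 1} = 1 := by
    rw [Nat.card_eq_one_iff_unique]
    refine ⟨⟨?_⟩, ⟨⟨1, by simp⟩⟩⟩
    rintro ⟨a, ha⟩ ⟨b, hb⟩
    apply Subtype.ext
    simp only
    rw [mulChar_sq_one_even hev ha, mulChar_sq_one_even hev hb]
  rw [this]; omega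

omit [Fintype (Matrix.SpecialLinearGroup (Fin 2) F)] in
theorem card_theta_odd (h0 : IsEll A₀) (hodd : Odd (Nat.card F)) :
    Nat.card {θ : Subgroup.centralizer ({A₀} : Set (Matrix.SpecialLinearGroup (Fin 2) F)) →* ℂˣ //
      θ ^ 2 ≠ 1} = Nat.card F - 1 := by
  have := finite_homC (F := F) h0
  have := C_cyclic h0
  rw [card_compl, card_homC h0, card_sq_one_even]
  · omega
  · rw [C_card h0]
    obtain ⟨k, hk⟩ := hodd
    exact ⟨k + 1, by omega⟩

omit [Fintype (Matrix.SpecialLinearGroup (Fin 2) F)] in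
theorem card_theta_even (h0 : IsEll A₀) (hev : Even (Nat.card F)) :
    Nat.card {θ : Subgroup.centralizer ({A₀} : Set (Matrix.SpecialLinearGroup (Fin 2) F)) →* ℂˣ //
      θ ^ 2 ≠ 1} = Nat.card F := by
  have := finite_homC (F := F) h0
  have := C_cyclic h0
  have hodd : Odd (Nat.card (Subgroup.centralizer ({A₀} : Set (Matrix.SpecialLinearGroup (Fin 2) F)))) := by
    rw [C_card h0]
    obtain ⟨k, hk⟩ := hev
    exact ⟨k, by omega⟩
  rw [card_compl, card_homC h0]
  have : Nat.card {θ : Subgroup.centralizer ({A₀} : Set (Matrix.SpecialLinearGroup (Fin 2) F)) →* ℂˣ //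
      θ ^ 2 = 1} = 1 := by
    rw [Nat.card_eq_one_iff_unique]
    refine ⟨⟨?_⟩, ⟨⟨1, by ext a; simp⟩⟩⟩
    rintro ⟨a, ha⟩ ⟨b, hb⟩
    apply Subtype.ext
    simp only
    rw [sq_eq_one_odd hodd ha, sq_eq_one_odd hodd hb]
  rw [this]; omega

end

end Cfsg.Agent.Lib.SL2Count
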