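import Cfsg.Agent.Lib.SLPoint
import Cfsg.Agent.Lib.CharBasic

/-!
# The gap between `dim C(X)` and `tr (e_X e_X')` for representations of `SL₂(q)` (helper83)
-/

set_option autoImplicit false
set_option linter.all false

namespace Cfsg.Agent.Lib.SL2Gap

open Matrix MinIdxTv MinIdxFour MinIdxAct AvgTrace SLPoint

variable {F : Type*} [Field F] [Fintype F] {V : Type*} [AddCommGroup V] [Module ℂ V]

/-- the first root subgroup -/
noncomputable def u0 (x : F) : SpecialLinearGroup (Fin 2) F := tv (Pi.single 0 1) (x • Pi.single 1 1)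

/-- the second root subgroup -/
noncomputable def u1 (x : F) : SpecialLinearGroup (Fin 2) F := tv (Pi.single 1 1) (x • Pi.single 0 1)

theorem dual2 : Dual (F := F) (n := 2) (Pi.single 0 1) (Pi.single 1 1) (Pi.single 0 1) (Pi.single 1 1) :=
  ⟨by simp, by simp, by simp, by simp⟩

theorem W2_eq (y : (Wc (Pi.single 0 1) ⊓ Wc (Pi.single 1 1) : Submodule F (Fin 2 → F))) : y = 0 := by
  apply Subtype.ext
  have h0 : y.1 ⬝ᵥ (Pi.single 0 1) = 0 := y.2.1
  have h1 : y.1 ⬝ᵥ (Pi.single 1 1) = 0 := y.2.2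
  rw [dotProduct_single_one] at h0 h1
  ext i
  fin_cases i
  · exact h0
  · exact h1

variable (ρ : Representation ℂ (SpecialLinearGroup (Fin 2) F) V)

theorem A_eq_one (c : Fin 2 → F) : A ρ (Pi.single 0 1) (Pi.single 1 1) c = 1 := by
  unfold A av
  have hs : ∀ y : (Wc (Pi.single 0 1) ⊓ Wc (Pi.single 1 1) : Submodule F (Fin 2 → F)),
      ρ (tv c y.1) = (1 : V →ₗ[ℂ] V) := by
    intro y
    rw [W2_eq y]
    show ρ (tv c 0) = 1
    rw [tv_zero_right, map_one]
  rw [Finset.sum_congr rfl (fun y _ => hs y), Finset.sum_const, Finset.card_univ, ← Nat.cast_smul_eq_nsmul ℂ, smul_smul,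
    inv_mul_cancel₀ (Nat.cast_ne_zero.2 Fintype.card_ne_zero), one_smul]

theorem E0_eq : E ρ (Pi.single 0 1) = av ρ (u0 (F := F)) := by
  rw [dual2.E_eq, A_eq_one, mul_one]
  rfl

theorem E1_eq : E ρ (Pi.single 1 1) = av ρ (u1 (F := F)) := by
  rw [dual2.symm.E_eq, A_symm, A_eq_one, mul_one]
  rfl

theorem u0_add (x y : F) : u0 (x + y) = u0 x * u0 y := by
  unfold u0
  rw [tv_mul_right _ _ _ (by simp) (by simp), add_smul]

theorem u0_zero : u0 (0 : F) = 1 := by
  unfold u0
  rw [zero_smul, tv_zero_right]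

/-- the torus -/
def tor (a : Fˣ) : SpecialLinearGroup (Fin 2) F := ⟨!![(a : F), 0; 0, (a⁻¹ : Fˣ)], by
  rw [Matrix.det_fin_two_of]; simp⟩

theorem tor_inv (a : Fˣ) : (tor a)⁻¹ = tor a⁻¹ := by
  rw [inv_eq_iff_mul_eq_one]
  ext i j
  rw [Matrix.SpecialLinearGroup.coe_mul]
  fin_cases i <;> fin_cases j <;> simp [tor, Matrix.mul_apply]

theorem tor_conj (a : Fˣ) (x : F) : tor a * u0 x * (tor a)⁻¹ = u0 ((a : F) ^ 2 * x) := by
  unfold u0
  rw [tv_conj _ _ _ (by simp), tor_inv]
  have h1 : ((tor a : SpecialLinearGroup (Fin 2) F) : Matrix (Fin 2) (Fin 2) F) *ᵥ (Pi.single 0 1) = (a : F) • Pi.single 0 1 := by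
    ext i
    fin_cases i <;> simp [tor, mulVec, dotProduct]
  have h2 : (x • Pi.single 1 1) ᵥ* ((tor a⁻¹ : SpecialLinearGroup (Fin 2) F) : Matrix (Fin 2) (Fin 2) F) =
      ((a : F) * x) • (Pi.single 1 1 : Fin 2 → F) := by
    ext i
    fin_cases i <;> simp [tor, vecMul, dotProduct, mul_comm]
  rw [h1, h2, tv_smul _ _ _ (by simp), smul_smul]
  congr 2
  ring

/-- the matrix moving `e₁` to `v` -/
def hv (v : Fin 2 → F) (h : v 1 ≠ 0) : SpecialLinearGroup (Fin 2) F := ⟨!![(v 1)⁻¹, v 0; 0, v 1], by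
  rw [Matrix.det_fin_two_of, inv_mul_cancel₀ h]; simp⟩

variable [FiniteDimensional ℂ V]

theorem trace_E (v : Fin 2 → F) (hv' : v ∉ Submodule.span F {(Pi.single 0 1 : Fin 2 → F)}) :
    LinearMap.trace ℂ V (E ρ v * E ρ (Pi.single 0 1)) = LinearMap.trace ℂ V (E ρ (Pi.single 1 1) * E ρ (Pi.single 0 1)) := by
  have h : v 1 ≠ 0 := by
    intro h
    apply hv'
    rw [Submodule.mem_span_singleton]
    refine ⟨v 0, ?_⟩
    ext i
    fin_cases i
    · simp
    · simp [h]
  have h1 : ((hv v h : SpecialLinearGroup (Fin 2) F) : Matrix (Fin 2) (Fin 2) F) *ᵥ (Pi.single 1 1) = v := by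
    ext i
    fin_cases i <;> simp [hv, mulVec, dotProduct]
  have h2 : ((hv v h : SpecialLinearGroup (Fin 2) F) : Matrix (Fin 2) (Fin 2) F) *ᵥ (Pi.single 0 1) = (v 1)⁻¹ • Pi.single 0 1 := by
    ext i
    fin_cases i <;> simp [hv, mulVec, dotProduct]
  have h3 := E_conj ρ (hv v h) (Pi.single 1 1)
  have h4 := E_conj ρ (hv v h) (Pi.single 0 1)
  rw [h1] at h3
  rw [h2, E_smul ρ (inv_ne_zero h)] at h4
  rw [← h3]
  have h5 : ρ (hv v h) * E ρ (Pi.single 1 1) * ρ (hv v h)⁻¹ * E ρ (Pi.single 0 1) =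
      ρ (hv v h) * (E ρ (Pi.single 1 1) * E ρ (Pi.single 0 1)) * ρ (hv v h)⁻¹ := by
    conv_lhs => rw [← h4]
    calc _ = ρ (hv v h) * E ρ (Pi.single 1 1) * (ρ (hv v h)⁻¹ * ρ (hv v h)) * E ρ (Pi.single 0 1) * ρ (hv v h)⁻¹ := by
          simp only [mul_assoc]
      _ = _ := by rw [rho_inv_mul, mul_one]; simp only [mul_assoc]
  rw [h5, LinearMap.trace_mul_comm, ← mul_assoc, rho_inv_mul, one_mul]

/-- the number of weights: `2 (D - f) ≥ q - 1` -/
theorem weights (h1 : av ρ (u0 (F := F)) ≠ 1) :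
    Fintype.card F ≤ 2 * (Module.finrank ℂ V - Module.finrank ℂ (LinearMap.range (av ρ (u0 (F := F))))) + 1 := by
  classical
  have hu := u0_add (F := F)
  have h0 := u0_zero (F := F)
  have hsum := sum_ew ρ h0
  -- a nonzero weight
  obtain ⟨ψ, hψ, hne⟩ : ∃ ψ : AddChar F ℂ, ψ ≠ 0 ∧ ew ρ u0 ψ ≠ 0 := by
    by_contra hcon
    push Not at hcon
    apply h1
    rw [← Finset.add_sum_erase Finset.univ _ (Finset.mem_univ (0 : AddChar F ℂ)), Finset.sum_eq_zero (fun ψ hψ => by
      exact hcon ψ (Finset.ne_of_mem_erase hψ)), add_zero, ew_zero] at hsum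
    exact hsum
  -- dimensions
  have hdim : Module.finrank ℂ V = ∑ ψ : AddChar F ℂ, Module.finrank ℂ (LinearMap.range (ew ρ u0 ψ)) := by
    have h2 : (Module.finrank ℂ V : ℂ) = ∑ ψ : AddChar F ℂ, (Module.finrank ℂ (LinearMap.range (ew ρ u0 ψ)) : ℂ) := by
      rw [← LinearMap.trace_one, ← hsum, map_sum]
      exact Finset.sum_congr rfl fun φ _ => trace_idem (ew_mul_self ρ hu φ)
    exact_mod_cast h2
  rw [← Finset.add_sum_erase Finset.univ _ (Finset.mem_univ (0 : AddChar F ℂ)), ew_zero] at hdim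
  -- the weights in the orbit of the torus
  let φ : Fˣ → AddChar F ℂ := fun a => AddChar.mulShift ψ ((a : F) ^ 2)
  have hφ : ∀ a, ew ρ u0 (φ a) ≠ 0 := by
    intro a h2
    apply hne
    let σ : F ≃+ F :=
      { toFun := fun x => (a : F) ^ 2 * x
        invFun := fun x => ((a : F) ^ 2)⁻¹ * x
        left_inv := fun x => by simp
        right_inv := fun x => by simp
        map_add' := fun x y => mul_add _ x y }
    have h3 := ew_conj ρ (z := tor a) (σ := σ) (u := u0) (fun x => tor_conj a x) ψ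
    have h4 : ψ.compAddMonoidHom σ.toAddMonoidHom = φ a := by
      ext x
      rfl
    rw [h4, h2] at h3
    simpa using h3.symm
  have hφ0 : ∀ a, φ a ≠ 0 := by
    intro a h2
    apply hψ
    ext x
    have h3 := DFunLike.congr_fun h2 (((a : F) ^ 2)⁻¹ * x)
    have h4 : ψ ((a : F) ^ 2 * (((a : F) ^ 2)⁻¹ * x)) = 1 := h3
    rw [mul_inv_cancel_left₀ (pow_ne_zero 2 a.ne_zero)] at h4
    exact h4
  have hprim : ∀ c : F, (∀ x, ψ (c * x) = 1) → c = 0 := by
    intro c hc
    by_contra hc0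
    apply hψ
    ext x
    have := hc (c⁻¹ * x)
    rw [mul_inv_cancel_left₀ hc0] at this
    exact this
  have hfib : ∀ a b, φ a = φ b → b = a ∨ b = -a := by
    intro a b hab
    have h2 : ∀ x, ψ (((a : F) ^ 2 - (b : F) ^ 2) * x) = 1 := by
      intro x
      have h3 := DFunLike.congr_fun hab x
      have h4 : ψ ((a : F) ^ 2 * x) = ψ ((b : F) ^ 2 * x) := h3
      rw [sub_mul, AddChar.map_sub_eq_div, h4, div_self]
      intro h5
      have h6 := AddChar.map_add_eq_mul ψ ((b : F) ^ 2 * x) (-((b : F) ^ 2 * x))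
      rw [add_neg_cancel, AddChar.map_zero_eq_one, h5, zero_mul] at h6
      exact one_ne_zero h6
    have h3 := hprim _ h2
    have h4 : ((b : F) - a) * ((b : F) + a) = 0 := by linear_combination -h3
    rcases mul_eq_zero.1 h4 with h5 | h5
    · exact Or.inl (Units.ext (sub_eq_zero.1 h5))
    · refine Or.inr (Units.ext ?_)
      rw [Units.val_neg]
      exact eq_neg_of_add_eq_zero_left h5
  have hcard : (Finset.univ : Finset Fˣ).card ≤ 2 * (Finset.univ.image φ).card := by
    apply Finset.card_le_mul_card_image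
    intro χ hχ
    obtain ⟨a, -, rfl⟩ := Finset.mem_image.1 hχ
    have hsub : (Finset.univ.filter (fun b => φ b = φ a)) ⊆ {a, -a} := by
      intro b hb
      rw [Finset.mem_filter] at hb
      rw [Finset.mem_insert, Finset.mem_singleton]
      exact hfib a b hb.2.symm
    exact (Finset.card_le_card hsub).trans Finset.card_le_two
  have hle : (Finset.univ.image φ).card ≤
      ∑ χ ∈ Finset.univ.erase (0 : AddChar F ℂ), Module.finrank ℂ (LinearMap.range (ew ρ u0 χ)) := by
    have hsub : Finset.univ.image φ ⊆ Finset.univ.erase (0 : AddChar F ℂ) := by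
      intro χ hχ
      obtain ⟨a, -, rfl⟩ := Finset.mem_image.1 hχ
      exact Finset.mem_erase.2 ⟨hφ0 a, Finset.mem_univ _⟩
    calc (Finset.univ.image φ).card = ∑ χ ∈ Finset.univ.image φ, 1 := by simp
      _ ≤ ∑ χ ∈ Finset.univ.image φ, Module.finrank ℂ (LinearMap.range (ew ρ u0 χ)) := by
          apply Finset.sum_le_sum
          intro χ hχ
          obtain ⟨a, -, rfl⟩ := Finset.mem_image.1 hχ
          rw [Nat.one_le_iff_ne_zero]
          intro h2
          rw [Submodule.finrank_eq_zero, LinearMap.range_eq_bot] at h2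
          exact hφ a h2
      _ ≤ _ := Finset.sum_le_sum_of_subset hsub
  rw [Finset.card_univ, Fintype.card_units] at hcard
  have hq : 1 < Fintype.card F := Fintype.one_lt_card
  omega

/-- the dichotomy for the gap -/
def Gap (q : ℕ) (z : ℂ) : Prop := ∃ r : ℝ, z = r ∧ (r = 0 ∨ ((q : ℝ) - 1) / q ≤ r)

theorem Gap.add {q : ℕ} (hq : 1 < q) {z w : ℂ} (hz : Gap q z) (hw : Gap q w) : Gap q (z + w) := by
  obtain ⟨r, rfl, hr⟩ := hz
  obtain ⟨s, rfl, hs⟩ := hw
  have hq' : (1 : ℝ) < q := by exact_mod_cast hq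
  have h0 : 0 < ((q : ℝ) - 1) / q := by
    apply div_pos
    · linarith
    · linarith
  refine ⟨r + s, by push_cast; ring, ?_⟩
  rcases hr with rfl | hr
  · rcases hs with rfl | hs
    · left; simp
    · right; linarith
  · rcases hs with rfl | hs
    · right; linarith
    · right; linarith

theorem gap_irr (hρ : ρ.IsIrreducible) :
    Gap (Fintype.card F) (LinearMap.trace ℂ V (av ρ (u0 (F := F))) -
      LinearMap.trace ℂ V (av ρ (u1 (F := F)) * av ρ (u0 (F := F)))) := by
  have hnt : Nontrivial V := CharBasic.nontrivial_of_isIrreducible hρ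
  have hV : Module.finrank ℂ V ≠ 0 := Module.finrank_pos.ne'
  have hid := points_identity ρ hρ hV le_rfl (c := Pi.single 0 1) (by
    intro h
    have := congrFun h 0
    simp at this) _ (trace_E ρ)
  rw [E0_eq, E1_eq] at hid
  set q := Fintype.card F with hq
  have hidem : av ρ (u0 (F := F)) * av ρ (u0 (F := F)) = av ρ (u0 (F := F)) := av_idem ρ u0_add
  have htr := trace_idem hidem
  set f := Module.finrank ℂ (LinearMap.range (av ρ (u0 (F := F)))) with hf
  set D := Module.finrank ℂ V with hD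
  have hw := weights ρ
  rw [← hf, ← hD, ← hq] at hw
  have hfD : f ≤ D := Submodule.finrank_le _
  rw [htr] at hid ⊢
  set τ := LinearMap.trace ℂ V (av ρ (u1 (F := F)) * av ρ (u0 (F := F))) with hτ
  have hq1 : 1 < q := Fintype.one_lt_card
  have hD0 : (D : ℂ) ≠ 0 := Nat.cast_ne_zero.2 hV
  have hq0 : (q : ℂ) ≠ 0 := Nat.cast_ne_zero.2 (by omega)
  have hq1' : (q : ℂ) - 1 ≠ 0 := by
    rw [sub_ne_zero]
    exact_mod_cast hq1.ne'
  -- the value of the gap
  have hgap : (f : ℂ) - τ = (q + 1) * f * (D - f) / (q * D) := by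
    have h1 : ((q : ℂ) - 1) * (f + q * τ) = ((q : ℂ) - 1) * ((q + 1) * f ^ 2 / D) := by
      have : ((q : ℂ) - 1) * f + ((q : ℂ) ^ 2 - q) * τ = ((q : ℂ) - 1) * (f + q * τ) := by ring
      rw [← this, hid]
      field_simp
      ring
    have h2 := mul_left_cancel₀ hq1' h1
    have h3 : τ = ((q + 1) * f ^ 2 / D - f) / q := by
      rw [eq_div_iff hq0]
      linear_combination h2
    rw [h3]
    field_simp
    ring
  refine ⟨((q : ℝ) + 1) * f * (D - f) / (q * D), by rw [hgap]; push_cast; ring, ?_⟩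
  by_cases hf0 : f = 0
  · left; rw [hf0]; simp
  by_cases hfD' : f = D
  · left; rw [hfD']; simp
  right
  have hne : av ρ (u0 (F := F)) ≠ 1 := by
    intro h
    apply hfD'
    rw [hf, hD, h]
    have : LinearMap.range (1 : V →ₗ[ℂ] V) = ⊤ := LinearMap.range_id
    rw [this, finrank_top]
  have h2 := hw hne
  obtain ⟨m, hm⟩ : ∃ m, D = f + m := ⟨D - f, by omega⟩
  have h2m : q ≤ 2 * m + 1 := by omega
  have hm1 : 1 ≤ m := by omega
  have hf1 : 1 ≤ f := by omega
  rw [hm]
  push_cast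
  have hqR : (1 : ℝ) < q := by exact_mod_cast hq1
  have hfR : (1 : ℝ) ≤ f := by exact_mod_cast hf1
  have hmR : (1 : ℝ) ≤ m := by exact_mod_cast hm1
  have h2mR : (q : ℝ) ≤ 2 * m + 1 := by exact_mod_cast h2m
  rw [div_le_div_iff₀ (by positivity) (by positivity)]
  have key : ((q : ℝ) - 1) * (f + m) ≤ ((q : ℝ) + 1) * f * m := by
    nlinarith [mul_nonneg (sub_nonneg.2 hfR) (by nlinarith : (0 : ℝ) ≤ ((q : ℝ) + 1) * m - (q - 1))]
  have e : ((q : ℝ) + 1) * f * (f + m - f) * q = q * (((q : ℝ) + 1) * f * m) := by ring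
  rw [e]
  have e2 : ((q : ℝ) - 1) * (q * (f + m)) = q * (((q : ℝ) - 1) * (f + m)) := by ring
  rw [e2]
  exact mul_le_mul_of_nonneg_left key (by positivity)

/-- the gap in terms of the character -/
noncomputable def gapc (χ : SpecialLinearGroup (Fin 2) F → ℂ) : ℂ :=
  (Fintype.card F : ℂ)⁻¹ * ∑ x : F, χ (u0 x) -
    (Fintype.card (F × F) : ℂ)⁻¹ * ∑ p : F × F, χ (u1 p.1 * u0 p.2)

theorem gapc_eq : LinearMap.trace ℂ V (av ρ (u0 (F := F))) -
      LinearMap.trace ℂ V (av ρ (u1 (F := F)) * av ρ (u0 (F := F))) = gapc ρ.character := by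
  rw [← av_prod]
  unfold av gapc
  rw [map_smul, map_sum, map_smul, map_sum]
  rfl

theorem gap_rep : Gap (Fintype.card F) (gapc ρ.character) := by
  refine CharBasic.rep_induction (G := SpecialLinearGroup (Fin 2) F) (P := fun V _ _ _ ρ => Gap (Fintype.card F) (gapc ρ.character)) ?_ ?_ ?_ V ρ
  · intro V _ _ _ ρ hV
    have h : ρ.character = 0 := by
      funext g
      show LinearMap.trace ℂ V (ρ g) = 0
      rw [Subsingleton.elim (ρ g) 0, map_zero]
    refine ⟨0, ?_, Or.inl rfl⟩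
    rw [h]
    simp [gapc]
  · intro V _ _ _ ρ hρ
    rw [← gapc_eq]
    exact gap_irr ρ hρ
  · intro V _ _ _ ρ S T hST _ _ h1 h2
    rw [CharBasic.char_eq_add_of_isCompl ρ S T hST]
    have : gapc (S.toRepresentation.character + T.toRepresentation.character) =
        gapc S.toRepresentation.character + gapc T.toRepresentation.character := by
      simp only [gapc, Pi.add_apply, Finset.sum_add_distrib]
      ring
    rw [this]
    exact h1.add Fintype.one_lt_card h2

end Cfsg.Agent.Lib.SL2Gap
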