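import Mathlib
import Cfsg.Agent.S2426

/-!
# Homomorphisms out of `SL₂(K)` from the Steinberg relations (helper14)
-/

set_option autoImplicit false

namespace Cfsg.Agent.Lib.SL2HomSt

open Cfsg.Agent.S2426

/-- two families satisfying the rank one Steinberg relations define a homomorphism of `SL₂(K)` -/
theorem exists_hom {K G : Type*} [Field K] [Finite K] [Group G] {x y : K → G} (R : StRel x y) :
    ∃ φ : Matrix.SpecialLinearGroup (Fin 2) K →* G,
      (∀ (t : K) (g : Matrix.SpecialLinearGroup (Fin 2) K), (g : Matrix (Fin 2) (Fin 2) K) = !![1, t; 0, 1] → φ g = x t) ∧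
      (∀ (t : K) (g : Matrix.SpecialLinearGroup (Fin 2) K), (g : Matrix (Fin 2) (Fin 2) K) = !![1, 0; t, 1] → φ g = y t) := by
  obtain ⟨e, he1, he2⟩ := Cfsg.Agent.S2426.result (K := K)
  let f : Bool × K → G := fun p => if p.1 then x p.2 else y p.2
  have hf : ∀ r ∈ ({g : FreeGroup (Bool × K) | ∃ (b : Bool) (t u : K), g = FreeGroup.of (b, t) * FreeGroup.of (b, u) * (FreeGroup.of (b, t + u))⁻¹} ∪
          {g | ∃ (b : Bool) (t u : K), t ≠ 0 ∧
            g = (FreeGroup.of (b, t) * FreeGroup.of (!b, -t⁻¹) * FreeGroup.of (b, t)) * FreeGroup.of (b, u) *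
                  (FreeGroup.of (b, t) * FreeGroup.of (!b, -t⁻¹) * FreeGroup.of (b, t))⁻¹ * (FreeGroup.of (!b, -(t⁻¹ ^ 2 * u)))⁻¹}),
      FreeGroup.lift f r = 1 := by
    rintro r (⟨b, t, u, rfl⟩ | ⟨b, t, u, ht, rfl⟩)
    · simp only [map_mul, map_inv, FreeGroup.lift_apply_of, f]
      cases b
      · simp only [Bool.false_eq_true, if_false]
        rw [R.addy, mul_inv_cancel]
      · simp only [if_true]
        rw [R.addx, mul_inv_cancel]
    · simp only [map_mul, map_inv, FreeGroup.lift_apply_of, f]
      cases b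
      · simp only [Bool.false_eq_true, if_false, Bool.not_false, if_true]
        rw [R.rely t u ht, mul_inv_cancel]
      · simp only [if_true, Bool.not_true, Bool.false_eq_true, if_false]
        rw [R.relx t u ht, mul_inv_cancel]
  refine ⟨(PresentedGroup.toGroup hf).comp e.symm.toMonoidHom, ?_, ?_⟩
  · intro t g hg
    have h1 : e (PresentedGroup.of (true, t)) = g := Subtype.ext ((he1 t).trans hg.symm)
    change PresentedGroup.toGroup hf (e.symm g) = x t
    rw [← h1, MulEquiv.symm_apply_apply, PresentedGroup.toGroup.of]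
    rfl
  · intro t g hg
    have h1 : e (PresentedGroup.of (false, t)) = g := Subtype.ext ((he2 t).trans hg.symm)
    change PresentedGroup.toGroup hf (e.symm g) = y t
    rw [← h1, MulEquiv.symm_apply_apply, PresentedGroup.toGroup.of]
    rfl

end Cfsg.Agent.Lib.SL2HomSt
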