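import Cfsg.Agent.Lib.PresSLmod

/-! `SL_3(q)` is generated by two conjugate regular unipotent elements (helper38). -/

set_option autoImplicit false

namespace Cfsg.Agent.Lib.SL3Pair

open Matrix Cfsg.Agent.Lib.PresSLmod

variable {F : Type*} [Field F]

abbrev SL3 (F : Type*) [Field F] := SpecialLinearGroup (Fin 3) F

theorem ext3 {a b : SL3 F} (h : (a : Matrix (Fin 3) (Fin 3) F) = b) : a = b := Subtype.ext h
theorem mul3 (A B : SL3 F) : ((A * B : SL3 F) : Matrix (Fin 3) (Fin 3) F) = A * B := rfl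

/-- the transvection `w ↦ w + μ B(p, w) p` on the plane -/
def TT (p : F × F) (μ : F) : SL3 F :=
  ⟨!![1 - μ * p.1 * p.2, 0, μ * p.1 ^ 2; 0, 1, 0; -μ * p.2 ^ 2, 0, 1 + μ * p.1 * p.2], by simp [det_fin_three]; ring⟩

theorem TT_coe (p : F × F) (μ : F) : ((TT p μ : SL3 F) : Matrix (Fin 3) (Fin 3) F) =
  !![1 - μ * p.1 * p.2, 0, μ * p.1 ^ 2; 0, 1, 0; -μ * p.2 ^ 2, 0, 1 + μ * p.1 * p.2] := rfl

def uu (r s t : F) : SL3 F := ⟨!![1, r, s; 0, 1, t; 0, 0, 1], by simp [det_fin_three]⟩

theorem uu_coe (r s t : F) : ((uu r s t : SL3 F) : Matrix (Fin 3) (Fin 3) F) = !![1, r, s; 0, 1, t; 0, 0, 1] := rfl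

/-- companion block and `c⁻¹` -/
def hh (T : F) (c : F) (hc : c ≠ 0) : SL3 F := ⟨!![0, 0, -c; 0, c⁻¹, 0; 1, 0, T], by simp [det_fin_three, hc]⟩

theorem hh_coe (T c : F) (hc : c ≠ 0) : ((hh T c hc : SL3 F) : Matrix (Fin 3) (Fin 3) F) = !![0, 0, -c; 0, c⁻¹, 0; 1, 0, T] := rfl

/-- the companion map on pairs -/
def st (T c : F) (p : F × F) : F × F := (-c * p.2, p.1 + T * p.2)

def Nn (T c : F) (p : F × F) : F := p.1 ^ 2 + T * p.1 * p.2 + c * p.2 ^ 2

theorem Nn_st (T c : F) (p : F × F) : Nn T c (st T c p) = c * Nn T c p := by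
  simp only [Nn, st]; ring

theorem TT_add (p : F × F) (a b : F) : TT p (a + b) = TT p a * TT p b := by
  apply ext3
  rw [mul3, TT_coe, TT_coe, TT_coe, Matrix.mul_fin_three]
  congr 1
  ext i j
  fin_cases i <;> fin_cases j <;> simp <;> ring

theorem TT_zero (p : F × F) : TT p (0 : F) = 1 := by
  apply ext3
  rw [TT_coe]
  ext i j
  fin_cases i <;> fin_cases j <;> simp [Matrix.one_apply]

theorem TT_smul (p : F × F) (a μ : F) : TT (a * p.1, a * p.2) μ = TT p (a ^ 2 * μ) := by
  apply ext3
  rw [TT_coe, TT_coe]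
  ext i j
  fin_cases i <;> fin_cases j <;> simp <;> ring

theorem hh_TT (T c : F) (hc : c ≠ 0) (p : F × F) (μ : F) : hh T c hc * TT p (c * μ) = TT (st T c p) μ * hh T c hc := by
  apply ext3
  rw [mul3, mul3, TT_coe, TT_coe, hh_coe, Matrix.mul_fin_three, Matrix.mul_fin_three]
  ext i j
  fin_cases i <;> fin_cases j <;> simp [st] <;> ring

theorem TT_TT (p p' : F × F) (μ μ' : F) :
    TT p' μ' * TT p μ = TT (p.1 + μ' * (p'.1 * p.2 - p'.2 * p.1) * p'.1, p.2 + μ' * (p'.1 * p.2 - p'.2 * p.1) * p'.2) μ * TT p' μ' := by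
  apply ext3
  rw [mul3, mul3, TT_coe, TT_coe, TT_coe, Matrix.mul_fin_three, Matrix.mul_fin_three]
  ext i j
  fin_cases i <;> fin_cases j <;> simp <;> ring

/-- transitivity on the points of the plane -/
def Tra (T c : F) : Prop := ∀ p : F × F, p ≠ 0 → ∃ (i : ℕ) (a : F), a ≠ 0 ∧ (st T c)^[i] (1, 0) = (a * p.1, a * p.2)

variable {T c : F} (hc : c ≠ 0)

theorem Nn_iter (i : ℕ) : Nn T c ((st T c)^[i] (1, 0)) = c ^ i := by
  induction i with
  | zero => simp [Nn]
  | succ i ih => rw [Function.iterate_succ_apply', Nn_st, ih, pow_succ']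

include hc

theorem Nn_ne (htr : Tra T c) {p : F × F} (hp : p ≠ 0) : Nn T c p ≠ 0 := by
  obtain ⟨i, a, ha, hi⟩ := htr p hp
  have h1 := Nn_iter (T := T) (c := c) i
  rw [hi] at h1
  intro h0
  have h2 : Nn T c (a * p.1, a * p.2) = a ^ 2 * Nn T c p := by simp only [Nn]; ring
  rw [h2, h0, mul_zero] at h1
  exact pow_ne_zero i hc h1.symm

/-- moving transvections around -/
theorem TT_iff (htr : Tra T c) (H : Subgroup (SL3 F)) (hh' : hh T c hc ∈ H) {p : F × F} (hp : p ≠ 0) (a : F) :
    TT p (a / Nn T c p) ∈ H ↔ TT (1, 0) a ∈ H := by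
  have key : ∀ i : ℕ, ∀ a : F, TT ((st T c)^[i] (1, 0)) (a / c ^ i) ∈ H ↔ TT (1, 0) a ∈ H := by
    intro i
    induction i with
    | zero => intro a; simp
    | succ i ih =>
      intro a
      rw [← ih a, Function.iterate_succ_apply']
      have e := hh_TT T c hc ((st T c)^[i] (1, 0)) (a / c ^ (i + 1))
      have e1 : c * (a / c ^ (i + 1)) = a / c ^ i := by rw [pow_succ]; field_simp
      rw [e1] at e
      have e2 : TT (st T c ((st T c)^[i] (1, 0))) (a / c ^ (i + 1)) =
          hh T c hc * TT ((st T c)^[i] (1, 0)) (a / c ^ i) * (hh T c hc)⁻¹ := by rw [e, mul_inv_cancel_right]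
      rw [e2]
      constructor
      · intro h
        have := H.mul_mem (H.mul_mem (H.inv_mem hh') h) hh'
        have e3 : (hh T c hc)⁻¹ * (hh T c hc * TT ((st T c)^[i] (1, 0)) (a / c ^ i) * (hh T c hc)⁻¹) * hh T c hc =
          TT ((st T c)^[i] (1, 0)) (a / c ^ i) := by group
        rwa [e3] at this
      · intro h
        exact H.mul_mem (H.mul_mem hh' h) (H.inv_mem hh')
  obtain ⟨i, b, hb, hi⟩ := htr p hp
  rw [← key i a, hi, TT_smul]
  have h1 := Nn_iter (T := T) (c := c) i
  rw [hi] at h1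
  have h2 : Nn T c (b * p.1, b * p.2) = b ^ 2 * Nn T c p := by simp only [Nn]; ring
  rw [h2] at h1
  have hN : Nn T c p ≠ 0 := Nn_ne hc htr hp
  rw [← h1]
  have e : b ^ 2 * (a / (b ^ 2 * Nn T c p)) = a / Nn T c p := by field_simp
  rw [e]

omit hc in
theorem quad_fib (α β γ : F) (h : ¬ (α = 0 ∧ β = 0 ∧ γ = 0)) (s : Finset F) (hs : ∀ x ∈ s, α * x ^ 2 + β * x + γ = 0) : s.card ≤ 2 := by
  classical
  let P : Polynomial F := Polynomial.C α * Polynomial.X ^ 2 + Polynomial.C β * Polynomial.X + Polynomial.C γ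
  have hP : P ≠ 0 := by
    intro h0
    apply h
    have h2 : P.coeff 2 = 0 := by rw [h0]; simp
    have h1 : P.coeff 1 = 0 := by rw [h0]; simp
    have h0 : P.coeff 0 = 0 := by rw [h0]; simp
    simp [P, Polynomial.coeff_X, Polynomial.coeff_C] at h2 h1 h0
    exact ⟨h2, h1, h0⟩
  have hsub : s ⊆ P.roots.toFinset := by
    intro x hx
    rw [Multiset.mem_toFinset, Polynomial.mem_roots hP, Polynomial.IsRoot]
    simp only [P, Polynomial.eval_add, Polynomial.eval_mul, Polynomial.eval_C, Polynomial.eval_pow, Polynomial.eval_X]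
    exact hs x hx
  have hdeg : P.natDegree ≤ 2 := by
    simp only [P]
    compute_degree
  exact (Finset.card_le_card hsub).trans ((Multiset.toFinset_card_le _).trans ((Polynomial.card_roots' P).trans hdeg))

/-- the full root group -/
theorem full [Fintype F] (htr : Tra T c) (H : Subgroup (SL3 F)) (hh' : hh T c hc ∈ H) {μ : F} (hμ : μ ≠ 0)
    (hμT : (2 : F) = 0 → μ ≠ T) (hm : TT (1, 0) μ ∈ H) : ∀ a, TT (1, 0) a ∈ H := by
  classical
  let A : AddSubgroup F :=
    { carrier := {a | TT (1, 0) a ∈ H}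
      zero_mem' := by show TT (1, 0) (0 : F) ∈ H; rw [TT_zero]; exact H.one_mem
      add_mem' := by
        intro a b ha hb
        show TT (1, 0) (a + b) ∈ H
        rw [TT_add]; exact H.mul_mem ha hb
      neg_mem' := by
        intro a ha
        show TT (1, 0) (-a) ∈ H
        have : TT (1, 0) (-a) = (TT (1, 0) a)⁻¹ := by
          rw [eq_inv_iff_mul_eq_one, ← TT_add, neg_add_cancel, TT_zero]
        rw [this]; exact H.inv_mem ha }
  have hA : ∀ a, a ∈ A ↔ TT (1, 0) a ∈ H := fun a => Iff.rfl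
  have hne : ∀ x : F, ((x, 1) : F × F) ≠ 0 := by
    intro x h
    have := congrArg Prod.snd h
    exact one_ne_zero this
  have hN : ∀ x : F, x ^ 2 + T * x + c ≠ 0 := by
    intro x h
    apply Nn_ne hc htr (hne x)
    simp only [Nn]
    rw [← h]; ring
  let f : F → F := fun x => μ ^ 2 * (2 * x + μ + T) / (x ^ 2 + T * x + c)
  have hf : ∀ x, f x ∈ A := by
    intro x
    have h1 : TT (x, 1) (μ / Nn T c (x, 1)) ∈ H := (TT_iff hc htr H hh' (hne x) μ).2 hm
    have h2 : TT (1, 0) μ * TT (x, 1) (μ / Nn T c (x, 1)) * (TT (1, 0) μ)⁻¹ ∈ H := H.mul_mem (H.mul_mem hm h1) (H.inv_mem hm)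
    rw [TT_TT, mul_inv_cancel_right] at h2
    have e : ((x + μ * (1 * 1 - 0 * x) * 1, 1 + μ * (1 * 1 - 0 * x) * 0) : F × F) = (x + μ, 1) := by
      ext <;> simp
    simp only at h2
    rw [e] at h2
    have e2 : μ / Nn T c (x, 1) = (μ * Nn T c (x + μ, 1) / Nn T c (x, 1)) / Nn T c (x + μ, 1) := by
      have h3 := Nn_ne hc htr (hne (x + μ))
      have h4 := Nn_ne hc htr (hne x)
      field_simp
    rw [e2, TT_iff hc htr H hh' (hne (x + μ))] at h2
    have h3 := A.sub_mem ((hA _).2 h2) ((hA _).2 hm)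
    have e3 : μ * Nn T c (x + μ, 1) / Nn T c (x, 1) - μ = f x := by
      have h4 := hN x
      have h5 : Nn T c (x, 1) = x ^ 2 + T * x + c := by simp only [Nn]; ring
      have h6 : Nn T c (x + μ, 1) = (x + μ) ^ 2 + T * (x + μ) + c := by simp only [Nn]; ring
      show _ = μ ^ 2 * (2 * x + μ + T) / (x ^ 2 + T * x + c)
      rw [h5, h6, eq_div_iff h4, sub_mul, div_mul_cancel₀ _ h4]
      ring
    rwa [e3] at h3
  -- fibres of `f`
  have hfib : ∀ a : F, ((Finset.univ : Finset F).filter (fun x => f x = a)).card ≤ 2 := by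
    intro a
    refine quad_fib a (a * T - 2 * μ ^ 2) (a * c - μ ^ 2 * (μ + T)) ?_ _ ?_
    · rintro ⟨h2, h1, h0⟩
      rw [h2, zero_mul, zero_sub, neg_eq_zero] at h1 h0
      have h3 : (2 : F) = 0 := by
        rcases mul_eq_zero.1 h1 with h3 | h3
        · exact h3
        · exact absurd h3 (pow_ne_zero 2 hμ)
      rcases mul_eq_zero.1 h0 with h4 | h4
      · exact pow_ne_zero 2 hμ h4
      · apply hμT h3
        have : T = -T := by
          have : T + T = 0 := by rw [← two_mul, h3, zero_mul]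
          exact eq_neg_of_add_eq_zero_left this
        rw [this]
        exact eq_neg_of_add_eq_zero_left h4
    · intro x hx
      rw [Finset.mem_filter] at hx
      have h1 := hx.2
      simp only [f] at h1
      rw [div_eq_iff (hN x)] at h1
      linear_combination -h1
  have himg : Fintype.card F ≤ 2 * ((Finset.univ : Finset F).image f).card := by
    rw [← Finset.card_univ]
    exact Finset.card_le_mul_card_image _ 2 (fun a _ => hfib a)
  let A' : Finset F := Finset.univ.filter (fun a => a ∈ A)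
  have hA' : A'.card = Nat.card A := by
    rw [Nat.card_eq_fintype_card, Fintype.card_subtype]
  have hsub : (Finset.univ : Finset F).image f ⊆ A' := by
    intro a ha
    obtain ⟨x, -, rfl⟩ := Finset.mem_image.1 ha
    exact Finset.mem_filter.2 ⟨Finset.mem_univ _, hf x⟩
  have hbig : Fintype.card F < 2 * Nat.card A := by
    rw [← hA']
    by_cases h2 : (2 : F) = 0
    · have h0 : (0 : F) ∉ (Finset.univ : Finset F).image f := by
        intro h
        obtain ⟨x, -, hx⟩ := Finset.mem_image.1 h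
        simp only [f] at hx
        rw [div_eq_zero_iff] at hx
        rcases hx with hx | hx
        · rcases mul_eq_zero.1 hx with hx | hx
          · exact pow_ne_zero 2 hμ hx
          · rw [h2, zero_mul, zero_add] at hx
            apply hμT h2
            have : T = -T := by
              have : T + T = 0 := by rw [← two_mul, h2, zero_mul]
              exact eq_neg_of_add_eq_zero_left this
            rw [this]
            exact eq_neg_of_add_eq_zero_left hx
        · exact hN x hx
      have h3 : (insert (0 : F) ((Finset.univ : Finset F).image f)).card ≤ A'.card := by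
        apply Finset.card_le_card
        intro a ha
        rcases Finset.mem_insert.1 ha with rfl | ha
        · exact Finset.mem_filter.2 ⟨Finset.mem_univ _, A.zero_mem⟩
        · exact hsub ha
      rw [Finset.card_insert_of_notMem h0] at h3
      omega
    · have h3 := Finset.card_le_card hsub
      have hodd : Fintype.card F % 2 = 1 := by
        rw [← Nat.odd_iff, ← Nat.not_even_iff_odd]
        intro hev
        apply h2
        obtain ⟨p, hp⟩ := CharP.exists F
        obtain ⟨n, hprime, hn⟩ := FiniteField.card F p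
        rw [hn] at hev
        have h4 : 2 ∣ p := Nat.prime_two.dvd_of_dvd_pow (even_iff_two_dvd.1 hev)
        have h5 : p = 2 := ((Nat.prime_dvd_prime_iff_eq Nat.prime_two hprime).1 h4).symm
        subst h5
        have := CharP.cast_eq_zero F 2
        exact_mod_cast this
      omega
  have hdvd : Nat.card A ∣ Fintype.card F := by
    rw [← Nat.card_eq_fintype_card]
    exact AddSubgroup.card_addSubgroup_dvd_card A
  have htop : A = ⊤ := by
    apply AddSubgroup.eq_top_of_card_eq
    obtain ⟨m, hm'⟩ := hdvd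
    rw [Nat.card_eq_fintype_card (α := F), hm']
    have : m = 1 := by
      have h1 : 0 < Fintype.card F := Fintype.card_pos
      rw [hm'] at h1 hbig
      have hm0 : 0 < m := Nat.pos_of_mul_pos_left h1 |> fun _ => by
        rcases Nat.eq_zero_or_pos m with h | h
        · rw [h, mul_zero] at h1; exact absurd h1 (lt_irrefl _)
        · exact h
      have : m < 2 := by
        by_contra hcon
        push Not at hcon
        have := Nat.mul_le_mul_left (Nat.card A) hcon
        omega
      omega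
    rw [this, mul_one]
  intro a
  rw [← hA, htop]
  trivial

end Cfsg.Agent.Lib.SL3Pair
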