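import Cfsg.Agent.Lib.SL3Pair

/-! `SL_3(q)` is generated by two conjugate regular unipotent elements: the main step (helper38). -/

set_option autoImplicit false

namespace Cfsg.Agent.Lib.SL3Pair

open Matrix Cfsg.Agent.Lib.PresSLmod

variable {F : Type*} [Field F]

theorem tv02 (a : F) : tv (0 : Fin 3) 2 a = TT (1, 0) a := by
  apply ext3
  rw [coe_tv (by decide), TT_coe]
  ext i j
  fin_cases i <;> fin_cases j <;> simp [Matrix.one_apply, Matrix.single_apply]

theorem tv20 (a : F) : tv (2 : Fin 3) 0 (-a) = TT (0, 1) a := by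
  apply ext3
  rw [coe_tv (by decide), TT_coe]
  ext i j
  fin_cases i <;> fin_cases j <;> simp [Matrix.one_apply, Matrix.single_apply]

theorem coe20 (a : F) : ((tv (2 : Fin 3) 0 a : SL3 F) : Matrix (Fin 3) (Fin 3) F) = !![1, 0, 0; 0, 1, 0; a, 0, 1] := by
  rw [coe_tv (by decide)]
  ext i j
  fin_cases i <;> fin_cases j <;> simp [Matrix.one_apply, Matrix.single_apply]
theorem coe02 (a : F) : ((tv (0 : Fin 3) 2 a : SL3 F) : Matrix (Fin 3) (Fin 3) F) = !![1, 0, a; 0, 1, 0; 0, 0, 1] := by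
  rw [coe_tv (by decide)]
  ext i j
  fin_cases i <;> fin_cases j <;> simp [Matrix.one_apply, Matrix.single_apply]
theorem coe10 (a : F) : ((tv (1 : Fin 3) 0 a : SL3 F) : Matrix (Fin 3) (Fin 3) F) = !![1, 0, 0; a, 1, 0; 0, 0, 1] := by
  rw [coe_tv (by decide)]
  ext i j
  fin_cases i <;> fin_cases j <;> simp [Matrix.one_apply, Matrix.single_apply]
theorem coe12 (a : F) : ((tv (1 : Fin 3) 2 a : SL3 F) : Matrix (Fin 3) (Fin 3) F) = !![1, 0, 0; 0, 1, a; 0, 0, 1] := by
  rw [coe_tv (by decide)]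
  ext i j
  fin_cases i <;> fin_cases j <;> simp [Matrix.one_apply, Matrix.single_apply]
theorem coe01 (a : F) : ((tv (0 : Fin 3) 1 a : SL3 F) : Matrix (Fin 3) (Fin 3) F) = !![1, a, 0; 0, 1, 0; 0, 0, 1] := by
  rw [coe_tv (by decide)]
  ext i j
  fin_cases i <;> fin_cases j <;> simp [Matrix.one_apply, Matrix.single_apply]

def T1 (r t : F) : SL3 F := ⟨!![1, 0, 0; t, 1 - r * t, r * t ^ 2; 1, -r, 1 + r * t], by simp [det_fin_three]; ring⟩
theorem T1_coe (r t : F) : ((T1 r t : SL3 F) : Matrix (Fin 3) (Fin 3) F) = !![1, 0, 0; t, 1 - r * t, r * t ^ 2; 1, -r, 1 + r * t] := rfl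

theorem eq3 {a b c d e f g h i a' b' c' d' e' f' g' h' i' : F} (h1 : a = a') (h2 : b = b') (h3 : c = c') (h4 : d = d') (h5 : e = e')
    (h6 : f = f') (h7 : g = g') (h8 : h = h') (h9 : i = i') :
    !![a, b, c; d, e, f; g, h, i] = !![a', b', c'; d', e', f'; g', h', i'] := by
  rw [h1, h2, h3, h4, h5, h6, h7, h8, h9]

theorem gen_all (H : Subgroup (SL3 F)) (k02 : ∀ a : F, tv 0 2 a ∈ H) (k20 : ∀ a : F, tv 2 0 a ∈ H) {r s t : F} (hr : r ≠ 0) (ht : t ≠ 0)
    (hu : uu r s t ∈ H) : H = ⊤ := by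
  have h1 : uu r 0 t ∈ H := by
    have e : uu r 0 t = tv 0 2 (-s) * uu r s t := by
      apply ext3
      rw [mul3, coe02, uu_coe, uu_coe, Matrix.mul_fin_three]
      apply eq3 <;> ring
    rw [e]; exact H.mul_mem (k02 _) hu
  have hT : T1 r t ∈ H := by
    have e : uu r 0 t * tv 2 0 1 = T1 r t * uu r 0 t := by
      apply ext3
      rw [mul3, mul3, coe20, uu_coe, T1_coe, Matrix.mul_fin_three, Matrix.mul_fin_three]
      apply eq3 <;> ring
    have e2 : T1 r t = uu r 0 t * tv 2 0 1 * (uu r 0 t)⁻¹ := by rw [e, mul_inv_cancel_right]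
    rw [e2]; exact H.mul_mem (H.mul_mem h1 (k20 _)) (H.inv_mem h1)
  have k10 : ∀ a : F, tv 1 0 a ∈ H := by
    intro a
    have e : T1 r t * tv 2 0 (a / (r * t ^ 2)) = tv 1 0 a * tv 2 0 (a / t) * tv 2 0 (a / (r * t ^ 2)) * T1 r t := by
      apply ext3
      rw [mul3, mul3, mul3, mul3, coe20, coe20, coe10, T1_coe, Matrix.mul_fin_three, Matrix.mul_fin_three, Matrix.mul_fin_three,
        Matrix.mul_fin_three]
      apply eq3 <;> field_simp <;> ring
    have e2 : tv 1 0 a = T1 r t * tv 2 0 (a / (r * t ^ 2)) * (T1 r t)⁻¹ * (tv 2 0 (a / (r * t ^ 2)))⁻¹ * (tv 2 0 (a / t))⁻¹ := by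
      rw [e]; group
    rw [e2]
    exact H.mul_mem (H.mul_mem (H.mul_mem (H.mul_mem hT (k20 _)) (H.inv_mem hT)) (H.inv_mem (k20 _))) (H.inv_mem (k20 _))
  have comm : ∀ {i j k : Fin 3}, i ≠ j → j ≠ k → i ≠ k → ∀ a b : F, tv i j a ∈ H → tv j k b ∈ H → tv i k (a * b) ∈ H := by
    intro i j k hij hjk hik a b ha hb
    rw [← tv_com hij hjk hik]
    exact H.mul_mem (H.mul_mem (H.mul_mem ha hb) (H.inv_mem ha)) (H.inv_mem hb)
  have k12 : ∀ a : F, tv 1 2 a ∈ H := by
    intro a
    have := comm (i := 1) (j := 0) (k := 2) (by decide) (by decide) (by decide) a 1 (k10 a) (k02 1)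
    rwa [mul_one] at this
  have hr1 : tv 0 1 r ∈ H := by
    have e : uu r 0 t = tv 1 2 t * tv 0 1 r := by
      apply ext3
      rw [mul3, coe12, coe01, uu_coe, Matrix.mul_fin_three]
      apply eq3 <;> ring
    have e2 : tv 0 1 r = (tv 1 2 t)⁻¹ * uu r 0 t := by rw [e]; group
    rw [e2]; exact H.mul_mem (H.inv_mem (k12 _)) h1
  have k21 : ∀ a : F, tv 2 1 a ∈ H := by
    intro a
    have := comm (i := 2) (j := 0) (k := 1) (by decide) (by decide) (by decide) (a / r) r (k20 _) hr1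
    rwa [div_mul_cancel₀ _ hr] at this
  have k01 : ∀ a : F, tv 0 1 a ∈ H := by
    intro a
    have := comm (i := 0) (j := 2) (k := 1) (by decide) (by decide) (by decide) a 1 (k02 a) (k21 1)
    rwa [mul_one] at this
  apply closure_tv (by norm_num)
  intro i j hij a
  fin_cases i <;> fin_cases j <;> first | exact absurd rfl hij | skip
  · exact k01 a
  · exact k02 a
  · exact k10 a
  · exact k12 a
  · exact k20 a
  · exact k21 a

/-- powers of `h` -/
theorem hh_pow (T c : F) (hc : c ≠ 0) (i : ℕ) : ((hh T c hc ^ i : SL3 F) : Matrix (Fin 3) (Fin 3) F) =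
    !![((st T c)^[i] (1, 0)).1, 0, (st T c ((st T c)^[i] (1, 0))).1; 0, (c⁻¹) ^ i, 0;
      ((st T c)^[i] (1, 0)).2, 0, (st T c ((st T c)^[i] (1, 0))).2] := by
  induction i with
  | zero =>
    rw [pow_zero]
    ext i j
    fin_cases i <;> fin_cases j <;> simp [st]
  | succ i ih =>
    rw [pow_succ', mul3, ih, hh_coe, Matrix.mul_fin_three, Function.iterate_succ_apply']
    apply eq3 <;> simp [st, pow_succ'] <;> ring

/-- the data -/
structure Dt (F : Type*) [Field F] (T c : F) : Prop where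
  c0 : c ≠ 0
  c1 : c ≠ 1
  tra : Tra T c
  even : (2 : F) = 0 → (c - 1) ^ 3 / c ≠ T
  odd : (2 : F) ≠ 0 → 2 * (3 - T - 1 / c) - (c - 1) ^ 3 / c ≠ 0
  neg : (2 : F) ≠ 0 → ∃ i : ℕ, (st T c)^[i] (1, 0) = (-1, 0)

theorem main [Fintype F] {T c : F} (d : Dt F T c) : ∃ u g : SL3 F, IsNilpotent ((u : Matrix (Fin 3) (Fin 3) F) - 1) ∧
    ((u : Matrix (Fin 3) (Fin 3) F) - 1) ^ (3 - 1) ≠ 0 ∧ Subgroup.closure ({u, g * u * g⁻¹} : Set (SL3 F)) = ⊤ := by
  have hc := d.c0
  have hc1 : c - 1 ≠ 0 := sub_ne_zero.2 d.c1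
  set r := (c - 1) ^ 3 / c with hr
  set s := 3 - T - 1 / c with hs
  have hr0 : r ≠ 0 := div_ne_zero (pow_ne_zero 3 hc1) hc
  let g : SL3 F := ⟨!![(1 - T) / (c - 1), (c - 1) ^ 2 / c - s * (1 - T) / (c - 1), 0;
      c / (c - 1) ^ 2, -1 - s * c / (c - 1) ^ 2, c / (c - 1);
      1 / (c - 1), -s / (c - 1), 0], by
    rw [det_fin_three]
    simp
    field_simp
    ring⟩
  have hg : g * uu r s 1 = (uu r s 1 * hh T c hc) * g := by
    apply ext3
    rw [mul3, mul3, mul3, uu_coe, hh_coe]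
    show !![(1 - T) / (c - 1), (c - 1) ^ 2 / c - s * (1 - T) / (c - 1), 0;
      c / (c - 1) ^ 2, -1 - s * c / (c - 1) ^ 2, c / (c - 1);
      1 / (c - 1), -s / (c - 1), 0] * _ = _ * !![(1 - T) / (c - 1), (c - 1) ^ 2 / c - s * (1 - T) / (c - 1), 0;
      c / (c - 1) ^ 2, -1 - s * c / (c - 1) ^ 2, c / (c - 1);
      1 / (c - 1), -s / (c - 1), 0]
    rw [Matrix.mul_fin_three, Matrix.mul_fin_three, Matrix.mul_fin_three]
    apply eq3 <;> simp only [hs, hr] <;> field_simp <;> ring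
  have hv : g * uu r s 1 * g⁻¹ = uu r s 1 * hh T c hc := by rw [hg, mul_inv_cancel_right]
  have hN : ((uu r s 1 : SL3 F) : Matrix (Fin 3) (Fin 3) F) - 1 = !![0, r, s; 0, 0, 1; 0, 0, 0] := by
    rw [uu_coe, Matrix.one_fin_three]
    ext i j
    fin_cases i <;> fin_cases j <;> simp
  refine ⟨uu r s 1, g, ⟨3, ?_⟩, ?_, ?_⟩
  · rw [hN, pow_succ, pow_two, Matrix.mul_fin_three, Matrix.mul_fin_three]
    ext i j
    fin_cases i <;> fin_cases j <;> simp
  · rw [hN, show 3 - 1 = 2 from rfl, pow_two, Matrix.mul_fin_three]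
    intro h
    have := congrFun (congrFun h 0) 2
    simp at this
    exact hr0 this
  · rw [hv]
    set H := Subgroup.closure ({uu r s 1, uu r s 1 * hh T c hc} : Set (SL3 F)) with hH
    have hu : uu r s 1 ∈ H := Subgroup.subset_closure (Or.inl rfl)
    have huh : uu r s 1 * hh T c hc ∈ H := Subgroup.subset_closure (Or.inr rfl)
    have hhH : hh T c hc ∈ H := by
      have := H.mul_mem (H.inv_mem hu) huh
      rwa [inv_mul_cancel_left] at this
    have htv : ∀ a, TT (1, 0) a ∈ H := by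
      by_cases h2 : (2 : F) = 0
      · apply full hc d.tra H hhH (μ := r) hr0 (fun _ => d.even h2)
        have e : TT (1, 0) r = uu r s 1 * uu r s 1 := by
          apply ext3
          rw [mul3, TT_coe, uu_coe, Matrix.mul_fin_three]
          apply eq3 <;> simp
          · rw [← two_mul, h2, zero_mul]
          · linear_combination (-s) * h2
          · rw [one_add_one_eq_two, h2]
        rw [e]; exact H.mul_mem hu hu
      · obtain ⟨i, hi⟩ := d.neg h2
        have hpow := hh_pow T c hc i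
        rw [hi] at hpow
        have hst : st T c (-1, 0) = (0, -1) := by simp [st]
        rw [hst] at hpow
        simp only at hpow
        have hdet := (hh T c hc ^ i : SL3 F).2
        rw [hpow, det_fin_three] at hdet
        simp at hdet
        have hci : (c⁻¹) ^ i = 1 := by
          rw [inv_pow, hdet]; simp
        rw [hci] at hpow
        have hki : ((hh T c hc ^ i : SL3 F)) * (hh T c hc ^ i : SL3 F) = 1 := by
          apply ext3
          rw [mul3, hpow, Matrix.mul_fin_three]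
          ext i j
          fin_cases i <;> fin_cases j <;> simp [Matrix.one_apply]
        apply full hc d.tra H hhH (μ := 2 * s - r) (d.odd h2) (fun h => absurd h h2)
        have e : TT (1, 0) (2 * s - r) = uu r s 1 * ((hh T c hc ^ i : SL3 F) * uu r s 1 * (hh T c hc ^ i : SL3 F)) := by
          apply ext3
          rw [mul3, mul3, mul3, hpow, TT_coe, uu_coe, Matrix.mul_fin_three, Matrix.mul_fin_three, Matrix.mul_fin_three]
          apply eq3 <;> simp
          ring
        rw [e]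
        exact H.mul_mem hu (H.mul_mem (H.mul_mem (H.pow_mem hhH i) hu) (H.pow_mem hhH i))
    apply gen_all H _ _ hr0 one_ne_zero hu
    · intro a; rw [tv02]; exact htv a
    · intro a
      have h01 : ((0, 1) : F × F) ≠ 0 := by
        intro h
        exact one_ne_zero (congrArg Prod.snd h)
      have := (TT_iff hc d.tra H hhH h01 (-a * Nn T c (0, 1))).2 (htv _)
      rw [mul_div_cancel_right₀ _ (Nn_ne hc d.tra h01), ← tv20, neg_neg] at this
      exact this

end Cfsg.Agent.Lib.SL3Pair
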