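import Cfsg.Agent.Lib.SL3Pairb

/-! `SL_3(q)` is generated by two conjugate regular unipotent elements: existence of the parameters (helper38). -/

set_option autoImplicit false

namespace Cfsg.Agent.Lib.SL3Pair

open Matrix Cfsg.Agent.Lib.PresSLmod

/-- exact transitivity, from a generator of the multiplicative group of the quadratic extension -/
theorem exists_exact (F : Type*) [Field F] [Fintype F] : ∃ T c : F, (∀ p : F × F, p ≠ 0 → ∃ i : ℕ, (st T c)^[i] (1, 0) = p) ∧ c ≠ 0 ∧
    ((2 : F) ≠ 0 → ∃ i : ℕ, Even i ∧ (st T c)^[i] (1, 0) = (-1, 0)) := by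
  classical
  obtain ⟨p, hchar⟩ := CharP.exists F
  have : Fact p.Prime := ⟨CharP.char_is_prime F p⟩
  let K := FiniteField.Extension F p 2
  have hKcard : Nat.card K = Nat.card F ^ 2 := FiniteField.natCard_extension F p 2
  have : Fintype K := Fintype.ofFinite K
  obtain ⟨ω, hω⟩ := IsCyclic.exists_generator (α := Kˣ)
  have hq1 : 1 < Fintype.card F := Fintype.one_lt_card
  have hKc : Fintype.card K = Fintype.card F ^ 2 := by
    rw [← Nat.card_eq_fintype_card, hKcard, Nat.card_eq_fintype_card]
  have hpow : ∀ z : K, z ≠ 0 → ∃ i : ℕ, (ω : K) ^ i = z := by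
    intro z hz
    obtain ⟨i, hi⟩ := (isOfFinOrder_of_finite ω).mem_powers_iff_mem_zpowers.2 (hω (Units.mk0 z hz))
    refine ⟨i, ?_⟩
    have := congrArg Units.val hi
    simpa using this
  have hωF : ∀ x : F, algebraMap F K x ≠ ω := by
    intro x hx
    have hall : ∀ z : K, ∃ y : F, algebraMap F K y = z := by
      intro z
      by_cases hz : z = 0
      · exact ⟨0, by rw [map_zero, hz]⟩
      · obtain ⟨i, hi⟩ := hpow z hz
        exact ⟨x ^ i, by rw [map_pow, hx, hi]⟩
    have h1 : Fintype.card K ≤ Fintype.card F := Fintype.card_le_of_surjective (algebraMap F K) hall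
    rw [hKc] at h1
    nlinarith
  let L : F × F → K := fun p => algebraMap F K p.1 + algebraMap F K p.2 * ω
  have hLinj : Function.Injective L := by
    rintro ⟨x, y⟩ ⟨x', y'⟩ h
    simp only [L] at h
    have hy : y = y' := by
      by_contra hne
      have hne' : algebraMap F K y - algebraMap F K y' ≠ 0 := by
        rw [← map_sub]
        exact (map_ne_zero _).2 (sub_ne_zero.2 hne)
      apply hωF ((x' - x) / (y - y'))
      rw [map_div₀, map_sub, map_sub, div_eq_iff hne']
      linear_combination -h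
    subst hy
    have hx : algebraMap F K x = algebraMap F K x' := add_right_cancel h
    rw [(algebraMap F K).injective hx]
  have hLsurj : Function.Surjective L := by
    have := (Fintype.bijective_iff_injective_and_card L).2 ⟨hLinj, by rw [Fintype.card_prod, hKc, sq]⟩
    exact this.2
  obtain ⟨⟨c', T⟩, hcT⟩ := hLsurj ((ω : K) ^ 2)
  simp only [L] at hcT
  set c := -c' with hc'
  have hω2 : (ω : K) ^ 2 = algebraMap F K T * ω - algebraMap F K c := by
    rw [← hcT, hc', map_neg]; ring
  have hst : ∀ p : F × F, L (st T c p) = ω * L p := by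
    intro p
    simp only [L, st, map_mul, map_neg, map_add]
    linear_combination (-algebraMap F K p.2) * hω2
  have hiter : ∀ i : ℕ, L ((st T c)^[i] (1, 0)) = (ω : K) ^ i := by
    intro i
    induction i with
    | zero => simp [L]
    | succ i ih => rw [Function.iterate_succ_apply', hst, ih, pow_succ']
  have hL0 : ∀ p : F × F, p ≠ 0 → L p ≠ 0 := by
    intro p hp h
    apply hp
    apply hLinj
    rw [h]; simp [L]
  refine ⟨T, c, ?_, ?_, ?_⟩
  · intro p hp
    obtain ⟨i, hi⟩ := hpow (L p) (hL0 p hp)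
    exact ⟨i, hLinj (by rw [hiter, hi])⟩
  · intro hc0
    rw [hc0, map_zero, sub_zero, sq] at hω2
    exact hωF T (mul_right_cancel₀ ω.ne_zero hω2).symm
  · intro h2
    obtain ⟨i, hi⟩ := hpow (-1) (neg_ne_zero.2 one_ne_zero)
    refine ⟨i, ?_, hLinj ?_⟩
    · -- `i` is even
      have hodd : Fintype.card F % 2 = 1 := by
        rw [← Nat.odd_iff, ← Nat.not_even_iff_odd]
        intro hev
        apply h2
        obtain ⟨n, hprime, hn⟩ := FiniteField.card F p
        rw [hn] at hev
        have h4 : 2 ∣ p := Nat.prime_two.dvd_of_dvd_pow (even_iff_two_dvd.1 hev)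
        have h5 : p = 2 := ((Nat.prime_dvd_prime_iff_eq Nat.prime_two hprime).1 h4).symm
        have := CharP.cast_eq_zero F p
        rw [h5] at this
        exact_mod_cast this
      have hord : orderOf ω = Fintype.card F ^ 2 - 1 := by
        rw [orderOf_eq_card_of_forall_mem_zpowers hω, Nat.card_units, hKcard, Nat.card_eq_fintype_card]
      have h4 : 4 ∣ orderOf ω := by
        rw [hord]
        obtain ⟨m, hm⟩ : ∃ m, Fintype.card F = 2 * m + 1 := ⟨Fintype.card F / 2, by omega⟩
        rw [hm]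
        exact ⟨m * m + m, by
          have : (2 * m + 1) ^ 2 = 4 * (m * m + m) + 1 := by ring
          omega⟩
      have h5 : ω ^ (2 * i) = 1 := by
        apply Units.ext
        rw [Units.val_pow_eq_pow_val, mul_comm, pow_mul, hi, Units.val_one]
        ring
      have h6 := h4.trans (orderOf_dvd_of_pow_eq_one h5)
      obtain ⟨k, hk⟩ := h6
      exact ⟨k, by omega⟩
    · rw [hiter, hi]; simp [L]

theorem exists_Dt (F : Type*) [Field F] [Fintype F] (hq : 3 ≤ Fintype.card F) : ∃ T c : F, Dt F T c := by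
  obtain ⟨T, c, htr, hc0, hneg⟩ := exists_exact F
  have hN : ∀ p : F × F, p ≠ 0 → Nn T c p ≠ 0 := by
    intro p hp h
    obtain ⟨i, hi⟩ := htr p hp
    have := Nn_iter (T := T) (c := c) i
    rw [hi, h] at this
    exact pow_ne_zero i hc0 this.symm
  have htra : Tra T c := by
    intro p hp
    obtain ⟨i, hi⟩ := htr p hp
    exact ⟨i, 1, one_ne_zero, by rw [hi, one_mul, one_mul]⟩
  -- `T ≠ 0`
  have hT : T ≠ 0 := by
    intro hT
    obtain ⟨i, hi⟩ := htr (1, 1) (fun h => one_ne_zero (congrArg Prod.snd h))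
    have key : ∀ i : ℕ, ((st T c)^[i] (1, 0)).1 * ((st T c)^[i] (1, 0)).2 = 0 := by
      intro i
      induction i with
      | zero => simp
      | succ i ih =>
        rw [Function.iterate_succ_apply']
        simp only [st]
        linear_combination (-c) * ih + (-c * ((st T c)^[i] (1, 0)).2 ^ 2) * hT
    have := key i
    rw [hi] at this
    simp at this
  -- `c ≠ 1`
  have hc1 : c ≠ 1 := by
    intro hc1
    have hN1 : ∀ p : F × F, p ≠ 0 → Nn T c p = 1 := by
      intro p hp
      obtain ⟨i, hi⟩ := htr p hp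
      have := Nn_iter (T := T) (c := c) i
      rw [hi, hc1, one_pow] at this
      rw [hc1]; exact this
    have h1 := hN1 (1, 1) (fun h => one_ne_zero (congrArg Prod.snd h))
    have h2 := hN1 (1, -1) (fun h => one_ne_zero (congrArg Prod.fst h))
    simp only [Nn, hc1] at h1 h2
    have h3 : (2 : F) = 0 := by linear_combination h1 + h2 - 2 * (hc1 - hc1)
    have h4 : ∀ x : F, x = 0 ∨ x = 1 := by
      intro x
      by_cases hx : x = 0
      · exact Or.inl hx
      · right
        have := hN1 (x, 0) (fun h => hx (congrArg Prod.fst h))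
        simp only [Nn] at this
        have h5 : (x - 1) ^ 2 = 0 := by linear_combination this - (x - 1) * h3
        exact sub_eq_zero.1 (pow_eq_zero_iff (by norm_num) |>.1 h5)
    classical
    have h6 : (Finset.univ : Finset F) ⊆ {0, 1} := by
      intro x _
      rw [Finset.mem_insert, Finset.mem_singleton]
      exact h4 x
    have h7 := Finset.card_le_card h6
    rw [Finset.card_univ] at h7
    have h8 := Finset.card_le_two (a := (0 : F)) (b := 1)
    omega
  by_cases h2 : (2 : F) = 0
  · by_cases hE : (c - 1) ^ 3 / c = T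
    · -- rescale
      have hchar : CharP F 2 := by
        apply CharTwo.of_one_ne_zero_of_two_eq_zero one_ne_zero h2
      obtain ⟨s, hs⟩ : ∃ s : F, s * s = c := by
        obtain ⟨s, hs⟩ := FiniteField.isSquare_of_char_two (ringChar.eq F 2 ▸ rfl) c
        exact ⟨s, hs.symm⟩
      have hs0 : s ≠ 0 := by
        rintro rfl
        rw [zero_mul] at hs
        exact hc0 hs.symm
      rw [div_eq_iff hc0] at hE
      have hiter : ∀ i : ℕ, (((st (s * T) (c ^ 2))^[i] (1, 0)).1, s * ((st (s * T) (c ^ 2))^[i] (1, 0)).2) =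
          (s ^ i * ((st T c)^[i] (1, 0)).1, s ^ i * ((st T c)^[i] (1, 0)).2) := by
        intro i
        induction i with
        | zero => simp
        | succ i ih =>
          rw [Function.iterate_succ_apply', Function.iterate_succ_apply']
          have e1 := congrArg Prod.fst ih
          have e2 := congrArg Prod.snd ih
          simp only at e1 e2
          have hp : s ^ (i + 1) = s ^ i * s := pow_succ s i
          have hcc : c ^ 2 = s * s * c := by rw [hs]; ring
          simp only [st, hp]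
          refine Prod.ext ?_ ?_
          · simp only
            linear_combination (-(s * c)) * e2 - ((st (s * T) (c ^ 2))^[i] (1, 0)).2 * hcc
          · simp only
            linear_combination s * e1 + s * T * e2
      refine ⟨s * T, c ^ 2, pow_ne_zero 2 hc0, ?_, ?_, ?_, fun h => absurd h2 h, fun h => absurd h2 h⟩
      · intro h
        apply hc1
        have h5 : (c - 1) ^ 2 = 0 := by linear_combination h - (c - 1) * h2
        exact sub_eq_zero.1 (pow_eq_zero_iff (by norm_num) |>.1 h5)
      · intro p hp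
        obtain ⟨i, hi⟩ := htr (p.1, s * p.2) (fun h => hp (by
          have e1 := congrArg Prod.fst h
          have e2 := congrArg Prod.snd h
          simp only [Prod.fst_zero, Prod.snd_zero] at e1 e2
          exact Prod.ext e1 ((mul_eq_zero.1 e2).resolve_left hs0)))
        refine ⟨i, s ^ i, pow_ne_zero i hs0, ?_⟩
        have h1 := hiter i
        rw [hi] at h1
        have e1 := congrArg Prod.fst h1
        have e2 := congrArg Prod.snd h1
        simp only at e1 e2
        ext
        · exact e1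
        · have : s * ((st (s * T) (c ^ 2))^[i] (1, 0)).2 = s * (s ^ i * p.2) := by rw [e2]; ring
          exact mul_left_cancel₀ hs0 this
      · intro _ hE'
        rw [div_eq_iff (pow_ne_zero 2 (pow_ne_zero 1 hc0 |> fun _ => hc0))] at hE'
        -- `(c² - 1)³ = (c - 1)⁶ = c² T²`
        have e1 : (c ^ 2 - 1) ^ 3 = c ^ 2 * T ^ 2 := by
          have h5 : c ^ 2 - 1 = (c - 1) ^ 2 := by linear_combination (c - 1) * h2
          rw [h5]
          calc ((c - 1) ^ 2) ^ 3 = ((c - 1) ^ 3) ^ 2 := by ring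
            _ = _ := by rw [hE]; ring
        have e2 : T = s := by
          have h5 : c ^ 2 * T * (T - s) = 0 := by linear_combination hE' - e1
          rcases mul_eq_zero.1 h5 with h6 | h6
          · exact absurd h6 (mul_ne_zero (pow_ne_zero 2 hc0) hT)
          · exact sub_eq_zero.1 h6
        rw [← e2] at hs
        -- `c = T²`, `(T² - 1)³ = T³`
        rw [← hs] at hE
        have e3 : (T * T - 1 - T) * ((T * T - 1) ^ 2 + (T * T - 1) * T + T ^ 2) = 0 := by linear_combination hE
        rcases mul_eq_zero.1 e3 with h6 | h6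
        · apply hN (T ^ 2, 1) (fun h => one_ne_zero (congrArg Prod.snd h))
          simp only [Nn]
          rw [← hs]
          linear_combination (T ^ 2) * h6 + (T ^ 2 + T ^ 3) * h2
        · apply hN (T ^ 2 - 1, 1) (fun h => one_ne_zero (congrArg Prod.snd h))
          simp only [Nn]
          rw [← hs]
          linear_combination h6
    · exact ⟨T, c, hc0, hc1, htra, fun _ => hE, fun h => absurd h2 h, fun h => absurd h2 h⟩
  · obtain ⟨i₀, hev, hi₀⟩ := hneg h2
    by_cases hE : 2 * (3 - T - 1 / c) - (c - 1) ^ 3 / c = 0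
    · have hiter : ∀ i : ℕ, (st (-T) c)^[i] (1, 0) = ((-1) ^ i * ((st T c)^[i] (1, 0)).1, -((-1) ^ i * ((st T c)^[i] (1, 0)).2)) := by
        intro i
        induction i with
        | zero => simp
        | succ i ih =>
          rw [Function.iterate_succ_apply', Function.iterate_succ_apply', ih]
          simp only [st, pow_succ]
          ext
          · simp only; ring
          · simp only; ring
      refine ⟨-T, c, hc0, hc1, ?_, fun h => absurd h h2, ?_, ?_⟩
      · intro p hp
        obtain ⟨i, hi⟩ := htr (p.1, -p.2) (fun h => hp (by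
          have e1 := congrArg Prod.fst h
          have e2 := congrArg Prod.snd h
          simp only [Prod.fst_zero, Prod.snd_zero] at e1 e2
          exact Prod.ext e1 (neg_eq_zero.1 e2)))
        refine ⟨i, (-1) ^ i, pow_ne_zero i (neg_ne_zero.2 one_ne_zero), ?_⟩
        rw [hiter, hi]
        ext
        · rfl
        · simp only; ring
      · intro _ h
        have h4 : (2 : F) * 2 * T = 0 := by linear_combination h - hE
        exact mul_ne_zero (mul_ne_zero h2 h2) hT h4
      · intro _
        refine ⟨i₀, ?_⟩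
        rw [hiter, hi₀, hev.neg_one_pow]
        simp
    · exact ⟨T, c, hc0, hc1, htra, fun h => absurd h h2, fun _ => hE, fun _ => ⟨i₀, hi₀⟩⟩

/-! ### two elements -/

def v2 : SL3 (ZMod 2) := ⟨!![1, 0, 0; 1, 1, 0; 0, 1, 1], by decide⟩
def g2 : SL3 (ZMod 2) := ⟨!![0, 0, 1; 0, 1, 0; 1, 0, 0], by decide⟩
def u2 : SL3 (ZMod 2) := ⟨!![1, 1, 0; 0, 1, 1; 0, 0, 1], by decide⟩

theorem words2 : ((tv 0 1 1 : SL3 (ZMod 2)) = v2 * u2 * v2 * u2 * u2 * v2) ∧ ((tv 0 2 1 : SL3 (ZMod 2)) = u2 * u2) ∧
    ((tv 1 0 1 : SL3 (ZMod 2)) = u2 * v2 * v2 * u2 * v2 * u2) ∧ ((tv 1 2 1 : SL3 (ZMod 2)) = v2 * u2 * u2 * v2 * u2 * v2) ∧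
    ((tv 2 0 1 : SL3 (ZMod 2)) = v2 * v2) ∧ ((tv 2 1 1 : SL3 (ZMod 2)) = u2 * v2 * u2 * v2 * v2 * u2) := by
  refine ⟨?_, ?_, ?_, ?_, ?_, ?_⟩
  all_goals
    apply Subtype.ext
    simp only [tv]
    decide +kernel

theorem two : ∃ u g : SL3 (ZMod 2), IsNilpotent ((u : Matrix (Fin 3) (Fin 3) (ZMod 2)) - 1) ∧
    ((u : Matrix (Fin 3) (Fin 3) (ZMod 2)) - 1) ^ (3 - 1) ≠ 0 ∧ Subgroup.closure ({u, g * u * g⁻¹} : Set (SL3 (ZMod 2))) = ⊤ := by
  refine ⟨u2, g2, ⟨3, by decide +kernel⟩, by decide +kernel, ?_⟩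
  have hv : g2 * u2 * g2⁻¹ = v2 := by
    rw [mul_inv_eq_iff_eq_mul]
    decide +kernel
  rw [hv]
  obtain ⟨w1, w2, w3, w4, w5, w6⟩ := words2
  set H := Subgroup.closure ({u2, v2} : Set (SL3 (ZMod 2))) with hH
  have hu : u2 ∈ H := Subgroup.subset_closure (Or.inl rfl)
  have hv' : v2 ∈ H := Subgroup.subset_closure (Or.inr rfl)
  have z : ∀ a : ZMod 2, a = 0 ∨ a = 1 := by decide
  have tz : ∀ i j : Fin 3, (tv i j 0 : SL3 (ZMod 2)) = 1 := by
    intro i j
    by_cases h : i = j
    · rw [tv, dif_neg (not_not.2 h)]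
    · rw [tv, dif_pos h, SpecialLinearGroup.transvection_coeff_zero]
  have ext : ∀ i j : Fin 3, tv i j 1 ∈ H → ∀ a : ZMod 2, tv i j a ∈ H := by
    intro i j h a
    rcases z a with rfl | rfl
    · rw [tz]; exact H.one_mem
    · exact h
  apply closure_tv (by norm_num)
  intro i j hij
  apply ext
  fin_cases i <;> fin_cases j <;> first | exact absurd rfl hij | skip
  · show tv 0 1 1 ∈ H
    rw [w1]; exact H.mul_mem (H.mul_mem (H.mul_mem (H.mul_mem (H.mul_mem hv' hu) hv') hu) hu) hv'
  · show tv 0 2 1 ∈ H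
    rw [w2]; exact H.mul_mem hu hu
  · show tv 1 0 1 ∈ H
    rw [w3]; exact H.mul_mem (H.mul_mem (H.mul_mem (H.mul_mem (H.mul_mem hu hv') hv') hu) hv') hu
  · show tv 1 2 1 ∈ H
    rw [w4]; exact H.mul_mem (H.mul_mem (H.mul_mem (H.mul_mem (H.mul_mem hv' hu) hu) hv') hu) hv'
  · show tv 2 0 1 ∈ H
    rw [w5]; exact H.mul_mem hv' hv'
  · show tv 2 1 1 ∈ H
    rw [w6]; exact H.mul_mem (H.mul_mem (H.mul_mem (H.mul_mem (H.mul_mem hu hv') hu) hv') hv') hu

/-- transport along a ring isomorphism -/
theorem transport {R S : Type*} [Field R] [Field S] (e : R ≃+* S)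
    (h : ∃ u g : SL3 R, IsNilpotent ((u : Matrix (Fin 3) (Fin 3) R) - 1) ∧
      ((u : Matrix (Fin 3) (Fin 3) R) - 1) ^ (3 - 1) ≠ 0 ∧ Subgroup.closure ({u, g * u * g⁻¹} : Set (SL3 R)) = ⊤) :
    ∃ u g : SL3 S, IsNilpotent ((u : Matrix (Fin 3) (Fin 3) S) - 1) ∧
      ((u : Matrix (Fin 3) (Fin 3) S) - 1) ^ (3 - 1) ≠ 0 ∧ Subgroup.closure ({u, g * u * g⁻¹} : Set (SL3 S)) = ⊤ := by
  obtain ⟨u, g, hn, hr, hcl⟩ := h
  let φ : SL3 R →* SL3 S := SpecialLinearGroup.map (e : R →+* S)
  have hφ : ∀ M : SL3 R, ((φ M : SL3 S) : Matrix (Fin 3) (Fin 3) S) = (e : R →+* S).mapMatrix (M : Matrix (Fin 3) (Fin 3) R) := fun M => rfl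
  have hsurj : Function.Surjective φ := by
    intro M
    refine ⟨SpecialLinearGroup.map (e.symm : S →+* R) M, ?_⟩
    apply Subtype.ext
    ext i j
    show e (e.symm _) = _
    rw [e.apply_symm_apply]
  have hu : ((φ u : SL3 S) : Matrix (Fin 3) (Fin 3) S) - 1 = (e : R →+* S).mapMatrix ((u : Matrix (Fin 3) (Fin 3) R) - 1) := by
    rw [map_sub, map_one, hφ]
  refine ⟨φ u, φ g, ?_, ?_, ?_⟩
  · rw [hu]; exact hn.map _
  · rw [hu, ← map_pow]
    intro h0
    apply hr
    have hinj : Function.Injective ((e : R →+* S).mapMatrix : Matrix (Fin 3) (Fin 3) R → Matrix (Fin 3) (Fin 3) S) := by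
      intro A B hAB
      ext i j
      have := congrFun (congrFun hAB i) j
      exact e.injective this
    apply hinj
    rw [map_zero]; exact h0
  · have h1 := MonoidHom.map_closure φ ({u, g * u * g⁻¹} : Set (SL3 R))
    rw [hcl, ← MonoidHom.range_eq_map, MonoidHom.range_eq_top.2 hsurj, Set.image_pair, map_mul, map_mul, map_inv] at h1
    exact h1.symm

theorem final (F : Type*) [Field F] [Fintype F] : ∃ u g : SL3 F, IsNilpotent ((u : Matrix (Fin 3) (Fin 3) F) - 1) ∧
    ((u : Matrix (Fin 3) (Fin 3) F) - 1) ^ (3 - 1) ≠ 0 ∧ Subgroup.closure ({u, g * u * g⁻¹} : Set (SL3 F)) = ⊤ := by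
  rcases Nat.lt_or_ge (Fintype.card F) 3 with h | h
  · have h1 : 1 < Fintype.card F := Fintype.one_lt_card
    have h2 : Fintype.card F = 2 := by omega
    exact transport (ZMod.ringEquivOfPrime F Nat.prime_two h2) two
  · obtain ⟨T, c, d⟩ := exists_Dt F h
    exact main d

end Cfsg.Agent.Lib.SL3Pair
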