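import Cfsg.Agent.Lib.SLCount

/-! Class numbers of `SL_n(q)`: the bounds (helper41). -/

set_option autoImplicit false

namespace Cfsg.Agent.Lib.SLCount

open Polynomial Cfsg.Agent.Lib.FXType Cfsg.Agent.Lib.GLClass Cfsg.Agent.Lib.GLCount Cfsg.Agent.Lib.GLDet Classical

universe u

variable {F : Type u} [Field F] {n : ℕ}

local notation "SL" => Matrix.SpecialLinearGroup (Fin n) F
local notation "GLn" => GL (Fin n) F

/-! ### small values -/

theorem E_one_set : TA F (Set.Ici 2) 1 = ∅ := by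
  rw [Set.eq_empty_iff_forall_notMem]
  intro s hs
  have h0 : s = 0 := by
    rw [Multiset.eq_zero_iff_forall_notMem]
    intro d hd
    have h1 := snd_le_of_mem hs hd
    have h2 := (hs.1 d hd).2
    rw [Set.mem_Ici] at h2
    omega
  have h1 := hs.2
  rw [h0] at h1
  simp [Tot] at h1

/-- the rest of a type with exponents at least two -/
theorem rest_ne_one {s : Multiset (F[X] × ℕ)} (hs : s ∈ TA F (Set.Ici 2) n) {d : F[X] × ℕ} (hd : d ∈ s) :
    d.1.natDegree * d.2 ≤ n ∧ n ≠ d.1.natDegree * d.2 + 1 ∧ 1 ≤ d.1.natDegree ∧ 2 ≤ d.2 := by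
  obtain ⟨t, rfl⟩ := Multiset.exists_cons_of_mem hd
  have h1 : Tot (d ::ₘ t) = d.1.natDegree * d.2 + Tot t := by
    rw [Tot, Multiset.map_cons, Multiset.sum_cons]; rfl
  have h2 := hs.2
  rw [h1] at h2
  have h3 := hs.1 d hd
  refine ⟨by omega, ?_, h3.1.1.2.1.natDegree_pos, h3.2⟩
  intro h4
  have h5 : t ∈ TA F (Set.Ici 2) 1 := ⟨fun x hx => hs.1 x (Multiset.mem_cons_of_mem hx), by omega⟩
  rw [E_one_set] at h5
  exact h5

theorem EE_one_le [Finite F] {e : ℕ} (h : ∀ s ∈ TA F (Set.Ici 2) n, ∀ d ∈ s, e ∣ d.2) :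
    EE F 1 n ≤ Nat.card (U F (fun _ => True) e n) := by
  have hU : Finite (U F (fun _ => True) e n) := ((finite_T1 (F := F) n).subset (fun s hs => hs.1.1)).to_subtype
  refine Nat.card_le_card_of_injective (fun t : {t : Multiset (F[X] × ℕ) // t ∈ TA F (Set.Ici 2) n ∧ dT t ^ 1 = 1} =>
    (⟨t.1, ⟨⟨TA_mono (Set.subset_univ _) n t.2.1, (pow_one (dT t.1)).symm.trans t.2.2⟩, trivial⟩, h t.1 t.2.1⟩ :
      U F (fun _ => True) e n)) ?_
  intro a b hab
  exact Subtype.ext (congrArg (fun t => t.1) hab)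

theorem EE_one_two [Finite F] : EE F 1 2 ≤ Nat.card (U F (fun _ => True) 2 2) := by
  apply EE_one_le
  intro s hs d hd
  obtain ⟨h1, h2, h3, h4⟩ := rest_ne_one hs hd
  have h5 : d.2 ≤ 2 := le_trans (Nat.le_mul_of_pos_left _ h3) h1
  have : d.2 = 2 := by omega
  rw [this]

theorem EE_one_three [Finite F] : EE F 1 3 ≤ Nat.card (U F (fun _ => True) 3 3) := by
  apply EE_one_le
  intro s hs d hd
  obtain ⟨h1, h2, h3, h4⟩ := rest_ne_one hs hd
  have h5 : d.2 ≤ 3 := le_trans (Nat.le_mul_of_pos_left _ h3) h1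
  have h6 : d.1.natDegree ≤ 1 := by
    by_contra h
    have : 2 * 2 ≤ d.1.natDegree * d.2 := Nat.mul_le_mul (by omega) h4
    omega
  have h7 : d.1.natDegree = 1 := by omega
  rw [h7] at h2
  have : d.2 = 3 := by omega
  rw [this]

theorem EE_one_four [Finite F] : EE F 1 4 ≤ Nat.card (U F (fun _ => True) 2 4) := by
  apply EE_one_le
  intro s hs d hd
  obtain ⟨h1, h2, h3, h4⟩ := rest_ne_one hs hd
  have h5 : d.2 ≤ 4 := le_trans (Nat.le_mul_of_pos_left _ h3) h1
  have h6 : d.2 ≠ 3 := by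
    intro h
    rw [h] at h1 h2
    omega
  have : d.2 = 2 ∨ d.2 = 4 := by omega
  rcases this with h | h <;> rw [h]
  norm_num

theorem U_two_two [Finite F] : Nat.card (U F (fun _ => True) 2 2) ≤ 2 := by
  have h := card_U_le (F := F) (e := 2) (n := 2) (by norm_num)
  have h2 := EE_le (F := F) 2 1
  rw [show 2 / 2 = 1 by norm_num, W_one] at h
  rw [E_one] at h2
  omega

theorem U_three_three [Finite F] : Nat.card (U F (fun _ => True) 3 3) ≤ 3 := by
  have h := card_U_le (F := F) (e := 3) (n := 3) (by norm_num)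
  have h2 := EE_le (F := F) 3 1
  rw [show 3 / 3 = 1 by norm_num, W_one] at h
  rw [E_one] at h2
  omega

theorem U_four_four [Finite F] : Nat.card (U F (fun _ => True) 4 4) ≤ 4 := by
  have h := card_U_le (F := F) (e := 4) (n := 4) (by norm_num)
  have h2 := EE_le (F := F) 4 1
  rw [show 4 / 4 = 1 by norm_num, W_one] at h
  rw [E_one] at h2
  omega

theorem U_two_four [Finite F] : Nat.card (U F (fun _ => True) 2 4) ≤ 2 * Nat.card F + (Nat.card F - 1) := by
  have h := card_U_le (F := F) (e := 2) (n := 4) (by norm_num)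
  have h2 := EE_le (F := F) 2 2
  rw [show 4 / 2 = 2 by norm_num, W_two] at h
  rw [E_two] at h2
  omega

theorem U_one [Finite F] (n : ℕ) : Nat.card (U F (fun _ => True) 1 n) ≤ W F n + EE F 1 n := by
  have h := card_U_le (F := F) (e := 1) (n := n) (le_refl 1)
  rwa [Nat.div_one, one_mul] at h

/-- `SL_2` -/
theorem kSL_two [Finite F] : (Nat.gcd 2 (Nat.card F - 1) = 1 → Nat.card (ConjClasses (Matrix.SpecialLinearGroup (Fin 2) F)) ≤ 2 * Nat.card F - 1) ∧
    (Nat.gcd 2 (Nat.card F - 1) = 2 → Nat.card (ConjClasses (Matrix.SpecialLinearGroup (Fin 2) F)) ≤ Nat.card F + 4) := by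
  have h1 : 1 < Nat.card F := Finite.one_lt_card
  have hk := kSL_le (F := F) (n := 2) (by norm_num)
  have hu1 := U_one (F := F) 2
  have hu2 := U_two_two (F := F)
  have he := EE_one_two (F := F)
  have he' := EE_le (F := F) 1 2
  rw [W_two] at hu1
  rw [E_two] at he'
  constructor
  · intro hD
    rw [hD, Nat.divisors_one, Finset.sum_singleton, Nat.totient_one, one_mul] at hk
    omega
  · intro hD
    have e1 : Nat.divisors 2 = {1, 2} := by decide
    rw [hD, e1, Finset.sum_pair (by norm_num), Nat.totient_one, one_mul, Nat.totient_two, one_mul] at hk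
    omega

/-- `SL_3` -/
theorem kSL_three [Finite F] : (Nat.gcd 3 (Nat.card F - 1) = 1 → Nat.card (ConjClasses (Matrix.SpecialLinearGroup (Fin 3) F)) ≤
      Nat.card F ^ 2 + 2 * (Nat.card F - 1)) ∧
    (Nat.gcd 3 (Nat.card F - 1) = 3 → Nat.card (ConjClasses (Matrix.SpecialLinearGroup (Fin 3) F)) ≤ Nat.card F ^ 2 + Nat.card F + 8) := by
  have h1 : 1 < Nat.card F := Finite.one_lt_card
  have hk := kSL_le (F := F) (n := 3) (by norm_num)
  have hu1 := U_one (F := F) 3
  have hu2 := U_three_three (F := F)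
  have he := EE_one_three (F := F)
  have he' := EE_le (F := F) 1 3
  rw [W_three] at hu1
  rw [E_three] at he'
  constructor
  · intro hD
    rw [hD, Nat.divisors_one, Finset.sum_singleton, Nat.totient_one, one_mul] at hk
    omega
  · intro hD
    have e1 : Nat.divisors 3 = {1, 3} := by decide
    have e2 : Nat.totient 3 = 2 := by decide
    rw [hD, e1, Finset.sum_pair (by norm_num), Nat.totient_one, one_mul, e2] at hk
    omega

/-- `SL_4` -/
theorem kSL_four [Finite F] : (Nat.gcd 4 (Nat.card F - 1) = 1 → Nat.card (ConjClasses (Matrix.SpecialLinearGroup (Fin 4) F)) ≤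
      Nat.card F ^ 3 + 2 * Nat.card F ^ 2) ∧
    (Nat.gcd 4 (Nat.card F - 1) = 2 → Nat.card (ConjClasses (Matrix.SpecialLinearGroup (Fin 4) F)) ≤
      Nat.card F ^ 3 + 2 * Nat.card F ^ 2 + 3 * (Nat.card F - 1)) ∧
    (Nat.gcd 4 (Nat.card F - 1) = 4 → Nat.card (ConjClasses (Matrix.SpecialLinearGroup (Fin 4) F)) ≤
      Nat.card F ^ 3 + Nat.card F ^ 2 + 6 * Nat.card F + 5) := by
  obtain ⟨R, hR⟩ : ∃ R, Nat.card F = R + 2 := ⟨Nat.card F - 2, by
    have : 1 < Nat.card F := Finite.one_lt_card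
    omega⟩
  have hk := kSL_le (F := F) (n := 4) (by norm_num)
  have hu1 := U_one (F := F) 4
  have hu2 := U_two_four (F := F)
  have hu4 := U_four_four (F := F)
  have he := EE_one_four (F := F)
  have he' := EE_le (F := F) 1 4
  have h6 : ∃ u2, u2 = Nat.card (U F (fun _ => True) 2 4) := ⟨_, rfl⟩
  obtain ⟨u2, h6⟩ := h6
  rw [W_four] at hu1
  rw [E_four] at he'
  rw [hR] at *
  rw [show R + 2 - 1 = R + 1 by omega] at *
  refine ⟨?_, ?_, ?_⟩
  · intro hD
    rw [hD, Nat.divisors_one, Finset.sum_singleton, Nat.totient_one, one_mul] at hk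
    nlinarith
  · intro hD
    have e1 : Nat.divisors 2 = {1, 2} := by decide
    rw [hD, e1, Finset.sum_pair (by norm_num), Nat.totient_one, one_mul, Nat.totient_two, one_mul] at hk
    nlinarith
  · intro hD
    have e1 : Nat.divisors 4 = {1, 2, 4} := by decide
    have e2 : Nat.totient 4 = 2 := by decide
    rw [hD, e1, Finset.sum_insert (by decide), Finset.sum_pair (by norm_num), Nat.totient_one, one_mul, Nat.totient_two,
      one_mul, e2] at hk
    nlinarith

theorem gcd_prime_cases {p : ℕ} (hp : p.Prime) (m : ℕ) : Nat.gcd p m = 1 ∨ Nat.gcd p m = p :=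
  (Nat.dvd_prime hp).1 (Nat.gcd_dvd_left p m)

theorem kSL_ge_three [Finite F] (hn : 3 ≤ n) : Nat.card (ConjClasses SL) ≤
    Nat.card F ^ (n - 1) + 3 * Nat.card F ^ (n - 2) := by
  have h1 : 1 < Nat.card F := Finite.one_lt_card
  rcases Nat.lt_or_ge n 5 with h5 | h5
  swap
  · exact kSL_ge_five h5
  rcases Nat.lt_or_ge n 4 with h4 | h4
  · obtain rfl : n = 3 := by omega
    obtain ⟨ha, hb⟩ := kSL_three (F := F)
    norm_num
    rcases gcd_prime_cases Nat.prime_three (Nat.card F - 1) with h | h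
    · have := ha h
      omega
    · have := hb h
      have h2 : 3 ∣ Nat.card F - 1 := by
        have := Nat.gcd_dvd_right 3 (Nat.card F - 1)
        rwa [h] at this
      have h3 := Nat.le_of_dvd (by omega) h2
      omega
  · obtain rfl : n = 4 := by omega
    obtain ⟨ha, hb, hc⟩ := kSL_four (F := F)
    norm_num
    have hdv : Nat.gcd 4 (Nat.card F - 1) ∣ 4 := Nat.gcd_dvd_left _ _
    have hle : Nat.gcd 4 (Nat.card F - 1) ≤ 4 := Nat.le_of_dvd (by norm_num) hdv
    have hpos : 0 < Nat.gcd 4 (Nat.card F - 1) := Nat.gcd_pos_of_pos_left _ (by norm_num)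
    have hcases : Nat.gcd 4 (Nat.card F - 1) = 1 ∨ Nat.gcd 4 (Nat.card F - 1) = 2 ∨ Nat.gcd 4 (Nat.card F - 1) = 4 := by
      generalize Nat.gcd 4 (Nat.card F - 1) = g at *
      interval_cases g <;> simp_all
    obtain ⟨R, hR⟩ : ∃ R, Nat.card F = R + 2 := ⟨Nat.card F - 2, by omega⟩
    rcases hcases with h | h | h
    · have := ha h
      rw [hR] at *
      nlinarith
    · have := hb h
      rw [hR] at *
      rw [show R + 2 - 1 = R + 1 by omega] at *
      nlinarith
    · have := hc h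
      have h2 : 4 ∣ Nat.card F - 1 := by
        have := Nat.gcd_dvd_right 4 (Nat.card F - 1)
        rwa [h] at this
      have h3 := Nat.le_of_dvd (by omega) h2
      obtain ⟨T, hT⟩ : ∃ T, Nat.card F = T + 5 := ⟨Nat.card F - 5, by omega⟩
      rw [hT] at this ⊢
      nlinarith

/-! ### lower bound -/

theorem Ph_surjective : Function.Surjective (Ph (F := F) (n := n)) := by
  intro s
  obtain ⟨A, hA⟩ := exists_matrix n s.1 (fun d hd => (s.2.1.1 d hd).1.1) s.2.1.2
  have hdet : A.det = 1 := by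
    rw [det_mtype hA]
    exact s.2.2
  let g : SL := ⟨A, hdet⟩
  refine ⟨ConjClasses.mk g, ?_⟩
  apply Subtype.ext
  change ty (rep (ConjClasses.mk g)) = s.1
  have h1 : IsConj (rep (ConjClasses.mk g)) g := ConjClasses.mk_eq_mk_iff_isConj.1 (mk_rep _)
  rw [ty_of_isConj h1]
  exact (ty_spec g).unique hA

theorem lt_kSL [Finite F] (hn : 2 ≤ n) : Nat.card F ^ (n - 1) < Nat.card (ConjClasses SL) := by
  have hfin1 := (finite_T1 (F := F) n).to_subtype
  have hfinC : Finite (ConjClasses SL) := inferInstance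
  refine lt_of_lt_of_le ?_ (Nat.card_le_card_of_surjective _ (Ph_surjective (F := F) (n := n)))
  obtain ⟨m, rfl⟩ : ∃ m, n = m + 1 := ⟨n - 1, by omega⟩
  rw [Nat.add_sub_cancel]
  have hc : ((-1 : F) ^ (m + 1)) ≠ 0 := pow_ne_zero _ (by simp)
  have h1 := card_MC (F := F) m ((-1) ^ (m + 1))
  have hfin : Finite {g : F[X] // g.Monic ∧ g.coeff 0 = (-1) ^ (m + 1) ∧ g.natDegree = m + 1} := by
    apply Nat.finite_of_card_ne_zero
    rw [h1]
    exact pow_ne_zero _ Nat.card_pos.ne'
  rw [← h1, ← Nat.add_one_le_iff, ← Finite.card_option]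
  have hb : ∀ g : {g : F[X] // g.Monic ∧ g.coeff 0 = (-1) ^ (m + 1) ∧ g.natDegree = m + 1}, bk 1 g.1 ∈ T1 F (m + 1) := by
    intro g
    have h0 : g.1.coeff 0 ≠ 0 := by rw [g.2.2.1]; exact hc
    obtain ⟨a1, a2, a3⟩ := bk_facts 1 (le_refl 1) g.2.1 h0
    refine ⟨⟨fun d hd => ⟨(a1 d hd).1, Set.mem_univ _⟩, by rw [a2, g.2.2.2, one_mul]⟩, ?_⟩
    rw [dT_bk_one g.2.1 h0, dlt, g.2.2.1, g.2.2.2, ← mul_pow]
    simp
  have hX : ({(X - C 1, m + 1)} : Multiset (F[X] × ℕ)) ∈ T1 F (m + 1) := by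
    have hd : dlt (X - C 1 : F[X]) = 1 := by
      rw [dlt, natDegree_X_sub_C]; simp
    refine ⟨⟨?_, ?_⟩, ?_⟩
    · intro d hd
      rw [Multiset.mem_singleton] at hd
      subst hd
      refine ⟨⟨⟨monic_X_sub_C 1, irreducible_X_sub_C 1, Nat.succ_pos m⟩, ?_⟩, Set.mem_univ _⟩
      apply ne_X_of_coeff_zero
      simp
    · rw [Tot, Multiset.map_singleton, Multiset.sum_singleton, natDegree_X_sub_C, one_mul]
    · rw [dT, Multiset.map_singleton, Multiset.prod_singleton, hd, one_pow]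
  apply Nat.card_le_card_of_injective (fun o : Option {g : F[X] // g.Monic ∧ g.coeff 0 = (-1) ^ (m + 1) ∧ g.natDegree = m + 1} =>
    (match o with
      | none => ⟨{(X - C 1, m + 1)}, hX⟩
      | some g => ⟨bk 1 g.1, hb g⟩ : T1 F (m + 1)))
  have key : ∀ g : {g : F[X] // g.Monic ∧ g.coeff 0 = (-1) ^ (m + 1) ∧ g.natDegree = m + 1},
      bk 1 g.1 ≠ {(X - C 1, m + 1)} := by
    intro g h
    have h0 : g.1.coeff 0 ≠ 0 := by rw [g.2.2.1]; exact hc
    have a1 := (bk_facts 1 (le_refl 1) g.2.1 h0).1 (X - C 1, m + 1) (by rw [h]; exact Multiset.mem_singleton_self _)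
    have := a1.2
    simp only at this
    omega
  intro a b hab
  match a, b, hab with
  | none, none, _ => rfl
  | none, some g, h => exact absurd (congrArg Subtype.val h).symm (key g)
  | some g, none, h => exact absurd (congrArg Subtype.val h) (key g)
  | some g, some g', h =>
    have h2 : bk 1 g.1 = bk 1 g'.1 := congrArg Subtype.val h
    have h0 : g.1.coeff 0 ≠ 0 := by rw [g.2.2.1]; exact hc
    have h0' : g'.1.coeff 0 ≠ 0 := by rw [g'.2.2.1]; exact hc
    have h3 := (bk_facts 1 (le_refl 1) g.2.1 h0).2.2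
    have h4 := (bk_facts 1 (le_refl 1) g'.2.1 h0').2.2
    rw [h2, h4] at h3
    rw [Subtype.ext h3]

theorem kSL_bounds [Finite F] (hn : 2 ≤ n) : Nat.card F ^ (n - 1) < Nat.card (ConjClasses SL) ∧
    2 * Nat.card (ConjClasses SL) ≤ 5 * Nat.card F ^ (n - 1) ∧
    (3 ≤ n → Nat.card (ConjClasses SL) ≤ Nat.card F ^ (n - 1) + 3 * Nat.card F ^ (n - 2)) := by
  have h1 : 1 < Nat.card F := Finite.one_lt_card
  refine ⟨lt_kSL hn, ?_, kSL_ge_three⟩
  rcases Nat.lt_or_ge n 3 with h3 | h3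
  · obtain rfl : n = 2 := by omega
    obtain ⟨ha, hb⟩ := kSL_two (F := F)
    norm_num
    rcases gcd_prime_cases Nat.prime_two (Nat.card F - 1) with h | h
    · have := ha h
      omega
    · have := hb h
      have h2 : 2 ∣ Nat.card F - 1 := by
        have := Nat.gcd_dvd_right 2 (Nat.card F - 1)
        rwa [h] at this
      have h3 := Nat.le_of_dvd (by omega) h2
      omega
  · have h4 := kSL_ge_three (F := F) h3
    have e1 : Nat.card F ^ (n - 1) = Nat.card F ^ (n - 2) * Nat.card F := by rw [← pow_succ]; congr 1; omega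
    have h5 : Nat.card F ^ (n - 2) * 2 ≤ Nat.card F ^ (n - 2) * Nat.card F := Nat.mul_le_mul_left _ h1
    omega

end Cfsg.Agent.Lib.SLCount
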