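import Cfsg.Agent.Lib.CFSection
import Cfsg.Agent.Lib.CFCore
import Cfsg.Agent.Lib.PStabPair
import Cfsg.Prelude.Def_LocalEven

/-!
From a group which is not `p`-stable (normalizer form) to a section `SL(2,p)` of an automizer.
-/

set_option autoImplicit false

namespace Cfsg.Agent.Lib.SLFree1

open Cfsg.Agent.Lib.CFSylow Cfsg.Agent.Lib.CFFusion Cfsg.Agent.Lib.CFSection
open scoped MatrixGroups

variable {G : Type*} [Group G] {p : ℕ} [hp : Fact p.Prime]

/-- the conclusion: an `SL(2,p)` section of `N(T)/C(T)` -/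
def SLSec (p : ℕ) (T : Subgroup G) : Prop :=
  ∃ (H K : Subgroup G) (_ : (K.subgroupOf H).Normal),
      Subgroup.centralizer (T : Set G) ≤ K ∧ K ≤ H ∧ H ≤ Subgroup.normalizer (T : Set G) ∧
      Nonempty ((↥H ⧸ K.subgroupOf H) ≃* Matrix.SpecialLinearGroup (Fin 2) (ZMod p))

theorem slSec_of_action [Finite G] {Q : Subgroup G} (F : G → (Fin 2 → ZMod p))
    (hadd : ∀ x ∈ Q, ∀ y ∈ Q, F (x * y) = F x + F y) (hsurj : ∀ w, ∃ x ∈ Q, F x = w)
    (hact : ∀ A : SL(2, ZMod p), ∃ h ∈ nz Q, ∀ x ∈ Q, F (h * x * h⁻¹) = (A : Matrix (Fin 2) (Fin 2) (ZMod p)).mulVec (F x)) :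
    ∃ T : Subgroup G, IsPGroup p T ∧ SLSec p T := by
  classical
  obtain ⟨T, hT⟩ := exists_sylIn p Q
  have h1 : F 1 = 0 := by
    have := hadd 1 (one_mem _) 1 (one_mem _)
    rw [mul_one] at this
    exact left_eq_add.1 this
  have hinv : ∀ x ∈ Q, F x⁻¹ = - F x := by
    intro x hx
    have := hadd x hx x⁻¹ (inv_mem hx)
    rw [mul_inv_cancel, h1] at this
    exact (neg_eq_of_add_eq_zero_right this.symm).symm
  let f : Q →* Multiplicative (Fin 2 → ZMod p) :=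
    { toFun := fun x => Multiplicative.ofAdd (F x)
      map_one' := by rw [Subgroup.coe_one, h1, ofAdd_zero]
      map_mul' := fun x y => by rw [Subgroup.coe_mul, hadd x x.2 y y.2, ofAdd_add] }
  have hf : Function.Surjective f := by
    intro w
    obtain ⟨x, hx, hxw⟩ := hsurj (Multiplicative.toAdd w)
    exact ⟨⟨x, hx⟩, by change Multiplicative.ofAdd (F x) = w; rw [hxw]; rfl⟩
  have hsT : ∀ w, ∃ x ∈ T, F x = w := by
    have hidx : ((T.subgroupOf Q).map f).index = 1 := by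
      have h2 : ((T.subgroupOf Q).map f).index ∣ (T.subgroupOf Q).index := Subgroup.index_map_dvd _ hf
      have h3 : ((T.subgroupOf Q).map f).index ∣ Nat.card (Multiplicative (Fin 2 → ZMod p)) :=
        Subgroup.index_dvd_card _
      have h4 : Nat.card (Multiplicative (Fin 2 → ZMod p)) = p ^ 2 := by
        rw [Nat.card_congr (Multiplicative.toAdd (α := Fin 2 → ZMod p)), Nat.card_fun, Nat.card_zmod, Nat.card_fin]
      rw [h4] at h3
      obtain ⟨k, -, hk⟩ := (Nat.dvd_prime_pow hp.out).1 h3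
      rcases Nat.eq_zero_or_pos k with rfl | hk0
      · rw [hk, pow_zero]
      · exfalso
        apply hT.not_dvd
        refine dvd_trans ?_ h2
        rw [hk]
        exact dvd_pow_self p hk0.ne'
    rw [Subgroup.index_eq_one] at hidx
    intro w
    have : Multiplicative.ofAdd w ∈ (T.subgroupOf Q).map f := by rw [hidx]; exact Subgroup.mem_top _
    obtain ⟨x, hx, hxw⟩ := this
    exact ⟨x, hx, hxw⟩
  have huniq : ∀ A B : SL(2, ZMod p), (∀ x ∈ T, (A : Matrix (Fin 2) (Fin 2) (ZMod p)).mulVec (F x) =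
      (B : Matrix (Fin 2) (Fin 2) (ZMod p)).mulVec (F x)) → A = B := by
    intro A B h
    apply Subtype.ext
    apply Matrix.mulVec_injective
    funext w
    obtain ⟨x, hx, rfl⟩ := hsT w
    exact h x hx
  have hTn : ∀ n ∈ nz T, ∀ x ∈ T, n * x * n⁻¹ ∈ T := fun n hn => le_normalizer_iff.1 (le_refl (nz T)) n hn
  let H : Subgroup G :=
    { carrier := {n | n ∈ nz T ∧ ∃ A : SL(2, ZMod p), ∀ x ∈ T,
        F (n * x * n⁻¹) = (A : Matrix (Fin 2) (Fin 2) (ZMod p)).mulVec (F x)}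
      one_mem' := ⟨one_mem _, 1, fun x _ => by simp⟩
      mul_mem' := by
        rintro n m ⟨hn, A, hA⟩ ⟨hm, B, hB⟩
        refine ⟨mul_mem hn hm, A * B, fun x hx => ?_⟩
        have e : n * m * x * (n * m)⁻¹ = n * (m * x * m⁻¹) * n⁻¹ := by group
        rw [e, hA _ (hTn m hm x hx), hB x hx, Matrix.mulVec_mulVec, Matrix.SpecialLinearGroup.coe_mul]
      inv_mem' := by
        rintro n ⟨hn, A, hA⟩
        refine ⟨inv_mem hn, A⁻¹, fun x hx => ?_⟩
        have h2 := hA _ (hTn n⁻¹ (inv_mem hn) x hx)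
        have e : n * (n⁻¹ * x * n⁻¹⁻¹) * n⁻¹ = x := by group
        rw [e] at h2
        rw [h2, Matrix.mulVec_mulVec, ← Matrix.SpecialLinearGroup.coe_mul, inv_mul_cancel]
        simp }
  have hH : ∀ n : H, ∃ A : SL(2, ZMod p), ∀ x ∈ T,
        F ((n : G) * x * (n : G)⁻¹) = (A : Matrix (Fin 2) (Fin 2) (ZMod p)).mulVec (F x) := fun n => n.2.2
  choose θ₀ hθ₀ using hH
  let θ : H →* SL(2, ZMod p) :=
    { toFun := θ₀
      map_one' := by
        apply huniq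
        intro x hx
        rw [← hθ₀ 1 x hx]
        simp
      map_mul' := by
        intro n m
        apply huniq
        intro x hx
        rw [← hθ₀ (n * m) x hx, Matrix.SpecialLinearGroup.coe_mul, ← Matrix.mulVec_mulVec, ← hθ₀ m x hx,
          ← hθ₀ n _ (hTn m m.2.1 x hx)]
        congr 1
        simp only [Subgroup.coe_mul]
        group }
  have hθs : Function.Surjective θ := by
    intro A
    obtain ⟨h, hh, hA⟩ := hact A
    have h2 : SylIn p (cj h T) Q := by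
      have := hT.conj h
      rwa [mem_normalizer.1 hh] at this
    obtain ⟨q, hq, hqT⟩ := h2.exists_conj_eq hT
    have hn : q * h ∈ nz T := by
      rw [mem_normalizer, ← cj_cj, hqT]
    have hhQ : ∀ x ∈ Q, h * x * h⁻¹ ∈ Q := fun x hx => le_normalizer_iff.1 (le_refl (nz Q)) h hh x hx
    have hF : ∀ x ∈ T, F (q * h * x * (q * h)⁻¹) = (A : Matrix (Fin 2) (Fin 2) (ZMod p)).mulVec (F x) := by
      intro x hx
      have hxQ := hT.le hx
      have e : q * h * x * (q * h)⁻¹ = q * (h * x * h⁻¹) * q⁻¹ := by group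
      rw [e, hadd _ (mul_mem hq (hhQ x hxQ)) _ (inv_mem hq), hadd _ hq _ (hhQ x hxQ), hinv q hq, hA x hxQ]
      abel
    refine ⟨⟨q * h, hn, A, hF⟩, ?_⟩
    apply huniq
    intro x hx
    rw [← hF x hx]
    exact (hθ₀ ⟨q * h, hn, A, hF⟩ x hx).symm
  have hker : (θ.ker.map H.subtype).subgroupOf H = θ.ker :=
    Subgroup.comap_map_eq_self_of_injective H.subtype_injective _
  have hn' : ((θ.ker.map H.subtype).subgroupOf H).Normal := by rw [hker]; infer_instance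
  refine ⟨T, hT.isPGroup, H, θ.ker.map H.subtype, hn', ?_, Subgroup.map_subtype_le _, fun x hx => hx.1, ⟨?_⟩⟩
  · intro c hc
    have hcT : ∀ x ∈ T, c * x * c⁻¹ = x := mem_centralizer.1 hc
    have hcH : c ∈ H := ⟨centralizer_le_normalizer T hc, 1, fun x hx => by rw [hcT x hx]; simp⟩
    refine ⟨⟨c, hcH⟩, ?_, rfl⟩
    change θ ⟨c, hcH⟩ = 1
    apply huniq
    intro x hx
    refine (hθ₀ ⟨c, hcH⟩ x hx).symm.trans ?_
    change F (c * x * c⁻¹) = _
    rw [hcT x hx]; simp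
  · exact (QuotientGroup.quotientMulEquivOfEq hker).trans (QuotientGroup.quotientKerEquivOfSurjective θ hθs)

/-- non-`p`-stable sections give `SL(2,p)` sections of automizers -/
theorem slSec_of_not_stable [Finite G] (hp2 : p ≠ 2) {X : Type*} [Group X] [Finite X] (K₁ : Subgroup G) (φ : ↥K₁ →* X)
    (hφ : Function.Surjective φ) (h : ¬ Cfsg.IsNormalizerPStable p X) :
    ∃ T : Subgroup G, IsPGroup p T ∧ SLSec p T := by
  classical
  unfold Cfsg.IsNormalizerPStable at h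
  push Not at h
  obtain ⟨P, hP, g, hg, hq, hns⟩ := h
  have h1 : QuadSection.NatSec p P (nz P) := by
    refine PStabPair.natSec_of_not_stable hp2 hP (N := nz P) le_rfl hg
      (QuadSection.quad_of_commutator hq) ?_
    intro D hD hDn hDp hgD
    apply hns
    set C := (Subgroup.centralizer (P : Set X)).subgroupOf (nz P) with hC
    have h2 : (D.subgroupOf (nz P)).Normal := (Subgroup.normal_subgroupOf_iff_le_normalizer hD).2 hDn
    have h3 : ((D.subgroupOf (nz P)).map (QuotientGroup.mk' C)).Normal :=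
      h2.map _ (QuotientGroup.mk'_surjective C)
    have h4 : IsPGroup p ((D.subgroupOf (nz P)).map (QuotientGroup.mk' C)) := by
      rintro ⟨_, x, hx, rfl⟩
      obtain ⟨k, hk⟩ := hDp (x : X) hx
      refine ⟨k, ?_⟩
      apply Subtype.ext
      show (QuotientGroup.mk' C x) ^ p ^ k = 1
      rw [← map_pow]
      exact (QuotientGroup.eq_one_iff _).2 hk
    exact Cfsg.Agent.Lib.CFCore.le_pCore h3 h4 ⟨⟨g, hg⟩, hgD, rfl⟩
  obtain ⟨H1, Q, hHQ, f, θ, hH1, hQP, hf, hθ, hact⟩ := h1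
  let Q' : Subgroup G := (Q.comap φ).map K₁.subtype
  have hQ' : ∀ x : G, x ∈ Q' ↔ ∃ hx : x ∈ K₁, φ ⟨x, hx⟩ ∈ Q := by
    intro x
    constructor
    · rintro ⟨y, hy, rfl⟩
      exact ⟨y.2, hy⟩
    · rintro ⟨hx, hx'⟩
      exact ⟨⟨x, hx⟩, hx', rfl⟩
  let F : G → (Fin 2 → ZMod p) := fun x =>
    if h : ∃ hx : x ∈ K₁, φ ⟨x, hx⟩ ∈ Q then Multiplicative.toAdd (f ⟨φ ⟨x, h.1⟩, h.2⟩) else 0
  have hF : ∀ (x : G) (hx : x ∈ K₁) (hx' : φ ⟨x, hx⟩ ∈ Q), F x = Multiplicative.toAdd (f ⟨φ ⟨x, hx⟩, hx'⟩) := by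
    intro x hx hx'
    have h : ∃ hx : x ∈ K₁, φ ⟨x, hx⟩ ∈ Q := ⟨hx, hx'⟩
    simp only [F, dif_pos h]
  refine slSec_of_action (Q := Q') F ?_ ?_ ?_
  · intro x hx y hy
    obtain ⟨hx, hx'⟩ := (hQ' x).1 hx
    obtain ⟨hy, hy'⟩ := (hQ' y).1 hy
    have hxy : φ ⟨x * y, mul_mem hx hy⟩ ∈ Q := by
      have : φ ⟨x * y, mul_mem hx hy⟩ = φ ⟨x, hx⟩ * φ ⟨y, hy⟩ := by rw [← map_mul]; rfl
      rw [this]; exact mul_mem hx' hy'
    rw [hF x hx hx', hF y hy hy', hF (x * y) (mul_mem hx hy) hxy, ← toAdd_mul, ← map_mul]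
    congr 2
    apply Subtype.ext
    change φ ⟨x * y, mul_mem hx hy⟩ = φ ⟨x, hx⟩ * φ ⟨y, hy⟩
    rw [← map_mul]; rfl
  · intro w
    obtain ⟨x, hx⟩ := hf (Multiplicative.ofAdd w)
    obtain ⟨y, hy⟩ := hφ x
    have hyQ : φ ⟨(y : G), y.2⟩ ∈ Q := by
      rw [show (⟨(y : G), y.2⟩ : K₁) = y from rfl, hy]; exact x.2
    refine ⟨y, (hQ' y).2 ⟨y.2, hyQ⟩, ?_⟩
    rw [hF y y.2 hyQ]
    have : (⟨φ ⟨(y : G), y.2⟩, hyQ⟩ : Q) = x := Subtype.ext hy
    rw [this, hx]; rfl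
  · intro A
    obtain ⟨h, hh⟩ := hθ A
    obtain ⟨k, hk⟩ := hφ h
    refine ⟨k, ?_, ?_⟩
    · have hkQ : ∀ x ∈ Q', (k : G) * x * (k : G)⁻¹ ∈ Q' := by
        intro x hx
        obtain ⟨hx, hx'⟩ := (hQ' x).1 hx
        refine (hQ' _).2 ⟨mul_mem (mul_mem k.2 hx) (inv_mem k.2), ?_⟩
        have e : φ ⟨(k : G) * x * (k : G)⁻¹, mul_mem (mul_mem k.2 hx) (inv_mem k.2)⟩ =
            (h : X) * φ ⟨x, hx⟩ * (h : X)⁻¹ := by
          rw [← hk, ← map_inv, ← map_mul, ← map_mul]; rfl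
        rw [e]
        exact le_normalizer_iff.1 hHQ h h.2 _ hx'
      exact mem_normalizer_of_le (by
        rintro _ ⟨x, hx, rfl⟩
        exact hkQ x hx)
    · intro x hx
      obtain ⟨hx, hx'⟩ := (hQ' x).1 hx
      have e : φ ⟨(k : G) * x * (k : G)⁻¹, mul_mem (mul_mem k.2 hx) (inv_mem k.2)⟩ =
            (h : X) * φ ⟨x, hx⟩ * (h : X)⁻¹ := by
          rw [← hk, ← map_inv, ← map_mul, ← map_mul]; rfl
      have he : φ ⟨(k : G) * x * (k : G)⁻¹, mul_mem (mul_mem k.2 hx) (inv_mem k.2)⟩ ∈ Q := by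
        rw [e]
        exact le_normalizer_iff.1 hHQ h h.2 _ hx'
      rw [hF _ _ he, hF x hx hx', ← hh, ← hact h ⟨φ ⟨x, hx⟩, hx'⟩]
      congr 2
      exact Subtype.ext e

end Cfsg.Agent.Lib.SLFree1
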