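import Cfsg.Agent.Lib.CFRed
import Cfsg.Agent.Lib.ClsStab

/-!
Extending control of strong fusion from a normal subgroup: a group-theoretic form of
"`O_p` of a normal subsystem is normal".
-/

set_option autoImplicit false

namespace Cfsg.Agent.Lib.SLFree2

open Cfsg.Agent.Lib.CFSylow Cfsg.Agent.Lib.CFFusion Cfsg.Agent.Lib.CFControl Cfsg.Agent.Lib.CFRed
  Cfsg.Agent.Lib.CFMin Cfsg.Agent.Lib.CFCore
open scoped commutatorElement

variable {X : Type*} [Group X] {p : ℕ}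

/-- the elements of `N(A)` acting trivially on `A` modulo `Q` -/
def cq (Q A : Subgroup X) [Q.Normal] : Subgroup X :=
  nz A ⊓ (Subgroup.centralizer ((A.map (QuotientGroup.mk' Q) : Subgroup (X ⧸ Q)) : Set (X ⧸ Q))).comap
    (QuotientGroup.mk' Q)

theorem mem_cq {Q A : Subgroup X} [Q.Normal] {x : X} :
    x ∈ cq Q A ↔ x ∈ nz A ∧ ∀ a ∈ A, ⁅x, a⁆ ∈ Q := by
  rw [cq, Subgroup.mem_inf, Subgroup.mem_comap, mem_centralizer]
  refine and_congr_right fun _ => ⟨fun h a ha => ?_, fun h => ?_⟩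
  · have h1 := h _ ⟨a, ha, rfl⟩
    rw [← mem_comap_pi (N := Q), map_commutatorElement, commutatorElement_def, h1, mul_inv_cancel]
  · rintro _ ⟨a, ha, rfl⟩
    have h1 := h a ha
    rw [← mem_comap_pi (N := Q), map_commutatorElement, commutatorElement_def] at h1
    exact mul_inv_eq_one.1 h1

theorem cj_cq (g : X) (Q A : Subgroup X) [hQ : Q.Normal] : cj g (cq Q A) = cq Q (cj g A) := by
  have key : ∀ (g : X) (A : Subgroup X), cj g (cq Q A) ≤ cq Q (cj g A) := by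
    rintro g A _ ⟨x, hx, rfl⟩
    rw [SetLike.mem_coe, mem_cq] at hx
    rw [mem_cq]
    refine ⟨?_, ?_⟩
    · change _ ∈ Subgroup.normalizer ((cj g A : Subgroup X) : Set X)
      rw [← cj_normalizer]
      exact ⟨x, hx.1, rfl⟩
    · rintro _ ⟨a, ha, rfl⟩
      have h1 := hQ.conj_mem _ (hx.2 a ha) g
      have e : ⁅(MulAut.conj g).toMonoidHom x, (MulAut.conj g).toMonoidHom a⁆ = g * ⁅x, a⁆ * g⁻¹ := by
        rw [← map_commutatorElement]; rfl
      rw [e]; exact h1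
  apply le_antisymm (key g A)
  have := cj_mono (g := g) (key g⁻¹ (cj g A))
  rwa [cj_cj_inv, cj_inv_cj] at this

/-- `Aut_S(A/Q)` as a subgroup -/
def ee (S Q A : Subgroup X) [Q.Normal] : Subgroup X := (S ⊓ nz A) ⊔ cq Q A

theorem cj_ee {g : X} {S Q A : Subgroup X} [Q.Normal] (hg : g ∈ nz S) :
    cj g (ee S Q A) = ee S Q (cj g A) := by
  rw [ee, cj_sup, cj_cq, cj_inf, mem_normalizer.1 hg, cj_normalizer]
  rfl

theorem nz_le_nz_cq {Q A : Subgroup X} [Q.Normal] : nz A ≤ nz (cq Q A) := by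
  intro x hx
  rw [mem_normalizer, cj_cq, mem_normalizer.1 hx]

variable [Finite X] [hp : Fact p.Prime]

theorem pow_mem_of_mem_sup {S M : Subgroup X} (hS : IsPGroup p S) (hSM : S ≤ nz M) {d : X} (hd : d ∈ S ⊔ M) :
    ∃ k : ℕ, d ^ p ^ k ∈ M := by
  obtain ⟨y, hy, x, hx, rfl⟩ := (mem_sup_of_le_nz hSM).1 hd
  obtain ⟨k, hk⟩ := hS ⟨y, hy⟩
  have hk' : y ^ p ^ k = 1 := congrArg Subtype.val hk
  refine ⟨k, ?_⟩
  have key : ∀ n : ℕ, ∃ x' ∈ M, (y * x) ^ n = y ^ n * x' := by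
    intro n
    induction n with
    | zero => exact ⟨1, one_mem _, by simp⟩
    | succ n ih =>
      obtain ⟨x', hx', h⟩ := ih
      have h1 : y⁻¹ * x' * y⁻¹⁻¹ ∈ M := le_normalizer_iff.1 hSM y⁻¹ (inv_mem hy) x' hx'
      refine ⟨y⁻¹ * x' * y⁻¹⁻¹ * x, mul_mem h1 hx, ?_⟩
      rw [pow_succ, h, pow_succ]; group
  obtain ⟨x', hx', h⟩ := key (p ^ k)
  rw [h, hk', one_mul]
  exact hx'

theorem mem_of_pprime {M : Subgroup X} {d : X} (hd : (orderOf d).Coprime p) {k : ℕ} (hk : d ^ p ^ k ∈ M) : d ∈ M :=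
  Cfsg.Agent.Lib.ClsStab.mem_of_pow_coprime (hd.pow_right k) (by rw [pow_orderOf_eq_one]; exact one_mem _) hk

/-- Extension of normality of `S` in the fusion system of `K` to `X`. -/
theorem sf_of_normal {P Q K S : Subgroup X} (hP : SylIn p P ⊤) [hQn : Q.Normal] [hKn : K.Normal] (hQS : Q ≤ S)
    (hSR : S ≤ P ⊓ K) (hRS : nz (P ⊓ K) ≤ nz S)
    (hKQ : ∀ d ∈ K, (orderOf d).Coprime p → d ∈ cz Q)
    (hstar : ∀ A : Subgroup X, Q ≤ A → A ≤ P ⊓ K → ∀ k ∈ K, cj k A ≤ P ⊓ K →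
      ∃ s ∈ nz S, ∃ c : X, (∀ a ∈ A, ⁅c, a⁆ ∈ Q) ∧ k = s * c) :
    SF S ⊤ P := by
  rw [sf_iff_reach]
  have hfus := isFus_reach ({⊤ ⊓ nz S} : Set (Subgroup X)) P
  have hQP : Q ≤ P := hQS.trans (hSR.trans inf_le_left)
  have hQK : Q ≤ K := hQS.trans (hSR.trans inf_le_right)
  have hPR : P ≤ nz (P ⊓ K) := by
    rw [le_normalizer_iff]
    intro a ha b hb
    exact Subgroup.mem_inf.2 ⟨mul_mem (mul_mem ha (Subgroup.mem_inf.1 hb).1) (inv_mem ha),
      hKn.conj_mem _ (Subgroup.mem_inf.1 hb).2 a⟩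
  have hPS : P ≤ nz S := hPR.trans hRS
  have hRK : SylIn p (P ⊓ K) K := hP.inf_normal le_top (Subgroup.normalizer_eq_top K).ge
  -- the decomposition
  have hdec : ∀ (B₀ : Subgroup X), Q ≤ B₀ → B₀ ≤ P ⊓ K → ∀ g ∈ nz B₀,
      ∃ s ∈ nz S, ∃ c : X, ∃ m ∈ nz (P ⊓ K), g = s * c * m ∧ (∀ a ∈ cj m B₀, ⁅c, a⁆ ∈ Q) ∧ cj m B₀ ≤ P ⊓ K ∧ Q ≤ cj m B₀ := by
    intro B₀ hQB₀ hB₀ g hg
    obtain ⟨k, hk, m, hm, hgm⟩ := frattini hRK le_top (Subgroup.normalizer_eq_top K).ge (Subgroup.mem_top g)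
    have hm' : m ∈ nz (P ⊓ K) := (Subgroup.mem_inf.1 hm).2
    have h1 : cj m B₀ ≤ P ⊓ K := by
      calc cj m B₀ ≤ cj m (P ⊓ K) := cj_mono hB₀
        _ = P ⊓ K := mem_normalizer.1 hm'
    have h2 : cj k (cj m B₀) = B₀ := by
      rw [cj_cj, ← hgm, mem_normalizer.1 hg]
    have h3 : Q ≤ cj m B₀ := by
      rw [← cj_normal (g := m) (N := Q)]; exact cj_mono hQB₀
    obtain ⟨s, hs, c, hc, hkc⟩ := hstar _ h3 h1 k hk (by rw [h2]; exact hB₀)
    exact ⟨s, hs, c, m, hm', by rw [hgm, hkc], hc, h1, h3⟩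
  suffices hsuff : ∀ B : Subgroup X, B ≤ P → ∀ g : X, cj g B ≤ P → Reach {⊤ ⊓ nz S} P B g from
    fun B hB h _ hle => hsuff B hB h hle
  refine hfus.induction_fn hP Q hQP ?_
  intro B hBP hBn hQB IH g hg
  have hgB : cj g B = B := mem_normalizer.1 hg
  set B₀ := B ⊓ K with hB₀
  have hQB₀ : Q ≤ B₀ := le_inf hQB hQK
  have hB₀R : B₀ ≤ P ⊓ K := inf_le_inf_right _ hBP
  have hnB₀ : nz B ≤ nz B₀ := by
    intro x hx
    rw [mem_normalizer, hB₀, cj_inf, mem_normalizer.1 hx, cj_normal (N := K)]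
  by_cases hSB : S ≤ B
  · -- `g` normalizes `S`
    have hSB₀ : S ≤ B₀ := le_inf hSB (hSR.trans inf_le_right)
    obtain ⟨s, hs, c, m, hm, hgm, hc, h1, h3⟩ := hdec B₀ hQB₀ hB₀R g (hnB₀ hg)
    have hmS : m ∈ nz S := hRS hm
    have hSA : S ≤ cj m B₀ := by
      rw [← mem_normalizer.1 hmS]; exact cj_mono hSB₀
    have hcS : c ∈ nz S := by
      apply mem_normalizer_of_le
      rintro _ ⟨a, ha, rfl⟩
      have h4 := hQS (hc a (hSA ha))
      have e : (MulAut.conj c).toMonoidHom a = ⁅c, a⁆ * a := by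
        rw [commutatorElement_def]; change c * a * c⁻¹ = _; group
      rw [e]; exact mul_mem h4 ha
    have hgS : g ∈ nz S := by
      rw [hgm]; exact mul_mem (mul_mem hs hcS) hmS
    have h5 : Reach {⊤ ⊓ nz S} P B (g * 1) := by
      refine .step (.one hBP (one_mem _)) rfl (Subgroup.mem_inf.2 ⟨Subgroup.mem_top _, hgS⟩) ?_
      rw [mul_one, hgB]; exact hBP
    rwa [mul_one] at h5
  -- the normal subgroup `D`
  have hE : nz B₀ ≤ nz (ee S Q B₀) := by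
    intro x hx
    obtain ⟨s, hs, c, m, hm, hgm, hc, h1, h3⟩ := hdec B₀ hQB₀ hB₀R x hx
    have hmS : m ∈ nz S := hRS hm
    have hcA : c ∈ nz (cj m B₀) := by
      apply mem_normalizer_of_le
      rintro _ ⟨a, ha, rfl⟩
      have h4 := h3 (hc a ha)
      have e : (MulAut.conj c).toMonoidHom a = ⁅c, a⁆ * a := by
        rw [commutatorElement_def]; change c * a * c⁻¹ = _; group
      rw [e]; exact mul_mem h4 ha
    have hcE : c ∈ ee S Q (cj m B₀) := Subgroup.mem_sup_right (mem_cq.2 ⟨hcA, hc⟩)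
    have h5 : cj (s * c * m) B₀ = cj s (cj m B₀) := by
      rw [mul_assoc, ← cj_cj, ← cj_cj, mem_normalizer.1 hcA]
    rw [mem_normalizer]
    calc cj x (ee S Q B₀) = cj s (cj c (cj m (ee S Q B₀))) := by rw [hgm, ← cj_cj, ← cj_cj]
      _ = cj s (cj c (ee S Q (cj m B₀))) := by rw [cj_ee hmS]
      _ = cj s (ee S Q (cj m B₀)) := by rw [mem_normalizer.1 (Subgroup.le_normalizer hcE)]
      _ = ee S Q (cj s (cj m B₀)) := cj_ee hs
      _ = ee S Q B₀ := by rw [← h5, ← hgm, mem_normalizer.1 hx]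
  set D := K ⊓ nz B ⊓ ee S Q B₀ with hD
  have hDB : D ≤ nz B := inf_le_left.trans inf_le_right
  have hDK : D ≤ K := inf_le_left.trans inf_le_left
  have hnD : nz B ≤ nz D := by
    intro x hx
    have h1 : cj x (nz B) = nz B := by
      change cj x (Subgroup.normalizer ((B : Subgroup X) : Set X)) = _
      rw [cj_normalizer, mem_normalizer.1 hx]
    rw [mem_normalizer, hD, cj_inf, cj_inf, cj_normal (N := K), h1, mem_normalizer.1 (hE (hnB₀ hx))]
  have hSD : S ⊓ nz B ≤ D := by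
    refine le_inf (le_inf (inf_le_left.trans (hSR.trans inf_le_right)) inf_le_right) ?_
    exact le_trans (inf_le_inf_left _ hnB₀) le_sup_left
  have hV := hBn.inf_normal hDB hnD
  set V := (P ⊓ nz B) ⊓ D with hVdef
  have hSV : S ⊓ nz B ≤ V := le_inf (inf_le_inf_right _ (hSR.trans inf_le_left)) hSD
  have hVP : V ≤ P := inf_le_left.trans inf_le_left
  have hVB : V ≤ nz B := inf_le_left.trans inf_le_right
  -- `p'`-elements of `D` centralize `B`
  have hDp : ∀ d ∈ D, (orderOf d).Coprime p → d ∈ D ⊓ cz B := by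
    intro d hd hdp
    refine Subgroup.mem_inf.2 ⟨hd, ?_⟩
    obtain ⟨hd1, hdE⟩ := Subgroup.mem_inf.1 hd
    obtain ⟨hdK, hdB⟩ := Subgroup.mem_inf.1 hd1
    have hSp : IsPGroup p (S ⊓ nz B₀ : Subgroup X) := hP.isPGroup.to_le (inf_le_left.trans (hSR.trans inf_le_left))
    obtain ⟨k, hk⟩ := pow_mem_of_mem_sup hSp (inf_le_right.trans nz_le_nz_cq) hdE
    have hdM := mem_of_pprime hdp hk
    have hQd := hKQ d hdK hdp
    have hdM' := (mem_cq.1 hdM).2
    have hB₀p : IsPGroup p B₀ := hP.isPGroup.to_le (inf_le_left.trans hBP)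
    have hBp : IsPGroup p B := hP.isPGroup.to_le hBP
    have h1 := coprime_centralizes hB₀p hQB₀ hdp (mem_centralizer.1 hQd) (by
      intro b hb
      have h2 := hQn.conj_mem _ (hdM' b hb) b⁻¹
      rw [commutatorElement_def] at h2
      have e : b⁻¹ * (d * b * d⁻¹ * b⁻¹) * b⁻¹⁻¹ = b⁻¹ * (d * b * d⁻¹) := by group
      rwa [e] at h2)
    have h3 := coprime_centralizes hBp (inf_le_left : B₀ ≤ B) hdp h1 (by
      intro b hb
      refine Subgroup.mem_inf.2 ⟨mul_mem (inv_mem hb) (le_normalizer_iff.1 (le_refl (nz B)) d hdB b hb), ?_⟩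
      have h4 : b⁻¹ * d * b⁻¹⁻¹ ∈ K := hKn.conj_mem d hdK b⁻¹
      have e : b⁻¹ * (d * b * d⁻¹) = b⁻¹ * d * b⁻¹⁻¹ * d⁻¹ := by group
      rw [e]; exact mul_mem h4 (inv_mem hdK))
    exact mem_centralizer.2 h3
  have hcB : nz B ≤ nz (cz B) := by
    intro x hx
    rw [mem_normalizer]
    change cj x (Subgroup.centralizer ((B : Subgroup X) : Set X)) = _
    rw [cj_centralizer, mem_normalizer.1 hx]
  have hDsup : D ≤ (D ⊓ cz B) ⊔ V := by
    refine le_sup_of_pprime hV inf_le_left ?_ hDp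
    intro x hx
    rw [mem_normalizer, cj_inf, mem_normalizer.1 (Subgroup.le_normalizer hx),
      mem_normalizer.1 (hcB (hDB hx))]
  -- Frattini
  obtain ⟨n, hn, m', hm', hgm⟩ := frattini hV hDB hnD hg
  have hVn : V ≤ nz (D ⊓ cz B) := by
    intro x hx
    have hxD : x ∈ D := (Subgroup.mem_inf.1 hx).2
    rw [mem_normalizer, cj_inf, mem_normalizer.1 (Subgroup.le_normalizer hxD),
      mem_normalizer.1 (hcB (hDB hxD))]
  have hn' : n ∈ V ⊔ (D ⊓ cz B) := by rw [sup_comm]; exact hDsup hn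
  obtain ⟨v, hv, z, hz, rfl⟩ := (mem_sup_of_le_nz hVn).1 hn'
  obtain ⟨hm'B, hm'V⟩ := Subgroup.mem_inf.1 hm'
  have hzc : z ∈ cz B := (Subgroup.mem_inf.1 hz).2
  -- `g = v z m' = (v z v⁻¹) (v m')`
  have hzc' : v * z * v⁻¹ ∈ cz B := le_normalizer_iff.1 hcB v (hVB hv) z hzc
  have hmm : v * m' ∈ nz B := mul_mem (hVB hv) hm'B
  have hmmV : v * m' ∈ nz V := mul_mem (Subgroup.le_normalizer hv) hm'V
  have hlt : B < B ⊔ V := by
    refine lt_of_le_of_ne le_sup_left (fun h => ?_)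
    have hVle : V ≤ B := h ▸ le_sup_right
    have h1 : S ⊓ nz B ≤ B := hSV.trans hVle
    have h2 : B < B ⊔ S := lt_of_le_of_ne le_sup_left (fun h' => hSB (h' ▸ le_sup_right))
    have h3 := lt_inf_normalizer (hP.isPGroup.to_le (sup_le hBP (hSR.trans inf_le_left))) h2
    obtain ⟨y, hy, hyB⟩ := SetLike.exists_of_lt h3
    obtain ⟨hy1, hy2⟩ := Subgroup.mem_inf.1 hy
    obtain ⟨b, hb, s, hs, rfl⟩ := (mem_sup_of_le_nz (hBP.trans hPS)).1 hy1
    have hsn : s ∈ nz B := by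
      have : s = b⁻¹ * (b * s) := by group
      rw [this]; exact mul_mem (inv_mem (Subgroup.le_normalizer hb)) hy2
    exact hyB (mul_mem hb (h1 (Subgroup.mem_inf.2 ⟨hs, hsn⟩)))
  have hcjm : cj (v * m') (B ⊔ V) = B ⊔ V := by
    rw [cj_sup, mem_normalizer.1 hmm, mem_normalizer.1 hmmV]
  have h6 := IH (B ⊔ V) (sup_le hBP hVP) (card_lt_of_lt hlt) (v * m') (by rw [hcjm]; exact sup_le hBP hVP)
  have h7 : Reach {⊤ ⊓ nz S} P B (v * m') := hfus.mono le_sup_left h6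
  have h8 : Reach {⊤ ⊓ nz S} P (cj (v * m') B) (v * z * v⁻¹) := by
    rw [mem_normalizer.1 hmm]; exact .one hBP hzc'
  have h9 := hfus.mul h7 h8
  have e : v * z * v⁻¹ * (v * m') = g := by rw [hgm]; group
  rwa [e] at h9

end Cfsg.Agent.Lib.SLFree2
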