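import Cfsg.Agent.Lib.SLFree1
import Cfsg.Agent.Lib.SLFree2
import Cfsg.Agent.Lib.KInf6

/-!
`SL(2,p)`-free fusion is constrained: the largest normal subgroup of the fusion system is centric.
-/

set_option autoImplicit false

namespace Cfsg.Agent.Lib.SLFree3

open Cfsg.Agent.Lib.CFSylow Cfsg.Agent.Lib.CFFusion Cfsg.Agent.Lib.CFControl
  Cfsg.Agent.Lib.CFLocal Cfsg.Agent.Lib.CFCore Cfsg.Agent.Lib.CFSection Cfsg.Agent.Lib.CFMin
  Cfsg.Agent.Lib.CFMain Cfsg.Agent.Lib.CFRed Cfsg.Agent.Lib.CFStmt Cfsg.Agent.Lib.SLFree2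
open scoped commutatorElement

universe u

variable {p : ℕ} [hp : Fact p.Prime] {W : ∀ (Q : Type u) [Group Q], Subgroup Q}

section bigger
variable {X : Type u} [Group X] [Finite X]

theorem pprime_mem_cz {Q : Subgroup X} [hQn : Q.Normal] (hQ : IsPGroup p Q) :
    ∀ d ∈ Q ⊔ cz Q, (orderOf d).Coprime p → d ∈ cz Q := by
  intro d hd hdp
  have hn : Q ≤ nz (cz Q) := by
    have : (cz Q).Normal := inferInstance
    exact le_top.trans (Subgroup.normalizer_eq_top (cz Q)).ge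
  obtain ⟨k, hk⟩ := pow_mem_of_mem_sup hQ hn hd
  exact mem_of_pprime hdp hk

theorem exists_bigger (hW : Cfsg.IsCharPFunctor.{u} p W) {P Q : Subgroup X} (hP : SylIn p P ⊤)
    [hQn : Q.Normal] (hQP : Q ≤ P)
    (hctrl : CtrlSF p {W} ↥((Q ⊔ cz Q).map (QuotientGroup.mk' Q)))
    (hne : ¬ P ⊓ cz Q ≤ Q) :
    ∃ S : Subgroup X, Q < S ∧ S ≤ P ∧ P ≤ nz S ∧ SF S ⊤ P := by
  set π := QuotientGroup.mk' Q with hπ
  have hπs : Function.Surjective π := QuotientGroup.mk'_surjective Q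
  have hker : π.ker = Q := QuotientGroup.ker_mk' Q
  set K := Q ⊔ cz Q with hK
  have hczn : (cz Q).Normal := inferInstance
  have hKn : K.Normal := inferInstance
  have hQK : Q ≤ K := le_sup_left
  set R := P ⊓ K with hR
  have hQR : Q ≤ R := le_inf hQP hQK
  have hRb : SylIn p (R.map π) (K.map π) := by
    have h1 : SylIn p (P.map π) ⊤ := SylIn.map_surj hπs hP
    have h2 : (K.map π).Normal := hKn.map _ hπs
    have h3 := h1.inf_normal (N := K.map π) le_top (Subgroup.normalizer_eq_top _).ge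
    have h4 : P.map π ⊓ K.map π = R.map π := by
      apply le_antisymm
      · rintro _ ⟨⟨a, ha, rfl⟩, b, hb, hab⟩
        refine ⟨a, Subgroup.mem_inf.2 ⟨ha, ?_⟩, rfl⟩
        have h5 : b⁻¹ * a ∈ Q := by
          rw [← mem_comap_pi (N := Q), map_mul, map_inv]
          change (π b)⁻¹ * π a = 1
          rw [hab, inv_mul_cancel]
        have : a = b * (b⁻¹ * a) := by group
        rw [this]; exact mul_mem hb (hQK h5)
      · exact le_inf (Subgroup.map_mono inf_le_left) (Subgroup.map_mono inf_le_right)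
    rwa [h4] at h3
  have hSFb : SF (Cfsg.inducedFunctor W (R.map π)) (K.map π) (R.map π) := by
    have h𝓦 : ∀ W' ∈ ({W} : Set (∀ (Q : Type u) [Group Q], Subgroup Q)),
        Cfsg.IsCharPFunctor.{u} p W' := by
      intro W' hW'; rw [Set.mem_singleton_iff] at hW'; exact hW' ▸ hW
    have h1 := famSF_subgroup h𝓦 hctrl hRb
    rw [ind_singleton, famSF_singleton] at h1
    exact h1
  have hconj := isConjugacyFunctor_induced (X := X ⧸ Q) hW
  set S₀ := Cfsg.inducedFunctor W (R.map π) with hS₀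
  have hS₀R : S₀ ≤ R.map π := functor_le hconj hRb.isPGroup
  have hcomapR : (R.map π).comap π = R := by
    rw [Subgroup.comap_map_eq, hker]; exact sup_eq_left.2 hQR
  have hSR : S₀.comap π ≤ R := by
    rw [← hcomapR]; exact Subgroup.comap_mono hS₀R
  have hQS : Q ≤ S₀.comap π := by
    intro q hq
    rw [Subgroup.mem_comap]
    have : π q = 1 := (mem_comap_pi (N := Q)).2 hq
    rw [this]; exact one_mem _
  have hRS : nz R ≤ nz (S₀.comap π) := by
    intro x hx
    have h1 : π x ∈ nz (R.map π) := Subgroup.le_normalizer_map π ⟨x, hx, rfl⟩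
    have h2 := nz_le_nz_functor hconj hRb.isPGroup h1
    exact Subgroup.le_normalizer_comap π (H := S₀) h2
  have hPR : P ≤ nz R := by
    rw [le_normalizer_iff]
    intro a ha b hb
    exact Subgroup.mem_inf.2 ⟨mul_mem (mul_mem ha (Subgroup.mem_inf.1 hb).1) (inv_mem ha),
      hKn.conj_mem _ (Subgroup.mem_inf.1 hb).2 a⟩
  have hQp : IsPGroup p Q := hP.isPGroup.to_le hQP
  refine ⟨S₀.comap π, lt_of_le_of_ne hQS ?_, hSR.trans inf_le_left, hPR.trans hRS, ?_⟩
  · intro heq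
    have h1 : S₀ = ⊥ := by
      have h2 : (S₀.comap π).map π = S₀ := Subgroup.map_comap_eq_self_of_surjective hπs _
      rw [← h2, ← heq, Subgroup.map_eq_bot_iff, hker]
    refine functor_ne_bot hconj hRb.isPGroup ?_ h1
    intro h2
    rw [Subgroup.map_eq_bot_iff, hker] at h2
    exact hne ((inf_le_inf_left _ le_sup_right).trans h2)
  · refine sf_of_normal hP hQS hSR hRS (pprime_mem_cz hQp) ?_
    intro A hQA hAR k hk hle
    have h1 : cj (π k) (A.map π) ≤ R.map π := by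
      rw [cj_map]; exact Subgroup.map_mono hle
    obtain ⟨x, hx, c, hc, hkc⟩ := hSFb (A.map π) (Subgroup.map_mono hAR) (π k) ⟨k, hk, rfl⟩ h1
    obtain ⟨⟨y, hy, rfl⟩, hxn⟩ := Subgroup.mem_inf.1 hx
    refine ⟨y, ?_, y⁻¹ * k, ?_, by group⟩
    · exact Subgroup.le_normalizer_comap π (H := S₀) hxn
    · intro a ha
      have h2 := mem_centralizer.1 hc (π a) ⟨a, ha, rfl⟩
      rw [← mem_comap_pi (N := Q)]
      change π ⁅y⁻¹ * k, a⁆ = 1
      have h3 : π (y⁻¹ * k) = c := by rw [map_mul, map_inv, hkc]; group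
      rw [map_commutatorElement, h3, commutatorElement_def, h2, mul_inv_cancel]

end bigger

section main
variable {G : Type u} [Group G] [Finite G]

/-- `V` is normal in the fusion system of `G` on `P`. -/
def Good (P V : Subgroup G) : Prop := V ≤ P ∧ P ≤ nz V ∧ SF V ⊤ P

omit [Finite G] in
theorem good_bot (P : Subgroup G) : Good P ⊥ := by
  refine ⟨bot_le, ?_, ?_⟩
  · have : nz (⊥ : Subgroup G) = ⊤ := Subgroup.normalizer_eq_top ⊥
    rw [this]; exact le_top
  · intro B hB h _ _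
    refine ⟨h, Subgroup.mem_inf.2 ⟨Subgroup.mem_top _, ?_⟩, 1, one_mem _, (mul_one h).symm⟩
    have : nz (⊥ : Subgroup G) = ⊤ := Subgroup.normalizer_eq_top ⊥
    rw [this]; exact Subgroup.mem_top _

theorem good_transfer {P Q : Subgroup G} (hQ : Good P Q) {V : Subgroup ↥(nz Q)} (hV : V ≤ P.subgroupOf (nz Q))
    (hPV : P.subgroupOf (nz Q) ≤ nz V) (hSF : SF V ⊤ (P.subgroupOf (nz Q))) : Good P (V.map (nz Q).subtype) := by
  obtain ⟨hQP, hPQ, hQSF⟩ := hQ
  have hVP : V.map (nz Q).subtype ≤ P := by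
    rintro _ ⟨v, hv, rfl⟩
    exact hV hv
  have hnV : ∀ x : ↥(nz Q), x ∈ nz V → (x : G) ∈ nz (V.map (nz Q).subtype) := by
    intro x hx
    exact Subgroup.le_normalizer_map (nz Q).subtype ⟨x, hx, rfl⟩
  refine ⟨hVP, ?_, ?_⟩
  · intro x hx
    exact hnV ⟨x, hPQ hx⟩ (hPV hx)
  · intro B hB g _ hle
    obtain ⟨x, hx, c, hc, rfl⟩ := hQSF B hB g (Subgroup.mem_top _) hle
    obtain ⟨-, hxn⟩ := Subgroup.mem_inf.1 hx
    have h1 : cj x B ≤ P := by
      rw [← cj_cj, cj_of_centralizer hc] at hle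
      exact hle
    have hBN : B ≤ nz Q := hB.trans hPQ
    have h2 : cj (⟨x, hxn⟩ : ↥(nz Q)) (B.subgroupOf (nz Q)) ≤ P.subgroupOf (nz Q) := by
      rintro _ ⟨b, hb, rfl⟩
      exact h1 ⟨b, hb, rfl⟩
    obtain ⟨y, hy, d, hd, hyd⟩ := hSF (B.subgroupOf (nz Q)) (Subgroup.comap_mono hB) ⟨x, hxn⟩ (Subgroup.mem_top _) h2
    obtain ⟨-, hyn⟩ := Subgroup.mem_inf.1 hy
    refine ⟨y, Subgroup.mem_inf.2 ⟨Subgroup.mem_top _, hnV y hyn⟩, d * c, mul_mem ?_ hc, ?_⟩
    · rw [mem_centralizer] at hd ⊢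
      intro b hb
      exact congrArg Subtype.val (hd ⟨b, hBN hb⟩ hb)
    · have h3 : x = y * d := congrArg Subtype.val hyd
      rw [h3, mul_assoc]

theorem sylIn_subgroupOf {P N : Subgroup G} (hP : SylIn p P ⊤) (hPN : P ≤ N) : SylIn p (P.subgroupOf N) ⊤ := by
  refine ⟨le_top, hP.isPGroup.comap_of_injective _ N.subtype_injective, ?_⟩
  rw [Subgroup.relIndex_top_right]
  exact (hP.of_le hPN le_top).not_dvd

theorem cz_subgroupOf {Q : Subgroup G} : cz (Q.subgroupOf (nz Q)) = (cz Q).subgroupOf (nz Q) := by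
  ext x
  rw [Subgroup.mem_subgroupOf, mem_centralizer, mem_centralizer]
  constructor
  · intro h a ha
    exact congrArg Subtype.val (h ⟨a, Subgroup.le_normalizer ha⟩ ha)
  · intro h a ha
    exact Subtype.ext (h a ha)

theorem exists_good (hW : Cfsg.IsCharPFunctor.{u} p W)
    (hctrl : ∀ (X : Type u) [Group X], IsSec X G → CtrlSF p {W} X) {P : Subgroup G} (hP : SylIn p P ⊤) :
    ∃ Q : Subgroup G, Good P Q ∧ P ⊓ cz Q ≤ Q ∧
      ∀ X : Subgroup G, X ≤ nz Q → nz Q ≤ nz X → Q ⊔ cz Q ≤ X → (∃ k : ℕ, (Q ⊔ cz Q).relIndex X = p ^ k) →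
        X = Q ⊔ cz Q := by
  classical
  obtain ⟨Q, hQ, hmax⟩ : ∃ Q : Subgroup G, Good P Q ∧ ∀ V, Good P V → Nat.card V ≤ Nat.card Q := by
    obtain ⟨Q, hQ, hmax⟩ := Set.exists_max_image {V : Subgroup G | Good P V} (fun V => Nat.card V)
      (Set.toFinite _) ⟨⊥, good_bot P⟩
    exact ⟨Q, hQ, hmax⟩
  obtain ⟨hQP, hPQ, hQSF⟩ := hQ
  set N := nz Q with hN
  have hQN : Q ≤ N := Subgroup.le_normalizer
  have hczN : cz Q ≤ N := centralizer_le_normalizer Q
  have hQn : (Q.subgroupOf N).Normal := (Subgroup.normal_subgroupOf_iff_le_normalizer hQN).2 le_rfl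
  have hPN := sylIn_subgroupOf hP hPQ
  have hQPN : Q.subgroupOf N ≤ P.subgroupOf N := Subgroup.comap_mono hQP
  have hcardQ : Nat.card (Q.subgroupOf N) = Nat.card Q := Nat.card_congr (Subgroup.subgroupOfEquivOfLe hQN).toEquiv
  have hczs : cz (Q.subgroupOf N) = (cz Q).subgroupOf N := cz_subgroupOf
  have hc1 : P.subgroupOf N ⊓ cz (Q.subgroupOf N) ≤ Q.subgroupOf N := by
    by_contra hne
    obtain ⟨S, hQS, hSP, hPS, hSF⟩ := exists_bigger hW hPN hQPN (hctrl _ (((isSec_subgroup _).trans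
      (isSec_quotient _)).trans (isSec_subgroup N))) hne
    have h1 := hmax _ (good_transfer ⟨hQP, hPQ, hQSF⟩ hSP hPS hSF)
    have h2 : Nat.card (S.map N.subtype) = Nat.card S := Subgroup.card_subtype N S
    have h3 := card_lt_of_lt hQS
    change Nat.card (S.map N.subtype) ≤ Nat.card Q at h1
    omega
  have hc1' : P ⊓ cz Q ≤ Q := by
    intro x hx
    obtain ⟨hxP, hxc⟩ := Subgroup.mem_inf.1 hx
    have : (⟨x, hPQ hxP⟩ : N) ∈ Q.subgroupOf N := by
      apply hc1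
      refine Subgroup.mem_inf.2 ⟨hxP, ?_⟩
      rw [hczs]; exact hxc
    exact this
  refine ⟨Q, ⟨hQP, hPQ, hQSF⟩, hc1', ?_⟩
  intro X₁ hXN hNX hQX ⟨k, hk⟩
  have hXn : (X₁.subgroupOf N).Normal := (Subgroup.normal_subgroupOf_iff_le_normalizer hXN).2 hNX
  have hQp : IsPGroup p (Q.subgroupOf N) := hPN.isPGroup.to_le hQPN
  have hczn : (cz (Q.subgroupOf N)).Normal := inferInstance
  have hsupn : (Q.subgroupOf N ⊔ cz (Q.subgroupOf N)).Normal := inferInstance
  have hKQ : ∀ d ∈ X₁.subgroupOf N, (orderOf d).Coprime p → d ∈ cz (Q.subgroupOf N) := by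
    intro d hd hdp
    apply pprime_mem_cz hQp d _ hdp
    have h1 := Cfsg.Agent.Lib.ClsStab.pow_relIndex_mem (Q := Q.subgroupOf N ⊔ cz (Q.subgroupOf N)) hd
    rw [hczs, ← Subgroup.subgroupOf_sup hQN hczN, Subgroup.relIndex_subgroupOf hXN, hk,
      Subgroup.subgroupOf_sup hQN hczN, ← hczs] at h1
    exact mem_of_pprime hdp h1
  have hQX' : Q.subgroupOf N ≤ X₁.subgroupOf N := Subgroup.comap_mono (le_sup_left.trans hQX)
  have hcX' : cz (Q.subgroupOf N) ≤ X₁.subgroupOf N := by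
    rw [hczs]; exact Subgroup.comap_mono (le_sup_right.trans hQX)
  have hVs : SylIn p (P.subgroupOf N ⊓ X₁.subgroupOf N) (X₁.subgroupOf N) :=
    hPN.inf_normal le_top (Subgroup.normalizer_eq_top _).ge
  set V := P.subgroupOf N ⊓ X₁.subgroupOf N with hV
  have hXle : X₁.subgroupOf N ≤ cz (Q.subgroupOf N) ⊔ V :=
    le_sup_of_pprime hVs hcX' (le_top.trans (Subgroup.normalizer_eq_top _).ge) hKQ
  have hVcz : V ≤ nz (cz (Q.subgroupOf N)) := le_top.trans (Subgroup.normalizer_eq_top _).ge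
  have hPV : P.subgroupOf N ≤ nz V := by
    rw [le_normalizer_iff]
    intro a ha b hb
    exact Subgroup.mem_inf.2 ⟨mul_mem (mul_mem ha (Subgroup.mem_inf.1 hb).1) (inv_mem ha),
      hXn.conj_mem _ (Subgroup.mem_inf.1 hb).2 a⟩
  have hSF : SF V ⊤ (P.subgroupOf N) := by
    refine sf_of_normal hPN (Q := Q.subgroupOf N) (K := X₁.subgroupOf N) (le_inf hQPN hQX') le_rfl le_rfl hKQ ?_
    intro A hQA hAV x hx hle
    have hx' : x ∈ V ⊔ cz (Q.subgroupOf N) := by rw [sup_comm]; exact hXle hx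
    obtain ⟨v, hv, z, hz, rfl⟩ := (mem_sup_of_le_nz hVcz).1 hx'
    refine ⟨v, Subgroup.le_normalizer hv, z, ?_, rfl⟩
    intro a ha
    apply hc1
    have h1 : z * a * z⁻¹ ∈ V := by
      have h2 : v * z * a * (v * z)⁻¹ ∈ V := hle (conj_mem_cj ha)
      have h3 : z * a * z⁻¹ = v⁻¹ * (v * z * a * (v * z)⁻¹) * v := by group
      rw [h3]; exact mul_mem (mul_mem (inv_mem hv) h2) hv
    refine Subgroup.mem_inf.2 ⟨?_, ?_⟩
    · rw [commutatorElement_def]
      exact mul_mem (Subgroup.mem_inf.1 h1).1 (inv_mem (Subgroup.mem_inf.1 (hAV ha)).1)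
    · rw [commutatorElement_def, mul_assoc, mul_assoc, ← mul_assoc a]
      exact mul_mem hz (hczn.conj_mem _ (inv_mem hz) a)
  have h1 := hmax _ (good_transfer ⟨hQP, hPQ, hQSF⟩ inf_le_left hPV hSF)
  have h2 : Nat.card (V.map N.subtype) = Nat.card V := Subgroup.card_subtype N V
  change Nat.card (V.map N.subtype) ≤ Nat.card Q at h1
  have hVQ : Q.subgroupOf N = V := by
    refine eq_of_le_of_card_le (le_inf hQPN hQX') ?_
    omega
  apply le_antisymm _ hQX
  intro x hx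
  have h3 : (⟨x, hXN hx⟩ : N) ∈ cz (Q.subgroupOf N) ⊔ V := hXle hx
  rw [← hVQ, hczs, sup_comm, ← Subgroup.subgroupOf_sup hQN hczN] at h3
  exact h3

/-- the least centric radical subgroup lies in every centric radical subgroup -/
theorem good_le_radical {P Q : Subgroup G} (hQ : Good P Q) {R : Subgroup G} (hRP : R ≤ P)
    (hcen : SylIn p (R ⊓ cz R) (cz R))
    (hrad : ∀ X : Subgroup G, X ≤ nz R → nz R ≤ nz X → R ⊔ cz R ≤ X → (∃ k : ℕ, (R ⊔ cz R).relIndex X = p ^ k) →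
        X = R ⊔ cz R) (hPp : IsPGroup p P) : Q ≤ R := by
  obtain ⟨hQP, hPQ, hQSF⟩ := hQ
  by_contra hQR
  have hRp : IsPGroup p R := hPp.to_le hRP
  -- an element of `N_Q(R)` outside `R`
  have h2 : R < R ⊔ Q := lt_of_le_of_ne le_sup_left (fun h' => hQR (h' ▸ le_sup_right))
  have h3 := lt_inf_normalizer (hPp.to_le (sup_le hRP hQP)) h2
  obtain ⟨y, hy, hyR⟩ := SetLike.exists_of_lt h3
  obtain ⟨hy1, hy2⟩ := Subgroup.mem_inf.1 hy
  obtain ⟨b, hb, q, hq, rfl⟩ := (mem_sup_of_le_nz (hRP.trans hPQ)).1 hy1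
  have hqn : q ∈ nz R := by
    have : q = b⁻¹ * (b * q) := by group
    rw [this]; exact mul_mem (inv_mem (Subgroup.le_normalizer hb)) hy2
  have hqR : q ∉ R := fun h => hyR (mul_mem hb h)
  have hczn : nz R ≤ nz (cz R) := by
    intro x hx
    rw [mem_normalizer]
    change cj x (Subgroup.centralizer ((R : Subgroup G) : Set G)) = _
    rw [cj_centralizer, mem_normalizer.1 hx]
  have hRcz : nz R ≤ nz (R ⊔ cz R) := by
    intro x hx
    rw [mem_normalizer, cj_sup, mem_normalizer.1 hx, mem_normalizer.1 (hczn hx)]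
  have hczle : cz R ≤ nz R := centralizer_le_normalizer R
  have hRczle : R ⊔ cz R ≤ nz R := sup_le Subgroup.le_normalizer hczle
  -- the subgroup `X = N_Q(R) R C(R)`
  set X := (Q ⊓ nz R) ⊔ (R ⊔ cz R) with hX
  have hQn : Q ⊓ nz R ≤ nz (R ⊔ cz R) := inf_le_right.trans hRcz
  have hnX : nz R ≤ nz X := by
    intro n hn
    -- `n = x c`
    obtain ⟨x, hx, c, hc, hnxc⟩ := hQSF R hRP n (Subgroup.mem_top _) (by rw [mem_normalizer.1 hn]; exact hRP)
    obtain ⟨-, hxn⟩ := Subgroup.mem_inf.1 hx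
    have hcR : c ∈ nz R := hczle hc
    have hxR : x ∈ nz R := by
      have : x = n * c⁻¹ := by rw [hnxc]; group
      rw [this]; exact mul_mem hn (inv_mem hcR)
    have hcX : c ∈ X := Subgroup.mem_sup_right (Subgroup.mem_sup_right hc)
    have hxX : x ∈ nz X := by
      rw [mem_normalizer, hX, cj_sup, cj_inf, mem_normalizer.1 hxn, mem_normalizer.1 (hRcz hxR)]
      change (Q ⊓ cj x (Subgroup.normalizer ((R : Subgroup G) : Set G))) ⊔ _ = _
      rw [cj_normalizer, mem_normalizer.1 hxR]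
    rw [hnxc]
    exact mul_mem hxX (Subgroup.le_normalizer hcX)
  have hXle : X ≤ nz R := sup_le inf_le_right hRczle
  have hidx : ∃ k : ℕ, (R ⊔ cz R).relIndex X = p ^ k := by
    have hQp : IsPGroup p (Q ⊓ nz R : Subgroup G) := hPp.to_le (inf_le_left.trans hQP)
    have h4 : (R ⊔ cz R).relIndex X = (R ⊔ cz R).relIndex (Q ⊓ nz R) := by
      -- second isomorphism theorem
      have hle1 : R ⊔ cz R ≤ X := le_sup_right
      have hle2 : Q ⊓ nz R ≤ X := le_sup_left
      have hn5 : ((R ⊔ cz R).subgroupOf X).Normal :=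
        (Subgroup.normal_subgroupOf_iff_le_normalizer hle1).2 (hXle.trans hRcz)
      have h5 := Subgroup.relIndex_sup_right ((Q ⊓ nz R).subgroupOf X) ((R ⊔ cz R).subgroupOf X)
      rw [← Subgroup.subgroupOf_sup hle2 hle1, Subgroup.relIndex_subgroupOf (le_of_eq hX.symm),
        Subgroup.relIndex_subgroupOf hle2] at h5
      exact h5
    rw [h4]
    exact hQp.index ((R ⊔ cz R).subgroupOf (Q ⊓ nz R))
  have hXeq := hrad X hXle hnX le_sup_right hidx
  have hqX : q ∈ R ⊔ cz R := by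
    rw [← hXeq]
    exact Subgroup.mem_sup_left (Subgroup.mem_inf.2 ⟨hq, hqn⟩)
  -- `R` is Sylow in `R C(R)`
  have hRn : R ≤ nz (cz R) := Subgroup.le_normalizer.trans hczn
  obtain ⟨r, hr, c, hc, hrc⟩ := (mem_sup_of_le_nz hRn).1 hqX
  have hcP : c ∈ P := by
    have : c = r⁻¹ * q := by rw [← hrc]; group
    rw [this]; exact mul_mem (inv_mem (hRP hr)) (hQP hq)
  have h6 : R ⊓ cz R = P ⊓ cz R :=
    hcen.eq_of_le (inf_le_inf_right _ hRP) (hPp.to_le inf_le_left) inf_le_right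
  have hcR : c ∈ R := by
    have : c ∈ P ⊓ cz R := Subgroup.mem_inf.2 ⟨hcP, hc⟩
    rw [← h6] at this
    exact (Subgroup.mem_inf.1 this).1
  exact hqR (hrc ▸ mul_mem hr hcR)

end main

end Cfsg.Agent.Lib.SLFree3
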