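import Cfsg.Agent.Lib.AvgTrace
import Cfsg.Agent.Lib.MinIdxAct

/-!
# Projections on the fixed spaces of the unipotent radicals of points of `SL_n(F)` (helper83)
-/

set_option autoImplicit false
set_option linter.all false

namespace Cfsg.Agent.Lib.SLPoint

open Matrix MinIdxTv MinIdxFour MinIdxAct AvgTrace

variable {F : Type*} [Field F] [Fintype F] {n : ℕ} {V : Type*} [AddCommGroup V] [Module ℂ V]

noncomputable instance instFintypeWc (c : Fin n → F) : Fintype (Wc c) := Fintype.ofFinite _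

/-- the projection on the fixed space of the transvections with centre `c` -/
noncomputable def E (ρ : Representation ℂ (SpecialLinearGroup (Fin n) F) V) (c : Fin n → F) : V →ₗ[ℂ] V :=
  av ρ (fun f : Wc c => tv c f.1)

variable (ρ : Representation ℂ (SpecialLinearGroup (Fin n) F) V)

theorem tv_add {c : Fin n → F} (f g : Wc c) : (tv c ((f + g : Wc c) : Fin n → F) : SpecialLinearGroup (Fin n) F) =
    tv c f.1 * tv c g.1 := (tv_mul_right c f.1 g.1 f.2 g.2).symm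

theorem E_conj (g : SpecialLinearGroup (Fin n) F) (c : Fin n → F) :
    ρ g * E ρ c * ρ g⁻¹ = E ρ ((g : Matrix (Fin n) (Fin n) F) *ᵥ c) := by
  unfold E
  rw [av_conj]
  let σ : Wc c ≃ Wc ((g : Matrix (Fin n) (Fin n) F) *ᵥ c) := (vmEquiv g⁻¹).subtypeEquiv (fun f => by
    change f ∈ Wc c ↔ f ᵥ* ((g⁻¹ : Matrix.SpecialLinearGroup (Fin n) F) : Matrix (Fin n) (Fin n) F) ∈ Wc _
    rw [mem_Wc, mem_Wc, conj_dot])
  rw [← av_equiv ρ σ (fun f : Wc ((g : Matrix (Fin n) (Fin n) F) *ᵥ c) => tv ((g : Matrix (Fin n) (Fin n) F) *ᵥ c) f.1)]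
  congr 1
  funext f
  exact tv_conj g c f.1 f.2

theorem E_smul {a : F} (ha : a ≠ 0) (c : Fin n → F) : E ρ (a • c) = E ρ c := by
  unfold E
  have hm : ∀ f : Fin n → F, f ∈ Wc (a • c) ↔ a • f ∈ Wc c := by
    intro f
    rw [mem_Wc, mem_Wc, dotProduct_smul, smul_dotProduct]
  let e : (Fin n → F) ≃ (Fin n → F) :=
    { toFun := fun f => a • f
      invFun := fun f => a⁻¹ • f
      left_inv := fun f => by simp only [smul_smul, inv_mul_cancel₀ ha, one_smul]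
      right_inv := fun f => by simp only [smul_smul, mul_inv_cancel₀ ha, one_smul] }
  let σ : Wc (a • c) ≃ Wc c := e.subtypeEquiv (fun f => hm f)
  rw [← av_equiv ρ σ (fun f : Wc c => tv c f.1)]
  congr 1
  funext f
  refine tv_smul c f.1 a ?_
  have h1 := f.2
  rw [mem_Wc, dotProduct_smul, smul_eq_mul, mul_eq_zero] at h1
  rcases h1 with h | h
  · exact absurd h ha
  · exact h

theorem E_idem (c : Fin n → F) : E ρ c * E ρ c = E ρ c := av_idem ρ (fun f g => tv_add f g)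

/-- the action on non-zero vectors -/
@[reducible] def nzAction : MulAction (SpecialLinearGroup (Fin n) F) {v : Fin n → F // v ≠ 0} where
  smul g v := ⟨(g : Matrix (Fin n) (Fin n) F) *ᵥ v.1, by
    intro h
    apply v.2
    rw [← mv_inv g v.1, h, mulVec_zero]⟩
  one_smul v := Subtype.ext (by
    show ((1 : SpecialLinearGroup (Fin n) F) : Matrix (Fin n) (Fin n) F) *ᵥ v.1 = v.1
    rw [Matrix.SpecialLinearGroup.coe_one, one_mulVec])
  mul_smul g h v := Subtype.ext (by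
    show ((g * h : SpecialLinearGroup (Fin n) F) : Matrix (Fin n) (Fin n) F) *ᵥ v.1 = _
    rw [Matrix.SpecialLinearGroup.coe_mul, ← mulVec_mulVec]
    rfl)

/-- the sum over all points -/
theorem points_identity [FiniteDimensional ℂ V] (hρ : ρ.IsIrreducible) (hV : Module.finrank ℂ V ≠ 0) (hn : 2 ≤ n)
    {c : Fin n → F} (hc : c ≠ 0) (τ : ℂ)
    (hτ : ∀ v : Fin n → F, v ∉ Submodule.span F {c} → LinearMap.trace ℂ V (E ρ v * E ρ c) = τ) :
    ((Fintype.card F : ℂ) - 1) * LinearMap.trace ℂ V (E ρ c) + ((Fintype.card F : ℂ) ^ n - Fintype.card F) * τ =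
      ((Fintype.card F : ℂ) ^ n - 1) * LinearMap.trace ℂ V (E ρ c) ^ 2 / Module.finrank ℂ V := by
  classical
  letI := nzAction (F := F) (n := n)
  have htr : MulAction.IsPretransitive (SpecialLinearGroup (Fin n) F) {v : Fin n → F // v ≠ 0} := by
    constructor
    intro v w
    obtain ⟨g, hg⟩ := exists_move hn v.2 w.2
    exact ⟨g, Subtype.ext hg⟩
  set q := Fintype.card F with hq
  set t := LinearMap.trace ℂ V (E ρ c) with ht
  have h1 := sum_orbit htr (⟨c, hc⟩ : {v : Fin n → F // v ≠ 0}) (fun v => LinearMap.trace ℂ V (E ρ v.1 * E ρ c))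
  have h2 := schur_trace hρ hV (E ρ c) (E ρ c)
  have h3 : ∀ g : SpecialLinearGroup (Fin n) F, LinearMap.trace ℂ V (E ρ (g • (⟨c, hc⟩ : {v : Fin n → F // v ≠ 0})).1 * E ρ c) =
      LinearMap.trace ℂ V (ρ g * E ρ c * ρ g⁻¹ * E ρ c) := by
    intro g
    rw [E_conj]
    rfl
  rw [Finset.sum_congr rfl (fun g _ => h3 g), h2] at h1
  have hG : (Fintype.card (SpecialLinearGroup (Fin n) F) : ℂ) ≠ 0 := Nat.cast_ne_zero.2 Fintype.card_ne_zero
  have hX : (Fintype.card {v : Fin n → F // v ≠ 0} : ℂ) = (q : ℂ) ^ n - 1 := by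
    have h4 : Fintype.card {v : Fin n → F // v ≠ 0} + 1 = q ^ n := by
      rw [Fintype.card_subtype_compl, Fintype.card_fun, Fintype.card_fin, Fintype.card_subtype_eq]
      have : 0 < Fintype.card F ^ n := pow_pos Fintype.card_pos n
      rw [← hq] at this ⊢
      omega
    have h5 : (Fintype.card {v : Fin n → F // v ≠ 0} : ℂ) + 1 = (q : ℂ) ^ n := by exact_mod_cast h4
    rw [← h5]; ring
  -- the sum over vectors
  have h6 : ∑ v : {v : Fin n → F // v ≠ 0}, LinearMap.trace ℂ V (E ρ v.1 * E ρ c) =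
      ((q : ℂ) - 1) * t + ((q : ℂ) ^ n - q) * τ := by
    have h7 : ∀ v : {v : Fin n → F // v ≠ 0}, LinearMap.trace ℂ V (E ρ v.1 * E ρ c) =
        τ + if v.1 ∈ Submodule.span F {c} then t - τ else 0 := by
      intro v
      by_cases hv : v.1 ∈ Submodule.span F {c}
      · rw [if_pos hv]
        obtain ⟨a, ha⟩ := Submodule.mem_span_singleton.1 hv
        have ha0 : a ≠ 0 := by
          rintro rfl
          apply v.2
          rw [← ha, zero_smul]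
        rw [← ha, E_smul ρ ha0, E_idem]
        ring
      · rw [if_neg hv, hτ v.1 hv, add_zero]
    rw [Finset.sum_congr rfl (fun v _ => h7 v), Finset.sum_add_distrib, Finset.sum_const, Finset.card_univ, nsmul_eq_mul,
      hX, ← Finset.sum_filter, Finset.sum_const, nsmul_eq_mul]
    have h8 : ((Finset.univ.filter (fun v : {v : Fin n → F // v ≠ 0} => v.1 ∈ Submodule.span F {c})).card : ℂ) = (q : ℂ) - 1 := by
      have h9 : (Finset.univ.filter (fun v : {v : Fin n → F // v ≠ 0} => v.1 ∈ Submodule.span F {c})).card + 1 = q := by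
        rw [← Fintype.card_subtype]
        have h10 : Fintype.card (Submodule.span F {c}) = q := by
          rw [← Nat.card_eq_fintype_card, card_span_singleton hc]
        rw [← h10]
        have e : {v : {v : Fin n → F // v ≠ 0} // v.1 ∈ Submodule.span F {c}} ≃ {w : Submodule.span F {c} // w ≠ 0} :=
          { toFun := fun v => ⟨⟨v.1.1, v.2⟩, fun h => v.1.2 (congrArg Subtype.val h)⟩
            invFun := fun w => ⟨⟨w.1.1, fun h => w.2 (Subtype.ext h)⟩, w.1.2⟩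
            left_inv := fun v => rfl
            right_inv := fun w => rfl }
        rw [Fintype.card_congr e, Fintype.card_subtype_compl, Fintype.card_subtype_eq]
        have : 0 < Fintype.card (Submodule.span F {c}) := Fintype.card_pos
        omega
      have h11 : ((Finset.univ.filter (fun v : {v : Fin n → F // v ≠ 0} => v.1 ∈ Submodule.span F {c})).card : ℂ) + 1 = q := by
        exact_mod_cast h9
      rw [← h11]; ring
    rw [h8]
    ring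
  rw [h6, hX] at h1
  have h12 := mul_left_cancel₀ hG (a := (Fintype.card (SpecialLinearGroup (Fin n) F) : ℂ))
    (b := ((q : ℂ) - 1) * t + ((q : ℂ) ^ n - q) * τ) (c := ((q : ℂ) ^ n - 1) * t ^ 2 / Module.finrank ℂ V) (by
      rw [← h1]; ring)
  exact h12

/-- dual pairs of two vectors and two covectors -/
structure Dual (c₀ c₁ f₀ f₁ : Fin n → F) : Prop where
  h00 : f₀ ⬝ᵥ c₀ = 1
  h01 : f₀ ⬝ᵥ c₁ = 0
  h10 : f₁ ⬝ᵥ c₀ = 0
  h11 : f₁ ⬝ᵥ c₁ = 1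

variable {c₀ c₁ f₀ f₁ : Fin n → F}

theorem Dual.symm (h : Dual c₀ c₁ f₀ f₁) : Dual c₁ c₀ f₁ f₀ := ⟨h.h11, h.h10, h.h01, h.h00⟩

theorem Dual.c₀_ne (h : Dual c₀ c₁ f₀ f₁) : c₀ ≠ 0 := by
  rintro rfl
  have := h.h00
  rw [dotProduct_zero] at this
  exact zero_ne_one this

theorem Dual.c₁_not_mem (h : Dual c₀ c₁ f₀ f₁) : c₁ ∉ Submodule.span F {c₀} := by
  intro h1
  obtain ⟨a, ha⟩ := Submodule.mem_span_singleton.1 h1
  have := h.h11
  rw [← ha, dotProduct_smul, h.h10, smul_zero] at this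
  exact zero_ne_one this

noncomputable instance instFintypeW2 (c c' : Fin n → F) : Fintype (Wc c ⊓ Wc c' : Submodule F (Fin n → F)) := Fintype.ofFinite _

/-- the decomposition of the functionals killing `c₀` -/
noncomputable def Dual.decomp (h : Dual c₀ c₁ f₀ f₁) : F × (Wc c₀ ⊓ Wc c₁ : Submodule F (Fin n → F)) ≃ Wc c₀ where
  toFun p := ⟨p.1 • f₁ + p.2.1, by
    rw [mem_Wc, add_dotProduct, smul_dotProduct, h.h10, smul_zero, (mem_Wc c₀ p.2.1).1 p.2.2.1, add_zero]⟩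
  invFun f := (f.1 ⬝ᵥ c₁, ⟨f.1 - (f.1 ⬝ᵥ c₁) • f₁, by
    constructor
    · show _ ∈ Wc c₀
      rw [mem_Wc, sub_dotProduct, smul_dotProduct, h.h10, smul_zero, (mem_Wc c₀ f.1).1 f.2, sub_zero]
    · show _ ∈ Wc c₁
      rw [mem_Wc, sub_dotProduct, smul_dotProduct, h.h11, smul_eq_mul, mul_one, sub_self]⟩)
  left_inv := by
    rintro ⟨x, ⟨y, hy0, hy1⟩⟩
    have h1 : (x • f₁ + y) ⬝ᵥ c₁ = x := by
      rw [add_dotProduct, smul_dotProduct, h.h11, smul_eq_mul, mul_one, (mem_Wc c₁ y).1 hy1, add_zero]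
    apply Prod.ext
    · exact h1
    · apply Subtype.ext
      show (x • f₁ + y) - ((x • f₁ + y) ⬝ᵥ c₁) • f₁ = y
      rw [h1, add_sub_cancel_left]
  right_inv := by
    rintro ⟨f, hf⟩
    apply Subtype.ext
    show (f ⬝ᵥ c₁) • f₁ + (f - (f ⬝ᵥ c₁) • f₁) = f
    rw [add_sub_cancel]

/-- the root subgroup part -/
noncomputable def X (ρ : Representation ℂ (SpecialLinearGroup (Fin n) F) V) (c f : Fin n → F) : V →ₗ[ℂ] V :=
  av ρ (fun x : F => tv c (x • f))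

/-- the part killing both vectors -/
noncomputable def A (ρ : Representation ℂ (SpecialLinearGroup (Fin n) F) V) (c₀ c₁ c : Fin n → F) : V →ₗ[ℂ] V :=
  av ρ (fun y : (Wc c₀ ⊓ Wc c₁ : Submodule F (Fin n → F)) => tv c y.1)

theorem Dual.E_eq (h : Dual c₀ c₁ f₀ f₁) : E ρ c₀ = X ρ c₀ f₁ * A ρ c₀ c₁ c₀ := by
  unfold E X A
  rw [← av_prod, ← av_equiv ρ h.decomp]
  congr 1
  funext p
  exact (tv_mul_right c₀ (p.1 • f₁) p.2.1 (by rw [smul_dotProduct, h.h10, smul_zero]) p.2.2.1).symm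

theorem Dual.E_eq' (h : Dual c₀ c₁ f₀ f₁) : E ρ c₀ = A ρ c₀ c₁ c₀ * X ρ c₀ f₁ := by
  rw [h.E_eq]
  unfold X A
  rw [← av_prod, ← av_prod, ← av_equiv ρ (Equiv.prodComm _ _)]
  congr 1
  funext p
  have h1 : (p.2 • f₁) ⬝ᵥ c₀ = 0 := by rw [smul_dotProduct, h.h10, smul_zero]
  have h2 : p.1.1 ⬝ᵥ c₀ = 0 := p.1.2.1
  show tv c₀ (p.2 • f₁) * tv c₀ p.1.1 = tv c₀ p.1.1 * tv c₀ (p.2 • f₁)
  rw [tv_mul_right c₀ _ _ h1 h2, tv_mul_right c₀ _ _ h2 h1, add_comm]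

theorem A_symm (c₀ c₁ c : Fin n → F) : A ρ c₀ c₁ c = A ρ c₁ c₀ c := by
  let e : (Wc c₀ ⊓ Wc c₁ : Submodule F (Fin n → F)) ≃ (Wc c₁ ⊓ Wc c₀ : Submodule F (Fin n → F)) :=
    { toFun := fun x => ⟨x.1, x.2.2, x.2.1⟩
      invFun := fun x => ⟨x.1, x.2.2, x.2.1⟩
      left_inv := fun x => rfl
      right_inv := fun x => rfl }
  exact av_equiv ρ e (fun y : (Wc c₁ ⊓ Wc c₀ : Submodule F (Fin n → F)) => tv c y.1)

theorem card_decomp (h : Dual c₀ c₁ f₀ f₁) :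
    Fintype.card (Wc c₀) = Fintype.card F * Fintype.card (Wc c₀ ⊓ Wc c₁ : Submodule F (Fin n → F)) := by
  rw [← Fintype.card_congr h.decomp, Fintype.card_prod]

/-- the unipotent radical of the line stabiliser -/
noncomputable def U (c₀ c₁ : Fin n → F) (p : (Wc c₀ ⊓ Wc c₁ : Submodule F (Fin n → F)) × (Wc c₀ ⊓ Wc c₁ : Submodule F (Fin n → F))) :
    SpecialLinearGroup (Fin n) F := tv c₀ p.1.1 * tv c₁ p.2.1

theorem U_coe (p : (Wc c₀ ⊓ Wc c₁ : Submodule F (Fin n → F)) × (Wc c₀ ⊓ Wc c₁ : Submodule F (Fin n → F))) :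
    (U c₀ c₁ p : Matrix (Fin n) (Fin n) F) = 1 + vecMulVec c₀ p.1.1 + vecMulVec c₁ p.2.1 := by
  have h1 : p.1.1 ⬝ᵥ c₀ = 0 := p.1.2.1
  have h2 : p.1.1 ⬝ᵥ c₁ = 0 := p.1.2.2
  have h3 : p.2.1 ⬝ᵥ c₁ = 0 := p.2.2.2
  unfold U
  rw [Matrix.SpecialLinearGroup.coe_mul, tv_coe _ _ h1, tv_coe _ _ h3, add_mul, one_mul, mul_add, mul_one, vv_mul, h2, zero_smul,
    add_zero]
  abel

theorem Dual.U_inj (h : Dual c₀ c₁ f₀ f₁) : Function.Injective (U c₀ c₁) := by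
  intro p p' hp
  have h1 : (U c₀ c₁ p : Matrix (Fin n) (Fin n) F) = U c₀ c₁ p' := by rw [hp]
  rw [U_coe, U_coe] at h1
  have key : ∀ (f : Fin n → F) (y z : Fin n → F), f ᵥ* ((1 : Matrix (Fin n) (Fin n) F) + vecMulVec c₀ y + vecMulVec c₁ z) =
      f + (f ⬝ᵥ c₀) • y + (f ⬝ᵥ c₁) • z := by
    intro f y z
    rw [vecMul_add, vecMul_add, vecMul_one]
    congr 1
    · congr 1
      ext i
      simp only [vecMul, dotProduct, vecMulVec_apply, Pi.smul_apply, smul_eq_mul, Finset.sum_mul]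
      exact Finset.sum_congr rfl fun k _ => by ring
    · ext i
      simp only [vecMul, dotProduct, vecMulVec_apply, Pi.smul_apply, smul_eq_mul, Finset.sum_mul]
      exact Finset.sum_congr rfl fun k _ => by ring
  have h2 := congrArg (fun M => f₀ ᵥ* M) h1
  have h3 := congrArg (fun M => f₁ ᵥ* M) h1
  simp only [key] at h2 h3
  rw [h.h00, h.h01, one_smul, one_smul, zero_smul, zero_smul, add_zero, add_zero] at h2
  rw [h.h10, h.h11, one_smul, one_smul, zero_smul, zero_smul, add_zero] at h3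
  apply Prod.ext
  · exact Subtype.ext (add_left_cancel h2)
  · exact Subtype.ext (add_left_cancel h3)

/-- the projection on the fixed space of `U` -/
noncomputable def eU (ρ : Representation ℂ (SpecialLinearGroup (Fin n) F) V) (c₀ c₁ : Fin n → F) : V →ₗ[ℂ] V :=
  av ρ (U c₀ c₁)

theorem eU_eq : eU ρ c₀ c₁ = A ρ c₀ c₁ c₀ * A ρ c₀ c₁ c₁ := by
  unfold eU A U
  rw [← av_prod]

theorem eU_eq' : eU ρ c₀ c₁ = A ρ c₀ c₁ c₁ * A ρ c₀ c₁ c₀ := by
  unfold eU A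
  rw [← av_prod, ← av_equiv ρ (Equiv.prodComm _ _)]
  congr 1
  funext p
  apply sl_ext
  have h1 : p.2.1 ⬝ᵥ c₀ = 0 := p.2.2.1
  have h2 : p.2.1 ⬝ᵥ c₁ = 0 := p.2.2.2
  have h3 : p.1.1 ⬝ᵥ c₁ = 0 := p.1.2.2
  have h4 : p.1.1 ⬝ᵥ c₀ = 0 := p.1.2.1
  rw [U_coe]
  show 1 + vecMulVec c₀ p.2.1 + vecMulVec c₁ p.1.1 = ((tv c₁ p.1.1 * tv c₀ p.2.1 : SpecialLinearGroup (Fin n) F) : Matrix (Fin n) (Fin n) F)
  rw [Matrix.SpecialLinearGroup.coe_mul, tv_coe _ _ h1, tv_coe _ _ h3, add_mul, one_mul, mul_add, mul_one, vv_mul, h4, zero_smul,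
    add_zero]

theorem trace_EE (h : Dual c₀ c₁ f₀ f₁) [FiniteDimensional ℂ V] :
    LinearMap.trace ℂ V (E ρ c₀ * E ρ c₁) = LinearMap.trace ℂ V (X ρ c₁ f₀ * X ρ c₀ f₁ * eU ρ c₀ c₁) := by
  rw [h.E_eq, h.symm.E_eq', A_symm ρ c₁ c₀ c₁, eU_eq]
  have : X ρ c₀ f₁ * A ρ c₀ c₁ c₀ * (A ρ c₀ c₁ c₁ * X ρ c₁ f₀) = (X ρ c₀ f₁ * (A ρ c₀ c₁ c₀ * A ρ c₀ c₁ c₁)) * X ρ c₁ f₀ := by
    simp only [mul_assoc]
  rw [this, LinearMap.trace_mul_comm, ← mul_assoc]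

theorem trace_AE (h : Dual c₀ c₁ f₀ f₁) [FiniteDimensional ℂ V] :
    LinearMap.trace ℂ V (A ρ c₀ c₁ c₁ * E ρ c₀) = LinearMap.trace ℂ V (X ρ c₀ f₁ * eU ρ c₀ c₁) := by
  rw [h.E_eq', ← mul_assoc, ← eU_eq', LinearMap.trace_mul_comm]

/-! ### the embedded `SL₂` -/

/-- the inclusion of the plane -/
def Pm (c₀ c₁ : Fin n → F) : Matrix (Fin n) (Fin 2) F := Matrix.of fun i a => ![c₀ i, c₁ i] a

/-- the projection onto the plane -/
def Qm (f₀ f₁ : Fin n → F) : Matrix (Fin 2) (Fin n) F := Matrix.of ![f₀, f₁]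

theorem Dual.QP (h : Dual c₀ c₁ f₀ f₁) : Qm f₀ f₁ * Pm c₀ c₁ = 1 := by
  ext a b
  have h00 := h.h00
  have h01 := h.h01
  have h10 := h.h10
  have h11 := h.h11
  simp only [dotProduct] at h00 h01 h10 h11
  fin_cases a <;> fin_cases b <;> simp [Qm, Pm, Matrix.mul_apply, h00, h01, h10, h11]

theorem Dual.det_emb (h : Dual c₀ c₁ f₀ f₁) (g : SpecialLinearGroup (Fin 2) F) :
    (1 + Pm c₀ c₁ * ((g : Matrix (Fin 2) (Fin 2) F) - 1) * Qm f₀ f₁).det = 1 := by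
  rw [Matrix.mul_assoc, Matrix.det_one_add_mul_comm, Matrix.mul_assoc, h.QP, Matrix.mul_one, add_sub_cancel]
  exact g.2

/-- the underlying function of the embedding -/
def Dual.embFun (h : Dual c₀ c₁ f₀ f₁) (g : SpecialLinearGroup (Fin 2) F) : SpecialLinearGroup (Fin n) F :=
  mkSL (1 + Pm c₀ c₁ * ((g : Matrix (Fin 2) (Fin 2) F) - 1) * Qm f₀ f₁) (h.det_emb g)

theorem Dual.embFun_coe (h : Dual c₀ c₁ f₀ f₁) (g : SpecialLinearGroup (Fin 2) F) :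
    (h.embFun g : Matrix (Fin n) (Fin n) F) = 1 + Pm c₀ c₁ * ((g : Matrix (Fin 2) (Fin 2) F) - 1) * Qm f₀ f₁ := rfl

/-- the embedded `SL₂` -/
def Dual.emb (h : Dual c₀ c₁ f₀ f₁) : SpecialLinearGroup (Fin 2) F →* SpecialLinearGroup (Fin n) F where
  toFun g := h.embFun g
  map_one' := by
    apply sl_ext
    rw [h.embFun_coe, Matrix.SpecialLinearGroup.coe_one, sub_self, Matrix.mul_zero, Matrix.zero_mul, add_zero,
      Matrix.SpecialLinearGroup.coe_one]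
  map_mul' g k := by
    apply sl_ext
    rw [Matrix.SpecialLinearGroup.coe_mul, h.embFun_coe, h.embFun_coe, h.embFun_coe, Matrix.SpecialLinearGroup.coe_mul]
    have h1 : (Pm c₀ c₁ * ((g : Matrix (Fin 2) (Fin 2) F) - 1) * Qm f₀ f₁) *
        (Pm c₀ c₁ * ((k : Matrix (Fin 2) (Fin 2) F) - 1) * Qm f₀ f₁) =
        Pm c₀ c₁ * (((g : Matrix (Fin 2) (Fin 2) F) - 1) * ((k : Matrix (Fin 2) (Fin 2) F) - 1)) * Qm f₀ f₁ := by
      calc _ = Pm c₀ c₁ * ((g : Matrix (Fin 2) (Fin 2) F) - 1) * (Qm f₀ f₁ * Pm c₀ c₁) * ((k : Matrix (Fin 2) (Fin 2) F) - 1) * Qm f₀ f₁ := by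
            simp only [Matrix.mul_assoc]
        _ = _ := by rw [h.QP, Matrix.mul_one, Matrix.mul_assoc (Pm c₀ c₁)]
    rw [add_mul, one_mul, mul_add, mul_one, h1]
    have h2 : ((g : Matrix (Fin 2) (Fin 2) F) * (k : Matrix (Fin 2) (Fin 2) F) - 1) =
        ((g : Matrix (Fin 2) (Fin 2) F) - 1) + ((k : Matrix (Fin 2) (Fin 2) F) - 1) +
          ((g : Matrix (Fin 2) (Fin 2) F) - 1) * ((k : Matrix (Fin 2) (Fin 2) F) - 1) := by
      rw [sub_mul, mul_sub, one_mul, mul_one]; abel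
    rw [h2, Matrix.mul_add, Matrix.mul_add, Matrix.add_mul, Matrix.add_mul]
    abel

theorem Dual.emb_coe (h : Dual c₀ c₁ f₀ f₁) (g : SpecialLinearGroup (Fin 2) F) :
    (h.emb g : Matrix (Fin n) (Fin n) F) = 1 + Pm c₀ c₁ * ((g : Matrix (Fin 2) (Fin 2) F) - 1) * Qm f₀ f₁ := rfl

theorem Dual.emb_tv (h : Dual c₀ c₁ f₀ f₁) (c f : Fin 2 → F) (hf : f ⬝ᵥ c = 0) :
    h.emb (tv c f) = tv (Pm c₀ c₁ *ᵥ c) (f ᵥ* Qm f₀ f₁) := by
  have h1 : (f ᵥ* Qm f₀ f₁) ⬝ᵥ (Pm c₀ c₁ *ᵥ c) = 0 := by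
    rw [← dotProduct_mulVec, mulVec_mulVec, h.QP, one_mulVec, hf]
  apply sl_ext
  rw [h.emb_coe, tv_coe _ _ hf, tv_coe _ _ h1, add_sub_cancel_left, mul_vecMulVec, vecMulVec_mul]

theorem Dual.emb_01 (h : Dual c₀ c₁ f₀ f₁) (x : F) : h.emb (tv (Pi.single 0 1) (x • Pi.single 1 1)) = tv c₀ (x • f₁) := by
  rw [h.emb_tv _ _ (by simp)]
  congr 1
  · ext i; simp [Pm, mulVec, dotProduct]
  · ext i; simp [Qm, vecMul, dotProduct]

theorem Dual.emb_10 (h : Dual c₀ c₁ f₀ f₁) (x : F) : h.emb (tv (Pi.single 1 1) (x • Pi.single 0 1)) = tv c₁ (x • f₀) := by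
  rw [h.emb_tv _ _ (by simp)]
  congr 1
  · ext i; simp [Pm, mulVec, dotProduct]
  · ext i; simp [Qm, vecMul, dotProduct]

/-- the matrix of a pair of functionals -/
def Mm (y z : Fin n → F) : Matrix (Fin 2) (Fin n) F := Matrix.of ![y, z]

theorem PM_eq (c₀ c₁ y z : Fin n → F) : Pm c₀ c₁ * Mm y z = vecMulVec c₀ y + vecMulVec c₁ z := by
  ext i j
  simp [Pm, Mm, Matrix.mul_apply, vecMulVec_apply]

theorem MP_eq (c₀ c₁ y z : Fin n → F) (h1 : y ⬝ᵥ c₀ = 0) (h2 : y ⬝ᵥ c₁ = 0) (h3 : z ⬝ᵥ c₀ = 0) (h4 : z ⬝ᵥ c₁ = 0) :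
    Mm y z * Pm c₀ c₁ = 0 := by
  simp only [dotProduct] at h1 h2 h3 h4
  ext a b
  fin_cases a <;> fin_cases b <;> simp [Mm, Pm, Matrix.mul_apply, h1, h2, h3, h4]

theorem gM_eq (g : Matrix (Fin 2) (Fin 2) F) (y z : Fin n → F) :
    g * Mm y z = Mm (g 0 0 • y + g 0 1 • z) (g 1 0 • y + g 1 1 • z) := by
  ext a i
  fin_cases a <;> simp [Mm, Matrix.mul_apply]

theorem Dual.conj_U (h : Dual c₀ c₁ f₀ f₁) (g : SpecialLinearGroup (Fin 2) F)
    (p : (Wc c₀ ⊓ Wc c₁ : Submodule F (Fin n → F)) × (Wc c₀ ⊓ Wc c₁ : Submodule F (Fin n → F))) :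
    ∃ p', h.emb g * U c₀ c₁ p * (h.emb g)⁻¹ = U c₀ c₁ p' := by
  refine ⟨((g : Matrix (Fin 2) (Fin 2) F) 0 0 • p.1 + (g : Matrix (Fin 2) (Fin 2) F) 0 1 • p.2,
    (g : Matrix (Fin 2) (Fin 2) F) 1 0 • p.1 + (g : Matrix (Fin 2) (Fin 2) F) 1 1 • p.2), ?_⟩
  rw [mul_inv_eq_iff_eq_mul]
  apply sl_ext
  rw [Matrix.SpecialLinearGroup.coe_mul, Matrix.SpecialLinearGroup.coe_mul, U_coe, U_coe, add_assoc, add_assoc, ← PM_eq, ← PM_eq,
    h.emb_coe]
  have h0 : Mm ((((g : Matrix (Fin 2) (Fin 2) F) 0 0 • p.1 + (g : Matrix (Fin 2) (Fin 2) F) 0 1 • p.2) :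
      (Wc c₀ ⊓ Wc c₁ : Submodule F (Fin n → F))) : Fin n → F)
      ((((g : Matrix (Fin 2) (Fin 2) F) 1 0 • p.1 + (g : Matrix (Fin 2) (Fin 2) F) 1 1 • p.2) :
      (Wc c₀ ⊓ Wc c₁ : Submodule F (Fin n → F))) : Fin n → F) = (g : Matrix (Fin 2) (Fin 2) F) * Mm p.1.1 p.2.1 := by
    rw [gM_eq]; rfl
  rw [h0]
  have hMP := MP_eq c₀ c₁ p.1.1 p.2.1 p.1.2.1 p.1.2.2 p.2.2.1 p.2.2.2
  have e1 : Pm c₀ c₁ * ((g : Matrix (Fin 2) (Fin 2) F) - 1) * Qm f₀ f₁ * (Pm c₀ c₁ * Mm p.1.1 p.2.1) =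
      Pm c₀ c₁ * ((g : Matrix (Fin 2) (Fin 2) F) * Mm p.1.1 p.2.1) - Pm c₀ c₁ * Mm p.1.1 p.2.1 := by
    calc _ = Pm c₀ c₁ * ((g : Matrix (Fin 2) (Fin 2) F) - 1) * (Qm f₀ f₁ * Pm c₀ c₁) * Mm p.1.1 p.2.1 := by
          simp only [Matrix.mul_assoc]
      _ = _ := by rw [h.QP, Matrix.mul_one, Matrix.mul_assoc, Matrix.sub_mul, Matrix.one_mul, Matrix.mul_sub]
  have e2 : Pm c₀ c₁ * ((g : Matrix (Fin 2) (Fin 2) F) * Mm p.1.1 p.2.1) *
      (Pm c₀ c₁ * ((g : Matrix (Fin 2) (Fin 2) F) - 1) * Qm f₀ f₁) = 0 := by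
    calc _ = Pm c₀ c₁ * (g : Matrix (Fin 2) (Fin 2) F) * (Mm p.1.1 p.2.1 * Pm c₀ c₁) *
          ((g : Matrix (Fin 2) (Fin 2) F) - 1) * Qm f₀ f₁ := by
          simp only [Matrix.mul_assoc]
      _ = _ := by rw [hMP]; simp
  rw [add_mul, one_mul, mul_add, mul_one, e1, add_mul, one_mul, mul_add, mul_one, e2]
  abel

theorem Dual.emb_comm (h : Dual c₀ c₁ f₀ f₁) (g : SpecialLinearGroup (Fin 2) F) :
    ρ (h.emb g) * eU ρ c₀ c₁ = eU ρ c₀ c₁ * ρ (h.emb g) := by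
  have h1 := av_norm ρ h.U_inj (h.conj_U g)
  unfold eU
  conv_rhs => rw [← h1]
  rw [mul_assoc, rho_inv_mul, mul_one]

end Cfsg.Agent.Lib.SLPoint
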