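import Cfsg.Agent.Lib.SLGap

/-!
# Weights of multiplicity one for the point unipotent radical of `SL_n(q)` (helper83)
-/

set_option autoImplicit false
set_option linter.all false

namespace Cfsg.Agent.Lib.SLWeight

open Matrix MinIdxTv MinIdxFour MinIdxAct AvgTrace SLPoint SL2Gap

/-- elements fixing a weight commute with its idempotent -/
theorem rho_comm_ew' {G V A : Type*} [Group G] [AddCommGroup V] [Module ℂ V] [Fintype A] [AddCommGroup A] {u : A → G}
    (ρ : Representation ℂ G V) (hinj : Function.Injective u) {g : G} {ψ : AddChar A ℂ}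
    (h : ∀ a, ∃ b, g * u a * g⁻¹ = u b ∧ ψ b = ψ a) : ρ g * ew ρ u ψ = ew ρ u ψ * ρ g := by
  choose σ hσ1 hσ2 using h
  have h1 : Function.Injective σ := by
    intro a b hab
    have h2 : g * u a * g⁻¹ = g * u b * g⁻¹ := by rw [hσ1, hσ1, hab]
    exact hinj (mul_left_cancel (mul_right_cancel h2))
  have h2 : ρ g * ew ρ u ψ * ρ g⁻¹ = ew ρ u ψ := by
    unfold ew
    rw [mul_smul_comm, smul_mul_assoc, Finset.mul_sum, Finset.sum_mul]
    congr 1
    rw [← Equiv.sum_comp (Equiv.ofBijective σ (Finite.injective_iff_bijective.1 h1)) (fun b => ψ (-b) • ρ (u b))]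
    refine Finset.sum_congr rfl fun b _ => ?_
    rw [mul_smul_comm, smul_mul_assoc, ← map_mul, ← map_mul, hσ1]
    congr 1
    show ψ (-b) = ψ (-(σ b))
    rw [AddChar.map_neg_eq_inv, AddChar.map_neg_eq_inv, hσ2]
  conv_rhs => rw [← h2]
  rw [mul_assoc, rho_inv_mul, mul_one]

variable {F : Type*} [Field F] [Fintype F] {n : ℕ} {V : Type*} [AddCommGroup V] [Module ℂ V] [FiniteDimensional ℂ V]
  {c₀ c₁ f₀ f₁ : Fin n → F} (ρ : Representation ℂ (SpecialLinearGroup (Fin n) F) V)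

/-- the family of transvections with centre `c` -/
noncomputable def uc (c : Fin n → F) (f : Wc c) : SpecialLinearGroup (Fin n) F := tv c f.1

theorem uc_inj {c : Fin n → F} (hc : c ≠ 0) : Function.Injective (uc c) := by
  intro f g h
  exact Subtype.ext (tv_inj hc f.2 g.2 h)

/-- transvections fixing the weight -/
theorem comm_tv (hc : c₀ ≠ 0) {ψ : AddChar (Wc c₀) ℂ} {b w : Fin n → F} (hwb : w ⬝ᵥ b = 0) (hw0 : w ∈ Wc c₀)
    (hψ : ∀ t : F, ψ (t • ⟨w, hw0⟩) = 1) : ρ (tv b w) * ew ρ (uc c₀) ψ = ew ρ (uc c₀) ψ * ρ (tv b w) := by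
  apply rho_comm_ew' ρ (uc_inj hc)
  intro y
  refine ⟨y - (y.1 ⬝ᵥ b) • ⟨w, hw0⟩, ?_, ?_⟩
  · unfold uc
    rw [tv_conj _ _ _ y.2, tv_mulVec _ _ _ hwb, tv_inv _ _ hwb]
    have h1 : w ⬝ᵥ c₀ = 0 := hw0
    rw [h1, zero_smul, add_zero, tv_coe _ _ (by rw [neg_dotProduct, hwb, neg_zero]), vecMul_add, vecMul_one]
    congr 1
    show y.1 + y.1 ᵥ* vecMulVec b (-w) = y.1 - (y.1 ⬝ᵥ b) • w
    have h2 : y.1 ᵥ* vecMulVec b (-w) = (y.1 ⬝ᵥ b) • (-w) := by
      ext i
      simp only [vecMul, dotProduct, vecMulVec_apply, Pi.smul_apply, smul_eq_mul, Finset.sum_mul]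
      exact Finset.sum_congr rfl fun k _ => by ring
    rw [h2, smul_neg, sub_eq_add_neg]
  · rw [AddChar.map_sub_eq_div, hψ, div_one]

theorem vecMul_tv (y b w : Fin n → F) (hwb : w ⬝ᵥ b = 0) :
    y ᵥ* ((tv b w : SpecialLinearGroup (Fin n) F) : Matrix (Fin n) (Fin n) F) = y + (y ⬝ᵥ b) • w := by
  rw [tv_coe _ _ hwb, vecMul_add, vecMul_one]
  congr 1
  ext i
  simp only [vecMul, dotProduct, vecMulVec_apply, Pi.smul_apply, smul_eq_mul, Finset.sum_mul]
  exact Finset.sum_congr rfl fun k _ => by ring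

/-- first case: commutator of two transvections fixing the weight -/
theorem case_tv (h : Dual c₀ c₁ f₀ f₁) {ψ : AddChar (Wc c₀) ℂ} (hone : LinearMap.trace ℂ V (ew ρ (uc c₀) ψ) = 1)
    {z w : Fin n → F} (hz0 : z ∈ Wc c₀) (hz1 : z ∈ Wc c₁) (hw0 : w ∈ Wc c₀) (hw1 : w ∈ Wc c₁)
    (hψz : ∀ t : F, ψ (t • ⟨z, hz0⟩) = 1) (hψw : ∀ t : F, ψ (t • ⟨w, hw0⟩) = 1) (hwz : w ∉ Submodule.span F {z}) :
    LinearMap.trace ℂ V (ρ (tv c₁ z) * ew ρ (uc c₀) ψ) = 1 := by
  obtain ⟨b, hb, hbw⟩ := exists_dot hwz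
  have hzb : z ⬝ᵥ b = 0 := by rw [dotProduct_comm]; exact hb z (Submodule.mem_span_singleton_self z)
  have hwb : w ⬝ᵥ b = 1 := by rw [dotProduct_comm]; exact hbw
  have hz1' : z ⬝ᵥ c₁ = 0 := hz1
  have hw1' : w ⬝ᵥ c₁ = 0 := hw1
  have e : tv c₁ z = tv c₁ w * tv b z * (tv c₁ w)⁻¹ * (tv b z)⁻¹ := by
    rw [tv_conj _ _ _ hzb, tv_mulVec _ _ _ hw1', hwb, one_smul, tv_inv _ _ hw1', vecMul_tv _ _ _ (by rw [neg_dotProduct, hw1', neg_zero]),
      hz1', zero_smul, add_zero, eq_mul_inv_iff_mul_eq, tv_mul_left _ _ _ hz1' hzb, add_comm]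
  rw [e]
  exact comm_fix ρ (ew_mul_self ρ (fun f g => tv_add f g) ψ) hone (comm_tv ρ h.c₀_ne hw1' hw0 hψw)
    (comm_tv ρ h.c₀_ne hzb hz0 hψz)

/-- second case: a torus element -/
theorem case_tor (h : Dual c₀ c₁ f₀ f₁) {ψ : AddChar (Wc c₀) ℂ} (hone : LinearMap.trace ℂ V (ew ρ (uc c₀) ψ) = 1)
    {z : Fin n → F} (hz0 : z ∈ Wc c₀) (hz1 : z ∈ Wc c₁) (hψz : ∀ t : F, ψ (t • ⟨z, hz0⟩) = 1)
    (g : SpecialLinearGroup (Fin n) F) {a b d : F} (hg0 : (g : Matrix (Fin n) (Fin n) F) *ᵥ c₀ = a • c₀)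
    (hg1 : (g : Matrix (Fin n) (Fin n) F) *ᵥ c₁ = b • c₁)
    (hgz : z ᵥ* ((g⁻¹ : SpecialLinearGroup (Fin n) F) : Matrix (Fin n) (Fin n) F) = d • z) (hbd : b * d ≠ 1)
    (hgψ : ∀ y : Wc c₀, ∃ y' : Wc c₀,
      y'.1 = a • (y.1 ᵥ* ((g⁻¹ : SpecialLinearGroup (Fin n) F) : Matrix (Fin n) (Fin n) F)) ∧ ψ y' = ψ y) :
    LinearMap.trace ℂ V (ρ (tv c₁ z) * ew ρ (uc c₀) ψ) = 1 := by
  have hbd' : b * d - 1 ≠ 0 := sub_ne_zero.2 hbd
  have hz1' : z ⬝ᵥ c₁ = 0 := hz1
  have hz0' : z ⬝ᵥ c₀ = 0 := hz0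
  set s : F := (b * d - 1)⁻¹ with hs
  have hs1 : (s • z) ⬝ᵥ c₁ = 0 := by rw [smul_dotProduct, hz1', smul_zero]
  have e : tv c₁ z = g * tv c₁ (s • z) * g⁻¹ * (tv c₁ (s • z))⁻¹ := by
    rw [tv_conj _ _ _ hs1, hg1, smul_vecMul, hgz, tv_smul _ _ _ (by
      rw [smul_dotProduct, smul_dotProduct, hz1', smul_zero, smul_zero]), tv_inv _ _ hs1,
      tv_mul_right _ _ _ (by simp only [smul_dotProduct, hz1', smul_zero]) (by rw [neg_dotProduct, hs1, neg_zero]),
      smul_smul, smul_smul, ← sub_eq_add_neg, ← sub_smul]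
    have : b * s * d - s = 1 := by
      have : b * s * d - s = s * (b * d - 1) := by ring
      rw [this, hs, inv_mul_cancel₀ hbd']
    rw [this, one_smul]
  rw [e]
  apply comm_fix ρ (ew_mul_self ρ (fun f g => tv_add f g) ψ) hone
  · apply rho_comm_ew' ρ (uc_inj h.c₀_ne)
    intro y
    obtain ⟨y', h1, h2⟩ := hgψ y
    refine ⟨y', ?_, h2⟩
    unfold uc
    rw [tv_conj _ _ _ y.2, hg0, h1, tv_smul]
    have h3 := conj_dot g c₀ y.1
    have h4 : y.1 ⬝ᵥ c₀ = 0 := y.2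
    rw [hg0, h4, dotProduct_smul, smul_eq_mul, mul_eq_zero] at h3
    rcases h3 with h3 | h3
    · exfalso
      apply h.c₀_ne
      rw [← mv_inv g c₀, hg0, h3, zero_smul, mulVec_zero]
    · exact h3
  · apply comm_tv ρ h.c₀_ne hs1 (Submodule.smul_mem _ _ hz0)
    intro t
    have := hψz (t * s)
    rw [mul_smul] at this
    exact this

/-- the action of the torus of an embedded `SL₂` -/
theorem emb_tor (h : Dual c₀ c₁ f₀ f₁) (a : Fˣ) :
    (h.emb (tor a) : Matrix (Fin n) (Fin n) F) = 1 + vecMulVec c₀ (((a : F) - 1) • f₀) + vecMulVec c₁ ((((a⁻¹ : Fˣ) : F) - 1) • f₁) := by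
  rw [h.emb_coe, add_assoc, ← PM_eq, Matrix.mul_assoc]
  congr 2
  ext i j
  fin_cases i <;> simp [tor, Qm, Mm, Matrix.mul_apply, Matrix.sub_apply]

theorem emb_tor_mulVec (h : Dual c₀ c₁ f₀ f₁) (a : Fˣ) (x : Fin n → F) :
    (h.emb (tor a) : Matrix (Fin n) (Fin n) F) *ᵥ x =
      x + (((a : F) - 1) * (f₀ ⬝ᵥ x)) • c₀ + ((((a⁻¹ : Fˣ) : F) - 1) * (f₁ ⬝ᵥ x)) • c₁ := by
  rw [emb_tor, add_mulVec, add_mulVec, one_mulVec, vv_mulVec, vv_mulVec, smul_dotProduct, smul_dotProduct, smul_eq_mul, smul_eq_mul]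

theorem vecMul_emb_tor (h : Dual c₀ c₁ f₀ f₁) (a : Fˣ) (y : Fin n → F) :
    y ᵥ* (h.emb (tor a) : Matrix (Fin n) (Fin n) F) =
      y + (((a : F) - 1) * (y ⬝ᵥ c₀)) • f₀ + ((((a⁻¹ : Fˣ) : F) - 1) * (y ⬝ᵥ c₁)) • f₁ := by
  have key : ∀ c f : Fin n → F, y ᵥ* vecMulVec c f = (y ⬝ᵥ c) • f := by
    intro c f
    ext i
    simp only [vecMul, dotProduct, vecMulVec_apply, Pi.smul_apply, smul_eq_mul, Finset.sum_mul]
    exact Finset.sum_congr rfl fun k _ => by ring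
  rw [emb_tor, vecMul_add, vecMul_add, vecMul_one, key, key, smul_smul, smul_smul, mul_comm (y ⬝ᵥ c₀), mul_comm (y ⬝ᵥ c₁)]

/-- many elements on whose lines the character is trivial -/
theorem card_K {M : Type*} [AddCommGroup M] [Module F M] [Finite M] (W : Submodule F M) (ψ : AddChar M ℂ) :
    Nat.card W ≤ Fintype.card F * Nat.card {w : W // ∀ t : F, ψ (t • w.1) = 1} := by
  let θ : W →+ AddChar F ℂ :=
    { toFun := fun w => ψ.compAddMonoidHom
        { toFun := fun t => t • w.1, map_zero' := zero_smul F w.1, map_add' := fun a b => add_smul a b w.1 }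
      map_zero' := by
        ext t
        show ψ (t • (0 : M)) = 1
        rw [smul_zero, AddChar.map_zero_eq_one]
      map_add' := by
        intro a b
        ext t
        show ψ (t • (a.1 + b.1)) = ψ (t • a.1) * ψ (t • b.1)
        rw [smul_add, AddChar.map_add_eq_mul] }
  have h1 := AddSubgroup.card_mul_index θ.ker
  rw [AddSubgroup.index_ker] at h1
  have h2 : Nat.card θ.range ≤ Fintype.card F := by
    have h3 := Nat.card_le_card_of_injective (fun x : θ.range => x.1) Subtype.val_injective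
    rwa [Nat.card_eq_fintype_card (α := AddChar F ℂ), AddChar.card_eq] at h3
  have h4 : Nat.card θ.ker = Nat.card {w : W // ∀ t : F, ψ (t • w.1) = 1} := by
    apply Nat.card_congr
    apply Equiv.subtypeEquivRight
    intro w
    constructor
    · intro h t
      exact DFunLike.congr_fun (AddMonoidHom.mem_ker.1 h) t
    · intro h
      rw [AddMonoidHom.mem_ker]
      ext t
      exact h t
  rw [← h1, h4, mul_comm]
  exact Nat.mul_le_mul_right _ h2

theorem card_W2 (hn : 2 ≤ n) (h : Dual c₀ c₁ f₀ f₁) :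
    Fintype.card (Wc c₀ ⊓ Wc c₁ : Submodule F (Fin n → F)) = Fintype.card F ^ (n - 2) := by
  have h1 := card_decomp h
  rw [← Nat.card_eq_fintype_card, card_Wc (by omega) h.c₀_ne] at h1
  have h2 : n - 1 = (n - 2) + 1 := by omega
  rw [h2, pow_succ'] at h1
  exact (Nat.eq_of_mul_eq_mul_left Fintype.card_pos h1).symm

theorem weight_one (hn : 3 ≤ n) (h3 : n = 3 → Fintype.card F ≠ 2 ∧ Fintype.card F ≠ 4) (h4 : n = 4 → 4 ≤ Fintype.card F)
    (h : Dual c₀ c₁ f₀ f₁) {ψ : AddChar (Wc c₀) ℂ} (hone : LinearMap.trace ℂ V (ew ρ (uc c₀) ψ) = 1)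
    {z : Fin n → F} (hz : z ≠ 0) (hz0 : z ∈ Wc c₀) (hz1 : z ∈ Wc c₁) (hψz : ∀ t : F, ψ (t • ⟨z, hz0⟩) = 1) :
    LinearMap.trace ℂ V (ρ (tv c₁ z) * ew ρ (uc c₀) ψ) = 1 := by
  classical
  by_cases hI : ∃ w : Fin n → F, ∃ hw0 : w ∈ Wc c₀, w ∈ Wc c₁ ∧ (∀ t : F, ψ (t • ⟨w, hw0⟩) = 1) ∧ w ∉ Submodule.span F {z}
  · obtain ⟨w, hw0, hw1, hψw, hwz⟩ := hI
    exact case_tv ρ h hone hz0 hz1 hw0 hw1 hψz hψw hwz
  have hz0' : z ⬝ᵥ c₀ = 0 := hz0
  have hz1' : z ⬝ᵥ c₁ = 0 := hz1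
  set q := Fintype.card F with hq
  have hq1 : 1 < q := Fintype.one_lt_card
  -- the kernel inside `W2` is contained in the line of `z`
  have hsmall : Nat.card {w : (Submodule.comap (Wc c₀).subtype (Wc c₁)) // ∀ t : F, ψ (t • w.1) = 1} ≤ q := by
    have h5 : Nat.card (Submodule.span F {z}) = q := card_span_singleton hz
    rw [← h5]
    apply Nat.card_le_card_of_injective (fun w : {w : (Submodule.comap (Wc c₀).subtype (Wc c₁)) // ∀ t : F, ψ (t • w.1) = 1} =>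
      (⟨w.1.1.1, by
        by_contra hcon
        exact hI ⟨w.1.1.1, w.1.1.2, w.1.2, w.2, hcon⟩⟩ : Submodule.span F {z}))
    intro a b hab
    have hab' : a.1.1.1 = b.1.1.1 := congrArg (fun x : Submodule.span F {z} => x.1) hab
    exact Subtype.ext (Subtype.ext (Subtype.ext hab'))
  have hW2 : Nat.card (Submodule.comap (Wc c₀).subtype (Wc c₁)) = q ^ (n - 2) := by
    rw [hq, ← card_W2 (by omega) h, ← Nat.card_eq_fintype_card]
    exact Nat.card_congr
      { toFun := fun x => (⟨x.1.1, x.1.2, x.2⟩ : (Wc c₀ ⊓ Wc c₁ : Submodule F (Fin n → F)))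
        invFun := fun x => ⟨⟨x.1, x.2.1⟩, x.2.2⟩
        left_inv := fun x => rfl
        right_inv := fun x => rfl }
  have hle := card_K (Submodule.comap (Wc c₀).subtype (Wc c₁)) ψ
  rw [hW2] at hle
  have hn4 : n ≤ 4 := by
    by_contra hcon
    have h5 : q ^ (n - 2) ≤ q ^ 2 := by
      rw [sq]
      exact hle.trans (Nat.mul_le_mul_left _ hsmall)
    have h6 : n - 2 ≤ 2 := (Nat.pow_le_pow_iff_right hq1).1 h5
    omega
  rcases (by omega : n = 3 ∨ n = 4) with hn3 | hn4'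
  · -- `n = 3`
    obtain ⟨hq2, hq4⟩ := h3 hn3
    -- `W2` is the line of `z`
    have hline : ∀ y : Fin n → F, y ∈ Wc c₀ → y ∈ Wc c₁ → y ∈ Submodule.span F {z} := by
      have h5 : (Submodule.span F {z}).toAddSubgroup = (Wc c₀ ⊓ Wc c₁ : Submodule F (Fin n → F)).toAddSubgroup := by
        apply AddSubgroup.eq_of_le_of_card_ge
        · intro y hy
          obtain ⟨t, rfl⟩ := Submodule.mem_span_singleton.1 hy
          exact ⟨Submodule.smul_mem _ _ hz0, Submodule.smul_mem _ _ hz1⟩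
        · have h6 : Nat.card (Submodule.span F {z}) = q := card_span_singleton hz
          have h7 : Nat.card (Wc c₀ ⊓ Wc c₁ : Submodule F (Fin n → F)) = q ^ (n - 2) := by
            rw [Nat.card_eq_fintype_card, card_W2 (by omega) h]
          have h8 : q ^ (n - 2) = q := by rw [hn3]; norm_num
          rw [h8] at h7
          exact (h7.trans h6.symm).le
      intro y hy0 hy1
      have h6 : y ∈ (Wc c₀ ⊓ Wc c₁ : Submodule F (Fin n → F)).toAddSubgroup := ⟨hy0, hy1⟩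
      rw [← h5] at h6
      exact h6
    obtain ⟨a, ha⟩ : ∃ a : Fˣ, a ^ 3 ≠ 1 := by
      by_contra hcon
      push Not at hcon
      obtain ⟨g, hg⟩ := IsCyclic.exists_ofOrder_eq_natCard (α := Fˣ)
      have h5 := orderOf_dvd_of_pow_eq_one (hcon g)
      rw [hg, Nat.card_eq_fintype_card, Fintype.card_units] at h5
      rcases (Nat.dvd_prime Nat.prime_three).1 h5 with h6 | h6
      · apply hq2; omega
      · apply hq4; omega
    have ha' : (a : F) * ((a : F) ^ 2) ≠ 1 := by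
      intro e
      apply ha
      ext
      rw [Units.val_pow_eq_pow_val, Units.val_one, ← e]
      ring
    -- a third dual vector
    have hzs : z ∉ Submodule.span F {f₀, f₁} := by
      intro h5
      obtain ⟨x, y, hxy⟩ := Submodule.mem_span_pair.1 h5
      have h6 : z ⬝ᵥ c₀ = x := by rw [← hxy, add_dotProduct, smul_dotProduct, smul_dotProduct, h.h00, h.h10]; simp
      have h7 : z ⬝ᵥ c₁ = y := by rw [← hxy, add_dotProduct, smul_dotProduct, smul_dotProduct, h.h01, h.h11]; simp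
      apply hz
      rw [← hxy, ← h6, ← h7, hz0', hz1', zero_smul, zero_smul, add_zero]
    obtain ⟨d, hd, hdz⟩ := exists_dot hzs
    have hd0 : f₀ ⬝ᵥ d = 0 := by rw [dotProduct_comm]; exact hd _ (Submodule.subset_span (by simp))
    have hd1 : f₁ ⬝ᵥ d = 0 := by rw [dotProduct_comm]; exact hd _ (Submodule.subset_span (by simp))
    have hdz' : z ⬝ᵥ d = 1 := by rw [dotProduct_comm]; exact hdz
    have D0 : Dual c₀ d f₀ z := ⟨h.h00, hd0, hz0', hdz'⟩
    have D1 : Dual c₁ d f₁ z := ⟨h.h11, hd1, hz1', hdz'⟩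
    have hinv : (D0.emb (tor a) * D1.emb (tor a))⁻¹ = D1.emb (tor a⁻¹) * D0.emb (tor a⁻¹) := by
      rw [_root_.mul_inv_rev, ← map_inv, ← map_inv, tor_inv]
    apply case_tor ρ h hone hz0 hz1 hψz (D0.emb (tor a) * D1.emb (tor a)) (a := a) (b := a) (d := (a : F) ^ 2) ?_ ?_ ?_ ha' ?_
    · rw [Matrix.SpecialLinearGroup.coe_mul, ← mulVec_mulVec, emb_tor_mulVec D1, h.h10, hz0', mul_zero, mul_zero, zero_smul,
        zero_smul, add_zero, add_zero, emb_tor_mulVec D0, h.h00, hz0', mul_zero, zero_smul, add_zero, mul_one]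
      rw [sub_smul, one_smul, add_sub_cancel]
    · rw [Matrix.SpecialLinearGroup.coe_mul, ← mulVec_mulVec, emb_tor_mulVec D1, h.h11, hz1', mul_zero, zero_smul,
        add_zero, mul_one, sub_smul, one_smul, add_sub_cancel, mulVec_smul, emb_tor_mulVec D0, h.h01, hz1']
      simp
    · rw [hinv, Matrix.SpecialLinearGroup.coe_mul, ← vecMul_vecMul, vecMul_emb_tor D1, vecMul_emb_tor D0]
      simp only [add_dotProduct, smul_dotProduct, hz1', hz0', hdz', h.h10, hd1, smul_eq_mul, mul_zero, zero_smul, add_zero, mul_one,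
        inv_inv]
      module
    · intro y
      have hy0 : y.1 ⬝ᵥ c₀ = 0 := y.2
      have e1 : ∃ t : F, (a : F) • (y.1 ᵥ* (((D0.emb (tor a) * D1.emb (tor a))⁻¹ : SpecialLinearGroup (Fin n) F) : Matrix (Fin n) (Fin n) F)) =
          y.1 + ((a : F) - 1) • (y.1 - (y.1 ⬝ᵥ c₁) • f₁) + t • z := by
        refine ⟨(a : F) * (((a : F) - 1) * (y.1 ⬝ᵥ d) + ((a : F) - 1) * (y.1 ⬝ᵥ d + ((a : F) - 1) * (y.1 ⬝ᵥ d))), ?_⟩
        rw [hinv, Matrix.SpecialLinearGroup.coe_mul, ← vecMul_vecMul, vecMul_emb_tor D1, vecMul_emb_tor D0]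
        simp only [add_dotProduct, smul_dotProduct, hy0, hz0', hdz', h.h10, hd1, smul_eq_mul, mul_zero, zero_smul, add_zero, mul_one,
          inv_inv]
        have hai : (a : F) * ((a⁻¹ : Fˣ) : F) = 1 := by simp
        have e2 : (a : F) • ((((a⁻¹ : Fˣ) : F) - 1) * (y.1 ⬝ᵥ c₁)) • f₁ = ((1 - (a : F)) * (y.1 ⬝ᵥ c₁)) • f₁ := by
          rw [smul_smul]
          congr 1
          linear_combination (y.1 ⬝ᵥ c₁) * hai
        rw [smul_add, smul_add, smul_add, e2]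
        module
      obtain ⟨t, ht⟩ := e1
      have hm1 : y.1 - (y.1 ⬝ᵥ c₁) • f₁ ∈ Wc c₀ := by
        rw [mem_Wc, sub_dotProduct, smul_dotProduct, h.h10, hy0, smul_zero, sub_zero]
      have hm2 : y.1 - (y.1 ⬝ᵥ c₁) • f₁ ∈ Wc c₁ := by
        rw [mem_Wc, sub_dotProduct, smul_dotProduct, h.h11, smul_eq_mul, mul_one, sub_self]
      obtain ⟨r, hr⟩ := Submodule.mem_span_singleton.1 (hline _ hm1 hm2)
      refine ⟨y + (((a : F) - 1) * r + t) • ⟨z, hz0⟩, ?_, ?_⟩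
      · rw [ht, ← hr]
        show y.1 + (((a : F) - 1) * r + t) • z = _
        rw [add_smul, ← smul_smul]
        abel
      · rw [AddChar.map_add_eq_mul, hψz, mul_one]
  · -- `n = 4`
    have hq4 := h4 hn4'
    obtain ⟨a, ha⟩ : ∃ a : Fˣ, a ^ 2 ≠ 1 := by
      by_contra hcon
      push Not at hcon
      obtain ⟨g, hg⟩ := IsCyclic.exists_ofOrder_eq_natCard (α := Fˣ)
      have h5 := orderOf_dvd_of_pow_eq_one (hcon g)
      rw [hg, Nat.card_eq_fintype_card, Fintype.card_units] at h5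
      have := Nat.le_of_dvd (by norm_num) h5
      omega
    have ha' : (a : F) * a ≠ 1 := by
      intro e
      apply ha
      ext
      rw [Units.val_pow_eq_pow_val, Units.val_one, ← e]
      ring
    -- an element of the kernel outside `Wc c₁`
    obtain ⟨k, hk0, hψk, hk1⟩ : ∃ k : Fin n → F, ∃ hk0 : k ∈ Wc c₀, (∀ t : F, ψ (t • ⟨k, hk0⟩) = 1) ∧ k ⬝ᵥ c₁ = 1 := by
      have hle2 := card_K (⊤ : Submodule F (Wc c₀)) ψ
      have htop : Nat.card (⊤ : Submodule F (Wc c₀)) = q ^ 3 := by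
        have h5 : Nat.card (⊤ : Submodule F (Wc c₀)) = Nat.card (Wc c₀) :=
          Nat.card_congr (Submodule.topEquiv (R := F) (M := Wc c₀)).toEquiv
        rw [h5, card_Wc (by omega) h.c₀_ne, hn4']
      rw [htop] at hle2
      have h5 : q ^ 2 ≤ Nat.card {w : (⊤ : Submodule F (Wc c₀)) // ∀ t : F, ψ (t • w.1) = 1} := by
        have h6 : q * q ^ 2 ≤ q * Nat.card {w : (⊤ : Submodule F (Wc c₀)) // ∀ t : F, ψ (t • w.1) = 1} := by
          calc q * q ^ 2 = q ^ 3 := by ring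
            _ ≤ _ := hle2
        exact Nat.le_of_mul_le_mul_left h6 (by omega)
      by_contra hcon
      push Not at hcon
      have h7 : Nat.card {w : (⊤ : Submodule F (Wc c₀)) // ∀ t : F, ψ (t • w.1) = 1} ≤
          Nat.card {w : (Submodule.comap (Wc c₀).subtype (Wc c₁)) // ∀ t : F, ψ (t • w.1) = 1} := by
        apply Nat.card_le_card_of_injective (fun w : {w : (⊤ : Submodule F (Wc c₀)) // ∀ t : F, ψ (t • w.1) = 1} =>
          (⟨⟨w.1.1, by
            show w.1.1.1 ⬝ᵥ c₁ = 0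
            by_contra hne
            apply hcon ((w.1.1.1 ⬝ᵥ c₁)⁻¹ • w.1.1.1) (Submodule.smul_mem _ _ w.1.1.2)
            · intro t
              have := w.2 (t * (w.1.1.1 ⬝ᵥ c₁)⁻¹)
              rw [mul_smul] at this
              exact this
            · rw [smul_dotProduct, smul_eq_mul, inv_mul_cancel₀ hne]⟩, w.2⟩ :
            {w : (Submodule.comap (Wc c₀).subtype (Wc c₁)) // ∀ t : F, ψ (t • w.1) = 1}))
        intro a b hab
        have hab' : a.1.1 = b.1.1 := congrArg (fun x : {w : (Submodule.comap (Wc c₀).subtype (Wc c₁)) // ∀ t : F, ψ (t • w.1) = 1} => x.1.1) hab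
        exact Subtype.ext (Subtype.ext hab')
      have h8 : q ^ 2 ≤ q := h5.trans (h7.trans hsmall)
      have h9 : q * q ≤ q * 1 := by rw [mul_one, ← sq]; exact h8
      have := Nat.le_of_mul_le_mul_left h9 (by omega)
      omega
    have hk0' : k ⬝ᵥ c₀ = 0 := hk0
    have hzs : z ∉ Submodule.span F {k} := by
      intro h5
      obtain ⟨x, hx⟩ := Submodule.mem_span_singleton.1 h5
      have h6 : z ⬝ᵥ c₁ = x := by rw [← hx, smul_dotProduct, hk1, smul_eq_mul, mul_one]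
      apply hz
      rw [← hx, ← h6, hz1', zero_smul]
    obtain ⟨d, hd, hdz⟩ := exists_dot hzs
    have hdk : k ⬝ᵥ d = 0 := by rw [dotProduct_comm]; exact hd _ (Submodule.mem_span_singleton_self _)
    have hdz' : z ⬝ᵥ d = 1 := by rw [dotProduct_comm]; exact hdz
    have D1 : Dual c₁ d k z := ⟨hk1, hdk, hz1', hdz'⟩
    have hinv : (D1.emb (tor a))⁻¹ = D1.emb (tor a⁻¹) := by
      rw [← map_inv, tor_inv]
    apply case_tor ρ h hone hz0 hz1 hψz (D1.emb (tor a)) (a := 1) (b := a) (d := (a : F)) ?_ ?_ ?_ ha' ?_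
    · rw [emb_tor_mulVec D1, hk0', hz0', mul_zero, mul_zero, zero_smul, zero_smul, add_zero, add_zero, one_smul]
    · rw [emb_tor_mulVec D1, hk1, hz1', mul_zero, zero_smul, add_zero, mul_one, sub_smul, one_smul, add_sub_cancel]
    · rw [hinv, vecMul_emb_tor D1, hz1', hdz', mul_zero, zero_smul, add_zero, mul_one, inv_inv, sub_smul, one_smul, add_sub_cancel]
    · intro y
      refine ⟨y + ((((a⁻¹ : Fˣ) : F) - 1) * (y.1 ⬝ᵥ c₁)) • ⟨k, hk0⟩ + (((a : F) - 1) * (y.1 ⬝ᵥ d)) • ⟨z, hz0⟩, ?_, ?_⟩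
      · rw [hinv, vecMul_emb_tor D1, inv_inv, one_smul]
        rfl
      · rw [AddChar.map_add_eq_mul, AddChar.map_add_eq_mul, hψz, hψk, mul_one, mul_one]

end Cfsg.Agent.Lib.SLWeight
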