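import Mathlib
import Cfsg.Agent.Lib.SU3Syl

/-!
# Extensions of index two of Sylow 2-subgroups of SU(3,2^n) (helper51)
-/

set_option autoImplicit false

namespace Cfsg.Agent.Lib.SU3Ext

open Cfsg Cfsg.Agent.Lib.ClUnitary Cfsg.Agent.Lib.HermMat Cfsg.Agent.Lib.SylU3 Cfsg.Agent.Lib.SU3Core
  Cfsg.Agent.Lib.SU3Aut Cfsg.Agent.Lib.SU3Syl

variable {F : Type*} [Field F] [Fintype F] {q : ℕ}

/-- an automorphism whose square is inner centralises the centre -/
theorem fix_center (hF : Fintype.card F = q ^ 2) [CharP F 2] (ψ : MulAut (U3 hF)) (u : U3 hF)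
    (h : ∀ g, ψ (ψ g) = u * g * u⁻¹) (g : U3 hF) (hg : pa g = 0) : ψ g = g := by
  obtain ⟨c, φ, hc, h1, h2⟩ := aut_structure ψ
  have h3 := CharTwo.two_eq_zero (R := F)
  have e1 : ∀ x : F, c * φ (c * φ x) = x := by
    intro x
    obtain ⟨g, rfl⟩ := exists_pa hF x
    rw [← h1, ← h1, h, pa_mul, pa_mul, pa_inv]
    linear_combination pa u * h3
  have e2 : c * φ c = 1 := by
    have := e1 1
    rwa [map_one, mul_one] at this
  have e3 : ∀ x, φ (φ x) = x := by
    intro x
    have := e1 x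
    rwa [map_mul, ← mul_assoc, e2, one_mul] at this
  have hNf : (c * c ^ q) ^ q = c * c ^ q := by rw [mul_pow, pow_q_pow_q hF, mul_comm]
  have e4 : φ (c * c ^ q) = c * c ^ q := fix_of_sq_one hF φ e3 hNf
  have e5 : (c * c ^ q) * (c * c ^ q) = 1 := by
    conv_lhs => rw [← e4]
    have : φ (c * c ^ q) * φ (c * c ^ q) = φ (c * c ^ q) * (c * c ^ q) := by rw [e4]
    rw [this, map_mul, map_pow]
    calc φ c * φ c ^ q * (c * c ^ q) = (c * φ c) * (c * φ c) ^ q := by rw [mul_pow]; ring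
      _ = 1 := by rw [e2, one_pow, one_mul]
  have e6 : c * c ^ q = 1 := by
    have : (c * c ^ q - 1) * (c * c ^ q - 1) = 0 := by linear_combination e5 - (c * c ^ q - 1) * h3
    have := mul_self_eq_zero.mp this
    linear_combination this
  apply ext'
  · rw [h1, hg, map_zero, mul_zero]
  · rw [h2 g hg, e6, one_mul]
    exact fix_of_sq_one hF φ e3 (pb_fixed hg)

/-- **S3315** -/
theorem center_le {R : Type*} [Group R] (hF : Fintype.card F = q ^ 2) [CharP F 2]
    (S : Subgroup R) (e : S ≃* U3 hF) (hidx : S.index = 2) :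
    (Subgroup.center S).map S.subtype ≤ Subgroup.center R := by
  have hN : S.Normal := Subgroup.normal_of_index_eq_two hidx
  rintro _ ⟨z, hz, rfl⟩
  rw [Subgroup.mem_center_iff]
  intro r
  by_cases hr : r ∈ S
  · exact congrArg Subtype.val (Subgroup.mem_center_iff.mp hz ⟨r, hr⟩)
  have hr2 : r * r ∈ S := Subgroup.mul_self_mem_of_index_two hidx r
  let ψ : MulAut (U3 hF) := (e.symm.trans (MulAut.conjNormal r : MulAut S)).trans e
  have hψ : ∀ s : S, ψ (e s) = e (MulAut.conjNormal r s) := fun s => by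
    change e (MulAut.conjNormal r (e.symm (e s))) = _
    rw [MulEquiv.symm_apply_apply]
  have h1 : ∀ g, ψ (ψ g) = e ⟨r * r, hr2⟩ * g * (e ⟨r * r, hr2⟩)⁻¹ := by
    intro g
    obtain ⟨s, rfl⟩ := e.surjective g
    rw [hψ, hψ, ← map_inv, ← map_mul, ← map_mul]
    congr 1
    apply Subtype.ext
    rw [MulAut.conjNormal_apply, MulAut.conjNormal_apply]
    simp only [Subgroup.coe_mul, Subgroup.coe_inv]
    group
  have h2 : pa (e z) = 0 := by
    rw [← mem_center_iff, Subgroup.mem_center_iff]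
    intro g
    obtain ⟨s, rfl⟩ := e.surjective g
    rw [← map_mul, ← map_mul, Subgroup.mem_center_iff.mp hz s]
  have h3 := fix_center hF ψ _ h1 (e z) h2
  rw [hψ] at h3
  have h4 := congrArg Subtype.val (e.injective h3)
  rw [MulAut.conjNormal_apply] at h4
  exact mul_inv_eq_iff_eq_mul.mp h4

end Cfsg.Agent.Lib.SU3Ext
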