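import Mathlib
import Cfsg.Agent.Lib.SU3AutGrp

/-!
# No `S_3` inside the automorphism group of the Sylow 2-subgroup of `PSU(3,4)` (helper62)
-/

set_option autoImplicit false
set_option maxHeartbeats 400000

namespace Cfsg.Agent.Lib.SU3S3H62

open Cfsg Cfsg.Agent.Lib.ClUnitary Cfsg.Agent.Lib.HermMat Cfsg.Agent.Lib.SylU3 Cfsg.Agent.Lib.SU3Core
  Cfsg.Agent.Lib.SU3Aut Cfsg.Agent.Lib.SU3Syl Cfsg.Agent.Lib.SU3AutGrp

variable {F : Type*} [Field F] [Fintype F]

theorem no_dihedral [CharP F 2] (hF16 : Fintype.card F = 4 ^ 2) (r x : MulAut (U3 hF16)) (hr : r ^ 3 = 1)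
    (hx : x ^ 2 = 1) (hxr : x * r * x⁻¹ = r⁻¹) : r = 1 := by
  obtain ⟨c, φ, hc, h1, -⟩ := aut_structure r
  obtain ⟨d, χ, hd, k1, -⟩ := aut_structure x
  have hr' : ∀ a, rho hF16 r a = c * φ a := by
    intro a
    obtain ⟨g, rfl⟩ := exists_pa hF16 a
    rw [rho_pa, h1]
  have hx' : ∀ a, rho hF16 x a = d * χ a := by
    intro a
    obtain ⟨g, rfl⟩ := exists_pa hF16 a
    rw [rho_pa, k1]
  have hr3 : ∀ a, rho hF16 r (rho hF16 r (rho hF16 r a)) = a := by
    intro a
    have h := congrArg (fun f : MulAut (U3 hF16) => rho hF16 f a) hr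
    simpa [pow_succ] using h
  have hx2 : ∀ a, rho hF16 x (rho hF16 x a) = a := by
    intro a
    have h := congrArg (fun f : MulAut (U3 hF16) => rho hF16 f a) hx
    simpa [pow_succ] using h
  have hc3 : c * (φ c * φ (φ c)) = 1 := by
    have h := hr3 1
    rw [hr', hr', hr', map_one, mul_one, map_mul] at h
    exact h
  have hφ3 : φ ^ 3 = 1 := by
    ext a
    have h := hr3 a
    rw [hr', hr', hr', map_mul, map_mul, map_mul] at h
    change φ (φ (φ a)) = a
    have h2 : c * (φ c * (φ (φ c) * φ (φ (φ a)))) = (c * (φ c * φ (φ c))) * φ (φ (φ a)) := by ring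
    rwa [h2, hc3, one_mul] at h
  have hφ : φ = 1 := by
    have hcard := card_aut' hF16
    have hfin : Finite (F ≃+* F) := FFAut.finite_aut
    have h1 : orderOf φ ∣ 3 := orderOf_dvd_of_pow_eq_one hφ3
    have h2 : orderOf φ ∣ 2 * 2 := hcard ▸ orderOf_dvd_natCard φ
    have h3 : orderOf φ ∣ 1 := by
      have := Nat.dvd_gcd h1 h2
      simpa using this
    exact orderOf_eq_one_iff.mp (Nat.dvd_one.mp h3)
  have hφa : ∀ a, φ a = a := fun a => by rw [hφ]; rfl
  rw [hφa, hφa] at hc3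
  have hc4 : c ^ 4 = c := by
    have : c ^ 4 = (c * (c * c)) * c := by ring
    rw [this, hc3, one_mul]
  have hdd : d * χ d = 1 := by
    have h := hx2 1
    rw [hx', hx', map_one, mul_one] at h
    exact h
  have hχ2 : ∀ a, χ (χ a) = a := by
    intro a
    have h := hx2 a
    rw [hx', hx', map_mul, ← mul_assoc, hdd, one_mul] at h
    exact h
  have hχc : χ c = c := fix_of_sq_one hF16 χ hχ2 hc4
  have hcomm : rho hF16 x * rho hF16 r = rho hF16 r * rho hF16 x := by
    ext a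
    rw [Equiv.Perm.mul_apply, Equiv.Perm.mul_apply, hr', hx', hx', hr', hφa, hφa, map_mul, hχc]
    ring
  have hinv : rho hF16 r = (rho hF16 r)⁻¹ := by
    rw [← map_inv, ← hxr, map_mul, map_mul, hcomm, map_inv, mul_inv_cancel_right]
  have hmem : r ∈ (rho hF16).ker := by
    rw [MonoidHom.mem_ker]
    have h2 : rho hF16 r * rho hF16 r = 1 := by
      nth_rewrite 2 [hinv]
      exact mul_inv_cancel _
    have h3 : rho hF16 r ^ 3 = 1 := by rw [← map_pow, hr, map_one]
    rw [pow_succ, pow_two, h2, one_mul] at h3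
    exact h3
  have h2 : r ^ 2 = 1 := (ker_elementary hF16).2 _ hmem
  rw [pow_succ, h2, one_mul] at hr
  exact hr

end Cfsg.Agent.Lib.SU3S3H62
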