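import Cfsg.Agent.Lib.HermCount

/-!
# The stabilizer of an isotropic subspace in the special unitary group, in matrices (helper39)

Index type `(M ⊕ R) ⊕ M`, gram matrix `K δ`, elements `X S`, `XM N`, `Qc c`, `D g u`.
-/

set_option autoImplicit false
set_option linter.unusedSectionVars false

namespace Cfsg.Agent.Lib.SUPar

open Matrix

variable {F : Type*} [Field F] [StarRing F] {M R : Type*} [Fintype M] [DecidableEq M] [Fintype R] [DecidableEq R]

/-- three by three block matrices -/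
def blk (a : Matrix M M F) (b : Matrix M R F) (c : Matrix M M F) (d : Matrix R M F) (e : Matrix R R F) (f : Matrix R M F)
    (g : Matrix M M F) (h : Matrix M R F) (k : Matrix M M F) : Matrix ((M ⊕ R) ⊕ M) ((M ⊕ R) ⊕ M) F :=
  fromBlocks (fromBlocks a b d e) (fromRows c f) (fromCols g h) k

theorem blk_mul (a : Matrix M M F) (b : Matrix M R F) (c : Matrix M M F) (d : Matrix R M F) (e : Matrix R R F) (f : Matrix R M F)
    (g : Matrix M M F) (h : Matrix M R F) (k : Matrix M M F)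
    (a' : Matrix M M F) (b' : Matrix M R F) (c' : Matrix M M F) (d' : Matrix R M F) (e' : Matrix R R F) (f' : Matrix R M F)
    (g' : Matrix M M F) (h' : Matrix M R F) (k' : Matrix M M F) :
    blk a b c d e f g h k * blk a' b' c' d' e' f' g' h' k' =
      blk (a * a' + b * d' + c * g') (a * b' + b * e' + c * h') (a * c' + b * f' + c * k')
        (d * a' + e * d' + f * g') (d * b' + e * e' + f * h') (d * c' + e * f' + f * k')
        (g * a' + h * d' + k * g') (g * b' + h * e' + k * h') (g * c' + h * f' + k * k') := by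
  ext i j
  rcases i with (i | i) | i <;> rcases j with (j | j) | j <;>
    simp [blk, Matrix.mul_apply, Fintype.sum_sum_type]

theorem blk_conjTranspose (a : Matrix M M F) (b : Matrix M R F) (c : Matrix M M F) (d : Matrix R M F) (e : Matrix R R F) (f : Matrix R M F)
    (g : Matrix M M F) (h : Matrix M R F) (k : Matrix M M F) :
    (blk a b c d e f g h k)ᴴ = blk aᴴ dᴴ gᴴ bᴴ eᴴ hᴴ cᴴ fᴴ kᴴ := by
  ext i j
  rcases i with (i | i) | i <;> rcases j with (j | j) | j <;>
    simp [blk, Matrix.conjTranspose_apply]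

theorem blk_one : blk (F := F) (M := M) (R := R) 1 0 0 0 1 0 0 0 1 = 1 := by
  ext i j
  rcases i with (i | i) | i <;> rcases j with (j | j) | j <;>
    simp [blk, Matrix.one_apply]

theorem blk_det (a : Matrix M M F) (b : Matrix M R F) (c : Matrix M M F) (e : Matrix R R F) (f : Matrix R M F)
    (k : Matrix M M F) : (blk a b c 0 e f 0 0 k).det = a.det * e.det * k.det := by
  have : fromCols (0 : Matrix M M F) (0 : Matrix M R F) = 0 := fromCols_zero
  rw [blk, this, det_fromBlocks_zero₂₁, det_fromBlocks_zero₂₁]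

variable (M R) in
/-- The gram matrix. -/
def K (δ : F) : Matrix ((M ⊕ R) ⊕ M) ((M ⊕ R) ⊕ M) F := blk 0 0 (δ • 1) 0 1 0 (-δ • 1) 0 0

variable (M R) in
/-- Its inverse. -/
def Kinv (δ : F) : Matrix ((M ⊕ R) ⊕ M) ((M ⊕ R) ⊕ M) F := blk 0 0 (-δ⁻¹ • 1) 0 1 0 (δ⁻¹ • 1) 0 0

theorem K_mul_Kinv {δ : F} (hδ : δ ≠ 0) : K M R δ * Kinv M R δ = 1 := by
  rw [K, Kinv, blk_mul, ← blk_one]
  congr 1 <;> simp [smul_smul, hδ]

theorem Kinv_mul_K {δ : F} (hδ : δ ≠ 0) : Kinv M R δ * K M R δ = 1 := mul_eq_one_comm.1 (K_mul_Kinv hδ)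

variable {δ : F} (hδ : star δ = -δ)

/-- upper unitriangular elements -/
def Tri (δ : F) (c : Matrix M R F) (S : Matrix M M F) : Matrix ((M ⊕ R) ⊕ M) ((M ⊕ R) ⊕ M) F :=
  blk 1 c S 0 1 (-δ • cᴴ) 0 0 1

theorem Tri_mul (c c' : Matrix M R F) (S S' : Matrix M M F) :
    Tri δ c S * Tri δ c' S' = Tri δ (c + c') (S + S' + -δ • (c * c'ᴴ)) := by
  rw [Tri, Tri, Tri, blk_mul]
  congr 1 <;> simp [add_comm]
  rw [← add_assoc]

theorem Tri_zero : Tri δ (0 : Matrix M R F) 0 = 1 := by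
  rw [Tri, ← blk_one]; simp

theorem Tri_det (c : Matrix M R F) (S : Matrix M M F) : (Tri δ c S).det = 1 := by
  rw [Tri, blk_det]; simp

include hδ in
theorem Tri_pres {c : Matrix M R F} {S : Matrix M M F} (hS : S - Sᴴ = -δ • (c * cᴴ)) :
    (Tri δ c S)ᴴ * K M R δ * Tri δ c S = K M R δ := by
  rw [Tri, blk_conjTranspose, K, blk_mul, blk_mul]
  have hS' : δ • Sᴴ - δ • S = (δ * δ) • (c * cᴴ) := by
    rw [← smul_sub, ← neg_sub S Sᴴ, hS, neg_smul, neg_neg, smul_smul]
  congr 1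
  · simp
  · simp
  · simp
  · simp
  · simp
  · simp
  · simp
  · simp [hδ]
  · simp only [conjTranspose_smul, conjTranspose_conjTranspose, star_neg, hδ, neg_neg, Matrix.mul_smul, Matrix.smul_mul,
      Matrix.mul_one, Matrix.mul_zero, add_zero, zero_add, Matrix.one_mul, Matrix.zero_mul, conjTranspose_one, Matrix.neg_mul, smul_smul,
      conjTranspose_zero, smul_zero, zero_mul]
    have h3 : δ • Sᴴ = δ • S + (δ * δ) • (c * cᴴ) := by rw [← hS']; abel
    simp only [h3, neg_smul, neg_mul]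
    abel

/-- Levi elements -/
def Dd (g : GL M F) (u : F) : Matrix ((M ⊕ R) ⊕ M) ((M ⊕ R) ⊕ M) F :=
  blk g.1 0 0 0 (u • 1) 0 0 0 ((g⁻¹).1)ᴴ

theorem Dd_det (g : GL M F) (u : F) : (Dd (R := R) g u).det = g.1.det * u ^ Fintype.card R * star ((g⁻¹).1.det) := by
  rw [Dd, blk_det, det_smul, det_one, mul_one, det_conjTranspose]

theorem Dd_pres (g : GL M F) {u : F} (hu : star u * u = 1) :
    (Dd (R := R) g u)ᴴ * K M R δ * Dd g u = K M R δ := by
  have h1 : g⁻¹.1 * g.1 = 1 := by rw [← Units.val_mul, inv_mul_cancel, Units.val_one]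
  have h2 : (g.1)ᴴ * (g⁻¹.1)ᴴ = 1 := by rw [← conjTranspose_mul, h1, conjTranspose_one]
  rw [Dd, blk_conjTranspose, K, blk_mul, blk_mul]
  generalize (g⁻¹).1 = G at *
  generalize g.1 = G' at *
  congr 1 <;> simp [smul_smul, h1, h2, hu, ← conjTranspose_mul, mul_comm u]

theorem Dd_Tri (g : GL M F) (u : F) (S : Matrix M M F) :
    Dd (R := R) g u * Tri δ 0 S = Tri δ 0 (g.1 * S * (g.1)ᴴ) * Dd g u := by
  have h1 : g⁻¹.1 * g.1 = 1 := by rw [← Units.val_mul, inv_mul_cancel, Units.val_one]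
  have h2 : (g.1)ᴴ * (g⁻¹.1)ᴴ = 1 := by rw [← conjTranspose_mul, h1, conjTranspose_one]
  rw [Dd, Tri, Tri, blk_mul, blk_mul]
  generalize (g⁻¹).1 = G at *
  generalize g.1 = G' at *
  congr 1 <;> simp [Matrix.mul_assoc, h2]

end Cfsg.Agent.Lib.SUPar
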