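import Cfsg.Agent.Lib.SUPar
import Cfsg.Agent.Lib.UnBridge

/-!
# The stabilizer of an isotropic subspace in the special unitary group (helper39), part 2
-/

set_option autoImplicit false
set_option linter.unusedSectionVars false
open Cfsg

namespace Cfsg.Agent.Lib.SUPar

open Matrix Cfsg.Agent.Lib.HermCount

section group

variable {F : Type*} [Field F] [StarRing F] {M R : Type*} [Fintype M] [DecidableEq M] [Fintype R] [DecidableEq R]

variable (M R) in
/-- The isometries of determinant one of the gram matrix `K`. -/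
def Gp (δ : F) : Submonoid (Matrix ((M ⊕ R) ⊕ M) ((M ⊕ R) ⊕ M) F) where
  carrier := {A | Aᴴ * K M R δ * A = K M R δ ∧ A.det = 1}
  one_mem' := ⟨by simp, by simp⟩
  mul_mem' := by
    rintro A B ⟨h1, h2⟩ ⟨h3, h4⟩
    refine ⟨?_, by rw [det_mul, h2, h4, one_mul]⟩
    calc (A * B)ᴴ * K M R δ * (A * B) = Bᴴ * (Aᴴ * K M R δ * A) * B := by
          rw [conjTranspose_mul]; simp only [Matrix.mul_assoc]
      _ = K M R δ := by rw [h1, h3]

theorem Gp_pres {δ : F} (A : Gp M R δ) : (A.1)ᴴ * K M R δ * A.1 = K M R δ := A.2.1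

theorem Gp_det {δ : F} (A : Gp M R δ) : A.1.det = 1 := A.2.2

variable {δ κ : F} (hδ : star δ = -δ) (hκ : κ + star κ = 1)

/-- The central part of the radical. -/
def XM (hδ : star δ = -δ) (N : Matrix M M F) : Gp M R δ :=
  ⟨Tri δ 0 (N + Nᴴ), Tri_pres hδ (by simp [add_comm]), Tri_det _ _⟩

theorem XM_val (N : Matrix M M F) : (XM (R := R) hδ N).1 = Tri δ 0 (N + Nᴴ) := rfl

theorem XM_add (N N' : Matrix M M F) : XM (R := R) hδ (N + N') = XM hδ N * XM hδ N' := by
  apply Subtype.ext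
  change Tri δ 0 _ = Tri δ 0 _ * Tri δ 0 _
  rw [Tri_mul]
  congr 1
  · simp
  · rw [conjTranspose_add]; simp; abel

theorem XM_zero : XM (R := R) hδ (0 : Matrix M M F) = 1 := by
  apply Subtype.ext
  change Tri δ 0 _ = 1
  rw [conjTranspose_zero, add_zero, Tri_zero]

theorem XM_star (N : Matrix M M F) : XM (R := R) hδ Nᴴ = XM hδ N := by
  apply Subtype.ext
  change Tri δ 0 _ = Tri δ 0 _
  rw [conjTranspose_conjTranspose, add_comm]

/-- The radical. -/
def Qc (hδ : star δ = -δ) (hκ : κ + star κ = 1) (c : Matrix M R F) : Gp M R δ :=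
  ⟨Tri δ c (-(κ * δ) • (c * cᴴ)), Tri_pres hδ (by
    rw [conjTranspose_smul, conjTranspose_mul, conjTranspose_conjTranspose, ← sub_smul]
    congr 1
    rw [star_neg, star_mul', hδ]
    linear_combination (-δ) * hκ), Tri_det _ _⟩

theorem Qc_comm (c c' : Matrix M R F) :
    Qc hδ hκ c * Qc hδ hκ c' = XM hδ (-δ • (c * c'ᴴ)) * (Qc hδ hκ c' * Qc hδ hκ c) := by
  apply Subtype.ext
  change Tri δ c _ * Tri δ c' _ = Tri δ 0 _ * (Tri δ c' _ * Tri δ c _)
  rw [Tri_mul, Tri_mul, Tri_mul]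
  congr 1
  · simp [add_comm]
  · rw [conjTranspose_smul, conjTranspose_mul, conjTranspose_conjTranspose, star_neg, hδ, neg_neg, Matrix.zero_mul, smul_zero,
      add_zero]
    simp only [neg_smul]
    abel

theorem XM_Qc (N : Matrix M M F) (c : Matrix M R F) : XM hδ N * Qc hδ hκ c = Qc hδ hκ c * XM hδ N := by
  apply Subtype.ext
  change Tri δ 0 _ * Tri δ c _ = Tri δ c _ * Tri δ 0 _
  rw [Tri_mul, Tri_mul]
  congr 1
  · simp
  · simp; abel

/-- Levi elements. -/
def D (g : GL M F) (u : F) (hu : star u * u = 1) (hd : g.1.det * u ^ Fintype.card R * star ((g⁻¹).1.det) = 1) : Gp M R δ :=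
  ⟨Dd g u, Dd_pres g hu, by rw [Dd_det, hd]⟩

theorem D_XM (g : GL M F) (u : F) (hu : star u * u = 1) (hd : g.1.det * u ^ Fintype.card R * star ((g⁻¹).1.det) = 1)
    (N : Matrix M M F) : D g u hu hd * XM (R := R) hδ N = XM hδ (g.1 * N * (g.1)ᴴ) * D g u hu hd := by
  apply Subtype.ext
  change Dd g u * Tri δ 0 _ = Tri δ 0 _ * Dd g u
  rw [Dd_Tri]
  congr 2
  simp only [conjTranspose_mul, conjTranspose_conjTranspose, Matrix.mul_add, Matrix.add_mul, Matrix.mul_assoc]

theorem exists_kappa [Fintype F] {q : ℕ} (hF : SF F q) : ∃ κ : F, κ + star κ = 1 := by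
  obtain ⟨s, hs⟩ := exists_trace hF
  refine ⟨s / (s + star s), ?_⟩
  have h1 : star (s + star s) = s + star s := by rw [star_add, star_star, add_comm]
  rw [star_div₀, h1, ← add_div, div_self hs]

end group

section toSU

variable {F : Type*} [Field F] [Fintype F] [StarRing F] {q : ℕ} (hF : SF F q) {n : ℕ}

include hF

theorem hermForm_eq (u v : Fin n → F) : hermForm n F q u v = star v ⬝ᵥ u := by
  rw [hermForm, dotProduct]
  refine Finset.sum_congr rfl fun i _ => ?_
  rw [Pi.star_apply, hF.star_eq, mul_comm]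

theorem mem_SU (g : SpecialLinearGroup (Fin n) F) : g ∈ SU n F q ↔ (g.1)ᴴ * g.1 = 1 := by
  have key : ∀ u v, hermForm n F q (g.1 *ᵥ u) (g.1 *ᵥ v) = star v ⬝ᵥ ((g.1)ᴴ * g.1) *ᵥ u := by
    intro u v
    rw [hermForm_eq hF, Matrix.star_mulVec, ← Matrix.dotProduct_mulVec, Matrix.mulVec_mulVec]
  constructor
  · intro h
    ext i j
    have h1 := h (Pi.single j 1) (Pi.single i 1)
    change hermForm n F q (g.1 *ᵥ _) (g.1 *ᵥ _) = _ at h1
    rw [key, hermForm_eq hF] at h1
    have h2 : star (Pi.single i (1 : F) : Fin n → F) = Pi.single i 1 := by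
      funext k
      rw [Pi.star_apply, Pi.single_apply]
      split_ifs <;> simp
    rw [h2] at h1
    simp only [single_one_dotProduct, mulVec_single_one, Matrix.col_apply] at h1
    rw [h1, Matrix.one_apply, Pi.single_apply]
  · intro h u v
    change hermForm n F q (g.1 *ᵥ _) (g.1 *ᵥ _) = _
    rw [key, h, Matrix.one_mulVec, hermForm_eq hF]

variable {M R : Type*} [Fintype M] [DecidableEq M] [Fintype R] [DecidableEq R] {δ : F}
  {P : Matrix (Fin n) ((M ⊕ R) ⊕ M) F} {P' : Matrix ((M ⊕ R) ⊕ M) (Fin n) F}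
  (h1 : P * P' = 1) (h2 : P' * P = 1) (hP : Pᴴ * P = K M R δ)

/-- Change of coordinates. -/
def toSU : Gp M R δ →* SU n F q where
  toFun A := ⟨⟨P * A.1 * P', by
      rw [det_conj_of_mul_eq_one h1 h2]; exact Gp_det A⟩, by
      refine (mem_SU hF _).2 ?_
      change (P * A.1 * P')ᴴ * (P * A.1 * P') = 1
      calc (P * A.1 * P')ᴴ * (P * A.1 * P') = P'ᴴ * ((A.1)ᴴ * (Pᴴ * P) * A.1) * P' := by
            rw [conjTranspose_mul, conjTranspose_mul]; simp only [Matrix.mul_assoc]
        _ = P'ᴴ * (Pᴴ * P) * P' := by rw [hP, Gp_pres]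
        _ = (P * P')ᴴ * (P * P') := by rw [conjTranspose_mul]; simp only [Matrix.mul_assoc]
        _ = 1 := by rw [h1]; simp⟩
  map_one' := by
    apply Subtype.ext
    apply Subtype.ext
    change P * 1 * P' = 1
    rw [Matrix.mul_one, h1]
  map_mul' A B := by
    apply Subtype.ext
    apply Subtype.ext
    change P * (A.1 * B.1) * P' = (P * A.1 * P') * (P * B.1 * P')
    calc P * (A.1 * B.1) * P' = P * A.1 * (P' * P) * B.1 * P' := by rw [h2, Matrix.mul_one]; simp only [Matrix.mul_assoc]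
      _ = _ := by simp only [Matrix.mul_assoc]

end toSU

end Cfsg.Agent.Lib.SUPar
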