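import Cfsg.Agent.Lib.SUPar2
import Cfsg.Agent.Lib.MatChar
import Cfsg.Agent.Lib.RepBound
import Cfsg.Agent.Lib.RepSchur

/-!
# Lower bounds for representations of the special unitary group (helper39)
-/

set_option autoImplicit false
set_option linter.unusedSectionVars false
open Cfsg

namespace Cfsg.Agent.Lib.SUPar

open Matrix Cfsg.Agent.Lib.HermCount

section exP

variable {F : Type*} [Field F] [Fintype F] [StarRing F] {q : ℕ} (hF : SF F q)

include hF

theorem exists_two : ∃ (δ : F) (P : Matrix (Fin 2) (Fin 2) F), δ ≠ 0 ∧ star δ = -δ ∧ Pᴴ * P = !![0, δ; -δ, 0] := by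
  obtain ⟨P, d, hP, hform⟩ := ClEmbed.exists_basis hF.card
  have hq : q ≠ 0 := by have := one_lt hF; omega
  have key : ∀ i j, (Pᴴ * P) i j = hermForm 2 F q (P *ᵥ Pi.single j 1) (P *ᵥ Pi.single i 1) := by
    intro i j
    have h2 : star (Pi.single i (1 : F) : Fin 2 → F) = Pi.single i 1 := by
      funext k
      rw [Pi.star_apply, Pi.single_apply]
      split_ifs <;> simp
    rw [hermForm_eq hF, Matrix.star_mulVec, ← Matrix.dotProduct_mulVec, Matrix.mulVec_mulVec, h2]
    simp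
  have hG : Pᴴ * P = !![0, -d; d, 0] := by
    ext i j
    rw [key, hform]
    fin_cases i <;> fin_cases j <;> simp [zero_pow hq]
  have hstar : star (-d) = d := by
    have h1 := congrFun (congrFun (conjTranspose_mul Pᴴ P) 1) 0
    rw [conjTranspose_conjTranspose, hG, conjTranspose_apply] at h1
    simpa using h1
  refine ⟨-d, P, ?_, ?_, ?_⟩
  · intro h0
    have h1 := congrArg Matrix.det hG
    rw [det_mul, det_conjTranspose] at h1
    simp only [det_fin_two_of] at h1
    rw [h0] at h1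
    have : star P.det * P.det ≠ 0 := mul_ne_zero (by rwa [Ne, star_eq_zero]) hP
    apply this
    rw [h1]; ring
  · rw [hstar, neg_neg]
  · rw [hG, neg_neg]

omit [Fintype F] hF in
theorem sum_aux {m : ℕ} (j j' : Fin m) (a b c d : F) :
    ∑ k : Fin m, (star (if k = j then a else 0) * (if k = j' then c else 0) + star (if k = j then b else 0) * (if k = j' then d else 0)) =
      if j = j' then star a * c + star b * d else 0 := by
  rw [Finset.sum_eq_single j]
  · simp only [if_true]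
    split_ifs with h
    · rfl
    · simp
  · intro k _ hk
    rw [if_neg hk, if_neg hk, star_zero, zero_mul, zero_mul, add_zero]
  · intro h; exact absurd (Finset.mem_univ _) h

/-- an adapted basis -/
def Qm (m r : ℕ) (P₂ : Matrix (Fin 2) (Fin 2) F) : Matrix (Fin m × Fin 2 ⊕ Fin r) ((Fin m ⊕ Fin r) ⊕ Fin m) F :=
  fromBlocks (fromCols (Matrix.of fun x y => if x.1 = y then P₂ x.2 0 else 0) 0)
    (Matrix.of fun x y => if x.1 = y then P₂ x.2 1 else 0) (fromCols 0 1) 0

omit [Fintype F] hF in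
theorem Qm_eq {m r : ℕ} {P₂ : Matrix (Fin 2) (Fin 2) F} {δ : F} (hG : P₂ᴴ * P₂ = !![0, δ; -δ, 0]) :
    (Qm m r P₂)ᴴ * Qm m r P₂ = K (Fin m) (Fin r) δ := by
  have g : ∀ i j, star (P₂ 0 i) * P₂ 0 j + star (P₂ 1 i) * P₂ 1 j = !![0, δ; -δ, 0] i j := by
    intro i j
    rw [← hG, Matrix.mul_apply, Fin.sum_univ_two, conjTranspose_apply, conjTranspose_apply]
  have g00 := g 0 0
  have g01 := g 0 1
  have g10 := g 1 0
  have g11 := g 1 1
  simp only [of_apply, cons_val', cons_val_zero, cons_val_one, cons_val_fin_one] at g00 g01 g10 g11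
  ext x y
  rw [Matrix.mul_apply, Fintype.sum_sum_type, Fintype.sum_prod_type]
  simp only [conjTranspose_apply, Fin.sum_univ_two, Qm, K, blk]
  rcases x with (x | x) | x <;> rcases y with (y | y) | y
  · have := sum_aux x y (P₂ 0 0) (P₂ 1 0) (P₂ 0 0) (P₂ 1 0)
    simp only [of_apply, fromBlocks_apply₁₁, fromCols_apply_inl, fromBlocks_apply₂₁, Matrix.zero_apply, star_zero, zero_mul, Finset.sum_const_zero,
      add_zero]
    rw [this, g00, ite_self]
  · simp
  · have := sum_aux x y (P₂ 0 0) (P₂ 1 0) (P₂ 0 1) (P₂ 1 1)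
    simp only [of_apply, fromBlocks_apply₁₁, fromCols_apply_inl, fromBlocks_apply₂₁, fromBlocks_apply₁₂, Matrix.zero_apply, star_zero, zero_mul, Finset.sum_const_zero,
      add_zero, fromRows_apply_inl, Matrix.smul_apply, Matrix.one_apply, smul_eq_mul, mul_ite, mul_one, mul_zero, fromBlocks_apply₂₂]
    simp only [mul_ite, mul_zero] at this
    rw [this, g01]
  · simp
  · simp only [of_apply, fromBlocks_apply₁₁, fromCols_apply_inr, fromBlocks_apply₂₁, fromBlocks_apply₂₂, Matrix.zero_apply, star_zero, zero_mul, Finset.sum_const_zero,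
      add_zero, zero_add, Matrix.one_apply]
    rw [Finset.sum_eq_single x]
    · simp
    · intro k _ hk
      rw [if_neg hk]; simp
    · intro h; exact absurd (Finset.mem_univ _) h
  · simp
  · have := sum_aux x y (P₂ 0 1) (P₂ 1 1) (P₂ 0 0) (P₂ 1 0)
    simp only [of_apply, fromBlocks_apply₁₁, fromCols_apply_inl, fromBlocks_apply₂₁, fromBlocks_apply₁₂, fromBlocks_apply₂₂, Matrix.zero_apply, star_zero, zero_mul, Finset.sum_const_zero,
      add_zero, Matrix.smul_apply, Matrix.one_apply, smul_eq_mul, mul_ite, mul_one, mul_zero]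
    simp only [mul_ite, mul_zero] at this
    rw [this, g10]
  · simp
  · have := sum_aux x y (P₂ 0 1) (P₂ 1 1) (P₂ 0 1) (P₂ 1 1)
    simp only [of_apply, fromBlocks_apply₁₂, fromBlocks_apply₂₂, Matrix.zero_apply, star_zero, zero_mul, Finset.sum_const_zero,
      add_zero]
    rw [this, g11, ite_self]

theorem exists_P {n m r : ℕ} (hn : n = 2 * m + r) : ∃ δ : F, δ ≠ 0 ∧ star δ = -δ ∧
    ∃ (P : Matrix (Fin n) ((Fin m ⊕ Fin r) ⊕ Fin m) F) (P' : Matrix ((Fin m ⊕ Fin r) ⊕ Fin m) (Fin n) F),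
      P * P' = 1 ∧ P' * P = 1 ∧ Pᴴ * P = K (Fin m) (Fin r) δ := by
  obtain ⟨δ, P₂, hδ0, hδ, hG⟩ := exists_two hF
  refine ⟨δ, hδ0, hδ, ?_⟩
  let e : Fin n ≃ (Fin m × Fin 2 ⊕ Fin r) := Fintype.equivOfCardEq (by simp [hn, mul_comm])
  let e' : Fin n ≃ ((Fin m ⊕ Fin r) ⊕ Fin m) := Fintype.equivOfCardEq (by simp [hn]; ring)
  let P := (Qm m r P₂).submatrix e id
  have hP : Pᴴ * P = K (Fin m) (Fin r) δ := by
    rw [← Qm_eq (m := m) (r := r) hG]
    ext x y
    simp only [Matrix.mul_apply, P, conjTranspose_apply, submatrix_apply, id]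
    exact Equiv.sum_comp e (fun k => star (Qm m r P₂ k x) * Qm m r P₂ k y)
  have h1 : (Kinv (Fin m) (Fin r) δ * Pᴴ) * P = 1 := by rw [Matrix.mul_assoc, hP, Kinv_mul_K hδ0]
  exact ⟨P, Kinv (Fin m) (Fin r) δ * Pᴴ, (Matrix.mul_eq_one_comm_of_equiv e').2 h1, h1, hP⟩

end exP

end Cfsg.Agent.Lib.SUPar
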