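import Cfsg.Agent.Lib.SUPar3
import Cfsg.Agent.Lib.UnTrans

/-!
# Generation of the special unitary group by the centre of the radical (helper39)
-/

set_option autoImplicit false
set_option linter.unusedSectionVars false
open Cfsg

namespace Cfsg.Agent.Lib.SUPar

open Matrix Cfsg.Agent.Lib.HermCount Cfsg.Agent.Lib.SpTrans Cfsg.Agent.Lib.UnTrans

section gen

variable {F : Type*} [Field F] {q : ℕ} {n : ℕ}

/-- `SU` as linear equivalences. -/
noncomputable def Lam : SU n F q →* ((Fin n → F) ≃ₗ[F] (Fin n → F)) :=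
  (GeoBridge.le (ι := Fin n)).toMonoidHom.comp (SpecialLinearGroup.toGL.comp (SU n F q).subtype)

theorem Lam_apply (A : SU n F q) (v : Fin n → F) : Lam A v = A.1.1 *ᵥ v := rfl

theorem Lam_injective : Function.Injective (Lam (F := F) (n := n) (q := q)) := by
  intro A B h
  apply Subtype.ext
  apply Subtype.ext
  apply Matrix.ext_of_mulVec_single
  intro i
  rw [← Lam_apply, ← Lam_apply, h]

theorem exists_Lam {g : (Fin n → F) ≃ₗ[F] (Fin n → F)} (hg : g ∈ isom (hermForm n F q))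
    (hdet : LinearMap.det (g : (Fin n → F) →ₗ[F] (Fin n → F)) = 1) : ∃ A : SU n F q, Lam A = g := by
  refine ⟨⟨⟨LinearMap.toMatrix' (g : (Fin n → F) →ₗ[F] (Fin n → F)), by
    rw [LinearMap.det_toMatrix', hdet]⟩, fun u v => ?_⟩, ?_⟩
  · change hermForm n F q (LinearMap.toMatrix' (g : (Fin n → F) →ₗ[F] (Fin n → F)) *ᵥ u)
      (LinearMap.toMatrix' (g : (Fin n → F) →ₗ[F] (Fin n → F)) *ᵥ v) = _
    rw [LinearMap.toMatrix'_mulVec, LinearMap.toMatrix'_mulVec]
    exact hg u v
  · ext1 x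
    rw [Lam_apply]
    exact LinearMap.toMatrix'_mulVec _ _

variable [Fintype F] [StarRing F] (hF : SF F q)
  {M R : Type*} [Fintype M] [DecidableEq M] [Fintype R] [DecidableEq R] {δ : F} (hδ : star δ = -δ)
  {P : Matrix (Fin n) ((M ⊕ R) ⊕ M) F} {P' : Matrix ((M ⊕ R) ⊕ M) (Fin n) F}
  (h1 : P * P' = 1) (h2 : P' * P = 1) (hP : Pᴴ * P = K M R δ)

include hF hP in
theorem form_P (u v : (M ⊕ R) ⊕ M → F) : hermForm n F q (P *ᵥ u) (P *ᵥ v) = star v ⬝ᵥ (K M R δ *ᵥ u) := by
  rw [hermForm_eq hF, Matrix.star_mulVec, ← Matrix.dotProduct_mulVec, Matrix.mulVec_mulVec, hP]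

theorem star_single {ι : Type*} [DecidableEq ι] (i : ι) : star (Pi.single i (1 : F) : ι → F) = Pi.single i 1 := by
  funext k
  rw [Pi.star_apply, Pi.single_apply]
  split_ifs <;> simp

include hF hP in
theorem form_P_single (u : (M ⊕ R) ⊕ M → F) (j : M) :
    hermForm n F q (P *ᵥ u) (P *ᵥ Pi.single (Sum.inl (Sum.inl j)) 1) = δ * u (Sum.inr j) := by
  rw [form_P hF hP, star_single, single_one_dotProduct, Matrix.mulVec, dotProduct, Fintype.sum_sum_type, Fintype.sum_sum_type]
  simp [K, blk, Matrix.one_apply]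

theorem Tri_single (j : M) (a : F) : Tri (R := R) δ 0 (Matrix.single j j a) = 1 + Matrix.single (Sum.inl (Sum.inl j)) (Sum.inr j) a := by
  ext x y
  rcases x with (x | x) | x <;> rcases y with (y | y) | y <;>
    simp [Tri, blk, Matrix.one_apply, Matrix.single_apply]

theorem Lam_toSU (A : Gp M R δ) (x : Fin n → F) : Lam (toSU hF h1 h2 hP A) x = P *ᵥ (A.1 *ᵥ (P' *ᵥ x)) := by
  rw [Lam_apply]
  change (P * A.1 * P') *ᵥ x = _
  rw [Matrix.mulVec_mulVec, Matrix.mulVec_mulVec]

/-- A homomorphism from `SU_n`, `n ≥ 4`, trivial on the centre of the radical is trivial. -/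
theorem eq_one_of_XM (hn : 4 ≤ n) (j : M) {H : Type*} [Monoid H] (f : SU n F q →* H)
    (hf : ∀ N, f (toSU hF h1 h2 hP (XM hδ N)) = 1) : ∀ A, f A = 1 := by
  have HH := UnBridge.herm_HS n hF.card
  have hnd := UnBridge.herm_nd n hF.card
  have h4 : 4 ≤ Module.finrank F (Fin n → F) := by rwa [Module.finrank_fin_fun]
  obtain ⟨κ, hκ⟩ := exists_kappa hF
  set e : Fin n → F := P *ᵥ Pi.single (Sum.inl (Sum.inl j)) 1 with he
  have he0 : e ≠ 0 := by
    intro h
    have h3 := congrArg (fun v => P' *ᵥ v) h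
    simp only [he, Matrix.mulVec_mulVec, h2, Matrix.one_mulVec, Matrix.mulVec_zero] at h3
    have := congrFun h3 (Sum.inl (Sum.inl j))
    simp at this
  have hee : hermForm n F q e e = 0 := by
    rw [he, form_P_single hF hP]; simp
  have key0 : ∀ (a : F) (ha : a + UnBridge.sig hF.card a = 0),
      ∃ N, Lam (toSU hF h1 h2 hP (XM hδ N)) = UnTrans.tv HH e hee a ha := by
    intro a ha
    have hsa : star a = -a := by
      rw [UnBridge.sig_apply] at ha
      rw [hF.star_eq]
      linear_combination ha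
    refine ⟨Matrix.single j j (κ * (a * δ)), ?_⟩
    ext1 x
    rw [Lam_toSU, UnTrans.tv_apply, XM_val]
    have e1 : Matrix.single j j (κ * (a * δ)) + (Matrix.single j j (κ * (a * δ)))ᴴ = Matrix.single j j (a * δ) := by
      rw [conjTranspose_single, ← single_add]
      congr 1
      rw [star_mul', star_mul', hsa, hδ]
      linear_combination (a * δ) * hκ
    rw [e1, Tri_single, Matrix.add_mulVec, Matrix.one_mulVec, Matrix.mulVec_add, Matrix.mulVec_mulVec, h1, Matrix.one_mulVec,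
      Matrix.single_mulVec]
    congr 1
    have e2 : hermForm n F q x e = δ * (P' *ᵥ x) (Sum.inr j) := by
      rw [← form_P_single hF hP, Matrix.mulVec_mulVec, h1, Matrix.one_mulVec]
    rw [e2]
    have e3 : Function.update (0 : (M ⊕ R) ⊕ M → F) (Sum.inl (Sum.inl j)) (a * δ * (P' *ᵥ x) (Sum.inr j)) =
        (a * (δ * (P' *ᵥ x) (Sum.inr j))) • Pi.single (Sum.inl (Sum.inl j)) 1 := by
      rw [← mul_assoc]
      funext k
      by_cases hk : k = Sum.inl (Sum.inl j)
      · subst hk; simp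
      · simp [hk]
    rw [e3, Matrix.mulVec_smul]
  have key : ∀ t ∈ UnTrans.tgrp HH ⊤, ∃ A, Lam A = t ∧ f A = 1 := by
    intro t ht
    induction ht using Subgroup.closure_induction with
    | mem t ht =>
      obtain ⟨w, -, hw, a, ha, rfl⟩ := ht
      by_cases hw0 : w = 0
      · subst hw0
        exact ⟨1, by rw [map_one, UnTrans.tv_zero_left], map_one f⟩
      · obtain ⟨t, ht, htw⟩ := UnTrans.exists_move HH hnd (by rwa [finrank_top]) (Submodule.mem_top (x := e))
          (Submodule.mem_top (x := w)) he0 hw0 (by rw [hee, hw])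
        obtain ⟨B, hB⟩ := exists_Lam (UnTrans.tgrp_le_isom HH _ ht) (UnTrans.tgrp_det HH ht)
        obtain ⟨N, hN⟩ := key0 a ha
        refine ⟨B * toSU hF h1 h2 hP (XM hδ N) * B⁻¹, ?_, ?_⟩
        · rw [map_mul, map_mul, map_inv, hN, hB]
          subst htw
          exact UnTrans.conj_tv HH (UnTrans.tgrp_le_isom HH _ ht) e hee a ha hw
        · have h6 : f B * f B⁻¹ = 1 := by rw [← map_mul, mul_inv_cancel, map_one]
          rw [map_mul, map_mul, hf, mul_one, h6]
    | one => exact ⟨1, map_one _, map_one f⟩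
    | mul x y _ _ hx hy =>
      obtain ⟨A, hA, hA'⟩ := hx
      obtain ⟨B, hB, hB'⟩ := hy
      exact ⟨A * B, by rw [map_mul, hA, hB], by rw [map_mul, hA', hB', mul_one]⟩
    | inv x _ hx =>
      obtain ⟨A, hA, hA'⟩ := hx
      refine ⟨A⁻¹, by rw [map_inv, hA], ?_⟩
      have : f A⁻¹ * f A = 1 := by rw [← map_mul, inv_mul_cancel, map_one]
      rwa [hA', mul_one] at this
  intro A
  have hA : Lam A ∈ isom (hermForm n F q) := fun u v => A.2 u v
  have hAd : LinearMap.det ((Lam A : (Fin n → F) ≃ₗ[F] (Fin n → F)) : (Fin n → F) →ₗ[F] (Fin n → F)) = 1 := by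
    have : ((Lam A : (Fin n → F) ≃ₗ[F] (Fin n → F)) : (Fin n → F) →ₗ[F] (Fin n → F)) = Matrix.toLin' A.1.1 := by
      ext1; rfl
    rw [this, LinearMap.det_toLin']
    exact A.1.2
  obtain ⟨B, hB, hB'⟩ := key _ (UnTrans.su_le HH hnd h4 hA hAd)
  rw [← Lam_injective hB, hB']

end gen

end Cfsg.Agent.Lib.SUPar
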