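import Cfsg.Agent.Lib.SUPar3

/-!
# Lower bounds for representations of the special unitary group (helper39)
-/

set_option autoImplicit false
set_option linter.unusedSectionVars false
open Cfsg

namespace Cfsg.Agent.Lib.SUPar

open Matrix Cfsg.Agent.Lib.HermCount Cfsg.Agent.Lib.MatChar

section char

variable {F : Type*} [Field F] [Fintype F] [StarRing F] {q : ℕ} (hF : SF F q)

include hF in
/-- A non-trivial additive character invariant under `star`. -/
theorem exists_star_char : ∃ lam : AddChar F ℂ, lam ≠ 1 ∧ ∀ x, lam (star x) = lam x := by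
  obtain ⟨s, hs⟩ := exists_trace hF
  obtain ⟨μ, hμ⟩ := exists_ne_one F
  obtain ⟨b, hb⟩ : ∃ b, μ ((s + star s) * b) ≠ 1 := by
    by_contra hcon
    push Not at hcon
    exact hs (eq_zero_of_forall hμ hcon)
  refine ⟨{ toFun := fun x => μ ((x + star x) * b)
            map_zero_eq_one' := by simp
            map_add_eq_mul' := fun x y => by
              rw [← AddChar.map_add_eq_mul]; congr 1; rw [star_add]; ring }, ?_, ?_⟩
  · intro h
    exact hb (DFunLike.congr_fun h s)
  · intro x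
    change μ ((star x + star (star x)) * b) = μ ((x + star x) * b)
    rw [star_star, add_comm]

end char

section lower

variable {F : Type*} [Field F] [Fintype F] [DecidableEq F] [StarRing F] {q : ℕ} (hF : SF F q) {n : ℕ}
  {M R : Type*} [Fintype M] [DecidableEq M] [Fintype R] [DecidableEq R] {δ κ : F} (hδ0 : δ ≠ 0) (hδ : star δ = -δ)
  (hκ : κ + star κ = 1)
  {P : Matrix (Fin n) ((M ⊕ R) ⊕ M) F} {P' : Matrix ((M ⊕ R) ⊕ M) (Fin n) F}
  (h1 : P * P' = 1) (h2 : P' * P = 1) (hP : Pᴴ * P = K M R δ)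
  {V : Type*} [AddCommGroup V] [Module ℂ V] [FiniteDimensional ℂ V] (ρ : Representation ℂ (SU n F q) V)

/-- The eigenspace for a character of the centre of the radical. -/
def Wpsi (ψ : AddChar (Matrix M M F) ℂ) : Submodule ℂ V where
  carrier := {w | ∀ N, ρ (toSU hF h1 h2 hP (XM hδ N)) w = ψ N • w}
  add_mem' := fun {x y} hx hy b => by rw [map_add, hx, hy, smul_add]
  zero_mem' := fun b => by simp
  smul_mem' := fun c x hx b => by rw [map_smul, hx, smul_comm]

theorem mem_Wpsi {ψ : AddChar (Matrix M M F) ℂ} {w : V} :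
    w ∈ Wpsi hF hδ h1 h2 hP ρ ψ ↔ ∀ N, ρ (toSU hF h1 h2 hP (XM hδ N)) w = ψ N • w := Iff.rfl

theorem rho_mul (x y : SU n F q) (w : V) : ρ x (ρ y w) = ρ (x * y) w := by rw [map_mul]; rfl

theorem rho_inj (x : SU n F q) {w : V} (h : ρ x w = 0) : w = 0 := by
  have h1 : ρ x⁻¹ (ρ x w) = w := by
    rw [rho_mul, inv_mul_cancel, map_one]; rfl
  rw [← h1, h, map_zero]

theorem Qc_mem (c : Matrix M R F) {ψ : AddChar (Matrix M M F) ℂ} : ∀ w ∈ Wpsi hF hδ h1 h2 hP ρ ψ,
    ρ (toSU hF h1 h2 hP (Qc hδ hκ c)) w ∈ Wpsi hF hδ h1 h2 hP ρ ψ := by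
  intro w hw N
  rw [rho_mul, ← map_mul, XM_Qc, map_mul, ← rho_mul, (mem_Wpsi hF hδ h1 h2 hP ρ).1 hw, map_smul]

/-- The eigenspaces have dimension at least `q` if `R` is non-empty. -/
theorem q_le_finrank {lam : AddChar F ℂ} (hlam : lam ≠ 1) {B : Matrix M M F} (hB0 : B ≠ 0) (r : R)
    (hW : Nontrivial (Wpsi hF hδ h1 h2 hP ρ (mchar lam B))) (hδ0 : δ ≠ 0) :
    q ≤ Module.finrank ℂ (Wpsi hF hδ h1 h2 hP ρ (mchar lam B)) := by
  classical
  obtain ⟨κ, hκ⟩ := exists_kappa hF
  obtain ⟨i, k, hik⟩ : ∃ i k, B i k ≠ 0 := by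
    by_contra h
    push Not at h
    exact hB0 (by ext i k; exact h i k)
  set W := Wpsi hF hδ h1 h2 hP ρ (mchar lam B) with hWdef
  let A : F → (W →ₗ[ℂ] W) := fun t => (ρ (toSU hF h1 h2 hP (Qc hδ hκ (Matrix.single i r t)))).restrict
    (Qc_mem hF hδ hκ h1 h2 hP ρ _)
  let S : Multiplicative F → (W →ₗ[ℂ] W) := fun s => (ρ (toSU hF h1 h2 hP (Qc hδ hκ (Matrix.single k r s.toAdd)))).restrict
    (Qc_mem hF hδ hκ h1 h2 hP ρ _)
  have hunit : ∀ c : Matrix M R F, IsUnit ((ρ (toSU hF h1 h2 hP (Qc hδ hκ c))).restrict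
      (Qc_mem hF hδ hκ h1 h2 hP ρ c (ψ := mchar lam B))) := by
    intro c
    rw [LinearMap.isUnit_iff_ker_eq_bot, LinearMap.ker_eq_bot']
    intro w hw
    exact Subtype.ext (rho_inj ρ _ (congrArg Subtype.val hw))
  have h := RepBound.card_le_finrank_sq A (fun t h => by
      have := hunit (Matrix.single i r t)
      change IsUnit (A t) at this
      rw [h] at this
      exact not_isUnit_zero this) S (fun s => hunit _)
    (fun t => { toFun := fun s => lam ((-δ * B i k * star t) * s.toAdd)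
                map_one' := by simp
                map_mul' := fun s s' => by
                  rw [← AddChar.map_add_eq_mul, toAdd_mul, mul_add] })
    (by
      intro t t' htt
      have h3 : ∀ s : F, lam ((-δ * B i k * star t - -δ * B i k * star t') * s) = 1 := by
        intro s
        have h4 := DFunLike.congr_fun htt (Multiplicative.ofAdd s)
        change lam ((-δ * B i k * star t) * s) = lam ((-δ * B i k * star t') * s) at h4
        rw [sub_mul, AddChar.map_sub_eq_div, h4, div_self (apply_ne_zero _ _)]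
      have h4 := eq_zero_of_forall hlam h3
      rw [← mul_sub] at h4
      have h5 := (mul_eq_zero.1 h4).resolve_left (mul_ne_zero (neg_ne_zero.2 hδ0) hik)
      exact star_injective (sub_eq_zero.1 h5))
    (by
      intro s t
      refine LinearMap.ext fun w => Subtype.ext ?_
      change ρ (toSU hF h1 h2 hP (Qc hδ hκ (Matrix.single k r s.toAdd))) (ρ (toSU hF h1 h2 hP (Qc hδ hκ (Matrix.single i r t))) w.1) =
        lam ((-δ * B i k * star t) * s.toAdd) •
          ρ (toSU hF h1 h2 hP (Qc hδ hκ (Matrix.single i r t))) (ρ (toSU hF h1 h2 hP (Qc hδ hκ (Matrix.single k r s.toAdd))) w.1)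
      rw [rho_mul, ← map_mul, Qc_comm, map_mul (toSU hF h1 h2 hP), map_mul (toSU hF h1 h2 hP), ← rho_mul, ← rho_mul,
        (mem_Wpsi hF hδ h1 h2 hP ρ).1 (Qc_mem hF hδ hκ h1 h2 hP ρ _ _ (Qc_mem hF hδ hκ h1 h2 hP ρ _ _ w.2))]
      congr 1
      rw [mchar_apply, conjTranspose_single, single_mul_single_same, Matrix.mul_smul, Matrix.trace_smul,
        Matrix.trace_mul_single, smul_eq_mul, op_smul_eq_mul]
      congr 1
      ring)
  rw [hF.card] at h
  exact (Nat.pow_le_pow_iff_left two_ne_zero).1 h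

include hδ0 in
theorem lower_bound (hne : ∃ N, ρ (toSU hF h1 h2 hP (XM hδ N)) ≠ 1) (S : Finset (GL M F)) (c w : ℕ)
    (hS : ∀ B : Matrix M M F, Bᴴ = B → B ≠ 0 → c ≤ (S.image (cg B)).card)
    (hD : ∀ g ∈ S, ∃ d : SU n F q, ∀ N, toSU hF h1 h2 hP (XM hδ N) * d = d * toSU hF h1 h2 hP (XM hδ (g.1 * N * (g.1)ᴴ)))
    (hw : w = 1 ∨ (w = q ∧ Nonempty R)) : c * w ≤ Module.finrank ℂ V := by
  classical
  obtain ⟨ψ, hψ, v, hv, hv2⟩ := RepBound.exists_eigen (fun N : Matrix M M F => ρ (toSU hF h1 h2 hP (XM hδ N)))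
    (fun a b => by rw [XM_add, map_mul, map_mul]) (by rw [XM_zero, map_one, map_one]) hne
  obtain ⟨lam, hlam, hlams⟩ := exists_star_char hF
  obtain ⟨B, hB⟩ := mchar_surjective hlam ψ
  have hBt : Bᴴ = B := by
    apply mchar_injective hlam
    ext N
    have h3 : ψ Nᴴ • v = ψ N • v := by rw [← hv2, ← hv2, XM_star]
    have h4 : ψ Nᴴ = ψ N := smul_left_injective ℂ hv h3
    rw [mchar_apply, ← hlams, ← Matrix.trace_conjTranspose, Matrix.conjTranspose_mul, Matrix.conjTranspose_conjTranspose,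
      Matrix.trace_mul_comm, ← mchar_apply, hB, h4]
  have hB0 : B ≠ 0 := by
    rintro rfl
    apply hψ
    rw [← hB]
    ext N
    rw [mchar_apply]; simp
  let W := Wpsi hF hδ h1 h2 hP ρ (mchar lam B)
  have hvW : v ∈ W := fun N => by rw [hv2, hB]
  have hWn : Nontrivial W := ⟨⟨⟨v, hvW⟩, 0, fun h => hv (congrArg Subtype.val h)⟩⟩
  have hwW : w ≤ Module.finrank ℂ W := by
    rcases hw with rfl | ⟨rfl, ⟨r⟩⟩
    · exact Module.finrank_pos
    · exact q_le_finrank hF hδ h1 h2 hP ρ hlam hB0 r hWn hδ0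
  let J := {N // N ∈ S.image (cg B)}
  have hJ : ∀ j : J, ∃ g ∈ S, cg B g = j.1 := by
    rintro ⟨N, hN⟩
    exact Finset.mem_image.1 hN
  choose g hgS hg using hJ
  choose d hd using hD
  have h := RepBound.card_mul_finrank_le (M := Multiplicative (Matrix M M F)) W
    (fun j : J => ρ (d (g j) (hgS j)))
    (fun j w _ h => rho_inj ρ _ h)
    (fun N => ρ (toSU hF h1 h2 hP (XM hδ N.toAdd)))
    (fun j => (mchar lam j.1).toMonoidHom)
    (fun j j' hjj' => by
      apply Subtype.ext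
      apply mchar_injective hlam
      exact DFunLike.ext _ _ fun x => DFunLike.congr_fun hjj' (Multiplicative.ofAdd x))
    (by
      intro N j w hw
      change ρ (toSU hF h1 h2 hP (XM hδ N.toAdd)) (ρ (d (g j) (hgS j)) w) = mchar lam j.1 N.toAdd • ρ (d (g j) (hgS j)) w
      rw [rho_mul, hd, ← rho_mul, (mem_Wpsi hF hδ h1 h2 hP ρ).1 hw, map_smul]
      congr 1
      rw [mchar_apply, mchar_apply, ← hg j, cg]
      congr 1
      rw [← Matrix.mul_assoc, ← Matrix.mul_assoc, Matrix.trace_mul_comm]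
      simp only [Matrix.mul_assoc])
  rw [Fintype.card_coe] at h
  exact (Nat.mul_le_mul (hS B hBt hB0) hwW).trans h

end lower

end Cfsg.Agent.Lib.SUPar
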