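import Cfsg.Agent.Lib.SUPar4
import Cfsg.Agent.Lib.SUPar5

/-!
# Lower bounds for representations of the special unitary group, dimension at least four (helper39)
-/

set_option autoImplicit false
set_option linter.unusedSectionVars false
open Cfsg

namespace Cfsg.Agent.Lib.SUPar

open Matrix Cfsg.Agent.Lib.HermCount Cfsg.Agent.Lib.MatChar

/-- `F` with `q²` elements as a star ring. -/
noncomputable def starOfCard {F : Type*} [Field F] [Fintype F] {q : ℕ} (h : Fintype.card F = q ^ 2) : StarRing F where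
  star x := UnBridge.sig h x
  star_involutive x := UnBridge.sig_inv h x
  star_mul a b := by rw [map_mul, mul_comm]
  star_add a b := map_add _ _ _

theorem SF_starOfCard {F : Type*} [Field F] [Fintype F] {q : ℕ} (h : Fintype.card F = q ^ 2) :
    @SF F _ _ (starOfCard h) q :=
  letI := starOfCard h
  ⟨h, fun x => UnBridge.sig_apply h x⟩

theorem lower_ge_four {F : Type*} [Field F] [Fintype F] [DecidableEq F] {q : ℕ} (hF : Fintype.card F = q ^ 2) {n m r : ℕ} (hn : n = 2 * m + r)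
    (hm : 2 ≤ m) {V : Type*} [AddCommGroup V] [Module ℂ V] [FiniteDimensional ℂ V] (ρ : Representation ℂ (SU n F q) V)
    (hρ : ρ.IsIrreducible) (hk : 2 ≤ Module.finrank ℂ V) (w : ℕ) (hw : w = 1 ∨ (w = q ∧ 0 < r)) :
    (q ^ (2 * m) - 1) / (q + 1) * w ≤ Module.finrank ℂ V := by
  letI := starOfCard hF
  have hSF : SF F q := SF_starOfCard hF
  obtain ⟨δ, hδ0, hδ, P, P', h1, h2, hP⟩ := exists_P hSF hn
  have hne : ∃ N, ρ (toSU hSF h1 h2 hP (XM hδ N)) ≠ 1 := by
    by_contra hcon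
    push Not at hcon
    have h3 := eq_one_of_XM hSF hδ h1 h2 hP (by omega) (⟨0, by omega⟩ : Fin m) ρ hcon
    have h4 := RepSchur.finrank_le_one_of_comm hρ (fun g h => by rw [h3, h3])
    omega
  have hij : (⟨0, by omega⟩ : Fin m) ≠ ⟨1, by omega⟩ := by simp
  have hs1 : star (1 : F) * 1 = 1 := by rw [star_one, one_mul]
  refine lower_bound hSF hδ0 hδ h1 h2 hP ρ hne (SLset F (Fin m)) ((q ^ (2 * m) - 1) / (q + 1)) w (fun B hB hB0 => ?_)
    (fun g hg => ?_) ?_
  · have := card_cg hSF hB hB0 hij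
    rwa [Fintype.card_fin] at this
  · have hgd := mem_SLset.1 hg
    have hgd' : ((g⁻¹).1).det = 1 := by
      have h3 : (g⁻¹ * g).1.det = 1 := by rw [inv_mul_cancel, Units.val_one, Matrix.det_one]
      rwa [Units.val_mul, Matrix.det_mul, hgd, mul_one] at h3
    refine ⟨toSU hSF h1 h2 hP (D g⁻¹ 1 hs1 (by rw [hgd', inv_inv, hgd]; simp)), fun N => ?_⟩
    rw [← map_mul, ← map_mul, D_XM]
    congr 3
    have h5 : ((g)⁻¹).1 * (g).1 = 1 := by rw [← Units.val_mul, inv_mul_cancel, Units.val_one]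
    have h6 : ((g).1)ᴴ * (((g)⁻¹).1)ᴴ = 1 := by rw [← Matrix.conjTranspose_mul, h5, Matrix.conjTranspose_one]
    calc N = (((g)⁻¹).1 * (g).1) * N * (((g).1)ᴴ * (((g)⁻¹).1)ᴴ) := by
          rw [h5, h6, Matrix.one_mul, Matrix.mul_one]
      _ = _ := by simp only [Matrix.mul_assoc]
  · rcases hw with h | ⟨h, h'⟩
    · exact Or.inl h
    · exact Or.inr ⟨h, ⟨⟨0, h'⟩⟩⟩

end Cfsg.Agent.Lib.SUPar
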