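import Cfsg.Agent.Lib.SUPar4
import Cfsg.Agent.Lib.SUPar5
import Cfsg.Agent.Lib.SUPar6

/-!
# SU₃(q), q ≥ 3: a homomorphism trivial on the centre of the radical has abelian image (helper39)
-/

set_option autoImplicit false
set_option linter.unusedSectionVars false
open Cfsg

namespace Cfsg.Agent.Lib.SUThree

open Matrix Cfsg.Agent.Lib.HermCount Cfsg.Agent.Lib.SUPar

abbrev I3 := (Fin 1 ⊕ Fin 1) ⊕ Fin 1

section mat

variable {F : Type*} [Field F] [StarRing F]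

def sc (x : F) : Matrix (Fin 1) (Fin 1) F := Matrix.of fun _ _ => x

theorem sc_apply (x : F) (i j : Fin 1) : sc x i j = x := rfl

def vec (α β γ : F) : I3 → F := Sum.elim (Sum.elim (fun _ => α) (fun _ => β)) (fun _ => γ)

theorem vec_eta (v : I3 → F) : v = vec (v (Sum.inl (Sum.inl 0))) (v (Sum.inl (Sum.inr 0))) (v (Sum.inr 0)) := by
  funext x
  rcases x with (x | x) | x <;> (have := Subsingleton.elim x 0; subst this; rfl)

def m3 (a b c d e f g h k : F) : Matrix I3 I3 F := blk (sc a) (sc b) (sc c) (sc d) (sc e) (sc f) (sc g) (sc h) (sc k)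

theorem m3_mulVec (a b c d e f g h k α β γ : F) : m3 a b c d e f g h k *ᵥ vec α β γ =
    vec (a * α + b * β + c * γ) (d * α + e * β + f * γ) (g * α + h * β + k * γ) := by
  funext x
  rcases x with (x | x) | x <;>
    simp [m3, vec, blk, Matrix.mulVec, dotProduct, Fintype.sum_sum_type, sc_apply]

theorem m3_mul (a b c d e f g h k a' b' c' d' e' f' g' h' k' : F) :
    m3 a b c d e f g h k * m3 a' b' c' d' e' f' g' h' k' =
    m3 (a * a' + b * d' + c * g') (a * b' + b * e' + c * h') (a * c' + b * f' + c * k')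
        (d * a' + e * d' + f * g') (d * b' + e * e' + f * h') (d * c' + e * f' + f * k')
        (g * a' + h * d' + k * g') (g * b' + h * e' + k * h') (g * c' + h * f' + k * k') := by
  rw [m3, m3, blk_mul, m3]
  congr 1 <;> (ext i j; simp [Matrix.mul_apply, sc_apply])

theorem m3_eta (A : Matrix I3 I3 F) {a b c d e f g h k : F} (h1 : A *ᵥ vec 1 0 0 = vec a d g)
    (h2 : A *ᵥ vec 0 1 0 = vec b e h) (h3 : A *ᵥ vec 0 0 1 = vec c f k) : A = m3 a b c d e f g h k := by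
  have e1 : ∀ v : I3 → F, A *ᵥ v = m3 a b c d e f g h k *ᵥ v := by
    intro v
    rw [vec_eta v]
    set α := v (Sum.inl (Sum.inl 0))
    set β := v (Sum.inl (Sum.inr 0))
    set γ := v (Sum.inr 0)
    have : vec α β γ = α • vec 1 0 0 + β • vec 0 1 0 + γ • (vec 0 0 1 : I3 → F) := by
      funext x
      rcases x with (x | x) | x <;> simp [vec]
    rw [this, Matrix.mulVec_add, Matrix.mulVec_add, Matrix.mulVec_smul, Matrix.mulVec_smul, Matrix.mulVec_smul, h1, h2, h3,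
      Matrix.mulVec_add, Matrix.mulVec_add, Matrix.mulVec_smul, Matrix.mulVec_smul, Matrix.mulVec_smul, m3_mulVec, m3_mulVec, m3_mulVec]
    simp
  apply Matrix.ext_of_mulVec_single
  intro i
  exact e1 _

/-- the form -/
theorem form_vec (δ α β γ α' β' γ' : F) : star (vec α' β' γ') ⬝ᵥ (K (Fin 1) (Fin 1) δ *ᵥ vec α β γ) =
    δ * (star α' * γ) + star β' * β - δ * (star γ' * α) := by
  simp [K, blk, vec, Matrix.mulVec, dotProduct, Fintype.sum_sum_type]
  ring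

theorem Gp_form {δ : F} (A : Gp (Fin 1) (Fin 1) δ) (u v : I3 → F) :
    star (A.1 *ᵥ v) ⬝ᵥ (K (Fin 1) (Fin 1) δ *ᵥ (A.1 *ᵥ u)) = star v ⬝ᵥ (K (Fin 1) (Fin 1) δ *ᵥ u) := by
  rw [Matrix.star_mulVec, ← Matrix.dotProduct_mulVec, Matrix.mulVec_mulVec, Matrix.mulVec_mulVec, Gp_pres]

end mat

section elems

variable {F : Type*} [Field F] [StarRing F] {δ : F} (hδ : star δ = -δ)

/-- unitriangular elements -/
def T (c S : F) (h : S - star S = -δ * (c * star c)) : Gp (Fin 1) (Fin 1) δ :=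
  ⟨Tri δ (sc c) (sc S), Tri_pres hδ (by
    ext i j
    simp only [Matrix.sub_apply, conjTranspose_apply, sc_apply, Matrix.smul_apply, Matrix.mul_apply, Finset.univ_unique, Finset.sum_const,
      Finset.card_singleton, one_smul, smul_eq_mul]
    exact h), Tri_det _ _⟩

theorem T_val (c S : F) (h : S - star S = -δ * (c * star c)) :
    (T hδ c S h).1 = m3 1 c S 0 1 (-δ * star c) 0 0 1 := by
  change Tri δ (sc c) (sc S) = _
  rw [Tri, m3]
  congr 1 <;> (ext i j; simp [sc_apply, Matrix.one_apply, Subsingleton.elim i j])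

/-- upper root elements -/
def Xs (s : F) (hs : star s = s) : Gp (Fin 1) (Fin 1) δ := T hδ 0 s (by rw [hs]; simp)

theorem Xs_val (s : F) (hs : star s = s) : (Xs hδ s hs).1 = m3 1 0 s 0 1 0 0 0 1 := by
  rw [Xs, T_val]; simp

/-- lower root elements -/
def Ys (s : F) (hs : star s = s) : Gp (Fin 1) (Fin 1) δ :=
  ⟨m3 1 0 0 0 1 0 s 0 1, by
    have h1 : (m3 1 0 0 0 1 0 s 0 1)ᴴ = m3 1 0 s 0 1 0 0 0 (1 : F) := by
      rw [m3, blk_conjTranspose, m3]
      congr 1 <;> (ext i j; simp [sc_apply, hs])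
    have h2 : K (Fin 1) (Fin 1) δ = m3 0 0 δ 0 1 0 (-δ) 0 0 := by
      rw [K, m3]
      congr 1 <;> (ext i j; simp [sc_apply, Matrix.one_apply, Subsingleton.elim i j])
    rw [h1, h2, m3_mul, m3_mul]
    congr 1 <;> ring, by
    rw [m3, blk]
    have h0 : fromRows (sc (0 : F)) (sc (0 : F)) = 0 := by
      ext i j; rcases i with i | i <;> simp [sc_apply]
    rw [h0, det_fromBlocks_zero₁₂]
    have h3 : sc (0 : F) = 0 := rfl
    have h4 : sc (1 : F) = 1 := by ext i j; simp [sc_apply, Matrix.one_apply, Subsingleton.elim i j]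
    rw [h3, h4, fromBlocks_one, det_one, det_one, one_mul]⟩

theorem Ys_val (s : F) (hs : star s = s) : (Ys (δ := δ) s hs).1 = m3 1 0 0 0 1 0 s 0 1 := rfl

/-- Weyl element -/
def w : Gp (Fin 1) (Fin 1) δ := Xs hδ (-1) (by simp) * Ys 1 (by simp) * Xs hδ (-1) (by simp)

theorem w_val : (w hδ).1 = m3 0 0 (-1) 0 1 0 1 0 0 := by
  change (Xs hδ (-1) _).1 * (Ys 1 _).1 * (Xs hδ (-1) _).1 = _
  rw [Xs_val, Ys_val, m3_mul, m3_mul]
  congr 1 <;> ring

theorem w_conj (s : F) (hs : star s = s) : w hδ * Xs hδ (-s) (by simp [hs]) = Ys s hs * w hδ := by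
  apply Subtype.ext
  change (w hδ).1 * (Xs hδ (-s) _).1 = (Ys s hs).1 * (w hδ).1
  rw [w_val, Xs_val, Ys_val, m3_mul, m3_mul]
  congr 1 <;> ring

/-- torus element -/
def ht (t : F) (ht : star t = t) : Gp (Fin 1) (Fin 1) δ :=
  Xs hδ t ht * Ys (-t⁻¹) (by simp [ht]) * Xs hδ t ht * w hδ

theorem ht_val (t : F) (h : star t = t) (h0 : t ≠ 0) : (ht hδ t h).1 = m3 t 0 0 0 1 0 0 0 t⁻¹ := by
  change (Xs hδ t _).1 * (Ys (-t⁻¹) _).1 * (Xs hδ t _).1 * (w hδ).1 = _
  rw [Xs_val, Ys_val, w_val, m3_mul, m3_mul, m3_mul]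
  congr 1 <;> field_simp <;> ring

end elems

section comm

variable {F : Type*} [Field F] [Fintype F] [StarRing F] {q : ℕ} (hF : SF F q) {n : ℕ} {δ : F} (hδ : star δ = -δ) (hδ0 : δ ≠ 0)
  {P : Matrix (Fin n) I3 F} {P' : Matrix I3 (Fin n) F}
  (h1 : P * P' = 1) (h2 : P' * P = 1) (hP : Pᴴ * P = K (Fin 1) (Fin 1) δ)
  {H : Type*} [Group H] (f : SU n F q →* H)

abbrev τ := toSU hF h1 h2 hP

include hF h1 h2 hP in
theorem mem_of_conj {a x y : Gp (Fin 1) (Fin 1) δ} (h : a * x = y * a) (hx : f (toSU hF h1 h2 hP x) = 1) :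
    f (toSU hF h1 h2 hP y) = 1 := by
  have h3 := congrArg (fun z => f (toSU hF h1 h2 hP z)) h
  simp only [map_mul, hx, mul_one] at h3
  exact mul_eq_right.1 h3.symm

variable (hX : ∀ N, f (toSU hF h1 h2 hP (XM hδ N)) = 1)

include hX

theorem Xs_mem (s : F) (hs : star s = s) : f (toSU hF h1 h2 hP (Xs hδ s hs)) = 1 := by
  obtain ⟨κ, hκ⟩ := exists_kappa hF
  rw [← hX (sc (κ * s))]
  congr 2
  apply Subtype.ext
  change Tri δ (sc 0) (sc s) = Tri δ 0 _
  congr 1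
  ext i j
  simp only [sc_apply, Matrix.add_apply, conjTranspose_apply, star_mul', hs]
  linear_combination (-s) * hκ

theorem Ys_mem (s : F) (hs : star s = s) : f (toSU hF h1 h2 hP (Ys s hs)) = 1 :=
  mem_of_conj hF h1 h2 hP f (w_conj hδ s hs) (Xs_mem hF hδ h1 h2 hP f hX _ _)

theorem w_mem : f (toSU hF h1 h2 hP (w hδ)) = 1 := by
  rw [w, map_mul, map_mul, map_mul, map_mul, Xs_mem hF hδ h1 h2 hP f hX, Ys_mem hF hδ h1 h2 hP f hX]
  simp

theorem ht_mem (t : F) (h : star t = t) : f (toSU hF h1 h2 hP (ht hδ t h)) = 1 := by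
  rw [ht, map_mul, map_mul, map_mul, map_mul, map_mul, map_mul, Xs_mem hF hδ h1 h2 hP f hX, Ys_mem hF hδ h1 h2 hP f hX,
    w_mem hF hδ h1 h2 hP f hX]
  simp

theorem T_mem (hq : 3 ≤ q) (c S : F) (h : S - star S = -δ * (c * star c)) : f (toSU hF h1 h2 hP (T hδ c S h)) = 1 := by
  obtain ⟨κ, hκ⟩ := exists_kappa hF
  -- an element t ≠ 0, 1 fixed by star
  obtain ⟨t, ht0, ht1, hts⟩ : ∃ t : F, t ≠ 0 ∧ t ≠ 1 ∧ star t = t := by
    have hc := card_fixed hF
    have h3 : 1 < (Polynomial.nthRootsFinset (q - 1) (1 : F)).card := by rw [hc]; omega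
    obtain ⟨t, ht, ht1⟩ := Finset.exists_mem_ne h3 1
    obtain ⟨h4, h5⟩ := (mem_fixed hF).1 ht
    exact ⟨t, h4, ht1, h5⟩
  have htm : t - 1 ≠ 0 := sub_ne_zero.2 ht1
  set c' := c / (t - 1) with hc'
  have hcc : c = (t - 1) * c' := by rw [hc']; field_simp
  have hsc : star c = (t - 1) * star c' := by rw [hcc, star_mul', star_sub, hts, star_one]
  set S' := -(κ * δ) * (c' * star c') with hS'
  have hS'' : S' - star S' = -δ * (c' * star c') := by
    rw [hS']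
    simp only [star_mul', star_neg, star_star, hδ]
    linear_combination (-δ * (c' * star c')) * hκ
  have hT2 : t ^ 2 * S' - star (t ^ 2 * S') = -δ * ((t * c') * star (t * c')) := by
    simp only [star_mul', star_pow, hts]
    linear_combination (t ^ 2) * hS''
  have e1 : ht hδ t hts * T hδ c' S' hS'' = T hδ (t * c') (t ^ 2 * S') hT2 * ht hδ t hts := by
    apply Subtype.ext
    change (ht hδ t hts).1 * (T hδ c' S' hS'').1 = (T hδ (t * c') (t ^ 2 * S') hT2).1 * (ht hδ t hts).1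
    rw [ht_val hδ t hts ht0, T_val, T_val, m3_mul, m3_mul, star_mul', hts]
    congr 1 <;> field_simp <;> ring
  have hr : star (t ^ 2 * S' - S - S' + δ * c * star c') = t ^ 2 * S' - S - S' + δ * c * star c' := by
    simp only [star_add, star_sub, star_mul', star_pow, hts, star_star, hδ]
    have h3 : star S = S + δ * (c * star c) := by linear_combination -h
    have h4 : star S' = S' + δ * (c' * star c') := by linear_combination -hS''
    rw [h3, h4, hsc, hcc]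
    ring
  have e2 : T hδ (t * c') (t ^ 2 * S') hT2 = Xs hδ _ hr * (T hδ c S h * T hδ c' S' hS'') := by
    apply Subtype.ext
    change (T hδ (t * c') (t ^ 2 * S') hT2).1 = (Xs hδ _ hr).1 * ((T hδ c S h).1 * (T hδ c' S' hS'').1)
    rw [T_val, T_val, T_val, Xs_val, m3_mul, m3_mul, star_mul', hts, hsc, hcc]
    congr 1 <;> ring
  have h3 := congrArg (fun z => f (toSU hF h1 h2 hP z)) e1
  simp only [map_mul, ht_mem hF hδ h1 h2 hP f hX, one_mul, mul_one] at h3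
  rw [e2, map_mul, map_mul, map_mul, map_mul, Xs_mem hF hδ h1 h2 hP f hX, one_mul] at h3
  exact mul_eq_right.1 h3.symm

omit hX in
/-- The first and third columns are isotropic. -/
theorem iso_col {A : Gp (Fin 1) (Fin 1) δ} {u : I3 → F} (hu : star u ⬝ᵥ (K (Fin 1) (Fin 1) δ *ᵥ u) = 0) {α β γ : F}
    (h : A.1 *ᵥ u = vec α β γ) : δ * (star α * γ) + star β * β - δ * (star γ * α) = 0 := by
  rw [← form_vec, ← h, Gp_form, hu]

include hδ0

/-- An isotropic vector with non-zero last coordinate can be moved to a multiple of the last basis vector. -/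
theorem move_last (hq : 3 ≤ q) {α β γ : F} (hiso : δ * (star α * γ) + star β * β - δ * (star γ * α) = 0) (hγ : γ ≠ 0) :
    ∃ ν : Gp (Fin 1) (Fin 1) δ, f (toSU hF h1 h2 hP ν) = 1 ∧ ν.1 *ᵥ vec α β γ = vec 0 0 γ ∧
      ν.1 *ᵥ vec 1 0 0 = vec 1 0 0 := by
  obtain ⟨κ, hκ⟩ := exists_kappa hF
  have hsγ : star γ ≠ 0 := by rwa [Ne, star_eq_zero]
  -- choose c with β - δ star c γ = 0
  obtain ⟨c, hc⟩ : ∃ c : F, star c = β / (δ * γ) := ⟨star (β / (δ * γ)), star_star _⟩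
  set S := -(κ * δ) * (c * star c) with hS
  have hS' : S - star S = -δ * (c * star c) := by
    rw [hS]
    simp only [star_mul', star_neg, star_star, hδ]
    linear_combination (-δ * (c * star c)) * hκ
  have hT := T_mem hF hδ h1 h2 hP f hX hq c S hS'
  have e1 : (T hδ c S hS').1 *ᵥ vec α β γ = vec (α + c * β + S * γ) 0 γ := by
    rw [T_val, m3_mulVec, hc]
    congr 1 <;> field_simp <;> ring
  set α' := α + c * β + S * γ with hα'
  have hiso' : δ * (star α' * γ) + star 0 * 0 - δ * (star γ * α') = 0 := by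
    have h3 := congrArg (fun v => star v ⬝ᵥ (K (Fin 1) (Fin 1) δ *ᵥ v)) e1
    rw [Gp_form, form_vec, form_vec, hiso] at h3
    exact h3.symm
  have hfix : star (-(α' / γ)) = -(α' / γ) := by
    rw [star_neg, star_div₀]
    congr 1
    rw [div_eq_div_iff hsγ hγ]
    have h3 : δ * (star α' * γ - α' * star γ) = 0 := by rw [star_zero] at hiso'; linear_combination hiso'
    exact sub_eq_zero.1 ((mul_eq_zero.1 h3).resolve_left hδ0)
  refine ⟨Xs hδ _ hfix * T hδ c S hS', ?_, ?_, ?_⟩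
  · rw [map_mul, map_mul, hT, Xs_mem hF hδ h1 h2 hP f hX, one_mul]
  · change ((Xs hδ _ hfix).1 * (T hδ c S hS').1) *ᵥ _ = _
    rw [← Matrix.mulVec_mulVec, e1, Xs_val, m3_mulVec]
    congr 1 <;> field_simp <;> ring
  · change ((Xs hδ _ hfix).1 * (T hδ c S hS').1) *ᵥ _ = _
    rw [← Matrix.mulVec_mulVec, T_val, m3_mulVec, Xs_val, m3_mulVec]
    congr 1 <;> ring

omit hX hδ0 [Fintype F] in
theorem K_vec : star (vec 1 0 0) ⬝ᵥ (K (Fin 1) (Fin 1) δ *ᵥ vec 1 0 0) = 0 ∧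
    star (vec 0 0 1) ⬝ᵥ (K (Fin 1) (Fin 1) δ *ᵥ vec 0 0 1) = 0 := by
  rw [form_vec, form_vec]; simp

/-- Every element is diagonal modulo the kernel. -/
theorem exists_diag (hq : 3 ≤ q) (A : Gp (Fin 1) (Fin 1) δ) :
    ∃ (ν : Gp (Fin 1) (Fin 1) δ) (x y z : F), f (toSU hF h1 h2 hP ν) = 1 ∧ (ν * A).1 = m3 x 0 0 0 y 0 0 0 z := by
  -- first step: fix the first line
  have step1 : ∃ (ν : Gp (Fin 1) (Fin 1) δ) (x : F), f (toSU hF h1 h2 hP ν) = 1 ∧ (ν * A).1 *ᵥ vec 1 0 0 = vec x 0 0 := by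
    have hv := vec_eta (A.1 *ᵥ vec 1 0 0)
    set α := (A.1 *ᵥ vec 1 0 0) (Sum.inl (Sum.inl 0))
    set β := (A.1 *ᵥ vec 1 0 0) (Sum.inl (Sum.inr 0))
    set γ := (A.1 *ᵥ vec 1 0 0) (Sum.inr 0)
    have hiso := iso_col (A := A) K_vec.1 hv
    by_cases hγ : γ = 0
    · refine ⟨1, α, by rw [map_one, map_one], ?_⟩
      have hβ : β = 0 := by
        rw [hγ] at hiso
        have h3 : star β * β = 0 := by rw [star_zero] at hiso; linear_combination hiso
        rcases mul_eq_zero.1 h3 with h4 | h4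
        · rwa [star_eq_zero] at h4
        · exact h4
      rw [one_mul, hv, hβ, hγ]
    · obtain ⟨ν, hν, hν1, -⟩ := move_last hF hδ hδ0 h1 h2 hP f hX hq hiso hγ
      refine ⟨w hδ * ν, -γ, ?_, ?_⟩
      · rw [map_mul, map_mul, hν, w_mem hF hδ h1 h2 hP f hX, one_mul]
      · change ((w hδ).1 * ν.1 * A.1) *ᵥ _ = _
        rw [← Matrix.mulVec_mulVec, ← Matrix.mulVec_mulVec, hv, hν1, w_val, m3_mulVec]
        congr 1 <;> ring
  obtain ⟨ν₁, x, hν₁, hx⟩ := step1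
  set A₁ := ν₁ * A with hA₁
  have hab : star (vec 1 0 0) ⬝ᵥ (K (Fin 1) (Fin 1) δ *ᵥ vec 0 0 1) = δ := by rw [form_vec]; simp
  have hv := vec_eta (A₁.1 *ᵥ vec 0 0 1)
  set α := (A₁.1 *ᵥ vec 0 0 1) (Sum.inl (Sum.inl 0))
  set β := (A₁.1 *ᵥ vec 0 0 1) (Sum.inl (Sum.inr 0))
  set γ := (A₁.1 *ᵥ vec 0 0 1) (Sum.inr 0)
  have h3 : δ * (star x * γ) = δ := by
    have h5 := Gp_form A₁ (vec 0 0 1) (vec 1 0 0)
    rw [hx, hv, form_vec, form_vec] at h5
    simp only [star_zero, star_one, zero_mul, mul_zero, add_zero, sub_zero, one_mul, mul_one] at h5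
    exact h5
  have hγ : γ ≠ 0 := by
    intro h0
    rw [h0] at h3
    exact hδ0 (by rw [← h3]; ring)
  have hxn : star x ≠ 0 := by
    intro h0
    rw [h0] at h3
    exact hδ0 (by rw [← h3]; ring)
  have hiso := iso_col (A := A₁) K_vec.2 hv
  obtain ⟨ν₂, hν₂, hν2a, hν2b⟩ := move_last hF hδ hδ0 h1 h2 hP f hX hq hiso hγ
  set A₂ := ν₂ * A₁ with hA₂
  have ha : A₂.1 *ᵥ vec 1 0 0 = vec x 0 0 := by
    change (ν₂.1 * A₁.1) *ᵥ _ = _
    rw [← Matrix.mulVec_mulVec, hx]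
    have : vec x 0 0 = x • (vec 1 0 0 : I3 → F) := by
      funext i
      rcases i with (i | i) | i <;> simp [vec]
    rw [this, Matrix.mulVec_smul, hν2b]
  have hb : A₂.1 *ᵥ vec 0 0 1 = vec 0 0 γ := by
    change (ν₂.1 * A₁.1) *ᵥ _ = _
    rw [← Matrix.mulVec_mulVec, hv, hν2a]
  have hz := vec_eta (A₂.1 *ᵥ vec 0 1 0)
  set α₂ := (A₂.1 *ᵥ vec 0 1 0) (Sum.inl (Sum.inl 0))
  set β₂ := (A₂.1 *ᵥ vec 0 1 0) (Sum.inl (Sum.inr 0))
  set γ₂ := (A₂.1 *ᵥ vec 0 1 0) (Sum.inr 0)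
  have h4 : δ * (star x * γ₂) = 0 := by
    have h5 := Gp_form A₂ (vec 0 1 0) (vec 1 0 0)
    rw [ha, hz, form_vec, form_vec] at h5
    simpa using h5
  have hγ₂ : γ₂ = 0 := by
    rcases mul_eq_zero.1 h4 with h5 | h5
    · exact absurd h5 hδ0
    · exact (mul_eq_zero.1 h5).resolve_left hxn
  have h6 : δ * (star γ * α₂) = 0 := by
    have h5 := Gp_form A₂ (vec 0 1 0) (vec 0 0 1)
    rw [hb, hz, form_vec, form_vec] at h5
    simpa using h5
  have hα₂ : α₂ = 0 := by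
    rcases mul_eq_zero.1 h6 with h5 | h5
    · exact absurd h5 hδ0
    · exact (mul_eq_zero.1 h5).resolve_left (fun h => hγ (star_eq_zero.1 h))
  refine ⟨ν₂ * ν₁, x, β₂, γ, ?_, ?_⟩
  · rw [map_mul, map_mul, hν₁, hν₂, one_mul]
  · rw [mul_assoc]
    change A₂.1 = _
    rw [hα₂, hγ₂] at hz
    exact m3_eta _ ha hz hb

theorem comm (hq : 3 ≤ q) (A B : SU n F q) : f A * f B = f B * f A := by
  have hsurj : ∀ A : SU n F q, ∃ A' : Gp (Fin 1) (Fin 1) δ, toSU hF h1 h2 hP A' = A := by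
    intro A
    have hA := (mem_SU hF A.1).1 A.2
    have hPP : P' = Kinv (Fin 1) (Fin 1) δ * Pᴴ := by
      calc P' = (Kinv (Fin 1) (Fin 1) δ * (Pᴴ * P)) * P' := by rw [hP, Kinv_mul_K hδ0, Matrix.one_mul]
        _ = Kinv (Fin 1) (Fin 1) δ * Pᴴ * (P * P') := by simp only [Matrix.mul_assoc]
        _ = _ := by rw [h1, Matrix.mul_one]
    have hK : P'ᴴ * K (Fin 1) (Fin 1) δ * P' = 1 := by
      rw [← hP]
      calc P'ᴴ * (Pᴴ * P) * P' = (P * P')ᴴ * (P * P') := by rw [conjTranspose_mul]; simp only [Matrix.mul_assoc]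
        _ = 1 := by rw [h1]; simp
    refine ⟨⟨P' * A.1.1 * P, ?_, ?_⟩, ?_⟩
    · calc (P' * A.1.1 * P)ᴴ * K (Fin 1) (Fin 1) δ * (P' * A.1.1 * P) =
          Pᴴ * ((A.1.1)ᴴ * (P'ᴴ * K (Fin 1) (Fin 1) δ * P') * A.1.1) * P := by
            rw [conjTranspose_mul, conjTranspose_mul]; simp only [Matrix.mul_assoc]
        _ = K (Fin 1) (Fin 1) δ := by rw [hK, Matrix.mul_one, hA, Matrix.mul_one, hP]
    · rw [det_conj_of_mul_eq_one h2 h1]; exact A.1.2
    · apply Subtype.ext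
      apply Subtype.ext
      change P * (P' * A.1.1 * P) * P' = A.1.1
      calc P * (P' * A.1.1 * P) * P' = (P * P') * A.1.1 * (P * P') := by simp only [Matrix.mul_assoc]
        _ = A.1.1 := by rw [h1, Matrix.one_mul, Matrix.mul_one]
  obtain ⟨A, rfl⟩ := hsurj A
  obtain ⟨B, rfl⟩ := hsurj B
  obtain ⟨ν, x, y, z, hν, hA⟩ := exists_diag hF hδ hδ0 h1 h2 hP f hX hq A
  obtain ⟨ν', x', y', z', hν', hB⟩ := exists_diag hF hδ hδ0 h1 h2 hP f hX hq B
  have e1 : f (toSU hF h1 h2 hP A) = f (toSU hF h1 h2 hP (ν * A)) := by rw [map_mul, map_mul, hν, one_mul]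
  have e2 : f (toSU hF h1 h2 hP B) = f (toSU hF h1 h2 hP (ν' * B)) := by rw [map_mul, map_mul, hν', one_mul]
  rw [e1, e2, ← map_mul, ← map_mul, ← map_mul, ← map_mul]
  congr 2
  apply Subtype.ext
  change (ν * A).1 * (ν' * B).1 = (ν' * B).1 * (ν * A).1
  rw [hA, hB, m3_mul, m3_mul]
  congr 1 <;> ring

end comm

end Cfsg.Agent.Lib.SUThree
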