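import Cfsg.Agent.Lib.SUThree

/-!
# SU₃(q), q ≥ 3: lower bound (helper39)
-/

set_option autoImplicit false
set_option linter.unusedSectionVars false
open Cfsg

namespace Cfsg.Agent.Lib.SUThree

open Matrix Cfsg.Agent.Lib.HermCount Cfsg.Agent.Lib.SUPar

theorem lower_three {F : Type*} [Field F] [Fintype F] [DecidableEq F] {q : ℕ} (hF : Fintype.card F = q ^ 2) {n : ℕ} (hn : n = 3)
    (hq : 3 ≤ q) {V : Type*} [AddCommGroup V] [Module ℂ V] [FiniteDimensional ℂ V] (ρ : Representation ℂ (SU n F q) V)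
    (hρ : ρ.IsIrreducible) (hk : 2 ≤ Module.finrank ℂ V) :
    (q ^ 2 - 1) / (q + 1) * q ≤ Module.finrank ℂ V := by
  letI := starOfCard hF
  have hSF : SF F q := SF_starOfCard hF
  obtain ⟨δ, hδ0, hδ, P, P', h1, h2, hP⟩ := exists_P (m := 1) (r := 1) hSF (by omega : n = 2 * 1 + 1)
  have hne : ∃ N, ρ (toSU hSF h1 h2 hP (XM hδ N)) ≠ 1 := by
    by_contra hcon
    push Not at hcon
    have h3 : ∀ A B, ρ.toHomUnits A * ρ.toHomUnits B = ρ.toHomUnits B * ρ.toHomUnits A :=
      comm hSF hδ hδ0 h1 h2 hP ρ.toHomUnits (fun N => Units.ext (hcon N)) hq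
    have h4 := RepSchur.finrank_le_one_of_comm hρ (fun g h => congrArg Units.val (h3 g h))
    omega
  refine lower_bound hSF hδ0 hδ h1 h2 hP ρ hne Finset.univ ((q ^ 2 - 1) / (q + 1)) q (fun B hB hB0 => ?_)
    (fun g hg => ?_) (Or.inr ⟨rfl, ⟨0⟩⟩)
  · rcases dichotomy hSF hB hB0 with ⟨y, hy, hBy⟩ | ⟨x, y, hx, hxy, hy⟩
    · have := card_cg_one hSF hy hBy Finset.univ (fun z hz => by
        obtain ⟨g, hg⟩ := SymCount.exists_map y z hy hz
        have hdet : IsUnit ((g : Matrix (Fin 1) (Fin 1) F)ᴴ).det := by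
          rw [Matrix.det_conjTranspose]
          have h3 := ((Matrix.isUnit_iff_isUnit_det _).1 g.isUnit).ne_zero
          exact (star_ne_zero.2 h3).isUnit
        refine ⟨Matrix.GeneralLinearGroup.mk'' ((g : Matrix (Fin 1) (Fin 1) F)ᴴ) hdet, Finset.mem_univ _, ?_⟩
        change ((g : Matrix (Fin 1) (Fin 1) F)ᴴ)ᴴ *ᵥ y = z
        rw [Matrix.conjTranspose_conjTranspose, hg])
      rwa [Fintype.card_fin, mul_one] at this
    · exfalso
      have e1 : ∀ u v : Fin 1 → F, h B u v = star (u 0) * (B 0 0 * v 0) := by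
        intro u v
        simp [HermCount.h, dotProduct, Matrix.mulVec]
      rw [e1] at hx hxy
      have hx0 : star (x 0) ≠ 0 := by
        intro h0
        rw [h0, zero_mul] at hxy
        exact zero_ne_one hxy
      have hx1 : x 0 ≠ 0 := star_ne_zero.1 hx0
      have hB00 : B 0 0 = 0 := by
        have h3 := (mul_eq_zero.1 hx).resolve_left hx0
        exact (mul_eq_zero.1 h3).resolve_right hx1
      rw [hB00] at hxy
      simp at hxy
  · set t := (g.1).det with ht
    have ht0 : t ≠ 0 := ((Matrix.isUnit_iff_isUnit_det _).1 g.isUnit).ne_zero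
    have hst : star t ≠ 0 := star_ne_zero.2 ht0
    have hgd' : ((g⁻¹).1).det = t⁻¹ := by
      have h3 : (g⁻¹ * g).1.det = 1 := by rw [inv_mul_cancel, Units.val_one, Matrix.det_one]
      rw [Units.val_mul, Matrix.det_mul] at h3
      exact eq_inv_of_mul_eq_one_left h3
    refine ⟨toSU hSF h1 h2 hP (D g⁻¹ (t / star t) ?_ ?_), fun N => ?_⟩
    · rw [star_div₀, star_star, div_mul_div_comm, mul_comm, div_self (mul_ne_zero ht0 hst)]
    · rw [hgd', inv_inv, Fintype.card_fin, pow_one, ← ht]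
      field_simp
    · rw [← map_mul, ← map_mul, D_XM]
      congr 3
      have h5 : ((g)⁻¹).1 * (g).1 = 1 := by rw [← Units.val_mul, inv_mul_cancel, Units.val_one]
      have h6 : ((g).1)ᴴ * (((g)⁻¹).1)ᴴ = 1 := by rw [← Matrix.conjTranspose_mul, h5, Matrix.conjTranspose_one]
      calc N = (((g)⁻¹).1 * (g).1) * N * (((g).1)ᴴ * (((g)⁻¹).1)ᴴ) := by
            rw [h5, h6, Matrix.one_mul, Matrix.mul_one]
        _ = _ := by simp only [Matrix.mul_assoc]

end Cfsg.Agent.Lib.SUThree
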