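import Cfsg.Agent.Lib.SfN
import Cfsg.Agent.Lib.PReduced

/-!
# Solvable `S₄`-free groups acting on a normal elementary abelian 2-subgroup (helper47)
-/

set_option autoImplicit false
set_option linter.unusedSectionVars false

namespace Cfsg.Agent.Lib.SfAct

open Subgroup Cfsg.Agent.Lib.H34SolvOff Cfsg.Agent.Lib.SfN Cfsg.Agent.Lib.LocBase

section type

variable {Γ : Type*} [Group Γ] [Finite Γ]

/-- the conjugation action -/
abbrev rho (V : Subgroup Γ) [V.Normal] : Γ →* MulAut V := MulAut.conjNormal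

theorem rho_apply (V : Subgroup Γ) [V.Normal] (g : Γ) (v : V) : ((rho V g v : V) : Γ) = g * v * g⁻¹ :=
  MulAut.conjNormal_apply g v

theorem ker_rho (V : Subgroup Γ) [V.Normal] : (rho V).ker = centralizer (V : Set Γ) := by
  ext g
  rw [MonoidHom.mem_ker, mem_centralizer_iff]
  constructor
  · intro h v hv
    have h1 := rho_apply V g ⟨v, hv⟩
    rw [h] at h1
    have h2 : v = g * v * g⁻¹ := h1
    rw [eq_mul_inv_iff_mul_eq] at h2
    exact h2
  · intro h
    ext v
    rw [rho_apply]
    have := h v v.2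
    rw [MulAut.one_apply, ← this, mul_inv_cancel_right]

/-- the standing situation -/
structure Good (V : Subgroup Γ) : Prop where
  comm : ∀ u ∈ V, ∀ v ∈ V, u * v = v * u
  two : ∀ v ∈ V, v * v = 1
  sol : Group.IsSolvable Γ
  free : ¬ Cfsg.Involves (Equiv.Perm (Fin 4)) Γ
  core : ∀ D : Subgroup Γ, D.Normal → pRes 2 D ≤ centralizer (V : Set Γ) → D ≤ centralizer (V : Set Γ)

variable {V : Subgroup Γ} [V.Normal]

theorem Good.comm' (h : Good V) : ∀ u v : V, u * v = v * u := fun u v => Subtype.ext (h.comm u u.2 v v.2)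

theorem Good.two' (h : Good V) : ∀ v : V, v * v = 1 := fun v => Subtype.ext (h.two v v.2)

theorem Good.noInv (h : Good V) : NoInv (rho V).range := by
  classical
  intro b hb x hx hbb hx3 hinv
  by_contra hx1
  let _ : CommGroup V := { (inferInstance : Group V) with mul_comm := h.comm' }
  obtain ⟨W, hW4, hWx, hWb, hfpf, -⟩ := S4Plane.exists_plane h.two' b x hbb hx1 hx3 hinv
  exact h.free (H34S4.involves_S4_of_aut V (isPGroup_V h.two') b x hb hx W hx1 hx3 hinv hW4 hWx hWb hfpf)

theorem Good.core' (h : Good V) : Cfsg.pCore 2 (rho V).range = ⊥ := by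
  classical
  have h2p : Fact (Nat.Prime 2) := ⟨Nat.prime_two⟩
  set R := (rho V).range with hR
  set D : Subgroup Γ := (Cfsg.pCore 2 R).comap (rho V).rangeRestrict with hD
  have hDn : D.Normal := by
    have : (Cfsg.pCore 2 R).Normal := pCore_normal _ _
    infer_instance
  have hpD : pRes 2 D ≤ centralizer (V : Set Γ) := by
    rw [pRes_le_iff]
    intro x hx ho
    rw [← ker_rho, MonoidHom.mem_ker]
    have h1 : (rho V).rangeRestrict x = 1 := by
      refine eq_one_of_isPGroup_of_pow (isPGroup_pCore 2 R) (mem_comap.mp hx) ho ?_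
      rw [← map_pow, pow_orderOf_eq_one, map_one]
    exact congrArg Subtype.val h1
  have h3 := h.core D hDn hpD
  rw [eq_bot_iff]
  intro y hy
  obtain ⟨g, rfl⟩ := (rho V).rangeRestrict_surjective y
  have h4 := h3 (mem_comap.mpr hy)
  rw [← ker_rho, MonoidHom.mem_ker] at h4
  rw [mem_bot]
  exact Subtype.ext h4

theorem card_fixSub (A : Subgroup Γ) : Nat.card (fixSub (A.map (rho V))) = Nat.card ↥(V ⊓ centralizer (A : Set Γ)) := by
  have h1 : (fixSub (A.map (rho V))).map V.subtype = V ⊓ centralizer (A : Set Γ) := by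
    ext x
    constructor
    · rintro ⟨v, hv, rfl⟩
      refine ⟨v.2, mem_centralizer_iff.mpr ?_⟩
      intro a ha
      have h2 := hv _ ⟨a, ha, rfl⟩
      have h3 := rho_apply V a v
      rw [h2] at h3
      exact (eq_mul_inv_iff_mul_eq.mp h3).symm
    · rintro ⟨hx, hc⟩
      refine ⟨⟨x, hx⟩, ?_, rfl⟩
      rintro _ ⟨a, ha, rfl⟩
      apply Subtype.ext
      rw [rho_apply, mem_centralizer_iff.mp hc a ha, mul_inv_cancel_right]
  rw [← h1, Subgroup.card_map_of_injective V.subtype_injective]

theorem card_map_rho (A : Subgroup Γ) : Nat.card (A.map (rho V)) = (A ⊓ centralizer (V : Set Γ)).relIndex A := by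
  rw [inf_comm, Subgroup.inf_relIndex_right, ← ker_rho, Subgroup.relIndex_ker]

theorem Good.bound (h : Good V) (A : Subgroup Γ) (hA : ∀ a ∈ A, a * a ∈ centralizer (V : Set Γ)) :
    ((A ⊓ centralizer (V : Set Γ)).relIndex A) ^ 2 * Nat.card ↥(V ⊓ centralizer (A : Set Γ)) ≤ Nat.card V ∧
    (¬ A ≤ centralizer (V : Set Γ) →
      ((A ⊓ centralizer (V : Set Γ)).relIndex A) ^ 2 * Nat.card ↥(V ⊓ centralizer (A : Set Γ)) = Nat.card V →
      ∃ t ∈ A, t ∉ centralizer (V : Set Γ) ∧ Nat.card V ≤ 4 * Nat.card ↥(V ⊓ centralizer ((zpowers t : Subgroup Γ) : Set Γ))) := by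
  have hsol : Group.IsSolvable (rho V).range := by
    have := h.sol
    exact Group.isSolvable_of_surjective (rho V).rangeRestrict_surjective
  have hle : A.map (rho V) ≤ (rho V).range := by
    rintro _ ⟨a, _, rfl⟩
    exact ⟨a, rfl⟩
  have hsq : ∀ a ∈ A.map (rho V), a * a = 1 := by
    rintro _ ⟨a, ha, rfl⟩
    have := hA a ha
    rw [← ker_rho, MonoidHom.mem_ker, map_mul] at this
    exact this
  obtain ⟨h1, h2⟩ := SfN.main h.comm' h.two' hsol h.core' h.noInv _ (A.map (rho V)) rfl hle hsq
  rw [card_fixSub, card_map_rho] at h1 h2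
  refine ⟨h1, fun hne heq => ?_⟩
  have hne' : A.map (rho V) ≠ ⊥ := by
    intro hb
    apply hne
    intro a ha
    rw [← ker_rho, MonoidHom.mem_ker]
    have : rho V a ∈ A.map (rho V) := ⟨a, ha, rfl⟩
    rw [hb, mem_bot] at this
    exact this
  obtain ⟨_, ⟨t, ht, rfl⟩, ht1, htc⟩ := h2 hne' heq
  refine ⟨t, ht, ?_, ?_⟩
  · rw [← ker_rho, MonoidHom.mem_ker]; exact ht1
  · have e : zpowers (rho V t) = (zpowers t).map (rho V) := by rw [MonoidHom.map_zpowers]
    rw [e, card_fixSub] at htc
    exact htc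

end type

section ambient

variable {G : Type*} [Group G] [Finite G]

theorem isSolvable_subgroup {P K : Subgroup G} (h : Group.IsSolvable P) (hK : K ≤ P) : Group.IsSolvable K := by
  have := h
  exact Group.isSolvable_of_isSolvable_injective (f := Subgroup.inclusion hK) (Subgroup.inclusion_injective hK)

theorem involves_mono {H : Type*} [Group H] {P K : Subgroup G} (hK : K ≤ P) (h : Cfsg.Involves H ↥K) :
    Cfsg.Involves H ↥P := by
  obtain ⟨A, R, hR, ⟨e⟩⟩ := h
  let f := Subgroup.inclusion hK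
  let g : ↥(A.map f) →* H := (e.toMonoidHom.comp (QuotientGroup.mk' _)).comp
    (A.equivMapOfInjective f (Subgroup.inclusion_injective hK)).symm.toMonoidHom
  refine H34S4.involves_of_surj (A.map f) g ?_
  exact (e.surjective.comp (QuotientGroup.mk'_surjective _)).comp (MulEquiv.surjective _)

/-- the ambient situation -/
theorem good_subgroupOf {P V : Subgroup G} (hs : Group.IsSolvable P) (hf : ¬ Cfsg.Involves (Equiv.Perm (Fin 4)) P)
    (h : PReduced.PRed 2 V P) : Good (V.subgroupOf P) where
  comm := by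
    intro u hu v hv
    apply Subtype.ext
    exact (mem_centralizer_iff.mp ((PReduced.elem_iff.mp h.elem).1 hv) _ hu)
  two := by
    intro v hv
    apply Subtype.ext
    have := (PReduced.elem_iff.mp h.elem).2 _ hv
    rw [pow_two] at this
    exact this
  sol := hs
  free := hf
  core := by
    have h2p : Fact (Nat.Prime 2) := ⟨Nat.prime_two⟩
    intro D hD hp
    rw [PReduced.map_subtype_le_centralizer_iff] at hp ⊢
    rw [PReduced.map_subtype_pRes] at hp
    rw [Subgroup.map_subgroupOf_eq_of_le h.le] at hp ⊢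
    exact h.red _ (map_subtype_le D) (PReduced.normal_iff_le_normalizer_map.mp hD) hp

theorem centralizer_subgroupOf {P A : Subgroup G} (hA : A ≤ P) :
    centralizer ((A.subgroupOf P : Subgroup P) : Set P) = (centralizer (A : Set G)).subgroupOf P := by
  ext x
  rw [mem_centralizer_iff, mem_subgroupOf, mem_centralizer_iff]
  constructor
  · intro h a ha
    exact congrArg Subtype.val (h ⟨a, hA ha⟩ ha)
  · intro h a ha
    exact Subtype.ext (h a ha)

/-- **property N** -/
theorem bound_of_PRed {P V : Subgroup G} (hs : Group.IsSolvable P) (hf : ¬ Cfsg.Involves (Equiv.Perm (Fin 4)) P)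
    (h : PReduced.PRed 2 V P) {A : Subgroup G} (hAP : A ≤ P) (hA : ∀ a ∈ A, a * a ∈ centralizer (V : Set G)) :
    ((A ⊓ centralizer (V : Set G)).relIndex A) ^ 2 ≤ (V ⊓ centralizer (A : Set G)).relIndex V := by
  have hg := good_subgroupOf hs hf h
  have hn : (V.subgroupOf P).Normal := by
    rw [normal_subgroupOf_iff_le_normalizer h.le]; exact h.norm
  have h1 := (hg.bound (A.subgroupOf P) (by
    intro a ha
    rw [centralizer_subgroupOf h.le]
    exact hA _ ha)).1
  rw [centralizer_subgroupOf h.le, centralizer_subgroupOf hAP] at h1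
  have e1 : (A.subgroupOf P ⊓ (centralizer (V : Set G)).subgroupOf P).relIndex (A.subgroupOf P) =
      (A ⊓ centralizer (V : Set G)).relIndex A := by
    have : A.subgroupOf P ⊓ (centralizer (V : Set G)).subgroupOf P = (A ⊓ centralizer (V : Set G)).subgroupOf P := rfl
    rw [this, Subgroup.relIndex_subgroupOf hAP]
  have e2 : Nat.card ↥(V.subgroupOf P ⊓ (centralizer (A : Set G)).subgroupOf P) = Nat.card ↥(V ⊓ centralizer (A : Set G)) := by
    have : V.subgroupOf P ⊓ (centralizer (A : Set G)).subgroupOf P = (V ⊓ centralizer (A : Set G)).subgroupOf P := rfl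
    rw [this]
    exact Nat.card_congr (Subgroup.subgroupOfEquivOfLe (inf_le_left.trans h.le)).toEquiv
  have e3 : Nat.card ↥(V.subgroupOf P) = Nat.card V :=
    Nat.card_congr (Subgroup.subgroupOfEquivOfLe h.le).toEquiv
  rw [e1, e2, e3] at h1
  have h4 : Nat.card ↥(V ⊓ centralizer (A : Set G)) * (V ⊓ centralizer (A : Set G)).relIndex V = Nat.card V := by
    have := Subgroup.relIndex_mul_relIndex (⊥ : Subgroup G) (V ⊓ centralizer (A : Set G)) V bot_le inf_le_left
    rwa [Subgroup.relIndex_bot_left, Subgroup.relIndex_bot_left] at this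
  rw [← h4, mul_comm] at h1
  exact Nat.le_of_mul_le_mul_left h1 Nat.card_pos

end ambient

end Cfsg.Agent.Lib.SfAct
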