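import Cfsg.Agent.Lib.SfRel

/-!
# The amalgam argument for `S₄`-free groups (helper47)
-/

set_option autoImplicit false
set_option linter.unusedSectionVars false

namespace Cfsg.Agent.Lib.SfAmal

open Subgroup Cfsg Cfsg.Agent.Lib.SfAct Cfsg.Agent.Lib.LocBase Cfsg.Agent.Lib.SfMin Cfsg.Agent.Lib.PReduced
open Cfsg.Agent.Lib.SfRel
open scoped commutatorElement

variable {G : Type*} [Group G]

/-- alternating words -/
def Wd (P : ℕ → Subgroup G) : ℕ → ℕ → G → Prop
  | _, 0, w => w = 1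
  | k, n + 1, w => ∃ u ∈ P k, ∃ v, Wd P (k + 1) n v ∧ w = u * v

theorem wd_right (P : ℕ → Subgroup G) (n : ℕ) : ∀ (k : ℕ) (w : G),
    Wd P k (n + 1) w ↔ ∃ v, Wd P k n v ∧ ∃ u ∈ P (k + n), w = v * u := by
  induction n with
  | zero =>
    intro k w
    constructor
    · rintro ⟨u, hu, v, hv, rfl⟩
      have hv1 : v = 1 := hv
      exact ⟨1, rfl, u, hu, by rw [hv1, mul_one, one_mul]⟩
    · rintro ⟨v, hv, u, hu, rfl⟩
      have hv1 : v = 1 := hv
      exact ⟨u, hu, 1, rfl, by rw [hv1, mul_one, one_mul]⟩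
  | succ n ih =>
    intro k w
    constructor
    · rintro ⟨u, hu, v, hv, rfl⟩
      obtain ⟨v', hv', u', hu', rfl⟩ := (ih (k + 1) v).mp hv
      refine ⟨u * v', ⟨u, hu, v', hv', rfl⟩, u', ?_, by rw [mul_assoc]⟩
      have : k + (n + 1) = k + 1 + n := by omega
      rw [this]; exact hu'
    · rintro ⟨v, ⟨u, hu, v', hv', rfl⟩, u', hu', rfl⟩
      refine ⟨u, hu, v' * u', (ih (k + 1) _).mpr ⟨v', hv', u', ?_, rfl⟩, by rw [mul_assoc]⟩
      have : k + (n + 1) = k + 1 + n := by omega
      rw [← this]; exact hu'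

theorem wd_period {P : ℕ → Subgroup G} (hP : ∀ k, P (k + 2) = P k) (n : ℕ) : ∀ (k : ℕ) (w : G),
    Wd P (k + 2) n w ↔ Wd P k n w := by
  induction n with
  | zero => intro k w; exact Iff.rfl
  | succ n ih =>
    intro k w
    constructor
    · rintro ⟨u, hu, v, hv, rfl⟩
      exact ⟨u, by rw [← hP]; exact hu, v, (ih (k + 1) v).mp hv, rfl⟩
    · rintro ⟨u, hu, v, hv, rfl⟩
      exact ⟨u, by rw [hP]; exact hu, v, (ih (k + 1) v).mpr hv, rfl⟩

theorem period_mul {P : ℕ → Subgroup G} (hP : ∀ k, P (k + 2) = P k) (k m : ℕ) : P (k + 2 * m) = P k := by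
  induction m with
  | zero => rfl
  | succ m ih => rw [Nat.mul_succ, ← add_assoc, hP, ih]

theorem wd_period_mul {P : ℕ → Subgroup G} (hP : ∀ k, P (k + 2) = P k) (n k m : ℕ) (w : G) :
    Wd P (k + 2 * m) n w ↔ Wd P k n w := by
  induction m with
  | zero => rfl
  | succ m ih => rw [Nat.mul_succ, ← add_assoc, wd_period hP, ih]

theorem wd_inv {P : ℕ → Subgroup G} (hP : ∀ k, P (k + 2) = P k) (n : ℕ) : ∀ (k : ℕ) (w : G),
    Wd P k n w → Wd P (k + n + 1) n w⁻¹ := by
  induction n with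
  | zero =>
    intro k w hw
    have : w = 1 := hw
    rw [this, inv_one]; rfl
  | succ n ih =>
    rintro k w ⟨u, hu, v, hv, rfl⟩
    rw [wd_right]
    refine ⟨v⁻¹, ?_, u⁻¹, ?_, by rw [mul_inv_rev]⟩
    · have := ih (k + 1) v hv
      have e : k + (n + 1) + 1 = k + 1 + n + 1 := by omega
      rw [e]; exact this
    · have e : k + (n + 1) + 1 + n = k + 2 * (n + 1) := by omega
      rw [e, period_mul hP]
      exact (P k).inv_mem hu

theorem wd_snoc {P : ℕ → Subgroup G} {k n : ℕ} {w u : G} (hw : Wd P k n w) (hu : u ∈ P (k + n)) :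
    Wd P k (n + 1) (w * u) := (wd_right P n k _).mpr ⟨w, hw, u, hu, rfl⟩

theorem wd_cons {P : ℕ → Subgroup G} {k n : ℕ} {w u : G} (hw : Wd P k (n + 1) w) (hu : u ∈ P k) :
    Wd P k (n + 1) (u * w) := by
  obtain ⟨u', hu', v, hv, rfl⟩ := hw
  exact ⟨u * u', (P k).mul_mem hu hu', v, hv, by rw [mul_assoc]⟩

theorem wd_cons' {P : ℕ → Subgroup G} {k n : ℕ} {w u : G} (hw : Wd P (k + 1) n w) (hu : u ∈ P k) :
    Wd P k (n + 1) (u * w) := ⟨u, hu, w, hw, rfl⟩

variable [Finite G]

/-- all conjugates by words of `Z` lie in `Q₂`: a contradiction -/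
theorem not_all {P₁ P₂ Q Z : Subgroup G} {P : ℕ → Subgroup G} (hP : ∀ k, P (k + 2) = P k) (hP0 : P 0 = P₂)
    (hP1 : P 1 = P₁) (hQ : IsPGroup 2 Q) (hZne : Z ≠ ⊥)
    (hno : ∀ R : Subgroup G, IsPGroup 2 R → R ≠ ⊥ → P₁ ≤ normalizer (R : Set G) → P₂ ≤ normalizer (R : Set G) → False)
    (hall : ∀ n w, Wd P 0 (2 * n) w → Z ≤ Q.map (MulAut.conj w).toMonoidHom) : False := by
  set A : Subgroup G := ⨆ w : {w : G // ∃ n, Wd P 0 n w}, Z.map (MulAut.conj (w : G)⁻¹).toMonoidHom with hA
  have happ : ∀ (w : G) (n : ℕ), Wd P 0 n w → ∀ (i : ℕ) (u : G), u ∈ P i → ∃ m, Wd P 0 m (w * u) := by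
    intro w n hw i u hu
    have hcase : P i = P n ∨ P i = P (n + 1) := by
      have hpar : ∀ j, P j = P (j % 2) := by
        intro j
        have := period_mul hP (j % 2) (j / 2)
        rwa [Nat.mod_add_div] at this
      rw [hpar i, hpar n, hpar (n + 1)]
      have h1 : i % 2 = n % 2 ∨ i % 2 = (n + 1) % 2 := by omega
      rcases h1 with h1 | h1
      · left; rw [h1]
      · right; rw [h1]
    rcases hcase with h1 | h1
    · exact ⟨n + 1, wd_snoc hw (by rw [zero_add, ← h1]; exact hu)⟩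
    · have h2 : Wd P 0 (n + 1) (w * 1) := wd_snoc hw (one_mem _)
      rw [mul_one] at h2
      exact ⟨n + 2, wd_snoc h2 (by rw [zero_add, ← h1]; exact hu)⟩
  have hev : ∀ (w : G) (n : ℕ), Wd P 0 n w → ∃ m, Wd P 0 (2 * m) w := by
    intro w n hw
    rcases Nat.even_or_odd' n with ⟨m, rfl | rfl⟩
    · exact ⟨m, hw⟩
    · refine ⟨m + 1, ?_⟩
      have := wd_snoc hw (one_mem (P (0 + (2 * m + 1))))
      rw [mul_one] at this
      exact this
  have hAQ : A ≤ Q := by
    rw [hA]
    apply iSup_le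
    rintro ⟨w, n, hw⟩
    obtain ⟨m, hm⟩ := hev w n hw
    rw [map_conj_le_iff, inv_inv]
    exact hall m w hm
  have hZA : Z ≤ A := by
    have := le_iSup (fun w : {w : G // ∃ n, Wd P 0 n w} => Z.map (MulAut.conj (w : G)⁻¹).toMonoidHom) ⟨1, 0, rfl⟩
    simp only [inv_one, map_conj_one] at this
    exact this
  have hn : ∀ i, P i ≤ normalizer (A : Set G) := by
    intro i g hg
    apply mem_normalizer_of_map_conj_le
    rw [hA, Subgroup.map_iSup]
    apply iSup_le
    rintro ⟨w, n, hw⟩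
    obtain ⟨m, hm⟩ := happ w n hw i g⁻¹ ((P i).inv_mem hg)
    have e : (Z.map (MulAut.conj (w : G)⁻¹).toMonoidHom).map (MulAut.conj g).toMonoidHom =
        Z.map (MulAut.conj ((w * g⁻¹ : G))⁻¹).toMonoidHom := by
      rw [← map_conj_mul, mul_inv_rev, inv_inv]
    rw [e]
    exact le_iSup (fun w : {w : G // ∃ n, Wd P 0 n w} => Z.map (MulAut.conj (w : G)⁻¹).toMonoidHom) ⟨w * g⁻¹, m, hm⟩
  refine hno A (hQ.to_le hAQ) ?_ (hP1 ▸ hn 1) (hP0 ▸ hn 0)
  intro hb
  exact hZne (eq_bot_iff.mpr (hZA.trans hb.le))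

/-- alternating parity function -/
def alt (A B : Subgroup G) (k : ℕ) : Subgroup G := if k % 2 = 0 then A else B

theorem alt_period (A B : Subgroup G) (k : ℕ) : alt A B (k + 2) = alt A B k := by
  unfold alt
  rw [Nat.add_mod_right]

theorem alt_even (A B : Subgroup G) (k : ℕ) : alt A B (2 * k) = A := by
  unfold alt
  rw [if_pos (by omega)]

theorem alt_odd (A B : Subgroup G) (k : ℕ) : alt A B (2 * k + 1) = B := by
  unfold alt
  rw [if_neg (by omega)]

theorem relIndex_conj (A B : Subgroup G) (g : G) :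
    (A.map (MulAut.conj g).toMonoidHom).relIndex (B.map (MulAut.conj g).toMonoidHom) = A.relIndex B :=
  Subgroup.relIndex_map_map_of_injective _ _ (MulAut.conj g).injective

theorem relIndex_conj_right (A B : Subgroup G) (g : G) :
    A.relIndex (B.map (MulAut.conj g).toMonoidHom) = (A.map (MulAut.conj g⁻¹).toMonoidHom).relIndex B := by
  rw [← relIndex_conj A _ g⁻¹, ← map_conj_mul, inv_mul_cancel, map_conj_one]

/-- odd distance (number of factors) -/
theorem case_odd {P₂ T Z : Subgroup G} (h : RP P₂ T Z) {w : G}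
    (h1 : Z ≤ (pCoreOf 2 P₂).map (MulAut.conj w).toMonoidHom)
    (h2 : Z ≤ (pCoreOf 2 P₂).map (MulAut.conj w⁻¹).toMonoidHom) :
    Z ≤ (T ⊓ centralizer (Z : Set G)).map (MulAut.conj w).toMonoidHom := by
  have hQT := h.syl.pCoreOf_le
  have hZ2 : ∀ (g : G), ∀ a ∈ Z.map (MulAut.conj g).toMonoidHom, a * a ∈ centralizer (Z : Set G) := by
    rintro g _ ⟨z, hz, rfl⟩
    rw [← map_mul, h.Ztwo z hz, map_one]
    exact one_mem _
  have hT1 : Z.map (MulAut.conj w).toMonoidHom ≤ T := by
    rw [map_conj_le_iff]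
    exact h2.trans (map_conj_mono _ hQT)
  have hT2 : Z.map (MulAut.conj w⁻¹).toMonoidHom ≤ T := by
    rw [map_conj_le_iff, inv_inv]
    exact h1.trans (map_conj_mono _ hQT)
  have n1 := h.NN _ hT1 (hZ2 w)
  have n2 := h.NN _ hT2 (hZ2 w⁻¹)
  have e1 : (centralizer (Z : Set G)).relIndex (Z.map (MulAut.conj w⁻¹).toMonoidHom) =
      (centralizer ((Z.map (MulAut.conj w).toMonoidHom : Subgroup G) : Set G)).relIndex Z := by
    rw [relIndex_conj_right, inv_inv, map_conj_centralizer]
  have e2 : (centralizer ((Z.map (MulAut.conj w⁻¹).toMonoidHom : Subgroup G) : Set G)).relIndex Z =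
      (centralizer (Z : Set G)).relIndex (Z.map (MulAut.conj w).toMonoidHom) := by
    rw [relIndex_conj_right, map_conj_centralizer]
  rw [e1, e2] at n2
  set x := (centralizer (Z : Set G)).relIndex (Z.map (MulAut.conj w).toMonoidHom) with hx
  set y := (centralizer ((Z.map (MulAut.conj w).toMonoidHom : Subgroup G) : Set G)).relIndex Z with hy
  have hxp : 0 < x := ri_pos _ _
  have hyp : 0 < y := ri_pos _ _
  have hy1 : y = 1 := by
    by_contra hne
    have hy2 : 2 ≤ y := by omega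
    have hyx : y < x := by nlinarith
    nlinarith
  rw [hy, Subgroup.relIndex_eq_one, ← map_conj_centralizer] at hy1
  rw [Subgroup.map_inf_eq _ _ _ (MulAut.conj w).injective]
  exact le_inf (h1.trans (map_conj_mono _ hQT)) hy1

theorem arith {s s' d d' : ℕ} (hs : 0 < s) (hs' : 0 < s') (hd : 0 < d) (hd' : 0 < d') (h1 : s ^ 2 ≤ d' * s')
    (h2 : d ^ 2 ≤ d' * s') (h3 : s' ^ 2 ≤ d * s) (h4 : d' ^ 2 ≤ d * s) : d = s ∧ d' = s' ∧ s = s' := by
  have h5 : d * s ≤ d' * s' := by
    by_contra hlt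
    push Not at hlt
    have h6 : (d * s) ^ 2 ≤ (d' * s') ^ 2 := by
      calc (d * s) ^ 2 = d ^ 2 * s ^ 2 := by ring
        _ ≤ (d' * s') * (d' * s') := Nat.mul_le_mul h2 h1
        _ = (d' * s') ^ 2 := by ring
    exact absurd (Nat.pow_lt_pow_left hlt (by norm_num : (2:ℕ) ≠ 0)) (not_lt.mpr h6)
  have h6 : d' * s' ≤ d * s := by
    by_contra hlt
    push Not at hlt
    have h6 : (d' * s') ^ 2 ≤ (d * s) ^ 2 := by
      calc (d' * s') ^ 2 = d' ^ 2 * s' ^ 2 := by ring
        _ ≤ (d * s) * (d * s) := Nat.mul_le_mul h4 h3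
        _ = (d * s) ^ 2 := by ring
    exact absurd (Nat.pow_lt_pow_left hlt (by norm_num : (2:ℕ) ≠ 0)) (not_lt.mpr h6)
  have h7 : d * s = d' * s' := le_antisymm h5 h6
  have h8 : d = s := by
    apply le_antisymm
    · rw [← h7, pow_two] at h2
      exact Nat.le_of_mul_le_mul_left h2 hd
    · rw [← h7, pow_two] at h1
      exact Nat.le_of_mul_le_mul_right h1 hs
  have h9 : d' = s' := by
    apply le_antisymm
    · rw [h7, pow_two] at h4
      exact Nat.le_of_mul_le_mul_left h4 hd'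
    · rw [h7, pow_two] at h3
      exact Nat.le_of_mul_le_mul_right h3 hs'
  refine ⟨h8, h9, ?_⟩
  rw [h8, h9] at h7
  exact Nat.mul_self_inj.mp h7

/-- even distance -/
theorem case_even {P₂ T Z : Subgroup G} (h : RP P₂ T Z)
    (hV1 : ∀ u ∈ P₂, Z ≤ (T ⊓ centralizer (Z : Set G)).map (MulAut.conj u).toMonoidHom) {w u : G} (hu : u ∈ P₂)
    (h1 : ncl P₂ Z ≤ (T ⊓ centralizer (Z : Set G)).map (MulAut.conj w).toMonoidHom)
    (h2 : (ncl P₂ Z).map (MulAut.conj w).toMonoidHom ≤ (T ⊓ centralizer (Z : Set G)).map (MulAut.conj u).toMonoidHom)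
    (hbad : ¬ Z ≤ (pCoreOf 2 P₂).map (MulAut.conj w).toMonoidHom) : False := by
  set V := ncl P₂ Z with hV
  set Q := pCoreOf 2 P₂ with hQ
  have hZV : Z ≤ V := le_ncl _ _
  have hVn : P₂ ≤ normalizer (V : Set G) := le_normalizer_ncl _ _
  have hVC : V ≤ centralizer (V : Set G) := by
    have h3 : V ≤ centralizer (Z : Set G) := by
      rw [hV]
      apply iSup_le
      rintro ⟨g, hg⟩
      have h4 := (hV1 g⁻¹ (P₂.inv_mem hg)).trans (map_conj_mono _ inf_le_right)
      rw [map_conj_centralizer, Subgroup.le_centralizer_iff] at h4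
      rw [Subgroup.le_centralizer_iff]
      have h5 := map_conj_mono g h4
      rw [← map_conj_mul, mul_inv_cancel, map_conj_one, map_conj_centralizer] at h5
      exact h5
    have h4 : Z ≤ centralizer (V : Set G) := Subgroup.le_centralizer_iff.mp h3
    exact PReduced.ncl_le h4 (le_normalizer_centralizer hVn)
  have hVc : ∀ a ∈ V, ∀ b ∈ V, a * b = b * a := fun a ha b hb => mem_centralizer_iff.mp (hVC hb) a ha
  have hV2 : ∀ a ∈ V, a * a = 1 := by
    have hel : IsElementaryAbelian 2 V := by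
      rw [hV]
      refine elem_iSup (fun g => elem_map (elem_of_invol h.Ztwo) _) (fun i j => ?_)
      exact ((le_iSup (fun g : ↥P₂ => Z.map (MulAut.conj (g : G)).toMonoidHom) i).trans hVC).trans
        (centralizer_le (le_iSup (fun g : ↥P₂ => Z.map (MulAut.conj (g : G)).toMonoidHom) j))
    intro a ha
    have := (elem_iff.mp hel).2 a ha
    rwa [pow_two] at this
  have hVp : IsPGroup 2 V := elem_isPGroup (elem_of_invol hV2)
  have hQ1T : T ⊓ centralizer (Z : Set G) ≤ P₂ := inf_le_left.trans h.syl.le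
  -- the two conjugates
  set A := V.map (MulAut.conj w⁻¹).toMonoidHom with hA
  set A' := V.map (MulAut.conj w).toMonoidHom with hA'
  have hAP : A ≤ P₂ := by
    rw [hA, map_conj_le_iff, inv_inv]
    exact h1.trans (map_conj_mono _ hQ1T)
  have hA'P : A' ≤ P₂ := by
    refine h2.trans ?_
    refine (map_conj_mono u hQ1T).trans ?_
    rw [map_conj_eq_of_mem (le_normalizer hu)]
  have hA2 : ∀ a ∈ A, a * a = 1 := by
    rintro _ ⟨v, hv, rfl⟩
    rw [← map_mul, hV2 v hv, map_one]
  have hA'2 : ∀ a ∈ A', a * a = 1 := by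
    rintro _ ⟨v, hv, rfl⟩
    rw [← map_mul, hV2 v hv, map_one]
  have hAp : IsPGroup 2 A := isPGroup_map_conj hVp _
  have hA'p : IsPGroup 2 A' := isPGroup_map_conj hVp _
  have e1 : (centralizer (V : Set G)).relIndex A = (centralizer (A' : Set G)).relIndex V := by
    rw [hA, relIndex_conj_right, inv_inv, map_conj_centralizer]
  have e2 : (centralizer (V : Set G)).relIndex A' = (centralizer (A : Set G)).relIndex V := by
    rw [hA', relIndex_conj_right, map_conj_centralizer]
  have one2 : ∀ (B : Subgroup G), (∀ b ∈ B, b * b = 1) → ∀ b ∈ B, b * b ∈ centralizer (V : Set G) := fun B hB b hb => by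
    rw [hB b hb]; exact one_mem _
  have split : ∀ B : Subgroup G, B ≤ P₂ → IsPGroup 2 B →
      (centralizer (V : Set G)).relIndex B = (centralizer (V : Set G)).relIndex (Q ⊓ B) * Q.relIndex B := by
    intro B hB hBp
    rw [Subgroup.relIndex_inf_mul_relIndex]
    have h3 := h.inf_CV hB hBp
    have e : (centralizer (V : Set G) ⊓ Q) ⊓ B = centralizer (V : Set G) ⊓ B := by
      apply le_antisymm
      · exact inf_le_inf_right _ inf_le_left
      · exact le_inf (le_inf inf_le_left ((inf_comm _ _).le.trans h3)) inf_le_right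
    rw [← Subgroup.inf_relIndex_right (centralizer (V : Set G)) B, ← e, Subgroup.inf_relIndex_right]
  have s1 := split A hAP hAp
  have s2 := split A' hA'P hA'p
  set s := Q.relIndex A with hs
  set s' := Q.relIndex A' with hs'
  set d := (centralizer (V : Set G)).relIndex (Q ⊓ A) with hd
  set d' := (centralizer (V : Set G)).relIndex (Q ⊓ A') with hd'
  have b1 : s ^ 2 ≤ d' * s' := by
    rw [← s2, e2]
    exact h.bound_E hVc hAP hAp (one2 A hA2)
  have b3 : s' ^ 2 ≤ d * s := by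
    rw [← s1, e1]
    exact h.bound_E hVc hA'P hA'p (one2 A' hA'2)
  have b2' : d ^ 2 ≤ (centralizer ((Q ⊓ A : Subgroup G) : Set G)).relIndex V :=
    h.NQ inf_le_left (one2 _ fun b hb => hA2 b hb.2)
  have b2'' : (centralizer ((Q ⊓ A : Subgroup G) : Set G)).relIndex V ≤ (centralizer (A : Set G)).relIndex V :=
    Subgroup.relIndex_le_of_le_left (centralizer_le inf_le_right) (ri_pos _ _).ne'
  have b2 : d ^ 2 ≤ d' * s' := by
    rw [← s2, e2]
    exact b2'.trans b2''
  have b4 : d' ^ 2 ≤ d * s := by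
    rw [← s1, e1]
    exact (h.NQ inf_le_left (one2 _ fun b hb => hA'2 b hb.2)).trans
      (Subgroup.relIndex_le_of_le_left (centralizer_le inf_le_right) (ri_pos _ _).ne')
  obtain ⟨a1, a2, a3⟩ : d = s ∧ d' = s' ∧ s = s' := arith (ri_pos _ _) (ri_pos _ _) (ri_pos _ _) (ri_pos _ _) b1 b2 b3 b4
  have e3 : (centralizer (A : Set G)).relIndex V = s ^ 2 := by
    rw [← e2, s2, a2, ← a3, pow_two]
  refine h.final hVc hAP hA2 ?_ e3.symm ?_
  · intro hc
    apply hbad
    have h3 : V ≤ Q.map (MulAut.conj w).toMonoidHom := by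
      have := map_conj_mono w hc
      rwa [hA, ← map_conj_mul, mul_inv_cancel, map_conj_one] at this
    exact hZV.trans h3
  · rw [inf_comm A]
    have h3 := Subgroup.relIndex_inf_mul_relIndex (centralizer (A : Set G)) (centralizer ((Q ⊓ A : Subgroup G) : Set G)) V
    rw [inf_eq_left.mpr (centralizer_le (inf_le_right : Q ⊓ A ≤ A))] at h3
    have h4 : (centralizer ((Q ⊓ A : Subgroup G) : Set G)).relIndex V = (centralizer (A : Set G)).relIndex V :=
      le_antisymm b2'' (by rw [e3, ← a1]; exact b2')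
    rw [h4] at h3
    have h5 : (centralizer (A : Set G)).relIndex (centralizer ((Q ⊓ A : Subgroup G) : Set G) ⊓ V) = 1 :=
      Nat.eq_of_mul_eq_mul_right (ri_pos (centralizer (A : Set G)) V) (by rw [h3, one_mul])
    rw [Subgroup.relIndex_eq_one, inf_comm] at h5
    exact h5

/-- **the amalgam theorem** -/
theorem amalgam {P₁ P₂ T Z : Subgroup G} (h : RP P₂ T Z)
    (hQ1 : P₁ ≤ normalizer ((T ⊓ centralizer (Z : Set G) : Subgroup G) : Set G)) (hZne : Z ≠ ⊥)
    (hno : ∀ R : Subgroup G, IsPGroup 2 R → R ≠ ⊥ → P₁ ≤ normalizer (R : Set G) → P₂ ≤ normalizer (R : Set G) →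
      False) : False := by
  classical
  set Q₂ := pCoreOf 2 P₂ with hQ₂
  set Q₁ := T ⊓ centralizer (Z : Set G) with hQ₁
  have hQ2n : P₂ ≤ normalizer (Q₂ : Set G) := le_normalizer_pCoreOf 2 P₂
  have hP := alt_period P₂ P₁
  by_cases hex : ∃ n w, Wd (alt P₂ P₁) 0 n w ∧ ¬ Z ≤ (alt Q₂ Q₁ n).map (MulAut.conj w).toMonoidHom
  · -- minimal failing length
    obtain ⟨w, hw, hbad⟩ := Nat.find_spec hex
    have hmin : ∀ m, m < Nat.find hex → ∀ w, Wd (alt P₂ P₁) 0 m w → Z ≤ (alt Q₂ Q₁ m).map (MulAut.conj w).toMonoidHom := by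
      intro m hm w hw
      by_contra hc
      exact Nat.find_min hex hm ⟨w, hw, hc⟩
    set n := Nat.find hex with hn
    clear_value n
    -- dropping the last factor
    have drop : ∀ (R : Subgroup G) (a g : G), g ∈ normalizer (R : Set G) →
        R.map (MulAut.conj (a * g)).toMonoidHom = R.map (MulAut.conj a).toMonoidHom := by
      intro R a g hg
      rw [map_conj_mul, map_conj_eq_of_mem hg]
    rcases Nat.even_or_odd' n with ⟨m, rfl | rfl⟩
    · rw [alt_even] at hbad
      rcases Nat.eq_zero_or_pos m with rfl | hm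
      · have hw1 : w = 1 := hw
        rw [hw1, map_conj_one] at hbad
        exact hbad h.Z_le
      · obtain ⟨k, rfl⟩ : ∃ k, m = k + 1 := ⟨m - 1, by omega⟩
        have e2 : 2 * (k + 1) = (2 * k + 1) + 1 := by ring
        have hlt : 2 * k + 1 < 2 * (k + 1) := by omega
        have hlt1 : 1 < 2 * (k + 1) := by omega
        -- decomposition
        rw [e2] at hw
        obtain ⟨w', hw', p, hp, hwp⟩ := (wd_right _ _ _ _).mp hw
        rw [zero_add, alt_odd] at hp
        obtain ⟨u, hu, w₁, hw₁, hwu⟩ := hw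
        have hu' : u ∈ P₂ := by
          have := alt_even P₂ P₁ 0
          rw [Nat.mul_zero] at this
          rwa [this] at hu
        have hpre : ∀ v ∈ P₂, v ∈ alt P₂ P₁ 0 := by
          intro v hv
          have := alt_even P₂ P₁ 0
          rw [Nat.mul_zero] at this
          rwa [this]
        refine case_even h ?_ (w := w) (u := u) hu' ?_ ?_ hbad
        · intro v hv
          have h3 := hmin 1 hlt1 v ⟨v, hpre v hv, 1, rfl, (mul_one v).symm⟩
          have e4 := alt_odd Q₂ Q₁ 0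
          rw [Nat.mul_zero, zero_add] at e4
          rwa [e4] at h3
        · rw [ncl]
          apply iSup_le
          rintro ⟨v, hv⟩
          rw [hwp, drop _ _ _ (hQ1 hp), map_conj_le_iff, ← map_conj_mul]
          have h3 := hmin _ hlt (v⁻¹ * w') (wd_cons hw' (hpre _ (P₂.inv_mem hv)))
          rwa [alt_odd] at h3
        · rw [ncl, Subgroup.map_iSup]
          apply iSup_le
          rintro ⟨v, hv⟩
          rw [← map_conj_mul, map_conj_le_iff, ← map_conj_mul]
          have e5 : (w * v)⁻¹ * u = v⁻¹ * w₁⁻¹ := by rw [hwu]; group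
          change Z ≤ Q₁.map (MulAut.conj ((w * v)⁻¹ * u)).toMonoidHom
          rw [e5]
          have h4 := wd_inv hP _ _ _ hw₁
          have e6 : 0 + 1 + (2 * k + 1) + 1 = 1 + 2 * (k + 1) := by ring
          rw [e6, wd_period_mul hP] at h4
          have h5 : Wd (alt P₂ P₁) 0 (2 * k + 1 + 1) (v⁻¹ * w₁⁻¹) := wd_cons' h4 (hpre _ (P₂.inv_mem hv))
          obtain ⟨w'', hw'', p', hp', e7⟩ := (wd_right _ _ _ _).mp h5
          rw [zero_add, alt_odd] at hp'
          rw [e7, drop _ _ _ (hQ1 hp')]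
          have h6 := hmin _ hlt w'' hw''
          rwa [alt_odd] at h6
    · rw [alt_odd] at hbad
      have key : ∀ w, Wd (alt P₂ P₁) 0 (2 * m + 1) w → Z ≤ Q₂.map (MulAut.conj w).toMonoidHom := by
        intro w hw
        obtain ⟨w', hw', p, hp, e⟩ := (wd_right _ _ _ _).mp hw
        rw [zero_add, alt_even] at hp
        rw [e, drop _ _ _ (hQ2n hp)]
        have h3 := hmin (2 * m) (by omega) w' hw'
        rwa [alt_even] at h3
      have h4 := wd_inv hP _ _ _ hw
      have e6 : 0 + (2 * m + 1) + 1 = 0 + 2 * (m + 1) := by ring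
      rw [e6, wd_period_mul hP] at h4
      exact hbad (case_odd h (key w hw) (key _ h4))
  · push Not at hex
    refine not_all hP (alt_even P₂ P₁ 0) (alt_odd P₂ P₁ 0) (isPGroup_pCoreOf 2 P₂) hZne hno (fun n w hw => ?_)
    have := hex _ w hw
    rwa [alt_even] at this

end Cfsg.Agent.Lib.SfAmal
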