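import Cfsg.Agent.Lib.SfFinal
import Cfsg.Agent.Lib.Involve
import Cfsg.Agent.Lib.PIrred

/-!
# `Z ≤ O₂` (helper47)
-/

set_option autoImplicit false
set_option linter.unusedSectionVars false

namespace Cfsg.Agent.Lib.SfMin

open Subgroup Cfsg Cfsg.Agent.Lib.SfAct Cfsg.Agent.Lib.LocBase
open scoped commutatorElement

theorem comm_of_invol {M : Type*} [Group M] {a b : M} (ha : a * a = 1) (hb : b * b = 1) (hab : a * b * (a * b) = 1) :
    a * b = b * a := by
  have h1 : (a * b)⁻¹ = a * b := inv_eq_of_mul_eq_one_left hab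
  have ha' : a⁻¹ = a := inv_eq_of_mul_eq_one_left ha
  have hb' : b⁻¹ = b := inv_eq_of_mul_eq_one_left hb
  calc a * b = (a * b)⁻¹ := h1.symm
    _ = b⁻¹ * a⁻¹ := mul_inv_rev _ _
    _ = b * a := by rw [ha', hb']

theorem elem_of_invol {M : Type*} [Group M] {A : Subgroup M} (hA : ∀ a ∈ A, a * a = 1) : IsElementaryAbelian 2 A := by
  rw [PReduced.elem_iff]
  refine ⟨fun a ha => mem_centralizer_iff.mpr fun b hb =>
    comm_of_invol (hA b hb) (hA a ha) (hA _ (Subgroup.mul_mem _ hb ha)), fun a ha => by rw [pow_two]; exact hA a ha⟩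

/-- groups generated by two elementary abelian groups act trivially (odd part) on a small module -/
theorem small_trivial {Λ : Type*} [Group Λ] [Finite Λ] (hf : ¬ Cfsg.Involves (Equiv.Perm (Fin 4)) Λ)
    {A B W : Subgroup Λ} (hA : ∀ a ∈ A, a * a = 1) (hB : ∀ b ∈ B, b * b = 1) (hAB : A ⊔ B = ⊤) (hW : W.Normal)
    (hWe : IsElementaryAbelian 2 W) (hW4 : Nat.card W ≤ 4) {y : Λ} (hy : Odd (orderOf y)) :
    y ∈ centralizer (W : Set Λ) := by
  classical
  have hWc : ∀ u v : W, u * v = v * u := fun u v =>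
    Subtype.ext (mem_centralizer_iff.mp ((PReduced.elem_iff.mp hWe).1 v.2) _ u.2)
  have hW2 : ∀ v : W, v * v = 1 := fun v => Subtype.ext (by
    have := (PReduced.elem_iff.mp hWe).2 v v.2
    rwa [pow_two] at this)
  set f : Λ →* MulAut W := rho W with hfdef
  have hcomm : ∀ a ∈ A, ∀ b ∈ B, f a * f b = f b * f a := by
    intro a ha b hb
    have ha2 : f a * f a = 1 := by rw [← map_mul, hA a ha, map_one]
    have hb2 : f b * f b = 1 := by rw [← map_mul, hB b hb, map_one]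
    have h6 : (f a * f b) ^ 6 = 1 := by
      ext w
      have h1 := SfN.pow_six_apply (⊤ : Subgroup W) (by rw [Subgroup.card_top]; exact hW4) (f a * f b)
        (fun _ _ => mem_top _) w (mem_top _)
      rw [h1]; rfl
    have h3 : ¬ 3 ∣ orderOf (f a * f b) := fun h3 =>
      hf (S4Plane.s4_of_dihedral W (PReduced.elem_isPGroup hWe) hWc hW2 (f a) (f b) ⟨a, rfl⟩ ⟨b, rfl⟩ ha2 hb2 h3)
    have h6' : orderOf (f a * f b) ∣ 3 * 2 := orderOf_dvd_of_pow_eq_one h6
    have h2 : orderOf (f a * f b) ∣ 2 :=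
      Nat.Coprime.dvd_of_dvd_mul_left ((Nat.Prime.coprime_iff_not_dvd Nat.prime_three).2 h3).symm h6'
    have h4 := orderOf_dvd_iff_pow_eq_one.mp h2
    rw [pow_two] at h4
    exact comm_of_invol ha2 hb2 h4
  have hfA : IsElementaryAbelian 2 (A.map f) := PReduced.elem_map (elem_of_invol hA) f
  have hfB : IsElementaryAbelian 2 (B.map f) := PReduced.elem_map (elem_of_invol hB) f
  have hs := PReduced.elem_sup hfA hfB (by
    rintro _ ⟨a, ha, rfl⟩
    rw [mem_centralizer_iff]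
    rintro _ ⟨b, hb, rfl⟩
    exact (hcomm a ha b hb).symm)
  rw [← Subgroup.map_sup, hAB] at hs
  have h2 := (PReduced.elem_iff.mp hs).2 (f y) ⟨y, mem_top _, rfl⟩
  have h3 : (f y) ^ (orderOf y) = 1 := by rw [← map_pow, pow_orderOf_eq_one, map_one]
  have h4 : f y = 1 := orderOf_eq_one_iff.mp
    (Nat.eq_one_of_dvd_coprimes ((Nat.coprime_two_right).2 hy) (orderOf_dvd_of_pow_eq_one h3) (orderOf_dvd_of_pow_eq_one h2))
  rw [← ker_rho, MonoidHom.mem_ker]
  exact h4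

variable {Γ : Type*} [Group Γ] [Finite Γ]

/-- relative version -/
theorem small_trivial_rel (hf : ¬ Cfsg.Involves (Equiv.Perm (Fin 4)) Γ) {A B U U₀ : Subgroup Γ}
    (hA : ∀ a ∈ A, a * a = 1) (hB : ∀ b ∈ B, b * b = 1) (hU : U ≤ A ⊔ B) (hUn : A ⊔ B ≤ normalizer (U : Set Γ))
    (hU₀ : U₀ ≤ U) (hU₀n : A ⊔ B ≤ normalizer (U₀ : Set Γ))
    (h2 : ∀ u ∈ U, u * u ∈ U₀)
    (h4 : U₀.relIndex U ≤ 4) {y : Γ} (hy : y ∈ A ⊔ B) (hyo : Odd (orderOf y)) : ∀ u ∈ U, ⁅y, u⁆ ∈ U₀ := by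
  set L := A ⊔ B with hL
  have hn0 : (U₀.subgroupOf L).Normal := by
    rw [normal_subgroupOf_iff_le_normalizer (hU₀.trans hU)]; exact hU₀n
  have hn : (U.subgroupOf L).Normal := by
    rw [normal_subgroupOf_iff_le_normalizer hU]; exact hUn
  set π := QuotientGroup.mk' (U₀.subgroupOf L) with hπ
  have hfΛ : ¬ Cfsg.Involves (Equiv.Perm (Fin 4)) (↥L ⧸ U₀.subgroupOf L) := fun hi =>
    hf (Involve.involves_subgroup (H34S4.involves_of_involves_quotient _ hi))
  have hWn : ((U.subgroupOf L).map π).Normal := hn.map _ (QuotientGroup.mk'_surjective _)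
  have hmem : ∀ x : ↥L, π x = 1 ↔ (x : Γ) ∈ U₀ := fun x => by
    rw [hπ, QuotientGroup.mk'_apply, QuotientGroup.eq_one_iff]; rfl
  have hWe : IsElementaryAbelian 2 ((U.subgroupOf L).map π) := by
    apply elem_of_invol
    rintro _ ⟨u, hu, rfl⟩
    rw [← map_mul, hmem]
    exact h2 _ hu
  have hW4 : Nat.card ((U.subgroupOf L).map π) ≤ 4 := by
    have h1 := Subgroup.relIndex_ker (U.subgroupOf L) π
    rw [hπ, QuotientGroup.ker_mk', Subgroup.relIndex_subgroupOf hU] at h1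
    rw [hπ, ← h1]
    exact h4
  have hyΛ : Odd (orderOf (π ⟨y, hy⟩)) := by
    have h1 : orderOf (π ⟨y, hy⟩) ∣ orderOf (⟨y, hy⟩ : ↥L) := orderOf_map_dvd π _
    rw [Subgroup.orderOf_mk] at h1
    exact Odd.of_dvd_nat hyo h1
  have key := small_trivial hfΛ (A := (A.subgroupOf L).map π) (B := (B.subgroupOf L).map π)
    (W := (U.subgroupOf L).map π)
    (by
      rintro _ ⟨a, ha, rfl⟩
      rw [← map_mul, hmem]
      have : ((a * a : ↥L) : Γ) = 1 := hA _ ha
      rw [this]; exact one_mem _)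
    (by
      rintro _ ⟨b, hb, rfl⟩
      rw [← map_mul, hmem]
      have : ((b * b : ↥L) : Γ) = 1 := hB _ hb
      rw [this]; exact one_mem _)
    (by
      rw [← Subgroup.map_sup, ← Subgroup.subgroupOf_sup le_sup_left le_sup_right, Subgroup.subgroupOf_self,
        ← MonoidHom.range_eq_map, MonoidHom.range_eq_top]
      exact QuotientGroup.mk'_surjective _)
    hWn hWe hW4 hyΛ
  intro u hu
  have h5 := mem_centralizer_iff.mp key (π ⟨u, hU hu⟩) ⟨⟨u, hU hu⟩, hu, rfl⟩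
  have h6 : π ⁅(⟨y, hy⟩ : ↥L), ⟨u, hU hu⟩⁆ = 1 := by
    rw [map_commutatorElement, comm_eq_one_iff]
    exact h5.symm
  rw [hmem] at h6
  exact h6

theorem le_normalizer_of_conj_mem {A K : Subgroup Γ} (h : ∀ k ∈ K, ∀ a ∈ A, k * a * k⁻¹ ∈ A) :
    K ≤ normalizer (A : Set Γ) := by
  intro k hk
  apply mem_normalizer_of_map_conj_le
  rintro _ ⟨a, ha, rfl⟩
  exact h k hk a ha

/-- **the case `b = 1`** -/
theorem PM.Z_le {T Z : Subgroup Γ} (h : PM T Z) : Z ≤ pCore 2 Γ := by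
  classical
  by_contra hZQ
  set Q := pCore 2 Γ with hQ
  have hQn : Q.Normal := pCore_normal 2 Γ
  have hQT : Q ≤ T := h.pCore_le
  set π := QuotientGroup.mk' Q with hπ
  have hmem : ∀ x : Γ, π x = 1 ↔ x ∈ Q := fun x => by
    rw [hπ, QuotientGroup.mk'_apply, QuotientGroup.eq_one_iff]
  have hsol := h.sol
  have hcore : pCore 2 (Γ ⧸ Q) = ⊥ := by
    rw [PIrred.pCore_quotient (isPGroup_pCore 2 Γ), Subgroup.map_eq_bot_iff, QuotientGroup.ker_mk']
  obtain ⟨x, -, hx1, hxo, ⟨b, hb, hbx⟩, hall⟩ := H34SolvOff.exists_inverted_of_core (⊤ : Subgroup (Γ ⧸ Q)) (Z.map π)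
    (by infer_instance) (by
      rw [eq_bot_iff]
      have h1 : IsPGroup 2 ↥((pCore 2 ↥(⊤ : Subgroup (Γ ⧸ Q))).map (⊤ : Subgroup (Γ ⧸ Q)).subtype) :=
        (isPGroup_pCore 2 _).map _
      have h2 := pCoreOf_top (G := Γ ⧸ Q) 2
      rw [hcore] at h2
      have h3 : (pCore 2 ↥(⊤ : Subgroup (Γ ⧸ Q))).map (⊤ : Subgroup (Γ ⧸ Q)).subtype = ⊥ := h2
      rw [Subgroup.map_eq_bot_iff_of_injective _ (Subgroup.subtype_injective _)] at h3
      exact h3.le) le_top
    (by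
      rintro _ ⟨z, hz, rfl⟩
      rw [← map_mul, h.Ztwo z hz, map_one])
    (by
      intro hb
      rw [Subgroup.map_eq_bot_iff, QuotientGroup.ker_mk'] at hb
      exact hZQ hb)
  obtain ⟨y, rfl⟩ := QuotientGroup.mk'_surjective _ x
  obtain ⟨z0, hz0, rfl⟩ := hb
  change π z0 * π y * (π z0)⁻¹ = (π y)⁻¹ at hbx
  set Zs : Subgroup Γ := Z ⊓ (centralizer {π y}).comap π with hZs
  have hZsmem : ∀ z, z ∈ Zs ↔ z ∈ Z ∧ π z * π y = π y * π z := by
    intro z
    rw [hZs, Subgroup.mem_inf, mem_comap, mem_centralizer_singleton_iff]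
  have hidx : Zs.relIndex Z ≤ 2 := by
    refine Nat.le_of_dvd (by norm_num) (Subgroup.relIndex_dvd_two_iff.mpr ⟨z0, hz0, fun z hz => ?_⟩)
    rcases hall (π z) ⟨z, hz, rfl⟩ with hc | hc
    · right
      rw [hZsmem]
      exact ⟨hz, mul_inv_eq_iff_eq_mul.mp hc⟩
    · left
      rw [hZsmem]
      refine ⟨Subgroup.mul_mem _ hz hz0, ?_⟩
      rw [map_mul]
      have e1 : π z0 * π y = (π y)⁻¹ * π z0 := mul_inv_eq_iff_eq_mul.mp hbx
      have e2 : π z * (π y)⁻¹ = π y * π z := by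
        have e3 : π z * π y = (π y)⁻¹ * π z := mul_inv_eq_iff_eq_mul.mp hc
        calc π z * (π y)⁻¹ = π y * ((π y)⁻¹ * π z) * (π y)⁻¹ := by group
          _ = π y * (π z * π y) * (π y)⁻¹ := by rw [e3]
          _ = π y * π z := by group
      calc π z * π z0 * π y = π z * (π z0 * π y) := by group
        _ = π z * (π y)⁻¹ * π z0 := by rw [e1]; group
        _ = π y * (π z * π z0) := by rw [e2]; group
  -- conjugates
  set Z' := Z.map (MulAut.conj y).toMonoidHom with hZ'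
  set Zs' := Zs.map (MulAut.conj y).toMonoidHom with hZs'
  have hZsZ : Zs ≤ Z := inf_le_left
  have hZs'Z' : Zs' ≤ Z' := Subgroup.map_mono hZsZ
  have hZs'T : Zs' ≤ T := by
    rintro _ ⟨z, hz, rfl⟩
    rw [SetLike.mem_coe, hZsmem] at hz
    have h1 : y * z * y⁻¹ * z⁻¹ ∈ Q := by
      rw [← hmem, map_mul, map_mul, map_mul, map_inv, map_inv, ← hz.2]
      group
    have h2 : y * z * y⁻¹ = (y * z * y⁻¹ * z⁻¹) * z := by group
    change y * z * y⁻¹ ∈ T
    rw [h2]
    exact Subgroup.mul_mem _ (hQT h1) (h.ZT hz.1)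
  have hZsT' : Zs ≤ T.map (MulAut.conj y).toMonoidHom := by
    intro z hz
    rw [hZsmem] at hz
    rw [mem_map_conj]
    have h1 : y⁻¹ * z * y * z⁻¹ ∈ Q := by
      rw [← hmem, map_mul, map_mul, map_mul, map_inv, map_inv, mul_assoc (π y)⁻¹, hz.2]
      group
    have h2 : y⁻¹ * z * y = (y⁻¹ * z * y * z⁻¹) * z := by group
    rw [h2]
    exact Subgroup.mul_mem _ (hQT h1) (h.ZT hz.1)
  have hZ'2 : ∀ a ∈ Z', a * a = 1 := by
    rintro _ ⟨z, hz, rfl⟩
    rw [← map_mul, h.Ztwo z hz, map_one]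
  have hZ'c : ∀ a ∈ Z', ∀ b ∈ Z', a * b = b * a := by
    rintro _ ⟨z, hz, rfl⟩ _ ⟨w, hw, rfl⟩
    rw [← map_mul, h.Zcomm z hz w hw, map_mul]
  have hidx' : Zs'.relIndex Z' ≤ 2 := by
    rw [hZs', hZ', Subgroup.relIndex_map_map_of_injective _ _ (MulAut.conj y).injective]
    exact hidx
  set c := (centralizer (Z' : Set Γ)).relIndex Zs with hc
  set c' := (centralizer (Z : Set Γ)).relIndex Zs' with hc'
  have h1 : c' ^ 2 ≤ 2 * c := by
    have h2 := h.NN Zs' hZs'T (fun a ha => by rw [hZ'2 a (hZs'Z' ha)]; exact one_mem _)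
    refine h2.trans ?_
    calc (centralizer (Zs' : Set Γ)).relIndex Z ≤ (centralizer (Z' : Set Γ) ⊓ Zs).relIndex Z :=
          Subgroup.relIndex_le_of_le_left (inf_le_left.trans (centralizer_le hZs'Z')) (ri_pos _ _).ne'
      _ = (centralizer (Z' : Set Γ) ⊓ Zs).relIndex Zs * Zs.relIndex Z :=
          (Subgroup.relIndex_mul_relIndex _ _ _ inf_le_right hZsZ).symm
      _ = c * Zs.relIndex Z := by rw [Subgroup.inf_relIndex_right]
      _ ≤ c * 2 := Nat.mul_le_mul_left _ hidx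
      _ = 2 * c := mul_comm _ _
  have h2 : c ^ 2 ≤ 2 * c' := by
    have h3 := h.NNc y hZsT' (fun a ha => by rw [h.Ztwo a (hZsZ ha)]; exact one_mem _)
    refine h3.trans ?_
    calc (centralizer (Zs : Set Γ)).relIndex Z' ≤ (centralizer (Z : Set Γ) ⊓ Zs').relIndex Z' :=
          Subgroup.relIndex_le_of_le_left (inf_le_left.trans (centralizer_le hZsZ)) (ri_pos _ _).ne'
      _ = (centralizer (Z : Set Γ) ⊓ Zs').relIndex Zs' * Zs'.relIndex Z' :=
          (Subgroup.relIndex_mul_relIndex _ _ _ inf_le_right hZs'Z').symm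
      _ = c' * Zs'.relIndex Z' := by rw [Subgroup.inf_relIndex_right]
      _ ≤ c' * 2 := Nat.mul_le_mul_left _ hidx'
      _ = 2 * c' := mul_comm _ _
  have hcc : c ≤ 2 ∧ c' ≤ 2 := by
    rcases le_total c c' with hle | hle
    · have : c' ≤ 2 := by nlinarith
      exact ⟨hle.trans this, this⟩
    · have : c ≤ 2 := by nlinarith
      exact ⟨this, hle.trans this⟩
  -- the group `U`
  set D := Z ⊓ Q with hD
  set D' := Z' ⊓ Q with hD'
  have hDD' : D' = D.map (MulAut.conj y).toMonoidHom := by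
    rw [hD, hD', Subgroup.map_inf_eq _ _ _ (MulAut.conj y).injective]
    congr 1
    exact (h.conj_pCore y).symm
  have hDZs : D ≤ Zs := by
    rintro d ⟨hdZ, hdQ⟩
    rw [hZsmem]
    refine ⟨hdZ, ?_⟩
    rw [(hmem d).mpr hdQ, one_mul, mul_one]
  have hD'Zs' : D' ≤ Zs' := by
    rw [hDD']; exact Subgroup.map_mono hDZs
  have hQN : Q ≤ normalizer (Z : Set Γ) := hQT.trans h.TZ
  have hQN' : Q ≤ normalizer (Z' : Set Γ) := by
    rw [hZ', ← map_conj_normalizer, hQ, ← h.conj_pCore y]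
    exact map_conj_mono y hQN
  have hcomZ : ∀ z ∈ Z, ∀ q ∈ Q, ⁅z, q⁆ ∈ D := by
    intro z hz q hq
    refine ⟨?_, ?_⟩
    · have : ⁅z, q⁆ = z * (q * z⁻¹ * q⁻¹) := by rw [commutatorElement_def]; group
      rw [this]
      exact Subgroup.mul_mem _ hz (conj_mem_of_le_normalizer hQN hq (Subgroup.inv_mem _ hz))
    · rw [SetLike.mem_coe, commutatorElement_def]
      exact Subgroup.mul_mem _ (hQn.conj_mem q hq z) (Subgroup.inv_mem _ hq)
  have hcomZ' : ∀ z ∈ Z', ∀ q ∈ Q, ⁅z, q⁆ ∈ D' := by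
    intro z hz q hq
    refine ⟨?_, ?_⟩
    · have : ⁅z, q⁆ = z * (q * z⁻¹ * q⁻¹) := by rw [commutatorElement_def]; group
      rw [this]
      exact Subgroup.mul_mem _ hz (conj_mem_of_le_normalizer hQN' hq (Subgroup.inv_mem _ hz))
    · rw [SetLike.mem_coe, commutatorElement_def]
      exact Subgroup.mul_mem _ (hQn.conj_mem q hq z) (Subgroup.inv_mem _ hq)
  set U := D ⊔ D' with hU
  set U₀ := (D ⊓ centralizer (Z' : Set Γ)) ⊔ (D' ⊓ centralizer (Z : Set Γ)) with hU₀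
  set L := Z ⊔ Z' with hL
  have hUQ : U ≤ Q := sup_le inf_le_right inf_le_right
  have hUL : U ≤ L := sup_le (inf_le_left.trans le_sup_left) (inf_le_left.trans le_sup_right)
  have hU₀U : U₀ ≤ U := sup_le (inf_le_left.trans le_sup_left) (inf_le_left.trans le_sup_right)
  have hZC : Z ≤ centralizer (Z : Set Γ) := fun a ha => mem_centralizer_iff.mpr fun b hb => h.Zcomm b hb a ha
  have hZ'C : Z' ≤ centralizer (Z' : Set Γ) := fun a ha => mem_centralizer_iff.mpr fun b hb => hZ'c b hb a ha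
  have hLC : L ≤ centralizer (U₀ : Set Γ) := by
    rw [Subgroup.le_centralizer_iff]
    apply sup_le
    · rw [Subgroup.le_centralizer_iff]
      apply sup_le
      · exact Subgroup.le_centralizer_iff.mp ((inf_le_left.trans inf_le_left).trans hZC)
      · exact Subgroup.le_centralizer_iff.mp inf_le_right
    · rw [Subgroup.le_centralizer_iff]
      apply sup_le
      · exact Subgroup.le_centralizer_iff.mp inf_le_right
      · exact Subgroup.le_centralizer_iff.mp ((inf_le_left.trans inf_le_left).trans hZ'C)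
  have hLN0 : L ≤ normalizer (U₀ : Set Γ) := hLC.trans (centralizer_le_normalizer _)
  have hcj : ∀ k a : Γ, k * a * k⁻¹ = ⁅k, a⁆ * a := fun k a => by rw [commutatorElement_def]; group
  have hLU : L ≤ normalizer (U : Set Γ) := by
    apply sup_le
    · apply le_normalizer_of_conj_mem
      intro z hz u hu
      rw [hcj]
      exact Subgroup.mul_mem _ ((le_sup_left : D ≤ U) (hcomZ z hz u (hUQ hu))) hu
    · apply le_normalizer_of_conj_mem
      intro z hz u hu
      rw [hcj]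
      exact Subgroup.mul_mem _ ((le_sup_right : D' ≤ U) (hcomZ' z hz u (hUQ hu))) hu
  have hD'D : D' ≤ normalizer (D : Set Γ) := by
    apply le_normalizer_of_conj_mem
    intro k hk a ha
    have e : k * a * k⁻¹ = a * ⁅a⁻¹, k⁆ := by rw [commutatorElement_def]; group
    rw [e]
    exact Subgroup.mul_mem _ ha (hcomZ _ (Subgroup.inv_mem _ ha.1) k hk.2)
  have hU2 : ∀ u ∈ U, u * u ∈ U₀ := by
    intro u hu
    obtain ⟨d, hd, e, he, rfl⟩ := exists_mul_of_mem_sup_of_le hD'D hu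
    have h3 : ⁅d, e⁆ ∈ D := hcomZ d hd.1 e he.2
    have h4 : ⁅e, d⁆ ∈ D' := hcomZ' e he.1 d hd.2
    have h5 : ⁅d, e⁆ ∈ D' := by rw [← commutatorElement_inv]; exact Subgroup.inv_mem _ h4
    have hd2 := h.Ztwo d hd.1
    have he2 := hZ'2 e he.1
    have hdi : d⁻¹ = d := inv_eq_of_mul_eq_one_left hd2
    have hei : e⁻¹ = e := inv_eq_of_mul_eq_one_left he2
    have h6 : d * e * (d * e) = ⁅d, e⁆ := by
      rw [commutatorElement_def, hdi, hei]; group
    rw [h6]
    exact (le_sup_left : D ⊓ centralizer (Z' : Set Γ) ≤ U₀) ⟨h3, hZ'C h5.1⟩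
  have hU4 : U₀.relIndex U ≤ 4 := by
    have e1 : (D ⊔ U₀).relIndex U ≤ 2 := by
      have e2 : U = (D ⊔ U₀) ⊔ D' := by
        apply le_antisymm
        · exact sup_le (le_sup_left.trans le_sup_left) le_sup_right
        · exact sup_le (sup_le le_sup_left hU₀U) le_sup_right
      have hn : D' ≤ normalizer ((D ⊔ U₀ : Subgroup Γ) : Set Γ) :=
        le_normalizer_sup hD'D (((le_sup_right : D' ≤ U).trans hUL).trans hLN0)
      rw [e2, LocTrace.relIndex_sup_of_le_normalizer hn]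
      calc (D ⊔ U₀).relIndex D' ≤ (D' ⊓ centralizer (Z : Set Γ)).relIndex D' :=
            Subgroup.relIndex_le_of_le_left ((le_sup_right : _ ≤ U₀).trans le_sup_right) (ri_pos _ _).ne'
        _ = (centralizer (Z : Set Γ)).relIndex D' := Subgroup.inf_relIndex_left _ _
        _ ≤ c' := Subgroup.relIndex_le_of_le_right hD'Zs' (ri_pos _ _).ne'
        _ ≤ 2 := hcc.2
    have e3 : U₀.relIndex (D ⊔ U₀) ≤ 2 := by
      have hn : D ≤ normalizer (U₀ : Set Γ) := ((le_sup_left : D ≤ U).trans hUL).trans hLN0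
      rw [sup_comm, LocTrace.relIndex_sup_of_le_normalizer hn]
      calc U₀.relIndex D ≤ (D ⊓ centralizer (Z' : Set Γ)).relIndex D :=
            Subgroup.relIndex_le_of_le_left le_sup_left (ri_pos _ _).ne'
        _ = (centralizer (Z' : Set Γ)).relIndex D := Subgroup.inf_relIndex_left _ _
        _ ≤ c := Subgroup.relIndex_le_of_le_right hDZs (ri_pos _ _).ne'
        _ ≤ 2 := hcc.1
    rw [← Subgroup.relIndex_mul_relIndex U₀ (D ⊔ U₀) U le_sup_right (sup_le le_sup_left hU₀U)]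
    exact Nat.mul_le_mul e3 e1
  -- the element
  set w : Γ := y * z0 * y⁻¹ * z0⁻¹ with hw
  have hwL : w ∈ L := by
    refine Subgroup.mul_mem _ ((le_sup_right : Z' ≤ L) ⟨z0, hz0, rfl⟩) (Subgroup.inv_mem _ ((le_sup_left : Z ≤ L) hz0))
  have hπw : π w = π y * π y := by
    have e1 : π z0 * (π y)⁻¹ * (π z0)⁻¹ = π y := by
      calc π z0 * (π y)⁻¹ * (π z0)⁻¹ = (π z0 * π y * (π z0)⁻¹)⁻¹ := by group
        _ = π y := by rw [hbx, inv_inv]
    rw [hw, map_mul, map_mul, map_mul, map_inv, map_inv]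
    calc π y * π z0 * (π y)⁻¹ * (π z0)⁻¹ = π y * (π z0 * (π y)⁻¹ * (π z0)⁻¹) := by group
      _ = π y * π y := by rw [e1]
  obtain ⟨k, hk⟩ := exists_odd_pow w
  set y₁ := w ^ 2 ^ k with hy₁
  have hy₁L : y₁ ∈ L := Subgroup.pow_mem _ hwL _
  have hQp : IsPGroup 2 Q := isPGroup_pCore 2 Γ
  have k1 := small_trivial_rel h.free (A := Z) (B := Z') h.Ztwo hZ'2 hUL hLU hU₀U hLN0 hU2 hU4 hy₁L hk
  have k2 : ∀ u ∈ U, ⁅y₁, u⁆ = 1 := by
    intro u hu
    have h3 := k1 u hu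
    refine comm_of_comm hQp hk (hUQ (hU₀U h3)) ?_
    rw [comm_eq_one_iff]
    exact (mem_centralizer_iff.mp (hLC hy₁L) _ h3).symm
  have k3 : ∀ q ∈ Q, ⁅y₁, q⁆ ∈ U := by
    have h3 : ⁅L, Q⁆ ≤ U := by
      have e : L = closure ((Z : Set Γ) ∪ Z') := by rw [Subgroup.closure_union, closure_eq, closure_eq]
      rw [e] at hLU ⊢
      refine commutator_closure_le hLU ?_
      rintro z (hz | hz) q hq
      · exact (le_sup_left : D ≤ U) (hcomZ z hz q hq)
      · exact (le_sup_right : D' ≤ U) (hcomZ' z hz q hq)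
    exact fun q hq => h3 (commutator_mem_commutator hy₁L hq)
  have k4 : y₁ ∈ Q := by
    apply h.char
    rw [mem_centralizer_iff]
    intro q hq
    have h3 := comm_of_comm hQp hk (hUQ (k3 q hq)) (k2 _ (k3 q hq))
    rw [comm_eq_one_iff] at h3
    exact h3.symm
  rw [← hmem, hy₁, map_pow, hπw, ← pow_two, ← pow_mul] at k4
  have h4 := orderOf_dvd_of_pow_eq_one k4
  have h5 : Nat.Coprime (orderOf (π y)) (2 * 2 ^ k) := by
    rw [← pow_succ']
    exact Nat.Coprime.pow_right _ ((Nat.coprime_two_right).2 hxo)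
  exact hx1 (orderOf_eq_one_iff.mp (Nat.eq_one_of_dvd_coprimes h5 dvd_rfl h4))

end Cfsg.Agent.Lib.SfMin
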