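import Cfsg.Agent.Lib.SfMinE

/-!
# The final configuration (helper47)
-/

set_option autoImplicit false
set_option linter.unusedSectionVars false

namespace Cfsg.Agent.Lib.SfMin

open Subgroup Cfsg Cfsg.Agent.Lib.SfAct Cfsg.Agent.Lib.LocBase
open scoped commutatorElement

variable {Γ : Type*} [Group Γ] [Finite Γ]

theorem comm_eq_one_iff {a b : Γ} : ⁅a, b⁆ = 1 ↔ a * b = b * a := commutatorElement_eq_one_iff_mul_comm

theorem exists_odd_pow (z : Γ) : ∃ k : ℕ, Odd (orderOf (z ^ (2 ^ k))) := by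
  have hpos : 0 < orderOf z := orderOf_pos z
  obtain ⟨k, m, hm, hkm⟩ := Nat.exists_eq_pow_mul_and_not_dvd hpos.ne' 2 (by norm_num)
  refine ⟨k, ?_⟩
  have h1 : orderOf (z ^ (2 ^ k)) = m := by
    rw [orderOf_pow, hkm, Nat.gcd_eq_right (dvd_mul_right _ _), Nat.mul_div_cancel_left _ (by positivity)]
  rw [h1]
  exact Nat.odd_iff.mpr (by omega)

theorem mem_comap_cen {N V : Subgroup Γ} [N.Normal] {g : Γ} :
    g ∈ (centralizer (V.map (QuotientGroup.mk' N) : Set (Γ ⧸ N))).comap (QuotientGroup.mk' N) ↔ ∀ v ∈ V, ⁅g, v⁆ ∈ N := by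
  constructor
  · intro hg v hv
    rw [← QuotientGroup.eq_one_iff]
    have h1 : (v : Γ ⧸ N) * g = g * v := mem_centralizer_iff.mp hg _ ⟨v, hv, rfl⟩
    rw [commutatorElement_def, QuotientGroup.mk_mul, QuotientGroup.mk_mul, QuotientGroup.mk_mul, ← h1]
    simp
  · rintro hg _ ⟨v, hv, rfl⟩
    have h1 := (QuotientGroup.eq_one_iff _).mpr (hg v hv)
    change (v : Γ ⧸ N) * g = g * v
    rw [commutatorElement_def, QuotientGroup.mk_mul, QuotientGroup.mk_mul, QuotientGroup.mk_mul, QuotientGroup.mk_inv,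
      QuotientGroup.mk_inv] at h1
    rw [mul_inv_eq_one, mul_inv_eq_iff_eq_mul] at h1
    exact h1.symm

theorem comm_normalClosure {N V A : Subgroup Γ} (hN : N.Normal) (hV : V.Normal)
    (h : ∀ a ∈ A, ∀ v ∈ V, ⁅a, v⁆ ∈ N) : ∀ l ∈ normalClosure (A : Set Γ), ∀ v ∈ V, ⁅l, v⁆ ∈ N := by
  intro l hl
  rw [← mem_comap_cen]
  have hn : (V.map (QuotientGroup.mk' N)).Normal := hV.map _ (QuotientGroup.mk'_surjective _)
  have : normalClosure (A : Set Γ) ≤
      (centralizer (V.map (QuotientGroup.mk' N) : Set (Γ ⧸ N))).comap (QuotientGroup.mk' N) :=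
    normalClosure_le_normal fun a ha => mem_comap_cen.mpr (h a ha)
  exact this hl

theorem pow_odd {v : Γ} (hv : v * v = 1) {m : ℕ} (hm : Odd m) : v ^ m = v := by
  obtain ⟨k, rfl⟩ := hm
  rw [pow_add, pow_mul, pow_two, hv, one_pow, one_mul, pow_one]

/-- coprime covering of a quotient -/
theorem cover {V X : Subgroup Γ} (hV : V.Normal) (hXn : X.Normal) (hVc : ∀ u ∈ V, ∀ v ∈ V, u * v = v * u)
    (hV2 : ∀ v ∈ V, v * v = 1) {y : Γ} (hy : Odd (orderOf y)) (hyv : ∀ v ∈ V, ⁅y, v⁆ ∈ X) :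
    V ≤ X ⊔ (V ⊓ centralizer {y}) := by
  intro v hv
  set N : Γ := (v * y) ^ (orderOf y) with hN
  have h1 : N ∈ V := by
    rw [← QuotientGroup.eq_one_iff, hN, QuotientGroup.mk_pow, QuotientGroup.mk_mul,
      (QuotientGroup.eq_one_iff v).mpr hv, one_mul, ← QuotientGroup.mk_pow, pow_orderOf_eq_one, QuotientGroup.mk_one]
  have h2 : N ∈ centralizer {y} := by
    rw [mem_centralizer_singleton_iff]
    have e1 : N * (v * y) = (v * y) * N := by rw [hN, ← pow_succ, ← pow_succ']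
    have e2 : N * v = v * N := hVc N h1 v hv
    have e3 : v * (N * y) = v * (y * N) := by
      calc v * (N * y) = (v * N) * y := by group
        _ = N * (v * y) := by rw [← e2]; group
        _ = v * (y * N) := by rw [e1]; group
    exact mul_left_cancel e3
  have h3 : v * N⁻¹ ∈ X := by
    rw [← QuotientGroup.eq_one_iff, QuotientGroup.mk_mul, QuotientGroup.mk_inv, mul_inv_eq_one, hN,
      QuotientGroup.mk_pow, QuotientGroup.mk_mul]
    have hc : Commute (v : Γ ⧸ X) (y : Γ ⧸ X) := by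
      have h4 := (QuotientGroup.eq_one_iff _).mpr (hyv v hv)
      rw [commutatorElement_def, QuotientGroup.mk_mul, QuotientGroup.mk_mul, QuotientGroup.mk_mul,
        QuotientGroup.mk_inv, QuotientGroup.mk_inv, mul_inv_eq_one, mul_inv_eq_iff_eq_mul] at h4
      exact h4.symm
    rw [hc.mul_pow, ← QuotientGroup.mk_pow, ← QuotientGroup.mk_pow, pow_orderOf_eq_one, QuotientGroup.mk_one, mul_one,
      pow_odd (hV2 v hv) hy]
  have h5 : v = (v * N⁻¹) * N := by group
  rw [h5]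
  exact Subgroup.mul_mem_sup h3 ⟨h1, h2⟩

/-- trivial action on a section of order at most four -/
theorem fix_small {B C : Subgroup Γ} (hC : C.Normal) {y : Γ} (hyB : ∀ b ∈ B, y * b * y⁻¹ ∈ B)
    (hcard : C.relIndex B ≤ 4) {n : ℕ} (hn : Nat.Coprime n 6) (hyn : y ^ n ∈ C) : ∀ b ∈ B, ⁅y, b⁆ ∈ C := by
  intro b hb
  set π := QuotientGroup.mk' C with hπ
  set W : Subgroup (Γ ⧸ C) := B.map π with hW
  have hW4 : Nat.card W ≤ 4 := by
    have h1 := Subgroup.relIndex_ker B π
    rw [hπ, QuotientGroup.ker_mk'] at h1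
    rw [hW, hπ, ← h1]
    exact hcard
  set f : MulAut (Γ ⧸ C) := MulAut.conj (π y) with hf
  have hinv : ∀ w ∈ W, f w ∈ W := by
    rintro _ ⟨b, hb, rfl⟩
    rw [hf, MulAut.conj_apply, ← map_inv, ← map_mul, ← map_mul]
    exact ⟨_, hyB b hb, rfl⟩
  have hw : π b ∈ W := ⟨b, hb, rfl⟩
  have h6 := SfN.pow_six_apply W hW4 f hinv _ hw
  have hnn : (f ^ n) (π b) = π b := by
    have : π y ^ n = 1 := by
      rw [← map_pow, hπ, QuotientGroup.mk'_apply, QuotientGroup.eq_one_iff]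
      exact hyn
    rw [hf, ← map_pow, this, map_one]
    rfl
  have h7 := SfN.fixed_of_six hn hnn h6
  rw [hf, MulAut.conj_apply] at h7
  rw [← QuotientGroup.eq_one_iff]
  have h8 : π y * π b = π b * π y := by rwa [mul_inv_eq_iff_eq_mul] at h7
  change π ⁅y, b⁆ = 1
  rw [map_commutatorElement, comm_eq_one_iff]
  exact h8

section

variable {T Z X : Subgroup Γ} (h : PM T Z) (hX : XM Z X) (hVc : ∀ u ∈ VV Z, ∀ v ∈ VV Z, u * v = v * u)
include h hX hVc

variable [(X1 X).Normal]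

/-- the inverted element -/
theorem exists_y {A : Subgroup Γ} {t : Γ} (htA : t ∈ A) (htt : t * t = 1)
    (htE : t ∉ (centralizer (EE X : Set (Γ ⧸ X1 X))).comap (QuotientGroup.mk' (X1 X)))
    (htc : Nat.card (EE X) ≤ 4 * Nat.card ↥(EE X ⊓ centralizer ((zpowers (QuotientGroup.mk' (X1 X) t) : Subgroup (Γ ⧸ X1 X)) : Set (Γ ⧸ X1 X)))) :
    ∃ y ∈ normalClosure (A : Set Γ), Odd (orderOf y) ∧
      y ∉ (centralizer (EE X : Set (Γ ⧸ X1 X))).comap (QuotientGroup.mk' (X1 X)) ∧
      (∃ n, Nat.Coprime n 6 ∧ y ^ n ∈ (centralizer (EE X : Set (Γ ⧸ X1 X))).comap (QuotientGroup.mk' (X1 X))) ∧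
      (centralizer {QuotientGroup.mk' (X1 X) y}).relIndex (EE X) ≤ 16 := by
  have hEn := EE_normal h hX hVc
  have hgood := good_E h hX hVc
  set π := QuotientGroup.mk' (X1 X) with hπ
  set f : Γ →* MulAut (EE X) := (rho (EE X)).comp π with hf
  have hker : ∀ g, f g = 1 ↔ g ∈ (centralizer (EE X : Set (Γ ⧸ X1 X))).comap π := by
    intro g
    rw [mem_comap, ← ker_rho, MonoidHom.mem_ker]
    rfl
  have ht1 : f t ≠ 1 := fun hc => htE ((hker t).mp hc)
  have htt' : f t * f t = 1 := by rw [← map_mul, htt, map_one]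
  have hrange : ∀ g, f g ∈ (rho (EE X)).range := fun g => ⟨π g, rfl⟩
  have hzp : ∀ b ∈ zpowers (f t), b = 1 ∨ b = f t := by
    intro b hb
    obtain ⟨k, rfl⟩ := Subgroup.mem_zpowers_iff.mp hb
    rcases Int.even_or_odd' k with ⟨m, rfl | rfl⟩
    · left
      rw [zpow_mul, zpow_two, htt', one_zpow]
    · right
      rw [zpow_add, zpow_mul, zpow_two, htt', one_zpow, one_mul, zpow_one]
  obtain ⟨x, hx, hx1, hxo, ⟨b, hb, hbx⟩, -⟩ := H34SolvOff.exists_inverted_of_core (rho (EE X)).range (zpowers (f t))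
    (by
      have := hgood.sol
      exact Group.isSolvable_of_surjective (rho (EE X)).rangeRestrict_surjective)
    hgood.core' (by rw [zpowers_le]; exact hrange t)
    (by
      intro b hb
      rcases hzp b hb with rfl | rfl
      · exact mul_one 1
      · exact htt')
    (by rw [Ne, Subgroup.zpowers_eq_bot]; exact ht1)
  have hbt : b = f t := by
    rcases hzp b hb with rfl | rfl
    · exfalso
      rw [one_mul, inv_one, mul_one] at hbx
      have : x ^ 2 = 1 := by rw [pow_two]; nth_rewrite 1 [hbx]; rw [inv_mul_cancel]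
      have h2 := orderOf_dvd_of_pow_eq_one this
      have h3 : orderOf x = 1 := Nat.eq_one_of_dvd_coprimes ((Nat.coprime_two_right).2 hxo) dvd_rfl h2
      exact hx1 (orderOf_eq_one_iff.mp h3)
    · rfl
  subst hbt
  have h3 : ¬ 3 ∣ orderOf x := SfN.not_three_dvd hgood.noInv (hrange t) hx htt' (orderOf_pos x) hbx
  obtain ⟨g0, hg0⟩ := hx
  obtain ⟨g, rfl⟩ := QuotientGroup.mk'_surjective _ g0
  have hgx : f g = x := hg0
  set z : Γ := g * t * g⁻¹ * t⁻¹ with hz
  have hfz : f z = x * x := by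
    have e1 : f t * x⁻¹ * (f t)⁻¹ = x := by
      calc f t * x⁻¹ * (f t)⁻¹ = (f t * x * (f t)⁻¹)⁻¹ := by group
        _ = x := by rw [hbx, inv_inv]
    rw [hz, map_mul, map_mul, map_mul, map_inv, map_inv, hgx]
    calc x * f t * x⁻¹ * (f t)⁻¹ = x * (f t * x⁻¹ * (f t)⁻¹) := by group
      _ = x * x := by rw [e1]
  obtain ⟨k, hk⟩ := exists_odd_pow z
  have htL : t ∈ normalClosure (A : Set Γ) := subset_normalClosure htA
  have hzL : z ∈ normalClosure (A : Set Γ) :=
    Subgroup.mul_mem _ ((normalClosure_normal (s := (A : Set Γ))).conj_mem t htL g) (Subgroup.inv_mem _ htL)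
  have hfy : f (z ^ 2 ^ k) = x ^ (2 * 2 ^ k) := by
    rw [map_pow, hfz, ← pow_two, ← pow_mul]
  refine ⟨z ^ (2 ^ k), Subgroup.pow_mem _ hzL _, hk, ?_, ⟨orderOf x, SfN.coprime_six hxo h3, ?_⟩, ?_⟩
  · rw [← hker, hfy]
    intro hc
    have h4 := orderOf_dvd_of_pow_eq_one hc
    have h5 : Nat.Coprime (orderOf x) (2 * 2 ^ k) := by
      rw [← pow_succ']
      exact Nat.Coprime.pow_right _ ((Nat.coprime_two_right).2 hxo)
    exact hx1 (orderOf_eq_one_iff.mp (Nat.eq_one_of_dvd_coprimes h5 dvd_rfl h4))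
  · rw [← hker, map_pow, hfy, ← pow_mul, mul_comm, pow_mul, pow_orderOf_eq_one, one_pow]
  · have hcz : ∀ s : Γ ⧸ X1 X, centralizer ((zpowers s : Subgroup (Γ ⧸ X1 X)) : Set (Γ ⧸ X1 X)) = centralizer {s} := by
      intro s
      rw [Subgroup.zpowers_eq_closure, Subgroup.centralizer_closure]
    have hc1 : (centralizer ((zpowers (π t) : Subgroup (Γ ⧸ X1 X)) : Set (Γ ⧸ X1 X))).relIndex (EE X) ≤ 4 := by
      have h1 := Subgroup.relIndex_mul_relIndex (⊥ : Subgroup (Γ ⧸ X1 X))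
        (EE X ⊓ centralizer ((zpowers (π t) : Subgroup (Γ ⧸ X1 X)) : Set (Γ ⧸ X1 X)))
        (EE X) bot_le inf_le_left
      rw [Subgroup.relIndex_bot_left, Subgroup.relIndex_bot_left, Subgroup.inf_relIndex_left] at h1
      rw [← h1, mul_comm] at htc
      exact Nat.le_of_mul_le_mul_right htc Nat.card_pos
    have hc2 : (centralizer ((zpowers (π (g * t * g⁻¹)) : Subgroup (Γ ⧸ X1 X)) : Set (Γ ⧸ X1 X))).relIndex (EE X) ≤ 4 := by
      have e1 : (zpowers (π t)).map (MulAut.conj (π g)).toMonoidHom = zpowers (π (g * t * g⁻¹)) := by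
        rw [MonoidHom.map_zpowers, map_mul, map_mul, map_inv]
        rfl
      have e2 : (EE X).map (MulAut.conj (π g)).toMonoidHom = EE X :=
        map_conj_eq_of_mem (by rw [normalizer_eq_top_of_normal hEn]; exact mem_top _)
      rw [← e1, ← map_conj_centralizer]
      nth_rewrite 1 [← e2]
      rw [Subgroup.relIndex_map_map_of_injective _ _ (MulAut.conj (π g)).injective]
      exact hc1
    rw [hcz] at hc1 hc2
    have hle : centralizer {π t} ⊓ centralizer {π (g * t * g⁻¹)} ≤ centralizer {π (z ^ 2 ^ k)} := by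
      rintro c ⟨hc, hc'⟩
      rw [mem_centralizer_singleton_iff]
      have h1 : Commute c (π t) := mem_centralizer_singleton_iff.mp hc
      have h2 : Commute c (π (g * t * g⁻¹)) := mem_centralizer_singleton_iff.mp hc'
      have h3 : Commute c (π z) := by
        rw [hz, map_mul π (g * t * g⁻¹) t⁻¹, map_inv π t]
        exact h2.mul_right h1.inv_right
      rw [map_pow]
      exact h3.pow_right _
    calc _ ≤ (centralizer {π t} ⊓ centralizer {π (g * t * g⁻¹)}).relIndex (EE X) :=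
          Subgroup.relIndex_le_of_le_left hle (ri_pos _ _).ne'
      _ ≤ (centralizer {π t}).relIndex (EE X) * (centralizer {π (g * t * g⁻¹)}).relIndex (EE X) :=
          Subgroup.relIndex_inf_le
      _ ≤ 4 * 4 := Nat.mul_le_mul hc1 hc2

/-- the final contradiction, for a fixed section -/
theorem final_aux {A : Subgroup Γ} (hA2 : ∀ a ∈ A, a * a = 1) (hne : ¬ A ≤ pCore 2 Γ)
    (heq : ((pCore 2 Γ).relIndex A) ^ 2 = (centralizer (A : Set Γ)).relIndex (VV Z))
    (hcen : VV Z ⊓ centralizer ((A ⊓ pCore 2 Γ : Subgroup Γ) : Set Γ) ≤ centralizer (A : Set Γ)) : False := by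
  have hEn := EE_normal h hX hVc
  have hV2 := h.Vtwo hVc
  have hVp := h.isPGroup_of_two hV2
  have hVn : (VV Z).Normal := inferInstance
  have hXn := hX.norm
  have hX1n : (X1 X).Normal := hX.X1_normal
  have hX1V : X1 X ≤ VV Z := inf_le_left.trans hX.le
  obtain ⟨hVX, hX1A, t, htA, htE, htc⟩ := (NE h hX hVc (h.isPGroup_of_two hA2)
    (fun a ha => by rw [hA2 a ha]; exact one_mem _)).2 hne heq
  obtain ⟨y, hyL, hyo, hyE, ⟨n, hn6, hynE⟩, hy16⟩ := exists_y h hX hVc htA (hA2 t htA) htE htc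
  set L := normalClosure (A : Set Γ) with hL
  -- `[V, L] ≤ X`
  have hcomm : ∀ a ∈ A, ∀ v ∈ VV Z, ∃ x ∈ X, ⁅a, v⁆ = ⁅a, x⁆ := by
    intro a ha v hv
    obtain ⟨x, hx, c, hc, rfl⟩ := exists_mul_of_mem_sup_of_le (A := X) (B := VV Z ⊓ centralizer (A : Set Γ))
      (by rw [normalizer_eq_top_of_normal hXn]; exact le_top) (hVX hv)
    refine ⟨x, hx, ?_⟩
    have h1 : a * c = c * a := mem_centralizer_iff.mp hc.2 a ha
    calc ⁅a, x * c⁆ = a * x * (c * a⁻¹) * c⁻¹ * x⁻¹ := by rw [commutatorElement_def]; group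
      _ = a * x * (a⁻¹ * c) * c⁻¹ * x⁻¹ := by
        rw [show c * a⁻¹ = a⁻¹ * c by rw [mul_inv_eq_iff_eq_mul, mul_assoc, ← h1]; group]
      _ = ⁅a, x⁆ := by rw [commutatorElement_def]; group
  have hLX : ∀ l ∈ L, ∀ v ∈ VV Z, ⁅l, v⁆ ∈ X := by
    refine comm_normalClosure hXn hVn fun a ha v hv => ?_
    obtain ⟨x, hx, e⟩ := hcomm a ha v hv
    rw [e, commutatorElement_def]
    exact Subgroup.mul_mem _ (hXn.conj_mem x hx a) (Subgroup.inv_mem _ hx)
  have hLX1 : L ≤ centralizer (X1 X : Set Γ) := by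
    have : (centralizer (X1 X : Set Γ)).Normal := inferInstance
    exact normalClosure_le_normal (Subgroup.le_centralizer_iff.mp hX1A)
  have hyX1 : ∀ e ∈ X1 X, e * y = y * e := fun e he => mem_centralizer_iff.mp (hLX1 hyL) e he
  -- size of `C_V(y)`
  have hyV : ((centralizer {y} : Subgroup Γ)).relIndex (VV Z) ≤ 16 := by
    have h1 := cover hVn hXn hVc hV2 hyo (fun v hv => hLX y hyL v hv)
    have e1 : X ⊔ (VV Z ⊓ centralizer {y}) = VV Z := le_antisymm (sup_le hX.le inf_le_left) h1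
    have hXnorm : X ≤ normalizer ((VV Z ⊓ centralizer {y} : Subgroup Γ) : Set Γ) := by
      refine le_trans ?_ (centralizer_le_normalizer _)
      intro x hx
      rw [mem_centralizer_iff]
      intro c hc
      exact hVc c hc.1 x (hX.le hx)
    have h2 := LocTrace.relIndex_sup_of_le_normalizer hXnorm
    rw [sup_comm, e1, Subgroup.inf_relIndex_left] at h2
    have e2 : (VV Z ⊓ centralizer {y}) ⊓ X = (centralizer {QuotientGroup.mk' (X1 X) y}).comap (QuotientGroup.mk' (X1 X)) ⊓ X := by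
      apply le_antisymm
      · rintro x ⟨⟨_, hx⟩, hxX⟩
        refine ⟨?_, hxX⟩
        have hx' := mem_centralizer_singleton_iff.mp hx
        change QuotientGroup.mk' (X1 X) x ∈ centralizer {QuotientGroup.mk' (X1 X) y}
        rw [mem_centralizer_singleton_iff, ← map_mul, hx', map_mul]
      · rintro x ⟨hx, hxX⟩
        refine ⟨⟨hX.le hxX, mem_centralizer_singleton_iff.mpr ?_⟩, hxX⟩
        have hx' : QuotientGroup.mk' (X1 X) x ∈ centralizer {QuotientGroup.mk' (X1 X) y} := hx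
        rw [mem_centralizer_singleton_iff] at hx'
        have h3 : ⁅y, x⁆ ∈ X1 X := by
          rw [← QuotientGroup.eq_one_iff]
          change QuotientGroup.mk' (X1 X) ⁅y, x⁆ = 1
          rw [map_commutatorElement, comm_eq_one_iff]
          exact hx'.symm
        have h4 : ⁅y, x⁆ = 1 := by
          refine comm_of_comm hVp hyo (hX1V h3) ?_
          rw [comm_eq_one_iff]
          exact (hyX1 _ h3).symm
        rw [comm_eq_one_iff] at h4
        exact h4.symm
    rw [h2, ← Subgroup.inf_relIndex_right, e2, Subgroup.inf_relIndex_right, Subgroup.relIndex_comap]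
    exact hy16
  -- the group `D`
  set D := normalClosure ((A ⊓ pCore 2 Γ : Subgroup Γ) : Set Γ) with hD
  have hDn : D.Normal := normalClosure_normal
  have hDQ : D ≤ pCore 2 Γ := by
    have := pCore_normal 2 Γ
    exact normalClosure_le_normal inf_le_right
  have hDL : D ≤ L := by
    have : L.Normal := normalClosure_normal
    exact normalClosure_le_normal (fun x hx => subset_normalClosure hx.1)
  have hDV : ∀ d ∈ D, ∀ v ∈ VV Z, ⁅d, v⁆ ∈ X1 X := by
    refine comm_normalClosure hX1n hVn fun a ha v hv => ?_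
    obtain ⟨x, hx, e⟩ := hcomm a ha.1 v hv
    rw [e]
    exact mem_X1_of_CE h hX hVc (Q_le_CE h hX hVc ha.2) hx
  have hDX1 : ∀ d ∈ D, ∀ e ∈ X1 X, e * d = d * e := fun d hd e he => mem_centralizer_iff.mp (hLX1 (hDL hd)) e he
  have hDp : IsPGroup 2 D := (isPGroup_pCore 2 Γ).to_le hDQ
  have hdv : ∀ d v : Γ, d * v * d⁻¹ = ⁅d, v⁆ * v := fun d v => by rw [commutatorElement_def]; group
  have hD2 : ∀ d ∈ D, d * d ∈ centralizer (VV Z : Set Γ) := by
    intro d hd
    rw [mem_centralizer_iff]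
    intro v hv
    have he := hDV d hd v hv
    have h1 : d * d * v * (d * d)⁻¹ = v := by
      calc d * d * v * (d * d)⁻¹ = d * (d * v * d⁻¹) * d⁻¹ := by group
        _ = (d * ⁅d, v⁆) * d⁻¹ * (d * v * d⁻¹) := by rw [hdv d v]; group
        _ = (⁅d, v⁆ * d) * d⁻¹ * (⁅d, v⁆ * v) := by rw [hDX1 d hd _ he, hdv d v]
        _ = (⁅d, v⁆ * ⁅d, v⁆) * v := by group
        _ = v := by rw [hV2 _ (hX1V he), one_mul]
    rw [mul_inv_eq_iff_eq_mul] at h1
    exact h1.symm
  -- the group `B`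
  set C0 : Subgroup Γ := VV Z ⊓ centralizer {y} with hC0
  have hyC0 : ∀ c ∈ C0, c * y = y * c := fun c hc => mem_centralizer_singleton_iff.mp hc.2
  set B := D ⊓ centralizer (C0 : Set Γ) with hB
  have hB4 : (centralizer (VV Z : Set Γ)).relIndex B ≤ 4 := by
    have h1 := h.NQ _ B rfl (inf_le_left.trans hDQ) (fun b hb => hD2 b hb.1)
    have h2 : (centralizer (B : Set Γ)).relIndex (VV Z) ≤ 16 := by
      refine le_trans ?_ hyV
      rw [← Subgroup.inf_relIndex_left (VV Z) (centralizer {y})]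
      exact Subgroup.relIndex_le_of_le_left (Subgroup.le_centralizer_iff.mp inf_le_right) (ri_pos _ _).ne'
    nlinarith
  have hyB : ∀ b ∈ B, y * b * y⁻¹ ∈ B := by
    rintro b ⟨hbD, hbC⟩
    refine ⟨hDn.conj_mem b hbD y, mem_centralizer_iff.mpr ?_⟩
    intro c hc
    have h1 := hyC0 c hc
    have h2 : c * b = b * c := mem_centralizer_iff.mp hbC c hc
    have h3 : c * y⁻¹ = y⁻¹ * c := by rw [mul_inv_eq_iff_eq_mul, mul_assoc, h1]; group
    calc c * (y * b * y⁻¹) = (c * y) * b * y⁻¹ := by group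
      _ = y * (c * b) * y⁻¹ := by rw [h1]; group
      _ = y * b * (c * y⁻¹) := by rw [h2]; group
      _ = y * b * y⁻¹ * c := by rw [h3]; group
  have hyn : y ^ n ∈ centralizer (VV Z : Set Γ) := by
    have hyno : Odd (orderOf (y ^ n)) := by
      have h1 : orderOf (y ^ n) ∣ orderOf y := orderOf_pow_dvd n
      exact Odd.of_dvd_nat hyo h1
    have hynX : ∀ x ∈ X, ⁅y ^ n, x⁆ = 1 := by
      intro x hx
      have h1 := mem_X1_of_CE h hX hVc hynE hx
      refine comm_of_comm hVp hyno (hX1V h1) ?_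
      rw [comm_eq_one_iff]
      have h2 : Commute (⁅y ^ n, x⁆) y := hyX1 _ h1
      exact (h2.pow_right n).symm
    rw [mem_centralizer_iff]
    intro v hv
    have h1 := hLX (y ^ n) (Subgroup.pow_mem _ hyL n) v hv
    have h2 : ⁅y ^ n, v⁆ = 1 := comm_of_comm hVp hyno (hX.le h1) (hynX _ h1)
    rw [comm_eq_one_iff] at h2
    exact h2.symm
  have htriv := fix_small (B := B) (C := centralizer (VV Z : Set Γ)) inferInstance hyB hB4 hn6 hyn
  have hdB : ∀ d ∈ D, ⁅y, d⁆ ∈ B := by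
    intro d hd
    refine ⟨?_, mem_centralizer_iff.mpr ?_⟩
    · rw [SetLike.mem_coe, commutatorElement_def]
      exact Subgroup.mul_mem _ (hDn.conj_mem d hd y) (Subgroup.inv_mem _ hd)
    · intro c hc
      have he := hDV d⁻¹ (Subgroup.inv_mem _ hd) c hc.1
      set e := ⁅d⁻¹, c⁆ with hedef
      have h1 : d⁻¹ * c * d = e * c := by rw [hedef, commutatorElement_def]; group
      have h2 : y⁻¹ * (e * c) * y = e * c := by
        calc y⁻¹ * (e * c) * y = y⁻¹ * e * (c * y) := by group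
          _ = y⁻¹ * (e * y) * c := by rw [hyC0 c hc]; group
          _ = e * c := by rw [hyX1 e he]; group
      have h3 : y * (e * c) * y⁻¹ = e * c := by
        calc y * (e * c) * y⁻¹ = y * (y⁻¹ * (e * c) * y) * y⁻¹ := by rw [h2]
          _ = e * c := by group
      have h4 : y * c * y⁻¹ = c := by rw [← hyC0 c hc]; group
      have h5 : ⁅y, d⁆ * c * ⁅y, d⁆⁻¹ = c := by
        calc ⁅y, d⁆ * c * ⁅y, d⁆⁻¹ = y * d * (y⁻¹ * (d⁻¹ * c * d) * y) * d⁻¹ * y⁻¹ := by
              rw [commutatorElement_def]; group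
          _ = y * (d * (d⁻¹ * c * d) * d⁻¹) * y⁻¹ := by rw [h1, h2]; group
          _ = y * c * y⁻¹ := by group
          _ = c := h4
      rw [mul_inv_eq_iff_eq_mul] at h5
      exact h5.symm
  have hDC : ∀ d ∈ D, ⁅y, d⁆ ∈ centralizer (VV Z : Set Γ) := by
    intro d hd
    have hCn : normalizer ((centralizer (VV Z : Set Γ) : Subgroup Γ) : Set Γ) = ⊤ :=
      normalizer_eq_top_of_normal inferInstance
    exact commutator_mem_of_coprime hDp ((Nat.coprime_two_right).2 hyo) (hdB d hd).1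
      (by rw [hCn]; exact mem_top _) (by rw [hCn]; exact mem_top _) (htriv _ (hdB d hd))
  -- `D` centralises `[V, y]`
  have hDw : ∀ d ∈ D, ∀ v ∈ VV Z, ⁅y, v⁆ * d = d * ⁅y, v⁆ := by
    intro d hd v hv
    have he := hDV d hd v hv
    set e := ⁅d, v⁆ with hedef
    have h1 : d * v * d⁻¹ = e * v := hdv d v
    have hk : ⁅d, y⁆ ∈ centralizer (VV Z : Set Γ) := by
      rw [← commutatorElement_inv]; exact Subgroup.inv_mem _ (hDC d hd)
    set k := ⁅d, y⁆ with hkdef
    have h2 : d * y = k * y * d := by rw [hkdef, commutatorElement_def]; group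
    have hyv : y * v * y⁻¹ ∈ VV Z := hVn.conj_mem v hv y
    have h3 : k * (e * (y * v * y⁻¹)) = e * (y * v * y⁻¹) * k :=
      (mem_centralizer_iff.mp hk _ (Subgroup.mul_mem _ (hX1V he) hyv)).symm
    have h4 : d * (y * v * y⁻¹) * d⁻¹ = e * (y * v * y⁻¹) := by
      calc d * (y * v * y⁻¹) * d⁻¹ = (d * y) * v * (d * y)⁻¹ := by group
        _ = k * (y * (d * v * d⁻¹) * y⁻¹) * k⁻¹ := by rw [h2]; group
        _ = k * ((y * e) * v * y⁻¹) * k⁻¹ := by rw [h1]; group
        _ = k * (e * (y * v * y⁻¹)) * k⁻¹ := by rw [← hyX1 e he]; group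
        _ = e * (y * v * y⁻¹) := by rw [h3]; group
    have hw : ⁅y, v⁆ ∈ VV Z := hX.le (hLX y hyL v hv)
    have h5 : d * ⁅y, v⁆ * d⁻¹ = ⁅y, v⁆ := by
      calc d * ⁅y, v⁆ * d⁻¹ = (d * (y * v * y⁻¹) * d⁻¹) * (d * v * d⁻¹)⁻¹ := by rw [commutatorElement_def]; group
        _ = e * (y * v * y⁻¹) * (e * v)⁻¹ := by rw [h4, h1]
        _ = e * ⁅y, v⁆ * e⁻¹ := by rw [commutatorElement_def]; group
        _ = ⁅y, v⁆ := by rw [hVc e (hX1V he) _ hw]; group
    rw [mul_inv_eq_iff_eq_mul] at h5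
    exact h5.symm
  -- conclusion
  have hAC : A ≤ centralizer ((VV Z ⊓ centralizer (D : Set Γ) : Subgroup Γ) : Set Γ) := by
    rw [Subgroup.le_centralizer_iff]
    refine le_trans ?_ hcen
    exact inf_le_inf_left _ (centralizer_le (fun x hx => subset_normalClosure hx))
  have hLC : L ≤ centralizer ((VV Z ⊓ centralizer (D : Set Γ) : Subgroup Γ) : Set Γ) := by
    have : (centralizer ((VV Z ⊓ centralizer (D : Set Γ) : Subgroup Γ) : Set Γ)).Normal := inferInstance
    exact normalClosure_le_normal hAC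
  apply hyE
  have hyC : y ∈ centralizer (VV Z : Set Γ) := by
    rw [mem_centralizer_iff]
    intro v hv
    have hw : ⁅y, v⁆ ∈ VV Z := hX.le (hLX y hyL v hv)
    have h1 : ⁅y, v⁆ ∈ VV Z ⊓ centralizer (D : Set Γ) :=
      ⟨hw, mem_centralizer_iff.mpr fun d hd => (hDw d hd v hv).symm⟩
    have h2 : ⁅y, v⁆ = 1 := by
      refine comm_of_comm hVp hyo hw ?_
      rw [comm_eq_one_iff]
      exact (mem_centralizer_iff.mp (hLC hyL) _ h1).symm
    rw [comm_eq_one_iff] at h2
    exact h2.symm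
  rintro _ ⟨x, hx, rfl⟩
  rw [← map_mul, ← map_mul, mem_centralizer_iff.mp hyC x (hX.le hx)]

end

/-- **the final contradiction** -/
theorem final {T Z : Subgroup Γ} (h : PM T Z) (hVc : ∀ u ∈ VV Z, ∀ v ∈ VV Z, u * v = v * u)
    {A : Subgroup Γ} (hA2 : ∀ a ∈ A, a * a = 1) (hne : ¬ A ≤ pCore 2 Γ)
    (heq : ((pCore 2 Γ).relIndex A) ^ 2 = (centralizer (A : Set Γ)).relIndex (VV Z))
    (hcen : VV Z ⊓ centralizer ((A ⊓ pCore 2 Γ : Subgroup Γ) : Set Γ) ≤ centralizer (A : Set Γ)) : False := by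
  obtain ⟨X, hX⟩ := h.exists_XM
  have := hX.X1_normal
  exact final_aux h hX hVc hA2 hne heq hcen

/-- the bound for arbitrary 2-subgroups -/
theorem bound_E {T Z : Subgroup Γ} (h : PM T Z) (hVc : ∀ u ∈ VV Z, ∀ v ∈ VV Z, u * v = v * u)
    {A : Subgroup Γ} (hA : IsPGroup 2 A) (hA2 : ∀ a ∈ A, a * a ∈ centralizer (VV Z : Set Γ)) :
    ((pCore 2 Γ).relIndex A) ^ 2 ≤ (centralizer (A : Set Γ)).relIndex (VV Z) := by
  obtain ⟨X, hX⟩ := h.exists_XM
  have := hX.X1_normal
  exact (NE h hX hVc hA hA2).1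

end Cfsg.Agent.Lib.SfMin
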