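import Cfsg.Agent.Lib.SfAct
import Cfsg.Agent.Lib.LocTrace
import Cfsg.Agent.Lib.LocMore

/-!
# Minimal overgroups in the `S₄`-free amalgam (helper47)
-/

set_option autoImplicit false
set_option linter.unusedSectionVars false

namespace Cfsg.Agent.Lib.SfMin

open Subgroup Cfsg Cfsg.Agent.Lib.SfAct Cfsg.Agent.Lib.LocBase
open scoped commutatorElement

instance fact2 : Fact (Nat.Prime 2) := ⟨Nat.prime_two⟩

variable {Γ : Type*} [Group Γ] [Finite Γ]

/-- the minimal situation -/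
structure PM (T Z : Subgroup Γ) : Prop where
  sol : Group.IsSolvable Γ
  free : ¬ Cfsg.Involves (Equiv.Perm (Fin 4)) Γ
  char : centralizer (pCore 2 Γ : Set Γ) ≤ pCore 2 Γ
  syl : IsSyl 2 T ⊤
  ZT : Z ≤ T
  TZ : T ≤ normalizer (Z : Set Γ)
  Zcomm : ∀ a ∈ Z, ∀ b ∈ Z, a * b = b * a
  Ztwo : ∀ a ∈ Z, a * a = 1
  min : ∀ K : Subgroup Γ, T ≤ K → K ≠ ⊤ → K ≤ normalizer (Z : Set Γ)
  nn : ¬ Z.Normal
  NN : ∀ A : Subgroup Γ, A ≤ T → (∀ a ∈ A, a * a ∈ centralizer (Z : Set Γ)) →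
    ((centralizer (Z : Set Γ)).relIndex A) ^ 2 ≤ (centralizer (A : Set Γ)).relIndex Z

theorem normalizer_eq_top_of_normal {N : Subgroup Γ} (h : N.Normal) : normalizer (N : Set Γ) = ⊤ :=
  Subgroup.normalizer_eq_top_iff.mpr h

theorem ri_pos (H K : Subgroup Γ) : 0 < H.relIndex K :=
  Nat.pos_of_dvd_of_pos (Subgroup.relIndex_dvd_card H K) Nat.card_pos

theorem comm_of_comm {R : Subgroup Γ} (hR : IsPGroup 2 R) {y a : Γ} (hy : Odd (orderOf y)) (h1 : ⁅y, a⁆ ∈ R)
    (h2 : ⁅y, ⁅y, a⁆⁆ = 1) : ⁅y, a⁆ = 1 := by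
  have hn : normalizer ((⊥ : Subgroup Γ) : Set Γ) = ⊤ := normalizer_eq_top_of_normal inferInstance
  have := commutator_mem_of_coprime (S := ⊥) hR ((Nat.coprime_two_right).2 hy) h1
    (by rw [hn]; exact mem_top _) (by rw [hn]; exact mem_top _) (by rw [h2]; exact one_mem _)
  exact mem_bot.mp this

namespace PM

variable {T Z : Subgroup Γ} (h : PM T Z)
include h

theorem pCore_le : pCore 2 Γ ≤ T := by
  have := h.syl.pCoreOf_le
  rwa [pCoreOf_top] at this

theorem top_of_normal {K : Subgroup Γ} (hTK : T ≤ K) (hK : ∃ N : Subgroup Γ, N.Normal ∧ N ⊔ K = ⊤ ∧ N ≤ normalizer (Z : Set Γ)) :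
    K = ⊤ := by
  by_contra hne
  obtain ⟨N, -, h1, h2⟩ := hK
  apply h.nn
  rw [← Subgroup.normalizer_eq_top_iff, eq_top_iff, ← h1]
  exact sup_le h2 (h.min K hTK hne)

/-- the dichotomy -/
theorem dich (N : Subgroup Γ) (hN : N.Normal) : T ⊓ N ≤ pCore 2 Γ ∨ pRes 2 (⊤ : Subgroup Γ) ≤ N := by
  have hTN : IsSyl 2 (T ⊓ N) N := h.syl.inf_normal le_top (by rw [normalizer_eq_top_of_normal hN])
  have hfr := hTN.frattini_sup le_top (by rw [normalizer_eq_top_of_normal hN])
  rw [top_inf_eq] at hfr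
  by_cases hS : normalizer ((T ⊓ N : Subgroup Γ) : Set Γ) = ⊤
  · left
    exact le_pCore (Subgroup.normalizer_eq_top_iff.mp hS) hTN.pgroup
  · right
    have hT : T ≤ normalizer ((T ⊓ N : Subgroup Γ) : Set Γ) :=
      le_normalizer_inf le_normalizer (by rw [normalizer_eq_top_of_normal hN]; exact le_top)
    by_contra hK
    have hne : N ⊔ T ≠ ⊤ := by
      intro htop
      apply hK
      have hq : IsPGroup 2 (Γ ⧸ N) := by
        intro x
        obtain ⟨g, rfl⟩ := QuotientGroup.mk_surjective x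
        have hg : g ∈ N ⊔ T := by rw [htop]; exact mem_top _
        obtain ⟨n, hn, t, ht, rfl⟩ := exists_mul_of_mem_sup_of_le
          (by rw [normalizer_eq_top_of_normal hN]; exact le_top) hg
        obtain ⟨k, hk⟩ := h.syl.pgroup ⟨t, ht⟩
        refine ⟨k, ?_⟩
        have hk' : t ^ 2 ^ k = 1 := by
          have := congrArg Subtype.val hk
          simpa using this
        have e : ((n * t : Γ) : Γ ⧸ N) = (t : Γ ⧸ N) := by
          rw [QuotientGroup.mk_mul, (QuotientGroup.eq_one_iff n).mpr hn, one_mul]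
        rw [e, ← QuotientGroup.mk_pow, hk', QuotientGroup.mk_one]
      have := isPGroup_quotient_of_pRes_le.mp hq
      rwa [pResidual_eq] at this
    exact hS (h.top_of_normal hT ⟨N, hN, hfr, le_sup_left.trans (h.min _ le_sup_right hne)⟩)

theorem dich' (N : Subgroup Γ) (hN : N.Normal) (hK : ¬ pRes 2 (⊤ : Subgroup Γ) ≤ N) {A : Subgroup Γ}
    (hA : IsPGroup 2 A) : A ⊓ N ≤ pCore 2 Γ := by
  obtain ⟨g, -, hg⟩ := h.syl.exists_conj_le hA le_top
  have h1 : (A ⊓ N).map (MulAut.conj g).toMonoidHom ≤ T ⊓ N := by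
    refine le_inf ((Subgroup.map_mono inf_le_left).trans hg) ?_
    refine (Subgroup.map_mono inf_le_right).trans ?_
    rw [map_conj_eq_of_mem (by rw [normalizer_eq_top_of_normal hN]; exact mem_top _)]
  have h2 := h1.trans ((h.dich N hN).resolve_right hK)
  rw [map_conj_le_iff, map_conj_eq_of_mem (by rw [normalizer_eq_top_of_normal (pCore_normal _ _)]; exact mem_top _)] at h2
  exact h2

theorem conj_pCore (g : Γ) : (pCore 2 Γ).map (MulAut.conj g).toMonoidHom = pCore 2 Γ :=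
  map_conj_eq_of_mem (by rw [normalizer_eq_top_of_normal (pCore_normal _ _)]; exact mem_top _)

/-- `NN` for conjugates -/
theorem NNc (g : Γ) {A : Subgroup Γ} (hA : A ≤ T.map (MulAut.conj g).toMonoidHom)
    (hA2 : ∀ a ∈ A, a * a ∈ centralizer ((Z.map (MulAut.conj g).toMonoidHom : Subgroup Γ) : Set Γ)) :
    ((centralizer ((Z.map (MulAut.conj g).toMonoidHom : Subgroup Γ) : Set Γ)).relIndex A) ^ 2 ≤
      (centralizer (A : Set Γ)).relIndex (Z.map (MulAut.conj g).toMonoidHom) := by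
  obtain ⟨A, rfl⟩ : ∃ B : Subgroup Γ, B.map (MulAut.conj g).toMonoidHom = A :=
    ⟨A.map (MulAut.conj g⁻¹).toMonoidHom, by rw [← map_conj_mul, mul_inv_cancel, map_conj_one]⟩
  rw [map_conj_le_map_conj] at hA
  rw [← map_conj_centralizer, ← map_conj_centralizer,
    Subgroup.relIndex_map_map_of_injective _ _ (MulAut.conj g).injective,
    Subgroup.relIndex_map_map_of_injective _ _ (MulAut.conj g).injective]
  refine h.NN A hA fun a ha => ?_
  have h1 := hA2 _ ⟨a, ha, rfl⟩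
  rw [← map_conj_centralizer, ← map_mul] at h1
  obtain ⟨c, hc, hc'⟩ := h1
  rwa [(MulAut.conj g).injective hc'] at hc

end PM

/-- the normal closure -/
abbrev VV (Z : Subgroup Γ) : Subgroup Γ := normalClosure (Z : Set Γ)

namespace PM

variable {T Z : Subgroup Γ} (h : PM T Z)
include h

theorem conj_Z_le_VV (g : Γ) : Z.map (MulAut.conj g).toMonoidHom ≤ VV Z := by
  rintro _ ⟨z, hz, rfl⟩
  exact (normalClosure_normal (s := (Z : Set Γ))).conj_mem z (subset_normalClosure hz) g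

theorem NQ : ∀ n : ℕ, ∀ B : Subgroup Γ, Nat.card B = n → B ≤ pCore 2 Γ →
    (∀ b ∈ B, b * b ∈ centralizer (VV Z : Set Γ)) →
    ((centralizer (VV Z : Set Γ)).relIndex B) ^ 2 ≤ (centralizer (B : Set Γ)).relIndex (VV Z) := by
  intro n
  induction n using Nat.strong_induction_on with
  | _ n ih =>
  intro B hn hB hB2
  by_cases hc : B ≤ centralizer (VV Z : Set Γ)
  · rw [Subgroup.relIndex_eq_one.mpr hc, one_pow]
    exact ri_pos _ _
  obtain ⟨g, hg⟩ : ∃ g : Γ, ¬ B ≤ centralizer ((Z.map (MulAut.conj g).toMonoidHom : Subgroup Γ) : Set Γ) := by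
    by_contra hcon
    push Not at hcon
    apply hc
    rw [Subgroup.le_centralizer_iff]
    refine (closure_le _).mpr ?_
    intro x hx
    rw [Group.mem_conjugatesOfSet_iff] at hx
    obtain ⟨z, hz, hzx⟩ := hx
    rw [isConj_iff] at hzx
    obtain ⟨g, rfl⟩ := hzx
    exact (Subgroup.le_centralizer_iff.mp (hcon g)) ⟨z, hz, rfl⟩
  set Z' := Z.map (MulAut.conj g).toMonoidHom with hZ'
  have hZV : Z' ≤ VV Z := h.conj_Z_le_VV g
  have hCC : centralizer (VV Z : Set Γ) ≤ centralizer (Z' : Set Γ) := centralizer_le hZV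
  have h1 := h.NNc g (A := B) (hB.trans (by rw [← h.conj_pCore g]; exact map_conj_mono g h.pCore_le))
    (fun b hb => hCC (hB2 b hb))
  rw [← hZ'] at h1
  set B₁ := centralizer (Z' : Set Γ) ⊓ B with hB₁
  have hlt : Nat.card B₁ < n := by
    rw [← hn]
    have hlt' : B₁ < B := lt_of_le_of_ne inf_le_right (fun e => hg (by rw [← e]; exact inf_le_left))
    exact lt_of_le_of_ne (Subgroup.card_le_of_le hlt'.le)
      (fun e => hlt'.ne (Subgroup.eq_of_le_of_card_ge hlt'.le e.ge))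
  have h2 := ih _ hlt B₁ rfl (inf_le_right.trans hB) (fun b hb => hB2 b hb.2)
  have h3 := Subgroup.relIndex_inf_mul_relIndex (centralizer (VV Z : Set Γ)) (centralizer (Z' : Set Γ)) B
  rw [inf_eq_left.mpr hCC, ← hB₁] at h3
  have h4 := Subgroup.relIndex_inf_mul_relIndex (centralizer (B : Set Γ)) (centralizer (B₁ : Set Γ)) (VV Z)
  rw [inf_eq_left.mpr (centralizer_le (inf_le_right : B₁ ≤ B))] at h4
  have h5 : (centralizer (B : Set Γ)).relIndex Z' ≤
      (centralizer (B : Set Γ)).relIndex (centralizer (B₁ : Set Γ) ⊓ VV Z) :=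
    Subgroup.relIndex_le_of_le_right (le_inf (Subgroup.le_centralizer_iff.mp inf_le_left) hZV)
      (ri_pos _ _).ne'
  rw [← h3, ← h4, mul_pow, mul_comm]
  exact Nat.mul_le_mul (h1.trans h5) h2

section abelian

variable (hVc : ∀ u ∈ VV Z, ∀ v ∈ VV Z, u * v = v * u)
include hVc

theorem Vtwo : ∀ v ∈ VV Z, v * v = 1 := by
  let E : Subgroup Γ :=
    { carrier := {v | v ∈ VV Z ∧ v * v = 1}
      mul_mem' := by
        rintro a b ⟨ha, ha2⟩ ⟨hb, hb2⟩
        refine ⟨Subgroup.mul_mem _ ha hb, ?_⟩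
        calc a * b * (a * b) = a * (b * a) * b := by group
          _ = a * (a * b) * b := by rw [hVc b hb a ha]
          _ = (a * a) * (b * b) := by group
          _ = 1 := by rw [ha2, hb2, mul_one]
      one_mem' := ⟨one_mem _, mul_one 1⟩
      inv_mem' := by
        rintro a ⟨ha, ha2⟩
        refine ⟨Subgroup.inv_mem _ ha, ?_⟩
        rw [← mul_inv_rev, ha2, inv_one] }
  have hE : E.Normal := by
    constructor
    rintro v ⟨hv, hv2⟩ g
    refine ⟨(normalClosure_normal (s := (Z : Set Γ))).conj_mem v hv g, ?_⟩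
    calc g * v * g⁻¹ * (g * v * g⁻¹) = g * (v * v) * g⁻¹ := by group
      _ = 1 := by rw [hv2]; group
  have hle : VV Z ≤ E := normalClosure_le_normal fun z hz => ⟨subset_normalClosure hz, h.Ztwo z hz⟩
  exact fun v hv => (hle hv).2

omit hVc in
theorem isPGroup_of_two {A : Subgroup Γ} (hA : ∀ v ∈ A, v * v = 1) : IsPGroup 2 A := by
  intro x
  refine ⟨1, ?_⟩
  rw [pow_one, pow_two]
  exact Subtype.ext (hA x x.2)

theorem V_le : VV Z ≤ pCore 2 Γ :=
  le_pCore inferInstance (h.isPGroup_of_two (h.Vtwo hVc))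

omit hVc in
theorem Z_le_V : Z ≤ VV Z := subset_normalClosure

omit hVc in
theorem K_not : ¬ pRes 2 (⊤ : Subgroup Γ) ≤ centralizer (VV Z : Set Γ) := by
  intro hc
  apply h.nn
  rw [← Subgroup.normalizer_eq_top_iff, eq_top_iff, ← h.syl.sup_pRes]
  exact sup_le h.TZ ((hc.trans (centralizer_le h.Z_le_V)).trans (centralizer_le_normalizer _))

omit hVc in
theorem inf_CV {A : Subgroup Γ} (hA : IsPGroup 2 A) : A ⊓ centralizer (VV Z : Set Γ) ≤ pCore 2 Γ :=
  h.dich' _ inferInstance h.K_not hA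

end abelian

end PM

end Cfsg.Agent.Lib.SfMin
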