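import Cfsg.Agent.Lib.SfMin

/-!
# Minimal overgroups: the irreducible section (helper47)
-/

set_option autoImplicit false
set_option linter.unusedSectionVars false

namespace Cfsg.Agent.Lib.SfMin

open Subgroup Cfsg Cfsg.Agent.Lib.SfAct Cfsg.Agent.Lib.LocBase
open scoped commutatorElement

variable {Γ : Type*} [Group Γ] [Finite Γ]

/-- the residual -/
abbrev KK (Γ : Type*) [Group Γ] : Subgroup Γ := pRes 2 (⊤ : Subgroup Γ)

/-- a minimal normal subgroup of `V` not centralised by the residual -/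
structure XM (Z X : Subgroup Γ) : Prop where
  norm : X.Normal
  le : X ≤ VV Z
  ne : ¬ KK Γ ≤ centralizer (X : Set Γ)
  min : ∀ N : Subgroup Γ, N.Normal → N ≤ X → N ≠ X → KK Γ ≤ centralizer (N : Set Γ)

theorem PM.exists_XM {T Z : Subgroup Γ} (h : PM T Z) : ∃ X, XM Z X := by
  have hfin : Set.Finite {X : Subgroup Γ | X.Normal ∧ X ≤ VV Z ∧ ¬ KK Γ ≤ centralizer (X : Set Γ)} := Set.toFinite _
  obtain ⟨X, ⟨h1, h2, h3⟩, hmin⟩ := hfin.exists_minimal ⟨VV Z, inferInstance, le_rfl, h.K_not⟩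
  refine ⟨X, h1, h2, h3, fun N hN hNX hne => ?_⟩
  by_contra hc
  exact hne (le_antisymm hNX (hmin ⟨hN, hNX.trans h2, hc⟩ hNX))

/-- fixed points of the residual -/
abbrev X1 (X : Subgroup Γ) : Subgroup Γ := X ⊓ centralizer (KK Γ : Set Γ)

namespace XM

variable {Z X : Subgroup Γ} (hX : XM Z X)
include hX

theorem X1_normal : (X1 X).Normal := by
  have := hX.norm
  infer_instance

theorem isPGroup {T : Subgroup Γ} (h : PM T Z) (hVc : ∀ u ∈ VV Z, ∀ v ∈ VV Z, u * v = v * u) : IsPGroup 2 X :=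
  (h.isPGroup_of_two (h.Vtwo hVc)).to_le hX.le

end XM

/-- the section -/
abbrev EE (X : Subgroup Γ) [(X1 X).Normal] : Subgroup (Γ ⧸ X1 X) := X.map (QuotientGroup.mk' (X1 X))

section

variable {T Z X : Subgroup Γ} (h : PM T Z) (hX : XM Z X) (hVc : ∀ u ∈ VV Z, ∀ v ∈ VV Z, u * v = v * u)
include h hX hVc

variable [(X1 X).Normal]

theorem EE_normal : (EE X).Normal := hX.norm.map _ (QuotientGroup.mk'_surjective _)

theorem good_E : Good (EE X) where
  comm := by
    rintro _ ⟨u, hu, rfl⟩ _ ⟨v, hv, rfl⟩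
    rw [← map_mul, ← map_mul, hVc u (hX.le hu) v (hX.le hv)]
  two := by
    rintro _ ⟨v, hv, rfl⟩
    rw [← map_mul, h.Vtwo hVc v (hX.le hv), map_one]
  sol := by
    have := h.sol
    infer_instance
  free := fun hi => h.free (H34S4.involves_of_involves_quotient (X1 X) hi)
  core := by
    intro D hD hDE
    have hEn := EE_normal h hX hVc
    obtain ⟨S, hS⟩ := exists_isSyl 2 D
    have hSD := hS.sup_pRes
    have hEp : IsPGroup 2 (EE X) := (hX.isPGroup h hVc).map _
    have hE1 : EE X ≠ ⊥ := by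
      intro hb
      rw [Subgroup.map_eq_bot_iff, QuotientGroup.ker_mk'] at hb
      exact hX.ne (Subgroup.le_centralizer_iff.mp (hb.trans inf_le_right))
    obtain ⟨u, hu, hu1, huS⟩ := LocTrace.exists_fixed (p := 2) hEp hS.pgroup
      (by rw [normalizer_eq_top_of_normal hEn]; exact le_top) hE1
    have huD : u ∈ centralizer (D : Set (Γ ⧸ X1 X)) := by
      have h1 : S ≤ centralizer ((zpowers u : Subgroup (Γ ⧸ X1 X)) : Set (Γ ⧸ X1 X)) := by
        rw [Subgroup.le_centralizer_iff, zpowers_le]; exact huS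
      have h2 : pRes 2 D ≤ centralizer ((zpowers u : Subgroup (Γ ⧸ X1 X)) : Set (Γ ⧸ X1 X)) :=
        hDE.trans (centralizer_le (by rw [SetLike.coe_subset_coe, zpowers_le]; exact hu))
      have h3 := sup_le h1 h2
      rw [hSD, Subgroup.le_centralizer_iff, zpowers_le] at h3
      exact h3
    set N : Subgroup Γ := X ⊓ (centralizer (D : Set (Γ ⧸ X1 X))).comap (QuotientGroup.mk' (X1 X)) with hN
    have hNn : N.Normal := by
      have := hX.norm
      infer_instance
    by_cases hNX : N = X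
    · rw [Subgroup.le_centralizer_iff, Subgroup.map_le_iff_le_comap]
      exact hNX.symm.le.trans inf_le_right
    · exfalso
      have h4 := hX.min N hNn inf_le_left hNX
      obtain ⟨x, hx, rfl⟩ := hu
      apply hu1
      rw [QuotientGroup.mk'_apply, QuotientGroup.eq_one_iff]
      exact ⟨hx, (Subgroup.le_centralizer_iff.mp h4) ⟨hx, huD⟩⟩

/-- the centraliser of the section -/
theorem Q_le_CE : pCore 2 Γ ≤ (centralizer (EE X : Set (Γ ⧸ X1 X))).comap (QuotientGroup.mk' (X1 X)) := by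
  rw [← Subgroup.map_le_iff_le_comap]
  refine (good_E h hX hVc).core _ ((pCore_normal 2 Γ).map _ (QuotientGroup.mk'_surjective _)) ?_
  rw [isPGroup_iff_pRes_eq_bot.mp ((isPGroup_pCore 2 Γ).map _)]
  exact bot_le

theorem mem_X1_of_CE {y x : Γ} (hy : y ∈ (centralizer (EE X : Set (Γ ⧸ X1 X))).comap (QuotientGroup.mk' (X1 X)))
    (hx : x ∈ X) : ⁅y, x⁆ ∈ X1 X := by
  rw [← QuotientGroup.eq_one_iff]
  have h1 : (x : Γ ⧸ X1 X) * y = y * x := mem_centralizer_iff.mp hy _ ⟨x, hx, rfl⟩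
  rw [commutatorElement_def, QuotientGroup.mk_mul, QuotientGroup.mk_mul, QuotientGroup.mk_mul, ← h1]
  simp

theorem K_not_CE : ¬ KK Γ ≤ (centralizer (EE X : Set (Γ ⧸ X1 X))).comap (QuotientGroup.mk' (X1 X)) := by
  intro hK
  apply hX.ne
  rw [pRes_le_iff]
  intro y _ hyo
  have hyK : y ∈ KK Γ := mem_pRes (mem_top _) hyo
  rw [mem_centralizer_iff]
  intro x hx
  have h1 := mem_X1_of_CE h hX hVc (hK hyK) hx
  have h2 : ⁅y, ⁅y, x⁆⁆ = 1 := by
    rw [commutatorElement_eq_one_iff_mul_comm]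
    exact mem_centralizer_iff.mp h1.2 y hyK
  have h3 := comm_of_comm (hX.isPGroup h hVc) ((Nat.coprime_two_right).1 hyo) h1.1 h2
  rw [commutatorElement_eq_one_iff_mul_comm] at h3
  exact h3.symm

theorem inf_CE {A : Subgroup Γ} (hA : IsPGroup 2 A) :
    A ⊓ (centralizer (EE X : Set (Γ ⧸ X1 X))).comap (QuotientGroup.mk' (X1 X)) = A ⊓ pCore 2 Γ := by
  have hEn := EE_normal h hX hVc
  apply le_antisymm
  · exact le_inf inf_le_left (h.dich' _ inferInstance (K_not_CE h hX hVc) hA)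
  · exact inf_le_inf_left _ (Q_le_CE h hX hVc)

theorem relIndex_CE {A : Subgroup Γ} (hA : IsPGroup 2 A) :
    (centralizer (EE X : Set (Γ ⧸ X1 X))).relIndex (A.map (QuotientGroup.mk' (X1 X))) = (pCore 2 Γ).relIndex A := by
  rw [← Subgroup.relIndex_comap, ← Subgroup.inf_relIndex_left A, inf_CE h hX hVc hA, Subgroup.inf_relIndex_left]

theorem NE {A : Subgroup Γ} (hA : IsPGroup 2 A) (hA2 : ∀ a ∈ A, a * a ∈ centralizer (VV Z : Set Γ)) :
    ((pCore 2 Γ).relIndex A) ^ 2 ≤ (centralizer (A : Set Γ)).relIndex (VV Z) ∧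
    (¬ A ≤ pCore 2 Γ → ((pCore 2 Γ).relIndex A) ^ 2 = (centralizer (A : Set Γ)).relIndex (VV Z) →
      VV Z ≤ X ⊔ (VV Z ⊓ centralizer (A : Set Γ)) ∧ X1 X ≤ centralizer (A : Set Γ) ∧
      ∃ t ∈ A, t ∉ (centralizer (EE X : Set (Γ ⧸ X1 X))).comap (QuotientGroup.mk' (X1 X)) ∧
        Nat.card (EE X) ≤ 4 * Nat.card ↥(EE X ⊓ centralizer ((zpowers (QuotientGroup.mk' (X1 X) t) : Subgroup (Γ ⧸ X1 X)) : Set (Γ ⧸ X1 X)))) := by
  have hEn := EE_normal h hX hVc
  set π := QuotientGroup.mk' (X1 X) with hπ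
  have hb := (good_E h hX hVc).bound (A.map π) (by
    rintro _ ⟨a, ha, rfl⟩
    rw [← map_mul]
    rintro _ ⟨x, hx, rfl⟩
    rw [← map_mul, ← map_mul, mem_centralizer_iff.mp (hA2 a ha) x (hX.le hx)])
  rw [Subgroup.inf_relIndex_left, relIndex_CE h hX hVc hA] at hb
  have hcard : Nat.card ↥(EE X ⊓ centralizer (A.map π : Set (Γ ⧸ X1 X))) *
      (centralizer (A.map π : Set (Γ ⧸ X1 X))).relIndex (EE X) = Nat.card (EE X) := by
    have h1 := Subgroup.relIndex_mul_relIndex (⊥ : Subgroup (Γ ⧸ X1 X)) (EE X ⊓ centralizer (A.map π : Set (Γ ⧸ X1 X)))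
      (EE X) bot_le inf_le_left
    rwa [Subgroup.relIndex_bot_left, Subgroup.relIndex_bot_left, Subgroup.inf_relIndex_left] at h1
  have h0 : (centralizer (A.map π : Set (Γ ⧸ X1 X))).relIndex (EE X) =
      ((centralizer (A.map π : Set (Γ ⧸ X1 X))).comap π).relIndex X := by
    rw [Subgroup.relIndex_comap]
  have hle1 : centralizer (A : Set Γ) ≤ (centralizer (A.map π : Set (Γ ⧸ X1 X))).comap π := by
    intro g hg
    rintro _ ⟨a, ha, rfl⟩
    rw [← map_mul, ← map_mul, mem_centralizer_iff.mp hg a ha]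
  have h1 : ((centralizer (A.map π : Set (Γ ⧸ X1 X))).comap π).relIndex X ≤ (centralizer (A : Set Γ)).relIndex X :=
    Subgroup.relIndex_le_of_le_left hle1 (ri_pos _ _).ne'
  have h2 : (centralizer (A : Set Γ)).relIndex X ≤ (centralizer (A : Set Γ)).relIndex (VV Z) :=
    Subgroup.relIndex_le_of_le_right hX.le (ri_pos _ _).ne'
  have hpos : 0 < Nat.card ↥(EE X ⊓ centralizer (A.map π : Set (Γ ⧸ X1 X))) := Nat.card_pos
  have h3 : ((pCore 2 Γ).relIndex A) ^ 2 ≤ (centralizer (A.map π : Set (Γ ⧸ X1 X))).relIndex (EE X) := by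
    have := hb.1
    rw [← hcard, mul_comm] at this
    exact Nat.le_of_mul_le_mul_left this hpos
  refine ⟨by rw [h0] at h3; exact h3.trans (h1.trans h2), fun hne heq => ?_⟩
  rw [h0] at h3
  have e1 : (centralizer (A : Set Γ)).relIndex X = (centralizer (A : Set Γ)).relIndex (VV Z) :=
    le_antisymm h2 (by rw [← heq]; exact h3.trans h1)
  have e2 : ((centralizer (A.map π : Set (Γ ⧸ X1 X))).comap π).relIndex X = (centralizer (A : Set Γ)).relIndex X :=
    le_antisymm h1 (by rw [e1, ← heq]; exact h3)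
  refine ⟨?_, ?_, ?_⟩
  · have h4 := Subgroup.relIndex_mul_relIndex (VV Z ⊓ centralizer (A : Set Γ)) (X ⊔ (VV Z ⊓ centralizer (A : Set Γ)))
      (VV Z) le_sup_right (sup_le hX.le inf_le_left)
    rw [Subgroup.inf_relIndex_left] at h4
    have h5 : (centralizer (A : Set Γ)).relIndex X ≤
        (VV Z ⊓ centralizer (A : Set Γ)).relIndex (X ⊔ (VV Z ⊓ centralizer (A : Set Γ))) := by
      refine le_trans ?_ (Subgroup.relIndex_le_of_le_right le_sup_left (ri_pos _ _).ne')
      exact Subgroup.relIndex_le_of_le_left inf_le_right (ri_pos _ _).ne'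
    rw [← Subgroup.relIndex_eq_one]
    have h6 := ri_pos (X ⊔ (VV Z ⊓ centralizer (A : Set Γ))) (VV Z)
    have h7 := ri_pos (centralizer (A : Set Γ)) (VV Z)
    rw [e1] at h5
    by_contra hne1
    have h8 : 2 ≤ (X ⊔ (VV Z ⊓ centralizer (A : Set Γ))).relIndex (VV Z) := by omega
    nlinarith
  · have h4 := Subgroup.relIndex_inf_mul_relIndex (centralizer (A : Set Γ))
      ((centralizer (A.map π : Set (Γ ⧸ X1 X))).comap π) X
    rw [inf_eq_left.mpr hle1, ← e2] at h4
    have h5 : (centralizer (A : Set Γ)).relIndex (((centralizer (A.map π : Set (Γ ⧸ X1 X))).comap π) ⊓ X) = 1 := by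
      have := ri_pos ((centralizer (A.map π : Set (Γ ⧸ X1 X))).comap π) X
      exact Nat.eq_of_mul_eq_mul_right this (by rw [h4, one_mul])
    rw [Subgroup.relIndex_eq_one] at h5
    refine le_trans (le_inf ?_ inf_le_left) h5
    intro x hx
    have : π x = 1 := by rw [hπ, QuotientGroup.mk'_apply, QuotientGroup.eq_one_iff]; exact hx
    rw [mem_comap, this]
    exact one_mem _
  · obtain ⟨_, ⟨t, ht, rfl⟩, ht1, ht2⟩ := hb.2 (by
      intro hc
      apply hne
      have h4 : A ≤ A ⊓ (centralizer (EE X : Set (Γ ⧸ X1 X))).comap π := le_inf le_rfl (Subgroup.map_le_iff_le_comap.mp hc)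
      rw [inf_CE h hX hVc hA] at h4
      exact h4.trans inf_le_right) (by
      rw [← hcard, mul_comm, h0, e2, e1, heq])
    exact ⟨t, ht, ht1, ht2⟩

end

end Cfsg.Agent.Lib.SfMin
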