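import Cfsg.Agent.Lib.S4Plane
import Cfsg.Agent.Lib.LocBase

/-!
# `|A|² ≤ |V : C_V(A)|` for solvable `S₄`-free action in characteristic two (helper47)
-/

set_option autoImplicit false
set_option linter.unusedSectionVars false

namespace Cfsg.Agent.Lib.SfN

open Subgroup Cfsg.Agent.Lib.H34Basic Cfsg.Agent.Lib.H34SolvOff Cfsg.Agent.Lib.H34S4 Cfsg.Agent.Lib.S4Plane

/-- an automorphism of a group of order at most four has `f ^ 6 = 1` (pointwise form on an invariant set) -/
theorem pow_six_apply {V : Type*} [Group V] [Finite V] (W : Subgroup V) (hW : Nat.card W ≤ 4) (f : MulAut V)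
    (hf : ∀ w ∈ W, f w ∈ W) : ∀ w ∈ W, (f ^ 6) w = w := by
  classical
  -- permutation of the nonidentity elements
  let S := {w : V // w ∈ W ∧ w ≠ 1}
  have hinj : Function.Injective (fun s : S => (⟨f s.1, hf _ s.2.1, by
      intro h
      exact s.2.2 ((map_eq_one_iff f f.injective).mp h)⟩ : S)) := by
    intro a b h
    have h1 := congrArg Subtype.val h
    exact Subtype.ext (f.injective h1)
  have : Finite S := inferInstance
  have := Fintype.ofFinite S
  let σ : Equiv.Perm S := Equiv.ofBijective _ ⟨hinj, Finite.surjective_of_injective hinj⟩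
  have hσ : ∀ (s : S), ((σ s : S) : V) = f s := fun s => rfl
  have hσn : ∀ (n : ℕ) (s : S), (((σ ^ n) s : S) : V) = (f ^ n) s := by
    intro n
    induction n with
    | zero => intro s; rfl
    | succ n ih =>
      intro s
      rw [pow_succ', Equiv.Perm.mul_apply, hσ, ih, pow_succ', MulAut.mul_apply]
  have hcard : Nat.card S ≤ 3 := by
    have h1 : Nat.card S < Nat.card W := by
      let g : S → W := fun s => ⟨s.1, s.2.1⟩
      have hg : Function.Injective g := by
        intro a b h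
        have h1 : (g a : V) = g b := by rw [h]
        exact Subtype.ext h1
      have hns : ¬ Function.Surjective g := by
        intro h
        obtain ⟨s, hs⟩ := h 1
        exact s.2.2 (congrArg Subtype.val hs)
      have := Fintype.ofFinite W
      rw [Nat.card_eq_fintype_card, Nat.card_eq_fintype_card]
      exact Fintype.card_lt_of_injective_not_surjective g hg hns
    omega
  have hord : σ ^ 6 = 1 := by
    have h1 : orderOf σ ∣ Nat.card (Equiv.Perm S) := orderOf_dvd_natCard σ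
    have h2 : Nat.card (Equiv.Perm S) ∣ 6 := by
      rw [Nat.card_eq_fintype_card, Fintype.card_perm, ← Nat.card_eq_fintype_card]
      have : (Nat.card S).factorial ∣ (3).factorial := Nat.factorial_dvd_factorial hcard
      exact this
    exact orderOf_dvd_iff_pow_eq_one.mp (h1.trans h2)
  intro w hw
  by_cases h1 : w = 1
  · rw [h1, map_one]
  · have := hσn 6 ⟨w, hw, h1⟩
    rw [hord] at this
    exact this.symm

section abs

variable {V : Type*} [Group V]

/-- no element of order three is inverted by an involution -/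
def NoInv (H : Subgroup (MulAut V)) : Prop :=
  ∀ b ∈ H, ∀ x ∈ H, b * b = 1 → x ^ 3 = 1 → b * x * b⁻¹ = x⁻¹ → x = 1

theorem conj_inv_pow {M : Type*} [Group M] {b x : M} (h : b * x * b⁻¹ = x⁻¹) (n : ℕ) : b * x ^ n * b⁻¹ = (x ^ n)⁻¹ := by
  rw [← conj_pow, h, inv_pow]

theorem not_three_dvd {H : Subgroup (MulAut V)} (hN : NoInv H) {b x : MulAut V} (hb : b ∈ H) (hx : x ∈ H)
    (hbb : b * b = 1) (hxo : 0 < orderOf x) (hinv : b * x * b⁻¹ = x⁻¹) : ¬ 3 ∣ orderOf x := by
  intro h3
  obtain ⟨m, hm⟩ := h3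
  have h1 : (x ^ m) ^ 3 = 1 := by rw [← pow_mul, mul_comm, ← hm, pow_orderOf_eq_one]
  have h2 := hN b hb (x ^ m) (H.pow_mem hx m) hbb h1 (conj_inv_pow hinv m)
  have h3 : orderOf x ∣ m := orderOf_dvd_of_pow_eq_one h2
  have h4 : m ≠ 0 := by rintro rfl; omega
  have := Nat.le_of_dvd (Nat.pos_of_ne_zero h4) h3
  omega

theorem coprime_six {n : ℕ} (h2 : Odd n) (h3 : ¬ 3 ∣ n) : Nat.Coprime n 6 := by
  have : (6 : ℕ) = 2 * 3 := rfl
  rw [this]
  exact Nat.Coprime.mul_right ((Nat.coprime_two_right).2 h2)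
    ((Nat.Prime.coprime_iff_not_dvd Nat.prime_three).2 h3).symm

theorem fixed_of_six {f : MulAut V} {n : ℕ} (hn : Nat.Coprime n 6) {w : V} (h1 : (f ^ n) w = w) (h6 : (f ^ 6) w = w) :
    f w = w := by
  have key : ∀ (g : MulAut V) (k : ℤ), g w = w → (g ^ k) w = w := by
    intro g k hg
    let S : Subgroup (MulAut V) :=
      { carrier := {g | g w = w}
        mul_mem' := fun {a b} ha hb => by
          show (a * b) w = w
          rw [MulAut.mul_apply, show b w = w from hb, show a w = w from ha]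
        one_mem' := rfl
        inv_mem' := fun {a} ha => by
          show a⁻¹ w = w
          calc a⁻¹ w = a⁻¹ (a w) := by rw [show a w = w from ha]
            _ = w := by rw [← MulAut.mul_apply, inv_mul_cancel]; rfl }
    exact S.zpow_mem hg k
  have hb := Nat.gcd_eq_gcd_ab n 6
  rw [hn] at hb
  have h2 : f = (f ^ n) ^ (n.gcdA 6) * (f ^ 6) ^ (n.gcdB 6) := by
    rw [← zpow_natCast, ← zpow_natCast, ← zpow_mul, ← zpow_mul, ← zpow_add, ← hb]
    simp
  calc f w = ((f ^ n) ^ (n.gcdA 6) * (f ^ 6) ^ (n.gcdB 6)) w := by rw [← h2]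
    _ = ((f ^ n) ^ (n.gcdA 6)) (((f ^ 6) ^ (n.gcdB 6)) w) := rfl
    _ = w := by rw [key _ _ h6, key _ _ h1]

variable [Finite V] (hVc : ∀ u v : V, u * v = v * u) (hV2 : ∀ v : V, v * v = 1)

include hV2 in
theorem isPGroup_V : IsPGroup 2 V := fun v => ⟨1, by rw [pow_one, pow_two]; exact hV2 v⟩

include hV2 in
theorem isPGroup_sub (W : Subgroup V) : IsPGroup 2 W := (isPGroup_V hV2).to_subgroup W

include hVc hV2 in
/-- the key index bound -/
theorem four_le {H : Subgroup (MulAut V)} (hN : NoInv H) {b x : MulAut V} (hb : b ∈ H) (hx : x ∈ H) (hbb : b * b = 1)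
    (hxo : Odd (orderOf x)) (hx1 : x ≠ 1) (hinv : b * x * b⁻¹ = x⁻¹) (B₁ : Subgroup (MulAut V)) (hB₁ : IsPGroup 2 B₁)
    (hc : ∀ c ∈ B₁, c * x * c⁻¹ = x) (B : Subgroup (MulAut V)) (hB : B₁ ≤ B) (hbm : b ∈ B) :
    4 * Nat.card (fixSub B) ≤ Nat.card (fixSub B₁) := by
  classical
  have h2p : Fact (Nat.Prime 2) := ⟨Nat.prime_two⟩
  have h3 := not_three_dvd hN hb hx hbb (orderOf_pos x) hinv
  set W : Subgroup V := (delta hVc x).range ⊓ fixSub B₁ with hW
  have hle : fixSub B ≤ fixSub B₁ := fixSub_anti hB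
  have hxfix : ∀ v ∈ fixSub B₁, x v ∈ fixSub B₁ := by
    intro v hv c hc'
    have h1 : c * x = x * c := by rw [← mul_inv_eq_iff_eq_mul]; exact hc c hc'
    show (c * x) v = x v
    rw [h1, MulAut.mul_apply, hv c hc']
  have hWx : ∀ w ∈ W, x w ∈ W := fun w hw =>
    ⟨delta_range_inv hVc x x (by group) w hw.1, hxfix w hw.2⟩
  have hfpf : ∀ w ∈ W, x w = w → w = 1 := fun w hw h => delta_range_fpf hVc hV2 x hxo w hw.1 h
  have hWne : W ≠ ⊥ := by
    obtain ⟨v, hv, hxv⟩ := pxq hVc hV2 x hxo hx1 B₁ hB₁ hc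
    intro h
    have h1 : delta hVc x v ∈ W := ⟨⟨v, rfl⟩, by
      rw [delta_apply]; exact (fixSub B₁).mul_mem ((fixSub B₁).inv_mem hv) (hxfix v hv)⟩
    rw [h, Subgroup.mem_bot, delta_apply, inv_mul_eq_one] at h1
    exact hxv h1.symm
  -- C = W ∩ fix B
  set C : Subgroup V := W ⊓ fixSub B with hC
  have hcross : ∀ v ∈ C, x v ∈ C → v = 1 := by
    intro v hv hxv
    have h1 : b v = v := hv.2 b hbm
    have h2 : b (x v) = x v := hxv.2 b hbm
    have h4 : b * x = x⁻¹ * b := by rw [← hinv]; group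
    have h5 : b (x v) = x⁻¹ v := by
      show (b * x) v = x⁻¹ v
      rw [h4, MulAut.mul_apply, h1]
    have h6 : x (x v) = v := by
      rw [← h2, h5]
      show (x * x⁻¹) v = v
      rw [mul_inv_cancel]; rfl
    exact hfpf v hv.1 (sq_fix x hxo v h6)
  have hsq : Nat.card C * Nat.card C ≤ Nat.card W := by
    rw [← Nat.card_prod]
    refine Nat.card_le_card_of_injective
      (fun p : C × C => (⟨p.1 * x p.2, W.mul_mem p.1.2.1 (hWx _ p.2.2.1)⟩ : W)) ?_
    rintro ⟨⟨a, ha⟩, ⟨c, hc'⟩⟩ ⟨⟨a', ha'⟩, ⟨c', hc''⟩⟩ h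
    have h1 : a * x c = a' * x c' := congrArg Subtype.val h
    have h2 : x (c * c'⁻¹) = a⁻¹ * a' := by
      rw [map_mul, map_inv]
      calc x c * (x c')⁻¹ = a⁻¹ * (a * x c) * (x c')⁻¹ := by group
        _ = a⁻¹ * (a' * x c') * (x c')⁻¹ := by rw [h1]
        _ = _ := by group
    have h3' : c * c'⁻¹ = 1 := hcross _ (C.mul_mem hc' (C.inv_mem hc'')) (by
      rw [h2]; exact C.mul_mem (C.inv_mem ha) ha')
    have h4 : c = c' := mul_inv_eq_one.mp h3'
    subst h4
    have h5 : a = a' := mul_right_cancel h1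
    subst h5
    rfl
  -- the index of C in W
  have hidx : Nat.card C * C.relIndex W = Nat.card W := by
    have := Subgroup.relIndex_mul_relIndex (⊥ : Subgroup V) C W bot_le inf_le_left
    rwa [Subgroup.relIndex_bot_left, Subgroup.relIndex_bot_left] at this
  have hr : (fixSub B).relIndex W ≤ (fixSub B).relIndex (fixSub B₁) := by
    refine Subgroup.relIndex_le_of_le_right inf_le_right ?_
    exact Subgroup.FiniteIndex.index_ne_zero (H := (fixSub B).subgroupOf (fixSub B₁))
  have hCr : C.relIndex W = (fixSub B).relIndex W := by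
    rw [hC, inf_comm, Subgroup.inf_relIndex_right]
  have hmul : Nat.card (fixSub B) * (fixSub B).relIndex (fixSub B₁) = Nat.card (fixSub B₁) := by
    have := Subgroup.relIndex_mul_relIndex (⊥ : Subgroup V) (fixSub B) (fixSub B₁) bot_le hle
    rwa [Subgroup.relIndex_bot_left, Subgroup.relIndex_bot_left] at this
  suffices h4 : 4 ≤ C.relIndex W by
    rw [← hmul, mul_comm]
    exact Nat.mul_le_mul_left _ (h4.trans (hCr.le.trans hr))
  by_contra hcon
  push Not at hcon
  -- then |W| ≤ 4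
  obtain ⟨k, hk⟩ := IsPGroup.iff_card.mp (isPGroup_sub hV2 W)
  have hd1 : C.relIndex W ∣ 2 ^ k := by rw [← hk, ← hidx]; exact dvd_mul_left _ _
  obtain ⟨j, -, hj⟩ := (Nat.dvd_prime_pow Nat.prime_two).mp hd1
  have hj1 : C.relIndex W ≤ 2 := by
    rw [hj] at hcon ⊢
    have : j < 2 := by
      by_contra h
      push Not at h
      have := Nat.pow_le_pow_right (n := 2) (by norm_num) h
      omega
    interval_cases j <;> norm_num
  have hC1 : 0 < Nat.card C := Nat.card_pos
  have hC2 : Nat.card C ≤ 2 := by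
    by_contra h
    push Not at h
    have : Nat.card C * C.relIndex W < Nat.card C * Nat.card C := Nat.mul_lt_mul_of_pos_left (by omega) hC1
    omega
  have hW4 : Nat.card W ≤ 4 := by
    rw [← hidx]
    calc Nat.card C * C.relIndex W ≤ 2 * 2 := Nat.mul_le_mul hC2 hj1
      _ = 4 := rfl
  apply hWne
  rw [eq_bot_iff]
  intro w hw
  rw [Subgroup.mem_bot]
  refine hfpf w hw (fixed_of_six (coprime_six hxo h3) ?_ (pow_six_apply W hW4 x hWx w hw))
  rw [pow_orderOf_eq_one]; rfl

include hVc hV2 in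
theorem main {H : Subgroup (MulAut V)} (hHs : Group.IsSolvable H) (hH2 : Cfsg.pCore 2 H = ⊥) (hN : NoInv H) :
    ∀ n : ℕ, ∀ A : Subgroup (MulAut V), Nat.card A = n → A ≤ H → (∀ a ∈ A, a * a = 1) →
      Nat.card A ^ 2 * Nat.card (fixSub A) ≤ Nat.card V ∧
      (A ≠ ⊥ → Nat.card A ^ 2 * Nat.card (fixSub A) = Nat.card V →
        ∃ t ∈ A, t ≠ 1 ∧ Nat.card V ≤ 4 * Nat.card (fixSub (zpowers t))) := by
  classical
  have : Finite (MulAut V) := inferInstance
  intro n
  induction n using Nat.strong_induction_on with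
  | _ n ih =>
    intro A hAn hAH hA
    by_cases hA1 : A = ⊥
    · subst hA1
      refine ⟨?_, fun h => absurd rfl h⟩
      rw [Subgroup.card_bot, one_pow, one_mul]
      exact Nat.card_le_card_of_injective _ (fixSub (⊥ : Subgroup (MulAut V))).subtype_injective
    obtain ⟨x, hxH, hx1, hxo, ⟨b, hbA, hbx⟩, hxc⟩ := exists_inverted_of_core H A hHs hH2 hAH hA hA1
    have hcomm : ∀ a ∈ A, ∀ c ∈ A, a * c = c * a := by
      intro a ha c hc
      have h1 := hA _ (A.mul_mem ha hc)
      have hai : a⁻¹ = a := inv_eq_of_mul_eq_one_left (hA _ ha)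
      have hci : c⁻¹ = c := inv_eq_of_mul_eq_one_left (hA _ hc)
      have h4 : (a * c)⁻¹ = a * c := inv_eq_of_mul_eq_one_left h1
      rw [mul_inv_rev, hai, hci] at h4
      exact h4.symm
    set A₁ : Subgroup (MulAut V) := A ⊓ centralizer {x} with hA₁
    have hmemA₁ : ∀ c, c ∈ A₁ ↔ c ∈ A ∧ c * x * c⁻¹ = x := by
      intro c
      rw [hA₁, Subgroup.mem_inf, Subgroup.mem_centralizer_singleton_iff, mul_inv_eq_iff_eq_mul]
    have hxne : x⁻¹ ≠ x := by
      intro h
      have h1 : x ^ 2 = 1 := by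
        rw [pow_two]
        calc x * x = x⁻¹ * x := by rw [h]
          _ = 1 := inv_mul_cancel x
      have h2 : orderOf x ∣ 2 := orderOf_dvd_of_pow_eq_one h1
      rcases (Nat.dvd_prime Nat.prime_two).mp h2 with h3 | h3
      · exact hx1 (orderOf_eq_one_iff.mp h3)
      · rw [h3] at hxo
        exact absurd hxo (by decide)
    have hbA₁ : b ∉ A₁ := by
      rw [hmemA₁]
      rintro ⟨-, h⟩
      rw [hbx] at h
      exact hxne h
    have hlt : A₁ < A := lt_of_le_of_ne inf_le_left (fun h => hbA₁ (h ▸ hbA))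
    have hcard : Nat.card A ≤ 2 * Nat.card A₁ := by
      have hmem : ∀ a ∈ A, a ∈ A₁ ∨ b * a ∈ A₁ := by
        intro a ha
        rcases hxc a ha with h | h
        · exact Or.inl ((hmemA₁ a).mpr ⟨ha, h⟩)
        · right
          rw [hmemA₁]
          refine ⟨A.mul_mem hbA ha, ?_⟩
          calc b * a * x * (b * a)⁻¹ = b * (a * x * a⁻¹) * b⁻¹ := by group
            _ = b * x⁻¹ * b⁻¹ := by rw [h]
            _ = (b * x * b⁻¹)⁻¹ := by group
            _ = x := by rw [hbx, inv_inv]
      let f : A → A₁ × Bool := fun a =>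
        if h : (a : MulAut V) ∈ A₁ then (⟨a, h⟩, true) else (⟨b * a, (hmem a a.2).resolve_left h⟩, false)
      have hf : Function.Injective f := by
        intro a c h
        by_cases h1 : (a : MulAut V) ∈ A₁ <;> by_cases h2 : (c : MulAut V) ∈ A₁
        · simp only [f, h1, h2, dif_pos] at h
          exact Subtype.ext (congrArg (fun z : A₁ × Bool => (z.1 : MulAut V)) h)
        · simp only [f, h1, h2, dif_pos, dif_neg, not_false_iff] at h
          simp at h
        · simp only [f, h1, h2, dif_pos, dif_neg, not_false_iff] at h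
          simp at h
        · simp only [f, h1, h2, dif_neg, not_false_iff] at h
          have h3 : b * (a : MulAut V) = b * c := congrArg (fun z : A₁ × Bool => (z.1 : MulAut V)) h
          exact Subtype.ext (mul_left_cancel h3)
      have := Nat.card_le_card_of_injective f hf
      rw [Nat.card_prod] at this
      simpa [mul_comm] using this
    have hA₁p : IsPGroup 2 A₁ := fun a => ⟨1, by
      rw [pow_one, pow_two]; exact Subtype.ext (hA a (hlt.le a.2))⟩
    have h4 := four_le hVc hV2 hN (hAH hbA) hxH (hA b hbA) hxo hx1 hbx A₁ hA₁p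
      (fun c hc => ((hmemA₁ c).mp hc).2) A hlt.le hbA
    have hcl : Nat.card A₁ < n := by
      rw [← hAn]
      exact lt_of_le_of_ne (Subgroup.card_le_of_le hlt.le)
        (fun h => hlt.ne (Subgroup.eq_of_le_of_card_ge hlt.le h.ge))
    obtain ⟨ih1, ih2⟩ := ih _ hcl A₁ rfl (hlt.le.trans hAH) (fun a ha => hA a (hlt.le ha))
    have hstep : Nat.card A ^ 2 * Nat.card (fixSub A) ≤ Nat.card A₁ ^ 2 * Nat.card (fixSub A₁) := by
      calc Nat.card A ^ 2 * Nat.card (fixSub A) ≤ (2 * Nat.card A₁) ^ 2 * Nat.card (fixSub A) :=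
            Nat.mul_le_mul_right _ (Nat.pow_le_pow_left hcard 2)
        _ = Nat.card A₁ ^ 2 * (4 * Nat.card (fixSub A)) := by ring
        _ ≤ _ := Nat.mul_le_mul_left _ h4
    refine ⟨hstep.trans ih1, fun _ heq => ?_⟩
    by_cases hA₁1 : A₁ = ⊥
    · have hc2 : Nat.card A ≤ 2 := by
        rw [hA₁1, Subgroup.card_bot] at hcard; omega
      have hb1 : b ≠ 1 := fun h => hbA₁ (h ▸ A₁.one_mem)
      have hzb : zpowers b = A := by
        refine Subgroup.eq_of_le_of_card_ge (by rwa [zpowers_le]) ?_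
        rw [Nat.card_zpowers]
        have : orderOf b = 2 := orderOf_eq_prime (by rw [pow_two]; exact hA b hbA) hb1
        omega
      refine ⟨b, hbA, hb1, ?_⟩
      rw [hzb, ← heq]
      calc Nat.card A ^ 2 * Nat.card (fixSub A) ≤ 2 ^ 2 * Nat.card (fixSub A) :=
            Nat.mul_le_mul_right _ (Nat.pow_le_pow_left hc2 2)
        _ = 4 * Nat.card (fixSub A) := by norm_num
    · obtain ⟨t, ht, ht1, htc⟩ := ih2 hA₁1 (le_antisymm ih1 (heq ▸ hstep))
      exact ⟨t, hlt.le ht, ht1, htc⟩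

end abs

end Cfsg.Agent.Lib.SfN
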