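import Cfsg.Agent.Lib.SfB1

/-!
# Minimal overgroups, relative form (helper47)
-/

set_option autoImplicit false
set_option linter.unusedSectionVars false

namespace Cfsg.Agent.Lib.SfRel

open Subgroup Cfsg Cfsg.Agent.Lib.SfAct Cfsg.Agent.Lib.LocBase Cfsg.Agent.Lib.SfMin Cfsg.Agent.Lib.PReduced
open scoped commutatorElement

variable {G : Type*} [Group G] [Finite G]

/-- the minimal situation, relative form -/
structure RP (P T Z : Subgroup G) : Prop where
  sol : Group.IsSolvable P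
  free : ¬ Cfsg.Involves (Equiv.Perm (Fin 4)) P
  char : P ⊓ centralizer (pCoreOf 2 P : Set G) ≤ pCoreOf 2 P
  syl : IsSyl 2 T P
  ZT : Z ≤ T
  TZ : T ≤ normalizer (Z : Set G)
  Zcomm : ∀ a ∈ Z, ∀ b ∈ Z, a * b = b * a
  Ztwo : ∀ a ∈ Z, a * a = 1
  min : ∀ K : Subgroup G, T ≤ K → K ≤ P → K ≠ P → K ≤ normalizer (Z : Set G)
  nn : ¬ P ≤ normalizer (Z : Set G)
  NN : ∀ A : Subgroup G, A ≤ T → (∀ a ∈ A, a * a ∈ centralizer (Z : Set G)) →
    ((centralizer (Z : Set G)).relIndex A) ^ 2 ≤ (centralizer (A : Set G)).relIndex Z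

theorem normalizer_subgroupOf {P A : Subgroup G} (hA : A ≤ P) :
    normalizer ((A.subgroupOf P : Subgroup P) : Set P) = (normalizer (A : Set G)).subgroupOf P := by
  ext x
  rw [mem_normalizer_iff, mem_subgroupOf, mem_normalizer_iff]
  constructor
  · intro h a
    constructor
    · intro ha
      exact (h ⟨a, hA ha⟩).mp ha
    · intro ha
      have h1 : a ∈ P := by
        have h2 := P.mul_mem (P.mul_mem (P.inv_mem x.2) (hA ha)) x.2
        have e : (x : G)⁻¹ * (x * a * (x : G)⁻¹) * x = a := by group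
        rwa [e] at h2
      exact (h ⟨a, h1⟩).mpr ha
  · intro h a
    exact h a

theorem RP.pm {P T Z : Subgroup G} (h : RP P T Z) : PM (T.subgroupOf P) (Z.subgroupOf P) where
  sol := h.sol
  free := h.free
  char := by
    rw [← pCoreOf_subgroupOf, centralizer_subgroupOf (LocBase.pCoreOf_le P)]
    intro x hx
    exact h.char ⟨x.2, hx⟩
  syl := by
    refine ⟨le_top, h.syl.pgroup.comap_subtype, ?_⟩
    have : (T.subgroupOf P).relIndex ⊤ = T.relIndex P := by
      rw [Subgroup.relIndex_top_right]; rfl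
    rw [this]
    exact h.syl.ndvd
  ZT := fun _ hx => h.ZT hx
  TZ := by
    rw [normalizer_subgroupOf (h.ZT.trans h.syl.le)]
    exact fun _ hx => h.TZ hx
  Zcomm := fun a ha b hb => Subtype.ext (h.Zcomm a ha b hb)
  Ztwo := fun a ha => Subtype.ext (h.Ztwo a ha)
  min := by
    intro K hTK hK
    rw [normalizer_subgroupOf (h.ZT.trans h.syl.le)]
    have h1 := h.min (K.map P.subtype) (by
      intro t ht
      exact ⟨⟨t, h.syl.le ht⟩, hTK ht, rfl⟩) (map_subtype_le K) (by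
      intro he
      apply hK
      rw [eq_top_iff]
      intro x _
      have : (x : G) ∈ K.map P.subtype := by rw [he]; exact x.2
      obtain ⟨k, hk, e⟩ := this
      rwa [← Subtype.ext e])
    intro x hx
    exact h1 ⟨x, hx, rfl⟩
  nn := by
    intro hn
    apply h.nn
    rwa [normal_subgroupOf_iff_le_normalizer (h.ZT.trans h.syl.le)] at hn
  NN := by
    intro A hA hA2
    have hZP := h.ZT.trans h.syl.le
    obtain ⟨A', hA'P, rfl⟩ : ∃ A' : Subgroup G, A' ≤ P ∧ A'.subgroupOf P = A :=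
      ⟨A.map P.subtype, map_subtype_le A, Subgroup.comap_map_eq_self_of_injective P.subtype_injective A⟩
    rw [centralizer_subgroupOf hZP, centralizer_subgroupOf hA'P, Subgroup.relIndex_subgroupOf hA'P,
      Subgroup.relIndex_subgroupOf hZP]
    refine h.NN A' (fun a ha => hA (x := ⟨a, hA'P ha⟩) ha) (fun a ha => ?_)
    have := hA2 ⟨a, hA'P ha⟩ ha
    rw [centralizer_subgroupOf hZP] at this
    exact this

variable {P T Z : Subgroup G} (h : RP P T Z)
include h

theorem RP.VV_eq : VV (Z.subgroupOf P) = (ncl P Z).subgroupOf P := by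
  have h1 := map_normalClosure_subgroupOf (h.ZT.trans h.syl.le)
  rw [← h1]
  exact (Subgroup.comap_map_eq_self_of_injective P.subtype_injective _).symm

theorem RP.ncl_le : ncl P Z ≤ P := PReduced.ncl_le (h.ZT.trans h.syl.le) le_normalizer

theorem RP.Z_le : Z ≤ pCoreOf 2 P := by
  have h1 := h.pm.Z_le
  rw [← pCoreOf_subgroupOf] at h1
  intro z hz
  exact h1 (x := ⟨z, h.syl.le (h.ZT hz)⟩) hz

theorem RP.inf_CV {A : Subgroup G} (hAP : A ≤ P) (hA : IsPGroup 2 A) : A ⊓ centralizer (ncl P Z : Set G) ≤ pCoreOf 2 P := by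
  have h1 := h.pm.inf_CV (A := A.subgroupOf P) hA.comap_subtype
  rw [h.VV_eq, centralizer_subgroupOf h.ncl_le, ← pCoreOf_subgroupOf] at h1
  rintro a ⟨ha, hac⟩
  exact h1 (x := ⟨a, hAP ha⟩) ⟨ha, hac⟩

theorem RP.NQ {B : Subgroup G} (hB : B ≤ pCoreOf 2 P) (hB2 : ∀ b ∈ B, b * b ∈ centralizer (ncl P Z : Set G)) :
    ((centralizer (ncl P Z : Set G)).relIndex B) ^ 2 ≤ (centralizer (B : Set G)).relIndex (ncl P Z) := by
  have hBP := hB.trans (LocBase.pCoreOf_le P)
  have h1 := h.pm.NQ _ (B.subgroupOf P) rfl (by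
    rw [← pCoreOf_subgroupOf]; exact fun _ hx => hB hx) (by
    rw [h.VV_eq, centralizer_subgroupOf h.ncl_le]
    exact fun b hb => hB2 b hb)
  rw [h.VV_eq, centralizer_subgroupOf h.ncl_le, centralizer_subgroupOf hBP, Subgroup.relIndex_subgroupOf hBP,
    Subgroup.relIndex_subgroupOf h.ncl_le] at h1
  exact h1

theorem RP.bound_E (hVc : ∀ u ∈ ncl P Z, ∀ v ∈ ncl P Z, u * v = v * u) {A : Subgroup G} (hAP : A ≤ P)
    (hA : IsPGroup 2 A) (hA2 : ∀ a ∈ A, a * a ∈ centralizer (ncl P Z : Set G)) :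
    ((pCoreOf 2 P).relIndex A) ^ 2 ≤ (centralizer (A : Set G)).relIndex (ncl P Z) := by
  have h1 := SfMin.bound_E h.pm (by
    rw [h.VV_eq]
    exact fun u hu v hv => Subtype.ext (hVc u hu v hv)) (A := A.subgroupOf P) hA.comap_subtype (by
    rw [h.VV_eq, centralizer_subgroupOf h.ncl_le]
    exact fun b hb => hA2 b hb)
  rw [h.VV_eq, centralizer_subgroupOf hAP, Subgroup.relIndex_subgroupOf h.ncl_le, ← pCoreOf_subgroupOf,
    Subgroup.relIndex_subgroupOf hAP] at h1
  exact h1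

theorem RP.final (hVc : ∀ u ∈ ncl P Z, ∀ v ∈ ncl P Z, u * v = v * u) {A : Subgroup G} (hAP : A ≤ P)
    (hA2 : ∀ a ∈ A, a * a = 1) (hne : ¬ A ≤ pCoreOf 2 P)
    (heq : ((pCoreOf 2 P).relIndex A) ^ 2 = (centralizer (A : Set G)).relIndex (ncl P Z))
    (hcen : ncl P Z ⊓ centralizer ((A ⊓ pCoreOf 2 P : Subgroup G) : Set G) ≤ centralizer (A : Set G)) : False := by
  refine SfMin.final h.pm (by
    rw [h.VV_eq]
    exact fun u hu v hv => Subtype.ext (hVc u hu v hv)) (A := A.subgroupOf P)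
    (fun a ha => Subtype.ext (hA2 a ha)) ?_ ?_ ?_
  · intro hc
    apply hne
    rw [← pCoreOf_subgroupOf] at hc
    exact fun a ha => hc (x := ⟨a, hAP ha⟩) ha
  · rw [h.VV_eq, centralizer_subgroupOf hAP, Subgroup.relIndex_subgroupOf h.ncl_le, ← pCoreOf_subgroupOf,
      Subgroup.relIndex_subgroupOf hAP]
    exact heq
  · rw [h.VV_eq, centralizer_subgroupOf hAP, ← pCoreOf_subgroupOf]
    have e : A.subgroupOf P ⊓ (pCoreOf 2 P).subgroupOf P = (A ⊓ pCoreOf 2 P).subgroupOf P := rfl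
    rw [e, centralizer_subgroupOf (inf_le_left.trans hAP)]
    intro x hx
    exact hcen hx

end Cfsg.Agent.Lib.SfRel
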