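import Cfsg.Agent.Lib.SfAmal
import Cfsg.Agent.Lib.FrakM

/-!
# Thompson factorization for solvable `S₄`-free groups (helper47)
-/

set_option autoImplicit false
set_option linter.unusedSectionVars false

namespace Cfsg.Agent.Lib.SfThomp

open Subgroup Cfsg Cfsg.Agent.Lib.SfAct Cfsg.Agent.Lib.LocBase Cfsg.Agent.Lib.SfMin Cfsg.Agent.Lib.PReduced
open Cfsg.Agent.Lib.SfRel

variable {G : Type*} [Group G] [Finite G]

/-- elementary abelian subgroup of maximal order -/
structure MaxE (T A : Subgroup G) : Prop where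
  le : A ≤ T
  elem : IsElementaryAbelian 2 A
  max : ∀ B : Subgroup G, B ≤ T → IsElementaryAbelian 2 B → Nat.card B ≤ Nat.card A

theorem exists_maxE (T : Subgroup G) : ∃ A, MaxE T A := by
  have hfin : Set.Finite {A : Subgroup G | A ≤ T ∧ IsElementaryAbelian 2 A} := Set.toFinite _
  obtain ⟨A, hA, hmax⟩ := Set.Finite.exists_maximalFor (fun A : Subgroup G => Nat.card A) _ hfin ⟨⊥, bot_le, elem_bot⟩
  refine ⟨A, hA.1, hA.2, fun B hB hBe => ?_⟩
  rcases le_total (Nat.card B) (Nat.card A) with h | h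
  · exact h
  · exact hmax ⟨hB, hBe⟩ h

/-- the Thompson subgroup -/
def JJ (T : Subgroup G) : Subgroup G := sSup {A | MaxE T A}

theorem JJ_le (T : Subgroup G) : JJ T ≤ T := sSup_le fun _ hA => hA.le

theorem le_JJ {T A : Subgroup G} (h : MaxE T A) : A ≤ JJ T := le_sSup h

theorem maxE_map_conj {T A : Subgroup G} (h : MaxE T A) (g : G) :
    MaxE (T.map (MulAut.conj g).toMonoidHom) (A.map (MulAut.conj g).toMonoidHom) where
  le := map_conj_mono g h.le
  elem := elem_map h.elem _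
  max := by
    intro B hB hBe
    rw [card_map_conj]
    have h1 := h.max (B.map (MulAut.conj g⁻¹).toMonoidHom) (by rw [map_conj_le_iff, inv_inv]; exact hB) (elem_map hBe _)
    rwa [card_map_conj] at h1

theorem JJ_map_conj (T : Subgroup G) (g : G) : (JJ T).map (MulAut.conj g).toMonoidHom = JJ (T.map (MulAut.conj g).toMonoidHom) := by
  have key : ∀ (T : Subgroup G) (g : G), (JJ T).map (MulAut.conj g).toMonoidHom ≤ JJ (T.map (MulAut.conj g).toMonoidHom) := by
    intro T g
    rw [map_conj_le_iff]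
    refine sSup_le fun A hA => ?_
    rw [← map_conj_le_iff]
    exact le_JJ (maxE_map_conj hA g)
  apply le_antisymm (key T g)
  have h1 := key (T.map (MulAut.conj g).toMonoidHom) g⁻¹
  rw [← map_conj_mul, inv_mul_cancel, map_conj_one, map_conj_le_iff, inv_inv] at h1
  exact h1

theorem normalizer_le_JJ (T : Subgroup G) : normalizer (T : Set G) ≤ normalizer (JJ T : Set G) := by
  intro g hg
  apply mem_normalizer_of_map_conj_eq
  rw [JJ_map_conj, map_conj_eq_of_mem hg]

theorem JJ_eq {T S : Subgroup G} (h1 : JJ T ≤ S) (h2 : S ≤ T) : JJ S = JJ T := by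
  obtain ⟨A₀, hA₀⟩ := exists_maxE T
  have h3 : ∀ A, MaxE S A ↔ MaxE T A := by
    intro A
    constructor
    · intro hA
      refine ⟨hA.le.trans h2, hA.elem, fun B hB hBe => ?_⟩
      exact (hA₀.max B hB hBe).trans (hA.max A₀ ((le_JJ hA₀).trans h1) hA₀.elem)
    · intro hA
      exact ⟨(le_JJ hA).trans h1, hA.elem, fun B hB hBe => hA.max B (hB.trans h2) hBe⟩
  unfold JJ
  congr 1
  ext A
  exact h3 A

theorem OZ_le_maxE {T A : Subgroup G} (h : MaxE T A) : OZ 2 T ≤ A := by
  have h1 : IsElementaryAbelian 2 (OZ 2 T ⊔ A) :=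
    elem_sup (elem_OZ 2 T) h.elem ((OZ_le_centralizer T).trans (centralizer_le h.le))
  have h2 := h.max _ (sup_le (OZ_le T) h.le) h1
  have h3 : A = OZ 2 T ⊔ A := Subgroup.eq_of_le_of_card_ge le_sup_right h2
  exact le_sup_left.trans h3.symm.le

theorem OZ_le_JJ (T : Subgroup G) : OZ 2 T ≤ JJ T := by
  obtain ⟨A, hA⟩ := exists_maxE T
  exact (OZ_le_maxE hA).trans (le_JJ hA)

/-- the hypotheses on a local subgroup -/
structure Loc (M : Subgroup G) : Prop where
  sol : Group.IsSolvable M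
  char : IsCharP 2 M
  free : ¬ Cfsg.Involves (Equiv.Perm (Fin 4)) M

theorem pred_V {M T : Subgroup G} (h : Loc M) (hT : IsSyl 2 T M) : PRed 2 (ncl M (OZ 2 T)) M :=
  PRed.ncl (pRed_OZ T) h.char hT le_rfl hT.le

theorem bound' {P V : Subgroup G} (h : Loc P) (hV : PRed 2 V P) {A : Subgroup G} (hAP : A ≤ P)
    (hA : ∀ a ∈ A, a * a ∈ centralizer (V : Set G)) :
    ((centralizer (V : Set G)).relIndex A) ^ 2 ≤ (centralizer (A : Set G)).relIndex V := by
  have := bound_of_PRed h.sol h.free hV hAP hA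
  rwa [Subgroup.inf_relIndex_left, Subgroup.inf_relIndex_left] at this

theorem maxE_le_centralizer {M T A : Subgroup G} (h : Loc M) (hT : IsSyl 2 T M) (hA : MaxE T A) :
    A ≤ centralizer (ncl M (OZ 2 T) : Set G) := by
  set V := ncl M (OZ 2 T) with hV
  have hVr := pred_V h hT
  rw [← hV] at hVr
  have hVT : V ≤ T := hVr.le_pCoreOf.trans hT.pCoreOf_le
  have hVC : V ≤ centralizer (V : Set G) := (elem_iff.mp hVr.elem).1
  have hA2 : ∀ a ∈ A, a * a ∈ centralizer (V : Set G) := by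
    intro a ha
    have := (elem_iff.mp hA.elem).2 a ha
    rw [pow_two] at this
    rw [this]; exact one_mem _
  have h1 := bound' h hVr (hA.le.trans hT.le) hA2
  set m := (centralizer (V : Set G)).relIndex A with hm
  have hmp : 0 < m := ri_pos _ _
  set A₀ := A ⊓ centralizer (V : Set G) with hA₀
  have hB : IsElementaryAbelian 2 (A₀ ⊔ V) :=
    elem_sup (elem_mono hA.elem inf_le_left) hVr.elem inf_le_right
  have h2 := hA.max _ (sup_le (inf_le_left.trans hA.le) hVT) hB
  -- cardinalities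
  have hAV : A ⊓ V ≤ V ⊓ centralizer (A : Set G) :=
    le_inf inf_le_right (inf_le_left.trans (elem_iff.mp hA.elem).1)
  have e1 : A₀.relIndex (A₀ ⊔ V) = A₀.relIndex V :=
    LocTrace.relIndex_sup_of_le_normalizer ((Subgroup.le_centralizer_iff.mp inf_le_right).trans (centralizer_le_normalizer _))
  have e2 := FrakM.card_mul_relIndex (le_sup_left : A₀ ≤ A₀ ⊔ V)
  have e3 := FrakM.card_mul_relIndex (inf_le_left : A₀ ≤ A)
  rw [Subgroup.inf_relIndex_left, ← hm] at e3
  have h3 : A₀.relIndex V ≤ m := by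
    rw [e1] at e2
    rw [← e2, ← e3] at h2
    exact Nat.le_of_mul_le_mul_left h2 Nat.card_pos
  have h4 : (centralizer (A : Set G)).relIndex V ≤ A₀.relIndex V := by
    have h5 : A₀ ⊓ V ≤ centralizer (A : Set G) ⊓ V := by
      apply le_inf _ inf_le_right
      exact (inf_le_inf_right V inf_le_left).trans (hAV.trans inf_le_right)
    rw [← Subgroup.inf_relIndex_right A₀ V, ← Subgroup.inf_relIndex_right (centralizer (A : Set G)) V]
    exact Subgroup.relIndex_le_of_le_left h5 (ri_pos _ _).ne'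
  have h5 : m = 1 := by nlinarith
  rw [hm, Subgroup.relIndex_eq_one] at h5
  exact h5

theorem JJ_le_centralizer {M T : Subgroup G} (h : Loc M) (hT : IsSyl 2 T M) :
    JJ T ≤ centralizer (ncl M (OZ 2 T) : Set G) := sSup_le fun _ hA => maxE_le_centralizer h hT hA

/-- **Thompson factorization** -/
theorem factor {M T : Subgroup G} (h : Loc M) (hT : IsSyl 2 T M) {g : G} (hg : g ∈ M) :
    ∃ c ∈ M ⊓ centralizer (ncl M (OZ 2 T) : Set G), ∃ n ∈ M ⊓ normalizer (JJ T : Set G), g = c * n := by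
  have hV := le_normalizer_ncl M (OZ 2 T)
  have h1 := LocTrace.isSyl_TL hT hV
  obtain ⟨c, hc, n, hn, e⟩ := h1.frattini (H := M) inf_le_left
    (le_normalizer_inf le_normalizer (le_normalizer_centralizer hV)) hg
  refine ⟨c, hc, n, ⟨hn.1, ?_⟩, e⟩
  have h2 := JJ_eq (le_inf (JJ_le T) (JJ_le_centralizer h hT)) inf_le_left
  have h3 := normalizer_le_JJ _ hn.2
  rwa [h2] at h3

theorem factor_sup {M T : Subgroup G} (h : Loc M) (hT : IsSyl 2 T M) :
    M ≤ (M ⊓ centralizer (OZ 2 T : Set G)) ⊔ (M ⊓ normalizer (JJ T : Set G)) := by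
  intro g hg
  obtain ⟨c, hc, n, hn, rfl⟩ := factor h hT hg
  exact Subgroup.mul_mem_sup ⟨hc.1, centralizer_le (le_ncl M (OZ 2 T)) hc.2⟩ hn

theorem ncl_eq {M T : Subgroup G} (h : Loc M) (hT : IsSyl 2 T M) :
    ncl M (OZ 2 T) ≤ ncl (M ⊓ normalizer (JJ T : Set G)) (OZ 2 T) := by
  conv_lhs => rw [ncl]
  apply iSup_le
  rintro ⟨g, hg⟩
  obtain ⟨c, hc, n, hn, rfl⟩ := factor h hT hg
  have h1 : (OZ 2 T).map (MulAut.conj n).toMonoidHom ≤ ncl M (OZ 2 T) :=
    le_iSup (fun g : ↥M => (OZ 2 T).map (MulAut.conj (g : G)).toMonoidHom) ⟨n, hn.1⟩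
  have h2 : (OZ 2 T).map (MulAut.conj (c * n)).toMonoidHom = (OZ 2 T).map (MulAut.conj n).toMonoidHom := by
    rw [map_conj_mul]
    apply map_conj_eq_of_mem
    exact centralizer_le_normalizer _ (centralizer_le h1 hc.2)
  change (OZ 2 T).map (MulAut.conj (c * n)).toMonoidHom ≤ _
  rw [h2]
  exact le_iSup (fun g : ↥(M ⊓ normalizer (JJ T : Set G)) => (OZ 2 T).map (MulAut.conj (g : G)).toMonoidHom) ⟨n, hn⟩

end Cfsg.Agent.Lib.SfThomp
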