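import Cfsg.Agent.Lib.SfThomp

/-!
# Uniqueness of the maximal 2-local subgroup over a Sylow subgroup; the global argument (helper47)
-/

set_option autoImplicit false
set_option linter.unusedSectionVars false

namespace Cfsg.Agent.Lib.SfUniq

open Subgroup Cfsg Cfsg.Agent.Lib.SfAct Cfsg.Agent.Lib.LocBase Cfsg.Agent.Lib.SfMin Cfsg.Agent.Lib.PReduced
open Cfsg.Agent.Lib.SfRel Cfsg.Agent.Lib.SfThomp

variable {G : Type*} [Group G] [Finite G]

theorem ncl_mono_left {K L X : Subgroup G} (h : K ≤ L) : ncl K X ≤ ncl L X :=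
  ncl_le (le_ncl L X) (h.trans (le_normalizer_ncl L X))

theorem OZ_ne_bot {T : Subgroup G} (hT : IsPGroup 2 T) (hT1 : T ≠ ⊥) : OZ 2 T ≠ ⊥ := by
  classical
  have hnt : Nontrivial T := by rwa [Subgroup.nontrivial_iff_ne_bot]
  have h1 : Nontrivial (center T) := hT.center_nontrivial
  have h2 : IsPGroup 2 (center T) := hT.to_subgroup _
  have h3 : 2 ∣ Nat.card (center T) := by
    rcases h2.card_eq_or_dvd with h | h
    · exact absurd (Nat.card_eq_one_iff_unique.mp h).1 (not_subsingleton _)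
    · exact h
  obtain ⟨x, hx⟩ := exists_prime_orderOf_dvd_card' 2 h3
  intro hb
  have hx1 : ((x : T) : G) ∈ OZ 2 T := by
    rw [mem_OZ]
    refine ⟨(x : T).2, ?_, ?_⟩
    · rw [mem_centralizer_iff]
      intro t ht
      have := Subgroup.mem_center_iff.mp x.2 ⟨t, ht⟩
      exact congrArg Subtype.val this
    · have h4 : x ^ 2 = 1 := by rw [← hx, pow_orderOf_eq_one]
      have h5 := congrArg (fun y : center T => ((y : T) : G)) h4
      simpa using h5
  rw [hb, mem_bot] at hx1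
  have h6 : x = 1 := Subtype.ext (Subtype.ext hx1)
  rw [h6, orderOf_one] at hx
  omega

theorem Loc.of_le {M P T : Subgroup G} (h : Loc M) (hT : IsSyl 2 T M) (hTP : T ≤ P) (hP : P ≤ M) : Loc P where
  sol := isSolvable_subgroup h.sol hP
  char := h.char.of_le hP (hT.pCoreOf_le.trans hTP)
  free := fun hi => h.free (involves_mono hP hi)

/-- **uniqueness** -/
theorem uniq (hl : ∀ M : Subgroup G, IsTwoLocal M → Loc M) {T : Subgroup G} (hT : IsSyl 2 T ⊤) (hT1 : T ≠ ⊥) :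
    ∃ M₁ : Subgroup G, IsTwoLocal M₁ ∧ ∀ M : Subgroup G, IsTwoLocal M → T ≤ M → M ≤ M₁ := by
  classical
  set Z₀ := OZ 2 T with hZ₀
  set N := normalizer (JJ T : Set G) with hN
  set Z₁ := ncl N Z₀ with hZ₁
  set M₁ := normalizer (Z₁ : Set G) with hM₁
  have hZ₀1 : Z₀ ≠ ⊥ := OZ_ne_bot hT.pgroup hT1
  have hZ₀Z₁ : Z₀ ≤ Z₁ := le_ncl _ _
  have hZ₁1 : Z₁ ≠ ⊥ := fun hb => hZ₀1 (eq_bot_iff.mpr (hZ₀Z₁.trans hb.le))
  have hNM₁ : N ≤ M₁ := le_normalizer_ncl _ _
  have hTN : T ≤ N := le_normalizer.trans (normalizer_le_JJ T)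
  have hTM₁ : T ≤ M₁ := hTN.trans hNM₁
  have hZ₀J : Z₀ ≤ JJ T := OZ_le_JJ T
  have hZ₁J : Z₁ ≤ JJ T := ncl_le hZ₀J le_rfl
  have hZ₁T : Z₁ ≤ T := hZ₁J.trans (JJ_le T)
  have hZ₁C : Z₁ ≤ centralizer (JJ T : Set G) :=
    ncl_le ((OZ_le_centralizer T).trans (centralizer_le (JJ_le T))) (le_normalizer_centralizer le_rfl)
  have hZ₁el : IsElementaryAbelian 2 Z₁ := by
    rw [hZ₁]
    refine elem_iSup (fun g => elem_map (elem_OZ 2 T) _) (fun i j => ?_)
    have h1 := le_iSup (fun g : ↥N => Z₀.map (MulAut.conj (g : G)).toMonoidHom)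
    exact ((h1 i).trans hZ₁C).trans (centralizer_le ((h1 j).trans hZ₁J))
  have hZ₁p : IsPGroup 2 Z₁ := elem_isPGroup hZ₁el
  have hM₁loc : IsTwoLocal M₁ := ⟨Z₁, hZ₁p, hZ₁1, rfl⟩
  have hM₁L := hl M₁ hM₁loc
  have hTM₁s : IsSyl 2 T M₁ := hT.of_le hTM₁ le_top
  have hnclM₁ : ncl M₁ Z₀ = Z₁ := le_antisymm (ncl_le hZ₀Z₁ le_rfl) (ncl_mono_left hNM₁)
  -- the key: `C_G(Z₀) ≤ M₁`
  have key : centralizer (Z₀ : Set G) ≤ M₁ := by
    by_contra hcon
    have hTC : T ≤ centralizer (Z₀ : Set G) := le_centralizer_OZ T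
    obtain ⟨P₂, ⟨h1, h2, h3⟩, hmin⟩ := (Set.toFinite {P : Subgroup G | T ≤ P ∧ P ≤ centralizer (Z₀ : Set G) ∧
      ¬ P ≤ M₁}).exists_minimal ⟨_, hTC, le_rfl, hcon⟩
    have hZ₀loc : IsTwoLocal (normalizer (Z₀ : Set G)) := ⟨Z₀, hT.pgroup.to_le (OZ_le T), hZ₀1, rfl⟩
    have hP₂N : P₂ ≤ normalizer (Z₀ : Set G) := h2.trans (centralizer_le_normalizer _)
    have hP₂L : Loc P₂ := Loc.of_le (hl _ hZ₀loc) (hT.of_le (h1.trans hP₂N) le_top) h1 hP₂N
    have hRP : RP P₂ T Z₁ := by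
      refine ⟨hP₂L.sol, hP₂L.free, hP₂L.char, hT.of_le h1 le_top, hZ₁T, hTM₁, ?_, ?_, ?_, h3, ?_⟩
      · intro a ha b hb
        exact mem_centralizer_iff.mp ((elem_iff.mp hZ₁el).1 hb) a ha
      · intro a ha
        have := (elem_iff.mp hZ₁el).2 a ha
        rwa [pow_two] at this
      · intro K hTK hKP hne
        by_contra hc
        exact hne (le_antisymm hKP (hmin ⟨hTK, hKP.trans h2, hc⟩ hKP))
      · intro A hA hA2
        have hPR : PRed 2 Z₁ M₁ := by
          have := pred_V hM₁L hTM₁s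
          rwa [← hZ₀, hnclM₁] at this
        exact bound' hM₁L hPR (hA.trans hTM₁) hA2
    have hTQ : T ≤ normalizer ((T ⊓ centralizer (Z₁ : Set G) : Subgroup G) : Set G) :=
      LocTrace.syl_le_normalizer_TL hTM₁
    refine SfAmal.amalgam (P₁ := M₁ ⊓ normalizer ((T ⊓ centralizer (Z₁ : Set G) : Subgroup G) : Set G)) hRP
      inf_le_right hZ₁1 ?_
    intro R hR hR1 hRP₁ hRP₂
    apply h3
    set M := normalizer (R : Set G) with hM
    have hMloc : IsTwoLocal M := ⟨R, hR, hR1, rfl⟩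
    have hTM : T ≤ M := h1.trans hRP₂
    have hML := hl M hMloc
    have hTMs : IsSyl 2 T M := hT.of_le hTM le_top
    have e1 : ncl M Z₀ ≤ Z₁ := by
      refine (ncl_eq hML hTMs).trans ?_
      exact ncl_mono_left inf_le_right
    have e2 : Z₁ ≤ ncl M Z₀ := by
      rw [← hnclM₁]
      conv_lhs => rw [ncl]
      apply iSup_le
      rintro ⟨g, hg⟩
      have h4 := LocTrace.isSyl_TL hTM₁s (Y := Z₁) le_rfl
      obtain ⟨c, hc, n, hn, rfl⟩ := h4.frattini (H := M₁) inf_le_left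
        (le_normalizer_inf le_normalizer (le_normalizer_centralizer le_rfl)) hg
      have h5 : Z₀.map (MulAut.conj n).toMonoidHom ≤ Z₁ := by
        rw [← map_conj_eq_of_mem (A := Z₁) hn.1]
        exact map_conj_mono n hZ₀Z₁
      have h6 : Z₀.map (MulAut.conj (c * n)).toMonoidHom = Z₀.map (MulAut.conj n).toMonoidHom := by
        rw [map_conj_mul]
        apply map_conj_eq_of_mem
        exact centralizer_le_normalizer _ (centralizer_le h5 hc.2)
      change Z₀.map (MulAut.conj (c * n)).toMonoidHom ≤ _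
      rw [h6]
      exact le_iSup (fun g : ↥M => Z₀.map (MulAut.conj (g : G)).toMonoidHom) ⟨n, hRP₁ hn⟩
    have e3 : ncl M Z₀ = Z₁ := le_antisymm e1 e2
    have h7 : M ≤ M₁ := by
      have := le_normalizer_ncl M Z₀
      rwa [e3] at this
    exact hRP₂.trans h7
  refine ⟨M₁, hM₁loc, fun M hM hTM => ?_⟩
  refine (factor_sup (hl M hM) (hT.of_le hTM le_top)).trans (sup_le ?_ ?_)
  · exact inf_le_right.trans key
  · exact inf_le_right.trans hNM₁

/-! ### the global argument -/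

theorem exists_max {M : Subgroup G} (hM : IsTwoLocal M) : ∃ L : Subgroup G, IsMaximalTwoLocal L ∧ M ≤ L := by
  obtain ⟨L, ⟨h1, h2⟩, hmax⟩ := (Set.toFinite {L : Subgroup G | IsTwoLocal L ∧ M ≤ L}).exists_maximal ⟨M, hM, le_rfl⟩
  exact ⟨L, ⟨h1, fun N hN hle => le_antisymm (hmax ⟨hN, h2.trans hle⟩ hle) hle⟩, h2⟩

/-- full 2-local subgroups contain a Sylow 2-subgroup -/
def Full (M : Subgroup G) : Prop := ∃ S : Subgroup G, IsSyl 2 S ⊤ ∧ S ≤ M

theorem Full.syl {M S : Subgroup G} (h : Full M) (hS : IsSyl 2 S M) : IsSyl 2 S ⊤ := by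
  obtain ⟨S', hS', hle⟩ := h
  obtain ⟨g, -, e⟩ := hS.conj (hS'.of_le hle le_top)
  have h1 := hS'.map_conj g
  rw [e] at h1
  have h2 : (⊤ : Subgroup G).map (MulAut.conj g).toMonoidHom = ⊤ :=
    Subgroup.map_top_of_surjective _ (MulAut.conj g).surjective
  rwa [h2] at h1

theorem eq_of_syl (hl : ∀ M : Subgroup G, IsTwoLocal M → Loc M) {S M M' : Subgroup G} (hS : IsSyl 2 S ⊤)
    (hM : IsMaximalTwoLocal M) (hM' : IsMaximalTwoLocal M') (h : S ≤ M) (h' : S ≤ M') : M = M' := by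
  have hS1 : S ≠ ⊥ := by
    rintro rfl
    obtain ⟨R, hR, hR1, hRM⟩ := hM.1
    have h1 := hS.card_le hR le_top
    rw [Subgroup.card_bot] at h1
    exact hR1 (Subgroup.eq_bot_of_card_le _ h1)
  obtain ⟨M₁, h1, h2⟩ := uniq hl hS hS1
  rw [← hM.2 M₁ h1 (h2 M hM.1 h), hM'.2 M₁ h1 (h2 M' hM'.1 h')]

/-- two full maximal 2-locals have small intersection -/
theorem small_inter (hl : ∀ M : Subgroup G, IsTwoLocal M → Loc M) {n : ℕ} (hn : 1 ≤ n)
    (hnf : ∀ L : Subgroup G, IsMaximalTwoLocal L → ¬ Full L → ∀ D : Subgroup G, IsPGroup 2 D → D ≤ L → Nat.card D ≤ n)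
    {M M' : Subgroup G} (hM : IsMaximalTwoLocal M) (hM' : IsMaximalTwoLocal M') (hf : Full M) (hf' : Full M')
    (hne : M ≠ M') {D : Subgroup G} (hD : IsPGroup 2 D) (hDM : D ≤ M) (hDM' : D ≤ M') : Nat.card D ≤ n := by
  by_contra hcon
  push Not at hcon
  obtain ⟨D, ⟨hD, hDn, Ma, Mb, ha, hb, hfa, hfb, hab, hDa, hDb⟩, hmax⟩ := Set.Finite.exists_maximalFor
    (fun D : Subgroup G => Nat.card D)
    {D : Subgroup G | IsPGroup 2 D ∧ n < Nat.card D ∧ ∃ Ma Mb : Subgroup G, IsMaximalTwoLocal Ma ∧ IsMaximalTwoLocal Mb ∧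
      Full Ma ∧ Full Mb ∧ Ma ≠ Mb ∧ D ≤ Ma ∧ D ≤ Mb} (Set.toFinite _)
    ⟨D, hD, hcon, M, M', hM, hM', hf, hf', hne, hDM, hDM'⟩
  have hD1 : D ≠ ⊥ := by
    rintro rfl
    rw [Subgroup.card_bot] at hDn
    omega
  obtain ⟨L, hL, hNL⟩ := exists_max (M := normalizer (D : Set G)) ⟨D, hD, hD1, rfl⟩
  have hfL : Full L := by
    by_contra hc
    have := hnf L hL hc D hD (le_normalizer.trans hNL)
    omega
  have step : ∀ A B : Subgroup G, IsMaximalTwoLocal A → IsMaximalTwoLocal B → Full A → Full B → A ≠ B → D ≤ A → D ≤ B →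
      L = A := by
    intro A B hA hB hfA hfB hAB hDA hDB
    obtain ⟨S, hS, hDS⟩ := exists_isSyl_ge hD hDA
    have hST := hfA.syl hS
    have hlt : D < S := by
      refine lt_of_le_of_ne hDS ?_
      rintro rfl
      exact hAB (eq_of_syl hl hST hA hB hDA hDB)
    have h1 := LocMore.lt_inf_normalizer hS.pgroup hlt
    by_contra hLA
    have h2 : Nat.card D < Nat.card ↥(S ⊓ normalizer (D : Set G)) := by
      refine lt_of_le_of_ne (Subgroup.card_le_of_le h1.le) (fun e => h1.ne (Subgroup.eq_of_le_of_card_ge h1.le e.ge))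
    have h3 := hmax (j := S ⊓ normalizer (D : Set G)) ⟨hS.pgroup.to_le inf_le_left, hDn.trans h2, L, A, hL, hA, hfL, hfA, hLA,
      inf_le_right.trans hNL, inf_le_left.trans hS.le⟩ h2.le
    exact absurd h3 (not_le.mpr h2)
  exact hab ((step Ma Mb ha hb hfa hfb hab hDa hDb).symm.trans (step Mb Ma hb ha hfb hfa hab.symm hDb hDa))

theorem all_full (hl : ∀ M : Subgroup G, IsTwoLocal M → Loc M) {M : Subgroup G} (hM : IsMaximalTwoLocal M) : Full M := by
  by_contra hcon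
  obtain ⟨T, ⟨hT, M, hM, hnf, hTM⟩, hmax⟩ := Set.Finite.exists_maximalFor
    (fun D : Subgroup G => Nat.card D)
    {D : Subgroup G | IsPGroup 2 D ∧ ∃ M : Subgroup G, IsMaximalTwoLocal M ∧ ¬ Full M ∧ D ≤ M} (Set.toFinite _)
    ⟨⊥, IsPGroup.of_bot, M, hM, hcon, bot_le⟩
  have hmax' : ∀ L : Subgroup G, IsMaximalTwoLocal L → ¬ Full L → ∀ D : Subgroup G, IsPGroup 2 D → D ≤ L →
      Nat.card D ≤ Nat.card T := by
    intro L hL hf D hD hDL
    rcases le_total (Nat.card D) (Nat.card T) with h | h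
    · exact h
    · exact hmax (j := D) ⟨hD, L, hL, hf, hDL⟩ h
  have hTs : IsSyl 2 T M := by
    obtain ⟨S, hS, hTS⟩ := exists_isSyl_ge hT hTM
    have h1 := hmax' M hM hnf S hS.pgroup hS.le
    rwa [Subgroup.eq_of_le_of_card_ge hTS h1]
  have hT1 : T ≠ ⊥ := by
    rintro rfl
    obtain ⟨R, hR, hR1, hRM⟩ := hM.1
    have h1 := hmax' M hM hnf R hR (by rw [hRM]; exact le_normalizer)
    rw [Subgroup.card_bot] at h1
    exact hR1 (Subgroup.eq_bot_of_card_le _ h1)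
  obtain ⟨S, hS, hTS⟩ := exists_isSyl_ge hT (le_top : T ≤ ⊤)
  have hlt : T < S := by
    refine lt_of_le_of_ne hTS ?_
    rintro rfl
    exact hnf ⟨T, hS, hTM⟩
  have h1 := LocMore.lt_inf_normalizer hS.pgroup hlt
  set D₁ := S ⊓ normalizer (T : Set G) with hD₁
  have hD₁p : IsPGroup 2 D₁ := hS.pgroup.to_le inf_le_left
  have h2 : Nat.card T < Nat.card D₁ :=
    lt_of_le_of_ne (Subgroup.card_le_of_le h1.le) (fun e => h1.ne (Subgroup.eq_of_le_of_card_ge h1.le e.ge))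
  have hZ1 : OZ 2 T ≠ ⊥ := OZ_ne_bot hT hT1
  have hJ1 : JJ T ≠ ⊥ := fun hb => hZ1 (eq_bot_iff.mpr ((OZ_le_JJ T).trans hb.le))
  obtain ⟨L, hL, hLZ⟩ := exists_max (M := normalizer (OZ 2 T : Set G)) ⟨_, hT.to_le (OZ_le T), hZ1, rfl⟩
  obtain ⟨L', hL', hLJ⟩ := exists_max (M := normalizer (JJ T : Set G)) ⟨_, hT.to_le (JJ_le T), hJ1, rfl⟩
  have hD₁L : D₁ ≤ L := inf_le_right.trans ((normalizer_le_normalizer_OZ 2 T).trans hLZ)
  have hD₁L' : D₁ ≤ L' := inf_le_right.trans ((normalizer_le_JJ T).trans hLJ)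
  have hfL : Full L := by
    by_contra hc
    exact absurd (hmax' L hL hc D₁ hD₁p hD₁L) (not_le.mpr h2)
  have hfL' : Full L' := by
    by_contra hc
    exact absurd (hmax' L' hL' hc D₁ hD₁p hD₁L') (not_le.mpr h2)
  have hLL : L = L' := by
    by_contra hne
    have := small_inter hl (n := Nat.card T) Nat.card_pos hmax' hL hL' hfL hfL' hne hD₁p hD₁L hD₁L'
    exact absurd this (not_le.mpr h2)
  subst hLL
  have h3 : M ≤ L := by
    refine (factor_sup (hl M hM.1) hTs).trans (sup_le ?_ ?_)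
    · exact (inf_le_right.trans (centralizer_le_normalizer _)).trans hLZ
    · exact inf_le_right.trans hLJ
  have h4 := hM.2 L hL.1 h3
  rw [h4] at hfL
  exact hnf hfL

theorem isMaximalTwoLocal_conj {M : Subgroup G} (hM : IsMaximalTwoLocal M) (g : G) :
    IsMaximalTwoLocal (M.map (MulAut.conj g).toMonoidHom) := by
  have hc : ∀ (N : Subgroup G), IsTwoLocal N → ∀ g : G, IsTwoLocal (N.map (MulAut.conj g).toMonoidHom) := by
    rintro N ⟨T, hT, hT1, h⟩ g
    refine ⟨T.map (MulAut.conj g).toMonoidHom, isPGroup_map_conj hT g, ?_, ?_⟩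
    · intro hb
      exact hT1 ((Subgroup.map_eq_bot_iff_of_injective _ (MulAut.conj g).injective).mp hb)
    · rw [h, map_conj_normalizer]
  refine ⟨hc M hM.1 g, fun N hN hle => ?_⟩
  have h1 := hM.2 _ (hc N hN g⁻¹) (by
    rw [map_conj_le_iff] at hle
    exact hle)
  rw [← h1, ← map_conj_mul, mul_inv_cancel, map_conj_one]

theorem stronglyEmbedded (hl : ∀ M : Subgroup G, IsTwoLocal M → Loc M) (hO : pCore 2 G = ⊥) {M : Subgroup G}
    (hM : IsMaximalTwoLocal M) : IsStronglyEmbedded M := by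
  obtain ⟨R, hR, hR1, hRM⟩ := hM.1
  refine ⟨?_, ?_, fun g hg => ?_⟩
  · intro htop
    apply hR1
    rw [eq_bot_iff, ← hO]
    exact le_pCore (Subgroup.normalizer_eq_top_iff.mp (hRM.symm.trans htop)) hR
  · have h1 : 2 ∣ Nat.card R := by
      rcases hR.card_eq_or_dvd with h | h
      · exact absurd (Subgroup.card_eq_one.mp h) hR1
      · exact h
    have h2 : R ≤ M := by rw [hRM]; exact le_normalizer
    exact even_iff_two_dvd.mpr (h1.trans (Subgroup.card_dvd_of_le h2))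
  · by_contra hodd
    rw [Nat.not_odd_iff_even, even_iff_two_dvd] at hodd
    obtain ⟨x, hx⟩ := exists_prime_orderOf_dvd_card' 2 hodd
    have hx' : orderOf (x : G) = 2 := by rw [← hx, Subgroup.orderOf_coe]
    have hM' : IsMaximalTwoLocal (M.map (MulAut.conj g).toMonoidHom) := isMaximalTwoLocal_conj hM g
    have hne : M ≠ M.map (MulAut.conj g).toMonoidHom := by
      intro e
      apply hg
      have h0 : pCoreOf 2 M ≠ ⊥ := by
        intro hbot
        apply hR1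
        rw [eq_bot_iff, ← hbot]
        exact LocBase.le_pCoreOf (by rw [hRM]; exact le_normalizer) hRM.le hR
      have h1 : IsTwoLocal (normalizer (pCoreOf 2 M : Set G)) := ⟨_, isPGroup_pCoreOf 2 M, h0, rfl⟩
      have h2 := hM.2 _ h1 (le_normalizer_pCoreOf 2 M)
      rw [← h2]
      exact normalizer_le_normalizer_pCoreOf 2 M (mem_normalizer_of_map_conj_eq e.symm)
    have hzp : IsPGroup 2 ↥(zpowers (x : G)) := by
      rw [IsPGroup.iff_card]
      exact ⟨1, by rw [Nat.card_zpowers, hx', pow_one]⟩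
    have h3 := small_inter hl (n := 1) le_rfl (fun L hL hf => absurd (all_full hl hL) hf) hM hM' (all_full hl hM)
      (all_full hl hM') hne hzp (by rw [zpowers_le]; exact x.2.1) (by rw [zpowers_le]; exact x.2.2)
    rw [Nat.card_zpowers, hx'] at h3
    omega

end Cfsg.Agent.Lib.SfUniq
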