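import Cfsg.Agent.Lib.SfoTab
set_option autoImplicit false

/-!
The combinatorial data of the types G₂, B₂, D₄, F₄, E₆ (helper44).
-/

namespace Cfsg.Agent.Lib.Sfo
open Cfsg.Lie

def oG2 (s : ℕ) : Bool := [0, 1, 5, 6, 10, 11].contains s
def oB2 (s : ℕ) : Bool := [0, 3, 4, 7].contains s
def oF4 (s : ℕ) : Bool := [0, 1, 2, 4, 5, 6, 15, 16, 17, 21, 22, 23, 24, 25, 26, 30, 31, 32, 41, 42, 43, 45, 46, 47].contains s

theorem datG2 : Dat ChevOkG2.good oG2 := dat_of _ (by decide +kernel)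
theorem datB2 : Dat ChevOkB2.good oB2 := dat_of _ (by decide +kernel)
theorem datD4 : Dat ChevOkD4.good (fun _ => true) := dat_of _ (by decide +kernel)
theorem datF4 : Dat ChevOkF4.good oF4 := dat_of _ (by decide +kernel)
theorem datE6 : Dat ChevOkE6.good (fun _ => true) := dat_of _ (by decide +kernel)

end Cfsg.Agent.Lib.Sfo
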