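import Cfsg.Agent.Lib.SfoTab
set_option autoImplicit false

/-!
The combinatorial data of the type E₈ (helper44).
-/

namespace Cfsg.Agent.Lib.Sfo
open Cfsg.Lie

theorem datE8 : Dat ChevOkE8.good (fun _ => true) := dat_of _ (by decide +kernel)

end Cfsg.Agent.Lib.Sfo
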