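import Cfsg.Agent.Lib.SfoFin
import Cfsg.Agent.Lib.ChevRel
set_option autoImplicit false
set_option linter.unusedSectionVars false
set_option linter.unusedVariables false

/-!
Finite overgroups of subfield groups: the statements (helper44).
-/

namespace Cfsg.Agent.Lib.Sfo
open Cfsg.Lie Cfsg.Agent.Lib.ChevX Cfsg.Agent.Lib.ChevGood Cfsg.Agent.Lib.ChevRel Cfsg.Agent.Lib.ChevNPerm
  Cfsg.Agent.Lib.ChevBruhat Cfsg.Agent.Lib.ChevRadCent Cfsg.Agent.Lib.ChevFix Cfsg.Agent.Lib.ChevInv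
open Cfsg.Agent.Lib.ChevClosed hiding pr
open scoped MatrixGroups Matrix Polynomial

theorem overgroups {k : Type*} [Field k] [IsAlgClosed k] (p : ℕ) [Fact p.Prime] [CharP k p] (D : Cfsg.Lie.ChevalleyDatum) (hD : D ∈ [Cfsg.Lie.chevG2, Cfsg.Lie.chevB2, Cfsg.Lie.chevD4, Cfsg.Lie.chevF4, Cfsg.Lie.chevE6, Cfsg.Lie.chevE7, Cfsg.Lie.chevE8]) (a : ℕ) (ha : 1 ≤ a) (M : Subgroup (GL D.Idx k)) (hMfin : Finite ↥M) (hMG : M ≤ D.group k)
    (hLM : Subgroup.closure {g : GL D.Idx k | ∃ (s : ℕ) (t : k), t ^ (p ^ a) = t ∧ (g : Matrix D.Idx D.Idx k) = D.x k s t} ≤ M) :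
    ∃ r : ℕ, 1 ≤ r ∧ Subgroup.closure {g : GL D.Idx k | ∃ (s : ℕ) (t : k), t ^ ((p ^ a) ^ r) = t ∧ (g : Matrix D.Idx D.Idx k) = D.x k s t} ≤ M ∧
      ∀ g ∈ M, ∀ i j : D.Idx, ((g : Matrix D.Idx D.Idx k) i j) ^ ((p ^ a) ^ r) = (g : Matrix D.Idx D.Idx k) i j := by
  classical
  obtain ⟨G⟩ := good_of_mem hD
  haveI := hMfin
  haveI : PerfectRing k p := PerfectField.toPerfectRing p
  have hx : ∀ (s : ℕ) (t : k), t ^ (p ^ a) = t → xg D k s t ∈ M := fun s t ht =>
    hLM (Subgroup.subset_closure ⟨s, t, ht, coe_xg G s t⟩)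
  obtain ⟨n, hn, h1, h2, E, hEf, hEc, hE⟩ := general (p := p) hD M hMG (fun s _ => hx s 1 (one_pow _))
  obtain ⟨K, hKf, hKc, hK⟩ := card_fixed (F := k) (p := p) (n := a) (by omega) (IsAlgClosed.splits _)
  have hKE : K ≤ E := by
    intro x hxK
    have h3 := hx 0 x ((hK x).1 hxK)
    have h4 := (h1 ⟨0, G.nroots_pos⟩ x).1 h3
    exact (hE x).2 h4
  obtain ⟨r, hr, hnr⟩ := card_pow_of_le (p := p) hKE (by omega) hKc hEc
  have hpow : (p ^ a) ^ r = p ^ n := by rw [← pow_mul, hnr]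
  refine ⟨r, hr, ?_, ?_⟩
  · rw [Subgroup.closure_le]
    rintro g ⟨s, t, ht, hg⟩
    have hg' : g = xg D k s t := Units.ext (by rw [hg, coe_xg G])
    rw [hpow] at ht
    rw [SetLike.mem_coe, hg']
    by_cases hs : s < D.nroots
    · exact (h1 ⟨s, hs⟩ t).2 ht
    · have : xg D k s t = 1 := Units.ext (by rw [coe_xg G, x_out hs]; rfl)
      rw [this]; exact one_mem _
  · intro g hg i j
    rw [hpow]
    exact h2 g hg i j

theorem maximal {K : Type*} [Field K] [Fintype K] (p : ℕ) [Fact p.Prime] [CharP K p] (D : Cfsg.Lie.ChevalleyDatum) (hD : D ∈ [Cfsg.Lie.chevG2, Cfsg.Lie.chevB2, Cfsg.Lie.chevD4, Cfsg.Lie.chevF4, Cfsg.Lie.chevE6, Cfsg.Lie.chevE7, Cfsg.Lie.chevE8]) (a r : ℕ) (ha : 1 ≤ a) (hr : r.Prime) (hK : Fintype.card K = (p ^ a) ^ r) (M : Subgroup (GL D.Idx K))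
    (hM : ∀ g : GL D.Idx K, g ∈ M ↔ g ∈ D.group K ∧ ∀ i j : D.Idx, ((g : Matrix D.Idx D.Idx K) i j) ^ (p ^ a) = (g : Matrix D.Idx D.Idx K) i j) :
    M ≠ D.group K ∧ ∀ H : Subgroup (GL D.Idx K), M ≤ H → H ≤ D.group K → H = M ∨ H = D.group K := by
  classical
  obtain ⟨G⟩ := good_of_mem hD
  haveI : PerfectRing K p := PerfectField.toPerfectRing p
  have hp := (Fact.out : p.Prime)
  have hq : 1 < p ^ a := Nat.one_lt_pow (by omega) hp.one_lt
  have hne : p ^ a < (p ^ a) ^ r := by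
    calc p ^ a = (p ^ a) ^ 1 := (pow_one _).symm
      _ < (p ^ a) ^ r := Nat.pow_lt_pow_right hq hr.one_lt
  -- membership of root elements
  have hroot : ∀ (s : ℕ) (t : K), t ^ (p ^ a) = t → xg D K s t ∈ M := by
    intro s t ht
    rw [hM]
    refine ⟨ChevAuto.xg_mem G s t, fun i j => ?_⟩
    have h1 : em D (iterateFrobenius K p a) (xg D K s t) = xg D K s t := by
      rw [em_xg G, iterateFrobenius_def, ht]
    exact congrArg (fun g : GL D.Idx K => (g : Matrix D.Idx D.Idx K) i j) h1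
  have hroot' : ∀ (s : ℕ) (t : K), s < D.nroots → xg D K s t ∈ M → t ^ (p ^ a) = t := by
    intro s t hs h
    rw [hM] at h
    have h1 : em D (iterateFrobenius K p a) (xg D K s t) = xg D K s t := by
      apply Units.ext
      ext i j
      exact h.2 i j
    rw [em_xg G, iterateFrobenius_def] at h1
    exact xg_inj G hs h1
  -- the polynomial splits
  have hsplit : (Polynomial.X ^ (p ^ a) - Polynomial.X : K[X]).Splits := by
    have h1 : (Polynomial.X ^ (Nat.card K) - Polynomial.X : K[X]).Splits := Polynomial.splits_X_pow_nat_card_sub_X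
    have h2 : Nat.card K = p ^ (a * r) := by rw [Nat.card_eq_fintype_card, hK, pow_mul]
    rw [h2] at h1
    refine h1.of_dvd ?_ ?_
    · exact FiniteField.X_pow_card_sub_X_ne_zero K (Nat.one_lt_pow (Nat.mul_ne_zero (by omega) hr.ne_zero) hp.one_lt)
    · exact dvd_pow_pow_sub_self_of_dvd (dvd_mul_right a r)
  obtain ⟨K0, hK0f, hK0c, hK0⟩ := card_fixed (F := K) (p := p) (n := a) (by omega) hsplit
  constructor
  · intro h
    have h1 : ∀ t : K, t ∈ K0 := by
      intro t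
      rw [hK0]
      exact hroot' 0 t G.nroots_pos (by rw [h]; exact ChevAuto.xg_mem G 0 t)
    have h2 : Nat.card K0 = Nat.card K := Nat.card_congr ⟨fun x => x.1, fun x => ⟨x, h1 x⟩, fun x => rfl, fun x => rfl⟩
    rw [hK0c, Nat.card_eq_fintype_card, hK] at h2
    omega
  · intro H hMH hHG
    obtain ⟨n, hn, h1, h2, E, hEf, hEc, hE⟩ := general (p := p) hD H hHG (fun s _ => hMH (hroot s 1 (one_pow _)))
    have hKE : K0 ≤ E := by
      intro x hxK
      have h3 := hMH (hroot 0 x ((hK0 x).1 hxK))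
      have h4 := (h1 ⟨0, G.nroots_pos⟩ x).1 h3
      exact (hE x).2 h4
    obtain ⟨u, hu, hnu⟩ := card_pow_of_le (p := p) hKE (by omega) hK0c hEc
    obtain ⟨w, hw, hnw⟩ := card_pow_of_le (p := p) (K := E) (E := ⊤) le_top hn hEc (n := a * r) (by
      rw [pow_mul, ← hK, ← Nat.card_eq_fintype_card]
      exact Nat.card_congr Subfield.topEquiv.toEquiv)
    have h3 : r = u * w := by
      rw [hnu, mul_assoc] at hnw
      exact Nat.eq_of_mul_eq_mul_left (by omega) hnw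
    rcases hr.eq_one_or_self_of_dvd u ⟨w, h3⟩ with h4 | h4
    · left
      rw [h4, mul_one] at hnu
      apply le_antisymm _ hMH
      intro g hg
      rw [hM]
      refine ⟨hHG hg, fun i j => ?_⟩
      have := h2 g hg i j
      rwa [hnu] at this
    · right
      apply le_antisymm hHG
      rw [ChevAuto.group_eq G, Subgroup.closure_le]
      rintro _ ⟨s, hs, t, rfl⟩
      rw [SetLike.mem_coe]
      refine (h1 ⟨s, hs⟩ t).2 ?_
      rw [hnu, h4, pow_mul, ← hK]
      exact FiniteField.pow_card t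

end Cfsg.Agent.Lib.Sfo
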