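import Cfsg.Agent.Lib.SfoOdd
import Cfsg.Agent.Lib.ChevInvF
set_option autoImplicit false
set_option linter.unusedSectionVars false
set_option linter.unusedVariables false

/-!
Finite overgroups of subfield groups: characteristic two (helper44).
-/

namespace Cfsg.Agent.Lib.Sfo
open Cfsg.Lie Cfsg.Agent.Lib.ChevX Cfsg.Agent.Lib.ChevGood Cfsg.Agent.Lib.ChevRel Cfsg.Agent.Lib.ChevNPerm
  Cfsg.Agent.Lib.ChevBruhat Cfsg.Agent.Lib.ChevRadCent Cfsg.Agent.Lib.ChevFix Cfsg.Agent.Lib.ChevInv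
open Cfsg.Agent.Lib.ChevClosed hiding pr
open scoped MatrixGroups Matrix

/-! ### dihedral groups -/

theorem conj_of_odd {Γ : Type*} [Group Γ] {v t : Γ} (hv : v * v = 1) (ht : t * t = 1) {k : ℕ}
    (h : (v * t) ^ (2 * k + 1) = 1) : (v * t) ^ (k + 1) * t * ((v * t) ^ (k + 1))⁻¹ = v := by
  have h1 : ∀ j : ℕ, t * ((v * t) ^ j)⁻¹ = (v * t) ^ j * t := by
    intro j
    induction j with
    | zero => simp
    | succ j ih =>
      have hti : t⁻¹ = t := inv_eq_of_mul_eq_one_left ht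
      have hvi : v⁻¹ = v := inv_eq_of_mul_eq_one_left hv
      rw [pow_succ', mul_inv_rev, ← mul_assoc, ih, mul_inv_rev, hti, hvi]
      have h2 : (v * t) ^ j * t * (t * v) = (v * t) ^ j * v := by
        rw [mul_assoc, ← mul_assoc t t v, ht, one_mul]
      rw [h2, ← pow_succ', pow_succ, mul_assoc, mul_assoc v t t, ht, mul_one]
  rw [mul_assoc, h1, ← mul_assoc, ← pow_add]
  have h2 : k + 1 + (k + 1) = 2 * k + 1 + 1 := by ring
  rw [h2, pow_succ, h, one_mul, mul_assoc, ht, mul_one]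

theorem exists_central_inv {Γ : Type*} [Group Γ] {v t : Γ} (hv : v * v = 1) (ht : t * t = 1) {n : ℕ}
    (hn : orderOf (v * t) = 2 * n) (hn0 : n ≠ 0) : (v * t) ^ n ≠ 1 ∧ (v * t) ^ n * (v * t) ^ n = 1 ∧
      v * (v * t) ^ n = (v * t) ^ n * v ∧ (v * t) ^ n * t = t * (v * t) ^ n := by
  have hti : t⁻¹ = t := inv_eq_of_mul_eq_one_left ht
  have hvi : v⁻¹ = v := inv_eq_of_mul_eq_one_left hv
  have h1 : (v * t) ^ n * (v * t) ^ n = 1 := by rw [← pow_add, ← two_mul, ← hn, pow_orderOf_eq_one]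
  have h2 : ((v * t) ^ n)⁻¹ = (v * t) ^ n := inv_eq_of_mul_eq_one_left h1
  have h3 : ((v * t) ^ n)⁻¹ = (t * v) ^ n := by rw [← inv_pow, mul_inv_rev, hti, hvi]
  have h4 : ∀ j : ℕ, v * (t * v) ^ j = (v * t) ^ j * v := by
    intro j
    induction j with
    | zero => simp
    | succ j ih => rw [pow_succ, ← mul_assoc, ih, pow_succ]; group
  have h5 : ∀ j : ℕ, t * (v * t) ^ j = (t * v) ^ j * t := by
    intro j
    induction j with
    | zero => simp
    | succ j ih => rw [pow_succ, ← mul_assoc, ih, pow_succ]; group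
  refine ⟨fun h => ?_, h1, ?_, ?_⟩
  · have h6 := orderOf_dvd_of_pow_eq_one h
    rw [hn] at h6
    have := Nat.le_of_dvd (Nat.pos_of_ne_zero hn0) h6
    omega
  · have h6 := h4 n
    rw [← h3, h2] at h6
    exact h6
  · have h6 := h5 n
    rw [← h3, h2] at h6
    exact h6.symm

variable {D : ChevalleyDatum} {F : Type*} [Field F]

/-! ### matrix entries -/

section
variable (G : Good D)
include G

theorem ord_neg_hi_le (r : Fin D.nroots) : G.ord (negF G (hi G)) ≤ G.ord r := by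
  have h1 : G.ord (negF G (hi G)) = - G.ord (hi G) := ChevU.ord_neg G (hi G).2
  have h2 : G.ord (negF G r) ≤ G.ord (hi G) := by
    by_contra h
    have h3 := (G.ord_mono (hi G) (hi G).2 (negF G r) (negF G r).2).2 (not_le.1 h)
    have h4 : (hi G : ℕ) = D.nroots - 1 := rfl
    have := (negF G r).2
    omega
  have h3 : G.ord (negF G r) = - G.ord r := ChevU.ord_neg G r.2
  omega

theorem ord_hi_pos : 0 < G.ord (hi G) := ordF_pos G (pos_hi G)

/-- the lowest row of an element of `U` -/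
theorem row_U {u : GL D.Idx F} (hu : u ∈ D.posUnipotent F) (j : D.Idx) :
    (u : Matrix D.Idx D.Idx F) (Sum.inr (negF G (hi G))) j = if j = Sum.inr (negF G (hi G)) then 1 else 0 := by
  have h1 := (ChevLev.mem_LG.1 (ChevU.posUnipotent_le_LG G hu)).1
  have h2 : ((u : Matrix D.Idx D.Idx F) - 1) (Sum.inr (negF G (hi G))) j = 0 := by
    by_contra h
    have h3 := h1 _ _ h
    have h4 : ChevU.wt G (Sum.inr (negF G (hi G)) : D.Idx) = G.ord (negF G (hi G)) := rfl
    have h5 : G.ord (negF G (hi G)) = - G.ord (hi G) := ChevU.ord_neg G (hi G).2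
    have h6 := ord_hi_pos G
    rcases j with i | s
    · have h7 : ChevU.wt G (Sum.inl i : D.Idx) = 0 := rfl
      rw [h4, h7] at h3
      push_cast at h3
      omega
    · have h7 : ChevU.wt G (Sum.inr s : D.Idx) = G.ord s := rfl
      have h8 := ord_neg_hi_le G s
      rw [h4, h7] at h3
      push_cast at h3
      omega
  rw [Matrix.sub_apply, sub_eq_zero] at h2
  rw [h2, Matrix.one_apply]
  by_cases h : j = Sum.inr (negF G (hi G))
  · rw [if_pos h, if_pos h.symm]
  · rw [if_neg h, if_neg (fun h' => h h'.symm)]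

theorem col_U {u : GL D.Idx F} (hu : u ∈ D.posUnipotent F) (j : D.Idx) :
    (u : Matrix D.Idx D.Idx F) j (Sum.inr (hi G)) = if j = Sum.inr (hi G) then 1 else 0 := by
  have h1 := (ChevLev.mem_LG.1 (ChevU.posUnipotent_le_LG G hu)).1
  have h2 : ((u : Matrix D.Idx D.Idx F) - 1) j (Sum.inr (hi G)) = 0 := by
    by_contra h
    have h3 := h1 _ _ h
    have h4 : ChevU.wt G (Sum.inr (hi G) : D.Idx) = G.ord (hi G) := rfl
    have h6 := ord_hi_pos G
    rcases j with i | s
    · have h7 : ChevU.wt G (Sum.inl i : D.Idx) = 0 := rfl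
      rw [h4, h7] at h3
      push_cast at h3
      omega
    · have h7 : ChevU.wt G (Sum.inr s : D.Idx) = G.ord s := rfl
      have h8 := ord_neg_hi_le G (negF G s)
      have h9 : G.ord (negF G s) = - G.ord s := ChevU.ord_neg G s.2
      have h5 : G.ord (negF G (hi G)) = - G.ord (hi G) := ChevU.ord_neg G (hi G).2
      rw [h4, h7] at h3
      push_cast at h3
      omega
  rw [Matrix.sub_apply, sub_eq_zero] at h2
  rw [h2, Matrix.one_apply]

/-- rows of the products of the `n_i` -/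
theorem row_nl (l : List (Fin D.rank)) : ∀ r : Fin D.nroots, ∃ d : F, d ≠ 0 ∧ ∀ j : D.Idx,
    (nl D F l : Matrix D.Idx D.Idx F) (Sum.inr (wl G l r)) j = if j = Sum.inr r then d else 0 := by
  induction l with
  | nil =>
    intro r
    refine ⟨1, one_ne_zero, fun j => ?_⟩
    have h1 : nl D F ([] : List (Fin D.rank)) = 1 := by simp [nl]
    have h2 : wl G ([] : List (Fin D.rank)) r = r := by simp [wl]
    rw [h1, h2, Units.val_one, Matrix.one_apply]
    by_cases h : j = Sum.inr r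
    · rw [if_pos h, if_pos h.symm]
    · rw [if_neg h, if_neg (fun h' => h h'.symm)]
  | cons i l ih =>
    intro r
    obtain ⟨d, hd, h⟩ := ih r
    rw [nl_cons G]
    have h1 : wl G (i :: l) r = refl G i (wl G l r) := by simp [wl]
    have h2 : (nn D F i : Matrix D.Idx D.Idx F) = D.nMat F (D.simple i) 1 := coe_ng G _ _
    have h3 : ∀ j, ((nn D F i * nl D F l : GL D.Idx F) : Matrix D.Idx D.Idx F) (Sum.inr (wl G (i :: l) r)) j =
        ((G.η i (wl G l r) : ℤ) : F) * (nl D F l : Matrix D.Idx D.Idx F) (Sum.inr (wl G l r)) j := by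
      intro j
      rw [Units.val_mul, h2, n_mul_r G i.2, h1]
      have h4 : D.reflectRoot i (refl G i (wl G l r)).val = (wl G l r).val := G.w_w i i.2 _ (wl G l r).2
      have h5 : (⟨D.reflectRoot i (refl G i (wl G l r)).val, G.w_lt i i.2 _ (refl G i (wl G l r)).2⟩ : Fin D.nroots) =
          wl G l r := Fin.ext h4
      rw [h5, h4]
    have hη : ((G.η i (wl G l r) : ℤ) : F) ≠ 0 := by
      rcases G.η_sq i i.2 (wl G l r) (wl G l r).2 with h4 | h4 <;> rw [h4] <;> simp
    refine ⟨((G.η i (wl G l r) : ℤ) : F) * d, mul_ne_zero hη hd, fun j => ?_⟩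
    rw [h3, h]
    split_ifs <;> simp

theorem row_N {n : GL D.Idx F} {w : Equiv.Perm (Fin D.nroots)} (hn : n ∈ D.monomialSubgroup F) (hw : Mono G n w)
    (r : Fin D.nroots) : ∃ d : F, d ≠ 0 ∧ ∀ j : D.Idx,
    (n : Matrix D.Idx D.Idx F) (Sum.inr (w r)) j = if j = Sum.inr r then d else 0 := by
  obtain ⟨l, a, ha, rfl⟩ := exists_nl G hn
  have h1 : w = wl G l := by
    rw [mono_unique G hw (mono_mul G (mono_nl G l) (mono_diag G ha)), mul_one]
  subst h1
  obtain ⟨d, hd, h⟩ := row_nl (F := F) G l r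
  obtain ⟨c, hc, rfl⟩ := ChevH.exists_hs G ha
  refine ⟨d * ∏ i ∈ Finset.range D.rank, c i ^ D.cartan i r,
    mul_ne_zero hd (Finset.prod_ne_zero_iff.2 fun i hi => zpow_ne_zero _ (hc i (Finset.mem_range.1 hi))), fun j => ?_⟩
  rw [Units.val_mul, Matrix.mul_apply, Finset.sum_eq_single (Sum.inr r : D.Idx)]
  · rw [h, if_pos rfl, ChevH.coe_hs G le_rfl hc, ChevH.dm]
    by_cases hj : j = Sum.inr r
    · subst hj
      rw [Matrix.diagonal_apply_eq, if_pos rfl, Sum.elim_inr]
    · rw [Matrix.diagonal_apply_ne _ (fun h' => hj h'.symm), if_neg hj, mul_zero]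
  · intro b _ hb
    rw [h, if_neg hb, zero_mul]
  · intro h; exact absurd (Finset.mem_univ _) h

/-- the lowest row of an element with Bruhat permutation `w` -/
theorem row_bruhat {u n u' : GL D.Idx F} {w : Equiv.Perm (Fin D.nroots)} (hu : u ∈ D.posUnipotent F)
    (hn : n ∈ D.monomialSubgroup F) (hw : Mono G n w) {r : Fin D.nroots} (hr : w r = negF G (hi G)) :
    ∃ d : F, d ≠ 0 ∧ ∀ j : D.Idx, ((u * n * u' : GL D.Idx F) : Matrix D.Idx D.Idx F) (Sum.inr (negF G (hi G))) j =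
      d * (u' : Matrix D.Idx D.Idx F) (Sum.inr r) j := by
  obtain ⟨d, hd, h⟩ := row_N (F := F) G hn hw r
  rw [hr] at h
  refine ⟨d, hd, fun j => ?_⟩
  rw [mul_assoc, Units.val_mul, Matrix.mul_apply, Finset.sum_eq_single (Sum.inr (negF G (hi G)) : D.Idx)]
  · rw [row_U G hu, if_pos rfl, one_mul, Units.val_mul, Matrix.mul_apply, Finset.sum_eq_single (Sum.inr r : D.Idx)]
    · rw [h, if_pos rfl]
    · intro b _ hb
      rw [h, if_neg hb, zero_mul]
    · intro h; exact absurd (Finset.mem_univ _) h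
  · intro b _ hb
    rw [row_U G hu, if_neg hb, zero_mul]
  · intro h; exact absurd (Finset.mem_univ _) h

/-- the lowest row of an element stabilizing the highest root subgroup -/
theorem row_SP (hD : Listed D) {g : GL D.Idx F} (h : SP G g) : ∃ d : F, d ≠ 0 ∧ ∀ j : D.Idx,
    (g : Matrix D.Idx D.Idx F) (Sum.inr (negF G (hi G))) j = if j = Sum.inr (negF G (hi G)) then d else 0 := by
  obtain ⟨hmG, c0, hc0, h0⟩ := h
  obtain ⟨u, hu, n, hn, w, hw, u', hu', rfl, hwhi⟩ := sp_bruhat G hD hmG one_ne_zero (h0 1)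
  have hu'U : u' ∈ D.posUnipotent F := by
    rw [← XS_posS G]; exact XS_mono (fun r hr => hr.1) hu'
  have hw2 : w (negF G (hi G)) = negF G (hi G) := by rw [lin_neg G hw.1, hwhi]
  obtain ⟨d, hd, h1⟩ := row_bruhat (u' := u') G hu hn hw hw2
  refine ⟨d, hd, fun j => ?_⟩
  rw [h1, row_U G hu'U]
  split_ifs <;> simp

/-- the extreme entry of an element moving the highest root to its negative -/
theorem entry_opp {u n u' : GL D.Idx F} {w : Equiv.Perm (Fin D.nroots)} (hu : u ∈ D.posUnipotent F)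
    (hn : n ∈ D.monomialSubgroup F) (hw : Mono G n w) (hu' : u' ∈ D.posUnipotent F) (hr : w (hi G) = negF G (hi G)) :
    ((u * n * u' : GL D.Idx F) : Matrix D.Idx D.Idx F) (Sum.inr (negF G (hi G))) (Sum.inr (hi G)) ≠ 0 := by
  obtain ⟨d, hd, h⟩ := row_bruhat (u' := u') G hu hn hw hr
  rw [h, col_U G hu', if_pos rfl, mul_one]
  exact hd

/-- columns of root elements -/
theorem col_fix {r s : Fin D.nroots} (hs : s ≠ negF G r) (h : D.chainEntry r s = []) (t : F) (j : D.Idx) :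
    (xg D F r t : Matrix D.Idx D.Idx F) j (Sum.inr s) = if j = Sum.inr s then 1 else 0 := by
  have hs' : ¬ (s : ℕ) = D.neg r := fun hh => hs (Fin.ext hh)
  rw [coe_xg G]
  rcases j with i | u
  · rw [ent_lr G r.2, if_neg hs', if_neg (by simp)]
  · have h1 : ¬ ((s : ℕ) = D.neg r ∧ (u : ℕ) = r) := fun hh => hs' hh.1
    rw [ent_rr G r.2, if_neg h1, h]
    simp [Cs, Fin.ext_iff]

theorem col_move {r s s' : Fin D.nroots} {N : ℤ} (hs : s ≠ negF G r) (h : D.chainEntry r s = [((s' : ℕ), N)]) (t : F)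
    (j : D.Idx) : (xg D F r t : Matrix D.Idx D.Idx F) j (Sum.inr s) =
      (if j = Sum.inr s then 1 else 0) + (if j = Sum.inr s' then (N : F) * t else 0) := by
  have hs' : ¬ (s : ℕ) = D.neg r := fun hh => hs (Fin.ext hh)
  rw [coe_xg G]
  rcases j with i | u
  · rw [ent_lr G r.2, if_neg hs', if_neg (by simp), if_neg (by simp), add_zero]
  · have h1 : ¬ ((s : ℕ) = D.neg r ∧ (u : ℕ) = r) := fun hh => hs' hh.1
    rw [ent_rr G r.2, if_neg h1, h]
    simp [Cs, Fin.ext_iff, eq_comm]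

end

/-! ### lifting fixed involutions -/

section
variable (G : Good D)
include G

theorem fixed_inv_lift [CharP F 2] {F₀ : Type*} [Field F₀] [Finite F₀] [CharP F₀ 2] (hD : Listed D) (σ : F ≃+* F) (ι : F₀ →+* F)
    (hι : ∀ x, σ x = x ↔ ∃ y, ι y = x) {z : GL D.Idx F} (hz : z ∈ D.group F) (h : em D (σ : F →+* F) z = z)
    (hzz : z * z = 1) : ∃ z0 ∈ D.group F₀, em D ι z0 = z := by
  classical
  obtain ⟨g0, hg0, a, ha, hfa, rfl⟩ := fixed_group G hD σ ι (fun x hx => (hι x).1 hx) hz h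
  obtain ⟨-, c, hc0, -, hc2⟩ := mono_diag G ha
  have hcσ : ∀ r : Fin D.nroots, σ (c r) = c r := by
    intro r
    have h1 := congrArg (em D (σ : F →+* F)) (hc2 r 1)
    rw [map_mul, map_mul, map_inv, em_xg G, em_xg G, hfa, map_one, mul_one] at h1
    have h2 := hc2 r 1
    rw [mul_one] at h2
    rw [h2] at h1
    exact (xg_inj G r.2 h1).symm
  set L := (D.group F₀).map (em D ι) with hL
  have hconj : ∀ x ∈ L, a * x * a⁻¹ ∈ L := by
    rintro _ ⟨y, hy, rfl⟩
    have h1 : D.group F₀ ≤ L.comap ((MulAut.conj a).toMonoidHom.comp (em D ι)) := by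
      rw [ChevAuto.group_eq G, Subgroup.closure_le]
      rintro _ ⟨r, hr, t, rfl⟩
      rw [SetLike.mem_coe, Subgroup.mem_comap]
      show a * em D ι (xg D F₀ r t) * a⁻¹ ∈ L
      rw [em_xg G]
      have h2 := hc2 ⟨r, hr⟩ (ι t)
      rw [h2]
      obtain ⟨y, hy⟩ := (hι (c ⟨r, hr⟩)).1 (hcσ _)
      refine ⟨xg D F₀ r (y * t), ChevAuto.xg_mem G r _, ?_⟩
      rw [em_xg G, map_mul, hy]; rfl
    exact h1 hy
  have hpow : ∀ k : ℕ, ∃ x ∈ L, (em D ι g0 * a) ^ k = x * a ^ k := by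
    intro k
    induction k with
    | zero => exact ⟨1, one_mem _, by simp⟩
    | succ k ih =>
      obtain ⟨x, hx, h1⟩ := ih
      have h2 : ∀ j : ℕ, ∀ x ∈ L, a ^ j * x * (a ^ j)⁻¹ ∈ L := by
        intro j
        induction j with
        | zero => intro x hx; simpa using hx
        | succ j ih =>
          intro x hx
          have h3 := hconj _ (ih x hx)
          have h4 : a * (a ^ j * x * (a ^ j)⁻¹) * a⁻¹ = a ^ (j + 1) * x * (a ^ (j + 1))⁻¹ := by
            rw [pow_succ']; group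
          rwa [h4] at h3
      refine ⟨x * (a ^ k * em D ι g0 * (a ^ k)⁻¹), mul_mem hx (h2 k _ (Subgroup.mem_map_of_mem _ hg0)), ?_⟩
      rw [pow_succ, h1, pow_succ]; group
  -- the torus part has odd order
  haveI : Fintype F₀ := Fintype.ofFinite F₀
  have haq : a ^ (Fintype.card F₀ - 1) = 1 := by
    have hcp : ∀ (k : ℕ) (r : Fin D.nroots) (t : F), a ^ k * xg D F r t * (a ^ k)⁻¹ = xg D F r (c r ^ k * t) := by
      intro k
      induction k with
      | zero => intro r t; simp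
      | succ k ih =>
        intro r t
        have h1 : a ^ (k + 1) * xg D F r t * (a ^ (k + 1))⁻¹ = a * (a ^ k * xg D F r t * (a ^ k)⁻¹) * a⁻¹ := by
          rw [pow_succ']; group
        rw [h1, ih, hc2, pow_succ, ← mul_assoc, mul_comm (c r) (c r ^ k)]; rfl
    apply ChevSimple.H_eq_one_of_comm G (pow_mem ha _)
    intro r hr
    have h1 := hcp (Fintype.card F₀ - 1) ⟨r, hr⟩ 1
    rw [mul_one] at h1
    rw [h1]
    obtain ⟨y, hy⟩ := (hι (c ⟨r, hr⟩)).1 (hcσ _)
    have hy0 : y ≠ 0 := by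
      rintro rfl
      rw [map_zero] at hy
      exact hc0 _ hy.symm
    rw [← hy, ← map_pow, FiniteField.pow_card_sub_one_eq_one y hy0, map_one]
  obtain ⟨x, hx, h1⟩ := hpow (Fintype.card F₀ - 1)
  rw [haq, mul_one] at h1
  have hodd : Odd (Fintype.card F₀ - 1) := by
    obtain ⟨n, hp, hn⟩ := FiniteField.card F₀ 2
    rw [hn]
    have h2 : Even (2 ^ (n : ℕ)) := by
      rw [Nat.even_pow]
      exact ⟨even_two, n.2.ne'⟩
    exact Nat.Even.sub_odd (Nat.one_le_two_pow) h2 odd_one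
  obtain ⟨k, hk⟩ := hodd
  have h2 : (em D ι g0 * a) ^ (Fintype.card F₀ - 1) = em D ι g0 * a := by
    rw [hk, pow_succ, pow_mul, sq, hzz, one_pow, one_mul]
  rw [h2] at h1
  rw [h1]
  obtain ⟨y, hy, rfl⟩ := hx
  exact ⟨y, hy, rfl⟩

end

/-- the representatives of the classes of involutions are covered -/
def RepOK (G : Good D) (A : List ℕ) : Prop :=
  (∀ r ∈ A, ∃ h : r < D.nroots, (⟨r, h⟩ : Fin D.nroots) ∈ Qd G) ∨
  ∃ (r s s' : Fin D.nroots) (tl : List ℕ) (N : ℤ), A = (r : ℕ) :: tl ∧ Orb G s' ∧ s ≠ negF G r ∧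
    D.chainEntry r s = [((s' : ℕ), N)] ∧ (N = 1 ∨ N = -1) ∧
    ∀ r' ∈ tl, ∃ h : r' < D.nroots, s ≠ negF G ⟨r', h⟩ ∧ D.chainEntry r' s = []

theorem p1_Q (G : Good D) {A : List ℕ} (h : ∀ r ∈ A, ∃ h : r < D.nroots, (⟨r, h⟩ : Fin D.nroots) ∈ Qd G) :
    p1 D F A ∈ XS D F (Qd G) := by
  unfold p1
  apply Subgroup.list_prod_mem
  intro x hx
  obtain ⟨r, hr, rfl⟩ := List.mem_map.1 hx
  obtain ⟨h1, h2⟩ := h r hr
  exact xg_mem_XS h2 1

theorem em_p1 (G : Good D) {K : Type*} [Field K] (f : F →+* K) (A : List ℕ) : em D f (p1 D F A) = p1 D K A := by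
  unfold p1
  rw [map_list_prod, List.map_map]
  congr 1
  apply List.map_congr_left
  intro r _
  simp only [Function.comp]
  rw [em_xg G, map_one]

section
variable {G : Good D} {σ : F ≃+* F} {M : Subgroup (GL D.Idx F)} {C : Set (Fin D.nroots)} (X : Full G σ M C)
include X

theorem Full.entry_ne (PR : Pair G) {g : GL D.Idx F} (hg : g ∈ M) (hne : em D (σ : F →+* F) g ≠ g) :
    (g : Matrix D.Idx D.Idx F) (Sum.inr (negF G (hi G))) (Sum.inr (hi G)) ≠ 0 := by
  obtain ⟨u, hu, n, hn, w, hw, u', hu', hge⟩ := exists_bruhat G X.cx.hD (X.cx.le hg)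
  have hu'U : u' ∈ D.posUnipotent F := by
    rw [← XS_posS G]; exact XS_mono (fun r hr => hr.1) hu'
  have hwhi := X.opp PR hg hne hu hn hw hu'U hge
  rw [hge]
  exact entry_opp G hu hn hw hu'U hwhi

theorem Full.ρ_ne (PR : Pair G) {g : GL D.Idx F} (hg : g ∈ M) (hne : em D (σ : F →+* F) g ≠ g) {s : Fin D.nroots}
    (hs : Orb G s) : (g : Matrix D.Idx D.Idx F) (Sum.inr (negF G (hi G))) (Sum.inr s) ≠ 0 := by
  obtain ⟨l, rfl⟩ := hs
  have hlM := X.cx.nl_mem l
  have h1 := X.entry_ne PR (mul_mem hg hlM) (by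
    rw [map_mul, em_nl G]
    intro h
    exact hne (mul_right_cancel h))
  rw [Units.val_mul, Matrix.mul_apply, Finset.sum_eq_single (Sum.inr (wl G l (hi G)) : D.Idx)] at h1
  · exact left_ne_zero_of_mul h1
  · intro b _ hb
    have hzero : (nl D F l : Matrix D.Idx D.Idx F) b (Sum.inr (hi G)) = 0 := by
      rcases b with i | s
      · -- the Cartan part
        have hcol : ∀ (l : List (Fin D.rank)) (r : Fin D.nroots) (i : Fin D.rank),
            (nl D F l : Matrix D.Idx D.Idx F) (Sum.inl i) (Sum.inr r) = 0 := by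
          intro l
          induction l with
          | nil => intro r i; simp [nl, Matrix.one_apply]
          | cons k l ih =>
            intro r i
            rw [nl_cons G, Units.val_mul, show (nn D F k : Matrix D.Idx D.Idx F) = D.nMat F (D.simple k) 1 from coe_ng G _ _,
              n_mul_l G k.2, ih]
            simp [ih]
        exact hcol l _ i
      · obtain ⟨d, hd, h2⟩ := row_nl (F := F) G l ((wl G l)⁻¹ s)
        rw [ap_inv] at h2
        rw [h2, if_neg]
        intro h3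
        apply hb
        have h4 : hi G = (wl G l)⁻¹ s := Sum.inr_injective h3
        rw [h4, ap_inv]
    rw [hzero, mul_zero]
  · intro h; exact absurd (Finset.mem_univ _) h

theorem Full.even (PR : Pair G) [CharP F 2] [Finite M] {F₀ : Type*} [Field F₀] [Finite F₀] [CharP F₀ 2] (ι : F₀ →+* F)
    (hι : ∀ x, σ x = x ↔ ∃ y, ι y = x) (hO : OC D F₀) {T : List Ent} {reps : List (List ℕ)} (hT : tableB D T reps = true)
    (hreps : ∀ A ∈ reps, RepOK G A) {A' : List ℕ} (hA' : ∀ r ∈ A', ∃ h : r < D.nroots, (⟨r, h⟩ : Fin D.nroots) ∈ Qd G)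
    (hsq : p1 D F A' * p1 D F A' = 1) (hne1 : p1 D F A' ≠ 1)
    (hnc : ∀ g ∈ D.group F, g * p1 D F A' * g⁻¹ ≠ xg D F (hi G) 1) {g : GL D.Idx F} (hgM : g ∈ M) :
    em D (σ : F →+* F) g = g := by
  classical
  by_contra hne
  have hD := X.cx.hD
  obtain ⟨t, ht⟩ : ∃ t, t = p1 D F A' := ⟨_, rfl⟩
  rw [← ht] at hsq hne1 hnc
  have htM : t ∈ M := by
    rw [ht]
    unfold p1
    apply Subgroup.list_prod_mem
    intro x hx
    obtain ⟨r, hr, rfl⟩ := List.mem_map.1 hx
    obtain ⟨h1, h2⟩ := hA' r hr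
    exact X.cx.one ⟨r, h1⟩
  have htQ : t ∈ XS D F (Qd G) := by rw [ht]; exact p1_Q G hA'
  obtain ⟨v, hv⟩ : ∃ v, v = g * xg D F (hi G) 1 * g⁻¹ := ⟨_, rfl⟩
  have hvM : v ∈ M := by rw [hv]; exact mul_mem (mul_mem hgM (X.cx.one _)) (inv_mem hgM)
  have hvv : v * v = 1 := by
    have h1 : xg D F (hi G) 1 * xg D F (hi G) 1 = 1 := xg_one_sq G _
    rw [hv]
    calc g * xg D F (hi G) 1 * g⁻¹ * (g * xg D F (hi G) 1 * g⁻¹) = g * (xg D F (hi G) 1 * xg D F (hi G) 1) * g⁻¹ := by group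
      _ = 1 := by rw [h1]; group
  have hpos : 0 < orderOf (v * t) := by
    have h1 : 0 < orderOf (⟨v * t, mul_mem hvM htM⟩ : M) := orderOf_pos _
    rwa [Subgroup.orderOf_mk] at h1
  obtain ⟨n, hn | hn⟩ := Nat.even_or_odd' (orderOf (v * t))
  swap
  · have h1 := conj_of_odd hvv hsq (k := n) (by rw [← hn, pow_orderOf_eq_one])
    refine hnc (g⁻¹ * (v * t) ^ (n + 1)) (mul_mem (inv_mem (X.cx.le hgM)) (pow_mem (X.cx.le (mul_mem hvM htM)) _)) ?_
    have h2 : g⁻¹ * (v * t) ^ (n + 1) * t * (g⁻¹ * (v * t) ^ (n + 1))⁻¹ =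
        g⁻¹ * ((v * t) ^ (n + 1) * t * ((v * t) ^ (n + 1))⁻¹) * g := by group
    rw [h2, h1, hv]; group
  obtain ⟨hz1, hzz, hvz, hzt⟩ := exists_central_inv hvv hsq hn (by omega)
  obtain ⟨z, hz⟩ : ∃ z, z = (v * t) ^ n := ⟨_, rfl⟩
  rw [← hz] at hz1 hzz hvz hzt
  have hzM : z ∈ M := by rw [hz]; exact pow_mem (mul_mem hvM htM) _
  have hzfix := X.cent_Q PR htQ hne1 hzM hzt
  obtain ⟨z0, hz0, hz0e⟩ := fixed_inv_lift G hD σ ι hι (X.cx.le hzM) hzfix hzz
  have hord : orderOf z0 = 2 := by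
    apply orderOf_eq_prime
    · apply em_injective (D := D) ι
      rw [sq, map_mul, hz0e, hzz, map_one]
    · rintro rfl
      apply hz1
      rw [← hz0e, map_one]
  obtain ⟨A, hA, g0, hg0, hgz⟩ := all_involutions G hD hO hT hz0 hord
  obtain ⟨m, hm⟩ : ∃ m, m = em D ι g0 := ⟨_, rfl⟩
  have hmM : m ∈ M := by
    have h1 : D.group F₀ ≤ M.comap (em D ι) := by
      rw [ChevAuto.group_eq G, Subgroup.closure_le]
      rintro _ ⟨r, hr, t, rfl⟩
      rw [SetLike.mem_coe, Subgroup.mem_comap, em_xg G]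
      exact (X.cx.mem ⟨r, hr⟩ _).2 ((hι _).2 ⟨t, rfl⟩)
    rw [hm]
    exact h1 hg0
  have hmfix : em D (σ : F →+* F) m = m := by
    rw [hm, em_comp G]
    congr 2
    ext x
    exact (hι (ι x)).2 ⟨x, rfl⟩
  have hmz : m * z * m⁻¹ = p1 D F A := by
    have h1 := congrArg (em D ι) hgz
    rw [map_mul, map_mul, map_inv, em_p1 G, hz0e, ← hm] at h1
    exact h1
  -- the conjugated situation
  obtain ⟨g', hg'⟩ : ∃ g', g' = m * g := ⟨_, rfl⟩
  have hg'M : g' ∈ M := by rw [hg']; exact mul_mem hmM hgM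
  have hg'ne : em D (σ : F →+* F) g' ≠ g' := by
    rw [hg', map_mul, hmfix]
    intro h
    exact hne (mul_left_cancel h)
  have hcomm : (g' * xg D F (hi G) 1 * g'⁻¹) * p1 D F A = p1 D F A * (g' * xg D F (hi G) 1 * g'⁻¹) := by
    have h1 : g' * xg D F (hi G) 1 * g'⁻¹ = m * v * m⁻¹ := by rw [hg', hv]; group
    rw [h1, ← hmz]
    calc m * v * m⁻¹ * (m * z * m⁻¹) = m * (v * z) * m⁻¹ := by group
      _ = m * (z * v) * m⁻¹ := by rw [hvz]
      _ = _ := by group
  have hA1 : p1 D F A ≠ 1 := by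
    rw [← hmz]
    intro h
    apply hz1
    calc z = m⁻¹ * (m * z * m⁻¹) * m := by group
      _ = 1 := by rw [h]; group
  have hAsq : p1 D F A * p1 D F A = 1 := by
    rw [← hmz]
    calc m * z * m⁻¹ * (m * z * m⁻¹) = m * (z * z) * m⁻¹ := by group
      _ = 1 := by rw [hzz]; group
  rcases hreps A hA with hQ | ⟨r, s, s', tl, N, hAe, horb, hsr, hch, hN, htl⟩
  · have h1 := X.cent_Q PR (p1_Q G hQ) hA1 (m := g' * xg D F (hi G) 1 * g'⁻¹)
      (mul_mem (mul_mem hg'M (X.cx.one _)) (inv_mem hg'M)) hcomm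
    exact hg'ne (X.fix_conj hg'M one_ne_zero h1)
  · -- the functional
    have hAG : p1 D F A ∈ D.group F := by
      rw [← hmz]
      exact X.cx.le (mul_mem (mul_mem hmM hzM) (inv_mem hmM))
    obtain ⟨h, hh⟩ : ∃ h, h = g'⁻¹ * p1 D F A * g' := ⟨_, rfl⟩
    have hSP : SP G h := by
      refine sp_of_conj G hD ?_ (t := 1) (t' := 1) one_ne_zero ?_
      · rw [hh]; exact mul_mem (mul_mem (inv_mem (X.cx.le hg'M)) hAG) (X.cx.le hg'M)
      · rw [hh]
        have h1 : p1 D F A * (g' * xg D F (hi G) 1 * g'⁻¹) * (p1 D F A)⁻¹ = g' * xg D F (hi G) 1 * g'⁻¹ := by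
          rw [← hcomm]; group
        calc g'⁻¹ * p1 D F A * g' * xg D F (hi G) 1 * (g'⁻¹ * p1 D F A * g')⁻¹
            = g'⁻¹ * (p1 D F A * (g' * xg D F (hi G) 1 * g'⁻¹) * (p1 D F A)⁻¹) * g' := by group
          _ = _ := by rw [h1]; group
    obtain ⟨d, hd, hrow⟩ := row_SP G hD hSP
    have hhh : h * h = 1 := by
      rw [hh]
      calc g'⁻¹ * p1 D F A * g' * (g'⁻¹ * p1 D F A * g') = g'⁻¹ * (p1 D F A * p1 D F A) * g' := by group
        _ = 1 := by rw [hAsq]; group
    have hd1 : d = 1 := by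
      have h1 := congrArg (fun g : GL D.Idx F => (g : Matrix D.Idx D.Idx F) (Sum.inr (negF G (hi G))) (Sum.inr (negF G (hi G)))) hhh
      simp only [Units.val_mul, Units.val_one, Matrix.mul_apply, Matrix.one_apply_eq] at h1
      rw [Finset.sum_eq_single (Sum.inr (negF G (hi G)) : D.Idx)] at h1
      · rw [hrow, if_pos rfl] at h1
        have h2 : (d - 1) * (d - 1) = 0 := by
          have h3 : (2 : F) = 0 := CharTwo.two_eq_zero
          linear_combination h1 + (1 - d) * h3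
        exact sub_eq_zero.1 (mul_self_eq_zero.1 h2)
      · intro b _ hb
        rw [hrow, if_neg hb, zero_mul]
      · intro h; exact absurd (Finset.mem_univ _) h
    -- the columns
    have hcoltl : ∀ j : D.Idx, (p1 D F tl : Matrix D.Idx D.Idx F) j (Sum.inr s) = if j = Sum.inr s then 1 else 0 := by
      clear hAe
      induction tl with
      | nil => intro j; rw [p1_nil, Units.val_one, Matrix.one_apply]
      | cons r' tl ih =>
        intro j
        obtain ⟨h1, h2, h3⟩ := htl r' List.mem_cons_self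
        rw [p1_cons, Units.val_mul, Matrix.mul_apply, Finset.sum_eq_single (Sum.inr s : D.Idx)]
        · rw [ih (fun r hr => htl r (List.mem_cons_of_mem _ hr)), if_pos rfl, mul_one]
          exact col_fix G (r := ⟨r', h1⟩) h2 h3 1 j
        · intro b _ hb
          rw [ih (fun r hr => htl r (List.mem_cons_of_mem _ hr)), if_neg hb, mul_zero]
        · intro h; exact absurd (Finset.mem_univ _) h
    have hcol : ∀ j : D.Idx, (p1 D F A : Matrix D.Idx D.Idx F) j (Sum.inr s) =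
        (if j = Sum.inr s then 1 else 0) + (if j = Sum.inr s' then (N : F) * 1 else 0) := by
      intro j
      rw [hAe, p1_cons, Units.val_mul, Matrix.mul_apply, Finset.sum_eq_single (Sum.inr s : D.Idx)]
      · rw [hcoltl, if_pos rfl, mul_one]
        exact col_move G hsr hch 1 j
      · intro b _ hb
        rw [hcoltl, if_neg hb, mul_zero]
      · intro h; exact absurd (Finset.mem_univ _) h
    have h1 : g'⁻¹ * p1 D F A = h * g'⁻¹ := by rw [hh]; group
    have h2 := congrArg (fun g : GL D.Idx F => (g : Matrix D.Idx D.Idx F) (Sum.inr (negF G (hi G))) (Sum.inr s)) h1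
    simp only [Units.val_mul, Matrix.mul_apply] at h2
    rw [Finset.sum_eq_single (Sum.inr (negF G (hi G)) : D.Idx) (f := fun j => (h : Matrix D.Idx D.Idx F) _ j * _)] at h2
    · rw [hrow, if_pos rfl, hd1, one_mul] at h2
      simp only [hcol, mul_add, mul_ite, mul_one, mul_zero] at h2
      rw [Finset.sum_add_distrib, Finset.sum_ite_eq', Finset.sum_ite_eq', if_pos (Finset.mem_univ _),
        if_pos (Finset.mem_univ _)] at h2
      have h3 : (((g'⁻¹ : GL D.Idx F) : Matrix D.Idx D.Idx F) (Sum.inr (negF G (hi G))) (Sum.inr s')) * (N : F) = 0 := by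
        linear_combination h2
      have h4 := X.ρ_ne PR (inv_mem hg'M) (by
        rw [map_inv]
        intro h
        exact hg'ne (inv_injective h)) horb
      rcases mul_eq_zero.1 h3 with h5 | h5
      · exact h4 h5
      · rcases hN with h6 | h6 <;> rw [h6] at h5 <;> simp at h5
    · intro b _ hb
      rw [hrow, if_neg hb, zero_mul]
    · intro h; exact absurd (Finset.mem_univ _) h

end

end Cfsg.Agent.Lib.Sfo
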