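import Cfsg.Agent.Lib.SfoFull
set_option autoImplicit false
set_option linter.unusedSectionVars false
set_option linter.unusedVariables false

/-!
Finite overgroups of subfield groups: the general theorem (helper44).
-/

namespace Cfsg.Agent.Lib.Sfo
open Cfsg.Lie Cfsg.Agent.Lib.ChevX Cfsg.Agent.Lib.ChevGood Cfsg.Agent.Lib.ChevRel Cfsg.Agent.Lib.ChevNPerm
  Cfsg.Agent.Lib.ChevBruhat Cfsg.Agent.Lib.ChevRadCent Cfsg.Agent.Lib.ChevFix Cfsg.Agent.Lib.ChevInv
open Cfsg.Agent.Lib.ChevClosed hiding pr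
open scoped MatrixGroups Matrix Polynomial

section fields
variable {F : Type*} [Field F] {p : ℕ} [Fact p.Prime] [CharP F p]

open Polynomial in
theorem finite_roots {q : ℕ} (hq : 1 < q) : {x : F | x ^ q = x}.Finite ∧ {x : F | x ^ q = x}.ncard ≤ q := by
  classical
  have hne : (X ^ q - X : F[X]) ≠ 0 := FiniteField.X_pow_card_sub_X_ne_zero F hq
  have hset : {x : F | x ^ q = x} = ((X ^ q - X : F[X]).roots.toFinset : Set F) := by
    ext x
    simp only [Set.mem_ofPred_eq, Finset.mem_coe, Multiset.mem_toFinset, mem_roots hne, IsRoot.def, eval_sub, eval_pow, eval_X,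
      sub_eq_zero]
  rw [hset]
  refine ⟨Finset.finite_toSet _, ?_⟩
  rw [Set.ncard_coe_finset]
  refine (Multiset.toFinset_card_le _).trans ((card_roots' _).trans ?_)
  rw [FiniteField.X_pow_card_sub_X_natDegree_eq F hq]

/-- a finite subfield is the set of roots -/
theorem subfield_eq (E : Subfield F) [Finite E] {n : ℕ} (hn : n ≠ 0) (hcard : Nat.card E = p ^ n) (x : F) :
    x ^ (p ^ n) = x ↔ x ∈ E := by
  classical
  haveI : Fintype E := Fintype.ofFinite E
  have h1 : ∀ x ∈ E, x ^ (p ^ n) = x := by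
    intro x hx
    have h2 := FiniteField.pow_card (⟨x, hx⟩ : E)
    rw [← Nat.card_eq_fintype_card, hcard] at h2
    exact congrArg Subtype.val h2
  refine ⟨fun hx => ?_, h1 x⟩
  have hq : 1 < p ^ n := Nat.one_lt_pow hn (Fact.out : p.Prime).one_lt
  obtain ⟨hfin, hle⟩ := finite_roots (F := F) hq
  have hsub : (E : Set F) ⊆ {x : F | x ^ (p ^ n) = x} := fun x hx => h1 x hx
  have h2 : (E : Set F) = {x : F | x ^ (p ^ n) = x} := by
    apply Set.eq_of_subset_of_ncard_le hsub _ hfin
    refine hle.trans ?_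
    have h3 : (E : Set F).ncard = Nat.card E := rfl
    rw [h3, hcard]
  have h3 : x ∈ (E : Set F) := by rw [h2]; exact hx
  exact h3

/-- the fixed field of a power of Frobenius -/
theorem card_fixed {n : ℕ} (hn : n ≠ 0) (hs : (Polynomial.X ^ (p ^ n) - Polynomial.X : F[X]).Splits) :
    ∃ K : Subfield F, Finite K ∧ Nat.card K = p ^ n ∧ ∀ x, x ∈ K ↔ x ^ (p ^ n) = x := by
  classical
  have hq : 1 < p ^ n := Nat.one_lt_pow hn (Fact.out : p.Prime).one_lt
  let K : Subfield F := RingHom.eqLocusField (iterateFrobenius F p n) (RingHom.id F)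
  have hK : ∀ x, x ∈ K ↔ x ^ (p ^ n) = x := fun x => Iff.rfl
  have hset : (K : Set F) = {x : F | x ^ (p ^ n) = x} := by ext x; exact hK x
  obtain ⟨hfin, hle⟩ := finite_roots (F := F) hq
  have hKfin : Finite K := by
    have : (K : Set F).Finite := by rw [hset]; exact hfin
    exact this.to_subtype
  refine ⟨K, hKfin, ?_, hK⟩
  have h1 : Nat.card K = (K : Set F).ncard := rfl
  rw [h1, hset]
  have hne : (Polynomial.X ^ (p ^ n) - Polynomial.X : F[X]) ≠ 0 := FiniteField.X_pow_card_sub_X_ne_zero F hq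
  have hset2 : {x : F | x ^ (p ^ n) = x} = ((Polynomial.X ^ (p ^ n) - Polynomial.X : F[X]).roots.toFinset : Set F) := by
    ext x
    simp only [Set.mem_ofPred_eq, Finset.mem_coe, Multiset.mem_toFinset, Polynomial.mem_roots hne, Polynomial.IsRoot.def,
      Polynomial.eval_sub, Polynomial.eval_pow, Polynomial.eval_X, sub_eq_zero]
  rw [hset2, Set.ncard_coe_finset, Multiset.toFinset_card_of_nodup, ← hs.natDegree_eq_card_roots,
    FiniteField.X_pow_card_sub_X_natDegree_eq F hq]
  exact Polynomial.nodup_roots (galois_poly_separable p (p ^ n) (dvd_pow_self p hn))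

/-- degrees of finite fields -/
theorem card_pow_of_le {K E : Subfield F} [Finite E] (h : K ≤ E) {a n : ℕ} (ha : a ≠ 0) (hK : Nat.card K = p ^ a)
    (hE : Nat.card E = p ^ n) : ∃ r : ℕ, 1 ≤ r ∧ n = a * r := by
  classical
  haveI : Finite K := Finite.of_injective (Subfield.inclusion h) (Subfield.inclusion h).injective
  letI : Algebra K E := (Subfield.inclusion h).toAlgebra
  haveI : Module.Finite K E := Module.Finite.of_finite
  have h1 := Module.natCard_eq_pow_finrank (K := K) (V := E)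
  refine ⟨Module.finrank K E, Module.finrank_pos, ?_⟩
  rw [hK, hE, ← pow_mul] at h1
  exact Nat.pow_right_injective (Fact.out : p.Prime).two_le h1

end fields

variable {D : ChevalleyDatum} {F : Type*} [Field F]

/-- the conclusion -/
def Concl (D : ChevalleyDatum) {F : Type*} [Field F] (p : ℕ) (M : Subgroup (GL D.Idx F)) : Prop :=
  ∃ n : ℕ, n ≠ 0 ∧ (∀ (s : Fin D.nroots) (t : F), xg D F s t ∈ M ↔ t ^ (p ^ n) = t) ∧
    (∀ g ∈ M, ∀ i j : D.Idx, ((g : Matrix D.Idx D.Idx F) i j) ^ (p ^ n) = (g : Matrix D.Idx D.Idx F) i j) ∧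
    ∃ E : Subfield F, Finite E ∧ Nat.card E = p ^ n ∧ ∀ x, x ∈ E ↔ x ^ (p ^ n) = x

theorem concl_of {G : Good D} (hD : Listed D) {p : ℕ} [Fact p.Prime] [CharP F p] [PerfectRing F p] {M : Subgroup (GL D.Idx F)}
    (hle : M ≤ D.group F) (hf : HasField D M)
    (hrat : ∀ (σ : F ≃+* F) (E : Subfield F) [Finite E], (∀ x, σ x = x ↔ x ∈ E) → Cx G σ M → Rat σ M) : Concl D p M := by
  classical
  obtain ⟨E, hEf, hE⟩ := hf
  haveI : Fintype E := Fintype.ofFinite E
  haveI : CharP E p := RingHom.charP E.subtype E.subtype.injective p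
  obtain ⟨n, -, hn⟩ := FiniteField.card E p
  have hcard : Nat.card E = p ^ (n : ℕ) := by rw [Nat.card_eq_fintype_card, hn]
  have hfix := subfield_eq (p := p) E n.2.ne' hcard
  have hσ : ∀ x, iterateFrobeniusEquiv F p n x = x ↔ x ∈ E := fun x => by
    rw [iterateFrobeniusEquiv_def]; exact hfix x
  have X : Cx G (iterateFrobeniusEquiv F p n) M := ⟨hD, hle, fun s t => by rw [hE, hσ]⟩
  have hR := hrat (iterateFrobeniusEquiv F p n) E hσ X
  refine ⟨n, n.2.ne', fun s t => (hE s t).trans (hfix t).symm, fun g hg i j => ?_, E, hEf, hcard, fun x => (hfix x).symm⟩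
  have h1 := hR g hg
  have h2 := congrArg (fun g : GL D.Idx F => (g : Matrix D.Idx D.Idx F) i j) h1
  exact h2

theorem general (hD : Listed D) {p : ℕ} [Fact p.Prime] [CharP F p] [PerfectRing F p] (M : Subgroup (GL D.Idx F)) [Finite M]
    (hle : M ≤ D.group F) (hone : ∀ s < D.nroots, xg D F s 1 ∈ M) : Concl D p M := by
  have hD' := hD
  simp only [List.mem_cons, List.not_mem_nil, or_false] at hD'
  rcases hD' with rfl | rfl | rfl | rfl | rfl | rfl | rfl
  · exact concl_of (G := ChevOkG2.good) hD hle (stepG2 (p := p) ⟨hD, hle, fun s => hone s s.2⟩)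
      (fun σ E _ h X => ratG2 (p := p) E h X)
  · exact concl_of (G := ChevOkB2.good) hD hle (stepB2 (p := p) ⟨hD, hle, fun s => hone s s.2⟩)
      (fun σ E _ h X => ratB2 (p := p) E h X)
  · exact concl_of (G := ChevOkD4.good) hD hle (stepD4 (p := p) ⟨hD, hle, fun s => hone s s.2⟩)
      (fun σ E _ h X => ratD4 (p := p) E h X)
  · exact concl_of (G := ChevOkF4.good) hD hle (stepF4 (p := p) ⟨hD, hle, fun s => hone s s.2⟩)
      (fun σ E _ h X => ratF4 (p := p) E h X)
  · exact concl_of (G := ChevOkE6.good) hD hle (stepE6 (p := p) ⟨hD, hle, fun s => hone s s.2⟩)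
      (fun σ E _ h X => ratE6 (p := p) E h X)
  · exact concl_of (G := ChevOkE7.good) hD hle (stepE7 (p := p) ⟨hD, hle, fun s => hone s s.2⟩)
      (fun σ E _ h X => ratE7 (p := p) E h X)
  · exact concl_of (G := ChevOkE8.good) hD hle (stepE8 (p := p) ⟨hD, hle, fun s => hone s s.2⟩)
      (fun σ E _ h X => ratE8 (p := p) E h X)

end Cfsg.Agent.Lib.Sfo
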