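import Cfsg.Agent.Lib.SfoHC
import Cfsg.Agent.Lib.SfoInv
import Cfsg.Agent.Lib.SfoDatA
import Cfsg.Agent.Lib.SfoDatB
import Cfsg.Agent.Lib.SfoDatC
import Cfsg.Agent.Lib.ChevInvK
set_option autoImplicit false
set_option linter.unusedSectionVars false
set_option linter.unusedVariables false

/-!
Finite overgroups of subfield groups: all elements are rational (helper44).
-/

namespace Cfsg.Agent.Lib.Sfo
open Cfsg.Lie Cfsg.Agent.Lib.ChevX Cfsg.Agent.Lib.ChevGood Cfsg.Agent.Lib.ChevRel Cfsg.Agent.Lib.ChevNPerm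
  Cfsg.Agent.Lib.ChevBruhat Cfsg.Agent.Lib.ChevRadCent Cfsg.Agent.Lib.ChevFix Cfsg.Agent.Lib.ChevInv
open Cfsg.Agent.Lib.ChevClosed hiding pr
open scoped MatrixGroups Matrix

/-- the check for a representative of a class of involutions -/
def repB (D : ChevalleyDatum) (O : ℕ → Bool) (A : List ℕ) : Bool :=
  (A.all fun r => decide (r < D.nroots) && decide (0 < pr D (D.nroots - 1) r)) ||
  match A with
  | [] => false
  | r :: tl => decide (r < D.nroots) && (List.range D.nroots).any fun s => decide (s ≠ D.neg r) &&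
    match D.chainEntry r s with
    | [(s', N)] => O s' && decide (s' < D.nroots) && (decide (N = 1) || decide (N = -1)) &&
        tl.all fun r' => decide (r' < D.nroots) && decide (s ≠ D.neg r') && decide (D.chainEntry r' s = [])
    | _ => false

variable {D : ChevalleyDatum} {F : Type*} [Field F]

theorem repOK_of {G : Good D} {O : ℕ → Bool} (DT : Dat G O) {A : List ℕ} (h : repB D O A = true) : RepOK G A := by
  unfold repB at h
  rw [Bool.or_eq_true] at h
  rcases h with h | h
  · left
    simp only [List.all_eq_true, Bool.and_eq_true, decide_eq_true_eq] at h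
    exact fun r hr => ⟨(h r hr).1, (h r hr).2⟩
  · right
    rcases A with _ | ⟨r, tl⟩
    · simp at h
    · simp only [Bool.and_eq_true, List.any_eq_true, List.mem_range, decide_eq_true_eq] at h
      obtain ⟨hr, s, hs, hne, h⟩ := h
      rcases hE : D.chainEntry r s with _ | ⟨⟨s', N⟩, _ | ⟨x, tl'⟩⟩
      · rw [hE] at h; simp at h
      · rw [hE] at h
        simp only [Bool.and_eq_true, Bool.or_eq_true, List.all_eq_true, decide_eq_true_eq] at h
        obtain ⟨⟨⟨h1, h2⟩, h3⟩, h4⟩ := h
        exact ⟨⟨r, hr⟩, ⟨s, hs⟩, ⟨s', h2⟩, tl, N, rfl, (DT.orb _).2 h1, fun hh => hne (congrArg Fin.val hh), hE, h3,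
          fun r' hr' => ⟨(h4 r' hr').1.1, fun hh => (h4 r' hr').1.2 (congrArg Fin.val hh), (h4 r' hr').2⟩⟩
      · rw [hE] at h; simp at h

theorem Full.rat2 {G : Good D} {O : ℕ → Bool} (DT : Dat G O) {σ : F ≃+* F} {M : Subgroup (GL D.Idx F)} {C : Set (Fin D.nroots)}
    (X : Full G σ M C) [CharP F 2] [Finite M] (E : Subfield F) [Finite E] (hE : ∀ x, σ x = x ↔ x ∈ E) (hO : OC D E)
    {T : List Ent} {reps : List (List ℕ)} (hT : tableB D T reps = true) (hreps : reps.all (repB D O) = true)
    {A' B' : List ℕ} (hA' : (A'.all fun r => decide (r < D.nroots) && decide (0 < pr D (D.nroots - 1) r)) = true)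
    (hCE : CE D A' B') (hne : A' ≠ [])
    (hnc : ∀ g ∈ D.group F, ¬ (g * p1 D F A' * g⁻¹ = p1 D F [D.nroots - 1])) {g : GL D.Idx F} (hg : g ∈ M) :
    em D (σ : F →+* F) g = g := by
  haveI : CharP E 2 := RingHom.charP E.subtype E.subtype.injective 2
  simp only [List.all_eq_true, Bool.and_eq_true, decide_eq_true_eq] at hA' hreps
  refine X.even DT.pair (F₀ := E) E.subtype (fun x => ?_) hO hT (fun A hA => repOK_of DT (hreps A hA))
    (A' := A') (fun r hr => ⟨(hA' r hr).1, (hA' r hr).2⟩) (hCE.sq_eq_one G) (hCE.ne_one G hne) ?_ hg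
  · rw [hE]
    exact ⟨fun h => ⟨⟨x, h⟩, rfl⟩, fun ⟨y, hy⟩ => hy ▸ y.2⟩
  · intro g hg h
    refine hnc g hg ?_
    rw [h, p1_cons, p1_nil, mul_one]
    rfl

/-- all elements are rational -/
def Rat {D : ChevalleyDatum} {F : Type*} [Field F] (σ : F ≃+* F) (M : Subgroup (GL D.Idx F)) : Prop :=
  ∀ g ∈ M, em D (σ : F →+* F) g = g

theorem full_one {G : Good D} {O : ℕ → Bool} (DT : Dat G O) {σ : F ≃+* F} {M : Subgroup (GL D.Idx F)} (X : Cx G σ M)
    {ok : ℤ → Bool} (h : upB D [D.nroots - 1] ok = true) (hm : moveB D = true)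
    (hok : ∀ M : ℤ, ok M = true → (M : F) ≠ 0) : Full G σ M {hi G} :=
  ⟨X, cen_one G h hm hok, by rintro s rfl t v hv hl; exact X.hi_fix t v hv hl, DT.par, DT.one⟩

theorem full_two {G : Good D} {O : ℕ → Bool} (DT : Dat G O) {σ : F ≃+* F} {M : Subgroup (GL D.Idx F)} (X : Cx G σ M)
    {p : ℕ} [Fact p.Prime] [CharP F p] {ok : ℤ → Bool} {hs : Fin D.nroots} (h : upB D [hs, D.nroots - 1] ok = true)
    (hm : cen2B D hs p = true) (hok : ∀ M : ℤ, ok M = true → (M : F) ≠ 0)
    (hc : ∀ (t : F) (v : GL D.Idx F), v ∈ M → Lead hs t v → σ t = t) : Full G σ M {hs, hi G} :=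
  ⟨X, cen_two G (p := p) h hm hok, by
    rintro s (rfl | rfl) t v hv hl
    · exact hc t v hv hl
    · exact X.hi_fix t v hv hl, DT.par, DT.one⟩

def ok1 (M : ℤ) : Bool := decide (M = 1) || decide (M = -1)
def ok2 (M : ℤ) : Bool := ok1 M || decide (M = 2) || decide (M = -2)
def ok3 (M : ℤ) : Bool := ok1 M || decide (M = 3) || decide (M = -3)

theorem ok1_ne {M : ℤ} (h : ok1 M = true) : (M : F) ≠ 0 := by
  unfold ok1 at h
  simp only [Bool.or_eq_true, decide_eq_true_eq] at h
  rcases h with h | h <;> rw [h] <;> simp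

theorem ok2_ne (h2 : (2 : F) ≠ 0) {M : ℤ} (h : ok2 M = true) : (M : F) ≠ 0 := by
  unfold ok2 at h
  simp only [Bool.or_eq_true, decide_eq_true_eq] at h
  rcases h with (h | h) | h
  · exact ok1_ne h
  · rw [h]; exact_mod_cast h2
  · rw [h]; push_cast; exact neg_ne_zero.2 h2

theorem ok3_ne (h2 : (3 : F) ≠ 0) {M : ℤ} (h : ok3 M = true) : (M : F) ≠ 0 := by
  unfold ok3 at h
  simp only [Bool.or_eq_true, decide_eq_true_eq] at h
  rcases h with (h | h) | h
  · exact ok1_ne h
  · rw [h]; exact_mod_cast h2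
  · rw [h]; push_cast; exact neg_ne_zero.2 h2

section
variable {p : ℕ} [Fact p.Prime] [CharP F p] {σ : F ≃+* F} (E : Subfield F) [Finite E] (hE : ∀ x, σ x = x ↔ x ∈ E)
include p hE

theorem ratD4 {M : Subgroup (GL chevD4.Idx F)} [Finite M] (X : Cx ChevOkD4.good σ M) : Rat σ M := by
  intro g hg
  have Y := full_one datD4 X (ok := ok1) (by decide +kernel) (by decide +kernel) (fun M h => ok1_ne h)
  by_cases hp : p = 2
  · subst hp
    exact Y.rat2 datD4 E hE (ocD4 _) tabD4_ok (by decide +kernel) (A' := [17, 20]) (by decide +kernel) ceD4_2 (by simp)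
      (ncD4 F) hg
  · exact Y.odd datD4.pair hp datD4.orth hg

theorem ratB2 {M : Subgroup (GL chevB2.Idx F)} [Finite M] (X : Cx ChevOkB2.good σ M) : Rat σ M := by
  intro g hg
  by_cases hp : p = 2
  · subst hp
    have Y := full_two (p := 2) datB2 X (ok := ok1) (hs := ⟨6, by decide⟩) (by decide +kernel) (by decide +kernel)
      (fun M h => ok1_ne h) (fun t v hv hl => hcB2 X t v hv hl)
    exact Y.rat2 datB2 E hE (ocB2 _) tabB2_ok (by decide +kernel) (A' := [7, 6]) (by decide +kernel) ceB2_76 (by simp)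
      (ncB2 F) hg
  · have Y := full_one datB2 X (ok := ok2) (by decide +kernel) (by decide +kernel) (fun M h => ok2_ne (cast_two_ne (F := F) hp) h)
    exact Y.odd datB2.pair hp datB2.orth hg

theorem ratF4 {M : Subgroup (GL chevF4.Idx F)} [Finite M] (X : Cx ChevOkF4.good σ M) : Rat σ M := by
  intro g hg
  by_cases hp : p = 2
  · subst hp
    have Y := full_two (p := 2) datF4 X (ok := ok1) (hs := ⟨44, by decide⟩) (by decide +kernel) (by decide +kernel)
      (fun M h => ok1_ne h) (fun t v hv hl => hcF4 X t v hv hl)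
    have hnc := (List.pairwise_cons.1 (ncF4 F)).1
    exact Y.rat2 datF4 E hE (ocF4 _) tabF4_ok (by decide +kernel) (A' := [47, 44]) (by decide +kernel) ceF4_2 (by simp)
      (hnc [47, 44] (by simp)) hg
  · have Y := full_one datF4 X (ok := ok2) (by decide +kernel) (by decide +kernel) (fun M h => ok2_ne (cast_two_ne (F := F) hp) h)
    exact Y.odd datF4.pair hp datF4.orth hg

theorem ratG2 {M : Subgroup (GL chevG2.Idx F)} [Finite M] (X : Cx ChevOkG2.good σ M) : Rat σ M := by
  intro g hg
  by_cases hp : p = 2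
  · subst hp
    have Y := full_one datG2 X (ok := ok3) (by decide +kernel) (by decide +kernel)
      (fun M h => ok3_ne (cast_three_ne (F := F) (p := 2) (by decide)) h)
    have hnc := (List.pairwise_cons.1 (ncG2 F)).1
    exact Y.rat2 datG2 E hE (ocG2 _) tabG2_ok (by decide +kernel) (A' := [9]) (by decide +kernel) ceG2_1 (by simp)
      (hnc [9] (by simp)) hg
  by_cases hp3 : p = 3
  · subst hp3
    have Y := full_two (p := 3) datG2 X (ok := ok2) (hs := ⟨9, by decide⟩) (by decide +kernel) (by decide +kernel)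
      (fun M h => ok2_ne (cast_two_ne (F := F) hp) h) (fun t v hv hl => hcG2 X t v hv hl)
    exact Y.odd datG2.pair hp datG2.orth hg
  · have Y := full_one datG2 X (ok := fun M => ok2 M || ok3 M) (by decide +kernel) (by decide +kernel) (fun M h => by
      rw [Bool.or_eq_true] at h
      rcases h with h | h
      · exact ok2_ne (cast_two_ne (F := F) hp) h
      · exact ok3_ne (cast_three_ne (F := F) hp3) h)
    exact Y.odd datG2.pair hp datG2.orth hg

theorem ratE6 {M : Subgroup (GL chevE6.Idx F)} [Finite M] (X : Cx ChevOkE6.good σ M) : Rat σ M := by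
  intro g hg
  have Y := full_one datE6 X (ok := ok1) (by decide +kernel) (by decide +kernel) (fun M h => ok1_ne h)
  by_cases hp : p = 2
  · subst hp
    have hnc := (List.pairwise_cons.1 (ncE6 F)).1
    exact Y.rat2 datE6 E hE (ocE6 _) tabE6_ok (by decide +kernel) (A' := [68, 66]) (by decide +kernel) ceE6_1 (by simp)
      (hnc [68, 66] (by simp)) hg
  · exact Y.odd datE6.pair hp datE6.orth hg

theorem ratE7 {M : Subgroup (GL chevE7.Idx F)} [Finite M] (X : Cx ChevOkE7.good σ M) : Rat σ M := by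
  intro g hg
  have Y := full_one datE7 X (ok := ok1) (by decide +kernel) (by decide +kernel) (fun M h => ok1_ne h)
  by_cases hp : p = 2
  · subst hp
    have hnc := (List.pairwise_cons.1 (ncE7 F)).1
    exact Y.rat2 datE7 E hE (ocE7 _) tabE7_ok (by decide +kernel) (A' := [118, 121]) (by decide +kernel) ceE7_1 (by simp)
      (hnc [118, 121] (by simp)) hg
  · exact Y.odd datE7.pair hp datE7.orth hg

theorem ratE8 {M : Subgroup (GL chevE8.Idx F)} [Finite M] (X : Cx ChevOkE8.good σ M) : Rat σ M := by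
  intro g hg
  have Y := full_one datE8 X (ok := ok1) (by decide +kernel) (by decide +kernel) (fun M h => ok1_ne h)
  by_cases hp : p = 2
  · subst hp
    have hnc := (List.pairwise_cons.1 (ncE8 F)).1
    exact Y.rat2 datE8 E hE (ocE8 _) tabE8_ok (by decide +kernel) (A' := [232, 233]) (by decide +kernel) ceE8_1 (by simp)
      (hnc [232, 233] (by simp)) hg
  · exact Y.odd datE8.pair hp datE8.orth hg

end

end Cfsg.Agent.Lib.Sfo
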