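import Cfsg.Agent.Lib.SfoStep
set_option autoImplicit false
set_option linter.unusedSectionVars false
set_option linter.unusedVariables false

/-!
Finite overgroups of subfield groups: the centre of the unipotent group (helper44).
-/

namespace Cfsg.Agent.Lib.Sfo
open Cfsg.Lie Cfsg.Agent.Lib.ChevX Cfsg.Agent.Lib.ChevGood Cfsg.Agent.Lib.ChevRel Cfsg.Agent.Lib.ChevNPerm
  Cfsg.Agent.Lib.ChevBruhat Cfsg.Agent.Lib.ChevRadCent Cfsg.Agent.Lib.ChevFix Cfsg.Agent.Lib.ChevInv
  Cfsg.Agent.Lib.ChevStd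
open Cfsg.Agent.Lib.ChevClosed hiding pr
open Cfsg.Agent.Lib.ChevN (wr nwd Valid nwd_conj)
open scoped MatrixGroups Matrix

variable {D : ChevalleyDatum} {F : Type*} [Field F]

/-! ### the centre -/

def upB (D : ChevalleyDatum) (L : List ℕ) (ok : ℤ → Bool) : Bool :=
  (List.range D.nroots).all fun s => decide (s < D.nroots / 2) || L.contains s || (List.range D.nroots).any fun r =>
    decide (D.nroots / 2 ≤ r) && match D.chainEntry r s with
      | [] => false
      | (k, M) :: _ => decide (k < D.nroots) && ok M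

theorem up_of (G : Good D) {L : List ℕ} {ok : ℤ → Bool} (h : upB D L ok = true) (hok : ∀ M : ℤ, ok M = true → (M : F) ≠ 0)
    (s : Fin D.nroots) (hs : Pos D s) (hsL : (s : ℕ) ∉ L) : ∃ r k : Fin D.nroots, ∃ (M : ℤ) (tl : List (ℕ × ℤ)), Pos D r ∧
    D.chainEntry r s = ((k : ℕ), M) :: tl ∧ (M : F) ≠ 0 := by
  unfold upB at h
  simp only [List.all_eq_true, List.any_eq_true, List.mem_range, decide_eq_true_eq, Bool.or_eq_true, Bool.and_eq_true,
    List.contains_iff_mem] at h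
  rcases h s s.2 with (h | h) | ⟨r, hr, hrp, h⟩
  · exact absurd (show D.nroots / 2 ≤ (s : ℕ) from hs) (by omega)
  · exact absurd h hsL
  · rcases hE : D.chainEntry r s with _ | ⟨⟨k, M⟩, tl⟩
    · rw [hE] at h; simp at h
    · rw [hE] at h
      simp only [Bool.and_eq_true, decide_eq_true_eq] at h
      exact ⟨⟨r, hr⟩, ⟨k, h.1⟩, M, tl, hrp, hE, hok M h.2⟩

theorem comm_hi (G : Good D) (r : Fin D.nroots) (hr : Pos D r) (t u : F) :
    xg D F r t * xg D F (hi G) u = xg D F (hi G) u * xg D F r t := by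
  have h := hi_comm G (xU G hr t) u
  calc xg D F r t * xg D F (hi G) u = xg D F r t * xg D F (hi G) u * (xg D F r t)⁻¹ * xg D F r t := by group
    _ = _ := by rw [h]

def moveB (D : ChevalleyDatum) : Bool := (List.range D.rank).any fun i =>
  decide (D.nroots / 2 ≤ D.reflectRoot i (D.nroots - 1)) && decide (D.reflectRoot i (D.nroots - 1) ≠ D.nroots - 1)

theorem cen_one (G : Good D) {ok : ℤ → Bool} (h : upB D [D.nroots - 1] ok = true) (hm : moveB D = true)
    (hok : ∀ M : ℤ, ok M = true → (M : F) ≠ 0) : Cen G F {hi G} := by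
  refine ⟨closed_single G (pos_hi G), ?_, ?_, ?_⟩
  · rintro s rfl r hr t u
    exact comm_hi G r hr t u
  · intro s hs hsC
    refine up_of G h hok s hs ?_
    rw [List.mem_singleton]
    exact fun h => hsC (Fin.ext h)
  · rintro s rfl
    unfold moveB at hm
    simp only [List.any_eq_true, List.mem_range, decide_eq_true_eq, Bool.and_eq_true] at hm
    obtain ⟨i, hi', h1, h2⟩ := hm
    exact ⟨⟨i, hi'⟩, h1, fun h => h2 (congrArg Fin.val h), fun s' hs' hne => absurd hs' hne⟩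

/-- the check for a second central root -/
def cen2B (D : ChevalleyDatum) (hs : ℕ) (m : ℤ) : Bool :=
  decide (hs < D.nroots) && decide (D.nroots / 2 ≤ hs) && decide (hs ≠ D.nroots - 1) &&
  ((List.range D.nroots).all fun r => decide (r < D.nroots / 2) || decide (r = hs) ||
    (decide (hs ≠ D.neg r) && (D.commTerms r hs).all fun c => decide (c.2.1 % m = 0))) &&
  ((List.range D.rank).any fun i => decide (D.nroots / 2 ≤ D.reflectRoot i hs) && decide (D.reflectRoot i hs ≠ hs) &&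
    decide (D.reflectRoot i hs ≠ D.nroots - 1) && decide (D.reflectRoot i (D.nroots - 1) = D.nroots - 1)) &&
  ((List.range D.rank).any fun i => decide (D.nroots / 2 ≤ D.reflectRoot i (D.nroots - 1)) && decide (D.reflectRoot i (D.nroots - 1) ≠ hs) &&
    decide (D.reflectRoot i (D.nroots - 1) ≠ D.nroots - 1) && decide (D.reflectRoot i hs = hs))

theorem cen_two (G : Good D) {p : ℕ} [Fact p.Prime] [CharP F p] {ok : ℤ → Bool} {hs : Fin D.nroots} (h : upB D [hs, D.nroots - 1] ok = true)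
    (hm : cen2B D hs p = true)
    (hok : ∀ M : ℤ, ok M = true → (M : F) ≠ 0) : Cen G F {hs, hi G} := by
  unfold cen2B at hm
  simp only [List.all_eq_true, List.any_eq_true, List.mem_range, decide_eq_true_eq, Bool.or_eq_true, Bool.and_eq_true] at hm
  obtain ⟨⟨⟨⟨⟨h1, h2⟩, h3⟩, h4⟩, ⟨i, hi1, ⟨⟨ha, hb⟩, hc⟩, hd⟩⟩, ⟨j, hj1, ⟨⟨ha', hb'⟩, hc'⟩, hd'⟩⟩ := hm
  have hpos : Pos D hs := h2
  have hcast : ∀ r : Fin D.nroots, Pos D r → r ≠ hs → ∀ c ∈ D.commTerms r hs, ((c.2.1 : ℤ) : F) = 0 := by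
    intro r hr hne c hc
    rcases h4 r r.2 with (h | h) | h
    · exact absurd (show D.nroots / 2 ≤ (r : ℕ) from hr) (by omega)
    · exact absurd (Fin.ext h) hne
    · exact (CharP.intCast_eq_zero_iff F p _).mpr (Int.dvd_of_emod_eq_zero (h.2 c hc))
  have hcomm : ∀ r : Fin D.nroots, Pos D r → ∀ t u : F, xg D F r t * xg D F hs u = xg D F hs u * xg D F r t := by
    intro r hr t u
    by_cases hrs : r = hs
    · subst hrs; rw [xg_add G, xg_add G, add_comm]
    · exact (comm_of_even G r.2 hs.2 (fun hh => hrs (Fin.ext hh.symm))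
        (fun hh => ne_negF G hr hpos (Fin.ext hh)) (hcast r hr hrs) t u).symm
  have hne : hs ≠ hi G := fun h => h3 (congrArg Fin.val h)
  refine ⟨⟨?_, ?_⟩, ?_, ?_, ?_⟩
  · intro r hr
    rcases hr with rfl | rfl
    · exact hpos
    · exact pos_hi G
  · rintro r hr s hs' hsr c hcm hc0 k hk
    exfalso
    rcases hr with rfl | rfl
    · rcases hs' with rfl | rfl
      · exact hsr rfl
      · obtain ⟨h5, h6, h7, h8⟩ := ord_commTerms G hpos (pos_hi G) hsr hcm
        have h9 := k.2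
        have h10 : G.ord (hi G) < G.ord c.1 := by
          rw [h8]
          have h11 := ordF_pos G hpos
          have h12 := ordF_pos G (pos_hi G)
          have h13 : (1 : ℤ) ≤ c.2.2.1 := by exact_mod_cast h6
          have h14 : (1 : ℤ) ≤ c.2.2.2 := by exact_mod_cast h7
          nlinarith
        have h11 := (G.ord_mono (hi G) (hi G).2 c.1 h5).2 h10
        have h12 : (hi G : ℕ) = D.nroots - 1 := rfl
        omega
    · rcases hs' with rfl | rfl
      · exact hc0 (hcast _ (pos_hi G) hne.symm c hcm)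
      · exact hsr rfl
  · rintro s hs' r hr t u
    rcases hs' with rfl | rfl
    · exact hcomm r hr t u
    · exact comm_hi G r hr t u
  · intro s hsp hsC
    refine up_of G h hok s hsp ?_
    simp only [List.mem_cons, List.not_mem_nil, or_false, not_or]
    simp only [Set.mem_insert_iff, Set.mem_singleton_iff, not_or] at hsC
    exact ⟨fun h => hsC.1 (Fin.ext h), fun h => hsC.2 (Fin.ext h)⟩
  · rintro s hs'
    rcases hs' with rfl | rfl
    · refine ⟨⟨i, hi1⟩, ha, ?_, ?_⟩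
      · rintro (h | h)
        · exact hb (congrArg Fin.val h)
        · exact hc (congrArg Fin.val h)
      · rintro s' hs' hne'
        rcases hs' with rfl | rfl
        · exact absurd rfl hne'
        · exact Fin.ext hd
    · refine ⟨⟨j, hj1⟩, ha', ?_, ?_⟩
      · rintro (h | h)
        · exact hb' (congrArg Fin.val h)
        · exact hc' (congrArg Fin.val h)
      · rintro s' hs' hne'
        rcases hs' with rfl | rfl
        · exact Fin.ext hd'
        · exact absurd rfl hne'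

theorem Gt_hi (G : Good D) : XS D F (Gt (hi G)) = ⊥ := by
  have h10 : Gt (hi G) = (∅ : Set (Fin D.nroots)) := by
    ext r
    simp only [Gt, Set.mem_ofPred_eq, Set.mem_empty_iff_false, iff_false, not_and]
    intro _ h11
    have h12 : (D.nroots - 1 : ℕ) < (r : ℕ) := h11
    have := r.2
    omega
  rw [h10]
  unfold XS; simp

theorem Cx.hi_fix {G : Good D} {σ : F ≃+* F} {M : Subgroup (GL D.Idx F)} (X : Cx G σ M) (t : F) (v : GL D.Idx F)
    (hv : v ∈ M) (h : Lead (hi G) t v) : σ t = t := by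
  obtain ⟨y, hy, rfl⟩ := h
  rw [Gt_hi G, Subgroup.mem_bot] at hy
  rw [hy, mul_one] at hv
  exact (X.mem (hi G) t).1 hv

theorem Cx.ov {G : Good D} {σ : F ≃+* F} {M : Subgroup (GL D.Idx F)} (X : Cx G σ M) : Ov G M := ⟨X.hD, X.le, X.one⟩

theorem comm_out {Γ : Type*} [Group Γ] {M : Subgroup Γ} {v x w : Γ} (hv : v ∈ M) (hx : x ∈ M) (h : v * x = x * v * w) :
    w ∈ M := by
  have : w = (x * v)⁻¹ * (v * x) := by rw [h]; group
  rw [this]
  exact mul_mem (inv_mem (mul_mem hx hv)) (mul_mem hv hx)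

theorem finT (G : Good D) (hD : Listed D) {M : Subgroup (GL D.Idx F)} [Finite M] {s k : Fin D.nroots} (hs : Pos D s) (hsk : s < k) :
    {t : F | xg D F s t * xg D F k (t ^ 2) ∈ M}.Finite := by
  have hk : Pos D k := by
    unfold Pos at hs ⊢
    have : (s : ℕ) < k := hsk
    omega
  have : Finite {t : F | xg D F s t * xg D F k (t ^ 2) ∈ M} := by
    let f : {t : F | xg D F s t * xg D F k (t ^ 2) ∈ M} → M := fun t => ⟨_, t.2⟩
    refine Finite.of_injective f (fun a b h => Subtype.ext ?_)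
    have h3 : xg D F s a * xg D F k ((a : F) ^ 2) = xg D F s b * xg D F k ((b : F) ^ 2) := congrArg Subtype.val h
    have h4 : Lead s (a : F) (xg D F s a * xg D F k ((a : F) ^ 2)) :=
      ⟨_, xg_mem_XS (r := k) (A := Gt s) ⟨hk, hsk⟩ _, rfl⟩
    have h5 : Lead s (b : F) (xg D F s a * xg D F k ((a : F) ^ 2)) :=
      ⟨_, xg_mem_XS (r := k) (A := Gt s) ⟨hk, hsk⟩ _, h3⟩
    exact lead_unique G hD hs h4 h5
  exact Set.toFinite _

theorem XS_two (G : Good D) {r1 r2 : Fin D.nroots} (h12 : ∀ t u : F, xg D F r1 t * xg D F r2 u = xg D F r2 u * xg D F r1 t)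
    {y : GL D.Idx F} (hy : y ∈ XS D F {r1, r2}) : ∃ a b : F, y = xg D F r1 a * xg D F r2 b := by
  unfold XS at hy
  have h0 : ∀ s : ℕ, xg D F s 0 = 1 := fun s => xg_zero G s
  induction hy using Subgroup.closure_induction with
  | mem x hx =>
    obtain ⟨r, hr, e, rfl⟩ := hx
    rcases hr with rfl | rfl
    · exact ⟨e, 0, by rw [h0, mul_one]⟩
    · exact ⟨0, e, by rw [h0, one_mul]⟩
  | one => exact ⟨0, 0, by rw [h0, h0, mul_one]⟩
  | mul x y hx hy ihx ihy =>
    obtain ⟨a, b, rfl⟩ := ihx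
    obtain ⟨a', b', rfl⟩ := ihy
    refine ⟨a + a', b + b', ?_⟩
    rw [← xg_add G, ← xg_add G]
    calc xg D F r1 a * xg D F r2 b * (xg D F r1 a' * xg D F r2 b')
        = xg D F r1 a * (xg D F r2 b * xg D F r1 a') * xg D F r2 b' := by group
      _ = _ := by rw [← h12]; group
  | inv x hx ih =>
    obtain ⟨a, b, rfl⟩ := ih
    refine ⟨-a, -b, ?_⟩
    rw [h12, xg_neg G, xg_neg G]; group

theorem XS_three (G : Good D) {r1 r2 r3 : Fin D.nroots} (h12 : ∀ t u : F, xg D F r1 t * xg D F r2 u = xg D F r2 u * xg D F r1 t)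
    (h13 : ∀ t u : F, xg D F r1 t * xg D F r3 u = xg D F r3 u * xg D F r1 t)
    (h23 : ∀ t u : F, xg D F r2 t * xg D F r3 u = xg D F r3 u * xg D F r2 t)
    {y : GL D.Idx F} (hy : y ∈ XS D F {r1, r2, r3}) : ∃ a b c : F, y = xg D F r1 a * xg D F r2 b * xg D F r3 c := by
  unfold XS at hy
  have h0 : ∀ s : ℕ, xg D F s 0 = 1 := fun s => xg_zero G s
  induction hy using Subgroup.closure_induction with
  | mem x hx =>
    obtain ⟨r, hr, e, rfl⟩ := hx
    rcases hr with rfl | rfl | rfl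
    · exact ⟨e, 0, 0, by rw [h0, h0, mul_one, mul_one]⟩
    · exact ⟨0, e, 0, by rw [h0, h0, mul_one, one_mul]⟩
    · exact ⟨0, 0, e, by rw [h0, h0, mul_one, one_mul]⟩
  | one => exact ⟨0, 0, 0, by rw [h0, h0, h0, mul_one, mul_one]⟩
  | mul x y hx hy ihx ihy =>
    obtain ⟨a, b, c, rfl⟩ := ihx
    obtain ⟨a', b', c', rfl⟩ := ihy
    refine ⟨a + a', b + b', c + c', ?_⟩
    rw [← xg_add G, ← xg_add G, ← xg_add G]
    calc xg D F r1 a * xg D F r2 b * xg D F r3 c * (xg D F r1 a' * xg D F r2 b' * xg D F r3 c')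
        = xg D F r1 a * xg D F r2 b * (xg D F r3 c * xg D F r1 a') * xg D F r2 b' * xg D F r3 c' := by group
      _ = xg D F r1 a * (xg D F r2 b * xg D F r1 a') * (xg D F r3 c * xg D F r2 b') * xg D F r3 c' := by rw [← h13]; group
      _ = _ := by rw [← h12, ← h23]; group
  | inv x hx ih =>
    obtain ⟨a, b, c, rfl⟩ := ih
    refine ⟨-a, -b, -c, ?_⟩
    rw [xg_neg G, xg_neg G, xg_neg G]
    have e1 := h12 a b
    have e2 := h13 a c
    have e3 := h23 b c
    rw [inv_eq_iff_mul_eq_one]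
    calc xg D F r1 a * xg D F r2 b * xg D F r3 c * ((xg D F r1 a)⁻¹ * (xg D F r2 b)⁻¹ * (xg D F r3 c)⁻¹)
        = xg D F r1 a * (xg D F r2 b * xg D F r3 c) * (xg D F r1 a)⁻¹ * (xg D F r2 b)⁻¹ * (xg D F r3 c)⁻¹ := by group
      _ = (xg D F r1 a * xg D F r3 c) * xg D F r2 b * (xg D F r1 a)⁻¹ * (xg D F r2 b)⁻¹ * (xg D F r3 c)⁻¹ := by rw [e3]; group
      _ = xg D F r3 c * (xg D F r1 a * xg D F r2 b) * (xg D F r1 a)⁻¹ * (xg D F r2 b)⁻¹ * (xg D F r3 c)⁻¹ := by rw [e2]; group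
      _ = 1 := by rw [e1]; group

/-- type `B₂` in characteristic two -/
theorem hcB2 [CharP F 2] {σ : F ≃+* F} {M : Subgroup (GL chevB2.Idx F)} [Finite M] (X : Cx ChevOkB2.good σ M) (t : F)
    (v : GL chevB2.Idx F) (hv : v ∈ M) (h : Lead (⟨6, by decide⟩ : Fin chevB2.nroots) t v) : σ t = t := by
  obtain ⟨y, hy, rfl⟩ := h
  have h1 : y ∈ XS chevB2 F {(⟨7, by decide⟩ : Fin chevB2.nroots)} := by
    refine XS_mono ?_ hy
    rintro r ⟨h1, h2⟩
    have h3 : 6 < (r : ℕ) := h2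
    have h4 : (r : ℕ) < 8 := r.2
    exact Fin.ext (show (r : ℕ) = 7 by omega)
  obtain ⟨c, rfl⟩ := mem_XS_singleton ChevOkB2.good h1
  have S := X.ov.sq sqB2
  have h2 : {t : F | xg chevB2 F 6 t ∈ M}.Finite := X.ov.finite ⟨6, by decide⟩
  have h3 : {t : F | xg chevB2 F 6 t * xg chevB2 F 7 (t ^ 2) ∈ M}.Finite :=
    finT ChevOkB2.good X.hD (s := ⟨6, by decide⟩) (k := ⟨7, by decide⟩) (by unfold Pos; decide) (by decide)
  obtain ⟨-, -, h4⟩ := S.main h2 h3
  exact (X.mem ⟨6, by decide⟩ t).1 (h4 t c hv)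

theorem absF4 {Γ : Type*} [Group Γ] {M : Subgroup Γ} {s a b c a' b' y26 y24 : Γ}
    (c1 : a * b = b * a) (c2 : a * c = c * a) (c3 : b * c = c * b)
    (e1 : a' * b = b * a') (e2 : a' * c = c * a') (e3 : b' * c = c * b')
    (r1 : a * y26 = y26 * a * a') (d1 : s * y26 = y26 * s) (d2 : b * y26 = y26 * b) (d3 : c * y26 = y26 * c)
    (r2 : b * y24 = y24 * b * b') (d4 : s * y24 = y24 * s) (d5 : a * y24 = y24 * a) (d6 : c * y24 = y24 * c)
    (h26 : y26 ∈ M) (h24 : y24 ∈ M) (hv : s * (a * b * c) ∈ M) : a' ∈ M ∧ b' ∈ M := by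
  constructor
  · refine comm_out hv h26 ?_
    calc s * (a * b * c) * y26 = s * a * b * (c * y26) := by group
      _ = s * a * (b * y26) * c := by rw [d3]; group
      _ = s * (a * y26) * b * c := by rw [d2]; group
      _ = (s * y26) * a * (a' * b) * c := by rw [r1]; group
      _ = y26 * s * a * b * (a' * c) := by rw [d1, e1]; group
      _ = _ := by rw [e2]; group
  · refine comm_out hv h24 ?_
    calc s * (a * b * c) * y24 = s * a * b * (c * y24) := by group
      _ = s * a * (b * y24) * c := by rw [d6]; group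
      _ = s * (a * y24) * b * (b' * c) := by rw [r2]; group
      _ = (s * y24) * a * b * (b' * c) := by rw [d5]; group
      _ = _ := by rw [d4, e3]; group

/-- type `F₄` in characteristic two -/
theorem hcF4 [CharP F 2] {σ : F ≃+* F} {M : Subgroup (GL chevF4.Idx F)} [Finite M] (X : Cx ChevOkF4.good σ M) (t : F)
    (v : GL chevF4.Idx F) (hv : v ∈ M) (h : Lead (⟨44, by decide⟩ : Fin chevF4.nroots) t v) : σ t = t := by
  obtain ⟨y, hy, rfl⟩ := h
  have ce : ∀ r s : ℕ, r < chevF4.nroots → s < chevF4.nroots → evenB chevF4 r s = true → ∀ t u : F,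
      xg chevF4 F s u * xg chevF4 F r t = xg chevF4 F r t * xg chevF4 F s u := fun r s hr hs h t u =>
    comm_of_evenB ChevOkF4.good hr hs h t u
  have c1 := ce 46 45 (by decide) (by decide) (by decide +kernel)
  have c2 := ce 47 45 (by decide) (by decide) (by decide +kernel)
  have c3 := ce 47 46 (by decide) (by decide) (by decide +kernel)
  have hy' : ∃ a b c : F, y = xg chevF4 F 45 a * xg chevF4 F 46 b * xg chevF4 F 47 c := by
    have h1 : y ∈ XS chevF4 F {(⟨45, by decide⟩ : Fin chevF4.nroots), ⟨46, by decide⟩, ⟨47, by decide⟩} := by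
      refine XS_mono ?_ hy
      rintro r ⟨h1, h2⟩
      have h3 : 44 < (r : ℕ) := h2
      have h4 : (r : ℕ) < 48 := r.2
      rcases (show (r : ℕ) = 45 ∨ (r : ℕ) = 46 ∨ (r : ℕ) = 47 by omega) with h | h | h
      · exact Or.inl (Fin.ext h)
      · exact Or.inr (Or.inl (Fin.ext h))
      · exact Or.inr (Or.inr (Fin.ext h))
    exact XS_three ChevOkF4.good (r1 := ⟨45, by decide⟩) (r2 := ⟨46, by decide⟩) (r3 := ⟨47, by decide⟩)
      (fun t u => c1 u t) (fun t u => c2 u t) (fun t u => c3 u t) h1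
  obtain ⟨a, b, c, rfl⟩ := hy'
  have hv' : xg chevF4 F 44 t * (xg chevF4 F 45 a * xg chevF4 F 46 b * xg chevF4 F 47 c) ∈ M := hv
  -- the coordinate of 45
  have r1 : ∀ u : F, xg chevF4 F 45 u * xg chevF4 F 26 1 = xg chevF4 F 26 1 * xg chevF4 F 45 u * xg chevF4 F 47 (-u) := by
    intro u
    rw [xg_comm ChevOkF4.good (F := F) (r := 26) (s := 45) (by decide) (by decide) (by decide) (by decide) 1 u]
    congr 1
    unfold ChevalleyDatum.commWord
    rw [show chevF4.commTerms 26 45 = [(47, 1, 1, 1)] by decide +kernel]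
    simp [wg]
  have r2 : ∀ u : F, xg chevF4 F 46 u * xg chevF4 F 24 1 = xg chevF4 F 24 1 * xg chevF4 F 46 u * xg chevF4 F 47 (-u) := by
    intro u
    rw [xg_comm ChevOkF4.good (F := F) (r := 24) (s := 46) (by decide) (by decide) (by decide) (by decide) 1 u]
    congr 1
    unfold ChevalleyDatum.commWord
    rw [show chevF4.commTerms 24 46 = [(47, 1, 1, 1)] by decide +kernel]
    simp [wg]
  have d1 := ce 26 44 (by decide) (by decide) (by decide +kernel) 1
  have d2 := ce 26 46 (by decide) (by decide) (by decide +kernel) 1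
  have d3 := ce 26 47 (by decide) (by decide) (by decide +kernel) 1
  have d4 := ce 24 44 (by decide) (by decide) (by decide +kernel) 1
  have d5 := ce 24 45 (by decide) (by decide) (by decide +kernel) 1
  have d6 := ce 24 47 (by decide) (by decide) (by decide +kernel) 1
  have c47 : ∀ u w : F, xg chevF4 F 47 u * xg chevF4 F 47 w = xg chevF4 F 47 w * xg chevF4 F 47 u := fun u w => by
    rw [xg_add ChevOkF4.good, xg_add ChevOkF4.good, add_comm]
  have hab := absF4 (M := M) (c1 b a) (c2 c a) (c3 c b) (c3 (-a) b).symm (c47 (-a) c) (c47 (-b) c) (r1 a) (d1 t) (d2 b) (d3 c)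
    (r2 b) (d4 t) (d5 a) (d6 c) (X.one ⟨26, by decide⟩) (X.one ⟨24, by decide⟩) hv'
  have h45 : xg chevF4 F 45 a ∈ M := by
    have h1 := (X.mem ⟨47, by decide⟩ (-a)).1 hab.1
    rw [map_neg, _root_.neg_inj] at h1
    exact (X.mem ⟨45, by decide⟩ a).2 h1
  have h46 : xg chevF4 F 46 b ∈ M := by
    have h1 := (X.mem ⟨47, by decide⟩ (-b)).1 hab.2
    rw [map_neg, _root_.neg_inj] at h1
    exact (X.mem ⟨46, by decide⟩ b).2 h1
  have hPi : xg chevF4 F 44 t * xg chevF4 F 47 c ∈ M := by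
    have h1 : xg chevF4 F 44 t * (xg chevF4 F 45 a * xg chevF4 F 46 b * xg chevF4 F 47 c) =
        xg chevF4 F 44 t * xg chevF4 F 47 c * (xg chevF4 F 45 a * xg chevF4 F 46 b) := by
      have e1 := c2 c a
      have e2 := c3 c b
      generalize xg chevF4 F 44 t = s at *
      generalize xg chevF4 F 45 a = a' at *
      generalize xg chevF4 F 46 b = b' at *
      generalize xg chevF4 F 47 c = c' at *
      calc s * (a' * b' * c') = s * a' * (b' * c') := by group
        _ = s * (a' * c') * b' := by rw [e2]; group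
        _ = _ := by rw [e1]; group
    rw [h1] at hv'
    exact (Subgroup.mul_mem_cancel_right _ (mul_mem h45 h46)).1 hv'
  have S := X.ov.sq sqF4
  have h2 : {t : F | xg chevF4 F 44 t ∈ M}.Finite := X.ov.finite ⟨44, by decide⟩
  have h3 : {t : F | xg chevF4 F 44 t * xg chevF4 F 47 (t ^ 2) ∈ M}.Finite :=
    finT ChevOkF4.good X.hD (s := ⟨44, by decide⟩) (k := ⟨47, by decide⟩) (by unfold Pos; decide) (by decide)
  obtain ⟨-, -, h4⟩ := S.main h2 h3
  exact (X.mem ⟨44, by decide⟩ t).1 (h4 t c hPi)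

theorem absG2 {Γ : Type*} [Group Γ] {M : Subgroup Γ} {s a b a' y : Γ}
    (e1 : a' * b = b * a') (r1 : a * y = y * a * a') (d1 : s * y = y * s) (d2 : b * y = y * b)
    (hy : y ∈ M) (hv : s * (a * b) ∈ M) : a' ∈ M := by
  refine comm_out hv hy ?_
  calc s * (a * b) * y = s * a * (b * y) := by group
    _ = s * (a * y) * b := by rw [d2]; group
    _ = (s * y) * a * (a' * b) := by rw [r1]; group
    _ = _ := by rw [d1, e1]; group

/-- type `G₂` in characteristic three -/
theorem hcG2 [CharP F 3] {σ : F ≃+* F} {M : Subgroup (GL chevG2.Idx F)} (X : Cx ChevOkG2.good σ M) (t : F)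
    (v : GL chevG2.Idx F) (hv : v ∈ M) (h : Lead (⟨9, by decide⟩ : Fin chevG2.nroots) t v) : σ t = t := by
  have h30 : (3 : F) = 0 := by exact_mod_cast CharP.cast_eq_zero F 3
  obtain ⟨y, hy, rfl⟩ := h
  have cn : ∀ r s : Fin chevG2.nroots, s ≠ r → s ≠ negF ChevOkG2.good r → chevG2.commTerms r s = [] → ∀ t u : F,
      xg chevG2 F s u * xg chevG2 F r t = xg chevG2 F r t * xg chevG2 F s u := fun r s h1 h2 h3 t u =>
    comm_of_nil ChevOkG2.good h1 h2 h3 t u
  have c1 : ∀ t u : F, xg chevG2 F 10 u * xg chevG2 F 11 t = xg chevG2 F 11 t * xg chevG2 F 10 u :=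
    cn ⟨11, by decide⟩ ⟨10, by decide⟩ (by decide) (by decide) (by decide +kernel)
  have hy' : ∃ a b : F, y = xg chevG2 F 10 a * xg chevG2 F 11 b := by
    have h1 : y ∈ XS chevG2 F {(⟨10, by decide⟩ : Fin chevG2.nroots), ⟨11, by decide⟩} := by
      refine XS_mono ?_ hy
      rintro r ⟨h1, h2⟩
      have h3 : 9 < (r : ℕ) := h2
      have h4 : (r : ℕ) < 12 := r.2
      rcases (show (r : ℕ) = 10 ∨ (r : ℕ) = 11 by omega) with h | h
      · exact Or.inl (Fin.ext h)
      · exact Or.inr (Fin.ext h)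
    exact XS_two ChevOkG2.good (r1 := ⟨10, by decide⟩) (r2 := ⟨11, by decide⟩) (fun t u => c1 u t) h1
  obtain ⟨a, b, rfl⟩ := hy'
  have hv' : xg chevG2 F 9 t * (xg chevG2 F 10 a * xg chevG2 F 11 b) ∈ M := hv
  have r1 : ∀ u : F, xg chevG2 F 10 u * xg chevG2 F 6 1 = xg chevG2 F 6 1 * xg chevG2 F 10 u * xg chevG2 F 11 (-u) := by
    intro u
    rw [xg_comm ChevOkG2.good (F := F) (r := 6) (s := 10) (by decide) (by decide) (by decide) (by decide) 1 u]
    congr 1
    unfold ChevalleyDatum.commWord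
    rw [show chevG2.commTerms 6 10 = [(11, 1, 1, 1)] by decide +kernel]
    simp [wg]
  have d1 : ∀ u : F, xg chevG2 F 9 u * xg chevG2 F 6 1 = xg chevG2 F 6 1 * xg chevG2 F 9 u :=
    cn ⟨6, by decide⟩ ⟨9, by decide⟩ (by decide) (by decide) (by decide +kernel) 1
  have d2 : ∀ u : F, xg chevG2 F 11 u * xg chevG2 F 6 1 = xg chevG2 F 6 1 * xg chevG2 F 11 u :=
    cn ⟨6, by decide⟩ ⟨11, by decide⟩ (by decide) (by decide) (by decide +kernel) 1
  have c11 : ∀ u w : F, xg chevG2 F 11 u * xg chevG2 F 11 w = xg chevG2 F 11 w * xg chevG2 F 11 u := fun u w => by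
    rw [xg_add ChevOkG2.good, xg_add ChevOkG2.good, add_comm]
  have ha := absG2 (M := M) (c11 (-a) b) (r1 a) (d1 t) (d2 b) (X.one ⟨6, by decide⟩) hv'
  have h10 : xg chevG2 F 10 a ∈ M := by
    have h1 := (X.mem ⟨11, by decide⟩ (-a)).1 ha
    rw [map_neg, _root_.neg_inj] at h1
    exact (X.mem ⟨10, by decide⟩ a).2 h1
  have h9 : xg chevG2 F 9 t * xg chevG2 F 11 b ∈ M := by
    rw [c1 b a, ← mul_assoc] at hv'
    exact (Subgroup.mul_mem_cancel_right _ h10).1 hv'
  -- conjugate by `n_a`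
  have hn := X.nn_mem (F := F) (⟨0, by decide⟩ : Fin chevG2.rank)
  have e1 : nn chevG2 F ⟨0, by decide⟩ * xg chevG2 F 9 t * (nn chevG2 F ⟨0, by decide⟩)⁻¹ =
      xg chevG2 F (chevG2.reflectRoot 0 9) ((ChevOkG2.good.η 0 9 : F) * t) :=
    ng_simple_one_conj ChevOkG2.good (i := 0) (s := 9) (by decide) (by decide) t
  have e2 : nn chevG2 F ⟨0, by decide⟩ * xg chevG2 F 11 b * (nn chevG2 F ⟨0, by decide⟩)⁻¹ =
      xg chevG2 F (chevG2.reflectRoot 0 11) ((ChevOkG2.good.η 0 11 : F) * b) :=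
    ng_simple_one_conj ChevOkG2.good (i := 0) (s := 11) (by decide) (by decide) b
  rw [show chevG2.reflectRoot 0 9 = 8 by decide +kernel] at e1
  rw [show chevG2.reflectRoot 0 11 = 11 by decide +kernel] at e2
  have h8 : xg chevG2 F 8 ((ChevOkG2.good.η 0 9 : F) * t) * xg chevG2 F 11 ((ChevOkG2.good.η 0 11 : F) * b) ∈ M := by
    rw [← e1, ← e2]
    have := mul_mem (mul_mem hn h9) (inv_mem hn)
    have e3 : nn chevG2 F ⟨0, by decide⟩ * (xg chevG2 F 9 t * xg chevG2 F 11 b) * (nn chevG2 F ⟨0, by decide⟩)⁻¹ =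
        nn chevG2 F ⟨0, by decide⟩ * xg chevG2 F 9 t * (nn chevG2 F ⟨0, by decide⟩)⁻¹ *
          (nn chevG2 F ⟨0, by decide⟩ * xg chevG2 F 11 b * (nn chevG2 F ⟨0, by decide⟩)⁻¹) := by group
    rwa [e3] at this
  obtain ⟨u, hu⟩ : ∃ u : F, u = (ChevOkG2.good.η 0 9 : F) * t := ⟨_, rfl⟩
  obtain ⟨w, hw⟩ : ∃ w : F, w = (ChevOkG2.good.η 0 11 : F) * b := ⟨_, rfl⟩
  rw [← hu, ← hw] at h8
  have r2 : xg chevG2 F 8 u * xg chevG2 F 7 1 = xg chevG2 F 7 1 * xg chevG2 F 8 u * xg chevG2 F 9 (2 * u) := by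
    rw [xg_comm ChevOkG2.good (F := F) (r := 7) (s := 8) (by decide) (by decide) (by decide) (by decide) 1 u]
    congr 1
    unfold ChevalleyDatum.commWord
    rw [show chevG2.commTerms 7 8 = [(9, -2, 1, 1), (10, -3, 2, 1), (11, 3, 1, 2)] by decide +kernel]
    simp [wg, h30, xg_zero ChevOkG2.good]
  have d3 : xg chevG2 F 11 w * xg chevG2 F 7 1 = xg chevG2 F 7 1 * xg chevG2 F 11 w :=
    cn ⟨7, by decide⟩ ⟨11, by decide⟩ (by decide) (by decide) (by decide +kernel) 1 w
  have d4 : xg chevG2 F 9 (2 * u) * xg chevG2 F 11 w = xg chevG2 F 11 w * xg chevG2 F 9 (2 * u) :=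
    cn ⟨11, by decide⟩ ⟨9, by decide⟩ (by decide) (by decide) (by decide +kernel) w (2 * u)
  have h2u : xg chevG2 F 9 (2 * u) ∈ M := absG2 (M := M) (s := 1) (a' := xg chevG2 F 9 (2 * u)) (b := xg chevG2 F 11 w)
    (a := xg chevG2 F 8 u) (y := xg chevG2 F 7 1) d4 r2 (by rw [one_mul, mul_one]) d3 (X.one ⟨7, by decide⟩) (by rw [one_mul]; exact h8)
  have h1 := (X.mem ⟨9, by decide⟩ (2 * u)).1 h2u
  have h2 : (2 : F) * u = -u := by linear_combination u * h30
  rw [h2, map_neg, _root_.neg_inj, hu, map_mul, map_intCast] at h1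
  have hη : ((ChevOkG2.good.η 0 9 : ℤ) : F) ≠ 0 := by
    rcases ChevOkG2.good.η_sq 0 (by decide) 9 (by decide) with h4 | h4 <;> rw [h4] <;> simp
  exact mul_left_cancel₀ hη h1

end Cfsg.Agent.Lib.Sfo
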