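import Cfsg.Agent.Lib.SfoTab
set_option autoImplicit false
set_option linter.unusedSectionVars false
set_option linter.unusedVariables false

/-!
Finite overgroups of subfield groups: the coefficients of the root elements (helper44).
-/

namespace Cfsg.Agent.Lib.Sfo
open Cfsg.Lie Cfsg.Agent.Lib.ChevX Cfsg.Agent.Lib.ChevGood Cfsg.Agent.Lib.ChevRel Cfsg.Agent.Lib.ChevNPerm
  Cfsg.Agent.Lib.ChevBruhat Cfsg.Agent.Lib.ChevRadCent Cfsg.Agent.Lib.ChevFix Cfsg.Agent.Lib.ChevInv
open Cfsg.Agent.Lib.ChevClosed hiding pr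
open scoped MatrixGroups Matrix

/-- all roots satisfying `P` are conjugate to `top` -/
def orbB (D : ChevalleyDatum) (P : ℕ → Bool) (top : ℕ) : Bool :=
  (List.range D.nroots).all fun s => !P s || decide (s = top) || (List.range D.rank).any fun i =>
    decide (s < D.reflectRoot i s) && P (D.reflectRoot i s)

variable {D : ChevalleyDatum} {F : Type*} [Field F]

/-- overgroups of the group over the prime field -/
structure Ov (G : Good D) (M : Subgroup (GL D.Idx F)) : Prop where
  hD : Listed D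
  le : M ≤ D.group F
  one : ∀ s : Fin D.nroots, xg D F s 1 ∈ M

section
variable {G : Good D} {M : Subgroup (GL D.Idx F)}

theorem xg_neg_mem (G : Good D) {M : Subgroup (GL D.Idx F)} {s : ℕ} {t : F} (h : xg D F s t ∈ M) : xg D F s (-t) ∈ M := by
  rw [xg_neg G]; exact inv_mem h

theorem xg_neg_iff (G : Good D) {M : Subgroup (GL D.Idx F)} {s : ℕ} {t : F} : xg D F s (-t) ∈ M ↔ xg D F s t ∈ M :=
  ⟨fun h => by have := xg_neg_mem G h; rwa [_root_.neg_neg] at this, xg_neg_mem G⟩

theorem xg_add_mem (G : Good D) {M : Subgroup (GL D.Idx F)} {s : ℕ} {t u : F} (h : xg D F s t ∈ M) (h' : xg D F s u ∈ M) :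
    xg D F s (t + u) ∈ M := by
  rw [← xg_add G]; exact mul_mem h h'

theorem xg_sub_mem (G : Good D) {M : Subgroup (GL D.Idx F)} {s : ℕ} {t u : F} (h : xg D F s t ∈ M) (h' : xg D F s u ∈ M) :
    xg D F s (t - u) ∈ M := by
  rw [sub_eq_add_neg]; exact xg_add_mem G h (xg_neg_mem G h')

theorem xg_zero_mem (G : Good D) {M : Subgroup (GL D.Idx F)} (s : ℕ) : xg D F s 0 ∈ M := by
  rw [xg_zero G]; exact one_mem _

theorem xg_nsmul_mem (G : Good D) {M : Subgroup (GL D.Idx F)} {s : ℕ} {t : F} (h : xg D F s t ∈ M) (n : ℕ) :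
    xg D F s ((n : F) * t) ∈ M := by
  induction n with
  | zero => simpa using xg_zero_mem G s
  | succ n ih => rw [Nat.cast_succ, add_mul, one_mul]; exact xg_add_mem G ih h

theorem xg_zsmul_mem (G : Good D) {M : Subgroup (GL D.Idx F)} {s : ℕ} {t : F} (h : xg D F s t ∈ M) (n : ℤ) :
    xg D F s ((n : F) * t) ∈ M := by
  rcases n.eq_nat_or_neg with ⟨m, rfl | rfl⟩
  · simpa using xg_nsmul_mem G h m
  · have := xg_neg_mem G (xg_nsmul_mem G h m)
    simpa using this

/-- dividing by an integer prime to the characteristic -/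
theorem xg_div_mem (G : Good D) {M : Subgroup (GL D.Idx F)} {p : ℕ} [Fact p.Prime] [CharP F p] {s : ℕ} {t : F} {n : ℤ}
    (hn : (n : F) ≠ 0) (h : xg D F s ((n : F) * t) ∈ M) : xg D F s t ∈ M := by
  have h1 : ¬ (p : ℤ) ∣ n := by
    intro h2
    exact hn ((CharP.intCast_eq_zero_iff F p n).2 h2)
  have h2 : IsCoprime (p : ℤ) n := by
    rw [Int.isCoprime_iff_gcd_eq_one]
    have h3 := (Fact.out : p.Prime)
    rcases (Nat.dvd_prime h3).1 (Int.gcd_dvd_natAbs_left (p : ℤ) n) with h4 | h4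
    · exact h4
    · exfalso
      apply h1
      have h5 := Int.gcd_dvd_right (p : ℤ) n
      rw [h4] at h5
      exact h5
  obtain ⟨a, b, hab⟩ := h2
  have h3 := xg_zsmul_mem G h b
  have h4 : (b : F) * ((n : F) * t) = t := by
    have h5 : ((a * p + b * n : ℤ) : F) = 1 := by rw [hab]; simp
    push_cast at h5
    rw [CharP.cast_eq_zero, mul_zero, zero_add] at h5
    rw [← mul_assoc, h5, one_mul]
  rwa [h4] at h3

variable (X : Ov G M)
include X

theorem Ov.one' {s : ℕ} (hs : s < D.nroots) : xg D F s 1 ∈ M := X.one ⟨s, hs⟩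

theorem Ov.nn_mem (i : Fin D.rank) : nn D F i ∈ M := by
  unfold nn ng
  have h1 := X.one (simpF G i)
  have h2 : xg D F (D.neg (D.simple i)) (-(1 : F)⁻¹) ∈ M := by
    rw [inv_one]
    exact xg_neg_mem G (X.one (negF G (simpF G i)))
  exact mul_mem (mul_mem h1 h2) h1

theorem Ov.nl_mem (l : List (Fin D.rank)) : nl D F l ∈ M := by
  induction l with
  | nil => exact one_mem _
  | cons i l ih => rw [nl_cons G]; exact mul_mem (X.nn_mem i) ih

theorem Ov.refl_iff (i : Fin D.rank) (s : Fin D.nroots) (t : F) : xg D F (ChevNPerm.refl G i s) t ∈ M ↔ xg D F s t ∈ M := by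
  have h1 : nn D F i * xg D F s t * (nn D F i)⁻¹ = xg D F (D.reflectRoot i s) ((G.η i s : F) * t) :=
    ng_simple_one_conj G i.2 s.2 t
  have h2 := X.nn_mem i
  have h3 : xg D F s t ∈ M ↔ xg D F (D.reflectRoot i s) ((G.η i s : F) * t) ∈ M := by
    rw [← h1]
    constructor
    · intro h; exact mul_mem (mul_mem h2 h) (inv_mem h2)
    · intro h
      have := mul_mem (mul_mem (inv_mem h2) h) h2
      have e : (nn D F i)⁻¹ * (nn D F i * xg D F s t * (nn D F i)⁻¹) * nn D F i = xg D F s t := by group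
      rwa [e] at this
  rw [h3]
  show xg D F (D.reflectRoot i s) t ∈ M ↔ _
  rcases G.η_sq i i.2 s s.2 with h | h <;> rw [h]
  · simp
  · rw [Int.cast_neg, Int.cast_one, neg_one_mul, xg_neg_iff G]

theorem Ov.wl_iff (l : List (Fin D.rank)) (s : Fin D.nroots) (t : F) : xg D F (wl G l s) t ∈ M ↔ xg D F s t ∈ M := by
  induction l with
  | nil =>
    have : wl G ([] : List (Fin D.rank)) s = s := by simp [wl]
    rw [this]
  | cons i l ih =>
    have : wl G (i :: l) s = ChevNPerm.refl G i (wl G l s) := by simp [wl]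
    rw [this, X.refl_iff, ih]

theorem Ov.neg_iff (s : Fin D.nroots) (t : F) : xg D F (negF G s) t ∈ M ↔ xg D F s t ∈ M := by
  obtain ⟨l, i, rfl⟩ := exists_wl G s
  have h1 : negF G (wl G l (simpF G i)) = wl G l (negF G (simpF G i)) := (lin_neg G (mono_nl (F := F) G l).1 _).symm
  have h2 : ChevNPerm.refl G i (simpF G i) = negF G (simpF G i) := refl_simpF G i
  rw [h1, X.wl_iff, X.wl_iff, ← h2, X.refl_iff]

theorem Ov.ng_mem {s : Fin D.nroots} {t : F} (h : xg D F s t ∈ M) (h' : xg D F s t⁻¹ ∈ M) : ng D F s t ∈ M := by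
  unfold ng
  have h2 : xg D F (D.neg s) (-t⁻¹) ∈ M := xg_neg_mem G ((X.neg_iff s _).2 h')
  exact mul_mem (mul_mem h h2) h

theorem Ov.hg_mem {s : Fin D.nroots} {t : F} (h : xg D F s t ∈ M) (h' : xg D F s t⁻¹ ∈ M) : hg D F s t ∈ M := by
  unfold hg
  refine mul_mem (X.ng_mem h h') (X.ng_mem ?_ ?_)
  · exact xg_neg_mem G (X.one s)
  · rw [inv_neg, inv_one]; exact xg_neg_mem G (X.one s)

theorem Ov.torus {r s : Fin D.nroots} {c : F} (hc : c ≠ 0) (h : xg D F r c ∈ M) (h' : xg D F r c⁻¹ ∈ M)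
    (hp : pr D r s = 1 ∨ pr D r s = -1) {t : F} (ht : xg D F s t ∈ M) : xg D F s (c * t) ∈ M := by
  have h1 := X.hg_mem h h'
  rcases hp with hp | hp
  · have h2 := hg_conj G (F := F) r.2 s.2 c hc t
    have h3 : (∑ j ∈ Finset.range D.rank, co D r j * D.cartan j s) = 1 := hp
    rw [h3, zpow_one] at h2
    rw [← h2]
    exact mul_mem (mul_mem h1 ht) (inv_mem h1)
  · have h1' := X.hg_mem (t := c⁻¹) h' (by rwa [inv_inv])
    have h2 := hg_conj G (F := F) r.2 s.2 c⁻¹ (inv_ne_zero hc) t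
    have h3 : (∑ j ∈ Finset.range D.rank, co D r j * D.cartan j s) = -1 := hp
    rw [h3, zpow_neg, zpow_one, inv_inv] at h2
    rw [← h2]
    exact mul_mem (mul_mem h1' ht) (inv_mem h1')

omit X in
theorem comm_mem (G : Good D) {M : Subgroup (GL D.Idx F)} {r s : ℕ} (hr : r < D.nroots) (hs : s < D.nroots) (hrs : s ≠ r) (hneg : s ≠ D.neg r) {t u : F}
    (ht : xg D F r t ∈ M) (hu : xg D F s u ∈ M) : wg D F (D.commWord F r s t u) ∈ M := by
  have h1 := xg_comm G (F := F) hr hs hrs hneg t u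
  have h2 : wg D F (D.commWord F r s t u) = (xg D F s u)⁻¹ * (xg D F r t)⁻¹ * (xg D F s u * xg D F r t) := by
    rw [h1]; group
  rw [h2]
  exact mul_mem (mul_mem (inv_mem hu) (inv_mem ht)) (mul_mem hu ht)

theorem Ov.orb {P : ℕ → Bool} {top : ℕ} (hP : orbB D P top = true) (htop : top < D.nroots) {s : ℕ} (hs : s < D.nroots)
    (hsP : P s = true) (t : F) : xg D F s t ∈ M ↔ xg D F top t ∈ M := by
  unfold orbB at hP
  simp only [List.all_eq_true, List.any_eq_true, List.mem_range, decide_eq_true_eq, Bool.or_eq_true, Bool.and_eq_true,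
    Bool.not_eq_true'] at hP
  have key : ∀ (m s : ℕ), D.nroots - s = m → s < D.nroots → P s = true → (xg D F s t ∈ M ↔ xg D F top t ∈ M) := by
    intro m
    induction m using Nat.strong_induction_on with
    | _ m ih =>
      intro s hm hs hsP
      rcases hP s hs with (h | h) | ⟨i, hi', h, h'⟩
      · rw [hsP] at h; exact absurd h (by simp)
      · rw [h]
      · have h1 := X.refl_iff ⟨i, hi'⟩ ⟨s, hs⟩ t
        have h2 : (D.reflectRoot i s) < D.nroots := (ChevNPerm.refl G ⟨i, hi'⟩ ⟨s, hs⟩ : Fin D.nroots).2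
        have h3 : xg D F (D.reflectRoot i s) t ∈ M ↔ xg D F s t ∈ M := h1
        rw [← h3]
        exact ih _ (by omega) _ rfl h2 h'
  exact key _ s rfl hs hsP

/-- the coefficients form a finite additive group -/
theorem Ov.finite [Finite M] (s : Fin D.nroots) : {t : F | xg D F s t ∈ M}.Finite := by
  have : Finite {t : F | xg D F s t ∈ M} := by
    let f : {t : F | xg D F s t ∈ M} → M := fun t => ⟨xg D F s t, t.2⟩
    exact Finite.of_injective f (fun a b h => Subtype.ext (xg_inj G s.2 (congrArg Subtype.val h)))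
  exact Set.toFinite _

/-- inverses in finite multiplicatively closed sets -/
theorem Ov.inv_mem' [Finite M] {s : Fin D.nroots} (hm : ∀ t u : F, xg D F s t ∈ M → xg D F s u ∈ M → xg D F s (t * u) ∈ M)
    {t : F} (ht : xg D F s t ∈ M) : xg D F s t⁻¹ ∈ M := by
  by_cases h0 : t = 0
  · rw [h0, inv_zero]; exact xg_zero_mem G _
  have hfin := X.finite s
  haveI : Finite {t : F | xg D F s t ∈ M} := hfin.to_subtype
  let f : {t : F | xg D F s t ∈ M} → {t : F | xg D F s t ∈ M} := fun u => ⟨t * u, hm t u ht u.2⟩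
  have hinj : Function.Injective f := fun a b h => Subtype.ext (mul_left_cancel₀ h0 (congrArg Subtype.val h))
  obtain ⟨u, hu⟩ := Finite.injective_iff_surjective.1 hinj ⟨1, X.one s⟩
  have h1 : t * (u : F) = 1 := congrArg Subtype.val hu
  rw [← eq_inv_of_mul_eq_one_right h1]
  exact u.2

/-- the output: a finite subfield -/
theorem Ov.toField [Finite M] (s0 : Fin D.nroots)
    (hm : ∀ t u : F, xg D F s0 t ∈ M → xg D F s0 u ∈ M → xg D F s0 (t * u) ∈ M)
    (hs : ∀ (s : Fin D.nroots) (t : F), xg D F s t ∈ M ↔ xg D F s0 t ∈ M) :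
    ∃ E : Subfield F, Finite E ∧ ∀ (s : Fin D.nroots) (t : F), xg D F s t ∈ M ↔ t ∈ E := by
  refine ⟨{ carrier := {t | xg D F s0 t ∈ M}
            mul_mem' := fun ha hb => hm _ _ ha hb
            one_mem' := X.one s0
            add_mem' := fun ha hb => xg_add_mem G ha hb
            zero_mem' := xg_zero_mem G _
            neg_mem' := fun ha => xg_neg_mem G ha
            inv_mem' := fun t ht => X.inv_mem' hm ht }, ?_, fun s t => hs s t⟩
  exact (X.finite s0).to_subtype

/-- the coefficients of roots in an `A₂` subsystem -/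
theorem Ov.mulA2 {r s k : Fin D.nroots} {N : ℤ} (hrs : s ≠ r) (hneg : s ≠ negF G r)
    (h : D.commTerms r s = [((k : ℕ), N, 1, 1)]) (hN : N = 1 ∨ N = -1) {t u : F} (ht : xg D F r t ∈ M)
    (hu : xg D F s u ∈ M) : xg D F k (t * u) ∈ M := by
  have h1 := comm_mem G r.2 s.2 (fun hh => hrs (Fin.ext hh)) (fun hh => hneg (Fin.ext hh)) ht hu
  have h2 : D.commWord F r s t u = [((k : ℕ), (N : F) * (-t) * u)] := by
    unfold ChevalleyDatum.commWord
    rw [h]
    simp
  have h3 : wg D F [((k : ℕ), (N : F) * (-t) * u)] = xg D F k ((N : F) * (-t) * u) := by simp [wg]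
  rw [h2, h3] at h1
  rcases hN with h | h <;> rw [h] at h1
  · rw [Int.cast_one, one_mul, neg_mul, xg_neg_iff G] at h1; exact h1
  · rw [Int.cast_neg, Int.cast_one, neg_one_mul, _root_.neg_neg] at h1; exact h1

end

end Cfsg.Agent.Lib.Sfo
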