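import Cfsg.Agent.Lib.SfoRing
set_option autoImplicit false
set_option linter.unusedSectionVars false
set_option linter.unusedVariables false

/-!
Finite overgroups of subfield groups: root subgroups of type B₂ in characteristic two (helper44).
-/

namespace Cfsg.Agent.Lib.Sfo

/-- the relations in a rank two subgroup of type `B₂` in characteristic two -/
structure Sq {Γ F : Type*} [Group Γ] [Field F] (M : Subgroup Γ) (x1 x2 xp xm : F → Γ) (φ ψ : Γ) : Prop where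
  add1 : ∀ a b, x1 a * x1 b = x1 (a + b)
  addp : ∀ a b, xp a * xp b = xp (a + b)
  c12 : ∀ a b, x1 a * x2 b = x2 b * x1 a
  c1p : ∀ a b, x1 a * xp b = xp b * x1 a
  c2p : ∀ a b, x2 a * xp b = xp b * x2 a
  cm2 : ∀ a b, xm a * x2 b = x2 b * xm a
  cmp : ∀ a b, xm a * xp b = xp b * xm a
  rel : ∀ t u, x1 t * xm u = xm u * x1 t * (x2 (t * u) * xp (t ^ 2 * u))
  φM : φ ∈ M
  φ2 : ∀ t, φ * x2 t * φ⁻¹ = x1 t
  φp : ∀ t, φ * xp t * φ⁻¹ = xp t
  ψM : ψ ∈ M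
  ψ1 : ∀ t, ψ * x1 t * ψ⁻¹ = x2 t
  ψp : ∀ t, ψ * xp t * ψ⁻¹ = xm t
  one1 : x1 1 ∈ M
  onem : xm 1 ∈ M

section
variable {Γ F : Type*} [Group Γ] [Field F] [CharP F 2] {M : Subgroup Γ} {x1 x2 xp xm : F → Γ} {φ ψ : Γ}
  (S : Sq M x1 x2 xp xm φ ψ)
include S

theorem Sq.φ2p {t c : F} (h : x2 t * xp c ∈ M) : x1 t * xp c ∈ M := by
  have h1 : x1 t * xp c = φ * (x2 t * xp c) * φ⁻¹ := by
    rw [← S.φ2, ← S.φp c]
    nth_rewrite 2 [S.φp c]
    group
  rw [h1]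
  exact mul_mem (mul_mem S.φM h) (inv_mem S.φM)

theorem Sq.toT {t c : F} (h : x1 t * xp c ∈ M) : x1 t * xp (t ^ 2) ∈ M := by
  apply S.φ2p
  have h1 : x1 t * xp c * xm 1 = xm 1 * (x1 t * xp c) * (x2 t * xp (t ^ 2)) := by
    have h2 := S.rel t 1
    rw [mul_one, mul_one] at h2
    calc x1 t * xp c * xm 1 = x1 t * (xp c * xm 1) := by group
      _ = (x1 t * xm 1) * xp c := by rw [← S.cmp]; group
      _ = xm 1 * x1 t * (x2 t * xp (t ^ 2)) * xp c := by rw [h2]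
      _ = xm 1 * x1 t * x2 t * (xp (t ^ 2) * xp c) := by group
      _ = xm 1 * x1 t * x2 t * (xp c * xp (t ^ 2)) := by rw [S.addp, S.addp, add_comm]
      _ = xm 1 * x1 t * (x2 t * xp c) * xp (t ^ 2) := by group
      _ = _ := by rw [S.c2p]; group
  have h2 : x2 t * xp (t ^ 2) = (xm 1 * (x1 t * xp c))⁻¹ * (x1 t * xp c * xm 1) := by rw [h1]; group
  rw [h2]
  exact mul_mem (inv_mem (mul_mem S.onem h)) (mul_mem h S.onem)

theorem Sq.prod {t t' : F} (h : x1 t * xp (t ^ 2) ∈ M) (h' : x1 t' * xp (t' ^ 2) ∈ M) :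
    x1 (t * t' ^ 2) * xp (t ^ 2 * t' ^ 2) ∈ M := by
  apply S.φ2p
  have h2 : x2 t' * xm (t' ^ 2) ∈ M := by
    have h3 : x2 t' * xm (t' ^ 2) = ψ * (x1 t' * xp (t' ^ 2)) * ψ⁻¹ := by rw [← S.ψ1, ← S.ψp]; group
    rw [h3]
    exact mul_mem (mul_mem S.ψM h') (inv_mem S.ψM)
  set u := t' ^ 2 with hu
  have h1 : x1 t * xp (t ^ 2) * (x2 t' * xm u) = x2 t' * xm u * (x1 t * xp (t ^ 2)) * (x2 (t * u) * xp (t ^ 2 * u)) := by
    calc x1 t * xp (t ^ 2) * (x2 t' * xm u) = x1 t * (xp (t ^ 2) * x2 t') * xm u := by group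
      _ = (x1 t * x2 t') * (xp (t ^ 2) * xm u) := by rw [← S.c2p]; group
      _ = x2 t' * (x1 t * xm u) * xp (t ^ 2) := by rw [S.c12, ← S.cmp]; group
      _ = x2 t' * xm u * x1 t * x2 (t * u) * (xp (t ^ 2 * u) * xp (t ^ 2)) := by rw [S.rel]; group
      _ = x2 t' * xm u * x1 t * x2 (t * u) * (xp (t ^ 2) * xp (t ^ 2 * u)) := by rw [S.addp, S.addp, add_comm]
      _ = x2 t' * xm u * x1 t * (x2 (t * u) * xp (t ^ 2)) * xp (t ^ 2 * u) := by group
      _ = _ := by rw [S.c2p]; group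
  have h3 : x2 (t * u) * xp (t ^ 2 * u) = (x2 t' * xm u * (x1 t * xp (t ^ 2)))⁻¹ * (x1 t * xp (t ^ 2) * (x2 t' * xm u)) := by
    rw [h1]; group
  rw [h3]
  exact mul_mem (inv_mem (mul_mem h2 h)) (mul_mem h h2)

theorem Sq.long_short {u : F} (hu : xp u ∈ M) : x1 u ∈ M := by
  have h1 : xm u ∈ M := by rw [← S.ψp]; exact mul_mem (mul_mem S.ψM hu) (inv_mem S.ψM)
  have h2 := S.rel 1 u
  rw [one_mul, one_pow, one_mul] at h2
  have h3 : x2 u * xp u = (xm u * x1 1)⁻¹ * (x1 1 * xm u) := by rw [h2]; group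
  have h4 : x2 u * xp u ∈ M := by
    rw [h3]; exact mul_mem (inv_mem (mul_mem h1 S.one1)) (mul_mem S.one1 h1)
  have h5 := (Subgroup.mul_mem_cancel_right _ hu).1 h4
  rw [← S.φ2]
  exact mul_mem (mul_mem S.φM h5) (inv_mem S.φM)

theorem Sq.sq_mem {t : F} (ht : x1 t ∈ M) : xp (t ^ 2) ∈ M := by
  have h0 : xp 0 = 1 := by
    have := S.addp 0 0
    rw [add_zero] at this
    exact mul_eq_left.1 this
  have h1 := S.toT (t := t) (c := 0) (by rw [h0, mul_one]; exact ht)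
  exact (Subgroup.mul_mem_cancel_left _ ht).1 h1

theorem Sq.main (hfin : {t : F | x1 t ∈ M}.Finite) (hfinT : {t : F | x1 t * xp (t ^ 2) ∈ M}.Finite) :
    (∀ t, x1 t ∈ M ↔ xp t ∈ M) ∧ (∀ t u, xp t ∈ M → xp u ∈ M → xp (t * u) ∈ M) ∧
      ∀ t c, x1 t * xp c ∈ M → x1 t ∈ M := by
  have hsqinj : ∀ a b : F, a ^ 2 = b ^ 2 → a = b := fun a b h => by
    have h1 : (a - b) ^ 2 = 0 := by
      have h2 : (2 : F) = 0 := CharTwo.two_eq_zero
      linear_combination h + (b ^ 2 - a * b) * h2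
    exact sub_eq_zero.1 (pow_eq_zero_iff (two_ne_zero)|>.1 h1)
  haveI := hfin.to_subtype
  let f : {t : F | x1 t ∈ M} → {t : F | x1 t ∈ M} := fun t => ⟨(t : F) ^ 2, S.long_short (S.sq_mem t.2)⟩
  have hf : Function.Injective f := fun a b h => Subtype.ext (hsqinj _ _ (congrArg Subtype.val h))
  have hsurj := Finite.injective_iff_surjective.1 hf
  have hsq : ∀ t, x1 t ∈ M → ∃ s, x1 s ∈ M ∧ s ^ 2 = t := by
    intro t ht
    obtain ⟨s, hs⟩ := hsurj ⟨t, ht⟩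
    exact ⟨s, s.2, congrArg Subtype.val hs⟩
  have h1 : ∀ t, x1 t ∈ M ↔ xp t ∈ M := by
    intro t
    refine ⟨fun ht => ?_, S.long_short⟩
    obtain ⟨s, hs, rfl⟩ := hsq t ht
    exact S.sq_mem hs
  have hAT : ∀ t, x1 t ∈ M → x1 t * xp (t ^ 2) ∈ M := fun t ht => mul_mem ht (S.sq_mem ht)
  -- the products
  have hprod : ∀ t t', x1 t * xp (t ^ 2) ∈ M → x1 t' * xp (t' ^ 2) ∈ M → x1 (t * (t' * (1 + t'))) ∈ M := by
    intro t t' ht ht'
    have h2 := S.prod ht ht'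
    have h3 := S.toT h2
    have h4 : xp (t ^ 2 * t' ^ 2 - (t * t' ^ 2) ^ 2) ∈ M := by
      have h5 : xp (t ^ 2 * t' ^ 2 - (t * t' ^ 2) ^ 2) = (x1 (t * t' ^ 2) * xp ((t * t' ^ 2) ^ 2))⁻¹ *
          (x1 (t * t' ^ 2) * xp (t ^ 2 * t' ^ 2)) := by
        have h6 : xp (t ^ 2 * t' ^ 2) = xp ((t * t' ^ 2) ^ 2) * xp (t ^ 2 * t' ^ 2 - (t * t' ^ 2) ^ 2) := by
          rw [S.addp]; congr 1; ring
        rw [h6]; group
      rw [h5]
      exact mul_mem (inv_mem h3) h2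
    obtain ⟨s, hs, hs2⟩ := hsq _ ((h1 _).2 h4)
    have h5 : t * (t' * (1 + t')) = s := by
      apply hsqinj
      rw [hs2]
      have h2 : (2 : F) = 0 := CharTwo.two_eq_zero
      linear_combination (t ^ 2 * t' ^ 3 + t ^ 2 * t' ^ 4) * h2
    rw [h5]; exact hs
  have hT : ∀ t, x1 t * xp (t ^ 2) ∈ M → x1 t ∈ M := by
    intro t ht
    by_cases h : ∃ t', x1 t' * xp (t' ^ 2) ∈ M ∧ t' ≠ 0 ∧ t' ≠ 1
    · obtain ⟨t', ht', h0, h1'⟩ := h
      have hne : t' * (1 + t') ≠ 0 := by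
        apply mul_ne_zero h0
        intro h
        apply h1'
        have h2 : (2 : F) = 0 := CharTwo.two_eq_zero
        linear_combination h - h2
      haveI := hfinT.to_subtype
      let g : {t : F | x1 t * xp (t ^ 2) ∈ M} → {t : F | x1 t * xp (t ^ 2) ∈ M} := fun t =>
        ⟨(t : F) * (t' * (1 + t')), hAT _ (hprod _ _ t.2 ht')⟩
      have hg : Function.Injective g := fun a b h => Subtype.ext (mul_right_cancel₀ hne (congrArg Subtype.val h))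
      obtain ⟨s, hs⟩ := Finite.injective_iff_surjective.1 hg ⟨t, ht⟩
      have h2 : (s : F) * (t' * (1 + t')) = t := congrArg Subtype.val hs
      rw [← h2]
      exact hprod _ _ s.2 ht'
    · push Not at h
      by_cases h0 : t = 0
      · have h3 : x1 0 = 1 := by
          have := S.add1 0 0
          rw [add_zero] at this
          exact mul_eq_left.1 this
        rw [h0, h3]; exact one_mem _
      · rw [h t ht h0]; exact S.one1
  refine ⟨h1, ?_, fun t c h => hT t (S.toT h)⟩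
  intro t u ht hu
  obtain ⟨s, hs, rfl⟩ := hsq u ((h1 u).2 hu)
  exact (h1 _).1 (hT _ (S.toT (S.prod (hAT t ((h1 t).2 ht)) (hAT s hs))))

end

end Cfsg.Agent.Lib.Sfo
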