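import Cfsg.Agent.Lib.SfoSq
import Cfsg.Agent.Lib.SfoDatA
import Cfsg.Agent.Lib.ChevCentF4
set_option autoImplicit false
set_option linter.unusedSectionVars false
set_option linter.unusedVariables false

/-!
Finite overgroups of subfield groups: the coefficient fields (helper44).
-/

namespace Cfsg.Agent.Lib.Sfo
open Cfsg.Lie Cfsg.Agent.Lib.ChevX Cfsg.Agent.Lib.ChevGood Cfsg.Agent.Lib.ChevRel Cfsg.Agent.Lib.ChevNPerm
  Cfsg.Agent.Lib.ChevBruhat Cfsg.Agent.Lib.ChevRadCent Cfsg.Agent.Lib.ChevFix Cfsg.Agent.Lib.ChevInv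
  Cfsg.Agent.Lib.ChevStd
open Cfsg.Agent.Lib.ChevClosed hiding pr
open Cfsg.Agent.Lib.ChevN (wr nwd Valid nwd_conj)
open scoped MatrixGroups Matrix

variable {D : ChevalleyDatum} {F : Type*} [Field F]

section
variable {G : Good D} {M : Subgroup (GL D.Idx F)} (X : Ov G M)
include X

theorem Ov.nwd_mem {w : List ℕ} (hw : Valid D w) : nwd D F w ∈ M := by
  unfold nwd
  apply Subgroup.list_prod_mem
  intro x hx
  obtain ⟨i, hi', rfl⟩ := List.mem_map.1 hx
  exact X.nn_mem ⟨i, hw i hi'⟩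

omit X in
/-- the coefficients of the sum of two roots -/
theorem mulN (G : Good D) {M : Subgroup (GL D.Idx F)} {p : ℕ} [Fact p.Prime] [CharP F p] {r s k : ℕ} {N : ℤ} (hr : r < D.nroots) (hs : s < D.nroots)
    (hrs : s ≠ r) (hneg : s ≠ D.neg r)
    (h : D.commTerms r s = [(k, N, 1, 1)]) (hN : (N : F) ≠ 0) {t u : F} (ht : xg D F r t ∈ M)
    (hu : xg D F s u ∈ M) : xg D F k (t * u) ∈ M := by
  have h1 := comm_mem G hr hs hrs hneg ht hu
  have h2 : D.commWord F r s t u = [(k, (N : F) * (-t) * u)] := by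
    unfold ChevalleyDatum.commWord
    rw [h]
    simp
  have h3 : wg D F [(k, (N : F) * (-t) * u)] = xg D F k ((N : F) * (-(t * u))) := by simp [wg]; ring_nf
  rw [h2, h3] at h1
  have h4 := xg_div_mem (p := p) G hN h1
  rwa [xg_neg_iff G] at h4

/-- types with one root length -/
theorem Ov.simply [Finite M] {p : ℕ} [Fact p.Prime] [CharP F p] (hP : orbB D (fun _ => true) (D.nroots - 1) = true) {r s k : ℕ} {N : ℤ}
    (hr : r < D.nroots) (hs : s < D.nroots) (hk : k < D.nroots)
    (hrs : s ≠ r) (hneg : s ≠ D.neg r) (h : D.commTerms r s = [(k, N, 1, 1)]) (hN : N = 1 ∨ N = -1) :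
    ∃ E : Subfield F, Finite E ∧ ∀ (s : Fin D.nroots) (t : F), xg D F s t ∈ M ↔ t ∈ E := by
  have h1 : ∀ s : ℕ, s < D.nroots → ∀ t : F, xg D F s t ∈ M ↔ xg D F (hi G) t ∈ M :=
    fun s hs t => X.orb hP (hi G).2 hs rfl t
  refine X.toField (hi G) (fun t u ht hu => ?_) (fun s t => h1 s s.2 t)
  refine (h1 k hk _).1 (mulN (p := p) G hr hs hrs hneg h ?_ ((h1 r hr _).2 ht) ((h1 s hs _).2 hu))
  rcases hN with h | h <;> rw [h] <;> simp

/-- types with two root lengths -/
theorem Ov.two [Finite M] {O : ℕ → Bool} {hs : ℕ} (hsl : hs < D.nroots) (hP : orbB D O (D.nroots - 1) = true)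
    (hQ : orbB D (fun s => !O s) hs = true) (h1 : ∀ t : F, xg D F hs t ∈ M ↔ xg D F (hi G) t ∈ M)
    (h2 : ∀ t u : F, xg D F (hi G) t ∈ M → xg D F (hi G) u ∈ M → xg D F (hi G) (t * u) ∈ M) :
    ∃ E : Subfield F, Finite E ∧ ∀ (s : Fin D.nroots) (t : F), xg D F s t ∈ M ↔ t ∈ E := by
  refine X.toField (hi G) h2 (fun s t => ?_)
  by_cases h : O s = true
  · exact X.orb hP (hi G).2 s.2 h t
  · rw [← h1]
    exact X.orb hQ hsl s.2 (by simpa using h) t

/-- long roots of a type containing `A₂` in the long roots -/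
theorem Ov.longA2 {p : ℕ} [Fact p.Prime] [CharP F p] {O : ℕ → Bool} (hP : orbB D O (D.nroots - 1) = true) {r s k : ℕ} {N : ℤ}
    (hr : r < D.nroots) (hs : s < D.nroots) (hk : k < D.nroots) (hO : O r = true ∧ O s = true ∧ O k = true)
    (hrs : s ≠ r) (hneg : s ≠ D.neg r) (h : D.commTerms r s = [(k, N, 1, 1)]) (hN : N = 1 ∨ N = -1) {t u : F}
    (ht : xg D F (hi G) t ∈ M) (hu : xg D F (hi G) u ∈ M) : xg D F (hi G) (t * u) ∈ M := by
  refine (X.orb hP (hi G).2 hk hO.2.2 _).1 (mulN (p := p) G hr hs hrs hneg h ?_ ((X.orb hP (hi G).2 hr hO.1 _).2 ht)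
    ((X.orb hP (hi G).2 hs hO.2.1 _).2 hu))
  rcases hN with h | h <;> rw [h] <;> simp

/-- coefficients of long roots are coefficients of short roots -/
theorem Ov.long_short [Finite M] (h2 : ∀ t u : F, xg D F (hi G) t ∈ M → xg D F (hi G) u ∈ M → xg D F (hi G) (t * u) ∈ M)
    {hs : Fin D.nroots} (hp : pr D (hi G) hs = 1 ∨ pr D (hi G) hs = -1) {t : F} (ht : xg D F (hi G) t ∈ M) : xg D F hs t ∈ M := by
  by_cases h0 : t = 0
  · rw [h0]; exact xg_zero_mem G _
  · have := X.torus h0 ht (X.inv_mem' h2 ht) hp (X.one hs)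
    rwa [mul_one] at this

end

/-- the check for root subgroups of type `B₂` in characteristic two -/
def sqB (D : ChevalleyDatum) (e1 e2 p m : ℕ) (wφ wψ : List ℕ) : Bool :=
  decide (e1 < D.nroots) && decide (e2 < D.nroots) && decide (p < D.nroots) && decide (m < D.nroots) &&
  evenB D e2 e1 && evenB D p e1 && evenB D p e2 && evenB D e2 m && evenB D p m &&
  decide (e1 ≠ m) && decide (e1 ≠ D.neg m) &&
  decide ((D.commTerms m e1).map (fun c => (c.1, c.2.1 % 2, c.2.2)) = [(e2, 1, 1, 1), (p, 1, 1, 2)]) &&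
  wφ.all (fun i => decide (i < D.rank)) && wψ.all (fun i => decide (i < D.rank)) &&
  decide (wr D wφ e2 = e1) && decide (wr D wφ p = p) && decide (wr D wψ e1 = e2) && decide (wr D wψ p = m)

theorem Ov.sq [CharP F 2] {G : Good D} {M : Subgroup (GL D.Idx F)} (X : Ov G M) {e1 e2 p m : ℕ} {wφ wψ : List ℕ}
    (h : sqB D e1 e2 p m wφ wψ = true) :
    Sq M (xg D F e1) (xg D F e2) (xg D F p) (xg D F m) (nwd D F wφ) (nwd D F wψ) := by
  unfold sqB at h
  simp only [Bool.and_eq_true, decide_eq_true_eq, List.all_eq_true] at h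
  obtain ⟨⟨⟨⟨⟨⟨⟨⟨⟨⟨⟨⟨⟨⟨⟨⟨⟨h1, h2⟩, h3⟩, h4⟩, h5⟩, h6⟩, h7⟩, h8⟩, h9⟩, h10⟩, h11⟩, h12⟩, h13⟩, h14⟩, h15⟩, h16⟩, h17⟩, h18⟩ := h
  have hw : ∀ {w : List ℕ} (hw : Valid D w) {s s' : ℕ} (hs : s < D.nroots) (hw' : wr D w s = s') (t : F),
      nwd D F w * xg D F s t * (nwd D F w)⁻¹ = xg D F s' t := by
    intro w hw s s' hs hw' t
    obtain ⟨ε, hε, e1, -⟩ := nwd_conj G (F := F) hw hs
    rw [e1, hw']
    rcases hε with h | h
    · rw [h, one_mul]
    · rw [h, CharTwo.neg_eq, one_mul]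
  have hodd : ∀ N : ℤ, N % 2 = 1 → (N : F) = 1 := by
    intro N hN
    have h19 : N = 2 * (N / 2) + 1 := by omega
    rw [h19]
    push_cast
    rw [CharTwo.two_eq_zero]
    simp
  refine ⟨fun a b => xg_add G e1 a b, fun a b => xg_add G p a b, fun a b => comm_of_evenB G h2 h1 h5 b a,
    fun a b => comm_of_evenB G h3 h1 h6 b a, fun a b => comm_of_evenB G h3 h2 h7 b a,
    fun a b => comm_of_evenB G h2 h4 h8 b a, fun a b => comm_of_evenB G h3 h4 h9 b a, ?_, X.nwd_mem h13, hw h13 h2 h15, hw h13 h3 h16,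
    X.nwd_mem h14, hw h14 h1 h17, hw h14 h3 h18, X.one' h1, X.one' h4⟩
  intro t u
  rw [xg_comm G (F := F) h4 h1 h10 h11 u t]
  congr 1
  rcases hE : D.commTerms m e1 with _ | ⟨⟨k, N, i, j⟩, _ | ⟨⟨k', N', i', j'⟩, tl⟩⟩
  · rw [hE] at h12; simp at h12
  · rw [hE] at h12; simp at h12
  · rw [hE] at h12
    simp only [List.map_cons, List.cons.injEq, Prod.mk.injEq, List.map_eq_nil_iff] at h12
    obtain ⟨⟨rfl, hN, rfl, rfl⟩, ⟨rfl, hN', rfl, rfl⟩, rfl⟩ := h12
    unfold ChevalleyDatum.commWord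
    rw [hE]
    simp only [List.map_cons, List.map_nil, wg, List.prod_cons, List.prod_nil, mul_one, hodd N hN, hodd N' hN', one_mul,
      pow_one, CharTwo.neg_eq]
    rw [mul_comm u t, mul_comm u (t ^ 2)]

/-! ### the types -/

theorem cast_two_ne {p : ℕ} [Fact p.Prime] [CharP F p] (hp : p ≠ 2) : (2 : F) ≠ 0 := by
  intro h
  have h3 : ((2 : ℕ) : F) = 0 := by exact_mod_cast h
  rw [CharP.cast_eq_zero_iff F p] at h3
  exact hp ((Nat.prime_dvd_prime_iff_eq Fact.out Nat.prime_two).1 h3)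

theorem cast_three_ne {p : ℕ} [Fact p.Prime] [CharP F p] (hp : p ≠ 3) : (3 : F) ≠ 0 := by
  intro h
  have h3 : ((3 : ℕ) : F) = 0 := by exact_mod_cast h
  rw [CharP.cast_eq_zero_iff F p] at h3
  exact hp ((Nat.prime_dvd_prime_iff_eq Fact.out Nat.prime_three).1 h3)

/-- the conclusion of the first step -/
def HasField (D : ChevalleyDatum) {F : Type*} [Field F] (M : Subgroup (GL D.Idx F)) : Prop :=
  ∃ E : Subfield F, Finite E ∧ ∀ (s : Fin D.nroots) (t : F), xg D F s t ∈ M ↔ t ∈ E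

theorem stepD4 {p : ℕ} [Fact p.Prime] [CharP F p] {M : Subgroup (GL chevD4.Idx F)} [Finite M] (X : Ov ChevOkD4.good M) :
    HasField chevD4 M :=
  X.simply (p := p) (r := 18) (s := 14) (k := 19) (N := -1) (by decide +kernel) (by decide) (by decide) (by decide) (by decide)
    (by decide +kernel) (by decide +kernel) (by decide)

theorem stepE6 {p : ℕ} [Fact p.Prime] [CharP F p] {M : Subgroup (GL chevE6.Idx F)} [Finite M] (X : Ov ChevOkE6.good M) :
    HasField chevE6 M :=
  X.simply (p := p) (r := 56) (s := 42) (k := 57) (N := -1) (by decide +kernel) (by decide) (by decide) (by decide) (by decide)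
    (by decide +kernel) (by decide +kernel) (by decide)

theorem stepE7 {p : ℕ} [Fact p.Prime] [CharP F p] {M : Subgroup (GL chevE7.Idx F)} [Finite M] (X : Ov ChevOkE7.good M) :
    HasField chevE7 M :=
  X.simply (p := p) (r := 93) (s := 73) (k := 94) (N := -1) (by decide +kernel) (by decide) (by decide) (by decide) (by decide)
    (by decide +kernel) (by decide +kernel) (by decide)

theorem stepE8 {p : ℕ} [Fact p.Prime] [CharP F p] {M : Subgroup (GL chevE8.Idx F)} [Finite M] (X : Ov ChevOkE8.good M) :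
    HasField chevE8 M :=
  X.simply (p := p) (r := 162) (s := 135) (k := 163) (N := -1) (by decide +kernel) (by decide) (by decide) (by decide) (by decide)
    (by decide +kernel) (by decide +kernel) (by decide)

theorem orbG2l : orbB chevG2 oG2 (chevG2.nroots - 1) = true := by decide +kernel
theorem orbG2s : orbB chevG2 (fun s => !oG2 s) 9 = true := by decide +kernel
theorem orbB2l : orbB chevB2 oB2 (chevB2.nroots - 1) = true := by decide +kernel
theorem orbB2s : orbB chevB2 (fun s => !oB2 s) 6 = true := by decide +kernel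
theorem orbF4l : orbB chevF4 oF4 (chevF4.nroots - 1) = true := by decide +kernel
theorem orbF4s : orbB chevF4 (fun s => !oF4 s) 44 = true := by decide +kernel

theorem sqB2 : sqB chevB2 6 5 7 3 [1] [1, 0] = true := by decide +kernel
theorem sqF4 : sqB chevF4 44 29 47 6 [0, 1, 2, 1, 0] [0, 1, 2, 3, 1, 2, 0, 1, 2, 3] = true := by decide +kernel

/-- finite subfields are perfect -/
theorem Ov.perf {G : Good D} {M : Subgroup (GL D.Idx F)} (X : Ov G M) [Finite M] {p : ℕ} [Fact p.Prime] [CharP F p] {s : Fin D.nroots}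
    (hm : ∀ t u : F, xg D F s t ∈ M → xg D F s u ∈ M → xg D F s (t * u) ∈ M) {t : F} (ht : xg D F s (t ^ p) ∈ M) :
    xg D F s t ∈ M := by
  haveI := (X.finite s).to_subtype
  have hpow : ∀ (n : ℕ) (u : F), xg D F s u ∈ M → xg D F s (u ^ n) ∈ M := by
    intro n u hu
    induction n with
    | zero => rw [pow_zero]; exact X.one s
    | succ n ih => rw [pow_succ]; exact hm _ _ ih hu
  have hinj : ∀ a b : F, a ^ p = b ^ p → a = b := fun a b h => frobenius_inj F p h
  let f : {t : F | xg D F s t ∈ M} → {t : F | xg D F s t ∈ M} := fun u => ⟨(u : F) ^ p, hpow p u u.2⟩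
  have hf : Function.Injective f := fun a b h => Subtype.ext (hinj _ _ (congrArg Subtype.val h))
  obtain ⟨u, hu⟩ := Finite.injective_iff_surjective.1 hf ⟨t ^ p, ht⟩
  have h1 : (u : F) ^ p = t ^ p := congrArg Subtype.val hu
  rw [← hinj _ _ h1]
  exact u.2

theorem stepF4 {p : ℕ} [Fact p.Prime] [CharP F p] {M : Subgroup (GL chevF4.Idx F)} [Finite M] (X : Ov ChevOkF4.good M) :
    HasField chevF4 M := by
  have hA2 : ∀ t u : F, xg chevF4 F (hi ChevOkF4.good) t ∈ M → xg chevF4 F (hi ChevOkF4.good) u ∈ M →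
      xg chevF4 F (hi ChevOkF4.good) (t * u) ∈ M := fun t u ht hu =>
    X.longA2 (p := p) orbF4l (r := 24) (s := 25) (k := 26) (N := 1) (by decide) (by decide) (by decide) (by decide) (by decide)
      (by decide) (by decide +kernel) (by decide) ht hu
  have hls : ∀ t : F, xg chevF4 F (hi ChevOkF4.good) t ∈ M → xg chevF4 F 44 t ∈ M := fun t ht =>
    X.long_short (hs := ⟨44, by decide⟩) hA2 (by decide +kernel) ht
  refine X.two (hs := 44) (by decide) orbF4l orbF4s (fun t => ⟨fun ht => ?_, hls t⟩) hA2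
  by_cases hp : p = 2
  · subst hp
    have S := X.sq sqF4
    exact X.perf hA2 (S.sq_mem ht)
  · have h2 := cast_two_ne (F := F) hp
    have h3 : xg chevF4 F 29 t ∈ M := (X.orb orbF4s (by decide) (s := 29) (by decide) (by decide) t).2 ht
    have := mulN (p := p) ChevOkF4.good (r := 29) (s := 44) (k := 47) (N := 2) (by decide) (by decide) (by decide) (by decide)
        (by decide +kernel) (by exact_mod_cast h2) h3 (X.one' (by decide))
    rwa [mul_one] at this

theorem stepG2 {p : ℕ} [Fact p.Prime] [CharP F p] {M : Subgroup (GL chevG2.Idx F)} [Finite M] (X : Ov ChevOkG2.good M) :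
    HasField chevG2 M := by
  have hA2 : ∀ t u : F, xg chevG2 F (hi ChevOkG2.good) t ∈ M → xg chevG2 F (hi ChevOkG2.good) u ∈ M →
      xg chevG2 F (hi ChevOkG2.good) (t * u) ∈ M := fun t u ht hu =>
    X.longA2 (p := p) orbG2l (r := 6) (s := 10) (k := 11) (N := 1) (by decide) (by decide) (by decide) (by decide) (by decide)
      (by decide) (by decide +kernel) (by decide) ht hu
  have hls : ∀ t : F, xg chevG2 F (hi ChevOkG2.good) t ∈ M → xg chevG2 F 9 t ∈ M := fun t ht =>
    X.long_short (hs := ⟨9, by decide⟩) hA2 (by decide +kernel) ht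
  have hss : ∀ s < 12, oG2 s = false → ∀ t : F, xg chevG2 F s t ∈ M ↔ xg chevG2 F 9 t ∈ M := fun s hs hs' t =>
    X.orb orbG2s (by decide) (s := s) hs (by rw [hs']; rfl) t
  have hll : ∀ s < 12, oG2 s = true → ∀ t : F, xg chevG2 F s t ∈ M ↔ xg chevG2 F 11 t ∈ M := fun s hs hs' t =>
    X.orb orbG2l (by decide) (s := s) hs hs' t
  refine X.two (hs := 9) (by decide) orbG2l orbG2s (fun t => ⟨fun ht => ?_, hls t⟩) hA2
  by_cases hp : p = 3
  · subst hp
    have h30 : (3 : F) = 0 := by exact_mod_cast CharP.cast_eq_zero F 3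
    -- the square
    have h1 : xg chevG2 F 9 (t * t) ∈ M := by
      have h2 := comm_mem ChevOkG2.good (r := 7) (s := 8) (by decide) (by decide) (by decide) (by decide)
        ((hss 7 (by decide) (by decide) t).2 ht) ((hss 8 (by decide) (by decide) t).2 ht)
      have h3 : chevG2.commWord F 7 8 t t = [(9, 2 * (t * t)), (10, 0), (11, 0)] := by
        unfold ChevalleyDatum.commWord
        rw [show chevG2.commTerms 7 8 = [(9, -2, 1, 1), (10, -3, 2, 1), (11, 3, 1, 2)] by decide +kernel]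
        simp [h30]
        ring
      rw [h3] at h2
      have h4 : wg chevG2 F [(9, 2 * (t * t)), (10, 0), (11, 0)] = xg chevG2 F 9 (2 * (t * t)) := by
        simp [wg, xg_zero ChevOkG2.good]
      rw [h4] at h2
      have h5 : (2 : F) * (t * t) = - (t * t) := by linear_combination (t * t) * h30
      rw [h5, xg_neg_iff ChevOkG2.good] at h2
      exact h2
    -- the cube
    have h2 := comm_mem ChevOkG2.good (r := 7) (s := 6) (by decide) (by decide) (by decide) (by decide)
        ((hss 7 (by decide) (by decide) t).2 ht) (X.one' (s := 6) (by decide))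
    have h3 : chevG2.commWord F 7 6 t 1 = [(8, t), (9, t * t), (10, -(t ^ 3)), (11, -(t ^ 3))] := by
      unfold ChevalleyDatum.commWord
      rw [show chevG2.commTerms 7 6 = [(8, -1, 1, 1), (9, 1, 2, 1), (10, 1, 3, 1), (11, 1, 3, 2)] by decide +kernel]
      simp
      constructor <;> ring
    rw [h3] at h2
    have h4 : wg chevG2 F [(8, t), (9, t * t), (10, -(t ^ 3)), (11, -(t ^ 3))] =
        xg chevG2 F 8 t * (xg chevG2 F 9 (t * t) * (xg chevG2 F 10 (-(t ^ 3)) * xg chevG2 F 11 (-(t ^ 3)))) := by simp [wg]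
    rw [h4] at h2
    have h5 := (Subgroup.mul_mem_cancel_left _ ((hss 8 (by decide) (by decide) t).2 ht)).1 h2
    have h6 := (Subgroup.mul_mem_cancel_left _ h1).1 h5
    -- commutator with `x_b(1)`
    have h7 : xg chevG2 F 11 (t ^ 3) ∈ M := by
      have e1 : xg chevG2 F 10 (-(t ^ 3)) * xg chevG2 F 6 1 = xg chevG2 F 6 1 * xg chevG2 F 10 (-(t ^ 3)) * xg chevG2 F 11 (t ^ 3) := by
        rw [xg_comm ChevOkG2.good (F := F) (r := 6) (s := 10) (by decide) (by decide) (by decide) (by decide) 1 (-(t ^ 3))]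
        congr 1
        unfold ChevalleyDatum.commWord
        rw [show chevG2.commTerms 6 10 = [(11, 1, 1, 1)] by decide +kernel]
        simp [wg]
      have e2 : xg chevG2 F 11 (-(t ^ 3)) * xg chevG2 F 6 1 = xg chevG2 F 6 1 * xg chevG2 F 11 (-(t ^ 3)) := by
        have := comm_of_nil ChevOkG2.good (r := (⟨6, by decide⟩ : Fin chevG2.nroots)) (s := (⟨11, by decide⟩ : Fin chevG2.nroots))
          (by decide) (by decide) (by decide +kernel) 1 (-(t ^ 3))
        exact this
      have e3 : xg chevG2 F 11 (t ^ 3) * xg chevG2 F 11 (-(t ^ 3)) = xg chevG2 F 11 (-(t ^ 3)) * xg chevG2 F 11 (t ^ 3) := by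
        rw [xg_add ChevOkG2.good, xg_add ChevOkG2.good, add_comm]
      have e4 : xg chevG2 F 11 (t ^ 3) = (xg chevG2 F 6 1 * (xg chevG2 F 10 (-(t ^ 3)) * xg chevG2 F 11 (-(t ^ 3))))⁻¹ *
          ((xg chevG2 F 10 (-(t ^ 3)) * xg chevG2 F 11 (-(t ^ 3))) * xg chevG2 F 6 1) := by
        rw [eq_inv_mul_iff_mul_eq]
        calc xg chevG2 F 6 1 * (xg chevG2 F 10 (-(t ^ 3)) * xg chevG2 F 11 (-(t ^ 3))) * xg chevG2 F 11 (t ^ 3)
            = xg chevG2 F 6 1 * xg chevG2 F 10 (-(t ^ 3)) * (xg chevG2 F 11 (-(t ^ 3)) * xg chevG2 F 11 (t ^ 3)) := by group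
          _ = (xg chevG2 F 6 1 * xg chevG2 F 10 (-(t ^ 3)) * xg chevG2 F 11 (t ^ 3)) * xg chevG2 F 11 (-(t ^ 3)) := by rw [← e3]; group
          _ = xg chevG2 F 10 (-(t ^ 3)) * (xg chevG2 F 6 1 * xg chevG2 F 11 (-(t ^ 3))) := by rw [← e1]; group
          _ = _ := by rw [← e2]; group
      rw [e4]
      have h8 := X.one' (s := 6) (by decide)
      exact mul_mem (inv_mem (mul_mem h8 h6)) (mul_mem h6 h8)
    exact X.perf hA2 h7
  · have h3 := cast_three_ne (F := F) hp
    have := mulN (p := p) ChevOkG2.good (r := 7) (s := 9) (k := 10) (N := 3) (by decide) (by decide) (by decide) (by decide)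
        (by decide +kernel) (by exact_mod_cast h3) ((hss 7 (by decide) (by decide) t).2 ht) (X.one' (by decide))
    rw [mul_one] at this
    exact (hll 10 (by decide) (by decide) t).1 this

theorem stepB2 {p : ℕ} [Fact p.Prime] [CharP F p] {M : Subgroup (GL chevB2.Idx F)} [Finite M] (X : Ov ChevOkB2.good M) :
    HasField chevB2 M := by
  have hhi : ((hi ChevOkB2.good : Fin chevB2.nroots) : ℕ) = 7 := rfl
  by_cases hp : p = 2
  · subst hp
    have S := X.sq sqB2
    have h1 : {t : F | xg chevB2 F 6 t ∈ M}.Finite := X.finite ⟨6, by decide⟩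
    have h2 : {t : F | xg chevB2 F 6 t * xg chevB2 F 7 (t ^ 2) ∈ M}.Finite := by
      have : Finite {t : F | xg chevB2 F 6 t * xg chevB2 F 7 (t ^ 2) ∈ M} := by
        let f : {t : F | xg chevB2 F 6 t * xg chevB2 F 7 (t ^ 2) ∈ M} → M := fun t => ⟨_, t.2⟩
        refine Finite.of_injective f (fun a b h => Subtype.ext ?_)
        have h3 : xg chevB2 F 6 a * xg chevB2 F 7 ((a : F) ^ 2) = xg chevB2 F 6 b * xg chevB2 F 7 ((b : F) ^ 2) :=
          congrArg Subtype.val h
        have h4 : Lead (⟨6, by decide⟩ : Fin chevB2.nroots) (a : F) (xg chevB2 F 6 a * xg chevB2 F 7 ((a : F) ^ 2)) :=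
          ⟨_, xg_mem_XS (r := (⟨7, by decide⟩ : Fin chevB2.nroots)) (A := Gt (⟨6, by decide⟩ : Fin chevB2.nroots))
            (by constructor <;> decide) _, rfl⟩
        have h5 : Lead (⟨6, by decide⟩ : Fin chevB2.nroots) (b : F) (xg chevB2 F 6 a * xg chevB2 F 7 ((a : F) ^ 2)) :=
          ⟨_, xg_mem_XS (r := (⟨7, by decide⟩ : Fin chevB2.nroots)) (A := Gt (⟨6, by decide⟩ : Fin chevB2.nroots))
            (by constructor <;> decide) _, h3⟩
        exact lead_unique ChevOkB2.good X.hD (by unfold Pos; decide) h4 h5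
      exact Set.toFinite _
    obtain ⟨h3, h4, -⟩ := S.main h1 h2
    exact X.two (hs := 6) (by decide) orbB2l orbB2s h3 h4
  · have h2 := cast_two_ne (F := F) hp
    have hss : ∀ t u : F, xg chevB2 F 6 t ∈ M → xg chevB2 F 6 u ∈ M → xg chevB2 F 7 (t * u) ∈ M := by
      intro t u ht hu
      have h3 : ∀ t : F, xg chevB2 F 5 t ∈ M ↔ xg chevB2 F 6 t ∈ M := fun t =>
        X.orb orbB2s (by decide) (s := 5) (by decide) (by decide) t
      exact mulN (p := p) ChevOkB2.good (r := 5) (s := 6) (k := 7) (N := 2) (by decide) (by decide) (by decide) (by decide)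
        (by decide +kernel) (by exact_mod_cast h2) ((h3 t).2 ht) hu
    have hsl : ∀ t : F, xg chevB2 F 6 t ∈ M → xg chevB2 F 7 t ∈ M := fun t ht => by
      have := hss t 1 ht (X.one' (by decide))
      rwa [mul_one] at this
    have hls : ∀ t : F, xg chevB2 F 7 t ∈ M → xg chevB2 F 6 t ∈ M := by
      intro t ht
      have h4 : xg chevB2 F 4 t ∈ M := (X.orb orbB2l (by decide) (s := 4) (by decide) (by decide) t).2 ht
      have h5 := comm_mem ChevOkB2.good (r := 5) (s := 4) (by decide) (by decide) (by decide) (by decide) (X.one' (by decide)) h4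
      have h6 : chevB2.commWord F 5 4 1 t = [(6, t), (7, -t)] := by
        unfold ChevalleyDatum.commWord
        rw [show chevB2.commTerms 5 4 = [(6, -1, 1, 1), (7, -1, 2, 1)] by decide +kernel]
        simp
      rw [h6] at h5
      have h7 : wg chevB2 F [(6, t), (7, -t)] = xg chevB2 F 6 t * xg chevB2 F 7 (-t) := by simp [wg]
      rw [h7] at h5
      exact (Subgroup.mul_mem_cancel_right _ (xg_neg_mem ChevOkB2.good ht)).1 h5
    exact X.two (hs := 6) (by decide) orbB2l orbB2s (fun t => ⟨hsl t, hls t⟩)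
      (fun t u ht hu => hss t u (hls t ht) (hls u hu))

end Cfsg.Agent.Lib.Sfo
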