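import Cfsg.Agent.Lib.SfoEven
import Cfsg.Agent.Lib.ChevOkG2
import Cfsg.Agent.Lib.ChevOkB2
import Cfsg.Agent.Lib.ChevOkD4
import Cfsg.Agent.Lib.ChevOkF4
import Cfsg.Agent.Lib.ChevOkE6
import Cfsg.Agent.Lib.ChevOkE7
import Cfsg.Agent.Lib.ChevOkE8
set_option autoImplicit false
set_option linter.unusedSectionVars false
set_option linter.unusedVariables false

/-!
Finite overgroups of subfield groups: checks of the combinatorial data (helper44).
-/

namespace Cfsg.Agent.Lib.Sfo
open Cfsg.Lie Cfsg.Agent.Lib.ChevX Cfsg.Agent.Lib.ChevGood Cfsg.Agent.Lib.ChevRel Cfsg.Agent.Lib.ChevNPerm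
  Cfsg.Agent.Lib.ChevBruhat Cfsg.Agent.Lib.ChevRadCent Cfsg.Agent.Lib.ChevFix Cfsg.Agent.Lib.ChevInv
open Cfsg.Agent.Lib.ChevClosed hiding pr
open scoped MatrixGroups Matrix

/-- the combined check: `O` is the orbit of the highest root -/
def tabB (D : ChevalleyDatum) (O : ℕ → Bool) : Bool :=
  ((List.range D.nroots).all fun r => decide (D.nroots / 2 ≤ r → 0 ≤ pr D (D.nroots - 1) r)) &&
  ((List.range D.nroots).all fun r => decide (2 ≤ pr D (D.nroots - 1) r → r = D.nroots - 1)) &&
  ((List.range D.rank).all fun i => decide (0 < pr D (D.nroots - 1) (D.simple i)) || (List.range D.nroots).any fun s =>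
    decide (0 < pr D (D.nroots - 1) s) && decide (0 < pr D (D.nroots - 1) (D.reflectRoot i s)) &&
      (decide (D.cartan i s = 1) || decide (D.cartan i s = -1))) &&
  ((List.range D.nroots).all fun s => !decide (D.nroots / 2 ≤ s) || !decide (pr D (D.nroots - 1) s = 0) ||
    (List.range D.nroots).any fun r => decide (0 < pr D (D.nroots - 1) r) && match D.chainEntry r s with
      | [] => false
      | (k, M) :: _ => decide (k ≠ D.nroots - 1) && decide (k < D.nroots) && (decide (M = 1) || decide (M = -1))) &&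
  O (D.nroots - 1) &&
  ((List.range D.nroots).all fun s => !O s || (List.range D.rank).all fun i => O (D.reflectRoot i s)) &&
  ((List.range D.nroots).all fun s => !O s || decide (s = D.nroots - 1) || (List.range D.rank).any fun i => decide (s < D.reflectRoot i s)) &&
  ((List.range D.nroots).all fun s => !O s || decide (s = D.nroots - 1) || decide (s = D.neg (D.nroots - 1)) ||
    match D.commTerms (D.nroots - 1) s with
    | [] => true
    | [(k, N, 1, 1)] => O k && decide (k < D.nroots) && (decide (N = 1) || decide (N = -1)) && decide (k ≠ D.nroots - 1) &&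
        decide (k ≠ D.neg (D.nroots - 1)) && decide (k ≠ s) && decide (k ≠ D.neg s) &&
        decide (D.commTerms (D.nroots - 1) k = []) && decide (D.commTerms s k = [])
    | _ => false) &&
  ((List.range D.nroots).any fun s => decide (pr D (D.nroots - 1) s = 1)) &&
  ((List.range D.nroots).any fun r => decide (pr D (D.nroots - 1) r = 0) && (List.range D.rank).any fun i =>
    decide (0 < pr D (D.nroots - 1) (D.reflectRoot i r)))

/-- the combinatorial data -/
structure Dat {D : ChevalleyDatum} (G : Good D) (O : ℕ → Bool) : Prop where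
  par : Par G
  pair : Pair G
  one : ∃ s : Fin D.nroots, pr D (hi G) s = 1
  orth : ∃ (r r1 : Fin D.nroots) (l : List (Fin D.rank)), pr D (hi G) r = 0 ∧ r1 ∈ Qd G ∧ wl G l r1 = r
  orb : ∀ s : Fin D.nroots, Orb G s ↔ O s = true

variable {D : ChevalleyDatum}

theorem dat_of (G : Good D) {O : ℕ → Bool} (h : tabB D O = true) : Dat G O := by
  unfold tabB at h
  simp only [Bool.and_eq_true] at h
  obtain ⟨⟨⟨⟨⟨⟨⟨⟨⟨h1, h2⟩, h3⟩, h4⟩, h5⟩, h6⟩, h7⟩, h8⟩, h9⟩, h10⟩ := h
  simp only [List.all_eq_true, List.any_eq_true, List.mem_range, decide_eq_true_eq, Bool.or_eq_true, Bool.and_eq_true,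
    Bool.not_eq_true', decide_eq_false_iff_not] at h1 h2 h3 h4 h5 h6 h7 h8 h9 h10
  have hhi : ((hi G : Fin D.nroots) : ℕ) = D.nroots - 1 := rfl
  have horb : ∀ s : Fin D.nroots, Orb G s ↔ O s = true := by
    intro s
    constructor
    · rintro ⟨l, rfl⟩
      induction l with
      | nil =>
        have : wl G ([] : List (Fin D.rank)) (hi G) = hi G := by simp [wl]
        rw [this]; exact h5
      | cons i l ih =>
        have : wl G (i :: l) (hi G) = refl G i (wl G l (hi G)) := by simp [wl]
        rw [this]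
        rcases h6 (wl G l (hi G)) (wl G l (hi G)).2 with h | h
        · rw [ih] at h; exact absurd h (by simp)
        · exact h i i.2
    · intro hs
      have key : ∀ (m : ℕ) (s : Fin D.nroots), D.nroots - s = m → O s = true → Orb G s := by
        intro m
        induction m using Nat.strong_induction_on with
        | _ m ih =>
          intro s hm hs
          rcases h7 s s.2 with (h | h) | ⟨i, hi', h⟩
          · rw [hs] at h; exact absurd h (by simp)
          · refine ⟨[], ?_⟩
            have : wl G ([] : List (Fin D.rank)) (hi G) = hi G := by simp [wl]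
            rw [this]
            exact Fin.ext (by rw [h]; rfl)
          · have h11 : O (refl G ⟨i, hi'⟩ s) = true := by
              rcases h6 s s.2 with h | h
              · rw [hs] at h; exact absurd h (by simp)
              · exact h i hi'
            have h12 : (s : ℕ) < (refl G ⟨i, hi'⟩ s : Fin D.nroots) := h
            obtain ⟨l, hl⟩ := ih (D.nroots - (refl G ⟨i, hi'⟩ s : Fin D.nroots)) (by
              have := (refl G ⟨i, hi'⟩ s : Fin D.nroots).2; omega) _ rfl h11
            refine ⟨⟨i, hi'⟩ :: l, ?_⟩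
            have : wl G (⟨i, hi'⟩ :: l) (hi G) = refl G ⟨i, hi'⟩ (wl G l (hi G)) := by simp [wl]
            rw [this, hl, ← Equiv.Perm.mul_apply, refl_mul_self G, Equiv.Perm.one_apply]
      exact key _ s rfl hs
  refine ⟨⟨?_, ?_, ?_, ?_⟩, ⟨?_⟩, ?_, ?_, horb⟩
  · intro r hr
    exact h1 r r.2 hr
  · intro r hr
    exact Fin.ext (h2 r r.2 hr)
  · intro i
    rcases h3 i i.2 with h | ⟨s, hs, ⟨ha, hb⟩, hc⟩
    · exact Or.inl h
    · exact Or.inr ⟨⟨s, hs⟩, ha, hb, hc⟩
  · intro s hs hs0
    rcases h4 s s.2 with (h | h) | ⟨r, hr, ha, hb⟩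
    · exact absurd hs h
    · exact absurd hs0 h
    · rcases hE : D.chainEntry r s with _ | ⟨⟨k, M⟩, tl⟩
      · rw [hE] at hb; simp at hb
      · rw [hE] at hb
        simp only [Bool.and_eq_true, Bool.or_eq_true, decide_eq_true_eq] at hb
        obtain ⟨⟨hk1, hk2⟩, hM⟩ := hb
        exact ⟨⟨r, hr⟩, ⟨k, hk2⟩, M, tl, ha, fun h => hk1 (congrArg Fin.val h), hE, hM⟩
  · intro s hs
    rcases h8 s s.2 with ((h | h) | h) | h
    · rw [(horb s).1 hs] at h; exact absurd h (by simp)
    · exact Or.inl (Fin.ext h)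
    · exact Or.inr (Or.inl (Fin.ext h))
    · rcases hE : D.commTerms (D.nroots - 1) s with _ | ⟨⟨k, N, i, j⟩, tl⟩
      · exact Or.inr (Or.inr (Or.inl hE))
      · rw [hE] at h
        split at h
        · next heq => exact absurd heq (by simp)
        · next k' N' heq =>
          simp only [List.cons.injEq, Prod.mk.injEq] at heq
          obtain ⟨⟨rfl, rfl, rfl, rfl⟩, rfl⟩ := heq
          simp only [Bool.and_eq_true, Bool.or_eq_true, decide_eq_true_eq] at h
          obtain ⟨⟨⟨⟨⟨⟨⟨⟨a1, a2⟩, a3⟩, a4⟩, a5⟩, a6⟩, a7⟩, a8⟩, a9⟩ := h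
          exact Or.inr (Or.inr (Or.inr ⟨⟨k, a2⟩, N, (horb _).2 a1, hE, a3, fun h => a4 (congrArg Fin.val h),
            fun h => a5 (congrArg Fin.val h), fun h => a6 (congrArg Fin.val h), fun h => a7 (congrArg Fin.val h), a8, a9⟩))
        · exact absurd h (by simp)
  · obtain ⟨s, hs, h⟩ := h9
    exact ⟨⟨s, hs⟩, h⟩
  · obtain ⟨r, hr, h0, i, hi', h⟩ := h10
    refine ⟨⟨r, hr⟩, refl G ⟨i, hi'⟩ ⟨r, hr⟩, [⟨i, hi'⟩], h0, h, ?_⟩
    have h11 : ∀ x, wl G [(⟨i, hi'⟩ : Fin D.rank)] x = refl G ⟨i, hi'⟩ x := fun x => by simp [wl]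
    rw [h11, ← Equiv.Perm.mul_apply, refl_mul_self G, Equiv.Perm.one_apply]

end Cfsg.Agent.Lib.Sfo
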