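import Cfsg.Agent.Lib.SftDic
set_option autoImplicit false
set_option linter.unusedSectionVars false
set_option linter.unusedVariables false

/-!
Subgroups of twisted groups containing the elements over the ground field: the whole group (helper44).
-/

namespace Cfsg.Agent.Lib.Sft
open Cfsg.Lie Cfsg.Agent.Lib.ChevX Cfsg.Agent.Lib.ChevGood Cfsg.Agent.Lib.ChevRel Cfsg.Agent.Lib.ChevNPerm
  Cfsg.Agent.Lib.ChevBruhat Cfsg.Agent.Lib.ChevRadCent Cfsg.Agent.Lib.ChevFix Cfsg.Agent.Lib.ChevInv Cfsg.Agent.Lib.Sfo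
  Cfsg.Agent.Lib.TwFix Cfsg.Agent.Lib.TwTab
open Cfsg.Agent.Lib.ChevClosed hiding pr
open scoped MatrixGroups Matrix

variable {D : ChevalleyDatum} {F : Type*} [Field F]

section
variable {T : TwSys D F} {k : ℕ} {W : TwGen T k} {Y : Gr T.G} {σ : F ≃+* F} (X : TS T W Y σ)
  {H : Subgroup (GL D.Idx F)} (Z : TH T σ H)
include X

theorem lift_of_as {R : TwRk T} {B : TwBlk R W} (hlev : ∀ r, B.lev r = 0) {r : Fin D.nroots} (hr : Pos D r) {t : F}
    (h : t ∈ AS T Y H r) : B.Lift H r t := by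
  obtain ⟨y, hy, h1, h2⟩ := h
  exact ⟨y, hy, XS_mono (SB_sup hlev) (co_sdiff X hr h1 h2)⟩

include Z

theorem as_ob {β : Fin D.nroots} (hβ : Pos D β) (hall : ∀ t, t ∈ AS T Y H β) {r : Fin D.nroots} (hr : r ∈ Ob T β) :
    ∀ t, t ∈ AS T Y H r := by
  obtain ⟨m, rfl⟩ := hr
  induction m with
  | zero => simpa using hall
  | succ m ih =>
    intro t
    rw [pow_succ', Equiv.Perm.mul_apply]
    obtain ⟨y, hy, h1, h2⟩ := ih (σ.symm ((T.ε ((T.ρ ^ m) β))⁻¹ * t))
    refine ⟨y, hy, ?_, ?_⟩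
    · rw [ob_eq T (ob_ρ T _)]; exact h1
    · have := X.co_fix ((TwGen.ρ_pow_pos m β).2 hβ) (Z.le hy) h2
      rw [RingEquiv.apply_symm_apply, ← mul_assoc, mul_inv_cancel₀ (T.ε_ne _), one_mul] at this
      exact this

theorem full_lift {R : TwRk T} {B : TwBlk R W} (hlev : ∀ r, B.lev r = 0) {β : Fin D.nroots} (hβ : Pos D β)
    (hall : ∀ t, t ∈ AS T Y H β)
    (reach : ∀ r, Pos D r → T.ρ r ≠ r → r ∈ Ob T β ∨ ∃ j, Pos D (W.wj j r) ∧ Y.h r < Y.h (W.wj j r)) :
    ∀ r, Pos D r → ∀ t ∈ TwRk.Tset T r, B.Lift H r t := by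
  obtain ⟨M, hM⟩ := bound_h Y
  have key : ∀ (m : ℕ) (r : Fin D.nroots), M ≤ Y.h r + m → Pos D r → ∀ t ∈ TwRk.Tset T r, B.Lift H r t := by
    intro m
    induction m with
    | zero =>
      intro r hr
      have := hM r
      omega
    | succ m ih =>
      intro r hm hr
      by_cases hρ : T.ρ r = r
      · intro t ht
        have h3 := (X.xg_fix_iff hρ t).1 (ht hρ)
        refine ⟨xg D F r t, xg_mem_H X Z hρ h3, ?_⟩
        unfold TwFix.Co
        rw [inv_mul_cancel]; exact one_mem _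
      · rcases reach r hr hρ with h | ⟨j, hp, hj⟩
        · intro t _
          exact lift_of_as X hlev hr (as_ob X Z hβ hall h t)
        · have h1 := ih _ (by omega) hp
          have hnH : W.nj j ∈ H := Z.ge _ (W.nj_mem_fix j) (em_nl T.G _ _)
          have h2 := B.lift_conj Z.le (W.nj_mem_N j) hnH (W.mono_nj j) h1
          have h3 : W.wj j (W.wj j r) = r := by
            rw [← Equiv.Perm.mul_apply, show W.wj j * W.wj j = 1 from W.sq j, Equiv.Perm.one_apply]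
          rwa [h3] at h2
  intro r hr
  exact key M r (by omega) hr

theorem full_U {R : TwRk T} {B : TwBlk R W} (hlev : ∀ r, B.lev r = 0) {β : Fin D.nroots} (hβ : Pos D β)
    (hall : ∀ t, t ∈ AS T Y H β)
    (reach : ∀ r, Pos D r → T.ρ r ≠ r → r ∈ Ob T β ∨ ∃ j, Pos D (W.wj j r) ∧ Y.h r < Y.h (W.wj j r)) : D.posUnipotent F ⊓ T.fix ≤ H := by
  have h := B.XS_fix_le (closed_posS T.G) (stab_pos T) (union_pos B) Z.le
    (fun r hr => full_lift X Z (B := B) hlev hβ hall reach r hr)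
  rwa [XS_posS T.G] at h

end

/-- the blocks of negative roots become positive -/
def pnB (C : Tab) : Bool :=
  Tab.ball C.nz fun j => (C.jwN j).all fun i => Nat.ble (C.n / 2) (C.wlN (C.jwN j) (C.n - 1 - C.sim i))

section fam
variable {G : Good D} {C : Tab} (S : SigData G C F) (h1 : C.chk1 D = true) (h2 : C.chk2 = true)
  (h3 : C.chk3 D = true) (hD : Listed D) {q : ℕ} (he : ∀ r, S.e r = q) (hJ : C.chkJ D = true)
  (h4 : C.chk4 D 0 = true) (h5 : C.chk5 = true)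

theorem BX_conj_U (G : Good D) {n : GL D.Idx F} {w : Equiv.Perm (Fin D.nroots)} (hw : Mono G n w) {L : List ℕ}
    (hL : ∀ r ∈ L, ∃ h : r < D.nroots, Pos D (w ⟨r, h⟩)) (t : F) : n * BX D F q L t * n⁻¹ ∈ D.posUnipotent F := by
  induction L generalizing t with
  | nil =>
    show n * 1 * n⁻¹ ∈ _
    rw [mul_one, mul_inv_cancel]; exact one_mem _
  | cons r L ih =>
    show n * (xg D F r t * BX D F q L (t ^ q)) * n⁻¹ ∈ _
    have e : n * (xg D F r t * BX D F q L (t ^ q)) * n⁻¹ = (n * xg D F r t * n⁻¹) * (n * BX D F q L (t ^ q) * n⁻¹) := by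
      group
    rw [e]
    obtain ⟨h, hp⟩ := hL r (by simp)
    obtain ⟨-, c, hc0, -, hc⟩ := hw
    have h5 := hc ⟨r, h⟩ t
    refine mul_mem ?_ (ih (fun r hr => hL r (by simp [hr])) _)
    rw [show ((⟨r, h⟩ : Fin D.nroots) : ℕ) = r from rfl] at h5
    rw [h5]
    exact xU G hp _

/-- the group is everything as soon as it contains the unipotent elements -/
theorem full_of_U (K : TwAll (blkG S h1 h2 h3 hD he hJ h4 h5) (Γ0 D F C q)) {σ : F ≃+* F} {H : Subgroup (GL D.Idx F)}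
    (Z : TH (S.sys h1 h2 hD) σ H) (hpn : pnB C = true) (hU : D.posUnipotent F ⊓ (S.sys h1 h2 hD).fix ≤ H) :
    H = (S.sys h1 h2 hD).fix := by
  refine le_antisymm Z.le ?_
  rw [← K.eq_fix]
  have hn := (Tab.c1 h1).1
  have hrank := (Tab.c1 h1).2.1
  have hle := Γ0_le S h1 h2 h3 hD he hJ
  apply (Subgroup.closure_le _).mpr
  rintro g ⟨j, hj, t, ht, rfl | rfl⟩
  · refine hU ⟨?_, hle (BX_mem_Γ0 hj ht).1⟩
    rw [← XS_posS G]
    apply BX_mem_XS
    intro r hr
    obtain ⟨i, hi, rfl⟩ := List.mem_map.mp hr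
    have h7 := (((Tab.c3 h3).2 j hj).1 i hi).1
    have h8 := (Tab.c1 h1).2.2.1 i (by omega)
    refine ⟨by omega, ?_⟩
    show D.nroots / 2 ≤ C.sim i
    have := h8.2.1
    rw [hn] at this; exact this
  · have h6 : (nl D F (jwF h1 j)) * BX D F q (((C.jwN j).map C.sim).map D.neg) t * (nl D F (jwF h1 j))⁻¹ ∈ H := by
      have hnf := hle (nl_mem_Γ0 S h1 h2 he hJ h3 hj)
      have hbf := hle (BX_mem_Γ0 (D := D) hj ht).2
      refine hU ⟨?_, (S.sys h1 h2 hD).fix.mul_mem ((S.sys h1 h2 hD).fix.mul_mem hnf hbf) ((S.sys h1 h2 hD).fix.inv_mem hnf)⟩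
      refine BX_conj_U G (mono_nl G (jwF h1 j)) ?_ t
      intro r hr
      obtain ⟨x, hx, rfl⟩ := List.mem_map.mp hr
      obtain ⟨i, hi, rfl⟩ := List.mem_map.mp hx
      have h7 := (((Tab.c3 h3).2 j hj).1 i hi).1
      have h8 := (Tab.c1 h1).2.2.1 i (by omega)
      have h9 : C.sim i < D.nroots := by omega
      have h10 : D.neg (C.sim i) = C.n - 1 - C.sim i := by rw [hn]; exact G.neg_eq _ h9
      refine ⟨neg_lt G h9, ?_⟩
      show D.nroots / 2 ≤ ((wl G (jwF h1 j) ⟨D.neg (C.sim i), neg_lt G h9⟩ : Fin D.nroots) : ℕ)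
      rw [wlj_eq h1 h3 hj]
      show D.nroots / 2 ≤ C.wlN (C.jwN j) (D.neg (C.sim i))
      rw [h10]
      unfold pnB at hpn
      rw [Tab.ball_iff] at hpn
      have h11 := List.all_eq_true.mp (hpn j hj) i hi
      have h12 : C.n / 2 ≤ C.wlN (C.jwN j) (C.n - 1 - C.sim i) := Nat.ble_eq.mp h11
      have h13 : D.nroots / 2 = C.n / 2 := by rw [hn]
      rw [h13]; exact h12
    have hnH : nl D F (jwF h1 j) ∈ H := Z.ge _ (hle (nl_mem_Γ0 S h1 h2 he hJ h3 hj)) (em_nl G _ _)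
    have e : BX D F q (((C.jwN j).map C.sim).map D.neg) t = (nl D F (jwF h1 j))⁻¹ * ((nl D F (jwF h1 j)) *
        BX D F q (((C.jwN j).map C.sim).map D.neg) t * (nl D F (jwF h1 j))⁻¹) * nl D F (jwF h1 j) := by group
    rw [e]
    exact mul_mem (mul_mem (inv_mem hnH) h6) hnH

end fam

end Cfsg.Agent.Lib.Sft
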