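import Cfsg.Agent.Lib.SftAll
set_option autoImplicit false
set_option linter.unusedSectionVars false
set_option linter.unusedVariables false

/-!
Subgroups of twisted groups containing the elements over the ground field: the alternative (helper44).
-/

namespace Cfsg.Agent.Lib.Sft
open Cfsg.Lie Cfsg.Agent.Lib.ChevX Cfsg.Agent.Lib.ChevGood Cfsg.Agent.Lib.ChevRel Cfsg.Agent.Lib.ChevNPerm
  Cfsg.Agent.Lib.ChevBruhat Cfsg.Agent.Lib.ChevRadCent Cfsg.Agent.Lib.ChevFix Cfsg.Agent.Lib.ChevInv Cfsg.Agent.Lib.Sfo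
  Cfsg.Agent.Lib.TwFix Cfsg.Agent.Lib.TwTab
open Cfsg.Agent.Lib.ChevClosed hiding pr
open scoped MatrixGroups Matrix

variable {D : ChevalleyDatum} {F : Type*} [Field F]

/-- the check of the top orbit -/
def btB (C : Tab) (D : ChevalleyDatum) (H : List ℕ) (d β : ℕ) (ex : List ℕ) : Bool :=
  Nat.blt β C.n && Nat.ble (C.n / 2) β && (C.rh β != β) && (pr D (C.n - 1) β == 1) &&
  Tab.ball C.n (fun s => !Nat.ble (C.n / 2) s || H.getD s 0 != H.getD β 0 || Tab.bex d fun m => C.rhP m β == s) &&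
  Tab.ball C.n (fun s => !Nat.ble (C.n / 2) s || !Nat.ble (H.getD β 0 + 1) (H.getD s 0) || C.rh s == s) &&
  Tab.ball C.n (fun s => !Nat.ble (C.n / 2) s || C.rh s == s || (Tab.bex d fun m => C.rhP m β == s) ||
    Tab.bex C.nz fun j => Nat.ble (C.n / 2) (C.wlN (C.jwN j) s) && Nat.blt (H.getD s 0) (H.getD (C.wlN (C.jwN j) s) 0)) &&
  Tab.ball C.n (fun r => !Nat.ble (C.n / 2) r || C.rh r == r || Nat.ble (H.getD β 0) (H.getD r 0) || ex.contains r ||
    Tab.bex C.n fun s => Nat.ble (C.n / 2) s && r != s && match hitO D s r with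
      | some (k, N) => Nat.blt k C.n && C.rh k != k && (N == 1 || N == -1) && (Nat.ble (C.n / 2) k) &&
          (H.getD k 0 == H.getD s 0 + H.getD r 0) && Tab.ball d fun m =>
          C.rhP m s == s || Tab.ball C.n fun r' => !Nat.ble (C.n / 2) r' || r' == C.rhP m s ||
            match hitO D (C.rhP m s) r' with
            | some (k', _) => k' != k
            | none => true
      | none => false)

section fam
variable {G : Good D} {C : Tab} (S : SigData G C F) (h1 : C.chk1 D = true) (h2 : C.chk2 = true)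
  (h3 : C.chk3 D = true) (hD : Listed D) {q : ℕ} (he : ∀ r, S.e r = q) (hJ : C.chkJ D = true)
  (h4 : C.chk4 D 0 = true) (h5 : C.chk5 = true)

theorem Ob_mem {r : Fin D.nroots} {s : Fin D.nroots} {m : ℕ} (h : C.rhP m r = s) : s ∈ Ob (S.sys h1 h2 hD) r :=
  ⟨m, Fin.ext (by rw [rhP_eq S h1 h2 hD]; exact h)⟩

/-- the alternative -/
theorem dicho (K : TwAll (blkG S h1 h2 h3 hD he hJ h4 h5) (Γ0 D F C q)) {Ht : List ℕ} {d : ℕ}
    (hg : grB D Ht = true) (ht : tsB C D Ht d = true) {σ : F ≃+* F}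
    (X : TS (S.sys h1 h2 hD) (genG S h1 h2 h3 hD he hJ) (grOf G hg) σ) (P : TC (S.sys h1 h2 hD)) (V : TL (S.sys h1 h2 hD))
    {H : Subgroup (GL D.Idx F)} (Z : TH (S.sys h1 h2 hD) σ H) (hpn : pnB C = true) {β : Fin D.nroots} {ex : List ℕ}
    (hb : btB C D Ht d β ex = true)
    (hex : ∀ r : Fin D.nroots, (r : ℕ) ∈ ex → Pos D r →
      ((∀ k' : Fin D.nroots, Pos D k' → (S.sys h1 h2 hD).ρ k' ≠ k' → (grOf G hg).h r < (grOf G hg).h k' → ∀ (t : F) v,
        v ∈ H → (grOf G hg).Co k' t v → σ t = t) → ∀ (t : F) v, v ∈ H → (grOf G hg).Co r t v → σ t = t))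
    (hA : (∃ t ∈ AS (S.sys h1 h2 hD) (grOf G hg) H β, σ t ≠ t) → ∀ t, t ∈ AS (S.sys h1 h2 hD) (grOf G hg) H β) :
    H = (S.sys h1 h2 hD).fix ∨ ∀ g ∈ H, em D (σ : F →+* F) g = g := by
  obtain ⟨ht1, ht2, ht3⟩ := tsB_iff ht
  have hn := (Tab.c1 h1).1
  have hrank := (Tab.c1 h1).2.1
  have hlev : ∀ r, (blkG S h1 h2 h3 hD he hJ h4 h5).lev r = 0 := fun r => (ht1 r (by omega)).2.2.2.2.1
  unfold btB at hb
  simp only [Bool.and_eq_true, Tab.ball_iff, Tab.bex_iff, beq_iff_eq, bne_iff_ne, Bool.or_eq_true,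
    Bool.not_eq_true', Nat.blt_eq, Nat.ble_eq] at hb
  obtain ⟨⟨⟨⟨⟨⟨⟨a1, a2⟩, a3⟩, a4⟩, a5⟩, a6⟩, a7⟩, a8⟩ := hb
  have hposN : ∀ s : Fin D.nroots, Pos D s → Nat.ble (C.n / 2) s = true := fun s hs =>
    Nat.ble_eq.mpr (by rw [hn]; exact hs)
  have hβ : Pos D β := by unfold Pos; rw [hn] at a2; exact a2
  have hβ2 : (S.sys h1 h2 hD).ρ β ≠ β := fun h => a3 (congrArg Fin.val h)
  have hob : ∀ s : Fin D.nroots, Pos D s → (grOf G hg).h s = (grOf G hg).h β → s ∈ Ob (S.sys h1 h2 hD) β := by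
    intro s hs hh
    rcases a5 s (by omega) with (h | h) | ⟨m, hm, h⟩
    · rw [hposN s hs] at h; exact absurd h (by simp)
    · exact absurd hh h
    · exact Ob_mem S h1 h2 hD h
  have htop : ∀ s : Fin D.nroots, Pos D s → (grOf G hg).h β + 1 ≤ (grOf G hg).h s → (S.sys h1 h2 hD).ρ s = s := by
    intro s hs hh
    rcases a6 s (by omega) with (h | h) | h
    · rw [hposN s hs] at h; exact absurd h (by simp)
    · have h9 : Nat.ble (Ht.getD β 0 + 1) (Ht.getD s 0) = true := Nat.ble_eq.mpr hh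
      rw [h9] at h; exact absurd h (by simp)
    · exact Fin.ext h
  by_cases hc : ∃ t ∈ AS (S.sys h1 h2 hD) (grOf G hg) H β, σ t ≠ t
  · left
    refine full_of_U S h1 h2 h3 hD he hJ h4 h5 K Z hpn (full_U X Z hlev hβ (hA hc) ?_)
    intro r hr hρ
    rcases a7 r (by omega) with ((h | h) | ⟨m, hm, h⟩) | ⟨j, hj, h, h'⟩
    · rw [hposN r hr] at h; exact absurd h (by simp)
    · exact absurd (Fin.ext h) hρ
    · exact Or.inl (Ob_mem S h1 h2 hD h)
    · have h7 : (((genG S h1 h2 h3 hD he hJ).wj ⟨j, hj⟩ r : Fin D.nroots) : ℕ) = C.wlN (C.jwN j) r :=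
        wlj_eq (G := G) h1 h3 hj r
      refine Or.inr ⟨⟨j, hj⟩, ?_, ?_⟩
      · unfold Pos
        rw [h7]
        have h8 : D.nroots / 2 = C.n / 2 := by rw [hn]
        rw [h8]; exact h
      · show Ht.getD r 0 < Ht.getD ((genG S h1 h2 h3 hD he hJ).wj ⟨j, hj⟩ r : Fin D.nroots) 0
        rw [h7]; exact h'
  · right
    push Not at hc
    intro g hgH
    refine all_fixed X P V Z (cc_of X Z hlev hβ hβ2 hob htop hc ?_) hgH
    intro r hr hρ hh
    rcases a8 r (by omega) with (((h | h) | h) | h) | ⟨s, hs, ⟨b1, b2⟩, h⟩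
    · rw [hposN r hr] at h; exact absurd h (by simp)
    · exact absurd (Fin.ext h) hρ
    · have hh' : Ht.getD r 0 < Ht.getD β 0 := hh
      omega
    · right
      exact hex r (List.contains_iff_mem.1 h) hr
    · left
      split at h
      · next k' N hit =>
        simp only [Bool.and_eq_true, Tab.ball_iff, Tab.bex_iff, beq_iff_eq, bne_iff_ne, Bool.or_eq_true,
          Bool.not_eq_true', Nat.blt_eq, Nat.ble_eq] at h
        obtain ⟨⟨⟨⟨⟨c1, c2⟩, c3⟩, c4⟩, c5⟩, c6⟩ := h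
        refine ⟨⟨s, by omega⟩, ⟨k', by omega⟩, N, ?_, ?_, fun h => c2 (congrArg Fin.val h), fun h => b2 (congrArg Fin.val h),
          c5, hitO_iff.1 hit, c3, ?_⟩
        · show D.nroots / 2 ≤ s
          rw [← hn]; exact b1
        · show D.nroots / 2 ≤ k'
          rw [← hn]; exact c4
        · intro s' hs' hne r' hr' hne' N' hit'
          obtain ⟨m, hm, hm2⟩ := mem_Ob S h1 h2 hD ht3 (fun r hr => (ht1 r hr).2.1) hs'
          have hm3 : C.rhP m s = s' := hm2
          rcases c6 m hm with h | h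
          · exact hne (Fin.ext (by rw [← hm3]; exact h))
          · rw [hm3] at h
            rcases h r' (by omega) with (h | h) | h
            · rw [hposN r' hr'] at h; exact absurd h (by simp)
            · exact hne' (Fin.ext h)
            · rw [hitO_iff.2 hit'] at h
              simp at h
      · exact absurd h (by simp)

end fam

end Cfsg.Agent.Lib.Sft
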