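import Cfsg.Agent.Lib.SftTri
import Cfsg.Agent.Lib.SfoDatA
import Cfsg.Agent.Lib.TwD4
set_option autoImplicit false
set_option linter.unusedSectionVars false
set_option linter.unusedVariables false

/-!
The subgroups of ³D₄(q) containing the elements over the ground field (helper44).
-/

namespace Cfsg.Agent.Lib.Sft
open Cfsg.Lie Cfsg.Agent.Lib.ChevX Cfsg.Agent.Lib.ChevGood Cfsg.Agent.Lib.ChevRel Cfsg.Agent.Lib.ChevNPerm
  Cfsg.Agent.Lib.ChevBruhat Cfsg.Agent.Lib.ChevRadCent Cfsg.Agent.Lib.ChevFix Cfsg.Agent.Lib.ChevInv Cfsg.Agent.Lib.Sfo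
  Cfsg.Agent.Lib.TwFix Cfsg.Agent.Lib.TwTab
open Cfsg.Agent.Lib.ChevClosed hiding pr
open scoped MatrixGroups Matrix

theorem eps_simple {D : ChevalleyDatum} {F : Type*} [Field F] {G : Good D} {C : Tab} (S : SigData G C F)
    (h1 : C.chk1 D = true) (h2 : C.chk2 = true) (hD : Listed D) {i : ℕ} (hi0 : i < D.rank) :
    (S.sys h1 h2 hD).ε (simpF G ⟨i, hi0⟩) = 1 := by
  have hrank := (Tab.c1 h1).2.1
  have h6 := s_simple S h1 h2 hD hi0 1
  rw [one_pow] at h6
  have h7 := (S.sys h1 h2 hD).s_x (simpF G ⟨i, hi0⟩) 1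
  rw [one_pow, mul_one] at h7
  have hrs := (Tab.c2 h2).2 i (by omega)
  have hsm := (Tab.c1 h1).2.2.1 i hi0
  have hsm' := (Tab.c1 h1).2.2.1 (C.p i) (by omega)
  have h8 : (((S.sys h1 h2 hD).ρ (simpF G ⟨i, hi0⟩) : Fin D.nroots) : ℕ) = D.simple (C.p i) := by
    show C.rh (D.simple i) = D.simple (C.p i)
    rw [hsm.1, hsm'.1]; exact hrs.2.1
  have h9 := h7.symm.trans h6
  rw [h8] at h9
  refine xg_inj G (r := D.simple (C.p i)) ?_ h9
  rw [← h8]; exact Fin.isLt _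

namespace D4

def Ht : List ℕ := [0, 0, 0, 0, 0, 0, 0, 0, 0, 0, 0, 0, 1, 1, 1, 2, 2, 3, 1, 2, 3, 3, 4, 5]

def L : List (Fin chevD4.nroots × ℤ) := [(⟨23, by decide⟩, 2), (⟨22, by decide⟩, 1)]

theorem cg : grB chevD4 Ht = true := by decide +kernel
theorem ct : tsB tabD4 chevD4 Ht 3 = true := by decide +kernel
theorem cc : tcB tabD4 chevD4 L 3 = true := by decide +kernel
theorem cl : tlB tabD4 chevD4 14 22 9 = true := by decide +kernel
theorem cp : pnB tabD4 = true := by decide +kernel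
theorem cb : btB tabD4 chevD4 Ht 3 21 [15, 16, 19] = true := by decide +kernel

/-- a root -/
abbrev rt (n : ℕ) (h : n < chevD4.nroots := by decide) : Fin chevD4.nroots := ⟨n, h⟩

variable {K : Type*} [Field K] [Fintype K] {q : ℕ} (hq : IsPrimePow q) (hK : Fintype.card K = q ^ 3)

theorem frob3 (t : K) : TwD4.frob hq hK (TwD4.frob hq hK (TwD4.frob hq hK t)) = t := by
  rw [TwD4.frob_eq, TwD4.frob_eq, TwD4.frob_eq, ← pow_mul, ← pow_mul, show q * (q * q) = q ^ 3 by ring]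
  exact TwD4.hT hK t

/-- the fundamental reflections -/
noncomputable abbrev WD := genG (TwD4.sig hq hK) chk1D4 chk2D4 chk3D4 TwD4.listed (TwD4.sig_e hq hK) TwD4.chkJ

theorem X : TS (TwD4.T hq hK) (WD hq hK) (grOf TwD4.G cg) (TwD4.frob hq hK) :=
  tsFam (TwD4.sig hq hK) chk1D4 chk2D4 chk3D4 TwD4.listed (TwD4.sig_e hq hK) TwD4.chkJ chk4D4 chk5D4 (TwD4.all hq hK) cg ct
    (fun t => (TwD4.frob_eq hq hK t).symm) (i := 1) (by decide) rfl

theorem P : TC (TwD4.T hq hK) := tcOf (TwD4.sig hq hK) chk1D4 chk2D4 TwD4.listed datD4.par ct cc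

theorem V : TL (TwD4.T hq hK) := tlOf (TwD4.sig hq hK) chk1D4 chk2D4 TwD4.listed cl

theorem pos_rt {n : ℕ} (h : n < chevD4.nroots) (hn : Nat.ble 12 n = true) : Pos chevD4 (rt n h) := by
  have : (12 : ℕ) ≤ n := Nat.ble_eq.mp hn
  exact this

theorem rho_rt {n m : ℕ} (h : n < chevD4.nroots) (h' : m < chevD4.nroots) (hn : tabD4.rh n = m) :
    (TwD4.T hq hK).ρ (rt n h) = rt m h' := Fin.ext hn

theorem hit_of {r s k : ℕ} {N : ℤ} (h : hitO chevD4 r s = some (k, N)) : Hit chevD4 r s k N := hitO_iff.1 h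

theorem no20 : ∀ r < 24, ∀ N : ℤ, hitO chevD4 13 r ≠ some (20, N) := by
  intro r hr N h
  have : ∀ r < 24, (match hitO chevD4 13 r with | some (k, _) => k != 20 | none => true) = true := by decide +kernel
  have h1 := this r hr
  rw [h] at h1
  simp at h1

theorem Q : Q4 (TwD4.T hq hK) (WD hq hK) (grOf TwD4.G cg) (rt 12) (rt 18) (rt 13) (rt 14) (rt 15) (rt 19) (rt 16)
    (rt 20) (rt 17) (rt 21) 1 (-1) 1 (-1) 1 1 (-1) ⟨0, by decide⟩ ⟨1, by decide⟩ where
  pa1 := pos_rt _ rfl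
  pa2 := pos_rt _ rfl
  pa3 := pos_rt _ rfl
  pb := pos_rt _ rfl
  pf1 := pos_rt _ rfl
  pf2 := pos_rt _ rfl
  pf3 := pos_rt _ rfl
  pg12 := pos_rt _ rfl
  pg31 := pos_rt _ rfl
  pg23 := pos_rt _ rfl
  ρa1 := rho_rt hq hK _ _ rfl
  ρa2 := rho_rt hq hK _ _ rfl
  ρa3 := rho_rt hq hK _ _ rfl
  ρb := rho_rt hq hK _ _ rfl
  ρf1 := rho_rt hq hK _ _ rfl
  ρf2 := rho_rt hq hK _ _ rfl
  ρf3 := rho_rt hq hK _ _ rfl
  ρg := by
    intro h
    have : tabD4.rh 20 = 20 := congrArg Fin.val h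
    revert this
    decide
  εa1 := by
    have := eps_simple (TwD4.sig hq hK) chk1D4 chk2D4 TwD4.listed (i := 3) (by decide)
    exact this
  εa2 := by
    have := eps_simple (TwD4.sig hq hK) chk1D4 chk2D4 TwD4.listed (i := 0) (by decide)
    exact this
  εa3 := by
    have := eps_simple (TwD4.sig hq hK) chk1D4 chk2D4 TwD4.listed (i := 2) (by decide)
    exact this
  h1 := hit_of (by decide +kernel)
  h2 := hit_of (by decide +kernel)
  h3 := hit_of (by decide +kernel)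
  k23 := hit_of (by decide +kernel)
  k12 := hit_of (by decide +kernel)
  k13 := hit_of (by decide +kernel)
  k21 := hit_of (by decide +kernel)
  no := fun r _ _ N h => no20 r r.2 N (hitO_iff.2 h)
  ha3 := rfl
  ha2 := rfl
  hf := rfl
  hf0 := by show (2 : ℕ) < 3; norm_num
  hg31 := rfl
  hg12 := rfl
  na2 := by decide
  na3 := by decide
  nf2 := by decide
  nf3 := by decide
  nb1 := by decide
  nb2 := by decide
  nb3 := by decide
  ng12 := by decide
  ng31 := by decide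
  nf21 := by decide
  nf31 := by decide
  nf12 := by decide
  nf32 := by decide
  vN1 := Or.inl rfl
  vN3 := Or.inl rfl
  vM := Or.inr rfl
  vM21 := Or.inr rfl
  rel := by norm_num
  wja := Fin.ext ((wlj_eq (G := TwD4.G) chk1D4 chk3D4 (j := 0) (by decide) (rt 21)).trans (by decide +kernel))
  wjb := Fin.ext ((wlj_eq (G := TwD4.G) chk1D4 chk3D4 (j := 1) (by decide) (rt 15)).trans (by decide +kernel))
  prg := by
    show Cfsg.Agent.Lib.ChevRel.pr chevD4 23 21 = 1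
    decide +kernel
  prf := by
    show Cfsg.Agent.Lib.ChevRel.pr chevD4 23 15 = 1
    decide +kernel

theorem main {H : Subgroup (GL chevD4.Idx K)} (Z : TH (TwD4.T hq hK) (TwD4.frob hq hK) H) :
    H = (TwD4.T hq hK).fix ∨ ∀ g ∈ H, em chevD4 (TwD4.frob hq hK : K →+* K) g = g := by
  have hX := X hq hK
  have hQ := Q hq hK
  have hob21 : ∀ s : Fin chevD4.nroots, Pos chevD4 s → (grOf TwD4.G cg).h s = (grOf TwD4.G cg).h (rt 21) →
      s ∈ Ob (TwD4.T hq hK) (rt 21) := by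
    intro s hs hh
    have h1 : ∀ s < 24, 12 ≤ s → Ht.getD s 0 = 3 → s = 21 ∨ s = 17 ∨ s = 20 := by decide
    rcases h1 s s.2 hs hh with h | h | h
    · exact ⟨0, Fin.ext (by simpa using h.symm)⟩
    · exact ⟨1, Fin.ext (by rw [pow_one]; exact h.symm)⟩
    · exact ⟨2, Fin.ext (by rw [pow_two, Equiv.Perm.mul_apply]; exact h.symm)⟩
  have htop21 : ∀ r : Fin chevD4.nroots, Pos chevD4 r → (grOf TwD4.G cg).h (rt 21) + 1 ≤ (grOf TwD4.G cg).h r →
      (TwD4.T hq hK).ρ r = r := by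
    intro r hr hh
    have h1 : ∀ s < 24, 12 ≤ s → 4 ≤ Ht.getD s 0 → tabD4.rh s = s := by decide
    exact Fin.ext (h1 r r.2 hr hh)
  refine dicho (TwD4.sig hq hK) chk1D4 chk2D4 chk3D4 TwD4.listed (TwD4.sig_e hq hK) TwD4.chkJ chk4D4 chk5D4
    (TwD4.all hq hK) cg ct (X hq hK) (P hq hK) (V hq hK) Z cp (β := rt 21) (ex := [15, 16, 19]) cb ?_ ?_
  · intro r hr hrp hC t v hv hc
    have hr' : r ∈ Ob (TwD4.T hq hK) (rt 15) := by
      simp only [List.mem_cons, List.not_mem_nil, or_false] at hr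
      rcases hr with h | h | h
      · exact ⟨0, Fin.ext (by simpa using h.symm)⟩
      · exact ⟨2, Fin.ext (by rw [pow_two, Equiv.Perm.mul_apply]; exact h.symm)⟩
      · exact ⟨1, Fin.ext (by rw [pow_one]; exact h.symm)⟩
    obtain ⟨t', h1, h2⟩ := co_orb hX hrp (Z.le hv) hc (ob_symm _ hr')
    refine h2 (sp_f1 hX hQ (frob3 hq hK) Z (fun t v hv hc => ?_) hv h1)
    refine hC (rt 20) hQ.pg12 hQ.ρg ?_ t v hv hc
    have h3 := hX.ob_h hr'
    rw [h3]
    show (2 : ℕ) < 3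
    norm_num
  · rintro ⟨t, ht, hne⟩ u
    obtain ⟨x, y, z, hx, hy, hz, rfl⟩ := three_span (frob3 hq hK) hne u
    have hβ : Pos chevD4 (rt 21) := hQ.pg23
    have hp : Cfsg.Agent.Lib.ChevRel.pr chevD4 (hi TwD4.G : Fin chevD4.nroots) (rt 21) = 1 := hQ.prg
    have hβ2 : (TwD4.T hq hK).ρ (rt 21) ≠ rt 21 := by
      intro h
      have : tabD4.rh 21 = 21 := congrArg Fin.val h
      revert this
      decide
    have hlev : ∀ r, (blkG (TwD4.sig hq hK) chk1D4 chk2D4 chk3D4 TwD4.listed (TwD4.sig_e hq hK) TwD4.chkJ chk4D4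
        chk5D4).lev r = 0 := by
      intro r
      have h1 : ∀ s < 24, tabD4.levN s = 0 := by decide
      exact h1 r r.2
    have hs := sharp hX hQ (frob3 hq hK) Z (fun t v hv hc => as_of_co hX Z hlev hβ hβ2 hob21 htop21 hv hc) ht
    have h1 := as_smul hX Z hβ hX.hhi hp hx (as_one hX Z hβ)
    have h2 := as_smul hX Z hβ hX.hhi hp hy ht
    have h3 := as_smul hX Z hβ hX.hhi hp hz hs
    rw [mul_one] at h1
    exact as_add hβ (as_add hβ h1 h2) h3

end D4

end Cfsg.Agent.Lib.Sft
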