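import Cfsg.Agent.Lib.SftFam
set_option autoImplicit false
set_option linter.unusedSectionVars false
set_option linter.unusedVariables false

/-!
Subgroups of twisted groups containing the elements over the ground field: short coordinates (helper44).
-/

namespace Cfsg.Agent.Lib.Sft
open Cfsg.Lie Cfsg.Agent.Lib.ChevX Cfsg.Agent.Lib.ChevGood Cfsg.Agent.Lib.ChevRel Cfsg.Agent.Lib.ChevNPerm
  Cfsg.Agent.Lib.ChevBruhat Cfsg.Agent.Lib.ChevRadCent Cfsg.Agent.Lib.ChevFix Cfsg.Agent.Lib.ChevInv Cfsg.Agent.Lib.Sfo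
  Cfsg.Agent.Lib.TwFix Cfsg.Agent.Lib.TwTab
open Cfsg.Agent.Lib.ChevClosed hiding pr
open scoped MatrixGroups Matrix

variable {D : ChevalleyDatum} {F : Type*} [Field F]

/-! ### orbits -/

theorem ob_trans (T : TwSys D F) {r s q : Fin D.nroots} (h : s ∈ Ob T r) (h' : q ∈ Ob T s) : q ∈ Ob T r := by
  obtain ⟨m, rfl⟩ := h
  obtain ⟨m', rfl⟩ := h'
  exact ⟨m' + m, by rw [pow_add, Equiv.Perm.mul_apply]⟩

theorem ob_symm (T : TwSys D F) {r s : Fin D.nroots} (h : s ∈ Ob T r) : r ∈ Ob T s := by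
  obtain ⟨m, rfl⟩ := h
  obtain ⟨d, hd, hd1⟩ : ∃ d : ℕ, 0 < d ∧ T.ρ ^ d = 1 := ⟨orderOf T.ρ, orderOf_pos _, pow_orderOf_eq_one _⟩
  have hle : m ≤ d * m := Nat.le_mul_of_pos_left m hd
  refine ⟨d * m - m, ?_⟩
  rw [← Equiv.Perm.mul_apply, ← pow_add, show d * m - m + m = d * m by omega, pow_mul, hd1, one_pow,
    Equiv.Perm.one_apply]

theorem ob_eq (T : TwSys D F) {r s : Fin D.nroots} (h : s ∈ Ob T r) : Ob T s = Ob T r := by
  ext q
  exact ⟨fun h' => ob_trans T h h', fun h' => ob_trans T (ob_symm T h) h'⟩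

theorem ob_ρ (T : TwSys D F) (r : Fin D.nroots) : T.ρ r ∈ Ob T r := ⟨1, by simp⟩

theorem ob_fixed (T : TwSys D F) {r s : Fin D.nroots} (h : s ∈ Ob T r) (hr : T.ρ r = r) : s = r := by
  obtain ⟨m, rfl⟩ := h
  induction m with
  | zero => simp
  | succ m ih => rw [pow_succ', Equiv.Perm.mul_apply, ih, hr]

/-- the elements over the ground field -/
noncomputable def emSub (T : TwSys D F) (σ : F ≃+* F) : Subgroup (GL D.Idx F) :=
  T.fix ⊓ (em D (σ : F →+* F)).eqLocus (MonoidHom.id _)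

section
variable {T : TwSys D F} {k : ℕ} {W : TwGen T k} {Y : Gr T.G} {σ : F ≃+* F} (X : TS T W Y σ)
  {H : Subgroup (GL D.Idx F)} (Z : TH T σ H)

/-- the scalars occurring in an orbit -/
def AS (T : TwSys D F) (Y : Gr T.G) (H : Subgroup (GL D.Idx F)) (β : Fin D.nroots) : Set F :=
  {t | ∃ y ∈ H, y ∈ XS D F (Ob T β) ∧ Y.Co β t y}

theorem as_zero {β : Fin D.nroots} : (0 : F) ∈ AS T Y H β := ⟨1, one_mem _, one_mem _, co_zero_iff.2 (one_mem _)⟩

theorem as_add {β : Fin D.nroots} (hβ : Pos D β) {t t' : F} (h : t ∈ AS T Y H β) (h' : t' ∈ AS T Y H β) :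
    t + t' ∈ AS T Y H β := by
  obtain ⟨y, hy, h1, h2⟩ := h
  obtain ⟨y', hy', h1', h2'⟩ := h'
  exact ⟨y * y', mul_mem hy hy', mul_mem h1 h1', co_mul hβ h2 h2'⟩

theorem as_neg {β : Fin D.nroots} (hβ : Pos D β) {t : F} (h : t ∈ AS T Y H β) : -t ∈ AS T Y H β := by
  obtain ⟨y, hy, h1, h2⟩ := h
  exact ⟨y⁻¹, inv_mem hy, inv_mem h1, co_inv hβ h2⟩

include X in
/-- the lift of a coordinate -/
theorem co_sdiff {β : Fin D.nroots} (hβ : Pos D β) {y : GL D.Idx F} {t : F} (h1 : y ∈ XS D F (Ob T β)) (h2 : Y.Co β t y) :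
    (xg D F β t)⁻¹ * y ∈ XS D F (Ob T β \ {β}) := by
  have hcl2 : Closed F (Y.Ah (Y.h β) \ {β}) := (idl_diff (Γ := Y)).closed Y
  have h3 : (xg D F β t)⁻¹ * y ∈ XS D F (Ob T β) := mul_mem (inv_mem (xg_mem_XS (A := Ob T β) (ob_self T β) t)) h1
  have h4 := XS_inf T.G T.hD (X.ob_closed hβ) hcl2 h3 h2
  refine XS_mono ?_ h4
  rintro q ⟨hq, hq'⟩
  exact ⟨hq, hq'.2⟩

include X Z

theorem as_one {β : Fin D.nroots} (hβ : Pos D β) : (1 : F) ∈ AS T Y H β := by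
  obtain ⟨y, hy, -, h⟩ := exists_one X Z hβ
  exact ⟨y, hy, X.lift_XS h, X.lift_co hβ h⟩

theorem hg_mem_H {s : Fin D.nroots} (hs : T.ρ s = s) {c : F} (hc : σ c = c) : hg D F s c ∈ H := by
  have hn : ∀ {c : F}, σ c = c → ng D F s c ∈ H := by
    intro c hc
    have h1 : T.ρ (negF T.G s) = negF T.G s := by rw [T.ρ_neg, hs]
    have h2 := xg_mem_H X Z h1 (t := -c⁻¹) (by rw [map_neg, map_inv₀, hc])
    have h3 := xg_mem_H X Z hs hc
    exact mul_mem (mul_mem h3 h2) h3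
  exact mul_mem (hn hc) (hn (by rw [map_neg, map_one]))

theorem as_smul {β s : Fin D.nroots} (hβ : Pos D β) (hs : T.ρ s = s) (hp : pr D s β = 1) {c t : F} (hc : σ c = c)
    (h : t ∈ AS T Y H β) : c * t ∈ AS T Y H β := by
  by_cases h0 : c = 0
  · rw [h0, zero_mul]; exact as_zero
  · obtain ⟨y, hy, h1, h2⟩ := h
    have h3 := hg_mem_H X Z hs hc
    have hd : hg D F s c ∈ D.diagonalSubgroup F := ChevNPerm.hg_mem T.G s.2 h0
    refine ⟨hg D F s c * y * (hg D F s c)⁻¹, mul_mem (mul_mem h3 hy) (inv_mem h3), diag_conj_XS T.G hd h1, ?_⟩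
    have h5 := diag_conj_XS T.G hd h2
    have h6 : hg D F s c * ((xg D F β t)⁻¹ * y) * (hg D F s c)⁻¹ =
        (hg D F s c * xg D F β t * (hg D F s c)⁻¹)⁻¹ * (hg D F s c * y * (hg D F s c)⁻¹) := by group
    have h7 := hg_conj T.G s.2 β.2 c h0 t
    have h8 : (∑ j ∈ Finset.range D.rank, co D s j * D.cartan j β) = 1 := hp
    rw [h8, zpow_one] at h7
    rw [h6, h7] at h5
    exact h5

omit Z in
/-- coordinates in an orbit -/
theorem co_orb {r : Fin D.nroots} (hr : Pos D r) {t : F} {v : GL D.Idx F} (hv : v ∈ T.fix) (h : Y.Co r t v)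
    {s : Fin D.nroots} (hs : s ∈ Ob T r) : ∃ t', Y.Co s t' v ∧ (σ t' = t' → σ t = t) := by
  obtain ⟨m, rfl⟩ := hs
  induction m with
  | zero => exact ⟨t, by simpa using h, id⟩
  | succ m ih =>
    obtain ⟨t', h1, h2⟩ := ih
    have h3 := X.co_fix ((TwGen.ρ_pow_pos m r).2 hr) hv h1
    rw [pow_succ', Equiv.Perm.mul_apply]
    refine ⟨_, h3, fun h4 => h2 ?_⟩
    rw [map_mul, X.σε] at h4
    exact σ.injective (mul_left_cancel₀ (T.ε_ne _) h4)

/-- transport along a fixed monomial element -/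
theorem as_w {β s : Fin D.nroots} (hβ : Pos D β) (hs : T.ρ s = s) (hp : pr D s β = 1) {n : GL D.Idx F}
    {w : Equiv.Perm (Fin D.nroots)} (hn : n ∈ D.monomialSubgroup F) (hw : Mono T.G n w)
    (hf : em D (σ : F →+* F) n = n) (hT : n ∈ T.fix) (hp2 : Pos D (w β)) {t : F}
    (h : t ∈ AS T Y H β) : t ∈ AS T Y H (w β) := by
  have hcomm := T.comm_of_fix hn hw hT
  have hob : w '' (Ob T β) ⊆ Ob T (w β) := by
    rintro _ ⟨q, ⟨m, rfl⟩, rfl⟩
    refine ⟨m, ?_⟩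
    have h1 : ∀ m : ℕ, (T.ρ ^ m) (w β) = w ((T.ρ ^ m) β) := by
      intro m
      induction m with
      | zero => simp
      | succ m ih =>
        rw [pow_succ', Equiv.Perm.mul_apply, Equiv.Perm.mul_apply, ih]
        have := congrArg (fun e : Equiv.Perm (Fin D.nroots) => e ((T.ρ ^ m) β)) hcomm
        simp only [Equiv.Perm.mul_apply] at this
        exact this.symm
    exact h1 m
  obtain ⟨-, c, hc0, -, hc⟩ := id hw
  have hcs := X.mono_fix hc hf β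
  obtain ⟨y, hy, h1, h2⟩ := as_smul X Z hβ hs hp (c := (c β)⁻¹) (by rw [map_inv₀, hcs]) h
  have hnH : n ∈ H := Z.ge n hT hf
  have h3 : n * y * n⁻¹ ∈ XS D F (w '' (Ob T β)) := mono_conj_XS T.G hw h1
  have h4 : n * ((xg D F β ((c β)⁻¹ * t))⁻¹ * y) * n⁻¹ ∈ XS D F (w '' (Ob T β \ {β})) :=
    mono_conj_XS T.G hw (co_sdiff X hβ h1 h2)
  refine ⟨n * y * n⁻¹, mul_mem (mul_mem hnH hy) (inv_mem hnH), XS_mono hob h3, ?_⟩
  have h5 : n * ((xg D F β ((c β)⁻¹ * t))⁻¹ * y) * n⁻¹ =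
      (n * xg D F β ((c β)⁻¹ * t) * n⁻¹)⁻¹ * (n * y * n⁻¹) := by group
  rw [h5, hc, ← mul_assoc (c β), mul_inv_cancel₀ (hc0 β), one_mul] at h4
  refine X.lift_co hp2 (XS_mono ?_ h4)
  rintro _ ⟨q, ⟨hq, hq'⟩, rfl⟩
  refine ⟨hob ⟨q, hq, rfl⟩, fun h => hq' (w.injective h)⟩

/-! ### the top layers -/

section top
variable {R : TwRk T} {B : TwBlk R W} (hlev : ∀ r, B.lev r = 0)
include hlev

omit Z in
theorem top_em {n : ℕ} (hf : ∀ r, Pos D r → n ≤ Y.h r → T.ρ r = r) {z : GL D.Idx F} (hz : z ∈ T.fix)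
    (hz' : z ∈ XS D F (Y.Ah n)) : em D (σ : F →+* F) z = z := by
  have hle : XS D F (Y.Ah n) ⊓ T.fix ≤ emSub T σ := by
    refine B.XS_fix_le ((idl_Ah n).closed Y) ?_ ?_ inf_le_left ?_
    · intro r
      show (Pos D (T.ρ r) ∧ n ≤ Y.h (T.ρ r)) ↔ (Pos D r ∧ n ≤ Y.h r)
      rw [T.ρ_pos, X.hY]
    · rintro r ⟨hr, hn⟩ s hs
      have hsP : Pos D s := B.bl_pos r s hs.symm hr
      by_cases h : s = r
      · rw [h]; exact ⟨hr, hn⟩
      · have := SB_sub (B := B) hlev hr ⟨hs, by rw [hlev, hlev], h⟩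
        exact ⟨hsP, by rw [X.ob_h this.1]; exact hn⟩
    · rintro r ⟨hr, hn⟩ t ht
      have h1 := hf r hr hn
      have h2 := ht h1
      have h3 := (X.xg_fix_iff h1 t).1 h2
      refine ⟨xg D F r t, ⟨h2, ?_⟩, ?_⟩
      · show em D (σ : F →+* F) (xg D F r t) = xg D F r t
        rw [em_xg T.G]
        simp only [RingHom.coe_coe]
        rw [h3]
      · unfold TwFix.Co
        rw [inv_mul_cancel]; exact one_mem _
  exact (hle ⟨hz', hz⟩).2

variable {β : Fin D.nroots} (hβ : Pos D β) (hβ2 : T.ρ β ≠ β) (hob : ∀ s, Pos D s → Y.h s = Y.h β → s ∈ Ob T β)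
  (htop : ∀ r, Pos D r → Y.h β + 1 ≤ Y.h r → T.ρ r = r)
include hβ hβ2 hob htop

theorem as_of_co {t : F} {v : GL D.Idx F} (hv : v ∈ H) (hc : Y.Co β t v) : t ∈ AS T Y H β := by
  obtain ⟨y, hy, hyl⟩ := X.lift β hβ t (fun h => absurd h hβ2)
  have hyc := X.lift_co hβ hyl
  have hyX := X.lift_XS hyl
  have h1 := co_mul hβ (co_inv hβ hyc) hc
  rw [neg_add_cancel] at h1
  have hz : y⁻¹ * v ∈ T.fix := mul_mem (inv_mem hy) (Z.le hv)
  have h2 := co_next T.hD (co_mem hβ h1) (fun r hr hh => X.co_zero_ob hβ hz h1 (hob r hr hh))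
  have h3 := Z.ge _ hz (top_em X hlev htop hz h2)
  refine ⟨y, ?_, hyX, hyc⟩
  have h4 : y = v * (y⁻¹ * v)⁻¹ := by group
  rw [h4]
  exact mul_mem hv (inv_mem h3)

/-- the coordinates of elements of `H` are fixed if those of the top orbit are -/
theorem cc_of (hAS : ∀ t ∈ AS T Y H β, σ t = t)
    (step : ∀ r, Pos D r → T.ρ r ≠ r → Y.h r < Y.h β →
      (∃ (s k' : Fin D.nroots) (N : ℤ), Pos D s ∧ Pos D k' ∧ T.ρ k' ≠ k' ∧ r ≠ s ∧ Y.h k' = Y.h s + Y.h r ∧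
        Hit D s r k' N ∧ (N = 1 ∨ N = -1) ∧ ∀ s' ∈ Ob T s, s' ≠ s → ∀ r', Pos D r' → r' ≠ s' → ∀ N', ¬ Hit D s' r' k' N') ∨
      ((∀ k', Pos D k' → T.ρ k' ≠ k' → Y.h r < Y.h k' → ∀ t v, v ∈ H → Y.Co k' t v → σ t = t) →
        ∀ t v, v ∈ H → Y.Co r t v → σ t = t)) : CC T Y σ H := by
  obtain ⟨m, hm⟩ := bound_h Y
  have key : ∀ (n : ℕ) (r : Fin D.nroots), m ≤ Y.h r + n → Pos D r → T.ρ r ≠ r → ∀ (t : F) (v : GL D.Idx F), v ∈ H →
      Y.Co r t v → σ t = t := by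
    intro n
    induction n with
    | zero =>
      intro r hr
      have := hm r
      omega
    | succ n ih =>
      intro r hrm hr hρ t v hv hc
      rcases lt_trichotomy (Y.h r) (Y.h β) with h | h | h
      · rcases step r hr hρ h with ⟨s, k', N, hs, hk, hkρ, hne, hh, hit, hN, huniq⟩ | h1
        · obtain ⟨y, hy, -, hyl⟩ := exists_one X Z hs
          have h2 := co_comm (Γ := Y) hs hr hk hne hh hit (e := 1) (t := t) (S := Ob T s \ {s}) (by
            rintro s' ⟨hs', hne'⟩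
            exact ⟨(ob_pos T hs').2 hs, (X.ob_h hs').ge, fun r' hr' _ hne'' N' => huniq s' hs' hne' r' hr' hne'' N'⟩)
            hyl hc
          have hpos := Y.pos s hs
          have h3 := ih k' (by omega) hk hkρ _ _ (mul_mem (mul_mem (mul_mem hy hv) (inv_mem hy)) (inv_mem hv)) h2
          rcases hN with rfl | rfl
          · simpa using h3
          · simpa using h3
        · exact h1 (fun k' hk hkρ hh => ih k' (by omega) hk hkρ) t v hv hc
      · obtain ⟨t', h1, h2⟩ := co_orb X hr (Z.le hv) hc (ob_symm T (hob r hr h))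
        exact h2 (hAS t' (as_of_co X Z hlev hβ hβ2 hob htop hv h1))
      · exact absurd (htop r hr h) hρ
  intro r hr hρ t v hv hc
  exact key m r (by omega) hr hρ t v hv hc

end top

end

end Cfsg.Agent.Lib.Sft
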