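import Cfsg.Agent.Lib.SftCo
set_option autoImplicit false
set_option linter.unusedSectionVars false
set_option linter.unusedVariables false

/-!
Subgroups of twisted groups containing the elements over the ground field: orbits of length three (helper44).
-/

namespace Cfsg.Agent.Lib.Sft
open Cfsg.Lie Cfsg.Agent.Lib.ChevX Cfsg.Agent.Lib.ChevGood Cfsg.Agent.Lib.ChevRel Cfsg.Agent.Lib.ChevNPerm
  Cfsg.Agent.Lib.ChevBruhat Cfsg.Agent.Lib.ChevRadCent Cfsg.Agent.Lib.ChevFix Cfsg.Agent.Lib.ChevInv Cfsg.Agent.Lib.Sfo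
  Cfsg.Agent.Lib.TwFix Cfsg.Agent.Lib.TwTab
open Cfsg.Agent.Lib.ChevClosed hiding pr
open scoped MatrixGroups Matrix

variable {D : ChevalleyDatum} {F : Type*} [Field F]

/-- a cubic extension is spanned by `1`, `t` and the product of the conjugates of `t` -/
theorem three_span {σ : F ≃+* F} (h3 : ∀ t, σ (σ (σ t)) = t) {t : F} (ht : σ t ≠ t) (u : F) :
    ∃ x y z, σ x = x ∧ σ y = y ∧ σ z = z ∧ u = x + y * t + z * (σ t * σ (σ t)) := by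
  have ht2 : σ (σ t) ≠ t := by
    intro h
    apply ht
    have := h3 t
    rw [h] at this
    exact this
  have ht3 : σ (σ t) ≠ σ t := fun h => ht (σ.injective h)
  -- the alternating form
  let Wf : F → F := fun u => (σ t - t) * (σ (σ u) - u) - (σ (σ t) - t) * (σ u - u)
  have hW : ∀ u, σ (Wf u) = Wf u := by
    intro u
    show σ ((σ t - t) * (σ (σ u) - u) - (σ (σ t) - t) * (σ u - u)) =
      (σ t - t) * (σ (σ u) - u) - (σ (σ t) - t) * (σ u - u)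
    simp only [map_sub, map_mul, h3]
    ring
  have hWs : Wf (σ t * σ (σ t)) ≠ 0 := by
    have h1 : Wf (σ t * σ (σ t)) = (σ t - t) * (t - σ (σ t)) * (σ t - σ (σ t)) := by
      show (σ t - t) * (σ (σ (σ t * σ (σ t))) - σ t * σ (σ t)) - (σ (σ t) - t) * (σ (σ t * σ (σ t)) - σ t * σ (σ t)) = _
      simp only [map_mul, h3]
      ring
    rw [h1]
    exact mul_ne_zero (mul_ne_zero (sub_ne_zero.2 ht) (sub_ne_zero.2 (Ne.symm ht2))) (sub_ne_zero.2 (Ne.symm ht3))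
  obtain ⟨z, hz⟩ : ∃ z, z = Wf u / Wf (σ t * σ (σ t)) := ⟨_, rfl⟩
  have hσz : σ z = z := by rw [hz, map_div₀, hW, hW]
  obtain ⟨u', hu'⟩ : ∃ u', u' = u - z * (σ t * σ (σ t)) := ⟨_, rfl⟩
  have hWu : Wf u' = 0 := by
    have h1 : z * Wf (σ t * σ (σ t)) = Wf u := by rw [hz, div_mul_cancel₀ _ hWs]
    have h2 : Wf u' = Wf u - z * Wf (σ t * σ (σ t)) := by
      show (σ t - t) * (σ (σ u') - u') - (σ (σ t) - t) * (σ u' - u') =
        ((σ t - t) * (σ (σ u) - u) - (σ (σ t) - t) * (σ u - u)) - z * ((σ t - t) * (σ (σ (σ t * σ (σ t))) - σ t * σ (σ t)) -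
          (σ (σ t) - t) * (σ (σ t * σ (σ t)) - σ t * σ (σ t)))
      rw [hu']
      simp only [map_mul, map_sub, h3, hσz]
      ring
    rw [h2, h1, sub_self]
  have h0 : σ t - t ≠ 0 := sub_ne_zero.2 ht
  have h0' : σ (σ t) - σ t ≠ 0 := sub_ne_zero.2 ht3
  obtain ⟨y, hy⟩ : ∃ y, y = (σ u' - u') / (σ t - t) := ⟨_, rfl⟩
  have hWu' : (σ t - t) * (σ (σ u') - u') - (σ (σ t) - t) * (σ u' - u') = 0 := hWu
  have hσy : σ y = y := by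
    rw [hy, map_div₀, map_sub, map_sub, div_eq_div_iff h0' h0]
    linear_combination hWu'
  have h1 : y * (σ t - t) = σ u' - u' := by rw [hy, div_mul_cancel₀ _ h0]
  refine ⟨u' - y * t, y, z, ?_, hσy, hσz, by rw [hu']; ring⟩
  rw [map_sub, map_mul, hσy]
  linear_combination -h1

section
variable {T : TwSys D F} {k : ℕ} {W : TwGen T k} {Y : Gr T.G} {σ : F ≃+* F} (X : TS T W Y σ)
  {H : Subgroup (GL D.Idx F)} (Z : TH T σ H)
include X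

/-- the fixed element of an orbit of length three -/
theorem prod3 {r1 r2 r3 : Fin D.nroots} (p1 : Pos D r1) (e1 : T.ρ r1 = r2) (e2 : T.ρ r2 = r3) (e3 : T.ρ r3 = r1)
    (n12 : r2 ≠ r1) (n13 : r3 ≠ r1) {t1 t2 t3 : F} (c1 : T.ε r1 * σ t1 = t2) (c2 : T.ε r2 * σ t2 = t3)
    (c3 : T.ε r3 * σ t3 = t1) :
    xg D F r1 t1 * xg D F r2 t2 * xg D F r3 t3 ∈ T.fix ∧ xg D F r1 t1 * xg D F r2 t2 * xg D F r3 t3 ∈ XS D F (Ob T r1) ∧
      Y.Co r1 t1 (xg D F r1 t1 * xg D F r2 t2 * xg D F r3 t3) := by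
  have o2 : r2 ∈ Ob T r1 := by rw [← e1]; exact ob_ρ T r1
  have o3 : r3 ∈ Ob T r1 := by
    have := ob_ρ T r2
    rw [e2] at this
    exact ob_trans T o2 this
  have p2 := (ob_pos T o2).2 p1
  have p3 := (ob_pos T o3).2 p1
  have hg1 := xg_mem_group T.G (F := F) r1 t1
  have hg2 := xg_mem_group T.G (F := F) r2 t2
  have hg3 := xg_mem_group T.G (F := F) r3 t3
  have k2 : Commute (xg D F r2 t2) (xg D F r1 t1) :=
    (xg_commute T.G r1.2 r2.2 (fun h => n12 (Fin.ext h)) (fun h => ne_negF T.G p1 p2 (Fin.ext h)) (X.obc r1 r2 o2 n12) t1 t2).symm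
  have k3 : Commute (xg D F r3 t3) (xg D F r1 t1) :=
    (xg_commute T.G r1.2 r3.2 (fun h => n13 (Fin.ext h)) (fun h => ne_negF T.G p1 p3 (Fin.ext h)) (X.obc r1 r3 o3 n13) t1 t3).symm
  refine ⟨⟨mul_mem (mul_mem hg1 hg2) hg3, ?_⟩, ?_, ?_⟩
  · rw [T.s_mul (mul_mem hg1 hg2) hg3, T.s_mul hg1 hg2, X.s_x, X.s_x, X.s_x, e1, e2, e3, c1, c2, c3]
    rw [mul_assoc, k3.eq, ← mul_assoc, k2.eq]
  · exact mul_mem (mul_mem (xg_mem_XS (A := Ob T r1) (ob_self T r1) t1) (xg_mem_XS (A := Ob T r1) o2 t2))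
      (xg_mem_XS (A := Ob T r1) o3 t3)
  · have h0 : ∀ (r : Fin D.nroots) (t : F), r ∈ Ob T r1 → r ≠ r1 → Y.Co r1 (0 : F) (xg D F r t) := by
      intro r t ho hne
      refine co_zero_of (A := {r}) ?_ (xg_mem_XS (A := {r}) (Set.mem_singleton r) t)
      intro s hs
      rw [Set.mem_singleton_iff] at hs
      subst hs
      exact ⟨(ob_pos T ho).2 p1, (X.ob_h ho).ge, hne⟩
    exact co_right p1 (co_right p1 (co_xg t1) (h0 r2 t2 o2 n12)) (h0 r3 t3 o3 n13)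

include Z

theorem prod3_mem {r1 r2 r3 : Fin D.nroots} (p1 : Pos D r1) (e1 : T.ρ r1 = r2) (e2 : T.ρ r2 = r3) (e3 : T.ρ r3 = r1)
    (n12 : r2 ≠ r1) (n13 : r3 ≠ r1) {t1 t2 t3 : F} (c1 : T.ε r1 * σ t1 = t2) (c2 : T.ε r2 * σ t2 = t3)
    (c3 : T.ε r3 * σ t3 = t1) (h : t1 ∈ AS T Y H r1) : xg D F r1 t1 * xg D F r2 t2 * xg D F r3 t3 ∈ H := by
  obtain ⟨a, b, c⟩ := prod3 X p1 e1 e2 e3 n12 n13 c1 c2 c3
  obtain ⟨y, hy, h1, h2⟩ := h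
  have h3 := co_mul p1 (co_inv p1 h2) c
  rw [neg_add_cancel] at h3
  have h4 := X.ob_eq_one p1 (mul_mem (inv_mem (Z.le hy)) a) (mul_mem (inv_mem h1) b) h3
  rw [← inv_mul_eq_one.1 h4]
  exact hy

end

/-- the roots of a group of type ³D₄ -/
structure Q4 (T : TwSys D F) {k : ℕ} (W : TwGen T k) (Y : Gr T.G) (a1 a2 a3 b f1 f2 f3 g12 g31 g23 : Fin D.nroots)
    (N1 N2 N3 M M12 M13 M21 : ℤ) (ja jb : Fin k) : Prop where
  pa1 : Pos D a1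
  pa2 : Pos D a2
  pa3 : Pos D a3
  pb : Pos D b
  pf1 : Pos D f1
  pf2 : Pos D f2
  pf3 : Pos D f3
  pg12 : Pos D g12
  pg31 : Pos D g31
  pg23 : Pos D g23
  ρa1 : T.ρ a1 = a2
  ρa2 : T.ρ a2 = a3
  ρa3 : T.ρ a3 = a1
  ρb : T.ρ b = b
  ρf1 : T.ρ f1 = f2
  ρf2 : T.ρ f2 = f3
  ρf3 : T.ρ f3 = f1
  ρg : T.ρ g12 ≠ g12
  εa1 : T.ε a1 = 1
  εa2 : T.ε a2 = 1
  εa3 : T.ε a3 = 1
  h1 : Hit D a1 b f1 N1
  h2 : Hit D a2 b f2 N2
  h3 : Hit D a3 b f3 N3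
  k23 : Hit D a2 f3 g23 M
  k12 : Hit D a1 f2 g12 M12
  k13 : Hit D a1 f3 g31 M13
  k21 : Hit D a2 f1 g12 M21
  no : ∀ r, Pos D r → r ≠ a3 → ∀ N, ¬ Hit D a3 r g12 N
  ha3 : Y.h a3 = Y.h a1
  ha2 : Y.h a2 = Y.h a1
  hf : Y.h g12 = Y.h a1 + Y.h f1
  hf0 : Y.h f1 < Y.h g12
  hg31 : Y.h g31 = Y.h g23
  hg12 : Y.h g12 = Y.h g23
  na2 : a2 ≠ a1
  na3 : a3 ≠ a1
  nf2 : f2 ≠ f1
  nf3 : f3 ≠ f1
  nb1 : b ≠ a1
  nb2 : b ≠ a2
  nb3 : b ≠ a3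
  ng12 : g12 ≠ g23
  ng31 : g31 ≠ g23
  nf21 : f2 ≠ a1
  nf31 : f3 ≠ a1
  nf12 : f1 ≠ a2
  nf32 : f3 ≠ a2
  vN1 : N1 = 1 ∨ N1 = -1
  vN3 : N3 = 1 ∨ N3 = -1
  vM : M = 1 ∨ M = -1
  vM21 : M21 = 1 ∨ M21 = -1
  rel : M21 * N1 = M12 * N2
  wja : W.wj ja g23 = f1
  wjb : W.wj jb f1 = a1
  prg : pr D (hi T.G) g23 = 1
  prf : pr D (hi T.G) f1 = 1

section
variable {T : TwSys D F} {k : ℕ} {W : TwGen T k} {Y : Gr T.G} {σ : F ≃+* F} (X : TS T W Y σ)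
  {a1 a2 a3 b f1 f2 f3 g12 g31 g23 : Fin D.nroots}
  {N1 N2 N3 M M12 M13 M21 : ℤ} {ja jb : Fin k} (Q : Q4 T W Y a1 a2 a3 b f1 f2 f3 g12 g31 g23 N1 N2 N3 M M12 M13 M21 ja jb)
include X Q

omit Q in
theorem eps_hit {a b f a' f' : Fin D.nroots} {N N' : ℤ} (pa : Pos D a) (pb : Pos D b) (pa' : Pos D a') (ρa : T.ρ a = a') (ρb : T.ρ b = b)
    (ρf : T.ρ f = f') (εa : T.ε a = 1) (h : Hit D a b f N) (h' : Hit D a' b f' N') (hne : b ≠ a) (hne' : b ≠ a') :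
    T.ε f * (N : F) = (N' : F) := by
  have e1 := comm_hit (F := F) T.G hne (ne_negF T.G pa pb) h 1 1
  have e2 := comm_hit (F := F) T.G hne' (ne_negF T.G pa' pb) h' 1 1
  have hga := xg_mem_group T.G (F := F) a 1
  have hgb := xg_mem_group T.G (F := F) b 1
  have hgf := xg_mem_group T.G (F := F) f ((N : F) * 1 * 1)
  have e3 := congrArg T.s e1
  rw [T.s_mul (mul_mem hga hgb) (inv_mem hga), T.s_mul hga hgb, T.s_inv hga, T.s_mul hgb hgf, X.s_x, X.s_x, X.s_x, ρa, ρb, ρf,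
    εa, X.eps_one ρb, map_one, mul_one, e2] at e3
  have e4 := xg_inj T.G f'.2 (mul_left_cancel e3)
  simp only [mul_one, map_intCast] at e4
  exact e4.symm

/-- the coordinates at the roots `f` -/
theorem sp_f1 (h3 : ∀ t, σ (σ (σ t)) = t) {H : Subgroup (GL D.Idx F)} (Z : TH T σ H)
    (hC : ∀ (t : F) v, v ∈ H → Y.Co g12 t v → σ t = t) {t : F} {v : GL D.Idx F} (hv : v ∈ H) (hc : Y.Co f1 t v) : σ t = t := by
  have E1 := eps_hit X Q.pa1 Q.pb Q.pa2 Q.ρa1 Q.ρb Q.ρf1 Q.εa1 Q.h1 Q.h2 Q.nb1 Q.nb2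
  have hc2 := X.co_fix Q.pf1 (Z.le hv) hc
  rw [Q.ρf1] at hc2
  have hyH : xg D F a1 1 * xg D F a2 1 * xg D F a3 1 ∈ H := by
    refine prod3_mem X Z Q.pa1 Q.ρa1 Q.ρa2 Q.ρa3 Q.na2 Q.na3 ?_ ?_ ?_ (as_one X Z Q.pa1)
    · rw [Q.εa1, map_one, one_mul]
    · rw [Q.εa2, map_one, one_mul]
    · rw [Q.εa3, map_one, one_mul]
  have hvA := co_mem Q.pf1 hc
  have hff : Y.h f2 = Y.h f1 := by rw [← Q.ρf1, X.hY]
  have i1 : Y.Co g12 ((M12 : F) * 1 * (T.ε f1 * σ t)) (xg D F a1 1 * v * (xg D F a1 1)⁻¹ * v⁻¹) :=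
    co_comm_hit Q.pa1 Q.pf2 Q.pg12 Q.nf21 (by rw [Q.hf, hff]) Q.k12 1 hc2
  have i2 : Y.Co g12 ((M21 : F) * 1 * t) (xg D F a2 1 * v * (xg D F a2 1)⁻¹ * v⁻¹) :=
    co_comm_hit Q.pa2 Q.pf1 Q.pg12 Q.nf12 (by rw [Q.hf, Q.ha2]) Q.k21 1 hc
  have i3 : Y.Co g12 (0 : F) (xg D F a3 1 * v * (xg D F a3 1)⁻¹ * v⁻¹) := by
    refine co_comm_zero Q.pg12 (a := Y.h a3) (b := Y.h f1) (by rw [Q.hf, Q.ha3]) (S := {a3}) (A := Y.Ah (Y.h f1)) ?_ ?_ ?_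
      (xg_mem_XS (A := {a3}) (Set.mem_singleton a3) 1) hvA
    · intro q hq
      rw [Set.mem_singleton_iff] at hq
      subst hq
      exact ⟨Q.pa3, le_rfl⟩
    · intro q hq; exact hq
    · intro q hq r hr hne N
      rw [Set.mem_singleton_iff] at hq
      subst hq
      exact Q.no r hr.1 hne N
  have hcomm : (xg D F a1 1 * xg D F a2 1 * xg D F a3 1) * v * (xg D F a1 1 * xg D F a2 1 * xg D F a3 1)⁻¹ * v⁻¹ =
      (xg D F a1 1 * ((xg D F a2 1 * (xg D F a3 1 * v * (xg D F a3 1)⁻¹ * v⁻¹) * (xg D F a2 1)⁻¹) *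
        (xg D F a2 1 * v * (xg D F a2 1)⁻¹ * v⁻¹)) * (xg D F a1 1)⁻¹) * (xg D F a1 1 * v * (xg D F a1 1)⁻¹ * v⁻¹) := by
    group
  have j1 := co_mul Q.pg12 (co_conj Q.pg12 (co_mul Q.pg12 (co_conj Q.pg12 i3 (xU T.G Q.pa2 1)) i2) (xU T.G Q.pa1 1)) i1
  rw [← hcomm] at j1
  have j2 := hC _ _ (mul_mem (mul_mem (mul_mem hyH hv) (inv_mem hyH)) (inv_mem hv)) j1
  -- the coordinate is `± (t + σ t)`
  have hN1 : (N1 : F) * (N1 : F) = 1 := by rcases Q.vN1 with h | h <;> rw [h] <;> simp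
  have hrel : (M21 : F) * (N1 : F) = (M12 : F) * (N2 : F) := by exact_mod_cast congrArg (Int.cast : ℤ → F) Q.rel
  have hco : (0 : F) + (M21 : F) * 1 * t + (M12 : F) * 1 * (T.ε f1 * σ t) = (M21 : F) * (t + σ t) := by
    have h5 : T.ε f1 = (N2 : F) * (N1 : F) := by
      calc T.ε f1 = T.ε f1 * ((N1 : F) * (N1 : F)) := by rw [hN1, mul_one]
        _ = (T.ε f1 * (N1 : F)) * (N1 : F) := by ring
        _ = _ := by rw [E1]
    rw [h5]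
    calc (0 : F) + (M21 : F) * 1 * t + (M12 : F) * 1 * ((N2 : F) * (N1 : F) * σ t)
        = (M21 : F) * t + ((M12 : F) * (N2 : F)) * (N1 : F) * σ t := by ring
      _ = (M21 : F) * t + ((M21 : F) * (N1 : F)) * (N1 : F) * σ t := by rw [hrel]
      _ = (M21 : F) * t + (M21 : F) * ((N1 : F) * (N1 : F)) * σ t := by ring
      _ = _ := by rw [hN1]; ring
  rw [hco] at j2
  have j3 : σ t + σ (σ t) = t + σ t := by
    rcases Q.vM21 with h | h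
    · rw [h] at j2
      simpa using j2
    · rw [h] at j2
      simp only [Int.cast_neg, Int.cast_one, neg_mul, one_mul, map_neg, map_add] at j2
      exact _root_.neg_inj.1 j2
  have j4 : σ (σ t) = t := by linear_combination j3
  have j5 := h3 t
  rw [j4] at j5
  exact j5

/-- closure under the adjoint -/
theorem sharp (h3 : ∀ t, σ (σ (σ t)) = t) {H : Subgroup (GL D.Idx F)} (Z : TH T σ H)
    (hco : ∀ (t : F) v, v ∈ H → Y.Co g23 t v → t ∈ AS T Y H g23) {t : F} (ht : t ∈ AS T Y H g23) :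
    σ t * σ (σ t) ∈ AS T Y H g23 := by
  have E1 := eps_hit X Q.pa1 Q.pb Q.pa2 Q.ρa1 Q.ρb Q.ρf1 Q.εa1 Q.h1 Q.h2 Q.nb1 Q.nb2
  have E2 := eps_hit X Q.pa2 Q.pb Q.pa3 Q.ρa2 Q.ρb Q.ρf2 Q.εa2 Q.h2 Q.h3 Q.nb2 Q.nb3
  have E3 := eps_hit X Q.pa3 Q.pb Q.pa1 Q.ρa3 Q.ρb Q.ρf3 Q.εa3 Q.h3 Q.h1 Q.nb3 Q.nb1
  -- transport to `f1` and `a1`
  have tf : t ∈ AS T Y H f1 := by
    have := as_w X Z Q.pg23 X.hhi Q.prg (W.nj_mem_N ja) (W.mono_nj ja) (em_nl T.G _ _) (W.nj_mem_fix ja)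
      (by rw [Q.wja]; exact Q.pf1) ht
    rwa [Q.wja] at this
  have ta : t ∈ AS T Y H a1 := by
    have := as_w X Z Q.pf1 X.hhi Q.prf (W.nj_mem_N jb) (W.mono_nj jb) (em_nl T.G _ _) (W.nj_mem_fix jb)
      (by rw [Q.wjb]; exact Q.pa1) tf
    rwa [Q.wjb] at this
  have tf' : (N1 : F) * t ∈ AS T Y H f1 := by
    rcases Q.vN1 with h | h
    · rw [h]; simpa using tf
    · rw [h]
      have := as_neg Q.pf1 tf
      simpa using this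
  have hy : xg D F a1 t * xg D F a2 (σ t) * xg D F a3 (σ (σ t)) ∈ H :=
    prod3_mem X Z Q.pa1 Q.ρa1 Q.ρa2 Q.ρa3 Q.na2 Q.na3 (by rw [Q.εa1, one_mul]) (by rw [Q.εa2, one_mul])
      (by rw [Q.εa3, one_mul, h3]) ta
  have hy' : xg D F f1 ((N1 : F) * t) * xg D F f2 ((N2 : F) * σ t) * xg D F f3 ((N3 : F) * σ (σ t)) ∈ H := by
    refine prod3_mem X Z Q.pf1 Q.ρf1 Q.ρf2 Q.ρf3 Q.nf2 Q.nf3 ?_ ?_ ?_ tf'
    · rw [map_mul, map_intCast, ← mul_assoc, E1]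
    · rw [map_mul, map_intCast, ← mul_assoc, E2]
    · rw [map_mul, map_intCast, ← mul_assoc, E3, h3]
  have hx : xg D F b 1 ∈ H := xg_mem_H X Z Q.ρb (map_one σ)
  have r3 := comm_hit (F := F) T.G Q.nb3 (ne_negF T.G Q.pa3 Q.pb) Q.h3 (σ (σ t)) 1
  have r2 := comm_hit (F := F) T.G Q.nb2 (ne_negF T.G Q.pa2 Q.pb) Q.h2 (σ t) 1
  have r1 := comm_hit (F := F) T.G Q.nb1 (ne_negF T.G Q.pa1 Q.pb) Q.h1 t 1
  have s23 := comm_hit (F := F) T.G Q.nf32 (ne_negF T.G Q.pa2 Q.pf3) Q.k23 (σ t) ((N3 : F) * σ (σ t))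
  have s12 := comm_hit (F := F) T.G Q.nf21 (ne_negF T.G Q.pa1 Q.pf2) Q.k12 t ((N2 : F) * σ t)
  have s13 := comm_hit (F := F) T.G Q.nf31 (ne_negF T.G Q.pa1 Q.pf3) Q.k13 t ((N3 : F) * σ (σ t))
  simp only [mul_one] at r1 r2 r3
  obtain ⟨c, hcd⟩ : ∃ c, c = (M : F) * σ t * ((N3 : F) * σ (σ t)) := ⟨_, rfl⟩
  obtain ⟨c12, hc12⟩ : ∃ c, c = (M12 : F) * t * ((N2 : F) * σ t) := ⟨_, rfl⟩
  obtain ⟨c13, hc13⟩ : ∃ c, c = (M13 : F) * t * ((N3 : F) * σ (σ t)) := ⟨_, rfl⟩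
  rw [← hcd] at s23
  rw [← hc12] at s12
  rw [← hc13] at s13
  -- the element of `H`
  obtain ⟨z, hz⟩ : ∃ z, z = (xg D F f1 ((N1 : F) * t) * xg D F f2 ((N2 : F) * σ t) * xg D F f3 ((N3 : F) * σ (σ t)))⁻¹ *
      ((xg D F b 1)⁻¹ * ((xg D F a1 t * xg D F a2 (σ t) * xg D F a3 (σ (σ t))) * xg D F b 1 *
        (xg D F a1 t * xg D F a2 (σ t) * xg D F a3 (σ (σ t)))⁻¹)) := ⟨_, rfl⟩
  have hzH : z ∈ H := by
    rw [hz]
    exact mul_mem (inv_mem hy') (mul_mem (inv_mem hx) (mul_mem (mul_mem hy hx) (inv_mem hy)))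
  have hze : z = ((xg D F f3 ((N3 : F) * σ (σ t)))⁻¹ * xg D F g12 c12 * ((xg D F f3 ((N3 : F) * σ (σ t)))⁻¹)⁻¹) *
      xg D F g31 c13 * (xg D F a1 t * xg D F g23 c * (xg D F a1 t)⁻¹) := by
    have q1 : (xg D F a1 t * xg D F a2 (σ t) * xg D F a3 (σ (σ t))) * xg D F b 1 *
        (xg D F a1 t * xg D F a2 (σ t) * xg D F a3 (σ (σ t)))⁻¹ =
        xg D F a1 t * (xg D F a2 (σ t) * (xg D F a3 (σ (σ t)) * xg D F b 1 * (xg D F a3 (σ (σ t)))⁻¹) *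
          (xg D F a2 (σ t))⁻¹) * (xg D F a1 t)⁻¹ := by group
    have q2 : xg D F a2 (σ t) * (xg D F b 1 * xg D F f3 ((N3 : F) * σ (σ t))) * (xg D F a2 (σ t))⁻¹ =
        (xg D F a2 (σ t) * xg D F b 1 * (xg D F a2 (σ t))⁻¹) *
        (xg D F a2 (σ t) * xg D F f3 ((N3 : F) * σ (σ t)) * (xg D F a2 (σ t))⁻¹) := by group
    have q3 : xg D F a1 t * (xg D F b 1 * xg D F f2 ((N2 : F) * σ t) * (xg D F f3 ((N3 : F) * σ (σ t)) * xg D F g23 c)) *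
        (xg D F a1 t)⁻¹ = (xg D F a1 t * xg D F b 1 * (xg D F a1 t)⁻¹) *
        (xg D F a1 t * xg D F f2 ((N2 : F) * σ t) * (xg D F a1 t)⁻¹) *
        (xg D F a1 t * xg D F f3 ((N3 : F) * σ (σ t)) * (xg D F a1 t)⁻¹) *
        (xg D F a1 t * xg D F g23 c * (xg D F a1 t)⁻¹) := by group
    rw [hz, q1, r3, q2, r2, s23, q3, r1, s12, s13]
    group
  have hC : Y.Co g23 c z := by
    have h0 : ∀ (r : Fin D.nroots) (e : F), Pos D r → Y.h r = Y.h g23 → r ≠ g23 → Y.Co g23 (0 : F) (xg D F r e) := by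
      intro r e hr hh hne
      refine co_zero_of (A := {r}) ?_ (xg_mem_XS (A := {r}) (Set.mem_singleton r) e)
      intro s hs
      rw [Set.mem_singleton_iff] at hs
      subst hs
      exact ⟨hr, hh.ge, hne⟩
    rw [hze]
    have j1 := co_conj Q.pg23 (h0 g12 c12 Q.pg12 Q.hg12 Q.ng12) (inv_mem (xU T.G Q.pf3 ((N3 : F) * σ (σ t))))
    have j2 := co_conj Q.pg23 (co_xg (Γ := Y) (r := g23) c) (xU T.G Q.pa1 t)
    exact co_left Q.pg23 j2 (co_left Q.pg23 (h0 g31 c13 Q.pg31 Q.hg31 Q.ng31) j1)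
  have hcA := hco c z hzH hC
  have hcv : c = σ t * σ (σ t) ∨ c = -(σ t * σ (σ t)) := by
    rw [hcd]
    rcases Q.vM with h | h <;> rcases Q.vN3 with h' | h' <;> rw [h, h']
    · left; simp
    · right; simp
    · right; simp
    · left; simp
  rcases hcv with h | h
  · rwa [← h]
  · have := as_neg Q.pg23 hcA
    rw [h, _root_.neg_neg] at this
    exact this

end

end Cfsg.Agent.Lib.Sft
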