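import Cfsg.Agent.Lib.SigTwo
import Cfsg.Agent.Lib.Alperin

/-!
# Transitivity and vanishing of the odd signalizers of `A ∈ SCN_3(2)`
-/
set_option autoImplicit false

namespace Cfsg.Agent.Lib.SigTrans

open Subgroup Cfsg Cfsg.Agent.Lib.LocBase Cfsg.Agent.Lib.ConstrainedLocal Cfsg.Agent.Lib.PConstraint
  Cfsg.Agent.Lib.SigCon Cfsg.Agent.Lib.NormalFour Cfsg.Agent.Lib.SigTwo Cfsg.Agent.Lib.SubgroupTools
open scoped commutatorElement Pointwise

universe u

variable {G : Type u} [Group G] [Finite G]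

theorem odd_of_coprime_two {n : ℕ} (h : n.Coprime 2) : Odd n := Nat.coprime_two_right.1 h

theorem four_le {A : Subgroup G} {z w : G} {hz : z * z = 1} {hw : w * w = 1} {hc : w * z = z * w} (h1 : z ∈ A)
    (h2 : w ∈ A) : four z w hz hw hc ≤ A := by
  rintro x (rfl | rfl | rfl | rfl)
  · exact A.one_mem
  · exact h1
  · exact h2
  · exact A.mul_mem h2 h1

theorem four_sq {z w : G} {hz : z * z = 1} {hw : w * w = 1} {hc : w * z = z * w} {e : G}
    (he : e ∈ four z w hz hw hc) : e * e = 1 := by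
  rcases he with rfl | rfl | rfl | rfl
  · exact one_mul 1
  · exact hz
  · exact hw
  · rw [mul_assoc, ← mul_assoc z, ← hc, mul_assoc w z z, hz, mul_one, hw]

/-- generation by centralizers of a four-group: an element not centralizing everything outside `Q0` -/
theorem exists_four_not_le {A Y Q0 : Subgroup G} {z w : G} (hz : z * z = 1) (hw : w * w = 1)
    (hc : w * z = z * w) (hz1 : z ≠ 1) (hw1 : w ≠ 1) (hwz : w ≠ z) (hzA : z ∈ A) (hwA : w ∈ A)
    (hA : IsPGroup 2 A) (hAY : A ≤ normalizer (Y : Set G)) (hY : (Nat.card Y).Coprime 2) (hY0 : ¬ Y ≤ Q0) :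
    ∃ e ∈ four z w hz hw hc, e ≠ 1 ∧ ¬ Y ⊓ centralizer ({e} : Set G) ≤ Q0 := by
  by_contra hcon
  push Not at hcon
  apply hY0
  have hE := four_le (hz := hz) (hw := hw) (hc := hc) hzA hwA
  haveI : Fact (Nat.Prime 2) := ⟨Nat.prime_two⟩
  have hgen := CoprimeGen.iSup_centralizer_eq (A := four z w hz hw hc) (K := Y) four_isMulCommutative
    (four_not_isCyclic hz1 hw1 hwz) (hE.trans hAY) (coprime_of_pgroup (hA.to_le hE) hY).symm
  rw [← hgen]
  apply iSup₂_le
  rintro e ⟨heE, he1⟩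
  exact hcon e heE he1

/-- two commuting involutions of `A` with a common centralizer outside `Q0` -/
theorem exists_pair {A Y Q0 : Subgroup G} (hA : IsPGroup 2 A) (hcomm : A ≤ centralizer (A : Set G))
    (hr : 4 < Nat.card (omega A hcomm)) (hAY : A ≤ normalizer (Y : Set G)) (hY : (Nat.card Y).Coprime 2)
    (hY0 : ¬ Y ≤ Q0) :
    ∃ e f : G, e ∈ A ∧ f ∈ A ∧ e * e = 1 ∧ f * f = 1 ∧ f * e = e * f ∧ e ≠ 1 ∧ f ≠ 1 ∧ f ≠ e ∧
      ¬ Y ⊓ centralizer ({e} : Set G) ⊓ centralizer ({f} : Set G) ≤ Q0 := by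
  have hcom : ∀ a ∈ A, ∀ b ∈ A, a * b = b * a := fun a ha b hb => mem_centralizer_iff.1 (hcomm hb) a ha
  -- elements outside a set of size at most four
  have hout : ∀ s : Finset G, s.card ≤ 4 → ∃ u, u ∈ A ∧ u * u = 1 ∧ u ∉ s := by
    intro s hs
    by_contra hcon
    push Not at hcon
    have h1 : ((omega A hcomm : Subgroup G) : Set G) ⊆ (s : Set G) := by
      intro u hu
      exact hcon u hu.1 hu.2
    have h2 := Set.ncard_le_ncard h1 (Set.toFinite _)
    rw [Set.ncard_coe_finset] at h2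
    have h3 : ((omega A hcomm : Subgroup G) : Set G).ncard = Nat.card (omega A hcomm) := rfl
    omega
  classical
  -- first a four-group
  obtain ⟨u, huA, hu2, hu⟩ := hout {1} (by simp)
  obtain ⟨v, hvA, hv2, hv⟩ := hout {1, u} (Finset.card_le_two.trans (by norm_num))
  simp only [Finset.mem_insert, Finset.mem_singleton, not_or] at hu hv
  obtain ⟨e, heE, he1, heY⟩ := exists_four_not_le hu2 hv2 (hcom v hvA u huA) hu hv.1 hv.2 huA hvA hA hAY hY hY0
  have heA : e ∈ A := four_le huA hvA heE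
  have hee := four_sq heE
  -- a four-group not containing e
  obtain ⟨u', huA', hu2', hu'⟩ := hout {1, e} (Finset.card_le_two.trans (by norm_num))
  obtain ⟨v', hvA', hv2', hv'⟩ := hout {1, e, u', u' * e} Finset.card_le_four
  simp only [Finset.mem_insert, Finset.mem_singleton, not_or] at hu' hv'
  have hAY' : A ≤ normalizer ((Y ⊓ centralizer ({e} : Set G) : Subgroup G) : Set G) :=
    le_normalizer_inf hAY ((le_centralizer_of_mem hcomm heA).trans le_normalizer)
  obtain ⟨f, hfE, hf1, hfY⟩ := exists_four_not_le hu2' hv2' (hcom v' hvA' u' huA') hu'.1 hv'.1 hv'.2.2.1 huA' hvA' hA hAY'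
    (Nat.Coprime.coprime_dvd_left (Subgroup.card_dvd_of_le inf_le_left) hY) heY
  have hfA : f ∈ A := four_le huA' hvA' hfE
  refine ⟨e, f, heA, hfA, hee, four_sq hfE, hcom f hfA e heA, he1, hf1, ?_, hfY⟩
  rintro rfl
  rcases hfE with h | h | h | h
  · exact hf1 h
  · exact hu'.2 h.symm
  · exact hv'.2.1 h.symm
  · apply hv'.2.2.2
    rw [h, ← mul_assoc, hcom u' huA' v' hvA', mul_assoc, hu2', mul_one]

/-- common fixed points of an involution on two sections -/
theorem exists_common {A Y1 Y2 Q0 : Subgroup G} (hA : IsPGroup 2 A) (hcomm : A ≤ centralizer (A : Set G))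
    (hr : 4 < Nat.card (omega A hcomm)) (hAY1 : A ≤ normalizer (Y1 : Set G)) (hY1 : (Nat.card Y1).Coprime 2)
    (hY10 : ¬ Y1 ≤ Q0) (hAY2 : A ≤ normalizer (Y2 : Set G)) (hY2 : (Nat.card Y2).Coprime 2)
    (hY20 : ¬ Y2 ≤ Q0) :
    ∃ a ∈ A, orderOf a = 2 ∧ ¬ Y1 ⊓ centralizer ({a} : Set G) ≤ Q0 ∧ ¬ Y2 ⊓ centralizer ({a} : Set G) ≤ Q0 := by
  obtain ⟨e, f, heA, hfA, hee, hff, hc, he1, hf1, hfe, hY⟩ := exists_pair hA hcomm hr hAY1 hY1 hY10
  obtain ⟨a, haE, ha1, haY⟩ := exists_four_not_le hee hff hc he1 hf1 hfe heA hfA hA hAY2 hY2 hY20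
  refine ⟨a, four_le heA hfA haE, orderOf_eq_two (four_sq haE) ha1, fun h => hY (le_trans ?_ h), haY⟩
  rintro y ⟨⟨hy, hye⟩, hyf⟩
  refine ⟨hy, ?_⟩
  have h1 : y * e = e * y := (mem_centralizer_singleton_iff.1 hye).symm ▸ rfl
  have h2 : y * f = f * y := (mem_centralizer_singleton_iff.1 hyf).symm ▸ rfl
  show y ∈ centralizer ({a} : Set G)
  rw [mem_centralizer_singleton_iff]
  rcases haE with rfl | rfl | rfl | rfl
  · simp
  · exact h1
  · exact h2
  · rw [← mul_assoc, h2, mul_assoc, h1, mul_assoc]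

/-- the maximal `A`-invariant `q`-subgroups -/
def IsMax (q : ℕ) (A Q : Subgroup G) : Prop :=
  IsPGroup q Q ∧ A ≤ normalizer (Q : Set G) ∧
    ∀ Q' : Subgroup G, IsPGroup q Q' → A ≤ normalizer (Q' : Set G) → Q ≤ Q' → Q' ≤ Q

theorem exists_isMax {q : ℕ} {A Q : Subgroup G} (hQ : IsPGroup q Q) (hAQ : A ≤ normalizer (Q : Set G)) :
    ∃ M, IsMax q A M ∧ Q ≤ M := by
  obtain ⟨M, h1, h2, h3⟩ := exists_maximal_ge (Q := fun X : Subgroup G => IsPGroup q X ∧ A ≤ normalizer (X : Set G))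
    (H := Q) ⟨hQ, hAQ⟩
  exact ⟨M, ⟨h1.1, h1.2, fun Q' hQ' hA' hle => (h3 Q' ⟨hQ', hA'⟩ hle).ge⟩, h2⟩

theorem normalizer_conj_smul (g : G) (Q : Subgroup G) :
    normalizer ((MulAut.conj g • Q : Subgroup G) : Set G) = MulAut.conj g • normalizer (Q : Set G) :=
  (map_conj_normalizer Q g).symm

theorem IsMax.conj {q : ℕ} {A Q : Subgroup G} (h : IsMax q A Q) {c : G} (hc : c ∈ normalizer (A : Set G)) :
    IsMax q A (MulAut.conj c • Q) := by
  obtain ⟨h1, h2, h3⟩ := h
  have hcA : MulAut.conj c • A = A := conj_smul_of_mem_normalizer hc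
  have hcA' : MulAut.conj c⁻¹ • A = A := conj_smul_of_mem_normalizer (inv_mem hc)
  refine ⟨h1.map _, ?_, fun Q' hQ' hA' hle => ?_⟩
  · rw [normalizer_conj_smul]
    conv_lhs => rw [← hcA]
    exact conj_smul_mono c h2
  · rw [conj_smul_le_iff] at hle
    have h4 := h3 (MulAut.conj c⁻¹ • Q') (hQ'.map _) (by
      rw [normalizer_conj_smul]
      conv_lhs => rw [← hcA']
      exact conj_smul_mono c⁻¹ hA') hle
    have h5 := conj_smul_mono c h4
    rwa [← conj_smul_mul, mul_inv_cancel, conj_smul_one] at h5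

variable {P A : Subgroup G}

theorem transitive {q : ℕ} (hq : q.Prime) (hq2 : q ≠ 2) (h : SCN 2 P A) (hr : 4 < Nat.card (omega A h.comm))
    (hcon : ∀ t : G, orderOf t = 2 → IsPConstrained 2 (centralizer ({t} : Set G))) (n : ℕ) :
    ∀ Q1 Q2 : Subgroup G, IsMax q A Q1 → IsMax q A Q2 → Nat.card G - Nat.card (Q1 ⊓ Q2 : Subgroup G) = n →
      ∃ c ∈ centralizer (A : Set G), MulAut.conj c • Q1 = Q2 := by
  haveI : Fact (Nat.Prime 2) := ⟨Nat.prime_two⟩
  haveI : Fact (Nat.Prime q) := ⟨hq⟩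
  have hcop : ∀ Q : Subgroup G, IsPGroup q Q → (Nat.card Q).Coprime 2 := by
    intro Q hQ
    obtain ⟨k, hk⟩ := hQ.exists_card_eq
    rw [hk]
    exact Nat.Coprime.pow_left k ((Nat.coprime_primes hq Nat.prime_two).2 hq2)
  induction n using Nat.strong_induction_on with
  | _ n ih =>
    intro Q1 Q2 h1 h2 hn
    set Q0 := Q1 ⊓ Q2 with hQ0
    by_cases hle1 : Q1 ≤ Q2
    · refine ⟨1, one_mem _, ?_⟩
      rw [conj_smul_one]
      exact le_antisymm hle1 (h1.2.2 Q2 h2.1 h2.2.1 hle1)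
    by_cases hle2 : Q2 ≤ Q1
    · refine ⟨1, one_mem _, ?_⟩
      rw [conj_smul_one]
      exact le_antisymm (h2.2.2 Q1 h1.1 h1.2.1 hle2) hle2
    have hlt1 : Q0 < Q1 := lt_of_le_of_ne inf_le_left (fun h => hle1 (h ▸ inf_le_right))
    have hlt2 : Q0 < Q2 := lt_of_le_of_ne inf_le_right (fun h => hle2 (h ▸ inf_le_left))
    set N := normalizer (Q0 : Set G) with hN
    have hg1 : Q0 < Q1 ⊓ N := Alperin.lt_inf_normalizer Q1 Q0 h1.1 hlt1
    have hg2 : Q0 < Q2 ⊓ N := Alperin.lt_inf_normalizer Q2 Q0 h2.1 hlt2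
    have hAQ0 : A ≤ N := le_normalizer_inf h1.2.1 h2.2.1
    have hAN1 : A ≤ normalizer ((Q1 ⊓ N : Subgroup G) : Set G) := le_normalizer_inf h1.2.1 (hAQ0.trans le_normalizer)
    have hAN2 : A ≤ normalizer ((Q2 ⊓ N : Subgroup G) : Set G) := le_normalizer_inf h2.2.1 (hAQ0.trans le_normalizer)
    obtain ⟨a, haA, hao, ha1, ha2⟩ := exists_common h.pgroup h.comm hr hAN1 (hcop _ (h1.1.to_le inf_le_left))
      (not_le_of_gt hg1) hAN2 (hcop _ (h2.1.to_le inf_le_left)) (not_le_of_gt hg2)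
    set X1 := Q1 ⊓ N ⊓ centralizer ({a} : Set G) with hX1
    set X2 := Q2 ⊓ N ⊓ centralizer ({a} : Set G) with hX2
    have hAa : A ≤ centralizer ({a} : Set G) := le_centralizer_of_mem h.comm haA
    have hAX1 : A ≤ normalizer (X1 : Set G) := le_normalizer_inf hAN1 (hAa.trans le_normalizer)
    have hAX2 : A ≤ normalizer (X2 : Set G) := le_normalizer_inf hAN2 (hAa.trans le_normalizer)
    have hX1p : IsPGroup q X1 := h1.1.to_le (inf_le_left.trans inf_le_left)
    have hX2p : IsPGroup q X2 := h2.1.to_le (inf_le_left.trans inf_le_left)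
    have hr2 : 2 < Nat.card (omega A h.comm) := by omega
    set O := oOf 2 (centralizer ({a} : Set G)) with hO
    have hX1O : X1 ≤ O := le_oOf_of_invariant h hr2 hcon (hcon a hao) hAa inf_le_right (hcop _ hX1p) hAX1
    have hX2O : X2 ≤ O := le_oOf_of_invariant h hr2 hcon (hcon a hao) hAa inf_le_right (hcop _ hX2p) hAX2
    set K := O ⊓ N with hK
    have hX1K : X1 ≤ K := le_inf hX1O (inf_le_left.trans inf_le_right)
    have hX2K : X2 ≤ K := le_inf hX2O (inf_le_left.trans inf_le_right)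
    have hAK : A ≤ normalizer (K : Set G) := le_normalizer_inf (hAa.trans (le_normalizer_oOf _)) (hAQ0.trans le_normalizer)
    have hKc : (Nat.card K).Coprime 2 :=
      Nat.Coprime.coprime_dvd_left (Subgroup.card_dvd_of_le inf_le_left) (coprime_card_oOf _)
    have hAKc : (Nat.card A).Coprime (Nat.card K) := (coprime_of_pgroup h.pgroup hKc).symm
    have hsolv : Group.IsSolvable A ∨ Group.IsSolvable K := by
      left
      have : Group.IsNilpotent A := h.pgroup.isNilpotent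
      infer_instance
    obtain ⟨Y1, hXY1, hY1K, hY1p, hY1i, hAY1⟩ := CoprimeAction.exists_invariant_sylow_ge hAK hAKc hsolv hX1K hX1p hAX1
    obtain ⟨Y2, hXY2, hY2K, hY2p, hY2i, hAY2⟩ := CoprimeAction.exists_invariant_sylow_ge hAK hAKc hsolv hX2K hX2p hAX2
    obtain ⟨c, ⟨hcK, hcA⟩, hcY⟩ := CoprimeAction.invariant_sylow_conj hAK hAKc hsolv hY1K hY2K hY1p hY2p hY1i hY2i hAY1 hAY2
    have hY2N : Y2 ≤ N := hY2K.trans inf_le_right
    have hcN : c ∈ N := hcK.2
    -- the `q`-group `Q0 Y2`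
    have hQ0p : IsPGroup q Q0 := h1.1.to_le inf_le_left
    have hYp : IsPGroup q (Q0 ⊔ Y2 : Subgroup G) := isPGroup_sup hQ0p hY2p hY2N
    have hYA : A ≤ normalizer ((Q0 ⊔ Y2 : Subgroup G) : Set G) := le_normalizer_sup hAQ0 hAY2
    obtain ⟨Q3, hQ3, hYQ3⟩ := exists_isMax hYp hYA
    have hQ03 : Q0 ≤ Q3 := le_sup_left.trans hYQ3
    have hY23 : Y2 ≤ Q3 := le_sup_right.trans hYQ3
    -- cardinalities
    have hcardlt : ∀ Z : Subgroup G, Q0 ≤ Z → ¬ Z ≤ Q0 → Nat.card G - Nat.card Z < n := by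
      intro Z hZ1 hZ2
      have hlt : Nat.card Q0 < Nat.card Z := by
        by_contra hge
        rw [not_lt] at hge
        exact hZ2 (Subgroup.eq_of_le_of_card_ge hZ1 hge).ge
      have hle : Nat.card Z ≤ Nat.card G := Subgroup.card_le_card_group Z
      omega
    -- `Q3` and `Q2`
    obtain ⟨c2, hc2, hc2'⟩ := ih _ (hcardlt (Q3 ⊓ Q2) (le_inf hQ03 inf_le_right)
      (fun hle => ha2 (le_trans (le_inf (hXY2.trans hY23) (inf_le_left.trans inf_le_left)) hle))) Q3 Q2 hQ3 h2 rfl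
    -- `Q1^c` and `Q3`
    have hcn : c ∈ normalizer (A : Set G) := centralizer_le_normalizer _ hcA
    have hQ0c : MulAut.conj c • Q0 = Q0 := conj_smul_of_mem_normalizer hcN
    have hX1c : MulAut.conj c • X1 ≤ Q3 := by
      refine (conj_smul_mono c hXY1).trans ?_
      rw [hcY]; exact hY23
    obtain ⟨c1, hc1, hc1'⟩ := ih _ (hcardlt (MulAut.conj c • Q1 ⊓ Q3) (by
        refine le_inf ?_ hQ03
        rw [← hQ0c]
        exact conj_smul_mono c inf_le_left) (fun hle => by
        apply ha1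
        have h5 : MulAut.conj c • X1 ≤ Q0 :=
          le_trans (le_inf (conj_smul_mono c (inf_le_left.trans inf_le_left)) hX1c) hle
        rw [conj_smul_le_iff, conj_smul_of_mem_normalizer (inv_mem hcN)] at h5
        exact h5)) (MulAut.conj c • Q1) Q3 (h1.conj hcn) hQ3 rfl
    refine ⟨c2 * (c1 * c), mul_mem hc2 (mul_mem hc1 hcA), ?_⟩
    rw [conj_smul_mul, conj_smul_mul, hc1', hc2']

/-- some maximal invariant `q`-subgroup is normalized by `P` -/
theorem exists_fixed {q : ℕ} (hq : q.Prime) (hq2 : q ≠ 2) (h : SCN 2 P A) (hr : 4 < Nat.card (omega A h.comm))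
    (hcon : ∀ t : G, orderOf t = 2 → IsPConstrained 2 (centralizer ({t} : Set G))) :
    ∃ Q : Subgroup G, IsMax q A Q ∧ P ≤ normalizer (Q : Set G) := by
  haveI : Fact (Nat.Prime 2) := ⟨Nat.prime_two⟩
  obtain ⟨Q1, hQ1, -⟩ := exists_isMax (q := q) (A := A) (Q := ⊥) IsPGroup.of_bot (by
    rw [normalizer_eq_top]; exact le_top)
  set N := normalizer (A : Set G) with hN
  set C := centralizer (A : Set G) with hC
  set L := N ⊓ normalizer (Q1 : Set G) with hL
  have hCN : C ≤ N := centralizer_le_normalizer _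
  have hNC : N ≤ normalizer (C : Set G) := le_normalizer_centralizer le_rfl
  have hsup : C ⊔ L = N := by
    apply le_antisymm (sup_le hCN inf_le_left)
    intro n hn
    obtain ⟨c, hc, hcQ⟩ := transitive hq hq2 h hr hcon _ Q1 _ hQ1 (hQ1.conj hn) rfl
    have h1 : c⁻¹ * n ∈ L := by
      refine Subgroup.mem_inf.2 ⟨N.mul_mem (N.inv_mem (hCN hc)) hn, ?_⟩
      rw [mem_normalizer_iff_conj_smul, conj_smul_mul, ← hcQ, ← conj_smul_mul, inv_mul_cancel, conj_smul_one]
    have h2 : n = c * (c⁻¹ * n) := by group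
    rw [h2]
    exact mul_mem_sup hc h1
  have hAL : A ≤ C ⊓ L := le_inf h.comm (le_inf le_normalizer hQ1.2.1)
  have hcard := card_sup_mul_card_inf (inf_le_left.trans hNC : L ≤ normalizer (C : Set G))
  rw [hsup] at hcard
  have hc1 : Nat.card L * L.relIndex N = Nat.card N := card_mul_relIndex_of_le inf_le_left
  have hc2 : Nat.card A * A.relIndex C = Nat.card C := card_mul_relIndex_of_le h.comm
  have hc3 : Nat.card A * A.relIndex (C ⊓ L) = Nat.card (C ⊓ L : Subgroup G) := card_mul_relIndex_of_le hAL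
  have hLpos : 0 < Nat.card L := Nat.card_pos
  have hApos : 0 < Nat.card A := Nat.card_pos
  have hmul : L.relIndex N * A.relIndex (C ⊓ L) = A.relIndex C := by
    rw [← hc1, ← hc2, ← hc3] at hcard
    have h1 : (Nat.card L * Nat.card A) * (L.relIndex N * A.relIndex (C ⊓ L)) =
        (Nat.card L * Nat.card A) * A.relIndex C := by
      calc (Nat.card L * Nat.card A) * (L.relIndex N * A.relIndex (C ⊓ L))
          = Nat.card L * L.relIndex N * (Nat.card A * A.relIndex (C ⊓ L)) := by ring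
        _ = _ := by rw [hcard]; ring
    exact Nat.eq_of_mul_eq_mul_left (Nat.mul_pos hLpos hApos) h1
  have hnd : ¬ 2 ∣ L.relIndex N := fun hd => h.isSyl_centralizer.ndvd (hmul ▸ hd.mul_right _)
  obtain ⟨P', hP'⟩ := exists_isSyl 2 L
  have hP'N : IsSyl 2 P' N := by
    refine ⟨hP'.le.trans inf_le_left, hP'.pgroup, fun hd => ?_⟩
    rw [← Subgroup.relIndex_mul_relIndex P' L N hP'.le inf_le_left] at hd
    rcases (Nat.prime_two.dvd_mul).1 hd with h1 | h1
    · exact hP'.ndvd h1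
    · exact hnd h1
  have hPN : IsSyl 2 P N := h.syl.of_le h.norm le_top
  obtain ⟨g, hg, hgP⟩ := hPN.conj hP'N
  refine ⟨MulAut.conj g • Q1, hQ1.conj hg, ?_⟩
  rw [normalizer_conj_smul, ← hgP]
  exact conj_smul_mono g (hP'.le.trans inf_le_right)

/-- `A` normalizes no nontrivial subgroup of odd order -/
theorem eq_bot_of_invariant (h : SCN 2 P A) (hr : 4 < Nat.card (omega A h.comm))
    (hcon : ∀ t : G, orderOf t = 2 → IsPConstrained 2 (centralizer ({t} : Set G)))
    (hinv : ∀ X : Subgroup G, Odd (Nat.card X) → P ≤ normalizer (X : Set G) → X = ⊥) {X : Subgroup G}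
    (hX : (Nat.card X).Coprime 2) (hAX : A ≤ normalizer (X : Set G)) : X = ⊥ := by
  haveI : Fact (Nat.Prime 2) := ⟨Nat.prime_two⟩
  by_contra hne
  have hcard : Nat.card X ≠ 1 := fun h => hne (Subgroup.card_eq_one.1 h)
  obtain ⟨q, hq, hqX⟩ := Nat.exists_prime_and_dvd hcard
  haveI : Fact (Nat.Prime q) := ⟨hq⟩
  have hq2 : q ≠ 2 := by
    rintro rfl
    exact Nat.not_coprime_of_dvd_of_dvd (by norm_num) hqX (dvd_refl _) hX
  obtain ⟨Y, hYX, hYq, hYi, hAY⟩ := CoprimeAction.exists_invariant_sylow hAX (coprime_of_pgroup h.pgroup hX).symm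
    (Or.inl (by
      have : Group.IsNilpotent A := h.pgroup.isNilpotent
      infer_instance)) q
  obtain ⟨Q, hQ, hPQ⟩ := exists_fixed hq hq2 h hr hcon
  have hQ1 : Q = ⊥ := by
    apply hinv Q _ hPQ
    obtain ⟨k, hk⟩ := hQ.1.exists_card_eq
    rw [hk]
    exact (hq.odd_of_ne_two hq2).pow
  obtain ⟨M, hM, hYM⟩ := exists_isMax hYq hAY
  obtain ⟨c, -, hcM⟩ := transitive hq hq2 h hr hcon _ Q M hQ hM rfl
  have hM1 : M = ⊥ := by
    rw [← hcM, hQ1, conj_smul_eq_map, Subgroup.map_bot]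
  have hY1 : Y = ⊥ := by rw [eq_bot_iff, ← hM1]; exact hYM
  apply hYi
  rw [hY1, relIndex_bot_left]
  exact hqX

/-- a 2-subgroup of exponent two and order more than two is generated nicely -/
theorem exists_two_involutions {F : Subgroup G} (h2 : ∀ f ∈ F, f * f = 1) (hF : 2 < Nat.card F) :
    ∃ z w : G, z ∈ F ∧ w ∈ F ∧ z ≠ 1 ∧ w ≠ 1 ∧ w ≠ z := by
  classical
  have hout : ∀ s : Finset G, s.card ≤ 2 → ∃ u, u ∈ F ∧ u ∉ s := by
    intro s hs
    by_contra hcon
    push Not at hcon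
    have h1 : (F : Set G) ⊆ (s : Set G) := fun u hu => hcon u hu
    have h2 := Set.ncard_le_ncard h1 (Set.toFinite _)
    rw [Set.ncard_coe_finset] at h2
    have h3 : (F : Set G).ncard = Nat.card F := rfl
    omega
  obtain ⟨u, huA, hu⟩ := hout {1} (by simp)
  obtain ⟨v, hvA, hv⟩ := hout {1, u} Finset.card_le_two
  simp only [Finset.mem_insert, Finset.mem_singleton, not_or] at hu hv
  exact ⟨u, v, huA, hvA, hu, hv.1, hv.2⟩

/-- fixed points of an involution on the elementary abelian group `V` -/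
theorem lt_card_inf_centralizer {V : Subgroup G} (hV : V ≤ centralizer (V : Set G)) (h2 : ∀ v ∈ V, v * v = 1)
    {t : G} (ht : t * t = 1) (htV : t ∈ normalizer (V : Set G)) (hcard : 4 < Nat.card V) :
    2 < Nat.card (V ⊓ centralizer ({t} : Set G) : Subgroup G) := by
  set F := V ⊓ centralizer ({t} : Set G) with hF
  have hcom : ∀ a ∈ V, ∀ b ∈ V, a * b = b * a := fun a ha b hb => mem_centralizer_iff.1 (hV hb) a ha
  have hti : t⁻¹ = t := inv_eq_of_mul_eq_one_left ht
  have hconj : ∀ v ∈ V, t * v * t⁻¹ ∈ V := fun v hv => (mem_normalizer_iff.1 htV v).1 hv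
  let φ : V →* G :=
    { toFun := fun v => (v : G) * (t * v * t⁻¹)
      map_one' := by simp
      map_mul' := by
        intro a b
        have h3 := hcom b b.2 _ (hconj a a.2)
        calc ((a * b : V) : G) * (t * (a * b : V) * t⁻¹) = (a : G) * (b * (t * a * t⁻¹)) * (t * b * t⁻¹) := by
              push_cast; group
          _ = _ := by rw [h3]; group }
  have hφ : ∀ v : V, φ v = (v : G) * (t * v * t⁻¹) := fun v => rfl
  have hrange : φ.range ≤ F := by
    rintro _ ⟨v, rfl⟩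
    rw [hφ]
    refine ⟨V.mul_mem v.2 (hconj v v.2), ?_⟩
    show _ ∈ centralizer ({t} : Set G)
    rw [mem_centralizer_singleton_iff]
    have h3 := hcom v v.2 _ (hconj v v.2)
    calc (v : G) * (t * v * t⁻¹) * t = (v : G) * (t * v) := by group
      _ = v * t * v := by group
      _ = t * ((t * v * t⁻¹) * v) := by rw [hti]; rw [← mul_assoc, ← mul_assoc, ← mul_assoc, ht, one_mul]
      _ = t * (v * (t * v * t⁻¹)) := by rw [h3]
  have hker : φ.ker.map V.subtype ≤ F := by
    rintro _ ⟨v, hv, rfl⟩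
    have h3 : (v : G) * (t * v * t⁻¹) = 1 := by
      rw [← hφ]; exact hv
    refine ⟨v.2, ?_⟩
    show (v : G) ∈ centralizer ({t} : Set G)
    rw [mem_centralizer_singleton_iff]
    have h4 : (v : G)⁻¹ = v := inv_eq_of_mul_eq_one_left (h2 v v.2)
    have h5 : t * v * t⁻¹ = (v : G)⁻¹ := (inv_eq_of_mul_eq_one_right h3).symm
    rw [h4] at h5
    exact (mul_inv_eq_iff_eq_mul.1 h5).symm
  have h3 : Nat.card V = Nat.card φ.ker * Nat.card φ.range := by
    rw [← Subgroup.index_ker, Subgroup.card_mul_index]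
  have h4 : Nat.card φ.range ≤ Nat.card F := Subgroup.card_le_of_le hrange
  have h5 : Nat.card φ.ker ≤ Nat.card F := by
    rw [← card_map_of_injective V.subtype_injective (K := φ.ker)]
    exact Subgroup.card_le_of_le hker
  by_contra hlt
  rw [not_lt] at hlt
  have h6 : Nat.card φ.ker * Nat.card φ.range ≤ 2 * 2 := Nat.mul_le_mul (h5.trans hlt) (h4.trans hlt)
  omega

/-- centralizers of involutions of `P` have characteristic 2 -/
theorem charP_of_mem (h : SCN 2 P A) (hr : 4 < Nat.card (omega A h.comm))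
    (hcon : ∀ t : G, orderOf t = 2 → IsPConstrained 2 (centralizer ({t} : Set G)))
    (hinv : ∀ X : Subgroup G, Odd (Nat.card X) → P ≤ normalizer (X : Set G) → X = ⊥) {t : G} (ht : orderOf t = 2)
    (htP : t ∈ P) : CharP 2 (centralizer ({t} : Set G)) := by
  haveI : Fact (Nat.Prime 2) := ⟨Nat.prime_two⟩
  -- centralizers of involutions of `A`
  have hA : ∀ f ∈ A, orderOf f = 2 → CharP 2 (centralizer ({f} : Set G)) := by
    intro f hf hfo
    refine charP_iff.2 ⟨?_, hcon f hfo⟩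
    rw [← oOf_eq_bot_iff]
    exact eq_bot_of_invariant h hr hcon hinv (coprime_card_oOf _)
      ((le_centralizer_of_mem h.comm hf).trans (le_normalizer_oOf _))
  refine charP_iff.2 ⟨?_, hcon t ht⟩
  rw [← oOf_eq_bot_iff]
  set X := oOf 2 (centralizer ({t} : Set G)) with hX
  set V := omega A h.comm with hV
  have htt : t * t = 1 := by rw [← pow_two, ← ht, pow_orderOf_eq_one]
  have hVc : V ≤ centralizer (V : Set G) := (omega_le h.comm).trans (h.comm.trans (centralizer_le (omega_le h.comm)))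
  have hFc := lt_card_inf_centralizer hVc (fun v hv => hv.2) htt
    (normalizer_le_normalizer_omega h.comm h.norm htP) hr
  set F := V ⊓ centralizer ({t} : Set G) with hF
  obtain ⟨z, w, hz, hw, hz1, hw1, hwz⟩ := exists_two_involutions (F := F) (fun f hf => (Subgroup.mem_inf.1 hf).1.2) hFc
  have hcom : w * z = z * w := mem_centralizer_iff.1 (hVc hz.1) w hw.1
  have hFp : IsPGroup 2 F := h.pgroup.to_le (inf_le_left.trans (omega_le h.comm))
  by_contra hne
  have hX0 : ¬ X ≤ ⊥ := fun hle => hne (le_bot_iff.1 hle)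
  obtain ⟨e, heE, he1, heX⟩ := exists_four_not_le (A := F) (Y := X) (Q0 := ⊥) hz.1.2 hw.1.2 hcom hz1 hw1 hwz hz hw hFp
    (inf_le_right.trans (le_normalizer_oOf _)) (coprime_card_oOf _) hX0
  have heF : e ∈ F := four_le hz hw heE
  have heo := orderOf_eq_two (four_sq heE) he1
  apply heX
  have h1 := (charP_rel (hA e (omega_le h.comm heF.1) heo) (P := zpowers t) (by
    rw [zpowers_le, mem_centralizer_singleton_iff]
    exact (mem_centralizer_singleton_iff.1 heF.2).symm) (isPGroup_zpowers_two ht)).2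
  rw [centralizer_zpowers_eq] at h1
  have h2 := oOf_eq_bot_iff.2 (h1.pPrimeCore_eq_bot)
  rw [← h2]
  apply le_oOf (inf_le_inf (oOf_le _) le_rfl)
  · exact le_normalizer_inf (inf_le_left.trans (le_normalizer_oOf _)) (inf_le_right.trans le_normalizer)
  · exact Nat.Coprime.coprime_dvd_left (Subgroup.card_dvd_of_le inf_le_left) (coprime_card_oOf _)

/-- all centralizers of involutions have characteristic 2 -/
theorem charP_all (h : SCN 2 P A) (hr : 4 < Nat.card (omega A h.comm))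
    (hcon : ∀ t : G, orderOf t = 2 → IsPConstrained 2 (centralizer ({t} : Set G)))
    (hinv : ∀ X : Subgroup G, Odd (Nat.card X) → P ≤ normalizer (X : Set G) → X = ⊥) {t : G} (ht : orderOf t = 2) :
    CharP 2 (centralizer ({t} : Set G)) := by
  haveI : Fact (Nat.Prime 2) := ⟨Nat.prime_two⟩
  obtain ⟨g, -, hg⟩ := h.syl.exists_conj_le (isPGroup_zpowers_two ht) le_top
  have h1 : g * t * g⁻¹ ∈ P := hg ⟨t, mem_zpowers t, by simp⟩
  have h2 : orderOf (g * t * g⁻¹) = 2 := by
    rw [← ht]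
    exact orderOf_injective (MulAut.conj g).toMonoidHom (MulAut.conj g).injective t
  have h3 := charP_of_mem h hr hcon hinv h2 h1
  have h4 : centralizer ({g * t * g⁻¹} : Set G) = (centralizer ({t} : Set G)).map (MulAut.conj g).toMonoidHom := by
    rw [← centralizer_zpowers_eq t, map_conj_centralizer, MonoidHom.map_zpowers, centralizer_zpowers_eq]
    rfl
  rw [h4] at h3
  exact (ConstrainedLocal.CharP.congr ((centralizer ({t} : Set G)).equivMapOfInjective _ (MulAut.conj g).injective)).2 h3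

end Cfsg.Agent.Lib.SigTrans
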