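import Mathlib

set_option autoImplicit false

/-! Arithmetic of Singer tori. -/

namespace Cfsg.Agent.Lib.SingerArith

theorem gcd_dvd_iff {m N : ℕ} (hm : 0 < m) (hN : 0 < N) :
    Nat.gcd (2 * m) N ∣ m ↔ padicValNat 2 N < padicValNat 2 (2 * m) := by
  have h2 : Fact (Nat.Prime 2) := ⟨Nat.prime_two⟩
  have hv : padicValNat 2 (2 * m) = padicValNat 2 m + 1 := by
    rw [padicValNat.mul (by norm_num) hm.ne', padicValNat.self (by norm_num), add_comm]
  rw [hv]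
  constructor
  · intro h
    by_contra hcon
    push Not at hcon
    have h1 : 2 ^ (padicValNat 2 m + 1) ∣ N := (pow_dvd_pow 2 hcon).trans pow_padicValNat_dvd
    have h3 : 2 ^ (padicValNat 2 m + 1) ∣ 2 * m := by
      rw [pow_succ, mul_comm]
      exact mul_dvd_mul_left 2 pow_padicValNat_dvd
    have h4 := (Nat.dvd_gcd h3 h1).trans h
    have h5 := (padicValNat_dvd_iff_le hm.ne').1 h4
    omega
  · intro h
    set g := Nat.gcd (2 * m) N with hg
    have hg0 : g ≠ 0 := Nat.gcd_ne_zero_right hN.ne'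
    obtain ⟨k, b, hbodd, hgk⟩ := Nat.exists_eq_two_pow_mul_odd hg0
    have h1 : 2 ^ k ∣ N := (Dvd.intro _ hgk.symm).trans (Nat.gcd_dvd_right _ _)
    have h3 : b ∣ 2 * m := (Dvd.intro_left _ hgk.symm).trans (Nat.gcd_dvd_left _ _)
    have h4 : k ≤ padicValNat 2 N := (padicValNat_dvd_iff_le hN.ne').1 h1
    have h5 : 2 ^ k ∣ m := (padicValNat_dvd_iff_le hm.ne').2 (by omega)
    have h6 : b ∣ m := (Nat.coprime_two_right.2 hbodd).dvd_of_dvd_mul_left h3
    rw [hgk]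
    exact (Nat.Coprime.pow_left k (Nat.coprime_two_left.2 hbodd)).mul_dvd_of_dvd_of_dvd h5 h6

theorem exists_geom (Q : ℕ) (hQ : 1 ≤ Q) (m : ℕ) : ∃ A, Q ^ m = A * (Q - 1) + 1 ∧ A ≡ m [MOD (Q - 1)] := by
  induction m with
  | zero => exact ⟨0, by simp, rfl⟩
  | succ m ih =>
    obtain ⟨A, h1, h2⟩ := ih
    refine ⟨Q * A + 1, ?_, ?_⟩
    · rw [pow_succ, h1]
      obtain ⟨k, rfl⟩ : ∃ k, Q = k + 1 := ⟨Q - 1, by omega⟩
      simp
      ring
    · apply Nat.ModEq.add_right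
      have h3 : Q ≡ 1 [MOD (Q - 1)] := by
        rw [Nat.ModEq.comm, Nat.modEq_iff_dvd' hQ]
      calc Q * A ≡ 1 * m [MOD (Q - 1)] := h3.mul h2
        _ = m := one_mul m

end Cfsg.Agent.Lib.SingerArith
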