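import Cfsg.Agent.Lib.PSLTypes
import Cfsg.Agent.Lib.UnSpec4

set_option autoImplicit false

/-! Elements with an irreducible power of prime order; arithmetic of Singer tori. -/

namespace Cfsg.Agent.Lib.SingerOrd

open Module Polynomial

section
variable {F : Type*} [Field F] {V : Type*} [AddCommGroup V] [Module F V]

theorem dvd_of_fpf [Finite F] [FiniteDimensional F V] {r : ℕ} [hr : Fact r.Prime]
    {T : End F V} (hT : T ^ r = 1) (U : Submodule F V) (hU : ∀ u ∈ U, T u ∈ U)
    (hfix : ∀ u ∈ U, T u = u → u = 0) : r ∣ Nat.card F ^ finrank F U - 1 := by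
  classical
  have hfin : Finite U := Module.finite_of_finite F
  have : Fintype U := Fintype.ofFinite U
  let f : Function.End U := fun u => ⟨T u, hU u u.2⟩
  have hf : ∀ k : ℕ, ∀ u : U, ((f ^ k) u : V) = (T ^ k) u := by
    intro k
    induction k with
    | zero => intro u; rfl
    | succ k ih => intro u; rw [pow_succ, pow_succ, Module.End.mul_apply]; exact ih (f u)
  have hfr : f ^ r ^ 1 = 1 := by
    funext u
    apply Subtype.ext
    rw [hf, pow_one, hT]
    rfl
  have h1 := Equiv.Perm.card_fixedPoints_modEq hfr
  have h2 : Fintype.card (Function.fixedPoints f) = 1 := by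
    rw [Fintype.card_eq_one_iff]
    refine ⟨⟨0, ?_⟩, ?_⟩
    · change f 0 = 0
      apply Subtype.ext
      change T ((0 : U) : V) = ((0 : U) : V)
      simp
    · rintro ⟨⟨u, hu⟩, h⟩
      apply Subtype.ext
      apply Subtype.ext
      exact hfix u hu (congrArg Subtype.val h)
  rw [h2] at h1
  have h3' : Fintype.card U = Nat.card F ^ finrank F U := by
    rw [← Nat.card_eq_fintype_card, Module.natCard_eq_pow_finrank (K := F)]
  rw [h3'] at h1
  exact (Nat.modEq_iff_dvd' (Nat.one_le_pow _ _ Nat.card_pos)).1 h1.symm

/-- If `S` has prime order `r` with no eigenvalue 1 fixed vectors outside..., every `S`-invariant subspace of `V` is trivial,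
provided `r ∤ q^k - 1` for `0 < k < dim V`. -/
theorem invariant_trivial [Finite F] [FiniteDimensional F V] {r : ℕ} [hr : Fact r.Prime]
    (hrk : ∀ k, 0 < k → k < finrank F V → ¬ r ∣ Nat.card F ^ k - 1) (hr0 : (r : F) ≠ 0)
    {S : End F V} (hS : S ^ r = 1) (hne : S ≠ 1) (U : Submodule F V) (hU : ∀ u ∈ U, S u ∈ U) :
    U = ⊥ ∨ U = ⊤ := by
  -- no fixed vectors
  have hfixall : ∀ w : V, S (S w - w) = S w - w → S w = w := by
    intro w h
    set u := S w - w with hu
    have h1 : ∀ k : ℕ, (S ^ k) w = w + k • u := by
      intro k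
      induction k with
      | zero => simp
      | succ k ih =>
        rw [pow_succ', Module.End.mul_apply, ih, map_add, map_nsmul, h, add_smul, one_smul]
        rw [hu]; abel
    have h2 := h1 r
    rw [hS, Module.End.one_apply] at h2
    have h3 : r • u = 0 := by
      have := h2.symm
      rwa [add_eq_left] at this
    rw [← Nat.cast_smul_eq_nsmul F] at h3
    have h4 := (smul_eq_zero.1 h3).resolve_left hr0
    rw [hu] at h4
    exact sub_eq_zero.1 h4
  have hrange : LinearMap.range (S - 1) = ⊤ := by
    apply Submodule.eq_top_of_finrank_eq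
    have h1 : r ∣ Nat.card F ^ finrank F (LinearMap.range (S - 1)) - 1 := by
      apply dvd_of_fpf hS
      · rintro _ ⟨x, rfl⟩
        refine ⟨S x, ?_⟩
        simp
      · rintro _ ⟨x, rfl⟩ hx
        have := hfixall x (by simpa using hx)
        simp [this]
    have h2 : finrank F (LinearMap.range (S - 1)) ≠ 0 := by
      intro h
      apply hne
      have h5 := Submodule.finrank_eq_zero.1 h
      rw [LinearMap.range_eq_bot] at h5
      exact sub_eq_zero.1 h5
    have h3 := Submodule.finrank_le (LinearMap.range (S - 1))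
    by_contra hcon
    exact hrk _ (Nat.pos_of_ne_zero h2) (lt_of_le_of_ne h3 hcon) h1
  have hfix : ∀ u : V, S u = u → u = 0 := by
    intro u hu
    obtain ⟨x, rfl⟩ : u ∈ LinearMap.range (S - 1) := by rw [hrange]; trivial
    have := hfixall x (by simpa using hu)
    simp [this]
  have h1 := dvd_of_fpf hS U hU (fun u _ h => hfix u h)
  by_cases h0 : finrank F U = 0
  · left; exact Submodule.finrank_eq_zero.1 h0
  · right
    apply Submodule.eq_top_of_finrank_eq
    by_contra hcon
    exact hrk _ (Nat.pos_of_ne_zero h0) (lt_of_le_of_ne (Submodule.finrank_le U) hcon) h1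

/-- If `V` has no non-trivial `T`-invariant subspaces then `T` satisfies an irreducible polynomial of degree `dim V`. -/
theorem exists_irreducible [FiniteDimensional F V] [Nontrivial V] {T : End F V}
    (h : ∀ U : Submodule F V, (∀ u ∈ U, T u ∈ U) → U = ⊥ ∨ U = ⊤) :
    ∃ f : F[X], Irreducible f ∧ f.natDegree = finrank F V ∧ aeval T f = 0 := by
  have hm : minpoly F T ≠ 0 := minpoly.ne_zero (Algebra.IsIntegral.isIntegral T)
  have hu : ¬ IsUnit (minpoly F T) := minpoly.not_isUnit F T
  obtain ⟨f, hf, hfd⟩ := WfDvdMonoid.exists_irreducible_factor hu hm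
  have hcomm : ∀ (p : F[X]) (x : V), aeval T p (T x) = T (aeval T p x) := by
    intro p x
    have : aeval T p * T = T * aeval T p := by
      calc aeval T p * T = aeval T p * aeval T (X : F[X]) := by rw [aeval_X]
        _ = aeval T (p * X) := by rw [map_mul]
        _ = aeval T (X * p) := by rw [mul_comm]
        _ = T * aeval T p := by rw [map_mul, aeval_X]
    exact congrArg (fun g : End F V => g x) this
  have hker : LinearMap.ker (aeval T f) = ⊤ := by
    rcases h (LinearMap.ker (aeval T f)) (by
      intro u hu
      rw [LinearMap.mem_ker] at hu ⊢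
      rw [hcomm, hu, map_zero]) with h1 | h1
    · exfalso
      obtain ⟨g, hg⟩ := hfd
      have h2 : aeval T g = 0 := by
        apply LinearMap.ext
        intro x
        have h3 : aeval T f (aeval T g x) = 0 := by
          rw [← Module.End.mul_apply, ← map_mul, ← hg, minpoly.aeval]; rfl
        have h4 : aeval T g x ∈ LinearMap.ker (aeval T f) := h3
        rw [h1] at h4
        exact (Submodule.mem_bot F).1 h4
      have h3 := minpoly.dvd F T h2
      have hg0 : g ≠ 0 := by
        rintro rfl
        rw [mul_zero] at hg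
        exact hm hg
      have h4 := Polynomial.natDegree_le_of_dvd h3 hg0
      rw [hg, natDegree_mul hf.ne_zero hg0] at h4
      have := hf.natDegree_pos
      omega
    · exact h1
  have hz : aeval T f = 0 := by
    apply LinearMap.ext
    intro x
    have : x ∈ LinearMap.ker (aeval T f) := by rw [hker]; trivial
    exact this
  refine ⟨f, hf, ?_, hz⟩
  apply le_antisymm
  · have h1 : f ∣ LinearMap.charpoly T := hfd.trans (minpoly.dvd F T (LinearMap.aeval_self_charpoly T))
    have h2 := Polynomial.natDegree_le_of_dvd h1 (LinearMap.charpoly_monic T).ne_zero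
    rwa [LinearMap.charpoly_natDegree] at h2
  · -- cyclic vector
    obtain ⟨v, hv⟩ := exists_ne (0 : V)
    have : Fact (Irreducible f) := ⟨hf⟩
    let ψ : F[X] →ₗ[F] V := (LinearMap.applyₗ v) ∘ₗ (aeval T : F[X] →ₐ[F] End F V).toLinearMap
    have hψ : ∀ p, ψ p = aeval T p v := fun p => rfl
    have hr : LinearMap.range ψ = ⊤ := by
      rcases h (LinearMap.range ψ) (by
        rintro _ ⟨p, rfl⟩
        refine ⟨X * p, ?_⟩
        rw [hψ, hψ, map_mul, aeval_X]; rfl) with h1 | h1
      · exfalso
        apply hv
        have : v ∈ LinearMap.range ψ := ⟨1, by rw [hψ, map_one]; rfl⟩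
        rw [h1] at this
        exact (Submodule.mem_bot F).1 this
      · exact h1
    have hmod : ∀ p : F[X], ψ (p % (f * C (f.leadingCoeff)⁻¹)) = ψ p := by
      intro p
      rw [hψ, hψ]
      have e := EuclideanDomain.mod_add_div p (f * C (f.leadingCoeff)⁻¹)
      conv_rhs => rw [← e]
      rw [map_add, map_mul, map_mul, hz, zero_mul, zero_mul, add_zero]
    -- the range is spanned by degree < natDegree f
    have hle : (⊤ : Submodule F V) ≤ (Polynomial.degreeLT F f.natDegree).map ψ := by
      rw [← hr]
      rintro _ ⟨p, rfl⟩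
      refine ⟨p % (f * C (f.leadingCoeff)⁻¹), ?_, hmod p⟩
      have hfm : (f * C (f.leadingCoeff)⁻¹).Monic := monic_mul_leadingCoeff_inv hf.ne_zero
      rw [SetLike.mem_coe, Polynomial.mem_degreeLT]
      have h2 := EuclideanDomain.mod_lt p hfm.ne_zero
      have h3 : degree (p % (f * C (f.leadingCoeff)⁻¹)) < degree (f * C (f.leadingCoeff)⁻¹) := h2
      rw [degree_mul_leadingCoeff_inv f hf.ne_zero, degree_eq_natDegree hf.ne_zero] at h3
      exact h3
    have h2 := Submodule.finrank_mono hle
    rw [finrank_top] at h2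
    refine h2.trans ((Submodule.finrank_map_le _ _).trans ?_)
    rw [(Polynomial.degreeLTEquiv F f.natDegree).finrank_eq]
    simp

end

end Cfsg.Agent.Lib.SingerOrd
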