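import Cfsg.Agent.Lib.LargeExtraSymm

/-!
# Singular subgroups for a large extraspecial 2-subgroup
-/

set_option autoImplicit false

namespace Cfsg.Agent.Lib.SingularSub

open Cfsg Cfsg.Agent.Lib.LargeExtraSymm

variable {G : Type*} [Group G]

section setting

variable [Finite G] {Q : G → Subgroup G}
  (hQ : ∀ x : G, Q x = (Cfsg.pCore 2 ↥(Subgroup.centralizer ({x} : Set G))).map (Subgroup.centralizer ({x} : Set G)).subtype)
  {z : G} (hz : orderOf z = 2) (hE : Cfsg.IsExtraspecial 2 ↥(Q z))
  (hC : Subgroup.centralizer ((Q z : Subgroup G) : Set G) ≤ Q z)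
  {U : Subgroup G} (hU2 : ∀ u ∈ U, u * u = 1)
  (hS : ∀ u ∈ U, u ≠ 1 → ∃ g : G, g * z * g⁻¹ = u)
  (hO : ∀ u ∈ U, ∀ v ∈ U, u ≠ 1 → v ≠ 1 → v ∈ Q u)

include hQ hz hE hC hS

theorem EX_u {u : G} (hu : u ∈ U) (hu1 : u ≠ 1) : EX (Q u) u := by
  obtain ⟨g, rfl⟩ := hS u hu hu1
  exact EX_conj hQ hz hE hC g

include hO

omit [Finite G] hQ hz hE hC hS in
theorem U_le_Q {u : G} (hu : u ∈ U) (hu1 : u ≠ 1) : U ≤ Q u := by
  intro v hv
  by_cases hv1 : v = 1
  · rw [hv1]; exact (Q u).one_mem
  · exact hO u hu v hv hu1 hv1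

/-- an element of `Q u` moves elements of `Q u` only by `u` -/
theorem conj_cases {u : G} (hu : u ∈ U) (hu1 : u ≠ 1) {q v : G} (hq : q ∈ Q u) (hv : v ∈ Q u) :
    q * v * q⁻¹ = v ∨ q * v * q⁻¹ = u * v := by
  have h := EX_u hQ hz hE hC hS hu hu1
  rcases h.comm q hq v hv with h1 | h1
  · left; rw [h1]; group
  · right; rw [h1]; group

theorem Q_norm_U {u : G} (hu : u ∈ U) (hu1 : u ≠ 1) : Q u ≤ Subgroup.normalizer (U : Set G) := by
  intro q hq
  have key : ∀ q ∈ Q u, ∀ v ∈ U, q * v * q⁻¹ ∈ U := by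
    intro q hq v hv
    rcases conj_cases hQ hz hE hC hS hO hu hu1 hq (U_le_Q hO hu hu1 hv) with h | h
    · rw [h]; exact hv
    · rw [h]; exact U.mul_mem hu hv
  rw [Subgroup.mem_normalizer_iff]
  intro v
  refine ⟨key q hq v, fun h => ?_⟩
  have := key q⁻¹ ((Q u).inv_mem hq) _ h
  have e : q⁻¹ * (q * v * q⁻¹) * q⁻¹⁻¹ = v := by group
  rwa [e] at this

variable {QU LU : Subgroup G} (hQU : QU = ⨅ u ∈ ((U : Set G) \ {1}), Q u) (hLU : LU = ⨆ u ∈ ((U : Set G) \ {1}), Q u)

omit [Finite G] hQ hz hE hC hS hO in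
include hQU in
theorem mem_QU (x : G) : x ∈ QU ↔ ∀ u ∈ U, u ≠ 1 → x ∈ Q u := by
  rw [hQU]
  simp only [Subgroup.mem_iInf, Set.mem_sdiff, SetLike.mem_coe, Set.mem_singleton_iff, and_imp]

omit [Finite G] hQ hz hE hC hS hO in
include hLU in
theorem Q_le_LU {u : G} (hu : u ∈ U) (hu1 : u ≠ 1) : Q u ≤ LU := by
  rw [hLU]
  exact le_iSup₂_of_le (i := u) (j := ⟨hu, hu1⟩) (f := fun u (_ : u ∈ ((U : Set G) \ {1})) => Q u) le_rfl

include hLU in
theorem LU_norm : LU ≤ Subgroup.normalizer (U : Set G) := by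
  rw [hLU]
  apply iSup₂_le
  rintro u ⟨hu, hu1⟩
  exact Q_norm_U hQ hz hE hC hS hO hu hu1

omit [Finite G] hQ hz hE hC hS hO in
theorem norm_conj {g v : G} (hg : g ∈ Subgroup.normalizer (U : Set G)) (hv : v ∈ U) : g * v * g⁻¹ ∈ U :=
  (Subgroup.mem_normalizer_iff.1 hg v).1 hv

/-- `S5597`, first part -/
theorem LU_acts (hQU : QU = ⨅ u ∈ ((U : Set G) \ {1}), Q u) (hLU : LU = ⨆ u ∈ ((U : Set G) \ {1}), Q u) :
    ∀ g ∈ LU, ∀ x ∈ QU, g * x * g⁻¹ * x⁻¹ ∈ U := by
  have hN := LU_norm hQ hz hE hC hS hO hLU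
  -- the elements with the property form a subgroup of the normalizer
  let K : Subgroup G :=
    { carrier := {g | g ∈ Subgroup.normalizer (U : Set G) ∧ ∀ x ∈ QU, g * x * g⁻¹ * x⁻¹ ∈ U}
      one_mem' := ⟨Subgroup.one_mem _, fun x _ => by simp⟩
      mul_mem' := by
        rintro a b ⟨ha, ha'⟩ ⟨hb, hb'⟩
        refine ⟨Subgroup.mul_mem _ ha hb, fun x hx => ?_⟩
        have e : a * b * x * (a * b)⁻¹ * x⁻¹ = (a * (b * x * b⁻¹ * x⁻¹) * a⁻¹) * (a * x * a⁻¹ * x⁻¹) := by group
        rw [e]
        exact U.mul_mem (norm_conj ha (hb' x hx)) (ha' x hx)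
      inv_mem' := by
        rintro a ⟨ha, ha'⟩
        refine ⟨Subgroup.inv_mem _ ha, fun x hx => ?_⟩
        have e : a⁻¹ * x * a⁻¹⁻¹ * x⁻¹ = a⁻¹ * (a * x * a⁻¹ * x⁻¹)⁻¹ * a⁻¹⁻¹ := by group
        rw [e]
        exact norm_conj (Subgroup.inv_mem _ ha) (U.inv_mem (ha' x hx)) }
  have hle : LU ≤ K := by
    rw [hLU]
    apply iSup₂_le
    rintro u ⟨hu, hu1⟩ q hq
    refine ⟨Q_norm_U hQ hz hE hC hS hO hu hu1 hq, fun x hx => ?_⟩
    rcases conj_cases hQ hz hE hC hS hO hu hu1 hq ((mem_QU hQU x).1 hx u hu hu1) with h | h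
    · rw [h]; simp
    · rw [h]; simpa using hu
  intro g hg
  exact (hle hg).2

/-- `S5597`, second part -/
theorem LU_trans (hQU : QU = ⨅ u ∈ ((U : Set G) \ {1}), Q u) (hLU : LU = ⨆ u ∈ ((U : Set G) \ {1}), Q u) :
    ∀ x ∈ QU, x ∉ U → ∀ u ∈ U, ∃ g ∈ LU ⊓ Subgroup.centralizer (U : Set G), g * x * g⁻¹ = x * u := by
  intro x hx hxU u hu
  by_cases hu1 : u = 1
  · exact ⟨1, Subgroup.one_mem _, by rw [hu1]; simp⟩
  have hEX := EX_u hQ hz hE hC hS hu hu1
  have hxQ := (mem_QU hQU x).1 hx u hu hu1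
  obtain ⟨q, hq, hqU, hqx⟩ := hEX.dual (U_le_Q hO hu hu1) hu hxQ hxU
  refine ⟨q, ⟨Q_le_LU hLU hu hu1 hq, ?_⟩, ?_⟩
  · change q ∈ Subgroup.centralizer (U : Set G)
    rw [Subgroup.mem_centralizer_iff]
    intro v hv
    exact (hqU v hv).symm
  · have := hEX.cen x hxQ
    rw [hqx, this]; group

/-- `S5598`: for orthogonal `u, v` the intersection of `Q u` and `Q v` lies in `Q (u v)` -/
theorem inter_le {u v : G} (hu : u ∈ U) (hv : v ∈ U) (hu1 : u ≠ 1) (hv1 : v ≠ 1) (huv : u ≠ v) {y : G}
    (hyu : y ∈ Q u) (hyv : y ∈ Q v) : y ∈ Q (u * v) := by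
  have hEX := EX_u hQ hz hE hC hS hu hu1
  have hvQ := hO u hu v hv hu1 hv1
  obtain ⟨q, hq, hqv⟩ := hEX.exists_move hv1 huv.symm hvQ
  have h1 : q * v * q⁻¹ = u * v := by rw [hqv]; group
  rw [← h1, Q_conj hQ q]
  -- q⁻¹ y q is y or u y
  have hq' := (Q u).inv_mem hq
  have e : q⁻¹ * y * q = q⁻¹ * y * q⁻¹⁻¹ := by group
  rw [e]
  rcases conj_cases hQ hz hE hC hS hO hu hu1 hq' hyu with h | h
  · rw [h]; exact hyv
  · rw [h]
    exact (Q v).mul_mem (hO v hv u hu hv1 hu1) hyv

include hU2

theorem joint_core (hQU : QU = ⨅ u ∈ ((U : Set G) \ {1}), Q u) (T : Set G) (hT : Subgroup.closure T = U)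
    (hT1 : (1 : G) ∉ T) : QU = ⨅ t ∈ T, Q t := by
  have hTU : ∀ t ∈ T, t ∈ U := fun t ht => by rw [← hT]; exact Subgroup.subset_closure ht
  apply le_antisymm
  · refine le_iInf₂ fun t ht => ?_
    intro x hx
    exact (mem_QU hQU x).1 hx t (hTU t ht) (fun h => hT1 (h ▸ ht))
  · intro y hy
    simp only [Subgroup.mem_iInf] at hy
    rw [mem_QU hQU]
    have key : ∀ u ∈ Subgroup.closure T, u = 1 ∨ y ∈ Q u := by
      intro u hu
      induction hu using Subgroup.closure_induction with
      | mem x hx => exact Or.inr (hy x hx)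
      | one => exact Or.inl rfl
      | mul a b ha hb iha ihb =>
        rw [hT] at ha hb
        by_cases ha1 : a = 1
        · rw [ha1, one_mul]; exact ihb
        by_cases hb1 : b = 1
        · rw [hb1, mul_one]; exact iha
        by_cases hab : a = b
        · left; rw [hab]; exact hU2 b hb
        right
        exact inter_le hQ hz hE hC hS hO ha hb ha1 hb1 hab (iha.resolve_left ha1) (ihb.resolve_left hb1)
      | inv a ha iha =>
        rw [hT] at ha
        rw [inv_eq_of_mul_eq_one_right (hU2 a ha)]; exact iha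
    intro u hu hu1
    rw [← hT] at hu
    exact (key u hu).resolve_left hu1

/-- `S5596` -/
theorem full_aut (hQU : QU = ⨅ u ∈ ((U : Set G) \ {1}), Q u) (hLU : LU = ⨆ u ∈ ((U : Set G) \ {1}), Q u)
    (n : ℕ) (hn : 2 ≤ n) (hcard : Nat.card ↥U = 2 ^ n) :
    U ≤ QU ∧ QU ≤ LU ∧ LU ≤ Subgroup.normalizer (U : Set G) ∧
      ∀ φ : ↥U ≃* ↥U, ∃ g ∈ LU, ∀ u : ↥U, g * (u : G) * g⁻¹ = ((φ u : ↥U) : G) := by
  have hN := LU_norm hQ hz hE hC hS hO hLU
  have hcomm : ∀ a ∈ U, ∀ b ∈ U, a * b = b * a := by
    intro a ha b hb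
    have h1 := hU2 (a * b) (U.mul_mem ha hb)
    have h2 := hU2 a ha
    have h3 := hU2 b hb
    calc a * b = a * (a * b * (a * b)) * b := by rw [h1, mul_one]
      _ = (a * a) * (b * a) * (b * b) := by group
      _ = b * a := by rw [h2, h3]; group
  refine ⟨?_, ?_, hN, ?_⟩
  · intro v hv
    rw [mem_QU hQU]
    intro u hu hu1
    exact U_le_Q hO hu hu1 hv
  · -- U is nontrivial
    have hne : ∃ u ∈ U, u ≠ 1 := by
      by_contra hcon
      push Not at hcon
      have : U = ⊥ := by
        rw [eq_bot_iff]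
        intro u hu
        exact Subgroup.mem_bot.2 (hcon u hu)
      rw [this, Subgroup.card_bot] at hcard
      have : 2 ^ 1 ≤ 2 ^ n := Nat.pow_le_pow_right (by norm_num) (by omega)
      omega
    obtain ⟨u, hu, hu1⟩ := hne
    intro x hx
    exact Q_le_LU hLU hu hu1 ((mem_QU hQU x).1 hx u hu hu1)
  · -- maximal subgroup of U on which every automorphism is realised
    let S : Set (Subgroup G) := {W | W ≤ U ∧ ∀ φ : ↥U ≃* ↥U, ∃ g ∈ LU, ∀ u : ↥U, (u : G) ∈ W →
      g * (u : G) * g⁻¹ = ((φ u : ↥U) : G)}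
    have hSne : (⊥ : Subgroup G) ∈ S := by
      refine ⟨bot_le, fun φ => ⟨1, LU.one_mem, fun u hu => ?_⟩⟩
      have : u = 1 := Subtype.ext (Subgroup.mem_bot.1 hu)
      rw [this]; simp
    obtain ⟨W, hW⟩ := (Set.toFinite S).exists_maximal ⟨_, hSne⟩
    have hWU := hW.prop.1
    by_cases hWeq : W = U
    · intro φ
      obtain ⟨g, hg, h⟩ := hW.prop.2 φ
      exact ⟨g, hg, fun u => h u (by rw [hWeq]; exact u.2)⟩
    exfalso
    obtain ⟨w, hwU, hwW⟩ := SetLike.exists_of_lt (lt_of_le_of_ne hWU hWeq)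
    have hw1 : w ≠ 1 := fun h => hwW (h ▸ W.one_mem)
    -- the extended subgroup
    have hext : W ⊔ Subgroup.zpowers w ∈ S := by
      refine ⟨sup_le hWU (by rwa [Subgroup.zpowers_le]), fun φ => ?_⟩
      obtain ⟨g, hg, hgW⟩ := hW.prop.2 φ
      -- elements of the join are x or x w
      have hjoin : ∀ g' : G, (∀ u : ↥U, (u : G) ∈ W → g' * (u : G) * g'⁻¹ = ((φ u : ↥U) : G)) →
          g' * w * g'⁻¹ = ((φ ⟨w, hwU⟩ : ↥U) : G) →
          ∀ u : ↥U, (u : G) ∈ W ⊔ Subgroup.zpowers w → g' * (u : G) * g'⁻¹ = ((φ u : ↥U) : G) := by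
        intro g' h1 h2
        have hle : W ⊔ Subgroup.zpowers w ≤
            (({ carrier := {y | ∃ hy : y ∈ U, g' * y * g'⁻¹ = ((φ ⟨y, hy⟩ : ↥U) : G)}
                one_mem' := ⟨U.one_mem, by
                  have : (⟨1, U.one_mem⟩ : ↥U) = 1 := rfl
                  rw [this, map_one]; simp⟩
                mul_mem' := by
                  rintro a b ⟨ha, ha'⟩ ⟨hb, hb'⟩
                  refine ⟨U.mul_mem ha hb, ?_⟩
                  have : (⟨a * b, U.mul_mem ha hb⟩ : ↥U) = ⟨a, ha⟩ * ⟨b, hb⟩ := rfl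
                  rw [this, map_mul, Subgroup.coe_mul, ← ha', ← hb']; group
                inv_mem' := by
                  rintro a ⟨ha, ha'⟩
                  refine ⟨U.inv_mem ha, ?_⟩
                  have : (⟨a⁻¹, U.inv_mem ha⟩ : ↥U) = ⟨a, ha⟩⁻¹ := rfl
                  rw [this, map_inv, Subgroup.coe_inv, ← ha']; group } : Subgroup G)) := by
          rw [sup_le_iff]
          constructor
          · intro y hy; exact ⟨hWU hy, h1 ⟨y, hWU hy⟩ hy⟩
          · rw [Subgroup.zpowers_le]; exact ⟨hwU, h2⟩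
        intro u hu
        obtain ⟨_, h⟩ := hle hu
        exact h
      -- v is the preimage of the target under g
      have hgN := hN hg
      set v : G := g⁻¹ * ((φ ⟨w, hwU⟩ : ↥U) : G) * g with hv
      have hvU : v ∈ U := by
        have := norm_conj (Subgroup.inv_mem _ hgN) (φ ⟨w, hwU⟩).2
        rw [inv_inv] at this
        exact this
      have hvW : v ∉ W := by
        intro hvW
        have h1 := hgW ⟨v, hvU⟩ hvW
        have h2 : g * v * g⁻¹ = ((φ ⟨w, hwU⟩ : ↥U) : G) := by rw [hv]; group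
        have h3 : φ ⟨v, hvU⟩ = φ ⟨w, hwU⟩ := Subtype.ext (h1.symm.trans h2)
        have h4 := φ.injective h3
        have h5 : v = w := congrArg Subtype.val h4
        exact hwW (h5 ▸ hvW)
      by_cases hvw : v = w
      · refine ⟨g, hg, hjoin g hgW ?_⟩
        have h6 : g * v * g⁻¹ = ((φ ⟨w, hwU⟩ : ↥U) : G) := by rw [hv]; group
        rw [← h6, hvw]
      · -- transvection with centre c = w v
        have hcU : w * v ∈ U := U.mul_mem hwU hvU
        have hc1 : w * v ≠ 1 := by
          intro h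
          apply hvw
          rw [← inv_eq_of_mul_eq_one_right h, inv_eq_of_mul_eq_one_right (hU2 w hwU)]
        have hEX := EX_u hQ hz hE hC hS hcU hc1
        have hWc : W ⊔ Subgroup.zpowers (w * v) ≤ Q (w * v) := by
          refine le_trans (sup_le hWU ?_) (U_le_Q hO hcU hc1)
          rwa [Subgroup.zpowers_le]
        have hwn : w ∉ W ⊔ Subgroup.zpowers (w * v) := by
          intro hmem
          -- members of the join are in W or (w v) W
          have hle : W ⊔ Subgroup.zpowers (w * v) ≤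
              ({ carrier := {y | y ∈ W ∨ (w * v) * y ∈ W}
                 one_mem' := Or.inl W.one_mem
                 mul_mem' := by
                   rintro a b ha hb
                   have hc2 := hU2 _ hcU
                   rcases ha with ha | ha <;> rcases hb with hb | hb
                   · exact Or.inl (W.mul_mem ha hb)
                   · right
                     have hbU : b ∈ U := by
                       have : b = (w * v) * ((w * v) * b) := by rw [← mul_assoc, hc2, one_mul]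
                       rw [this]; exact U.mul_mem hcU (hWU hb)
                     have : (w * v) * (a * b) = a * ((w * v) * b) := by
                       rw [← mul_assoc, hcomm _ hcU _ (hWU ha), mul_assoc]
                     rw [this]; exact W.mul_mem ha hb
                   · right
                     rw [← mul_assoc]; exact W.mul_mem ha hb
                   · left
                     have haU : a ∈ U := by
                       have : a = (w * v) * ((w * v) * a) := by rw [← mul_assoc, hc2, one_mul]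
                       rw [this]; exact U.mul_mem hcU (hWU ha)
                     have : a * b = ((w * v) * a) * ((w * v) * b) := by
                       calc a * b = (w * v * (w * v)) * (a * b) := by rw [hc2, one_mul]
                         _ = (w * v) * ((w * v) * a) * b := by group
                         _ = (w * v) * (a * (w * v)) * b := by rw [hcomm _ hcU _ haU]
                         _ = ((w * v) * a) * ((w * v) * b) := by group
                     rw [this]; exact W.mul_mem ha hb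
                 inv_mem' := by
                   rintro a ha
                   have hc2 := hU2 _ hcU
                   have haU : a ∈ U := by
                     rcases ha with ha | ha
                     · exact hWU ha
                     · have : a = (w * v) * ((w * v) * a) := by rw [← mul_assoc, hc2, one_mul]
                       rw [this]; exact U.mul_mem hcU (hWU ha)
                   rw [inv_eq_of_mul_eq_one_right (hU2 a haU)]
                   exact ha } : Subgroup G) := by
            rw [sup_le_iff]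
            constructor
            · intro y hy; exact Or.inl hy
            · rw [Subgroup.zpowers_le]
              right
              rw [hU2 _ hcU]; exact W.one_mem
          rcases hle hmem with h | h
          · exact hwW h
          · apply hvW
            have : w * v * w = v := by
              rw [hcomm w hwU v hvU, mul_assoc, hU2 w hwU, mul_one]
            rwa [this] at h
        obtain ⟨q, hq, hqW, hqw⟩ := hEX.dual hWc (Subgroup.mem_sup_right (Subgroup.mem_zpowers _))
          (U_le_Q hO hcU hc1 hwU) hwn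
        have hqv : q * w * q⁻¹ = v := by
          rw [hqw]
          calc w * v * (w * q) * q⁻¹ = w * v * w := by group
            _ = v := by rw [hcomm w hwU v hvU, mul_assoc, hU2 w hwU, mul_one]
        refine ⟨g * q, LU.mul_mem hg (Q_le_LU hLU hcU hc1 hq), hjoin _ ?_ ?_⟩
        · intro u hu
          have h1 := hqW u (Subgroup.mem_sup_left hu)
          calc g * q * (u : G) * (g * q)⁻¹ = g * (q * (u : G)) * q⁻¹ * g⁻¹ := by group
            _ = g * (u : G) * g⁻¹ := by rw [h1]; group
            _ = _ := hgW u hu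
        · calc g * q * w * (g * q)⁻¹ = g * (q * w * q⁻¹) * g⁻¹ := by group
            _ = g * v * g⁻¹ := by rw [hqv]
            _ = _ := by rw [hv]; group
    have := hW.le_of_ge hext le_sup_left
    exact hwW (this (Subgroup.mem_sup_right (Subgroup.mem_zpowers w)))

end setting

end Cfsg.Agent.Lib.SingularSub
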