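import Mathlib
import Cfsg.Agent.S0041
import Cfsg.Agent.S0016
import Cfsg.Agent.Lib.ConjCover
import Cfsg.Agent.Lib.SubgroupTools
import Cfsg.Agent.Lib.RelSylow

/-!
Actions on abelian groups in which all non-identity elements have the same fixed points (helper68).
-/

set_option autoImplicit false
set_option linter.all false

namespace Cfsg.Agent.Lib.SizeAct

open Subgroup Cfsg.Agent.Lib.SubgroupTools Cfsg.Agent.Lib.RelSylow

/-- S0041 for abstract actions. -/
theorem fpf_cyclic {X V : Type*} [Group X] [Finite X] [CommGroup V] [Finite V] [MulDistribMulAction X V]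
    [Nontrivial V] (hfpf : ∀ x : X, x ≠ 1 → ∀ v : V, x • v = v → v = 1)
    (hX : (∀ a b : X, a * b = b * a) ∨ ∃ p q : ℕ, p.Prime ∧ q.Prime ∧ Nat.card X = p * q) : IsCyclic X := by
  let φ : X →* MulAut V := MulDistribMulAction.toMulAut X V
  let Γ := V ⋊[φ] X
  have : Finite Γ := Finite.of_equiv _ (SemidirectProduct.equivProd (φ := φ)).symm
  let A : Subgroup Γ := (SemidirectProduct.inr (φ := φ)).range
  let B : Subgroup Γ := (SemidirectProduct.inl (φ := φ)).range
  let e : X ≃* A := MonoidHom.ofInjective SemidirectProduct.inr_injective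
  let f : V ≃* B := MonoidHom.ofInjective SemidirectProduct.inl_injective
  have : IsMulCommutative B := ⟨⟨fun a b => by
    obtain ⟨a, rfl⟩ := f.surjective a
    obtain ⟨b, rfl⟩ := f.surjective b
    rw [← map_mul, ← map_mul, mul_comm]⟩⟩
  have hcyc : IsCyclic A := by
    apply Cfsg.Agent.S0041.result A B
    · intro hb
      obtain ⟨v, hv⟩ := exists_ne (1 : V)
      apply hv
      have : SemidirectProduct.inl v ∈ B := ⟨v, rfl⟩
      have h2 := (le_of_eq hb) this
      rw [mem_bot] at h2
      exact SemidirectProduct.inl_injective (by rw [h2, map_one])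
    · intro a ha
      obtain ⟨x, rfl⟩ := ha
      rw [mem_normalizer_iff]
      have key : ∀ (x : X) (b : Γ), b ∈ B → SemidirectProduct.inr x * b * (SemidirectProduct.inr x)⁻¹ ∈ B := by
        rintro x b ⟨v, rfl⟩
        refine ⟨x • v, ?_⟩
        rw [← map_inv, ← SemidirectProduct.inl_aut]
        rfl
      intro b
      refine ⟨key x b, fun hb => ?_⟩
      have := key x⁻¹ _ hb
      convert this using 1
      simp [mul_assoc]
    · rintro a ⟨x, rfl⟩ hx
      rw [eq_bot_iff]
      rintro b ⟨⟨v, rfl⟩, hb⟩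
      rw [mem_bot]
      have hx1 : x ≠ 1 := fun h => hx (by rw [h, map_one])
      have h2 := (mem_centralizer_singleton_iff).1 hb
      have : x • v = v := by
        apply SemidirectProduct.inl_injective (φ := φ)
        have h3 := SemidirectProduct.inl_aut (φ := φ) x v
        have h4 : (φ x) v = x • v := rfl
        rw [h4] at h3
        rw [h3, map_inv, ← h2, mul_inv_cancel_right]
      rw [hfpf x hx1 v this, map_one]
    · rcases hX with h | ⟨p, q, hp, hq, h⟩
      · left
        exact ⟨⟨fun a b => by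
          obtain ⟨a, rfl⟩ := e.surjective a
          obtain ⟨b, rfl⟩ := e.surjective b
          rw [← map_mul, ← map_mul, h]⟩⟩
      · right
        exact ⟨p, q, hp, hq, by rw [← h]; exact (Nat.card_congr e.toEquiv).symm⟩
  exact isCyclic_of_injective e.toMonoidHom e.injective


section

variable {W A : Type*} [Group W] [Finite W] [CommGroup A] [Finite A] [MulDistribMulAction W A]

/-- the kernel of the norm map of `X` on the `t`-part of `A` -/
def KK (t : ℕ) (X : Subgroup W) : Subgroup A where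
  carrier := {b | (∃ k : ℕ, b ^ t ^ k = 1) ∧ ∏ᶠ x : X, (x : W) • b = 1}
  one_mem' := ⟨⟨0, one_pow _⟩, by simp⟩
  mul_mem' := by
    rintro a b ⟨⟨k, hk⟩, ha⟩ ⟨⟨l, hl⟩, hb⟩
    refine ⟨⟨k + l, ?_⟩, ?_⟩
    · rw [mul_pow, pow_add, pow_mul, hk, mul_comm (t ^ k), pow_mul, hl]; simp
    · simp_rw [smul_mul']
      rw [finprod_mul_distrib (Set.toFinite _) (Set.toFinite _), ha, hb, one_mul]
  inv_mem' := by
    rintro a ⟨⟨k, hk⟩, ha⟩
    refine ⟨⟨k, by rw [inv_pow, hk, inv_one]⟩, ?_⟩
    simp_rw [smul_inv']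
    rw [finprod_inv_distrib, ha, inv_one]

theorem mem_KK {t : ℕ} {X : Subgroup W} {b : A} :
    b ∈ KK t X ↔ (∃ k : ℕ, b ^ t ^ k = 1) ∧ ∏ᶠ x : X, (x : W) • b = 1 := Iff.rfl

theorem KK_smul {t : ℕ} {X : Subgroup W} {h : W} (hX : ∀ x ∈ X, h⁻¹ * x * h ∈ X) {b : A} (hb : b ∈ KK t X) :
    h • b ∈ KK t X := by
  obtain ⟨⟨k, hk⟩, hb⟩ := hb
  refine ⟨⟨k, by rw [← smul_pow', hk, smul_one]⟩, ?_⟩
  have hinj : Function.Injective (fun x : X => (⟨h⁻¹ * x * h, hX x x.2⟩ : X)) := by
    intro x y hxy
    have := congrArg Subtype.val hxy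
    simpa using this
  have hbij : Function.Bijective (fun x : X => (⟨h⁻¹ * x * h, hX x x.2⟩ : X)) :=
    Finite.injective_iff_bijective.1 hinj
  have h1 : ∏ᶠ x : X, (x : W) • (h • b) = ∏ᶠ x : X, h • ((x : W) • b) := by
    rw [← finprod_comp_equiv (Equiv.ofBijective _ hbij) (f := fun x : X => h • ((x : W) • b))]
    apply finprod_congr
    intro x
    simp [smul_smul, mul_assoc]
  rw [h1]
  have h2 : ∏ᶠ x : X, h • ((x : W) • b) = h • ∏ᶠ x : X, ((x : W) • b) := by
    have := MonoidHom.map_finprod (MulDistribMulAction.toMonoidHom A h) (f := fun x : X => ((x : W) • b))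
      (Set.toFinite _)
    exact this.symm
  rw [h2, hb, smul_one]

theorem KK_inf {t : ℕ} {X : Subgroup W} {A0 : Subgroup A} (h0 : ∀ w : W, ∀ a ∈ A0, w • a = a)
    (hX : Nat.Coprime t (Nat.card X)) {b : A} (hb : b ∈ KK t X) (hb0 : b ∈ A0) : b = 1 := by
  obtain ⟨⟨k, hk⟩, hb⟩ := hb
  have h1 : ∏ᶠ x : X, (x : W) • b = b ^ Nat.card X := by
    haveI := Fintype.ofFinite X
    rw [finprod_eq_prod_of_fintype, Finset.prod_congr rfl (fun x _ => h0 _ b hb0), Finset.prod_const,
      Finset.card_univ, Nat.card_eq_fintype_card]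
  rw [h1] at hb
  have h2 : orderOf b ∣ t ^ k := orderOf_dvd_of_pow_eq_one hk
  have h3 : orderOf b ∣ Nat.card X := orderOf_dvd_of_pow_eq_one hb
  have h4 : orderOf b ∣ 1 := by
    rw [← Nat.Coprime.gcd_eq_one (Nat.Coprime.pow_left k hX)]
    exact Nat.dvd_gcd h2 h3
  rw [Nat.dvd_one, orderOf_eq_one_iff] at h4
  exact h4

theorem KK_ne_bot {t : ℕ} {X : Subgroup W} {A0 : Subgroup A}
    (h1 : ∀ w : W, w ≠ 1 → ∀ a : A, w • a = a → a ∈ A0) (hX : X ≠ ⊥)
    (ha : ∃ a : A, a ∉ A0 ∧ ∃ k, a ^ t ^ k = 1) : KK (A := A) t X ≠ ⊥ := by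
  obtain ⟨a, ha, k, hk⟩ := ha
  obtain ⟨⟨x, hx⟩, hx1'⟩ := Subgroup.ne_bot_iff_exists_ne_one.1 hX
  have hx1 : x ≠ 1 := fun h => hx1' (Subtype.ext h)
  intro hbot
  apply ha
  apply h1 x hx1 a
  have hmem : (x • a) * a⁻¹ ∈ KK (A := A) t X := by
    refine ⟨⟨k, ?_⟩, ?_⟩
    · rw [mul_pow, ← smul_pow', hk, smul_one, inv_pow, hk, inv_one, one_mul]
    · simp_rw [smul_mul', smul_inv']
      rw [finprod_mul_distrib (Set.toFinite _) (Set.toFinite _), finprod_inv_distrib]
      have h2 : ∏ᶠ y : X, (y : W) • x • a = ∏ᶠ y : X, (y : W) • a := by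
        rw [← finprod_comp_equiv (Equiv.mulRight (⟨x, hx⟩ : X)) (f := fun y : X => (y : W) • a)]
        apply finprod_congr
        intro y
        simp [smul_smul]
      rw [h2, mul_inv_cancel]
  rw [hbot, mem_bot, mul_inv_eq_one] at hmem
  exact hmem

/-- no nontrivial `t'`-subgroup is normalized by a nontrivial `t`-element -/
theorem key1 {A0 : Subgroup A} (h0 : ∀ w : W, ∀ a ∈ A0, w • a = a)
    (h1 : ∀ w : W, w ≠ 1 → ∀ a : A, w • a = a → a ∈ A0) {t : ℕ} (ht : t.Prime)
    (ha : ∃ a : A, a ∉ A0 ∧ ∃ k, a ^ t ^ k = 1) {X : Subgroup W} (hX : Nat.Coprime t (Nat.card X)) (hXb : X ≠ ⊥)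
    {h : W} (hh1 : h ≠ 1) (hht : ∃ j, h ^ t ^ j = 1) (hhX : h ∈ normalizer (X : Set W)) : False := by
  have : Fact t.Prime := ⟨ht⟩
  obtain ⟨j, hj⟩ := hht
  let S : SubMulAction (zpowers h) A :=
    { carrier := (KK t X : Subgroup A)
      smul_mem' := by
        rintro ⟨g, hg⟩ b hb
        have hg2 : g ∈ normalizer (X : Set W) := (zpowers_le.2 hhX) hg
        apply KK_smul (t := t) (X := X) (h := g) _ hb
        intro x hx
        have := (mem_normalizer_iff.1 (inv_mem hg2) x).1 hx
        simpa using this }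
  have hp : IsPGroup t (zpowers h) := by
    intro g
    refine ⟨j, ?_⟩
    obtain ⟨g, hg⟩ := g
    obtain ⟨n, rfl⟩ := mem_zpowers_iff.1 hg
    apply Subtype.ext
    simp only [SubmonoidClass.mk_pow, OneMemClass.coe_one]
    rw [← zpow_natCast, ← zpow_mul, mul_comm, zpow_mul, zpow_natCast, hj, one_zpow]
  have hK : IsPGroup t (KK (A := A) t X) := by
    rintro ⟨b, ⟨k, hk⟩, -⟩
    exact ⟨k, Subtype.ext hk⟩
  have hne := KK_ne_bot (t := t) (X := X) h1 hXb ha
  have hdvd : t ∣ Nat.card S := by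
    have : Nat.card S = Nat.card (KK (A := A) t X) := rfl
    rw [this]
    obtain ⟨n, hn⟩ := IsPGroup.iff_card.1 hK
    have hn0 : n ≠ 0 := by
      rintro rfl
      apply hne
      exact Subgroup.card_eq_one.1 (by rw [hn, pow_zero])
    rw [hn]
    exact dvd_pow_self _ hn0
  obtain ⟨b, hb, hb1⟩ := hp.exists_fixed_point_of_prime_dvd_card_of_fixed_point S hdvd
    (a := (⟨1, (KK (A := A) t X).one_mem⟩ : S)) (by
      intro g
      apply Subtype.ext
      exact smul_one _)
  apply hb1
  apply Subtype.ext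
  have hb2 := hb ⟨h, mem_zpowers h⟩
  have hb3 : h • (b : A) = b := congrArg Subtype.val hb2
  exact (KK_inf h0 hX b.2 (h1 h hh1 _ hb3)).symm

/-- `t'`-subgroups which are abelian or of order `p q` are cyclic. -/
theorem key2 {A0 : Subgroup A} (h0 : ∀ w : W, ∀ a ∈ A0, w • a = a)
    (h1 : ∀ w : W, w ≠ 1 → ∀ a : A, w • a = a → a ∈ A0) {t : ℕ}
    (ha : ∃ a : A, a ∉ A0 ∧ ∃ k, a ^ t ^ k = 1) {X : Subgroup W} (hX : Nat.Coprime t (Nat.card X))
    (hX2 : (∀ a b : X, a * b = b * a) ∨ ∃ p q : ℕ, p.Prime ∧ q.Prime ∧ Nat.card X = p * q) : IsCyclic X := by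
  by_cases hXb : X = ⊥
  · subst hXb; infer_instance
  have hne := KK_ne_bot (t := t) (X := X) h1 hXb ha
  have : Nontrivial (KK (A := A) t X) := (Subgroup.nontrivial_iff_ne_bot _).2 hne
  have hcl : ∀ g ∈ X, ∀ b ∈ KK (A := A) t X, g • b ∈ KK (A := A) t X := by
    intro g hg b hb
    apply KK_smul (t := t) (X := X) (h := g) _ hb
    intro x hx
    exact X.mul_mem (X.mul_mem (X.inv_mem hg) hx) hg
  letI : MulDistribMulAction X (KK (A := A) t X) :=
    { smul := fun g b => ⟨(g : W) • (b : A), hcl g g.2 b b.2⟩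
      one_smul := fun b => Subtype.ext (one_smul _ _)
      mul_smul := fun g h b => Subtype.ext (mul_smul (g : W) (h : W) (b : A))
      smul_mul := fun g a b => Subtype.ext (smul_mul' (g : W) (a : A) (b : A))
      smul_one := fun g => Subtype.ext (smul_one (g : W)) }
  apply fpf_cyclic (X := X) (V := KK (A := A) t X) _ hX2
  intro x hx v hv
  have hv2 : (x : W) • (v : A) = v := congrArg Subtype.val hv
  apply Subtype.ext
  exact KK_inf h0 hX v.2 (h1 x (fun h => hx (Subtype.ext h)) _ hv2)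

end

theorem cyc_unique {C : Type*} [Group C] [Finite C] [IsCyclic C] (H K : Subgroup C)
    (h : Nat.card H = Nat.card K) : H = K := by
  classical
  have := Fintype.ofFinite C
  have key : ∀ L : Subgroup C, Nat.card L = Nat.card K → (L : Set C) = {a | a ^ Nat.card K = 1} := by
    intro L hL
    have hsub : (L : Set C) ⊆ {a | a ^ Nat.card K = 1} := by
      intro a ha
      have h1 : orderOf a ∣ Nat.card L := Subgroup.orderOf_dvd_natCard L ha
      rw [hL] at h1
      exact orderOf_dvd_iff_pow_eq_one.1 h1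
    apply Set.eq_of_subset_of_ncard_le hsub _ (Set.toFinite _)
    have h2 := IsCyclic.card_pow_eq_one_le (α := C) (n := Nat.card K) Nat.card_pos
    have h3 : Set.ncard {a : C | a ^ Nat.card K = 1} ≤ Nat.card K := by
      rw [Set.ncard_eq_toFinset_card']
      simpa using h2
    have h4 : Set.ncard (L : Set C) = Nat.card L := rfl
    rw [h4, hL]
    exact h3
  apply SetLike.coe_injective
  rw [key H h, key K rfl]

/-- in a finite group, an element all of whose powers of prime power order lie in `C` lies in `C` -/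
theorem exists_prim {W : Type*} [Group W] [Finite W] (C : Subgroup W) {g : W} (hg : g ∉ C) :
    ∃ g' ∈ zpowers g, g' ∉ C ∧ ∃ u : ℕ, u.Prime ∧ ∃ k, g' ^ u ^ k = 1 := by
  by_contra hcon
  push Not at hcon
  have key : ∀ n : ℕ, ∀ x ∈ zpowers g, orderOf x = n → x ∈ C := by
    intro n
    induction n using Nat.recOnPosPrimePosCoprime with
    | prime_pow p n hp hn =>
      intro x hx hn
      by_contra hxC
      exact hcon x hx hxC p hp n (by rw [← hn, pow_orderOf_eq_one])
    | zero =>
      intro x hx h0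
      exact absurd h0 (orderOf_pos x).ne'
    | one =>
      intro x hx h1
      rw [orderOf_eq_one_iff.1 h1]
      exact C.one_mem
    | coprime a b ha hb hab iha ihb =>
      intro x hx hxn
      have h1 : x ^ a ∈ C := by
        apply ihb _ (pow_mem hx a)
        rw [orderOf_pow_of_dvd (by omega) (by rw [hxn]; exact dvd_mul_right _ _), hxn]
        exact Nat.mul_div_cancel_left _ (by omega)
      have h2 : x ^ b ∈ C := by
        apply iha _ (pow_mem hx b)
        rw [orderOf_pow_of_dvd (by omega) (by rw [hxn]; exact dvd_mul_left _ _), hxn]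
        exact Nat.mul_div_cancel _ (by omega)
      have h3 : (x : W) ^ ((Nat.gcd a b : ℕ) : ℤ) ∈ C := by
        rw [Nat.gcd_eq_gcd_ab, zpow_add, zpow_mul, zpow_mul, zpow_natCast, zpow_natCast]
        exact C.mul_mem (C.zpow_mem h1 _) (C.zpow_mem h2 _)
      rw [hab] at h3
      simpa using h3
  exact hg (key _ g (mem_zpowers g) rfl)

section

variable {W A : Type*} [Group W] [Finite W] [CommGroup A] [Finite A] [MulDistribMulAction W A]

theorem sylow_cyclic {A0 : Subgroup A} (h0 : ∀ w : W, ∀ a ∈ A0, w • a = a)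
    (h1 : ∀ w : W, w ≠ 1 → ∀ a : A, w • a = a → a ∈ A0) {t s : ℕ} (ht : t.Prime) (hs : s.Prime) (hts : t ≠ s)
    (ht2 : t ≠ 2) (hsa : ∃ a : A, a ∉ A0 ∧ ∃ k, a ^ s ^ k = 1) (T : Subgroup W) (hT : IsPGroup t T) : IsCyclic T := by
  have : Fact t.Prime := ⟨ht⟩
  have hcop : ∀ X : Subgroup W, X ≤ T → Nat.Coprime s (Nat.card X) := by
    intro X hX
    obtain ⟨n, hn⟩ := IsPGroup.iff_card.1 (hT.to_le hX)
    rw [hn]
    exact Nat.Coprime.pow_right _ ((Nat.coprime_primes hs ht).2 hts.symm)
  by_cases hTb : T = ⊥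
  · subst hTb; infer_instance
  have : Nontrivial T := (Subgroup.nontrivial_iff_ne_bot _).2 hTb
  have huniq : ∀ H K : Subgroup T, Nat.card H = t → Nat.card K = t → H = K := by
    have hcn : Nontrivial (center T) := hT.center_nontrivial
    obtain ⟨z, hz⟩ := exists_prime_orderOf_dvd_card' (G := center T) t (by
      obtain ⟨n, hn⟩ := IsPGroup.iff_card.1 (hT.to_subgroup (center T))
      have hn0 : n ≠ 0 := by
        rintro rfl
        rw [pow_zero] at hn
        exact (Finite.one_lt_card (α := center T)).ne' hn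
      rw [hn]
      exact dvd_pow_self _ hn0)
    have hz' : orderOf (z : T) = t := by rw [Subgroup.orderOf_coe, hz]
    let Z0 : Subgroup T := zpowers (z : T)
    have hZ0 : Nat.card Z0 = t := by rw [Nat.card_zpowers, hz']
    have hZc : Z0 ≤ center T := zpowers_le.2 z.2
    have main : ∀ H : Subgroup T, Nat.card H = t → H = Z0 := by
      intro H hH
      have hHc : ∀ a ∈ H, ∀ b ∈ H, a * b = b * a := by
        have : IsCyclic H := isCyclic_of_prime_card hH
        intro a ha b hb
        have := IsCyclic.commGroup (α := H)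
        have h5 : (⟨a, ha⟩ : H) * ⟨b, hb⟩ = ⟨b, hb⟩ * ⟨a, ha⟩ := mul_comm' _ _
        exact congrArg Subtype.val h5
      let X : Subgroup T := H ⊔ Z0
      have hXc : ∀ a ∈ X, ∀ b ∈ X, a * b = b * a := by
        have hle : X ≤ centralizer (X : Set T) := by
          apply sup_le
          · intro a ha
            have : X ≤ centralizer ({a} : Set T) := by
              apply sup_le
              · intro b hb
                rw [mem_centralizer_singleton_iff]
                exact hHc _ hb _ ha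
              · intro b hb
                rw [mem_centralizer_singleton_iff]
                exact (mem_center_iff.1 (hZc hb) a).symm
            rw [mem_centralizer_iff]
            intro b hb
            exact mem_centralizer_singleton_iff.1 (this hb)
          · exact hZc.trans (center_le_centralizer _)
        intro a ha b hb
        exact ((mem_centralizer_iff.1 (hle ha)) b hb).symm
      have hcyc : IsCyclic (X.map T.subtype) := by
        apply key2 (t := s) h0 h1 hsa (hcop _ _)
        · left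
          rintro ⟨_, a, ha, rfl⟩ ⟨_, b, hb, rfl⟩
          apply Subtype.ext
          exact congrArg (fun z : T => (z : W)) (hXc a ha b hb)
        · rintro _ ⟨a, -, rfl⟩
          exact a.2
      have hcyc2 : IsCyclic X := by
        have e := X.equivMapOfInjective T.subtype T.subtype_injective
        exact isCyclic_of_injective e.toMonoidHom e.injective
      have h6 := cyc_unique (H.subgroupOf X) (Z0.subgroupOf X) (by
        rw [Nat.card_congr (Subgroup.subgroupOfEquivOfLe (le_sup_left : H ≤ X)).toEquiv,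
          Nat.card_congr (Subgroup.subgroupOfEquivOfLe (le_sup_right : Z0 ≤ X)).toEquiv, hH, hZ0])
      rw [subgroupOf_inj, inf_eq_left.2 (le_sup_left : H ≤ X), inf_eq_left.2 (le_sup_right : Z0 ≤ X)] at h6
      exact h6
    intro H K hH hK
    rw [main H hH, main K hK]
  rcases Cfsg.Agent.S0016.result t hT huniq with h | h
  · exact h
  · exact absurd h.1 ht2

theorem no_action_aux {A0 : Subgroup A} (h0 : ∀ w : W, ∀ a ∈ A0, w • a = a)
    (h1 : ∀ w : W, w ≠ 1 → ∀ a : A, w • a = a → a ∈ A0) {t s : ℕ} (ht : t.Prime) (hs : s.Prime) (hts : t ≠ s)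
    (ht2 : t ≠ 2) (htW : t ∣ Nat.card W) (hsW : s ∣ Nat.card W)
    (hta : ∃ a : A, a ∉ A0 ∧ ∃ k, a ^ t ^ k = 1) (hsa : ∃ a : A, a ∉ A0 ∧ ∃ k, a ^ s ^ k = 1) : False := by
  have : Fact t.Prime := ⟨ht⟩
  have : Fact s.Prime := ⟨hs⟩
  obtain ⟨T⟩ : Nonempty (Sylow t W) := inferInstance
  have hTc : IsCyclic (T : Subgroup W) := sylow_cyclic h0 h1 ht hs hts ht2 hsa _ T.isPGroup'
  obtain ⟨n, hn⟩ := IsPGroup.iff_card.1 T.isPGroup'
  have hTt : t ∣ Nat.card (T : Subgroup W) := by
    have := T.dvd_card_of_dvd_card htW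
    exact this
  have hTb : (T : Subgroup W) ≠ ⊥ := by
    intro h
    rw [h, card_bot] at hTt
    exact ht.one_lt.ne' (Nat.dvd_one.1 hTt)
  obtain ⟨y, hy⟩ := exists_prime_orderOf_dvd_card' (G := (T : Subgroup W)) t hTt
  have hTs : Nat.Coprime s (Nat.card (T : Subgroup W)) := by
    rw [hn]; exact Nat.Coprime.pow_right _ ((Nat.coprime_primes hs ht).2 hts.symm)
  have hyT : (y : W) ∈ (T : Subgroup W) := y.2
  have hy' : orderOf (y : W) = t := by rw [Subgroup.orderOf_coe, hy]
  have hy1 : (y : W) ≠ 1 := by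
    intro h
    rw [h, orderOf_one] at hy'
    exact ht.one_lt.ne hy'
  have hyt : ∃ j, (y : W) ^ t ^ j = 1 := ⟨1, by
    have := pow_orderOf_eq_one (y : W)
    rw [hy'] at this
    rw [pow_one, this]⟩
  have hTab : ∀ a ∈ (T : Subgroup W), ∀ b ∈ (T : Subgroup W), a * b = b * a := by
    intro a ha b hb
    have := IsCyclic.commGroup (α := (T : Subgroup W))
    have h5 : (⟨a, ha⟩ : (T : Subgroup W)) * ⟨b, hb⟩ = ⟨b, hb⟩ * ⟨a, ha⟩ := mul_comm' _ _
    exact congrArg Subtype.val h5
  -- a t-element commuting with a nontrivial t'-element: impossible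
  have hcomm : ∀ g : W, g ≠ 1 → Nat.Coprime t (orderOf g) → y * g = g * (y : W) → False := by
    intro g hg hgo hyg
    apply key1 (X := zpowers g) h0 h1 ht hta (by rw [Nat.card_zpowers]; exact hgo)
      (by rwa [Ne, zpowers_eq_bot]) hy1 hyt
    apply (centralizer_le_normalizer _ : centralizer _ ≤ _)
    rw [mem_centralizer_iff]
    intro b hb
    obtain ⟨k, rfl⟩ := mem_zpowers_iff.1 hb
    have : Commute (y : W) g := hyg
    exact (this.zpow_right k).symm
  have hN : normalizer ((T : Subgroup W) : Set W) ≤ centralizer ((T : Subgroup W) : Set W) := by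
    intro g hg
    by_contra hgC
    obtain ⟨g', hg', hgC', u, hu, k, hk⟩ := exists_prim _ hgC
    have : Fact u.Prime := ⟨hu⟩
    have hgN : g' ∈ normalizer ((T : Subgroup W) : Set W) := (zpowers_le.2 hg) hg'
    have hg1 : g' ≠ 1 := fun h => hgC' (h ▸ one_mem _)
    by_cases hus : u = s
    · subst hus
      exact key1 (X := (T : Subgroup W)) h0 h1 hs hsa hTs hTb hg1 ⟨k, hk⟩ hgN
    by_cases hut : u = t
    · subst hut
      have hgT : g' ∈ (T : Subgroup W) := by
        have hp : IsPGroup u (zpowers g') := by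
          rw [IsPGroup.iff_card]
          obtain ⟨j, -, hj⟩ := (Nat.dvd_prime_pow hu).1 (orderOf_dvd_of_pow_eq_one hk)
          exact ⟨j, by rw [Nat.card_zpowers, hj]⟩
        have hle : zpowers g' ≤ normalizer ((T : Subgroup W) : Set W) := zpowers_le.2 hgN
        have h7 : IsPGroup u (((T : Subgroup W) ⊔ zpowers g' : Subgroup W)) := by
          rw [sup_comm]
          exact hp.to_sup_of_normal_right' T.isPGroup' hle
        have h8 := T.is_maximal' h7 le_sup_left
        rw [← h8]
        exact (le_sup_right : zpowers g' ≤ _) (mem_zpowers g')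
      apply hgC'
      rw [mem_centralizer_iff]
      intro b hb
      exact hTab b hb g' hgT
    -- the element of order u
    obtain ⟨j, hj⟩ : ∃ j, orderOf g' = u ^ (j + 1) := by
      obtain ⟨j, -, hj⟩ := (Nat.dvd_prime_pow hu).1 (orderOf_dvd_of_pow_eq_one hk)
      rcases j with _ | j
      · rw [pow_zero, orderOf_eq_one_iff] at hj
        exact absurd hj hg1
      · exact ⟨j, hj⟩
    let g0 : W := g' ^ u ^ j
    have hg0 : orderOf g0 = u := by
      have h9 : u ^ j ∣ orderOf g' := by rw [hj]; exact pow_dvd_pow _ (Nat.le_succ _)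
      show orderOf (g' ^ u ^ j) = u
      rw [orderOf_pow_of_dvd (pow_pos hu.pos _).ne' h9, hj, pow_succ, Nat.mul_div_cancel_left _ (pow_pos hu.pos _)]
    have hg0N : g0 ∈ normalizer ((T : Subgroup W) : Set W) := pow_mem hgN _
    have hg01 : g0 ≠ 1 := by
      intro h
      rw [h, orderOf_one] at hg0
      exact hu.one_lt.ne hg0
    have hut' : Nat.Coprime t u := (Nat.coprime_primes ht hu).2 (Ne.symm hut)
    -- g0 normalizes ⟨y⟩
    have hyN : zpowers g0 ≤ normalizer ((zpowers (y : W)) : Set W) := by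
      rw [zpowers_le, mem_normalizer_iff_map]
      have h10 : (zpowers (y : W)).map (MulAut.conj g0).toMonoidHom ≤ (T : Subgroup W) := by
        rintro _ ⟨b, hb, rfl⟩
        have hbT : b ∈ (T : Subgroup W) := (zpowers_le.2 hyT) hb
        exact (mem_normalizer_iff.1 hg0N b).1 hbT
      have h11 : zpowers (y : W) ≤ (T : Subgroup W) := zpowers_le.2 hyT
      have h12 := cyc_unique (C := (T : Subgroup W)) (((zpowers (y : W)).map (MulAut.conj g0).toMonoidHom).subgroupOf T)
        ((zpowers (y : W)).subgroupOf T) (by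
          rw [Nat.card_congr (Subgroup.subgroupOfEquivOfLe h10).toEquiv,
            Nat.card_congr (Subgroup.subgroupOfEquivOfLe h11).toEquiv]
          exact card_map_of_injective (MulAut.conj g0).injective)
      rw [subgroupOf_inj, inf_eq_left.2 h10, inf_eq_left.2 h11] at h12
      exact h12
    let X : Subgroup W := zpowers (y : W) ⊔ zpowers g0
    have hdisj : Disjoint (zpowers (y : W)) (zpowers g0) := by
      rw [disjoint_iff]
      apply Subgroup.inf_eq_bot_of_coprime
      rw [Nat.card_zpowers, Nat.card_zpowers, hy', hg0]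
      exact hut'
    have hXcard : Nat.card X = t * u := by
      have h13 := SubgroupTools.card_sup_of_disjoint hyN hdisj
      rw [Nat.card_zpowers, Nat.card_zpowers, hy', hg0] at h13
      exact h13
    have hXc : IsCyclic X := by
      apply key2 (t := s) h0 h1 hsa _ (Or.inr ⟨t, u, ht, hu, hXcard⟩)
      rw [hXcard]
      exact Nat.Coprime.mul_right ((Nat.coprime_primes hs ht).2 hts.symm) ((Nat.coprime_primes hs hu).2 (Ne.symm hus))
    have hyX : (y : W) ∈ X := (le_sup_left : zpowers (y : W) ≤ X) (mem_zpowers _)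
    have hgX : g0 ∈ X := (le_sup_right : zpowers g0 ≤ X) (mem_zpowers _)
    have := IsCyclic.commGroup (α := X)
    have h14 : (⟨y, hyX⟩ : X) * ⟨g0, hgX⟩ = ⟨g0, hgX⟩ * ⟨y, hyX⟩ := mul_comm' _ _
    exact hcomm g0 hg01 (by rw [hg0]; exact hut') (congrArg Subtype.val h14)
  -- Burnside transfer
  let M := (MonoidHom.transferSylow T hN).ker
  have hM : ¬ t ∣ Nat.card M := MonoidHom.not_dvd_card_ker_transferSylow T hN
  have hMb : M ≠ ⊥ := by
    intro h
    have h15 : Function.Injective (MonoidHom.transferSylow T hN) := (MonoidHom.ker_eq_bot_iff _).1 h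
    have h16 : Nat.card W ∣ Nat.card (T : Subgroup W) := by
      have := Nat.card_congr (MonoidHom.ofInjective h15).toEquiv
      rw [this]
      exact Subgroup.card_subgroup_dvd_card _
    have h17 : s ∣ Nat.card (T : Subgroup W) := hsW.trans h16
    exact hs.one_lt.ne' (Nat.dvd_one.1 (hTs ▸ Nat.dvd_gcd dvd_rfl h17))
  exact key1 (X := M) h0 h1 ht hta ((Nat.Prime.coprime_iff_not_dvd ht).2 hM) hMb hy1 hyt (by
    rw [normalizer_eq_top]; exact mem_top _)

/-- **Main lemma.** -/
theorem no_action {A0 : Subgroup A} (h0 : ∀ w : W, ∀ a ∈ A0, w • a = a)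
    (h1 : ∀ w : W, w ≠ 1 → ∀ a : A, w • a = a → a ∈ A0) {t s : ℕ} (ht : t.Prime) (hs : s.Prime) (hts : t ≠ s)
    (htW : t ∣ Nat.card W) (hsW : s ∣ Nat.card W)
    (hta : ∃ a : A, a ∉ A0 ∧ ∃ k, a ^ t ^ k = 1) (hsa : ∃ a : A, a ∉ A0 ∧ ∃ k, a ^ s ^ k = 1) : False := by
  by_cases ht2 : t = 2
  · have hs2 : s ≠ 2 := fun h => hts (ht2.trans h.symm)
    exact no_action_aux h0 h1 hs ht hts.symm hs2 hsW htW hsa hta
  · exact no_action_aux h0 h1 ht hs hts ht2 htW hsW hta hsa

end

end Cfsg.Agent.Lib.SizeAct
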