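import Cfsg.Agent.Lib.SmCof9

/-!
# Simple groups of order `3 p^a q^b`, III: the order 168 (helper75)
-/

set_option autoImplicit false
set_option linter.all false

universe u

namespace Cfsg.Agent.Lib.SmCof

open Cfsg CharBasic BlockRing BlockSection
open scoped ComplexConjugate

variable {G : Type u} [Group G] [Finite G]

theorem no_sq {c w : ℕ} (hw : 0 < w) (h : c ^ 2 = 2 * w ^ 2) : False := by
  have hc : c ≠ 0 := by
    rintro rfl
    have : 0 < w ^ 2 := by positivity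
    omega
  have h1 : (c ^ 2).factorization 2 = (2 * w ^ 2).factorization 2 := by rw [h]
  rw [Nat.factorization_pow, Nat.factorization_mul (by norm_num) (by positivity), Nat.factorization_pow,
    Nat.prime_two.factorization] at h1
  simp only [Finsupp.add_apply, Finsupp.smul_apply, smul_eq_mul, Finsupp.single_eq_same] at h1
  omega

theorem norm_le_degree {χ : G → ℂ} (hχ : IsCharacter G χ) (g : G) : ‖χ g‖ ≤ (charDegree χ : ℝ) := by
  have h0 := BlockDeg.charDegree_cast hχ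
  obtain ⟨n, ρ, rfl⟩ := hχ
  have h1 := CharValues.norm_character_le ρ g
  rw [Representation.char_one] at h0
  have h2 : (charDegree ρ.character : ℂ) = ((Module.finrank ℂ (Fin n → ℂ) : ℕ) : ℂ) := h0
  have h3 : charDegree ρ.character = Module.finrank ℂ (Fin n → ℂ) := by exact_mod_cast h2
  rw [h3]
  exact h1

/-- a central involution of a Sylow `2`-subgroup -/
theorem exists_central_inv {m : ℕ} (hm : m ≠ 0) (h : 2 ^ m ∣ Nat.card G) :
    ∃ z : G, orderOf z = 2 ∧ 2 ^ m ≤ Nat.card (Subgroup.centralizer ({z} : Set G)) := by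
  classical
  have hf2 : Fact (Nat.Prime 2) := ⟨Nat.prime_two⟩
  obtain ⟨Q, hQ⟩ := Sylow.exists_subgroup_card_pow_prime 2 h
  have hQp : IsPGroup 2 Q := IsPGroup.of_card hQ
  have hQn : Nontrivial Q := by
    rw [← Finite.one_lt_card_iff_nontrivial, hQ]
    exact Nat.one_lt_two_pow hm
  have hcn : Nontrivial (Subgroup.center Q) := hQp.center_nontrivial
  have h2 : 2 ∣ Nat.card (Subgroup.center Q) := by
    obtain ⟨n, hn⟩ := IsPGroup.iff_card.1 (hQp.to_subgroup (Subgroup.center Q))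
    rw [hn]
    apply dvd_pow_self
    rintro rfl
    rw [pow_zero] at hn
    have := Finite.one_lt_card_iff_nontrivial.2 hcn
    omega
  obtain ⟨z, hz⟩ := exists_prime_orderOf_dvd_card' 2 h2
  refine ⟨((z : Q) : G), by rw [Subgroup.orderOf_coe, Subgroup.orderOf_coe]; exact hz, ?_⟩
  rw [← hQ]
  refine Subgroup.card_le_of_le (fun x hx => ?_) |> fun h => h
  rw [Subgroup.mem_centralizer_singleton_iff]
  have h3 := Subgroup.mem_center_iff.1 z.2 ⟨x, hx⟩
  exact congrArg Subtype.val h3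

theorem order_three [IsSimpleGroup G] (hZ : Subgroup.center G = ⊥) {m k r : ℕ} (hm : 3 ≤ m)
    (hcard : Nat.card G = 3 * 2 ^ m * r) (hrk : (r = 5 ∧ k = 2) ∨ (r = 7 ∧ k = 3)) {t : G}
    (ht : orderOf t = 3) (hreal : ∃ g, g * t * g⁻¹ = t⁻¹)
    (hC : Nat.card (Subgroup.centralizer ({t} : Set G)) = 3) {α β : IrrCharacter G} {e f : ℤ}
    (he : e = 1 ∨ e = -1) (hf : f = 1 ∨ f = -1) (hα1 : (α : G → ℂ) ≠ fun _ => 1)
    (hβ1 : (β : G → ℂ) ≠ fun _ => 1) (hαβ : α ≠ β) (hαt : (α : G → ℂ) t = e) (hβt : (β : G → ℂ) t = f)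
    (hα : charDegree (α : G → ℂ) = 2 ^ k) (hβ : charDegree (β : G → ℂ) = r)
    (hrel : 1 + e * (2 : ℤ) ^ k + f * r = 0) : Nat.card G = 168 := by
  classical
  have hr0 : (r : ℚ) ≠ 0 := by rcases hrk with ⟨rfl, -⟩ | ⟨rfl, -⟩ <;> norm_num
  have hk2 : ((2 : ℚ) ^ k) ≠ 0 := by positivity
  have hee : (e : ℚ) * e = 1 := by rcases he with rfl | rfl <;> norm_num
  have hfe : f = -e := by
    rcases hrk with ⟨rfl, rfl⟩ | ⟨rfl, rfl⟩ <;> rcases he with rfl | rfl <;> rcases hf with rfl | rfl <;>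
      first | rfl | (exfalso; norm_num at hrel)
  have key : ∀ s : G, orderOf s = 2 → ∃ u : ℤ, u < 2 ^ k ∧ -(2 : ℤ) ^ k < u ∧
      (Nat.card {p : G × G // IsConj s p.1 ∧ IsConj s p.2 ∧ p.1 * p.2 = t} : ℚ) *
        (Nat.card (Subgroup.centralizer ({s} : Set G)) : ℚ) ^ 2 * (2 ^ k * r) =
      Nat.card G * ((2 : ℚ) ^ k - u) ^ 2 := by
    intro s hs
    obtain ⟨u, v, hu, hv, h1, h2⟩ := inv_formula ht hreal hC he hf hα1 hβ1 hαβ hαt hβt hs
    have hs1 : s ≠ 1 := by rintro rfl; simp at hs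
    have hα1' : (α : G → ℂ) 1 = ((2 : ℤ) ^ k : ℤ) := by
      rw [(BlockDefect.charDegree_spec α.2).1, hα]; push_cast; rfl
    have hne1 : u ≠ 2 ^ k := by
      intro h
      apply hs1
      apply SimpleDeg.faithful hZ α.2 hα1
      rw [hu, h, hα1']
    have hne2 : u ≠ -2 ^ k := by
      intro h
      have h3 := neg_central α.2.isCharacter (fun g hg => SimpleDeg.faithful hZ α.2 hα1 hg)
        (sq_of_order hs) (by rw [hu, h, hα1']; push_cast; rfl)
      rw [hZ, Subgroup.mem_bot] at h3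
      exact hs1 h3
    have hnorm := norm_le_degree α.2.isCharacter s
    rw [hu, hα, Complex.norm_intCast] at hnorm
    have habs : |u| ≤ 2 ^ k := by
      have h5 : ((|u| : ℤ) : ℝ) ≤ (((2 : ℤ) ^ k : ℤ) : ℝ) := by push_cast; push_cast at hnorm; exact hnorm
      exact_mod_cast h5
    rw [abs_le] at habs
    refine ⟨u, lt_of_le_of_ne habs.2 hne1, lt_of_le_of_ne habs.1 (Ne.symm hne2), ?_⟩
    rw [h2, hα, hβ]
    have h1q : (1 : ℚ) + e * u + f * v = 0 := by exact_mod_cast h1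
    have hrelq : (1 : ℚ) + e * 2 ^ k + f * r = 0 := by exact_mod_cast hrel
    have := alg_id (x := (2 : ℚ) ^ k) (y := r) (u := u) (v := v) (e := e) (f := f) hk2 hr0 hee
      (by rw [hfe]; push_cast; rfl) hrelq h1q
    push_cast
    rw [this]
    field_simp
  -- all involutions are conjugate
  have hpair : ∀ s : G, orderOf s = 2 → ∃ p q : G, IsConj s p ∧ IsConj s q ∧ p * q = t := by
    intro s hs
    obtain ⟨u, h1, h2, h3⟩ := key s hs
    by_contra hcon
    push Not at hcon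
    have h4 : Nat.card {p : G × G // IsConj s p.1 ∧ IsConj s p.2 ∧ p.1 * p.2 = t} = 0 := by
      rw [Nat.card_eq_zero]
      left
      exact ⟨fun p => hcon p.1.1 p.1.2 p.2.1 p.2.2.1 p.2.2.2⟩
    rw [h4] at h3
    push_cast at h3
    rw [zero_mul, zero_mul] at h3
    have h5 : (Nat.card G : ℚ) ≠ 0 := by exact_mod_cast Nat.card_pos.ne'
    have h6 : (2 : ℚ) ^ k - u ≠ 0 := by
      intro h
      have h7 : (2 : ℚ) ^ k = u := by linarith
      have h8 : (2 : ℤ) ^ k = u := by exact_mod_cast h7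
      omega
    exact (mul_ne_zero h5 (pow_ne_zero 2 h6)) h3.symm
  have hall := all_conj ht hC hpair
  obtain ⟨z, hz, hzc⟩ := exists_central_inv (G := G) (m := m) (by omega)
    (by rw [hcard]; exact ⟨3 * r, by ring⟩)
  obtain ⟨p, q, hp, hq, hpq⟩ := hpair z hz
  have hp2 := sq_of_order (orderOf_two_of_isConj hz hp)
  have hq2 := sq_of_order (orderOf_two_of_isConj hz hq)
  have hN := card_pairs_three ht hC hall hz hp2 (inverts_of_pair hp2 hq2 hpq)
  obtain ⟨u, h1, h2, h3⟩ := key z hz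
  rw [hN, hcard] at h3
  set c := Nat.card (Subgroup.centralizer ({z} : Set G)) with hc
  obtain ⟨w, hw⟩ : ∃ w : ℕ, (w : ℤ) = 2 ^ k - u := ⟨(2 ^ k - u).toNat, by rw [Int.toNat_of_nonneg]; omega⟩
  have hwpos : 0 < w := by omega
  have hwlt : w < 2 ^ (k + 1) := by
    have : (w : ℤ) < 2 ^ (k + 1) := by rw [hw, pow_succ]; linarith
    exact_mod_cast this
  have hwq : (2 : ℚ) ^ k - u = w := by
    have : ((w : ℤ) : ℚ) = ((2 ^ k - u : ℤ) : ℚ) := by rw [hw]
    push_cast at this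
    exact this.symm
  rw [hwq] at h3
  push_cast at h3
  have h4 : (c : ℚ) ^ 2 * 2 ^ k = 2 ^ m * (w : ℚ) ^ 2 := by
    apply mul_left_cancel₀ (mul_ne_zero (by norm_num : (3 : ℚ) ≠ 0) hr0)
    linear_combination h3
  have h5 : c ^ 2 * 2 ^ k = 2 ^ m * w ^ 2 := by exact_mod_cast h4
  have h6 : 2 ^ m * 2 ^ k ≤ w ^ 2 := by
    have h7 : 2 ^ m * (2 ^ m * 2 ^ k) ≤ 2 ^ m * w ^ 2 := by
      rw [← h5, ← mul_assoc]
      have h8 : 2 ^ m * 2 ^ m ≤ c ^ 2 := by rw [pow_two]; exact Nat.mul_le_mul hzc hzc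
      exact Nat.mul_le_mul_right _ h8
    exact Nat.le_of_mul_le_mul_left h7 (by positivity)
  rcases hrk with ⟨rfl, rfl⟩ | ⟨rfl, rfl⟩
  · exfalso
    have hw7 : w ≤ 7 := by norm_num at hwlt; omega
    have hw2 : w ^ 2 ≤ 49 := by nlinarith
    have hm3 : m < 4 := by
      by_contra hcon
      have : 2 ^ 4 ≤ 2 ^ m := Nat.pow_le_pow_right (by norm_num) (by omega)
      omega
    have hm' : m = 3 := by omega
    rw [hm'] at h5
    apply no_sq (c := c) (w := w) hwpos
    omega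
  · have hw15 : w ≤ 15 := by norm_num at hwlt; omega
    have hw2 : w ^ 2 ≤ 225 := by nlinarith
    have hm4 : m < 5 := by
      by_contra hcon
      have : 2 ^ 5 ≤ 2 ^ m := Nat.pow_le_pow_right (by norm_num) (by omega)
      omega
    have hm' : m = 3 ∨ m = 4 := by omega
    rcases hm' with rfl | rfl
    · rw [hcard]; norm_num
    · exfalso
      apply no_sq (c := c) (w := w) hwpos
      omega

end Cfsg.Agent.Lib.SmCof
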