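import Cfsg.Agent.Lib.SmCof10
import Cfsg.Agent.S4485

/-!
# Simple groups of order `3 p^a q^b`, IV (helper75)
-/

set_option autoImplicit false
set_option linter.all false

universe u

namespace Cfsg.Agent.Lib.SmCof

open Cfsg CharBasic BlockRing BlockSection
open scoped ComplexConjugate

variable {G : Type u} [Group G] [Finite G]

theorem no_two_pow_sq {r k : ℕ} (hr2 : ¬ 2 ∣ r) (hr3 : ¬ 3 ∣ r) (h5 : 5 ≤ r)
    (h : (2 : ℤ) ^ k = r ^ 2 + 1 ∨ (2 : ℤ) ^ k = r ^ 2 - 1) : False := by
  rcases h with h | h
  · have h' : 2 ^ k = r ^ 2 + 1 := by exact_mod_cast h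
    have hk : 2 ≤ k := by
      by_contra hcon
      have : k = 0 ∨ k = 1 := by omega
      rcases this with rfl | rfl <;> nlinarith
    have h4 : 4 ∣ 2 ^ k := by
      have := pow_dvd_pow 2 hk
      simpa using this
    rw [h'] at h4
    have hodd : r % 2 = 1 := by omega
    obtain ⟨j, hj⟩ : ∃ j, r = 2 * j + 1 := ⟨r / 2, by omega⟩
    rw [hj] at h4
    have : (2 * j + 1) ^ 2 + 1 = 4 * (j * j + j) + 2 := by ring
    rw [this] at h4
    omega
  · have h3 : (3 : ℤ) ∣ 2 ^ k := by
      rw [h]
      have : r % 3 = 1 ∨ r % 3 = 2 := by omega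
      rcases this with h6 | h6
      · obtain ⟨j, hj⟩ : ∃ j, r = 3 * j + 1 := ⟨r / 3, by omega⟩
        exact ⟨3 * j ^ 2 + 2 * j, by rw [hj]; push_cast; ring⟩
      · obtain ⟨j, hj⟩ : ∃ j, r = 3 * j + 2 := ⟨r / 3, by omega⟩
        exact ⟨3 * j ^ 2 + 4 * j + 1, by rw [hj]; push_cast; ring⟩
    have h7 : 3 ∣ 2 ^ k := by exact_mod_cast h3
    have h8 := Nat.prime_three.dvd_of_dvd_pow h7
    norm_num at h8

theorem fac_two {r m n : ℕ} (hr : r.Prime) (hr2 : r ≠ 2) : (3 * 2 ^ m * r ^ n).factorization 2 = m := by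
  have hr0 := hr.ne_zero
  rw [Nat.factorization_mul (by positivity) (by positivity),
    Nat.factorization_mul (by positivity) (by positivity)]
  simp only [Finsupp.add_apply, Nat.factorization_pow, Finsupp.smul_apply,
    hr.factorization, Nat.prime_two.factorization, Nat.prime_three.factorization, smul_eq_mul]
  rw [Finsupp.single_eq_same, Finsupp.single_eq_of_ne hr2.symm,
    Finsupp.single_eq_of_ne (by norm_num : (2 : ℕ) ≠ 3)]
  omega

theorem fac_r {r m n : ℕ} (hr : r.Prime) (hr2 : r ≠ 2) (hr3 : r ≠ 3) :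
    (3 * 2 ^ m * r ^ n).factorization r = n := by
  have hr0 := hr.ne_zero
  rw [Nat.factorization_mul (by positivity) (by positivity),
    Nat.factorization_mul (by positivity) (by positivity)]
  simp only [Finsupp.add_apply, Nat.factorization_pow, Finsupp.smul_apply,
    hr.factorization, Nat.prime_two.factorization, Nat.prime_three.factorization, smul_eq_mul]
  rw [Finsupp.single_eq_same, Finsupp.single_eq_of_ne hr2, Finsupp.single_eq_of_ne hr3]
  omega

theorem core_three [IsSimpleGroup G] (hZ : Subgroup.center G = ⊥) {r m n k l : ℕ} (hr : r.Prime)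
    (hr2 : r ≠ 2) (hr3 : r ≠ 3) (hcard : Nat.card G = 3 * 2 ^ m * r ^ n) (hmn : m ≤ 2 ∨ n ≤ 2) {t : G}
    (ht : orderOf t = 3) (hreal : ∃ g, g * t * g⁻¹ = t⁻¹) (P : Sylow 3 G)
    (hP : (P : Subgroup G) = Subgroup.zpowers t) {α β : IrrCharacter G} {e f : ℤ}
    (he : e = 1 ∨ e = -1) (hf : f = 1 ∨ f = -1) (hα1 : (α : G → ℂ) ≠ fun _ => 1)
    (hβ1 : (β : G → ℂ) ≠ fun _ => 1) (hαβ : α ≠ β) (hαt : (α : G → ℂ) t = e) (hβt : (β : G → ℂ) t = f)
    (hα : charDegree (α : G → ℂ) = 2 ^ k) (hβ : charDegree (β : G → ℂ) = r ^ l) (hk : k ≠ 0) (hl : l ≠ 0)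
    (hrel : 1 + e * (2 : ℤ) ^ k + f * (r : ℤ) ^ l = 0) : Nat.card G = 60 ∨ Nat.card G = 168 := by
  classical
  have := Fintype.ofFinite G
  have hf2 : Fact (Nat.Prime 2) := ⟨Nat.prime_two⟩
  have hfr : Fact r.Prime := ⟨hr⟩
  have hcom := SimpleDeg.perfect hZ
  have hr2' : ¬ 2 ∣ r := fun h => hr2 ((Nat.prime_dvd_prime_iff_eq Nat.prime_two hr).1 h).symm
  have hr3' : ¬ 3 ∣ r := fun h => hr3 ((Nat.prime_dvd_prime_iff_eq Nat.prime_three hr).1 h).symm
  have hr5 : 5 ≤ r := by
    have := hr.two_le
    by_contra hcon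
    have : r = 2 ∨ r = 3 ∨ r = 4 := by omega
    rcases this with h | h | h
    · exact hr2 h
    · exact hr3 h
    · exact hr2' (by rw [h]; norm_num)
  have h9 : ¬ 9 ∣ Nat.card G := by
    rw [hcard, mul_assoc]
    intro h
    have h1 : 3 ∣ 2 ^ m * r ^ n := Nat.dvd_of_mul_dvd_mul_left (by norm_num : 0 < 3) (by simpa using h)
    rcases (Nat.Prime.dvd_mul Nat.prime_three).1 h1 with h2 | h2
    · have := Nat.prime_three.dvd_of_dvd_pow h2
      norm_num at this
    · exact hr3' (Nat.prime_three.dvd_of_dvd_pow h2)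
  by_cases hm : m ≤ 2
  · left
    have hkG : 2 ^ k ∣ Nat.card G := by rw [← hα]; exact degree_dvd α
    interval_cases m
    · exfalso
      have h1 : 2 ∣ Nat.card G := (dvd_pow_self 2 hk).trans hkG
      rw [hcard, pow_zero, mul_one] at h1
      rcases (Nat.Prime.dvd_mul Nat.prime_two).1 h1 with h2 | h2
      · norm_num at h2
      · exact hr2' (Nat.prime_two.dvd_of_dvd_pow h2)
    · exfalso
      obtain ⟨Q⟩ : Nonempty (Sylow 2 G) := inferInstance
      apply SimpleDeg.no_two hZ Q
      rw [Q.card_eq_multiplicity, hcard, fac_two hr hr2, pow_one]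
    · refine card_eq_sixty hZ (p := 3) (q := r) (a := 1) (b := n) Nat.prime_three hr hr3.symm ?_
      rw [hcard]; ring
  · right
    have hn2 : n ≤ 2 := by omega
    have hln : l ≤ n := by
      have h1 : r ^ l ∣ 3 * 2 ^ m * r ^ n := by rw [← hcard, ← hβ]; exact degree_dvd β
      have h2 : Nat.Coprime (r ^ l) (3 * 2 ^ m) := by
        apply Nat.Coprime.pow_left
        apply Nat.Coprime.mul_right
        · exact (Nat.coprime_primes hr Nat.prime_three).2 hr3
        · exact Nat.Coprime.pow_right m ((Nat.coprime_primes hr Nat.prime_two).2 hr2)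
      exact (Nat.pow_dvd_pow_iff_le_right hr.one_lt).1 (h2.dvd_of_dvd_mul_left h1)
    have hl1 : l = 1 := by
      have : l = 1 ∨ l = 2 := by omega
      rcases this with h | h
      · exact h
      · exfalso
        rw [h] at hrel
        apply no_two_pow_sq (r := r) (k := k) hr2' hr3' hr5
        have hpos : (0 : ℤ) < 2 ^ k := by positivity
        have hpos' : (0 : ℤ) < (r : ℤ) ^ 2 := by positivity
        rcases he with rfl | rfl <;> rcases hf with rfl | rfl
        · exfalso; linarith
        · right; linarith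
        · left; linarith
        · exfalso
          have : (1 : ℤ) < (2 : ℤ) ^ k := one_lt_pow₀ (by norm_num) hk
          linarith
    subst hl1
    rw [pow_one] at hβ hrel
    -- the Sylow `r`-subgroup has order `r`
    obtain ⟨R⟩ : Nonempty (Sylow r G) := inferInstance
    have hR := SimpleDeg.sylow_of_prime_degree hZ β.2 (p := r)
      (by rw [(BlockDefect.charDegree_spec β.2).1, hβ]) R
    have hn1 : n = 1 := by
      rw [R.card_eq_multiplicity, hcard, fac_r hr hr2 hr3] at hR
      have : r ^ n = r ^ 1 := by rw [pow_one]; exact hR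
      exact Nat.pow_right_injective hr.two_le this
    subst hn1
    rw [pow_one] at hcard
    have hrG : r ∣ Nat.card G := by rw [hcard]; exact dvd_mul_left r _
    -- a character of degree three
    obtain ⟨M', hM'⟩ := H76Char.exists_isPModular r
    obtain ⟨ψ, hψB, hψ1, hψ2⟩ := exists_mem_not_dvd (G := G) hM' hrG Nat.prime_two
    have hψr := not_dvd_of_principal hM' (by
      rw [hcard]
      have := fac_r (m := m) (n := 1) hr hr2 hr3
      rw [pow_one] at this
      rw [this]; norm_num) hψB
    have hψd : charDegree (ψ : G → ℂ) = 3 := by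
      have h1 := degree_dvd ψ
      rw [hcard] at h1
      have h2 : Nat.Coprime (charDegree (ψ : G → ℂ)) r := ((Nat.Prime.coprime_iff_not_dvd hr).2 hψr).symm
      have h3 := h2.dvd_of_dvd_mul_right h1
      have h4 : Nat.Coprime (charDegree (ψ : G → ℂ)) (2 ^ m) :=
        Nat.Coprime.pow_right m ((Nat.Prime.coprime_iff_not_dvd Nat.prime_two).2 hψ2).symm
      have h5 := h4.dvd_of_dvd_mul_right h3
      rcases (Nat.dvd_prime Nat.prime_three).1 h5 with h6 | h6
      · exact absurd h6 (charDegree_ne_one hZ hψ1)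
      · exact h6
    have hψ3 : (ψ : G → ℂ) 1 = 3 := by
      rw [(BlockDefect.charDegree_spec ψ.2).1, hψd]; norm_num
    have hfaith : ∀ g : G, (ψ : G → ℂ) g = (ψ : G → ℂ) 1 → g = 1 := fun g hg =>
      SimpleDeg.faithful hZ ψ.2 hψ1 hg
    -- `r ≤ 10`
    have hr10 : r ≤ 10 := by
      by_contra hcon
      have hstar : ∀ x ∈ (R : Subgroup G), x ≠ 1 →
          Subgroup.centralizer ({x} : Set G) = Subgroup.centralizer ((R : Subgroup G) : Set G) := by
        intro x hx hx1
        have hRx : (R : Subgroup G) = Subgroup.zpowers x := by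
          symm
          apply Subgroup.eq_of_le_of_card_ge
          · rw [Subgroup.zpowers_le]; exact hx
          · have h1 : orderOf x ∣ r := by
              have h2 := orderOf_dvd_natCard (⟨x, hx⟩ : (R : Subgroup G))
              rw [Subgroup.orderOf_mk] at h2
              rwa [hR] at h2
            rcases (Nat.dvd_prime hr).1 h1 with h2 | h2
            · exact absurd (orderOf_eq_one_iff.1 h2) hx1
            · rw [Nat.card_zpowers, h2]; exact hR.le
        apply le_antisymm
        · intro g hg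
          rw [Subgroup.mem_centralizer_singleton_iff] at hg
          rw [hRx, Subgroup.mem_centralizer_iff]
          rintro y ⟨j, rfl⟩
          have hc : Commute g x := hg
          exact (hc.zpow_right j).eq.symm
        · intro g hg
          rw [Subgroup.mem_centralizer_singleton_iff]
          exact (Subgroup.mem_centralizer_iff.1 hg x hx).symm
      have hRn := S4485.result r hr hrG R hstar 1 (by rw [pow_one]; exact hR) (ψ : G → ℂ) ψ.2.isCharacter
        hfaith (by rw [hψd, pow_one]; omega)
      rcases IsSimpleGroup.eq_bot_or_eq_top_of_normal (R : Subgroup G) hRn with h | h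
      · have h1 : Nat.card (R : Subgroup G) = r := hR
        rw [h, Subgroup.card_bot] at h1
        exact hr.one_lt.ne h1
      · have h1 : Nat.card (R : Subgroup G) = r := hR
        rw [h, Subgroup.card_top, hcard] at h1
        have h2 : 3 * 2 ^ m = 1 := by
          have h3 : 3 * 2 ^ m * r = 1 * r := by rw [one_mul]; exact h1
          exact Nat.eq_of_mul_eq_mul_right hr.pos h3
        have : 0 < 2 ^ m := by positivity
        omega
    have hC := card_cent_three hcom ψ.2 hψ3 hfaith h9 ht P hP
    have hrk : (r = 5 ∧ k = 2) ∨ (r = 7 ∧ k = 3) := by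
      have hr57 : r = 5 ∨ r = 7 := by
        have : r = 5 ∨ r = 6 ∨ r = 7 ∨ r = 8 ∨ r = 9 ∨ r = 10 := by omega
        rcases this with h | h | h | h | h | h
        · exact Or.inl h
        · exact absurd (by rw [h]; norm_num) hr2'
        · exact Or.inr h
        · exact absurd (by rw [h]; norm_num) hr2'
        · exact absurd (by rw [h]; norm_num) hr3'
        · exact absurd (by rw [h]; norm_num) hr2'
      have hk4 : k < 4 := by
        by_contra hcon
        have h1 : (2 : ℤ) ^ 4 ≤ (2 : ℤ) ^ k := pow_le_pow_right₀ (by norm_num) (by omega)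
        rcases he with rfl | rfl <;> rcases hf with rfl | rfl <;> rcases hr57 with rfl | rfl <;>
          norm_num at hrel h1 <;> omega
      interval_cases k <;> rcases he with rfl | rfl <;> rcases hf with rfl | rfl <;> rcases hr57 with rfl | rfl <;>
        first | (exfalso; norm_num at hrel; done) | norm_num
    exact order_three hZ (by omega) hcard hrk ht hreal hC he hf hα1 hβ1 hαβ hαt hβt hα hβ hrel

end Cfsg.Agent.Lib.SmCof
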