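import Cfsg.Agent.Lib.SmCof11

/-!
# Simple groups of order `3 p^a q^b`, V (helper75)
-/

set_option autoImplicit false
set_option linter.all false

universe u

namespace Cfsg.Agent.Lib.SmCof

open Cfsg CharBasic BlockRing BlockSection
open scoped ComplexConjugate

variable {G : Type u} [Group G] [Finite G]

theorem finish_three [IsSimpleGroup G] (hZ : Subgroup.center G = ⊥) {p q a b i j : ℕ} (hp : p.Prime)
    (hq : q.Prime) (hpq : p ≠ q) (hp3 : p ≠ 3) (hq3 : q ≠ 3) (ha : a ≤ 2)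
    (hcard : Nat.card G = 3 * p ^ a * q ^ b) {t : G}
    (ht : orderOf t = 3) (hreal : ∃ g, g * t * g⁻¹ = t⁻¹) (P : Sylow 3 G)
    (hP : (P : Subgroup G) = Subgroup.zpowers t) {α β : IrrCharacter G} {e f : ℤ}
    (he : e = 1 ∨ e = -1) (hf : f = 1 ∨ f = -1) (hα1 : (α : G → ℂ) ≠ fun _ => 1)
    (hβ1 : (β : G → ℂ) ≠ fun _ => 1) (hαβ : α ≠ β) (hαt : (α : G → ℂ) t = e) (hβt : (β : G → ℂ) t = f)
    (hα : charDegree (α : G → ℂ) = p ^ i) (hβ : charDegree (β : G → ℂ) = q ^ j)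
    (hrel : 1 + e * (charDegree (α : G → ℂ) : ℤ) + f * (charDegree (β : G → ℂ) : ℤ) = 0) :
    Nat.card G = 60 ∨ Nat.card G = 168 := by
  have hi0 : i ≠ 0 := by
    rintro rfl
    exact charDegree_ne_one hZ hα1 (by rw [hα, pow_zero])
  have hj0 : j ≠ 0 := by
    rintro rfl
    exact charDegree_ne_one hZ hβ1 (by rw [hβ, pow_zero])
  have h2 : p = 2 ∨ q = 2 := by
    by_contra hcon
    push Not at hcon
    have h3 : Odd (p ^ i) := (hp.odd_of_ne_two hcon.1).pow
    have h4 : Odd (q ^ j) := (hq.odd_of_ne_two hcon.2).pow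
    rw [hα, hβ] at hrel
    obtain ⟨x, hx⟩ := h3
    obtain ⟨y, hy⟩ := h4
    rw [hx, hy] at hrel
    push_cast at hrel
    rcases he with rfl | rfl <;> rcases hf with rfl | rfl <;> omega
  rw [hα, hβ] at hrel
  push_cast at hrel
  rcases h2 with rfl | rfl
  · exact core_three hZ hq hpq.symm hq3 hcard (Or.inl ha) ht hreal P hP he hf hα1 hβ1 hαβ hαt hβt hα hβ
      hi0 hj0 hrel
  · refine core_three hZ (m := b) (n := a) hp hpq hp3 (by rw [hcard]; ring) (Or.inr ha) ht hreal P hP hf he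
      hβ1 hα1 hαβ.symm hβt hαt hβ hα hj0 hi0 ?_
    push_cast at hrel ⊢
    linarith

theorem case_three [IsSimpleGroup G] (hZ : Subgroup.center G = ⊥) {p q a b : ℕ} (hp : p.Prime)
    (hq : q.Prime) (hpq : p ≠ q) (ha : a ≤ 2) (hcard : Nat.card G = 3 * p ^ a * q ^ b) :
    Nat.card G = 60 ∨ Nat.card G = 168 := by
  classical
  have hns := not_solvable hZ
  have hp3 : p ≠ 3 := by
    rintro rfl
    apply hns
    refine Burnside.isSolvable_of_card_eq _ 3 q (a + 1) b Nat.prime_three hq ?_ rfl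
    rw [hcard]; ring
  have hq3 : q ≠ 3 := by
    rintro rfl
    apply hns
    refine Burnside.isSolvable_of_card_eq _ p 3 a (b + 1) hp Nat.prime_three ?_ rfl
    rw [hcard]; ring
  have hp3' : ¬ 3 ∣ p := fun h => hp3 ((Nat.prime_dvd_prime_iff_eq Nat.prime_three hp).1 h).symm
  have hq3' : ¬ 3 ∣ q := fun h => hq3 ((Nat.prime_dvd_prime_iff_eq Nat.prime_three hq).1 h).symm
  have h3 : 3 ∣ Nat.card G := by rw [hcard, mul_assoc]; exact dvd_mul_right 3 _
  have h9 : ¬ 9 ∣ Nat.card G := by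
    rw [hcard, mul_assoc]
    intro h
    have h1 : 3 ∣ p ^ a * q ^ b := Nat.dvd_of_mul_dvd_mul_left (by norm_num : 0 < 3) (by simpa using h)
    rcases (Nat.Prime.dvd_mul Nat.prime_three).1 h1 with h2 | h2
    · exact hp3' (Nat.prime_three.dvd_of_dvd_pow h2)
    · exact hq3' (Nat.prime_three.dvd_of_dvd_pow h2)
  have hf3 : Fact (Nat.Prime 3) := ⟨Nat.prime_three⟩
  obtain ⟨t, ht, hreal, P, hP⟩ := exists_real_three hZ h3 h9
  obtain ⟨M, hM⟩ := H76Char.exists_isPModular 3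
  obtain ⟨α, β, e, f, he, hf, hα1, hβ1, hαβ, hB, hαt, hβt, hrel⟩ := block_three h9 hM ht hreal P hP
  have hfac : (Nat.card G).factorization 3 ≤ 2 := by
    by_contra hcon
    apply h9
    have h2 : 2 ≤ (Nat.card G).factorization 3 := by omega
    have := (Nat.prime_three.pow_dvd_iff_le_factorization (Nat.card_pos (α := G)).ne').2 h2
    simpa using this
  obtain ⟨χ, hχ, hχ1, hχ2⟩ := exists_mem_not_dvd (G := G) hM h3 hq
  obtain ⟨ξ, hξ, hξ1, hξ2⟩ := exists_mem_not_dvd (G := G) hM h3 hp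
  obtain ⟨i, hi⟩ := eq_pow_of_dvd (p := 3) (q := p) (r := q) (a := 1) (b := a) (c := b) Nat.prime_three hp hq
    (by rw [pow_one, ← hcard]; exact degree_dvd χ) (not_dvd_of_principal hM hfac hχ) hχ2
  obtain ⟨j, hj⟩ := eq_pow_of_dvd (p := 3) (q := q) (r := p) (a := 1) (b := b) (c := a) Nat.prime_three hq hp
    (by rw [pow_one, mul_right_comm, ← hcard]; exact degree_dvd ξ) (not_dvd_of_principal hM hfac hξ) hξ2
  have hne : χ ≠ ξ := by
    rintro rfl
    apply hχ2
    rw [hj]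
    apply dvd_pow_self
    rintro rfl
    exact charDegree_ne_one hZ hξ1 (by rw [hj, pow_zero])
  have hχ' : χ = α ∨ χ = β := ((hB χ).1 hχ).resolve_left hχ1
  have hξ' : ξ = α ∨ ξ = β := ((hB ξ).1 hξ).resolve_left hξ1
  rcases hχ' with rfl | rfl <;> rcases hξ' with rfl | rfl
  · exact absurd rfl hne
  · exact finish_three hZ hp hq hpq hp3 hq3 ha hcard ht hreal P hP he hf hα1 hβ1 hαβ hαt hβt hi hj hrel
  · exact finish_three hZ hp hq hpq hp3 hq3 ha hcard ht hreal P hP hf he hβ1 hα1 hαβ.symm hβt hαt hi hj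
      (by linarith)
  · exact absurd rfl hne

end Cfsg.Agent.Lib.SmCof
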