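import Cfsg.Agent.Lib.SmCof2
import Cfsg.Agent.Lib.SmCof3
import Cfsg.Agent.Lib.SimpleDeg
import Cfsg.Agent.Lib.H25Klein2

/-!
# Simple groups of order `4 p^a q^b` (helper75)
-/

set_option autoImplicit false
set_option linter.all false

universe u

namespace Cfsg.Agent.Lib.SmCof

open Cfsg CharBasic BlockRing BlockSection BlockKlein H25Klein
open scoped ComplexConjugate

variable {G : Type u} [Group G] [Finite G]

theorem not_solvable [IsSimpleGroup G] (hZ : Subgroup.center G = ⊥) : ¬ Group.IsSolvable G := by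
  intro hs
  have hn : Nontrivial G := inferInstance
  exact (Group.IsSolvable.commutator_lt_top_of_nontrivial G).ne (SimpleDeg.perfect hZ)

section perm

variable {M : Ideal AlgInt} {g₀ : ℕ} {P : Sylow 2 G} {J : G} {χ₁ χ₂ χ₃ : IrrCharacter G}
    {ε₁ ε₂ ε₃ : ℤ}

theorem hyp_swap12 (h : Hyp M g₀ P J χ₁ χ₂ χ₃ ε₁ ε₂ ε₃) : Hyp M g₀ P J χ₂ χ₁ χ₃ ε₂ ε₁ ε₃ where
  hM := h.hM
  hg₀ := h.hg₀
  hG := h.hG
  hnc := h.hnc
  hJ := h.hJ
  hJ2 := h.hJ2
  hB := by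
    rw [h.hB]
    ext χ
    simp only [Set.mem_setOf_eq]
    tauto
  hdist := ⟨h.hdist.2.1, h.hdist.1, h.hdist.2.2.1, h.hdist.2.2.2.1.symm, h.hdist.2.2.2.2.2, h.hdist.2.2.2.2.1⟩
  hε := ⟨h.hε.2.1, h.hε.1, h.hε.2.2⟩
  hval := ⟨h.hval.2.1, h.hval.1, h.hval.2.2⟩

theorem hyp_swap23 (h : Hyp M g₀ P J χ₁ χ₂ χ₃ ε₁ ε₂ ε₃) : Hyp M g₀ P J χ₁ χ₃ χ₂ ε₁ ε₃ ε₂ where
  hM := h.hM
  hg₀ := h.hg₀
  hG := h.hG
  hnc := h.hnc
  hJ := h.hJ
  hJ2 := h.hJ2
  hB := by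
    rw [h.hB]
    ext χ
    simp only [Set.mem_setOf_eq]
    tauto
  hdist := ⟨h.hdist.1, h.hdist.2.2.1, h.hdist.2.1, h.hdist.2.2.2.2.1, h.hdist.2.2.2.1, h.hdist.2.2.2.2.2.symm⟩
  hε := ⟨h.hε.1, h.hε.2.2, h.hε.2.1⟩
  hval := ⟨h.hval.1, h.hval.2.2, h.hval.2.1⟩

/-- put two given distinct members of the block in the first two places -/
theorem hyp_perm (h : Hyp M g₀ P J χ₁ χ₂ χ₃ ε₁ ε₂ ε₃) {α β : IrrCharacter G}
    (hα : α = χ₁ ∨ α = χ₂ ∨ α = χ₃) (hβ : β = χ₁ ∨ β = χ₂ ∨ β = χ₃) (hne : α ≠ β) :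
    ∃ γ : IrrCharacter G, ∃ e₁ e₂ e₃ : ℤ, Hyp M g₀ P J α β γ e₁ e₂ e₃ := by
  rcases hα with rfl | rfl | rfl <;> rcases hβ with rfl | rfl | rfl
  · exact absurd rfl hne
  · exact ⟨_, _, _, _, h⟩
  · exact ⟨_, _, _, _, hyp_swap23 h⟩
  · exact ⟨_, _, _, _, hyp_swap12 h⟩
  · exact absurd rfl hne
  · exact ⟨_, _, _, _, hyp_swap23 (hyp_swap12 h)⟩
  · exact ⟨_, _, _, _, hyp_swap12 (hyp_swap23 h)⟩
  · exact ⟨_, _, _, _, hyp_swap12 (hyp_swap23 (hyp_swap12 h))⟩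
  · exact absurd rfl hne

end perm

/-- the set-up of the principal `2`-block -/
theorem exists_hyp [IsSimpleGroup G] (hZ : Subgroup.center G = ⊥) {g₀ : ℕ} (hg : Odd g₀)
    (hG : Nat.card G = 4 * g₀) : ∃ (M : Ideal AlgInt) (P : Sylow 2 G) (J : G) (χ₁ χ₂ χ₃ : IrrCharacter G)
      (ε₁ ε₂ ε₃ : ℤ), Hyp M g₀ P J χ₁ χ₂ χ₃ ε₁ ε₂ ε₃ := by
  classical
  have := Fintype.ofFinite G
  have hf2 : Fact (Nat.Prime 2) := ⟨Nat.prime_two⟩
  obtain ⟨M, hM⟩ := H76Char.exists_isPModular 2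
  have hns := not_solvable hZ
  have hnc : ¬ ∃ N : Subgroup G, N.Normal ∧ Nat.card N = g₀ := by
    rintro ⟨N, hN, hc⟩
    rcases IsSimpleGroup.eq_bot_or_eq_top_of_normal N hN with h | h
    · rw [h, Subgroup.card_bot] at hc
      apply hns
      refine Burnside.isSolvable_of_card_eq _ 2 3 2 0 Nat.prime_two Nat.prime_three ?_ rfl
      rw [hG, ← hc]; norm_num
    · rw [h, Subgroup.card_top, hG] at hc
      rcases hg with ⟨m, hm⟩
      omega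
  obtain ⟨P⟩ : Nonempty (Sylow 2 G) := inferInstance
  have hPc : Nat.card (P : Subgroup G) = 4 := by
    obtain ⟨n, hn⟩ := IsPGroup.iff_card.mp P.isPGroup'
    have h1 := (P : Subgroup G).index_mul_card
    have h2 : ¬ 2 ∣ (P : Subgroup G).index := P.not_dvd_index
    rw [hn, hG] at h1
    have hidx : Nat.Coprime ((P : Subgroup G).index) 4 := by
      have : Nat.Coprime 2 (P : Subgroup G).index := (Nat.Prime.coprime_iff_not_dvd Nat.prime_two).2 h2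
      have h3 := Nat.Coprime.pow_left 2 this
      exact h3.symm
    have hg2 : Nat.Coprime (2 ^ n) g₀ := by
      apply Nat.Coprime.pow_left
      exact (Nat.coprime_two_left).2 hg
    have h4 : 2 ^ n ∣ 4 := hg2.dvd_of_dvd_mul_right (Dvd.intro_left _ h1)
    have h5 : 4 ∣ 2 ^ n := hidx.symm.dvd_of_dvd_mul_left (by rw [h1]; exact dvd_mul_right 4 g₀)
    rw [hn]
    exact Nat.dvd_antisymm h4 h5
  obtain ⟨hK4, hconj⟩ := exists_noncentral P hPc (by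
    rintro ⟨N, hN, hc⟩
    apply hnc
    refine ⟨N, hN, ?_⟩
    rw [hG] at hc
    omega)
  obtain ⟨a, ζ₂, ζ₃, ζ₄, ha, h4, ⟨ha2, ha3, ha4⟩, hd, hB, -⟩ := klein_block hM P hK4 hconj
  obtain ⟨J, hJ⟩ : ∃ J : (P : Subgroup G), orderOf J = 2 := by
    apply exists_prime_orderOf_dvd_card' 2
    rw [hPc]; norm_num
  have hJ2 : orderOf (J : G) = 2 := by rw [Subgroup.orderOf_coe]; exact hJ
  have htr : ((BlockThird.triv G : IrrCharacter G) : G → ℂ) = fun _ => 1 := rfl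
  have hne : ∀ χ : IrrCharacter G, BlockThird.triv G ≠ χ → (χ : G → ℂ) ≠ fun _ => 1 := by
    intro χ h h1
    apply h
    apply Subtype.ext
    rw [htr, h1]
  refine ⟨M, P, J, ζ₂, ζ₃, ζ₄, a ζ₂, a ζ₃, a ζ₄, hM, hg, hG, hnc, J.2, hJ2, ?_, ?_, ?_, ?_⟩
  · ext χ
    have h1 : χ ∈ principalBlock M G ↔ χ ∈ (Set.toFinite (principalBlock M G)).toFinset := by
      rw [Set.Finite.mem_toFinset]
    rw [h1, hB]
    simp only [Finset.mem_insert, Finset.mem_singleton, Set.mem_setOf_eq]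
    constructor
    · rintro (h | h | h | h)
      · left; rw [h]; rfl
      · right; left; exact h
      · right; right; left; exact h
      · right; right; right; exact h
    · rintro (h | h | h | h)
      · left; apply Subtype.ext; rw [h]; rfl
      · right; left; exact h
      · right; right; left; exact h
      · right; right; right; exact h
  · exact ⟨hne _ hd.1, hne _ hd.2.1, hne _ hd.2.2.1, hd.2.2.2.1, hd.2.2.2.2.1, hd.2.2.2.2.2⟩
  · exact ⟨Or.inl ha2, ha3, Or.inr ha4⟩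
  · exact ⟨ha _ _ hJ2, ha _ _ hJ2, ha _ _ hJ2⟩

end Cfsg.Agent.Lib.SmCof
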