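import Cfsg.Agent.Lib.SmCof4
import Cfsg.Agent.S0494

/-!
# Simple groups of order `4 p^a q^b`, II (helper75)
-/

set_option autoImplicit false
set_option linter.all false

universe u

namespace Cfsg.Agent.Lib.SmCof

open Cfsg CharBasic BlockRing BlockSection BlockKlein H25Klein
open scoped ComplexConjugate

variable {G : Type u} [Group G] [Finite G]

theorem charDegree_ne_one [IsSimpleGroup G] (hZ : Subgroup.center G = ⊥) {χ : IrrCharacter G}
    (hne : (χ : G → ℂ) ≠ fun _ => 1) : charDegree (χ : G → ℂ) ≠ 1 := by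
  intro h
  apply SimpleDeg.deg_ne_one hZ χ.2 hne
  rw [(BlockDefect.charDegree_spec χ.2).1, h, Nat.cast_one]

theorem card_eq_sixty [IsSimpleGroup G] (hZ : Subgroup.center G = ⊥) {p q a b : ℕ} (hp : p.Prime)
    (hq : q.Prime) (hpq : p ≠ q) (hcard : Nat.card G = 4 * p ^ a * q ^ b) : Nat.card G = 60 := by
  classical
  have := Fintype.ofFinite G
  have hf2 : Fact (Nat.Prime 2) := ⟨Nat.prime_two⟩
  have hns := not_solvable hZ
  have hcom := SimpleDeg.perfect hZ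
  have hp2 : p ≠ 2 := by
    rintro rfl
    apply hns
    refine Burnside.isSolvable_of_card_eq _ 2 q (a + 2) b Nat.prime_two hq ?_ rfl
    rw [hcard]; ring
  have hq2 : q ≠ 2 := by
    rintro rfl
    apply hns
    refine Burnside.isSolvable_of_card_eq _ p 2 a (b + 2) hp Nat.prime_two ?_ rfl
    rw [hcard]; ring
  have hgo : Odd (p ^ a * q ^ b) := ((hp.odd_of_ne_two hp2).pow).mul ((hq.odd_of_ne_two hq2).pow)
  have hcard' : Nat.card G = 4 * (p ^ a * q ^ b) := by rw [hcard]; ring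
  obtain ⟨M, P, J, χ₁, χ₂, χ₃, ε₁, ε₂, ε₃, h0⟩ := exists_hyp hZ hgo hcard'
  have hM := h0.hM
  have hMp := isPrime hM
  have h2G : 2 ∣ Nat.card G := by rw [hcard']; exact (by norm_num : 2 ∣ 4).trans (dvd_mul_right 4 _)
  have hfac : (Nat.card G).factorization 2 ≤ 2 := by
    have hp0 := hp.ne_zero
    have hq0 := hq.ne_zero
    rw [hcard', show (4 : ℕ) = 2 ^ 2 by norm_num, Nat.factorization_mul (by norm_num) (by positivity),
      Nat.factorization_mul (by positivity) (by positivity)]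
    simp only [Finsupp.add_apply, Nat.factorization_pow, Finsupp.smul_apply,
      hp.factorization, hq.factorization, Nat.prime_two.factorization, smul_eq_mul]
    rw [Finsupp.single_eq_same, Finsupp.single_eq_of_ne hp2.symm, Finsupp.single_eq_of_ne hq2.symm]
    omega
  have hdvd : ∀ χ : IrrCharacter G, charDegree (χ : G → ℂ) ∣ 2 ^ 2 * p ^ a * q ^ b := by
    intro χ
    have := degree_dvd χ
    rw [hcard'] at this
    rw [mul_assoc]
    exact this
  obtain ⟨α, hα, hα1, hα2⟩ := exists_mem_not_dvd (G := G) hM h2G hq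
  obtain ⟨β, hβ, hβ1, hβ2⟩ := exists_mem_not_dvd (G := G) hM h2G hp
  obtain ⟨i, hi⟩ := eq_pow_of_dvd Nat.prime_two hp hq (hdvd α) (not_dvd_of_principal hM hfac hα) hα2
  obtain ⟨j, hj⟩ := eq_pow_of_dvd (p := 2) (q := q) (r := p) (a := 2) (b := b) (c := a)
    Nat.prime_two hq hp (by rw [mul_right_comm]; exact hdvd β)
    (not_dvd_of_principal hM hfac hβ) hβ2
  have hi0 : i ≠ 0 := by
    rintro rfl
    exact charDegree_ne_one hZ hα1 (by rw [hi, pow_zero])
  have hj0 : j ≠ 0 := by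
    rintro rfl
    exact charDegree_ne_one hZ hβ1 (by rw [hj, pow_zero])
  have hαβ : α ≠ β := by
    rintro rfl
    apply hα2
    rw [hj]
    exact dvd_pow_self q hj0
  have hmem : ∀ χ ∈ principalBlock M G, (χ : G → ℂ) ≠ (fun _ => 1) → χ = χ₁ ∨ χ = χ₂ ∨ χ = χ₃ := by
    intro χ hχ h1
    rw [h0.hB] at hχ
    rcases hχ with h | h
    · exact absurd h h1
    · exact h
  obtain ⟨γ, e₁, e₂, e₃, h⟩ := hyp_perm h0 (hmem α hα hα1) (hmem β hβ hβ1) hαβ
  -- the centralizers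
  obtain ⟨hK4, hconj⟩ := h.fusion
  obtain ⟨N, hN, hN2, -, D⟩ := exists_data P hK4 hconj h.hJ h.hJ2
  set K := N.map (Subgroup.centralizer ({J} : Set G)).subtype with hK
  have hc := D.card
  have hd := D.card_centP
  set o := Nat.card K with ho
  set δ := Nat.card ↥(K ⊓ Subgroup.centralizer ((P : Subgroup G) : Set G)) with hδ
  obtain ⟨w, hw⟩ : δ ∣ o := Subgroup.card_dvd_of_le inf_le_left
  have hopos : 0 < o := Nat.card_pos
  have hδpos : 0 < δ := Nat.card_pos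
  have hodvd : o ∣ p ^ a * q ^ b := by
    have h1 : Nat.card (Subgroup.centralizer ({J} : Set G)) ∣ Nat.card G := Subgroup.card_subgroup_dvd_card _
    rw [hc, hcard'] at h1
    exact Nat.dvd_of_mul_dvd_mul_left (by norm_num) h1
  have hγne : (γ : G → ℂ) ≠ fun _ => 1 := h.hdist.2.2.1
  set x₃ := charDegree (γ : G → ℂ) with hx3
  have hx3pos : 0 < x₃ := BlockDeg.charDegree_pos γ.2
  have hx3ne := charDegree_ne_one hZ hγne
  have hγB : γ ∈ principalBlock M G := by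
    rw [h.hB]; right; right; right; rfl
  have hx3d : x₃ ∣ p ^ a * q ^ b := by
    have h1 := hdvd γ
    rw [mul_assoc] at h1
    refine Nat.Coprime.dvd_of_dvd_mul_left ?_ h1
    apply Nat.Coprime.pow_right
    exact ((Nat.Prime.coprime_iff_not_dvd Nat.prime_two).2 (not_dvd_of_principal hM hfac hγB)).symm
  have hsum := h.degree_sum
  rw [hi, hj] at hsum
  push_cast at hsum
  have hmain := h.order
  rw [hi, hj, hc, hd, hcard', hw] at hmain
  push_cast at hmain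
  have hpi : ((p : ℚ) ^ i) ≠ 0 := pow_ne_zero _ (by exact_mod_cast hp.ne_zero)
  have hqj : ((q : ℚ) ^ j) ≠ 0 := pow_ne_zero _ (by exact_mod_cast hq.ne_zero)
  have hx3q : (x₃ : ℚ) ≠ 0 := by exact_mod_cast hx3pos.ne'
  have hδq : (δ : ℚ) ≠ 0 := by exact_mod_cast hδpos.ne'
  have hsq : ∀ e : ℤ, (e = 1 ∨ e = -1) → (e : ℚ) * e = 1 := by
    rintro e (rfl | rfl) <;> norm_num
  have he1 := hsq e₁ h.hε.1
  have he2 := hsq e₂ h.hε.2.1
  have he3 := hsq e₃ h.hε.2.2
  have hsumq : (1 : ℚ) + e₁ * (p : ℚ) ^ i + e₂ * (q : ℚ) ^ j + e₃ * x₃ = 0 := by exact_mod_cast hsum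
  have hf : ((p : ℚ) ^ a * (q : ℚ) ^ b) * (((p : ℚ) ^ i + e₁) * ((q : ℚ) ^ j + e₂) * (x₃ + e₃)) =
      8 * ((p : ℚ) ^ i * (q : ℚ) ^ j * x₃ * w ^ 2 * o) := by
    -- the identity `(x+e₁)(y+e₂)(z+e₃) = xyz (1 + e₁/x + e₂/y + e₃/z)`
    have key : ((p : ℚ) ^ i + e₁) * ((q : ℚ) ^ j + e₂) * (x₃ + e₃) =
        (p : ℚ) ^ i * (q : ℚ) ^ j * x₃ * (1 + e₁ / (p : ℚ) ^ i + e₂ / (q : ℚ) ^ j + e₃ / x₃) := by
      have e : (p : ℚ) ^ i * (q : ℚ) ^ j * x₃ * (1 + e₁ / (p : ℚ) ^ i + e₂ / (q : ℚ) ^ j + e₃ / x₃) =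
          (p : ℚ) ^ i * (q : ℚ) ^ j * x₃ + e₁ * ((q : ℚ) ^ j * x₃) + e₂ * ((p : ℚ) ^ i * x₃) +
            e₃ * ((p : ℚ) ^ i * (q : ℚ) ^ j) := by
        field_simp
      rw [e]
      linear_combination (e₁ * e₂ * e₃ : ℚ) * hsumq - ((e₂ * e₃ : ℚ) * (p : ℚ) ^ i) * he1 -
        ((e₁ * e₃ : ℚ) * (q : ℚ) ^ j) * he2 - ((e₁ * e₂ : ℚ) * x₃) * he3
    rw [key, hw]
    push_cast
    have h64 : ((64 : ℚ) * (δ : ℚ) ^ 2) ≠ 0 := by positivity
    apply mul_left_cancel₀ h64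
    linear_combination ((p : ℚ) ^ i * (q : ℚ) ^ j * x₃) * hmain
  have hfZ : ((p : ℤ) ^ a * (q : ℤ) ^ b) * (((p : ℤ) ^ i + e₁) * ((q : ℤ) ^ j + e₂) * (x₃ + e₃)) =
      8 * ((p : ℤ) ^ i * (q : ℤ) ^ j * x₃ * w ^ 2 * o) := by exact_mod_cast hf
  obtain ⟨h3, h4, -, h6⟩ := arith4 hp hq hpq hp2 hq2 h.hε.1 h.hε.2.1 h.hε.2.2 hi0 hj0 (by omega) hx3d hodvd
    (Dvd.intro_left _ hw.symm) hsum hfZ
  -- the core of the centralizer is trivial
  have hγ1 : (γ : G → ℂ) 1 = 3 := by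
    rw [(BlockDefect.charDegree_spec γ.2).1, ← hx3, h3]; norm_num
  have hγJ : (γ : G → ℂ) J = -1 := by
    rw [h.hval.2.2, h4]; norm_num
  have hmemC : ∀ g, g ∈ Subgroup.centralizer ({J} : Set G) ↔ Commute J g := by
    intro g
    rw [Subgroup.mem_centralizer_singleton_iff]
    exact ⟨fun h => h.symm, fun h => h.symm⟩
  have hNbot : N = ⊥ := by
    rw [Subgroup.eq_bot_iff_forall]
    intro v hv
    have h7 := eq_of_mem_core hM (u := J) (k := 1) (by rw [h.hJ2, pow_one]) hmemC hN2 hv hγB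
    have h8 := three_dim hcom γ.2.isCharacter hγ1 (J * (v : G))
    have hJv : Commute J (v : G) := (hmemC _).1 v.2
    have hJJ : J * J = 1 := D.J_sq
    have h9 : J * (v : G) * (J * (v : G)) = (v : G) * v := by
      calc J * (v : G) * (J * (v : G)) = J * ((v : G) * J) * v := by group
        _ = J * (J * (v : G)) * v := by rw [hJv.eq]
        _ = (J * J) * v * v := by group
        _ = v * v := by rw [hJJ, one_mul]
    rw [h9, h7, hγJ] at h8
    have h10 : (γ : G → ℂ) ((v : G) * v) = (γ : G → ℂ) 1 := by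
      rw [hγ1]
      simp only [map_neg, map_one] at h8
      linear_combination -h8
    have h11 := SimpleDeg.faithful hZ γ.2 hγne h10
    have h12 : v * v = 1 := Subtype.ext h11
    have h13 : orderOf v ∣ 2 := orderOf_dvd_of_pow_eq_one (by rw [pow_two]; exact h12)
    have h14 : orderOf v ∣ Nat.card N := by
      have := orderOf_dvd_natCard (⟨v, hv⟩ : N)
      rwa [Subgroup.orderOf_mk] at this
    rw [← orderOf_eq_one_iff]
    exact Nat.eq_one_of_dvd_coprimes ((Nat.Prime.coprime_iff_not_dvd Nat.prime_two).2 hN2) h13 h14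
  have ho1 : o = 1 := by
    rw [ho, hK, hNbot, Subgroup.map_bot, Subgroup.card_bot]
  have hw1 : w = 1 := by
    rw [ho1] at hw
    exact Nat.dvd_one.1 (Dvd.intro_left _ hw.symm)
  rw [hcard', h6, ho1, hw1]; norm_num

theorem equiv_A5_of_four [IsSimpleGroup G] (hZ : Subgroup.center G = ⊥) {p q a b : ℕ} (hp : p.Prime)
    (hq : q.Prime) (hpq : p ≠ q) (hcard : Nat.card G = 4 * p ^ a * q ^ b) :
    Nonempty (G ≃* alternatingGroup (Fin 5)) :=
  S0494.result (card_eq_sixty hZ hp hq hpq hcard)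

end Cfsg.Agent.Lib.SmCof
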