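import Cfsg.Agent.Lib.SmCof5
import Cfsg.Agent.Lib.CharValues

/-!
# Simple groups with a Sylow 3-subgroup of order three: the principal block (helper75)
-/

set_option autoImplicit false
set_option linter.all false

universe u

namespace Cfsg.Agent.Lib.SmCof

open Cfsg CharBasic BlockRing BlockSection
open scoped ComplexConjugate

variable {G : Type u} [Group G] [Finite G]

theorem mat_cube (A : Matrix (Fin 3) (Fin 3) ℂ) :
    (A * A * A).trace = A.trace * (A * A).trace - A.adjugate.trace * A.trace + 3 * A.det := by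
  rw [Matrix.adjugate_fin_three, Matrix.det_fin_three]
  simp only [Matrix.trace, Fin.sum_univ_three, Matrix.diag_apply, Matrix.mul_apply, Matrix.of_apply,
    Matrix.cons_val', Matrix.cons_val_zero, Matrix.cons_val_one, Matrix.cons_val,
    Matrix.cons_val_fin_one]
  ring

/-- For a character of degree three of a perfect group, an element with `χ(g) = 0` has
`χ(g³) = 3`. -/
theorem three_cube (hG : commutator G = ⊤) {χ : G → ℂ} (hχ : IsCharacter G χ) (h3 : χ 1 = 3)
    {g : G} (hg : χ g = 0) : χ (g * g * g) = 3 := by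
  obtain ⟨n, ρ, rfl⟩ := hχ
  have hn : n = 3 := by
    have h1 : ρ.character 1 = (n : ℂ) := by
      rw [Representation.char_one]; simp
    rw [h1] at h3
    exact_mod_cast h3
  subst hn
  -- the matrix of `ρ g`
  let Mt : G →* Matrix (Fin 3) (Fin 3) ℂ :=
    { toFun := fun x => LinearMap.toMatrix' (ρ x)
      map_one' := by rw [map_one]; exact LinearMap.toMatrix'_one
      map_mul' := fun x y => by rw [map_mul]; exact LinearMap.toMatrix'_mul _ _ }
  have htr : ∀ x, ρ.character x = (Mt x).trace := by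
    intro x
    show LinearMap.trace ℂ _ (ρ x) = _
    rw [LinearMap.trace_eq_matrix_trace ℂ (Pi.basisFun ℂ (Fin 3))]
    rfl
  have hdet : ∀ x, (Mt x).det = 1 := by
    intro x
    let d : G →* ℂˣ := (Units.map (Matrix.detMonoidHom : Matrix (Fin 3) (Fin 3) ℂ →* ℂ)).comp Mt.toHomUnits
    have hd : d = 1 := by
      ext y
      have hk : commutator G ≤ d.ker := Abelianization.commutator_subset_ker d
      rw [hG] at hk
      have := hk (Subgroup.mem_top y)
      rw [MonoidHom.mem_ker] at this
      rw [this]; rfl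
    have h1 : ((d x : ℂˣ) : ℂ) = (Mt x).det := rfl
    rw [← h1, hd]; rfl
  rw [htr] at hg
  rw [htr, map_mul, map_mul, mat_cube, hdet, hg]
  ring

/-- An involution at which a faithful character takes the value `-χ(1)` is central. -/
theorem neg_central {χ : G → ℂ} (hχ : IsCharacter G χ) (hf : ∀ g, χ g = χ 1 → g = 1) {s : G}
    (hs : s * s = 1) (hv : χ s = - χ 1) : s ∈ Subgroup.center G := by
  classical
  obtain ⟨n, ρ, rfl⟩ := hχ
  obtain ⟨b, μ, h1, h2⟩ := CharValues.exists_eigenbasis ρ s
  have hsq : ∀ i, μ i ^ 2 = 1 := by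
    intro i
    have h3 := CharValues.rep_pow_apply_eigenbasis h1 2 i
    rw [pow_two s, hs, map_one] at h3
    have h4 : (μ i ^ 2 - 1) • b i = 0 := by
      rw [sub_smul, one_smul, ← h3]; simp
    rcases smul_eq_zero.1 h4 with h | h
    · exact sub_eq_zero.1 h
    · exact absurd h (b.ne_zero i)
  have hμ : ∀ i, μ i = 1 ∨ μ i = -1 := fun i => mul_self_eq_one_iff.1 (by rw [← pow_two]; exact hsq i)
  have htr : ρ.character s = ∑ i, μ i := CharValues.trace_eq_sum_of_eigenbasis b _ _ h1
  have hone : ρ.character 1 = ∑ _i : Fin (Module.finrank ℂ (Fin n → ℂ)), (1 : ℂ) := by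
    rw [Representation.char_one, Finset.sum_const, Finset.card_univ, Fintype.card_fin, nsmul_eq_mul, mul_one]
  have hsum : ∑ i, (μ i + 1) = 0 := by
    rw [Finset.sum_add_distrib, ← htr, hv, ← hone]; ring
  have hre : ∑ i, (μ i + 1).re = 0 := by
    rw [← Complex.re_sum, hsum]; rfl
  have hnn : ∀ i ∈ (Finset.univ : Finset (Fin (Module.finrank ℂ (Fin n → ℂ)))), 0 ≤ (μ i + 1).re := by
    intro i _
    rcases hμ i with h | h <;> rw [h] <;> norm_num
  have hz := (Finset.sum_eq_zero_iff_of_nonneg hnn).1 hre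
  have hm1 : ∀ i, μ i = -1 := by
    intro i
    rcases hμ i with h | h
    · have h5 := hz i (Finset.mem_univ i)
      rw [h] at h5
      norm_num at h5
    · exact h
  have hρ : ρ s = -1 := by
    apply b.ext
    intro i
    rw [h1, hm1]
    simp
  rw [Subgroup.mem_center_iff]
  intro g
  have h6 : ρ (g * s * g⁻¹ * s⁻¹) = 1 := by
    have h7 : ρ (g * s) = ρ (s * g) := by
      rw [map_mul, map_mul, hρ]
      refine LinearMap.ext fun v => ?_
      rw [Module.End.mul_apply, Module.End.mul_apply, LinearMap.neg_apply, LinearMap.neg_apply,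
        Module.End.one_apply, Module.End.one_apply, map_neg]
    calc ρ (g * s * g⁻¹ * s⁻¹) = ρ (g * s) * ρ (g⁻¹ * s⁻¹) := by rw [← map_mul]; congr 1; group
      _ = ρ (s * g) * ρ (g⁻¹ * s⁻¹) := by rw [h7]
      _ = ρ (s * g * (g⁻¹ * s⁻¹)) := by rw [← map_mul]
      _ = 1 := by
        have : s * g * (g⁻¹ * s⁻¹) = 1 := by group
        rw [this, map_one]
  have h8 : g * s * g⁻¹ * s⁻¹ = 1 := by
    apply hf
    show LinearMap.trace ℂ _ (ρ _) = LinearMap.trace ℂ _ (ρ 1)
    rw [h6, map_one ρ]
  calc g * s = (g * s * g⁻¹ * s⁻¹) * (s * g) := by group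
    _ = s * g := by rw [h8, one_mul]

/-! ### elements of order three -/

theorem int_val {t : G} (ht : orderOf t = 3) (hreal : ∃ g, g * t * g⁻¹ = t⁻¹) {χ : G → ℂ}
    (hχ : IsCharacter G χ) : ∃ a : ℤ, χ t = a ∧ (3 : ℤ) ∣ (charDegree χ : ℤ) - a := by
  classical
  have : Fintype (Subgroup.zpowers t) := Fintype.ofFinite _
  obtain ⟨m, hm⟩ := BlockDefZero.sum_over_subgroup (Subgroup.zpowers t) hχ
  have ht1 : t ≠ 1 := by rintro rfl; simp at ht
  have ht2 : t ≠ t⁻¹ := by
    intro h
    have h1 : orderOf t ∣ 2 := orderOf_dvd_of_pow_eq_one (by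
      rw [pow_two]
      calc t * t = t * t⁻¹ := by rw [← h]
        _ = 1 := mul_inv_cancel t)
    rw [ht] at h1
    norm_num at h1
  have hti : t⁻¹ ≠ 1 := by simpa using ht1
  have hc : Nat.card (Subgroup.zpowers t) = 3 := by rw [Nat.card_zpowers, ht]
  have hu : (Finset.univ : Finset (Subgroup.zpowers t)) =
      {1, ⟨t, Subgroup.mem_zpowers t⟩, ⟨t⁻¹, inv_mem (Subgroup.mem_zpowers t)⟩} := by
    symm
    apply Finset.eq_univ_of_card
    rw [← Nat.card_eq_fintype_card, hc]
    rw [Finset.card_insert_of_notMem, Finset.card_pair]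
    · intro h; exact ht2 (congrArg Subtype.val h)
    · simp only [Finset.mem_insert, Finset.mem_singleton, not_or]
      exact ⟨fun h => ht1 (congrArg Subtype.val h).symm, fun h => hti (congrArg Subtype.val h).symm⟩
  have hinv : χ t⁻¹ = χ t := by
    obtain ⟨g, hg⟩ := hreal
    rw [← hg]
    exact hχ.isClassFunction t g
  have hsum : χ 1 + 2 * χ t = 3 * m := by
    rw [hu, Finset.sum_insert, Finset.sum_pair, hc] at hm
    · simp only [OneMemClass.coe_one, hinv] at hm
      push_cast at hm
      linear_combination hm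
    · intro h; exact ht2 (congrArg Subtype.val h)
    · simp only [Finset.mem_insert, Finset.mem_singleton, not_or]
      exact ⟨fun h => ht1 (congrArg Subtype.val h).symm, fun h => hti (congrArg Subtype.val h).symm⟩
  rw [← BlockDeg.charDegree_cast hχ] at hsum
  have hint : IsIntegral ℤ (χ t) := by
    obtain ⟨n, ρ, rfl⟩ := hχ
    exact CharValues.isIntegral_character ρ t
  obtain ⟨a, ha⟩ := CharCentral.exists_int_of_isIntegral_rat hint ((3 * m - charDegree χ) / 2) (by
    push_cast
    linear_combination (1 / 2) * hsum)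
  refine ⟨a, ha, ?_⟩
  rw [ha] at hsum
  have h2 : (charDegree χ : ℤ) + 2 * a = 3 * m := by exact_mod_cast hsum
  exact ⟨m - a, by linarith⟩

end Cfsg.Agent.Lib.SmCof
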