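import Cfsg.Agent.Lib.SmCof6

/-!
# Simple groups with a Sylow 3-subgroup of order three: the principal block, II (helper75)
-/

set_option autoImplicit false
set_option linter.all false

universe u

namespace Cfsg.Agent.Lib.SmCof

open Cfsg CharBasic BlockRing BlockSection
open scoped ComplexConjugate

variable {G : Type u} [Group G] [Finite G]

theorem mem_zpowers_three {t x : G} (ht : orderOf t = 3) (hx : x ∈ Subgroup.zpowers t) :
    x = 1 ∨ x = t ∨ x = t⁻¹ := by
  obtain ⟨k, rfl⟩ := hx
  have h3 : t ^ (3 : ℤ) = 1 := by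
    have := pow_orderOf_eq_one t
    rw [ht] at this
    exact_mod_cast this
  have hk : t ^ k = t ^ (k % 3) := by
    conv_lhs => rw [← Int.mul_ediv_add_emod k 3, zpow_add, zpow_mul, h3, one_zpow, one_mul]
  have h0 := Int.emod_nonneg k (by norm_num : (3 : ℤ) ≠ 0)
  have h1 := Int.emod_lt_of_pos k (by norm_num : (0 : ℤ) < 3)
  show t ^ k = 1 ∨ t ^ k = t ∨ t ^ k = t⁻¹
  rw [hk]
  generalize k % 3 = j at h0 h1
  interval_cases j
  · left; exact zpow_zero t
  · right; left; exact zpow_one t
  · right; right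
    rw [eq_inv_iff_mul_eq_one]
    calc t ^ (2 : ℤ) * t = t ^ (2 : ℤ) * t ^ (1 : ℤ) := by rw [zpow_one]
      _ = t ^ (3 : ℤ) := by rw [← zpow_add]; norm_num
      _ = 1 := h3

/-- an element of order three, inverted by some element -/
theorem exists_real_three [IsSimpleGroup G] (hZ : Subgroup.center G = ⊥) (h3 : 3 ∣ Nat.card G)
    (h9 : ¬ 9 ∣ Nat.card G) : ∃ t : G, orderOf t = 3 ∧ (∃ g, g * t * g⁻¹ = t⁻¹) ∧
      ∃ P : Sylow 3 G, (P : Subgroup G) = Subgroup.zpowers t := by
  classical
  have hf3 : Fact (Nat.Prime 3) := ⟨Nat.prime_three⟩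
  obtain ⟨P⟩ : Nonempty (Sylow 3 G) := inferInstance
  have hG0 : Nat.card G ≠ 0 := Nat.card_pos.ne'
  have hfac : (Nat.card G).factorization 3 = 1 := by
    have h1 : 1 ≤ (Nat.card G).factorization 3 := (Nat.Prime.dvd_iff_one_le_factorization Nat.prime_three hG0).1 h3
    have h2 : ¬ 2 ≤ (Nat.card G).factorization 3 := by
      intro h
      apply h9
      have := (Nat.prime_three.pow_dvd_iff_le_factorization hG0).2 h
      simpa using this
    omega
  have hPc : Nat.card (P : Subgroup G) = 3 := by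
    have := P.card_eq_multiplicity
    rw [hfac, pow_one] at this
    exact this
  obtain ⟨t, ht⟩ : ∃ t : (P : Subgroup G), orderOf t = 3 :=
    exists_prime_orderOf_dvd_card' 3 (by rw [hPc])
  have ht3 : orderOf (t : G) = 3 := by rw [Subgroup.orderOf_coe]; exact ht
  have hPt : (P : Subgroup G) = Subgroup.zpowers (t : G) := by
    symm
    apply Subgroup.eq_of_le_of_card_ge
    · rw [Subgroup.zpowers_le]; exact t.2
    · rw [hPc, Nat.card_zpowers, ht3]
  refine ⟨t, ht3, ?_, P, hPt⟩
  by_contra hcon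
  push Not at hcon
  apply SimpleDeg.no_burnside hZ h3 P
  intro g hg
  have h1' : g * (t : G) * g⁻¹ ∈ (P : Subgroup G) := (Subgroup.mem_normalizer_iff.1 hg t).1 t.2
  have h1 : g * (t : G) * g⁻¹ ∈ Subgroup.zpowers (t : G) := hPt ▸ h1'
  have hgt : g * (t : G) * g⁻¹ = t := by
    rcases mem_zpowers_three ht3 h1 with h | h | h
    · exfalso
      have : (t : G) = 1 := by
        calc (t : G) = g⁻¹ * (g * (t : G) * g⁻¹) * g := by group
          _ = 1 := by rw [h]; group
      rw [this, orderOf_one] at ht3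
      norm_num at ht3
    · exact h
    · exact absurd h (hcon g)
  rw [hPt, Subgroup.mem_centralizer_iff]
  rintro x ⟨k, rfl⟩
  have hc : Commute g (t : G) := by
    show g * (t : G) = t * g
    calc g * (t : G) = (g * (t : G) * g⁻¹) * g := by group
      _ = t * g := by rw [hgt]
  exact (hc.zpow_right k).eq.symm

/-- the centralizer of `t` has a normal `3`-complement -/
theorem three_complement {t : G} (ht : orderOf t = 3) (P : Sylow 3 G)
    (hP : (P : Subgroup G) = Subgroup.zpowers t) {H : Subgroup G} (hmem : ∀ g, g ∈ H ↔ Commute t g) :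
    ∃ N : Subgroup H, N.Normal ∧ ¬ 3 ∣ Nat.card N ∧ N.index = 3 ^ 1 := by
  have hf3 : Fact (Nat.Prime 3) := ⟨Nat.prime_three⟩
  have hPH : (P : Subgroup G) ≤ H := by
    rw [hP, Subgroup.zpowers_le, hmem]
  set Q : Sylow 3 H := P.subtype hPH with hQ
  have hN : Subgroup.normalizer (Q : Set H) ≤ Subgroup.centralizer (Q : Set H) := by
    intro h _
    rw [Subgroup.mem_centralizer_iff]
    intro x hx
    have hx' : (x : G) ∈ (P : Subgroup G) := hx
    rw [hP] at hx'
    obtain ⟨k, hk⟩ := hx'
    have h3 : Commute t (h : G) := (hmem h).1 h.2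
    apply Subtype.ext
    show (x : G) * (h : G) = (h : G) * (x : G)
    rw [← hk]
    exact (h3.zpow_left k).eq
  refine ⟨(MonoidHom.transferSylow Q hN).ker, inferInstance,
    MonoidHom.not_dvd_card_ker_transferSylow Q hN, ?_⟩
  rw [(MonoidHom.ker_transferSylow_isComplement' Q hN).symm.index_eq_card]
  have h1 : Nat.card (Q : Subgroup H) = Nat.card (P : Subgroup G) :=
    Nat.card_congr (Subgroup.subgroupOfEquivOfLe hPH).toEquiv
  rw [h1, hP, Nat.card_zpowers, ht]; norm_num

/-- the principal 3-block -/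
theorem block_three (hG9 : ¬ 9 ∣ Nat.card G) {M : Ideal AlgInt} (hM : IsPModular 3 M) {t : G}
    (ht : orderOf t = 3) (hreal : ∃ g, g * t * g⁻¹ = t⁻¹) (P : Sylow 3 G)
    (hP : (P : Subgroup G) = Subgroup.zpowers t) :
    ∃ α β : IrrCharacter G, ∃ e f : ℤ, (e = 1 ∨ e = -1) ∧ (f = 1 ∨ f = -1) ∧
      (α : G → ℂ) ≠ (fun _ => 1) ∧ (β : G → ℂ) ≠ (fun _ => 1) ∧ α ≠ β ∧
      (∀ χ : IrrCharacter G, χ ∈ principalBlock M G ↔ (χ : G → ℂ) = (fun _ => 1) ∨ χ = α ∨ χ = β) ∧
      (α : G → ℂ) t = e ∧ (β : G → ℂ) t = f ∧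
      1 + e * (charDegree (α : G → ℂ) : ℤ) + f * (charDegree (β : G → ℂ) : ℤ) = 0 := by
  classical
  have := isPrime hM
  have hf3 : Fact (Nat.Prime 3) := ⟨Nat.prime_three⟩
  have hfac : (Nat.card G).factorization 3 ≤ 2 := by
    by_contra hcon
    apply hG9
    have h2 : 2 ≤ (Nat.card G).factorization 3 := by omega
    have := (Nat.prime_three.pow_dvd_iff_le_factorization (Nat.card_pos (α := G)).ne').2 h2
    simpa using this
  choose a ha hd using fun χ : IrrCharacter G => int_val ht hreal χ.2.isCharacter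
  have hne : ∀ χ ∈ principalBlock M G, a χ ≠ 0 := by
    intro χ hχ h0
    have h1 := hd χ
    rw [h0, sub_zero] at h1
    exact not_dvd_of_principal hM hfac hχ (by exact_mod_cast h1)
  set H := Subgroup.centralizer ({t} : Set G) with hH
  have hmem : ∀ g, g ∈ H ↔ Commute t g := by
    intro g
    rw [hH, Subgroup.mem_centralizer_singleton_iff]
    exact ⟨fun h => h.symm, fun h => h.symm⟩
  obtain ⟨N, hN1, hN2, hN3⟩ := three_complement ht P hP hmem
  have h1r : ¬ 3 ∣ orderOf (1 : H) := by rw [orderOf_one]; norm_num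
  have h1 := principal_section_sum hM (k := 1) (by rw [ht]; rfl) hmem h1r h1r
  rw [sum_principal_of_normal_complement hM hN2 hN3 h1r h1r,
    finsum_mem_eq_finite_toFinset_sum _ (Set.toFinite _)] at h1
  simp only [OneMemClass.coe_one, mul_one, ha] at h1
  simp only [map_intCast, Nat.cast_ofNat] at h1
  set S := (Set.toFinite (principalBlock M G)).toFinset with hS
  have hmemS : ∀ χ, χ ∈ S ↔ χ ∈ principalBlock M G := fun χ => by rw [hS, Set.Finite.mem_toFinset]
  have h2 : ∑ χ ∈ S, a χ ^ 2 = 3 := by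
    have h3 : ((∑ χ ∈ S, a χ ^ 2 : ℤ) : ℂ) = ((3 : ℤ) : ℂ) := by
      push_cast
      have e : ((3 : ℂ) ^ 1) = 3 := by norm_num
      rw [← e, ← h1]
      exact Finset.sum_congr rfl fun χ _ => by ring
    exact_mod_cast h3
  set o : IrrCharacter G := ⟨fun _ => 1, isIrrCharacter_fun_one⟩ with ho
  have hoS : o ∈ S := (hmemS _).2 (one_mem M)
  have hsq : ∀ χ ∈ S, 1 ≤ a χ ^ 2 := by
    intro χ hχ
    have := hne χ ((hmemS χ).1 hχ)
    have h4 : 0 < a χ ^ 2 := by positivity
    omega
  -- the two nonprincipal members: weak orthogonality shows that there is at least one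
  have ht1 : (3 : ℕ) ∣ orderOf t := by rw [ht]
  have h5 := BlockOsima.weak_orthogonality hM (SmCof.isPBlock_principal M) (B := principalBlock M G)
    (x := (1 : G)) (y := t) (by rw [orderOf_one]; norm_num) ht1
  rw [finsum_mem_eq_finite_toFinset_sum _ (Set.toFinite _), ← hS] at h5
  have h6 : ∑ χ ∈ S, (charDegree (χ : G → ℂ) : ℤ) * a χ = 0 := by
    have h7 : ((∑ χ ∈ S, (charDegree (χ : G → ℂ) : ℤ) * a χ : ℤ) : ℂ) = ((0 : ℤ) : ℂ) := by
      push_cast
      rw [← h5]
      refine Finset.sum_congr rfl fun χ _ => ?_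
      rw [ha χ, (BlockDefect.charDegree_spec χ.2).1, map_intCast]
    exact_mod_cast h7
  have hao : a o = 1 := by
    have := ha o
    have h8 : (o : G → ℂ) t = 1 := rfl
    rw [h8] at this
    exact_mod_cast this.symm
  have hdo : charDegree (o : G → ℂ) = 1 := charDegree_one
  rw [← Finset.add_sum_erase _ _ hoS, hao] at h2
  rw [← Finset.add_sum_erase _ _ hoS, hao, hdo] at h6
  have hcard : (S.erase o).card = 2 := by
    have hle : ((S.erase o).card : ℤ) ≤ 2 := by
      have : ∑ χ ∈ S.erase o, (1 : ℤ) ≤ ∑ χ ∈ S.erase o, a χ ^ 2 :=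
        Finset.sum_le_sum fun χ hχ => hsq χ (Finset.mem_of_mem_erase hχ)
      rw [Finset.sum_const, nsmul_eq_mul, mul_one] at this
      linarith
    have hne0 : (S.erase o).card ≠ 0 := by
      intro h
      rw [Finset.card_eq_zero] at h
      rw [h] at h6
      simp at h6
    have hne1 : (S.erase o).card ≠ 1 := by
      intro h
      obtain ⟨χ, hχ⟩ := Finset.card_eq_one.1 h
      rw [hχ, Finset.sum_singleton] at h2
      -- `a² = 2`
      have h8 : a χ ^ 2 = 2 := by linarith
      have h9 : a χ < 2 := by nlinarith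
      have h10 : -2 < a χ := by nlinarith
      generalize a χ = z at h8 h9 h10
      interval_cases z <;> omega
    omega
  obtain ⟨α, β, hαβ, hE⟩ := Finset.card_eq_two.1 hcard
  rw [hE, Finset.sum_pair hαβ] at h2 h6
  have hαS : α ∈ S.erase o := by rw [hE]; simp
  have hβS : β ∈ S.erase o := by rw [hE]; simp
  have q1 := hsq α (Finset.mem_of_mem_erase hαS)
  have q2 := hsq β (Finset.mem_of_mem_erase hβS)
  have r1 : a α ^ 2 = 1 := by linarith
  have r2 : a β ^ 2 = 1 := by linarith
  refine ⟨α, β, a α, a β, mul_self_eq_one_iff.1 (by rw [← pow_two]; exact r1), mul_self_eq_one_iff.1 (by rw [← pow_two]; exact r2), ?_, ?_, hαβ, ?_, ha α, ha β, ?_⟩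
  · intro h
    exact Finset.ne_of_mem_erase hαS (Subtype.ext h)
  · intro h
    exact Finset.ne_of_mem_erase hβS (Subtype.ext h)
  · intro χ
    constructor
    · intro hχ
      by_cases h : χ = o
      · left; rw [h]
      · right
        have : χ ∈ S.erase o := Finset.mem_erase.2 ⟨h, (hmemS χ).2 hχ⟩
        rw [hE] at this
        simpa using this
    · rintro (h | h | h)
      · have : χ = o := Subtype.ext h
        rw [this]; exact one_mem M
      · rw [h]; exact (hmemS α).1 (Finset.mem_of_mem_erase hαS)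
      · rw [h]; exact (hmemS β).1 (Finset.mem_of_mem_erase hβS)
  · push_cast at h6
    linarith

end Cfsg.Agent.Lib.SmCof
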