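import Cfsg.Agent.Lib.SmCof7
import Cfsg.Agent.Lib.ColTools

/-!
# Simple groups of order `3 p^a q^b` (helper75)
-/

set_option autoImplicit false
set_option linter.all false

universe u

namespace Cfsg.Agent.Lib.SmCof

open Cfsg CharBasic BlockRing BlockSection
open scoped ComplexConjugate

variable {G : Type u} [Group G] [Finite G]

/-- With a faithful character of degree three the centralizer of an element of order three has
order three. -/
theorem card_cent_three (hcom : commutator G = ⊤) {ψ : G → ℂ} (hψi : IsIrrCharacter G ψ) (hψ : ψ 1 = 3)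
    (hf : ∀ g, ψ g = ψ 1 → g = 1) (h9 : ¬ 9 ∣ Nat.card G) {t : G} (ht : orderOf t = 3) (P : Sylow 3 G)
    (hP : (P : Subgroup G) = Subgroup.zpowers t) :
    Nat.card (Subgroup.centralizer ({t} : Set G)) = 3 := by
  classical
  have hmem : ∀ g, g ∈ Subgroup.centralizer ({t} : Set G) ↔ Commute t g := by
    intro g
    rw [Subgroup.mem_centralizer_singleton_iff]
    exact ⟨fun h => h.symm, fun h => h.symm⟩
  obtain ⟨N, hN1, hN2, hN3⟩ := three_complement ht P hP hmem
  have hvan : ∀ x : G, 3 ∣ orderOf x → ψ x = 0 := by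
    intro x hx
    obtain ⟨n, ρ, hρ, rfl⟩ := hψi
    have hn : n = 3 := by
      have h1 : ρ.character 1 = (n : ℂ) := by
        rw [Representation.char_one]; simp
      rw [h1] at hψ
      exact_mod_cast hψ
    exact DefectZeroVanish.character_eq_zero ρ 3 1 Nat.prime_three (by norm_num; exact h9)
      (by rw [Module.finrank_fin_fun, hn]; norm_num) x hx
  have hbot : N = ⊥ := by
    rw [Subgroup.eq_bot_iff_forall]
    intro v hv
    have hco : ¬ 3 ∣ orderOf v := by
      intro h
      apply hN2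
      have h1 : orderOf (⟨v, hv⟩ : N) = orderOf v := Subgroup.orderOf_mk _ _
      rw [← h1] at h
      exact h.trans (orderOf_dvd_natCard _)
    have hc : Commute t (v : G) := (hmem _).1 v.2
    have hcop : (orderOf t).Coprime (orderOf (v : G)) := by
      rw [ht, Subgroup.orderOf_coe]
      exact (Nat.Prime.coprime_iff_not_dvd Nat.prime_three).2 hco
    have ho := hc.orderOf_mul_eq_mul_orderOf_of_coprime hcop
    have h0 : ψ (t * v) = 0 := hvan _ (by rw [ho, ht]; exact dvd_mul_right 3 _)
    have h1 := three_cube hcom hψi.isCharacter hψ h0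
    rw [← hψ] at h1
    have h2 := hf _ h1
    have h3 : (t * (v : G)) ^ 3 = 1 := by rw [pow_succ, pow_two]; exact h2
    rw [hc.mul_pow, show t ^ 3 = 1 by rw [← ht]; exact pow_orderOf_eq_one t, one_mul] at h3
    have h4 : orderOf v ∣ 3 := orderOf_dvd_of_pow_eq_one (Subtype.ext (by simpa using h3))
    rw [← orderOf_eq_one_iff]
    rcases (Nat.dvd_prime Nat.prime_three).1 h4 with h | h
    · exact h
    · exact absurd (by rw [h]) hco
  have h1 := N.card_mul_index
  rw [hbot, Subgroup.card_bot, one_mul] at h1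
  rw [← h1, ← hbot, hN3, pow_one]

/-- column relations for the three characters not vanishing at `t` -/
theorem inv_formula {t : G} (ht : orderOf t = 3) (hreal : ∃ g, g * t * g⁻¹ = t⁻¹)
    (hC : Nat.card (Subgroup.centralizer ({t} : Set G)) = 3) {α β : IrrCharacter G} {e f : ℤ}
    (he : e = 1 ∨ e = -1) (hf : f = 1 ∨ f = -1) (hα1 : (α : G → ℂ) ≠ fun _ => 1)
    (hβ1 : (β : G → ℂ) ≠ fun _ => 1) (hαβ : α ≠ β) (hαt : (α : G → ℂ) t = e) (hβt : (β : G → ℂ) t = f)
    {s : G} (hs : orderOf s = 2) :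
    ∃ u v : ℤ, (α : G → ℂ) s = u ∧ (β : G → ℂ) s = v ∧ 1 + e * u + f * v = 0 ∧
      (Nat.card {p : G × G // IsConj s p.1 ∧ IsConj s p.2 ∧ p.1 * p.2 = t} : ℚ) *
        (Nat.card (Subgroup.centralizer ({s} : Set G)) : ℚ) ^ 2 =
      Nat.card G * (1 + e * u ^ 2 / charDegree (α : G → ℂ) + f * v ^ 2 / charDegree (β : G → ℂ)) := by
  classical
  have := Fintype.ofFinite G
  choose a ha using fun χ : IrrCharacter G => int_val ht hreal χ.2.isCharacter
  have hat : ∀ χ : IrrCharacter G, (χ : G → ℂ) t = a χ := fun χ => (ha χ).1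
  have hc := column_orthogonality t t
  rw [if_pos (IsConj.refl t), hC] at hc
  have h1 : ∑ χ : IrrCharacter G, a χ ^ 2 = 3 := by
    have h2 : ((∑ χ : IrrCharacter G, a χ ^ 2 : ℤ) : ℂ) = ((3 : ℤ) : ℂ) := by
      push_cast
      have h3 : ((3 : ℕ) : ℂ) = 3 := by norm_num
      rw [← h3, ← hc]
      refine Finset.sum_congr rfl fun χ _ => ?_
      rw [hat, map_intCast, pow_two]
    exact_mod_cast h2
  set o : IrrCharacter G := ⟨fun _ => 1, isIrrCharacter_fun_one⟩ with ho
  have hoα : o ≠ α := fun h => hα1 (by rw [← h])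
  have hoβ : o ≠ β := fun h => hβ1 (by rw [← h])
  have hao : a o = 1 := by
    have h2 := hat o
    have h8 : (o : G → ℂ) t = 1 := rfl
    rw [h8] at h2
    exact_mod_cast h2.symm
  have haα : a α = e := by
    have h2 := hat α
    rw [hαt] at h2
    exact_mod_cast h2.symm
  have haβ : a β = f := by
    have h2 := hat β
    rw [hβt] at h2
    exact_mod_cast h2.symm
  have he2 : e ^ 2 = 1 := by rcases he with rfl | rfl <;> norm_num
  have hf2 : f ^ 2 = 1 := by rcases hf with rfl | rfl <;> norm_num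
  -- the others vanish
  have hsplit : ∀ F : IrrCharacter G → ℂ, (∀ χ, a χ = 0 → F χ = 0) →
      ∑ χ : IrrCharacter G, F χ = F o + F α + F β := by
    intro F hF
    have hz : ∀ χ : IrrCharacter G, χ ≠ o → χ ≠ α → χ ≠ β → a χ = 0 := by
      intro χ h2 h3 h4
      by_contra h5
      have h6 : ∑ ξ ∈ ({o, α, β, χ} : Finset (IrrCharacter G)), a ξ ^ 2 ≤ 3 := by
        rw [← h1]
        exact Finset.sum_le_sum_of_subset_of_nonneg (Finset.subset_univ _) (fun _ _ _ => sq_nonneg _)
      rw [Finset.sum_insert (by simp [hoα, hoβ, h2.symm]), Finset.sum_insert (by simp [hαβ, h3.symm]),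
        Finset.sum_insert (by simp [h4.symm]), Finset.sum_singleton, hao, haα, haβ, he2, hf2] at h6
      have h7 : 0 < a χ ^ 2 := by positivity
      omega
    rw [← Finset.sum_subset (Finset.subset_univ ({o, α, β} : Finset (IrrCharacter G)))]
    · rw [Finset.sum_insert (by simp [hoα, hoβ]), Finset.sum_pair hαβ]; ring
    · intro χ _ hχ
      simp only [Finset.mem_insert, Finset.mem_singleton, not_or] at hχ
      exact hF χ (hz χ hχ.1 hχ.2.1 hχ.2.2)
  obtain ⟨u, hu⟩ := BlockKlein.exists_int_of_involution α.2.isCharacter hs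
  obtain ⟨v, hv⟩ := BlockKlein.exists_int_of_involution β.2.isCharacter hs
  refine ⟨u, v, hu, hv, ?_, ?_⟩
  · have h2 := column_orthogonality s t
    rw [if_neg (by
      intro h
      have h3 : orderOf s = orderOf t := by
        obtain ⟨g, hg⟩ := isConj_iff.1 h
        rw [← hg]
        exact (BlockDefect.orderOf_conj' s g).symm
      rw [hs, ht] at h3
      norm_num at h3)] at h2
    rw [hsplit _ (fun χ h => by rw [hat χ, h]; simp)] at h2
    rw [hat α, hat β, hu, hv, haα, haβ] at h2
    have h8 : (o : G → ℂ) t = 1 := rfl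
    have h9 : (o : G → ℂ) s = 1 := rfl
    rw [h8] at h2
    simp only [map_one, map_intCast, mul_one] at h2
    have h3 : ((1 + e * u + f * v : ℤ) : ℂ) = ((0 : ℤ) : ℂ) := by
      push_cast; linear_combination h2
    exact_mod_cast h3
  · have h2 := ColTools.struct_const s s t
    have hinv : ∀ χ : IrrCharacter G, (χ : G → ℂ) t⁻¹ = a χ := by
      intro χ
      obtain ⟨g, hg⟩ := hreal
      rw [← hg, ← hat χ]
      exact χ.2.isClassFunction t g
    rw [hsplit _ (fun χ h => by rw [hinv χ, h]; simp)] at h2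
    rw [hinv, hinv, hinv, hu, hv, hao, haα, haβ] at h2
    have h8 : (o : G → ℂ) 1 = 1 := rfl
    have h9 : (o : G → ℂ) s = 1 := rfl
    rw [h8, ← BlockDeg.charDegree_cast_irr α, ← BlockDeg.charDegree_cast_irr β] at h2
    have h3 : (((Nat.card {p : G × G // IsConj s p.1 ∧ IsConj s p.2 ∧ p.1 * p.2 = t} : ℚ) *
        (Nat.card (Subgroup.centralizer ({s} : Set G)) : ℚ) ^ 2 : ℚ) : ℂ) =
      ((Nat.card G * (1 + e * u ^ 2 / charDegree (α : G → ℂ) + f * v ^ 2 / charDegree (β : G → ℂ)) : ℚ) : ℂ) := by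
      push_cast
      rw [pow_two, h2]
      simp only [Int.cast_one, mul_one, div_one]
      ring
    exact_mod_cast h3

end Cfsg.Agent.Lib.SmCof
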