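import Cfsg.Agent.Lib.SmCof8

/-!
# Simple groups of order `3 p^a q^b`, II: involutions inverting an element of order three (helper75)
-/

set_option autoImplicit false
set_option linter.all false

universe u

namespace Cfsg.Agent.Lib.SmCof

open Cfsg CharBasic BlockRing BlockSection
open scoped ComplexConjugate

variable {G : Type u} [Group G] [Finite G]

theorem cent_eq_zpowers {t : G} (ht : orderOf t = 3)
    (hC : Nat.card (Subgroup.centralizer ({t} : Set G)) = 3) :
    Subgroup.centralizer ({t} : Set G) = Subgroup.zpowers t := by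
  symm
  apply Subgroup.eq_of_le_of_card_ge
  · rw [Subgroup.zpowers_le, Subgroup.mem_centralizer_singleton_iff]
  · rw [hC, Nat.card_zpowers, ht]

/-- `x` inverts the elements of `C(t)` -/
theorem inverts {t x c : G} (ht : orderOf t = 3)
    (hC : Nat.card (Subgroup.centralizer ({t} : Set G)) = 3) (hx : x * t * x⁻¹ = t⁻¹)
    (hc : c * t = t * c) : x * c * x⁻¹ = c⁻¹ := by
  have h1 : c ∈ Subgroup.zpowers t := by
    rw [← cent_eq_zpowers ht hC, Subgroup.mem_centralizer_singleton_iff]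
    exact hc
  rcases mem_zpowers_three ht h1 with rfl | rfl | rfl
  · group
  · exact hx
  · calc x * t⁻¹ * x⁻¹ = (x * t * x⁻¹)⁻¹ := by group
      _ = t⁻¹⁻¹ := by rw [hx]

theorem cube_eq_one {t c : G} (ht : orderOf t = 3)
    (hC : Nat.card (Subgroup.centralizer ({t} : Set G)) = 3) (hc : c * t = t * c) : c * c * c = 1 := by
  have h1 : c ∈ Subgroup.zpowers t := by
    rw [← cent_eq_zpowers ht hC, Subgroup.mem_centralizer_singleton_iff]
    exact hc
  obtain ⟨k, rfl⟩ := h1
  have h3 : t ^ (3 : ℤ) = 1 := by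
    have := pow_orderOf_eq_one t
    rw [ht] at this
    exact_mod_cast this
  show t ^ k * t ^ k * t ^ k = 1
  rw [← zpow_add, ← zpow_add]
  have : k + k + k = 3 * k := by ring
  rw [this, zpow_mul, h3, one_zpow]

theorem inv_conj {t x x' : G} (ht : orderOf t = 3)
    (hC : Nat.card (Subgroup.centralizer ({t} : Set G)) = 3) (hx : x * t * x⁻¹ = t⁻¹)
    (hx' : x' * t * x'⁻¹ = t⁻¹) : IsConj x x' := by
  set c := x⁻¹ * x' with hcdef
  have hc : c * t = t * c := by
    have h1 : x' * t = t⁻¹ * x' := by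
      calc x' * t = (x' * t * x'⁻¹) * x' := by group
        _ = t⁻¹ * x' := by rw [hx']
    have h2 : x⁻¹ * t⁻¹ = t * x⁻¹ := by
      calc x⁻¹ * t⁻¹ = x⁻¹ * (x * t * x⁻¹) := by rw [hx]
        _ = t * x⁻¹ := by group
    calc x⁻¹ * x' * t = x⁻¹ * (x' * t) := by group
      _ = x⁻¹ * t⁻¹ * x' := by rw [h1]; group
      _ = t * x⁻¹ * x' := by rw [h2]
      _ = t * (x⁻¹ * x') := by group
  have h3 := inverts ht hC hx hc
  have h4 := cube_eq_one ht hC hc
  rw [isConj_iff]
  refine ⟨c, ?_⟩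
  have h5 : x' = x * c := by rw [hcdef]; group
  rw [h5]
  have h6 : c * x = x * c⁻¹ := by
    have : x * c⁻¹ * x⁻¹ = c := by
      calc x * c⁻¹ * x⁻¹ = (x * c * x⁻¹)⁻¹ := by group
        _ = c⁻¹⁻¹ := by rw [h3]
        _ = c := inv_inv c
    calc c * x = (x * c⁻¹ * x⁻¹) * x := by rw [this]
      _ = x * c⁻¹ := by group
  calc c * x * c⁻¹ = x * c⁻¹ * c⁻¹ := by rw [h6]
    _ = x * (c * c * c) * c⁻¹ * c⁻¹ := by rw [h4, mul_one]
    _ = x * c := by group

theorem inverts_of_pair {t p q : G} (hp : p * p = 1) (hq : q * q = 1) (h : p * q = t) :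
    p * t * p⁻¹ = t⁻¹ := by
  have hp' : p⁻¹ = p := inv_eq_of_mul_eq_one_right hp
  have hq' : q⁻¹ = q := inv_eq_of_mul_eq_one_right hq
  rw [← h, mul_inv_rev, hp', hq']
  calc p * (p * q) * p = (p * p) * q * p := by group
    _ = q * p := by rw [hp, one_mul]

theorem sq_of_order {s : G} (hs : orderOf s = 2) : s * s = 1 := by
  have := pow_orderOf_eq_one s
  rwa [hs, pow_two] at this

theorem orderOf_two_of_isConj {s p : G} (hs : orderOf s = 2) (h : IsConj s p) : orderOf p = 2 := by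
  obtain ⟨g, hg⟩ := isConj_iff.1 h
  rw [← hg, BlockDefect.orderOf_conj' s g, hs]

theorem all_conj {t : G} (ht : orderOf t = 3)
    (hC : Nat.card (Subgroup.centralizer ({t} : Set G)) = 3)
    (hN : ∀ s : G, orderOf s = 2 → ∃ p q : G, IsConj s p ∧ IsConj s q ∧ p * q = t) (s s' : G)
    (hs : orderOf s = 2) (hs' : orderOf s' = 2) : IsConj s s' := by
  obtain ⟨p, q, h1, h2, h3⟩ := hN s hs
  obtain ⟨p', q', h1', h2', h3'⟩ := hN s' hs'
  have e1 := inverts_of_pair (sq_of_order (orderOf_two_of_isConj hs h1))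
    (sq_of_order (orderOf_two_of_isConj hs h2)) h3
  have e2 := inverts_of_pair (sq_of_order (orderOf_two_of_isConj hs' h1'))
    (sq_of_order (orderOf_two_of_isConj hs' h2')) h3'
  exact (h1.trans (inv_conj ht hC e1 e2)).trans h1'.symm

theorem card_pairs_three {t : G} (ht : orderOf t = 3)
    (hC : Nat.card (Subgroup.centralizer ({t} : Set G)) = 3)
    (hall : ∀ s s' : G, orderOf s = 2 → orderOf s' = 2 → IsConj s s') {s x : G} (hs : orderOf s = 2)
    (hx2 : x * x = 1) (hx : x * t * x⁻¹ = t⁻¹) :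
    Nat.card {p : G × G // IsConj s p.1 ∧ IsConj s p.2 ∧ p.1 * p.2 = t} = 3 := by
  classical
  rw [← hC]
  have hxi : x⁻¹ = x := inv_eq_of_mul_eq_one_right hx2
  have ht1 : t ≠ 1 := by rintro rfl; simp at ht
  -- `x c` is an involution
  have hinv : ∀ c : G, c * t = t * c → orderOf (x * c) = 2 := by
    intro c hc
    have h1 := inverts ht hC hx hc
    have h2 : (x * c) * (x * c) = 1 := by
      calc (x * c) * (x * c) = (x * c * x⁻¹) * (x * x) * c := by group
        _ = 1 := by rw [h1, hx2]; group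
    refine orderOf_eq_prime (by rw [pow_two]; exact h2) ?_
    intro h3
    have h4 : x = c⁻¹ := eq_inv_of_mul_eq_one_left h3
    have h5 : x * t * x⁻¹ = t := by
      rw [h4]
      calc c⁻¹ * t * c⁻¹⁻¹ = c⁻¹ * (t * c) := by group
        _ = c⁻¹ * (c * t) := by rw [hc]
        _ = t := by group
    rw [hx] at h5
    have h6 : t * t = 1 := by
      calc t * t = t⁻¹ * t := by rw [h5]
        _ = 1 := by group
    have h7 : orderOf t ∣ 2 := orderOf_dvd_of_pow_eq_one (by rw [pow_two]; exact h6)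
    rw [ht] at h7
    norm_num at h7
  symm
  refine Nat.card_congr
    { toFun := fun c => ⟨(x * c.1, (x * c.1)⁻¹ * t), ?_, ?_, ?_⟩
      invFun := fun p => ⟨x⁻¹ * p.1.1, ?_⟩
      left_inv := ?_
      right_inv := ?_ }
  · have hc := Subgroup.mem_centralizer_singleton_iff.1 c.2
    exact hall _ _ hs (hinv _ hc)
  · have hc := Subgroup.mem_centralizer_singleton_iff.1 c.2
    have h1 : (x * c.1) * (x * c.1) = 1 := sq_of_order (hinv _ hc)
    have h2 : (x * c.1)⁻¹ = x * c.1 := inv_eq_of_mul_eq_one_right h1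
    rw [h2, mul_assoc]
    apply hall _ _ hs
    apply hinv
    have h3 : c.1 * t * t = t * c.1 * t := by rw [hc]
    rw [h3, mul_assoc]
  · show x * c.1 * ((x * c.1)⁻¹ * t) = t
    group
  · have h1 := orderOf_two_of_isConj hs p.2.1
    have h2 := orderOf_two_of_isConj hs p.2.2.1
    have h3 := inverts_of_pair (sq_of_order h1) (sq_of_order h2) p.2.2.2
    rw [Subgroup.mem_centralizer_singleton_iff]
    have h4 : p.1.1 * t = t⁻¹ * p.1.1 := by
      calc p.1.1 * t = (p.1.1 * t * p.1.1⁻¹) * p.1.1 := by group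
        _ = t⁻¹ * p.1.1 := by rw [h3]
    have h5 : x⁻¹ * t⁻¹ = t * x⁻¹ := by
      calc x⁻¹ * t⁻¹ = x⁻¹ * (x * t * x⁻¹) := by rw [hx]
        _ = t * x⁻¹ := by group
    calc x⁻¹ * p.1.1 * t = x⁻¹ * (p.1.1 * t) := by group
      _ = x⁻¹ * t⁻¹ * p.1.1 := by rw [h4]; group
      _ = t * x⁻¹ * p.1.1 := by rw [h5]
      _ = t * (x⁻¹ * p.1.1) := by group
  · intro c
    apply Subtype.ext
    show x⁻¹ * (x * c.1) = c.1
    group
  · intro p
    apply Subtype.ext
    apply Prod.ext
    · show x * (x⁻¹ * p.1.1) = p.1.1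
      group
    · show (x * (x⁻¹ * p.1.1))⁻¹ * t = p.1.2
      obtain ⟨⟨p1, p2⟩, hp1, hp2, hp3⟩ := p
      show (x * (x⁻¹ * p1))⁻¹ * t = p2
      have hp3' : p1 * p2 = t := hp3
      rw [← hp3']
      group

/-- the rational identity -/
theorem alg_id {x y u v e f : ℚ} (hx : x ≠ 0) (hy : y ≠ 0) (he : e * e = 1) (hf : f = -e)
    (h1 : 1 + e * x + f * y = 0) (h2 : 1 + e * u + f * v = 0) :
    1 + e * u ^ 2 / x + f * v ^ 2 / y = (x - u) ^ 2 / (x * y) := by
  subst hf
  have hy' : y = x + e := by linear_combination (-e) * h1 - (y - x) * he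
  have hv' : v = u + e := by linear_combination (-e) * h2 - (v - u) * he
  subst hy' hv'
  field_simp
  linear_combination (u ^ 2 - 2 * x * u - x * e) * he

end Cfsg.Agent.Lib.SmCof
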