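import Mathlib
import Cfsg.Agent.Lib.H67Basic
import Cfsg.Agent.Lib.SL2Int
import Cfsg.Agent.Lib.SL2EvenMisc

/-!
# Solubilizers in two-dimensional linear groups (helper51)
-/

set_option autoImplicit false

namespace Cfsg.Agent.Lib.Solubil

open Subgroup
open scoped commutatorElement

section Gen
variable {G : Type*} [Group G]

/-- solvable since the commutators lie in an abelian subgroup -/
theorem solv_of (H N : Subgroup G) (h1 : ∀ a ∈ H, ∀ b ∈ H, ⁅a, b⁆ ∈ N) (h2 : ∀ a ∈ N, ∀ b ∈ N, a * b = b * a) :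
    Group.IsSolvable H := by
  refine ⟨2, ?_⟩
  have h3 : derivedSeries H 1 ≤ N.subgroupOf H := by
    rw [show (1 : ℕ) = 0 + 1 from rfl, derivedSeries_succ, derivedSeries_zero, commutator_le]
    intro a _ b _
    exact h1 a a.2 b b.2
  rw [show (2 : ℕ) = 1 + 1 from rfl, derivedSeries_succ, eq_bot_iff, commutator_le]
  intro a ha b hb
  rw [mem_bot, commutatorElement_eq_one_iff_mul_comm]
  exact Subtype.ext (h2 a (h3 ha) b (h3 hb))

/-- `y` inverts `x` -/
theorem solv_inv {x y : G} (h : y * x * y⁻¹ = x⁻¹) : Group.IsSolvable (closure ({x, y} : Set G)) := by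
  set K := closure ({x, y} : Set G) with hK
  have hx : x ∈ K := Subgroup.subset_closure (by simp)
  have hy : y ∈ K := Subgroup.subset_closure (by simp)
  have hyz : ∀ n : ℤ, y * x ^ n * y⁻¹ = x ^ (-n) := by
    intro n
    have h1 : MulAut.conj y (x ^ n) = (MulAut.conj y x) ^ n := map_zpow _ _ _
    rw [MulAut.conj_apply, MulAut.conj_apply, h, inv_zpow'] at h1
    exact h1
  have hyN : y ∈ normalizer (zpowers x : Set G) := by
    rw [mem_normalizer_iff]
    intro z
    constructor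
    · rintro ⟨n, rfl⟩
      exact ⟨-n, (hyz n).symm⟩
    · rintro ⟨n, hn⟩
      refine ⟨-n, ?_⟩
      have h1 : z = y⁻¹ * x ^ n * y := by rw [show x ^ n = y * z * y⁻¹ from hn]; group
      have h2 := hyz (-n)
      rw [neg_neg] at h2
      show x ^ (-n) = z
      rw [h1, ← h2]; group
  have hKN : K ≤ normalizer (zpowers x : Set G) := by
    rw [hK, closure_le]
    rintro s (rfl | rfl)
    · exact le_normalizer (mem_zpowers _)
    · exact hyN
  have hel : ∀ a ∈ K, ∃ n m : ℤ, a = x ^ n * y ^ m := by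
    have h1 : K ≤ zpowers x ⊔ zpowers y := by
      rw [hK, closure_le]
      rintro s (rfl | rfl)
      · exact (le_sup_left : _ ≤ zpowers s ⊔ zpowers y) (mem_zpowers _)
      · exact (le_sup_right : _ ≤ zpowers x ⊔ zpowers s) (mem_zpowers _)
    intro a ha
    have h2 := h1 ha
    rw [sup_comm, ← SetLike.mem_coe, coe_mul_of_left_le_normalizer_right _ _ (zpowers_le.mpr hyN)] at h2
    obtain ⟨_, ⟨m, rfl⟩, _, ⟨n, rfl⟩, rfl⟩ := h2
    have h3 : y ^ m * x ^ n * (y ^ m)⁻¹ ∈ zpowers x :=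
      (mem_normalizer_iff.mp (zpow_mem hyN m) _).mp (zpow_mem (mem_zpowers _) _)
    obtain ⟨k, hk⟩ := h3
    refine ⟨k, m, ?_⟩
    show y ^ m * x ^ n = x ^ k * y ^ m
    rw [show x ^ k = y ^ m * x ^ n * (y ^ m)⁻¹ from hk]; group
  apply solv_of K (zpowers x)
  · intro a ha b hb
    let N' : Subgroup K := (zpowers x).subgroupOf K
    haveI : N'.Normal := by
      constructor
      intro n hn g
      exact (mem_normalizer_iff.mp (hKN g.2) _).mp hn
    let π := QuotientGroup.mk' N'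
    have hπx : ∀ n : ℤ, π ⟨x ^ n, zpow_mem hx n⟩ = 1 := fun n =>
      (QuotientGroup.eq_one_iff _).mpr (zpow_mem (mem_zpowers x) n)
    have hπ : ∀ c : K, ∃ m : ℤ, π c = (π ⟨y, hy⟩) ^ m := by
      rintro ⟨c, hc⟩
      obtain ⟨n, m, rfl⟩ := hel c hc
      refine ⟨m, ?_⟩
      have h1 : (⟨x ^ n * y ^ m, hc⟩ : K) = ⟨x ^ n, zpow_mem hx n⟩ * (⟨y, hy⟩ : K) ^ m := rfl
      rw [h1, map_mul, hπx, one_mul, map_zpow]
    obtain ⟨i, hi⟩ := hπ ⟨a, ha⟩
    obtain ⟨j, hj⟩ := hπ ⟨b, hb⟩
    have h1 : π ⁅(⟨a, ha⟩ : K), ⟨b, hb⟩⁆ = 1 := by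
      rw [map_commutatorElement, commutatorElement_eq_one_iff_mul_comm, hi, hj, ← zpow_add, ← zpow_add, add_comm]
    have h2 : ⁅(⟨a, ha⟩ : K), ⟨b, hb⟩⁆ ∈ N' := (QuotientGroup.eq_one_iff _).mp h1
    exact h2
  · rintro _ ⟨i, rfl⟩ _ ⟨j, rfl⟩
    show x ^ i * x ^ j = x ^ j * x ^ i
    rw [← zpow_add, ← zpow_add, add_comm]

theorem closure_mul_left (x y : G) : closure ({x, x * y} : Set G) = closure ({x, y} : Set G) := by
  apply le_antisymm
  · rw [closure_le]
    have hx : x ∈ closure ({x, y} : Set G) := Subgroup.subset_closure (by simp)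
    have hy : y ∈ closure ({x, y} : Set G) := Subgroup.subset_closure (by simp)
    rintro s (rfl | rfl)
    · exact hx
    · exact mul_mem hx hy
  · rw [closure_le]
    have hx : x ∈ closure ({x, x * y} : Set G) := Subgroup.subset_closure (by simp)
    have hy : x * y ∈ closure ({x, x * y} : Set G) := Subgroup.subset_closure (by simp)
    rintro s (rfl | rfl)
    · exact hx
    · have hs := mul_mem (inv_mem hx) hy
      rwa [inv_mul_cancel_left] at hs

theorem closure_swap (x y : G) : closure ({x, y} : Set G) = closure ({y, x} : Set G) := by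
  rw [Set.pair_comm]

/-- two involutions -/
theorem solv_two {x y : G} (hx : x * x = 1) (hy : y * y = 1) : Group.IsSolvable (closure ({x, y} : Set G)) := by
  rw [← closure_mul_left, closure_swap]
  apply solv_inv
  have h1 : x⁻¹ = x := inv_eq_of_mul_eq_one_left hx
  have h2 : y⁻¹ = y := inv_eq_of_mul_eq_one_left hy
  rw [mul_inv_rev, h1, h2, ← mul_assoc, hx, one_mul]

theorem solv_comm {x y : G} (h : x * y = y * x) : Group.IsSolvable (closure ({x, y} : Set G)) := by
  have h1 := isMulCommutative_closure (k := ({x, y} : Set G)) (by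
    rintro a (rfl | rfl) b (rfl | rfl)
    · rfl
    · exact h
    · exact h.symm
    · rfl)
  exact Group.isSolvable_of_comm (fun a b => h1.is_comm.comm a b)

theorem solv_map {H : Type*} [Group H] (f : G →* H) (hf : Function.Injective f) (x y : G) :
    Group.IsSolvable (closure ({f x, f y} : Set H)) ↔ Group.IsSolvable (closure ({x, y} : Set G)) := by
  have h1 : closure ({f x, f y} : Set H) = (closure ({x, y} : Set G)).map f := by
    rw [MonoidHom.map_closure, Set.image_pair]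
  rw [h1]
  have e := (closure ({x, y} : Set G)).equivMapOfInjective f hf
  constructor
  · intro h
    exact Group.isSolvable_of_isSolvable_injective (f := e.toMonoidHom) e.injective
  · intro h
    exact Group.isSolvable_of_surjective (f := e.toMonoidHom) e.surjective

theorem card_map {H : Type*} [Group H] (e : G ≃* H) (x : G) :
    Nat.card {y : H // Group.IsSolvable (closure ({e x, y} : Set H))} =
      Nat.card {y : G // Group.IsSolvable (closure ({x, y} : Set G))} := by
  symm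
  apply Nat.card_congr
  exact e.toEquiv.subtypeEquiv (fun y => (solv_map e.toMonoidHom e.injective x y).symm)

end Gen

section SL
open Matrix Cfsg.Agent.Lib.SL2Basic Cfsg.Agent.Lib.SL2Tori Cfsg.Agent.Lib.SL2Int

variable {F : Type*} [Field F]

local notation "SL2" => Matrix.SpecialLinearGroup (Fin 2) F
local notation "M2" => Matrix (Fin 2) (Fin 2) F

theorem mul00 (A B : SL2) : ((A * B : SL2) : M2) 0 0 = (A : M2) 0 0 * (B : M2) 0 0 + (A : M2) 0 1 * (B : M2) 1 0 := by
  rw [Matrix.SpecialLinearGroup.coe_mul, Matrix.mul_apply, Fin.sum_univ_two]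
theorem mul01 (A B : SL2) : ((A * B : SL2) : M2) 0 1 = (A : M2) 0 0 * (B : M2) 0 1 + (A : M2) 0 1 * (B : M2) 1 1 := by
  rw [Matrix.SpecialLinearGroup.coe_mul, Matrix.mul_apply, Fin.sum_univ_two]
theorem mul10 (A B : SL2) : ((A * B : SL2) : M2) 1 0 = (A : M2) 1 0 * (B : M2) 0 0 + (A : M2) 1 1 * (B : M2) 1 0 := by
  rw [Matrix.SpecialLinearGroup.coe_mul, Matrix.mul_apply, Fin.sum_univ_two]
theorem mul11 (A B : SL2) : ((A * B : SL2) : M2) 1 1 = (A : M2) 1 0 * (B : M2) 0 1 + (A : M2) 1 1 * (B : M2) 1 1 := by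
  rw [Matrix.SpecialLinearGroup.coe_mul, Matrix.mul_apply, Fin.sum_univ_two]

/-- unipotent upper triangular -/
def UT (F : Type*) [Field F] : Subgroup (Matrix.SpecialLinearGroup (Fin 2) F) where
  carrier := {A | (A : Matrix (Fin 2) (Fin 2) F) 1 0 = 0 ∧ (A : Matrix (Fin 2) (Fin 2) F) 0 0 = 1}
  one_mem' := by simp
  mul_mem' := by
    rintro A B ⟨h1, h2⟩ ⟨h3, h4⟩
    refine ⟨?_, ?_⟩
    · rw [mul10, h1, h3]; ring
    · rw [mul00, h2, h3, h4]; ring
  inv_mem' := by
    rintro A ⟨h1, h2⟩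
    have h3 := det2 A
    rw [h1, h2] at h3
    refine ⟨?_, ?_⟩
    · rw [inv_coe]; simp [h1]
    · rw [inv_coe]; simp; linear_combination h3

/-- Borel elements generate a solvable group -/
theorem solv_bor {x y : SL2} (hx : (x : M2) 1 0 = 0) (hy : (y : M2) 1 0 = 0) :
    Group.IsSolvable (closure ({x, y} : Set SL2)) := by
  let B : Subgroup SL2 :=
    { carrier := {A | (A : M2) 1 0 = 0}
      one_mem' := by simp
      mul_mem' := by
        intro A B (h1 : (A : M2) 1 0 = 0) (h2 : (B : M2) 1 0 = 0)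
        show ((A * B : SL2) : M2) 1 0 = 0
        rw [mul10, h1, h2]; ring
      inv_mem' := by
        intro A (h1 : (A : M2) 1 0 = 0)
        show ((A⁻¹ : SL2) : M2) 1 0 = 0
        rw [inv_coe]; simp [h1] }
  have hle : closure ({x, y} : Set SL2) ≤ B := by
    rw [closure_le]
    rintro s (rfl | rfl)
    · exact hx
    · exact hy
  apply solv_of _ (UT F)
  · intro a ha b hb
    have ha' : (a : M2) 1 0 = 0 := hle ha
    have hb' : (b : M2) 1 0 = 0 := hle hb
    have h1 := det2 a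
    have h2 := det2 b
    rw [ha'] at h1
    rw [hb'] at h2
    have ia : ((a⁻¹ : SL2) : M2) 0 0 = (a : M2) 1 1 ∧ ((a⁻¹ : SL2) : M2) 1 0 = 0 := by rw [inv_coe]; simp [ha']
    have ib : ((b⁻¹ : SL2) : M2) 0 0 = (b : M2) 1 1 ∧ ((b⁻¹ : SL2) : M2) 1 0 = 0 := by rw [inv_coe]; simp [hb']
    refine ⟨?_, ?_⟩
    · have : ⁅a, b⁆ ∈ B := by
        rw [commutatorElement_def]
        exact mul_mem (mul_mem (mul_mem ha' hb') (inv_mem (show a ∈ B from ha'))) (inv_mem (show b ∈ B from hb'))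
      exact this
    · rw [commutatorElement_def, mul00, mul00, mul00, ia.1, ia.2, ib.1, ib.2, hb']
      linear_combination (b : M2) 0 0 * (b : M2) 1 1 * h1 + h2
  · rintro a ⟨ha, ha'⟩ b ⟨hb, hb'⟩
    have h1 := det2 a
    have h2 := det2 b
    rw [ha, ha'] at h1
    rw [hb, hb'] at h2
    have ha1 : (a : M2) 1 1 = 1 := by linear_combination h1
    have hb1 : (b : M2) 1 1 = 1 := by linear_combination h2
    apply ext2
    · rw [mul00, mul00, ha, hb]; ring
    · rw [mul01, mul01, ha1, hb1, ha', hb']; ring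
    · rw [mul10, mul10, ha, hb]; ring
    · rw [mul11, mul11, ha, hb]; ring

/-- the basic dichotomy: a solvable two-generator subgroup has a common eigenvector or normalizes a torus,
or its normal abelian subgroups consist of involutions -/
theorem dichotomy {x y : SL2} (hx : x ∉ center SL2) (hs : Group.IsSolvable (closure ({x, y} : Set SL2))) :
    ∃ A : Subgroup SL2, A ≤ closure ({x, y} : Set SL2) ∧ (∃ a ∈ A, a ≠ 1) ∧ (∀ a ∈ A, ∀ b ∈ A, a * b = b * a) ∧
      ∀ h ∈ closure ({x, y} : Set SL2), ∀ a ∈ A, h * a * h⁻¹ ∈ A := by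
  haveI : Nontrivial (closure ({x, y} : Set SL2)) := by
    refine ⟨⟨⟨x, Subgroup.subset_closure (by simp)⟩, 1, ?_⟩⟩
    intro h
    apply hx
    have : x = 1 := congrArg Subtype.val h
    rw [this]; exact one_mem _
  obtain ⟨A, hA, hAc, hAb⟩ := H67Basic.exists_normal_abelian (G := closure ({x, y} : Set SL2))
  refine ⟨A.map (closure ({x, y} : Set SL2)).subtype, map_subtype_le _, ?_, ?_, ?_⟩
  · obtain ⟨⟨a, ha⟩, ha1⟩ := Subgroup.ne_bot_iff_exists_ne_one.mp hA
    exact ⟨a, ⟨a, ha, rfl⟩, fun h => ha1 (Subtype.ext (Subtype.ext h))⟩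
  · rintro _ ⟨a, ha, rfl⟩ _ ⟨b, hb, rfl⟩
    exact congrArg Subtype.val (hAb a ha b hb)
  · rintro h hh _ ⟨a, ha, rfl⟩
    have : A.Normal := inferInstance
    exact ⟨_, this.conj_mem a ha ⟨h, hh⟩, rfl⟩

/-- conjugates of a transvection commuting with it -/
theorem entry_conj {a h : SL2} (ha : (a : M2) 1 0 = 0) (ha' : (a : M2) 0 0 = 1) (ha1 : a ≠ 1)
    (hc : (h * a * h⁻¹) * a = a * (h * a * h⁻¹)) : (h : M2) 1 0 = 0 := by
  have h1 := det2 a
  rw [ha, ha'] at h1
  have ha11 : (a : M2) 1 1 = 1 := by linear_combination h1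
  have hs : (a : M2) 0 1 ≠ 0 := by
    intro hs
    apply ha1
    apply ext2
    · rw [ha']; simp
    · rw [hs]; simp
    · rw [ha]; simp
    · rw [ha11]; simp
  obtain ⟨b, hb⟩ : ∃ b, b = h * a * h⁻¹ := ⟨_, rfl⟩
  rw [← hb] at hc
  have h2 := congrArg (fun A : SL2 => (A : M2) 0 0) hc
  rw [mul00, mul00, ha, ha'] at h2
  have h3 : (a : M2) 0 1 * (b : M2) 1 0 = 0 := by linear_combination -h2
  have h4 := (mul_eq_zero.mp h3).resolve_left hs
  rw [hb] at h4
  rw [mul10, mul10, mul11, inv_coe, ha, ha', ha11] at h4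
  simp at h4
  have h5 : (a : M2) 0 1 * ((h : M2) 1 0 * (h : M2) 1 0) = 0 := by linear_combination -h4
  have h6 := (mul_eq_zero.mp h5).resolve_left hs
  exact mul_self_eq_zero.mp h6

theorem exists_glConj {A B : SL2} (hA : A ∉ center SL2) (hB : B ∉ center SL2) (h : tr A = tr B) :
    ∃ g : GL (Fin 2) F, glConj g A = B := by
  obtain ⟨g, hg⟩ := exists_gl_conj hA hB h
  refine ⟨g, ?_⟩
  apply Subtype.ext
  rw [glConj_coe, hg, mul_assoc, ← Matrix.GeneralLinearGroup.coe_mul, mul_inv_cancel]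
  simp

/-- conjugation by an element of `GL₂` -/
noncomputable def glEquiv (g : GL (Fin 2) F) : SL2 ≃* SL2 :=
  MulEquiv.ofBijective (glConjHom g) ⟨fun A B h => by
      have h1 := congrArg (glConj g⁻¹) (show glConj g A = glConj g B from h)
      rwa [glConj_glConj, glConj_glConj, inv_mul_cancel, glConj_id, glConj_id] at h1,
    fun B => ⟨glConj g⁻¹ B, by
      show glConj g (glConj g⁻¹ B) = B
      rw [glConj_glConj, mul_inv_cancel, glConj_id]⟩⟩

theorem glEquiv_apply (g : GL (Fin 2) F) (A : SL2) : glEquiv g A = glConj g A := rfl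

/-- unipotent elements: the normalizing elements share an eigenvector -/
theorem common_eigen {a : SL2} (ha : a ∉ center SL2) (ht : tr a = 2) :
    ∃ v : Fin 2 → F, v ≠ 0 ∧ ∀ h : SL2, (h * a * h⁻¹) * a = a * (h * a * h⁻¹) →
      ∃ c : F, (h : M2) *ᵥ v = c • v := by
  have huu : (uu 1 : SL2) ∉ center SL2 := by
    rw [mem_center_iff_entries]; simp [uu]
  obtain ⟨g, hg⟩ := exists_glConj (A := a) (B := uu 1) ha huu (by rw [ht, tr_def]; simp [uu]; norm_num)
  refine ⟨((g⁻¹ : GL (Fin 2) F) : M2) *ᵥ ![1, 0], ?_, ?_⟩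
  · intro h0
    have h1 := congrArg (fun w => (g : M2) *ᵥ w) h0
    simp only [mulVec_mulVec, mulVec_zero] at h1
    rw [← Units.val_mul, mul_inv_cancel, Units.val_one, one_mulVec] at h1
    exact one_ne_zero (congrFun h1 0)
  · intro h hc
    have h1 := congrArg (glConjHom g) hc
    simp only [map_mul, map_inv] at h1
    have h2 := entry_conj (a := uu 1) (h := glConj g h) (by simp [uu]) (by simp [uu]) (by
      intro h3; apply huu; rw [h3]; exact one_mem _) (by rw [← hg]; exact h1)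
    have h3 : ((glConj g h : SL2) : M2) *ᵥ ![1, 0] = ((glConj g h : SL2) : M2) 0 0 • ![1, 0] := by
      ext i
      fin_cases i
      · simp [Matrix.mulVec, dotProduct, Fin.sum_univ_two]
      · simp [Matrix.mulVec, dotProduct, Fin.sum_univ_two, h2]
    refine ⟨((glConj g h : SL2) : M2) 0 0, ?_⟩
    have h4 : (h : M2) *ᵥ (((g⁻¹ : GL (Fin 2) F) : M2) *ᵥ ![1, 0]) =
        ((g⁻¹ : GL (Fin 2) F) : M2) *ᵥ (((glConj g h : SL2) : M2) *ᵥ ![1, 0]) := by
      rw [glConj_coe, mulVec_mulVec, mulVec_mulVec]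
      congr 1
      rw [mul_assoc, ← mul_assoc ((g⁻¹ : GL (Fin 2) F) : M2) (g : M2), ← Units.val_mul, inv_mul_cancel, Units.val_one,
        one_mul]
    rw [h4, h3, mulVec_smul]

/-- trace of inverting elements -/
theorem tr_of_inverts {a h : SL2} (hi : h * a * h⁻¹ = a⁻¹) : 2 * tr (a * h) = tr a * tr h := by
  have h1 : h * a = a⁻¹ * h := by rw [← hi]; group
  have h2 := congrArg tr h1
  rw [tr_mul_comm, tr_def, tr_def, mul00, mul11, mul00, mul11, inv_coe] at h2
  rw [tr_def, mul00, mul11, tr_def, tr_def]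
  simp at h2
  linear_combination h2

end SL

section Char2
open Matrix Cfsg.Agent.Lib.SL2Basic Cfsg.Agent.Lib.SL2Tori Cfsg.Agent.Lib.SL2Int

variable {F : Type*} [Field F] [CharP F 2]

local notation "SL2" => Matrix.SpecialLinearGroup (Fin 2) F
local notation "M2" => Matrix (Fin 2) (Fin 2) F

theorem not_center_of_ne_one {x : SL2} (hx : x ≠ 1) : x ∉ center SL2 := by
  rw [SL2EvenMisc.center_eq_bot_of_char_two]; exact hx

theorem sq_one {x : SL2} (hx : tr x = 0) : x * x = 1 := by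
  apply Subtype.ext
  rw [Matrix.SpecialLinearGroup.coe_mul, sq_eq, hx, zero_smul, zero_sub, Matrix.SpecialLinearGroup.coe_one]
  exact CharTwo.neg_eq _

/-- the necessary condition for solvability -/
theorem nec {x y : SL2} (hx : x ≠ 1) (hs : Group.IsSolvable (closure ({x, y} : Set SL2))) :
    (∃ v : Fin 2 → F, v ≠ 0 ∧ (∃ c : F, (x : M2) *ᵥ v = c • v) ∧ (∃ d : F, (y : M2) *ᵥ v = d • v)) ∨
    x * y = y * x ∨ (tr x = 0 ∧ tr y = 0) ∨ (tr x = 0 ∧ tr (x * y) = 0) ∨ (tr y = 0 ∧ tr (x * y) = 0) := by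
  have h2 : (2 : F) = 0 := CharP.cast_eq_zero F 2
  have h4 : (4 : F) = 0 := by linear_combination 2 * h2
  obtain ⟨A, hAc, ⟨a, ha, ha1⟩, hcomm, hnorm⟩ := dichotomy (not_center_of_ne_one hx) hs
  have hxc : x ∈ closure ({x, y} : Set SL2) := Subgroup.subset_closure (by simp)
  have hyc : y ∈ closure ({x, y} : Set SL2) := Subgroup.subset_closure (by simp)
  have hac := not_center_of_ne_one ha1
  by_cases ht : tr a = 0
  · left
    obtain ⟨v, hv, h⟩ := common_eigen hac (by rw [ht, h2])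
    exact ⟨v, hv, h x (hcomm _ (hnorm x hxc a ha) a ha), h y (hcomm _ (hnorm y hyc a ha) a ha)⟩
  · right
    have h4' : tr a ^ 2 ≠ 4 := by rw [h4]; exact pow_ne_zero 2 ht
    have key : ∀ h ∈ closure ({x, y} : Set SL2), h * a * h⁻¹ = a ∨ h * a * h⁻¹ = a⁻¹ := by
      intro h hh
      apply eq_or_eq_inv_of_mem_centralizer h4'
      · rw [mem_centralizer_singleton_iff]; exact hcomm _ (hnorm h hh a ha) a ha
      · exact tr_conj _ _
    have kt : ∀ h : SL2, h * a * h⁻¹ = a⁻¹ → tr h = 0 := by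
      intro h hh
      have h5 := tr_of_inverts hh
      rw [h2, zero_mul] at h5
      exact (mul_eq_zero.mp h5.symm).resolve_left ht
    have hxy : ∀ (k l : SL2), (x * y) * a * (x * y)⁻¹ = x * (y * a * y⁻¹) * x⁻¹ := fun _ _ => by group
    have hinv : ∀ h : SL2, h * a⁻¹ * h⁻¹ = (h * a * h⁻¹)⁻¹ := fun h => by group
    rcases key x hxc with hx1 | hx1 <;> rcases key y hyc with hy1 | hy1
    · left
      refine centralizer_comm hac ?_ ?_ <;> rw [mem_centralizer_singleton_iff]
      · exact mul_inv_eq_iff_eq_mul.mp hx1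
      · exact mul_inv_eq_iff_eq_mul.mp hy1
    · right; right; right
      refine ⟨kt y hy1, kt _ ?_⟩
      rw [hxy 1 1, hy1, hinv, hx1]
    · right; right; left
      refine ⟨kt x hx1, kt _ ?_⟩
      rw [hxy 1 1, hy1, hx1]
    · right; left
      exact ⟨kt x hx1, kt y hy1⟩

/-- sufficient condition -/
theorem suff {x y : SL2} (h : (tr x = 0 ∧ tr y = 0) ∨ (tr x = 0 ∧ tr (x * y) = 0) ∨ (tr y = 0 ∧ tr (x * y) = 0)) :
    Group.IsSolvable (closure ({x, y} : Set SL2)) := by
  rcases h with ⟨h1, h2⟩ | ⟨h1, h2⟩ | ⟨h1, h2⟩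
  · exact solv_two (sq_one h1) (sq_one h2)
  · rw [← closure_mul_left]
    exact solv_two (sq_one h1) (sq_one h2)
  · rw [closure_swap, ← closure_mul_left]
    refine solv_two (sq_one h1) (sq_one ?_)
    rw [tr_mul_comm]; exact h2

end Char2

end Cfsg.Agent.Lib.Solubil
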