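import Mathlib
import Cfsg.Agent.Lib.Solubil

/-!
# Solubilizers in SL(2,q), q even: counting (helper51)
-/

set_option autoImplicit false

namespace Cfsg.Agent.Lib.Solubil

open Subgroup
open Matrix Cfsg.Agent.Lib.SL2Basic Cfsg.Agent.Lib.SL2Tori Cfsg.Agent.Lib.SL2Int

variable {F : Type*} [Field F]

local notation "SL2" => Matrix.SpecialLinearGroup (Fin 2) F
local notation "M2" => Matrix (Fin 2) (Fin 2) F

section Count
variable [Finite F]

theorem count_low : Set.ncard {y : SL2 | (y : M2) 1 0 = 0} = Nat.card F * (Nat.card F - 1) := by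
  have e : {y : SL2 | (y : M2) 1 0 = 0} ≃ F × Fˣ :=
    { toFun := fun g => (((g : SL2) : M2) 0 1,
        ⟨((g : SL2) : M2) 0 0, ((g : SL2) : M2) 1 1, by
          have := det2 (g : SL2)
          have h : ((g : SL2) : M2) 1 0 = 0 := g.2
          rw [h, mul_zero, sub_zero] at this
          exact this, by
          have := det2 (g : SL2)
          have h : ((g : SL2) : M2) 1 0 = 0 := g.2
          rw [h, mul_zero, sub_zero] at this
          rw [mul_comm]; exact this⟩)
      invFun := fun p => ⟨⟨!![(p.2 : F), p.1; 0, ((p.2⁻¹ : Fˣ) : F)], by simp [Matrix.det_fin_two]⟩, by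
        show (!![(p.2 : F), p.1; 0, ((p.2⁻¹ : Fˣ) : F)] : M2) 1 0 = 0
        simp⟩
      left_inv := by
        intro g
        apply Subtype.ext
        have h : ((g : SL2) : M2) 1 0 = 0 := g.2
        apply ext2 <;> simp [h]
      right_inv := by
        intro p
        apply Prod.ext
        · simp
        · apply Units.ext; simp }
  rw [← Nat.card_coe_set_eq, Nat.card_congr e, Nat.card_prod, Nat.card_units]

theorem count_phi (φ : F → F → F) :
    Set.ncard {y : SL2 | (y : M2) 1 0 ≠ 0 ∧ (y : M2) 1 1 = φ ((y : M2) 0 0) ((y : M2) 1 0)} =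
      Nat.card F * (Nat.card F - 1) := by
  have e : {y : SL2 | (y : M2) 1 0 ≠ 0 ∧ (y : M2) 1 1 = φ ((y : M2) 0 0) ((y : M2) 1 0)} ≃ F × Fˣ :=
    { toFun := fun g => (((g : SL2) : M2) 0 0, Units.mk0 (((g : SL2) : M2) 1 0) g.2.1)
      invFun := fun p => ⟨⟨!![p.1, (p.1 * φ p.1 p.2 - 1) * ((p.2⁻¹ : Fˣ) : F); (p.2 : F), φ p.1 p.2], by
        simp [Matrix.det_fin_two]⟩, by
        show (!![p.1, (p.1 * φ p.1 p.2 - 1) * ((p.2⁻¹ : Fˣ) : F); (p.2 : F), φ p.1 p.2] : M2) 1 0 ≠ 0 ∧
          (!![p.1, (p.1 * φ p.1 p.2 - 1) * ((p.2⁻¹ : Fˣ) : F); (p.2 : F), φ p.1 p.2] : M2) 1 1 =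
          φ ((!![p.1, (p.1 * φ p.1 p.2 - 1) * ((p.2⁻¹ : Fˣ) : F); (p.2 : F), φ p.1 p.2] : M2) 0 0)
          ((!![p.1, (p.1 * φ p.1 p.2 - 1) * ((p.2⁻¹ : Fˣ) : F); (p.2 : F), φ p.1 p.2] : M2) 1 0)
        simp⟩
      left_inv := by
        intro g
        apply Subtype.ext
        have h1 : ((g : SL2) : M2) 1 0 ≠ 0 := g.2.1
        have h2 : ((g : SL2) : M2) 1 1 = φ (((g : SL2) : M2) 0 0) (((g : SL2) : M2) 1 0) := g.2.2
        have h3 := det2 (g : SL2)
        rw [h2] at h3
        apply ext2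
        · simp
        · simp
          field_simp
          linear_combination h3
        · simp
        · simp [h2]
      right_inv := by
        intro p
        apply Prod.ext
        · simp
        · apply Units.ext; simp }
  rw [← Nat.card_coe_set_eq, Nat.card_congr e, Nat.card_prod, Nat.card_units]

theorem count_opp : Set.ncard {y : SL2 | (y : M2) 1 0 ≠ 0 ∧ (y : M2) 0 1 = 0} =
    (Nat.card F - 1) * (Nat.card F - 1) := by
  have e : {y : SL2 | (y : M2) 1 0 ≠ 0 ∧ (y : M2) 0 1 = 0} ≃ Fˣ × Fˣ :=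
    { toFun := fun g => (⟨((g : SL2) : M2) 0 0, ((g : SL2) : M2) 1 1, by
          have := det2 (g : SL2)
          have h : ((g : SL2) : M2) 0 1 = 0 := g.2.2
          rw [h, zero_mul, sub_zero] at this
          exact this, by
          have := det2 (g : SL2)
          have h : ((g : SL2) : M2) 0 1 = 0 := g.2.2
          rw [h, zero_mul, sub_zero] at this
          rw [mul_comm]; exact this⟩, Units.mk0 (((g : SL2) : M2) 1 0) g.2.1)
      invFun := fun p => ⟨⟨!![(p.1 : F), 0; (p.2 : F), ((p.1⁻¹ : Fˣ) : F)], by simp [Matrix.det_fin_two]⟩, by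
        show (!![(p.1 : F), 0; (p.2 : F), ((p.1⁻¹ : Fˣ) : F)] : M2) 1 0 ≠ 0 ∧
          (!![(p.1 : F), 0; (p.2 : F), ((p.1⁻¹ : Fˣ) : F)] : M2) 0 1 = 0
        simp⟩
      left_inv := by
        intro g
        apply Subtype.ext
        have h : ((g : SL2) : M2) 0 1 = 0 := g.2.2
        apply ext2 <;> simp [h]
      right_inv := by
        intro p
        apply Prod.ext
        · apply Units.ext; simp
        · apply Units.ext; simp }
  rw [← Nat.card_coe_set_eq, Nat.card_congr e, Nat.card_prod, Nat.card_units]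

theorem count_anti : Set.ncard {y : SL2 | (y : M2) 0 0 = 0 ∧ (y : M2) 1 1 = 0} = Nat.card F - 1 := by
  have e : {y : SL2 | (y : M2) 0 0 = 0 ∧ (y : M2) 1 1 = 0} ≃ Fˣ :=
    { toFun := fun g => Units.mk0 (((g : SL2) : M2) 1 0) (by
        intro h0
        have := det2 (g : SL2)
        have h : ((g : SL2) : M2) 0 0 = 0 := g.2.1
        rw [h, h0] at this
        simp at this)
      invFun := fun p => ⟨⟨!![0, -((p⁻¹ : Fˣ) : F); (p : F), 0], by simp [Matrix.det_fin_two]⟩, by
        show (!![0, -((p⁻¹ : Fˣ) : F); (p : F), 0] : M2) 0 0 = 0 ∧ (!![0, -((p⁻¹ : Fˣ) : F); (p : F), 0] : M2) 1 1 = 0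
        simp⟩
      left_inv := by
        intro g
        apply Subtype.ext
        have h : ((g : SL2) : M2) 0 0 = 0 := g.2.1
        have h' : ((g : SL2) : M2) 1 1 = 0 := g.2.2
        have h3 := det2 (g : SL2)
        rw [h] at h3
        have h4 : ((g : SL2) : M2) 1 0 ≠ 0 := by
          intro h0; rw [h0] at h3; simp at h3
        apply ext2
        · simp [h]
        · simp
          field_simp
          linear_combination h3
        · simp
        · simp [h']
      right_inv := by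
        intro p
        apply Units.ext; simp }
  rw [← Nat.card_coe_set_eq, Nat.card_congr e, Nat.card_units]

end Count

section Even
variable [CharP F 2]

theorem iff_uu (y : SL2) : Group.IsSolvable (closure ({uu 1, y} : Set SL2)) ↔
    (y : M2) 1 0 = 0 ∨ (y : M2) 0 0 + (y : M2) 1 1 = 0 ∨ (y : M2) 0 0 + (y : M2) 1 0 + (y : M2) 1 1 = 0 := by
  have h2 : (2 : F) = 0 := CharP.cast_eq_zero F 2
  have u00 : ((uu 1 : SL2) : M2) 0 0 = 1 := by simp [uu]
  have u01 : ((uu 1 : SL2) : M2) 0 1 = 1 := by simp [uu]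
  have u10 : ((uu 1 : SL2) : M2) 1 0 = 0 := by simp [uu]
  have u11 : ((uu 1 : SL2) : M2) 1 1 = 1 := by simp [uu]
  have ht : tr (uu 1 * y) = (y : M2) 0 0 + (y : M2) 1 0 + (y : M2) 1 1 := by
    rw [tr_def, mul00, mul11, u00, u01, u10, u11]; ring
  have htu : tr (uu 1 : SL2) = 0 := by rw [tr_def, u00, u11]; linear_combination h2
  have hu1 : (uu 1 : SL2) ≠ 1 := by
    intro h
    rw [h] at u01
    simp at u01
  constructor
  · intro h
    rcases nec hu1 h with ⟨v, hv, ⟨c, hc⟩, d, hd⟩ | h | ⟨_, h⟩ | ⟨_, h⟩ | ⟨h, _⟩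
    · left
      have e0 := congrFun hc 0
      have e1 := congrFun hc 1
      have f1 := congrFun hd 1
      simp [Matrix.mulVec, dotProduct, Fin.sum_univ_two, uu] at e0 e1 f1
      have hv1 : v 1 = 0 := by
        by_contra h1
        have hc1 : c = 1 := by
          have : (c - 1) * v 1 = 0 := by linear_combination -e1
          exact sub_eq_zero.mp ((mul_eq_zero.mp this).resolve_right h1)
        rw [hc1, one_mul] at e0
        apply h1
        linear_combination e0
      have hv0 : v 0 ≠ 0 := by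
        intro h0
        apply hv
        ext i
        fin_cases i
        · exact h0
        · exact hv1
      rw [hv1, mul_zero, mul_zero, add_zero] at f1
      exact (mul_eq_zero.mp f1).resolve_right hv0
    · left
      have h3 := congrArg (fun A : SL2 => (A : M2) 0 0) h
      rw [mul00, mul00, u00, u01, u10] at h3
      linear_combination h3
    · right; left; exact h
    · right; right; rw [← ht]; exact h
    · right; left; exact h
  · rintro (h | h | h)
    · exact solv_bor u10 h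
    · exact suff (Or.inl ⟨htu, h⟩)
    · exact suff (Or.inr (Or.inl ⟨htu, by rw [ht]; exact h⟩))

theorem count_a [Finite F] {x : SL2} (hx : x ≠ 1) (ht : tr x = 0) :
    Nat.card {y : SL2 // Group.IsSolvable (closure ({x, y} : Set SL2))} = 3 * (Nat.card F * (Nat.card F - 1)) := by
  have h2 : (2 : F) = 0 := CharP.cast_eq_zero F 2
  have hu1 : (uu 1 : SL2) ≠ 1 := by
    intro h
    have u01 : ((uu 1 : SL2) : M2) 0 1 = 1 := by simp [uu]
    rw [h] at u01
    simp at u01
  obtain ⟨g, hg⟩ := exists_glConj (A := x) (B := uu 1) (not_center_of_ne_one hx) (not_center_of_ne_one hu1) (by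
    rw [ht, tr_def]; simp [uu]; linear_combination -h2)
  rw [← card_map (glEquiv g) x, glEquiv_apply, hg]
  simp only [iff_uu]
  have e1 : {y : SL2 | (y : M2) 1 0 = 0 ∨ (y : M2) 0 0 + (y : M2) 1 1 = 0 ∨
      (y : M2) 0 0 + (y : M2) 1 0 + (y : M2) 1 1 = 0} =
      {y : SL2 | (y : M2) 1 0 = 0} ∪
      ({y : SL2 | (y : M2) 1 0 ≠ 0 ∧ (y : M2) 1 1 = (fun a _ => -a) ((y : M2) 0 0) ((y : M2) 1 0)} ∪
       {y : SL2 | (y : M2) 1 0 ≠ 0 ∧ (y : M2) 1 1 = (fun a c => -(a + c)) ((y : M2) 0 0) ((y : M2) 1 0)}) := by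
    ext y
    simp only [Set.mem_setOf_eq, Set.mem_union]
    constructor
    · rintro (h | h | h)
      · left; exact h
      · by_cases h0 : (y : M2) 1 0 = 0
        · left; exact h0
        · right; left; exact ⟨h0, by linear_combination h⟩
      · by_cases h0 : (y : M2) 1 0 = 0
        · left; exact h0
        · right; right; exact ⟨h0, by linear_combination h⟩
    · rintro (h | ⟨_, h⟩ | ⟨_, h⟩)
      · left; exact h
      · right; left; linear_combination h
      · right; right; linear_combination h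
  have e2 : Nat.card {y : SL2 // (y : M2) 1 0 = 0 ∨ (y : M2) 0 0 + (y : M2) 1 1 = 0 ∨
      (y : M2) 0 0 + (y : M2) 1 0 + (y : M2) 1 1 = 0} = Set.ncard {y : SL2 | (y : M2) 1 0 = 0 ∨ (y : M2) 0 0 + (y : M2) 1 1 = 0 ∨
      (y : M2) 0 0 + (y : M2) 1 0 + (y : M2) 1 1 = 0} := rfl
  rw [e2, e1, Set.ncard_union_eq, Set.ncard_union_eq, count_low, count_phi (fun a _ => -a), count_phi (fun a c => -(a + c))]
  · ring
  · rw [Set.disjoint_left]
    rintro y ⟨h1, h3⟩ ⟨_, h4⟩
    apply h1
    rw [h3] at h4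
    linear_combination h4
  · rw [Set.disjoint_left]
    rintro y h1 (⟨h3, _⟩ | ⟨h3, _⟩) <;> exact h3 h1

theorem iff_dg {u : Fˣ} (hu : (u : F) ≠ ((u⁻¹ : Fˣ) : F)) (y : SL2) :
    Group.IsSolvable (closure ({dg u, y} : Set SL2)) ↔
    (y : M2) 1 0 = 0 ∨ (y : M2) 0 1 = 0 ∨ ((y : M2) 0 0 = 0 ∧ (y : M2) 1 1 = 0) := by
  have h2 : (2 : F) = 0 := CharP.cast_eq_zero F 2
  have u00 : ((dg u : SL2) : M2) 0 0 = u := by simp [dg]
  have u01 : ((dg u : SL2) : M2) 0 1 = 0 := by simp [dg]
  have u10 : ((dg u : SL2) : M2) 1 0 = 0 := by simp [dg]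
  have u11 : ((dg u : SL2) : M2) 1 1 = ((u⁻¹ : Fˣ) : F) := by simp [dg]
  obtain ⟨k, hk⟩ : ∃ k : F, k = ((u⁻¹ : Fˣ) : F) := ⟨_, rfl⟩
  rw [← hk] at hu u11
  have ht : tr (dg u * y) = u * (y : M2) 0 0 + k * (y : M2) 1 1 := by
    rw [tr_def, mul00, mul11, u00, u01, u10, u11]; ring
  have htu : tr (dg u : SL2) ≠ 0 := by
    rw [tr_def, u00, u11]
    intro h; apply hu
    linear_combination h - k * h2
  have hu1 : (dg u : SL2) ≠ 1 := by
    intro h
    apply htu
    rw [h, tr_one, h2]
  constructor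
  · intro h
    rcases nec hu1 h with ⟨v, hv, ⟨c, hc⟩, d, hd⟩ | h | ⟨h, _⟩ | ⟨h, _⟩ | ⟨h, h'⟩
    · have e0 := congrFun hc 0
      have e1 := congrFun hc 1
      have f0 := congrFun hd 0
      have f1 := congrFun hd 1
      simp only [Matrix.mulVec, dotProduct, Fin.sum_univ_two, u00, u01, u10, u11, Pi.smul_apply, smul_eq_mul] at e0 e1 f0 f1
      by_cases h0 : v 0 = 0
      · right; left
        have hv1 : v 1 ≠ 0 := by
          intro h1; apply hv
          ext i; fin_cases i
          · exact h0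
          · exact h1
        rw [h0, mul_zero, mul_zero, zero_add] at f0
        exact (mul_eq_zero.mp f0).resolve_right hv1
      · left
        have hc1 : c = u := by
          have : (c - u) * v 0 = 0 := by linear_combination -e0
          exact sub_eq_zero.mp ((mul_eq_zero.mp this).resolve_right h0)
        have hv1 : v 1 = 0 := by
          rw [hc1] at e1
          have : ((u : F) - k) * v 1 = 0 := by linear_combination -e1
          exact (mul_eq_zero.mp this).resolve_left (sub_ne_zero.mpr hu)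
        rw [hv1, mul_zero, mul_zero, add_zero] at f1
        exact (mul_eq_zero.mp f1).resolve_right h0
    · right; left
      have h3 := congrArg (fun A : SL2 => (A : M2) 0 1) h
      rw [mul01, mul01, u00, u01, u11] at h3
      have : ((u : F) - k) * (y : M2) 0 1 = 0 := by linear_combination h3
      exact (mul_eq_zero.mp this).resolve_left (sub_ne_zero.mpr hu)
    · exact absurd h htu
    · exact absurd h htu
    · right; right
      rw [ht] at h'
      rw [tr_def] at h
      have h5 : ((u : F) - k) * (y : M2) 0 0 = 0 := by linear_combination h' - k * h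
      have h6 := (mul_eq_zero.mp h5).resolve_left (sub_ne_zero.mpr hu)
      exact ⟨h6, by linear_combination h - h6⟩
  · rintro (h | h | ⟨h, h'⟩)
    · exact solv_bor u10 h
    · let w : SL2 := ⟨!![0, 1; -1, 0], by simp [Matrix.det_fin_two]⟩
      rw [← solv_map (MulAut.conj w).toMonoidHom (MulAut.conj w).injective]
      apply solv_bor
      · show ((w * dg u * w⁻¹ : SL2) : M2) 1 0 = 0
        rw [mul10, mul10, mul11, inv_coe, u00, u01, u10, u11]
        simp [w]
      · show ((w * y * w⁻¹ : SL2) : M2) 1 0 = 0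
        rw [mul10, mul10, mul11, inv_coe, h]
        simp [w]
    · refine suff (Or.inr (Or.inr ⟨?_, ?_⟩))
      · rw [tr_def, h, h', add_zero]
      · rw [ht, h, h']; ring

theorem count_b [Finite F] {x : SL2} (ht : tr x ≠ 0) {c : F} (hc : c ^ 2 - tr x * c + 1 = 0) :
    Nat.card {y : SL2 // Group.IsSolvable (closure ({x, y} : Set SL2))} = 2 * (Nat.card F * (Nat.card F - 1)) := by
  have h2 : (2 : F) = 0 := CharP.cast_eq_zero F 2
  have h4 : (4 : F) = 0 := by linear_combination 2 * h2
  obtain ⟨u, g, hu, hg⟩ := exists_conj_dg (A := x) (by rw [h4]; exact pow_ne_zero 2 ht) hc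
  have hg' : (MulAut.conj g) x = dg u := hg
  rw [← card_map (MulAut.conj g) x, hg']
  have hne : (u : F) ≠ ((u⁻¹ : Fˣ) : F) := by
    intro h
    have h5 : tr x = tr (dg u) := by rw [← hg, tr_conj]
    apply ht
    rw [h5, tr_dg, ← h]
    linear_combination (u : F) * h2
  simp only [iff_dg hne]
  have e1 : {y : SL2 | (y : M2) 1 0 = 0 ∨ (y : M2) 0 1 = 0 ∨ ((y : M2) 0 0 = 0 ∧ (y : M2) 1 1 = 0)} =
      {y : SL2 | (y : M2) 1 0 = 0} ∪
      ({y : SL2 | (y : M2) 1 0 ≠ 0 ∧ (y : M2) 0 1 = 0} ∪ {y : SL2 | (y : M2) 0 0 = 0 ∧ (y : M2) 1 1 = 0}) := by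
    ext y
    simp only [Set.mem_setOf_eq, Set.mem_union]
    by_cases h0 : (y : M2) 1 0 = 0
    · simp [h0]
    · simp [h0]
  have e2 : Nat.card {y : SL2 // (y : M2) 1 0 = 0 ∨ (y : M2) 0 1 = 0 ∨ ((y : M2) 0 0 = 0 ∧ (y : M2) 1 1 = 0)} =
    Set.ncard {y : SL2 | (y : M2) 1 0 = 0 ∨ (y : M2) 0 1 = 0 ∨ ((y : M2) 0 0 = 0 ∧ (y : M2) 1 1 = 0)} := rfl
  rw [e2, e1, Set.ncard_union_eq, Set.ncard_union_eq, count_low, count_opp, count_anti]
  · have h5 : 1 ≤ Nat.card F := Finite.card_pos
    obtain ⟨k, hk⟩ := Nat.exists_eq_add_of_le h5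
    rw [hk]
    simp
    ring
  · rw [Set.disjoint_left]
    rintro y ⟨h1, h3⟩ ⟨h4, h5⟩
    have := det2 y
    rw [h3, h4] at this
    simp at this
  · rw [Set.disjoint_left]
    rintro y h1 (⟨h3, _⟩ | ⟨h3, _⟩)
    · exact h3 h1
    · have := det2 y
      have h1' : (y : M2) 1 0 = 0 := h1
      rw [h3, h1'] at this
      simp at this

theorem count_c [Finite F] {x : SL2} (hr : ∀ c : F, c ^ 2 - tr x * c + 1 ≠ 0) :
    Nat.card {y : SL2 // Group.IsSolvable (closure ({x, y} : Set SL2))} = 2 * (Nat.card F + 1) := by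
  have h2 : (2 : F) = 0 := CharP.cast_eq_zero F 2
  have h4 := sq_ne_four_of_no_root hr
  have hx : x ≠ 1 := by
    rintro rfl
    apply h4
    rw [tr_one]; ring
  have ht : tr x ≠ 0 := by
    intro h
    apply hr 1
    rw [h]; linear_combination h2
  rw [← (centralizer_of_no_root hr).2, ← card_normalizer' h4]
  apply Nat.card_congr
  refine Equiv.subtypeEquivRight (fun y => ?_)
  rw [mem_normalizer_centralizer_iff h4]
  constructor
  · intro h
    rcases nec hx h with ⟨v, hv, ⟨c, hc⟩, _⟩ | h | ⟨h, _⟩ | ⟨h, _⟩ | ⟨h, h'⟩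
    · exact absurd (root_of_eigenvector hv hc) (hr c)
    · left; rw [← h]; group
    · exact absurd h ht
    · exact absurd h ht
    · right
      have h5 := sq_one h
      have h6 := sq_one h'
      rw [inv_eq_of_mul_eq_one_left h5]
      symm
      apply inv_eq_of_mul_eq_one_left
      rw [← h6]
      have : y * x * y * x = y * (x * y * (x * y)) * y⁻¹ := by group
      rw [this, h6, mul_one, mul_inv_cancel]
  · rintro (h | h)
    · exact solv_comm (mul_inv_eq_iff_eq_mul.mp h).symm
    · exact solv_inv h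

end Even

end Cfsg.Agent.Lib.Solubil
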