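import Mathlib
import Cfsg.Agent.Lib.SolubB

/-!
# Solubilizers in PSL(2,q), q a power of three (helper51)
-/

set_option autoImplicit false

namespace Cfsg.Agent.Lib.Solubil

open Subgroup
open Matrix Cfsg.Agent.Lib.SL2Basic Cfsg.Agent.Lib.SL2Tori Cfsg.Agent.Lib.SL2Int

/-- nontrivial abelian normal subgroups of solvable two-generator groups -/
theorem dichG {G : Type*} [Group G] {x y : G} (hx : x ≠ 1) (hs : Group.IsSolvable (closure ({x, y} : Set G))) :
    ∃ A : Subgroup G, A ≤ closure ({x, y} : Set G) ∧ (∃ a ∈ A, a ≠ 1) ∧ (∀ a ∈ A, ∀ b ∈ A, a * b = b * a) ∧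
      ∀ h ∈ closure ({x, y} : Set G), ∀ a ∈ A, h * a * h⁻¹ ∈ A := by
  haveI : Nontrivial (closure ({x, y} : Set G)) := by
    refine ⟨⟨⟨x, Subgroup.subset_closure (by simp)⟩, 1, ?_⟩⟩
    intro h
    exact hx (congrArg Subtype.val h)
  obtain ⟨A, hA, hAc, hAb⟩ := H67Basic.exists_normal_abelian (G := closure ({x, y} : Set G))
  refine ⟨A.map (closure ({x, y} : Set G)).subtype, map_subtype_le _, ?_, ?_, ?_⟩
  · obtain ⟨⟨a, ha⟩, ha1⟩ := Subgroup.ne_bot_iff_exists_ne_one.mp hA
    exact ⟨a, ⟨a, ha, rfl⟩, fun h => ha1 (Subtype.ext (Subtype.ext h))⟩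
  · rintro _ ⟨a, ha, rfl⟩ _ ⟨b, hb, rfl⟩
    exact congrArg Subtype.val (hAb a ha b hb)
  · rintro h hh _ ⟨a, ha, rfl⟩
    have : A.Normal := inferInstance
    exact ⟨_, this.conj_mem a ha ⟨h, hh⟩, rfl⟩

theorem cyc1 {G : Type*} [Group G] {α β η : G} (hβ : β * β = 1) (hc : α * β = β * α)
    (h1 : η * α * η⁻¹ = β) (h2 : η * β * η⁻¹ = α * β) :
    η ^ 3 * α = α * η ^ 3 ∧ η ^ 3 * β = β * η ^ 3 := by
  have e1 : β * (α * β) = α := by rw [hc, ← mul_assoc, hβ, one_mul]
  have h3 : η * (α * β) * η⁻¹ = α := by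
    calc η * (α * β) * η⁻¹ = (η * α * η⁻¹) * (η * β * η⁻¹) := by group
      _ = α := by rw [h1, h2, e1]
  constructor
  · apply mul_inv_eq_iff_eq_mul.mp
    calc η ^ 3 * α * (η ^ 3)⁻¹ = η * (η * (η * α * η⁻¹) * η⁻¹) * η⁻¹ := by
          simp only [pow_succ, pow_zero, one_mul, _root_.mul_inv_rev, mul_assoc]
      _ = α := by rw [h1, h2, h3]
  · apply mul_inv_eq_iff_eq_mul.mp
    calc η ^ 3 * β * (η ^ 3)⁻¹ = η * (η * (η * β * η⁻¹) * η⁻¹) * η⁻¹ := by
          simp only [pow_succ, pow_zero, one_mul, _root_.mul_inv_rev, mul_assoc]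
      _ = β := by rw [h2, h3, h1]

theorem cyc2 {G : Type*} [Group G] {α β η : G} (hα : α * α = 1) (hc : α * β = β * α)
    (h1 : η * α * η⁻¹ = α * β) (h2 : η * β * η⁻¹ = α) :
    η ^ 3 * α = α * η ^ 3 ∧ η ^ 3 * β = β * η ^ 3 := by
  have e1 : α * β * α = β := by rw [hc, mul_assoc, hα, mul_one]
  have h3 : η * (α * β) * η⁻¹ = β := by
    calc η * (α * β) * η⁻¹ = (η * α * η⁻¹) * (η * β * η⁻¹) := by group
      _ = β := by rw [h1, h2, e1]
  constructor
  · apply mul_inv_eq_iff_eq_mul.mp
    calc η ^ 3 * α * (η ^ 3)⁻¹ = η * (η * (η * α * η⁻¹) * η⁻¹) * η⁻¹ := by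
          simp only [pow_succ, pow_zero, one_mul, _root_.mul_inv_rev, mul_assoc]
      _ = α := by rw [h1, h3, h2]
  · apply mul_inv_eq_iff_eq_mul.mp
    calc η ^ 3 * β * (η ^ 3)⁻¹ = η * (η * (η * β * η⁻¹) * η⁻¹) * η⁻¹ := by
          simp only [pow_succ, pow_zero, one_mul, _root_.mul_inv_rev, mul_assoc]
      _ = β := by rw [h2, h1, h3]

variable {F : Type*} [Field F]

local notation "SL2" => Matrix.SpecialLinearGroup (Fin 2) F
local notation "M2" => Matrix (Fin 2) (Fin 2) F

/-- the projection -/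
def PP (F : Type*) [Field F] : Matrix.SpecialLinearGroup (Fin 2) F →* Matrix.ProjectiveSpecialLinearGroup (Fin 2) F :=
  QuotientGroup.mk' _

theorem PP_eq (a b : SL2) : PP F a = PP F b ↔ a = b ∨ a = -b := mk_eq_mk_iff a b

theorem PP_one (a : SL2) : PP F a = 1 ↔ a ∈ center SL2 := QuotientGroup.eq_one_iff a

theorem PP_neg (a : SL2) : PP F (-a) = PP F a := (PP_eq _ _).mpr (Or.inr rfl)

theorem PP_surj : Function.Surjective (PP F) := QuotientGroup.mk'_surjective _

/-- commuting with an anticommuting pair -/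
theorem central_of (h2 : (2 : F) ≠ 0) {a b d : SL2} (ha : a ∉ center SL2) (hab : a * b = -(b * a))
    (hda : d * a = a * d) (hdb : d * b = b * d) : d ∈ center SL2 := by
  have h1 : d ∈ centralizer ({a} : Set SL2) := mem_centralizer_singleton_iff.mpr hda
  rw [mem_centralizer_iff' ha] at h1
  obtain ⟨x, y, hd⟩ := h1
  have e1 : (a : M2) * b = -((b : M2) * a) := by
    have := congrArg (fun A : SL2 => (A : M2)) hab
    simpa using this
  have e2 : (d : M2) * b = b * d := by
    have := congrArg (fun A : SL2 => (A : M2)) hdb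
    simpa using this
  rw [hd, add_mul, mul_add, smul_mul_assoc, smul_mul_assoc, mul_smul_comm, mul_smul_comm, one_mul, mul_one, e1] at e2
  have e3 : (2 * y) • ((b : M2) * a) = 0 := by
    have e4 := add_left_cancel e2
    rw [smul_neg] at e4
    rw [two_mul, add_smul]
    nth_rewrite 1 [← e4]
    abel
  have hy : y = 0 := by
    rcases smul_eq_zero.mp e3 with h | h
    · exact (mul_eq_zero.mp h).resolve_left h2
    · exfalso
      have h5 := congrArg Matrix.det h
      rw [det_mul, b.det_coe, a.det_coe] at h5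
      simp at h5
  rw [hy, zero_smul, add_zero] at hd
  rw [mem_center_iff_entries, hd]
  simp

theorem sq_neg_one {a : SL2} (h : tr a = 0) : a * a = -1 := by
  apply Subtype.ext
  rw [Matrix.SpecialLinearGroup.coe_mul, sq_eq, h, zero_smul, zero_sub, Matrix.SpecialLinearGroup.coe_neg,
    Matrix.SpecialLinearGroup.coe_one]

theorem inv_of_tr_zero {a : SL2} (h : tr a = 0) : a⁻¹ = -a := by
  apply inv_eq_of_mul_eq_one_left
  rw [neg_mul, sq_neg_one h, neg_neg]

theorem not_center_of_tr_zero (h2 : (2 : F) ≠ 0) {a : SL2} (h : tr a = 0) : a ∉ center SL2 := by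
  apply not_mem_center_of_tr
  rw [h]
  intro h4
  have : (2 : F) * 2 = 0 := by linear_combination -h4
  exact h2 (mul_self_eq_zero.mp this)

/-- the four group is self-centralizing -/
theorem four_cases (h2 : (2 : F) ≠ 0) {a b c : SL2} (ha : tr a = 0) (hb : tr b = 0) (hab : a * b = -(b * a))
    (hca : PP F c * PP F a = PP F a * PP F c) (hcb : PP F c * PP F b = PP F b * PP F c) :
    PP F c = 1 ∨ PP F c = PP F a ∨ PP F c = PP F b ∨ PP F c = PP F (a * b) := by
  have hac := not_center_of_tr_zero h2 ha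
  have ha2 := sq_neg_one ha
  have hb2 := sq_neg_one hb
  rw [← map_mul, ← map_mul, PP_eq] at hca hcb
  have hba : b * a = -(a * b) := by rw [hab, neg_neg]
  have key : ∀ d e : SL2, e * e = -1 → d = e * c → d * a = a * d → d * b = b * d → PP F c = PP F e := by
    intro d e he hd h3 h4
    have h5 := central_of h2 hac hab h3 h4
    rw [← PP_one, hd, map_mul] at h5
    have h6 : PP F e * PP F e = 1 := by
      rw [← map_mul, he, PP_neg, map_one]
    calc PP F c = (PP F e * PP F e) * PP F c := by rw [h6, one_mul]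
      _ = PP F e * (PP F e * PP F c) := by group
      _ = PP F e := by rw [h5, mul_one]
  rcases hca with hca | hca <;> rcases hcb with hcb | hcb
  · left
    rw [PP_one]
    exact central_of h2 hac hab hca hcb
  · right; left
    refine key (a * c) a ha2 rfl ?_ ?_
    · rw [mul_assoc, hca]
    · rw [mul_assoc, hcb, mul_neg, ← mul_assoc, hab, neg_mul, neg_neg, mul_assoc]
  · right; right; left
    refine key (b * c) b hb2 rfl ?_ ?_
    · rw [mul_assoc, hca, mul_neg, ← mul_assoc, hba, neg_mul, neg_neg, mul_assoc]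
    · rw [mul_assoc, hcb]
  · right; right; right
    refine key (a * b * c) (a * b) ?_ rfl ?_ ?_
    · calc a * b * (a * b) = a * (b * a) * b := by group
        _ = -(a * a * (b * b)) := by rw [hba, mul_neg, neg_mul]; congr 1; group
        _ = -1 := by rw [ha2, hb2]; simp
    · calc a * b * c * a = a * b * (c * a) := by group
        _ = -(a * (b * a) * c) := by rw [hca, mul_neg]; congr 1; group
        _ = a * (a * b * c) := by rw [hba, mul_neg, neg_mul, neg_neg]; group
    · calc a * b * c * b = a * b * (c * b) := by group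
        _ = -(a * b * b * c) := by rw [hcb, mul_neg]; congr 1; group
        _ = b * a * b * c := by rw [hba]; simp
        _ = b * (a * b * c) := by group

section Three
variable [CharP F 3]

theorem two_ne : (2 : F) ≠ 0 := by
  have h3 : (3 : F) = 0 := CharP.cast_eq_zero F 3
  intro h
  have : (1 : F) = 0 := by linear_combination h3 - h
  exact one_ne_zero this

theorem no_swap_aux (hns : ∀ r : F, r ^ 2 ≠ -1) {a b h : SL2} (ha : tr a = 0) (hb : tr b = 0) (hab : a * b = -(b * a))
    (h1 : h * a = a * h) (h2 : h * b = a * b * h ∨ h * b = -(a * b * h)) : False := by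
  have h3 : (3 : F) = 0 := CharP.cast_eq_zero F 3
  have hac := not_center_of_tr_zero two_ne ha
  have hc : h ∈ centralizer ({a} : Set SL2) := mem_centralizer_singleton_iff.mpr h1
  rw [mem_centralizer_iff' hac] at hc
  obtain ⟨x, y, hh⟩ := hc
  obtain ⟨-, hn⟩ := tr_of_eq hh
  rw [ha] at hn
  have hA2 : (a : M2) * a = -1 := by rw [sq_eq, ha, zero_smul, zero_sub]
  have hB2 : (b : M2) * b = -1 := by rw [sq_eq, hb, zero_smul, zero_sub]
  have hBA : (a : M2) * b = -((b : M2) * a) := by
    have := congrArg (fun A : SL2 => (A : M2)) hab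
    simpa using this
  have hABAB : (a : M2) * b * a * b = -1 := by
    calc (a : M2) * b * a * b = (a : M2) * b * (a * b) := by rw [mul_assoc]
      _ = -((a : M2) * (b * b) * a) := by rw [hBA]; nth_rewrite 1 [← hBA]; simp only [mul_neg, neg_mul, mul_assoc]
      _ = -1 := by rw [hB2, mul_neg, mul_one, neg_mul, hA2]; simp
  have indep : ∀ p r : F, p • (1 : M2) = r • (a : M2) → p = 0 := by
    intro p r hpr
    have h4 : (p ^ 2) • (1 : M2) = (-(r ^ 2)) • (1 : M2) := by
      calc (p ^ 2) • (1 : M2) = (p • (1 : M2)) * (p • (1 : M2)) := by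
            rw [smul_mul_smul_comm, one_mul, pow_two]
        _ = (r • (a : M2)) * (r • (a : M2)) := by rw [hpr]
        _ = (-(r ^ 2)) • (1 : M2) := by
            rw [smul_mul_smul_comm, hA2, ← pow_two, smul_neg, neg_smul]
    have h5 : p ^ 2 = -(r ^ 2) := by
      have := congrFun (congrFun h4 0) 0
      simpa using this
    by_cases hr : r = 0
    · rw [hr] at h5
      have : p ^ 2 = 0 := by rw [h5]; ring
      exact pow_eq_zero_iff two_ne_zero |>.mp this
    · exfalso
      apply hns (p / r)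
      rw [div_pow, h5]
      field_simp
  have key : ∀ ε : F, ε ^ 2 = 1 → (h : M2) * b = ε • ((a : M2) * b * h) → False := by
    intro ε hε hE
    have h5 : (h : M2) * b * b = ε • ((a : M2) * b * h) * b := by rw [hE]
    rw [mul_assoc, hB2, mul_neg, mul_one, hh] at h5
    have h6 : (ε • ((a : M2) * b * (x • (1 : M2) + y • (a : M2)))) * b = -(ε • (x • (a : M2) + y • (1 : M2))) := by
      rw [mul_add, mul_smul_comm, mul_smul_comm, mul_one, smul_mul_assoc, add_mul, smul_mul_assoc, smul_mul_assoc,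
        mul_assoc (a : M2), hB2, hABAB]
      simp only [mul_neg, mul_one, smul_neg, smul_add, neg_add_rev]
      abel
    rw [h6] at h5
    have h7 := neg_injective h5
    have h8 : (x - ε * y) • (1 : M2) = (ε * x - y) • (a : M2) := by
      rw [sub_smul, sub_smul, mul_smul, mul_smul]
      rw [smul_add] at h7
      have : x • (1 : M2) + y • (a : M2) - y • (a : M2) - ε • y • (1 : M2) =
          ε • x • (a : M2) + ε • y • (1 : M2) - y • (a : M2) - ε • y • (1 : M2) := by rw [h7]
      calc x • (1 : M2) - ε • y • (1 : M2) = x • (1 : M2) + y • (a : M2) - y • (a : M2) - ε • y • (1 : M2) := by abel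
        _ = _ := by rw [this]; abel
    have h9 := indep _ _ h8
    have h10 : x = ε * y := by linear_combination h9
    apply hns y
    have h11 : ε ^ 2 * y ^ 2 + y ^ 2 = 1 := by rw [h10] at hn; linear_combination hn
    rw [hε] at h11
    linear_combination (-1 : F) * h11 + y ^ 2 * h3
  rcases h2 with h2 | h2
  · apply key 1 (by ring)
    have := congrArg (fun A : SL2 => (A : M2)) h2
    rw [one_smul]
    simpa using this
  · apply key (-1) (by ring)
    have := congrArg (fun A : SL2 => (A : M2)) h2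
    rw [neg_smul, one_smul]
    simpa using this

theorem no_swap (hns : ∀ r : F, r ^ 2 ≠ -1) {a b h : SL2} (ha : tr a = 0) (hb : tr b = 0) (hab : a * b = -(b * a))
    (h1 : PP F (h * a * h⁻¹) = PP F a) (h2 : PP F (h * b * h⁻¹) = PP F (a * b)) : False := by
  have h2' : h * b = a * b * h ∨ h * b = -(a * b * h) := by
    rw [PP_eq] at h2
    rcases h2 with h2 | h2
    · left; exact mul_inv_eq_iff_eq_mul.mp h2
    · right
      have := mul_inv_eq_iff_eq_mul.mp h2
      rw [this, neg_mul]
  rw [PP_eq] at h1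
  rcases h1 with h1 | h1
  · exact no_swap_aux hns ha hb hab (mul_inv_eq_iff_eq_mul.mp h1) h2'
  · have h3 := mul_inv_eq_iff_eq_mul.mp h1
    apply no_swap_aux (h := h * b) hns ha hb hab
    · have hba : b * a = -(a * b) := by rw [hab, neg_neg]
      rw [mul_assoc, hba, mul_neg, ← mul_assoc, h3, neg_mul, neg_mul, neg_neg, mul_assoc]
    · rcases h2' with h2' | h2'
      · left; nth_rewrite 1 [h2']; group
      · right; nth_rewrite 1 [h2']; rw [neg_mul]; congr 1; group

/-- traces in the prime field -/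
def TT (h : SL2) : Prop := tr h = 0 ∨ tr h = 1 ∨ tr h = -1

theorem TT_of_center {h : SL2} (hh : h ∈ center SL2) : TT h := by
  have h3 : (3 : F) = 0 := CharP.cast_eq_zero F 3
  rw [mem_center_iff'] at hh
  rcases hh with rfl | rfl
  · right; right
    rw [tr_one]; linear_combination h3
  · right; left
    rw [tr_neg, tr_one]; linear_combination -h3

theorem TT_of_cube {h : SL2} (hh : PP F h ^ 3 = 1) : TT h := by
  by_cases hc : h ∈ center SL2
  · exact TT_of_center hc
  rw [← map_pow, PP_one, mem_center_iff'] at hh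
  have h1 := sq_eq h
  have h2 : ((h ^ 3 : SL2) : M2) = (tr h ^ 2 - 1) • (h : M2) - tr h • (1 : M2) := by
    rw [pow_succ, pow_two, Matrix.SpecialLinearGroup.coe_mul, Matrix.SpecialLinearGroup.coe_mul, h1, sub_mul, smul_mul_assoc,
      h1, one_mul, smul_sub, smul_smul, sub_smul, one_smul, pow_two]
    abel
  have h3 : ∃ c : F, ((h ^ 3 : SL2) : M2) = c • (1 : M2) := by
    rcases hh with hh | hh
    · exact ⟨1, by rw [hh]; simp⟩
    · exact ⟨-1, by rw [hh]; simp⟩
  obtain ⟨c, hc'⟩ := h3
  rw [h2] at hc'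
  have h4 : tr h ^ 2 - 1 = 0 := by
    by_contra hne
    apply hc
    have e01 := congrFun (congrFun hc' 0) 1
    have e10 := congrFun (congrFun hc' 1) 0
    have e00 := congrFun (congrFun hc' 0) 0
    have e11 := congrFun (congrFun hc' 1) 1
    simp at e01 e10 e00 e11
    rw [mem_center_iff_entries]
    refine ⟨e01.resolve_left hne, e10.resolve_left hne, ?_⟩
    have : (tr h ^ 2 - 1) * ((h : M2) 0 0 - (h : M2) 1 1) = 0 := by linear_combination e00 - e11
    exact sub_eq_zero.mp ((mul_eq_zero.mp this).resolve_left hne)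
  have h5 : (tr h - 1) * (tr h + 1) = 0 := by linear_combination h4
  rcases mul_eq_zero.mp h5 with h6 | h6
  · right; left; linear_combination h6
  · right; right; linear_combination h6

/-- elements normalizing the four group -/
theorem TT_of_norm (hns : ∀ r : F, r ^ 2 ≠ -1) {a b h : SL2} (ha : tr a = 0) (hb : tr b = 0) (hab : a * b = -(b * a))
    (h1 : PP F (h * a * h⁻¹) = PP F a ∨ PP F (h * a * h⁻¹) = PP F b ∨ PP F (h * a * h⁻¹) = PP F (a * b))
    (h2 : PP F (h * b * h⁻¹) = PP F a ∨ PP F (h * b * h⁻¹) = PP F b ∨ PP F (h * b * h⁻¹) = PP F (a * b)) : TT h := by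
  have hba : b * a = -(a * b) := by rw [hab, neg_neg]
  have ha2 := sq_neg_one ha
  have hb2 := sq_neg_one hb
  have hα2 : PP F a * PP F a = 1 := by rw [← map_mul, ha2, PP_neg, map_one]
  have hβ2 : PP F b * PP F b = 1 := by rw [← map_mul, hb2, PP_neg, map_one]
  have hcom : PP F a * PP F b = PP F b * PP F a := by rw [← map_mul, hab, PP_neg, map_mul]
  have hac := not_center_of_tr_zero two_ne ha
  have hbc := not_center_of_tr_zero two_ne hb
  have hα1 : PP F a ≠ 1 := by rw [Ne, PP_one]; exact hac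
  have hβ1 : PP F b ≠ 1 := by rw [Ne, PP_one]; exact hbc
  have hne : PP F a ≠ PP F b := by
    rw [Ne, PP_eq]
    have h0 : ∀ c : SL2, c = -c → False := by
      intro c hc
      have h6 := congrArg (fun A : SL2 => (A : M2)) hc
      have h7 : (c : M2) = -(c : M2) := by simpa using h6
      have h8 : (2 : F) • (c : M2) = 0 := by rw [two_smul]; nth_rewrite 2 [h7]; abel
      rcases smul_eq_zero.mp h8 with h9 | h9
      · exact two_ne h9
      · have := congrArg Matrix.det h9
        rw [c.det_coe] at this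
        simp at this
    rintro (h | h)
    · rw [h] at hab; exact h0 _ hab
    · rw [h] at hab
      apply h0 (b * b)
      have hab' : -(b * b) = b * b := by simpa using hab
      exact hab'.symm
  have htab : tr (a * b) = 0 := by
    have h4 := congrArg tr hab
    rw [tr_neg, tr_mul_comm b a] at h4
    have h5 : (2 : F) * tr (a * b) = 0 := by linear_combination h4
    exact (mul_eq_zero.mp h5).resolve_left two_ne
  simp only [map_mul, map_inv] at h1 h2
  generalize hη : PP F h = η at h1 h2
  have hV : (η * PP F a = PP F a * η ∧ η * PP F b = PP F b * η) → TT h := by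
    rintro ⟨h5, h6⟩
    rcases four_cases two_ne (c := h) ha hb hab (by rw [hη]; exact h5) (by rw [hη]; exact h6) with h7 | h7 | h7 | h7
    · rw [PP_one] at h7; exact TT_of_center h7
    · left
      rw [PP_eq] at h7
      rcases h7 with rfl | rfl
      · exact ha
      · rw [tr_neg, ha, neg_zero]
    · left
      rw [PP_eq] at h7
      rcases h7 with rfl | rfl
      · exact hb
      · rw [tr_neg, hb, neg_zero]
    · left
      rw [PP_eq] at h7
      rcases h7 with rfl | rfl
      · exact htab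
      · rw [tr_neg, htab, neg_zero]
  -- three-cycles
  have hcyc : (η * PP F a * η⁻¹ ≠ PP F a ∧ η * PP F b * η⁻¹ ≠ PP F b ∧ η * (PP F a * PP F b) * η⁻¹ ≠ PP F a * PP F b) →
      (η ^ 3 * PP F a = PP F a * η ^ 3 ∧ η ^ 3 * PP F b = PP F b * η ^ 3) → TT h := by
    rintro ⟨n1, n2, n3⟩ ⟨h5, h6⟩
    apply TT_of_cube
    rw [hη]
    have key : ∀ ζ : Matrix.ProjectiveSpecialLinearGroup (Fin 2) F, η ^ 3 = ζ → η * ζ * η⁻¹ = ζ := by
      rintro ζ rfl; group
    rcases four_cases two_ne (c := h ^ 3) ha hb hab (by rw [map_pow, hη]; exact h5) (by rw [map_pow, hη]; exact h6) with h7 | h7 | h7 | h7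
    · rw [map_pow, hη] at h7; exact h7
    · rw [map_pow, hη] at h7; exact absurd (key _ h7) n1
    · rw [map_pow, hη] at h7; exact absurd (key _ h7) n2
    · rw [map_pow, hη, map_mul] at h7; exact absurd (key _ h7) n3
  have hmulc : η * (PP F a * PP F b) * η⁻¹ = (η * PP F a * η⁻¹) * (η * PP F b * η⁻¹) := by group
  have e1 : PP F a * PP F b ≠ PP F a := by
    intro h; exact hβ1 (mul_eq_left.mp h)
  have e2 : PP F a * PP F b ≠ PP F b := by
    intro h; exact hα1 (mul_eq_right.mp h)
  have hinj : η * PP F a * η⁻¹ ≠ η * PP F b * η⁻¹ := by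
    intro h
    apply hne
    have := mul_right_cancel h
    exact mul_left_cancel this
  rcases h1 with h1 | h1 | h1 <;> rcases h2 with h2 | h2 | h2
  · exact absurd (h1.trans h2.symm) hinj
  · exact hV ⟨mul_inv_eq_iff_eq_mul.mp h1, mul_inv_eq_iff_eq_mul.mp h2⟩
  · exfalso
    apply no_swap (h := h) hns ha hb hab
    · rw [map_mul, map_mul, map_inv, hη]; exact h1
    · rw [map_mul, map_mul, map_inv, hη, map_mul]; exact h2
  · exfalso
    -- swaps a and b
    apply no_swap (a := a * b) (b := b) (h := h) hns htab hb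
    · calc a * b * b = -a := by rw [mul_assoc, hb2]; simp
        _ = -(b * (a * b)) := by rw [← mul_assoc, hba, neg_mul, neg_neg, mul_assoc, hb2]; simp
    · rw [map_mul, map_mul, map_inv, hη, map_mul, hmulc, h1, h2, hcom]
    · rw [map_mul, map_mul, map_inv, hη, h2, map_mul, map_mul, mul_assoc, hβ2, mul_one]
  · exact absurd (h1.trans h2.symm) hinj
  · -- a -> b -> ab
    apply hcyc
    · refine ⟨?_, ?_, ?_⟩
      · rw [h1]; exact hne.symm
      · rw [h2]; exact e2
      · rw [hmulc, h1, h2, hcom, ← mul_assoc, hβ2, one_mul, ← hcom]; exact e1.symm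
    · exact cyc1 hβ2 hcom h1 h2
  · -- a -> ab, b -> a
    apply hcyc
    · refine ⟨?_, ?_, ?_⟩
      · rw [h1]; exact e1
      · rw [h2]; exact hne
      · rw [hmulc, h1, h2, hcom, mul_assoc, hα2, mul_one]
        intro h; apply e2; rw [hcom]; exact h.symm
    · exact cyc2 hα2 hcom h1 h2
  · exfalso
    apply no_swap (a := b) (b := a) (h := h) hns hb ha hba
    · rw [map_mul, map_mul, map_inv, hη]; exact h2
    · rw [map_mul, map_mul, map_inv, hη, h1, map_mul, hcom]
  · exact absurd (h1.trans h2.symm) hinj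

theorem tr_zero_of_inverts {a h : SL2} (h4 : tr a ^ 2 ≠ 4) (hi : h * a * h⁻¹ = a⁻¹) : tr h = 0 := by
  have h1 := tr_of_inverts hi
  have hi2 : (a * h) * a * (a * h)⁻¹ = a⁻¹ := by
    calc (a * h) * a * (a * h)⁻¹ = a * (h * a * h⁻¹) * a⁻¹ := by group
      _ = a⁻¹ := by rw [hi]; group
  have h2 := tr_of_inverts hi2
  have h3 : tr (a * (a * h)) = tr a * tr (a * h) - tr h := by
    rw [← trace_eq, Matrix.SpecialLinearGroup.coe_mul, Matrix.SpecialLinearGroup.coe_mul, ← mul_assoc, sq_eq, sub_mul,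
      smul_mul_assoc, one_mul, Matrix.trace_sub, Matrix.trace_smul, ← Matrix.SpecialLinearGroup.coe_mul, trace_eq,
      trace_eq, smul_eq_mul]
  rw [h3] at h2
  have h5 : (tr a ^ 2 - 4) * tr h = 0 := by linear_combination 2 * h2 - tr a * h1
  exact (mul_eq_zero.mp h5).resolve_left (sub_ne_zero.mpr h4)

/-- the torus case -/
theorem torus_case {a x y : SL2} (h4 : tr a ^ 2 ≠ 4) (hx : x * a * x⁻¹ = a ∨ x * a * x⁻¹ = a⁻¹)
    (hy : y * a * y⁻¹ = a ∨ y * a * y⁻¹ = a⁻¹) :
    x * y = y * x ∨ (tr x = 0 ∧ tr y = 0) ∨ (tr x = 0 ∧ tr (x * y) = 0) ∨ (tr y = 0 ∧ tr (x * y) = 0) := by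
  have hac := not_mem_center_of_tr h4
  have hxy : (x * y) * a * (x * y)⁻¹ = x * (y * a * y⁻¹) * x⁻¹ := by group
  have hinv : ∀ h : SL2, h * a⁻¹ * h⁻¹ = (h * a * h⁻¹)⁻¹ := fun h => by group
  rcases hx with hx1 | hx1 <;> rcases hy with hy1 | hy1
  · left
    refine centralizer_comm hac ?_ ?_ <;> rw [mem_centralizer_singleton_iff]
    · exact mul_inv_eq_iff_eq_mul.mp hx1
    · exact mul_inv_eq_iff_eq_mul.mp hy1
  · right; right; right
    refine ⟨tr_zero_of_inverts h4 hy1, tr_zero_of_inverts h4 ?_⟩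
    rw [hxy, hy1, hinv, hx1]
  · right; right; left
    refine ⟨tr_zero_of_inverts h4 hx1, tr_zero_of_inverts h4 ?_⟩
    rw [hxy, hy1, hx1]
  · right; left
    exact ⟨tr_zero_of_inverts h4 hx1, tr_zero_of_inverts h4 hy1⟩

/-- the necessary condition -/
theorem nec3 (hns : ∀ r : F, r ^ 2 ≠ -1) {x y : SL2} (hx : x ∉ center SL2)
    (hs : Group.IsSolvable (closure ({PP F x, PP F y} : Set (Matrix.ProjectiveSpecialLinearGroup (Fin 2) F)))) :
    (∃ v : Fin 2 → F, v ≠ 0 ∧ (∃ c : F, (x : M2) *ᵥ v = c • v) ∧ (∃ d : F, (y : M2) *ᵥ v = d • v)) ∨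
    (x * y = y * x ∨ (tr x = 0 ∧ tr y = 0) ∨ (tr x = 0 ∧ tr (x * y) = 0) ∨ (tr y = 0 ∧ tr (x * y) = 0)) ∨
    (TT x ∧ TT y ∧ TT (x * y)) := by
  have h3 : (3 : F) = 0 := CharP.cast_eq_zero F 3
  obtain ⟨A, hAc, ⟨a', ha', ha1⟩, hcomm, hnorm⟩ := dichG (by rw [Ne, PP_one]; exact hx) hs
  obtain ⟨a, rfl⟩ := PP_surj a'
  set K := closure ({PP F x, PP F y} : Set (Matrix.ProjectiveSpecialLinearGroup (Fin 2) F)) with hK
  have hxK : PP F x ∈ K := Subgroup.subset_closure (by simp)
  have hyK : PP F y ∈ K := Subgroup.subset_closure (by simp)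
  have hac : a ∉ center SL2 := by rw [← PP_one]; exact ha1
  have hconj : ∀ h : SL2, PP F h ∈ K → PP F (h * a * h⁻¹) ∈ A := by
    intro h hh
    rw [map_mul, map_mul, map_inv]
    exact hnorm _ hh _ ha'
  have hcm : ∀ c : SL2, PP F c ∈ A → c * a = a * c ∨ c * a = -(a * c) := by
    intro c hc
    have := hcomm _ hc _ ha'
    rw [← map_mul, ← map_mul, PP_eq] at this
    exact this
  have htneg : ∀ c : SL2, c * a = -(a * c) → tr c = 0 := by
    intro c hc
    have h5 : a * c * a⁻¹ = -c := by
      rw [mul_inv_eq_iff_eq_mul, neg_mul, hc, neg_neg]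
    have h6 := congrArg tr h5
    rw [tr_conj, tr_neg] at h6
    have h7 : (2 : F) * tr c = 0 := by linear_combination h6
    exact (mul_eq_zero.mp h7).resolve_left two_ne
  by_cases ht0 : tr a = 0
  · have hainv := inv_of_tr_zero ht0
    have h4 : tr a ^ 2 ≠ 4 := by
      rw [ht0]; intro h
      have : (1 : F) = 0 := by linear_combination -h - h3
      exact one_ne_zero this
    by_cases hall : ∀ h : SL2, PP F h ∈ K → PP F (h * a * h⁻¹) = PP F a
    · right; left
      have hk : ∀ h : SL2, PP F h ∈ K → h * a * h⁻¹ = a ∨ h * a * h⁻¹ = a⁻¹ := by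
        intro h hh
        have := hall h hh
        rw [PP_eq] at this
        rw [hainv]; exact this
      exact torus_case h4 (hk x hxK) (hk y hyK)
    · push Not at hall
      obtain ⟨h0, hh0, hne⟩ := hall
      obtain ⟨b, hb⟩ : ∃ b, b = h0 * a * h0⁻¹ := ⟨_, rfl⟩
      have hbA : PP F b ∈ A := by rw [hb]; exact hconj h0 hh0
      rw [← hb] at hne
      have htb : tr b = 0 := by rw [hb, tr_conj]; exact ht0
      have hab : a * b = -(b * a) := by
        rcases hcm b hbA with h5 | h5
        · exfalso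
          apply hne
          rw [PP_eq, ← hainv]
          apply eq_or_eq_inv_of_mem_centralizer h4 (mem_centralizer_singleton_iff.mpr h5)
          rw [htb, ht0]
        · rw [h5, neg_neg]
      right; right
      have hall2 : ∀ h : SL2, PP F h ∈ K → TT h := by
        intro h hh
        have hfour : ∀ c : SL2, PP F c ∈ A → c ∉ center SL2 → PP F c = PP F a ∨ PP F c = PP F b ∨ PP F c = PP F (a * b) := by
          intro c hc hcc
          rcases four_cases two_ne ht0 htb hab (hcomm _ hc _ ha') (hcomm _ hc _ hbA) with h5 | h5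
          · exact absurd ((PP_one c).mp h5) hcc
          · exact h5
        have hconjc : ∀ c : SL2, c ∉ center SL2 → h * c * h⁻¹ ∉ center SL2 := by
          intro c hc h5
          apply hc
          have := Subgroup.Normal.conj_mem (inferInstance : (center SL2).Normal) _ h5 h⁻¹
          have e : h⁻¹ * (h * c * h⁻¹) * h⁻¹⁻¹ = c := by group
          rwa [e] at this
        refine TT_of_norm hns ht0 htb hab (hfour _ (hconj h hh) (hconjc a hac)) (hfour _ ?_ (hconjc b ?_))
        · rw [map_mul, map_mul, map_inv]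
          exact hnorm _ hh _ hbA
        · exact not_center_of_tr_zero two_ne htb
      exact ⟨hall2 x hxK, hall2 y hyK, hall2 _ (by rw [map_mul]; exact mul_mem hxK hyK)⟩
  · have hcom : ∀ h : SL2, PP F h ∈ K → (h * a * h⁻¹) * a = a * (h * a * h⁻¹) := by
      intro h hh
      rcases hcm _ (hconj h hh) with h5 | h5
      · exact h5
      · exfalso
        apply ht0
        rw [← tr_conj a h]
        exact htneg _ h5
    by_cases h4 : tr a ^ 2 = 4
    · left
      have h5 : (tr a - 2) * (tr a + 2) = 0 := by linear_combination h4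
      rcases mul_eq_zero.mp h5 with h6 | h6
      · obtain ⟨v, hv, h7⟩ := common_eigen hac (by linear_combination h6)
        exact ⟨v, hv, h7 x (hcom x hxK), h7 y (hcom y hyK)⟩
      · have hnc : -a ∉ center SL2 := by
          rw [← PP_one, PP_neg, PP_one]; exact hac
        obtain ⟨v, hv, h7⟩ := common_eigen hnc (by rw [tr_neg]; linear_combination -h6)
        have hcom' : ∀ h : SL2, PP F h ∈ K → (h * -a * h⁻¹) * -a = -a * (h * -a * h⁻¹) := by
          intro h hh
          have := hcom h hh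
          simpa using this
        exact ⟨v, hv, h7 x (hcom' x hxK), h7 y (hcom' y hyK)⟩
    · right; left
      have hk : ∀ h : SL2, PP F h ∈ K → h * a * h⁻¹ = a ∨ h * a * h⁻¹ = a⁻¹ := by
        intro h hh
        exact eq_or_eq_inv_of_mem_centralizer h4 (mem_centralizer_singleton_iff.mpr (hcom h hh)) (tr_conj _ _)
      exact torus_case h4 (hk x hxK) (hk y hyK)

/-- solvability of the projection -/
theorem solv_PP {x y : SL2} (h : Group.IsSolvable (closure ({x, y} : Set SL2))) :
    Group.IsSolvable (closure ({PP F x, PP F y} : Set (Matrix.ProjectiveSpecialLinearGroup (Fin 2) F))) := by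
  have h1 : closure ({PP F x, PP F y} : Set (Matrix.ProjectiveSpecialLinearGroup (Fin 2) F)) =
      (closure ({x, y} : Set SL2)).map (PP F) := by
    rw [MonoidHom.map_closure, Set.image_pair]
  rw [h1]
  exact Group.isSolvable_of_surjective ((PP F).subgroupMap_surjective _)

theorem suff3 {x y : SL2} (h : (tr x = 0 ∧ tr y = 0) ∨ (tr x = 0 ∧ tr (x * y) = 0) ∨ (tr y = 0 ∧ tr (x * y) = 0)) :
    Group.IsSolvable (closure ({PP F x, PP F y} : Set (Matrix.ProjectiveSpecialLinearGroup (Fin 2) F))) := by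
  have hs : ∀ z : SL2, tr z = 0 → PP F z * PP F z = 1 := by
    intro z hz
    rw [← map_mul, sq_neg_one hz, PP_neg, map_one]
  rcases h with ⟨h1, h2⟩ | ⟨h1, h2⟩ | ⟨h1, h2⟩
  · exact solv_two (hs _ h1) (hs _ h2)
  · rw [← closure_mul_left, ← map_mul]
    exact solv_two (hs _ h1) (hs _ h2)
  · rw [closure_swap, ← closure_mul_left, ← map_mul]
    refine solv_two (hs _ h1) (hs _ ?_)
    rw [tr_mul_comm]; exact h2

end Three

end Cfsg.Agent.Lib.Solubil
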