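import Mathlib
import Cfsg.Agent.Lib.SolubC
import Cfsg.Agent.Lib.NFInsol

/-!
# Solubilizers in PSL(2,q), q a power of three: counting (helper51)
-/

set_option autoImplicit false

namespace Cfsg.Agent.Lib.Solubil

open Subgroup
open Matrix Cfsg.Agent.Lib.SL2Basic Cfsg.Agent.Lib.SL2Tori Cfsg.Agent.Lib.SL2Int

variable {F : Type*} [Field F]

local notation "SL2" => Matrix.SpecialLinearGroup (Fin 2) F
local notation "M2" => Matrix (Fin 2) (Fin 2) F

theorem solv_PP_iff [CharP F 3] {x y : SL2} : Group.IsSolvable (closure ({PP F x, PP F y} : Set (Matrix.ProjectiveSpecialLinearGroup (Fin 2) F))) ↔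
    Group.IsSolvable (closure ({x, y} : Set SL2)) := by
  constructor
  · intro h
    have h1 : closure ({PP F x, PP F y} : Set (Matrix.ProjectiveSpecialLinearGroup (Fin 2) F)) =
        (closure ({x, y} : Set SL2)).map (PP F) := by
      rw [MonoidHom.map_closure, Set.image_pair]
    rw [h1] at h
    set K := closure ({x, y} : Set SL2)
    let g : K →* K.map (PP F) := (PP F).subgroupMap K
    have hk : Group.IsSolvable g.ker := by
      apply Group.isSolvable_of_comm
      rintro ⟨⟨a, haK⟩, ha⟩ ⟨⟨b, hbK⟩, hb⟩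
      apply Subtype.ext; apply Subtype.ext
      have h2 : PP F a = 1 := congrArg Subtype.val (MonoidHom.mem_ker.mp ha)
      rw [PP_one] at h2
      exact (mem_center_iff.mp h2 b).symm
    exact Group.isSolvable_of_ker_le_range g.ker.subtype g (by rw [range_subtype])
  · exact solv_PP

section Card
variable [Finite F]

omit [Finite F] in
theorem card_PP (h2 : (2 : F) ≠ 0) (p : Matrix.ProjectiveSpecialLinearGroup (Fin 2) F → Prop) :
    Nat.card {Y : SL2 // p (PP F Y)} = 2 * Nat.card {y : Matrix.ProjectiveSpecialLinearGroup (Fin 2) F // p y} := by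
  have hc : Nat.card (center SL2) = 2 := by
    have h1 : ((center SL2 : Subgroup SL2) : Set SL2) = {1, -1} := by
      ext A
      rw [SetLike.mem_coe, mem_center_iff']; rfl
    have h3 : (1 : SL2) ≠ -1 := by
      intro h
      have := congrArg tr h
      rw [tr_neg, tr_one] at this
      have h4 : (2 : F) * 2 = 0 := by linear_combination this
      exact h2 (mul_self_eq_zero.mp h4)
    calc Nat.card (center SL2) = Set.ncard ((center SL2 : Subgroup SL2) : Set SL2) := rfl
      _ = 2 := by rw [h1, Set.ncard_pair h3]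
  let e : SL2 ≃ (SL2 ⧸ center SL2) × center SL2 := Subgroup.groupEquivQuotientProdSubgroup
  have he : ∀ Y : SL2, (e Y).1 = PP F Y := fun Y => rfl
  have h3 : Nat.card {Y : SL2 // p (PP F Y)} =
      Nat.card {z : (SL2 ⧸ center SL2) × center SL2 // p z.1} :=
    Nat.card_congr (e.subtypeEquiv (fun Y => by rw [he]))
  rw [h3, Nat.card_congr (Equiv.prodSubtypeFstEquivSubtypeProd (p := p)), Nat.card_prod, hc, mul_comm]

/-- the counting reduction -/
theorem card_sol [CharP F 3] (h2 : (2 : F) ≠ 0) (x : SL2) :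
    2 * Nat.card {y : Matrix.ProjectiveSpecialLinearGroup (Fin 2) F //
      Group.IsSolvable (closure ({PP F x, y} : Set (Matrix.ProjectiveSpecialLinearGroup (Fin 2) F)))} =
    Nat.card {Y : SL2 // Group.IsSolvable (closure ({x, Y} : Set SL2))} := by
  rw [← card_PP h2 (fun y => Group.IsSolvable (closure ({PP F x, y} : Set (Matrix.ProjectiveSpecialLinearGroup (Fin 2) F))))]
  exact Nat.card_congr (Equiv.subtypeEquivRight (fun Y => solv_PP_iff))

end Card

section Three
variable [CharP F 3]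

omit [CharP F 3] in
theorem conj_uu (y : SL2) (s : F) :
    ((uu s * y * (uu s)⁻¹ : SL2) : M2) 0 0 = (y : M2) 0 0 + s * (y : M2) 1 0 ∧
    ((uu s * y * (uu s)⁻¹ : SL2) : M2) 0 1 = (y : M2) 0 1 + s * (y : M2) 1 1 - s * ((y : M2) 0 0 + s * (y : M2) 1 0) ∧
    ((uu s * y * (uu s)⁻¹ : SL2) : M2) 1 0 = (y : M2) 1 0 ∧
    ((uu s * y * (uu s)⁻¹ : SL2) : M2) 1 1 = (y : M2) 1 1 - s * (y : M2) 1 0 := by
  refine ⟨?_, ?_, ?_, ?_⟩
  · rw [mul00, mul00, mul01, inv_coe]; simp [uu]
  · rw [mul01, mul00, mul01, inv_coe]; simp [uu]; ring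
  · rw [mul10, mul10, mul11, inv_coe]; simp [uu]
  · rw [mul11, mul10, mul11, inv_coe]; simp [uu]; ring

theorem solv_F3 {y : SL2} (hc : (y : M2) 1 0 = 1 ∨ (y : M2) 1 0 = -1) (ht : TT y) :
    Group.IsSolvable (closure ({uu 1, y} : Set SL2)) := by
  let ρ : ZMod 3 →+* F := ZMod.castHom (dvd_refl 3) F
  let φ : Matrix.SpecialLinearGroup (Fin 2) (ZMod 3) →* SL2 := Matrix.SpecialLinearGroup.map ρ
  have hφ : ∀ (A : Matrix.SpecialLinearGroup (Fin 2) (ZMod 3)) (i j : Fin 2),
      (φ A : M2) i j = ρ ((A : Matrix (Fin 2) (Fin 2) (ZMod 3)) i j) := fun A i j => rfl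
  have hsol : Group.IsSolvable (Matrix.SpecialLinearGroup (Fin 2) (ZMod 3)) := by
    apply NFInsol.isSolvable_of_dvd_24
    rw [card_SL2']
    simp
  obtain ⟨c', hc1, hc2⟩ : ∃ c' : ZMod 3, ρ c' = (y : M2) 1 0 ∧ c' * c' = 1 := by
    rcases hc with h | h
    · exact ⟨1, by rw [map_one, h], by decide⟩
    · exact ⟨-1, by rw [map_neg, map_one, h], by decide⟩
  obtain ⟨t', ht'⟩ : ∃ t' : ZMod 3, ρ t' = tr y := by
    rcases ht with h | h | h
    · exact ⟨0, by rw [map_zero, h]⟩
    · exact ⟨1, by rw [map_one, h]⟩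
    · exact ⟨-1, by rw [map_neg, map_one, h]⟩
  have hcc : (y : M2) 1 0 * (y : M2) 1 0 = 1 := by rcases hc with h | h <;> rw [h] <;> ring
  obtain ⟨s, hs⟩ : ∃ s : F, s = -((y : M2) 0 0 * (y : M2) 1 0) := ⟨_, rfl⟩
  let y' : Matrix.SpecialLinearGroup (Fin 2) (ZMod 3) := ⟨!![0, -c'; c', t'], by
    rw [Matrix.det_fin_two]; simp; exact hc2⟩
  have y00 : (y' : Matrix (Fin 2) (Fin 2) (ZMod 3)) 0 0 = 0 := by simp [y']
  have y01 : (y' : Matrix (Fin 2) (Fin 2) (ZMod 3)) 0 1 = -c' := by simp [y']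
  have y10 : (y' : Matrix (Fin 2) (Fin 2) (ZMod 3)) 1 0 = c' := by simp [y']
  have y11 : (y' : Matrix (Fin 2) (Fin 2) (ZMod 3)) 1 1 = t' := by simp [y']
  obtain ⟨u0, u1, u2, u3⟩ := conj_uu (uu 1 : SL2) s
  have e1 : φ (uu 1) = uu s * uu 1 * (uu s)⁻¹ := by
    apply ext2
    · rw [hφ, u0]; simp [uu]
    · rw [hφ, u1]; simp [uu]
    · rw [hφ, u2]; simp [uu]
    · rw [hφ, u3]; simp [uu]
  have hd := det2 y
  rw [tr_def] at ht'
  obtain ⟨v0, v1, v2, v3⟩ := conj_uu y s
  have e2 : φ y' = uu s * y * (uu s)⁻¹ := by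
    apply ext2
    · rw [hφ, v0, y00, map_zero, hs]
      linear_combination (y : M2) 0 0 * hcc
    · rw [hφ, v1, y01, map_neg, hc1, hs]
      linear_combination (y : M2) 1 0 * hd + ((y : M2) 0 1 + (y : M2) 0 0 * (y : M2) 0 0 * (y : M2) 1 0) * hcc
    · rw [hφ, v2, y10, hc1]
    · rw [hφ, v3, y11, ht', hs]
      linear_combination -(y : M2) 0 0 * hcc
  have h1 : Group.IsSolvable (closure ({φ (uu 1), φ y'} : Set SL2)) := by
    have h2 : closure ({φ (uu 1), φ y'} : Set SL2) = (Subgroup.closure ({uu 1, y'} : Set _)).map φ := by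
      rw [MonoidHom.map_closure, Set.image_pair]
    rw [h2]
    exact Group.isSolvable_of_surjective (φ.subgroupMap_surjective _)
  rw [e1, e2] at h1
  exact (solv_map (MulAut.conj (uu s)).toMonoidHom (MulAut.conj (uu s)).injective (uu 1) y).mp h1

theorem neg_one_sq_ne (hns : ∀ r : F, r ^ 2 ≠ -1) (a : F) : a * a + 1 ≠ 0 := by
  intro h
  exact hns a (by linear_combination h)

/-- order three: the criterion -/
theorem iff_uu3 (hns : ∀ r : F, r ^ 2 ≠ -1) (y : SL2) : Group.IsSolvable (closure ({uu 1, y} : Set SL2)) ↔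
    (y : M2) 1 0 = 0 ∨ (((y : M2) 1 0 = 1 ∨ (y : M2) 1 0 = -1) ∧ TT y) := by
  have h3 : (3 : F) = 0 := CharP.cast_eq_zero F 3
  have u00 : ((uu 1 : SL2) : M2) 0 0 = 1 := by simp [uu]
  have u01 : ((uu 1 : SL2) : M2) 0 1 = 1 := by simp [uu]
  have u10 : ((uu 1 : SL2) : M2) 1 0 = 0 := by simp [uu]
  have u11 : ((uu 1 : SL2) : M2) 1 1 = 1 := by simp [uu]
  have ht : tr (uu 1 * y) = tr y + (y : M2) 1 0 := by
    rw [tr_def, tr_def, mul00, mul11, u00, u01, u10, u11]; ring
  have htu : tr (uu 1 : SL2) ≠ 0 := by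
    rw [tr_def, u00, u11]
    intro h
    have : (1 : F) = 0 := by linear_combination h3 - h
    exact one_ne_zero this
  have huc : (uu 1 : SL2) ∉ center SL2 := by
    rw [mem_center_iff_entries, u01]; simp
  constructor
  · intro h
    rcases nec3 hns huc (solv_PP h) with ⟨v, hv, ⟨c, hc⟩, d, hd⟩ | (h | ⟨h, _⟩ | ⟨h, _⟩ | ⟨h, h'⟩) | ⟨_, h, h'⟩
    · left
      have e0 := congrFun hc 0
      have e1 := congrFun hc 1
      have f1 := congrFun hd 1
      simp [Matrix.mulVec, dotProduct, Fin.sum_univ_two, uu] at e0 e1 f1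
      have hv1 : v 1 = 0 := by
        by_contra h1
        have hc1 : c = 1 := by
          have : (c - 1) * v 1 = 0 := by linear_combination -e1
          exact sub_eq_zero.mp ((mul_eq_zero.mp this).resolve_right h1)
        rw [hc1, one_mul] at e0
        apply h1
        linear_combination e0
      have hv0 : v 0 ≠ 0 := by
        intro h0
        apply hv
        ext i
        fin_cases i
        · exact h0
        · exact hv1
      rw [hv1, mul_zero, mul_zero, add_zero] at f1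
      exact (mul_eq_zero.mp f1).resolve_right hv0
    · left
      have h3 := congrArg (fun A : SL2 => (A : M2) 0 0) h
      rw [mul00, mul00, u00, u01, u10] at h3
      linear_combination h3
    · exact absurd h htu
    · exact absurd h htu
    · left
      rw [ht, h, zero_add] at h'
      exact h'
    · by_cases h0 : (y : M2) 1 0 = 0
      · left; exact h0
      · right
        refine ⟨?_, h⟩
        have e1 : tr y ^ 3 = tr y := by
          rcases h with h | h | h <;> rw [h] <;> ring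
        have e2 : tr (uu 1 * y) ^ 3 = tr (uu 1 * y) := by
          rcases h' with h | h | h <;> rw [h] <;> ring
        rw [ht] at e2
        have e3 : (y : M2) 1 0 * (((y : M2) 1 0 - 1) * ((y : M2) 1 0 + 1)) = 0 := by
          linear_combination e2 - e1 - (tr y ^ 2 * (y : M2) 1 0 + tr y * (y : M2) 1 0 ^ 2) * h3
        rcases mul_eq_zero.mp ((mul_eq_zero.mp e3).resolve_left h0) with h5 | h5
        · left; linear_combination h5
        · right; linear_combination h5
  · rintro (h | ⟨h, h'⟩)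
    · exact solv_bor u10 h
    · exact solv_F3 h h'

theorem count_tt [Finite F] : Set.ncard {y : SL2 | ((y : M2) 1 0 = 1 ∨ (y : M2) 1 0 = -1) ∧ TT y} = 6 * Nat.card F := by
  have h3 : (3 : F) = 0 := CharP.cast_eq_zero F 3
  have n1 : (1 : F) ≠ -1 := by
    intro h
    have : (1 : F) = 0 := by linear_combination h3 - h
    exact one_ne_zero this
  have c1 : Nat.card {c : F // c = 1 ∨ c = -1} = 2 := by
    have : Nat.card {c : F // c = 1 ∨ c = -1} = Set.ncard ({1, -1} : Set F) := rfl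
    rw [this, Set.ncard_pair n1]
  have c2 : Nat.card {t : F // t = 0 ∨ t = 1 ∨ t = -1} = 3 := by
    have : Nat.card {t : F // t = 0 ∨ t = 1 ∨ t = -1} = Set.ncard ({0, 1, -1} : Set F) := rfl
    rw [this, Set.ncard_insert_of_notMem, Set.ncard_pair n1]
    simp only [Set.mem_insert_iff, Set.mem_singleton_iff, not_or]
    exact ⟨zero_ne_one, fun h => one_ne_zero (by linear_combination h : (1 : F) = 0)⟩
  have e : {y : SL2 | ((y : M2) 1 0 = 1 ∨ (y : M2) 1 0 = -1) ∧ TT y} ≃
      F × {c : F // c = 1 ∨ c = -1} × {t : F // t = 0 ∨ t = 1 ∨ t = -1} :=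
    { toFun := fun y => (((y : SL2) : M2) 0 0, ⟨((y : SL2) : M2) 1 0, y.2.1⟩, ⟨tr (y : SL2), y.2.2⟩)
      invFun := fun p => ⟨⟨!![p.1, (p.1 * (p.2.2.1 - p.1) - 1) * p.2.1.1; p.2.1.1, p.2.2.1 - p.1], by
          have hc : p.2.1.1 * p.2.1.1 = 1 := by rcases p.2.1.2 with h | h <;> rw [h] <;> ring
          rw [Matrix.det_fin_two]
          simp
          linear_combination (-(p.1 * (p.2.2.1 - p.1) - 1)) * hc⟩, by
        refine ⟨p.2.1.2, ?_⟩
        show (_ : F) + _ = 0 ∨ (_ : F) + _ = 1 ∨ (_ : F) + _ = -1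
        simp
        exact p.2.2.2⟩
      left_inv := by
        intro y
        apply Subtype.ext
        have hc : ((y : SL2) : M2) 1 0 * ((y : SL2) : M2) 1 0 = 1 := by rcases y.2.1 with h | h <;> rw [h] <;> ring
        have hd := det2 (y : SL2)
        apply ext2
        · simp
        · simp [tr_def]
          linear_combination ((y : SL2) : M2) 0 1 * hc + ((y : SL2) : M2) 1 0 * hd
        · simp
        · simp [tr_def]
      right_inv := by
        rintro ⟨a, c, t⟩
        refine Prod.ext ?_ (Prod.ext ?_ ?_)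
        · simp
        · apply Subtype.ext; simp
        · apply Subtype.ext
          show (_ : F) + _ = _
          simp }
  rw [← Nat.card_coe_set_eq, Nat.card_congr e, Nat.card_prod, Nat.card_prod, c1, c2]
  ring

theorem count3_a [Finite F] (hns : ∀ r : F, r ^ 2 ≠ -1) {x : SL2} (hx : x ∉ center SL2) (ht : tr x = 2) :
    Nat.card {y : SL2 // Group.IsSolvable (closure ({x, y} : Set SL2))} = Nat.card F * (Nat.card F - 1) + 6 * Nat.card F := by
  have h3 : (3 : F) = 0 := CharP.cast_eq_zero F 3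
  have u01 : ((uu 1 : SL2) : M2) 0 1 = 1 := by simp [uu]
  have huc : (uu 1 : SL2) ∉ center SL2 := by
    rw [mem_center_iff_entries, u01]; simp
  obtain ⟨g, hg⟩ := exists_glConj (A := x) (B := uu 1) hx huc (by
    rw [ht, tr_def]; simp [uu]; norm_num)
  rw [← card_map (glEquiv g) x, glEquiv_apply, hg]
  simp only [iff_uu3 hns]
  have e1 : {y : SL2 | (y : M2) 1 0 = 0 ∨ (((y : M2) 1 0 = 1 ∨ (y : M2) 1 0 = -1) ∧ TT y)} =
      {y : SL2 | (y : M2) 1 0 = 0} ∪ {y : SL2 | ((y : M2) 1 0 = 1 ∨ (y : M2) 1 0 = -1) ∧ TT y} := by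
    ext y; rfl
  have e2 : Nat.card {y : SL2 // (y : M2) 1 0 = 0 ∨ (((y : M2) 1 0 = 1 ∨ (y : M2) 1 0 = -1) ∧ TT y)} =
    Set.ncard {y : SL2 | (y : M2) 1 0 = 0 ∨ (((y : M2) 1 0 = 1 ∨ (y : M2) 1 0 = -1) ∧ TT y)} := rfl
  rw [e2, e1, Set.ncard_union_eq, count_low, count_tt]
  rw [Set.disjoint_left]
  rintro y h1 ⟨h4, _⟩
  have h1' : (y : M2) 1 0 = 0 := h1
  rw [h1'] at h4
  rcases h4 with h4 | h4
  · exact zero_ne_one h4
  · exact one_ne_zero (by linear_combination h4 : (1 : F) = 0)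

end Three

end Cfsg.Agent.Lib.Solubil
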