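import Mathlib
import Cfsg.Agent.Lib.SolubD

/-!
# Solubilizers in PSL(2,q), q a power of three: semisimple elements (helper51)
-/

set_option autoImplicit false

namespace Cfsg.Agent.Lib.Solubil

open Subgroup
open Matrix Cfsg.Agent.Lib.SL2Basic Cfsg.Agent.Lib.SL2Tori Cfsg.Agent.Lib.SL2Int

variable {F : Type*} [Field F]

local notation "SL2" => Matrix.SpecialLinearGroup (Fin 2) F
local notation "M2" => Matrix (Fin 2) (Fin 2) F

variable [CharP F 3]

theorem not_TT {x : SL2} (ht : tr x ≠ 0) (h4 : tr x ^ 2 ≠ 4) : ¬ TT x := by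
  have h3 : (3 : F) = 0 := CharP.cast_eq_zero F 3
  rintro (h | h | h)
  · exact ht h
  · apply h4; rw [h]; linear_combination -h3
  · apply h4; rw [h]; linear_combination -h3

theorem iff_dg3 (hns : ∀ r : F, r ^ 2 ≠ -1) {u : Fˣ} (htu : tr (dg u : SL2) ≠ 0) (h4 : tr (dg u : SL2) ^ 2 ≠ 4) (y : SL2) :
    Group.IsSolvable (closure ({dg u, y} : Set SL2)) ↔
    (y : M2) 1 0 = 0 ∨ (y : M2) 0 1 = 0 ∨ ((y : M2) 0 0 = 0 ∧ (y : M2) 1 1 = 0) := by
  have h3 : (3 : F) = 0 := CharP.cast_eq_zero F 3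
  have u00 : ((dg u : SL2) : M2) 0 0 = u := by simp [dg]
  have u01 : ((dg u : SL2) : M2) 0 1 = 0 := by simp [dg]
  have u10 : ((dg u : SL2) : M2) 1 0 = 0 := by simp [dg]
  have u11 : ((dg u : SL2) : M2) 1 1 = ((u⁻¹ : Fˣ) : F) := by simp [dg]
  obtain ⟨k, hk⟩ : ∃ k : F, k = ((u⁻¹ : Fˣ) : F) := ⟨_, rfl⟩
  have huk : (u : F) * k = 1 := by rw [hk, ← Units.val_mul, mul_inv_cancel, Units.val_one]
  rw [← hk] at u11
  have hu : (u : F) ≠ k := by
    intro h
    apply h4
    rw [tr_def, u00, u11, ← h]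
    rw [← h] at huk
    linear_combination 4 * huk
  have ht : tr (dg u * y) = u * (y : M2) 0 0 + k * (y : M2) 1 1 := by
    rw [tr_def, mul00, mul11, u00, u01, u10, u11]; ring
  have huc := not_mem_center_of_tr h4
  constructor
  · intro h
    rcases nec3 hns huc (solv_PP h) with ⟨v, hv, ⟨c, hc⟩, d, hd⟩ | (h | ⟨h, _⟩ | ⟨h, _⟩ | ⟨h, h'⟩) | ⟨h, _⟩
    · have e0 := congrFun hc 0
      have e1 := congrFun hc 1
      have f0 := congrFun hd 0
      have f1 := congrFun hd 1
      simp only [Matrix.mulVec, dotProduct, Fin.sum_univ_two, u00, u01, u10, u11, Pi.smul_apply, smul_eq_mul] at e0 e1 f0 f1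
      by_cases h0 : v 0 = 0
      · right; left
        have hv1 : v 1 ≠ 0 := by
          intro h1; apply hv
          ext i; fin_cases i
          · exact h0
          · exact h1
        rw [h0, mul_zero, mul_zero, zero_add] at f0
        exact (mul_eq_zero.mp f0).resolve_right hv1
      · left
        have hc1 : c = u := by
          have : (c - u) * v 0 = 0 := by linear_combination -e0
          exact sub_eq_zero.mp ((mul_eq_zero.mp this).resolve_right h0)
        have hv1 : v 1 = 0 := by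
          rw [hc1] at e1
          have : ((u : F) - k) * v 1 = 0 := by linear_combination -e1
          exact (mul_eq_zero.mp this).resolve_left (sub_ne_zero.mpr hu)
        rw [hv1, mul_zero, mul_zero, add_zero] at f1
        exact (mul_eq_zero.mp f1).resolve_right h0
    · right; left
      have h3 := congrArg (fun A : SL2 => (A : M2) 0 1) h
      rw [mul01, mul01, u00, u01, u11] at h3
      have : ((u : F) - k) * (y : M2) 0 1 = 0 := by linear_combination h3
      exact (mul_eq_zero.mp this).resolve_left (sub_ne_zero.mpr hu)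
    · exact absurd h htu
    · exact absurd h htu
    · right; right
      rw [ht] at h'
      rw [tr_def] at h
      have h5 : ((u : F) - k) * (y : M2) 0 0 = 0 := by linear_combination h' - k * h
      have h6 := (mul_eq_zero.mp h5).resolve_left (sub_ne_zero.mpr hu)
      exact ⟨h6, by linear_combination h - h6⟩
    · exact absurd h (not_TT htu h4)
  · rintro (h | h | ⟨h, h'⟩)
    · exact solv_bor u10 h
    · let w : SL2 := ⟨!![0, 1; -1, 0], by simp [Matrix.det_fin_two]⟩
      rw [← solv_map (MulAut.conj w).toMonoidHom (MulAut.conj w).injective]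
      apply solv_bor
      · show ((w * dg u * w⁻¹ : SL2) : M2) 1 0 = 0
        rw [mul10, mul10, mul11, inv_coe, u00, u01, u10, u11]
        simp [w]
      · show ((w * y * w⁻¹ : SL2) : M2) 1 0 = 0
        rw [mul10, mul10, mul11, inv_coe, h]
        simp [w]
    · rw [← solv_PP_iff]
      refine suff3 (Or.inr (Or.inr ⟨?_, ?_⟩))
      · rw [tr_def, h, h', add_zero]
      · rw [ht, h, h']; ring

theorem count3_b [Finite F] (hns : ∀ r : F, r ^ 2 ≠ -1) {x : SL2} (ht : tr x ≠ 0) (h4 : tr x ^ 2 ≠ 4) {c : F}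
    (hc : c ^ 2 - tr x * c + 1 = 0) :
    Nat.card {y : SL2 // Group.IsSolvable (closure ({x, y} : Set SL2))} = 2 * (Nat.card F * (Nat.card F - 1)) := by
  obtain ⟨u, g, hu, hg⟩ := exists_conj_dg (A := x) h4 hc
  have hg' : (MulAut.conj g) x = dg u := hg
  rw [← card_map (MulAut.conj g) x, hg']
  have htu : tr x = tr (dg u) := by rw [← hg, tr_conj]
  rw [htu] at ht h4
  simp only [iff_dg3 hns ht h4]
  have e1 : {y : SL2 | (y : M2) 1 0 = 0 ∨ (y : M2) 0 1 = 0 ∨ ((y : M2) 0 0 = 0 ∧ (y : M2) 1 1 = 0)} =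
      {y : SL2 | (y : M2) 1 0 = 0} ∪
      ({y : SL2 | (y : M2) 1 0 ≠ 0 ∧ (y : M2) 0 1 = 0} ∪ {y : SL2 | (y : M2) 0 0 = 0 ∧ (y : M2) 1 1 = 0}) := by
    ext y
    simp only [Set.mem_setOf_eq, Set.mem_union]
    by_cases h0 : (y : M2) 1 0 = 0
    · simp [h0]
    · simp [h0]
  have e2 : Nat.card {y : SL2 // (y : M2) 1 0 = 0 ∨ (y : M2) 0 1 = 0 ∨ ((y : M2) 0 0 = 0 ∧ (y : M2) 1 1 = 0)} =
    Set.ncard {y : SL2 | (y : M2) 1 0 = 0 ∨ (y : M2) 0 1 = 0 ∨ ((y : M2) 0 0 = 0 ∧ (y : M2) 1 1 = 0)} := rfl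
  rw [e2, e1, Set.ncard_union_eq, Set.ncard_union_eq, count_low, count_opp, count_anti]
  · have h5 : 1 ≤ Nat.card F := Finite.card_pos
    obtain ⟨k, hk⟩ := Nat.exists_eq_add_of_le h5
    rw [hk]
    simp
    ring
  · rw [Set.disjoint_left]
    rintro y ⟨h1, h3⟩ ⟨h4, h5⟩
    have := det2 y
    rw [h3, h4] at this
    simp at this
  · rw [Set.disjoint_left]
    rintro y h1 (⟨h3, _⟩ | ⟨h3, _⟩)
    · exact h3 h1
    · have := det2 y
      have h1' : (y : M2) 1 0 = 0 := h1
      rw [h3, h1'] at this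
      simp at this

theorem conj_eq_inv_of_tr {x y : SL2} (h : tr y = 0) (h' : tr (x * y) = 0) : y * x * y⁻¹ = x⁻¹ := by
  have h5 := sq_neg_one h'
  rw [inv_of_tr_zero h]
  symm
  apply inv_eq_of_mul_eq_one_left
  calc y * x * -y * x = -(x⁻¹ * ((x * y) * (x * y)) * x) := by rw [mul_neg, neg_mul]; congr 1; group
    _ = 1 := by rw [h5]; simp

theorem count3_c [Finite F] (hns : ∀ r : F, r ^ 2 ≠ -1) {x : SL2} (ht : tr x ≠ 0) (hr : ∀ c : F, c ^ 2 - tr x * c + 1 ≠ 0) :
    Nat.card {y : SL2 // Group.IsSolvable (closure ({x, y} : Set SL2))} = 2 * (Nat.card F + 1) := by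
  have h4 := sq_ne_four_of_no_root hr
  rw [← (centralizer_of_no_root hr).2, ← card_normalizer' h4]
  apply Nat.card_congr
  refine Equiv.subtypeEquivRight (fun y => ?_)
  rw [mem_normalizer_centralizer_iff h4]
  constructor
  · intro h
    rcases nec3 hns (not_mem_center_of_tr h4) (solv_PP h) with ⟨v, hv, ⟨c, hc⟩, _⟩ | (h | ⟨h, _⟩ | ⟨h, _⟩ | ⟨h, h'⟩) | ⟨h, _⟩
    · exact absurd (root_of_eigenvector hv hc) (hr c)
    · left; rw [← h]; group
    · exact absurd h ht
    · exact absurd h ht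
    · right
      exact conj_eq_inv_of_tr h h'
    · exact absurd h (not_TT ht h4)
  · rintro (h | h)
    · exact solv_comm (mul_inv_eq_iff_eq_mul.mp h).symm
    · exact solv_inv h

/-! ### involutions -/

/-- a matrix from its entries -/
def mkS (a b c d : F) (h : a * d - b * c = 1) : Matrix.SpecialLinearGroup (Fin 2) F :=
  ⟨!![a, b; c, d], by rw [Matrix.det_fin_two_of]; exact h⟩

omit [CharP F 3] in
theorem mkS_ent (a b c d : F) (h : a * d - b * c = 1) : ((mkS a b c d h : SL2) : M2) 0 0 = a ∧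
    ((mkS a b c d h : SL2) : M2) 0 1 = b ∧ ((mkS a b c d h : SL2) : M2) 1 0 = c ∧ ((mkS a b c d h : SL2) : M2) 1 1 = d :=
  ⟨rfl, rfl, rfl, rfl⟩

/-- the standard element of order four -/
def jj (F : Type*) [Field F] : Matrix.SpecialLinearGroup (Fin 2) F := ⟨!![0, -1; 1, 0], by simp [Matrix.det_fin_two]⟩

omit [CharP F 3] in
theorem jj_mul (y : SL2) : ((jj F * y : SL2) : M2) 0 0 = -(y : M2) 1 0 ∧ ((jj F * y : SL2) : M2) 0 1 = -(y : M2) 1 1 ∧
    ((jj F * y : SL2) : M2) 1 0 = (y : M2) 0 0 ∧ ((jj F * y : SL2) : M2) 1 1 = (y : M2) 0 1 := by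
  refine ⟨?_, ?_, ?_, ?_⟩
  · rw [mul00]; simp [jj]
  · rw [mul01]; simp [jj]
  · rw [mul10]; simp [jj]
  · rw [mul11]; simp [jj]

omit [CharP F 3] in
theorem mul_jj (y : SL2) : ((y * jj F : SL2) : M2) 0 0 = (y : M2) 0 1 ∧ ((y * jj F : SL2) : M2) 0 1 = -(y : M2) 0 0 ∧
    ((y * jj F : SL2) : M2) 1 0 = (y : M2) 1 1 ∧ ((y * jj F : SL2) : M2) 1 1 = -(y : M2) 1 0 := by
  refine ⟨?_, ?_, ?_, ?_⟩
  · rw [mul00]; simp [jj]
  · rw [mul01]; simp [jj]
  · rw [mul10]; simp [jj]
  · rw [mul11]; simp [jj]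

theorem tr_jj : tr (jj F) = 0 := by rw [tr_def]; simp [jj]

theorem tr_jj_mul (y : SL2) : tr (jj F * y) = (y : M2) 0 1 - (y : M2) 1 0 := by
  rw [tr_def, (jj_mul y).1, (jj_mul y).2.2.2]; ring

theorem solv_Q {y : SL2} (h : tr y = 1 ∨ tr y = -1) (h' : tr (jj F * y) = 1 ∨ tr (jj F * y) = -1) :
    Group.IsSolvable (closure ({jj F, y} : Set SL2)) := by
  have h3 : (3 : F) = 0 := CharP.cast_eq_zero F 3
  -- replace `y` by a unipotent element
  obtain ⟨z, hz, hzt, hzj⟩ : ∃ z : SL2, PP F z = PP F y ∧ tr z = 2 ∧ (tr (jj F * z) = 1 ∨ tr (jj F * z) = -1) := by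
    rcases h with h | h
    · refine ⟨-y, PP_neg y, ?_, ?_⟩
      · rw [tr_neg, h]; linear_combination -h3
      · rw [mul_neg, tr_neg]
        rcases h' with h' | h'
        · right; rw [h']
        · left; rw [h', neg_neg]
    · exact ⟨y, rfl, by rw [h]; linear_combination -h3, h'⟩
  rw [← solv_PP_iff, ← hz, solv_PP_iff, closure_swap]
  have hzc : z ∉ center SL2 := by
    intro hc
    rw [mem_center_iff'] at hc
    rcases hc with rfl | rfl
    · rw [mul_one, tr_jj] at hzj
      rcases hzj with h | h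
      · exact zero_ne_one h
      · exact one_ne_zero (by linear_combination h : (1 : F) = 0)
    · rw [mul_neg, mul_one, tr_neg, tr_jj] at hzj
      rcases hzj with h | h
      · exact zero_ne_one (by linear_combination h : (0 : F) = 1)
      · exact one_ne_zero (by linear_combination h : (1 : F) = 0)
  have u00 : ((uu 1 : SL2) : M2) 0 0 = 1 := by simp [uu]
  have u01 : ((uu 1 : SL2) : M2) 0 1 = 1 := by simp [uu]
  have u10 : ((uu 1 : SL2) : M2) 1 0 = 0 := by simp [uu]
  have u11 : ((uu 1 : SL2) : M2) 1 1 = 1 := by simp [uu]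
  have huc : (uu 1 : SL2) ∉ center SL2 := by
    rw [mem_center_iff_entries, u01]; simp
  obtain ⟨g, hg⟩ := exists_glConj (A := z) (B := uu 1) hzc huc (by
    rw [hzt, tr_def]; simp [uu]; norm_num)
  rw [← solv_map (glEquiv g).toMonoidHom (glEquiv g).injective]
  show Group.IsSolvable (closure ({glConj g z, glConj g (jj F)} : Set SL2))
  rw [hg]
  have ht : tr (glConj g (jj F)) = 0 := by rw [tr_glConj, tr_jj]
  have h5 : tr (uu 1 * glConj g (jj F)) = ((glConj g (jj F) : SL2) : M2) 1 0 := by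
    have h6 : ∀ w : SL2, tr (uu 1 * w) = tr w + (w : M2) 1 0 := by
      intro w
      rw [tr_def, tr_def, mul00, mul11, u00, u01, u10, u11]; ring
    rw [h6, ht, zero_add]
  have h6 : tr (uu 1 * glConj g (jj F)) = tr (jj F * z) := by
    rw [← hg, ← glConj_mul, tr_glConj, tr_mul_comm]
  apply solv_F3
  · rw [← h5, h6]; exact hzj
  · left; exact ht

theorem iff_jj (hns : ∀ r : F, r ^ 2 ≠ -1) (y : SL2) : Group.IsSolvable (closure ({jj F, y} : Set SL2)) ↔
    ((tr y = 0 ∨ tr (jj F * y) = 0) ∨ jj F * y = y * jj F) ∨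
      ((tr y = 1 ∨ tr y = -1) ∧ (tr (jj F * y) = 1 ∨ tr (jj F * y) = -1)) := by
  have hjc := not_center_of_tr_zero two_ne (tr_jj (F := F))
  constructor
  · intro h
    rcases nec3 hns hjc (solv_PP h) with ⟨v, hv, ⟨c, hc⟩, _⟩ | (h | ⟨_, h⟩ | ⟨_, h⟩ | ⟨h, _⟩) | ⟨_, h, h'⟩
    · exfalso
      have := root_of_eigenvector hv hc
      rw [tr_jj] at this
      exact hns c (by linear_combination this)
    · left; right; exact h
    · left; left; left; exact h
    · left; left; right; exact h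
    · left; left; left; exact h
    · rcases h with h | h
      · left; left; left; exact h
      · rcases h' with h' | h'
        · left; left; right; exact h'
        · right; exact ⟨h, h'⟩
  · rintro (((h | h) | h) | ⟨h, h'⟩)
    · rw [← solv_PP_iff]; exact suff3 (Or.inl ⟨tr_jj, h⟩)
    · rw [← solv_PP_iff]; exact suff3 (Or.inr (Or.inl ⟨tr_jj, h⟩))
    · exact solv_comm h
    · exact solv_Q h h'

section CountJ
variable [Finite F]

theorem jj_h4 : tr (jj F) ^ 2 ≠ 4 := by
  have h3 : (3 : F) = 0 := CharP.cast_eq_zero F 3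
  rw [tr_jj]; intro h
  have : (1 : F) = 0 := by linear_combination -h - h3
  exact one_ne_zero this

theorem count_T0 (hns : ∀ r : F, r ^ 2 ≠ -1) : Set.ncard {y : SL2 | tr y = 0} = Nat.card F * (Nat.card F - 1) := by
  rw [← count_phi (fun a _ => -a)]
  congr 1
  ext y
  show tr y = 0 ↔ (y : M2) 1 0 ≠ 0 ∧ (y : M2) 1 1 = -(y : M2) 0 0
  constructor
  · intro h
    rw [tr_def] at h
    have h1 : (y : M2) 1 1 = -(y : M2) 0 0 := by linear_combination h
    refine ⟨?_, h1⟩
    intro h0
    have hd := det2 y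
    rw [h0, h1] at hd
    exact hns ((y : M2) 0 0) (by linear_combination -hd)
  · rintro ⟨_, h⟩
    rw [tr_def, h]; ring

theorem count_T1 (hns : ∀ r : F, r ^ 2 ≠ -1) : Set.ncard {y : SL2 | tr (jj F * y) = 0} = Nat.card F * (Nat.card F - 1) := by
  rw [← count_T0 hns, ← Nat.card_coe_set_eq, ← Nat.card_coe_set_eq]
  exact Nat.card_congr ((Equiv.mulLeft (jj F)).subtypeEquiv (fun y => Iff.rfl))

theorem jj_no_root (hns : ∀ r : F, r ^ 2 ≠ -1) (c : F) : c ^ 2 - tr (jj F) * c + 1 ≠ 0 := by
  rw [tr_jj]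
  intro h
  exact hns c (by linear_combination h)

theorem count_C (hns : ∀ r : F, r ^ 2 ≠ -1) : Set.ncard {y : SL2 | jj F * y = y * jj F} = Nat.card F + 1 := by
  rw [← (centralizer_of_no_root (jj_no_root hns)).2, ← Nat.card_coe_set_eq]
  apply Nat.card_congr
  refine Equiv.subtypeEquivRight (fun y => ?_)
  rw [mem_centralizer_singleton_iff, eq_comm]; rfl

theorem inv_iff (y : SL2) : y * jj F * y⁻¹ = (jj F)⁻¹ ↔ (tr y = 0 ∧ tr (jj F * y) = 0) := by
  constructor
  · intro h
    refine ⟨tr_zero_of_inverts jj_h4 h, tr_zero_of_inverts jj_h4 ?_⟩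
    calc (jj F * y) * jj F * (jj F * y)⁻¹ = jj F * (y * jj F * y⁻¹) * (jj F)⁻¹ := by group
      _ = (jj F)⁻¹ := by rw [h]; group
  · rintro ⟨h, h'⟩
    exact conj_eq_inv_of_tr h h'

theorem C_entries {y : SL2} (h : jj F * y = y * jj F) : (y : M2) 1 1 = (y : M2) 0 0 ∧ (y : M2) 1 0 = -(y : M2) 0 1 ∧
    (y : M2) 0 0 ^ 2 + (y : M2) 0 1 ^ 2 = 1 := by
  have h1 := congrArg (fun A : SL2 => (A : M2) 0 0) h
  have h2 := congrArg (fun A : SL2 => (A : M2) 1 0) h
  rw [(jj_mul y).1, (mul_jj y).1] at h1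
  rw [(jj_mul y).2.2.1, (mul_jj y).2.2.1] at h2
  have hd := det2 y
  have h3 : (y : M2) 1 1 = (y : M2) 0 0 := h2.symm
  have h4 : (y : M2) 1 0 = -(y : M2) 0 1 := by linear_combination -h1
  refine ⟨h3, h4, ?_⟩
  rw [h3, h4] at hd
  linear_combination hd

theorem count_I (hns : ∀ r : F, r ^ 2 ≠ -1) :
    Set.ncard ({y : SL2 | tr y = 0} ∩ {y : SL2 | tr (jj F * y) = 0}) = Nat.card F + 1 := by
  have hN := card_normalizer' (A := jj F) jj_h4
  rw [(centralizer_of_no_root (jj_no_root hns)).2] at hN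
  have hset : (normalizer ((centralizer ({jj F} : Set SL2) : Subgroup SL2) : Set SL2) : Set SL2) =
      {y : SL2 | jj F * y = y * jj F} ∪ ({y : SL2 | tr y = 0} ∩ {y : SL2 | tr (jj F * y) = 0}) := by
    ext y
    rw [SetLike.mem_coe, mem_normalizer_centralizer_iff jj_h4, inv_iff]
    show _ ↔ (jj F * y = y * jj F ∨ (tr y = 0 ∧ tr (jj F * y) = 0))
    rw [mul_inv_eq_iff_eq_mul, eq_comm (a := y * jj F)]
  have h1 : Nat.card (normalizer ((centralizer ({jj F} : Set SL2) : Subgroup SL2) : Set SL2)) =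
      Set.ncard (normalizer ((centralizer ({jj F} : Set SL2) : Subgroup SL2) : Set SL2) : Set SL2) := rfl
  rw [h1, hset, Set.ncard_union_eq, count_C hns] at hN
  · omega
  · rw [Set.disjoint_left]
    rintro y h2 ⟨h3, h4⟩
    obtain ⟨e1, e2, e3⟩ := C_entries (show jj F * y = y * jj F from h2)
    have h3' : tr y = 0 := h3
    have h4' : tr (jj F * y) = 0 := h4
    rw [tr_def, e1] at h3'
    rw [tr_jj_mul, e2] at h4'
    have ha : (y : M2) 0 0 = 0 := by
      have : (2 : F) * (y : M2) 0 0 = 0 := by linear_combination h3'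
      exact (mul_eq_zero.mp this).resolve_left two_ne
    have hb : (y : M2) 0 1 = 0 := by
      have : (2 : F) * (y : M2) 0 1 = 0 := by linear_combination h4'
      exact (mul_eq_zero.mp this).resolve_left two_ne
    rw [ha, hb] at e3
    simp at e3

theorem count_four : Set.ncard (({y : SL2 | tr y = 0} ∪ {y : SL2 | tr (jj F * y) = 0}) ∩ {y : SL2 | jj F * y = y * jj F}) = 4 := by
  have j00 : ((jj F : SL2) : M2) 0 0 = 0 := by simp [jj]
  have j01 : ((jj F : SL2) : M2) 0 1 = -1 := by simp [jj]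
  have j10 : ((jj F : SL2) : M2) 1 0 = 1 := by simp [jj]
  have j11 : ((jj F : SL2) : M2) 1 1 = 0 := by simp [jj]
  have hset : ({y : SL2 | tr y = 0} ∪ {y : SL2 | tr (jj F * y) = 0}) ∩ {y : SL2 | jj F * y = y * jj F} =
      {1, -1, jj F, -jj F} := by
    ext y
    constructor
    · rintro ⟨h, h'⟩
      obtain ⟨e1, e2, e3⟩ := C_entries (show jj F * y = y * jj F from h')
      rcases h with h | h
      · have h3' : tr y = 0 := h
        rw [tr_def, e1] at h3'
        have ha : (y : M2) 0 0 = 0 := by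
          have : (2 : F) * (y : M2) 0 0 = 0 := by linear_combination h3'
          exact (mul_eq_zero.mp this).resolve_left two_ne
        rw [ha] at e3
        have hb : ((y : M2) 0 1 - 1) * ((y : M2) 0 1 + 1) = 0 := by linear_combination e3
        rcases mul_eq_zero.mp hb with hb | hb
        · right; right; right
          show y = -jj F
          have hb1 : (y : M2) 0 1 = 1 := by linear_combination hb
          apply ext2 <;> rw [Matrix.SpecialLinearGroup.coe_neg, Matrix.neg_apply]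
          · rw [j00, ha, neg_zero]
          · rw [j01, hb1, neg_neg]
          · rw [j10, e2, hb1]
          · rw [j11, e1, ha, neg_zero]
        · right; right; left
          show y = jj F
          have hb1 : (y : M2) 0 1 = -1 := by linear_combination hb
          apply ext2
          · rw [j00, ha]
          · rw [j01, hb1]
          · rw [j10, e2, hb1, neg_neg]
          · rw [j11, e1, ha]
      · have h4' : tr (jj F * y) = 0 := h
        rw [tr_jj_mul, e2] at h4'
        have hb : (y : M2) 0 1 = 0 := by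
          have : (2 : F) * (y : M2) 0 1 = 0 := by linear_combination h4'
          exact (mul_eq_zero.mp this).resolve_left two_ne
        rw [hb] at e3
        have ha : ((y : M2) 0 0 - 1) * ((y : M2) 0 0 + 1) = 0 := by linear_combination e3
        rcases mul_eq_zero.mp ha with ha | ha
        · left
          show y = 1
          have ha1 : (y : M2) 0 0 = 1 := by linear_combination ha
          apply ext2
          · rw [ha1]; simp
          · rw [hb]; simp
          · rw [e2, hb]; simp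
          · rw [e1, ha1]; simp
        · right; left
          show y = -1
          have ha1 : (y : M2) 0 0 = -1 := by linear_combination ha
          apply ext2
          · rw [ha1]; simp
          · rw [hb]; simp
          · rw [e2, hb]; simp
          · rw [e1, ha1]; simp
    · rintro (rfl | rfl | rfl | rfl)
      · refine ⟨Or.inr ?_, by show _ = _; simp⟩
        show tr (jj F * 1) = 0
        rw [mul_one, tr_jj]
      · refine ⟨Or.inr ?_, by show _ = _; simp⟩
        show tr (jj F * -1) = 0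
        rw [mul_neg, mul_one, tr_neg, tr_jj, neg_zero]
      · exact ⟨Or.inl tr_jj, rfl⟩
      · refine ⟨Or.inl ?_, by show _ = _; simp⟩
        show tr (-jj F) = 0
        rw [tr_neg, tr_jj, neg_zero]
  have n1 : (1 : F) ≠ -1 := by
    intro h
    have h2 : (2 : F) = 0 := by linear_combination h
    exact two_ne h2
  have m1 : (1 : SL2) ≠ -1 := fun h => n1 (by have := congrArg (fun A : SL2 => (A : M2) 0 0) h; simpa using this)
  have m2 : (1 : SL2) ≠ jj F := fun h => by
    have := congrArg (fun A : SL2 => (A : M2) 0 0) h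
    rw [j00] at this; simp at this
  have m3 : (1 : SL2) ≠ -jj F := fun h => by
    have := congrArg (fun A : SL2 => (A : M2) 0 0) h
    rw [Matrix.SpecialLinearGroup.coe_neg, Matrix.neg_apply, j00] at this; simp at this
  have m4 : (-1 : SL2) ≠ jj F := fun h => by
    have := congrArg (fun A : SL2 => (A : M2) 0 0) h
    rw [j00] at this; simp at this
  have m5 : (-1 : SL2) ≠ -jj F := fun h => m2 (neg_injective h)
  have m6 : jj F ≠ -jj F := fun h => by
    have := congrArg (fun A : SL2 => (A : M2) 1 0) h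
    rw [Matrix.SpecialLinearGroup.coe_neg, Matrix.neg_apply, j10] at this
    exact n1 this
  rw [hset, Set.ncard_insert_of_notMem, Set.ncard_insert_of_notMem, Set.ncard_pair m6]
  · rintro (h | h)
    · exact m4 h
    · exact m5 h
  · rintro (h | h | h)
    · exact m1 h
    · exact m2 h
    · exact m3 h

theorem count_Q (hns : ∀ r : F, r ^ 2 ≠ -1) :
    Set.ncard {y : SL2 | (tr y = 1 ∨ tr y = -1) ∧ (tr (jj F * y) = 1 ∨ tr (jj F * y) = -1)} = 4 * (Nat.card F + 1) := by
  have h3 : (3 : F) = 0 := CharP.cast_eq_zero F 3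
  have n1 : (1 : F) ≠ -1 := by
    intro h
    have h2 : (2 : F) = 0 := by linear_combination h
    exact two_ne h2
  have c1 : Nat.card {c : F // c = 1 ∨ c = -1} = 2 := by
    have : Nat.card {c : F // c = 1 ∨ c = -1} = Set.ncard ({1, -1} : Set F) := rfl
    rw [this, Set.ncard_pair n1]
  have cc : Nat.card {p : F × F // p.1 ^ 2 + p.2 ^ 2 = 1} = Nat.card F + 1 := by
    rw [← count_C hns, ← Nat.card_coe_set_eq]
    symm
    apply Nat.card_congr
    exact
      { toFun := fun y => ⟨(((y : SL2) : M2) 0 0, ((y : SL2) : M2) 0 1), (C_entries y.2).2.2⟩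
        invFun := fun p => ⟨mkS p.1.1 p.1.2 (-p.1.2) p.1.1 (by linear_combination p.2), by
          obtain ⟨m0, m1, m2, m3⟩ := mkS_ent p.1.1 p.1.2 (-p.1.2) p.1.1 (by linear_combination p.2)
          generalize mkS p.1.1 p.1.2 (-p.1.2) p.1.1 (by linear_combination p.2) = A at m0 m1 m2 m3
          show jj F * A = A * jj F
          apply ext2
          · rw [(jj_mul _).1, (mul_jj _).1, m1, m2, neg_neg]
          · rw [(jj_mul _).2.1, (mul_jj _).2.1, m0, m3]
          · rw [(jj_mul _).2.2.1, (mul_jj _).2.2.1, m0, m3]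
          · rw [(jj_mul _).2.2.2, (mul_jj _).2.2.2, m1, m2, neg_neg]⟩
        left_inv := by
          intro y
          apply Subtype.ext
          obtain ⟨e1, e2, e3⟩ := C_entries y.2
          apply ext2
          · rfl
          · rfl
          · exact e2.symm
          · exact e1.symm
        right_inv := by
          rintro ⟨⟨a, b⟩, h⟩
          rfl }
  have e : {y : SL2 | (tr y = 1 ∨ tr y = -1) ∧ (tr (jj F * y) = 1 ∨ tr (jj F * y) = -1)} ≃
      {p : F × F // p.1 ^ 2 + p.2 ^ 2 = 1} × {c : F // c = 1 ∨ c = -1} × {c : F // c = 1 ∨ c = -1} :=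
    { toFun := fun y => (⟨(((y : SL2) : M2) 0 0 + tr (y : SL2), ((y : SL2) : M2) 0 1 + tr (jj F * (y : SL2))), by
          have hd := det2 (y : SL2)
          have h1 : tr (y : SL2) ^ 2 = 1 := by rcases y.2.1 with h | h <;> rw [h] <;> ring
          have h2 : tr (jj F * (y : SL2)) ^ 2 = 1 := by rcases y.2.2 with h | h <;> rw [h] <;> ring
          have h4 : ((y : SL2) : M2) 1 1 = tr (y : SL2) - ((y : SL2) : M2) 0 0 := by rw [tr_def]; ring
          have h5 : ((y : SL2) : M2) 1 0 = ((y : SL2) : M2) 0 1 - tr (jj F * (y : SL2)) := by rw [tr_jj_mul]; ring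
          rw [h4, h5] at hd
          show (((y : SL2) : M2) 0 0 + tr (y : SL2)) ^ 2 + (((y : SL2) : M2) 0 1 + tr (jj F * (y : SL2))) ^ 2 = 1
          linear_combination -hd + h1 + h2 + (((y : SL2) : M2) 0 0 * tr (y : SL2) + ((y : SL2) : M2) 0 1 * tr (jj F * (y : SL2))) * h3⟩,
        ⟨tr (y : SL2), y.2.1⟩, ⟨tr (jj F * (y : SL2)), y.2.2⟩)
      invFun := fun p => ⟨mkS (p.1.1.1 - p.2.1.1) (p.1.1.2 - p.2.2.1) (p.1.1.2 + p.2.2.1) (-p.2.1.1 - p.1.1.1) (by
            have hp := p.1.2
            have h1 : p.2.1.1 ^ 2 = 1 := by rcases p.2.1.2 with h | h <;> rw [h] <;> ring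
            have h2 : p.2.2.1 ^ 2 = 1 := by rcases p.2.2.2 with h | h <;> rw [h] <;> ring
            linear_combination -hp + h1 + h2), by
          refine ⟨?_, ?_⟩
          · rw [tr_def, (mkS_ent _ _ _ _ _).1, (mkS_ent _ _ _ _ _).2.2.2]
            have : p.1.1.1 - p.2.1.1 + (-p.2.1.1 - p.1.1.1) = p.2.1.1 := by linear_combination -p.2.1.1 * h3
            rw [this]; exact p.2.1.2
          · rw [tr_jj_mul, (mkS_ent _ _ _ _ _).2.1, (mkS_ent _ _ _ _ _).2.2.1]
            have : p.1.1.2 - p.2.2.1 - (p.1.1.2 + p.2.2.1) = p.2.2.1 := by linear_combination -p.2.2.1 * h3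
            rw [this]; exact p.2.2.2⟩
      left_inv := by
        intro y
        apply Subtype.ext
        have h4 : ((y : SL2) : M2) 1 1 = tr (y : SL2) - ((y : SL2) : M2) 0 0 := by rw [tr_def]; ring
        have h5 : ((y : SL2) : M2) 1 0 = ((y : SL2) : M2) 0 1 - tr (jj F * (y : SL2)) := by rw [tr_jj_mul]; ring
        apply ext2
        · show ((y : SL2) : M2) 0 0 + tr (y : SL2) - tr (y : SL2) = _; ring
        · show ((y : SL2) : M2) 0 1 + tr (jj F * (y : SL2)) - tr (jj F * (y : SL2)) = _; ring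
        · show ((y : SL2) : M2) 0 1 + tr (jj F * (y : SL2)) + tr (jj F * (y : SL2)) = _
          rw [h5]
          linear_combination tr (jj F * (y : SL2)) * h3
        · show -tr (y : SL2) - (((y : SL2) : M2) 0 0 + tr (y : SL2)) = _
          rw [h4]
          linear_combination -tr (y : SL2) * h3
      right_inv := by
        rintro ⟨⟨⟨a, b⟩, h⟩, ⟨c, hc⟩, ⟨d, hd⟩⟩
        refine Prod.ext (Subtype.ext (Prod.ext ?_ ?_)) (Prod.ext (Subtype.ext ?_) (Subtype.ext ?_))
        · show (a - c) + ((a - c) + (-c - a)) = a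
          linear_combination -c * h3
        · show (b - d) + tr (jj F * _) = b
          rw [tr_jj_mul]
          show (b - d) + (b - d - (b + d)) = b
          linear_combination -d * h3
        · show (a - c) + (-c - a) = c
          linear_combination -c * h3
        · show tr (jj F * _) = d
          rw [tr_jj_mul]
          show b - d - (b + d) = d
          linear_combination -d * h3 }
  rw [← Nat.card_coe_set_eq, Nat.card_congr e, Nat.card_prod, Nat.card_prod, c1, cc]
  ring

theorem count3_i (hns : ∀ r : F, r ^ 2 ≠ -1) {x : SL2} (ht : tr x = 0) :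
    Nat.card {y : SL2 // Group.IsSolvable (closure ({x, y} : Set SL2))} = 2 * (Nat.card F * (Nat.card F + 1)) := by
  have h3 : (3 : F) = 0 := CharP.cast_eq_zero F 3
  obtain ⟨g, hg⟩ := exists_glConj (A := x) (B := jj F) (not_center_of_tr_zero two_ne ht)
    (not_center_of_tr_zero two_ne tr_jj) (by rw [ht, tr_jj])
  rw [← card_map (glEquiv g) x, glEquiv_apply, hg]
  simp only [iff_jj hns]
  have e2 : Nat.card {y : SL2 // ((tr y = 0 ∨ tr (jj F * y) = 0) ∨ jj F * y = y * jj F) ∨
      ((tr y = 1 ∨ tr y = -1) ∧ (tr (jj F * y) = 1 ∨ tr (jj F * y) = -1))} =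
      Set.ncard ((({y : SL2 | tr y = 0} ∪ {y : SL2 | tr (jj F * y) = 0}) ∪ {y : SL2 | jj F * y = y * jj F}) ∪
        {y : SL2 | (tr y = 1 ∨ tr y = -1) ∧ (tr (jj F * y) = 1 ∨ tr (jj F * y) = -1)}) := rfl
  have h1 := Set.ncard_union_add_ncard_inter {y : SL2 | tr y = 0} {y : SL2 | tr (jj F * y) = 0}
  have h2 := Set.ncard_union_add_ncard_inter ({y : SL2 | tr y = 0} ∪ {y : SL2 | tr (jj F * y) = 0}) {y : SL2 | jj F * y = y * jj F}
  rw [count_T0 hns, count_T1 hns, count_I hns] at h1
  rw [count_four, count_C hns] at h2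
  rw [e2, Set.ncard_union_eq, count_Q hns]
  · have h5 : 2 ≤ Nat.card F := Finite.one_lt_card
    obtain ⟨k, hk⟩ := Nat.exists_eq_add_of_le h5
    rw [hk] at h1 h2 ⊢
    have h6 : 2 + k - 1 = k + 1 := by omega
    rw [h6] at h1
    nlinarith
  · rw [Set.disjoint_left]
    rintro y ((h4 | h4) | h4) ⟨h5, h6⟩
    · have h4' : tr y = 0 := h4
      rw [h4'] at h5
      rcases h5 with h5 | h5
      · exact zero_ne_one h5
      · exact one_ne_zero (by linear_combination h5 : (1 : F) = 0)
    · have h4' : tr (jj F * y) = 0 := h4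
      rw [h4'] at h6
      rcases h6 with h5 | h5
      · exact zero_ne_one h5
      · exact one_ne_zero (by linear_combination h5 : (1 : F) = 0)
    · obtain ⟨e1, e2, e3⟩ := C_entries (show jj F * y = y * jj F from h4)
      rw [tr_def, e1] at h5
      rw [tr_jj_mul, e2] at h6
      have h7 : ((y : M2) 0 0 + (y : M2) 0 0) ^ 2 = 1 := by rcases h5 with h | h <;> rw [h] <;> ring
      have h8 : ((y : M2) 0 1 - -(y : M2) 0 1) ^ 2 = 1 := by rcases h6 with h | h <;> rw [h] <;> ring
      have h9 : (2 : F) = 0 := by linear_combination h7 + h8 - 4 * e3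
      exact two_ne h9

end CountJ

end Cfsg.Agent.Lib.Solubil
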