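import Mathlib
import Cfsg.Agent.Lib.SolubE

/-!
# Solubilizers in PSL(2,3^p): the statement (helper51)
-/

set_option autoImplicit false

namespace Cfsg.Agent.Lib.Solubil

open Subgroup
open Matrix Cfsg.Agent.Lib.SL2Basic Cfsg.Agent.Lib.SL2Tori Cfsg.Agent.Lib.SL2Int

variable {F : Type*} [Field F]

local notation "SL2" => Matrix.SpecialLinearGroup (Fin 2) F
local notation "M2" => Matrix (Fin 2) (Fin 2) F

theorem tr_zero_of_sq {X : SL2} (hX : X ∉ center SL2) (h : PP F X ^ 2 = 1) : tr X = 0 := by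
  rw [← map_pow, PP_one, mem_center_iff'] at h
  have h3 : ∃ c : F, ((X ^ 2 : SL2) : M2) = c • (1 : M2) := by
    rcases h with hh | hh
    · exact ⟨1, by rw [hh]; simp⟩
    · exact ⟨-1, by rw [hh]; simp⟩
  obtain ⟨c, hc⟩ := h3
  rw [pow_two, Matrix.SpecialLinearGroup.coe_mul, sq_eq] at hc
  by_contra hne
  apply hX
  have e01 := congrFun (congrFun hc 0) 1
  have e10 := congrFun (congrFun hc 1) 0
  have e00 := congrFun (congrFun hc 0) 0
  have e11 := congrFun (congrFun hc 1) 1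
  simp at e01 e10 e00 e11
  rw [mem_center_iff_entries]
  refine ⟨e01.resolve_left hne, e10.resolve_left hne, ?_⟩
  have : tr X * ((X : M2) 0 0 - (X : M2) 1 1) = 0 := by linear_combination e00 - e11
  exact sub_eq_zero.mp ((mul_eq_zero.mp this).resolve_left hne)

theorem sq_of_tr_zero {X : SL2} (h : tr X = 0) : PP F X ^ 2 = 1 := by
  rw [← map_pow, pow_two, sq_neg_one h, PP_neg, map_one]

theorem main3 (p : ℕ) (hp : p.Prime) (hodd : Odd p) [Fintype F]
    (hF : Fintype.card F = 3 ^ p) (x : Matrix.ProjectiveSpecialLinearGroup (Fin 2) F) :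
    (orderOf x = 2 → Nat.card {y : Matrix.ProjectiveSpecialLinearGroup (Fin 2) F // Group.IsSolvable ↥(Subgroup.closure ({x, y} : Set (Matrix.ProjectiveSpecialLinearGroup (Fin 2) F)))} = 3 ^ p * (3 ^ p + 1)) ∧
    (orderOf x = 3 → 2 * Nat.card {y : Matrix.ProjectiveSpecialLinearGroup (Fin 2) F // Group.IsSolvable ↥(Subgroup.closure ({x, y} : Set (Matrix.ProjectiveSpecialLinearGroup (Fin 2) F)))} = 3 ^ p * (3 ^ p + 5)) ∧
    (x ≠ 1 → orderOf x ≠ 2 → orderOf x ∣ 3 ^ p - 1 → Nat.card {y : Matrix.ProjectiveSpecialLinearGroup (Fin 2) F // Group.IsSolvable ↥(Subgroup.closure ({x, y} : Set (Matrix.ProjectiveSpecialLinearGroup (Fin 2) F)))} = 3 ^ p * (3 ^ p - 1)) ∧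
    (x ≠ 1 → orderOf x ≠ 2 → orderOf x ∣ 3 ^ p + 1 → Nat.card {y : Matrix.ProjectiveSpecialLinearGroup (Fin 2) F // Group.IsSolvable ↥(Subgroup.closure ({x, y} : Set (Matrix.ProjectiveSpecialLinearGroup (Fin 2) F)))} = 3 ^ p + 1) := by
  classical
  have hcard : Nat.card F = 3 ^ p := by rw [Nat.card_eq_fintype_card, hF]
  have hp1 : 1 ≤ p := hp.one_lt.le
  have hC3 : CharP F 3 := by
    obtain ⟨r, hr⟩ := CharP.exists F
    have := Fact.mk (CharP.char_is_prime F r)
    obtain ⟨n, hpn, hn⟩ := FiniteField.card F r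
    have h1 : r ∣ 3 ^ p := by
      rw [← hF, hn]; exact dvd_pow_self r n.ne_zero
    have h2 : r = 3 := (Nat.prime_dvd_prime_iff_eq hpn Nat.prime_three).mp (hpn.dvd_of_dvd_pow h1)
    rw [← h2]; exact hr
  have h3 : (3 : F) = 0 := CharP.cast_eq_zero F 3
  have hthree : 3 ∣ 3 ^ p := dvd_pow_self 3 (by omega)
  have hpos : 1 ≤ 3 ^ p := Nat.one_le_pow _ _ (by norm_num)
  have hns : ∀ r : F, r ^ 2 ≠ -1 := by
    intro r hr
    have h1 : IsSquare (-1 : F) := ⟨r, by rw [← hr, pow_two]⟩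
    rw [FiniteField.isSquare_neg_one_iff, hF] at h1
    apply h1
    obtain ⟨m, rfl⟩ := hodd
    rw [pow_succ, pow_mul, Nat.mul_mod, Nat.pow_mod]
    norm_num
  obtain ⟨X, rfl⟩ := PP_surj x
  have hkey := card_sol (F := F) two_ne X
  have hXc : PP F X ≠ 1 → X ∉ center SL2 := fun h => by rwa [← PP_one]
  have hord2 : ∀ Y : SL2, tr Y = 0 → PP F Y ≠ 1 → orderOf (PP F Y) = 2 := by
    intro Y h h'
    exact orderOf_eq_prime_iff.mpr ⟨sq_of_tr_zero h, h'⟩
  have hco : ∀ n, n ∣ 3 ^ p - 1 → n ∣ 3 ^ p + 1 → n = 1 ∨ n = 2 := by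
    intro n h3 h4
    have h5 : n ∣ 2 := by
      have := Nat.dvd_sub h4 h3
      have h6 : 3 ^ p + 1 - (3 ^ p - 1) = 2 := by omega
      rwa [h6] at this
    exact (Nat.dvd_prime Nat.prime_two).mp h5
  have hF3 : Fact (Nat.Prime 3) := ⟨Nat.prime_three⟩
  -- elements with trace squared four have order dividing three
  have hcube : tr X ^ 2 = 4 → PP F X ^ 3 = 1 := by
    intro h
    rcases pow_char_of_tr_sq (p := 3) h with h' | h'
    · rw [← map_pow, h', map_one]
    · rw [← map_pow, h', PP_neg, map_one]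
  refine ⟨?_, ?_, ?_, ?_⟩
  · intro h
    obtain ⟨h1, h2⟩ := orderOf_eq_prime_iff.mp h
    have ht := tr_zero_of_sq (hXc h2) h1
    rw [count3_i hns ht, hcard] at hkey
    omega
  · intro h
    obtain ⟨h1, h2⟩ := orderOf_eq_prime_iff.mp h
    have hXc' := hXc h2
    have ht : TT X := TT_of_cube h1
    have hne0 : tr X ≠ 0 := by
      intro h0
      rw [hord2 X h0 h2] at h
      omega
    have hfin : ∀ Y : SL2, PP F Y = PP F X → Y ∉ center SL2 → tr Y = 2 →
        2 * Nat.card {y : Matrix.ProjectiveSpecialLinearGroup (Fin 2) F // Group.IsSolvable ↥(Subgroup.closure ({PP F X, y} : Set (Matrix.ProjectiveSpecialLinearGroup (Fin 2) F)))} = 3 ^ p * (3 ^ p + 5) := by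
      intro Y hY hYc hYt
      rw [← hY, card_sol two_ne Y, count3_a hns hYc hYt, hcard]
      obtain ⟨k, hk⟩ := Nat.exists_eq_add_of_le hpos
      rw [hk, Nat.add_sub_cancel_left]
      ring
    rcases ht with ht | ht | ht
    · exact absurd ht hne0
    · refine hfin (-X) (PP_neg X) ?_ (by rw [tr_neg, ht]; linear_combination -h3)
      rw [← PP_one, PP_neg, PP_one]; exact hXc'
    · exact hfin X rfl hXc' (by rw [ht]; linear_combination -h3)
  · intro h1 h2 h4
    have hXc' := hXc h1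
    have hne0 : tr X ≠ 0 := fun h0 => h2 (hord2 X h0 h1)
    have hne4 : tr X ^ 2 ≠ 4 := by
      intro h5
      have h6 := orderOf_eq_prime (hcube h5) h1
      rw [h6] at h4
      omega
    have hroot : ∃ c : F, c ^ 2 - tr X * c + 1 = 0 := by
      by_contra hcon
      push Not at hcon
      have h5 := pow_card_add_one_of_no_root X hcon
      rw [hF] at h5
      have h6 : orderOf (PP F X) ∣ 3 ^ p + 1 := by
        apply orderOf_dvd_of_pow_eq_one
        rw [← map_pow, h5, map_one]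
      rcases hco _ h4 h6 with h7 | h7
      · exact h1 (orderOf_eq_one_iff.mp h7)
      · exact h2 h7
    obtain ⟨c, hc⟩ := hroot
    rw [count3_b hns hne0 hne4 hc, hcard] at hkey
    omega
  · intro h1 h2 h4
    have hXc' := hXc h1
    have hne0 : tr X ≠ 0 := fun h0 => h2 (hord2 X h0 h1)
    have hne4 : tr X ^ 2 ≠ 4 := by
      intro h5
      have h6 := orderOf_eq_prime (hcube h5) h1
      rw [h6] at h4
      omega
    have hroot : ∀ c : F, c ^ 2 - tr X * c + 1 ≠ 0 := by
      intro c hc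
      have h5 := pow_card_sub_one_of_root (A := X) hne4 hc
      rw [hF] at h5
      have h6 : orderOf (PP F X) ∣ 3 ^ p - 1 := by
        apply orderOf_dvd_of_pow_eq_one
        rw [← map_pow, h5, map_one]
      rcases hco _ h6 h4 with h7 | h7
      · exact h1 (orderOf_eq_one_iff.mp h7)
      · exact h2 h7
    rw [count3_c hns hne0 hroot, hcard] at hkey
    omega

end Cfsg.Agent.Lib.Solubil
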