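import Mathlib

/-!
Isotropic planes moved off themselves by an isometry of a symplectic 4-space (helper62).
-/

set_option autoImplicit false
set_option maxHeartbeats 400000

namespace Cfsg.Agent.Lib.Sp4Geo62

variable {F V : Type*} [Field F] [AddCommGroup V] [Module F V]

/-- a symplectic form together with an isometry -/
structure Iso (B : V →ₗ[F] V →ₗ[F] F) (g : V →ₗ[F] V) : Prop where
  alt : ∀ v, B v v = 0
  nd : ∀ v, (∀ w, B v w = 0) → v = 0
  iso : ∀ u v, B (g u) (g v) = B u v
  dim : Module.finrank F V = 4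

variable {B : V →ₗ[F] V →ₗ[F] F} {g : V →ₗ[F] V}

lemma Iso.sk (h : Iso B g) (u v : V) : B v u = - B u v := by
  have h1 := h.alt (u + v)
  simp only [map_add, LinearMap.add_apply, h.alt] at h1
  linear_combination h1

lemma Iso.neg (h : Iso B g) : Iso B (-g) :=
  ⟨h.alt, h.nd, fun u v => by simp [h.iso], h.dim⟩

lemma Iso.sep (h : Iso B g) {u w : V} (hw : ∀ c : F, w ≠ c • u) : ∃ v, B u v = 0 ∧ B w v ≠ 0 := by
  by_contra hcon
  push Not at hcon
  by_cases hu : ∀ v, B u v = 0
  · have h0 : w = 0 := h.nd w (fun v => hcon v (hu v))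
    exact hw 0 (by simp [h0])
  · push Not at hu
    obtain ⟨v0, hv0⟩ := hu
    have h0 : w - (B w v0 / B u v0) • u = 0 := by
      apply h.nd
      intro v
      have h1 := hcon (v - (B u v / B u v0) • v0) (by simp [hv0])
      simp only [map_sub, map_smul, smul_eq_mul, LinearMap.sub_apply, LinearMap.smul_apply] at h1 ⊢
      have h2 : B w v0 / B u v0 * B u v = B u v / B u v0 * B w v0 := by ring
      rw [h2]; exact h1
    exact hw _ (sub_eq_zero.1 h0)

/-- completion of a hyperbolic pair -/
structure Frame (B : V →ₗ[F] V →ₗ[F] F) (u u' r s : V) : Prop where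
  ne : B u u' ≠ 0
  rs : B r s = 1
  ur : B u r = 0
  us : B u s = 0
  vr : B u' r = 0
  vs : B u' s = 0
  dec : ∀ w, w = (-(B u' w) / B u u') • u + (B u w / B u u') • u' - (B s w) • r + (B r w) • s

lemma Iso.frame (h : Iso B g) {u u' : V} (hc : B u u' ≠ 0) : ∃ r s, Frame B u u' r s := by
  classical
  have hVf : Module.Finite F V := Module.finite_of_finrank_pos (by rw [h.dim]; norm_num)
  obtain ⟨w0, hw0⟩ : ∃ w0 : V, w0 ∉ Submodule.span F ({u, u'} : Set V) := by
    by_contra hcon
    push Not at hcon
    have h1 : Submodule.span F ({u, u'} : Set V) = ⊤ := by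
      rw [Submodule.eq_top_iff']; exact hcon
    have h2 : Module.finrank F (Submodule.span F ({u, u'} : Set V)) ≤ 2 := by
      have := finrank_span_finset_le_card (R := F) ({u, u'} : Finset V)
      simp only [Finset.coe_insert, Finset.coe_singleton] at this
      exact this.trans Finset.card_le_two
    rw [h1, finrank_top, h.dim] at h2
    omega
  obtain ⟨c, hcdef⟩ : ∃ c, c = B u u' := ⟨_, rfl⟩
  have hu'u : B u' u = - c := by rw [hcdef]; exact h.sk u u'
  rw [← hcdef] at hc
  -- projection
  have hproj : ∀ w : V, B u (w - (-(B u' w) / c) • u - (B u w / c) • u') = 0 ∧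
      B u' (w - (-(B u' w) / c) • u - (B u w / c) • u') = 0 := by
    intro w
    constructor
    · simp only [map_sub, map_smul, smul_eq_mul, h.alt, ← hcdef]
      field_simp; ring
    · simp only [map_sub, map_smul, smul_eq_mul, h.alt, hu'u]
      field_simp; ring
  obtain ⟨r, hr⟩ : ∃ r, r = w0 - (-(B u' w0) / c) • u - (B u w0 / c) • u' := ⟨_, rfl⟩
  have hr0 : r ≠ 0 := by
    intro h0
    apply hw0
    have : w0 = (-(B u' w0) / c) • u + (B u w0 / c) • u' := by
      have := sub_eq_zero.1 (sub_sub w0 _ _ ▸ (hr ▸ h0))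
      exact this
    rw [this]
    exact Submodule.add_mem _ (Submodule.smul_mem _ _ (Submodule.subset_span (by simp)))
      (Submodule.smul_mem _ _ (Submodule.subset_span (by simp)))
  obtain ⟨w1, hw1⟩ : ∃ w1, B r w1 ≠ 0 := by
    by_contra hcon
    push Not at hcon
    exact hr0 (h.nd r hcon)
  obtain ⟨hur, hvr⟩ := hproj w0
  rw [← hr] at hur hvr
  have hru : B r u = 0 := by rw [h.sk u r, hur, neg_zero]
  have hrv : B r u' = 0 := by rw [h.sk u' r, hvr, neg_zero]
  obtain ⟨s, hs⟩ : ∃ s, s = (B r w1)⁻¹ • (w1 - (-(B u' w1) / c) • u - (B u w1 / c) • u') := ⟨_, rfl⟩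
  obtain ⟨h1, h2⟩ := hproj w1
  have hus : B u s = 0 := by rw [hs, map_smul, h1, smul_zero]
  have hvs : B u' s = 0 := by rw [hs, map_smul, h2, smul_zero]
  have hrs : B r s = 1 := by
    rw [hs, map_smul, map_sub, map_sub, map_smul, map_smul, hru, hrv]
    simp [hw1]
  have hsr : B s r = -1 := by rw [h.sk r s, hrs]
  have hsu : B s u = 0 := by rw [h.sk u s, hus, neg_zero]
  have hsv : B s u' = 0 := by rw [h.sk u' s, hvs, neg_zero]
  refine ⟨r, s, hcdef ▸ hc, hrs, hur, hus, hvr, hvs, ?_⟩
  rw [← hcdef]
  -- dimension argument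
  let Φ : V →ₗ[F] (Fin 4 → F) := LinearMap.pi ![B u, B u', B r, B s]
  have hΦ : ∀ w, Φ w = ![B u w, B u' w, B r w, B s w] := by
    intro w; funext i; fin_cases i <;> rfl
  have hsurj : Function.Surjective Φ := by
    intro y
    refine ⟨(-(y 1) / c) • u + (y 0 / c) • u' - (y 3) • r + (y 2) • s, ?_⟩
    rw [hΦ]
    funext i
    fin_cases i
    · simp only [Fin.zero_eta, Matrix.cons_val_zero, map_add, map_sub, map_smul, smul_eq_mul, h.alt, ← hcdef,
        hur, hus]
      field_simp; ring
    · simp only [Fin.mk_one, Matrix.cons_val_one, map_add, map_sub, map_smul, smul_eq_mul, h.alt, hu'u,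
        hvr, hvs, Matrix.cons_val_zero]
      field_simp; ring
    · simp only [Fin.reduceFinMk, Matrix.cons_val, map_add, map_sub, map_smul, smul_eq_mul, h.alt, hru, hrv, hrs]
      ring
    · simp only [Fin.reduceFinMk, Matrix.cons_val, map_add, map_sub, map_smul, smul_eq_mul, h.alt, hsu, hsv, hsr]
      ring
  have hinj : Function.Injective Φ := by
    rw [LinearMap.injective_iff_surjective_of_finrank_eq_finrank (by rw [h.dim]; simp)]
    exact hsurj
  intro w
  apply hinj
  rw [hΦ, hΦ]
  funext i
  fin_cases i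
  · simp only [Fin.zero_eta, Matrix.cons_val_zero, map_add, map_sub, map_smul, smul_eq_mul, h.alt, ← hcdef,
        hur, hus]
    field_simp; ring
  · simp only [Fin.mk_one, Matrix.cons_val_one, map_add, map_sub, map_smul, smul_eq_mul, h.alt, hu'u,
        hvr, hvs, Matrix.cons_val_zero]
    field_simp; ring
  · simp only [Fin.reduceFinMk, Matrix.cons_val, map_add, map_sub, map_smul, smul_eq_mul, h.alt, hru, hrv, hrs]
    ring
  · simp only [Fin.reduceFinMk, Matrix.cons_val, map_add, map_sub, map_smul, smul_eq_mul, h.alt, hsu, hsv, hsr]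
    ring

/-- an isotropic plane moved off itself by `g`, in triangular position -/
def Good (B : V →ₗ[F] V →ₗ[F] F) (g : V →ₗ[F] V) : Prop :=
  ∃ u v, B u v = 0 ∧ B v (g u) = 0 ∧ B u (g u) ≠ 0 ∧ B v (g v) ≠ 0

/-- an isotropic plane moved off itself by `g`, in antidiagonal position -/
def Anti (B : V →ₗ[F] V →ₗ[F] F) (g : V →ₗ[F] V) : Prop :=
  ∃ u v, B u v = 0 ∧ B u (g u) = 0 ∧ B v (g v) = 0 ∧ B u (g v) ≠ 0 ∧ B v (g u) ≠ 0

/-- an isotropic plane fixed by `g` -/
def Fixd (B : V →ₗ[F] V →ₗ[F] F) (g : V →ₗ[F] V) : Prop :=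
  ∃ u v, B u v = 0 ∧ g u = u ∧ g v = v ∧ ∀ x y : F, x • u + y • v = 0 → x = 0 ∧ y = 0

lemma Good.neg (h : Good B (-g)) : Good B g := by
  obtain ⟨u, v, h1, h2, h3, h4⟩ := h
  refine ⟨u, v, h1, ?_, ?_, ?_⟩
  · simpa using h2
  · simpa using h3
  · simpa using h4

/-- the pair `u + x1 r + x2 s`, `-u + t g u + y1 r + y2 s` -/
lemma core0 (h : Iso B g) {u r s : V} (hf : Frame B u (g u) r s) {p1 p2 b : F}
    (hr : g r = r + p1 • g u) (hs : g s = s + p2 • g u)
    (hgg : g (g u) = -u + b • g u + (p2 * B u (g u)) • r - (p1 * B u (g u)) • s)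
    {t x1 x2 y1 y2 : F} (ht : t ≠ 0) (h1 : p1 * x1 + p2 * x2 = t - 1)
    (h2 : y1 * x2 - y2 * x1 = B u (g u) * t)
    (h3 : 1 - t * b + t * t - (1 + t) * (p1 * y1 + p2 * y2) ≠ 0) : Good B g := by
  obtain ⟨c, hc⟩ : ∃ c, c = B u (g u) := ⟨_, rfl⟩
  rw [← hc] at hgg h2
  have hcne : c ≠ 0 := by rw [hc]; exact hf.ne
  have e1 : B (g u) u = -c := by rw [hc]; exact h.sk u (g u)
  have e2 : B r u = 0 := by rw [h.sk u r, hf.ur, neg_zero]
  have e3 : B s u = 0 := by rw [h.sk u s, hf.us, neg_zero]
  have e4 : B r (g u) = 0 := by rw [h.sk (g u) r, hf.vr, neg_zero]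
  have e5 : B s (g u) = 0 := by rw [h.sk (g u) s, hf.vs, neg_zero]
  have e6 : B s r = -1 := by rw [h.sk r s, hf.rs]
  refine ⟨u + x1 • r + x2 • s, -u + t • g u + y1 • r + y2 • s, ?_, ?_, ?_, ?_⟩
  · simp only [map_add, map_sub, map_neg, map_smul, LinearMap.add_apply, LinearMap.sub_apply, LinearMap.neg_apply,
      LinearMap.smul_apply, smul_eq_mul, h.alt, ← hc, e1, e2, e3, e4, e5, e6, hf.ur, hf.us, hf.vr, hf.vs, hf.rs]
    linear_combination -h2
  · simp only [map_add, map_sub, map_neg, map_smul, LinearMap.add_apply, LinearMap.sub_apply, LinearMap.neg_apply,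
      LinearMap.smul_apply, smul_eq_mul, h.alt, ← hc, e1, e2, e3, e4, e5, e6, hf.ur, hf.us, hf.vr, hf.vs, hf.rs,
      hr, hs]
    linear_combination h2 - c * h1
  · have : B (u + x1 • r + x2 • s) (g (u + x1 • r + x2 • s)) = c * t := by
      simp only [map_add, map_sub, map_neg, map_smul, LinearMap.add_apply, LinearMap.sub_apply, LinearMap.neg_apply,
        LinearMap.smul_apply, smul_eq_mul, h.alt, ← hc, e1, e2, e3, e4, e5, e6, hf.ur, hf.us, hf.vr, hf.vs, hf.rs,
        hr, hs]
      linear_combination c * h1
    rw [this]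
    exact mul_ne_zero hcne ht
  · have : B (-u + t • g u + y1 • r + y2 • s) (g (-u + t • g u + y1 • r + y2 • s)) =
        c * (1 - t * b + t * t - (1 + t) * (p1 * y1 + p2 * y2)) := by
      simp only [map_add, map_sub, map_neg, map_smul, LinearMap.add_apply, LinearMap.sub_apply, LinearMap.neg_apply,
        LinearMap.smul_apply, smul_eq_mul, h.alt, ← hc, e1, e2, e3, e4, e5, e6, hf.ur, hf.us, hf.vr, hf.vs, hf.rs,
        hr, hs, hgg]
      ring
    rw [this]
    exact mul_ne_zero hcne h3

lemma core1 [Finite F] (hq : 3 ≤ Nat.card F) (h : Iso B g) {u r s : V} (hf : Frame B u (g u) r s) {p1 p2 b : F}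
    (hr : g r = r + p1 • g u) (hs : g s = s + p2 • g u)
    (hgg : g (g u) = -u + b • g u + (p2 * B u (g u)) • r - (p1 * B u (g u)) • s) (hp1 : p1 ≠ 0) : Good B g := by
  obtain ⟨c, hc⟩ : ∃ c, c = B u (g u) := ⟨_, rfl⟩
  have hcne : c ≠ 0 := by rw [hc]; exact hf.ne
  by_cases h2 : (2 : F) = 0
  · -- characteristic two: choose t different from 0, 1
    obtain ⟨t, ht0, ht1⟩ : ∃ t : F, t ≠ 0 ∧ t ≠ 1 := by
      by_contra hcon
      push Not at hcon
      have : Nat.card F ≤ 2 := by
        classical
        have : Fintype F := Fintype.ofFinite F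
        rw [Nat.card_eq_fintype_card, ← Finset.card_univ]
        have hsub : (Finset.univ : Finset F) ⊆ {0, 1} := by
          intro x _
          by_cases hx : x = 0
          · simp [hx]
          · simp [hcon x hx]
        exact (Finset.card_le_card hsub).trans Finset.card_le_two
      omega
    have ht1' : t - 1 ≠ 0 := sub_ne_zero.2 ht1
    have ht2 : 1 + t ≠ 0 := by
      intro h0; apply ht1'
      linear_combination h0 - h2
    set y2 := - (c * t * p1) / (t - 1) with hy2
    have key : ∀ y1 : F, 1 - t * b + t * t - (1 + t) * (p1 * y1 + p2 * y2) ≠ 0 → Good B g := by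
      intro y1 hy
      refine core0 h hf hr hs hgg (t := t) (x1 := (t - 1) / p1) (x2 := 0) (y1 := y1) (y2 := y2) ht0 ?_ ?_ hy
      · field_simp; ring
      · rw [← hc, hy2]; field_simp; ring
    by_cases hy : 1 - t * b + t * t - (1 + t) * (p1 * 0 + p2 * y2) = 0
    · apply key 1
      intro h0
      have : (1 + t) * p1 = 0 := by linear_combination hy - h0
      exact (mul_ne_zero ht2 hp1) this
    · exact key 0 hy
  · -- odd characteristic: t = 1
    have key : ∀ k : F, k ≠ 0 → 1 - b + 1 + 2 * (c / k) ≠ 0 → Good B g := by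
      intro k hk hy
      refine core0 h hf hr hs hgg (t := 1) (x1 := k * p2) (x2 := - (k * p1)) (y1 := - (c / (k * p1))) (y2 := 0)
        one_ne_zero ?_ ?_ ?_
      · ring
      · rw [← hc]; field_simp; ring
      · intro h0; apply hy
        rw [← h0]; field_simp; ring
    by_cases hy : 1 - b + 1 + 2 * (c / 1) = 0
    · apply key (-1) (by simp)
      intro h0
      have h4 : 2 * 2 * c = 0 := by
        have : c / (-1) = -c := by rw [div_neg, div_one]
        rw [this] at h0
        rw [div_one] at hy
        linear_combination hy - h0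
      rcases mul_eq_zero.1 h4 with h5 | h5
      · exact h2 (by simpa using h5)
      · exact hcne h5
    · exact key 1 one_ne_zero hy

lemma Frame.swap (h : Iso B g) {u u' r s : V} (hf : Frame B u u' r s) : Frame B u u' s (-r) := by
  refine ⟨hf.ne, ?_, hf.us, ?_, hf.vs, ?_, ?_⟩
  · rw [map_neg, h.sk r s, hf.rs, neg_neg]
  · rw [map_neg, hf.ur, neg_zero]
  · rw [map_neg, hf.vr, neg_zero]
  · intro w
    refine (hf.dec w).trans ?_
    simp only [map_neg, LinearMap.neg_apply, smul_neg, neg_smul]
    abel

lemma core2 [Finite F] (hq : 3 ≤ Nat.card F) (h : Iso B g) {u r s : V} (hf : Frame B u (g u) r s) {p1 p2 : F}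
    (hr : g r = r + p1 • g u) (hs : g s = s + p2 • g u) : Good B g ∨ Fixd B g := by
  obtain ⟨c, hc⟩ : ∃ c, c = B u (g u) := ⟨_, rfl⟩
  have hcne : c ≠ 0 := by rw [hc]; exact hf.ne
  have e4 : B r (g u) = 0 := by rw [h.sk (g u) r, hf.vr, neg_zero]
  have e5 : B s (g u) = 0 := by rw [h.sk (g u) s, hf.vs, neg_zero]
  have f1 : B (g u) (g (g u)) = c := by rw [h.iso, hc]
  have f2 : B r (g (g u)) = - (p1 * c) := by
    have h1 : B (g r) (g (g u)) = 0 := by rw [h.iso, e4]
    rw [hr, map_add, map_smul, LinearMap.add_apply, LinearMap.smul_apply, f1, smul_eq_mul] at h1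
    linear_combination h1
  have f3 : B s (g (g u)) = - (p2 * c) := by
    have h1 : B (g s) (g (g u)) = 0 := by rw [h.iso, e5]
    rw [hs, map_add, map_smul, LinearMap.add_apply, LinearMap.smul_apply, f1, smul_eq_mul] at h1
    linear_combination h1
  obtain ⟨b, hb⟩ : ∃ b, b = B u (g (g u)) / c := ⟨_, rfl⟩
  have hgg : g (g u) = -u + b • g u + (p2 * B u (g u)) • r - (p1 * B u (g u)) • s := by
    have h1 := hf.dec (g (g u))
    rw [f1, f2, f3, ← hc, ← hb, neg_div, div_self hcne] at h1
    rw [← hc]
    rw [h1]
    simp only [neg_smul, one_smul]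
    abel
  by_cases hp1 : p1 = 0
  · by_cases hp2 : p2 = 0
    · subst hp1 hp2
      simp only [zero_smul, add_zero, zero_mul, sub_zero] at hr hs hgg
      by_cases hb2 : b = 2
      · right
        subst hb2
        refine ⟨g u - u, r, ?_, ?_, hr, ?_⟩
        · rw [map_sub, LinearMap.sub_apply, hf.vr, hf.ur, sub_zero]
        · rw [map_sub, hgg, two_smul]; abel
        · intro x y hxy
          have h1 := congrArg (fun w => B u w) hxy
          simp only [map_add, map_sub, map_smul, h.alt, hf.ur, smul_eq_mul, map_zero, ← hc] at h1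
          have hx : x = 0 := by
            have : x * c = 0 := by linear_combination h1
            rcases mul_eq_zero.1 this with h2 | h2
            · exact h2
            · exact absurd h2 hcne
          subst hx
          have h2 := congrArg (fun w => B s w) hxy
          simp only [map_add, map_sub, map_smul, smul_eq_mul, map_zero, zero_mul, zero_add] at h2
          rw [h.sk r s, hf.rs] at h2
          exact ⟨rfl, by linear_combination -h2⟩
      · left
        have hgg' : g (g u) = -u + b • g u + ((0:F) * B u (g u)) • r - ((0:F) * B u (g u)) • s := by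
          simp [hgg]
        refine core0 h hf (p1 := 0) (p2 := 0) (b := b) (by simp [hr]) (by simp [hs]) hgg' (t := 1) (x1 := 0) (x2 := 1)
          (y1 := c) (y2 := 0) one_ne_zero (by ring) (by rw [← hc]; ring) ?_
        intro h0
        apply hb2
        linear_combination -h0
    · left
      have hs' : g s = s + p2 • g u := hs
      have hr' : g (-r) = -r + (-p1) • g u := by rw [map_neg, hr, neg_smul]; abel
      refine core1 hq h (hf.swap h) (p1 := p2) (p2 := -p1) (b := b) hs' hr' ?_ hp2
      rw [hgg]
      simp only [smul_neg, neg_mul, neg_smul]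
      abel
  · exact Or.inl (core1 hq h hf hr hs hgg hp1)

/-- every isometry of a symplectic `4`-space over a field with at least three elements -/
theorem main [Finite F] (hq : 3 ≤ Nat.card F) (h : Iso B g) (hg1 : ∃ v, g v ≠ v) (hg2 : ∃ v, g v ≠ -v) :
    Good B g ∨ ((2 : F) ≠ 0 ∧ Anti B g) ∨ Fixd B g ∨ Fixd B (-g) := by
  by_cases hQ : ∃ u, B u (g u) ≠ 0
  · obtain ⟨u, hu⟩ := hQ
    obtain ⟨r, s, hf⟩ := h.frame hu
    by_cases h1 : B r (g r) ≠ 0
    · exact Or.inl ⟨u, r, hf.ur, by rw [h.sk (g u) r, hf.vr, neg_zero], hu, h1⟩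
    by_cases h2 : B s (g s) ≠ 0
    · exact Or.inl ⟨u, s, hf.us, by rw [h.sk (g u) s, hf.vs, neg_zero], hu, h2⟩
    push Not at h1 h2
    by_cases h3 : B r (g s) + B s (g r) ≠ 0
    · refine Or.inl ⟨u, r + s, by rw [map_add, hf.ur, hf.us, add_zero], ?_, hu, ?_⟩
      · rw [h.sk (g u), map_add, hf.vr, hf.vs, add_zero, neg_zero]
      · simp only [map_add, LinearMap.add_apply, h1, h2]
        rw [zero_add, add_zero]
        intro h0; apply h3; linear_combination h0
    push Not at h3
    obtain ⟨c, hc⟩ : ∃ c, c = B u (g u) := ⟨_, rfl⟩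
    rw [← hc] at hu
    obtain ⟨e, he⟩ : ∃ e, e = B r (g s) := ⟨_, rfl⟩
    have h4 : B s (g r) = - e := by rw [he]; linear_combination h3
    have e4 : B r (g u) = 0 := by rw [h.sk (g u) r, hf.vr, neg_zero]
    have e5 : B s (g u) = 0 := by rw [h.sk (g u) s, hf.vs, neg_zero]
    obtain ⟨p1, hr⟩ : ∃ p1, g r = e • r + p1 • g u := by
      refine ⟨B u (g r) / c, ?_⟩
      have h5 := hf.dec (g r)
      rw [h4, h1, h.iso, hf.ur, ← hc] at h5
      refine h5.trans ?_
      simp
      abel
    obtain ⟨p2, hs⟩ : ∃ p2, g s = e • s + p2 • g u := by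
      refine ⟨B u (g s) / c, ?_⟩
      have h5 := hf.dec (g s)
      rw [← he, h2, h.iso, hf.us, ← hc] at h5
      refine h5.trans ?_
      simp
      abel
    have he2 : e * e = 1 := by
      have h5 : B (g r) (g s) = 1 := by rw [h.iso, hf.rs]
      have h6 : B (e • r + p1 • g u) (e • s + p2 • g u) = e * e := by
        simp only [map_add, map_smul, LinearMap.add_apply, LinearMap.smul_apply, smul_eq_mul, hf.rs, hf.vs, e4,
          h.alt]
        ring
      rw [← hr, ← hs, h5] at h6
      exact h6.symm
    rcases mul_self_eq_one_iff.1 he2 with h5 | h5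
    · rw [h5, one_smul] at hr hs
      rcases core2 hq h hf hr hs with h6 | h6
      · exact Or.inl h6
      · exact Or.inr (Or.inr (Or.inl h6))
    · rw [h5, neg_smul, one_smul] at hr hs
      have hf' : Frame B u ((-g) u) r s := by
        refine ⟨?_, hf.rs, hf.ur, hf.us, ?_, ?_, ?_⟩
        · simpa [← hc] using hu
        · simp [hf.vr]
        · simp [hf.vs]
        · intro w
          refine (hf.dec w).trans ?_
          have a1 : -(-(B (g u) w)) / -(B u (g u)) = -(B (g u) w) / B u (g u) := by
            rw [neg_neg, div_neg, neg_div]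
          have a2 : B u w / -(B u (g u)) = - (B u w / B u (g u)) := by rw [div_neg]
          simp only [LinearMap.neg_apply, map_neg]
          rw [a1, a2, neg_smul, smul_neg, neg_neg]
      rcases core2 hq h.neg hf' (p1 := p1) (p2 := p2) (by rw [LinearMap.neg_apply, hr, LinearMap.neg_apply]; simp [add_comm])
        (by rw [LinearMap.neg_apply, hs, LinearMap.neg_apply]; simp [add_comm]) with h6 | h6
      · exact Or.inl h6.neg
      · exact Or.inr (Or.inr (Or.inr h6))
  · push Not at hQ
    have pol : ∀ u v, B u (g v) + B v (g u) = 0 := by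
      intro u v
      have h1 := hQ (u + v)
      simp only [map_add, LinearMap.add_apply, hQ] at h1
      linear_combination h1
    have hgg : ∀ u, g (g u) = u := by
      intro u
      have : g (g u) - u = 0 := by
        apply h.nd
        intro v
        have h1 := pol (g u) v
        rw [h.iso] at h1
        rw [map_sub, LinearMap.sub_apply, h.sk v (g (g u))]
        linear_combination -h1
      exact sub_eq_zero.1 this
    by_cases h2 : (2 : F) = 0
    · -- characteristic two
      right; right; left
      obtain ⟨x, hx⟩ := hg1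
      have hneg : ∀ w : V, -w = w := by
        intro w
        have : (2 : F) • w = 0 := by rw [h2, zero_smul]
        rw [two_smul] at this
        exact (eq_neg_of_add_eq_zero_left this).symm
      have he1 : g x + x ≠ 0 := by
        intro h0
        apply hx
        rw [eq_neg_of_add_eq_zero_left h0, hneg]
      obtain ⟨y, hy⟩ : ∃ y, B (g x + x) y ≠ 0 := by
        by_contra hcon
        push Not at hcon
        exact he1 (h.nd _ hcon)
      refine ⟨g x + x, g y + y, ?_, ?_, ?_, ?_⟩
      · simp only [map_add, LinearMap.add_apply, h.iso]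
        have h3 := pol x y
        have h4 := h.sk (g x) y
        linear_combination h3 - h4 + B x y * h2 + B (g x) y * h2
      · rw [map_add, hgg]; abel
      · rw [map_add, hgg]; abel
      · intro a b hab
        have h3 := pol x y
        have h4 := h.sk (g x) y
        have h5 : B x (g y + y) ≠ 0 := by
          intro h0; apply hy
          rw [map_add] at h0
          rw [map_add, LinearMap.add_apply]
          linear_combination h0 - h3 + h4
        have h6 := congrArg (fun w => B x w) hab
        simp only [map_add, map_smul, smul_eq_mul, hQ, h.alt, map_zero] at h6 h5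
        have hb : b = 0 := by
          have : b * (B x (g y) + B x y) = 0 := by linear_combination h6
          rcases mul_eq_zero.1 this with h7 | h7
          · exact h7
          · exact absurd h7 h5
        subst hb
        rw [zero_smul, add_zero] at hab
        rcases smul_eq_zero.1 hab with h7 | h7
        · exact ⟨h7, rfl⟩
        · exact absurd h7 he1
    · -- odd characteristic
      right; left
      refine ⟨h2, ?_⟩
      obtain ⟨u, hu⟩ : ∃ u, ∀ c : F, g u ≠ c • u := by
        by_contra hcon
        push Not at hcon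
        -- `g` is scalar
        have hpm : ∀ u, g u = u ∨ g u = -u := by
          intro u
          obtain ⟨c, hc⟩ := hcon u
          have h3 := hgg u
          rw [hc, map_smul, hc, smul_smul] at h3
          by_cases hu : u = 0
          · left; simp [hu]
          have h4 : (c * c - 1) • u = 0 := by rw [sub_smul, h3, one_smul, sub_self]
          rcases smul_eq_zero.1 h4 with h5 | h5
          · rcases mul_self_eq_one_iff.1 (sub_eq_zero.1 h5) with h6 | h6
            · left; rw [hc, h6, one_smul]
            · right; rw [hc, h6, neg_smul, one_smul]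
          · exact absurd h5 hu
        obtain ⟨a, ha⟩ := hg1
        obtain ⟨b, hb⟩ := hg2
        have ha' := (hpm a).resolve_left ha
        have hb' := (hpm b).resolve_right hb
        have hne2 : ∀ w : V, w = -w → w = 0 := by
          intro w hw
          have : (2 : F) • w = 0 := by rw [two_smul]; nth_rw 1 [hw]; simp
          exact (smul_eq_zero.1 this).resolve_left h2
        rcases hpm (a + b) with h3 | h3
        · rw [map_add, ha', hb'] at h3
          have h4 : a = -a := by
            have := add_right_cancel h3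
            exact this.symm
          rw [hne2 a h4] at ha
          simp at ha
        · rw [map_add, ha', hb', neg_add] at h3
          have h4 : b = -b := add_left_cancel h3
          rw [hne2 b h4] at hb
          simp at hb
      obtain ⟨v, hv1, hv2⟩ := h.sep hu
      have h3 : B (g u) v = B u (g v) := by
        have := h.iso (g u) v
        rw [hgg] at this
        exact this.symm
      rw [h3] at hv2
      refine ⟨u, v, hv1, hQ u, hQ v, hv2, ?_⟩
      intro h0
      apply hv2
      have := pol u v
      linear_combination this - h0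

end Cfsg.Agent.Lib.Sp4Geo62
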