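import Mathlib
import Cfsg.Agent.Lib.GL2Prod62
import Cfsg.Agent.Lib.Sp4Geo62

/-!
Products of two conjugates of a semisimple element of `Sp_4(q)` (helper62).
-/

set_option autoImplicit false
set_option maxHeartbeats 400000

namespace Cfsg.Agent.Lib.Sp4Sq62

open Matrix Cfsg.Agent.Lib.GL2Prod62

noncomputable section

variable {F : Type*} [Field F]

abbrev M2 (F : Type*) := Matrix (Fin 2) (Fin 2) F

abbrev M4 (F : Type*) := Matrix (Fin 2 ⊕ Fin 2) (Fin 2 ⊕ Fin 2) F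

/-- block diagonal elements -/
def dg (Y : M2 F) (hY : Y.det ≠ 0) : symplecticGroup (Fin 2) F :=
  ⟨fromBlocks Y 0 0 (Y⁻¹)ᵀ, by
    rw [SymplecticGroup.fromBlocks_mem_iff]
    refine ⟨by simp, by simp, ?_⟩
    rw [← Matrix.transpose_mul, Matrix.nonsing_inv_mul _ (isUnit_iff_ne_zero.2 hY)]
    simp⟩

/-- lower unitriangular elements -/
def lo (S : M2 F) (hS : Sᵀ = S) : symplecticGroup (Fin 2) F :=
  ⟨fromBlocks 1 0 S 1, by
    rw [SymplecticGroup.fromBlocks_mem_iff]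
    refine ⟨by simp [hS], by simp, by simp⟩⟩

/-- upper unitriangular elements -/
def up (S : M2 F) (hS : Sᵀ = S) : symplecticGroup (Fin 2) F :=
  ⟨fromBlocks 1 S 0 1, by
    rw [SymplecticGroup.fromBlocks_mem_iff]
    refine ⟨by simp, by simp [hS], by simp⟩⟩

lemma coe_dg (Y : M2 F) (hY : Y.det ≠ 0) : (dg Y hY : M4 F) = fromBlocks Y 0 0 (Y⁻¹)ᵀ := rfl
lemma coe_lo (S : M2 F) (hS : Sᵀ = S) : (lo S hS : M4 F) = fromBlocks 1 0 S 1 := rfl
lemma coe_up (S : M2 F) (hS : Sᵀ = S) : (up S hS : M4 F) = fromBlocks 1 S 0 1 := rfl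

lemma isConj_of_eq {x y h : symplecticGroup (Fin 2) F} (hh : (h : M4 F) * (x : M4 F) = (y : M4 F) * (h : M4 F)) :
    IsConj x y := by
  rw [isConj_iff]
  refine ⟨h, ?_⟩
  rw [mul_inv_eq_iff_eq_mul]
  exact Subtype.ext hh

/-- data for the element `x` -/
structure Dat (t n : F) : Prop where
  n0 : n ≠ 0
  n1 : n ≠ 1
  t0 : t ≠ 0
  irr : ∀ s : F, s * s - t * s + n ≠ 0

variable {t n : F}

lemma Dat.det (h : Dat t n) : (cmat t n).det ≠ 0 := by rw [det_cmat]; exact h.n0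

/-- the element `x` -/
def xx (h : Dat t n) : symplecticGroup (Fin 2) F := dg (cmat t n) h.det

lemma Dat.delta (h : Dat t n) : (n - 1) * ((n + 1) * (n + 1) - t * t) ≠ 0 := by
  refine mul_ne_zero (sub_ne_zero.2 h.n1) ?_
  have h1 := h.irr 1
  have h2 := h.irr (-1)
  intro h0
  have h3 : (1 * 1 - t * 1 + n) * (-1 * -1 - t * -1 + n) = 0 := by linear_combination h0
  rcases mul_eq_zero.1 h3 with h4 | h4
  · exact h1 h4
  · exact h2 h4

lemma inv_cmat (hn : n ≠ 0) : (cmat t n)⁻¹ = !![t / n, 1; -1 / n, 0] := by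
  apply Matrix.inv_eq_right_inv
  ext i j
  fin_cases i <;> fin_cases j <;> simp [cmat, Matrix.mul_apply, Fin.sum_univ_two] <;> field_simp <;> ring

lemma tr2 (a b c d : F) : (!![a, b; c, d] : M2 F)ᵀ = !![a, c; b, d] := by
  ext i j; fin_cases i <;> fin_cases j <;> rfl

/-- reality of `x` -/
lemma real (h : Dat t n) : IsConj (xx h) (xx h)⁻¹ := by
  have hn := h.n0
  rw [isConj_iff]
  let w : symplecticGroup (Fin 2) F := ⟨fromBlocks 0 !![t, -1; -1, 0] !![0, 1; 1, t] 0, by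
    rw [SymplecticGroup.fromBlocks_mem_iff]
    refine ⟨by simp, by simp, ?_⟩
    ext i j
    fin_cases i <;> fin_cases j <;> simp [Matrix.mul_apply, Fin.sum_univ_two]⟩
  refine ⟨w, ?_⟩
  rw [mul_inv_eq_iff_eq_mul, eq_inv_mul_iff_mul_eq]
  apply Subtype.ext
  show (xx h : M4 F) * ((w : M4 F) * (xx h : M4 F)) = (w : M4 F)
  show fromBlocks (cmat t n) 0 0 ((cmat t n)⁻¹)ᵀ * (fromBlocks 0 !![t, -1; -1, 0] !![0, 1; 1, t] 0 *
    fromBlocks (cmat t n) 0 0 ((cmat t n)⁻¹)ᵀ) = fromBlocks 0 !![t, -1; -1, 0] !![0, 1; 1, t] 0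
  rw [fromBlocks_multiply, fromBlocks_multiply, inv_cmat hn, tr2]
  congr 1
  · simp
  · ext i j
    fin_cases i <;> fin_cases j <;> simp [cmat, Matrix.mul_apply, Fin.sum_univ_two] <;> field_simp <;> ring
  · ext i j
    fin_cases i <;> fin_cases j <;> simp [cmat, Matrix.mul_apply, Fin.sum_univ_two] <;> field_simp <;> ring
  · simp

lemma exists_entries (S : M2 F) (hS : Sᵀ = S) : ∃ s1 s2 s3, S = !![s1, s2; s2, s3] := by
  refine ⟨S 0 0, S 0 1, S 1 1, ?_⟩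
  ext i j
  fin_cases i <;> fin_cases j
  · rfl
  · rfl
  · exact congrFun (congrFun hS 0) 1
  · rfl

/-- `lo S * x` is conjugate to `x` -/
lemma lo_mul (h : Dat t n) (S : M2 F) (hS : Sᵀ = S) : IsConj (xx h) (lo S hS * xx h) := by
  have hd := h.delta
  have hn := h.n0
  obtain ⟨s1, s2, s3, rfl⟩ := exists_entries S hS
  obtain ⟨D, hD⟩ : ∃ D, D = (n - 1) * ((n + 1) * (n + 1) - t * t) := ⟨_, rfl⟩
  rw [← hD] at hd
  -- entries of `Xᵀ S X`
  obtain ⟨r1, hr1⟩ : ∃ r, r = s3 := ⟨_, rfl⟩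
  obtain ⟨r2, hr2⟩ : ∃ r, r = -n * s2 + t * s3 := ⟨_, rfl⟩
  obtain ⟨r3, hr3⟩ : ∃ r, r = n * n * s1 - 2 * n * t * s2 + t * t * s3 := ⟨_, rfl⟩
  obtain ⟨p, hp⟩ : ∃ p, p = r2 - t * r1 := ⟨_, rfl⟩
  obtain ⟨q, hq⟩ : ∃ q, q = r3 - (t * t - 1) * r1 := ⟨_, rfl⟩
  obtain ⟨a, ha⟩ : ∃ a, a = (p * (-2 * n * t) + (n + 1) * q) / D := ⟨_, rfl⟩
  obtain ⟨b, hb⟩ : ∃ b, b = (t * q - (n * n + t * t - 1) * p) / D := ⟨_, rfl⟩
  have e1 : t * a - (n + 1) * b = p := by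
    rw [ha, hb]; field_simp; rw [hD]; ring
  have e2 : (n * n + t * t - 1) * a - 2 * n * t * b = q := by
    rw [ha, hb]; field_simp; rw [hD]; ring
  have hT : (!![a, b; b, a + r1] : M2 F)ᵀ = !![a, b; b, a + r1] := by
    ext i j; fin_cases i <;> fin_cases j <;> rfl
  have key : (cmat t n)ᵀ * !![a, b; b, a + r1] * cmat t n =
      (cmat t n)ᵀ * !![s1, s2; s2, s3] * cmat t n + !![a, b; b, a + r1] := by
    ext i j
    fin_cases i <;> fin_cases j <;> simp [cmat, Matrix.mul_apply, Fin.sum_univ_two]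
    · rw [hr1, add_comm]
    · linear_combination e1 + hp + hr2 
    · linear_combination e1 + hp + hr2
    · linear_combination e2 + hq + hr3 
  refine isConj_of_eq (h := lo _ hT) ?_
  show fromBlocks 1 0 _ 1 * fromBlocks (cmat t n) 0 0 ((cmat t n)⁻¹)ᵀ =
    fromBlocks 1 0 _ 1 * fromBlocks (cmat t n) 0 0 ((cmat t n)⁻¹)ᵀ * fromBlocks 1 0 _ 1
  rw [fromBlocks_multiply, fromBlocks_multiply, fromBlocks_multiply]
  congr 1
  · simp
  · simp
  · simp only [one_mul, zero_mul, mul_one, mul_zero, add_zero, zero_add]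
    have h1 := congrArg (fun Z => ((cmat t n)⁻¹)ᵀ * Z) key
    simp only [Matrix.mul_add, ← Matrix.mul_assoc] at h1
    rw [← Matrix.transpose_mul, Matrix.mul_nonsing_inv _ (isUnit_iff_ne_zero.2 h.det), Matrix.transpose_one,
      Matrix.one_mul, Matrix.one_mul] at h1
    exact h1
  · simp

/-- `x * up S` is conjugate to `x` -/
lemma mul_up (h : Dat t n) (S : M2 F) (hS : Sᵀ = S) : IsConj (xx h) (xx h * up S hS) := by
  have hd := h.delta
  have hn := h.n0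
  obtain ⟨s1, s2, s3, rfl⟩ := exists_entries S hS
  obtain ⟨D, hD⟩ : ∃ D, D = (n - 1) * ((n + 1) * (n + 1) - t * t) := ⟨_, rfl⟩
  rw [← hD] at hd
  -- entries of `X S Xᵀ`
  obtain ⟨r1, hr1⟩ : ∃ r, r = n * n * s3 := ⟨_, rfl⟩
  obtain ⟨r2, hr2⟩ : ∃ r, r = -n * s2 - n * t * s3 := ⟨_, rfl⟩
  obtain ⟨r3, hr3⟩ : ∃ r, r = s1 + 2 * t * s2 + t * t * s3 := ⟨_, rfl⟩
  obtain ⟨b, hb⟩ : ∃ b, b = -(r2 * (1 - n * n - t * t) - n * t * (r3 + r1)) / D := ⟨_, rfl⟩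
  obtain ⟨c, hc⟩ : ∃ c, c = -((1 + n) * (r3 + r1) + 2 * t * r2) / D := ⟨_, rfl⟩
  have e1 : (1 + n) * b + n * t * c = r2 := by
    rw [hb, hc]; field_simp; rw [hD]; ring
  have e2 : -2 * t * b + (1 - n * n - t * t) * c = r3 + r1 := by
    rw [hb, hc]; field_simp; rw [hD]; ring
  have hT : (!![r1 + n * n * c, b; b, c] : M2 F)ᵀ = !![r1 + n * n * c, b; b, c] := by
    ext i j; fin_cases i <;> fin_cases j <;> rfl
  have key : !![r1 + n * n * c, b; b, c] =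
      cmat t n * !![s1, s2; s2, s3] * (cmat t n)ᵀ + cmat t n * !![r1 + n * n * c, b; b, c] * (cmat t n)ᵀ := by
    rw [cmat, tr2]
    ext i j
    fin_cases i <;> fin_cases j <;> simp [Matrix.mul_apply, Fin.sum_univ_two]
    · linear_combination hr1
    · linear_combination e1 + hr2
    · linear_combination e1 + hr2
    · linear_combination e2 + hr3
  refine isConj_of_eq (h := up _ hT) ?_
  show fromBlocks 1 _ 0 1 * fromBlocks (cmat t n) 0 0 ((cmat t n)⁻¹)ᵀ =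
    fromBlocks (cmat t n) 0 0 ((cmat t n)⁻¹)ᵀ * fromBlocks 1 _ 0 1 * fromBlocks 1 _ 0 1
  rw [fromBlocks_multiply, fromBlocks_multiply, fromBlocks_multiply]
  congr 1
  · simp
  · simp only [one_mul, zero_mul, mul_one, mul_zero, add_zero, zero_add]
    have h1 := congrArg (fun Z => Z * ((cmat t n)⁻¹)ᵀ) key
    simp only [Matrix.add_mul, Matrix.mul_assoc] at h1
    rw [← Matrix.transpose_mul, Matrix.nonsing_inv_mul _ (isUnit_iff_ne_zero.2 h.det), Matrix.transpose_one,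
      Matrix.mul_one, Matrix.mul_one] at h1
    rw [h1, add_comm]
  · simp
  · simp

lemma not_scalar (h : Dat t n) {X : M2 F} (h1 : X.trace = t) (h2 : X.det = n) (c : F) :
    X ≠ c • (1 : M2 F) := by
  rintro rfl
  apply h.irr c
  rw [Matrix.trace_smul, Matrix.trace_one, Fintype.card_fin, smul_eq_mul] at h1
  rw [Matrix.det_smul, Matrix.det_one, Fintype.card_fin] at h2
  rw [← h1, ← h2]
  push_cast
  ring

lemma lo_comm (Y : M2 F) (hY : Y.det ≠ 0) (S : M2 F) (hS : Sᵀ = S) (hS' : (Yᵀ * S * Y)ᵀ = Yᵀ * S * Y) :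
    lo S hS * dg Y hY = dg Y hY * lo (Yᵀ * S * Y) hS' := by
  apply Subtype.ext
  show fromBlocks 1 0 S 1 * fromBlocks Y 0 0 (Y⁻¹)ᵀ = fromBlocks Y 0 0 (Y⁻¹)ᵀ * fromBlocks 1 0 (Yᵀ * S * Y) 1
  rw [fromBlocks_multiply, fromBlocks_multiply]
  congr 1
  · simp
  · simp
  · simp only [one_mul, zero_mul, mul_one, mul_zero, add_zero, zero_add]
    rw [← Matrix.mul_assoc, ← Matrix.mul_assoc, ← Matrix.transpose_mul, Matrix.mul_nonsing_inv _ (isUnit_iff_ne_zero.2 hY),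
      Matrix.transpose_one, Matrix.one_mul]
  · simp

lemma up_comm (Y : M2 F) (hY : Y.det ≠ 0) (S : M2 F) (hS : Sᵀ = S)
    (hS' : (Y⁻¹ * S * (Y⁻¹)ᵀ)ᵀ = Y⁻¹ * S * (Y⁻¹)ᵀ) :
    up S hS * dg Y hY = dg Y hY * up (Y⁻¹ * S * (Y⁻¹)ᵀ) hS' := by
  apply Subtype.ext
  show fromBlocks 1 S 0 1 * fromBlocks Y 0 0 (Y⁻¹)ᵀ = fromBlocks Y 0 0 (Y⁻¹)ᵀ * fromBlocks 1 (Y⁻¹ * S * (Y⁻¹)ᵀ) 0 1
  rw [fromBlocks_multiply, fromBlocks_multiply]
  congr 1
  · simp
  · simp only [one_mul, zero_mul, mul_one, mul_zero, add_zero, zero_add]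
    rw [← Matrix.mul_assoc, ← Matrix.mul_assoc, Matrix.mul_nonsing_inv _ (isUnit_iff_ne_zero.2 hY), Matrix.one_mul]
  · simp
  · simp

lemma dg_conj (h : Dat t n) {X : M2 F} (h1 : X.trace = t) (h2 : X.det = n) (hX : X.det ≠ 0) :
    ∃ (Y : M2 F) (hY : Y.det ≠ 0), dg X hX * dg Y hY = dg Y hY * xx h := by
  obtain ⟨Y, hY, hXY⟩ := exists_conj X (not_scalar h h1 h2)
  rw [h1, h2] at hXY
  refine ⟨Y, hY, ?_⟩
  apply Subtype.ext
  show fromBlocks X 0 0 (X⁻¹)ᵀ * fromBlocks Y 0 0 (Y⁻¹)ᵀ = fromBlocks Y 0 0 (Y⁻¹)ᵀ *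
    fromBlocks (cmat t n) 0 0 ((cmat t n)⁻¹)ᵀ
  rw [fromBlocks_multiply, fromBlocks_multiply]
  congr 1
  · simpa using hXY
  · simp
  · simp
  · simp only [zero_mul, mul_zero, add_zero, zero_add]
    rw [← Matrix.transpose_mul, ← Matrix.transpose_mul]
    congr 1
    have := congrArg (fun Z => Z⁻¹) hXY
    simpa [Matrix.mul_inv_rev] using this

lemma lo_dg (h : Dat t n) {X : M2 F} (h1 : X.trace = t) (h2 : X.det = n) (hX : X.det ≠ 0)
    (S : M2 F) (hS : Sᵀ = S) : IsConj (xx h) (lo S hS * dg X hX) := by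
  obtain ⟨Y, hY, hXY⟩ := dg_conj h h1 h2 hX
  have hS' : (Yᵀ * S * Y)ᵀ = Yᵀ * S * Y := by
    rw [Matrix.transpose_mul, Matrix.transpose_mul, Matrix.transpose_transpose, hS, Matrix.mul_assoc]
  refine (lo_mul h _ hS').trans ?_
  rw [isConj_iff]
  refine ⟨dg Y hY, ?_⟩
  rw [mul_inv_eq_iff_eq_mul, ← mul_assoc, ← lo_comm Y hY S hS hS', mul_assoc, mul_assoc, hXY]

lemma dg_up (h : Dat t n) {X : M2 F} (h1 : X.trace = t) (h2 : X.det = n) (hX : X.det ≠ 0)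
    (S : M2 F) (hS : Sᵀ = S) : IsConj (xx h) (dg X hX * up S hS) := by
  obtain ⟨Y, hY, hXY⟩ := dg_conj h h1 h2 hX
  have hS' : (Y⁻¹ * S * (Y⁻¹)ᵀ)ᵀ = Y⁻¹ * S * (Y⁻¹)ᵀ := by
    rw [Matrix.transpose_mul, Matrix.transpose_mul, Matrix.transpose_transpose, hS, Matrix.mul_assoc]
  refine (mul_up h _ hS').trans ?_
  rw [isConj_iff]
  refine ⟨dg Y hY, ?_⟩
  rw [mul_inv_eq_iff_eq_mul]
  calc dg Y hY * (xx h * Sp4Sq62.up _ hS') = (dg Y hY * xx h) * Sp4Sq62.up _ hS' :=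
        (mul_assoc (dg Y hY) (xx h) _).symm
    _ = (dg X hX * dg Y hY) * Sp4Sq62.up _ hS' := by rw [hXY]
    _ = dg X hX * (dg Y hY * Sp4Sq62.up _ hS') := mul_assoc (dg X hX) _ _
    _ = dg X hX * (Sp4Sq62.up S hS * dg Y hY) := by rw [up_comm Y hY S hS hS']
    _ = _ := (mul_assoc (dg X hX) _ _).symm

/-- product of two conjugates of `x` -/
def Pr (h : Dat t n) (g : symplecticGroup (Fin 2) F) : Prop :=
  ∃ a b, IsConj (xx h) a ∧ IsConj (xx h) b ∧ g = a * b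

lemma Pr.conj (h : Dat t n) {g k : symplecticGroup (Fin 2) F} (hg : Pr h (k⁻¹ * g * k)) : Pr h g := by
  obtain ⟨a, b, ha, hb, hab⟩ := hg
  refine ⟨k * a * k⁻¹, k * b * k⁻¹, ?_, ?_, ?_⟩
  · exact ha.trans (isConj_iff.2 ⟨k, rfl⟩)
  · exact hb.trans (isConj_iff.2 ⟨k, rfl⟩)
  · have : g = k * (k⁻¹ * g * k) * k⁻¹ := by group
    rw [this, hab]; group

lemma Pr.up (h : Dat t n) (S : M2 F) (hS : Sᵀ = S) : Pr h (up S hS) := by
  refine ⟨Sp4Sq62.up S hS * xx h, (xx h)⁻¹, ?_, real h, by group⟩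
  refine (mul_up h S hS).trans ?_
  rw [isConj_iff]
  exact ⟨Sp4Sq62.up S hS, by group⟩

lemma Pr.block [Finite F] (h : Dat t n) {A B C D : M2 F} (g : symplecticGroup (Fin 2) F)
    (hg : (g : M4 F) = fromBlocks A B C D) (hA : A.det = n * n) (hAs : ∀ c : F, A ≠ c • (1 : M2 F))
    (hT : A.trace ≠ 2 * n) : Pr h g := by
  obtain ⟨Y, hY, hAY⟩ := exists_conj A hAs
  obtain ⟨X1, X2, h1, h2, h3, h4, h5⟩ := two_prod h.n0 h.t0 hT
  have hYu : IsUnit Y.det := isUnit_iff_ne_zero.2 hY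
  have hA0 : A.det ≠ 0 := by rw [hA]; exact mul_ne_zero h.n0 h.n0
  have hAu : IsUnit A.det := isUnit_iff_ne_zero.2 hA0
  rw [hA, ← h5] at hAY
  have hAX : A = (Y * X1 * Y⁻¹) * (Y * X2 * Y⁻¹) := by
    have : A = A * Y * Y⁻¹ := by rw [Matrix.mul_assoc, Matrix.mul_nonsing_inv _ hYu, Matrix.mul_one]
    rw [this, hAY]
    simp only [Matrix.mul_assoc]
    rw [← Matrix.mul_assoc Y⁻¹ Y, Matrix.nonsing_inv_mul _ hYu, Matrix.one_mul]
  have htr : ∀ X : M2 F, (Y * X * Y⁻¹).trace = X.trace := by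
    intro X
    rw [Matrix.trace_mul_cycle, Matrix.nonsing_inv_mul _ hYu, Matrix.one_mul]
  have hde : ∀ X : M2 F, (Y * X * Y⁻¹).det = X.det := by
    intro X
    rw [Matrix.det_mul, Matrix.det_mul, mul_right_comm, ← Matrix.det_mul, Matrix.mul_nonsing_inv _ hYu,
      Matrix.det_one, one_mul]
  have hg1 := g.2
  rw [hg] at hg1
  have hg2 := SymplecticGroup.transpose_mem hg1
  rw [SymplecticGroup.fromBlocks_mem_iff] at hg1
  rw [fromBlocks_transpose, SymplecticGroup.fromBlocks_mem_iff] at hg2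
  obtain ⟨i1, i2, i3⟩ := hg1
  obtain ⟨j1, -, -⟩ := hg2
  rw [Matrix.transpose_transpose, Matrix.transpose_transpose] at j1
  have hAT : (A⁻¹)ᵀ * Aᵀ = 1 := by
    rw [← Matrix.transpose_mul, Matrix.mul_nonsing_inv _ hAu, Matrix.transpose_one]
  have hAT' : Aᵀ * (A⁻¹)ᵀ = 1 := by
    rw [← Matrix.transpose_mul, Matrix.nonsing_inv_mul _ hAu, Matrix.transpose_one]
  have hS : (C * A⁻¹)ᵀ = C * A⁻¹ := by
    rw [Matrix.transpose_mul]
    have h6 : (A⁻¹)ᵀ * (Aᵀ * C) * A⁻¹ = (A⁻¹)ᵀ * (Cᵀ * A) * A⁻¹ := by rw [i1]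
    rw [← Matrix.mul_assoc, hAT, Matrix.one_mul, ← Matrix.mul_assoc, Matrix.mul_assoc _ A,
      Matrix.mul_nonsing_inv _ hAu, Matrix.mul_one] at h6
    exact h6.symm
  have hS' : (A⁻¹ * B)ᵀ = A⁻¹ * B := by
    rw [Matrix.transpose_mul]
    have h6 : A⁻¹ * (A * Bᵀ) * (A⁻¹)ᵀ = A⁻¹ * (B * Aᵀ) * (A⁻¹)ᵀ := by rw [j1]
    rw [← Matrix.mul_assoc, Matrix.nonsing_inv_mul _ hAu, Matrix.one_mul, ← Matrix.mul_assoc,
      Matrix.mul_assoc _ Aᵀ, hAT', Matrix.mul_one] at h6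
    exact h6
  have hX1 : (Y * X1 * Y⁻¹).det ≠ 0 := by rw [hde, h2]; exact h.n0
  have hX2 : (Y * X2 * Y⁻¹).det ≠ 0 := by rw [hde, h4]; exact h.n0
  refine ⟨lo (C * A⁻¹) hS * dg _ hX1, dg _ hX2 * Sp4Sq62.up (A⁻¹ * B) hS', ?_, ?_, ?_⟩
  · exact lo_dg h (by rw [htr, h1]) (by rw [hde, h2]) _ _ _
  · exact dg_up h (by rw [htr, h3]) (by rw [hde, h4]) _ _ _
  · apply Subtype.ext
    rw [hg]
    show fromBlocks A B C D = fromBlocks 1 0 (C * A⁻¹) 1 * fromBlocks (Y * X1 * Y⁻¹) 0 0 ((Y * X1 * Y⁻¹)⁻¹)ᵀ *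
      (fromBlocks (Y * X2 * Y⁻¹) 0 0 ((Y * X2 * Y⁻¹)⁻¹)ᵀ * fromBlocks 1 (A⁻¹ * B) 0 1)
    have hmid : fromBlocks (Y * X1 * Y⁻¹) 0 0 ((Y * X1 * Y⁻¹)⁻¹)ᵀ *
        (fromBlocks (Y * X2 * Y⁻¹) 0 0 ((Y * X2 * Y⁻¹)⁻¹)ᵀ : M4 F) = fromBlocks A 0 0 (A⁻¹)ᵀ := by
      rw [fromBlocks_multiply]
      congr 1
      · rw [Matrix.mul_zero, add_zero]; exact hAX.symm
      · simp
      · simp
      · rw [Matrix.mul_zero, zero_add, ← Matrix.transpose_mul, ← Matrix.mul_inv_rev, ← hAX]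
    rw [Matrix.mul_assoc, ← Matrix.mul_assoc (fromBlocks (Y * X1 * Y⁻¹) _ _ _), hmid, fromBlocks_multiply,
      fromBlocks_multiply]
    have hD : D = C * (A⁻¹ * B) + (A⁻¹)ᵀ := by
      have h6 : (A⁻¹)ᵀ * (Aᵀ * D - Cᵀ * B) = (A⁻¹)ᵀ := by rw [i3, Matrix.mul_one]
      rw [Matrix.mul_sub, ← Matrix.mul_assoc, hAT, Matrix.one_mul, ← Matrix.mul_assoc, ← Matrix.transpose_mul,
        hS, Matrix.mul_assoc] at h6
      rw [← h6]; abel
    congr 1
    · simp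
    · simp only [one_mul, zero_mul, mul_one, mul_zero, add_zero, zero_add]
      rw [← Matrix.mul_assoc, Matrix.mul_nonsing_inv _ hAu, Matrix.one_mul]
    · simp only [one_mul, zero_mul, mul_one, mul_zero, add_zero, zero_add]
      rw [Matrix.mul_assoc, Matrix.nonsing_inv_mul _ hAu, Matrix.mul_one]
    · simp only [one_mul, zero_mul, mul_one, mul_zero, add_zero, zero_add]
      rw [hD, ← Matrix.mul_assoc A, Matrix.mul_nonsing_inv _ hAu, Matrix.one_mul, Matrix.mul_assoc]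

/-! ### Change of basis -/

abbrev M42 (F : Type*) := Matrix (Fin 2 ⊕ Fin 2) (Fin 2) F

lemma JT : (J (Fin 2) F)ᵀ = -J (Fin 2) F := J_transpose _ _

lemma conj_blocks (g k : symplecticGroup (Fin 2) F) (E G : M42 F) (hk : (k : M4 F) = fromCols E G) :
    ((k⁻¹ * g * k : symplecticGroup (Fin 2) F) : M4 F) =
      fromBlocks (Gᵀ * (J (Fin 2) F * ((g : M4 F) * E))) (Gᵀ * (J (Fin 2) F * ((g : M4 F) * G)))
        (-(Eᵀ * (J (Fin 2) F * ((g : M4 F) * E)))) (-(Eᵀ * (J (Fin 2) F * ((g : M4 F) * G)))) := by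
  show -J (Fin 2) F * (k : M4 F)ᵀ * J (Fin 2) F * (g : M4 F) * (k : M4 F) = _
  rw [hk, transpose_fromCols, Matrix.mul_assoc, Matrix.mul_assoc, Matrix.mul_assoc, mul_fromCols, mul_fromCols,
    fromRows_mul_fromCols, Matrix.J, Matrix.fromBlocks_neg, fromBlocks_multiply]
  congr 1 <;> simp

lemma mem_of_cols {E G : M42 F} (h1 : Eᵀ * (J (Fin 2) F * E) = 0) (h2 : Eᵀ * (J (Fin 2) F * G) = -1)
    (h3 : Gᵀ * (J (Fin 2) F * G) = 0) : fromCols E G ∈ symplecticGroup (Fin 2) F := by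
  have h4 : Gᵀ * (J (Fin 2) F * E) = 1 := by
    have := congrArg Matrix.transpose h2
    rw [Matrix.transpose_mul, Matrix.transpose_mul, JT, Matrix.transpose_transpose, Matrix.mul_neg,
      Matrix.neg_mul, Matrix.transpose_neg, Matrix.transpose_one, Matrix.mul_assoc] at this
    exact neg_injective this
  rw [SymplecticGroup.mem_iff', transpose_fromCols, Matrix.mul_assoc, mul_fromCols, fromRows_mul_fromCols,
    h1, h2, h3, h4]
  rfl

theorem exists_block (g : symplecticGroup (Fin 2) F) (E : M42 F) (hE : Eᵀ * (J (Fin 2) F * E) = 0) (C : M2 F)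
    (hC : C = -(Eᵀ * (J (Fin 2) F * ((g : M4 F) * E)))) (hdet : C.det ≠ 0) (S : M2 F) (hS : Sᵀ = S) :
    ∃ (k : symplecticGroup (Fin 2) F) (B C' D : M2 F),
      ((k⁻¹ * g * k : symplecticGroup (Fin 2) F) : M4 F) = fromBlocks (S * C) B C' D := by
  have hCu : IsUnit C.det := isUnit_iff_ne_zero.2 hdet
  obtain ⟨G, hG⟩ : ∃ G, G = (g : M4 F) * E * C⁻¹ - E * S := ⟨_, rfl⟩
  have hgJ : (g : M4 F)ᵀ * J (Fin 2) F * (g : M4 F) = J (Fin 2) F := SymplecticGroup.mem_iff'.1 g.2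
  have h5 : Eᵀ * (J (Fin 2) F * ((g : M4 F) * E)) = -C := by rw [hC, neg_neg]
  have h6 : Eᵀ * (g : M4 F)ᵀ * (J (Fin 2) F * ((g : M4 F) * E)) = 0 := by
    have : Eᵀ * (g : M4 F)ᵀ * (J (Fin 2) F * ((g : M4 F) * E)) =
        Eᵀ * (((g : M4 F)ᵀ * J (Fin 2) F * (g : M4 F)) * E) := by
      simp only [Matrix.mul_assoc]
    rw [this, hgJ]; exact hE
  have hCT : (C⁻¹)ᵀ * Cᵀ = 1 := by
    rw [← Matrix.transpose_mul, Matrix.mul_nonsing_inv _ hCu, Matrix.transpose_one]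
  have hGT : Gᵀ = (C⁻¹)ᵀ * (Eᵀ * (g : M4 F)ᵀ) - S * Eᵀ := by
    rw [hG, Matrix.transpose_sub, Matrix.transpose_mul, Matrix.transpose_mul, Matrix.transpose_mul, hS]
  have h2 : Eᵀ * (J (Fin 2) F * G) = -1 := by
    rw [hG, Matrix.mul_sub, Matrix.mul_sub, ← Matrix.mul_assoc (J (Fin 2) F) E S, ← Matrix.mul_assoc Eᵀ _ S, hE,
      Matrix.zero_mul, sub_zero, ← Matrix.mul_assoc (J (Fin 2) F), ← Matrix.mul_assoc Eᵀ, h5, Matrix.neg_mul,
      Matrix.mul_nonsing_inv _ hCu]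
  have h7 : Gᵀ * (J (Fin 2) F * ((g : M4 F) * E)) = S * C := by
    rw [hGT, Matrix.sub_mul, Matrix.mul_assoc, h6, Matrix.mul_zero, zero_sub, Matrix.mul_assoc, h5,
      Matrix.mul_neg, neg_neg]
  have h4 : Gᵀ * (J (Fin 2) F * E) = 1 := by
    have := congrArg Matrix.transpose h2
    rw [Matrix.transpose_mul, Matrix.transpose_mul, JT, Matrix.transpose_transpose, Matrix.mul_neg,
      Matrix.neg_mul, Matrix.transpose_neg, Matrix.transpose_one, Matrix.mul_assoc] at this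
    exact neg_injective this
  have h3 : Gᵀ * (J (Fin 2) F * G) = 0 := by
    have : ∀ G' : Matrix (Fin 2) (Fin 2 ⊕ Fin 2) F, G' * (J (Fin 2) F * G) =
        G' * (J (Fin 2) F * ((g : M4 F) * E)) * C⁻¹ - G' * (J (Fin 2) F * E) * S := by
      intro G'
      rw [hG, Matrix.mul_sub, Matrix.mul_sub]
      simp only [Matrix.mul_assoc]
    rw [this, h7, h4, Matrix.mul_assoc, Matrix.mul_nonsing_inv _ hCu, Matrix.mul_one, Matrix.one_mul, sub_self]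
  let k : symplecticGroup (Fin 2) F := ⟨fromCols E G, mem_of_cols hE h2 h3⟩
  have hk := conj_blocks g k E G rfl
  rw [h7] at hk
  exact ⟨k, _, _, _, hk⟩

theorem exists_up (g : symplecticGroup (Fin 2) F) (E : M42 F) (hE : Eᵀ * (J (Fin 2) F * E) = 0)
    (hg : (g : M4 F) * E = E) (H : Matrix (Fin 2) (Fin 2 ⊕ Fin 2) F) (hH : H * E = 1) :
    ∃ (k : symplecticGroup (Fin 2) F) (S : M2 F) (hS : Sᵀ = S), k⁻¹ * g * k = up S hS := by
  -- dual vectors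
  obtain ⟨G0, hG0⟩ : ∃ G0, G0 = J (Fin 2) F * Hᵀ := ⟨_, rfl⟩
  have h2 : Eᵀ * (J (Fin 2) F * G0) = -1 := by
    rw [hG0, ← Matrix.mul_assoc (J (Fin 2) F), J_squared, Matrix.neg_mul, Matrix.one_mul, Matrix.mul_neg,
      ← Matrix.transpose_mul, hH, Matrix.transpose_one]
  have h4 : G0ᵀ * (J (Fin 2) F * E) = 1 := by
    have := congrArg Matrix.transpose h2
    rw [Matrix.transpose_mul, Matrix.transpose_mul, JT, Matrix.transpose_transpose, Matrix.mul_neg,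
      Matrix.neg_mul, Matrix.transpose_neg, Matrix.transpose_one, Matrix.mul_assoc] at this
    exact neg_injective this
  obtain ⟨K, hK⟩ : ∃ K, K = G0ᵀ * (J (Fin 2) F * G0) := ⟨_, rfl⟩
  have hK0 : ∀ i, K i i = 0 := by
    intro i
    rw [hK]
    simp only [Matrix.mul_apply, Matrix.transpose_apply, Matrix.J, Fintype.sum_sum_type, fromBlocks_apply₁₁,
      fromBlocks_apply₁₂, fromBlocks_apply₂₁, fromBlocks_apply₂₂]
    simp [Fin.sum_univ_two, Matrix.one_apply]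
    ring
  have hKT : K 1 0 = - K 0 1 := by
    have : Kᵀ = -K := by
      rw [hK, Matrix.transpose_mul, Matrix.transpose_mul, JT, Matrix.transpose_transpose, Matrix.mul_neg,
        Matrix.neg_mul, Matrix.mul_assoc]
    have h5 := congrFun (congrFun this 0) 1
    simpa using h5
  obtain ⟨T, hT⟩ : ∃ T : M2 F, T = !![0, -K 0 1; 0, 0] := ⟨_, rfl⟩
  have hTK : K + (T - Tᵀ) = 0 := by
    rw [hT, tr2]
    ext i j
    fin_cases i <;> fin_cases j
    · simp [hK0]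
    · simp
    · simp [hKT]
    · simp [hK0]
  obtain ⟨G, hG⟩ : ∃ G, G = G0 + E * T := ⟨_, rfl⟩
  have h2' : Eᵀ * (J (Fin 2) F * G) = -1 := by
    rw [hG, Matrix.mul_add, Matrix.mul_add, h2, ← Matrix.mul_assoc (J (Fin 2) F) E T, ← Matrix.mul_assoc Eᵀ _ T, hE,
      Matrix.zero_mul, add_zero]
  have h3 : Gᵀ * (J (Fin 2) F * G) = 0 := by
    have h8 : Gᵀ * (J (Fin 2) F * G) = G0ᵀ * (J (Fin 2) F * G0) + (G0ᵀ * (J (Fin 2) F * E)) * T +
        Tᵀ * (Eᵀ * (J (Fin 2) F * G0)) + Tᵀ * (Eᵀ * (J (Fin 2) F * E)) * T := by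
      rw [hG, Matrix.transpose_add, Matrix.transpose_mul]
      simp only [Matrix.mul_add, Matrix.add_mul, Matrix.mul_assoc]
      abel
    rw [h8, h4, h2, hE, ← hK]
    simp only [Matrix.one_mul, Matrix.mul_neg, Matrix.mul_one, Matrix.mul_zero, Matrix.zero_mul, add_zero]
    rw [← hTK]; abel
  have h4' : Gᵀ * (J (Fin 2) F * E) = 1 := by
    have := congrArg Matrix.transpose h2'
    rw [Matrix.transpose_mul, Matrix.transpose_mul, JT, Matrix.transpose_transpose, Matrix.mul_neg,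
      Matrix.neg_mul, Matrix.transpose_neg, Matrix.transpose_one, Matrix.mul_assoc] at this
    exact neg_injective this
  have hgJ : (g : M4 F)ᵀ * J (Fin 2) F * (g : M4 F) = J (Fin 2) F := SymplecticGroup.mem_iff'.1 g.2
  have h9 : Eᵀ * (J (Fin 2) F * ((g : M4 F) * G)) = -1 := by
    rw [← h2']
    conv_rhs => rw [← hgJ]
    conv_lhs => rw [← hg, Matrix.transpose_mul]
    simp only [Matrix.mul_assoc]
  let k : symplecticGroup (Fin 2) F := ⟨fromCols E G, mem_of_cols hE h2' h3⟩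
  have hk := conj_blocks g k E G rfl
  rw [hg, h4', hE, h9, neg_zero, neg_neg] at hk
  have hmem := (k⁻¹ * g * k).2
  rw [hk, SymplecticGroup.fromBlocks_mem_iff] at hmem
  refine ⟨k, _, ?_, Subtype.ext hk⟩
  simpa using hmem.2.1

end

end Cfsg.Agent.Lib.Sp4Sq62
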