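import Mathlib
import Cfsg.Agent.Lib.Sp4Sq62

/-!
Every element of `Sp_4(q)` other than `1, -1` is up to sign a product of two conjugates of `x` (helper62).
-/

set_option autoImplicit false
set_option maxHeartbeats 400000

namespace Cfsg.Agent.Lib.Sp4Fin62

open Matrix Cfsg.Agent.Lib.GL2Prod62 Cfsg.Agent.Lib.Sp4Sq62 Cfsg.Agent.Lib

noncomputable section

variable {F : Type*} [Field F]

abbrev V4 (F : Type*) := Fin 2 ⊕ Fin 2 → F

/-- the matrix with two given columns -/
def cols (u v : V4 F) : M42 F := Matrix.of fun i => ![u i, v i]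

def BB (F : Type*) [Field F] : V4 F →ₗ[F] V4 F →ₗ[F] F := Matrix.toLinearMap₂' F (J (Fin 2) F)

lemma BB_apply (u v : V4 F) : BB F u v = u ⬝ᵥ (J (Fin 2) F *ᵥ v) := by
  rw [BB, Matrix.toLinearMap₂'_apply']

lemma ent (u v u' v' : V4 F) : (cols u v)ᵀ * (J (Fin 2) F * cols u' v') =
    !![BB F u u', BB F u v'; BB F v u', BB F v v'] := by
  simp only [BB_apply]
  ext i j
  fin_cases i <;> fin_cases j <;> simp [cols, Matrix.mul_apply, dotProduct, Matrix.mulVec]

lemma mul_cols (g : M4 F) (u v : V4 F) : g * cols u v = cols (g *ᵥ u) (g *ᵥ v) := by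
  ext i j
  fin_cases j <;> simp [cols, Matrix.mul_apply, Matrix.mulVec, dotProduct]

lemma iso (g : symplecticGroup (Fin 2) F) : Sp4Geo62.Iso (BB F) (Matrix.mulVecLin (g : M4 F)) := by
  refine ⟨?_, ?_, ?_, ?_⟩
  · intro v
    rw [BB_apply]
    simp [dotProduct, Matrix.mulVec, Matrix.J, Fintype.sum_sum_type, Matrix.one_apply, Fin.sum_univ_two]
    ring
  · intro v hv
    have h1 : ∀ w, (v ᵥ* J (Fin 2) F) ⬝ᵥ w = 0 := by
      intro w
      rw [← Matrix.dotProduct_mulVec, ← BB_apply]; exact hv w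
    have h2 : v ᵥ* J (Fin 2) F = 0 := dotProduct_eq_zero _ h1
    have h3 : (v ᵥ* J (Fin 2) F) ᵥ* J (Fin 2) F = 0 := by rw [h2, Matrix.zero_vecMul]
    rw [Matrix.vecMul_vecMul, J_squared, Matrix.vecMul_neg, Matrix.vecMul_one] at h3
    exact neg_eq_zero.1 h3
  · intro u v
    have hg : (g : M4 F)ᵀ * J (Fin 2) F * (g : M4 F) = J (Fin 2) F := SymplecticGroup.mem_iff'.1 g.2
    rw [BB_apply, BB_apply, Matrix.mulVecLin_apply, Matrix.mulVecLin_apply]
    conv_rhs => rw [← hg]
    rw [← Matrix.mulVec_mulVec, ← Matrix.mulVec_mulVec, Matrix.dotProduct_mulVec u, Matrix.vecMul_transpose]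
  · simp

/-- the case of a fixed isotropic plane -/
lemma pr_of_fixd {t n : F} (h : Dat t n) (g : symplecticGroup (Fin 2) F)
    (hg : Sp4Geo62.Fixd (BB F) (Matrix.mulVecLin (g : M4 F))) : Pr h g := by
  obtain ⟨u, v, huv, hu, hv, hind⟩ := hg
  rw [Matrix.mulVecLin_apply] at hu hv
  have halt := (iso g).alt
  have hE : (cols u v)ᵀ * (J (Fin 2) F * cols u v) = 0 := by
    rw [ent, halt, halt, huv, (iso g).sk u v, huv, neg_zero]
    ext i j; fin_cases i <;> fin_cases j <;> rfl
  have hgE : (g : M4 F) * cols u v = cols u v := by rw [mul_cols, hu, hv]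
  have hinj : LinearMap.ker (Matrix.mulVecLin (cols u v)) = ⊥ := by
    rw [LinearMap.ker_eq_bot']
    intro w hw
    have h1 : w 0 • u + w 1 • v = 0 := by
      rw [← hw]
      funext i
      simp [cols, Matrix.mulVec, dotProduct, Fin.sum_univ_two, mul_comm]
    obtain ⟨h2, h3⟩ := hind _ _ h1
    funext i
    fin_cases i
    · exact h2
    · exact h3
  obtain ⟨φ, hφ⟩ := LinearMap.exists_leftInverse_of_injective _ hinj
  have hH : LinearMap.toMatrix' φ * cols u v = 1 := by
    have h1 : LinearMap.toMatrix' (φ ∘ₗ Matrix.mulVecLin (cols u v)) = 1 := by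
      rw [hφ, LinearMap.toMatrix'_id]
    rw [LinearMap.toMatrix'_comp] at h1
    rw [← h1]
    congr 1
    exact (LinearMap.toMatrix'_toLin' (cols u v)).symm
  obtain ⟨k, S, hS, hk⟩ := exists_up g _ hE hgE _ hH
  apply Pr.conj h (k := k)
  rw [hk]
  exact Pr.up h S hS

lemma pr_of_C [Finite F] {t n : F} (h : Dat t n) (g : symplecticGroup (Fin 2) F) {u v : V4 F} (huv : BB F u v = 0)
    {a b c d : F} (ha : BB F u ((g : M4 F) *ᵥ u) = -a) (hb : BB F u ((g : M4 F) *ᵥ v) = -b)
    (hc : BB F v ((g : M4 F) *ᵥ u) = -c) (hd : BB F v ((g : M4 F) *ᵥ v) = -d)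
    (hdet : a * d - b * c ≠ 0) (S : M2 F) (hS : Sᵀ = S) (hS1 : (S * !![a, b; c, d]).det = n * n)
    (hS2 : ∀ e : F, S * !![a, b; c, d] ≠ e • (1 : M2 F)) (hS3 : (S * !![a, b; c, d]).trace ≠ 2 * n) : Pr h g := by
  have halt := (iso g).alt
  have hE : (cols u v)ᵀ * (J (Fin 2) F * cols u v) = 0 := by
    rw [ent, halt, halt, huv, (iso g).sk u v, huv, neg_zero]
    ext i j; fin_cases i <;> fin_cases j <;> rfl
  have hC : !![a, b; c, d] = -((cols u v)ᵀ * (J (Fin 2) F * ((g : M4 F) * cols u v))) := by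
    rw [mul_cols, ent, ha, hb, hc, hd]
    ext i j; fin_cases i <;> fin_cases j <;> simp
  obtain ⟨k, B, C', D, hk⟩ := exists_block g _ hE _ hC (by rw [Matrix.det_fin_two]; simpa using hdet) S hS
  apply Pr.conj h (k := k)
  exact Pr.block h _ hk hS1 hS2 hS3

lemma pr_of_good [Finite F] {t n : F} (h : Dat t n) (h3 : n * n ≠ 1 ∨ Nat.card F = 3) (g : symplecticGroup (Fin 2) F)
    (hg : Sp4Geo62.Good (BB F) (Matrix.mulVecLin (g : M4 F))) : Pr h g := by
  obtain ⟨u, v, huv, hvu, hu, hv⟩ := hg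
  rw [Matrix.mulVecLin_apply] at hvu hu hv
  have hn0 := h.n0
  obtain ⟨a, ha⟩ : ∃ a, BB F u ((g : M4 F) *ᵥ u) = -a := ⟨-_, (neg_neg _).symm⟩
  obtain ⟨b, hb⟩ : ∃ a, BB F u ((g : M4 F) *ᵥ v) = -a := ⟨-_, (neg_neg _).symm⟩
  obtain ⟨d, hd⟩ : ∃ a, BB F v ((g : M4 F) *ᵥ v) = -a := ⟨-_, (neg_neg _).symm⟩
  have ha0 : a ≠ 0 := by rintro rfl; exact hu (by rw [ha, neg_zero])
  have hd0 : d ≠ 0 := by rintro rfl; exact hv (by rw [hd, neg_zero])
  have hdet : a * d - b * 0 ≠ 0 := by rw [mul_zero, sub_zero]; exact mul_ne_zero ha0 hd0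
  have hc : BB F v ((g : M4 F) *ᵥ u) = -0 := by rw [hvu, neg_zero]
  -- the diagonal choice
  have hdiag : (n * n ≠ 1 ∨ (b ≠ 0 ∧ 1 + n * n ≠ 2 * n)) → Pr h g := by
    intro hcase
    have hS : (!![1 / a, 0; 0, n * n / d] : M2 F)ᵀ = !![1 / a, 0; 0, n * n / d] := by rw [tr2]
    have hmul : (!![1 / a, 0; 0, n * n / d] : M2 F) * !![a, b; 0, d] = !![1, b / a; 0, n * n] := by
      ext i j; fin_cases i <;> fin_cases j <;> simp [Matrix.mul_apply, Fin.sum_univ_two] <;> field_simp
    refine pr_of_C h g huv ha hb hc hd hdet _ hS ?_ ?_ ?_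
    · rw [hmul, Matrix.det_fin_two]; simp
    · intro e he
      rw [hmul] at he
      have e1 := congrFun (congrFun he 0) 0
      have e2 := congrFun (congrFun he 1) 1
      have e3 := congrFun (congrFun he 0) 1
      simp at e1 e2 e3
      rcases hcase with h4 | h4
      · exact h4 (e2.trans e1.symm)
      · rcases e3 with h5 | h5
        · exact h4.1 h5
        · exact ha0 h5
    · rw [hmul, Matrix.trace_fin_two]
      simp only [Matrix.of_apply, Matrix.cons_val', Matrix.cons_val_zero, Matrix.cons_val_fin_one, Matrix.cons_val_one]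
      rcases hcase with h4 | h4
      · intro h5
        have h6 : (n - 1) * (n - 1) = 0 := by linear_combination h5
        rcases mul_eq_zero.1 h6 with h7 | h7 <;> exact h.n1 (sub_eq_zero.1 h7)
      · exact h4.2
  rcases h3 with h4 | h4
  · exact hdiag (Or.inl h4)
  by_cases hnn : n * n = 1
  swap
  · exact hdiag (Or.inl hnn)
  have hn1 : n = -1 := by
    rcases mul_self_eq_one_iff.1 hnn with h5 | h5
    · exact absurd h5 h.n1
    · exact h5
  -- the field with three elements
  have h30 : (3 : F) = 0 := by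
    have h5 : (Nat.card F : F) = 0 := by
      have : Fintype F := Fintype.ofFinite F
      rw [Nat.card_eq_fintype_card]
      exact Nat.cast_card_eq_zero F
    rw [h4] at h5
    exact_mod_cast h5
  have h20 : (2 : F) ≠ 0 := by
    intro h5
    apply one_ne_zero (α := F)
    linear_combination h30 - h5
  have hsq : ∀ x : F, x ≠ 0 → x * x = 1 := by
    intro x hx
    have : Fintype F := Fintype.ofFinite F
    have h5 := FiniteField.pow_card_sub_one_eq_one x hx
    rw [← Nat.card_eq_fintype_card, h4] at h5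
    rw [← pow_two]; exact h5
  by_cases hb0 : b = 0
  swap
  · apply hdiag
    right
    refine ⟨hb0, ?_⟩
    rw [hn1]
    intro h5
    apply one_ne_zero (α := F)
    linear_combination h5 - h30
  subst hb0
  have had : (a * d) * (a * d) = 1 := by
    have h5 := hsq a ha0
    have h6 := hsq d hd0
    linear_combination h5 * d * d + h6
  have haa := hsq a ha0
  rcases mul_self_eq_one_iff.1 had with h5 | h5
  · have hda : d = a := by linear_combination (-d) * haa + a * h5
    subst hda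
    refine pr_of_C h g huv ha hb hc hd hdet !![1, 1; 1, -1] (by rw [tr2]) ?_ ?_ ?_
    · rw [Matrix.det_mul, Matrix.det_fin_two, Matrix.det_fin_two, hnn]
      simp only [Matrix.of_apply, Matrix.cons_val', Matrix.cons_val_zero, Matrix.cons_val_fin_one, Matrix.cons_val_one]
      linear_combination (-2 : F) * h5 - h30
    · intro e he
      have e3 := congrFun (congrFun he 0) 1
      simp [Matrix.mul_apply, Fin.sum_univ_two] at e3
      exact hd0 e3
    · rw [Matrix.trace_fin_two, hn1]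
      simp only [Matrix.mul_apply, Fin.sum_univ_two, Matrix.of_apply, Matrix.cons_val', Matrix.cons_val_zero,
        Matrix.cons_val_fin_one, Matrix.cons_val_one]
      intro h6
      apply h20
      linear_combination h6
  · refine pr_of_C h g huv ha hb hc hd hdet !![0, 1; 1, 0] (by rw [tr2]) ?_ ?_ ?_
    · rw [Matrix.det_mul, Matrix.det_fin_two, Matrix.det_fin_two, hnn]
      simp only [Matrix.of_apply, Matrix.cons_val', Matrix.cons_val_zero, Matrix.cons_val_fin_one, Matrix.cons_val_one]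
      linear_combination (-1 : F) * h5
    · intro e he
      have e3 := congrFun (congrFun he 0) 1
      simp [Matrix.mul_apply, Fin.sum_univ_two] at e3
      exact hd0 e3
    · rw [Matrix.trace_fin_two, hn1]
      simp only [Matrix.mul_apply, Fin.sum_univ_two, Matrix.of_apply, Matrix.cons_val', Matrix.cons_val_zero,
        Matrix.cons_val_fin_one, Matrix.cons_val_one]
      intro h6
      apply h20
      linear_combination h6

lemma pr_of_anti [Finite F] {t n : F} (h : Dat t n) (h2 : (2 : F) ≠ 0) (g : symplecticGroup (Fin 2) F)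
    (hg : Sp4Geo62.Anti (BB F) (Matrix.mulVecLin (g : M4 F))) : Pr h g := by
  obtain ⟨u, v, huv, hu, hv, h3, h4⟩ := hg
  rw [Matrix.mulVecLin_apply] at hu hv h3 h4
  have hn0 := h.n0
  obtain ⟨b, hb⟩ : ∃ a, BB F u ((g : M4 F) *ᵥ v) = -a := ⟨-_, (neg_neg _).symm⟩
  obtain ⟨c, hc⟩ : ∃ a, BB F v ((g : M4 F) *ᵥ u) = -a := ⟨-_, (neg_neg _).symm⟩
  have hb0 : b ≠ 0 := by rintro rfl; exact h3 (by rw [hb, neg_zero])
  have hc0 : c ≠ 0 := by rintro rfl; exact h4 (by rw [hc, neg_zero])
  have hmul : (!![1, 0; 0, -(n * n) / (b * c)] : M2 F) * !![0, b; c, 0] = !![0, b; -(n * n) / b, 0] := by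
    ext i j; fin_cases i <;> fin_cases j <;> simp [Matrix.mul_apply, Fin.sum_univ_two] <;> field_simp
  refine pr_of_C h g huv (a := 0) (d := 0) (by rw [hu, neg_zero]) hb hc (by rw [hv, neg_zero]) (by
    simp [hb0, hc0]) !![1, 0; 0, -(n * n) / (b * c)] (by rw [tr2]) ?_ ?_ ?_
  · rw [hmul, Matrix.det_fin_two]
    simp only [Matrix.of_apply, Matrix.cons_val', Matrix.cons_val_zero, Matrix.cons_val_fin_one, Matrix.cons_val_one]
    field_simp; ring
  · intro e he
    rw [hmul] at he
    have e3 := congrFun (congrFun he 0) 1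
    simp at e3
    exact hb0 e3
  · rw [hmul, Matrix.trace_fin_two]
    simp only [Matrix.of_apply, Matrix.cons_val', Matrix.cons_val_zero, Matrix.cons_val_fin_one, Matrix.cons_val_one]
    rw [add_zero]
    exact (mul_ne_zero h2 hn0).symm

/-- the negative -/
def ng (g : symplecticGroup (Fin 2) F) : symplecticGroup (Fin 2) F := ⟨-(g : M4 F), SymplecticGroup.neg_mem g.2⟩

theorem main [Finite F] (hq : 3 ≤ Nat.card F) {t n : F} (h : Dat t n) (h3 : n * n ≠ 1 ∨ Nat.card F = 3)
    (g : symplecticGroup (Fin 2) F) (h1 : g ≠ 1) (h2 : g ≠ ng 1) : Pr h g ∨ Pr h (ng g) := by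
  have hext : ∀ A B : M4 F, (∀ v, A *ᵥ v = B *ᵥ v) → A = B := by
    intro A B hAB
    exact Matrix.mulVec_injective (funext hAB)
  have hg1 : ∃ v, Matrix.mulVecLin (g : M4 F) v ≠ v := by
    by_contra hcon
    push Not at hcon
    apply h1
    apply Subtype.ext
    apply hext
    intro v
    rw [← Matrix.mulVecLin_apply, hcon]
    simp
  have hg2 : ∃ v, Matrix.mulVecLin (g : M4 F) v ≠ -v := by
    by_contra hcon
    push Not at hcon
    apply h2
    apply Subtype.ext
    apply hext
    intro v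
    rw [← Matrix.mulVecLin_apply, hcon]
    simp [ng, Matrix.neg_mulVec]
  rcases Sp4Geo62.main hq (iso g) hg1 hg2 with h4 | h4 | h4 | h4
  · exact Or.inl (pr_of_good h h3 g h4)
  · exact Or.inl (pr_of_anti h h4.1 g h4.2)
  · exact Or.inl (pr_of_fixd h g h4)
  · right
    apply pr_of_fixd
    have : Matrix.mulVecLin ((ng g : symplecticGroup (Fin 2) F) : M4 F) = - Matrix.mulVecLin (g : M4 F) := by
      ext1 v
      simp [ng, Matrix.neg_mulVec]
    rw [this]
    exact h4

end

end Cfsg.Agent.Lib.Sp4Fin62
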