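import Cfsg.Agent.Lib.OmWt
import Cfsg.Agent.Lib.ClSympOrd

/-!
# Symplectic groups in characteristic two: the point unipotent radical (helper83)
-/

set_option autoImplicit false
set_option linter.all false

namespace Cfsg.Agent.Lib.SpEvA

open Cfsg.Agent.Lib.ClIso Cfsg.Agent.Lib.ClSymp AvgTrace Module

/-! ### the additive character -/

section char

variable {F : Type*} [Field F] [Fintype F]

/-- an additive character whose kernel is the set of the `z ^ 2 + z` -/
structure GoodChar (ψ : AddChar F ℂ) : Prop where
  sq : ∀ t, ψ (t * t) = ψ t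
  ker : ∀ t, ψ t = 1 → ∃ z, z * z + z = t
  pm : ∀ t, ψ t = 1 ∨ ψ t = -1
  ne : ψ ≠ 0

theorem exists_good (h2 : (2 : F) = 0) : ∃ ψ : AddChar F ℂ, GoodChar ψ := by
  classical
  have hadd : ∀ x : F, x + x = 0 := fun x => by linear_combination x * h2
  let p : F →+ F :=
    { toFun := fun z => z * z + z
      map_zero' := by simp
      map_add' := fun x y => by linear_combination (x * y) * h2 }
  have hp : ∀ z, p z = z * z + z := fun z => rfl
  have hker : ∀ z, p z = 0 → z = 0 ∨ z = 1 := by
    intro z hz
    have h : z * (z + 1) = 0 := by rw [hp] at hz; linear_combination hz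
    rcases mul_eq_zero.1 h with h | h
    · exact Or.inl h
    · right
      linear_combination h - h2
  have hns : p.range ≠ ⊤ := by
    intro h
    have hsur : Function.Surjective p := AddMonoidHom.range_eq_top.1 h
    have hinj := Finite.injective_iff_surjective.2 hsur
    have : (0 : F) = 1 := hinj (by rw [hp, hp]; linear_combination -h2)
    exact zero_ne_one this
  -- the quotient
  haveI : Finite (F ⧸ p.range) := inferInstance
  haveI : Fintype (F ⧸ p.range) := Fintype.ofFinite _
  haveI : Nontrivial (F ⧸ p.range) := by
    by_contra h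
    rw [not_nontrivial_iff_subsingleton] at h
    apply hns
    rw [eq_top_iff]
    intro x _
    have : (QuotientAddGroup.mk x : F ⧸ p.range) = 0 := Subsingleton.elim _ _
    exact (QuotientAddGroup.eq_zero_iff x).1 this
  have h1 : Fintype.card (AddChar (F ⧸ p.range) ℂ) = Fintype.card (F ⧸ p.range) := AddChar.card_eq
  have h3 : 1 < Fintype.card (F ⧸ p.range) := Fintype.one_lt_card
  rw [← h1] at h3
  haveI := Fintype.one_lt_card_iff_nontrivial.1 h3
  obtain ⟨χ, hχ⟩ := exists_ne (0 : AddChar (F ⧸ p.range) ℂ)
  let ψ : AddChar F ℂ := χ.compAddMonoidHom (QuotientAddGroup.mk' p.range)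
  have hψ : ∀ t, ψ t = χ (QuotientAddGroup.mk t) := fun t => rfl
  have hpm : ∀ t, ψ t = 1 ∨ ψ t = -1 := by
    intro t
    have h4 : ψ t * ψ t = 1 := by rw [← AddChar.map_add_eq_mul, hadd, AddChar.map_zero_eq_one]
    have h5 : (ψ t - 1) * (ψ t + 1) = 0 := by linear_combination h4
    rcases mul_eq_zero.1 h5 with h | h
    · exact Or.inl (sub_eq_zero.1 h)
    · exact Or.inr (eq_neg_of_add_eq_zero_left h)
  have hrange : ∀ z, ψ (z * z + z) = 1 := by
    intro z
    rw [hψ]
    have : (QuotientAddGroup.mk (z * z + z) : F ⧸ p.range) = 0 := (QuotientAddGroup.eq_zero_iff _).2 ⟨z, rfl⟩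
    rw [this, AddChar.map_zero_eq_one]
  have hne : ψ ≠ 0 := by
    intro h
    apply hχ
    ext x
    obtain ⟨t, rfl⟩ := QuotientAddGroup.mk_surjective x
    exact DFunLike.congr_fun h t
  refine ⟨ψ, ?_, ?_, hpm, hne⟩
  · intro t
    have h4 := hrange t
    rw [AddChar.map_add_eq_mul] at h4
    rcases hpm t with h | h
    · rw [h, mul_one] at h4; rw [h, h4]
    · rw [h] at h4 ⊢
      linear_combination -h4
  · -- the kernel has the right size
    intro t ht
    by_contra hcon
    -- `K` kernel, contains range, index two
    let K : AddSubgroup F := { carrier := {x | ψ x = 1}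
                               zero_mem' := AddChar.map_zero_eq_one ψ
                               add_mem' := fun {a b} ha hb => by
                                 show ψ (a + b) = 1
                                 rw [AddChar.map_add_eq_mul, show ψ a = 1 from ha, show ψ b = 1 from hb, one_mul]
                               neg_mem' := fun {a} ha => by
                                 show ψ (-a) = 1
                                 rw [AddChar.map_neg_eq_inv, show ψ a = 1 from ha, inv_one] }
    have hle : p.range < K := by
      refine lt_of_le_of_ne ?_ ?_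
      · rintro _ ⟨z, rfl⟩
        exact hrange z
      · intro h
        have : t ∈ p.range := by rw [h]; exact ht
        obtain ⟨z, hz⟩ := this
        exact hcon ⟨z, hz⟩
    have hK : K ≠ ⊤ := by
      intro h
      apply hne
      ext x
      have : x ∈ K := by rw [h]; trivial
      exact this
    -- cardinalities
    have hk2 : Nat.card p.ker = 2 := by
      rw [Nat.card_eq_two_iff' ⟨0, p.map_zero⟩]
      refine ⟨⟨1, by
        show p 1 = 0
        rw [hp]; linear_combination h2⟩, ?_, ?_⟩
      · intro h
        exact one_ne_zero (congrArg Subtype.val h)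
      · rintro ⟨z, hz⟩ hne
        rcases hker z hz with h | h
        · exact absurd (Subtype.ext h) hne
        · exact Subtype.ext h
    have e1 : Nat.card p.ker * Nat.card p.range = Nat.card F := by
      rw [AddSubgroup.card_eq_card_quotient_mul_card_addSubgroup p.ker, mul_comm]
      congr 1
      exact (Nat.card_congr (QuotientAddGroup.quotientKerEquivRange p).toEquiv).symm
    have e2 : Nat.card K ∣ Nat.card F := AddSubgroup.card_addSubgroup_dvd_card K
    have hlt : ∀ {A B : AddSubgroup F}, A < B → Nat.card A < Nat.card B := by
      intro A B h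
      exact lt_of_le_of_ne (AddSubgroup.card_le_of_le h.le) (fun h' => h.ne (AddSubgroup.eq_of_le_of_card_ge h.le h'.ge))
    have e3 : Nat.card p.range < Nat.card K := hlt hle
    have e4 : Nat.card K < Nat.card F := by
      rw [← AddSubgroup.card_top (G := F)]
      exact hlt (lt_top_iff_ne_top.2 hK)
    obtain ⟨c, hc⟩ := e2
    have hc2 : 2 ≤ c := by
      rcases (by omega : c = 0 ∨ c = 1 ∨ 2 ≤ c) with h | h | h
      · rw [h, mul_zero] at hc
        have : 0 < Nat.card F := Nat.card_pos
        omega
      · rw [h, mul_one] at hc
        omega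
      · exact h
    have : Nat.card K * 2 ≤ Nat.card K * c := Nat.mul_le_mul_left _ hc2
    rw [hk2] at e1
    omega

end char

end Cfsg.Agent.Lib.SpEvA
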