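import Cfsg.Agent.Lib.SpEvA

/-!
# Symplectic groups in characteristic two: elements (helper83)
-/

set_option autoImplicit false
set_option linter.all false

namespace Cfsg.Agent.Lib.SpEvB

open Cfsg.Agent.Lib.ClIso Cfsg.Agent.Lib.ClSymp AvgTrace Module SpEvA

variable {F W : Type*} [Field F] [AddCommGroup W] [Module F W]

/-- the form on the sum of a hyperbolic plane and `W` -/
def sform (B : LinearMap.BilinForm F W) : LinearMap.BilinForm F ((F × F) × W) :=
  LinearMap.mk₂ F (fun x y => x.1.1 * y.1.2 + x.1.2 * y.1.1 + B x.2 y.2)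
    (fun x x' y => by simp; ring) (fun c x y => by simp; ring) (fun x y y' => by simp; ring) (fun c x y => by simp; ring)

theorem sform_apply (B : LinearMap.BilinForm F W) (x y : (F × F) × W) :
    sform B x y = x.1.1 * y.1.2 + x.1.2 * y.1.1 + B x.2 y.2 := rfl

/-- a quadratic form with polarisation `B` -/
structure QF (B : LinearMap.BilinForm F W) (Q₀ : W → F) : Prop where
  add : ∀ x y, Q₀ (x + y) = Q₀ x + Q₀ y + B x y
  smul : ∀ (c : F) x, Q₀ (c • x) = c * c * Q₀ x

/-- basis vectors -/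
def e : (F × F) × W := ((1, 0), 0)
def f : (F × F) × W := ((0, 1), 0)

variable {B : LinearMap.BilinForm F W} (h2 : (2 : F) = 0) (hB : IsSymp B)

include h2 hB in
theorem symm (x y : W) : B x y = B y x := by
  rw [hB.skew]
  linear_combination (- B y x) * h2

include h2 in
theorem dbl (x : W) : x + x = 0 := by
  rw [← two_smul F x, h2, zero_smul]

include h2 hB in
theorem isSymp_sform : IsSymp (sform B) where
  alt := by
    intro x
    rw [sform_apply, hB.alt]
    linear_combination (x.1.1 * x.1.2) * h2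
  nondeg := by
    intro u hu
    by_contra hcon
    push Not at hcon
    apply hu
    have h3 := hcon ((1, 0), 0)
    have h4 := hcon ((0, 1), 0)
    rw [sform_apply] at h3 h4
    simp at h3 h4
    refine Prod.ext (Prod.ext h4 h3) ?_
    by_contra hne
    obtain ⟨v, hv⟩ := hB.nondeg u.2 hne
    apply hv
    have h5 := hcon (0, v)
    rw [sform_apply] at h5
    simpa using h5

/-- the group -/
abbrev S (B : LinearMap.BilinForm F W) : Type _ := ↥(Spg (sform B))

variable {Q₀ : W → F} (hQ : QF B Q₀)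

include hQ in
theorem Q_zero : Q₀ 0 = 0 := by
  have := hQ.smul 0 0
  simpa using this

/-- the linear map of an element of the unipotent radical -/
def Um (B : LinearMap.BilinForm F W) (w : W) (c : F) : ((F × F) × W) →ₗ[F] ((F × F) × W) where
  toFun x := ((x.1.1 + B w x.2 + c * x.1.2, x.1.2), x.2 + x.1.2 • w)
  map_add' x y := by
    refine Prod.ext (Prod.ext ?_ ?_) ?_
    · simp; ring
    · simp
    · simp only [Prod.snd_add, Prod.fst_add, add_smul]; abel
  map_smul' a x := by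
    refine Prod.ext (Prod.ext ?_ ?_) ?_
    · simp; ring
    · simp
    · simp only [Prod.smul_snd, Prod.smul_fst, smul_eq_mul, mul_smul, RingHom.id_apply, smul_add]

theorem Um_apply (w : W) (c : F) (x : (F × F) × W) : Um B w c x = ((x.1.1 + B w x.2 + c * x.1.2, x.1.2), x.2 + x.1.2 • w) := rfl

theorem Um_Um (w w' : W) (c c' : F) (x : (F × F) × W) : Um B w c (Um B w' c' x) = Um B (w + w') (c + c' + B w w') x := by
  rw [Um_apply, Um_apply, Um_apply]
  refine Prod.ext (Prod.ext ?_ ?_) ?_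
  · simp; ring
  · simp
  · simp only [smul_add]; abel

include h2 hB in
theorem Um_form (w : W) (c : F) (x y : (F × F) × W) : sform B (Um B w c x) (Um B w c y) = sform B x y := by
  rw [Um_apply, Um_apply, sform_apply, sform_apply]
  simp only [map_add, map_smul, LinearMap.add_apply, LinearMap.smul_apply, smul_eq_mul, hB.alt]
  have h3 := symm h2 hB x.2 w
  rw [h3]
  linear_combination (x.1.2 * y.1.2 * c + B w x.2 * y.1.2 + B w y.2 * x.1.2) * h2

/-- the elements of the unipotent radical -/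
def U (p : W × F) : S B :=
  ⟨LinearEquiv.ofLinear (Um B p.1 (p.2 + Q₀ p.1)) (Um B p.1 (p.2 + Q₀ p.1))
    (by
      apply LinearMap.ext
      intro x
      show Um B _ _ (Um B _ _ x) = x
      rw [Um_Um, dbl h2, hB.alt, Um_apply]
      refine Prod.ext (Prod.ext ?_ rfl) ?_
      · simp only [map_zero, LinearMap.zero_apply]
        linear_combination ((p.2 + Q₀ p.1) * x.1.2) * h2
      · simp)
    (by
      apply LinearMap.ext
      intro x
      show Um B _ _ (Um B _ _ x) = x
      rw [Um_Um, dbl h2, hB.alt, Um_apply]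
      refine Prod.ext (Prod.ext ?_ rfl) ?_
      · simp only [map_zero, LinearMap.zero_apply]
        linear_combination ((p.2 + Q₀ p.1) * x.1.2) * h2
      · simp), fun x y => Um_form h2 hB _ _ x y⟩

theorem U_apply (p : W × F) (x : (F × F) × W) : (U h2 hB (Q₀ := Q₀) p).1 x =
    ((x.1.1 + B p.1 x.2 + (p.2 + Q₀ p.1) * x.1.2, x.1.2), x.2 + x.1.2 • p.1) := rfl

include hQ in
theorem U_add (p p' : W × F) : U h2 hB (Q₀ := Q₀) (p + p') = U h2 hB (Q₀ := Q₀) p * U h2 hB (Q₀ := Q₀) p' := by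
  apply Spg_ext
  intro x
  rw [mul_apply']
  show Um B (p + p').1 ((p + p').2 + Q₀ (p + p').1) x = Um B p.1 (p.2 + Q₀ p.1) (Um B p'.1 (p'.2 + Q₀ p'.1) x)
  rw [Um_Um, Prod.fst_add, Prod.snd_add, hQ.add]
  congr 2
  ring

include hQ in
theorem U_zero : U h2 hB (Q₀ := Q₀) 0 = 1 := by
  apply Spg_ext
  intro x
  rw [U_apply]
  show _ = x
  refine Prod.ext (Prod.ext ?_ rfl) ?_
  · simp [Q_zero hQ]
  · simp

theorem U_inj : Function.Injective (U h2 hB (Q₀ := Q₀)) := by
  intro p p' h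
  have h3 := congrArg (fun g : S B => g.1 f) h
  simp only [U_apply] at h3
  have h4 := congrArg Prod.snd h3
  have h5 := congrArg (fun v : (F × F) × W => v.1.1) h3
  simp [f] at h4 h5
  rw [h4] at h5
  exact Prod.ext h4 (by simpa using h5)

/-- the transvection of `e` -/
theorem U_tv (c : F) (hQ : QF B Q₀) : U h2 hB (Q₀ := Q₀) (0, c) = tv (isSymp_sform h2 hB) c e := by
  apply Spg_ext
  intro x
  rw [U_apply, tv_apply, sform_apply]
  refine Prod.ext (Prod.ext ?_ ?_) ?_
  · simp [e, Q_zero hQ]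
  · simp [e]
  · simp [e]

/-- torus elements -/
def dt (B : LinearMap.BilinForm F W) (a : Fˣ) : S B :=
  ⟨LinearEquiv.prodCongr (LinearEquiv.prodCongr (LinearEquiv.smulOfUnit a) (LinearEquiv.smulOfUnit a⁻¹)) (LinearEquiv.refl F W), by
    intro x y
    show sform B ((a • x.1.1, a⁻¹ • x.1.2), x.2) ((a • y.1.1, a⁻¹ • y.1.2), y.2) = sform B x y
    rw [sform_apply, sform_apply]
    simp only [Units.smul_def, smul_eq_mul]
    have h : (a : F) * ((a⁻¹ : Fˣ) : F) = 1 := Units.mul_inv a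
    linear_combination (x.1.1 * y.1.2 + x.1.2 * y.1.1) * h⟩

theorem dt_apply (a : Fˣ) (x : (F × F) × W) : (dt B a).1 x = (((a : F) * x.1.1, ((a⁻¹ : Fˣ) : F) * x.1.2), x.2) := rfl

include hQ in
theorem dt_conj (a : Fˣ) (p : W × F) : dt B a * U h2 hB (Q₀ := Q₀) p * (dt B a)⁻¹ =
    U h2 hB (Q₀ := Q₀) ((a : F) • p.1, (a : F) * a * p.2) := by
  rw [mul_inv_eq_iff_eq_mul]
  apply Spg_ext
  intro x
  rw [mul_apply', mul_apply']
  rw [U_apply, dt_apply, U_apply, dt_apply]
  have h : (a : F) * ((a⁻¹ : Fˣ) : F) = 1 := Units.mul_inv a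
  refine Prod.ext (Prod.ext ?_ ?_) ?_
  · simp only [hQ.smul, map_smul, LinearMap.smul_apply, smul_eq_mul]
    linear_combination (-(a : F) * x.1.2 * (p.2 + Q₀ p.1)) * h
  · rfl
  · show x.2 + x.1.2 • p.1 = x.2 + (((a⁻¹ : Fˣ) : F) * x.1.2) • ((a : F) • p.1)
    rw [smul_smul]
    congr 2
    linear_combination (-x.1.2) * h

/-- the Levi subgroup -/
def lev (B : LinearMap.BilinForm F W) : ↥(Spg B) →* S B where
  toFun g := ⟨LinearEquiv.prodCongr (LinearEquiv.refl F (F × F)) g.1, by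
    intro x y
    show sform B (x.1, g.1 x.2) (y.1, g.1 y.2) = sform B x y
    rw [sform_apply, sform_apply]
    simp only
    rw [show B (g.1 x.2) (g.1 y.2) = B x.2 y.2 from g.2 x.2 y.2]⟩
  map_one' := rfl
  map_mul' g h := rfl

theorem lev_apply (g : Spg B) (x : (F × F) × W) : (lev B g).1 x = (x.1, g.1 x.2) := rfl

theorem lev_tv (v : W) (c : F) : lev B (tv hB c v) = tv (isSymp_sform h2 hB) c ((0, v) : (F × F) × W) := by
  apply Spg_ext
  intro x
  rw [lev_apply, tv_apply, tv_apply, sform_apply]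
  refine Prod.ext (Prod.ext ?_ ?_) ?_ <;> simp

include hQ in
theorem lev_conj (v : W) (p : W × F) : lev B (tv hB 1 v) * U h2 hB (Q₀ := Q₀) p * (lev B (tv hB 1 v))⁻¹ =
    U h2 hB (Q₀ := Q₀) (p.1 + B v p.1 • v, p.2 + B v p.1 * B v p.1 * (1 + Q₀ v)) := by
  rw [mul_inv_eq_iff_eq_mul]
  apply Spg_ext
  intro x
  rw [mul_apply', mul_apply', lev_apply, U_apply, U_apply, lev_apply]
  have hs := symm h2 hB p.1 v
  refine Prod.ext (Prod.ext ?_ ?_) ?_
  · show x.1.1 + B p.1 x.2 + (p.2 + Q₀ p.1) * x.1.2 = x.1.1 + B (p.1 + B v p.1 • v) ((tv hB 1 v : W ≃ₗ[F] W) x.2) +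
      (p.2 + B v p.1 * B v p.1 * (1 + Q₀ v) + Q₀ (p.1 + B v p.1 • v)) * x.1.2
    rw [tv_apply, hQ.add, hQ.smul]
    simp only [map_add, map_smul, LinearMap.add_apply, LinearMap.smul_apply, smul_eq_mul, hB.alt, hs]
    linear_combination (-(B v p.1 * B v x.2) - (B v p.1 * B v p.1 * (1 + Q₀ v)) * x.1.2) * h2
  · rfl
  · show (tv hB 1 v : W ≃ₗ[F] W) (x.2 + x.1.2 • p.1) = (tv hB 1 v : W ≃ₗ[F] W) x.2 + x.1.2 • (p.1 + B v p.1 • v)
    rw [tv_apply, tv_apply]
    simp only [map_add, map_smul, smul_eq_mul, one_mul]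
    module

end Cfsg.Agent.Lib.SpEvB
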