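import Cfsg.Agent.Lib.SpEvB

/-!
# Symplectic groups in characteristic two: weights (helper83)
-/

set_option autoImplicit false
set_option linter.all false

namespace Cfsg.Agent.Lib.SpEvC

open Cfsg.Agent.Lib.ClIso Cfsg.Agent.Lib.ClSymp AvgTrace Module SpEvA SpEvB

variable {F W : Type*} [Field F] [Fintype F] [AddCommGroup W] [Module F W] [Fintype W]

/-- characters attached to pairs -/
noncomputable def chi (ψ : AddChar F ℂ) (B : LinearMap.BilinForm F W) (p : W × F) : AddChar (W × F) ℂ :=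
  ψ.compAddMonoidHom
    { toFun := fun r => B p.1 r.1 + p.2 * r.2
      map_zero' := by simp
      map_add' := fun r r' => by
        show B p.1 (r.1 + r'.1) + p.2 * (r.2 + r'.2) = _
        rw [map_add]; ring }

omit [Fintype F] [Fintype W] in
theorem chi_apply (ψ : AddChar F ℂ) (B : LinearMap.BilinForm F W) (p r : W × F) : chi ψ B p r = ψ (B p.1 r.1 + p.2 * r.2) := rfl

variable {B : LinearMap.BilinForm F W} (h2 : (2 : F) = 0) (hB : IsSymp B) {Q₀ : W → F} (hQ : QF B Q₀)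
  {ψ : AddChar F ℂ} (hψ : GoodChar ψ)

omit [Fintype F] [Fintype W] in
include hψ in
theorem prim {c : F} (hc : ∀ x, ψ (x * c) = 1) : c = 0 := by
  by_contra hc0
  apply hψ.ne
  ext x
  have := hc (x * c⁻¹)
  rw [inv_mul_cancel_right₀ hc0] at this
  exact this

omit [Fintype F] [Fintype W] in
include hB hψ in
theorem chi_inj : Function.Injective (chi ψ B) := by
  intro p p' h
  have h1 : ∀ r : W × F, ψ (B p.1 r.1 + p.2 * r.2 - (B p'.1 r.1 + p'.2 * r.2)) = 1 := by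
    intro r
    have h3 : ψ (B p.1 r.1 + p.2 * r.2) = ψ (B p'.1 r.1 + p'.2 * r.2) := DFunLike.congr_fun h r
    rw [AddChar.map_sub_eq_div, h3, div_self]
    rcases hψ.pm (B p'.1 r.1 + p'.2 * r.2) with h4 | h4 <;> rw [h4] <;> norm_num
  refine Prod.ext ?_ ?_
  · rw [← sub_eq_zero]
    by_contra hne
    obtain ⟨v, hv⟩ := hB.nondeg _ hne
    apply hv
    apply prim hψ
    intro x
    have h3 := h1 (x • v, 0)
    rw [mul_zero, mul_zero, add_zero, add_zero, map_smul, map_smul, smul_eq_mul, smul_eq_mul, ← mul_sub] at h3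
    rw [map_sub, LinearMap.sub_apply]
    exact h3
  · rw [← sub_eq_zero]
    apply prim hψ
    intro x
    have h3 := h1 (0, x)
    rw [map_zero, map_zero, zero_add, zero_add] at h3
    have e : x * (p.2 - p'.2) = p.2 * x - p'.2 * x := by ring
    rw [e]
    exact h3

/-- characters are pairs -/
noncomputable def chiE (hB : IsSymp B) (hψ : GoodChar ψ) : (W × F) ≃ AddChar (W × F) ℂ :=
  Equiv.ofBijective (chi ψ B) ((Fintype.bijective_iff_injective_and_card _).2 ⟨chi_inj hB hψ, AddChar.card_eq.symm⟩)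

variable {V : Type*} [AddCommGroup V] [Module ℂ V] (ρ : Representation ℂ (S B) V)

/-- the weight idempotent -/
noncomputable def wt (Q₀ : W → F) (ρ : Representation ℂ (S B) V) (ψ : AddChar F ℂ) (p : W × F) : V →ₗ[ℂ] V :=
  ew ρ (U h2 hB (Q₀ := Q₀)) (chi ψ B p)

include hQ in
theorem wt_idem (p : W × F) : wt h2 hB Q₀ ρ ψ p * wt h2 hB Q₀ ρ ψ p = wt h2 hB Q₀ ρ ψ p := ew_mul_self ρ (U_add h2 hB hQ) _

include hQ hψ in
theorem wt_orth {p p' : W × F} (h : p ≠ p') : wt h2 hB Q₀ ρ ψ p * wt h2 hB Q₀ ρ ψ p' = 0 :=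
  ew_mul_ne ρ (U_add h2 hB hQ) (fun e => h (chi_inj hB hψ e))

include hQ hψ in
theorem sum_wt : ∑ p : W × F, wt h2 hB Q₀ ρ ψ p = 1 := by
  rw [← sum_ew ρ (U_zero h2 hB hQ), ← Equiv.sum_comp (chiE hB hψ)]
  rfl

include hQ in
theorem rho_wt (p r : W × F) : ρ (U h2 hB (Q₀ := Q₀) r) * wt h2 hB Q₀ ρ ψ p = ψ (B p.1 r.1 + p.2 * r.2) • wt h2 hB Q₀ ρ ψ p :=
  rho_mul_ew ρ (U_add h2 hB hQ) _ r

include hQ in
theorem wt_dt (a : Fˣ) (p : W × F) : ρ (dt B a) * wt h2 hB Q₀ ρ ψ p * ρ (dt B a)⁻¹ =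
    wt h2 hB Q₀ ρ ψ (((a⁻¹ : Fˣ) : F) • p.1, ((a⁻¹ : Fˣ) : F) * ((a⁻¹ : Fˣ) : F) * p.2) := by
  apply OmWt.ew_conj' ρ (U_inj h2 hB)
  intro r
  refine ⟨((a : F) • r.1, (a : F) * a * r.2), dt_conj h2 hB hQ a r, ?_⟩
  rw [chi_apply, chi_apply]
  congr 1
  have h : (a : F) * ((a⁻¹ : Fˣ) : F) = 1 := Units.mul_inv a
  simp only [map_smul, LinearMap.smul_apply, smul_eq_mul]
  linear_combination (B p.1 r.1 + p.2 * r.2 * ((a : F) * ((a⁻¹ : Fˣ) : F) + 1)) * h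

/-- the action of a transvection on the weights with second component one -/
theorem wt_lev {v x : W} {β : F} (hβ : β * β = 1 + Q₀ v) (hQ : QF B Q₀) (hψ : GoodChar ψ) :
    ρ (lev B (tv hB 1 v)) * wt h2 hB Q₀ ρ ψ (x, 1) * ρ (lev B (tv hB 1 v))⁻¹ =
    wt h2 hB Q₀ ρ ψ (x + (B v x + β) • v, 1) := by
  apply OmWt.ew_conj' ρ (U_inj h2 hB)
  intro r
  refine ⟨_, lev_conj h2 hB hQ v r, ?_⟩
  rw [chi_apply, chi_apply]
  have hs := symm h2 hB x v
  have e1 : B (x + (B v x + β) • v) (r.1 + B v r.1 • v) + 1 * (r.2 + B v r.1 * B v r.1 * (1 + Q₀ v)) =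
      (B x r.1 + 1 * r.2) + (β * B v r.1 + (β * B v r.1) * (β * B v r.1)) := by
    simp only [map_add, map_smul, LinearMap.add_apply, LinearMap.smul_apply, smul_eq_mul, hB.alt, hs]
    linear_combination (-(B v r.1 * B v r.1)) * hβ + (B v x * B v r.1) * h2
  show ψ (B (x + (B v x + β) • v) (r.1 + B v r.1 • v) + 1 * (r.2 + B v r.1 * B v r.1 * (1 + Q₀ v))) = ψ (B x r.1 + 1 * r.2)
  rw [e1, AddChar.map_add_eq_mul ψ (B x r.1 + 1 * r.2), AddChar.map_add_eq_mul ψ (β * B v r.1), hψ.sq]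
  rcases hψ.pm (β * B v r.1) with h4 | h4 <;> rw [h4] <;> norm_num

variable [FiniteDimensional ℂ V]

/-- multiplicities -/
noncomputable def m (Q₀ : W → F) (ρ : Representation ℂ (S B) V) (ψ : AddChar F ℂ) (p : W × F) : ℕ :=
  finrank ℂ (LinearMap.range (wt h2 hB Q₀ ρ ψ p))

include hQ in
theorem trace_m (p : W × F) : LinearMap.trace ℂ V (wt h2 hB Q₀ ρ ψ p) = m h2 hB Q₀ ρ ψ p :=
  trace_idem (wt_idem h2 hB hQ ρ p)

include hQ in
theorem m_conj {g : S B} {p p' : W × F} (h : ρ g * wt h2 hB Q₀ ρ ψ p * ρ g⁻¹ = wt h2 hB Q₀ ρ ψ p') :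
    m h2 hB Q₀ ρ ψ p' = m h2 hB Q₀ ρ ψ p := by
  have h3 : LinearMap.trace ℂ V (wt h2 hB Q₀ ρ ψ p') = LinearMap.trace ℂ V (wt h2 hB Q₀ ρ ψ p) := by
    rw [← h, OmWt.trace_conj]
  rw [trace_m h2 hB hQ, trace_m h2 hB hQ] at h3
  exact_mod_cast h3

omit [Fintype W] in
include h2 in
theorem exists_sqrt (t : F) : ∃ β : F, β * β = t := by
  haveI : CharP F 2 := CharTwo.of_one_ne_zero_of_two_eq_zero one_ne_zero h2
  obtain ⟨β, hβ⟩ := FiniteField.isSquare_of_char_two (ringChar.eq F 2) t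
  exact ⟨β, hβ.symm⟩

include hQ hψ in
/-- the multiplicity depends only on the sign -/
theorem m_eq {x x' : W} (h : ψ (Q₀ x) = ψ (Q₀ x')) : m h2 hB Q₀ ρ ψ (x', 1) = m h2 hB Q₀ ρ ψ (x, 1) := by
  have hdb : ∀ c : F, c + c = 0 := fun c => by linear_combination c * h2
  set r := x + x' with hr
  have hx' : x' = x + r := by rw [hr, ← add_assoc, dbl h2, zero_add]
  -- the equation
  have hR : ψ (Q₀ r + B r x * B r x) = 1 := by
    have e1 : Q₀ r = Q₀ x + Q₀ x' + B x x' := by rw [hr, hQ.add]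
    have e2 : B r x = B x x' := by
      rw [hr, map_add, LinearMap.add_apply, hB.alt, zero_add, symm h2 hB]
    rw [AddChar.map_add_eq_mul, hψ.sq, e2, e1, AddChar.map_add_eq_mul, AddChar.map_add_eq_mul, h]
    rcases hψ.pm (Q₀ x') with h4 | h4 <;> rcases hψ.pm (B x x') with h5 | h5 <;> rw [h4, h5] <;> norm_num
  obtain ⟨z, hz⟩ := hψ.ker _ hR
  set R := Q₀ r + B r x * B r x with hRd
  -- `t` with `t² R + t + 1 = 0`
  obtain ⟨t, ht⟩ : ∃ t : F, t * t * R + t + 1 = 0 := by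
    by_cases hR0 : R = 0
    · exact ⟨1, by rw [hR0]; linear_combination h2⟩
    · refine ⟨z / R, ?_⟩
      field_simp
      linear_combination hz + R * h2
  obtain ⟨κ, hκ⟩ := exists_sqrt h2 t
  -- the square root
  have hκ0 : κ ≠ 0 := by
    rintro rfl
    rw [mul_zero] at hκ
    rw [← hκ] at ht
    simp at ht
  have hβ : (κ⁻¹ + κ * B r x) * (κ⁻¹ + κ * B r x) = 1 + Q₀ (κ • r) := by
    rw [hQ.smul]
    have e1 : (κ * κ) * ((κ⁻¹ + κ * B r x) * (κ⁻¹ + κ * B r x)) = (κ * κ) * (1 + κ * κ * Q₀ r) := by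
      have e3 : κ * κ⁻¹ = 1 := mul_inv_cancel₀ hκ0
      have e2 : (κ * κ) * ((κ⁻¹ + κ * B r x) * (κ⁻¹ + κ * B r x)) = (κ * κ⁻¹ + κ * κ * B r x) * (κ * κ⁻¹ + κ * κ * B r x) := by ring
      rw [e2, e3, hκ]
      linear_combination (-1 : F) * ht + (1 + t * B r x + t * t * (B r x * B r x)) * h2 + (t * t) * hRd
    exact mul_left_cancel₀ (mul_ne_zero hκ0 hκ0) e1
  have h3 := wt_lev h2 hB ρ (v := κ • r) (x := x) hβ hQ hψ
  have e4 : x + (B (κ • r) x + (κ⁻¹ + κ * B r x)) • (κ • r) = x' := by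
    rw [hx', smul_smul]
    congr 1
    have : (B (κ • r) x + (κ⁻¹ + κ * B r x)) * κ = 1 := by
      rw [map_smul, LinearMap.smul_apply, smul_eq_mul]
      have e3 : κ⁻¹ * κ = 1 := inv_mul_cancel₀ hκ0
      linear_combination e3 + (κ * κ * B r x) * h2
    rw [this, one_smul]
  rw [e4] at h3
  exact m_conj h2 hB hQ ρ h3

end Cfsg.Agent.Lib.SpEvC
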