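import Cfsg.Agent.Lib.SpEvC

/-!
# Symplectic groups in characteristic two: counting (helper83)
-/

set_option autoImplicit false
set_option linter.all false

namespace Cfsg.Agent.Lib.SpEvD

open Cfsg.Agent.Lib.ClIso Cfsg.Agent.Lib.ClSymp AvgTrace Module SpEvA SpEvB SpEvC

variable {F W : Type*} [Field F] [Fintype F] [AddCommGroup W] [Module F W] [Fintype W]
  {B : LinearMap.BilinForm F W} (h2 : (2 : F) = 0) (hB : IsSymp B) {Q₀ : W → F} (hQ : QF B Q₀)
  {ψ : AddChar F ℂ} (hψ : GoodChar ψ)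

open Classical in
/-- the number of vectors with a given sign -/
noncomputable def nn (Q₀ : W → F) (ψ : AddChar F ℂ) (ε : ℂ) : ℕ := (Finset.univ.filter (fun x : W => ψ (Q₀ x) = ε)).card

include hψ in
open Classical in
theorem nn_add : nn Q₀ ψ 1 + nn Q₀ ψ (-1) = Fintype.card W := by
  unfold nn
  rw [← Finset.card_union_of_disjoint, ← Finset.card_univ]
  · congr 1
    ext x
    simp only [Finset.mem_union, Finset.mem_filter, Finset.mem_univ, true_and, iff_true]
    exact hψ.pm _
  · rw [Finset.disjoint_filter]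
    intro x _ h1 h3
    rw [h1] at h3
    norm_num at h3

include hψ in
open Classical in
theorem sum_eq : ∑ x : W, ψ (Q₀ x) = (nn Q₀ ψ 1 : ℂ) - nn Q₀ ψ (-1) := by
  have h1 : ∀ x : W, ψ (Q₀ x) = (if ψ (Q₀ x) = 1 then (1 : ℂ) else 0) - (if ψ (Q₀ x) = -1 then 1 else 0) := by
    intro x
    rcases hψ.pm (Q₀ x) with h | h <;> rw [h] <;> norm_num
  rw [Finset.sum_congr rfl (fun x _ => h1 x), Finset.sum_sub_distrib, Finset.sum_boole, Finset.sum_boole]
  rfl

include h2 hB hQ hψ in
theorem sum_sq : (∑ x : W, ψ (Q₀ x)) * (∑ x : W, ψ (Q₀ x)) = Fintype.card W := by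
  classical
  rw [Finset.sum_mul_sum]
  have h1 : ∀ x z : W, ψ (Q₀ x) * ψ (Q₀ (x + z)) = ψ (Q₀ z) * ψ (B x z) := by
    intro x z
    rw [hQ.add, AddChar.map_add_eq_mul, AddChar.map_add_eq_mul]
    rcases hψ.pm (Q₀ x) with h | h <;> rw [h] <;> ring
  have h3 : ∀ x : W, ∑ y : W, ψ (Q₀ x) * ψ (Q₀ y) = ∑ z : W, ψ (Q₀ z) * ψ (B x z) := by
    intro x
    rw [← Equiv.sum_comp (Equiv.addLeft x)]
    exact Finset.sum_congr rfl fun z _ => h1 x z
  rw [Finset.sum_congr rfl (fun x _ => h3 x), Finset.sum_comm]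
  have h4 : ∀ z : W, ∑ x : W, ψ (Q₀ z) * ψ (B x z) = if z = 0 then (Fintype.card W : ℂ) else 0 := by
    intro z
    rw [← Finset.mul_sum]
    have h5 := AddChar.sum_eq_ite (ψ.compAddMonoidHom (B.flip z).toAddMonoidHom)
    have h6 : ((ψ.compAddMonoidHom (B.flip z).toAddMonoidHom) = 0) ↔ z = 0 := by
      constructor
      · intro h
        by_contra hz
        obtain ⟨v, hv⟩ := hB.nondeg z hz
        apply hv
        apply prim hψ
        intro c
        have := DFunLike.congr_fun h (c • v)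
        change ψ (B (c • v) z) = 1 at this
        rw [map_smul, LinearMap.smul_apply, smul_eq_mul, symm h2 hB] at this
        exact this
      · rintro rfl
        ext x
        show ψ (B x 0) = 1
        rw [map_zero, AddChar.map_zero_eq_one]
    have h7 : ∑ x : W, ψ (B x z) = ∑ x : W, (ψ.compAddMonoidHom (B.flip z).toAddMonoidHom) x := rfl
    rw [h7, h5]
    simp only [h6]
    split_ifs with h
    · have : Q₀ z = 0 := by rw [h, Q_zero hQ]
      rw [this, AddChar.map_zero_eq_one, one_mul]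
    · rw [mul_zero]
  rw [Finset.sum_congr rfl (fun z _ => h4 z), Finset.sum_ite_eq' Finset.univ (0 : W), if_pos (Finset.mem_univ _)]

include h2 hB hQ hψ in
theorem nn_lower {K : ℕ} (hK : Fintype.card W = K * K) : K * K - K ≤ 2 * nn Q₀ ψ 1 ∧ K * K - K ≤ 2 * nn Q₀ ψ (-1) := by
  have h1 := sum_sq h2 hB hQ hψ
  rw [sum_eq hψ, hK] at h1
  have h3 := nn_add (Q₀ := Q₀) hψ
  rw [hK] at h3
  set a := nn Q₀ ψ 1
  set b := nn Q₀ ψ (-1)
  have h4 : ((a : ℤ) - b) * ((a : ℤ) - b) = (K : ℤ) * K := by exact_mod_cast h1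
  have h5 : ((a : ℤ) - b - K) * ((a : ℤ) - b + K) = 0 := by linear_combination h4
  have h6 : (a : ℤ) + b = (K : ℤ) * K := by exact_mod_cast h3
  rcases mul_eq_zero.1 h5 with h7 | h7
  · constructor
    · have : (K : ℤ) * K ≤ 2 * a + K := by omega
      have h8 : K * K ≤ 2 * a + K := by exact_mod_cast this
      omega
    · have : (K : ℤ) * K ≤ 2 * b + K := by omega
      have h8 : K * K ≤ 2 * b + K := by exact_mod_cast this
      omega
  · constructor
    · have : (K : ℤ) * K ≤ 2 * a + K := by omega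
      have h8 : K * K ≤ 2 * a + K := by exact_mod_cast this
      omega
    · have : (K : ℤ) * K ≤ 2 * b + K := by omega
      have h8 : K * K ≤ 2 * b + K := by exact_mod_cast this
      omega

open Classical in
/-- the number of fixed vectors with a given sign -/
noncomputable def ff (B : LinearMap.BilinForm F W) (Q₀ : W → F) (ψ : AddChar F ℂ) (v : W) (β : F) (ε : ℂ) : ℕ :=
  (Finset.univ.filter (fun x : W => B v x = β ∧ ψ (Q₀ x) = ε)).card

include h2 hB hQ hψ in
open Classical in
theorem ff_eq {v : W} (hv : v ≠ 0) {β : F} (hβ : β * β = 1 + Q₀ v) {ε : ℂ} (hε : ε = 1 ∨ ε = -1) :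
    2 * Fintype.card F * ff B Q₀ ψ v β ε = Fintype.card W := by
  -- the sign change
  obtain ⟨γ, hγ⟩ : ∃ γ, ψ γ = -1 := by
    by_contra hcon
    push Not at hcon
    apply hψ.ne
    ext x
    exact (hψ.pm x).resolve_right (hcon x)
  have hflip : ∀ x : W, B v x = β → ψ (Q₀ (x + γ • v)) = - ψ (Q₀ x) := by
    intro x hx
    have e2 : Q₀ (x + γ • v) = Q₀ x + ((γ * β) * (γ * β) + γ * β) + γ * γ := by
      rw [hQ.add, hQ.smul, map_smul, smul_eq_mul, symm h2 hB, hx]
      linear_combination (-(γ * γ)) * hβ - (γ * γ) * h2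
    rw [e2, AddChar.map_add_eq_mul, AddChar.map_add_eq_mul, AddChar.map_add_eq_mul ψ ((γ * β) * (γ * β)), hψ.sq, hψ.sq, hγ]
    rcases hψ.pm (γ * β) with h | h <;> rw [h] <;> ring
  have hBx : ∀ x : W, B v (x + γ • v) = B v x := by
    intro x
    rw [map_add, map_smul, hB.alt, smul_zero, add_zero]
  have hsw : ∀ ε : ℂ, ff B Q₀ ψ v β ε ≤ ff B Q₀ ψ v β (-ε) := by
    intro ε
    apply Finset.card_le_card_of_injOn (fun x => x + γ • v)
    · intro x hx
      simp only [Finset.coe_filter, Finset.mem_univ, true_and, Set.mem_setOf_eq] at hx ⊢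
      rw [hBx, hflip x hx.1, hx.2]
      exact ⟨hx.1, rfl⟩
    · intro x _ y _ h
      exact add_right_cancel h
  have h3 : ff B Q₀ ψ v β 1 = ff B Q₀ ψ v β (-1) := by
    apply le_antisymm (hsw 1)
    have := hsw (-1)
    rwa [neg_neg] at this
  have h4 : ff B Q₀ ψ v β 1 + ff B Q₀ ψ v β (-1) = Fintype.card {x : W // B v x = β} := by
    unfold ff
    rw [← Finset.card_union_of_disjoint, Fintype.card_subtype]
    · congr 1
      ext x
      simp only [Finset.mem_union, Finset.mem_filter, Finset.mem_univ, true_and]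
      constructor
      · rintro (h | h) <;> exact h.1
      · intro h
        rcases hψ.pm (Q₀ x) with h5 | h5
        · exact Or.inl ⟨h, h5⟩
        · exact Or.inr ⟨h, h5⟩
    · rw [Finset.disjoint_filter]
      intro x _ h1 h3
      have := h1.2.symm.trans h3.2
      norm_num at this
  have h5 := ClStab.card_fibre (B v) (fun h => by
    obtain ⟨w, hw⟩ := hB.nondeg v hv
    exact hw (congrArg (fun φ : W →ₗ[F] F => φ w) h)) β
  rw [Nat.card_eq_fintype_card, Nat.card_eq_fintype_card] at h5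
  rw [h5, ← h4]
  rcases hε with rfl | rfl
  · rw [← h3]; ring
  · rw [h3]; ring

end Cfsg.Agent.Lib.SpEvD
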