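import Cfsg.Agent.Lib.SpEvD
import Cfsg.Agent.Lib.SLGap

/-!
# Symplectic groups in characteristic two: traces (helper83)
-/

set_option autoImplicit false
set_option linter.all false

namespace Cfsg.Agent.Lib.SpEvE

open Cfsg.Agent.Lib.ClIso Cfsg.Agent.Lib.ClSymp AvgTrace Module SpEvA SpEvB SpEvC SpEvD

variable {F W : Type*} [Field F] [Fintype F] [AddCommGroup W] [Module F W] [Fintype W]
  {B : LinearMap.BilinForm F W} (h2 : (2 : F) = 0) (hB : IsSymp B) {Q₀ : W → F} (hQ : QF B Q₀)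
  {ψ : AddChar F ℂ} (hψ : GoodChar ψ) {V : Type*} [AddCommGroup V] [Module ℂ V] [FiniteDimensional ℂ V]
  (ρ : Representation ℂ (S B) V)

/-- the unit square root of the inverse -/
theorem exists_unit {s : F} (h2 : (2 : F) = 0) (hs : s ≠ 0) : ∃ a : Fˣ, ((a⁻¹ : Fˣ) : F) * ((a⁻¹ : Fˣ) : F) * s = 1 := by
  obtain ⟨β, hβ⟩ := exists_sqrt h2 s
  have hβ0 : β ≠ 0 := by rintro rfl; rw [mul_zero] at hβ; exact hs hβ.symm
  refine ⟨Units.mk0 β hβ0, ?_⟩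
  rw [Units.val_inv_eq_inv_val, Units.val_mk0, ← hβ]
  field_simp

include hQ in
/-- the number of weights for each non-zero second component -/
theorem sum_s {s : F} (hs : s ≠ 0) : ∑ x : W, m h2 hB Q₀ ρ ψ (x, s) = ∑ x : W, m h2 hB Q₀ ρ ψ (x, 1) := by
  obtain ⟨a, ha⟩ := exists_unit h2 hs
  have h1 : ∀ x : W, m h2 hB Q₀ ρ ψ (x, s) = m h2 hB Q₀ ρ ψ (((a⁻¹ : Fˣ) : F) • x, 1) := by
    intro x
    have h3 := m_conj h2 hB hQ ρ (wt_dt h2 hB hQ ρ (ψ := ψ) a (x, s))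
    rw [← h3]
    show m h2 hB Q₀ ρ ψ (((a⁻¹ : Fˣ) : F) • x, ((a⁻¹ : Fˣ) : F) * ((a⁻¹ : Fˣ) : F) * s) = _
    rw [ha]
  rw [Finset.sum_congr rfl (fun x _ => h1 x)]
  exact Equiv.sum_comp (LinearEquiv.smulOfUnit a⁻¹ : W ≃ₗ[F] W).toEquiv (fun x => m h2 hB Q₀ ρ ψ (x, 1))

include hQ hψ in
theorem finrank_eq : finrank ℂ V = ∑ x : W, m h2 hB Q₀ ρ ψ (x, 0) + (Fintype.card F - 1) * ∑ x : W, m h2 hB Q₀ ρ ψ (x, 1) := by
  classical
  have h := congrArg (LinearMap.trace ℂ V) (sum_wt h2 hB hQ hψ ρ)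
  rw [map_sum, LinearMap.trace_one, Finset.sum_congr rfl (fun x _ => trace_m h2 hB hQ ρ x)] at h
  have h1 : ∑ p : W × F, m h2 hB Q₀ ρ ψ p = finrank ℂ V := by exact_mod_cast h
  rw [← h1, Fintype.sum_prod_type_right, ← Finset.add_sum_erase Finset.univ _ (Finset.mem_univ (0 : F))]
  congr 1
  rw [Finset.sum_congr rfl (fun s hs => sum_s h2 hB hQ ρ (ψ := ψ) (Finset.ne_of_mem_erase hs)), Finset.sum_const,
    Finset.card_erase_of_mem (Finset.mem_univ _), Finset.card_univ, smul_eq_mul]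

include hQ hψ in
/-- the trace of a transvection on the weights -/
theorem trace_U : LinearMap.trace ℂ V (ρ (U h2 hB (Q₀ := Q₀) (0, 1))) =
    (∑ x : W, m h2 hB Q₀ ρ ψ (x, 0) : ℕ) - (∑ x : W, m h2 hB Q₀ ρ ψ (x, 1) : ℕ) := by
  classical
  have h : ρ (U h2 hB (Q₀ := Q₀) (0, 1)) = ∑ p : W × F, ψ p.2 • wt h2 hB Q₀ ρ ψ p := by
    conv_lhs => rw [← mul_one (ρ (U h2 hB (Q₀ := Q₀) (0, 1))), ← sum_wt h2 hB hQ hψ ρ, Finset.mul_sum]
    refine Finset.sum_congr rfl fun p _ => ?_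
    rw [rho_wt h2 hB hQ]
    simp
  rw [h, map_sum, Fintype.sum_prod_type_right, ← Finset.add_sum_erase Finset.univ _ (Finset.mem_univ (0 : F))]
  have h1 : ∀ s : F, ∑ x : W, LinearMap.trace ℂ V (ψ s • wt h2 hB Q₀ ρ ψ (x, s)) = ψ s * (∑ x : W, m h2 hB Q₀ ρ ψ (x, s) : ℕ) := by
    intro s
    rw [Nat.cast_sum, Finset.mul_sum]
    refine Finset.sum_congr rfl fun x _ => ?_
    rw [map_smul, trace_m h2 hB hQ, smul_eq_mul]
  rw [h1, AddChar.map_zero_eq_one, one_mul, sub_eq_add_neg]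
  congr 1
  have h3 : ∀ s ∈ Finset.univ.erase (0 : F), ∑ x : W, LinearMap.trace ℂ V (ψ s • wt h2 hB Q₀ ρ ψ (x, s)) =
      ψ s * (∑ x : W, m h2 hB Q₀ ρ ψ (x, 1) : ℕ) := by
    intro s hs
    rw [h1, sum_s h2 hB hQ ρ (Finset.ne_of_mem_erase hs)]
  rw [Finset.sum_congr rfl h3, ← Finset.sum_mul]
  have h4 : ∑ s : F, ψ s = 0 := AddChar.sum_eq_zero_iff_ne_zero.2 hψ.ne
  rw [← Finset.add_sum_erase Finset.univ _ (Finset.mem_univ (0 : F)), AddChar.map_zero_eq_one] at h4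
  have h5 : ∑ s ∈ Finset.univ.erase (0 : F), ψ s = -1 := by linear_combination h4
  rw [h5]
  ring

omit [Fintype F] [AddCommGroup W] [Module F W] [Fintype W] [Field F] in
/-- an involution commuting with an idempotent -/
theorem invol_trace {τ e : V →ₗ[ℂ] V} (he : e * e = e) (hτ : τ * τ = 1) (hc : τ * e = e * τ) :
    ∃ a : ℕ, LinearMap.trace ℂ V (τ * e) = 2 * a - LinearMap.trace ℂ V e := by
  let p : V →ₗ[ℂ] V := (2⁻¹ : ℂ) • (e + τ * e)
  have h1 : τ * e * (τ * e) = e := by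
    rw [mul_assoc, ← mul_assoc e, ← hc, mul_assoc τ e e, he, ← mul_assoc, hτ, one_mul]
  have h3 : e * (τ * e) = τ * e := by rw [← mul_assoc, ← hc, mul_assoc, he]
  have h4 : τ * e * e = τ * e := by rw [mul_assoc, he]
  have hp : p * p = p := by
    show ((2⁻¹ : ℂ) • (e + τ * e)) * ((2⁻¹ : ℂ) • (e + τ * e)) = (2⁻¹ : ℂ) • (e + τ * e)
    rw [smul_mul_smul_comm, add_mul, mul_add, mul_add, he, h3, h4, h1]
    module
  refine ⟨finrank ℂ (LinearMap.range p), ?_⟩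
  rw [← trace_idem hp]
  show _ = 2 * LinearMap.trace ℂ V ((2⁻¹ : ℂ) • (e + τ * e)) - _
  rw [map_smul, map_add, smul_eq_mul]
  ring

omit [Fintype F] [Fintype W] [FiniteDimensional ℂ V] in
include h2 in
theorem tau_sq (v : W) : lev B (tv hB 1 v) * lev B (tv hB 1 v) = 1 := by
  rw [← map_mul, tv_mul]
  have : (1 : F) + 1 = 0 := by linear_combination h2
  rw [this, tv_zero, map_one]

include hQ hψ in
/-- the trace of a transvection of the Levi subgroup on the weights with second component one -/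
theorem trace_tau_one {v : W} (hv : v ≠ 0) {β : F} (hβ : β * β = 1 + Q₀ v) (x : W) :
    ∃ a : ℕ, LinearMap.trace ℂ V (ρ (lev B (tv hB 1 v)) * wt h2 hB Q₀ ρ ψ (x, 1)) = a - ((open Classical in if B v x = β then m h2 hB Q₀ ρ ψ (x, 1) else 0 : ℕ) : ℂ) := by
  classical
  have hw := wt_lev h2 hB ρ (v := v) (x := x) hβ hQ hψ
  have hττ : ρ (lev B (tv hB 1 v)) * ρ (lev B (tv hB 1 v)) = 1 := by rw [← map_mul, tau_sq h2 hB, map_one]
  by_cases h : B v x = β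
  · have e1 : x + (B v x + β) • v = x := by
      rw [h, show β + β = 0 by linear_combination β * h2, zero_smul, add_zero]
    rw [e1] at hw
    have hc : ρ (lev B (tv hB 1 v)) * wt h2 hB Q₀ ρ ψ (x, 1) = wt h2 hB Q₀ ρ ψ (x, 1) * ρ (lev B (tv hB 1 v)) := by
      conv_rhs => rw [← hw]
      rw [mul_assoc, rho_inv_mul, mul_one]
    obtain ⟨a, ha⟩ := invol_trace (wt_idem h2 hB hQ ρ (ψ := ψ) (x, 1)) hττ hc
    refine ⟨2 * a, ?_⟩
    rw [ha, if_pos h, trace_m h2 hB hQ]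
    push_cast
    ring
  · refine ⟨0, ?_⟩
    rw [if_neg h, Nat.cast_zero, sub_zero]
    have hne : (x + (B v x + β) • v, (1 : F)) ≠ (x, 1) := by
      intro he
      have h3 := congrArg Prod.fst he
      simp only [add_eq_left] at h3
      rcases smul_eq_zero.1 h3 with h4 | h4
      · apply h
        linear_combination h4 - β * h2
      · exact hv h4
    have h1 : ρ (lev B (tv hB 1 v)) * wt h2 hB Q₀ ρ ψ (x, 1) = wt h2 hB Q₀ ρ ψ (x + (B v x + β) • v, 1) * ρ (lev B (tv hB 1 v)) := by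
      rw [← hw, mul_assoc, rho_inv_mul, mul_one]
    rw [← wt_idem h2 hB hQ, ← mul_assoc, LinearMap.trace_mul_comm, ← mul_assoc]
    rw [mul_assoc, h1, ← mul_assoc, wt_orth h2 hB hQ hψ ρ hne.symm, zero_mul, map_zero]

omit [Fintype F] [Fintype W] [FiniteDimensional ℂ V] in
theorem dt_lev (a : Fˣ) (g : Spg B) : dt B a * lev B g * (dt B a)⁻¹ = lev B g := by
  rw [mul_inv_eq_iff_eq_mul]
  apply Spg_ext
  intro x
  rfl

include hQ in
theorem trace_tau_s {v : W} {s : F} (hs : s ≠ 0) : ∑ x : W, LinearMap.trace ℂ V (ρ (lev B (tv hB 1 v)) * wt h2 hB Q₀ ρ ψ (x, s)) =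
    ∑ x : W, LinearMap.trace ℂ V (ρ (lev B (tv hB 1 v)) * wt h2 hB Q₀ ρ ψ (x, 1)) := by
  obtain ⟨a, ha⟩ := exists_unit h2 hs
  have h1 : ∀ x : W, LinearMap.trace ℂ V (ρ (lev B (tv hB 1 v)) * wt h2 hB Q₀ ρ ψ (x, s)) =
      LinearMap.trace ℂ V (ρ (lev B (tv hB 1 v)) * wt h2 hB Q₀ ρ ψ (((a⁻¹ : Fˣ) : F) • x, 1)) := by
    intro x
    have h3 := wt_dt h2 hB hQ ρ (ψ := ψ) a (x, s)
    rw [← OmWt.trace_conj ρ (dt B a)]
    congr 1
    have e1 : ρ (dt B a) * (ρ (lev B (tv hB 1 v)) * wt h2 hB Q₀ ρ ψ (x, s)) * ρ (dt B a)⁻¹ =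
        (ρ (dt B a) * ρ (lev B (tv hB 1 v)) * ρ (dt B a)⁻¹) * (ρ (dt B a) * wt h2 hB Q₀ ρ ψ (x, s) * ρ (dt B a)⁻¹) := by
      calc _ = ρ (dt B a) * ρ (lev B (tv hB 1 v)) * 1 * wt h2 hB Q₀ ρ ψ (x, s) * ρ (dt B a)⁻¹ := by
            simp only [mul_one, mul_assoc]
        _ = ρ (dt B a) * ρ (lev B (tv hB 1 v)) * (ρ (dt B a)⁻¹ * ρ (dt B a)) * wt h2 hB Q₀ ρ ψ (x, s) * ρ (dt B a)⁻¹ := by
            rw [rho_inv_mul]
        _ = _ := by simp only [mul_assoc]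
    rw [e1, h3, ← map_mul, ← map_mul, dt_lev]
    show _ * wt h2 hB Q₀ ρ ψ (((a⁻¹ : Fˣ) : F) • x, ((a⁻¹ : Fˣ) : F) * ((a⁻¹ : Fˣ) : F) * s) = _
    rw [ha]
  rw [Finset.sum_congr rfl (fun x _ => h1 x)]
  exact Equiv.sum_comp (LinearEquiv.smulOfUnit a⁻¹ : W ≃ₗ[F] W).toEquiv
    (fun x => LinearMap.trace ℂ V (ρ (lev B (tv hB 1 v)) * wt h2 hB Q₀ ρ ψ (x, 1)))

/-- the projection on the fixed points of the centre -/
noncomputable def E0 (Q₀ : W → F) (ρ : Representation ℂ (S B) V) (ψ : AddChar F ℂ) : V →ₗ[ℂ] V :=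
  ∑ x : W, wt h2 hB Q₀ ρ ψ (x, 0)

include hQ hψ in
/-- if the Levi transvection is trivial on the fixed points -/
theorem key_ineq {v : W} (hv : v ≠ 0) {β : F} (hβ : β * β = 1 + Q₀ v)
    (h : LinearMap.trace ℂ V (ρ (lev B (tv hB 1 v)) * E0 h2 hB Q₀ ρ ψ) = (∑ x : W, m h2 hB Q₀ ρ ψ (x, 0) : ℕ)) :
    ∑ x : W, m h2 hB Q₀ ρ ψ (x, 1) ≤ (Fintype.card F - 1) * (open Classical in ∑ x : W, if B v x = β then m h2 hB Q₀ ρ ψ (x, 1) else 0) := by
  classical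
  have hconj : LinearMap.trace ℂ V (ρ (lev B (tv hB 1 v))) = LinearMap.trace ℂ V (ρ (U h2 hB (Q₀ := Q₀) (0, 1))) := by
    have hne : (e : (F × F) × W) ≠ 0 := by
      intro h
      have := congrArg (fun v : (F × F) × W => v.1.1) h
      simp [e] at this
    have hv' : ((0, v) : (F × F) × W) ≠ 0 := by
      intro h
      exact hv (congrArg Prod.snd h)
    obtain ⟨g, hg⟩ := exists_map (isSymp_sform h2 hB) hne hv'
    rw [U_tv h2 hB 1 hQ, lev_tv h2 hB, ← hg, ← tv_conj, map_mul ρ, map_mul ρ, OmWt.trace_conj]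
  rw [trace_U h2 hB hQ hψ] at hconj
  -- decompose
  have h1 : LinearMap.trace ℂ V (ρ (lev B (tv hB 1 v))) = LinearMap.trace ℂ V (ρ (lev B (tv hB 1 v)) * E0 h2 hB Q₀ ρ ψ) +
      ((Fintype.card F - 1 : ℕ) : ℂ) * ∑ x : W, LinearMap.trace ℂ V (ρ (lev B (tv hB 1 v)) * wt h2 hB Q₀ ρ ψ (x, 1)) := by
    conv_lhs => rw [← mul_one (ρ (lev B (tv hB 1 v))), ← sum_wt h2 hB hQ hψ ρ, Finset.mul_sum, map_sum, Fintype.sum_prod_type_right,
      ← Finset.add_sum_erase Finset.univ _ (Finset.mem_univ (0 : F))]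
    congr 1
    · unfold E0
      rw [Finset.mul_sum, map_sum]
    · rw [Finset.sum_congr rfl (fun s hs => trace_tau_s h2 hB hQ ρ (ψ := ψ) (v := v) (Finset.ne_of_mem_erase hs)), Finset.sum_const,
        Finset.card_erase_of_mem (Finset.mem_univ _), Finset.card_univ, nsmul_eq_mul]
  choose a ha using fun x => trace_tau_one h2 hB hQ hψ ρ hv hβ x
  rw [Finset.sum_congr rfl (fun x _ => ha x), Finset.sum_sub_distrib, ← Nat.cast_sum, ← Nat.cast_sum, hconj, h] at h1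
  have h3 : ((∑ x : W, m h2 hB Q₀ ρ ψ (x, 1) : ℕ) : ℂ) + ((Fintype.card F - 1 : ℕ) : ℂ) * (∑ x, a x : ℕ) =
      ((Fintype.card F - 1 : ℕ) : ℂ) * (∑ x : W, if B v x = β then m h2 hB Q₀ ρ ψ (x, 1) else 0 : ℕ) := by
    linear_combination -h1
  have h4 : (∑ x : W, m h2 hB Q₀ ρ ψ (x, 1)) + (Fintype.card F - 1) * (∑ x, a x) =
      (Fintype.card F - 1) * (∑ x : W, if B v x = β then m h2 hB Q₀ ρ ψ (x, 1) else 0) := by exact_mod_cast h3
  omega

end Cfsg.Agent.Lib.SpEvE
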