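import Cfsg.Agent.Lib.SpEvE

/-!
# Symplectic groups in characteristic two: the inductive step (helper83)
-/

set_option autoImplicit false
set_option linter.all false

namespace Cfsg.Agent.Lib.SpEvF

open Cfsg.Agent.Lib.ClIso Cfsg.Agent.Lib.ClSymp AvgTrace Module SpEvA SpEvB SpEvC SpEvD SpEvE

universe v

/-- the alternative for all representations -/
theorem alt {H : Type*} [Group H] [Finite H] {c T' : ℕ}
    (hT' : ∀ (V : Type v) [AddCommGroup V] [Module ℂ V] [FiniteDimensional ℂ V] (σ : Representation ℂ H V),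
      σ.IsIrreducible → (∃ g, σ g ≠ 1) → T' ≤ c * finrank ℂ V)
    (V : Type v) [AddCommGroup V] [Module ℂ V] [FiniteDimensional ℂ V] (σ : Representation ℂ H V) :
    T' ≤ c * finrank ℂ V ∨ ∀ g : H, σ g = 1 := by
  refine CharBasic.rep_induction (G := H) (P := fun V _ _ _ σ => T' ≤ c * finrank ℂ V ∨ ∀ g : H, σ g = 1) ?_ ?_ ?_ V σ
  · intro V _ _ _ σ hV
    right
    intro g
    exact LinearMap.ext fun x => Subsingleton.elim _ _
  · intro V _ _ _ σ hσ
    by_cases h : ∃ g, σ g ≠ 1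
    · exact Or.inl (hT' V σ hσ h)
    · right
      push Not at h
      exact h
  · intro V _ _ _ σ S T hST _ _ h1 h2
    rcases h1 with h1 | h1
    · left
      exact h1.trans (Nat.mul_le_mul_left _ (Submodule.finrank_le _))
    · rcases h2 with h2 | h2
      · left
        exact h2.trans (Nat.mul_le_mul_left _ (Submodule.finrank_le _))
      · right
        intro g
        apply LinearMap.ext
        intro x
        have hx : x ∈ S.toSubmodule ⊔ T.toSubmodule := by rw [hST.sup_eq_top]; exact Submodule.mem_top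
        obtain ⟨y, hy, z, hz, rfl⟩ := Submodule.mem_sup.1 hx
        have h3 := congrArg (fun f : S.toSubmodule →ₗ[ℂ] S.toSubmodule => ((f ⟨y, hy⟩ : S.toSubmodule) : V)) (h1 g)
        have h4 := congrArg (fun f : T.toSubmodule →ₗ[ℂ] T.toSubmodule => ((f ⟨z, hz⟩ : T.toSubmodule) : V)) (h2 g)
        rw [map_add]
        exact congrArg₂ (· + ·) h3 h4

variable {F W : Type*} [Field F] [Fintype F] [AddCommGroup W] [Module F W] [Fintype W]
  {B : LinearMap.BilinForm F W} (h2 : (2 : F) = 0) (hB : IsSymp B) {Q₀ : W → F} (hQ : QF B Q₀)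
  {ψ : AddChar F ℂ} (hψ : GoodChar ψ) {V : Type v} [AddCommGroup V] [Module ℂ V] [FiniteDimensional ℂ V]
  (ρ : Representation ℂ (S B) V)

include hQ hψ in
open Classical in
theorem exists_mu : ∃ a b : ℕ, ∀ x : W, m h2 hB Q₀ ρ ψ (x, 1) = if ψ (Q₀ x) = 1 then a else b := by
  by_cases h : ∃ y : W, ψ (Q₀ y) = -1
  · obtain ⟨y, hy⟩ := h
    refine ⟨m h2 hB Q₀ ρ ψ (0, 1), m h2 hB Q₀ ρ ψ (y, 1), fun x => ?_⟩
    split_ifs with hx
    · apply m_eq h2 hB hQ hψ
      rw [Q_zero hQ, AddChar.map_zero_eq_one, hx]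
    · apply m_eq h2 hB hQ hψ
      rw [hy, (hψ.pm (Q₀ x)).resolve_left hx]
  · push Not at h
    refine ⟨m h2 hB Q₀ ρ ψ (0, 1), 0, fun x => ?_⟩
    have hx := (hψ.pm (Q₀ x)).resolve_right (h x)
    rw [if_pos hx]
    apply m_eq h2 hB hQ hψ
    rw [Q_zero hQ, AddChar.map_zero_eq_one, hx]

include hψ in
open Classical in
theorem not_one_iff (x : W) : ¬ ψ (Q₀ x) = 1 ↔ ψ (Q₀ x) = -1 := by
  constructor
  · intro h
    exact (hψ.pm _).resolve_left h
  · intro h h1
    rw [h] at h1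
    norm_num at h1

include hψ in
open Classical in
theorem sum_two (a b : ℕ) (P : W → Prop) : (∑ x : W, if P x then (if ψ (Q₀ x) = 1 then a else b) else 0) =
    a * (Finset.univ.filter (fun x : W => P x ∧ ψ (Q₀ x) = 1)).card + b * (Finset.univ.filter (fun x : W => P x ∧ ψ (Q₀ x) = -1)).card := by
  have h1 : ∀ x : W, (if P x then (if ψ (Q₀ x) = 1 then a else b) else 0) =
      a * (if P x ∧ ψ (Q₀ x) = 1 then 1 else 0) + b * (if P x ∧ ψ (Q₀ x) = -1 then 1 else 0) := by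
    intro x
    by_cases hP : P x
    · by_cases hx : ψ (Q₀ x) = 1
      · have : ¬ ψ (Q₀ x) = -1 := fun h => by rw [hx] at h; norm_num at h
        simp [hP, hx]
        norm_num
      · have := (not_one_iff hψ x).1 hx
        simp [hP, this]
        norm_num
    · simp [hP]
  rw [Finset.sum_congr rfl (fun x _ => h1 x), Finset.sum_add_distrib, ← Finset.mul_sum, ← Finset.mul_sum, Finset.sum_boole, Finset.sum_boole]
  simp

include hQ hψ in
/-- lower bound for the number of weights -/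
theorem N_lower {K : ℕ} (hK : Fintype.card W = K * K) {x : W} (hx : m h2 hB Q₀ ρ ψ (x, 1) ≠ 0) :
    K * K - K ≤ 2 * ∑ x : W, m h2 hB Q₀ ρ ψ (x, 1) := by
  classical
  obtain ⟨a, b, hab⟩ := exists_mu h2 hB hQ hψ ρ
  have h1 := sum_two (Q₀ := Q₀) hψ a b (fun _ => True)
  simp only [if_true, true_and] at h1
  rw [Finset.sum_congr rfl (fun x _ => hab x), h1]
  obtain ⟨h3, h4⟩ := nn_lower h2 hB hQ hψ hK
  unfold nn at h3 h4
  set A := (Finset.univ.filter (fun x : W => ψ (Q₀ x) = 1)).card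
  set C := (Finset.univ.filter (fun x : W => ψ (Q₀ x) = -1)).card
  rw [hab] at hx
  split_ifs at hx with h5
  · have : 1 * A ≤ a * A := Nat.mul_le_mul_right _ (by omega)
    omega
  · have : 1 * C ≤ b * C := Nat.mul_le_mul_right _ (by omega)
    omega

include hQ hψ in
/-- the contradiction for large spaces -/
theorem contra {K : ℕ} (hK : Fintype.card W = K * K) (hKq : Fintype.card F < K) {x : W} (hx : m h2 hB Q₀ ρ ψ (x, 1) ≠ 0)
    {v : W} (hv : v ≠ 0) {β : F} (hβ : β * β = 1 + Q₀ v) :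
    ¬ ∑ x : W, m h2 hB Q₀ ρ ψ (x, 1) ≤ (Fintype.card F - 1) * (open Classical in ∑ x : W, if B v x = β then m h2 hB Q₀ ρ ψ (x, 1) else 0) := by
  classical
  intro hle
  obtain ⟨a, b, hab⟩ := exists_mu h2 hB hQ hψ ρ
  have h1 := sum_two (Q₀ := Q₀) hψ a b (fun _ => True)
  have h5 := sum_two (Q₀ := Q₀) hψ a b (fun x => B v x = β)
  simp only [if_true, true_and] at h1
  rw [Finset.sum_congr rfl (fun x _ => hab x), h1] at hle
  have e1 : (∑ x : W, if B v x = β then m h2 hB Q₀ ρ ψ (x, 1) else 0) =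
      ∑ x : W, if B v x = β then (if ψ (Q₀ x) = 1 then a else b) else 0 :=
    Finset.sum_congr rfl (fun x _ => by rw [hab x])
  rw [e1, h5] at hle
  obtain ⟨h3, h4⟩ := nn_lower h2 hB hQ hψ hK
  have h6 := ff_eq h2 hB hQ hψ hv hβ (Or.inl rfl)
  have h7 := ff_eq h2 hB hQ hψ hv hβ (Or.inr rfl)
  unfold nn at h3 h4
  unfold ff at h6 h7
  rw [hK] at h6 h7
  set A := (Finset.univ.filter (fun x : W => ψ (Q₀ x) = 1)).card
  set C := (Finset.univ.filter (fun x : W => ψ (Q₀ x) = -1)).card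
  set A' := (Finset.univ.filter (fun x : W => B v x = β ∧ ψ (Q₀ x) = 1)).card
  set C' := (Finset.univ.filter (fun x : W => B v x = β ∧ ψ (Q₀ x) = -1)).card
  set q := Fintype.card F with hq
  have hq1 : 1 < q := Fintype.one_lt_card
  have hab0 : 1 ≤ a + b := by
    rw [hab] at hx
    split_ifs at hx <;> omega
  -- everything in ℤ
  have hq1' : (1 : ℤ) < q := by exact_mod_cast hq1
  have hle' : (a : ℤ) * A + b * C ≤ (q - 1) * (a * A' + b * C') := by
    have := (Nat.cast_le (α := ℤ)).mpr hle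
    rw [Nat.cast_mul (q - 1), Nat.cast_sub hq1.le] at this
    push_cast at this
    exact this
  have h3' : (K : ℤ) * K - K ≤ 2 * A := by
    have : K * K ≤ 2 * A + K := by omega
    have : (K : ℤ) * K ≤ 2 * A + K := by exact_mod_cast this
    linarith
  have h4' : (K : ℤ) * K - K ≤ 2 * C := by
    have : K * K ≤ 2 * C + K := by omega
    have : (K : ℤ) * K ≤ 2 * C + K := by exact_mod_cast this
    linarith
  have h6' : 2 * (q : ℤ) * A' = K * K := by exact_mod_cast h6
  have h7' : 2 * (q : ℤ) * C' = K * K := by exact_mod_cast h7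
  have hKq' : (q : ℤ) < K := by exact_mod_cast hKq
  have hab0' : (1 : ℤ) ≤ a + b := by exact_mod_cast hab0
  have ha0 : (0 : ℤ) ≤ a := Int.natCast_nonneg a
  have hb0 : (0 : ℤ) ≤ b := Int.natCast_nonneg b
  have e2 : (q : ℤ) * ((a + b) * ((K : ℤ) * K - K)) ≤ q * (2 * (a * A + b * C)) := by
    apply mul_le_mul_of_nonneg_left _ (by linarith)
    nlinarith [mul_le_mul_of_nonneg_left h3' ha0, mul_le_mul_of_nonneg_left h4' hb0]
  have e3 : (q : ℤ) * (2 * (a * A + b * C)) ≤ q * (2 * ((q - 1) * (a * A' + b * C'))) := by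
    apply mul_le_mul_of_nonneg_left _ (by linarith)
    linarith
  have e4 : (q : ℤ) * (2 * ((q - 1) * (a * A' + b * C'))) = (q - 1) * ((a + b) * (K * K)) := by
    linear_combination (q - 1) * a * h6' + (q - 1) * b * h7'
  have e5 : ((a : ℤ) + b) * (q * ((K : ℤ) * K - K)) ≤ (a + b) * ((q - 1) * (K * K)) := by
    calc ((a : ℤ) + b) * (q * ((K : ℤ) * K - K)) = (q : ℤ) * ((a + b) * ((K : ℤ) * K - K)) := by ring
      _ ≤ (q - 1) * ((a + b) * (K * K)) := by rw [← e4]; exact e2.trans e3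
      _ = _ := by ring
  have e6 := le_of_mul_le_mul_left e5 (by linarith)
  have hK0 : (0 : ℤ) < K := by linarith
  have e7 : (K : ℤ) * K ≤ K * q := by linarith
  have e8 := le_of_mul_le_mul_left e7 hK0
  linarith

include hQ hψ in
theorem E0_eq : E0 h2 hB Q₀ ρ ψ = av ρ (fun c : F => U h2 hB (Q₀ := Q₀) (0, c)) := by
  classical
  have h1 : ∀ p : W × F, av ρ (fun c : F => U h2 hB (Q₀ := Q₀) (0, c)) * wt h2 hB Q₀ ρ ψ p = if p.2 = 0 then wt h2 hB Q₀ ρ ψ p else 0 := by
    intro p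
    unfold av
    rw [smul_mul_assoc, Finset.sum_mul, Finset.sum_congr rfl (fun c _ => rho_wt h2 hB hQ ρ p (0, c)), ← Finset.sum_smul]
    simp only [map_zero, zero_add]
    have h3 : ∑ c : F, ψ (p.2 * c) = if p.2 = 0 then (Fintype.card F : ℂ) else 0 := by
      split_ifs with h
      · rw [h]; simp
      · exact (Equiv.sum_comp (Equiv.mulLeft₀ p.2 h) (fun c => ψ c)).trans (AddChar.sum_eq_zero_iff_ne_zero.2 hψ.ne)
    rw [h3]
    split_ifs with h
    · rw [smul_smul, inv_mul_cancel₀ (Nat.cast_ne_zero.2 Fintype.card_ne_zero), one_smul]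
    · rw [zero_smul, smul_zero]
  rw [← mul_one (av ρ (fun c : F => U h2 hB (Q₀ := Q₀) (0, c))), ← sum_wt h2 hB hQ hψ ρ, Finset.mul_sum,
    Finset.sum_congr rfl (fun p _ => h1 p), Fintype.sum_prod_type_right, ← Finset.add_sum_erase Finset.univ _ (Finset.mem_univ (0 : F))]
  have h4 : ∑ s ∈ Finset.univ.erase (0 : F), ∑ x : W, (if ((x, s) : W × F).2 = 0 then wt h2 hB Q₀ ρ ψ (x, s) else 0) = 0 := by
    apply Finset.sum_eq_zero
    intro s hs
    apply Finset.sum_eq_zero
    intro x _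
    rw [if_neg (Finset.ne_of_mem_erase hs)]
  rw [h4, add_zero]
  unfold E0
  exact Finset.sum_congr rfl fun x _ => by rw [if_pos rfl]

include hQ hψ in
theorem E0_idem : E0 h2 hB Q₀ ρ ψ * E0 h2 hB Q₀ ρ ψ = E0 h2 hB Q₀ ρ ψ := by
  rw [E0_eq h2 hB hQ hψ]
  apply av_idem
  intro a b
  rw [← U_add h2 hB hQ]
  congr 1
  simp

include hQ hψ in
theorem lev_E0 (g : Spg B) : ρ (lev B g) * E0 h2 hB Q₀ ρ ψ = E0 h2 hB Q₀ ρ ψ * ρ (lev B g) := by
  have h1 : ρ (lev B g) * E0 h2 hB Q₀ ρ ψ * ρ (lev B g)⁻¹ = E0 h2 hB Q₀ ρ ψ := by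
    rw [E0_eq h2 hB hQ hψ, av_conj]
    congr 1
    funext c
    rw [U_tv h2 hB c hQ, tv_conj, lev_apply]
    congr 1
    show ((1, 0), (g : W ≃ₗ[F] W) 0) = e
    rw [map_zero]
    rfl
  conv_rhs => rw [← h1]
  rw [mul_assoc, rho_inv_mul, mul_one]

include hQ in
theorem trace_E0 : LinearMap.trace ℂ V (E0 h2 hB Q₀ ρ ψ) = (∑ x : W, m h2 hB Q₀ ρ ψ (x, 0) : ℕ) := by
  unfold E0
  rw [map_sum, Nat.cast_sum]
  exact Finset.sum_congr rfl fun x _ => trace_m h2 hB hQ ρ _

include hQ hψ in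
/-- a non-trivial representation has weights with second component one -/
theorem exists_wt (hgen : TU (isSymp_sform h2 hB) ⊤ = ⊤) (hρ : ∃ g, ρ g ≠ 1) : ∃ x : W, m h2 hB Q₀ ρ ψ (x, 1) ≠ 0 := by
  classical
  by_contra hcon
  push Not at hcon
  obtain ⟨g, hg⟩ := hρ
  apply hg
  have hs : ∀ (x : W) (s : F), s ≠ 0 → wt h2 hB Q₀ ρ ψ (x, s) = 0 := by
    intro x s hs
    have h1 := sum_s h2 hB hQ ρ (ψ := ψ) hs
    rw [Finset.sum_congr rfl (fun x _ => hcon x), Finset.sum_const_zero] at h1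
    have h3 := (Finset.sum_eq_zero_iff.1 h1) x (Finset.mem_univ _)
    unfold m at h3
    rwa [Submodule.finrank_eq_zero, LinearMap.range_eq_bot] at h3
  have hU : ∀ c : F, ρ (U h2 hB (Q₀ := Q₀) (0, c)) = 1 := by
    intro c
    rw [← mul_one (ρ (U h2 hB (Q₀ := Q₀) (0, c))), ← sum_wt h2 hB hQ hψ ρ, Finset.mul_sum]
    refine Finset.sum_congr rfl fun p _ => ?_
    rw [rho_wt h2 hB hQ]
    by_cases hp : p.2 = 0
    · rw [hp]; simp
    · have : wt h2 hB Q₀ ρ ψ p = 0 := hs p.1 p.2 hp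
      rw [this, smul_zero]
  have htv : ∀ (c : F) (w : (F × F) × W), ρ (tv (isSymp_sform h2 hB) c w) = 1 := by
    intro c w
    by_cases hw : w = 0
    · rw [hw, tv_zero_right, map_one]
    · have hne : (e : (F × F) × W) ≠ 0 := by
        intro h
        have := congrArg (fun v : (F × F) × W => v.1.1) h
        simp [e] at this
      obtain ⟨k, hk⟩ := exists_map (isSymp_sform h2 hB) hne hw
      rw [← hk, ← tv_conj, map_mul, map_mul, ← U_tv h2 hB c hQ, hU, mul_one, rho_mul_inv]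
  have hmem : g ∈ TU (isSymp_sform h2 hB) ⊤ := by rw [hgen]; exact Subgroup.mem_top g
  induction hmem using Subgroup.closure_induction with
  | mem x hx =>
    obtain ⟨c, w, -, rfl⟩ := hx
    exact htv c w
  | one => exact map_one ρ
  | mul a b _ _ ha hb =>
    by_cases h1 : ρ a = 1
    · by_cases h3 : ρ b = 1
      · rw [map_mul, h1, h3, mul_one]
      · exact absurd (hb h3) h3
    · exact absurd (ha h1) h1
  | inv a _ ha =>
    by_cases h1 : ρ a = 1
    · have h3 := rho_inv_mul ρ a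
      rw [h1, mul_one] at h3
      exact h3
    · exact absurd (ha h1) h1

include hQ hψ in
/-- the inductive step -/
theorem step {K : ℕ} (hK : Fintype.card W = K * K) (hKq : Fintype.card F ≤ K) (hgen : TU (isSymp_sform h2 hB) ⊤ = ⊤)
    (hIH : ∀ (V : Type v) [AddCommGroup V] [Module ℂ V] [FiniteDimensional ℂ V] (σ : Representation ℂ (Spg B) V),
      σ.IsIrreducible → (∃ g, σ g ≠ 1) → (K - 1) * (K - Fintype.card F) ≤ (2 * (Fintype.card F + 1)) * finrank ℂ V)
    (hρ : ∃ g, ρ g ≠ 1) :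
    (Fintype.card F * K - 1) * (Fintype.card F * K - Fintype.card F) ≤ (2 * (Fintype.card F + 1)) * finrank ℂ V := by
  classical
  obtain ⟨x, hx⟩ := exists_wt h2 hB hQ hψ ρ hgen hρ
  have hN := N_lower h2 hB hQ hψ ρ hK hx
  have hD := finrank_eq h2 hB hQ hψ ρ
  set N := ∑ x : W, m h2 hB Q₀ ρ ψ (x, 1) with hNd
  set f := ∑ x : W, m h2 hB Q₀ ρ ψ (x, 0) with hf
  set q := Fintype.card F with hq
  have hq1 : 1 < q := Fintype.one_lt_card
  -- the fixed points
  have hf' : (K - 1) * (K - q) ≤ (2 * (q + 1)) * f := by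
    rcases hKq.eq_or_lt with h | h
    · rw [h, Nat.sub_self, mul_zero]
      exact Nat.zero_le _
    haveI : Finite (Spg B) := by
      haveI : Finite (W ≃ₗ[F] W) := Finite.of_injective (fun g => (g : W → W)) DFunLike.coe_injective
      infer_instance
    obtain ⟨σ', hσ'⟩ := SLGap.sub_char (ρ.comp (lev B)) (E0_idem h2 hB hQ hψ ρ) (fun g => lev_E0 h2 hB hQ hψ ρ g)
    have hfr : finrank ℂ (LinearMap.range (E0 h2 hB Q₀ ρ ψ)) = f := by
      have h1 := trace_idem (E0_idem h2 hB hQ hψ ρ)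
      rw [trace_E0 h2 hB hQ] at h1
      exact_mod_cast h1.symm
    rcases alt hIH _ σ' with h1 | h1
    · rw [hfr] at h1
      exact h1
    · exfalso
      -- a non-zero vector
      obtain ⟨v, hv⟩ : ∃ v : W, v ≠ 0 := by
        by_contra hcon
        push Not at hcon
        have : Fintype.card W = 1 := Fintype.card_eq_one_iff.2 ⟨0, hcon⟩
        rw [hK] at this
        have h3 : K ≤ 1 := by
          by_contra h4
          have : 2 * 2 ≤ K * K := Nat.mul_le_mul (by omega) (by omega)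
          omega
        omega
      obtain ⟨β, hβ⟩ := exists_sqrt h2 (1 + Q₀ v)
      refine contra h2 hB hQ hψ ρ hK h hx hv hβ (key_ineq h2 hB hQ hψ ρ hv hβ ?_)
      have h3 := hσ' (tv hB 1 v)
      change LinearMap.trace ℂ _ (σ' (tv hB 1 v)) = LinearMap.trace ℂ V (ρ (lev B (tv hB 1 v)) * E0 h2 hB Q₀ ρ ψ) at h3
      rw [← h3, h1, LinearMap.trace_one, hfr]
  -- arithmetic
  rw [hD]
  obtain ⟨s, hs⟩ : ∃ s, q = s + 1 := ⟨q - 1, by omega⟩
  obtain ⟨t, ht⟩ : ∃ t, K = q + t := ⟨K - q, by omega⟩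
  have e1 : K * K - K = K * (K - 1) := by rw [Nat.mul_sub, mul_one]
  have e2 : K - 1 = s + t := by omega
  have e3 : K - q = t := by omega
  have e4 : q - 1 = s := by omega
  have e5 : q * K - q = q * (s + t) := by
    rw [← e2, Nat.mul_sub, mul_one]
  have hqK : q * K - 1 = (s + 1) * (s + 1 + t) - 1 := by rw [ht, hs]
  have e6 : (s + 1) * (s + 1 + t) - 1 = s * s + 2 * s + s * t + t := by
    have : (s + 1) * (s + 1 + t) = (s * s + 2 * s + s * t + t) + 1 := by ring
    rw [this, Nat.add_sub_cancel]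
  rw [e1, e2] at hN
  rw [e2, e3] at hf'
  rw [e5, hqK, e6, e4]
  have hNs : s * (K * (s + t)) ≤ s * (2 * N) := Nat.mul_le_mul_left _ hN
  have hNs2 : (q + 1) * (s * (K * (s + t))) ≤ (q + 1) * (s * (2 * N)) := Nat.mul_le_mul_left _ hNs
  have e7 : (2 * (q + 1)) * (f + s * N) = (2 * (q + 1)) * f + (q + 1) * (s * (2 * N)) := by ring
  rw [e7]
  refine le_trans (le_of_eq ?_) (add_le_add hf' hNs2)
  rw [ht, hs]
  ring

end Cfsg.Agent.Lib.SpEvF
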