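import Cfsg.Agent.Lib.SpEvF
import Cfsg.Agent.Lib.QuadNorm

/-!
# The minimal degree of symplectic groups in characteristic two (helper83)
-/

set_option autoImplicit false
set_option linter.all false

namespace Cfsg.Agent.Lib.SpEvG

open Cfsg.Agent.Lib.ClIso Cfsg.Agent.Lib.ClSymp Cfsg.Agent.Lib.ClSymp2 Cfsg.Agent.Lib.ClSympOrd Module SpEvA SpEvB SpEvF

universe v

variable {F : Type*} [Field F] [Fintype F] (h2 : (2 : F) = 0)

/-- the standard quadratic form -/
def q0 (m : ℕ) (x : Fin m ⊕ Fin m → F) : F := ∑ i : Fin m, x (Sum.inl i) * x (Sum.inr i)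

omit [Fintype F] in
include h2 in
theorem qf_q0 (m : ℕ) : QF (ClIso.sympForm (Fin m) F) (q0 m) where
  add := by
    intro x y
    unfold q0
    rw [ClIso.sympForm_apply, ← Finset.sum_add_distrib, ← Finset.sum_add_distrib]
    refine Finset.sum_congr rfl fun i _ => ?_
    simp only [Pi.add_apply]
    linear_combination (x (Sum.inl i) * y (Sum.inr i)) * h2
  smul := by
    intro c x
    unfold q0
    rw [Finset.mul_sum]
    refine Finset.sum_congr rfl fun i _ => ?_
    simp only [Pi.smul_apply, smul_eq_mul]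
    ring

omit [Fintype F] in
include h2 in
theorem form_eq (m : ℕ) (x y : Fin (m + 1) ⊕ Fin (m + 1) → F) :
    sform (ClIso.sympForm (Fin m) F) (splitE F m x) (splitE F m y) = ClIso.sympForm (Fin (m + 1)) F x y := by
  rw [form_split, sform_apply]
  unfold planeForm
  linear_combination ((splitE F m x).1.1 * (splitE F m y).1.2) * h2

/-- the isomorphism -/
noncomputable def iso (h2 : (2 : F) = 0) (m : ℕ) : ↥(Spg (ClIso.sympForm (Fin (m + 1)) F)) ≃* S (ClIso.sympForm (Fin m) F) where
  toFun g := ⟨QuadNorm.conjLE (splitE F m) g.1, by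
    intro x y
    show sform _ (splitE F m (g.1 ((splitE F m).symm x))) (splitE F m (g.1 ((splitE F m).symm y))) = sform _ x y
    rw [form_eq h2]
    have h : ClIso.sympForm (Fin (m + 1)) F (g.1 ((splitE F m).symm x)) (g.1 ((splitE F m).symm y)) =
      ClIso.sympForm (Fin (m + 1)) F ((splitE F m).symm x) ((splitE F m).symm y) := g.2 ((splitE F m).symm x) ((splitE F m).symm y)
    rw [h, ← form_eq h2, LinearEquiv.apply_symm_apply, LinearEquiv.apply_symm_apply]⟩
  invFun g := ⟨(QuadNorm.conjLE (splitE F m)).symm g.1, by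
    intro x y
    show ClIso.sympForm _ F ((splitE F m).symm (g.1 (splitE F m x))) ((splitE F m).symm (g.1 (splitE F m y))) = ClIso.sympForm _ F x y
    rw [← form_eq h2, LinearEquiv.apply_symm_apply, LinearEquiv.apply_symm_apply]
    have h : sform (ClIso.sympForm (Fin m) F) (g.1 (splitE F m x)) (g.1 (splitE F m y)) =
      sform (ClIso.sympForm (Fin m) F) (splitE F m x) (splitE F m y) := g.2 (splitE F m x) (splitE F m y)
    rw [h, form_eq h2]⟩
  left_inv g := Subtype.ext ((QuadNorm.conjLE (splitE F m)).symm_apply_apply g.1)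
  right_inv g := Subtype.ext ((QuadNorm.conjLE (splitE F m)).apply_symm_apply g.1)
  map_mul' g h := Subtype.ext (map_mul (QuadNorm.conjLE (splitE F m)) g.1 h.1)

omit [Fintype F] in
theorem iso_tv (m : ℕ) (a : F) (w : Fin (m + 1) ⊕ Fin (m + 1) → F) :
    iso h2 m (tv isSymp_sympForm a w) = tv (isSymp_sform h2 isSymp_sympForm) a (splitE F m w) := by
  apply Spg_ext
  intro x
  show splitE F m ((tv isSymp_sympForm a w : _ ≃ₗ[F] _) ((splitE F m).symm x)) = _
  rw [tv_apply, tv_apply, map_add, map_smul, LinearEquiv.apply_symm_apply, ← form_eq h2, LinearEquiv.apply_symm_apply]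

omit [Fintype F] in
theorem gen (m : ℕ) : TU (isSymp_sform h2 (isSymp_sympForm (l := Fin m) (F := F))) ⊤ = ⊤ := by
  rw [eq_top_iff]
  intro g _
  obtain ⟨g', rfl⟩ := (iso h2 m).surjective g
  have hg : g' ∈ TU (isSymp_sympForm (l := Fin (m + 1)) (F := F)) ⊤ := by rw [TU_eq_top]; exact Subgroup.mem_top _
  induction hg using Subgroup.closure_induction with
  | mem x hx =>
    obtain ⟨a, w, -, rfl⟩ := hx
    rw [iso_tv]
    exact tv_mem_TU _ a (Submodule.mem_top)
  | one => rw [map_one]; exact one_mem _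
  | mul a b _ _ ha hb => rw [map_mul]; exact mul_mem (ha trivial) (hb trivial)
  | inv a _ ha => rw [map_inv]; exact inv_mem (ha trivial)

include h2 in
theorem main (k : ℕ) : ∀ (V : Type v) [AddCommGroup V] [Module ℂ V] [FiniteDimensional ℂ V]
    (σ : Representation ℂ (Spg (ClIso.sympForm (Fin k) F)) V), σ.IsIrreducible → (∃ g, σ g ≠ 1) →
      (Fintype.card F ^ k - 1) * (Fintype.card F ^ k - Fintype.card F) ≤ (2 * (Fintype.card F + 1)) * finrank ℂ V := by
  classical
  obtain ⟨ψ, hψ⟩ := exists_good h2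
  induction k with
  | zero =>
    intro V _ _ _ σ _ _
    rw [pow_zero, Nat.sub_self, zero_mul]
    exact Nat.zero_le _
  | succ k ih =>
    intro V _ _ _ σ hσ hne
    rcases Nat.eq_zero_or_pos k with rfl | hk
    · rw [zero_add, pow_one, Nat.sub_self, mul_zero]
      exact Nat.zero_le _
    have hK : Fintype.card (Fin k ⊕ Fin k → F) = Fintype.card F ^ k * Fintype.card F ^ k := by
      rw [Fintype.card_fun, Fintype.card_sum, Fintype.card_fin, pow_add]
    have hKq : Fintype.card F ≤ Fintype.card F ^ k := by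
      calc Fintype.card F = Fintype.card F ^ 1 := (pow_one _).symm
        _ ≤ _ := Nat.pow_le_pow_right Fintype.card_pos hk
    have h3 := step h2 isSymp_sympForm (qf_q0 h2 k) hψ (σ.comp (iso h2 k).symm.toMonoidHom) hK hKq (gen h2 k) ih (by
      obtain ⟨g, hg⟩ := hne
      refine ⟨iso h2 k g, ?_⟩
      show σ ((iso h2 k).symm (iso h2 k g)) ≠ 1
      rw [MulEquiv.symm_apply_apply]
      exact hg)
    rw [pow_succ, mul_comm (Fintype.card F ^ k)]
    exact h3

end Cfsg.Agent.Lib.SpEvG
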