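import Cfsg.Agent.Lib.PresSpCore6

/-! The relations of `Sp_{2n}` over an arbitrary field: injectivity (helper38). -/

set_option autoImplicit false

namespace Cfsg.Agent.Lib.SpInf

open Equiv Matrix Cfsg.Agent.Lib.PresBC Cfsg.Agent.Lib.PresWr Cfsg.Agent.Lib.ClIso Cfsg.Agent.Lib.ClSymp Cfsg.Agent.Lib.ClSymp2
  Cfsg.Agent.Lib.PresSpMod Cfsg.Agent.Lib.PresSec Cfsg.Agent.Lib.PresSpCore

variable {F : Type*} [Field F] {n : ℕ} {Γ : Type*} [Group Γ]

structure SpRl (p q : Fin n) (δ : Wr (S2 F) n →* Γ) (u : Γ) : Prop extends StRel p q δ u where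
  ra : ∀ s, Commute (δ (ell (Sum.inl p) s)) u
  rb : ∀ t : F, δ (ell (Sum.inr p) t) * u * (δ (ell (Sum.inr p) t))⁻¹ * u⁻¹ =
    Sc p q δ u (shh t (ev (Sum.inl q)) (ev (Sum.inr p))) * δ (ell (Sum.inl q) (-t))
  rf : ∃ m ∈ ND F n, u * Sc p q δ u (shh 1 (ev (Sum.inr p)) (ev (Sum.inr q))) * u = δ m
  rc : ∀ r, r ≠ p → r ≠ q → Sc p q δ u (shh 1 (ev (Sum.inl r)) (ev (Sum.inr p))) * u *
    (Sc p q δ u (shh 1 (ev (Sum.inl r)) (ev (Sum.inr p))))⁻¹ * u⁻¹ = Sc p q δ u (shh 1 (ev (Sum.inl q)) (ev (Sum.inl r)))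
  rd : ∀ r, r ≠ p → r ≠ q → Commute (Sc p q δ u (shh 1 (ev (Sum.inl p)) (ev (Sum.inl r)))) u
  re : ∀ r s, r ≠ p → r ≠ q → s ≠ p → s ≠ q → r ≠ s → Commute (Sc p q δ u (shh 1 (ev (Sum.inl r)) (ev (Sum.inl s)))) u

variable {p q : Fin n} {δ : Wr (S2 F) n →* Γ} {u : Γ} (h : SpRl p q δ u)

include h

theorem SpRl.Ra {a b : Zs n} (hab : ix a ≠ ix b) (s t : F) : Commute (δ (ell a s)) (Y p q δ u a b t) := by
  by_cases ht : t = 0
  · rw [ht, h.Y_zero hab]; exact Commute.one_right _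
  obtain ⟨d, hd, h1, h2⟩ := mv2 (F := F) h.hpq hab 1 (Units.mk0 t ht)
  have h3 := commute_conj (δ d) (h.ra s)
  rw [L_conj h1, ← h.Y_base, h.Y_conj hd hab h1 h2] at h3
  simpa using h3

theorem SpRl.Rb {a b : Zs n} (hab : ix a ≠ ix b) (r s : F) :
    δ (ell (ng a) r) * Y p q δ u a b s * (δ (ell (ng a) r))⁻¹ * (Y p q δ u a b s)⁻¹ =
      Y p q δ u b (ng a) (-sg a * s * r) * δ (ell b (-(s ^ 2 * r))) := by
  have hb : ix b ≠ ix (ng a) := by rw [ix_ng]; exact hab.symm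
  by_cases hr : r = 0
  · rw [hr, L_zero, mul_zero, h.Y_zero hb, mul_zero, neg_zero, L_zero]; group
  by_cases hs : s = 0
  · rw [hs, h.Y_zero hab, mul_zero, zero_mul, h.Y_zero hb]
    rw [show -((0 : F) ^ 2 * r) = 0 by ring, L_zero]; group
  obtain ⟨t, x', htx⟩ : ∃ (t : F) (x' : Fˣ), t * (x' : F) ^ 2 = r := ⟨r, 1, by simp⟩
  let e : Fˣ := Units.mk0 (-sg a : F) (neg_ne_zero.2 (sg_ne a))
  have hee : e * e = 1 := by
    ext
    show -sg a * -sg a = (1 : F)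
    rw [neg_mul_neg]; exact sg_sq a
  have heinv : e⁻¹ = e := inv_eq_of_mul_eq_one_left hee
  obtain ⟨d, hd, h1, h2⟩ := mv2 (F := F) h.hpq hab (e * x'⁻¹) (Units.mk0 s hs * (e * x'))
  have h3 := ng_image hd h1
  have hx' : (-sg a * (((e * x'⁻¹)⁻¹ : Fˣ) : F)) = x' := by
    rw [_root_.mul_inv_rev, inv_inv, heinv]
    have : (-sg a : F) = (e : F) := rfl
    rw [this, ← Units.val_mul, mul_left_comm, hee, mul_one]
  rw [hx'] at h3
  have hB := h.rb t
  have hY1 := h.Y_conj hd hab h1 h2 1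
  rw [h.Y_base] at hY1
  have e1 : (1 : F) * ((e * x'⁻¹ : Fˣ) : F) * ((Units.mk0 s hs * (e * x') : Fˣ) : F) = s := by
    rw [one_mul, ← Units.val_mul]
    have : e * x'⁻¹ * (Units.mk0 s hs * (e * x')) = Units.mk0 s hs := by
      calc e * x'⁻¹ * (Units.mk0 s hs * (e * x')) = (e * e) * (x'⁻¹ * x') * Units.mk0 s hs := by
            simp only [mul_assoc, mul_left_comm, mul_comm]
        _ = _ := by rw [hee, inv_mul_cancel, one_mul, one_mul]
    rw [this, Units.val_mk0]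
  rw [e1] at hY1
  have hY2 := h.Y_conj hd (a := Sum.inl q) (b := Sum.inr p) hb h2 h3 t
  have hL1 := L_conj (δ := δ) h3 t
  have hL2 := L_conj (δ := δ) h2 (-t)
  rw [htx] at hL1
  have e2 : t * ((Units.mk0 s hs * (e * x') : Fˣ) : F) * (x' : F) = -sg a * s * r := by
    rw [← htx, Units.val_mul, Units.val_mul, Units.val_mk0, show (e : F) = -sg a from rfl]; ring
  have e3 : -t * ((Units.mk0 s hs * (e * x') : Fˣ) : F) ^ 2 = -(s ^ 2 * r) := by
    have h4 : (-sg a : F) * -sg a = 1 := by rw [neg_mul_neg]; exact sg_sq a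
    rw [← htx, Units.val_mul, Units.val_mul, Units.val_mk0, show (e : F) = -sg a from rfl]
    linear_combination (-t * s ^ 2 * (x' : F) ^ 2) * h4
  rw [e2] at hY2
  rw [e3] at hL2
  have key : δ d * _ * (δ d)⁻¹ = δ d * _ * (δ d)⁻¹ := congrArg (fun z => δ d * z * (δ d)⁻¹) hB
  rw [← hY1, ← hY2, ← hL1, ← hL2]
  have e4 : δ d * δ (ell (Sum.inr p) t) * (δ d)⁻¹ * (δ d * u * (δ d)⁻¹) * (δ d * δ (ell (Sum.inr p) t) * (δ d)⁻¹)⁻¹ * (δ d * u * (δ d)⁻¹)⁻¹ =
      δ d * (δ (ell (Sum.inr p) t) * u * (δ (ell (Sum.inr p) t))⁻¹ * u⁻¹) * (δ d)⁻¹ := by group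
  rw [e4, key]
  show _ = δ d * Sc p q δ u (shh t (ev (Sum.inl q)) (ev (Sum.inr p))) * (δ d)⁻¹ * _
  group

theorem SpRl.Y_add {a b : Zs n} (hab : ix a ≠ ix b) (s t : F) :
    Y p q δ u a b (s + t) = Y p q δ u a b s * Y p q δ u a b t := by
  -- apply `Rb` to `(ng b, a)`
  have hba : ix (ng b) ≠ ix a := by rw [ix_ng]; exact hab.symm
  have hE : ∀ r, δ (ell b r) * Y p q δ u (ng b) a 1 * (δ (ell b r))⁻¹ * (Y p q δ u (ng b) a 1)⁻¹ =
      Y p q δ u a b (-sg (ng b) * r) * δ (ell a (-r)) := by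
    intro r
    have := h.Rb hba r 1
    rw [ng_ng] at this
    rw [this, mul_one, one_pow, one_mul]
  have hsg : (-sg (ng b) : F) * -sg (ng b) = 1 := by rw [neg_mul_neg]; exact sg_sq _
  set ε : F := -sg (ng b) with hε
  -- commutations
  have c1 : ∀ r t, Commute (δ (ell b r)) (Y p q δ u a b t) := by
    intro r t
    rw [h.Y_symm hab]
    exact h.Ra hab.symm r t
  have c2 : ∀ r t, Commute (δ (ell b r)) (δ (ell a t)) := by
    intro r t
    exact (ell_comm (ix_ne' hab.symm) r t).map δ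
  have c3 : ∀ r t, Commute (δ (ell a r)) (Y p q δ u a b t) := fun r t => h.Ra hab r t
  set z := Y p q δ u (ng b) a 1 with hz
  have hs := hE (ε * s)
  have ht := hE (ε * t)
  have hst := hE (ε * t + ε * s)
  rw [← mul_assoc, hsg, one_mul] at hs ht
  have e0 : ε * (ε * t + ε * s) = s + t := by linear_combination (s + t) * hsg
  rw [e0] at hst
  rw [ell_add, map_mul] at hst
  have e1 : δ (ell b (ε * t)) * δ (ell b (ε * s)) * z * (δ (ell b (ε * t)) * δ (ell b (ε * s)))⁻¹ * z⁻¹ =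
      (δ (ell b (ε * t)) * (δ (ell b (ε * s)) * z * (δ (ell b (ε * s)))⁻¹ * z⁻¹) * (δ (ell b (ε * t)))⁻¹) *
        (δ (ell b (ε * t)) * z * (δ (ell b (ε * t)))⁻¹ * z⁻¹) := by group
  rw [e1, hs, ht] at hst
  have c4 : Commute (δ (ell b (ε * t))) (Y p q δ u a b s * δ (ell a (-(ε * s)))) := (c1 _ _).mul_right (c2 _ _)
  rw [c4.eq, mul_inv_cancel_right] at hst
  have e2 : Y p q δ u a b s * δ (ell a (-(ε * s))) * (Y p q δ u a b t * δ (ell a (-(ε * t)))) =
      Y p q δ u a b s * Y p q δ u a b t * (δ (ell a (-(ε * s))) * δ (ell a (-(ε * t)))) := by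
    calc _ = Y p q δ u a b s * (δ (ell a (-(ε * s))) * Y p q δ u a b t) * δ (ell a (-(ε * t))) := by simp only [mul_assoc]
      _ = _ := by rw [(c3 _ _).eq]; simp only [mul_assoc]
  rw [e2, ← map_mul, ← ell_add, show -(ε * s) + -(ε * t) = -(ε * t + ε * s) by ring] at hst
  exact (mul_right_cancel hst).symm

/-- the `90°` relation -/
theorem SpRl.Rv {a b : Zs n} (hab : ix a ≠ ix b) (s t : F) :
    ∃ w, Y p q δ u b a s * Y p q δ u b (ng a) t * (Y p q δ u b a s)⁻¹ * (Y p q δ u b (ng a) t)⁻¹ = δ (ell b w) := by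
  have hba : ix b ≠ ix (ng a) := by rw [ix_ng]; exact hab.symm
  set ε : F := -sg a with hε
  have hsg : ε * ε = 1 := by rw [hε, neg_mul_neg]; exact sg_sq _
  set r : F := ε * t with hr
  have hs1 := h.Rb hab r s
  have hs2 := h.Rb hab r 1
  have hs3 := h.Rb hab r (s + 1)
  rw [h.Y_add hab] at hs3
  set L := δ (ell (ng a) r) with hL
  set A := Y p q δ u a b s with hA
  set B := Y p q δ u a b 1 with hB
  have e2 : -sg a * 1 * r = t := by rw [hr, ← hε]; linear_combination t * hsg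
  rw [e2] at hs2
  -- rewrite in the form `L A = Y' Lb A L`
  have f1 : L * A = Y p q δ u b (ng a) (-sg a * s * r) * δ (ell b (-(s ^ 2 * r))) * A * L := by
    rw [← hs1]; group
  have f2 : L * B = Y p q δ u b (ng a) t * δ (ell b (-(1 ^ 2 * r))) * B * L := by
    rw [← hs2]; group
  have f3 : L * (A * B) = Y p q δ u b (ng a) (-sg a * (s + 1) * r) * δ (ell b (-((s + 1) ^ 2 * r))) * (A * B) * L := by
    rw [← hs3]; group
  have e3 : -sg a * (s + 1) * r = -sg a * s * r + t := by rw [← e2]; ring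
  rw [e3, h.Y_add hba] at f3
  set Y1 := Y p q δ u b (ng a) (-sg a * s * r) with hY1
  set Y2 := Y p q δ u b (ng a) t with hY2
  have f4 : L * (A * B) = Y1 * δ (ell b (-(s ^ 2 * r))) * A * (Y2 * δ (ell b (-(1 ^ 2 * r))) * B * L) := by
    rw [← mul_assoc, f1, mul_assoc _ L B, f2]
  rw [f3] at f4
  -- cancel `B L`
  have f5 : Y1 * Y2 * δ (ell b (-((s + 1) ^ 2 * r))) * A = Y1 * δ (ell b (-(s ^ 2 * r))) * A * Y2 * δ (ell b (-(1 ^ 2 * r))) := by
    have : Y1 * Y2 * δ (ell b (-((s + 1) ^ 2 * r))) * A * (B * L) = Y1 * δ (ell b (-(s ^ 2 * r))) * A * Y2 * δ (ell b (-(1 ^ 2 * r))) * (B * L) := by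
      calc _ = Y1 * Y2 * δ (ell b (-((s + 1) ^ 2 * r))) * (A * B) * L := by simp only [mul_assoc]
        _ = _ := by rw [f4]; simp only [mul_assoc]
    exact mul_right_cancel this
  have c1 : ∀ w, Commute (δ (ell b w)) Y2 := fun w => h.Ra hba w t
  have c2 : ∀ w, Commute (δ (ell b w)) A := fun w => by
    rw [hA, h.Y_symm hab]; exact h.Ra hab.symm w s
  have f6 : Y2 * δ (ell b (-((s + 1) ^ 2 * r))) * A = δ (ell b (-(s ^ 2 * r))) * A * Y2 * δ (ell b (-(1 ^ 2 * r))) := by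
    apply mul_left_cancel (a := Y1)
    simp only [mul_assoc] at f5 ⊢
    exact f5
  refine ⟨-((s + 1) ^ 2 * r) + s ^ 2 * r + 1 ^ 2 * r, ?_⟩
  rw [h.Y_symm (a := b) (b := a) hab.symm, ← hA]
  have f7 : A * Y2 = (δ (ell b (-(s ^ 2 * r))))⁻¹ * (Y2 * δ (ell b (-((s + 1) ^ 2 * r))) * A) * (δ (ell b (-(1 ^ 2 * r))))⁻¹ := by
    rw [f6]; group
  rw [f7, L_neg, L_neg, L_neg, inv_inv, inv_inv, ell_add, ell_add, map_mul, map_mul, L_neg]
  set P := δ (ell b (s ^ 2 * r))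
  set R := δ (ell b ((s + 1) ^ 2 * r))
  set S := δ (ell b (1 ^ 2 * r))
  have cP := c1 (s ^ 2 * r)
  have cR := (c1 ((s + 1) ^ 2 * r)).inv_left
  have cS := c1 (1 ^ 2 * r)
  have dS := c2 (1 ^ 2 * r)
  have cPR : Commute P R⁻¹ := (by
    show Commute (δ (ell b (s ^ 2 * r))) (δ (ell b ((s + 1) ^ 2 * r)))⁻¹
    rw [← L_neg]
    exact (ell_comm (ng_ne b).symm _ _).map δ)
  calc P * (Y2 * R⁻¹ * A) * S * A⁻¹ * Y2⁻¹ = P * Y2 * R⁻¹ * (A * S) * A⁻¹ * Y2⁻¹ := by simp only [mul_assoc]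
    _ = P * Y2 * R⁻¹ * (S * A) * A⁻¹ * Y2⁻¹ := by rw [dS.eq]
    _ = P * (Y2 * (R⁻¹ * S)) * Y2⁻¹ := by group
    _ = P * ((R⁻¹ * S) * Y2) * Y2⁻¹ := by rw [(cR.mul_left cS).eq]
    _ = R⁻¹ * P * S := by rw [← cPR.eq]; group

theorem SpRl.Ri {a b c : Zs n} (hab : ix a ≠ ix b) (hac : ix a ≠ ix c) (hbc : ix b ≠ ix c) (s t : F) :
    Commute (δ (ell c s)) (Y p q δ u a b t) := by
  by_cases ht : t = 0
  · rw [ht, h.Y_zero hab]; exact Commute.one_right _
  -- a third index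
  obtain ⟨r, hrp, hrq⟩ : ∃ r : Fin n, r ≠ p ∧ r ≠ q := by
    by_contra hcon
    push Not at hcon
    have h1 : (Finset.univ : Finset (Fin n)) ⊆ {p, q} := by
      intro r _
      rw [Finset.mem_insert, Finset.mem_singleton]
      by_cases hr : r = p
      · exact Or.inl hr
      · exact Or.inr (hcon r hr)
    have h2 := Finset.card_le_card h1
    have h3 : ({ix a, ix b, ix c} : Finset (Fin n)).card = 3 := Finset.card_eq_three.2 ⟨_, _, _, hab, hac, hbc, rfl⟩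
    have h4 := Finset.card_le_card (Finset.subset_univ ({ix a, ix b, ix c} : Finset (Fin n)))
    have h5 := Finset.card_le_two (a := p) (b := q)
    omega
  obtain ⟨d, hd, h1, h2, h3⟩ := mv3 (F := F) h.hpq hrp.symm hrq.symm hab hac hbc 1 (Units.mk0 t ht) 1
  have h4 : Commute (δ (ell (Sum.inl r) s)) u := h.hi r hrp hrq _
  have h5 := commute_conj (δ d) h4
  rw [L_conj h3, ← h.Y_base, h.Y_conj hd hab h1 h2] at h5
  simpa using h5

theorem SpRl.exists_third {a b c : Zs n} (hab : ix a ≠ ix b) (hac : ix a ≠ ix c) (hbc : ix b ≠ ix c) : ∃ r : Fin n, r ≠ p ∧ r ≠ q := by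
  by_contra hcon
  push Not at hcon
  have h1 : (Finset.univ : Finset (Fin n)) ⊆ {p, q} := by
    intro r _
    rw [Finset.mem_insert, Finset.mem_singleton]
    by_cases hr : r = p
    · exact Or.inl hr
    · exact Or.inr (hcon r hr)
  have h2 := Finset.card_le_card h1
  have h3 : ({ix a, ix b, ix c} : Finset (Fin n)).card = 3 := Finset.card_eq_three.2 ⟨_, _, _, hab, hac, hbc, rfl⟩
  have h4 := Finset.card_le_card (Finset.subset_univ ({ix a, ix b, ix c} : Finset (Fin n)))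
  have h5 := Finset.card_le_two (a := p) (b := q)
  omega

theorem SpRl.Rc {a b c : Zs n} (hab : ix a ≠ ix b) (hac : ix a ≠ ix c) (hbc : ix b ≠ ix c) (s t : F) :
    ∃ w, Y p q δ u (ng a) c s * Y p q δ u a b t * (Y p q δ u (ng a) c s)⁻¹ * (Y p q δ u a b t)⁻¹ = Y p q δ u b c w := by
  have hac' : ix (ng a) ≠ ix c := by rw [ix_ng]; exact hac
  by_cases hs : s = 0
  · exact ⟨0, by rw [hs, h.Y_zero hac', h.Y_zero hbc]; group⟩
  by_cases ht : t = 0
  · exact ⟨0, by rw [ht, h.Y_zero hab, h.Y_zero hbc]; group⟩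
  obtain ⟨r, hrp, hrq⟩ := h.exists_third hab hac hbc
  let e : Fˣ := Units.mk0 (-sg a : F) (neg_ne_zero.2 (sg_ne a))
  obtain ⟨d, hd, h1, h2, h3⟩ := mv3 (F := F) h.hpq hrp.symm hrq.symm hab hac hbc e (e⁻¹ * Units.mk0 t ht) (Units.mk0 s hs)
  have h4 := ng_image hd h1
  have e1 : (-sg a * ((e⁻¹ : Fˣ) : F)) = 1 := by
    show (e : F) * ((e⁻¹ : Fˣ) : F) = 1
    rw [← Units.val_mul, mul_inv_cancel, Units.val_one]
  rw [e1] at h4
  have hC := h.rc r hrp hrq
  have hY1 := h.Y_conj hd hab h1 h2 1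
  rw [h.Y_base] at hY1
  have e2 : (1 : F) * (e : F) * ((e⁻¹ * Units.mk0 t ht : Fˣ) : F) = t := by
    rw [one_mul, ← Units.val_mul, mul_inv_cancel_left, Units.val_mk0]
  rw [e2] at hY1
  have hY2 := h.Y_conj hd (a := Sum.inl r) (b := Sum.inr p) hac'.symm h3 h4 1
  rw [Units.val_mk0, one_mul, mul_one] at hY2
  have hY3 := h.Y_conj hd hbc h2 h3 1
  refine ⟨_, Eq.trans ?_ hY3⟩
  rw [h.Y_symm hac', ← hY2, ← hY1]
  have e4 : ∀ x y : Γ, δ d * x * (δ d)⁻¹ * (δ d * y * (δ d)⁻¹) * (δ d * x * (δ d)⁻¹)⁻¹ * (δ d * y * (δ d)⁻¹)⁻¹ =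
      δ d * (x * y * x⁻¹ * y⁻¹) * (δ d)⁻¹ := by intro x y; group
  rw [e4]
  exact congrArg (fun z => δ d * z * (δ d)⁻¹) hC

theorem SpRl.Rd {a b c : Zs n} (hab : ix a ≠ ix b) (hac : ix a ≠ ix c) (hbc : ix b ≠ ix c) (s t : F) :
    Commute (Y p q δ u a c s) (Y p q δ u a b t) := by
  by_cases hs : s = 0
  · rw [hs, h.Y_zero hac]; exact Commute.one_left _
  by_cases ht : t = 0
  · rw [ht, h.Y_zero hab]; exact Commute.one_right _
  obtain ⟨r, hrp, hrq⟩ := h.exists_third hab hac hbc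
  obtain ⟨d, hd, h1, h2, h3⟩ := mv3 (F := F) h.hpq hrp.symm hrq.symm hab hac hbc 1 (Units.mk0 t ht) (Units.mk0 s hs)
  have h5 := commute_conj (δ d) (h.rd r hrp hrq)
  have hY1 := h.Y_conj hd hab h1 h2 1
  have hY2 := h.Y_conj hd hac h1 h3 1
  rw [h.Y_base] at hY1
  rw [Units.val_one, Units.val_mk0, one_mul, one_mul] at hY1 hY2
  rw [← hY1, ← hY2]
  exact h5

theorem SpRl.Re {a b c e : Zs n} (hab : ix a ≠ ix b) (hac : ix a ≠ ix c) (hae : ix a ≠ ix e) (hbc : ix b ≠ ix c) (hbe : ix b ≠ ix e)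
    (hce : ix c ≠ ix e) (s t : F) : Commute (Y p q δ u c e s) (Y p q δ u a b t) := by
  by_cases hs : s = 0
  · rw [hs, h.Y_zero hce]; exact Commute.one_left _
  by_cases ht : t = 0
  · rw [ht, h.Y_zero hab]; exact Commute.one_right _
  obtain ⟨r, hrp, hrq⟩ := h.exists_third hab hac hbc
  obtain ⟨r', hrp', hrq', hrr⟩ : ∃ r' : Fin n, r' ≠ p ∧ r' ≠ q ∧ r ≠ r' := by
    by_contra hcon
    push Not at hcon
    have h1 : (Finset.univ : Finset (Fin n)) ⊆ {p, q, r} := by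
      intro x _
      rw [Finset.mem_insert, Finset.mem_insert, Finset.mem_singleton]
      by_cases hx : x = p
      · exact Or.inl hx
      · by_cases hx2 : x = q
        · exact Or.inr (Or.inl hx2)
        · exact Or.inr (Or.inr (hcon x hx hx2).symm)
    have h2 := Finset.card_le_card h1
    have h3 : ({ix a, ix b, ix c, ix e} : Finset (Fin n)).card = 4 := by
      rw [Finset.card_insert_of_notMem, Finset.card_insert_of_notMem, Finset.card_insert_of_notMem, Finset.card_singleton]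
      · simpa using hce
      · simp [hbc, hbe]
      · simp [hab, hac, hae]
    have h4 := Finset.card_le_card (Finset.subset_univ ({ix a, ix b, ix c, ix e} : Finset (Fin n)))
    have h5 := Finset.card_le_three (a := p) (b := q) (c := r)
    omega
  obtain ⟨d, hd, h1, h2, h3, h4⟩ := mv4 (F := F) h.hpq hrp.symm hrp'.symm hrq.symm hrq'.symm hrr hab hac hae hbc hbe hce 1 (Units.mk0 t ht) 1 (Units.mk0 s hs)
  have h5 := commute_conj (δ d) (h.re r r' hrp hrq hrp' hrq' hrr)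
  have hY1 := h.Y_conj hd hab h1 h2 1
  have hY2 := h.Y_conj hd hce h3 h4 1
  rw [h.Y_base] at hY1
  rw [Units.val_one, Units.val_mk0, one_mul, one_mul] at hY1 hY2
  rw [← hY1, ← hY2]
  exact h5

/-- rank one, short roots -/
theorem SpRl.Rf {a b : Zs n} (hab : ix a ≠ ix b) {t : F} (ht : t ≠ 0) :
    ∃ s, ∃ m ∈ ND F n, Y p q δ u a b s * Y p q δ u (ng a) (ng b) t * Y p q δ u a b s = δ m := by
  obtain ⟨m, hm, h0⟩ := h.rf
  let w : Fˣ := Units.mk0 ((-sg a) * (-sg b) * t⁻¹ : F) (mul_ne_zero (mul_ne_zero (neg_ne_zero.2 (sg_ne a)) (neg_ne_zero.2 (sg_ne b))) (inv_ne_zero ht))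
  have hab' : ix (ng a) ≠ ix (ng b) := by rw [ix_ng, ix_ng]; exact hab
  obtain ⟨d, hd, h1, h2⟩ := mv2 (F := F) h.hpq hab w 1
  have h3 := ng_image hd h1
  have h4 := ng_image hd h2
  refine ⟨(w : F), d * m * d⁻¹, mul_mem (mul_mem hd hm) (inv_mem hd), ?_⟩
  have hY1 := h.Y_conj hd hab h1 h2 1
  rw [h.Y_base, Units.val_one, one_mul, mul_one] at hY1
  have hY2 := h.Y_conj hd hab' h3 h4 1
  have e1 : (1 : F) * (-sg a * ((w⁻¹ : Fˣ) : F)) * (-sg b * (((1 : Fˣ)⁻¹ : Fˣ) : F)) = t := by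
    have h5 := sg_sq (F := F) a
    have h6 := sg_sq (F := F) b
    have h7 : (w : F) * ((w⁻¹ : Fˣ) : F) = 1 := by rw [← Units.val_mul, mul_inv_cancel, Units.val_one]
    have h8 : (w : F) = (-sg a) * (-sg b) * t⁻¹ := rfl
    rw [h8] at h7
    rw [inv_one, Units.val_one]
    have h9 : t * t⁻¹ = 1 := mul_inv_cancel₀ ht
    linear_combination t * h7 - (sg a : F) * sg b * ((w⁻¹ : Fˣ) : F) * h9
  rw [e1] at hY2
  rw [← hY1, ← hY2, map_mul, map_mul, map_inv, ← h0]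
  show _ = δ d * (u * Y p q δ u (Sum.inr p) (Sum.inr q) 1 * u) * (δ d)⁻¹
  group

theorem mem_XYg {a b : Zs n} (hab : ix a ≠ ix b) {x : Γ} : x ∈ XX p q δ u a b ↔ ∃ t, x = Y p q δ u a b t := by
  rw [XX, if_neg (ix_ne' hab), if_neg (by rintro rfl; exact hab rfl)]
  exact mem_cl (fun s t => h.Y_add hab s t)

theorem SpRl.rt : Rt (XX p q δ u) := by
  have hix : ∀ {a b : Zs n}, a ≠ b → b ≠ ng a → ix a ≠ ix b := by
    intro a b h1 h2
    apply ix_ne h1
    rintro rfl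
    exact h2 (ng_ng b).symm
  constructor
  · intro a b
    by_cases h1 : b = ng a
    · subst h1
      rw [XX, if_pos rfl, XX, if_pos (ng_ng a).symm]
    by_cases h2 : a = b
    · rw [h2]
    have h3 := hix h2 h1
    ext x
    rw [mem_XYg h h3, mem_XYg h h3.symm]
    constructor
    · rintro ⟨t, rfl⟩; exact ⟨t, h.Y_symm h3 t⟩
    · rintro ⟨t, rfl⟩; exact ⟨t, h.Y_symm h3.symm t⟩
  · intro a b c hab hba hca hcna hcnb x hx y hy
    have h1 := hix hab hba
    have h2 : ix a ≠ ix c := hix (Ne.symm hca) hcna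
    have h2' : ix (ng a) ≠ ix c := by rw [ix_ng]; exact h2
    obtain ⟨s, rfl⟩ := (mem_XYg h h1).1 hx
    obtain ⟨t, rfl⟩ := (mem_XYg h h2').1 hy
    by_cases hbc : b = c
    · subst hbc
      rw [mem_XL]
      rw [h.Y_symm h1, h.Y_symm h2']
      obtain ⟨w, hw⟩ := h.Rv h1 s t
      exact ⟨w, hw⟩
    · have h3 : ix b ≠ ix c := hix hbc hcnb
      obtain ⟨w, hw⟩ := h.Rc h1 h2 h3 t s
      have h4 : Y p q δ u b c w ∈ XX p q δ u b c := (mem_XYg h h3).2 ⟨w, rfl⟩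
      rw [← hw] at h4
      have h5 := inv_mem h4
      have e : (Y p q δ u (ng a) c t * Y p q δ u a b s * (Y p q δ u (ng a) c t)⁻¹ * (Y p q δ u a b s)⁻¹)⁻¹ =
          Y p q δ u a b s * Y p q δ u (ng a) c t * (Y p q δ u a b s)⁻¹ * (Y p q δ u (ng a) c t)⁻¹ := by group
      rwa [e] at h5
  · intro a c hca hcna x hx y hy
    have h2 : ix a ≠ ix c := hix (Ne.symm hca) hcna
    have h2' : ix (ng a) ≠ ix c := by rw [ix_ng]; exact h2
    obtain ⟨s, rfl⟩ := mem_XL.1 hx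
    obtain ⟨t, rfl⟩ := (mem_XYg h h2').1 hy
    have h3 := h.Rb h2' s t
    rw [ng_ng] at h3
    rw [h3]
    apply mul_mem
    · apply Subgroup.mem_sup_left
      rw [mem_XYg h h2]
      exact ⟨_, h.Y_symm h2.symm _⟩
    · apply Subgroup.mem_sup_right
      rw [mem_XL]
      exact ⟨_, rfl⟩
  · intro a b hba hbna x hx y hy
    obtain ⟨s, rfl⟩ := mem_XL.1 hx
    obtain ⟨t, rfl⟩ := mem_XL.1 hy
    have h1 : Commute (δ (ell a s)) (δ (ell b t)) := (ell_comm hbna s t).map δ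
    rw [comm_iff.2 h1]
    exact one_mem _
  · intro a b c d hb hd hc1 hc2 hd1 hd2 hne x hx y hy
    by_cases hab : a = b
    · subst hab
      have hcd : c ≠ d := fun e => hne ⟨rfl, e⟩
      have h1 := hix hcd hd
      obtain ⟨s, rfl⟩ := mem_XL.1 hx
      obtain ⟨t, rfl⟩ := (mem_XYg h h1).1 hy
      by_cases h2 : a = c
      · subst h2
        exact h.Ra h1 s t
      by_cases h3 : a = d
      · subst h3
        rw [h.Y_symm h1]
        exact h.Ra h1.symm s t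
      · exact h.Ri h1 (hix h2 hc1).symm (hix h3 hd1).symm s t
    · have h1 := hix hab hb
      obtain ⟨s, rfl⟩ := (mem_XYg h h1).1 hx
      by_cases hcd : c = d
      · subst hcd
        obtain ⟨t, rfl⟩ := mem_XL.1 hy
        apply Commute.symm
        by_cases h2 : a = c
        · subst h2
          exact h.Ra h1 t s
        by_cases h3 : b = c
        · subst h3
          rw [h.Y_symm h1]
          exact h.Ra h1.symm t s
        · exact h.Ri h1 (hix h2 hc1) (hix h3 hc2) t s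
      · have h2 := hix hcd hd
        obtain ⟨t, rfl⟩ := (mem_XYg h h2).1 hy
        -- reduce to sharing an index
        have key : ∀ a b c d : Zs n, ix a ≠ ix b → ix c ≠ ix d → c ≠ ng a → c ≠ ng b → d ≠ ng a → d ≠ ng b → ∀ s t,
            (a = c → Commute (Y p q δ u a b s) (Y p q δ u c d t)) := by
          rintro a b c d h1 h2 hc1 hc2 hd1 hd2 s t rfl
          by_cases hbd : b = d
          · subst hbd
            show _ = _
            rw [← h.Y_add h1, ← h.Y_add h1, add_comm]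
          · exact h.Rd h2 h1 (hix hbd hd2).symm s t
        by_cases h3 : a = c
        · exact key a b c d h1 h2 hc1 hc2 hd1 hd2 s t h3
        by_cases h4 : a = d
        · rw [h.Y_symm h2]
          exact key a b d c h1 h2.symm hd1 hd2 hc1 hc2 s t h4
        by_cases h5 : b = c
        · rw [h.Y_symm h1]
          exact key b a c d h1.symm h2 hc2 hc1 hd2 hd1 s t h5
        by_cases h6 : b = d
        · rw [h.Y_symm h1, h.Y_symm h2]
          exact key b a d c h1.symm h2.symm hd2 hd1 hc2 hc1 s t h6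
        · exact (h.Re h1 (hix h3 hc1) (hix h4 hd1) (hix h5 hc2) (hix h6 hd2) h2 t s).symm

theorem XX_casesg {a b : Zs n} {x : Γ} (hx : x ∈ XX p q δ u a b) : (b = ng a ∧ x = 1) ∨ (a = b ∧ ∃ t, x = δ (ell a t)) ∨
    (ix a ≠ ix b ∧ ∃ t, x = Y p q δ u a b t) := by
  by_cases h1 : b = ng a
  · left
    rw [XX, if_pos h1, Subgroup.mem_bot] at hx
    exact ⟨h1, hx⟩
  by_cases h2 : a = b
  · subst h2
    right; left
    exact ⟨rfl, mem_XL.1 hx⟩
  · right; right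
    have h3 : ix a ≠ ix b := ix_ne h2 (by rintro rfl; exact h1 (ng_ng b).symm)
    exact ⟨h3, (mem_XYg h h3).1 hx⟩

theorem SpRl.tr (π : Γ →* Sg F n) (hπ : ∀ d, π (δ d) = hat F n d) (hu : π u = uh p q) {v : ℤ} {a b : Zs n} (hv : v ≤ lam a + lam b)
    {x : Γ} (hx : x ∈ XX p q δ u a b) : Tr v (π x) := by
  rcases XX_casesg h hx with ⟨-, rfl⟩ | ⟨rfl, t, rfl⟩ | ⟨hab, t, rfl⟩
  · rw [map_one]; exact Tr.one v
  · rw [hπ, hat_ell]; exact tr_tv t hv
  · rw [h.map_Y π hπ hu hab]; exact tr_sh hab t hv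

theorem SpRl.trG (π : Γ →* Sg F n) (hπ : ∀ d, π (δ d) = hat F n d) (hu : π u = uh p q) {v : ℤ} (hv0 : 0 < v) {Ψ : Zs n → Zs n → Prop}
    (hΨ : ∀ a b, Ψ a b → v ≤ lam a + lam b) {g : Γ} (hg : g ∈ G (XX p q δ u) Ψ) : Tr v (π g) ∧ Tr v (π g⁻¹) := by
  induction hg using Subgroup.closure_induction with
  | mem x hx =>
    obtain ⟨a, b, hab, hx⟩ := hx
    exact ⟨h.tr π hπ hu (hΨ a b hab) hx, h.tr π hπ hu (hΨ a b hab) (inv_mem hx)⟩
  | one => rw [inv_one, map_one]; exact ⟨Tr.one v, Tr.one v⟩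
  | mul x y _ _ hx hy =>
    rw [_root_.mul_inv_rev, map_mul, map_mul]
    exact ⟨hx.1.mul hv0 hy.1, hy.2.mul hv0 hx.2⟩
  | inv x _ hx => rw [inv_inv]; exact ⟨hx.2, hx.1⟩

theorem SpRl.entG (π : Γ →* Sg F n) (hπ : ∀ d, π (δ d) = hat F n d) (hu : π u = uh p q) {a b : Zs n} (hpos : Pos a b)
    {g : Γ} (hg : g ∈ G (XX p q δ u) (Up a b)) : Tr (lam a + lam b) (π g) ∧ Tr (lam a + lam b) (π g⁻¹) ∧
      (π g : VV F n ≃ₗ[F] VV F n) (ev (ng b)) a = 0 ∧ (π g⁻¹ : VV F n ≃ₗ[F] VV F n) (ev (ng b)) a = 0 := by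
  have hne : ng b ≠ a := by
    rintro rfl
    unfold Pos at hpos; rw [lam_ng] at hpos; omega
  have hval : lam a - lam (ng b) = lam a + lam b := by rw [lam_ng]; omega
  have hgen : ∀ c d, Up a b c d → ∀ x ∈ XX p q δ u c d, (π x : VV F n ≃ₗ[F] VV F n) (ev (ng b)) a = 0 := by
    rintro c d ⟨h1, h2⟩ x hx
    rcases XX_casesg h hx with ⟨-, rfl⟩ | ⟨rfl, t, rfl⟩ | ⟨hcd, t, rfl⟩
    · rw [map_one]; exact ev_ne hne.symm
    · rw [hπ, hat_ell]
      apply tv_entry t hne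
      rintro ⟨h3, rfl⟩
      rw [ng_inj] at h3
      exact h2 (Or.inl ⟨rfl, h3.symm⟩)
    · rw [h.map_Y π hπ hu hcd]
      apply sh_entry hcd t hne
      · rintro ⟨h3, rfl⟩
        rw [ng_inj] at h3
        exact h2 (Or.inr ⟨h3.symm, rfl⟩)
      · rintro ⟨h3, rfl⟩
        rw [ng_inj] at h3
        exact h2 (Or.inl ⟨rfl, h3.symm⟩)
  have hT := h.trG π hπ hu hpos (Ψ := Up a b) (fun c d hcd => hcd.1) hg
  refine ⟨hT.1, hT.2, ?_⟩
  clear hT
  induction hg using Subgroup.closure_induction with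
  | mem x hx =>
    obtain ⟨c, d, hcd, hx⟩ := hx
    exact ⟨hgen c d hcd x hx, hgen c d hcd _ (inv_mem hx)⟩
  | one => rw [inv_one, map_one]; exact ⟨ev_ne hne.symm, ev_ne hne.symm⟩
  | mul x y hx' hy' hx hy =>
    have hTx := h.trG π hπ hu hpos (Ψ := Up a b) (fun c d hcd => hcd.1) hx'
    have hTy := h.trG π hπ hu hpos (Ψ := Up a b) (fun c d hcd => hcd.1) hy'
    rw [_root_.mul_inv_rev, map_mul, map_mul, hTx.1.entry hpos hTy.1 hne hval, hTy.2.entry hpos hTx.2 hne hval, hx.1, hy.1, hx.2, hy.2]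
    simp
  | inv x _ hx => rw [inv_inv]; exact ⟨hx.2, hx.1⟩

theorem SpRl.test (π : Γ →* Sg F n) (hπ : ∀ d, π (δ d) = hat F n d) (hu : π u = uh p q) :
    ∀ a b, Pos a b → ∀ x ∈ XX p q δ u a b, ∀ g ∈ G (XX p q δ u) (Up a b), π (x * g) = 1 → x = 1 := by
  intro a b hpos x hx g hg h1
  obtain ⟨hT, -, h2, -⟩ := h.entG π hπ hu hpos hg
  have hne : ng b ≠ a := by
    rintro rfl
    unfold Pos at hpos; rw [lam_ng] at hpos; omega
  have hval : lam a - lam (ng b) = lam a + lam b := by rw [lam_ng]; omega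
  have h3 := (h.tr π hπ hu (le_refl (lam a + lam b)) hx).entry hpos hT hne hval
  rw [← map_mul, h1, h2, add_zero] at h3
  have h4 : ((1 : Sg F n) : VV F n ≃ₗ[F] VV F n) (ev (ng b)) a = 0 := ev_ne hne.symm
  rw [h4] at h3
  rcases XX_casesg h hx with ⟨-, rfl⟩ | ⟨rfl, t, rfl⟩ | ⟨hab, t, rfl⟩
  · rfl
  · rw [hπ, hat_ell, tv_entry_eq] at h3
    have : t = 0 := by
      rcases mul_eq_zero.1 h3.symm with h | h
      · exact h
      · exact absurd h (sg_ne a)
    rw [this, L_zero]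
  · rw [h.map_Y π hπ hu hab, sh_entry_eq hab] at h3
    have : t = 0 := by
      rcases mul_eq_zero.1 h3.symm with h | h
      · exact h
      · exact absurd h (sg_ne b)
    rw [this, h.Y_zero hab]

theorem SpRl.monoG (π : Γ →* Sg F n) (hπ : ∀ d, π (δ d) = hat F n d) (hu : π u = uh p q) :
    ∀ g ∈ (ND F n).map δ, ∀ w ∈ G (XX p q δ u) Pos, π g = π w → g = 1 := by
  rintro _ ⟨d, hd, rfl⟩ w hw he
  have hT := (h.trG π hπ hu one_pos (Ψ := Pos) (fun a b hab => hab) hw).1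
  rw [← he, hπ] at hT
  have : d = 1 := by
    apply hat_inj
    apply ext_ev
    intro a
    obtain ⟨σ, c, hc, hσ⟩ := hd
    have h1 := hT.d1 a
    rw [hσ, Pi.smul_apply, smul_eq_mul] at h1
    by_cases h2 : a = σ a
    · rw [← h2, ev_same, mul_one] at h1
      rw [hσ, ← h2, h1, one_smul]; rfl
    · rw [ev_ne h2, mul_zero] at h1
      exact absurd h1.symm one_ne_zero
  rw [this, map_one]

theorem SpRl.conj_mem {d : Wr (S2 F) n} (hd : d ∈ ND F n) {f : Zs n → Zs n} {c : Zs n → F} (hc : ∀ a, c a ≠ 0)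
    (hf : ∀ a, (hat F n d : VV F n ≃ₗ[F] VV F n) (ev a) = c a • ev (f a)) {a b : Zs n} (hb : b ≠ ng a) {x : Γ} (hx : x ∈ XX p q δ u a b) :
    δ d * x * (δ d)⁻¹ ∈ XX p q δ u (f a) (f b) := by
  obtain ⟨σ, c', hc', hσ⟩ := id hd
  have e : ∀ a, f a = σ a ∧ c a = c' a := by
    intro a
    have := hσ a
    rw [hf] at this
    exact smul_ev_inj (hc a) this
  rcases XX_casesg h hx with ⟨h1, -⟩ | ⟨rfl, t, rfl⟩ | ⟨hab, t, rfl⟩
  · exact absurd h1 hb
  · rw [L_conj (hf a), mem_XL]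
    exact ⟨_, rfl⟩
  · have h2 : ix (f a) ≠ ix (f b) := by
      apply ix_ne
      · rw [(e a).1, (e b).1]
        intro h3
        have := σ.injective h3
        rw [this] at hab
        exact hab rfl
      · rw [(e a).1, (e b).1, ← (Mo.ng hc' hσ b).1]
        intro h3
        have := σ.injective h3
        rw [this, ix_ng] at hab
        exact hab rfl
    rw [h.Y_conj hd h2 (hf a) (hf b), mem_XYg h h2]
    exact ⟨_, rfl⟩

theorem SpRl.bru (l : Fin n) (hl : l.1 + 1 = n) :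
    Bru (XX p q δ u) ((ND F n).map δ) (al l) (be l) (fun i => δ (md F l i)) (sf l) := by
  have hba : ∀ i, be l i ≠ ng (al l i) := by
    rintro (_ | i)
    · simp [be, al, ng]
    · simp [be, al, ng, (nxt_ne i).symm]
  have hfa : ∀ i, sf l i (al l i) = ng (be l i) := by
    rintro (_ | i)
    · simp [sf, al, be, ng, sn]
    · simp [sf, al, be, ng, sw]
  have hfb : ∀ i, sf l i (be l i) = ng (al l i) := by
    rintro (_ | i)
    · simp [sf, al, be, ng, sn]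
    · simp [sf, al, be, ng, sw]
  refine { toRt := h.rt, act := ?_, hpos := ?_, hm := ?_, hs := ?_, hs1 := ?_, hs2 := ?_, hs3 := ?_, one := ?_ }
  · rintro _ ⟨d, hd, rfl⟩
    obtain ⟨σ, c, hc, hσ⟩ := id hd
    exact ⟨σ, fun a => (Mo.ng hc hσ a).1, fun a b hab => σ.injective hab, fun a b hb x hx => h.conj_mem hd hc hσ hb hx⟩
  · rintro (_ | i)
    · show 0 < lam (Sum.inl l) + lam (Sum.inl l)
      rw [lam_inl]; omega
    · show 0 < lam (Sum.inl i.1) + lam (Sum.inr (nxt i))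
      rw [lam_inl, lam_inr, show ((nxt i : Fin n) : ℕ) = i.1.1 + 1 from rfl]; push_cast; omega
  · intro i
    exact ⟨_, md_mem l i, rfl⟩
  · intro i a b hab x hx
    obtain ⟨c, hc, hf⟩ := md_act (F := F) l i
    refine h.conj_mem (md_mem l i) hc hf ?_ hx
    rw [Ne, eq_ng]; unfold Pos at hab; omega
  · intro i a b hab
    rcases i with _ | i
    · exact sn_pos l hl a b hab
    · exact sw_pos i a b hab
  · intro i x hx
    obtain ⟨c, hc, hf⟩ := md_act (F := F) l i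
    have := h.conj_mem (md_mem l i) hc hf (hba i) hx
    rw [hfa, hfb, (h.rt).symm] at this
    exact this
  · intro i x hx
    obtain ⟨c, hc, hf⟩ := md_act (F := F) l i
    have := h.conj_mem (inv_mem (md_mem l i)) (c := fun a => (c (sf l i a))⁻¹) (fun a => inv_ne_zero (hc _)) (invol hc (sf_sf l i) hf) (hba i) hx
    rw [hfa, hfb, (h.rt).symm, map_inv, inv_inv] at this
    exact this
  · intro i y hy hne
    rcases i with _ | i
    · obtain ⟨t, rfl⟩ := mem_XL.1 (show y ∈ XX p q δ u (ng (Sum.inl l)) (ng (Sum.inl l)) from hy)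
      have ht : t ≠ 0 := by rintro rfl; exact hne (L_zero _)
      obtain ⟨s, m, hm, he⟩ := long_one (a := Sum.inl l) ht
      refine ⟨δ (ell (Sum.inl l) s), mem_XL.2 ⟨s, rfl⟩, δ m, ⟨m, hm, rfl⟩, δ (ell (Sum.inl l) s), mem_XL.2 ⟨s, rfl⟩, ?_⟩
      rw [he, map_mul, map_mul]
    · have hix : ix (Sum.inl i.1 : Zs n) ≠ ix (Sum.inr (nxt i) : Zs n) := nxt_ne i
      have hix' : ix (ng (Sum.inl i.1 : Zs n)) ≠ ix (ng (Sum.inr (nxt i) : Zs n)) := by rw [ix_ng, ix_ng]; exact hix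
      obtain ⟨t, rfl⟩ := (mem_XYg h hix').1 (show y ∈ XX p q δ u (ng (Sum.inl i.1)) (ng (Sum.inr (nxt i))) from hy)
      have ht : t ≠ 0 := by rintro rfl; exact hne (h.Y_zero hix')
      obtain ⟨s, m, hm, he⟩ := h.Rf hix ht
      have hs : Y p q δ u (Sum.inl i.1) (Sum.inr (nxt i)) s ∈ XX p q δ u (Sum.inl i.1) (Sum.inr (nxt i)) := (mem_XYg h hix).2 ⟨s, rfl⟩
      refine ⟨_, inv_mem hs, δ m, ⟨m, hm, rfl⟩, _, inv_mem hs, ?_⟩
      rw [← he]; group

theorem SpRl.injective (htop : Subgroup.closure (Set.range δ ∪ {u}) = ⊤) (π : Γ →* Sg F n) (hπ : ∀ d, π (δ d) = hat F n d) (hu : π u = uh p q) :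
    Function.Injective π := by
  obtain ⟨l, hl⟩ : ∃ l : Fin n, l.1 + 1 = n := ⟨⟨n - 1, by have := p.2; omega⟩, by have := p.2; simp; omega⟩
  refine (h.bru l hl).inj (T := δ '' TD F n) ?_ ?_ ?_ ?_ π (h.test π hπ hu) (h.monoG π hπ hu)
  · rintro _ ⟨d, hd, rfl⟩
    exact ⟨d, hd.1, rfl⟩
  · intro i
    obtain ⟨c, hc, hf⟩ := md_act (F := F) l i
    have hinv := invol hc (sf_sf l i) hf
    refine ⟨δ ((md F l i)⁻¹ * (md F l i)⁻¹), ⟨_, ⟨mul_mem (inv_mem (md_mem l i)) (inv_mem (md_mem l i)), fun a => (c (sf l i a))⁻¹ * (c a)⁻¹,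
      fun a => mul_ne_zero (inv_ne_zero (hc _)) (inv_ne_zero (hc _)), ?_⟩, rfl⟩, ?_⟩
    · intro a
      rw [map_mul, ClSymp.mul_apply', hinv, map_smul, hinv, smul_smul, sf_sf]
    · rw [map_mul, map_inv]; group
  · rintro _ ⟨d, ⟨hd, c, hc, hf⟩, rfl⟩ a b hab x hx
    have hb : b ≠ ng a := by rw [Ne, eq_ng]; unfold Pos at hab; omega
    refine ⟨h.conj_mem hd (f := id) hc hf hb hx, ?_⟩
    have := h.conj_mem (inv_mem hd) (f := id) (c := fun a => (c a)⁻¹) (fun a => inv_ne_zero (hc _)) (invol (f := id) hc (fun a => rfl) hf) hb hx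
    rw [map_inv, inv_inv] at this
    exact this
  · set K := Subgroup.closure (δ '' TD F n ∪ {x | ∃ a b, Pos a b ∧ x ∈ XX p q δ u a b} ∪ Set.range (fun i => δ (md F l i))) with hK
    rw [eq_top_iff, ← htop, Subgroup.closure_le]
    have hX : ∀ a b, Pos a b → ∀ x ∈ XX p q δ u a b, x ∈ K := fun a b hab x hx => Subgroup.subset_closure (Or.inl (Or.inr ⟨a, b, hab, hx⟩))
    have hM : ∀ i, δ (md F l i) ∈ K := fun i => Subgroup.subset_closure (Or.inr ⟨i, rfl⟩)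
    have hpe : ∀ σ : Perm (Fin n), δ (pe σ) ∈ K := by
      obtain ⟨n', rfl⟩ : ∃ n', n = n' + 1 := ⟨l.1, hl.symm⟩
      intro σ
      have h1 : σ ∈ Submonoid.closure (Set.range fun i : Fin n' => swap i.castSucc i.succ) := by
        rw [Equiv.Perm.mclosure_swap_castSucc_succ]; exact Submonoid.mem_top _
      have h2 : Submonoid.closure (Set.range fun i : Fin n' => swap i.castSucc i.succ) ≤ ((K.comap δ).comap (pe (A := S2 F) (n := n' + 1))).toSubmonoid := by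
        rw [Submonoid.closure_le]
        rintro _ ⟨i, rfl⟩
        exact hM (some ⟨i.castSucc, by simp⟩)
      exact h2 h1
    have hup : ∀ t, δ (co l (up t)) ∈ K := by
      intro t
      refine hX (Sum.inl l) (Sum.inl l) ?_ _ (mem_XL.2 ⟨-t, ?_⟩)
      · show 0 < lam (Sum.inl l) + lam (Sum.inl l)
        rw [lam_inl]; omega
      · show _ = δ (co l (up (- -t)))
        rw [neg_neg]
    have hlo : ∀ t, δ (co l (lo t)) ∈ K := by
      intro t
      have e : (lo t : S2 F) = Ag 1 * up (-t) * (Ag 1)⁻¹ := by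
        rw [eq_mul_inv_iff_mul_eq]
        apply Subtype.ext
        show !![1, 0; t, 1] * !![0, -(((1 : Fˣ)⁻¹ : Fˣ) : F); ((1 : Fˣ) : F), 0] = !![0, -(((1 : Fˣ)⁻¹ : Fˣ) : F); ((1 : Fˣ) : F), 0] * !![1, -t; 0, 1]
        ext a b
        fin_cases a <;> fin_cases b <;> simp [Matrix.mul_apply, Fin.sum_univ_two]
      rw [e, map_mul, map_mul, map_mul, map_mul, map_inv, map_inv]
      exact mul_mem (mul_mem (hM none) (hup _)) (inv_mem (hM none))
    have hl2 : ∀ g : S2 F, δ (co l g) ∈ K := fun g => sl2_gen ((K.comap δ).comap (co l)) hup hlo g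
    rintro x (⟨d, rfl⟩ | hx)
    · have h1 : d ∈ Subgroup.closure (Set.range (pe (A := S2 F) (n := n)) ∪ {x | ∃ i a, x = co i a}) := by
        rw [closure_wr]; exact Subgroup.mem_top _
      have h2 : Subgroup.closure (Set.range (pe (A := S2 F) (n := n)) ∪ {x | ∃ i a, x = co i a}) ≤ K.comap δ := by
        rw [Subgroup.closure_le]
        rintro _ (⟨σ, rfl⟩ | ⟨i, a, rfl⟩)
        · exact hpe σ
        · have h3 := pe_co (swap l i) l a
          rw [swap_apply_left] at h3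
          show δ (co i a) ∈ K
          rw [← h3, map_mul, map_mul, map_inv]
          exact mul_mem (mul_mem (hpe _) (hl2 a)) (inv_mem (hpe _))
      exact h2 h1
    · rw [Set.mem_singleton_iff] at hx
      rw [hx, ← h.Y_base]
      have hix : ix (Sum.inl p : Zs n) ≠ ix (Sum.inl q : Zs n) := h.hpq
      refine hX (Sum.inl p) (Sum.inl q) ?_ _ ((mem_XYg h hix).2 ⟨1, rfl⟩)
      show 0 < lam (Sum.inl p) + lam (Sum.inl q)
      rw [lam_inl, lam_inl]
      have := p.2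
      have := q.2
      omega

end Cfsg.Agent.Lib.SpInf
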