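import Cfsg.Agent.Lib.SymCount
import Cfsg.Agent.Lib.MatChar
import Cfsg.Agent.Lib.SympGen
import Cfsg.Agent.Lib.ClEmbed
import Cfsg.Agent.Lib.RepBound
import Cfsg.Agent.Lib.RepSchur

/-!
# Lower bound for the degrees of representations of the symplectic groups of odd order (helper39)
-/

set_option autoImplicit false
set_option linter.unusedSectionVars false
open Cfsg

namespace Cfsg.Agent.Lib.SpLower

open Matrix Cfsg.Agent.Lib.SymCount Cfsg.Agent.Lib.MatChar Cfsg.Agent.Lib.ClEmbed

variable {F : Type*} [Field F] {n : ℕ}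

/-- The unipotent radical of the stabilizer of a maximal isotropic subspace. -/
def X (S : Matrix (Fin n) (Fin n) F) (hS : Sᵀ = S) : Matrix.symplecticGroup (Fin n) F :=
  ⟨Matrix.fromBlocks 1 S 0 1, by
    rw [SymplecticGroup.mem_iff]
    simp only [Matrix.J, Matrix.fromBlocks_multiply, Matrix.fromBlocks_transpose]
    congr 1 <;> simp [hS]⟩

theorem X_val (S : Matrix (Fin n) (Fin n) F) (hS : Sᵀ = S) : (X S hS).1 = Matrix.fromBlocks 1 S 0 1 := rfl

/-- parametrized by all matrices -/
def XM (M : Matrix (Fin n) (Fin n) F) : Matrix.symplecticGroup (Fin n) F :=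
  X (M + Mᵀ) (by rw [Matrix.transpose_add, Matrix.transpose_transpose, add_comm])

theorem XM_val (M : Matrix (Fin n) (Fin n) F) : (XM M).1 = Matrix.fromBlocks 1 (M + Mᵀ) 0 1 := rfl

theorem XM_add (M N : Matrix (Fin n) (Fin n) F) : XM (M + N) = XM M * XM N := by
  apply Subtype.ext
  change (XM (M + N)).1 = (XM M).1 * (XM N).1
  rw [XM_val, XM_val, XM_val, Matrix.fromBlocks_multiply]
  congr 1
  · simp
  · rw [Matrix.transpose_add]; simp; abel
  · simp
  · simp

theorem XM_zero : XM (0 : Matrix (Fin n) (Fin n) F) = 1 := by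
  apply Subtype.ext
  change (XM 0).1 = 1
  rw [XM_val]; simp

theorem XM_transpose (M : Matrix (Fin n) (Fin n) F) : XM Mᵀ = XM M := by
  apply Subtype.ext
  rw [XM_val, XM_val, Matrix.transpose_transpose, add_comm]

theorem glToSp_val (g : GL (Fin n) F) : (glToSp g).1 = Matrix.fromBlocks g.1 0 0 (g⁻¹).1ᵀ := rfl

theorem XM_conj (g : GL (Fin n) F) (M : Matrix (Fin n) (Fin n) F) :
    glToSp g * XM M = XM (g.1 * M * g.1ᵀ) * glToSp g := by
  apply Subtype.ext
  change (glToSp g).1 * (XM M).1 = (XM _).1 * (glToSp g).1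
  rw [XM_val, XM_val, glToSp_val, Matrix.fromBlocks_multiply, Matrix.fromBlocks_multiply]
  have h1 : (g⁻¹).1 * g.1 = 1 := by rw [← Units.val_mul, inv_mul_cancel, Units.val_one]
  have h2 : (g.1)ᵀ * ((g⁻¹).1)ᵀ = 1 := by rw [← Matrix.transpose_mul, h1, Matrix.transpose_one]
  congr 1
  · simp
  · simp only [Matrix.mul_zero, Matrix.zero_mul, add_zero, zero_add, Matrix.transpose_mul, Matrix.transpose_transpose,
      Matrix.mul_add, Matrix.add_mul, Matrix.mul_assoc, h2, Matrix.mul_one]
  · simp
  · simp

/-- A homomorphism trivial on the radical is trivial. -/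
theorem eq_one_of_XM (hn : 0 < n) (h2 : (2 : F) ≠ 0) {H : Type*} [Monoid H]
    (f : Matrix.symplecticGroup (Fin n) F →* H) (hf : ∀ M, f (XM M) = 1) : ∀ A, f A = 1 := by
  have key : ∀ A ∈ {A : symplecticGroup (Fin n) F | ∃ (w : Fin n ⊕ Fin n → F) (c : F),
      (A : Matrix (Fin n ⊕ Fin n) (Fin n ⊕ Fin n) F) = sympTransvection n w c}, f A = 1 := by
    rintro A ⟨w, c, hA⟩
    by_cases hw : w = 0
    · have : A = 1 := by
        apply Subtype.ext
        rw [hA, hw]
        simp [sympTransvection]
      rw [this, map_one]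
    · let i : Fin n := ⟨0, hn⟩
      obtain ⟨B, hB⟩ := SympGen.witt_family (F := F) (m := n) (n := 1) (fun _ => Pi.single (Sum.inl i) 1) (fun _ => w)
        (linearIndependent_unique_iff.2 (by simp)) (linearIndependent_unique_iff.2 hw)
        (fun _ _ => by rw [SympMat.sympForm_self, SympMat.sympForm_self])
      have hB := hB 0
      have hX : (XM (Matrix.single i i (c / 2))).1 = sympTransvection n (Pi.single (Sum.inl i) 1) c := by
        rw [XM_val, sympTransvection]
        have h3 : (Matrix.J (Fin n) F *ᵥ (Pi.single (Sum.inl i) 1)) = Pi.single (Sum.inr i) 1 := by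
          funext j
          rcases j with j | j
          · rw [SympMat.J_mulVec_inl]; simp
          · rw [SympMat.J_mulVec_inr]
            simp [Pi.single_apply]
        rw [h3]
        ext a b
        rcases a with a | a <;> rcases b with b | b
        · simp [Matrix.vecMulVec_apply, Matrix.one_apply]
        · simp only [Matrix.fromBlocks_apply₁₂, Matrix.add_apply, Matrix.transpose_apply, Matrix.smul_apply,
            Matrix.vecMulVec_apply, Matrix.one_apply, Matrix.single_apply, Pi.single_apply, Sum.inl.injEq, Sum.inr.injEq,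
            smul_eq_mul, reduceCtorEq, if_false, zero_add]
          by_cases ha : a = i <;> by_cases hb : b = i
          · simp only [ha, hb, and_self, if_true, mul_one]
            rw [← add_div, ← two_mul, mul_div_cancel_left₀ _ h2]
          · simp [ha, hb, Ne.symm hb]
          · simp [ha, hb, Ne.symm ha]
          · simp [ha, hb, Ne.symm hb]
        · simp [Matrix.vecMulVec_apply, Matrix.one_apply]
        · simp [Matrix.vecMulVec_apply, Matrix.one_apply]
      have h4 : A * B = B * XM (Matrix.single i i (c / 2)) := by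
        apply Subtype.ext
        change A.1 * B.1 = B.1 * (XM _).1
        rw [hX, SympMat.transvection_conj _ B.2, hA, hB]
      have h5 : A = B * XM (Matrix.single i i (c / 2)) * B⁻¹ := by rw [← h4, mul_inv_cancel_right]
      have h6 : f B * f B⁻¹ = 1 := by rw [← map_mul, mul_inv_cancel, map_one]
      rw [h5, map_mul, map_mul, hf, mul_one, h6]
  intro A
  have hA : A ∈ (⊤ : Subgroup (symplecticGroup (Fin n) F)) := Subgroup.mem_top A
  rw [← SympGen.closure_transvections n F] at hA
  induction hA using Subgroup.closure_induction with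
  | mem x hx => exact key x hx
  | one => exact map_one f
  | mul x y _ _ hx hy => rw [map_mul, hx, hy, mul_one]
  | inv x _ hx =>
    have : f x⁻¹ * f x = 1 := by rw [← map_mul, inv_mul_cancel, map_one]
    rwa [hx, mul_one] at this

theorem lower_bound [Fintype F] [DecidableEq F] (hn : 0 < n) (h2 : (2 : F) ≠ 0) {V : Type*} [AddCommGroup V] [Module ℂ V]
    [FiniteDimensional ℂ V] (ρ : Representation ℂ (Matrix.symplecticGroup (Fin n) F) V) (hρ : ρ.IsIrreducible)
    (hk : 2 ≤ Module.finrank ℂ V) : (Fintype.card F ^ n - 1) / 2 ≤ Module.finrank ℂ V := by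
  classical
  have hne : ∃ M : Matrix (Fin n) (Fin n) F, ρ (XM M) ≠ 1 := by
    by_contra hcon
    push Not at hcon
    have h1 := eq_one_of_XM hn h2 ρ hcon
    have h3 := RepSchur.finrank_le_one_of_comm hρ (fun g h => by rw [h1, h1])
    omega
  obtain ⟨ψ, hψ, v, hv, hv2⟩ := RepBound.exists_eigen (fun M : Matrix (Fin n) (Fin n) F => ρ (XM M))
    (fun a b => by rw [XM_add, map_mul]) (by rw [XM_zero, map_one]) hne
  obtain ⟨lam, hlam⟩ := exists_ne_one F
  obtain ⟨B, hB⟩ := mchar_surjective hlam ψ
  have hBt : Bᵀ = B := by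
    apply mchar_injective hlam
    ext M
    have h3 : ψ Mᵀ • v = ψ M • v := by rw [← hv2, ← hv2, XM_transpose]
    have h4 : ψ Mᵀ = ψ M := smul_left_injective ℂ hv h3
    rw [mchar_apply, ← Matrix.trace_transpose, Matrix.transpose_mul, Matrix.transpose_transpose, Matrix.trace_mul_comm,
      ← mchar_apply, hB, h4]
  have hB0 : B ≠ 0 := by
    rintro rfl
    apply hψ
    rw [← hB]
    ext M
    rw [mchar_apply]; simp
  let J := {M // M ∈ (Finset.univ : Finset (GL (Fin n) F)).image (cg B)}
  have hJ : ∀ j : J, ∃ g : GL (Fin n) F, cg B g = j.1 := by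
    rintro ⟨M, hM⟩
    obtain ⟨g, -, hg⟩ := Finset.mem_image.1 hM
    exact ⟨g, hg⟩
  choose g hg using hJ
  have hmul : ∀ x y w, ρ x (ρ y w) = ρ (x * y) w := fun x y w => by rw [map_mul]; rfl
  have h := RepBound.card_mul_finrank_le (M := Multiplicative (Matrix (Fin n) (Fin n) F)) (Submodule.span ℂ {v})
    (fun j : J => ρ (glToSp (g j)⁻¹))
    (fun j w _ h => by
      have h1 : ρ (glToSp (g j)⁻¹)⁻¹ (ρ (glToSp (g j)⁻¹) w) = w := by
        rw [hmul, inv_mul_cancel, map_one]; rfl
      rw [← h1, h, map_zero])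
    (fun M => ρ (XM (Multiplicative.toAdd M)))
    (fun j => (mchar lam j.1).toMonoidHom)
    (fun j j' hjj' => by
      apply Subtype.ext
      apply mchar_injective hlam
      exact DFunLike.ext _ _ fun x => DFunLike.congr_fun hjj' (Multiplicative.ofAdd x))
    (by
      intro M j w hw
      change ρ (XM M.toAdd) (ρ (glToSp (g j)⁻¹) w) = mchar lam j.1 M.toAdd • ρ (glToSp (g j)⁻¹) w
      obtain ⟨c, rfl⟩ := Submodule.mem_span_singleton.1 hw
      rw [map_smul, map_smul, smul_comm]
      congr 1
      have h3 : XM M.toAdd * glToSp (g j)⁻¹ = glToSp (g j)⁻¹ * XM ((g j).1 * M.toAdd * (g j).1ᵀ) := by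
        rw [XM_conj]
        congr 2
        have h5 : ((g j)⁻¹).1 * (g j).1 = 1 := by rw [← Units.val_mul, inv_mul_cancel, Units.val_one]
        have h6 : ((g j).1)ᵀ * (((g j)⁻¹).1)ᵀ = 1 := by rw [← Matrix.transpose_mul, h5, Matrix.transpose_one]
        calc M.toAdd = (((g j)⁻¹).1 * (g j).1) * M.toAdd * (((g j).1)ᵀ * (((g j)⁻¹).1)ᵀ) := by
              rw [h5, h6, Matrix.one_mul, Matrix.mul_one]
          _ = _ := by simp only [Matrix.mul_assoc]
      rw [hmul, h3, ← hmul, hv2, map_smul]
      congr 1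
      rw [← hB, mchar_apply, mchar_apply, ← hg j, cg]
      congr 1
      rw [← Matrix.mul_assoc, ← Matrix.mul_assoc, Matrix.trace_mul_comm]
      simp only [Matrix.mul_assoc])
  have h5 := card_congr hBt h2 hB0
  rw [Fintype.card_fin] at h5
  rw [finrank_span_singleton hv, mul_one] at h
  refine h5.trans ?_
  rw [Fintype.card_coe] at h
  exact h

end Cfsg.Agent.Lib.SpLower
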