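import Cfsg.Agent.Lib.SpTrans
import Cfsg.Agent.Lib.QuadSiegel

/-!
Calculus of the elements `v ↦ v + B(v,a) u + B(v,u) a + c B(v,a) a` (`u ∈ a^⊥`) of a subgroup `L` of the
symplectic group in characteristic two.
-/

set_option autoImplicit false

namespace Cfsg.Agent.Lib.SpOv98

open Cfsg.Agent.Lib.SpTrans (isom)

section Calc

variable {F V : Type*} [Field F] [AddCommGroup V] [Module F V]
  {B : V →ₗ[F] V →ₗ[F] F} {L : Subgroup (V ≃ₗ[F] V)}

/-- ambient data: a non-degenerate alternating form over a field with `2 = 0`, and a subgroup of its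
isometry group -/
structure Amb (B : V →ₗ[F] V →ₗ[F] F) (L : Subgroup (V ≃ₗ[F] V)) : Prop where
  two : (2 : F) = 0
  alt : ∀ x, B x x = 0
  nd : ∀ x, (∀ y, B x y = 0) → x = 0
  le : L ≤ isom (fun x y => B x y)

theorem Amb.symm (h : Amb B L) (x y : V) : B x y = B y x := by
  have h1 := h.alt (x + y)
  simp only [map_add, LinearMap.add_apply, h.alt] at h1
  have h2 : B x y + B y x = 0 := by linear_combination h1
  linear_combination h2 - B y x * h.two

theorem Amb.map (h : Amb B L) {g : V ≃ₗ[F] V} (hg : g ∈ L) (x y : V) : B (g x) (g y) = B x y :=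
  h.le hg x y

theorem Amb.add_self (h : Amb B L) (x : V) : x + x = 0 := by
  have : x + x = (2 : F) • x := by rw [two_smul]
  rw [this, h.two, zero_smul]

/-- `L` contains the element `v ↦ v + B(v,a) u + (B(v,u) + c B(v,a)) a`. -/
def XX (B : V →ₗ[F] V →ₗ[F] F) (L : Subgroup (V ≃ₗ[F] V)) (a u : V) (c : F) : Prop :=
  ∃ g ∈ L, ∀ v, g v = v + B v a • u + (B v u + c * B v a) • a

theorem XX.mul (hA : Amb B L) {a u u' : V} {c c' : F} (hu : B a u = 0) (hu' : B a u' = 0)
    (h : XX B L a u c) (h' : XX B L a u' c') : XX B L a (u + u') (c + c' + B u u') := by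
  obtain ⟨g, hg, e⟩ := h
  obtain ⟨g', hg', e'⟩ := h'
  refine ⟨g * g', mul_mem hg hg', fun v => ?_⟩
  show g (g' v) = _
  have h1 : B u' a = 0 := by rw [hA.symm]; exact hu'
  have h2 : B u' u = B u u' := hA.symm _ _
  rw [e, e']
  simp only [map_add, map_smul, LinearMap.add_apply, LinearMap.smul_apply, smul_eq_mul, hA.alt, hu,
    h1, h2]
  module

theorem XX.conj (hA : Amb B L) {a u : V} {c : F} {g : V ≃ₗ[F] V} (hg : g ∈ L)
    (h : XX B L a u c) : XX B L (g a) (g u) c := by
  obtain ⟨x, hx, e⟩ := h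
  refine ⟨g * x * g⁻¹, mul_mem (mul_mem hg hx) (inv_mem hg), fun v => ?_⟩
  show g (x (g⁻¹ v)) = _
  have h0 : g (g⁻¹ v) = v := g.apply_symm_apply v
  have h1 : ∀ w, B (g⁻¹ v) w = B v (g w) := by
    intro w
    conv_rhs => rw [← h0]
    rw [hA.map hg]
  rw [e, map_add, map_add, map_smul, map_smul, h0, h1, h1]

theorem XX.scal {a u : V} {c : F} (μ : F) :
    XX B L (μ • a) u c ↔ XX B L a (μ • u) (μ ^ 2 * c) := by
  unfold XX
  have : ∀ v : V, v + B v (μ • a) • u + (B v u + c * B v (μ • a)) • μ • a =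
      v + B v a • μ • u + (B v (μ • u) + μ ^ 2 * c * B v a) • a := by
    intro v
    simp only [map_smul, smul_eq_mul]
    module
  simp only [this]

theorem XX.add_smul (hA : Amb B L) {a u : V} {c : F} (t : F) :
    XX B L a (u + t • a) c ↔ XX B L a u c := by
  unfold XX
  have : ∀ v : V, v + B v a • (u + t • a) + (B v (u + t • a) + c * B v a) • a =
      v + B v a • u + (B v u + c * B v a) • a := by
    intro v
    simp only [map_add, map_smul, smul_eq_mul]
    match_scalars
    · ring
    · ring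
    · linear_combination (t * B v a) * hA.two
  simp only [this]

theorem XX.swap {a u : V} : XX B L a u 0 ↔ XX B L u a 0 := by
  unfold XX
  have : ∀ v : V, v + B v a • u + (B v u + 0 * B v a) • a =
      v + B v u • a + (B v a + 0 * B v u) • u := by
    intro v
    module
  simp only [this]

theorem XX.one (a : V) : XX B L a 0 0 := ⟨1, one_mem _, fun v => by simp⟩

theorem XX.smul_self (hA : Amb B L) (a : V) (t : F) : XX B L a (t • a) 0 := by
  have h := (XX.add_smul hA (a := a) (u := 0) (c := 0) t).2 (XX.one a)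
  rwa [zero_add] at h

/-- application of an element to a point of an invariant set -/
theorem XX.inv {P : V → Prop} (hP : ∀ g ∈ L, ∀ v, P v → P (g v)) {a u : V} {c : F}
    (h : XX B L a u c) {v : V} (hv : P v) : P (v + B v a • u + (B v u + c * B v a) • a) := by
  obtain ⟨g, hg, e⟩ := h
  rw [← e]
  exact hP g hg v hv

/-- transvections -/
abbrev TT (B : V →ₗ[F] V →ₗ[F] F) (L : Subgroup (V ≃ₗ[F] V)) (a : V) (c : F) : Prop := XX B L a 0 c

theorem TT.inv {P : V → Prop} (hP : ∀ g ∈ L, ∀ v, P v → P (g v)) {a : V} {c : F}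
    (h : TT B L a c) {v : V} (hv : P v) : P (v + (c * B v a) • a) := by
  have := XX.inv hP h hv
  simpa using this

theorem TT.of_eq (hA : Amb B L) {a u : V} {c c' : F} (hu : B a u = 0) (h : XX B L a u c)
    (h' : XX B L a u c') : TT B L a (c + c') := by
  have := XX.mul hA hu hu h h'
  rwa [hA.add_self, hA.alt, add_zero] at this

/-- a set of vectors of transvections with coefficient one is invariant -/
theorem TT.invariant (hA : Amb B L) : ∀ g ∈ L, ∀ v, TT B L v 1 → TT B L (g v) 1 := by
  intro g hg v hv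
  have := XX.conj hA hg hv
  rwa [map_zero] at this

/-- the product of two transvections with perpendicular centres `w + s a`, `w`. -/
theorem TT.prod (hA : Amb B L) {a w : V} (haw : B a w = 0) {s l : F} (h : TT B L (w + s • a) l)
    (h' : TT B L w l) : XX B L a ((l * s) • w) (l * s ^ 2) := by
  obtain ⟨g, hg, e⟩ := h
  obtain ⟨g', hg', e'⟩ := h'
  refine ⟨g * g', mul_mem hg hg', fun v => ?_⟩
  show g (g' v) = _
  have h1 : B w a = 0 := by rw [hA.symm]; exact haw
  rw [e, e']
  simp only [map_add, map_smul, LinearMap.add_apply, LinearMap.smul_apply, smul_eq_mul, hA.alt,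
    h1, map_zero, smul_zero, add_zero, mul_zero, zero_add]
  match_scalars
  · ring
  · linear_combination (l * B v w) * hA.two
  · ring

end Calc

end Cfsg.Agent.Lib.SpOv98
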