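import Cfsg.Agent.Lib.SpOvA

/-!
Points with a large two-transvection group; the case in which `L` contains transvections.
-/

set_option autoImplicit false

namespace Cfsg.Agent.Lib.SpOv98

open Cfsg.Agent.Lib.SpTrans (isom)
open Module

section Basic

variable {F V : Type*} [Field F] [AddCommGroup V] [Module F V]
  {B : V →ₗ[F] V →ₗ[F] F} {L : Subgroup (V ≃ₗ[F] V)}

theorem Amb.add_eq_zero (hA : Amb B L) {x y : F} : x + y = 0 ↔ x = y := by
  constructor
  · intro h
    linear_combination h - y * hA.two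
  · rintro rfl
    linear_combination x * hA.two

theorem Amb.exists_ne (hA : Amb B L) {a : V} (ha : a ≠ 0) : ∃ y, B a y = 1 := by
  by_contra hcon
  push Not at hcon
  apply ha
  apply hA.nd
  intro y
  by_contra hy
  apply hcon ((B a y)⁻¹ • y)
  rw [map_smul, smul_eq_mul, inv_mul_cancel₀ hy]

theorem Amb.exists_one (hA : Amb B L) {a u : V} (ha : a ≠ 0) (h : ∀ c : F, u ≠ c • a) :
    ∃ y, B a y = 0 ∧ B u y = 1 := by
  by_contra hcon
  push Not at hcon
  obtain ⟨y0, hy0⟩ := hA.exists_ne ha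
  apply h (B u y0)
  have key : ∀ y, B a y = 0 → B u y = 0 := by
    intro y hy
    by_contra hne
    apply hcon ((B u y)⁻¹ • y)
    · rw [map_smul, hy, smul_zero]
    · rw [map_smul, smul_eq_mul, inv_mul_cancel₀ hne]
  have h2 : u - B u y0 • a = 0 := by
    apply hA.nd
    intro y
    have h3 := key (y - B a y • y0) (by rw [map_sub, map_smul, hy0]; simp)
    rw [map_sub, map_smul, smul_eq_mul] at h3
    simp only [map_sub, map_smul, LinearMap.sub_apply, LinearMap.smul_apply, smul_eq_mul]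
    linear_combination h3
  exact sub_eq_zero.1 h2

theorem Amb.common (hA : Amb B L) {u v : V} (hu : u ≠ 0) (hv : v ≠ 0) :
    ∃ y, B u y ≠ 0 ∧ B v y ≠ 0 := by
  obtain ⟨y1, h1⟩ := hA.exists_ne hu
  obtain ⟨y2, h2⟩ := hA.exists_ne hv
  by_cases h3 : B v y1 = 0
  · by_cases h4 : B u y2 = 0
    · exact ⟨y1 + y2, by simp [h1, h4], by simp [h2, h3]⟩
    · exact ⟨y2, h4, by simp [h2]⟩
  · exact ⟨y1, by simp [h1], h3⟩

theorem Amb.exists_perp [FiniteDimensional F V] (hd : 3 ≤ finrank F V)
    (a : V) : ∃ u, B a u = 0 ∧ ∀ c : F, u ≠ c • a := by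
  by_contra hcon
  push Not at hcon
  have h1 : LinearMap.ker (B a) ≤ Submodule.span F {a} := by
    intro u hu
    obtain ⟨c, hc⟩ := hcon u hu
    rw [hc]
    exact Submodule.smul_mem _ _ (Submodule.mem_span_singleton_self a)
  have h2 := Submodule.finrank_mono h1
  have h3 := LinearMap.finrank_range_add_finrank_ker (B a)
  have h4 : finrank F (LinearMap.range (B a)) ≤ 1 := by
    have := Submodule.finrank_le (LinearMap.range (B a))
    rwa [Module.finrank_self] at this
  have h5 : finrank F (Submodule.span F {a}) ≤ 1 := by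
    have := finrank_span_le_card (R := F) ({a} : Set V)
    simpa using this
  omega

theorem Amb.sqrt (hA : Amb B L) [Finite F] (x : F) : ∃ y, y * y = x := by
  haveI : CharP F 2 := CharTwo.of_one_ne_zero_of_two_eq_zero one_ne_zero hA.two
  haveI := Fintype.ofFinite F
  obtain ⟨y, hy⟩ := FiniteField.isSquare_of_char_two (F := F) (CharP.ringChar_of_prime_eq_zero Nat.prime_two (by exact_mod_cast hA.two)) x
  exact ⟨y, hy.symm⟩

/-- a point with a large two-transvection group -/
structure Dat (B : V →ₗ[F] V →ₗ[F] F) (L : Subgroup (V ≃ₗ[F] V)) (a : V) (φ : V → F) : Prop where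
  ne : a ≠ 0
  mem : ∀ u, B a u = 0 → XX B L a u (φ u)
  add : ∀ u u', B a u = 0 → B a u' = 0 → φ (u + u') = φ u + φ u' + B u u'
  sm : ∀ t : F, φ (t • a) = 0

variable {a : V} {φ : V → F}

theorem Dat.add_sm (hA : Amb B L) (h : Dat B L a φ) {u : V} (hu : B a u = 0) (t : F) :
    φ (u + t • a) = φ u := by
  rw [h.add u (t • a) hu (by rw [map_smul, hA.alt, smul_zero]), h.sm, map_smul, hA.symm u a, hu]
  simp

theorem Dat.not_smul (h : Dat B L a φ) {u : V} (hu : φ u ≠ 0) (c : F) : u ≠ c • a := by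
  rintro rfl
  exact hu (h.sm c)

theorem Dat.surj [Finite F] [FiniteDimensional F V] (hA : Amb B L) (hd : 3 ≤ finrank F V)
    (h : Dat B L a φ) (s : F) : ∃ w, B a w = 0 ∧ φ w = s := by
  obtain ⟨u, hau, hu⟩ := Amb.exists_perp (B := B) hd a
  obtain ⟨δ, hδ⟩ : ∃ δ : F, ∀ m : F, m ≠ 0 → φ (m • u) ≠ m * δ := by
    by_contra hcon
    push Not at hcon
    choose m hm1 hm2 using hcon
    have hinj : Function.Injective m := by
      intro x y hxy
      have h1 := hm2 x
      rw [hxy, hm2 y] at h1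
      exact (mul_left_cancel₀ (hm1 y) h1).symm
    obtain ⟨x, hx⟩ := Finite.surjective_of_injective hinj 0
    exact hm1 x hx
  obtain ⟨y, hay, huy⟩ := hA.exists_one h.ne hu
  have hau' : B a (δ • y) = 0 := by rw [map_smul, hay, smul_zero]
  have hamu : ∀ m : F, B a (m • u) = 0 := fun m => by rw [map_smul, hau, smul_zero]
  have hval : ∀ m : F, φ (δ • y + m • u) = φ (δ • y) + φ (m • u) + m * δ := by
    intro m
    rw [h.add _ _ hau' (hamu m)]
    simp only [map_smul, LinearMap.smul_apply, smul_eq_mul]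
    rw [hA.symm y u, huy]
    ring
  have hinj : Function.Injective fun m : F => φ (δ • y + m • u) := by
    intro m m' hmm
    simp only [hval] at hmm
    by_contra hne
    have h1 : m + m' ≠ 0 := fun h0 => hne (hA.add_eq_zero.1 h0)
    apply hδ _ h1
    rw [add_smul, h.add _ _ (hamu m) (hamu m')]
    simp only [map_smul, LinearMap.smul_apply, smul_eq_mul, hA.alt, mul_zero, add_zero]
    linear_combination hmm + (φ (m' • u) - m * δ) * hA.two
  obtain ⟨m, hm⟩ := Finite.surjective_of_injective hinj s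
  exact ⟨_, by rw [map_add, hau', hamu, add_zero], hm⟩

/-- formula for the image of `v` under the element of `X_a` attached to `u`. -/
theorem Dat.inv {P : V → Prop} (h : Dat B L a φ) (hP : ∀ g ∈ L, ∀ v, P v → P (g v)) {u : V}
    (hu : B a u = 0) {v : V} (hv : P v) : P (v + B v a • u + (B v u + φ u * B v a) • a) :=
  XX.inv hP (h.mem u hu) hv

/-- Let `b` with `B(b,a) = 1`. Each vector off `a^⊥` with `B(v,a) = β` satisfies an invariant
property iff the vector `β (b + s a)` does, for a suitable `s`. -/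
theorem Dat.norm (hA : Amb B L) (h : Dat B L a φ) {b : V} (hba : B b a = 1) {v : V} {β : F}
    (hv : B v a = β) (hβ : β ≠ 0) : ∃ u, B a u = 0 ∧ ∃ s : F,
      v = β • (b + s • a) + β • u + (B (β • (b + s • a)) u + φ u * β) • a := by
  obtain ⟨w, hw⟩ : ∃ w, w = β⁻¹ • v + b := ⟨_, rfl⟩
  have hwa : B a w = 0 := by
    rw [hA.symm, hw]
    simp only [map_add, map_smul, LinearMap.add_apply, LinearMap.smul_apply, smul_eq_mul]
    rw [hv, inv_mul_cancel₀ hβ, hba]
    linear_combination hA.two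
  refine ⟨w, hwa, φ w + B b w, ?_⟩
  have hv' : v = β • (w + b) := by
    rw [hw, add_assoc, hA.add_self, add_zero, smul_smul, mul_inv_cancel₀ hβ, one_smul]
  rw [hv']
  have e : B (β • (b + (φ w + B b w) • a)) w = β * B b w := by
    simp only [map_add, map_smul, LinearMap.add_apply, LinearMap.smul_apply, smul_eq_mul, hwa]
    ring
  rw [e]
  match_scalars
  · ring
  · ring
  · linear_combination (-(β * φ w) - β * B b w) * hA.two

end Basic

section CaseOne

variable {F V : Type*} [Field F] [AddCommGroup V] [Module F V]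
  {B : V →ₗ[F] V →ₗ[F] F} {L : Subgroup (V ≃ₗ[F] V)} {a : V} {φ : V → F}

/-- transvections with centres of every value of `B(., a)` -/
theorem Dat.exists_T [Finite F] [FiniteDimensional F V] (hA : Amb B L) (hd : 3 ≤ finrank F V)
    (h : Dat B L a φ) {c : V} (hc : TT B L c 1) (hca : B c a ≠ 0) (β : F) :
    ∃ d, TT B L d 1 ∧ B d a = β := by
  obtain ⟨β0, hβ0⟩ : ∃ β0, β0 = B c a := ⟨_, rfl⟩
  rw [← hβ0] at hca
  obtain ⟨u, hau, hu⟩ := h.surj hA hd ((1 + β / β0) / β0 ^ 2)
  have h1 := h.inv (TT.invariant hA) hau hc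
  have h2 := TT.inv (TT.invariant hA) hc h1
  refine ⟨_, h2, ?_⟩
  have hua : B u a = 0 := by rw [hA.symm]; exact hau
  simp only [map_add, map_smul, LinearMap.add_apply, LinearMap.smul_apply, smul_eq_mul, hA.alt,
    hua, ← hβ0, hA.symm a c, hA.symm u c]
  have h3 : φ u * β0 ^ 2 = 1 + β / β0 := by rw [hu]; field_simp
  have h4 : β / β0 * β0 = β := by field_simp
  linear_combination (β0) * h3 + h4 + (β0 + β0 * β0 * B c u) * hA.two

/-- perpendicular centres -/
theorem Dat.T_perp (hA : Amb B L) (h : Dat B L a φ) {c : V} {ν : F} (hc : TT B L c 1)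
    (hc' : TT B L (c + (ν * B c a) • a) 1) {u : V} (hau : B a u = 0) (hu : ∀ t : F, u ≠ t • a)
    (hβ : B c a ^ 2 * (φ u + ν) = 1) (s : F) : TT B L (B c a • (u + s • a)) 1 := by
  obtain ⟨β, hβ0⟩ : ∃ β, β = B c a := ⟨_, rfl⟩
  rw [← hβ0] at hc' hβ ⊢
  have hne : β ≠ 0 := by
    rintro rfl
    simp at hβ
  have hua : B u a = 0 := by rw [hA.symm]; exact hau
  obtain ⟨y0, hay, huy⟩ := hA.exists_one h.ne hu
  have h1 := h.inv (TT.invariant hA) hau hc'
  have h2 := TT.inv (TT.invariant hA) hc h1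
  -- the resulting vector
  obtain ⟨s0, hs0⟩ : ∃ s0, s0 = (ν * β + B c u + φ u * β) / β := ⟨_, rfl⟩
  have hs0' : β * s0 = ν * β + B c u + φ u * β := by rw [hs0]; field_simp
  have h3 : TT B L (β • (u + s0 • a)) 1 := by
    convert h2 using 1
    simp only [map_add, map_smul, LinearMap.add_apply, LinearMap.smul_apply, smul_eq_mul, hA.alt,
      hua, hau, ← hβ0, hA.symm a c, hA.symm u c]
    match_scalars
    · ring
    · linear_combination hs0'
    · linear_combination -hβ - (1 + β * B c u) * hA.two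
  have h4 := h.inv (TT.invariant hA) (u := (s + s0) • y0) (by rw [map_smul, hay, smul_zero]) h3
  convert h4 using 1
  simp only [map_add, map_smul, LinearMap.add_apply, LinearMap.smul_apply, smul_eq_mul, hA.alt,
    hua, hau, hay, huy]
  match_scalars
  · ring
  · linear_combination -(β * s0) * hA.two
  · ring

theorem Dat.T_mem (hA : Amb B L) (h : Dat B L a φ) {c : V} {ν : F} (hc : TT B L c 1)
    (hc' : TT B L (c + (ν * B c a) • a) 1) {u : V} (hau : B a u = 0) (hu : ∀ t : F, u ≠ t • a)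
    (hβ : B c a ^ 2 * (φ u + ν) = 1) (y : F) : XX B L a (y • u) (y ^ 2 * (φ u + ν)) := by
  obtain ⟨β, hβ0⟩ : ∃ β, β = B c a := ⟨_, rfl⟩
  have hne : β ≠ 0 := by
    rintro rfl
    rw [← hβ0] at hβ
    simp at hβ
  have h1 := h.T_perp hA hc hc' hau hu hβ (y / β ^ 2)
  have h2 := h.T_perp hA hc hc' hau hu hβ 0
  rw [← hβ0] at h1 h2 hβ
  rw [zero_smul, add_zero] at h2
  have h1' := (XX.scal β).1 h1
  have h2' := (XX.scal β).1 h2
  rw [smul_zero] at h1' h2'
  have h3 := TT.prod hA hau h1' h2'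
  have e1 : β ^ 2 * 1 * (y / β ^ 2) = y := by field_simp
  have e2 : β ^ 2 * 1 * (y / β ^ 2) ^ 2 = y ^ 2 * (φ u + ν) := by
    field_simp
    linear_combination (-y ^ 2) * hβ
  rw [e1, e2] at h3
  exact h3

/-- quadratic behaviour modulo the transvections with centre `a` -/
theorem Dat.T_quad [Finite F] [FiniteDimensional F V] (hA : Amb B L) (hd : 3 ≤ finrank F V)
    (h : Dat B L a φ) {c : V} (hc : TT B L c 1) (hca : B c a ≠ 0) {ν : F} (hν : TT B L a ν)
    {w : V} (haw : B a w = 0) (hw : ∀ t : F, w ≠ t • a) (hne : φ w + ν ≠ 0) (y : F) :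
    TT B L a (φ (y • w) + y ^ 2 * (φ w + ν)) := by
  obtain ⟨r, hr⟩ := hA.sqrt (φ w + ν)
  have hr0 : r ≠ 0 := by
    rintro rfl
    rw [mul_zero] at hr
    exact hne hr.symm
  obtain ⟨d, hd1, hd2⟩ := h.exists_T hA hd hc hca r⁻¹
  have h1 := TT.inv (TT.invariant hA) hν hd1
  have h2 : B d a ^ 2 * (φ w + ν) = 1 := by rw [hd2, ← hr]; field_simp
  have h3 := h.T_mem hA hd1 h1 haw hw h2 y
  have h4 : B a (y • w) = 0 := by rw [map_smul, haw, smul_zero]
  exact TT.of_eq hA h4 (h.mem _ h4) h3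

/-- if there is a transvection with centre `a`, then all are there. -/
theorem Dat.T_all [Finite F] [FiniteDimensional F V] (hA : Amb B L) (hd : 3 ≤ finrank F V)
    (h : Dat B L a φ) {c : V} (hc : TT B L c 1) (hca : B c a ≠ 0) {ν : F} (hν : TT B L a ν)
    (hν0 : ν ≠ 0) (l : F) : TT B L a l := by
  by_cases hx : ∃ x : F, x ≠ 0 ∧ x ≠ ν
  · obtain ⟨x, hx0, hxν⟩ := hx
    obtain ⟨w, haw, hw⟩ := h.surj hA hd x
    have hw' := h.not_smul (u := w) (by rw [hw]; exact hx0)
    obtain ⟨y, hy⟩ := hA.sqrt (l / ν)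
    have h1 := h.T_quad hA hd hc hca (XX.one a) haw hw' (by rw [hw, add_zero]; exact hx0) y
    have h2 := h.T_quad hA hd hc hca hν haw hw'
      (by rw [hw]; exact fun h0 => hxν (hA.add_eq_zero.1 h0)) y
    have h3 := TT.of_eq hA (by rw [map_zero]) h1 h2
    have e : φ (y • w) + y ^ 2 * (φ w + 0) + (φ (y • w) + y ^ 2 * (φ w + ν)) = l := by
      have : l = y ^ 2 * ν := by rw [_root_.sq, hy]; field_simp
      rw [this]
      linear_combination (φ (y • w) + y ^ 2 * φ w) * hA.two
    rwa [e] at h3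
  · push Not at hx
    by_cases hl : l = 0
    · rw [hl]; exact XX.one a
    · rw [hx l hl]; exact hν

/-- if there are no transvections with centre `a`, then `φ` is quadratic. -/
theorem Dat.T_homog [Finite F] [FiniteDimensional F V] (hA : Amb B L) (hd : 3 ≤ finrank F V)
    (h : Dat B L a φ) {c : V} (hc : TT B L c 1) (hca : B c a ≠ 0)
    (hno : ∀ l, TT B L a l → l = 0) {w : V} (haw : B a w = 0) (y : F) :
    φ (y • w) = y ^ 2 * φ w := by
  have key : ∀ (w : V) (y : F), B a w = 0 → φ w ≠ 0 → φ (y • w) = y ^ 2 * φ w := by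
    intro w y haw hw
    have h1 := hno _ (h.T_quad hA hd hc hca (XX.one a) haw (h.not_smul hw)
      (by rwa [add_zero]) y)
    rw [add_zero] at h1
    exact hA.add_eq_zero.1 h1
  by_cases hw : φ w = 0
  · rw [hw, mul_zero]
    by_contra hne
    have hy : y ≠ 0 := by
      rintro rfl
      apply hne
      rw [zero_smul]
      have := h.sm 0
      rwa [zero_smul] at this
    have h1 := key (y • w) y⁻¹ (by rw [map_smul, haw, smul_zero]) hne
    rw [smul_smul, inv_mul_cancel₀ hy, one_smul, hw] at h1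
    rcases mul_eq_zero.1 h1.symm with h2 | h2
    · exact hy (inv_eq_zero.1 (pow_eq_zero_iff (two_ne_zero)|>.1 h2))
    · exact hne h2
  · exact key w y haw hw

end CaseOne

end Cfsg.Agent.Lib.SpOv98
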