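import Cfsg.Agent.Lib.SpOvB

/-!
The case with transvections: `L` is the symplectic group or a full orthogonal group.
-/

set_option autoImplicit false

namespace Cfsg.Agent.Lib.SpOv98

open Cfsg.Agent.Lib.SpTrans (isom)
open Cfsg.Agent.Lib.Quad
open Module QuadraticMap

section Gen

variable {F V : Type*} [Field F] [AddCommGroup V] [Module F V] [FiniteDimensional F V]
  {Q : QuadraticForm F V}

/-- A subgroup containing all reflections and all Siegel transformations attached to totally
singular planes contains the orthogonal group. -/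
theorem O_le_of (hQ : Nd Q) {M : Subgroup (V ≃ₗ[F] V)} (h1 : ∀ v, Q v ≠ 0 → refl Q v ∈ M)
    (h2 : ∀ (z y : V) (hz : Q z = 0) (hzy : polar Q z y = 0), Q y = 0 → sieg hQ hz hzy ∈ M) :
    O Q ≤ M := by
  intro g hg
  have main : ∀ n : ℕ, ∀ g ∈ O Q, finrank F (mov g) = n → g ∈ M := by
    intro n
    induction n using Nat.strong_induction_on with
    | _ n ih =>
      intro g hg hn
      by_cases hns : ∃ v ∈ mov g, Q v ≠ 0
      · obtain ⟨v, hv, hQv⟩ := hns
        have h1' := hQ.finrank_mov_refl_mul_of_mem hg hQv hv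
        have h2' := ih (finrank F (mov (refl Q v * g))) (by omega) _ (mul_mem (refl_mem v) hg) rfl
        have h3 := mul_mem (h1 v hQv) h2'
        rwa [← mul_assoc, refl_mul_self, one_mul] at h3
      · push Not at hns
        by_cases hg1 : g = 1
        · rw [hg1]; exact one_mem _
        have hx : ∃ x, g x ≠ x := by
          by_contra hcon
          push Not at hcon
          exact hg1 (LinearEquiv.ext hcon)
        obtain ⟨x, hx⟩ := hx
        set v := g x - x with hv
        have hgx : g x = x + v := by rw [hv]; abel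
        have hQv : Q v = 0 := hns _ (sub_mem_mov g x)
        have hvx : polar Q v x = 0 := by
          have h2 := hg x
          rw [hgx, Q_add, hQv, polar_comm] at h2
          linear_combination h2
        have hxf : x ∉ fixS g := fun h => hx (mem_fixS.1 h)
        have : ∃ u ∈ mov g, polar Q u x = 1 := by
          rw [hQ.fixS_eq hg, mem_perp] at hxf
          push Not at hxf
          obtain ⟨u, hu, hne⟩ := hxf
          refine ⟨(polar Q u x)⁻¹ • u, Submodule.smul_mem _ _ hu, ?_⟩
          rw [polar_smul_left, smul_eq_mul, inv_mul_cancel₀ hne]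
        obtain ⟨u, hu, hux⟩ := this
        have hQu : Q u = 0 := hns u hu
        have hpol : ∀ a ∈ mov g, ∀ b ∈ mov g, polar Q a b = 0 := by
          intro a ha b hb
          rw [polar, hns _ (add_mem ha hb), hns _ ha, hns _ hb]; simp
        have huv : polar Q u v = 0 := hpol _ hu _ (sub_mem_mov g x)
        set ρ := sieg hQ hQu huv with hρ
        have hρR : ρ ∈ M := h2 _ _ hQu huv hQv
        have hρx : ρ x = g x := by
          rw [hρ, sieg_apply, hux, hvx, hQv, hgx]; simp
        have hρm : ∀ y, (∀ a ∈ mov g, polar Q a y = 0) → ρ y = y := by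
          intro y hy
          rw [hρ, sieg_apply, hy u hu, hy v (sub_mem_mov g x)]; simp
        have hρinv : ∀ y, ρ⁻¹ (ρ y) = y := fun y => ρ.symm_apply_apply y
        have hlt : finrank F (mov (ρ⁻¹ * g)) < n := by
          have h1 := finrank_mov_add_fixS (ρ⁻¹ * g)
          have h2 := finrank_mov_add_fixS g
          have h3 : fixS g < fixS (ρ⁻¹ * g) := by
            refine lt_of_le_of_ne ?_ ?_
            · intro y hy
              rw [mem_fixS]
              show ρ⁻¹ (g y) = y
              have hy' := hy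
              rw [hQ.fixS_eq hg, mem_perp] at hy'
              rw [mem_fixS.1 hy]
              conv_lhs => rw [← hρm y hy']
              exact hρinv y
            · intro h
              apply hxf
              rw [h, mem_fixS]
              show ρ⁻¹ (g x) = x
              rw [← hρx, hρinv]
          have h4 := Submodule.finrank_lt_finrank_of_lt h3
          omega
        have h5 := ih _ hlt (ρ⁻¹ * g) (mul_mem (inv_mem (sieg_mem _ _ _)) hg) rfl
        have h6 := mul_mem hρR h5
        rwa [mul_inv_cancel_left] at h6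
  exact main _ g hg rfl

end Gen

section Form

variable {F V : Type*} [Field F] [AddCommGroup V] [Module F V]
  {B : V →ₗ[F] V →ₗ[F] F} {L : Subgroup (V ≃ₗ[F] V)} {a : V} {φ : V → F}

theorem exists_form (hA : Amb B L) {b : V} (hba : B b a = 1)
    (hadd : ∀ u u', B a u = 0 → B a u' = 0 → φ (u + u') = φ u + φ u' + B u u')
    (hsm : ∀ u, B a u = 0 → ∀ y : F, φ (y • u) = y ^ 2 * φ u) (κ : F) :
    ∃ Q : QuadraticForm F V, (∀ x y, polar Q x y = B x y) ∧ Q b = κ ∧
      ∀ w, B a w = 0 → Q w = φ w := by
  have h0 : φ 0 = 0 := by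
    have := hsm 0 (map_zero _) 0
    rw [zero_smul] at this
    rw [this]; ring
  have hperp : ∀ v : V, B a (v + B v a • b) = 0 := by
    intro v
    rw [map_add, map_smul, smul_eq_mul, hA.symm a b, hba, hA.symm a v]
    linear_combination B v a * hA.two
  let q : V → F := fun v => B v a ^ 2 * κ + φ (v + B v a • b) + B v a * B v b
  have hq : ∀ v, q v = B v a ^ 2 * κ + φ (v + B v a • b) + B v a * B v b := fun _ => rfl
  have hqadd : ∀ x y, q (x + y) = q x + q y + B x y := by
    intro x y
    have e : x + y + B (x + y) a • b = (x + B x a • b) + (y + B y a • b) := by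
      simp only [map_add, LinearMap.add_apply]
      module
    rw [hq, hq, hq, e, hadd _ _ (hperp x) (hperp y)]
    simp only [map_add, map_smul, LinearMap.add_apply, LinearMap.smul_apply, smul_eq_mul, hA.alt,
      hA.symm b y]
    linear_combination (B x a * B y a * κ + B y a * B x b + B x a * B y b) * hA.two
  let Q : QuadraticForm F V :=
    { toFun := q
      toFun_smul := by
        intro c x
        have e : c • x + B (c • x) a • b = c • (x + B x a • b) := by
          simp only [map_smul, LinearMap.smul_apply, smul_eq_mul]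
          module
        rw [hq, hq, e, hsm _ (hperp x)]
        simp only [map_smul, LinearMap.smul_apply, smul_eq_mul]
        ring
      exists_companion' := ⟨B, hqadd⟩ }
  have hQ : ∀ v, Q v = q v := fun _ => rfl
  refine ⟨Q, ?_, ?_, ?_⟩
  · intro x y
    rw [polar, hQ, hQ, hQ, hqadd]
    ring
  · rw [hQ, hq, hba, one_smul, hA.add_self, h0, hA.alt]
    ring
  · intro w hw
    rw [hQ, hq, hA.symm w a, hw]
    simp

theorem nd_of_polar (hA : Amb B L) {Q : QuadraticForm F V} (hp : ∀ x y, polar Q x y = B x y) :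
    Nd Q := by
  apply nd_of
  intro x hx
  exact hA.nd x fun y => by rw [← hp, hx]

theorem Q_x (hA : Amb B L) {Q : QuadraticForm F V} (hp : ∀ x y, polar Q x y = B x y)
    (ha : Q a = 0) {u : V} (hau : B a u = 0) (v : V) :
    Q (v + B v a • u + (B v u + Q u * B v a) • a) = Q v := by
  have hua : B u a = 0 := by rw [hA.symm]; exact hau
  rw [Q_add, Q_add, Q_smul, Q_smul, ha, hp, hp]
  simp only [map_add, map_smul, LinearMap.add_apply, LinearMap.smul_apply, smul_eq_mul, hua]
  linear_combination (B v a * B v a * Q u + B v a * B v u) * hA.two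

theorem Q_t (hA : Amb B L) {Q : QuadraticForm F V} (hp : ∀ x y, polar Q x y = B x y) {c : V}
    (hc : Q c = 1) (v : V) : Q (v + (1 * B v c) • c) = Q v := by
  rw [Q_add, Q_smul, hc, hp, map_smul, smul_eq_mul]
  linear_combination (B v c * B v c) * hA.two

theorem XX.sieg_mem [FiniteDimensional F V] (hA : Amb B L) {Q : QuadraticForm F V}
    (hp : ∀ x y, polar Q x y = B x y) (hQ : Nd Q) {z y : V} (hz : Q z = 0)
    (hzy : polar Q z y = 0) (h : XX B L z y (Q y)) : sieg hQ hz hzy ∈ L := by
  obtain ⟨g, hg, e⟩ := h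
  have : sieg hQ hz hzy = g := by
    apply LinearEquiv.ext
    intro v
    rw [sieg_apply, e, hp, hp, hA.symm z v, hA.symm y v]
    match_scalars
    · ring
    · ring
    · linear_combination (-B v y - Q y * B v z) * hA.two
  rw [this]; exact hg

theorem TT.refl_mem [Finite F] (hA : Amb B L) {Q : QuadraticForm F V}
    (hp : ∀ x y, polar Q x y = B x y) (h : ∀ v, Q v = 1 → TT B L v 1) {v : V} (hv : Q v ≠ 0) :
    refl Q v ∈ L := by
  obtain ⟨r, hr⟩ := hA.sqrt (Q v)
  have hr0 : r ≠ 0 := by
    rintro rfl
    rw [mul_zero] at hr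
    exact hv hr.symm
  have h1 : Q (r⁻¹ • v) = 1 := by
    rw [Q_smul, ← hr]
    field_simp
  obtain ⟨g, hg, e⟩ := h _ h1
  have : refl Q v = g := by
    apply LinearEquiv.ext
    intro x
    rw [refl_apply hv, e, hp, hA.symm v x, ← hr]
    simp only [map_smul, smul_eq_mul, map_zero, smul_zero, add_zero, zero_add, one_mul]
    match_scalars
    · ring
    · have e1 : (r * r)⁻¹ * B x v = r⁻¹ * B x v * r⁻¹ := by rw [mul_inv]; ring
      linear_combination -e1 - (r⁻¹ * B x v * r⁻¹) * hA.two
  rw [this]; exact hg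

/-- a subgroup containing all reflections is transitive on non-zero singular vectors -/
theorem trans_sing [FiniteDimensional F V] (hA : Amb B L) {Q : QuadraticForm F V}
    (hp : ∀ x y, polar Q x y = B x y) {M : Subgroup (V ≃ₗ[F] V)} (h1 : ∀ v, Q v ≠ 0 → refl Q v ∈ M)
    {z y : V} (hz : z ≠ 0) (hy : y ≠ 0) (hQz : Q z = 0) (hQy : Q y = 0) : ∃ g ∈ M, g z = y := by
  have key : ∀ z y : V, Q z = 0 → Q y = 0 → B z y ≠ 0 → ∃ g ∈ M, g z = y := by
    intro z y hz hy hzy
    have h2 : Q (z - y) ≠ 0 := by
      rw [Q_sub, hz, hy, hp]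
      simpa using hzy
    exact ⟨refl Q (z - y), h1 _ h2, refl_sub (by rw [hz, hy]) h2⟩
  obtain ⟨x, hx1, hx2⟩ := hA.common hz hy
  obtain ⟨s, hs⟩ : ∃ s, s = Q x / B z x := ⟨_, rfl⟩
  by_cases hzy : B z y = 0
  · have h3 : Q (x + s • z) = 0 := by
      rw [Q_add, Q_smul, hQz, hp, map_smul, smul_eq_mul, hA.symm x z, hs, div_mul_cancel₀ _ hx1]
      linear_combination (Q x) * hA.two
    have h4 : B z (x + s • z) ≠ 0 := by
      rw [map_add, map_smul, hA.alt]; simpa using hx1
    have h5 : B (x + s • z) y ≠ 0 := by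
      rw [map_add, map_smul, LinearMap.add_apply, LinearMap.smul_apply, hzy, hA.symm x y]
      simpa using hx2
    obtain ⟨g, hg, e⟩ := key z _ hQz h3 h4
    obtain ⟨g', hg', e'⟩ := key _ y h3 hQy h5
    exact ⟨g' * g, mul_mem hg' hg, by rw [LinearEquiv.mul_apply, e, e']⟩
  · exact key z y hQz hQy hzy

end Form

section Concl

variable {F V : Type*} [Field F] [AddCommGroup V] [Module F V] [Finite F] [FiniteDimensional F V]
  {B : V →ₗ[F] V →ₗ[F] F} {L : Subgroup (V ≃ₗ[F] V)} {a : V} {φ : V → F}

theorem isom_le_of_TT (hA : Amb B L) (h : ∀ v, v ≠ 0 → TT B L v 1) :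
    isom (fun x y => B x y) ≤ L := by
  have hB : B.IsAlt := fun x => hA.alt x
  apply SpTrans.isom_le_of_tv_mem (hB := hB)
  · intro x _ hx
    obtain ⟨y, hy⟩ := hA.exists_ne hx
    exact ⟨y, trivial, by rw [hy]; exact one_ne_zero⟩
  · intro v c
    obtain ⟨r, hr⟩ := hA.sqrt c
    by_cases hrv : r • v = 0
    · have : SpTrans.tv B hB v c = 1 := by
        apply LinearEquiv.ext
        intro x
        rw [SpTrans.tv_apply]
        rcases smul_eq_zero.1 hrv with h1 | h1
        · rw [← hr, h1]; simp
        · rw [h1]; simp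
      rw [this]; exact one_mem _
    · obtain ⟨g, hg, e⟩ := h _ hrv
      have : SpTrans.tv B hB v c = g := by
        apply LinearEquiv.ext
        intro x
        rw [SpTrans.tv_apply, e, ← hr]
        simp only [map_smul, smul_eq_mul, map_zero, smul_zero, add_zero, zero_add, one_mul]
        module
      rw [this]; exact hg

theorem Dat.full (hA : Amb B L) (hd : 3 ≤ finrank F V) (h : Dat B L a φ) {c : V}
    (hc : TT B L c 1) (hca : B c a ≠ 0) (hall : ∀ l, TT B L a l) : isom (fun x y => B x y) ≤ L := by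
  apply isom_le_of_TT hA
  have step : ∀ v, B v a ≠ 0 → TT B L v 1 := by
    intro v hv
    obtain ⟨β, hβ⟩ : ∃ β, β = B v a := ⟨_, rfl⟩
    rw [← hβ] at hv
    obtain ⟨d, hd1, hd2⟩ := h.exists_T hA hd hc hca β
    have hva : B a v = β := by rw [hA.symm, hβ]
    have hda : B a d = β := by rw [hA.symm, hd2]
    have hu : B a (β⁻¹ • (v + d)) = 0 := by
      rw [map_smul, map_add, hva, hda, smul_eq_mul]
      linear_combination (β⁻¹ * β) * hA.two
    have h1 := h.inv (TT.invariant hA) hu hd1
    obtain ⟨s, hs⟩ : ∃ s, s = B d (β⁻¹ • (v + d)) + φ (β⁻¹ • (v + d)) * B d a := ⟨_, rfl⟩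
    rw [← hs, hd2, smul_smul, mul_inv_cancel₀ hv, one_smul] at h1
    have h2 : d + (v + d) + s • a = v + s • a := by
      match_scalars
      · linear_combination hA.two
      · ring
      · ring
    rw [h2] at h1
    have h3 := TT.inv (TT.invariant hA) (hall (s / β)) h1
    convert h3 using 1
    rw [map_add, map_smul, LinearMap.add_apply, LinearMap.smul_apply, hA.alt, ← hβ, smul_zero,
      add_zero, div_mul_cancel₀ _ hv]
    match_scalars
    · ring
    · linear_combination -s * hA.two
  intro v hv
  by_cases hva : B v a = 0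
  · obtain ⟨y, hy1, hy2⟩ := hA.common h.ne hv
    obtain ⟨c', hc'⟩ : ∃ c', c' = (B v y)⁻¹ • y := ⟨_, rfl⟩
    have h1 : B v c' = 1 := by rw [hc', map_smul, smul_eq_mul, inv_mul_cancel₀ hy2]
    have h2 : B c' a ≠ 0 := by
      rw [hA.symm, hc', map_smul, smul_eq_mul]
      exact mul_ne_zero (inv_ne_zero hy2) hy1
    have h3 := TT.inv (TT.invariant hA) (step c' h2) (step (c' + v) (by
      rw [map_add, LinearMap.add_apply, hva, add_zero]; exact h2))
    convert h3 using 1
    rw [map_add, LinearMap.add_apply, hA.alt, h1]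
    match_scalars
    · ring
    · linear_combination -hA.two
  · exact step v hva

/-- at most one transvection centre on each line through `a` -/
theorem Dat.single (hA : Amb B L) (hd : 3 ≤ finrank F V) (h : Dat B L a φ)
    (hno : ∀ l, TT B L a l → l = 0) {c : V} (hc : TT B L c 1) (hca : B c a ≠ 0) {s : F}
    (hs : TT B L (c + s • a) 1) : s = 0 := by
  obtain ⟨β, hβ⟩ : ∃ β, β = B c a := ⟨_, rfl⟩
  rw [← hβ] at hca
  obtain ⟨ν, hν⟩ : ∃ ν, ν = s / β := ⟨_, rfl⟩
  have hs' : s = ν * β := by rw [hν]; field_simp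
  rw [hs'] at hs ⊢
  suffices hν0 : ν = 0 by rw [hν0, zero_mul]
  by_cases h1 : β ^ 2 * ν = 1
  · exfalso
    have h2 := TT.inv (TT.invariant hA) hc hs
    have h3 : c + (ν * β) • a + (1 * B (c + (ν * β) • a) c) • c = (ν * β) • a := by
      rw [map_add, map_smul, LinearMap.add_apply, LinearMap.smul_apply, hA.alt, hA.symm a c, ← hβ]
      match_scalars
      · linear_combination h1 + hA.two
      · ring
    rw [h3] at h2
    have h4 := (XX.scal (ν * β)).1 h2
    rw [smul_zero] at h4
    have h5 := hno _ h4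
    rw [mul_one] at h5
    have h6 : ν * β = 0 := pow_eq_zero_iff (two_ne_zero) |>.1 h5
    rw [show β ^ 2 * ν = β * (ν * β) by ring, h6, mul_zero] at h1
    exact zero_ne_one h1
  · obtain ⟨u, hau, hu⟩ := h.surj hA hd ((β ^ 2)⁻¹ + ν)
    have h2 : φ u ≠ 0 := by
      rw [hu]
      intro h3
      apply h1
      have h4 := hA.add_eq_zero.1 h3
      rw [← h4]
      field_simp
    have h3 : B c a ^ 2 * (φ u + ν) = 1 := by
      rw [← hβ, hu]
      field_simp
      linear_combination (β ^ 2 * ν) * hA.two
    have h4 := h.T_mem hA hc (by rw [← hβ]; exact hs) hau (h.not_smul h2) h3 1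
    rw [one_smul, one_pow, one_mul] at h4
    have h5 := TT.of_eq hA hau (h.mem u hau) h4
    have h6 := hno _ h5
    linear_combination h6 - φ u * hA.two

/-- The case of an orthogonal group. -/
theorem Dat.orth (hA : Amb B L) (hd : 3 ≤ finrank F V) (h : Dat B L a φ)
    {c : V} (hc : TT B L c 1) (hca : B c a ≠ 0) (hno : ∀ l, TT B L a l → l = 0) :
    ∃ Q : QuadraticForm F V, (∀ x y, polar Q x y = B x y) ∧ L = O Q := by
  obtain ⟨b, hb, hba⟩ := h.exists_T hA hd hc hca 1
  obtain ⟨Q, hp, hQb, hQφ⟩ := exists_form hA hba h.add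
    (fun u hu y => h.T_homog hA hd hc hca hno hu y) 1
  have hQ : Nd Q := nd_of_polar hA hp
  have hQa : Q a = 0 := by
    rw [hQφ a (hA.alt a)]
    have := h.sm 1
    rwa [one_smul] at this
  -- centres with each value of `B(., a)`
  have exd : ∀ β : F, β ≠ 0 → ∃ d, TT B L d 1 ∧ B d a = β ∧ Q d = 1 := by
    intro β hβ
    obtain ⟨u, hau, hu⟩ := h.surj hA hd (1 + β)
    have h1 := h.inv (TT.invariant hA) hau hb
    have h2 := TT.inv (TT.invariant hA) hb h1
    refine ⟨_, h2, ?_, ?_⟩
    · have hua : B u a = 0 := by rw [hA.symm]; exact hau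
      simp only [map_add, map_smul, LinearMap.add_apply, LinearMap.smul_apply, smul_eq_mul, hA.alt,
        hua, hba, hA.symm a b, hA.symm u b]
      rw [hu]
      linear_combination (1 + B b u) * hA.two
    · rw [Q_t hA hp hQb, ← hQφ u hau, Q_x hA hp hQa hau, hQb]
  -- moving
  have mv : ∀ (v d : V), B v a ≠ 0 → B d a = B v a → TT B L d 1 → Q d = 1 →
      ∃ s : F, TT B L (v + s • a) 1 ∧ Q (v + s • a) = 1 := by
    intro v d hv hdv hd1 hd2
    have hva : B a v = B v a := hA.symm _ _
    have hda : B a d = B v a := by rw [hA.symm, hdv]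
    have hu : B a ((B v a)⁻¹ • (v + d)) = 0 := by
      rw [map_smul, map_add, hda, hva, smul_eq_mul]
      linear_combination ((B v a)⁻¹ * B v a) * hA.two
    have h1 := h.inv (TT.invariant hA) hu hd1
    have h2 := Q_x hA hp hQa hu d
    rw [hQφ _ hu] at h2
    obtain ⟨s, hs⟩ : ∃ s, s = B d ((B v a)⁻¹ • (v + d)) + φ ((B v a)⁻¹ • (v + d)) * B d a := ⟨_, rfl⟩
    rw [← hs, hdv, smul_smul, mul_inv_cancel₀ hv, one_smul] at h1 h2
    have h3 : d + (v + d) + s • a = v + s • a := by
      match_scalars
      · linear_combination hA.two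
      · ring
      · ring
    rw [h3] at h1 h2
    exact ⟨s, h1, by rw [h2, hd2]⟩
  have T1 : ∀ v, B v a ≠ 0 → TT B L v 1 → Q v = 1 := by
    intro v hv hvT
    obtain ⟨d, hd1, hd2, hd3⟩ := exd _ hv
    obtain ⟨s, hs1, hs2⟩ := mv v d hv hd2 hd1 hd3
    have hs0 := h.single hA hd hno hvT hv hs1
    rwa [hs0, zero_smul, add_zero] at hs2
  have T2 : ∀ v, v ≠ 0 → TT B L v 1 → Q v = 1 := by
    intro v hv0 hvT
    by_cases hva : B v a = 0
    · obtain ⟨y, hy1, hy2⟩ := hA.common h.ne hv0
      have hy1' : B y a ≠ 0 := by rw [hA.symm]; exact hy1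
      obtain ⟨d, hd1, hd2, hd3⟩ := exd _ hy1'
      obtain ⟨s, hs1, hs2⟩ := mv y d hy1' hd2 hd1 hd3
      obtain ⟨e, he⟩ : ∃ e, e = y + s • a := ⟨_, rfl⟩
      rw [← he] at hs1 hs2
      have he1 : B e v = B v y := by
        rw [he, map_add, map_smul, LinearMap.add_apply, LinearMap.smul_apply, hA.symm a v, hva,
          hA.symm y v]
        simp
      have he2 : B e a = B y a := by
        rw [he, map_add, map_smul, LinearMap.add_apply, LinearMap.smul_apply, hA.alt]
        simp
      have h3 := TT.inv (TT.invariant hA) hvT hs1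
      have h4 := T1 _ (by
        rw [map_add, map_smul, LinearMap.add_apply, LinearMap.smul_apply, hva, he2]
        simpa using hy1') h3
      rw [Q_add, Q_smul, hs2, hp, map_smul, smul_eq_mul, he1] at h4
      have h5 : B v y ^ 2 * (Q v + 1) = 0 := by linear_combination h4
      have h6 := (mul_eq_zero.1 h5).resolve_left (pow_ne_zero 2 hy2)
      exact hA.add_eq_zero.1 h6
    · exact T1 v hva hvT
  have T3 : ∀ v, Q v = 1 → TT B L v 1 := by
    intro v hv
    by_cases hva : B v a = 0
    · have hav : B a v = 0 := by rw [hA.symm]; exact hva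
      have hφ : φ v = 1 := by rw [← hQφ v hav, hv]
      have h1 := h.T_perp hA (ν := 0) hb (by rw [zero_mul, zero_smul, add_zero]; exact hb) hav
        (h.not_smul (by rw [hφ]; exact one_ne_zero)) (by rw [hba, hφ]; ring) 0
      rwa [hba, one_smul, zero_smul, add_zero] at h1
    · obtain ⟨d, hd1, hd2, hd3⟩ := exd _ hva
      obtain ⟨s, hs1, hs2⟩ := mv v d hva hd2 hd1 hd3
      rw [Q_add, Q_smul, hv, hQa, hp, map_smul, smul_eq_mul] at hs2
      have h1 : s * B v a = 0 := by linear_combination hs2
      have h2 := (mul_eq_zero.1 h1).resolve_right hva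
      rwa [h2, zero_smul, add_zero] at hs1
  refine ⟨Q, hp, le_antisymm ?_ ?_⟩
  · -- L ≤ O Q
    have key1 : ∀ g ∈ L, ∀ v, Q v ≠ 0 → Q (g v) = Q v := by
      intro g hg v hv
      obtain ⟨r, hr⟩ := hA.sqrt (Q v)
      have hr0 : r ≠ 0 := by
        rintro rfl
        rw [mul_zero] at hr
        exact hv hr.symm
      have h1 : Q (r⁻¹ • v) = 1 := by
        rw [Q_smul, ← hr]
        field_simp
      have h2 : g (r⁻¹ • v) ≠ 0 := by
        intro h3
        have h4 := (LinearEquiv.map_eq_zero_iff g).1 h3
        rw [h4, QuadraticMap.map_zero] at h1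
        exact zero_ne_one h1
      have h3 := T2 _ h2 (TT.invariant hA g hg _ (T3 _ h1))
      rw [map_smul, Q_smul] at h3
      rw [← hr]
      field_simp at h3
      linear_combination h3
    intro g hg v
    by_cases hv : Q v = 0
    · by_contra hne
      rw [hv] at hne
      have h1 := key1 g⁻¹ (inv_mem hg) (g v) hne
      have h2 : g⁻¹ (g v) = v := g.symm_apply_apply v
      rw [h2, hv] at h1
      exact hne h1.symm
    · exact key1 g hg v hv
  · have hrefl : ∀ v, Q v ≠ 0 → refl Q v ∈ L := fun v hv => TT.refl_mem hA hp T3 hv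
    apply O_le_of hQ hrefl
    intro z y hz hzy hy
    by_cases hz0 : z = 0
    · have : sieg hQ hz hzy = 1 := by
        apply LinearEquiv.ext
        intro x
        rw [sieg_apply]
        show _ = x
        simp [hz0]
      rw [this]; exact one_mem _
    · obtain ⟨g, hg, e⟩ := trans_sing hA hp hrefl h.ne hz0 hQa hz
      apply XX.sieg_mem hA hp
      have hgy : g (g⁻¹ y) = y := g.apply_symm_apply y
      have h1 : B a (g⁻¹ y) = 0 := by
        rw [← hA.map hg, e, hgy, ← hp]
        exact hzy
      have h2 := XX.conj hA hg (h.mem _ h1)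
      rw [e, hgy] at h2
      have h3 : φ (g⁻¹ y) = Q y := by
        rw [← hQφ _ h1]
        obtain ⟨x, hx⟩ : ∃ x, x = g⁻¹ y := ⟨_, rfl⟩
        rw [← hx] at hgy ⊢
        rw [← hgy]
        -- Q is preserved by L
        have key1 : ∀ g ∈ L, ∀ v, Q v ≠ 0 → Q (g v) = Q v := by
          intro g hg v hv
          obtain ⟨r, hr⟩ := hA.sqrt (Q v)
          have hr0 : r ≠ 0 := by
            rintro rfl
            rw [mul_zero] at hr
            exact hv hr.symm
          have h1 : Q (r⁻¹ • v) = 1 := by
            rw [Q_smul, ← hr]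
            field_simp
          have h2 : g (r⁻¹ • v) ≠ 0 := by
            intro h3
            have h4 := (LinearEquiv.map_eq_zero_iff g).1 h3
            rw [h4, QuadraticMap.map_zero] at h1
            exact zero_ne_one h1
          have h3 := T2 _ h2 (TT.invariant hA g hg _ (T3 _ h1))
          rw [map_smul, Q_smul] at h3
          rw [← hr]
          field_simp at h3
          linear_combination h3
        by_cases hv : Q x = 0
        · by_contra hne
          rw [hv] at hne
          have h1 := key1 g⁻¹ (inv_mem hg) (g x) (fun h => hne h.symm)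
          have h2 : g⁻¹ (g x) = x := g.symm_apply_apply x
          rw [h2, hv] at h1
          exact hne h1
        · exact (key1 g hg x hv).symm
      rw [h3] at h2
      exact h2

end Concl

end Cfsg.Agent.Lib.SpOv98
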