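import Cfsg.Agent.Lib.SpOvC

/-!
The case without transvections.
-/

set_option autoImplicit false

namespace Cfsg.Agent.Lib.SpOv98

open Cfsg.Agent.Lib.SpTrans (isom)
open Cfsg.Agent.Lib.Quad
open Module QuadraticMap

section Good

variable {F V : Type*} [Field F] [AddCommGroup V] [Module F V]
  {B : V →ₗ[F] V →ₗ[F] F} {L : Subgroup (V ≃ₗ[F] V)} {a b : V}

/-- `p` is a point whose stabilizer contains a large two-transvection group. -/
def Good (B : V →ₗ[F] V →ₗ[F] F) (L : Subgroup (V ≃ₗ[F] V)) (p : V) : Prop :=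
  p ≠ 0 ∧ ∀ u, B p u = 0 → ∃ c, XX B L p u c

/-- the coefficient function -/
noncomputable def ph (B : V →ₗ[F] V →ₗ[F] F) (L : Subgroup (V ≃ₗ[F] V)) (p u : V) : F :=
  Classical.epsilon fun c => XX B L p u c

/-- no transvections -/
def NoT (B : V →ₗ[F] V →ₗ[F] F) (L : Subgroup (V ≃ₗ[F] V)) : Prop :=
  ∀ v : V, v ≠ 0 → ∀ c, TT B L v c → c = 0

theorem uniq (hA : Amb B L) (hno : NoT B L) {p u : V} (hp : p ≠ 0) (hu : B p u = 0) {c c' : F}
    (h : XX B L p u c) (h' : XX B L p u c') : c = c' :=
  hA.add_eq_zero.1 (hno p hp _ (TT.of_eq hA hu h h'))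

theorem Good.spec {p u : V} (h : Good B L p) (hu : B p u = 0) : XX B L p u (ph B L p u) :=
  Classical.epsilon_spec (h.2 u hu)

theorem ph_eq (hA : Amb B L) (hno : NoT B L) {p u : V} (hp : p ≠ 0) (hu : B p u = 0) {c : F}
    (h : XX B L p u c) : ph B L p u = c :=
  uniq hA hno hp hu (Classical.epsilon_spec (p := fun c => XX B L p u c) ⟨c, h⟩) h

theorem Good.dat (hA : Amb B L) (hno : NoT B L) {p : V} (h : Good B L p) :
    Dat B L p (ph B L p) where
  ne := h.1
  mem := fun u hu => h.spec hu
  add := by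
    intro u u' hu hu'
    exact ph_eq hA hno h.1 (by rw [map_add, hu, hu', add_zero]) (XX.mul hA hu hu' (h.spec hu)
      (h.spec hu'))
  sm := by
    intro t
    exact ph_eq hA hno h.1 (by rw [map_smul, hA.alt, smul_zero]) (XX.smul_self hA p t)

theorem Good.invariant (hA : Amb B L) : ∀ g ∈ L, ∀ v, Good B L v → Good B L (g v) := by
  intro g hg v hv
  refine ⟨fun h => hv.1 ((LinearEquiv.map_eq_zero_iff g).1 h), fun u hu => ?_⟩
  have h0 : g (g⁻¹ u) = u := g.apply_symm_apply u
  rw [← h0, hA.map hg] at hu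
  obtain ⟨c, hc⟩ := hv.2 _ hu
  have := XX.conj hA hg hc
  rw [h0] at this
  exact ⟨c, this⟩

theorem Good.smul {p : V} (h : Good B L p) {m : F} (hm : m ≠ 0) : Good B L (m • p) := by
  refine ⟨smul_ne_zero hm h.1, fun u hu => ?_⟩
  have h1 : B p u = 0 := by
    rw [map_smul, LinearMap.smul_apply, smul_eq_mul] at hu
    exact (mul_eq_zero.1 hu).resolve_left hm
  obtain ⟨c, hc⟩ := h.2 (m • u) (by rw [map_smul, h1, smul_zero])
  refine ⟨(m ^ 2)⁻¹ * c, (XX.scal m).2 ?_⟩
  have e : m ^ 2 * ((m ^ 2)⁻¹ * c) = c := by field_simp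
  rw [e]; exact hc

theorem Good.of_smul {p : V} {m : F} (hm : m ≠ 0) (h : Good B L (m • p)) : Good B L p := by
  have := h.smul (inv_ne_zero hm)
  rwa [smul_smul, inv_mul_cancel₀ hm, one_smul] at this

theorem Good.line (hA : Amb B L) {p r : V} (hp : Good B L p) (hr : Good B L r) (hpr : B p r = 0)
    (s : F) (hne : p + s • r ≠ 0) : Good B L (p + s • r) := by
  by_cases hdep : ∃ c : F, p = c • r
  · obtain ⟨c, rfl⟩ := hdep
    rw [← add_smul] at hne ⊢
    exact hr.smul fun h => hne (by rw [h, zero_smul])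
  · push Not at hdep
    obtain ⟨y, hy1, hy2⟩ := hA.exists_one hr.1 hdep
    obtain ⟨c, hc⟩ := hr.2 (s • y) (by rw [map_smul, hy1, smul_zero])
    have h1 := XX.inv (Good.invariant hA) hc hp
    rw [hpr, map_smul, hy2, zero_smul, add_zero, mul_zero, add_zero, smul_eq_mul, mul_one] at h1
    exact h1

end Good

section Main

variable {F V : Type*} [Field F] [AddCommGroup V] [Module F V]
  {B : V →ₗ[F] V →ₗ[F] F} {L : Subgroup (V ≃ₗ[F] V)} {a b : V}

/-- moving `b + s a` by the element attached to `w ∈ {a,b}^⊥` -/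
theorem Good.mv (hA : Amb B L) (ha : Good B L a) (hba : B b a = 1)
    {w : V} (haw : B a w = 0) (hbw : B b w = 0) {s : F} (h : Good B L (b + s • a)) :
    Good B L (b + w + (s + ph B L a w) • a) := by
  have h1 := XX.inv (Good.invariant hA) (ha.spec haw) h
  convert h1 using 1
  simp only [map_add, map_smul, LinearMap.add_apply, LinearMap.smul_apply, smul_eq_mul, hA.alt,
    hba, haw, hbw]
  module

theorem Good.mv' (hA : Amb B L) (ha : Good B L a) (hba : B b a = 1)
    {w : V} (haw : B a w = 0) (hbw : B b w = 0) {s : F} (h : Good B L (b + w + s • a)) :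
    Good B L (b + (s + ph B L a w) • a) := by
  have h1 := XX.inv (Good.invariant hA) (ha.spec haw) h
  convert h1 using 1
  have hwa : B w a = 0 := by rw [hA.symm]; exact haw
  simp only [map_add, map_smul, LinearMap.add_apply, LinearMap.smul_apply, smul_eq_mul, hA.alt,
    hba, haw, hbw, hwa]
  match_scalars
  · ring
  · ring
  · linear_combination -hA.two

theorem good_of_b (hA : Amb B L) (hb : Good B L b) {w : V} (hbw : B b w = 0) (hw : w ≠ 0) {m : F}
    (hm : m ≠ 0) (h : Good B L (b + m • w)) : Good B L w := by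
  apply Good.of_smul hm
  have h1 := h.line hA hb (by
    rw [map_add, map_smul, LinearMap.add_apply, LinearMap.smul_apply, hA.alt, hA.symm w b, hbw]
    simp) 1
  have e : b + m • w + (1 : F) • b = m • w := by
    match_scalars
    · linear_combination hA.two
    · ring
  rw [e] at h1
  exact h1 (smul_ne_zero hm hw)

/-- if `φ(m w) = 0` for some `m ≠ 0` then `w` is good -/
theorem good_of_ph (hA : Amb B L) (ha : Good B L a) (hb : Good B L b)
    (hba : B b a = 1) {w : V} (haw : B a w = 0) (hbw : B b w = 0) (hw : w ≠ 0) {m : F} (hm : m ≠ 0)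
    (h : ph B L a (m • w) = 0) : Good B L w := by
  apply good_of_b hA hb hbw hw hm
  have h1 := ha.mv hA hba (w := m • w) (s := 0) (by rw [map_smul, haw, smul_zero])
    (by rw [map_smul, hbw, smul_zero]) (by rw [zero_smul, add_zero]; exact hb)
  rwa [h, add_zero, zero_smul, add_zero] at h1

theorem ph_inj (hA : Amb B L) (hno : NoT B L) (ha : Good B L a) (hb : Good B L b)
    (hba : B b a = 1) {w : V} (haw : B a w = 0) (hbw : B b w = 0) (hw : w ≠ 0)
    (h : ¬ Good B L w) : Function.Injective fun m : F => ph B L a (m • w) := by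
  intro m m' hmm
  by_contra hne
  have h1 : m + m' ≠ 0 := fun h0 => hne (hA.add_eq_zero.1 h0)
  apply h
  apply good_of_ph hA ha hb hba haw hbw hw h1
  have hmm' : ph B L a (m • w) = ph B L a (m' • w) := hmm
  rw [add_smul, (ha.dat hA hno).add _ _ (by rw [map_smul, haw, smul_zero])
    (by rw [map_smul, haw, smul_zero]), hmm']
  simp only [map_smul, LinearMap.smul_apply, smul_eq_mul, hA.alt, mul_zero, add_zero]
  linear_combination (ph B L a (m' • w)) * hA.two

variable [Finite F] [FiniteDimensional F V]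

/-- three good points on a hyperbolic line: all points are good. -/
theorem all_good (hA : Amb B L) (hno : NoT B L) (hd : 3 ≤ finrank F V) (ha : Good B L a)
    (hb : Good B L b) (hba : B b a = 1) {ρ : F} (hρ : ρ ≠ 0) (hc : Good B L (b + ρ • a)) :
    ∀ v, v ≠ 0 → Good B L v := by
  have step1 : ∀ w, B a w = 0 → B b w = 0 → w ≠ 0 → Good B L w := by
    intro w haw hbw hw
    by_contra hcon
    obtain ⟨m, hm⟩ := Finite.surjective_of_injective (ph_inj hA hno ha hb hba haw hbw hw hcon) ρ
    have hm' : ph B L a (m • w) = ρ := hm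
    have hm0 : m ≠ 0 := by
      rintro rfl
      rw [zero_smul] at hm'
      have := (ha.dat hA hno).sm 0
      rw [zero_smul, hm'] at this
      exact hρ this
    apply hcon
    apply good_of_b hA hb hbw hw hm0
    have h1 := ha.mv hA hba (w := m • w) (by rw [map_smul, haw, smul_zero])
      (by rw [map_smul, hbw, smul_zero]) hc
    rwa [hm', (hA.add_eq_zero (x := ρ)).2 rfl, zero_smul, add_zero] at h1
  have step2 : ∀ s : F, Good B L (b + s • a) := by
    intro s
    obtain ⟨w, haw, hw⟩ := (ha.dat hA hno).surj hA hd s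
    obtain ⟨w', hw'⟩ : ∃ w', w' = w + B b w • a := ⟨_, rfl⟩
    have h1 : B a w' = 0 := by rw [hw', map_add, map_smul, hA.alt, haw]; simp
    have h2 : B b w' = 0 := by
      rw [hw', map_add, map_smul, hba, smul_eq_mul]
      linear_combination (B b w) * hA.two
    have h3 : ph B L a w' = s := by rw [hw', (ha.dat hA hno).add_sm hA haw, hw]
    by_cases hw0 : w' = 0
    · rw [hw0] at h3
      have := (ha.dat hA hno).sm 0
      rw [zero_smul, h3] at this
      rw [this, zero_smul, add_zero]
      exact hb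
    · have h4 := hb.line hA (step1 w' h1 h2 hw0) h2 1 (by
        intro h5
        have h6 : B (b + (1 : F) • w') a = 0 := by rw [h5]; simp
        rw [map_add, map_smul, LinearMap.add_apply, LinearMap.smul_apply, hba, hA.symm w' a, h1]
          at h6
        simp at h6)
      rw [one_smul] at h4
      have h5 := ha.mv' hA hba h1 h2 (s := 0) (by rw [zero_smul, add_zero]; exact h4)
      rwa [zero_add, h3] at h5
  intro v hv
  by_cases hva : B v a = 0
  · obtain ⟨w', hw'⟩ : ∃ w', w' = v + B b v • a := ⟨_, rfl⟩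
    have hav : B a v = 0 := by rw [hA.symm]; exact hva
    have h1 : B a w' = 0 := by rw [hw', map_add, map_smul, hA.alt, hav]; simp
    have h2 : B b w' = 0 := by
      rw [hw', map_add, map_smul, hba, smul_eq_mul]
      linear_combination (B b v) * hA.two
    have h3 : v = w' + B b v • a := by
      rw [hw', add_assoc, hA.add_self, add_zero]
    by_cases hw0 : w' = 0
    · rw [hw0, zero_add] at h3
      rw [h3]
      apply ha.smul
      intro h4
      rw [h4, zero_smul] at h3
      exact hv h3
    · rw [h3]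
      apply (step1 w' h1 h2 hw0).line hA ha (by rw [hA.symm]; exact h1)
      rw [← h3]; exact hv
  · obtain ⟨u, hau, s, e⟩ := (ha.dat hA hno).norm hA hba (v := v) rfl hva
    rw [e]
    have h1 := (ha.dat hA hno).inv (Good.invariant hA) hau ((step2 s).smul hva)
    have h2 : B (B v a • (b + s • a)) a = B v a := by
      simp only [map_add, map_smul, LinearMap.add_apply, LinearMap.smul_apply, smul_eq_mul, hA.alt,
        hba]
      ring
    rwa [h2] at h1

end Main

end Cfsg.Agent.Lib.SpOv98
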