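import Cfsg.Agent.Lib.SpOvD

/-!
The case without transvections in which the good points form a quadric.
-/

set_option autoImplicit false

namespace Cfsg.Agent.Lib.SpOv98

open Cfsg.Agent.Lib.SpTrans (isom)
open Cfsg.Agent.Lib.Quad
open Module QuadraticMap

section Hua

variable {F : Type*} [Field F]

/-- Hua's identity -/
theorem hua (h2 : (2 : F) = 0) {G H : F → F} (hG : ∀ x y, G (x + y) = G x + G y)
    (hH : ∀ x y, H (x + y) = H x + H y) (h : ∀ r, r ≠ 0 → G r = r * H r⁻¹) (r : F) :
    G (r ^ 2) = G 1 * r := by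
  have hG0 : G 0 = 0 := by
    have := hG 0 0
    rw [add_zero] at this
    linear_combination -this
  by_cases hr0 : r = 0
  · subst hr0
    rw [zero_pow two_ne_zero, hG0, mul_zero]
  by_cases hr1 : r = 1
  · subst hr1
    rw [one_pow, mul_one]
  have hr1' : 1 + r ≠ 0 := by
    intro h0
    apply hr1
    linear_combination h0 - h2
  have e : r⁻¹ + (1 + r)⁻¹ = (r + r ^ 2)⁻¹ := by
    have : r + r ^ 2 ≠ 0 := by
      rw [show r + r ^ 2 = r * (1 + r) by ring]
      exact mul_ne_zero hr0 hr1'
    field_simp
    linear_combination r * h2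
  have h3 : r + r ^ 2 ≠ 0 := by
    rw [show r + r ^ 2 = r * (1 + r) by ring]
    exact mul_ne_zero hr0 hr1'
  have e1 := hH r⁻¹ (1 + r)⁻¹
  rw [e] at e1
  have e2 := h _ hr0
  have e3 := h _ hr1'
  have e4 := h _ h3
  rw [hG] at e3 e4
  -- `G r + G(r²) = (r + r²)(H(1/r) + H(1/(1+r)))`
  rw [e1] at e4
  have e5 : (r + r ^ 2) * (H r⁻¹ + H (1 + r)⁻¹) = (1 + r) * G r + r * (G 1 + G r) := by
    rw [e3, e2]; ring
  rw [e5] at e4
  linear_combination e4 + r * G r * h2

end Hua

section Quadric

variable {F V : Type*} [Field F] [AddCommGroup V] [Module F V]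
  {B : V →ₗ[F] V →ₗ[F] F} {L : Subgroup (V ≃ₗ[F] V)} {a b : V}

/-- at most two good points on a hyperbolic line -/
def TwoPt (B : V →ₗ[F] V →ₗ[F] F) (L : Subgroup (V ≃ₗ[F] V)) : Prop :=
  ∀ a b : V, ∀ ρ : F, Good B L a → Good B L b → B b a = 1 → Good B L (b + ρ • a) → ρ = 0

theorem ph_zero_of_good (hA : Amb B L) (hK : TwoPt B L) (ha : Good B L a) (hb : Good B L b)
    (hba : B b a = 1) {w : V} (haw : B a w = 0) (hbw : B b w = 0) (hw : Good B L w) :
    ph B L a w = 0 := by
  have h1 := hb.line hA hw hbw 1 (by
    intro h5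
    have h6 : B (b + (1 : F) • w) a = 0 := by rw [h5]; simp
    rw [map_add, map_smul, LinearMap.add_apply, LinearMap.smul_apply, hba, hA.symm w a, haw] at h6
    simp at h6)
  rw [one_smul] at h1
  have h2 := ha.mv' hA hba haw hbw (s := 0) (by rw [zero_smul, add_zero]; exact h1)
  rw [zero_add] at h2
  exact hK a b _ ha hb hba h2

variable [Finite F]

theorem ph_quad_bad (hA : Amb B L) (hno : NoT B L) (ha : Good B L a)
    (hb : Good B L b) (hba : B b a = 1) {w : V} (haw : B a w = 0) (hbw : B b w = 0) (hw0 : w ≠ 0)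
    (hw : ¬ Good B L w) (m : F) : ph B L a (m • w) = m ^ 2 * ph B L a w := by
  have hab : B a b = 1 := by rw [hA.symm]; exact hba
  have ig := ph_inj hA hno ha hb hba haw hbw hw0 hw
  have ih := ph_inj hA hno hb ha hab hbw haw hw0 hw
  have sg := Finite.surjective_of_injective ig
  have sh := Finite.surjective_of_injective ih
  choose G hG using sg
  choose H hH using sh
  have hG' : ∀ s, ph B L a (G s • w) = s := hG
  have hH' : ∀ s, ph B L b (H s • w) = s := hH
  have addg : ∀ m m' : F, ph B L a ((m + m') • w) = ph B L a (m • w) + ph B L a (m' • w) := by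
    intro m m'
    rw [add_smul, (ha.dat hA hno).add _ _ (by rw [map_smul, haw, smul_zero])
      (by rw [map_smul, haw, smul_zero])]
    simp only [map_smul, LinearMap.smul_apply, smul_eq_mul, hA.alt, mul_zero, add_zero]
  have addh : ∀ m m' : F, ph B L b ((m + m') • w) = ph B L b (m • w) + ph B L b (m' • w) := by
    intro m m'
    rw [add_smul, (hb.dat hA hno).add _ _ (by rw [map_smul, hbw, smul_zero])
      (by rw [map_smul, hbw, smul_zero])]
    simp only [map_smul, LinearMap.smul_apply, smul_eq_mul, hA.alt, mul_zero, add_zero]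
  have hGadd : ∀ x y, G (x + y) = G x + G y := by
    intro x y
    apply ig
    show ph B L a (G (x + y) • w) = ph B L a ((G x + G y) • w)
    rw [addg, hG', hG', hG']
  have hHadd : ∀ x y, H (x + y) = H x + H y := by
    intro x y
    apply ih
    show ph B L b (H (x + y) • w) = ph B L b ((H x + H y) • w)
    rw [addh, hH', hH', hH']
  have hGH : ∀ r, r ≠ 0 → G r = r * H r⁻¹ := by
    intro r hr
    have h1 := ha.mv hA hba (w := G r • w) (s := 0) (by rw [map_smul, haw, smul_zero])
      (by rw [map_smul, hbw, smul_zero]) (by rw [zero_smul, add_zero]; exact hb)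
    rw [hG', zero_add] at h1
    have h2 := hb.mv hA hab (w := H r⁻¹ • w) (s := 0) (by rw [map_smul, hbw, smul_zero])
      (by rw [map_smul, haw, smul_zero]) (by rw [zero_smul, add_zero]; exact ha)
    rw [hH', zero_add] at h2
    have h3 := h2.smul hr
    have e : r • (a + H r⁻¹ • w + r⁻¹ • b) = b + (r * H r⁻¹) • w + r • a := by
      match_scalars
      · ring
      · ring
      · field_simp
    rw [e] at h3
    by_contra hne
    apply hw
    have h4 : G r + r * H r⁻¹ ≠ 0 := fun h0 => hne (hA.add_eq_zero.1 h0)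
    apply Good.of_smul h4
    have hwa : B w a = 0 := by rw [hA.symm]; exact haw
    have hwb : B w b = 0 := by rw [hA.symm]; exact hbw
    have h5 := h1.line hA h3 (by
      simp only [map_add, map_smul, LinearMap.add_apply, LinearMap.smul_apply, smul_eq_mul, hA.alt,
        haw, hbw, hwa, hwb, hba, hab]
      linear_combination r * hA.two) 1
    have e2 : b + G r • w + r • a + (1 : F) • (b + (r * H r⁻¹) • w + r • a) =
        (G r + r * H r⁻¹) • w := by
      match_scalars
      · linear_combination hA.two
      · ring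
      · linear_combination r * hA.two
    rw [e2] at h5
    exact h5 (smul_ne_zero h4 hw0)
  have hhua := hua hA.two hGadd hHadd hGH
  -- `φ(κ r w) = r²`
  have hκ : G 1 ≠ 0 := by
    intro h0
    have h1 := hG' 1
    rw [h0, zero_smul] at h1
    have h2 := (ha.dat hA hno).sm 0
    rw [zero_smul, h1] at h2
    exact one_ne_zero h2
  have key : ∀ r : F, ph B L a ((G 1 * r) • w) = r ^ 2 := by
    intro r
    rw [← hhua, hG']
  have h1 := key (m / G 1)
  have h2 := key (1 / G 1)
  rw [mul_div_cancel₀ _ hκ] at h1 h2
  rw [one_smul] at h2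
  rw [h1, h2]
  field_simp

variable [FiniteDimensional F V]

theorem ph_quad (hA : Amb B L) (hno : NoT B L) (hK : TwoPt B L) (ha : Good B L a)
    (hb : Good B L b) (hba : B b a = 1) {u : V} (hau : B a u = 0) (m : F) :
    ph B L a (m • u) = m ^ 2 * ph B L a u := by
  obtain ⟨w, hw⟩ : ∃ w, w = u + B b u • a := ⟨_, rfl⟩
  have h1 : B a w = 0 := by rw [hw, map_add, map_smul, hA.alt, hau]; simp
  have h2 : B b w = 0 := by
    rw [hw, map_add, map_smul, hba, smul_eq_mul]
    linear_combination (B b u) * hA.two
  have h3 : u = w + B b u • a := by rw [hw, add_assoc, hA.add_self, add_zero]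
  have h4 : ph B L a u = ph B L a w := by
    conv_lhs => rw [h3]
    rw [(ha.dat hA hno).add_sm hA h1]
  have h5 : ph B L a (m • u) = ph B L a (m • w) := by
    conv_lhs => rw [h3]
    rw [smul_add, smul_smul, (ha.dat hA hno).add_sm hA (by rw [map_smul, h1, smul_zero])]
  rw [h4, h5]
  by_cases hw0 : w = 0
  · have := (ha.dat hA hno).sm 0
    rw [zero_smul] at this
    rw [hw0, smul_zero, this, mul_zero]
  by_cases hwg : Good B L w
  · rw [ph_zero_of_good hA hK ha hb hba h1 h2 hwg, mul_zero]
    by_cases hm : m = 0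
    · have := (ha.dat hA hno).sm 0
      rw [zero_smul] at this
      rw [hm, zero_smul, this]
    · exact ph_zero_of_good hA hK ha hb hba (by rw [map_smul, h1, smul_zero])
        (by rw [map_smul, h2, smul_zero]) (hwg.smul hm)
  · exact ph_quad_bad hA hno ha hb hba h1 h2 hw0 hwg m

/-- The quadratic form whose singular vectors are the good points. -/
theorem exists_quadric (hA : Amb B L) (hno : NoT B L) (hK : TwoPt B L) (ha : Good B L a)
    (hb : Good B L b) (hba : B b a = 1) : ∃ Q : QuadraticForm F V,
      (∀ x y, polar Q x y = B x y) ∧ ∀ v, v ≠ 0 → (Good B L v ↔ Q v = 0) := by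
  obtain ⟨Q, hp, hQb, hQφ⟩ := exists_form hA hba (ha.dat hA hno).add
    (fun u hu m => ph_quad hA hno hK ha hb hba hu m) 0
  have hQa : Q a = 0 := by
    rw [hQφ a (hA.alt a)]
    have := (ha.dat hA hno).sm 1
    rwa [one_smul] at this
  refine ⟨Q, hp, fun v hv => ?_⟩
  by_cases hva : B v a = 0
  · obtain ⟨w, hw⟩ : ∃ w, w = v + B b v • a := ⟨_, rfl⟩
    have hav : B a v = 0 := by rw [hA.symm]; exact hva
    have h1 : B a w = 0 := by rw [hw, map_add, map_smul, hA.alt, hav]; simp
    have h2 : B b w = 0 := by
      rw [hw, map_add, map_smul, hba, smul_eq_mul]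
      linear_combination (B b v) * hA.two
    have h3 : v = w + B b v • a := by rw [hw, add_assoc, hA.add_self, add_zero]
    have h4 : Q v = ph B L a w := by
      rw [hQφ v hav]
      conv_lhs => rw [h3]
      rw [(ha.dat hA hno).add_sm hA h1]
    rw [h4]
    by_cases hw0 : w = 0
    · have := (ha.dat hA hno).sm 0
      rw [zero_smul] at this
      rw [hw0, this]
      refine ⟨fun _ => rfl, fun _ => ?_⟩
      rw [hw0, zero_add] at h3
      rw [h3]
      apply ha.smul
      intro h5
      rw [h5, zero_smul] at h3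
      exact hv h3
    · have h5 : Good B L v ↔ Good B L w := by
        constructor
        · intro h
          have := h.line hA ha hva (B b v) (by rw [← hw]; exact hw0)
          rwa [← hw] at this
        · intro h
          have := h.line hA ha (by rw [hA.symm]; exact h1) (B b v) (by rw [← h3]; exact hv)
          rwa [← h3] at this
      rw [h5]
      refine ⟨fun h => ph_zero_of_good hA hK ha hb hba h1 h2 h, fun h => ?_⟩
      exact good_of_ph hA ha hb hba h1 h2 hw0 (m := 1) one_ne_zero (by rw [one_smul]; exact h)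
  · obtain ⟨u, hau, s, e⟩ := (ha.dat hA hno).norm hA hba (v := v) rfl hva
    obtain ⟨v', hv'⟩ : ∃ v', v' = B v a • (b + s • a) := ⟨_, rfl⟩
    have h2 : B v' a = B v a := by
      rw [hv']
      simp only [map_add, map_smul, LinearMap.add_apply, LinearMap.smul_apply, smul_eq_mul, hA.alt,
        hba]
      ring
    rw [← hv'] at e
    have e' : v = v' + B v' a • u + (B v' u + ph B L a u * B v' a) • a := by rw [h2]; exact e
    obtain ⟨g, hg, eg⟩ := ha.spec hau
    have h3 : g v' = v := by rw [eg, ← e']
    have h4 : Q v = Q v' := by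
      rw [e', ← hQφ u hau]
      exact Q_x hA hp hQa hau v'
    have h5 : Good B L v ↔ Good B L (b + s • a) := by
      constructor
      · intro h
        have h6 := Good.invariant hA g⁻¹ (inv_mem hg) v h
        have h7 : g⁻¹ v = v' := by rw [← h3]; exact g.symm_apply_apply v'
        rw [h7, hv'] at h6
        exact h6.of_smul hva
      · intro h
        have h6 := h.smul hva
        rw [← hv'] at h6
        have h7 := Good.invariant hA g hg _ h6
        rwa [h3] at h7
    have h6 : Q v' = B v a ^ 2 * s := by
      rw [hv', Q_smul, Q_add, Q_smul, hQa, hQb, hp, map_smul, hba]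
      simp only [smul_eq_mul]
      ring
    rw [h5, h4, h6]
    constructor
    · intro h
      rw [hK a b s ha hb hba h, mul_zero]
    · intro h
      have h7 := (mul_eq_zero.1 h).resolve_left (pow_ne_zero 2 hva)
      rw [h7, zero_smul, add_zero]
      exact hb

end Quadric

end Cfsg.Agent.Lib.SpOv98
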