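import Cfsg.Agent.Lib.SpOvE

/-!
Parity of the residual dimension in characteristic two; the even part of the orthogonal group.
-/

set_option autoImplicit false

namespace Cfsg.Agent.Lib.SpOv98

open Cfsg.Agent.Lib.SpTrans (isom)
open Cfsg.Agent.Lib.Quad
open Module QuadraticMap

section Parity

variable {F V : Type*} [Field F] [AddCommGroup V] [Module F V] [FiniteDimensional F V]
  {Q : QuadraticForm F V}

/-- hyperbolic plane -/
def hypP (F : Type*) [Field F] : QuadraticForm F (F × F) where
  toFun p := p.1 * p.2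
  toFun_smul c p := by simp only [Prod.smul_fst, Prod.smul_snd, smul_eq_mul]; ring
  exists_companion' := ⟨LinearMap.mk₂ F (fun p q => p.1 * q.2 + q.1 * p.2)
    (fun a b c => by simp only [Prod.fst_add, Prod.snd_add]; ring)
    (fun a b c => by simp only [Prod.smul_fst, Prod.smul_snd, smul_eq_mul]; ring)
    (fun a b c => by simp only [Prod.fst_add, Prod.snd_add]; ring)
    (fun a b c => by simp only [Prod.smul_fst, Prod.smul_snd, smul_eq_mul]; ring),
    fun p q => by simp only [Prod.fst_add, Prod.snd_add, LinearMap.mk₂_apply]; ring⟩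

theorem hypP_apply (p : F × F) : hypP F p = p.1 * p.2 := rfl

theorem polar_hypP (p q : F × F) : polar (hypP F) p q = p.1 * q.2 + q.1 * p.2 := by
  rw [polar, hypP_apply, hypP_apply, hypP_apply]
  simp only [Prod.fst_add, Prod.snd_add]; ring

theorem polar_prodH (p q : V × (F × F)) :
    polar (QuadraticMap.prod Q (hypP F)) p q = polar Q p.1 q.1 + polar (hypP F) p.2 q.2 := by
  simp only [polar, QuadraticMap.prod_apply, Prod.fst_add, Prod.snd_add]
  ring

theorem nd_prodH (hQ : Nd Q) : Nd (QuadraticMap.prod Q (hypP F)) := by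
  apply nd_of
  rintro ⟨x, y, z⟩ h
  have h1 : x = 0 := hQ.eq_zero fun w => by
    have := h (w, 0)
    rw [polar_prodH, polar_hypP] at this
    simpa using this
  have h2 := h (0, (1, 0))
  have h3 := h (0, (0, 1))
  rw [polar_prodH, polar_hypP] at h2 h3
  simp at h2 h3
  rw [h1, h2, h3]; rfl

/-- extension by the identity -/
def extL (g : V ≃ₗ[F] V) : (V × (F × F)) ≃ₗ[F] (V × (F × F)) :=
  LinearEquiv.prodCongr g (LinearEquiv.refl F (F × F))

theorem extL_apply (g : V ≃ₗ[F] V) (p : V × (F × F)) : extL g p = (g p.1, p.2) := rfl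

theorem extL_mul (g h : V ≃ₗ[F] V) : extL (g * h) = extL g * extL h := by
  apply LinearEquiv.ext
  intro p
  rfl

theorem extL_mem {g : V ≃ₗ[F] V} (hg : g ∈ O Q) : extL g ∈ O (QuadraticMap.prod Q (hypP F)) := by
  intro p
  rw [extL_apply, QuadraticMap.prod_apply, QuadraticMap.prod_apply]
  simp only
  rw [hg]

theorem finrank_mov_extL (g : V ≃ₗ[F] V) : finrank F (mov (extL g)) = finrank F (mov g) := by
  have h : mov (extL g) = (mov g).map (LinearMap.inl F V (F × F)) := by
    ext p
    rw [mem_mov, Submodule.mem_map]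
    constructor
    · rintro ⟨x, rfl⟩
      refine ⟨g x.1 - x.1, sub_mem_mov g _, ?_⟩
      rw [extL_apply]
      ext <;> simp
    · rintro ⟨_, ⟨x, rfl⟩, rfl⟩
      refine ⟨(x, 0), ?_⟩
      rw [extL_apply]
      ext <;> simp
  rw [h]
  exact (LinearEquiv.finrank_eq (Submodule.equivMapOfInjective _ LinearMap.inl_injective _)).symm

/-- The Dickson invariant is multiplicative. -/
theorem even_mov_mul' (hQ : Nd Q) (hd : 3 ≤ finrank F V) {g h : V ≃ₗ[F] V} (hg : g ∈ O Q)
    (hh : h ∈ O Q) :
    Even (finrank F (mov (g * h))) ↔ (Even (finrank F (mov g)) ↔ Even (finrank F (mov h))) := by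
  have hQ' := nd_prodH hQ
  have hgen : GenHyp (QuadraticMap.prod Q (hypP F)) := by
    right; left
    rw [Module.finrank_prod, Module.finrank_prod, Module.finrank_self]
    omega
  have h1 := extL_mem hg
  have h2 := extL_mem hh
  rw [← hQ'.R_eq_O hgen] at h1 h2
  have h3 := hQ'.even_mov_mul h1 h2
  rwa [← extL_mul, finrank_mov_extL, finrank_mov_extL, finrank_mov_extL] at h3

theorem even_refl_mul_refl (hQ : Nd Q) {v w : V} (hv : Q v ≠ 0) (hw : Q w ≠ 0) :
    Even (finrank F (mov (refl Q v * refl Q w))) := by
  rw [hQ.even_mov_refl_mul (refl_mem w) hv]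
  have h := hQ.even_mov_refl_mul (one_mem (O Q)) hw
  rw [mul_one, mov_one] at h
  rw [h]
  simp

theorem not_even_refl (hQ : Nd Q) {v : V} (hv : Q v ≠ 0) : ¬ Even (finrank F (mov (refl Q v))) := by
  have h := hQ.even_mov_refl_mul (one_mem (O Q)) hv
  rw [mul_one, mov_one] at h
  rw [h]
  simp

theorem even_sieg (hQ : Nd Q) {z y : V} (hz : Q z = 0) (hzy : polar Q z y = 0) :
    Even (finrank F (mov (sieg hQ hz hzy))) := by
  by_cases hy : Q y = 0
  · have triv : sieg hQ hz hzy = 1 → Even (finrank F (mov (sieg hQ hz hzy))) := by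
      intro h
      rw [h, mov_one]; simp
    by_cases hz0 : z = 0
    · apply triv
      apply LinearEquiv.ext
      intro x
      rw [sieg_apply]
      show _ = x
      simp [hz0]
    by_cases hdep : ∃ c : F, y = c • z
    · obtain ⟨c, hc⟩ := hdep
      apply triv
      apply LinearEquiv.ext
      intro x
      rw [sieg_apply, hy]
      show _ = x
      rw [hc, polar_smul_left]
      module
    push Not at hdep
    have hzy' : z ∉ F ∙ y := by
      intro h
      obtain ⟨c, hc⟩ := Submodule.mem_span_singleton.1 h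
      have hc0 : c ≠ 0 := by
        rintro rfl
        rw [zero_smul] at hc
        exact hz0 hc.symm
      apply hdep c⁻¹
      rw [← hc, smul_smul, inv_mul_cancel₀ hc0, one_smul]
    have hyz' : y ∉ F ∙ z := by
      intro h
      obtain ⟨c, hc⟩ := Submodule.mem_span_singleton.1 h
      exact hdep c hc.symm
    obtain ⟨y1, h1, h2⟩ := hQ.exists_polar_one (F ∙ y) hzy'
    obtain ⟨z1, h3, h4⟩ := hQ.exists_polar_one (F ∙ z) hyz'
    have h1' := mem_perp_singleton.1 h1
    have h3' := mem_perp_singleton.1 h3
    have h5 : mov (sieg hQ hz hzy) = Submodule.span F {z, y} := by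
      apply le_antisymm
      · rintro _ ⟨x, rfl⟩
        show sieg hQ hz hzy x - x ∈ _
        rw [sieg_apply, hy]
        have e : x + polar Q z x • y - polar Q y x • z - (0 * polar Q z x) • z - x =
            polar Q z x • y + (-polar Q y x) • z := by module
        rw [e]
        exact add_mem (Submodule.smul_mem _ _ (Submodule.subset_span (by simp)))
          (Submodule.smul_mem _ _ (Submodule.subset_span (by simp)))
      · rw [Submodule.span_le]
        rintro x (rfl | hx)
        · have h6 := sub_mem_mov (sieg hQ hz hzy) z1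
          rw [sieg_apply, hy, h3', h4] at h6
          have e : z1 + (0 : F) • y - (1 : F) • x - (0 * (0 : F)) • x - z1 = -x := by module
          rw [e] at h6
          exact (Submodule.neg_mem_iff _).1 h6
        · rw [Set.mem_singleton_iff] at hx
          rw [hx]
          have h6 := sub_mem_mov (sieg hQ hz hzy) y1
          rw [sieg_apply, hy, h1', h2] at h6
          have e : y1 + (1 : F) • y - (0 : F) • z - (0 * (1 : F)) • z - y1 = y := by module
          rw [e] at h6
          exact h6
    have h6 : finrank F (mov (sieg hQ hz hzy)) = 2 := by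
      have hli : LinearIndependent F ![z, y] := by
        rw [LinearIndependent.pair_iff' hz0]
        intro c hc
        exact hdep c hc.symm
      have h7 := finrank_span_eq_card hli
      have h8 : Set.range ![z, y] = {z, y} := by
        rw [Matrix.range_cons, Matrix.range_cons, Matrix.range_empty, Set.union_empty,
          Set.singleton_union]
      rw [h8] at h7
      rw [h5, h7]; simp
    rw [h6]
    exact even_two
  · have hy' : Q (y + Q y • z) = Q y := by
      rw [Q_add, Q_smul, hz, polar_smul_right, polar_comm Q y z, hzy]; simp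
    rw [sieg_eq_refl hQ hz hzy hy]
    exact even_refl_mul_refl hQ hy (by rw [hy']; exact hy)

theorem even_of_mem_Sg (hQ : Nd Q) (hd : 3 ≤ finrank F V) {g : V ≃ₗ[F] V} (hg : g ∈ Sg hQ) :
    g ∈ O Q ∧ Even (finrank F (mov g)) := by
  rw [Sg] at hg
  induction hg using Subgroup.closure_induction with
  | mem x hx =>
    obtain ⟨z, y, hz, hzy, rfl⟩ := hx
    exact ⟨sieg_mem hQ hz hzy, even_sieg hQ hz hzy⟩
  | one => exact ⟨one_mem _, by rw [mov_one]; simp⟩
  | mul x y _ _ hx hy =>
    refine ⟨mul_mem hx.1 hy.1, ?_⟩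
    rw [even_mov_mul' hQ hd hx.1 hy.1]
    exact ⟨fun _ => hy.2, fun _ => hx.2⟩
  | inv x _ hx =>
    refine ⟨inv_mem hx.1, ?_⟩
    have h := even_mov_mul' hQ hd (inv_mem hx.1) hx.1
    rw [inv_mul_cancel, mov_one] at h
    have h2 : Even (finrank F ↥(⊥ : Submodule F V)) := by simp
    exact (h.1 h2).2 hx.2

variable [Finite F]

/-- Over a finite field with `2 = 0`, an isometry with even residual dimension is a product of
Siegel transformations. -/
theorem mem_Sg_of_even (h2 : (2 : F) = 0) (hQ : Nd Q) (hd : 4 ≤ finrank F V) {g : V ≃ₗ[F] V}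
    (hg : g ∈ O Q) (he : Even (finrank F (mov g))) : g ∈ Sg hQ := by
  obtain ⟨v0, hv0⟩ := hQ.exists_Q_ne_zero (by omega)
  have hsq : ∀ x : F, ∃ y, y * y = x := by
    intro x
    haveI := Fintype.ofFinite F
    obtain ⟨y, hy⟩ := FiniteField.isSquare_of_char_two (F := F)
      (CharP.ringChar_of_prime_eq_zero Nat.prime_two (by exact_mod_cast h2)) x
    exact ⟨y, hy.symm⟩
  obtain ⟨r, hr⟩ : ∃ r, r = refl Q v0 := ⟨_, rfl⟩
  have hrO : r ∈ O Q := by rw [hr]; exact refl_mem v0
  have hrr : r * r = 1 := by rw [hr]; exact refl_mul_self v0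
  have hrinv : r⁻¹ = r := inv_eq_of_mul_eq_one_right hrr
  have hrefl : ∀ v, Q v ≠ 0 → r * refl Q v ∈ Sg hQ := by
    intro v hv
    obtain ⟨c, hc⟩ := hsq (Q v0 / Q v)
    have hc0 : c ≠ 0 := by
      rintro rfl
      rw [mul_zero] at hc
      exact div_ne_zero hv0 hv hc.symm
    rw [← refl_smul hc0 v, hr]
    apply refl_mul_refl_mem_Sg' hQ hd hv0
    rw [Q_smul, hc, div_mul_cancel₀ _ hv]
  have hconj : ∀ x ∈ Sg hQ, r * x * r ∈ Sg hQ := by
    intro x hx
    have := Sg_conj hQ hrO hx
    rwa [hrinv] at this
  let M : Subgroup (V ≃ₗ[F] V) :=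
    { carrier := {g | g ∈ Sg hQ ∨ r * g ∈ Sg hQ}
      one_mem' := Or.inl (one_mem _)
      mul_mem' := by
        rintro x y (hx | hx) (hy | hy)
        · exact Or.inl (mul_mem hx hy)
        · right
          have e : r * (x * y) = (r * x * r) * (r * y) := by
            calc r * (x * y) = r * x * (1 * y) := by group
              _ = r * x * ((r * r) * y) := by rw [hrr]
              _ = _ := by group
          rw [e]
          exact mul_mem (hconj x hx) hy
        · right
          have e : r * (x * y) = (r * x) * y := by group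
          rw [e]
          exact mul_mem hx hy
        · left
          have e : x * y = (r * (r * x) * r) * (r * y) := by
            calc x * y = (1 * x) * (1 * y) := by group
              _ = ((r * r) * x) * ((r * r) * y) := by rw [hrr]
              _ = _ := by group
          rw [e]
          exact mul_mem (hconj _ hx) hy
      inv_mem' := by
        rintro x (hx | hx)
        · exact Or.inl (inv_mem hx)
        · right
          have e : r * x⁻¹ = r * (r * x)⁻¹ * r := by
            rw [mul_inv_rev, hrinv, ← mul_assoc, mul_assoc (r * x⁻¹) r r, hrr, mul_one]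
          show r * x⁻¹ ∈ Sg hQ
          rw [e]
          exact hconj _ (inv_mem hx) }
  have hM : O Q ≤ M := by
    apply O_le_of hQ
    · intro v hv
      exact Or.inr (hrefl v hv)
    · intro z y hz hzy _
      exact Or.inl (sieg_mem_Sg hQ hz hzy)
  rcases hM hg with h | h
  · exact h
  · exfalso
    have h3 := (even_of_mem_Sg hQ (by omega) h).2
    rw [hr, hQ.even_mov_refl_mul hg hv0] at h3
    exact h3 he

end Parity

section Final

variable {F V : Type*} [Field F] [AddCommGroup V] [Module F V] [Finite F] [FiniteDimensional F V]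
  {B : V →ₗ[F] V →ₗ[F] F} {L : Subgroup (V ≃ₗ[F] V)} {a b : V}

/-- irreducibility -/
def Irr (L : Subgroup (V ≃ₗ[F] V)) : Prop :=
  ∀ W : Submodule F V, (∀ g ∈ L, ∀ w ∈ W, g w ∈ W) → W = ⊥ ∨ W = ⊤

omit [Finite F] [FiniteDimensional F V] in
/-- an invariant predicate holding for a nonzero vector holds for a spanning set -/
theorem Irr.span {P : V → Prop} (hirr : Irr L) (hP : ∀ g ∈ L, ∀ v, P v → P (g v)) {a : V}
    (ha : a ≠ 0) (h : P a) : Submodule.span F {v | P v} = ⊤ := by
  rcases hirr (Submodule.span F {v | P v}) (by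
    intro g hg w hw
    induction hw using Submodule.span_induction with
    | mem w hw => exact Submodule.subset_span (hP g hg w hw)
    | zero => rw [map_zero]; exact Submodule.zero_mem _
    | add x y _ _ hx hy => rw [map_add]; exact Submodule.add_mem _ hx hy
    | smul c x _ hx => rw [map_smul]; exact Submodule.smul_mem _ _ hx) with h1 | h1
  · exfalso
    apply ha
    rw [← Submodule.mem_bot F, ← h1]
    exact Submodule.subset_span h
  · exact h1

omit [Finite F] [FiniteDimensional F V] in
theorem Irr.exists_ne {P : V → Prop} (hA : Amb B L) (hirr : Irr L)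
    (hP : ∀ g ∈ L, ∀ v, P v → P (g v)) {a : V} (ha : a ≠ 0) (h : P a) {c : V} (hc : c ≠ 0) :
    ∃ b, P b ∧ B b c ≠ 0 := by
  by_contra hcon
  push Not at hcon
  apply hc
  apply hA.nd
  intro y
  have h1 : y ∈ Submodule.span F {v | P v} := by rw [hirr.span hP ha h]; trivial
  rw [hA.symm]
  induction h1 using Submodule.span_induction with
  | mem w hw => exact hcon w hw
  | zero => simp
  | add x y _ _ hx hy => rw [map_add, LinearMap.add_apply, hx, hy, add_zero]
  | smul c x _ hx => rw [map_smul, LinearMap.smul_apply, hx, smul_zero]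

/-- The orthogonal case without transvections. -/
theorem even_case (hA : Amb B L) (hno : NoT B L) (hd : 4 ≤ finrank F V) (hirr : Irr L)
    (hK : TwoPt B L) (ha : Good B L a) : ∃ Q : QuadraticForm F V,
      (∀ x y, polar Q x y = B x y) ∧ ∀ g : V ≃ₗ[F] V, g ∈ L ↔ g ∈ O Q ∧ Even (finrank F (mov g)) := by
  obtain ⟨b', hb', hba'⟩ := hirr.exists_ne hA (Good.invariant hA) ha.1 ha ha.1
  obtain ⟨b, hb, hba⟩ : ∃ b, Good B L b ∧ B b a = 1 :=
    ⟨(B b' a)⁻¹ • b', hb'.smul (inv_ne_zero hba'), by
      rw [map_smul, LinearMap.smul_apply, smul_eq_mul, inv_mul_cancel₀ hba']⟩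
  obtain ⟨Q, hp, hQ⟩ := exists_quadric hA hno hK ha hb hba
  have hnd : Nd Q := nd_of_polar hA hp
  have hLO : ∀ g ∈ L, g ∈ O Q := by
    intro g hg
    let N : Submodule F V :=
      { carrier := {v | Q (g v) = Q v}
        add_mem' := by
          intro x y hx hy
          show Q (g (x + y)) = Q (x + y)
          have hx' : Q (g x) = Q x := hx
          have hy' : Q (g y) = Q y := hy
          rw [map_add, Q_add, Q_add, hx', hy', hp, hp, hA.map hg]
        zero_mem' := by
          show Q (g 0) = Q 0
          rw [map_zero]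
        smul_mem' := by
          intro c x hx
          show Q (g (c • x)) = Q (c • x)
          have hx' : Q (g x) = Q x := hx
          rw [map_smul, Q_smul, Q_smul, hx'] }
    have h1 : Submodule.span F {v | Good B L v} ≤ N := by
      rw [Submodule.span_le]
      intro v hv
      show Q (g v) = Q v
      have h2 := Good.invariant hA g hg v hv
      rw [(hQ v hv.1).1 hv, (hQ _ h2.1).1 h2]
    rw [hirr.span (Good.invariant hA) ha.1 ha] at h1
    intro v
    exact h1 (Submodule.mem_top (x := v))
  have hsieg : Sg hnd ≤ L := by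
    rw [Sg, Subgroup.closure_le]
    rintro _ ⟨z, y, hz, hzy, rfl⟩
    by_cases hz0 : z = 0
    · have : sieg hnd hz hzy = 1 := by
        apply LinearEquiv.ext
        intro x
        rw [sieg_apply]
        show _ = x
        simp [hz0]
      rw [this]; exact one_mem _
    · have hzg : Good B L z := (hQ z hz0).2 hz
      have hzy' : B z y = 0 := by rw [← hp]; exact hzy
      apply XX.sieg_mem hA hp
      obtain ⟨c, hc⟩ := hzg.2 y hzy'
      have : c = Q y := by
        obtain ⟨g, hg, e⟩ := hc
        obtain ⟨v, hv⟩ := hA.exists_ne hz0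
        have hvz : B v z = 1 := by rw [hA.symm]; exact hv
        have h1 := hLO g hg v
        have hyz : B y z = 0 := by rw [hA.symm]; exact hzy'
        rw [e, Q_add, Q_add, Q_smul, Q_smul, hz, hp, hp] at h1
        simp only [map_add, map_smul, LinearMap.add_apply, LinearMap.smul_apply, smul_eq_mul,
          hvz, hyz] at h1
        linear_combination h1 - (B v y + Q y) * hA.two
      rw [← this]; exact hc
  refine ⟨Q, hp, fun g => ⟨fun hg => ⟨hLO g hg, ?_⟩, fun hg => hsieg
    (mem_Sg_of_even hA.two hnd hd hg.1 hg.2)⟩⟩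
  by_contra hodd
  obtain ⟨v0, hv0⟩ := hnd.exists_Q_ne_zero (by omega)
  have h1 : Even (finrank F (mov (refl Q v0 * g))) := by
    rw [hnd.even_mov_refl_mul (hLO g hg) hv0]
    exact hodd
  have h2 := hsieg (mem_Sg_of_even hA.two hnd hd (mul_mem (refl_mem v0) (hLO g hg)) h1)
  have h3 := mul_mem h2 (inv_mem hg)
  rw [mul_inv_cancel_right] at h3
  have hv00 : v0 ≠ 0 := by
    rintro rfl
    exact hv0 (QuadraticMap.map_zero Q)
  have h4 : TT B L v0 (Q v0)⁻¹ := by
    refine ⟨_, h3, fun v => ?_⟩
    rw [refl_apply hv0, hp, hA.symm v0 v, map_zero, smul_zero, add_zero, zero_add]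
    match_scalars
    · ring
    · linear_combination (-(Q v0)⁻¹ * B v v0) * hA.two
  exact inv_ne_zero hv0 (hno v0 hv00 _ h4)

end Final

end Cfsg.Agent.Lib.SpOv98
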