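import Cfsg.Agent.Lib.SpOvF

/-!
The case without transvections in which all points are good: the field has two elements and the
dimension is four.
-/

set_option autoImplicit false

namespace Cfsg.Agent.Lib.SpOv98

open Cfsg.Agent.Lib.SpTrans (isom)
open Module

section AllGood

variable {F V : Type*} [Field F] [AddCommGroup V] [Module F V]
  {B : V →ₗ[F] V →ₗ[F] F} {L : Subgroup (V ≃ₗ[F] V)} {a b c d : V}

/-- product of the elements attached to `c` at `a` and at `a + t c`. -/
theorem XX.comb (hA : Amb B L) (hac : B a c = 0) {s t : F} (h : XX B L a c s)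
    (h' : XX B L (a + t • c) c s) : XX B L c ((s * t) • a) (s * t ^ 2) := by
  obtain ⟨g, hg, e⟩ := h
  obtain ⟨g', hg', e'⟩ := h'
  refine ⟨g * g', mul_mem hg hg', fun v => ?_⟩
  show g (g' v) = _
  have hca : B c a = 0 := by rw [hA.symm]; exact hac
  rw [e, e']
  simp only [map_add, map_smul, LinearMap.add_apply, LinearMap.smul_apply, smul_eq_mul, hA.alt,
    hac, hca]
  match_scalars
  · ring
  · linear_combination (B v a + t * B v c) * hA.two
  · linear_combination (B v c + s * B v a) * hA.two

theorem Good.shift (hA : Amb B L) (hc : Good B L c) (hac : B a c = 0)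
    (hind : ∀ k : F, a ≠ k • c) {s : F} (h : XX B L a c s) (t : F) : XX B L (a + t • c) c s := by
  obtain ⟨y, hy1, hy2⟩ := hA.exists_one hc.1 hind
  obtain ⟨k, g, hg, e⟩ := hc.2 (t • y) (by rw [map_smul, hy1, smul_zero])
  have h1 : g a = a + t • c := by
    rw [e, hac, map_smul, hy2]
    simp
  have h2 : g c = c := by
    rw [e, hA.alt, map_smul, hy1]
    simp
  have h3 := XX.conj hA hg h
  rwa [h1, h2] at h3

/-- key relation -/
theorem star (hA : Amb B L) (hc : Good B L c) (hac : B a c = 0)
    (hind : ∀ k : F, a ≠ k • c) {s : F} (hs : s ≠ 0) (h : XX B L a c s) (y : F) :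
    XX B L c (y • a) (y ^ 2 / s) := by
  have h1 := XX.comb hA hac h (hc.shift hA hac hind h (y / s))
  have e1 : s * (y / s) = y := by field_simp
  have e2 : s * (y / s) ^ 2 = y ^ 2 / s := by field_simp
  rwa [e1, e2] at h1

/-- only two field elements -/
theorem two_elements (hA : Amb B L) (hno : NoT B L) (hall : ∀ v, v ≠ 0 → Good B L v) (ha : a ≠ 0)
    (hc0 : c ≠ 0) (hac : B a c = 0) {s : F} (hs : s ≠ 0) (h : XX B L a c s) {t : F} (ht : t ≠ 0) :
    t * s = 1 := by
  have hca : B c a = 0 := by rw [hA.symm]; exact hac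
  have hind' : ∀ k : F, c ≠ k • a := by
    rintro k rfl
    apply hs
    exact uniq hA hno ha (by rw [map_smul, hA.alt, smul_zero]) h (XX.smul_self hA a k)
  have hind : ∀ k : F, a ≠ k • c := by
    rintro k hk
    have hk0 : k ≠ 0 := by
      rintro rfl
      rw [zero_smul] at hk
      exact ha hk
    apply hind' k⁻¹
    rw [hk, smul_smul, inv_mul_cancel₀ hk0, one_smul]
  -- at `a + t c`
  have h1 := (hall c hc0).shift hA hac hind h t
  -- at `c + t⁻¹ a`
  have h2 := star hA (hall c hc0) hac hind hs h 1
  rw [one_smul, one_pow] at h2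
  have h3 := (hall a ha).shift hA hca hind' h2 t⁻¹
  have e1 : a + t • c = t • (c + t⁻¹ • a) := by
    rw [smul_add, smul_smul, mul_inv_cancel₀ ht, one_smul, add_comm]
  rw [e1] at h1
  have h4 := (XX.scal t).1 h1
  have e2 : t • c = a + t • (c + t⁻¹ • a) := by
    rw [smul_add, smul_smul, mul_inv_cancel₀ ht, one_smul]
    match_scalars
    · ring
    · linear_combination -hA.two
  rw [e2, XX.add_smul hA] at h4
  have hne : c + t⁻¹ • a ≠ 0 := by
    intro h0
    apply hind' (-t⁻¹)
    rw [neg_smul]
    exact eq_neg_of_add_eq_zero_left h0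
  have hperp : B (c + t⁻¹ • a) a = 0 := by
    rw [map_add, map_smul, LinearMap.add_apply, LinearMap.smul_apply, hca, hA.alt]
    simp
  have h5 := uniq hA hno hne hperp h4 h3
  have h6 : (t * s) ^ 2 = 1 := by
    field_simp at h5
    linear_combination h5
  have h7 : (t * s + 1) ^ 2 = 0 := by linear_combination h6 + (t * s + 1) * hA.two
  have h8 : t * s + 1 = 0 := (pow_eq_zero_iff two_ne_zero).1 h7
  exact hA.add_eq_zero.1 h8

theorem ind_of (hA : Amb B L) (hno : NoT B L) (ha : a ≠ 0) {s : F} (hs : s ≠ 0)
    (h : XX B L a c s) : (∀ k : F, c ≠ k • a) ∧ ∀ k : F, a ≠ k • c := by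
  have hind' : ∀ k : F, c ≠ k • a := by
    rintro k rfl
    apply hs
    exact uniq hA hno ha (by rw [map_smul, hA.alt, smul_zero]) h (XX.smul_self hA a k)
  refine ⟨hind', ?_⟩
  rintro k hk
  have hk0 : k ≠ 0 := by
    rintro rfl
    rw [zero_smul] at hk
    exact ha hk
  apply hind' k⁻¹
  rw [hk, smul_smul, inv_mul_cancel₀ hk0, one_smul]

/-- elements `v ↦ v + f v` -/
def MM (L : Subgroup (V ≃ₗ[F] V)) (f : V → V) : Prop := ∃ g ∈ L, ∀ v, g v = v + f v

theorem MM.mul {f f' : V → V} (h : MM L f) (h' : MM L f') (hf : ∀ v, f (v + f' v) = f v) :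
    MM L fun v => f v + f' v := by
  obtain ⟨g, hg, e⟩ := h
  obtain ⟨g', hg', e'⟩ := h'
  refine ⟨g * g', mul_mem hg hg', fun v => ?_⟩
  show g (g' v) = _
  rw [e, e', hf]
  module

theorem MM.congr {f f' : V → V} (h : MM L f) (hf : ∀ v, f v = f' v) : MM L f' := by
  obtain ⟨g, hg, e⟩ := h
  exact ⟨g, hg, fun v => by rw [e, hf]⟩

/-- a product of two transvections -/
theorem pairT (hA : Amb B L) (hno : NoT B L) (hall : ∀ v, v ≠ 0 → Good B L v) (ha : a ≠ 0)
    (hc0 : c ≠ 0) (hac : B a c = 0) (h : XX B L a c 1) :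
    XX B L c a 1 ∧ MM L fun v => B v a • a + B v c • c := by
  have hca : B c a = 0 := by rw [hA.symm]; exact hac
  have h1 := star hA (hall c hc0) hac (ind_of hA hno ha one_ne_zero h).2 one_ne_zero h 1
  rw [one_smul, one_pow, div_one] at h1
  refine ⟨h1, ?_⟩
  have m1 : MM L fun v => B v a • c + (B v c + 1 * B v a) • a := by
    obtain ⟨g, hg, e⟩ := h
    exact ⟨g, hg, fun v => by rw [e]; module⟩
  have m2 : MM L fun v => B v c • a + (B v a + 1 * B v c) • c := by
    obtain ⟨g, hg, e⟩ := h1
    exact ⟨g, hg, fun v => by rw [e]; module⟩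
  refine (MM.mul m1 m2 ?_).congr ?_
  · intro v
    simp only [map_add, map_smul, LinearMap.add_apply, LinearMap.smul_apply, smul_eq_mul, hA.alt,
      hac, hca]
    module
  · intro v
    match_scalars
    · linear_combination (B v a) * hA.two
    · linear_combination (B v c) * hA.two

theorem no_plane (hA : Amb B L) (hno : NoT B L) (hall : ∀ v, v ≠ 0 → Good B L v) (ha : a ≠ 0)
    (hd0 : d ≠ 0) (hc0 : c ≠ 0) (hca : c ≠ a) (hac : B a c = 0) (had : B a d = 0)
    (hcd : B c d = 0) (h1 : XX B L a d 1) (h0 : XX B L a c 0) : False := by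
  have hca' : B c a = 0 := by rw [hA.symm]; exact hac
  have hda : B d a = 0 := by rw [hA.symm]; exact had
  have hdc : B d c = 0 := by rw [hA.symm]; exact hcd
  have h2 : XX B L a (c + d) 1 := by
    have := XX.mul hA hac had h0 h1
    rwa [hcd, zero_add, add_zero] at this
  have hcd0 : c + d ≠ 0 := by
    intro h3
    rw [h3] at h2
    exact one_ne_zero (hno a ha 1 h2)
  obtain ⟨_, e1⟩ := pairT hA hno hall ha hd0 had h1
  obtain ⟨_, e2⟩ := pairT hA hno hall ha hcd0 (by rw [map_add, hac, had, add_zero]) h2
  have e3 : MM L fun v => B v c • d + (B v d + 1 * B v c) • c := by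
    refine (MM.mul e1 e2 ?_).congr ?_
    · intro v
      simp only [map_add, map_smul, LinearMap.add_apply, LinearMap.smul_apply, smul_eq_mul, hA.alt,
        hac, hca', had, hda, hcd, hdc]
      module
    · intro v
      simp only [map_add]
      match_scalars
      · linear_combination (B v a) * hA.two
      · linear_combination (B v d) * hA.two
      · ring
  have h3 : XX B L c d 1 := by
    obtain ⟨g, hg, e⟩ := e3
    exact ⟨g, hg, fun v => by rw [e]; module⟩
  obtain ⟨_, e4⟩ := pairT hA hno hall hc0 hd0 hcd h3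
  have e5 : MM L fun v => B v a • a + B v c • c := by
    refine (MM.mul e1 e4 ?_).congr ?_
    · intro v
      simp only [map_add, map_smul, LinearMap.add_apply, LinearMap.smul_apply, smul_eq_mul, hA.alt,
        hac, hca', had, hda, hcd, hdc]
      module
    · intro v
      match_scalars
      · ring
      · linear_combination (B v d) * hA.two
      · ring
  have e6 : MM L fun v => B v a • c + (B v c + 0 * B v a) • a := by
    obtain ⟨g, hg, e⟩ := h0
    exact ⟨g, hg, fun v => by rw [e]; module⟩
  have e7 : MM L fun v => B v (a + c) • (a + c) := by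
    refine (MM.mul e5 e6 ?_).congr ?_
    · intro v
      simp only [map_add, map_smul, LinearMap.add_apply, LinearMap.smul_apply, smul_eq_mul, hA.alt,
        hac, hca', had, hda, hcd, hdc]
      module
    · intro v
      simp only [map_add]
      module
  have h4 : TT B L (a + c) 1 := by
    obtain ⟨g, hg, e⟩ := e7
    exact ⟨g, hg, fun v => by rw [e, map_zero]; module⟩
  have h5 : a + c ≠ 0 := by
    intro h6
    apply hca
    have : a + c + c = c := by rw [h6, zero_add]
    rw [add_assoc, hA.add_self, add_zero] at this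
    exact this.symm
  exact one_ne_zero (hno _ h5 1 h4)

end AllGood

section Dim

variable {F V : Type*} [Field F] [AddCommGroup V] [Module F V] [FiniteDimensional F V]
  {B : V →ₗ[F] V →ₗ[F] F} {L : Subgroup (V ≃ₗ[F] V)} {a b c d : V}

/-- a vector perpendicular to two given ones, outside of a subspace of small dimension -/
theorem exists_perp2 (B : V →ₗ[F] V →ₗ[F] F) (a d : V) (W : Submodule F V)
    (h : finrank F W + 3 ≤ finrank F V) : ∃ c, B a c = 0 ∧ B d c = 0 ∧ c ∉ W := by
  by_contra hcon
  push Not at hcon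
  have h1 : LinearMap.ker ((B a).prod (B d)) ≤ W := by
    intro u hu
    have hu' : (B a).prod (B d) u = 0 := hu
    rw [LinearMap.prod_apply] at hu'
    have h2 := Prod.mk.inj hu'
    exact hcon u h2.1 h2.2
  have h2 := Submodule.finrank_mono h1
  have h3 := LinearMap.finrank_range_add_finrank_ker ((B a).prod (B d))
  have h4 : finrank F (LinearMap.range ((B a).prod (B d))) ≤ 2 := by
    have := Submodule.finrank_le (LinearMap.range ((B a).prod (B d)))
    rwa [Module.finrank_prod, Module.finrank_self] at this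
  omega

variable [Finite F]

theorem dim_le (hA : Amb B L) (hno : NoT B L) (hall : ∀ v, v ≠ 0 → Good B L v)
    (hd : 3 ≤ finrank F V) : (∀ t : F, t ≠ 0 → t = 1) ∧ finrank F V ≤ 4 := by
  obtain ⟨a, ha⟩ : ∃ a : V, a ≠ 0 := by
    haveI : Nontrivial V := Module.nontrivial_of_finrank_pos (R := F) (by omega)
    exact exists_ne 0
  obtain ⟨d, had, hdval⟩ := ((hall a ha).dat hA hno).surj hA hd 1
  have h1 : XX B L a d 1 := by
    have := (hall a ha).spec had
    rwa [hdval] at this
  have hind := ind_of hA hno ha one_ne_zero h1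
  have hd0 : d ≠ 0 := by
    have := hind.1 0
    rwa [zero_smul] at this
  refine ⟨fun t ht => ?_, ?_⟩
  · have := two_elements hA hno hall ha hd0 had one_ne_zero h1 ht
    rwa [mul_one] at this
  by_contra hcon
  push Not at hcon
  have hspan : finrank F (Submodule.span F {a, d}) ≤ 2 := by
    classical
    have h2 := finrank_span_finset_le_card (R := F) ({a, d} : Finset V)
    have h3 := Finset.card_insert_le a {d}
    rw [Finset.card_singleton] at h3
    have h4 : ((({a, d} : Finset V) : Set V)) = {a, d} := by simp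
    rw [h4] at h2
    exact h2.trans h3
  obtain ⟨c, hac, hdc, hc⟩ := exists_perp2 B a d (Submodule.span F {a, d}) (by omega)
  have hcd : B c d = 0 := by rw [hA.symm]; exact hdc
  obtain ⟨k, hk⟩ := (hall a ha).2 c hac
  have hc0 : c ≠ 0 := by
    rintro rfl
    exact hc (Submodule.zero_mem _)
  have hca : c ≠ a := by
    rintro rfl
    exact hc (Submodule.subset_span (by simp))
  by_cases hk0 : k = 0
  · rw [hk0] at hk
    exact no_plane hA hno hall ha hd0 hc0 hca hac had hcd h1 hk
  · have hk1 := two_elements hA hno hall ha hc0 hac hk0 hk one_ne_zero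
    rw [one_mul] at hk1
    rw [hk1] at hk
    have h2 := XX.mul hA hac had hk h1
    rw [hcd, add_zero, (hA.add_eq_zero (x := (1 : F))).2 rfl] at h2
    refine no_plane hA hno hall ha hd0 (c := c + d) ?_ ?_ (by rw [map_add, hac, had, add_zero]) had
      (by rw [map_add, LinearMap.add_apply, hcd, hA.alt, add_zero]) h1 h2
    · intro h3
      apply hc
      have : c = -d := eq_neg_of_add_eq_zero_left h3
      rw [this]
      exact Submodule.neg_mem _ (Submodule.subset_span (by simp))
    · intro h3
      apply hc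
      have : c = a - d := by rw [← h3]; abel
      rw [this]
      exact Submodule.sub_mem _ (Submodule.subset_span (by simp)) (Submodule.subset_span (by simp))

end Dim

end Cfsg.Agent.Lib.SpOv98
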