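import Cfsg.Agent.Lib.SpOvG

/-!
The abstract trichotomy, and divisibility of the order of `L` in the exceptional case.
-/

set_option autoImplicit false

namespace Cfsg.Agent.Lib.SpOv98

open Cfsg.Agent.Lib.SpTrans (isom)
open Cfsg.Agent.Lib.Quad
open Module QuadraticMap

section Abs

variable {F V : Type*} [Field F] [AddCommGroup V] [Module F V] [FiniteDimensional F V] [Finite F]
  {B : V →ₗ[F] V →ₗ[F] F} {L : Subgroup (V ≃ₗ[F] V)} {a b c d : V} {φ : V → F}

theorem main_abs (hA : Amb B L) (hd : 4 ≤ finrank F V) (hirr : Irr L) (ha : Dat B L a φ) :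
    isom (fun x y => B x y) ≤ L ∨
    (∃ Q : QuadraticForm F V, (∀ x y, polar Q x y = B x y) ∧
      (L = O Q ∨ ∀ g : V ≃ₗ[F] V, g ∈ L ↔ g ∈ O Q ∧ Even (finrank F (mov g)))) ∨
    ((∀ t : F, t ≠ 0 → t = 1) ∧ finrank F V = 4 ∧ NoT B L ∧ ∀ v, v ≠ 0 → Good B L v) := by
  by_cases hT : NoT B L
  · have hag : Good B L a := ⟨ha.ne, fun u hu => ⟨_, ha.mem u hu⟩⟩
    by_cases hK : TwoPt B L
    · obtain ⟨Q, hp, h⟩ := even_case hA hT hd hirr hK hag
      exact Or.inr (Or.inl ⟨Q, hp, Or.inr h⟩)
    · right; right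
      unfold TwoPt at hK
      push Not at hK
      obtain ⟨a', b', ρ, h1, h2, h3, h4, h5⟩ := hK
      have hall := all_good hA hT (by omega) h1 h2 h3 h5 h4
      obtain ⟨h6, h7⟩ := dim_le hA hT hall (by omega)
      exact ⟨h6, by omega, hT, hall⟩
  · unfold NoT at hT
    push Not at hT
    obtain ⟨c, hc, l, hl, hl0⟩ := hT
    obtain ⟨r, hr⟩ := hA.sqrt l
    have hr0 : r ≠ 0 := by
      rintro rfl
      rw [mul_zero] at hr
      exact hl0 hr.symm
    have h1 : TT B L (r • c) 1 := by
      apply (XX.scal r).2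
      rw [smul_zero, mul_one, _root_.sq, hr]
      exact hl
    obtain ⟨c', hc', hca⟩ := hirr.exists_ne hA (TT.invariant hA) (smul_ne_zero hr0 hc) h1 ha.ne
    by_cases hν : ∃ ν, TT B L a ν ∧ ν ≠ 0
    · obtain ⟨ν, hν, hν0⟩ := hν
      left
      exact ha.full hA (by omega) hc' hca (fun l => ha.T_all hA (by omega) hc' hca hν hν0 l)
    · push Not at hν
      obtain ⟨Q, hp, h⟩ := ha.orth hA (by omega) hc' hca hν
      exact Or.inr (Or.inl ⟨Q, hp, Or.inl h⟩)

/-- transitivity on non-zero vectors -/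
theorem trans_vec (hA : Amb B L) (hd : 4 ≤ finrank F V) (hall : ∀ v, v ≠ 0 → Good B L v)
    (h1 : ∀ t : F, t ≠ 0 → t = 1) {p r : V} (hp : p ≠ 0) (hr : r ≠ 0) : ∃ g ∈ L, g p = r := by
  have step : ∀ p r : V, p ≠ 0 → r ≠ 0 → B p r = 0 → p ≠ r → ∃ g ∈ L, g p = p + r := by
    intro p r hp hr hpr hne
    have hind : ∀ k : F, p ≠ k • r := by
      rintro k hk
      by_cases hk0 : k = 0
      · rw [hk0, zero_smul] at hk
        exact hp hk
      · rw [h1 k hk0, one_smul] at hk
        exact hne hk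
    obtain ⟨y, hy1, hy2⟩ := hA.exists_one hr hind
    obtain ⟨k, g, hg, e⟩ := (hall r hr).2 y hy1
    exact ⟨g, hg, by rw [e, hpr, hy2]; simp⟩
  have perp : ∀ p r : V, p ≠ 0 → r ≠ 0 → B p r = 0 → ∃ g ∈ L, g p = r := by
    intro p r hp hr hpr
    by_cases hne : p = r
    · exact ⟨1, one_mem _, by rw [hne]; rfl⟩
    · obtain ⟨g, hg, e⟩ := step p r hp hr hpr hne
      obtain ⟨g', hg', e'⟩ := step r p hr hp (by rw [hA.symm]; exact hpr) (Ne.symm hne)
      refine ⟨g'⁻¹ * g, mul_mem (inv_mem hg') hg, ?_⟩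
      show g'⁻¹ (g p) = r
      rw [e, add_comm, ← e']
      exact g'.symm_apply_apply r
  obtain ⟨s, hs1, hs2, hs3⟩ := exists_perp2 B p r ⊥ (by rw [finrank_bot]; omega)
  have hs0 : s ≠ 0 := fun h => hs3 (by rw [h]; exact Submodule.zero_mem _)
  obtain ⟨g, hg, e⟩ := perp p s hp hs0 hs1
  obtain ⟨g', hg', e'⟩ := perp s r hs0 hr (by rw [hA.symm]; exact hs2)
  exact ⟨g' * g, mul_mem hg' hg, by rw [LinearEquiv.mul_apply, e, e']⟩

/-- transitivity of the stabilizer of `a` on vectors `r` with `B(r,a) = 1`. -/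
theorem trans_off (hA : Amb B L) (hno : NoT B L) (hd : 4 ≤ finrank F V)
    (hall : ∀ v, v ≠ 0 → Good B L v)
    (h1 : ∀ t : F, t ≠ 0 → t = 1) (ha : a ≠ 0) (hba : B b a = 1) {r : V} (hr : B r a = 1) :
    ∃ g ∈ L, g a = a ∧ g b = r := by
  have hag := hall a ha
  have hdat := hag.dat hA hno
  obtain ⟨u, hau, s, e⟩ := hdat.norm hA hba hr one_ne_zero
  rw [one_smul, one_smul] at e
  obtain ⟨x, hx, ex⟩ := hag.spec hau
  have hxa : x a = a := by
    rw [ex, hA.alt, hau]
    simp
  have hxr : x (b + s • a) = r := by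
    rw [ex, e]
    have h2 : B (b + s • a) a = 1 := by
      rw [map_add, map_smul, LinearMap.add_apply, LinearMap.smul_apply, hba, hA.alt]; simp
    rw [h2]
    module
  by_cases hs : s = 0
  · rw [hs, zero_smul, add_zero] at hxr
    exact ⟨x, hx, hxa, hxr⟩
  · rw [h1 s hs, one_smul] at hxr
    -- an element mapping `b` to `b + a` and fixing `a`
    obtain ⟨w, haw, hw⟩ := hdat.surj hA (by omega) 1
    obtain ⟨z, hz⟩ : ∃ z, z = w + B b w • a := ⟨_, rfl⟩
    have haz : B a z = 0 := by rw [hz, map_add, map_smul, hA.alt, haw]; simp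
    have hbz : B b z = 0 := by
      rw [hz, map_add, map_smul, hba, smul_eq_mul]
      linear_combination (B b w) * hA.two
    have hza : B z a = 0 := by rw [hA.symm]; exact haz
    have hzb : B z b = 0 := by rw [hA.symm]; exact hbz
    have hphz : ph B L a z = 1 := by rw [hz, hdat.add_sm hA haw, hw]
    have hX : XX B L a z 1 := by
      have := hag.spec haz
      rwa [hphz] at this
    have hz0 : z ≠ 0 := by
      have := (ind_of hA hno ha one_ne_zero hX).1 0
      rwa [zero_smul] at this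
    obtain ⟨hY, _⟩ := pairT hA hno hall ha hz0 haz hX
    obtain ⟨g1, hg1, e1⟩ := hX
    obtain ⟨g2, hg2, e2⟩ := hY
    have k1 : g2 b = b + z := by
      rw [e2, hbz, hba]; simp
    have k2 : g1 (b + z) = b + a := by
      rw [e1]
      simp only [map_add, LinearMap.add_apply, hba, hza, hbz, hA.alt]
      match_scalars
      · ring
      · linear_combination hA.two
      · ring
    have k3 : g2 a = a := by
      rw [e2, haz, hA.alt]; simp
    have k4 : g1 a = a := by
      rw [e1, haz, hA.alt]; simp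
    refine ⟨x * (g1 * g2), mul_mem hx (mul_mem hg1 hg2), ?_, ?_⟩
    · rw [LinearEquiv.mul_apply, LinearEquiv.mul_apply, k3, k4, hxa]
    · rw [LinearEquiv.mul_apply, LinearEquiv.mul_apply, k1, k2, hxr]

theorem dvd_120 (hA : Amb B L) (hno : NoT B L) (hd : finrank F V = 4)
    (hall : ∀ v, v ≠ 0 → Good B L v) (h1 : ∀ t : F, t ≠ 0 → t = 1) : 120 ∣ Nat.card L := by
  have hF : Nat.card F = 2 := by
    rw [Nat.card_eq_two_iff]
    refine ⟨0, 1, zero_ne_one, ?_⟩
    ext t
    simp only [Set.mem_insert_iff, Set.mem_singleton_iff, Set.mem_univ, iff_true]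
    by_cases ht : t = 0
    · exact Or.inl ht
    · exact Or.inr (h1 t ht)
  haveI : Finite V := Module.finite_of_finite F
  haveI : Finite (V ≃ₗ[F] V) :=
    Finite.of_injective (fun g => (g : V → V)) DFunLike.coe_injective
  have hV : Nat.card V = 16 := by
    rw [Module.natCard_eq_pow_finrank (K := F), hF, hd]; norm_num
  obtain ⟨a, ha⟩ : ∃ a : V, a ≠ 0 := by
    haveI : Nontrivial V := Module.nontrivial_of_finrank_pos (R := F) (by omega)
    exact exists_ne 0
  obtain ⟨b, hb⟩ := hA.exists_ne ha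
  have hba : B b a = 1 := by rw [hA.symm]; exact hb
  -- orbit of `a`
  have horb : MulAction.orbit L a = {v : V | v ≠ 0} := by
    ext v
    constructor
    · rintro ⟨g, rfl⟩
      exact fun h => ha ((LinearEquiv.map_eq_zero_iff (g : V ≃ₗ[F] V)).1 h)
    · intro hv
      obtain ⟨g, hg, e⟩ := trans_vec hA (by omega) hall h1 ha hv
      exact ⟨⟨g, hg⟩, e⟩
  have h15 : (MulAction.orbit L a).ncard = 15 := by
    rw [horb]
    have h2 : {v : V | v ≠ 0} = ({0} : Set V)ᶜ := by ext; simp
    rw [h2, Set.ncard_compl, hV, Set.ncard_singleton]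
  -- orbit of `b` under the stabilizer
  have horb2 : MulAction.orbit (MulAction.stabilizer L a) b = {v : V | B v a = 1} := by
    ext v
    constructor
    · rintro ⟨g, rfl⟩
      have h2 : ((g : L) : V ≃ₗ[F] V) a = a := g.2
      have h3 := hA.map (g : L).2 b a
      rw [h2, hba] at h3
      exact h3
    · intro hv
      obtain ⟨g, hg, e1, e2⟩ := trans_off hA hno (by omega) hall h1 ha hba hv
      exact ⟨⟨⟨g, hg⟩, e1⟩, e2⟩
  have h8 : (MulAction.orbit (MulAction.stabilizer L a) b).ncard = 8 := by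
    rw [horb2]
    have e1 : {v : V | B v a = 1} = (fun v => v + b) '' {v : V | B v a = 0} := by
      ext v
      constructor
      · intro hv
        refine ⟨v + b, ?_, by show v + b + b = v; rw [add_assoc, hA.add_self, add_zero]⟩
        have hv' : B v a = 1 := hv
        show B (v + b) a = 0
        rw [map_add, LinearMap.add_apply, hv', hba]
        linear_combination hA.two
      · rintro ⟨w, hw, rfl⟩
        have hw' : B w a = 0 := hw
        show B (w + b) a = 1
        rw [map_add, LinearMap.add_apply, hw', hba, zero_add]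
    have e2 : ({v : V | B v a = 1} : Set V).ncard = ({v : V | B v a = 0} : Set V).ncard := by
      rw [e1]
      exact Set.ncard_image_of_injective _ (add_left_injective b)
    have e3 : {v : V | B v a = 0}ᶜ = {v : V | B v a = 1} := by
      ext v
      show ¬ (B v a = 0) ↔ B v a = 1
      constructor
      · exact h1 _
      · intro h h0
        rw [h] at h0
        exact one_ne_zero h0
    have e4 := Set.ncard_add_ncard_compl {v : V | B v a = 0}
    rw [e3, hV] at e4
    omega
  have k1 := MulAction.index_stabilizer L a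
  have k2 := MulAction.index_stabilizer (MulAction.stabilizer L a) b
  rw [h15] at k1
  rw [h8] at k2
  have k3 := Subgroup.card_mul_index (MulAction.stabilizer L a)
  have k4 := Subgroup.card_mul_index (MulAction.stabilizer (MulAction.stabilizer L a) b)
  rw [k1] at k3
  rw [k2] at k4
  rw [← k3, ← k4]
  exact ⟨_, by ring⟩

end Abs

end Cfsg.Agent.Lib.SpOv98
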