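import Mathlib

/-!
Proper subgroups of `S₆` of order divisible by 120: `A₆` or isomorphic to `S₅`.
-/

set_option autoImplicit false

namespace Cfsg.Agent.Lib.SpOv98

open Equiv

theorem stab_equiv {G α : Type*} [Group G] [MulAction G α] [Finite α] (x0 : α)
    (hfaith : ∀ g : G, (∀ x : α, g • x = x) → g = 1) {n : ℕ} (hα : Nat.card α = n + 1)
    (hc : Nat.card (MulAction.stabilizer G x0) = n.factorial) :
    Nonempty (MulAction.stabilizer G x0 ≃* Perm (Fin n)) := by
  have hS : Nat.card ↥(SubMulAction.ofStabilizer G x0) = n := by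
    rw [SubMulAction.nat_card_ofStabilizer_eq, hα]
    rfl
  let f : MulAction.stabilizer G x0 →* Perm ↥(SubMulAction.ofStabilizer G x0) :=
    MulAction.toPermHom ↥(MulAction.stabilizer G x0) ↥(SubMulAction.ofStabilizer G x0)
  have hf : Function.Injective f := by
    rw [injective_iff_map_eq_one]
    intro g hg
    apply Subtype.ext
    apply hfaith
    intro x
    by_cases hx : x = x0
    · rw [hx]; exact g.2
    · have h8 := DFunLike.congr_fun hg (⟨x, hx⟩ : ↥(SubMulAction.ofStabilizer G x0))
      have h9 : g • (⟨x, hx⟩ : ↥(SubMulAction.ofStabilizer G x0)) = ⟨x, hx⟩ := h8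
      exact congrArg Subtype.val h9
  have hfb : Function.Bijective f := by
    rw [Nat.bijective_iff_injective_and_card]
    exact ⟨hf, by rw [hc, Nat.card_perm, hS]⟩
  have e2 : ↥(SubMulAction.ofStabilizer G x0) ≃ Fin n := Finite.equivFinOfCardEq hS
  exact ⟨(MulEquiv.ofBijective f hfb).trans e2.permCongrHom⟩

theorem six_sub (H : Subgroup (Perm (Fin 6))) (h : 120 ∣ Nat.card H) (hne : H ≠ ⊤) :
    H = alternatingGroup (Fin 6) ∨ Nonempty (H ≃* Perm (Fin 5)) := by
  have hcard : Nat.card (Perm (Fin 6)) = 720 := by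
    rw [Nat.card_eq_fintype_card, Fintype.card_perm, Fintype.card_fin]
    decide
  obtain ⟨j, hj⟩ := h
  have h1 := Subgroup.card_mul_index H
  rw [hcard, hj] at h1
  have h2 : j * H.index = 6 := by
    have : 120 * (j * H.index) = 120 * 6 := by rw [← mul_assoc, h1]
    exact Nat.eq_of_mul_eq_mul_left (by norm_num) this
  have h3 : H.index ∣ 6 := ⟨j, by rw [mul_comm]; exact h2.symm⟩
  have h4 : H.index ≠ 1 := fun h => hne (Subgroup.index_eq_one.1 h)
  by_cases h5 : H.index = 2
  · exact Or.inl (Perm.eq_alternatingGroup_of_index_eq_two h5)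
  have h6 : H.index = 3 ∨ H.index = 6 := by
    have h7 : H.index ≤ 6 := Nat.le_of_dvd (by norm_num) h3
    interval_cases hH : H.index <;> omega
  -- the core is trivial
  have hcore : H.normalCore = ⊥ := by
    by_contra hcon
    have hnt : Nontrivial H.normalCore := (Subgroup.nontrivial_iff_ne_bot _).2 hcon
    have h7 := Perm.alternatingGroup_le_of_normal (α := Fin 6) (by simp) hnt
    have h8 := h7.trans H.normalCore_le
    have h9 := Subgroup.index_dvd_of_le h8
    haveI : Nontrivial (Fin 6) := inferInstance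
    rw [alternatingGroup.index_eq_two] at h9
    have := Nat.le_of_dvd (by norm_num) h9
    rcases h6 with h6 | h6 <;> omega
  have hfaith : ∀ g : Perm (Fin 6), (∀ x : Perm (Fin 6) ⧸ H, g • x = x) → g = 1 := by
    intro g hg
    have h7 : g ∈ H.normalCore := by
      rw [Subgroup.normalCore_eq_ker, MonoidHom.mem_ker]
      ext x
      exact hg x
    rw [hcore, Subgroup.mem_bot] at h7
    exact h7
  have hinj : Function.Injective (MulAction.toPermHom (Perm (Fin 6)) (Perm (Fin 6) ⧸ H)) := by
    rw [injective_iff_map_eq_one]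
    intro g hg
    apply hfaith
    intro x
    exact DFunLike.congr_fun hg x
  have hle := Nat.card_le_card_of_injective _ hinj
  have hq : Nat.card (Perm (Fin 6) ⧸ H) = H.index := rfl
  rw [hcard, Nat.card_perm, hq] at hle
  have h7 : H.index = 6 := by
    rcases h6 with h6 | h6
    · rw [h6] at hle
      exfalso
      revert hle
      decide
    · exact h6
  right
  have hstab : MulAction.stabilizer (Perm (Fin 6)) ((1 : Perm (Fin 6)) : Perm (Fin 6) ⧸ H) = H :=
    MulAction.stabilizer_quotient H
  obtain ⟨x0, hx0⟩ : ∃ x0 : Perm (Fin 6) ⧸ H, x0 = ((1 : Perm (Fin 6)) : Perm (Fin 6) ⧸ H) := ⟨_, rfl⟩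
  rw [← hx0] at hstab
  have hHcard : Nat.card (MulAction.stabilizer (Perm (Fin 6)) x0) = 120 := by
    rw [hstab]
    rw [h7] at h2
    rw [hj]
    omega
  obtain ⟨e1⟩ := stab_equiv x0 hfaith (n := 5) (by rw [hq, h7]) (by rw [hHcard]; decide)
  have e4 : H ≃* MulAction.stabilizer (Perm (Fin 6)) x0 := MulEquiv.subgroupCongr hstab.symm
  exact ⟨e4.trans e1⟩

end Cfsg.Agent.Lib.SpOv98
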