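import Cfsg.Agent.Lib.SpOvH

/-!
From a subgroup `X` of `O₂` of the stabilizer of a vector to the data `Dat`.
-/

set_option autoImplicit false

namespace Cfsg.Agent.Lib.SpOv98

open Cfsg.Agent.Lib.SpTrans (isom)
open Cfsg.Agent.Lib.Quad
open Module QuadraticMap

section Core

variable {F V : Type*} [Field F] [AddCommGroup V] [Module F V]
  {B : V →ₗ[F] V →ₗ[F] F} {L : Subgroup (V ≃ₗ[F] V)} {a b : V}

/-- the subspace perpendicular to `a` and `b` -/
def TT0 (B : V →ₗ[F] V →ₗ[F] F) (a b : V) : Submodule F V := LinearMap.ker ((B a).prod (B b))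

theorem mem_TT0 {w : V} : w ∈ TT0 B a b ↔ B a w = 0 ∧ B b w = 0 := by
  unfold TT0
  rw [LinearMap.mem_ker, LinearMap.prod_apply]
  exact Prod.mk_eq_zero

theorem finrank_TT0 [FiniteDimensional F V] (hA : Amb B L) (hba : B b a = 1) :
    finrank F (TT0 B a b) + 2 = finrank F V := by
  have h1 : Function.Surjective ((B a).prod (B b)) := by
    rintro ⟨x, y⟩
    refine ⟨x • b + y • a, ?_⟩
    rw [LinearMap.prod_apply]
    apply Prod.ext
    · show B a (x • b + y • a) = x
      rw [map_add, map_smul, map_smul, hA.alt, hA.symm a b, hba]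
      simp
    · show B b (x • b + y • a) = y
      rw [map_add, map_smul, map_smul, hA.alt, hba]
      simp
  have h2 := LinearMap.finrank_range_add_finrank_ker ((B a).prod (B b))
  rw [LinearMap.range_eq_top.2 h1, finrank_top, Module.finrank_prod, Module.finrank_self] at h2
  unfold TT0
  omega

/-- the action on `{a,b}^⊥ ≅ a^⊥ / a`. -/
def actT0 (hA : Amb B L) (hba : B b a = 1) (hfix : ∀ x ∈ L, x a = a) :
    MulAction L (TT0 B a b) where
  smul x w := ⟨(x : V ≃ₗ[F] V) w + B b ((x : V ≃ₗ[F] V) w) • a, by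
    have hw := mem_TT0.1 w.2
    have h1 : B a ((x : V ≃ₗ[F] V) w) = 0 := by
      have := hA.map x.2 a w
      rw [hfix _ x.2, hw.1] at this
      exact this
    rw [mem_TT0]
    constructor
    · rw [map_add, map_smul, h1, hA.alt]; simp
    · rw [map_add, map_smul, hba, smul_eq_mul]
      linear_combination (B b ((x : V ≃ₗ[F] V) w)) * hA.two⟩
  one_smul w := by
    apply Subtype.ext
    show (w : V) + B b w • a = w
    rw [(mem_TT0.1 w.2).2]; simp
  mul_smul x y w := by
    apply Subtype.ext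
    show (x : V ≃ₗ[F] V) ((y : V ≃ₗ[F] V) w) + B b ((x : V ≃ₗ[F] V) ((y : V ≃ₗ[F] V) w)) • a =
      (x : V ≃ₗ[F] V) ((y : V ≃ₗ[F] V) w + B b ((y : V ≃ₗ[F] V) w) • a) +
        B b ((x : V ≃ₗ[F] V) ((y : V ≃ₗ[F] V) w + B b ((y : V ≃ₗ[F] V) w) • a)) • a
    rw [map_add, map_smul, hfix _ x.2, map_add, map_smul, hba]
    match_scalars
    · ring
    · linear_combination (-B b ((y : V ≃ₗ[F] V) w)) * hA.two

/-- A 2-subgroup of the stabilizer of `a` normalized by the transvections of the stabilizer acts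
trivially on `a^⊥ / a`. -/
theorem core_lemma [FiniteDimensional F V] [Finite F] (hA : Amb B L) (hd : 3 ≤ finrank F V)
    (hP : IsPGroup 2 L) (ha : a ≠ 0) (hfix : ∀ x ∈ L, x a = a)
    (hnorm : ∀ c, B a c = 0 → ∃ t : V ≃ₗ[F] V, (∀ v, t v = v + B v c • c) ∧
      ∀ x ∈ L, t⁻¹ * x * t ∈ L) {x : V ≃ₗ[F] V} (hx : x ∈ L) {v : V} (hv : B a v = 0) :
    ∃ k : F, x v = v + k • a := by
  obtain ⟨b, hb⟩ := hA.exists_ne ha
  have hba : B b a = 1 := by rw [hA.symm]; exact hb
  haveI : Finite V := Module.finite_of_finite F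
  let N : Submodule F V :=
    { carrier := {v | B a v = 0 ∧ ∀ x ∈ L, ∃ k : F, x v = v + k • a}
      add_mem' := by
        rintro v w ⟨h1, h2⟩ ⟨h3, h4⟩
        refine ⟨by rw [map_add, h1, h3, add_zero], fun x hx => ?_⟩
        obtain ⟨k, hk⟩ := h2 x hx
        obtain ⟨l, hl⟩ := h4 x hx
        exact ⟨k + l, by rw [map_add, hk, hl]; module⟩
      zero_mem' := ⟨map_zero _, fun x _ => ⟨0, by simp⟩⟩
      smul_mem' := by
        rintro c v ⟨h1, h2⟩
        refine ⟨by rw [map_smul, h1, smul_zero], fun x hx => ?_⟩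
        obtain ⟨k, hk⟩ := h2 x hx
        exact ⟨c * k, by rw [map_smul, hk]; module⟩ }
  have hN : ∀ v, v ∈ N ↔ (B a v = 0 ∧ ∀ x ∈ L, ∃ k : F, x v = v + k • a) := fun _ => Iff.rfl
  -- a fixed point
  obtain ⟨w, hwN, hw0, hbw⟩ : ∃ w ∈ N, w ≠ 0 ∧ B b w = 0 := by
    letI := actT0 hA hba hfix
    have h0 : (0 : TT0 B a b) ∈ MulAction.fixedPoints L (TT0 B a b) := by
      intro x
      apply Subtype.ext
      show (x : V ≃ₗ[F] V) 0 + B b ((x : V ≃ₗ[F] V) 0) • a = 0
      simp
    have h2 : 2 ∣ Nat.card (TT0 B a b) := by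
      obtain ⟨c, hc1, hc2, hc3⟩ := exists_perp2 B a b ⊥ (by rw [finrank_bot]; omega)
      have hc0 : c ≠ 0 := fun h => hc3 (by rw [h]; exact Submodule.zero_mem _)
      have hc4 : (⟨c, mem_TT0.2 ⟨hc1, hc2⟩⟩ : TT0 B a b) ≠ 0 := fun h =>
        hc0 (congrArg Subtype.val h)
      have h3 : addOrderOf (⟨c, mem_TT0.2 ⟨hc1, hc2⟩⟩ : TT0 B a b) = 2 := by
        apply addOrderOf_eq_prime
        · apply Subtype.ext
          show 2 • c = 0
          rw [two_smul]
          exact hA.add_self c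
        · exact hc4
      rw [← h3]
      exact addOrderOf_dvd_natCard _
    obtain ⟨w, hw, hw'⟩ := hP.exists_fixed_point_of_prime_dvd_card_of_fixed_point (TT0 B a b) h2 h0
    refine ⟨w, (hN _).2 ⟨(mem_TT0.1 w.2).1, fun x hx => ?_⟩, fun h => hw' (Subtype.ext h.symm),
      (mem_TT0.1 w.2).2⟩
    have h4 := congrArg Subtype.val (hw ⟨x, hx⟩)
    have h5 : x (w : V) + B b (x (w : V)) • a = w := h4
    obtain ⟨k, hk⟩ : ∃ k, k = B b (x (w : V)) := ⟨_, rfl⟩
    rw [← hk] at h5
    refine ⟨k, ?_⟩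
    calc x (w : V) = x (w : V) + (k • a + k • a) := by rw [hA.add_self, add_zero]
      _ = (x (w : V) + k • a) + k • a := by abel
      _ = _ := by rw [h5]
  have hwa : ∀ k : F, w ≠ k • a := by
    rintro k rfl
    rw [map_smul, hba, smul_eq_mul, mul_one] at hbw
    rw [hbw, zero_smul] at hw0
    exact hw0 rfl
  have hstep : ∀ c, B a c = 0 → ∀ v ∈ N, v + B v c • c ∈ N := by
    intro c hc v hv
    obtain ⟨t, ht, ht'⟩ := hnorm c hc
    obtain ⟨h1, h2⟩ := (hN v).1 hv
    refine (hN _).2 ⟨by rw [map_add, map_smul, h1, hc]; simp, fun x hx => ?_⟩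
    obtain ⟨k, hk⟩ := h2 _ (ht' x hx)
    have h3 : t⁻¹ (x (t v)) = v + k • a := hk
    refine ⟨k, ?_⟩
    have h4 : t (t⁻¹ (x (t v))) = x (t v) := t.apply_symm_apply _
    rw [← ht, ← h4, h3, map_add, map_smul, ht a, hc, zero_smul, add_zero]
  have hmem : ∀ c, B a c = 0 → B w c ≠ 0 → c ∈ N := by
    intro c hc hwc
    have h1 := N.sub_mem (hstep c hc w hwN) hwN
    rw [add_sub_cancel_left] at h1
    exact (Submodule.smul_mem_iff _ hwc).1 h1
  have hvN : v ∈ N := by
    by_cases h1 : B w v = 0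
    · obtain ⟨y, hy1, hy2⟩ := hA.exists_one ha hwa
      have h2 := hmem (v + y) (by rw [map_add, hv, hy1, add_zero])
        (by rw [map_add, h1, hy2, zero_add]; exact one_ne_zero)
      have h3 := hmem y hy1 (by rw [hy2]; exact one_ne_zero)
      have h4 := N.sub_mem h2 h3
      rwa [add_sub_cancel_right] at h4
    · exact hmem v hv h1
  exact ((hN v).1 hvN).2 x hx

/-- the shape of the elements acting trivially on `a^⊥ / a`. -/
theorem shape (hA : Amb B L) (hba : B b a = 1) {x : V ≃ₗ[F] V} (hx : x ∈ L) (hxa : x a = a)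
    (htriv : ∀ v, B a v = 0 → ∃ k : F, x v = v + k • a) :
    ∃ u, B a u = 0 ∧ B b u = 0 ∧ ∃ c : F, ∀ v, x v = v + B v a • u + (B v u + c * B v a) • a := by
  obtain ⟨u', hu'⟩ : ∃ u', u' = x b + b := ⟨_, rfl⟩
  have hab : B a b = 1 := by rw [hA.symm]; exact hba
  have h1 : B a u' = 0 := by
    have := hA.map hx a b
    rw [hxa, hab] at this
    rw [hu', map_add, this, hab]
    linear_combination hA.two
  obtain ⟨c, hc⟩ : ∃ c, c = B b u' := ⟨_, rfl⟩
  obtain ⟨u, hu⟩ : ∃ u, u = u' + c • a := ⟨_, rfl⟩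
  have h2 : B a u = 0 := by rw [hu, map_add, map_smul, h1, hA.alt]; simp
  have h3 : B b u = 0 := by
    rw [hu, map_add, map_smul, hba, ← hc, smul_eq_mul]
    linear_combination c * hA.two
  have hxb : x b = b + u + c • a := by
    rw [hu, hu']
    match_scalars
    · ring
    · linear_combination (-1) * hA.two
    · linear_combination (-c) * hA.two
  refine ⟨u, h2, h3, c, fun v => ?_⟩
  -- decompose `v`
  obtain ⟨w, hw⟩ : ∃ w, w = v + B v a • b + B v b • a := ⟨_, rfl⟩
  have haw : B a w = 0 := by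
    rw [hw, map_add, map_add, map_smul, map_smul, hab, hA.alt, hA.symm a v]
    simp only [smul_eq_mul]
    linear_combination (B v a) * hA.two
  have hbw : B b w = 0 := by
    rw [hw, map_add, map_add, map_smul, map_smul, hba, hA.alt, hA.symm b v]
    simp only [smul_eq_mul]
    linear_combination (B v b) * hA.two
  obtain ⟨k, hk⟩ := htriv w haw
  have hwa : B w a = 0 := by rw [hA.symm]; exact haw
  have hwb : B w b = 0 := by rw [hA.symm]; exact hbw
  have hk' : k = B w u := by
    have h4 := hA.map hx w b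
    rw [hk, hxb, hwb] at h4
    simp only [map_add, map_smul, LinearMap.add_apply, LinearMap.smul_apply, smul_eq_mul, hA.alt,
      hab, hwa, hwb, h2] at h4
    linear_combination h4 - B w u * hA.two
  have hv : v = w + B v a • b + B v b • a := by
    rw [hw]
    match_scalars
    · ring
    · linear_combination (-B v a) * hA.two
    · linear_combination (-B v b) * hA.two
  have hBvu : B v u = B w u := by
    conv_lhs => rw [hv]
    simp only [map_add, map_smul, LinearMap.add_apply, LinearMap.smul_apply, h2, h3]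
    simp
  have h5 : x v = x w + B v a • x b + B v b • x a := by
    conv_lhs => rw [hv]
    rw [map_add, map_add, map_smul, map_smul]
  rw [h5, hk, hxb, hxa, hk', hBvu]
  conv_rhs => rw [hv]
  obtain ⟨α, hα⟩ : ∃ α, α = B v a := ⟨_, rfl⟩
  have e1 : B (w + B v a • b + B v b • a) a = B v a := by rw [← hv]
  rw [e1, ← hα]
  module

variable [FiniteDimensional F V] [Finite F]

/-- From a large subgroup without transvections. -/
theorem exists_dat (hA : Amb B L) (ha : a ≠ 0) {X : Subgroup (V ≃ₗ[F] V)}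
    (hXL : X ≤ L) (hfix : ∀ x ∈ X, x a = a)
    (htriv : ∀ x ∈ X, ∀ v, B a v = 0 → ∃ k : F, x v = v + k • a)
    (hno : ∀ c, TT B X a c → c = 0)
    (hcard : Nat.card X = Nat.card F ^ (finrank F V - 2)) : ∃ φ, Dat B L a φ := by
  obtain ⟨b, hb⟩ := hA.exists_ne ha
  have hba : B b a = 1 := by rw [hA.symm]; exact hb
  have hAX : Amb B X := ⟨hA.two, hA.alt, hA.nd, hXL.trans hA.le⟩
  haveI : Finite V := Module.finite_of_finite F
  have hsh : ∀ x : X, ∃ u, B a u = 0 ∧ B b u = 0 ∧ ∃ c : F, ∀ v,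
      (x : V ≃ₗ[F] V) v = v + B v a • u + (B v u + c * B v a) • a := fun x =>
    shape hAX hba x.2 (hfix _ x.2) (htriv _ x.2)
  choose u hu1 hu2 c hc using hsh
  have hXX : ∀ x : X, XX B X a (u x) (c x) := fun x => ⟨x, x.2, hc x⟩
  have huniq : ∀ {w : V} {k k' : F}, B a w = 0 → XX B X a w k → XX B X a w k' → k = k' :=
    fun hw h h' => hA.add_eq_zero.1 (hno _ (TT.of_eq hAX hw h h'))
  let ψ : X → TT0 B a b := fun x => ⟨u x, mem_TT0.2 ⟨hu1 x, hu2 x⟩⟩
  have hinj : Function.Injective ψ := by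
    intro x y hxy
    have h1 : u x = u y := congrArg Subtype.val hxy
    have h2 := hXX x
    rw [h1] at h2
    have h3 := huniq (hu1 y) h2 (hXX y)
    apply Subtype.ext
    apply LinearEquiv.ext
    intro v
    rw [hc x, hc y, h1, h3]
  have hTcard : Nat.card (TT0 B a b) = Nat.card X := by
    rw [hcard, Module.natCard_eq_pow_finrank (K := F)]
    have := finrank_TT0 hA hba
    congr 1
    omega
  have hsurj : Function.Surjective ψ :=
    ((Nat.bijective_iff_injective_and_card ψ).2 ⟨hinj, hTcard.symm⟩).2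
  have hex : ∀ w, B a w = 0 → ∃ k, XX B X a w k := by
    intro w hw
    obtain ⟨w', hw'⟩ : ∃ w', w' = w + B b w • a := ⟨_, rfl⟩
    have h1 : B a w' = 0 := by rw [hw', map_add, map_smul, hA.alt, hw]; simp
    have h2 : B b w' = 0 := by
      rw [hw', map_add, map_smul, hba, smul_eq_mul]
      linear_combination (B b w) * hA.two
    obtain ⟨x, hx⟩ := hsurj ⟨w', mem_TT0.2 ⟨h1, h2⟩⟩
    have h3 : u x = w' := congrArg Subtype.val hx
    have h4 := hXX x
    rw [h3, hw', XX.add_smul hAX] at h4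
    exact ⟨_, h4⟩
  have hspec : ∀ w, B a w = 0 → XX B X a w (ph B X a w) := fun w hw =>
    Classical.epsilon_spec (hex w hw)
  refine ⟨ph B X a, ha, fun w hw => ?_, fun w w' hw hw' => ?_, fun t => ?_⟩
  · obtain ⟨g, hg, e⟩ := hspec w hw
    exact ⟨g, hXL hg, e⟩
  · exact huniq (by rw [map_add, hw, hw', add_zero]) (hspec _ (by rw [map_add, hw, hw', add_zero]))
      (XX.mul hAX hw hw' (hspec w hw) (hspec w' hw'))
  · exact huniq (by rw [map_smul, hA.alt, smul_zero]) (hspec _ (by rw [map_smul, hA.alt, smul_zero]))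
      (XX.smul_self hAX a t)

end Core

end Cfsg.Agent.Lib.SpOv98
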