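import Cfsg.Agent.Lib.SpOvJ
import Cfsg.Agent.Lib.SpOvI
import Cfsg.Agent.Lib.ClSympSix
import Cfsg.Agent.Lib.CFCore

/-!
Bridge to matrices, and the exceptional case `Sp₄(2)`.
-/

set_option autoImplicit false

namespace Cfsg.Agent.Lib.SpOv98

open Cfsg.Agent.Lib.SpTrans (isom)
open Cfsg.Agent.Lib.Quad
open Cfsg.Agent.Lib.ClIso Cfsg.Agent.Lib.ClSymp
open Module QuadraticMap Matrix

section Bridge

variable {ι : Type} [Fintype ι] [DecidableEq ι] {F : Type*} [Field F]

theorem rank_eq (g : GL ι F) :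
    ((g : Matrix ι ι F) - 1).rank = finrank F (mov (toLE g)) := by
  rw [Matrix.rank, mov]
  have : ((g : Matrix ι ι F) - 1).mulVecLin = (toLE g).toLinearMap - LinearMap.id := by
    apply LinearMap.ext
    intro v
    show ((g : Matrix ι ι F) - 1) *ᵥ v = (g : Matrix ι ι F) *ᵥ v - v
    rw [Matrix.sub_mulVec, Matrix.one_mulVec]
  rw [this]

theorem sympForm_char_two {n : ℕ} (h2 : (2 : F) = 0) (u v : Fin n ⊕ Fin n → F) :
    ClIso.sympForm (Fin n) F u v =
      ∑ i : Fin n, (u (Sum.inl i) * v (Sum.inr i) + u (Sum.inr i) * v (Sum.inl i)) := by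
  rw [ClIso.sympForm_apply]
  apply Finset.sum_congr rfl
  intro i _
  linear_combination (-(u (Sum.inl i) * v (Sum.inr i))) * h2

end Bridge

section SpFour

variable {F : Type*} [Field F] [Fintype F]

theorem sp_four {L : Subgroup ((Fin 2 ⊕ Fin 2 → F) ≃ₗ[F] (Fin 2 ⊕ Fin 2 → F))} (hF : Fintype.card F = 2)
    (hA : Amb (ClIso.sympForm (Fin 2) F) L) (hno : NoT (ClIso.sympForm (Fin 2) F) L)
    (hall : ∀ v, v ≠ 0 → Good (ClIso.sympForm (Fin 2) F) L v) (h1 : ∀ t : F, t ≠ 0 → t = 1) :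
    Nonempty (L ≃* alternatingGroup (Fin 6)) ∨ Nonempty (L ≃* Equiv.Perm (Fin 5)) := by
  obtain ⟨e0⟩ := ClSympSix.equiv (F := F) hF
  have e : Spg (ClIso.sympForm (Fin 2) F) ≃* Equiv.Perm (Fin 6) := (sympEquiv (Fin 2) F).symm.trans e0
  have hdim : finrank F (Fin 2 ⊕ Fin 2 → F) = 4 := by
    rw [Module.finrank_fintype_fun_eq_card]
    simp
  have h120 := dvd_120 hA hno hdim hall h1
  have hle : L ≤ Spg (ClIso.sympForm (Fin 2) F) := hA.le
  let H : Subgroup (Equiv.Perm (Fin 6)) := (L.subgroupOf (Spg (ClIso.sympForm (Fin 2) F))).map e.toMonoidHom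
  have e1 : L ≃* H := (Subgroup.subgroupOfEquivOfLe hle).symm.trans (e.subgroupMap _)
  have hHcard : 120 ∣ Nat.card H := by
    rw [← Nat.card_congr e1.toEquiv]
    exact h120
  have hne : H ≠ ⊤ := by
    intro htop
    have h3 : L.subgroupOf (Spg (ClIso.sympForm (Fin 2) F)) = ⊤ := by
      have h4 : (L.subgroupOf (Spg (ClIso.sympForm (Fin 2) F))).map e.toMonoidHom =
          (⊤ : Subgroup (Spg (ClIso.sympForm (Fin 2) F))).map e.toMonoidHom := by
        rw [Subgroup.map_top_of_surjective _ e.surjective]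
        exact htop
      exact Subgroup.map_injective e.injective h4
    rw [Subgroup.subgroupOf_eq_top] at h3
    -- a transvection
    obtain ⟨a, ha⟩ : ∃ a : Fin 2 ⊕ Fin 2 → F, a ≠ 0 := by
      haveI : Nontrivial (Fin 2 ⊕ Fin 2 → F) :=
        Module.nontrivial_of_finrank_pos (R := F) (by omega)
      exact exists_ne 0
    have hB : LinearMap.IsAlt (ClIso.sympForm (Fin 2) F) := fun x => hA.alt x
    have h4 : TT (ClIso.sympForm (Fin 2) F) L a 1 := by
      refine ⟨SpTrans.tv (ClIso.sympForm (Fin 2) F) hB a 1, h3 ?_, fun v => ?_⟩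
      · exact SpTrans.tv_mem_isom hB a 1
      · rw [SpTrans.tv_apply, map_zero, smul_zero, add_zero, zero_add]
    exact one_ne_zero (hno a ha 1 h4)
  rcases six_sub H hHcard hne with h3 | h3
  · left
    exact ⟨e1.trans (MulEquiv.subgroupCongr h3)⟩
  · right
    obtain ⟨e2⟩ := h3
    exact ⟨e1.trans e2⟩

end SpFour

end Cfsg.Agent.Lib.SpOv98
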