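import Cfsg.Agent.Lib.SpInf
import Cfsg.Agent.Lib.PresSp
import Cfsg.Agent.Lib.SpTwoGen

/-! Slim amalgams of symplectic groups: the swap of a hyperbolic pair (helper38). -/

set_option autoImplicit false

namespace Cfsg.Agent.Lib.SpPair

open Equiv Matrix Cfsg.Agent.Lib.PresBC Cfsg.Agent.Lib.PresWr Cfsg.Agent.Lib.ClIso Cfsg.Agent.Lib.ClSymp Cfsg.Agent.Lib.ClSymp2
  Cfsg.Agent.Lib.PresSpMod Cfsg.Agent.Lib.PresSec Cfsg.Agent.Lib.PresSpCore Cfsg.Agent.Lib.PresSp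

variable {F : Type*} [Field F] {n : ℕ}

section model

variable {p q : Fin n}

theorem B_inl (k : Fin n) (x : VV F n) : BF F n (ev (Sum.inl k)) x = - x (Sum.inr k) := by
  rw [B_ev]; simp [sg, ng]
theorem B_inr (k : Fin n) (x : VV F n) : BF F n (ev (Sum.inr k)) x = x (Sum.inl k) := by
  rw [B_ev]; simp [sg, ng]

/-- the subgroup fixing all `e_k` and the `f_k`, `k ≠ p, q` -/
def E0 (F : Type*) [Field F] {n : ℕ} (p q : Fin n) : Subgroup (Sg F n) where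
  carrier := {g | (∀ k, (g : VV F n ≃ₗ[F] VV F n) (ev (Sum.inl k)) = ev (Sum.inl k)) ∧
    ∀ k, k ≠ p → k ≠ q → (g : VV F n ≃ₗ[F] VV F n) (ev (Sum.inr k)) = ev (Sum.inr k)}
  one_mem' := ⟨fun _ => rfl, fun _ _ _ => rfl⟩
  mul_mem' := by
    rintro a b ⟨h1, h2⟩ ⟨h3, h4⟩
    exact ⟨fun k => by rw [ClSymp.mul_apply', h3, h1], fun k hk hk' => by rw [ClSymp.mul_apply', h4 k hk hk', h2 k hk hk']⟩
  inv_mem' := by
    rintro a ⟨h1, h2⟩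
    exact ⟨fun k => by conv_lhs => rw [← h1 k]
                       rw [ClSymp.inv_apply_self'],
      fun k hk hk' => by conv_lhs => rw [← h2 k hk hk']
                         rw [ClSymp.inv_apply_self']⟩

theorem vec_ext {x y : VV F n} (h1 : ∀ k, x (Sum.inl k) = y (Sum.inl k)) (h2 : ∀ k, x (Sum.inr k) = y (Sum.inr k)) : x = y := by
  funext a; rcases a with k | k
  · exact h1 k
  · exact h2 k

theorem tv_inl (t : F) (i : Fin n) (x : VV F n) : (tvv t (ev (Sum.inl i)) : VV F n ≃ₗ[F] VV F n) x = x - (t * x (Sum.inr i)) • ev (Sum.inl i) := by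
  rw [tv_apply, B_inl, mul_neg, neg_smul, ← sub_eq_add_neg]

theorem tv_inr (t : F) (i : Fin n) (x : VV F n) : (tvv t (ev (Sum.inr i)) : VV F n ≃ₗ[F] VV F n) x = x + (t * x (Sum.inl i)) • ev (Sum.inr i) := by
  rw [tv_apply, B_inr]

theorem sh_ll (hpq : p ≠ q) (t : F) (x : VV F n) : (shh t (ev (Sum.inl p)) (ev (Sum.inl q)) : VV F n ≃ₗ[F] VV F n) x =
    x - (t * x (Sum.inr p)) • ev (Sum.inl q) - (t * x (Sum.inr q)) • ev (Sum.inl p) := by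
  rw [sh_apply hBF _ _ _ (B_ne (inl_ne_ng _ _)), B_inl, B_inl, mul_neg, mul_neg, neg_smul, neg_smul, ← sub_eq_add_neg, ← sub_eq_add_neg]

theorem sh_lr (hpq : p ≠ q) (t : F) (x : VV F n) : (shh t (ev (Sum.inl p)) (ev (Sum.inr q)) : VV F n ≃ₗ[F] VV F n) x =
    x - (t * x (Sum.inr p)) • ev (Sum.inr q) + (t * x (Sum.inl q)) • ev (Sum.inl p) := by
  rw [sh_apply hBF _ _ _ (B_ne (by simp [ng, hpq.symm])), B_inl, B_inr, mul_neg, neg_smul, ← sub_eq_add_neg]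

theorem sh_rl (hpq : p ≠ q) (t : F) (x : VV F n) : (shh t (ev (Sum.inr p)) (ev (Sum.inl q)) : VV F n ≃ₗ[F] VV F n) x =
    x + (t * x (Sum.inl p)) • ev (Sum.inl q) - (t * x (Sum.inr q)) • ev (Sum.inr p) := by
  rw [sh_apply hBF _ _ _ (B_ne (by simp [ng, hpq.symm])), B_inl, B_inr, mul_neg, neg_smul, ← sub_eq_add_neg]

theorem E0_dec (hpq : p ≠ q) {g : Sg F n} (hg : g ∈ E0 F p q) : ∃ a b c : F,
    g = tvv a (ev (Sum.inl p)) * tvv b (ev (Sum.inl q)) * shh c (ev (Sum.inl p)) (ev (Sum.inl q)) := by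
  obtain ⟨h1, h2⟩ := hg
  have hqp := hpq.symm
  set x := (g : VV F n ≃ₗ[F] VV F n) (ev (Sum.inr p)) with hx
  set y := (g : VV F n ≃ₗ[F] VV F n) (ev (Sum.inr q)) with hy
  have hr : ∀ (k : Fin n) (v : VV F n), (g : VV F n ≃ₗ[F] VV F n) v (Sum.inr k) = v (Sum.inr k) := by
    intro k v
    have := Spg_apply g (ev (Sum.inl k)) v
    rw [h1, B_inl, B_inl] at this
    exact neg_injective this
  have hl : ∀ (k : Fin n) (v : VV F n), k ≠ p → k ≠ q → (g : VV F n ≃ₗ[F] VV F n) v (Sum.inl k) = v (Sum.inl k) := by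
    intro k v hk hk'
    have := Spg_apply g (ev (Sum.inr k)) v
    rw [h2 k hk hk', B_inr, B_inr] at this
    exact this
  have hx1 : x = ev (Sum.inr p) + x (Sum.inl p) • ev (Sum.inl p) + x (Sum.inl q) • ev (Sum.inl q) := by
    apply vec_ext
    · intro k
      by_cases hk : k = p
      · subst hk; simp [ev_inl_inl, ev_inr_inl, hpq]
      · by_cases hk' : k = q
        · subst hk'; simp [ev_inl_inl, ev_inr_inl, hqp]
        · rw [hx, hl k _ hk hk']; simp [ev_inl_inl, ev_inr_inl, hk, hk']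
    · intro k
      rw [hx, hr]; simp [ev_inl_inr, ev_inr_inr]
  have hy1 : y = ev (Sum.inr q) + y (Sum.inl p) • ev (Sum.inl p) + y (Sum.inl q) • ev (Sum.inl q) := by
    apply vec_ext
    · intro k
      by_cases hk : k = p
      · subst hk; simp [ev_inl_inl, ev_inr_inl, hpq]
      · by_cases hk' : k = q
        · subst hk'; simp [ev_inl_inl, ev_inr_inl, hqp]
        · rw [hy, hl k _ hk hk']; simp [ev_inl_inl, ev_inr_inl, hk, hk']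
    · intro k
      rw [hy, hr]; simp [ev_inl_inr, ev_inr_inr]
  have hxy : x (Sum.inl q) = y (Sum.inl p) := by
    have h3 := Spg_apply g (ev (Sum.inr p)) (ev (Sum.inr q))
    rw [← hx, ← hy, hx1] at h3
    simp only [map_add, map_smul, LinearMap.add_apply, LinearMap.smul_apply, B_inl, B_inr, smul_eq_mul] at h3
    have e1 : y (Sum.inr p) = 0 := by rw [hy, hr, ev_inr_inr, if_neg hpq]
    have e2 : y (Sum.inr q) = 1 := by rw [hy, hr, ev_inr_inr, if_pos rfl]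
    rw [e1, e2, ev_inr_inl] at h3
    linear_combination -h3
  refine ⟨-x (Sum.inl p), -y (Sum.inl q), -x (Sum.inl q), ?_⟩
  apply ext_ev
  intro a
  rw [ClSymp.mul_apply', ClSymp.mul_apply', sh_ll hpq, tv_inl, tv_inl]
  rcases a with k | k
  · rw [h1]
    simp [ev_inl_inr]
  · by_cases hk : k = p
    · subst hk
      rw [← hx]
      conv_lhs => rw [hx1]
      simp [ev_inl_inr, ev_inr_inr, hpq, hqp]
      abel
    · by_cases hk' : k = q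
      · subst hk'
        rw [← hy]
        conv_lhs => rw [hy1]
        rw [hxy]
        simp [ev_inl_inr, ev_inr_inr, hpq, hqp]
      · rw [h2 k hk hk']
        simp [ev_inl_inr, ev_inr_inr, Ne.symm hk, Ne.symm hk']

theorem tv_mem_E0 (t : F) : tvv t (ev (Sum.inl p)) ∈ E0 F p q ∧ tvv t (ev (Sum.inl q)) ∈ E0 F p q := by
  refine ⟨⟨?_, ?_⟩, ⟨?_, ?_⟩⟩
  · intro k; rw [tv_inl, ev_inl_inr]; simp
  · intro k hk hk'; rw [tv_inl, ev_inr_inr, if_neg hk.symm]; simp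
  · intro k; rw [tv_inl, ev_inl_inr]; simp
  · intro k hk hk'; rw [tv_inl, ev_inr_inr, if_neg hk'.symm]; simp

theorem sh_mem_E0 (hpq : p ≠ q) (t : F) : shh t (ev (Sum.inl p)) (ev (Sum.inl q)) ∈ E0 F p q := by
  refine ⟨?_, ?_⟩
  · intro k; rw [sh_ll hpq, ev_inl_inr, ev_inl_inr]; simp
  · intro k hk hk'; rw [sh_ll hpq, ev_inr_inr, ev_inr_inr, if_neg hk.symm, if_neg hk'.symm]; simp

/-- `E0` acts trivially on the span of the `e_k` -/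
theorem E0_fix {g : Sg F n} (hg : g ∈ E0 F p q) {v : VV F n} (hv : ∀ k, v (Sum.inr k) = 0) : (g : VV F n ≃ₗ[F] VV F n) v = v := by
  have h1 : v = ∑ k, v (Sum.inl k) • ev (Sum.inl k) := by
    apply vec_ext
    · intro j
      rw [Finset.sum_apply, Finset.sum_eq_single j]
      · simp [ev_inl_inl]
      · intro b _ hb
        simp [ev_inl_inl, hb.symm]
      · simp
    · intro j
      rw [hv, Finset.sum_apply]
      symm
      apply Finset.sum_eq_zero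
      intro b _
      simp [ev_inl_inr]
  rw [h1, map_sum]
  apply Finset.sum_congr rfl
  intro k _
  rw [map_smul, hg.1]

theorem E0_conj {g b : Sg F n} (hg : g ∈ E0 F p q) (h1 : ∀ k j, (b⁻¹ : Sg F n).1 (ev (Sum.inl k)) (Sum.inr j) = 0)
    (h2 : ∀ k, k ≠ p → k ≠ q → (b : VV F n ≃ₗ[F] VV F n) (ev (Sum.inr k)) = ev (Sum.inr k)) : b * g * b⁻¹ ∈ E0 F p q := by
  refine ⟨?_, ?_⟩
  · intro k
    rw [ClSymp.mul_apply', ClSymp.mul_apply', E0_fix hg (h1 k), ClSymp.apply_inv_self']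
  · intro k hk hk'
    have h3 : (b⁻¹ : Sg F n).1 (ev (Sum.inr k)) = ev (Sum.inr k) := by
      conv_lhs => rw [← h2 k hk hk']
      rw [ClSymp.inv_apply_self']
    rw [ClSymp.mul_apply', ClSymp.mul_apply', h3, hg.2 k hk hk', h2 k hk hk']

end model

section pair

variable {Γ : Type*} [Group Γ]

theorem Ag_sq : (Ag 1 : S2 F) * Ag 1 = Dg (-1) := by
  apply Subtype.ext
  show !![0, -(((1 : Fˣ)⁻¹ : Fˣ) : F); ((1 : Fˣ) : F), 0] * !![0, -(((1 : Fˣ)⁻¹ : Fˣ) : F); ((1 : Fˣ) : F), 0] = !![((-1 : Fˣ) : F), 0; 0, (((-1 : Fˣ)⁻¹ : Fˣ) : F)]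
  ext a b
  fin_cases a <;> fin_cases b <;> simp [Matrix.mul_apply, Fin.sum_univ_two]

theorem Dg_coe (x : Fˣ) : ((Dg x : S2 F) : Matrix (Fin 2) (Fin 2) F) = !![(x : F), 0; 0, ((x⁻¹ : Fˣ) : F)] := rfl

theorem z_comm (g : S2 F) : Commute (Dg (-1) : S2 F) g := by
  show _ = _
  apply Subtype.ext
  show (Dg (-1) : S2 F).1 * g.1 = g.1 * (Dg (-1) : S2 F).1
  rw [Dg_coe]
  ext a b
  fin_cases a <;> fin_cases b <;> simp [Matrix.mul_apply, Fin.sum_univ_two]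

theorem zz : (Dg (-1) : S2 F) * Dg (-1) = 1 := by
  apply Subtype.ext
  show (Dg (-1) : S2 F).1 * (Dg (-1) : S2 F).1 = 1
  rw [Dg_coe]
  ext a b
  fin_cases a <;> fin_cases b <;> simp [Matrix.mul_apply, Fin.sum_univ_two]

theorem lo_eq (t : F) : (lo t : S2 F) = Ag 1 * up (-t) * (Ag 1)⁻¹ := by
  rw [eq_mul_inv_iff_mul_eq]
  apply Subtype.ext
  show !![1, 0; t, 1] * !![0, -(((1 : Fˣ)⁻¹ : Fˣ) : F); ((1 : Fˣ) : F), 0] = !![0, -(((1 : Fˣ)⁻¹ : Fˣ) : F); ((1 : Fˣ) : F), 0] * !![1, -t; 0, 1]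
  ext a b
  fin_cases a <;> fin_cases b <;> simp [Matrix.mul_apply, Fin.sum_univ_two]

theorem hat_w_inl (i : Fin n) : (hat F n (co i (Ag 1)) : VV F n ≃ₗ[F] VV F n) (ev (Sum.inl i)) = ev (Sum.inr i) := by
  rw [hat_co_inl]; simp [Ag]
theorem hat_w_inr (i : Fin n) : (hat F n (co i (Ag 1)) : VV F n ≃ₗ[F] VV F n) (ev (Sum.inr i)) = - ev (Sum.inl i) := by
  rw [hat_co_inr]; simp [Ag]
theorem hat_d_inl (i : Fin n) (x : Fˣ) : (hat F n (co i (Dg x)) : VV F n ≃ₗ[F] VV F n) (ev (Sum.inl i)) = (x : F) • ev (Sum.inl i) := by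
  rw [hat_co_inl]; simp [Dg]

def Kf (ψ : Fin n → S2 F →* Γ) (p q : Fin n) (u : F → Γ) : Subgroup Γ :=
  Subgroup.closure (Set.range (ψ p) ∪ Set.range (fun t => ψ q (up t)) ∪ Set.range u)

structure Pr (π : Γ →* Sg F n) (ψ : Fin n → S2 F →* Γ) (p q : Fin n) (u : F → Γ) : Prop where
  hpq : p ≠ q
  hψ : ∀ i g, π (ψ i g) = hat F n (co i g)
  hc : ∀ i j, i ≠ j → ∀ a b, Commute (ψ i a) (ψ j b)
  hu : ∀ t, π (u t) = shh t (ev (Sum.inl p)) (ev (Sum.inl q))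
  k1 : ∀ g ∈ Kf ψ p q u, π g = 1 → g = 1
  k2 : ∀ g ∈ Kf ψ q p u, π g = 1 → g = 1

variable {π : Γ →* Sg F n} {ψ : Fin n → S2 F →* Γ} {p q : Fin n} {u : F → Γ}

theorem Pr.symm (h : Pr π ψ p q u) : Pr π ψ q p u where
  hpq := h.hpq.symm
  hψ := h.hψ
  hc := h.hc
  hu t := by rw [h.hu, shh_symm _ _ _ (B_ne (inl_ne_ng _ _))]
  k1 := h.k2
  k2 := h.k1

theorem mem1 (g : S2 F) : ψ p g ∈ Kf ψ p q u := Subgroup.subset_closure (Or.inl (Or.inl ⟨g, rfl⟩))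
theorem mem2 (t : F) : ψ q (up t) ∈ Kf ψ p q u := Subgroup.subset_closure (Or.inl (Or.inr ⟨t, rfl⟩))
theorem mem3 (t : F) : u t ∈ Kf ψ p q u := Subgroup.subset_closure (Or.inr ⟨t, rfl⟩)

section
variable (h : Pr π ψ p q u)
include h

theorem Pr.inj1 {x y : Γ} (hx : x ∈ Kf ψ p q u) (hy : y ∈ Kf ψ p q u) (he : π x = π y) : x = y := by
  have := h.k1 (x * y⁻¹) (mul_mem hx (inv_mem hy)) (by rw [map_mul, map_inv, he, mul_inv_cancel])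
  exact mul_inv_eq_one.1 this

theorem Pr.pi_up (i : Fin n) (t : F) : π (ψ i (up t)) = tvv (-t) (ev (Sum.inl i)) := by
  rw [h.hψ, ← hat_ell]
  show _ = hat F n (co i (up (- -t)))
  rw [neg_neg]

theorem Pr.u_add (s t : F) : u (s + t) = u s * u t := by
  apply h.inj1 (mem3 _) (mul_mem (mem3 _) (mem3 _))
  rw [map_mul, h.hu, h.hu, h.hu, shh_add _ _ _ _ (B_ne (inl_ne_ng _ _))]

theorem Pr.u_zero : u 0 = 1 := by
  have := h.u_add 0 0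
  rw [add_zero] at this
  exact left_eq_mul.1 this

theorem Pr.u_neg (t : F) : u (-t) = (u t)⁻¹ := by
  rw [eq_inv_iff_mul_eq_one, ← h.u_add, neg_add_cancel, h.u_zero]

theorem Pr.torus (x : Fˣ) (t : F) : ψ p (Dg x) * u t * (ψ p (Dg x))⁻¹ = u (x * t) := by
  apply h.inj1 (mul_mem (mul_mem (mem1 _) (mem3 _)) (inv_mem (mem1 _))) (mem3 _)
  rw [map_mul, map_mul, map_inv, h.hu, h.hu, h.hψ, sh_conj, hat_d_inl, hat_co_fix (a := Sum.inl q) (i := p) h.hpq.symm]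
  have := shh_smul (F := F) t x 1 (ev (Sum.inl p)) (ev (Sum.inl q)) (B_ne (inl_ne_ng q p))
  rw [one_smul, mul_one, mul_comm] at this
  exact this

theorem Pr.cc (t : F) : ψ p (Dg (-1)) * u t * (ψ p (Dg (-1)))⁻¹ = u (-t) := by
  rw [h.torus]; simp

theorem Pr.cc' (t : F) : (ψ p (Dg (-1)))⁻¹ * u t * ψ p (Dg (-1)) = u (-t) := by
  have h1 : (ψ p (Dg (-1)))⁻¹ = ψ p (Dg (-1)) := by
    rw [inv_eq_iff_mul_eq_one, ← map_mul, zz, map_one]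
  have := h.cc t
  rw [h1] at this ⊢
  exact this

theorem Pr.w_inv (t : F) : (ψ p (Ag 1))⁻¹ * u t * ψ p (Ag 1) = ψ p (Ag 1) * u (-t) * (ψ p (Ag 1))⁻¹ := by
  have h1 : ψ p (Ag 1) * ψ p (Ag 1) = ψ p (Dg (-1)) := by rw [← map_mul, Ag_sq]
  rw [← h.cc' t, ← h1]; group

theorem Pr.pi_C (t : F) : π (ψ p (Ag 1) * u t * (ψ p (Ag 1))⁻¹) = shh t (ev (Sum.inr p)) (ev (Sum.inl q)) := by
  rw [map_mul, map_mul, map_inv, h.hψ, h.hu, sh_conj, hat_w_inl, hat_co_fix (a := Sum.inl q) (i := p) h.hpq.symm]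

theorem Pr.pi_B (t : F) : π (ψ q (Ag 1) * u t * (ψ q (Ag 1))⁻¹) = shh t (ev (Sum.inl p)) (ev (Sum.inr q)) := by
  rw [map_mul, map_mul, map_inv, h.hψ, h.hu, sh_conj, hat_w_inl, hat_co_fix (a := Sum.inl p) (i := q) h.hpq]

end

def U0 (ψ : Fin n → S2 F →* Γ) (p q : Fin n) (u : F → Γ) : Subgroup Γ :=
  Subgroup.closure (Set.range (fun t => ψ p (up t)) ∪ Set.range (fun t => ψ q (up t)) ∪ Set.range u)

theorem U0_symm : U0 ψ p q u = U0 ψ q p u := by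
  unfold U0
  rw [Set.union_comm (Set.range (fun t => ψ p (up t)))]

theorem U0_le : U0 ψ p q u ≤ Kf ψ p q u := by
  unfold U0
  rw [Subgroup.closure_le]
  rintro _ ((⟨t, rfl⟩ | ⟨t, rfl⟩) | ⟨t, rfl⟩)
  · exact mem1 _
  · exact mem2 _
  · exact mem3 _

theorem U0_le' : U0 ψ p q u ≤ Kf ψ q p u := U0_symm.le.trans U0_le

theorem mu1 (t : F) : ψ p (up t) ∈ U0 ψ p q u := Subgroup.subset_closure (Or.inl (Or.inl ⟨t, rfl⟩))
theorem mu2 (t : F) : ψ q (up t) ∈ U0 ψ p q u := Subgroup.subset_closure (Or.inl (Or.inr ⟨t, rfl⟩))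
theorem mu3 (t : F) : u t ∈ U0 ψ p q u := Subgroup.subset_closure (Or.inr ⟨t, rfl⟩)

section
variable (h : Pr π ψ p q u)
include h

theorem Pr.lift {g : Sg F n} (hg : g ∈ E0 F p q) : ∃ x ∈ U0 ψ p q u, π x = g := by
  obtain ⟨a, b, c, rfl⟩ := E0_dec h.hpq hg
  refine ⟨ψ p (up (-a)) * ψ q (up (-b)) * u c, mul_mem (mul_mem (mu1 _) (mu2 _)) (mu3 _), ?_⟩
  rw [map_mul, map_mul, h.pi_up, h.pi_up, h.hu, neg_neg, neg_neg]

theorem Pr.pi_U0 {x : Γ} (hx : x ∈ U0 ψ p q u) : π x ∈ E0 F p q := by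
  have : U0 ψ p q u ≤ (E0 F p q).comap π := by
    unfold U0
    rw [Subgroup.closure_le]
    rintro _ ((⟨t, rfl⟩ | ⟨t, rfl⟩) | ⟨t, rfl⟩)
    · show π (ψ p (up t)) ∈ E0 F p q
      rw [h.pi_up]; exact (tv_mem_E0 _).1
    · show π (ψ q (up t)) ∈ E0 F p q
      rw [h.pi_up]; exact (tv_mem_E0 _).2
    · show π (u t) ∈ E0 F p q
      rw [h.hu]; exact sh_mem_E0 h.hpq _
  exact this hx

theorem Pr.conjU {b : Γ} (hb : b ∈ Kf ψ p q u) (hn : ∀ g ∈ E0 F p q, π b * g * (π b)⁻¹ ∈ E0 F p q) {x : Γ} (hx : x ∈ U0 ψ p q u) :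
    b * x * b⁻¹ ∈ U0 ψ p q u := by
  obtain ⟨y, hy, he⟩ := h.lift (hn _ (h.pi_U0 hx))
  have : b * x * b⁻¹ = y := by
    apply h.inj1 (mul_mem (mul_mem hb (U0_le hx)) (inv_mem hb)) (U0_le hy)
    rw [map_mul, map_mul, map_inv, he]
  rw [this]; exact hy

theorem Pr.C_mem (t : F) : ψ p (Ag 1) * u t * (ψ p (Ag 1))⁻¹ ∈ Kf ψ p q u := mul_mem (mul_mem (mem1 _) (mem3 _)) (inv_mem (mem1 _))

theorem Pr.C_norm (t : F) {x : Γ} (hx : x ∈ U0 ψ p q u) :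
    (ψ p (Ag 1) * u t * (ψ p (Ag 1))⁻¹) * x * (ψ p (Ag 1) * u t * (ψ p (Ag 1))⁻¹)⁻¹ ∈ U0 ψ p q u := by
  apply h.conjU (h.C_mem t) _ hx
  intro g hg
  rw [h.pi_C]
  apply E0_conj hg
  · intro k j
    rw [sh_inv hBF _ _ _ (B_ne (by simp [ng, h.hpq.symm])), sh_rl h.hpq]
    simp [ev_inl_inr]
  · intro k hk hk'
    rw [sh_rl h.hpq, ev_inr_inl, ev_inr_inr, if_neg (Ne.symm hk')]
    simp

theorem Pr.B_norm (t : F) {x : Γ} (hx : x ∈ U0 ψ p q u) :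
    (ψ q (Ag 1) * u t * (ψ q (Ag 1))⁻¹) * x * (ψ q (Ag 1) * u t * (ψ q (Ag 1))⁻¹)⁻¹ ∈ U0 ψ p q u := by
  rw [U0_symm]
  exact h.symm.C_norm t (U0_symm.le hx)

end

/-- `n` -/
def nn (ψ : Fin n → S2 F →* Γ) (p q : Fin n) (u : F → Γ) : Γ :=
  (ψ q (Ag 1) * u 1 * (ψ q (Ag 1))⁻¹) * (ψ p (Ag 1) * u (-1) * (ψ p (Ag 1))⁻¹) * (ψ q (Ag 1) * u 1 * (ψ q (Ag 1))⁻¹)

def nn' (ψ : Fin n → S2 F →* Γ) (p q : Fin n) (u : F → Γ) : Γ :=
  (ψ p (Ag 1) * u (-1) * (ψ p (Ag 1))⁻¹) * (ψ q (Ag 1) * u 1 * (ψ q (Ag 1))⁻¹) * (ψ p (Ag 1) * u (-1) * (ψ p (Ag 1))⁻¹)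

section
variable (h : Pr π ψ p q u)
include h

theorem Pr.nn_act : (∀ x ∈ ({(ev (Sum.inl p), - ev (Sum.inl q)), (ev (Sum.inl q), ev (Sum.inl p)), (ev (Sum.inr p), - ev (Sum.inr q)), (ev (Sum.inr q), ev (Sum.inr p))} : Set (VV F n × VV F n)),
    (π (nn ψ p q u) : VV F n ≃ₗ[F] VV F n) x.1 = x.2 ∧ (π (nn' ψ p q u) : VV F n ≃ₗ[F] VV F n) x.1 = x.2) ∧
    ∀ a : Zs n, ix a ≠ p → ix a ≠ q → (π (nn ψ p q u) : VV F n ≃ₗ[F] VV F n) (ev a) = ev a := by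
  have hpq := h.hpq
  have hqp := hpq.symm
  have e1 : π (nn ψ p q u) = shh 1 (ev (Sum.inl p)) (ev (Sum.inr q)) * shh (-1) (ev (Sum.inr p)) (ev (Sum.inl q)) * shh 1 (ev (Sum.inl p)) (ev (Sum.inr q)) := by
    rw [nn, map_mul, map_mul, h.pi_B, h.pi_C]
  have e2 : π (nn' ψ p q u) = shh (-1) (ev (Sum.inr p)) (ev (Sum.inl q)) * shh 1 (ev (Sum.inl p)) (ev (Sum.inr q)) * shh (-1) (ev (Sum.inr p)) (ev (Sum.inl q)) := by
    rw [nn', map_mul, map_mul, h.pi_B, h.pi_C]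
  refine ⟨?_, ?_⟩
  · rintro x (rfl | rfl | rfl | rfl) <;> rw [e1, e2] <;>
      simp only [ClSymp.mul_apply', sh_lr hpq, sh_rl hpq] <;>
      simp [ev_inl_inl, ev_inl_inr, ev_inr_inl, ev_inr_inr, hpq, hqp]
  · intro a h1 h2
    rw [e1]
    rcases a with k | k
    · have h1 : k ≠ p := h1
      have h2 : k ≠ q := h2
      simp only [ClSymp.mul_apply', sh_lr hpq, sh_rl hpq]
      simp [ev_inl_inl, ev_inl_inr, ev_inr_inl, ev_inr_inr, hpq, hqp, h1.symm, h2.symm]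
    · have h1 : k ≠ p := h1
      have h2 : k ≠ q := h2
      simp only [ClSymp.mul_apply', sh_lr hpq, sh_rl hpq]
      simp [ev_inl_inl, ev_inl_inr, ev_inr_inl, ev_inr_inr, hpq, hqp, h1.symm, h2.symm]

theorem Pr.nn_norm {x : Γ} (hx : x ∈ U0 ψ p q u) : nn ψ p q u * x * (nn ψ p q u)⁻¹ ∈ U0 ψ p q u ∧ nn' ψ p q u * x * (nn' ψ p q u)⁻¹ ∈ U0 ψ p q u := by
  have e : ∀ a b y : Γ, a * b * a * y * (a * b * a)⁻¹ = a * (b * (a * y * a⁻¹) * b⁻¹) * a⁻¹ := by intro a b y; group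
  constructor
  · unfold nn
    rw [e]
    exact h.B_norm 1 (h.C_norm (-1) (h.B_norm 1 hx))
  · unfold nn'
    rw [e]
    exact h.C_norm (-1) (h.B_norm 1 (h.C_norm (-1) hx))

theorem Pr.swapU {m : Γ} (hm : ∀ x ∈ U0 ψ p q u, m * x * m⁻¹ ∈ U0 ψ p q u) (h1 : (π m : VV F n ≃ₗ[F] VV F n) (ev (Sum.inl p)) = - ev (Sum.inl q))
    (h2 : (π m : VV F n ≃ₗ[F] VV F n) (ev (Sum.inl q)) = ev (Sum.inl p)) :
    (∀ s, m * ψ p (up s) * m⁻¹ = ψ q (up s)) ∧ (∀ s, m * ψ q (up s) * m⁻¹ = ψ p (up s)) ∧ ∀ s, m * u s * m⁻¹ = u (-s) := by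
  refine ⟨fun s => ?_, fun s => ?_, fun s => ?_⟩
  · apply h.inj1 (U0_le (hm _ (mu1 _))) (U0_le (mu2 _))
    rw [map_mul, map_mul, map_inv, h.pi_up, h.pi_up, tv_conj, h1, ← neg_one_smul F (ev (Sum.inl q)), tv_smul]
    congr 1; ring
  · apply h.inj1 (U0_le (hm _ (mu2 _))) (U0_le (mu1 _))
    rw [map_mul, map_mul, map_inv, h.pi_up, h.pi_up, tv_conj, h2]
  · apply h.inj1 (U0_le (hm _ (mu3 _))) (U0_le (mu3 _))
    rw [map_mul, map_mul, map_inv, h.hu, h.hu, sh_conj, h1, h2, shh_symm _ (ev (Sum.inl p)) _ (B_ne (inl_ne_ng _ _))]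
    have := shh_smul (F := F) s (-1) 1 (ev (Sum.inl q)) (ev (Sum.inl p)) (B_ne (inl_ne_ng _ _))
    rw [one_smul, neg_one_smul, mul_one, mul_neg_one] at this
    exact this

theorem Pr.swap_nn : (∀ s, nn ψ p q u * ψ p (up s) * (nn ψ p q u)⁻¹ = ψ q (up s)) ∧
    (∀ s, nn ψ p q u * ψ q (up s) * (nn ψ p q u)⁻¹ = ψ p (up s)) ∧ ∀ s, nn ψ p q u * u s * (nn ψ p q u)⁻¹ = u (-s) :=
  h.swapU (fun _ hx => (h.nn_norm hx).1) (h.nn_act.1 (ev (Sum.inl p), - ev (Sum.inl q)) (by simp)).1 (h.nn_act.1 (ev (Sum.inl q), ev (Sum.inl p)) (by simp)).1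

theorem Pr.swap_nn' : (∀ s, nn' ψ p q u * ψ p (up s) * (nn' ψ p q u)⁻¹ = ψ q (up s)) ∧
    (∀ s, nn' ψ p q u * ψ q (up s) * (nn' ψ p q u)⁻¹ = ψ p (up s)) ∧ ∀ s, nn' ψ p q u * u s * (nn' ψ p q u)⁻¹ = u (-s) :=
  h.swapU (fun _ hx => (h.nn_norm hx).2) (h.nn_act.1 (ev (Sum.inl p), - ev (Sum.inl q)) (by simp)).2 (h.nn_act.1 (ev (Sum.inl q), ev (Sum.inl p)) (by simp)).2

theorem Pr.nn_W : nn ψ p q u * (ψ p (Ag 1) * ψ q (Ag 1)) = ψ p (Ag 1) * ψ q (Ag 1) * nn' ψ p q u := by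
  have hc := h.hc p q h.hpq (Ag 1) (Ag 1)
  have hB : ∀ t, (ψ q (Ag 1) * u t * (ψ q (Ag 1))⁻¹) * (ψ p (Ag 1) * ψ q (Ag 1)) = ψ p (Ag 1) * ψ q (Ag 1) * (ψ p (Ag 1) * u (-t) * (ψ p (Ag 1))⁻¹) := by
    intro t
    rw [← h.w_inv t]
    calc _ = ψ q (Ag 1) * u t * (ψ q (Ag 1))⁻¹ * (ψ q (Ag 1) * ψ p (Ag 1)) := by rw [hc.eq]
      _ = (ψ q (Ag 1) * ψ p (Ag 1)) * ((ψ p (Ag 1))⁻¹ * u t * ψ p (Ag 1)) := by group
      _ = _ := by rw [← hc.eq]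
  have hC : ∀ t, (ψ p (Ag 1) * u t * (ψ p (Ag 1))⁻¹) * (ψ p (Ag 1) * ψ q (Ag 1)) = ψ p (Ag 1) * ψ q (Ag 1) * (ψ q (Ag 1) * u (-t) * (ψ q (Ag 1))⁻¹) := by
    intro t
    rw [← h.symm.w_inv t]
    group
  have h1 := hB 1
  have h2 := hC (-1)
  rw [neg_neg] at h2
  unfold nn nn'
  set W := ψ p (Ag 1) * ψ q (Ag 1)
  set B1 := ψ q (Ag 1) * u 1 * (ψ q (Ag 1))⁻¹
  set C1 := ψ p (Ag 1) * u (-1) * (ψ p (Ag 1))⁻¹
  calc B1 * C1 * B1 * W = B1 * C1 * (B1 * W) := by simp only [mul_assoc]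
    _ = B1 * (C1 * W) * C1 := by rw [h1]; simp only [mul_assoc]
    _ = B1 * W * B1 * C1 := by rw [h2]; simp only [mul_assoc]
    _ = _ := by rw [h1]; simp only [mul_assoc]

theorem Pr.nn_psi (g : S2 F) : nn ψ p q u * ψ p g * (nn ψ p q u)⁻¹ = ψ q g ∧ nn ψ p q u * ψ q g * (nn ψ p q u)⁻¹ = ψ p g := by
  have hW := h.nn_W
  have hc : ∀ a b, Commute (ψ p a) (ψ q b) := h.hc p q h.hpq
  have conjW : ∀ x y : Γ, nn' ψ p q u * x * (nn' ψ p q u)⁻¹ = y →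
      nn ψ p q u * (ψ p (Ag 1) * ψ q (Ag 1) * x * (ψ p (Ag 1) * ψ q (Ag 1))⁻¹) * (nn ψ p q u)⁻¹ = ψ p (Ag 1) * ψ q (Ag 1) * y * (ψ p (Ag 1) * ψ q (Ag 1))⁻¹ := by
    intro x y hxy
    rw [← hxy]
    calc _ = (nn ψ p q u * (ψ p (Ag 1) * ψ q (Ag 1))) * x * (nn ψ p q u * (ψ p (Ag 1) * ψ q (Ag 1)))⁻¹ := by group
      _ = _ := by rw [hW]; group
  have cp : ∀ a : S2 F, ψ p (Ag 1) * ψ q (Ag 1) * ψ p a * (ψ p (Ag 1) * ψ q (Ag 1))⁻¹ = ψ p (Ag 1 * a * (Ag 1)⁻¹) := by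
    intro a
    rw [map_mul, map_mul, map_inv]
    calc _ = ψ p (Ag 1) * (ψ q (Ag 1) * ψ p a) * (ψ q (Ag 1))⁻¹ * (ψ p (Ag 1))⁻¹ := by group
      _ = _ := by rw [(hc a (Ag 1)).symm.eq]; group
  have cq : ∀ a : S2 F, ψ p (Ag 1) * ψ q (Ag 1) * ψ q a * (ψ p (Ag 1) * ψ q (Ag 1))⁻¹ = ψ q (Ag 1 * a * (Ag 1)⁻¹) := by
    intro a
    calc _ = ψ p (Ag 1) * (ψ q (Ag 1 * a * (Ag 1)⁻¹)) * (ψ p (Ag 1))⁻¹ := by rw [map_mul, map_mul, map_inv]; group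
      _ = _ := by rw [(hc _ _).eq]; group
  constructor
  · have : (⊤ : Subgroup (S2 F)) ≤ MonoidHom.eqLocus ((MulAut.conj (nn ψ p q u)).toMonoidHom.comp (ψ p)) (ψ q) := by
      intro x _
      apply Cfsg.Agent.Lib.SpTwoGen.S2_gen
      · intro t
        exact h.swap_nn.1 t
      · intro t
        have := conjW _ _ (h.swap_nn'.1 (-t))
        rw [cp, cq, ← lo_eq] at this
        exact this
    exact this (Subgroup.mem_top g)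
  · have : (⊤ : Subgroup (S2 F)) ≤ MonoidHom.eqLocus ((MulAut.conj (nn ψ p q u)).toMonoidHom.comp (ψ q)) (ψ p) := by
      intro x _
      apply Cfsg.Agent.Lib.SpTwoGen.S2_gen
      · intro t
        exact h.swap_nn.2.1 t
      · intro t
        have := conjW _ _ (h.swap_nn'.2.1 (-t))
        rw [cp, cq, ← lo_eq] at this
        exact this
    exact this (Subgroup.mem_top g)

end

/-- the swap -/
def PP (ψ : Fin n → S2 F →* Γ) (p q : Fin n) (u : F → Γ) : Γ :=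
  (ψ p (Ag 1) * ψ q (Ag 1))⁻¹ * u 1 * (ψ p (Ag 1) * ψ q (Ag 1)) * u 1 * (ψ p (Ag 1) * ψ q (Ag 1))⁻¹ * u 1

section
variable (h : Pr π ψ p q u)
include h

theorem Pr.PP_symm : PP ψ p q u = PP ψ q p u := by
  unfold PP
  rw [(h.hc p q h.hpq _ _).eq]

theorem Pr.PP_eq : PP ψ p q u = (ψ q (Dg (-1)))⁻¹ * nn ψ p q u := by
  have hc := h.hc p q h.hpq (Ag 1) (Ag 1)
  have e1 : (ψ q (Ag 1))⁻¹ * nn ψ p q u * ψ q (Ag 1) = u 1 * (ψ p (Ag 1) * ψ q (Ag 1)) * u 1 * (ψ p (Ag 1) * ψ q (Ag 1))⁻¹ * u 1 := by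
    unfold nn
    have := h.symm.w_inv (-1)
    rw [neg_neg] at this
    calc _ = u 1 * ((ψ q (Ag 1))⁻¹ * ψ p (Ag 1) * u (-1) * ((ψ q (Ag 1))⁻¹ * ψ p (Ag 1))⁻¹) * u 1 := by group
      _ = u 1 * (ψ p (Ag 1) * ((ψ q (Ag 1))⁻¹ * u (-1) * ψ q (Ag 1)) * (ψ p (Ag 1))⁻¹) * u 1 := by rw [(hc.symm.inv_left).eq]; group
      _ = _ := by rw [this]; group
  have e2 : nn ψ p q u * ψ q (Ag 1) = ψ p (Ag 1) * nn ψ p q u := by rw [← (h.nn_psi (Ag 1)).2]; group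
  have e3 : ψ q (Dg (-1)) = ψ q (Ag 1) * ψ q (Ag 1) := by rw [← map_mul, Ag_sq]
  have e4 : PP ψ p q u = (ψ p (Ag 1) * ψ q (Ag 1))⁻¹ * (u 1 * (ψ p (Ag 1) * ψ q (Ag 1)) * u 1 * (ψ p (Ag 1) * ψ q (Ag 1))⁻¹ * u 1) := by
    unfold PP; simp only [mul_assoc]
  rw [e4, ← e1, mul_assoc _ (nn ψ p q u), e2, e3]
  calc _ = (ψ q (Ag 1))⁻¹ * (ψ p (Ag 1))⁻¹ * ((ψ q (Ag 1))⁻¹ * ψ p (Ag 1)) * nn ψ p q u := by group
    _ = _ := by rw [(hc.symm.inv_left).eq]; group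

theorem Pr.P_psi (g : S2 F) : PP ψ p q u * ψ p g * (PP ψ p q u)⁻¹ = ψ q g := by
  rw [h.PP_eq]
  calc _ = (ψ q (Dg (-1)))⁻¹ * (nn ψ p q u * ψ p g * (nn ψ p q u)⁻¹) * ψ q (Dg (-1)) := by group
    _ = _ := by
      rw [(h.nn_psi g).1, mul_assoc, ← ((z_comm g).map (ψ q)).eq, inv_mul_cancel_left]

theorem Pr.P_psi' (g : S2 F) : PP ψ p q u * ψ q g * (PP ψ p q u)⁻¹ = ψ p g := by
  rw [h.PP_symm]; exact h.symm.P_psi g

theorem Pr.P_u (s : F) : PP ψ p q u * u s * (PP ψ p q u)⁻¹ = u s := by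
  rw [h.PP_eq]
  calc _ = (ψ q (Dg (-1)))⁻¹ * (nn ψ p q u * u s * (nn ψ p q u)⁻¹) * ψ q (Dg (-1)) := by group
    _ = _ := by rw [h.swap_nn.2.2, h.symm.cc', neg_neg]

theorem Pr.P_sq : PP ψ p q u * PP ψ p q u = 1 := by
  have hc : ∀ a b, Commute (ψ p a) (ψ q b) := h.hc p q h.hpq
  have hz : ∀ i, ψ i (Dg (-1)) * ψ i (Dg (-1)) = 1 := by intro i; rw [← map_mul, zz, map_one]
  have hB : ∀ t, ψ p (Dg (-1)) * (ψ q (Ag 1) * u t * (ψ q (Ag 1))⁻¹) * (ψ p (Dg (-1)))⁻¹ = ψ q (Ag 1) * u (-t) * (ψ q (Ag 1))⁻¹ := by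
    intro t
    rw [← h.cc t]
    calc _ = (ψ p (Dg (-1)) * ψ q (Ag 1)) * u t * (ψ p (Dg (-1)) * ψ q (Ag 1))⁻¹ := by group
      _ = _ := by rw [(hc _ _).eq]; group
  have hC : ∀ t, ψ p (Dg (-1)) * (ψ p (Ag 1) * u t * (ψ p (Ag 1))⁻¹) * (ψ p (Dg (-1)))⁻¹ = ψ p (Ag 1) * u (-t) * (ψ p (Ag 1))⁻¹ := by
    intro t
    rw [← h.cc t]
    calc _ = (ψ p (Dg (-1)) * ψ p (Ag 1)) * u t * (ψ p (Dg (-1)) * ψ p (Ag 1))⁻¹ := by group
      _ = _ := by rw [((z_comm (Ag 1)).map (ψ p)).eq]; group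
  have h1 : ψ p (Dg (-1)) * nn ψ p q u * (ψ p (Dg (-1)))⁻¹ = (nn ψ p q u)⁻¹ := by
    unfold nn
    calc _ = (ψ p (Dg (-1)) * (ψ q (Ag 1) * u 1 * (ψ q (Ag 1))⁻¹) * (ψ p (Dg (-1)))⁻¹) * (ψ p (Dg (-1)) * (ψ p (Ag 1) * u (-1) * (ψ p (Ag 1))⁻¹) * (ψ p (Dg (-1)))⁻¹) *
        (ψ p (Dg (-1)) * (ψ q (Ag 1) * u 1 * (ψ q (Ag 1))⁻¹) * (ψ p (Dg (-1)))⁻¹) := by group
      _ = _ := by rw [hB, hC, neg_neg, h.u_neg]; group
  have h2 : ψ p (Dg (-1)) * nn ψ p q u * (ψ p (Dg (-1)))⁻¹ * nn ψ p q u = 1 := by rw [h1, inv_mul_cancel]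
  have h3 : nn ψ p q u * (ψ p (Dg (-1)))⁻¹ = (ψ q (Dg (-1)))⁻¹ * nn ψ p q u := by
    rw [← (h.nn_psi (Dg (-1))).1]; group
  have h4 : nn ψ p q u * (ψ q (Dg (-1)))⁻¹ = (ψ p (Dg (-1)))⁻¹ * nn ψ p q u := by
    rw [← (h.nn_psi (Dg (-1))).2]; group
  have h5 : ψ p (Dg (-1)) * (ψ q (Dg (-1)))⁻¹ * nn ψ p q u * nn ψ p q u = 1 := by
    rw [← h2, mul_assoc _ (nn ψ p q u) ((ψ p (Dg (-1)))⁻¹), h3]; simp only [mul_assoc]
  have h6 : (ψ p (Dg (-1)))⁻¹ = ψ p (Dg (-1)) := inv_eq_of_mul_eq_one_left (hz p)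
  rw [h.PP_eq]
  calc _ = (ψ q (Dg (-1)))⁻¹ * (nn ψ p q u * (ψ q (Dg (-1)))⁻¹) * nn ψ p q u := by simp only [mul_assoc]
    _ = (ψ q (Dg (-1)))⁻¹ * ψ p (Dg (-1)) * nn ψ p q u * nn ψ p q u := by rw [h4, h6]; simp only [mul_assoc]
    _ = ψ p (Dg (-1)) * (ψ q (Dg (-1)))⁻¹ * nn ψ p q u * nn ψ p q u := by rw [((hc _ _).inv_right).eq]
    _ = 1 := h5

theorem Pr.P_inv : (PP ψ p q u)⁻¹ = PP ψ p q u := inv_eq_of_mul_eq_one_left h.P_sq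

theorem Pr.pi_P : π (PP ψ p q u) = hat F n (pe (swap p q)) := by
  have hpq := h.hpq
  have hqp := hpq.symm
  have e1 : PP ψ p q u = ψ q (Dg (-1)) * nn ψ p q u := by
    rw [h.PP_eq, inv_eq_of_mul_eq_one_left (show ψ q (Dg (-1)) * ψ q (Dg (-1)) = 1 by rw [← map_mul, zz, map_one])]
  have hd : ∀ i : Fin n, (hat F n (co i (Dg (-1))) : VV F n ≃ₗ[F] VV F n) (ev (Sum.inr i)) = - ev (Sum.inr i) := by
    intro i; rw [hat_co_inr]; simp [Dg]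
  obtain ⟨h1, h2⟩ := h.nn_act
  apply ext_ev
  intro a
  rw [e1, map_mul, ClSymp.mul_apply', h.hψ, hat_pe]
  rcases a with k | k
  · by_cases hk : k = p
    · subst hk
      rw [(h1 (ev (Sum.inl k), - ev (Sum.inl q)) (by simp)).1, Sum.map_inl, swap_apply_left, map_neg, hat_d_inl]
      simp
    · by_cases hk' : k = q
      · subst hk'
        rw [(h1 (ev (Sum.inl k), ev (Sum.inl p)) (by simp)).1, Sum.map_inl, swap_apply_right]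
        exact hat_co_fix (a := Sum.inl p) (i := k) hpq _
      · rw [h2 (Sum.inl k) hk hk', Sum.map_inl, swap_apply_of_ne_of_ne hk hk']
        exact hat_co_fix (a := Sum.inl k) (i := q) hk' _
  · by_cases hk : k = p
    · subst hk
      rw [(h1 (ev (Sum.inr k), - ev (Sum.inr q)) (by simp)).1, Sum.map_inr, swap_apply_left, map_neg, hd]
      simp
    · by_cases hk' : k = q
      · subst hk'
        rw [(h1 (ev (Sum.inr k), ev (Sum.inr p)) (by simp)).1, Sum.map_inr, swap_apply_right]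
        exact hat_co_fix (a := Sum.inr p) (i := k) hpq _
      · rw [h2 (Sum.inr k) hk hk', Sum.map_inr, swap_apply_of_ne_of_ne hk hk']
        exact hat_co_fix (a := Sum.inr k) (i := q) hk' _

end

/-- anything commuting with `ψ p`, `ψ q`, `u` commutes with the swap -/
theorem PP_comm {x : Γ} (h1 : ∀ g, Commute x (ψ p g)) (h2 : ∀ g, Commute x (ψ q g)) (h3 : ∀ t, Commute x (u t)) : Commute x (PP ψ p q u) := by
  unfold PP
  have hW : Commute x (ψ p (Ag 1) * ψ q (Ag 1)) := (h1 _).mul_right (h2 _)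
  exact ((((hW.inv_right.mul_right (h3 _)).mul_right hW).mul_right (h3 _)).mul_right hW.inv_right).mul_right (h3 _)

end pair

end Cfsg.Agent.Lib.SpPair
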