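import Cfsg.Agent.Lib.SpTri
import Cfsg.Agent.Lib.SymPres
import Cfsg.Agent.Lib.PresSp2

/-! Slim amalgams of symplectic groups: assembly (helper38). -/

set_option autoImplicit false

namespace Cfsg.Agent.Lib.SpSlim

open Equiv Matrix Cfsg.Agent.Lib.PresBC Cfsg.Agent.Lib.PresWr Cfsg.Agent.Lib.ClIso Cfsg.Agent.Lib.ClSymp Cfsg.Agent.Lib.ClSymp2
  Cfsg.Agent.Lib.PresSpMod Cfsg.Agent.Lib.PresSec Cfsg.Agent.Lib.PresSpCore Cfsg.Agent.Lib.SpPair Cfsg.Agent.Lib.SpTri
  Cfsg.Agent.Lib.SpInf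
open Cfsg.Agent.Lib.PresSp hiding cj

variable {F : Type*} [Field F] {Γ : Type*} [Group Γ]

structure Slim {n : ℕ} (π : Γ →* Sg F n) (ψ : Fin n → S2 F →* Γ) (U : Fin n → F → Γ) : Prop where
  pr : ∀ i j : Fin n, i.1 + 1 = j.1 → Pr π ψ i j (U i)
  cU : ∀ i j k : Fin n, i.1 + 1 = j.1 → k ≠ i → k ≠ j → ∀ g t, Commute (ψ k g) (U i t)
  cUU : ∀ i j : Fin n, i.1 + 1 < n → j.1 + 1 < n → i ≠ j → ∀ s t, Commute (U i s) (U j t)

variable {m : ℕ} {π : Γ →* Sg F (m + 1)} {ψ : Fin (m + 1) → S2 F →* Γ} {U : Fin (m + 1) → F → Γ}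

open Classical in
noncomputable def sK (ψ : Fin (m + 1) → S2 F →* Γ) (U : Fin (m + 1) → F → Γ) (k : ℕ) : Γ :=
  if h : k < m then PP ψ ⟨k, by omega⟩ ⟨k + 1, by omega⟩ (U ⟨k, by omega⟩) else 1

theorem sK_eq (i j : Fin (m + 1)) (h : i.1 + 1 = j.1) : sK ψ U i.1 = PP ψ i j (U i) := by
  have h1 : i.1 < m := by have := j.2; omega
  have h2 : (⟨i.1 + 1, by omega⟩ : Fin (m + 1)) = j := Fin.ext h
  rw [sK, dif_pos h1, h2]

theorem Slim.tri (S : Slim π ψ U) (i j k : Fin (m + 1)) (hij : i.1 + 1 = j.1) (hjk : j.1 + 1 = k.1) : Tri π ψ i j k (U i) (U j) where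
  h := S.pr i j hij
  k := S.pr j k hjk
  hpr := by intro h; have := congrArg Fin.val h; omega
  cu g t := S.cU i j k hij (by intro h; have := congrArg Fin.val h; omega) (by intro h; have := congrArg Fin.val h; omega) g t
  cv g t := S.cU j k i hjk (by intro h; have := congrArg Fin.val h; omega) (by intro h; have := congrArg Fin.val h; omega) g t
  cuv s t := S.cUU i j (by have := j.2; omega) (by have := k.2; omega) (by intro h; have := congrArg Fin.val h; omega) s t

theorem Slim.PP_comm' (S : Slim π ψ U) (i j k : Fin (m + 1)) (hij : i.1 + 1 = j.1) (hk : k ≠ i) (hk' : k ≠ j) (g : S2 F) : Commute (ψ k g) (PP ψ i j (U i)) :=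
  PP_comm (fun a => (S.pr i j hij).hc _ _ hk _ _) (fun a => (S.pr i j hij).hc _ _ hk' _ _) (fun t => S.cU i j k hij hk hk' g t)

theorem Slim.PP_far (S : Slim π ψ U) (i j k l : Fin (m + 1)) (hij : i.1 + 1 = j.1) (hkl : k.1 + 1 = l.1) (h : j.1 < k.1) : Commute (PP ψ i j (U i)) (PP ψ k l (U k)) := by
  refine PP_comm (fun a => ?_) (fun a => ?_) (fun t => ?_)
  · exact (S.PP_comm' i j k hij (by intro h; have := congrArg Fin.val h; omega) (by intro h; have := congrArg Fin.val h; omega) a).symm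
  · exact (S.PP_comm' i j l hij (by intro h; have := congrArg Fin.val h; omega) (by intro h; have := congrArg Fin.val h; omega) a).symm
  · refine (PP_comm (fun a => ?_) (fun a => ?_) (fun t' => ?_)).symm
    · exact (S.cU k l i hkl (by intro h; have := congrArg Fin.val h; omega) (by intro h; have := congrArg Fin.val h; omega) a t).symm
    · exact (S.cU k l j hkl (by intro h; have := congrArg Fin.val h; omega) (by intro h; have := congrArg Fin.val h; omega) a t).symm
    · exact S.cUU k i (by have := l.2; omega) (by have := j.2; have := k.2; omega) (by intro h; have := congrArg Fin.val h; omega) t t'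

theorem Slim.coxA (hF : ∃ a : F, a ≠ 0 ∧ a ≠ 1) (S : Slim π ψ U) : SymPres.CoxA m (sK ψ U) where
  sq i hi := by
    rw [sK, dif_pos hi]
    exact (S.pr ⟨i, by omega⟩ ⟨i + 1, by omega⟩ rfl).P_sq
  braid i hi := by
    rw [sK, dif_pos (show i < m by omega), sK, dif_pos hi]
    exact (S.tri ⟨i, by omega⟩ ⟨i + 1, by omega⟩ ⟨i + 2, by omega⟩ rfl rfl).braid hF
  comm i j hij hj := by
    rw [sK, dif_pos (show i < m by omega), sK, dif_pos hj]
    exact S.PP_far ⟨i, by omega⟩ ⟨i + 1, by omega⟩ ⟨j, by omega⟩ ⟨j + 1, by omega⟩ rfl rfl hij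

theorem perm_induction {P : Perm (Fin (m + 1)) → Prop} (h1 : P 1) (hmul : ∀ σ τ, P σ → P τ → P (σ * τ))
    (hs : ∀ i j : Fin (m + 1), i.1 + 1 = j.1 → P (swap i j)) (σ : Perm (Fin (m + 1))) : P σ := by
  have h2 : σ ∈ Submonoid.closure (Set.range fun i : Fin m => swap i.castSucc i.succ) := by
    rw [Equiv.Perm.mclosure_swap_castSucc_succ]; exact Submonoid.mem_top _
  induction h2 using Submonoid.closure_induction with
  | mem x hx => obtain ⟨i, rfl⟩ := hx; exact hs _ _ (by simp)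
  | one => exact h1
  | mul x y _ _ hx hy => exact hmul x y hx hy

theorem Slim.exists_delta (hF : ∃ a : F, a ≠ 0 ∧ a ≠ 1) (hm : 1 ≤ m) (S : Slim π ψ U) : ∃ δ : Wr (S2 F) (m + 1) →* Γ, (∀ i a, δ (co i a) = ψ i a) ∧
    (∀ i j : Fin (m + 1), i.1 + 1 = j.1 → δ (pe (swap i j)) = PP ψ i j (U i)) ∧ ∀ d, π (δ d) = hat F (m + 1) d := by
  obtain ⟨φ, hφ⟩ := SymPres.exists_hom (S.coxA hF)
  have hφ' : ∀ i j : Fin (m + 1), i.1 + 1 = j.1 → φ (swap i j) = PP ψ i j (U i) := by
    intro i j hij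
    have h1 : i.1 < m := by have := j.2; omega
    have e1 : (⟨i.1, h1⟩ : Fin m).castSucc = i := rfl
    have e2 : (⟨i.1, h1⟩ : Fin m).succ = j := Fin.ext hij
    have h2 := hφ ⟨i.1, h1⟩
    rw [e1, e2] at h2
    rw [h2]
    exact sK_eq i j hij
  have p0 := S.pr ⟨0, by omega⟩ ⟨1, by omega⟩ rfl
  have hact : ∀ σ i a, φ σ * ψ i a * (φ σ)⁻¹ = ψ (σ i) a := by
    intro σ
    apply perm_induction (P := fun σ => ∀ i a, φ σ * ψ i a * (φ σ)⁻¹ = ψ (σ i) a)
    · intro i a; rw [map_one]; simp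
    · intro σ τ h1 h2 i a
      rw [map_mul]
      calc _ = φ σ * (φ τ * ψ i a * (φ τ)⁻¹) * (φ σ)⁻¹ := by group
        _ = _ := by rw [h2, h1]; rfl
    · intro i j hij k a
      rw [hφ' i j hij]
      by_cases hk : k = i
      · subst hk; rw [swap_apply_left]; exact (S.pr k j hij).P_psi a
      · by_cases hk' : k = j
        · subst hk'; rw [swap_apply_right]; exact (S.pr i k hij).P_psi' a
        · rw [swap_apply_of_ne_of_ne hk hk']
          exact to_conj (S.PP_comm' i j k hij hk hk' a).symm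
  obtain ⟨δ, hδ1, hδ2⟩ := exists_wr φ ψ hact (fun i j hij a b => p0.hc i j hij a b)
  refine ⟨δ, hδ2, fun i j hij => by rw [hδ1, hφ' i j hij], ?_⟩
  have : π.comp δ = hat F (m + 1) := by
    apply hom_ext
    · intro σ
      apply perm_induction (P := fun σ => (π.comp δ) (pe σ) = hat F (m + 1) (pe σ))
      · rw [map_one, map_one, map_one]
      · intro σ τ h1 h2; rw [map_mul, map_mul, map_mul, h1, h2]
      · intro i j hij
        rw [MonoidHom.comp_apply, hδ1, hφ' i j hij, (S.pr i j hij).pi_P]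
    · intro i a
      rw [MonoidHom.comp_apply, hδ2, p0.hψ]
  intro d
  rw [← this]; rfl

/-- permutations fixing `0`, `1` are products of adjacent transpositions -/
theorem stab_mem {K : Subgroup (Perm (Fin (m + 1)))} (hK : ∀ i j : Fin (m + 1), i.1 + 1 = j.1 → 2 ≤ i.1 → swap i j ∈ K) {σ : Perm (Fin (m + 1))}
    (h0 : ∀ i : Fin (m + 1), i.1 < 2 → σ i = i) : σ ∈ K := by
  classical
  set S : Set (Perm (Fin (m + 1))) := {x | ∃ i j : Fin (m + 1), i.1 + 1 = j.1 ∧ 2 ≤ i.1 ∧ x = swap i j} with hS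
  have hle : Subgroup.closure S ≤ K := by
    rw [Subgroup.closure_le]
    rintro _ ⟨i, j, h1, h2, rfl⟩
    exact hK i j h1 h2
  apply hle
  rw [mem_closure_isSwap]
  · refine ⟨Set.toFinite _, ?_⟩
    intro x
    by_cases hx : x.1 < 2
    · rw [h0 x hx]; exact MulAction.mem_orbit_self x
    · have hσx : 2 ≤ (σ x).1 := by
        by_contra hlt
        have h1 := h0 (σ x) (by omega)
        have h2 := σ.injective h1
        rw [h2] at hlt
        omega
      have key : ∀ k : ℕ, ∀ y z : Fin (m + 1), y.1 + k = z.1 → 2 ≤ y.1 → z ∈ MulAction.orbit (Subgroup.closure S) y := by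
        intro k
        induction k with
        | zero => intro y z h1 _; rw [show y = z from Fin.ext (by omega)]; exact MulAction.mem_orbit_self _
        | succ k ih =>
          intro y z h1 h2
          have hz := z.2
          have h3 := ih y ⟨z.1 - 1, by omega⟩ (by simp; omega) h2
          have h4 : z ∈ MulAction.orbit (Subgroup.closure S) (⟨z.1 - 1, by omega⟩ : Fin (m + 1)) := by
            refine ⟨⟨swap ⟨z.1 - 1, by omega⟩ z, Subgroup.subset_closure ⟨_, _, by simp; omega, by simp; omega, rfl⟩⟩, ?_⟩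
            exact swap_apply_left _ _
          rw [← MulAction.orbit_eq_iff] at h3 h4
          rw [← h3, ← MulAction.orbit_eq_iff]
          exact h4
      by_cases hle2 : x.1 ≤ (σ x).1
      · exact key ((σ x).1 - x.1) x (σ x) (by omega) (by omega)
      · have := key (x.1 - (σ x).1) (σ x) x (by omega) hσx
        exact MulAction.mem_orbit_symm.1 this
  · rintro _ ⟨i, j, h1, h2, rfl⟩
    exact ⟨i, j, by intro h; have := congrArg Fin.val h; omega, rfl⟩

section final

variable (hF : ∃ a : F, a ≠ 0 ∧ a ≠ 1) (S : Slim π ψ U) {δ : Wr (S2 F) (m + 1) →* Γ} (hδ1 : ∀ i a, δ (co i a) = ψ i a)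
    (hδ2 : ∀ i j : Fin (m + 1), i.1 + 1 = j.1 → δ (pe (swap i j)) = PP ψ i j (U i)) (hδ3 : ∀ d, π (δ d) = hat F (m + 1) d)

include hF S hδ2 in
theorem Slim.chain {p q : Fin (m + 1)} (hp : p.1 = 0) (hq : q.1 = 1) : ∀ k : ℕ, ∀ i j : Fin (m + 1), i.1 = k → i.1 + 1 = j.1 →
    ∃ σ : Perm (Fin (m + 1)), σ p = i ∧ σ q = j ∧ ∀ t, δ (pe σ) * U p t * (δ (pe σ))⁻¹ = U i t := by
  intro k
  induction k with
  | zero =>
    intro i j hi hij
    have e1 : i = p := Fin.ext (by omega)
    have e2 : j = q := Fin.ext (by omega)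
    refine ⟨1, ?_, ?_, ?_⟩
    · rw [e1]; rfl
    · rw [e2]; rfl
    · intro t; rw [map_one, map_one, e1]; simp
  | succ k ih =>
    intro i j hi hij
    have hi2 := i.2
    obtain ⟨σ, h1, h2, h3⟩ := ih ⟨k, by omega⟩ i rfl (by simp; omega)
    have T := S.tri ⟨k, by omega⟩ i j (by simp; omega) hij
    set a : Fin (m + 1) := ⟨k, by omega⟩ with ha
    have hai : a.1 + 1 = i.1 := by rw [ha]; simp; omega
    have hne1 : a ≠ i := by intro h; have := congrArg Fin.val h; omega
    have hne2 : a ≠ j := by intro h; have := congrArg Fin.val h; omega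
    have hne3 : i ≠ j := by intro h; have := congrArg Fin.val h; omega
    refine ⟨swap a i * swap i j * σ, ?_, ?_, ?_⟩
    · rw [Perm.mul_apply, h1, Perm.mul_apply, swap_apply_of_ne_of_ne hne1 hne2, swap_apply_left]
    · rw [Perm.mul_apply, h2, Perm.mul_apply, swap_apply_left, swap_apply_of_ne_of_ne hne2.symm hne3.symm]
    · intro t
      rw [map_mul, map_mul, map_mul, map_mul, hδ2 a i hai, hδ2 i j hij]
      have h4 := T.chain hF t
      rw [← h3 t] at h4
      rw [← h4]; group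

include hF S hδ1 hδ2 hδ3 in
theorem Slim.spRl {p q : Fin (m + 1)} (hp : p.1 = 0) (hq : q.1 = 1) : SpRl p q δ (U p 1) := by
  have P := S.pr p q (by omega)
  have hpq := P.hpq
  have hs : ∀ σ : Perm (Fin (m + 1)), σ p = p → σ q = q → ∀ t, Commute (δ (pe σ)) (U p t) := by
    intro σ h1 h2 t
    have : σ ∈ ((Subgroup.centralizer {U p t}).comap δ).comap (pe (A := S2 F)) := by
      apply stab_mem
      · intro i j hij hi
        rw [Subgroup.mem_comap, Subgroup.mem_comap, Subgroup.mem_centralizer_singleton_iff, hδ2 i j hij]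
        refine (PP_comm (fun a => ?_) (fun a => ?_) (fun t' => ?_)).symm
        · exact (S.cU p q i (by omega) (by intro h; have := congrArg Fin.val h; omega) (by intro h; have := congrArg Fin.val h; omega) a t).symm
        · exact (S.cU p q j (by omega) (by intro h; have := congrArg Fin.val h; omega) (by intro h; have := congrArg Fin.val h; omega) a t).symm
        · exact S.cUU p i (by have := q.2; omega) (by have := j.2; omega) (by intro h; have := congrArg Fin.val h; omega) t t'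
      · intro i hi
        rcases Nat.lt_or_ge i.1 1 with h3 | h3
        · rw [show i = p from Fin.ext (by omega)]; exact h1
        · rw [show i = q from Fin.ext (by omega)]; exact h2
    rw [Subgroup.mem_comap, Subgroup.mem_comap, Subgroup.mem_centralizer_singleton_iff] at this
    exact this
  have st : StRel p q δ (U p 1) := by
    refine ⟨hpq, ?_, ?_, fun σ h1 h2 => hs σ h1 h2 1, ?_⟩
    · intro i h1 h2 g
      rw [hδ1]; exact S.cU p q i (by omega) h1 h2 g 1
    · intro x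
      rw [map_mul, hδ1, hδ1]
      apply of_conj
      have h1 := P.symm.torus x⁻¹ 1
      have h2 := P.torus x (((x⁻¹ : Fˣ) : F) * 1)
      calc _ = ψ p (Dg x) * (ψ q (Dg x⁻¹) * U p 1 * (ψ q (Dg x⁻¹))⁻¹) * (ψ p (Dg x))⁻¹ := by group
        _ = _ := by rw [h1, h2, mul_one, ← Units.val_mul, mul_inv_cancel, Units.val_one]
    · rw [hδ2 p q (by omega)]
      exact of_conj (P.P_u 1)
  have hconj : ∀ σ : Perm (Fin (m + 1)), σ p = p → σ q = q → ∀ y, δ (pe σ) * Sc p q δ (U p 1) y * (δ (pe σ))⁻¹ = Sc p q δ (U p 1) (hat F (m + 1) (pe σ) * y * (hat F (m + 1) (pe σ))⁻¹) :=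
    fun σ hp hq y => Sec_conj st.st (pe_mem σ) y
  refine ⟨st, ?_, ?_, ?_, ?_, ?_, ?_⟩
  · intro s
    show Commute (δ (co p (up (-s)))) _
    rw [hδ1]
    exact Pr_K0 P _ _
  · intro t
    have e1 : Sc p q δ (U p 1) (shh t (ev (Sum.inl q)) (ev (Sum.inr p))) = cj ψ p (U p) t := by
      by_cases ht : t = 0
      · have h0 : cj ψ p (U p) 0 = 1 := by unfold cj; rw [P.u_zero]; group
        rw [ht, h0]
        exact st.Y_zero (a := Sum.inl q) (b := Sum.inr p) hpq.symm
      · have hTo : To (F := F) p q (co p (Ag 1) * co p (Dg (Units.mk0 t ht))) (shh t (ev (Sum.inl q)) (ev (Sum.inr p))) := by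
          refine ⟨?_, ?_⟩
          · apply mem_ND
            intro i
            by_cases hi : i = p
            · subst hi
              right
              refine ⟨Units.mk0 t ht, ?_⟩
              rw [← map_mul, co_left_same]
              apply Subtype.ext
              show (Ag 1 : S2 F).1 * (Dg (Units.mk0 t ht) : S2 F).1 = (Ag (Units.mk0 t ht) : S2 F).1
              rw [Dg_coe]
              ext a b
              fin_cases a <;> fin_cases b <;> simp [Matrix.mul_apply, Fin.sum_univ_two, Ag]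
            · left
              exact ⟨1, by rw [← map_mul, co_left_ne hi, Dg_one]⟩
          · rw [sh_conj, map_mul, ClSymp.mul_apply', ClSymp.mul_apply', hat_d_inl, map_smul, hat_w_inl, hat_co_fix (a := Sum.inl q) (i := p) hpq.symm,
              hat_co_fix (a := Sum.inl q) (i := p) hpq.symm]
            have h1 := shh_smul (F := F) 1 t 1 (ev (Sum.inr p)) (ev (Sum.inl q)) (B_ne (by simp [ng, hpq.symm]))
            rw [one_smul, one_mul, mul_one] at h1
            refine h1.trans ?_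
            exact shh_symm _ _ _ (B_ne (by simp [ng, hpq.symm]))
        rw [sc_eq st hTo, map_mul, hδ1, hδ1]
        have h2 := P.torus (Units.mk0 t ht) 1
        rw [Units.val_mk0, mul_one] at h2
        unfold cj
        rw [← h2]; group
    rw [e1]
    show δ (co p (lo t)) * U p 1 * (δ (co p (lo t)))⁻¹ * (U p 1)⁻¹ = _ * δ (co q (up (- -t)))
    rw [neg_neg, hδ1, hδ1]
    apply P.inj1 (mul_mem (mul_mem (mul_mem (mem1 _) (mem3 _)) (inv_mem (mem1 _))) (inv_mem (mem3 _))) (mul_mem (cj_mem _) (mem2 _))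
    have h1 := model_rb (F := F) hpq t
    rw [map_mul, map_mul, map_mul, map_mul, map_inv, map_inv, P.hu, Pr_pi_lo P, Pr_pi_cj P, P.pi_up]
    rw [hat_ell, hat_ell] at h1
    rw [h1, shh_symm _ (ev (Sum.inr p)) _ (B_ne (by simp [ng, hpq.symm]))]
  · refine ⟨mf F p q, mf_mem, ?_⟩
    have hTo : To (F := F) p q (co p (Ag 1) * co q (Ag 1)) (shh 1 (ev (Sum.inr p)) (ev (Sum.inr q))) := by
      refine ⟨?_, ?_⟩
      · have h : ∀ i : Fin (m + 1), (co i (Ag 1) : Wr (S2 F) (m + 1)) ∈ ND F (m + 1) := by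
          intro i
          apply mem_ND
          intro j
          by_cases hj : j = i
          · subst hj; right; exact ⟨_, co_left_same _ _⟩
          · left; exact ⟨1, by rw [co_left_ne hj, Dg_one]⟩
        exact mul_mem (h p) (h q)
      · rw [sh_conj, map_mul, ClSymp.mul_apply', ClSymp.mul_apply', hat_co_fix (a := Sum.inl p) (i := q) hpq, hat_w_inl, hat_w_inl,
          hat_co_fix (a := Sum.inr q) (i := p) hpq.symm]
    have e1 : δ (co p (Ag 1) * co q (Ag 1)) = ψ p (Ag 1) * ψ q (Ag 1) := by rw [map_mul, hδ1, hδ1]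
    rw [sc_eq st hTo, mf, map_mul δ (co p (Ag 1) * co q (Ag 1)), e1, hδ2 p q (by omega)]
    unfold PP
    group
  · intro r hrp hrq
    have hr2 : 2 ≤ r.1 := by
      by_contra h
      rcases Nat.lt_or_ge r.1 1 with h3 | h3
      · exact hrp (Fin.ext (by omega))
      · exact hrq (Fin.ext (by omega))
    obtain ⟨z, hz⟩ : ∃ z : Fin (m + 1), z.1 = 2 := ⟨⟨2, by have := r.2; omega⟩, rfl⟩
    have hzp : z ≠ p := by intro h; have := congrArg Fin.val h; omega
    have hzq : z ≠ q := by intro h; have := congrArg Fin.val h; omega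
    have T := S.tri p q z (by omega) (by omega)
    have hT4 : To (F := F) p q (co p (Ag 1) * pe (swap q z)) (shh 1 (ev (Sum.inl z)) (ev (Sum.inr p))) := by
      refine ⟨mul_mem ?_ (pe_mem _), ?_⟩
      · apply mem_ND
        intro j
        by_cases hj : j = p
        · subst hj; right; exact ⟨_, co_left_same _ _⟩
        · left; exact ⟨1, by rw [co_left_ne hj, Dg_one]⟩
      · rw [sh_conj, map_mul, ClSymp.mul_apply', ClSymp.mul_apply', hat_pe, hat_pe, Sum.map_inl, Sum.map_inl, swap_apply_left, swap_apply_of_ne_of_ne hpq hzp.symm,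
          hat_w_inl, hat_co_fix (a := Sum.inl z) (i := p) hzp]
        exact shh_symm _ _ _ (B_ne (by simp [ng, hzp]))
    have hT5 : To (F := F) p q (pe (swap p q) * pe (swap q z)) (shh 1 (ev (Sum.inl q)) (ev (Sum.inl z))) := by
      refine ⟨mul_mem (pe_mem _) (pe_mem _), ?_⟩
      rw [sh_conj, map_mul, ClSymp.mul_apply', ClSymp.mul_apply', hat_pe, hat_pe, hat_pe, hat_pe]
      simp only [Sum.map_inl, swap_apply_left, swap_apply_of_ne_of_ne hpq hzp.symm, swap_apply_of_ne_of_ne hzp hzq]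
    have h7 := T.rc hF
    have e4 : Sc p q δ (U p 1) (shh 1 (ev (Sum.inl z)) (ev (Sum.inr p))) = ψ p (Ag 1) * (PP ψ q z (U q) * U p 1 * (PP ψ q z (U q))⁻¹) * (ψ p (Ag 1))⁻¹ := by
      rw [sc_eq st hT4, map_mul, hδ1, hδ2 q z (by omega)]; group
    have e5 : Sc p q δ (U p 1) (shh 1 (ev (Sum.inl q)) (ev (Sum.inl z))) = U q 1 := by
      rw [sc_eq st hT5, map_mul, hδ2 p q (by omega), hδ2 q z (by omega), ← T.chain hF]; group
    rw [← e4, ← e5] at h7
    obtain ⟨σ, hσp, hσq, hσr⟩ := exists_perm (n := m + 1) hzp hzq hrp hrq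
    have h8 := congrArg (fun z => δ (pe σ) * z * (δ (pe σ))⁻¹) h7
    have e : ∀ x y : Γ, δ (pe σ) * (x * y * x⁻¹ * y⁻¹) * (δ (pe σ))⁻¹ = (δ (pe σ) * x * (δ (pe σ))⁻¹) * (δ (pe σ) * y * (δ (pe σ))⁻¹) *
      (δ (pe σ) * x * (δ (pe σ))⁻¹)⁻¹ * (δ (pe σ) * y * (δ (pe σ))⁻¹)⁻¹ := by intro x y; group
    rw [e, hconj σ hσp hσq, hconj σ hσp hσq, (hs σ hσp hσq 1).eq, mul_inv_cancel_right, sh_conj, sh_conj, hat_pe, hat_pe, hat_pe] at h8
    simp only [Sum.map_inl, Sum.map_inr, hσp, hσq, hσr] at h8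
    exact h8
  · intro r hrp hrq
    have hr2 : 2 ≤ r.1 := by
      by_contra h
      rcases Nat.lt_or_ge r.1 1 with h3 | h3
      · exact hrp (Fin.ext (by omega))
      · exact hrq (Fin.ext (by omega))
    obtain ⟨z, hz⟩ : ∃ z : Fin (m + 1), z.1 = 2 := ⟨⟨2, by have := r.2; omega⟩, rfl⟩
    have hzp : z ≠ p := by intro h; have := congrArg Fin.val h; omega
    have hzq : z ≠ q := by intro h; have := congrArg Fin.val h; omega
    have T := S.tri p q z (by omega) (by omega)
    have hT6 : To (F := F) p q (pe (swap q z)) (shh 1 (ev (Sum.inl p)) (ev (Sum.inl z))) := by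
      refine ⟨pe_mem _, ?_⟩
      rw [sh_conj, hat_pe, hat_pe, Sum.map_inl, Sum.map_inl, swap_apply_left, swap_apply_of_ne_of_ne hpq hzp.symm]
    have h7 := T.rd hF
    rw [← hδ2 q z (by omega), ← sc_eq st hT6] at h7
    obtain ⟨σ, hσp, hσq, hσr⟩ := exists_perm (n := m + 1) hzp hzq hrp hrq
    have h8 := commute_conj (δ (pe σ)) h7
    rw [hconj σ hσp hσq, (hs σ hσp hσq 1).eq, mul_inv_cancel_right, sh_conj, hat_pe, hat_pe] at h8
    simp only [Sum.map_inl, Sum.map_inr, hσp, hσr] at h8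
    exact h8
  · intro r s hrp hrq hsp hsq hrs
    have h4 : 3 < m + 1 := by
      have h5 : ({p, q, r, s} : Finset (Fin (m + 1))).card = 4 := by
        rw [Finset.card_insert_of_notMem, Finset.card_insert_of_notMem, Finset.card_insert_of_notMem, Finset.card_singleton]
        · simpa using hrs
        · simp [hrq.symm, hsq.symm]
        · simp [hpq, hrp.symm, hsp.symm]
      have h6 := Finset.card_le_univ ({p, q, r, s} : Finset (Fin (m + 1)))
      rw [h5, Fintype.card_fin] at h6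
      omega
    obtain ⟨z, hz⟩ : ∃ z : Fin (m + 1), z.1 = 2 := ⟨⟨2, by omega⟩, rfl⟩
    obtain ⟨y, hy⟩ : ∃ y : Fin (m + 1), y.1 = 3 := ⟨⟨3, by omega⟩, rfl⟩
    have hzp : z ≠ p := by intro h; have := congrArg Fin.val h; omega
    have hzq : z ≠ q := by intro h; have := congrArg Fin.val h; omega
    have hyp : y ≠ p := by intro h; have := congrArg Fin.val h; omega
    have hyq : y ≠ q := by intro h; have := congrArg Fin.val h; omega
    have hzy : z ≠ y := by intro h; have := congrArg Fin.val h; omega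
    obtain ⟨τ, h1, h2, h3⟩ := S.chain hF hδ2 hp hq 2 z y hz (by omega)
    have hT7 : To (F := F) p q (pe τ) (shh 1 (ev (Sum.inl z)) (ev (Sum.inl y))) := by
      refine ⟨pe_mem _, ?_⟩
      rw [sh_conj, hat_pe, hat_pe, Sum.map_inl, Sum.map_inl, h1, h2]
    have h7 : Commute (Sc p q δ (U p 1) (shh 1 (ev (Sum.inl z)) (ev (Sum.inl y)))) (U p 1) := by
      rw [sc_eq st hT7, h3]
      exact S.cUU z p (by have := y.2; omega) (by have := q.2; omega) hzp 1 1
    obtain ⟨σ, hσp, hσq, hσr, hσs⟩ := SymPres.exists_perm_four hpq hzp.symm hyp.symm hzq.symm hyq.symm hzy hpq hrp.symm hsp.symm hrq.symm hsq.symm hrs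
    have h8 := commute_conj (δ (pe σ)) h7
    rw [hconj σ hσp hσq, (hs σ hσp hσq 1).eq, mul_inv_cancel_right, sh_conj, hat_pe, hat_pe] at h8
    simp only [Sum.map_inl, hσr, hσs] at h8
    exact h8

end final

/-- **the main theorem on slim amalgams** -/
theorem Slim.bijective (hF : ∃ a : F, a ≠ 0 ∧ a ≠ 1) (hm : 1 ≤ m) (S : Slim π ψ U)
    (htop : Subgroup.closure ((⋃ i, Set.range (ψ i)) ∪ {x | ∃ i t, i.1 + 1 < m + 1 ∧ x = U i t}) = ⊤) : Function.Bijective π := by
  obtain ⟨δ, hδ1, hδ2, hδ3⟩ := S.exists_delta hF hm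
  obtain ⟨p, hp⟩ : ∃ p : Fin (m + 1), p.1 = 0 := ⟨⟨0, by omega⟩, rfl⟩
  obtain ⟨q, hq⟩ : ∃ q : Fin (m + 1), q.1 = 1 := ⟨⟨1, by omega⟩, rfl⟩
  have P := S.pr p q (by omega)
  have R := S.spRl hF hδ1 hδ2 hδ3 hp hq
  have hu : π (U p 1) = uh p q := P.hu 1
  constructor
  · refine R.injective ?_ π hδ3 hu
    rw [eq_top_iff, ← htop, Subgroup.closure_le]
    set K := Subgroup.closure (Set.range δ ∪ {U p 1}) with hK
    have hd : ∀ d, δ d ∈ K := fun d => Subgroup.subset_closure (Or.inl ⟨d, rfl⟩)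
    have hψ : ∀ i a, ψ i a ∈ K := fun i a => by rw [← hδ1]; exact hd _
    have h1 : ∀ t, U p t ∈ K := by
      intro t
      by_cases ht : t = 0
      · rw [ht, P.u_zero]; exact one_mem _
      · have h2 := P.torus (Units.mk0 t ht) 1
        rw [Units.val_mk0, mul_one] at h2
        rw [← h2]
        exact mul_mem (mul_mem (hψ _ _) (Subgroup.subset_closure (Or.inr rfl))) (inv_mem (hψ _ _))
    rintro x (hx | ⟨i, t, hi, rfl⟩)
    · obtain ⟨i, a, rfl⟩ := Set.mem_iUnion.1 hx
      exact hψ i a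
    · obtain ⟨σ, -, -, h3⟩ := S.chain hF hδ2 hp hq i.1 i ⟨i.1 + 1, hi⟩ rfl rfl
      rw [← h3]
      exact mul_mem (mul_mem (hd _) (h1 _)) (inv_mem (hd _))
  · rw [← MonoidHom.range_eq_top, eq_top_iff, ← gen_top P.hpq, Subgroup.closure_le]
    rintro x (⟨d, rfl⟩ | hx)
    · exact ⟨δ d, hδ3 d⟩
    · rw [Set.mem_singleton_iff] at hx
      rw [hx]; exact ⟨U p 1, hu⟩

end Cfsg.Agent.Lib.SpSlim
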