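import Cfsg.Agent.Lib.SpSlim

/-! Slim amalgams of symplectic groups: graphs (helper38). -/

set_option autoImplicit false

namespace Cfsg.Agent.Lib.SpSlim

open Equiv Matrix Cfsg.Agent.Lib.PresBC Cfsg.Agent.Lib.PresWr Cfsg.Agent.Lib.ClIso Cfsg.Agent.Lib.ClSymp Cfsg.Agent.Lib.ClSymp2
  Cfsg.Agent.Lib.PresSpMod Cfsg.Agent.Lib.PresSec Cfsg.Agent.Lib.PresSpCore Cfsg.Agent.Lib.SpPair Cfsg.Agent.Lib.SpTri
  Cfsg.Agent.Lib.SpInf
open Cfsg.Agent.Lib.PresSp hiding cj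

variable {F : Type*} [Field F] {Γ : Type*} [Group Γ]

section restrict
variable {n : ℕ} {π : Γ →* Sg F n} {ψ : Fin n → S2 F →* Γ} {U : Fin n → F → Γ} (K : Subgroup Γ)

def rψ (hψ : ∀ i a, ψ i a ∈ K) (i : Fin n) : S2 F →* K := (ψ i).codRestrict K (hψ i)
def rU (hU : ∀ i t, U i t ∈ K) (i : Fin n) (t : F) : K := ⟨U i t, hU i t⟩

theorem Slim.restrict (S : Slim π ψ U) (hψ : ∀ i a, ψ i a ∈ K) (hU : ∀ i t, U i t ∈ K) : Slim (π.comp K.subtype) (rψ K hψ) (rU K hU) where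
  pr i j hij := by
    have P := S.pr i j hij
    have hK : ∀ p q : Fin n, (Kf (rψ K hψ) p q (rU K hU i)).map K.subtype ≤ Kf ψ p q (U i) := by
      intro p q
      rw [Subgroup.map_le_iff_le_comap]
      unfold Kf
      rw [Subgroup.closure_le]
      rintro _ ((⟨t, rfl⟩ | ⟨t, rfl⟩) | ⟨t, rfl⟩)
      · exact mem1 _
      · exact mem2 _
      · exact mem3 _
    refine ⟨P.hpq, fun i g => P.hψ i g, ?_, P.hu, ?_, ?_⟩
    · intro i j hij a b
      exact Subtype.ext (P.hc i j hij a b)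
    · intro g hg h1
      exact Subtype.ext (P.k1 g.1 (hK _ _ ⟨g, hg, rfl⟩) h1)
    · intro g hg h1
      exact Subtype.ext (P.k2 g.1 (hK _ _ ⟨g, hg, rfl⟩) h1)
  cU i j k hij hk hk' g t := Subtype.ext (S.cU i j k hij hk hk' g t)
  cUU i j hi hj hij s t := Subtype.ext (S.cUU i j hi hj hij s t)

end restrict

/-- elements of `Sp` supported on one hyperbolic plane -/
theorem exists_co {n : ℕ} {i : Fin n} {g : Sg F n} (h : ∀ k, k ≠ i → (g : VV F n ≃ₗ[F] VV F n) (ev (Sum.inl k)) = ev (Sum.inl k) ∧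
    (g : VV F n ≃ₗ[F] VV F n) (ev (Sum.inr k)) = ev (Sum.inr k)) : ∃ a : S2 F, g = hat F n (co i a) := by
  set x := (g : VV F n ≃ₗ[F] VV F n) (ev (Sum.inl i)) with hx
  set y := (g : VV F n ≃ₗ[F] VV F n) (ev (Sum.inr i)) with hy
  have hr : ∀ (k : Fin n) (v : VV F n), k ≠ i → (g : VV F n ≃ₗ[F] VV F n) v (Sum.inr k) = v (Sum.inr k) := by
    intro k v hk
    have := Spg_apply g (ev (Sum.inl k)) v
    rw [(h k hk).1, B_inl, B_inl] at this
    exact neg_injective this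
  have hl : ∀ (k : Fin n) (v : VV F n), k ≠ i → (g : VV F n ≃ₗ[F] VV F n) v (Sum.inl k) = v (Sum.inl k) := by
    intro k v hk
    have := Spg_apply g (ev (Sum.inr k)) v
    rw [(h k hk).2, B_inr, B_inr] at this
    exact this
  have gen : ∀ v : VV F n, (∀ k, k ≠ i → v (Sum.inl k) = 0 ∧ v (Sum.inr k) = 0) → (g : VV F n ≃ₗ[F] VV F n) v =
      (g : VV F n ≃ₗ[F] VV F n) v (Sum.inl i) • ev (Sum.inl i) + (g : VV F n ≃ₗ[F] VV F n) v (Sum.inr i) • ev (Sum.inr i) := by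
    intro v hv
    apply vec_ext
    · intro k
      by_cases hk : k = i
      · subst hk; simp [ev_inl_inl, ev_inr_inl]
      · rw [hl k v hk, (hv k hk).1]; simp [ev_inl_inl, ev_inr_inl, hk]
    · intro k
      by_cases hk : k = i
      · subst hk; simp [ev_inl_inr, ev_inr_inr]
      · rw [hr k v hk, (hv k hk).2]; simp [ev_inl_inr, ev_inr_inr, hk]
  have hx1 : x = x (Sum.inl i) • ev (Sum.inl i) + x (Sum.inr i) • ev (Sum.inr i) := by
    rw [hx]
    exact gen _ (fun k hk => ⟨by rw [ev_inl_inl, if_neg hk], ev_inl_inr _ _⟩)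
  have hy1 : y = y (Sum.inl i) • ev (Sum.inl i) + y (Sum.inr i) • ev (Sum.inr i) := by
    rw [hy]
    exact gen _ (fun k hk => ⟨ev_inr_inl _ _, by rw [ev_inr_inr, if_neg hk]⟩)
  have hdet : x (Sum.inl i) * y (Sum.inr i) - y (Sum.inl i) * x (Sum.inr i) = 1 := by
    have h3 := Spg_apply g (ev (Sum.inr i)) (ev (Sum.inl i))
    rw [← hx, ← hy, hy1, B_inr, ev_inl_inl, if_pos rfl] at h3
    simp only [map_add, map_smul, LinearMap.add_apply, LinearMap.smul_apply, B_inl, B_inr, smul_eq_mul] at h3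
    linear_combination h3
  obtain ⟨A, hA⟩ : ∃ A : S2 F, A.1 = !![x (Sum.inl i), y (Sum.inl i); x (Sum.inr i), y (Sum.inr i)] :=
    ⟨⟨_, by rw [det_fin_two_of]; exact hdet⟩, rfl⟩
  refine ⟨A, ?_⟩
  apply ext_ev
  intro a
  rcases a with k | k
  · by_cases hk : k = i
    · subst hk
      rw [← hx, hat_co_inl, hA]
      simpa using hx1
    · rw [(h k hk).1, hat_co_fix (a := Sum.inl k) (i := i) hk]
  · by_cases hk : k = i
    · subst hk
      rw [← hy, hat_co_inr, hA]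
      simpa using hy1
    · rw [(h k hk).2, hat_co_fix (a := Sum.inr k) (i := i) hk]

section graph

variable {G H : Type*} [Group G] [Group H]

def gr {K : Subgroup G} (Ψ : K →* H) : Subgroup (G × H) := (K.subtype.prod Ψ).range

theorem gr_inj {K : Subgroup G} {Ψ : K →* H} {x y : G × H} (hx : x ∈ gr Ψ) (hy : y ∈ gr Ψ) (h : x.1 = y.1) : x = y := by
  obtain ⟨a, rfl⟩ := hx
  obtain ⟨b, rfl⟩ := hy
  have : a = b := Subtype.ext h
  rw [this]

theorem gr_mem {K : Subgroup G} (Ψ : K →* H) {g : G} (hg : g ∈ K) : ((g, Ψ ⟨g, hg⟩) : G × H) ∈ gr Ψ := ⟨⟨g, hg⟩, rfl⟩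

theorem gr_comm {K : Subgroup G} {Ψ : K →* H} {x y : G × H} (hx : x ∈ gr Ψ) (hy : y ∈ gr Ψ) (h : Commute x.1 y.1) : Commute x y :=
  gr_inj (mul_mem hx hy) (mul_mem hy hx) h

end graph

theorem comm_co_sh {n : ℕ} {i j k : Fin n} (hi : k ≠ i) (hj : k ≠ j) (g : S2 F) (t : F) :
    Commute (hat F n (co k g)) (shh t (ev (Sum.inl i)) (ev (Sum.inl j))) := by
  apply of_conj
  rw [sh_conj, hat_co_fix (a := Sum.inl i) (i := k) hi.symm, hat_co_fix (a := Sum.inl j) (i := k) hj.symm]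

theorem comm_sh_sh' {n : ℕ} {i j k l : Fin n} (hij : i ≠ j) (s t : F) :
    Commute (shh s (ev (Sum.inl i)) (ev (Sum.inl j))) (shh t (ev (Sum.inl k)) (ev (Sum.inl l))) := by
  apply of_conj
  rw [sh_conj, sh_ll hij, sh_ll hij, ev_inl_inr, ev_inl_inr, ev_inl_inr, ev_inl_inr]
  simp

end Cfsg.Agent.Lib.SpSlim
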