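import Cfsg.Agent.Lib.SpPair

/-! Slim amalgams of symplectic groups: three indices (helper38). -/

set_option autoImplicit false

namespace Cfsg.Agent.Lib.SpTri

open Equiv Matrix Cfsg.Agent.Lib.PresBC Cfsg.Agent.Lib.PresWr Cfsg.Agent.Lib.ClIso Cfsg.Agent.Lib.ClSymp Cfsg.Agent.Lib.ClSymp2
  Cfsg.Agent.Lib.PresSpMod Cfsg.Agent.Lib.PresSec Cfsg.Agent.Lib.PresSpCore Cfsg.Agent.Lib.PresSp Cfsg.Agent.Lib.SpPair

variable {F : Type*} [Field F] {n : ℕ}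

theorem sh_split (t y : F) (a b c : VV F n) (hac : BF F n a c = 0) (hbc : BF F n b c = 0) :
    shh t (a + y • b) c = shh t a c * shh (t * y) b c * tvv (-(t ^ 2 * y * BF F n a b)) c := by
  have hcb : BF F n c b = 0 := by rw [hBF.skew, hbc, neg_zero]
  have hca : BF F n c a = 0 := by rw [hBF.skew, hac, neg_zero]
  apply Spg_ext
  intro x
  rw [ClSymp.mul_apply', ClSymp.mul_apply', sh_apply _ _ _ _ (by rw [map_add, map_smul, LinearMap.add_apply, LinearMap.smul_apply, hac, hbc, smul_zero, add_zero]),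
    sh_apply _ _ _ _ hac, sh_apply _ _ _ _ hbc, tv_apply]
  simp only [map_add, map_smul, LinearMap.add_apply, LinearMap.smul_apply, hBF.alt, hac, hbc, hcb, hca, smul_eq_mul]
  module

theorem tv_split (x s : F) (a b : VV F n) (hab : BF F n a b = 0) : tvv x (a + s • b) = shh (x * s) a b * tvv (x * s ^ 2) b * tvv x a := by
  have hba : BF F n b a = 0 := by rw [hBF.skew, hab, neg_zero]
  apply Spg_ext
  intro y
  rw [ClSymp.mul_apply', ClSymp.mul_apply', sh_apply _ _ _ _ hab, tv_apply, tv_apply, tv_apply]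
  simp only [map_add, map_smul, LinearMap.add_apply, LinearMap.smul_apply, hBF.alt, hab, hba, smul_eq_mul]
  module

variable {Γ : Type*} [Group Γ] {π : Γ →* Sg F n} {ψ : Fin n → S2 F →* Γ}

def cj (ψ : Fin n → S2 F →* Γ) (q : Fin n) (u : F → Γ) (s : F) : Γ := ψ q (Ag 1) * u s * (ψ q (Ag 1))⁻¹

section pair
variable {p q : Fin n} {u : F → Γ}

theorem cj_mem (t : F) : cj ψ p u t ∈ Kf ψ p q u := mul_mem (mul_mem (mem1 _) (mem3 _)) (inv_mem (mem1 _))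

theorem up_lo (x : F) : (Ag 1 : S2 F) * lo x * (Ag 1)⁻¹ = up (-x) := by
  rw [lo_eq]
  have h1 : (Ag 1 : S2 F)⁻¹ * (Ag 1)⁻¹ = (Dg (-1))⁻¹ := by rw [← _root_.mul_inv_rev, Ag_sq]
  calc (Ag 1 : S2 F) * (Ag 1 * up (-x) * (Ag 1)⁻¹) * (Ag 1)⁻¹ = (Ag 1 * Ag 1) * up (-x) * ((Ag 1)⁻¹ * (Ag 1)⁻¹) := by simp only [mul_assoc]
    _ = _ := by rw [h1, Ag_sq, (z_comm _).eq, mul_inv_cancel_right]

section
variable (h : Pr π ψ p q u)
include h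

theorem Pr_pi_lo (i : Fin n) (t : F) : π (ψ i (lo t)) = tvv t (ev (Sum.inr i)) := by
  rw [h.hψ, ← hat_ell]
  rfl

theorem Pr_K0 (x t : F) : Commute (ψ p (up x)) (u t) := by
  show _ = _
  rw [← mul_inv_eq_iff_eq_mul]
  apply h.inj1 (mul_mem (mul_mem (mem1 _) (mem3 _)) (inv_mem (mem1 _))) (mem3 _)
  rw [map_mul, map_mul, map_inv, h.pi_up, h.hu, sh_conj, tv_inl, tv_inl, ev_inl_inr, ev_inl_inr]
  simp

theorem Pr_K0' (x t : F) : Commute (ψ q (up x)) (u t) := Pr_K0 h.symm x t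

theorem Pr_pi_cj (t : F) : π (cj ψ p u t) = shh t (ev (Sum.inr p)) (ev (Sum.inl q)) := h.pi_C t

theorem Pr_K1 (y t : F) : ψ p (lo y) * u t * (ψ p (lo y))⁻¹ = u t * cj ψ p u (t * y) * ψ q (up (-(t ^ 2 * y))) := by
  apply h.inj1 (mul_mem (mul_mem (mem1 _) (mem3 _)) (inv_mem (mem1 _))) (mul_mem (mul_mem (mem3 _) (cj_mem _)) (mem2 _))
  rw [map_mul, map_mul, map_inv, map_mul, map_mul, Pr_pi_lo h, h.hu, Pr_pi_cj h, h.pi_up, sh_conj, tv_inr, tv_inr, ev_inl_inl, if_pos rfl,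
    ev_inl_inl, if_neg h.hpq, mul_one, mul_zero, zero_smul, add_zero]
  have := sh_split t y (ev (Sum.inl p)) (ev (Sum.inr p)) (ev (Sum.inl q)) (B_ne (inl_ne_ng _ _)) (B_ne (by simp [ng, h.hpq.symm]))
  refine this.trans ?_
  rw [B_inl, ev_inr_inr, if_pos rfl]
  congr 2
  ring

theorem Pr_K2 (x s : F) : u s * ψ p (lo x) * (u s)⁻¹ * (ψ p (lo x))⁻¹ = cj ψ p u (-(s * x)) * ψ q (up (-(s ^ 2 * x))) := by
  apply h.inj1 (mul_mem (mul_mem (mul_mem (mem3 _) (mem1 _)) (inv_mem (mem3 _))) (inv_mem (mem1 _))) (mul_mem (cj_mem _) (mem2 _))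
  rw [map_mul, map_mul, map_mul, map_inv, map_inv, map_mul, Pr_pi_lo h, h.hu, Pr_pi_cj h, h.pi_up, tv_conj, sh_ll h.hpq, ev_inr_inr, ev_inr_inr,
    if_pos rfl, if_neg h.hpq.symm, mul_zero, zero_smul, sub_zero, mul_one, mul_inv_eq_iff_eq_mul]
  have := tv_split x (-s) (ev (Sum.inr p)) (ev (Sum.inl q)) (B_ne (by simp [ng, h.hpq.symm]))
  rw [neg_smul, ← sub_eq_add_neg] at this
  refine this.trans ?_
  rw [show x * -s = -(s * x) by ring, show x * (-s) ^ 2 = -(-(s ^ 2 * x)) by ring]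

theorem Pr_K3 (s' s : F) : ∃ c, u s' * cj ψ p u s * (u s')⁻¹ * (cj ψ p u s)⁻¹ = ψ q (up c) := by
  refine ⟨2 * s * s', ?_⟩
  apply h.inj1 (mul_mem (mul_mem (mul_mem (mem3 _) (cj_mem _)) (inv_mem (mem3 _))) (inv_mem (cj_mem _))) (mem2 _)
  have hB : BF F n (ev (Sum.inr p)) (ev (Sum.inl q)) = 0 := B_ne (by simp [ng, h.hpq.symm])
  have hB' : BF F n (ev (Sum.inl q)) (ev (Sum.inr p)) = 0 := by rw [hBF.skew, hB, neg_zero]
  rw [map_mul, map_mul, map_mul, map_inv, map_inv, h.hu, Pr_pi_cj h, h.pi_up, sh_conj, sh_ll h.hpq, sh_ll h.hpq, ev_inr_inr, ev_inr_inr,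
    if_pos rfl, if_neg h.hpq.symm, mul_zero, zero_smul, sub_zero, mul_one, mul_inv_eq_iff_eq_mul, ev_inl_inr, ev_inl_inr, mul_zero, zero_smul, zero_smul, sub_zero, sub_zero]
  apply Spg_ext
  intro y
  rw [ClSymp.mul_apply', sh_apply _ _ _ _ (by rw [map_sub, map_smul, LinearMap.sub_apply, LinearMap.smul_apply, hB, hBF.alt, smul_zero, sub_zero]),
    sh_apply _ _ _ _ hB, tv_apply]
  simp only [map_add, map_sub, map_smul, LinearMap.add_apply, LinearMap.sub_apply, LinearMap.smul_apply, hBF.alt, hB, hB', smul_eq_mul]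
  module

end
end pair

structure Tri (π : Γ →* Sg F n) (ψ : Fin n → S2 F →* Γ) (p q r : Fin n) (u v : F → Γ) : Prop where
  h : Pr π ψ p q u
  k : Pr π ψ q r v
  hpr : p ≠ r
  cu : ∀ g t, Commute (ψ r g) (u t)
  cv : ∀ g t, Commute (ψ p g) (v t)
  cuv : ∀ s t, Commute (u s) (v t)

variable {p q r : Fin n} {u v : F → Γ}

theorem Tri.symm (T : Tri π ψ p q r u v) : Tri π ψ r q p v u where
  h := T.k.symm
  k := T.h.symm
  hpr := T.hpr.symm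
  cu := T.cv
  cv := T.cu
  cuv s t := (T.cuv t s).symm

/-- the commutator of `u s` and `v(t)^{w_q}` -/
def Zf (ψ : Fin n → S2 F →* Γ) (q : Fin n) (u v : F → Γ) (s t : F) : Γ := u s * cj ψ q v t * (u s)⁻¹ * (cj ψ q v t)⁻¹

theorem comm_right {a b e : Γ} (h : Commute a e) : a * (b * e) * a⁻¹ * (b * e)⁻¹ = a * b * a⁻¹ * b⁻¹ := by
  calc a * (b * e) * a⁻¹ * (b * e)⁻¹ = a * b * (e * a⁻¹) * e⁻¹ * b⁻¹ := by group
    _ = _ := by rw [(h.symm.inv_right).eq]; group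

theorem comm_left {a b e : Γ} (h : Commute e b) : a * e * b * (a * e)⁻¹ * b⁻¹ = a * b * a⁻¹ * b⁻¹ := by
  calc a * e * b * (a * e)⁻¹ * b⁻¹ = a * (e * b) * e⁻¹ * a⁻¹ * b⁻¹ := by group
    _ = _ := by rw [h.eq]; group

theorem conj_comm {g a b a' b' : Γ} (ha : g * a * g⁻¹ = a') (hb : g * b * g⁻¹ = b') : g * (a * b * a⁻¹ * b⁻¹) * g⁻¹ = a' * b' * a'⁻¹ * b'⁻¹ := by
  rw [← ha, ← hb]; group

theorem of_conj {g a : Γ} (h : g * a * g⁻¹ = a) : Commute g a := mul_inv_eq_iff_eq_mul.1 h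
theorem to_conj {g a : Γ} (h : Commute g a) : g * a * g⁻¹ = a := mul_inv_eq_iff_eq_mul.2 h

section
variable (T : Tri π ψ p q r u v)
include T

/-- commutations with conjugates -/
theorem Tri.c1 (g : S2 F) (t : F) : Commute (ψ p g) (cj ψ q v t) :=
  ((T.h.hc p q T.h.hpq _ _).mul_right (T.cv g t)).mul_right (T.h.hc p q T.h.hpq _ _).inv_right

theorem Tri.c2 (s t : F) : Commute (cj ψ q u s) (cj ψ q v t) := commute_conj _ (T.cuv s t)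

theorem Tri.cjj (s : F) : ψ q (Ag 1) * cj ψ q u s * (ψ q (Ag 1))⁻¹ = u (-s) := by
  have h1 : ψ q (Ag 1) * ψ q (Ag 1) = ψ q (Dg (-1)) := by rw [← map_mul, Ag_sq]
  rw [← T.h.symm.cc s, ← h1]
  unfold cj
  group

theorem Tri.lo_comm (x s t : F) : Commute (ψ q (lo x)) (Zf ψ q u v s t) := by
  apply of_conj
  have h1 := Pr_K1 T.h.symm x s
  have h2 : Commute (ψ q (lo x)) (cj ψ q v t) := by
    have := commute_conj (ψ q (Ag 1)) (Pr_K0 T.k (-x) t)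
    rw [← map_inv, ← map_mul, ← map_mul, ← lo_eq, map_inv] at this
    exact this
  have h3 : Commute (cj ψ q u (s * x) * ψ p (up (-(s ^ 2 * x)))) (cj ψ q v t) := (T.c2 _ _).mul_left (T.c1 _ _)
  unfold Zf
  rw [mul_assoc (u s)] at h1
  rw [conj_comm h1 (to_conj h2), comm_left h3]

theorem Tri.Z_conj (s t : F) : ψ q (Ag 1) * Zf ψ q u v s t * (ψ q (Ag 1))⁻¹ = (Zf ψ q v u (-t) s)⁻¹ := by
  have h1 := T.symm.cjj t
  unfold Zf
  rw [conj_comm (show ψ q (Ag 1) * u s * (ψ q (Ag 1))⁻¹ = cj ψ q u s from rfl) h1]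
  group

theorem Tri.up_comm (x s t : F) : Commute (ψ q (up x)) (Zf ψ q u v s t) := by
  have h1 := (T.symm.lo_comm (-x) (-t) s).inv_right
  rw [← T.Z_conj] at h1
  have h2 := commute_conj (ψ q (Ag 1))⁻¹ h1
  have h3 : (ψ q (Ag 1))⁻¹ * ψ q (lo (-x)) * (ψ q (Ag 1))⁻¹⁻¹ = ψ q (up x) := by
    rw [lo_eq, neg_neg, map_mul, map_mul, map_inv]; group
  rw [h3] at h2
  have h4 : (ψ q (Ag 1))⁻¹ * (ψ q (Ag 1) * Zf ψ q u v s t * (ψ q (Ag 1))⁻¹) * (ψ q (Ag 1))⁻¹⁻¹ = Zf ψ q u v s t := by group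
  rw [h4] at h2
  exact h2

theorem Tri.psi_comm (g : S2 F) (s t : F) : Commute (ψ q g) (Zf ψ q u v s t) := by
  have : (⊤ : Subgroup (S2 F)) ≤ (Subgroup.centralizer {Zf ψ q u v s t}).comap (ψ q) := by
    intro x _
    apply Cfsg.Agent.Lib.SpTwoGen.S2_gen
    · intro a
      rw [Subgroup.mem_comap, Subgroup.mem_centralizer_singleton_iff]
      exact T.up_comm a s t
    · intro a
      rw [Subgroup.mem_comap, Subgroup.mem_centralizer_singleton_iff]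
      exact T.lo_comm a s t
  have h2 := this (Subgroup.mem_top g)
  rw [Subgroup.mem_comap, Subgroup.mem_centralizer_singleton_iff] at h2
  exact h2

theorem Tri.Z_flip (s t : F) : Zf ψ q u v s t = (Zf ψ q v u (-t) s)⁻¹ := by
  rw [← T.Z_conj, to_conj (T.psi_comm _ s t)]

theorem Tri.p_comm (x s t : F) : Commute (ψ p (up x)) (Zf ψ q u v s t) := by
  have h1 : Commute (ψ p (up x)) (u s) := Pr_K0 T.h x s
  have h2 : Commute (ψ p (up x)) (cj ψ q v t) := T.c1 _ _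
  exact ((h1.mul_right h2).mul_right h1.inv_right).mul_right h2.inv_right

theorem Tri.u_comm (s' s t : F) : Commute (u s') (Zf ψ q u v s t) := by
  apply of_conj
  obtain ⟨c, hc⟩ := Pr_K3 T.h.symm s' s
  have hcp : Commute (ψ p (up c)) (cj ψ q u s) := by
    have h1 : Commute (ψ p (up c)) (u s) := Pr_K0 T.h c s
    have h2 : Commute (ψ p (up c)) (ψ q (Ag 1)) := T.h.hc p q T.h.hpq _ _
    exact (h2.mul_right h1).mul_right h2.inv_right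
  have h1 : u s' * cj ψ q u s * (u s')⁻¹ = cj ψ q u s * ψ p (up c) := by
    rw [← hcp.eq, ← hc]; group
  have h2 : Zf ψ q u v s t = cj ψ q u s * v (-t) * (cj ψ q u s)⁻¹ * (v (-t))⁻¹ := by
    rw [T.Z_flip]; unfold Zf; group
  rw [h2, conj_comm h1 (to_conj (T.cuv s' (-t))), comm_left (T.cv _ _)]

theorem Tri.v_comm (t' s t : F) : Commute (v t') (Zf ψ q u v s t) := by
  rw [T.Z_flip]
  exact (T.symm.u_comm t' (-t) s).inv_right

theorem Tri.cjv_comm (t' s t : F) : Commute (cj ψ q v t') (Zf ψ q u v s t) := by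
  have h1 := T.psi_comm (Ag 1) s t
  exact (h1.mul_left (T.v_comm t' s t)).mul_left h1.inv_left

theorem Tri.ZZ_comm (s' t' s t : F) : Commute (Zf ψ q u v s' t') (Zf ψ q u v s t) := by
  have h1 := T.u_comm s' s t
  have h2 := T.cjv_comm t' s t
  exact ((h1.mul_left h2).mul_left h1.inv_left).mul_left h2.inv_left

theorem Tri.Z_add (s s' t : F) : Zf ψ q u v (s + s') t = Zf ψ q u v s t * Zf ψ q u v s' t := by
  have h1 := to_conj (T.u_comm s s' t)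
  rw [(T.ZZ_comm s t s' t).eq]
  conv_rhs => rw [← h1]
  unfold Zf
  rw [T.h.u_add]
  group

theorem Tri.Z_torus (x : Fˣ) (s t : F) : Zf ψ q u v (x * s) (((x⁻¹ : Fˣ) : F) * t) = Zf ψ q u v s t := by
  have h1 := T.h.symm.torus x s
  have h2 : ψ q (Dg x) * cj ψ q v t * (ψ q (Dg x))⁻¹ = cj ψ q v (((x⁻¹ : Fˣ) : F) * t) := by
    have h3 := T.k.torus x⁻¹ t
    have h4 : (Dg x : S2 F) * Ag 1 = Ag 1 * Dg x⁻¹ := by
      apply Subtype.ext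
      show (Dg x : S2 F).1 * (Ag 1 : S2 F).1 = (Ag 1 : S2 F).1 * (Dg x⁻¹ : S2 F).1
      rw [Dg_coe, Dg_coe]
      ext a b
      fin_cases a <;> fin_cases b <;> simp [Matrix.mul_apply, Fin.sum_univ_two, Ag]
    unfold cj
    rw [← h3]
    calc _ = ψ q (Dg x * Ag 1) * v t * (ψ q (Dg x * Ag 1))⁻¹ := by rw [map_mul]; group
      _ = _ := by rw [h4, map_mul]; group
  have h5 := conj_comm h1 h2
  rw [← Zf, ← Zf, to_conj (T.psi_comm _ s t)] at h5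
  exact h5.symm

theorem Tri.Z_zero (t : F) : Zf ψ q u v 0 t = 1 := by
  unfold Zf
  rw [T.h.u_zero]; group

end

/-- the root elements of the third pair -/
def Zt (ψ : Fin n → S2 F →* Γ) (q : Fin n) (u v : F → Γ) (k : F) : Γ := Zf ψ q u v k 1

section
variable (T : Tri π ψ p q r u v)
include T

theorem Tri.Z_eq (s t : F) : Zf ψ q u v s t = Zt ψ q u v (s * t) := by
  by_cases ht : t = 0
  · have h1 : Zf ψ q u v s 0 = 1 := by
      unfold Zf cj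
      rw [T.k.u_zero]; group
    rw [ht, mul_zero, h1, Zt, T.Z_zero]
  · have h1 := T.Z_torus (Units.mk0 t ht) s t
    rw [Units.val_inv_eq_inv_val, Units.val_mk0, inv_mul_cancel₀ ht, mul_comm] at h1
    rw [← h1]; rfl

theorem Tri.Zt_add (k k' : F) : Zt ψ q u v (k + k') = Zt ψ q u v k * Zt ψ q u v k' := T.Z_add k k' 1

theorem Tri.Zt_zero : Zt ψ q u v 0 = 1 := T.Z_zero 1

theorem Tri.Zt_neg (k : F) : Zt ψ q u v (-k) = (Zt ψ q u v k)⁻¹ := by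
  rw [eq_inv_iff_mul_eq_one, ← T.Zt_add, neg_add_cancel, T.Zt_zero]

theorem Tri.Zt_symm (k : F) : Zt ψ q v u k = Zt ψ q u v k := by
  have h1 := T.Z_flip k 1
  rw [T.symm.Z_eq, T.Z_eq, mul_one, neg_one_mul, T.symm.Zt_neg, inv_inv] at h1
  exact h1.symm

/-- the conjugation formula, before cancelling -/
theorem Tri.key (κ t : F) (ht : t ≠ 0) : ψ r (lo 1) * Zt ψ q u v κ * (ψ r (lo 1))⁻¹ =
    Zt ψ q u v κ * (cj ψ q v t * (ψ r (Ag 1) * Zt ψ q u v κ * (ψ r (Ag 1))⁻¹) * (cj ψ q v t)⁻¹) * cj ψ q u (-(κ * t)) * ψ p (up (-(κ ^ 2))) := by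
  have hqr := T.k.hpq
  have hwr : ∀ a b, Commute (ψ r a) (ψ q b) := T.k.hc r q hqr.symm
  -- conjugation of `cj v t`
  have h1 : ψ r (lo 1) * cj ψ q v t * (ψ r (lo 1))⁻¹ = cj ψ q v t * (ψ r (Ag 1) * cj ψ q v t * (ψ r (Ag 1))⁻¹) * ψ q (lo (t ^ 2)) := by
    have h2 := Pr_K1 T.k.symm 1 t
    rw [mul_one, mul_one] at h2
    have h3 : ψ q (Ag 1) * _ * (ψ q (Ag 1))⁻¹ = ψ q (Ag 1) * _ * (ψ q (Ag 1))⁻¹ := congrArg (fun z => ψ q (Ag 1) * z * (ψ q (Ag 1))⁻¹) h2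
    have e1 : ψ q (Ag 1) * (ψ r (lo 1) * v t * (ψ r (lo 1))⁻¹) * (ψ q (Ag 1))⁻¹ = ψ r (lo 1) * cj ψ q v t * (ψ r (lo 1))⁻¹ := by
      unfold cj
      calc _ = (ψ q (Ag 1) * ψ r (lo 1)) * v t * (ψ q (Ag 1) * ψ r (lo 1))⁻¹ := by group
        _ = _ := by rw [(hwr _ _).symm.eq]; group
    have e2 : ψ q (Ag 1) * (v t * cj ψ r v t * ψ q (up (-(t ^ 2)))) * (ψ q (Ag 1))⁻¹ =
        cj ψ q v t * (ψ r (Ag 1) * cj ψ q v t * (ψ r (Ag 1))⁻¹) * ψ q (lo (t ^ 2)) := by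
      rw [lo_eq, map_mul, map_mul, map_inv]
      unfold cj
      calc _ = ψ q (Ag 1) * v t * (ψ q (Ag 1))⁻¹ * ((ψ q (Ag 1) * ψ r (Ag 1)) * v t * (ψ q (Ag 1) * ψ r (Ag 1))⁻¹) * (ψ q (Ag 1) * ψ q (up (-(t ^ 2))) * (ψ q (Ag 1))⁻¹) := by group
        _ = _ := by rw [(hwr _ _).symm.eq]; group
    rw [e1, e2] at h3
    exact h3
  have h0 : ψ r (lo 1) * u (κ / t) * (ψ r (lo 1))⁻¹ = u (κ / t) := to_conj (T.cu _ _)
  have hκ : Zt ψ q u v κ = Zf ψ q u v (κ / t) t := by rw [T.Z_eq, div_mul_cancel₀ _ ht]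
  set a := u (κ / t) with ha
  set b := cj ψ q v t with hb
  set c := ψ r (Ag 1) * b * (ψ r (Ag 1))⁻¹ with hc
  set d := ψ q (lo (t ^ 2)) with hd
  have h4 : ψ r (lo 1) * Zt ψ q u v κ * (ψ r (lo 1))⁻¹ = a * (b * c * d) * a⁻¹ * (b * c * d)⁻¹ := by
    rw [hκ]
    unfold Zf
    exact conj_comm h0 h1
  have h5 : a * c * a⁻¹ * c⁻¹ = ψ r (Ag 1) * Zt ψ q u v κ * (ψ r (Ag 1))⁻¹ := by
    rw [hκ]
    unfold Zf
    exact (conj_comm (to_conj (T.cu _ _)) rfl).symm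
  have h6 : a * d * a⁻¹ * d⁻¹ = cj ψ q u (-(κ * t)) * ψ p (up (-(κ ^ 2))) := by
    rw [ha, hd, Pr_K2 T.h.symm]
    congr 3
    · field_simp
    · congr 1; field_simp
  have h7 : Commute b (cj ψ q u (-(κ * t)) * ψ p (up (-(κ ^ 2)))) := (T.c2 _ _).symm.mul_right (T.c1 _ _).symm
  have h8 : Commute c (cj ψ q u (-(κ * t)) * ψ p (up (-(κ ^ 2)))) := by
    have e1 : ∀ s, Commute (ψ r (Ag 1)) (cj ψ q u s) := fun s => ((hwr _ _).mul_right (T.cu _ _)).mul_right (hwr _ _).inv_right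
    have e2 : Commute (ψ r (Ag 1)) (ψ p (up (-(κ ^ 2)))) := T.k.hc _ _ T.hpr.symm _ _
    have e3 := (e1 (-(κ * t))).mul_right e2
    exact (e3.mul_left h7).mul_left e3.inv_left
  have h9 : a * (b * c * d) * a⁻¹ * (b * c * d)⁻¹ = (a * b * a⁻¹ * b⁻¹) * (b * (a * c * a⁻¹ * c⁻¹) * b⁻¹) * (b * c * (a * d * a⁻¹ * d⁻¹) * (b * c)⁻¹) := by group
  rw [h4, h9, h5, h6, to_conj (h7.mul_left h8)]
  have h10 : a * b * a⁻¹ * b⁻¹ = Zt ψ q u v κ := by rw [hκ]; rfl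
  rw [h10]
  simp only [mul_assoc]

/-- the relation between the third root elements and the second ones -/
theorem Tri.rel (hF : ∃ a : F, a ≠ 0 ∧ a ≠ 1) (κ ρ : F) :
    v ρ * (ψ r (Ag 1) * Zt ψ q u v κ * (ψ r (Ag 1))⁻¹) * (v ρ)⁻¹ = ψ r (Ag 1) * Zt ψ q u v κ * (ψ r (Ag 1))⁻¹ * u (κ * ρ) := by
  set Zm := ψ r (Ag 1) * Zt ψ q u v κ * (ψ r (Ag 1))⁻¹ with hZm
  -- independence
  have hwr : ∀ a b, Commute (ψ r a) (ψ q b) := T.k.hc r q T.k.hpq.symm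
  have hqZ : Commute (ψ q (Ag 1)) Zm := ((hwr _ _).symm.mul_right (T.psi_comm _ _ _)).mul_right (hwr _ _).symm.inv_right
  have ind : ∀ t t', t ≠ 0 → t' ≠ 0 → v t * Zm * (v t)⁻¹ * u (-(κ * t)) = v t' * Zm * (v t')⁻¹ * u (-(κ * t')) := by
    intro t t' ht ht'
    have h1 := T.key κ t ht
    rw [T.key κ t' ht'] at h1
    have h2 : cj ψ q v t * Zm * (cj ψ q v t)⁻¹ * cj ψ q u (-(κ * t)) = cj ψ q v t' * Zm * (cj ψ q v t')⁻¹ * cj ψ q u (-(κ * t')) := by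
      have h3 := mul_right_cancel h1
      rw [hZm]
      simp only [mul_assoc] at h3 ⊢
      exact (mul_left_cancel h3).symm
    have h4 : ∀ t, cj ψ q v t * Zm * (cj ψ q v t)⁻¹ * cj ψ q u (-(κ * t)) = ψ q (Ag 1) * (v t * Zm * (v t)⁻¹ * u (-(κ * t))) * (ψ q (Ag 1))⁻¹ := by
      intro t
      unfold cj
      calc _ = ψ q (Ag 1) * (v t * ((ψ q (Ag 1))⁻¹ * Zm * (ψ q (Ag 1))⁻¹⁻¹) * (v t)⁻¹ * u (-(κ * t))) * (ψ q (Ag 1))⁻¹ := by group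
        _ = _ := by rw [to_conj hqZ.inv_left]
    rw [h4, h4] at h2
    exact mul_left_cancel (mul_right_cancel h2)
  by_cases hρ : ρ = 0
  · rw [hρ, mul_zero, T.h.u_zero, T.k.u_zero]; group
  obtain ⟨t, ht0, htρ⟩ : ∃ t : F, t ≠ 0 ∧ t + ρ ≠ 0 := by
    obtain ⟨a, ha0, ha1⟩ := hF
    by_cases h1 : a + ρ = 0
    · refine ⟨1, one_ne_zero, ?_⟩
      intro h2
      apply ha1
      have : a + ρ = 1 + ρ := by rw [h1, h2]
      exact add_right_cancel this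
    · exact ⟨a, ha0, h1⟩
  have h1 := ind (t + ρ) t htρ ht0
  rw [add_comm t ρ, T.k.u_add, mul_add, neg_add, T.h.u_add] at h1
  -- rearrange
  have c1 : ∀ s, Commute (v t) (u s) := fun s => (T.cuv s t).symm
  have c2 : Commute (v (ρ)) (v t) := by show _ = _; rw [← T.k.u_add, add_comm, T.k.u_add]
  have h2 : v t * (v ρ * Zm * (v ρ)⁻¹ * u (-(κ * ρ)) * u (-(κ * t))) * (v t)⁻¹ = v t * (Zm * u (-(κ * t))) * (v t)⁻¹ := by
    calc _ = (v t * v ρ) * Zm * ((v ρ)⁻¹ * (u (-(κ * ρ)) * u (-(κ * t))) * (v t)⁻¹) := by group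
      _ = (v ρ * v t) * Zm * (v ρ)⁻¹ * ((v t)⁻¹ * (u (-(κ * ρ)) * u (-(κ * t)))) := by
        rw [c2.eq, (((c1 _).mul_right (c1 _)).inv_left).eq]; group
      _ = v ρ * v t * Zm * (v ρ * v t)⁻¹ * (u (-(κ * ρ)) * u (-(κ * t))) := by
        have : (v ρ)⁻¹ * (v t)⁻¹ = (v ρ * v t)⁻¹ := by rw [← _root_.mul_inv_rev, c2.eq]
        rw [← this]; group
      _ = v t * Zm * (v t)⁻¹ * u (-(κ * t)) := h1
      _ = _ := by
        calc v t * Zm * (v t)⁻¹ * u (-(κ * t)) = v t * Zm * ((v t)⁻¹ * u (-(κ * t))) := by group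
          _ = _ := by rw [((c1 _).inv_left).eq]; group
  have h3 := mul_left_cancel (mul_right_cancel h2)
  have h4 := mul_right_cancel h3
  rw [T.h.u_neg] at h4
  exact mul_inv_eq_iff_eq_mul.1 h4

theorem Tri.Zt_cr (κ : F) : ψ r (Dg (-1)) * Zt ψ q u v κ * (ψ r (Dg (-1)))⁻¹ = Zt ψ q u v (-κ) := by
  have h1 : ψ r (Dg (-1)) * cj ψ q v 1 * (ψ r (Dg (-1)))⁻¹ = cj ψ q v (-1) := by
    have h2 := T.k.symm.cc 1
    unfold cj
    rw [← h2]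
    have h3 := T.k.hc r q T.k.hpq.symm (Dg (-1)) (Ag 1)
    calc _ = (ψ r (Dg (-1)) * ψ q (Ag 1)) * v 1 * (ψ r (Dg (-1)) * ψ q (Ag 1))⁻¹ := by group
      _ = _ := by rw [h3.eq]; group
  have h4 := conj_comm (to_conj (T.cu (Dg (-1)) κ)) h1
  have h5 := T.Z_eq κ (-1)
  rw [mul_neg_one] at h5
  rw [← h5]
  exact h4

theorem Tri.Zt_cr' (κ : F) : (ψ r (Dg (-1)))⁻¹ * Zt ψ q u v κ * ψ r (Dg (-1)) = Zt ψ q u v (-κ) := by
  have h1 : (ψ r (Dg (-1)))⁻¹ = ψ r (Dg (-1)) := by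
    rw [inv_eq_iff_mul_eq_one, ← map_mul, zz, map_one]
  have := T.Zt_cr κ
  rw [h1] at this ⊢
  exact this

theorem Tri.Qu (hF : ∃ a : F, a ≠ 0 ∧ a ≠ 1) (t : F) : PP ψ q r v * u t * (PP ψ q r v)⁻¹ = Zt ψ q u v (-t) := by
  have hw : ψ r (Ag 1) * ψ r (Ag 1) = ψ r (Dg (-1)) := by rw [← map_mul, Ag_sq]
  set B := ψ r (Ag 1) * v 1 * (ψ r (Ag 1))⁻¹ with hB
  set C := ψ q (Ag 1) * v (-1) * (ψ q (Ag 1))⁻¹ with hC
  have hn : nn ψ q r v = B * C * B := rfl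
  have e1 : B * u t * B⁻¹ = u t := by
    apply to_conj
    exact ((T.cu _ _).mul_left (T.cuv _ _).symm).mul_left (T.cu _ _).inv_left
  have e2 : C * u t * C⁻¹ = Zt ψ q u v t * u t := by
    have h1 := T.Z_eq t (-1)
    rw [mul_neg_one, T.Zt_neg] at h1
    have h2 : Zt ψ q u v t = (Zf ψ q u v t (-1))⁻¹ := by rw [h1, inv_inv]
    rw [h2]
    unfold Zf
    have : cj ψ q v (-1) = C := rfl
    rw [this]; group
  have e3 : B * Zt ψ q u v t * B⁻¹ = Zt ψ q u v t * u (-t) := by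
    have h1 := T.rel hF (-t) 1
    rw [mul_one] at h1
    have h2 : (ψ r (Ag 1))⁻¹ * Zt ψ q u v t * ψ r (Ag 1) = ψ r (Ag 1) * Zt ψ q u v (-t) * (ψ r (Ag 1))⁻¹ := by
      rw [← T.Zt_cr', ← hw]; group
    have h3 : B * Zt ψ q u v t * B⁻¹ = ψ r (Ag 1) * (v 1 * ((ψ r (Ag 1))⁻¹ * Zt ψ q u v t * ψ r (Ag 1)) * (v 1)⁻¹) * (ψ r (Ag 1))⁻¹ := by
      rw [hB]; group
    rw [h3, h2, h1]
    have h4 := T.Zt_cr (-t)
    rw [neg_neg] at h4
    calc _ = (ψ r (Ag 1) * ψ r (Ag 1)) * Zt ψ q u v (-t) * (ψ r (Ag 1) * ψ r (Ag 1))⁻¹ * (ψ r (Ag 1) * u (-t) * (ψ r (Ag 1))⁻¹) := by group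
      _ = _ := by rw [hw, h4, to_conj (T.cu _ _)]
  have e4 : nn ψ q r v * u t * (nn ψ q r v)⁻¹ = Zt ψ q u v t := by
    rw [hn]
    calc _ = B * (C * (B * u t * B⁻¹) * C⁻¹) * B⁻¹ := by group
      _ = B * (Zt ψ q u v t * u t) * B⁻¹ := by rw [e1, e2]
      _ = (B * Zt ψ q u v t * B⁻¹) * (B * u t * B⁻¹) := by group
      _ = _ := by rw [e3, e1, mul_assoc, ← T.h.u_add, neg_add_cancel, T.h.u_zero, mul_one]
  rw [T.k.PP_eq]
  calc _ = (ψ r (Dg (-1)))⁻¹ * (nn ψ q r v * u t * (nn ψ q r v)⁻¹) * ψ r (Dg (-1)) := by group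
    _ = _ := by rw [e4, T.Zt_cr']

theorem Tri.Pv (hF : ∃ a : F, a ≠ 0 ∧ a ≠ 1) (t : F) : PP ψ p q u * v t * (PP ψ p q u)⁻¹ = Zt ψ q u v (-t) := by
  rw [T.h.PP_symm, T.symm.Qu hF, T.Zt_symm]

theorem Tri.P_r (g : S2 F) : PP ψ p q u * ψ r g * (PP ψ p q u)⁻¹ = ψ r g := by
  apply to_conj
  refine (PP_comm (fun a => ?_) (fun a => ?_) (fun t => T.cu _ _)).symm
  · exact T.h.hc r p T.hpr.symm _ _
  · exact T.h.hc r q T.k.hpq.symm _ _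

theorem Tri.Q_p (g : S2 F) : PP ψ q r v * ψ p g * (PP ψ q r v)⁻¹ = ψ p g := by
  rw [T.k.PP_symm]; exact T.symm.P_r g

theorem Tri.braid (hF : ∃ a : F, a ≠ 0 ∧ a ≠ 1) : PP ψ p q u * PP ψ q r v * PP ψ p q u = PP ψ q r v * PP ψ p q u * PP ψ q r v := by
  have gen : ∀ P x y z : Γ, P * ((x * y)⁻¹ * z * (x * y) * z * (x * y)⁻¹ * z) * P⁻¹ =
      ((P * x * P⁻¹) * (P * y * P⁻¹))⁻¹ * (P * z * P⁻¹) * ((P * x * P⁻¹) * (P * y * P⁻¹)) * (P * z * P⁻¹) * ((P * x * P⁻¹) * (P * y * P⁻¹))⁻¹ * (P * z * P⁻¹) := by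
    intro P x y z; group
  have h1 : PP ψ p q u * PP ψ q r v * (PP ψ p q u)⁻¹ = PP ψ q r v * PP ψ p q u * (PP ψ q r v)⁻¹ := by
    have e1 := gen (PP ψ p q u) (ψ q (Ag 1)) (ψ r (Ag 1)) (v 1)
    have e2 := gen (PP ψ q r v) (ψ p (Ag 1)) (ψ q (Ag 1)) (u 1)
    rw [T.h.P_psi', T.P_r, T.Pv hF] at e1
    rw [T.Q_p, T.k.P_psi, T.Qu hF] at e2
    exact e1.trans e2.symm
  rw [T.h.P_inv, T.k.P_inv] at h1
  exact h1

theorem Tri.chain (hF : ∃ a : F, a ≠ 0 ∧ a ≠ 1) (t : F) : PP ψ p q u * (PP ψ q r v * u t * (PP ψ q r v)⁻¹) * (PP ψ p q u)⁻¹ = v t := by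
  rw [T.Qu hF, ← T.Pv hF, T.h.P_inv]
  calc _ = (PP ψ p q u * PP ψ p q u) * v t * (PP ψ p q u * PP ψ p q u) := by group
    _ = _ := by rw [T.h.P_sq]; group

theorem Tri.rc (hF : ∃ a : F, a ≠ 0 ∧ a ≠ 1) : ψ p (Ag 1) * (PP ψ q r v * u 1 * (PP ψ q r v)⁻¹) * (ψ p (Ag 1))⁻¹ * u 1 *
    (ψ p (Ag 1) * (PP ψ q r v * u 1 * (PP ψ q r v)⁻¹) * (ψ p (Ag 1))⁻¹)⁻¹ * (u 1)⁻¹ = v 1 := by
  have h1 := T.symm.rel hF 1 1
  rw [mul_one, T.Zt_symm] at h1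
  rw [T.Qu hF, T.Zt_neg]
  calc _ = (ψ p (Ag 1) * Zt ψ q u v 1 * (ψ p (Ag 1))⁻¹)⁻¹ * (u 1 * (ψ p (Ag 1) * Zt ψ q u v 1 * (ψ p (Ag 1))⁻¹) * (u 1)⁻¹) := by group
    _ = _ := by rw [h1]; group

theorem Tri.rd (hF : ∃ a : F, a ≠ 0 ∧ a ≠ 1) : Commute (PP ψ q r v * u 1 * (PP ψ q r v)⁻¹) (u 1) := by
  rw [T.Qu hF]
  exact (T.u_comm 1 _ 1).symm

end

end Cfsg.Agent.Lib.SpTri
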