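import Cfsg.Agent.Lib.NCyc13
import Cfsg.Agent.Lib.FiFixH
import Cfsg.Agent.Lib.CN3
import Cfsg.Agent.Lib.H67Basic

/-!
# SpcA, part 1 (helper4, for S3421): recognition of `PSL(2,q)` by order and element orders
-/

set_option autoImplicit false
set_option linter.all false

namespace Cfsg.Agent.Lib.SpcA

open Subgroup NCyc

universe u
variable {G : Type u} [Group G] [Finite G]

/-- every element whose order is not coprime to `m` has order dividing `m` -/
def Cls (G : Type u) [Group G] (m : ℕ) : Prop := ∀ x : G, ¬ Nat.Coprime (orderOf x) m → orderOf x ∣ m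

theorem Cls.cent {m : ℕ} (h : Cls G m) {x y : G} (hx : ¬ Nat.Coprime (orderOf x) m) (hc : y * x = x * y) :
    orderOf y ∣ m := by
  by_cases hy : Nat.Coprime (orderOf y) m
  · have hxm := h x hx
    have h1 : Nat.Coprime (orderOf y) (orderOf x) := Nat.Coprime.coprime_dvd_right hxm hy
    have h2 : orderOf (y * x) = orderOf y * orderOf x := Commute.orderOf_mul_eq_mul_orderOf_of_coprime hc h1
    have h3 : ¬ Nat.Coprime (orderOf (y * x)) m := by
      intro h4
      apply hx
      rw [h2] at h4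
      exact Nat.Coprime.coprime_dvd_left (Dvd.intro_left _ rfl) h4
    have h4 := h _ h3
    rw [h2] at h4
    exact (Dvd.intro _ rfl).trans h4
  · exact h y hy

theorem Cls.cent_coprime {m k : ℕ} (h : Cls G m) {x : G} (hx : ¬ Nat.Coprime (orderOf x) m)
    (hk : Nat.Coprime m k) : Nat.Coprime (Nat.card (centralizer ({x} : Set G))) k := by
  apply Nat.Coprime.symm
  rw [Nat.coprime_iff_gcd_eq_one]
  by_contra hne
  obtain ⟨r, hr, hrd⟩ := Nat.exists_prime_and_dvd hne
  have : Fact r.Prime := ⟨hr⟩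
  obtain ⟨y, hy⟩ := exists_prime_orderOf_dvd_card' r (hrd.trans (Nat.gcd_dvd_right _ _))
  have h1 : orderOf (y : G) = r := by rw [orderOf_coe]; exact hy
  have h2 := h.cent hx (mem_cent.1 y.2)
  rw [h1] at h2
  have h3 : r ∣ Nat.gcd m k := Nat.dvd_gcd h2 (hrd.trans (Nat.gcd_dvd_left _ _))
  rw [hk] at h3
  exact hr.one_lt.ne' (Nat.dvd_one.1 h3)

theorem Cls.cent_card {m k l : ℕ} (h : Cls G m) {x : G} (hx : ¬ Nat.Coprime (orderOf x) m)
    (hk : Nat.Coprime m k) (hc : Nat.card G = l * k) : Nat.card (centralizer ({x} : Set G)) ∣ l := by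
  have h1 : Nat.card (centralizer ({x} : Set G)) ∣ l * k := by
    rw [← hc]; exact Subgroup.card_subgroup_dvd_card _
  exact Nat.Coprime.dvd_of_dvd_mul_right (h.cent_coprime hx hk) h1

theorem Cls.fpf {m : ℕ} (h : Cls G m) {x y : G} (hx : ¬ Nat.Coprime (orderOf x) m) (hc : y * x = x * y)
    (hy : Nat.Coprime (orderOf y) m) : y = 1 := by
  have h1 := h.cent hx hc
  rw [← orderOf_eq_one_iff]
  exact Nat.eq_one_of_dvd_coprimes hy dvd_rfl h1

theorem not_coprime_of_dvd {a m : ℕ} (h : a ∣ m) (h1 : a ≠ 1) : ¬ Nat.Coprime a m := by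
  intro h2
  exact h1 (Nat.eq_one_of_dvd_coprimes h2 dvd_rfl h)

theorem ord_dvd_card {H : Subgroup G} {y : G} (hy : y ∈ H) : orderOf y ∣ Nat.card H := by
  have := orderOf_dvd_natCard (⟨y, hy⟩ : H)
  rwa [orderOf_mk] at this

/-- an `r`-subgroup normal in `G` from a solvable normal subgroup -/
theorem exists_normal_p {N : Subgroup G} (hN : N.Normal) (hs : Group.IsSolvable ↥N) (hne : N ≠ ⊥) :
    ∃ r : ℕ, r.Prime ∧ ∃ R : Subgroup G, R.Normal ∧ R ≠ ⊥ ∧ IsPGroup r R := by
  have hnt : Nontrivial N := (Subgroup.nontrivial_iff_ne_bot N).2 hne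
  obtain ⟨A, hA, hAc, hab⟩ := H67Basic.exists_normal_abelian (G := N)
  have hAn : (A.map N.subtype).Normal := Fitting.normal_map_subtype_of_characteristic hAc
  have hAne : A.map N.subtype ≠ ⊥ := by
    rwa [ne_eq, Subgroup.map_eq_bot_iff_of_injective _ N.subtype_injective]
  have hcomm : ∀ a ∈ A.map N.subtype, ∀ b ∈ A.map N.subtype, a * b = b * a := by
    rintro _ ⟨a, ha, rfl⟩ _ ⟨b, hb, rfl⟩
    rw [← map_mul, hab a ha b hb, map_mul]
  have hnil : Group.IsNilpotent ↥(A.map N.subtype) := by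
    let _ : CommGroup ↥(A.map N.subtype) :=
      { (inferInstance : Group ↥(A.map N.subtype)) with
        mul_comm := fun a b => Subtype.ext (hcomm a a.2 b b.2) }
    exact CommGroup.isNilpotent
  have hc : Nat.card ↥(A.map N.subtype) ≠ 1 := by
    intro h; exact hAne (Subgroup.card_eq_one.1 h)
  obtain ⟨r, hr, hrd⟩ := Nat.exists_prime_and_dvd hc
  have : Fact r.Prime := ⟨hr⟩
  obtain ⟨x, hx⟩ := exists_prime_orderOf_dvd_card' r hrd
  obtain ⟨Q, hQn, hQle, hQp, hQm⟩ := CN.exists_normal_syl hnil r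
  refine ⟨r, hr, Q, hQn, ?_, hQp⟩
  intro hb
  have h1 : (x : G) ∈ Q := hQm x x.2 ⟨1, by rw [pow_one, orderOf_coe]; exact hx⟩
  rw [hb, Subgroup.mem_bot] at h1
  have h2 : x = 1 := Subtype.ext h1
  rw [h2, orderOf_one] at hx
  exact hr.one_lt.ne hx

/-- a free conjugation action on a normal subgroup -/
theorem free_normal (E R : Subgroup G) (hR : R.Normal)
    (hfree : ∀ t ∈ R, t ≠ 1 → ∀ x ∈ E, x * t = t * x → x = 1) : Nat.card E ∣ Nat.card R - 1 := by
  have h1 := FiFix.free_dvd E ((R : Set G) \ {1}) (by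
    intro x hx t ht
    refine ⟨hR.conj_mem t ht.1 x, ?_⟩
    intro h
    apply ht.2
    have : t = x⁻¹ * (x * t * x⁻¹) * x := by group
    rw [Set.mem_singleton_iff] at h ⊢
    rw [this, h]; group) (by
    intro t ht x hx hc
    exact hfree t ht.1 ht.2 x hx hc.eq)
  have h2 : ((R : Set G) \ {1}).ncard = Nat.card R - 1 := by
    rw [Set.ncard_diff_singleton_of_mem R.one_mem]
    rfl
  rwa [h2] at h1

end Cfsg.Agent.Lib.SpcA
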