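import Mathlib
import Cfsg.Agent.Lib.OrthTSG67
import Cfsg.Agent.Lib.OrthEmb67
import Cfsg.Agent.Lib.OReal67

/-!
(helper67) Parity and spinor signs of isometries, behaviour under embeddings and orthogonal sums; orders.
-/

set_option autoImplicit false
set_option linter.unusedSectionVars false

namespace Cfsg.Agent.Lib.SpecA67

open QuadraticMap Module Cfsg.Agent.Lib.Quad Cfsg.Agent.Lib.QuadD67 Cfsg.Agent.Lib.QuadEmb67 Cfsg.Agent.Lib.OrthR67
open Cfsg.Agent.Lib.InvSub Cfsg.Agent.Lib.PrimeOrd Cfsg.Agent.Lib.OReal67 Cfsg.Agent.Lib.OrthEmb67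

universe u v w

section par
variable {F : Type u} [Field F] [Finite F] (h2 : (2 : F) ≠ 0)
variable {V : Type v} [AddCommGroup V] [Module F V] [FiniteDimensional F V] {Q : QuadraticForm F V}
variable {W : Type w} [AddCommGroup W] [Module F W] [FiniteDimensional F W] {Q' : QuadraticForm F W}

/-- parity and spinor norm sign of an isometry -/
noncomputable def par (hQ : Nd Q) : ↥(O Q) →* ℤˣ × ℤˣ :=
  (parHom hQ (hQ.R_eq_O (genHyp_of_two_ne_zero h2))).prod (spinHom hQ (hQ.R_eq_O (genHyp_of_two_ne_zero h2)))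

/-- `g` is an isometry with parity data `c` -/
def IsPar (hQ : Nd Q) (g : V ≃ₗ[F] V) (c : ℤˣ × ℤˣ) : Prop := ∃ hg : g ∈ O Q, par h2 hQ ⟨g, hg⟩ = c

variable {h2}

theorem isPar_self (hQ : Nd Q) {g : V ≃ₗ[F] V} (hg : g ∈ O Q) : IsPar h2 hQ g (par h2 hQ ⟨g, hg⟩) := ⟨hg, rfl⟩

theorem exists_par (hQ : Nd Q) {g : V ≃ₗ[F] V} (hg : g ∈ O Q) : ∃ c, IsPar h2 hQ g c := ⟨_, isPar_self hQ hg⟩

theorem IsPar.unique {hQ : Nd Q} {g : V ≃ₗ[F] V} {c c' : ℤˣ × ℤˣ} (h : IsPar h2 hQ g c) (h' : IsPar h2 hQ g c') : c = c' := by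
  obtain ⟨_, rfl⟩ := h
  obtain ⟨_, rfl⟩ := h'
  rfl

theorem IsPar.mul {hQ : Nd Q} {g g' : V ≃ₗ[F] V} {c c' : ℤˣ × ℤˣ} (h : IsPar h2 hQ g c) (h' : IsPar h2 hQ g' c') :
    IsPar h2 hQ (g * g') (c * c') := by
  obtain ⟨hg, rfl⟩ := h
  obtain ⟨hg', rfl⟩ := h'
  exact ⟨(O Q).mul_mem hg hg', by rw [← map_mul]; rfl⟩

theorem isPar_one (hQ : Nd Q) : IsPar h2 hQ (1 : V ≃ₗ[F] V) 1 := ⟨(O Q).one_mem, map_one (par h2 hQ)⟩

theorem mem_Om_iff_par (hQ : Nd Q) {g : V ≃ₗ[F] V} : g ∈ Om Q ↔ IsPar h2 hQ g 1 := by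
  constructor
  · intro hg
    have hgO : g ∈ O Q := Om_le hg
    refine ⟨hgO, ?_⟩
    have := (mem_Om_iff_homs hQ (genHyp_of_two_ne_zero h2) ⟨g, hgO⟩).1 hg
    exact Prod.ext this.1 this.2
  · rintro ⟨hgO, h⟩
    refine (mem_Om_iff_homs hQ (genHyp_of_two_ne_zero h2) ⟨g, hgO⟩).2 ⟨?_, ?_⟩
    · exact congrArg Prod.fst h
    · exact congrArg Prod.snd h

theorem isPar_odd (hQ : Nd Q) {g : V ≃ₗ[F] V} (hg : g ∈ O Q) {r : ℕ} (hr : Odd r) (hgr : g ^ r = 1) : IsPar h2 hQ g 1 :=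
  (mem_Om_iff_par hQ).1 (mem_Om_odd hQ (genHyp_of_two_ne_zero h2) hg hr hgr)

theorem isPar_refl (hQ : Nd Q) {v : V} (hv : Q v ≠ 0) : IsPar h2 hQ (refl Q v) (-1, sgn (IsSquare (Q v))) :=
  ⟨refl_mem v, Prod.ext (parHom_refl hQ _ hv) (spinHom_refl hQ _ hv)⟩

theorem ext_refl (hQ' : Nd Q') {j : W →ₗ[F] V} (hj : ∀ x, Q (j x) = Q' x) {v : W} (hv : Q' v ≠ 0) :
    extHom Q hQ' j hj (refl Q' v) = refl Q (j v) := by
  ext x
  rw [extHom_apply, refl_apply hv, refl_apply (by rw [hj]; exact hv), polar_comm Q', polar_prj, hj, polar_comm Q x]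
  rw [sub_sub_cancel_left, map_neg, map_smul, sub_eq_add_neg]

theorem IsPar.ext {hQ : Nd Q} {hQ' : Nd Q'} {j : W →ₗ[F] V} (hj : ∀ x, Q (j x) = Q' x) {t : W ≃ₗ[F] W} {c : ℤˣ × ℤˣ}
    (h : IsPar h2 hQ' t c) : IsPar h2 hQ (extHom Q hQ' j hj t) c := by
  have hR := hQ'.R_eq_O (genHyp_of_two_ne_zero h2)
  have key : ∀ t : W ≃ₗ[F] W, t ∈ R Q' → ∀ c, IsPar h2 hQ' t c → IsPar h2 hQ (extHom Q hQ' j hj t) c := by
    intro t ht
    refine R_induction (Q := Q') (p := fun t => ∀ c, IsPar h2 hQ' t c → IsPar h2 hQ (extHom Q hQ' j hj t) c) ?_ ?_ ht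
    · intro c hc
      rw [map_one, ← (isPar_one hQ').unique hc]
      exact isPar_one hQ
    · intro v g hv hg ih c hc
      obtain ⟨c', hc'⟩ := exists_par (h2 := h2) hQ' (R_le hg)
      have h3 := (isPar_refl (h2 := h2) hQ' hv).mul hc'
      rw [← h3.unique hc, map_mul, ext_refl hQ' hj hv]
      refine IsPar.mul ?_ (ih _ hc')
      have h4 := isPar_refl (h2 := h2) hQ (v := j v) (by rw [hj]; exact hv)
      rwa [hj] at h4
  obtain ⟨ht, hc⟩ := h
  exact key t (hR ▸ ht) c ⟨ht, hc⟩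

theorem IsPar.ext_iff {hQ : Nd Q} {hQ' : Nd Q'} {j : W →ₗ[F] V} (hj : ∀ x, Q (j x) = Q' x) {t : W ≃ₗ[F] W} (ht : t ∈ O Q') {c : ℤˣ × ℤˣ} :
    IsPar h2 hQ (extHom Q hQ' j hj t) c ↔ IsPar h2 hQ' t c := by
  refine ⟨fun h => ?_, fun h => h.ext hj⟩
  obtain ⟨c', hc'⟩ := exists_par (h2 := h2) hQ' ht
  rwa [h.unique (hc'.ext hj)]

end par

section prod
variable {F : Type u} [Field F]
variable {V : Type v} [AddCommGroup V] [Module F V] [FiniteDimensional F V] {Q : QuadraticForm F V}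
variable {W : Type w} [AddCommGroup W] [Module F W] [FiniteDimensional F W] {Q' : QuadraticForm F W}

/-- pairs of automorphisms -/
def prH (F : Type u) (V : Type v) (W : Type w) [Field F] [AddCommGroup V] [Module F V] [AddCommGroup W] [Module F W] :
    (V ≃ₗ[F] V) × (W ≃ₗ[F] W) →* ((V × W) ≃ₗ[F] (V × W)) where
  toFun p := p.1.prodCongr p.2
  map_one' := by ext x <;> rfl
  map_mul' p q := by ext x <;> rfl

theorem prH_apply (s : V ≃ₗ[F] V) (t : W ≃ₗ[F] W) (x : V × W) : prH F V W (s, t) x = (s x.1, t x.2) := rfl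

theorem prH_inj : Function.Injective (prH F V W) := by
  rintro ⟨s, t⟩ ⟨s', t'⟩ h
  have h1 : ∀ x : V × W, (s x.1, t x.2) = (s' x.1, t' x.2) := fun x => by
    rw [← prH_apply, ← prH_apply, h]
  refine Prod.ext ?_ ?_
  · ext x
    exact congrArg Prod.fst (h1 (x, 0))
  · ext x
    exact congrArg Prod.snd (h1 (0, x))

theorem order_prH (s : V ≃ₗ[F] V) (t : W ≃ₗ[F] W) : orderOf (prH F V W (s, t)) = Nat.lcm (orderOf s) (orderOf t) := by
  rw [orderOf_injective _ prH_inj, Prod.orderOf_mk]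

theorem inl_iso (x : V) : (Q.prod Q') (LinearMap.inl F V W x) = Q x := by
  simp [QuadraticMap.prod_apply]

theorem inr_iso (x : W) : (Q.prod Q') (LinearMap.inr F V W x) = Q' x := by
  simp [QuadraticMap.prod_apply]

theorem polar_prod (x y : V × W) : polar (Q.prod Q') x y = polar Q x.1 y.1 + polar Q' x.2 y.2 := by
  simp only [polar, QuadraticMap.prod_apply, Prod.fst_add, Prod.snd_add]
  ring

theorem ext_inl (hQ : Nd Q) (s : V ≃ₗ[F] V) : extHom (Q.prod Q') hQ (LinearMap.inl F V W) inl_iso s = prH F V W (s, 1) := by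
  ext x
  all_goals
    have h1 : prj (Q.prod Q') hQ (LinearMap.inl F V W) x = x.1 := by
      rw [← sub_eq_zero]
      apply hQ.eq_zero
      intro y
      rw [polar_sub_left, polar_prj, polar_prod]
      have h0 : polar Q' x.2 0 = 0 := by simp [polar]
      simp [h0]
    rw [extHom_apply, h1, prH_apply]
    simp

theorem ext_inr (hQ' : Nd Q') (s : W ≃ₗ[F] W) : extHom (Q.prod Q') hQ' (LinearMap.inr F V W) inr_iso s = prH F V W (1, s) := by
  ext x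
  all_goals
    have h1 : prj (Q.prod Q') hQ' (LinearMap.inr F V W) x = x.2 := by
      rw [← sub_eq_zero]
      apply hQ'.eq_zero
      intro y
      rw [polar_sub_left, polar_prj, polar_prod]
      have h0 : polar Q x.1 0 = 0 := by simp [polar]
      simp [h0]
    rw [extHom_apply, h1, prH_apply]
    simp

theorem IsPar.prod [Finite F] {h2 : (2 : F) ≠ 0} {hQ : Nd Q} {hQ' : Nd Q'} {s : V ≃ₗ[F] V} {t : W ≃ₗ[F] W} {c c' : ℤˣ × ℤˣ}
    (h : IsPar h2 hQ s c) (h' : IsPar h2 hQ' t c') : IsPar h2 (nd_prod hQ hQ') (prH F V W (s, t)) (c * c') := by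
  have h1 : prH F V W (s, t) = prH F V W (s, 1) * prH F V W (1, t) := by
    rw [← map_mul]; simp
  rw [h1]
  refine IsPar.mul ?_ ?_
  · rw [← ext_inl hQ]
    exact h.ext _
  · rw [← ext_inr hQ']
    exact h'.ext _

end prod

end Cfsg.Agent.Lib.SpecA67
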