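import Cfsg.Agent.Lib.PSLSpectrum

/-!
Final assembly for spectra of `L × L × L × (ℤ/r)^m` (helper42).
-/

set_option autoImplicit false

namespace Cfsg.Agent.Lib.SpecAssembly

open Cfsg.Agent.Lib.PSLSpectrum

theorem spectra_eq {L : Type*} [Group L] [Finite L] (r m : ℕ) [Fact r.Prime] (s u ρ : L) (hρr : r ∣ orderOf ρ)
    (htri : ∀ g : L, (∃ g' : L, r ∣ orderOf g' ∧ orderOf g ∣ orderOf g') ∨ orderOf g ∣ orderOf s ∨ orderOf g ∣ orderOf u) :
    Set.range (orderOf : L × L × L × Multiplicative (Fin m → ZMod r) → ℕ) = Set.range (orderOf : L × L × L → ℕ) ∧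
    ((∃ ρ' : L, r ∣ orderOf ρ' ∧ orderOf u ∣ orderOf ρ') →
      Set.range (orderOf : L × L × Multiplicative (Fin m → ZMod r) → ℕ) = Set.range (orderOf : L × L → ℕ)) := by
  have hz : ∀ z : Multiplicative (Fin m → ZMod r), orderOf z ∣ r := by
    intro z
    apply orderOf_dvd_of_pow_eq_one
    show r • (Multiplicative.toAdd z) = 0
    ext i
    simp
  constructor
  · apply Set.Subset.antisymm
    · apply range_orderOf_subset
      rintro ⟨x₁, x₂, x₃, z⟩
      simp only [Prod.orderOf_mk]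
      rcases htri x₁ with ⟨g', h1, h2⟩ | h1
      · refine ⟨(g', x₂, x₃), ?_⟩
        simp only [Prod.orderOf_mk]
        refine Nat.lcm_dvd (h2.trans (Nat.dvd_lcm_left _ _)) (Nat.lcm_dvd ?_ (Nat.lcm_dvd ?_ ?_))
        · exact (Nat.dvd_lcm_left _ _).trans (Nat.dvd_lcm_right _ _)
        · exact (Nat.dvd_lcm_right _ _).trans (Nat.dvd_lcm_right _ _)
        · exact ((hz z).trans h1).trans (Nat.dvd_lcm_left _ _)
      rcases htri x₂ with ⟨g', h1', h2⟩ | h2
      · refine ⟨(x₁, g', x₃), ?_⟩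
        simp only [Prod.orderOf_mk]
        refine Nat.lcm_dvd (Nat.dvd_lcm_left _ _) (Nat.lcm_dvd ?_ (Nat.lcm_dvd ?_ ?_))
        · exact (h2.trans (Nat.dvd_lcm_left _ _)).trans (Nat.dvd_lcm_right _ _)
        · exact (Nat.dvd_lcm_right _ _).trans (Nat.dvd_lcm_right _ _)
        · exact (((hz z).trans h1').trans (Nat.dvd_lcm_left _ _)).trans (Nat.dvd_lcm_right _ _)
      rcases htri x₃ with ⟨g', h1', h2'⟩ | h3
      · refine ⟨(x₁, x₂, g'), ?_⟩
        simp only [Prod.orderOf_mk]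
        refine Nat.lcm_dvd (Nat.dvd_lcm_left _ _) (Nat.lcm_dvd ?_ (Nat.lcm_dvd ?_ ?_))
        · exact (Nat.dvd_lcm_left _ _).trans (Nat.dvd_lcm_right _ _)
        · exact (h2'.trans (Nat.dvd_lcm_right _ _)).trans (Nat.dvd_lcm_right _ _)
        · exact (((hz z).trans h1').trans (Nat.dvd_lcm_right _ _)).trans (Nat.dvd_lcm_right _ _)
      refine ⟨(s, u, ρ), ?_⟩
      simp only [Prod.orderOf_mk]
      have hsu : ∀ k, (k ∣ orderOf s ∨ k ∣ orderOf u) → k ∣ (orderOf s).lcm ((orderOf u).lcm (orderOf ρ)) := by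
        rintro k (h | h)
        · exact h.trans (Nat.dvd_lcm_left _ _)
        · exact (h.trans (Nat.dvd_lcm_left _ _)).trans (Nat.dvd_lcm_right _ _)
      refine Nat.lcm_dvd (hsu _ h1) (Nat.lcm_dvd (hsu _ h2) (Nat.lcm_dvd (hsu _ h3) ?_))
      exact (((hz z).trans hρr).trans (Nat.dvd_lcm_right _ _)).trans (Nat.dvd_lcm_right _ _)
    · apply range_orderOf_subset
      rintro ⟨x₁, x₂, x₃⟩
      refine ⟨(x₁, x₂, x₃, 1), ?_⟩
      simp only [Prod.orderOf_mk, orderOf_one, Nat.lcm_one_right]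
      exact dvd_rfl
  · rintro ⟨ρ', hρr', hρu⟩
    apply Set.Subset.antisymm
    · apply range_orderOf_subset
      rintro ⟨x₁, x₂, z⟩
      simp only [Prod.orderOf_mk]
      rcases htri x₁ with ⟨g', h1, h2⟩ | h1
      · refine ⟨(g', x₂), ?_⟩
        simp only [Prod.orderOf_mk]
        refine Nat.lcm_dvd (h2.trans (Nat.dvd_lcm_left _ _)) (Nat.lcm_dvd (Nat.dvd_lcm_right _ _) ?_)
        exact ((hz z).trans h1).trans (Nat.dvd_lcm_left _ _)
      rcases htri x₂ with ⟨g', h1', h2⟩ | h2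
      · refine ⟨(x₁, g'), ?_⟩
        simp only [Prod.orderOf_mk]
        refine Nat.lcm_dvd (Nat.dvd_lcm_left _ _) (Nat.lcm_dvd (h2.trans (Nat.dvd_lcm_right _ _)) ?_)
        exact ((hz z).trans h1').trans (Nat.dvd_lcm_right _ _)
      refine ⟨(s, ρ'), ?_⟩
      simp only [Prod.orderOf_mk]
      have hsu : ∀ k, (k ∣ orderOf s ∨ k ∣ orderOf u) → k ∣ (orderOf s).lcm (orderOf ρ') := by
        rintro k (h | h)
        · exact h.trans (Nat.dvd_lcm_left _ _)
        · exact (h.trans hρu).trans (Nat.dvd_lcm_right _ _)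
      refine Nat.lcm_dvd (hsu _ h1) (Nat.lcm_dvd (hsu _ h2) ?_)
      exact ((hz z).trans hρr').trans (Nat.dvd_lcm_right _ _)
    · apply range_orderOf_subset
      rintro ⟨x₁, x₂⟩
      refine ⟨(x₁, x₂, 1), ?_⟩
      simp only [Prod.orderOf_mk, orderOf_one, Nat.lcm_one_right]
      exact dvd_rfl

end Cfsg.Agent.Lib.SpecAssembly
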