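import Mathlib
import Cfsg.Agent.Lib.SpecA67
import Cfsg.Agent.Lib.PSLTypes

/-!
(helper67) Cyclic tori of orthogonal groups: for every divisor `n` of `q^k - ε` an isometry of order `n`.
-/

set_option autoImplicit false
set_option linter.unusedSectionVars false

namespace Cfsg.Agent.Lib.SpecA67

open QuadraticMap Module Cfsg.Agent.Lib.Quad Cfsg.Agent.Lib.QuadD67 Cfsg.Agent.Lib.QuadEmb67 Cfsg.Agent.Lib.OrthR67
open Cfsg.Agent.Lib.InvSub Cfsg.Agent.Lib.PrimeOrd Cfsg.Agent.Lib.OReal67 Cfsg.Agent.Lib.OrthEmb67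

universe u v w

section semireg
variable {F : Type u} [Field F] [Finite F]
variable {V : Type v} [AddCommGroup V] [Module F V] [FiniteDimensional F V] {Q : QuadraticForm F V}

/-- a free action of a finite group -/
theorem card_dvd_of_free {G S : Type*} [Group G] [Finite G] [MulAction G S] [Finite S] (h : ∀ (g : G) (s : S), g • s = s → g = 1) :
    Nat.card G ∣ Nat.card S := by
  classical
  have e := MulAction.selfEquivSigmaOrbitsQuotientStabilizer G S
  have := Fintype.ofFinite (MulAction.orbitRel.Quotient G S)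
  have h1 : ∀ s : S, MulAction.stabilizer G s = ⊥ := fun s => by
    rw [eq_bot_iff]
    intro g hg
    exact Subgroup.mem_bot.2 (h g s hg)
  rw [Nat.card_congr e, Nat.card_sigma]
  apply Finset.dvd_sum
  intro ω _
  rw [h1, Nat.card_congr (QuotientGroup.quotientBot (G := G)).toEquiv]

theorem NN_free {τ : V ≃ₗ[F] V} (hτ : τ ∈ O Q) {N : ℕ} (hN : 0 < N) (hτN : τ ^ N = 1) (hfree : ∀ i, 0 < i → i < N → ∀ x, (τ ^ i) x = x → x = 0)
    (c : F) (δ : ℤ) (hδ : (c = 0 → δ = 1) ∧ (c ≠ 0 → δ = 0)) : (N : ℤ) ∣ (NN Q c : ℤ) - δ := by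
  classical
  have hδ' : δ = if c = 0 then 1 else 0 := by
    split_ifs with h
    · exact hδ.1 h
    · exact hδ.2 h
  rw [hδ']
  have hVfin : Finite V := Module.finite_of_finite F
  by_cases htriv : Subsingleton V
  · have h1 : ∀ v : V, v = 0 := fun v => Subsingleton.elim _ _
    have h3 : NN Q c = if c = 0 then 1 else 0 := by
      unfold NN
      split_ifs with hc
      · rw [Nat.card_eq_one_iff_unique]
        exact ⟨⟨fun a b => Subtype.ext (Subsingleton.elim _ _)⟩, ⟨⟨0, by rw [QuadraticMap.map_zero, hc]⟩⟩⟩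
      · rw [Nat.card_eq_zero]
        left
        constructor
        rintro ⟨v, hv⟩
        rw [h1 v, QuadraticMap.map_zero] at hv
        exact hc hv.symm
    rw [h3]
    split_ifs <;> simp
  rw [not_subsingleton_iff_nontrivial] at htriv
  -- the group generated by τ
  set G : Subgroup (V ≃ₗ[F] V) := Subgroup.zpowers τ with hG
  have hord : orderOf τ = N := by
    have h1 : orderOf τ ∣ N := orderOf_dvd_of_pow_eq_one hτN
    rcases Nat.lt_or_ge (orderOf τ) N with h3 | h3
    · exfalso
      obtain ⟨x, hx⟩ := exists_ne (0 : V)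
      have h4 : 0 < orderOf τ := by
        rw [orderOf_pos_iff]
        exact isOfFinOrder_iff_pow_eq_one.2 ⟨N, hN, hτN⟩
      exact hx (hfree _ h4 h3 x (by rw [pow_orderOf_eq_one]; rfl))
    · exact le_antisymm (Nat.le_of_dvd hN h1) h3
  have hcard : Nat.card G = N := by rw [hG, Nat.card_zpowers, hord]
  have hGfin : Finite G := Nat.finite_of_card_ne_zero (by rw [hcard]; omega)
  have hGO : ∀ g : G, (g : V ≃ₗ[F] V) ∈ O Q := by
    rintro ⟨g, hg⟩
    rw [hG] at hg
    exact (Subgroup.zpowers_le.2 hτ) hg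
  let S : Type v := {v : V // v ≠ 0 ∧ Q v = c}
  let hact : MulAction G S := {
    smul := fun g s => ⟨(g : V ≃ₗ[F] V) s.1, by
      refine ⟨fun h => s.2.1 ((g : V ≃ₗ[F] V).map_eq_zero_iff.1 h), ?_⟩
      rw [hGO g s.1]; exact s.2.2⟩
    one_smul := fun s => rfl
    mul_smul := fun g h s => rfl }
  have hsm : ∀ (g : G) (s : S), ((g • s : S) : V) = (g : V ≃ₗ[F] V) s := fun g s => rfl
  have hfr : ∀ (g : G) (s : S), g • s = s → g = 1 := by
    rintro ⟨g, hg⟩ s hs
    have h1 := congrArg (fun s : S => (s : V)) hs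
    simp only [hsm] at h1
    have hg' := hg
    have hfo : IsOfFinOrder τ := isOfFinOrder_iff_pow_eq_one.2 ⟨N, hN, hτN⟩
    obtain ⟨i, hi, hig⟩ : ∃ i, i < N ∧ τ ^ i = g := by
      have := (hfo.mem_zpowers_iff_mem_range_orderOf).1 hg'
      simp only [Finset.mem_image, Finset.mem_range] at this
      obtain ⟨i, hi, hig⟩ := this
      exact ⟨i, by rwa [hord] at hi, hig⟩
    rcases Nat.eq_zero_or_pos i with h3 | h3
    · apply Subtype.ext
      show g = 1
      rw [← hig, h3, pow_zero]
    · exfalso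
      exact s.2.1 (hfree i h3 hi s.1 (by rw [hig]; exact h1))
  have hdvd := card_dvd_of_free hfr
  rw [hcard] at hdvd
  have hcardS : (NN Q c : ℤ) - (if c = 0 then 1 else 0) = Nat.card S := by
    have := Fintype.ofFinite V
    have e1 : NN Q c = (Finset.univ.filter fun v : V => Q v = c).card := by
      rw [NN, Nat.card_eq_fintype_card, Fintype.card_subtype]
    have e2 : Nat.card S = (Finset.univ.filter fun v : V => v ≠ 0 ∧ Q v = c).card := by
      rw [Nat.card_eq_fintype_card, Fintype.card_subtype]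
    rw [e1, e2]
    split_ifs with hc
    · have e3 : (Finset.univ.filter fun v : V => Q v = c) = insert 0 (Finset.univ.filter fun v : V => v ≠ 0 ∧ Q v = c) := by
        ext v
        simp only [Finset.mem_filter, Finset.mem_univ, true_and, Finset.mem_insert]
        by_cases hv : v = 0
        · simp [hv, hc]
        · simp [hv]
      rw [e3, Finset.card_insert_of_notMem (by simp)]
      push_cast
      ring
    · have e3 : (Finset.univ.filter fun v : V => Q v = c) = (Finset.univ.filter fun v : V => v ≠ 0 ∧ Q v = c) := by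
        ext v
        simp only [Finset.mem_filter, Finset.mem_univ, true_and]
        refine ⟨fun h => ⟨?_, h⟩, fun h => h.2⟩
        rintro rfl
        rw [QuadraticMap.map_zero] at h
        exact hc h.symm
      rw [e3]; ring
  rw [hcardS]
  exact_mod_cast hdvd

/-- semiregular torus of order `q^k+1`: minus type -/
theorem D_minus_of_free (hQ : Nd Q) {k : ℕ} (hV : finrank F V = 2 * k) (hk : 1 ≤ k) {τ : V ≃ₗ[F] V} (hτ : τ ∈ O Q)
    (hτN : τ ^ (Nat.card F ^ k + 1) = 1) (hfree : ∀ i, 0 < i → i < Nat.card F ^ k + 1 → ∀ x, (τ ^ i) x = x → x = 0) :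
    D Q = -(Nat.card F : ℤ) ^ k := by
  have h0 := NN_free hτ (by omega) hτN hfree 0 1 ⟨fun _ => rfl, fun h => absurd rfl h⟩
  have h1 := NN_free hτ (by omega) hτN hfree 1 0 ⟨fun h => absurd h one_ne_zero, fun _ => rfl⟩
  have h3 : ((Nat.card F ^ k + 1 : ℕ) : ℤ) ∣ D Q - 1 := by
    have := dvd_sub h0 h1
    have e : D Q - 1 = ((NN Q 0 : ℤ) - 1) - ((NN Q 1 : ℤ) - 0) := by unfold D; ring
    rw [e]; exact this
  obtain ⟨_, h | h⟩ := D_cases k hQ hV
  · exfalso
    rw [h.2] at h3
    have h4 : ((Nat.card F ^ k + 1 : ℕ) : ℤ) ∣ 2 := by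
      have e : (2 : ℤ) = ((Nat.card F ^ k + 1 : ℕ) : ℤ) - ((Nat.card F : ℤ) ^ k - 1) := by push_cast; ring
      rw [e]; exact dvd_sub (dvd_refl _) h3
    have h5 : 2 ≤ Nat.card F ^ k := le_trans (Finite.one_lt_card : 1 < Nat.card F) (Nat.le_self_pow (by omega) _)
    have h6 := Int.le_of_dvd (by norm_num) h4
    push_cast at h6
    have h7 : ((2 : ℕ) : ℤ) ≤ ((Nat.card F ^ k : ℕ) : ℤ) := by exact_mod_cast h5
    push_cast at h7
    omega
  · exact h.2

theorem par_of_free (h2 : (2 : F) ≠ 0) (hQ : Nd Q) {t : V ≃ₗ[F] V} (ht : t ∈ O Q) (hV : Even (finrank F V)) (h : t = 1 ∨ ∀ x, t x = x → x = 0) :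
    ∃ c, IsPar h2 hQ t (1, c) := by
  refine ⟨_, ht, Prod.ext ?_ rfl⟩
  show sgn (Even (finrank F (mov t))) = 1
  apply sgn_true
  rcases h with h | h
  · rw [h, mov_one]; simp
  · have h1 := finrank_mov_add_fixS t
    have h3 : fixS t = ⊥ := by
      rw [eq_bot_iff]
      intro x hx
      exact (Submodule.mem_bot F).2 (h x (mem_fixS.1 hx))
    rw [h3, finrank_bot, add_zero] at h1
    rwa [h1]

end semireg

section torus
variable {F : Type u} [Field F] [Finite F]

theorem exists_order {G : Type*} [Group G] (z : G) {N : ℕ} (hz : orderOf z = N) (hN : 0 < N) {n : ℕ} (hn : n ∣ N) :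
    ∃ i, orderOf (z ^ i) = n := by
  obtain ⟨m, rfl⟩ := hn
  have hm : m ≠ 0 := by rintro rfl; simp at hN
  have hn : n ≠ 0 := by rintro rfl; simp at hN
  refine ⟨m, ?_⟩
  rw [orderOf_pow_of_dvd hm (by rw [hz]; exact dvd_mul_left _ _), hz, Nat.mul_div_cancel _ (Nat.pos_of_ne_zero hm)]

theorem trace_nd {K : Type} [Field K] [Finite K] [Algebra F K] {x : K} (h : ∀ y, Algebra.trace F K (x * y) = 0) : x = 0 := by
  have hf : Algebra.IsSeparable F K := inferInstance
  have hfd : FiniteDimensional F K := Module.Finite.of_finite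
  exact (traceForm_nondegenerate F K).1 x h

theorem torus_plus (h2 : (2 : F) ≠ 0) {k : ℕ} (hk : 1 ≤ k) {n : ℕ} (hn : n ∣ Nat.card F ^ k - 1) :
    ∃ (X : Type) (_ : AddCommGroup X) (_ : Module F X) (_ : FiniteDimensional F X) (QX : QuadraticForm F X) (hQX : Nd QX)
      (t : X ≃ₗ[F] X) (c : ℤˣ), finrank F X = 2 * k ∧ D QX = (Nat.card F : ℤ) ^ k ∧ IsPar h2 hQX t (1, c) ∧ orderOf t = n := by
  obtain ⟨K, _, _, _, hK, z, hz, hzo, -⟩ := PSLTypes.exists_ext F k hk
  have hfd : FiniteDimensional F K := Module.Finite.of_finite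
  have hq : 1 < Nat.card F := Finite.one_lt_card
  have hN : 0 < Nat.card F ^ k - 1 := by
    have := le_trans hq (Nat.le_self_pow (by omega : k ≠ 0) (Nat.card F))
    have h3 := lt_of_lt_of_le hq (Nat.le_self_pow (by omega : k ≠ 0) (Nat.card F))
    omega
  obtain ⟨i, hi⟩ := exists_order z hzo hN hn
  set ζ : Kˣ := z ^ i with hζ
  let B : LinearMap.BilinMap F (K × K) F :=
    LinearMap.mk₂ F (fun v w : K × K => Algebra.trace F K (v.1 * w.2))
      (fun a b c => by simp [add_mul]) (fun c a b => by simp) (fun a b c => by simp [mul_add]) (fun c a b => by simp)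
  have hB : ∀ v w, B v w = Algebra.trace F K (v.1 * w.2) := fun v w => rfl
  let QX : QuadraticForm F (K × K) := LinearMap.BilinMap.toQuadraticMap B
  have hQ1 : ∀ v, QX v = Algebra.trace F K (v.1 * v.2) := fun v => rfl
  have hpol : ∀ v w, polar QX v w = Algebra.trace F K (v.1 * w.2) + Algebra.trace F K (w.1 * v.2) := by
    intro v w
    simp only [polar, hQ1, Prod.fst_add, Prod.snd_add, add_mul, mul_add, map_add]
    ring
  have hQX : Nd QX := by
    apply nd_of
    rintro ⟨x, y⟩ h
    have h1 : x = 0 := by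
      apply trace_nd (F := F)
      intro w
      have := h (0, w)
      rw [hpol] at this
      simpa using this
    have h3 : y = 0 := by
      apply trace_nd (F := F)
      intro w
      have := h (w, 0)
      rw [hpol] at this
      simp only [mul_zero, map_zero, zero_add] at this
      rw [mul_comm]; exact this
    rw [h1, h3]; rfl
  let T : (K × K) →ₗ[F] (K × K) := LinearMap.prodMap (LinearMap.mulLeft F (ζ : K)) (LinearMap.mulLeft F ((ζ⁻¹ : Kˣ) : K))
  have hT : ∀ v, T v = ((ζ : K) * v.1, ((ζ⁻¹ : Kˣ) : K) * v.2) := fun v => rfl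
  have hiso : ∀ v, QX (T v) = QX v := by
    intro v
    rw [hQ1, hQ1, hT]
    show Algebra.trace F K ((ζ : K) * v.1 * (((ζ⁻¹ : Kˣ) : K) * v.2)) = _
    congr 1
    rw [mul_mul_mul_comm, Units.mul_inv, one_mul]
  set t := ofMap hQX T hiso with ht
  have htO : t ∈ O QX := ofMap_mem _ _ _
  have htv : ∀ v, t v = ((ζ : K) * v.1, ((ζ⁻¹ : Kˣ) : K) * v.2) := fun v => rfl
  have htp : ∀ (j : ℕ) v, (t ^ j) v = (((ζ ^ j : Kˣ) : K) * v.1, (((ζ⁻¹) ^ j : Kˣ) : K) * v.2) := by
    intro j
    induction j with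
    | zero => intro v; simp
    | succ j ih =>
      intro v
      rw [pow_succ', LinearEquiv.mul_apply, ih, htv]
      simp only [pow_succ', Units.val_mul, mul_assoc]
  have hone : ∀ j : ℕ, t ^ j = 1 ↔ ζ ^ j = 1 := by
    intro j
    constructor
    · intro h
      have h1 := htp j (1, 0)
      rw [h] at h1
      have h3 := congrArg Prod.fst h1
      simp only [mul_one] at h3
      exact Units.ext h3.symm
    · intro h
      ext v
      · rw [htp, h]; simp
      · rw [htp, inv_pow, h]; simp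
  have hord : orderOf t = n := by
    rw [← hi]
    apply Nat.dvd_antisymm
    · rw [orderOf_dvd_iff_pow_eq_one, hone]; exact pow_orderOf_eq_one _
    · rw [orderOf_dvd_iff_pow_eq_one, ← hone]; exact pow_orderOf_eq_one _
  have hdim : finrank F (K × K) = 2 * k := by rw [Module.finrank_prod, hK]; ring
  have hD : D QX = (Nat.card F : ℤ) ^ k := by
    let W : Submodule F (K × K) := LinearMap.range (LinearMap.inl F K K)
    have hW : finrank F W = k := by
      rw [LinearMap.finrank_range_of_inj (LinearMap.inl_injective), hK]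
    rw [← hW]
    apply D_of_ts hQX
    · rintro _ ⟨x, rfl⟩
      rw [hQ1]; simp
    · rw [hW, hdim]
  obtain ⟨c, hc⟩ := par_of_free h2 hQX htO (by rw [hdim]; exact even_two_mul k) (by
    by_cases h1 : ζ = 1
    · left
      have := (hone 1).2 (by rw [pow_one, h1])
      rwa [pow_one] at this
    · right
      intro v hv
      rw [htv] at hv
      have h3 := congrArg Prod.fst hv
      have h4 := congrArg Prod.snd hv
      simp only at h3 h4
      have h5 : ((ζ : K) - 1) * v.1 = 0 := by linear_combination h3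
      have h6 : (((ζ⁻¹ : Kˣ) : K) - 1) * v.2 = 0 := by linear_combination h4
      have h7 : (ζ : K) - 1 ≠ 0 := fun h => h1 (Units.ext (sub_eq_zero.1 h))
      have h8 : ((ζ⁻¹ : Kˣ) : K) - 1 ≠ 0 := fun h => h1 (by
        have := Units.ext (sub_eq_zero.1 h) (u := ζ⁻¹) (v := 1)
        exact inv_eq_one.1 this)
      exact Prod.ext ((mul_eq_zero.1 h5).resolve_left h7) ((mul_eq_zero.1 h6).resolve_left h8))
  exact ⟨K × K, inferInstance, inferInstance, inferInstance, QX, hQX, t, c, hdim, hD, hc, hord⟩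

theorem torus_minus (h2 : (2 : F) ≠ 0) {k : ℕ} (hk : 1 ≤ k) {n : ℕ} (hn : n ∣ Nat.card F ^ k + 1) :
    ∃ (X : Type) (_ : AddCommGroup X) (_ : Module F X) (_ : FiniteDimensional F X) (QX : QuadraticForm F X) (hQX : Nd QX)
      (t : X ≃ₗ[F] X) (c : ℤˣ), finrank F X = 2 * k ∧ D QX = -(Nat.card F : ℤ) ^ k ∧ IsPar h2 hQX t (1, c) ∧ orderOf t = n := by
  obtain ⟨K, _, _, _, hK, z, hz, hzo, -⟩ := PSLTypes.exists_ext F (2 * k) (by omega)
  have hfd : FiniteDimensional F K := Module.Finite.of_finite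
  have := Fintype.ofFinite F
  have hq : 1 < Nat.card F := Finite.one_lt_card
  have hqk : 1 < Nat.card F ^ k := lt_of_lt_of_le hq (Nat.le_self_pow (by omega : k ≠ 0) (Nat.card F))
  have hfac : Nat.card F ^ (2 * k) - 1 = (Nat.card F ^ k - 1) * (Nat.card F ^ k + 1) := by
    obtain ⟨a, ha⟩ : ∃ a, Nat.card F ^ k = a + 1 := ⟨Nat.card F ^ k - 1, by omega⟩
    rw [mul_comm 2 k, pow_mul, ha]
    have : (a + 1) ^ 2 = a * (a + 1 + 1) + 1 := by ring
    rw [this]; simp
  have hcard : Nat.card K = Nat.card F ^ (2 * k) := by rw [Module.natCard_eq_pow_finrank (K := F), hK]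
  set w : Kˣ := z ^ (Nat.card F ^ k - 1) with hw
  have hwo : orderOf w = Nat.card F ^ k + 1 := by
    rw [hw, orderOf_pow_of_dvd (by omega) (by rw [hzo, hfac]; exact dvd_mul_right _ _), hzo, hfac,
      Nat.mul_div_cancel_left _ (by omega)]
  obtain ⟨i, hi⟩ := exists_order w hwo (by omega) hn
  let σ : K →ₐ[F] K := (FiniteField.frobeniusAlgHom F K) ^ k
  have hσ : ∀ x, σ x = x ^ (Nat.card F ^ k) := by
    intro x
    have : ∀ j : ℕ, ((FiniteField.frobeniusAlgHom F K) ^ j) x = x ^ (Nat.card F ^ j) := by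
      intro j
      induction j with
      | zero => simp
      | succ j ih =>
        rw [pow_succ', AlgHom.mul_apply, ih, FiniteField.frobeniusAlgHom_apply, ← pow_mul, pow_succ, Nat.card_eq_fintype_card]
    exact this k
  have hσσ : ∀ x, σ (σ x) = x := by
    intro x
    have hKf := Fintype.ofFinite K
    rw [hσ, hσ, ← pow_mul, ← pow_add, ← two_mul, ← hcard, Nat.card_eq_fintype_card (α := K)]
    exact FiniteField.pow_card x
  have htr : ∀ x, Algebra.trace F K (σ x) = Algebra.trace F K x := by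
    intro x
    let e : K ≃ₐ[F] K := AlgEquiv.ofBijective σ ⟨σ.toRingHom.injective, fun x => ⟨σ x, hσσ x⟩⟩
    exact Algebra.trace_eq_of_algEquiv e x
  let B : LinearMap.BilinMap F K F :=
    LinearMap.mk₂ F (fun x y : K => Algebra.trace F K (x * σ y))
      (fun a b c => by simp [add_mul]) (fun c a b => by simp) (fun a b c => by simp [mul_add]) (fun c a b => by simp)
  let QX : QuadraticForm F K := LinearMap.BilinMap.toQuadraticMap B
  have hQ1 : ∀ x, QX x = Algebra.trace F K (x * σ x) := fun x => rfl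
  have hpol : ∀ x y, polar QX x y = 2 * Algebra.trace F K (x * σ y) := by
    intro x y
    have h1 : Algebra.trace F K (y * σ x) = Algebra.trace F K (x * σ y) := by
      rw [← htr (y * σ x), map_mul, hσσ, mul_comm]
    simp only [polar, hQ1, map_add, add_mul, mul_add]
    rw [h1]; ring
  have hQX : Nd QX := by
    apply nd_of
    intro x h
    apply trace_nd (F := F)
    intro y
    have h1 := h (σ y)
    rw [hpol, hσσ] at h1
    exact (mul_eq_zero.1 h1).resolve_left h2
  have hmk : ∀ u : Kˣ, u ^ (Nat.card F ^ k + 1) = 1 → ∀ x, QX ((u : K) * x) = QX x := by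
    intro u hu x
    have h1 : (u : K) * σ (u : K) = 1 := by
      rw [hσ, ← pow_succ', ← Units.val_pow_eq_pow_val, hu, Units.val_one]
    have h3 : ((u : K) * x) * σ ((u : K) * x) = x * σ x := by
      rw [map_mul σ, mul_mul_mul_comm, h1, one_mul]
    rw [hQ1, hQ1, h3]
  let tt : (u : Kˣ) → (hu : u ^ (Nat.card F ^ k + 1) = 1) → (K ≃ₗ[F] K) := fun u hu => ofMap hQX (LinearMap.mulLeft F (u : K)) (hmk u hu)
  have htt : ∀ u hu x, tt u hu x = (u : K) * x := fun u hu x => rfl
  have httO : ∀ u hu, tt u hu ∈ O QX := fun u hu => ofMap_mem _ _ _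
  have htp : ∀ u hu (j : ℕ) x, ((tt u hu) ^ j) x = ((u ^ j : Kˣ) : K) * x := by
    intro u hu j
    induction j with
    | zero => intro x; simp
    | succ j ih =>
      intro x
      rw [pow_succ', LinearEquiv.mul_apply, ih]
      show (u : K) * (((u ^ j : Kˣ) : K) * x) = _
      simp only [pow_succ', Units.val_mul, mul_assoc]
  have hone : ∀ u hu (j : ℕ), (tt u hu) ^ j = 1 ↔ u ^ j = 1 := by
    intro u hu j
    constructor
    · intro h
      have h1 := htp u hu j 1
      rw [h] at h1
      rw [mul_one] at h1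
      exact Units.ext h1.symm
    · intro h
      ext x
      rw [htp u hu, h]; simp
  have hfree : ∀ u hu (j : ℕ), u ^ j ≠ 1 → ∀ x, ((tt u hu) ^ j) x = x → x = 0 := by
    intro u hu j huj x hx
    rw [htp u hu] at hx
    have h5 : (((u ^ j : Kˣ) : K) - 1) * x = 0 := by linear_combination hx
    exact (mul_eq_zero.1 h5).resolve_left (fun h => huj (Units.ext (sub_eq_zero.1 h)))
  have hwN : w ^ (Nat.card F ^ k + 1) = 1 := by rw [← hwo]; exact pow_orderOf_eq_one w
  have hD : D QX = -(Nat.card F : ℤ) ^ k := by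
    apply D_minus_of_free hQX hK hk (httO w hwN)
    · exact (hone w hwN _).2 hwN
    · intro j hj1 hj2
      refine hfree w hwN j ?_
      intro h
      have := Nat.le_of_dvd hj1 (orderOf_dvd_of_pow_eq_one h)
      rw [hwo] at this
      omega
  set ζ : Kˣ := w ^ i with hζ
  have hζN : ζ ^ (Nat.card F ^ k + 1) = 1 := by rw [hζ, ← pow_mul, mul_comm, pow_mul, hwN, one_pow]
  have hord : orderOf (tt ζ hζN) = n := by
    rw [← hi]
    apply Nat.dvd_antisymm
    · rw [orderOf_dvd_iff_pow_eq_one, hone ζ hζN]; exact pow_orderOf_eq_one _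
    · rw [orderOf_dvd_iff_pow_eq_one, ← hone ζ hζN]; exact pow_orderOf_eq_one _
  obtain ⟨c, hc⟩ := par_of_free h2 hQX (httO ζ hζN) (by rw [hK]; exact even_two_mul k) (by
    by_cases h1 : ζ = 1
    · left
      have := (hone ζ hζN 1).2 (by rw [pow_one, h1])
      rwa [pow_one] at this
    · right
      intro x hx
      exact hfree ζ hζN 1 (by rw [pow_one]; exact h1) x (by rw [pow_one]; exact hx))
  exact ⟨K, inferInstance, inferInstance, inferInstance, QX, hQX, tt ζ hζN, c, hK, hD, hc, hord⟩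

end torus

end Cfsg.Agent.Lib.SpecA67
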