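import Mathlib
import Cfsg.Agent.Lib.SpecB67
import Cfsg.Agent.Lib.SpPGB67

/-!
(helper67) Irreducible actions of one linear map: the field it generates, and invariant forms.
-/

set_option autoImplicit false
set_option linter.unusedSectionVars false

namespace Cfsg.Agent.Lib.SpecA67

open QuadraticMap Module Cfsg.Agent.Lib.Quad Cfsg.Agent.Lib.QuadD67 Cfsg.Agent.Lib.QuadEmb67 Cfsg.Agent.Lib.OrthR67
open Cfsg.Agent.Lib.InvSub Cfsg.Agent.Lib.PrimeOrd Cfsg.Agent.Lib.OReal67 Cfsg.Agent.Lib.OrthEmb67

universe u v w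

section field
variable {F : Type u} {W : Type v} [Field F] [Finite F] [AddCommGroup W] [Module F W] [FiniteDimensional F W]

theorem exists_field_irr [Nontrivial W] (T : End F W) (hirr : ∀ U : Submodule F W, (∀ x ∈ U, T x ∈ U) → U = ⊥ ∨ U = ⊤) :
    ∃ (K : Type v) (_ : Field K) (_ : Finite K) (_ : Algebra F K) (_ : FiniteDimensional F K) (_ : Module K W)
      (_ : IsScalarTower F K W), finrank F K = finrank F W ∧ finrank K W = 1 ∧
      ∃ t : K, (∀ x : W, t • x = T x) ∧ Algebra.adjoin F {t} = ⊤ := by
  classical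
  have hWfin : Finite W := Module.finite_of_finite F
  have hEfin : Finite (End F W) := Module.finite_of_finite F
  let K : Subalgebra F (End F W) := Algebra.adjoin F {T}
  have hTK : T ∈ K := Algebra.self_mem_adjoin_singleton F T
  have hcommT : ∀ k ∈ K, k * T = T * k := by
    intro k hk
    have h1 : K ≤ Subalgebra.centralizer F {T} := by
      apply Algebra.adjoin_le
      intro x hx
      rw [Set.mem_singleton_iff] at hx
      subst hx
      rw [SetLike.mem_coe, Subalgebra.mem_centralizer_iff]
      intro g hg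
      rw [Set.mem_singleton_iff] at hg
      rw [hg]
    exact ((Subalgebra.mem_centralizer_iff F).1 (h1 hk) T rfl).symm
  have hinj : ∀ k ∈ K, k ≠ 0 → ∀ v, k v = 0 → v = 0 := by
    intro k hk hk0 v hv
    by_contra hv0
    apply hk0
    rcases hirr (LinearMap.ker k) (by
      intro x hx
      rw [LinearMap.mem_ker] at hx ⊢
      have h1 := LinearMap.congr_fun (hcommT k hk) x
      rw [Module.End.mul_apply, Module.End.mul_apply, hx, map_zero] at h1
      exact h1) with h | h
    · exfalso
      apply hv0
      have : v ∈ LinearMap.ker k := hv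
      rw [h] at this
      exact (Submodule.mem_bot F).1 this
    · exact LinearMap.ker_eq_top.1 h
  have hdom : IsDomain K := by
    have hntK : Nontrivial K := inferInstance
    have hnz : NoZeroDivisors K := by
      refine ⟨fun {a b} hab => ?_⟩
      by_contra hcon
      push Not at hcon
      obtain ⟨v, hv⟩ := exists_ne (0 : W)
      apply hv
      apply hinj b b.2 (fun h => hcon.2 (Subtype.ext h))
      apply hinj a a.2 (fun h => hcon.1 (Subtype.ext h))
      exact congrArg (fun T : K => (T : End F W) v) hab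
    exact NoZeroDivisors.to_isDomain K
  have hfield : IsField K := Finite.isDomain_to_isField K
  let _ : Field K := hfield.toField
  let t : K := ⟨T, hTK⟩
  have hmul : finrank F K * finrank K W = finrank F W := Module.finrank_mul_finrank F K W
  have hKW : finrank K W = 1 := by
    obtain ⟨w0, hw0⟩ := exists_ne (0 : W)
    rw [finrank_eq_one_iff_of_nonzero' (K := K) w0 hw0]
    intro w
    let U : Submodule F W := (Submodule.span K {w0}).restrictScalars F
    rcases hirr U (by
      intro x hx
      obtain ⟨k, rfl⟩ := Submodule.mem_span_singleton.1 hx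
      exact Submodule.mem_span_singleton.2 ⟨t * k, by rw [mul_smul]; rfl⟩) with h | h
    · exfalso
      have h1 : w0 ∈ U := Submodule.mem_span_singleton_self w0
      rw [h] at h1
      exact hw0 ((Submodule.mem_bot F).1 h1)
    · have h1 : w ∈ U := by rw [h]; trivial
      exact Submodule.mem_span_singleton.1 h1
  rw [hKW, mul_one] at hmul
  refine ⟨K, inferInstance, inferInstance, inferInstance, inferInstance, inferInstance, inferInstance, hmul, hKW, t,
    fun x => rfl, ?_⟩
  rw [eq_top_iff]
  rintro ⟨k, hk⟩ _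
  have h1 : K ≤ (Algebra.adjoin F {t}).map K.val := by
    apply Algebra.adjoin_le
    intro x hx
    rw [Set.mem_singleton_iff] at hx
    subst hx
    exact ⟨t, Algebra.self_mem_adjoin_singleton F t, rfl⟩
  obtain ⟨k', hk', hkk⟩ := h1 hk
  have : k' = ⟨k, hk⟩ := Subtype.ext hkk
  rw [← this]; exact hk'

/-- an irreducible invertible map has order dividing `q^k-1` -/
theorem irr_pow [Nontrivial W] (T : End F W) (hT : ∀ x, T x = 0 → x = 0) (hirr : ∀ U : Submodule F W, (∀ x ∈ U, T x ∈ U) → U = ⊥ ∨ U = ⊤) :
    T ^ (Nat.card F ^ finrank F W - 1) = 1 := by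
  obtain ⟨K, _, _, _, _, _, _, h1, h3, t, ht, hadj⟩ := exists_field_irr T hirr
  have hcard : Nat.card K = Nat.card F ^ finrank F W := by rw [← h1]; exact Module.natCard_eq_pow_finrank
  have ht0 : t ≠ 0 := by
    rintro rfl
    obtain ⟨x, hx⟩ := exists_ne (0 : W)
    exact hx (hT x (by rw [← ht, zero_smul]))
  have hp : ∀ (n : ℕ) (x : W), t ^ n • x = (T ^ n) x := by
    intro n
    induction n with
    | zero => intro x; simp
    | succ n ih => intro x; rw [pow_succ, pow_succ, mul_smul, ht, ih, Module.End.mul_apply]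
  ext x
  rw [← hp, ← hcard]
  have : Fintype K := Fintype.ofFinite K
  rw [Nat.card_eq_fintype_card, FiniteField.pow_card_sub_one_eq_one t ht0, one_smul]
  rfl

/-- an irreducible isometry of a nondegenerate bilinear form has even degree `2h` and order dividing `q^h+1` -/
theorem irr_form {K : Type w} [Field K] [Finite K] [Algebra F K] [Module K W] [IsScalarTower F K W] [FiniteDimensional F K] {T : End F W} {t : K}
    (ht : ∀ x : W, t • x = T x) (hadj : Algebra.adjoin F {t} = ⊤) (ht0 : t ≠ 0) (h2k : 2 ≤ finrank F K) (β : W →ₗ[F] W →ₗ[F] F)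
    (hβ : ∀ x y, β (T x) (T y) = β x y) (hβ0 : ∃ x y, β x y ≠ 0) :
    ∃ h, finrank F K = 2 * h ∧ t ^ (Nat.card F ^ h + 1) = 1 := by
  have hf := Fintype.ofFinite F
  obtain ⟨x0, y0, hxy⟩ := hβ0
  -- adjoint of a polynomial in t
  have hadj2 : ∀ (P : Polynomial F) (x y : W), β ((Polynomial.aeval t P) • x) y = β x ((Polynomial.aeval t⁻¹ P) • y) := by
    have hti : ∀ x y, β (t • x) y = β x (t⁻¹ • y) := by
      intro x y
      have h1 := hβ x (t⁻¹ • y)
      rw [← ht, ← ht, smul_smul, mul_inv_cancel₀ ht0, one_smul] at h1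
      exact h1
    have htn : ∀ (n : ℕ) x y, β (t ^ n • x) y = β x ((t⁻¹) ^ n • y) := by
      intro n
      induction n with
      | zero => intro x y; simp
      | succ n ih => intro x y; rw [pow_succ, mul_smul, ih, hti, smul_smul, pow_succ']
    intro P
    induction P using Polynomial.induction_on' with
    | add p q hp hq => intro x y; rw [map_add, map_add, add_smul, add_smul, map_add, map_add, LinearMap.add_apply, hp, hq]
    | monomial n a =>
      intro x y
      have e1 : ∀ (u v : W), β (a • u) v = a * β u v := fun u v => by rw [LinearMap.map_smul, LinearMap.smul_apply, smul_eq_mul]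
      have e2 : ∀ (u v : W), β u (a • v) = a * β u v := fun u v => by rw [LinearMap.map_smul, smul_eq_mul]
      rw [Polynomial.aeval_monomial, Polynomial.aeval_monomial, mul_smul, mul_smul, algebraMap_smul, algebraMap_smul, e1, e2, htn]
  have hroot : Polynomial.aeval t⁻¹ (minpoly F t) = 0 := by
    by_contra hne
    apply hxy
    have h1 := hadj2 (minpoly F t) x0 ((Polynomial.aeval t⁻¹ (minpoly F t))⁻¹ • y0)
    rw [minpoly.aeval, zero_smul, map_zero, LinearMap.zero_apply, smul_smul, mul_inv_cancel₀ hne, one_smul] at h1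
    exact h1.symm
  have halg : IsAlgebraic F t := (Algebra.IsIntegral.isIntegral t).isAlgebraic
  obtain ⟨τ, hτ⟩ := minpoly.exists_algEquiv_of_root halg hroot
  obtain ⟨j, hj⟩ := (FiniteField.bijective_frobeniusAlgEquivOfAlgebraic_pow F K).2 τ
  have hfr : ∀ (i : ℕ) (x : K), ((FiniteField.frobeniusAlgEquivOfAlgebraic F K) ^ i) x = x ^ (Nat.card F ^ i) := by
    intro i x
    have h1 : ⇑((FiniteField.frobeniusAlgEquivOfAlgebraic F K) ^ i) = (⇑(FiniteField.frobeniusAlgEquivOfAlgebraic F K))^[i] := AlgEquiv.coe_pow _ _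
    rw [h1, FiniteField.coe_frobeniusAlgEquivOfAlgebraic_iterate, Nat.card_eq_fintype_card]
  have h3 : t ^ (Nat.card F ^ (j : ℕ)) = t⁻¹ := by
    have h5 : t⁻¹ ^ (Nat.card F ^ (j : ℕ)) = t := by
      rw [← hfr]
      have e : (FiniteField.frobeniusAlgEquivOfAlgebraic F K ^ (j : ℕ)) = τ := hj
      rw [e]; exact hτ
    rw [inv_pow] at h5
    rw [← h5, inv_inv, h5]
  have h4 : ((FiniteField.frobeniusAlgEquivOfAlgebraic F K) ^ (2 * (j : ℕ))) = 1 := by
    have h5 : ∀ x ∈ Algebra.adjoin F {t}, ((FiniteField.frobeniusAlgEquivOfAlgebraic F K) ^ (2 * (j : ℕ))) x = x := by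
      intro x hx
      induction hx using Algebra.adjoin_induction with
      | mem x hx =>
        rw [Set.mem_singleton_iff] at hx
        subst hx
        rw [hfr, two_mul, pow_add, pow_mul, h3, inv_pow, h3, inv_inv]
      | algebraMap c => exact AlgEquiv.commutes _ c
      | add a b _ _ ha hb => rw [map_add, ha, hb]
      | mul a b _ _ ha hb => rw [map_mul, ha, hb]
    ext x
    exact h5 x (by rw [hadj]; trivial)
  have h6 : orderOf (FiniteField.frobeniusAlgEquivOfAlgebraic F K) = finrank F K := FiniteField.orderOf_frobeniusAlgEquivOfAlgebraic F K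
  have h7 := orderOf_dvd_of_pow_eq_one h4
  rw [h6] at h7
  have hj2 := j.2
  rcases Nat.eq_zero_or_pos (j : ℕ) with h8 | h8
  · exfalso
    rw [h8, pow_zero, pow_one] at h3
    have h9 : t * t = 1 := by nth_rewrite 1 [h3]; exact inv_mul_cancel₀ ht0
    have h10 : (t - 1) * (t + 1) = 0 := by linear_combination h9
    have h11 : ∃ c : F, t = algebraMap F K c := by
      rcases mul_eq_zero.1 h10 with h | h
      · exact ⟨1, by rw [map_one]; exact sub_eq_zero.1 h⟩
      · exact ⟨-1, by rw [map_neg, map_one]; exact eq_neg_of_add_eq_zero_left h⟩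
    obtain ⟨c, hc⟩ := h11
    have h12 : (⊥ : Subalgebra F K) = ⊤ := by
      rw [← hadj, hc]
      symm
      rw [eq_bot_iff]
      apply Algebra.adjoin_le
      rintro x hx
      rw [Set.mem_singleton_iff] at hx
      rw [hx]
      exact Subalgebra.algebraMap_mem _ _
    have h13 : finrank F K = 1 := Subalgebra.bot_eq_top_iff_finrank_eq_one.1 h12
    omega
  · obtain ⟨c, hc⟩ := h7
    have hc1 : c = 1 := by
      rcases Nat.lt_or_ge c 2 with h | h
      · rcases Nat.eq_zero_or_pos c with h' | h'
        · rw [h', mul_zero] at hc; omega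
        · omega
      · have : finrank F K * 2 ≤ finrank F K * c := Nat.mul_le_mul_left _ h
        omega
    rw [hc1, mul_one] at hc
    exact ⟨j, hc.symm, by rw [pow_succ, h3, inv_mul_cancel₀ ht0]⟩

end field

end Cfsg.Agent.Lib.SpecA67
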