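import Mathlib
import Cfsg.Agent.Lib.SpecF67
import Cfsg.Agent.Lib.Sesq2

/-!
(helper67) Blocks of a semisimple isometry.
-/

set_option autoImplicit false
set_option linter.unusedSectionVars false

namespace Cfsg.Agent.Lib.SpecA67

open QuadraticMap Module Cfsg.Agent.Lib.Quad Cfsg.Agent.Lib.QuadD67 Cfsg.Agent.Lib.QuadEmb67 Cfsg.Agent.Lib.OrthR67
open Cfsg.Agent.Lib.InvSub Cfsg.Agent.Lib.PrimeOrd Cfsg.Agent.Lib.OReal67 Cfsg.Agent.Lib.OrthEmb67

universe u v w

section blocks
variable {F : Type u} [Field F] [Finite F]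
variable {V : Type v} [AddCommGroup V] [Module F V] [FiniteDimensional F V] {Q : QuadraticForm F V} {T : Module.End F V} {m : ℕ}

/-- semisimple isometry -/
structure Sys (Q : QuadraticForm F V) (T : Module.End F V) (m : ℕ) : Prop where
  nd : Nd Q
  iso : ∀ v, Q (T v) = Q v
  pow : T ^ m = 1
  ne : (m : F) ≠ 0

theorem Sys.m0 (h : Sys Q T m) : 0 < m := Nat.pos_of_ne_zero (fun h0 => h.ne (by rw [h0, Nat.cast_zero]))

theorem Sys.inj (h : Sys Q T m) {x : V} (hx : T x = 0) : x = 0 := by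
  have h1 : (T ^ m) x = x := by rw [h.pow]; rfl
  have := h.m0
  obtain ⟨k, rfl⟩ : ∃ k, m = k + 1 := ⟨m - 1, by omega⟩
  rw [pow_succ, Module.End.mul_apply, hx, map_zero] at h1
  exact h1.symm

theorem Sys.compl_in (h : Sys Q T m) {A C : Submodule F V} (hA : Inv T A) (hC : Inv T C) (hAC : A ≤ C) :
    ∃ B ≤ C, Inv T B ∧ Disjoint A B ∧ A ⊔ B = C := by
  have hsq : Squarefree (Polynomial.X ^ m - 1 : Polynomial F) := by
    have hs : (Polynomial.X ^ m - 1 : Polynomial F).Separable := by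
      have := Polynomial.X_pow_sub_one_separable_iff (F := F) (n := m)
      exact this.2 h.ne
    exact hs.squarefree
  have hs := Module.End.isSemisimple_of_squarefree_aeval_eq_zero (f := T) hsq (by simp [h.pow])
  rw [Module.End.isSemisimple_iff] at hs
  obtain ⟨B, hB, hAB⟩ := hs A (fun x hx => hA x hx)
  refine ⟨B ⊓ C, inf_le_right, Sesq.inv_inf (fun x hx => hB hx) hC, ?_, ?_⟩
  · exact hAB.disjoint.mono_right inf_le_left
  · rw [← sup_inf_assoc_of_le B hAC, hAB.sup_eq_top, top_inf_eq]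

theorem Sys.isoB (h : Sys Q T m) : Sesq.Iso (σ := RingHom.id F) (Bq Q) T := iso_bq h.iso

/-- irreducible invariant subspace -/
def Irr (T : Module.End F V) (X : Submodule F V) : Prop := Inv T X ∧ X ≠ ⊥ ∧ ∀ U ≤ X, Inv T U → U = ⊥ ∨ U = X

theorem exists_irr {W : Submodule F V} (hW : Inv T W) (hne : W ≠ ⊥) : ∃ X ≤ W, Irr T X := by
  obtain ⟨n, hn⟩ : ∃ n, finrank F W = n := ⟨_, rfl⟩
  induction n using Nat.strong_induction_on generalizing W with
  | _ n ih =>
    by_cases h : ∀ U ≤ W, Inv T U → U = ⊥ ∨ U = W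
    · exact ⟨W, le_rfl, hW, hne, h⟩
    · push Not at h
      obtain ⟨U, hU, hUi, hU1, hU2⟩ := h
      obtain ⟨X, hX, hX'⟩ := ih (finrank F U) (by
        rw [← hn]
        exact Submodule.finrank_lt_finrank_of_lt (lt_of_le_of_ne hU hU2)) hUi hU1 rfl
      exact ⟨X, hX.trans hU, hX'⟩

theorem Irr.hirr {X : Submodule F V} (h : Irr T X) : ∀ U : Submodule F X, (∀ x ∈ U, (T.restrict h.1) x ∈ U) → U = ⊥ ∨ U = ⊤ := by
  intro U hU
  have h1 := h.2.2 (U.map X.subtype) (by
    rintro _ ⟨x, _, rfl⟩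
    exact x.2) (by
    rintro _ ⟨x, hx, rfl⟩
    exact ⟨(T.restrict h.1) x, hU x hx, rfl⟩)
  rcases h1 with h1 | h1
  · left
    rw [eq_bot_iff]
    intro x hx
    have h3 : (x : V) ∈ U.map X.subtype := ⟨x, hx, rfl⟩
    rw [h1, Submodule.mem_bot] at h3
    exact (Submodule.mem_bot F).2 (Subtype.ext h3)
  · right
    rw [eq_top_iff]
    intro x _
    have h3 : (x : V) ∈ U.map X.subtype := by rw [h1]; exact x.2
    obtain ⟨y, hy, hyx⟩ := h3
    have : y = x := Subtype.ext hyx
    rwa [← this]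

theorem Irr.nontrivial {X : Submodule F V} (h : Irr T X) : Nontrivial X := (Submodule.nontrivial_iff_ne_bot).2 h.2.1

theorem restrict_pow' {X : Submodule F V} (hX : Inv T X) (k : ℕ) (x : X) : (((T.restrict hX) ^ k) x : V) = (T ^ k) x := by
  induction k generalizing x with
  | zero => rfl
  | succ k ih => rw [pow_succ, pow_succ, Module.End.mul_apply, Module.End.mul_apply, ih]; rfl

theorem Irr.pow {X : Submodule F V} (h : Irr T X) (hT : ∀ x, T x = 0 → x = 0) : ∀ x ∈ X, (T ^ (Nat.card F ^ finrank F X - 1)) x = x := by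
  intro x hx
  have hn := h.nontrivial
  have h1 := irr_pow (T.restrict h.1) (by
    intro x hx
    exact Subtype.ext (hT x (congrArg Subtype.val hx))) h.hirr
  have h3 := restrict_pow' h.1 (Nat.card F ^ finrank F X - 1) ⟨x, hx⟩
  rw [h1] at h3
  exact h3.symm

theorem Irr.form {X : Submodule F V} (h : Irr T X) (hT : ∀ x, T x = 0 → x = 0) (h2 : 2 ≤ finrank F X) (β : X →ₗ[F] X →ₗ[F] F)
    (hβ : ∀ x y, β ((T.restrict h.1) x) ((T.restrict h.1) y) = β x y) (hβ0 : ∃ x y, β x y ≠ 0) :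
    ∃ h, finrank F X = 2 * h ∧ ∀ x ∈ X, (T ^ (Nat.card F ^ h + 1)) x = x := by
  have hn := h.nontrivial
  obtain ⟨K, _, _, _, _, _, _, h1, h3, t, ht, hadj⟩ := exists_field_irr (T.restrict h.1) h.hirr
  have ht0 : t ≠ 0 := by
    rintro rfl
    obtain ⟨x, hx⟩ := exists_ne (0 : X)
    exact hx (Subtype.ext (hT x (by
      have := congrArg Subtype.val (ht x)
      rw [zero_smul] at this
      exact this.symm)))
  obtain ⟨k, hk, hk'⟩ := irr_form ht hadj ht0 (by rw [h1]; exact h2) β hβ hβ0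
  refine ⟨k, by rw [← h1]; exact hk, ?_⟩
  have hp : ∀ (n : ℕ) (x : X), t ^ n • x = ((T.restrict h.1) ^ n) x := by
    intro n
    induction n with
    | zero => intro x; simp
    | succ n ih => intro x; rw [pow_succ, pow_succ, mul_smul, ht, ih, Module.End.mul_apply]
  intro x hx
  have h4 := hp (Nat.card F ^ k + 1) ⟨x, hx⟩
  rw [hk', one_smul] at h4
  have h5 := congrArg Subtype.val h4
  rw [restrict_pow'] at h5
  exact h5.symm

theorem Irr.nd {X : Submodule F V} (hs : Sys Q T m) (h20 : (2 : F) ≠ 0) (h : Irr T X) (hX : NDq Q X) (h2 : 2 ≤ finrank F X) :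
    ∃ k, 1 ≤ k ∧ finrank F X = 2 * k ∧ (∀ x ∈ X, (T ^ (Nat.card F ^ k + 1)) x = x) ∧ D (res Q X) = -(Nat.card F : ℤ) ^ k := by
  have hn := h.nontrivial
  obtain ⟨K, _, _, _, _, _, _, h1, h3, t, ht, hadj⟩ := exists_field_irr (T.restrict h.1) h.hirr
  have ht0 : t ≠ 0 := by
    rintro rfl
    obtain ⟨x, hx⟩ := exists_ne (0 : X)
    exact hx (Subtype.ext (hs.inj (by
      have := congrArg Subtype.val (ht x)
      rw [zero_smul] at this
      exact this.symm)))
  let β : X →ₗ[F] X →ₗ[F] F := (Bq Q).domRestrict₁₂ X X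
  have hβe : ∀ x y : X, β x y = polar Q (x : V) y := fun x y => rfl
  have hβ : ∀ x y, β ((T.restrict h.1) x) ((T.restrict h.1) y) = β x y := by
    intro x y
    rw [hβe, hβe]
    exact polar_map T hs.iso _ _
  have hβ0 : ∃ x y, β x y ≠ 0 := by
    obtain ⟨x, hx⟩ := exists_ne (0 : X)
    by_contra hcon
    push Not at hcon
    exact hx (Subtype.ext (hX x x.2 (fun w hw => hcon x ⟨w, hw⟩)))
  obtain ⟨k, hk, hk'⟩ := irr_form ht hadj ht0 (by rw [h1]; exact h2) β hβ hβ0
  have hkX : finrank F X = 2 * k := by rw [← h1]; exact hk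
  have hk1 : 1 ≤ k := by omega
  have hp : ∀ (n : ℕ) (x : X), t ^ n • x = ((T.restrict h.1) ^ n) x := by
    intro n
    induction n with
    | zero => intro x; simp
    | succ n ih => intro x; rw [pow_succ, pow_succ, mul_smul, ht, ih, Module.End.mul_apply]
  refine ⟨k, hk1, hkX, ?_, ?_⟩
  · intro x hx
    have h4 := hp (Nat.card F ^ k + 1) ⟨x, hx⟩
    rw [hk', one_smul] at h4
    have h5 := congrArg Subtype.val h4
    rw [restrict_pow'] at h5
    exact h5.symm
  · -- the torus
    have hcard : Nat.card K = Nat.card F ^ (2 * k) := by rw [← hk]; exact Module.natCard_eq_pow_finrank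
    obtain ⟨z, hz⟩ := IsCyclic.exists_generator (α := Kˣ)
    have hq : 1 < Nat.card F := Finite.one_lt_card
    have hqk : 1 < Nat.card F ^ k := lt_of_lt_of_le hq (Nat.le_self_pow (by omega : k ≠ 0) (Nat.card F))
    have hfac : Nat.card F ^ (2 * k) - 1 = (Nat.card F ^ k - 1) * (Nat.card F ^ k + 1) := by
      obtain ⟨a, ha⟩ : ∃ a, Nat.card F ^ k = a + 1 := ⟨Nat.card F ^ k - 1, by omega⟩
      rw [mul_comm 2 k, pow_mul, ha]
      have : (a + 1) ^ 2 = a * (a + 1 + 1) + 1 := by ring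
      rw [this]; simp
    have hzo : orderOf z = Nat.card F ^ (2 * k) - 1 := by
      rw [orderOf_eq_card_of_forall_mem_zpowers hz, Nat.card_units, hcard]
    set w : Kˣ := z ^ (Nat.card F ^ k - 1) with hw
    have hwo : orderOf w = Nat.card F ^ k + 1 := by
      rw [hw, orderOf_pow_of_dvd (by omega) (by rw [hzo, hfac]; exact dvd_mul_right _ _), hzo, hfac,
        Nat.mul_div_cancel_left _ (by omega)]
    have hwN : w ^ (Nat.card F ^ k + 1) = 1 := by rw [← hwo]; exact pow_orderOf_eq_one w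
    have hadj2 := SpPG67.adj_of ht hadj hβ hk'
    have hiso : ∀ x : X, (res Q X) ((w : K) • x) = (res Q X) x := by
      intro x
      have e1 : β ((w : K) • x) ((w : K) • x) = β x x := by
        rw [hadj2, smul_smul, ← pow_succ, ← Units.val_pow_eq_pow_val, hwN, Units.val_one, one_smul]
      rw [hβe, hβe, polar_self', polar_self'] at e1
      exact mul_left_cancel₀ h20 e1
    have hnd := nd_res hX
    let M : X →ₗ[F] X := Algebra.lsmul F F X (w : K)
    have hM : ∀ x, M x = (w : K) • x := fun x => rfl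
    set τ := ofMap hnd M hiso with hτ
    have hτx : ∀ x, τ x = (w : K) • x := fun x => rfl
    have hτp : ∀ (j : ℕ) x, (τ ^ j) x = ((w ^ j : Kˣ) : K) • x := by
      intro j
      induction j with
      | zero => intro x; simp
      | succ j ih =>
        intro x
        rw [pow_succ', LinearEquiv.mul_apply, ih, hτx, smul_smul, pow_succ', Units.val_mul]
    apply D_minus_of_free hnd hkX hk1 (ofMap_mem _ _ _) (τ := τ)
    · ext x
      rw [hτp, hwN, Units.val_one, one_smul]; rfl
    · intro i hi1 hi2 x hx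
      rw [hτp] at hx
      have h5 : (((w ^ i : Kˣ) : K) - 1) • x = 0 := by rw [sub_smul, hx, one_smul, sub_self]
      refine (smul_eq_zero.1 h5).resolve_left fun h6 => ?_
      have h7 : w ^ i = 1 := Units.ext (sub_eq_zero.1 h6)
      have := Nat.le_of_dvd hi1 (orderOf_dvd_of_pow_eq_one h7)
      rw [hwo] at this
      omega

end blocks

end Cfsg.Agent.Lib.SpecA67
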