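import Mathlib
import Cfsg.Agent.Lib.SpecC67

/-!
(helper67) Decomposition into blocks.
-/

set_option autoImplicit false
set_option linter.unusedSectionVars false

namespace Cfsg.Agent.Lib.SpecA67

open QuadraticMap Module Cfsg.Agent.Lib.Quad Cfsg.Agent.Lib.QuadD67 Cfsg.Agent.Lib.QuadEmb67 Cfsg.Agent.Lib.OrthR67
open Cfsg.Agent.Lib.InvSub Cfsg.Agent.Lib.PrimeOrd Cfsg.Agent.Lib.OReal67 Cfsg.Agent.Lib.OrthEmb67

universe u v w

theorem odd_card_aux {F : Type u} [Field F] [Finite F] (h2 : (2 : F) ≠ 0) : Nat.card F % 2 = 1 := by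
  have := Fintype.ofFinite F
  have h := FiniteField.odd_card_of_char_ne_two (F := F) (fun h => h2 (by
    have := CharP.cast_eq_zero F (ringChar F)
    rw [h] at this
    exact_mod_cast this))
  rw [Nat.card_eq_fintype_card]
  exact h

section blocks
variable {F : Type u} [Field F] [Finite F]
variable {V : Type v} [AddCommGroup V] [Module F V] [FiniteDimensional F V] {Q : QuadraticForm F V} {T : Module.End F V} {m : ℕ}

/-- blocks -/
structure Blk (Q : QuadraticForm F V) (T : Module.End F V) (W : Submodule F V) (k : ℕ) (s : ℤ) : Prop where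
  inv : Inv T W
  nd : NDq Q W
  pos : 1 ≤ k
  dim : finrank F W = 2 * k
  sg : s = 1 ∨ s = -1
  D : QuadD67.D (res Q W) = s * (Nat.card F : ℤ) ^ k
  pow : ∀ e : ℕ, (e : ℤ) = (Nat.card F : ℤ) ^ k - s → ∀ x ∈ W, (T ^ e) x = x

/-- splitting off -/
theorem Sys.split (h : Sys Q T m) {W H : Submodule F V} (hWi : Inv T W) (hW : NDq Q W) (hHi : Inv T H) (hH : NDq Q H) (hHW : H ≤ W) :
    Inv T (W ⊓ pp Q H) ∧ NDq Q (W ⊓ pp Q H) ∧ H ⊔ (W ⊓ pp Q H) = W ∧ Disjoint H (W ⊓ pp Q H) ∧
      finrank F H + finrank F ↥(W ⊓ pp Q H) = finrank F W ∧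
      (Even (finrank F H) → Even (finrank F W) → D (res Q W) = D (res Q H) * D (res Q (W ⊓ pp Q H))) := by
  obtain ⟨h1, h3, h4, h5⟩ := Sesq.split_nd refl_bq hW hH hHW
  refine ⟨Sesq.inv_inf hWi (h.isoB.inv_perp (nd_top h.nd) hHi), h5, h1, h3, h4, fun he1 he2 => ?_⟩
  have hev : Even (finrank F ↥(W ⊓ pp Q H)) := by
    rw [← h4, Nat.even_add] at he2
    exact he2.1 he1
  have h6 := D_sup h3 (fun u hu w hw => hw.2 u hu) (nd_res hH) (nd_res h5) he1 hev
  rw [← h6]
  exact congrArg (fun S : Submodule F V => D (res Q S)) h1.symm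

theorem pow_fix {S : Module.End F V} {W : Submodule F V} {a b : ℕ} (h : ∀ x ∈ W, (S ^ a) x = x) (hab : a ∣ b) : ∀ x ∈ W, (S ^ b) x = x := by
  obtain ⟨c, rfl⟩ := hab
  intro x hx
  rw [pow_mul]
  induction c with
  | zero => rfl
  | succ c ih => rw [pow_succ, Module.End.mul_apply, h x hx, ih]

theorem pow_fix_sup {S : Module.End F V} {A B : Submodule F V} {a : ℕ} (hA : ∀ x ∈ A, (S ^ a) x = x) (hB : ∀ x ∈ B, (S ^ a) x = x) :
    ∀ x ∈ A ⊔ B, (S ^ a) x = x := by
  intro x hx
  obtain ⟨y, hy, z, hz, rfl⟩ := Submodule.mem_sup.1 hx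
  rw [map_add, hA y hy, hB z hz]

/-- a totally isotropic irreducible submodule gives a block of plus type -/
theorem Sys.blk_ti (h : Sys Q T m) (h2 : (2 : F) ≠ 0) {W X : Submodule F V} (hWi : Inv T W) (hW : NDq Q W) (hX : Irr T X) (hXW : X ≤ W)
    (hti : ∀ x ∈ X, ∀ y ∈ X, polar Q x y = 0) :
    ∃ B ≤ W, Irr T B ∧ Disjoint X B ∧ finrank F B = finrank F X ∧ Blk Q T (X ⊔ B) (finrank F X) 1 := by
  have hT : ∀ x, T x = 0 → x = 0 := fun x => h.inj
  -- the perpendicular of X in W
  set Y : Submodule F V := W ⊓ pp Q X with hY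
  have hYi : Inv T Y := Sesq.inv_inf hWi (h.isoB.inv_perp (nd_top h.nd) hX.1)
  obtain ⟨B, hBW, hBi, hdis, hsup⟩ := h.compl_in hYi hWi inf_le_left
  have hXY : X ≤ Y := le_inf hXW (fun x hx w hw => hti w hw x hx)
  -- dimension
  have hperp : ∀ x ∈ X, (∀ b ∈ B, polar Q x b = 0) → x = 0 := by
    intro x hx hb
    apply hW x (hXW hx)
    intro w hw
    rw [← hsup] at hw
    obtain ⟨y, hy, b, hb', rfl⟩ := Submodule.mem_sup.1 hw
    show polar Q x (y + b) = 0
    rw [polar_add_right, hb b hb', add_zero]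
    exact hy.2 x hx
  have hperp' : ∀ b ∈ B, (∀ x ∈ X, polar Q x b = 0) → b = 0 := by
    intro b hb hx
    have : b ∈ Y := ⟨hBW hb, fun w hw => hx w hw⟩
    exact (Submodule.disjoint_def.1 hdis) b this hb
  -- pairing maps
  have hle1 : finrank F X ≤ finrank F B := by
    let φ : X →ₗ[F] Module.Dual F B := ((Bq Q).domRestrict₁₂ X B)
    have hφ : Function.Injective φ := by
      rw [← LinearMap.ker_eq_bot, eq_bot_iff]
      intro x hx
      exact (Submodule.mem_bot F).2 (Subtype.ext (hperp x x.2 (fun b hb => LinearMap.congr_fun (LinearMap.mem_ker.1 hx) ⟨b, hb⟩)))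
    have := LinearMap.finrank_le_finrank_of_injective hφ
    rwa [Subspace.dual_finrank_eq] at this
  have hle2 : ∀ U ≤ B, (∀ u ∈ U, (∀ x ∈ X, polar Q x u = 0) → u = 0) → finrank F U ≤ finrank F X := by
    intro U _ hU
    let φ : U →ₗ[F] Module.Dual F X := ((Bq Q).domRestrict₁₂ U X)
    have hφ : Function.Injective φ := by
      rw [← LinearMap.ker_eq_bot, eq_bot_iff]
      intro u hu
      refine (Submodule.mem_bot F).2 (Subtype.ext (hU u u.2 (fun x hx => ?_)))
      rw [polar_comm]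
      exact LinearMap.congr_fun (LinearMap.mem_ker.1 hu) ⟨x, hx⟩
    have := LinearMap.finrank_le_finrank_of_injective hφ
    rwa [Subspace.dual_finrank_eq] at this
  have hBX : finrank F B = finrank F X := le_antisymm (hle2 B le_rfl hperp') hle1
  have hXpos : 1 ≤ finrank F X := by
    have := hX.nontrivial
    exact finrank_pos
  have hBirr : Irr T B := by
    refine ⟨hBi, ?_, ?_⟩
    · intro h0
      rw [h0, finrank_bot] at hBX; omega
    · intro U hU hUi
      by_contra hcon
      push Not at hcon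
      -- the perpendicular of U in X
      have h1 : Inv T (X ⊓ pp Q U) := Sesq.inv_inf hX.1 (h.isoB.inv_perp (nd_top h.nd) hUi)
      rcases hX.2.2 _ inf_le_left h1 with h3 | h3
      · -- trivial: U has the dimension of X
        have h4 : finrank F X ≤ finrank F U := by
          let φ : X →ₗ[F] Module.Dual F U := ((Bq Q).domRestrict₁₂ X U)
          have hφ : Function.Injective φ := by
            rw [← LinearMap.ker_eq_bot, eq_bot_iff]
            intro x hx
            have h5 : (x : V) ∈ X ⊓ pp Q U := by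
              refine ⟨x.2, fun w hw => ?_⟩
              show polar Q w x = 0
              rw [polar_comm]
              exact LinearMap.congr_fun (LinearMap.mem_ker.1 hx) ⟨w, hw⟩
            rw [h3, Submodule.mem_bot] at h5
            exact (Submodule.mem_bot F).2 (Subtype.ext h5)
          have := LinearMap.finrank_le_finrank_of_injective hφ
          rwa [Subspace.dual_finrank_eq] at this
        exact hcon.2 (Submodule.eq_of_le_of_finrank_le hU (by omega))
      · apply hcon.1
        rw [eq_bot_iff]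
        intro u hu
        refine (Submodule.mem_bot F).2 (hperp' u (hU hu) (fun x hx => ?_))
        rw [← h3] at hx
        have := hx.2 u hu
        show polar Q x u = 0
        rw [polar_comm]; exact this
  have hXB : Disjoint X B := hdis.mono_left hXY
  have hPnd : NDq Q (X ⊔ B) := by
    intro v hv hall
    obtain ⟨x, hx, b, hb, rfl⟩ := Submodule.mem_sup.1 hv
    have hb0 : b = 0 := by
      apply hperp' b hb
      intro x' hx'
      have h1 : polar Q (x + b) x' = 0 := hall x' (Submodule.mem_sup_left hx')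
      rw [polar_add_left, hti x hx x' hx', zero_add, polar_comm] at h1
      exact h1
    rw [hb0, add_zero] at hall ⊢
    apply hperp x hx
    intro b' hb'
    exact hall b' (Submodule.mem_sup_right hb')
  have hdim : finrank F ↥(X ⊔ B) = 2 * finrank F X := by
    have h1 := Submodule.finrank_sup_add_finrank_inf_eq X B
    rw [hXB.eq_bot, finrank_bot] at h1
    omega
  refine ⟨B, hBW, hBirr, hXB, hBX, Sesq.inv_sup hX.1 hBi, hPnd, hXpos, hdim, Or.inl rfl, ?_, ?_⟩
  · rw [one_mul]
    have hXr : finrank F ((X : Submodule F V).comap (X ⊔ B).subtype) = finrank F X :=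
      LinearEquiv.finrank_eq (Submodule.comapSubtypeEquivOfLe le_sup_left)
    rw [← hXr]
    apply D_of_ts (nd_res hPnd)
    · intro w hw
      have h1 := hti w hw w hw
      rw [polar_self'] at h1
      exact (mul_eq_zero.1 h1).resolve_left h2
    · rw [hXr, hdim]
  · intro e he
    have hq : 1 ≤ Nat.card F ^ finrank F X := Nat.one_le_pow _ _ Nat.card_pos
    have he' : e = Nat.card F ^ finrank F X - 1 := by
      have : ((e : ℕ) : ℤ) = ((Nat.card F ^ finrank F X - 1 : ℕ) : ℤ) := by rw [he]; push_cast [hq]; ring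
      exact_mod_cast this
    rw [he']
    apply pow_fix_sup
    · exact hX.pow hT
    · have := hBirr.pow hT
      rwa [hBX] at this

/-- no fixed vectors in `W` -/
def NF (T : Module.End F V) (W : Submodule F V) : Prop := ∀ x ∈ W, T x = x → x = 0

theorem Sys.irr_cases (h : Sys Q T m) {X : Submodule F V} (hX : Irr T X) : NDq Q X ∨ ∀ x ∈ X, ∀ y ∈ X, polar Q x y = 0 := by
  have h1 : Inv T (X ⊓ pp Q X) := Sesq.inv_inf hX.1 (h.isoB.inv_perp (nd_top h.nd) hX.1)
  rcases hX.2.2 _ inf_le_left h1 with h3 | h3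
  · left
    intro x hx hall
    have : x ∈ X ⊓ pp Q X := ⟨hx, fun w hw => by
      show polar Q w x = 0
      rw [polar_comm]; exact hall w hw⟩
    rw [h3] at this
    exact (Submodule.mem_bot F).1 this
  · right
    intro x hx y hy
    rw [← h3] at hy
    exact hy.2 x hx

theorem Sys.exists_blk0 (h : Sys Q T m) (h2 : (2 : F) ≠ 0) {W : Submodule F V} (hWi : Inv T W) (hW : NDq Q W) (hne : W ≠ ⊥) (hnf : NF T W) :
    (∃ P ≤ W, ∃ k s, Blk Q T P k s) ∨ ∃ x ∈ W, T x = -x ∧ Q x ≠ 0 := by
  obtain ⟨X, hXW, hX⟩ := exists_irr hWi hne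
  rcases h.irr_cases hX with h1 | h1
  · rcases Nat.lt_or_ge (finrank F X) 2 with h3 | h3
    · right
      have hpos : 0 < finrank F X := by
        have := hX.nontrivial
        exact finrank_pos
      have h4 : finrank F X = 1 := by omega
      obtain ⟨⟨x, hx⟩, hx0, hx1⟩ := finrank_eq_one_iff'.1 h4
      have hx0' : x ≠ 0 := fun h => hx0 (Subtype.ext h)
      obtain ⟨c, hc⟩ := hx1 ⟨T x, hX.1 x hx⟩
      have hc' : T x = c • x := (congrArg Subtype.val hc).symm
      have hQx : Q x ≠ 0 := by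
        intro hQ
        apply hx0'
        apply h1 x hx
        intro w hw
        obtain ⟨d, hd⟩ := hx1 ⟨w, hw⟩
        have hd' : w = d • x := (congrArg Subtype.val hd).symm
        show polar Q x w = 0
        rw [hd', polar_smul_right, polar_self', hQ, mul_zero, smul_zero]
      have hcc : c * c = 1 := by
        have h5 := h.iso x
        rw [hc', Q_smul] at h5
        have h6 : (c * c - 1) * Q x = 0 := by linear_combination h5
        exact sub_eq_zero.1 ((mul_eq_zero.1 h6).resolve_right hQx)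
      refine ⟨x, hXW hx, ?_, hQx⟩
      have h7 : (c - 1) * (c + 1) = 0 := by linear_combination hcc
      rcases mul_eq_zero.1 h7 with h8 | h8
      · exfalso
        apply hx0'
        apply hnf x (hXW hx)
        rw [hc', sub_eq_zero.1 h8, one_smul]
      · rw [hc', eq_neg_of_add_eq_zero_left h8, neg_one_smul]
    · left
      obtain ⟨k, hk1, hk2, hk3, hk4⟩ := Irr.nd h h2 hX h1 h3
      refine ⟨X, hXW, k, -1, hX.1, h1, hk1, hk2, Or.inr rfl, by rw [hk4]; ring, ?_⟩
      intro e he
      have he' : e = Nat.card F ^ k + 1 := by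
        have : ((e : ℕ) : ℤ) = ((Nat.card F ^ k + 1 : ℕ) : ℤ) := by rw [he]; push_cast; ring
        exact_mod_cast this
      rw [he']
      exact hk3
  · left
    obtain ⟨B, hB, -, -, -, hb⟩ := h.blk_ti h2 hWi hW hX hXW h1
    exact ⟨_, sup_le hXW hB, _, _, hb⟩

theorem NF.mono {W W' : Submodule F V} (h : NF T W) (hW : W' ≤ W) : NF T W' := fun x hx => h x (hW hx)

/-- odd dimension: a `-1`-eigenvector -/
theorem Sys.odd_line (h : Sys Q T m) (h2 : (2 : F) ≠ 0) : ∀ (n : ℕ) (W : Submodule F V), finrank F W = n → Inv T W → NDq Q W → NF T W →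
    ¬ Even n → ∃ x ∈ W, T x = -x ∧ Q x ≠ 0 := by
  intro n
  induction n using Nat.strong_induction_on with
  | _ n ih =>
    intro W hn hWi hW hnf hodd
    have hne : W ≠ ⊥ := by
      rintro rfl
      rw [finrank_bot] at hn
      exact hodd (by rw [← hn]; simp)
    rcases h.exists_blk0 h2 hWi hW hne hnf with ⟨P, hP, k, s, hb⟩ | h1
    · obtain ⟨g1, g2, g3, g4, g5, -⟩ := h.split hWi hW hb.inv hb.nd hP
      have hd := hb.dim
      have hpos := hb.pos
      obtain ⟨x, hx, hx'⟩ := ih _ (by omega) (W ⊓ pp Q P) rfl g1 g2 (hnf.mono inf_le_left) (by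
        intro he
        apply hodd
        rw [← hn, ← g5, hd]
        exact (even_two_mul k).add he)
      exact ⟨x, hx.1, hx'⟩
    · exact h1

theorem nd_line (h2 : (2 : F) ≠ 0) {x : V} (hx : Q x ≠ 0) : NDq Q (F ∙ x) ∧ finrank F (F ∙ x) = 1 := by
  have hx0 : x ≠ 0 := by rintro rfl; exact hx (QuadraticMap.map_zero Q)
  refine ⟨?_, finrank_span_singleton hx0⟩
  intro y hy hall
  obtain ⟨c, rfl⟩ := Submodule.mem_span_singleton.1 hy
  have h1 : polar Q (c • x) x = 0 := hall x (Submodule.mem_span_singleton_self x)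
  rw [polar_smul_left, polar_self', smul_eq_mul] at h1
  rw [(mul_eq_zero.1 h1).resolve_right (mul_ne_zero h2 hx), zero_smul]

/-- even dimension: a block from a line -/
theorem Sys.blk_of_line (h : Sys Q T m) (h2 : (2 : F) ≠ 0) {W : Submodule F V} (hWi : Inv T W) (hW : NDq Q W) (hnf : NF T W)
    (hev : Even (finrank F W)) {x : V} (hx : x ∈ W) (hTx : T x = -x) (hQx : Q x ≠ 0) : ∃ P ≤ W, ∃ s, Blk Q T P 1 s := by
  obtain ⟨hLnd, hL1⟩ := nd_line h2 hQx
  have hLi : Inv T (F ∙ x) := by
    intro y hy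
    obtain ⟨c, rfl⟩ := Submodule.mem_span_singleton.1 hy
    rw [map_smul, hTx, smul_neg]
    exact Submodule.neg_mem _ hy
  have hLW : (F ∙ x) ≤ W := by
    rw [Submodule.span_singleton_le_iff_mem]; exact hx
  obtain ⟨g1, g2, g3, g4, g5, -⟩ := h.split hWi hW hLi hLnd hLW
  obtain ⟨y, hy, hTy, hQy⟩ := h.odd_line h2 _ (W ⊓ pp Q (F ∙ x)) rfl g1 g2 (hnf.mono inf_le_left) (by
    intro he
    rw [← g5, hL1] at hev
    rw [Nat.even_add] at hev
    exact absurd (hev.2 he) (by decide))
  have hxy : polar Q x y = 0 := hy.2 x (Submodule.mem_span_singleton_self x)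
  obtain ⟨o1, o2, o3, o4⟩ := orth_plane h2 hxy hQx hQy
  have hchi := chi_sq (F := F)
  have hc : chi F = 1 ∨ chi F = -1 := by unfold chi; split_ifs <;> simp
  have hneg : ∀ v ∈ Submodule.span F {x, y}, T v = -v := by
    intro v hv
    obtain ⟨a, b, rfl⟩ := Submodule.mem_span_pair.1 hv
    rw [map_add, map_smul, map_smul, hTx, hTy]
    module
  have hPW : Submodule.span F {x, y} ≤ W := by
    rw [Submodule.span_le]
    rintro v (rfl | rfl)
    · exact hx
    · exact hy.1
  have hPi : Inv T (Submodule.span F {x, y}) := by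
    intro v hv
    rw [hneg v hv]
    exact Submodule.neg_mem _ hv
  have hodd := odd_card_aux h2
  have hpw : ∀ s : ℤ, (s = 1 ∨ s = -1) → ∀ e : ℕ, (e : ℤ) = (Nat.card F : ℤ) ^ 1 - s → ∀ v ∈ Submodule.span F {x, y}, (T ^ e) v = v := by
    intro s hs e he
    have he2 : 2 ∣ e := by
      rw [pow_one] at he
      rcases hs with rfl | rfl <;> omega
    apply pow_fix (a := 2) _ he2
    intro v hv
    rw [pow_two, Module.End.mul_apply, hneg v hv, map_neg, hneg v hv, neg_neg]
  by_cases hsq : IsSquare (Q x * Q y)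
  · exact ⟨_, hPW, chi F, hPi, o1, le_rfl, by rw [o2], hc, by rw [o3 hsq, pow_one], hpw _ hc⟩
  · exact ⟨_, hPW, -chi F, hPi, o1, le_rfl, by rw [o2], by rcases hc with h | h <;> rw [h] <;> simp,
      by rw [o4 hsq, pow_one]; ring, hpw _ (by rcases hc with h | h <;> rw [h] <;> simp)⟩

/-- even dimension: a block -/
theorem Sys.exists_blk (h : Sys Q T m) (h2 : (2 : F) ≠ 0) {W : Submodule F V} (hWi : Inv T W) (hW : NDq Q W) (hne : W ≠ ⊥) (hnf : NF T W)
    (hev : Even (finrank F W)) : ∃ P ≤ W, ∃ k s, Blk Q T P k s := by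
  rcases h.exists_blk0 h2 hWi hW hne hnf with h1 | ⟨x, hx, hTx, hQx⟩
  · exact h1
  · obtain ⟨P, hP, s, hb⟩ := h.blk_of_line h2 hWi hW hnf hev hx hTx hQx
    exact ⟨P, hP, 1, s, hb⟩

/-- even dimension: a block, with more information -/
theorem Sys.exists_blk3 (h : Sys Q T m) (h2 : (2 : F) ≠ 0) {W : Submodule F V} (hWi : Inv T W) (hW : NDq Q W) (hne : W ≠ ⊥) (hnf : NF T W)
    (hev : Even (finrank F W)) : (∃ P ≤ W, ∃ k, Blk Q T P k (-1)) ∨ (∃ P ≤ W, ∃ s, Blk Q T P 1 s) ∨
      (∃ X ≤ W, ∃ B ≤ W, Irr T X ∧ Irr T B ∧ Disjoint X B ∧ finrank F B = finrank F X ∧ (∀ x ∈ X, ∀ y ∈ X, polar Q x y = 0) ∧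
        Blk Q T (X ⊔ B) (finrank F X) 1) := by
  obtain ⟨X, hXW, hX⟩ := exists_irr hWi hne
  rcases h.irr_cases hX with h1 | h1
  · rcases Nat.lt_or_ge (finrank F X) 2 with h3 | h3
    · right; left
      have hpos : 0 < finrank F X := by
        have := hX.nontrivial
        exact finrank_pos
      rcases h.exists_blk0 h2 hX.1 h1 hX.2.1 (hnf.mono hXW) with ⟨P, hP, k, s, hb⟩ | ⟨x, hx, hTx, hQx⟩
      · exfalso
        have h4 := hb.dim
        have h5 := hb.pos
        have h6 := Submodule.finrank_mono hP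
        omega
      · exact h.blk_of_line h2 hWi hW hnf hev (hXW hx) hTx hQx
    · left
      obtain ⟨k, hk1, hk2, hk3, hk4⟩ := Irr.nd h h2 hX h1 h3
      refine ⟨X, hXW, k, hX.1, h1, hk1, hk2, Or.inr rfl, by rw [hk4]; ring, ?_⟩
      intro e he
      have he' : e = Nat.card F ^ k + 1 := by
        have : ((e : ℕ) : ℤ) = ((Nat.card F ^ k + 1 : ℕ) : ℤ) := by rw [he]; push_cast; ring
        exact_mod_cast this
      rw [he']
      exact hk3
  · right; right
    obtain ⟨B, hB, hBi, hd, hf, hb⟩ := h.blk_ti h2 hWi hW hX hXW h1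
    exact ⟨X, hXW, B, hB, hX, hBi, hd, hf, h1, hb⟩

end blocks

end Cfsg.Agent.Lib.SpecA67
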