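import Mathlib
import Cfsg.Agent.Lib.SpecD67
import Cfsg.Agent.Lib.QuadLevi

/-!
(helper67) Spinor norm of isometries preserving two complementary totally isotropic subspaces.
-/

set_option autoImplicit false
set_option linter.unusedSectionVars false

namespace Cfsg.Agent.Lib.SpecA67

open QuadraticMap Module Cfsg.Agent.Lib.Quad Cfsg.Agent.Lib.QuadD67 Cfsg.Agent.Lib.QuadEmb67 Cfsg.Agent.Lib.OrthR67
open Cfsg.Agent.Lib.InvSub Cfsg.Agent.Lib.PrimeOrd Cfsg.Agent.Lib.OReal67 Cfsg.Agent.Lib.OrthEmb67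

universe u v w

section hyp
variable {F : Type u} [Field F] [Finite F]
variable {V : Type v} [AddCommGroup V] [Module F V] [FiniteDimensional F V] {Q : QuadraticForm F V}

theorem spin_hyp (h2 : (2 : F) ≠ 0) (hQ : Nd Q) {X B : Submodule F V} (hXB : IsCompl X B) (hX : ∀ x ∈ X, Q x = 0) (hB : ∀ x ∈ B, Q x = 0)
    {n : ℕ} (hXn : finrank F X = n) (hBn : finrank F B = n) {g : V ≃ₗ[F] V} (hg : g ∈ O Q) (hgX : Inv g.toLinearMap X) (hgB : Inv g.toLinearMap B)
    (hom : g ∈ Om Q) : IsSquare (LinearMap.det (g.toLinearMap.restrict hgX)) := by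
  classical
  -- bases
  let b : Basis (Fin n) F X := finBasisOfFinrankEq F X hXn
  have hpX : ∀ x ∈ X, ∀ y ∈ X, polar Q x y = 0 := by
    intro x hx y hy
    have := Q_add (Q := Q) x y
    rw [hX _ (X.add_mem hx hy), hX x hx, hX y hy] at this
    simpa using this.symm
  have hpB : ∀ x ∈ B, ∀ y ∈ B, polar Q x y = 0 := by
    intro x hx y hy
    have := Q_add (Q := Q) x y
    rw [hB _ (B.add_mem hx hy), hB x hx, hB y hy] at this
    simpa using this.symm
  let φ : B →ₗ[F] Module.Dual F X := ((Bq Q).domRestrict₁₂ B X)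
  have hφe : ∀ (y : B) (x : X), φ y x = polar Q (y : V) (x : V) := fun y x => rfl
  have hφi : Function.Injective φ := by
    rw [← LinearMap.ker_eq_bot, eq_bot_iff]
    intro y hy
    refine (Submodule.mem_bot F).2 (Subtype.ext (hQ.eq_zero fun z => ?_))
    obtain ⟨x, hx, y', hy', rfl⟩ := Submodule.mem_sup.1 (show z ∈ X ⊔ B by rw [hXB.sup_eq_top]; trivial)
    rw [polar_add_right, hpB _ y.2 _ hy', add_zero]
    exact LinearMap.congr_fun (LinearMap.mem_ker.1 hy) ⟨x, hx⟩
  have hφs : Function.Surjective φ := by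
    rw [← LinearMap.range_eq_top]
    apply Submodule.eq_top_of_finrank_eq
    rw [LinearMap.finrank_range_of_inj hφi, Subspace.dual_finrank_eq, hXn, hBn]
  choose b' hb' using fun i : Fin n => hφs (b.coord i)
  have hdual : ∀ i j, polar Q (b' i : V) (b j : V) = if j = i then 1 else 0 := by
    intro i j
    rw [← hφe, hb', Basis.coord_apply, Basis.repr_self, Finsupp.single_apply]
  let E : (Fin n ⊕ Fin n → F) →ₗ[F] V :=
    ∑ i, ((LinearMap.toSpanSingleton F V (b i : V)).comp (LinearMap.proj (Sum.inl i)) +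
      (LinearMap.toSpanSingleton F V (b' i : V)).comp (LinearMap.proj (Sum.inr i)))
  have hE : ∀ v, E v = (∑ i, v (Sum.inl i) • (b i : V)) + ∑ i, v (Sum.inr i) • (b' i : V) := by
    intro v
    simp [E, Finset.sum_add_distrib]
  have hm1 : ∀ v : Fin n ⊕ Fin n → F, (∑ i, v (Sum.inl i) • (b i : V)) ∈ X := fun v =>
    Submodule.sum_mem _ fun i _ => X.smul_mem _ (b i).2
  have hm2 : ∀ v : Fin n ⊕ Fin n → F, (∑ i, v (Sum.inr i) • (b' i : V)) ∈ B := fun v =>
    Submodule.sum_mem _ fun i _ => B.smul_mem _ (b' i).2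
  have hEQ : ∀ v, Q (E v) = quadPlus n F v := by
    intro v
    rw [hE, Q_add, hX _ (hm1 v), hB _ (hm2 v), zero_add, zero_add, quadPlus_eq_dot, dotProduct]
    have h1 : ∀ (s : Finset (Fin n)) (c : Fin n → F) (u : Fin n → V) (w : V), polar Q (∑ i ∈ s, c i • u i) w = ∑ i ∈ s, c i * polar Q (u i) w := by
      intro s c u w
      induction s using Finset.induction_on with
      | empty => simp [polar]
      | insert a s ha ih =>
        rw [Finset.sum_insert ha, Finset.sum_insert ha, polar_add_left, polar_smul_left, smul_eq_mul, ih]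
    rw [h1]
    apply Finset.sum_congr rfl
    intro i _
    congr 1
    rw [polar_comm, h1, Finset.sum_eq_single i]
    · rw [hdual, if_pos rfl, mul_one]; rfl
    · intro j _ hji
      rw [hdual, if_neg (Ne.symm hji), mul_zero]
    · intro h; exact absurd (Finset.mem_univ i) h
  have hEi := inj_of_nd (nd_quadPlus (m := n) (F := F)) hEQ
  have hdim : finrank F (Fin n ⊕ Fin n → F) = finrank F V := by
    have h1 := Submodule.finrank_add_eq_of_isCompl hXB
    simp; omega
  let E' := LinearEquiv.ofInjectiveOfFinrankEq E hEi hdim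
  have hE' : ∀ v, E' v = E v := fun v => rfl
  let g' : (Fin n ⊕ Fin n → F) ≃ₗ[F] (Fin n ⊕ Fin n → F) := (E'.trans g).trans E'.symm
  have hgg : ∀ v, E (g' v) = g (E v) := fun v => by
    rw [← hE', ← hE']
    exact E'.apply_symm_apply _
  have hg'O : g' ∈ O (quadPlus n F) := by
    intro v
    rw [← hEQ, hgg, hg, hEQ]
  have hinr : ∀ v, E v ∈ X → ∀ i, v (Sum.inr i) = 0 := by
    intro v hv j
    rw [hE] at hv
    have h1 : (∑ i, v (Sum.inr i) • (b' i : V)) ∈ X := by
      have := X.sub_mem hv (hm1 v)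
      rwa [add_sub_cancel_left] at this
    have h3 : (∑ i, v (Sum.inr i) • (b' i : V)) = 0 := Submodule.disjoint_def.1 hXB.disjoint _ h1 (hm2 v)
    have h4 : (∑ i, v (Sum.inr i) • b' i) = 0 := Subtype.ext (by push_cast; exact h3)
    have h5 := congrArg (fun y => φ y (b j)) h4
    simp only [map_sum, map_smul, LinearMap.sum_apply, LinearMap.smul_apply, smul_eq_mul, map_zero, LinearMap.zero_apply] at h5
    rw [Finset.sum_eq_single j] at h5
    · rw [hφe, hdual, if_pos rfl, mul_one] at h5
      exact h5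
    · intro i _ hij
      rw [hφe, hdual, if_neg (Ne.symm hij), mul_zero]
    · intro h; exact absurd (Finset.mem_univ j) h
  have hinl : ∀ v, E v ∈ B → ∀ i, v (Sum.inl i) = 0 := by
    intro v hv j
    rw [hE] at hv
    have h1 : (∑ i, v (Sum.inl i) • (b i : V)) ∈ B := by
      have := B.sub_mem hv (hm2 v)
      rwa [add_sub_cancel_right] at this
    have h3 : (∑ i, v (Sum.inl i) • (b i : V)) = 0 := Submodule.disjoint_def.1 hXB.disjoint _ (hm1 v) h1
    have h4 : (∑ i, v (Sum.inl i) • b i) = 0 := Subtype.ext (by push_cast; exact h3)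
    exact Fintype.linearIndependent_iff.1 b.linearIndependent _ h4 j
  have hEX : ∀ v, (∀ i, v (Sum.inr i) = 0) → E v ∈ X := by
    intro v hv
    rw [hE]
    refine X.add_mem (hm1 v) ?_
    simp [hv]
  have hEB : ∀ v, (∀ i, v (Sum.inl i) = 0) → E v ∈ B := by
    intro v hv
    rw [hE]
    refine B.add_mem ?_ (hm2 v)
    simp [hv]
  obtain ⟨A, hA⟩ := exists_levi hg'O (fun v hv => hinr _ (by rw [hgg]; exact hgX _ (hEX v hv)))
    (fun v hv => hinl _ (by rw [hgg]; exact hgB _ (hEB v hv)))
  have hsq : IsSquare (A : Matrix (Fin n) (Fin n) F).det := by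
    rw [← levi_mem_Om_iff (genHyp_of_two_ne_zero h2), ← hA]
    rw [mem_Om_iff_par (h2 := h2) nd_quadPlus, ← IsPar.ext_iff (hQ := hQ) hEQ hg'O]
    have h1 : extHom Q nd_quadPlus E hEQ g' = g := by
      ext z
      obtain ⟨v, rfl⟩ := E'.surjective z
      rw [hE', extHom_apply_j, hgg]
    rw [h1]
    exact (mem_Om_iff_par hQ).1 hom
  have hmat : LinearMap.toMatrix b b (g.toLinearMap.restrict hgX) = (A : Matrix (Fin n) (Fin n) F) := by
    ext i j
    rw [LinearMap.toMatrix_apply]
    have h1 : E (Pi.single (Sum.inl j) 1) = (b j : V) := by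
      rw [hE, Finset.sum_eq_single j]
      · simp
      · intro i _ hij
        rw [Pi.single_eq_of_ne (fun h => hij (Sum.inl.inj h)), zero_smul]
      · intro h; exact absurd (Finset.mem_univ j) h
    have h3 : (g.toLinearMap.restrict hgX) (b j) = ∑ i, (A : Matrix (Fin n) (Fin n) F) i j • b i := by
      apply Subtype.ext
      show g (b j : V) = _
      rw [← h1, ← hgg, hE]
      have h5 : ∀ i, g' (Pi.single (Sum.inr i) 0 + Pi.single (Sum.inl j) 1) (Sum.inl i) = (A : Matrix (Fin n) (Fin n) F) i j := by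
        intro i
        rw [hA, levi_inl]
        simp [Matrix.mulVec, dotProduct, Pi.single_apply]
      have h6 : ∀ i, g' (Pi.single (Sum.inl j) 1) (Sum.inl i) = (A : Matrix (Fin n) (Fin n) F) i j := by
        intro i
        have := h5 i
        rwa [Pi.single_zero, zero_add] at this
      have h7 : ∀ i, g' (Pi.single (Sum.inl j) 1) (Sum.inr i) = 0 := by
        apply hinr
        rw [hgg, h1]
        exact hgX _ (b j).2
      simp only [h6, h7, zero_smul, Finset.sum_const_zero, add_zero]
      push_cast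
      rfl
    rw [h3]
    simp [Finsupp.single_apply]
  rw [← LinearMap.det_toMatrix b, hmat]
  exact hsq

end hyp

end Cfsg.Agent.Lib.SpecA67
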