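import Mathlib
import Cfsg.Agent.Lib.SpecB67

/-!
(helper67) Regular unipotent isometries in odd dimension.
-/

set_option autoImplicit false
set_option linter.unusedSectionVars false

namespace Cfsg.Agent.Lib.SpecA67

open QuadraticMap Module Cfsg.Agent.Lib.Quad Cfsg.Agent.Lib.QuadD67 Cfsg.Agent.Lib.QuadEmb67 Cfsg.Agent.Lib.OrthR67
open Cfsg.Agent.Lib.InvSub Cfsg.Agent.Lib.PrimeOrd Cfsg.Agent.Lib.OReal67 Cfsg.Agent.Lib.OrthEmb67

universe u v w

section std
variable {F : Type u} [Field F]

/-- extension by zero -/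
def ez {k : ℕ} (x : Fin k → F) (i : ℕ) : F := if h : i < k then x ⟨i, h⟩ else 0

theorem ez_add {k : ℕ} (x y : Fin k → F) (i : ℕ) : ez (x + y) i = ez x i + ez y i := by
  unfold ez; split_ifs <;> simp

theorem ez_smul {k : ℕ} (c : F) (x : Fin k → F) (i : ℕ) : ez (c • x) i = c * ez x i := by
  unfold ez; split_ifs <;> simp

/-- shift -/
def sh (F : Type u) [Field F] (k : ℕ) : (Fin k → F) →ₗ[F] (Fin k → F) where
  toFun x := fun i => if (i : ℕ) = 0 then 0 else ez x (i - 1)
  map_add' x y := by
    ext i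
    simp only [Pi.add_apply]
    split_ifs
    · simp
    · rw [ez_add]
  map_smul' c x := by
    ext i
    simp only [Pi.smul_apply, smul_eq_mul, RingHom.id_apply]
    split_ifs
    · simp
    · rw [ez_smul]

theorem ez_sh {k : ℕ} (x : Fin k → F) {i : ℕ} (hi : i < k) : ez (sh F k x) i = if i = 0 then 0 else ez x (i - 1) := by
  unfold ez
  rw [dif_pos hi]
  rfl

theorem ez_sh_pow {k : ℕ} (x : Fin k → F) (j : ℕ) {i : ℕ} (hi : i < k) : ez ((sh F k ^ j) x) i = if j ≤ i then ez x (i - j) else 0 := by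
  induction j generalizing i with
  | zero => simp
  | succ j ih =>
    rw [pow_succ', Module.End.mul_apply, ez_sh _ hi]
    split_ifs with h1 h3 h3
    · omega
    · rfl
    · rw [ih (by omega), if_pos (by omega)]
      congr 1
      omega
    · rw [ih (by omega), if_neg (by omega)]

theorem ez_ext {k : ℕ} {x y : Fin k → F} (h : ∀ i < k, ez x i = ez y i) : x = y := by
  ext i
  have := h i i.2
  unfold ez at this
  rwa [dif_pos i.2, dif_pos i.2] at this

theorem sh_pow_eq_zero (k : ℕ) : sh F k ^ k = 0 := by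
  refine LinearMap.ext fun x => ez_ext fun i hi => ?_
  rw [ez_sh_pow _ _ hi, if_neg (by omega)]
  unfold ez
  rw [dif_pos hi]; rfl

theorem sh_pow_ne (k : ℕ) : sh F (k + 1) ^ k ≠ 0 := by
  intro h
  have h1 : ez ((sh F (k + 1) ^ k) (Pi.single 0 1)) k = ez ((0 : Module.End F (Fin (k + 1) → F)) (Pi.single 0 1)) k := by rw [h]
  rw [ez_sh_pow _ _ (by omega), if_pos le_rfl, Nat.sub_self] at h1
  unfold ez at h1
  simp at h1

/-- the form -/
def bf (F : Type u) [Field F] (m : ℕ) : LinearMap.BilinMap F (Fin (m + 1) → F) F :=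
  LinearMap.mk₂ F (fun x y => ∑ i ∈ Finset.range (m + 1), (-1) ^ i * (ez x i * ez y (m - i)))
    (fun a b c => by
      rw [← Finset.sum_add_distrib]
      exact Finset.sum_congr rfl fun i _ => by rw [ez_add]; ring)
    (fun c a b => by
      rw [smul_eq_mul, Finset.mul_sum]
      exact Finset.sum_congr rfl fun i _ => by rw [ez_smul]; ring)
    (fun a b c => by
      rw [← Finset.sum_add_distrib]
      exact Finset.sum_congr rfl fun i _ => by rw [ez_add]; ring)
    (fun c a b => by
      rw [smul_eq_mul, Finset.mul_sum]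
      exact Finset.sum_congr rfl fun i _ => by rw [ez_smul]; ring)

theorem bf_apply (m : ℕ) (x y : Fin (m + 1) → F) : bf F m x y = ∑ i ∈ Finset.range (m + 1), (-1) ^ i * (ez x i * ez y (m - i)) := rfl

theorem bf_symm {m : ℕ} (hm : Even m) (x y : Fin (m + 1) → F) : bf F m x y = bf F m y x := by
  rw [bf_apply, bf_apply, ← Finset.sum_range_reflect]
  apply Finset.sum_congr rfl
  intro i hi
  have hi' : i ≤ m := by have := Finset.mem_range.1 hi; omega
  have e1 : m + 1 - 1 - i = m - i := by omega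
  have e2 : m - (m - i) = i := by omega
  rw [e1, e2]
  have e3 : (-1 : F) ^ (m - i) = (-1) ^ i := by
    have h5 : (-1 : F) ^ (m - i) * (-1) ^ i = 1 := by rw [← pow_add, Nat.sub_add_cancel hi', hm.neg_one_pow]
    have h6 : (-1 : F) ^ i * (-1) ^ i = 1 := by rw [← mul_pow]; simp
    linear_combination (-1) ^ i * h5 - (-1) ^ (m - i) * h6
  rw [e3]; ring

theorem bf_sh (m : ℕ) (x y : Fin (m + 1) → F) : bf F m (sh F (m + 1) x) y = - bf F m x (sh F (m + 1) y) := by
  rw [bf_apply, bf_apply, Finset.sum_range_succ', Finset.sum_range_succ]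
  have h1 : (-1 : F) ^ 0 * (ez (sh F (m + 1) x) 0 * ez y (m - 0)) = 0 := by
    rw [ez_sh _ (by omega), if_pos rfl]; ring
  have h3 : (-1 : F) ^ m * (ez x m * ez (sh F (m + 1) y) (m - m)) = 0 := by
    rw [Nat.sub_self, ez_sh _ (by omega), if_pos rfl]; ring
  rw [h1, h3, add_zero, add_zero, ← Finset.sum_neg_distrib]
  apply Finset.sum_congr rfl
  intro i hi
  have hi' := Finset.mem_range.1 hi
  rw [ez_sh _ (by omega), if_neg (by omega), ez_sh _ (by omega), if_neg (by omega)]
  have e1 : i + 1 - 1 = i := by omega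
  have e2 : m - (i + 1) = m - i - 1 := by omega
  rw [e1, e2]
  ring

theorem bf_nd {m : ℕ} {x : Fin (m + 1) → F} (h : ∀ y, bf F m x y = 0) : x = 0 := by
  apply ez_ext
  intro i hi
  have h1 := h (Pi.single ⟨m - i, by omega⟩ 1)
  rw [bf_apply, Finset.sum_eq_single i] at h1
  · have h3 : ez (Pi.single (⟨m - i, by omega⟩ : Fin (m + 1)) (1 : F)) (m - i) = 1 := by
      unfold ez
      rw [dif_pos (by omega)]
      simp
    rw [h3, mul_one] at h1
    have h4 : ez (0 : Fin (m + 1) → F) i = 0 := by unfold ez; split_ifs <;> rfl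
    rw [h4]
    exact (mul_eq_zero.1 h1).resolve_left (pow_ne_zero _ (by simp))
  · intro j hj hji
    have hj' := Finset.mem_range.1 hj
    have h3 : ez (Pi.single (⟨m - i, by omega⟩ : Fin (m + 1)) (1 : F)) (m - j) = 0 := by
      unfold ez
      rw [dif_pos (by omega), Pi.single_eq_of_ne]
      intro h
      have := congrArg Fin.val h
      simp only at this
      omega
    rw [h3]; ring
  · intro hi'
    exact absurd (Finset.mem_range.2 hi) hi'

/-- regular unipotent in odd dimension -/
theorem exists_reg (h2 : (2 : F) ≠ 0) {m : ℕ} (hm : Even m) :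
    ∃ (Q : QuadraticForm F (Fin (m + 1) → F)) (_ : Nd Q) (T : Module.End F (Fin (m + 1) → F)),
      (∀ v, Q (T v) = Q v) ∧ (T - 1) ^ (m + 1) = 0 ∧ (T - 1) ^ m ≠ 0 := by
  let Q : QuadraticForm F (Fin (m + 1) → F) := LinearMap.BilinMap.toQuadraticMap (bf F m)
  have hQ1 : ∀ v, Q v = bf F m v v := fun v => rfl
  have hpol : ∀ v w, polar Q v w = 2 * bf F m v w := by
    intro v w
    simp only [polar, hQ1, map_add, LinearMap.add_apply]
    rw [bf_symm hm w v]; ring
  have hQ : Nd Q := by
    apply nd_of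
    intro x h
    apply bf_nd
    intro y
    have := h y
    rw [hpol] at this
    exact (mul_eq_zero.1 this).resolve_left h2
  set A : Module.End F (Fin (m + 1) → F) := sh F (m + 1) with hA
  have hnil : IsNilpotent A := ⟨m + 1, sh_pow_eq_zero _⟩
  obtain ⟨u, hu⟩ := hnil.isUnit_one_sub
  set C : Module.End F (Fin (m + 1) → F) := ((u⁻¹ : (Module.End F (Fin (m + 1) → F))ˣ) : Module.End F (Fin (m + 1) → F)) with hC
  have hC1 : (1 - A) * C = 1 := by rw [← hu, hC]; exact u.mul_inv
  have hC2 : C * (1 - A) = 1 := by rw [← hu, hC]; exact u.inv_mul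
  have hAC : Commute A C := by
    have h1 : A * (1 - A) = (1 - A) * A := by rw [mul_sub, sub_mul, mul_one, one_mul]
    show A * C = C * A
    calc A * C = (C * (1 - A)) * (A * C) := by rw [hC2, one_mul]
      _ = C * ((1 - A) * A) * C := by noncomm_ring
      _ = C * (A * (1 - A)) * C := by rw [h1]
      _ = C * A * ((1 - A) * C) := by noncomm_ring
      _ = C * A := by rw [hC1, mul_one]
  have hiso : ∀ v, Q (((1 + A) * C) v) = Q v := by
    intro v
    have h1 : v = (1 - A) (C v) := by
      rw [← Module.End.mul_apply, hC1]; rfl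
    set x := C v with hx
    have h3 : ((1 + A) * C) v = x + A x := rfl
    have h4 : v = x - A x := h1
    rw [h3, h4, hQ1, hQ1]
    simp only [map_add, map_sub, LinearMap.add_apply, LinearMap.sub_apply]
    have h5 := bf_sh m x x
    rw [← hA] at h5
    rw [h5]; ring
  have hT1 : (1 + A) * C - 1 = (2 : F) • (A * C) := by
    have : (1 + A) * C - 1 = (1 + A) * C - (1 - A) * C := by rw [hC1]
    rw [this, two_smul, add_mul, sub_mul, one_mul]; abel
  have hpow : ∀ j, ((1 + A) * C - 1) ^ j = (2 : F) ^ j • (A ^ j * C ^ j) := by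
    intro j
    rw [hT1, smul_pow, hAC.mul_pow]
  refine ⟨Q, hQ, (1 + A) * C, hiso, ?_, ?_⟩
  · rw [hpow, hA, sh_pow_eq_zero, zero_mul, smul_zero]
  · rw [hpow]
    intro h
    rw [smul_eq_zero] at h
    have h3 := h.resolve_left (pow_ne_zero _ h2)
    have h4 : A ^ m * C ^ m * (1 - A) ^ m = A ^ m := by
      have : C ^ m * (1 - A) ^ m = 1 := by
        have hcc : Commute C (1 - A) := by
          show C * (1 - A) = (1 - A) * C
          rw [hC1, hC2]
        rw [← hcc.mul_pow, hC2, one_pow]
      rw [mul_assoc, this, mul_one]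
    rw [h3, zero_mul] at h4
    exact sh_pow_ne m h4.symm

end std

section scale
variable {F : Type u} [Field F] [Finite F]
variable {V : Type v} [AddCommGroup V] [Module F V] [FiniteDimensional F V] {Q : QuadraticForm F V}
variable {W : Type w} [AddCommGroup W] [Module F W] [FiniteDimensional F W] {Q' : QuadraticForm F W}

theorem polar_smul_form (c : F) (x y : V) : polar (c • Q) x y = c * polar Q x y := by
  simp only [polar, smul_apply, smul_eq_mul]; ring

theorem nd_smul_form {c : F} (hc : c ≠ 0) (hQ : Nd Q) : Nd (c • Q) := by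
  apply nd_of
  intro x h
  apply hQ.eq_zero
  intro y
  have := h y
  rw [polar_smul_form] at this
  exact (mul_eq_zero.1 this).resolve_left hc

/-- splitting off an embedded hyperplane -/
theorem exists_line (hQ : Nd Q) (hQ' : Nd Q') (hd : finrank F V = finrank F W + 1) {f : W →ₗ[F] V} (hf : ∀ x, Q (f x) = Q' x) :
    ∃ v : V, Q v ≠ 0 ∧ (∀ x, polar Q (f x) v = 0) ∧
      ∃ e : (W × F) ≃ₗ[F] V, ∀ p, e p = f p.1 + p.2 • v := by
  have hfi := inj_of_nd hQ' hf
  have hfr : finrank F (LinearMap.range f) = finrank F W := LinearMap.finrank_range_of_inj hfi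
  have h1 := hQ.finrank_add_finrank_perp (LinearMap.range f)
  have h3 : 0 < finrank F (perp Q (LinearMap.range f)) := by omega
  obtain ⟨⟨v, hv⟩, hv0⟩ := (Module.finrank_pos_iff_exists_ne_zero (R := F)).1 h3
  have hv0' : v ≠ 0 := fun h => hv0 (Subtype.ext h)
  have hperp : ∀ x, polar Q (f x) v = 0 := fun x => mem_perp.1 hv _ ⟨x, rfl⟩
  have hvn : v ∉ LinearMap.range f := by
    rintro ⟨x, rfl⟩
    have hx : x = 0 := by
      apply hQ'.eq_zero
      intro y
      have := hperp y
      rw [polar_map f hf] at this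
      rw [polar_comm]; exact this
    exact hv0' (by rw [hx, map_zero])
  let E : (W × F) →ₗ[F] V := f.coprod (LinearMap.toSpanSingleton F V v)
  have hE : ∀ p, E p = f p.1 + p.2 • v := fun p => by
    simp [E, LinearMap.coprod_apply]
  have hEi : Function.Injective E := by
    rw [← LinearMap.ker_eq_bot, eq_bot_iff]
    rintro ⟨x, a⟩ hp
    have hp' : f x + a • v = 0 := by
      have := LinearMap.mem_ker.1 hp
      rwa [hE] at this
    have ha : a = 0 := by
      by_contra ha
      apply hvn
      refine ⟨-(a⁻¹ • x), ?_⟩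
      rw [map_neg, map_smul]
      have h4 : f x = -(a • v) := eq_neg_of_add_eq_zero_left hp'
      rw [h4, smul_neg, neg_neg, smul_smul, inv_mul_cancel₀ ha, one_smul]
    rw [ha, zero_smul, add_zero] at hp'
    have hx : x = 0 := hfi (by rw [hp', map_zero])
    rw [Submodule.mem_bot, hx, ha]; rfl
  have hdim : finrank F (W × F) = finrank F V := by rw [Module.finrank_prod, Module.finrank_self, hd]
  refine ⟨v, ?_, hperp, LinearEquiv.ofInjectiveOfFinrankEq E hEi hdim, ?_⟩
  · intro hQv
    apply hv0'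
    apply hQ.eq_zero
    intro y
    obtain ⟨p, rfl⟩ := (LinearEquiv.ofInjectiveOfFinrankEq E hEi hdim).surjective y
    have h5 : (LinearEquiv.ofInjectiveOfFinrankEq E hEi hdim) p = f p.1 + p.2 • v := by
      rw [← hE]; rfl
    rw [h5, polar_add_right, polar_smul_right, polar_comm Q v (f p.1), hperp, polar_self', hQv]
    simp
  · intro p
    rw [← hE]; rfl

theorem odd_scale (hQ : Nd Q) (hQ' : Nd Q') {N : ℕ} (hV : finrank F V = 2 * N + 1) (hW : finrank F W = 2 * N + 1) :
    ∃ c : F, c ≠ 0 ∧ ∃ e : W ≃ₗ[F] V, ∀ x, Q (e x) = c * Q' x := by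
  obtain ⟨X, _, _, _, QX, hQX, hX, hDX⟩ := exists_space (F := F) N 1 (Or.inl rfl)
  obtain ⟨f, hf⟩ := emb_lt hQ hQX (by omega)
  obtain ⟨g, hg⟩ := emb_lt hQ' hQX (by omega)
  obtain ⟨v, hv, hfv, e1, he1⟩ := exists_line hQ hQX (by omega) hf
  obtain ⟨w, hw, hgw, e2, he2⟩ := exists_line hQ' hQX (by omega) hg
  have hc : Q v / Q' w ≠ 0 := div_ne_zero hv hw
  set c := Q v / Q' w with hcdef
  have hcQ := nd_smul_form hc hQX
  have hplus : Plus QX := by
    obtain ⟨_, h | h⟩ := D_cases N hQX hX
    · exact h.1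
    · exfalso
      rw [hDX, one_mul] at h
      have h3 : 0 < (Nat.card F : ℤ) ^ N := by have := Nat.card_pos (α := F); positivity
      have h4 := h.2
      omega
  have hDc : D (c • QX) = (Nat.card F : ℤ) ^ N := by
    obtain ⟨U, hU, hUd⟩ := hplus
    have h3 : finrank F U = N := by omega
    rw [← h3]
    apply D_of_ts hcQ
    · intro u hu
      rw [smul_apply, hU u hu, smul_zero]
    · exact hUd
  obtain ⟨φ, hφ⟩ := iso_of_D N hcQ hX hQX hX (by rw [hDc, hDX, one_mul])
  have hφ' : ∀ x, QX (φ x) = c * QX x := hφ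
  refine ⟨c, hc, e2.symm.trans ((φ.prodCongr (LinearEquiv.refl F F)).trans e1), ?_⟩
  intro y
  obtain ⟨p, rfl⟩ := e2.surjective y
  have h1 : (e2.symm.trans ((φ.prodCongr (LinearEquiv.refl F F)).trans e1)) (e2 p) = f (φ p.1) + p.2 • v := by
    rw [LinearEquiv.trans_apply, LinearEquiv.symm_apply_apply, LinearEquiv.trans_apply, he1]
    rfl
  rw [h1, he2, Q_add, Q_add, Q_smul, Q_smul, polar_smul_right, polar_smul_right, hfv, hgw, hf, hg, hφ', smul_zero]
  have h3 : c * Q' w = Q v := div_mul_cancel₀ _ hw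
  linear_combination -(p.2 * p.2) * h3

/-- regular unipotents on subspaces of odd dimension `m + 1` -/
theorem exists_unip (h2 : (2 : F) ≠ 0) (hQ : Nd Q) {m : ℕ} (hm : Even m) (hV : m + 1 ≤ finrank F V) :
    ∃ g ∈ O Q, (g.toLinearMap - 1 : Module.End F V) ^ (m + 1) = 0 ∧ (g.toLinearMap - 1 : Module.End F V) ^ m ≠ 0 := by
  obtain ⟨QS, hQS, T, hT, hT1, hT2⟩ := exists_reg (F := F) h2 hm
  have hS : finrank F (Fin (m + 1) → F) = m + 1 := by simp
  rcases hV.lt_or_eq with hlt | heq
  · obtain ⟨f, hf⟩ := emb_lt hQ hQS (by rw [hS]; exact hlt)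
    have hfi := inj_of_nd hQS hf
    set g := extHom Q hQS f hf (ofMap hQS T hT) with hg
    have hgO : g ∈ O Q := extHom_mem hQS hf (ofMap_mem _ _ _)
    have hpow : ∀ (j : ℕ) (x : V), ((g.toLinearMap - 1 : Module.End F V) ^ (j + 1)) x = f (((T - 1) ^ (j + 1)) (prj Q hQS f x)) := by
      intro j
      induction j with
      | zero =>
        intro x
        rw [zero_add, pow_one, pow_one, LinearMap.sub_apply]
        show g x - x = _
        rw [hg, extHom_apply, add_sub_cancel_left]
        rfl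
      | succ j ih =>
        intro x
        rw [pow_succ', Module.End.mul_apply, ih, LinearMap.sub_apply]
        show g (f _) - f _ = _
        rw [hg, extHom_apply_j, ← map_sub, pow_succ' (T - 1) (j + 1), Module.End.mul_apply]
        rfl
    refine ⟨g, hgO, ?_, ?_⟩
    · ext x
      rw [hpow, hT1]; simp
    · intro h
      rcases Nat.eq_zero_or_pos m with h0 | h0
      · subst h0
        rw [pow_zero] at h
        have hnt : Nontrivial V := Module.nontrivial_of_finrank_pos (R := F) (by omega)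
        exact one_ne_zero h
      · obtain ⟨j, rfl⟩ : ∃ j, m = j + 1 := ⟨m - 1, by omega⟩
        apply hT2
        refine LinearMap.ext fun x => ?_
        have h1 := hpow j (f x)
        rw [h, prj_apply hQS hf] at h1
        have h3 : f (((T - 1) ^ (j + 1)) x) = f 0 := by rw [map_zero, ← h1]; rfl
        exact hfi h3
  · obtain ⟨N, hN⟩ := hm
    obtain ⟨c, hc, e, he⟩ := odd_scale hQ hQS (N := N) (by omega) (by rw [hS]; omega)
    have hiso : ∀ v, Q ((e.conj T) v) = Q v := by
      intro v
      rw [LinearEquiv.conj_apply_apply, he, hT, ← he, LinearEquiv.apply_symm_apply]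
    refine ⟨ofMap hQ (e.conj T) hiso, ofMap_mem _ _ _, ?_, ?_⟩
    · show (e.conj T - 1) ^ (m + 1) = 0
      have h1 : e.conj T - 1 = e.conj (T - 1) := by rw [map_sub]; congr 1; ext x; simp
      have h3 : ∀ j : ℕ, (e.conj (T - 1)) ^ j = e.conj ((T - 1) ^ j) := by
        intro j
        induction j with
        | zero => ext x; simp
        | succ j ih =>
          rw [pow_succ, ih, pow_succ]
          ext x; simp
      rw [h1, h3, hT1, map_zero]
    · show (e.conj T - 1) ^ m ≠ 0
      have h1 : e.conj T - 1 = e.conj (T - 1) := by rw [map_sub]; congr 1; ext x; simp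
      have h3 : ∀ j : ℕ, (e.conj (T - 1)) ^ j = e.conj ((T - 1) ^ j) := by
        intro j
        induction j with
        | zero => ext x; simp
        | succ j ih =>
          rw [pow_succ, ih, pow_succ]
          ext x; simp
      rw [h1, h3]
      intro h
      exact hT2 ((LinearEquiv.conj e).map_eq_zero_iff.1 h)

end scale

section order
variable {F : Type u} [Field F] [Finite F]
variable {V : Type v} [AddCommGroup V] [Module F V] [FiniteDimensional F V] {Q : QuadraticForm F V}

theorem toLin_pow (g : V ≃ₗ[F] V) (k : ℕ) : (g ^ k).toLinearMap = (g.toLinearMap : Module.End F V) ^ k := by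
  ext x
  exact (toEnd_pow g k x).symm

theorem toLin_inj {g h : V ≃ₗ[F] V} (hgh : (g.toLinearMap : Module.End F V) = h.toLinearMap) : g = h := by
  ext x
  exact congrArg (fun T : Module.End F V => T x) hgh

theorem unip_pow {p : ℕ} [Fact p.Prime] [CharP F p] (g : V ≃ₗ[F] V) (b : ℕ) :
    (g.toLinearMap - 1 : Module.End F V) ^ (p ^ b) = (g ^ (p ^ b)).toLinearMap - 1 := by
  rcases subsingleton_or_nontrivial V with hV | hV
  · ext x
    exact Subsingleton.elim _ _
  have : CharP (Module.End F V) p := charP_of_injective_algebraMap (algebraMap F (Module.End F V)).injective p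
  rw [toLin_pow]
  have h := sub_pow_char_pow_of_commute (R := Module.End F V) (x := g.toLinearMap) (y := 1) p b (Commute.one_right _)
  rw [one_pow] at h
  exact h

theorem unip_order {p : ℕ} [hp : Fact p.Prime] [CharP F p] {g : V ≃ₗ[F] V} {k a : ℕ} (h0 : (g.toLinearMap - 1 : Module.End F V) ^ (k + 1) = 0)
    (h1 : (g.toLinearMap - 1 : Module.End F V) ^ k ≠ 0) (hk1 : p ^ a ≤ k) (hk2 : k < p ^ (a + 1)) : orderOf g = p ^ (a + 1) := by
  apply orderOf_eq_prime_pow
  · intro h
    have h3 := unip_pow (p := p) g a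
    rw [h] at h3
    have h4 : (g.toLinearMap - 1 : Module.End F V) ^ (p ^ a) = 0 := by
      rw [h3]; exact sub_self _
    exact h1 (by
      obtain ⟨c, rfl⟩ := Nat.exists_eq_add_of_le hk1
      rw [pow_add, h4, zero_mul])
  · have h3 := unip_pow (p := p) g (a + 1)
    obtain ⟨c, hc⟩ := Nat.exists_eq_add_of_le (Nat.succ_le_of_lt hk2)
    have h4 : (g.toLinearMap - 1 : Module.End F V) ^ (p ^ (a + 1)) = 0 := by
      rw [hc, Nat.succ_eq_add_one, pow_add, h0, zero_mul]
    rw [h4] at h3
    apply toLin_inj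
    exact (sub_eq_zero.1 h3.symm)

end order

section neg
variable {F : Type u} [Field F] [Finite F]
variable {V : Type v} [AddCommGroup V] [Module F V] [FiniteDimensional F V] {Q : QuadraticForm F V}

theorem neg_mem : (LinearEquiv.neg F : V ≃ₗ[F] V) ∈ O Q := by
  intro v
  show Q (-v) = Q v
  exact QuadraticMap.map_neg _ _

theorem isPar_neg (h2 : (2 : F) ≠ 0) (hQ : Nd Q) {k : ℕ} (hV : finrank F V = 2 * k) :
    IsPar h2 hQ (LinearEquiv.neg F : V ≃ₗ[F] V) (1, sgn (D Q = chi F ^ k * (Nat.card F : ℤ) ^ k)) := by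
  refine ⟨neg_mem, Prod.ext ?_ ?_⟩
  · show sgn (Even (finrank F (mov (LinearEquiv.neg F : V ≃ₗ[F] V)))) = 1
    apply sgn_true
    have h1 := finrank_mov_add_fixS (LinearEquiv.neg F : V ≃ₗ[F] V)
    have h3 : fixS (LinearEquiv.neg F : V ≃ₗ[F] V) = ⊥ := by
      rw [eq_bot_iff]
      intro x hx
      have hx' : -x = x := mem_fixS.1 hx
      have h4 : (2 : F) • x = 0 := by
        rw [two_smul]
        nth_rewrite 1 [← hx']
        exact neg_add_cancel x
      exact (Submodule.mem_bot F).2 ((smul_eq_zero.1 h4).resolve_left h2)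
    rw [h3, finrank_bot, add_zero, hV] at h1
    rw [h1]
    exact even_two_mul k
  · show sgn (IsSquare (wd Q (LinearEquiv.neg F : V ≃ₗ[F] V))) = sgn _
    have h1 := inv_spin h2 hQ (genHyp_of_two_ne_zero h2) k (LinearEquiv.neg F : V ≃ₗ[F] V) neg_mem ⊤ (nd_top hQ) (by rw [finrank_top, hV])
      (fun x _ => rfl) (fun x hx => by
        have : x = 0 := hQ.eq_zero fun y => by
          rw [polar_comm]
          exact mem_pp.1 hx y trivial
        rw [this, map_zero])
    rw [D_top] at h1
    rw [h1]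

end neg

end Cfsg.Agent.Lib.SpecA67
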