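import Mathlib
import Cfsg.Agent.Lib.SpecU67
import Cfsg.Agent.Lib.OrthStd67

/-!
(helper67) Element orders of `Ω₈⁻` and of `V ⋊ Ω₈⁻`: constructions.
-/

set_option autoImplicit false
set_option linter.unusedSectionVars false

namespace Cfsg.Agent.Lib.SpecA67

open QuadraticMap Module Cfsg.Agent.Lib.Quad Cfsg.Agent.Lib.QuadD67 Cfsg.Agent.Lib.QuadEmb67 Cfsg.Agent.Lib.OrthR67
open Cfsg.Agent.Lib.InvSub Cfsg.Agent.Lib.PrimeOrd Cfsg.Agent.Lib.OReal67 Cfsg.Agent.Lib.OrthEmb67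

universe u v w

section good
variable {F : Type u} [Field F] [Finite F]
variable {V : Type v} [AddCommGroup V] [Module F V] [FiniteDimensional F V] {Q : QuadraticForm F V}
variable {W : Type w} [AddCommGroup W] [Module F W] [FiniteDimensional F W] {Q' : QuadraticForm F W}

/-- `n` is the order of an element of `V ⋊ Ω(V)` -/
def Good (h2 : (2 : F) ≠ 0) (p : ℕ) (hQ : Nd Q) (n : ℕ) : Prop :=
  ∃ t : V ≃ₗ[F] V, IsPar h2 hQ t 1 ∧ (orderOf t = n ∨ (n = p * orderOf t ∧ ∃ v, ∑ i ∈ Finset.range (orderOf t), (t ^ i) v ≠ 0))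

theorem Good.emb {h2 : (2 : F) ≠ 0} {p : ℕ} {hQ : Nd Q} {hQ' : Nd Q'} {n : ℕ} (h : Good h2 p hQ' n) {j : W →ₗ[F] V} (hj : ∀ x, Q (j x) = Q' x) :
    Good h2 p hQ n := by
  obtain ⟨t, ht, h⟩ := h
  have ho : orderOf (extHom Q hQ' j hj t) = orderOf t := orderOf_injective _ (extHom_injective hQ' hj) t
  refine ⟨extHom Q hQ' j hj t, ht.ext hj, ?_⟩
  rw [ho]
  refine h.imp id fun ⟨h1, v, hv⟩ => ⟨h1, j v, ?_⟩
  have h3 : ∀ i, ((extHom Q hQ' j hj t) ^ i) (j v) = j ((t ^ i) v) := fun i => by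
    rw [← map_pow, extHom_apply_j]
  simp only [h3]
  rw [← map_sum]
  intro h4
  exact hv (inj_of_nd hQ' hj (by rw [h4, map_zero]))

variable {p : ℕ} [hp : Fact p.Prime] [CharP F p] {h2 : (2 : F) ≠ 0}

theorem geom_char (T : Module.End F V) : ∑ i ∈ Finset.range p, T ^ i = (T - 1) ^ (p - 1) := by
  have h1 : ∑ i ∈ Finset.range p, (Polynomial.X : Polynomial F) ^ i = (Polynomial.X - 1) ^ (p - 1) := by
    have h3 : (∑ i ∈ Finset.range p, (Polynomial.X : Polynomial F) ^ i) * (Polynomial.X - 1) = (Polynomial.X - 1) ^ (p - 1) * (Polynomial.X - 1) := by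
      rw [geom_sum_mul, ← pow_succ, Nat.sub_add_cancel hp.1.one_le, sub_pow_char, one_pow]
    have h4 : (Polynomial.X - 1 : Polynomial F) ≠ 0 := by
      have := Polynomial.X_sub_C_ne_zero (1 : F)
      rwa [Polynomial.C_1] at this
    exact mul_right_cancel₀ h4 h3
  have h5 := congrArg (Polynomial.aeval T) h1
  simpa using h5

theorem sum_period {G : V ≃ₗ[F] V} {N : ℕ} (x : V) (hx : (G ^ N) x = x) (m : ℕ) :
    ∑ i ∈ Finset.range (m * N), (G ^ i) x = (m : F) • ∑ i ∈ Finset.range N, (G ^ i) x := by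
  have hk : ∀ k : ℕ, (G ^ (k * N)) x = x := by
    intro k
    induction k with
    | zero => simp
    | succ k ih => rw [Nat.succ_mul, pow_add, LinearEquiv.mul_apply, hx, ih]
  induction m with
  | zero => simp
  | succ m ih =>
    rw [Nat.succ_mul, Finset.sum_range_add, ih]
    have : ∀ i, (G ^ (m * N + i)) x = (G ^ i) x := fun i => by
      rw [add_comm, pow_add, LinearEquiv.mul_apply, hk]
    simp only [this]
    push_cast
    rw [add_smul, one_smul]

theorem sum_unip (G : V ≃ₗ[F] V) (v : V) : ∑ i ∈ Finset.range p, (G ^ i) v = ((G.toLinearMap - 1 : Module.End F V) ^ (p - 1)) v := by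
  rw [← geom_char, LinearMap.sum_apply]
  exact Finset.sum_congr rfl fun i _ => (toEnd_pow G i v).symm

/-- unipotent of order `p` with a Jordan block of size `p` -/
theorem exists_jp (h2 : (2 : F) ≠ 0) (hQ : Nd Q) (hodd : Odd p) (hV : p ≤ finrank F V) :
    ∃ g : V ≃ₗ[F] V, IsPar h2 hQ g 1 ∧ orderOf g = p ∧ ∃ v, ∑ i ∈ Finset.range p, (g ^ i) v ≠ 0 := by
  have hp1 := hp.1.two_le
  obtain ⟨m, hm⟩ : ∃ m, p = m + 1 := ⟨p - 1, by omega⟩
  have hme : Even m := by
    rcases hodd with ⟨a, ha⟩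
    exact ⟨a, by omega⟩
  obtain ⟨g, hgO, h0, h1⟩ := exists_unip h2 hQ hme (by omega)
  have ho : orderOf g = p := by
    have := unip_order (p := p) (a := 0) h0 h1 (by rw [pow_zero]; omega) (by rw [zero_add, pow_one]; omega)
    rwa [zero_add, pow_one] at this
  refine ⟨g, isPar_odd hQ hgO hodd (by rw [← ho]; exact pow_orderOf_eq_one g), ho, ?_⟩
  by_contra hcon
  push Not at hcon
  apply h1
  ext v
  have := hcon v
  rw [sum_unip] at this
  have e : p - 1 = m := by omega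
  rw [e] at this
  rw [this]; rfl

end good

section eight
variable {F : Type u} [Field F] [Finite F] {h2 : (2 : F) ≠ 0} {p : ℕ} [hp : Fact p.Prime] [CharP F p]
variable {V : Type v} [AddCommGroup V] [Module F V] [FiniteDimensional F V] {Q : QuadraticForm F V}
variable {X : Type w} [AddCommGroup X] [Module F X] [FiniteDimensional F X] {QX : QuadraticForm F X}

theorem qpos : (0 : ℤ) < (Nat.card F : ℤ) := by exact_mod_cast Nat.card_pos (α := F)

theorem bal' (hQX : Nd QX) {a : ℕ} (hX : finrank F X = 2 * a) : Bal QX := (D_cases a hQX hX).1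

theorem mix1 (hQ : Nd Q) (hV : finrank F V = 8) (hD : D Q = -(Nat.card F : ℤ) ^ 4) (hQX : Nd QX) (hX : finrank F X < 8 ∨ (finrank F X = 8 ∧ D QX = -(Nat.card F : ℤ) ^ 4))
    {n : ℕ} (h : Good h2 p hQX n) : Good h2 p hQ n := by
  obtain ⟨j, hj⟩ := emb hQ hQX (by
    rw [hV]
    exact hX.imp id fun h => ⟨h.1, by decide, by rw [h.2, hD]⟩)
  exact h.emb hj

theorem exists_L (hQ : Nd Q) (hV : finrank F V = 8) (hD : D Q = -(Nat.card F : ℤ) ^ 4) (hQX : Nd QX) {a : ℕ} (hX : finrank F X = 2 * a) (ha : a ≤ 3) :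
    ∃ (L : Type u) (_ : AddCommGroup L) (_ : Module F L) (_ : FiniteDimensional F L) (QL : QuadraticForm F L) (hQL : Nd QL),
      finrank F L = 8 - 2 * a ∧ ∀ n, Good h2 p (nd_prod hQX hQL) n → Good h2 p hQ n := by
  obtain ⟨s, hs, hDs⟩ := exists_sign hQX hX
  obtain ⟨L, _, _, _, QL, hQL, hL, hDL⟩ := exists_space (F := F) (4 - a) (-s) (by
    rcases hs with rfl | ⟨rfl, _⟩
    · right; exact ⟨rfl, by omega⟩
    · left; ring)
  have hmain : finrank F (X × L) = 8 ∧ D (QX.prod QL) = -(Nat.card F : ℤ) ^ 4 := by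
    refine ⟨by rw [Module.finrank_prod]; omega, ?_⟩
    have hVf : Finite X := Module.finite_of_finite F
    have hLf : Finite L := Module.finite_of_finite F
    rw [D_prod (bal' hQX hX) (bal' hQL hL), hDs, hDL]
    have h1 : s * s = 1 := by rcases hs with rfl | ⟨rfl, _⟩ <;> norm_num
    have h3 : (Nat.card F : ℤ) ^ 4 = (Nat.card F : ℤ) ^ a * (Nat.card F : ℤ) ^ (4 - a) := by
      rw [← pow_add]; congr 1; omega
    rw [h3]
    linear_combination -((Nat.card F : ℤ) ^ a * (Nat.card F : ℤ) ^ (4 - a)) * h1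
  exact ⟨L, inferInstance, inferInstance, inferInstance, QL, hQL, by omega,
    fun n hn => mix1 (p := p) hQ hV hD (nd_prod hQX hQL) (Or.inr hmain) hn⟩

theorem cast_ne (m : ℕ) (hm : ¬ p ∣ m) : (m : F) ≠ 0 := fun h => hm ((CharP.cast_eq_zero_iff F p m).1 h)

theorem mix2 (hQ : Nd Q) (hV : finrank F V = 8) (hD : D Q = -(Nat.card F : ℤ) ^ 4) (hQX : Nd QX) {a : ℕ} (hX : finrank F X = 2 * a) (ha : a ≤ 3)
    {t : X ≃ₗ[F] X} (ht : IsPar h2 hQX t 1) {m : ℕ} (hm : orderOf t = m) (hpm : ¬ p ∣ m) : Good h2 p hQ (p * m) := by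
  obtain ⟨L, _, _, _, QL, hQL, hL, hgood⟩ := exists_L (h2 := h2) (p := p) hQ hV hD hQX hX ha
  apply hgood
  have hpar := ht.prod (isPar_one (h2 := h2) hQL)
  rw [mul_one] at hpar
  have ho : orderOf (prH F X L (t, 1)) = m := by rw [order_prH, orderOf_one, Nat.lcm_one_right, hm]
  obtain ⟨b, hb⟩ : ∃ b : L, b ≠ 0 := (Module.finrank_pos_iff_exists_ne_zero (R := F)).1 (by omega)
  refine ⟨prH F X L (t, 1), hpar, Or.inr ⟨by rw [ho], (0, b), ?_⟩⟩
  rw [ho]
  have h1 : ∀ i : ℕ, ((prH F X L (t, 1)) ^ i) (0, b) = (0, b) := fun i => by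
    rw [← map_pow, Prod.pow_mk, one_pow, prH_apply]
    simp
  simp only [h1, Finset.sum_const, Finset.card_range]
  intro h3
  have h4 : m • b = 0 := congrArg Prod.snd h3
  rw [← Nat.cast_smul_eq_nsmul F] at h4
  exact hb ((smul_eq_zero.1 h4).resolve_left (cast_ne (F := F) (p := p) m hpm))

theorem mix3 (hodd : Odd p) (hQ : Nd Q) (hV : finrank F V = 8) (hD : D Q = -(Nat.card F : ℤ) ^ 4) (hQX : Nd QX) {a : ℕ} (hX : finrank F X = 2 * a)
    (ha : 2 * a + p ≤ 8) {t : X ≃ₗ[F] X} (ht : IsPar h2 hQX t 1) {m : ℕ} (hm : orderOf t = m ∨ orderOf t = m * p) (hpm : ¬ p ∣ m) :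
    Good h2 p hQ (p * (m * p)) := by
  have hp2 := hp.1.two_le
  obtain ⟨L, _, _, _, QL, hQL, hL, hgood⟩ := exists_L (h2 := h2) (p := p) hQ hV hD hQX hX (by omega)
  apply hgood
  obtain ⟨g, hg, hgo, b, hb⟩ := exists_jp h2 hQL hodd (by omega)
  have hpar := ht.prod hg
  rw [mul_one] at hpar
  have ho : orderOf (prH F X L (t, g)) = m * p := by
    rw [order_prH, hgo]
    rcases hm with hm | hm
    · rw [hm]
      exact Nat.Coprime.lcm_eq_mul ((Nat.Prime.coprime_iff_not_dvd hp.1).2 hpm).symm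
    · rw [hm, Nat.lcm_comm]
      exact Nat.lcm_eq_right (dvd_mul_left _ _)
  refine ⟨prH F X L (t, g), hpar, Or.inr ⟨by rw [ho], (0, b), ?_⟩⟩
  rw [ho]
  have h1 : ∀ i : ℕ, ((prH F X L (t, g)) ^ i) (0, b) = (0, (g ^ i) b) := fun i => by
    rw [← map_pow, Prod.pow_mk, prH_apply]
    simp
  simp only [h1]
  intro h3
  have h4 : ∑ i ∈ Finset.range (m * p), (g ^ i) b = 0 := by
    have := congrArg Prod.snd h3
    rwa [Prod.snd_sum] at this
  rw [sum_period b (by rw [← hgo, pow_orderOf_eq_one]; rfl) m] at h4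
  exact hb ((smul_eq_zero.1 h4).resolve_left (cast_ne (F := F) (p := p) m hpm))

/-- `-1` on a plane, with given spinor sign -/
theorem exists_plane (h2 : (2 : F) ≠ 0) (σ : ℤˣ) :
    ∃ (A : Type u) (_ : AddCommGroup A) (_ : Module F A) (_ : FiniteDimensional F A) (QA : QuadraticForm F A) (hQA : Nd QA),
      finrank F A = 2 ∧ IsPar h2 hQA (LinearEquiv.neg F : A ≃ₗ[F] A) (1, σ) ∧ orderOf (LinearEquiv.neg F : A ≃ₗ[F] A) = 2 := by
  have hchi : chi F = 1 ∨ chi F = -1 := by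
    unfold chi
    split_ifs
    · left; rfl
    · right; rfl
  obtain ⟨A, _, _, _, QA, hQA, hA, hDA⟩ := exists_space (F := F) 1 ((σ : ℤ) * chi F) (by
    rcases Int.units_eq_one_or σ with rfl | rfl <;> rcases hchi with h | h <;> rw [h] <;> simp)
  refine ⟨A, inferInstance, inferInstance, inferInstance, QA, hQA, by omega, ?_, ?_⟩
  · have h1 := isPar_neg h2 hQA (k := 1) hA
    have hσ : sgn (D QA = chi F ^ 1 * (Nat.card F : ℤ) ^ 1) = σ := by
      rw [hDA, pow_one, pow_one]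
      have hq := qpos (F := F)
      rcases Int.units_eq_one_or σ with rfl | rfl
      · exact sgn_true (by simp)
      · apply sgn_false
        intro h
        rcases hchi with h3 | h3 <;> rw [h3] at h <;> simp at h <;> omega
    rwa [hσ] at h1
  · apply orderOf_eq_prime
    · ext x
      show -(-x) = x
      exact neg_neg x
    · intro h
      obtain ⟨x, hx⟩ : ∃ b : A, b ≠ 0 := (Module.finrank_pos_iff_exists_ne_zero (R := F)).1 (by omega)
      have h1 : -x = x := by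
        have := congrArg (fun T : A ≃ₗ[F] A => T x) h
        exact this
      have h4 : (2 : F) • x = 0 := by
        rw [two_smul]
        nth_rewrite 1 [← h1]
        exact neg_add_cancel x
      exact hx ((smul_eq_zero.1 h4).resolve_left h2)

theorem even_of_par {c : ℤˣ} {hQX : Nd QX} {t : X ≃ₗ[F] X} (ht : IsPar h2 hQX t (1, c)) (hc : c ≠ 1) : Even (orderOf t) := by
  by_contra h
  rw [Nat.not_even_iff_odd] at h
  have h1 := isPar_odd (h2 := h2) hQX ht.1 h (pow_orderOf_eq_one t)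
  have h3 := ht.unique h1
  exact hc (congrArg Prod.snd h3)

theorem exists_torus (h2 : (2 : F) ≠ 0) {k : ℕ} (hk : 1 ≤ k) {s : ℤ} (hs : s = 1 ∨ s = -1) {n : ℕ} (hn : (n : ℤ) ∣ (Nat.card F : ℤ) ^ k - s) :
    ∃ (X : Type) (_ : AddCommGroup X) (_ : Module F X) (_ : FiniteDimensional F X) (QX : QuadraticForm F X) (hQX : Nd QX)
      (t : X ≃ₗ[F] X) (c : ℤˣ), finrank F X = 2 * k ∧ D QX = s * (Nat.card F : ℤ) ^ k ∧ IsPar h2 hQX t (1, c) ∧ orderOf t = n := by
  have hq : 1 ≤ Nat.card F ^ k := Nat.one_le_pow _ _ Nat.card_pos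
  rcases hs with rfl | rfl
  · obtain ⟨X, i1, i2, i3, QX, hQX, t, c, g1, g2, g3, g4⟩ := torus_plus (F := F) h2 hk (n := n) (by
      have e : ((Nat.card F ^ k - 1 : ℕ) : ℤ) = (Nat.card F : ℤ) ^ k - 1 := by push_cast [hq]; ring
      rw [← e] at hn
      exact_mod_cast hn)
    exact ⟨X, i1, i2, i3, QX, hQX, t, c, g1, by rw [g2, one_mul], g3, g4⟩
  · obtain ⟨X, i1, i2, i3, QX, hQX, t, c, g1, g2, g3, g4⟩ := torus_minus (F := F) h2 hk (n := n) (by
      have e : ((Nat.card F ^ k + 1 : ℕ) : ℤ) = (Nat.card F : ℤ) ^ k - (-1) := by push_cast; ring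
      rw [← e] at hn
      exact_mod_cast hn)
    exact ⟨X, i1, i2, i3, QX, hQX, t, c, g1, by rw [g2]; ring, g3, g4⟩

/-- a torus element corrected by `-1` on a plane -/
theorem exists_corr (h2 : (2 : F) ≠ 0) {k : ℕ} (hk : 1 ≤ k) {s : ℤ} (hs : s = 1 ∨ s = -1) {n : ℕ} (hn : (n : ℤ) ∣ (Nat.card F : ℤ) ^ k - s) :
    ∃ (X : Type u) (_ : AddCommGroup X) (_ : Module F X) (_ : FiniteDimensional F X) (QX : QuadraticForm F X) (hQX : Nd QX)
      (t : X ≃ₗ[F] X), finrank F X = 2 * (k + 1) ∧ IsPar h2 hQX t 1 ∧ orderOf t = n := by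
  obtain ⟨X, _, _, _, QX, hQX, t, c, g1, g2, g3, g4⟩ := exists_torus (F := F) h2 hk hs hn
  obtain ⟨A, _, _, _, QA, hQA, hA, hpA, hoA⟩ := exists_plane h2 c
  by_cases hc : c = 1
  · refine ⟨X × A, inferInstance, inferInstance, inferInstance, QX.prod QA, nd_prod hQX hQA, prH F X A (t, 1), ?_, ?_, ?_⟩
    · rw [Module.finrank_prod]; omega
    · have := g3.prod (isPar_one (h2 := h2) hQA)
      rwa [mul_one, hc] at this
    · rw [order_prH, orderOf_one, Nat.lcm_one_right, g4]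
  · refine ⟨X × A, inferInstance, inferInstance, inferInstance, QX.prod QA, nd_prod hQX hQA, prH F X A (t, LinearEquiv.neg F), ?_, ?_, ?_⟩
    · rw [Module.finrank_prod]; omega
    · have := g3.prod hpA
      rwa [Prod.mk_mul_mk, one_mul, Int.units_mul_self] at this
    · rw [order_prH, hoA, g4]
      have h3 := even_of_par g3 hc
      rw [g4] at h3
      rw [Nat.lcm_comm]
      exact Nat.lcm_eq_right h3.two_dvd

/-- (C3) -/
theorem good_C3 (hQ : Nd Q) (hV : finrank F V = 8) (hD : D Q = -(Nat.card F : ℤ) ^ 4) {s : ℤ} (hs : s = 1 ∨ s = -1) {m : ℕ}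
    (hm : (m : ℤ) ∣ (Nat.card F : ℤ) ^ 2 - s) (hpm : ¬ p ∣ m) : Good h2 p hQ (p * m) := by
  obtain ⟨X, _, _, _, QX, hQX, t, hX, ht, ho⟩ := exists_corr (F := F) h2 (k := 2) (by omega) hs hm
  exact mix2 hQ hV hD hQX hX (by omega) ht ho hpm

/-- (C4) -/
theorem good_C4 (hp3 : p = 3) (hQ : Nd Q) (hV : finrank F V = 8) (hD : D Q = -(Nat.card F : ℤ) ^ 4) {s : ℤ} (hs : s = 1 ∨ s = -1) {m : ℕ}
    (hm : (m : ℤ) ∣ (Nat.card F : ℤ) ^ 1 - s) (hpm : ¬ p ∣ m) : Good h2 p hQ (p * (m * p)) := by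
  obtain ⟨X, _, _, _, QX, hQX, t, hX, ht, ho⟩ := exists_corr (F := F) h2 (k := 1) (by omega) hs hm
  exact mix3 (by rw [hp3]; decide) hQ hV hD hQX hX (by omega) ht (Or.inl ho) hpm

/-- (C5) -/
theorem good_C5 (hp5 : p = 5) (hQ : Nd Q) (hV : finrank F V = 8) (hD : D Q = -(Nat.card F : ℤ) ^ 4) :
    Good h2 p hQ (p * (2 * p)) := by
  obtain ⟨A, _, _, _, QA, hQA, hA, hpA, hoA⟩ := exists_plane (F := F) h2 1
  exact mix3 (a := 1) (by rw [hp5]; decide) hQ hV hD hQA hA (by omega) hpA (Or.inl hoA) (by rw [hp5]; decide)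

theorem order_neg_two (h2 : (2 : F) ≠ 0) (hX : 0 < finrank F X) : orderOf (LinearEquiv.neg F : X ≃ₗ[F] X) = 2 := by
  apply orderOf_eq_prime
  · ext x
    show -(-x) = x
    exact neg_neg x
  · intro h
    obtain ⟨x, hx⟩ : ∃ b : X, b ≠ 0 := (Module.finrank_pos_iff_exists_ne_zero (R := F)).1 hX
    have h1 : -x = x := by
      have := congrArg (fun T : X ≃ₗ[F] X => T x) h
      exact this
    have h4 : (2 : F) • x = 0 := by
      rw [two_smul]
      nth_rewrite 1 [← h1]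
      exact neg_add_cancel x
    exact hx ((smul_eq_zero.1 h4).resolve_left h2)

theorem odd_card (h2 : (2 : F) ≠ 0) : Nat.card F % 2 = 1 := by
  have := Fintype.ofFinite F
  have h := FiniteField.odd_card_of_char_ne_two (F := F) (fun h => h2 (by
    have := CharP.cast_eq_zero F (ringChar F)
    rw [h] at this
    exact_mod_cast this))
  rw [Nat.card_eq_fintype_card]
  exact h

theorem chi_cases : (chi F = 1 ∧ Nat.card F % 4 ≠ 3) ∨ (chi F = -1 ∧ Nat.card F % 4 = 3) := by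
  have := Fintype.ofFinite F
  rw [chi_eq, Nat.card_eq_fintype_card]
  split_ifs with h
  · right; exact ⟨rfl, h⟩
  · left; exact ⟨rfl, h⟩

/-- (C1) -/
theorem good_C1 (hQ : Nd Q) (hV : finrank F V = 8) (hD : D Q = -(Nat.card F : ℤ) ^ 4) {s : ℤ} (hs : s = 1 ∨ s = -1) {n : ℕ}
    (hn : (n : ℤ) ∣ (Nat.card F : ℤ) ^ 3 - s) : Good h2 p hQ n := by
  obtain ⟨X, _, _, _, QX, hQX, t, c, g1, g2, g3, g4⟩ := exists_torus (F := F) h2 (k := 3) (by omega) hs hn
  by_cases hc : c = 1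
  · exact mix1 hQ hV hD hQX (Or.inl (by omega)) ⟨t, by rw [hc] at g3; exact g3, Or.inl g4⟩
  obtain ⟨B, _, _, _, QB, hQB, hB, hDB⟩ := exists_space (F := F) 1 (-s) (by
    rcases hs with rfl | rfl
    · right; exact ⟨rfl, le_rfl⟩
    · left; rfl)
  have hnB := isPar_neg h2 hQB (k := 1) hB
  have hoB := order_neg_two (F := F) (X := B) h2 (by omega)
  have hXf : Finite X := Module.finite_of_finite F
  have hBf : Finite B := Module.finite_of_finite F
  have hss : s * s = 1 := by rcases hs with rfl | rfl <;> norm_num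
  have hdim : finrank F (X × B) = 8 := by rw [Module.finrank_prod]; omega
  have hDX : D (QX.prod QB) = -(Nat.card F : ℤ) ^ 4 := by
    rw [D_prod (bal' hQX g1) (bal' hQB hB), g2, hDB]
    linear_combination -((Nat.card F : ℤ) ^ 4) * hss
  have hev := even_of_par g3 hc
  rw [g4] at hev
  have hc' : c = -1 := (Int.units_eq_one_or c).resolve_left hc
  by_cases hd : D QB = chi F ^ 1 * (Nat.card F : ℤ) ^ 1
  · -- `-1` is in `Ω`
    have hn4 : ¬ 4 ∣ n := by
      intro h4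
      have h5 : (4 : ℤ) ∣ (Nat.card F : ℤ) ^ 3 - s := dvd_trans (by exact_mod_cast h4) hn
      rw [hDB, pow_one, pow_one] at hd
      have hq := qpos (F := F)
      have h6 : -s = chi F := mul_right_cancel₀ hq.ne' hd
      have hodd := odd_card h2
      obtain ⟨c, hc⟩ : ∃ c, Nat.card F = c := ⟨_, rfl⟩
      rw [hc] at h5 hodd
      have h7 := chi_cases (F := F)
      rw [hc] at h7
      have h8 : ((c : ℤ) % 4 = 1 ∧ s = -1) ∨ ((c : ℤ) % 4 = 3 ∧ s = 1) := by
        rcases h7 with ⟨h, h'⟩ | ⟨h, h'⟩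
        · left; constructor
          · omega
          · omega
        · right; constructor
          · omega
          · omega
      obtain ⟨e, he⟩ := h5
      rcases h8 with ⟨h, rfl⟩ | ⟨h, rfl⟩
      · obtain ⟨b, hb⟩ : ∃ b, (c : ℤ) = 4 * b + 1 := ⟨c / 4, by omega⟩
        rw [hb] at he
        ring_nf at he
        omega
      · obtain ⟨b, hb⟩ : ∃ b, (c : ℤ) = 4 * b + 3 := ⟨c / 4, by omega⟩
        rw [hb] at he
        ring_nf at he
        omega
    have h1 : IsPar h2 (nd_prod hQX hQB) (prH F X B (t * t, LinearEquiv.neg F)) 1 := by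
      have := (g3.mul g3).prod hnB
      rw [sgn_true hd] at this
      have h9 : IsPar h2 (nd_prod hQX hQB) (prH F X B (t * t, LinearEquiv.neg F)) (1, 1) := by simpa [hc'] using this
      exact h9
    refine mix1 hQ hV hD (nd_prod hQX hQB) (Or.inr ⟨hdim, hDX⟩) ⟨_, h1, Or.inl ?_⟩
    obtain ⟨r, hr⟩ := hev
    have ho2 : orderOf (t * t) = r := by
      rw [← pow_two, orderOf_pow' t two_ne_zero, g4, hr]
      have : Nat.gcd (r + r) 2 = 2 := by
        rw [← two_mul]; exact Nat.gcd_mul_right_left _ _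
      rw [this]; omega
    rw [order_prH, hoB, ho2, hr]
    have hco : Nat.Coprime r 2 := by
      rw [Nat.coprime_comm, Nat.Prime.coprime_iff_not_dvd Nat.prime_two]
      rintro ⟨b, rfl⟩
      exact hn4 ⟨b, by omega⟩
    rw [hco.lcm_eq_mul]; ring
  · have h1 : IsPar h2 (nd_prod hQX hQB) (prH F X B (t, LinearEquiv.neg F)) 1 := by
      have := g3.prod hnB
      rw [sgn_false hd] at this
      have h9 : IsPar h2 (nd_prod hQX hQB) (prH F X B (t, LinearEquiv.neg F)) (1, 1) := by simpa [hc'] using this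
      exact h9
    refine mix1 hQ hV hD (nd_prod hQX hQB) (Or.inr ⟨hdim, hDX⟩) ⟨_, h1, Or.inl ?_⟩
    rw [order_prH, hoB, g4, Nat.lcm_comm]
    exact Nat.lcm_eq_right hev.two_dvd

/-- (C2) -/
theorem good_C2 (hQ : Nd Q) (hV : finrank F V = 8) (hD : D Q = -(Nat.card F : ℤ) ^ 4) {n : ℕ}
    (hn : 2 * n ∣ Nat.card F ^ 4 - 1) : Good h2 p hQ n := by
  have hodd := odd_card h2
  have hq1 : 1 < Nat.card F := Finite.one_lt_card
  obtain ⟨q, hq⟩ : ∃ q, Nat.card F = q := ⟨_, rfl⟩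
  obtain ⟨b, hb⟩ : ∃ b, q = 2 * b + 1 := ⟨q / 2, by omega⟩
  have hb0 : 0 < b := by omega
  set a : ℕ := 2 * b ^ 2 + 2 * b + 1 with ha
  set d : ℕ := 4 * b ^ 2 + 4 * b with hd
  have h1 : q ^ 2 + 1 = 2 * a := by rw [hb, ha]; ring
  have h3 : q ^ 2 = d + 1 := by rw [hb, hd]; ring
  have h4 : q ^ 4 - 1 = 2 * (a * d) := by
    have : q ^ 4 = 2 * (a * d) + 1 := by rw [hb, ha, hd]; ring
    omega
  rw [hq, h4] at hn
  have hn' : n ∣ a * d := Nat.dvd_of_mul_dvd_mul_left (by norm_num) hn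
  have hcop : Nat.Coprime a d := by
    have ha2 : a % 2 = 1 := by rw [ha]; omega
    have h5 : Nat.gcd a d ∣ 2 := by
      have h6 : Nat.gcd a d ∣ 2 * a := dvd_mul_of_dvd_right (Nat.gcd_dvd_left _ _) _
      have h7 := Nat.dvd_sub h6 (Nat.gcd_dvd_right a d)
      have e : 2 * a - d = 2 := by rw [ha, hd]; omega
      rwa [e] at h7
    rcases (Nat.dvd_prime Nat.prime_two).1 h5 with h6 | h6
    · exact h6
    · exfalso
      have h7 := Nat.gcd_dvd_left a d
      rw [h6] at h7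
      omega
  have hfac : n = Nat.gcd n a * Nat.gcd n d := by
    rw [← Nat.Coprime.gcd_mul n hcop]
    exact (Nat.gcd_eq_left hn').symm
  set n1 := Nat.gcd n a with hn1
  set n2 := Nat.gcd n d with hn2
  have hn1a : n1 ∣ a := Nat.gcd_dvd_right _ _
  have hn2d : n2 ∣ d := Nat.gcd_dvd_right _ _
  have hcop2 : Nat.Coprime n1 n2 := Nat.Coprime.coprime_dvd_left hn1a (Nat.Coprime.coprime_dvd_right hn2d hcop)
  have hodd1 : Odd n1 := by
    rw [← Nat.not_even_iff_odd]
    intro h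
    have h5 : 2 ∣ a := dvd_trans h.two_dvd hn1a
    have ha2 : a % 2 = 1 := by rw [ha]; omega
    omega
  obtain ⟨X, _, _, _, QX, hQX, t, c, g1, g2, g3, g4⟩ := exists_torus (F := F) h2 (k := 2) (by omega) (s := -1) (Or.inr rfl) (n := n1) (by
    rw [hq]
    have e : ((q : ℤ) ^ 2 - (-1)) = ((q ^ 2 + 1 : ℕ) : ℤ) := by push_cast; ring
    rw [e, h1]
    exact_mod_cast dvd_mul_of_dvd_right hn1a 2)
  obtain ⟨Y, _, _, _, QY, hQY, t', c', g1', g2', g3', g4'⟩ := exists_torus (F := F) h2 (k := 2) (by omega) (s := 1) (Or.inl rfl) (n := n2) (by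
    rw [hq]
    have e : ((q : ℤ) ^ 2 - 1) = (d : ℤ) := by
      have := congrArg (fun x : ℕ => (x : ℤ)) h3
      push_cast at this
      linarith
    rw [e]
    exact_mod_cast hn2d)
  have hXf : Finite X := Module.finite_of_finite F
  have hYf : Finite Y := Module.finite_of_finite F
  have hdim : finrank F (X × Y) = 8 := by rw [Module.finrank_prod]; omega
  have hDX : D (QX.prod QY) = -(Nat.card F : ℤ) ^ 4 := by
    rw [D_prod (bal' hQX g1) (bal' hQY g1'), g2, g2']
    ring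
  have hc1 : c = 1 := by
    by_contra hne
    have := even_of_par g3 hne
    rw [g4] at this
    exact (Nat.not_even_iff_odd.2 hodd1) this
  rw [hc1] at g3
  by_cases hc : c' = 1
  · rw [hc] at g3'
    refine mix1 hQ hV hD (nd_prod hQX hQY) (Or.inr ⟨hdim, hDX⟩) ⟨prH F X Y (t, t'), ?_, Or.inl ?_⟩
    · have := g3.prod g3'
      have h9 : IsPar h2 (nd_prod hQX hQY) (prH F X Y (t, t')) (1, 1) := by simpa using this
      exact h9
    · rw [order_prH, g4, g4', hcop2.lcm_eq_mul, ← hfac]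
  · have hc' : c' = -1 := (Int.units_eq_one_or c').resolve_left hc
    have hev := even_of_par g3' hc
    rw [g4'] at hev
    rw [hc'] at g3'
    have hneg := isPar_neg h2 hQX (k := 2) g1
    rw [sgn_false (by
      rw [g2]
      have hq0 : (0 : ℤ) < (Nat.card F : ℤ) ^ 2 := by have := qpos (F := F); positivity
      have hcc : chi F ^ 2 = 1 := by rw [pow_two]; exact chi_sq
      rw [hcc]
      intro h
      omega)] at hneg
    have hon := order_neg_two (F := F) (X := X) h2 (by omega)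
    refine mix1 hQ hV hD (nd_prod hQX hQY) (Or.inr ⟨hdim, hDX⟩) ⟨prH F X Y (LinearEquiv.neg F * t, t'), ?_, Or.inl ?_⟩
    · have := (hneg.mul g3).prod g3'
      have h9 : IsPar h2 (nd_prod hQX hQY) (prH F X Y (LinearEquiv.neg F * t, t')) (1, 1) := by simpa using this
      exact h9
    · have hcomm : Commute (LinearEquiv.neg F : X ≃ₗ[F] X) t := by
        show _ * _ = _ * _
        ext x
        show -(t x) = t (-x)
        rw [map_neg]
      have ho : orderOf ((LinearEquiv.neg F : X ≃ₗ[F] X) * t) = 2 * n1 := by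
        rw [hcomm.orderOf_mul_eq_mul_orderOf_of_coprime (by rw [hon, g4]; exact Nat.coprime_two_left.2 hodd1), hon, g4]
      rw [order_prH, ho, g4', hfac]
      apply Nat.dvd_antisymm
      · apply Nat.lcm_dvd
        · obtain ⟨r, hr⟩ := hev.two_dvd
          rw [hr]
          exact ⟨r, by ring⟩
        · exact dvd_mul_left _ _
      · exact Nat.Coprime.mul_dvd_of_dvd_of_dvd hcop2 (dvd_trans (dvd_mul_left _ _) (Nat.dvd_lcm_left _ _)) (Nat.dvd_lcm_right _ _)

end eight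

end Cfsg.Agent.Lib.SpecA67
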