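import Mathlib
import Cfsg.Agent.Lib.SpecE67

/-!
(helper67) Orders of semisimple elements of `Ω₈⁺` without eigenvalue one.
-/

set_option autoImplicit false
set_option linter.unusedSectionVars false

namespace Cfsg.Agent.Lib.SpecA67

open QuadraticMap Module Cfsg.Agent.Lib.Quad Cfsg.Agent.Lib.QuadD67 Cfsg.Agent.Lib.QuadEmb67 Cfsg.Agent.Lib.OrthR67
open Cfsg.Agent.Lib.InvSub Cfsg.Agent.Lib.PrimeOrd Cfsg.Agent.Lib.OReal67 Cfsg.Agent.Lib.OrthEmb67

universe u v w

theorem qpos' {F : Type u} [Field F] [Finite F] : (1 : ℤ) < (Nat.card F : ℤ) := by exact_mod_cast (Finite.one_lt_card : 1 < Nat.card F)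

section half
variable {F : Type u} [Field F] [Finite F]
variable {V : Type v} [AddCommGroup V] [Module F V] [FiniteDimensional F V] {Q : QuadraticForm F V} {T : Module.End F V} {m : ℕ}

theorem Irr.half (h2 : (2 : F) ≠ 0) {X : Submodule F V} (h : Irr T X) (hT : ∀ x, T x = 0 → x = 0)
    (hsq : IsSquare (LinearMap.det (T.restrict h.1))) {e : ℕ} (he : 2 * e = Nat.card F ^ finrank F X - 1) : ∀ x ∈ X, (T ^ e) x = x := by
  have hn := h.nontrivial
  have hf := Fintype.ofFinite F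
  obtain ⟨K, _, _, _, _, _, _, h1, h3, t, ht, hadj⟩ := exists_field_irr (T.restrict h.1) h.hirr
  have ht0 : t ≠ 0 := by
    rintro rfl
    obtain ⟨x, hx⟩ := exists_ne (0 : X)
    exact hx (Subtype.ext (hT x (by
      have := congrArg Subtype.val (ht x)
      rw [zero_smul] at this
      exact this.symm)))
  obtain ⟨x0, hx0⟩ := exists_ne (0 : X)
  have hspan := (finrank_eq_one_iff_of_nonzero' (K := K) x0 hx0).1 h3
  let f : K →ₗ[F] X := (LinearMap.toSpanSingleton K X x0).restrictScalars F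
  have hf1 : ∀ κ, f κ = κ • x0 := fun κ => rfl
  have hfb : Function.Bijective f := by
    constructor
    · rw [← LinearMap.ker_eq_bot, eq_bot_iff]
      intro κ hκ
      exact (Submodule.mem_bot F).2 ((smul_eq_zero.1 (LinearMap.mem_ker.1 hκ)).resolve_right hx0)
    · intro x; exact hspan x
  let e' := LinearEquiv.ofBijective f hfb
  have hnorm : LinearMap.det (T.restrict h.1) = Algebra.norm F t := by
    rw [Algebra.norm_apply, ← LinearMap.det_conj (Algebra.lmul F K t) e']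
    congr 1
    ext x
    obtain ⟨κ, rfl⟩ := e'.surjective x
    have h5 : (e' : K →ₗ[F] X) ((Algebra.lmul F K t) (e'.symm (e' κ))) = T.restrict h.1 (e' κ) := by
      rw [LinearEquiv.symm_apply_apply]
      show (t * κ) • x0 = T.restrict h.1 (κ • x0)
      rw [← ht, smul_smul]
    exact congrArg Subtype.val h5.symm
  have hcard : Nat.card K = Nat.card F ^ finrank F X := by rw [← h1]; exact Module.natCard_eq_pow_finrank
  have hchar : ringChar F ≠ 2 := fun hc => h2 (by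
    have := CharP.cast_eq_zero F (ringChar F)
    rw [hc] at this
    exact_mod_cast this)
  have hn0 : Algebra.norm F t ≠ 0 := by rwa [Ne, Algebra.norm_eq_zero_iff]
  rw [hnorm, FiniteField.isSquare_iff hchar hn0] at hsq
  have h6 := congrArg (algebraMap F K) hsq
  rw [map_pow, map_one, FiniteField.algebraMap_norm_eq_pow, hcard, ← pow_mul] at h6
  have hodd := odd_card_aux h2
  have hq1 : 1 < Nat.card F := Finite.one_lt_card
  have hG : (Nat.card F ^ finrank F X - 1) / (Nat.card F - 1) * (Fintype.card F / 2) = e := by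
    rw [← Nat.card_eq_fintype_card]
    obtain ⟨G, hG⟩ : (Nat.card F - 1) ∣ Nat.card F ^ finrank F X - 1 := by
      have := Nat.sub_dvd_pow_sub_pow (Nat.card F) 1 (finrank F X)
      rwa [one_pow] at this
    rw [hG, Nat.mul_div_cancel_left _ (by omega)]
    rw [hG] at he
    have h7 : Nat.card F - 1 = 2 * (Nat.card F / 2) := by omega
    rw [h7, mul_assoc] at he
    have h8 := Nat.eq_of_mul_eq_mul_left (by norm_num) he
    rw [h8, mul_comm]
  rw [hG] at h6
  have hp : ∀ (n : ℕ) (x : X), t ^ n • x = ((T.restrict h.1) ^ n) x := by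
    intro n
    induction n with
    | zero => intro x; simp
    | succ n ih => intro x; rw [pow_succ, pow_succ, mul_smul, ht, ih, Module.End.mul_apply]
  intro x hx
  have h9 := hp e ⟨x, hx⟩
  rw [h6, one_smul] at h9
  have h10 := congrArg Subtype.val h9
  rw [restrict_pow'] at h10
  exact h10.symm

theorem Blk.pow_dvd {W : Submodule F V} {k : ℕ} {s : ℤ} (h : Blk Q T W k s) {e0 : ℕ} (he : (Nat.card F : ℤ) ^ k - s ∣ (e0 : ℤ)) :
    ∀ x ∈ W, (T ^ e0) x = x := by
  have hq : (1 : ℤ) ≤ (Nat.card F : ℤ) ^ k := by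
    have : 1 ≤ Nat.card F ^ k := Nat.one_le_pow _ _ Nat.card_pos
    exact_mod_cast this
  obtain ⟨e, he'⟩ : ∃ e : ℕ, (e : ℤ) = (Nat.card F : ℤ) ^ k - s := by
    refine ⟨((Nat.card F : ℤ) ^ k - s).toNat, Int.toNat_of_nonneg ?_⟩
    rcases h.sg with hs | hs <;> omega
  rw [← he'] at he
  exact pow_fix (h.pow e he') (by exact_mod_cast he)

/-- dimension two -/
theorem Sys.d1 (h : Sys Q T m) (h2 : (2 : F) ≠ 0) {W : Submodule F V} (hWi : Inv T W) (hW : NDq Q W) (hnf : NF T W)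
    (hd : finrank F W = 2) : ∃ s, Blk Q T W 1 s := by
  have hne : W ≠ ⊥ := by rintro rfl; rw [finrank_bot] at hd; omega
  obtain ⟨P, hP, k, s, hb⟩ := h.exists_blk h2 hWi hW hne hnf (by rw [hd]; decide)
  have h1 := hb.dim
  have h3 := hb.pos
  have h4 := Submodule.finrank_mono hP
  have hk : k = 1 := by omega
  have hPW : P = W := Submodule.eq_of_le_of_finrank_le hP (by omega)
  rw [hk, hPW] at hb
  exact ⟨s, hb⟩

theorem dv2 (q s : ℤ) (hs : s = 1 ∨ s = -1) : q ^ 1 - s ∣ q ^ 2 - 1 := by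
  rcases hs with rfl | rfl
  · exact ⟨q + 1, by ring⟩
  · exact ⟨q - 1, by ring⟩

theorem Blk.pow2 {W : Submodule F V} {s : ℤ} (h : Blk Q T W 1 s) {e : ℕ} (he : (e : ℤ) = (Nat.card F : ℤ) ^ 2 - 1) : ∀ x ∈ W, (T ^ e) x = x :=
  h.pow_dvd (by rw [he]; exact dv2 _ _ h.sg)

/-- dimension four -/
theorem Sys.d2 (h : Sys Q T m) (h2 : (2 : F) ≠ 0) {W : Submodule F V} (hWi : Inv T W) (hW : NDq Q W) (hnf : NF T W)
    (hd : finrank F W = 4) : (∀ e : ℕ, (e : ℤ) = (Nat.card F : ℤ) ^ 2 - 1 → ∀ x ∈ W, (T ^ e) x = x) ∨ Blk Q T W 2 (-1) := by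
  have hne : W ≠ ⊥ := by rintro rfl; rw [finrank_bot] at hd; omega
  obtain ⟨P, hP, k, s, hb⟩ := h.exists_blk h2 hWi hW hne hnf (by rw [hd]; decide)
  have h1 := hb.dim
  have h3 := hb.pos
  have h4 := Submodule.finrank_mono hP
  obtain ⟨g1, g2, g3, g4, g5, g6⟩ := h.split hWi hW hb.inv hb.nd hP
  have hk : k = 1 ∨ k = 2 := by omega
  rcases hk with rfl | rfl
  · left
    intro e he
    obtain ⟨s', hb'⟩ := h.d1 h2 g1 g2 (hnf.mono inf_le_left) (by omega)
    rw [← g3]
    exact pow_fix_sup (hb.pow2 he) (hb'.pow2 he)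
  · have hPW : P = W := Submodule.eq_of_le_of_finrank_le hP (by omega)
    rw [hPW] at hb
    rcases hb.sg with rfl | rfl
    · left
      intro e he
      exact hb.pow e he
    · right
      exact hb

theorem dv3 (q s : ℤ) (hs : s = 1 ∨ s = -1) : q ^ 1 - s ∣ q ^ 3 - s := by
  rcases hs with rfl | rfl
  · exact ⟨q ^ 2 + q + 1, by ring⟩
  · exact ⟨q ^ 2 - q + 1, by ring⟩

theorem dv4 {q e : ℤ} (hq : q % 2 = 1) (he : 2 * e = q ^ 4 - 1) : q ^ 2 - 1 ∣ e ∧ q ^ 2 - (-1) ∣ e := by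
  obtain ⟨b, hb⟩ : ∃ b, q = 2 * b + 1 := ⟨q / 2, by omega⟩
  subst hb
  constructor
  · refine ⟨2 * b ^ 2 + 2 * b + 1, ?_⟩
    have : 2 * e = 2 * (((2 * b + 1) ^ 2 - 1) * (2 * b ^ 2 + 2 * b + 1)) := by rw [he]; ring
    linarith
  · refine ⟨2 * b ^ 2 + 2 * b, ?_⟩
    have : 2 * e = 2 * (((2 * b + 1) ^ 2 - (-1)) * (2 * b ^ 2 + 2 * b)) := by rw [he]; ring
    linarith

/-- conclusion A1 -/
def A1 (F : Type u) [Field F] {V : Type v} [AddCommGroup V] [Module F V] (T : Module.End F V) (W : Submodule F V) : Prop :=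
  ∃ s : ℤ, (s = 1 ∨ s = -1) ∧ ∀ e : ℕ, (e : ℤ) = (Nat.card F : ℤ) ^ 3 - s → ∀ x ∈ W, (T ^ e) x = x

/-- conclusion A2 -/
def A2 (F : Type u) [Field F] {V : Type v} [AddCommGroup V] [Module F V] (T : Module.End F V) (W : Submodule F V) : Prop :=
  ∀ e : ℕ, 2 * (e : ℤ) = (Nat.card F : ℤ) ^ 4 - 1 → ∀ x ∈ W, (T ^ e) x = x

theorem Sys.gen (h : Sys Q T m) (h2 : (2 : F) ≠ 0) {W P : Submodule F V} (hWi : Inv T W) (hW : NDq Q W) (hnf : NF T W)
    (hd : finrank F W = 8) (hD : D (res Q W) = (Nat.card F : ℤ) ^ 4) (hP : P ≤ W) {k : ℕ} {s : ℤ} (hb : Blk Q T P k s) (hk3 : k ≤ 3) :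
    A1 F T W ∨ A2 F T W := by
  have hodd : (Nat.card F : ℤ) % 2 = 1 := by have := odd_card_aux h2; omega
  have h1 := hb.dim
  have h3 := hb.pos
  obtain ⟨g1, g2, g3, g4, g5, g6⟩ := h.split hWi hW hb.inv hb.nd hP
  have hq := qpos' (F := F)
  have hDD := g6 (by rw [h1]; exact even_two_mul k) (by rw [hd]; decide)
  rw [hD, hb.D] at hDD
  have hnf' := hnf.mono (show W ⊓ pp Q P ≤ W from inf_le_left)
  -- from `A2`-type pieces
  have hA2 : ∀ {R : Submodule F V}, (∀ e : ℕ, (e : ℤ) = (Nat.card F : ℤ) ^ 2 - 1 → ∀ x ∈ R, (T ^ e) x = x) ∨ Blk Q T R 2 (-1) → A2 F T R := by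
    rintro R (hR | hR) e he
    · obtain ⟨e1, he1⟩ : ∃ e1 : ℕ, (e1 : ℤ) = (Nat.card F : ℤ) ^ 2 - 1 :=
        ⟨((Nat.card F : ℤ) ^ 2 - 1).toNat, Int.toNat_of_nonneg (by nlinarith)⟩
      refine pow_fix (hR e1 he1) ?_
      have := (dv4 hodd he).1
      rw [← he1] at this
      exact_mod_cast this
    · exact hR.pow_dvd (dv4 hodd he).2
  have hB1 : ∀ {R : Submodule F V} {s : ℤ}, Blk Q T R 1 s → A2 F T R := fun hR => hA2 (Or.inl fun e he => hR.pow2 he)
  have hB2 : ∀ {R : Submodule F V} {s : ℤ}, Blk Q T R 2 s → A2 F T R := by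
    intro R s hR
    apply hA2
    rcases hR.sg with rfl | rfl
    · left; exact fun e he => hR.pow e he
    · right; exact hR
  have hsup : ∀ {R R' : Submodule F V}, A2 F T R → A2 F T R' → A2 F T (R ⊔ R') := fun hR hR' e he => pow_fix_sup (hR e he) (hR' e he)
  have hk : k = 1 ∨ k = 2 ∨ k = 3 := by omega
  rcases hk with rfl | rfl | rfl
  · have hne : W ⊓ pp Q P ≠ ⊥ := by intro h0; rw [h0, finrank_bot] at g5; omega
    obtain ⟨P2, hP2, k2, s2, hb2⟩ := h.exists_blk h2 g1 g2 hne hnf' (by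
      have : finrank F ↥(W ⊓ pp Q P) = 6 := by omega
      rw [this]; decide)
    have h12 := hb2.dim
    have h32 := hb2.pos
    obtain ⟨k1, k2', k3, k4, k5, k6⟩ := h.split g1 g2 hb2.inv hb2.nd hP2
    have hk2 : k2 = 1 ∨ k2 = 2 ∨ k2 = 3 := by have := Submodule.finrank_mono hP2; omega
    rcases hk2 with rfl | rfl | rfl
    · right
      have := hA2 (h.d2 h2 k1 k2' (hnf'.mono inf_le_left) (by omega))
      rw [← g3, ← k3]
      exact hsup (hB1 hb) (hsup (hB1 hb2) this)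
    · right
      obtain ⟨s3, hb3⟩ := h.d1 h2 k1 k2' (hnf'.mono inf_le_left) (by omega)
      rw [← g3, ← k3]
      exact hsup (hB1 hb) (hsup (hB2 hb2) (hB1 hb3))
    · left
      have hPW : P2 = W ⊓ pp Q P := Submodule.eq_of_le_of_finrank_le hP2 (by omega)
      rw [hPW] at hb2
      have hss : s = s2 := by
        rw [hb2.D] at hDD
        have h7 : (s * s2 - 1) * (Nat.card F : ℤ) ^ 4 = 0 := by linear_combination -hDD
        have h8 := (mul_eq_zero.1 h7).resolve_right (by positivity)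
        rcases hb.sg with h | h <;> rcases hb2.sg with h' | h' <;> rw [h, h'] at h8 ⊢ <;> norm_num at h8
      refine ⟨s, hb.sg, fun e he => ?_⟩
      rw [← g3]
      refine pow_fix_sup (hb.pow_dvd (by rw [he]; exact dv3 _ _ hb.sg)) (hb2.pow e (by rw [he, hss]))
  · right
    have := hA2 (h.d2 h2 g1 g2 hnf' (by omega))
    rw [← g3]
    exact hsup (hB2 hb) this
  · left
    obtain ⟨s2, hb2⟩ := h.d1 h2 g1 g2 hnf' (by omega)
    have hss : s = s2 := by
      rw [hb2.D] at hDD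
      have h7 : (s * s2 - 1) * (Nat.card F : ℤ) ^ 4 = 0 := by linear_combination -hDD
      have h8 := (mul_eq_zero.1 h7).resolve_right (by positivity)
      rcases hb.sg with h | h <;> rcases hb2.sg with h' | h' <;> rw [h, h'] at h8 ⊢ <;> norm_num at h8
    refine ⟨s, hb.sg, fun e he => ?_⟩
    rw [← g3]
    exact pow_fix_sup (hb.pow e he) (hb2.pow_dvd (by rw [he, ← hss]; exact dv3 _ _ hb.sg))

theorem Sys.p1 (h : Sys Q T m) (h2 : (2 : F) ≠ 0) {W : Submodule F V} (hWi : Inv T W) (hW : NDq Q W) (hnf : NF T W)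
    (hd : finrank F W = 8) (hD : D (res Q W) = (Nat.card F : ℤ) ^ 4) :
    A1 F T W ∨ A2 F T W ∨ ∃ X B : Submodule F V, Irr T X ∧ Irr T B ∧ X ⊔ B = W ∧ Disjoint X B ∧ (∀ x ∈ X, ∀ y ∈ X, polar Q x y = 0) ∧
      (∀ x ∈ B, ∀ y ∈ B, polar Q x y = 0) ∧ finrank F X = 4 ∧ finrank F B = 4 := by
  have hne : W ≠ ⊥ := by rintro rfl; rw [finrank_bot] at hd; omega
  have hq := qpos' (F := F)
  rcases h.exists_blk3 h2 hWi hW hne hnf (by rw [hd]; decide) with ⟨P, hP, k, hb⟩ | ⟨P, hP, s, hb⟩ | ⟨X, hXW, B, hBW, hX, hB, hdis, hf, hti, hb⟩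
  · have h1 := hb.dim
    have h3 := Submodule.finrank_mono hP
    rcases Nat.lt_or_ge k 4 with h4 | h4
    · exact (h.gen h2 hWi hW hnf hd hD hP hb (by omega)).imp id Or.inl
    · exfalso
      have hk : k = 4 := by omega
      have hPW : P = W := Submodule.eq_of_le_of_finrank_le hP (by omega)
      have h5 := hb.D
      rw [hPW, hD, hk] at h5
      have h6 : (0 : ℤ) < (Nat.card F : ℤ) ^ 4 := by positivity
      omega
  · exact (h.gen h2 hWi hW hnf hd hD hP hb (by omega)).imp id Or.inl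
  · have h1 := hb.dim
    have h3 := Submodule.finrank_mono (sup_le hXW hBW)
    rcases Nat.lt_or_ge (finrank F X) 4 with h4 | h4
    · exact (h.gen h2 hWi hW hnf hd hD (sup_le hXW hBW) hb (by omega)).imp id Or.inl
    · have hk : finrank F X = 4 := by omega
      rcases h.irr_cases hB with h5 | h5
      · obtain ⟨k, hk1, hk2, hk3, hk4⟩ := Irr.nd h h2 hB h5 (by omega)
        have hb' : Blk Q T B k (-1) := by
          refine ⟨hB.1, h5, hk1, hk2, Or.inr rfl, by rw [hk4]; ring, ?_⟩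
          intro e he
          have he' : e = Nat.card F ^ k + 1 := by
            have : ((e : ℕ) : ℤ) = ((Nat.card F ^ k + 1 : ℕ) : ℤ) := by rw [he]; push_cast; ring
            exact_mod_cast this
          rw [he']
          exact hk3
        exact (h.gen h2 hWi hW hnf hd hD hBW hb' (by omega)).imp id Or.inl
      · right; right
        exact ⟨X, B, hX, hB, Submodule.eq_of_le_of_finrank_le (sup_le hXW hBW) (by omega), hdis, hti, h5, hk, by omega⟩

end half

end Cfsg.Agent.Lib.SpecA67
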