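import Mathlib
import Cfsg.Agent.Lib.SpecH67

/-!
(helper67) Commuting unipotent and semisimple isometries.
-/

set_option autoImplicit false
set_option linter.unusedSectionVars false

namespace Cfsg.Agent.Lib.SpecA67

open QuadraticMap Module Cfsg.Agent.Lib.Quad Cfsg.Agent.Lib.QuadD67 Cfsg.Agent.Lib.QuadEmb67 Cfsg.Agent.Lib.OrthR67
open Cfsg.Agent.Lib.InvSub Cfsg.Agent.Lib.PrimeOrd Cfsg.Agent.Lib.OReal67 Cfsg.Agent.Lib.OrthEmb67

universe u v w

section nilp
variable {F : Type u} [Field F] [Finite F]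
variable {V : Type v} [AddCommGroup V] [Module F V] [FiniteDimensional F V] {Q : QuadraticForm F V}

/-- nilpotent `N` with `1 + N` an isometry -/
structure Nil (Q : QuadraticForm F V) (N : Module.End F V) (c : ℕ) : Prop where
  iso : ∀ v, Q (v + N v) = Q v
  zero : N ^ (c + 1) = 0

variable {N : Module.End F V} {c : ℕ}

theorem Nil.rel (h : Nil Q N c) (x y : V) : polar Q (N x) y + polar Q x (N y) + polar Q (N x) (N y) = 0 := by
  have h1 : polar Q ((1 + N : Module.End F V) x) ((1 + N : Module.End F V) y) = polar Q x y := polar_map _ h.iso x y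
  have h3 : ∀ z, (1 + N : Module.End F V) z = z + N z := fun z => rfl
  rw [h3, h3, polar_add_left, polar_add_right, polar_add_right] at h1
  linear_combination h1

theorem Nil.ge (h : Nil Q N c) {n : ℕ} (hn : c + 1 ≤ n) (x : V) : (N ^ n) x = 0 := by
  obtain ⟨k, rfl⟩ := Nat.exists_eq_add_of_le hn
  rw [pow_add, h.zero, zero_mul]; rfl

theorem Nil.perp (h : Nil Q N c) : ∀ (k n : ℕ), n + k = 2 * c + 1 → c + 1 ≤ n → ∀ a b, a + b = n → ∀ x y, polar Q ((N ^ a) x) ((N ^ b) y) = 0 := by
  intro k
  induction k with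
  | zero =>
    intro n hn hc a b hab x y
    have : c + 1 ≤ a ∨ c + 1 ≤ b := by omega
    rcases this with h1 | h1
    · rw [h.ge h1]; simp [polar]
    · rw [h.ge h1]; simp [polar]
  | succ k ih =>
    intro n hn hc a
    induction a with
    | zero =>
      intro b hab x y
      rw [h.ge (n := b) (by omega)]; simp [polar]
    | succ a iha =>
      intro b hab x y
      have h1 := h.rel ((N ^ a) x) ((N ^ b) y)
      rw [← Module.End.mul_apply, ← Module.End.mul_apply, ← pow_succ', ← pow_succ'] at h1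
      have h3 := iha (b + 1) (by omega) x y
      have h4 := ih (n + 1) (by omega) (by omega) (a + 1) (b + 1) (by omega) x y
      rw [h3, h4] at h1
      simpa using h1

theorem Nil.perp' (h : Nil Q N c) {a b : ℕ} (hab : c + 1 ≤ a + b) (x y : V) : polar Q ((N ^ a) x) ((N ^ b) y) = 0 := by
  rcases Nat.lt_or_ge (a + b) (2 * c + 2) with h1 | h1
  · exact h.perp (2 * c + 1 - (a + b)) (a + b) (by omega) hab a b rfl x y
  · have : c + 1 ≤ a ∨ c + 1 ≤ b := by omega
    rcases this with h1 | h1
    · rw [h.ge h1]; simp [polar]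
    · rw [h.ge h1]; simp [polar]

theorem Nil.sgn (h : Nil Q N c) : ∀ (a b : ℕ), a + b = c → ∀ x y, polar Q ((N ^ a) x) ((N ^ b) y) = (-1) ^ a * polar Q x ((N ^ c) y) := by
  intro a
  induction a with
  | zero =>
    intro b hb x y
    have hb' : b = c := by omega
    rw [hb']; simp
  | succ a ih =>
    intro b hb x y
    have h1 := h.rel ((N ^ a) x) ((N ^ b) y)
    rw [← Module.End.mul_apply, ← Module.End.mul_apply, ← pow_succ', ← pow_succ'] at h1
    have h3 := h.perp' (a := a + 1) (b := b + 1) (by omega) x y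
    have h4 := ih (b + 1) (by omega) x y
    rw [h3, h4] at h1
    have e : (-1 : F) ^ (a + 1) = -(-1) ^ a := by rw [pow_succ]; ring
    rw [e]
    linear_combination h1

/-- the same with the power of `N` on the left -/
theorem Nil.sgn' (h : Nil Q N c) {a b : ℕ} (hab : a + b = c) (x y : V) : polar Q ((N ^ a) x) ((N ^ b) y) = (-1) ^ b * polar Q ((N ^ c) x) y := by
  rw [polar_comm, h.sgn b a (by omega), polar_comm]

/-- the chain map -/
noncomputable def chain (N : Module.End F V) (c : ℕ) (Y : Submodule F V) : (Fin (c + 1) → Y) →ₗ[F] V :=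
  ∑ i : Fin (c + 1), ((N ^ (i : ℕ)).comp Y.subtype).comp (LinearMap.proj i)

theorem chain_apply (Y : Submodule F V) (f : Fin (c + 1) → Y) : chain N c Y f = ∑ i : Fin (c + 1), (N ^ (i : ℕ)) (f i : V) := by
  simp [chain]

/-- `Y` is nondegenerate for the form `B(N^c x, y)` -/
def ChND (Q : QuadraticForm F V) (N : Module.End F V) (c : ℕ) (Y : Submodule F V) : Prop :=
  ∀ y ∈ Y, (∀ z ∈ Y, polar Q ((N ^ c) y) z = 0) → y = 0

theorem polar_sum_left {ι : Type*} (s : Finset ι) (f : ι → V) (w : V) : polar Q (∑ i ∈ s, f i) w = ∑ i ∈ s, polar Q (f i) w := by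
  classical
  induction s using Finset.induction_on with
  | empty => simp [polar]
  | insert a s ha ih => rw [Finset.sum_insert ha, Finset.sum_insert ha, polar_add_left, ih]

theorem Nil.key (h : Nil Q N c) {Y : Submodule F V} (hY : ChND Q N c Y) (f : Fin (c + 1) → Y)
    (hf : ∀ g : Fin (c + 1) → Y, polar Q (chain N c Y f) (chain N c Y g) = 0) : f = 0 := by
  have key : ∀ n (hn : n < c + 1), f ⟨n, hn⟩ = 0 := by
    intro n
    induction n using Nat.strong_induction_on with
    | _ n ih =>
      intro hn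
      apply Subtype.ext
      apply hY _ (f ⟨n, hn⟩).2
      intro z hz
      have h1 := hf (Pi.single ⟨c - n, by omega⟩ ⟨z, hz⟩)
      have h3 : chain N c Y (Pi.single ⟨c - n, by omega⟩ ⟨z, hz⟩) = (N ^ (c - n)) z := by
        rw [chain_apply, Finset.sum_eq_single (⟨c - n, by omega⟩ : Fin (c + 1))]
        · simp
        · intro j _ hj
          rw [Pi.single_eq_of_ne hj]; simp
        · intro hh; exact absurd (Finset.mem_univ _) hh
      rw [h3, chain_apply, polar_sum_left, Finset.sum_eq_single (⟨n, hn⟩ : Fin (c + 1))] at h1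
      · rw [h.sgn' (by simp; omega)] at h1
        exact (mul_eq_zero.1 h1).resolve_left (pow_ne_zero _ (by simp))
      · intro j _ hj
        rcases Nat.lt_or_ge (j : ℕ) n with h4 | h4
        · rw [ih j h4 j.2]; simp [polar]
        · apply h.perp'
          have h5 : (j : ℕ) ≠ n := fun h => hj (Fin.ext h)
          omega
      · intro hh; exact absurd (Finset.mem_univ _) hh
  ext i
  rw [key i i.2]; rfl

theorem Nil.chain_inj (h : Nil Q N c) {Y : Submodule F V} (hY : ChND Q N c Y) : Function.Injective (chain N c Y) := by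
  rw [← LinearMap.ker_eq_bot, eq_bot_iff]
  intro f hf
  refine (Submodule.mem_bot F).2 (h.key hY f fun g => ?_)
  rw [LinearMap.mem_ker.1 hf]; simp [polar]

theorem Nil.chain_nd (h : Nil Q N c) {Y : Submodule F V} (hY : ChND Q N c Y) : NDq Q (LinearMap.range (chain N c Y)) := by
  rintro _ ⟨f, rfl⟩ hall
  rw [h.key hY f (fun g => hall _ ⟨g, rfl⟩), map_zero]

theorem Nil.chain_dim (h : Nil Q N c) {Y : Submodule F V} (hY : ChND Q N c Y) :
    finrank F (LinearMap.range (chain N c Y)) = (c + 1) * finrank F Y := by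
  rw [LinearMap.finrank_range_of_inj (h.chain_inj hY), Module.finrank_pi_fintype]
  simp

theorem chain_inv {T : Module.End F V} (hTN : T * N = N * T) {Y : Submodule F V} (hY : Inv T Y) : Inv T (LinearMap.range (chain N c Y)) := by
  rintro _ ⟨f, rfl⟩
  refine ⟨fun i => ⟨T (f i), hY _ (f i).2⟩, ?_⟩
  rw [chain_apply, chain_apply, map_sum]
  apply Finset.sum_congr rfl
  intro i _
  have h1 : Commute T (N ^ (i : ℕ)) := Commute.pow_right hTN _
  exact (congrArg (fun S : Module.End F V => S (f i : V)) h1.eq).symm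

theorem chain_fix {T : Module.End F V} (hTN : T * N = N * T) {Y : Submodule F V} {e : ℕ} (hY : ∀ x ∈ Y, (T ^ e) x = x) :
    ∀ x ∈ LinearMap.range (chain N c Y), (T ^ e) x = x := by
  rintro _ ⟨f, rfl⟩
  rw [chain_apply, map_sum]
  apply Finset.sum_congr rfl
  intro i _
  have h1 : Commute (T ^ e) (N ^ (i : ℕ)) := Commute.pow_pow hTN _ _
  have h3 := congrArg (fun S : Module.End F V => S (f i : V)) h1.eq
  simp only [Module.End.mul_apply] at h3
  rw [h3, hY _ (f i).2]

/-- `c = 1`: plus type -/
theorem Nil.chain_D (h2 : (2 : F) ≠ 0) (h : Nil Q N 1) {Y : Submodule F V} (hY : ChND Q N 1 Y) :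
    D (res Q (LinearMap.range (chain N 1 Y))) = (Nat.card F : ℤ) ^ finrank F Y := by
  set P := LinearMap.range (chain N 1 Y) with hP
  have hdim := h.chain_dim hY
  -- the totally singular subspace N Y
  let ψ : Y →ₗ[F] P := LinearMap.codRestrict P (N.comp Y.subtype) (fun y => ⟨Pi.single 1 y, by
    rw [chain_apply, Fin.sum_univ_two]; simp⟩)
  have hψ : ∀ y, ((ψ y : P) : V) = N y := fun y => rfl
  have hψi : Function.Injective ψ := by
    rw [← LinearMap.ker_eq_bot, eq_bot_iff]
    intro y hy
    refine (Submodule.mem_bot F).2 (Subtype.ext (hY y y.2 fun z _ => ?_))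
    have h1 : N (y : V) = 0 := by rw [← hψ, LinearMap.mem_ker.1 hy]; rfl
    rw [pow_one, h1]; simp [polar]
  have hr : finrank F (LinearMap.range ψ) = finrank F Y := LinearMap.finrank_range_of_inj hψi
  rw [← hr]
  apply D_of_ts (nd_res (h.chain_nd hY))
  · rintro _ ⟨y, rfl⟩
    show Q (N y) = 0
    have h3 := h.perp' (a := 1) (b := 1) (by omega) (y : V) (y : V)
    rw [pow_one, polar_self'] at h3
    exact (mul_eq_zero.1 h3).resolve_left h2
  · rw [hr, hdim]

end nilp

end Cfsg.Agent.Lib.SpecA67
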