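import Mathlib
import Cfsg.Agent.Lib.SpecN67

/-!
(helper67) Mixed elements of `O₈⁺`: the semisimple part has small order.
-/

set_option autoImplicit false
set_option linter.unusedSectionVars false

namespace Cfsg.Agent.Lib.SpecA67

open QuadraticMap Module Cfsg.Agent.Lib.Quad Cfsg.Agent.Lib.QuadD67 Cfsg.Agent.Lib.QuadEmb67 Cfsg.Agent.Lib.OrthR67
open Cfsg.Agent.Lib.InvSub Cfsg.Agent.Lib.PrimeOrd Cfsg.Agent.Lib.OReal67 Cfsg.Agent.Lib.OrthEmb67

universe u v w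

section nilp2
variable {F : Type u} [Field F] [Finite F]
variable {V : Type v} [AddCommGroup V] [Module F V] [FiniteDimensional F V] {Q : QuadraticForm F V}
variable {T N : Module.End F V} {m c : ℕ}

/-- radical of the pairing `B(N^c a, b)` -/
def rd (Q : QuadraticForm F V) (N : Module.End F V) (c : ℕ) (A B : Submodule F V) : Submodule F V := A ⊓ (pp Q B).comap (N ^ c)

theorem mem_rd {A B : Submodule F V} {x : V} : x ∈ rd Q N c A B ↔ x ∈ A ∧ ∀ w ∈ B, polar Q ((N ^ c) x) w = 0 := by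
  constructor
  · rintro ⟨h1, h2⟩
    exact ⟨h1, fun w hw => by rw [polar_comm]; exact h2 w hw⟩
  · rintro ⟨h1, h2⟩
    exact ⟨h1, fun w hw => by show polar Q w _ = 0; rw [polar_comm]; exact h2 w hw⟩

theorem comm_pow' (hTN : T * N = N * T) (k : ℕ) (x : V) : T ((N ^ k) x) = (N ^ k) (T x) := by
  have h1 : Commute T (N ^ k) := Commute.pow_right hTN k
  exact congrArg (fun S : Module.End F V => S x) h1.eq

theorem Sys.rd_inv (h : Sys Q T m) (hTN : T * N = N * T) {A B : Submodule F V} (hA : Inv T A) (hB : Inv T B) : Inv T (rd Q N c A B) := by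
  intro x hx
  refine ⟨hA x hx.1, ?_⟩
  show (N ^ c) (T x) ∈ pp Q B
  rw [← comm_pow' hTN]
  exact h.isoB.inv_perp (nd_top h.nd) hB _ hx.2

theorem Nil.symm (h : Nil Q N c) (x y : V) : polar Q ((N ^ c) x) y = (-1) ^ c * polar Q ((N ^ c) y) x := by
  have h1 := h.sgn c 0 (by omega) x y
  rw [pow_zero, Module.End.one_apply] at h1
  rw [h1, polar_comm]

theorem Nil.symm0 (h : Nil Q N c) {x y : V} (h0 : polar Q ((N ^ c) y) x = 0) : polar Q ((N ^ c) x) y = 0 := by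
  rw [h.symm, h0, mul_zero]

theorem Sys.chA (h : Sys Q T m) (h2 : (2 : F) ≠ 0) (hN : Nil Q N c) (hTN : T * N = N * T) (hnf : NF T ⊤) {Y : Submodule F V}
    (hY : Irr T Y) (hch : ChND Q N c Y) :
    (∃ j, 1 ≤ j ∧ finrank F Y = 2 * j ∧ ∀ x ∈ Y, (T ^ (Nat.card F ^ j + 1)) x = x) ∨
      (Even c ∧ ∃ y, T y = -y ∧ polar Q ((N ^ c) y) y ≠ 0) := by
  have hpos : 0 < finrank F Y := by
    have := hY.nontrivial
    exact finrank_pos
  rcases Nat.lt_or_ge (finrank F Y) 2 with h3 | h3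
  · right
    have h4 : finrank F Y = 1 := by omega
    obtain ⟨⟨x, hx⟩, hx0, hx1⟩ := finrank_eq_one_iff'.1 h4
    have hx0' : x ≠ 0 := fun h => hx0 (Subtype.ext h)
    obtain ⟨d, hd⟩ := hx1 ⟨T x, hY.1 x hx⟩
    have hd' : T x = d • x := (congrArg Subtype.val hd).symm
    have hb : polar Q ((N ^ c) x) x ≠ 0 := by
      intro h0
      apply hx0'
      apply hch x hx
      intro z hz
      obtain ⟨e, he⟩ := hx1 ⟨z, hz⟩
      have he' : z = e • x := (congrArg Subtype.val he).symm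
      rw [he', polar_smul_right, h0, smul_zero]
    have hdd : d * d = 1 := by
      have h5 : polar Q (T ((N ^ c) x)) (T x) = polar Q ((N ^ c) x) x := polar_map T h.iso _ _
      rw [comm_pow' hTN, hd', map_smul, polar_smul_left, polar_smul_right, smul_eq_mul, smul_eq_mul] at h5
      have h6 : (d * d - 1) * polar Q ((N ^ c) x) x = 0 := by linear_combination h5
      exact sub_eq_zero.1 ((mul_eq_zero.1 h6).resolve_right hb)
    refine ⟨?_, x, ?_, hb⟩
    · by_contra hodd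
      have h6 := hN.symm x x
      rw [Odd.neg_one_pow (Nat.not_even_iff_odd.1 hodd)] at h6
      have h7 : (2 : F) * polar Q ((N ^ c) x) x = 0 := by linear_combination h6
      exact hb ((mul_eq_zero.1 h7).resolve_left h2)
    · have h7 : (d - 1) * (d + 1) = 0 := by linear_combination hdd
      rcases mul_eq_zero.1 h7 with h8 | h8
      · exfalso
        apply hx0'
        apply hnf x trivial
        rw [hd', sub_eq_zero.1 h8, one_smul]
      · rw [hd', eq_neg_of_add_eq_zero_left h8, neg_one_smul]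
  · left
    let β : Y →ₗ[F] Y →ₗ[F] F := ((Bq Q).comp (N ^ c)).domRestrict₁₂ Y Y
    have hβe : ∀ x y : Y, β x y = polar Q ((N ^ c) (x : V)) y := fun x y => rfl
    have hβ : ∀ x y, β ((T.restrict hY.1) x) ((T.restrict hY.1) y) = β x y := by
      intro x y
      rw [hβe, hβe]
      show polar Q ((N ^ c) (T x)) (T y) = _
      rw [← comm_pow' hTN]
      exact polar_map T h.iso _ _
    have hβ0 : ∃ x y, β x y ≠ 0 := by
      have := hY.nontrivial
      obtain ⟨x, hx⟩ := exists_ne (0 : Y)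
      by_contra hcon
      push Not at hcon
      exact hx (Subtype.ext (hch x x.2 (fun w hw => hcon x ⟨w, hw⟩)))
    obtain ⟨j, hj, hj'⟩ := hY.form (fun x => h.inj) h3 β hβ hβ0
    exact ⟨j, by omega, hj, hj'⟩

theorem Sys.exists_Y (h : Sys Q T m) (h2 : (2 : F) ≠ 0) (hN : Nil Q N c) (hc : N ^ c ≠ 0) (hTN : T * N = N * T) (hnf : NF T ⊤) :
    (∃ Y : Submodule F V, Inv T Y ∧ ChND Q N c Y ∧ ∃ (j : ℕ) (s : ℤ), 1 ≤ j ∧ finrank F Y = 2 * j ∧ (s = 1 ∨ s = -1) ∧
      ∀ e : ℕ, (e : ℤ) = (Nat.card F : ℤ) ^ j - s → ∀ x ∈ Y, (T ^ e) x = x) ∨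
      (Even c ∧ ∃ y, T y = -y ∧ polar Q ((N ^ c) y) y ≠ 0) := by
  have hTi : Inv T ⊤ := fun _ _ => trivial
  have hKi : Inv T (LinearMap.ker (N ^ c)) := by
    intro x hx
    rw [LinearMap.mem_ker] at hx ⊢
    rw [← comm_pow' hTN, hx, map_zero]
  obtain ⟨C, -, hCi, hKC, hsup⟩ := h.compl_in hKi hTi le_top
  have hC : ∀ y ∈ C, (∀ z ∈ C, polar Q ((N ^ c) y) z = 0) → y = 0 := by
    intro y hy hall
    have h1 : (N ^ c) y = 0 := by
      apply h.nd.eq_zero
      intro z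
      have hz : z ∈ LinearMap.ker (N ^ c) ⊔ C := by rw [hsup]; trivial
      obtain ⟨k, hk, z', hz', rfl⟩ := Submodule.mem_sup.1 hz
      rw [polar_add_right, hall z' hz', add_zero]
      apply hN.symm0
      rw [LinearMap.mem_ker.1 hk]; simp [polar]
    exact Submodule.disjoint_def.1 hKC y (LinearMap.mem_ker.2 h1) hy
  have hCne : C ≠ ⊥ := by
    rintro rfl
    rw [sup_bot_eq] at hsup
    exact hc (LinearMap.ker_eq_top.1 hsup)
  obtain ⟨Y, hYC, hY⟩ := exists_irr hCi hCne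
  -- use of case `α`
  have useA : ∀ {Y : Submodule F V}, Irr T Y → ChND Q N c Y → (∃ Y : Submodule F V, Inv T Y ∧ ChND Q N c Y ∧ ∃ (j : ℕ) (s : ℤ), 1 ≤ j ∧
      finrank F Y = 2 * j ∧ (s = 1 ∨ s = -1) ∧ ∀ e : ℕ, (e : ℤ) = (Nat.card F : ℤ) ^ j - s → ∀ x ∈ Y, (T ^ e) x = x) ∨
      (Even c ∧ ∃ y, T y = -y ∧ polar Q ((N ^ c) y) y ≠ 0) := by
    intro Y hY hch
    refine (h.chA h2 hN hTN hnf hY hch).imp ?_ id
    rintro ⟨j, hj, hj1, hj2⟩
    refine ⟨Y, hY.1, hch, j, -1, hj, hj1, Or.inr rfl, ?_⟩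
    intro e he
    have he' : e = Nat.card F ^ j + 1 := by
      have : ((e : ℕ) : ℤ) = ((Nat.card F ^ j + 1 : ℕ) : ℤ) := by rw [he]; push_cast; ring
      exact_mod_cast this
    rw [he']
    exact hj2
  have hdich : ∀ {Y : Submodule F V}, Irr T Y → ChND Q N c Y ∨ ∀ x ∈ Y, ∀ y ∈ Y, polar Q ((N ^ c) x) y = 0 := by
    intro Y hY
    rcases hY.2.2 (rd Q N c Y Y) inf_le_left (h.rd_inv hTN hY.1 hY.1) with h3 | h3
    · left
      intro y hy hall
      have : y ∈ rd Q N c Y Y := mem_rd.2 ⟨hy, hall⟩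
      rw [h3] at this
      exact (Submodule.mem_bot F).1 this
    · right
      intro x hx
      rw [← h3] at hx
      exact (mem_rd.1 hx).2
  rcases hdich hY with h1 | hYY
  · exact useA hY h1
  · -- the complement of the annihilator of `Y` in `C`
    obtain ⟨C', hC'C, hC'i, hdis, hsup'⟩ := h.compl_in (h.rd_inv hTN hCi hY.1) hCi (inf_le_left : rd Q N c C Y ≤ C)
    have hC' : ∀ z ∈ C', (∀ y ∈ Y, polar Q ((N ^ c) z) y = 0) → z = 0 := by
      intro z hz hall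
      exact Submodule.disjoint_def.1 hdis z (mem_rd.2 ⟨hC'C hz, hall⟩) hz
    have hC'ne : C' ≠ ⊥ := by
      rintro rfl
      rw [sup_bot_eq] at hsup'
      apply hY.2.1
      rw [eq_bot_iff]
      intro y hy
      refine (Submodule.mem_bot F).2 (hC y (hYC hy) fun z hz => ?_)
      rw [← hsup'] at hz
      exact hN.symm0 ((mem_rd.1 hz).2 y hy)
    obtain ⟨Z, hZC, hZ⟩ := exists_irr hC'i hC'ne
    have hZY : ∀ z ∈ Z, (∀ y ∈ Y, polar Q ((N ^ c) z) y = 0) → z = 0 := fun z hz => hC' z (hZC hz)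
    have hYZ : ∀ y ∈ Y, (∀ z ∈ Z, polar Q ((N ^ c) y) z = 0) → y = 0 := by
      rcases hY.2.2 (rd Q N c Y Z) inf_le_left (h.rd_inv hTN hY.1 hZ.1) with h3 | h3
      · intro y hy hall
        have : y ∈ rd Q N c Y Z := mem_rd.2 ⟨hy, hall⟩
        rw [h3] at this
        exact (Submodule.mem_bot F).1 this
      · exfalso
        apply hZ.2.1
        rw [eq_bot_iff]
        intro z hz
        refine (Submodule.mem_bot F).2 (hZY z hz fun y hy => ?_)
        rw [← h3] at hy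
        exact hN.symm0 ((mem_rd.1 hy).2 z hz)
    rcases hdich hZ with h1 | hZZ
    · exact useA hZ h1
    · left
      have hle : ∀ {A B : Submodule F V}, (∀ a ∈ A, (∀ b ∈ B, polar Q ((N ^ c) a) b = 0) → a = 0) → finrank F A ≤ finrank F B := by
        intro A B hAB
        let φ : A →ₗ[F] Module.Dual F B := ((Bq Q).comp (N ^ c)).domRestrict₁₂ A B
        have hφ : Function.Injective φ := by
          rw [← LinearMap.ker_eq_bot, eq_bot_iff]
          intro x hx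
          exact (Submodule.mem_bot F).2 (Subtype.ext (hAB x x.2 (fun b hb => LinearMap.congr_fun (LinearMap.mem_ker.1 hx) ⟨b, hb⟩)))
        have := LinearMap.finrank_le_finrank_of_injective hφ
        rwa [Subspace.dual_finrank_eq] at this
      have hdim : finrank F Z = finrank F Y := le_antisymm (hle hZY) (hle hYZ)
      have hdisj : Disjoint Y Z := by
        rw [Submodule.disjoint_def]
        intro x hx hx'
        exact hYZ x hx fun z hz => hZZ x hx' z hz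
      have hsum : finrank F ↥(Y ⊔ Z) = 2 * finrank F Y := by
        have h1 := Submodule.finrank_sup_add_finrank_inf_eq Y Z
        rw [hdisj.eq_bot, finrank_bot] at h1
        omega
      have hpos : 1 ≤ finrank F Y := by
        have := hY.nontrivial
        exact finrank_pos
      refine ⟨Y ⊔ Z, Sesq.inv_sup hY.1 hZ.1, ?_, finrank F Y, 1, hpos, hsum, Or.inl rfl, ?_⟩
      · intro v hv hall
        obtain ⟨y, hy, z, hz, rfl⟩ := Submodule.mem_sup.1 hv
        have hz0 : z = 0 := by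
          apply hZY z hz
          intro y' hy'
          have h1 := hall y' (Submodule.mem_sup_left hy')
          rwa [map_add, polar_add_left, hYY y hy y' hy', zero_add] at h1
        rw [hz0, add_zero] at hall ⊢
        exact hYZ y hy fun z' hz' => hall z' (Submodule.mem_sup_right hz')
      · intro e he
        have hq : 1 ≤ Nat.card F ^ finrank F Y := Nat.one_le_pow _ _ Nat.card_pos
        have he' : e = Nat.card F ^ finrank F Y - 1 := by
          have : ((e : ℕ) : ℤ) = ((Nat.card F ^ finrank F Y - 1 : ℕ) : ℤ) := by rw [he]; push_cast [hq]; ring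
          exact_mod_cast this
        rw [he']
        apply pow_fix_sup
        · exact hY.pow (fun x => h.inj)
        · have := hZ.pow (fun x => h.inj)
          rwa [hdim] at this

/-- `T^e = 1` from the pieces -/
theorem pow_one_of {A B : Submodule F V} (hAB : A ⊔ B = ⊤) {e : ℕ} (hA : ∀ x ∈ A, (T ^ e) x = x) (hB : ∀ x ∈ B, (T ^ e) x = x) : T ^ e = 1 := by
  ext x
  exact pow_fix_sup hA hB x (by rw [hAB]; trivial)

theorem exists_ne (j : ℕ) {s : ℤ} (hs : s = 1 ∨ s = -1) : ∃ e : ℕ, (e : ℤ) = (Nat.card F : ℤ) ^ j - s := by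
  have hq : (1 : ℤ) ≤ (Nat.card F : ℤ) ^ j := by
    have : 1 ≤ Nat.card F ^ j := Nat.one_le_pow _ _ Nat.card_pos
    exact_mod_cast this
  refine ⟨((Nat.card F : ℤ) ^ j - s).toNat, Int.toNat_of_nonneg ?_⟩
  rcases hs with hs | hs <;> omega

theorem Sys.p2i (h : Sys Q T m) (h2 : (2 : F) ≠ 0) (hN : Nil Q N c) (hc : 1 ≤ c) (hTN : T * N = N * T) (hnf : NF T ⊤)
    (hd : finrank F V = 8) (hD : D Q = (Nat.card F : ℤ) ^ 4) {Y : Submodule F V} (hY : Inv T Y) (hch : ChND Q N c Y) {j : ℕ} {s : ℤ}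
    (hj : 1 ≤ j) (hYd : finrank F Y = 2 * j) (hs : s = 1 ∨ s = -1)
    (hpow : ∀ e : ℕ, (e : ℤ) = (Nat.card F : ℤ) ^ j - s → ∀ x ∈ Y, (T ^ e) x = x) :
    (∃ s' : ℤ, (s' = 1 ∨ s' = -1) ∧ ∀ e : ℕ, (e : ℤ) = (Nat.card F : ℤ) ^ 2 - s' → T ^ e = 1) ∧
      (3 ≤ c → c ≤ 4 ∧ ∃ s' : ℤ, (s' = 1 ∨ s' = -1) ∧ ∀ e : ℕ, (e : ℤ) = (Nat.card F : ℤ) ^ 1 - s' → T ^ e = 1) := by
  have hTi : Inv T ⊤ := fun _ _ => trivial
  set P := LinearMap.range (chain N c Y) with hP
  have hPd : finrank F P = (c + 1) * (2 * j) := by rw [hP, hN.chain_dim hch, hYd]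
  have hP8 : (c + 1) * (2 * j) ≤ 8 := by rw [← hPd, ← hd]; exact Submodule.finrank_le P
  have hPi : Inv T P := chain_inv hTN hY
  have hPn : NDq Q P := hN.chain_nd hch
  have hPf : ∀ e : ℕ, (e : ℤ) = (Nat.card F : ℤ) ^ j - s → ∀ x ∈ P, (T ^ e) x = x := fun e he => chain_fix hTN (hpow e he)
  obtain ⟨g1, g2, g3, g4, g5, g6⟩ := h.split hTi (nd_top h.nd) hPi hPn le_top
  rw [finrank_top, hd, hPd] at g5
  rw [finrank_top, hd, D_top, hD] at g6
  have hcj : (c = 1 ∧ j = 1) ∨ (c = 2 ∧ j = 1) ∨ (c = 3 ∧ j = 1) ∨ (c = 1 ∧ j = 2) := by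
    have h3 : c ≤ 3 := by nlinarith
    have h4 : j ≤ 2 := by nlinarith
    interval_cases c <;> interval_cases j <;> omega
  have hnf' := hnf.mono (show ⊤ ⊓ pp Q P ≤ ⊤ from inf_le_left)
  have hPf2 : j = 1 → ∀ e : ℕ, (e : ℤ) = (Nat.card F : ℤ) ^ 2 - 1 → ∀ x ∈ P, (T ^ e) x = x := by
    rintro rfl e he
    obtain ⟨e1, he1⟩ := exists_ne (F := F) 1 hs
    refine pow_fix (hPf e1 he1) ?_
    have := dv2 (Nat.card F : ℤ) s hs
    rw [← he1, ← he] at this
    exact_mod_cast this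
  rcases hcj with ⟨rfl, rfl⟩ | ⟨rfl, rfl⟩ | ⟨rfl, rfl⟩ | ⟨rfl, rfl⟩
  · refine ⟨⟨1, Or.inl rfl, fun e he => ?_⟩, fun h => by omega⟩
    refine pow_one_of g3 (hPf2 rfl e he) ?_
    rcases h.d2 h2 g1 g2 hnf' (by omega) with h5 | h5
    · exact h5 e he
    · exfalso
      have h6 := g6 (by rw [hPd]; decide) (by decide)
      rw [h5.D, hP, hN.chain_D h2 hch, hYd] at h6
      have hq := qpos' (F := F)
      have h7 : (0 : ℤ) < (Nat.card F : ℤ) ^ 4 := by positivity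
      have h8 : (Nat.card F : ℤ) ^ (2 * 1) * (-1 * (Nat.card F : ℤ) ^ 2) = -(Nat.card F : ℤ) ^ 4 := by ring
      rw [h8] at h6
      omega
  · refine ⟨⟨1, Or.inl rfl, fun e he => ?_⟩, fun h => by omega⟩
    refine pow_one_of g3 (hPf2 rfl e he) ?_
    obtain ⟨s', hb⟩ := h.d1 h2 g1 g2 hnf' (by omega)
    exact hb.pow2 he
  · have hR : ⊤ ⊓ pp Q P = ⊥ := by
      apply Submodule.finrank_eq_zero.1
      omega
    refine ⟨⟨1, Or.inl rfl, fun e he => ?_⟩, fun _ => ⟨by omega, s, hs, fun e he => ?_⟩⟩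
    · refine pow_one_of g3 (hPf2 rfl e he) ?_
      rw [hR]
      intro x hx
      rw [(Submodule.mem_bot F).1 hx, map_zero]
    · refine pow_one_of g3 (hPf e he) ?_
      rw [hR]
      intro x hx
      rw [(Submodule.mem_bot F).1 hx, map_zero]
  · have hR : ⊤ ⊓ pp Q P = ⊥ := by
      apply Submodule.finrank_eq_zero.1
      omega
    refine ⟨⟨s, hs, fun e he => ?_⟩, fun h => by omega⟩
    refine pow_one_of g3 (hPf e he) ?_
    rw [hR]
    intro x hx
    rw [(Submodule.mem_bot F).1 hx, map_zero]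

theorem neg_pow_even {x : V} (hx : T x = -x) {e : ℕ} (he : Even e) : (T ^ e) x = x := by
  obtain ⟨k, rfl⟩ := he
  induction k with
  | zero => rfl
  | succ k ih =>
    have : k + 1 + (k + 1) = k + k + 1 + 1 := by ring
    rw [this, pow_succ, pow_succ, Module.End.mul_apply, Module.End.mul_apply, hx, map_neg, hx, neg_neg, ih]

theorem Sys.p2ii (h : Sys Q T m) (h2 : (2 : F) ≠ 0) (hN : Nil Q N c) (hc : 1 ≤ c) (hTN : T * N = N * T) (hnf : NF T ⊤)
    (hd : finrank F V = 8) (hev : Even c) {y : V} (hy : T y = -y) (hyy : polar Q ((N ^ c) y) y ≠ 0) :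
    (∃ s' : ℤ, (s' = 1 ∨ s' = -1) ∧ ∀ e : ℕ, (e : ℤ) = (Nat.card F : ℤ) ^ 2 - s' → T ^ e = 1) ∧
      (3 ≤ c → (c ≤ 4 ∧ ∃ s' : ℤ, (s' = 1 ∨ s' = -1) ∧ ∀ e : ℕ, (e : ℤ) = (Nat.card F : ℤ) ^ 1 - s' → T ^ e = 1) ∨ (c ≤ 6 ∧ T ^ 2 = 1)) := by
  have hTi : Inv T ⊤ := fun _ _ => trivial
  have hodd : (Nat.card F : ℤ) % 2 = 1 := by have := odd_card_aux h2; omega
  -- the `-1` eigenspace
  let H : Submodule F V := LinearMap.ker (T + 1)
  have hH : ∀ x, x ∈ H ↔ T x = -x := by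
    intro x
    show (T + 1) x = 0 ↔ _
    rw [LinearMap.add_apply, Module.End.one_apply]
    exact add_eq_zero_iff_eq_neg
  have hHi : Inv T H := by
    intro x hx
    rw [hH] at hx ⊢
    rw [hx, map_neg, hx]
  obtain ⟨B, -, hBi, hHB, hsup⟩ := h.compl_in hHi hTi le_top
  have hHn : NDq Q H := by
    intro x hx hall
    apply h.nd.eq_zero
    intro w
    have hw : w ∈ H ⊔ B := by rw [hsup]; trivial
    obtain ⟨a, ha, b, hb, rfl⟩ := Submodule.mem_sup.1 hw
    rw [polar_add_right]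
    have h1 : polar Q x a = 0 := hall a ha
    rw [h1, zero_add]
    -- b is in the range of T + 1 restricted to B
    have hinj : Function.Injective ((T + 1).restrict (p := B) (q := B) (fun z hz => B.add_mem (hBi z hz) hz)) := by
      rw [← LinearMap.ker_eq_bot, eq_bot_iff]
      rintro ⟨z, hz⟩ hz0
      have h3 : (T + 1) z = 0 := congrArg Subtype.val (LinearMap.mem_ker.1 hz0)
      exact (Submodule.mem_bot F).2 (Subtype.ext (Submodule.disjoint_def.1 hHB z h3 hz))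
    obtain ⟨⟨z, hz⟩, hz'⟩ := (LinearMap.injective_iff_surjective.1 hinj) ⟨b, hb⟩
    have hz'' : b = T z + z := (congrArg Subtype.val hz').symm
    rw [hz'', polar_add_right]
    have h4 : polar Q (T x) (T z) = polar Q x z := polar_map T h.iso _ _
    rw [(hH x).1 hx, polar_neg_left] at h4
    rw [← h4]; ring
  obtain ⟨g1, g2, g3, g4, g5, g6⟩ := h.split hTi (nd_top h.nd) hHi hHn le_top
  rw [finrank_top, hd] at g5
  have hnf' := hnf.mono (show ⊤ ⊓ pp Q H ≤ ⊤ from inf_le_left)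
  have hRev : Even (finrank F ↥(⊤ ⊓ pp Q H)) := by
    by_contra hcon
    obtain ⟨x, hx, hx1, hx2⟩ := h.odd_line h2 _ _ rfl g1 g2 hnf' hcon
    have := Submodule.disjoint_def.1 g4 x ((hH x).2 hx1) hx
    rw [this, map_zero] at hx2
    exact hx2 rfl
  -- the chain
  have hch : ChND Q N c (F ∙ y) := by
    intro x hx hall
    obtain ⟨a, rfl⟩ := Submodule.mem_span_singleton.1 hx
    have h1 := hall y (Submodule.mem_span_singleton_self y)
    rw [map_smul, polar_smul_left, smul_eq_mul] at h1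
    rw [(mul_eq_zero.1 h1).resolve_right hyy, zero_smul]
  have hy0 : y ≠ 0 := by
    rintro rfl
    apply hyy
    rw [map_zero]; simp [polar]
  have hPd := hN.chain_dim hch
  rw [finrank_span_singleton hy0, mul_one] at hPd
  have hPH : LinearMap.range (chain N c (F ∙ y)) ≤ H := by
    rintro _ ⟨f, rfl⟩
    rw [chain_apply]
    apply Submodule.sum_mem
    intro i _
    rw [hH, comm_pow' hTN]
    obtain ⟨a, ha⟩ := Submodule.mem_span_singleton.1 (f i).2
    rw [← ha, map_smul, hy, smul_neg, map_neg]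
  have hHd : c + 1 ≤ finrank F H := by rw [← hPd]; exact Submodule.finrank_mono hPH
  obtain ⟨c', hc'⟩ := hev
  obtain ⟨r, hr⟩ := hRev
  have hHf : ∀ e : ℕ, Even e → ∀ x ∈ H, (T ^ e) x = x := fun e he x hx => neg_pow_even ((hH x).1 hx) he
  have heven : ∀ (j : ℕ) (s : ℤ) (e : ℕ), (s = 1 ∨ s = -1) → (e : ℤ) = (Nat.card F : ℤ) ^ j - s → Even e := by
    intro j s e hs he
    have h1 : ((Nat.card F : ℤ) ^ j) % 2 = 1 := by
      have : Odd (Nat.card F : ℤ) := Int.odd_iff.2 hodd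
      exact Int.odd_iff.1 this.pow
    rw [Nat.even_iff]
    rcases hs with rfl | rfl <;> omega
  have hr2 : r = 0 ∨ r = 1 ∨ r = 2 := by omega
  rcases hr2 with rfl | rfl | rfl
  · have hR : ⊤ ⊓ pp Q H = ⊥ := by
      apply Submodule.finrank_eq_zero.1
      omega
    have hT2 : ∀ e : ℕ, Even e → T ^ e = 1 := by
      intro e he
      refine pow_one_of g3 (hHf e he) ?_
      rw [hR]
      intro x hx
      rw [(Submodule.mem_bot F).1 hx, map_zero]
    refine ⟨⟨1, Or.inl rfl, fun e he => hT2 e (heven 2 1 e (Or.inl rfl) he)⟩, fun _ => Or.inr ⟨by omega, hT2 2 (by decide)⟩⟩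
  · obtain ⟨s', hb⟩ := h.d1 h2 g1 g2 hnf' (by omega)
    refine ⟨⟨1, Or.inl rfl, fun e he => ?_⟩, fun _ => Or.inl ⟨by omega, s', hb.sg, fun e he => ?_⟩⟩
    · exact pow_one_of g3 (hHf e (heven 2 1 e (Or.inl rfl) he)) (hb.pow2 he)
    · exact pow_one_of g3 (hHf e (heven 1 s' e hb.sg he)) (hb.pow e he)
  · refine ⟨?_, fun h => by omega⟩
    rcases h.d2 h2 g1 g2 hnf' (by omega) with h5 | h5
    · exact ⟨1, Or.inl rfl, fun e he => pow_one_of g3 (hHf e (heven 2 1 e (Or.inl rfl) he)) (h5 e he)⟩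
    · exact ⟨-1, Or.inr rfl, fun e he => pow_one_of g3 (hHf e (heven 2 (-1) e (Or.inr rfl) he)) (h5.pow e he)⟩

theorem Sys.p2 (h : Sys Q T m) (h2 : (2 : F) ≠ 0) (hN : Nil Q N c) (hc : 1 ≤ c) (hc0 : N ^ c ≠ 0) (hTN : T * N = N * T) (hnf : NF T ⊤)
    (hd : finrank F V = 8) (hD : D Q = (Nat.card F : ℤ) ^ 4) :
    (∃ s' : ℤ, (s' = 1 ∨ s' = -1) ∧ ∀ e : ℕ, (e : ℤ) = (Nat.card F : ℤ) ^ 2 - s' → T ^ e = 1) ∧
      (3 ≤ c → (c ≤ 4 ∧ ∃ s' : ℤ, (s' = 1 ∨ s' = -1) ∧ ∀ e : ℕ, (e : ℤ) = (Nat.card F : ℤ) ^ 1 - s' → T ^ e = 1) ∨ (c ≤ 6 ∧ T ^ 2 = 1)) := by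
  rcases h.exists_Y h2 hN hc0 hTN hnf with ⟨Y, hY, hch, j, s, hj, hYd, hs, hpow⟩ | ⟨hev, y, hy, hyy⟩
  · obtain ⟨k1, k2⟩ := h.p2i h2 hN hc hTN hnf hd hD hY hch hj hYd hs hpow
    exact ⟨k1, fun h => Or.inl (k2 h)⟩
  · exact h.p2ii h2 hN hc hTN hnf hd hev hy hyy

end nilp2

end Cfsg.Agent.Lib.SpecA67
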