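import Mathlib
import Cfsg.Agent.Lib.SpecP67
import Cfsg.Agent.Lib.SpecG67

/-!
(helper67) Element orders of `Ω₉` and of `V ⋊ Ω₈⁻`.
-/

set_option autoImplicit false
set_option linter.unusedSectionVars false

namespace Cfsg.Agent.Lib.SpecA67

open QuadraticMap Module Cfsg.Agent.Lib.Quad Cfsg.Agent.Lib.QuadD67 Cfsg.Agent.Lib.QuadEmb67 Cfsg.Agent.Lib.OrthR67
open Cfsg.Agent.Lib.InvSub Cfsg.Agent.Lib.PrimeOrd Cfsg.Agent.Lib.OReal67 Cfsg.Agent.Lib.OrthEmb67

universe u v w

section dec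
variable {F : Type u} [Field F] [Finite F]
variable {V : Type v} [AddCommGroup V] [Module F V] [FiniteDimensional F V] {Q : QuadraticForm F V}
variable {W : Type w} [AddCommGroup W] [Module F W] [FiniteDimensional F W] {Q' : QuadraticForm F W}
variable {p : ℕ} [hp : Fact p.Prime] [CharP F p] {h2 : (2 : F) ≠ 0}

theorem even_mov_of_Om (h2 : (2 : F) ≠ 0) (hQ : Nd Q) {g : V ≃ₗ[F] V} (hg : g ∈ Om Q) : Even (finrank F (mov g)) := by
  obtain ⟨hgO, h1⟩ := (mem_Om_iff_par (h2 := h2) hQ).1 hg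
  have h3 : sgn (Even (finrank F (mov g))) = 1 := congrArg Prod.fst h1
  by_contra hcon
  rw [sgn_false hcon] at h3
  exact absurd h3 (by decide)

theorem exists_dec (h2 : (2 : F) ≠ 0) (hQ : Nd Q) {g : V ≃ₗ[F] V} (hg : g ∈ O Q) {m a : ℕ} (hord : orderOf g = m * p ^ a) (hpm : ¬ p ∣ m) :
    ∃ (E M : Submodule F V) (hE : Nd (res Q E)) (hM : Nd (res Q M)) (gE : E ≃ₗ[F] E) (gM : M ≃ₗ[F] M),
      finrank F E + finrank F M = finrank F V ∧ gE ∈ O (res Q E) ∧ gM ∈ O (res Q M) ∧ gE ^ (p ^ a) = 1 ∧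
      (∀ x, (gM ^ (p ^ a)) x = x → x = 0) ∧ orderOf (gM ^ (p ^ a)) = m ∧ (∀ x : E, g x = gE x) ∧ (∀ x : M, g x = gM x) ∧ E ⊔ M = ⊤ ∧
      orderOf g = Nat.lcm (orderOf gE) (orderOf gM) ∧
      (∀ c c', IsPar h2 hE gE c → IsPar h2 hM gM c' → IsPar h2 hQ g (c * c')) ∧ (g ∈ Om Q → Even (finrank F M)) := by
  have hmF : (m : F) ≠ 0 := cast_ne (F := F) (p := p) m hpm
  have hm0 : 0 < m := Nat.pos_of_ne_zero (fun h => hmF (by rw [h, Nat.cast_zero]))
  have hpa : 0 < p ^ a := pow_pos hp.1.pos a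
  set T := g ^ (p ^ a) with hT
  have hTO : T ∈ O Q := (O Q).pow_mem hg _
  have hTm : T ^ m = 1 := by rw [hT, ← pow_mul, mul_comm, ← hord, pow_orderOf_eq_one]
  have hTo : orderOf T = m := by
    rw [hT, orderOf_pow_of_dvd hpa.ne' (by rw [hord]; exact dvd_mul_left _ _), hord, Nat.mul_div_cancel _ hpa]
  have hcT : T * g = g * T := by rw [hT, ← pow_succ, ← pow_succ']
  obtain ⟨hinf, hsup⟩ := OddOrth67.fix_sup_mov hTm hmF
  have hperp : ∀ x ∈ fixS T, ∀ y ∈ mov T, polar Q x y = 0 := by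
    rintro x hx y hy
    obtain ⟨z, rfl⟩ := mem_mov.1 hy
    rw [mem_fixS] at hx
    rw [polar_sub_right]
    have h1 := O_polar hTO x z
    rw [hx] at h1
    rw [h1, sub_self]
  have hEn : NDq Q (fixS T) := by
    intro x hx hall
    apply hQ.eq_zero
    intro w
    have hw : w ∈ fixS T ⊔ mov T := by rw [hsup]; trivial
    obtain ⟨a, ha, b, hb, rfl⟩ := Submodule.mem_sup.1 hw
    rw [polar_add_right, hperp x hx b hb, add_zero]
    exact hall a ha
  have hMn : NDq Q (mov T) := by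
    intro x hx hall
    apply hQ.eq_zero
    intro w
    have hw : w ∈ fixS T ⊔ mov T := by rw [hsup]; trivial
    obtain ⟨a, ha, b, hb, rfl⟩ := Submodule.mem_sup.1 hw
    rw [polar_add_right, polar_comm Q x a, hperp a ha x hx, zero_add]
    exact hall b hb
  have hE := nd_res hEn
  have hM := nd_res hMn
  have hgi : ∀ v, Q (g v) = Q v := hg
  let gE : fixS T ≃ₗ[F] fixS T := ofMap hE (g.toLinearMap.restrict (p := fixS T) (q := fixS T) (fun x hx => OddOrth67.comm_fix hcT hx))
    (fun x => hgi x)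
  let gM : mov T ≃ₗ[F] mov T := ofMap hM (g.toLinearMap.restrict (p := mov T) (q := mov T) (fun x hx => OddOrth67.comm_mov hcT hx))
    (fun x => hgi x)
  have hgE : ∀ x : fixS T, ((gE x : fixS T) : V) = g x := fun x => rfl
  have hgM : ∀ x : mov T, ((gM x : mov T) : V) = g x := fun x => rfl
  have hgEk : ∀ (k : ℕ) (x : fixS T), (((gE ^ k) x : fixS T) : V) = (g ^ k) x := by
    intro k
    induction k with
    | zero => intro x; rfl
    | succ k ih => intro x; rw [pow_succ, pow_succ, LinearEquiv.mul_apply, LinearEquiv.mul_apply, ih, hgE]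
  have hgMk : ∀ (k : ℕ) (x : mov T), (((gM ^ k) x : mov T) : V) = (g ^ k) x := by
    intro k
    induction k with
    | zero => intro x; rfl
    | succ k ih => intro x; rw [pow_succ, pow_succ, LinearEquiv.mul_apply, LinearEquiv.mul_apply, ih, hgM]
  -- the isometry
  let j : (fixS T × mov T) →ₗ[F] V := (fixS T).subtype.coprod (mov T).subtype
  have hja : ∀ y, j y = (y.1 : V) + y.2 := fun y => rfl
  have hj : ∀ y, Q (j y) = ((res Q (fixS T)).prod (res Q (mov T))) y := by
    intro y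
    rw [hja, Q_add, hperp _ y.1.2 _ y.2.2, add_zero]
    rfl
  have hjs : ∀ v, ∃ y, j y = v := by
    intro v
    have hv : v ∈ fixS T ⊔ mov T := by rw [hsup]; trivial
    obtain ⟨a, ha, b, hb, rfl⟩ := Submodule.mem_sup.1 hv
    exact ⟨(⟨a, ha⟩, ⟨b, hb⟩), rfl⟩
  have hgeq : ∀ k : ℕ, g ^ k = extHom Q (nd_prod hE hM) j hj (prH F _ _ (gE ^ k, gM ^ k)) := by
    intro k
    ext v
    obtain ⟨y, rfl⟩ := hjs v
    rw [extHom_apply_j, prH_apply, hja, hja, map_add, hgEk, hgMk]
  have hordk : ∀ k : ℕ, orderOf (g ^ k) = Nat.lcm (orderOf (gE ^ k)) (orderOf (gM ^ k)) := by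
    intro k
    rw [hgeq k, orderOf_injective _ (extHom_injective (nd_prod hE hM) hj), order_prH]
  have hgEp : gE ^ (p ^ a) = 1 := by
    ext x
    rw [hgEk]
    exact mem_fixS.1 x.2
  refine ⟨fixS T, mov T, hE, hM, gE, gM, ?_, ofMap_mem _ _ _, ofMap_mem _ _ _, hgEp, ?_, ?_, fun x => rfl, fun x => rfl, hsup, ?_, ?_, ?_⟩
  · rw [add_comm]; exact finrank_mov_add_fixS T
  · intro x hx
    have h1 : (T : V ≃ₗ[F] V) x = x := by
      have := congrArg Subtype.val hx
      rwa [hgMk] at this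
    exact Subtype.ext (OddOrth67.fix_inf_mov hTm hmF (mem_fixS.2 h1) x.2)
  · have := hordk (p ^ a)
    rw [← hT, hTo, hgEp, orderOf_one, Nat.lcm_one_left] at this
    exact this.symm
  · have := hordk 1
    rwa [pow_one, pow_one, pow_one] at this
  · intro c c' hc hc'
    have h1 := (hc.prod hc').ext (hQ := hQ) hj
    have h3 := hgeq 1
    rw [pow_one, pow_one, pow_one] at h3
    rw [h3]
    exact h1
  · intro hgOm
    exact even_mov_of_Om h2 hQ ((Om Q).pow_mem hgOm _)

theorem nil_dim {N : Module.End F V} {k j : ℕ} (h0 : N ^ k = 0) (h1 : N ^ j ≠ 0) : j + 1 ≤ finrank F V := by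
  by_contra hcon
  have hj : finrank F V ≤ j := by omega
  have e1 := Module.End.ker_pow_eq_ker_pow_finrank_of_le (f := N) hj
  have e2 := Module.End.ker_pow_eq_ker_pow_finrank_of_le (f := N) (m := k + finrank F V) (by omega)
  rw [pow_add, h0, zero_mul, LinearMap.ker_zero, ← e1] at e2
  exact h1 (LinearMap.ker_eq_top.1 e2.symm)

theorem unip_one_iff {g : V ≃ₗ[F] V} (b : ℕ) : (g.toLinearMap - 1 : Module.End F V) ^ (p ^ b) = 0 ↔ g ^ (p ^ b) = 1 := by
  rw [unip_pow, sub_eq_zero]
  constructor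
  · intro h
    apply toLin_inj
    rw [h]; rfl
  · intro h
    rw [h]; rfl

theorem unip_dim {g : V ≃ₗ[F] V} {b : ℕ} (hb : orderOf g = p ^ (b + 1)) : p ^ b + 1 ≤ finrank F V := by
  refine nil_dim (N := g.toLinearMap - 1) (k := p ^ (b + 1)) ?_ ?_
  · rw [unip_one_iff, ← hb, pow_orderOf_eq_one]
  · rw [Ne, unip_one_iff]
    intro h
    have h1 := orderOf_dvd_of_pow_eq_one h
    rw [hb] at h1
    have h3 := (Nat.pow_dvd_pow_iff_le_right hp.1.one_lt).1 h1
    omega

theorem good_special (hodd : Odd p) (hQ : Nd Q) (hV : finrank F V = 8) (hD : D Q = -(Nat.card F : ℤ) ^ 4) (hQ' : Nd Q') (hW : finrank F W = 8)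
    (hDW : D Q' = (Nat.card F : ℤ) ^ 4) {g : W ≃ₗ[F] W} (hg : IsPar h2 hQ' g 1) {m a : ℕ} (hord : orderOf g = m * p ^ a) (hpm : ¬ p ∣ m)
    (hnf : ∀ x, (g ^ (p ^ a)) x = x → x = 0) (hordT : orderOf (g ^ (p ^ a)) = m) : Good h2 p hQ (orderOf g) := by
  have hgOm := (mem_Om_iff_par hQ').2 hg
  have hgO : g ∈ O Q' := Om_le hgOm
  have hmF : (m : F) ≠ 0 := cast_ne (F := F) (p := p) m hpm
  have hm0 : 0 < m := Nat.pos_of_ne_zero (fun h => hmF (by rw [h, Nat.cast_zero]))
  have hpa : 0 < p ^ a := pow_pos hp.1.pos a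
  have hoddF := odd_card_aux h2
  have hp3 : 3 ≤ p := by
    have := hp.1.two_le
    obtain ⟨k, hk⟩ := hodd
    omega
  let T : Module.End F W := (g ^ (p ^ a)).toLinearMap
  have hTk : ∀ k, T ^ k = ((g ^ (p ^ a)) ^ k).toLinearMap := fun k => (toLin_pow _ k).symm
  have hTmO : g ^ (p ^ a) ∈ O Q' := (O Q').pow_mem hgO _
  have hTdvd : ∀ e : ℕ, T ^ e = 1 → m ∣ e := by
    intro e he
    rw [← hordT]
    apply orderOf_dvd_of_pow_eq_one
    apply toLin_inj
    rw [← hTk, he]; rfl
  have hS : Sys Q' T m := ⟨hQ', hTmO, by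
    rw [hTk, ← hordT, pow_orderOf_eq_one]; rfl, hmF⟩
  have hNF : NF T ⊤ := fun x _ hx => hnf x hx
  have hTi : Inv T ⊤ := fun _ _ => trivial
  have hone : ∀ e : ℕ, (∀ x ∈ (⊤ : Submodule F W), (T ^ e) x = x) → T ^ e = 1 := fun e he => by
    ext x; exact he x trivial
  rcases Nat.eq_zero_or_pos a with rfl | ha
  · -- semisimple
    rw [pow_zero, mul_one] at hord
    have hTg : T = g.toLinearMap := by
      show (g ^ (p ^ 0)).toLinearMap = _
      rw [pow_zero, pow_one]
    obtain ⟨e0, he0⟩ : ∃ e0 : ℕ, 2 * (e0 : ℤ) = (Nat.card F : ℤ) ^ 4 - 1 := by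
      obtain ⟨b, hb⟩ : ∃ b, Nat.card F = 2 * b + 1 := ⟨Nat.card F / 2, by omega⟩
      refine ⟨8 * b ^ 4 + 16 * b ^ 3 + 12 * b ^ 2 + 4 * b, ?_⟩
      rw [hb]; push_cast; ring
    have hC2 : (∀ x ∈ (⊤ : Submodule F W), (T ^ e0) x = x) → Good h2 p hQ (orderOf g) := by
      intro h
      rw [hord]
      apply good_C2 hQ hV hD
      have h1 := hTdvd e0 (hone e0 h)
      have h3 : 2 * e0 = Nat.card F ^ 4 - 1 := by
        have h4 : 1 ≤ Nat.card F ^ 4 := Nat.one_le_pow _ _ Nat.card_pos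
        have : ((2 * e0 : ℕ) : ℤ) = ((Nat.card F ^ 4 - 1 : ℕ) : ℤ) := by push_cast [h4]; exact he0
        exact_mod_cast this
      rw [← h3]
      exact Nat.mul_dvd_mul_left 2 h1
    rcases hS.p1 h2 hTi (nd_top hQ') hNF (by rw [finrank_top, hW]) (by rw [D_top, hDW]) with ⟨s, hs, hA⟩ | hA | ⟨X, B, hX, hB, hXB, hdis, hXt, hBt, hXd, hBd⟩
    · obtain ⟨e, he⟩ := exists_ne (F := F) 3 hs
      rw [hord]
      apply good_C1 hQ hV hD hs
      rw [← he]
      exact_mod_cast hTdvd e (hone e (hA e he))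
    · exact hC2 (hA e0 he0)
    · have hQX : ∀ {X : Submodule F W}, (∀ x ∈ X, ∀ y ∈ X, polar Q' x y = 0) → ∀ x ∈ X, Q' x = 0 := by
        intro X hX x hx
        have h1 := hX x hx x hx
        rw [polar_self'] at h1
        exact (mul_eq_zero.1 h1).resolve_left h2
      have hcompl : IsCompl X B := ⟨hdis, codisjoint_iff.2 hXB⟩
      have key : ∀ {X B : Submodule F W}, Irr T X → Irr T B → IsCompl X B → (∀ x ∈ X, ∀ y ∈ X, polar Q' x y = 0) →
          (∀ x ∈ B, ∀ y ∈ B, polar Q' x y = 0) → finrank F X = 4 → finrank F B = 4 → ∀ x ∈ X, (T ^ e0) x = x := by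
        intro X B hX hB hXB hXt hBt hXd hBd
        have hgX : Inv g.toLinearMap X := by rw [← hTg]; exact hX.1
        have hgB : Inv g.toLinearMap B := by rw [← hTg]; exact hB.1
        have h1 := spin_hyp h2 hQ' hXB (hQX hXt) (hQX hBt) hXd hBd hgO hgX hgB hgOm
        have h3 : IsSquare (LinearMap.det (T.restrict hX.1)) := by
          have : T.restrict hX.1 = g.toLinearMap.restrict hgX := by
            ext x
            show T x = g.toLinearMap x
            rw [hTg]
          rw [this]; exact h1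
        refine hX.half h2 (fun x => hS.inj) h3 ?_
        rw [hXd]
        have h4 : 1 ≤ Nat.card F ^ 4 := Nat.one_le_pow _ _ Nat.card_pos
        have : ((2 * e0 : ℕ) : ℤ) = ((Nat.card F ^ 4 - 1 : ℕ) : ℤ) := by push_cast [h4]; exact he0
        exact_mod_cast this
      apply hC2
      rw [← hXB]
      exact pow_fix_sup (key hX hB hcompl hXt hBt hXd hBd) (key hB hX hcompl.symm hBt hXt hBd hXd)
  · -- mixed
    set U := g ^ m with hU
    have hUo : orderOf U = p ^ a := by
      rw [hU, orderOf_pow_of_dvd hm0.ne' (by rw [hord]; exact dvd_mul_right _ _), hord, Nat.mul_div_cancel_left _ hm0]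
    have hUO : U ∈ O Q' := (O Q').pow_mem hgO _
    set N : Module.End F W := U.toLinearMap - 1 with hN
    have hTU : T * U.toLinearMap = U.toLinearMap * T := by
      have h1 : (g ^ (p ^ a)) * U = U * (g ^ (p ^ a)) := by
        rw [hU, ← pow_add, ← pow_add, add_comm]
      ext x
      exact LinearEquiv.congr_fun h1 x
    have hTN : T * N = N * T := by
      rw [hN, mul_sub, sub_mul, hTU, mul_one, one_mul]
    have hNp : N ^ (p ^ a) = 0 := by
      rw [hN, unip_one_iff, ← hUo, pow_orderOf_eq_one]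
    have hN1 : N ^ 1 ≠ 0 := by
      intro h
      have h1 : U ^ (p ^ 0) = 1 := by
        rw [← unip_one_iff, pow_zero]; exact h
      rw [pow_zero, pow_one] at h1
      rw [h1, orderOf_one] at hUo
      have := Nat.one_lt_pow ha.ne' hp.1.one_lt
      omega
    obtain ⟨c, hc1, hc0, hcz⟩ : ∃ c, 1 ≤ c ∧ N ^ c ≠ 0 ∧ N ^ (c + 1) = 0 := by
      classical
      have hex : ∃ k, N ^ k = 0 := ⟨_, hNp⟩
      have h1 := Nat.find_spec hex
      have h3 : 2 ≤ Nat.find hex := by
        by_contra hcon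
        have h4 : Nat.find hex = 0 ∨ Nat.find hex = 1 := by omega
        rcases h4 with h4 | h4
        · rw [h4] at h1
          apply hN1
          rw [pow_one]
          rw [pow_zero] at h1
          calc N = N * 1 := (mul_one N).symm
            _ = 0 := by rw [h1, mul_zero]
        · rw [h4] at h1; exact hN1 h1
      refine ⟨Nat.find hex - 1, by omega, Nat.find_min hex (by omega), ?_⟩
      rw [Nat.sub_add_cancel (by omega)]
      exact h1
    have hNil : Nil Q' N c := ⟨fun v => by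
      have : v + N v = U v := by
        show v + (U v - v) = U v
        abel
      rw [this]; exact hUO v, hcz⟩
    obtain ⟨⟨s, hs, hE1⟩, hE2⟩ := hS.p2 h2 hNil hc1 hc0 hTN hNF hW hDW
    obtain ⟨e, he⟩ := exists_ne (F := F) 2 hs
    have hm1 : (m : ℤ) ∣ (Nat.card F : ℤ) ^ 2 - s := by
      rw [← he]
      exact_mod_cast hTdvd e (hE1 e he)
    have hle : ∀ b : ℕ, c + 1 ≤ p ^ b → a ≤ b := by
      intro b hb
      have h1 : N ^ (p ^ b) = 0 := by
        obtain ⟨k, hk⟩ := Nat.exists_eq_add_of_le hb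
        rw [hk, pow_add, hcz, zero_mul]
      rw [hN, unip_one_iff] at h1
      have h3 := orderOf_dvd_of_pow_eq_one h1
      rw [hUo] at h3
      exact (Nat.pow_dvd_pow_iff_le_right hp.1.one_lt).1 h3
    have hC3 : a = 1 → Good h2 p hQ (orderOf g) := by
      rintro rfl
      have := good_C3 (h2 := h2) (p := p) hQ hV hD hs hm1 hpm
      rw [hord, pow_one, mul_comm]
      exact this
    rcases Nat.lt_or_ge c p with hcp | hcp
    · apply hC3
      have := hle 1 (by rw [pow_one]; omega)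
      omega
    · have hE := hE2 (by omega)
      have hc6 : c ≤ 6 := by
        rcases hE with ⟨h, _⟩ | ⟨h, _⟩ <;> omega
      have ha2 : a ≤ 2 := hle 2 (by nlinarith)
      have ha' : a = 1 ∨ a = 2 := by omega
      rcases ha' with rfl | rfl
      · exact hC3 rfl
      · have hC4 : p = 3 → ∀ s : ℤ, (s = 1 ∨ s = -1) → (m : ℤ) ∣ (Nat.card F : ℤ) ^ 1 - s → Good h2 p hQ (orderOf g) := by
          intro h3 s hs hms
          have := good_C4 (h2 := h2) (p := p) h3 hQ hV hD hs hms hpm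
          rw [hord]
          have e1 : m * p ^ 2 = p * (m * p) := by ring
          rw [e1]; exact this
        rcases hE with ⟨hc4, s', hs', hT⟩ | ⟨_, hT⟩
        · obtain ⟨e, he⟩ := exists_ne (F := F) 1 hs'
          refine hC4 (by
            obtain ⟨k, hk⟩ := hodd
            omega) s' hs' ?_
          rw [← he]
          exact_mod_cast hTdvd e (hT e he)
        · have hm2 := hTdvd 2 hT
          have hp35 : p = 3 ∨ p = 5 := by
            obtain ⟨k, hk⟩ := hodd
            omega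
          rcases hp35 with h3 | h5
          · refine hC4 h3 1 (Or.inl rfl) ?_
            have h1 : (2 : ℤ) ∣ (Nat.card F : ℤ) ^ 1 - 1 := by
              rw [pow_one]; omega
            exact dvd_trans (by exact_mod_cast hm2) h1
          · have hm12 : m = 1 ∨ m = 2 := (Nat.dvd_prime Nat.prime_two).1 hm2
            rcases hm12 with h1 | h1
            · exfalso
              rw [h1, orderOf_eq_one_iff] at hordT
              obtain ⟨w, hw⟩ : ∃ w : W, w ≠ 0 := (Module.finrank_pos_iff_exists_ne_zero (R := F)).1 (by omega)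
              exact hw (hnf w (by rw [hordT]; rfl))
            · have := good_C5 (h2 := h2) (p := p) h5 hQ hV hD
              rw [hord, h1]
              have e1 : 2 * p ^ 2 = p * (2 * p) := by ring
              rw [e1]; exact this

theorem odd_pow_p (hodd : Odd p) (a : ℕ) : Odd (p ^ a) := hodd.pow

/-- every element order of `Ω₉` is an element order of `V ⋊ Ω₈⁻` -/
theorem good_of_nine (hodd : Odd p) (hQ : Nd Q) (hV : finrank F V = 8) (hD : D Q = -(Nat.card F : ℤ) ^ 4) (hQ' : Nd Q') (hW : finrank F W = 9)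
    {g : W ≃ₗ[F] W} (hg : IsPar h2 hQ' g 1) : Good h2 p hQ (orderOf g) := by
  have hgOm := (mem_Om_iff_par hQ').2 hg
  have hgO : g ∈ O Q' := Om_le hgOm
  have hWf : Finite W := Module.finite_of_finite F
  have hGf : Finite (W ≃ₗ[F] W) := Finite.of_injective (fun e : W ≃ₗ[F] W => (e : W → W)) DFunLike.coe_injective
  have hp3 : 3 ≤ p := by
    have := hp.1.two_le
    obtain ⟨k, hk⟩ := hodd
    omega
  have hopos : orderOf g ≠ 0 := (orderOf_pos g).ne'
  obtain ⟨a, m, hpm, hord⟩ := Nat.exists_eq_pow_mul_and_not_dvd hopos p hp.1.ne_one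
  rw [mul_comm] at hord
  have hm0 : 0 < m := Nat.pos_of_ne_zero (fun h => hpm (by rw [h]; exact dvd_zero p))
  obtain ⟨E, M, hE, hM, gE, gM, hdim, hgE, hgM, hgEp, hnf, hoT, -, -, -, ho, hpar, hev⟩ := exists_dec h2 hQ' hgO hord hpm
  have hME := hev hgOm
  have hparE : IsPar h2 hE gE 1 := isPar_odd hE hgE (odd_pow_p hodd a) hgEp
  obtain ⟨cM, hcM⟩ := exists_par (h2 := h2) hM hgM
  have hcM1 : cM = 1 := by
    have := (hpar 1 cM hparE hcM).unique hg
    rwa [one_mul] at this
  rw [hcM1] at hcM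
  have hMf : Finite (M ≃ₗ[F] M) := Finite.of_injective (fun e : M ≃ₗ[F] M => (e : M → M)) DFunLike.coe_injective
  obtain ⟨b, hb, hbE⟩ := (Nat.dvd_prime_pow hp.1).1 (orderOf_dvd_of_pow_eq_one hgEp)
  rw [hbE] at ho
  by_cases hdvd : p ^ b ∣ orderOf gM
  · have ho' : orderOf g = orderOf gM := by rw [ho]; exact Nat.lcm_eq_right hdvd
    rcases Nat.lt_or_ge (finrank F M) 8 with h8 | h8
    · rw [ho']
      exact mix1 (p := p) hQ hV hD hM (Or.inl h8) ⟨gM, hcM, Or.inl rfl⟩
    · have hM8 : finrank F M = 8 := by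
        obtain ⟨r, hr⟩ := hME
        omega
      obtain ⟨s, hs, hDs⟩ := exists_sign hM (N := 4) hM8
      rcases hs with rfl | ⟨rfl, -⟩
      · rw [one_mul] at hDs
        rw [ho']
        exact good_special hodd hQ hV hD hM hM8 hDs hcM (by rw [← ho', hord]) hpm hnf hoT
      · rw [ho']
        exact mix1 (p := p) hQ hV hD hM (Or.inr ⟨hM8, by rw [hDs]; ring⟩) ⟨gM, hcM, Or.inl rfl⟩
  · -- the order of `gM`
    have hmd : m ∣ orderOf gM := by
      rw [← hoT]
      exact orderOf_pow_dvd _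
    have hdm : orderOf gM ∣ m * p ^ a := by
      rw [← hord, ho]; exact Nat.dvd_lcm_right _ _
    obtain ⟨d, hd⟩ := hmd
    rw [hd] at hdm hdvd
    obtain ⟨i, hi, hdi⟩ := (Nat.dvd_prime_pow hp.1).1 (Nat.dvd_of_mul_dvd_mul_left hm0 hdm)
    rw [hdi] at hd hdvd
    have hib : i < b := by
      by_contra hcon
      exact hdvd (dvd_mul_of_dvd_right (pow_dvd_pow p (by omega)) m)
    obtain ⟨b', rfl⟩ : ∃ b', b = b' + 1 := ⟨b - 1, by omega⟩
    have hEd := unip_dim hbE
    have hb2 : b' < 2 := by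
      by_contra hcon
      have h1 : p ^ 2 ≤ p ^ b' := Nat.pow_le_pow_right hp.1.pos (by omega)
      have h3 : 9 ≤ p ^ 2 := by nlinarith
      omega
    obtain ⟨r, hr⟩ := hME
    have hcop : ∀ k, Nat.Coprime m (p ^ k) := fun k => (Nat.Coprime.pow_left k ((Nat.Prime.coprime_iff_not_dvd hp.1).2 hpm)).symm
    have hb' : b' = 0 ∨ b' = 1 := by omega
    rcases hb' with rfl | rfl
    · have hi0 : i = 0 := by omega
      rw [hi0, pow_zero, mul_one] at hd
      have e1 : orderOf g = p * m := by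
        rw [ho, hd, zero_add, pow_one]
        exact Nat.Coprime.lcm_eq_mul ((Nat.Prime.coprime_iff_not_dvd hp.1).2 hpm)
      rw [e1]
      exact mix2 (p := p) hQ hV hD hM (a := r) (by omega) (by rw [pow_zero] at hEd; omega) hcM hd hpm
    · have hodd' : p % 2 = 1 := Nat.odd_iff.1 hodd
      have e1 : orderOf g = p * (m * p) := by
        rw [ho, hd]
        have h1 : m * p ^ 2 = p * (m * p) := by ring
        rw [← h1]
        apply Nat.dvd_antisymm
        · exact Nat.lcm_dvd (dvd_mul_left _ _) (Nat.mul_dvd_mul_left m (pow_dvd_pow p (by omega)))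
        · exact Nat.Coprime.mul_dvd_of_dvd_of_dvd (hcop 2) (dvd_trans (dvd_mul_right _ _) (Nat.dvd_lcm_right _ _)) (Nat.dvd_lcm_left _ _)
      rw [e1]
      rw [pow_one] at hEd
      refine mix3 hodd hQ hV hD hM (a := r) (by omega) (by omega) hcM (m := m) ?_ hpm
      have hi' : i = 0 ∨ i = 1 := by omega
      rcases hi' with rfl | rfl
      · left; rw [hd]; ring
      · right; rw [hd]; ring

theorem geom_char' (T : Module.End F V) (a : ℕ) : ∑ i ∈ Finset.range (p ^ a), T ^ i = (T - 1) ^ (p ^ a - 1) := by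
  have h1 : ∑ i ∈ Finset.range (p ^ a), (Polynomial.X : Polynomial F) ^ i = (Polynomial.X - 1) ^ (p ^ a - 1) := by
    have h3 : (∑ i ∈ Finset.range (p ^ a), (Polynomial.X : Polynomial F) ^ i) * (Polynomial.X - 1) =
        (Polynomial.X - 1) ^ (p ^ a - 1) * (Polynomial.X - 1) := by
      rw [geom_sum_mul, ← pow_succ, Nat.sub_add_cancel (Nat.one_le_pow _ _ hp.1.pos), sub_pow_char_pow, one_pow]
    have h4 : (Polynomial.X - 1 : Polynomial F) ≠ 0 := by
      have := Polynomial.X_sub_C_ne_zero (1 : F)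
      rwa [Polynomial.C_1] at this
    exact mul_right_cancel₀ h4 h3
  have h5 := congrArg (Polynomial.aeval T) h1
  simpa using h5

theorem exists_nine_aux (hQ : Nd Q) (hQ' : Nd Q') {X : Type*} [AddCommGroup X] [Module F X] [FiniteDimensional F X] {QX : QuadraticForm F X}
    (hQX : Nd QX) {j : X →ₗ[F] W} (hj : ∀ x, Q' (j x) = QX x) {t : X ≃ₗ[F] X} (ht : IsPar h2 hQX t 1) {k : ℕ} (hk : Even k)
    (hdim : finrank F X + (k + 1) ≤ finrank F W) {a : ℕ} (hk1 : p ^ a ≤ k) (hk2 : k < p ^ (a + 1)) (hodd : Odd p) :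
    ∃ x : W ≃ₗ[F] W, x ∈ Om Q' ∧ orderOf x = Nat.lcm (orderOf t) (p ^ (a + 1)) := by
  have hinj := inj_of_nd hQX hj
  have hR : NDq Q' (LinearMap.range j) := by
    rintro _ ⟨x, rfl⟩ hall
    have : x = 0 := by
      apply hQX.eq_zero
      intro y
      have h1 := hall (j y) ⟨y, rfl⟩
      have h3 : polar Q' (j x) (j y) = polar QX x y := by
        simp only [polar, ← map_add, hj]
      rw [← h3]; exact h1
    rw [this, map_zero]
  obtain ⟨h1, h3, h4, h5⟩ := Sesq.split_nd (refl_bq (Q := Q')) (nd_top hQ') hR le_top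
  set P : Submodule F W := ⊤ ⊓ pp Q' (LinearMap.range j) with hP
  have hPd : finrank F X + finrank F P = finrank F W := by
    rw [← LinearMap.finrank_range_of_inj hinj, ← finrank_top F W]
    exact h4
  have hPn := nd_res h5
  obtain ⟨u, hu, hu1, hu2⟩ := exists_unip h2 hPn hk (by omega)
  have huo := unip_order (p := p) hu1 hu2 hk1 hk2
  have hupar : IsPar h2 hPn u 1 := isPar_odd hPn hu (odd_pow_p hodd (a + 1)) (by rw [← huo, pow_orderOf_eq_one])
  let j' : (X × P) →ₗ[F] W := j.coprod P.subtype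
  have hj'a : ∀ y, j' y = j y.1 + y.2 := fun y => rfl
  have hj' : ∀ y, Q' (j' y) = (QX.prod (res Q' P)) y := by
    intro y
    have h6 : polar Q' (j y.1) (y.2 : W) = 0 := y.2.2.2 _ ⟨y.1, rfl⟩
    rw [hj'a, Q_add, h6, add_zero, hj]
    rfl
  have hpar := (ht.prod hupar).ext (hQ := hQ') hj'
  rw [one_mul] at hpar
  refine ⟨_, (mem_Om_iff_par hQ').2 hpar, ?_⟩
  rw [orderOf_injective _ (extHom_injective (nd_prod hQX hPn) hj'), order_prH, huo]

/-- every element order of `V ⋊ Ω₈⁻` is an element order of `Ω₉` -/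
theorem nine_of_good (hodd : Odd p) (hQ : Nd Q) (hV : finrank F V = 8) (hQ' : Nd Q') (hW : finrank F W = 9) {n : ℕ} (h : Good h2 p hQ n) :
    ∃ x : W ≃ₗ[F] W, x ∈ Om Q' ∧ orderOf x = n := by
  obtain ⟨t, ht, h⟩ := h
  have hp3 : 3 ≤ p := by
    have := hp.1.two_le
    obtain ⟨k, hk⟩ := hodd
    omega
  rcases h with h | ⟨h, v, hv⟩
  · obtain ⟨j, hj⟩ := emb_lt hQ' hQ (by omega)
    refine ⟨extHom Q' hQ j hj t, (mem_Om_iff_par hQ').2 (ht.ext hj), ?_⟩
    rw [orderOf_injective _ (extHom_injective hQ hj), h]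
  · have htOm := (mem_Om_iff_par hQ).2 ht
    have htO : t ∈ O Q := Om_le htOm
    have hVf : Finite V := Module.finite_of_finite F
    have hGf : Finite (V ≃ₗ[F] V) := Finite.of_injective (fun e : V ≃ₗ[F] V => (e : V → V)) DFunLike.coe_injective
    have hopos : orderOf t ≠ 0 := (orderOf_pos t).ne'
    obtain ⟨a, m, hpm, hord⟩ := Nat.exists_eq_pow_mul_and_not_dvd hopos p hp.1.ne_one
    rw [mul_comm] at hord
    have hm0 : 0 < m := Nat.pos_of_ne_zero (fun h => hpm (by rw [h]; exact dvd_zero p))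
    obtain ⟨E, M, hE, hM, gE, gM, hdim, hgE, hgM, hgEp, hnf, hoT, hvE, hvM, hEM, ho, hpar, hev⟩ := exists_dec h2 hQ htO hord hpm
    have hME := hev htOm
    have hparE : IsPar h2 hE gE 1 := isPar_odd hE hgE (odd_pow_p hodd a) hgEp
    obtain ⟨cM, hcM⟩ := exists_par (h2 := h2) hM hgM
    have hcM1 : cM = 1 := by
      have := (hpar 1 cM hparE hcM).unique ht
      rwa [one_mul] at this
    rw [hcM1] at hcM
    -- the dimension of `E`
    have hpowE : ∀ (k : ℕ) (x : E), (t ^ k) (x : V) = ((gE ^ k) x : E) := by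
      intro k
      induction k with
      | zero => intro x; rfl
      | succ k ih => intro x; rw [pow_succ, pow_succ, LinearEquiv.mul_apply, LinearEquiv.mul_apply, hvE, ih]
    have hpowM : ∀ (k : ℕ) (x : M), (t ^ k) (x : V) = ((gM ^ k) x : M) := by
      intro k
      induction k with
      | zero => intro x; rfl
      | succ k ih => intro x; rw [pow_succ, pow_succ, LinearEquiv.mul_apply, LinearEquiv.mul_apply, hvM, ih]
    have hEd : p ^ a ≤ finrank F E := by
      have hv' : v ∈ E ⊔ M := by rw [hEM]; trivial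
      obtain ⟨e, he, w, hw, rfl⟩ := Submodule.mem_sup.1 hv'
      have hsM : ∑ i ∈ Finset.range (orderOf t), (t ^ i) w = 0 := by
        let y : M := ∑ i ∈ Finset.range (orderOf t), (gM ^ i) ⟨w, hw⟩
        have hyv : (y : V) = ∑ i ∈ Finset.range (orderOf t), (t ^ i) w := by
          show ((∑ i ∈ Finset.range (orderOf t), (gM ^ i) ⟨w, hw⟩ : M) : V) = _
          rw [Submodule.coe_sum]
          exact Finset.sum_congr rfl fun i _ => (hpowM i ⟨w, hw⟩).symm
        have hfix : t (y : V) = y := by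
          rw [hyv, map_sum]
          have h1 := Finset.sum_range_succ' (fun i => (t ^ i) w) (orderOf t)
          rw [Finset.sum_range_succ, pow_orderOf_eq_one] at h1
          have h3 : ∑ i ∈ Finset.range (orderOf t), t ((t ^ i) w) = ∑ k ∈ Finset.range (orderOf t), (t ^ (k + 1)) w :=
            Finset.sum_congr rfl fun i _ => by rw [pow_succ', LinearEquiv.mul_apply]
          rw [h3]
          exact (add_right_cancel h1).symm
        have hfixk : ∀ k, (t ^ k) (y : V) = y := by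
          intro k
          induction k with
          | zero => rfl
          | succ k ih => rw [pow_succ, LinearEquiv.mul_apply, hfix, ih]
        have h5 : y = 0 := hnf y (Subtype.ext (by rw [← hpowM]; exact hfixk _))
        rw [← hyv, h5]; rfl
      have hsE : ∑ i ∈ Finset.range (orderOf t), (t ^ i) e ≠ 0 := by
        intro h0
        apply hv
        simp only [map_add, Finset.sum_add_distrib]
        rw [h0, hsM, add_zero]
      rw [hord, sum_period e (by rw [hpowE (p ^ a) ⟨e, he⟩, hgEp]; rfl) m] at hsE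
      have hsE' : ∑ i ∈ Finset.range (p ^ a), (t ^ i) e ≠ 0 := fun h0 => hsE (by rw [h0, smul_zero])
      have hN : (gE.toLinearMap - 1 : Module.End F E) ^ (p ^ a - 1) ≠ 0 := by
        intro h0
        rw [← geom_char'] at h0
        apply hsE'
        have h6 := congrArg (fun S : Module.End F E => ((S ⟨e, he⟩ : E) : V)) h0
        simp only [LinearMap.sum_apply, Submodule.coe_sum, LinearMap.zero_apply, ZeroMemClass.coe_zero] at h6
        rw [← h6]
        exact Finset.sum_congr rfl fun i _ => by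
          rw [hpowE i ⟨e, he⟩, ← toLin_pow]; rfl
      have h7 := nil_dim (k := p ^ a) (by rw [unip_one_iff, hgEp]) hN
      have h8 : 1 ≤ p ^ a := Nat.one_le_pow _ _ hp.1.pos
      omega
    obtain ⟨r, hr⟩ := hME
    obtain ⟨z, hz⟩ := odd_pow_p hodd a
    obtain ⟨j, hj⟩ := emb_lt hQ' hM (by omega)
    have h8 : 1 ≤ p ^ a := Nat.one_le_pow _ _ hp.1.pos
    obtain ⟨x, hx, hxo⟩ := exists_nine_aux (p := p) (a := a) hQ hQ' hM hj hcM (k := p ^ a + 1) ⟨z + 1, by omega⟩ (by omega) (by omega)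
      (by rw [pow_succ]; nlinarith) hodd
    refine ⟨x, hx, ?_⟩
    rw [hxo, h, hord]
    have hmd : m ∣ orderOf gM := by
      rw [← hoT]
      exact orderOf_pow_dvd _
    have hdm : orderOf gM ∣ m * p ^ a := by
      rw [← hord, ho]; exact Nat.dvd_lcm_right _ _
    have hcop : Nat.Coprime m (p ^ (a + 1)) := (Nat.Coprime.pow_left (a + 1) ((Nat.Prime.coprime_iff_not_dvd hp.1).2 hpm)).symm
    have e1 : p * (m * p ^ a) = m * p ^ (a + 1) := by ring
    rw [e1]
    apply Nat.dvd_antisymm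
    · exact Nat.lcm_dvd (dvd_trans hdm (Nat.mul_dvd_mul_left m (pow_dvd_pow p (by omega)))) (dvd_mul_left _ _)
    · exact Nat.Coprime.mul_dvd_of_dvd_of_dvd hcop (dvd_trans hmd (Nat.dvd_lcm_left _ _)) (Nat.dvd_lcm_right _ _)

end dec

end Cfsg.Agent.Lib.SpecA67
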