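import Mathlib

/-! The character of order two of a cyclic group. -/

namespace Cfsg.Agent.Lib.SqChar

universe u

variable {A : Type u} [Group A] [IsCyclic A] {θ : A →* ℂˣ}

omit [IsCyclic A] in
theorem val_cases (h : θ ^ 2 = 1) (s : A) : (θ s : ℂ) = 1 ∨ (θ s : ℂ) = -1 := by
  have h2 : (θ s) ^ 2 = 1 := by
    rw [← MonoidHom.pow_apply, h]; rfl
  have h3 : ((θ s : ℂˣ) : ℂ) ^ 2 = 1 := by
    rw [← Units.val_pow_eq_pow_val, h2, Units.val_one]
  exact mul_self_eq_one_iff.1 ((pow_two _).symm.trans h3)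

theorem eq_one_iff (h : θ ^ 2 = 1) (h1 : θ ≠ 1) (s : A) : (θ s : ℂ) = 1 ↔ ∃ r, s = r ^ 2 := by
  constructor
  · intro hs
    obtain ⟨g, hg⟩ := IsCyclic.exists_generator (α := A)
    have hgm : θ g = -1 := by
      rcases val_cases h g with h2 | h2
      · exfalso
        apply h1
        apply MonoidHom.ext
        intro a
        obtain ⟨k, rfl⟩ := hg a
        have h4 : θ g = 1 := Units.ext (by rw [h2, Units.val_one])
        simp only [map_zpow, MonoidHom.one_apply]
        rw [h4, one_zpow]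
      · exact Units.ext (by rw [h2]; simp)
    obtain ⟨k, rfl⟩ := hg s
    simp only [map_zpow] at hs
    rw [hgm] at hs
    have hev : Even k := by
      by_contra hk
      rw [Int.not_even_iff_odd] at hk
      rw [hk.neg_one_zpow] at hs
      norm_num at hs
    obtain ⟨m, rfl⟩ := hev
    refine ⟨g ^ m, ?_⟩
    simp only
    rw [zpow_add, pow_two]
  · rintro ⟨r, rfl⟩
    have h2 : (θ r) ^ 2 = 1 := by
      rw [← MonoidHom.pow_apply, h]; rfl
    rw [map_pow, h2, Units.val_one]

theorem pow_half_iff [Finite A] {n : ℕ} (hn : Nat.card A = 2 * n) (s : A) :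
    s ^ n = 1 ↔ ∃ r, s = r ^ 2 := by
  constructor
  · intro hs
    obtain ⟨g, hg⟩ := IsCyclic.exists_generator (α := A)
    obtain ⟨k, rfl⟩ := hg s
    simp only at hs
    rw [← zpow_natCast, ← zpow_mul, ← orderOf_dvd_iff_zpow_eq_one,
      orderOf_eq_card_of_forall_mem_zpowers hg, hn] at hs
    have hn0 : 0 < n := by
      have : 0 < Nat.card A := Nat.card_pos
      omega
    have h2 : (2 : ℤ) ∣ k := by
      obtain ⟨m, hm⟩ := hs
      push_cast at hm
      refine ⟨m, ?_⟩
      have : (n : ℤ) * k = (n : ℤ) * (2 * m) := by linarith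
      exact mul_left_cancel₀ (by exact_mod_cast hn0.ne') this
    obtain ⟨m, rfl⟩ := h2
    refine ⟨g ^ m, ?_⟩
    simp only
    rw [← zpow_natCast, ← zpow_mul]
    congr 1
    push_cast; ring
  · rintro ⟨r, rfl⟩
    rw [← pow_mul, ← hn]
    exact pow_card_eq_one'

end Cfsg.Agent.Lib.SqChar
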