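import Mathlib
import Cfsg.Agent.Lib.ColTools2
import Cfsg.Agent.Lib.SymAltSq
import Cfsg.Agent.Lib.FrobSchur

/-!
# Multiplicities in the symmetric and alternating squares (helper7)
-/

set_option autoImplicit false
set_option linter.all false

namespace Cfsg.Agent.Lib.SqSplit

open Subgroup Cfsg Cfsg.Agent.Lib.CharBasic Cfsg.Agent.Lib.ColTools Cfsg.Agent.Lib.FrobSchur
open scoped ComplexConjugate

universe u

variable {G : Type u} [Group G] [Fintype G]

/-- multiplicities `μ` in `S²χ`, `ν` in `Λ²χ` -/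
structure Split (χ : IrrCharacter G) (μ ν : IrrCharacter G → ℕ) : Prop where
  hμ : ∀ ψ : IrrCharacter G, classInner (fun g => ((χ : G → ℂ) g ^ 2 + (χ : G → ℂ) (g * g)) / 2) (ψ : G → ℂ) = μ ψ
  hν : ∀ ψ : IrrCharacter G, classInner (fun g => ((χ : G → ℂ) g ^ 2 - (χ : G → ℂ) (g * g)) / 2) (ψ : G → ℂ) = ν ψ
  eμ : ∀ g, ((χ : G → ℂ) g ^ 2 + (χ : G → ℂ) (g * g)) / 2 = ∑ ψ : IrrCharacter G, (μ ψ : ℂ) * (ψ : G → ℂ) g
  eν : ∀ g, ((χ : G → ℂ) g ^ 2 - (χ : G → ℂ) (g * g)) / 2 = ∑ ψ : IrrCharacter G, (ν ψ : ℂ) * (ψ : G → ℂ) g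

theorem exists_split (χ : IrrCharacter G) : ∃ μ ν, Split χ μ ν := by
  classical
  have h1 := SymAltSq.isCharacter_symSq χ.2.isCharacter
  have h2 := SymAltSq.isCharacter_altSq χ.2.isCharacter
  choose μ hμ using fun ψ : IrrCharacter G => h1.classInner_nat ψ.2.isCharacter
  choose ν hν using fun ψ : IrrCharacter G => h2.classInner_nat ψ.2.isCharacter
  refine ⟨μ, ν, hμ, hν, fun g => ?_, fun g => ?_⟩
  · have := h1.isClassFunction.expansion_apply g
    beta_reduce at this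
    rw [this]
    apply Finset.sum_congr rfl
    intro ψ _
    rw [hμ]
  · have := h2.isClassFunction.expansion_apply g
    beta_reduce at this
    rw [this]
    apply Finset.sum_congr rfl
    intro ψ _
    rw [hν]

variable {χ : IrrCharacter G} {μ ν : IrrCharacter G → ℕ}

theorem Split.inner (S : Split χ μ ν) (ψ : IrrCharacter G) :
    classInner (fun g => (χ : G → ℂ) g ^ 2) (ψ : G → ℂ) = ((μ ψ + ν ψ : ℕ) : ℂ) := by
  push_cast
  rw [← S.hμ, ← S.hν, classInner_def, classInner_def, classInner_def, ← mul_add, ← Finset.sum_add_distrib]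
  congr 1
  refine Finset.sum_congr rfl fun g _ => ?_
  ring

theorem Split.sq (S : Split χ μ ν) (g : G) : (χ : G → ℂ) g ^ 2 = ∑ ψ : IrrCharacter G, ((μ ψ + ν ψ : ℕ) : ℂ) * (ψ : G → ℂ) g := by
  have h1 := S.eμ g
  have h2 := S.eν g
  have : (χ : G → ℂ) g ^ 2 = ((χ : G → ℂ) g ^ 2 + (χ : G → ℂ) (g * g)) / 2 + ((χ : G → ℂ) g ^ 2 - (χ : G → ℂ) (g * g)) / 2 := by ring
  rw [this, h1, h2, ← Finset.sum_add_distrib]
  refine Finset.sum_congr rfl fun ψ _ => ?_
  push_cast; ring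

theorem card_ne : (Nat.card G : ℂ) ≠ 0 := by exact_mod_cast (Nat.card_pos (α := G)).ne'

variable {V : G → ℤ}

theorem Split.triv (S : Split χ μ ν) (hV : ∀ g, (χ : G → ℂ) g = V g) : μ (triv G) + ν (triv G) = 1 := by
  have h1 := S.inner (ColTools.triv G)
  have h2 := χ.2.classInner_self
  have h3 : classInner (fun g => (χ : G → ℂ) g ^ 2) (ColTools.triv G : G → ℂ) = classInner (χ : G → ℂ) (χ : G → ℂ) := by
    rw [classInner_def, classInner_def]
    congr 1
    refine Finset.sum_congr rfl fun g _ => ?_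
    rw [triv_apply, map_one, hV, map_intCast]; ring
  rw [h3, h2] at h1
  exact_mod_cast h1.symm

theorem Split.self (S : Split χ μ ν) (hV : ∀ g, (χ : G → ℂ) g = V g) {m : ℕ} (hm : ∑ g, V g ^ 3 = Nat.card G * m) : μ χ + ν χ = m := by
  have h1 := S.inner χ
  rw [classInner_def] at h1
  have h2 : ∑ g, (fun g => (χ : G → ℂ) g ^ 2) g * conj ((χ : G → ℂ) g) = ((∑ g, V g ^ 3 : ℤ) : ℂ) := by
    push_cast
    refine Finset.sum_congr rfl fun g _ => ?_
    beta_reduce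
    rw [hV, map_intCast]; ring
  rw [h2, hm] at h1
  push_cast at h1
  rw [← mul_assoc, inv_mul_cancel₀ card_ne, one_mul] at h1
  exact_mod_cast h1.symm

theorem Split.norm (S : Split χ μ ν) (hV : ∀ g, (χ : G → ℂ) g = V g) {m : ℕ} (hm : ∑ g, V g ^ 4 = Nat.card G * m) :
    ∑ ψ, (μ ψ + ν ψ) ^ 2 = m := by
  have h0 : IsClassFunction G (fun g => (χ : G → ℂ) g ^ 2) := by
    have := χ.2.isCharacter.isClassFunction.mul χ.2.isCharacter.isClassFunction
    convert this using 1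
    funext g
    rw [Pi.mul_apply, pow_two]
  have h1 := h0.classInner_eq_sum (fun g => (χ : G → ℂ) g ^ 2)
  rw [classInner_def] at h1
  have h2 : ∑ g, (fun g => (χ : G → ℂ) g ^ 2) g * conj ((fun g => (χ : G → ℂ) g ^ 2) g) = ((∑ g, V g ^ 4 : ℤ) : ℂ) := by
    push_cast
    refine Finset.sum_congr rfl fun g _ => ?_
    beta_reduce
    rw [hV, map_pow, map_intCast]; ring
  rw [h2, hm] at h1
  push_cast at h1
  rw [← mul_assoc, inv_mul_cancel₀ card_ne, one_mul] at h1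
  have h3 : ((∑ ψ, (μ ψ + ν ψ) ^ 2 : ℕ) : ℂ) = (m : ℂ) := by
    rw [h1]
    push_cast
    refine Finset.sum_congr rfl fun ψ _ => ?_
    rw [S.inner]
    push_cast
    rw [map_add, map_natCast, map_natCast]; ring
  exact_mod_cast h3

theorem Split.fsInd (S : Split χ μ ν) : fsInd (χ : G → ℂ) = (μ (ColTools.triv G) : ℂ) - ν (ColTools.triv G) := by
  rw [← S.hμ, ← S.hν, FrobSchur.fsInd, classInner_def, classInner_def, ← mul_sub, ← Finset.sum_sub_distrib]
  congr 1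
  refine Finset.sum_congr rfl fun g _ => ?_
  rw [triv_apply, map_one]; ring

theorem Split.sumS (S : Split χ μ ν) (hV : ∀ g, (χ : G → ℂ) g = V g) :
    ∑ g, (χ : G → ℂ) g * (((χ : G → ℂ) g ^ 2 + (χ : G → ℂ) (g * g)) / 2) = (Nat.card G : ℂ) * (μ χ : ℂ) := by
  rw [← S.hμ, classInner_def, ← mul_assoc, mul_inv_cancel₀ card_ne, one_mul]
  refine Finset.sum_congr rfl fun g _ => ?_
  have : conj ((χ : G → ℂ) g) = (χ : G → ℂ) g := by rw [hV, map_intCast]
  rw [this]; ring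

theorem Split.sumL (S : Split χ μ ν) (hV : ∀ g, (χ : G → ℂ) g = V g) :
    ∑ g, (χ : G → ℂ) g * (((χ : G → ℂ) g ^ 2 - (χ : G → ℂ) (g * g)) / 2) = (Nat.card G : ℂ) * (ν χ : ℂ) := by
  rw [← S.hν, classInner_def, ← mul_assoc, mul_inv_cancel₀ card_ne, one_mul]
  refine Finset.sum_congr rfl fun g _ => ?_
  have : conj ((χ : G → ℂ) g) = (χ : G → ℂ) g := by rw [hV, map_intCast]
  rw [this]; ring

/-- if `Λ²χ` is irreducible -/
theorem sumL2 {ψ : IrrCharacter G} (hV : ∀ g, (χ : G → ℂ) g = V g) (h : ∀ g, ((χ : G → ℂ) g ^ 2 - (χ : G → ℂ) (g * g)) / 2 = (ψ : G → ℂ) g) :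
    ∑ g, (((χ : G → ℂ) g ^ 2 - (χ : G → ℂ) (g * g)) / 2) ^ 2 = (Nat.card G : ℂ) := by
  have h1 := ψ.2.classInner_self
  rw [classInner_def] at h1
  have h2 : ∑ g : G, (ψ : G → ℂ) g * conj ((ψ : G → ℂ) g) = Nat.card G := by
    have := card_ne (G := G)
    field_simp at h1
    exact h1
  rw [← h2]
  refine Finset.sum_congr rfl fun g _ => ?_
  have h3 : conj ((ψ : G → ℂ) g) = (ψ : G → ℂ) g := by
    rw [← h, hV, hV, map_div₀, map_sub, map_pow, map_intCast, map_intCast]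
    congr 1
    exact Complex.conj_ofNat 2
  rw [h3, h]; ring

end Cfsg.Agent.Lib.SqSplit
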