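import Cfsg.Agent.Lib.QuadSection

/-!
# Quadratic action modulo a subgroup centralized by all `p'`-elements (helper73)

If `a, b` act quadratically on `R / Q`, `⟨a, b⟩` does not act as a `p`-group on `R`, and the `p'`-elements of
`⟨a, b⟩` centralize `Q`, then some element of `⟨a, b⟩` acts quadratically on a subgroup `X` of `R` (of order
`p²` or `p³`), and is not contained in a normal `p`-subgroup of `Aut(X)`.
-/

set_option autoImplicit false
set_option linter.unusedSectionVars false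

namespace Cfsg.Agent.Lib.StabQuotAlg

open Subgroup Cfsg.Agent.Lib.QuadSection
open scoped commutatorElement

universe u

variable {G : Type u} [Group G] [Finite G] {p : ℕ} [hp : Fact p.Prime]

theorem frattini_map_normalizer (X : Subgroup G) :
    normalizer (X : Set G) ≤ normalizer (((frattini X).map X.subtype : Subgroup G) : Set G) := by
  intro g hg
  rw [RelSylow.mem_normalizer_iff_map]
  have h1 : ∀ (g : G), g ∈ normalizer (X : Set G) →
      ((frattini X).map X.subtype).map (MulAut.conj g).toMonoidHom ≤ (frattini X).map X.subtype := by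
    intro g hg
    rintro _ ⟨_, ⟨y, hy, rfl⟩, rfl⟩
    let e : X ≃* X := X.normalizerMonoidHom ⟨g, hg⟩
    have h2 : (frattini X).map e.toMonoidHom = frattini X :=
      (characteristic_iff_map_eq.1 (frattini_characteristic (G := X))) e
    refine ⟨e y, ?_, ?_⟩
    · have : e y ∈ (frattini X).map e.toMonoidHom := ⟨y, hy, rfl⟩
      rw [h2] at this; exact this
    · rfl
  apply le_antisymm (h1 g hg)
  intro x hx
  refine ⟨g⁻¹ * x * g, ?_, by simp [MulAut.conj_apply]; group⟩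
  have h3 := h1 g⁻¹ (inv_mem hg) (mem_map_of_mem _ hx)
  simpa [MulAut.conj_apply] using h3

theorem frattini_map_lt {X : Subgroup G} (hX : X ≠ ⊥) : (frattini X).map X.subtype < X := by
  refine lt_of_le_of_ne (by rintro _ ⟨y, _, rfl⟩; exact y.2) fun e => ?_
  have h1 : frattini X = ⊤ := by
    apply Subgroup.map_injective X.subtype_injective
    rw [e, ← MonoidHom.range_eq_map, X.range_subtype]
  have h2 : (⊥ : Subgroup X) = ⊤ := frattini_nongenerating (by rw [h1, bot_sup_eq])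
  apply hX
  rw [eq_bot_iff]
  intro x hx
  have h3 : (⟨x, hx⟩ : X) ∈ (⊥ : Subgroup X) := by rw [h2]; exact mem_top _
  exact mem_bot.2 (congrArg Subtype.val (mem_bot.1 h3))

/-- a `p'`-element acting trivially on `X / C` and on `C` centralizes `X` -/
theorem cent_of_series {X C : Subgroup G} (hXp : IsPGroup p X) (_hCX : C ≤ X) {h : G}
    (hX : h ∈ normalizer (X : Set G)) (hC : ∀ c ∈ C, h * c = c * h) (hcop : (orderOf h).Coprime p)
    (hall : ∀ x ∈ X, ⁅x, h⁆ ∈ C) : ∀ x ∈ X, h * x = x * h := by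
  have hhX : zpowers h ≤ normalizer (X : Set G) := by rw [zpowers_le]; exact hX
  have hYc : C ≤ centralizer (zpowers h : Set G) := by
    intro c hc
    rw [mem_centralizer_iff]
    intro z hz
    obtain ⟨k, rfl⟩ := mem_zpowers_iff.1 hz
    exact (Commute.zpow_left (hC c hc) k)
  have hmain : X ≤ centralizer (zpowers h : Set G) := by
    apply CoprimeAction2.le_centralizer_of_series hhX _ _ _ hYc
    · rw [Nat.card_zpowers]
      obtain ⟨n, hn⟩ := IsPGroup.iff_card.1 hXp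
      rw [hn]
      exact hcop.pow_right n
    · left
      exact inferInstance
    · rw [commutator_le]
      intro x hx z hz
      have hnat : ∀ n : ℕ, ∀ x ∈ X, ⁅x, h ^ n⁆ ∈ C := by
        intro n
        induction n with
        | zero => intro x _; simp
        | succ n ih =>
          intro x hx
          have h1 : ⁅x, h ^ (n + 1)⁆ = ⁅x, h⁆ * (h * ⁅x, h ^ n⁆ * h⁻¹) := by
            rw [pow_succ', commutatorElement_def, commutatorElement_def, commutatorElement_def]; group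
          rw [h1]
          refine mul_mem (hall x hx) ?_
          rw [hC _ (ih x hx), mul_inv_cancel_right]
          exact ih x hx
      have hfo : IsOfFinOrder h := isOfFinOrder_of_finite h
      have h3 : z ∈ Submonoid.powers h := (hfo.mem_powers_iff_mem_zpowers).2 hz
      obtain ⟨k, hk⟩ := h3
      have hk' : h ^ k = z := hk
      rw [← hk']
      exact hnat k x hx
  intro x hx
  exact mem_centralizer_iff.1 (hmain hx) h (mem_zpowers h)

/-- the minimal invariant subgroup not centralized by the `p'`-elements of `H` -/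
theorem exists_min {R H : Subgroup G} (hR : IsPGroup p R) (hHR : H ≤ normalizer (R : Set G))
    (hex : ∃ h ∈ H, (orderOf h).Coprime p ∧ ∃ x ∈ R, h * x ≠ x * h) :
    ∃ X C : Subgroup G, X ≤ R ∧ C < X ∧ H ≤ normalizer (X : Set G) ∧ H ≤ normalizer (C : Set G) ∧
      (∀ c, c ∈ C ↔ c ∈ X ∧ ∀ h ∈ H, (orderOf h).Coprime p → h * c = c * h) ∧
      (∀ x ∈ X, ∀ y ∈ X, ⁅x, y⁆ ∈ C) ∧ (∀ x ∈ X, x ^ p ∈ C) ∧ (∀ x ∈ X, ∀ c ∈ C, x * c = c * x) ∧
      (∀ Z : Subgroup G, C ≤ Z → Z ≤ X → H ≤ normalizer (Z : Set G) → Z = C ∨ Z = X) ∧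
      ∃ h ∈ H, (orderOf h).Coprime p ∧ ¬ ∀ x ∈ X, ⁅x, h⁆ ∈ C := by
  classical
  let S : Set (Subgroup G) := {X | X ≤ R ∧ H ≤ normalizer (X : Set G) ∧
    ∃ h ∈ H, (orderOf h).Coprime p ∧ ∃ x ∈ X, h * x ≠ x * h}
  have hS : S.Nonempty := ⟨R, le_rfl, hHR, hex⟩
  obtain ⟨X, hXmin⟩ := (Set.toFinite S).exists_minimal hS
  obtain ⟨hXR, hHX, h0, hh0, hcop0, x0, hx0, hne0⟩ := hXmin.prop
  have hXp : IsPGroup p X := hR.to_le hXR
  -- proper invariant subgroups are centralized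
  have hprop : ∀ Z : Subgroup G, Z < X → H ≤ normalizer (Z : Set G) →
      ∀ h ∈ H, (orderOf h).Coprime p → ∀ z ∈ Z, h * z = z * h := by
    intro Z hZ hHZ h hh hcop z hz
    by_contra hcon
    have : Z ∈ S := ⟨hZ.le.trans hXR, hHZ, h, hh, hcop, z, hz, hcon⟩
    exact absurd (hXmin.le_of_le this hZ.le) (not_le_of_gt hZ)
  let C : Subgroup G :=
    { carrier := {c | c ∈ X ∧ ∀ h ∈ H, (orderOf h).Coprime p → h * c = c * h}
      one_mem' := ⟨X.one_mem, fun h _ _ => by rw [mul_one, one_mul]⟩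
      mul_mem' := by
        rintro c d ⟨hc, hc'⟩ ⟨hd, hd'⟩
        refine ⟨X.mul_mem hc hd, fun h hh hcop => ?_⟩
        rw [← mul_assoc, hc' h hh hcop, mul_assoc, hd' h hh hcop, mul_assoc]
      inv_mem' := by
        rintro c ⟨hc, hc'⟩
        refine ⟨X.inv_mem hc, fun h hh hcop => ?_⟩
        exact (Commute.inv_right (hc' h hh hcop)) }
  have hCmem : ∀ c, c ∈ C ↔ c ∈ X ∧ ∀ h ∈ H, (orderOf h).Coprime p → h * c = c * h := fun c => Iff.rfl
  have hCX : C ≤ X := fun c hc => ((hCmem c).1 hc).1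
  have hHC : H ≤ normalizer (C : Set G) := by
    have key : ∀ g ∈ H, ∀ c ∈ C, g * c * g⁻¹ ∈ C := by
      intro g hg c hc
      obtain ⟨h1, h2⟩ := (hCmem c).1 hc
      refine (hCmem _).2 ⟨(mem_normalizer_iff.1 (hHX hg) c).1 h1, fun h hh hcop => ?_⟩
      have h3 : g⁻¹ * h * g ∈ H := H.mul_mem (H.mul_mem (H.inv_mem hg) hh) hg
      have h4 : orderOf (g⁻¹ * h * g) = orderOf h := by
        have := orderOf_injective (MulAut.conj g⁻¹).toMonoidHom (MulAut.conj g⁻¹).injective h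
        simpa [MulAut.conj_apply] using this
      have h5 := h2 _ h3 (by rw [h4]; exact hcop)
      calc h * (g * c * g⁻¹) = g * ((g⁻¹ * h * g) * c) * g⁻¹ := by group
        _ = g * (c * (g⁻¹ * h * g)) * g⁻¹ := by rw [h5]
        _ = g * c * g⁻¹ * h := by group
    intro g hg
    rw [mem_normalizer_iff]
    intro c
    refine ⟨key g hg c, fun hc => ?_⟩
    have h1 := key g⁻¹ (H.inv_mem hg) _ hc
    have h2 : g⁻¹ * (g * c * g⁻¹) * g⁻¹⁻¹ = c := by group
    rwa [h2] at h1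
  have hCne : C ≠ X := by
    intro h
    apply hne0
    have : x0 ∈ C := by rw [h]; exact hx0
    exact ((hCmem x0).1 this).2 h0 hh0 hcop0
  have hCltX : C < X := lt_of_le_of_ne hCX hCne
  have hleC : ∀ Z : Subgroup G, Z < X → H ≤ normalizer (Z : Set G) → Z ≤ C := by
    intro Z hZ hHZ z hz
    exact (hCmem z).2 ⟨hZ.le hz, fun h hh hcop => hprop Z hZ hHZ h hh hcop z hz⟩
  have hXb : X ≠ ⊥ := by
    rintro rfl
    exact absurd hCltX (not_lt_bot)
  have hFC : (frattini X).map X.subtype ≤ C := hleC _ (frattini_map_lt hXb) (hHX.trans (frattini_map_normalizer X))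
  have hcomm : ∀ x ∈ X, ∀ y ∈ X, ⁅x, y⁆ ∈ C := by
    intro x hx y hy
    apply hFC
    have h1 : (⁅(⟨x, hx⟩ : X), ⟨y, hy⟩⁆ : X) ∈ frattini X :=
      H70Frattini.commutator_le_frattini hXp (commutator_mem_commutator (mem_top _) (mem_top _))
    exact ⟨_, h1, rfl⟩
  have hpow : ∀ x ∈ X, x ^ p ∈ C := by
    intro x hx
    apply hFC
    exact ⟨_, H70Frattini.pow_mem_frattini hXp (⟨x, hx⟩ : X), rfl⟩
  -- `C` is central in `X`
  let X0 : Subgroup G := X ⊓ centralizer (C : Set G)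
  have hHX0 : H ≤ normalizer (X0 : Set G) := by
    have key : ∀ g ∈ H, ∀ x ∈ X0, g * x * g⁻¹ ∈ X0 := by
      intro g hg x hx
      obtain ⟨h1, h2⟩ := mem_inf.1 hx
      refine mem_inf.2 ⟨(mem_normalizer_iff.1 (hHX hg) x).1 h1, ?_⟩
      rw [mem_centralizer_iff] at h2 ⊢
      intro c hc
      have h3 : g⁻¹ * c * g ∈ C := by
        have := (mem_normalizer_iff.1 (hHC (H.inv_mem hg)) c).1 hc
        rwa [inv_inv] at this
      have h4 := h2 _ h3
      calc c * (g * x * g⁻¹) = g * ((g⁻¹ * c * g) * x) * g⁻¹ := by group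
        _ = g * (x * (g⁻¹ * c * g)) * g⁻¹ := by rw [h4]
        _ = g * x * g⁻¹ * c := by group
    intro g hg
    rw [mem_normalizer_iff]
    intro c
    refine ⟨key g hg c, fun hc => ?_⟩
    have h1 := key g⁻¹ (H.inv_mem hg) _ hc
    have h2 : g⁻¹ * (g * c * g⁻¹) * g⁻¹⁻¹ = c := by group
    rwa [h2] at h1
  have hX0 : X0 = X := by
    by_contra hne
    have hlt : X0 < X := lt_of_le_of_ne inf_le_left hne
    have h1 := hleC X0 hlt hHX0
    apply hne0
    refine cent_of_series hXp hCX (hHX hh0) (fun c hc => ((hCmem c).1 hc).2 h0 hh0 hcop0) hcop0 ?_ x0 hx0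
    intro x hx
    apply h1
    have h2 : h0 * x⁻¹ * h0⁻¹ ∈ X := (mem_normalizer_iff.1 (hHX hh0) _).1 (X.inv_mem hx)
    have h3 : ⁅x, h0⁆ = x * (h0 * x⁻¹ * h0⁻¹) := by rw [commutatorElement_def]; group
    refine mem_inf.2 ⟨by rw [h3]; exact X.mul_mem hx h2, ?_⟩
    rw [mem_centralizer_iff]
    intro c hc
    have hc : c ∈ C := hc
    -- `h0 x⁻¹ h0⁻¹` acts on `C` as `x⁻¹`
    have h4 : x⁻¹ * c * x ∈ C := by
      have h5 : x⁻¹ * c * x = ⁅x⁻¹, c⁆ * c := by rw [commutatorElement_def]; group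
      rw [h5]
      exact C.mul_mem (hcomm _ (X.inv_mem hx) _ (hCX hc)) hc
    have h6 : h0 * c = c * h0 := ((hCmem c).1 hc).2 h0 hh0 hcop0
    have h7 : h0 * (x⁻¹ * c * x) = (x⁻¹ * c * x) * h0 := ((hCmem _).1 h4).2 h0 hh0 hcop0
    have h8 : h0⁻¹ * c = c * h0⁻¹ := (Commute.inv_left h6)
    rw [h3]
    have h9 : (h0 * x⁻¹ * h0⁻¹) * c = (x⁻¹ * c * x) * (h0 * x⁻¹ * h0⁻¹) := by
      calc (h0 * x⁻¹ * h0⁻¹) * c = h0 * x⁻¹ * (h0⁻¹ * c) := by group
        _ = h0 * x⁻¹ * (c * h0⁻¹) := by rw [h8]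
        _ = h0 * (x⁻¹ * c * x) * x⁻¹ * h0⁻¹ := by group
        _ = (x⁻¹ * c * x) * h0 * x⁻¹ * h0⁻¹ := by rw [h7]
        _ = (x⁻¹ * c * x) * (h0 * x⁻¹ * h0⁻¹) := by group
    calc c * (x * (h0 * x⁻¹ * h0⁻¹)) = x * ((x⁻¹ * c * x) * (h0 * x⁻¹ * h0⁻¹)) := by group
      _ = x * ((h0 * x⁻¹ * h0⁻¹) * c) := by rw [h9]
      _ = x * (h0 * x⁻¹ * h0⁻¹) * c := by group
  have hcent : ∀ x ∈ X, ∀ c ∈ C, x * c = c * x := by
    intro x hx c hc
    have h1 : x ∈ X0 := by rw [hX0]; exact hx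
    exact (mem_centralizer_iff.1 (mem_inf.1 h1).2 c hc).symm
  refine ⟨X, C, hXR, hCltX, hHX, hHC, hCmem, hcomm, hpow, hcent, ?_, h0, hh0, hcop0, ?_⟩
  · intro Z hCZ hZX hHZ
    by_cases hZ : Z = X
    · exact Or.inr hZ
    · exact Or.inl (le_antisymm (hleC Z (lt_of_le_of_ne hZX hZ) hHZ) hCZ)
  · intro hall
    apply hne0
    exact cent_of_series hXp hCX (hHX hh0) (fun c hc => ((hCmem c).1 hc).2 h0 hh0 hcop0) hcop0 hall x0 hx0

/-- the quadratic pair on the irreducible section -/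
theorem exists_uv (hp2 : p ≠ 2) {X C : Subgroup G} {a b : G} (hCX : C < X)
    (hHX : closure {a, b} ≤ normalizer (X : Set G)) (hHC : closure {a, b} ≤ normalizer (C : Set G))
    (hcomm : ∀ x ∈ X, ∀ y ∈ X, ⁅x, y⁆ ∈ C) (hpow : ∀ x ∈ X, x ^ p ∈ C) (hcent : ∀ x ∈ X, ∀ c ∈ C, x * c = c * x)
    (hirr : ∀ Z : Subgroup G, C ≤ Z → Z ≤ X → closure {a, b} ≤ normalizer (Z : Set G) → Z = C ∨ Z = X)
    (ha : ∀ x ∈ X, ⁅⁅x, a⁆, a⁆ ∈ C) (hb : ∀ x ∈ X, ⁅⁅x, b⁆, b⁆ ∈ C)
    (hact : ∃ h ∈ closure {a, b}, (orderOf h).Coprime p ∧ ¬ ∀ x ∈ X, ⁅x, h⁆ ∈ C) :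
    ∃ (W : Type u) (_ : AddCommGroup W) (_ : Module (ZMod p) W) (_ : Finite W) (π : X →* Multiplicative W)
      (ρ : (closure {a, b} : Subgroup G) →* Module.End (ZMod p) W), Function.Surjective π ∧
      (∀ x : X, π x = 1 ↔ (x : G) ∈ C) ∧
      (∀ (h : (closure {a, b} : Subgroup G)) (x : X),
        ρ h (Multiplicative.toAdd (π x)) = Multiplicative.toAdd (π (cj (hHX h.2) x))) ∧ Nontrivial W ∧
      ∃ u v : (closure {a, b} : Subgroup G), (ρ u - 1) * (ρ u - 1) = 0 ∧ (ρ v - 1) * (ρ v - 1) = 0 ∧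
        (ρ u - 1) * (ρ v - 1) + (ρ v - 1) * (ρ u - 1) = 1 := by
  classical
  set H : Subgroup G := closure {a, b} with hH
  have hXC : X ≤ normalizer (C : Set G) := by
    intro x hx
    rw [mem_normalizer_iff]
    intro c
    constructor
    · intro hc
      rw [hcent x hx c hc, mul_inv_cancel_right]; exact hc
    · intro hc
      have h1 := hcent x hx _ hc
      have h2 : c = x⁻¹ * (x * c * x⁻¹) * x := by group
      rw [h2]
      have h3 : x⁻¹ * (x * c * x⁻¹) = (x * c * x⁻¹) * x⁻¹ := hcent x⁻¹ (X.inv_mem hx) _ hc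
      rw [h3, inv_mul_cancel_right]; exact hc
  obtain ⟨W, i1, i2, i3, π, hπ, hker⟩ := exists_W (p := p) hCX.le hXC hcomm hpow
  have hkerH : ∀ (g : H) (x : X), π x = 1 → π (cj (hHX g.2) x) = 1 := by
    intro g x hx
    rw [hker] at hx ⊢
    rw [cj_val]
    exact (mem_normalizer_iff.1 (hHC g.2) _).1 hx
  obtain ⟨ρ, hρ⟩ := exists_rep (p := p) hHX π hπ hkerH
  have haH : a ∈ H := subset_closure (by simp)
  have hbH : b ∈ H := subset_closure (by simp)
  have hsurj : ∀ w : W, ∃ x : X, w = Multiplicative.toAdd (π x) := by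
    intro w
    obtain ⟨x, hx⟩ := hπ (Multiplicative.ofAdd w)
    exact ⟨x, by rw [hx]; rfl⟩
  have hquad : ∀ (c : G) (hc : c ∈ H), (∀ x ∈ X, ⁅⁅x, c⁆, c⁆ ∈ C) → (ρ ⟨c, hc⟩ - 1) * (ρ ⟨c, hc⟩ - 1) = 0 := by
    intro c hc hq
    apply LinearMap.ext
    intro w
    obtain ⟨x, rfl⟩ := hsurj w
    set x1 := cj (hHX hc) x with hx1
    set x2 := cj (hHX hc) x1 with hx2
    have h1 : ρ ⟨c, hc⟩ (Multiplicative.toAdd (π x)) = Multiplicative.toAdd (π x1) := hρ _ _
    have h2 : ρ ⟨c, hc⟩ (Multiplicative.toAdd (π x1)) = Multiplicative.toAdd (π x2) := hρ _ _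
    have h3 : π (x1 * x2⁻¹) = π (x * x1⁻¹) := by
      have h4 := hq x x.2
      have h6 : ((x * x1⁻¹ * (x1 * x2⁻¹)⁻¹ : X) : G) = ⁅⁅(x : G), c⁆, c⁆ := by
        simp only [Subgroup.coe_mul, Subgroup.coe_inv, hx2, cj_val, hx1, commutatorElement_def]
        group
      have h7 : π (x * x1⁻¹ * (x1 * x2⁻¹)⁻¹) = 1 := by
        rw [hker, h6]; exact h4
      rw [map_mul, map_inv π (x1 * x2⁻¹), mul_inv_eq_one] at h7
      exact h7.symm
    have h9 : Multiplicative.toAdd (π x1) - Multiplicative.toAdd (π x2) =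
        Multiplicative.toAdd (π x) - Multiplicative.toAdd (π x1) := by
      have := congrArg (fun y => Multiplicative.toAdd y) h3
      simpa [sub_eq_add_neg] using this
    have hsub : ∀ w, (ρ ⟨c, hc⟩ - 1) w = ρ ⟨c, hc⟩ w - w := fun w => rfl
    show (ρ ⟨c, hc⟩ - 1) ((ρ ⟨c, hc⟩ - 1) (Multiplicative.toAdd (π x))) = 0
    simp only [hsub, map_sub, h1, h2]
    have h10 : Multiplicative.toAdd (π x2) - Multiplicative.toAdd (π x1)
      - (Multiplicative.toAdd (π x1) - Multiplicative.toAdd (π x)) =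
      (Multiplicative.toAdd (π x) - Multiplicative.toAdd (π x1)) -
        (Multiplicative.toAdd (π x1) - Multiplicative.toAdd (π x2)) := by abel
    rw [h10, h9, sub_self]
  have hqa := hquad a haH ha
  have hqb := hquad b hbH hb
  have hgen : closure ({(⟨a, haH⟩ : H), ⟨b, hbH⟩} : Set H) = ⊤ := by
    apply Subgroup.map_injective H.subtype_injective
    rw [MonoidHom.map_closure, ← MonoidHom.range_eq_map, H.range_subtype]
    have hset : (H.subtype '' {(⟨a, haH⟩ : H), ⟨b, hbH⟩}) = {a, b} := by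
      rw [Set.image_pair]; rfl
    rw [hset]
  have hW : Nontrivial W := by
    obtain ⟨x, hx, hxY⟩ := SetLike.exists_of_lt hCX
    refine ⟨Multiplicative.toAdd (π ⟨x, hx⟩), 0, ?_⟩
    intro e
    apply hxY
    rw [← hker ⟨x, hx⟩]
    exact congrArg Multiplicative.ofAdd e
  have hirr' : ∀ U : Submodule (ZMod p) W, (∀ g : H, ∀ w ∈ U, ρ g w ∈ U) → U = ⊥ ∨ U = ⊤ := by
    intro U hU
    let Z : Subgroup G :=
      { carrier := {x | ∃ hx : x ∈ X, Multiplicative.toAdd (π ⟨x, hx⟩) ∈ U}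
        one_mem' := ⟨one_mem _, by
          have : (⟨1, one_mem X⟩ : X) = 1 := rfl
          rw [this, map_one]; exact U.zero_mem⟩
        mul_mem' := by
          rintro x y ⟨hx, hx'⟩ ⟨hy, hy'⟩
          refine ⟨mul_mem hx hy, ?_⟩
          have : (⟨x * y, mul_mem hx hy⟩ : X) = ⟨x, hx⟩ * ⟨y, hy⟩ := rfl
          rw [this, map_mul]
          exact U.add_mem hx' hy'
        inv_mem' := by
          rintro x ⟨hx, hx'⟩
          refine ⟨inv_mem hx, ?_⟩
          have : (⟨x⁻¹, inv_mem hx⟩ : X) = (⟨x, hx⟩ : X)⁻¹ := rfl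
          rw [this, map_inv]
          exact U.neg_mem hx' }
    have hZ : ∀ x : X, (x : G) ∈ Z ↔ Multiplicative.toAdd (π x) ∈ U := by
      intro x
      constructor
      · rintro ⟨_, h⟩; exact h
      · intro h; exact ⟨x.2, h⟩
    have hYZ : C ≤ Z := by
      intro y hy
      have h1 := (hker ⟨y, hCX.le hy⟩).2 hy
      refine ⟨hCX.le hy, ?_⟩
      rw [h1]; exact U.zero_mem
    have hZX : Z ≤ X := by rintro x ⟨hx, _⟩; exact hx
    have hHZ : H ≤ normalizer (Z : Set G) := by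
      have key : ∀ g ∈ H, ∀ z ∈ Z, g * z * g⁻¹ ∈ Z := by
        rintro g hg z ⟨hz, hz'⟩
        have h1 := hU ⟨g, hg⟩ _ hz'
        rw [hρ] at h1
        exact ⟨_, h1⟩
      intro g hg
      rw [mem_normalizer_iff]
      intro z
      refine ⟨key g hg z, fun hz => ?_⟩
      have h1 := key g⁻¹ (inv_mem hg) _ hz
      have h2 : g⁻¹ * (g * z * g⁻¹) * g⁻¹⁻¹ = z := by group
      rwa [h2] at h1
    rcases hirr Z hYZ hZX hHZ with e | e
    · left
      rw [eq_bot_iff]
      intro w hw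
      obtain ⟨x, rfl⟩ := hsurj w
      rw [← hZ, e, ← hker] at hw
      rw [Submodule.mem_bot, hw]; rfl
    · right
      rw [eq_top_iff]
      intro w _
      obtain ⟨x, rfl⟩ := hsurj w
      rw [← hZ, e]
      exact x.2
  obtain ⟨h, hh, hcop, hact⟩ := hact
  have hne' : ρ ⟨a, haH⟩ * ρ ⟨b, hbH⟩ ≠ ρ ⟨b, hbH⟩ * ρ ⟨a, haH⟩ := by
    intro e
    have hcharp : CharP (Module.End (ZMod p) W) p := by
      have h1 : CharP (ZMod p) p := inferInstance
      exact charP_of_injective_algebraMap (algebraMap (ZMod p) (Module.End (ZMod p) W)).injective p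
    have hpa : ∀ (c : H), (ρ c - 1) * (ρ c - 1) = 0 → ρ c ^ p = 1 := by
      intro c hc
      have h1 : (ρ c - 1) ^ p = 0 := by
        exact pow_eq_zero_of_le hp.out.two_le (by rw [sq]; exact hc)
      rw [sub_pow_char_of_commute _ (Commute.one_right _), one_pow] at h1
      exact sub_eq_zero.1 h1
    have hcen : ∀ g k : H, ρ g * ρ k = ρ k * ρ g := by
      have h1 : ∀ g : H, ρ g * ρ ⟨a, haH⟩ = ρ ⟨a, haH⟩ * ρ g := by
        intro g
        have hg : g ∈ closure ({(⟨a, haH⟩ : H), ⟨b, hbH⟩} : Set H) := by rw [hgen]; trivial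
        induction hg using closure_induction with
        | mem x hx =>
          rcases hx with rfl | hx
          · rfl
          · rw [Set.mem_singleton_iff.1 hx]; exact e.symm
        | one => rw [map_one, one_mul, mul_one]
        | mul x y _ _ hx hy => rw [map_mul, mul_assoc, hy, ← mul_assoc, hx, mul_assoc]
        | inv x _ hx =>
          have e1 : ρ x⁻¹ * ρ x = 1 := by rw [← map_mul, inv_mul_cancel, map_one]
          have e2 : ρ x * ρ x⁻¹ = 1 := by rw [← map_mul, mul_inv_cancel, map_one]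
          calc ρ x⁻¹ * ρ ⟨a, haH⟩ = ρ x⁻¹ * (ρ ⟨a, haH⟩ * (ρ x * ρ x⁻¹)) := by rw [e2, mul_one]
            _ = ρ x⁻¹ * (ρ x * ρ ⟨a, haH⟩) * ρ x⁻¹ := by rw [hx]; simp only [mul_assoc]
            _ = ρ ⟨a, haH⟩ * ρ x⁻¹ := by rw [← mul_assoc, e1, one_mul]
      have h2 : ∀ g : H, ρ g * ρ ⟨b, hbH⟩ = ρ ⟨b, hbH⟩ * ρ g := by
        intro g
        have hg : g ∈ closure ({(⟨a, haH⟩ : H), ⟨b, hbH⟩} : Set H) := by rw [hgen]; trivial
        induction hg using closure_induction with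
        | mem x hx =>
          rcases hx with rfl | hx
          · exact e
          · rw [Set.mem_singleton_iff.1 hx]
        | one => rw [map_one, one_mul, mul_one]
        | mul x y _ _ hx hy => rw [map_mul, mul_assoc, hy, ← mul_assoc, hx, mul_assoc]
        | inv x _ hx =>
          have e1 : ρ x⁻¹ * ρ x = 1 := by rw [← map_mul, inv_mul_cancel, map_one]
          have e2 : ρ x * ρ x⁻¹ = 1 := by rw [← map_mul, mul_inv_cancel, map_one]
          calc ρ x⁻¹ * ρ ⟨b, hbH⟩ = ρ x⁻¹ * (ρ ⟨b, hbH⟩ * (ρ x * ρ x⁻¹)) := by rw [e2, mul_one]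
            _ = ρ x⁻¹ * (ρ x * ρ ⟨b, hbH⟩) * ρ x⁻¹ := by rw [hx]; simp only [mul_assoc]
            _ = ρ ⟨b, hbH⟩ * ρ x⁻¹ := by rw [← mul_assoc, e1, one_mul]
      intro g k
      have hk : k ∈ closure ({(⟨a, haH⟩ : H), ⟨b, hbH⟩} : Set H) := by rw [hgen]; trivial
      induction hk using closure_induction with
      | mem x hx =>
        rcases hx with rfl | hx
        · exact h1 g
        · rw [Set.mem_singleton_iff.1 hx]; exact h2 g
      | one => rw [map_one, one_mul, mul_one]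
      | mul x y _ _ hx hy => rw [map_mul, ← mul_assoc, hx, mul_assoc, hy, mul_assoc]
      | inv x _ hx =>
        have e1 : ρ x⁻¹ * ρ x = 1 := by rw [← map_mul, inv_mul_cancel, map_one]
        have e2 : ρ x * ρ x⁻¹ = 1 := by rw [← map_mul, mul_inv_cancel, map_one]
        calc ρ g * ρ x⁻¹ = ρ x⁻¹ * (ρ x * ρ g) * ρ x⁻¹ := by rw [← mul_assoc, e1, one_mul]
          _ = ρ x⁻¹ * ρ g * (ρ x * ρ x⁻¹) := by rw [← hx]; simp only [mul_assoc]
          _ = ρ x⁻¹ * ρ g := by rw [e2, mul_one]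
    have hexp : ∀ g : H, ρ g ^ p = 1 := by
      intro g
      have hg : g ∈ closure ({(⟨a, haH⟩ : H), ⟨b, hbH⟩} : Set H) := by rw [hgen]; trivial
      induction hg using closure_induction with
      | mem x hx =>
        rcases hx with rfl | hx
        · exact hpa _ hqa
        · rw [Set.mem_singleton_iff.1 hx]; exact hpa _ hqb
      | one => rw [map_one, one_pow]
      | mul x y _ _ hx hy =>
        have h3 : Commute (ρ x) (ρ y) := hcen x y
        rw [map_mul, h3.mul_pow, hx, hy, one_mul]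
      | inv x _ hx =>
        have h3 : Commute (ρ x) (ρ x⁻¹) := hcen x x⁻¹
        have h4 : (ρ x * ρ x⁻¹) ^ p = 1 := by rw [← map_mul, mul_inv_cancel, map_one, one_pow]
        rw [h3.mul_pow, hx, one_mul] at h4
        exact h4
    have hρh : ρ ⟨h, hh⟩ = 1 := by
      have h3 : ρ ⟨h, hh⟩ ^ orderOf h = 1 := by
        rw [← map_pow]
        have : (⟨h, hh⟩ : H) ^ orderOf h = 1 := by
          apply Subtype.ext
          show h ^ orderOf h = 1
          exact pow_orderOf_eq_one h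
        rw [this, map_one]
      have h4 := hexp ⟨h, hh⟩
      have h5 : orderOf (ρ ⟨h, hh⟩) ∣ orderOf h := orderOf_dvd_of_pow_eq_one h3
      have h6 : orderOf (ρ ⟨h, hh⟩) ∣ p := orderOf_dvd_of_pow_eq_one h4
      have h7 := Nat.eq_one_of_dvd_coprimes hcop h5 h6
      rwa [orderOf_eq_one_iff] at h7
    apply hact
    intro x hx
    have h3 : ρ ⟨h, hh⟩ (Multiplicative.toAdd (π ⟨x, hx⟩)) = Multiplicative.toAdd (π ⟨x, hx⟩) := by
      rw [hρh]; rfl
    rw [hρ] at h3
    have h4 : π (cj (hHX hh) ⟨x, hx⟩) = π ⟨x, hx⟩ := h3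
    have h5 : π (⟨x, hx⟩ * (cj (hHX hh) ⟨x, hx⟩)⁻¹) = 1 := by
      rw [map_mul, map_inv, h4, mul_inv_cancel]
    rw [hker] at h5
    have h6 : ((⟨x, hx⟩ * (cj (hHX hh) ⟨x, hx⟩)⁻¹ : X) : G) = ⁅x, h⁆ := by
      rw [commutatorElement_def]
      simp only [Subgroup.coe_mul, Subgroup.coe_inv, cj_val]
      group
    rwa [h6] at h5
  obtain ⟨u, v, hu, hv, huv⟩ := QuadModule.main hp2 ρ _ _ hgen hqa hqb hirr' hne'
  exact ⟨W, i1, i2, i3, π, ρ, hπ, hker, hρ, hW, u, v, hu, hv, huv⟩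

end Cfsg.Agent.Lib.StabQuotAlg
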