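import Cfsg.Agent.Lib.StabQuotAlg

/-!
# Quadratic action modulo a subgroup centralized by all `p'`-elements, II (helper73)
-/

set_option autoImplicit false
set_option linter.unusedSectionVars false

namespace Cfsg.Agent.Lib.StabQuotAlg

open Subgroup Cfsg.Agent.Lib.QuadSection
open scoped commutatorElement

universe u

variable {G : Type u} [Group G] [Finite G] {p : ℕ} [hp : Fact p.Prime]

/-- the algebra of a quadratic pair -/
theorem alg_uv {A : Type*} [Ring A] {U V : A} (hU : U * U = 0) (hV : V * V = 0) (h : U * V + V * U = 1) :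
    (1 + U) * (1 - V) * (1 + U) = U - V ∧ (U - V) * (U - V) = -1 := by
  have h1 : U * V * U = U := by
    have h2 : (U * V + V * U) * U = U := by rw [h, one_mul]
    rw [add_mul, mul_assoc V U U, hU, mul_zero, add_zero] at h2
    exact h2
  constructor
  · have h2 : (1 + U) * (1 - V) * (1 + U) = 1 + U + U + U * U - V - (U * V + V * U) - U * V * U := by noncomm_ring
    rw [h2, hU, h, h1]; abel
  · have h2 : (U - V) * (U - V) = U * U - (U * V + V * U) + V * V := by noncomm_ring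
    rw [h2, hU, hV, h]; abel

/-- the set-up after `exists_min` and `exists_uv` -/
structure Conf (p : ℕ) [Fact p.Prime] (H X C : Subgroup G) (W : Type u) [AddCommGroup W] [Module (ZMod p) W] where
  pg : IsPGroup p X
  lt : C < X
  nX : H ≤ normalizer (X : Set G)
  nC : H ≤ normalizer (C : Set G)
  comm : ∀ x ∈ X, ∀ y ∈ X, ⁅x, y⁆ ∈ C
  cent : ∀ x ∈ X, ∀ c ∈ C, x * c = c * x
  pcent : ∀ h ∈ H, (orderOf h).Coprime p → ∀ c ∈ C, h * c = c * h
  π : X →* Multiplicative W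
  ρ : H →* Module.End (ZMod p) W
  surj : Function.Surjective π
  ker : ∀ x : X, π x = 1 ↔ (x : G) ∈ C
  act : ∀ (h : H) (x : X), ρ h (Multiplicative.toAdd (π x)) = Multiplicative.toAdd (π (cj (nX h.2) x))

variable {H X C : Subgroup G} {W : Type u} [AddCommGroup W] [Module (ZMod p) W]

theorem Conf.comm_mem_of_one (h : Conf p H X C W) {s : H} (hs : h.ρ s = 1) : ∀ x ∈ X, ⁅x, (s : G)⁆ ∈ C := by
  intro x hx
  have h3 : h.ρ s (Multiplicative.toAdd (h.π ⟨x, hx⟩)) = Multiplicative.toAdd (h.π ⟨x, hx⟩) := by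
    rw [hs]; rfl
  rw [h.act] at h3
  have h4 : h.π (cj (h.nX s.2) ⟨x, hx⟩) = h.π ⟨x, hx⟩ := h3
  have h5 : h.π (⟨x, hx⟩ * (cj (h.nX s.2) ⟨x, hx⟩)⁻¹) = 1 := by
    rw [map_mul, map_inv, h4, mul_inv_cancel]
  rw [h.ker] at h5
  have h6 : ((⟨x, hx⟩ * (cj (h.nX s.2) ⟨x, hx⟩)⁻¹ : X) : G) = ⁅x, (s : G)⁆ := by
    rw [commutatorElement_def]
    simp only [Subgroup.coe_mul, Subgroup.coe_inv, cj_val]
    group
  rwa [h6] at h5

/-- an element acting as `-1` and commuting (on `X`) with lifts of everything -/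
theorem Conf.exists_t (hp2 : p ≠ 2) (h : Conf p H X C W) {u v : H}
    (hu : (h.ρ u - 1) * (h.ρ u - 1) = 0) (hv : (h.ρ v - 1) * (h.ρ v - 1) = 0)
    (huv : (h.ρ u - 1) * (h.ρ v - 1) + (h.ρ v - 1) * (h.ρ u - 1) = 1) :
    ∃ t : H, h.ρ t = -1 ∧ (∀ c ∈ C, (t : G) * c = c * t) ∧
      ∀ g : H, ∃ m : H, h.ρ m = h.ρ g ∧ ∀ x ∈ X, ((m : G) * t * (m : G)⁻¹) * x * ((m : G) * t * (m : G)⁻¹)⁻¹ = t * x * (t : G)⁻¹ := by
  classical
  have : Fact (Nat.Prime 2) := ⟨Nat.prime_two⟩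
  have hpodd : Odd p := hp.out.odd_of_ne_two hp2
  -- `-1`
  set U := h.ρ u - 1 with hUd
  set V := h.ρ v - 1 with hVd
  obtain ⟨hA1, hA2⟩ := alg_uv hu hv huv
  have hρu : h.ρ u = 1 + U := by rw [hUd]; abel
  have hρv : h.ρ v = 1 + V := by rw [hVd]; abel
  have hρv' : h.ρ v⁻¹ = 1 - V := by
    have h1 : h.ρ v⁻¹ * h.ρ v = 1 := by rw [← map_mul, inv_mul_cancel, map_one]
    have h2 : (1 + V) * (1 - V) = 1 := by
      have : (1 + V) * (1 - V) = 1 - V * V := by noncomm_ring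
      rw [this, hv, sub_zero]
    calc h.ρ v⁻¹ = h.ρ v⁻¹ * (h.ρ v * (1 - V)) := by rw [hρv, h2, mul_one]
      _ = (h.ρ v⁻¹ * h.ρ v) * (1 - V) := by rw [mul_assoc]
      _ = 1 - V := by rw [h1, one_mul]
  set z0 : H := (u * v⁻¹ * u) ^ 2 with hz0
  have hρz0 : h.ρ z0 = -1 := by
    rw [hz0, map_pow, map_mul, map_mul, hρu, hρv', hA1, pow_two, hA2]
  have hN : orderOf z0 ≠ 0 := (orderOf_pos z0).ne'
  obtain ⟨j, s, hs, hNs⟩ := Nat.exists_eq_two_pow_mul_odd hN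
  set t : H := z0 ^ s with ht
  have hρt : h.ρ t = -1 := by rw [ht, map_pow, hρz0, hs.neg_one_pow]
  have htpow : t ^ (2 ^ j) = 1 := by
    rw [ht, ← pow_mul, mul_comm, ← hNs, pow_orderOf_eq_one]
  have hcop2 : ∀ g : H, (∃ i, g ^ (2 ^ i) = 1) → (orderOf (g : G)).Coprime p := by
    rintro g ⟨i, hi⟩
    have h1 : orderOf (g : G) ∣ 2 ^ i := by
      rw [Subgroup.orderOf_coe]; exact orderOf_dvd_of_pow_eq_one hi
    refine Nat.Coprime.coprime_dvd_left h1 (Nat.Coprime.pow_left i ?_)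
    exact (Nat.coprime_primes Nat.prime_two hp.out).2 (Ne.symm hp2)
  have htC : ∀ c ∈ C, (t : G) * c = c * t := h.pcent t t.2 (hcop2 t ⟨j, htpow⟩)
  -- the normal subgroup
  let Z : Subgroup H :=
    { carrier := {g | (h.ρ g = 1 ∨ h.ρ g = -1) ∧ ∀ c ∈ C, (g : G) * c = c * g}
      one_mem' := ⟨Or.inl (map_one _), fun c _ => by rw [OneMemClass.coe_one, one_mul, mul_one]⟩
      mul_mem' := by
        rintro x y ⟨h1, h2⟩ ⟨h3, h4⟩
        refine ⟨?_, fun c hc => ?_⟩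
        · rw [map_mul]
          rcases h1 with h1 | h1 <;> rcases h3 with h3 | h3 <;> rw [h1, h3] <;> simp
        · rw [Subgroup.coe_mul, mul_assoc, h4 c hc, ← mul_assoc, h2 c hc, mul_assoc]
      inv_mem' := by
        rintro x ⟨h1, h2⟩
        refine ⟨?_, fun c hc => ?_⟩
        · have h3 : h.ρ x⁻¹ * h.ρ x = 1 := by rw [← map_mul, inv_mul_cancel, map_one]
          rcases h1 with h1 | h1
          · left; rw [h1, mul_one] at h3; exact h3
          · right; rw [h1, mul_neg, mul_one] at h3; exact neg_eq_iff_eq_neg.1 h3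
        · rw [Subgroup.coe_inv]
          exact (Commute.inv_left (h2 c hc)) }
  have hZmem : ∀ g : H, g ∈ Z ↔ (h.ρ g = 1 ∨ h.ρ g = -1) ∧ ∀ c ∈ C, (g : G) * c = c * g := fun g => Iff.rfl
  have hZn : Z.Normal := by
    constructor
    intro z hz g
    obtain ⟨h1, h2⟩ := (hZmem z).1 hz
    refine (hZmem _).2 ⟨?_, fun c hc => ?_⟩
    · have h3 : h.ρ g * h.ρ g⁻¹ = 1 := by rw [← map_mul, mul_inv_cancel, map_one]
      rw [map_mul, map_mul]
      rcases h1 with h1 | h1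
      · left; rw [h1, mul_one, h3]
      · right; rw [h1, mul_neg, mul_one, neg_mul, h3]
    · have h3 : (g : G)⁻¹ * c * g ∈ C := by
        have := (mem_normalizer_iff.1 (h.nC (H.inv_mem g.2)) c).1 hc
        rwa [inv_inv] at this
      have h4 := h2 _ h3
      show (g : G) * z * (g : G)⁻¹ * c = c * ((g : G) * z * (g : G)⁻¹)
      calc (g : G) * z * (g : G)⁻¹ * c = (g : G) * (z * ((g : G)⁻¹ * c * g)) * (g : G)⁻¹ := by group
        _ = (g : G) * (((g : G)⁻¹ * c * g) * z) * (g : G)⁻¹ := by rw [h4]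
        _ = c * ((g : G) * z * (g : G)⁻¹) := by group
  have htZ : t ∈ Z := (hZmem t).2 ⟨Or.inr hρt, htC⟩
  have h2g : IsPGroup 2 (zpowers (⟨t, htZ⟩ : Z)) := by
    rw [IsPGroup.iff_card, Nat.card_zpowers]
    have h1 : orderOf (⟨t, htZ⟩ : Z) ∣ 2 ^ j := by
      apply orderOf_dvd_of_pow_eq_one
      exact Subtype.ext htpow
    obtain ⟨i, -, hi⟩ := (Nat.dvd_prime_pow Nat.prime_two).1 h1
    exact ⟨i, hi⟩
  obtain ⟨T0, hT0⟩ := h2g.exists_le_sylow
  let T : Subgroup H := (T0 : Subgroup Z).map Z.subtype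
  have htT : t ∈ T := ⟨⟨t, htZ⟩, hT0 (mem_zpowers _), rfl⟩
  have hTp : IsPGroup 2 T := T0.isPGroup'.map _
  have hTZ : ∀ g ∈ T, g ∈ Z := by rintro _ ⟨y, _, rfl⟩; exact y.2
  have hfrat : normalizer (T : Set H) ⊔ Z = ⊤ := Sylow.normalizer_sup_eq_top T0
  refine ⟨t, hρt, htC, fun g => ?_⟩
  have hg : g ∈ normalizer (T : Set H) ⊔ Z := by rw [hfrat]; trivial
  rw [← SetLike.mem_coe, Subgroup.mul_normal] at hg
  obtain ⟨m', hm', z, hz, rfl⟩ := hg
  have hz : z ∈ Z := hz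
  have hm' : m' ∈ normalizer (T : Set H) := hm'
  obtain ⟨m, hm, hρm⟩ : ∃ m ∈ normalizer (T : Set H), h.ρ m = h.ρ (m' * z) := by
    rcases ((hZmem z).1 hz).1 with h1 | h1
    · exact ⟨m', hm', by rw [map_mul, h1, mul_one]⟩
    · exact ⟨m' * t, mul_mem hm' (le_normalizer htT), by rw [map_mul, map_mul, h1, hρt]⟩
  refine ⟨m, hρm, ?_⟩
  -- `s = [m, t]`
  set w : H := m * t * m⁻¹ * t⁻¹ with hw
  have hwT : w ∈ T := T.mul_mem ((mem_normalizer_iff.1 hm t).1 htT) (T.inv_mem htT)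
  have hρw : h.ρ w = 1 := by
    have h3 : h.ρ m * h.ρ m⁻¹ = 1 := by rw [← map_mul, mul_inv_cancel, map_one]
    have h4 : h.ρ t * h.ρ t⁻¹ = 1 := by rw [← map_mul, mul_inv_cancel, map_one]
    rw [hw, map_mul, map_mul, map_mul]
    rw [hρt, mul_neg, mul_one, neg_mul, h3, ← hρt, h4]
  have hwo : ∃ i, w ^ (2 ^ i) = 1 := by
    obtain ⟨i, hi⟩ := hTp ⟨w, hwT⟩
    exact ⟨i, congrArg Subtype.val hi⟩
  have hwX : ∀ x ∈ X, (w : G) * x = x * w :=
    cent_of_series h.pg h.lt.le (h.nX w.2) ((hZmem w).1 (hTZ w hwT)).2 (hcop2 w hwo) (h.comm_mem_of_one hρw)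
  intro x hx
  have h1 : (m : G) * t * (m : G)⁻¹ = w * t := by
    rw [hw]; push_cast; group
  have h2 : (t : G) * x * (t : G)⁻¹ ∈ X := (mem_normalizer_iff.1 (h.nX t.2) x).1 hx
  rw [h1]
  calc (w : G) * t * x * ((w : G) * t)⁻¹ = w * ((t : G) * x * (t : G)⁻¹) * (w : G)⁻¹ := by group
    _ = ((t : G) * x * (t : G)⁻¹) * w * (w : G)⁻¹ := by rw [hwX _ h2]
    _ = (t : G) * x * (t : G)⁻¹ := by group

theorem mem_normalizer_closure {s : Set G} {g : G} (hs : ∀ x ∈ s, g * x * g⁻¹ ∈ closure s) :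
    g ∈ normalizer (closure s : Set G) := by
  have h1 : (closure s).map (MulAut.conj g).toMonoidHom ≤ closure s := by
    rw [MonoidHom.map_closure, closure_le]
    rintro _ ⟨x, hx, rfl⟩
    exact hs x hx
  have h2 : (closure s).map (MulAut.conj g).toMonoidHom = closure s := by
    apply Subgroup.eq_of_le_of_card_ge h1
    rw [Subgroup.card_map_of_injective (MulAut.conj g).injective]
  rw [RelSylow.mem_normalizer_iff_map]
  exact h2

theorem odd_order {X : Subgroup G} (hp2 : p ≠ 2) (hX : IsPGroup p X) {c : G} (hc : c ∈ X) : ∃ l, orderOf c = 2 * l + 1 := by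
  obtain ⟨k, hk⟩ := (IsPGroup.iff_orderOf.1 hX) ⟨c, hc⟩
  have h1 : orderOf c = p ^ k := by rw [← hk, ← Subgroup.orderOf_coe]
  have h2 : Odd (orderOf c) := by rw [h1]; exact (hp.out.odd_of_ne_two hp2).pow
  exact h2

theorem mem_of_sq {X : Subgroup G} (hp2 : p ≠ 2) (hX : IsPGroup p X) {c d : G} (hc : c ∈ X) (h : c * c = d) :
    c ∈ zpowers d := by
  obtain ⟨l, hl⟩ := odd_order hp2 hX hc
  have h1 : c = d ^ (l + 1) := by
    rw [← h, ← pow_two, ← pow_mul]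
    have h2 : 2 * (l + 1) = orderOf c + 1 := by omega
    rw [h2, pow_succ, pow_orderOf_eq_one, one_mul]
  have h3 : d ^ (l + 1) ∈ zpowers d := pow_mem (mem_zpowers d) _
  rwa [← h1] at h3

theorem Conf.main (hp2 : p ≠ 2) (h : Conf p H X C W) (hW : Nontrivial W) {u v : H}
    (hu : (h.ρ u - 1) * (h.ρ u - 1) = 0) (hv : (h.ρ v - 1) * (h.ρ v - 1) = 0)
    (huv : (h.ρ u - 1) * (h.ρ v - 1) + (h.ρ v - 1) * (h.ρ u - 1) = 1) :
    ∃ (Y : Subgroup G) (m n : G), Y ≤ X ∧ m ∈ H ∧ n ∈ H ∧ m ∈ normalizer (Y : Set G) ∧ n ∈ normalizer (Y : Set G) ∧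
      (∀ x ∈ Y, m * (x⁻¹ * (m * x * m⁻¹)) * m⁻¹ = x⁻¹ * (m * x * m⁻¹)) ∧
      ∀ k, ∃ x ∈ Y, (m * n * m * n⁻¹) ^ (p ^ k) * x * ((m * n * m * n⁻¹) ^ (p ^ k))⁻¹ ≠ x := by
  classical
  have hpodd : Odd p := hp.out.odd_of_ne_two hp2
  obtain ⟨t, hρt, htC, hlift⟩ := h.exists_t hp2 hu hv huv
  obtain ⟨m, hρm, hmt⟩ := hlift u
  obtain ⟨n, hρn, hnt⟩ := hlift v
  set U := h.ρ u - 1 with hUd
  set V := h.ρ v - 1 with hVd
  have hUU : ∀ w, U (U w) = 0 := fun w => congrArg (fun f : Module.End (ZMod p) W => f w) hu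
  have hVV : ∀ w, V (V w) = 0 := fun w => congrArg (fun f : Module.End (ZMod p) W => f w) hv
  have hUV : ∀ w, U (V w) + V (U w) = w := fun w => congrArg (fun f : Module.End (ZMod p) W => f w) huv
  have hρu : ∀ w, h.ρ m w = w + U w := by
    intro w
    have : h.ρ m = 1 + U := by rw [hρm, hUd]; abel
    rw [this]; rfl
  have hρv : ∀ w, h.ρ n w = w + V w := by
    intro w
    have : h.ρ n = 1 + V := by rw [hρn, hVd]; abel
    rw [this]; rfl
  have hρv' : ∀ w, h.ρ n⁻¹ w = w - V w := by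
    intro w
    have h1 : h.ρ n⁻¹ * h.ρ n = 1 := by rw [← map_mul, inv_mul_cancel, map_one]
    have h2 : h.ρ n (w - V w) = w := by
      rw [hρv, map_sub, hVV]; abel
    have h3 : h.ρ n⁻¹ (h.ρ n (w - V w)) = w - V w := congrArg (fun f : Module.End (ZMod p) W => f (w - V w)) h1
    rw [h2] at h3; exact h3
  obtain ⟨w, hw, hUw⟩ : ∃ w, w ≠ 0 ∧ U w = 0 := by
    obtain ⟨z, hz⟩ := exists_ne (0 : W)
    by_cases hUz : U z = 0
    · exact ⟨z, hz, hUz⟩
    · exact ⟨U z, hUz, hUU z⟩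
  set w1 := V w with hw1
  have hUw1 : U w1 = w := by
    have := hUV w
    rw [hUw, map_zero, add_zero] at this
    exact this
  have hVw1 : V w1 = 0 := hVV w
  -- the action of the group on classes
  have hP : ∀ (g : H) (x : G) (hx : x ∈ X) (hgx : (g : G) * x * (g : G)⁻¹ ∈ X),
      Multiplicative.toAdd (h.π ⟨(g : G) * x * (g : G)⁻¹, hgx⟩) = h.ρ g (Multiplicative.toAdd (h.π ⟨x, hx⟩)) := by
    intro g x hx hgx
    rw [h.act]; rfl
  have hconj : ∀ (g : H) {x : G}, x ∈ X → (g : G) * x * (g : G)⁻¹ ∈ X :=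
    fun g x hx => (mem_normalizer_iff.1 (h.nX g.2) x).1 hx
  have hdiff : ∀ {x y : G} (hx : x ∈ X) (hy : y ∈ X), h.π ⟨x, hx⟩ = h.π ⟨y, hy⟩ → x⁻¹ * y ∈ C := by
    intro x y hx hy hxy
    have h1 : h.π ((⟨x, hx⟩ : X)⁻¹ * ⟨y, hy⟩) = 1 := by rw [map_mul, map_inv, hxy, inv_mul_cancel]
    rw [h.ker] at h1
    exact h1
  -- inverted elements
  have hinvuniq : ∀ {e e' : G}, e ∈ X → e' ∈ X → (t : G) * e * (t : G)⁻¹ = e⁻¹ → (t : G) * e' * (t : G)⁻¹ = e'⁻¹ →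
      e⁻¹ * e' ∈ C → e = e' := by
    intro e e' he he' hte hte' hc
    set c := e⁻¹ * e' with hcd
    have he'c : e' = e * c := by rw [hcd]; group
    have h1 : (t : G) * c * (t : G)⁻¹ = c := by rw [htC c hc, mul_inv_cancel_right]
    have h2 : (t : G) * e' * (t : G)⁻¹ = e⁻¹ * c := by
      rw [he'c]
      calc (t : G) * (e * c) * (t : G)⁻¹ = ((t : G) * e * (t : G)⁻¹) * ((t : G) * c * (t : G)⁻¹) := by group
        _ = e⁻¹ * c := by rw [hte, h1]
    rw [h2, he'c, mul_inv_rev] at hte'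
    have h3 : e⁻¹ * c⁻¹ = c⁻¹ * e⁻¹ := h.cent _ (X.inv_mem he) _ (C.inv_mem hc)
    rw [← h3] at hte'
    have h4 : c = c⁻¹ := mul_left_cancel hte'
    have h5 : c * c = 1 := by nth_rw 2 [h4]; exact mul_inv_cancel c
    have h6 : c ∈ zpowers (1 : G) := mem_of_sq hp2 h.pg (h.lt.le hc) h5
    rw [zpowers_one_eq_bot, mem_bot] at h6
    rw [he'c, h6, mul_one]
  have hinvex : ∀ w : W, ∃ e, ∃ he : e ∈ X, (t : G) * e * (t : G)⁻¹ = e⁻¹ ∧ Multiplicative.toAdd (h.π ⟨e, he⟩) = w := by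
    intro w
    obtain ⟨⟨x, hx⟩, hxw⟩ := h.surj (Multiplicative.ofAdd w)
    have htx := hconj t hx
    have h1 : h.π ⟨x⁻¹, X.inv_mem hx⟩ = h.π ⟨(t : G) * x * (t : G)⁻¹, htx⟩ := by
      apply Multiplicative.toAdd.injective
      rw [hP t x hx htx, hρt]
      have h2 : h.π ⟨x⁻¹, X.inv_mem hx⟩ = (h.π ⟨x, hx⟩)⁻¹ := by rw [← map_inv]; rfl
      rw [h2]; rfl
    have hc0 := hdiff (X.inv_mem hx) htx h1
    rw [inv_inv] at hc0
    set c0 := x * ((t : G) * x * (t : G)⁻¹) with hc0d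
    obtain ⟨l, hl⟩ := odd_order hp2 h.pg (h.lt.le hc0)
    have hcl : c0 ^ l ∈ C := C.pow_mem hc0 l
    have h2 : c0 ^ l * c0 ^ l = c0⁻¹ := by
      rw [← pow_add, eq_inv_iff_mul_eq_one, ← pow_succ]
      have : l + l + 1 = orderOf c0 := by omega
      rw [this, pow_orderOf_eq_one]
    refine ⟨x * c0 ^ l, X.mul_mem hx (h.lt.le hcl), ?_, ?_⟩
    · have h3 : (t : G) * c0 ^ l * (t : G)⁻¹ = c0 ^ l := by rw [htC _ hcl, mul_inv_cancel_right]
      have h4 : (t : G) * x * (t : G)⁻¹ = x⁻¹ * c0 := by rw [hc0d]; group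
      calc (t : G) * (x * c0 ^ l) * (t : G)⁻¹ = ((t : G) * x * (t : G)⁻¹) * ((t : G) * c0 ^ l * (t : G)⁻¹) := by group
        _ = x⁻¹ * c0 * c0 ^ l := by rw [h3, h4]
        _ = x⁻¹ * (c0 ^ l)⁻¹ := by
            rw [mul_assoc]
            congr 1
            rw [eq_inv_iff_mul_eq_one, mul_assoc, h2, mul_inv_cancel]
        _ = (c0 ^ l)⁻¹ * x⁻¹ := h.cent _ (X.inv_mem hx) _ (C.inv_mem hcl)
        _ = (x * c0 ^ l)⁻¹ := by rw [mul_inv_rev]
    · have h5 : h.π ⟨x * c0 ^ l, X.mul_mem hx (h.lt.le hcl)⟩ = h.π ⟨x, hx⟩ * h.π ⟨c0 ^ l, h.lt.le hcl⟩ := by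
        rw [← map_mul]; rfl
      have h6 : h.π ⟨c0 ^ l, h.lt.le hcl⟩ = 1 := (h.ker _).2 hcl
      rw [h5, h6, mul_one, hxw]; rfl
  have hinvconj : ∀ (g : H), (∀ x ∈ X, ((g : G) * t * (g : G)⁻¹) * x * ((g : G) * t * (g : G)⁻¹)⁻¹ = t * x * (t : G)⁻¹) →
      ∀ {e : G}, e ∈ X → (t : G) * e * (t : G)⁻¹ = e⁻¹ →
      (t : G) * ((g : G) * e * (g : G)⁻¹) * (t : G)⁻¹ = ((g : G) * e * (g : G)⁻¹)⁻¹ := by
    intro g hg e he hte
    rw [← hg _ (hconj g he)]
    calc (g : G) * t * (g : G)⁻¹ * ((g : G) * e * (g : G)⁻¹) * ((g : G) * t * (g : G)⁻¹)⁻¹ =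
        (g : G) * ((t : G) * e * (t : G)⁻¹) * (g : G)⁻¹ := by group
      _ = (g : G) * e⁻¹ * (g : G)⁻¹ := by rw [hte]
      _ = ((g : G) * e * (g : G)⁻¹)⁻¹ := by group
  obtain ⟨e0, he0, hte0, hPe0⟩ := hinvex w
  obtain ⟨e1, he1, hte1, hPe1⟩ := hinvex w1
  set c := ⁅e0, e1⁆ with hcd
  have hcC : c ∈ C := h.comm _ he0 _ he1
  -- the four relations
  have hm0 : (m : G) * e0 * (m : G)⁻¹ = e0 := by
    refine (hinvuniq he0 (hconj m he0) hte0 (hinvconj m hmt he0 hte0) (hdiff he0 (hconj m he0) ?_)).symm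
    apply Multiplicative.toAdd.injective
    rw [hP m e0 he0 (hconj m he0), hPe0, hρu, hUw, add_zero]
  have hn1 : (n : G) * e1 * (n : G)⁻¹ = e1 := by
    refine (hinvuniq he1 (hconj n he1) hte1 (hinvconj n hnt he1 hte1) (hdiff he1 (hconj n he1) ?_)).symm
    apply Multiplicative.toAdd.injective
    rw [hP n e1 he1 (hconj n he1), hPe1, hρv, hVw1, add_zero]
  have he10 : e1 * e0 ∈ X := X.mul_mem he1 he0
  have he01 : e0 * e1 ∈ X := X.mul_mem he0 he1
  obtain ⟨c1, hc1C, hc1⟩ : ∃ c1 ∈ C, (m : G) * e1 * (m : G)⁻¹ = e1 * e0 * c1 := by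
    refine ⟨(e1 * e0)⁻¹ * ((m : G) * e1 * (m : G)⁻¹), hdiff he10 (hconj m he1) ?_, by group⟩
    apply Multiplicative.toAdd.injective
    rw [hP m e1 he1 (hconj m he1), hPe1, hρu, hUw1]
    have h5 : h.π ⟨e1 * e0, he10⟩ = h.π ⟨e1, he1⟩ * h.π ⟨e0, he0⟩ := by rw [← map_mul]; rfl
    rw [h5, toAdd_mul, hPe0, hPe1]
  obtain ⟨c2, hc2C, hc2⟩ : ∃ c2 ∈ C, (n : G) * e0 * (n : G)⁻¹ = e0 * e1 * c2 := by
    refine ⟨(e0 * e1)⁻¹ * ((n : G) * e0 * (n : G)⁻¹), hdiff he01 (hconj n he0) ?_, by group⟩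
    apply Multiplicative.toAdd.injective
    rw [hP n e0 he0 (hconj n he0), hPe0, hρv]
    have h5 : h.π ⟨e0 * e1, he01⟩ = h.π ⟨e0, he0⟩ * h.π ⟨e1, he1⟩ := by rw [← map_mul]; rfl
    rw [h5, toAdd_mul, hPe0, hPe1]
  have hc1sq : c1 * c1 = c := by
    have h1 := hinvconj m hmt he1 hte1
    rw [hc1] at h1
    have h2 : (t : G) * c1 * (t : G)⁻¹ = c1 := by rw [htC _ hc1C, mul_inv_cancel_right]
    have h3 : (t : G) * (e1 * e0 * c1) * (t : G)⁻¹ = e1⁻¹ * e0⁻¹ * c1 := by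
      calc (t : G) * (e1 * e0 * c1) * (t : G)⁻¹ =
          ((t : G) * e1 * (t : G)⁻¹) * ((t : G) * e0 * (t : G)⁻¹) * ((t : G) * c1 * (t : G)⁻¹) := by group
        _ = e1⁻¹ * e0⁻¹ * c1 := by rw [hte0, hte1, h2]
    rw [h3] at h1
    have h4 : (e1 * e0 * c1)⁻¹ = e0⁻¹ * e1⁻¹ * c1⁻¹ := by
      have h5 : e1 * e0 * c1 = c1 * (e1 * e0) := h.cent _ he10 _ hc1C
      rw [h5]; group
    rw [h4] at h1
    calc c1 * c1 = e0 * e1 * (e1⁻¹ * e0⁻¹ * c1) * c1 := by group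
      _ = e0 * e1 * (e0⁻¹ * e1⁻¹ * c1⁻¹) * c1 := by rw [h1]
      _ = c := by rw [hcd, commutatorElement_def]; group
  have hc2sq : c2 * c2 = c⁻¹ := by
    have h1 := hinvconj n hnt he0 hte0
    rw [hc2] at h1
    have h2 : (t : G) * c2 * (t : G)⁻¹ = c2 := by rw [htC _ hc2C, mul_inv_cancel_right]
    have h3 : (t : G) * (e0 * e1 * c2) * (t : G)⁻¹ = e0⁻¹ * e1⁻¹ * c2 := by
      calc (t : G) * (e0 * e1 * c2) * (t : G)⁻¹ =
          ((t : G) * e0 * (t : G)⁻¹) * ((t : G) * e1 * (t : G)⁻¹) * ((t : G) * c2 * (t : G)⁻¹) := by group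
        _ = e0⁻¹ * e1⁻¹ * c2 := by rw [hte0, hte1, h2]
    rw [h3] at h1
    have h4 : (e0 * e1 * c2)⁻¹ = e1⁻¹ * e0⁻¹ * c2⁻¹ := by
      have h5 : e0 * e1 * c2 = c2 * (e0 * e1) := h.cent _ he01 _ hc2C
      rw [h5]; group
    rw [h4] at h1
    calc c2 * c2 = e1 * e0 * (e0⁻¹ * e1⁻¹ * c2) * c2 := by group
      _ = e1 * e0 * (e1⁻¹ * e0⁻¹ * c2⁻¹) * c2 := by rw [h1]
      _ = c⁻¹ := by rw [hcd, commutatorElement_def]; group
  set Y : Subgroup G := closure {e0, e1} with hY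
  have h0Y : e0 ∈ Y := subset_closure (by simp)
  have h1Y : e1 ∈ Y := subset_closure (by simp)
  have hcY : c ∈ Y := by
    rw [hcd, commutatorElement_def]
    exact Y.mul_mem (Y.mul_mem (Y.mul_mem h0Y h1Y) (Y.inv_mem h0Y)) (Y.inv_mem h1Y)
  have hc1c : c1 ∈ zpowers c := mem_of_sq hp2 h.pg (h.lt.le hc1C) hc1sq
  have hc2c : c2 ∈ zpowers c := by
    have := mem_of_sq hp2 h.pg (h.lt.le hc2C) hc2sq
    rwa [zpowers_inv] at this
  have hczY : zpowers c ≤ Y := by rwa [zpowers_le]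
  have hYX : Y ≤ X := by
    rw [hY, closure_le]
    rintro x (rfl | hx)
    · exact he0
    · rw [Set.mem_singleton_iff.1 hx]; exact he1
  have hmY : (m : G) ∈ normalizer (Y : Set G) := by
    apply mem_normalizer_closure
    rintro x (rfl | hx)
    · rw [hm0]; exact h0Y
    · rw [Set.mem_singleton_iff.1 hx, hc1]
      exact Y.mul_mem (Y.mul_mem h1Y h0Y) (hczY hc1c)
  have hnY : (n : G) ∈ normalizer (Y : Set G) := by
    apply mem_normalizer_closure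
    rintro x (rfl | hx)
    · rw [hc2]
      exact Y.mul_mem (Y.mul_mem h0Y h1Y) (hczY hc2c)
    · rw [Set.mem_singleton_iff.1 hx, hn1]; exact h1Y
  refine ⟨Y, m, n, hYX, m.2, n.2, hmY, hnY, ?_, ?_⟩
  · -- quadratic action
    set B : Subgroup G := closure {e0, c} with hB
    have h0B : e0 ∈ B := subset_closure (by simp)
    have hcB : c ∈ B := subset_closure (by simp)
    have hczB : zpowers c ≤ B := by rwa [zpowers_le]
    have h1N : e1 ∈ normalizer (B : Set G) := by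
      apply mem_normalizer_closure
      rintro x (rfl | hx)
      · have h1 : e1 * x * e1⁻¹ = c⁻¹ * x := by rw [hcd, commutatorElement_def]; group
        rw [h1]
        exact B.mul_mem (B.inv_mem hcB) h0B
      · rw [Set.mem_singleton_iff.1 hx, h.cent _ he1 _ hcC, mul_inv_cancel_right]
        exact hcB
    have hYN : Y ≤ normalizer (B : Set G) := by
      rw [hY, closure_le]
      rintro x (rfl | hx)
      · exact le_normalizer h0B
      · rw [Set.mem_singleton_iff.1 hx]; exact h1N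
    have hmc : (m : G) * c * (m : G)⁻¹ = c := by
      have h1 : (m : G) * c * (m : G)⁻¹ = ⁅(m : G) * e0 * (m : G)⁻¹, (m : G) * e1 * (m : G)⁻¹⁆ := by
        rw [hcd]; simp only [commutatorElement_def]; group
      rw [h1, hm0, hc1]
      have h2 : ∀ y ∈ X, c1 * y = y * c1 := fun y hy => (h.cent _ hy _ hc1C).symm
      have h3 : e1 * e0 * c1 = c1 * (e1 * e0) := (h2 _ he10).symm
      rw [h3, commutatorElement_def]
      calc e0 * (c1 * (e1 * e0)) * e0⁻¹ * (c1 * (e1 * e0))⁻¹ = e0 * c1 * e1 * e0⁻¹ * e1⁻¹ * c1⁻¹ := by group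
        _ = c1 * e0 * e1 * e0⁻¹ * e1⁻¹ * c1⁻¹ := by rw [h2 _ he0]
        _ = c1 * c * c1⁻¹ := by rw [hcd, commutatorElement_def]; group
        _ = c * c1 * c1⁻¹ := by rw [h2 _ (h.lt.le hcC)]
        _ = c := by group
    have hmB : ∀ b ∈ B, (m : G) * b * (m : G)⁻¹ = b := by
      intro b hb
      rw [hB] at hb
      induction hb using closure_induction with
      | mem x hx =>
        rcases hx with rfl | hx
        · exact hm0
        · rw [Set.mem_singleton_iff.1 hx]; exact hmc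
      | one => group
      | mul x y _ _ hx hy =>
        calc (m : G) * (x * y) * (m : G)⁻¹ = ((m : G) * x * (m : G)⁻¹) * ((m : G) * y * (m : G)⁻¹) := by group
          _ = x * y := by rw [hx, hy]
      | inv x _ hx =>
        calc (m : G) * x⁻¹ * (m : G)⁻¹ = ((m : G) * x * (m : G)⁻¹)⁻¹ := by group
          _ = x⁻¹ := by rw [hx]
    have hfB : ∀ x ∈ Y, x⁻¹ * ((m : G) * x * (m : G)⁻¹) ∈ B := by
      intro x hx
      rw [hY] at hx
      induction hx using closure_induction with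
      | mem x hx =>
        rcases hx with rfl | hx
        · rw [hm0, inv_mul_cancel]; exact B.one_mem
        · rw [Set.mem_singleton_iff.1 hx, hc1]
          have h1 : e1⁻¹ * (e1 * e0 * c1) = e0 * c1 := by group
          rw [h1]
          exact B.mul_mem h0B (hczB hc1c)
      | one =>
        have h1 : (1 : G)⁻¹ * ((m : G) * 1 * (m : G)⁻¹) = 1 := by group
        rw [h1]; exact B.one_mem
      | mul x y hx' hy' hx hy =>
        have h1 : (x * y)⁻¹ * ((m : G) * (x * y) * (m : G)⁻¹) =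
            (y⁻¹ * (x⁻¹ * ((m : G) * x * (m : G)⁻¹)) * y⁻¹⁻¹) * (y⁻¹ * ((m : G) * y * (m : G)⁻¹)) := by group
        rw [h1]
        refine B.mul_mem ?_ hy
        exact (mem_normalizer_iff.1 ((normalizer (B : Set G)).inv_mem (hYN hy')) _).1 hx
      | inv x hx' hx =>
        have h1 : x⁻¹⁻¹ * ((m : G) * x⁻¹ * (m : G)⁻¹) = x * (x⁻¹ * ((m : G) * x * (m : G)⁻¹))⁻¹ * x⁻¹ := by group
        rw [h1]
        exact (mem_normalizer_iff.1 (hYN hx') _).1 (B.inv_mem hx)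
    intro x hx
    exact hmB _ (hfB x hx)
  · -- not a `p`-element
    intro k
    refine ⟨e0, h0Y, fun hcon => ?_⟩
    set g : H := m * n * m * n⁻¹ with hg
    have hgc : ((g : H) : G) = (m : G) * n * m * (n : G)⁻¹ := by rw [hg]; push_cast; rfl
    have hgw : h.ρ g w = -w - w1 := by
      have h1 : h.ρ g w = h.ρ m (h.ρ n (h.ρ m (h.ρ n⁻¹ w))) := by
        rw [hg, map_mul, map_mul, map_mul]; rfl
      rw [h1, hρv', ← hw1, hρu (w - w1), map_sub, hUw, hUw1]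
      have h2 : w - w1 + (0 - w) = -w1 := by abel
      rw [h2, hρv, map_neg, hVw1, neg_zero, add_zero, hρu, map_neg, hUw1]
      abel
    have hgw1 : h.ρ g w1 = 3 • w + 2 • w1 := by
      have h1 : h.ρ g w1 = h.ρ m (h.ρ n (h.ρ m (h.ρ n⁻¹ w1))) := by
        rw [hg, map_mul, map_mul, map_mul]; rfl
      have e2 : h.ρ n (w1 + w) = w1 + w + w1 := by rw [hρv (w1 + w), map_add, hVw1, ← hw1, zero_add]
      have e3 : h.ρ m (w1 + w + w1) = 3 • w + 2 • w1 := by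
        rw [hρu (w1 + w + w1)]
        simp only [map_add, hUw1, hUw]
        abel
      rw [h1, hρv', hVw1, sub_zero, hρu w1, hUw1, e2, e3]
    have hg3 : h.ρ (g ^ 3) w = -w := by
      have h1 : h.ρ (g ^ 3) w = h.ρ g (h.ρ g (h.ρ g w)) := by
        rw [map_pow, pow_succ, pow_two]; rfl
      rw [h1, hgw]
      simp only [map_sub, map_neg, hgw, hgw1, map_add, map_nsmul]
      abel
    have hgp : h.ρ (g ^ (p ^ k)) w = w := by
      have h1 : ((g ^ (p ^ k) : H) : G) * e0 * ((g ^ (p ^ k) : H) : G)⁻¹ = e0 := by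
        rw [Subgroup.coe_pow, hgc]; exact hcon
      have h2 := hP (g ^ (p ^ k)) e0 he0 (hconj _ he0)
      rw [hPe0] at h2
      rw [← h2, ← hPe0]
      congr 2
      exact Subtype.ext h1
    have h5 : ∀ j : ℕ, h.ρ ((g ^ (p ^ k)) ^ j) w = w := by
      intro j
      induction j with
      | zero => rw [pow_zero, map_one]; rfl
      | succ j ih =>
        rw [pow_succ, map_mul]
        show h.ρ ((g ^ (p ^ k)) ^ j) (h.ρ (g ^ (p ^ k)) w) = w
        rw [hgp, ih]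
    have h6 : ∀ j : ℕ, h.ρ ((g ^ 3) ^ j) w = (-1 : ℤ) ^ j • w := by
      intro j
      induction j with
      | zero => rw [pow_zero, map_one, pow_zero, one_smul]; rfl
      | succ j ih =>
        rw [pow_succ, map_mul]
        show h.ρ ((g ^ 3) ^ j) (h.ρ (g ^ 3) w) = _
        rw [hg3, map_neg, ih, pow_succ, mul_neg, mul_one, neg_smul]
    have h7 : (g ^ (p ^ k)) ^ 3 = (g ^ 3) ^ (p ^ k) := by rw [← pow_mul, ← pow_mul, mul_comm]
    have h8 := h5 3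
    rw [h7, h6, hpodd.pow.neg_one_pow, neg_smul, one_smul] at h8
    apply hw
    have h9 : w + w = 0 := by
      nth_rw 1 [← h8]; abel
    have h10 : (2 : ZMod p) • w = 0 := by rw [two_smul]; exact h9
    rcases smul_eq_zero.1 h10 with h11 | h11
    · exfalso
      have h12 : ((2 : ℕ) : ZMod p) = 0 := by exact_mod_cast h11
      rw [ZMod.natCast_eq_zero_iff] at h12
      have := Nat.le_of_dvd (by norm_num) h12
      have := hp.out.two_le
      omega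
    · exact h11

/-- **Main lemma.** -/
theorem exists_quad (hp2 : p ≠ 2) {R Q : Subgroup G} (hR : IsPGroup p R) {a b : G}
    (hHR : closure {a, b} ≤ normalizer (R : Set G))
    (ha : ∀ x ∈ R, ⁅⁅x, a⁆, a⁆ ∈ Q) (hb : ∀ x ∈ R, ⁅⁅x, b⁆, b⁆ ∈ Q)
    (hcent : ∀ h ∈ closure {a, b}, (orderOf h).Coprime p → ∀ x ∈ Q, h * x = x * h)
    (hex : ∃ h ∈ closure {a, b}, (orderOf h).Coprime p ∧ ∃ x ∈ R, h * x ≠ x * h) :
    ∃ (Y : Subgroup G) (m n : G), Y ≤ R ∧ m ∈ closure {a, b} ∧ n ∈ closure {a, b} ∧ m ∈ normalizer (Y : Set G) ∧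
      n ∈ normalizer (Y : Set G) ∧ (∀ x ∈ Y, m * (x⁻¹ * (m * x * m⁻¹)) * m⁻¹ = x⁻¹ * (m * x * m⁻¹)) ∧
      ∀ k, ∃ x ∈ Y, (m * n * m * n⁻¹) ^ (p ^ k) * x * ((m * n * m * n⁻¹) ^ (p ^ k))⁻¹ ≠ x := by
  obtain ⟨X, C, hXR, hCX, hHX, hHC, hCmem, hcomm, hpow, hcen, hirr, hact⟩ := exists_min hR hHR hex
  have hq : ∀ c ∈ closure {a, b}, (∀ x ∈ R, ⁅⁅x, c⁆, c⁆ ∈ Q) → ∀ x ∈ X, ⁅⁅x, c⁆, c⁆ ∈ C := by
    intro c hc hcq x hx
    have h1 : ∀ y ∈ X, ⁅y, c⁆ ∈ X := by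
      intro y hy
      have h2 : ⁅y, c⁆ = y * (c * y⁻¹ * c⁻¹) := by rw [commutatorElement_def]; group
      rw [h2]
      exact X.mul_mem hy ((mem_normalizer_iff.1 (hHX hc) _).1 (X.inv_mem hy))
    rw [hCmem]
    exact ⟨h1 _ (h1 x hx), fun h hh hcop => hcent h hh hcop _ (hcq x (hXR hx))⟩
  obtain ⟨W, i1, i2, i3, π, ρ, hπ, hker, hρ, hW, u, v, hu, hv, huv⟩ :=
    exists_uv hp2 hCX hHX hHC hcomm hpow hcen hirr (hq a (subset_closure (by simp)) ha)
      (hq b (subset_closure (by simp)) hb) hact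
  let h : Conf p (closure {a, b}) X C W :=
    { pg := hR.to_le hXR
      lt := hCX
      nX := hHX
      nC := hHC
      comm := hcomm
      cent := hcen
      pcent := fun h hh hcop c hc => ((hCmem c).1 hc).2 h hh hcop
      π := π
      ρ := ρ
      surj := hπ
      ker := hker
      act := hρ }
  obtain ⟨Y, m, n, h1, h2, h3, h4, h5, h6, h7⟩ := h.main hp2 hW (u := u) (v := v) hu hv huv
  exact ⟨Y, m, n, h1.trans hXR, h2, h3, h4, h5, h6, h7⟩

end Cfsg.Agent.Lib.StabQuotAlg
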