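import Mathlib
import Cfsg.Agent.Lib.StabQuotAlg2
import Cfsg.Agent.Lib.FusionStable
import Cfsg.Agent.Lib.FusionQuot
import Cfsg.Agent.Lib.BaerSuzuki
import Cfsg.Agent.Lib.FusionTools
import Cfsg.Agent.Lib.FusionNormal

/-! Factor systems of stable fusion systems (helper73). -/

set_option autoImplicit false

open Cfsg Cfsg.FusionSystem Cfsg.Agent.Lib.FusionBasic Cfsg.Agent.Lib.FusionSat Cfsg.Agent.Lib.FusionStable
  Cfsg.Agent.Lib.FusionQuot Cfsg.Agent.Lib.StabQuotAlg Cfsg.Agent.Lib.FusionTools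
open scoped commutatorElement

universe u

namespace Cfsg.Agent.Lib.StabQuotFus

/-- pairs of compatible automorphisms of a group and a subgroup -/
def compat {Ω : Type*} [Group Ω] (R Y : Subgroup Ω) (hY : Y ≤ R) : Subgroup (MulAut R × MulAut Y) where
  carrier := {z | ∀ y : Y, ((z.2 y : Y) : Ω) = (z.1 ⟨y, hY y.2⟩ : R)}
  one_mem' := fun y => rfl
  mul_mem' := by
    intro z w hz hw y
    show ((z.2 (w.2 y) : Y) : Ω) = (z.1 (w.1 ⟨y, hY y.2⟩) : R)
    rw [hz (w.2 y)]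
    congr 2
    exact Subtype.ext (hw y)
  inv_mem' := by
    intro z hz y
    have h1 := hz (z.2⁻¹ y)
    rw [MulAut.apply_inv_self] at h1
    have h2 : (⟨y, hY y.2⟩ : R) = z.1 ⟨(z.2⁻¹ y : Y), hY (z.2⁻¹ y).2⟩ := Subtype.ext h1
    show ((z.2⁻¹ y : Y) : Ω) = (z.1⁻¹ ⟨y, hY y.2⟩ : R)
    rw [h2, MulAut.inv_apply_self]

variable {Ω : Type u} [Group Ω] {S T R : Subgroup Ω} {F : FusionSystem S} {p : ℕ}

theorem isPGroup_of_coprime {G : Type*} [Group G] [Finite G] [Fact p.Prime] {H : Subgroup G}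
    (h : ∀ x ∈ H, (orderOf x).Coprime p → x = 1) : IsPGroup p H := by
  intro x
  obtain ⟨k, m, hm, hkm⟩ := Nat.exists_eq_pow_mul_and_not_dvd (orderOf_pos (x : G)).ne' p
    (Fact.out : p.Prime).ne_one
  refine ⟨k, Subtype.ext ?_⟩
  show (x : G) ^ p ^ k = 1
  refine h _ (H.pow_mem x.2 _) ?_
  rw [orderOf_pow, hkm, Nat.gcd_mul_right_left, Nat.mul_div_cancel_left _ (pow_pos (Fact.out : p.Prime).pos k)]
  exact ((Nat.Prime.coprime_iff_not_dvd Fact.out).2 hm).symm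

theorem exists_holo (A : Type u) [Group A] [Finite A] : ∃ (Γ : Type u) (_ : Group Γ) (_ : Finite Γ) (il : A →* Γ)
    (ir : MulAut A →* Γ), Function.Injective il ∧ Function.Injective ir ∧
    ∀ g r, ir g * il r * (ir g)⁻¹ = il (g r) := by
  refine ⟨A ⋊[MonoidHom.id (MulAut A)] (MulAut A), inferInstance, Finite.of_equiv _ SemidirectProduct.equivProd.symm,
    SemidirectProduct.inl, SemidirectProduct.inr, SemidirectProduct.inl_injective, SemidirectProduct.inr_injective, ?_⟩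
  intro g r
  have h := SemidirectProduct.inl_aut (φ := MonoidHom.id (MulAut A)) g r
  rw [map_inv] at h
  exact h.symm

theorem isPGroup_of_stable [Fact p.Prime] (hp2 : p ≠ 2) [Finite S] (hS : IsPGroup p S)
    (hD : ∀ R ≤ S, Stable F p R) (hRS : R ≤ S)
    (hcent : ∀ h ∈ F.autGroup R, (orderOf h).Coprime p → ∀ x : R, (x : Ω) ∈ T → h x = x)
    {a b : MulAut R} (ha : a ∈ F.autGroup R) (hb : b ∈ F.autGroup R)
    (hqa : ∀ x : R, ((x * (a x)⁻¹ * (a (x * (a x)⁻¹))⁻¹ : R) : Ω) ∈ T)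
    (hqb : ∀ x : R, ((x * (b x)⁻¹ * (b (x * (b x)⁻¹))⁻¹ : R) : Ω) ∈ T) :
    IsPGroup p (Subgroup.closure {a, b} : Subgroup (MulAut R)) := by
  classical
  have hRf : Finite R := finite_of_le hRS
  have hRp : IsPGroup p R := isPGroup_of_le hS hRS
  refine isPGroup_of_coprime fun h₀ hh₀ hcop => ?_
  by_contra hne
  have hle : Subgroup.closure {a, b} ≤ F.autGroup R := by
    rw [Subgroup.closure_le]
    rintro x (rfl | rfl)
    exacts [ha, hb]
  obtain ⟨Γ, _, hΓf, il, ir, hil, hir, hact⟩ := exists_holo R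
  have hcl : Subgroup.closure {ir a, ir b} = (Subgroup.closure {a, b}).map ir := by
    rw [MonoidHom.map_closure, Set.image_pair]
  have hcomm : ∀ (g : MulAut R) (r : R), ⁅il r, ir g⁆ = il (r * (g r)⁻¹) := by
    intro g r
    rw [map_mul, map_inv, ← hact, commutatorElement_def]
    group
  have hq' : ∀ g : MulAut R, (∀ x : R, ((x * (g x)⁻¹ * (g (x * (g x)⁻¹))⁻¹ : R) : Ω) ∈ T) →
      ∀ x ∈ il.range, ⁅⁅x, ir g⁆, ir g⁆ ∈ (T.subgroupOf R).map il := by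
    rintro g hg _ ⟨r, rfl⟩
    rw [hcomm, hcomm]
    exact ⟨_, Subgroup.mem_subgroupOf.2 (hg r), rfl⟩
  obtain ⟨Y, m, n, hYR, hm, hn, hmY, hnY, hquad, hnp⟩ :=
    exists_quad (p := p) hp2 (R := il.range) (Q := (T.subgroupOf R).map il) (hRp.of_surjective il.rangeRestrict il.rangeRestrict_surjective) (a := ir a) (b := ir b)
      (by
        rw [hcl]
        rintro _ ⟨g, -, rfl⟩
        rw [Subgroup.mem_normalizer_iff]
        intro x
        constructor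
        · rintro ⟨r, rfl⟩
          exact ⟨_, (hact g r).symm⟩
        · rintro ⟨r, hr⟩
          refine ⟨g⁻¹ r, ?_⟩
          rw [← hact, hr, map_inv]
          group)
      (hq' a hqa) (hq' b hqb)
      (by
        rw [hcl]
        rintro _ ⟨g, hg, rfl⟩ hgc _ ⟨r, hr, rfl⟩
        rw [orderOf_injective ir hir] at hgc
        have h1 := hact g r
        rw [hcent g (hle hg) hgc r (Subgroup.mem_subgroupOf.1 hr)] at h1
        exact mul_inv_eq_iff_eq_mul.1 h1)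
      (by
        rw [hcl]
        refine ⟨ir h₀, ⟨h₀, hh₀, rfl⟩, by rwa [orderOf_injective ir hir], ?_⟩
        by_contra hcon
        push Not at hcon
        apply hne
        ext r
        have h1 := hcon (il r) ⟨r, rfl⟩
        have h2 := hact h₀ r
        rw [h1, mul_inv_cancel_right] at h2
        exact congrArg Subtype.val (hil h2).symm)
  rw [hcl] at hm hn
  obtain ⟨μ, hμ, rfl⟩ := hm
  obtain ⟨ν, hν, rfl⟩ := hn
  set Y₁ : Subgroup R := Y.comap il with hY₁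
  set Y₂ : Subgroup Ω := Y₁.map R.subtype with hY₂
  have hY₂R : Y₂ ≤ R := Subgroup.map_subtype_le _
  have hmem : ∀ r : R, (r : Ω) ∈ Y₂ ↔ il r ∈ Y := by
    intro r
    constructor
    · rintro ⟨r', hr', h1⟩
      have : r' = r := Subtype.ext h1
      rw [← this]
      exact hr'
    · intro h
      exact ⟨r, h, rfl⟩
  have hres : ∀ g ∈ Subgroup.closure {a, b}, ir g ∈ Subgroup.normalizer (Y : Set Γ) →
      ∃ g₂ ∈ F.autGroup Y₂, (g, g₂) ∈ compat R Y₂ hY₂R := by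
    intro g hg hgY
    have h1 : FMap F Y₂ (autFun g) := (fmap_of_autGroup hRS (hle hg)).restrict hY₂R
    obtain ⟨g₂, hg₂, h2⟩ := exists_aut_of_fmap h1 (by
      intro x hx
      rw [autFun_of_mem g (hY₂R hx), hmem, ← hact]
      exact (Subgroup.mem_normalizer_iff.1 hgY _).1 ((hmem ⟨x, hY₂R hx⟩).1 hx))
    refine ⟨g₂, hg₂, fun y => ?_⟩
    show ((g₂ y : Y₂) : Ω) = (g ⟨y, hY₂R y.2⟩ : R)
    rw [h2, autFun_of_mem g (hY₂R y.2)]
  obtain ⟨μ₂, hμ₂, hμc⟩ := hres μ hμ hmY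
  obtain ⟨ν₂, hν₂, hνc⟩ := hres ν hν hnY
  have hquad₂ : Quad μ₂ := by
    rw [quad_iff]
    intro y
    have hy : il ⟨y, hY₂R y.2⟩ ∈ Y := (hmem _).1 y.2
    have h1 := hquad _ hy
    rw [hact, ← map_inv, ← map_mul, hact] at h1
    have h2 := hil h1
    have h3 : (⟨((y⁻¹ * μ₂ y : Y₂) : Ω), hY₂R (y⁻¹ * μ₂ y).2⟩ : R) = (⟨y, hY₂R y.2⟩ : R)⁻¹ * μ ⟨y, hY₂R y.2⟩ := by
      apply Subtype.ext
      show ((y : Ω))⁻¹ * (μ₂ y : Y₂) = (y : Ω)⁻¹ * (μ ⟨y, hY₂R y.2⟩ : R)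
      rw [hμc y]
    apply Subtype.ext
    rw [hμc (y⁻¹ * μ₂ y)]
    show ((μ ⟨((y⁻¹ * μ₂ y : Y₂) : Ω), hY₂R (y⁻¹ * μ₂ y).2⟩ : R) : Ω) = _
    rw [h3, h2, ← h3]
  obtain ⟨K, hK, hKn, hKp, hμK⟩ := mem_opMap_iff.1 (hD Y₂ (hY₂R.trans hRS) μ₂ hμ₂ hquad₂)
  have h1 : μ₂ * ν₂ * μ₂ * ν₂⁻¹ ∈ K := by
    have h2 := K.mul_mem hμK (hKn ν₂ hν₂ μ₂ hμK)
    rwa [← mul_assoc, ← mul_assoc] at h2
  obtain ⟨k, hk⟩ := hKp ⟨_, h1⟩
  have hk' : (μ₂ * ν₂ * μ₂ * ν₂⁻¹) ^ p ^ k = 1 := congrArg Subtype.val hk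
  obtain ⟨x, hx, hxne⟩ := hnp k
  obtain ⟨r, rfl⟩ := hYR hx
  apply hxne
  have h2 : ((μ * ν * μ * ν⁻¹) ^ p ^ k, (μ₂ * ν₂ * μ₂ * ν₂⁻¹) ^ p ^ k) ∈ compat R Y₂ hY₂R :=
    (compat R Y₂ hY₂R).pow_mem ((compat R Y₂ hY₂R).mul_mem ((compat R Y₂ hY₂R).mul_mem ((compat R Y₂ hY₂R).mul_mem
      hμc hνc) hμc) ((compat R Y₂ hY₂R).inv_mem hνc)) (p ^ k)
  have h3 := h2 ⟨r, (hmem r).2 hx⟩
  rw [← map_inv, ← map_mul, ← map_mul, ← map_mul, ← map_pow, hact]
  congr 1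
  apply Subtype.ext
  refine Eq.trans ?_ (h3.symm.trans ?_)
  · rfl
  · show ((((μ₂ * ν₂ * μ₂ * ν₂⁻¹) ^ p ^ k) ⟨r, (hmem r).2 hx⟩ : Y₂) : Ω) = r
    rw [hk']
    rfl

/-- The hypothesis on the action on `T`. -/
theorem cent_of_hall [Fact p.Prime] [Finite S] (hS : IsPGroup p S) (hT : F.StronglyClosed T) (hRS : R ≤ S)
    (hall : ∀ P f, FMap F P f → ∃ g, FMap F (P ⊔ T) g ∧ (∀ x ∈ P, g x = f x) ∧ ∃ s ∈ S, ∀ x ∈ T, g x = s * x * s⁻¹) :
    ∀ h ∈ F.autGroup R, (orderOf h).Coprime p → ∀ x : R, (x : Ω) ∈ T → h x = x := by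
  intro h hh hcop x hx
  have hRf : Finite R := finite_of_le hRS
  have hn : S ≤ Subgroup.normalizer (T : Set Ω) := FusionNormal.normalizes_of_stronglyClosed hT
  obtain ⟨g, hg, hgf, s, hs, hgs⟩ := hall R _ (fmap_of_autGroup hRS hh)
  have hact : ∀ y : R, (y : Ω) ∈ T → ((h y : R) : Ω) = s * y * s⁻¹ := by
    intro y hy
    rw [← hgs y hy, hgf y y.2, autFun_coe]
  have hpow : ∀ i : ℕ, ∀ y : R, (y : Ω) ∈ T → (((h ^ i) y : R) : Ω) = s ^ i * y * (s ^ i)⁻¹ ∧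
      (((h ^ i) y : R) : Ω) ∈ T := by
    intro i
    induction i with
    | zero => intro y hy; simp [hy]
    | succ i ih =>
      intro y hy
      obtain ⟨h1, h2⟩ := ih y hy
      have h3 : (((h ^ (i + 1)) y : R) : Ω) = s * ((h ^ i) y : R) * s⁻¹ := by
        rw [pow_succ', MulAut.mul_apply, hact _ h2]
      refine ⟨?_, ?_⟩
      · rw [h3, h1, pow_succ']; group
      · rw [h3]
        exact (Subgroup.mem_normalizer_iff.1 (hn hs) _).1 h2
  obtain ⟨k, hk⟩ := hS ⟨s, hs⟩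
  have hk' : s ^ p ^ k = 1 := congrArg Subtype.val hk
  have h1 : (h ^ p ^ k) x = x := by
    apply Subtype.ext
    rw [(hpow _ x hx).1, hk']
    group
  have h2 : (orderOf h).Coprime (p ^ k) := hcop.pow_right k
  obtain ⟨m, hm⟩ := exists_pow_eq_self_of_coprime h2.symm
  have h3 : ∀ j : ℕ, ((h ^ p ^ k) ^ j) x = x := by
    intro j
    induction j with
    | zero => rfl
    | succ j ih => rw [pow_succ, MulAut.mul_apply, h1, ih]
  have h4 := h3 m
  rwa [hm] at h4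

variable {Ω' : Type u} [Group Ω'] {S' : Subgroup Ω'} {θ : S →* Ω'} {E : FusionSystem S'}

theorem stable_im [Fact p.Prime] (hp2 : p ≠ 2) [Finite S] (hS : IsPGroup p S)
    (hT : F.StronglyClosed T)
    (hall : ∀ P f, FMap F P f → ∃ g, FMap F (P ⊔ T) g ∧ (∀ x ∈ P, g x = f x) ∧ ∃ s ∈ S, ∀ x ∈ T, g x = s * x * s⁻¹)
    (hE : F.IsFactorSystem T θ E) (hD : ∀ R ≤ S, Stable F p R) (hTR : T ≤ R) (hRS : R ≤ S) :
    Stable E p (imageAlong θ R) := by
  intro χ' hχ' hq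
  have hRf : Finite R := finite_of_le hRS
  have hIf : Finite (imageAlong θ R) := by
    have : Finite S' := finite_range hE.2.2.1
    exact finite_of_le (im_le hE.2.2.1)
  obtain ⟨π, hπ, hπe⟩ := exists_autMap hT hE hTR hRS
  let ψ : R →* imageAlong θ R := MonoidHom.mk' (fun x => ⟨ev θ (x : Ω), mem_im.2 ⟨x, x.2, hRS x.2, rfl⟩⟩) (by
    intro x y
    exact Subtype.ext (ev_mul (hRS x.2) (hRS y.2)))
  have hψ : ∀ (α : F.autGroup R) (x : R), ψ ((α : MulAut R) x) = (π α : MulAut (imageAlong θ R)) (ψ x) := by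
    intro α x
    exact Subtype.ext (hπe α x _).symm
  have hψT : ∀ x : R, ψ x = 1 → (x : Ω) ∈ T := by
    intro x hx
    exact (ev_eq_one_iff hE.2.1 (hRS x.2)).1 (congrArg Subtype.val hx)
  have hquad : ∀ α : F.autGroup R, Quad (π α : MulAut (imageAlong θ R)) →
      ∀ x : R, ((x * ((α : MulAut R) x)⁻¹ * ((α : MulAut R) (x * ((α : MulAut R) x)⁻¹))⁻¹ : R) : Ω) ∈ T := by
    intro α hα x
    apply hψT
    rw [quad_iff] at hα
    have h1 := hα (ψ x)⁻¹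
    rw [inv_inv] at h1
    rw [map_mul, map_inv, hψ, map_mul, map_inv, hψ]
    rw [← map_inv, h1, mul_inv_cancel]
  obtain ⟨c, hc⟩ := hπ ⟨χ', hχ'⟩
  have hcq : Quad (π c : MulAut (imageAlong θ R)) := by rw [hc]; exact hq
  have key : ∀ α : F.autGroup R, IsPGroup p (Subgroup.closure {c, α * c * α⁻¹} : Subgroup (F.autGroup R)) := by
    intro α
    have hbq : Quad (π (α * c * α⁻¹) : MulAut (imageAlong θ R)) := by
      have h1 := Quad.of_equiv (e := (π α : MulAut (imageAlong θ R))) hcq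
      rw [map_mul, map_mul, map_inv]
      exact h1
    have h1 := isPGroup_of_stable hp2 hS hD hRS (cent_of_hall hS hT hRS hall) c.2 (α * c * α⁻¹).2
      (hquad c hcq) (hquad _ hbq)
    have h2 : (Subgroup.closure {c, α * c * α⁻¹} : Subgroup (F.autGroup R)).map (F.autGroup R).subtype =
        Subgroup.closure {(c : MulAut R), ((α * c * α⁻¹ : F.autGroup R) : MulAut R)} := by
      rw [MonoidHom.map_closure, Set.image_pair]
      rfl
    rw [← h2] at h1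
    intro z
    obtain ⟨k, hk⟩ := h1 ⟨(z : F.autGroup R), ⟨z, z.2, rfl⟩⟩
    refine ⟨k, Subtype.ext (Subtype.ext ?_)⟩
    have h3 := congrArg Subtype.val hk
    rw [Subgroup.coe_pow] at h3
    rw [Subgroup.coe_pow, Subgroup.coe_pow]
    exact h3
  have key2 : ∀ α : F.autGroup R, IsPGroup p (Subgroup.closure {π c, π α * π c * (π α)⁻¹} :
      Subgroup (E.autGroup (imageAlong θ R))) := by
    intro α
    have h1 := (key α).map π
    rwa [MonoidHom.map_closure, Set.image_pair, map_mul, map_mul, map_inv] at h1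
  obtain ⟨N, hN, hNp, hcN⟩ := BaerSuzuki.baer_suzuki (p := p) (Subgroup.zpowers (π c))
    ((key2 1).to_le (by rw [Subgroup.zpowers_le]; exact Subgroup.subset_closure (by simp))) (by
      intro g
      obtain ⟨α, rfl⟩ := hπ g
      refine (key2 α).to_le (sup_le ?_ ?_)
      · rw [Subgroup.zpowers_le]; exact Subgroup.subset_closure (by simp)
      · rintro _ ⟨y, hy, rfl⟩
        obtain ⟨i, rfl⟩ := hy
        show (π α) * ((π c) ^ i) * (π α)⁻¹ ∈ _
        rw [← conj_zpow]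
        exact Subgroup.zpow_mem _ (Subgroup.subset_closure (by simp)) i)
  refine ⟨π c, Cores.le_pCore hN hNp (hcN (Subgroup.mem_zpowers _)), ?_⟩
  rw [hc]
  rfl

theorem stable_factor [Fact p.Prime] (hp2 : p ≠ 2) [Finite S] (hS : IsPGroup p S)
    (hT : F.StronglyClosed T)
    (hall : ∀ P f, FMap F P f → ∃ g, FMap F (P ⊔ T) g ∧ (∀ x ∈ P, g x = f x) ∧ ∃ s ∈ S, ∀ x ∈ T, g x = s * x * s⁻¹)
    (hE : F.IsFactorSystem T θ E) (hD : ∀ R ≤ S, Stable F p R) : ∀ R' ≤ S', Stable E p R' := by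
  intro R' hR'
  rw [← im_pre hE.2.2.1 hR']
  exact stable_im hp2 hS hT hall hE hD (le_pre hE.1 hE.2.1) pre_le

end Cfsg.Agent.Lib.StabQuotFus
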