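import Mathlib
import Cfsg.Agent.Lib.StabQuotFus
import Cfsg.Agent.Lib.H34ZJ

/-!
# ZJ for stable fusion systems (helper73)
-/

set_option autoImplicit false

universe u v

namespace Cfsg.Agent.Lib.StabQuotMain

open Cfsg Cfsg.FusionSystem Cfsg.Agent.Lib.FusionBasic Cfsg.Agent.Lib.FusionSat Cfsg.Agent.Lib.FusionNormal
  Cfsg.Agent.Lib.FusionSys Cfsg.Agent.Lib.FusionNormSat Cfsg.Agent.Lib.H34Chain Cfsg.Agent.Lib.FusionTools
  Cfsg.Agent.Lib.FusionQuot Cfsg.Agent.Lib.H34Reduce Cfsg.Agent.Lib.H34Lift Cfsg.Agent.Lib.H34Local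
  Cfsg.Agent.Lib.FusionRealized Cfsg.Agent.Lib.ClosedPS Cfsg.Agent.Lib.H34Functor Cfsg.Agent.Lib.FusionStable
open scoped commutatorElement

/-- A property of fusion systems inherited by the subsystems and factor systems occurring in reductions. -/
structure Hered' (p : ℕ) (D : ∀ {Ω : Type u} [Group Ω] {S : Subgroup Ω} (_ : FusionSystem S), Prop) : Prop where
  sub : ∀ {Ω : Type u} [Group Ω] {S S' : Subgroup Ω} (E : FusionSystem S') (F : FusionSystem S), S' ≤ S →
    (∀ P f, FMap E P f → FMap F P f) → E.IsSaturated p → D F → D E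
  factor : ∀ {Ω : Type u} [Group Ω] {S : Subgroup Ω} [Finite S] {F : FusionSystem S} {Ω' : Type u} [Group Ω']
    {S' : Subgroup Ω'} (T : Subgroup Ω) (θ : S →* Ω') (E : FusionSystem S'), IsPGroup p S → F.IsSaturated p →
    F.IsNormal T → F.IsFactorSystem T θ E →
    (∀ P f, FMap F P f → ∃ g, FMap F (P ⊔ T) g ∧ (∀ x ∈ P, g x = f x) ∧ ∃ s ∈ S, ∀ x ∈ T, g x = s * x * s⁻¹) →
    D F → D E

/-- The main theorem on functors. -/
theorem normal_of_functor' (p : ℕ) [Fact p.Prime] (D : ∀ {Ω : Type u} [Group Ω] {S : Subgroup Ω} (_ : FusionSystem S), Prop)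
    (hD : Hered'.{u} p D) (W : ∀ (Q : Type u) [Group Q], Subgroup Q) (hW : Inv p W)
    (hWne : ∀ (Q : Type u) [Group Q] [Finite Q], IsPGroup p Q → Nontrivial Q → W Q ≠ ⊥)
    (hgrp : ∀ {Ω : Type u} [Group Ω] {S : Subgroup Ω} [Finite S] (F : FusionSystem S), IsPGroup p S → F.IsSaturated p →
      D F → ∀ (G : Type u) [Group G] [Finite G] (ι : S →* G), F.IsModel p G ι → ∀ T : Sylow p G, (T : Subgroup G) = ι.range →
      (Wof W (T : Subgroup G)).Normal) :
    ∀ {Ω : Type u} [Group Ω] {S : Subgroup Ω} [Finite S] (F : FusionSystem S), IsPGroup p S → F.IsSaturated p →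
      D F → F.IsNormal (Wof W S) := by
  refine fusion_rec p (fun {Ω} _ {S} F => D F → F.IsNormal (Wof W S)) ?_
  intro Ω _ S _ F hS hF IH hfree
  have hWne' : ∀ {Ω : Type u} [Group Ω] (R : Subgroup Ω) [Finite R], IsPGroup p R → R ≠ ⊥ → Wof W R ≠ ⊥ := by
    intro Ω _ R _ hR hne h
    have hnt : Nontrivial R := R.nontrivial_iff_ne_bot.2 hne
    apply hWne ↥R hR hnt
    exact (Subgroup.map_eq_bot_iff_of_injective _ R.subtype_injective).1 h
  by_cases hS1 : S = ⊥
  · have : Wof W S = ⊥ := le_bot_iff.1 ((Wof_le S).trans hS1.le)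
    rw [this]; exact isNormal_bot F
  set Q := F.core with hQ
  have hcore : F.IsNormal Q := FusionJoin.isNormal_core F
  have hle_core : ∀ V : Subgroup Ω, F.IsNormal V → V ≤ Q := fun V hV => le_sSup hV
  have hQS : Q ≤ S := hcore.1
  have hnS : S ≤ Subgroup.normalizer (Wof W S : Set Ω) := Subgroup.le_normalizer.trans (Wof_norm hW hS)
  by_cases hQ1 : Q = ⊥
  · -- case A
    refine isNormal_of_extN (Wof_le S) ?_
    refine chainN hS hF (extN_closed (Wof_le S) hnS) (Wof W) (fun R _ => Wof_le R) ?_ ?_ (fun _ _ _ h => h) ?_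
    · intro R hR
      have hfR : Finite R := finite_of_le hR
      exact inf_le_inf_left S (Wof_norm hW (isPGroup_of_le hS hR))
    · intro R hR hne
      have hfR : Finite R := finite_of_le hR
      exact hWne' R (isPGroup_of_le hS hR) hne
    · intro Q' hQ' hne hext P f hf
      have hnn : ¬ F.IsNormal Q' := fun h => hne (le_bot_iff.1 ((hle_core Q' h).trans hQ1.le))
      have hfin : Finite (normalizerIn S Q') := finite_of_le (normalizerIn_le S Q')
      have hpg : IsPGroup p (normalizerIn S Q') := isPGroup_of_le hS (normalizerIn_le S Q')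
      have hsat : (normSys F Q' hQ'.1).IsSaturated p := normSys_saturated hS hF hQ'
      have h1 := IH (normSys F Q' hQ'.1) hpg hsat (smaller_normSys hQ'.1 hnn)
        (hD.sub _ F (normalizerIn_le S Q') (fun _ _ h => normSys_fmap h) hsat hfree)
      exact hext P f hf (((isNormal_iff _).1 h1).2 P f hf)
  have hn : S ≤ Subgroup.normalizer (Q : Set Ω) := normalizes_of_stronglyClosed (isNormal_stronglyClosed hcore)
  have hQn : F.IsFullyNormalized Q := isFullyNormalized_of_normalizer hQS hn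
  by_cases hc : F.IsCentric Q
  · -- case B1
    obtain ⟨G, _, ι, hM⟩ := FusionModel.exists_isModel hS ⟨hF, Q, hcore, hc⟩
    obtain ⟨hGf, hr, ⟨T, hT⟩, hcen⟩ := id hM
    have h1 := hgrp F hS hF hfree G ι hM T hT
    rw [hT, Wof_map hW hS ι hr.1] at h1
    exact isNormal_of_im_normal hr (Wof_le S) h1
  · set QC := Q ⊔ centralizerIn S Q with hQC
    have hQCS : QC ≤ S := sup_le hQS (centralizerIn_le S Q)
    have hQCn : S ≤ Subgroup.normalizer (QC : Set Ω) := normalizer_sup_centralizerIn hn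
    have hfc : F.IsFullyCentralized Q := isFullyCentralized_of_receptive (receptive_of_fullyNormalized hS hF hQn)
    have hnn : ¬ F.IsNormal QC := by
      intro h
      apply hc
      rw [isCentric_iff_of_fullyCentralized hfc]
      exact le_sup_right.trans (hle_core _ h)
    have hQCfn : F.IsFullyNormalized QC := isFullyNormalized_of_normalizer hQCS hQCn
    have hfin : Finite (normalizerIn S QC) := finite_of_le (normalizerIn_le S QC)
    have hpg : IsPGroup p (normalizerIn S QC) := isPGroup_of_le hS (normalizerIn_le S QC)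
    have hsat : (normSys F QC hQCS).IsSaturated p := normSys_saturated hS hF hQCfn
    have h1 := IH (normSys F QC hQCS) hpg hsat (smaller_normSys hQCS hnn)
      (hD.sub _ F (normalizerIn_le S QC) (fun _ _ h => normSys_fmap h) hsat hfree)
    have e1 : Wof W (normalizerIn S QC) = Wof W S := congrArg _ (normalizerIn_eq_of_le hQCn)
    rw [e1] at h1
    have hsat2 : (sCent F Q hQS hn).IsSaturated p := sCent_saturated hS hF
    by_cases hsm : ∀ P f, FMap F P f → FMap (sCent F Q hQS hn) P f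
    · -- case B3
      exfalso
      obtain ⟨Ω', _, S', _, θ, E, hE, hS'p, hEs, hcard⟩ := exists_factor hS hF (isNormal_stronglyClosed hcore)
      have h2 := IH E hS'p hEs (Or.inl (hcard hQ1)) (hD.factor Q θ E hS hF hcore hE (fun P f hf => (fmap_sCent.1 (hsm P f hf)).2) hfree)
      have h3 := isNormal_pre hS hF hcore (fun P f hf => (fmap_sCent.1 (hsm P f hf)).2) hE h2
      have h4 := hle_core _ h3
      have hS'ne : S' ≠ ⊥ := by
        intro h
        apply hc
        have : Q = S := by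
          refine le_antisymm hQS fun x hx => ?_
          have h5 : ev θ x ∈ S' := ev_mem hE.2.2.1 hx
          rw [h, Subgroup.mem_bot] at h5
          exact (ev_eq_one_iff hE.2.1 hx).1 h5
        rw [this]; exact isCentric_top F
      apply hWne' S' hS'p hS'ne
      rw [eq_bot_iff]
      intro y hy
      obtain ⟨x, hx, rfl⟩ := exists_ev hE.2.2.1 ((Wof_le S') hy)
      have h5 : x ∈ Q := h4 (mem_pre.2 ⟨hx, hy⟩)
      exact Subgroup.mem_bot.2 ((ev_eq_one_iff hE.2.1 hx).2 h5)
    · have h2 := IH (sCent F Q hQS hn) hS hsat2 (smaller_sCent hsm)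
        (hD.sub _ F le_rfl (fun _ _ h => sCent_fmap h) hsat2 hfree)
      refine isNormal_of_extN (Wof_le S) ?_
      refine generation hS hF hcore hn (extN_closed (Wof_le S) hnS) ?_ ?_
      · intro P f hf
        obtain ⟨g, hg, hgf, hgW⟩ := ((isNormal_iff _).1 h1).2 P f hf
        exact ⟨g, normSys_fmap hg, hgf, normSys_fmap hgW.1, hgW.2⟩
      · intro P f hf
        obtain ⟨g, hg, hgf, hgW⟩ := ((isNormal_iff _).1 h2).2 P f hf
        exact ⟨g, sCent_fmap hg, hgf, sCent_fmap hgW.1, hgW.2⟩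


theorem isPStableOn_of_stable {p : ℕ} [Fact p.Prime] {Ω : Type u} [Group Ω] {S : Subgroup Ω} [Finite S]
    {F : FusionSystem S} {G : Type v} [Group G] [Finite G] {ι : S →* G} (h : F.IsRealizedBy ι) (T : Sylow p G)
    (hT : (T : Subgroup G) = ι.range) (hD : ∀ R ≤ S, Stable F p R) (V : Subgroup G) [V.Normal]
    (hV : IsPGroup p V) : Cfsg.IsPStableOn p V := by
  have hVT : V ≤ ι.range := by rw [← hT]; exact hV.le_sylow_of_normal T
  set R : Subgroup Ω := (V.comap ι).map S.subtype with hR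
  have hRS : R ≤ S := Subgroup.map_subtype_le _
  have hmem : ∀ x ∈ R, lift ι x ∈ V := by
    rintro _ ⟨s, hs, rfl⟩
    show lift ι (s : Ω) ∈ V
    rw [lift_coe]
    exact hs
  let ψ : R →* V := MonoidHom.mk' (fun x => ⟨lift ι x, hmem x x.2⟩) (fun x y => Subtype.ext (lift_mul (hRS x.2) (hRS y.2)))
  have hψ : ∀ x : R, ((ψ x : V) : G) = lift ι x := fun x => rfl
  have hψb : Function.Bijective ψ := by
    constructor
    · intro x y hxy
      exact Subtype.ext (lift_inj h.1 (hRS x.2) (hRS y.2) (congrArg Subtype.val hxy))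
    · intro v
      obtain ⟨s, hs⟩ := hVT v.2
      refine ⟨⟨s, ⟨s, ?_, rfl⟩⟩, Subtype.ext ?_⟩
      · show ι s ∈ V
        rw [hs]; exact v.2
      · rw [hψ, lift_coe, hs]
  let e : R ≃* V := MulEquiv.ofBijective ψ hψb
  have he : ∀ x : R, ((e x : V) : G) = lift ι x := fun x => rfl
  let γ : G →* MulAut R := (MulAut.congr e.symm).toMonoidHom.comp (MulAut.conjNormal)
  have hγ0 : ∀ (g : G) (x : R), e (γ g x) = MulAut.conjNormal g (e x) := fun g x => by
    show e (e.symm (MulAut.conjNormal g (e.symm.symm x))) = _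
    rw [MulEquiv.apply_symm_apply]
    rfl
  have hγ : ∀ (g : G) (x : R), lift ι ((γ g x : R) : Ω) = g * lift ι (x : Ω) * g⁻¹ := fun g x => by
    rw [← he, hγ0, MulAut.conjNormal_apply, he]
  have hγm : ∀ g : G, γ g ∈ F.autGroup R := by
    intro g
    refine mem_autGroup_of_fmap (f := autFun (γ g)) ?_ (fun x => (autFun_coe _ x).symm)
    rw [fmap_realized_iff h]
    refine ⟨hRS, fun x hx => ?_, g, fun x hx => ?_⟩
    · rw [autFun_of_mem _ hx]
      exact hRS (γ g ⟨x, hx⟩).2
    · rw [autFun_of_mem _ hx]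
      exact hγ g ⟨x, hx⟩
  rw [PStab.isPStableOn_iff]
  intro a ha
  have hq : Quad (γ a) := by
    rw [quad_iff]
    intro x
    apply e.injective
    have h1 : ⁅((e x : V) : G)⁻¹, a⁆ ∈ ⁅V, Subgroup.zpowers a⁆ :=
      Subgroup.commutator_mem_commutator (V.inv_mem (e x).2) (Subgroup.mem_zpowers _)
    have h2 : ⁅⁅((e x : V) : G)⁻¹, a⁆, a⁆ ∈ ⁅⁅V, Subgroup.zpowers a⁆, Subgroup.zpowers a⁆ :=
      Subgroup.commutator_mem_commutator h1 (Subgroup.mem_zpowers _)
    rw [ha, Subgroup.mem_bot, commutatorElement_eq_one_iff_commute] at h2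
    apply Subtype.ext
    have h3 : ((e (x⁻¹ * γ a x) : V) : G) = ⁅((e x : V) : G)⁻¹, a⁆ := by
      rw [map_mul, map_inv, hγ0]
      show ((e x : V) : G)⁻¹ * ((MulAut.conjNormal a (e x) : V) : G) = _
      rw [MulAut.conjNormal_apply, commutatorElement_def]
      group
    rw [hγ0, MulAut.conjNormal_apply, h3, ← h2.eq, mul_inv_cancel_right]
  obtain ⟨K, hK, hKn, hKp, haK⟩ := mem_opMap_iff.1 (hD R hRS _ (hγm a) hq)
  have hDn : (K.comap γ).Normal := ⟨fun k hk g => by
    show γ (g * k * g⁻¹) ∈ K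
    rw [map_mul, map_mul, map_inv]
    exact hKn _ (hγm g) _ hk⟩
  refine PStab.le_Dcore_of_isPGroup hDn ?_ (show γ a ∈ K from haK)
  rintro ⟨_, d, hd, rfl⟩
  obtain ⟨k, hk⟩ := hKp ⟨γ d, hd⟩
  refine ⟨k, Subtype.ext ?_⟩
  show (QuotientGroup.mk' (Subgroup.centralizer (V : Set G)) d) ^ p ^ k = 1
  rw [← map_pow, QuotientGroup.mk'_apply, QuotientGroup.eq_one_iff, Subgroup.mem_centralizer_iff]
  intro v hv
  have hk' : γ (d ^ p ^ k) = 1 := by
    rw [map_pow]; exact congrArg Subtype.val hk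
  have h1 := hγ (d ^ p ^ k) (e.symm ⟨v, hv⟩)
  rw [hk'] at h1
  have h2 : lift ι ((e.symm ⟨v, hv⟩ : R) : Ω) = v := by
    rw [← he, MulEquiv.apply_symm_apply]
  have h3 : (((1 : MulAut R) (e.symm ⟨v, hv⟩) : R) : Ω) = (e.symm ⟨v, hv⟩ : R) := rfl
  rw [h3, h2] at h1
  rw [eq_mul_inv_iff_mul_eq] at h1
  exact h1

/-- all subgroups are stable -/
def AllStable (p : ℕ) {Ω : Type u} [Group Ω] {S : Subgroup Ω} (F : FusionSystem S) : Prop := ∀ R ≤ S, Stable F p R

theorem hered_allStable (p : ℕ) [Fact p.Prime] (hp2 : p ≠ 2) : Hered'.{u} p (fun {Ω} _ {S} F => AllStable p F) where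
  sub := by
    intro Ω _ S S' E F hS' h _ hD R hR
    refine Stable.of_le ?_ (hD R (hR.trans hS'))
    intro α hα
    exact mem_autGroup_of_fmap (h _ _ (fmap_of_autGroup hR hα)) (fun x => (autFun_coe α x).symm)
  factor := by
    intro Ω _ S _ F Ω' _ S' T θ E hS hF hT hE hall hD
    exact StabQuotFus.stable_factor hp2 hS (isNormal_stronglyClosed hT) hall hE hD

theorem hgrp_stable (p : ℕ) [Fact p.Prime] (hp : p ≠ 2) {Ω : Type u} [Group Ω] {S : Subgroup Ω} [Finite S] (F : FusionSystem S)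
    (_ : IsPGroup p S) (_ : F.IsSaturated p) (hD : AllStable p F)
    (G : Type u) [Group G] [Finite G] (ι : S →* G) (hM : F.IsModel p G ι) (T : Sylow p G) (hT : (T : Subgroup G) = ι.range) :
      (Wof Wab (T : Subgroup G)).Normal := by
  have h1 : Wof Wab (T : Subgroup G) = ZJThm.ZJ (fun A => IsMulCommutative A) (T : Subgroup G) := by
    rw [← ZJThm.centerThompsonAOf_eq]
    exact induced_Wab (T : Subgroup G)
  rw [h1]
  refine (ZJThm.fam_ab (p := p)).zj_normal ?_ hp hM.2.2.2 ?_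
  · exact RelSylow.isSyl_top_iff T
  · intro V _ hV
    exact isPStableOn_of_stable hM.2.1 T hT hD V hV

theorem isNormal_zj_of_stable (p : ℕ) [Fact p.Prime] (hp : p ≠ 2) {Ω : Type u} [Group Ω] {S : Subgroup Ω} [Finite S]
    (F : FusionSystem S) (hS : IsPGroup p S) (hF : F.IsSaturated p) (hD : ∀ R ≤ S, Stable F p R) :
    F.IsNormal (Wof Wab S) :=
  normal_of_functor' p _ (hered_allStable p hp) Wab isChar_Wab.2 isChar_Wab.1
    (fun F hS hF hD G _ _ ι hM T hT => hgrp_stable p hp F hS hF hD G ι hM T hT) F hS hF hD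

end Cfsg.Agent.Lib.StabQuotMain
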