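import Mathlib

/-! # S4233: the abstract local condition (helper68) -/

set_option autoImplicit false

namespace Cfsg.Agent.Lib.Star68

/-- Normalizers of nontrivial `p`-subgroups are maximal, and a `q`-subgroup `Q` (`q ≠ p`) of the normalizer of
a nontrivial `p`-subgroup `H` has `H Q` normal in the normalizer of `H`. -/
structure Star (G : Type*) [Group G] : Prop where
  max : ∀ (p : ℕ) (H : Subgroup G), p.Prime → IsPGroup p H → H ≠ ⊥ →
    IsCoatom (Subgroup.normalizer (H : Set G))
  nrm : ∀ (p q : ℕ) (H Q : Subgroup G), p.Prime → q.Prime → p ≠ q → IsPGroup p H → H ≠ ⊥ →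
    IsPGroup q Q → Q ≤ Subgroup.normalizer (H : Set G) →
    Subgroup.normalizer (H : Set G) ≤ Subgroup.normalizer ((H ⊔ Q : Subgroup G) : Set G)

/-- `C_G(t)` is the normalizer of a subgroup `Q` of odd prime order `q`, has order `q 2^n`, and its
Sylow 2-subgroups do not centralize `Q`. -/
structure QS {G : Type*} [Group G] (t : G) (q : ℕ) (Q : Subgroup G) : Prop where
  pr : q.Prime
  ne : q ≠ 2
  card : Nat.card Q = q
  nz : Subgroup.normalizer (Q : Set G) = Subgroup.centralizer ({t} : Set G)
  cardC : ∃ n : ℕ, Nat.card (Subgroup.centralizer ({t} : Set G)) = q * 2 ^ n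
  ncen : ∀ T : Subgroup G, T ≤ Subgroup.centralizer ({t} : Set G) →
    Nat.card (Subgroup.centralizer ({t} : Set G)) = q * Nat.card T →
    ¬ (∀ a ∈ T, ∀ x ∈ Q, a * x = x * a)

end Cfsg.Agent.Lib.Star68
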