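import Mathlib
import Cfsg.Agent.Lib.ClSL2Syl
import Cfsg.Agent.Lib.ClSLn

/-! # S4233: facts on `PSL(2,13)` (helper68) -/

set_option autoImplicit false
set_option linter.all false

namespace Cfsg.Agent.Lib.Star68

open Subgroup

instance fact13 : Fact (Nat.Prime 13) := ⟨by norm_num⟩

local notation "SL13" => Matrix.SpecialLinearGroup (Fin 2) (ZMod 13)
local notation "PSL13" => Matrix.ProjectiveSpecialLinearGroup (Fin 2) (ZMod 13)

theorem card_psl13 : Nat.card PSL13 = 1092 := by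
  have h := Cfsg.Agent.Lib.ClSL2Syl.card_PSL2 (F := ZMod 13) (by rw [ZMod.card]; decide)
  rw [ZMod.card] at h
  omega

theorem simple_psl13 : IsSimpleGroup PSL13 :=
  Cfsg.Agent.Lib.ClSLn.isSimpleGroup_PSL (F := ZMod 13) (n := 2) le_rfl (fun _ => ⟨2, by decide, by decide⟩)

/-- the projection -/
def pr (x : SL13) : PSL13 := QuotientGroup.mk' (Subgroup.center SL13) x

theorem pr_mul (x y : SL13) : pr (x * y) = pr x * pr y := map_mul _ _ _
theorem pr_inv (x : SL13) : pr x⁻¹ = (pr x)⁻¹ := map_inv _ _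
theorem pr_pow (x : SL13) (n : ℕ) : pr (x ^ n) = pr x ^ n := map_pow _ _ _
theorem pr_one : pr 1 = 1 := map_one _

theorem pr_ne_one {x y : SL13} (h : x * y ≠ y * x) : pr x ≠ 1 := by
  intro h1
  apply h
  have h2 : x ∈ Subgroup.center SL13 := (QuotientGroup.eq_one_iff x).1 h1
  exact (Subgroup.mem_center_iff.1 h2 y).symm

def neg1 : SL13 := ⟨!![12, 0; 0, 12], by decide⟩

theorem neg1_mem : neg1 ∈ Subgroup.center SL13 := by
  rw [Matrix.SpecialLinearGroup.mem_center_iff]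
  refine ⟨12, by decide, ?_⟩
  ext i j; fin_cases i <;> fin_cases j <;> decide

theorem pr_neg1 : pr neg1 = 1 := (QuotientGroup.eq_one_iff _).2 neg1_mem

def x3 : SL13 := ⟨!![3, 0; 0, 9], by decide⟩
def g3 : SL13 := ⟨!![0, 1; 12, 0], by decide⟩
def x7 : SL13 := ⟨!![0, 1; 12, 7], by decide⟩
def g7 : SL13 := ⟨!![0, 5; 5, 0], by decide⟩
def x13 : SL13 := ⟨!![1, 1; 0, 1], by decide⟩
def g13 : SL13 := ⟨!![5, 0; 0, 8], by decide⟩
def gq : SL13 := ⟨!![3, 3; 2, 11], by decide⟩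

theorem orderOf_pr {p : ℕ} (hp : p.Prime) {x y : SL13} (hx : x ^ p = 1) (h : x * y ≠ y * x) : orderOf (pr x) = p := by
  haveI := Fact.mk hp
  exact orderOf_eq_prime (by rw [← pr_pow, hx, pr_one]) (pr_ne_one h)

theorem exists_inv {p : ℕ} (hp : p = 3 ∨ p = 7 ∨ p = 13) : ∃ x g : PSL13, orderOf x = p ∧ g * x * g⁻¹ = x⁻¹ := by
  rcases hp with rfl | rfl | rfl
  · refine ⟨pr x3, pr g3, orderOf_pr (by norm_num) (y := g3) (by decide) (by decide), ?_⟩
    rw [← pr_inv, ← pr_inv, ← pr_mul, ← pr_mul]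
    congr 1
    decide
  · refine ⟨pr x7, pr g7, orderOf_pr (by norm_num) (y := g7) (by decide) (by decide), ?_⟩
    rw [← pr_inv, ← pr_inv, ← pr_mul, ← pr_mul]
    congr 1
    decide
  · refine ⟨pr x13, pr g13, orderOf_pr (by norm_num) (y := g13) (by decide) (by decide), ?_⟩
    rw [← pr_inv, ← pr_inv, ← pr_mul, ← pr_mul]
    congr 1
    decide

theorem exists_four : ∃ a b g : PSL13, a * a = 1 ∧ b * b = 1 ∧ a ≠ 1 ∧ b ≠ 1 ∧ a ≠ b ∧ a * b = b * a ∧
    g * a * g⁻¹ = b ∧ g * b * g⁻¹ = a * b := by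
  refine ⟨pr g3, pr g7, pr gq, ?_, ?_, ?_, ?_, ?_, ?_, ?_, ?_⟩
  · rw [← pr_mul, show g3 * g3 = neg1 by decide, pr_neg1]
  · rw [← pr_mul, show g7 * g7 = neg1 by decide, pr_neg1]
  · exact pr_ne_one (y := x3) (by decide)
  · exact pr_ne_one (y := x3) (by decide)
  · intro h
    have h1 : pr (g3 * g7⁻¹) = 1 := by rw [pr_mul, pr_inv, h, mul_inv_cancel]
    exact pr_ne_one (x := g3 * g7⁻¹) (y := gq) (by decide) h1
  · rw [← pr_mul, show g3 * g7 = neg1 * (g7 * g3) by decide, pr_mul, pr_neg1, one_mul, pr_mul]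
  · rw [← pr_inv, ← pr_mul, ← pr_mul]
    congr 1
    decide
  · rw [← pr_inv, ← pr_mul, ← pr_mul, ← pr_mul]
    congr 1
    decide

end Cfsg.Agent.Lib.Star68
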