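import Mathlib
import Cfsg.Agent.Lib.Star68
import Cfsg.Agent.Lib.BSWBase

/-! # S4233, piece B: the 2-central case (helper49) -/

set_option autoImplicit false

namespace Cfsg.Agent.Lib.StarB49

open Cfsg.Agent.Lib
open scoped commutatorElement

variable {G : Type*} [Group G] [Finite G]

theorem mem_norm {Q : Subgroup G} {g : G} (hg : ∀ x ∈ Q, g * x * g⁻¹ ∈ Q) :
    g ∈ Subgroup.normalizer (Q : Set G) :=
  Subgroup.mem_normalizer_fintype hg

theorem norm_conj {Q : Subgroup G} {g x : G} (hg : g ∈ Subgroup.normalizer (Q : Set G)) (hx : x ∈ Q) :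
    g * x * g⁻¹ ∈ Q :=
  (Subgroup.mem_normalizer_iff.1 hg x).1 hx

theorem norm_conj' {Q : Subgroup G} {g x : G} (hg : g ∈ Subgroup.normalizer (Q : Set G)) (hx : x ∈ Q) :
    g⁻¹ * x * g ∈ Q := by
  have := norm_conj (inv_mem hg) hx
  simpa using this

/-- an element of `H Q` (commuting subgroups) of `q`-power order lies in `Q`. -/
theorem q_part {p q : ℕ} (hp : p.Prime) (hq : q.Prime) (hpq : p ≠ q) {H Q : Subgroup G}
    (hH : IsPGroup p H) (hQ : IsPGroup q Q) (hc : ∀ a ∈ H, ∀ b ∈ Q, a * b = b * a)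
    {x : G} (hx : x ∈ H ⊔ Q) {k : ℕ} (hk : x ^ q ^ k = 1) : x ∈ Q := by
  have hn : Q ≤ Subgroup.normalizer (H : Set G) := by
    intro b hb
    refine mem_norm fun a ha => ?_
    rw [← hc a ha b hb, mul_inv_cancel_right]
    exact ha
  have h2 := Subgroup.coe_mul_of_right_le_normalizer_left _ _ hn
  rw [← SetLike.mem_coe, h2] at hx
  obtain ⟨a, ha, b, hb, rfl⟩ := Set.mem_mul.1 hx
  obtain ⟨m, hm⟩ := hQ ⟨b, hb⟩
  have hm' : b ^ q ^ m = 1 := by simpa [Subtype.ext_iff] using hm
  have hab : Commute a b := hc a ha b hb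
  have h3 : a ^ q ^ (k + m) = 1 := by
    have h4 : (a * b) ^ q ^ (k + m) = 1 := by rw [pow_add, pow_mul, hk, one_pow]
    rw [hab.mul_pow] at h4
    have h5 : b ^ q ^ (k + m) = 1 := by rw [add_comm, pow_add, pow_mul, hm', one_pow]
    rwa [h5, mul_one] at h4
  obtain ⟨l, hl⟩ := hH ⟨a, ha⟩
  have hl' : a ^ p ^ l = 1 := by simpa [Subtype.ext_iff] using hl
  have h6 : a = 1 := by
    rw [← orderOf_eq_one_iff]
    have c1 := orderOf_dvd_of_pow_eq_one h3
    have c2 := orderOf_dvd_of_pow_eq_one hl'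
    exact Nat.eq_one_of_dvd_coprimes
      (Nat.Coprime.pow _ _ ((Nat.coprime_primes hp hq).2 hpq)) c2 c1
  simpa [h6] using hb

theorem norm_le {p q : ℕ} (h : Star68.Star G) (hp : p.Prime) (hq : q.Prime) (hpq : p ≠ q) {H Q : Subgroup G}
    (hH : IsPGroup p H) (hH1 : H ≠ ⊥) (hQ : IsPGroup q Q) (hc : ∀ a ∈ H, ∀ b ∈ Q, a * b = b * a) :
    Subgroup.normalizer (H : Set G) ≤ Subgroup.normalizer (Q : Set G) := by
  have hn : Q ≤ Subgroup.normalizer (H : Set G) := by
    intro b hb
    refine mem_norm fun a ha => ?_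
    rw [← hc a ha b hb, mul_inv_cancel_right]
    exact ha
  intro g hg
  have h1 := h.nrm p q H Q hp hq hpq hH hH1 hQ hn hg
  refine mem_norm fun x hx => ?_
  obtain ⟨m, hm⟩ := hQ ⟨x, hx⟩
  have hm' : x ^ q ^ m = 1 := by simpa [Subtype.ext_iff] using hm
  refine q_part hp hq hpq hH hQ hc (k := m) (norm_conj h1 ((le_sup_right : Q ≤ H ⊔ Q) hx)) ?_
  rw [conj_pow, hm']; simp

/-- fact (a) -/
theorem norm_eq {p q : ℕ} (h : Star68.Star G) (hp : p.Prime) (hq : q.Prime) (hpq : p ≠ q) {H Q : Subgroup G}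
    (hH : IsPGroup p H) (hH1 : H ≠ ⊥) (hQ : IsPGroup q Q) (hQ1 : Q ≠ ⊥)
    (hc : ∀ a ∈ H, ∀ b ∈ Q, a * b = b * a) :
    Subgroup.normalizer (H : Set G) = Subgroup.normalizer (Q : Set G) :=
  le_antisymm (norm_le h hp hq hpq hH hH1 hQ hc)
    (norm_le h hq hp hpq.symm hQ hQ1 hH fun b hb a ha => (hc a ha b hb).symm)

theorem cent_eq_norm {t : G} (ht : orderOf t = 2) :
    Subgroup.centralizer ({t} : Set G) = Subgroup.normalizer ((Subgroup.zpowers t : Subgroup G) : Set G) := by
  have hz : ∀ x, x ∈ Subgroup.zpowers t → x = 1 ∨ x = t := by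
    intro x hx
    obtain ⟨n, rfl⟩ := Subgroup.mem_zpowers_iff.1 hx
    have h1 : t * t = 1 := by rw [← pow_two, ← ht]; exact pow_orderOf_eq_one t
    rcases Int.even_or_odd n with ⟨m, rfl⟩ | ⟨m, rfl⟩
    · left
      rw [← two_mul, zpow_mul, zpow_two, h1, one_zpow]
    · right
      rw [zpow_add, zpow_mul, zpow_two, h1, one_zpow, one_mul, zpow_one]
  apply le_antisymm
  · intro g hg
    rw [Subgroup.mem_centralizer_singleton_iff] at hg
    refine mem_norm fun x hx => ?_
    rcases hz x hx with rfl | rfl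
    · simp
    · rw [hg, mul_inv_cancel_right]; exact hx
  · intro g hg
    have h1 := norm_conj hg (Subgroup.mem_zpowers t)
    rw [Subgroup.mem_centralizer_singleton_iff]
    rcases hz _ h1 with h2 | h2
    · exfalso
      have h3 : t = 1 := by
        calc t = g⁻¹ * (g * t * g⁻¹) * g := by group
          _ = 1 := by rw [h2]; group
      rw [h3] at ht; simp at ht
    · calc g * t = (g * t * g⁻¹) * g := by group
        _ = t * g := by rw [h2]

theorem isP_zpowers {t : G} (ht : orderOf t = 2) : IsPGroup 2 (Subgroup.zpowers t) := by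
  apply IsPGroup.of_card (n := 1)
  rw [Nat.card_zpowers, ht, pow_one]

/-- an element of 2-power order normalizing `Q` of prime order: involutions centralize or invert. -/
theorem invert_or {q : ℕ} (hq : q.Prime) {Q : Subgroup G} (hQ : Nat.card Q = q) {y : G}
    (hy : y ∈ Subgroup.normalizer (Q : Set G)) (hy2 : y * y = 1) :
    (∀ x ∈ Q, y * x = x * y) ∨ (∀ x ∈ Q, y * x * y⁻¹ = x⁻¹) := by
  have hyi : y⁻¹ = y := inv_eq_of_mul_eq_one_left hy2
  have hcyc : IsCyclic Q := by
    haveI : Fact q.Prime := ⟨hq⟩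
    exact isCyclic_of_prime_card hQ
  obtain ⟨⟨u, hu⟩, hgen⟩ := hcyc.exists_generator
  have hQg : ∀ x ∈ Q, ∃ n : ℤ, u ^ n = x := by
    intro x hx
    obtain ⟨n, hn⟩ := Subgroup.mem_zpowers_iff.1 (hgen ⟨x, hx⟩)
    exact ⟨n, by simpa [Subtype.ext_iff] using hn⟩
  have hou : orderOf u = q := by
    have h1 := orderOf_eq_card_of_forall_mem_zpowers hgen
    rw [hQ] at h1
    rw [← h1]
    exact (Subgroup.orderOf_mk u hu).symm
  obtain ⟨k, hk⟩ := hQg _ (norm_conj hy hu)
  have h1 : u ^ (k * k) = u := by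
    have h2 : y * (y * u * y⁻¹) * y⁻¹ = u := by
      rw [hyi]
      calc y * (y * u * y) * y = (y * y) * u * (y * y) := by group
        _ = u := by rw [hy2]; simp
    rw [← hk, ← conj_zpow, ← hk, ← zpow_mul] at h2
    exact h2
  have h3 : (q : ℤ) ∣ (k - 1) * (k + 1) := by
    have h4 : u ^ (k * k - 1) = 1 := by rw [zpow_sub, h1, zpow_one, mul_inv_cancel]
    have h5 := orderOf_dvd_iff_zpow_eq_one.2 h4
    rw [hou] at h5
    convert h5 using 1
    ring
  rcases (Nat.prime_iff_prime_int.1 hq).dvd_or_dvd h3 with h4 | h4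
  · left
    have h5 : u ^ k = u := by
      have h6 : u ^ (k - 1) = 1 := orderOf_dvd_iff_zpow_eq_one.1 (by rw [hou]; exact h4)
      calc u ^ k = u ^ (k - 1) * u := by rw [← zpow_add_one]; congr 1; ring
        _ = u := by rw [h6, one_mul]
    have h6 : Commute y u := by
      have h7 : y * u * y⁻¹ = u := by rw [← hk, h5]
      show y * u = u * y
      calc y * u = (y * u * y⁻¹) * y := by group
        _ = u * y := by rw [h7]
    intro x hx
    obtain ⟨n, rfl⟩ := hQg x hx
    exact h6.zpow_right n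
  · right
    have h5 : u ^ k = u⁻¹ := by
      have h6 : u ^ (k + 1) = 1 := orderOf_dvd_iff_zpow_eq_one.1 (by rw [hou]; exact h4)
      calc u ^ k = u ^ (k + 1) * u⁻¹ := by rw [← zpow_sub_one]; congr 1; ring
        _ = u⁻¹ := by rw [h6, one_mul]
    intro x hx
    obtain ⟨n, rfl⟩ := hQg x hx
    rw [← conj_zpow, ← hk, h5, inv_zpow]

/-- commutators of elements normalizing a subgroup of prime order centralize it. -/
theorem comm_cent {q : ℕ} (hq : q.Prime) {Q : Subgroup G} (hQ : Nat.card Q = q) {x y : G}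
    (hx : x ∈ Subgroup.normalizer (Q : Set G)) (hy : y ∈ Subgroup.normalizer (Q : Set G)) :
    ∀ u ∈ Q, (x * y * x⁻¹ * y⁻¹) * u = u * (x * y * x⁻¹ * y⁻¹) := by
  have hcyc : IsCyclic Q := by
    haveI : Fact q.Prime := ⟨hq⟩
    exact isCyclic_of_prime_card hQ
  obtain ⟨⟨u, hu⟩, hgen⟩ := hcyc.exists_generator
  have hQg : ∀ x ∈ Q, ∃ n : ℤ, u ^ n = x := by
    intro x hx
    obtain ⟨n, hn⟩ := Subgroup.mem_zpowers_iff.1 (hgen ⟨x, hx⟩)
    exact ⟨n, by simpa [Subtype.ext_iff] using hn⟩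
  obtain ⟨k, hk⟩ := hQg _ (norm_conj hx hu)
  obtain ⟨l, hl⟩ := hQg _ (norm_conj hy hu)
  have hxy : (x * y) * u * (x * y)⁻¹ = (y * x) * u * (y * x)⁻¹ := by
    have e1 : (x * y) * u * (x * y)⁻¹ = x * (y * u * y⁻¹) * x⁻¹ := by group
    have e2 : (y * x) * u * (y * x)⁻¹ = y * (x * u * x⁻¹) * y⁻¹ := by group
    rw [e1, e2, ← hl, ← hk, ← conj_zpow, ← conj_zpow, ← hk, ← hl, ← zpow_mul, ← zpow_mul, mul_comm]
  have hxy' : ∀ v ∈ Q, (x * y) * v * (x * y)⁻¹ = (y * x) * v * (y * x)⁻¹ := by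
    intro v hv
    obtain ⟨n, rfl⟩ := hQg v hv
    rw [← conj_zpow, ← conj_zpow, hxy]
  intro v hv
  have hw := norm_conj' (mul_mem hy hx) hv
  have h2 := hxy' _ hw
  have h3 : (x * y * x⁻¹ * y⁻¹) * v * (x * y * x⁻¹ * y⁻¹)⁻¹ = v := by
    calc (x * y * x⁻¹ * y⁻¹) * v * (x * y * x⁻¹ * y⁻¹)⁻¹
        = (x * y) * ((y * x)⁻¹ * v * (y * x)) * (x * y)⁻¹ := by group
      _ = (y * x) * ((y * x)⁻¹ * v * (y * x)) * (y * x)⁻¹ := h2
      _ = v := by group
  calc (x * y * x⁻¹ * y⁻¹) * v
      = ((x * y * x⁻¹ * y⁻¹) * v * (x * y * x⁻¹ * y⁻¹)⁻¹) * (x * y * x⁻¹ * y⁻¹) := by group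
    _ = v * (x * y * x⁻¹ * y⁻¹) := by rw [h3]


theorem QS.Q_le {t : G} {q : ℕ} {Q : Subgroup G} (hS : Star68.QS t q Q) :
    Q ≤ Subgroup.centralizer ({t} : Set G) := by
  rw [← hS.nz]; exact Subgroup.le_normalizer

theorem card_P (P : Sylow 2 G) : ∃ k, Nat.card (P : Subgroup G) = 2 ^ k :=
  (IsPGroup.iff_card.1 P.2)

theorem cop {q : ℕ} (hq : q.Prime) (hq2 : q ≠ 2) (P : Sylow 2 G) : Nat.Coprime q (Nat.card (P : Subgroup G)) := by
  obtain ⟨k, hk⟩ := card_P P
  rw [hk]
  exact Nat.Coprime.pow_right _ ((Nat.coprime_primes hq Nat.prime_two).2 hq2)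

theorem card_C (P : Sylow 2 G) {t : G} {q : ℕ} {Q : Subgroup G} (hS : Star68.QS t q Q)
    (hPC : (P : Subgroup G) ≤ Subgroup.centralizer ({t} : Set G)) :
    Nat.card (Subgroup.centralizer ({t} : Set G)) = q * Nat.card (P : Subgroup G) := by
  obtain ⟨n, hn⟩ := hS.cardC
  have h1 : Nat.card (P : Subgroup G) ∣ 2 ^ n := by
    have h2 := Subgroup.card_dvd_of_le hPC
    rw [hn] at h2
    exact (cop hS.pr hS.ne P).symm.dvd_of_dvd_mul_left h2
  have h3 : 2 ^ n ∣ Nat.card (P : Subgroup G) := by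
    rw [P.card_eq_multiplicity]
    apply pow_dvd_pow
    have h4 : 2 ^ n ∣ Nat.card G :=
      (Dvd.intro_left q rfl).trans (hn ▸ Subgroup.card_subgroup_dvd_card _)
    exact (Nat.Prime.pow_dvd_iff_le_factorization Nat.prime_two Nat.card_pos.ne').1 h4
  rw [hn, Nat.dvd_antisymm h1 h3]

theorem sup_eq (P : Sylow 2 G) {t : G} {q : ℕ} {Q : Subgroup G} (hS : Star68.QS t q Q)
    (hPC : (P : Subgroup G) ≤ Subgroup.centralizer ({t} : Set G)) :
    Q ⊔ (P : Subgroup G) = Subgroup.centralizer ({t} : Set G) := by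
  have hle : Q ⊔ (P : Subgroup G) ≤ Subgroup.centralizer ({t} : Set G) := sup_le (QS.Q_le hS) hPC
  apply Subgroup.eq_of_le_of_card_ge hle
  rw [card_C P hS hPC]
  apply Nat.le_of_dvd Nat.card_pos
  apply (cop hS.pr hS.ne P).mul_dvd_of_dvd_of_dvd
  · have := Subgroup.card_dvd_of_le (le_sup_left : Q ≤ Q ⊔ (P : Subgroup G))
    rwa [hS.card] at this
  · exact Subgroup.card_dvd_of_le le_sup_right

theorem form (P : Sylow 2 G) {t : G} {q : ℕ} {Q : Subgroup G} (hS : Star68.QS t q Q)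
    (hPC : (P : Subgroup G) ≤ Subgroup.centralizer ({t} : Set G)) {c : G}
    (hc : c ∈ Subgroup.centralizer ({t} : Set G)) : ∃ x ∈ Q, ∃ y ∈ P, c = x * y := by
  have h1 : (P : Subgroup G) ≤ Subgroup.normalizer (Q : Set G) := by rw [hS.nz]; exact hPC
  have h2 := Subgroup.coe_mul_of_right_le_normalizer_left _ _ h1
  rw [← sup_eq P hS hPC, ← SetLike.mem_coe, h2] at hc
  obtain ⟨x, hx, y, hy, rfl⟩ := Set.mem_mul.1 hc
  exact ⟨x, hx, y, hy, rfl⟩

theorem disj (P : Sylow 2 G) {t : G} {q : ℕ} {Q : Subgroup G} (hS : Star68.QS t q Q) {x : G}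
    (hx : x ∈ Q) (hy : x ∈ P) : x = 1 := by
  have h1 : Q ⊓ (P : Subgroup G) = ⊥ := by
    apply disjoint_iff.1
    apply Subgroup.disjoint_of_coprime_natCard
    rw [hS.card]; exact cop hS.pr hS.ne P
  have : x ∈ Q ⊓ (P : Subgroup G) := ⟨hx, hy⟩
  rwa [h1, Subgroup.mem_bot] at this

/-- (B2) -/
theorem norm_inf (P : Sylow 2 G) {t : G} {q : ℕ} {Q : Subgroup G} (hS : Star68.QS t q Q)
    (hPC : (P : Subgroup G) ≤ Subgroup.centralizer ({t} : Set G)) {c : G}
    (hc : c ∈ Subgroup.centralizer ({t} : Set G))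
    (hn : c ∈ Subgroup.normalizer ((P : Subgroup G) : Set G)) : c ∈ P := by
  obtain ⟨x, hx, y, hy, rfl⟩ := form P hS hPC hc
  have hPN : (P : Subgroup G) ≤ Subgroup.normalizer (Q : Set G) := by rw [hS.nz]; exact hPC
  have hxn : x ∈ Subgroup.normalizer ((P : Subgroup G) : Set G) := by
    have h1 : x = (x * y) * y⁻¹ := by group
    rw [h1]
    exact mul_mem hn (inv_mem (Subgroup.le_normalizer hy))
  have hcomm : ∀ a ∈ P, a * x = x * a := by
    intro a ha
    have h1 : x * a * x⁻¹ * a⁻¹ ∈ P := mul_mem (norm_conj hxn ha) (inv_mem ha)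
    have h2 : x * a * x⁻¹ * a⁻¹ ∈ Q := by
      have : x * a * x⁻¹ * a⁻¹ = x * (a * x⁻¹ * a⁻¹) := by group
      rw [this]
      exact mul_mem hx (norm_conj (hPN ha) (inv_mem hx))
    have h3 := disj P hS h2 h1
    calc a * x = (x * a * x⁻¹ * a⁻¹)⁻¹ * (x * a) := by group
      _ = x * a := by rw [h3]; group
  have hx1 : x = 1 := by
    by_contra hne
    apply hS.ncen (P : Subgroup G) hPC (card_C P hS hPC)
    intro a ha b hb
    have hgen : ∀ b ∈ Q, b ∈ Subgroup.zpowers x := by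
      intro b hb
      have h4 : Subgroup.zpowers x = Q := by
        have h5 : Subgroup.zpowers x ≤ Q := (Subgroup.zpowers_le).2 hx
        apply Subgroup.eq_of_le_of_card_ge h5
        rw [hS.card, Nat.card_zpowers]
        have h6 : orderOf x ∣ q := by
          have := Subgroup.card_dvd_of_le h5
          rwa [Nat.card_zpowers, hS.card] at this
        rcases (Nat.dvd_prime hS.pr).1 h6 with h7 | h7
        · exact absurd (orderOf_eq_one_iff.1 h7) hne
        · exact h7.ge
      rw [h4]; exact hb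
    obtain ⟨n, rfl⟩ := Subgroup.mem_zpowers_iff.1 (hgen b hb)
    exact (show Commute a x from hcomm a ha).zpow_right n
  rw [hx1, one_mul]; exact hy


theorem coatomC (h : Star68.Star G) {t : G} (ht : orderOf t = 2) :
    IsCoatom (Subgroup.centralizer ({t} : Set G)) := by
  rw [cent_eq_norm ht]
  apply h.max 2 _ Nat.prime_two (isP_zpowers ht)
  intro h1
  rw [Subgroup.zpowers_eq_bot] at h1
  rw [h1] at ht; simp at ht

theorem Q_ne {t : G} {q : ℕ} {Q : Subgroup G} (hS : Star68.QS t q Q) : Q ≠ ⊥ := by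
  intro h1
  have h2 := hS.card
  rw [h1, Subgroup.card_bot] at h2
  exact hS.pr.ne_one h2.symm

theorem isP_Q {t : G} {q : ℕ} {Q : Subgroup G} (hS : Star68.QS t q Q) : IsPGroup q Q := by
  apply IsPGroup.of_card (n := 1)
  rw [hS.card, pow_one]

theorem not_le (P : Sylow 2 G) {t : G} {q : ℕ} {Q : Subgroup G} (hS : Star68.QS t q Q) :
    ¬ Subgroup.centralizer ({t} : Set G) ≤ (P : Subgroup G) := by
  intro h1
  apply Q_ne hS
  rw [Subgroup.eq_bot_iff_forall]
  intro x hx
  exact disj P hS hx (h1 (QS.Q_le hS hx))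

/-- (B1) -/
theorem P_comm (h : Star68.Star G) (P : Sylow 2 G) {z : G} (hz : orderOf z = 2) {q : ℕ} {Q : Subgroup G}
    (hS : Star68.QS z q Q) (hPC : (P : Subgroup G) ≤ Subgroup.centralizer ({z} : Set G)) (hzP : z ∈ P) :
    ∀ x ∈ P, ∀ y ∈ P, x * y = y * x := by
  by_contra hcon
  push Not at hcon
  obtain ⟨x, hx, y, hy, hxy⟩ := hcon
  have hPN : (P : Subgroup G) ≤ Subgroup.normalizer (Q : Set G) := by rw [hS.nz]; exact hPC
  set T0 : Subgroup G := ⁅(P : Subgroup G), (P : Subgroup G)⁆ with hT0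
  have hT0P : T0 ≤ (P : Subgroup G) := by
    rw [hT0, Subgroup.commutator_le]
    intro a ha b hb
    rw [commutatorElement_def]
    exact mul_mem (mul_mem (mul_mem ha hb) (inv_mem ha)) (inv_mem hb)
  have hne : T0 ≠ ⊥ := by
    intro h0
    apply hxy
    have h1 : ⁅x, y⁆ ∈ T0 := Subgroup.commutator_mem_commutator hx hy
    rw [h0, Subgroup.mem_bot, commutatorElement_eq_one_iff_mul_comm] at h1
    exact h1
  have hcen : T0 ≤ Subgroup.centralizer (Q : Set G) := by
    rw [hT0, Subgroup.commutator_le]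
    intro a ha b hb
    rw [commutatorElement_def, Subgroup.mem_centralizer_iff]
    intro u hu
    exact (comm_cent hS.pr hS.card (hPN ha) (hPN hb) u hu).symm
  have hN : Subgroup.normalizer (T0 : Set G) = Subgroup.normalizer (Q : Set G) := by
    apply norm_eq h Nat.prime_two hS.pr hS.ne.symm (P.2.to_le hT0P) hne (isP_Q hS) (Q_ne hS)
    intro a ha b hb
    exact (Subgroup.mem_centralizer_iff.1 (hcen ha) b hb).symm
  have hPT : Subgroup.normalizer ((P : Subgroup G) : Set G) ≤ Subgroup.normalizer (T0 : Set G) := by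
    intro g hg
    refine mem_norm fun a ha => ?_
    have h1 : (P : Subgroup G).map (MulAut.conj g).toMonoidHom ≤ (P : Subgroup G) := by
      rintro _ ⟨b, hb, rfl⟩
      exact norm_conj hg hb
    have h2 : T0.map (MulAut.conj g).toMonoidHom ≤ T0 := by
      rw [hT0, Subgroup.map_commutator]
      exact Subgroup.commutator_mono h1 h1
    exact h2 ⟨a, ha, rfl⟩
  rw [hN, hS.nz] at hPT
  have hmP : IsCoatom (Subgroup.normalizer ((P : Subgroup G) : Set G)) := by
    apply h.max 2 _ Nat.prime_two P.2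
    intro h0
    have : z ∈ (P : Subgroup G) := hzP
    rw [h0, Subgroup.mem_bot] at this
    rw [this] at hz; simp at hz
  have hE : Subgroup.centralizer ({z} : Set G) ≤ Subgroup.normalizer ((P : Subgroup G) : Set G) := by
    rcases hmP.le_iff.1 hPT with h1 | h1
    · exact absurd h1 (coatomC h hz).1
    · exact h1.le
  apply not_le P hS
  intro c hc
  exact norm_inf P hS hPC hc (hE hc)

/-- common context: `P` abelian, all involutions of `P` are of type `QS`. -/
structure Ctx (P : Sylow 2 G) : Prop where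
  st : Star68.Star G
  comm : ∀ x ∈ P, ∀ y ∈ P, x * y = y * x
  all : ∀ t ∈ P, orderOf t = 2 → ∃ (q : ℕ) (Q : Subgroup G), Star68.QS t q Q

theorem Ctx.le {P : Sylow 2 G} (c : Ctx P) {t : G} (ht : t ∈ P) :
    (P : Subgroup G) ≤ Subgroup.centralizer ({t} : Set G) := by
  intro x hx
  rw [Subgroup.mem_centralizer_singleton_iff]
  exact c.comm x hx t ht

theorem pow_form {P : Subgroup G} {Q : Subgroup G} (hPN : P ≤ Subgroup.normalizer (Q : Set G)) {u y : G}
    (hu : u ∈ Q) (hy : y ∈ P) (n : ℕ) : ∃ v ∈ Q, (u * y) ^ n = v * y ^ n := by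
  induction n with
  | zero => exact ⟨1, one_mem _, by simp⟩
  | succ n ih =>
    obtain ⟨v, hv, hn⟩ := ih
    refine ⟨v * (y ^ n * u * (y ^ n)⁻¹), mul_mem hv (norm_conj (hPN (pow_mem hy n)) hu), ?_⟩
    rw [pow_succ, hn, pow_succ]
    group

/-- elements of `C` of order dividing `q` lie in `Q`. -/
theorem mem_Q (P : Sylow 2 G) {t : G} {q : ℕ} {Q : Subgroup G} (hS : Star68.QS t q Q)
    (hPC : (P : Subgroup G) ≤ Subgroup.centralizer ({t} : Set G)) {c : G}
    (hc : c ∈ Subgroup.centralizer ({t} : Set G)) (hq : c ^ q = 1) : c ∈ Q := by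
  obtain ⟨x, hx, y, hy, rfl⟩ := form P hS hPC hc
  have hPN : (P : Subgroup G) ≤ Subgroup.normalizer (Q : Set G) := by rw [hS.nz]; exact hPC
  obtain ⟨v, hv, hn⟩ := pow_form hPN hx hy q
  rw [hq] at hn
  have h1 : y ^ q = v⁻¹ := by
    calc y ^ q = v⁻¹ * (v * y ^ q) := by group
      _ = v⁻¹ := by rw [← hn, mul_one]
  have h2 : y ^ q = 1 := disj P hS (by rw [h1]; exact inv_mem hv) (pow_mem hy q)
  have h3 : y = 1 := by
    obtain ⟨m, hm⟩ := P.2 ⟨y, hy⟩
    have hm' : y ^ 2 ^ m = 1 := by simpa [Subtype.ext_iff] using hm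
    rw [← orderOf_eq_one_iff]
    exact Nat.eq_one_of_dvd_coprimes
      (Nat.Coprime.pow_left m ((Nat.coprime_primes Nat.prime_two hS.pr).2 hS.ne.symm))
      (orderOf_dvd_of_pow_eq_one hm') (orderOf_dvd_of_pow_eq_one h2)
  rw [h3, mul_one]; exact hx

/-- (B3) -/
theorem Ctx.b3 {P : Sylow 2 G} (c : Ctx P) {t : G} (ht : t ∈ P) {q : ℕ} {Q : Subgroup G}
    (hS : Star68.QS t q Q) {d : G} (hd : d ∈ Subgroup.normalizer ((P : Subgroup G) : Set G)) (hdP : d ∉ P)
    {a b : G} (ha : a ∈ P) (haQ : ∀ x ∈ Q, a * x = x * a) (hb : b ∈ P) (hbQ : ∀ x ∈ Q, b * x = x * b)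
    (hab : d * b * d⁻¹ = a) : a = 1 := by
  by_contra hne
  have hPC := c.le ht
  have hb1 : b ≠ 1 := by
    rintro rfl
    apply hne; rw [← hab]; simp
  have key : ∀ a ∈ P, a ≠ 1 → (∀ x ∈ Q, a * x = x * a) →
      Subgroup.normalizer ((Subgroup.zpowers a : Subgroup G) : Set G) = Subgroup.centralizer ({t} : Set G) := by
    intro a ha hne haQ
    rw [← hS.nz]
    apply norm_eq c.st Nat.prime_two hS.pr hS.ne.symm
      (P.2.to_le ((Subgroup.zpowers_le).2 ha)) _ (isP_Q hS) (Q_ne hS)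
    · intro u hu v hv
      obtain ⟨n, rfl⟩ := Subgroup.mem_zpowers_iff.1 hu
      exact ((show Commute a v from haQ v hv).zpow_left n)
    · rw [Ne, Subgroup.zpowers_eq_bot]; exact hne
  have hA := key a ha hne haQ
  have hB := key b hb hb1 hbQ
  apply hdP
  apply norm_inf P hS hPC _ hd
  rw [← hS.nz]
  refine mem_norm fun x hx => ?_
  apply mem_Q P hS hPC
  · have hxC : x ∈ Subgroup.normalizer ((Subgroup.zpowers b : Subgroup G) : Set G) := by
      rw [hB]; exact QS.Q_le hS hx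
    rw [← hA]
    refine mem_norm fun y hy => ?_
    obtain ⟨n, rfl⟩ := Subgroup.mem_zpowers_iff.1 hy
    have h1 : d * x * d⁻¹ * a ^ n * (d * x * d⁻¹)⁻¹ = d * (x * b ^ n * x⁻¹) * d⁻¹ := by
      rw [← hab, conj_zpow]; group
    rw [h1]
    obtain ⟨m, hm⟩ := Subgroup.mem_zpowers_iff.1 (norm_conj hxC (zpow_mem (Subgroup.mem_zpowers b) n))
    rw [← hm, ← conj_zpow, hab]
    exact zpow_mem (Subgroup.mem_zpowers a) m
  · rw [conj_pow]
    have h2 : x ^ q = 1 := by
      have := pow_card_eq_one' (x := (⟨x, hx⟩ : Q))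
      rw [hS.card] at this
      simpa [Subtype.ext_iff] using this
    rw [h2]; simp

/-- uniqueness of the involution of `P` centralizing `Q` -/
theorem Ctx.uniq {P : Sylow 2 G} (c : Ctx P) {t : G} (ht : t ∈ P) {q : ℕ} {Q : Subgroup G}
    (hS : Star68.QS t q Q) {d : G} (hd : d ∈ Subgroup.normalizer ((P : Subgroup G) : Set G)) (hdP : d ∉ P)
    {a b : G} (ha : a ∈ P) (haQ : ∀ x ∈ Q, a * x = x * a) (hb : b ∈ P) (hbQ : ∀ x ∈ Q, b * x = x * b)
    (ha2 : a * a = 1) (hb2 : b * b = 1) (ha1 : a ≠ 1) (hb1 : b ≠ 1) : a = b := by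
  have hPC := c.le ht
  have hPN : (P : Subgroup G) ≤ Subgroup.normalizer (Q : Set G) := by rw [hS.nz]; exact hPC
  have key : ∀ a ∈ P, (∀ x ∈ Q, a * x = x * a) → a * a = 1 → a ≠ 1 →
      ∀ x ∈ Q, (d * a * d⁻¹) * x * (d * a * d⁻¹)⁻¹ = x⁻¹ := by
    intro a ha haQ ha2 ha1
    have h1 : (d * a * d⁻¹) * (d * a * d⁻¹) = 1 := by
      calc (d * a * d⁻¹) * (d * a * d⁻¹) = d * (a * a) * d⁻¹ := by group
        _ = 1 := by rw [ha2]; group
    rcases invert_or hS.pr hS.card (hPN (norm_conj hd ha)) h1 with h2 | h2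
    · exfalso
      have h3 := c.b3 ht hS hd hdP (norm_conj hd ha) h2 ha haQ rfl
      apply ha1
      calc a = d⁻¹ * (d * a * d⁻¹) * d := by group
        _ = 1 := by rw [h3]; group
    · exact h2
  have hka := key a ha haQ ha2 ha1
  have hkb := key b hb hbQ hb2 hb1
  have h4 : (d * a * d⁻¹) * (d * b * d⁻¹) = 1 := by
    apply c.b3 ht hS hd hdP (mul_mem (norm_conj hd ha) (norm_conj hd hb)) _ (mul_mem ha hb) _ (by group)
    · intro x hx
      have e1 := hkb x hx
      have e2 := hka _ (inv_mem hx)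
      rw [inv_inv] at e2
      calc (d * a * d⁻¹) * (d * b * d⁻¹) * x
          = (d * a * d⁻¹) * ((d * b * d⁻¹) * x * (d * b * d⁻¹)⁻¹) * (d * a * d⁻¹)⁻¹ *
            ((d * a * d⁻¹) * (d * b * d⁻¹)) := by group
        _ = x * ((d * a * d⁻¹) * (d * b * d⁻¹)) := by rw [e1, e2]
    · intro x hx
      rw [mul_assoc, hbQ x hx, ← mul_assoc, haQ x hx, mul_assoc]
  have h5 : a * b = 1 := by
    calc a * b = d⁻¹ * ((d * a * d⁻¹) * (d * b * d⁻¹)) * d := by group
      _ = 1 := by rw [h4]; group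
  calc a = a * b * b⁻¹ := by group
    _ = b⁻¹ := by rw [h5, one_mul]
    _ = b := inv_eq_of_mul_eq_one_left hb2


theorem mem_zp {t x : G} (h1 : t * t = 1) (hx : x ∈ Subgroup.zpowers t) : x = 1 ∨ x = t := by
  obtain ⟨n, rfl⟩ := Subgroup.mem_zpowers_iff.1 hx
  rcases Int.even_or_odd n with ⟨m, rfl⟩ | ⟨m, rfl⟩
  · left
    rw [← two_mul, zpow_mul, zpow_two, h1, one_zpow]
  · right
    rw [zpow_add, zpow_mul, zpow_two, h1, one_zpow, one_mul, zpow_one]

theorem sq_one {t : G} (ht : orderOf t = 2) : t * t = 1 := by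
  rw [← pow_two, ← ht]; exact pow_orderOf_eq_one t

theorem ord_two {t : G} (h1 : t * t = 1) (h2 : t ≠ 1) : orderOf t = 2 :=
  orderOf_eq_prime (by rw [pow_two]; exact h1) h2

theorem Ctx.exists_d {P : Sylow 2 G} (c : Ctx P) {t : G} (ht : t ∈ P) (ht2 : orderOf t = 2) {q : ℕ} {Q : Subgroup G}
    (hS : Star68.QS t q Q) : ∃ d, d ∈ Subgroup.normalizer ((P : Subgroup G) : Set G) ∧ d ∉ P := by
  by_contra hcon
  push Not at hcon
  have h1 : Subgroup.normalizer ((P : Subgroup G) : Set G) = P :=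
    le_antisymm hcon Subgroup.le_normalizer
  have hmP : IsCoatom (Subgroup.normalizer ((P : Subgroup G) : Set G)) := by
    apply c.st.max 2 _ Nat.prime_two P.2
    intro h0
    have : t ∈ (P : Subgroup G) := ht
    rw [h0, Subgroup.mem_bot] at this
    rw [this] at ht2; simp at ht2
  rw [h1] at hmP
  rcases hmP.le_iff.1 (c.le ht) with h2 | h2
  · exact (coatomC c.st ht2).1 h2
  · exact not_le P hS h2.le

/-- elements of order 4 centralize `Q`. -/
theorem Ctx.four {P : Sylow 2 G} (c : Ctx P) {t : G} (ht : t ∈ P) (ht2 : orderOf t = 2) {q : ℕ} {Q : Subgroup G}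
    (hS : Star68.QS t q Q) {x : G} (hx : x ∈ P) (hxt : x * x = t) : ∀ u ∈ Q, x * u = u * x := by
  have hx1 : x ≠ 1 := by
    rintro rfl
    rw [one_mul] at hxt
    rw [← hxt] at ht2; simp at ht2
  have hPC := c.le ht
  have hPN : (P : Subgroup G) ≤ Subgroup.normalizer (Q : Set G) := by rw [hS.nz]; exact hPC
  have hzP : Subgroup.zpowers x ≤ (P : Subgroup G) := (Subgroup.zpowers_le).2 hx
  have h1 : Subgroup.normalizer ((Subgroup.zpowers x : Subgroup G) : Set G) ≤
      Subgroup.centralizer ({t} : Set G) := by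
    intro g hg
    rw [cent_eq_norm ht2]
    obtain ⟨m, hm⟩ := Subgroup.mem_zpowers_iff.1 (norm_conj hg (Subgroup.mem_zpowers x))
    have h2 : g * t * g⁻¹ = t ^ m := by
      calc g * t * g⁻¹ = (g * x * g⁻¹) * (g * x * g⁻¹) := by rw [← hxt]; group
        _ = x ^ m * x ^ m := by rw [hm]
        _ = t ^ m := by rw [← hxt, (Commute.refl x).mul_zpow]
    refine mem_norm fun y hy => ?_
    obtain ⟨n, rfl⟩ := Subgroup.mem_zpowers_iff.1 hy
    rw [← conj_zpow, h2]
    exact zpow_mem (zpow_mem (Subgroup.mem_zpowers t) m) n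
  have h3 : IsCoatom (Subgroup.normalizer ((Subgroup.zpowers x : Subgroup G) : Set G)) := by
    apply c.st.max 2 _ Nat.prime_two (P.2.to_le hzP)
    rw [Ne, Subgroup.zpowers_eq_bot]; exact hx1
  have h4 : Subgroup.centralizer ({t} : Set G) ≤
      Subgroup.normalizer ((Subgroup.zpowers x : Subgroup G) : Set G) := by
    rcases h3.le_iff.1 h1 with h5 | h5
    · exact absurd h5 (coatomC c.st ht2).1
    · exact h5.le
  intro u hu
  have h5 := h4 (QS.Q_le hS hu)
  have h6 : u * x * u⁻¹ * x⁻¹ ∈ P := hzP (mul_mem (norm_conj h5 (Subgroup.mem_zpowers x))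
    (inv_mem (Subgroup.mem_zpowers x)))
  have h7 : u * x * u⁻¹ * x⁻¹ ∈ Q := by
    have : u * x * u⁻¹ * x⁻¹ = u * (x * u⁻¹ * x⁻¹) := by group
    rw [this]
    exact mul_mem hu (norm_conj (hPN hx) (inv_mem hu))
  have h8 := disj P hS h7 h6
  calc x * u = (u * x * u⁻¹ * x⁻¹)⁻¹ * (u * x) := by group
    _ = u * x := by rw [h8]; group

theorem Ctx.moved {P : Sylow 2 G} (c : Ctx P) {t : G} (ht : t ∈ P) (ht2 : orderOf t = 2)
    {d : G} (hd : d ∈ Subgroup.normalizer ((P : Subgroup G) : Set G)) (hdP : d ∉ P) : d * t * d⁻¹ ≠ t := by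
  intro h1
  obtain ⟨q, Q, hS⟩ := c.all t ht ht2
  apply hdP
  apply norm_inf P hS (c.le ht) _ hd
  rw [Subgroup.mem_centralizer_singleton_iff]
  calc d * t = (d * t * d⁻¹) * d := by group
    _ = t * d := by rw [h1]

theorem Ctx.cen_t {t : G} {q : ℕ} {Q : Subgroup G} (hS : Star68.QS t q Q) : ∀ u ∈ Q, t * u = u * t := by
  intro u hu
  exact (Subgroup.mem_centralizer_singleton_iff.1 (QS.Q_le hS hu)).symm

/-- `P` is elementary abelian -/
theorem Ctx.elem {P : Sylow 2 G} (c : Ctx P) {x : G} (hx : x ∈ P) : x * x = 1 := by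
  by_contra hne
  -- an element of order 4
  have hex : ∃ y ∈ P, orderOf (y * y) = 2 := by
    obtain ⟨k, hk⟩ := (IsPGroup.iff_orderOf.1 P.2) ⟨x, hx⟩
    have hk' : orderOf x = 2 ^ k := by rw [← hk]; exact (Subgroup.orderOf_mk x hx).symm
    have hk2 : 2 ≤ k := by
      by_contra hlt
      push Not at hlt
      apply hne
      have h1 : orderOf x ∣ 2 := by
        rw [hk']
        have : 2 ^ k ∣ 2 ^ 1 := pow_dvd_pow 2 (by omega)
        simpa using this
      rw [← pow_two]
      exact orderOf_dvd_iff_pow_eq_one.1 h1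
    refine ⟨x ^ 2 ^ (k - 2), pow_mem hx _, ?_⟩
    rw [← pow_add, ← mul_two, ← pow_succ]
    have h3 : k - 2 + 1 = k - 1 := by omega
    rw [h3, orderOf_pow_of_dvd (by positivity) (by rw [hk']; exact pow_dvd_pow 2 (by omega)), hk']
    have h4 : 2 ^ k = 2 ^ (k - 1) * 2 := by rw [← pow_succ]; congr 1; omega
    rw [h4, Nat.mul_div_cancel_left _ (by positivity)]
  obtain ⟨y, hy, hy2⟩ := hex
  have htP : y * y ∈ P := mul_mem hy hy
  obtain ⟨q, Q, hS⟩ := c.all (y * y) htP hy2
  obtain ⟨d, hd, hdP⟩ := c.exists_d htP hy2 hS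
  have hm := c.moved htP hy2 hd hdP
  set t := y * y with htdef
  set s := d * t * d⁻¹ with hsdef
  have hsP : s ∈ P := norm_conj hd htP
  have ht1 : t * t = 1 := sq_one hy2
  have hs1 : s * s = 1 := by
    rw [hsdef]
    calc d * t * d⁻¹ * (d * t * d⁻¹) = d * (t * t) * d⁻¹ := by group
      _ = 1 := by rw [ht1]; group
  have hyQ := c.four htP hy2 hS hy rfl
  have hysQ : ∀ u ∈ Q, (y * s) * u = u * (y * s) := by
    apply c.four htP hy2 hS (mul_mem hy hsP)
    calc y * s * (y * s) = y * (s * y) * s := by group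
      _ = y * (y * s) * s := by rw [c.comm s hsP y hy]
      _ = (y * y) * (s * s) := by group
      _ = t := by rw [hs1, mul_one]
  have hsQ : ∀ u ∈ Q, s * u = u * s := by
    intro u hu
    have e1 : y * (s * u) = y * (u * s) := by
      calc y * (s * u) = (y * s) * u := by group
        _ = u * (y * s) := hysQ u hu
        _ = (u * y) * s := by group
        _ = (y * u) * s := by rw [hyQ u hu]
        _ = y * (u * s) := by group
    exact mul_left_cancel e1
  have ht_ne : t ≠ 1 := by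
    intro h0; rw [h0] at hy2; simp at hy2
  have hs_ne : s ≠ 1 := by
    intro h0
    apply ht_ne
    calc t = d⁻¹ * s * d := by rw [hsdef]; group
      _ = 1 := by rw [h0]; group
  exact hm (c.uniq htP hS hd hdP hsP hsQ htP (Ctx.cen_t hS) hs1 ht1 hs_ne ht_ne)

theorem Qcomm {t : G} {q : ℕ} {Q : Subgroup G} (hS : Star68.QS t q Q) :
    ∀ x ∈ Q, ∀ y ∈ Q, x * y = y * x := by
  have hf : Fact q.Prime := ⟨hS.pr⟩
  have hcyc : IsCyclic Q := isCyclic_of_prime_card hS.card
  letI := hcyc.commGroup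
  intro x hx y hy
  have := mul_comm (⟨x, hx⟩ : Q) ⟨y, hy⟩
  simpa [Subtype.ext_iff] using this


theorem caseB {G : Type*} [Group G] [Finite G] (h : Star68.Star G)
    (hB1 : ∀ t : G, orderOf t = 2 → ¬ IsPGroup 2 (Subgroup.centralizer ({t} : Set G)) →
      ∃ (q : ℕ) (Q : Subgroup G), Star68.QS t q Q)
    (P : Sylow 2 G) (z : G) (hzP : z ∈ P) (hz : orderOf z = 2) (hzc : ∀ x ∈ P, x * z = z * x)
    (hnot : ¬ IsPGroup 2 (Subgroup.centralizer ({z} : Set G))) :
    ∃ (t s : G) (K : Subgroup G) (q : ℕ), BSW.Setup t s K ∧ q.Prime ∧ q ≠ 2 ∧ Nat.card K = 2 * q := by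
  obtain ⟨q, Q, hS⟩ := hB1 z hz hnot
  have hPC : (P : Subgroup G) ≤ Subgroup.centralizer ({z} : Set G) := by
    intro x hx
    rw [Subgroup.mem_centralizer_singleton_iff]
    exact hzc x hx
  have hPN : (P : Subgroup G) ≤ Subgroup.normalizer (Q : Set G) := by rw [hS.nz]; exact hPC
  have hcomm := P_comm h P hz hS hPC hzP
  have c : Ctx P := by
    refine ⟨h, hcomm, fun t ht ht2 => hB1 t ht2 fun hp => ?_⟩
    have hle : (P : Subgroup G) ≤ Subgroup.centralizer ({t} : Set G) := by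
      intro x hx
      rw [Subgroup.mem_centralizer_singleton_iff]
      exact hcomm x hx t ht
    have he : Subgroup.centralizer ({t} : Set G) = P := P.is_maximal' hp hle
    have hcoat := coatomC h ht2
    rw [he] at hcoat
    rcases hcoat.le_iff.1 hPC with h1 | h1
    · exact (coatomC h hz).1 h1
    · exact not_le P hS h1.le
  obtain ⟨d, hd, hdP⟩ := c.exists_d hzP hz hS
  have hz1 : z * z = 1 := sq_one hz
  have hzne : z ≠ 1 := by rintro rfl; simp at hz
  have hzQ := Ctx.cen_t hS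
  have hel := fun x (hx : x ∈ P) => c.elem hx
  -- s
  obtain ⟨s, hsP, hsinv⟩ : ∃ s ∈ P, ∀ x ∈ Q, s * x * s⁻¹ = x⁻¹ := by
    have h1 := hS.ncen (P : Subgroup G) hPC (card_C P hS hPC)
    push Not at h1
    obtain ⟨s, hs, x, hx, hsx⟩ := h1
    rcases invert_or hS.pr hS.card (hPN hs) (hel s hs) with h2 | h2
    · exact absurd (h2 x hx) hsx
    · exact ⟨s, hs, h2⟩
  have hs1 : s * s = 1 := hel s hsP
  have hsi : s⁻¹ = s := inv_eq_of_mul_eq_one_left hs1
  have hzi : z⁻¹ = z := inv_eq_of_mul_eq_one_left hz1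
  -- a nontrivial element of Q
  obtain ⟨u, hu, hu1⟩ : ∃ u ∈ Q, u ≠ 1 := (Subgroup.ne_bot_iff_exists_ne_one.1 (Q_ne hS)).elim
    fun a ha => ⟨a, a.2, by simpa using ha⟩
  have hodd : ∀ x ∈ Q, x * x = 1 → x = 1 := by
    intro x hx hxx
    have h2 : x ^ q = 1 := by
      have := pow_card_eq_one' (x := (⟨x, hx⟩ : Q))
      rw [hS.card] at this
      simpa [Subtype.ext_iff] using this
    rw [← orderOf_eq_one_iff]
    exact Nat.eq_one_of_dvd_coprimes ((Nat.coprime_primes Nat.prime_two hS.pr).2 hS.ne.symm)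
      (orderOf_dvd_of_pow_eq_one (by rw [pow_two]; exact hxx)) (orderOf_dvd_of_pow_eq_one h2)
  have hsQ : ¬ ∀ x ∈ Q, s * x = x * s := by
    intro h1
    apply hu1
    apply hodd u hu
    have h2 := hsinv u hu
    rw [h1 u hu, mul_inv_cancel_right] at h2
    nth_rewrite 1 [h2]
    group
  have hsne : s ≠ 1 := by
    rintro rfl
    apply hsQ; intro x _; simp
  have hsz : s ≠ z := by
    rintro rfl
    exact hsQ hzQ
  have hA : ∀ y ∈ P, (∀ x ∈ Q, y * x = x * y) → y = 1 ∨ y = z := by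
    intro y hy hyQ
    by_cases hy1 : y = 1
    · exact Or.inl hy1
    · exact Or.inr (c.uniq hzP hS hd hdP hy hyQ hzP hzQ (hel y hy) hz1 hy1 hzne)
  have hcases : ∀ y ∈ P, y = 1 ∨ y = z ∨ y = s ∨ y = z * s := by
    intro y hy
    rcases invert_or hS.pr hS.card (hPN hy) (hel y hy) with h1 | h1
    · rcases hA y hy h1 with h2 | h2
      · exact Or.inl h2
      · exact Or.inr (Or.inl h2)
    · have h2 : ∀ x ∈ Q, (y * s) * x = x * (y * s) := by
        intro x hx
        have e1 := hsinv x hx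
        have e2 := h1 _ (inv_mem hx)
        rw [inv_inv] at e2
        calc (y * s) * x = (y * (s * x * s⁻¹) * y⁻¹) * (y * s) := by group
          _ = x * (y * s) := by rw [e1, e2]
      rcases hA _ (mul_mem hy hsP) h2 with h3 | h3
      · right; right; left
        calc y = (y * s) * s⁻¹ := by group
          _ = s := by rw [h3, one_mul, hsi]
      · right; right; right
        calc y = (y * s) * s⁻¹ := by group
          _ = z * s := by rw [h3, hsi]
  -- conjugacy in P
  have hzs2 : orderOf s = 2 := ord_two hs1 hsne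
  have hPz : ∀ y ∈ P, orderOf y = 2 → IsConj z y := by
    set y1 := d * z * d⁻¹ with hy1
    set y2 := d * y1 * d⁻¹ with hy2
    have hy1P : y1 ∈ P := norm_conj hd hzP
    have hy2P : y2 ∈ P := norm_conj hd hy1P
    have hy1z : y1 ≠ z := c.moved hzP hz hd hdP
    have hy1ne : y1 ≠ 1 := by
      intro h0
      apply hzne
      calc z = d⁻¹ * y1 * d := by rw [hy1]; group
        _ = 1 := by rw [h0]; group
    have hy1o : orderOf y1 = 2 := ord_two (hel _ hy1P) hy1ne
    have hy21 : y2 ≠ y1 := c.moved hy1P hy1o hd hdP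
    have hy2ne : y2 ≠ 1 := by
      intro h0
      apply hy1ne
      calc y1 = d⁻¹ * y2 * d := by rw [hy2]; group
        _ = 1 := by rw [h0]; group
    have hy2z : y2 ≠ z := by
      intro h0
      have hw : z * y1 ∈ P := mul_mem hzP hy1P
      have hwne : z * y1 ≠ 1 := by
        intro h1
        apply hy1z
        calc y1 = z⁻¹ * (z * y1) := by group
          _ = z := by rw [h1, mul_one, hzi]
      apply c.moved hw (ord_two (hel _ hw) hwne) hd hdP
      calc d * (z * y1) * d⁻¹ = y1 * y2 := by rw [hy2, hy1]; group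
        _ = y1 * z := by rw [h0]
        _ = z * y1 := hcomm _ hy1P _ hzP
    have c1 : IsConj z y1 := isConj_iff.2 ⟨d, hy1.symm⟩
    have c2 : IsConj z y2 := c1.trans (isConj_iff.2 ⟨d, hy2.symm⟩)
    intro y hy hyo
    have hyne : y ≠ 1 := by rintro rfl; simp at hyo
    rcases hcases y hy with h1 | h1 | h1 | h1
    · exact absurd h1 hyne
    · rw [h1]
    · rcases hcases y1 hy1P with h2 | h2 | h2 | h2
      · exact absurd h2 hy1ne
      · exact absurd h2 hy1z
      · rw [h1, ← h2]; exact c1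
      · rcases hcases y2 hy2P with h3 | h3 | h3 | h3
        · exact absurd h3 hy2ne
        · exact absurd h3 hy2z
        · rw [h1, ← h3]; exact c2
        · exact absurd (h3.trans h2.symm) hy21
    · rcases hcases y1 hy1P with h2 | h2 | h2 | h2
      · exact absurd h2 hy1ne
      · exact absurd h2 hy1z
      · rcases hcases y2 hy2P with h3 | h3 | h3 | h3
        · exact absurd h3 hy2ne
        · exact absurd h3 hy2z
        · exact absurd (h3.trans h2.symm) hy21
        · rw [h1, ← h3]; exact c2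
      · rw [h1, ← h2]; exact c1
  have hall : ∀ x : G, orderOf x = 2 → IsConj z x := by
    intro x hx
    obtain ⟨R, hR⟩ := (isP_zpowers hx).exists_le_sylow
    obtain ⟨g, hg⟩ := MulAction.exists_smul_eq G R P
    have hxR : x ∈ R := hR (Subgroup.mem_zpowers x)
    have h1 : g * x * g⁻¹ ∈ P := by
      rw [← hg]
      have : g * x * g⁻¹ ∈ ((g • R : Sylow 2 G) : Subgroup G) := by
        rw [Sylow.coe_subgroup_smul]
        exact Subgroup.smul_mem_pointwise_smul x (MulAut.conj g) (R : Subgroup G) hxR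
      exact this
    have h2 : orderOf (g * x * g⁻¹) = 2 := by
      rw [← hx]
      exact (MulAut.conj g).orderOf_eq x
    exact (hPz _ h1 h2).trans (isConj_iff.2 ⟨g⁻¹, by group⟩)
  -- K
  set K : Subgroup G := Subgroup.centralizer (Q : Set G) with hK
  have hKC : K ≤ Subgroup.centralizer ({z} : Set G) := by
    intro k hk
    rw [← hS.nz]
    refine mem_norm fun x hx => ?_
    have h1 := Subgroup.mem_centralizer_iff.1 hk x hx
    rw [← h1, mul_inv_cancel_right]
    exact hx
  have hQK : Q ≤ K := by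
    intro x hx
    rw [hK, Subgroup.mem_centralizer_iff]
    intro y hy
    exact Qcomm hS y hy x hx
  have hzK : z ∈ K := by
    rw [hK, Subgroup.mem_centralizer_iff]
    intro y hy
    exact (hzQ y hy).symm
  have hKf : ∀ k ∈ K, ∃ x ∈ Q, k = x ∨ k = x * z := by
    intro k hk
    obtain ⟨x, hx, y, hy, rfl⟩ := form P hS hPC (hKC hk)
    have hyK : y ∈ K := by
      have : y = x⁻¹ * (x * y) := by group
      rw [this]
      exact mul_mem (inv_mem (hQK hx)) hk
    have h1 : ∀ u ∈ Q, y * u = u * y := fun u hu => (Subgroup.mem_centralizer_iff.1 hyK u hu).symm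
    rcases hA y hy h1 with h2 | h2
    · exact ⟨x, hx, Or.inl (by rw [h2, mul_one])⟩
    · exact ⟨x, hx, Or.inr (by rw [h2])⟩
  have hKsq : ∀ k ∈ K, k * k ∈ Q := by
    intro k hk
    obtain ⟨x, hx, rfl | rfl⟩ := hKf k hk
    · exact mul_mem hx hx
    · have h1 : x * z * (x * z) = x * x := by
        calc x * z * (x * z) = x * (z * x) * z := by group
          _ = x * (x * z) * z := by rw [hzQ x hx]
          _ = x * x * (z * z) := by group
          _ = x * x := by rw [hz1, mul_one]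
      rw [h1]; exact mul_mem hx hx
  have hK2 : ∀ k ∈ K, k * k = 1 → k ≠ 1 → k = z := by
    intro k hk hkk hkne
    obtain ⟨x, hx, rfl | rfl⟩ := hKf k hk
    · exact absurd (hodd _ hx hkk) hkne
    · have h1 : x * z * (x * z) = x * x := by
        calc x * z * (x * z) = x * (z * x) * z := by group
          _ = x * (x * z) * z := by rw [hzQ x hx]
          _ = x * x * (z * z) := by group
          _ = x * x := by rw [hz1, mul_one]
      rw [h1] at hkk
      rw [hodd x hx hkk, one_mul]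
  have hinv : ∀ x ∈ K, s * x * s⁻¹ = x⁻¹ := by
    intro k hk
    obtain ⟨x, hx, rfl | rfl⟩ := hKf k hk
    · exact hsinv _ hx
    · calc s * (x * z) * s⁻¹ = (s * x * s⁻¹) * (s * z * s⁻¹) := by group
        _ = x⁻¹ * z := by
            rw [hsinv x hx, hcomm s hsP z hzP, mul_inv_cancel_right]
        _ = z⁻¹ * x⁻¹ := by
            rw [hzi]
            have := hzQ _ (inv_mem hx)
            exact this.symm
        _ = (x * z)⁻¹ := by group
  have hsK : s ∉ K := by
    intro h1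
    apply hsQ
    intro x hx
    exact (Subgroup.mem_centralizer_iff.1 h1 x hx).symm
  refine ⟨z, s, K, q, ⟨hz, ?_, hKC, hzK, hzs2, hPC hsP, hsK, ?_, ?_, hinv, ?_, ?_⟩, hS.pr, hS.ne, ?_⟩
  · intro x hx y hy
    obtain ⟨a, ha, rfl | rfl⟩ := hKf x hx
    · exact (Subgroup.mem_centralizer_iff.1 hy _ ha)
    · have e1 := Subgroup.mem_centralizer_iff.1 hy _ ha
      have e2 : y * z = z * y := Subgroup.mem_centralizer_singleton_iff.1 (hKC hy)
      calc a * z * y = a * (z * y) := by group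
        _ = a * (y * z) := by rw [e2]
        _ = (a * y) * z := by group
        _ = (y * a) * z := by rw [e1]
        _ = y * (a * z) := by group
  · apply le_antisymm
    · exact sup_le hKC ((Subgroup.zpowers_le).2 (hPC hsP))
    · intro g hg
      obtain ⟨x, hx, y, hy, rfl⟩ := form P hS hPC hg
      have hx' : x ∈ K ⊔ Subgroup.zpowers s := (le_sup_left : K ≤ _) (hQK hx)
      have hz' : z ∈ K ⊔ Subgroup.zpowers s := (le_sup_left : K ≤ _) hzK
      have hs' : s ∈ K ⊔ Subgroup.zpowers s := (le_sup_right : _ ≤ K ⊔ Subgroup.zpowers s) (Subgroup.mem_zpowers s)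
      apply mul_mem hx'
      rcases hcases y hy with h1 | h1 | h1 | h1
      · rw [h1]; exact one_mem _
      · rw [h1]; exact hz'
      · rw [h1]; exact hs'
      · rw [h1]; exact mul_mem hz' hs'
  · apply le_antisymm
    · rintro k ⟨hk, hks⟩
      have e1 : k * s = s * k := Subgroup.mem_centralizer_singleton_iff.1 hks
      have e2 := hinv k hk
      rw [← e1, mul_inv_cancel_right] at e2
      have e3 : k * k = 1 := by nth_rewrite 1 [e2]; group
      by_cases hk1 : k = 1
      · rw [hk1]; exact one_mem _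
      · rw [hK2 k hk e3 hk1]; exact Subgroup.mem_zpowers z
    · rw [Subgroup.zpowers_le]
      exact ⟨hzK, Subgroup.mem_centralizer_singleton_iff.2 (hcomm z hzP s hsP)⟩
  · intro g hg
    rw [Subgroup.eq_bot_iff_forall]
    rintro k ⟨hk, k', hk', hkk⟩
    by_contra hk1
    apply hg
    have hkk' : g * k' * g⁻¹ = k := hkk
    by_cases h2 : k' * k' = 1
    · have h3 : k' ≠ 1 := by
        rintro rfl
        apply hk1; rw [← hkk']; simp
      have h4 : k * k = 1 := by
        rw [← hkk']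
        calc g * k' * g⁻¹ * (g * k' * g⁻¹) = g * (k' * k') * g⁻¹ := by group
          _ = 1 := by rw [h2]; group
      have h5 := hK2 k' hk' h2 h3
      have h6 := hK2 k hk h4 hk1
      rw [h5, h6] at hkk'
      rw [Subgroup.mem_centralizer_singleton_iff]
      calc g * z = (g * z * g⁻¹) * g := by group
        _ = z * g := by rw [hkk']
    · rw [← hS.nz]
      have hgen : Subgroup.zpowers (k' * k') = Q := by
        have h5 : Subgroup.zpowers (k' * k') ≤ Q := (Subgroup.zpowers_le).2 (hKsq k' hk')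
        apply Subgroup.eq_of_le_of_card_ge h5
        rw [hS.card, Nat.card_zpowers]
        have h6 : orderOf (k' * k') ∣ q := by
          have := Subgroup.card_dvd_of_le h5
          rwa [Nat.card_zpowers, hS.card] at this
        rcases (Nat.dvd_prime hS.pr).1 h6 with h7 | h7
        · exact absurd (orderOf_eq_one_iff.1 h7) h2
        · exact h7.ge
      refine mem_norm fun x hx => ?_
      rw [← hgen] at hx
      obtain ⟨n, rfl⟩ := Subgroup.mem_zpowers_iff.1 hx
      rw [← conj_zpow]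
      apply zpow_mem
      have : g * (k' * k') * g⁻¹ = k * k := by rw [← hkk']; group
      rw [this]
      exact hKsq k hk
  · intro x y hx hy
    exact (hall x hx).symm.trans (hall y hy)
  · have hd1 : q ∣ Nat.card K := by
      have := Subgroup.card_dvd_of_le hQK
      rwa [hS.card] at this
    have hd2 : 2 ∣ Nat.card K := by
      have := Subgroup.card_dvd_of_le ((Subgroup.zpowers_le).2 hzK)
      rwa [Nat.card_zpowers, hz] at this
    have hd3 : 2 * q ∣ Nat.card K :=
      ((Nat.coprime_primes Nat.prime_two hS.pr).2 hS.ne.symm).mul_dvd_of_dvd_of_dvd hd2 hd1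
    have hle : Nat.card K ≤ 2 * q := by
      have h1 : (K : Set G) ⊆ (Q : Set G) ∪ ((fun x => x * z) '' (Q : Set G)) := by
        intro k hk
        obtain ⟨x, hx, h2 | h2⟩ := hKf k hk
        · left; rw [h2]; exact hx
        · right; exact ⟨x, hx, h2.symm⟩
      have h2 := Set.ncard_le_ncard h1 (Set.toFinite _)
      have h3 := Set.ncard_union_le (Q : Set G) ((fun x => x * z) '' (Q : Set G))
      have h4 := Set.ncard_image_le (f := fun x : G => x * z) (Set.toFinite (Q : Set G))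
      have h5 : (Q : Set G).ncard = q := hS.card
      have h6 : (K : Set G).ncard = Nat.card K := rfl
      omega
    exact le_antisymm hle (Nat.le_of_dvd Nat.card_pos hd3)

end Cfsg.Agent.Lib.StarB49
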