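import Cfsg.Agent.Lib.Star68
import Cfsg.Agent.Lib.DihBSW
import Cfsg.Agent.Lib.PSL2OfData
import Cfsg.Agent.Lib.MobPlat
import Cfsg.Agent.Lib.ClSeven
import Cfsg.Agent.Lib.H10TCI

/-!
# S4233, piece I: identification of `PSL(2,13)` (helper41)
-/

set_option autoImplicit false
set_option linter.unusedSectionVars false

namespace Cfsg.Agent.Lib.StarI41

open Cfsg.Agent.Lib Cfsg.Agent.Lib.BSW Cfsg.Agent.Lib.Involutions
open scoped Pointwise

section gen

variable {G : Type*} [Group G]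

theorem odd_sq_mem [Finite G] {H C : Subgroup G} (hodd : Odd (Nat.card C)) {c : G} (hc : c ∈ C)
    (h2 : c * c ∈ H) : c ∈ H := by
  obtain ⟨m, hm⟩ := hodd
  have h5 : (⟨c, hc⟩ : C) ^ Nat.card C = 1 := pow_card_eq_one'
  have h6 : c ^ (2 * m + 1) = 1 := by rw [← hm]; exact congrArg Subtype.val h5
  have h7 : c = ((c * c) ^ m)⁻¹ := by
    apply eq_inv_of_mul_eq_one_right
    rw [← pow_two, ← pow_mul, ← pow_succ]; exact h6
  rw [h7]; exact H.inv_mem (H.pow_mem h2 m)

/-- elements of `⟨y⟩⟨a⟩` where the involution `a` inverts `y` -/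
theorem mem_dih {y a x : G} (ha : orderOf a = 2) (hay : a * y * a⁻¹ = y⁻¹)
    (hx : x ∈ Subgroup.zpowers y ⊔ Subgroup.zpowers a) :
    x ∈ Subgroup.zpowers y ∨ ∃ d ∈ Subgroup.zpowers y, x = d * a := by
  have hn : Subgroup.zpowers a ≤ Subgroup.normalizer (Subgroup.zpowers y : Set G) := by
    rw [Subgroup.zpowers_le, Subgroup.mem_normalizer_iff]
    have h1 : ∀ z ∈ Subgroup.zpowers y, a * z * a⁻¹ ∈ Subgroup.zpowers y := by
      rintro _ ⟨i, rfl⟩
      have h2 : a * y ^ i * a⁻¹ = (a * y * a⁻¹) ^ i := by rw [conj_zpow]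
      change a * y ^ i * a⁻¹ ∈ _
      rw [h2, hay]
      exact zpow_mem (inv_mem (Subgroup.mem_zpowers y)) i
    intro z
    refine ⟨h1 z, fun h2 => ?_⟩
    have h3 := h1 _ h2
    have h4 : a * (a * z * a⁻¹) * a⁻¹ = z := by
      calc a * (a * z * a⁻¹) * a⁻¹ = (a * a) * z * (a * a)⁻¹ := by group
        _ = z := by rw [mul_self ha]; group
    rwa [h4] at h3
  rw [← SetLike.mem_coe, Subgroup.coe_mul_of_right_le_normalizer_left _ _ hn, Set.mem_mul] at hx
  obtain ⟨d, hd, b, hb, rfl⟩ := hx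
  obtain ⟨n, rfl⟩ := Subgroup.mem_zpowers_iff.1 hb
  have h1 := mul_self ha
  rcases Int.even_or_odd n with ⟨m, rfl⟩ | ⟨m, rfl⟩
  · left
    rw [← two_mul, zpow_mul, zpow_two, h1, one_zpow, mul_one]; exact hd
  · right
    exact ⟨d, hd, by rw [zpow_add, zpow_mul, zpow_two, h1, one_zpow, one_mul, zpow_one]⟩

theorem normalizes_zpowers {y a : G} (ha : orderOf a = 2) (hay : a * y * a⁻¹ = y⁻¹) :
    Subgroup.zpowers a ≤ Subgroup.normalizer (Subgroup.zpowers y : Set G) := by
  rw [Subgroup.zpowers_le, Subgroup.mem_normalizer_iff]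
  have h1 : ∀ z ∈ Subgroup.zpowers y, a * z * a⁻¹ ∈ Subgroup.zpowers y := by
    rintro _ ⟨i, rfl⟩
    have h2 : a * y ^ i * a⁻¹ = (a * y * a⁻¹) ^ i := by rw [conj_zpow]
    change a * y ^ i * a⁻¹ ∈ _
    rw [h2, hay]
    exact zpow_mem (inv_mem (Subgroup.mem_zpowers y)) i
  intro z
  refine ⟨h1 z, fun h2 => ?_⟩
  have h3 := h1 _ h2
  have h4 : a * (a * z * a⁻¹) * a⁻¹ = z := by
    calc a * (a * z * a⁻¹) * a⁻¹ = (a * a) * z * (a * a)⁻¹ := by group
      _ = z := by rw [mul_self ha]; group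
  rwa [h4] at h3

/-- A real outside element `y` of prime order is self-centralizing. -/
theorem card_real [Finite G] (hst : Star68.Star G) {t s : G} {K : Subgroup G}
    (hS : BSW.Setup t s K) {y : G} (hy : BSW.Out K y) {p : ℕ} (hp : p.Prime) (hyp : orderOf y = p)
    (hF : 0 < Nat.card (InvPairs y)) : Nat.card (InvPairs y) = p := by
  cases nonempty_fintype G
  have hp2 : p ≠ 2 := by
    rintro rfl
    exact hS.not_out_invol hyp hy
  obtain ⟨a, ha, hay⟩ := Setup.exists_inverting hF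
  have hinv := hS.centralizer_inverted hy ha hay
  have hodd := hS.odd_centralizer hy
  have hac : a ∉ Subgroup.centralizer ({y} : Set G) := by
    intro h1
    have h2 := Subgroup.mem_centralizer_singleton_iff.1 h1
    have h3 : a * y * a⁻¹ = y := by rw [h2]; group
    rw [hay] at h3
    apply hS.sq_ne_one hy
    nth_rewrite 1 [← h3]
    group
  have hn := hst.nrm p 2 (Subgroup.zpowers y) (Subgroup.zpowers a) hp Nat.prime_two hp2
    (isPGroup_zp hyp) (by rw [Ne, Subgroup.zpowers_eq_bot]; exact ne_one_of_orderOf hp hyp)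
    (isPGroup_zp ha) (normalizes_zpowers ha hay)
  have hC : Subgroup.centralizer ({y} : Set G) = Subgroup.zpowers y := by
    apply le_antisymm
    · intro c hc
      apply odd_sq_mem hodd hc
      have h0 : Subgroup.zpowers y ≤ Subgroup.centralizer ({y} : Set G) := by
        rw [Subgroup.zpowers_le]; exact self_mem y
      have h1 : c ∈ Subgroup.normalizer (Subgroup.zpowers y : Set G) := by
        apply Subgroup.centralizer_le_normalizer
        rw [Subgroup.mem_centralizer_iff]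
        rintro _ ⟨i, rfl⟩
        have : Commute y c := (Subgroup.mem_centralizer_singleton_iff.1 hc).symm
        exact this.zpow_left i
      have h2 := hn h1
      rw [Subgroup.mem_normalizer_iff] at h2
      have h3 := (h2 a).1 (Subgroup.mem_sup_right (Subgroup.mem_zpowers a))
      have h4 : c * a * c⁻¹ = c * c * a := by
        have h5 := hinv _ (inv_mem hc)
        rw [inv_inv] at h5
        calc c * a * c⁻¹ = c * (a * c⁻¹ * a⁻¹) * a := by group
          _ = c * c * a := by rw [h5]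
      rw [h4] at h3
      have h5 : c * c ∈ Subgroup.zpowers y ⊔ Subgroup.zpowers a := by
        have := mul_mem h3 (inv_mem (Subgroup.mem_sup_right (Subgroup.mem_zpowers a) :
          a ∈ Subgroup.zpowers y ⊔ Subgroup.zpowers a))
        rwa [mul_inv_cancel_right] at this
      rcases mem_dih ha hay h5 with h6 | ⟨d, hd, h6⟩
      · exact h6
      · exfalso
        apply hac
        have h7 : a = d⁻¹ * (c * c) := by rw [h6]; group
        rw [h7]
        exact mul_mem (inv_mem (h0 hd)) (mul_mem hc hc)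
    · rw [Subgroup.zpowers_le]; exact self_mem y
  rw [hS.card_C_eq hy hF, hC, Nat.card_zpowers, hyp]

/-- the permutations -/
def sg : alternatingGroup (Fin 5) := ⟨c[0, 1, 2, 3, 4], Equiv.Perm.mem_alternatingGroup.2 (by decide)⟩
/-- the permutations -/
def ta : alternatingGroup (Fin 5) := ⟨c[1, 4] * c[2, 3], Equiv.Perm.mem_alternatingGroup.2 (by decide)⟩
/-- the permutations -/
def ga : alternatingGroup (Fin 5) := ⟨c[0, 1, 2], Equiv.Perm.mem_alternatingGroup.2 (by decide)⟩

theorem ta_sg : ta * sg * ta⁻¹ = sg⁻¹ := by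
  apply Subtype.ext
  change (c[1, 4] * c[2, 3] : Equiv.Perm (Fin 5)) * c[0, 1, 2, 3, 4] * (c[1, 4] * c[2, 3])⁻¹ = (c[0, 1, 2, 3, 4])⁻¹
  decide
theorem sg_five : sg ^ 5 = 1 := by
  apply Subtype.ext
  change (c[0, 1, 2, 3, 4] : Equiv.Perm (Fin 5)) ^ 5 = 1
  decide
theorem sg_ne : sg ≠ 1 := by
  intro h
  have h1 : (c[0, 1, 2, 3, 4] : Equiv.Perm (Fin 5)) = 1 := congrArg Subtype.val h
  revert h1; decide
theorem ta_two : ta * ta = 1 := by
  apply Subtype.ext
  change (c[1, 4] * c[2, 3] : Equiv.Perm (Fin 5)) * (c[1, 4] * c[2, 3]) = 1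
  decide
theorem ga_sg (i : Fin 5) : ga * sg * ga⁻¹ ≠ sg ^ (i : ℕ) := by
  intro h
  have h1 : (c[0, 1, 2] : Equiv.Perm (Fin 5)) * c[0, 1, 2, 3, 4] * (c[0, 1, 2])⁻¹ = (c[0, 1, 2, 3, 4]) ^ (i : ℕ) :=
    congrArg Subtype.val h
  revert i; decide

/-- In the configuration `a, b` of order `5, 2` in a proper subgroup. -/
theorem no_alt5 [Finite G] (hst : Star68.Star G) (hG : Nat.card G = 660)
    (φ : alternatingGroup (Fin 5) →* G) (hφ : Function.Injective φ) {D : Subgroup G}
    (hDc : Nat.card D = 5)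
    (hD : ∀ X : Subgroup G, X ≤ D → X ≠ ⊥ →
        Subgroup.normalizer (X : Set G) = Subgroup.normalizer (D : Set G) ∧
        ∃ u : G, orderOf u = 2 ∧ u ∉ D ∧ (∀ d ∈ D, u * d * u⁻¹ = d⁻¹) ∧
          Subgroup.normalizer (D : Set G) = D ⊔ Subgroup.zpowers u) : False := by
  classical
  cases nonempty_fintype G
  have h5 : Fact (Nat.Prime 5) := ⟨by norm_num⟩
  have ho : orderOf (φ sg) = 5 := by
    apply orderOf_eq_prime
    · rw [← map_pow, sg_five, map_one]
    · intro h
      exact sg_ne (hφ (by rw [h, map_one]))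
  have hidx : ¬ 5 ∣ D.index := by
    intro h
    have h1 := D.card_mul_index
    rw [hDc, hG] at h1
    omega
  obtain ⟨g, hg⟩ := exists_conj_mem D hidx _ (isPGroup_zp ho)
  let ψ : alternatingGroup (Fin 5) →* G := (MulAut.conj g).toMonoidHom.comp φ
  have hψ : Function.Injective ψ := (MulAut.conj g).injective.comp hφ
  have hψσ : ψ sg ∈ D := hg _ (Subgroup.mem_zpowers _)
  have hoψ : orderOf (ψ sg) = 5 := by
    change orderOf (g * φ sg * g⁻¹) = 5
    rw [orderOf_conj, ho]
  have hDa : Subgroup.zpowers (ψ sg) = D := by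
    apply Subgroup.eq_of_le_of_card_ge
    · rw [Subgroup.zpowers_le]; exact hψσ
    · rw [Nat.card_zpowers, hoψ, hDc]
  have hDbot : D ≠ ⊥ := by
    rintro rfl
    simp at hDc
  obtain ⟨-, u, hu, huD, hui, hND⟩ := hD D le_rfl hDbot
  have hmax := hst.max 5 D (by norm_num) (by rw [← hDa]; exact isPGroup_zp hoψ) hDbot
  have hb : ψ ta * ψ sg * (ψ ta)⁻¹ = (ψ sg)⁻¹ := by
    rw [← map_mul, ← map_inv, ← map_mul, ta_sg, map_inv]
  have hbo : orderOf (ψ ta) = 2 := by
    rw [orderOf_eq_two_iff']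
    refine ⟨by rw [← map_mul, ta_two, map_one], fun h => ?_⟩
    rw [h] at hb
    have h2 : ψ sg * ψ sg = 1 := by
      nth_rewrite 1 [show ψ sg = 1 * ψ sg * 1⁻¹ by group]
      rw [hb]; group
    have h3 : orderOf (ψ sg) ∣ 2 := orderOf_dvd_of_pow_eq_one (by rw [pow_two]; exact h2)
    rw [hoψ] at h3
    norm_num at h3
  have hbN : ψ ta ∈ Subgroup.normalizer (D : Set G) := by
    rw [← hDa]
    exact normalizes_zpowers hbo hb (Subgroup.mem_zpowers _)
  have hua : u * ψ sg * u⁻¹ = (ψ sg)⁻¹ := hui _ hψσ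
  have hbN' : ψ ta ∈ Subgroup.zpowers (ψ sg) ⊔ Subgroup.zpowers u := by
    rw [hDa, ← hND]; exact hbN
  rcases mem_dih hu hua hbN' with h | ⟨d, hd, h⟩
  · have h1 : ψ ta * ψ sg = ψ sg * ψ ta := by
      obtain ⟨i, hi⟩ := h
      have hi' : ψ sg ^ i = ψ ta := hi
      rw [← hi']
      exact ((Commute.refl (ψ sg)).zpow_left i).eq
    have h2 : ψ sg = (ψ sg)⁻¹ := by
      rw [← hb, h1]; group
    have h3 : ψ sg * ψ sg = 1 := by
      nth_rewrite 1 [h2]
      exact inv_mul_cancel _
    have h4 : orderOf (ψ sg) ∣ 2 := orderOf_dvd_of_pow_eq_one (by rw [pow_two]; exact h3)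
    rw [hoψ] at h4
    norm_num at h4
  · have hle1 : Subgroup.zpowers (ψ sg) ≤ ψ.range := by
      rw [Subgroup.zpowers_le]; exact ⟨sg, rfl⟩
    have hur : u ∈ ψ.range := by
      have h1 : u = d⁻¹ * ψ ta := by rw [h]; group
      rw [h1]
      exact mul_mem (inv_mem (hle1 hd)) ⟨ta, rfl⟩
    have hle : Subgroup.normalizer (D : Set G) ≤ ψ.range := by
      rw [hND, sup_le_iff]
      refine ⟨by rw [← hDa]; exact hle1, ?_⟩
      rw [Subgroup.zpowers_le]; exact hur
    rcases eq_or_lt_of_le hle with h1 | h1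
    · have h2 : ψ ga ∈ Subgroup.normalizer (D : Set G) := by rw [h1]; exact ⟨ga, rfl⟩
      have h3 := (Subgroup.mem_normalizer_iff.1 h2 (ψ sg)).1 hψσ
      rw [← hDa, ← map_inv, ← map_mul, ← map_mul,
        (isOfFinOrder_of_finite (ψ sg)).mem_zpowers_iff_mem_range_orderOf, hoψ] at h3
      obtain ⟨i, hi, hi2⟩ := Finset.mem_image.1 h3
      have h4 : sg ^ i = ga * sg * ga⁻¹ := hψ (by rw [map_pow]; exact hi2)
      exact ga_sg ⟨i, Finset.mem_range.1 hi⟩ h4.symm
    · have h2 := hmax.2 _ h1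
      have h3 : Nat.card ψ.range = 60 := by
        rw [← H10TCI.card_A5]
        exact (Nat.card_congr (MonoidHom.ofInjective hψ).toEquiv).symm
      rw [h2, Subgroup.card_top, hG] at h3
      omega

theorem cube_eq {n m : ℕ} (hm : 1 ≤ m) (h : n * (n + 1) * (n - 1) = m * (m + 1) * (m - 1))
    (hm2 : 2 ≤ m) : n = m := by
  rcases lt_trichotomy n m with h1 | h1 | h1
  · exfalso
    rcases Nat.eq_zero_or_pos n with rfl | hn
    · have h2 : 0 < m * (m + 1) * (m - 1) := Nat.mul_pos (by positivity) (by omega)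
      omega
    · have h2 : n * (n + 1) * (n - 1) < m * (m + 1) * (m - 1) := by
        apply Nat.mul_lt_mul''
        · apply Nat.mul_lt_mul'' h1; omega
        · omega
      omega
  · exact h1
  · exfalso
    have h2 : m * (m + 1) * (m - 1) < n * (n + 1) * (n - 1) := by
      apply Nat.mul_lt_mul''
      · apply Nat.mul_lt_mul'' h1; omega
      · omega
    omega

end gen

section main

variable {G : Type*} [Group G] [Fintype G] {t s : G} {K : Subgroup G}

/-- the case `q = 4 r + 1` -/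
theorem pos_eq_three (hst : Star68.Star G) (hS : BSW.Setup t s K) {q r : ℕ} (hc : BSW.Cnt K 1 q)
    (hr : r.Prime) (hK : Nat.card K = 2 * r) : r = 3 := by
  by_contra hr3
  have hr2' := hr.two_le
  have hq : q = 4 * r + 1 := by
    have := hc.hq
    rw [hK] at this
    push_cast at this
    omega
  have hG : Nat.card G = 2 * r * (4 * r + 1) * (4 * r + 2) := by
    have h1 := hc.order
    rw [hK, hq] at h1
    have h2 : (Nat.card G : ℤ) = ((2 * r * (4 * r + 1) * (4 * r + 2) : ℕ) : ℤ) := by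
      rw [h1]; push_cast; ring
    exact_mod_cast h2
  have h3r : ¬ 3 ∣ r := fun h => hr3 ((Nat.prime_dvd_prime_iff_eq Nat.prime_three hr).1 h).symm
  have h3 : 3 ∣ Nat.card G := by
    rw [hG]
    rcases (by omega : r % 3 = 0 ∨ r % 3 = 1 ∨ r % 3 = 2) with h | h | h
    · exact absurd (Nat.dvd_of_mod_eq_zero h) h3r
    · exact Dvd.dvd.mul_left (by omega) _
    · exact Dvd.dvd.mul_right (Dvd.dvd.mul_left (by omega) _) _
  have := Fact.mk Nat.prime_three
  obtain ⟨y, hy⟩ := exists_prime_orderOf_dvd_card' 3 h3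
  have ho : BSW.Out K y := by
    intro x hx
    have h1 : orderOf (x⁻¹ * y * x) = 3 := by
      have := orderOf_conj y x⁻¹
      rw [inv_inv] at this
      rw [this, hy]
    have h2 : 3 ∣ Nat.card K := by
      rw [← h1, ← Subgroup.orderOf_mk _ hx]
      exact orderOf_dvd_natCard _
    rw [hK] at h2
    rcases (Nat.Prime.dvd_mul Nat.prime_three).1 h2 with h4 | h4
    · norm_num at h4
    · exact h3r h4
  obtain ⟨v, hv, -⟩ := hc.val y ho
  rw [hK, hq] at hv
  have hv' : (Nat.card (InvPairs y) : ℤ) = 4 * r + 1 + 2 * r * v := by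
    push_cast at hv
    linarith
  have hpos : 0 < Nat.card (InvPairs y) := by
    by_contra h0
    have h1 : Nat.card (InvPairs y) = 0 := by omega
    rw [h1] at hv'
    have h2 : (2 * (r : ℤ)) * (-(v + 2)) = 1 := by push_cast at hv'; linarith
    have h4 : (2 : ℤ) ∣ 1 := ⟨(r : ℤ) * (-(v + 2)), by rw [← h2]; ring⟩
    norm_num at h4
  have h1 := card_real hst hS ho Nat.prime_three hy hpos
  rw [h1] at hv'
  have h2 : (r : ℤ) * (-(v + 2)) = -1 := by push_cast at hv'; linarith
  have h4 : (r : ℤ) ∣ 1 := ⟨(v + 2), by linarith⟩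
  have h5 : r ∣ 1 := by exact_mod_cast h4
  have h6 := Nat.dvd_one.1 h5
  omega

/-- `j ≤ p` in the negative case -/
theorem neg_le (hst : Star68.Star G) (hS : BSW.Setup t s K) {j p f : ℕ} {z0 : G}
    (hn : BSW.Neg K j p f z0) : j ≤ p := by
  obtain ⟨E, hE, hEN⟩ := hn.exists_compl hS
  have hcent := hn.cent hS hn.z0out hn.z0F
  have hcard := hn.card_norm hS
  set Q := Subgroup.centralizer ({z0} : Set G) with hQ
  have hQc : Nat.card Q = 2 * j + 1 := (hn.all z0 hn.z0out hn.z0F).1
  have hz1 : z0 ≠ 1 := hn.z0out.ne_one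
  have hzQ : z0 ∈ Q := self_mem z0
  have hle : Subgroup.normalizer (Subgroup.zpowers z0 : Set G) ≤ Subgroup.normalizer (Q : Set G) := by
    intro n hn1
    have h1 : n * z0 * n⁻¹ ∈ Subgroup.zpowers z0 :=
      (Subgroup.mem_normalizer_iff.1 hn1 z0).1 (Subgroup.mem_zpowers z0)
    have h2 : n * z0 * n⁻¹ ∈ Q := (by rw [Subgroup.zpowers_le]; exact hzQ :
      Subgroup.zpowers z0 ≤ Q) h1
    have h3 := hcent _ h2 (conj_ne_one hz1)
    rw [Subgroup.mem_normalizer_iff]
    intro x
    have h4 : n * x * n⁻¹ ∈ Subgroup.centralizer ({n * z0 * n⁻¹} : Set G) ↔ x ∈ Q := by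
      rw [Subgroup.mem_centralizer_singleton_iff, hQ, Subgroup.mem_centralizer_singleton_iff]
      constructor
      · intro h5
        have h6 : n * (x * z0) * n⁻¹ = n * (z0 * x) * n⁻¹ := by
          calc n * (x * z0) * n⁻¹ = n * x * n⁻¹ * (n * z0 * n⁻¹) := by group
            _ = n * z0 * n⁻¹ * (n * x * n⁻¹) := h5
            _ = _ := by group
        exact mul_left_cancel (mul_right_cancel h6)
      · intro h5
        calc n * x * n⁻¹ * (n * z0 * n⁻¹) = n * (x * z0) * n⁻¹ := by group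
          _ = n * (z0 * x) * n⁻¹ := by rw [h5]
          _ = _ := by group
    rw [h3] at h4
    exact h4.symm
  have hne : Subgroup.normalizer (Q : Set G) ≠ ⊤ := by
    intro h1
    rw [h1, Subgroup.card_top, hn.hG] at hcard
    have h2 : Odd ((2 * j + 1) * j) := Odd.mul ⟨j, rfl⟩ hn.jodd
    rw [← hcard] at h2
    rw [← Nat.not_even_iff_odd] at h2
    apply h2
    exact ⟨(j + 1) * (2 * j + 1) * j, by ring⟩
  have hmax := hst.max p (Subgroup.zpowers z0) hn.hp (isPGroup_zp hn.z0p)
    (by rw [Ne, Subgroup.zpowers_eq_bot]; exact hz1)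
  have heq : Subgroup.normalizer (Subgroup.zpowers z0 : Set G) = Subgroup.normalizer (Q : Set G) := by
    rcases eq_or_lt_of_le hle with h1 | h1
    · exact h1
    · exact absurd (hmax.2 _ h1) hne
  have hEQ : ∀ x ∈ E, x ∈ Q → x = 1 := by
    intro x hx hxQ
    have h1 : orderOf x ∣ j := by
      rw [← hE, ← Subgroup.orderOf_mk _ hx]; exact orderOf_dvd_natCard _
    have h2 : orderOf x ∣ 2 * j + 1 := by
      rw [← hQc, ← Subgroup.orderOf_mk _ hxQ]; exact orderOf_dvd_natCard _
    have h3 : Nat.Coprime (2 * j + 1) j := by simp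
    exact orderOf_eq_one_iff.1 (Nat.eq_one_of_dvd_coprimes h3 h2 h1)
  have hmem : ∀ e : E, (e : G) * z0 * (e : G)⁻¹ ∈ Subgroup.zpowers z0 := by
    intro e
    have h1 : (e : G) ∈ Subgroup.normalizer (Subgroup.zpowers z0 : Set G) := by
      rw [heq]; exact hEN e.2
    exact (Subgroup.mem_normalizer_iff.1 h1 z0).1 (Subgroup.mem_zpowers z0)
  have hinj : Function.Injective
      (fun e : E => (⟨(e : G) * z0 * (e : G)⁻¹, hmem e⟩ : Subgroup.zpowers z0)) := by
    intro e e' hee
    have h1 : (e : G) * z0 * (e : G)⁻¹ = (e' : G) * z0 * (e' : G)⁻¹ := congrArg Subtype.val hee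
    have h2 : (e' : G)⁻¹ * e ∈ Q := by
      rw [hQ, Subgroup.mem_centralizer_singleton_iff]
      calc (e' : G)⁻¹ * e * z0 = (e' : G)⁻¹ * (e * z0 * (e : G)⁻¹) * e := by group
        _ = (e' : G)⁻¹ * (e' * z0 * (e' : G)⁻¹) * e := by rw [h1]
        _ = _ := by group
    have h3 := hEQ _ (mul_mem (inv_mem e'.2) e.2) h2
    exact Subtype.ext (inv_mul_eq_one.1 h3).symm
  have h1 := Nat.card_le_card_of_injective _ hinj
  rw [hE, Nat.card_zpowers, hn.z0p] at h1
  exact h1

/-- `j` is a prime in the negative case -/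
theorem neg_prime (hst : Star68.Star G) (hS : BSW.Setup t s K) {j p f : ℕ} {z0 : G}
    (hn : BSW.Neg K j p f z0) (hj : j ≠ 1) : j.Prime := by
  obtain ⟨l, hl, hlj⟩ := Nat.exists_prime_and_dvd hj
  have := Fact.mk hl
  have hlG : l ∣ Nat.card G := by
    rw [hn.hG]; exact Dvd.dvd.mul_left hlj _
  obtain ⟨y, hy⟩ := exists_prime_orderOf_dvd_card' l hlG
  have ho : BSW.Out K y := by
    intro x hx
    have h1 : orderOf (x⁻¹ * y * x) = l := by
      have := orderOf_conj y x⁻¹
      rw [inv_inv] at this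
      rw [this, hy]
    have h2 : l ∣ Nat.card K := by
      rw [← h1, ← Subgroup.orderOf_mk _ hx]
      exact orderOf_dvd_natCard _
    rw [hn.hK] at h2
    have h3 : Nat.Coprime (j + 1) j := by simp
    exact hl.one_lt.ne' (Nat.eq_one_of_dvd_coprimes h3 h2 hlj)
  rcases hn.val y ho with h1 | h1
  · exfalso
    have h2 := (hn.all y ho h1).2.1
    rw [hy] at h2
    subst h2
    exact hn.not_dvd_j hn.p_dvd hlj
  · have h2 := card_real hst hS ho hl hy (by rw [h1]; have := hn.j1; omega)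
    rw [h1] at h2
    rw [h2]; exact hl

end main

/-- **Piece I of S4233.** -/
theorem ident {G : Type*} [Group G] [Finite G] (h : Star68.Star G) {t s : G} {K : Subgroup G}
    (hS : BSW.Setup t s K) {r : ℕ} (hr : r.Prime) (hr2 : r ≠ 2) (hK : Nat.card K = 2 * r) :
    Nonempty (G ≃* Matrix.ProjectiveSpecialLinearGroup (Fin 2) (ZMod 13)) := by
  classical
  cases nonempty_fintype G
  have : Fintype K := Fintype.ofFinite K
  have hr2' := hr.two_le
  obtain ⟨ε, q, hc⟩ := hS.exists_cnt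
  obtain ⟨Q, D, h1, h2, h3, h4, h5, h6, h7⟩ := hS.concl
  obtain ⟨F, hF, hFf, hcF, ⟨e⟩⟩ := PSL2OfData.psl2_of_data Q D h1 h2 h3 h4 h5 h6 h7
  rcases hc.hε with rfl | rfl
  · have hr3 := pos_eq_three h hS hc hr hK
    subst hr3
    have hq : q = 13 := by
      have := hc.hq
      rw [hK] at this
      push_cast at this
      omega
    have hG : Nat.card G = 1092 := by
      have h8 := hc.order
      rw [hK, hq] at h8
      push_cast at h8
      omega
    have hQ : Nat.card Q = 13 := by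
      apply cube_eq (by norm_num) _ (by norm_num)
      rw [← h1, hG]
    have : Fact (Nat.Prime 13) := ⟨by norm_num⟩
    exact ⟨e.trans (ClSeven.pslCongr 2 (FiniteField.ringEquivOfCardEq
      ((hcF.trans hQ).trans (ZMod.card 13).symm)))⟩
  · exfalso
    obtain ⟨j, p, f, z0, hn⟩ := hS.exists_neg hc
    have hj : j + 1 = 2 * r := by rw [← hn.hK, hK]
    have hr3 : 3 ≤ r := by omega
    have hjp := neg_prime h hS hn (by omega)
    have hle := neg_le h hS hn
    have hj5 : j = 5 := by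
      rcases (by omega : j % 3 = 0 ∨ j % 3 = 1 ∨ j % 3 = 2) with h8 | h8 | h8
      · have h9 := (Nat.prime_dvd_prime_iff_eq Nat.prime_three hjp).1 (Nat.dvd_of_mod_eq_zero h8)
        omega
      · have h9 : 3 ∣ p ^ f := by rw [← hn.hq]; omega
        have h10 := (Nat.prime_dvd_prime_iff_eq Nat.prime_three hn.hp).1
          (Nat.prime_three.dvd_of_dvd_pow h9)
        omega
      · have h9 : 3 ∣ 2 * r := by rw [← hj]; omega
        have h10 : 3 ∣ r := by omega
        have h11 := (Nat.prime_dvd_prime_iff_eq Nat.prime_three hr).1 h10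
        omega
    subst hj5
    have hG : Nat.card G = 660 := by rw [hn.hG]
    have hQ : Nat.card Q = 11 := by
      apply cube_eq (by norm_num) _ (by norm_num)
      rw [← h1, hG]
    have hFc : (11 : F) = 0 := by
      have h8 := FiniteField.cast_card_eq_zero F
      rw [hcF, hQ] at h8
      exact_mod_cast h8
    obtain ⟨φ, hφ⟩ := MobPlat.exists_alt5 (F := F) (t := 8) (by linear_combination 5 * hFc)
    exact no_alt5 h hG (e.symm.toMonoidHom.comp φ) (e.symm.injective.comp hφ) (D := D) (by omega) h7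

end Cfsg.Agent.Lib.StarI41
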