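import Cfsg.Agent.Lib.LocBase
import Cfsg.Agent.Lib.SylowChain
import Cfsg.Agent.Lib.StrongPEmb
import Cfsg.Prelude.Def_SylowChains

/-!
The graph on the Sylow `p`-subgroups (edges: distinct, nontrivial intersection) and strongly
`p`-embedded subgroups in the classical sense. (helper51)
-/

set_option autoImplicit false

namespace Cfsg.Agent.Lib.SylowGraph

open Subgroup
open Cfsg.Agent.Lib.LocBase
open scoped Pointwise

variable {G : Type*} [Group G] {p : ℕ}

/-- Two Sylow `p`-subgroups are adjacent if they meet nontrivially. -/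
def Adj (S T : Sylow p G) : Prop := S ≠ T ∧ (S : Subgroup G) ⊓ (T : Subgroup G) ≠ ⊥

/-- Strongly `p`-embedded in the classical sense. -/
def SPE (p : ℕ) (H : Subgroup G) : Prop :=
  H ≠ ⊤ ∧ p ∣ Nat.card H ∧
    ∀ g : G, g ∉ H → ¬ p ∣ Nat.card ↥(H ⊓ H.map (MulAut.conj g).toMonoidHom)

theorem connected_iff : IsSylowChainConnected p G ↔ ∀ S T : Sylow p G, Relation.ReflTransGen Adj S T := by
  constructor
  · intro h S T
    obtain ⟨n, c, h0, hl, -, hc⟩ := h S T
    exact (SylowChain.exists_fin_chain_iff Adj S T).mpr ⟨n, c, h0, hl, hc⟩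
  · intro h S T
    by_cases hST : S = T
    · refine ⟨0, fun _ => S, rfl, hST, fun _ => inf_le_left, fun i => i.elim0⟩
    by_cases hI : (S : Subgroup G) ⊓ (T : Subgroup G) = ⊥
    · obtain ⟨n, c, h0, hl, hc⟩ := (SylowChain.exists_fin_chain_iff Adj S T).mp (h S T)
      refine ⟨n, c, h0, hl, fun i => ?_, hc⟩
      rw [hI]; exact bot_le
    · refine ⟨1, ![S, T], rfl, rfl, ?_, ?_⟩
      · intro i
        fin_cases i
        · exact inf_le_left
        · exact inf_le_right
      · intro i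
        fin_cases i
        exact ⟨hST, hI⟩

theorem reflTransGen_of_inf_ne_bot {S T : Sylow p G} (h : (S : Subgroup G) ⊓ (T : Subgroup G) ≠ ⊥) :
    Relation.ReflTransGen Adj S T := by
  by_cases hST : S = T
  · rw [hST]
  · exact Relation.ReflTransGen.single ⟨hST, h⟩

theorem Adj.symm {S T : Sylow p G} (h : Adj S T) : Adj T S :=
  ⟨h.1.symm, by rw [inf_comm]; exact h.2⟩

theorem coe_smul_eq_map (g : G) (S : Sylow p G) :
    ((g • S : Sylow p G) : Subgroup G) = (S : Subgroup G).map (MulAut.conj g).toMonoidHom := rfl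

theorem Adj.smul {S T : Sylow p G} (h : Adj S T) (g : G) : Adj (g • S) (g • T) := by
  refine ⟨fun h' => h.1 (smul_left_cancel g h'), ?_⟩
  rw [coe_smul_eq_map, coe_smul_eq_map, ← Subgroup.map_inf_eq _ _ _ (MulAut.conj g).injective]
  rw [Ne, Subgroup.map_eq_bot_iff_of_injective _ (MulAut.conj g).injective]
  exact h.2

theorem reflTransGen_symm {S T : Sylow p G} (h : Relation.ReflTransGen Adj S T) :
    Relation.ReflTransGen Adj T S := by
  induction h with
  | refl => exact Relation.ReflTransGen.refl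
  | tail _ h ih => exact Relation.ReflTransGen.head h.symm ih

theorem reflTransGen_smul {S T : Sylow p G} (h : Relation.ReflTransGen Adj S T) (g : G) :
    Relation.ReflTransGen Adj (g • S) (g • T) := by
  induction h with
  | refl => exact Relation.ReflTransGen.refl
  | tail _ h ih => exact ih.tail (h.smul g)

/-- The stabilizer of the connected component of `S`. -/
def stab (S : Sylow p G) : Subgroup G where
  carrier := {g | Relation.ReflTransGen Adj S (g • S)}
  mul_mem' := by
    intro a b ha hb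
    rw [Set.mem_ofPred_eq, mul_smul]
    exact Relation.ReflTransGen.trans ha (reflTransGen_smul hb a)
  one_mem' := by
    rw [Set.mem_ofPred_eq, one_smul]
  inv_mem' := by
    intro a ha
    have := reflTransGen_smul ha a⁻¹
    rw [inv_smul_smul] at this
    exact reflTransGen_symm this

theorem mem_stab {S : Sylow p G} {g : G} : g ∈ stab S ↔ Relation.ReflTransGen Adj S (g • S) := Iff.rfl

theorem le_stab (S : Sylow p G) : (S : Subgroup G) ≤ stab S := by
  intro s hs
  rw [mem_stab, Sylow.smul_eq_iff_mem_normalizer.mpr (le_normalizer hs)]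

section
variable [Finite G] [hp : Fact p.Prime]

theorem ne_bot_of_dvd {H : Subgroup G} (h : p ∣ Nat.card H) : H ≠ ⊥ := by
  rintro rfl
  rw [Subgroup.card_bot] at h
  exact hp.out.one_lt.ne' (Nat.dvd_one.mp h)

theorem dvd_card_of_isPGroup {Q : Subgroup G} (hQ : IsPGroup p Q) (h1 : Q ≠ ⊥) : p ∣ Nat.card Q := by
  rcases hQ.card_eq_or_dvd with h | h
  · exact absurd (Subgroup.card_eq_one.mp h) h1
  · exact h

theorem SPE.mem_of_le {H Q : Subgroup G} (hH : SPE p H) (hQ : IsPGroup p Q) (hQ1 : Q ≠ ⊥) {g : G}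
    (hQH : Q ≤ H) (hgQ : Q ≤ H.map (MulAut.conj g).toMonoidHom) : g ∈ H := by
  by_contra hg
  exact hH.2.2 g hg ((dvd_card_of_isPGroup hQ hQ1).trans (Subgroup.card_dvd_of_le (le_inf hQH hgQ)))

theorem SPE.normalizer_le {H Q : Subgroup G} (hH : SPE p H) (hQ : IsPGroup p Q) (hQ1 : Q ≠ ⊥)
    (hQH : Q ≤ H) : normalizer (Q : Set G) ≤ H := by
  intro g hg
  refine hH.mem_of_le hQ hQ1 hQH ?_
  rw [← map_conj_eq_of_mem hg]
  exact Subgroup.map_mono hQH

theorem SPE.strong {H : Subgroup G} (hH : SPE p H) : IsStronglyPEmbedded p H :=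
  StrongPEmb.isStronglyPEmbedded_iff.mpr hH

theorem SPE.exists_sylow {H : Subgroup G} (hH : SPE p H) :
    ∃ S : Sylow p G, (S : Subgroup G) ≤ H ∧ (S : Subgroup G) ≠ ⊥ :=
  StrongPEmb.exists_sylow_le hH.strong

theorem SPE.sylow_le_of_adj {H : Subgroup G} (hH : SPE p H) {S T : Sylow p G} (hST : Adj S T)
    (hS : (S : Subgroup G) ≤ H) : (T : Subgroup G) ≤ H := by
  obtain ⟨x, rfl⟩ := MulAction.exists_smul_eq G S T
  have hx : x ∈ H := by
    refine hH.mem_of_le (S.2.to_le inf_le_left) hST.2 (inf_le_left.trans hS) (inf_le_right.trans ?_)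
    rw [coe_smul_eq_map]
    exact Subgroup.map_mono hS
  rw [coe_smul_eq_map, ← map_conj_eq_of_mem (le_normalizer hx)]
  exact Subgroup.map_mono hS

theorem SPE.sylow_le_of_conn {H : Subgroup G} (hH : SPE p H) {S T : Sylow p G}
    (hST : Relation.ReflTransGen Adj S T) (hS : (S : Subgroup G) ≤ H) : (T : Subgroup G) ≤ H := by
  induction hST with
  | refl => exact hS
  | tail _ h ih => exact hH.sylow_le_of_adj h ih

theorem SPE.not_connected {H : Subgroup G} (hH : SPE p H) : ¬ IsSylowChainConnected p G := by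
  rw [connected_iff]
  intro h
  obtain ⟨S, hS, hS1⟩ := hH.exists_sylow
  apply hH.1
  rw [eq_top_iff]
  rintro g -
  have h1 := hH.sylow_le_of_conn (h S (g⁻¹ • S)) hS
  refine hH.mem_of_le S.2 hS1 hS ?_
  rw [coe_smul_eq_map] at h1
  have h2 := map_conj_mono g h1
  rwa [← map_conj_mul, mul_inv_cancel, map_conj_one] at h2

theorem exists_SPE_of_not_connected (h : ¬ IsSylowChainConnected p G) :
    ∃ S : Sylow p G, (S : Subgroup G) ≠ ⊥ ∧ SPE p (stab S) := by
  rw [connected_iff] at h
  push Not at h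
  obtain ⟨S, T, hST⟩ := h
  have hS1 : (S : Subgroup G) ≠ ⊥ := by
    intro h0
    apply hST
    have h1 : (T : Subgroup G) = ⊥ := by
      obtain ⟨x, rfl⟩ := MulAction.exists_smul_eq G S T
      rw [coe_smul_eq_map, h0, Subgroup.map_bot]
    have : S = T := Sylow.ext (h0.trans h1.symm)
    rw [this]
  refine ⟨S, hS1, ?_, ?_, ?_⟩
  · intro htop
    obtain ⟨x, rfl⟩ := MulAction.exists_smul_eq G S T
    exact hST (by rw [← mem_stab, htop]; exact mem_top x)
  · exact (dvd_card_of_isPGroup S.2 hS1).trans (Subgroup.card_dvd_of_le (le_stab S))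
  · intro g hg hdvd
    apply hg
    obtain ⟨x, hx⟩ := exists_prime_orderOf_dvd_card' p hdvd
    have hxo : orderOf (x : G) = p := (Subgroup.orderOf_coe x).trans hx
    have hx1 : (x : G) ≠ 1 := by
      intro h1
      rw [h1, orderOf_one] at hxo
      exact hp.out.one_lt.ne hxo
    have hQ : IsPGroup p (Subgroup.zpowers (x : G)) :=
      IsPGroup.of_card (n := 1) (by rw [Nat.card_zpowers, hxo, pow_one])
    have hSyl : IsSyl p (S : Subgroup G) (stab S) := isSyl_of_sylow_le (le_stab S)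
    obtain ⟨a, ha, hax⟩ := hSyl.exists_conj_le hQ (by rw [Subgroup.zpowers_le]; exact x.2.1)
    have hSylg : IsSyl p ((S : Subgroup G).map (MulAut.conj g).toMonoidHom)
      ((stab S).map (MulAut.conj g).toMonoidHom) := hSyl.map_conj g
    obtain ⟨b, hb, hbx⟩ := hSylg.exists_conj_le hQ (by rw [Subgroup.zpowers_le]; exact x.2.2)
    -- x ∈ a⁻¹ • S, x ∈ (b⁻¹ g) • S
    have h1 : (x : G) ∈ ((a⁻¹ • S : Sylow p G) : Subgroup G) := by
      rw [coe_smul_eq_map]
      have := map_conj_mono a⁻¹ hax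
      rw [← map_conj_mul, inv_mul_cancel, map_conj_one] at this
      exact this (mem_zpowers _)
    have h2 : (x : G) ∈ (((b⁻¹ * g) • S : Sylow p G) : Subgroup G) := by
      rw [coe_smul_eq_map, map_conj_mul]
      have := map_conj_mono b⁻¹ hbx
      rw [← map_conj_mul, inv_mul_cancel, map_conj_one] at this
      exact this (mem_zpowers _)
    have h3 : Relation.ReflTransGen Adj (a⁻¹ • S) ((b⁻¹ * g) • S) := by
      apply reflTransGen_of_inf_ne_bot
      intro h0
      apply hx1
      rw [← Subgroup.mem_bot, ← h0]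
      exact ⟨h1, h2⟩
    have h4 : b⁻¹ * g ∈ stab S := by
      rw [mem_stab]
      exact Relation.ReflTransGen.trans (mem_stab.mp (inv_mem ha)) h3
    obtain ⟨c, hc, hcb⟩ := hb
    have h5 : b⁻¹ * g = g * c⁻¹ := by
      rw [← hcb]
      simp [mul_assoc]
    rw [h5] at h4
    exact (Subgroup.mul_mem_cancel_right _ (inv_mem hc)).mp h4

theorem not_connected_iff : ¬ IsSylowChainConnected p G ↔ ∃ H : Subgroup G, SPE p H := by
  constructor
  · intro h
    obtain ⟨S, -, hS⟩ := exists_SPE_of_not_connected h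
    exact ⟨_, hS⟩
  · rintro ⟨H, hH⟩
    exact hH.not_connected

/-- The Sylow subgroup of a normal subgroup of order divisible by `p`. -/
theorem sylow_inf_ne_bot {S : Sylow p G} {N : Subgroup G} [hNn : N.Normal] (hN : p ∣ Nat.card N) :
    IsSyl p ((S : Subgroup G) ⊓ N) N ∧ (S : Subgroup G) ⊓ N ≠ ⊥ := by
  have h1 : IsSyl p ((S : Subgroup G) ⊓ N) N :=
    (isSyl_top S).inf_normal le_top (by rw [Subgroup.normalizer_eq_top])
  refine ⟨h1, fun h0 => h1.ndvd ?_⟩
  rw [h0, Subgroup.relIndex_bot_left]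
  exact hN

/-- `G = H · O^p(N)`. -/
theorem SPE.sup_pRes {H : Subgroup G} (hH : SPE p H) (N : Subgroup G) [N.Normal] (hN : p ∣ Nat.card N) :
    H ⊔ pRes p N = ⊤ := by
  obtain ⟨S, hS, -⟩ := hH.exists_sylow
  obtain ⟨h1, h2⟩ := sylow_inf_ne_bot (S := S) hN
  have h3 : normalizer (((S : Subgroup G) ⊓ N : Subgroup G) : Set G) ≤ H :=
    hH.normalizer_le h1.pgroup h2 (inf_le_left.trans hS)
  have h4 : N ⊔ ((⊤ : Subgroup G) ⊓ normalizer (((S : Subgroup G) ⊓ N : Subgroup G) : Set G)) = ⊤ :=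
    h1.frattini_sup le_top (by rw [Subgroup.normalizer_eq_top])
  rw [eq_top_iff, ← h4]
  refine sup_le ?_ (inf_le_right.trans (h3.trans le_sup_left))
  rw [← h1.sup_pRes]
  refine sup_le (inf_le_left.trans (hS.trans le_sup_left)) ?_
  rw [h1.sup_pRes]
  exact le_sup_right

end

end Cfsg.Agent.Lib.SylowGraph
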