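import Cfsg.Agent.Lib.CFFusion
import Cfsg.Agent.Lib.CoreTop
import Cfsg.Agent.Lib.SylowGraph
import Cfsg.Agent.Lib.PLengthOne
import Cfsg.Agent.Lib.CoprimeGen
import Cfsg.Agent.Lib.H34Basic

/-! Strong form of the Alperin-Goldschmidt fusion theorem (S3072). (helper51) -/

set_option autoImplicit false

namespace Cfsg.Agent.Lib.StrongAG

open Cfsg.Agent.Lib.CFSylow Cfsg.Agent.Lib.SylowGraph
open Cfsg.Agent.Lib.CFFusion (nz IsFus)
open Cfsg.Agent.Lib.LocBase (pRes map_pResidual)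
open Subgroup

section spe
variable {G : Type*} [Group G] [Finite G] {p : ℕ} [hp : Fact p.Prime]

theorem SPE.centralizer_singleton_le {M : Subgroup G} (hM : SPE p M) {x : G} (hx : x ∈ M) (hxp : IsPGroup p (zpowers x))
    (hx1 : x ≠ 1) : centralizer {x} ≤ M := by
  have h2 : zpowers x ≠ ⊥ := by
    rwa [Ne, zpowers_eq_bot]
  refine le_trans ?_ (hM.normalizer_le hxp h2 (by rwa [zpowers_le]))
  refine le_trans ?_ (Subgroup.centralizer_le_normalizer _)
  intro y hy
  rw [Subgroup.mem_centralizer_iff]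
  rintro _ ⟨k, rfl⟩
  have h3 : Commute x y := mem_centralizer_iff.1 hy x rfl
  exact (h3.zpow_left k).eq

theorem SPE.dvd_inf {M : Subgroup G} (hM : SPE p M) (X1 X2 : Subgroup G) [X1.Normal] [X2.Normal]
    (h1 : p ∣ Nat.card X1) (h2 : p ∣ Nat.card X2) : p ∣ Nat.card (X1 ⊓ X2 : Subgroup G) := by
  by_contra hZ
  set Z := X1 ⊓ X2 with hZd
  obtain ⟨S, hS, -⟩ := hM.exists_sylow
  obtain ⟨hA, hA1⟩ := sylow_inf_ne_bot (S := S) h1
  obtain ⟨hB, hB1⟩ := sylow_inf_ne_bot (S := S) h2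
  have hSZ : ∀ x ∈ (S : Subgroup G), x ∈ Z → x = 1 := by
    intro x hxS hxZ
    have h3 : IsPGroup p (zpowers x) := S.2.to_le (by rwa [zpowers_le])
    by_contra hx1
    have h4 : zpowers x ≠ ⊥ := by rwa [Ne, zpowers_eq_bot]
    exact hZ ((dvd_card_of_isPGroup h3 h4).trans (Subgroup.card_dvd_of_le (by rwa [zpowers_le])))
  have hpA : p ∣ Nat.card ((S : Subgroup G) ⊓ X1 : Subgroup G) := dvd_card_of_isPGroup (S.2.to_le inf_le_left) hA1
  have hpB : p ∣ Nat.card ((S : Subgroup G) ⊓ X2 : Subgroup G) := dvd_card_of_isPGroup (S.2.to_le inf_le_left) hB1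
  obtain ⟨⟨a, haS, haX⟩, ha'⟩ := exists_prime_orderOf_dvd_card' p hpA
  obtain ⟨⟨b, hbS, hbX⟩, hb'⟩ := exists_prime_orderOf_dvd_card' p hpB
  have ha : orderOf a = p := by rw [← ha', ← Subgroup.orderOf_coe]
  have hb : orderOf b = p := by rw [← hb', ← Subgroup.orderOf_coe]
  have hab : Commute a b := by
    have h3 : a * b * a⁻¹ * b⁻¹ = 1 := by
      apply hSZ
      · exact mul_mem (mul_mem (mul_mem haS hbS) (inv_mem haS)) (inv_mem hbS)
      · constructor
        · have : a * b * a⁻¹ * b⁻¹ = a * (b * a⁻¹ * b⁻¹) := by group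
          rw [this]
          exact X1.mul_mem haX (‹X1.Normal›.conj_mem _ (inv_mem haX) _)
        · exact X2.mul_mem (‹X2.Normal›.conj_mem _ hbX _) (inv_mem hbX)
    have h4 : a * b = b * a := by
      calc a * b = (a * b * a⁻¹ * b⁻¹) * (b * a) := by group
        _ = b * a := by rw [h3, one_mul]
    exact h4
  set E := closure ({a, b} : Set G) with hE
  have hES : E ≤ (S : Subgroup G) := by
    rw [hE, closure_le]
    rintro x (rfl | rfl)
    · exact haS
    · exact hbS
  have hEc : IsMulCommutative E := by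
    rw [hE]
    apply Subgroup.isMulCommutative_closure
    rintro x (rfl | rfl) y (rfl | rfl)
    · rfl
    · exact hab
    · exact hab.symm
    · rfl
  have haE : a ∈ E := subset_closure (Or.inl rfl)
  have hbE : b ∈ E := subset_closure (Or.inr rfl)
  have hnc : ¬ IsCyclic E := by
    intro hcyc
    classical
    haveI : Fintype E := Fintype.ofFinite E
    have h3 := IsCyclic.card_pow_eq_one_le (α := E) hp.out.pos
    have hap : a ^ p = 1 := by
      have := pow_orderOf_eq_one a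
      rwa [ha] at this
    let f : (ZMod p) ⊕ Unit → {x : E // x ^ p = 1} := fun z =>
      match z with
      | Sum.inl i => ⟨(⟨a, haE⟩ : E) ^ i.val, by
          apply Subtype.ext
          show (a ^ i.val) ^ p = 1
          rw [← pow_mul, mul_comm, pow_mul, hap, one_pow]⟩
      | Sum.inr _ => ⟨⟨b, hbE⟩, by
          apply Subtype.ext
          show b ^ p = 1
          rw [← hb, pow_orderOf_eq_one]⟩
    have hf : Function.Injective f := by
      haveI : NeZero p := ⟨hp.out.ne_zero⟩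
      rintro (i | i) (j | j) hij
      · have h4 : a ^ i.val = a ^ j.val := congrArg (fun z : {x : E // x ^ p = 1} => ((z : E) : G)) hij
        rw [pow_inj_mod, ha, Nat.mod_eq_of_lt (ZMod.val_lt i), Nat.mod_eq_of_lt (ZMod.val_lt j)] at h4
        rw [ZMod.val_injective p h4]
      · exfalso
        have h4 : a ^ i.val = b := congrArg (fun z : {x : E // x ^ p = 1} => ((z : E) : G)) hij
        have h5 : b = 1 := hSZ b hbS ⟨h4 ▸ X1.pow_mem haX _, hbX⟩
        rw [h5, orderOf_one] at hb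
        exact hp.out.one_lt.ne hb
      · exfalso
        have h4 : b = a ^ j.val := congrArg (fun z : {x : E // x ^ p = 1} => ((z : E) : G)) hij
        have h5 : b = 1 := hSZ b hbS ⟨h4 ▸ X1.pow_mem haX _, hbX⟩
        rw [h5, orderOf_one] at hb
        exact hp.out.one_lt.ne hb
      · rfl
    have h6 := Nat.card_le_card_of_injective f hf
    haveI : NeZero p := ⟨hp.out.ne_zero⟩
    rw [Nat.card_sum, Nat.card_zmod, Nat.card_unique] at h6
    have h7 : Nat.card {x : E // x ^ p = 1} ≤ p := by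
      rw [Nat.card_eq_fintype_card, Fintype.card_subtype]
      exact h3
    omega
  have hZM : Z ≤ M := by
    have h3 : E ≤ normalizer (Z : Set G) := by rw [normalizer_eq_top]; exact le_top
    have h4 : (Nat.card E).Coprime (Nat.card Z) := by
      obtain ⟨k, hk⟩ := (S.2.to_le hES).exists_card_eq
      rw [hk]
      exact Nat.Coprime.pow_left k ((Nat.Prime.coprime_iff_not_dvd hp.out).2 hZ)
    rw [← CoprimeGen.iSup_centralizer_eq hEc hnc h3 h4]
    refine iSup₂_le fun x hx => inf_le_right.trans ?_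
    exact SPE.centralizer_singleton_le hM (hS (hES hx.1)) (S.2.to_le (by rw [zpowers_le]; exact hES hx.1)) hx.2
  have hX2 : X2 ≤ M := by
    intro x hx
    refine hM.mem_of_le (Q := ((S : Subgroup G) ⊓ X1).map (MulAut.conj x).toMonoidHom) ((S.2.to_le inf_le_left).map _)
      ?_ ?_ (Subgroup.map_mono (inf_le_left.trans hS))
    · rwa [Ne, Subgroup.map_eq_bot_iff_of_injective _ (MulAut.conj x).injective]
    · rintro _ ⟨y, hy, rfl⟩
      show x * y * x⁻¹ ∈ M
      have h3 : x * y * x⁻¹ = (x * y * x⁻¹ * y⁻¹) * y := by group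
      rw [h3]
      refine mul_mem (hZM ⟨?_, ?_⟩) (hS hy.1)
      · exact X1.mul_mem (‹X1.Normal›.conj_mem _ hy.2 _) (inv_mem hy.2)
      · have : x * y * x⁻¹ * y⁻¹ = x * (y * x⁻¹ * y⁻¹) := by group
        rw [this]
        exact X2.mul_mem hx (‹X2.Normal›.conj_mem _ (inv_mem hx) _)
  have h3 := hM.sup_pRes X2 h2
  have h4 : pRes p X2 ≤ X2 := by
    unfold LocBase.pRes
    rw [closure_le]
    exact fun x hx => hx.1
  rw [sup_eq_left.2 (h4.trans hX2)] at h3
  exact hM.1 h3

end spe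

section equiv

theorem connected_of_equiv {G G' : Type*} [Group G] [Group G'] [Finite G] {p : ℕ} [hp : Fact p.Prime] (e : G ≃* G')
    (h : ¬ Cfsg.IsSylowChainConnected p G) : ¬ Cfsg.IsSylowChainConnected p G' := by
  have hfin : Finite G' := Finite.of_equiv G e.toEquiv
  rw [not_connected_iff] at h ⊢
  obtain ⟨H, h1, h2, h3⟩ := h
  have hc : ∀ K : Subgroup G, Nat.card (K.map e.toMonoidHom) = Nat.card K := fun K =>
    Subgroup.card_map_of_injective e.injective
  refine ⟨H.map e.toMonoidHom, ?_, ?_, ?_⟩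
  · intro h4
    apply h1
    have h5 : Function.Injective e.toMonoidHom := e.injective
    apply Subgroup.map_injective h5
    rw [h4, Subgroup.map_top_of_surjective _ e.surjective]
  · rw [hc]; exact h2
  · intro g hg hd
    obtain ⟨x, rfl⟩ := e.surjective g
    have hx : x ∉ H := fun hx => hg ⟨x, hx, rfl⟩
    apply h3 x hx
    have h5 : (H.map e.toMonoidHom).map (MulAut.conj (e x)).toMonoidHom = (H.map (MulAut.conj x).toMonoidHom).map e.toMonoidHom := by
      rw [Subgroup.map_map, Subgroup.map_map]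
      congr 1
      ext y
      show e x * e y * (e x)⁻¹ = e (x * y * x⁻¹)
      rw [map_mul, map_mul, map_inv]
    rw [h5, ← Subgroup.map_inf_eq _ _ _ e.injective, hc] at hd
    exact hd

end equiv

section ok
variable {G : Type*} [Group G] [Finite G] {p : ℕ} [hp : Fact p.Prime]

/-- the conditions on `H`, `X`. -/
structure Ok (p : ℕ) (P H X : Subgroup G) : Prop where
  le : H ≤ P
  syl : ¬ p ∣ (P ⊓ normalizer (H : Set G)).relIndex (normalizer (H : Set G))
  cen : P ⊓ centralizer (H : Set G) ≤ H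
  core : (Cfsg.pPrimePCore p ↥(normalizer (H : Set G))).map (normalizer (H : Set G)).subtype = H ⊔ centralizer (H : Set G)
  nconn : ¬ Cfsg.IsSylowChainConnected p (↥(normalizer (H : Set G)) ⧸ H.subgroupOf (normalizer (H : Set G)))
  leX : H ≤ X
  Xle : X ≤ normalizer (H : Set G)
  Xn : (X.subgroupOf (normalizer (H : Set G))).Normal
  Xp : p ∣ H.relIndex X
  small : ∀ Y : Subgroup G, H ≤ Y → Y ≤ normalizer (H : Set G) →
    (Y.subgroupOf (normalizer (H : Set G))).Normal → p ∣ H.relIndex Y → X ≤ Y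

theorem normal_cj {N Y : Subgroup G} (hY : Y ≤ N) (h : (Y.subgroupOf N).Normal) (g : G) :
    ((cj g Y).subgroupOf (cj g N)).Normal := by
  refine ⟨?_⟩
  rintro ⟨_, n, hn, rfl⟩ hy ⟨_, m, hm, rfl⟩
  rw [mem_subgroupOf] at hy ⊢
  have h1 : n ∈ Y := conj_mem_cj_iff.1 hy
  have h2 : m * n * m⁻¹ ∈ Y := h.conj_mem ⟨n, hn⟩ h1 ⟨m, hm⟩
  have h3 := conj_mem_cj (g := g) h2
  have h4 : g * (m * n * m⁻¹) * g⁻¹ = (g * m * g⁻¹) * (g * n * g⁻¹) * (g * m * g⁻¹)⁻¹ := by group
  rw [h4] at h3
  exact h3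

theorem Ok.conj {P H X : Subgroup G} (h : Ok p P H X) {g : G} (hg : g ∈ normalizer (P : Set G)) :
    Ok p P (cj g H) (cj g X) := by
  have hP : cj g P = P := mem_normalizer.1 hg
  have hN : normalizer ((cj g H : Subgroup G) : Set G) = cj g (normalizer (H : Set G)) := (cj_normalizer g H).symm
  have hC : centralizer ((cj g H : Subgroup G) : Set G) = cj g (centralizer (H : Set G)) := (cj_centralizer g H).symm
  set N := normalizer (H : Set G) with hNd
  let e : ↥N ≃* ↥(normalizer ((cj g H : Subgroup G) : Set G)) :=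
    (N.equivMapOfInjective (MulAut.conj g).toMonoidHom (MulAut.conj g).injective).trans
    (MulEquiv.subgroupCongr hN.symm)
  refine ⟨?_, ?_, ?_, ?_, ?_, cj_mono h.leX, ?_, ?_, ?_, ?_⟩
  · rw [← hP]; exact cj_mono h.le
  · have h1 : P ⊓ cj g N = cj g (P ⊓ N) := by rw [cj_inf, hP]
    rw [hN, h1, relIndex_cj]
    exact h.syl
  · have h1 : P ⊓ centralizer ((cj g H : Subgroup G) : Set G) = cj g (P ⊓ centralizer (H : Set G)) := by
      rw [cj_inf, hP, hC]
    rw [h1]
    exact cj_mono h.cen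
  · have h1 := PLengthOne.pPrimePCore_map_equiv (p := p) e
    rw [← h1, hC, ← cj_sup, ← h.core]
    ext x
    constructor
    · rintro ⟨_, ⟨n, hn, rfl⟩, rfl⟩
      exact ⟨n, ⟨n, hn, rfl⟩, rfl⟩
    · rintro ⟨_, ⟨n, hn, rfl⟩, rfl⟩
      exact ⟨e n, ⟨n, hn, rfl⟩, rfl⟩
  · refine connected_of_equiv (QuotientGroup.congr (H.subgroupOf N) ((cj g H).subgroupOf (normalizer ((cj g H : Subgroup G) : Set G))) e ?_) h.nconn
    ext x
    constructor
    · rintro ⟨n, hn, rfl⟩
      exact conj_mem_cj hn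
    · intro hx
      obtain ⟨n, rfl⟩ := e.surjective x
      refine ⟨n, ?_, rfl⟩
      have h2 : g * (n : G) * g⁻¹ ∈ cj g H := hx
      exact (conj_mem_cj_iff (T := H)).1 h2
  · rw [hN]; exact cj_mono h.Xle
  · rw [hN]; exact normal_cj h.Xle h.Xn g
  · rw [relIndex_cj]; exact h.Xp
  · intro Y h1 h2 h3 h4
    rw [hN] at h2 h3
    have h5 : X ≤ cj g⁻¹ Y := by
      have hY : Y = cj g (cj g⁻¹ Y) := (cj_cj_inv g Y).symm
      apply h.small
      · rw [← cj_le_iff]; exact h1
      · rw [← cj_le_cj_iff (g := g), cj_cj_inv]; exact h2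
      · have := normal_cj h2 h3 g⁻¹
        rwa [cj_inv_cj] at this
      · rw [← relIndex_cj g, cj_cj_inv]; exact h4
    rw [cj_le_iff]; exact h5

/-- words: `g` is reached from `U`. -/
inductive T (p : ℕ) (P U : Subgroup G) : G → Prop
  | one : T p P U 1
  | cent {g c : G} : T p P U g → c ∈ centralizer ((cj g⁻¹ U : Subgroup G) : Set G) → T p P U (g * c)
  | norm {g y : G} : T p P U g → y ∈ normalizer (P : Set G) → T p P U (g * y)
  | step {g x : G} {H X : Subgroup G} : T p P U g → Ok p P H X → x ∈ pRes p X → cj g⁻¹ U ≤ H → T p P U (g * x)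

variable {P : Subgroup G}

theorem T.trans {U : Subgroup G} {g h : G} (hg : T p P U g) (hh : T p P (cj g⁻¹ U) h) : T p P U (g * h) := by
  induction hh with
  | one => rwa [mul_one]
  | @cent k c _ hc ih =>
    rw [← mul_assoc]
    refine ih.cent ?_
    rwa [cj_cj, ← mul_inv_rev] at hc
  | @norm k y _ hy ih =>
    rw [← mul_assoc]
    exact ih.norm hy
  | @step k x H X _ hok hx hU ih =>
    rw [← mul_assoc]
    refine ih.step hok hx ?_
    rwa [cj_cj, ← mul_inv_rev] at hU

theorem T.mono {U V : Subgroup G} (h : V ≤ U) {g : G} (hg : T p P U g) : T p P V g := by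
  induction hg with
  | one => exact T.one
  | cent _ hc ih => exact ih.cent (centralizer_le (cj_mono h) hc)
  | norm _ hy ih => exact ih.norm hy
  | step _ hok hx hU ih => exact ih.step hok hx ((cj_mono h).trans hU)

theorem T.of_cent {U : Subgroup G} {c : G} (hc : c ∈ centralizer (U : Set G)) : T p P U c := by
  have := (T.one (p := p) (P := P) (U := U)).cent (c := c) (by rwa [inv_one, cj_one])
  rwa [one_mul] at this

theorem T.of_norm {U : Subgroup G} {y : G} (hy : y ∈ normalizer (P : Set G)) : T p P U y := by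
  have := (T.one (p := p) (P := P) (U := U)).norm (y := y) hy
  rwa [one_mul] at this

theorem T.of_step {U H X : Subgroup G} {x : G} (hok : Ok p P H X) (hx : x ∈ pRes p X) (hU : U ≤ H) : T p P U x := by
  have := (T.one (p := p) (P := P) (U := U)).step hok hx (by rwa [inv_one, cj_one])
  rwa [one_mul] at this

theorem pRes_le (X : Subgroup G) : pRes p X ≤ X := by
  unfold LocBase.pRes
  rw [closure_le]
  exact fun x hx => hx.1

theorem T.inv {U : Subgroup G} {g : G} (hg : T p P U g) : T p P (cj g⁻¹ U) g⁻¹ := by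
  induction hg with
  | one => rw [inv_one]; exact T.one
  | @cent g c _ hc ih =>
    rw [mul_inv_rev]
    have h1 : cj (c⁻¹ * g⁻¹) U = cj g⁻¹ U := by
      rw [← cj_cj]; exact cj_of_centralizer (inv_mem hc)
    rw [h1]
    refine (T.of_cent (inv_mem hc)).trans ?_
    rw [inv_inv, cj_of_centralizer hc]
    exact ih
  | @norm g y _ hy ih =>
    rw [mul_inv_rev]
    refine (T.of_norm (inv_mem hy)).trans ?_
    rw [inv_inv, cj_cj]
    have : y * (y⁻¹ * g⁻¹) = g⁻¹ := by group
    rwa [this]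
  | @step g x H X _ hok hx hU ih =>
    rw [mul_inv_rev]
    have hxH : x ∈ normalizer (H : Set G) := hok.Xle (pRes_le X hx)
    refine (T.of_step hok (inv_mem hx) ?_).trans ?_
    · rw [← cj_cj]
      have h1 := cj_mono (g := x⁻¹) hU
      rwa [mem_normalizer.1 (inv_mem hxH)] at h1
    · rw [inv_inv, cj_cj]
      have : x * (x⁻¹ * g⁻¹) = g⁻¹ := by group
      rwa [this]

/-- closure under products inside `N(V)`. -/
theorem T.mul_nz {V : Subgroup G} {a b : G} (ha : T p P V a) (haN : a ∈ nz V) (hb : T p P V b) : T p P V (a * b) := by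
  refine ha.trans ?_
  rwa [mem_normalizer.1 (inv_mem haN)]

section step
variable {V : Subgroup G} (hP : SylIn p P ⊤) (hVP : V ≤ P) (hV : SylIn p (P ⊓ nz V) (nz V))
  (IH : ∀ B' : Subgroup G, B' ≤ P → Nat.card V < Nat.card B' → ∀ g : G, cj g B' ≤ P → T p P B' g⁻¹)

include hP hVP IH in
theorem T_of_gt {E : Subgroup G} (hE : E ≤ P) (hVE : V < E) {m : G} (hm : cj m⁻¹ E ≤ P) : T p P V m := by
  have h1 := IH E hE (card_lt_of_lt hVE) m⁻¹ hm
  rw [inv_inv] at h1
  exact h1.mono hVE.le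

include hP hVP IH in
theorem T_of_nz {E : Subgroup G} (hE : E ≤ P) (hVE : V < E) {m : G} (hm : m ∈ nz E) : T p P V m := by
  refine T_of_gt hP hVP IH hE hVE ?_
  rw [mem_normalizer.1 (inv_mem hm)]; exact hE

include hP hVP hV IH in
theorem step_noncentric (hc : ¬ P ⊓ centralizer (V : Set G) ≤ V) {n : G} (hn : n ∈ nz V) : T p P V n := by
  set C := centralizer (V : Set G) with hC
  have hCN : C ≤ nz V := centralizer_le_normalizer V
  have hNC : nz V ≤ normalizer (C : Set G) := LocBase.le_normalizer_centralizer le_rfl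
  have hD : SylIn p (P ⊓ C) C := by
    have h1 := hV.inf_normal hCN hNC
    have h2 : P ⊓ nz V ⊓ C = P ⊓ C := by
      rw [inf_assoc, inf_eq_right.2 hCN]
    rwa [h2] at h1
  obtain ⟨c, hc', m, hm, rfl⟩ := CFSylow.frattini hD hCN hNC hn
  have h3 : V < V ⊔ (P ⊓ C) := lt_of_le_of_ne le_sup_left (fun h => hc (h ▸ le_sup_right))
  refine (T.of_cent hc').mul_nz (hCN hc') ?_
  refine T_of_nz hP hVP IH (sup_le hVP inf_le_left) h3 ?_
  rw [mem_normalizer, cj_sup, mem_normalizer.1 hm.1, mem_normalizer.1 hm.2]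

omit [Finite G] hp in
theorem le_normalizer_map_subtype {N : Subgroup G} {L : Subgroup ↥N} (hL : L.Normal) :
    N ≤ normalizer ((L.map N.subtype : Subgroup G) : Set G) := by
  rw [CFSylow.le_normalizer_iff]
  rintro n hn _ ⟨l, hl, rfl⟩
  exact ⟨_, hL.conj_mem l hl ⟨n, hn⟩, rfl⟩

include hVP hV in
/-- the core condition. -/
theorem core_or (hc : P ⊓ centralizer (V : Set G) ≤ V) :
    V ≤ P ⊓ (Cfsg.pPrimePCore p ↥(nz V)).map (nz V).subtype ∧
    SylIn p (P ⊓ (Cfsg.pPrimePCore p ↥(nz V)).map (nz V).subtype) ((Cfsg.pPrimePCore p ↥(nz V)).map (nz V).subtype) ∧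
    (Cfsg.pPrimeCore p ↥(nz V)).map (nz V).subtype ≤ centralizer (V : Set G) ∧
    (Cfsg.pPrimePCore p ↥(nz V)).map (nz V).subtype = (P ⊓ (Cfsg.pPrimePCore p ↥(nz V)).map (nz V).subtype) ⊔
      (Cfsg.pPrimeCore p ↥(nz V)).map (nz V).subtype ∧
    nz V ≤ normalizer (((Cfsg.pPrimePCore p ↥(nz V)).map (nz V).subtype : Subgroup G) : Set G) ∧
    centralizer (V : Set G) ≤ V ⊔ (Cfsg.pPrimeCore p ↥(nz V)).map (nz V).subtype := by
  set N := nz V with hN
  set K' := Cfsg.pPrimeCore p ↥N with hK'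
  set L' := Cfsg.pPrimePCore p ↥N with hL'
  set K := K'.map N.subtype with hK
  set L := L'.map N.subtype with hL
  have hVN : V ≤ N := le_normalizer
  have hVp : IsPGroup p V := (hV.isPGroup).to_le (le_inf hVP hVN)
  have hK'n : K'.Normal := inferInstance
  have hL'n : L'.Normal := PLengthOne.normal_pPrimePCore p ↥N
  have hVL : V ≤ L := by
    have h1 : V.subgroupOf N ≤ Cfsg.pCore p ↥N := by
      apply Cores.le_pCore
      · infer_instance
      · exact hVp.comap_of_injective _ N.subtype_injective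
    have h2 := h1.trans (Cores.pCore_le_pPrimePCore p ↥N)
    intro v hv
    exact ⟨⟨v, hVN hv⟩, h2 hv, rfl⟩
  have hLN : L ≤ N := map_subtype_le _
  have hNL : N ≤ normalizer (L : Set G) := le_normalizer_map_subtype hL'n
  have hsyl : SylIn p (P ⊓ L) L := by
    have h1 := hV.inf_normal hLN hNL
    have h2 : P ⊓ N ⊓ L = P ⊓ L := by
      rw [inf_assoc, inf_eq_right.2 hLN]
    rwa [h2] at h1
  have hcop : (Nat.card K').Coprime p := Cores.coprime_card_pPrimeCore p ↥N
  have hKC : K ≤ centralizer (V : Set G) := by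
    rintro _ ⟨k, hk, rfl⟩
    rw [mem_centralizer_iff]
    intro v hv
    have h1 : k * ⟨v, hVN hv⟩ * k⁻¹ * (⟨v, hVN hv⟩ : ↥N)⁻¹ ∈ K' ⊓ V.subgroupOf N := by
      constructor
      · have : k * ⟨v, hVN hv⟩ * k⁻¹ * (⟨v, hVN hv⟩ : ↥N)⁻¹ = k * (⟨v, hVN hv⟩ * k⁻¹ * (⟨v, hVN hv⟩ : ↥N)⁻¹) := by group
        rw [this]
        exact K'.mul_mem hk (hK'n.conj_mem _ (inv_mem hk) _)
      · exact (V.subgroupOf N).mul_mem ((inferInstance : (V.subgroupOf N).Normal).conj_mem _ hv _) (inv_mem hv)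
    have h2 : K' ⊓ V.subgroupOf N = ⊥ := by
      apply Subgroup.inf_eq_bot_of_coprime
      have h5 : IsPGroup p ↥(V.subgroupOf N) := hVp.comap_of_injective _ N.subtype_injective
      obtain ⟨k, hk⟩ := h5.exists_card_eq
      rw [hk]
      exact Nat.Coprime.pow_right k hcop
    rw [h2, mem_bot] at h1
    have h3 : k * ⟨v, hVN hv⟩ = ⟨v, hVN hv⟩ * k := by
      calc k * ⟨v, hVN hv⟩ = (k * ⟨v, hVN hv⟩ * k⁻¹ * (⟨v, hVN hv⟩ : ↥N)⁻¹) * (⟨v, hVN hv⟩ * k) := by group
        _ = _ := by rw [h1, one_mul]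
    exact (congrArg Subtype.val h3).symm
  have hLeq : L = (P ⊓ L) ⊔ K := by
    have h1 : SylIn p ((P ⊓ L).subgroupOf N) L' := by
      refine ⟨?_, hsyl.isPGroup.comap_of_injective _ N.subtype_injective, ?_⟩
      · rintro x ⟨hxP, y, hy, hyx⟩
        have : y = x := Subtype.ext hyx
        rwa [← this]
      · have h2 : L.subgroupOf N = L' := by
          rw [hL]
          exact comap_map_eq_self_of_injective N.subtype_injective L'
        rw [← h2, relIndex_subgroupOf hLN]
        exact hsyl.not_dvd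
    obtain ⟨Q, hQ⟩ := sylIn_iff_exists.1 h1
    have h3 := CoreTop.pPrimePCore_eq_sup Q
    change L' = _ ⊔ K' at h3
    have h4 : (P ⊓ L) = ((P ⊓ L).subgroupOf N).map N.subtype :=
      (map_subgroupOf_eq_of_le (inf_le_right.trans hLN)).symm
    conv_rhs => rw [h4]
    rw [hK, ← Subgroup.map_sup, ← hQ]
    conv_lhs => rw [hL, h3]
  refine ⟨le_inf hVP hVL, hsyl, hKC, hLeq, hNL, ?_⟩
  -- C ≤ V K
  set C := centralizer (V : Set G) with hC
  have hCN : C ≤ N := centralizer_le_normalizer V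
  have hNC : N ≤ normalizer (C : Set G) := LocBase.le_normalizer_centralizer le_rfl
  have hD : SylIn p (P ⊓ C) C := by
    have h1 := hV.inf_normal hCN hNC
    have h2 : P ⊓ N ⊓ C = P ⊓ C := by
      rw [inf_assoc, inf_eq_right.2 hCN]
    rwa [h2] at h1
  obtain ⟨Q, hQ⟩ := sylIn_iff_exists.1 hD
  have hQc : (Q : Subgroup ↥C) ≤ Subgroup.center ↥C := by
    intro q hq
    rw [Subgroup.mem_center_iff]
    intro c
    have h1 : (q : G) ∈ V := hc (by rw [← hQ]; exact ⟨q, hq, rfl⟩)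
    apply Subtype.ext
    exact (mem_centralizer_iff.1 c.2 q h1).symm
  obtain ⟨K1, hK1n, hK1c, hK1p, hK1m⟩ := H34Basic.exists_compl_of_central_sylow Q hQc
  have hK1K : K1.map C.subtype ≤ K := by
    have h1 : (K1.map C.subtype).subgroupOf N ≤ K' := by
      apply Cores.le_pPrimeCore
      · refine ⟨?_⟩
        rintro ⟨_, hn⟩ ⟨k, hk, rfl⟩ ⟨m, hm⟩
        have h2 : m * (k : G) * m⁻¹ ∈ C := (mem_normalizer_iff.1 (hNC hm) (k : G)).1 k.2
        refine ⟨⟨m * (k : G) * m⁻¹, h2⟩, ?_, rfl⟩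
        rw [SetLike.mem_coe, hK1m] at hk ⊢
        have h3 : orderOf (⟨m * (k : G) * m⁻¹, h2⟩ : ↥C) = orderOf k := by
          rw [← Subgroup.orderOf_coe, ← Subgroup.orderOf_coe k]
          show orderOf (m * (k : G) * m⁻¹) = _
          rw [← MulAut.conj_apply, MulEquiv.orderOf_eq]
        rw [h3]; exact hk
      · have h2 : Nat.card ((K1.map C.subtype).subgroupOf N) = Nat.card K1 := by
          rw [Nat.card_congr (subgroupOfEquivOfLe ((map_subtype_le K1).trans hCN)).toEquiv]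
          exact Subgroup.card_map_of_injective C.subtype_injective
        rw [h2]; exact hK1p
    intro x hx
    exact ⟨⟨x, hCN (map_subtype_le _ hx)⟩, h1 hx, rfl⟩
  intro c hcC
  have h1 : (⟨c, hcC⟩ : ↥C) ∈ (⊤ : Subgroup ↥C) := mem_top _
  rw [← hK1c.sup_eq_top] at h1
  have h2 : c ∈ (K1 ⊔ (Q : Subgroup ↥C)).map C.subtype := ⟨_, h1, rfl⟩
  rw [Subgroup.map_sup, hQ] at h2
  refine (sup_le ?_ ?_ : K1.map C.subtype ⊔ P ⊓ C ≤ V ⊔ K) h2
  · exact hK1K.trans le_sup_right
  · exact hc.trans le_sup_left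

include hP hVP hV IH in
theorem step_core (hc : P ⊓ centralizer (V : Set G) ≤ V)
    (hne : P ⊓ (Cfsg.pPrimePCore p ↥(nz V)).map (nz V).subtype ≠ V) {n : G} (hn : n ∈ nz V) : T p P V n := by
  obtain ⟨h1, h2, h3, h4, h5, h6⟩ := core_or hVP hV hc
  set L := (Cfsg.pPrimePCore p ↥(nz V)).map (nz V).subtype with hL
  set K := (Cfsg.pPrimeCore p ↥(nz V)).map (nz V).subtype with hK
  have hLN : L ≤ nz V := map_subtype_le _
  have hKN : K ≤ nz V := map_subtype_le _
  obtain ⟨l, hl, m, hm, rfl⟩ := CFSylow.frattini h2 hLN h5 hn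
  have hVE : V < P ⊓ L := lt_of_le_of_ne h1 (Ne.symm hne)
  have hlT : T p P V l := by
    have h7 : nz V ≤ normalizer (K : Set G) := le_normalizer_map_subtype inferInstance
    have h8 : l ∈ K ⊔ (P ⊓ L) := by rw [sup_comm, ← h4]; exact hl
    have h9 : P ⊓ L ≤ normalizer (K : Set G) := inf_le_right.trans (hLN.trans h7)
    rw [← SetLike.mem_coe, coe_mul_of_right_le_normalizer_left _ _ h9] at h8
    obtain ⟨k, hk, e, he, rfl⟩ := h8
    exact (T.of_cent (h3 hk)).mul_nz (hKN hk) (T.of_norm (le_normalizer he.1))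
  exact hlT.mul_nz (hLN hl) (T_of_nz hP hVP IH inf_le_left hVE hm.2)

include hP hVP hV IH in
theorem step_conn (hlt : V < P ⊓ nz V)
    (hconn : Cfsg.IsSylowChainConnected p (↥(nz V) ⧸ V.subgroupOf (nz V))) {n : G} (hn : n ∈ nz V) : T p P V n := by
  set N := nz V with hN
  set Q := P ⊓ N with hQ
  set V' := V.subgroupOf N with hV'
  have hVN : V ≤ N := le_normalizer
  have hQN : Q ≤ N := inf_le_right
  have hbar : SylIn p ((Q.subgroupOf N).map (QuotientGroup.mk' V')) ⊤ := by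
    have hQp : IsPGroup p ↥(Q.subgroupOf N) := hV.isPGroup.comap_of_injective _ N.subtype_injective
    refine ⟨le_top, hQp.map _, ?_⟩
    rw [relIndex_top_right]
    intro hd
    have h2 : ((Q.subgroupOf N).map (QuotientGroup.mk' V')).index ∣ (Q.subgroupOf N).index :=
      Subgroup.index_map_dvd _ (QuotientGroup.mk'_surjective _)
    exact hV.not_dvd (hd.trans h2)
  obtain ⟨S0, hS0⟩ := sylIn_top_iff.1 hbar
  have hinter : ∀ m : ↥N, (S0 : Subgroup (↥N ⧸ V')) ⊓ ((QuotientGroup.mk' V' m • S0 : Sylow p (↥N ⧸ V')) : Subgroup (↥N ⧸ V')) ≠ ⊥ →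
      T p P V (m : G) := by
    intro m hm
    by_contra hT
    apply hm
    have hVcj : V ≤ Q ⊓ cj (m : G) Q := by
      refine le_inf hlt.le ?_
      have := cj_mono (g := (m : G)) hlt.le
      rwa [mem_normalizer.1 m.2] at this
    have hnlt : ¬ V < Q ⊓ cj (m : G) Q := by
      intro h
      apply hT
      refine T_of_gt hP hVP IH (inf_le_left.trans inf_le_left) h ?_
      rw [cj_inf, cj_inv_cj]
      exact inf_le_right.trans inf_le_left
    have hEV : Q ⊓ cj (m : G) Q = V := by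
      by_contra hne
      exact hnlt (lt_of_le_of_ne hVcj (Ne.symm hne))
    rw [eq_bot_iff]
    rintro y ⟨hy1, hy2⟩
    rw [coe_smul_eq_map, hS0] at hy2
    rw [hS0] at hy1
    obtain ⟨q, hq, rfl⟩ := hy1
    obtain ⟨_, ⟨q', hq', rfl⟩, hy3⟩ := hy2
    have h3 : QuotientGroup.mk' V' (m * q' * m⁻¹) = QuotientGroup.mk' V' q := by
      rw [map_mul, map_mul, map_inv]
      exact hy3
    have h4 : (m * q' * m⁻¹)⁻¹ * q ∈ V' := by
      rw [← QuotientGroup.eq]
      exact h3
    have h5 : (q : G) ∈ cj (m : G) Q := by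
      have h6 : (m : G) * q' * (m : G)⁻¹ ∈ cj (m : G) Q := conj_mem_cj hq'
      have h7 : ((m : G) * q' * (m : G)⁻¹)⁻¹ * q ∈ cj (m : G) Q := (hVcj.trans inf_le_right) h4
      have h8 := mul_mem h6 h7
      have h9 : (m : G) * q' * (m : G)⁻¹ * (((m : G) * q' * (m : G)⁻¹)⁻¹ * q) = q := by group
      rwa [h9] at h8
    have h6 : (q : G) ∈ V := by rw [← hEV]; exact ⟨hq, h5⟩
    rw [mem_bot]
    exact (QuotientGroup.eq_one_iff q).2 h6
  have hS0ne : (S0 : Subgroup (↥N ⧸ V')) ≠ ⊥ := by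
    rw [hS0]
    intro h
    rw [Subgroup.map_eq_bot_iff, QuotientGroup.ker_mk'] at h
    have h1 : Q ≤ V := fun q hq => h (show (⟨q, hQN hq⟩ : ↥N) ∈ Q.subgroupOf N from hq)
    exact hlt.not_ge h1
  have hclaim : ∀ S : Sylow p (↥N ⧸ V'), Relation.ReflTransGen Adj S0 S → ∀ b : ↥N, S = QuotientGroup.mk' V' b • S0 →
      T p P V (b : G) := by
    intro S hS
    induction hS with
    | refl =>
      intro b hb
      apply hinter
      rw [← hb, inf_idem]
      exact hS0ne
    | @tail S1 S2 _ hadj ih =>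
      intro b hb
      obtain ⟨x, hx⟩ := MulAction.exists_smul_eq (↥N ⧸ V') S0 S1
      obtain ⟨a, rfl⟩ := QuotientGroup.mk'_surjective V' x
      have h1 := ih a hx.symm
      have h2 : T p P V ((a⁻¹ * b : ↥N) : G) := by
        apply hinter
        have h3 := hadj.smul (QuotientGroup.mk' V' a)⁻¹
        rw [← hx, hb, inv_smul_smul, ← mul_smul, ← map_inv, ← map_mul] at h3
        exact h3.2
      have h3 := h1.mul_nz a.2 h2
      have h4 : (a : G) * ((a⁻¹ * b : ↥N) : G) = b := by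
        rw [Subgroup.coe_mul, Subgroup.coe_inv]; group
      rwa [h4] at h3
  exact hclaim _ (connected_iff.1 hconn S0 (QuotientGroup.mk' V' ⟨n, hn⟩ • S0)) ⟨n, hn⟩ rfl

omit hp in
theorem card_map_mk {N V Y : Subgroup G} [(V.subgroupOf N).Normal] (hY : Y ≤ N) :
    Nat.card ((Y.subgroupOf N).map (QuotientGroup.mk' (V.subgroupOf N))) = V.relIndex Y := by
  rw [← Subgroup.relIndex_ker, QuotientGroup.ker_mk', relIndex_subgroupOf hY]

theorem exists_small {N V : Subgroup G} [hn : (V.subgroupOf N).Normal] (hVN : V ≤ N) (hd : p ∣ V.relIndex N)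
    (h : ¬ Cfsg.IsSylowChainConnected p (↥N ⧸ V.subgroupOf N)) :
    ∃ X : Subgroup G, V ≤ X ∧ X ≤ N ∧ (X.subgroupOf N).Normal ∧ p ∣ V.relIndex X ∧
      ∀ Y : Subgroup G, V ≤ Y → Y ≤ N → (Y.subgroupOf N).Normal → p ∣ V.relIndex Y → X ≤ Y := by
  rw [not_connected_iff] at h
  obtain ⟨M, hM⟩ := h
  have hinf : ∀ X Y : Subgroup G, V ≤ X → X ≤ N → (X.subgroupOf N).Normal → p ∣ V.relIndex X →
      V ≤ Y → Y ≤ N → (Y.subgroupOf N).Normal → p ∣ V.relIndex Y → p ∣ V.relIndex (X ⊓ Y) := by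
    intro X Y h1 h2 h3 h4 h5 h6 h7 h8
    have hX : ((X.subgroupOf N).map (QuotientGroup.mk' (V.subgroupOf N))).Normal :=
      h3.map _ (QuotientGroup.mk'_surjective _)
    have hY : ((Y.subgroupOf N).map (QuotientGroup.mk' (V.subgroupOf N))).Normal :=
      h7.map _ (QuotientGroup.mk'_surjective _)
    have h9 := SPE.dvd_inf hM _ _ (by rwa [card_map_mk h2]) (by rwa [card_map_mk h6])
    have h10 : (X.subgroupOf N).map (QuotientGroup.mk' (V.subgroupOf N)) ⊓
        (Y.subgroupOf N).map (QuotientGroup.mk' (V.subgroupOf N)) =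
        ((X ⊓ Y).subgroupOf N).map (QuotientGroup.mk' (V.subgroupOf N)) := by
      apply le_antisymm
      · rintro _ ⟨⟨x, hx, rfl⟩, y, hy, hyx⟩
        refine ⟨x, ⟨hx, ?_⟩, rfl⟩
        have h11 : y⁻¹ * x ∈ V.subgroupOf N := by
          rw [← QuotientGroup.eq]; exact hyx
        have h12 := (Y.subgroupOf N).mul_mem hy (h5 h11)
        rwa [mul_inv_cancel_left] at h12
      · exact le_inf (Subgroup.map_mono (fun x hx => hx.1)) (Subgroup.map_mono (fun x hx => hx.2))
    rw [h10, card_map_mk (inf_le_left.trans h2)] at h9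
    exact h9
  obtain ⟨X, ⟨hX1, hX2, hX3, hX4⟩, hmin⟩ := Set.exists_min_image
    {X : Subgroup G | V ≤ X ∧ X ≤ N ∧ (X.subgroupOf N).Normal ∧ p ∣ V.relIndex X} (fun X => Nat.card X)
    (Set.toFinite _) ⟨N, hVN, le_rfl, by rw [subgroupOf_self]; infer_instance, hd⟩
  refine ⟨X, hX1, hX2, hX3, hX4, ?_⟩
  intro Y h5 h6 h7 h8
  have h9 : (X ⊓ Y) = X := by
    apply eq_of_le_of_card_le inf_le_left
    apply hmin
    refine ⟨le_inf hX1 h5, inf_le_left.trans hX2, ?_, hinf X Y hX1 hX2 hX3 hX4 h5 h6 h7 h8⟩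
    have : (X ⊓ Y).subgroupOf N = X.subgroupOf N ⊓ Y.subgroupOf N := rfl
    rw [this]; infer_instance
  rw [← h9]; exact inf_le_right

include hP hVP hV IH in
theorem step_all (hne : V ≠ P) {n : G} (hn : n ∈ nz V) : T p P V n := by
  by_cases hc : P ⊓ centralizer (V : Set G) ≤ V
  swap
  · exact step_noncentric hP hVP hV IH hc hn
  by_cases hE : P ⊓ (Cfsg.pPrimePCore p ↥(nz V)).map (nz V).subtype = V
  swap
  · exact step_core hP hVP hV IH hc hE hn
  have hlt : V < P ⊓ nz V := lt_inf_normalizer hP.isPGroup (lt_of_le_of_ne hVP hne)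
  by_cases hconn : Cfsg.IsSylowChainConnected p (↥(nz V) ⧸ V.subgroupOf (nz V))
  · exact step_conn hP hVP hV IH hlt hconn hn
  have hVN : V ≤ nz V := le_normalizer
  have hd : p ∣ V.relIndex (nz V) := by
    have h1 : V.relIndex (P ⊓ nz V) ∣ V.relIndex (nz V) := by
      rw [← relIndex_mul_relIndex V (P ⊓ nz V) (nz V) hlt.le inf_le_right]
      exact Dvd.intro _ rfl
    refine dvd_trans ?_ h1
    have h2 : IsPGroup p ↥(P ⊓ nz V) := hV.isPGroup
    have h3 : V.relIndex (P ⊓ nz V) ≠ 1 := by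
      rw [Ne, relIndex_eq_one]; exact hlt.not_ge
    obtain ⟨k, hk⟩ := h2.index (V.subgroupOf (P ⊓ nz V))
    have hk' : V.relIndex (P ⊓ nz V) = p ^ k := hk
    rw [hk']
    rcases Nat.eq_zero_or_pos k with h0 | h0
    · rw [hk', h0, pow_zero] at h3; exact absurd rfl h3
    · exact dvd_pow_self p (by omega)
  obtain ⟨X, hX1, hX2, hX3, hX4, hX5⟩ := exists_small hVN hd hconn
  obtain ⟨h1, h2, h3, h4, h5, h6⟩ := core_or hVP hV hc
  have hok : Ok p P V X := by
    refine ⟨hVP, hV.not_dvd, hc, ?_, hconn, hX1, hX2, hX3, hX4, hX5⟩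
    apply le_antisymm
    · rw [h4, hE]; exact sup_le_sup_left h3 V
    · refine sup_le ?_ (h6.trans ?_)
      · exact h1.trans inf_le_right
      · rw [h4, hE]
  have hNX : nz V ≤ normalizer (X : Set G) := by
    have := le_normalizer_map_subtype hX3
    rwa [map_subgroupOf_eq_of_le hX2] at this
  have hS : SylIn p (P ⊓ X) X := by
    have h7 := hV.inf_normal hX2 hNX
    have h8 : P ⊓ nz V ⊓ X = P ⊓ X := by rw [inf_assoc, inf_eq_right.2 hX2]
    rwa [h8] at h7
  have hVX : V < P ⊓ X := by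
    refine lt_of_le_of_ne (le_inf hVP hX1) ?_
    intro h
    exact hS.not_dvd (h ▸ hX4)
  obtain ⟨x, hx, m, hm, rfl⟩ := CFSylow.frattini hS hX2 hNX hn
  have hxT : T p P V x := by
    have h7 : x ∈ (P ⊓ X) ⊔ pRes p X := by
      rw [(⟨hS.le, hS.isPGroup, hS.not_dvd⟩ : LocBase.IsSyl p (P ⊓ X) X).sup_pRes]
      exact hx
    have h8 : P ⊓ X ≤ normalizer (pRes p X : Set G) := (inf_le_right : P ⊓ X ≤ X).trans (LocBase.le_normalizer_pRes p X)
    rw [sup_comm, ← SetLike.mem_coe, coe_mul_of_right_le_normalizer_left _ _ h8] at h7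
    obtain ⟨k, hk, e, he, rfl⟩ := h7
    exact (T.of_step hok hk le_rfl).mul_nz (hX2 (pRes_le X hk)) (T.of_norm (le_normalizer he.1))
  exact hxT.mul_nz (hX2 hx) (T_of_nz hP hVP IH inf_le_left hVX hm.2)

end step

/-- The fusion theorem in terms of words. -/
theorem T_all (hP : SylIn p P ⊤) {U : Subgroup G} (hU : U ≤ P) {g : G} (hg : cj g⁻¹ U ≤ P) : T p P U g := by
  have hΦ : IsFus P (fun B g => B ≤ P ∧ cj g B ≤ P ∧ T p P B g⁻¹) := by
    refine ⟨fun h => ⟨h.1, h.2.1⟩, ?_, ?_, ?_⟩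
    · rintro B g h ⟨h1, h2, h3⟩ ⟨h4, h5, h6⟩
      refine ⟨h1, by rwa [cj_cj] at h5, ?_⟩
      rw [mul_inv_rev]
      refine h3.trans ?_
      rwa [inv_inv]
    · rintro B g ⟨h1, h2, h3⟩
      refine ⟨h2, by rwa [cj_inv_cj], ?_⟩
      have := h3.inv
      rwa [inv_inv] at this ⊢
    · rintro B B' g hBB ⟨h1, h2, h3⟩
      exact ⟨hBB.trans h1, (cj_mono hBB).trans h2, h3.mono hBB⟩
  have h1 := hΦ.induction_fn hP ⊥ bot_le ?_ U hU g⁻¹ hg
  · have := h1.2.2
    rwa [inv_inv] at this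
  · intro B hB hBn _ IH k hk
    refine ⟨hB, by rw [mem_normalizer.1 hk]; exact hB, ?_⟩
    by_cases hBP : B = P
    · subst hBP
      exact T.of_norm (inv_mem hk)
    · exact step_all hP hB hBn (fun B' h1 h2 g h3 => (IH B' h1 h2 g h3).2.2) hBP (inv_mem hk)

omit [Finite G] hp in
theorem conj_mem_pRes {X : Subgroup G} {x y : G} (hx : x ∈ pRes p X) : y * x * y⁻¹ ∈ pRes p (cj y X) := by
  have h1 : pRes p X ≤ (pRes p (cj y X)).comap (MulAut.conj y).toMonoidHom := by
    unfold LocBase.pRes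
    rw [closure_le]
    rintro z ⟨hz, hzo⟩
    apply Subgroup.subset_closure
    refine ⟨conj_mem_cj hz, ?_⟩
    have h2 : orderOf ((MulAut.conj y).toMonoidHom z) = orderOf z := MulEquiv.orderOf_eq (MulAut.conj y) z
    rw [h2]; exact hzo
  exact h1 hx

/-- letters -/
abbrev Letter (G : Type*) [Group G] := Subgroup G × Subgroup G × G

theorem T.normal_form {U : Subgroup G} {g : G} (h : T p P U g) :
    ∃ (l : List (Letter G)) (c y : G), c ∈ centralizer (U : Set G) ∧ y ∈ normalizer (P : Set G) ∧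
      g = c * (l.map (fun a => a.2.2)).prod * y ∧
      ∀ (i : ℕ) (hi : i < l.length), Ok p P (l[i]).1 (l[i]).2.1 ∧ (l[i]).2.2 ∈ pRes p (l[i]).2.1 ∧
        cj (((l.map (fun a => a.2.2)).take i).prod)⁻¹ U ≤ (l[i]).1 := by
  induction h with
  | one =>
    refine ⟨[], 1, 1, one_mem _, one_mem _, by simp, ?_⟩
    intro i hi
    exact absurd hi (Nat.not_lt_zero _)
  | @cent g c' _ hc' ih =>
    obtain ⟨l, c, y, hc, hy, hg, hl⟩ := ih
    refine ⟨l, (g * c' * g⁻¹) * c, y, ?_, hy, ?_, hl⟩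
    · refine mul_mem ?_ hc
      rw [← cj_centralizer, mem_cj, inv_inv] at hc'
      exact hc'
    · have : g * c' * g⁻¹ * c * (List.map (fun a => a.2.2) l).prod * y =
          g * c' * g⁻¹ * (c * (List.map (fun a => a.2.2) l).prod * y) := by group
      rw [this, ← hg]; group
  | @norm g y' _ hy' ih =>
    obtain ⟨l, c, y, hc, hy, hg, hl⟩ := ih
    refine ⟨l, c, y * y', hc, mul_mem hy hy', ?_, hl⟩
    rw [hg]; group
  | @step g x H X _ hok hx hU ih =>
    obtain ⟨l, c, y, hc, hy, hg, hl⟩ := ih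
    have hU' : cj ((l.map (fun a => a.2.2)).prod)⁻¹ U ≤ cj y H := by
      have h1 := cj_mono (g := y) hU
      rw [cj_cj, hg] at h1
      have h2 : y * (c * (List.map (fun a => a.2.2) l).prod * y)⁻¹ = ((l.map (fun a => a.2.2)).prod)⁻¹ * c⁻¹ := by group
      rw [h2, ← cj_cj, cj_of_centralizer (inv_mem hc)] at h1
      exact h1
    refine ⟨l ++ [(cj y H, cj y X, y * x * y⁻¹)], c, y, hc, hy, ?_, ?_⟩
    · rw [List.map_append, List.prod_append, List.map_singleton, List.prod_singleton, hg]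
      show c * _ * y * x = c * (_ * (y * x * y⁻¹)) * y
      group
    · intro i hi
      rcases Nat.lt_or_ge i l.length with h1 | h1
      · rw [List.getElem_append_left h1]
        obtain ⟨h2, h3, h4⟩ := hl i h1
        refine ⟨h2, h3, ?_⟩
        rw [List.map_append, List.take_append_of_le_length (by rw [List.length_map]; exact h1.le)]
        exact h4
      · have h2 : i = l.length := by
          rw [List.length_append, List.length_singleton] at hi
          omega
        subst h2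
        have h3 : (l ++ [(cj y H, cj y X, y * x * y⁻¹)])[l.length] = (cj y H, cj y X, y * x * y⁻¹) := by
          simp
        rw [h3]
        refine ⟨hok.conj hy, conj_mem_pRes hx, ?_⟩
        rw [List.map_append, List.take_append_of_le_length (by rw [List.length_map]),
          List.take_of_length_le (by rw [List.length_map])]
        exact hU'


end ok

end Cfsg.Agent.Lib.StrongAG
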