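import Cfsg.Agent.Lib.SmallSimple3

/-! Subgroups of the symmetric group of degree 7 of order divisible by 7 but not by 3 have order 7 or 14. -/

set_option autoImplicit false

namespace Cfsg.Agent.Lib.SubS7

open MulAction Subgroup Cfsg.Agent.Lib.SmallSimple

/-- A faithful action on a set of prime size `p` of a group of order divisible by `p` is transitive. -/
theorem isPretransitive {K X : Type*} [Group K] [Finite K] [MulAction K X] [Finite X] [FaithfulSMul K X] {p : ℕ}
    [hp : Fact p.Prime] (hX : Nat.card X = p) (hK : p ∣ Nat.card K) : IsPretransitive K X := by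
  obtain ⟨g, hg⟩ := exists_prime_orderOf_dvd_card' p hK
  have hne : ∃ x : X, g • x ≠ x := by
    by_contra hno
    push Not at hno
    have : g = 1 := FaithfulSMul.eq_of_smul_eq_smul (α := X) (by intro x; rw [hno, one_smul])
    rw [this, orderOf_one] at hg
    exact hp.out.one_lt.ne hg
  obtain ⟨x, hx⟩ := hne
  have hpg : IsPGroup p (zpowers g) := by
    apply IsPGroup.of_card (n := 1)
    rw [Nat.card_zpowers, hg, pow_one]
  obtain ⟨k, hk⟩ := hpg.card_orbit x
  have hk0 : k ≠ 0 := by
    rintro rfl
    rw [pow_zero] at hk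
    have h4 : Subsingleton (MulAction.orbit (zpowers g) x) := (Nat.card_eq_one_iff_unique.1 hk).1
    have h5 : (⟨g • x, ⟨⟨g, mem_zpowers g⟩, rfl⟩⟩ : MulAction.orbit (zpowers g) x) = ⟨x, mem_orbit_self x⟩ :=
      Subsingleton.elim _ _
    exact hx (congrArg Subtype.val h5)
  have hle : Nat.card (MulAction.orbit (zpowers g) x) ≤ Nat.card X :=
    Nat.card_le_card_of_injective _ Subtype.val_injective
  have hge : p ≤ Nat.card (MulAction.orbit (zpowers g) x) := by
    rw [hk]
    calc p = p ^ 1 := (pow_one p).symm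
      _ ≤ p ^ k := Nat.pow_le_pow_right hp.out.pos (by omega)
  have heq : Nat.card (MulAction.orbit (zpowers g) x) = Nat.card X := by omega
  have huniv : MulAction.orbit (zpowers g) x = Set.univ := by
    have h6 : Set.ncard (MulAction.orbit (zpowers g) x) = Nat.card X := heq
    exact (Set.eq_univ_iff_ncard _).2 h6
  rw [isPretransitive_iff_orbit_eq_univ x, Set.eq_univ_iff_forall]
  intro y
  have : y ∈ MulAction.orbit (zpowers g) x := by rw [huniv]; trivial
  obtain ⟨h, rfl⟩ := this
  exact ⟨h.1, rfl⟩

/-- A normal `p'`-subgroup of a faithful permutation group of prime degree `p` and order divisible by `p` is trivial. -/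
theorem normal_eq_bot {K X : Type*} [Group K] [Finite K] [MulAction K X] [Finite X] [FaithfulSMul K X] {p : ℕ}
    [hp : Fact p.Prime] (hX : Nat.card X = p) (hK : p ∣ Nat.card K) (M : Subgroup K) [M.Normal]
    (hM : ¬ p ∣ Nat.card M) : M = ⊥ := by
  have h1 : IsPretransitive K X := isPretransitive hX hK
  have h2 : IsPreprimitive K X := IsPreprimitive.of_prime_card (by rw [hX]; exact hp.out)
  by_cases h3 : fixedPoints M X = Set.univ
  · rw [eq_bot_iff]
    intro g hg
    have : ∀ x : X, g • x = x := by
      intro x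
      have h4 : x ∈ fixedPoints M X := by rw [h3]; trivial
      exact h4 ⟨g, hg⟩
    exact FaithfulSMul.eq_of_smul_eq_smul (α := X) (by intro x; rw [this, one_smul])
  · exfalso
    have h4 : IsPretransitive M X := IsQuasiPreprimitive.isPretransitive_of_normal h3
    have hne : Nonempty X := by
      have : 0 < Nat.card X := by rw [hX]; exact hp.out.pos
      exact (Nat.card_pos_iff.1 this).1
    obtain ⟨x⟩ := hne
    apply hM
    rw [← hX]
    have h5 := MulAction.index_stabilizer M x
    have h6 : orbit M x = Set.univ := orbit_eq_univ M x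
    rw [h6, Set.ncard_univ] at h5
    rw [← h5]
    exact index_dvd_card _

theorem sub_S7 (R : Subgroup (Equiv.Perm (Fin 7))) (h3 : ¬ 3 ∣ Nat.card R) (h7 : 7 ∣ Nat.card R) :
    Nat.card R = 7 ∨ Nat.card R = 14 := by
  have : Fact (Nat.Prime 7) := ⟨by norm_num⟩
  let K : Subgroup (Equiv.Perm (Fin 7)) := R ⊓ alternatingGroup (Fin 7)
  have hidx : (alternatingGroup (Fin 7)).relIndex R ∣ 2 := by
    have h1 : (alternatingGroup (Fin 7)).relIndex R = Nat.card (R.map Equiv.Perm.sign) := by
      change (Equiv.Perm.sign : Equiv.Perm (Fin 7) →* ℤˣ).ker.relIndex R = _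
      rw [relIndex_ker]
    rw [h1]
    have h2 : Nat.card ℤˣ = 2 := by rw [Nat.card_eq_fintype_card]; rfl
    rw [← h2]
    exact Subgroup.card_subgroup_dvd_card _
  have hmul := relIndex_mul_card_inf (alternatingGroup (Fin 7)) R
  rw [inf_comm] at hmul
  change _ * Nat.card K = _ at hmul
  have h7K : 7 ∣ Nat.card K := by
    rw [← hmul] at h7
    rcases (Nat.Prime.dvd_mul (by norm_num)).1 h7 with h | h
    · have := h.trans hidx
      norm_num at this
    · exact h
  have h3K : ¬ 3 ∣ Nat.card K := fun h => h3 (h.trans (by rw [← hmul]; exact Dvd.intro_left _ rfl))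
  obtain ⟨P⟩ : Nonempty (Sylow 7 K) := inferInstance
  have h5 := normalizer_dvd_of_embedding (G := K) (α := Fin 7) (p := 7) (by norm_num) (Or.inl (by simp))
    ((Subgroup.inclusion (inf_le_right : K ≤ alternatingGroup (Fin 7)))) (inclusion_injective _) h7K P
  have hPc : Nat.card (P : Subgroup K) = 7 := by
    have h6 : Nat.card (P : Subgroup K) ∣ Nat.card (Equiv.Perm (Fin 7)) := 
      (Subgroup.card_subgroup_dvd_card _).trans (Subgroup.card_subgroup_dvd_card K)
    have h7' : Nat.card (Equiv.Perm (Fin 7)) = 5040 := by rw [Nat.card_perm, Nat.card_fin]; rfl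
    rw [h7'] at h6
    obtain ⟨k, hk⟩ := IsPGroup.iff_card.1 P.isPGroup'
    rw [hk] at h6
    have hk1 : k < 2 := by
      by_contra hlt
      have : 7 ^ 2 ∣ 5040 := (pow_dvd_pow 7 (by omega)).trans h6
      norm_num at this
    have hk0 : k ≠ 0 := by
      rintro rfl
      rw [pow_zero] at hk
      have := P.dvd_card_of_dvd_card h7K
      rw [hk] at this
      norm_num at this
    have : k = 1 := by omega
    rw [hk, this, pow_one]
  have hNc : Nat.card (normalizer ((P : Subgroup K) : Set K)) = 7 := by
    have h6 : Nat.card (normalizer ((P : Subgroup K) : Set K)) ∣ 21 := by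
      have : 2 * Nat.card (normalizer ((P : Subgroup K) : Set K)) ∣ 2 * 21 := h5
      exact Nat.dvd_of_mul_dvd_mul_left (by norm_num) this
    have h8 : 7 ∣ Nat.card (normalizer ((P : Subgroup K) : Set K)) := by
      have h8' : Nat.card (P : Subgroup K) ∣ Nat.card (normalizer ((P : Subgroup K) : Set K)) :=
        Subgroup.card_dvd_of_le le_normalizer
      exact (dvd_of_eq hPc.symm).trans h8'
    have h9 : ¬ 3 ∣ Nat.card (normalizer ((P : Subgroup K) : Set K)) := fun h =>
      h3K (h.trans (Subgroup.card_subgroup_dvd_card _))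
    have h10 : ∀ n ∈ Nat.divisors 21, 7 ∣ n → ¬ 3 ∣ n → n = 7 := by decide +kernel
    exact h10 _ (Nat.mem_divisors.2 ⟨h6, by norm_num⟩) h8 h9
  have hNP : normalizer ((P : Subgroup K) : Set K) = P := by
    symm
    apply Subgroup.eq_of_le_of_card_ge le_normalizer
    rw [hNc, hPc]
  have hNC : normalizer ((P : Subgroup K) : Set K) ≤ centralizer ((P : Subgroup K) : Set K) := by
    rw [hNP]
    exact le_centralizer_of_comm (isMulCommutative_of_prime_card (by norm_num : Nat.Prime 7) hPc)
  obtain ⟨M, hMc, hMcompl, hMp⟩ := exists_characteristic_complement P hNC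
  have hMb : M = ⊥ := normal_eq_bot (X := Fin 7) (p := 7) (by simp) h7K M hMp
  have hKc : Nat.card K = 7 := by
    rw [← hMcompl.card_mul, hMb, card_bot, one_mul, hPc]
  rw [hKc] at hmul
  rcases (Nat.dvd_prime Nat.prime_two).1 hidx with h | h
  · left; rw [← hmul, h]
  · right; rw [← hmul, h]

end Cfsg.Agent.Lib.SubS7
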