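import Mathlib
import Cfsg.Agent.Lib.SubnormalizerP

/-!
Casolo's formula for the number of elements of the subnormalizer of a `p`-subgroup (helper68).

`card_subnormalizer` : `#{g : H sn ⟨H, g⟩} = #{Q Sylow, H ≤ Q} * #N_G(P)`.
-/

set_option autoImplicit false

namespace Cfsg.Agent.Lib.SubnormalizerCount

open Cfsg.Agent.Lib.SubnormalizerP

variable {G : Type*} [Group G]

/-- `R ⊴ S` -/
def NormalIn (R S : Subgroup G) : Prop := R ≤ S ∧ S ≤ Subgroup.normalizer (R : Set G)

theorem NormalIn.refl (R : Subgroup G) : NormalIn R R := ⟨le_rfl, Subgroup.le_normalizer⟩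

/-- normal chains of `p`-subgroups containing `H` -/
def NC (p : ℕ) (H : Subgroup G) (c : Finset (Subgroup G)) : Prop :=
  c.Nonempty ∧ (∀ R ∈ c, H ≤ R ∧ IsPGroup p R) ∧ ∀ R ∈ c, ∀ S ∈ c, NormalIn R S ∨ NormalIn S R

/-- the stabilizer of a chain -/
def Nc (c : Finset (Subgroup G)) : Subgroup G := ⨅ R ∈ c, Subgroup.normalizer (R : Set G)

theorem mem_Nc {c : Finset (Subgroup G)} {g : G} :
    g ∈ Nc c ↔ ∀ R ∈ c, g ∈ Subgroup.normalizer (R : Set G) := by
  simp only [Nc, Subgroup.mem_iInf]

theorem sup_eq_of {c : Finset (Subgroup G)} {T : Subgroup G} (h1 : T ∈ c) (h2 : ∀ R ∈ c, R ≤ T) :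
    c.sup id = T :=
  le_antisymm (Finset.sup_le h2) (Finset.le_sup (f := id) h1)

theorem NC.sup_mem [Finite G] {p : ℕ} {H : Subgroup G} {c : Finset (Subgroup G)} (h : NC p H c) :
    c.sup id ∈ c := by
  obtain ⟨T, hT, hmax⟩ := Finset.exists_max_image c (fun R => Nat.card R) h.1
  have : c.sup id = T := by
    apply sup_eq_of hT
    intro R hR
    rcases h.2.2 R hR T hT with h1 | h1
    · exact h1.1
    · exact (Subgroup.eq_of_le_of_card_ge h1.1 (hmax R hR)).ge
  rw [this]; exact hT

theorem NC.le_sup {p : ℕ} {H : Subgroup G} {c : Finset (Subgroup G)} (_h : NC p H c)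
    {R : Subgroup G} (hR : R ∈ c) : R ≤ c.sup id := Finset.le_sup (f := id) hR

theorem NC.normalIn_sup [Finite G] {p : ℕ} {H : Subgroup G} {c : Finset (Subgroup G)} (h : NC p H c)
    {R : Subgroup G} (hR : R ∈ c) : NormalIn R (c.sup id) := by
  rcases h.2.2 R hR _ h.sup_mem with h1 | h1
  · exact h1
  · have : R = c.sup id := le_antisymm (h.le_sup hR) h1.1
    rw [← this]; exact NormalIn.refl R

theorem NC.sup_le_Nc [Finite G] {p : ℕ} {H : Subgroup G} {c : Finset (Subgroup G)} (h : NC p H c) :
    c.sup id ≤ Nc c := by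
  intro x hx
  rw [mem_Nc]
  intro R hR
  exact (h.normalIn_sup hR).2 hx

theorem NC.Nc_le [Finite G] {p : ℕ} {H : Subgroup G} {c : Finset (Subgroup G)} (h : NC p H c) :
    Nc c ≤ Subgroup.normalizer ((c.sup id : Subgroup G) : Set G) := by
  intro x hx
  exact mem_Nc.mp hx _ h.sup_mem

/-- normal closure of `M` in `T` -/
def nc (M T : Subgroup G) : Subgroup G := sInf {R | M ≤ R ∧ NormalIn R T}

theorem le_nc {M T : Subgroup G} : M ≤ nc M T := le_sInf fun _ h => h.1

theorem nc_le {M T R : Subgroup G} (h1 : M ≤ R) (h2 : NormalIn R T) : nc M T ≤ R := sInf_le ⟨h1, h2⟩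

theorem nc_normalIn {M T : Subgroup G} (h : M ≤ T) : NormalIn (nc M T) T := by
  refine ⟨nc_le h (NormalIn.refl T), ?_⟩
  intro t ht
  apply mem_normalizer_of
  · intro x hx
    rw [nc, Subgroup.mem_sInf] at hx ⊢
    intro R hR
    exact conj_mem_of (hR.2.2 ht) (hx R hR)
  · intro x hx
    rw [nc, Subgroup.mem_sInf] at hx ⊢
    intro R hR
    exact conj_mem_of' (hR.2.2 ht) (hx R hR)

theorem mem_normalizer_nc {M T : Subgroup G} {g : G} (hM : g ∈ Subgroup.normalizer (M : Set G))
    (hT : g ∈ Subgroup.normalizer (T : Set G)) : g ∈ Subgroup.normalizer (nc M T : Set G) := by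
  have key : ∀ g : G, g ∈ Subgroup.normalizer (M : Set G) → g ∈ Subgroup.normalizer (T : Set G) →
      ∀ x ∈ nc M T, g * x * g⁻¹ ∈ nc M T := by
    intro g hM hT x hx
    rw [nc, Subgroup.mem_sInf]
    rintro R ⟨h1, h2, h3⟩
    -- the conjugate g⁻¹ R g
    have h4 : nc M T ≤ R.comap (MulAut.conj g).toMonoidHom := by
      apply nc_le
      · intro m hm
        exact h1 (conj_mem_of hM hm)
      · constructor
        · intro y hy
          have hy' : g * y * g⁻¹ ∈ R := hy
          have := conj_mem_of' hT (h2 hy')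
          have e : g⁻¹ * (g * y * g⁻¹) * g = y := by group
          rwa [e] at this
        · intro t ht
          have ht' := h3 (conj_mem_of hT ht)
          apply mem_normalizer_of
          · intro y hy
            have hy' : g * y * g⁻¹ ∈ R := hy
            have := conj_mem_of ht' hy'
            have e : g * t * g⁻¹ * (g * y * g⁻¹) * (g * t * g⁻¹)⁻¹ = g * (t * y * t⁻¹) * g⁻¹ := by group
            rw [e] at this
            exact this
          · intro y hy
            have hy' : g * y * g⁻¹ ∈ R := hy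
            have := conj_mem_of' ht' hy'
            have e : (g * t * g⁻¹)⁻¹ * (g * y * g⁻¹) * (g * t * g⁻¹) = g * (t⁻¹ * y * t) * g⁻¹ := by group
            rw [e] at this
            exact this
    exact h4 hx
  apply mem_normalizer_of (key g hM hT)
  intro x hx
  have := key g⁻¹ (inv_mem hM) (inv_mem hT) x hx
  rwa [inv_inv] at this

/-- in a finite `p`-group a proper subgroup has proper normal closure -/
theorem nc_ne [Finite G] {p : ℕ} [Fact p.Prime] {M T : Subgroup G} (hT : IsPGroup p T) (h : M ≤ T) (hne : M ≠ T) :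
    nc M T ≠ T := by
  have hnil : Group.IsNilpotent T := hT.isNilpotent
  have hs := isSubnormal_of_isNilpotent hnil (M.subgroupOf T)
  have hne' : M.subgroupOf T ≠ ⊤ := by
    intro h1
    rw [Subgroup.subgroupOf_eq_top] at h1
    exact hne (le_antisymm h h1)
  obtain ⟨K, hK, hMK, hlt⟩ := hs.exists_normal_and_le_and_lt_top_of_ne hne'
  have hKT : NormalIn (K.map T.subtype) T := by
    refine ⟨Subgroup.map_subtype_le K, ?_⟩
    rw [← Subgroup.normal_subgroupOf_iff_le_normalizer (Subgroup.map_subtype_le K)]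
    have : (K.map T.subtype).subgroupOf T = K := by
      rw [Subgroup.subgroupOf, Subgroup.comap_map_eq_self_of_injective (Subgroup.subtype_injective T)]
    rw [this]; exact hK
  have h1 : nc M T ≤ K.map T.subtype := by
    apply nc_le _ hKT
    rw [← Subgroup.map_subgroupOf_eq_of_le h]
    exact Subgroup.map_mono hMK
  intro he
  rw [he] at h1
  apply hlt.ne
  rw [eq_top_iff]
  intro t _
  obtain ⟨k, hk, hkt⟩ := h1 t.2
  have : k = t := Subtype.ext hkt
  rwa [← this]

open Classical in
/-- toggle an element of a finset -/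
noncomputable def toggle (a : Subgroup G) (c : Finset (Subgroup G)) : Finset (Subgroup G) :=
  if a ∈ c then c.erase a else insert a c

theorem toggle_toggle (a : Subgroup G) (c : Finset (Subgroup G)) : toggle a (toggle a c) = c := by
  classical
  unfold toggle
  by_cases h : a ∈ c
  · simp [h, Finset.insert_erase h]
  · simp [h, Finset.erase_insert h]

theorem toggle_ne (a : Subgroup G) (c : Finset (Subgroup G)) : toggle a c ≠ c := by
  classical
  unfold toggle
  by_cases h : a ∈ c
  · simp only [h, if_true]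
    intro he
    rw [← he] at h
    simp at h
  · simp only [h, if_false]
    intro he
    apply h
    rw [← he]
    simp

theorem neg_one_pow_toggle (a : Subgroup G) (c : Finset (Subgroup G)) :
    (-1 : ℤ) ^ c.card + (-1 : ℤ) ^ (toggle a c).card = 0 := by
  classical
  unfold toggle
  by_cases h : a ∈ c
  · simp only [h, if_true]
    have h1 := Finset.card_erase_add_one h
    rw [← h1, pow_succ]; ring
  · simp only [h, if_false]
    rw [Finset.card_insert_of_notMem h, pow_succ]; ring

theorem mem_toggle_of_ne {a b : Subgroup G} {c : Finset (Subgroup G)} (hab : b ≠ a) : b ∈ toggle a c ↔ b ∈ c := by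
  classical
  unfold toggle
  by_cases h : a ∈ c
  · simp [h, hab]
  · simp [h, hab]

theorem mem_of_mem_toggle {a b : Subgroup G} {c : Finset (Subgroup G)} (h : b ∈ toggle a c) : b ∈ c ∨ b = a := by
  by_cases hab : b = a
  · exact Or.inr hab
  · exact Or.inl ((mem_toggle_of_ne hab).mp h)

/-- For a fixed `g` normalizing some `p`-subgroup containing `H`, the signed count of `g`-invariant normal chains is `-1`. -/
theorem sum_inv [Finite G] {p : ℕ} [Fact p.Prime] {H : Subgroup G} (g : G)
    (hg : ∃ R : Subgroup G, H ≤ R ∧ IsPGroup p R ∧ g ∈ Subgroup.normalizer (R : Set G))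
    (A : Finset (Finset (Subgroup G))) (hA : ∀ c, c ∈ A ↔ NC p H c ∧ g ∈ Nc c) :
    ∑ c ∈ A, (-1 : ℤ) ^ c.card = -1 := by
  classical
  -- the minimal one
  let M : Subgroup G := sInf {R | H ≤ R ∧ IsPGroup p R ∧ g ∈ Subgroup.normalizer (R : Set G)}
  have hMle : ∀ R : Subgroup G, H ≤ R → IsPGroup p R → g ∈ Subgroup.normalizer (R : Set G) → M ≤ R :=
    fun R h1 h2 h3 => sInf_le ⟨h1, h2, h3⟩
  have hHM : H ≤ M := le_sInf fun _ h => h.1
  have hMp : IsPGroup p M := by
    obtain ⟨R, h1, h2, h3⟩ := hg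
    exact h2.to_le (hMle R h1 h2 h3)
  have hgM : g ∈ Subgroup.normalizer (M : Set G) := by
    apply mem_normalizer_of
    · intro x hx
      rw [Subgroup.mem_sInf] at hx ⊢
      intro R hR
      exact conj_mem_of hR.2.2 (hx R hR)
    · intro x hx
      rw [Subgroup.mem_sInf] at hx ⊢
      intro R hR
      exact conj_mem_of' hR.2.2 (hx R hR)
  have hMA : ({M} : Finset (Subgroup G)) ∈ A := by
    rw [hA]
    refine ⟨⟨Finset.singleton_nonempty M, ?_, ?_⟩, ?_⟩
    · intro R hR
      rw [Finset.mem_singleton] at hR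
      rw [hR]; exact ⟨hHM, hMp⟩
    · intro R hR S hS
      rw [Finset.mem_singleton] at hR hS
      rw [hR, hS]; exact Or.inl (NormalIn.refl M)
    · rw [mem_Nc]
      intro R hR
      rw [Finset.mem_singleton] at hR
      rw [hR]; exact hgM
  rw [← Finset.add_sum_erase A _ hMA, Finset.card_singleton, pow_one]
  -- facts for a chain in A
  have hfact : ∀ c ∈ A.erase {M}, M ≤ c.sup id ∧ M ≠ c.sup id ∧ IsPGroup p (c.sup id : Subgroup G) ∧
      g ∈ Subgroup.normalizer ((c.sup id : Subgroup G) : Set G) := by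
    intro c hc
    rw [Finset.mem_erase, hA] at hc
    obtain ⟨hcM, hNC, hgc⟩ := hc
    have hT := hNC.sup_mem
    have h1 := hNC.2.1 _ hT
    have h2 := mem_Nc.mp hgc _ hT
    refine ⟨hMle _ h1.1 h1.2 h2, ?_, h1.2, h2⟩
    intro he
    apply hcM
    ext R
    rw [Finset.mem_singleton]
    constructor
    · intro hR
      have h3 := hNC.2.1 R hR
      have h4 := hMle R h3.1 h3.2 (mem_Nc.mp hgc R hR)
      exact le_antisymm (he ▸ hNC.le_sup hR) h4
    · rintro rfl
      rw [he]; exact hT
  have hsup : ∀ c ∈ A.erase {M}, (toggle (nc M (c.sup id)) c).sup id = c.sup id := by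
    intro c hc
    obtain ⟨h1, h2, h3, h4⟩ := hfact c hc
    have hNC : NC p H c := ((hA c).mp (Finset.mem_of_mem_erase hc)).1
    have hne := nc_ne h3 h1 h2
    apply sup_eq_of
    · rw [mem_toggle_of_ne hne.symm]
      exact hNC.sup_mem
    · intro R hR
      rcases mem_of_mem_toggle hR with h5 | h5
      · exact hNC.le_sup h5
      · rw [h5]; exact (nc_normalIn h1).1
  have hmem : ∀ c ∈ A.erase {M}, toggle (nc M (c.sup id)) c ∈ A.erase {M} := by
    intro c hc
    obtain ⟨h1, h2, h3, h4⟩ := hfact c hc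
    have hNC : NC p H c := ((hA c).mp (Finset.mem_of_mem_erase hc)).1
    have hgc : g ∈ Nc c := ((hA c).mp (Finset.mem_of_mem_erase hc)).2
    have hn := nc_normalIn h1
    have hsupc := hsup c hc
    -- comparability of nc with members
    have hcomp : ∀ R ∈ c, NormalIn (nc M (c.sup id)) R := by
      intro R hR
      have h5 := hNC.2.1 R hR
      have h6 := hMle R h5.1 h5.2 (mem_Nc.mp hgc R hR)
      exact ⟨nc_le h6 (hNC.normalIn_sup hR), (hNC.le_sup hR).trans hn.2⟩
    rw [Finset.mem_erase, hA]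
    refine ⟨?_, ⟨?_, ?_, ?_⟩, ?_⟩
    · intro he
      rw [he] at hsupc
      rw [Finset.sup_singleton] at hsupc
      exact h2 hsupc
    · exact ⟨c.sup id, (mem_toggle_of_ne (nc_ne h3 h1 h2).symm).mpr hNC.sup_mem⟩
    · intro R hR
      rcases mem_of_mem_toggle hR with h5 | h5
      · exact hNC.2.1 R h5
      · rw [h5]; exact ⟨hHM.trans le_nc, h3.to_le hn.1⟩
    · intro R hR S hS
      rcases mem_of_mem_toggle hR with h5 | h5
      · rcases mem_of_mem_toggle hS with h6 | h6
        · exact hNC.2.2 R h5 S h6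
        · rw [h6]; exact Or.inr (hcomp R h5)
      · rcases mem_of_mem_toggle hS with h6 | h6
        · rw [h5]; exact Or.inl (hcomp S h6)
        · rw [h5, h6]; exact Or.inl (NormalIn.refl _)
    · rw [mem_Nc]
      intro R hR
      rcases mem_of_mem_toggle hR with h5 | h5
      · exact mem_Nc.mp hgc R h5
      · rw [h5]; exact mem_normalizer_nc hgM h4
  have hzero : ∑ c ∈ A.erase {M}, (-1 : ℤ) ^ c.card = 0 := by
    apply Finset.sum_involution (fun c _ => toggle (nc M (c.sup id)) c)
    · intro c hc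
      exact neg_one_pow_toggle _ _
    · intro c hc _
      exact toggle_ne _ _
    · intro c hc
      exact hmem c hc
    · intro c hc
      rw [hsup c hc, toggle_toggle]
  rw [hzero, add_zero]

/-- `T` is a Sylow `p`-subgroup of the subgroup `Y` -/
def IsSyl (p : ℕ) (T Y : Subgroup G) : Prop :=
  T ≤ Y ∧ IsPGroup p T ∧ ∀ T' : Subgroup G, T ≤ T' → T' ≤ Y → IsPGroup p T' → T' = T

theorem IsSyl.of_sylow {p : ℕ} {Y : Subgroup G} (Q : Sylow p Y) : IsSyl p ((Q : Subgroup Y).map Y.subtype) Y := by
  refine ⟨Subgroup.map_subtype_le _, Q.2.map _, ?_⟩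
  intro T' h1 h2 h3
  have h4 : (Q : Subgroup Y) ≤ T'.subgroupOf Y := by
    intro x hx
    exact h1 ⟨x, hx, rfl⟩
  have h5 := Q.3 h3.comap_subtype h4
  rw [← Subgroup.map_subgroupOf_eq_of_le h2]
  exact congrArg (fun S : Subgroup Y => S.map Y.subtype) h5

/-- the Sylow subgroup of `Y` attached to `T` -/
def IsSyl.toSylow {p : ℕ} {T Y : Subgroup G} (h : IsSyl p T Y) : Sylow p Y where
  toSubgroup := T.subgroupOf Y
  isPGroup' := h.2.1.comap_subtype
  is_maximal' := by
    intro Q hQ hle
    have h1 : Q.map Y.subtype = T := by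
      apply h.2.2 _ _ (Subgroup.map_subtype_le Q) (hQ.map _)
      rw [← Subgroup.map_subgroupOf_eq_of_le h.1]
      exact Subgroup.map_mono hle
    rw [← h1, Subgroup.subgroupOf, Subgroup.comap_map_eq_self_of_injective (Subgroup.subtype_injective Y)]

theorem IsSyl.map_toSylow {p : ℕ} {T Y : Subgroup G} (h : IsSyl p T Y) :
    ((h.toSylow : Sylow p Y) : Subgroup Y).map Y.subtype = T :=
  Subgroup.map_subgroupOf_eq_of_le h.1

theorem card_normalizer_map {p : ℕ} {Y : Subgroup G} (Q : Sylow p Y) :
    Nat.card (Y ⊓ Subgroup.normalizer (((Q : Subgroup Y).map Y.subtype : Subgroup G) : Set G) : Subgroup G) =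
      Nat.card (Subgroup.normalizer ((Q : Subgroup Y) : Set Y)) := by
  have h : (Subgroup.normalizer ((Q : Subgroup Y) : Set Y)).map Y.subtype =
      Y ⊓ Subgroup.normalizer (((Q : Subgroup Y).map Y.subtype : Subgroup G) : Set G) := by
    apply le_antisymm
    · rintro _ ⟨y, hy, rfl⟩
      refine ⟨y.2, ?_⟩
      apply mem_normalizer_of
      · rintro _ ⟨q, hq, rfl⟩
        exact ⟨_, conj_mem_of hy hq, rfl⟩
      · rintro _ ⟨q, hq, rfl⟩
        exact ⟨_, conj_mem_of' hy hq, rfl⟩
    · rintro x ⟨hxY, hx⟩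
      refine ⟨⟨x, hxY⟩, ?_, rfl⟩
      apply mem_normalizer_of
      · intro q hq
        obtain ⟨q', hq', he⟩ := conj_mem_of hx (Subgroup.mem_map_of_mem Y.subtype hq)
        have : q' = (⟨x, hxY⟩ : Y) * q * (⟨x, hxY⟩ : Y)⁻¹ := Subtype.ext he
        rw [← this]; exact hq'
      · intro q hq
        obtain ⟨q', hq', he⟩ := conj_mem_of' hx (Subgroup.mem_map_of_mem Y.subtype hq)
        have : q' = (⟨x, hxY⟩ : Y)⁻¹ * q * (⟨x, hxY⟩ : Y) := Subtype.ext he
        rw [← this]; exact hq'
  rw [← h]
  exact Nat.card_congr (Subgroup.equivMapOfInjective _ _ (Subgroup.subtype_injective Y)).toEquiv.symm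

theorem card_eq_sum_syl [Finite G] {p : ℕ} [Fact p.Prime] (Y : Subgroup G) (B : Finset (Subgroup G))
    (hB : ∀ T, T ∈ B ↔ IsSyl p T Y) :
    (Nat.card Y : ℤ) = ∑ T ∈ B, (Nat.card (Y ⊓ Subgroup.normalizer (T : Set G) : Subgroup G) : ℤ) := by
  classical
  have : Fintype (Sylow p Y) := Fintype.ofFinite _
  have hsum : ∑ T ∈ B, (Nat.card (Y ⊓ Subgroup.normalizer (T : Set G) : Subgroup G) : ℤ) =
      ∑ Q : Sylow p Y, (Nat.card (Subgroup.normalizer ((Q : Subgroup Y) : Set Y)) : ℤ) := by
    symm
    apply Finset.sum_bij (fun (Q : Sylow p Y) _ => ((Q : Subgroup Y).map Y.subtype : Subgroup G))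
    · intro Q _
      rw [hB]
      exact IsSyl.of_sylow Q
    · intro Q _ Q' _ h
      apply Sylow.ext
      exact Subgroup.map_injective (Subgroup.subtype_injective Y) h
    · intro T hT
      rw [hB] at hT
      exact ⟨hT.toSylow, Finset.mem_univ _, hT.map_toSylow⟩
    · intro Q _
      rw [card_normalizer_map]
  rw [hsum]
  obtain ⟨Q₀⟩ : Nonempty (Sylow p Y) := inferInstance
  have hn : 0 < Nat.card (Sylow p Y) := Nat.card_pos
  have hc : ∀ Q : Sylow p Y, Nat.card (Subgroup.normalizer ((Q : Subgroup Y) : Set Y)) * Nat.card (Sylow p Y) = Nat.card Y := by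
    intro Q
    rw [Sylow.card_eq_index_normalizer Q]
    exact Subgroup.card_mul_index _
  have hconst : ∀ Q : Sylow p Y, Nat.card (Subgroup.normalizer ((Q : Subgroup Y) : Set Y)) =
      Nat.card (Subgroup.normalizer ((Q₀ : Subgroup Y) : Set Y)) := by
    intro Q
    have := (hc Q).trans (hc Q₀).symm
    exact Nat.eq_of_mul_eq_mul_right hn this
  rw [Finset.sum_congr rfl (fun Q _ => by rw [hconst Q]), Finset.sum_const, Finset.card_univ,
    ← Nat.card_eq_fintype_card, nsmul_eq_mul, ← hc Q₀]
  push_cast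
  ring

/-- The chain-stabilizer sum, computed through the pairs (chain, Sylow subgroup of its stabilizer). -/
theorem sum_Nc [Finite G] {p : ℕ} [Fact p.Prime] {H : Subgroup G}
    (A : Finset (Finset (Subgroup G))) (hA : ∀ c, c ∈ A ↔ NC p H c)
    (B : Finset (Subgroup G)) (hB : ∀ T, T ∈ B ↔ H ≤ T ∧ IsSyl p T ⊤) :
    ∑ c ∈ A, (-1 : ℤ) ^ c.card * (Nat.card (Nc c) : ℤ) =
      - ∑ T ∈ B, (Nat.card (Subgroup.normalizer (T : Set G)) : ℤ) := by
  classical
  have hfin : Fintype (Subgroup G) := Fintype.ofFinite _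
  -- the Sylow subgroups of a stabilizer
  let D : Finset (Subgroup G) → Finset (Subgroup G) := fun c => Finset.univ.filter (fun T => IsSyl p T (Nc c))
  have hD : ∀ c T, T ∈ D c ↔ IsSyl p T (Nc c) := by
    intro c T
    simp [D]
  let F : (Σ _ : Finset (Subgroup G), Subgroup G) → ℤ := fun q =>
    (-1 : ℤ) ^ q.1.card * (Nat.card (Nc q.1 ⊓ Subgroup.normalizer (q.2 : Set G) : Subgroup G) : ℤ)
  have h1 : ∑ c ∈ A, (-1 : ℤ) ^ c.card * (Nat.card (Nc c) : ℤ) = ∑ q ∈ A.sigma D, F q := by
    rw [Finset.sum_sigma]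
    apply Finset.sum_congr rfl
    intro c _
    rw [card_eq_sum_syl (Nc c) (D c) (hD c), Finset.mul_sum]
  rw [h1]
  -- facts
  have hmem : ∀ q, q ∈ A.sigma D ↔ NC p H q.1 ∧ IsSyl p q.2 (Nc q.1) := by
    intro q
    rw [Finset.mem_sigma, hA, hD]
  -- the top of a chain lies in every Sylow subgroup of the stabilizer
  have htop : ∀ (c : Finset (Subgroup G)) (T : Subgroup G), NC p H c → IsSyl p T (Nc c) → c.sup id ≤ T := by
    intro c T hc hT
    have hk : IsPGroup p (c.sup id : Subgroup G) := (hc.2.1 _ hc.sup_mem).2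
    have h2 : IsPGroup p (((c.sup id : Subgroup G) ⊔ T : Subgroup G)) :=
      hk.to_sup_of_normal_left' hT.2.1 (hT.1.trans hc.Nc_le)
    have h3 := hT.2.2 _ le_sup_right (sup_le hc.sup_le_Nc hT.1) h2
    rw [← h3]
    exact le_sup_left
  -- split
  rw [← Finset.sum_filter_add_sum_filter_not (A.sigma D) (fun q => q.1 = {q.2})]
  have hzero : ∑ q ∈ (A.sigma D).filter (fun q => ¬ q.1 = {q.2}), F q = 0 := by
    apply Finset.sum_involution (fun q _ => (⟨toggle q.2 q.1, q.2⟩ : Σ _ : Finset (Subgroup G), Subgroup G))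
    · rintro ⟨c, T⟩ hq
      show (-1 : ℤ) ^ c.card * (Nat.card (Nc c ⊓ Subgroup.normalizer (T : Set G) : Subgroup G) : ℤ) +
        (-1 : ℤ) ^ (toggle T c).card * (Nat.card (Nc (toggle T c) ⊓ Subgroup.normalizer (T : Set G) : Subgroup G) : ℤ) = 0
      have he : Nc c ⊓ Subgroup.normalizer (T : Set G) = Nc (toggle T c) ⊓ Subgroup.normalizer (T : Set G) := by
        ext x
        rw [Subgroup.mem_inf, Subgroup.mem_inf, mem_Nc, mem_Nc]
        constructor
        · rintro ⟨h2, h3⟩
          refine ⟨?_, h3⟩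
          intro R hR
          rcases mem_of_mem_toggle hR with h5 | h5
          · exact h2 R h5
          · rw [h5]; exact h3
        · rintro ⟨h2, h3⟩
          refine ⟨?_, h3⟩
          intro R hR
          by_cases h5 : R = T
          · rw [h5]; exact h3
          · exact h2 R ((mem_toggle_of_ne h5).mpr hR)
      rw [he, ← add_mul, neg_one_pow_toggle, zero_mul]
    · rintro ⟨c, T⟩ hq _ he
      exact toggle_ne T c (congrArg Sigma.fst he)
    · rintro ⟨c, T⟩ hq
      rw [Finset.mem_filter, hmem] at hq ⊢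
      obtain ⟨⟨hNC, hT⟩, hne⟩ := hq
      dsimp only at hNC hT hne ⊢
      have htopT := htop c T hNC hT
      have hHT : H ≤ T := ((hNC.2.1 _ hNC.sup_mem).1).trans htopT
      have hnor : ∀ R ∈ c, NormalIn R T := by
        intro R hR
        exact ⟨(hNC.le_sup hR).trans htopT, fun x hx => mem_Nc.mp (hT.1 hx) R hR⟩
      -- a member different from T
      have hex : ∃ R ∈ c, R ≠ T := by
        by_contra hno
        push Not at hno
        apply hne
        ext R
        rw [Finset.mem_singleton]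
        constructor
        · exact hno R
        · rintro rfl
          obtain ⟨S, hS⟩ := hNC.1
          rw [← hno S hS]; exact hS
      obtain ⟨R₀, hR₀, hR₀T⟩ := hex
      have hNC' : NC p H (toggle T c) := by
        refine ⟨⟨R₀, (mem_toggle_of_ne hR₀T).mpr hR₀⟩, ?_, ?_⟩
        · intro R hR
          rcases mem_of_mem_toggle hR with h5 | h5
          · exact hNC.2.1 R h5
          · rw [h5]; exact ⟨hHT, hT.2.1⟩
        · intro R hR S hS
          rcases mem_of_mem_toggle hR with h5 | h5
          · rcases mem_of_mem_toggle hS with h6 | h6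
            · exact hNC.2.2 R h5 S h6
            · rw [h6]; exact Or.inl (hnor R h5)
          · rcases mem_of_mem_toggle hS with h6 | h6
            · rw [h5]; exact Or.inr (hnor S h6)
            · rw [h5, h6]; exact Or.inl (NormalIn.refl _)
      refine ⟨⟨hNC', ?_⟩, ?_⟩
      · -- T is Sylow in the stabilizer of the toggled chain
        have hTle : T ≤ Nc (toggle T c) := by
          intro x hx
          rw [mem_Nc]
          intro R hR
          rcases mem_of_mem_toggle hR with h5 | h5
          · exact (hnor R h5).2 hx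
          · rw [h5]; exact Subgroup.le_normalizer hx
        refine ⟨hTle, hT.2.1, ?_⟩
        intro T' h2 h3 h4
        -- the normalizer of T in T' lies in Nc c
        have h5 : (T' ⊓ Subgroup.normalizer (T : Set G) : Subgroup G) = T := by
          apply hT.2.2
          · exact le_inf h2 Subgroup.le_normalizer
          · rintro x ⟨hx1, hx2⟩
            rw [mem_Nc]
            intro R hR
            by_cases h6 : R = T
            · rw [h6]; exact hx2
            · exact mem_Nc.mp (h3 hx1) R ((mem_toggle_of_ne h6).mpr hR)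
          · exact h4.to_le inf_le_left
        by_contra hne'
        have hnil : Group.IsNilpotent T' := h4.isNilpotent
        have hnc : NormalizerCondition T' := Group.normalizerCondition_of_isNilpotent
        have hlt : T.subgroupOf T' < ⊤ := by
          rw [lt_top_iff_ne_top]
          intro h7
          rw [Subgroup.subgroupOf_eq_top] at h7
          exact hne' (le_antisymm h7 h2)
        have h8 := hnc _ hlt
        obtain ⟨x, hx, hx'⟩ := SetLike.exists_of_lt h8
        apply hx'
        show (x : G) ∈ T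
        rw [← h5]
        refine ⟨x.2, ?_⟩
        apply mem_normalizer_of
        · intro t ht
          exact (hx (⟨t, h2 ht⟩ : T')).mp ht
        · intro t ht
          have h9 : (x : G)⁻¹ * t * ((x : G)⁻¹)⁻¹ ∈ T := ((inv_mem hx) (⟨t, h2 ht⟩ : T')).mp ht
          rwa [inv_inv] at h9
      · intro he
        have : R₀ ∈ toggle T c := (mem_toggle_of_ne hR₀T).mpr hR₀
        rw [he, Finset.mem_singleton] at this
        exact hR₀T this
    · rintro ⟨c, T⟩ hq
      rw [toggle_toggle]
  rw [hzero, add_zero, ← Finset.sum_neg_distrib]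
  have hNcs : ∀ T : Subgroup G, Nc {T} = Subgroup.normalizer (T : Set G) := by
    intro T
    simp [Nc]
  have hsyl : ∀ T : Subgroup G, IsPGroup p T → (IsSyl p T (Subgroup.normalizer (T : Set G)) ↔ IsSyl p T ⊤) := by
    intro T hTp
    constructor
    · intro hT
      refine ⟨le_top, hTp, ?_⟩
      intro T' h2 _ h4
      have h5 : (T' ⊓ Subgroup.normalizer (T : Set G) : Subgroup G) = T :=
        hT.2.2 _ (le_inf h2 Subgroup.le_normalizer) inf_le_right (h4.to_le inf_le_left)
      by_contra hne'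
      have hnil : Group.IsNilpotent T' := h4.isNilpotent
      have hnc : NormalizerCondition T' := Group.normalizerCondition_of_isNilpotent
      have hlt : T.subgroupOf T' < ⊤ := by
        rw [lt_top_iff_ne_top]
        intro h7
        rw [Subgroup.subgroupOf_eq_top] at h7
        exact hne' (le_antisymm h7 h2)
      have h8 := hnc _ hlt
      obtain ⟨x, hx, hx'⟩ := SetLike.exists_of_lt h8
      apply hx'
      show (x : G) ∈ T
      rw [← h5]
      refine ⟨x.2, ?_⟩
      apply mem_normalizer_of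
      · intro t ht
        exact (hx (⟨t, h2 ht⟩ : T')).mp ht
      · intro t ht
        have h9 : (x : G)⁻¹ * t * ((x : G)⁻¹)⁻¹ ∈ T := ((inv_mem hx) (⟨t, h2 ht⟩ : T')).mp ht
        rwa [inv_inv] at h9
    · intro hT
      exact ⟨Subgroup.le_normalizer, hTp, fun T' h2 _ h4 => hT.2.2 T' h2 le_top h4⟩
  apply Finset.sum_bij (fun q _ => q.2)
  · rintro ⟨c, T⟩ hq
    rw [Finset.mem_filter, hmem] at hq
    obtain ⟨⟨hNC, hT⟩, he⟩ := hq
    dsimp only at hNC hT he ⊢
    subst he
    rw [hNcs] at hT
    rw [hB]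
    exact ⟨(hNC.2.1 T (Finset.mem_singleton_self T)).1, (hsyl T hT.2.1).mp hT⟩
  · rintro ⟨c, T⟩ hq ⟨c', T'⟩ hq' h
    rw [Finset.mem_filter] at hq hq'
    have h2 := hq.2
    have h3 := hq'.2
    dsimp only at h h2 h3
    rw [h2, h3, h]
  · intro T hT
    rw [hB] at hT
    refine ⟨⟨{T}, T⟩, ?_, rfl⟩
    rw [Finset.mem_filter, hmem]
    refine ⟨⟨⟨Finset.singleton_nonempty T, ?_, ?_⟩, ?_⟩, rfl⟩
    · intro R hR
      dsimp only at hR
      rw [Finset.mem_singleton] at hR
      rw [hR]; exact ⟨hT.1, hT.2.2.1⟩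
    · intro R hR S hS
      dsimp only at hR hS
      rw [Finset.mem_singleton] at hR hS
      rw [hR, hS]; exact Or.inl (NormalIn.refl T)
    · dsimp only
      rw [hNcs]
      exact (hsyl T hT.2.2.1).mpr hT.2
  · rintro ⟨c, T⟩ hq
    rw [Finset.mem_filter] at hq
    have he := hq.2
    dsimp only at he
    subst he
    show (-1 : ℤ) ^ ({T} : Finset (Subgroup G)).card * (Nat.card (Nc {T} ⊓ Subgroup.normalizer (T : Set G) : Subgroup G) : ℤ) =
      - (Nat.card (Subgroup.normalizer (T : Set G)) : ℤ)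
    rw [hNcs, inf_idem, Finset.card_singleton]
    ring

/-- Casolo's formula. -/
theorem card_subnormalizer [Finite G] {p : ℕ} [Fact p.Prime] {H : Subgroup G} (hH : IsPGroup p H) (P : Sylow p G) :
    Nat.card {g : G // (H.subgroupOf (H ⊔ Subgroup.zpowers g)).IsSubnormal} =
      Nat.card {Q : Sylow p G // H ≤ (Q : Subgroup G)} * Nat.card (Subgroup.normalizer ((P : Subgroup G) : Set G)) := by
  classical
  have hfin : Fintype (Subgroup G) := Fintype.ofFinite _
  have hfinG : Fintype G := Fintype.ofFinite _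
  have hfinS : Fintype (Sylow p G) := Fintype.ofFinite _
  let A : Finset (Finset (Subgroup G)) := Finset.univ.filter (fun c => NC p H c)
  have hA : ∀ c, c ∈ A ↔ NC p H c := by intro c; simp [A]
  let B : Finset (Subgroup G) := Finset.univ.filter (fun T => H ≤ T ∧ IsSyl p T ⊤)
  have hB : ∀ T, T ∈ B ↔ H ≤ T ∧ IsSyl p T ⊤ := by intro T; simp [B]
  have h1 := sum_Nc A hA B hB
  -- double counting
  have h2 : ∑ c ∈ A, (-1 : ℤ) ^ c.card * (Nat.card (Nc c) : ℤ) =
      ∑ g : G, ∑ c ∈ A.filter (fun c => g ∈ Nc c), (-1 : ℤ) ^ c.card := by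
    have h3 : ∀ c : Finset (Subgroup G), (Nat.card (Nc c) : ℤ) = ∑ g : G, if g ∈ Nc c then (1 : ℤ) else 0 := by
      intro c
      rw [Finset.sum_boole, Nat.card_eq_fintype_card, Fintype.card_subtype]
    calc ∑ c ∈ A, (-1 : ℤ) ^ c.card * (Nat.card (Nc c) : ℤ)
        = ∑ c ∈ A, ∑ g : G, (if g ∈ Nc c then (-1 : ℤ) ^ c.card else 0) := by
          apply Finset.sum_congr rfl
          intro c _
          rw [h3, Finset.mul_sum]
          apply Finset.sum_congr rfl
          intro g _
          split_ifs <;> simp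
      _ = ∑ g : G, ∑ c ∈ A, (if g ∈ Nc c then (-1 : ℤ) ^ c.card else 0) := Finset.sum_comm
      _ = _ := by
          apply Finset.sum_congr rfl
          intro g _
          exact (Finset.sum_filter _ _).symm
  have h3 : ∑ g : G, ∑ c ∈ A.filter (fun c => g ∈ Nc c), (-1 : ℤ) ^ c.card =
      - (Nat.card {g : G // (H.subgroupOf (H ⊔ Subgroup.zpowers g)).IsSubnormal} : ℤ) := by
    have h4 : ∀ g : G, ∑ c ∈ A.filter (fun c => g ∈ Nc c), (-1 : ℤ) ^ c.card =
        - (if (H.subgroupOf (H ⊔ Subgroup.zpowers g)).IsSubnormal then (1 : ℤ) else 0) := by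
      intro g
      by_cases hg : (H.subgroupOf (H ⊔ Subgroup.zpowers g)).IsSubnormal
      · rw [if_pos hg]
        apply sum_inv g ((subn_iff hH g).mp hg)
        intro c
        rw [Finset.mem_filter, hA]
      · rw [if_neg hg, neg_zero]
        apply Finset.sum_eq_zero
        intro c hc
        exfalso
        apply hg
        rw [subn_iff hH]
        rw [Finset.mem_filter, hA] at hc
        obtain ⟨R, hR⟩ := hc.1.1
        exact ⟨R, (hc.1.2.1 R hR).1, (hc.1.2.1 R hR).2, mem_Nc.mp hc.2 R hR⟩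
    rw [Finset.sum_congr rfl (fun g _ => h4 g), Finset.sum_neg_distrib, Finset.sum_boole,
      Nat.card_eq_fintype_card, Fintype.card_subtype]
  have h5 : ∑ T ∈ B, (Nat.card (Subgroup.normalizer (T : Set G)) : ℤ) =
      (Nat.card {Q : Sylow p G // H ≤ (Q : Subgroup G)} : ℤ) * (Nat.card (Subgroup.normalizer ((P : Subgroup G) : Set G)) : ℤ) := by
    have h6 : ∑ T ∈ B, (Nat.card (Subgroup.normalizer (T : Set G)) : ℤ) =
        ∑ Q ∈ Finset.univ.filter (fun Q : Sylow p G => H ≤ (Q : Subgroup G)),
          (Nat.card (Subgroup.normalizer ((Q : Subgroup G) : Set G)) : ℤ) := by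
      symm
      apply Finset.sum_bij (fun (Q : Sylow p G) _ => (Q : Subgroup G))
      · intro Q hQ
        rw [Finset.mem_filter] at hQ
        rw [hB]
        exact ⟨hQ.2, le_top, Q.2, fun T' h7 _ h8 => Q.3 h8 h7⟩
      · intro Q _ Q' _ h
        exact Sylow.ext h
      · intro T hT
        rw [hB] at hT
        refine ⟨⟨T, hT.2.2.1, fun {Q} hQ hle => hT.2.2.2 Q hle le_top hQ⟩, ?_, rfl⟩
        rw [Finset.mem_filter]
        exact ⟨Finset.mem_univ _, hT.1⟩
      · intro Q _
        rfl
    have hc : ∀ Q : Sylow p G, Nat.card (Subgroup.normalizer ((Q : Subgroup G) : Set G)) =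
        Nat.card (Subgroup.normalizer ((P : Subgroup G) : Set G)) := by
      intro Q
      have hn : 0 < Nat.card (Sylow p G) := Nat.card_pos
      have hc : ∀ Q : Sylow p G, Nat.card (Subgroup.normalizer ((Q : Subgroup G) : Set G)) * Nat.card (Sylow p G) = Nat.card G := by
        intro Q
        rw [Sylow.card_eq_index_normalizer Q]
        exact Subgroup.card_mul_index _
      exact Nat.eq_of_mul_eq_mul_right hn ((hc Q).trans (hc P).symm)
    rw [h6, Finset.sum_congr rfl (fun Q _ => by rw [hc Q]), Finset.sum_const, nsmul_eq_mul,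
      Nat.card_eq_fintype_card (α := {Q : Sylow p G // H ≤ (Q : Subgroup G)}), Fintype.card_subtype]
  rw [h2, h3, h5] at h1
  have h6 := neg_injective h1
  exact_mod_cast h6

end Cfsg.Agent.Lib.SubnormalizerCount
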