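import Cfsg.Agent.Lib.SubsecCount

/-!
# Major subsections whose complementary rank is at most three
-/

set_option autoImplicit false
set_option linter.all false

namespace Cfsg.Agent.Lib.Subsec

open Cfsg Cfsg.Agent.Lib.BlockRing Cfsg.Agent.Lib.BlockGA Cfsg.Agent.Lib.BlockIdem
open Cfsg.Agent.Lib.BlockOsima Cfsg.Agent.Lib.BlockPair Cfsg.Agent.Lib.Contrib
open Cfsg.Agent.Lib.CharBasic Cfsg.Agent.Lib.BlockSecond Cfsg.Agent.Lib.BlockCount
open Cfsg.Agent.Lib.BlockDeg Cfsg.Agent.Lib.Contrib2 Cfsg.Agent.Lib.CycAvg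
open scoped ComplexConjugate Classical

universe u

variable {G : Type u} [Group G] [Finite G] {M : Ideal AlgInt}
variable {z : G} {k : ℕ} [NeZero (2 ^ (k + 1))] {b : Set (IrrCharacter (Cz z))} {B : Set (IrrCharacter G)}

/-- for `p = 2` and positive height the average is a positive multiple of `2 ^ (h + 1)` -/
theorem Av_dvd (hM : IsPModular 2 M) (hz : orderOf z = 2 ^ k) (hind : IsInducedBlock M (Cz z) b B)
    (hd : blockDefect 2 b = blockDefect 2 B) {χ : IrrCharacter G} (hχ : χ ∈ B)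
    (h0 : blockHeight 2 B (χ : G → ℂ) ≠ 0) :
    ∃ m : ℕ, Av 2 k z b B (χ : G → ℂ) = ((2 ^ (blockHeight 2 B (χ : G → ℂ) + 1) * m : ℕ) : ℝ) ∧ 0 < m := by
  haveI := isPrime hM
  set h := blockHeight 2 B (χ : G → ℂ) with hh
  have hmem := al_mem hM (pow_of_orderOf hz) hind.1 χ χ
  have h1 := al_idl hM (pow_of_orderOf hz) hind hd hχ hχ h0
  rw [← hh] at h1
  have hy := mem_of_loc_div hM h hmem (loc_of_idl h1)
  have hyr : conj (al 2 z b (χ : G → ℂ) (χ : G → ℂ) / ((2 : ℕ) : ℂ) ^ h) =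
      al 2 z b (χ : G → ℂ) (χ : G → ℂ) / ((2 : ℕ) : ℂ) ^ h := by
    rw [map_div₀, map_pow, Complex.conj_natCast, conj_al_self]
  obtain ⟨m, hm⟩ := av_int hy
  have h2 := idl_sub_av hM hy hyr
  rw [hm] at h2
  obtain ⟨m', rfl⟩ : (2 : ℤ) ∣ m := (idl_intCast_iff hM m).1 ((idl_congr h2).1 h1)
  have h4 : av (2 ^ (k + 1)) (al 2 z b (χ : G → ℂ) (χ : G → ℂ)) = (2 : ℂ) ^ h * ((2 * m' : ℤ) : ℂ) := by
    rw [← hm]
    have h5 := av_nat_mul (N := 2 ^ (k + 1)) (2 ^ h) (al 2 z b (χ : G → ℂ) (χ : G → ℂ) / ((2 : ℕ) : ℂ) ^ h)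
    push_cast at h5 ⊢
    rw [← h5]
    congr 1
    field_simp
  rw [av_al hM hz hind χ] at h4
  have h5 : Av 2 k z b B (χ : G → ℂ) = (2 : ℝ) ^ h * ((2 * m' : ℤ) : ℝ) := by
    have : ((Av 2 k z b B (χ : G → ℂ) : ℝ) : ℂ) = (((2 : ℝ) ^ h * ((2 * m' : ℤ) : ℝ) : ℝ) : ℂ) := by
      rw [h4]; push_cast; rfl
    exact Complex.ofReal_injective this
  have h6 := one_le_Av hM hz hind hd hχ
  rw [h5] at h6
  have h7 : (0 : ℝ) < (2 : ℝ) ^ h := by positivity
  have h8 : (0 : ℝ) < ((2 * m' : ℤ) : ℝ) := by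
    by_contra hcon
    push Not at hcon
    nlinarith
  have h9 : 0 < 2 * m' := by exact_mod_cast h8
  refine ⟨m'.toNat, ?_, by omega⟩
  rw [h5]
  have : ((m'.toNat : ℤ) : ℝ) = (m' : ℝ) := by rw [Int.toNat_of_nonneg (by omega)]
  push_cast
  rw [pow_succ]
  push_cast at this
  rw [this]
  ring

/-- the number of irreducible characters is at most `2 ^ d` if `k(B) - l(b) ≤ 3` -/
theorem card_le_of_corank (hM : IsPModular 2 M) (hz : orderOf z = 2 ^ k) (hind : IsInducedBlock M (Cz z) b B)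
    (hd : blockDefect 2 b = blockDefect 2 B) (h : Nat.card B ≤ blockRank 2 b + 3) :
    Nat.card B ≤ 2 ^ blockDefect 2 b := by
  haveI := isPrime hM
  by_contra hcon
  push Not at hcon
  set P : ℕ := 2 ^ blockDefect 2 b with hP
  set K := Nat.card B with hK
  have hmem : ∀ χ ψ : IrrCharacter G, al 2 z b (χ : G → ℂ) (ψ : G → ℂ) ∈ Z (2 ^ (k + 1)) := fun χ ψ =>
    al_mem hM (pow_of_orderOf hz) hind.1 χ ψ
  have hPP : ((2 : ℕ) : ℝ) ^ blockDefect 2 b = (P : ℝ) := by rw [hP]; push_cast; rfl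
  have hsq : ∀ χ : IrrCharacter G, Av 2 k z b B (χ : G → ℂ) ^ 2 ≤
      avn (2 ^ (k + 1)) (al 2 z b (χ : G → ℂ) (χ : G → ℂ)) := by
    intro χ
    have h3 := norm_av_sq_le (N := 2 ^ (k + 1)) (al 2 z b (χ : G → ℂ) (χ : G → ℂ))
    rwa [av_al hM hz hind χ, Complex.norm_real, Real.norm_eq_abs, sq_abs] at h3
  have key : ∀ χ ∈ fs B, (3 : ℝ) ≤ (P : ℝ) - Av 2 k z b B (χ : G → ℂ) := by
    intro χ hχ
    have hχB := mem_fs.1 hχ
    have hmul := mul_Av (p := 2) (k := k) (z := z) (b := b) (B := B) Nat.prime_two (χ : G → ℂ)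
    rw [hPP] at hmul
    by_cases h0 : blockHeight 2 B (χ : G → ℂ) = 0
    · obtain ⟨m, hm, hodd⟩ := Av_odd hM hz hind hd hχB h0
      have h1 : ∑ ψ ∈ (fs B).erase χ, (1 : ℝ) ≤
          ∑ ψ ∈ (fs B).erase χ, avn (2 ^ (k + 1)) (al 2 z b (χ : G → ℂ) (ψ : G → ℂ)) := by
        refine Finset.sum_le_sum fun ψ hψ => ?_
        obtain ⟨-, hψ⟩ := Finset.mem_erase.1 hψ
        refine one_le_avn (hmem χ ψ) fun h2 => ?_
        have h3 := al_ne_zero hM hz hind hd (mem_fs.1 hψ) hχB h0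
        apply h3
        rw [← al_conj, h2, map_zero]
      rw [Finset.sum_const, Finset.card_erase_of_mem hχ, nsmul_eq_mul, mul_one, card_fs, ← hK] at h1
      rw [← Finset.add_sum_erase _ _ hχ] at hmul
      have h2 := hsq χ
      rw [hm] at h2 hmul ⊢
      have h4 : (m : ℝ) ^ 2 + ((K - 1 : ℕ) : ℝ) ≤ P * m := by linarith
      have h5 : m ^ 2 + (K - 1) ≤ P * m := by exact_mod_cast h4
      have h6 : m < P := by
        by_contra hc
        push Not at hc
        have : P * m ≤ m * m := Nat.mul_le_mul_right _ hc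
        rw [← sq] at this
        have hP1 : 0 < P := by rw [hP]; positivity
        omega
      have h7 : m + 3 ≤ P := by
        have hev : 2 ∣ P := by
          rw [hP]
          apply dvd_pow_self
          intro hz0
          rw [hP, hz0] at h6
          omega
        by_contra hc
        have h8 : P = m + 1 := by omega
        rw [h8] at h5 hcon
        have : (m + 1) * m = m ^ 2 + m := by ring
        omega
      have h8 : ((m + 3 : ℕ) : ℝ) ≤ P := by exact_mod_cast h7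
      push_cast at h8
      linarith
    · obtain ⟨m, hm, hm0⟩ := Av_dvd hM hz hind hd hχB h0
      obtain ⟨ψ₀, hψ₀, hh0⟩ := BlockDeg.exists_height_zero (p := 2) (isPBlock_nonempty hind.2.1)
      have hne : ψ₀ ≠ χ := by
        rintro rfl
        exact h0 hh0
      have h1 : (1 : ℝ) ≤ ∑ ψ ∈ (fs B).erase χ, avn (2 ^ (k + 1)) (al 2 z b (χ : G → ℂ) (ψ : G → ℂ)) := by
        refine le_trans ?_ (Finset.single_le_sum (f := fun ψ : IrrCharacter G =>
          avn (2 ^ (k + 1)) (al 2 z b (χ : G → ℂ) (ψ : G → ℂ))) (fun _ _ => avn_nonneg _)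
          (Finset.mem_erase.2 ⟨hne, mem_fs.2 hψ₀⟩))
        exact one_le_avn (hmem χ ψ₀) (al_ne_zero hM hz hind hd hχB hψ₀ hh0)
      rw [← Finset.add_sum_erase _ _ hχ] at hmul
      have h2 := hsq χ
      set t := 2 ^ (blockHeight 2 B (χ : G → ℂ) + 1) * m with ht
      rw [hm] at h2 hmul ⊢
      have h4 : (t : ℝ) ^ 2 + 1 ≤ P * t := by linarith
      have h5 : t ^ 2 + 1 ≤ P * t := by exact_mod_cast h4
      have h6 : t < P := by
        by_contra hc
        push Not at hc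
        have : P * t ≤ t * t := Nat.mul_le_mul_right _ hc
        rw [← sq] at this
        omega
      have h7 : 4 ∣ t := by
        rw [ht]
        apply Dvd.dvd.mul_right
        rw [show (4 : ℕ) = 2 ^ 2 by norm_num]
        exact pow_dvd_pow 2 (by omega)
      have ht0 : 0 < t := by rw [ht]; positivity
      have h8 : 4 ∣ P := by
        rw [hP, show (4 : ℕ) = 2 ^ 2 by norm_num]
        apply pow_dvd_pow 2
        by_contra hc
        have h9 : P ≤ 2 ^ 1 := Nat.pow_le_pow_right (by norm_num) (by omega)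
        have := Nat.le_of_dvd ht0 h7
        omega
      have h9 : t + 3 ≤ P := by omega
      have h10 : ((t + 3 : ℕ) : ℝ) ≤ P := by exact_mod_cast h9
      push_cast at h10
      linarith
  have h1 := Finset.sum_le_sum key
  rw [Finset.sum_sub_distrib, Finset.sum_const, Finset.sum_const, nsmul_eq_mul, nsmul_eq_mul, card_fs, ← hK,
    sum_Av hM hz hind, hPP] at h1
  have h2 : (K : ℝ) ≤ blockRank 2 b + 3 := by exact_mod_cast h
  have hP0 : (0 : ℝ) < P := by
    have : 0 < P := by rw [hP]; positivity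
    exact_mod_cast this
  have h3 : (P : ℝ) < K := by exact_mod_cast hcon
  nlinarith

end Cfsg.Agent.Lib.Subsec
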