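import Cfsg.Agent.Lib.SuperFus

/-!
# Non-supersoluble fusion systems over homocyclic groups of rank two (helper21)
-/

set_option autoImplicit false

namespace Cfsg.Agent.Lib.SuperHomo

open Cfsg Cfsg.FusionSystem Cfsg.Agent.Lib.SuperFus

variable {Ω : Type*} [Group Ω] {S : Subgroup Ω} {p : ℕ}

theorem exists_not_super_semi [Finite S] [Fact p.Prime] {A : Type*} [Group A] [Finite A] (hA : IsPGroup p A)
    (H : Subgroup (MulAut A)) (hH : ¬ p ∣ Nat.card H) (e : S ≃* A) (W : Subgroup A)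
    (hcyc : ∀ w ∈ W, ¬ W ≤ Subgroup.zpowers w)
    (hirr : ∀ R : Subgroup A, (∀ h ∈ H, ∀ x ∈ R, h x ∈ R) → ∀ a ∈ R, a ∈ W → a ≠ 1 → W ≤ R) :
    ∃ F : FusionSystem S, F.IsSaturated p ∧ ¬ Super F := by
  have hfinH : Finite H := inferInstance
  let G := A ⋊[H.subtype] H
  have hGfin : Finite G := Finite.of_equiv _ SemidirectProduct.equivProd.symm
  have hinj : Function.Injective (SemidirectProduct.inl : A →* G) := SemidirectProduct.inl_injective
  have hrc : Nat.card (SemidirectProduct.inl : A →* G).range = Nat.card A :=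
    Nat.card_congr (MonoidHom.ofInjective hinj).toEquiv.symm
  have hGc : Nat.card G = Nat.card A * Nat.card H := by
    rw [Nat.card_congr (SemidirectProduct.equivProd : G ≃ A × H), Nat.card_prod]
  have hidx : (SemidirectProduct.inl : A →* G).range.index = Nat.card H := by
    have h1 := (SemidirectProduct.inl : A →* G).range.card_mul_index
    rw [hrc, hGc] at h1
    exact Nat.eq_of_mul_eq_mul_left Nat.card_pos h1
  have hp : IsPGroup p (SemidirectProduct.inl : A →* G).range :=
    hA.of_surjective (SemidirectProduct.inl : A →* G).rangeRestrict (MonoidHom.rangeRestrict_surjective _)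
  let T : Sylow p G := hp.toSylow (by rw [hidx]; exact hH)
  have hT : (T : Subgroup G) = (SemidirectProduct.inl : A →* G).range := rfl
  have e1 : S ≃* (T : Subgroup G) := e.trans (MonoidHom.ofInjective hinj)
  refine exists_not_super T e1 ⊥ (W.map SemidirectProduct.inl) ?_ ?_ ?_
  · rintro _ ⟨w, hw, rfl⟩
    rw [hT]; exact ⟨w, rfl⟩
  · rintro _ ⟨w, hw, rfl⟩ hle
    rw [bot_sup_eq] at hle
    apply hcyc w hw
    intro v hv
    obtain ⟨k, hk⟩ := hle ⟨v, hv, rfl⟩
    refine ⟨k, ?_⟩
    apply hinj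
    rw [map_zpow]
    exact hk
  · rintro R hR hcl _ haR ⟨a, haW, rfl⟩ ha1
    have h1 := hirr (R.comap (SemidirectProduct.inl : A →* G)) (by
      intro h hh x hx
      have h2 := hcl _ hx (SemidirectProduct.inr ⟨h, hh⟩) (by
        rw [← map_inv, ← SemidirectProduct.inl_aut, hT]
        exact ⟨_, rfl⟩)
      rw [← map_inv, ← SemidirectProduct.inl_aut] at h2
      exact h2) a haR haW (by
        rintro rfl
        exact ha1 (by rw [map_one]; exact Subgroup.one_mem _))
    rintro _ ⟨w, hw, rfl⟩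
    exact h1 hw

theorem mem_zpowers_of_pow {C : Type*} [Group C] [Finite C] [IsCyclic C] (hp : p.Prime) {c x : C}
    (hc : orderOf c = p) (hx : x ^ p = 1) : x ∈ Subgroup.zpowers c := by
  classical
  have := Fintype.ofFinite C
  have h1 := IsCyclic.card_pow_eq_one_le (α := C) hp.pos
  by_contra hne
  have h2 : insert x (Subgroup.zpowers c : Set C).toFinset ⊆ Finset.univ.filter (fun a : C => a ^ p = 1) := by
    intro y hy
    rw [Finset.mem_insert, Set.mem_toFinset] at hy
    rw [Finset.mem_filter]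
    refine ⟨Finset.mem_univ _, ?_⟩
    rcases hy with rfl | ⟨k, rfl⟩
    · exact hx
    · show (c ^ k) ^ p = 1
      rw [← zpow_natCast, ← zpow_mul, mul_comm, zpow_mul, zpow_natCast, ← hc, pow_orderOf_eq_one, one_zpow]
  have h3 := Finset.card_le_card h2
  rw [Finset.card_insert_of_notMem (by rw [Set.mem_toFinset]; exact hne), Set.toFinset_card] at h3
  have h4 : Fintype.card (Subgroup.zpowers c : Set C) = p := by
    rw [← Nat.card_eq_fintype_card]
    exact (Nat.card_zpowers c).trans hc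
  omega

section Homo

variable {C : Type*} [CommGroup C]

/-- the swap -/
def sw : MulAut (C × C) := MulEquiv.prodComm

/-- inversion on the first coordinate -/
def iv : MulAut (C × C) := MulEquiv.prodCongr (MulEquiv.inv C) (MulEquiv.refl C)

/-- an automorphism of order three -/
def rh : MulAut (C × C) where
  toFun x := (x.2, (x.1 * x.2)⁻¹)
  invFun x := ((x.1 * x.2)⁻¹, x.1)
  left_inv x := by
    ext
    · simp
    · rfl
  right_inv x := by
    ext
    · rfl
    · simp
  map_mul' x y := by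
    ext
    · rfl
    · show (x.1 * y.1 * (x.2 * y.2))⁻¹ = (x.1 * x.2)⁻¹ * (y.1 * y.2)⁻¹
      rw [mul_mul_mul_comm, mul_inv]

theorem rh_pow : (rh : MulAut (C × C)) ^ 3 = 1 := by
  ext x
  · show ((rh : MulAut (C × C)) (rh (rh x))).1 = x.1
    show (((x.2 * (x.1 * x.2)⁻¹)⁻¹ : C)) = x.1
    simp
  · show ((rh : MulAut (C × C)) (rh (rh x))).2 = x.2
    show (((x.1 * x.2)⁻¹ * (x.2 * (x.1 * x.2)⁻¹)⁻¹)⁻¹ : C) = x.2
    simp

theorem sw_apply (u v : C) : (sw : MulAut (C × C)) (u, v) = (v, u) := rfl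
theorem iv_apply (u v : C) : (iv : MulAut (C × C)) (u, v) = (u⁻¹, v) := rfl
theorem rh_apply (u v : C) : (rh : MulAut (C × C)) (u, v) = (v, (u * v)⁻¹) := rfl

theorem iv_sq : (iv : MulAut (C × C)) * iv = 1 := by
  ext x
  · show (x.1⁻¹)⁻¹ = x.1
    simp
  · rfl

theorem r4 : ((sw : MulAut (C × C)) * iv) ^ 4 = 1 := by
  ext x
  · show (((x.1⁻¹)⁻¹ : C)) = x.1
    simp
  · show (((x.2⁻¹)⁻¹ : C)) = x.2
    simp

theorem iv_conj : (iv : MulAut (C × C)) * (sw * iv) * iv⁻¹ = (sw * iv)⁻¹ := by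
  rw [eq_inv_iff_mul_eq_one]
  have h1 : (iv : MulAut (C × C))⁻¹ = iv := inv_eq_of_mul_eq_one_left iv_sq
  rw [h1]
  ext x
  · show (((x.1⁻¹)⁻¹ : C)) = x.1
    simp
  · show (((x.2⁻¹)⁻¹ : C)) = x.2
    simp

/-- the dihedral group of order 8 acting on `C × C` -/
def D8 (C : Type*) [CommGroup C] : Subgroup (MulAut (C × C)) :=
  Subgroup.zpowers (sw * iv) ⊔ Subgroup.zpowers iv

theorem isPGroup_D8 : IsPGroup 2 (D8 C) := by
  have : Fact (Nat.Prime 2) := ⟨Nat.prime_two⟩
  have h1 : IsPGroup 2 (Subgroup.zpowers ((sw : MulAut (C × C)) * iv)) := by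
    rintro ⟨_, k, rfl⟩
    refine ⟨2, Subtype.ext ?_⟩
    show (((sw : MulAut (C × C)) * iv) ^ k) ^ 2 ^ 2 = 1
    rw [← zpow_natCast, ← zpow_mul, mul_comm, zpow_mul, zpow_natCast]
    norm_num
    rw [r4, one_zpow]
  have h2 : IsPGroup 2 (Subgroup.zpowers (iv : MulAut (C × C))) := by
    rintro ⟨_, k, rfl⟩
    refine ⟨1, Subtype.ext ?_⟩
    show ((iv : MulAut (C × C)) ^ k) ^ 2 ^ 1 = 1
    rw [← zpow_natCast, ← zpow_mul, mul_comm, zpow_mul, zpow_natCast, pow_one, pow_two, iv_sq, one_zpow]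
  refine IsPGroup.to_sup_of_normal_left' h1 h2 ?_
  rw [Subgroup.zpowers_le, Subgroup.mem_normalizer_iff_map_conj_eq, MonoidHom.map_zpowers]
  show Subgroup.zpowers ((iv : MulAut (C × C)) * (sw * iv) * iv⁻¹) = _
  rw [iv_conj, Subgroup.zpowers_inv]

theorem iv_mem : (iv : MulAut (C × C)) ∈ D8 C := Subgroup.mem_sup_right (Subgroup.mem_zpowers _)

theorem sw_mem : (sw : MulAut (C × C)) ∈ D8 C := by
  have h1 : (sw : MulAut (C × C)) = (sw * iv) * iv := by rw [mul_assoc, iv_sq, mul_one]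
  rw [h1]
  exact Subgroup.mul_mem _ (Subgroup.mem_sup_left (Subgroup.mem_zpowers _)) iv_mem

end Homo

theorem homo_not_super [Finite S] [hp : Fact p.Prime] {C : Type*} [CommGroup C] [Finite C] [IsCyclic C]
    (hC : IsPGroup p C) (hnt : Nontrivial C) (e : S ≃* C × C) :
    ∃ F : FusionSystem S, F.IsSaturated p ∧ ¬ Super F := by
  classical
  have hpp := hp.out
  have hA : IsPGroup p (C × C) := by
    obtain ⟨k, hk⟩ := IsPGroup.iff_card.1 hC
    apply IsPGroup.of_card (n := k + k)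
    rw [Nat.card_prod, hk, pow_add]
  obtain ⟨c, hc⟩ : ∃ c : C, orderOf c = p := by
    apply exists_prime_orderOf_dvd_card' p
    obtain ⟨k, hk⟩ := IsPGroup.iff_card.1 hC
    rw [hk]
    apply dvd_pow_self
    rintro rfl
    rw [pow_zero] at hk
    exact (not_nontrivial_iff_subsingleton.2 (Nat.card_eq_one_iff_unique.1 hk).1) hnt
  have hc1 : c ≠ 1 := by
    rintro rfl
    rw [orderOf_one] at hc
    exact hpp.one_lt.ne hc
  have hcp : c ^ p = 1 := by rw [← hc]; exact pow_orderOf_eq_one c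
  let W : Subgroup (C × C) := (powMonoidHom p).ker
  have hW : ∀ x : C × C, x ∈ W ↔ x.1 ^ p = 1 ∧ x.2 ^ p = 1 := by
    intro x
    rw [MonoidHom.mem_ker]
    exact Prod.ext_iff
  have hgen : ∀ R : Subgroup (C × C), (c, (1 : C)) ∈ R → ((1 : C), c) ∈ R → W ≤ R := by
    intro R h1 h2 x hx
    obtain ⟨hx1, hx2⟩ := (hW x).1 hx
    obtain ⟨i, hi⟩ := mem_zpowers_of_pow hpp hc hx1
    obtain ⟨j, hj⟩ := mem_zpowers_of_pow hpp hc hx2
    have h3 : x = (c, (1 : C)) ^ i * ((1 : C), c) ^ j := by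
      apply Prod.ext
      · show x.1 = c ^ i * 1 ^ j
        rw [one_zpow, mul_one]; exact hi.symm
      · show x.2 = 1 ^ i * c ^ j
        rw [one_zpow, one_mul]; exact hj.symm
    rw [h3]
    exact R.mul_mem (R.zpow_mem h1 i) (R.zpow_mem h2 j)
  have hcyc : ∀ w ∈ W, ¬ W ≤ Subgroup.zpowers w := by
    intro w hw hle
    obtain ⟨hw1, hw2⟩ := (hW w).1 hw
    obtain ⟨i, hi⟩ := hle ((hW (c, (1 : C))).2 ⟨hcp, one_pow _⟩)
    obtain ⟨j, hj⟩ := hle ((hW ((1 : C), c)).2 ⟨one_pow _, hcp⟩)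
    have hi1 : w.1 ^ i = c := congrArg Prod.fst hi
    have hi2 : w.2 ^ i = 1 := congrArg Prod.snd hi
    have hj2 : w.2 ^ j = c := congrArg Prod.snd hj
    by_cases hpi : (p : ℤ) ∣ i
    · obtain ⟨l, rfl⟩ := hpi
      rw [zpow_mul, zpow_natCast, hw1, one_zpow] at hi1
      exact hc1 hi1.symm
    · have hcop : IsCoprime i (p : ℤ) := by
        rw [isCoprime_comm]
        exact (Int.prime_iff_natAbs_prime.mpr (by simpa using hpp)).coprime_iff_not_dvd.mpr hpi
      obtain ⟨a, b, hab⟩ := hcop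
      have h3 : w.2 = 1 := by
        have h4 : w.2 = (w.2 ^ i) ^ a * (w.2 ^ p) ^ b := by
          rw [← zpow_mul, ← zpow_natCast w.2 p, ← zpow_mul, ← zpow_add, show i * a + (p : ℤ) * b = 1 by linarith]
          simp
        rw [h4, hi2, hw2, one_zpow, one_zpow, one_mul]
      rw [h3, one_zpow] at hj2
      exact hc1 hj2.symm
  by_cases hp2 : p = 2
  · subst hp2
    refine exists_not_super_semi hA (Subgroup.zpowers rh) ?_ e W hcyc ?_
    · rw [Nat.card_zpowers]
      intro h
      have h1 := h.trans (orderOf_dvd_of_pow_eq_one (rh_pow (C := C)))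
      omega
    · intro R hR a haR haW ha1
      obtain ⟨u, v⟩ := a
      obtain ⟨hu, hv⟩ := (hW _).1 haW
      have hcases : ∀ x : C, x ^ 2 = 1 → x = 1 ∨ x = c := by
        intro x hx
        obtain ⟨k, hk⟩ := mem_zpowers_of_pow hpp hc hx
        simp only at hk
        rcases Int.even_or_odd' k with ⟨l, rfl | rfl⟩
        · left; rw [← hk, zpow_mul, zpow_ofNat, hcp, one_zpow]
        · right; rw [← hk, zpow_add, zpow_mul, zpow_ofNat, hcp, one_zpow, one_mul, zpow_one]
      have h1 := hR _ (Subgroup.mem_zpowers rh) _ haR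
      rw [rh_apply] at h1
      have hcc : c⁻¹ = c := by
        rw [inv_eq_iff_mul_eq_one, ← pow_two]; exact hcp
      rcases hcases u hu with rfl | rfl
      · rcases hcases v hv with rfl | rfl
        · exact absurd rfl ha1
        · rw [one_mul, hcc] at h1
          have h2 := R.mul_mem h1 haR
          have h3 : (v, v) * ((1 : C), v) = (v, 1) := by
            rw [Prod.mk_mul_mk, mul_one, ← pow_two, hcp]
          rw [h3] at h2
          exact hgen R h2 haR
      · rcases hcases v hv with rfl | rfl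
        · rw [mul_one, hcc] at h1
          exact hgen R haR h1
        · rw [← pow_two, hcp, inv_one] at h1
          have h2 := R.mul_mem h1 haR
          have h3 : (v, (1 : C)) * (v, v) = (1, v) := by
            rw [Prod.mk_mul_mk, one_mul, ← pow_two, hcp]
          rw [h3] at h2
          exact hgen R h1 h2
  · refine exists_not_super_semi hA (D8 C) ?_ e W hcyc ?_
    · obtain ⟨k, hk⟩ := IsPGroup.iff_card.1 (isPGroup_D8 (C := C))
      rw [hk]
      intro h
      exact hp2 ((Nat.prime_dvd_prime_iff_eq hpp Nat.prime_two).1 (hpp.dvd_of_dvd_pow h))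
    · intro R hR a haR haW ha1
      obtain ⟨u, v⟩ := a
      obtain ⟨hu, hv⟩ := (hW _).1 haW
      obtain ⟨l, hl⟩ := hpp.odd_of_ne_two hp2
      have hsw : ∀ x y : C, (x, y) ∈ R → (y, x) ∈ R := fun x y h => hR _ sw_mem _ h
      have hiv : ∀ x y : C, (x, y) ∈ R → (x⁻¹, y) ∈ R := fun x y h => hR _ iv_mem _ h
      -- `(1, y) ∈ R`
      have h1 : ∀ x y : C, y ^ p = 1 → (x, y) ∈ R → ((1 : C), y) ∈ R := by
        intro x y hy h
        have h2 := R.pow_mem (R.mul_mem h (hiv x y h)) (l + 1)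
        have h3 : ((x, y) * (x⁻¹, y)) ^ (l + 1) = ((1 : C), y) := by
          rw [Prod.mk_mul_mk, mul_inv_cancel, ← pow_two, Prod.pow_mk, one_pow, ← pow_mul,
            show 2 * (l + 1) = p + 1 by omega, pow_succ, hy, one_mul]
        rwa [h3] at h2
      have h4 : ∀ y : C, y ≠ 1 → y ^ p = 1 → ((1 : C), y) ∈ R → W ≤ R := by
        intro y hy1 hyp h
        have hyo : orderOf y = p := orderOf_eq_prime hyp hy1
        obtain ⟨k, hk⟩ := mem_zpowers_of_pow hpp hyo hcp
        have h5 : ((1 : C), c) ∈ R := by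
          have h6 := R.zpow_mem h k
          have h7 : ((1 : C), y) ^ k = ((1 : C), c) := by
            apply Prod.ext
            · exact one_zpow k
            · exact hk
          rwa [h7] at h6
        exact hgen R (hsw _ _ h5) h5
      by_cases hv1 : v = 1
      · have hu1 : u ≠ 1 := by
          rintro rfl
          exact ha1 (by rw [hv1]; rfl)
        exact h4 u hu1 hu (h1 v u hu (hsw _ _ haR))
      · exact h4 v hv1 hv (h1 u v hv haR)

end Cfsg.Agent.Lib.SuperHomo
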