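import Cfsg.Agent.Lib.PGroupMeta
import Cfsg.Agent.Lib.MetaTwo
import Cfsg.Agent.Lib.UniqueInvolution

/-!
# Cyclic series of metacyclic `p`-groups invariant under a coprime group (helper21)
-/

set_option autoImplicit false

universe u

namespace Cfsg.Agent.Lib.SuperPos

open Cfsg Subgroup Cfsg.Agent.Lib.PGroupMeta Cfsg.Agent.Lib.PGroupRank

theorem card_mul_le {G : Type*} [Group G] [Finite G] {H K E : Subgroup G} (hH : H ≤ E) (hK : K ≤ E)
    (h : H ⊓ K = ⊥) : Nat.card H * Nat.card K ≤ Nat.card E := by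
  rw [← Nat.card_prod]
  have hinj := Subgroup.mul_injective_of_disjoint (disjoint_iff.2 h)
  refine Nat.card_le_card_of_injective (fun g : H × K => (⟨g.1 * g.2, E.mul_mem (hH g.1.2) (hK g.2.2)⟩ : E)) ?_
  intro a b hab
  exact hinj (congrArg Subtype.val hab)

theorem abelian_series {G : Type*} [Group G] [Finite G] {p : ℕ} [hp : Fact p.Prime] {R A : Subgroup G}
    (hR : IsPGroup p R) (hcomm : ∀ x ∈ R, ∀ y ∈ R, x * y = y * x) (hA : A ≤ normalizer (R : Set G))
    (hcop : (Nat.card A).Coprime p) (htop : R ⊔ A = ⊤) {E : Subgroup G} (hE : Nat.card E ≤ p ^ 2)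
    (hEall : ∀ x ∈ R, x ^ p = 1 → x ∈ E) {Z : Subgroup G} (hZn : Z.Normal) (hZR : Z ≤ R)
    (hZc : Nat.card Z = p) :
    ∃ N : Subgroup G, N.Normal ∧ N ≤ R ∧ IsCyclic N ∧ ∃ r ∈ R, R = N ⊔ zpowers r := by
  have hpp := hp.out
  obtain ⟨M, -, hM⟩ := Finite.exists_le_maximal (a := (⊥ : Subgroup G))
    (p := fun M : Subgroup G => M.Normal ∧ M ≤ R ∧ M ⊓ Z = ⊥) ⟨inferInstance, bot_le, bot_inf_eq _⟩
  obtain ⟨hMn, hMR, hMZ⟩ := hM.prop
  have hZp : ∀ z ∈ Z, z ^ p = 1 := by
    intro z hz
    have h1 : (⟨z, hz⟩ : Z) ^ Nat.card Z = 1 := pow_card_eq_one'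
    rw [hZc] at h1
    exact congrArg Subtype.val h1
  have hZE : Z ≤ E := fun z hz => hEall z (hZR hz) (hZp z hz)
  have hRn : R.Normal := by
    rw [← normalizer_eq_top_iff, eq_top_iff, ← htop]
    exact sup_le le_normalizer hA
  refine ⟨M, hMn, hMR, ?_, ?_⟩
  · obtain ⟨a, ha⟩ := Cfsg.Agent.Lib.UniqueInvolution.cyclic_of_comm (p := p) (A := M) (hR.to_le hMR)
      (fun x y => Subtype.ext (hcomm x (hMR x.2) y (hMR y.2))) (by
        intro x y hx hy
        have hxp : (x : G) ^ p = 1 := by
          have := pow_orderOf_eq_one x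
          rw [hx] at this
          exact congrArg Subtype.val this
        have hyp : (y : G) ^ p = 1 := by
          have := pow_orderOf_eq_one y
          rw [hy] at this
          exact congrArg Subtype.val this
        have hxE := hEall x (hMR x.2) hxp
        have hyE := hEall y (hMR y.2) hyp
        have h1 : zpowers (x : G) ⊔ zpowers (y : G) ≤ E := by
          rw [sup_le_iff, zpowers_le, zpowers_le]; exact ⟨hxE, hyE⟩
        have h2 : (zpowers (x : G) ⊔ zpowers (y : G)) ⊓ Z = ⊥ := by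
          rw [eq_bot_iff, ← hMZ]
          refine inf_le_inf_right _ ?_
          rw [sup_le_iff, zpowers_le, zpowers_le]; exact ⟨x.2, y.2⟩
        have h3 := (card_mul_le h1 hZE h2).trans hE
        rw [hZc, pow_two] at h3
        have h4 := Nat.le_of_mul_le_mul_right h3 hpp.pos
        have h5 : zpowers (x : G) = zpowers (x : G) ⊔ zpowers (y : G) := by
          apply eq_of_le_of_card_ge le_sup_left
          rw [Nat.card_zpowers, Subgroup.orderOf_coe, hx]; exact h4
        have h6 : (y : G) ∈ zpowers (x : G) := by rw [h5]; exact mem_sup_right (mem_zpowers _)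
        obtain ⟨k, hk⟩ := h6
        exact ⟨k, Subtype.ext hk⟩)
    exact ⟨a, ha⟩
  · have hcommQ : ∀ x ∈ R.map (QuotientGroup.mk' M), ∀ y ∈ R.map (QuotientGroup.mk' M), x * y = y * x := by
      rintro _ ⟨x, hx, rfl⟩ _ ⟨y, hy, rfl⟩
      rw [← map_mul, ← map_mul, hcomm x hx y hy]
    obtain ⟨⟨_, r, hr, rfl⟩, hrgen⟩ := Cfsg.Agent.Lib.UniqueInvolution.cyclic_of_comm (p := p)
      (A := R.map (QuotientGroup.mk' M)) (hR.map _)
      (fun x y => Subtype.ext (hcommQ x x.2 y y.2)) (by
        rintro ⟨x, hxR⟩ ⟨y, hyR⟩ hx hy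
        rw [Subgroup.orderOf_mk] at hx hy
        have hxp : x ^ p = 1 := by rw [← hx]; exact pow_orderOf_eq_one x
        have hyp : y ^ p = 1 := by rw [← hy]; exact pow_orderOf_eq_one y
        let V : Subgroup (G ⧸ M) :=
          { carrier := {v | v ∈ R.map (QuotientGroup.mk' M) ∧ v ^ p = 1}
            mul_mem' := by
              rintro a b ⟨ha, ha'⟩ ⟨hb, hb'⟩
              refine ⟨mul_mem ha hb, ?_⟩
              have : Commute a b := hcommQ a ha b hb
              rw [this.mul_pow, ha', hb', mul_one]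
            one_mem' := ⟨one_mem _, one_pow _⟩
            inv_mem' := by
              rintro a ⟨ha, ha'⟩
              exact ⟨inv_mem ha, by rw [inv_pow, ha', inv_one]⟩ }
        have hVR : V ≤ R.map (QuotientGroup.mk' M) := fun v hv => hv.1
        have hVel : IsElementaryAbelian p V := by
          rw [isElementaryAbelian_iff]
          exact ⟨fun a ha b hb => hcommQ a (hVR ha) b (hVR hb), fun a ha => ha.2⟩
        have hRQn : (R.map (QuotientGroup.mk' M)).Normal := hRn.map _ (QuotientGroup.mk'_surjective M)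
        have hVn : V.Normal := by
          constructor
          rintro v ⟨hv, hvp⟩ g
          exact ⟨hRQn.conj_mem v hv g, by rw [conj_pow, hvp, mul_one, mul_inv_cancel]⟩
        have hZQn : (Z.map (QuotientGroup.mk' M)).Normal := hZn.map _ (QuotientGroup.mk'_surjective M)
        have hZV : Z.map (QuotientGroup.mk' M) ≤ V := by
          rintro _ ⟨z, hz, rfl⟩
          exact ⟨⟨z, hZR hz, rfl⟩, by rw [← map_pow, hZp z hz, map_one]⟩
        have hcopQ : (Nat.card (A.map (QuotientGroup.mk' M))).Coprime p :=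
          Nat.Coprime.coprime_dvd_left (Subgroup.card_map_dvd _ _) hcop
        obtain ⟨L, hLV, hLA, hZL, hZLV⟩ := exists_invariant_complement (A := A.map (QuotientGroup.mk' M)) hVel hZV
          (by rw [normalizer_eq_top_iff.2 hVn]; exact le_top) (by rw [normalizer_eq_top_iff.2 hZQn]; exact le_top) hcopQ
        have hLn : L.Normal := by
          rw [← normalizer_eq_top_iff, eq_top_iff]
          have h1 : (⊤ : Subgroup (G ⧸ M)) = R.map (QuotientGroup.mk' M) ⊔ A.map (QuotientGroup.mk' M) := by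
            rw [← Subgroup.map_sup, htop, ← MonoidHom.range_eq_map, MonoidHom.range_eq_top.2 (QuotientGroup.mk'_surjective M)]
          rw [h1]
          refine sup_le ?_ hLA
          intro g hg
          rw [mem_normalizer_iff]
          intro l
          constructor
          · intro hl
            rw [hcommQ g hg l (hVR (hLV hl)), mul_inv_cancel_right]
            exact hl
          · intro hl
            have h2 := hVR (hLV hl)
            have h3 : l ∈ R.map (QuotientGroup.mk' M) := by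
              have := mul_mem (mul_mem (inv_mem hg) h2) hg
              have h4 : g⁻¹ * (g * l * g⁻¹) * g = l := by group
              rwa [h4] at this
            rwa [hcommQ g hg l h3, mul_inv_cancel_right] at hl
        have hLle : L.comap (QuotientGroup.mk' M) ≤ M := by
          refine hM.le_of_ge ⟨hLn.comap _, ?_, ?_⟩ ?_
          · intro g hg
            obtain ⟨s, hs, hsg⟩ := hVR (hLV hg)
            rw [QuotientGroup.mk'_apply, QuotientGroup.mk'_apply, QuotientGroup.eq] at hsg
            have h2 := mul_mem hs (hMR hsg)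
            rwa [mul_inv_cancel_left] at h2
          · rw [eq_bot_iff]
            rintro g ⟨hg, hgZ⟩
            have h2 : QuotientGroup.mk' M g ∈ Z.map (QuotientGroup.mk' M) ⊓ L := ⟨⟨g, hgZ, rfl⟩, hg⟩
            rw [hZL, mem_bot, QuotientGroup.mk'_apply, QuotientGroup.eq_one_iff] at h2
            rw [← hMZ]
            exact ⟨h2, hgZ⟩
          · intro g hg
            show QuotientGroup.mk' M g ∈ L
            have : QuotientGroup.mk' M g = 1 := (QuotientGroup.eq_one_iff g).2 hg
            rw [this]; exact one_mem _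
        have hLbot : L = ⊥ := by
          rw [eq_bot_iff]
          intro l hl
          obtain ⟨g, rfl⟩ := QuotientGroup.mk'_surjective M l
          rw [mem_bot, QuotientGroup.mk'_apply, QuotientGroup.eq_one_iff]
          exact hLle hl
        rw [hLbot, sup_bot_eq] at hZLV
        have hcV : Nat.card V ≤ p := by
          rw [← hZLV, ← hZc]
          exact Nat.le_of_dvd Nat.card_pos (Subgroup.card_map_dvd _ _)
        have hxV : x ∈ V := ⟨hxR, hxp⟩
        have hyV : y ∈ V := ⟨hyR, hyp⟩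
        have h5 : zpowers x = V := by
          apply eq_of_le_of_card_ge (by rw [zpowers_le]; exact hxV)
          rw [Nat.card_zpowers, hx]; exact hcV
        rw [← h5] at hyV
        obtain ⟨k, hk⟩ := hyV
        exact ⟨k, Subtype.ext hk⟩)
    refine ⟨r, hr, le_antisymm ?_ (sup_le hMR (by rw [zpowers_le]; exact hr))⟩
    intro x hx
    obtain ⟨k, hk⟩ := hrgen ⟨QuotientGroup.mk' M x, x, hx, rfl⟩
    have h1 : (QuotientGroup.mk' M r) ^ k = QuotientGroup.mk' M x := congrArg Subtype.val hk
    rw [← map_zpow, QuotientGroup.mk'_apply, QuotientGroup.mk'_apply, QuotientGroup.eq] at h1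
    have h2 : x = r ^ k * ((r ^ k)⁻¹ * x) := by group
    rw [h2]
    exact mul_mem (mem_sup_right (zpow_mem (mem_zpowers r) k)) (mem_sup_left h1)

/-- noncyclic, not homocyclic abelian groups of rank two have a characteristic subgroup of order `p` -/
theorem exists_char {R : Type*} [Group R] [Finite R] {p : ℕ} [hp : Fact p.Prime] (hR : IsPGroup p R)
    (hcomm : ∀ x y : R, x * y = y * x) (hm : IsMetacyclic R) (hnc : ¬ IsCyclic R)
    (hhom : ¬ ∃ n : ℕ, 0 < n ∧ Nonempty (R ≃* Multiplicative (ZMod (p ^ n)) × Multiplicative (ZMod (p ^ n)))) :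
    ∃ Z : Subgroup R, Z.Characteristic ∧ Nat.card Z = p := by
  let _ : CommGroup R := { (inferInstance : Group R) with mul_comm := hcomm }
  have hpp := hp.out
  obtain ⟨N, hN, hNc, hRN⟩ := hm
  obtain ⟨⟨u, huN⟩, hu⟩ := hNc.exists_generator
  obtain ⟨v', hv'⟩ := hRN.exists_generator
  obtain ⟨v, rfl⟩ := QuotientGroup.mk_surjective v'
  have huv : zpowers u ⊔ zpowers v = ⊤ := by
    rw [eq_top_iff]
    intro x _
    obtain ⟨i, hi⟩ := hv' x
    have hi' : (QuotientGroup.mk (v ^ i) : R ⧸ N) = x := hi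
    rw [QuotientGroup.eq] at hi'
    obtain ⟨j, hj⟩ := hu ⟨_, hi'⟩
    have hj' : u ^ j = (v ^ i)⁻¹ * x := congrArg Subtype.val hj
    have h2 : x = v ^ i * u ^ j := by rw [hj']; group
    rw [h2]
    exact mul_mem (mem_sup_right (zpow_mem (mem_zpowers v) i)) (mem_sup_left (zpow_mem (mem_zpowers u) j))
  obtain ⟨x0, y0, hxy0, hdis0⟩ := MetaTwo.decomp hR huv
  obtain ⟨a0, ha0⟩ := (IsPGroup.iff_orderOf.1 hR) x0
  obtain ⟨b0, hb0⟩ := (IsPGroup.iff_orderOf.1 hR) y0
  -- without loss of generality `b ≤ a`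
  obtain ⟨x, y, a, b, hxy, hdis, ha, hb, hba⟩ : ∃ (x y : R) (a b : ℕ), zpowers x ⊔ zpowers y = ⊤ ∧
      zpowers x ⊓ zpowers y = ⊥ ∧ orderOf x = p ^ a ∧ orderOf y = p ^ b ∧ b ≤ a := by
    rcases le_total b0 a0 with h | h
    · exact ⟨x0, y0, a0, b0, hxy0, hdis0, ha0, hb0, h⟩
    · exact ⟨y0, x0, b0, a0, by rw [sup_comm]; exact hxy0, by rw [inf_comm]; exact hdis0, hb0, ha0, h⟩
  have ha0 : a ≠ 0 := by
    rintro rfl
    obtain rfl : b = 0 := by omega
    rw [pow_zero, orderOf_eq_one_iff] at ha hb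
    apply hnc
    refine ⟨1, fun z => ?_⟩
    have h1 : z ∈ zpowers x ⊔ zpowers y := by rw [hxy]; exact mem_top z
    rw [ha, hb, zpowers_one_eq_bot, sup_bot_eq, mem_bot] at h1
    rw [h1]; exact one_mem (zpowers (1 : R))
  have hrep : ∀ z : R, ∃ i j : ℤ, z = x ^ i * y ^ j := by
    intro z
    have h1 : z ∈ zpowers x ⊔ zpowers y := by rw [hxy]; exact mem_top z
    obtain ⟨_, ⟨i, rfl⟩, _, ⟨j, rfl⟩, hz⟩ := mem_sup.mp h1
    exact ⟨i, j, hz.symm⟩
  rcases Nat.lt_or_ge b a with h | h
  · refine ⟨(powMonoidHom (p ^ (a - 1)) : R →* R).range, ?_, ?_⟩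
    · rw [characteristic_iff_le_comap]
      rintro φ _ ⟨z, rfl⟩
      exact ⟨φ z, by show (φ z) ^ _ = φ (z ^ _); rw [map_pow]⟩
    · have h1 : (powMonoidHom (p ^ (a - 1)) : R →* R).range = zpowers (x ^ p ^ (a - 1)) := by
        apply le_antisymm
        · rintro _ ⟨z, rfl⟩
          obtain ⟨i, j, rfl⟩ := hrep z
          refine ⟨i, ?_⟩
          show (x ^ p ^ (a - 1)) ^ i = (x ^ i * y ^ j) ^ p ^ (a - 1)
          have hy1 : y ^ p ^ (a - 1) = 1 := by
            rw [← orderOf_dvd_iff_pow_eq_one, hb]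
            exact pow_dvd_pow p (by omega)
          rw [mul_pow, ← zpow_natCast (y ^ j), ← zpow_mul, mul_comm j, zpow_mul, zpow_natCast, hy1, one_zpow, mul_one,
            ← zpow_natCast, ← zpow_natCast, ← zpow_mul, ← zpow_mul, mul_comm]
        · rw [zpowers_le]
          exact ⟨x, rfl⟩
      rw [h1, Nat.card_zpowers, orderOf_pow_of_dvd (pow_ne_zero _ hpp.ne_zero) (by rw [ha]; exact pow_dvd_pow p (by omega)),
        ha, Nat.pow_div (by omega) hpp.pos, show a - (a - 1) = 1 by omega, pow_one]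
  · exfalso
    obtain rfl : a = b := le_antisymm h hba
    apply hhom
    refine ⟨a, by omega, ?_⟩
    let f : zpowers x × zpowers y →* R :=
      { toFun := fun q => (q.1 : R) * (q.2 : R)
        map_one' := by simp
        map_mul' := by
          rintro ⟨s, t⟩ ⟨s', t'⟩
          show (s * s' : R) * (t * t') = s * t * (s' * t')
          exact mul_mul_mul_comm _ _ _ _ }
    have hbij : Function.Bijective f := by
      constructor
      · exact Subgroup.mul_injective_of_disjoint (disjoint_iff.2 hdis)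
      · intro z
        obtain ⟨i, j, rfl⟩ := hrep z
        exact ⟨(⟨x ^ i, zpow_mem (mem_zpowers x) i⟩, ⟨y ^ j, zpow_mem (mem_zpowers y) j⟩), rfl⟩
    have : NeZero (p ^ a) := ⟨pow_ne_zero _ hpp.ne_zero⟩
    have ea : zpowers x ≃* Multiplicative (ZMod (p ^ a)) :=
      mulEquivOfCyclicCardEq (by rw [Nat.card_zpowers, ha]; simp)
    have eb : zpowers y ≃* Multiplicative (ZMod (p ^ a)) :=
      mulEquivOfCyclicCardEq (by rw [Nat.card_zpowers, hb]; simp)
    exact ⟨(MulEquiv.ofBijective f hbij).symm.trans (ea.prodCongr eb)⟩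

theorem series {G : Type u} [Group G] [Finite G] {p : ℕ} [hp : Fact p.Prime] {R A : Subgroup G}
    (hR : IsPGroup p R) (hm : IsMetacyclic R) (hA : A ≤ normalizer (R : Set G))
    (hcop : (Nat.card A).Coprime p) (htop : R ⊔ A = ⊤) (hp2 : p ≠ 2 ∨ A ≤ centralizer (R : Set G))
    (hhom : ¬ ∃ n : ℕ, 0 < n ∧ Nonempty (R ≃* Multiplicative (ZMod (p ^ n)) × Multiplicative (ZMod (p ^ n)))) :
    ∃ N : Subgroup G, N.Normal ∧ N ≤ R ∧ IsCyclic N ∧ ∃ r ∈ R, R = N ⊔ zpowers r := by
  have hRn : R.Normal := by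
    rw [← normalizer_eq_top_iff, eq_top_iff, ← htop]
    exact sup_le le_normalizer hA
  by_cases hAc : A ≤ centralizer (R : Set G)
  · obtain ⟨N, hN, hNc, hRN⟩ := hm
    obtain ⟨v', hv'⟩ := hRN.exists_generator
    obtain ⟨v, rfl⟩ := QuotientGroup.mk_surjective v'
    refine ⟨N.map R.subtype, ?_, map_subtype_le N, ?_, v, v.2, ?_⟩
    · rw [← normalizer_eq_top_iff, eq_top_iff, ← htop]
      have key : ∀ g ∈ R ⊔ A, ∀ x ∈ N.map R.subtype, g * x * g⁻¹ ∈ N.map R.subtype := by
        have h1 : ∀ g ∈ R, ∀ x ∈ N.map R.subtype, g * x * g⁻¹ ∈ N.map R.subtype := by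
          rintro g hg _ ⟨x, hx, rfl⟩
          exact ⟨⟨g, hg⟩ * x * ⟨g, hg⟩⁻¹, hN.conj_mem x hx _, rfl⟩
        have h2 : ∀ g ∈ A, ∀ x ∈ N.map R.subtype, g * x * g⁻¹ ∈ N.map R.subtype := by
          rintro g hg _ ⟨x, hx, rfl⟩
          have h3 := mem_centralizer_iff.1 (hAc hg) x x.2
          rw [coe_subtype, ← h3, mul_inv_cancel_right]
          exact ⟨x, hx, rfl⟩
        intro g hg
        obtain ⟨a, ha, b, hb, rfl⟩ := (mem_sup_of_normal_left (s := R) (t := A)).1 hg
        intro x hx
        have h3 : a * b * x * (a * b)⁻¹ = a * (b * x * b⁻¹) * a⁻¹ := by group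
        rw [h3]
        exact h1 a ha _ (h2 b hb x hx)
      intro g hg
      rw [mem_normalizer_iff]
      intro x
      refine ⟨key g hg x, fun hx => ?_⟩
      have h3 := key g⁻¹ (inv_mem hg) _ hx
      have h4 : g⁻¹ * (g * x * g⁻¹) * g⁻¹⁻¹ = x := by group
      rwa [h4] at h3
    · exact (N.equivMapOfInjective R.subtype R.subtype_injective).symm.isCyclic.2 hNc
    · apply le_antisymm
      · intro x hx
        obtain ⟨i, hi⟩ := hv' (QuotientGroup.mk ⟨x, hx⟩)
        have hi' : (QuotientGroup.mk (v ^ i) : R ⧸ N) = QuotientGroup.mk ⟨x, hx⟩ := hi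
        rw [QuotientGroup.eq] at hi'
        have h2 : x = (v : G) ^ i * (((v ^ i)⁻¹ * ⟨x, hx⟩ : R) : G) := by
          push_cast
          group
        rw [h2]
        exact mul_mem (mem_sup_right (zpow_mem (mem_zpowers _) i)) (mem_sup_left ⟨_, hi', rfl⟩)
      · exact sup_le (map_subtype_le N) (by rw [zpowers_le]; exact v.2)
  · have hp2' : p ≠ 2 := hp2.resolve_right hAc
    by_cases hab : IsMulCommutative R
    · have hcomm : ∀ x ∈ R, ∀ y ∈ R, x * y = y * x := fun x hx y hy =>
        isMulCommutative_iff_of_setLike.mp hab x hx y hy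
      by_cases hcyc : IsCyclic R
      · exact ⟨R, hRn, le_rfl, hcyc, 1, one_mem _, by rw [zpowers_one_eq_bot, sup_bot_eq]⟩
      · obtain ⟨Z, hZ, hZc⟩ := exists_char hR (fun x y => Subtype.ext (hcomm x x.2 y y.2)) hm hcyc hhom
        obtain ⟨E, hE, hE2, hEall⟩ := exists_omega_of_isMetacyclic hp2' hR hm
        refine abelian_series (E := E.map R.subtype) (Z := Z.map R.subtype) hR hcomm hA hcop htop ?_ ?_ ?_ ?_ ?_
        · rw [card_map_of_injective R.subtype_injective]; exact hE2
        · intro x hx hxp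
          exact ⟨⟨x, hx⟩, hEall _ (Subtype.ext hxp), rfl⟩
        · exact inferInstance
        · exact map_subtype_le Z
        · rw [card_map_of_injective R.subtype_injective]; exact hZc
    · obtain ⟨h1, h2, h3, h4⟩ := metacyclic_action hp2' hR hm hA hcop
      obtain ⟨-, h5, -, h6, -⟩ := h4 hab hAc
      refine ⟨⁅R, A⁆, ?_, ?_, h5, ?_⟩
      · rw [← normalizer_eq_top_iff, eq_top_iff, ← htop]
        exact sup_le (normalizer_commutator_ge_left R A) (normalizer_commutator_ge_right R A)
      · exact le_normalizer_iff_commutator_le_left.mp hA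
      · obtain ⟨r, hr⟩ := h6.exists_generator
        refine ⟨r, r.2.1, ?_⟩
        have h7 : R ⊓ centralizer (A : Set G) = zpowers (r : G) := by
          apply le_antisymm
          · intro x hx
            obtain ⟨k, hk⟩ := hr ⟨x, hx⟩
            exact ⟨k, congrArg Subtype.val hk⟩
          · rw [zpowers_le]; exact r.2
        rw [← h7]; exact h2.symm

end Cfsg.Agent.Lib.SuperPos
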