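import Cfsg.Agent.Lib.SuzukiFixity
import Cfsg.Agent.Lib.ZassKernel
import Cfsg.Agent.Lib.ZassNormal

/-!
Suzuki groups, part 22: tori normalised by a given 2-element; counting solubilizers.
-/

set_option autoImplicit false
set_option linter.unusedSectionVars false
set_option linter.unusedSimpArgs false
open scoped LinearAlgebra.Projectivization Matrix Pointwise

namespace Cfsg.Agent.Lib.SuzukiSolv

open Cfsg.Agent.Lib.SuzukiOvoid Cfsg.Agent.Lib.SuzukiGroup Cfsg.Agent.Lib.SuzukiFin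
  Cfsg.Agent.Lib.SuzukiStab Cfsg.Agent.Lib.SuzukiSyl Cfsg.Agent.Lib.SuzukiPts
  Cfsg.Agent.Lib.SuzukiTor Cfsg.Agent.Lib.SuzukiNoFix Cfsg.Agent.Lib.TICount
  Cfsg.Agent.Lib.SuzukiCount Cfsg.Agent.Lib.SuzukiTori Cfsg.Agent.Lib.SuzukiStr
  Cfsg.Agent.Lib.SuzukiStr2 Cfsg.Agent.Lib.SuzukiStr3 Cfsg.Agent.Lib.SuzukiStr4

variable {F : Type*} [Field F] [CharP F 2] (θ : F ≃+* F) (hθ : ∀ x, θ (θ x) = x ^ 2)
  (hne : ∃ x, θ x ≠ x ^ 2) [Finite F]
include hθ hne

theorem isZass : Cfsg.IsZassenhausGroup (Gz θ) (ov θ) := by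
  have hsimp := simple θ hθ hne
  refine ⟨faithful _ hθ hne, two_pretransitive θ hθ, ?_, ?_, ?_⟩
  · intro g a b c hab hbc hac ha hb hc
    exact three_points θ hθ hne hab hbc hac ha hb hc
  · obtain ⟨κ, hκ⟩ := exists_ne_one θ hne
    refine ⟨Hg θ hθ κ, fun h => hκ (Hg_inj θ hθ (h.trans (Hg_one θ hθ).symm)),
      inf θ, pt θ 0 0, (pt_ne_inf θ 0 0).symm, Hg_inf θ hθ κ, ?_⟩
    rw [Hg_pt]; simp
  · intro N hN htr
    rcases hsimp.eq_bot_or_eq_top_of_normal N hN with rfl | rfl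
    · exfalso
      obtain ⟨⟨g, hg⟩, hg'⟩ := htr.exists_smul_eq (inf θ) (pt θ 0 0)
      rw [Subgroup.mem_bot] at hg
      subst hg
      exact pt_ne_inf θ 0 0 (hg'.symm.trans (one_smul _ _))
    · refine ⟨inf θ, ?_⟩
      intro hbot
      obtain ⟨κ, hκ⟩ := exists_ne_one θ hne
      have h1 : (⟨Hg θ hθ κ, trivial⟩ : (⊤ : Subgroup (Gz θ))) ∈
          MulAction.stabilizer (⊤ : Subgroup (Gz θ)) (inf θ) := Hg_inf θ hθ κ
      rw [hbot, Subgroup.mem_bot] at h1
      exact hκ (Hg_inj θ hθ ((congrArg Subtype.val h1).trans (Hg_one θ hθ).symm))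

/-- the normaliser of a torus of order `q - 1` -/
theorem normalizer_Tp {p p' : ov θ} (h : p ≠ p') :
    Nat.card (Subgroup.normalizer (Tp θ p p' : Set (Gz θ))) = Nat.card (Tp θ p p') * 2 ∧
    ∀ n ∈ Subgroup.normalizer (Tp θ p p' : Set (Gz θ)),
      (n • p = p ∧ n • p' = p') ∨ (n • p = p' ∧ n • p' = p) := by
  have hZ : Cfsg.IsZassenhausGroup (Gz θ) (ov θ) := isZass θ hθ hne
  constructor
  · have h1 := (ZassKernel.twoPoint hZ h).2
    have h2 := ((Tp θ p p').subgroupOf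
      (Subgroup.normalizer (Tp θ p p' : Set (Gz θ)))).card_mul_index
    rw [Nat.card_congr (Subgroup.subgroupOfEquivOfLe Subgroup.le_normalizer).toEquiv] at h2
    have h3 : ((Tp θ p p').subgroupOf
      (Subgroup.normalizer (Tp θ p p' : Set (Gz θ)))).index = 2 := h1
    rw [h3] at h2
    exact h2.symm
  · intro n hn
    exact (ZassKernel.mem_normalizer_iff_pair hZ h n).mp hn

theorem odd_card_sub_one : Odd (Nat.card F - 1) := by
  rw [Nat.odd_sub (one_lt_card (F := F)).le]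
  have : Even (Nat.card F) := even_card
  simp [this]

/-- elements of the centraliser of a toral element have odd order -/
theorem cent_odd {c : Gz θ} (h : IsTor θ hθ hne c) : Odd (Nat.card (Subgroup.centralizer {c})) := by
  rcases types θ hθ hne c with h1 | ⟨p, h1⟩ | ⟨p, p', hpp, h1⟩ | h1
  · exact absurd (Subgroup.mem_bot.mp h1) h.1
  · exact absurd h1 (h.2 p)
  · rw [centralizer_Tp θ hθ hne hpp h1 h.1, card_Tp θ hθ hne hpp]
    exact odd_card_sub_one θ hθ hne
  · rw [← Nat.not_even_iff_odd, even_iff_two_dvd]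
    intro h2
    obtain ⟨s, hs⟩ := exists_prime_orderOf_dvd_card' 2 h2
    have hs1 : (s : Gz θ) ≠ 1 := by
      intro h3
      have : s = 1 := Subtype.ext h3
      rw [this, orderOf_one] at hs
      omega
    have h4 := NoFix.odd θ hθ hne (NoFix.of_commute θ hθ hne h1 (cent_comm θ hθ hne s.2) hs1)
    rw [Subgroup.orderOf_coe, hs] at h4
    exact absurd h4 (by decide)

theorem mem_cent_odd {c z : Gz θ} (h : IsTor θ hθ hne c) (hz : z ∈ Subgroup.centralizer {c}) :
    Odd (orderOf z) := by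
  have h1 : orderOf (⟨z, hz⟩ : Subgroup.centralizer {c}) ∣ _ := orderOf_dvd_natCard _
  rw [Subgroup.orderOf_mk] at h1
  exact (cent_odd θ hθ hne h).of_dvd_nat h1

theorem mem_cent_tor {c z : Gz θ} (h : IsTor θ hθ hne c) (hz : z ∈ Subgroup.centralizer {c})
    (hz1 : z ≠ 1) : IsTor θ hθ hne z :=
  isTor_of_odd θ hθ hne hz1 (mem_cent_odd θ hθ hne h hz)

/-- the two kinds of toral elements -/
theorem tor_kinds {m : ℕ} (hm : 1 ≤ m) (hF : Nat.card F = 2 ^ (2 * m + 1)) {c : Gz θ}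
    (h : IsTor θ hθ hne c) :
    (NoFix θ c ∧ Nat.card (Subgroup.normalizer (Subgroup.centralizer {c} : Set (Gz θ))) =
      Nat.card (Subgroup.centralizer {c}) * 4) ∨
    (∃ p p', p ≠ p' ∧ c ∈ Tp θ p p' ∧ Subgroup.centralizer {c} = Tp θ p p' ∧
      Nat.card (Subgroup.normalizer (Subgroup.centralizer {c} : Set (Gz θ))) =
      Nat.card (Subgroup.centralizer {c}) * 2) := by
  rcases types θ hθ hne c with h1 | ⟨p, h1⟩ | ⟨p, p', hpp, h1⟩ | h1
  · exact absurd (Subgroup.mem_bot.mp h1) h.1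
  · exact absurd h1 (h.2 p)
  · right
    refine ⟨p, p', hpp, h1, centralizer_Tp θ hθ hne hpp h1 h.1, ?_⟩
    rw [centralizer_Tp θ hθ hne hpp h1 h.1]
    exact (normalizer_Tp θ hθ hne hpp).1
  · left
    exact ⟨h1, (SuzukiPart.noFix_card θ hθ hne hm hF h1).2⟩

/-- a torus normalised by a 2-element fixing `p` has no element fixing `p` -/
theorem inf_stab {x t z : Gz θ} {p : ov θ} (hx : x ∈ Up θ hθ hne p) (hx1 : x ≠ 1)
    (ht : IsTor θ hθ hne t)
    (hn : x ∈ Subgroup.normalizer (Subgroup.centralizer {t} : Set (Gz θ)))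
    (hz : z ∈ Subgroup.centralizer {t}) (hzp : z • p = p) : z = 1 := by
  by_contra hz1
  have hzT := mem_cent_tor θ hθ hne ht hz hz1
  have hzc := IsTor.centralizer_eq θ hθ hne ht hz hz1
  rcases types θ hθ hne z with h1 | ⟨p', h1⟩ | ⟨p1, p2, hpp, h1⟩ | h1
  · exact hz1 (Subgroup.mem_bot.mp h1)
  · exact hzT.2 p' h1
  · have h2 := centralizer_Tp θ hθ hne hpp h1 hz1
    rw [← hzc, h2] at hn
    have h3 : p = p1 ∨ p = p2 := by
      by_contra hcon
      push Not at hcon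
      exact hz1 (three_points θ hθ hne hpp (Ne.symm hcon.2) (Ne.symm hcon.1) h1.1 h1.2 hzp)
    have hxp := Up_fix θ hθ hne hx
    rcases (normalizer_Tp θ hθ hne hpp).2 x hn with ⟨h4, h5⟩ | ⟨h4, h5⟩
    · have h6 := Up_unique θ hθ hne hx hx1 h4
      have h7 := Up_unique θ hθ hne hx hx1 h5
      exact hpp (h6.trans h7.symm)
    · rcases h3 with h3 | h3
      · rw [h3, h4] at hxp
        exact hpp hxp.symm
      · rw [h3, h5] at hxp
        exact hpp hxp
  · exact h1 p hzp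

section count
variable {m : ℕ} (hm : 1 ≤ m) (hF : Nat.card F = 2 ^ (2 * m + 1))
include hm hF

theorem pow_four_mem {t g : Gz θ} (ht : IsTor θ hθ hne t)
    (hg : g ∈ Subgroup.normalizer (Subgroup.centralizer {t} : Set (Gz θ))) :
    g ^ 4 ∈ Subgroup.centralizer {t} := by
  set N := Subgroup.normalizer (Subgroup.centralizer {t} : Set (Gz θ)) with hN
  have hnor : ((Subgroup.centralizer {t}).subgroupOf N).Normal := Subgroup.normal_in_normalizer
  have h7 := Subgroup.pow_index_mem ((Subgroup.centralizer {t}).subgroupOf N) ⟨g, hg⟩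
  rw [Subgroup.mem_subgroupOf] at h7
  have h8 : g ^ ((Subgroup.centralizer {t}).subgroupOf N).index ∈ Subgroup.centralizer {t} := h7
  have hidx : ((Subgroup.centralizer {t}).subgroupOf N).index ∣ 4 := by
    have h6 := ((Subgroup.centralizer {t}).subgroupOf N).card_mul_index
    rw [Nat.card_congr (Subgroup.subgroupOfEquivOfLe Subgroup.le_normalizer).toEquiv] at h6
    rcases tor_kinds θ hθ hne hm hF ht with ⟨-, h5⟩ | ⟨p, p', -, -, -, h5⟩
    · rw [h5] at h6
      rw [Nat.eq_of_mul_eq_mul_left Nat.card_pos h6]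
    · rw [h5] at h6
      rw [Nat.eq_of_mul_eq_mul_left Nat.card_pos h6]
      norm_num
  obtain ⟨k, hk⟩ := hidx
  have h9 : g ^ 4 = (g ^ ((Subgroup.centralizer {t}).subgroupOf N).index) ^ k := by
    rw [← pow_mul, ← hk]
  rw [h9]
  exact pow_mem h8 k

theorem exists_tor_mem {x t y : Gz θ} {p : ov θ} (hx : x ∈ Up θ hθ hne p) (hx1 : x ≠ 1)
    (ht : IsTor θ hθ hne t)
    (hn : x ∈ Subgroup.normalizer (Subgroup.centralizer {t} : Set (Gz θ)))
    (hy : y ∈ Subgroup.normalizer (Subgroup.centralizer {t} : Set (Gz θ))) (hyp : y • p ≠ p) :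
    ∃ z ∈ Subgroup.closure ({x, y} : Set (Gz θ)), z ∈ Subgroup.centralizer {t} ∧ z ≠ 1 := by
  by_contra hcon
  push Not at hcon
  set M := Subgroup.closure ({x, y} : Set (Gz θ)) with hM
  have hMN : M ≤ Subgroup.normalizer (Subgroup.centralizer {t} : Set (Gz θ)) := by
    rw [hM, Subgroup.closure_le]
    rintro z (rfl | rfl)
    · exact hn
    · exact hy
  have hxM : x ∈ M := Subgroup.subset_closure (Or.inl rfl)
  have hyM : y ∈ M := Subgroup.subset_closure (Or.inr rfl)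
  have hP : IsPGroup 2 M := by
    rintro ⟨g, hg⟩
    refine ⟨2, Subtype.ext ?_⟩
    show g ^ 2 ^ 2 = 1
    exact hcon _ (pow_mem hg _) (pow_four_mem θ hθ hne hm hF ht (hMN hg))
  obtain ⟨p', hp'⟩ := two_group_le θ hθ hne hP
  have h1 := Up_unique θ hθ hne hx hx1 (Up_fix θ hθ hne (hp' hxM))
  rw [h1] at hp'
  exact hyp (Up_fix θ hθ hne (hp' hyM))

theorem tor_unique {x t t' y : Gz θ} {p : ov θ} (hx : x ∈ Up θ hθ hne p) (hx1 : x ≠ 1)
    (ht : IsTor θ hθ hne t) (ht' : IsTor θ hθ hne t')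
    (hn : x ∈ Subgroup.normalizer (Subgroup.centralizer {t} : Set (Gz θ)))
    (hy : y ∈ Subgroup.normalizer (Subgroup.centralizer {t} : Set (Gz θ)))
    (hn' : x ∈ Subgroup.normalizer (Subgroup.centralizer {t'} : Set (Gz θ)))
    (hy' : y ∈ Subgroup.normalizer (Subgroup.centralizer {t'} : Set (Gz θ))) (hyp : y • p ≠ p) :
    Subgroup.centralizer {t} = Subgroup.centralizer {t'} := by
  obtain ⟨z, hzM, hzC, hz1⟩ := exists_tor_mem θ hθ hne hm hF hx hx1 ht hn hy hyp
  have hMN : Subgroup.closure ({x, y} : Set (Gz θ)) ≤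
      Subgroup.normalizer (Subgroup.centralizer {t'} : Set (Gz θ)) := by
    rw [Subgroup.closure_le]
    rintro z (rfl | rfl)
    · exact hn'
    · exact hy'
  have h1 := SuzukiFixity.IsTor.odd_mem θ hθ hne ht' (hMN hzM) (mem_cent_odd θ hθ hne ht hzC)
  rw [← IsTor.centralizer_eq θ hθ hne ht hzC hz1, IsTor.centralizer_eq θ hθ hne ht' h1 hz1]

/-- the stabiliser of `p` in the normaliser of a torus normalised by `x ∈ Up p` complements the torus -/
theorem complement {x t : Gz θ} {p : ov θ} (hx : x ∈ Up θ hθ hne p) (hx1 : x ≠ 1)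
    (ht : IsTor θ hθ hne t)
    (hn : x ∈ Subgroup.normalizer (Subgroup.centralizer {t} : Set (Gz θ))) :
    Nat.card (Subgroup.normalizer (Subgroup.centralizer {t} : Set (Gz θ))) =
      Nat.card (Subgroup.centralizer {t}) *
        Nat.card ↥(Subgroup.normalizer (Subgroup.centralizer {t} : Set (Gz θ)) ⊓
          MulAction.stabilizer (Gz θ) p) ∧
    (∀ y ∈ Subgroup.normalizer (Subgroup.centralizer {t} : Set (Gz θ)),
      ∃ z ∈ Subgroup.centralizer {t},
        ∃ w ∈ Subgroup.normalizer (Subgroup.centralizer {t} : Set (Gz θ)), w • p = p ∧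
          z * w = y) ∧
    (∀ w ∈ Subgroup.normalizer (Subgroup.centralizer {t} : Set (Gz θ)), w • p = p →
      w ∈ Up θ hθ hne p) := by
  set N := Subgroup.normalizer (Subgroup.centralizer {t} : Set (Gz θ)) with hN
  set C := Subgroup.centralizer {t} with hC
  have hCN : C ≤ N := Subgroup.le_normalizer
  have hCodd : Odd (Nat.card C) := cent_odd θ hθ hne ht
  obtain ⟨k, hk0, hk⟩ : ∃ k, 0 < k ∧ Nat.card N = Nat.card C * 2 ^ k := by
    rcases tor_kinds θ hθ hne hm hF ht with ⟨-, h5⟩ | ⟨p, p', -, -, -, h5⟩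
    · exact ⟨2, by norm_num, h5⟩
    · exact ⟨1, by norm_num, h5⟩
  -- a Sylow 2-subgroup of N containing x
  have hxp : IsPGroup 2 (Subgroup.zpowers (⟨x, hn⟩ : N)) := by
    rintro ⟨g, hg⟩
    obtain ⟨i, rfl⟩ := Subgroup.mem_zpowers_iff.mp hg
    refine ⟨2, Subtype.ext (Subtype.ext ?_)⟩
    show (x ^ i) ^ 4 = 1
    have h4 : x ^ 4 = 1 := Up_pow4 θ hθ hne hx
    rw [← zpow_natCast, ← zpow_mul, mul_comm, zpow_mul, zpow_natCast, h4, one_zpow]
  obtain ⟨P, hP⟩ := hxp.exists_le_sylow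
  have hPc : Nat.card P = 2 ^ k := by
    have h1 := P.card_eq_multiplicity
    have h2 : (Nat.card N).factorization 2 = k := by
      rw [hk, Nat.factorization_mul Nat.card_pos.ne' (by positivity)]
      have h3 : (Nat.card C).factorization 2 = 0 :=
        Nat.factorization_eq_zero_of_not_dvd (fun h => by
          rw [← even_iff_two_dvd] at h
          exact (Nat.not_even_iff_odd.mpr hCodd) h)
      rw [Finsupp.add_apply, h3, zero_add, Nat.Prime.factorization_pow Nat.prime_two]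
      simp
    rw [h1, h2]
  have hPp : IsPGroup 2 ((P : Subgroup N).map N.subtype) := P.2.map _
  obtain ⟨p', hp'⟩ := two_group_le θ hθ hne hPp
  have hxP : x ∈ (P : Subgroup N).map N.subtype :=
    ⟨⟨x, hn⟩, hP (Subgroup.mem_zpowers _), rfl⟩
  have hpp : p' = p := Up_unique θ hθ hne hx hx1 (Up_fix θ hθ hne (hp' hxP))
  rw [hpp] at hp'
  have hPE : (P : Subgroup N).map N.subtype ≤ N ⊓ MulAction.stabilizer (Gz θ) p := by
    intro g hg
    refine ⟨?_, Up_fix θ hθ hne (hp' hg)⟩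
    obtain ⟨y, -, rfl⟩ := hg
    exact y.2
  have hPc' : Nat.card ((P : Subgroup N).map N.subtype) = 2 ^ k := by
    rw [← hPc]
    exact (Nat.card_congr ((P : Subgroup N).equivMapOfInjective _ N.subtype_injective).toEquiv).symm
  have hE1 : 2 ^ k ≤ Nat.card ↥(N ⊓ MulAction.stabilizer (Gz θ) p) := by
    rw [← hPc']
    exact Subgroup.card_le_of_le hPE
  let f : C × ↥(N ⊓ MulAction.stabilizer (Gz θ) p) → N := fun w =>
    ⟨(w.1 : Gz θ) * w.2, mul_mem (hCN w.1.2) w.2.2.1⟩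
  have hf : Function.Injective f := by
    rintro ⟨c, w⟩ ⟨c', w'⟩ h
    have h1 : (c : Gz θ) * w = c' * w' := congrArg Subtype.val h
    have h2 : ((c' : Gz θ)⁻¹ * c) = w' * (w : Gz θ)⁻¹ := by
      rw [inv_mul_eq_iff_eq_mul, ← mul_assoc, ← h1, mul_inv_cancel_right]
    have h3 : (c' : Gz θ)⁻¹ * c = 1 := by
      apply inf_stab θ hθ hne hx hx1 ht hn (mul_mem (inv_mem c'.2) c.2)
      rw [h2]
      exact (mul_mem w'.2.2 (inv_mem w.2.2) : _ ∈ MulAction.stabilizer (Gz θ) p)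
    have h4 : c = c' := Subtype.ext (inv_mul_eq_one.mp h3).symm
    subst h4
    have h5 : w = w' := Subtype.ext (mul_left_cancel h1)
    rw [h5]
  have hle := Nat.card_le_card_of_injective f hf
  rw [Nat.card_prod, hk] at hle
  have hE2 := Nat.le_of_mul_le_mul_left hle (Nat.card_pos : 0 < Nat.card C)
  have hE : Nat.card ↥(N ⊓ MulAction.stabilizer (Gz θ) p) = 2 ^ k := le_antisymm hE2 hE1
  have hbij : Function.Bijective f := by
    rw [Nat.bijective_iff_injective_and_card]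
    exact ⟨hf, by rw [Nat.card_prod, hE, hk]⟩
  refine ⟨by rw [hk, hE], ?_, ?_⟩
  · intro y hy
    obtain ⟨⟨c, w⟩, hcw⟩ := hbij.2 ⟨y, hy⟩
    exact ⟨c, c.2, w, w.2.1, w.2.2, congrArg Subtype.val hcw⟩
  · have heq : (P : Subgroup N).map N.subtype = N ⊓ MulAction.stabilizer (Gz θ) p :=
      Subgroup.eq_of_le_of_card_ge hPE (by rw [hE, hPc'])
    intro w hw hwp
    apply hp'
    rw [heq]
    exact ⟨hw, hwp⟩

/-- the toral elements whose torus is normalised by `x` -/
def DSet (x : Gz θ) : Type _ := {t : Gz θ // IsTor θ hθ hne t ∧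
  x ∈ Subgroup.normalizer (Subgroup.centralizer {t} : Set (Gz θ))}

/-- counting the elements which normalise a torus together with `x` -/
theorem card_S {x : Gz θ} {p : ov θ} (hx : x ∈ Up θ hθ hne p) (hx1 : x ≠ 1) :
    Nat.card {y : Gz θ // y • p ≠ p ∧ ∃ t, IsTor θ hθ hne t ∧
      x ∈ Subgroup.normalizer (Subgroup.centralizer {t} : Set (Gz θ)) ∧
      y ∈ Subgroup.normalizer (Subgroup.centralizer {t} : Set (Gz θ))} =
    Nat.card (Σ t : {t : Gz θ // IsTor θ hθ hne t ∧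
      x ∈ Subgroup.normalizer (Subgroup.centralizer {t} : Set (Gz θ))},
      ↥(Subgroup.normalizer (Subgroup.centralizer {(t : Gz θ)} : Set (Gz θ)) ⊓
          MulAction.stabilizer (Gz θ) p)) := by
  symm
  have hCN : ∀ t : Gz θ, Subgroup.centralizer {t} ≤
      Subgroup.normalizer (Subgroup.centralizer {t} : Set (Gz θ)) :=
    fun t => Subgroup.le_normalizer
  have hself : ∀ t : Gz θ, t ∈ Subgroup.centralizer {t} := fun t =>
    Subgroup.mem_centralizer_singleton_iff.mpr rfl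
  have hmove : ∀ (t : {t : Gz θ // IsTor θ hθ hne t ∧
      x ∈ Subgroup.normalizer (Subgroup.centralizer {t} : Set (Gz θ))})
      (w : ↥(Subgroup.normalizer (Subgroup.centralizer {(t : Gz θ)} : Set (Gz θ)) ⊓
          MulAction.stabilizer (Gz θ) p)), ((t : Gz θ) * w) • p ≠ p := by
    intro t w h
    rw [mul_smul, show (w : Gz θ) • p = p from w.2.2] at h
    exact t.2.1.1 (inf_stab θ hθ hne hx hx1 t.2.1 t.2.2 (hself _) h)
  apply Nat.card_eq_of_bijective
    (fun s => ⟨(s.1 : Gz θ) * s.2, hmove s.1 s.2, s.1, s.1.2.1, s.1.2.2,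
      mul_mem (hCN _ (hself _)) s.2.2.1⟩)
  constructor
  · rintro ⟨⟨t, ht, htx⟩, ⟨w, hwN, hwp⟩⟩ ⟨⟨t', ht', htx'⟩, ⟨w', hwN', hwp'⟩⟩ h
    have h1 : t * w = t' * w' := congrArg Subtype.val h
    have h2 := tor_unique θ hθ hne hm hF hx hx1 ht ht' htx (mul_mem (hCN _ (hself _)) hwN) htx'
      (h1 ▸ mul_mem (hCN _ (hself _)) hwN') (hmove ⟨t, ht, htx⟩ ⟨w, hwN, hwp⟩)
    have h4 : t'⁻¹ * t = 1 := by
      apply inf_stab θ hθ hne hx hx1 ht' htx' (mul_mem (inv_mem (hself _)) (h2 ▸ hself t))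
      have h5 : t'⁻¹ * t = w' * w⁻¹ := by
        rw [inv_mul_eq_iff_eq_mul, ← mul_assoc, ← h1, mul_inv_cancel_right]
      rw [h5]
      exact (mul_mem hwp' (inv_mem hwp) : _ ∈ MulAction.stabilizer (Gz θ) p)
    have h6 : t = t' := (inv_mul_eq_one.mp h4).symm
    subst h6
    have h7 : w = w' := mul_left_cancel h1
    subst h7
    rfl
  · rintro ⟨y, hyp, t, ht, htx, hty⟩
    obtain ⟨z, hz, w, hw, hwp, hzw⟩ := (complement θ hθ hne hm hF hx hx1 ht htx).2.1 y hty
    have hz1 : z ≠ 1 := by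
      rintro rfl
      rw [one_mul] at hzw
      exact hyp (hzw ▸ hwp)
    have hzc := IsTor.centralizer_eq θ hθ hne ht hz hz1
    have hzT := mem_cent_tor θ hθ hne ht hz hz1
    refine ⟨⟨⟨z, hzT, by rw [hzc]; exact htx⟩, ⟨w, by rw [hzc]; exact hw, hwp⟩⟩, ?_⟩
    exact Subtype.ext hzw

end count

end Cfsg.Agent.Lib.SuzukiSolv
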