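import Cfsg.Agent.Lib.SuzukiSolv

/-!
Suzuki groups, part 23: counting the solubilizers.
-/

set_option autoImplicit false
set_option linter.unusedSectionVars false
set_option linter.unusedSimpArgs false
open scoped LinearAlgebra.Projectivization Matrix Pointwise

namespace Cfsg.Agent.Lib.SuzukiSolv2

open Cfsg.Agent.Lib.SuzukiOvoid Cfsg.Agent.Lib.SuzukiGroup Cfsg.Agent.Lib.SuzukiFin
  Cfsg.Agent.Lib.SuzukiStab Cfsg.Agent.Lib.SuzukiSyl Cfsg.Agent.Lib.SuzukiPts
  Cfsg.Agent.Lib.SuzukiTor Cfsg.Agent.Lib.SuzukiNoFix Cfsg.Agent.Lib.TICount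
  Cfsg.Agent.Lib.SuzukiCount Cfsg.Agent.Lib.SuzukiTori Cfsg.Agent.Lib.SuzukiStr
  Cfsg.Agent.Lib.SuzukiStr2 Cfsg.Agent.Lib.SuzukiStr3 Cfsg.Agent.Lib.SuzukiStr4
  Cfsg.Agent.Lib.SuzukiSolv

/-- weighted count -/
theorem card_sigma_split {D : Type*} [Finite D] (P : D → Prop) (E : D → Type*)
    [∀ d, Finite (E d)] {a b : ℕ} (h1 : ∀ d, P d → Nat.card (E d) = a)
    (h2 : ∀ d, ¬ P d → Nat.card (E d) = b) :
    Nat.card (Σ d, E d) = a * Nat.card {d // P d} + b * Nat.card {d // ¬ P d} := by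
  classical
  have := Fintype.ofFinite D
  rw [Nat.card_sigma]
  have h3 : ∀ d, Nat.card (E d) = if P d then a else b := by
    intro d
    split_ifs with h
    · exact h1 d h
    · exact h2 d h
  rw [Finset.sum_congr rfl (fun d _ => h3 d), Finset.sum_ite, Finset.sum_const, Finset.sum_const,
    smul_eq_mul, smul_eq_mul, Nat.card_eq_fintype_card, Nat.card_eq_fintype_card,
    Fintype.card_subtype, Fintype.card_subtype]
  ring

theorem card_sigma_const {D : Type*} [Finite D] (E : D → Type*)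
    [∀ d, Finite (E d)] {a : ℕ} (h1 : ∀ d, Nat.card (E d) = a) :
    Nat.card (Σ d, E d) = a * Nat.card D := by
  classical
  have := Fintype.ofFinite D
  rw [Nat.card_sigma, Finset.sum_congr rfl (fun d _ => h1 d), Finset.sum_const, smul_eq_mul,
    Nat.card_eq_fintype_card, Finset.card_univ, mul_comm]

theorem card_split {D : Type*} [Finite D] (P : D → Prop) :
    Nat.card D = Nat.card {d // P d} + Nat.card {d // ¬ P d} := by
  classical
  rw [← Nat.card_sum]
  exact Nat.card_congr (Equiv.sumCompl P).symm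

variable {F : Type*} [Field F] [CharP F 2] (θ : F ≃+* F) (hθ : ∀ x, θ (θ x) = x ^ 2)
  (hne : ∃ x, θ x ≠ x ^ 2) [Finite F]
include hθ hne

theorem self_mem (t : Gz θ) : t ∈ Subgroup.centralizer {t} :=
  Subgroup.mem_centralizer_singleton_iff.mpr rfl

/-- an involution normalising a torus inverts it -/
theorem invert {x t z : Gz θ} {p : ov θ} (hx : x ∈ Up θ hθ hne p) (hx1 : x ≠ 1) (hx2 : x ^ 2 = 1)
    (ht : IsTor θ hθ hne t)
    (hn : x ∈ Subgroup.normalizer (Subgroup.centralizer {t} : Set (Gz θ)))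
    (hz : z ∈ Subgroup.centralizer {t}) : x * z * x⁻¹ = z⁻¹ := by
  have hxi : x⁻¹ = x := by
    rw [inv_eq_iff_mul_eq_one, ← sq]; exact hx2
  have h1 : x * z * x⁻¹ ∈ Subgroup.centralizer {t} := (Subgroup.mem_normalizer_iff.mp hn z).mp hz
  set w := z * (x * z * x⁻¹) with hw
  have hwC : w ∈ Subgroup.centralizer {t} := mul_mem hz h1
  have h2 : x * w * x⁻¹ = w := by
    have h3 : x * (x * z * x⁻¹) * x⁻¹ = z := by
      rw [hxi]
      calc x * (x * z * x) * x = (x ^ 2) * z * (x ^ 2) := by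
            rw [sq]; simp only [mul_assoc]
        _ = z := by rw [hx2, one_mul, mul_one]
    calc x * w * x⁻¹ = (x * z * x⁻¹) * (x * (x * z * x⁻¹) * x⁻¹) := by rw [hw]; group
      _ = (x * z * x⁻¹) * z := by rw [h3]
      _ = w := IsTor.comm θ hθ hne ht h1 hz
  have h4 : w = 1 := by
    by_contra hw1
    have h5 : w ∈ Subgroup.centralizer {x} := by
      rw [Subgroup.mem_centralizer_singleton_iff]
      rw [mul_inv_eq_iff_eq_mul] at h2
      exact h2.symm
    exact (mem_cent_tor θ hθ hne ht hwC hw1).2 p (centralizer_Up θ hθ hne hx hx1 h5)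
  exact eq_inv_of_mul_eq_one_right h4

/-- the number of involutions moving `p` to a given point -/
theorem card_invol_to {p z : ov θ} (hz : z ≠ p) :
    Nat.card {s : Gz θ // orderOf s = 2 ∧ s • p = z} = Nat.card F - 1 := by
  have hex : ∃ u ∈ (⊤ : Subgroup (Gz θ)), u ∈ Up θ hθ hne p ∧ u ≠ 1 := by
    have h1 : 1 < Nat.card (Up θ hθ hne p) := by
      rw [card_Up]
      exact Nat.one_lt_pow two_ne_zero one_lt_card
    have := (Finite.one_lt_card_iff_nontrivial).mp h1
    obtain ⟨u, hu⟩ := exists_ne (1 : Up θ hθ hne p)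
    exact ⟨u, trivial, u.2, fun h => hu (Subtype.ext h)⟩
  have htr := (pretransitive θ hθ)
  obtain ⟨g, hg⟩ := MulAction.exists_smul_eq (Gz θ) p z
  obtain ⟨h1, h2, -⟩ := SuzukiStr.count θ hθ hne (M := ⊤) hex ⟨g, trivial, hg⟩ hz
  have e1 : Nat.card {s : Gz θ // s ∈ (⊤ : Subgroup (Gz θ)) ∧ orderOf s = 2 ∧ s • p = z} =
      Nat.card {s : Gz θ // orderOf s = 2 ∧ s • p = z} :=
    Nat.card_congr (Equiv.subtypeEquivRight (fun s => by simp))
  have e2 : Nat.card {x : Gz θ // x ∈ (⊤ : Subgroup (Gz θ)) ∧ x • p = p ∧ x • z = z} =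
      Nat.card (Tp θ p z) :=
    Nat.card_congr (Equiv.subtypeEquivRight (fun s => by simp [mem_Tp]))
  rw [← e1, h2, ← h1, e2, card_Tp θ hθ hne hz.symm]

theorem card_ne_point (p : ov θ) : Nat.card {z : ov θ // z ≠ p} = Nat.card F ^ 2 := by
  have h := ZassKernel.card_ne p
  rw [card_ov] at h
  omega

theorem card_invol_move (p : ov θ) :
    Nat.card {s : Gz θ // orderOf s = 2 ∧ s • p ≠ p} = Nat.card F ^ 2 * (Nat.card F - 1) := by
  have e : (Σ z : {z : ov θ // z ≠ p}, {s : Gz θ // orderOf s = 2 ∧ s • p = z}) ≃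
      {s : Gz θ // orderOf s = 2 ∧ s • p ≠ p} :=
    { toFun := fun s => ⟨s.2.1, s.2.2.1, fun h => s.1.2 (s.2.2.2.symm.trans h)⟩
      invFun := fun s => ⟨⟨s.1 • p, s.2.2⟩, ⟨s.1, s.2.1, rfl⟩⟩
      left_inv := by
        rintro ⟨⟨z, hz⟩, ⟨s, hs, h⟩⟩
        change s • p = z at h
        subst h
        rfl
      right_inv := fun s => rfl }
  rw [← Nat.card_congr e, card_sigma_const _ (fun z => card_invol_to θ hθ hne z.2),
    card_ne_point θ hθ hne, mul_comm]

section
variable {m : ℕ} (hm : 1 ≤ m) (hF : Nat.card F = 2 ^ (2 * m + 1))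
include hm hF

/-- toral elements whose torus is normalised by an involution -/
theorem card_D {x : Gz θ} {p : ov θ} (hx : x ∈ Up θ hθ hne p) (hx1 : x ≠ 1) (hx2 : x ^ 2 = 1) :
    Nat.card {t : Gz θ // IsTor θ hθ hne t ∧
      x ∈ Subgroup.normalizer (Subgroup.centralizer {t} : Set (Gz θ))} =
      Nat.card F ^ 2 * (Nat.card F - 1) := by
  have hxi : x⁻¹ = x := by
    rw [inv_eq_iff_mul_eq_one, ← sq]; exact hx2
  have hxx : x * x = 1 := by rw [← sq]; exact hx2
  have hxp := Up_fix θ hθ hne hx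
  rw [← card_invol_move θ hθ hne p]
  have hto : ∀ t : Gz θ, IsTor θ hθ hne t →
      x ∈ Subgroup.normalizer (Subgroup.centralizer {t} : Set (Gz θ)) →
      orderOf (x * t) = 2 ∧ (x * t) • p ≠ p := by
    intro t ht htx
    have h1 := invert θ hθ hne hx hx1 hx2 ht htx (self_mem θ hθ hne t)
    constructor
    · apply orderOf_eq_prime
      · rw [sq]
        calc x * t * (x * t) = x * t * x⁻¹ * t := by rw [hxi]; group
          _ = 1 := by rw [h1, inv_mul_cancel]
      · intro h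
        have h2 : t = x⁻¹ := eq_inv_of_mul_eq_one_right h
        rw [hxi] at h2
        exact ht.2 p (h2 ▸ hx)
    · intro h
      have h2 : t • p = p := by
        rw [mul_smul] at h
        have h3 : x • x • t • p = x • p := congrArg (fun z => x • z) h
        rw [← mul_smul, hxx, one_smul, hxp] at h3
        exact h3
      exact ht.1 (inf_stab θ hθ hne hx hx1 ht htx (self_mem θ hθ hne t) h2)
  have hfrom : ∀ y : Gz θ, orderOf y = 2 → y • p ≠ p → IsTor θ hθ hne (x * y) ∧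
      x ∈ Subgroup.normalizer (Subgroup.centralizer {x * y} : Set (Gz θ)) := by
    intro y hy hyp
    have hyy : y * y = 1 := by rw [← sq, ← hy, pow_orderOf_eq_one]
    have hyi : y⁻¹ = y := inv_eq_of_mul_eq_one_right hyy
    have hinv : x * (x * y) * x⁻¹ = (x * y)⁻¹ := by
      rw [mul_inv_rev, hyi, hxi, ← mul_assoc x x y, hxx, one_mul]
    have h1 : x * y ≠ 1 := by
      intro h
      have h2 : y = x⁻¹ := eq_inv_of_mul_eq_one_right h
      rw [hxi] at h2
      rw [h2] at hyp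
      exact hyp hxp
    have hT : IsTor θ hθ hne (x * y) := by
      refine ⟨h1, fun p' hp' => ?_⟩
      have h2 : (x * y)⁻¹ ∈ Up θ hθ hne p' := inv_mem hp'
      have h3 := Up_conj θ hθ hne hp' x
      rw [hinv] at h3
      have h4 : x • p' = p' :=
        Up_unique θ hθ hne h2 (inv_ne_one.mpr h1) (Up_fix θ hθ hne h3)
      have h5 : p' = p := Up_unique θ hθ hne hx hx1 h4
      have h6 : (x * y) • p' = p' := Up_fix θ hθ hne hp'
      rw [h5, mul_smul] at h6
      apply hyp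
      have h7 : x • x • y • p = x • p := congrArg (fun z => x • z) h6
      rw [← mul_smul, hxx, one_smul, hxp] at h7
      exact h7
    refine ⟨hT, ?_⟩
    apply IsTor.ti θ hθ hne hT (self_mem θ hθ hne _) h1
    rw [hinv]
    exact inv_mem (self_mem θ hθ hne _)
  apply Nat.card_eq_of_bijective (fun t => ⟨x * t.1, hto t.1 t.2.1 t.2.2⟩)
  constructor
  · intro t t' h
    have h1 : x * t.1 = x * t'.1 := congrArg Subtype.val h
    exact Subtype.ext (mul_left_cancel h1)
  · rintro ⟨y, hy, hyp⟩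
    refine ⟨⟨x * y, hfrom y hy hyp⟩, Subtype.ext ?_⟩
    show x * (x * y) = y
    rw [← mul_assoc, hxx, one_mul]

/-- those which fix points -/
theorem card_D_fix {x : Gz θ} {p : ov θ} (hx : x ∈ Up θ hθ hne p) (hx1 : x ≠ 1)
    (hx2 : x ^ 2 = 1) :
    2 * Nat.card {t : {t : Gz θ // IsTor θ hθ hne t ∧
      x ∈ Subgroup.normalizer (Subgroup.centralizer {t} : Set (Gz θ))} // ¬ NoFix θ t.1} =
      Nat.card F ^ 2 * (Nat.card F - 2) := by
  have hxx : x * x = 1 := by rw [← sq]; exact hx2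
  have hxp := Up_fix θ hθ hne hx
  have hmv : ∀ z : ov θ, z ≠ p → z ≠ x • z := fun z hz h =>
    hz (Up_unique θ hθ hne hx hx1 h.symm)
  have hxxz : ∀ z : ov θ, x • x • z = z := fun z => by rw [← mul_smul, hxx, one_smul]
  -- fixed points of a toral element which is not NoFix
  have hfx : ∀ t : Gz θ, IsTor θ hθ hne t → ¬ NoFix θ t →
      Nat.card {z : ov θ // t • z = z} = 2 := by
    intro t ht hn
    rcases types θ hθ hne t with h1 | ⟨p', h1⟩ | ⟨p1, p2, hpp, h1⟩ | h1
    · exact absurd (Subgroup.mem_bot.mp h1) ht.1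
    · exact absurd h1 (ht.2 p')
    · rw [Nat.card_eq_two_iff]
      refine ⟨⟨p1, h1.1⟩, ⟨p2, h1.2⟩, fun h => hpp (congrArg Subtype.val h), ?_⟩
      ext ⟨z, hz⟩
      simp only [Set.mem_insert_iff, Set.mem_singleton_iff, Set.mem_univ, iff_true,
        Subtype.mk.injEq]
      by_contra hcon
      push Not at hcon
      exact ht.1 (three_points θ hθ hne hpp (fun h => hcon.2 (Subtype.ext h.symm))
        (fun h => hcon.1 (Subtype.ext h.symm)) h1.1 h1.2 hz)
    · exact absurd h1 hn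
  rw [← card_sigma_const (fun t : {t : {t : Gz θ // IsTor θ hθ hne t ∧
      x ∈ Subgroup.normalizer (Subgroup.centralizer {t} : Set (Gz θ))} // ¬ NoFix θ t.1} =>
      {z : ov θ // t.1.1 • z = z}) (fun t => hfx t.1.1 t.1.2.1 t.2)]
  have hE : ∀ z : {z : ov θ // z ≠ p},
      Nat.card {t : Gz θ // t ∈ Tp θ z.1 (x • z.1) ∧ t ≠ 1} = Nat.card F - 2 := by
    intro z
    have h1 := card_Tp θ hθ hne (hmv z.1 z.2)
    have h2 : Nat.card {t : Tp θ z.1 (x • z.1) // t ≠ 1} + 1 =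
        Nat.card (Tp θ z.1 (x • z.1)) := ZassKernel.card_ne (1 : Tp θ z.1 (x • z.1))
    have h3 : Nat.card {t : Tp θ z.1 (x • z.1) // t ≠ 1} =
        Nat.card {t : Gz θ // t ∈ Tp θ z.1 (x • z.1) ∧ t ≠ 1} :=
      Nat.card_congr
        { toFun := fun t => ⟨t.1, t.1.2, fun h => t.2 (Subtype.ext h)⟩
          invFun := fun t => ⟨⟨t.1, t.2.1⟩, fun h => t.2.2 (congrArg Subtype.val h)⟩
          left_inv := fun t => rfl
          right_inv := fun t => rfl }
    omega
  have h4 := card_sigma_const (fun z : {z : ov θ // z ≠ p} =>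
    {t : Gz θ // t ∈ Tp θ z.1 (x • z.1) ∧ t ≠ 1}) hE
  rw [card_ne_point θ hθ hne, mul_comm] at h4
  rw [← h4]
  have htor : ∀ z : {z : ov θ // z ≠ p}, ∀ t : Gz θ, t ∈ Tp θ z.1 (x • z.1) → t ≠ 1 →
      IsTor θ hθ hne t ∧ x ∈ Subgroup.normalizer (Subgroup.centralizer {t} : Set (Gz θ)) ∧
      ¬ NoFix θ t := by
    intro z t ht ht1
    refine ⟨⟨ht1, fun p' hp' => ?_⟩, ?_, fun h => h _ ht.1⟩
    · have h5 := Up_unique θ hθ hne hp' ht1 ht.1
      have h6 := Up_unique θ hθ hne hp' ht1 ht.2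
      exact hmv z.1 z.2 (h5.trans h6.symm)
    · rw [centralizer_Tp θ hθ hne (hmv z.1 z.2) ht ht1]
      exact ZassKernel.mem_normalizer_of_pair (Or.inr ⟨rfl, hxxz z.1⟩)
  have hfrom : ∀ t : Gz θ, IsTor θ hθ hne t →
      x ∈ Subgroup.normalizer (Subgroup.centralizer {t} : Set (Gz θ)) → ∀ z : ov θ, t • z = z →
      z ≠ p ∧ t ∈ Tp θ z (x • z) := by
    intro t ht htx z hz
    refine ⟨?_, hz, ?_⟩
    · rintro rfl
      exact ht.1 (inf_stab θ hθ hne hx hx1 ht htx (self_mem θ hθ hne t) hz)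
    · have h5 := invert θ hθ hne hx hx1 hx2 ht htx (self_mem θ hθ hne t)
      have h6 : t * x = x * t⁻¹ := by
        rw [← h5]
        calc t * x = (x * x) * t * x := by rw [hxx, one_mul]
          _ = x * (x * t * x⁻¹) * (x * x) := by group
          _ = x * (x * t * x⁻¹) := by rw [hxx, mul_one]
      show t • x • z = x • z
      rw [← mul_smul, h6, mul_smul]
      congr 1
      rw [inv_smul_eq_iff, hz]
  apply Nat.card_congr
  exact
    { toFun := fun s => ⟨⟨s.2.1, (hfrom s.1.1.1 s.1.1.2.1 s.1.1.2.2 s.2.1 s.2.2).1⟩,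
        ⟨s.1.1.1, (hfrom s.1.1.1 s.1.1.2.1 s.1.1.2.2 s.2.1 s.2.2).2, s.1.1.2.1.1⟩⟩
      invFun := fun s => ⟨⟨⟨s.2.1, (htor s.1 s.2.1 s.2.2.1 s.2.2.2).1,
        (htor s.1 s.2.1 s.2.2.1 s.2.2.2).2.1⟩, (htor s.1 s.2.1 s.2.2.1 s.2.2.2).2.2⟩,
        ⟨s.1.1, s.2.2.1.1⟩⟩
      left_inv := fun s => rfl
      right_inv := fun s => rfl }

end

end Cfsg.Agent.Lib.SuzukiSolv2
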