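import Cfsg.Agent.Lib.SuzukiSolv2

/-!
Suzuki groups, part 24: counting the solubilizers, elements of order 4.
-/

set_option autoImplicit false
set_option linter.unusedSectionVars false
set_option linter.unusedSimpArgs false
open scoped LinearAlgebra.Projectivization Matrix Pointwise

namespace Cfsg.Agent.Lib.SuzukiSolv3

open Cfsg.Agent.Lib.SuzukiOvoid Cfsg.Agent.Lib.SuzukiGroup Cfsg.Agent.Lib.SuzukiFin
  Cfsg.Agent.Lib.SuzukiStab Cfsg.Agent.Lib.SuzukiSyl Cfsg.Agent.Lib.SuzukiPts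
  Cfsg.Agent.Lib.SuzukiTor Cfsg.Agent.Lib.SuzukiNoFix Cfsg.Agent.Lib.TICount
  Cfsg.Agent.Lib.SuzukiCount Cfsg.Agent.Lib.SuzukiTori Cfsg.Agent.Lib.SuzukiStr
  Cfsg.Agent.Lib.SuzukiStr2 Cfsg.Agent.Lib.SuzukiStr3 Cfsg.Agent.Lib.SuzukiStr4
  Cfsg.Agent.Lib.SuzukiSolv Cfsg.Agent.Lib.SuzukiSolv2

variable {F : Type*} [Field F] [CharP F 2] (θ : F ≃+* F) (hθ : ∀ x, θ (θ x) = x ^ 2)
  (hne : ∃ x, θ x ≠ x ^ 2) [Finite F]
include hθ hne

theorem two_le_card : 2 < Nat.card F := by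
  obtain ⟨κ, hκ⟩ := exists_ne_one θ hne
  have h0 : (κ : F) ≠ 0 := κ.ne_zero
  have h1 : (κ : F) ≠ 1 := fun h => hκ (Units.ext h)
  classical
  have := Fintype.ofFinite F
  have h2 : ({0, 1, (κ : F)} : Finset F).card = 3 := by
    rw [Finset.card_eq_three]
    exact ⟨0, 1, κ, zero_ne_one, h0.symm, h1.symm, rfl⟩
  have h3 := Finset.card_le_univ ({0, 1, (κ : F)} : Finset F)
  rw [Nat.card_eq_fintype_card]
  omega

/-- square roots of `x ^ 2` in coordinates -/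
theorem sqrt_U {a b : F} (ha : a ≠ 0) (w : Gz θ) (hw : w ^ 2 = Ug θ hθ a b ^ 2) :
    ∃ b', w = Ug θ hθ a b' := by
  have hz : Ug θ hθ 0 (θ a * a) ∈ ZSub θ hθ := ⟨_, rfl⟩
  have hz1 : Ug θ hθ 0 (θ a * a) ≠ 1 := by
    intro h
    rw [← Ug_zero θ hθ] at h
    have := (Ug_inj θ hθ h).2
    rcases mul_eq_zero.mp this with h1 | h1
    · exact ha ((map_eq_zero θ).mp h1)
    · exact ha h1
  rw [Ug_sq] at hw
  have h1 : w * Ug θ hθ 0 (θ a * a) = Ug θ hθ 0 (θ a * a) * w := by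
    rw [← hw]; group
  obtain ⟨c, d, rfl⟩ := (commute_Z_iff θ hθ hne hz hz1 w).mp h1
  rw [Ug_sq] at hw
  have h2 := (Ug_inj θ hθ hw).2
  have h3 : c = a := mulθ_inj θ hθ (by rw [mul_comm c, mul_comm a]; exact h2)
  exact ⟨d, by rw [h3]⟩

theorem sqrt_conj_inf {x w : Gz θ} (hx : x ∈ USub θ hθ) (hx2 : x ^ 2 ≠ 1) (hw : w ^ 2 = x ^ 2) :
    ∃ g : Gz θ, w = g * x * g⁻¹ ∨ w = g * x⁻¹ * g⁻¹ := by
  obtain ⟨a, b, rfl⟩ := hx
  have ha : a ≠ 0 := by
    rintro rfl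
    apply hx2
    rw [Ug_sq, mul_zero, Ug_zero]
  obtain ⟨b', rfl⟩ := sqrt_U θ hθ hne ha w hw
  -- the map c ↦ θ c * a + θ a * c
  let L : F →+ F :=
    { toFun := fun c => θ c * a + θ a * c
      map_zero' := by simp
      map_add' := fun c d => by rw [map_add]; ring }
  have hL : ∀ c, L c = θ c * a + θ a * c := fun c => rfl
  have hker : Nat.card L.ker = 2 := by
    rw [Nat.card_eq_two_iff]
    refine ⟨0, ⟨a, ?_⟩, ?_, ?_⟩
    · rw [AddMonoidHom.mem_ker, hL]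
      exact CharTwo.add_self_eq_zero _
    · intro h
      exact ha (congrArg Subtype.val h).symm
    · ext ⟨c, hc⟩
      simp only [Set.mem_insert_iff, Set.mem_singleton_iff, Set.mem_univ, iff_true]
      rw [AddMonoidHom.mem_ker, hL] at hc
      have h1 : θ (c / a) = c / a := by
        rw [map_div₀, div_eq_div_iff ((map_ne_zero θ).mpr ha) ha]
        have := CharTwo.add_eq_zero.mp hc
        rw [this, mul_comm]
      rcases fix_eq θ hθ h1 with h2 | h2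
      · left
        exact Subtype.ext ((div_eq_zero_iff.mp h2).resolve_right ha)
      · right
        exact Subtype.ext ((div_eq_one_iff_eq ha).mp h2)
  have hidx : L.range.index = 2 := by
    have h1 := L.range.card_mul_index
    have h2 := AddSubgroup.card_mul_index L.ker
    rw [hker, AddSubgroup.index_ker] at h2
    have h3 : 0 < Nat.card L.range := Nat.card_pos
    apply Nat.eq_of_mul_eq_mul_left h3
    rw [h1, ← h2, mul_comm]
  have hconj : ∀ {e f : F}, (∃ c, L c = f + e) → ∃ g : Gz θ,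
      Ug θ hθ a f = g * Ug θ hθ a e * g⁻¹ := by
    rintro e f ⟨c, hc⟩
    refine ⟨Ug θ hθ c 0, ?_⟩
    rw [Ug_conj, add_assoc, ← hL, hc]
    congr 1
    rw [add_comm f e, ← add_assoc, CharTwo.add_self_eq_zero, zero_add]
  have hnot : a * θ a ∉ L.range := by
    rintro ⟨c, hc⟩
    obtain ⟨g, hg⟩ := hconj (e := b) (f := b + a * θ a) ⟨c, by
      rw [hc, add_comm b, add_assoc, CharTwo.add_self_eq_zero, add_zero]⟩
    rw [← Ug_inv] at hg
    apply hx2
    have hmem : Ug θ hθ a b ∈ Up θ hθ hne (inf θ) := by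
      rw [mem_Up_iff_conj θ hθ hne (one_smul _ _)]
      simpa using Ug_mem θ hθ a b
    exact SuzukiMax.real_two θ hθ hne hmem (isConj_iff.mpr ⟨g, hg.symm⟩)
  by_cases h : b' + b ∈ L.range
  · obtain ⟨g, hg⟩ := hconj (e := b) (f := b') h
    exact ⟨g, Or.inl hg⟩
  · have h1 : (b' + b) + a * θ a ∈ L.range :=
      (AddSubgroup.add_mem_iff_of_index_two hidx).mpr
        ⟨fun h2 => absurd h2 h, fun h2 => absurd h2 hnot⟩
    obtain ⟨g, hg⟩ := hconj (e := b + a * θ a) (f := b') (by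
      rw [← add_assoc]; exact h1)
    rw [← Ug_inv] at hg
    exact ⟨g, Or.inr hg⟩

theorem card_sqrt_inf {x : Gz θ} (hx : x ∈ USub θ hθ) (hx2 : x ^ 2 ≠ 1) :
    Nat.card {w : Gz θ // w ^ 2 = x ^ 2} = Nat.card F := by
  obtain ⟨a, b, rfl⟩ := hx
  have ha : a ≠ 0 := by
    rintro rfl
    apply hx2
    rw [Ug_sq, mul_zero, Ug_zero]
  symm
  apply Nat.card_eq_of_bijective (fun b' : F => (⟨Ug θ hθ a b', by rw [Ug_sq, Ug_sq]⟩ :
    {w : Gz θ // w ^ 2 = Ug θ hθ a b ^ 2}))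
  constructor
  · intro c d h
    have h1 : Ug θ hθ a c = Ug θ hθ a d := congrArg Subtype.val h
    exact (Ug_inj θ hθ h1).2
  · rintro ⟨w, hw⟩
    obtain ⟨b', rfl⟩ := sqrt_U θ hθ hne ha w hw
    exact ⟨b', rfl⟩

theorem sqrt_conj {x w : Gz θ} {p : ov θ} (hx : x ∈ Up θ hθ hne p) (hx2 : x ^ 2 ≠ 1)
    (hw : w ^ 2 = x ^ 2) : ∃ g : Gz θ, w = g * x * g⁻¹ ∨ w = g * x⁻¹ * g⁻¹ := by
  obtain ⟨k, hk⟩ := exists_to θ hθ p
  rw [mem_Up_iff_conj θ hθ hne hk] at hx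
  have e1 : ∀ y : Gz θ, (k⁻¹ * y * k) ^ 2 = k⁻¹ * y ^ 2 * k := by
    intro y
    rw [sq, sq]; group
  obtain ⟨g, hg⟩ := sqrt_conj_inf θ hθ hne (x := k⁻¹ * x * k) (w := k⁻¹ * w * k) hx
    (by
      rw [e1]
      intro h
      apply hx2
      have : x ^ 2 = k * (k⁻¹ * x ^ 2 * k) * k⁻¹ := by group
      rw [this, h]; group)
    (by rw [e1, e1, hw])
  refine ⟨k * g * k⁻¹, ?_⟩
  rcases hg with hg | hg
  · left
    have : w = k * (k⁻¹ * w * k) * k⁻¹ := by group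
    rw [this, hg]; group
  · right
    have : w = k * (k⁻¹ * w * k) * k⁻¹ := by group
    rw [this, hg]; group

theorem card_sqrt {x : Gz θ} {p : ov θ} (hx : x ∈ Up θ hθ hne p) (hx2 : x ^ 2 ≠ 1) :
    Nat.card {w : Gz θ // w ^ 2 = x ^ 2} = Nat.card F := by
  obtain ⟨k, hk⟩ := exists_to θ hθ p
  rw [mem_Up_iff_conj θ hθ hne hk] at hx
  have e1 : ∀ y : Gz θ, (k⁻¹ * y * k) ^ 2 = k⁻¹ * y ^ 2 * k := by
    intro y
    rw [sq, sq]; group
  have h1 := card_sqrt_inf θ hθ hne (x := k⁻¹ * x * k) hx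
    (by
      rw [e1]
      intro h
      apply hx2
      have : x ^ 2 = k * (k⁻¹ * x ^ 2 * k) * k⁻¹ := by group
      rw [this, h]; group)
  rw [← h1]
  refine Nat.card_congr ((MulAut.conj k⁻¹ : MulAut (Gz θ)).toEquiv.subtypeEquiv (fun w => ?_))
  show w ^ 2 = x ^ 2 ↔ (k⁻¹ * w * k⁻¹⁻¹) ^ 2 = (k⁻¹ * x * k) ^ 2
  rw [inv_inv, e1, e1]
  constructor
  · intro h; rw [h]
  · intro h
    exact mul_left_cancel (mul_right_cancel h)

section
variable {m : ℕ} (hm : 1 ≤ m) (hF : Nat.card F = 2 ^ (2 * m + 1))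
include hm hF

theorem card_E {x t : Gz θ} {p : ov θ} (hx : x ∈ Up θ hθ hne p) (hx1 : x ≠ 1)
    (ht : IsTor θ hθ hne t)
    (hn : x ∈ Subgroup.normalizer (Subgroup.centralizer {t} : Set (Gz θ))) :
    (NoFix θ t → Nat.card ↥(Subgroup.normalizer (Subgroup.centralizer {t} : Set (Gz θ)) ⊓
          MulAction.stabilizer (Gz θ) p) = 4) ∧
    (¬ NoFix θ t → Nat.card ↥(Subgroup.normalizer (Subgroup.centralizer {t} : Set (Gz θ)) ⊓
          MulAction.stabilizer (Gz θ) p) = 2) := by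
  have h1 := (complement θ hθ hne hm hF hx hx1 ht hn).1
  rcases tor_kinds θ hθ hne hm hF ht with ⟨h2, h3⟩ | ⟨p1, p2, -, h2, -, h3⟩
  · rw [h3] at h1
    exact ⟨fun _ => (Nat.eq_of_mul_eq_mul_left Nat.card_pos h1).symm, fun h => absurd h2 h⟩
  · rw [h3] at h1
    exact ⟨fun h => absurd h2.1 (h p1), fun _ => (Nat.eq_of_mul_eq_mul_left Nat.card_pos h1).symm⟩

theorem four_noFix {x t : Gz θ} {p : ov θ} (hx : x ∈ Up θ hθ hne p) (hx2 : x ^ 2 ≠ 1)
    (ht : IsTor θ hθ hne t)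
    (hn : x ∈ Subgroup.normalizer (Subgroup.centralizer {t} : Set (Gz θ))) : NoFix θ t := by
  by_contra h
  have hx1 : x ≠ 1 := by rintro rfl; exact hx2 (one_pow 2)
  have h1 := (card_E θ hθ hne hm hF hx hx1 ht hn).2 h
  have h2 : (⟨x, hn, Up_fix θ hθ hne hx⟩ :
      ↥(Subgroup.normalizer (Subgroup.centralizer {t} : Set (Gz θ)) ⊓
          MulAction.stabilizer (Gz θ) p)) ^ 2 = 1 := by
    rw [← h1]; exact pow_card_eq_one'
  exact hx2 (congrArg Subtype.val h2)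

/-- the count of `S` for involutions -/
theorem card_S_two {x : Gz θ} {p : ov θ} (hx : x ∈ Up θ hθ hne p) (hx1 : x ≠ 1)
    (hx2 : x ^ 2 = 1) :
    Nat.card {y : Gz θ // y • p ≠ p ∧ ∃ t, IsTor θ hθ hne t ∧
      x ∈ Subgroup.normalizer (Subgroup.centralizer {t} : Set (Gz θ)) ∧
      y ∈ Subgroup.normalizer (Subgroup.centralizer {t} : Set (Gz θ))} +
      2 * Nat.card F ^ 2 = 3 * Nat.card F ^ 3 := by
  rw [card_S θ hθ hne hm hF hx hx1]
  rw [card_sigma_split (fun t : {t : Gz θ // IsTor θ hθ hne t ∧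
      x ∈ Subgroup.normalizer (Subgroup.centralizer {t} : Set (Gz θ))} => NoFix θ t.1) _
    (fun t ht => (card_E θ hθ hne hm hF hx hx1 t.2.1 t.2.2).1 ht)
    (fun t ht => (card_E θ hθ hne hm hF hx hx1 t.2.1 t.2.2).2 ht)]
  have h1 := card_D θ hθ hne hm hF hx hx1 hx2
  have h2 := card_D_fix θ hθ hne hm hF hx hx1 hx2
  rw [card_split (fun t : {t : Gz θ // IsTor θ hθ hne t ∧
      x ∈ Subgroup.normalizer (Subgroup.centralizer {t} : Set (Gz θ))} => NoFix θ t.1)] at h1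
  set A := Nat.card {t : {t : Gz θ // IsTor θ hθ hne t ∧
      x ∈ Subgroup.normalizer (Subgroup.centralizer {t} : Set (Gz θ))} // NoFix θ t.1}
  set B := Nat.card {t : {t : Gz θ // IsTor θ hθ hne t ∧
      x ∈ Subgroup.normalizer (Subgroup.centralizer {t} : Set (Gz θ))} // ¬ NoFix θ t.1}
  have hq := two_le_card θ hθ hne
  obtain ⟨q, hq'⟩ : ∃ q, Nat.card F = q + 2 := ⟨Nat.card F - 2, by omega⟩
  rw [hq'] at h1 h2 ⊢
  rw [show q + 2 - 1 = q + 1 by omega] at h1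
  rw [Nat.add_sub_cancel] at h2
  nlinarith

/-- square roots of an involution normalising a torus without fixed points -/
theorem two_roots {x t : Gz θ} {p : ov θ} (hx : x ∈ Up θ hθ hne p) (hx2 : x ^ 2 ≠ 1)
    (ht : IsTor θ hθ hne t) (hf : NoFix θ t)
    (hn : x ^ 2 ∈ Subgroup.normalizer (Subgroup.centralizer {t} : Set (Gz θ))) :
    Nat.card {w : Gz θ // w ^ 2 = x ^ 2 ∧
      w ∈ Subgroup.normalizer (Subgroup.centralizer {t} : Set (Gz θ))} = 2 := by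
  classical
  set s := x ^ 2 with hs
  have hsU : s ∈ Up θ hθ hne p := pow_mem hx 2
  have hs2 : s ^ 2 = 1 := by rw [hs, ← pow_mul]; exact Up_pow4 θ hθ hne hx
  set E := Subgroup.normalizer (Subgroup.centralizer {t} : Set (Gz θ)) ⊓
          MulAction.stabilizer (Gz θ) p with hE
  have hE4 : Nat.card E = 4 := (card_E θ hθ hne hm hF hsU hx2 ht hn).1 hf
  have hEU : ∀ w ∈ E, w ∈ Up θ hθ hne p := fun w hw =>
    (complement θ hθ hne hm hF hsU hx2 ht hn).2.2 w hw.1 hw.2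
  have hinvol : ∀ w ∈ E, w ^ 2 = 1 → w ≠ 1 → w = s := by
    intro w hw hw2 hw1
    have h1 := invert θ hθ hne (hEU w hw) hw1 hw2 ht hw.1 (self_mem θ hθ hne t)
    have h2 := invert θ hθ hne hsU hx2 hs2 ht hn (self_mem θ hθ hne t)
    have h3 : w * s ∈ Subgroup.centralizer {t} := by
      rw [Subgroup.mem_centralizer_singleton_iff, ← mul_inv_eq_iff_eq_mul]
      have h4 : w * t⁻¹ * w⁻¹ = t := by
        have := congrArg (fun z => z⁻¹) h1
        simp only [mul_inv_rev, inv_inv] at this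
        rw [← mul_assoc] at this
        exact this
      calc w * s * t * (w * s)⁻¹ = w * (s * t * s⁻¹) * w⁻¹ := by
            rw [mul_inv_rev]; simp only [mul_assoc]
        _ = t := by rw [h2, h4]
    have h5 : w * s = 1 := by
      apply inf_stab θ hθ hne hsU hx2 ht hn h3
      exact (mul_mem hw.2 (Up_fix θ hθ hne hsU) : _ ∈ MulAction.stabilizer (Gz θ) p)
    have h6 : s⁻¹ = s := by rw [inv_eq_iff_mul_eq_one, ← sq]; exact hs2
    rw [← h6]
    exact eq_inv_of_mul_eq_one_left h5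
  have hsE : s ∈ E := ⟨hn, Up_fix θ hθ hne hsU⟩
  have hiff : ∀ w : Gz θ, (w ^ 2 = s ∧
      w ∈ Subgroup.normalizer (Subgroup.centralizer {t} : Set (Gz θ))) ↔
      (w ∈ E ∧ w ≠ 1 ∧ w ≠ s) := by
    intro w
    constructor
    · rintro ⟨h1, h2⟩
      have h3 : w ∈ Subgroup.centralizer {s} := by
        rw [Subgroup.mem_centralizer_singleton_iff, ← h1]; group
      refine ⟨⟨h2, Up_fix θ hθ hne (centralizer_Up θ hθ hne hsU hx2 h3)⟩, ?_, ?_⟩
      · rintro rfl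
        exact hx2 (h1.symm.trans (one_pow 2))
      · rintro rfl
        exact hx2 (h1.symm.trans hs2)
    · rintro ⟨h1, h2, h3⟩
      refine ⟨?_, h1.1⟩
      by_cases h4 : w ^ 2 = 1
      · exact absurd (hinvol w h1 h4 h2) h3
      · apply hinvol _ (pow_mem h1 2) _ h4
        rw [← pow_mul]
        exact Up_pow4 θ hθ hne (hEU w h1)
  rw [Nat.card_congr (Equiv.subtypeEquivRight hiff)]
  have h1 : Nat.card {w : E // w ≠ 1} + 1 = Nat.card E := ZassKernel.card_ne (1 : E)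
  have h2 : Nat.card {w : {w : E // w ≠ 1} // w ≠ ⟨⟨s, hsE⟩, fun h => hx2 (congrArg Subtype.val h)⟩}
      + 1 = Nat.card {w : E // w ≠ 1} := ZassKernel.card_ne _
  have e : {w : Gz θ // w ∈ E ∧ w ≠ 1 ∧ w ≠ s} ≃
      {w : {w : E // w ≠ 1} // w ≠ ⟨⟨s, hsE⟩, fun h => hx2 (congrArg Subtype.val h)⟩} :=
    { toFun := fun w => ⟨⟨⟨w.1, w.2.1⟩, fun h => w.2.2.1 (congrArg Subtype.val h)⟩,
        fun h => w.2.2.2 (congrArg (fun z : {w : E // w ≠ 1} => ((z : E) : Gz θ)) h)⟩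
      invFun := fun w => ⟨w.1.1, w.1.1.2, fun h => w.1.2 (Subtype.ext h),
        fun h => w.2 (Subtype.ext (Subtype.ext h))⟩
      left_inv := fun w => rfl
      right_inv := fun w => rfl }
  rw [Nat.card_congr e]
  omega

theorem card_D_conj (x g : Gz θ) :
    Nat.card {t : Gz θ // IsTor θ hθ hne t ∧
      g * x * g⁻¹ ∈ Subgroup.normalizer (Subgroup.centralizer {t} : Set (Gz θ))} =
    Nat.card {t : Gz θ // IsTor θ hθ hne t ∧
      x ∈ Subgroup.normalizer (Subgroup.centralizer {t} : Set (Gz θ))} := by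
  symm
  refine Nat.card_congr ((MulAut.conj g : MulAut (Gz θ)).toEquiv.subtypeEquiv (fun t => ?_))
  show _ ↔ IsTor θ hθ hne (g * t * g⁻¹) ∧ g * x * g⁻¹ ∈
    Subgroup.normalizer (Subgroup.centralizer {g * t * g⁻¹} : Set (Gz θ))
  have hT : ∀ (g t : Gz θ), IsTor θ hθ hne t → IsTor θ hθ hne (g * t * g⁻¹) := by
    intro g t ht
    refine ⟨conj_ne_one θ hθ hne ht.1, fun p hp => ?_⟩
    have h1 := Up_conj θ hθ hne hp g⁻¹
    have h2 : g⁻¹ * (g * t * g⁻¹) * g⁻¹⁻¹ = t := by group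
    rw [h2] at h1
    exact ht.2 _ h1
  have hC : ∀ (g t y : Gz θ), g * y * g⁻¹ ∈ Subgroup.centralizer {g * t * g⁻¹} ↔
      y ∈ Subgroup.centralizer {t} := by
    intro g t y
    rw [Subgroup.mem_centralizer_singleton_iff, Subgroup.mem_centralizer_singleton_iff]
    constructor
    · intro h
      have h1 : g * (y * t) * g⁻¹ = g * (t * y) * g⁻¹ := by
        calc g * (y * t) * g⁻¹ = g * y * g⁻¹ * (g * t * g⁻¹) := by group
          _ = g * t * g⁻¹ * (g * y * g⁻¹) := h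
          _ = g * (t * y) * g⁻¹ := by group
      exact mul_left_cancel (mul_right_cancel h1)
    · intro h
      calc g * y * g⁻¹ * (g * t * g⁻¹) = g * (y * t) * g⁻¹ := by group
        _ = g * (t * y) * g⁻¹ := by rw [h]
        _ = g * t * g⁻¹ * (g * y * g⁻¹) := by group
  constructor
  · rintro ⟨h1, h2⟩
    refine ⟨hT g t h1, ?_⟩
    apply IsTor.ti θ hθ hne (hT g t h1) (self_mem θ hθ hne _) (hT g t h1).1
    have h3 : g * x * g⁻¹ * (g * t * g⁻¹) * (g * x * g⁻¹)⁻¹ = g * (x * t * x⁻¹) * g⁻¹ := by group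
    rw [h3, hC]
    exact (Subgroup.mem_normalizer_iff.mp h2 t).mp (self_mem θ hθ hne t)
  · rintro ⟨h1, h2⟩
    have h0 : IsTor θ hθ hne t := by
      have := hT g⁻¹ _ h1
      have h3 : g⁻¹ * (g * t * g⁻¹) * g⁻¹⁻¹ = t := by group
      rwa [h3] at this
    refine ⟨h0, ?_⟩
    apply IsTor.ti θ hθ hne h0 (self_mem θ hθ hne _) h0.1
    rw [← hC g]
    have h3 : g * (x * t * x⁻¹) * g⁻¹ = g * x * g⁻¹ * (g * t * g⁻¹) * (g * x * g⁻¹)⁻¹ := by group
    rw [h3]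
    exact (Subgroup.mem_normalizer_iff.mp h2 _).mp (self_mem θ hθ hne _)

theorem card_D_inv (x : Gz θ) :
    Nat.card {t : Gz θ // IsTor θ hθ hne t ∧
      x⁻¹ ∈ Subgroup.normalizer (Subgroup.centralizer {t} : Set (Gz θ))} =
    Nat.card {t : Gz θ // IsTor θ hθ hne t ∧
      x ∈ Subgroup.normalizer (Subgroup.centralizer {t} : Set (Gz θ))} :=
  Nat.card_congr (Equiv.subtypeEquivRight (fun t => by rw [inv_mem_iff]))

/-- toral elements whose torus is normalised by an element of order 4 -/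
theorem card_D_four {x : Gz θ} {p : ov θ} (hx : x ∈ Up θ hθ hne p) (hx2 : x ^ 2 ≠ 1) :
    Nat.card {t : Gz θ // IsTor θ hθ hne t ∧
      x ∈ Subgroup.normalizer (Subgroup.centralizer {t} : Set (Gz θ))} = Nat.card F ^ 2 := by
  have hsU : x ^ 2 ∈ Up θ hθ hne p := pow_mem hx 2
  have hs2 : (x ^ 2) ^ 2 = 1 := by rw [← pow_mul]; exact Up_pow4 θ hθ hne hx
  have hwU : ∀ w : Gz θ, w ^ 2 = x ^ 2 → w ∈ Up θ hθ hne p := by
    intro w hw
    have h3 : w ∈ Subgroup.centralizer {x ^ 2} := by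
      rw [Subgroup.mem_centralizer_singleton_iff, ← hw]; group
    exact centralizer_Up θ hθ hne hsU hx2 h3
  have h1 := card_D θ hθ hne hm hF hsU hx2 hs2
  have h2 := card_D_fix θ hθ hne hm hF hsU hx2 hs2
  rw [card_split (fun t : {t : Gz θ // IsTor θ hθ hne t ∧
      x ^ 2 ∈ Subgroup.normalizer (Subgroup.centralizer {t} : Set (Gz θ))} => NoFix θ t.1)] at h1
  have hkey : ∀ w : Gz θ, w ^ 2 = x ^ 2 → Nat.card {t : Gz θ // IsTor θ hθ hne t ∧
      w ∈ Subgroup.normalizer (Subgroup.centralizer {t} : Set (Gz θ))} =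
      Nat.card {t : Gz θ // IsTor θ hθ hne t ∧
      x ∈ Subgroup.normalizer (Subgroup.centralizer {t} : Set (Gz θ))} := by
    intro w hw
    obtain ⟨g, hg | hg⟩ := sqrt_conj θ hθ hne hx hx2 hw
    · rw [hg]
      exact card_D_conj θ hθ hne hm hF x g
    · rw [hg]
      exact (card_D_conj θ hθ hne hm hF x⁻¹ g).trans (card_D_inv θ hθ hne hm hF x)
  have hpow : ∀ w t : Gz θ, w ^ 2 = x ^ 2 →
      w ∈ Subgroup.normalizer (Subgroup.centralizer {t} : Set (Gz θ)) →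
      x ^ 2 ∈ Subgroup.normalizer (Subgroup.centralizer {t} : Set (Gz θ)) := by
    intro w t h h'
    rw [← h]
    exact pow_mem h' 2
  have h3 := card_sigma_const (fun w : {w : Gz θ // w ^ 2 = x ^ 2} => {t : Gz θ //
      IsTor θ hθ hne t ∧
      w.1 ∈ Subgroup.normalizer (Subgroup.centralizer {t} : Set (Gz θ))})
      (a := Nat.card {t : Gz θ // IsTor θ hθ hne t ∧
      x ∈ Subgroup.normalizer (Subgroup.centralizer {t} : Set (Gz θ))})
      (fun w => hkey w.1 w.2)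
  rw [card_sqrt θ hθ hne hx hx2] at h3
  have h4 := card_sigma_const (fun t : {t : {t : Gz θ // IsTor θ hθ hne t ∧
      x ^ 2 ∈ Subgroup.normalizer (Subgroup.centralizer {t} : Set (Gz θ))} // NoFix θ t.1} =>
      {w : Gz θ // w ^ 2 = x ^ 2 ∧
      w ∈ Subgroup.normalizer (Subgroup.centralizer {t.1.1} : Set (Gz θ))})
      (fun t => two_roots θ hθ hne hm hF hx hx2 t.1.2.1 t.2 t.1.2.2)
  have e : (Σ w : {w : Gz θ // w ^ 2 = x ^ 2}, {t : Gz θ //
      IsTor θ hθ hne t ∧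
      w.1 ∈ Subgroup.normalizer (Subgroup.centralizer {t} : Set (Gz θ))}) ≃
      (Σ t : {t : {t : Gz θ // IsTor θ hθ hne t ∧
      x ^ 2 ∈ Subgroup.normalizer (Subgroup.centralizer {t} : Set (Gz θ))} // NoFix θ t.1},
      {w : Gz θ // w ^ 2 = x ^ 2 ∧
      w ∈ Subgroup.normalizer (Subgroup.centralizer {t.1.1} : Set (Gz θ))}) :=
    { toFun := fun s => ⟨⟨⟨s.2.1, s.2.2.1, hpow _ _ s.1.2 s.2.2.2⟩,
        four_noFix θ hθ hne hm hF (hwU _ s.1.2) (by rw [s.1.2]; exact hx2) s.2.2.1 s.2.2.2⟩,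
        ⟨s.1.1, s.1.2, s.2.2.2⟩⟩
      invFun := fun s => ⟨⟨s.2.1, s.2.2.1⟩, ⟨s.1.1.1, s.1.1.2.1, s.2.2.2⟩⟩
      left_inv := fun s => rfl
      right_inv := fun s => rfl }
  rw [Nat.card_congr e, h4] at h3
  have hq := two_le_card θ hθ hne
  obtain ⟨q, hq'⟩ : ∃ q, Nat.card F = q + 2 := ⟨Nat.card F - 2, by omega⟩
  rw [hq'] at h1 h2 h3 ⊢
  rw [show q + 2 - 1 = q + 1 by omega] at h1
  rw [Nat.add_sub_cancel] at h2
  have h5 : 0 < q + 2 := by omega
  apply Nat.eq_of_mul_eq_mul_right h5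
  rw [← h3]
  nlinarith

theorem card_S_four {x : Gz θ} {p : ov θ} (hx : x ∈ Up θ hθ hne p) (hx2 : x ^ 2 ≠ 1) :
    Nat.card {y : Gz θ // y • p ≠ p ∧ ∃ t, IsTor θ hθ hne t ∧
      x ∈ Subgroup.normalizer (Subgroup.centralizer {t} : Set (Gz θ)) ∧
      y ∈ Subgroup.normalizer (Subgroup.centralizer {t} : Set (Gz θ))} =
      4 * Nat.card F ^ 2 := by
  have hx1 : x ≠ 1 := by rintro rfl; exact hx2 (one_pow 2)
  rw [card_S θ hθ hne hm hF hx hx1]
  rw [card_sigma_const _ (fun t => (card_E θ hθ hne hm hF hx hx1 t.2.1 t.2.2).1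
    (four_noFix θ hθ hne hm hF hx hx2 t.2.1 t.2.2)), card_D_four θ hθ hne hm hF hx hx2]

end

end Cfsg.Agent.Lib.SuzukiSolv3
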