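import Cfsg.Agent.Lib.SuzukiSolv3
import Cfsg.Agent.Lib.SuzukiConj

/-!
Suzuki groups, part 25: the solubilizers when `2m+1` is prime.
-/

set_option autoImplicit false
set_option linter.unusedSectionVars false
set_option linter.unusedSimpArgs false
open scoped LinearAlgebra.Projectivization Matrix Pointwise

namespace Cfsg.Agent.Lib.SuzukiSolv4

open Cfsg.Agent.Lib.SuzukiOvoid Cfsg.Agent.Lib.SuzukiGroup Cfsg.Agent.Lib.SuzukiFin
  Cfsg.Agent.Lib.SuzukiStab Cfsg.Agent.Lib.SuzukiSyl Cfsg.Agent.Lib.SuzukiPts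
  Cfsg.Agent.Lib.SuzukiTor Cfsg.Agent.Lib.SuzukiNoFix Cfsg.Agent.Lib.TICount
  Cfsg.Agent.Lib.SuzukiCount Cfsg.Agent.Lib.SuzukiTori Cfsg.Agent.Lib.SuzukiStr
  Cfsg.Agent.Lib.SuzukiStr2 Cfsg.Agent.Lib.SuzukiStr3 Cfsg.Agent.Lib.SuzukiStr4
  Cfsg.Agent.Lib.SuzukiSolv Cfsg.Agent.Lib.SuzukiSolv2 Cfsg.Agent.Lib.SuzukiSolv3

theorem subfield_dichotomy {F : Type*} [Field F] [Finite F] {N : ℕ} (hN : N.Prime)
    (hF : Nat.card F = 2 ^ N) (K : Subfield F) (h : ∃ x ∈ K, x ≠ 0 ∧ x ≠ 1) : K = ⊤ := by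
  classical
  have := Fintype.ofFinite F
  have h1 := Module.natCard_eq_pow_finrank (K := K) (V := F)
  set d := Module.finrank K F with hd
  obtain ⟨j, hj⟩ : ∃ j, Nat.card K = 2 ^ j := by
    have hd0 : d ≠ 0 := by
      intro h
      rw [h, pow_zero] at h1
      have : 1 < Nat.card F := Finite.one_lt_card
      omega
    have h3 : Nat.card K ∣ 2 ^ N := by
      rw [← hF, h1]
      exact dvd_pow_self _ hd0
    obtain ⟨j, -, hj⟩ := (Nat.dvd_prime_pow Nat.prime_two).mp h3
    exact ⟨j, hj⟩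
  rw [hj, hF, ← pow_mul] at h1
  have h2 := Nat.pow_right_injective (le_refl 2) h1
  have h3 : j = 1 ∨ j = N := (Nat.dvd_prime hN).mp ⟨d, h2⟩
  rcases h3 with h3 | h3
  · exfalso
    obtain ⟨x, hx, hx0, hx1⟩ := h
    rw [h3, pow_one] at hj
    have h4 : Finset.card ({0, 1, ⟨x, hx⟩} : Finset K) = 3 := by
      rw [Finset.card_eq_three]
      exact ⟨0, 1, ⟨x, hx⟩, zero_ne_one, fun h => hx0 (congrArg Subtype.val h).symm,
        fun h => hx1 (congrArg Subtype.val h).symm, rfl⟩
    have := Fintype.ofFinite K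
    have h5 := Finset.card_le_univ ({0, 1, ⟨x, hx⟩} : Finset K)
    rw [Nat.card_eq_fintype_card] at hj
    omega
  · rw [← SetLike.coe_set_eq]
    apply Set.eq_of_subset_of_ncard_le (Set.subset_univ _) _ (Set.toFinite _)
    rw [← Nat.card_coe_set_eq (K : Set F)]
    rw [Set.ncard_univ, hF]
    show 2 ^ N ≤ Nat.card K
    rw [hj, h3]

variable {F : Type*} [Field F] [CharP F 2] (θ : F ≃+* F) (hθ : ∀ x, θ (θ x) = x ^ 2)
  (hne : ∃ x, θ x ≠ x ^ 2) [Finite F]
include hθ hne

theorem solvable_of_le {M M' : Subgroup (Gz θ)} (h : M ≤ M') (hs : Group.IsSolvable M') :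
    Group.IsSolvable M :=
  Group.isSolvable_of_isSolvable_injective (f := Subgroup.inclusion h)
    (Subgroup.inclusion_injective h)

section
variable {m : ℕ} (hm : 1 ≤ m) (hF : Nat.card F = 2 ^ (2 * m + 1))
include hm hF

theorem N_solvable {t : Gz θ} (ht : IsTor θ hθ hne t) :
    Group.IsSolvable (Subgroup.normalizer (Subgroup.centralizer {t} : Set (Gz θ))) := by
  set N := Subgroup.normalizer (Subgroup.centralizer {t} : Set (Gz θ)) with hN
  have hnor : ((Subgroup.centralizer {t}).subgroupOf N).Normal := Subgroup.normal_in_normalizer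
  rw [Group.isSolvable_iff_subgroup_quotient ((Subgroup.centralizer {t}).subgroupOf N)]
  constructor
  · apply Group.isSolvable_of_comm
    intro a b
    exact Subtype.ext (Subtype.ext (IsTor.comm θ hθ hne ht a.2 b.2))
  · have hP : IsPGroup 2 (N ⧸ (Subgroup.centralizer {t}).subgroupOf N) := by
      intro g
      obtain ⟨g, rfl⟩ := QuotientGroup.mk_surjective g
      refine ⟨2, ?_⟩
      rw [← QuotientGroup.mk_pow, QuotientGroup.eq_one_iff]
      exact pow_four_mem θ hθ hne hm hF ht g.2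
    have : Fact (Nat.Prime 2) := ⟨Nat.prime_two⟩
    have := hP.isNilpotent
    infer_instance

variable (hK : ∀ K : Subfield F, (∃ x ∈ K, x ≠ 0 ∧ x ≠ 1) → K = ⊤) (hTop : SzSub θ ⊤ = ⊤)
include hK hTop

theorem struct' {M : Subgroup (Gz θ)} (hM : Group.IsSolvable M) :
    (∃ p : ov θ, M ≤ MulAction.stabilizer (Gz θ) p) ∨
    (∃ c ∈ M, IsTor θ hθ hne c ∧
      M ≤ Subgroup.normalizer (Subgroup.centralizer {c} : Set (Gz θ))) := by
  rcases struct θ hθ hne M with h | h | ⟨K, k, -, h1, h2⟩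
  · exact Or.inl h
  · exact Or.inr h
  · exfalso
    rw [hK K h1, hTop] at h2
    have h3 : M = ⊤ := by
      rw [h2, ← MonoidHom.range_eq_map]
      exact MonoidHom.range_eq_top.mpr (MulAut.conj k).surjective
    rw [h3] at hM
    have := SuzukiConj.not_solvable θ hθ hne
    apply this
    exact Group.isSolvable_of_surjective (f := (⊤ : Subgroup (Gz θ)).subtype)
      (fun g => ⟨⟨g, trivial⟩, rfl⟩)

theorem two_iff {x y : Gz θ} {p : ov θ} (hx : x ∈ Up θ hθ hne p) (hx1 : x ≠ 1) :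
    Group.IsSolvable (Subgroup.closure ({x, y} : Set (Gz θ))) ↔ (y • p = p ∨
      (y • p ≠ p ∧ ∃ t, IsTor θ hθ hne t ∧
      x ∈ Subgroup.normalizer (Subgroup.centralizer {t} : Set (Gz θ)) ∧
      y ∈ Subgroup.normalizer (Subgroup.centralizer {t} : Set (Gz θ)))) := by
  have hxM : x ∈ Subgroup.closure ({x, y} : Set (Gz θ)) := Subgroup.subset_closure (Or.inl rfl)
  have hyM : y ∈ Subgroup.closure ({x, y} : Set (Gz θ)) := Subgroup.subset_closure (Or.inr rfl)
  constructor
  · intro h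
    by_cases hy : y • p = p
    · exact Or.inl hy
    · right
      refine ⟨hy, ?_⟩
      rcases struct' θ hθ hne hm hF hK hTop h with ⟨p', hp'⟩ | ⟨c, -, hT, hc⟩
      · exfalso
        have h1 := Up_unique θ hθ hne hx hx1 (hp' hxM)
        rw [h1] at hp'
        exact hy (hp' hyM)
      · exact ⟨c, hT, hc hxM, hc hyM⟩
  · rintro (h | ⟨-, t, ht, hxt, hyt⟩)
    · apply solvable_of_le θ hθ hne (M' := MulAction.stabilizer (Gz θ) p) _
        (SuzukiConj.stab_solvable θ hθ hne p)
      rw [Subgroup.closure_le]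
      rintro z (rfl | rfl)
      · exact Up_fix θ hθ hne hx
      · exact h
    · apply solvable_of_le θ hθ hne _ (N_solvable θ hθ hne hm hF ht)
      rw [Subgroup.closure_le]
      rintro z (rfl | rfl)
      · exact hxt
      · exact hyt

omit hm hF hK hTop in
theorem card_stab_p (p : ov θ) : Nat.card {y : Gz θ // y • p = p} =
    Nat.card F ^ 2 * (Nat.card F - 1) := by
  have htr := pretransitive θ hθ
  have h1 := (MulAction.stabilizer (Gz θ) p).card_mul_index
  rw [MulAction.index_stabilizer_of_transitive, card_ov, card_G θ hθ hne] at h1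
  have h2 : 0 < Nat.card F ^ 2 + 1 := Nat.succ_pos _
  have h3 : Nat.card (MulAction.stabilizer (Gz θ) p) = Nat.card F ^ 2 * (Nat.card F - 1) := by
    apply Nat.eq_of_mul_eq_mul_right h2
    rw [h1]; ring
  rw [← h3]
  rfl

theorem card_two {x : Gz θ} {p : ov θ} (hx : x ∈ Up θ hθ hne p) (hx1 : x ≠ 1) :
    Nat.card {y : Gz θ // Group.IsSolvable (Subgroup.closure ({x, y} : Set (Gz θ)))} =
      Nat.card F ^ 2 * (Nat.card F - 1) +
      Nat.card {y : Gz θ // y • p ≠ p ∧ ∃ t, IsTor θ hθ hne t ∧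
      x ∈ Subgroup.normalizer (Subgroup.centralizer {t} : Set (Gz θ)) ∧
      y ∈ Subgroup.normalizer (Subgroup.centralizer {t} : Set (Gz θ))} := by
  classical
  rw [Nat.card_congr (Equiv.subtypeEquivRight (fun y =>
    two_iff θ hθ hne hm hF hK hTop (y := y) hx hx1)), ← card_stab_p θ hθ hne p, ← Nat.card_sum]
  exact Nat.card_congr (subtypeOrEquiv _ _ (by
    rw [Pi.disjoint_iff]
    intro y
    rw [Prop.disjoint_iff]
    rintro ⟨h, h'⟩
    exact h'.1 h))

/-- involutions -/
theorem main_two {x : Gz θ} (hx : orderOf x = 2) :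
    Nat.card {y : Gz θ // Group.IsSolvable (Subgroup.closure ({x, y} : Set (Gz θ)))} =
      Nat.card F ^ 2 * (4 * Nat.card F - 3) := by
  obtain ⟨p, hp⟩ := exists_Up θ hθ hne hx
  have hx1 : x ≠ 1 := by rintro rfl; rw [orderOf_one] at hx; omega
  have hx2 : x ^ 2 = 1 := by rw [← hx, pow_orderOf_eq_one]
  rw [card_two θ hθ hne hm hF hK hTop hp hx1]
  have h1 := card_S_two θ hθ hne hm hF hp hx1 hx2
  set S := Nat.card {y : Gz θ // y • p ≠ p ∧ ∃ t, IsTor θ hθ hne t ∧
      x ∈ Subgroup.normalizer (Subgroup.centralizer {t} : Set (Gz θ)) ∧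
      y ∈ Subgroup.normalizer (Subgroup.centralizer {t} : Set (Gz θ))}
  have hq : 1 < Nat.card F := one_lt_card
  obtain ⟨q, hq'⟩ : ∃ q, Nat.card F = q + 1 := ⟨Nat.card F - 1, by omega⟩
  rw [hq'] at h1 ⊢
  rw [show q + 1 - 1 = q by omega, show 4 * (q + 1) - 3 = 4 * q + 1 by omega]
  nlinarith

/-- elements of order 4 -/
theorem main_four {x : Gz θ} (hx : orderOf x = 4) :
    Nat.card {y : Gz θ // Group.IsSolvable (Subgroup.closure ({x, y} : Set (Gz θ)))} =
      Nat.card F ^ 2 * (Nat.card F + 3) := by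
  have h1 : IsPGroup 2 (Subgroup.zpowers x) := by
    apply IsPGroup.of_card (n := 2)
    rw [Nat.card_zpowers, hx]
    norm_num
  obtain ⟨p, hp'⟩ := two_group_le θ hθ hne h1
  have hp := hp' (Subgroup.mem_zpowers x)
  have hx2 : x ^ 2 ≠ 1 := by
    intro h
    have := orderOf_dvd_of_pow_eq_one h
    rw [hx] at this
    norm_num at this
  have hx1 : x ≠ 1 := by rintro rfl; rw [orderOf_one] at hx; omega
  rw [card_two θ hθ hne hm hF hK hTop hp hx1, card_S_four θ hθ hne hm hF hp hx2]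
  have hq : 1 < Nat.card F := one_lt_card
  obtain ⟨q, hq'⟩ : ∃ q, Nat.card F = q + 1 := ⟨Nat.card F - 1, by omega⟩
  rw [hq', show q + 1 - 1 = q by omega]
  ring

/-- elements of a torus of order `q - 1` -/
theorem main_Tp {x : Gz θ} {p p' : ov θ} (hpp : p ≠ p') (hx : x ∈ Tp θ p p') (hx1 : x ≠ 1) :
    Nat.card {y : Gz θ // Group.IsSolvable (Subgroup.closure ({x, y} : Set (Gz θ)))} =
      2 * Nat.card F ^ 2 * (Nat.card F - 1) := by
  classical
  have hT : IsTor θ hθ hne x := by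
    refine ⟨hx1, fun z hz => ?_⟩
    have h5 := Up_unique θ hθ hne hz hx1 hx.1
    have h6 := Up_unique θ hθ hne hz hx1 hx.2
    exact hpp (h5.trans h6.symm)
  have hC := centralizer_Tp θ hθ hne hpp hx hx1
  have hxodd := mem_cent_odd θ hθ hne hT (self_mem θ hθ hne x)
  obtain ⟨hNc, hNm⟩ := normalizer_Tp θ hθ hne hpp
  have hiff : ∀ y : Gz θ, Group.IsSolvable (Subgroup.closure ({x, y} : Set (Gz θ))) ↔
      (y • p = p ∨ (y • p' = p' ∧ y • p ≠ p) ∨
        (y ∈ Subgroup.normalizer (Tp θ p p' : Set (Gz θ)) ∧ y ∉ Tp θ p p')) := by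
    intro y
    have hxM : x ∈ Subgroup.closure ({x, y} : Set (Gz θ)) := Subgroup.subset_closure (Or.inl rfl)
    have hyM : y ∈ Subgroup.closure ({x, y} : Set (Gz θ)) := Subgroup.subset_closure (Or.inr rfl)
    constructor
    · intro h
      rcases struct' θ hθ hne hm hF hK hTop h with ⟨z, hz⟩ | ⟨c, -, hcT, hc⟩
      · have h1 : z = p ∨ z = p' := by
          by_contra hcon
          push Not at hcon
          exact hx1 (three_points θ hθ hne hpp (Ne.symm hcon.2) (Ne.symm hcon.1) hx.1 hx.2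
            (hz hxM))
        rcases h1 with rfl | rfl
        · exact Or.inl (hz hyM)
        · by_cases h2 : y • p = p
          · exact Or.inl h2
          · exact Or.inr (Or.inl ⟨hz hyM, h2⟩)
      · have h1 := SuzukiFixity.IsTor.odd_mem θ hθ hne hcT (hc hxM) hxodd
        have h2 := IsTor.centralizer_eq θ hθ hne hcT h1 hx1
        rw [← h2, hC] at hc
        by_cases h3 : y ∈ Tp θ p p'
        · exact Or.inl h3.1
        · exact Or.inr (Or.inr ⟨hc hyM, h3⟩)
    · have hle : ∀ M : Subgroup (Gz θ), x ∈ M → y ∈ M →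
          Subgroup.closure ({x, y} : Set (Gz θ)) ≤ M := by
        intro M h1 h2
        rw [Subgroup.closure_le]
        rintro z (rfl | rfl)
        · exact h1
        · exact h2
      rintro (h | ⟨h, -⟩ | ⟨h, -⟩)
      · exact solvable_of_le θ hθ hne (hle (MulAction.stabilizer (Gz θ) p) hx.1 h)
          (SuzukiConj.stab_solvable θ hθ hne p)
      · exact solvable_of_le θ hθ hne (hle (MulAction.stabilizer (Gz θ) p') hx.2 h)
          (SuzukiConj.stab_solvable θ hθ hne p')
      · refine solvable_of_le θ hθ hne (hle _ ?_ ?_) (N_solvable θ hθ hne hm hF hT)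
        · exact Subgroup.le_normalizer (self_mem θ hθ hne x)
        · rw [hC]; exact h
  rw [Nat.card_congr (Equiv.subtypeEquivRight hiff)]
  have e1 : Nat.card {y : Gz θ // y • p = p ∨ (y • p' = p' ∧ y • p ≠ p) ∨
        (y ∈ Subgroup.normalizer (Tp θ p p' : Set (Gz θ)) ∧ y ∉ Tp θ p p')} =
      Nat.card {y : Gz θ // y • p = p} + (Nat.card {y : Gz θ // y • p' = p' ∧ y • p ≠ p} +
        Nat.card {y : Gz θ // y ∈ Subgroup.normalizer (Tp θ p p' : Set (Gz θ)) ∧
          y ∉ Tp θ p p'}) := by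
    rw [← Nat.card_sum, ← Nat.card_sum]
    refine Nat.card_congr ((subtypeOrEquiv _ _ ?_).trans (Equiv.sumCongr (Equiv.refl _)
      (subtypeOrEquiv _ _ ?_)))
    · rw [Pi.disjoint_iff]
      intro y
      rw [Prop.disjoint_iff]
      rintro ⟨h, h' | h'⟩
      · exact h'.2 h
      · rcases hNm y h'.1 with h2 | h2
        · exact h'.2 h2
        · exact hpp (h.symm.trans h2.1)
    · rw [Pi.disjoint_iff]
      intro y
      rw [Prop.disjoint_iff]
      rintro ⟨h, h'⟩
      rcases hNm y h'.1 with h2 | h2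
      · exact h'.2 h2
      · exact hpp (h2.2.symm.trans h.1)
  have e2 : Nat.card {y : Gz θ // y • p' = p'} =
      Nat.card (Tp θ p p') + Nat.card {y : Gz θ // y • p' = p' ∧ y • p ≠ p} := by
    rw [card_split (fun y : {y : Gz θ // y • p' = p'} => y.1 • p = p)]
    congr 1
    · exact Nat.card_congr
        { toFun := fun y => ⟨y.1.1, y.2, y.1.2⟩
          invFun := fun y => ⟨⟨y.1, y.2.2⟩, y.2.1⟩
          left_inv := fun y => rfl
          right_inv := fun y => rfl }
    · exact Nat.card_congr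
        { toFun := fun y => ⟨y.1.1, y.1.2, y.2⟩
          invFun := fun y => ⟨⟨y.1, y.2.1⟩, y.2.2⟩
          left_inv := fun y => rfl
          right_inv := fun y => rfl }
  have e3 : Nat.card (Subgroup.normalizer (Tp θ p p' : Set (Gz θ))) =
      Nat.card (Tp θ p p') + Nat.card {y : Gz θ //
        y ∈ Subgroup.normalizer (Tp θ p p' : Set (Gz θ)) ∧ y ∉ Tp θ p p'} := by
    rw [card_split (fun y : Subgroup.normalizer (Tp θ p p' : Set (Gz θ)) => y.1 ∈ Tp θ p p')]
    congr 1
    · exact Nat.card_congr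
        { toFun := fun y => ⟨y.1.1, y.2⟩
          invFun := fun y => ⟨⟨y.1, Subgroup.le_normalizer y.2⟩, y.2⟩
          left_inv := fun y => rfl
          right_inv := fun y => rfl }
    · exact Nat.card_congr
        { toFun := fun y => ⟨y.1.1, y.1.2, y.2⟩
          invFun := fun y => ⟨⟨y.1, y.2.1⟩, y.2.2⟩
          left_inv := fun y => rfl
          right_inv := fun y => rfl }
  rw [e1]
  rw [card_stab_p θ hθ hne] at e2 ⊢
  rw [hNc] at e3
  rw [card_Tp θ hθ hne hpp] at e2 e3
  have hq : 1 < Nat.card F := one_lt_card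
  obtain ⟨q, hq'⟩ : ∃ q, Nat.card F = q + 1 := ⟨Nat.card F - 1, by omega⟩
  rw [hq', show q + 1 - 1 = q by omega] at e2 e3 ⊢
  have e4 : 2 * (q + 1) ^ 2 * q = (q + 1) ^ 2 * q + (q + 1) ^ 2 * q := by ring
  rw [e4]
  omega

/-- elements without fixed points -/
theorem main_noFix {x : Gz θ} (hx : NoFix θ x) (hx1 : x ≠ 1) :
    Nat.card {y : Gz θ // Group.IsSolvable (Subgroup.closure ({x, y} : Set (Gz θ)))} =
      4 * Nat.card (Subgroup.centralizer {x}) := by
  have hT : IsTor θ hθ hne x := ⟨hx1, fun z hz => hx z (Up_fix θ hθ hne hz)⟩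
  have hiff : ∀ y : Gz θ, Group.IsSolvable (Subgroup.closure ({x, y} : Set (Gz θ))) ↔
      y ∈ Subgroup.normalizer (Subgroup.centralizer {x} : Set (Gz θ)) := by
    intro y
    have hxM : x ∈ Subgroup.closure ({x, y} : Set (Gz θ)) := Subgroup.subset_closure (Or.inl rfl)
    have hyM : y ∈ Subgroup.closure ({x, y} : Set (Gz θ)) := Subgroup.subset_closure (Or.inr rfl)
    constructor
    · intro h
      rcases struct' θ hθ hne hm hF hK hTop h with ⟨z, hz⟩ | ⟨c, -, hcT, hc⟩
      · exact absurd (hz hxM) (hx z)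
      · have h1 := SuzukiFixity.IsTor.odd_mem θ hθ hne hcT (hc hxM)
          (mem_cent_odd θ hθ hne hT (self_mem θ hθ hne x))
        rw [IsTor.centralizer_eq θ hθ hne hcT h1 hx1]
        exact hc hyM
    · intro h
      apply solvable_of_le θ hθ hne _ (N_solvable θ hθ hne hm hF hT)
      rw [Subgroup.closure_le]
      rintro z (rfl | rfl)
      · exact Subgroup.le_normalizer (self_mem θ hθ hne _)
      · exact h
  rw [Nat.card_congr (Equiv.subtypeEquivRight hiff), mul_comm]
  exact (SuzukiPart.noFix_card θ hθ hne hm hF hx).2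

end

end Cfsg.Agent.Lib.SuzukiSolv4
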