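import Mathlib
import Cfsg.Prelude.Def_Classical
import Cfsg.Agent.Lib.Syl64
import Cfsg.Agent.Lib.ClSymp3
import Cfsg.Agent.Lib.ClSympOrd

set_option autoImplicit false

/-!
`Syl_2(A_8) ≅ Syl_2(PSp_4(3))` (helper43).
-/

namespace Cfsg.Agent.Lib.Syl64

open Matrix

section
variable {F : Type} [Field F]

/-- matrix of natural numbers -/
def Mat (F : Type) [Field F] (a : Fin 4 → Fin 4 → Nat) : Matrix (Fin 2 ⊕ Fin 2) (Fin 2 ⊕ Fin 2) F :=
  fun i j => (a (finSumFinEquiv i) (finSumFinEquiv j) : F)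

lemma Mat_mul (a b : Fin 4 → Fin 4 → Nat) (i j : Fin 2 ⊕ Fin 2) :
    (Mat F a * Mat F b) i j = ((pr a b (finSumFinEquiv i) (finSumFinEquiv j) : ℕ) : F) := by
  rw [Matrix.mul_apply, Fintype.sum_sum_type, Fin.sum_univ_two, Fin.sum_univ_two]
  simp only [Mat, pr]
  push_cast
  have h0 : (finSumFinEquiv (Sum.inl 0 : Fin 2 ⊕ Fin 2) : Fin 4) = 0 := rfl
  have h1 : (finSumFinEquiv (Sum.inl 1 : Fin 2 ⊕ Fin 2) : Fin 4) = 1 := rfl
  have h2 : (finSumFinEquiv (Sum.inr 0 : Fin 2 ⊕ Fin 2) : Fin 4) = 2 := rfl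
  have h3 : (finSumFinEquiv (Sum.inr 1 : Fin 2 ⊕ Fin 2) : Fin 4) = 3 := rfl
  rw [h0, h1, h2, h3]
  ring

lemma Mat_form (a : Fin 4 → Fin 4 → Nat) (i j : Fin 2 ⊕ Fin 2) (h3 : (3 : F) = 0) :
    (Mat F a * J (Fin 2) F * (Mat F a)ᵀ) i j = ((fo a (finSumFinEquiv i) (finSumFinEquiv j) : ℕ) : F) := by
  have h0 : (finSumFinEquiv (Sum.inl 0 : Fin 2 ⊕ Fin 2) : Fin 4) = 0 := rfl
  have h1 : (finSumFinEquiv (Sum.inl 1 : Fin 2 ⊕ Fin 2) : Fin 4) = 1 := rfl
  have h2 : (finSumFinEquiv (Sum.inr 0 : Fin 2 ⊕ Fin 2) : Fin 4) = 2 := rfl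
  have h3' : (finSumFinEquiv (Sum.inr 1 : Fin 2 ⊕ Fin 2) : Fin 4) = 3 := rfl
  simp only [Matrix.mul_apply, Fintype.sum_sum_type, Fin.sum_univ_two, Matrix.J, Matrix.fromBlocks_apply₁₁,
    Matrix.fromBlocks_apply₁₂, Matrix.fromBlocks_apply₂₁, Matrix.fromBlocks_apply₂₂, Matrix.zero_apply,
    Matrix.neg_apply, Matrix.one_apply, Matrix.transpose_apply, Mat, fo, h0, h1, h2, h3']
  push_cast
  simp
  linear_combination (-(a (finSumFinEquiv i) 0 * a (finSumFinEquiv j) 2 + a (finSumFinEquiv i) 1 * a (finSumFinEquiv j) 3 : F)) * h3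

lemma jn_eq (i j : Fin 2 ⊕ Fin 2) (h3 : (3 : F) = 0) : ((jn (finSumFinEquiv i) (finSumFinEquiv j) : ℕ) : F) = J (Fin 2) F i j := by
  have h2 : (2 : F) = -1 := by linear_combination h3
  rcases i with i | i <;> rcases j with j | j <;> fin_cases i <;> fin_cases j <;>
    simp [jn, Matrix.J, Matrix.one_apply, finSumFinEquiv, h2]

lemma cast_zero (h3 : (3 : F) = 0) {n : ℕ} (h : n % 3 = 0) : (n : F) = 0 := by
  obtain ⟨k, rfl⟩ := Nat.dvd_of_mod_eq_zero h
  push_cast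
  rw [h3, zero_mul]

lemma mem_symp (h3 : (3 : F) = 0) (a : Fin 4 → Fin 4 → Nat) (h : ∀ i j, (fo a i j + 2 * jn i j) % 3 = 0) :
    Mat F a ∈ symplecticGroup (Fin 2) F := by
  rw [SymplecticGroup.mem_iff]
  ext i j
  rw [Mat_form a i j h3, ← jn_eq i j h3]
  have := cast_zero h3 (h (finSumFinEquiv i) (finSumFinEquiv j))
  push_cast at this
  linear_combination this - (jn (finSumFinEquiv i) (finSumFinEquiv j) : F) * h3

/-- the elements -/
def E (h3 : (3 : F) = 0) (x : Fin 64) : symplecticGroup (Fin 2) F := ⟨Mat F (me x), mem_symp h3 _ (me_form x)⟩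
def Gn (h3 : (3 : F) = 0) (x : Fin 3) : symplecticGroup (Fin 2) F := ⟨Mat F (ge x), mem_symp h3 _ (ge_form x)⟩
def Tn (h3 : (3 : F) = 0) (x : Fin 5) : symplecticGroup (Fin 2) F := ⟨Mat F (te x), mem_symp h3 _ (te_form x)⟩

lemma neg_one_mem : (-1 : Matrix (Fin 2 ⊕ Fin 2) (Fin 2 ⊕ Fin 2) F) ∈ symplecticGroup (Fin 2) F := by
  rw [SymplecticGroup.mem_iff]; simp

lemma negOne_center : (⟨-1, neg_one_mem⟩ : symplecticGroup (Fin 2) F) ∈ Subgroup.center (symplecticGroup (Fin 2) F) := by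
  rw [Subgroup.mem_center_iff]
  intro g
  apply Subtype.ext
  show g.1 * (-1 : Matrix (Fin 2 ⊕ Fin 2) (Fin 2 ⊕ Fin 2) F) = (-1 : Matrix (Fin 2 ⊕ Fin 2) (Fin 2 ⊕ Fin 2) F) * g.1
  rw [mul_neg, neg_mul, mul_one, one_mul]

lemma step (h3 : (3 : F) = 0) (x : Fin 64) (k : Fin 3) :
    (QuotientGroup.mk (E h3 (sg x k)) : Cfsg.PSp 2 F) = QuotientGroup.mk (E h3 x) * QuotientGroup.mk (Gn h3 k) := by
  rw [← QuotientGroup.mk_mul]
  rcases me_step x k with h | h
  · congr 1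
    apply Subtype.ext
    show Mat F (me (sg x k)) = Mat F (me x) * Mat F (ge k)
    ext i j
    rw [Mat_mul]
    have := cast_zero h3 (h (finSumFinEquiv i) (finSumFinEquiv j))
    push_cast at this
    unfold Mat
    linear_combination (me (sg x k) (finSumFinEquiv i) (finSumFinEquiv j) : F) * h3 - this
  · have h1 : E h3 x * Gn h3 k = E h3 (sg x k) * ⟨-1, neg_one_mem⟩ := by
      apply Subtype.ext
      show Mat F (me x) * Mat F (ge k) = Mat F (me (sg x k)) * (-1)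
      ext i j
      rw [Mat_mul, mul_neg, mul_one, Matrix.neg_apply]
      have := cast_zero h3 (h (finSumFinEquiv i) (finSumFinEquiv j))
      push_cast at this
      unfold Mat
      linear_combination this
    rw [h1]
    symm
    rw [QuotientGroup.eq]
    have : (E h3 (sg x k) * ⟨-1, neg_one_mem⟩)⁻¹ * E h3 (sg x k) = (⟨-1, neg_one_mem⟩ : symplecticGroup (Fin 2) F)⁻¹ := by
      group
    rw [this]
    exact Subgroup.inv_mem _ negOne_center

lemma inj' [CharP F 3] (h3 : (3 : F) = 0) (x : Fin 64) (hx : (QuotientGroup.mk (E h3 x) : Cfsg.PSp 2 F) = 1) : x = 0 := by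
  by_contra hne
  obtain ⟨k, i, j, hk⟩ := me_ne x hne
  rw [QuotientGroup.eq_one_iff, Subgroup.mem_center_iff] at hx
  have h1 := congrArg Subtype.val (hx (Tn h3 k))
  have h2 : Mat F (te k) * Mat F (me x) = Mat F (me x) * Mat F (te k) := h1
  have h4 := congrFun (congrFun h2 (finSumFinEquiv.symm i)) (finSumFinEquiv.symm j)
  rw [Mat_mul, Mat_mul, Equiv.apply_symm_apply, Equiv.apply_symm_apply] at h4
  apply hk
  have h5 : ((pr (me x) (te k) i j + 2 * pr (te k) (me x) i j : ℕ) : F) = 0 := by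
    push_cast
    linear_combination -h4 + (pr (te k) (me x) i j : F) * h3
  rw [CharP.cast_eq_zero_iff F 3] at h5
  exact Nat.mod_eq_zero_of_dvd h5

lemma zero_one (h3 : (3 : F) = 0) : (QuotientGroup.mk (E h3 0) : Cfsg.PSp 2 F) = 1 := by
  have : E h3 0 = 1 := by
    apply Subtype.ext
    show Mat F (me 0) = 1
    ext i j
    unfold Mat
    rw [me_zero, Matrix.one_apply]
    simp
  rw [this]; rfl

/-- permutations -/
def ep (x : Fin 64) : Equiv.Perm (Fin 8) := ⟨pm x, pmi x, pmi_pm x, pm_pmi x⟩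
def gp (x : Fin 3) : Equiv.Perm (Fin 8) := ⟨gm x, gmi x, gmi_gm x, gm_gmi x⟩

lemma gp_sign : ∀ k : Fin 3, Equiv.Perm.sign (gp k) = 1 := by decide +kernel

lemma fact_two {a m : ℕ} (hm : ¬ 2 ∣ m) (hm0 : m ≠ 0) : (2 ^ a * m).factorization 2 = a := by
  rw [Nat.factorization_mul (by positivity) hm0, Nat.Prime.factorization_pow Nat.prime_two]
  simp [Nat.factorization_eq_zero_of_not_dvd hm]

theorem sylow_A8_PSp (F : Type) [Field F] [Fintype F] (hF : Fintype.card F = 3)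
    (P : Sylow 2 ↥(alternatingGroup (Fin 8))) (Q : Sylow 2 (Cfsg.PSp 2 F)) :
    Nonempty (↥(P : Subgroup ↥(alternatingGroup (Fin 8))) ≃* ↥(Q : Subgroup (Cfsg.PSp 2 F))) := by
  have : Fact (Nat.Prime 3) := ⟨by norm_num⟩
  have hchar : CharP F 3 := charP_of_card_eq_prime hF
  have h3 : (3 : F) = 0 := by
    have := CharP.cast_eq_zero F 3
    exact_mod_cast this
  obtain ⟨⟨e⟩, hc⟩ := CayIso.cay_iso sg gp (fun k => (QuotientGroup.mk (Gn h3 k) : Cfsg.PSp 2 F)) ep
    (fun x => (QuotientGroup.mk (E h3 x) : Cfsg.PSp 2 F))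
    (by ext i; simp [ep, pm_zero]) (zero_one h3)
    (by intro x k; ext i; exact congrArg Fin.val (pm_step x k i)) (step h3) par
    (by
      intro x y hxy
      apply pm_inj
      intro i
      exact congrArg (fun f : Equiv.Perm (Fin 8) => f i) hxy)
    (inj' h3)
  -- A8
  have hA : Nat.card (alternatingGroup (Fin 8)) = 2 ^ 6 * 315 := by
    rw [nat_card_alternatingGroup]
    simp [Nat.factorial]
  have hle : Subgroup.closure (Set.range gp) ≤ alternatingGroup (Fin 8) := by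
    rw [Subgroup.closure_le]
    rintro _ ⟨k, rfl⟩
    exact gp_sign k
  have e1 : (Subgroup.closure (Set.range gp)).subgroupOf (alternatingGroup (Fin 8)) ≃* Subgroup.closure (Set.range gp) :=
    Subgroup.subgroupOfEquivOfLe hle
  obtain ⟨f1⟩ := CayIso.sylow_of_card (p := 2) ((Subgroup.closure (Set.range gp)).subgroupOf (alternatingGroup (Fin 8)))
    (by rw [Nat.card_congr e1.toEquiv, hc, hA, fact_two (by norm_num) (by norm_num)]; norm_num) P
  -- PSp
  have hS := Cfsg.Agent.Lib.ClSympOrd.card_symplectic (F := F) 2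
  have hcen := Cfsg.Agent.Lib.ClSymp3.card_center (F := F) rfl 2 (by omega)
  have hq := Subgroup.card_eq_card_quotient_mul_card_subgroup (Subgroup.center (Matrix.symplecticGroup (Fin 2) F))
  rw [hS, hcen, hF] at hq
  have hP : Nat.card (Cfsg.PSp 2 F) = 2 ^ 6 * 405 := by
    norm_num [Finset.prod_range_succ] at hq
    show Nat.card (Matrix.symplecticGroup (Fin 2) F ⧸ Subgroup.center (Matrix.symplecticGroup (Fin 2) F)) = _
    omega
  have : Finite (Cfsg.PSp 2 F) := Nat.finite_of_card_ne_zero (by rw [hP]; norm_num)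
  obtain ⟨f2⟩ := CayIso.sylow_of_card (p := 2) (Subgroup.closure (Set.range (fun k => (QuotientGroup.mk (Gn h3 k) : Cfsg.PSp 2 F))))
    (by rw [← Nat.card_congr e.toEquiv, hc, hP, fact_two (by norm_num) (by norm_num)]; norm_num) Q
  exact ⟨f1.symm.trans (e1.trans (e.trans f2))⟩

end

end Cfsg.Agent.Lib.Syl64
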