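import Mathlib
import Cfsg.Prelude.Def_Classical
import Cfsg.Agent.Lib.CayIso
import Cfsg.Agent.Lib.Syl64b
import Cfsg.Agent.Lib.ClOrthOrd2

set_option autoImplicit false

/-!
`Syl_2(S_8) ≅ Syl_2(O_6^-(2))` (helper43).
-/

namespace Cfsg.Agent.Lib.Syl128

open Equiv

variable {K : Type} [Field K]

def q4 (v : Fin 4 → K) : K := v 0 ^ 2 + v 1 ^ 2 + v 2 ^ 2 + v 3 ^ 2 + v 0 * v 1 + v 0 * v 2 + v 0 * v 3 + v 1 * v 2 +
  v 1 * v 3 + v 2 * v 3

def bl (v w : Fin 4 → K) : K := q4 (v + w) - q4 v - q4 w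

lemma bl_add (v v' w : Fin 4 → K) : bl (v + v') w = bl v w + bl v' w := by
  simp only [bl, q4, Pi.add_apply]; ring

lemma bl_smul (c : K) (v w : Fin 4 → K) : bl (c • v) w = c * bl v w := by
  simp only [bl, q4, Pi.add_apply, Pi.smul_apply, smul_eq_mul]; ring

lemma bl_comm (v w : Fin 4 → K) : bl v w = bl w v := by
  simp only [bl, q4, Pi.add_apply]; ring

lemma bl_self (v : Fin 4 → K) (h2 : (2 : K) = 0) : bl v v = 0 := by
  simp only [bl, q4, Pi.add_apply]
  linear_combination (v 0 ^ 2 + v 1 ^ 2 + v 2 ^ 2 + v 3 ^ 2 + v 0 * v 1 + v 0 * v 2 + v 0 * v 3 + v 1 * v 2 +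
    v 1 * v 3 + v 2 * v 3) * h2

lemma q4_add (v w : Fin 4 → K) : q4 (v + w) = q4 v + q4 w + bl v w := by
  simp only [bl]; ring

lemma q4_smul (c : K) (v : Fin 4 → K) : q4 (c • v) = c ^ 2 * q4 v := by
  simp only [q4, Pi.smul_apply, smul_eq_mul]; ring

lemma q4_perm (π : Perm (Fin 4)) : ∀ v : Fin 4 → K, q4 (v ∘ π) = q4 v := by
  induction π using Equiv.Perm.swap_induction_on with
  | one => intro v; rfl
  | swap_mul f x y hxy ih =>
    intro v
    have h1 : v ∘ (swap x y * f : Perm (Fin 4)) = (v ∘ swap x y) ∘ f := rfl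
    rw [h1, ih]
    fin_cases x <;> fin_cases y <;> simp at hxy <;>
      simp [q4, Function.comp, Equiv.swap_apply_def] <;> ring

lemma bl_perm (π : Perm (Fin 4)) (v w : Fin 4 → K) : bl (v ∘ π) (w ∘ π) = bl v w := by
  have h1 : (v ∘ π) + (w ∘ π) = (v + w) ∘ π := rfl
  unfold bl
  rw [h1, q4_perm, q4_perm, q4_perm]

abbrev V (K : Type) := (Fin 4 → K) × K × K

/-- Siegel transformation -/
def tr (y : Fin 4 → K) : V K →ₗ[K] V K where
  toFun x := (x.1 + x.2.2 • y, x.2.1 + x.2.2 * q4 y + bl x.1 y, x.2.2)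
  map_add' a b := by
    ext
    · simp; ring
    · simp [bl_add]; ring
    · simp
  map_smul' c a := by
    ext
    · simp; ring
    · simp [bl_smul]; ring
    · simp

lemma tr_apply (y : Fin 4 → K) (x : V K) : tr y x = (x.1 + x.2.2 • y, x.2.1 + x.2.2 * q4 y + bl x.1 y, x.2.2) := rfl

lemma tr_tr (y y' : Fin 4 → K) (x : V K) : tr y (tr y' x) = tr (y + y') x := by
  simp only [tr_apply]
  ext
  · simp; ring
  · simp only [bl_add, bl_smul, q4_add]
    rw [bl_comm y' y]
    have h1 : bl x.1 (y + y') = bl x.1 y + bl x.1 y' := by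
      rw [bl_comm, bl_add, bl_comm y, bl_comm y']
    rw [h1]; ring
  · rfl

lemma tr_invol (h2 : (2 : K) = 0) (y : Fin 4 → K) : Function.Involutive (tr y) := by
  intro x
  rw [tr_tr]
  have h1 : y + y = 0 := by
    funext i
    simp only [Pi.add_apply, Pi.zero_apply]
    linear_combination (y i) * h2
  rw [h1, tr_apply]
  ext <;> simp [q4, bl]

def q6 (x : V K) : K := x.2.1 * x.2.2 + q4 x.1

lemma q6_tr (h2 : (2 : K) = 0) (y : Fin 4 → K) (x : V K) : q6 (tr y x) = q6 x := by
  simp only [q6, tr_apply, q4_add, q4_smul]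
  have h1 : bl x.1 (x.2.2 • y) = x.2.2 * bl x.1 y := by
    rw [bl_comm, bl_smul, bl_comm]
  rw [h1]
  linear_combination (x.2.2 ^ 2 * q4 y + x.2.2 * bl x.1 y) * h2

/-- permutation of the coordinates -/
def pe (π : Perm (Fin 4)) : V K ≃ₗ[K] V K where
  toFun x := (x.1 ∘ π.symm, x.2)
  map_add' a b := rfl
  map_smul' c a := rfl
  invFun x := (x.1 ∘ π, x.2)
  left_inv x := by ext <;> simp
  right_inv x := by ext <;> simp

lemma q6_pe (π : Perm (Fin 4)) (x : V K) : q6 (pe π x) = q6 x := by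
  show x.2.1 * x.2.2 + q4 (x.1 ∘ π.symm) = _
  rw [q4_perm]; rfl

/-- homomorphisms -/
def f1 (h2 : (2 : K) = 0) : Multiplicative (Fin 4 → K) →* (V K ≃ₗ[K] V K) where
  toFun y := LinearEquiv.ofInvolutive (tr y.toAdd) (tr_invol h2 _)
  map_one' := by
    apply LinearEquiv.ext
    intro x
    show tr 0 x = x
    rw [tr_apply]
    ext <;> simp [q4, bl]
  map_mul' y y' := by
    apply LinearEquiv.ext
    intro x
    exact (tr_tr _ _ x).symm

def f2 : Perm (Fin 4) →* (V K ≃ₗ[K] V K) where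
  toFun π := pe π
  map_one' := rfl
  map_mul' _ _ := rfl

def ph (K : Type) [Field K] : Perm (Fin 4) →* MulAut (Multiplicative (Fin 4 → K)) where
  toFun π :=
    { toFun := fun y => Multiplicative.ofAdd (y.toAdd ∘ π.symm)
      invFun := fun y => Multiplicative.ofAdd (y.toAdd ∘ π)
      left_inv := fun y => by
        apply Multiplicative.toAdd.injective
        funext i; simp
      right_inv := fun y => by
        apply Multiplicative.toAdd.injective
        funext i; simp
      map_mul' := fun _ _ => rfl }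
  map_one' := rfl
  map_mul' _ _ := rfl

abbrev W (K : Type) [Field K] := Multiplicative (Fin 4 → K) ⋊[ph K] Perm (Fin 4)

lemma compat (h2 : (2 : K) = 0) (π : Perm (Fin 4)) :
    (f1 h2).comp (ph K π).toMonoidHom = (MulAut.conj (f2 (K := K) π)).toMonoidHom.comp (f1 h2) := by
  apply MonoidHom.ext
  intro y
  apply LinearEquiv.ext
  intro x
  show tr (y.toAdd ∘ π.symm) x = pe π (tr y.toAdd ((pe π).symm x))
  rw [tr_apply, tr_apply]
  show _ = ((((x.1 ∘ π) + x.2.2 • y.toAdd) ∘ π.symm, x.2.1 + x.2.2 * q4 y.toAdd + bl (x.1 ∘ π) y.toAdd, x.2.2) : V K)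
  have h3 : bl (x.1 ∘ π) y.toAdd = bl x.1 (y.toAdd ∘ π.symm) := by
    rw [← bl_perm π x.1]
    congr 1
    funext i; simp
  rw [h3, q4_perm]
  ext
  · simp
  · rfl
  · rfl

noncomputable def fV (h2 : (2 : K) = 0) : W K →* (V K ≃ₗ[K] V K) := SemidirectProduct.lift (f1 h2) f2 (compat h2)

lemma fV_apply (h2 : (2 : K) = 0) (w : W K) (x : V K) : fV h2 w x = tr w.left.toAdd (pe w.right x) := rfl

lemma fV_inj (h2 : (2 : K) = 0) : Function.Injective (fV (K := K) h2) := by
  rw [← MonoidHom.ker_eq_bot_iff, eq_bot_iff]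
  intro w hw
  have h : ∀ x, tr w.left.toAdd (pe w.right x) = x := by
    intro x
    rw [← fV_apply h2, MonoidHom.mem_ker.1 hw]; rfl
  have hl : w.left.toAdd = 0 := by
    have := h (0, 0, 1)
    rw [tr_apply] at this
    have h3 := congrArg Prod.fst this
    have h4 : (0 : Fin 4 → K) ∘ w.right.symm + (1 : K) • w.left.toAdd = 0 := h3
    rw [one_smul] at h4
    have h5 : (0 : Fin 4 → K) ∘ w.right.symm = 0 := rfl
    rwa [h5, zero_add] at h4
  have hr : w.right = 1 := by
    ext1 i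
    have := h (Pi.single (w.right i) 1, 0, 0)
    rw [tr_apply] at this
    have h3 := congrArg Prod.fst this
    have h4 : (Pi.single (w.right i) (1 : K) : Fin 4 → K) ∘ w.right.symm + (0 : K) • w.left.toAdd = Pi.single (w.right i) 1 := h3
    rw [zero_smul, add_zero] at h4
    have h5 := congrFun h4 (w.right i)
    simp only [Function.comp, symm_apply_apply, Pi.single_eq_same] at h5
    by_contra hne
    rw [Pi.single_eq_of_ne (show i ≠ w.right i from fun h => hne h.symm)] at h5
    exact zero_ne_one h5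
  rw [Subgroup.mem_bot]
  apply SemidirectProduct.ext
  · exact hl
  · exact hr

/-- the permutation representation -/
def p1 : Multiplicative (Fin 4 → K) →* Perm (Fin 4 × K) where
  toFun y :=
    { toFun := fun x => (x.1, x.2 + y.toAdd x.1)
      invFun := fun x => (x.1, x.2 - y.toAdd x.1)
      left_inv := fun x => by simp
      right_inv := fun x => by simp }
  map_one' := by ext x <;> simp
  map_mul' y y' := by
    ext x
    · rfl
    · simp; ring

def p2 : Perm (Fin 4) →* Perm (Fin 4 × K) where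
  toFun π :=
    { toFun := fun x => (π x.1, x.2)
      invFun := fun x => (π.symm x.1, x.2)
      left_inv := fun x => by simp
      right_inv := fun x => by simp }
  map_one' := rfl
  map_mul' _ _ := rfl

lemma compat' (π : Perm (Fin 4)) :
    (p1 (K := K)).comp (ph K π).toMonoidHom = (MulAut.conj (p2 (K := K) π)).toMonoidHom.comp p1 := by
  apply MonoidHom.ext
  intro y
  apply Equiv.ext
  intro x
  show (x.1, x.2 + y.toAdd (π.symm x.1)) = (π (π.symm x.1), x.2 + y.toAdd (π.symm x.1))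
  rw [apply_symm_apply]

noncomputable def fP : W K →* Perm (Fin 4 × K) := SemidirectProduct.lift p1 p2 compat'

lemma fP_inj : Function.Injective (fP (K := K)) := by
  rw [← MonoidHom.ker_eq_bot_iff, eq_bot_iff]
  intro w hw
  have h : ∀ x : Fin 4 × K, ((w.right x.1, x.2 + w.left.toAdd (w.right x.1)) : Fin 4 × K) = x := by
    intro x
    have h1 : fP w x = x := by rw [MonoidHom.mem_ker.1 hw]; rfl
    exact h1
  have hr : w.right = 1 := by
    ext1 i
    exact congrArg Prod.fst (h (i, 0))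
  have hl : w.left.toAdd = 0 := by
    funext i
    have := congrArg Prod.snd (h (i, 0))
    rw [hr] at this
    simpa using this
  rw [Subgroup.mem_bot]
  apply SemidirectProduct.ext
  · exact hl
  · exact hr

/-- identification with the coordinates of `quadFormMinus 2` -/
def Phi (h2 : (2 : K) = 0) : V K ≃ₗ[K] ((Fin 2 ⊕ Fin 2) ⊕ Fin 2 → K) where
  toFun x := Sum.elim (Sum.elim ![x.2.1, x.1 3] ![x.2.2, x.1 0 + x.1 1 + x.1 2 + x.1 3]) ![x.1 1 + x.1 2, x.1 0 + x.1 1]
  map_add' a b := by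
    funext i
    rcases i with (i | i) | i <;> fin_cases i <;> simp <;> ring
  map_smul' c a := by
    funext i
    rcases i with (i | i) | i <;> fin_cases i <;> simp <;> ring
  invFun y := (![y (.inl (.inl 1)) + y (.inl (.inr 1)) + y (.inr 0),
    y (.inl (.inl 1)) + y (.inl (.inr 1)) + y (.inr 0) + y (.inr 1),
    y (.inl (.inl 1)) + y (.inl (.inr 1)) + y (.inr 1), y (.inl (.inl 1))], y (.inl (.inl 0)), y (.inl (.inr 0)))
  left_inv x := by
    ext i
    · fin_cases i <;> simp
      · linear_combination (x.1 1 + x.1 2 + x.1 3) * h2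
      · linear_combination (x.1 0 + x.1 1 + x.1 2 + x.1 3) * h2
      · linear_combination (x.1 0 + x.1 1 + x.1 3) * h2
    · simp
    · simp
  right_inv y := by
    funext i
    rcases i with (i | i) | i <;> fin_cases i <;> simp
    · linear_combination (2 * y (.inl (.inl 1)) + y (.inl (.inr 1)) + y (.inr 0) + y (.inr 1)) * h2
    · linear_combination (y (.inl (.inl 1)) + y (.inl (.inr 1)) + y (.inr 1)) * h2
    · linear_combination (y (.inl (.inl 1)) + y (.inl (.inr 1)) + y (.inr 0)) * h2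

lemma Q_Phi (h2 : (2 : K) = 0) (x : V K) : Cfsg.quadFormMinus 2 K 1 1 (Phi h2 x) = q6 x := by
  show (∑ i : Fin 2, (![x.2.1, x.1 3] : Fin 2 → K) i * (![x.2.2, x.1 0 + x.1 1 + x.1 2 + x.1 3] : Fin 2 → K) i) +
    ((x.1 1 + x.1 2) ^ 2 + 1 * (x.1 1 + x.1 2) * (x.1 0 + x.1 1) + 1 * (x.1 0 + x.1 1) ^ 2) = _
  rw [Fin.sum_univ_two]
  simp only [q6, q4, Matrix.cons_val_zero, Matrix.cons_val_one]
  linear_combination (x.1 1 ^ 2 + x.1 1 * x.1 2 + x.1 0 * x.1 1) * h2

open Cfsg.Agent.Lib.Quad in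
/-- embedding into the isometry group -/
noncomputable def fO (h2 : (2 : K) = 0) : W K →* ↥(Cfsg.isometryGroup K ⇑(quadMinus 2 K 1 1)) :=
  (toO (quadMinus 2 K 1 1)).symm.toMonoidHom.comp
    { toFun := fun w => ⟨(Phi h2).symm.trans ((fV h2 w).trans (Phi h2)), by
        intro v
        show Cfsg.quadFormMinus 2 K 1 1 (Phi h2 (fV h2 w ((Phi h2).symm v))) = Cfsg.quadFormMinus 2 K 1 1 v
        rw [Q_Phi, fV_apply, q6_tr h2, q6_pe, ← Q_Phi h2, LinearEquiv.apply_symm_apply]⟩
      map_one' := by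
        apply Subtype.ext
        apply LinearEquiv.ext
        intro v
        show Phi h2 (fV h2 1 ((Phi h2).symm v)) = v
        rw [map_one]
        exact (Phi h2).apply_symm_apply v
      map_mul' := fun w w' => by
        apply Subtype.ext
        apply LinearEquiv.ext
        intro v
        show Phi h2 (fV h2 (w * w') ((Phi h2).symm v)) =
          Phi h2 (fV h2 w ((Phi h2).symm (Phi h2 (fV h2 w' ((Phi h2).symm v)))))
        rw [map_mul, LinearEquiv.symm_apply_apply]; rfl }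

lemma fO_inj (h2 : (2 : K) = 0) : Function.Injective (fO (K := K) h2) := by
  apply (Cfsg.Agent.Lib.Quad.toO (Cfsg.Agent.Lib.Quad.quadMinus 2 K 1 1)).symm.injective.comp
  intro w w' hww
  apply fV_inj h2
  have h1 : (Phi h2).symm.trans ((fV h2 w).trans (Phi h2)) = (Phi h2).symm.trans ((fV h2 w').trans (Phi h2)) :=
    congrArg Subtype.val hww
  apply LinearEquiv.ext
  intro x
  have h3 := LinearEquiv.congr_fun h1 (Phi h2 x)
  have h4 : Phi h2 (fV h2 w ((Phi h2).symm (Phi h2 x))) = Phi h2 (fV h2 w' ((Phi h2).symm (Phi h2 x))) := h3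
  rw [LinearEquiv.symm_apply_apply] at h4
  exact (Phi h2).injective h4

theorem sylow_S8_O (K : Type) [Field K] [Fintype K] (hK : Fintype.card K = 2) (a b : K)
    (hab : ∀ z₁ z₂ : K, z₁ ^ 2 + a * z₁ * z₂ + b * z₂ ^ 2 = 0 → z₁ = 0 ∧ z₂ = 0)
    (P' : Sylow 2 (Equiv.Perm (Fin 8))) (Q' : Sylow 2 ↥(Cfsg.isometryGroup K (Cfsg.quadFormMinus 2 K a b))) :
    Nonempty (↥(P' : Subgroup (Equiv.Perm (Fin 8))) ≃* ↥(Q' : Subgroup ↥(Cfsg.isometryGroup K (Cfsg.quadFormMinus 2 K a b)))) := by
  classical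
  have : Fact (Nat.Prime 2) := ⟨Nat.prime_two⟩
  have hchar : CharP K 2 := charP_of_card_eq_prime hK
  have h2 : (2 : K) = 0 := by
    have := CharP.cast_eq_zero K 2
    exact_mod_cast this
  have h01 : ∀ x : K, x = 0 ∨ x = 1 := by
    intro x
    by_contra h
    push Not at h
    have h3 : ({0, 1, x} : Finset K).card = 3 := by
      rw [Finset.card_insert_of_notMem, Finset.card_pair h.2.symm]
      simp [h.1.symm]
    have := Finset.card_le_univ ({0, 1, x} : Finset K)
    omega
  have hb : b = 1 := by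
    rcases h01 b with h | h
    · exact absurd (hab 0 1 (by rw [h]; ring)).2 one_ne_zero
    · exact h
  have ha : a = 1 := by
    rcases h01 a with h | h
    · exact absurd (hab 1 1 (by rw [h, hb]; linear_combination h2)).2 one_ne_zero
    · exact h
  subst hb
  subst ha
  have hN : Nat.card (Multiplicative (Fin 4 → K)) = 16 := by
    have : Nat.card (Multiplicative (Fin 4 → K)) = Nat.card (Fin 4 → K) := rfl
    rw [this, Nat.card_eq_fintype_card, Fintype.card_fun, hK]; simp
  have hW : Nat.card (W K) = 2 ^ 7 * 3 := by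
    rw [SemidirectProduct.card, hN, Nat.card_eq_fintype_card, Fintype.card_perm]
    simp [Nat.factorial]
  have : Finite (W K) := Nat.finite_of_card_ne_zero (by rw [hW]; norm_num)
  have hS : Nat.card (Perm (Fin 8)) = 2 ^ 7 * 315 := by
    rw [Nat.card_eq_fintype_card, Fintype.card_perm]
    simp [Nat.factorial]
  have hO : Nat.card (Cfsg.isometryGroup K (Cfsg.quadFormMinus 2 K 1 1)) = 2 ^ 7 * 405 := by
    have h3 := Cfsg.Agent.Lib.ClOrthOrd.card_isometryGroup (Cfsg.Agent.Lib.Quad.quadMinus 2 K 1 1)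
    rw [Cfsg.Agent.Lib.ClOrthOrd.card_O_minus hab 2, hK] at h3
    rw [show Cfsg.quadFormMinus 2 K 1 1 = ⇑(Cfsg.Agent.Lib.Quad.quadMinus 2 K 1 1) from rfl, h3]
    norm_num [Finset.prod_range_succ]
  have : Finite (Cfsg.isometryGroup K (Cfsg.quadFormMinus 2 K 1 1)) :=
    Nat.finite_of_card_ne_zero (by rw [hO]; norm_num)
  let R : Sylow 2 (W K) := default
  have e8 : Fin 4 × K ≃ Fin 8 := Fintype.equivFinOfCardEq (by simp [hK])
  obtain ⟨i1⟩ := CayIso.sylow_of_inj (p := 2) ((Equiv.permCongrHom e8).toMonoidHom.comp (fP (K := K)))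
    ((Equiv.permCongrHom e8).injective.comp fP_inj)
    (by rw [hW, hS, Syl64.fact_two (by norm_num) (by norm_num), Syl64.fact_two (by norm_num) (by norm_num)]) R P'
  obtain ⟨i2⟩ := CayIso.sylow_of_inj (p := 2) (fO (K := K) h2) (fO_inj h2)
    (by
      rw [hW, show ⇑(Cfsg.Agent.Lib.Quad.quadMinus 2 K 1 1) = Cfsg.quadFormMinus 2 K 1 1 from rfl, hO,
        Syl64.fact_two (by norm_num) (by norm_num), Syl64.fact_two (by norm_num) (by norm_num)]) R Q'
  exact ⟨i1.symm.trans i2⟩

end Cfsg.Agent.Lib.Syl128
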