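import Cfsg.Agent.Lib.Syl21
import Cfsg.Agent.Lib.Comb22

/-! Finite groups with 22 Sylow 3-subgroups: the Sylow 3-subgroups have order 3 when the conjugation action on them is
faithful. -/

set_option autoImplicit false

namespace Cfsg.Agent.Lib.Syl22

open MulAction Subgroup Cfsg.Agent.Lib.SmallSimple Cfsg.Agent.Lib.NSylMin Cfsg.Agent.Lib.Syl21

section gen

variable {G : Type*} [Group G] [Finite G] {p : ℕ} [hp : Fact p.Prime]

/-- A Sylow subgroup normalizes its subgroups of index `p`. -/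
theorem le_normalizer_of_card {P : Sylow p G} {D : Subgroup G} (hD : D ≤ P)
    (h : p * Nat.card D = Nat.card (P : Subgroup G)) : (P : Subgroup G) ≤ normalizer (D : Set G) := by
  have h1 : (D.subgroupOf (P : Subgroup G)).Normal := by
    apply normal_of_index_eq_minFac_card
    have h2 := relIndex_mul_card_of_le hD
    have h3 : D.relIndex (P : Subgroup G) = p := by
      apply Nat.eq_of_mul_eq_mul_right (Nat.card_pos (α := D))
      rw [h2, h]
    have h4 : (D.subgroupOf (P : Subgroup G)).index = p := h3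
    rw [h4]
    obtain ⟨k, hk⟩ := IsPGroup.iff_card.1 P.isPGroup'
    rw [hk]
    have hk0 : k ≠ 0 := by
      rintro rfl
      rw [hk, pow_zero] at h
      exact hp.out.one_lt.ne' (Nat.eq_one_of_mul_eq_one_right h)
    rw [hp.out.pow_minFac hk0]
  intro x hx
  rw [mem_normalizer_iff]
  have key : ∀ x ∈ (P : Subgroup G), ∀ y, y ∈ D → x * y * x⁻¹ ∈ D := by
    intro x hx y hy
    exact h1.conj_mem ⟨y, hD hy⟩ (mem_subgroupOf.2 hy) ⟨x, hx⟩
  intro y
  refine ⟨key x hx y, fun hy => ?_⟩
  have := key x⁻¹ (inv_mem hx) _ hy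
  simpa [mul_assoc] using this

/-- A `p`-subgroup fixing a Sylow subgroup under conjugation lies in it. -/
theorem le_of_fixed {P : Sylow p G} {E : Subgroup G} (hE : IsPGroup p E) (h : ∀ g ∈ E, g • P = P) :
    E ≤ P := by
  have h1 : E ⊓ normalizer ((P : Subgroup G) : Set G) = E ⊓ P := IsPGroup.inf_normalizer_sylow hE P
  have h2 : E ≤ normalizer ((P : Subgroup G) : Set G) := fun g hg =>
    Sylow.smul_eq_iff_mem_normalizer.1 (h g hg)
  rw [inf_eq_left.2 h2] at h1
  rw [h1]; exact inf_le_right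

theorem smul_self_of_mem {P : Sylow p G} {g : G} (hg : g ∈ (P : Subgroup G)) : g • P = P :=
  Sylow.smul_eq_iff_mem_normalizer.2 (le_normalizer hg)

theorem mem_smul_iff {P : Sylow p G} {g y : G} : y ∈ ((g • P : Sylow p G) : Subgroup G) ↔
    g⁻¹ * y * g ∈ (P : Subgroup G) := by
  change y ∈ (g • P : Sylow p G) ↔ _
  rw [← SetLike.mem_coe, Sylow.coe_smul]
  constructor
  · rintro ⟨x, hx, rfl⟩
    have h2 : g⁻¹ * (MulAut.conj g x) * g = x := by simp [MulAut.conj_apply, mul_assoc]
    change g⁻¹ * (MulAut.conj g x) * g ∈ (P : Subgroup G)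
    rw [h2]; exact hx
  · intro h
    exact ⟨g⁻¹ * y * g, h, by simp [MulAut.conj_apply, mul_assoc]⟩

theorem le_smul_iff {P : Sylow p G} {g : G} {D : Subgroup G} (hg : g ∈ normalizer (D : Set G)) :
    D ≤ ((g • P : Sylow p G) : Subgroup G) ↔ D ≤ P := by
  constructor
  · intro h y hy
    have h1 := h ((mem_normalizer_iff.1 hg y).1 hy)
    rw [mem_smul_iff] at h1
    simpa [mul_assoc] using h1
  · intro h y hy
    rw [mem_smul_iff]
    have := (mem_normalizer_iff.1 (inv_mem hg) y).1 hy
    rw [inv_inv] at this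
    exact h this

theorem card_inf_smul (P Q : Sylow p G) (g : G) :
    Nat.card (((g • P : Sylow p G) : Subgroup G) ⊓ ((g • Q : Sylow p G) : Subgroup G) : Subgroup G) =
      Nat.card ((P : Subgroup G) ⊓ (Q : Subgroup G) : Subgroup G) := by
  have h : (((g • P : Sylow p G) : Subgroup G) ⊓ ((g • Q : Sylow p G) : Subgroup G) : Subgroup G) =
      ((P : Subgroup G) ⊓ (Q : Subgroup G) : Subgroup G).map (MulAut.conj g).toMonoidHom := by
    ext y
    rw [mem_inf, mem_smul_iff, mem_smul_iff, ← mem_inf, mem_map]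
    constructor
    · intro h
      exact ⟨g⁻¹ * y * g, h, by simp [MulAut.conj_apply, mul_assoc]⟩
    · rintro ⟨x, hx, rfl⟩
      simpa [MulAut.conj_apply, mul_assoc] using hx
  rw [h]
  exact (Nat.card_congr (equivMapOfInjective _ _ (MulAut.conj g).injective).toEquiv).symm

/-- A set of Sylow subgroups which is a union of orbits of `P` all of size divisible by `m` has size divisible by `m`. -/
theorem dvd_card_of_orbits (P : Sylow p G) (S : Finset (Sylow p G)) (m : ℕ)
    (hS : ∀ g ∈ (P : Subgroup G), ∀ R ∈ S, g • R ∈ S)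
    (hm : ∀ R ∈ S, m ∣ ((R : Subgroup G).subgroupOf (P : Subgroup G)).index) : m ∣ S.card := by
  classical
  let X : SubMulAction (P : Subgroup G) (Sylow p G) :=
    { carrier := {R | R ∈ S}
      smul_mem' := fun g R hR => hS g g.2 R hR }
  have h1 := card_modEq_of_orbits (H := (P : Subgroup G)) (X := X) m ∅ (by simp) (by
    intro x _
    have h2 : Nat.card (MulAction.orbit (P : Subgroup G) x) =
        Nat.card (MulAction.orbit (P : Subgroup G) (x : Sylow p G)) := by
      have h3 : Subtype.val '' (MulAction.orbit (P : Subgroup G) x) =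
          MulAction.orbit (P : Subgroup G) (x : Sylow p G) := by
        ext y
        constructor
        · rintro ⟨_, ⟨g, rfl⟩, rfl⟩
          exact ⟨g, rfl⟩
        · rintro ⟨g, rfl⟩
          exact ⟨g • x, ⟨g, rfl⟩, rfl⟩
      rw [← h3]
      exact (Nat.card_image_of_injective Subtype.val_injective _).symm
    rw [h2, card_orbit_sylow]
    exact hm x x.2)
  have h4 : Nat.card X = S.card := by
    have : Nat.card X = Nat.card S := Nat.card_congr (Equiv.refl _)
    rw [this, Nat.card_eq_fintype_card, Fintype.card_coe]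
  rw [h4] at h1
  simp only [Nat.card_eq_fintype_card, Fintype.card_eq_zero] at h1
  exact (Nat.modEq_zero_iff_dvd).1 (by simpa using h1)

end gen

section lines

variable {G : Type*} [Group G] [Finite G]

/-- tangency: the intersection has index 3 -/
def Trel (P Q : Sylow 3 G) : Prop :=
  Q ≠ P ∧ 3 * Nat.card ((P : Subgroup G) ⊓ (Q : Subgroup G) : Subgroup G) = Nat.card (P : Subgroup G)

instance fact3 : Fact (Nat.Prime 3) := ⟨by norm_num⟩

theorem Trel.symm {P Q : Sylow 3 G} (h : Trel P Q) : Trel Q P := by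
  refine ⟨h.1.symm, ?_⟩
  rw [inf_comm, h.2, card_sylow_eq P Q]

theorem trel_smul {P Q : Sylow 3 G} (g : G) : Trel (g • P) (g • Q) ↔ Trel P Q := by
  unfold Trel
  rw [card_inf_smul, card_sylow_eq (g • P) P]
  have : g • Q ≠ g • P ↔ Q ≠ P := by
    rw [ne_eq, ne_eq, smul_left_cancel_iff]
  rw [this]

theorem trel_iff_index {P Q : Sylow 3 G} (h : Q ≠ P) : Trel P Q ↔
    ((Q : Subgroup G).subgroupOf (P : Subgroup G)).index = 3 := by
  have h1 := relIndex_mul_card_inf (Q : Subgroup G) (P : Subgroup G)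
  rw [inf_comm] at h1
  have hpos : 0 < Nat.card ((P : Subgroup G) ⊓ (Q : Subgroup G) : Subgroup G) := Nat.card_pos
  constructor
  · intro h2
    have h3 := h2.2
    rw [← h1] at h3
    exact (Nat.eq_of_mul_eq_mul_right hpos h3).symm
  · intro h2
    refine ⟨h, ?_⟩
    rw [← h1]
    exact congrArg (· * Nat.card ((P : Subgroup G) ⊓ (Q : Subgroup G) : Subgroup G)) h2.symm

/-- The key property of lines. -/
theorem key1 {P Q R S : Sylow 3 G} (h : Trel P Q) (hR : (P : Subgroup G) ⊓ Q ≤ R) (hS : (P : Subgroup G) ⊓ Q ≤ S)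
    (hne : S ≠ R) : Trel R S ∧ (R : Subgroup G) ⊓ S = (P : Subgroup G) ⊓ Q := by
  have h1 : (P : Subgroup G) ⊓ Q ≤ (R : Subgroup G) ⊓ S := le_inf hR hS
  have h2 : Nat.card ((P : Subgroup G) ⊓ Q : Subgroup G) ∣ Nat.card ((R : Subgroup G) ⊓ S : Subgroup G) :=
    Subgroup.card_dvd_of_le h1
  have h3 : Nat.card ((R : Subgroup G) ⊓ S : Subgroup G) ∣ Nat.card (R : Subgroup G) :=
    Subgroup.card_dvd_of_le inf_le_left
  rw [card_sylow_eq R P, ← h.2] at h3
  obtain ⟨a, ha⟩ := h2
  have hpos : 0 < Nat.card ((P : Subgroup G) ⊓ (Q : Subgroup G) : Subgroup G) := Nat.card_pos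
  rw [ha, mul_comm 3] at h3
  have h4 : a ∣ 3 := Nat.dvd_of_mul_dvd_mul_left hpos h3
  rcases (Nat.dvd_prime (by norm_num)).1 h4 with rfl | rfl
  · rw [mul_one] at ha
    have h5 : (P : Subgroup G) ⊓ Q = (R : Subgroup G) ⊓ S := Subgroup.eq_of_le_of_card_ge h1 ha.le
    refine ⟨⟨hne, ?_⟩, h5.symm⟩
    rw [← h5, h.2, card_sylow_eq P R]
  · exfalso
    have h5 : (R : Subgroup G) ⊓ S = R := by
      apply Subgroup.eq_of_le_of_card_ge inf_le_left
      rw [ha, card_sylow_eq R P, ← h.2, mul_comm]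
    have h6 : (R : Subgroup G) ≤ S := inf_eq_left.1 h5
    exact hne (Sylow.ext (R.is_maximal' S.isPGroup' h6))

variable [Fintype (Sylow 3 G)] [DecidableEq (Sylow 3 G)]

open Classical in
/-- the line through two points -/
noncomputable def line (P Q : Sylow 3 G) : Finset (Sylow 3 G) :=
  Finset.univ.filter (fun R => (P : Subgroup G) ⊓ (Q : Subgroup G) ≤ R)

theorem mem_line {P Q R : Sylow 3 G} : R ∈ line P Q ↔ (P : Subgroup G) ⊓ (Q : Subgroup G) ≤ R := by
  simp [line]

open Classical in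
/-- the set of lines -/
noncomputable def lines (G : Type*) [Group G] [Finite G] [Fintype (Sylow 3 G)] [DecidableEq (Sylow 3 G)] :
    Finset (Finset (Sylow 3 G)) :=
  (Finset.univ.filter (fun z : Sylow 3 G × Sylow 3 G => Trel z.1 z.2)).image (fun z => line z.1 z.2)

theorem mem_lines {L : Finset (Sylow 3 G)} : L ∈ lines G ↔ ∃ P Q, Trel P Q ∧ L = line P Q := by
  simp only [lines, Finset.mem_image, Finset.mem_filter, Finset.mem_univ, true_and, Prod.exists]
  constructor
  · rintro ⟨P, Q, h, rfl⟩; exact ⟨P, Q, h, rfl⟩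
  · rintro ⟨P, Q, h, rfl⟩; exact ⟨P, Q, h, rfl⟩

open Classical in
/-- the neighbours -/
noncomputable def T (P : Sylow 3 G) : Finset (Sylow 3 G) := Finset.univ.filter (fun Q => Trel P Q)

theorem mem_T {P Q : Sylow 3 G} : Q ∈ T P ↔ Trel P Q := by simp [T]

/-- a line is determined by two of its points -/
theorem eq_line {L : Finset (Sylow 3 G)} (hL : L ∈ lines G) {R S : Sylow 3 G} (hR : R ∈ L) (hS : S ∈ L)
    (hne : S ≠ R) : L = line R S ∧ Trel R S := by
  obtain ⟨P, Q, h, rfl⟩ := mem_lines.1 hL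
  obtain ⟨h1, h2⟩ := key1 h (mem_line.1 hR) (mem_line.1 hS) hne
  refine ⟨?_, h1⟩
  ext X
  rw [mem_line, mem_line, h2]

theorem unique_line {L L' : Finset (Sylow 3 G)} (hL : L ∈ lines G) (hL' : L' ∈ lines G) {R S : Sylow 3 G}
    (hne : R ≠ S) (hR : R ∈ L) (hS : S ∈ L) (hR' : R ∈ L') (hS' : S ∈ L') : L = L' :=
  (eq_line hL hR hS hne.symm).1.trans (eq_line hL' hR' hS' hne.symm).1.symm

theorem mem_T_iff {P Q : Sylow 3 G} : Q ∈ T P ↔ Q ≠ P ∧ ∃ L ∈ lines G, P ∈ L ∧ Q ∈ L := by
  rw [mem_T]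
  constructor
  · intro h
    exact ⟨h.1, line P Q, mem_lines.2 ⟨P, Q, h, rfl⟩, mem_line.2 inf_le_left, mem_line.2 inf_le_right⟩
  · rintro ⟨h, L, hL, h1, h2⟩
    exact (eq_line hL h1 h2 h).2

/-- the translate of a line -/
theorem image_mem_lines {L : Finset (Sylow 3 G)} (g : G) (hL : L ∈ lines G) :
    L.image (fun R => g • R) ∈ lines G := by
  obtain ⟨P, Q, h, rfl⟩ := mem_lines.1 hL
  refine mem_lines.2 ⟨g • P, g • Q, (trel_smul g).2 h, ?_⟩
  ext R
  rw [Finset.mem_image, mem_line]
  constructor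
  · rintro ⟨S, hS, rfl⟩
    intro y hy
    rw [mem_inf, mem_smul_iff, mem_smul_iff] at hy
    rw [mem_smul_iff]
    exact mem_line.1 hS hy
  · intro hR
    refine ⟨g⁻¹ • R, ?_, by simp⟩
    rw [mem_line]
    intro y hy
    rw [mem_smul_iff, inv_inv]
    apply hR
    rw [mem_inf, mem_smul_iff, mem_smul_iff]
    simpa [mul_assoc] using hy

/-- points of a line normalize the line -/
theorem smul_mem_line {L : Finset (Sylow 3 G)} (hL : L ∈ lines G) {R S : Sylow 3 G} (hR : R ∈ L) (hS : S ∈ L)
    {g : G} (hg : g ∈ (R : Subgroup G)) : g • S ∈ L := by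
  by_cases hne : S = R
  · subst hne
    rw [smul_self_of_mem hg]; exact hS
  · obtain ⟨h1, h2⟩ := eq_line hL hR hS hne
    rw [h1, mem_line]
    have h3 := le_normalizer_of_card (P := R) (D := (R : Subgroup G) ⊓ S) inf_le_left h2.2 hg
    rw [le_smul_iff h3]
    exact inf_le_right

/-- the sizes of lines are 1 modulo 3 -/
theorem card_line_mod {L : Finset (Sylow 3 G)} (hL : L ∈ lines G) : L.card % 3 = 1 := by
  obtain ⟨P, Q, h, rfl⟩ := mem_lines.1 hL
  have hP : P ∈ line P Q := mem_line.2 inf_le_left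
  have h1 : 3 ∣ ((line P Q).erase P).card := by
    apply dvd_card_of_orbits P
    · intro g hg R hR
      rw [Finset.mem_erase] at hR ⊢
      refine ⟨?_, smul_mem_line hL hP hR.2 hg⟩
      intro h2
      apply hR.1
      have h3 : R = g⁻¹ • P := by rw [eq_inv_smul_iff]; exact h2
      rw [h3, smul_self_of_mem (inv_mem hg)]
    · intro R hR
      rw [Finset.mem_erase] at hR
      have h2 := (eq_line hL hP hR.2 hR.1).2
      rw [(trel_iff_index hR.1).1 h2]
  rw [Finset.card_erase_of_mem hP] at h1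
  have : 0 < (line P Q).card := Finset.card_pos.2 ⟨P, hP⟩
  omega

theorem two_le_card_line {L : Finset (Sylow 3 G)} (hL : L ∈ lines G) : 2 ≤ L.card := by
  obtain ⟨P, Q, h, rfl⟩ := mem_lines.1 hL
  have h1 : ({P, Q} : Finset (Sylow 3 G)) ⊆ line P Q := by
    intro R hR
    rw [Finset.mem_insert, Finset.mem_singleton] at hR
    rcases hR with rfl | rfl
    · exact mem_line.2 inf_le_left
    · exact mem_line.2 inf_le_right
  have := Finset.card_le_card h1
  rwa [Finset.card_pair h.1.symm] at this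

/-- the number of lines of given size through a point is constant -/
theorem card_lines_through (ℓ : ℕ) (P Q : Sylow 3 G) :
    (((lines G).filter (fun L => L.card = ℓ)).filter (P ∈ ·)).card =
    (((lines G).filter (fun L => L.card = ℓ)).filter (Q ∈ ·)).card := by
  obtain ⟨g, rfl⟩ := MulAction.exists_smul_eq G P Q
  apply Finset.card_nbij' (fun L => L.image (fun R => g • R)) (fun L => L.image (fun R => g⁻¹ • R))
  · intro L hL
    simp only [Finset.coe_filter, Set.mem_setOf_eq, Finset.mem_filter] at hL ⊢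
    refine ⟨⟨image_mem_lines g hL.1.1, ?_⟩, Finset.mem_image_of_mem _ hL.2⟩
    rw [Finset.card_image_of_injective _ (MulAction.injective g)]
    exact hL.1.2
  · intro L hL
    simp only [Finset.coe_filter, Set.mem_setOf_eq, Finset.mem_filter] at hL ⊢
    refine ⟨⟨image_mem_lines g⁻¹ hL.1.1, ?_⟩, ?_⟩
    · rw [Finset.card_image_of_injective _ (MulAction.injective g⁻¹)]
      exact hL.1.2
    · rw [Finset.mem_image]
      exact ⟨g • P, hL.2, by simp⟩
  · intro L _
    simp [Finset.image_image, Function.comp_def]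
  · intro L _
    simp [Finset.image_image, Function.comp_def]

theorem index_three_or_nine (h22 : Nat.card (Sylow 3 G) = 22) {P Q : Sylow 3 G} (h : Q ≠ P) :
    ((Q : Subgroup G).subgroupOf (P : Subgroup G)).index = 3 ∨
    ((Q : Subgroup G).subgroupOf (P : Subgroup G)).index = 9 := by
  have h1 := card_orbit_sylow P Q
  have h2 : Nat.card (MulAction.orbit (P : Subgroup G) Q) ≤ Nat.card (Sylow 3 G) :=
    Nat.card_le_card_of_injective _ Subtype.val_injective
  rw [h1, h22] at h2
  obtain ⟨k, hk⟩ := (Nat.dvd_prime_pow (by norm_num : Nat.Prime 3)).1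
    (((IsPGroup.iff_card.1 P.isPGroup').choose_spec) ▸ (index_dvd_card ((Q : Subgroup G).subgroupOf (P : Subgroup G))))
  have h5 : k ≠ 0 := by
    rintro rfl
    exact inf_ne h (by rw [hk.2, pow_zero])
  rw [hk.2] at h2 ⊢
  have h6 : k < 3 := by
    by_contra hlt
    have : 3 ^ 3 ≤ 3 ^ k := Nat.pow_le_pow_right (by norm_num) (by omega)
    omega
  interval_cases k
  · exact absurd rfl h5
  · left; rfl
  · right; rfl

theorem smul_T {P Q : Sylow 3 G} (g : G) : g • Q ∈ T (g • P) ↔ Q ∈ T P := by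
  rw [mem_T, mem_T, trel_smul]

theorem T_stable {P Q : Sylow 3 G} {g : G} (hg : g • P = P) (hQ : Q ∈ T P) : g • Q ∈ T P := by
  have h := (smul_T (P := P) (Q := Q) g).2 hQ
  rwa [hg] at h

theorem card_T_mod (h22 : Nat.card (Sylow 3 G) = 22) (P : Sylow 3 G) : (T P).card % 9 = 3 := by
  have hcΩ : Fintype.card (Sylow 3 G) = 22 := by rw [← Nat.card_eq_fintype_card, h22]
  have hP : P ∉ T P := fun h => (mem_T.1 h).1 rfl
  have h1 : 9 ∣ (Finset.univ \ (insert P (T P))).card := by
    apply dvd_card_of_orbits P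
    · intro g hg R hR
      rw [Finset.mem_sdiff, Finset.mem_insert] at hR ⊢
      refine ⟨Finset.mem_univ _, fun h => hR.2 ?_⟩
      have h3 : R = g⁻¹ • (g • R) := by simp
      rcases h with h | h
      · left
        rw [h3, h, smul_self_of_mem (inv_mem hg)]
      · right
        rw [h3]
        exact T_stable (smul_self_of_mem (inv_mem hg)) h
    · intro R hR
      rw [Finset.mem_sdiff, Finset.mem_insert, not_or] at hR
      rcases index_three_or_nine h22 hR.2.1 with h | h
      · exact absurd (mem_T.2 ((trel_iff_index hR.2.1).2 h)) hR.2.2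
      · rw [h]
  rw [Finset.card_sdiff_of_subset (Finset.subset_univ _), Finset.card_univ, hcΩ,
    Finset.card_insert_of_notMem hP] at h1
  have h2 : (insert P (T P)).card ≤ 22 := by
    rw [← hcΩ]; exact Finset.card_le_univ _
  rw [Finset.card_insert_of_notMem hP] at h2
  omega

theorem card_T (P : Sylow 3 G) : (T P).card = ∑ L ∈ (lines G).filter (P ∈ ·), (L.card - 1) := by
  have h := Comb22.card_inter_T (ℒ := lines G) (T := T)
    (fun L hL L' hL' α γ hne h1 h2 h3 h4 => unique_line hL hL' hne h1 h2 h3 h4) (fun α γ => mem_T_iff) P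
    Finset.univ
  rw [Finset.inter_univ] at h
  rw [h]
  apply Finset.sum_congr rfl
  intro L hL
  rw [Finset.mem_filter] at hL
  rw [Finset.inter_univ, Finset.card_erase_of_mem hL.2]

/-- every line has four points -/
theorem card_line (h22 : Nat.card (Sylow 3 G) = 22)
    (hcore : ∀ D : Subgroup G, (∀ R : Sylow 3 G, D ≤ R) → D = ⊥)
    (hne : ∀ P : Sylow 3 G, Nat.card (P : Subgroup G) ≠ 3) {L : Finset (Sylow 3 G)} (hL : L ∈ lines G) :
    L.card = 4 := by
  have hcΩ : Fintype.card (Sylow 3 G) = 22 := by rw [← Nat.card_eq_fintype_card, h22]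
  have hmod := card_line_mod hL
  have h2 := two_le_card_line hL
  have hle : L.card ≤ 22 := by rw [← hcΩ]; exact Finset.card_le_univ _
  have hne22 : L.card ≠ 22 := by
    intro h
    obtain ⟨P, Q, hPQ, rfl⟩ := mem_lines.1 hL
    have h3 : line P Q = Finset.univ := by
      rw [← Finset.card_eq_iff_eq_univ, h, hcΩ]
    have h4 : (P : Subgroup G) ⊓ Q = ⊥ := by
      apply hcore
      intro R
      have : R ∈ line P Q := by rw [h3]; exact Finset.mem_univ _
      exact mem_line.1 this
    have h5 := hPQ.2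
    rw [h4, card_bot, mul_one] at h5
    exact hne P h5.symm
  obtain ⟨P, hP⟩ : L.Nonempty := Finset.card_pos.1 (by omega)
  set ℓ := L.card with hℓ
  set c := (((lines G).filter (fun L => L.card = ℓ)).filter (P ∈ ·)).card with hc
  have hc1 : 1 ≤ c := by
    rw [hc, Nat.one_le_iff_ne_zero, ← Nat.pos_iff_ne_zero, Finset.card_pos]
    exact ⟨L, by simp only [Finset.mem_filter]; exact ⟨⟨hL, rfl⟩, hP⟩⟩
  have e1 := Comb22.double_count ((lines G).filter (fun L => L.card = ℓ)) (Finset.univ : Finset (Sylow 3 G))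
  rw [Finset.sum_congr rfl (fun Q _ => card_lines_through ℓ Q P), Finset.sum_const, Finset.card_univ, hcΩ,
    Finset.sum_congr rfl (g := fun _ => ℓ), Finset.sum_const] at e1
  swap
  · intro M hM
    rw [Finset.mem_filter] at hM
    rw [Finset.inter_univ, hM.2]
  rw [← hc, smul_eq_mul, smul_eq_mul] at e1
  have e2 : c * (ℓ - 1) ≤ (T P).card := by
    rw [card_T]
    calc c * (ℓ - 1) = ∑ M ∈ ((lines G).filter (fun L => L.card = ℓ)).filter (P ∈ ·), (M.card - 1) := by
          rw [Finset.sum_congr rfl (g := fun _ => ℓ - 1), Finset.sum_const, smul_eq_mul]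
          intro M hM
          simp only [Finset.mem_filter] at hM
          rw [hM.1.2]
      _ ≤ _ := by
          apply Finset.sum_le_sum_of_subset
          intro M hM
          simp only [Finset.mem_filter] at hM ⊢
          exact ⟨hM.1.1, hM.2⟩
  have e3 : (T P).card ≤ 21 := by
    have hPT : P ∉ T P := fun h => (mem_T.1 h).1 rfl
    have : (insert P (T P)).card ≤ 22 := by rw [← hcΩ]; exact Finset.card_le_univ _
    rw [Finset.card_insert_of_notMem hPT] at this
    omega
  have e4 : ℓ ∣ 22 * c := ⟨_, by rw [e1, mul_comm]⟩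
  have e5 : c * (ℓ - 1) ≤ 21 := e2.trans e3
  have hc7 : c ≤ 21 := by
    have : c * 1 ≤ c * (ℓ - 1) := Nat.mul_le_mul_left _ (by omega)
    omega
  have hfin : ∀ ℓ ∈ Finset.range 22, ∀ c ∈ Finset.range 22, ℓ % 3 = 1 → 2 ≤ ℓ → 1 ≤ c → ℓ ∣ 22 * c →
      c * (ℓ - 1) ≤ 21 → ℓ = 4 := by decide +kernel
  exact hfin ℓ (Finset.mem_range.2 (by omega)) c (Finset.mem_range.2 (by omega)) hmod h2 hc1 e4 e5

/-- every point is on four lines -/
theorem card_through (h22 : Nat.card (Sylow 3 G) = 22)
    (hcore : ∀ D : Subgroup G, (∀ R : Sylow 3 G, D ≤ R) → D = ⊥)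
    (hne : ∀ P : Sylow 3 G, Nat.card (P : Subgroup G) ≠ 3) (P : Sylow 3 G) :
    ((lines G).filter (P ∈ ·)).card = 4 := by
  have hcΩ : Fintype.card (Sylow 3 G) = 22 := by rw [← Nat.card_eq_fintype_card, h22]
  have h4 : ∀ L ∈ lines G, L.card = 4 := fun L hL => card_line h22 hcore hne hL
  have h5 : (lines G).filter (fun L => L.card = 4) = lines G := Finset.filter_true_of_mem h4
  have e1 := Comb22.double_count (lines G) (Finset.univ : Finset (Sylow 3 G))
  have e0 : ∀ Q : Sylow 3 G, ((lines G).filter (Q ∈ ·)).card = ((lines G).filter (P ∈ ·)).card := by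
    intro Q
    have := card_lines_through 4 Q P
    rwa [h5] at this
  rw [Finset.sum_congr rfl (fun Q _ => e0 Q), Finset.sum_const, Finset.card_univ, hcΩ,
    Finset.sum_congr rfl (g := fun _ => 4), Finset.sum_const, smul_eq_mul, smul_eq_mul] at e1
  swap
  · intro M hM
    rw [Finset.inter_univ, h4 M hM]
  have e2 := card_T P
  rw [Finset.sum_congr rfl (g := fun _ => 3), Finset.sum_const, smul_eq_mul] at e2
  swap
  · intro M hM
    rw [Finset.mem_filter] at hM
    rw [h4 M hM.1]
  have e3 := card_T_mod h22 P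
  have e4 : (T P).card ≤ 21 := by
    have hPT : P ∉ T P := fun h => (mem_T.1 h).1 rfl
    have : (insert P (T P)).card ≤ 22 := by rw [← hcΩ]; exact Finset.card_le_univ _
    rw [Finset.card_insert_of_notMem hPT] at this
    omega
  omega

/-- lines meeting the neighbourhood of a point -/
theorem line_inter_T (h22 : Nat.card (Sylow 3 G) = 22)
    (hcore : ∀ D : Subgroup G, (∀ R : Sylow 3 G, D ≤ R) → D = ⊥)
    (hne : ∀ P : Sylow 3 G, Nat.card (P : Subgroup G) ≠ 3) (P : Sylow 3 G) {L : Finset (Sylow 3 G)}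
    (hL : L ∈ lines G) (hP : P ∉ L) :
    (L ∩ T P).card = 0 ∨ (L ∩ T P).card = 1 ∨ (L ∩ T P).card = 4 := by
  have hc4 := card_line h22 hcore hne hL
  by_cases h0 : (L ∩ T P).card = 0
  · exact Or.inl h0
  right
  obtain ⟨C, hC⟩ : (L ∩ T P).Nonempty := Finset.card_pos.1 (Nat.pos_of_ne_zero h0)
  obtain ⟨hCL, hCT⟩ := Finset.mem_inter.1 hC
  by_cases h1 : L ∩ T P = {C}
  · left; rw [h1]; rfl
  right
  -- another point of the intersection
  obtain ⟨D, hD, hDC⟩ : ∃ D ∈ L ∩ T P, D ≠ C := by
    by_contra hno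
    push Not at hno
    exact h1 (Finset.eq_singleton_iff_unique_mem.2 ⟨hC, hno⟩)
  obtain ⟨hDL, hDT⟩ := Finset.mem_inter.1 hD
  -- the orbit of `D` under `P ⊓ C`
  let E : Subgroup G := (P : Subgroup G) ⊓ C
  have hEP : IsPGroup 3 E := P.isPGroup'.to_le inf_le_left
  have hstab : ∀ g ∈ E, g • D ∈ L.erase C ∩ T P := by
    intro g hg
    rw [Finset.mem_inter, Finset.mem_erase]
    refine ⟨⟨?_, smul_mem_line hL hCL hDL hg.2⟩, T_stable (smul_self_of_mem hg.1) hDT⟩
    intro h2
    apply hDC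
    have h3 : D = g⁻¹ • C := by rw [eq_inv_smul_iff]; exact h2
    rw [h3, smul_self_of_mem (inv_mem hg.2)]
  have horb : Nat.card (MulAction.orbit E D) ≤ (L.erase C ∩ T P).card := by
    rw [← Fintype.card_coe, ← Nat.card_eq_fintype_card]
    apply Nat.card_le_card_of_injective (fun x : MulAction.orbit E D =>
      (⟨x.1, by obtain ⟨g, hg⟩ := x.2; rw [← hg]; exact hstab g g.2⟩ : {x // x ∈ L.erase C ∩ T P}))
    intro x y hxy
    exact Subtype.ext (Subtype.mk.inj hxy)
  have hmoved : Nat.card (MulAction.orbit E D) ≠ 1 := by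
    intro h2
    have h3 : ∀ g ∈ E, g • D = D := by
      intro g hg
      have h4 : Subsingleton (MulAction.orbit E D) := (Nat.card_eq_one_iff_unique.1 h2).1
      have h5 : (⟨g • D, ⟨⟨g, hg⟩, rfl⟩⟩ : MulAction.orbit E D) = ⟨D, mem_orbit_self D⟩ := Subsingleton.elim _ _
      exact congrArg Subtype.val h5
    have h4 : E ≤ D := le_of_fixed hEP h3
    -- then `E` is the kernel of the line
    obtain ⟨h5, h6⟩ := eq_line hL hCL hDL hDC
    have h7 : E ≤ (C : Subgroup G) ⊓ D := le_inf inf_le_right h4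
    have h8 : E = (C : Subgroup G) ⊓ D := by
      apply Subgroup.eq_of_le_of_card_ge h7
      have h9 := h6.2
      have h10 := (mem_T.1 hCT).2
      rw [card_sylow_eq C P, ← h10] at h9
      exact (Nat.eq_of_mul_eq_mul_left (by norm_num) h9).le
    apply hP
    rw [h5, mem_line, ← h8]
    exact inf_le_left
  have h3 : 3 ≤ Nat.card (MulAction.orbit E D) := by
    obtain ⟨k, hk⟩ := hEP.card_orbit D
    rw [hk] at hmoved ⊢
    have hk0 : k ≠ 0 := by rintro rfl; exact hmoved rfl
    calc 3 = 3 ^ 1 := by norm_num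
      _ ≤ 3 ^ k := Nat.pow_le_pow_right (by norm_num) (by omega)
  have h4 : L.erase C ∩ T P = (L ∩ T P).erase C := by
    ext x; simp only [Finset.mem_inter, Finset.mem_erase]; tauto
  rw [h4, Finset.card_erase_of_mem hC] at horb
  have h5 : (L ∩ T P).card ≤ 4 := by rw [← hc4]; exact Finset.card_le_card Finset.inter_subset_left
  omega

open scoped Pointwise in
/-- neighbourhoods of different points differ -/
theorem insert_T_ne (h22 : Nat.card (Sylow 3 G) = 22)
    (hcore : ∀ D : Subgroup G, (∀ R : Sylow 3 G, D ≤ R) → D = ⊥)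
    (hne : ∀ P : Sylow 3 G, Nat.card (P : Subgroup G) ≠ 3) (P Q : Sylow 3 G) (hPQ : Q ∈ T P) :
    insert Q (T Q) ≠ insert P (T P) := by
  intro heq
  have hcΩ : Fintype.card (Sylow 3 G) = 22 := by rw [← Nat.card_eq_fintype_card, h22]
  obtain ⟨g, rfl⟩ := MulAction.exists_smul_eq G P Q
  have hmem : ∀ (x : G) (R S : Sylow 3 G), x • S ∈ insert (x • R) (T (x • R)) ↔ S ∈ insert R (T R) := by
    intro x R S
    rw [Finset.mem_insert, Finset.mem_insert, smul_T, smul_left_cancel_iff]
  let H : Subgroup G := MulAction.stabilizer G ((insert P (T P) : Finset (Sylow 3 G)) : Set (Sylow 3 G))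
  have hsm : ∀ x : G, x • ((insert P (T P) : Finset (Sylow 3 G)) : Set (Sylow 3 G)) =
      ((insert (x • P) (T (x • P)) : Finset (Sylow 3 G)) : Set (Sylow 3 G)) := by
    intro x
    ext R
    rw [Set.mem_smul_set_iff_inv_smul_mem, Finset.mem_coe, Finset.mem_coe, ← hmem x P, smul_inv_smul]
  have hH : ∀ x : G, x ∈ H ↔ insert (x • P) (T (x • P)) = insert P (T P) := by
    intro x
    rw [MulAction.mem_stabilizer_iff, hsm]
    exact Finset.coe_inj
  have hNH : normalizer ((P : Subgroup G) : Set G) ≤ H := by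
    intro x hx
    rw [hH, Sylow.smul_eq_iff_mem_normalizer.2 hx]
  have h1 := nsyl_sub H P (le_normalizer.trans hNH)
  have h2 : (normalizer ((P : Subgroup G) : Set G)).relIndex H * H.index = 22 := by
    rw [relIndex_mul_index hNH, ← h22]
    exact (Sylow.card_eq_index_normalizer P).symm
  have h3 := nsyl_mod 3 H
  rw [h1] at h3
  have h4 : ∀ d ∈ Nat.divisors 22, d % 3 = 1 → d = 1 ∨ d = 22 := by decide +kernel
  rcases h4 _ (Nat.mem_divisors.2 ⟨Dvd.intro _ h2, by norm_num⟩) h3 with h5 | h5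
  · rw [relIndex_eq_one] at h5
    have h6 : g ∈ H := (hH g).2 heq
    exact (mem_T.1 hPQ).1 (Sylow.smul_eq_iff_mem_normalizer.2 (h5 h6))
  · rw [h5] at h2
    have h6 : H.index = 1 := by omega
    rw [index_eq_one] at h6
    have h7 : insert P (T P) = Finset.univ := by
      rw [Finset.eq_univ_iff_forall]
      intro R
      obtain ⟨x, rfl⟩ := MulAction.exists_smul_eq G P R
      have h8 : x ∈ H := by rw [h6]; trivial
      rw [← (hH x).1 h8]
      exact Finset.mem_insert_self _ _
    have h8 : (insert P (T P)).card = 22 := by rw [h7, Finset.card_univ, hcΩ]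
    have hPT : P ∉ T P := fun h => (mem_T.1 h).1 rfl
    rw [Finset.card_insert_of_notMem hPT] at h8
    have h9 := card_T P
    rw [Finset.sum_congr rfl (g := fun _ => 3), Finset.sum_const, smul_eq_mul,
      card_through h22 hcore hne P] at h9
    · omega
    · intro M hM
      rw [Finset.mem_filter] at hM
      rw [card_line h22 hcore hne hM.1]

/-- If there are 22 Sylow 3-subgroups and no nontrivial subgroup is in all of them, they have order 3. -/
theorem exists_card_three (h22 : Nat.card (Sylow 3 G) = 22)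
    (hcore : ∀ D : Subgroup G, (∀ R : Sylow 3 G, D ≤ R) → D = ⊥) :
    ∃ P : Sylow 3 G, Nat.card (P : Subgroup G) = 3 := by
  by_contra hno
  push Not at hno
  have hcΩ : Fintype.card (Sylow 3 G) = 22 := by rw [← Nat.card_eq_fintype_card, h22]
  exact Comb22.comb22 (ℒ := lines G) (T := T) hcΩ (fun L hL => card_line h22 hcore hno hL)
    (fun L hL L' hL' α γ hne h1 h2 h3 h4 => unique_line hL hL' hne h1 h2 h3 h4)
    (fun P => card_through h22 hcore hno P) (fun α γ => mem_T_iff)
    (fun P L hL hP => line_inter_T h22 hcore hno P hL hP)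
    (fun P Q hQ => insert_T_ne h22 hcore hno P Q hQ)

end lines

theorem card_eq_three {G : Type*} [Group G] [Finite G] (h22 : Nat.card (Sylow 3 G) = 22)
    (hcore : ∀ D : Subgroup G, (∀ R : Sylow 3 G, D ≤ R) → D = ⊥) (P : Sylow 3 G) :
    Nat.card (P : Subgroup G) = 3 := by
  classical
  have hfin : Fintype (Sylow 3 G) := Fintype.ofFinite _
  obtain ⟨Q, hQ⟩ := exists_card_three h22 hcore
  rw [card_sylow_eq P Q, hQ]

end Cfsg.Agent.Lib.Syl22
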