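import Mathlib
import Cfsg.Agent.Lib.RelSylow
import Cfsg.Agent.Lib.SylowFew

/-!
# 35 is not a Sylow 17-number (helper51)
-/

set_option autoImplicit false

namespace Cfsg.Agent.Lib.Syl35

open Subgroup
open Cfsg.Agent.Lib

variable {Ω : Type*} [Fintype Ω] [DecidableEq Ω]

structure D (X P : Subgroup (Equiv.Perm Ω)) (α : Ω) : Prop where
  le : P ≤ X
  card : Nat.card P = 17
  fix : ∀ p ∈ P, p α = α
  uniq : ∀ ω, (∀ p ∈ P, p ω = ω) → ω = α
  stab : ∀ x ∈ X, x α = α → x ∈ normalizer (P : Set (Equiv.Perm Ω))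
  trans : ∀ ω, ∃ x ∈ X, x α = ω
  syl : ¬ 17 ∣ P.relIndex X
  cardΩ : Fintype.card Ω = 35

variable {X Y P : Subgroup (Equiv.Perm Ω)} {α : Ω}

instance : Fact (Nat.Prime 17) := ⟨by norm_num⟩
instance : Fact (Nat.Prime 5) := ⟨by norm_num⟩

theorem D.isSyl (h : D X P α) : RelSylow.IsSyl 17 P X :=
  ⟨h.le, IsPGroup.of_card (n := 1) (by rw [h.card, pow_one]), h.syl⟩

theorem D.norm_fix (h : D X P α) {x : Equiv.Perm Ω} (hx : x ∈ normalizer (P : Set (Equiv.Perm Ω))) : x α = α := by
  apply h.uniq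
  intro p hp
  have h1 : x⁻¹ * p * x ∈ P := by
    rw [mem_normalizer_iff'] at hx
    have h2 := (hx (x⁻¹ * p)).mpr (by simpa using hp)
    exact h2
  have h2 := h.fix _ h1
  have h3 : x⁻¹ (p (x α)) = α := h2
  rw [Equiv.Perm.inv_eq_iff_eq] at h3
  exact h3

theorem D.down (h : D X P α) (hY : Y ≤ X) (hX : X ≤ normalizer (Y : Set (Equiv.Perm Ω))) (hP : P ≤ Y) : D Y P α where
  le := hP
  card := h.card
  fix := h.fix
  uniq := h.uniq
  stab x hx := h.stab x (hY hx)
  syl := (h.isSyl.of_le hP hY).2.2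
  cardΩ := h.cardΩ
  trans ω := by
    obtain ⟨x, hx, hxω⟩ := h.trans ω
    have h1 : RelSylow.IsSyl 17 P Y := h.isSyl.of_le hP hY
    have h2 := h1.conj_isSyl' (hX hx)
    obtain ⟨y, hy, hyx⟩ := h1.conj h2
    refine ⟨y, hy, ?_⟩
    have h3 : y⁻¹ * x ∈ normalizer (P : Set (Equiv.Perm Ω)) := by
      rw [RelSylow.mem_normalizer_iff_map, ← RelSylow.conj_conj, ← hyx, RelSylow.conj_conj, inv_mul_cancel]
      exact RelSylow.conj_one P
    have h4 : y⁻¹ (x α) = α := h.norm_fix h3
    rw [Equiv.Perm.inv_eq_iff_eq] at h4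
    rw [← h4, hxω]

theorem D.card_eq (h : D X P α) :
    Nat.card X = 35 * Nat.card ↥(X ⊓ normalizer (P : Set (Equiv.Perm Ω))) := by
  have h1 := Subgroup.card_mul_index (MulAction.stabilizer X α)
  have h2 : (MulAction.stabilizer X α).index = 35 := by
    rw [MulAction.index_stabilizer]
    have : MulAction.orbit X α = Set.univ := by
      rw [Set.eq_univ_iff_forall]
      intro ω
      obtain ⟨x, hx, hxω⟩ := h.trans ω
      exact ⟨⟨x, hx⟩, hxω⟩
    rw [this, Set.ncard_univ, Nat.card_eq_fintype_card, h.cardΩ]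
  have h3 : (X ⊓ normalizer (P : Set (Equiv.Perm Ω))).subgroupOf X = MulAction.stabilizer X α := by
    ext x
    rw [mem_subgroupOf, MulAction.mem_stabilizer_iff]
    constructor
    · intro hx; exact h.norm_fix hx.2
    · intro hx; exact ⟨x.2, h.stab x x.2 hx⟩
  have h4 : Nat.card ((X ⊓ normalizer (P : Set (Equiv.Perm Ω))).subgroupOf X) =
      Nat.card ↥(X ⊓ normalizer (P : Set (Equiv.Perm Ω))) :=
    Nat.card_congr (subgroupOfEquivOfLe inf_le_left).toEquiv
  rw [h3] at h4
  rw [h2, h4] at h1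
  omega

theorem D.inj (h : D X P α) {γ : Ω} (hγ : γ ≠ α) {p : Equiv.Perm Ω} (hp : p ∈ P) (hpγ : p γ = γ) : p = 1 := by
  by_contra hne
  apply hγ
  apply h.uniq
  have h1 : orderOf p ∣ 17 := by
    rw [← h.card]; exact Subgroup.orderOf_dvd_natCard P hp
  have h2 : orderOf p = 17 := by
    rcases (Nat.dvd_prime (by norm_num)).mp h1 with h3 | h3
    · exact absurd (orderOf_eq_one_iff.mp h3) hne
    · exact h3
  have h3 : zpowers p = P := by
    apply Subgroup.eq_of_le_of_card_ge (zpowers_le.mpr hp)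
    rw [Nat.card_zpowers, h2, h.card]
  intro p' hp'
  rw [← h3] at hp'
  obtain ⟨n, rfl⟩ := hp'
  exact Equiv.Perm.zpow_apply_eq_self_of_apply_eq_self hpγ n

open Classical in
theorem D.cover (h : D X P α) {β γ : Ω} (hβ : β ≠ α) (hγ : γ ≠ α) (hγβ : ∀ p ∈ P, p β ≠ γ) (ω : Ω) :
    ω = α ∨ (∃ p ∈ P, p β = ω) ∨ (∃ p ∈ P, p γ = ω) := by
  have hO : ∀ δ : Ω, δ ≠ α → (Finset.univ.image (fun p : P => (p : Equiv.Perm Ω) δ)).card = 17 := by
    intro δ hδ
    rw [Finset.card_image_of_injective, Finset.card_univ, ← Nat.card_eq_fintype_card, h.card]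
    intro p p' hpp
    have h1 : ((p' : Equiv.Perm Ω)⁻¹ * p) δ = δ := by
      show (p' : Equiv.Perm Ω)⁻¹ ((p : Equiv.Perm Ω) δ) = δ
      rw [Equiv.Perm.inv_eq_iff_eq]; exact hpp
    have h2 := h.inj hδ (mul_mem (inv_mem p'.2) p.2) h1
    exact Subtype.ext (inv_mul_eq_one.mp h2).symm
  have hdis : Disjoint (Finset.univ.image (fun p : P => (p : Equiv.Perm Ω) β))
      (Finset.univ.image (fun p : P => (p : Equiv.Perm Ω) γ)) := by
    rw [Finset.disjoint_left]
    intro δ h1 h2
    simp only [Finset.mem_image, Finset.mem_univ, true_and] at h1 h2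
    obtain ⟨p, hp⟩ := h1
    obtain ⟨p', hp'⟩ := h2
    apply hγβ ((p' : Equiv.Perm Ω)⁻¹ * p) (mul_mem (inv_mem p'.2) p.2)
    show (p' : Equiv.Perm Ω)⁻¹ ((p : Equiv.Perm Ω) β) = γ
    rw [Equiv.Perm.inv_eq_iff_eq, hp, hp']
  have hα : ∀ δ : Ω, δ ≠ α → α ∉ Finset.univ.image (fun p : P => (p : Equiv.Perm Ω) δ) := by
    intro δ hδ h1
    simp only [Finset.mem_image, Finset.mem_univ, true_and] at h1
    obtain ⟨p, hp⟩ := h1
    apply hδ
    exact (p : Equiv.Perm Ω).injective (hp.trans (h.fix p p.2).symm)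
  have htot : insert α (Finset.univ.image (fun p : P => (p : Equiv.Perm Ω) β) ∪
      Finset.univ.image (fun p : P => (p : Equiv.Perm Ω) γ)) = Finset.univ := by
    apply Finset.eq_univ_of_card
    rw [Finset.card_insert_of_notMem, Finset.card_union_of_disjoint hdis, hO β hβ, hO γ hγ, h.cardΩ]
    rw [Finset.mem_union]
    exact not_or.mpr ⟨hα β hβ, hα γ hγ⟩
  have hω := Finset.mem_univ ω
  rw [← htot, Finset.mem_insert, Finset.mem_union] at hω
  simp only [Finset.mem_image, Finset.mem_univ, true_and] at hω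
  rcases hω with h1 | ⟨p, hp⟩ | ⟨p, hp⟩
  · exact Or.inl h1
  · exact Or.inr (Or.inl ⟨p, p.2, hp⟩)
  · exact Or.inr (Or.inr ⟨p, p.2, hp⟩)

theorem D.free (h : D X P α) {k : Equiv.Perm Ω} (hk : ∀ p ∈ P, k * p = p * k) {m : ℕ} (hm : m.Coprime 17)
    (hkm : k ^ m = 1) {β : Ω} (hβ : β ≠ α) (hkβ : k β = β) : k = 1 := by
  have hkα : k α = α := by
    apply h.uniq
    intro p hp
    have h1 : (p * k) α = (k * p) α := by rw [hk p hp]
    have h2 : p (k α) = k (p α) := h1
    rw [h2, h.fix p hp]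
  have hkO : ∀ p ∈ P, k (p β) = p β := by
    intro p hp
    have h1 : (k * p) β = (p * k) β := by rw [hk p hp]
    have h2 : k (p β) = p (k β) := h1
    rw [h2, hkβ]
  ext γ
  show k γ = γ
  by_cases hγ : γ = α
  · rw [hγ]; exact hkα
  by_cases hγβ : ∃ p ∈ P, p β = γ
  · obtain ⟨p, hp, rfl⟩ := hγβ
    exact hkO p hp
  push Not at hγβ
  rcases h.cover hβ hγ hγβ (k γ) with h1 | ⟨p, hp, h1⟩ | ⟨p, hp, h1⟩
  · exact absurd (k.injective (h1.trans hkα.symm)) hγ
  · have h2 : k (p β) = k γ := by rw [hkO p hp, h1]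
    exact absurd (k.injective h2) (hγβ p hp)
  · have h2 : ∀ n : ℕ, (k ^ n) γ = (p ^ n) γ := by
      intro n
      induction n with
      | zero => rfl
      | succ n ih =>
        have h3 : (k ^ (n + 1)) γ = k ((k ^ n) γ) := by rw [pow_succ']; rfl
        have h4 : (k * p ^ n) γ = (p ^ n * k) γ := by
          have : Commute k p := hk p hp
          rw [(this.pow_right n).eq]
        have h5 : k ((p ^ n) γ) = (p ^ n) (k γ) := h4
        rw [h3, ih, h5, ← h1]
        show (p ^ n * p) γ = _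
        rw [← pow_succ]
    have h3 : (p ^ m) γ = γ := by rw [← h2, hkm]; rfl
    have h4 : p ^ m = 1 := h.inj hγ (pow_mem hp m) h3
    have h5 : p ^ 17 = 1 := by
      rw [← h.card]
      exact orderOf_dvd_iff_pow_eq_one.mp (Subgroup.orderOf_dvd_natCard P hp)
    have h6 : p = 1 := by
      rw [← orderOf_eq_one_iff]
      exact Nat.eq_one_of_dvd_coprimes hm (orderOf_dvd_of_pow_eq_one h4) (orderOf_dvd_of_pow_eq_one h5)
    rw [← h1, h6]; rfl

theorem D.fixα (h : D X P α) {k : Equiv.Perm Ω} (hk : ∀ p ∈ P, k * p = p * k) : k α = α := by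
  apply h.uniq
  intro p hp
  have h1 : (p * k) α = (k * p) α := by rw [hk p hp]
  have h2 : p (k α) = k (p α) := h1
  rw [h2, h.fix p hp]

theorem D.card_fixed (h : D X P α) {k : Equiv.Perm Ω} (hk : ∀ p ∈ P, k * p = p * k) {m : ℕ} (hm : m.Coprime 17)
    (hkm : k ^ m = 1) (hk1 : k ≠ 1) : Fintype.card (Function.fixedPoints k) = 1 := by
  rw [Fintype.card_eq_one_iff]
  refine ⟨⟨α, h.fixα hk⟩, ?_⟩
  rintro ⟨β, hβ⟩
  apply Subtype.ext
  by_contra hne
  exact hk1 (h.free hk hm hkm hne hβ)

theorem D.sign_neg (h : D X P α) {k : Equiv.Perm Ω} (hk : ∀ p ∈ P, k * p = p * k)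
    (hk2 : k ^ 2 = 1) (hk1 : k ≠ 1) : Equiv.Perm.sign k = -1 := by
  rw [Equiv.Perm.sign_of_pow_two_eq_one hk2, h.card_fixed hk (by norm_num) hk2 hk1, h.cardΩ]
  decide

theorem D.comm (h : D X P α) : P ≤ centralizer (P : Set (Equiv.Perm Ω)) := by
  haveI : IsCyclic P := isCyclic_of_prime_card h.card
  haveI := IsCyclic.commutative (α := P)
  intro x hx
  rw [mem_centralizer_iff]
  intro y hy
  exact congrArg Subtype.val (IsCyclic.commGroup.mul_comm (⟨y, hy⟩ : P) ⟨x, hx⟩)

theorem D.cent (h : D Y P α) (hY : Y ≤ alternatingGroup Ω) : P = Y ⊓ centralizer (P : Set (Equiv.Perm Ω)) := by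
  refine h.isSyl.eq_of_le ?_ inf_le_left (le_inf h.le h.comm)
  have hcard : ∀ r : ℕ, r.Prime → r ∣ Nat.card ↥(Y ⊓ centralizer (P : Set (Equiv.Perm Ω))) → r = 17 := by
    intro r hr hdvd
    haveI : Fact r.Prime := ⟨hr⟩
    by_contra hr17
    obtain ⟨c, hc⟩ := exists_prime_orderOf_dvd_card' r hdvd
    have hcr : (c : Equiv.Perm Ω) ^ r = 1 := by
      have h1 : c ^ r = 1 := by rw [← hc]; exact pow_orderOf_eq_one c
      exact congrArg Subtype.val h1
    have hc1 : (c : Equiv.Perm Ω) ≠ 1 := by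
      intro h1
      have h2 : c = 1 := Subtype.ext h1
      rw [h2, orderOf_one] at hc
      exact hr.one_lt.ne hc
    have hcc : ∀ p ∈ P, (c : Equiv.Perm Ω) * p = p * c := fun p hp => (mem_centralizer_iff.mp c.2.2 p hp).symm
    have hcop : r.Coprime 17 := (Nat.coprime_primes hr (by norm_num)).mpr hr17
    have h1 : ((c : Equiv.Perm Ω).supportᶜ).card = 1 := by
      rw [Finset.card_eq_one]
      refine ⟨α, ?_⟩
      ext β
      rw [Finset.mem_compl, Equiv.Perm.mem_support, not_not, Finset.mem_singleton]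
      constructor
      · intro hβ
        by_contra hne
        exact hc1 (h.free hcc hcop hcr hne hβ)
      · rintro rfl
        exact h.fixα hcc
    have h2 := Equiv.Perm.card_compl_support_modEq (σ := (c : Equiv.Perm Ω)) (p := r) (n := 1) (by
      rw [pow_one]
      exact hcr)
    rw [h1, h.cardΩ] at h2
    have h3 : r ∣ 34 := by
      have := (Nat.modEq_iff_dvd' (by norm_num : 1 ≤ 35)).mp h2
      simpa using this
    have h4 : r ∣ 2 * 17 := h3
    have h5 : r ∣ 2 := hcop.dvd_of_dvd_mul_right h4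
    have h6 : r = 2 := (Nat.prime_dvd_prime_iff_eq hr Nat.prime_two).mp h5
    subst h6
    have h7 := h.sign_neg hcc hcr hc1
    have h8 := Equiv.Perm.mem_alternatingGroup.mp (hY c.2.1)
    rw [h7] at h8
    exact absurd h8 (by decide)
  have h1 := Nat.eq_prime_pow_of_unique_prime_dvd (n := Nat.card ↥(Y ⊓ centralizer (P : Set (Equiv.Perm Ω))))
    Nat.card_pos.ne' (fun {r} hr hd => hcard r hr hd)
  exact IsPGroup.of_card h1

theorem card_mulAut_prime {C : Type*} [Group C] [Finite C] {p : ℕ} (hp : p.Prime) (h : Nat.card C = p) :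
    Nat.card (MulAut C) = p - 1 := by
  have : Fact p.Prime := ⟨hp⟩
  have hc : IsCyclic C := isCyclic_of_prime_card h
  rw [IsCyclic.card_mulAut, h, Nat.totient_prime hp]

theorem main_odd {Z : Subgroup (Equiv.Perm Ω)} (h : D Z P α) (hZ : Nat.card Z = 595) : False := by
  have h1 := h.card_eq
  rw [hZ] at h1
  have h2 : Nat.card ↥(Z ⊓ normalizer (P : Set (Equiv.Perm Ω))) = 17 := by omega
  have hN : P = Z ⊓ normalizer (P : Set (Equiv.Perm Ω)) :=
    Subgroup.eq_of_le_of_card_ge (le_inf h.le le_normalizer) (by rw [h2, h.card])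
  -- Sylow 5
  have hR : ∀ R : Sylow 5 Z, Nat.card R = 5 := by
    intro R
    have h3 := R.card_eq_multiplicity
    rw [hZ] at h3
    rw [h3]
    have : (595 : ℕ).factorization 5 = 1 := by
      rw [show (595 : ℕ) = 5 ^ 1 * 119 by norm_num, Nat.factorization_mul (by norm_num) (by norm_num)]
      rw [Finsupp.add_apply, Nat.Prime.factorization_pow (by norm_num), Finsupp.single_eq_same,
        Nat.factorization_eq_zero_of_not_dvd (by norm_num)]
    rw [this, pow_one]
  have hn : Nat.card (Sylow 5 Z) = 1 := by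
    obtain ⟨R⟩ : Nonempty (Sylow 5 Z) := inferInstance
    have h3 := card_sylow_modEq_one 5 Z
    have h4 := R.card_dvd_index
    have h5 : (R : Subgroup Z).index = 119 := by
      have h6 := Subgroup.card_mul_index (R : Subgroup Z)
      have h7 : Nat.card ↥(R : Subgroup Z) = 5 := hR R
      rw [h7, hZ] at h6
      omega
    rw [h5] at h4
    have h6 : Nat.card (Sylow 5 Z) ≤ 119 := Nat.le_of_dvd (by norm_num) h4
    generalize Nat.card (Sylow 5 Z) = n at h3 h4 h6
    unfold Nat.ModEq at h3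
    interval_cases n <;> omega
  obtain ⟨R⟩ : Nonempty (Sylow 5 Z) := inferInstance
  have hss : Subsingleton (Sylow 5 Z) := (Nat.card_eq_one_iff_unique.mp hn).1
  have hRn : (R : Subgroup Z).Normal := Sylow.normal_of_subsingleton R
  have hR5 : Nat.card ↥((R : Subgroup Z).map Z.subtype) = 5 := by
    rw [card_map_of_injective Z.subtype_injective]; exact hR R
  have hZR : Z ≤ normalizer (((R : Subgroup Z).map Z.subtype : Subgroup (Equiv.Perm Ω)) : Set (Equiv.Perm Ω)) := by
    have h3 := le_normalizer_map (H := (R : Subgroup Z)) Z.subtype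
    rw [normalizer_eq_top, ← MonoidHom.range_eq_map, range_subtype] at h3
    exact h3
  have hcc : ∀ p ∈ P, ∀ r ∈ (R : Subgroup Z).map Z.subtype, p * r = r * p := by
    intro p hp r hr
    let ψ := ((R : Subgroup Z).map Z.subtype).normalizerMonoidHom
    have h3 : orderOf (ψ ⟨p, hZR (h.le hp)⟩) ∣ 17 := by
      refine (orderOf_map_dvd ψ _).trans ?_
      have h4 : orderOf (⟨p, hZR (h.le hp)⟩ : ↥(normalizer (((R : Subgroup Z).map Z.subtype : Subgroup (Equiv.Perm Ω)) :
        Set (Equiv.Perm Ω)))) = orderOf p := Subgroup.orderOf_mk _ _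
      rw [h4, ← h.card]
      exact Subgroup.orderOf_dvd_natCard P hp
    have h4 : orderOf (ψ ⟨p, hZR (h.le hp)⟩) ∣ 4 := by
      have := orderOf_dvd_natCard (ψ ⟨p, hZR (h.le hp)⟩)
      rw [card_mulAut_prime (by norm_num) hR5] at this
      exact this
    have h5 : ψ ⟨p, hZR (h.le hp)⟩ = 1 := by
      rw [← orderOf_eq_one_iff]
      exact Nat.eq_one_of_dvd_coprimes (by norm_num : Nat.Coprime 17 4) h3 h4
    have h6 := congrArg (fun f : MulAut ↥((R : Subgroup Z).map Z.subtype) =>
      ((f ⟨r, hr⟩ : ↥((R : Subgroup Z).map Z.subtype)) : Equiv.Perm Ω)) h5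
    have h7 : p * r * p⁻¹ = r := h6
    rw [mul_inv_eq_iff_eq_mul] at h7
    exact h7
  have hRP : (R : Subgroup Z).map Z.subtype ≤ P := by
    rw [hN]
    refine le_inf (map_subtype_le _) ?_
    intro r hr
    rw [mem_normalizer_iff]
    intro p
    constructor
    · intro hp
      rw [← hcc p hp r hr, mul_inv_cancel_right]; exact hp
    · intro hp
      have h3 := hcc _ hp r hr
      have h4 : p = r * p * r⁻¹ := by
        have : r * p * r⁻¹ * r = r * (r * p * r⁻¹) := h3
        have h5 : r * p = r * (r * p * r⁻¹) := by rw [← this]; group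
        exact mul_left_cancel h5
      rw [h4]; exact hp
  have h3 := card_dvd_of_le hRP
  rw [hR5, h.card] at h3
  omega

theorem main (h : D X P α) : False := by
  have hXn : X ≤ normalizer ((X ⊓ alternatingGroup Ω : Subgroup (Equiv.Perm Ω)) : Set (Equiv.Perm Ω)) := by
    intro x hx
    rw [mem_normalizer_iff]
    intro y
    rw [mem_inf, mem_inf, ← mem_normalizer_iff.mp (le_normalizer hx) y, Equiv.Perm.mem_alternatingGroup,
      Equiv.Perm.mem_alternatingGroup, map_mul, map_mul, mul_right_comm, ← map_mul, mul_inv_cancel, map_one, one_mul]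
  have hPA : P ≤ X ⊓ alternatingGroup Ω := by
    refine le_inf h.le ?_
    intro p hp
    rw [Equiv.Perm.mem_alternatingGroup]
    have h1 : p ^ 17 = 1 := by
      rw [← h.card]
      exact orderOf_dvd_iff_pow_eq_one.mp (Subgroup.orderOf_dvd_natCard P hp)
    have h2 : (Equiv.Perm.sign p) ^ 17 = 1 := by rw [← map_pow, h1, map_one]
    rcases Int.units_eq_one_or (Equiv.Perm.sign p) with h3 | h3
    · exact h3
    · rw [h3] at h2
      exact absurd h2 (by decide)
  have hY := h.down (inf_le_left : X ⊓ alternatingGroup Ω ≤ X) hXn hPA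
  set Y := X ⊓ alternatingGroup Ω with hYd
  have hcent := hY.cent inf_le_right
  let φ : ↥(Y ⊓ normalizer (P : Set (Equiv.Perm Ω))) →* MulAut P :=
    P.normalizerMonoidHom.comp (inclusion inf_le_right)
  have hφ : φ.ker = P.subgroupOf (Y ⊓ normalizer (P : Set (Equiv.Perm Ω))) := by
    ext x
    rw [mem_subgroupOf, MonoidHom.mem_ker]
    constructor
    · intro hx
      refine hcent.ge ⟨x.2.1, ?_⟩
      change (x : Equiv.Perm Ω) ∈ centralizer (P : Set (Equiv.Perm Ω))
      rw [mem_centralizer_iff]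
      intro p hp
      have h6 := congrArg (fun f : MulAut P => ((f ⟨p, hp⟩ : P) : Equiv.Perm Ω)) hx
      have h7 : (x : Equiv.Perm Ω) * p * (x : Equiv.Perm Ω)⁻¹ = p := h6
      rw [mul_inv_eq_iff_eq_mul] at h7
      exact h7.symm
    · intro hx0
      have hx := hcent.le hx0
      ext p
      show (((x : Equiv.Perm Ω) * p * (x : Equiv.Perm Ω)⁻¹ : Equiv.Perm Ω)) _ = _
      rw [← mem_centralizer_iff.mp hx.2 p p.2, mul_inv_cancel_right]
      rfl
  have hcardN : ∃ b, Nat.card ↥(Y ⊓ normalizer (P : Set (Equiv.Perm Ω))) = 17 * 2 ^ b := by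
    have h1 := Subgroup.card_mul_index φ.ker
    have h2 : Nat.card φ.ker = 17 := by
      rw [hφ, ← h.card]
      exact Nat.card_congr (subgroupOfEquivOfLe (le_inf hPA le_normalizer)).toEquiv
    have h3 : φ.ker.index ∣ 2 ^ 4 := by
      rw [index_ker]
      have := Subgroup.card_subgroup_dvd_card φ.range
      rw [card_mulAut_prime (by norm_num) h.card] at this
      exact this
    obtain ⟨b, _, hb⟩ := (Nat.dvd_prime_pow Nat.prime_two).mp h3
    refine ⟨b, ?_⟩
    rw [← h1, h2, hb]
  obtain ⟨b, hb⟩ := hcardN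
  have hcardY : Nat.card Y = 595 * 2 ^ b := by
    rw [hY.card_eq, hb]; ring
  rcases Nat.eq_zero_or_pos b with hb0 | hb0
  · rw [hb0, pow_zero, mul_one] at hcardY
    exact main_odd hY hcardY
  · haveI : Fact (Nat.Prime 2) := ⟨Nat.prime_two⟩
    obtain ⟨S, hS⟩ := RelSylow.exists_syl 2 (Y ⊓ normalizer (P : Set (Equiv.Perm Ω)))
    have hindex : (Y ⊓ normalizer (P : Set (Equiv.Perm Ω))).relIndex Y = 35 := by
      have h1 := Subgroup.card_mul_index ((Y ⊓ normalizer (P : Set (Equiv.Perm Ω))).subgroupOf Y)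
      have h2 : Nat.card ((Y ⊓ normalizer (P : Set (Equiv.Perm Ω))).subgroupOf Y) = 17 * 2 ^ b := by
        rw [← hb]
        exact Nat.card_congr (subgroupOfEquivOfLe inf_le_left).toEquiv
      rw [h2, hcardY] at h1
      have h3 : 17 * 2 ^ b * ((Y ⊓ normalizer (P : Set (Equiv.Perm Ω))).subgroupOf Y).index = 17 * 2 ^ b * 35 := by
        rw [h1]; ring
      exact Nat.eq_of_mul_eq_mul_left (by positivity) h3
    have hSY : RelSylow.IsSyl 2 S Y := by
      refine ⟨hS.1.trans inf_le_left, hS.2.1, ?_⟩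
      rw [← relIndex_mul_relIndex S _ Y hS.1 inf_le_left, hindex]
      intro hdvd
      rcases (Nat.Prime.dvd_mul Nat.prime_two).mp hdvd with h1 | h1
      · exact hS.2.2 h1
      · omega
    obtain ⟨T, hT1, hT2⟩ := hSY.exists_sylow
    have hScyc : IsCyclic S := by
      have hM : IsCyclic (MulAut P) := by
        have hPc : IsCyclic P := isCyclic_of_prime_card h.card
        have h1 : IsCyclic (ZMod (Nat.card P))ˣ := by
          rw [h.card]; exact ZMod.isCyclic_units_prime (by norm_num)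
        exact isCyclic_of_surjective (IsCyclic.mulAutMulEquiv P).symm (IsCyclic.mulAutMulEquiv P).symm.surjective
      let ψ : S →* MulAut P := φ.comp (inclusion hS.1)
      refine isCyclic_of_injective ψ ?_
      rw [← MonoidHom.ker_eq_bot_iff, eq_bot_iff]
      intro x hx
      have h1 : (inclusion hS.1 x) ∈ φ.ker := hx
      rw [hφ, mem_subgroupOf] at h1
      have h2 : (x : Equiv.Perm Ω) ∈ P := h1
      obtain ⟨j, hj⟩ := hS.2.1 x
      have h3 : (x : Equiv.Perm Ω) ^ 2 ^ j = 1 := congrArg Subtype.val hj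
      have h4 : orderOf (x : Equiv.Perm Ω) ∣ 17 := by
        rw [← h.card]; exact Subgroup.orderOf_dvd_natCard P h2
      rw [mem_bot]
      apply Subtype.ext
      show (x : Equiv.Perm Ω) = 1
      rw [← orderOf_eq_one_iff]
      exact Nat.eq_one_of_dvd_coprimes (Nat.Coprime.pow_left j (by norm_num : Nat.Coprime 2 17))
        (orderOf_dvd_of_pow_eq_one h3) h4
    have hTcyc : IsCyclic T := by
      have e : T ≃* S := ((T : Subgroup Y).equivMapOfInjective Y.subtype Y.subtype_injective).trans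
        (MulEquiv.subgroupCongr hT1)
      exact isCyclic_of_surjective e.symm e.symm.surjective
    have hmin : (Nat.card Y).minFac = 2 := by
      rw [hcardY, Nat.minFac_eq_two_iff]
      exact (dvd_pow_self 2 hb0.ne').mul_left _
    have hcompl := IsCyclic.isComplement' hmin hTcyc
    set K := (MonoidHom.transferSylow T (hTcyc.normalizer_le_centralizer hmin)).ker with hK
    have hTcard : Nat.card ↥(T : Subgroup Y) = 2 ^ b := by
      have h1 := T.card_eq_multiplicity
      have h2 : (Nat.card Y).factorization 2 = b := by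
        rw [hcardY, Nat.factorization_mul (by norm_num) (by positivity), Finsupp.add_apply,
          Nat.factorization_eq_zero_of_not_dvd (by norm_num), Nat.Prime.factorization_pow Nat.prime_two,
          Finsupp.single_eq_same, zero_add]
      rw [h2] at h1
      exact h1
    have hKcard : Nat.card K = 595 := by
      have h1 := hcompl.card_mul
      rw [hTcard, hcardY] at h1
      exact Nat.eq_of_mul_eq_mul_right (by positivity) h1
    have hKn : K.Normal := inferInstance
    have hKidx : K.index = 2 ^ b := by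
      have h1 := Subgroup.card_mul_index K
      rw [hKcard, hcardY] at h1
      exact Nat.eq_of_mul_eq_mul_left (by norm_num) h1
    have hZ : D (K.map Y.subtype) P α := by
      refine hY.down (map_subtype_le _) ?_ ?_
      · have h3 := le_normalizer_map (H := K) Y.subtype
        rw [normalizer_eq_top, ← MonoidHom.range_eq_map, range_subtype] at h3
        exact h3
      · intro p hp
        refine ⟨⟨p, hPA hp⟩, ?_, rfl⟩
        have h1 : (⟨p, hPA hp⟩ : Y) ^ 17 = 1 := by
          apply Subtype.ext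
          show p ^ 17 = 1
          rw [← h.card]
          exact orderOf_dvd_iff_pow_eq_one.mp (Subgroup.orderOf_dvd_natCard P hp)
        have h2 : QuotientGroup.mk' K (⟨p, hPA hp⟩ : Y) = 1 := by
          rw [← orderOf_eq_one_iff]
          refine Nat.eq_one_of_dvd_coprimes (Nat.Coprime.pow_right b (by norm_num : Nat.Coprime 17 2))
            (orderOf_dvd_of_pow_eq_one (by rw [← map_pow, h1, map_one])) ?_
          rw [← hKidx, Subgroup.index]
          exact orderOf_dvd_natCard _
        exact (QuotientGroup.eq_one_iff _).mp h2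
    refine main_odd hZ ?_
    rw [card_map_of_injective Y.subtype_injective, hKcard]

theorem not_thirtyfive {G : Type*} [Group G] [Finite G] : Nat.card (Sylow 17 G) ≠ 35 := by
  classical
  intro hn
  haveI : Fintype (Sylow 17 G) := Fintype.ofFinite _
  obtain ⟨P0⟩ : Nonempty (Sylow 17 G) := inferInstance
  let φ := MulAction.toPermHom G (Sylow 17 G)
  have hφ : ∀ (g : G) (Q : Sylow 17 G), φ g Q = g • Q := fun _ _ => rfl
  obtain ⟨Q, hQ⟩ : ∃ Q : Sylow 17 G, P0 ≠ Q := by
    by_contra hcon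
    push Not at hcon
    have : Nat.card (Sylow 17 G) = 1 := by
      rw [Nat.card_eq_one_iff_unique]
      exact ⟨⟨fun a b => (hcon a).symm.trans (hcon b)⟩, ⟨P0⟩⟩
    omega
  have hlt : Nat.card (Sylow 17 G) < 17 ^ 2 := by rw [hn]; norm_num
  have hle := SylowFew.inf_le_all hlt
  have hker : φ.ker ⊓ (P0 : Subgroup G) = (Q : Subgroup G) ⊓ P0 := by
    apply le_antisymm
    · intro x hx
      refine ⟨?_, hx.2⟩
      have h1 : x • Q = Q := by
        have h2 : φ x = 1 := hx.1
        rw [← hφ, h2]; rfl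
      rw [Sylow.smul_eq_iff_mem_normalizer] at h1
      have h2 : x ∈ (P0 : Subgroup G) ⊓ normalizer ((Q : Subgroup G) : Set G) := ⟨hx.2, h1⟩
      have h3 := P0.2.inf_normalizer_sylow Q
      have h4 : x ∈ (P0 : Subgroup G) ⊓ Q := by
        rw [← h3]; exact h2
      exact h4.2
    · intro x hx
      refine ⟨?_, hx.2⟩
      show φ x = 1
      ext1 R
      rw [hφ]
      show x • R = R
      rw [Sylow.smul_eq_iff_mem_normalizer]
      exact le_normalizer (hle P0 Q R hQ ⟨hx.2, hx.1⟩)
  refine main (X := φ.range) (P := (P0 : Subgroup G).map φ) (α := P0) ?_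
  have hsyl : RelSylow.IsSyl 17 ((P0 : Subgroup G).map φ) φ.range := by
    have := (RelSylow.isSyl_top_iff P0).map φ
    rwa [← MonoidHom.range_eq_map] at this
  refine ⟨hsyl.1, ?_, ?_, ?_, ?_, ?_, hsyl.2.2, ?_⟩
  · rw [← Subgroup.relIndex_ker, ← inf_relIndex_right, hker, inf_relIndex_right]
    exact SylowFew.relIndex_eq_prime hlt P0 Q hQ
  · rintro _ ⟨g, hg, rfl⟩
    rw [hφ, Sylow.smul_eq_iff_mem_normalizer]
    exact le_normalizer hg
  · intro R hR
    have h1 : (P0 : Subgroup G) ≤ normalizer ((R : Subgroup G) : Set G) := by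
      intro g hg
      exact Sylow.smul_eq_iff_mem_normalizer.mp (hR _ ⟨g, hg, rfl⟩)
    have h3 := P0.2.inf_normalizer_sylow R
    have h4 : (P0 : Subgroup G) ≤ R := by
      intro g hg
      have : g ∈ (P0 : Subgroup G) ⊓ R := by rw [← h3]; exact ⟨hg, h1 hg⟩
      exact this.2
    exact Sylow.ext (P0.3 R.2 h4)
  · rintro _ ⟨g, rfl⟩ hg
    rw [hφ, Sylow.smul_eq_iff_mem_normalizer] at hg
    exact le_normalizer_map φ ⟨g, hg, rfl⟩
  · intro R
    obtain ⟨g, hg⟩ := MulAction.exists_smul_eq G P0 R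
    exact ⟨φ g, ⟨g, rfl⟩, hg⟩
  · rw [← Nat.card_eq_fintype_card, hn]

end Cfsg.Agent.Lib.Syl35
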