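import Mathlib

/-!
# Sylow subgroups with elementary abelian abelianization: generalities

`PD p G`: every `p`-th power of an element of `G` lies in the derived subgroup. `SylPD p G`: the same
for the Sylow `p`-subgroups of `G`.
-/

set_option autoImplicit false

open scoped commutatorElement

namespace Cfsg.Agent.Lib.SylAb

/-- `G / G'` has exponent dividing `p`. -/
def PD (p : ℕ) (G : Type*) [Group G] : Prop := ∀ x : G, x ^ p ∈ commutator G

theorem pd_of_closure {p : ℕ} {G : Type*} [Group G] {T : Set G} (hT : Subgroup.closure T = ⊤)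
    (h : ∀ t ∈ T, t ^ p ∈ commutator G) : PD p G := by
  intro x
  have h1 : Subgroup.closure T ≤ ((powMonoidHom p).comp (Abelianization.of (G := G))).ker := by
    rw [Subgroup.closure_le]
    intro t ht
    rw [SetLike.mem_coe, MonoidHom.mem_ker]
    change (Abelianization.of t) ^ p = 1
    rw [← map_pow, ← MonoidHom.mem_ker, Abelianization.ker_of]
    exact h t ht
  have h2 : x ∈ ((powMonoidHom p).comp (Abelianization.of (G := G))).ker := h1 (hT ▸ Subgroup.mem_top x)
  rw [MonoidHom.mem_ker] at h2
  change (Abelianization.of x) ^ p = 1 at h2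
  rwa [← map_pow, ← MonoidHom.mem_ker, Abelianization.ker_of] at h2

theorem pd_of_comm {p : ℕ} {G : Type*} [CommGroup G] (h : ∀ x : G, x ^ p = 1) : PD p G := by
  intro x
  rw [h x]
  exact one_mem _

theorem pd_of_surjective {p : ℕ} {G H : Type*} [Group G] [Group H] (f : G →* H)
    (hf : Function.Surjective f) (h : PD p G) : PD p H := by
  intro y
  obtain ⟨x, rfl⟩ := hf y
  rw [← map_pow]
  have h1 := Subgroup.mem_map_of_mem f (h x)
  rw [map_commutator_eq] at h1
  exact Subgroup.commutator_mono le_top le_top h1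

theorem pd_of_equiv {p : ℕ} {G H : Type*} [Group G] [Group H] (e : G ≃* H) (h : PD p G) : PD p H :=
  pd_of_surjective e.toMonoidHom e.surjective h

/-- The same for a subgroup, inside the ambient group. -/
def PowDer {G : Type*} [Group G] (p : ℕ) (P : Subgroup G) : Prop := ∀ x ∈ P, x ^ p ∈ ⁅P, P⁆

theorem pd_iff_powDer {G : Type*} [Group G] {p : ℕ} {P : Subgroup G} : PD p P ↔ PowDer p P := by
  constructor
  · intro h x hx
    rw [← Subgroup.map_subtype_commutator]
    exact ⟨_, h ⟨x, hx⟩, rfl⟩
  · intro h x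
    have h1 := h x x.2
    rw [← Subgroup.map_subtype_commutator] at h1
    obtain ⟨y, hy, hyx⟩ := h1
    have : y = x ^ p := Subtype.ext hyx
    rwa [← this]

theorem powDer_of_closure {G : Type*} [Group G] {p : ℕ} {P : Subgroup G} {T : Set G}
    (hT : Subgroup.closure T = P) (h : ∀ t ∈ T, t ^ p ∈ ⁅P, P⁆) : PowDer p P := by
  rw [← pd_iff_powDer]
  have hTP : T ⊆ P := hT ▸ Subgroup.subset_closure
  refine pd_of_closure (T := {x : P | (x : G) ∈ T}) ?_ ?_
  · rw [eq_top_iff]
    have h1 : (Subgroup.closure {x : P | (x : G) ∈ T}).map P.subtype = P := by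
      rw [MonoidHom.map_closure]
      have : P.subtype '' {x : P | (x : G) ∈ T} = T := by
        ext y
        constructor
        · rintro ⟨x, hx, rfl⟩
          exact hx
        · intro hy
          exact ⟨⟨y, hTP hy⟩, hy, rfl⟩
      rw [this, hT]
    rintro ⟨x, hx⟩ -
    have h2 : x ∈ (Subgroup.closure {x : P | (x : G) ∈ T}).map P.subtype := h1.symm ▸ hx
    obtain ⟨y, hy, hyx⟩ := h2
    have : y = ⟨x, hx⟩ := Subtype.ext hyx
    rwa [← this]
  · intro t ht
    have h1 := h t ht
    rw [← Subgroup.map_subtype_commutator] at h1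
    obtain ⟨y, hy, hyx⟩ := h1
    have : y = t ^ p := Subtype.ext hyx
    rwa [← this]

theorem powDer_map {G H : Type*} [Group G] [Group H] {p : ℕ} (f : G →* H) {P : Subgroup G}
    (h : PowDer p P) : PowDer p (P.map f) := by
  rintro _ ⟨x, hx, rfl⟩
  rw [← map_pow, ← Subgroup.map_commutator]
  exact Subgroup.mem_map_of_mem f (h x hx)

theorem powDer_range {G H : Type*} [Group G] [Group H] {p : ℕ} (f : G →* H) (h : PD p G) :
    PowDer p f.range := by
  rw [MonoidHom.range_eq_map]
  apply powDer_map
  intro x _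
  exact h x

/-- The Sylow `p`-subgroups of `G` have elementary abelian abelianization. -/
def SylPD (p : ℕ) (G : Type*) [Group G] : Prop :=
  ∀ P : Sylow p G, ∀ x : (P : Subgroup G), x ^ p ∈ commutator (P : Subgroup G)

theorem sylPD_of {p : ℕ} [Fact p.Prime] {G : Type*} [Group G] [Finite G] {T : Subgroup G}
    (hT : IsPGroup p T) (hi : ¬ p ∣ T.index) (h : PowDer p T) : SylPD p G := by
  intro P
  have e : (P : Subgroup G) ≃* (hT.toSylow hi : Subgroup G) := Sylow.equiv P (hT.toSylow hi)
  exact pd_of_equiv e.symm (pd_iff_powDer.mpr h)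

theorem sylPD_apply {p : ℕ} {G : Type*} [Group G] (h : SylPD p G) (P : Sylow p G) :
    PowDer p (P : Subgroup G) := pd_iff_powDer.mp (h P)

theorem sylPD_of_equiv {p : ℕ} [Fact p.Prime] {G H : Type*} [Group G] [Group H] [Finite G] [Finite H]
    (e : G ≃* H) (h : SylPD p G) : SylPD p H := by
  obtain ⟨P⟩ : Nonempty (Sylow p G) := inferInstance
  have h1 : ¬ p ∣ ((P : Subgroup G).map e.toMonoidHom).index := by
    rw [Subgroup.index_map_of_bijective e.bijective]
    exact P.not_dvd_index
  exact sylPD_of (P.isPGroup'.map e.toMonoidHom) h1 (powDer_map _ (sylPD_apply h P))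

/-- A subgroup of index prime to `p`. -/
theorem sylPD_of_injective {p : ℕ} [Fact p.Prime] {G H : Type*} [Group G] [Group H] [Finite G] [Finite H]
    (f : G →* H) (hf : Function.Injective f) (hi : ¬ p ∣ f.range.index) (h : SylPD p G) :
    SylPD p H := by
  obtain ⟨P⟩ : Nonempty (Sylow p G) := inferInstance
  have h1 : ¬ p ∣ ((P : Subgroup G).map f).index := by
    have h2 := Subgroup.card_mul_index (P : Subgroup G)
    have h3 := Subgroup.card_mul_index ((P : Subgroup G).map f)
    have h4 := Subgroup.card_mul_index f.range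
    rw [Subgroup.card_map_of_injective hf] at h3
    have h5 : Nat.card f.range = Nat.card G :=
      Nat.card_congr (MonoidHom.ofInjective hf).symm.toEquiv
    rw [h5, ← h2, mul_assoc] at h4
    have h6 : ((P : Subgroup G).map f).index = (P : Subgroup G).index * f.range.index :=
      Nat.eq_of_mul_eq_mul_left Nat.card_pos (h3.trans h4.symm)
    rw [h6, (Fact.out : p.Prime).dvd_mul]
    exact fun h7 => h7.elim P.not_dvd_index hi
  exact sylPD_of (P.isPGroup'.map f) h1 (powDer_map _ (sylPD_apply h P))

theorem relIndex_dvd_index {G' : Type*} [Group G'] [Finite G'] {H K : Subgroup G'} [K.Normal] : H.relIndex K ∣ H.index := by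
  have h1 : (K ⊓ H).relIndex H * H.relIndex (H ⊔ K) = (K ⊓ H).relIndex (H ⊔ K) :=
    Subgroup.relIndex_mul_relIndex _ _ _ inf_le_right le_sup_left
  have h2 : (K ⊓ H).relIndex K * K.relIndex (H ⊔ K) = (K ⊓ H).relIndex (H ⊔ K) :=
    Subgroup.relIndex_mul_relIndex _ _ _ inf_le_left le_sup_right
  rw [Subgroup.relIndex_sup_right, Subgroup.inf_relIndex_left] at h2
  rw [Subgroup.inf_relIndex_right] at h1
  have h3 : K.relIndex H ≠ 0 := (Subgroup.index_ne_zero_of_finite : (K.subgroupOf H).index ≠ 0)
  have h4 : H.relIndex (H ⊔ K) = H.relIndex K := by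
    apply Nat.eq_of_mul_eq_mul_left (Nat.pos_of_ne_zero h3)
    rw [h1, ← h2, mul_comm]
  rw [← h4]
  exact Subgroup.relIndex_dvd_index_of_le le_sup_left

/-- Sylow subgroups of a normal subgroup. -/
theorem sylPD_normal {p : ℕ} [Fact p.Prime] {G : Type*} [Group G] [Finite G] {T N : Subgroup G}
    (hN : N.Normal) (hT : IsPGroup p T) (hi : ¬ p ∣ T.index) (h : PowDer p (T ⊓ N)) : SylPD p N := by
  have h1 : ¬ p ∣ (T.subgroupOf N).index := by
    intro h2
    apply hi
    exact dvd_trans h2 relIndex_dvd_index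
  refine sylPD_of (hT.of_injective (Subgroup.inclusion inf_le_left |>.comp
    (MonoidHom.mk' (fun x : T.subgroupOf N => (⟨(x : N), x.2, (x : N).2⟩ : (T ⊓ N : Subgroup G)))
      (fun a b => rfl))) ?_) h1 ?_
  · intro a b hab
    have h2 := congrArg Subtype.val hab
    exact Subtype.ext (Subtype.ext h2)
  · rw [← pd_iff_powDer]
    have e : ↥(T ⊓ N) ≃* ↥(T.subgroupOf N) :=
      { toFun := fun x => ⟨⟨x, x.2.2⟩, x.2.1⟩
        invFun := fun x => ⟨(x : N), x.2, (x : N).2⟩
        left_inv := fun x => rfl
        right_inv := fun x => rfl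
        map_mul' := fun x y => rfl }
    exact pd_of_equiv e (pd_iff_powDer.mpr h)

end Cfsg.Agent.Lib.SylAb
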