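import Cfsg.Agent.Lib.SylAbWr2

/-!
# Linear wreath products

`linData`: a copy of `(D ≀ S_k) × E` in the linear group of `(Fin k → F × F) × R`.
-/

set_option autoImplicit false

open scoped commutatorElement

namespace Cfsg.Agent.Lib.SylAb

namespace WrData

variable {G G' D E : Type*} [Group G] [Group G'] [Group D] [Group E] {k : ℕ}

/-- Restriction of the codomain. -/
def cod (W : WrData G D E k) (H : Subgroup G) (hb : ∀ f, W.base f ∈ H) (hs : ∀ π, W.s π ∈ H)
    (he : ∀ x, W.e x ∈ H) : WrData H D E k where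
  base := W.base.codRestrict H hb
  s := W.s.codRestrict H hs
  e := W.e.codRestrict H he
  conj π f := Subtype.ext (W.conj π f)
  comm_base f x := Subtype.ext (W.comm_base f x)
  comm_s f x := Subtype.ext (W.comm_s f x)
  inj f π x h := W.inj f π x (congrArg Subtype.val h)

/-- Transport along an injective homomorphism. -/
def map (W : WrData G D E k) (φ : G →* G') (hφ : Function.Injective φ) : WrData G' D E k where
  base := φ.comp W.base
  s := φ.comp W.s
  e := φ.comp W.e
  conj π f := by
    simp only [MonoidHom.comp_apply]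
    rw [← W.conj π f, map_mul, map_mul, map_inv]
  comm_base f x := (W.comm_base f x).map φ
  comm_s f x := (W.comm_s f x).map φ
  inj f π x h := by
    apply W.inj f π x
    apply hφ
    simp only [MonoidHom.comp_apply] at h
    rw [map_mul, map_mul, h, map_one]

end WrData

section

variable {F R D E : Type*} [Field F] [AddCommGroup R] [Module F R] [Group D] [Group E] {k : ℕ}

/-- The base group. -/
def linBase (R : Type*) [AddCommGroup R] [Module F R] (k : ℕ) (ρ : D →* ((F × F) ≃ₗ[F] (F × F))) :
    (Fin k → D) →* (((Fin k → F × F) × R) ≃ₗ[F] ((Fin k → F × F) × R)) where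
  toFun f := LinearEquiv.prodCongr (LinearEquiv.piCongrRight fun i => ρ (f i)) (LinearEquiv.refl F R)
  map_one' := by
    apply LinearEquiv.ext
    rintro ⟨v, r⟩
    apply Prod.ext
    · funext i
      change ρ 1 (v i) = v i
      rw [map_one]
      rfl
    · rfl
  map_mul' f g := by
    apply LinearEquiv.ext
    rintro ⟨v, r⟩
    apply Prod.ext
    · funext i
      change ρ (f i * g i) (v i) = ρ (f i) (ρ (g i) (v i))
      rw [map_mul]
      rfl
    · rfl

theorem linBase_apply (ρ : D →* ((F × F) ≃ₗ[F] (F × F))) (f : Fin k → D) (v : Fin k → F × F) (r : R) :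
    linBase R k ρ f (v, r) = (fun i => ρ (f i) (v i), r) := rfl

/-- The permutations of the blocks. -/
def linTop (F R : Type*) [Field F] [AddCommGroup R] [Module F R] (k : ℕ) :
    Equiv.Perm (Fin k) →* (((Fin k → F × F) × R) ≃ₗ[F] ((Fin k → F × F) × R)) where
  toFun π := LinearEquiv.prodCongr (LinearEquiv.funCongrLeft F (F × F) π⁻¹) (LinearEquiv.refl F R)
  map_one' := rfl
  map_mul' _ _ := rfl

theorem linTop_apply (π : Equiv.Perm (Fin k)) (v : Fin k → F × F) (r : R) :
    linTop F R k π (v, r) = (fun i => v (π⁻¹ i), r) := rfl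

/-- The action on the remaining part. -/
def linE (k : ℕ) (τ : E →* (R ≃ₗ[F] R)) :
    E →* (((Fin k → F × F) × R) ≃ₗ[F] ((Fin k → F × F) × R)) where
  toFun x := LinearEquiv.prodCongr (LinearEquiv.refl F _) (τ x)
  map_one' := by
    apply LinearEquiv.ext
    rintro ⟨v, r⟩
    apply Prod.ext
    · rfl
    · change τ 1 r = r
      rw [map_one]
      rfl
  map_mul' f g := by
    apply LinearEquiv.ext
    rintro ⟨v, r⟩
    apply Prod.ext
    · rfl
    · change τ (f * g) r = τ f (τ g r)
      rw [map_mul]
      rfl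

theorem linE_apply (τ : E →* (R ≃ₗ[F] R)) (x : E) (v : Fin k → F × F) (r : R) :
    linE k τ x (v, r) = (v, τ x r) := rfl

/-- A copy of `(D ≀ S_k) × E` in the linear group. -/
def linData (k : ℕ) (ρ : D →* ((F × F) ≃ₗ[F] (F × F))) (hρ : Function.Injective ρ)
    (τ : E →* (R ≃ₗ[F] R)) (hτ : Function.Injective τ) :
    WrData (((Fin k → F × F) × R) ≃ₗ[F] ((Fin k → F × F) × R)) D E k where
  base := linBase R k ρ
  s := linTop F R k
  e := linE k τ
  conj π f := by
    rw [mul_inv_eq_iff_eq_mul]
    apply LinearEquiv.ext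
    rintro ⟨v, r⟩
    rfl
  comm_base f x := by
    apply LinearEquiv.ext
    rintro ⟨v, r⟩
    rfl
  comm_s f x := by
    apply LinearEquiv.ext
    rintro ⟨v, r⟩
    rfl
  inj f π x h := by
    have h1 : ∀ v r, ((fun i => ρ (f i) (v (π⁻¹ i)), τ x r) : (Fin k → F × F) × R) = (v, r) :=
      fun v r => congrArg (fun g : ((Fin k → F × F) × R) ≃ₗ[F] ((Fin k → F × F) × R) => g (v, r)) h
    have hπ : π = 1 := by
      rw [← inv_eq_one]
      ext i
      by_contra hi
      have h2 := congrFun (congrArg Prod.fst (h1 (Pi.single i (1, 0)) 0)) i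
      simp only [Pi.single_eq_same] at h2
      have h4 : (Pi.single i ((1 : F), (0 : F)) : Fin k → F × F) (π⁻¹ i) = 0 :=
        Pi.single_eq_of_ne (fun h3 => hi (congrArg Fin.val h3)) _
      rw [h4, map_zero] at h2
      exact zero_ne_one (congrArg Prod.fst h2)
    subst hπ
    refine ⟨?_, rfl, ?_⟩
    · funext i
      apply hρ
      rw [Pi.one_apply, map_one]
      apply LinearEquiv.ext
      intro w
      exact congrFun (congrArg Prod.fst (h1 (fun _ => w) 0)) i
    · apply hτ
      rw [map_one]
      apply LinearEquiv.ext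
      intro r
      exact congrArg Prod.snd (h1 0 r)

/-- Exchange of the first coordinates of the blocks `i` and `j`. -/
def halfSwap (F R : Type*) [Field F] [AddCommGroup R] [Module F R] (i j : Fin k) :
    ((Fin k → F × F) × R) ≃ₗ[F] ((Fin k → F × F) × R) where
  toFun v := (fun l => ((v.1 (Equiv.swap i j l)).1, (v.1 l).2), v.2)
  invFun v := (fun l => ((v.1 (Equiv.swap i j l)).1, (v.1 l).2), v.2)
  map_add' _ _ := rfl
  map_smul' _ _ := rfl
  left_inv v := by
    apply Prod.ext
    · funext l
      simp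
    · rfl
  right_inv v := by
    apply Prod.ext
    · funext l
      simp
    · rfl

/-- Exchange of the two coordinates in all blocks. -/
def allSwap (k : ℕ) (F R : Type*) [Field F] [AddCommGroup R] [Module F R] :
    ((Fin k → F × F) × R) ≃ₗ[F] ((Fin k → F × F) × R) where
  toFun v := (fun l => ((v.1 l).2, (v.1 l).1), v.2)
  invFun v := (fun l => ((v.1 l).2, (v.1 l).1), v.2)
  map_add' _ _ := rfl
  map_smul' _ _ := rfl
  left_inv _ := rfl
  right_inv _ := rfl

theorem linTop_swap (i j : Fin k) : linTop F R k (Equiv.swap i j) =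
    ⁅halfSwap F R i j, allSwap k F R⁆ := by
  rw [commutatorElement_def, eq_mul_inv_iff_mul_eq, eq_mul_inv_iff_mul_eq]
  apply LinearEquiv.ext
  rintro ⟨v, r⟩
  apply Prod.ext
  · funext l
    change ((v ((Equiv.swap i j)⁻¹ l)).2, (v (Equiv.swap i j ((Equiv.swap i j)⁻¹ l))).1) =
      ((v (Equiv.swap i j l)).2, (v l).1)
    rw [Equiv.swap_inv, Equiv.swap_apply_self]
  · rfl

end

end Cfsg.Agent.Lib.SylAb
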