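import Cfsg.Agent.Lib.SylAbOrth2
import Cfsg.Agent.Lib.QuadIndex2

/-!
# Sylow 2-subgroups of `Ω₄⁺(q)`
-/

set_option autoImplicit false

open scoped commutatorElement

namespace Cfsg.Agent.Lib.SylAb

open Cfsg.Agent.Lib.Quad Cfsg.Agent.Lib.TwoRankOrth

variable {F : Type*} [Field F]

theorem rot_sq_of {g : (F × F) ≃ₗ[F] (F × F)} (hg : g ∈ O (Q₀ F)) (h2 : (2 : F) ≠ 0) : IsRot (g ^ 2) := by
  rcases rot_or_ref h2 hg with h | h
  · rw [pow_two]
    exact rot_mul h h
  · rw [ref_sq h]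
    exact rot_one

theorem eq_one_or_neg_of_rot_sq {g : (F × F) ≃ₗ[F] (F × F)} (hg : IsRot g) (h2 : (2 : F) ≠ 0)
    (h : g ^ 2 = 1) : ∃ c : F, (c = 1 ∨ c = -1) ∧ ∀ v, g v = c • v := by
  obtain ⟨a, b, hab, hxy⟩ := hg
  have h1 : g (g (1, 0)) = (1, 0) := LinearEquiv.congr_fun h (1, 0)
  rw [hxy, hxy] at h1
  simp only [Prod.mk.injEq] at h1
  have e1 : a * a - b * b = 1 := by linear_combination h1.1
  have e2 : 2 * (b * b) = 0 := by linear_combination hab - e1
  have e3 : b = 0 := mul_self_eq_zero.mp ((mul_eq_zero.mp e2).resolve_left h2)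
  subst e3
  have e4 : (a - 1) * (a + 1) = 0 := by linear_combination hab
  refine ⟨a, ?_, ?_⟩
  · rcases mul_eq_zero.mp e4 with h | h
    · left; linear_combination h
    · right; linear_combination h
  · rintro ⟨x, y⟩
    rw [hxy]
    ext <;> simp

/-- The rotations in a subgroup of `O(x² + y²)`. -/
def rotSub (P : Subgroup (O (Q₀ F))) : Subgroup P where
  carrier := {g | IsRot ((g : O (Q₀ F)) : (F × F) ≃ₗ[F] (F × F))}
  one_mem' := rot_one
  mul_mem' := fun h1 h2 => rot_mul h1 h2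
  inv_mem' := fun h => rot_inv h

variable [Fintype F]

theorem index_commutator_le (h2 : (2 : F) ≠ 0) (P : Sylow 2 (O (Q₀ F))) :
    (commutator (P : Subgroup (O (Q₀ F)))).index ≤ 4 ∧
      commutator (P : Subgroup (O (Q₀ F))) ≤ rotSub (P : Subgroup (O (Q₀ F))) := by
  obtain ⟨r, hrP, hr⟩ := exists_ref h2 P
  let R := rotSub (P : Subgroup (O (Q₀ F)))
  have hle : commutator (P : Subgroup (O (Q₀ F))) ≤ R := by
    rw [commutator_eq_closure, Subgroup.closure_le]
    rintro g ⟨x, y, rfl⟩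
    have h3 : ⁅x, y⁆ = x ^ 2 * (x⁻¹ * y) ^ 2 * (y ^ 2)⁻¹ := by
      rw [commutatorElement_def, pow_two, pow_two, pow_two]
      group
    rw [h3]
    have h4 : ∀ z : (P : Subgroup (O (Q₀ F))), z ^ 2 ∈ R := fun z => rot_sq_of z.1.2 h2
    exact mul_mem (mul_mem (h4 _) (h4 _)) (inv_mem (h4 _))
  refine ⟨?_, hle⟩
  have hR : R.index = 2 := by
    rw [Subgroup.index_eq_two_iff]
    refine ⟨⟨r, hrP⟩, fun b => ?_⟩
    rcases rot_or_ref h2 b.1.2 with h | h
    · right
      refine ⟨h, fun h3 => ?_⟩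
      have h4 : IsRot (((b : O (Q₀ F)) : (F × F) ≃ₗ[F] (F × F)) * ((r : O (Q₀ F)) : (F × F) ≃ₗ[F] (F × F))) := h3
      exact not_ref_of_rot h2 h4 (rot_mul_ref h hr)
    · left
      exact ⟨ref_mul_ref h hr, fun h3 => not_ref_of_rot h2 h3 h⟩
  -- squaring on `R`
  let sq : R →* R :=
    { toFun := fun x => x ^ 2
      map_one' := one_pow 2
      map_mul' := fun x y => by
        have : x * y = y * x := by
          apply Subtype.ext
          apply Subtype.ext
          apply Subtype.ext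
          exact rot_comm x.2 y.2
        exact (show Commute x y from this).mul_pow 2 }
  have hker : Nat.card sq.ker ≤ 2 := by
    let φ : sq.ker → ({1, -1} : Set F) := fun x =>
      ⟨(x.1.1.1.1 (1, 0)).1, by
        obtain ⟨c, hc, hcv⟩ := eq_one_or_neg_of_rot_sq x.1.2 h2
          (congrArg (fun z : R => ((z : (P : Subgroup (O (Q₀ F)))) : O (Q₀ F)).1) x.2)
        have : (x.1.1.1.1 (1, 0)).1 = c := by
          change ((((x.1.1 : (P : Subgroup (O (Q₀ F)))) : O (Q₀ F)).1 : (F × F) ≃ₗ[F] (F × F)) (1, 0)).1 = c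
          rw [hcv]
          simp
        rw [this]
        rcases hc with h | h
        · left; exact h
        · right; exact h⟩
    have hφ : Function.Injective φ := by
      intro x y hxy
      have h3 : (x.1.1.1.1 (1, 0)).1 = (y.1.1.1.1 (1, 0)).1 := congrArg Subtype.val hxy
      obtain ⟨c, hc, hcv⟩ := eq_one_or_neg_of_rot_sq x.1.2 h2
        (congrArg (fun z : R => ((z : (P : Subgroup (O (Q₀ F)))) : O (Q₀ F)).1) x.2)
      obtain ⟨c', hc', hcv'⟩ := eq_one_or_neg_of_rot_sq y.1.2 h2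
        (congrArg (fun z : R => ((z : (P : Subgroup (O (Q₀ F)))) : O (Q₀ F)).1) y.2)
      have h4 : (x.1.1.1.1 (1, 0)).1 = c := by
        change ((((x.1.1 : (P : Subgroup (O (Q₀ F)))) : O (Q₀ F)).1 : (F × F) ≃ₗ[F] (F × F)) (1, 0)).1 = c
        rw [hcv]
        simp
      have h5 : (y.1.1.1.1 (1, 0)).1 = c' := by
        change ((((y.1.1 : (P : Subgroup (O (Q₀ F)))) : O (Q₀ F)).1 : (F × F) ≃ₗ[F] (F × F)) (1, 0)).1 = c'
        rw [hcv']
        simp
      rw [h4, h5] at h3
      apply Subtype.ext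
      apply Subtype.ext
      apply Subtype.ext
      apply Subtype.ext
      apply LinearEquiv.ext
      intro v
      have h6 := hcv v
      have h7 := hcv' v
      rw [← h3] at h7
      exact h6.trans h7.symm
    calc Nat.card sq.ker ≤ Nat.card ({1, -1} : Set F) := Nat.card_le_card_of_injective φ hφ
      _ ≤ 2 := by
        rw [Nat.card_coe_set_eq]
        exact Set.ncard_insert_le _ _ |>.trans (by simp)
  have hidx : sq.range.index ≤ 2 := by
    have h3 : Nat.card sq.range * sq.range.index = Nat.card R := Subgroup.card_mul_index _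
    have h4 : Nat.card sq.range * Nat.card sq.ker = Nat.card R := by
      rw [← Subgroup.index_ker, mul_comm]
      exact Subgroup.card_mul_index _
    have h5 : 0 < Nat.card sq.range := Nat.card_pos
    have h6 : sq.range.index = Nat.card sq.ker := by
      apply Nat.eq_of_mul_eq_mul_left h5
      rw [h3, h4]
    rw [h6]
    exact hker
  have hrange : sq.range ≤ (commutator (P : Subgroup (O (Q₀ F)))).subgroupOf R := by
    rintro _ ⟨x, rfl⟩
    rw [Subgroup.mem_subgroupOf]
    exact pd_plane h2 P x.1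
  have h3 : (commutator (P : Subgroup (O (Q₀ F)))).relIndex R ≤ 2 := by
    have h4 : ((commutator (P : Subgroup (O (Q₀ F)))).subgroupOf R).index ∣ sq.range.index :=
      Subgroup.index_dvd_of_le hrange
    exact (Nat.le_of_dvd (Nat.pos_of_ne_zero Subgroup.index_ne_zero_of_finite) h4).trans hidx
  rw [← Subgroup.relIndex_mul_index hle, hR]
  omega

theorem sylPD_commutator_O_two (hF : Odd (Fintype.card F)) (δ : Fin 0 → F)
    (hcard : (Nat.card (O (Qs 2 δ))).factorization 2 =
      ((Fintype.card F) ^ 2 - 1).factorization 2 * 2 + ((2 : ℕ).factorial).factorization 2 + 0)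
    (h4 : (commutator (O (Qs 2 δ))).index = 4) :
    SylPD 2 (commutator (O (Qs 2 δ))) := by
  have h2 := two_ne_zero_of_odd hF
  obtain ⟨P⟩ : Nonempty (Sylow 2 (O (Q₀ F))) := inferInstance
  obtain ⟨S⟩ : Nonempty (Sylow 2 (Equiv.Perm (Fin 2))) := inferInstance
  have hD : Nat.card (P : Subgroup (O (Q₀ F))) = 2 ^ ((Fintype.card F) ^ 2 - 1).factorization 2 := by
    rw [card_sylow_fact, fact_card_plane hF]
  have hS : Nat.card (S : Subgroup (Equiv.Perm (Fin 2))) = 2 ^ ((2 : ℕ).factorial).factorization 2 := by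
    rw [card_sylow_fact, Nat.card_perm, Nat.card_fin]
  have hStop : (S : Subgroup (Equiv.Perm (Fin 2))) = ⊤ := by
    apply Subgroup.eq_top_of_card_eq
    rw [hS, Nat.card_perm, Nat.card_fin, Nat.factorial_two, Nat.Prime.factorization_self Nat.prime_two]
    norm_num
  have hE : Nat.card (Fin 0 → ℤˣ) = 2 ^ 0 := by
    rw [Nat.card_fun, Nat.card_fin]
    simp
  obtain ⟨W, hW⟩ : ∃ W : WrData (O (Qs 2 δ)) (P : Subgroup (O (Q₀ F))) (Fin 0 → ℤˣ) 2,
      ∀ π, W.s π ∈ commutator (O (Qs 2 δ)) := ⟨orthData h2 δ P, orthData_s_mem h2 δ P⟩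
  have h1 : IsPGroup 2 (W.T S) := WrData.isPGroup_T hD hS hE
  have h3 : ¬ 2 ∣ (W.T S).index := WrData.not_dvd_index_T hD hS hE hcard
  obtain ⟨hc4, hrot⟩ := index_commutator_le h2 P
  obtain ⟨r, hrP, hr⟩ := exists_ref h2 P
  have hinv : ∀ y ∈ commutator (P : Subgroup (O (Q₀ F))), ∃ σ : (P : Subgroup (O (Q₀ F))),
      σ * y * σ⁻¹ = y⁻¹ := by
    intro y hy
    exact ⟨⟨r, hrP⟩, Subtype.ext (Subtype.ext (ref_conj_rot (hrot hy) hr))⟩
  let π : O (Qs 2 δ) →* O (Qs 2 δ) ⧸ commutator (O (Qs 2 δ)) := QuotientGroup.mk' _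
  have hπ : ∀ g ∈ commutator (O (Qs 2 δ)), π g = 1 := fun g hg => (QuotientGroup.eq_one_iff g).mpr hg
  let f := π.comp (W.d 0)
  have hab : ∀ a b : O (Qs 2 δ) ⧸ commutator (O (Qs 2 δ)), a * b = b * a := fun a b =>
    mul_comm (G := Abelianization (O (Qs 2 δ))) a b
  have hT : (W.T S).map π ≤ f.range := by
    rw [Subgroup.map_le_iff_le_comap]
    intro g hg
    rw [WrData.mem_T] at hg
    obtain ⟨b, τ, -, x, rfl⟩ := hg
    obtain rfl : x = 1 := Subsingleton.elim _ _
    rw [map_one, mul_one]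
    refine mul_mem ?_ ?_
    · apply WrData.base_mem_of
      intro i
      rw [Subgroup.mem_comap]
      refine ⟨b i, ?_⟩
      have h5 : W.d i (b i) = W.s (Equiv.swap 0 i) * W.d 0 (b i) * (W.s (Equiv.swap 0 i))⁻¹ := by
        rw [WrData.d_conj, Equiv.swap_apply_left]
      change π (W.d 0 (b i)) = π (W.d i (b i))
      rw [h5, map_mul, map_mul, map_inv, hab (π (W.s _)), mul_inv_cancel_right]
    · rw [Subgroup.mem_comap, hπ _ (hW τ)]
      exact one_mem _
  have htop : W.T S ⊔ commutator (O (Qs 2 δ)) = ⊤ := by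
    rw [← Subgroup.index_eq_one]
    have h5 : (W.T S ⊔ commutator (O (Qs 2 δ))).index ∣ (W.T S).index :=
      Subgroup.index_dvd_of_le le_sup_left
    have h6 : (W.T S ⊔ commutator (O (Qs 2 δ))).index ∣ 2 ^ 2 := by
      have := Subgroup.index_dvd_of_le (H := commutator (O (Qs 2 δ)))
        (K := W.T S ⊔ commutator (O (Qs 2 δ))) le_sup_right
      rwa [h4] at this
    rw [Nat.dvd_prime_pow Nat.prime_two] at h6
    obtain ⟨t, -, ht⟩ := h6
    rcases Nat.eq_zero_or_pos t with h7 | h7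
    · rw [ht, h7, pow_zero]
    · exfalso
      apply h3
      refine dvd_trans ?_ h5
      rw [ht]
      exact dvd_pow_self 2 h7.ne'
  have hfs : Function.Surjective f := by
    rw [← MonoidHom.range_eq_top, eq_top_iff]
    refine le_trans ?_ hT
    intro y _
    obtain ⟨g, rfl⟩ := QuotientGroup.mk'_surjective _ y
    have hg : g ∈ W.T S ⊔ commutator (O (Qs 2 δ)) := by rw [htop]; exact Subgroup.mem_top _
    rw [Subgroup.mem_sup_of_normal_right] at hg
    obtain ⟨t, ht, c, hc, rfl⟩ := hg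
    refine ⟨t, ht, ?_⟩
    change π t = π (t * c)
    rw [map_mul, hπ c hc, mul_one]
  have hki : f.ker.index = 4 := by
    rw [Subgroup.index_ker, MonoidHom.range_eq_top.mpr hfs, Subgroup.card_top]
    exact h4
  have hker : ∀ x : (P : Subgroup (O (Q₀ F))), W.d 0 x ∈ commutator (O (Qs 2 δ)) →
      x ∈ commutator (P : Subgroup (O (Q₀ F))) := by
    intro x hx
    have hx' : x ∈ f.ker := hπ _ hx
    have hle : commutator (P : Subgroup (O (Q₀ F))) ≤ f.ker := by
      intro y hy
      exact hπ _ (by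
        rw [commutator_def]
        exact hom_mem_commutator (W.d 0) (P := ⊤) (fun _ => Subgroup.mem_top _) hy)
    have h5 := Subgroup.relIndex_mul_index hle
    rw [hki] at h5
    have h6 : (commutator (P : Subgroup (O (Q₀ F)))).relIndex f.ker = 1 := by
      have h7 : (commutator (P : Subgroup (O (Q₀ F)))).relIndex f.ker ≠ 0 := by
        intro h
        rw [h, zero_mul] at h5
        exact Subgroup.index_ne_zero_of_finite h5.symm
      omega
    rw [Subgroup.relIndex_eq_one] at h6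
    exact h6 hx'
  have hsw : Equiv.swap (0 : Fin 2) 1 ∈ (S : Subgroup (Equiv.Perm (Fin 2))) := by
    rw [hStop]
    exact Subgroup.mem_top _
  have h5 : PowDer 2 (W.T S ⊓ commutator (O (Qs 2 δ))) := WrData.powDer_two le_rfl hW hsw hker hinv
  exact sylPD_normal inferInstance h1 h3 h5

theorem sylPD_omega_two (hF : Odd (Fintype.card F)) {ι : Type} [Fintype ι] [DecidableEq ι]
    (Q : QuadraticForm F (ι → F)) (hnd : Nd Q) {d : ι → F} (hQ : LEquiv Q (diagForm d)) (hd : ∀ i, d i ≠ 0)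
    (hc : Fintype.card ι = 2 * 2 + 0) {s : F} (hs : s ≠ 0) (h : 1 = s ^ 2 * ∏ i, d i)
    (hcard : (Nat.card (O Q)).factorization 2 =
      ((Fintype.card F) ^ 2 - 1).factorization 2 * 2 + ((2 : ℕ).factorial).factorization 2 + 0) :
    SylPD 2 (Cfsg.Omega F ⇑Q) := by
  have hne : Nonempty ι := by
    rw [← Fintype.card_pos_iff]
    omega
  obtain ⟨e, he⟩ := exists_isometry hF hQ hd hc hne ![] (fun t => t.elim0) hs (by simpa using h)
  obtain ⟨e1⟩ := LowDim.omega_equiv' e he
  have hO : Nat.card (O Q) = Nat.card (O (Qs 2 (![] : Fin 0 → F))) := Nat.card_congr (QuadNorm.Ocongr e he).toEquiv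
  refine sylPD_of_equiv e1.symm (sylPD_Om (sylPD_commutator_O_two hF ![] ?_ ?_))
  · rw [← hcard, hO]
  · have h5 := LowDim.card_Omega_odd hnd (two_ne_zero_of_odd hF) (by
      rw [Module.finrank_fintype_fun_eq_card, hc]; norm_num)
    rw [ClOrthOrd.card_isometryGroup, Nat.card_congr e1.toEquiv, hO] at h5
    have h6 : Nat.card (Om (Qs 2 (![] : Fin 0 → F))) = Nat.card (commutator (O (Qs 2 (![] : Fin 0 → F)))) := by
      have h7 : (commutator (O (Qs 2 (![] : Fin 0 → F)))).map (O (Qs 2 (![] : Fin 0 → F))).subtype =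
          Om (Qs 2 (![] : Fin 0 → F)) := by
        rw [Subgroup.map_subtype_commutator]
        rfl
      rw [← h7]
      exact (Nat.card_congr ((commutator (O (Qs 2 (![] : Fin 0 → F)))).equivMapOfInjective
        (O (Qs 2 (![] : Fin 0 → F))).subtype (Subgroup.subtype_injective _)).toEquiv).symm
    rw [h6, ← Subgroup.card_mul_index (commutator (O (Qs 2 (![] : Fin 0 → F))))] at h5
    exact (Nat.eq_of_mul_eq_mul_left Nat.card_pos h5).symm

end Cfsg.Agent.Lib.SylAb
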