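import Cfsg.Agent.Lib.SylAbLin
import Cfsg.Agent.Lib.SylAbNum
import Cfsg.Agent.Lib.SylAbSym
import Cfsg.Agent.Lib.LowDim
import Cfsg.Agent.Lib.ClOrthOrd2
import Cfsg.Agent.Lib.QuadNorm
import Cfsg.Agent.Lib.TwoRankOrth

/-!
# Sylow 2-subgroups of orthogonal groups in odd characteristic
-/

set_option autoImplicit false

open scoped commutatorElement

namespace Cfsg.Agent.Lib.SylAb

open Cfsg.Agent.Lib.Quad Cfsg.Agent.Lib.TwoRankOrth

variable {F : Type*} [Field F]

/-- The plane `x² + y²`. -/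
noncomputable def Q₀ (F : Type*) [Field F] : QuadraticForm F (F × F) :=
  QuadraticMap.prod QuadraticMap.sq QuadraticMap.sq

theorem Q₀_apply (x y : F) : Q₀ F (x, y) = x * x + y * y := rfl

/-- `k` planes and a diagonal remainder. -/
noncomputable def Qs {j : ℕ} (k : ℕ) (δ : Fin j → F) :
    QuadraticForm F ((Fin k → F × F) × (Fin j → F)) :=
  (QuadraticMap.pi fun _ => Q₀ F).prod (QuadraticMap.weightedSumSquares F δ)

theorem Qs_apply {j : ℕ} (k : ℕ) (δ : Fin j → F) (v : Fin k → F × F) (r : Fin j → F) :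
    Qs k δ (v, r) = ∑ i, Q₀ F (v i) + ∑ t, δ t * (r t * r t) := by
  rw [Qs, QuadraticMap.prod_apply, QuadraticMap.pi_apply, QuadraticMap.weightedSumSquares_apply]
  rfl

/-- Every non-degenerate diagonal form over a finite field is of this shape. -/
theorem exists_isometry [Fintype F] (hF : Odd (Fintype.card F)) {ι : Type} [Fintype ι] [DecidableEq ι]
    {Q : (ι → F) → F} {d : ι → F} (hQ : LEquiv Q (diagForm d)) (hd : ∀ i, d i ≠ 0) {k j : ℕ}
    (hc : Fintype.card ι = 2 * k + j)
    (hne : Nonempty ι) (δ : Fin j → F) (hδ : ∀ t, δ t ≠ 0) {s : F} (hs : s ≠ 0)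
    (h : ∏ t, δ t = s ^ 2 * ∏ i, d i) :
    ∃ e : (ι → F) ≃ₗ[F] ((Fin k → F × F) × (Fin j → F)), ∀ v, Qs k δ (e v) = Q v := by
  obtain ⟨i₀⟩ := hne
  have ε : ι ≃ (Fin k × Fin 2) ⊕ Fin j := by
    apply Fintype.equivOfCardEq
    rw [hc, Fintype.card_sum, Fintype.card_prod, Fintype.card_fin, Fintype.card_fin, Fintype.card_fin,
      mul_comm]
  let d' : ι → F := fun i => Sum.elim (fun _ => 1) δ (ε i)
  have hd' : ∀ i, d' i ≠ 0 := by
    intro i
    change Sum.elim (fun _ => 1) δ (ε i) ≠ 0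
    rcases ε i with x | x
    · exact one_ne_zero
    · exact hδ x
  have hprod : ∏ i, d' i = ∏ t, δ t := by
    change ∏ i, Sum.elim (fun _ => 1) δ (ε i) = _
    rw [Equiv.prod_comp ε (Sum.elim (fun _ => 1) δ), Fintype.prod_sum_type]
    simp
  obtain ⟨e1, he1⟩ := hQ.trans (diagForm_lequiv hF d d' hd hd' i₀ s hs (hprod.trans h))
  let e2 : (ι → F) ≃ₗ[F] ((Fin k → F × F) × (Fin j → F)) :=
    { toFun := fun v => (fun i => (v (ε.symm (Sum.inl (i, 0))), v (ε.symm (Sum.inl (i, 1)))),
        fun t => v (ε.symm (Sum.inr t)))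
      invFun := fun w => fun l => Sum.elim (fun x : Fin k × Fin 2 => ![(w.1 x.1).1, (w.1 x.1).2] x.2)
        w.2 (ε l)
      map_add' := fun _ _ => rfl
      map_smul' := fun _ _ => rfl
      left_inv := by
        intro v
        funext l
        obtain ⟨x, rfl⟩ := ε.symm.surjective l
        simp only [Equiv.apply_symm_apply]
        rcases x with ⟨i, a⟩ | t
        · fin_cases a <;> rfl
        · rfl
      right_inv := by
        rintro ⟨w, r⟩
        simp }
  have he2 : ∀ v, Qs k δ (e2 v) = diagForm d' v := by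
    intro v
    have h1 : e2 v = (fun i => (v (ε.symm (Sum.inl (i, 0))), v (ε.symm (Sum.inl (i, 1)))),
        fun t => v (ε.symm (Sum.inr t))) := rfl
    rw [h1, Qs_apply, diagForm, ← Equiv.sum_comp ε.symm, Fintype.sum_sum_type,
      Fintype.sum_prod_type]
    congr 1
    · refine Finset.sum_congr rfl fun i _ => ?_
      rw [Q₀_apply, Fin.sum_univ_two]
      simp only [d', Equiv.apply_symm_apply, Sum.elim_inl]
      ring
    · refine Finset.sum_congr rfl fun t _ => ?_
      simp only [d', Equiv.apply_symm_apply, Sum.elim_inr]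
      ring
  refine ⟨e1.symm.trans e2, fun v => ?_⟩
  rw [LinearEquiv.trans_apply, he2, ← he1, LinearEquiv.apply_symm_apply]

end Cfsg.Agent.Lib.SylAb
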