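import Cfsg.Agent.Lib.SylAbPlCd

/-!
# Sylow 2-subgroups of `Ω` in odd characteristic: reduction
-/

set_option autoImplicit false

open scoped commutatorElement

namespace Cfsg.Agent.Lib.SylAb

open Cfsg.Agent.Lib.Quad Cfsg.Agent.Lib.TwoRankOrth

variable {F : Type*} [Field F] [Fintype F]

theorem sylPD_omega (hF : Odd (Fintype.card F)) {ι : Type} [Fintype ι] [DecidableEq ι]
    (Q : QuadraticForm F (ι → F)) {d : ι → F} (hQ : LEquiv Q (diagForm d)) (hd : ∀ i, d i ≠ 0)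
    {k j : ℕ} (hk : 3 ≤ k) (hc : Fintype.card ι = 2 * k + j) (δ : Fin j → F) (hδ : ∀ t, δ t ≠ 0)
    {s : F} (hs : s ≠ 0) (h : ∏ t, δ t = s ^ 2 * ∏ i, d i)
    (hcard : (Nat.card (O Q)).factorization 2 =
      ((Fintype.card F) ^ 2 - 1).factorization 2 * k + (k.factorial).factorization 2 + j) :
    SylPD 2 (Cfsg.Omega F ⇑Q) := by
  have hne : Nonempty ι := by
    rw [← Fintype.card_pos_iff]
    omega
  obtain ⟨e, he⟩ := exists_isometry hF hQ hd hc hne δ hδ hs h
  obtain ⟨e1⟩ := LowDim.omega_equiv' e he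
  refine sylPD_of_equiv e1.symm (sylPD_Om (sylPD_commutator_O hF hk δ ?_))
  rw [← hcard, Nat.card_congr (QuadNorm.Ocongr e he).toEquiv]

theorem sylow_result {p : ℕ} {G : Type*} [Group G] (h : SylPD p G) (P : Sylow p G) :
    ∀ x : (P : Subgroup G), x ^ p ∈ commutator (P : Subgroup G) := h P

end Cfsg.Agent.Lib.SylAb
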