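import Cfsg.Agent.Lib.SylAbPlane

/-!
# The Sylow 2-subgroups of `O(x² + y²)` and of `O` of `k` planes and a diagonal remainder
-/

set_option autoImplicit false

open scoped commutatorElement

namespace Cfsg.Agent.Lib.SylAb

open Cfsg.Agent.Lib.Quad Cfsg.Agent.Lib.TwoRankOrth

variable {F : Type*} [Field F] [Fintype F]

theorem two_ne_zero_of_odd (hF : Odd (Fintype.card F)) : (2 : F) ≠ 0 := by
  apply Ring.two_ne_zero
  intro h
  exact (Nat.not_even_iff_odd.mpr hF) (FiniteField.even_card_iff_char_two.mp h |> fun h => Nat.even_iff.mpr h)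

/-- The order of `O(x² + y²)`. -/
theorem card_plane (hF : Odd (Fintype.card F)) :
    (Fintype.card F % 4 = 1 → Nat.card (O (Q₀ F)) = 2 * (Fintype.card F - 1)) ∧
    (Fintype.card F % 4 = 3 → Nat.card (O (Q₀ F)) = 2 * (Fintype.card F + 1)) := by
  have h2 := two_ne_zero_of_odd hF
  constructor
  · intro h
    obtain ⟨i, hi⟩ : IsSquare (-1 : F) := by
      rw [FiniteField.isSquare_neg_one_iff]
      omega
    have hi0 : i ≠ 0 := by
      rintro rfl
      simp at hi
    let e : (Fin 1 ⊕ Fin 1 → F) ≃ₗ[F] (F × F) :=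
      { toFun := fun v => ((v (Sum.inl 0) + v (Sum.inr 0)) / 2, (v (Sum.inl 0) - v (Sum.inr 0)) / (2 * i))
        invFun := fun w => Sum.elim (fun _ => w.1 + i * w.2) (fun _ => w.1 - i * w.2)
        map_add' := by
          intro v w
          ext
          · simp only [Pi.add_apply, Prod.mk_add_mk]; ring
          · simp only [Pi.add_apply, Prod.mk_add_mk]; ring
        map_smul' := by
          intro c v
          ext
          · simp only [Pi.smul_apply, smul_eq_mul, RingHom.id_apply, Prod.smul_mk]; ring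
          · simp only [Pi.smul_apply, smul_eq_mul, RingHom.id_apply, Prod.smul_mk]; ring
        left_inv := by
          intro v
          funext l
          rcases l with l | l
          · obtain rfl : l = 0 := Subsingleton.elim _ _
            simp only [Sum.elim_inl]
            field_simp
            ring
          · obtain rfl : l = 0 := Subsingleton.elim _ _
            simp only [Sum.elim_inr]
            field_simp
            ring
        right_inv := by
          rintro ⟨x, y⟩
          ext
          · simp only [Sum.elim_inl, Sum.elim_inr]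
            field_simp
            ring
          · simp only [Sum.elim_inl, Sum.elim_inr]
            field_simp
            ring }
    have he : ∀ v, Q₀ F (e v) = quadPlus 1 F v := by
      intro v
      have h1 : e v = ((v (Sum.inl 0) + v (Sum.inr 0)) / 2, (v (Sum.inl 0) - v (Sum.inr 0)) / (2 * i)) := rfl
      have h3 : quadPlus 1 F v = v (Sum.inl 0) * v (Sum.inr 0) := by
        change Cfsg.quadFormPlus 1 F v = _
        simp [Cfsg.quadFormPlus]
      rw [h1, Q₀_apply, h3]
      field_simp
      linear_combination (-(v (Sum.inl 0) - v (Sum.inr 0)) ^ 2) * hi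
    have h4 := Nat.card_congr (QuadNorm.Ocongr e he).toEquiv
    rw [← h4, ClOrthOrd.card_O_plus]
    simp
  · intro h
    have hns : ¬ IsSquare (-1 : F) := by
      rw [FiniteField.isSquare_neg_one_iff]
      omega
    have hab : ∀ z₁ z₂ : F, z₁ ^ 2 + 0 * z₁ * z₂ + 1 * z₂ ^ 2 = 0 → z₁ = 0 ∧ z₂ = 0 := by
      intro z₁ z₂ hz
      have h3 : z₂ = 0 := by
        by_contra hz2
        apply hns
        refine ⟨z₁ / z₂, ?_⟩
        field_simp
        linear_combination -hz
      refine ⟨?_, h3⟩
      rw [h3] at hz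
      simpa using hz
    let e := ClOrthOrd.coordE F
    have he : ∀ v, Q₀ F (e v) = quadMinus 0 F 0 1 v := by
      intro v
      rw [ClOrthOrd.Q_coord]
      change (e v).1 * (e v).1 + (e v).2 * (e v).2 = _
      ring
    have h4 := Nat.card_congr (QuadNorm.Ocongr e he).toEquiv
    rw [← h4, ClOrthOrd.card_O_minus_zero hab]

theorem fact_card_plane (hF : Odd (Fintype.card F)) :
    (Nat.card (O (Q₀ F))).factorization 2 = ((Fintype.card F) ^ 2 - 1).factorization 2 := by
  have hq : 1 < Fintype.card F := Fintype.one_lt_card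
  have h0 := v2_split hF hq (m := 1) one_pos
  have h00 : (1 : ℕ).factorization 2 = 0 := by simp
  rw [pow_one, h00, add_zero] at h0
  have h3 : Fintype.card F % 4 = 1 ∨ Fintype.card F % 4 = 3 := by
    have := Nat.odd_iff.mp hF
    omega
  have h22 : (2 : ℕ).factorization 2 = 1 := Nat.Prime.factorization_self Nat.prime_two
  rcases h3 with h | h
  · rw [(card_plane hF).1 h, Nat.factorization_mul (by norm_num) (by omega), Finsupp.add_apply, ← h0,
      h22, fact_one_of_mod (n := Fintype.card F + 1) (by omega), add_comm]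
  · rw [(card_plane hF).2 h, Nat.factorization_mul (by norm_num) (by omega), Finsupp.add_apply, ← h0,
      h22, fact_one_of_mod (n := Fintype.card F - 1) (by omega)]

/-- Sign changes. -/
def signs (F : Type*) [Field F] (j : ℕ) : (Fin j → ℤˣ) →* ((Fin j → F) ≃ₗ[F] (Fin j → F)) where
  toFun x :=
    { toFun := fun r t => ((x t : ℤ) : F) * r t
      invFun := fun r t => ((x t : ℤ) : F) * r t
      map_add' := fun r s => by
        funext t
        simp only [Pi.add_apply]
        ring
      map_smul' := fun c r => by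
        funext t
        simp only [Pi.smul_apply, smul_eq_mul, RingHom.id_apply]
        ring
      left_inv := fun r => by
        funext t
        simp only
        rcases Int.units_eq_one_or (x t) with h | h <;> rw [h] <;> simp
      right_inv := fun r => by
        funext t
        simp only
        rcases Int.units_eq_one_or (x t) with h | h <;> rw [h] <;> simp }
  map_one' := by
    apply LinearEquiv.ext
    intro r
    funext t
    change (((1 : ℤˣ) : ℤ) : F) * r t = r t
    simp
  map_mul' x y := by
    apply LinearEquiv.ext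
    intro r
    funext t
    change (((x t * y t : ℤˣ) : ℤ) : F) * r t = ((x t : ℤ) : F) * (((y t : ℤ) : F) * r t)
    push_cast
    ring

theorem signs_apply (j : ℕ) (x : Fin j → ℤˣ) (r : Fin j → F) (t : Fin j) :
    signs F j x r t = ((x t : ℤ) : F) * r t := rfl

theorem signs_injective (h2 : (2 : F) ≠ 0) (j : ℕ) : Function.Injective (signs F j) := by
  rw [injective_iff_map_eq_one]
  intro x hx
  funext t
  have h := congrFun (LinearEquiv.congr_fun hx (fun _ => 1)) t
  rw [signs_apply] at h
  change _ = (1 : F) at h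
  rcases Int.units_eq_one_or (x t) with h1 | h1
  · exact h1
  · exfalso
    rw [h1] at h
    apply h2
    push_cast at h
    linear_combination -h

theorem signs_sq (j : ℕ) (x : Fin j → ℤˣ) (r : Fin j → F) (t : Fin j) :
    signs F j x r t * signs F j x r t = r t * r t := by
  rw [signs_apply]
  rcases Int.units_eq_one_or (x t) with h | h <;> rw [h] <;> simp

theorem halfSwap_mem {j k : ℕ} (δ : Fin j → F) (a b : Fin k) :
    halfSwap F (Fin j → F) a b ∈ O (Qs k δ) := by
  rintro ⟨v, r⟩
  change Qs k δ (fun l => ((v (Equiv.swap a b l)).1, (v l).2), r) = _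
  rw [Qs_apply, Qs_apply]
  congr 1
  simp only [Q₀_apply]
  rw [Finset.sum_add_distrib]
  have : ∀ i, Q₀ F (v i) = (v i).1 * (v i).1 + (v i).2 * (v i).2 := fun i => rfl
  simp only [this]
  rw [Finset.sum_add_distrib]
  congr 1
  exact Equiv.sum_comp (Equiv.swap a b) (fun i => (v i).1 * (v i).1)

theorem allSwap_mem {j k : ℕ} (δ : Fin j → F) : allSwap k F (Fin j → F) ∈ O (Qs k δ) := by
  rintro ⟨v, r⟩
  change Qs k δ (fun l => ((v l).2, (v l).1), r) = _
  rw [Qs_apply, Qs_apply]
  congr 1
  refine Finset.sum_congr rfl fun i _ => ?_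
  change (v i).2 * (v i).2 + (v i).1 * (v i).1 = (v i).1 * (v i).1 + (v i).2 * (v i).2
  ring

theorem linTop_mem {j k : ℕ} (δ : Fin j → F) (π : Equiv.Perm (Fin k)) :
    linTop F (Fin j → F) k π ∈ O (Qs k δ) := by
  rintro ⟨v, r⟩
  rw [linTop_apply, Qs_apply, Qs_apply]
  congr 1
  exact Equiv.sum_comp π⁻¹ (fun i => Q₀ F (v i))

/-- The standard 2-subgroup of the orthogonal group. -/
noncomputable def orthData {j k : ℕ} (h2 : (2 : F) ≠ 0) (δ : Fin j → F) (P : Sylow 2 (O (Q₀ F))) :
    WrData (O (Qs k δ)) (P : Subgroup (O (Q₀ F))) (Fin j → ℤˣ) k :=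
  (linData k ((O (Q₀ F)).subtype.comp (P : Subgroup (O (Q₀ F))).subtype)
    ((Subgroup.subtype_injective _).comp (Subgroup.subtype_injective _))
    (signs F j) (signs_injective h2 j)).cod (O (Qs k δ))
    (by
      intro f
      rintro ⟨v, r⟩
      change Qs k δ (linBase (Fin j → F) k _ f (v, r)) = _
      rw [linBase_apply, Qs_apply, Qs_apply]
      congr 1
      refine Finset.sum_congr rfl fun i _ => ?_
      exact (f i).1.2 (v i))
    (fun π => linTop_mem δ π)
    (by
      intro x
      rintro ⟨v, r⟩
      change Qs k δ (linE k (signs F j) x (v, r)) = _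
      rw [linE_apply, Qs_apply, Qs_apply]
      congr 1
      refine Finset.sum_congr rfl fun t _ => ?_
      rw [signs_sq])

theorem orthData_s {j k : ℕ} (h2 : (2 : F) ≠ 0) (δ : Fin j → F) (P : Sylow 2 (O (Q₀ F)))
    (π : Equiv.Perm (Fin k)) : (((orthData h2 δ P).s π : O (Qs k δ)) :
      ((Fin k → F × F) × (Fin j → F)) ≃ₗ[F] ((Fin k → F × F) × (Fin j → F))) =
      linTop F (Fin j → F) k π := rfl

theorem orthData_s_mem {j k : ℕ} (h2 : (2 : F) ≠ 0) (δ : Fin j → F) (P : Sylow 2 (O (Q₀ F)))
    (π : Equiv.Perm (Fin k)) : (orthData h2 δ P).s π ∈ commutator (O (Qs k δ)) := by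
  induction π using Equiv.Perm.swap_induction_on with
  | one => rw [map_one]; exact one_mem _
  | swap_mul f x y hxy hf =>
    rw [map_mul]
    refine mul_mem ?_ hf
    have h1 : (orthData h2 δ P).s (Equiv.swap x y) =
        ⁅(⟨halfSwap F (Fin j → F) x y, halfSwap_mem δ x y⟩ : O (Qs k δ)),
          ⟨allSwap k F (Fin j → F), allSwap_mem δ⟩⁆ := by
      apply Subtype.ext
      rw [orthData_s, linTop_swap]
      rfl
    rw [h1, commutator_def]
    exact Subgroup.commutator_mem_commutator (Subgroup.mem_top _) (Subgroup.mem_top _)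

instance {j k : ℕ} : Finite (((Fin k → F × F) × (Fin j → F)) ≃ₗ[F] ((Fin k → F × F) × (Fin j → F))) :=
  DFunLike.finite _

theorem card_sylow_fact {p : ℕ} [Fact p.Prime] {G : Type*} [Group G] [Finite G] (P : Sylow p G) :
    Nat.card (P : Subgroup G) = p ^ (Nat.card G).factorization p := P.card_eq_multiplicity

theorem sylPD_commutator_O (hF : Odd (Fintype.card F)) {j k : ℕ} (hk : 3 ≤ k) (δ : Fin j → F)
    (hcard : (Nat.card (O (Qs k δ))).factorization 2 =
      ((Fintype.card F) ^ 2 - 1).factorization 2 * k + (k.factorial).factorization 2 + j) :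
    SylPD 2 (commutator (O (Qs k δ))) := by
  have h2 := two_ne_zero_of_odd hF
  obtain ⟨P⟩ : Nonempty (Sylow 2 (O (Q₀ F))) := inferInstance
  obtain ⟨S⟩ : Nonempty (Sylow 2 (Equiv.Perm (Fin k))) := inferInstance
  have hD : Nat.card (P : Subgroup (O (Q₀ F))) = 2 ^ ((Fintype.card F) ^ 2 - 1).factorization 2 := by
    rw [card_sylow_fact, fact_card_plane hF]
  have hS : Nat.card (S : Subgroup (Equiv.Perm (Fin k))) = 2 ^ (k.factorial).factorization 2 := by
    rw [card_sylow_fact, Nat.card_perm, Nat.card_fin]
  have hE : Nat.card (Fin j → ℤˣ) = 2 ^ j := by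
    rw [Nat.card_fun, Nat.card_fin]
    congr 1
    rw [Nat.card_eq_fintype_card, Fintype.card_units_int]
  obtain ⟨W, hW⟩ : ∃ W : WrData (O (Qs k δ)) (P : Subgroup (O (Q₀ F))) (Fin j → ℤˣ) k,
      ∀ π, W.s π ∈ commutator (O (Qs k δ)) := ⟨orthData h2 δ P, orthData_s_mem h2 δ P⟩
  have hE2 : ∀ x : Fin j → ℤˣ, x ^ 2 = 1 := by
    intro x
    funext t
    rw [Pi.pow_apply, Pi.one_apply]
    rcases Int.units_eq_one_or (x t) with h | h <;> rw [h] <;> simp
  have h1 : IsPGroup 2 (W.T S) := WrData.isPGroup_T hD hS hE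
  have h3 : ¬ 2 ∣ (W.T S).index := WrData.not_dvd_index_T hD hS hE hcard
  have h4 : PowDer 2 (W.T S ⊓ commutator (O (Qs k δ))) :=
    WrData.powDer_three hk (pd_plane h2 P) hE2 (sylPD_apply (sylPD_perm k) S) le_rfl hW
  exact sylPD_normal inferInstance h1 h3 h4

theorem sylPD_Om {V : Type*} [AddCommGroup V] [Module F V] [Finite V] {Q : QuadraticForm F V}
    (h : SylPD 2 (commutator (O Q))) : SylPD 2 (Om Q) := by
  haveI : Finite (V ≃ₗ[F] V) := DFunLike.finite _
  refine sylPD_of_equiv ?_ h
  refine ((commutator (O Q)).equivMapOfInjective (O Q).subtype (Subgroup.subtype_injective _)).trans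
    (MulEquiv.subgroupCongr ?_)
  rw [Subgroup.map_subtype_commutator]
  rfl

end Cfsg.Agent.Lib.SylAb
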