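import Cfsg.Agent.Lib.SylAbOrth

/-!
# The orthogonal group of the plane `x² + y²` in odd characteristic
-/

set_option autoImplicit false

open scoped commutatorElement

namespace Cfsg.Agent.Lib.SylAb

open Cfsg.Agent.Lib.Quad Cfsg.Agent.Lib.TwoRankOrth

variable {F : Type*} [Field F]

/-- `g` is a rotation. -/
def IsRot (g : (F × F) ≃ₗ[F] (F × F)) : Prop :=
  ∃ a b : F, a * a + b * b = 1 ∧ ∀ x y, g (x, y) = (a * x - b * y, b * x + a * y)

/-- `g` is a reflection. -/
def IsRef (g : (F × F) ≃ₗ[F] (F × F)) : Prop :=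
  ∃ a b : F, a * a + b * b = 1 ∧ ∀ x y, g (x, y) = (a * x + b * y, b * x - a * y)

theorem rot_or_ref (h2 : (2 : F) ≠ 0) {g : (F × F) ≃ₗ[F] (F × F)} (hg : g ∈ O (Q₀ F)) :
    IsRot g ∨ IsRef g := by
  obtain ⟨a, b, hab⟩ : ∃ a b, g (1, 0) = (a, b) := ⟨_, _, rfl⟩
  obtain ⟨c, d, hcd⟩ : ∃ a b, g (0, 1) = (a, b) := ⟨_, _, rfl⟩
  have hxy : ∀ x y, g (x, y) = (a * x + c * y, b * x + d * y) := by
    intro x y
    have : ((x, y) : F × F) = x • (1, 0) + y • (0, 1) := by simp
    rw [this, map_add, map_smul, map_smul, hab, hcd]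
    simp only [Prod.smul_mk, smul_eq_mul, Prod.mk_add_mk]
    rw [mul_comm x, mul_comm y, mul_comm x, mul_comm y]
  have hQ : ∀ x y, (a * x + c * y) * (a * x + c * y) + (b * x + d * y) * (b * x + d * y) =
      x * x + y * y := by
    intro x y
    have := hg (x, y)
    rwa [hxy, Q₀_apply, Q₀_apply] at this
  have e1 : a * a + b * b = 1 := by linear_combination hQ 1 0
  have e2 : c * c + d * d = 1 := by linear_combination hQ 0 1
  have e3 : a * c + b * d = 0 := by
    have : 2 * (a * c + b * d) = 0 := by linear_combination hQ 1 1 - hQ 1 0 - hQ 0 1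
    exact (mul_eq_zero.mp this).resolve_left h2
  -- `(c, d) = l (-b, a)`, `l = a d - b c`, `l² = 1`
  have e4 : (a * d - b * c) * (a * d - b * c) = 1 := by
    linear_combination (a * a + b * b) * e2 + e1 - (a * c + b * d) * e3
  have e5 : c = -((a * d - b * c) * b) := by linear_combination -c * e1 + a * e3
  have e6 : d = (a * d - b * c) * a := by linear_combination -d * e1 + b * e3
  have e7 : (a * d - b * c - 1) * (a * d - b * c + 1) = 0 := by linear_combination e4
  rcases mul_eq_zero.mp e7 with h | h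
  · left
    have hl : a * d - b * c = 1 := by linear_combination h
    rw [hl] at e5 e6
    refine ⟨a, b, e1, fun x y => ?_⟩
    rw [hxy, e5, e6]
    ext <;> ring
  · right
    have hl : a * d - b * c = -1 := by linear_combination h
    rw [hl] at e5 e6
    refine ⟨a, b, e1, fun x y => ?_⟩
    rw [hxy, e5, e6]
    ext <;> ring

theorem ref_sq {g : (F × F) ≃ₗ[F] (F × F)} (hg : IsRef g) : g ^ 2 = 1 := by
  obtain ⟨a, b, hab, hxy⟩ := hg
  apply LinearEquiv.ext
  rintro ⟨x, y⟩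
  rw [pow_two]
  change g (g (x, y)) = (x, y)
  rw [hxy, hxy]
  ext
  · simp only
    linear_combination x * hab
  · simp only
    linear_combination y * hab

theorem ref_conj_rot {g r : (F × F) ≃ₗ[F] (F × F)} (hg : IsRot g) (hr : IsRef r) :
    r * g * r⁻¹ = g⁻¹ := by
  rw [mul_inv_eq_iff_eq_mul, eq_inv_mul_iff_mul_eq]
  obtain ⟨a, b, hab, hxy⟩ := hg
  obtain ⟨c, d, hcd, hrxy⟩ := hr
  apply LinearEquiv.ext
  rintro ⟨x, y⟩
  change g (r (g (x, y))) = r (x, y)
  rw [hxy, hrxy, hrxy, hxy]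
  ext
  · simp only
    linear_combination (c * x + d * y) * hab
  · simp only
    linear_combination (d * x - c * y) * hab

theorem rot_mul {g h : (F × F) ≃ₗ[F] (F × F)} (hg : IsRot g) (hh : IsRot h) : IsRot (g * h) := by
  obtain ⟨a, b, hab, hxy⟩ := hg
  obtain ⟨c, d, hcd, hrxy⟩ := hh
  refine ⟨a * c - b * d, b * c + a * d, ?_, fun x y => ?_⟩
  · linear_combination (c * c + d * d) * hab + hcd
  · change g (h (x, y)) = _
    rw [hrxy, hxy]
    ext
    · simp only; ring
    · simp only; ring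

theorem rot_comm {g h : (F × F) ≃ₗ[F] (F × F)} (hg : IsRot g) (hh : IsRot h) : g * h = h * g := by
  obtain ⟨a, b, hab, hxy⟩ := hg
  obtain ⟨c, d, hcd, hrxy⟩ := hh
  apply LinearEquiv.ext
  rintro ⟨x, y⟩
  change g (h (x, y)) = h (g (x, y))
  rw [hrxy, hxy, hxy, hrxy]
  ext
  · simp only; ring
  · simp only; ring

theorem rot_inv {g : (F × F) ≃ₗ[F] (F × F)} (hg : IsRot g) : IsRot g⁻¹ := by
  obtain ⟨a, b, hab, hxy⟩ := hg
  refine ⟨a, -b, by linear_combination hab, fun x y => ?_⟩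
  apply g.injective
  rw [← LinearEquiv.mul_apply, mul_inv_cancel, hxy]
  change (x, y) = _
  ext
  · simp only
    linear_combination -x * hab
  · simp only
    linear_combination -y * hab

theorem rot_one : IsRot (1 : (F × F) ≃ₗ[F] (F × F)) :=
  ⟨1, 0, by ring, fun x y => by simp⟩

theorem ref_mul_ref {g h : (F × F) ≃ₗ[F] (F × F)} (hg : IsRef g) (hh : IsRef h) : IsRot (g * h) := by
  obtain ⟨a, b, hab, hxy⟩ := hg
  obtain ⟨c, d, hcd, hrxy⟩ := hh
  refine ⟨a * c + b * d, b * c - a * d, ?_, fun x y => ?_⟩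
  · linear_combination (c * c + d * d) * hab + hcd
  · change g (h (x, y)) = _
    rw [hrxy, hxy]
    ext
    · simp only; ring
    · simp only; ring

theorem rot_mul_ref {g h : (F × F) ≃ₗ[F] (F × F)} (hg : IsRot g) (hh : IsRef h) : IsRef (g * h) := by
  obtain ⟨a, b, hab, hxy⟩ := hg
  obtain ⟨c, d, hcd, hrxy⟩ := hh
  refine ⟨a * c - b * d, b * c + a * d, ?_, fun x y => ?_⟩
  · linear_combination (c * c + d * d) * hab + hcd
  · change g (h (x, y)) = _
    rw [hrxy, hxy]
    ext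
    · simp only; ring
    · simp only; ring

theorem not_ref_of_rot (h2 : (2 : F) ≠ 0) {g : (F × F) ≃ₗ[F] (F × F)} (hg : IsRot g) : ¬ IsRef g := by
  rintro ⟨c, d, hcd, hrxy⟩
  obtain ⟨a, b, hab, hxy⟩ := hg
  have h1 := hxy 1 0
  have h3 := hxy 0 1
  rw [hrxy] at h1 h3
  simp only [Prod.mk.injEq] at h1 h3
  have e1 : c = a := by linear_combination h1.1
  have e2 : d = b := by linear_combination h1.2
  have e3 : d = -b := by linear_combination h3.1
  have e4 : -c = a := by linear_combination h3.2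
  have e5 : 2 * a = 0 := by linear_combination -e4 - e1
  have e6 : 2 * b = 0 := by linear_combination e3 - e2
  have e7 := (mul_eq_zero.mp e5).resolve_left h2
  have e8 := (mul_eq_zero.mp e6).resolve_left h2
  rw [e7, e8] at hab
  simp at hab

/-- The reflection `(x, y) ↦ (x, -y)`. -/
def refl₀ (F : Type*) [Field F] : (F × F) ≃ₗ[F] (F × F) where
  toFun v := (v.1, -v.2)
  invFun v := (v.1, -v.2)
  map_add' v w := by simp [add_comm]
  map_smul' c v := by simp
  left_inv v := by simp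
  right_inv v := by simp

theorem isRef_refl₀ : IsRef (refl₀ F) := ⟨1, 0, by ring, fun x y => by
  change (x, -y) = _
  simp⟩

theorem refl₀_mem : refl₀ F ∈ O (Q₀ F) := by
  rintro ⟨x, y⟩
  change Q₀ F (x, -y) = Q₀ F (x, y)
  rw [Q₀_apply, Q₀_apply]
  ring

variable [Fintype F]

instance : Finite ((F × F) ≃ₗ[F] (F × F)) := DFunLike.finite _

/-- A Sylow 2-subgroup of `O(x² + y²)` contains a reflection. -/
theorem exists_ref (h2 : (2 : F) ≠ 0) (P : Sylow 2 (O (Q₀ F))) :
    ∃ r ∈ (P : Subgroup (O (Q₀ F))), IsRef (r : (F × F) ≃ₗ[F] (F × F)) := by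
  by_contra hcon
  push Not at hcon
  have hrot : ∀ g ∈ (P : Subgroup (O (Q₀ F))), IsRot (g : (F × F) ≃ₗ[F] (F × F)) := fun g hg =>
    (rot_or_ref h2 g.2).resolve_right (hcon g hg)
  let r : O (Q₀ F) := ⟨refl₀ F, refl₀_mem⟩
  have hr : IsRef (r : (F × F) ≃ₗ[F] (F × F)) := isRef_refl₀
  have hr2 : r ^ 2 = 1 := Subtype.ext (ref_sq hr)
  have hN : r ∈ Subgroup.normalizer ((P : Subgroup (O (Q₀ F))) : Set (O (Q₀ F))) := by
    have h1 : ∀ g ∈ (P : Subgroup (O (Q₀ F))), r * g * r⁻¹ ∈ (P : Subgroup (O (Q₀ F))) := by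
      intro g hg
      have : r * g * r⁻¹ = g⁻¹ := Subtype.ext (ref_conj_rot (hrot g hg) hr)
      rw [this]
      exact inv_mem hg
    rw [Subgroup.mem_normalizer_iff]
    intro g
    refine ⟨h1 g, fun hg => ?_⟩
    have h3 := h1 _ hg
    have hr3 : r⁻¹ = r := by rw [inv_eq_iff_mul_eq_one, ← pow_two, hr2]
    have h4 : r * (r * g * r⁻¹) * r⁻¹ = g := by
      rw [hr3, ← mul_assoc, ← mul_assoc, ← pow_two, hr2, one_mul, mul_assoc, ← pow_two, hr2, mul_one]
    rwa [h4] at h3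
  have hp : IsPGroup 2 (Subgroup.zpowers r) := by
    rintro ⟨x, hx⟩
    obtain ⟨n, rfl⟩ := hx
    refine ⟨1, Subtype.ext ?_⟩
    change (r ^ n) ^ (2 ^ 1) = 1
    rw [pow_one, ← zpow_natCast, ← zpow_mul, mul_comm, zpow_mul, zpow_natCast, hr2, one_zpow]
  have h5 := hp.inf_normalizer_sylow P
  have h6 : r ∈ Subgroup.zpowers r ⊓ Subgroup.normalizer (P : Set (O (Q₀ F))) :=
    ⟨Subgroup.mem_zpowers r, hN⟩
  rw [h5] at h6
  exact not_ref_of_rot h2 (hrot r h6.2) hr

theorem pd_plane (h2 : (2 : F) ≠ 0) (P : Sylow 2 (O (Q₀ F))) : PD 2 (P : Subgroup (O (Q₀ F))) := by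
  obtain ⟨r, hrP, hr⟩ := exists_ref h2 P
  rw [pd_iff_powDer]
  intro g hg
  rcases rot_or_ref h2 g.2 with h | h
  · have h1 : r * g⁻¹ * r⁻¹ = g := by
      have := ref_conj_rot (rot_inv h) hr
      rw [inv_inv] at this
      exact Subtype.ext this
    have h3 : g ^ 2 = ⁅g, r⁆ := by
      have : ⁅g, r⁆ = g * (r * g⁻¹ * r⁻¹) := by
        rw [commutatorElement_def]; group
      rw [this, h1, pow_two]
    rw [h3]
    exact Subgroup.commutator_mem_commutator hg hrP
  · have : g ^ 2 = 1 := Subtype.ext (ref_sq h)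
    rw [this]
    exact one_mem _

end Cfsg.Agent.Lib.SylAb
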