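import Cfsg.Agent.Lib.SylAbSL2

/-!
# Sylow 2-subgroups of `SL_n` in odd characteristic
-/

set_option autoImplicit false

open scoped commutatorElement

namespace Cfsg.Agent.Lib.SylAb

variable {F : Type*} [Field F]

/-- The space. -/
abbrev Vk (F : Type*) (k : ℕ) : Type _ := (Fin k → F × F) × (Fin 0 → F)

theorem finrank_Vk (F : Type*) [Field F] (k : ℕ) : Module.finrank F (Vk F k) = 2 * k := by
  rw [Module.finrank_prod, Module.finrank_pi_fintype, Module.finrank_fintype_fun_eq_card, Fintype.card_fin,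
    Finset.sum_const, Finset.card_univ, Fintype.card_fin, Module.finrank_prod, Module.finrank_self, add_zero,
    smul_eq_mul, mul_comm]

theorem injective_of_subsingleton {A B : Type*} [Subsingleton A] (f : A → B) : Function.Injective f :=
  fun _ _ _ => Subsingleton.elim _ _

/-- A copy of `D ≀ S_k`. -/
def glData (k : ℕ) (P : Subgroup ((F × F) ≃ₗ[F] (F × F))) :
    WrData (Vk F k ≃ₗ[F] Vk F k) P (Fin 0 → ℤˣ) k :=
  linData k P.subtype (Subgroup.subtype_injective _) (1 : (Fin 0 → ℤˣ) →* ((Fin 0 → F) ≃ₗ[F] (Fin 0 → F)))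
    (injective_of_subsingleton _)

theorem det_glData_base (k : ℕ) (P : Subgroup ((F × F) ≃ₗ[F] (F × F))) (f : Fin k → P) :
    LinearEquiv.det ((glData k P).base f) = ∏ i, detOn P (f i) := by
  apply Units.ext
  rw [LinearEquiv.coe_det]
  have h1 : (((glData k P).base f : Vk F k ≃ₗ[F] Vk F k) : Vk F k →ₗ[F] Vk F k) =
      (LinearMap.pi fun i => (((f i : P) : (F × F) ≃ₗ[F] (F × F)) : (F × F) →ₗ[F] (F × F)).comp
        (LinearMap.proj i)).prodMap LinearMap.id := rfl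
  rw [h1, LinearMap.det_prodMap, LinearMap.det_pi, LinearMap.det_id, mul_one, Units.coe_prod]
  refine Finset.prod_congr rfl fun i _ => ?_
  exact (LinearEquiv.coe_det ((f i : P) : (F × F) ≃ₗ[F] (F × F))).symm

theorem det_glData_s (k : ℕ) (P : Subgroup ((F × F) ≃ₗ[F] (F × F))) (π : Equiv.Perm (Fin k)) :
    LinearEquiv.det ((glData k P).s π) = 1 := by
  induction π using Equiv.Perm.swap_induction_on with
  | one => rw [map_one, map_one]
  | swap_mul f x y hxy hf =>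
    rw [map_mul, map_mul, hf, mul_one]
    change LinearEquiv.det (linTop F (Fin 0 → F) k (Equiv.swap x y)) = 1
    rw [linTop_swap, map_commutatorElement, commutatorElement_eq_one_iff_mul_comm]
    exact mul_comm _ _

variable [Fintype F]

theorem fact_gl_Vk (hF : Odd (Fintype.card F)) (k : ℕ) : (Nat.card (Vk F k ≃ₗ[F] Vk F k)).factorization 2 =
    ((Fintype.card F - 1).factorization 2 + ((Fintype.card F) ^ 2 - 1).factorization 2) * k +
      (k.factorial).factorization 2 := by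
  have h1 : 1 < Fintype.card F := Fintype.one_lt_card
  have h2 : ∏ i ∈ Finset.range (2 * k), ((Fintype.card F) ^ (i + 1) - 1) ≠ 0 := by
    rw [Finset.prod_ne_zero_iff]
    intro i _
    have : 1 < (Fintype.card F) ^ (i + 1) := Nat.one_lt_pow (by omega) h1
    omega
  rw [← Nat.card_congr (glMul (finrank_Vk F k)).toEquiv, ClSLn.card_GL_formula rfl,
    Nat.factorization_mul (by positivity) h2, Finsupp.add_apply, v2_pow_odd hF, v2_gl hF h1, zero_add]

theorem card_E0 : Nat.card (Fin 0 → ℤˣ) = 2 ^ 0 := by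
  rw [Nat.card_fun, Nat.card_fin]
  simp

theorem wr_sylow (hF : Odd (Fintype.card F)) (k : ℕ) (P : Sylow 2 ((F × F) ≃ₗ[F] (F × F)))
    (S : Sylow 2 (Equiv.Perm (Fin k)))
    (W : WrData (Vk F k ≃ₗ[F] Vk F k) (P : Subgroup ((F × F) ≃ₗ[F] (F × F))) (Fin 0 → ℤˣ) k) :
    IsPGroup 2 (W.T S) ∧ ¬ 2 ∣ (W.T S).index := by
  have hD : Nat.card (P : Subgroup ((F × F) ≃ₗ[F] (F × F))) =
      2 ^ ((Fintype.card F - 1).factorization 2 + ((Fintype.card F) ^ 2 - 1).factorization 2) := by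
    rw [P.card_eq_multiplicity, fact_gl_plane hF]
  have hS : Nat.card (S : Subgroup (Equiv.Perm (Fin k))) = 2 ^ (k.factorial).factorization 2 := by
    rw [S.card_eq_multiplicity, Nat.card_perm, Nat.card_fin]
  exact ⟨WrData.isPGroup_T hD hS card_E0, WrData.not_dvd_index_T hD hS card_E0 (fact_gl_Vk hF k)⟩

omit [Fintype F] in
theorem sylPD_ker_abs {G D E A : Type*} [Group G] [Finite G] [Group D] [Group E] [Subsingleton E] [CommGroup A]
    {k : ℕ} {W : WrData G D E k} {S : Subgroup (Equiv.Perm (Fin k))} (h1 : IsPGroup 2 (W.T S))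
    (h2 : ¬ 2 ∣ (W.T S).index) (χ : G →* A) (δ : D →* A)
    (hχ : ∀ f, χ (W.base f) = ∏ i, δ (f i)) (hs : ∀ π, χ (W.s π) = 1) (hK : PowDer 2 δ.ker)
    {z : D} (hz : ∀ x : D, ∃ n : ℤ, x * (z ^ n)⁻¹ ∈ δ.ker) (hS : PowDer 2 S)
    (hk : 0 < k) (hzS : z ^ 2 = 1 ∨ ∀ i j, ∃ π ∈ S, π i = j) : SylPD 2 χ.ker :=
  sylPD_normal inferInstance h1 h2 (WrData.powDer_ker χ δ hχ hs hK hz hS hk hzS)

theorem sylPD_SL_aux (hF : Odd (Fintype.card F)) {k : ℕ} (hk : 0 < k) (P : Sylow 2 ((F × F) ≃ₗ[F] (F × F)))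
    (S : Sylow 2 (Equiv.Perm (Fin k))) (z : (P : Subgroup ((F × F) ≃ₗ[F] (F × F))))
    (hz : ∀ x : (P : Subgroup ((F × F) ≃ₗ[F] (F × F))), ∃ n : ℤ,
      x * (z ^ n)⁻¹ ∈ (detOn (P : Subgroup ((F × F) ≃ₗ[F] (F × F)))).ker)
    (hzS : z ^ 2 = 1 ∨ ∀ i j, ∃ π ∈ (S : Subgroup (Equiv.Perm (Fin k))), π i = j) :
    SylPD 2 (Matrix.SpecialLinearGroup (Fin (2 * k)) F) := by
  obtain ⟨W, hWb, hWs⟩ : ∃ W : WrData (Vk F k ≃ₗ[F] Vk F k) (P : Subgroup ((F × F) ≃ₗ[F] (F × F)))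
      (Fin 0 → ℤˣ) k, (∀ f, LinearEquiv.det (W.base f) =
        ∏ i, detOn (P : Subgroup ((F × F) ≃ₗ[F] (F × F))) (f i)) ∧
        ∀ π, LinearEquiv.det (W.s π) = 1 :=
    ⟨glData k (P : Subgroup ((F × F) ≃ₗ[F] (F × F))), det_glData_base k _, det_glData_s k _⟩
  obtain ⟨h1, h2⟩ := wr_sylow hF k P S W
  have hK := powDer_ker_det hF P
  have hS := sylPD_apply (sylPD_perm k) S
  exact sylPD_of_equiv (slMul (finrank_Vk F k)).symm
    (sylPD_ker_abs h1 h2 LinearEquiv.det _ hWb hWs hK hz hS hk hzS)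

theorem exists_trans_sylow (j : ℕ) : ∃ S : Sylow 2 (Equiv.Perm (Fin (2 ^ j))),
    ∀ a b, ∃ π ∈ (S : Subgroup (Equiv.Perm (Fin (2 ^ j)))), π a = b := by
  haveI : NeZero (2 ^ j) := ⟨by positivity⟩
  let H : Subgroup (Equiv.Perm (Fin (2 ^ j))) :=
    { carrier := {π | ∃ a : Fin (2 ^ j), ∀ x, π x = a + x}
      one_mem' := ⟨0, fun x => by simp⟩
      mul_mem' := by
        rintro π σ ⟨a, ha⟩ ⟨b, hb⟩
        refine ⟨a + b, fun x => ?_⟩
        rw [Equiv.Perm.mul_apply, hb, ha, add_assoc]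
      inv_mem' := by
        rintro π ⟨a, ha⟩
        refine ⟨-a, fun x => ?_⟩
        apply π.injective
        rw [ha (-a + x), add_neg_cancel_left, ← Equiv.Perm.mul_apply, mul_inv_cancel, Equiv.Perm.one_apply] }
  have hp : IsPGroup 2 H := by
    rintro ⟨π, a, ha⟩
    refine ⟨j, Subtype.ext ?_⟩
    change π ^ (2 ^ j) = 1
    have h1 : ∀ (n : ℕ) x, (π ^ n) x = n • a + x := by
      intro n
      induction n with
      | zero => intro x; simp
      | succ n ih =>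
        intro x
        rw [pow_succ, Equiv.Perm.mul_apply, ha, ih, succ_nsmul, add_assoc]
    apply Equiv.ext
    intro x
    rw [h1]
    have h2 : (2 ^ j) • a = 0 := by
      have := card_nsmul_eq_zero' (x := a)
      rwa [Nat.card_fin] at this
    rw [h2, zero_add]
    rfl
  obtain ⟨S, hS⟩ := hp.exists_le_sylow
  exact ⟨S, fun a b => ⟨Equiv.addLeft (b - a), hS ⟨b - a, fun x => rfl⟩, by simp⟩⟩

/-- Sylow 2-subgroups of `SL_{2m}(q)`. -/
theorem sylPD_SL_even (hF : Odd (Fintype.card F)) {m : ℕ} (hm : 1 ≤ m)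
    (hq : 4 ∣ Fintype.card F + 1 ∨ (4 ∣ Fintype.card F - 1 ∧ ∃ j : ℕ, m = 2 ^ j)) :
    SylPD 2 (Matrix.SpecialLinearGroup (Fin (2 * m)) F) := by
  rcases hq with h | ⟨-, j, rfl⟩
  · obtain ⟨P, z, hz2, hz⟩ := exists_sylow_three (F := F) (by omega)
    obtain ⟨S⟩ : Nonempty (Sylow 2 (Equiv.Perm (Fin m))) := inferInstance
    exact sylPD_SL_aux hF hm P S z hz (Or.inl hz2)
  · obtain ⟨P⟩ : Nonempty (Sylow 2 ((F × F) ≃ₗ[F] (F × F))) := inferInstance
    obtain ⟨z, hz⟩ := exists_gen_det (P : Subgroup ((F × F) ≃ₗ[F] (F × F)))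
    obtain ⟨S, hS⟩ := exists_trans_sylow j
    exact sylPD_SL_aux hF hm P S z hz (Or.inr hS)

/-- Sylow 2-subgroups of `GL_{2m}(q)`, `q ≡ 3 mod 4`. -/
theorem sylPD_GL_even (hF : Odd (Fintype.card F)) (hq : 4 ∣ Fintype.card F + 1) (m : ℕ) :
    SylPD 2 (GL (Fin (2 * m)) F) := by
  obtain ⟨P, z, hz2, hz⟩ := exists_sylow_three (F := F) (by omega)
  obtain ⟨S⟩ : Nonempty (Sylow 2 (Equiv.Perm (Fin m))) := inferInstance
  obtain ⟨h1, h2⟩ := wr_sylow hF m P S (glData m (P : Subgroup ((F × F) ≃ₗ[F] (F × F))))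
  have hD : PD 2 (P : Subgroup ((F × F) ≃ₗ[F] (F × F))) := by
    have hcl : Subgroup.closure (((detOn (P : Subgroup ((F × F) ≃ₗ[F] (F × F)))).ker :
        Set (P : Subgroup ((F × F) ≃ₗ[F] (F × F)))) ∪ {z}) = ⊤ := by
      rw [eq_top_iff]
      intro x _
      obtain ⟨n, hn⟩ := hz x
      have : x = (x * (z ^ n)⁻¹) * z ^ n := by rw [inv_mul_cancel_right]
      rw [this]
      exact mul_mem (Subgroup.subset_closure (Set.mem_union_left _ hn))
        (zpow_mem (Subgroup.subset_closure (Set.mem_union_right _ (Set.mem_singleton z))) n)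
    refine pd_of_closure hcl ?_
    rintro t (ht | ht)
    · rw [commutator_def]
      exact Subgroup.commutator_mono le_top le_top (powDer_ker_det hF P t ht)
    · rw [Set.mem_singleton_iff] at ht
      rw [ht, hz2]
      exact one_mem _
  have h3 : PowDer 2 ((glData m (P : Subgroup ((F × F) ≃ₗ[F] (F × F)))).T S) :=
    WrData.powDer_T hD (pd_of_comm fun x => Subsingleton.elim _ _) (sylPD_apply (sylPD_perm m) S)
  exact sylPD_of_equiv (glMul (finrank_Vk F m)).symm (sylPD_of h1 h2 h3)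

end Cfsg.Agent.Lib.SylAb
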