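import Cfsg.Agent.Lib.SylAbSLn

/-!
# Sylow 2-subgroups of `SL_{2m+1}`, `q ≡ 3 mod 4`
-/

set_option autoImplicit false

namespace Cfsg.Agent.Lib.SylAb

variable {F : Type*} [Field F]

/-- `g ↦ (g, det g⁻¹)`. -/
noncomputable def glUp (V : Type*) [AddCommGroup V] [Module F V] :
    (V ≃ₗ[F] V) →* ((V × F) ≃ₗ[F] (V × F)) where
  toFun g := LinearEquiv.prodCongr g (LinearEquiv.smulOfUnit (LinearEquiv.det g)⁻¹)
  map_one' := by
    apply LinearEquiv.ext
    rintro ⟨v, x⟩
    rw [map_one, inv_one]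
    change (v, (1 : Fˣ) • x) = (v, x)
    rw [one_smul]
  map_mul' g h := by
    apply LinearEquiv.ext
    rintro ⟨v, x⟩
    rw [map_mul, mul_inv]
    change (g (h v), ((LinearEquiv.det g)⁻¹ * (LinearEquiv.det h)⁻¹) • x) =
      (g (h v), (LinearEquiv.det g)⁻¹ • (LinearEquiv.det h)⁻¹ • x)
    rw [mul_smul]

theorem det_glUp (V : Type*) [AddCommGroup V] [Module F V] [Module.Finite F V] (g : V ≃ₗ[F] V) :
    LinearEquiv.det (glUp V g) = 1 := by
  apply Units.ext
  rw [LinearEquiv.coe_det]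
  have h1 : ((glUp V g : (V × F) ≃ₗ[F] (V × F)) : (V × F) →ₗ[F] (V × F)) =
      (g : V →ₗ[F] V).prodMap ((LinearEquiv.smulOfUnit (LinearEquiv.det g)⁻¹ : F ≃ₗ[F] F) : F →ₗ[F] F) := rfl
  rw [h1, LinearMap.det_prodMap, LinearMap.det_ring]
  change LinearMap.det (g : V →ₗ[F] V) * ((LinearEquiv.det g)⁻¹ • (1 : F)) = _
  rw [← LinearEquiv.coe_det, Units.smul_def, smul_eq_mul, mul_one, Units.mul_inv, Units.val_one]

/-- The embedding of `GL(V)` in `SL(V × F)`. -/
noncomputable def glSl (V : Type*) [AddCommGroup V] [Module F V] [Module.Finite F V] :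
    (V ≃ₗ[F] V) →* (LinearEquiv.det : ((V × F) ≃ₗ[F] (V × F)) →* Fˣ).ker :=
  (glUp V).codRestrict _ (det_glUp V)

theorem glSl_injective (V : Type*) [AddCommGroup V] [Module F V] [Module.Finite F V] :
    Function.Injective (glSl (F := F) V) := by
  intro g h hgh
  apply LinearEquiv.ext
  intro v
  have h1 : glUp V g = glUp V h := congrArg Subtype.val hgh
  exact congrArg Prod.fst (LinearEquiv.congr_fun h1 (v, 0))

variable [Fintype F]

theorem sylPD_SL_odd (hF : Odd (Fintype.card F)) (hq : 4 ∣ Fintype.card F + 1) (m : ℕ) :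
    SylPD 2 (Matrix.SpecialLinearGroup (Fin (2 * m + 1)) F) := by
  have hq1 : 1 < Fintype.card F := Fintype.one_lt_card
  have hV : Module.finrank F (Fin (2 * m) → F) = 2 * m := by
    rw [Module.finrank_fintype_fun_eq_card, Fintype.card_fin]
  have hVF : Module.finrank F ((Fin (2 * m) → F) × F) = 2 * m + 1 := by
    rw [Module.finrank_prod, hV, Module.finrank_self]
  have h1 : SylPD 2 ((Fin (2 * m) → F) ≃ₗ[F] (Fin (2 * m) → F)) :=
    sylPD_of_equiv (glMul hV) (sylPD_GL_even hF hq m)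
  have hc1 : Nat.card (glSl (F := F) (Fin (2 * m) → F)).range = Nat.card (GL (Fin (2 * m)) F) := by
    rw [← Nat.card_congr (MonoidHom.ofInjective (glSl_injective (F := F) (Fin (2 * m) → F))).toEquiv,
      Nat.card_congr (glMul hV).toEquiv]
  have hc2 : Nat.card (LinearEquiv.det : (((Fin (2 * m) → F) × F) ≃ₗ[F] ((Fin (2 * m) → F) × F)) →* Fˣ).ker =
      Nat.card (Matrix.SpecialLinearGroup (Fin (2 * m + 1)) F) := (Nat.card_congr (slMul hVF).toEquiv).symm
  have hi : ¬ 2 ∣ (glSl (F := F) (Fin (2 * m) → F)).range.index := by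
    have h2 := Subgroup.card_mul_index (glSl (F := F) (Fin (2 * m) → F)).range
    rw [hc1, hc2] at h2
    have h3 := ClSLn.card_SL_formula (F := F) rfl (2 * m + 1) (by omega)
    rw [← h2, ClSLn.card_GL_formula rfl] at h3
    have hP : ∏ i ∈ Finset.range (2 * m), ((Fintype.card F) ^ (i + 1) - 1) ≠ 0 := by
      rw [Finset.prod_ne_zero_iff]
      intro i _
      have : 1 < (Fintype.card F) ^ (i + 1) := Nat.one_lt_pow (by omega) hq1
      omega
    have hq2 : (Fintype.card F) ^ (2 * m + 1) - 1 ≠ 0 := by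
      have : 1 < (Fintype.card F) ^ (2 * m + 1) := Nat.one_lt_pow (by omega) hq1
      omega
    have hI : (glSl (F := F) (Fin (2 * m) → F)).range.index ≠ 0 := Subgroup.index_ne_zero_of_finite
    have hq3 : Fintype.card F - 1 ≠ 0 := by omega
    rw [Finset.prod_range_succ] at h3
    have h4 := congrArg (fun n : ℕ => n.factorization 2) h3
    simp only at h4
    have e1 : (Fintype.card F) ^ (2 * m * (2 * m - 1) / 2) ≠ 0 := by positivity
    have e2 : (Fintype.card F) ^ ((2 * m + 1) * (2 * m + 1 - 1) / 2) ≠ 0 := by positivity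
    rw [Nat.factorization_mul hq3 (mul_ne_zero (mul_ne_zero e1 hP) hI),
      Nat.factorization_mul (mul_ne_zero e1 hP) hI, Nat.factorization_mul e1 hP,
      Nat.factorization_mul e2 (mul_ne_zero hP hq2), Nat.factorization_mul hP hq2] at h4
    simp only [Finsupp.add_apply, v2_pow_odd hF] at h4
    rw [v2_pow_sub_one hF hq1 (odd_two_mul_add_one m)] at h4
    intro h5
    have h6 : 1 ≤ ((glSl (F := F) (Fin (2 * m) → F)).range.index).factorization 2 :=
      (Nat.prime_two.dvd_iff_one_le_factorization hI).mp h5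
    omega
  exact sylPD_of_equiv (slMul hVF).symm (sylPD_of_injective _ (glSl_injective _) hi h1)

end Cfsg.Agent.Lib.SylAb
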