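import Cfsg.Agent.Lib.SylAbSLn
import Cfsg.Agent.Lib.ClSympOrd

/-!
# Sylow 2-subgroups of `Sp_{2n}` in odd characteristic
-/

set_option autoImplicit false

open scoped commutatorElement

namespace Cfsg.Agent.Lib.SylAb

open Cfsg.Agent.Lib.ClIso Cfsg.Agent.Lib.ClSympOrd

variable {F : Type*} [Field F]

/-- The alternating form on `k` planes. -/
def spForm (F : Type*) [Field F] (k : ℕ) (u v : Vk F k) : F := ∑ i, planeForm (u.1 i) (v.1 i)

/-- `SL₂(F)` acting on `F × F`. -/
def sl2Act (F : Type*) [Field F] : Matrix.SpecialLinearGroup (Fin 2) F →* ((F × F) ≃ₗ[F] (F × F)) where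
  toFun g :=
    { toFun := fun v => (g.1 0 0 * v.1 + g.1 0 1 * v.2, g.1 1 0 * v.1 + g.1 1 1 * v.2)
      invFun := fun v => (g.1 1 1 * v.1 - g.1 0 1 * v.2, g.1 0 0 * v.2 - g.1 1 0 * v.1)
      map_add' := fun v w => by
        ext
        · simp only [Prod.fst_add, Prod.snd_add]; ring
        · simp only [Prod.fst_add, Prod.snd_add]; ring
      map_smul' := fun c v => by
        ext
        · simp only [Prod.smul_fst, Prod.smul_snd, smul_eq_mul, RingHom.id_apply]; ring
        · simp only [Prod.smul_fst, Prod.smul_snd, smul_eq_mul, RingHom.id_apply]; ring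
      left_inv := fun v => by
        have h := g.2
        rw [Matrix.det_fin_two] at h
        ext
        · simp only
          linear_combination v.1 * h
        · simp only
          linear_combination v.2 * h
      right_inv := fun v => by
        have h := g.2
        rw [Matrix.det_fin_two] at h
        ext
        · simp only
          linear_combination v.1 * h
        · simp only
          linear_combination v.2 * h }
  map_one' := by
    apply LinearEquiv.ext
    rintro ⟨x, y⟩
    change ((1 : Matrix (Fin 2) (Fin 2) F) 0 0 * x + (1 : Matrix (Fin 2) (Fin 2) F) 0 1 * y,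
      (1 : Matrix (Fin 2) (Fin 2) F) 1 0 * x + (1 : Matrix (Fin 2) (Fin 2) F) 1 1 * y) = (x, y)
    simp
  map_mul' g h := by
    apply LinearEquiv.ext
    rintro ⟨x, y⟩
    change ((g.1 * h.1) 0 0 * x + (g.1 * h.1) 0 1 * y, (g.1 * h.1) 1 0 * x + (g.1 * h.1) 1 1 * y) =
      (g.1 0 0 * (h.1 0 0 * x + h.1 0 1 * y) + g.1 0 1 * (h.1 1 0 * x + h.1 1 1 * y),
        g.1 1 0 * (h.1 0 0 * x + h.1 0 1 * y) + g.1 1 1 * (h.1 1 0 * x + h.1 1 1 * y))
    simp only [Matrix.mul_apply, Fin.sum_univ_two]
    ext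
    · simp only; ring
    · simp only; ring

theorem sl2Act_apply (g : Matrix.SpecialLinearGroup (Fin 2) F) (v : F × F) :
    sl2Act F g v = (g.1 0 0 * v.1 + g.1 0 1 * v.2, g.1 1 0 * v.1 + g.1 1 1 * v.2) := rfl

theorem sl2Act_injective : Function.Injective (sl2Act F) := by
  intro g h hgh
  have h1 := LinearEquiv.congr_fun hgh (1, 0)
  have h2 := LinearEquiv.congr_fun hgh (0, 1)
  rw [sl2Act_apply, sl2Act_apply] at h1 h2
  simp only [mul_one, mul_zero, add_zero, zero_add, Prod.mk.injEq] at h1 h2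
  apply Subtype.ext
  ext i j
  fin_cases i <;> fin_cases j
  · exact h1.1
  · exact h2.1
  · exact h1.2
  · exact h2.2

theorem planeForm_sl2 (g : Matrix.SpecialLinearGroup (Fin 2) F) (u v : F × F) :
    planeForm (sl2Act F g u) (sl2Act F g v) = planeForm u v := by
  have h := g.2
  rw [Matrix.det_fin_two] at h
  rw [sl2Act_apply, sl2Act_apply, planeForm, planeForm]
  simp only
  linear_combination (u.2 * v.1 - u.1 * v.2) * h

variable (F) in
/-- The standard equivalence. -/
def spEquiv (k : ℕ) : (Fin k ⊕ Fin k → F) ≃ₗ[F] Vk F k where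
  toFun v := (fun i => (v (Sum.inl i), v (Sum.inr i)), fun i => i.elim0)
  invFun w := Sum.elim (fun i => (w.1 i).1) (fun i => (w.1 i).2)
  map_add' _ _ := by
    apply Prod.ext
    · rfl
    · funext i; exact i.elim0
  map_smul' _ _ := by
    apply Prod.ext
    · rfl
    · funext i; exact i.elim0
  left_inv v := by
    funext i
    rcases i with i | i <;> rfl
  right_inv w := by
    apply Prod.ext
    · rfl
    · funext i; exact i.elim0

theorem spForm_equiv (k : ℕ) (u v : Fin k ⊕ Fin k → F) :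
    spForm F k (spEquiv F k u) (spEquiv F k v) = ClIso.sympForm (Fin k) F u v := by
  rw [sympForm_apply]
  rfl

/-- `Sp_{2k}(F)` as a group of linear maps. -/
noncomputable def spMul (k : ℕ) : Matrix.symplecticGroup (Fin k) F ≃* isoGrp F (spForm F k) :=
  (sympEquiv (Fin k) F).trans (isoGrpCongr (spEquiv F k) (fun u v => spForm_equiv k u v))

/-- A copy of `D ≀ S_k` in the symplectic group. -/
def spData (k : ℕ) (P : Subgroup (Matrix.SpecialLinearGroup (Fin 2) F)) :
    WrData (isoGrp F (spForm F k)) P (Fin 0 → ℤˣ) k :=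
  (linData k ((sl2Act F).comp P.subtype) (sl2Act_injective.comp (Subgroup.subtype_injective _))
    (1 : (Fin 0 → ℤˣ) →* ((Fin 0 → F) ≃ₗ[F] (Fin 0 → F))) (injective_of_subsingleton _)).cod _
    (by
      intro f
      rintro ⟨u, r⟩ ⟨v, s⟩
      change ∑ i, planeForm (sl2Act F (f i) (u i)) (sl2Act F (f i) (v i)) = ∑ i, planeForm (u i) (v i)
      exact Finset.sum_congr rfl fun i _ => planeForm_sl2 _ _ _)
    (by
      intro π
      rintro ⟨u, r⟩ ⟨v, s⟩
      change ∑ i, planeForm (u (π⁻¹ i)) (v (π⁻¹ i)) = ∑ i, planeForm (u i) (v i)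
      exact Equiv.sum_comp π⁻¹ (fun i => planeForm (u i) (v i)))
    (by
      intro x
      rintro ⟨u, r⟩ ⟨v, s⟩
      rfl)

variable [Fintype F]

theorem sylPD_Sp (hF : Odd (Fintype.card F)) (k : ℕ) : SylPD 2 (Matrix.symplecticGroup (Fin k) F) := by
  have hq : 1 < Fintype.card F := Fintype.one_lt_card
  obtain ⟨P⟩ : Nonempty (Sylow 2 (Matrix.SpecialLinearGroup (Fin 2) F)) := inferInstance
  obtain ⟨S⟩ : Nonempty (Sylow 2 (Equiv.Perm (Fin k))) := inferInstance
  have hG : (Nat.card (isoGrp F (spForm F k))).factorization 2 =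
      ((Fintype.card F) ^ 2 - 1).factorization 2 * k + (k.factorial).factorization 2 + 0 := by
    have h2 : ∏ i ∈ Finset.range k, ((Fintype.card F) ^ (2 * (i + 1)) - 1) ≠ 0 := by
      rw [Finset.prod_ne_zero_iff]
      intro i _
      have : 1 < (Fintype.card F) ^ (2 * (i + 1)) := Nat.one_lt_pow (by omega) hq
      omega
    rw [← Nat.card_congr (spMul (F := F) k).toEquiv, card_symplectic, Nat.factorization_mul (by positivity) h2,
      Finsupp.add_apply, v2_pow_odd hF, v2_prod hF hq, zero_add, add_zero]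
  have hD : Nat.card (P : Subgroup (Matrix.SpecialLinearGroup (Fin 2) F)) =
      2 ^ ((Fintype.card F) ^ 2 - 1).factorization 2 := by
    have h2 : 1 < (Fintype.card F) ^ 2 := Nat.one_lt_pow two_ne_zero hq
    have h3 := v2_pow_odd hF 1
    rw [pow_one] at h3
    rw [P.card_eq_multiplicity, ClSL2.card_SL2 rfl, Nat.factorization_mul (by omega) (by omega),
      Finsupp.add_apply, h3, zero_add]
  have hS : Nat.card (S : Subgroup (Equiv.Perm (Fin k))) = 2 ^ (k.factorial).factorization 2 := by
    rw [S.card_eq_multiplicity, Nat.card_perm, Nat.card_fin]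
  obtain ⟨W⟩ : Nonempty (WrData (isoGrp F (spForm F k)) (P : Subgroup (Matrix.SpecialLinearGroup (Fin 2) F))
    (Fin 0 → ℤˣ) k) := ⟨spData k _⟩
  have h1 : IsPGroup 2 (W.T S) := WrData.isPGroup_T hD hS card_E0
  have h2 : ¬ 2 ∣ (W.T S).index := WrData.not_dvd_index_T hD hS card_E0 hG
  have h3 : PowDer 2 (W.T S) :=
    WrData.powDer_T (sylPD_SL2 hF P) (pd_of_comm fun x => Subsingleton.elim _ _) (sylPD_apply (sylPD_perm k) S)
  exact sylPD_of_equiv (spMul (F := F) k).symm (sylPD_of h1 h2 h3)

end Cfsg.Agent.Lib.SylAb
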