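import Cfsg.Agent.Lib.SylAbBase

/-!
# Wreath type configurations in a group

`WrData G D E k`: homomorphisms `base : (Fin k → D) →* G`, `s : Perm (Fin k) →* G`, `e : E →* G` with the
relations of `(D ≀ S_k) × E`. The subgroup `W.T S` is the image of `(D ≀ S) × E`.
-/

set_option autoImplicit false

open scoped commutatorElement

namespace Cfsg.Agent.Lib.SylAb

/-- A copy of `(D ≀ S_k) × E` in `G`. -/
structure WrData (G D E : Type*) [Group G] [Group D] [Group E] (k : ℕ) where
  base : (Fin k → D) →* G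
  s : Equiv.Perm (Fin k) →* G
  e : E →* G
  conj : ∀ π f, s π * base f * (s π)⁻¹ = base (fun i => f (π⁻¹ i))
  comm_base : ∀ f x, Commute (base f) (e x)
  comm_s : ∀ π x, Commute (s π) (e x)
  inj : ∀ f π x, base f * s π * e x = 1 → f = 1 ∧ π = 1 ∧ x = 1

/-- Permutation of the coordinates. -/
def permAut (D : Type*) [Group D] (k : ℕ) : Equiv.Perm (Fin k) →* MulAut (Fin k → D) where
  toFun π :=
    { toFun := fun f i => f (π⁻¹ i)
      invFun := fun f i => f (π i)
      left_inv := fun f => by funext i; simp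
      right_inv := fun f => by funext i; simp
      map_mul' := fun f g => rfl }
  map_one' := rfl
  map_mul' π ρ := rfl

theorem single_apply_inv {D : Type*} [Group D] {k : ℕ} (π : Equiv.Perm (Fin k)) (i : Fin k) (x : D) :
    (fun j => (Pi.mulSingle i x : Fin k → D) (π⁻¹ j)) = Pi.mulSingle (π i) x := by
  funext j
  by_cases h : j = π i
  · subst h
    simp
  · rw [Pi.mulSingle_eq_of_ne h, Pi.mulSingle_eq_of_ne]
    intro h'
    apply h
    rw [← h']
    simp

namespace WrData

variable {G D E : Type*} [Group G] [Group D] [Group E] {k : ℕ} (W : WrData G D E k)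
  (S : Subgroup (Equiv.Perm (Fin k)))

/-- The homomorphism of the wreath product. -/
def lift₀ : (Fin k → D) ⋊[(permAut D k).comp S.subtype] S →* G :=
  SemidirectProduct.lift W.base (W.s.comp S.subtype) (by
    intro π
    ext f
    exact (W.conj π f).symm)

theorem lift₀_apply (x : (Fin k → D) ⋊[(permAut D k).comp S.subtype] S) :
    W.lift₀ S x = W.base x.left * W.s x.right := rfl

/-- The homomorphism of `(D ≀ S) × E`. -/
def lift : ((Fin k → D) ⋊[(permAut D k).comp S.subtype] S) × E →* G :=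
  MonoidHom.noncommCoprod (W.lift₀ S) W.e (fun x y => by
    rw [lift₀_apply]
    exact (W.comm_base _ _).mul_left (W.comm_s _ _))

theorem lift_apply (x : ((Fin k → D) ⋊[(permAut D k).comp S.subtype] S) × E) :
    W.lift S x = W.base x.1.left * W.s x.1.right * W.e x.2 := rfl

theorem lift_injective : Function.Injective (W.lift S) := by
  rw [injective_iff_map_eq_one]
  rintro ⟨⟨f, π⟩, x⟩ h
  rw [lift_apply] at h
  obtain ⟨h1, h2, h3⟩ := W.inj _ _ _ h
  simp only at h1 h2 h3
  subst h1 h3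
  have h4 : π = 1 := Subtype.ext h2
  subst h4
  rfl

/-- The image of `(D ≀ S) × E`. -/
def T : Subgroup G := (W.lift S).range

variable {W S}

theorem mem_T {g : G} : g ∈ W.T S ↔ ∃ f, ∃ π ∈ S, ∃ x, g = W.base f * W.s π * W.e x := by
  constructor
  · rintro ⟨⟨⟨f, π⟩, x⟩, rfl⟩
    exact ⟨f, π, π.2, x, rfl⟩
  · rintro ⟨f, π, hπ, x, rfl⟩
    exact ⟨⟨⟨f, ⟨π, hπ⟩⟩, x⟩, rfl⟩

theorem base_mem (f : Fin k → D) : W.base f ∈ W.T S :=
  mem_T.mpr ⟨f, 1, one_mem _, 1, by simp⟩

theorem s_mem {π : Equiv.Perm (Fin k)} (hπ : π ∈ S) : W.s π ∈ W.T S :=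
  mem_T.mpr ⟨1, π, hπ, 1, by simp⟩

theorem e_mem (x : E) : W.e x ∈ W.T S :=
  mem_T.mpr ⟨1, 1, one_mem _, x, by simp⟩

theorem card_T [Finite D] [Finite E] : Nat.card (W.T S) = Nat.card D ^ k * Nat.card S * Nat.card E := by
  rw [T, Nat.card_congr (MonoidHom.ofInjective (W.lift_injective S)).symm.toEquiv, Nat.card_prod,
    SemidirectProduct.card, Nat.card_fun, Nat.card_fin]

theorem isPGroup_T [Finite D] [Finite E] {p a b c : ℕ} [Fact p.Prime] (hD : Nat.card D = p ^ a)
    (hS : Nat.card S = p ^ b) (hE : Nat.card E = p ^ c) : IsPGroup p (W.T S) := by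
  apply IsPGroup.of_card (n := a * k + b + c)
  rw [card_T, hD, hS, hE, pow_add, pow_add, pow_mul]

theorem not_dvd_index_T [Finite G] [Finite D] [Finite E] {p a b c : ℕ} [hp : Fact p.Prime]
    (hD : Nat.card D = p ^ a) (hS : Nat.card S = p ^ b) (hE : Nat.card E = p ^ c)
    (hG : (Nat.card G).factorization p = a * k + b + c) : ¬ p ∣ (W.T S).index := by
  intro h
  have h1 := (W.T S).card_mul_index
  rw [card_T, hD, hS, hE, ← pow_mul, ← pow_add, ← pow_add] at h1
  have h2 : p ^ (a * k + b + c + 1) ∣ Nat.card G := by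
    rw [← h1, pow_succ]
    exact mul_dvd_mul_left _ h
  rw [hp.out.pow_dvd_iff_le_factorization Nat.card_pos.ne', hG] at h2
  omega

/-- The swap commutator. -/
theorem pair_mem_commutator (i j : Fin k) (x : D) :
    W.base (Pi.mulSingle i x * Pi.mulSingle j x⁻¹) ∈ commutator G := by
  have h1 := W.conj (Equiv.swap i j) (Pi.mulSingle i x⁻¹)
  rw [single_apply_inv, Equiv.swap_apply_left] at h1
  have h2 : W.base (Pi.mulSingle i x * Pi.mulSingle j x⁻¹) =
      ⁅W.base (Pi.mulSingle i x), W.s (Equiv.swap i j)⁆ := by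
    rw [map_mul, ← h1, commutatorElement_def, Pi.mulSingle_inv, map_inv]
    group
  rw [h2]
  exact Subgroup.commutator_mem_commutator (Subgroup.mem_top _) (Subgroup.mem_top _)

/-- The main computation: if `3 ≤ k`, then `(T ∩ Ω) / (T ∩ Ω)'` is elementary abelian. -/
theorem powDer_three (hk : 3 ≤ k) (hD : PD 2 D) (hE : ∀ x : E, x ^ 2 = 1) (hS : PowDer 2 S)
    {Ω : Subgroup G} (hΩ : commutator G ≤ Ω) (hs : ∀ π, W.s π ∈ Ω) : PowDer 2 (W.T S ⊓ Ω) := by
  set P := W.T S ⊓ Ω with hP
  -- step 1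
  have h1 : ∀ (i : Fin k) (x y : D), W.base (Pi.mulSingle i ⁅x, y⁆) ∈ ⁅P, P⁆ := by
    intro i x y
    obtain ⟨j, hj⟩ : ∃ j : Fin k, j ∉ ({i} : Finset (Fin k)) := by
      by_contra hcon
      push Not at hcon
      have := Finset.card_le_card (fun j _ => hcon j : (Finset.univ : Finset (Fin k)) ⊆ {i})
      simp at this
      omega
    obtain ⟨l, hl⟩ : ∃ l : Fin k, l ∉ ({i, j} : Finset (Fin k)) := by
      by_contra hcon
      push Not at hcon
      have := Finset.card_le_card (fun j _ => hcon j : (Finset.univ : Finset (Fin k)) ⊆ {i, j})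
      have h3 := Finset.card_le_two (a := i) (b := j)
      simp only [Finset.card_univ, Fintype.card_fin] at this
      omega
    simp only [Finset.mem_singleton, Finset.mem_insert, not_or] at hj hl
    have ha : W.base (Pi.mulSingle i x * Pi.mulSingle j x⁻¹) ∈ P :=
      ⟨base_mem _, hΩ (pair_mem_commutator _ _ x)⟩
    have hb : W.base (Pi.mulSingle i y * Pi.mulSingle l y⁻¹) ∈ P :=
      ⟨base_mem _, hΩ (pair_mem_commutator _ _ y)⟩
    have h2 : (Pi.mulSingle i ⁅x, y⁆ : Fin k → D) =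
        ⁅(Pi.mulSingle i x * Pi.mulSingle j x⁻¹ : Fin k → D),
          (Pi.mulSingle i y * Pi.mulSingle l y⁻¹ : Fin k → D)⁆ := by
      funext t
      simp only [commutatorElement_def, Pi.mul_apply, Pi.inv_apply]
      by_cases hti : t = i
      · subst hti
        simp [Pi.mulSingle_eq_of_ne (Ne.symm hj), Pi.mulSingle_eq_of_ne (Ne.symm hl.1)]
      · by_cases htj : t = j
        · subst htj
          simp [Pi.mulSingle_eq_of_ne hti, Pi.mulSingle_eq_of_ne (Ne.symm hl.2)]
        · simp [Pi.mulSingle_eq_of_ne hti, Pi.mulSingle_eq_of_ne htj]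
    rw [h2, map_commutatorElement]
    exact Subgroup.commutator_mem_commutator ha hb
  have h2 : ∀ (i : Fin k) (c : D), c ∈ commutator D → W.base (Pi.mulSingle i c) ∈ ⁅P, P⁆ := by
    intro i
    have : commutator D ≤ (⁅P, P⁆.comap W.base).comap (MonoidHom.mulSingle (fun _ => D) i) := by
      rw [commutator_def, Subgroup.commutator_le]
      intro x _ y _
      exact h1 i x y
    exact fun c hc => this hc
  have h3 : ∀ f : Fin k → D, (∀ i, f i ∈ commutator D) → W.base f ∈ ⁅P, P⁆ := by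
    intro f hf
    exact Subgroup.pi_mem_of_mulSingle_mem (H := ⁅P, P⁆.comap W.base) f fun i => h2 i _ (hf i)
  rintro g ⟨hgT, hgΩ⟩
  obtain ⟨f, π, hπ, x, rfl⟩ := mem_T.mp hgT
  have hsP : W.s π ∈ P := ⟨s_mem hπ, hs π⟩
  have hn : W.base f * W.e x ∈ P := by
    refine ⟨mul_mem (base_mem f) (e_mem x), ?_⟩
    have h4 : W.base f * W.e x = W.base f * W.s π * W.e x * (W.s π)⁻¹ := by
      rw [mul_assoc (W.base f) (W.s π), (W.comm_s π x).eq]
      group
    rw [h4]
    exact Ω.mul_mem hgΩ (Ω.inv_mem (hs π))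
  have h5 : W.base f * W.s π * W.e x = W.base f * W.e x * W.s π := by
    rw [mul_assoc, (W.comm_s π x).eq, mul_assoc]
  have h6 : (W.base f * W.e x) ^ 2 ∈ ⁅P, P⁆ := by
    rw [(W.comm_base f x).mul_pow, ← map_pow W.e, hE, map_one, mul_one, ← map_pow]
    exact h3 _ fun i => hD (f i)
  have h7 : (W.s π) ^ 2 ∈ ⁅P, P⁆ := by
    rw [← map_pow]
    have h8 : S.map W.s ≤ P := by
      rintro _ ⟨π', hπ', rfl⟩
      exact ⟨s_mem hπ', hs π'⟩
    have h9 := Subgroup.mem_map_of_mem W.s (hS π hπ)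
    rw [Subgroup.map_commutator] at h9
    exact Subgroup.commutator_mono h8 h8 h9
  rw [h5]
  have h10 : (W.base f * W.e x * W.s π) ^ 2 = (W.base f * W.e x) ^ 2 *
      ⁅(W.base f * W.e x)⁻¹, W.s π⁆ * (W.s π) ^ 2 := by
    rw [commutatorElement_def, pow_two, pow_two, pow_two]
    group
  rw [h10]
  exact mul_mem (mul_mem h6 (Subgroup.commutator_mem_commutator (inv_mem hn) hsP)) h7

end WrData

end Cfsg.Agent.Lib.SylAb
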