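import Cfsg.Agent.Lib.SylAbWr

/-!
# Wreath type configurations: further cases

`powDer_T`: the whole image of `(D ≀ S) × E`; `powDer_two`: the case `k = 2`; `powDer_ker`: the kernel of
a determinant.
-/

set_option autoImplicit false

open scoped commutatorElement

namespace Cfsg.Agent.Lib.SylAb

theorem hom_mem_commutator {D G : Type*} [Group D] [Group G] (f : D →* G) {P : Subgroup G}
    (hf : ∀ x, f x ∈ P) {c : D} (hc : c ∈ commutator D) : f c ∈ ⁅P, P⁆ := by
  have : commutator D ≤ ⁅P, P⁆.comap f := by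
    rw [commutator_def, Subgroup.commutator_le]
    intro x _ y _
    rw [Subgroup.mem_comap, map_commutatorElement]
    exact Subgroup.commutator_mem_commutator (hf x) (hf y)
  exact this hc

theorem sub_mem_commutator {D G : Type*} [Group D] [Group G] (f : D →* G) {K : Subgroup D}
    {P : Subgroup G} (hf : ∀ x ∈ K, f x ∈ P) {c : D} (hc : c ∈ ⁅K, K⁆) : f c ∈ ⁅P, P⁆ := by
  have : ⁅K, K⁆ ≤ ⁅P, P⁆.comap f := by
    rw [Subgroup.commutator_le]
    intro x hx y hy
    rw [Subgroup.mem_comap, map_commutatorElement]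
    exact Subgroup.commutator_mem_commutator (hf x hx) (hf y hy)
  exact this hc

namespace WrData

variable {G D E : Type*} [Group G] [Group D] [Group E] {k : ℕ} {W : WrData G D E k}
  {S : Subgroup (Equiv.Perm (Fin k))}

/-- The homomorphism of the `i`-th coordinate. -/
def d (W : WrData G D E k) (i : Fin k) : D →* G := W.base.comp (MonoidHom.mulSingle (fun _ => D) i)

theorem d_apply (i : Fin k) (x : D) : W.d i x = W.base (Pi.mulSingle i x) := rfl

theorem d_conj (π : Equiv.Perm (Fin k)) (i : Fin k) (x : D) :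
    W.s π * W.d i x * (W.s π)⁻¹ = W.d (π i) x := by
  rw [d_apply, W.conj, single_apply_inv, d_apply]

theorem base_mem_of {H : Subgroup G} {f : Fin k → D} (h : ∀ i, W.d i (f i) ∈ H) : W.base f ∈ H :=
  Subgroup.pi_mem_of_mulSingle_mem (H := H.comap W.base) f h

theorem T_eq_closure : Subgroup.closure ({g | ∃ i x, g = W.d i x} ∪ (W.s '' S) ∪ Set.range W.e) =
    W.T S := by
  apply le_antisymm
  · rw [Subgroup.closure_le]
    rintro g ((⟨i, x, rfl⟩ | ⟨π, hπ, rfl⟩) | ⟨x, rfl⟩)
    · exact base_mem _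
    · exact s_mem hπ
    · exact e_mem x
  · intro g hg
    obtain ⟨f, π, hπ, x, rfl⟩ := mem_T.mp hg
    refine mul_mem (mul_mem (base_mem_of fun i => ?_) ?_) ?_
    · exact Subgroup.subset_closure (Or.inl (Or.inl ⟨i, f i, rfl⟩))
    · exact Subgroup.subset_closure (Or.inl (Or.inr ⟨π, hπ, rfl⟩))
    · exact Subgroup.subset_closure (Or.inr ⟨x, rfl⟩)

/-- The image of `(D ≀ S) × E`. -/
theorem powDer_T {p : ℕ} (hD : PD p D) (hE : PD p E) (hS : PowDer p S) : PowDer p (W.T S) := by
  apply powDer_of_closure T_eq_closure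
  rintro g ((⟨i, x, rfl⟩ | ⟨π, hπ, rfl⟩) | ⟨x, rfl⟩)
  · rw [← map_pow]
    exact hom_mem_commutator (W.d i) (fun x => base_mem _) (hD x)
  · rw [← map_pow]
    exact sub_mem_commutator W.s (fun x hx => s_mem hx) (hS π hπ)
  · rw [← map_pow]
    exact hom_mem_commutator W.e (fun x => e_mem x) (hE x)

/-- The case of two blocks. -/
theorem powDer_two {W : WrData G D E 2} {S : Subgroup (Equiv.Perm (Fin 2))} [Subsingleton E]
    {Ω : Subgroup G} (hΩ : commutator G ≤ Ω)
    (hs : ∀ π, W.s π ∈ Ω) (hS : Equiv.swap 0 1 ∈ S)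
    (hker : ∀ x : D, W.d 0 x ∈ Ω → x ∈ commutator D)
    (hinv : ∀ y ∈ commutator D, ∃ σ : D, σ * y * σ⁻¹ = y⁻¹) : PowDer 2 (W.T S ⊓ Ω) := by
  set P := W.T S ⊓ Ω with hP
  have hE : ∀ x : E, W.e x = 1 := fun x => by rw [Subsingleton.elim x 1, map_one]
  have hpair : ∀ x : D, W.base (Pi.mulSingle 0 x * Pi.mulSingle 1 x⁻¹) ∈ P := fun x =>
    ⟨base_mem _, hΩ (pair_mem_commutator _ _ x)⟩
  have hD' : ∀ y ∈ commutator D, W.d 0 y ∈ P := by
    intro y hy
    refine ⟨base_mem _, hΩ ?_⟩
    have h1 := hom_mem_commutator (W.d 0) (P := ⊤) (fun x => Subgroup.mem_top _) hy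
    exact h1
  have hsP : ∀ π ∈ S, W.s π ∈ P := fun π hπ => ⟨s_mem hπ, hs π⟩
  have hcl : Subgroup.closure ({g | ∃ y ∈ commutator D, g = W.d 0 y} ∪
      {g | ∃ x : D, g = W.base (Pi.mulSingle 0 x * Pi.mulSingle 1 x⁻¹)} ∪ (W.s '' S)) = P := by
    apply le_antisymm
    · rw [Subgroup.closure_le]
      rintro g ((⟨y, hy, rfl⟩ | ⟨x, rfl⟩) | ⟨π, hπ, rfl⟩)
      · exact hD' y hy
      · exact hpair x
      · exact hsP π hπ
    · rintro g ⟨hgT, hgΩ⟩
      obtain ⟨f, π, hπ, x, rfl⟩ := mem_T.mp hgT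
      rw [hE, mul_one] at hgΩ ⊢
      have hf : W.base f ∈ Ω := by
        have : W.base f = W.base f * W.s π * (W.s π)⁻¹ := by group
        rw [this]
        exact Ω.mul_mem hgΩ (Ω.inv_mem (hs π))
      obtain ⟨a, b, hfe⟩ : ∃ a b : D, f = Pi.mulSingle 0 (a * b) *
          (Pi.mulSingle 0 b⁻¹ * Pi.mulSingle 1 (b⁻¹)⁻¹) := by
        refine ⟨f 0, f 1, ?_⟩
        funext t
        fin_cases t <;> simp
      refine mul_mem ?_ (Subgroup.subset_closure (Or.inr ⟨π, hπ, rfl⟩))
      rw [hfe, map_mul]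
      refine mul_mem (Subgroup.subset_closure (Or.inl (Or.inl ⟨_, hker _ ?_, rfl⟩)))
        (Subgroup.subset_closure (Or.inl (Or.inr ⟨_, rfl⟩)))
      have h2 : W.d 0 (a * b) = W.base f *
          (W.base (Pi.mulSingle 0 b⁻¹ * Pi.mulSingle 1 (b⁻¹)⁻¹))⁻¹ := by
        rw [hfe, map_mul W.base, d_apply, mul_inv_cancel_right]
      rw [h2]
      exact Ω.mul_mem hf (Ω.inv_mem (hΩ (pair_mem_commutator _ _ _)))
  apply powDer_of_closure hcl
  rintro g ((⟨y, hy, rfl⟩ | ⟨x, rfl⟩) | ⟨π, hπ, rfl⟩)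
  · obtain ⟨σ, hσ⟩ := hinv y hy
    have h1 : W.d 0 y ^ 2 = ⁅W.d 0 y, W.base (Pi.mulSingle 0 σ * Pi.mulSingle 1 σ⁻¹)⁆ := by
      rw [d_apply, ← map_commutatorElement, ← map_pow]
      congr 1
      funext t
      have h3 : y ^ 2 = y * σ * y⁻¹ * σ⁻¹ := by
        have : y * σ * y⁻¹ * σ⁻¹ = y * (σ * y * σ⁻¹)⁻¹ := by group
        rw [this, hσ, inv_inv, pow_two]
      fin_cases t
      · simp [commutatorElement_def, h3, mul_assoc]
      · simp [commutatorElement_def]
    rw [h1]
    exact Subgroup.commutator_mem_commutator (hD' y hy) (hpair σ)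
  · have h1 : W.base (Pi.mulSingle 0 x * Pi.mulSingle 1 x⁻¹) ^ 2 =
        ⁅W.base (Pi.mulSingle 0 x * Pi.mulSingle 1 x⁻¹), W.s (Equiv.swap 0 1)⁆ := by
      rw [commutatorElement_def, mul_assoc, mul_assoc, ← mul_assoc (W.s _), ← map_inv W.base,
        W.conj, pow_two]
      congr 2
      funext t
      fin_cases t <;> simp
    rw [h1]
    exact Subgroup.commutator_mem_commutator (hpair x) (hsP _ hS)
  · rw [← map_pow]
    have : ∀ π : Equiv.Perm (Fin 2), π ^ 2 = 1 := by decide
    rw [this, map_one]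
    exact one_mem _

theorem ab_conj {P : Type*} [Group P] (a b c : P) :
    Abelianization.of (a * (b * c * b⁻¹)) = Abelianization.of a * Abelianization.of c := by
  rw [map_mul, map_mul, map_mul, map_inv, mul_comm (Abelianization.of b), mul_inv_cancel_right]

/-- Exponent vectors of sum zero. -/
theorem zpow_vec_mem {H : Subgroup (Fin k → D)} {z : D} {i₀ : Fin k}
    (h : ∀ i, (Pi.mulSingle i z * Pi.mulSingle i₀ z⁻¹ : Fin k → D) ∈ H) {m : Fin k → ℤ}
    (hm : ∑ i, m i = 0) : (fun i => z ^ m i) ∈ H := by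
  let ψ : Multiplicative (Fin k → ℤ) →* (Fin k → D) :=
    { toFun := fun m i => z ^ (Multiplicative.toAdd m i)
      map_one' := by funext i; simp
      map_mul' := fun a b => by
        funext i
        simp only [toAdd_mul, Pi.add_apply, zpow_add, Pi.mul_apply] }
  have hs : ∀ (i : Fin k) (n : ℤ), ψ (Multiplicative.ofAdd (Pi.single i n)) = Pi.mulSingle i (z ^ n) := by
    intro i n
    funext j
    change z ^ ((Pi.single i n : Fin k → ℤ) j) = _
    by_cases hj : j = i
    · subst hj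
      simp
    · rw [Pi.single_eq_of_ne hj, Pi.mulSingle_eq_of_ne hj, zpow_zero]
  have h1 : ∀ i, Multiplicative.ofAdd (Pi.single i 1 - Pi.single i₀ 1 : Fin k → ℤ) ∈ H.comap ψ := by
    intro i
    have : ψ (Multiplicative.ofAdd (Pi.single i 1 - Pi.single i₀ 1 : Fin k → ℤ)) =
        (Pi.mulSingle i z * Pi.mulSingle i₀ z⁻¹ : Fin k → D) := by
      rw [ofAdd_sub, map_div, hs, hs, zpow_one, div_eq_mul_inv, Pi.mulSingle_inv]
    rw [Subgroup.mem_comap, this]
    exact h i
  have h2 : Multiplicative.ofAdd m ∈ H.comap ψ := by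
    have h3 : m = ∑ i, m i • (Pi.single i 1 - Pi.single i₀ 1 : Fin k → ℤ) := by
      simp only [smul_sub, Finset.sum_sub_distrib, ← Finset.sum_smul, hm, zero_smul, sub_zero]
      funext j
      rw [Finset.sum_apply, Finset.sum_eq_single j]
      · simp
      · intro b _ hb
        simp [Pi.single_eq_of_ne (Ne.symm hb)]
      · simp
    rw [h3, ofAdd_sum]
    refine prod_mem fun i _ => ?_
    rw [ofAdd_zsmul]
    exact zpow_mem (h1 i) _
  exact h2

/-- The kernel of a determinant: `D = K ⟨z⟩`. -/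
theorem powDer_ker [Subsingleton E] {A : Type*} [CommGroup A] (χ : G →* A) (δ : D →* A)
    (hχ : ∀ f, χ (W.base f) = ∏ i, δ (f i)) (hs : ∀ π, χ (W.s π) = 1) (hK : PowDer 2 δ.ker)
    {z : D} (hz : ∀ x : D, ∃ n : ℤ, x * (z ^ n)⁻¹ ∈ δ.ker) (hS : PowDer 2 S)
    (hk : 0 < k) (hzS : z ^ 2 = 1 ∨ ∀ i j, ∃ π ∈ S, π i = j) : PowDer 2 (W.T S ⊓ χ.ker) := by
  set P := W.T S ⊓ χ.ker with hP
  have hE : ∀ x : E, W.e x = 1 := fun x => by rw [Subsingleton.elim x 1, map_one]
  have hd : ∀ i x, χ (W.d i x) = δ x := by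
    intro i x
    rw [d_apply, hχ, Finset.prod_eq_single i]
    · rw [Pi.mulSingle_eq_same]
    · intro b _ hb
      rw [Pi.mulSingle_eq_of_ne hb, map_one]
    · simp
  have hKP : ∀ i, ∀ x ∈ δ.ker, W.d i x ∈ P := fun i x hx =>
    Subgroup.mem_inf.mpr ⟨base_mem _, MonoidHom.mem_ker.mpr ((hd i x).trans hx)⟩
  have hpair : ∀ i j, W.base (Pi.mulSingle i z * Pi.mulSingle j z⁻¹) ∈ P := fun i j =>
    Subgroup.mem_inf.mpr ⟨base_mem _, by
      rw [MonoidHom.mem_ker, map_mul, map_mul, ← d_apply, ← d_apply, hd, hd, map_inv,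
        mul_inv_cancel]⟩
  have hsP : ∀ π ∈ S, W.s π ∈ P := fun π hπ => ⟨s_mem hπ, hs π⟩
  have hcl : Subgroup.closure ({g | ∃ i, ∃ y ∈ δ.ker, g = W.d i y} ∪
      {g | ∃ i j, g = W.base (Pi.mulSingle i z * Pi.mulSingle j z⁻¹)} ∪ (W.s '' S)) = P := by
    apply le_antisymm
    · rw [Subgroup.closure_le]
      rintro g ((⟨i, y, hy, rfl⟩ | ⟨i, j, rfl⟩) | ⟨π, hπ, rfl⟩)
      · exact hKP i y hy
      · exact hpair i j
      · exact hsP π hπ
    · set H := Subgroup.closure ({g | ∃ i, ∃ y ∈ δ.ker, g = W.d i y} ∪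
        {g | ∃ i j, g = W.base (Pi.mulSingle i z * Pi.mulSingle j z⁻¹)} ∪ (W.s '' S)) with hH
      intro g hg
      obtain ⟨hgT, hgΩ⟩ := Subgroup.mem_inf.mp hg
      obtain ⟨f, π, hπ, x, rfl⟩ := mem_T.mp hgT
      rw [hE, mul_one] at hgΩ ⊢
      refine mul_mem ?_ (Subgroup.subset_closure (Or.inr ⟨π, hπ, rfl⟩))
      rw [MonoidHom.mem_ker, map_mul, hs, mul_one, hχ] at hgΩ
      choose n hn using fun i => hz (f i)
      have h1 : ∏ i, δ (f i) = δ z ^ (∑ i, n i) := by
        have h0 : ∀ s : Finset (Fin k), ∏ i ∈ s, δ z ^ n i = δ z ^ (∑ i ∈ s, n i) := by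
          intro s
          induction s using Finset.induction_on with
          | empty => simp
          | insert a s ha ih => rw [Finset.prod_insert ha, Finset.sum_insert ha, ih, zpow_add]
        rw [← h0]
        refine Finset.prod_congr rfl fun i _ => ?_
        have h2 := hn i
        rw [MonoidHom.mem_ker, map_mul, map_inv, mul_inv_eq_one, map_zpow] at h2
        exact h2
      rw [h1, ← map_zpow] at hgΩ
      let i₀ : Fin k := ⟨0, hk⟩
      let m : Fin k → ℤ := n - Pi.single i₀ (∑ i, n i)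
      have hm : ∑ i, m i = 0 := by
        simp [m, Finset.sum_sub_distrib]
      have h3 : (fun i => z ^ m i) ∈ H.comap W.base :=
        zpow_vec_mem (H := H.comap W.base) (i₀ := i₀)
          (fun i => Subgroup.subset_closure (Or.inl (Or.inr ⟨i, i₀, rfl⟩))) hm
      have h4 : W.base (fun i => f i * (z ^ m i)⁻¹) ∈ H := by
        refine base_mem_of fun i => Subgroup.subset_closure (Or.inl (Or.inl ⟨i, _, ?_, rfl⟩))
        by_cases hi : i = i₀
        · subst hi
          have h5 : f i₀ * (z ^ m i₀)⁻¹ = f i₀ * (z ^ n i₀)⁻¹ * z ^ (∑ i, n i) := by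
            simp only [m, Pi.sub_apply, Pi.single_eq_same]
            rw [sub_eq_add_neg, zpow_add, mul_inv_rev, zpow_neg, inv_inv, ← zpow_neg, mul_assoc,
              (Commute.zpow_zpow_self z _ _).eq]
          rw [h5]
          exact mul_mem (hn i₀) hgΩ
        · have h5 : m i = n i := by simp [m, Pi.single_eq_of_ne hi]
          rw [h5]
          exact hn i
      have h5 := H.mul_mem h4 h3
      rw [← map_mul] at h5
      have h6 : (fun i => f i * (z ^ m i)⁻¹) * (fun i => z ^ m i) = f := by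
        funext i
        simp
      rw [h6] at h5
      exact h5
  apply powDer_of_closure hcl
  rintro g ((⟨i, y, hy, rfl⟩ | ⟨i, j, rfl⟩) | ⟨π, hπ, rfl⟩)
  · rw [← map_pow]
    exact sub_mem_commutator (W.d i) (hKP i) (hK y hy)
  · rcases hzS with hz2 | htr
    · rw [← map_pow]
      have : (Pi.mulSingle i z * Pi.mulSingle j z⁻¹ : Fin k → D) ^ 2 = 1 := by
        have hz3 : z⁻¹ = z := by
          rw [inv_eq_iff_mul_eq_one, ← pow_two, hz2]
        funext t
        rw [hz3]
        by_cases hti : t = i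
        · by_cases htj : t = j
          · subst hti htj
            simp [← pow_two, hz2]
          · subst hti
            simp [Pi.mulSingle_eq_of_ne htj, hz2]
        · by_cases htj : t = j
          · subst htj
            simp [Pi.mulSingle_eq_of_ne hti, hz2]
          · simp [Pi.mulSingle_eq_of_ne hti, Pi.mulSingle_eq_of_ne htj]
      rw [this, map_one]
      exact one_mem _
    · -- the transitive case
      let a : S →* Abelianization P :=
        { toFun := fun σ => Abelianization.of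
            ⟨W.base (Pi.mulSingle i z * Pi.mulSingle ((σ : Equiv.Perm (Fin k)) i) z⁻¹), hpair _ _⟩
          map_one' := by
            rw [← map_one Abelianization.of]
            congr 1
            apply Subtype.ext
            simp [← Pi.mulSingle_mul]
          map_mul' := by
            rintro ⟨σ, hσ⟩ ⟨τ, hτ⟩
            have h1 : (⟨W.base (Pi.mulSingle i z * Pi.mulSingle ((σ * τ) i) z⁻¹), hpair _ _⟩ : P) =
                ⟨W.base (Pi.mulSingle i z * Pi.mulSingle (σ i) z⁻¹), hpair _ _⟩ *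
                  ((⟨W.s σ, hsP σ hσ⟩ : P) *
                    ⟨W.base (Pi.mulSingle i z * Pi.mulSingle (τ i) z⁻¹), hpair _ _⟩ *
                      (⟨W.s σ, hsP σ hσ⟩ : P)⁻¹) := by
              apply Subtype.ext
              change W.base _ = W.base _ * (W.s σ * W.base _ * (W.s σ)⁻¹)
              rw [map_mul W.base (Pi.mulSingle i z) (Pi.mulSingle (τ i) z⁻¹)]
              have h2 : W.s σ * (W.base (Pi.mulSingle i z) * W.base (Pi.mulSingle (τ i) z⁻¹)) *
                  (W.s σ)⁻¹ = W.base (Pi.mulSingle (σ i) z) * W.base (Pi.mulSingle (σ (τ i)) z⁻¹) := by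
                have e1 := d_conj (W := W) σ i z
                have e2 := d_conj (W := W) σ (τ i) z⁻¹
                rw [d_apply, d_apply] at e1 e2
                rw [← e1, ← e2]
                group
              rw [h2, ← map_mul, ← map_mul]
              congr 1
              have e3 : (Pi.mulSingle (σ i) z⁻¹ : Fin k → D) * Pi.mulSingle (σ i) z = 1 := by
                rw [← Pi.mulSingle_mul, inv_mul_cancel, Pi.mulSingle_one]
              rw [mul_assoc, ← mul_assoc (Pi.mulSingle (σ i) z⁻¹ : Fin k → D), e3, one_mul]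
              rfl
            exact (congrArg Abelianization.of h1).trans (ab_conj _ _ _) }
      obtain ⟨π, hπ, rfl⟩ := htr i j
      have h1 : (⟨π, hπ⟩ : S) ^ 2 ∈ commutator S := (pd_iff_powDer.mpr hS) ⟨π, hπ⟩
      have h2 : a ((⟨π, hπ⟩ : S) ^ 2) = 1 := by
        have : commutator S ≤ a.ker := Abelianization.commutator_subset_ker a
        exact this h1
      rw [map_pow] at h2
      have h3 : Abelianization.of (⟨W.base (Pi.mulSingle i z * Pi.mulSingle (π i) z⁻¹), hpair _ _⟩ ^ 2 : P) = 1 := by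
        rw [map_pow]
        exact h2
      rw [← MonoidHom.mem_ker, Abelianization.ker_of] at h3
      rw [← Subgroup.map_subtype_commutator]
      exact ⟨_, h3, rfl⟩
  · rw [← map_pow]
    exact sub_mem_commutator W.s hsP (hS π hπ)

end WrData

end Cfsg.Agent.Lib.SylAb
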