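import Mathlib

set_option autoImplicit false

/-!
Iterated wreath products of `C_2` with sign (helper43), for the Sylow 2-subgroups of `S_n` and `A_n`.
-/

namespace Cfsg.Agent.Lib.SylAlt

open Equiv

/-- wreath product with `C_2` -/
@[ext] structure Wr (T : Type) where
  a : T
  b : T
  s : Bool

namespace Wr

variable {T : Type} [Group T]

instance : Mul (Wr T) := ⟨fun x y => if x.s then ⟨x.a * y.b, x.b * y.a, !y.s⟩ else ⟨x.a * y.a, x.b * y.b, y.s⟩⟩
instance : One (Wr T) := ⟨⟨1, 1, false⟩⟩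
instance : Inv (Wr T) := ⟨fun x => if x.s then ⟨x.b⁻¹, x.a⁻¹, true⟩ else ⟨x.a⁻¹, x.b⁻¹, false⟩⟩

lemma one_def : (1 : Wr T) = ⟨1, 1, false⟩ := rfl
lemma mul_f (a b : T) (y : Wr T) : (⟨a, b, false⟩ : Wr T) * y = ⟨a * y.a, b * y.b, y.s⟩ := rfl
lemma mul_t (a b : T) (y : Wr T) : (⟨a, b, true⟩ : Wr T) * y = ⟨a * y.b, b * y.a, !y.s⟩ := rfl
lemma inv_f (a b : T) : (⟨a, b, false⟩ : Wr T)⁻¹ = ⟨a⁻¹, b⁻¹, false⟩ := rfl
lemma inv_t (a b : T) : (⟨a, b, true⟩ : Wr T)⁻¹ = ⟨b⁻¹, a⁻¹, true⟩ := rfl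

instance : Group (Wr T) :=
  Group.ofLeftAxioms
    (by
      rintro ⟨a, b, _ | _⟩ ⟨c, d, _ | _⟩ ⟨e, f, _ | _⟩ <;> simp [mul_f, mul_t, mul_assoc])
    (by
      rintro ⟨a, b, _ | _⟩ <;> simp [one_def, mul_f])
    (by
      rintro ⟨a, b, _ | _⟩ <;> simp [one_def, inv_f, inv_t, mul_f, mul_t])

def eqv : Wr T ≃ T × T × Bool where
  toFun x := (x.a, x.b, x.s)
  invFun x := ⟨x.1, x.2.1, x.2.2⟩
  left_inv _ := rfl
  right_inv _ := rfl

lemma card : Nat.card (Wr T) = 2 * Nat.card T ^ 2 := by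
  rw [Nat.card_congr eqv, Nat.card_prod, Nat.card_prod, Nat.card_eq_fintype_card (α := Bool), Fintype.card_bool]
  ring

instance [Finite T] : Finite (Wr T) := Finite.of_equiv _ eqv.symm

/-- sign -/
def sgn (ε : T →* ℤˣ) (δ : ℤˣ) (hδ : δ * δ = 1) : Wr T →* ℤˣ where
  toFun x := ε x.a * ε x.b * (if x.s then δ else 1)
  map_one' := by simp [one_def]
  map_mul' x y := by
    obtain ⟨a, b, _ | _⟩ := x <;> obtain ⟨c, d, _ | _⟩ := y <;> simp [mul_f, mul_t, mul_comm, mul_left_comm]
    rw [← mul_assoc δ δ, hδ, one_mul]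

variable {X : Type}

/-- the permutation action -/
def toPerm (f : T →* Perm X) : Wr T →* Perm (X × Bool) where
  toFun x := (Equiv.prodCongrLeft fun β : Bool => if β then f x.b else f x.a) *
    (if x.s then (Equiv.prodCongrRight fun _ : X => Equiv.boolNot) else 1)
  map_one' := by
    ext ⟨p, β⟩ <;> cases β <;> simp [one_def]
  map_mul' x y := by
    obtain ⟨a, b, _ | _⟩ := x <;> obtain ⟨c, d, _ | _⟩ := y <;> apply Equiv.ext <;> rintro ⟨p, _ | _⟩ <;>
      simp [mul_f, mul_t, Equiv.Perm.mul_apply]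

lemma toPerm_apply (f : T →* Perm X) (x : Wr T) (p : X) (β : Bool) :
    toPerm f x (p, β) = (if (β ^^ x.s) then f x.b p else f x.a p, β ^^ x.s) := by
  obtain ⟨a, b, _ | _⟩ := x <;> cases β <;> simp [toPerm, Equiv.Perm.mul_apply]

lemma toPerm_inj (f : T →* Perm X) (hf : Function.Injective f) [Nonempty X] : Function.Injective (toPerm f) := by
  rw [← MonoidHom.ker_eq_bot_iff, eq_bot_iff]
  intro x hx
  have h : ∀ p β, toPerm f x (p, β) = (p, β) := by
    intro p β
    rw [MonoidHom.mem_ker.1 hx]; rfl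
  obtain ⟨p0⟩ := (inferInstance : Nonempty X)
  have hs : x.s = false := by
    have := congrArg Prod.snd (h p0 false)
    rw [toPerm_apply] at this
    simpa using this
  have ha : x.a = 1 := by
    apply hf
    rw [map_one]
    ext p
    have := congrArg Prod.fst (h p false)
    rw [toPerm_apply, hs] at this
    simpa using this
  have hb : x.b = 1 := by
    apply hf
    rw [map_one]
    ext p
    have := congrArg Prod.fst (h p true)
    rw [toPerm_apply, hs] at this
    simpa using this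
  rw [Subgroup.mem_bot, one_def]
  ext <;> simp [ha, hb, hs]

lemma sign_toPerm [Fintype X] [DecidableEq X] (f : T →* Perm X) (ε : T →* ℤˣ) (h : ∀ t, Perm.sign (f t) = ε t) (x : Wr T) :
    Perm.sign (toPerm f x) = sgn ε ((-1) ^ (Fintype.card X)) (by rw [← pow_add, ← two_mul]; simp) x := by
  have h1 : Perm.sign (Equiv.prodCongrRight fun _ : X => Equiv.boolNot) = (-1) ^ (Fintype.card X) := by
    rw [Equiv.Perm.sign_prodCongrRight, Finset.prod_const, Finset.card_univ]
    congr 1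
  have h2 : ∀ a b : T, Perm.sign (Equiv.prodCongrLeft fun β : Bool => if β then f b else f a) = ε a * ε b := by
    intro a b
    rw [Equiv.Perm.sign_prodCongrLeft, Fintype.prod_bool]
    simp [h, mul_comm]
  show Perm.sign ((Equiv.prodCongrLeft fun β : Bool => if β then f x.b else f x.a) *
    (if x.s then (Equiv.prodCongrRight fun _ : X => Equiv.boolNot) else 1)) = ε x.a * ε x.b * (if x.s then _ else 1)
  rw [Perm.sign_mul, h2]
  congr 1
  split_ifs
  · exact h1
  · exact Perm.sign_one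

/-- centre of the wreath product -/
lemma central_iff [Nontrivial T] (x : Wr T) : (∀ y, x * y = y * x) ↔ x.s = false ∧ x.a = x.b ∧ ∀ u, x.a * u = u * x.a := by
  constructor
  · intro h
    obtain ⟨a, b, _ | _⟩ := x
    · refine ⟨rfl, ?_, ?_⟩
      · have := h ⟨1, 1, true⟩
        rw [mul_f, mul_t] at this
        have := congrArg Wr.a this
        simpa using this
      · intro u
        have := h ⟨u, 1, false⟩
        rw [mul_f, mul_f] at this
        exact congrArg Wr.a this
    · exfalso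
      obtain ⟨u, hu⟩ := exists_ne (1 : T)
      have := h ⟨u, 1, false⟩
      rw [mul_t, mul_f] at this
      have := congrArg Wr.a this
      simp at this
      exact hu this
  · rintro ⟨h1, h2, h3⟩ y
    obtain ⟨a, b, _ | _⟩ := x
    · simp only at h2
      subst h2
      obtain ⟨c, d, _ | _⟩ := y
      · rw [mul_f, mul_f]; simp [h3]
      · rw [mul_f, mul_t]; simp [h3]
    · simp at h1

end Wr

/-- normal subgroups of `p`-groups meet the centre -/
lemma normal_center {p : ℕ} [Fact p.Prime] {G : Type*} [Group G] [Finite G] (hG : IsPGroup p G) (N : Subgroup G)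
    [N.Normal] (hN : N ≠ ⊥) : ∃ x ∈ N, x ≠ 1 ∧ ∀ g, g * x = x * g := by
  have hp : p ∣ Nat.card N := by
    have hNp := hG.to_subgroup N
    obtain ⟨k, hk⟩ := IsPGroup.iff_card.1 hNp
    rcases k with _ | k
    · rw [pow_zero] at hk
      exact absurd (Subgroup.card_eq_one.1 hk) hN
    · rw [hk, pow_succ]; exact dvd_mul_left _ _
  have hG' : IsPGroup p (ConjAct G) := hG
  obtain ⟨b, hb, hne⟩ := hG'.exists_fixed_point_of_prime_dvd_card_of_fixed_point N hp (a := 1)
    (by intro g; simp)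
  refine ⟨b, b.2, fun h => hne (Subtype.ext h.symm), fun g => ?_⟩
  have : g * (b : G) * g⁻¹ = b := congrArg Subtype.val (hb (ConjAct.toConjAct g))
  exact mul_inv_eq_iff_eq_mul.1 this

/-- the properties of the iterated wreath products -/
structure Pk (a : ℕ) where
  T : Type
  grp : Group T
  fin : Finite T
  X : Type
  fX : Fintype X
  dX : DecidableEq X
  f : T →* Perm X
  ε : T →* ℤˣ
  f_inj : Function.Injective f
  cardX : Fintype.card X = 2 ^ a
  cardT : Nat.card T = 2 ^ (2 ^ a - 1)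
  sign_f : ∀ t, Perm.sign (f t) = ε t
  odd : 1 ≤ a → ∃ t, ε t = -1
  ε_inj : a ≤ 1 → Function.Injective ε
  cen : 1 ≤ a → ∃ z : T, z ≠ 1 ∧ ∀ t, (∀ u, t * u = u * t) ↔ (t = 1 ∨ t = z)
  cen2 : 2 ≤ a → ∀ t : T, (∀ u, t * u = u * t) → ε t = 1 ∧ ∃ x y, t = x * y * x⁻¹ * y⁻¹
  cind : 2 ≤ a → ∀ A B : Subgroup T, A ⊔ B = ⊤ → (∀ x ∈ A, ∀ y ∈ B, x * y = y * x) →
    (∀ x ∈ A, ∀ u, x * u = u * x) ∨ (∀ y ∈ B, ∀ u, y * u = u * y)
  even : 3 ≤ a → ∀ t : T, ε t = 1 → (∀ u, ε u = 1 → t * u = u * t) → ∀ u, t * u = u * t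

attribute [instance] Pk.grp Pk.fin Pk.fX Pk.dX

/-- level zero -/
def pk0 : Pk 0 where
  T := Unit
  grp := inferInstance
  fin := inferInstance
  X := Unit
  fX := inferInstance
  dX := inferInstance
  f := 1
  ε := 1
  f_inj := fun _ _ _ => rfl
  cardX := by simp
  cardT := by simp
  sign_f := fun t => by simp
  odd := by omega
  ε_inj := fun _ _ _ _ => rfl
  cen := by omega
  cen2 := by omega
  cind := by omega
  even := by omega

/-- centralizer criterion: if the centralizer of each noncentral element is abelian, then the group is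
centrally indecomposable -/
lemma cind_of_abel {T : Type*} [Group T] (h : ∀ a b c : T, (¬ ∀ u, a * u = u * a) → a * b = b * a → a * c = c * a → b * c = c * b)
    (A B : Subgroup T) (hAB : A ⊔ B = ⊤) (hc : ∀ x ∈ A, ∀ y ∈ B, x * y = y * x) :
    (∀ x ∈ A, ∀ u, x * u = u * x) ∨ (∀ y ∈ B, ∀ u, y * u = u * y) := by
  by_contra hcon
  push Not at hcon
  obtain ⟨⟨a, ha, u, hu⟩, ⟨b, hb, v, hv⟩⟩ := hcon
  have hB : ∀ x ∈ B, ∀ y ∈ B, x * y = y * x := fun x hx y hy =>
    h a x y (fun h' => hu (h' u)) (hc a ha x hx) (hc a ha y hy)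
  apply hv
  have hle : A ⊔ B ≤ Subgroup.centralizer {b} := by
    apply sup_le
    · intro x hx
      rw [Subgroup.mem_centralizer_singleton_iff]
      exact hc x hx b hb
    · intro x hx
      rw [Subgroup.mem_centralizer_singleton_iff]
      exact hB x hx b hb
  have : v ∈ Subgroup.centralizer {b} := hle (by rw [hAB]; trivial)
  rw [Subgroup.mem_centralizer_singleton_iff] at this
  exact this.symm

end Cfsg.Agent.Lib.SylAlt
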