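import Mathlib
import Cfsg.Agent.Lib.SylAlt1

set_option autoImplicit false

/-!
The inductive step for the iterated wreath products (helper43).
-/

namespace Cfsg.Agent.Lib.SylAlt

open Equiv Wr

/-- centralizers of noncentral elements in `Wr T`, `T` abelian -/
lemma Wr.abel {T : Type} [Group T] (hT : ∀ x y : T, x * y = y * x) (a b c : Wr T) (ha : ¬ ∀ u, a * u = u * a)
    (hab : a * b = b * a) (hac : a * c = c * a) : b * c = c * b := by
  have key : ∀ (b : Wr T), a * b = b * a → (a.s = false → b.s = false) ∧ (a.s = true → b.s = false → b.a = b.b) ∧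
      (a.s = true → b.s = true → a.a * b.b = b.a * a.b) := by
    intro b hb
    obtain ⟨a1, a2, _ | _⟩ := a <;> obtain ⟨b1, b2, _ | _⟩ := b
    · simp
    · refine ⟨fun _ => ?_, by simp, by simp⟩
      exfalso
      apply ha
      rw [mul_f, mul_t] at hb
      have h1 : a1 * b1 = b1 * a2 := congrArg Wr.a hb
      have h2 : a1 = a2 := by
        rw [hT a1 b1] at h1
        exact mul_left_cancel h1
      subst h2
      rintro ⟨c, d, _ | _⟩
      · rw [mul_f, mul_f]; simp [hT]
      · rw [mul_f, mul_t]; simp [hT]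
    · refine ⟨by simp, fun _ _ => ?_, by simp⟩
      rw [mul_f, mul_t] at hb
      have h1 : a1 * b2 = b1 * a1 := congrArg Wr.a hb
      rw [hT b1 a1] at h1
      exact (mul_left_cancel h1).symm
    · refine ⟨by simp, by simp, fun _ _ => ?_⟩
      rw [mul_t, mul_t] at hb
      exact congrArg Wr.a hb
  obtain ⟨hb1, hb2, hb3⟩ := key b hab
  obtain ⟨hc1, hc2, hc3⟩ := key c hac
  obtain ⟨a1, a2, _ | _⟩ := a
  · have h1 : b.s = false := hb1 rfl
    have h2 : c.s = false := hc1 rfl
    obtain ⟨b1, b2, bs⟩ := b
    obtain ⟨c1, c2, cs⟩ := c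
    simp only at h1 h2
    subst h1 h2
    rw [mul_f, mul_f]
    simp [hT]
  · obtain ⟨b1, b2, _ | _⟩ := b <;> obtain ⟨c1, c2, _ | _⟩ := c
    · rw [mul_f, mul_f]; simp [hT]
    · have h1 : b1 = b2 := hb2 rfl rfl
      subst h1
      rw [mul_f, mul_t]; simp [hT]
    · have h1 : c1 = c2 := hc2 rfl rfl
      subst h1
      rw [mul_f, mul_t]; simp [hT]
    · have h1 : a1 * b2 = b1 * a2 := hb3 rfl rfl
      have h2 : a1 * c2 = c1 * a2 := hc3 rfl rfl
      rw [mul_t, mul_t]
      have h3 : b1 * c2 = c1 * b2 := by
        have h4 : a1 * (b1 * c2) = a1 * (c1 * b2) := by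
          calc a1 * (b1 * c2) = b1 * (a1 * c2) := by rw [← mul_assoc, hT a1 b1, mul_assoc]
            _ = b1 * (c1 * a2) := by rw [h2]
            _ = c1 * (b1 * a2) := by rw [← mul_assoc, hT b1 c1, mul_assoc]
            _ = c1 * (a1 * b2) := by rw [h1]
            _ = a1 * (c1 * b2) := by rw [← mul_assoc, hT c1 a1, mul_assoc]
        exact mul_left_cancel h4
      ext
      · exact h3
      · show b2 * c1 = c2 * b1
        rw [hT b2 c1, hT c2 b1, h3]
      · rfl

/-- second centre of `Wr T` -/
lemma Wr.second {T : Type} [Group T] [Nontrivial T] (u0 : T) (hu0 : ¬ ∀ v, u0 * v = v * u0) (x : Wr T)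
    (hx : ∀ g : Wr T, ∃ ζ : Wr T, (∀ y, ζ * y = y * ζ) ∧ g * x = ζ * (x * g)) :
    x.s = false ∧ (∀ u, x.a * u = u * x.a) ∧ (∀ u, x.b * u = u * x.b) := by
  obtain ⟨x1, x2, _ | _⟩ := x
  · refine ⟨rfl, fun u => ?_, fun u => ?_⟩
    · obtain ⟨ζ, hζ, h⟩ := hx ⟨u, 1, false⟩
      obtain ⟨h1, h2, h3⟩ := (central_iff ζ).1 hζ
      obtain ⟨c, d, _ | _⟩ := ζ
      · simp only at h2 h3
        subst h2
        rw [mul_f, mul_f, mul_f] at h
        have e1 : u * x1 = c * (x1 * u) := congrArg Wr.a h
        have e2 : 1 * x2 = c * (x2 * 1) := congrArg Wr.b h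
        have e3 : c = 1 := by
          rw [one_mul, mul_one] at e2
          exact (mul_eq_right.1 e2.symm)
        rw [e3, one_mul] at e1
        exact e1.symm
      · simp at h1
    · obtain ⟨ζ, hζ, h⟩ := hx ⟨1, u, false⟩
      obtain ⟨h1, h2, h3⟩ := (central_iff ζ).1 hζ
      obtain ⟨c, d, _ | _⟩ := ζ
      · simp only at h2 h3
        subst h2
        rw [mul_f, mul_f, mul_f] at h
        have e1 : u * x2 = c * (x2 * u) := congrArg Wr.b h
        have e2 : 1 * x1 = c * (x1 * 1) := congrArg Wr.a h
        have e3 : c = 1 := by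
          rw [one_mul, mul_one] at e2
          exact (mul_eq_right.1 e2.symm)
        rw [e3, one_mul] at e1
        exact e1.symm
      · simp at h1
  · exfalso
    obtain ⟨ζ, hζ, h⟩ := hx ⟨u0, 1, false⟩
    obtain ⟨h1, h2, h3⟩ := (central_iff ζ).1 hζ
    obtain ⟨c, d, _ | _⟩ := ζ
    · simp only at h2 h3
      subst h2
      rw [mul_f, mul_t, mul_f] at h
      have e2 : 1 * x2 = c * (x2 * u0) := congrArg Wr.b h
      apply hu0
      have e3 : u0 = c⁻¹ := by
        rw [one_mul, ← mul_assoc, h3 x2, mul_assoc] at e2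
        have := mul_eq_left.1 e2.symm
        exact (eq_inv_of_mul_eq_one_right this)
      intro v
      rw [e3]
      have := h3 v
      rw [inv_mul_eq_iff_eq_mul, ← mul_assoc, this, mul_assoc, mul_inv_cancel, mul_one]
    · simp at h1

/-- an element of a noncentral factor lying in the second centre -/
lemma exists_second {G : Type*} [Group G] [Finite G] (hG : IsPGroup 2 G) (A B : Subgroup G) (hAB : A ⊔ B = ⊤)
    (hc : ∀ x ∈ A, ∀ y ∈ B, x * y = y * x) (hA : ¬ ∀ x ∈ A, ∀ u, x * u = u * x) :
    ∃ α ∈ A, (¬ ∀ u, α * u = u * α) ∧ ∀ g : G, ∃ ζ : G, (∀ y, ζ * y = y * ζ) ∧ g * α = ζ * (α * g) := by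
  have hAn : A.Normal := by
    have : (⊤ : Subgroup G) ≤ Subgroup.normalizer (A : Set G) := by
      rw [← hAB]
      apply sup_le Subgroup.le_normalizer
      intro b hb
      rw [Subgroup.mem_normalizer_iff]
      intro x
      constructor
      · intro hx
        rw [← hc x hx b hb, mul_assoc, mul_inv_cancel, mul_one]; exact hx
      · intro hx
        have h1 := hc _ hx b hb
        have h2 : b * x * b⁻¹ = x := by
          have h3 : b * x = b * (b * x * b⁻¹) := by
            rw [← h1]; group
          exact (mul_left_cancel h3).symm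
        rwa [h2] at hx
    exact Subgroup.normalizer_eq_top_iff.1 (top_le_iff.1 this)
  let Z := Subgroup.center G
  have hN : (A.map (QuotientGroup.mk' Z)).Normal := Subgroup.Normal.map hAn _ (QuotientGroup.mk'_surjective Z)
  have hne : A.map (QuotientGroup.mk' Z) ≠ ⊥ := by
    intro h
    apply hA
    intro x hx u
    have h1 : QuotientGroup.mk' Z x ∈ (⊥ : Subgroup (G ⧸ Z)) := by rw [← h]; exact ⟨x, hx, rfl⟩
    rw [Subgroup.mem_bot] at h1
    have h2 : x ∈ Z := (QuotientGroup.eq_one_iff x).1 h1
    exact ((Subgroup.mem_center_iff.1 h2) u).symm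
  have hQ : IsPGroup 2 (G ⧸ Z) := hG.to_quotient Z
  have : Fact (Nat.Prime 2) := ⟨Nat.prime_two⟩
  obtain ⟨y, ⟨α, hα, rfl⟩, hy1, hy2⟩ := normal_center hQ (A.map (QuotientGroup.mk' Z)) hne
  refine ⟨α, hα, ?_, ?_⟩
  · intro h
    apply hy1
    exact (QuotientGroup.eq_one_iff α).2 (Subgroup.mem_center_iff.2 fun g => (h g).symm)
  · intro g
    have h1 := hy2 (QuotientGroup.mk' Z g)
    rw [← map_mul, ← map_mul] at h1
    have h2 : (α * g)⁻¹ * (g * α) ∈ Z := QuotientGroup.eq.1 h1.symm
    refine ⟨(α * g)⁻¹ * (g * α), fun y => ((Subgroup.mem_center_iff.1 h2) y).symm, ?_⟩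
    have h3 := (Subgroup.mem_center_iff.1 h2) (α * g)
    rw [← h3]; group

/-- the inductive step -/
noncomputable def pkS {a : ℕ} (P : Pk a) : Pk (a + 1) where
  T := Wr P.T
  grp := inferInstance
  fin := inferInstance
  X := P.X × Bool
  fX := inferInstance
  dX := inferInstance
  f := toPerm P.f
  ε := sgn P.ε ((-1) ^ (Fintype.card P.X)) (by rw [← pow_add, ← two_mul]; simp)
  f_inj := by
    have : Nonempty P.X := by
      rw [← Fintype.card_pos_iff, P.cardX]; positivity
    exact toPerm_inj P.f P.f_inj
  cardX := by rw [Fintype.card_prod, P.cardX, Fintype.card_bool, pow_succ]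
  cardT := by
    rw [Wr.card, P.cardT, ← pow_mul, mul_comm, ← pow_succ]
    congr 1
    have : 1 ≤ 2 ^ a := Nat.one_le_two_pow
    rw [pow_succ]; omega
  sign_f := fun t => sign_toPerm P.f P.ε P.sign_f t
  odd := by
    intro _
    rcases Nat.eq_zero_or_pos a with h | h
    · refine ⟨⟨1, 1, true⟩, ?_⟩
      show P.ε 1 * P.ε 1 * (if true then ((-1) ^ (Fintype.card P.X)) else 1) = -1
      rw [P.cardX]; simp [h]
    · obtain ⟨t, ht⟩ := P.odd h
      refine ⟨⟨t, 1, false⟩, ?_⟩
      show P.ε t * P.ε 1 * (if false then ((-1) ^ (Fintype.card P.X)) else 1) = -1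
      rw [ht]; simp
  ε_inj := by
    intro h
    have ha : a = 0 := by omega
    have hs : Subsingleton P.T := by
      have := P.cardT
      simp only [ha] at this
      exact (Nat.card_eq_one_iff_unique.1 (by simpa using this)).1
    have hX : Fintype.card P.X = 1 := by rw [P.cardX]; simp [ha]
    rintro ⟨x1, x2, xs⟩ ⟨y1, y2, ys⟩ hxy
    have h1 : P.ε x1 * P.ε x2 * (if xs then ((-1) ^ (Fintype.card P.X)) else 1) =
      P.ε y1 * P.ε y2 * (if ys then ((-1) ^ (Fintype.card P.X)) else 1) := hxy
    rw [Subsingleton.elim x1 y1, Subsingleton.elim x2 y2, hX] at h1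
    rw [Subsingleton.elim x1 y1, Subsingleton.elim x2 y2]
    have h2 := mul_left_cancel h1
    cases xs <;> cases ys <;> simp at h2 ⊢
  cen := by
    intro _
    rcases Nat.eq_zero_or_pos a with h | h
    · have hs : Subsingleton P.T := by
        have := P.cardT
        simp only [h] at this
        exact (Nat.card_eq_one_iff_unique.1 (by simpa using this)).1
      refine ⟨⟨1, 1, true⟩, ?_, ?_⟩
      · intro h1
        have := congrArg Wr.s h1
        simp [Wr.one_def] at this
      · rintro ⟨x1, x2, xs⟩
        constructor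
        · intro _
          rw [Subsingleton.elim x1 1, Subsingleton.elim x2 1]
          cases xs
          · left; rfl
          · right; rfl
        · rintro _ ⟨y1, y2, ys⟩
          rw [Subsingleton.elim x1 1, Subsingleton.elim x2 1, Subsingleton.elim y1 1, Subsingleton.elim y2 1]
          cases xs <;> cases ys <;> simp [mul_f, mul_t]
    · obtain ⟨z, hz, hz2⟩ := P.cen h
      have : Nontrivial P.T := ⟨z, 1, hz⟩
      refine ⟨⟨z, z, false⟩, ?_, ?_⟩
      · intro h1
        exact hz (congrArg Wr.a h1)
      · intro t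
        rw [central_iff, hz2]
        obtain ⟨x1, x2, xs⟩ := t
        constructor
        · rintro ⟨h1, h2, h3⟩
          simp only at h1 h2 h3
          subst h1 h2
          rcases h3 with rfl | rfl
          · left; rfl
          · right; rfl
        · rintro (h1 | h1)
          · rw [Wr.one_def] at h1
            injection h1 with h2 h3 h4
            subst h2 h3 h4
            exact ⟨rfl, rfl, Or.inl rfl⟩
          · injection h1 with h2 h3 h4
            subst h2 h3 h4
            exact ⟨rfl, rfl, Or.inr rfl⟩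
  cen2 := by
    intro h2 t ht
    obtain ⟨z, hz, hz2⟩ := P.cen (by omega)
    have : Nontrivial P.T := ⟨z, 1, hz⟩
    obtain ⟨h3, h4, h5⟩ := (central_iff t).1 ht
    obtain ⟨x1, x2, xs⟩ := t
    simp only at h3 h4 h5
    subst h3 h4
    refine ⟨?_, ⟨x1, 1, false⟩, ⟨1, 1, true⟩, ?_⟩
    · show P.ε x1 * P.ε x1 * (if false then ((-1) ^ (Fintype.card P.X)) else 1) = 1
      simp
    · have hzz : z * z = 1 := by
        have h6 := (hz2 (z * z)).1 (by
          intro u
          have := (hz2 z).2 (Or.inr rfl) u
          rw [mul_assoc, this, ← mul_assoc, this, mul_assoc])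
        rcases h6 with h6 | h6
        · exact h6
        · exact absurd (mul_eq_left.1 h6) hz
      have hx : x1⁻¹ = x1 := by
        rcases (hz2 x1).1 h5 with rfl | rfl
        · simp
        · exact inv_eq_of_mul_eq_one_right hzz
      simp [inv_f, inv_t, mul_f, mul_t, hx]
  cind := by
    intro h2 A B hAB hc
    rcases Nat.lt_or_ge a 2 with h | h
    · have ha : a = 1 := by omega
      have hcard : Nat.card P.T = 2 := by rw [P.cardT]; simp [ha]
      have hT : ∀ x y : P.T, x * y = y * x := by
        have : Fact (Nat.Prime 2) := ⟨Nat.prime_two⟩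
        have hcyc : IsCyclic P.T := isCyclic_of_prime_card hcard
        intro x y
        exact (IsCyclic.commGroup (α := P.T)).mul_comm x y
      exact cind_of_abel (Wr.abel hT) A B hAB hc
    · by_contra hcon
      push Not at hcon
      obtain ⟨⟨x, hx, u, hu⟩, ⟨y, hy, v, hv⟩⟩ := hcon
      have hG : IsPGroup 2 (Wr P.T) := by
        apply IsPGroup.of_card (n := 1 + 2 * (2 ^ a - 1))
        rw [Wr.card, P.cardT, pow_add, pow_one, pow_mul']
      obtain ⟨z, hz, hz2⟩ := P.cen (by omega)
      have : Nontrivial P.T := ⟨z, 1, hz⟩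
      obtain ⟨τ, hτ⟩ := P.odd (by omega)
      have hτ2 : ¬ ∀ v, τ * v = v * τ := by
        intro h3
        have := (P.cen2 h τ h3).1
        rw [hτ] at this
        exact absurd this (by decide)
      obtain ⟨α, hα, hα1, hα2⟩ := exists_second hG A B hAB hc (fun h3 => hu (h3 x hx u))
      obtain ⟨β, hβ, hβ1, hβ2⟩ := exists_second hG B A (by rw [sup_comm]; exact hAB) (fun x hx y hy => (hc y hy x hx).symm)
        (fun h3 => hv (h3 y hy v))
      obtain ⟨a1, a2, a3⟩ := Wr.second τ hτ2 α hα2
      obtain ⟨b1, b2, b3⟩ := Wr.second τ hτ2 β hβ2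
      rw [hz2] at a2 a3 b2 b3
      -- β⁻¹ α central
      have hzz : z * z = 1 := by
        have h6 := (hz2 (z * z)).1 (by
          intro u
          have := (hz2 z).2 (Or.inr rfl) u
          rw [mul_assoc, this, ← mul_assoc, this, mul_assoc])
        rcases h6 with h6 | h6
        · exact h6
        · exact absurd (mul_eq_left.1 h6) hz
      have hzc : ∀ u, z * u = u * z := (hz2 z).2 (Or.inr rfl)
      have hcen : ∀ u, (α * β) * u = u * (α * β) := by
        rw [central_iff]
        rw [central_iff] at hα1 hβ1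
        obtain ⟨α1, α2, αs⟩ := α
        obtain ⟨β1, β2, βs⟩ := β
        simp only at a1 a2 a3 b1 b2 b3
        subst a1 b1
        rw [mul_f]
        refine ⟨rfl, ?_, ?_⟩
        · rcases a2 with rfl | rfl <;> rcases a3 with rfl | rfl <;> rcases b2 with rfl | rfl <;>
            rcases b3 with rfl | rfl <;> simp_all
        · rcases a2 with rfl | rfl <;> rcases b2 with rfl | rfl <;> simp [hzc, hzz]
      apply hα1
      -- α commutes with A and B
      have hle : A ⊔ B ≤ Subgroup.centralizer {α} := by
        apply sup_le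
        · intro w hw
          rw [Subgroup.mem_centralizer_singleton_iff]
          have h4 := hcen w
          have h5 := hc w hw β hβ
          have h6 : α * w * β = w * α * β := by
            rw [mul_assoc, h5, ← mul_assoc, h4, mul_assoc]
          exact (mul_right_cancel h6).symm
        · intro w hw
          rw [Subgroup.mem_centralizer_singleton_iff]
          exact (hc α hα w hw).symm
      intro u
      have : u ∈ Subgroup.centralizer {α} := hle (by rw [hAB]; trivial)
      rw [Subgroup.mem_centralizer_singleton_iff] at this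
      exact this.symm
  even := by
    intro h3 t ht hte
    obtain ⟨z, hz, hz2⟩ := P.cen (by omega)
    have : Nontrivial P.T := ⟨z, 1, hz⟩
    have hze : P.ε z = 1 := (P.cen2 (by omega) z ((hz2 z).2 (Or.inr rfl))).1
    rw [central_iff]
    obtain ⟨x1, x2, _ | _⟩ := t
    · refine ⟨rfl, ?_, fun u => ?_⟩
      · have := hte ⟨1, 1, true⟩ (by
          show P.ε 1 * P.ε 1 * (if true then ((-1) ^ (Fintype.card P.X)) else 1) = 1
          rw [P.cardX]
          have : Even (2 ^ a) := (Nat.even_pow.2 ⟨even_two, by omega⟩)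
          simp [this.neg_one_pow])
        rw [mul_f, mul_t] at this
        have := congrArg Wr.a this
        simpa using this
      · have := hte ⟨u, u, false⟩ (by
          show P.ε u * P.ε u * (if false then ((-1) ^ (Fintype.card P.X)) else 1) = 1
          simp)
        rw [mul_f, mul_f] at this
        exact congrArg Wr.a this
    · exfalso
      have := hte ⟨z, 1, false⟩ (by
        show P.ε z * P.ε 1 * (if false then ((-1) ^ (Fintype.card P.X)) else 1) = 1
        rw [hze]; simp)
      rw [mul_t, mul_f] at this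
      have := congrArg Wr.a this
      simp at this
      exact hz this

/-- the iterated wreath product at level `a` -/
noncomputable def pk : (a : ℕ) → Pk a
  | 0 => pk0
  | a + 1 => pkS (pk a)

end Cfsg.Agent.Lib.SylAlt
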