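import Mathlib
import Cfsg.Agent.Lib.SylAlt2

set_option autoImplicit false

/-!
Direct decomposability (helper43), combinatorial ingredients.
-/

namespace Cfsg.Agent.Lib.SylAlt

open Equiv

/-- direct decomposability -/
def Dec (G : Type*) [Group G] : Prop :=
  ∃ A B : Subgroup G, A ≠ ⊥ ∧ B ≠ ⊥ ∧ (∀ x ∈ A, ∀ y ∈ B, x * y = y * x) ∧ A ⊓ B = ⊥ ∧ A ⊔ B = ⊤

lemma Dec.congr {G H : Type*} [Group G] [Group H] (e : G ≃* H) (h : Dec G) : Dec H := by
  obtain ⟨A, B, hA, hB, hc, hi, hs⟩ := h
  have einj : Function.Injective (e : G →* H) := e.injective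
  refine ⟨A.map (e : G →* H), B.map (e : G →* H), ?_, ?_, ?_, ?_, ?_⟩
  · rwa [Ne, Subgroup.map_eq_bot_iff_of_injective _ einj]
  · rwa [Ne, Subgroup.map_eq_bot_iff_of_injective _ einj]
  · rintro _ ⟨x, hx, rfl⟩ _ ⟨y, hy, rfl⟩
    rw [← map_mul, hc x hx y hy, map_mul]
  · rw [← Subgroup.map_inf _ _ _ einj, hi, Subgroup.map_bot]
  · rw [← Subgroup.map_sup, hs]
    exact Subgroup.map_top_of_surjective _ e.surjective

/-- factorization in a central product -/
lemma sup_fact {G : Type*} [Group G] (A B : Subgroup G) (hc : ∀ x ∈ A, ∀ y ∈ B, x * y = y * x) (hs : A ⊔ B = ⊤)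
    (g : G) : ∃ x ∈ A, ∃ y ∈ B, g = x * y := by
  let C : Subgroup G :=
    { carrier := {g | ∃ x ∈ A, ∃ y ∈ B, g = x * y}
      one_mem' := ⟨1, A.one_mem, 1, B.one_mem, by simp⟩
      mul_mem' := by
        rintro _ _ ⟨x, hx, y, hy, rfl⟩ ⟨x', hx', y', hy', rfl⟩
        refine ⟨x * x', A.mul_mem hx hx', y * y', B.mul_mem hy hy', ?_⟩
        rw [mul_assoc, ← mul_assoc y, ← hc x' hx' y hy]
        simp only [mul_assoc]
      inv_mem' := by
        rintro _ ⟨x, hx, y, hy, rfl⟩
        refine ⟨x⁻¹, A.inv_mem hx, y⁻¹, B.inv_mem hy, ?_⟩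
        rw [mul_inv_rev, hc _ (A.inv_mem hx) _ (B.inv_mem hy)] }
  have h : A ⊔ B ≤ C := by
    apply sup_le
    · intro x hx; exact ⟨x, hx, 1, B.one_mem, by simp⟩
    · intro x hx; exact ⟨1, A.one_mem, x, hx, by simp⟩
  exact h (by rw [hs]; trivial)

/-- a `2`-group with centre of order two is indecomposable -/
lemma not_dec_of_center {G : Type*} [Group G] [Finite G] (hG : IsPGroup 2 G) (z : G)
    (hz : ∀ t : G, (∀ u, t * u = u * t) → t = 1 ∨ t = z) : ¬ Dec G := by
  rintro ⟨A, B, hA, hB, hc, hi, hs⟩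
  have : Fact (Nat.Prime 2) := ⟨Nat.prime_two⟩
  have hAn : A.Normal := by
    constructor
    intro n hn g
    obtain ⟨x, hx, y, hy, rfl⟩ := sup_fact A B hc hs g
    have : x * y * n * (x * y)⁻¹ = x * n * x⁻¹ := by
      rw [mul_inv_rev, mul_assoc x y n, ← hc n hn y hy]; group
    rw [this]
    exact A.mul_mem (A.mul_mem hx hn) (A.inv_mem hx)
  have hBn : B.Normal := by
    constructor
    intro n hn g
    obtain ⟨x, hx, y, hy, rfl⟩ := sup_fact A B hc hs g
    have : x * y * n * (x * y)⁻¹ = y * n * y⁻¹ := by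
      have h1 : x * (y * n * y⁻¹) = (y * n * y⁻¹) * x := hc x hx _ (B.mul_mem (B.mul_mem hy hn) (B.inv_mem hy))
      calc x * y * n * (x * y)⁻¹ = x * (y * n * y⁻¹) * x⁻¹ := by group
        _ = y * n * y⁻¹ := by rw [h1]; group
    rw [this]
    exact B.mul_mem (B.mul_mem hy hn) (B.inv_mem hy)
  obtain ⟨x, hx, hx1, hx2⟩ := normal_center hG A hA
  obtain ⟨y, hy, hy1, hy2⟩ := normal_center hG B hB
  have h1 : x = z := (hz x (fun u => (hx2 u).symm)).resolve_left hx1
  have h2 : y = z := (hz y (fun u => (hy2 u).symm)).resolve_left hy1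
  have h3 : x ∈ A ⊓ B := ⟨hx, by rw [h1, ← h2]; exact hy⟩
  rw [hi, Subgroup.mem_bot] at h3
  exact hx1 h3

section sgn
variable {ι : Type} [Fintype ι] [DecidableEq ι] (X : ι → Type) [∀ i, Fintype (X i)] [∀ i, DecidableEq (X i)]

lemma sign_sigma (F : ∀ i, Perm (X i)) : Perm.sign (Perm.sigmaCongrRight F) = ∏ i, Perm.sign (F i) := by
  let A : (∀ i, Perm (X i)) →* ℤˣ := Perm.sign.comp (Perm.sigmaCongrRightHom X)
  let B : (∀ i, Perm (X i)) →* ℤˣ :=
    { toFun := fun F => ∏ i, Perm.sign (F i)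
      map_one' := by simp
      map_mul' := by intro F G; simp [Finset.prod_mul_distrib] }
  have key : A = B := by
    apply MonoidHom.pi_ext
    intro i σ
    induction σ using Equiv.Perm.swap_induction_on with
    | one => rw [Pi.mulSingle_one, map_one, map_one]
    | swap_mul τ x y hxy ih =>
      rw [Pi.mulSingle_mul, map_mul, map_mul, ih]
      congr 1
      have h1 : B (Pi.mulSingle i (swap x y)) = -1 := by
        show ∏ j, Perm.sign ((Pi.mulSingle i (swap x y) : ∀ i, Perm (X i)) j) = -1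
        rw [Finset.prod_eq_single i]
        · rw [Pi.mulSingle_eq_same, Perm.sign_swap hxy]
        · intro j _ hj
          rw [Pi.mulSingle_eq_of_ne hj, Perm.sign_one]
        · simp
      have h2 : A (Pi.mulSingle i (swap x y)) = -1 := by
        show Perm.sign (Perm.sigmaCongrRight (Pi.mulSingle i (swap x y) : ∀ i, Perm (X i))) = -1
        have h3 : Perm.sigmaCongrRight (Pi.mulSingle i (swap x y) : ∀ i, Perm (X i)) = swap ⟨i, x⟩ ⟨i, y⟩ := by
          ext1 ⟨j, w⟩
          rw [Perm.sigmaCongrRight]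
          by_cases hj : j = i
          · subst hj
            simp only [Equiv.sigmaCongrRight_apply, Sigma.map, id, Pi.mulSingle_eq_same]
            by_cases h1 : w = x
            · subst h1; rw [swap_apply_left, swap_apply_left]
            · by_cases h2 : w = y
              · subst h2; rw [swap_apply_right, swap_apply_right]
              · rw [swap_apply_of_ne_of_ne h1 h2, swap_apply_of_ne_of_ne]
                · intro h; exact h1 (by simpa using h)
                · intro h; exact h2 (by simpa using h)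
          · simp only [Equiv.sigmaCongrRight_apply, Sigma.map, id, Pi.mulSingle_eq_of_ne hj]
            rw [swap_apply_of_ne_of_ne]
            · rfl
            · intro h; exact hj (congrArg Sigma.fst h)
            · intro h; exact hj (congrArg Sigma.fst h)
        rw [h3, Perm.sign_swap]
        intro h
        exact hxy (by simpa using h)
      rw [h1, h2]
  exact DFunLike.congr_fun key F

end sgn

/-- embedding of symmetric groups -/
lemma embed {α : Type} [Fintype α] [DecidableEq α] {n : ℕ} (h : Fintype.card α ≤ n) :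
    ∃ φ : Perm α →* Perm (Fin n), Function.Injective φ ∧ ∀ σ, Perm.sign (φ σ) = Perm.sign σ := by
  classical
  obtain ⟨e⟩ := Function.Embedding.nonempty_of_card_le (α := α) (β := Fin n) (by simpa using h)
  let f : α ≃ Subtype (fun x => x ∈ Set.range e) := Equiv.ofInjective e e.injective
  refine ⟨Perm.extendDomainHom f, Perm.extendDomainHom_injective f, fun σ => ?_⟩
  exact Perm.sign_extendDomain σ f

/-- adding two points -/
lemma embed2 {α : Type} [Fintype α] [DecidableEq α] {n : ℕ} (h : Fintype.card α + 2 ≤ n) :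
    ∃ φ : Perm α →* Perm (Fin n), Function.Injective φ ∧ ∀ σ, Perm.sign (φ σ) = 1 := by
  obtain ⟨φ, h1, h2⟩ := embed (α := α ⊕ Fin 2) (n := n) (by simpa using h)
  let ψ : ℤˣ →* Perm (Fin 2) :=
    { toFun := fun u => if u = 1 then 1 else swap 0 1
      map_one' := by simp
      map_mul' := by decide }
  refine ⟨φ.comp ((Perm.sumCongrHom α (Fin 2)).comp (MonoidHom.prod (MonoidHom.id _) (ψ.comp Perm.sign))), ?_, ?_⟩
  · apply h1.comp
    apply Perm.sumCongrHom_injective.comp
    intro x y hxy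
    exact congrArg Prod.fst hxy
  · intro σ
    simp only [MonoidHom.comp_apply]
    rw [h2]
    show Perm.sign (Perm.sumCongr σ (ψ (Perm.sign σ))) = 1
    rw [Perm.sign_sumCongr]
    rcases Int.units_eq_one_or (Perm.sign σ) with h | h
    · rw [h, map_one]; simp
    · rw [h]
      show -1 * Perm.sign (if (-1 : ℤˣ) = 1 then 1 else swap (0 : Fin 2) 1) = 1
      decide

lemma v2_fact (m : ℕ) : padicValNat 2 (m.factorial) = (m.bitIndices.map (fun i => 2 ^ i - 1)).sum := by
  have : Fact (Nat.Prime 2) := ⟨Nat.prime_two⟩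
  have hmap : ∀ L : List ℕ, ((L.map (· + 1)).map (fun i => 2 ^ i - 1)).sum = (L.map (fun i => 2 ^ i - 1)).sum +
      (L.map (fun i => 2 ^ i)).sum := by
    intro L
    induction L with
    | nil => simp
    | cons x L ih =>
      simp only [List.map_cons, List.sum_cons, ih]
      have : 1 ≤ 2 ^ x := Nat.one_le_two_pow
      rw [pow_succ]; omega
  induction m using Nat.strong_induction_on with
  | _ m ih =>
    rcases Nat.eq_zero_or_pos m with h0 | h0
    · subst h0; simp
    · obtain ⟨k, hk⟩ : ∃ k, m = 2 * k ∨ m = 2 * k + 1 := ⟨m / 2, by omega⟩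
      rcases hk with rfl | rfl
      · rw [padicValNat_factorial_mul, ih k (by omega), Nat.bitIndices_two_mul, hmap, Nat.sum_map_two_pow_bitIndices]
      · rw [padicValNat_factorial_mul_add k (by norm_num), padicValNat_factorial_mul, ih k (by omega),
          Nat.bitIndices_two_mul_add_one, List.map_cons, List.sum_cons, hmap, Nat.sum_map_two_pow_bitIndices]
        simp

/-- binary expansion -/
lemma bits (m : ℕ) : ∃ (k : ℕ) (a : Fin k → ℕ), Function.Injective a ∧ (∀ i, 2 ≤ a i) ∧ ∑ i, 2 ^ (a i) = 4 * m ∧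
    padicValNat 2 ((4 * m).factorial) = ∑ i, (2 ^ (a i) - 1) := by
  let L := (4 * m).bitIndices
  have hL : L = m.bitIndices.map (· + 2) := by
    show (4 * m).bitIndices = _
    have := Nat.bitIndices_two_pow_mul 2 m
    simpa using this
  refine ⟨L.length, fun i => L[i], ?_, ?_, ?_, ?_⟩
  · intro i j hij
    have hnd : L.Nodup := Nat.bitIndices_nodup
    exact Fin.ext ((List.Nodup.getElem_inj_iff hnd).1 hij)
  · intro i
    have h1 : ∀ y ∈ L, 2 ≤ y := by
      intro y hy
      rw [hL] at hy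
      obtain ⟨x, _, hx⟩ := List.mem_map.1 hy
      omega
    exact h1 _ (List.getElem_mem _)
  · exact (Fin.sum_univ_fun_getElem L (fun i => 2 ^ i)).trans (Nat.sum_map_two_pow_bitIndices (4 * m))
  · exact (v2_fact (4 * m)).trans (Fin.sum_univ_fun_getElem L (fun i => 2 ^ i - 1)).symm

/-- sums of at least two distinct powers of two -/
lemma not_pow {k : ℕ} (a : Fin k → ℕ) (ha : Function.Injective a) (hk : 2 ≤ k) (r : ℕ) : ∑ i, 2 ^ (a i) ≠ 2 ^ r := by
  intro h
  have h1 : ∀ i, a i < r := by
    intro i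
    obtain ⟨j, hj⟩ : ∃ j, j ≠ i := by
      have : Nontrivial (Fin k) := Fin.nontrivial_iff_two_le.2 hk
      exact exists_ne i
    have h2 : 2 ^ (a i) + 2 ^ (a j) ≤ ∑ i, 2 ^ (a i) := by
      rw [← Finset.sum_pair hj.symm (f := fun i => 2 ^ (a i))]
      exact Finset.sum_le_sum_of_subset (Finset.subset_univ _)
    rw [h] at h2
    have h3 : 0 < 2 ^ (a j) := by positivity
    have h4 : 2 ^ (a i) < 2 ^ r := by omega
    exact (Nat.pow_lt_pow_iff_right (by norm_num)).1 h4
  have h2 : ∑ i, 2 ^ (a i) ≤ ∑ j ∈ Finset.range r, 2 ^ j := by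
    rw [← Finset.sum_image (f := fun j => 2 ^ j) (s := Finset.univ) (g := a) (fun x _ y _ hxy => ha hxy)]
    apply Finset.sum_le_sum_of_subset
    intro j hj
    obtain ⟨i, _, rfl⟩ := Finset.mem_image.1 hj
    exact Finset.mem_range.2 (h1 i)
  rw [Nat.geomSum_eq (by norm_num), h] at h2
  have : 0 < 2 ^ r := by positivity
  simp at h2
  omega

end Cfsg.Agent.Lib.SylAlt
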