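import Mathlib
import Cfsg.Agent.Lib.SylAlt3

set_option autoImplicit false

/-!
Direct indecomposability of the even part of a product (helper43).
-/

namespace Cfsg.Agent.Lib.SylAlt

section prod

variable {ι : Type} [Fintype ι] [DecidableEq ι] {T : ι → Type} [∀ i, Group (T i)] (ε : ∀ i, T i →* ℤˣ)

/-- total sign -/
def eps : (∀ i, T i) →* ℤˣ where
  toFun g := ∏ i, ε i (g i)
  map_one' := by simp
  map_mul' := by intro F G; simp [Finset.prod_mul_distrib]

lemma eps_single (i : ι) (t : T i) : eps ε (Pi.mulSingle i t) = ε i t := by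
  show ∏ j, ε j ((Pi.mulSingle i t : ∀ i, T i) j) = _
  rw [Finset.prod_eq_single i]
  · rw [Pi.mulSingle_eq_same]
  · intro j _ hj
    rw [Pi.mulSingle_eq_of_ne hj, map_one]
  · simp

variable (hodd : ∀ i, ∃ t, ε i t = -1)
  (hcen : ∀ i (t : T i), (∀ u, t * u = u * t) → ε i t = 1 ∧ ∃ x y, t = x * y * x⁻¹ * y⁻¹)
  (hcind : ∀ i, ∀ A B : Subgroup (T i), A ⊔ B = ⊤ → (∀ x ∈ A, ∀ y ∈ B, x * y = y * x) →
    (∀ x ∈ A, ∀ u, x * u = u * x) ∨ (∀ y ∈ B, ∀ u, y * u = u * y))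

include hodd in
/-- adjusting the parity -/
lemma adj [Nontrivial ι] (i : ι) : ∃ j, j ≠ i ∧ ∃ τ : T j, ∀ t : T i, ∃ c : ℕ,
    eps ε (Pi.mulSingle i t * Pi.mulSingle j (τ ^ c)) = 1 := by
  obtain ⟨j, hj⟩ := exists_ne i
  obtain ⟨τ, hτ⟩ := hodd j
  refine ⟨j, hj, τ, fun t => ?_⟩
  rcases Int.units_eq_one_or (ε i t) with h | h
  · refine ⟨0, ?_⟩
    rw [map_mul, eps_single, eps_single, h, pow_zero, map_one, mul_one]
  · refine ⟨1, ?_⟩
    rw [map_mul, eps_single, eps_single, h, pow_one, hτ]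
    rfl

omit [DecidableEq ι] in
lemma comm_central {G : Type*} [Group G] (a b a' b' : G) (hb : ∀ g, b * g = g * b) (hb' : ∀ g, b' * g = g * b') :
    a * b * (a' * b') * (a * b)⁻¹ * (a' * b')⁻¹ = a * a' * a⁻¹ * a'⁻¹ := by
  have c1 : b * (a' * b') * b⁻¹ = a' * b' := by rw [hb (a' * b')]; group
  have c2 : b' * a⁻¹ = a⁻¹ * b' := hb' a⁻¹
  calc a * b * (a' * b') * (a * b)⁻¹ * (a' * b')⁻¹ = a * (b * (a' * b') * b⁻¹) * a⁻¹ * (b'⁻¹ * a'⁻¹) := by group
    _ = a * a' * (b' * a⁻¹) * (b'⁻¹ * a'⁻¹) := by rw [c1]; group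
    _ = a * a' * a⁻¹ * a'⁻¹ := by rw [c2]; group

include hodd hcind in
lemma cind_proj [Nontrivial ι] (A B : Subgroup (eps ε).ker) (hc : ∀ x ∈ A, ∀ y ∈ B, x * y = y * x) (hs : A ⊔ B = ⊤) (i : ι) :
    (∀ x ∈ A, ∀ u, (x : ∀ i, T i) i * u = u * (x : ∀ i, T i) i) ∨
    (∀ x ∈ B, ∀ u, (x : ∀ i, T i) i * u = u * (x : ∀ i, T i) i) := by
  let π : (eps ε).ker →* T i := (Pi.evalMonoidHom T i).comp (eps ε).ker.subtype
  have hπ : Function.Surjective π := by
    intro t
    obtain ⟨j, hj, τ, h⟩ := adj ε hodd i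
    obtain ⟨c, hc⟩ := h t
    refine ⟨⟨_, hc⟩, ?_⟩
    show (Pi.mulSingle i t * Pi.mulSingle j (τ ^ c) : ∀ i, T i) i = t
    rw [Pi.mul_apply, Pi.mulSingle_eq_same, Pi.mulSingle_eq_of_ne hj.symm, mul_one]
  rcases hcind i (A.map π) (B.map π) (by rw [← Subgroup.map_sup, hs, Subgroup.map_top_of_surjective _ hπ]) (by
    rintro _ ⟨x, hx, rfl⟩ _ ⟨y, hy, rfl⟩
    rw [← map_mul, hc x hx y hy, map_mul]) with h | h
  · left
    intro x hx u
    exact h _ ⟨x, hx, rfl⟩ u
  · right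
    intro x hx u
    exact h _ ⟨x, hx, rfl⟩ u

include hodd hcen in
lemma not_all [Nontrivial ι] (A B : Subgroup (eps ε).ker) (hc : ∀ x ∈ A, ∀ y ∈ B, x * y = y * x) (hs : A ⊔ B = ⊤)
    (hi : A ⊓ B = ⊥) (hB : B ≠ ⊥) (h : ∀ i, ∀ x ∈ B, ∀ u, (x : ∀ i, T i) i * u = u * (x : ∀ i, T i) i) : False := by
  -- commutators lie in `A`
  have hcomm : ∀ x y : (eps ε).ker, x * y * x⁻¹ * y⁻¹ ∈ A := by
    intro x y
    obtain ⟨a, ha, b, hb, rfl⟩ := sup_fact A B hc hs x
    obtain ⟨a', ha', b', hb', rfl⟩ := sup_fact A B hc hs y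
    have hbz : ∀ b ∈ B, ∀ g : (eps ε).ker, b * g = g * b := by
      intro b hb g
      apply Subtype.ext
      funext i
      exact h i b hb _
    rw [comm_central a b a' b' (hbz b hb) (hbz b' hb')]
    exact A.mul_mem (A.mul_mem (A.mul_mem ha ha') (A.inv_mem ha)) (A.inv_mem ha')
  apply hB
  rw [eq_bot_iff]
  intro b hb
  have hbA : (b : ∀ i, T i) ∈ A.map (eps ε).ker.subtype := by
    apply Subgroup.pi_mem_of_mulSingle_mem
    intro i
    obtain ⟨_, x, y, hxy⟩ := hcen i ((b : ∀ i, T i) i) (h i b hb)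
    obtain ⟨j, hj, τ, hτ⟩ := adj ε hodd i
    obtain ⟨c, hc⟩ := hτ x
    obtain ⟨d, hd⟩ := hτ y
    refine ⟨_, hcomm ⟨_, hc⟩ ⟨_, hd⟩, ?_⟩
    show (Pi.mulSingle i x * Pi.mulSingle j (τ ^ c)) * (Pi.mulSingle i y * Pi.mulSingle j (τ ^ d)) *
      (Pi.mulSingle i x * Pi.mulSingle j (τ ^ c))⁻¹ * (Pi.mulSingle i y * Pi.mulSingle j (τ ^ d))⁻¹ = _
    funext k
    simp only [Pi.mul_apply, Pi.inv_apply]
    by_cases hk : k = i
    · subst hk
      simp only [Pi.mulSingle_eq_same, Pi.mulSingle_eq_of_ne hj.symm, mul_one]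
      exact hxy.symm
    · rw [Pi.mulSingle_eq_of_ne hk, Pi.mulSingle_eq_of_ne hk, Pi.mulSingle_eq_of_ne hk]
      by_cases hk2 : k = j
      · subst hk2
        simp only [Pi.mulSingle_eq_same, one_mul]
        rw [← pow_add, add_comm, pow_add]; group
      · rw [Pi.mulSingle_eq_of_ne hk2, Pi.mulSingle_eq_of_ne hk2]; simp
  obtain ⟨b', hb', hbb⟩ := hbA
  have : b' = b := Subtype.ext hbb
  subst this
  rw [← hi]
  exact ⟨hb', hb⟩

include hodd hcen hcind in
/-- the even part of a product of at least two factors is indecomposable -/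
theorem ker_not_dec [Nontrivial ι] : ¬ Dec (eps ε).ker := by
  rintro ⟨A, B, hA, hB, hc, hi, hs⟩
  by_cases h1 : ∀ i, ∀ x ∈ B, ∀ u, (x : ∀ i, T i) i * u = u * (x : ∀ i, T i) i
  · exact not_all ε hodd hcen A B hc hs hi hB h1
  by_cases h2 : ∀ i, ∀ x ∈ A, ∀ u, (x : ∀ i, T i) i * u = u * (x : ∀ i, T i) i
  · exact not_all ε hodd hcen B A (fun x hx y hy => (hc y hy x hx).symm) (by rw [sup_comm]; exact hs)
      (by rw [inf_comm]; exact hi) hA h2
  rw [not_forall] at h1 h2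
  obtain ⟨i, h1⟩ := h1
  obtain ⟨j, h2⟩ := h2
  have hor := cind_proj ε hodd hcind A B hc hs
  have h3 := (hor i).resolve_right h1
  have hij : i ≠ j := by
    rintro rfl
    exact h2 h3
  obtain ⟨s, hs'⟩ := hodd i
  obtain ⟨t, ht'⟩ := hodd j
  have hk : Pi.mulSingle i s * Pi.mulSingle j t ∈ (eps ε).ker := by
    rw [MonoidHom.mem_ker, map_mul, eps_single, eps_single, hs', ht']; rfl
  obtain ⟨x, hx, y, hy, hxy⟩ := sup_fact A B hc hs ⟨_, hk⟩
  have hxy' : (Pi.mulSingle i s * Pi.mulSingle j t : ∀ i, T i) = (x : ∀ i, T i) * (y : ∀ i, T i) := congrArg Subtype.val hxy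
  have hv : ∀ l, ε l ((x : ∀ i, T i) l) = if l = j then -1 else 1 := by
    intro l
    by_cases hl : ∀ x ∈ A, ∀ u, (x : ∀ i, T i) l * u = u * (x : ∀ i, T i) l
    · have hlj : l ≠ j := by rintro rfl; exact h2 hl
      rw [if_neg hlj]
      exact (hcen l _ (hl x hx)).1
    · have h4 := (hor l).resolve_left hl
      have hli : l ≠ i := by rintro rfl; exact hl h3
      have h5 := (hcen l _ (h4 y hy)).1
      have h6 := congrArg (ε l) (congrFun hxy' l)
      rw [Pi.mul_apply, Pi.mul_apply, map_mul, map_mul, h5, mul_one, Pi.mulSingle_eq_of_ne hli, map_one, one_mul] at h6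
      rw [← h6]
      split_ifs with h7
      · subst h7
        rw [Pi.mulSingle_eq_same, ht']
      · rw [Pi.mulSingle_eq_of_ne h7, map_one]
  have hx1 : eps ε (x : ∀ i, T i) = 1 := x.2
  have hx2 : eps ε (x : ∀ i, T i) = -1 := by
    show ∏ l, ε l ((x : ∀ i, T i) l) = -1
    rw [Finset.prod_congr rfl (fun l _ => hv l), Finset.prod_ite_eq']
    simp
  rw [hx1] at hx2
  exact absurd hx2 (by decide)

/-- products with at least two nontrivial factors are decomposable -/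
theorem pi_dec [Nontrivial ι] (hn : ∀ i, Nontrivial (T i)) : Dec (∀ i, T i) := by
  obtain ⟨i, j, hij⟩ := exists_pair_ne ι
  let A : Subgroup (∀ i, T i) := Subgroup.pi Set.univ (fun k => if k = i then ⊤ else ⊥)
  let B : Subgroup (∀ i, T i) := Subgroup.pi Set.univ (fun k => if k = i then ⊥ else ⊤)
  have hA : ∀ x, x ∈ A ↔ ∀ k, k ≠ i → x k = 1 := by
    intro x
    rw [Subgroup.mem_pi]
    constructor
    · intro h k hk
      have := h k trivial
      rw [if_neg hk] at this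
      exact this
    · intro h k _
      by_cases hk : k = i
      · rw [if_pos hk]; trivial
      · rw [if_neg hk]; exact h k hk
  have hB : ∀ x, x ∈ B ↔ x i = 1 := by
    intro x
    rw [Subgroup.mem_pi]
    constructor
    · intro h
      have := h i trivial
      rw [if_pos rfl] at this
      exact this
    · intro h k _
      by_cases hk : k = i
      · subst hk; rw [if_pos rfl]; exact h
      · rw [if_neg hk]; trivial
  refine ⟨A, B, ?_, ?_, ?_, ?_, ?_⟩
  · intro h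
    obtain ⟨t, ht⟩ := @exists_ne (T i) (hn i) 1
    have h1 : Pi.mulSingle i t ∈ A := (hA _).2 (fun k hk => Pi.mulSingle_eq_of_ne hk _)
    rw [h, Subgroup.mem_bot] at h1
    apply ht
    have := congrFun h1 i
    rwa [Pi.mulSingle_eq_same] at this
  · intro h
    obtain ⟨t, ht⟩ := @exists_ne (T j) (hn j) 1
    have h1 : Pi.mulSingle j t ∈ B := (hB _).2 (Pi.mulSingle_eq_of_ne hij _)
    rw [h, Subgroup.mem_bot] at h1
    apply ht
    have := congrFun h1 j
    rwa [Pi.mulSingle_eq_same] at this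
  · intro x hx y hy
    funext k
    rw [Pi.mul_apply, Pi.mul_apply]
    by_cases hk : k = i
    · subst hk; rw [(hB y).1 hy]; simp
    · rw [(hA x).1 hx k hk]; simp
  · rw [eq_bot_iff]
    rintro x ⟨hx, hy⟩
    rw [Subgroup.mem_bot]
    funext k
    by_cases hk : k = i
    · subst hk; exact (hB x).1 hy
    · exact (hA x).1 hx k hk
  · rw [eq_top_iff]
    intro x _
    have : x = Pi.mulSingle i (x i) * ((Pi.mulSingle i (x i))⁻¹ * x) := by group
    rw [this]
    apply Subgroup.mul_mem_sup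
    · exact (hA _).2 (fun k hk => Pi.mulSingle_eq_of_ne hk _)
    · rw [hB, Pi.mul_apply, Pi.inv_apply, Pi.mulSingle_eq_same]; group

end prod

end Cfsg.Agent.Lib.SylAlt
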