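import Mathlib
import Cfsg.Agent.Lib.SylAlt4
import Cfsg.Agent.Lib.CayIso
import Cfsg.Prelude.Def_TwoFusion

set_option autoImplicit false

/-!
Sylow 2-subgroups of the alternating groups (helper43).
-/

namespace Cfsg.Agent.Lib.SylAlt

open Equiv

lemma dec_iff {G : Type*} [Group G] (P : Subgroup G) :
    (∃ S₁ S₂ : Subgroup G, S₁ ≠ ⊥ ∧ S₂ ≠ ⊥ ∧ Cfsg.IsInternalDirectProduct S₁ S₂ P) ↔ Dec P := by
  constructor
  · rintro ⟨A, B, hA, hB, h1, h2, h3, h4, h5⟩
    refine ⟨A.subgroupOf P, B.subgroupOf P, ?_, ?_, ?_, ?_, ?_⟩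
    · intro h
      rw [Subgroup.subgroupOf_eq_bot, disjoint_iff, inf_eq_left.2 h1] at h
      exact hA h
    · intro h
      rw [Subgroup.subgroupOf_eq_bot, disjoint_iff, inf_eq_left.2 h2] at h
      exact hB h
    · intro x hx y hy
      apply Subtype.ext
      exact h3 _ (Subgroup.mem_subgroupOf.1 hx) _ (Subgroup.mem_subgroupOf.1 hy)
    · rw [eq_bot_iff]
      rintro x ⟨hx, hy⟩
      have : (x : G) ∈ A ⊓ B := ⟨Subgroup.mem_subgroupOf.1 hx, Subgroup.mem_subgroupOf.1 hy⟩
      rw [h4, Subgroup.mem_bot] at this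
      exact Subgroup.mem_bot.2 (Subtype.ext this)
    · rw [← Subgroup.subgroupOf_sup h1 h2, h5, Subgroup.subgroupOf_self]
  · rintro ⟨A, B, hA, hB, hc, hi, hs⟩
    refine ⟨A.map P.subtype, B.map P.subtype, ?_, ?_, ?_, ?_, ?_, ?_, ?_⟩
    · rwa [Ne, Subgroup.map_eq_bot_iff_of_injective _ P.subtype_injective]
    · rwa [Ne, Subgroup.map_eq_bot_iff_of_injective _ P.subtype_injective]
    · exact Subgroup.map_subtype_le A
    · exact Subgroup.map_subtype_le B
    · rintro _ ⟨x, hx, rfl⟩ _ ⟨y, hy, rfl⟩
      rw [← map_mul, hc x hx y hy, map_mul]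
    · rw [← Subgroup.map_inf _ _ _ P.subtype_injective, hi, Subgroup.map_bot]
    · rw [← Subgroup.map_sup, hs]
      rw [← MonoidHom.range_eq_map]
      exact P.range_subtype

/-- four-groups -/
lemma dec_four {Q : Type*} [Group Q] (hQ : Nat.card Q = 4) (h : ∀ g : Q, g * g = 1) : Dec Q := by
  have hfin : Finite Q := Nat.finite_of_card_ne_zero (by rw [hQ]; norm_num)
  have hz : ∀ x w : Q, w ∈ Subgroup.zpowers x → w = 1 ∨ w = x := by
    intro x w hw
    obtain ⟨k, rfl⟩ := Subgroup.mem_zpowers_iff.1 hw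
    rcases Int.even_or_odd' k with ⟨c, rfl | rfl⟩
    · left
      rw [zpow_mul, zpow_two, h, one_zpow]
    · right
      rw [zpow_add, zpow_mul, zpow_two, h, one_zpow, one_mul, zpow_one]
  have hcomm : ∀ x y : Q, x * y = y * x := by
    intro x y
    have h1 := h (x * y)
    have h2 : (x * y)⁻¹ = x * y := inv_eq_of_mul_eq_one_right h1
    rw [← h2, mul_inv_rev, inv_eq_of_mul_eq_one_right (h x), inv_eq_of_mul_eq_one_right (h y)]
  have hnt : Nontrivial Q := by
    rw [← Finite.one_lt_card_iff_nontrivial, hQ]; norm_num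
  obtain ⟨x, hx⟩ := exists_ne (1 : Q)
  have hox : orderOf x = 2 := orderOf_eq_prime (by rw [pow_two, h]) hx
  have hcx : Nat.card (Subgroup.zpowers x) = 2 := by rw [Nat.card_zpowers, hox]
  obtain ⟨y, hy⟩ : ∃ y, y ∉ Subgroup.zpowers x := by
    by_contra hcon
    push Not at hcon
    have : Subgroup.zpowers x = ⊤ := by rw [eq_top_iff]; intro w _; exact hcon w
    rw [this, Subgroup.card_top, hQ] at hcx
    norm_num at hcx
  refine ⟨Subgroup.zpowers x, Subgroup.zpowers y, ?_, ?_, fun a _ b _ => hcomm a b, ?_, ?_⟩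
  · rwa [Ne, Subgroup.zpowers_eq_bot]
  · rw [Ne, Subgroup.zpowers_eq_bot]
    rintro rfl
    exact hy (Subgroup.one_mem _)
  · rw [eq_bot_iff]
    rintro w ⟨h1, h2⟩
    rw [Subgroup.mem_bot]
    rcases hz y w h2 with h3 | h3
    · exact h3
    · rw [h3] at h1
      exact absurd h1 hy
  · set H := Subgroup.zpowers x ⊔ Subgroup.zpowers y with hH
    have h1 : Subgroup.zpowers x ≤ H := le_sup_left
    have h2 : Nat.card H ∣ 4 := by rw [← hQ]; exact Subgroup.card_subgroup_dvd_card H
    have h3 : 2 ∣ Nat.card H := by rw [← hcx]; exact Subgroup.card_dvd_of_le h1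
    have h4 : Nat.card H ≠ 2 := by
      intro h4
      have h5 : Subgroup.zpowers x = H := Subgroup.eq_of_le_of_card_ge h1 (by rw [h4, hcx])
      apply hy
      rw [h5]
      exact (le_sup_right : Subgroup.zpowers y ≤ H) (Subgroup.mem_zpowers y)
    apply Subgroup.eq_top_of_card_eq
    rw [hQ]
    have h5 : Nat.card H ≤ 4 := Nat.le_of_dvd (by norm_num) h2
    have h6 : 0 < Nat.card H := Nat.card_pos
    interval_cases Nat.card H <;> omega

lemma four_pow {Q : Type*} [Group Q] (hQ : Nat.card Q = 4) (g : Q) : g * g * (g * g) = 1 := by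
  have h5 : g ^ 4 = 1 := by rw [← hQ]; exact pow_card_eq_one'
  have h7 : g * g * (g * g) = g ^ 4 := by
    rw [← pow_two, ← pow_two, ← pow_mul]
  rw [h7, h5]

lemma four4 : ∀ g : Perm (Fin 4), Perm.sign g = 1 → g * g * (g * g) = 1 → g * g = 1 := by decide +kernel
lemma four5 : ∀ g : Perm (Fin 5), Perm.sign g = 1 → g * g * (g * g) = 1 → g * g = 1 := by decide +kernel

section W
variable {k : ℕ} (a : Fin k → ℕ)

abbrev WW := ∀ i, (pk (a i)).T

noncomputable abbrev ee : ∀ i, (pk (a i)).T →* ℤˣ := fun i => (pk (a i)).ε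

noncomputable def fW : WW a →* Perm (Σ i, (pk (a i)).X) :=
  (Perm.sigmaCongrRightHom (fun i => (pk (a i)).X)).comp (MonoidHom.pi fun i => ((pk (a i)).f).comp (Pi.evalMonoidHom _ i))

lemma fW_inj : Function.Injective (fW a) := by
  apply Perm.sigmaCongrRightHom_injective.comp
  intro x y hxy
  funext i
  exact (pk (a i)).f_inj (congrFun hxy i)

lemma sign_fW (x : WW a) : Perm.sign (fW a x) = eps (ee a) x := by
  show Perm.sign (Perm.sigmaCongrRight (fun i => (pk (a i)).f (x i))) = ∏ i, (pk (a i)).ε (x i)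
  rw [sign_sigma]
  exact Finset.prod_congr rfl (fun i _ => (pk (a i)).sign_f _)

lemma card_X : Fintype.card (Σ i, (pk (a i)).X) = ∑ i, 2 ^ (a i) := by
  rw [Fintype.card_sigma]
  exact Finset.sum_congr rfl (fun i _ => (pk (a i)).cardX)

lemma card_W : Nat.card (WW a) = 2 ^ (∑ i, (2 ^ (a i) - 1)) := by
  rw [Nat.card_pi, ← Finset.prod_pow_eq_pow_sum]
  exact Finset.prod_congr rfl (fun i _ => (pk (a i)).cardT)

end W

lemma card_alt (n : ℕ) (hn : 2 ≤ n) : (Nat.card (alternatingGroup (Fin n))).factorization 2 + 1 = padicValNat 2 n.factorial := by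
  have : Nontrivial (Fin n) := Fin.nontrivial_iff_two_le.2 hn
  have h := nat_card_alternatingGroup (α := Fin n)
  have h0 : 2 * Nat.card (alternatingGroup (Fin n)) = n.factorial := by
    rw [h, Nat.card_fin]
    exact Nat.mul_div_cancel' (Nat.dvd_factorial (by norm_num) hn)
  have h1 : Nat.card (alternatingGroup (Fin n)) ≠ 0 := Nat.card_pos.ne'
  rw [← Nat.factorization_def _ Nat.prime_two, ← h0, Nat.factorization_mul (by norm_num) h1, Finsupp.add_apply,
    Nat.Prime.factorization_self Nat.prime_two, add_comm]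

/-- lifting to the alternating group -/
lemma lift_alt {n : ℕ} {W : Type} [Group W] [Finite W] (φ : W →* Perm (Fin n)) (h1 : Function.Injective φ)
    (h2 : ∀ w, Perm.sign (φ w) = 1) (h3 : Nat.card W = 2 ^ (Nat.card (alternatingGroup (Fin n))).factorization 2)
    (P : Sylow 2 (alternatingGroup (Fin n))) : Nonempty (W ≃* P) := by
  let ψ : W →* alternatingGroup (Fin n) := φ.codRestrict _ (fun w => Equiv.Perm.mem_alternatingGroup.2 (h2 w))
  have hψ : Function.Injective ψ := by
    intro x y hxy
    exact h1 (congrArg Subtype.val hxy)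
  have : Fact (Nat.Prime 2) := ⟨Nat.prime_two⟩
  have e : W ≃* ψ.range := MonoidHom.ofInjective hψ
  obtain ⟨e'⟩ := CayIso.sylow_of_card ψ.range (by rw [← Nat.card_congr e.toEquiv, h3]) P
  exact ⟨e.trans e'⟩

/-- `K` and the Sylow subgroups, `n ≡ 0, 1 (mod 4)` -/
lemma isoA {k : ℕ} (a : Fin k → ℕ) (ha : ∀ i, 2 ≤ a i) (hk : 1 ≤ k) {n m : ℕ} (hm : ∑ i, 2 ^ (a i) = 4 * m)
    (hv : padicValNat 2 ((4 * m).factorial) = ∑ i, (2 ^ (a i) - 1)) (hn : n = 4 * m ∨ n = 4 * m + 1) (hn4 : 4 ≤ n)
    (P : Sylow 2 (alternatingGroup (Fin n))) : Nonempty ((eps (ee a)).ker ≃* P) := by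
  have : Fact (Nat.Prime 2) := ⟨Nat.prime_two⟩
  obtain ⟨φ, h1, h2⟩ := embed (α := Σ i, (pk (a i)).X) (n := n) (by rw [card_X, hm]; omega)
  apply lift_alt (φ.comp ((fW a).comp (eps (ee a)).ker.subtype))
  · exact h1.comp ((fW_inj a).comp Subtype.val_injective)
  · intro w
    show Perm.sign (φ (fW a w)) = 1
    rw [h2, sign_fW]
    exact w.2
  · have h3 : padicValNat 2 n.factorial = ∑ i, (2 ^ (a i) - 1) := by
      rcases hn with rfl | rfl
      · exact hv
      · rw [← hv, Nat.factorial_succ, padicValNat.mul (by omega) (Nat.factorial_ne_zero _),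
          padicValNat.eq_zero_of_not_dvd (by omega), zero_add]
    have h4 := card_alt n (by omega)
    have h5 : 2 * Nat.card (eps (ee a)).ker = Nat.card (WW a) := by
      have h6 := Subgroup.card_mul_index (eps (ee a)).ker
      have h7 : (eps (ee a)).ker.index = 2 := by
        rw [Subgroup.index_ker]
        have h8 : (eps (ee a)).range = ⊤ := by
          rw [MonoidHom.range_eq_top]
          intro u
          rcases Int.units_eq_one_or u with rfl | rfl
          · exact ⟨1, map_one _⟩
          · obtain ⟨t, ht⟩ := (pk (a ⟨0, hk⟩)).odd (by have := ha ⟨0, hk⟩; omega)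
            exact ⟨Pi.mulSingle ⟨0, hk⟩ t, by rw [eps_single]; exact ht⟩
        rw [h8, Subgroup.card_top]
        simp
      rw [h7] at h6
      rw [mul_comm]; exact h6
    rw [card_W, ← h3, ← h4, pow_succ, mul_comm] at h5
    exact Nat.eq_of_mul_eq_mul_right (by norm_num) h5

/-- `W` and the Sylow subgroups, `n ≡ 2, 3 (mod 4)` -/
lemma isoB {k : ℕ} (a : Fin k → ℕ) {n m : ℕ} (hm : ∑ i, 2 ^ (a i) = 4 * m)
    (hv : padicValNat 2 ((4 * m).factorial) = ∑ i, (2 ^ (a i) - 1)) (hn : n = 4 * m + 2 ∨ n = 4 * m + 3) (hn4 : 4 ≤ n)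
    (P : Sylow 2 (alternatingGroup (Fin n))) : Nonempty (WW a ≃* P) := by
  have : Fact (Nat.Prime 2) := ⟨Nat.prime_two⟩
  obtain ⟨φ, h1, h2⟩ := embed2 (α := Σ i, (pk (a i)).X) (n := n) (by rw [card_X, hm]; omega)
  apply lift_alt (φ.comp (fW a))
  · exact h1.comp (fW_inj a)
  · intro w
    exact h2 _
  · have h3 : padicValNat 2 n.factorial = ∑ i, (2 ^ (a i) - 1) + 1 := by
      have h4 : padicValNat 2 ((4 * m + 2).factorial) = ∑ i, (2 ^ (a i) - 1) + 1 := by
        rw [Nat.factorial_succ, padicValNat.mul (by omega) (Nat.factorial_ne_zero _),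
          Nat.factorial_succ, padicValNat.mul (by omega) (Nat.factorial_ne_zero _), hv,
          padicValNat.eq_zero_of_not_dvd (n := 4 * m + 1) (by omega), zero_add]
        have h5 : 4 * m + 1 + 1 = 2 * (2 * m + 1) := by ring
        rw [h5, padicValNat.mul (by omega) (by omega), padicValNat_self,
          padicValNat.eq_zero_of_not_dvd (n := 2 * m + 1) (by omega)]
        ring
      rcases hn with rfl | rfl
      · exact h4
      · rw [← h4, Nat.factorial_succ (4 * m + 2), padicValNat.mul (by omega) (Nat.factorial_ne_zero _),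
          padicValNat.eq_zero_of_not_dvd (n := 4 * m + 2 + 1) (by omega), zero_add]
    have h4 := card_alt n (by omega)
    rw [card_W]
    congr 1
    omega

lemma notdec_W {k : ℕ} (a : Fin k → ℕ) (ha : ∀ i, 2 ≤ a i) (hk : k = 1) : ¬ Dec (WW a) := by
  subst hk
  obtain ⟨z, _, hz⟩ := (pk (a 0)).cen (by have := ha 0; omega)
  have hG : IsPGroup 2 (WW a) := IsPGroup.of_card (card_W a)
  apply not_dec_of_center hG (Pi.mulSingle 0 z)
  intro t ht
  have h1 : t 0 = 1 ∨ t 0 = z := by
    rw [← hz]
    intro u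
    have := congrFun (ht (Pi.mulSingle 0 u)) 0
    simpa using this
  rcases h1 with h1 | h1
  · left
    funext i
    obtain rfl : i = 0 := Subsingleton.elim _ _
    exact h1
  · right
    funext i
    obtain rfl : i = 0 := Subsingleton.elim _ _
    rw [Pi.mulSingle_eq_same]
    exact h1

lemma notdec_K {k : ℕ} (a : Fin k → ℕ) (ha : ∀ i, 3 ≤ a i) (hk : k = 1) : ¬ Dec (eps (ee a)).ker := by
  subst hk
  obtain ⟨z, _, hz⟩ := (pk (a 0)).cen (by have := ha 0; omega)
  have hG : IsPGroup 2 (WW a) := IsPGroup.of_card (card_W a)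
  have hze : (pk (a 0)).ε z = 1 := ((pk (a 0)).cen2 (by have := ha 0; omega) z ((hz z).2 (Or.inr rfl))).1
  apply not_dec_of_center (hG.to_subgroup _) ⟨Pi.mulSingle 0 z, by rw [MonoidHom.mem_ker, eps_single]; exact hze⟩
  intro t ht
  have h1 : (t : WW a) 0 = 1 ∨ (t : WW a) 0 = z := by
    rw [← hz]
    apply (pk (a 0)).even (ha 0)
    · have := t.2
      rw [MonoidHom.mem_ker] at this
      have h2 : eps (ee a) (t : WW a) = (pk (a 0)).ε ((t : WW a) 0) := by
        show ∏ i : Fin 1, (pk (a i)).ε ((t : WW a) i) = _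
        rw [Fin.prod_univ_one]
      rw [← h2, this]
    · intro u hu
      have := congrFun (congrArg Subtype.val (ht ⟨Pi.mulSingle 0 u, by rw [MonoidHom.mem_ker, eps_single]; exact hu⟩)) 0
      simpa using this
  rcases h1 with h1 | h1
  · left
    apply Subtype.ext
    funext i
    obtain rfl : i = 0 := Subsingleton.elim _ _
    exact h1
  · right
    apply Subtype.ext
    funext i
    obtain rfl : i = 0 := Subsingleton.elim _ _
    show (t : WW a) 0 = (Pi.mulSingle 0 z : WW a) 0
    rw [Pi.mulSingle_eq_same]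
    exact h1

theorem main (n : ℕ) (hn : 4 ≤ n) (P : Sylow 2 (alternatingGroup (Fin n))) :
    Dec (P : Subgroup (alternatingGroup (Fin n))) ↔
      (n = 4 ∨ n = 5 ∨ ((n % 4 = 2 ∨ n % 4 = 3) ∧ ∀ r : ℕ, 4 * (n / 4) ≠ 2 ^ r)) := by
  have : Fact (Nat.Prime 2) := ⟨Nat.prime_two⟩
  obtain ⟨k, a, hinj, ha, hm, hv⟩ := bits (n / 4)
  have hk : 1 ≤ k := by
    by_contra hk
    have hk0 : k = 0 := by omega
    subst hk0
    simp at hm
    omega
  by_cases hmod : n % 4 = 2 ∨ n % 4 = 3
  · obtain ⟨e⟩ := isoB a hm hv (n := n) (by omega) hn P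
    constructor
    · intro h
      right; right
      refine ⟨hmod, fun r => ?_⟩
      rw [← hm]
      apply not_pow a hinj
      by_contra hk2
      exact notdec_W a ha (by omega) (h.congr e.symm)
    · rintro (h | h | ⟨_, h⟩)
      · omega
      · omega
      · have hk2 : 2 ≤ k := by
          by_contra hk2
          have hk1 : k = 1 := by omega
          subst hk1
          apply h (a 0)
          rw [← hm, Fin.sum_univ_one]
        have : Nontrivial (Fin k) := Fin.nontrivial_iff_two_le.2 hk2
        refine Dec.congr e (pi_dec fun i => ?_)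
        obtain ⟨z, hz, _⟩ := (pk (a i)).cen (by have := ha i; omega)
        exact ⟨z, 1, hz⟩
  · obtain ⟨e⟩ := isoA a ha hk hm hv (n := n) (by omega) hn P
    constructor
    · intro h
      by_contra hcon
      have hn8 : 2 ≤ n / 4 := by omega
      rcases Nat.lt_or_ge k 2 with hk2 | hk2
      · have hk1 : k = 1 := by omega
        apply notdec_K a _ hk1 (h.congr e.symm)
        subst hk1
        intro i
        obtain rfl : i = 0 := Subsingleton.elim _ _
        rw [Fin.sum_univ_one] at hm
        by_contra h3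
        have h4 : a 0 = 2 := by have := ha 0; omega
        rw [h4] at hm
        omega
      · have : Nontrivial (Fin k) := Fin.nontrivial_iff_two_le.2 hk2
        apply ker_not_dec (ee a) _ _ _ (h.congr e.symm)
        · intro i; exact (pk (a i)).odd (by have := ha i; omega)
        · intro i; exact (pk (a i)).cen2 (ha i)
        · intro i; exact (pk (a i)).cind (ha i)
    · rintro (rfl | rfl | ⟨h, _⟩)
      · have hc : Nat.card (P : Subgroup (alternatingGroup (Fin 4))) = 4 := by
          have h1 := P.card_eq_multiplicity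
          have h2 := card_alt 4 (by norm_num)
          have h3 : padicValNat 2 (Nat.factorial 4) = 3 := by
            have : Nat.factorial 4 = 2 ^ 3 * 3 := by decide
            rw [this, padicValNat.mul (by norm_num) (by norm_num), padicValNat.prime_pow,
              padicValNat.eq_zero_of_not_dvd (by norm_num)]
          have h4 : (Nat.card (alternatingGroup (Fin 4))).factorization 2 = 2 := by omega
          rw [h4] at h1
          exact h1
        apply dec_four hc
        intro g
        apply Subtype.ext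
        apply Subtype.ext
        apply four4 _ (Equiv.Perm.mem_alternatingGroup.1 (g : alternatingGroup (Fin 4)).2)
        have h6 := four_pow hc g
        exact congrArg (fun x : (P : Subgroup (alternatingGroup (Fin 4))) => ((x : alternatingGroup (Fin 4)) : Perm (Fin 4))) h6
      · have hc : Nat.card (P : Subgroup (alternatingGroup (Fin 5))) = 4 := by
          have h1 := P.card_eq_multiplicity
          have h2 := card_alt 5 (by norm_num)
          have h3 : padicValNat 2 (Nat.factorial 5) = 3 := by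
            have : Nat.factorial 5 = 2 ^ 3 * 15 := by decide
            rw [this, padicValNat.mul (by norm_num) (by norm_num), padicValNat.prime_pow,
              padicValNat.eq_zero_of_not_dvd (by norm_num)]
          have h4 : (Nat.card (alternatingGroup (Fin 5))).factorization 2 = 2 := by omega
          rw [h4] at h1
          exact h1
        apply dec_four hc
        intro g
        apply Subtype.ext
        apply Subtype.ext
        apply four5 _ (Equiv.Perm.mem_alternatingGroup.1 (g : alternatingGroup (Fin 5)).2)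
        have h6 := four_pow hc g
        exact congrArg (fun x : (P : Subgroup (alternatingGroup (Fin 5))) => ((x : alternatingGroup (Fin 5)) : Perm (Fin 5))) h6
      · exact absurd h hmod

end Cfsg.Agent.Lib.SylAlt
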