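import Cfsg.Agent.Lib.HeisM24

/-!
# The Sylow 2-subgroup of `M24` modulo its centre (`S3171`)
-/

set_option autoImplicit false
set_option linter.style.haveILetI false
set_option linter.unusedVariables false
set_option linter.unusedSimpArgs false
set_option linter.unusedSectionVars false

namespace Cfsg.Agent.Lib.SylM24

/-- pairs (row vector, column vector) of length 3 and an upper unitriangular matrix. -/
@[ext] structure W where
  f1 : ZMod 2
  f2 : ZMod 2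
  f3 : ZMod 2
  w1 : ZMod 2
  w2 : ZMod 2
  w3 : ZMod 2
  a : ZMod 2
  b : ZMod 2
  c : ZMod 2

namespace W

instance : Mul W := ⟨fun x y => ⟨y.f1 + x.f1, y.f2 + (x.f1 * y.a + x.f2), y.f3 + (x.f1 * y.b + x.f2 * y.c + x.f3),
  x.w1 + (y.w1 + x.a * y.w2 + x.b * y.w3), x.w2 + (y.w2 + x.c * y.w3), x.w3 + y.w3,
  x.a + y.a, x.b + y.b + x.a * y.c, x.c + y.c⟩⟩

instance : One W := ⟨⟨0, 0, 0, 0, 0, 0, 0, 0, 0⟩⟩

instance : Inv W := ⟨fun x => ⟨-x.f1, -(-(x.f1 * x.a) + x.f2), -(x.f1 * (-x.b + x.a * x.c) - x.f2 * x.c + x.f3),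
  -(x.w1 - x.a * x.w2 + (-x.b + x.a * x.c) * x.w3), -(x.w2 - x.c * x.w3), -x.w3, -x.a, -x.b + x.a * x.c, -x.c⟩⟩

theorem mul_def (x y : W) : x * y = ⟨y.f1 + x.f1, y.f2 + (x.f1 * y.a + x.f2), y.f3 + (x.f1 * y.b + x.f2 * y.c + x.f3),
  x.w1 + (y.w1 + x.a * y.w2 + x.b * y.w3), x.w2 + (y.w2 + x.c * y.w3), x.w3 + y.w3,
  x.a + y.a, x.b + y.b + x.a * y.c, x.c + y.c⟩ := rfl

theorem one_def : (1 : W) = ⟨0, 0, 0, 0, 0, 0, 0, 0, 0⟩ := rfl

instance : Group W := Group.ofLeftAxioms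
  (fun x y z => by
    simp only [mul_def]
    ext1 <;> simp only <;> ring)
  (fun x => by
    simp only [mul_def, one_def]
    ext1 <;> simp only <;> ring)
  (fun x => by
    show (⟨-x.f1, -(-(x.f1 * x.a) + x.f2), -(x.f1 * (-x.b + x.a * x.c) - x.f2 * x.c + x.f3),
      -(x.w1 - x.a * x.w2 + (-x.b + x.a * x.c) * x.w3), -(x.w2 - x.c * x.w3), -x.w3, -x.a, -x.b + x.a * x.c, -x.c⟩ : W)
      * x = 1
    simp only [mul_def, one_def]
    ext1 <;> simp only <;> ring)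

/-- coordinates -/
def equivProd : W ≃ (ZMod 2 × ZMod 2 × ZMod 2 × ZMod 2 × ZMod 2 × ZMod 2) × (ZMod 2 × ZMod 2 × ZMod 2) where
  toFun x := ((x.f1, x.f2, x.f3, x.w1, x.w2, x.w3), (x.a, x.b, x.c))
  invFun y := ⟨y.1.1, y.1.2.1, y.1.2.2.1, y.1.2.2.2.1, y.1.2.2.2.2.1, y.1.2.2.2.2.2, y.2.1, y.2.2.1, y.2.2.2⟩
  left_inv x := rfl
  right_inv y := rfl

instance : Finite W := Finite.of_equiv _ equivProd.symm

theorem card_W : Nat.card W = 512 := by
  rw [Nat.card_congr equivProd]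
  simp [Nat.card_eq_fintype_card, Fintype.card_prod, ZMod.card]

/-- the normal subgroup -/
def V : Subgroup W where
  carrier := {x | x.a = 0 ∧ x.b = 0 ∧ x.c = 0}
  one_mem' := ⟨rfl, rfl, rfl⟩
  mul_mem' := by
    rintro x y ⟨h1, h2, h3⟩ ⟨h4, h5, h6⟩
    refine ⟨?_, ?_, ?_⟩
    · show x.a + y.a = 0; rw [h1, h4, add_zero]
    · show x.b + y.b + x.a * y.c = 0; rw [h1, h2, h5, zero_mul, add_zero, add_zero]
    · show x.c + y.c = 0; rw [h3, h6, add_zero]
  inv_mem' := by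
    rintro x ⟨h1, h2, h3⟩
    refine ⟨?_, ?_, ?_⟩
    · show -x.a = 0; rw [h1, neg_zero]
    · show -x.b + x.a * x.c = 0; rw [h1, h2, zero_mul, neg_zero, add_zero]
    · show -x.c = 0; rw [h3, neg_zero]

theorem mem_V {x : W} : x ∈ V ↔ x.a = 0 ∧ x.b = 0 ∧ x.c = 0 := Iff.rfl

theorem same_of_inv_mul_mem {x y : W} (h : x⁻¹ * y ∈ V) : x.a = y.a ∧ x.b = y.b ∧ x.c = y.c := by
  obtain ⟨h1, h2, h3⟩ := h
  have h1' : -x.a + y.a = 0 := h1
  have h2' : (-x.b + x.a * x.c) + y.b + (-x.a) * y.c = 0 := h2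
  have h3' : -x.c + y.c = 0 := h3
  have e1 : x.a = y.a := by linear_combination -h1'
  have e3 : x.c = y.c := by linear_combination -h3'
  refine ⟨e1, ?_, e3⟩
  rw [← e3] at h2'
  linear_combination -h2'

instance : V.Normal := by
  constructor
  rintro v ⟨h1, h2, h3⟩ g
  have h : ∀ x y : W, x.a = y.a → x.b = y.b → x.c = y.c → (x * y⁻¹) ∈ V := by
    intro x y h1 h2 h3
    refine ⟨?_, ?_, ?_⟩
    · show x.a + -y.a = 0; rw [h1]; ring
    · show x.b + (-y.b + y.a * y.c) + x.a * (-y.c) = 0; rw [h1, h2]; ring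
    · show x.c + -y.c = 0; rw [h3]; ring
  apply h
  · show g.a + v.a = g.a; rw [h1, add_zero]
  · show g.b + v.b + g.a * v.c = g.b; rw [h2, h3]; ring
  · show g.c + v.c = g.c; rw [h3, add_zero]

theorem V_comm {x y : W} (hx : x ∈ V) (hy : y ∈ V) : x * y = y * x := by
  obtain ⟨h1, h2, h3⟩ := hx
  obtain ⟨h4, h5, h6⟩ := hy
  simp only [mul_def, h1, h2, h3, h4, h5, h6]
  ext1 <;> simp only <;> ring

theorem V_sq {x : W} (hx : x ∈ V) : x ^ 2 = 1 := by
  obtain ⟨h1, h2, h3⟩ := hx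
  have h0 : ∀ u : ZMod 2, u + u = 0 := by decide
  rw [pow_two]
  simp only [mul_def, one_def, h1, h2, h3, zero_mul, mul_zero, zero_add, add_zero, h0]

theorem card_V : Nat.card V = 64 := by
  let e : V ≃ (ZMod 2 × ZMod 2 × ZMod 2 × ZMod 2 × ZMod 2 × ZMod 2) :=
    { toFun := fun x => (x.1.f1, x.1.f2, x.1.f3, x.1.w1, x.1.w2, x.1.w3)
      invFun := fun y => ⟨⟨y.1, y.2.1, y.2.2.1, y.2.2.2.1, y.2.2.2.2.1, y.2.2.2.2.2, 0, 0, 0⟩, rfl, rfl, rfl⟩
      left_inv := by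
        rintro ⟨⟨f1, f2, f3, w1, w2, w3, a, b, c⟩, h1, h2, h3⟩
        have h1' : a = 0 := h1
        have h2' : b = 0 := h2
        have h3' : c = 0 := h3
        subst h1' h2' h3'
        rfl
      right_inv := fun y => rfl }
  rw [Nat.card_congr e]
  simp [Nat.card_eq_fintype_card, Fintype.card_prod, ZMod.card]

/-- the commuting condition -/
def cond (a b c : ZMod 2) (v : ZMod 2 × ZMod 2 × ZMod 2 × ZMod 2 × ZMod 2 × ZMod 2) : Prop :=
  v.1 * a = 0 ∧ v.1 * b + v.2.1 * c = 0 ∧ a * v.2.2.2.2.1 + b * v.2.2.2.2.2 = 0 ∧ c * v.2.2.2.2.2 = 0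

instance (a b c : ZMod 2) (v : ZMod 2 × ZMod 2 × ZMod 2 × ZMod 2 × ZMod 2 × ZMod 2) : Decidable (cond a b c v) := by
  unfold cond; infer_instance

/-- coordinates of an element of `V` -/
def co (v : W) : ZMod 2 × ZMod 2 × ZMod 2 × ZMod 2 × ZMod 2 × ZMod 2 := (v.f1, v.f2, v.f3, v.w1, v.w2, v.w3)

theorem cond_of_comm {v x : W} (hv : v ∈ V) (h : v * x = x * v) : cond x.a x.b x.c (co v) := by
  obtain ⟨h1, h2, h3⟩ := hv
  have e2 : x.f2 + (v.f1 * x.a + v.f2) = v.f2 + (x.f1 * v.a + x.f2) := congrArg W.f2 h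
  have e3 : x.f3 + (v.f1 * x.b + v.f2 * x.c + v.f3) = v.f3 + (x.f1 * v.b + x.f2 * v.c + x.f3) := congrArg W.f3 h
  have e4 : v.w1 + (x.w1 + v.a * x.w2 + v.b * x.w3) = x.w1 + (v.w1 + x.a * v.w2 + x.b * v.w3) := congrArg W.w1 h
  have e5 : v.w2 + (x.w2 + v.c * x.w3) = x.w2 + (v.w2 + x.c * v.w3) := congrArg W.w2 h
  rw [h1] at e2 e4
  rw [h2] at e3 e4
  rw [h3] at e3 e5
  refine ⟨?_, ?_, ?_, ?_⟩
  · show v.f1 * x.a = 0
    linear_combination e2
  · show v.f1 * x.b + v.f2 * x.c = 0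
    linear_combination e3
  · show x.a * v.w2 + x.b * v.w3 = 0
    linear_combination -e4
  · show x.c * v.w3 = 0
    linear_combination -e5

theorem co_inj {v w : W} (hv : v ∈ V) (hw : w ∈ V) (h : co v = co w) : v = w := by
  obtain ⟨h1, h2, h3⟩ := hv
  obtain ⟨h4, h5, h6⟩ := hw
  simp only [co, Prod.mk.injEq] at h
  exact W.ext h.1 h.2.1 h.2.2.1 h.2.2.2.1 h.2.2.2.2.1 h.2.2.2.2.2 (h1.trans h4.symm) (h2.trans h5.symm)
    (h3.trans h6.symm)

theorem card1 : ∀ a b c : ZMod 2, ¬ (a = 0 ∧ b = 0 ∧ c = 0) →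
    (Finset.univ.filter fun v => cond a b c v).card ≤ 16 := by decide +kernel

theorem card2 : ∀ a b c : ZMod 2, ¬ (a = 0 ∧ b = 0 ∧ c = 0) → ∀ a' b' c' : ZMod 2, ¬ (a' = 0 ∧ b' = 0 ∧ c' = 0) →
    ¬ (a = a' ∧ b = b' ∧ c = c') →
    (Finset.univ.filter fun v => cond a b c v ∧ cond a' b' c' v).card ≤ 8 := by decide +kernel

theorem card3 : (Finset.univ.filter fun v => cond 1 0 0 v ∧ cond 0 0 1 v).card ≤ 4 := by decide +kernel

theorem card_le_filter (T : Subgroup W) (hT : T ≤ V) (p : ZMod 2 × ZMod 2 × ZMod 2 × ZMod 2 × ZMod 2 × ZMod 2 → Prop)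
    [DecidablePred p] (hp : ∀ v ∈ T, p (co v)) : Nat.card T ≤ (Finset.univ.filter p).card := by
  have h1 : Nat.card {v // v ∈ Finset.univ.filter p} = (Finset.univ.filter p).card := by
    rw [Nat.card_eq_fintype_card, Fintype.card_coe]
  rw [← h1]
  apply Nat.card_le_card_of_injective (fun v : T => (⟨co v, by
    rw [Finset.mem_filter]; exact ⟨Finset.mem_univ _, hp v v.2⟩⟩ : {v // v ∈ Finset.univ.filter p}))
  intro v w h
  exact Subtype.ext (co_inj (hT v.2) (hT w.2) (congrArg Subtype.val h))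

theorem bd1 (T : Subgroup W) (hT : T ≤ V) {x : W} (hx : x ∉ V) (h : ∀ v ∈ T, v * x = x * v) : Nat.card T ≤ 16 :=
  (card_le_filter T hT _ (fun v hv => cond_of_comm (hT hv) (h v hv))).trans (card1 _ _ _ hx)

theorem bd2 (T : Subgroup W) (hT : T ≤ V) {x y : W} (hx : x ∉ V) (hy : y ∉ V) (hxy : x⁻¹ * y ∉ V)
    (h : ∀ v ∈ T, v * x = x * v) (h' : ∀ v ∈ T, v * y = y * v) : Nat.card T ≤ 8 := by
  refine (card_le_filter T hT _ (fun v hv => ⟨cond_of_comm (hT hv) (h v hv), cond_of_comm (hT hv) (h' v hv)⟩)).trans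
    (card2 x.a x.b x.c hx y.a y.b y.c hy ?_)
  rintro ⟨h1, h2, h3⟩
  apply hxy
  refine ⟨?_, ?_, ?_⟩
  · show -x.a + y.a = 0; rw [h1]; ring
  · show (-x.b + x.a * x.c) + y.b + (-x.a) * y.c = 0; rw [h2, h3]; ring
  · show -x.c + y.c = 0; rw [h3]; ring

theorem bd3 (T : Subgroup W) (hT : T ≤ V) (h : ∀ v ∈ T, ∀ x, v * x = x * v) : Nat.card T ≤ 4 :=
  (card_le_filter T hT _ (fun v hv => ⟨cond_of_comm (hT hv) (h v hv ⟨0, 0, 0, 0, 0, 0, 1, 0, 0⟩),
    cond_of_comm (hT hv) (h v hv ⟨0, 0, 0, 0, 0, 0, 0, 0, 1⟩)⟩)).trans card3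

theorem card_quot : Nat.card (W ⧸ V) = 8 := by
  have h := Subgroup.card_eq_card_quotient_mul_card_subgroup V
  rw [card_W, card_V] at h
  omega

theorem card_split (B : Subgroup W) : Nat.card B = Nat.card ↥(B ⊓ V) * Nat.card (B.map (QuotientGroup.mk' V)) := by
  let φ : B →* W ⧸ V := (QuotientGroup.mk' V).comp B.subtype
  have h1 := Subgroup.card_mul_index φ.ker
  rw [Subgroup.index_ker] at h1
  rw [← h1]
  congr 1
  · apply Nat.card_congr
    exact
      { toFun := fun g => ⟨g.1.1, g.1.2, (QuotientGroup.eq_one_iff _).1 g.2⟩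
        invFun := fun g => ⟨⟨g.1, g.2.1⟩, (QuotientGroup.eq_one_iff _).2 g.2.2⟩
        left_inv := fun g => rfl
        right_inv := fun g => rfl }
  · have : φ.range = B.map (QuotientGroup.mk' V) := by
      ext x
      constructor
      · rintro ⟨y, rfl⟩; exact ⟨y, y.2, rfl⟩
      · rintro ⟨y, hy, rfl⟩; exact ⟨⟨y, hy⟩, rfl⟩
    rw [this]

/-- two elements outside `V`, distinct modulo `V` -/
theorem exists_two (B : Subgroup W) (h : 3 ≤ Nat.card (B.map (QuotientGroup.mk' V))) :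
    ∃ x ∈ B, ∃ y ∈ B, x ∉ V ∧ y ∉ V ∧ x⁻¹ * y ∉ V := by
  have h1 : ∃ r s : B.map (QuotientGroup.mk' V), r ≠ 1 ∧ s ≠ 1 ∧ r ≠ s := by
    haveI : Fintype (B.map (QuotientGroup.mk' V)) := Fintype.ofFinite _
    rw [Nat.card_eq_fintype_card] at h
    obtain ⟨r, s, t, hrs, hrt, hst⟩ := Fintype.two_lt_card_iff.1 (show 2 < Fintype.card (B.map (QuotientGroup.mk' V)) from h)
    by_cases hr : r = 1
    · exact ⟨s, t, fun h => hrs (hr.trans h.symm), fun h => hrt (hr.trans h.symm), hst⟩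
    · by_cases hs : s = 1
      · exact ⟨r, t, hr, fun h => hst (hs.trans h.symm), hrt⟩
      · exact ⟨r, s, hr, hs, hrs⟩
  obtain ⟨⟨_, x, hx, rfl⟩, ⟨_, y, hy, rfl⟩, h2, h3, h4⟩ := h1
  refine ⟨x, hx, y, hy, ?_, ?_, ?_⟩
  · intro h; exact h2 (Subtype.ext ((QuotientGroup.eq_one_iff _).2 h))
  · intro h; exact h3 (Subtype.ext ((QuotientGroup.eq_one_iff _).2 h))
  · intro h; exact h4 (Subtype.ext (QuotientGroup.eq.2 h))

theorem part1 (M : Subgroup W) (hM : IsCoatom M) : Nat.card (Subgroup.center M) ≤ 8 := by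
  haveI : Fact (Nat.Prime 2) := ⟨Nat.prime_two⟩
  have hP : IsPGroup 2 W := IsPGroup.of_card (n := 9) (by rw [card_W]; norm_num)
  have hidx := Cfsg.Agent.Lib.H70Frattini.coatom_index hP hM
  have hcM : Nat.card M = 256 := by
    have := Subgroup.card_mul_index M
    rw [hidx, card_W] at this
    omega
  have hs := card_split M
  rw [hcM] at hs
  have hR : Nat.card (M.map (QuotientGroup.mk' V)) ≤ 8 := by
    rw [← card_quot]; exact Subgroup.card_le_card_group _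
  have hT : Nat.card ↥(M ⊓ V) ≤ 64 := by
    rw [← card_V]; exact Subgroup.card_le_of_le inf_le_right
  have hcard : Nat.card (Subgroup.center M) = Nat.card ((Subgroup.center M).map M.subtype) :=
    Nat.card_congr ((Subgroup.center M).equivMapOfInjective _ M.subtype_injective).toEquiv
  have hcomm : ∀ v ∈ (Subgroup.center M).map M.subtype, ∀ x ∈ M, v * x = x * v := by
    rintro _ ⟨v, hv, rfl⟩ x hx
    exact (congrArg Subtype.val (Subgroup.mem_center_iff.1 hv ⟨x, hx⟩)).symm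
  have hCM : (Subgroup.center M).map M.subtype ≤ M := by
    rintro _ ⟨v, hv, rfl⟩; exact v.2
  have hCV : (Subgroup.center M).map M.subtype ≤ V := by
    intro x hx
    by_contra hxV
    have := bd1 (M ⊓ V) inf_le_right hxV (fun v hv => (hcomm x hx v hv.1).symm)
    have h3 : Nat.card ↥(M ⊓ V) * Nat.card (M.map (QuotientGroup.mk' V)) ≤ 16 * 8 := Nat.mul_le_mul this hR
    omega
  have hR3 : 3 ≤ Nat.card (M.map (QuotientGroup.mk' V)) := by
    by_contra hcon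
    push Not at hcon
    have h3 : Nat.card ↥(M ⊓ V) * Nat.card (M.map (QuotientGroup.mk' V)) ≤ 64 * 2 := Nat.mul_le_mul hT (by omega)
    omega
  obtain ⟨x, hx, y, hy, h1, h2, h3⟩ := exists_two M hR3
  rw [hcard]
  exact bd2 _ hCV h1 h2 h3 (fun v hv => hcomm v hv x hx) (fun v hv => hcomm v hv y hy)

theorem part3 (B : Subgroup W) (hB : IsMulCommutative ↥B) (hc : Nat.card B = 64) : B = V := by
  have hcomm : ∀ x ∈ B, ∀ y ∈ B, x * y = y * x := fun x hx y hy =>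
    congrArg Subtype.val (hB.is_comm.comm (⟨x, hx⟩ : B) ⟨y, hy⟩)
  by_contra hne
  have hle : ¬ B ≤ V := by
    intro h
    exact hne (Subgroup.eq_of_le_of_card_ge h (by rw [hc, card_V]))
  obtain ⟨x, hx, hxV⟩ := SetLike.not_le_iff_exists.1 hle
  have hs := card_split B
  rw [hc] at hs
  have hR : Nat.card (B.map (QuotientGroup.mk' V)) ≤ 8 := by
    rw [← card_quot]; exact Subgroup.card_le_card_group _
  have hT1 := bd1 (B ⊓ V) inf_le_right hxV (fun v hv => hcomm v hv.1 x hx)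
  have hR3 : 3 ≤ Nat.card (B.map (QuotientGroup.mk' V)) := by
    by_contra hcon
    push Not at hcon
    have h3 : Nat.card ↥(B ⊓ V) * Nat.card (B.map (QuotientGroup.mk' V)) ≤ 16 * 2 := Nat.mul_le_mul hT1 (by omega)
    omega
  obtain ⟨x, hx, y, hy, h1, h2, h3⟩ := exists_two B hR3
  have hT2 := bd2 (B ⊓ V) inf_le_right h1 h2 h3 (fun v hv => hcomm v hv.1 x hx) (fun v hv => hcomm v hv.1 y hy)
  have hR8 : Nat.card (B.map (QuotientGroup.mk' V)) = 8 := by
    by_contra hcon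
    have h4 : Nat.card ↥(B ⊓ V) * Nat.card (B.map (QuotientGroup.mk' V)) ≤ 8 * 7 := Nat.mul_le_mul hT2 (by omega)
    omega
  have htop : B.map (QuotientGroup.mk' V) = ⊤ := by
    apply Subgroup.eq_top_of_card_eq
    rw [hR8, card_quot]
  have hT3 := bd3 (B ⊓ V) inf_le_right (fun v hv g => by
    have hg : (QuotientGroup.mk' V g) ∈ B.map (QuotientGroup.mk' V) := by rw [htop]; exact Subgroup.mem_top _
    obtain ⟨b, hb, hbg⟩ := hg
    have h5 : b⁻¹ * g ∈ V := QuotientGroup.eq.1 hbg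
    have h6 : b * (b⁻¹ * g) = g := by group
    calc v * g = v * (b * (b⁻¹ * g)) := by rw [h6]
      _ = b * (v * (b⁻¹ * g)) := by rw [← mul_assoc, hcomm v hv.1 b hb, mul_assoc]
      _ = b * ((b⁻¹ * g) * v) := by rw [V_comm hv.2 h5]
      _ = g * v := by rw [← mul_assoc, h6])
  rw [hR8] at hs
  omega

end W

/-! ### transfer along isomorphisms -/

/-- the statement about a group -/
def Stmt (S : Type*) [Group S] : Prop :=
  (∀ M : Subgroup S, IsCoatom M → Nat.card ↥(Subgroup.center ↥M) ≤ 8) ∧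
  (∃ A : Subgroup S, Cfsg.IsElementaryAbelian 2 A ∧ Nat.card ↥A = 64) ∧
  ∀ A B : Subgroup S, IsMulCommutative ↥A → Nat.card ↥A = 64 → IsMulCommutative ↥B → Nat.card ↥B = 64 → A = B

theorem stmt_W : Stmt W :=
  ⟨W.part1, ⟨W.V, ⟨⟨⟨fun a b => Subtype.ext (W.V_comm a.2 b.2)⟩⟩, fun a ha => W.V_sq ha⟩, W.card_V⟩,
    fun A B h1 h2 h3 h4 => (W.part3 A h1 h2).trans (W.part3 B h3 h4).symm⟩

theorem stmt_congr {S T : Type*} [Group S] [Group T] (e : S ≃* T) (h : Stmt T) : Stmt S := by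
  obtain ⟨h1, ⟨A, hA, hA'⟩, h3⟩ := h
  have hcard : ∀ A : Subgroup S, Nat.card ↥(A.map e.toMonoidHom) = Nat.card A := fun A =>
    (Nat.card_congr (A.equivMapOfInjective e.toMonoidHom e.injective).toEquiv).symm
  have hcomm : ∀ A : Subgroup S, IsMulCommutative A → IsMulCommutative (A.map e.toMonoidHom) := by
    intro A hA
    refine ⟨⟨?_⟩⟩
    rintro ⟨_, a, ha, rfl⟩ ⟨_, b, hb, rfl⟩
    apply Subtype.ext
    show e a * e b = e b * e a
    rw [← map_mul, ← map_mul]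
    exact congrArg e (congrArg Subtype.val (hA.is_comm.comm (⟨a, ha⟩ : A) ⟨b, hb⟩))
  refine ⟨?_, ⟨A.map e.symm.toMonoidHom, ?_, ?_⟩, ?_⟩
  · intro M hM
    have h4 : IsCoatom (M.map e.toMonoidHom) := by
      have := (OrderIso.isCoatom_iff e.mapSubgroup M).2 hM
      exact this
    have h5 := h1 _ h4
    have e1 : M ≃* M.map e.toMonoidHom := M.equivMapOfInjective e.toMonoidHom e.injective
    rw [Nat.card_congr (Subgroup.centerCongr e1).toEquiv]
    exact h5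
  · refine ⟨⟨⟨?_⟩⟩, ?_⟩
    · rintro ⟨_, a, ha, rfl⟩ ⟨_, b, hb, rfl⟩
      apply Subtype.ext
      show e.symm a * e.symm b = e.symm b * e.symm a
      rw [← map_mul, ← map_mul]
      exact congrArg e.symm (congrArg Subtype.val (hA.1.is_comm.comm (⟨a, ha⟩ : A) ⟨b, hb⟩))
    · rintro _ ⟨a, ha, rfl⟩
      show e.symm a ^ 2 = 1
      rw [← map_pow, hA.2 a ha, map_one]
  · rw [← Nat.card_congr (A.equivMapOfInjective e.symm.toMonoidHom e.symm.injective).toEquiv, hA']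
  · intro A B hA1 hA2 hB1 hB2
    have h6 := h3 _ _ (hcomm A hA1) ((hcard A).trans hA2) (hcomm B hB1) ((hcard B).trans hB2)
    exact Subgroup.map_injective e.injective h6

/-! ### the model of the Sylow 2-subgroup -/

open Cfsg.Agent.Lib.HeisGL Matrix

/-- elements of `HH 3` with unitriangular matrix part -/
def PWs : Submonoid (HH 3) where
  carrier := {h | (h.A : Matrix (Fin 3) (Fin 3) (ZMod 2)) 0 0 = 1 ∧ (h.A : Matrix (Fin 3) (Fin 3) (ZMod 2)) 1 1 = 1 ∧
    (h.A : Matrix (Fin 3) (Fin 3) (ZMod 2)) 2 2 = 1 ∧ (h.A : Matrix (Fin 3) (Fin 3) (ZMod 2)) 1 0 = 0 ∧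
    (h.A : Matrix (Fin 3) (Fin 3) (ZMod 2)) 2 0 = 0 ∧ (h.A : Matrix (Fin 3) (Fin 3) (ZMod 2)) 2 1 = 0}
  one_mem' := by
    refine ⟨?_, ?_, ?_, ?_, ?_, ?_⟩ <;> simp
  mul_mem' := by
    rintro x y ⟨h1, h2, h3, h4, h5, h6⟩ ⟨k1, k2, k3, k4, k5, k6⟩
    refine ⟨?_, ?_, ?_, ?_, ?_, ?_⟩ <;>
      simp only [HH.mul_A, Units.val_mul, Matrix.mul_apply, Fin.sum_univ_three, h1, h2, h3, h4, h5, h6, k1, k2, k3, k4, k5, k6,
        mul_zero, zero_mul, mul_one, one_mul, add_zero, zero_add]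

def PW : Subgroup (HH 3) :=
  { PWs with
    inv_mem' := by
      intro x hx
      have hpos : 0 < orderOf x := orderOf_pos x
      have h1 : x⁻¹ = x ^ (orderOf x - 1) := by
        rw [inv_eq_iff_mul_eq_one, ← pow_succ', Nat.sub_add_cancel hpos, pow_orderOf_eq_one]
      rw [h1]
      exact PWs.pow_mem hx _ }

theorem mem_PW {h : HH 3} : h ∈ PW ↔ (h.A : Matrix (Fin 3) (Fin 3) (ZMod 2)) 0 0 = 1 ∧
    (h.A : Matrix (Fin 3) (Fin 3) (ZMod 2)) 1 1 = 1 ∧
    (h.A : Matrix (Fin 3) (Fin 3) (ZMod 2)) 2 2 = 1 ∧ (h.A : Matrix (Fin 3) (Fin 3) (ZMod 2)) 1 0 = 0 ∧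
    (h.A : Matrix (Fin 3) (Fin 3) (ZMod 2)) 2 0 = 0 ∧ (h.A : Matrix (Fin 3) (Fin 3) (ZMod 2)) 2 1 = 0 := Iff.rfl

theorem QQ_le_PW : HH.QQ 3 ≤ PW := by
  intro h hh
  have h1 : h.A = 1 := hh
  rw [mem_PW, h1]
  refine ⟨?_, ?_, ?_, ?_, ?_, ?_⟩ <;> simp

/-- the projection modulo the centre -/
def pi : PW →* W where
  toFun h := ⟨h.1.f 0, h.1.f 1, h.1.f 2, h.1.w 0, h.1.w 1, h.1.w 2,
    (h.1.A : Matrix (Fin 3) (Fin 3) (ZMod 2)) 0 1, (h.1.A : Matrix (Fin 3) (Fin 3) (ZMod 2)) 0 2,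
    (h.1.A : Matrix (Fin 3) (Fin 3) (ZMod 2)) 1 2⟩
  map_one' := by
    rw [W.one_def]
    ext1 <;> simp
  map_mul' := by
    rintro ⟨x, h1, h2, h3, h4, h5, h6⟩ ⟨y, k1, k2, k3, k4, k5, k6⟩
    rw [W.mul_def]
    ext1 <;> simp only [Subgroup.coe_mul, HH.mul_f, HH.mul_w, HH.mul_A, Units.val_mul, Matrix.mul_apply,
      Matrix.vecMul, Matrix.mulVec, dotProduct, Pi.add_apply, Fin.sum_univ_three, h1, h2, h3, h4, h5, h6, k1, k2, k3, k4, k5, k6,
        mul_zero, zero_mul, mul_one, one_mul, add_zero, zero_add] <;> ring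

theorem pi_surjective : Function.Surjective pi := by
  rintro ⟨f1, f2, f3, w1, w2, w3, a, b, c⟩
  let A : GL (Fin 3) (ZMod 2) := ⟨!![1, a, b; 0, 1, c; 0, 0, 1], !![1, -a, -b + a * c; 0, 1, -c; 0, 0, 1], by
    ext i j
    fin_cases i <;> fin_cases j <;> simp [Matrix.mul_apply, Fin.sum_univ_three] <;>
      (ring_nf; simp [show (2 : ZMod 2) = 0 from by decide]), by
    ext i j
    fin_cases i <;> fin_cases j <;> simp [Matrix.mul_apply, Fin.sum_univ_three] <;>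
      (ring_nf; simp [show (2 : ZMod 2) = 0 from by decide])⟩
  refine ⟨⟨⟨0, ![f1, f2, f3], ![w1, w2, w3], A⟩, ?_⟩, ?_⟩
  · rw [mem_PW]
    refine ⟨?_, ?_, ?_, ?_, ?_, ?_⟩ <;> rfl
  · rfl

theorem ker_pi : pi.ker = Subgroup.center PW := by
  have hE := HH.exData (n := 3) (by norm_num)
  ext ⟨h, hh⟩
  rw [MonoidHom.mem_ker, Subgroup.mem_center_iff]
  constructor
  · intro hp
    obtain ⟨h1, h2, h3, h4, h5, h6⟩ := hh
    have e1 : h.f 0 = 0 := congrArg W.f1 hp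
    have e2 : h.f 1 = 0 := congrArg W.f2 hp
    have e3 : h.f 2 = 0 := congrArg W.f3 hp
    have e4 : h.w 0 = 0 := congrArg W.w1 hp
    have e5 : h.w 1 = 0 := congrArg W.w2 hp
    have e6 : h.w 2 = 0 := congrArg W.w3 hp
    have e7 : (h.A : Matrix (Fin 3) (Fin 3) (ZMod 2)) 0 1 = 0 := congrArg W.a hp
    have e8 : (h.A : Matrix (Fin 3) (Fin 3) (ZMod 2)) 0 2 = 0 := congrArg W.b hp
    have e9 : (h.A : Matrix (Fin 3) (Fin 3) (ZMod 2)) 1 2 = 0 := congrArg W.c hp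
    have hf : h.f = 0 := by funext i; fin_cases i <;> assumption
    have hw : h.w = 0 := by funext i; fin_cases i <;> assumption
    have hA : h.A = 1 := by
      apply Units.ext
      ext i j
      fin_cases i <;> fin_cases j <;> simpa
    have hz : h = 1 ∨ h = HH.zz 3 := by
      rcases HH.z2 h.c with hc | hc
      · left; exact HH.ext hc hf hw hA
      · right; exact HH.ext hc hf hw hA
    intro g
    apply Subtype.ext
    show (g : HH 3) * h = h * g
    rcases hz with hz | hz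
    · rw [hz, one_mul, mul_one]
    · rw [hz]; exact HH.zz_comm _
  · intro hc
    have hx : ∀ q ∈ HH.QQ 3, q * h = h * q := fun q hq =>
      congrArg Subtype.val (hc ⟨q, QQ_le_PW hq⟩)
    have hQ : h ∈ HH.QQ 3 := HH.cent_QQ hx
    rcases hE.center h hQ (fun x hxQ => (hx x hxQ).symm) with h1 | h1
    · subst h1; exact map_one pi
    · subst h1; rfl

/-- `PW` modulo its centre -/
noncomputable def quotEquiv : PW ⧸ Subgroup.center PW ≃* W :=
  (QuotientGroup.quotientMulEquivOfEq ker_pi.symm).trans (QuotientGroup.quotientKerEquivOfSurjective pi pi_surjective)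

theorem card_PW : Nat.card PW = 1024 := by
  have h1 := Subgroup.card_mul_index pi.ker
  rw [Subgroup.index_ker, MonoidHom.range_eq_top.2 pi_surjective] at h1
  have h2 : Nat.card pi.ker = 2 := by
    rw [ker_pi]
    have hE := HH.exData (n := 3) (by norm_num)
    have e : Subgroup.center PW ≃ Subgroup.zpowers (HH.zz 3) :=
      { toFun := fun g => ⟨g.1.1, by
          have hx : ∀ q ∈ HH.QQ 3, q * g.1.1 = g.1.1 * q := fun q hq =>
            congrArg Subtype.val (Subgroup.mem_center_iff.1 g.2 ⟨q, QQ_le_PW hq⟩)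
          have hQ : g.1.1 ∈ HH.QQ 3 := HH.cent_QQ hx
          rcases hE.center _ hQ (fun x hxQ => (hx x hxQ).symm) with h1 | h1
          · rw [h1]; exact one_mem _
          · rw [h1]; exact Subgroup.mem_zpowers _⟩
        invFun := fun g => ⟨⟨g.1, QQ_le_PW (by
          have : Subgroup.zpowers (HH.zz 3) ≤ HH.QQ 3 := by rw [Subgroup.zpowers_le]; exact hE.mem
          exact this g.2)⟩, by
          rw [Subgroup.mem_center_iff]
          intro x
          apply Subtype.ext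
          show x.1 * g.1 = g.1 * x.1
          obtain ⟨_, k, rfl⟩ := g
          have hcm : Commute x.1 (HH.zz 3) := HH.zz_comm _
          exact hcm.zpow_right k⟩
        left_inv := fun g => rfl
        right_inv := fun g => rfl }
    rw [Nat.card_congr e, Nat.card_zpowers]
    exact hE.orderOf
  rw [← h1, h2]
  rw [Subgroup.card_top, W.card_W]

theorem stmt_PW : Stmt (PW ⧸ Subgroup.center PW) := stmt_congr quotEquiv stmt_W

open Cfsg.Agent.Lib.Golay in
theorem exists_setting : ∃ z : ↥Cfsg.M24, Nonempty (Setting z 3) := by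
  have ho := oct0_mem
  obtain ⟨p, hp⟩ : ∃ p, p ∉ mset 8536111 := by
    by_contra hcon
    push Not at hcon
    have : mset 8536111 = Finset.univ := Finset.eq_univ_iff_forall.2 hcon
    have h8 := ho.2
    rw [this, Finset.card_univ] at h8
    revert h8
    decide
  obtain ⟨u, hu, hu1⟩ : ∃ u ∈ OctPt (mset 8536111), u ≠ 1 := by
    by_contra hcon
    push Not at hcon
    have h1 := card_OctPt0
    have h2 : OctPt (mset 8536111) = ⊥ := by
      rw [Subgroup.eq_bot_iff_forall]; exact hcon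
    rw [h2, Subgroup.card_bot] at h1
    exact absurd h1 (by norm_num)
  have huM := (mem_OctPt.1 hu).1
  have hfix : (Finset.univ.filter fun p : Cfsg.GolayPt => ((⟨u, huM⟩ : ↥Cfsg.M24) : Equiv.Perm Cfsg.GolayPt) p = p) =
      mset 8536111 := by
    ext x
    rw [Finset.mem_filter]
    constructor
    · rintro ⟨_, hx⟩
      by_contra hxo
      exact hu1 (OctPt_fix_eq_one ho hxo hu hx)
    · intro hx
      exact ⟨Finset.mem_univ _, (mem_OctPt.1 hu).2 x hx⟩
  have hord : orderOf (⟨u, huM⟩ : ↥Cfsg.M24) = 2 := by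
    haveI : Fact (Nat.Prime 2) := ⟨Nat.prime_two⟩
    apply orderOf_eq_prime
    · apply Subtype.ext
      show u ^ 2 = 1
      rw [pow_two]; exact OctPt_sq ho hu
    · intro h; exact hu1 (congrArg Subtype.val h)
  exact ⟨⟨u, huM⟩, (settingM24 ⟨u, huM⟩ hord (by rw [hfix]; exact ho)).1⟩

open Cfsg.Agent.Lib.Golay in
theorem stmt_sylow (P : Sylow 2 ↥Cfsg.M24) :
    Stmt (↥(P : Subgroup ↥Cfsg.M24) ⧸ Subgroup.center ↥(P : Subgroup ↥Cfsg.M24)) := by
  haveI : Fact (Nat.Prime 2) := ⟨Nat.prime_two⟩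
  obtain ⟨z, S⟩ : ∃ z : ↥Cfsg.M24, Nonempty (Setting z 3) := exists_setting
  obtain ⟨S⟩ := S
  have hcard : Nat.card (PW.map S.φ) = 1024 := by
    rw [← card_PW]
    exact (Nat.card_congr (PW.equivMapOfInjective S.φ S.φ_injective).toEquiv).symm
  have hfac : (Nat.card ↥Cfsg.M24).factorization 2 = 10 := by
    rw [natCard_M24]
    apply le_antisymm
    · by_contra hcon
      push Not at hcon
      have := (Nat.prime_two.pow_dvd_iff_le_factorization (n := 244823040) (by norm_num)).2 hcon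
      exact absurd this (by norm_num)
    · exact (Nat.prime_two.pow_dvd_iff_le_factorization (n := 244823040) (by norm_num)).1 (by norm_num)
  let P' : Sylow 2 ↥Cfsg.M24 := Sylow.ofCard (PW.map S.φ) (by rw [hcard, hfac]; norm_num)
  have e1 : ↥(P : Subgroup ↥Cfsg.M24) ≃* ↥(P' : Subgroup ↥Cfsg.M24) := Sylow.equiv P P'
  have e2 : PW ≃* ↥(P' : Subgroup ↥Cfsg.M24) := PW.equivMapOfInjective S.φ S.φ_injective
  have e : ↥(P : Subgroup ↥Cfsg.M24) ≃* PW := e1.trans e2.symm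
  have hmap : (Subgroup.center ↥(P : Subgroup ↥Cfsg.M24)).map (e : ↥(P : Subgroup ↥Cfsg.M24) →* PW) =
      Subgroup.center PW := by
    ext x
    constructor
    · rintro ⟨y, hy, rfl⟩
      rw [Subgroup.mem_center_iff]
      intro g
      obtain ⟨g, rfl⟩ := e.surjective g
      show e g * e y = e y * e g
      rw [← map_mul, ← map_mul, Subgroup.mem_center_iff.1 hy g]
    · intro hx
      refine ⟨e.symm x, ?_, by simp⟩
      rw [SetLike.mem_coe, Subgroup.mem_center_iff]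
      intro g
      apply e.injective
      rw [map_mul, map_mul, MulEquiv.apply_symm_apply]
      exact Subgroup.mem_center_iff.1 hx (e g)
  exact stmt_congr (QuotientGroup.congr _ _ e hmap) stmt_PW

end Cfsg.Agent.Lib.SylM24
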