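import Mathlib
import Cfsg.Agent.Lib.H70Frattini
import Cfsg.Agent.Lib.BrauerFowler

set_option autoImplicit false

/-!
Sylow 2-subgroups of symmetric and alternating groups lying in a unique maximal subgroup (helper27).
-/

namespace Cfsg.Agent.Lib.SylUniqMax

open Equiv Equiv.Perm MulAction

section Gen

variable {α : Type*} [Fintype α] [DecidableEq α]

theorem top_of_swaps (K : Subgroup (Perm α)) (h : ∀ a b : α, swap a b ∈ K) : K = ⊤ := by
  rw [eq_top_iff, ← Equiv.Perm.closure_isSwap, Subgroup.closure_le]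
  rintro _ ⟨a, b, -, rfl⟩
  exact h a b

theorem gen_of_three (K : Subgroup (Perm α)) (A B : Set α) (hAB : Disjoint A B)
    (hc : ∃ c, c ∉ A ∧ c ∉ B)
    (h1 : ∀ a b, (a ∈ A ↔ b ∈ A) → swap a b ∈ K) (h2 : ∀ a b, (a ∈ B ↔ b ∈ B) → swap a b ∈ K) : K = ⊤ := by
  obtain ⟨c, hcA, hcB⟩ := hc
  have key : ∀ a, swap a c ∈ K := by
    intro a
    by_cases ha : a ∈ A
    · have : a ∉ B := fun h => Set.disjoint_left.1 hAB ha h
      exact h2 a c (by tauto)
    · exact h1 a c (by tauto)
  refine top_of_swaps K fun a b => ?_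
  refine SubmonoidClass.swap_mem_trans K (key a) ?_
  rw [swap_comm]; exact key b

theorem cross (τ : Perm α) (hτ : τ * τ = 1) (hτ' : ∀ x, τ x ≠ x)
    (K : Subgroup (Perm α)) (hK : Subgroup.centralizer {τ} ≤ K) (A : Set α) (hA : 2 < A.ncard)
    (hin : ∀ a b, (a ∈ A ↔ b ∈ A) → swap a b ∈ K) {b : α} (hb : b ∉ A) : ∃ x ∈ A, swap x b ∈ K := by
  have hττ : ∀ x, τ (τ x) = x := fun x => by
    have := congrArg (fun f : Perm α => f x) hτ
    simpa using this
  obtain ⟨x, hxA, hx⟩ : ∃ x ∈ A, x ∉ ({τ b} : Set α) :=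
    Set.exists_mem_notMem_of_ncard_lt_ncard (by rw [Set.ncard_singleton]; omega)
  obtain ⟨y, hyA, hy⟩ : ∃ y ∈ A, y ∉ ({x, τ x} : Set α) :=
    Set.exists_mem_notMem_of_ncard_lt_ncard (lt_of_le_of_lt (Set.ncard_insert_le _ _) (by
      rw [Set.ncard_singleton]; omega))
  rw [Set.mem_singleton_iff] at hx
  simp only [Set.mem_insert_iff, Set.mem_singleton_iff, not_or] at hy
  obtain ⟨hyx', hyt⟩ := hy
  have hyx : y ≠ x := hyx'
  have hxb : x ≠ b := fun h => hb (h ▸ hxA)
  have hyb : y ≠ b := fun h => hb (h ▸ hyA)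
  have hxty : x ≠ τ y := fun h => hyt (by rw [h, hττ])
  -- the element of the centralizer
  obtain ⟨g, hgτ, hgx, hgy⟩ : ∃ g : Perm α, g * τ = τ * g ∧ g x = x ∧ g y = b := by
    by_cases h : b = τ y
    · refine ⟨swap y b, ?_, swap_apply_of_ne_of_ne hyx.symm hxb, swap_apply_left _ _⟩
      rw [mul_swap_eq_swap_mul, h, hττ, swap_comm]
    · refine ⟨swap y b * swap (τ y) (τ b), ?_, ?_, ?_⟩
      · have h1 : τ * swap y b = swap (τ y) (τ b) * τ := mul_swap_eq_swap_mul _ _ _
        have h2 : τ * swap (τ y) (τ b) = swap y b * τ := by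
          rw [mul_swap_eq_swap_mul, hττ, hττ]
        have hcomm : swap y b * swap (τ y) (τ b) = swap (τ y) (τ b) * swap y b := by
          have hd : Disjoint (swap y b) (swap (τ y) (τ b)) := by
            rw [disjoint_iff_disjoint_support, support_swap hyb,
              support_swap (fun h => hyb (τ.injective h))]
            rw [Finset.disjoint_left]
            intro z hz hz'
            simp only [Finset.mem_insert, Finset.mem_singleton] at hz hz'
            rcases hz with rfl | rfl
            · rcases hz' with h' | h'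
              · exact hτ' _ h'.symm
              · exact h (by rw [h', hττ])
            · rcases hz' with h' | h'
              · exact h h'
              · exact hτ' _ h'.symm
          exact hd.commute
        rw [← mul_assoc, h1, mul_assoc (swap (τ y) (τ b)), h2, ← mul_assoc, hcomm]
      · rw [mul_apply, swap_apply_of_ne_of_ne hxty hx, swap_apply_of_ne_of_ne hyx.symm hxb]
      · rw [mul_apply, swap_apply_of_ne_of_ne (fun h => hτ' y h.symm) (fun h' => h (by rw [h', hττ])),
          swap_apply_left]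
  have hgK : g ∈ K := hK (Subgroup.mem_centralizer_iff.2 (by
    intro z hz
    rw [Set.mem_singleton_iff] at hz
    rw [hz, hgτ]))
  refine ⟨x, hxA, ?_⟩
  have hs : swap x b = g * swap x y * g⁻¹ := by
    rw [← swap_apply_apply, hgx, hgy]
  rw [hs]
  exact K.mul_mem (K.mul_mem hgK (hin x y (by tauto))) (K.inv_mem hgK)

theorem gen_of_two (h5 : 5 ≤ Nat.card α) (τ : Perm α) (hτ : τ * τ = 1) (hτ' : ∀ x, τ x ≠ x)
    (K : Subgroup (Perm α)) (hK : Subgroup.centralizer {τ} ≤ K) (A : Set α) (hA : A.Nonempty) (hA' : Aᶜ.Nonempty)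
    (hin : ∀ a b, (a ∈ A ↔ b ∈ A) → swap a b ∈ K) : K = ⊤ := by
  have key : ∃ x ∈ A, ∃ b ∉ A, swap x b ∈ K := by
    have hcard : A.ncard + Aᶜ.ncard = Nat.card α := Set.ncard_add_ncard_compl A
    by_cases h : 2 < A.ncard
    · obtain ⟨b, hb⟩ := hA'
      obtain ⟨x, hx, hxb⟩ := cross τ hτ hτ' K hK A h hin hb
      exact ⟨x, hx, b, hb, hxb⟩
    · obtain ⟨b, hb⟩ := hA
      obtain ⟨x, hx, hxb⟩ := cross τ hτ hτ' K hK Aᶜ (by omega)
        (fun a c hac => hin a c (by
          simp only [Set.mem_compl_iff] at hac; tauto)) (b := b) (by simpa using hb)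
      exact ⟨b, hb, x, hx, by rw [swap_comm]; exact hxb⟩
  obtain ⟨x, hx, b, hb, hxb⟩ := key
  have key2 : ∀ a, swap a x ∈ K := by
    intro a
    by_cases ha : a ∈ A
    · exact hin a x (by tauto)
    · refine SubmonoidClass.swap_mem_trans K (hin a b (by tauto)) ?_
      rw [swap_comm]; exact hxb
  refine top_of_swaps K fun a c => ?_
  refine SubmonoidClass.swap_mem_trans K (key2 a) ?_
  rw [swap_comm]; exact key2 c

end Gen

section Over

variable {α : Type*} [Fintype α] [DecidableEq α]

/-- the stabilizer of the bipartition `{A, Aᶜ}` -/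
def bistab (A : Set α) : Subgroup (Perm α) where
  carrier := {g | (∀ x, g x ∈ A ↔ x ∈ A) ∨ (∀ x, g x ∈ A ↔ x ∉ A)}
  one_mem' := Or.inl fun x => Iff.rfl
  mul_mem' := by
    rintro g h (hg | hg) (hh | hh)
    · exact Or.inl fun x => by rw [mul_apply, hg, hh]
    · exact Or.inr fun x => by rw [mul_apply, hg, hh]
    · exact Or.inr fun x => by rw [mul_apply, hg, hh]
    · exact Or.inl fun x => by rw [mul_apply, hg, hh, not_not]
  inv_mem' := by
    rintro g (hg | hg)
    · exact Or.inl fun x => by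
        have := hg (g⁻¹ x)
        rw [show g (g⁻¹ x) = x from Equiv.apply_symm_apply g x] at this
        exact this.symm
    · exact Or.inr fun x => by
        have := hg (g⁻¹ x)
        rw [show g (g⁻¹ x) = x from Equiv.apply_symm_apply g x] at this
        tauto

theorem bistab_swap (A : Set α) (a b : α) (h : a ∈ A ↔ b ∈ A) : swap a b ∈ bistab A := by
  left
  intro x
  by_cases hxa : x = a
  · rw [hxa, swap_apply_left]; exact h.symm
  · by_cases hxb : x = b
    · rw [hxb, swap_apply_right]; exact h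
    · rw [swap_apply_of_ne_of_ne hxa hxb]

theorem bistab_ne_top (h3 : 3 ≤ Nat.card α) (A : Set α) (hA : A.Nonempty) (hA' : Aᶜ.Nonempty) : bistab A ≠ ⊤ := by
  obtain ⟨a, ha⟩ := hA
  obtain ⟨b, hb⟩ := hA'
  rw [Set.mem_compl_iff] at hb
  obtain ⟨c, hc⟩ : ∃ c : α, c ∉ ({a, b} : Finset α) := by
    by_contra h
    push Not at h
    have : (Finset.univ : Finset α) ⊆ {a, b} := fun x _ => h x
    have h1 := Finset.card_le_card this
    have h2 : ({a, b} : Finset α).card ≤ 2 := Finset.card_le_two
    rw [Finset.card_univ, ← Nat.card_eq_fintype_card] at h1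
    omega
  simp only [Finset.mem_insert, Finset.mem_singleton, not_or] at hc
  intro htop
  have hm : swap a b ∈ bistab A := by rw [htop]; trivial
  rcases hm with h | h
  · have := (h a).2 ha
    rw [swap_apply_left] at this
    exact hb this
  · have := h c
    rw [swap_apply_of_ne_of_ne hc.1 hc.2] at this
    tauto

theorem centralizer_ne_top (h3 : 3 ≤ Nat.card α) (τ : Perm α) (hτ' : ∀ x, τ x ≠ x) :
    Subgroup.centralizer {τ} ≠ ⊤ := by
  intro htop
  have hne : Nonempty α := by
    have : 0 < Nat.card α := by omega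
    exact (Nat.card_pos_iff.1 this).1
  obtain ⟨a⟩ := hne
  obtain ⟨c, hc⟩ : ∃ c : α, c ∉ ({a, τ a} : Finset α) := by
    by_contra h
    push Not at h
    have : (Finset.univ : Finset α) ⊆ {a, τ a} := fun x _ => h x
    have h1 := Finset.card_le_card this
    have h2 : ({a, τ a} : Finset α).card ≤ 2 := Finset.card_le_two
    rw [Finset.card_univ, ← Nat.card_eq_fintype_card] at h1
    omega
  simp only [Finset.mem_insert, Finset.mem_singleton, not_or] at hc
  have hm : swap a c ∈ Subgroup.centralizer {τ} := by rw [htop]; trivial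
  have := Subgroup.mem_centralizer_iff.1 hm τ rfl
  have h1 := congrArg (fun f : Perm α => f c) this
  simp only [mul_apply, swap_apply_right] at h1
  -- τ a = swap a c (τ c)
  rcases eq_or_ne (τ c) a with h2 | h2
  · rw [h2, swap_apply_left] at h1
    exact hc.2 h1.symm
  · rw [swap_apply_of_ne_of_ne h2 (hτ' c)] at h1
    exact hc.1 (τ.injective h1).symm

/-- a 2-group of even degree centralizes a fixed-point-free involution -/
theorem exists_inv (R : Subgroup (Perm α)) (hR : IsPGroup 2 R) (he : Even (Nat.card α)) :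
    ∃ τ : Perm α, τ * τ = 1 ∧ (∀ x, τ x ≠ x) ∧ ∀ r ∈ R, r * τ = τ * r := by
  classical
  haveI : Fact (Nat.Prime 2) := ⟨Nat.prime_two⟩
  obtain ⟨m, hm⟩ := he
  have hm2 : Nat.card α = 2 * m := by omega
  set X : Set (Perm α) := {τ | τ * τ = 1 ∧ ∀ x, τ x ≠ x} with hX
  have hXeq : X = {g : Perm α | g.cycleType = Multiset.replicate m 2} := by
    ext g
    simp only [hX, Set.mem_setOf_eq]
    constructor
    · rintro ⟨h1, h2⟩
      have h3 : ∀ b ∈ g.cycleType, b = 2 := by
        intro b hb
        have h4 : b ∣ orderOf g := dvd_of_mem_cycleType hb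
        have h5 : orderOf g ∣ 2 := orderOf_dvd_of_pow_eq_one (by rw [pow_two, h1])
        have h6 := two_le_of_mem_cycleType hb
        exact le_antisymm (Nat.le_of_dvd two_pos (h4.trans h5)) h6
      have h4 := Multiset.eq_replicate_card.2 h3
      have h5 : g.cycleType.sum = g.support.card := sum_cycleType g
      have h6 : g.support = Finset.univ := by
        ext x; simp [mem_support, h2 x]
      rw [h6, Finset.card_univ, ← Nat.card_eq_fintype_card, hm2, h4, Multiset.sum_replicate, smul_eq_mul] at h5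
      rw [h4]; congr 1; omega
    · intro h
      have h5 : g.cycleType.sum = g.support.card := sum_cycleType g
      rw [h, Multiset.sum_replicate, smul_eq_mul] at h5
      have h6 : g.support = Finset.univ := by
        apply Finset.eq_univ_of_card
        rw [← h5, ← Nat.card_eq_fintype_card, hm2]; ring
      refine ⟨?_, fun x => ?_⟩
      · have : orderOf g ∣ 2 := by
          rw [← lcm_cycleType, h, Multiset.lcm_dvd]
          intro b hb
          rw [Multiset.eq_of_mem_replicate hb]
        rw [← pow_two]; exact orderOf_dvd_iff_pow_eq_one.1 this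
      · rw [← mem_support, h6]; exact Finset.mem_univ _
  have hcard : ¬ 2 ∣ Nat.card X := by
    have h1 : Nat.card X = Finset.card {g : Perm α | g.cycleType = Multiset.replicate m 2} := by
      rw [hXeq, Nat.card_coe_set_eq, Set.ncard_eq_toFinset_card']
      congr 1; ext; simp
    rw [h1, card_of_cycleType, if_pos]
    swap
    · refine ⟨?_, fun a ha => (Multiset.eq_of_mem_replicate ha).ge⟩
      rw [Multiset.sum_replicate, smul_eq_mul, ← Nat.card_eq_fintype_card, hm2]; omega
    rw [Multiset.sum_replicate, smul_eq_mul, ← Nat.card_eq_fintype_card, hm2, mul_comm m 2, Nat.sub_self,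
      Nat.factorial_zero, one_mul, Multiset.prod_replicate]
    have h2 : ∏ n ∈ (Multiset.replicate m 2).toFinset, (Multiset.count n (Multiset.replicate m 2)).factorial
        = m.factorial := by
      rcases Nat.eq_zero_or_pos m with rfl | hmpos
      · simp
      · rw [Multiset.toFinset_replicate, if_neg (by omega), Finset.prod_singleton, Multiset.count_replicate_self]
    rw [h2]
    have h3 : (2 * m).factorial = (2 ^ m * m.factorial) * (2 * m - 1).doubleFactorial := by
      rcases Nat.eq_zero_or_pos m with rfl | hmpos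
      · simp
      · obtain ⟨k, rfl⟩ : ∃ k, m = k + 1 := ⟨m - 1, by omega⟩
        rw [show 2 * (k + 1) = (2 * k + 1) + 1 by ring, Nat.factorial_eq_mul_doubleFactorial,
          show 2 * k + 1 + 1 = 2 * (k + 1) by ring, Nat.doubleFactorial_two_mul]
        rfl
    rw [h3, Nat.mul_div_cancel_left _ (by positivity)]
    have h4 : ∀ j : ℕ, Odd (2 * j - 1).doubleFactorial := by
      intro j
      induction j with
      | zero => simp
      | succ i ih =>
        rcases Nat.eq_zero_or_pos i with rfl | hi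
        · simp
        · rw [show 2 * (i + 1) - 1 = (2 * i - 1) + 2 by omega, Nat.doubleFactorial_add_two]
          refine Odd.mul ?_ ih
          exact ⟨i, by omega⟩
    have := h4 m
    rw [← Nat.not_even_iff_odd, even_iff_two_dvd] at this
    exact this
  -- action of `R` on `X` by conjugation
  letI : MulAction R X :=
    { smul := fun r τ => ⟨r.1 * τ.1 * r.1⁻¹, by
        obtain ⟨⟨h1, h2⟩⟩ := τ.2, ()
        refine ⟨?_, ?_⟩
        · have := τ.2.1
          calc r.1 * τ.1 * r.1⁻¹ * (r.1 * τ.1 * r.1⁻¹) = r.1 * (τ.1 * τ.1) * r.1⁻¹ := by group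
            _ = 1 := by rw [this]; group
        · intro x hx
          apply τ.2.2 (r.1⁻¹ x)
          rw [mul_apply, mul_apply] at hx
          rw [eq_inv_iff_eq]
          exact hx⟩
      one_smul := fun τ => Subtype.ext (by
        change (1 : R).1 * τ.1 * ((1 : R).1)⁻¹ = τ.1
        simp)
      mul_smul := fun r s τ => Subtype.ext (by
        change (r * s).1 * τ.1 * ((r * s).1)⁻¹ = r.1 * (s.1 * τ.1 * s.1⁻¹) * r.1⁻¹
        simp [mul_assoc]) }
  obtain ⟨τ, hτ⟩ := hR.nonempty_fixed_point_of_prime_not_dvd_card X hcard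
  refine ⟨τ.1, τ.2.1, τ.2.2, fun r hr => ?_⟩
  have h1 := congrArg Subtype.val (hτ ⟨r, hr⟩)
  have h2 : r * τ.1 * r⁻¹ = τ.1 := h1
  rw [mul_inv_eq_iff_eq_mul] at h2
  exact h2

/-- a transitive 2-group has a bipartition -/
theorem exists_bip (R : Subgroup (Perm α)) (hR : IsPGroup 2 R) (h2 : 2 ≤ Nat.card α)
    (ht : ∀ x y : α, ∃ r ∈ R, r x = y) : ∃ A : Set α, A.Nonempty ∧ Aᶜ.Nonempty ∧ R ≤ bistab A := by
  classical
  have : Fact (Nat.Prime 2) := ⟨Nat.prime_two⟩
  have hne : Nontrivial α := Finite.one_lt_card_iff_nontrivial.1 (by omega)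
  obtain ⟨x, y, hxy⟩ := hne
  let S : Subgroup R := stabilizer R x
  have hS : S ≠ ⊤ := by
    intro h
    obtain ⟨r, hr, hrx⟩ := ht x y
    have : (⟨r, hr⟩ : R) ∈ S := by rw [h]; trivial
    have h1 : r x = x := this
    exact hxy (h1.symm.trans hrx)
  obtain ⟨U, hU, hSU⟩ := (eq_top_or_exists_le_coatom S).resolve_left hS
  have hUi : U.index = 2 := H70Frattini.coatom_index hR hU
  let A : Set α := {z | ∃ u ∈ U, (u : Perm α) x = z}
  have hmemA : ∀ r : R, (r : Perm α) x ∈ A ↔ r ∈ U := by
    intro r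
    constructor
    · rintro ⟨u, hu, hux⟩
      have h1 : u⁻¹ * r ∈ S := by
        change (u : Perm α)⁻¹ ((r : Perm α) x) = x
        rw [← hux]; exact Equiv.symm_apply_apply _ _
      have h2 := U.mul_mem hu (hSU h1)
      rwa [mul_inv_cancel_left] at h2
    · intro hr; exact ⟨r, hr, rfl⟩
  have hxA : x ∈ A := ⟨1, U.one_mem, rfl⟩
  have htt : ∀ z : α, ∃ r : R, (r : Perm α) x = z := fun z => by
    obtain ⟨r, hr, hrz⟩ := ht x z
    exact ⟨⟨r, hr⟩, hrz⟩
  have hact : ∀ (r : R) (z : α), (r : Perm α) z ∈ A ↔ (r ∈ U ↔ z ∈ A) := by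
    intro r z
    obtain ⟨s, rfl⟩ := htt z
    rw [hmemA s, ← Subgroup.mul_mem_iff_of_index_two hUi, ← hmemA]
    rfl
  refine ⟨A, ⟨x, hxA⟩, ?_, ?_⟩
  · obtain ⟨r, hr⟩ : ∃ r : R, r ∉ U := by
      by_contra h
      push Not at h
      exact hU.1 (eq_top_iff.2 fun r _ => h r)
    exact ⟨(r : Perm α) x, fun h => hr ((hmemA r).1 h)⟩
  · intro r hr
    by_cases hrU : (⟨r, hr⟩ : R) ∈ U
    · left; intro z
      have := hact ⟨r, hr⟩ z
      simp only [hrU, true_iff] at this
      exact this
    · right; intro z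
      have := hact ⟨r, hr⟩ z
      simp only [hrU, false_iff] at this
      exact this

theorem orbit_card_pow (R : Subgroup (Perm α)) (hR : IsPGroup 2 R) (x : α) :
    ∃ j : ℕ, Nat.card (orbit R x) = 2 ^ j := by
  have : Fact (Nat.Prime 2) := ⟨Nat.prime_two⟩
  exact hR.card_orbit x

/-- two proper overgroups generating everything -/
theorem two_over (h5 : 5 ≤ Nat.card α) (hn : ¬ ∃ k, 2 ≤ k ∧ Nat.card α = 2 ^ k + 1)
    (R : Subgroup (Perm α)) (hR : IsPGroup 2 R) :
    ∃ H₁ H₂ : Subgroup (Perm α), R ≤ H₁ ∧ R ≤ H₂ ∧ H₁ ≠ ⊤ ∧ H₂ ≠ ⊤ ∧ H₁ ⊔ H₂ = ⊤ := by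
  classical
  have : Fact (Nat.Prime 2) := ⟨Nat.prime_two⟩
  rcases Nat.even_or_odd (Nat.card α) with he | ho
  · obtain ⟨τ, hτ1, hτ2, hτ3⟩ := exists_inv R hR he
    have hRc : R ≤ Subgroup.centralizer {τ} := by
      intro r hr
      rw [Subgroup.mem_centralizer_iff]
      intro z hz
      rw [Set.mem_singleton_iff] at hz
      rw [hz, hτ3 r hr]
    obtain ⟨A, hA, hA', hRA⟩ : ∃ A : Set α, A.Nonempty ∧ Aᶜ.Nonempty ∧ R ≤ bistab A := by
      by_cases ht : ∀ x y : α, ∃ r ∈ R, r x = y
      · exact exists_bip R hR (by omega) ht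
      · push Not at ht
        obtain ⟨x, y, hxy⟩ := ht
        refine ⟨{z | ∃ r ∈ R, r x = z}, ⟨x, 1, R.one_mem, rfl⟩, ⟨y, ?_⟩, ?_⟩
        · rintro ⟨r, hr, hrx⟩
          exact hxy r hr hrx
        · intro r hr
          left
          intro z
          constructor
          · rintro ⟨s, hs, hsx⟩
            refine ⟨r⁻¹ * s, R.mul_mem (R.inv_mem hr) hs, ?_⟩
            rw [mul_apply, hsx]; exact Equiv.symm_apply_apply _ _
          · rintro ⟨s, hs, rfl⟩
            exact ⟨r * s, R.mul_mem hr hs, rfl⟩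
    refine ⟨bistab A, Subgroup.centralizer {τ}, hRA, hRc, bistab_ne_top (by omega) A hA hA',
      centralizer_ne_top (by omega) τ hτ2, ?_⟩
    exact gen_of_two h5 τ hτ1 hτ2 _ le_sup_right A hA hA'
      (fun a b hab => (le_sup_left : bistab A ≤ _) (bistab_swap A a b hab))
  · -- odd degree
    have hfp : (fixedPoints R α).Nonempty := by
      apply hR.nonempty_fixed_point_of_prime_not_dvd_card
      rw [← even_iff_two_dvd, Nat.not_even_iff_odd]; exact ho
    obtain ⟨p, hp⟩ := hfp
    have hp' : ∀ r ∈ R, r p = p := fun r hr => hp ⟨r, hr⟩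
    have hne : Nontrivial α := Finite.one_lt_card_iff_nontrivial.1 (by omega)
    obtain ⟨x, hx⟩ := exists_ne p
    set A : Set α := {p} with hA
    set B : Set α := orbit R x with hB
    have hpB : p ∉ B := by
      rintro ⟨r, hr⟩
      have h1 : (r : Perm α) x = p := hr
      have h2 := hp' r.1 r.2
      exact hx (r.1.injective (h1.trans h2.symm))
    have hc : ∃ c, c ∉ A ∧ c ∉ B := by
      by_contra h
      push Not at h
      apply hn
      obtain ⟨j, hj⟩ := orbit_card_pow R hR x
      have hun : (Set.univ : Set α) = insert p B := by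
        ext z
        simp only [Set.mem_univ, Set.mem_insert_iff, true_iff]
        by_cases hz : z = p
        · exact Or.inl hz
        · exact Or.inr (h z (by simpa [hA] using hz))
      have hcard : Nat.card α = 2 ^ j + 1 := by
        rw [← Set.ncard_univ, hun, Set.ncard_insert_of_notMem hpB, ← hj]
        rfl
      refine ⟨j, ?_, hcard⟩
      by_contra hj2
      have : j = 0 ∨ j = 1 := by omega
      rcases this with rfl | rfl
      · rw [pow_zero] at hcard; omega
      · rw [pow_one] at hcard; omega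
    have hinv : ∀ r ∈ R, ∀ z, r z ∈ B ↔ z ∈ B := by
      intro r hr z
      constructor
      · rintro ⟨s, hs⟩
        have hs' : (s : Perm α) x = r z := hs
        refine ⟨(⟨r, hr⟩ : R)⁻¹ * s, ?_⟩
        change r⁻¹ ((s : Perm α) x) = z
        rw [hs']; exact Equiv.symm_apply_apply _ _
      · rintro ⟨s, rfl⟩
        exact ⟨⟨r, hr⟩ * s, rfl⟩
    have hAne : Aᶜ.Nonempty := ⟨x, by simpa [hA] using hx⟩
    refine ⟨bistab A, bistab B, ?_, ?_, bistab_ne_top (by omega) A ⟨p, rfl⟩ hAne,
      bistab_ne_top (by omega) B ⟨x, mem_orbit_self x⟩ ⟨p, hpB⟩, ?_⟩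
    · intro r hr
      left
      intro z
      simp only [hA, Set.mem_singleton_iff]
      constructor
      · intro h
        exact r.injective (h.trans (hp' r hr).symm)
      · rintro rfl
        exact hp' r hr
    · intro r hr
      exact Or.inl (hinv r hr)
    · refine gen_of_three _ A B ?_ hc
        (fun a b hab => (le_sup_left : bistab A ≤ _) (bistab_swap A a b hab))
        (fun a b hab => (le_sup_right : bistab B ≤ _) (bistab_swap B a b hab))
      rw [Set.disjoint_left]
      intro z hz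
      rw [hA, Set.mem_singleton_iff] at hz
      rw [hz]; exact hpB

end Over

section NotUnique

/-- no unique maximal overgroup, abstractly -/
theorem not_unique {G : Type*} [Group G] [Finite G] (R H₁ H₂ : Subgroup G) (h1 : R ≤ H₁) (h2 : R ≤ H₂)
    (h1' : H₁ ≠ ⊤) (h2' : H₂ ≠ ⊤) (h : H₁ ⊔ H₂ = ⊤) : ¬ ∃! M : Subgroup G, IsCoatom M ∧ R ≤ M := by
  rintro ⟨M, ⟨hM, -⟩, hu⟩
  obtain ⟨M₁, hM₁, hH₁⟩ := (eq_top_or_exists_le_coatom H₁).resolve_left h1'
  obtain ⟨M₂, hM₂, hH₂⟩ := (eq_top_or_exists_le_coatom H₂).resolve_left h2'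
  have e1 := hu M₁ ⟨hM₁, h1.trans hH₁⟩
  have e2 := hu M₂ ⟨hM₂, h2.trans hH₂⟩
  apply hM.1
  rw [eq_top_iff, ← h, sup_le_iff]
  exact ⟨e1 ▸ hH₁, e2 ▸ hH₂⟩

variable {α : Type*} [Fintype α] [DecidableEq α]

theorem sylow_not_le_alt (h2 : 2 ≤ Nat.card α) (P : Sylow 2 (Perm α)) : ¬ (P : Subgroup (Perm α)) ≤ alternatingGroup α := by
  have : Fact (Nat.Prime 2) := ⟨Nat.prime_two⟩
  intro h
  have hnt : Nontrivial α := Finite.one_lt_card_iff_nontrivial.1 (by omega)
  have h1 := Subgroup.index_dvd_of_le h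
  rw [alternatingGroup.index_eq_two] at h1
  exact P.not_dvd_index h1

/-- intersecting generation with the alternating group -/
theorem alt_le_of_sup (H₁ H₂ : Subgroup (Perm α)) (h : H₁ ⊔ H₂ = ⊤) (r : Perm α) (hr1 : r ∈ H₁) (hr2 : r ∈ H₂)
    (hr : r ∉ alternatingGroup α) : alternatingGroup α ≤ (H₁ ⊓ alternatingGroup α) ⊔ (H₂ ⊓ alternatingGroup α) := by
  set K := (H₁ ⊓ alternatingGroup α) ⊔ (H₂ ⊓ alternatingGroup α) with hK
  have hKA : K ≤ alternatingGroup α := sup_le inf_le_right inf_le_right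
  have hnt : Nontrivial α := by
    by_contra hs
    rw [not_nontrivial_iff_subsingleton] at hs
    apply hr
    rw [Subsingleton.elim r 1]
    exact Subgroup.one_mem _
  have hidx : (alternatingGroup α).index = 2 := alternatingGroup.index_eq_two
  have hodd : ∀ g h : Perm α, g ∉ alternatingGroup α → h ∉ alternatingGroup α → g * h ∈ alternatingGroup α := by
    intro g h hg hh
    rw [Subgroup.mul_mem_iff_of_index_two hidx]; tauto
  have hconj : ∀ k ∈ K, r * k * r⁻¹ ∈ K := by
    intro k hk
    have h1 : K.map (MulAut.conj r).toMonoidHom ≤ K := by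
      rw [hK, Subgroup.map_sup, sup_le_iff]
      constructor
      · rintro _ ⟨x, hx, rfl⟩
        refine (le_sup_left : _ ≤ K) ⟨?_, ?_⟩
        · exact H₁.mul_mem (H₁.mul_mem hr1 hx.1) (H₁.inv_mem hr1)
        · exact Subgroup.Normal.conj_mem inferInstance x hx.2 r
      · rintro _ ⟨x, hx, rfl⟩
        refine (le_sup_right : _ ≤ K) ⟨?_, ?_⟩
        · exact H₂.mul_mem (H₂.mul_mem hr2 hx.1) (H₂.inv_mem hr2)
        · exact Subgroup.Normal.conj_mem inferInstance x hx.2 r
    exact h1 ⟨k, hk, rfl⟩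
  have hrr : r * r ∈ K := (le_sup_left : _ ≤ K) ⟨H₁.mul_mem hr1 hr1, hodd r r hr hr⟩
  have hconj' : ∀ k ∈ K, r⁻¹ * k * r ∈ K := by
    intro k hk
    have h1 := hconj k hk
    have h2 : r⁻¹ * k * r = (r * r)⁻¹ * (r * k * r⁻¹) * (r * r) := by group
    rw [h2]
    exact K.mul_mem (K.mul_mem (K.inv_mem hrr) h1) hrr
  let T : Subgroup (Perm α) :=
    { carrier := {g | g ∈ K ∨ g * r ∈ K}
      one_mem' := Or.inl K.one_mem
      mul_mem' := by
        rintro g h (hg | hg) (hh | hh)
        · exact Or.inl (K.mul_mem hg hh)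
        · right
          rw [mul_assoc]; exact K.mul_mem hg hh
        · right
          have h1 := K.mul_mem hg (hconj' h hh)
          have h2 : g * r * (r⁻¹ * h * r) = g * h * r := by group
          rwa [h2] at h1
        · left
          have h1 := K.mul_mem (K.mul_mem hg (hconj' (h * r) hh)) (K.inv_mem hrr)
          have h2 : g * r * (r⁻¹ * (h * r) * r) * (r * r)⁻¹ = g * h := by group
          rwa [h2] at h1
      inv_mem' := by
        rintro g (hg | hg)
        · exact Or.inl (K.inv_mem hg)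
        · right
          have h1 := K.mul_mem (hconj _ (K.inv_mem hg)) hrr
          have h2 : r * (g * r)⁻¹ * r⁻¹ * (r * r) = g⁻¹ * r := by group
          rwa [h2] at h1 }
  have hT : ∀ (H : Subgroup (Perm α)), r ∈ H → H ⊓ alternatingGroup α ≤ K → H ≤ T := by
    intro H hrH hHK g hg
    by_cases hgA : g ∈ alternatingGroup α
    · exact Or.inl (hHK ⟨hg, hgA⟩)
    · exact Or.inr (hHK ⟨H.mul_mem hg hrH, hodd g r hgA hr⟩)
  have hTtop : T = ⊤ := by
    rw [eq_top_iff, ← h, sup_le_iff]
    exact ⟨hT H₁ hr1 le_sup_left, hT H₂ hr2 le_sup_right⟩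
  intro a ha
  have haT : a ∈ T := by rw [hTtop]; trivial
  rcases haT with h1 | h1
  · exact h1
  · exfalso
    have h2 := hKA h1
    rw [Subgroup.mul_mem_iff_of_index_two hidx] at h2
    exact hr (h2.1 ha)

theorem sym_not_unique (h5 : 5 ≤ Nat.card α) (hn : ¬ ∃ k, 2 ≤ k ∧ Nat.card α = 2 ^ k + 1)
    (R : Sylow 2 (Perm α)) : ¬ ∃! M : Subgroup (Perm α), IsCoatom M ∧ (R : Subgroup (Perm α)) ≤ M := by
  obtain ⟨H₁, H₂, h1, h2, h1', h2', h⟩ := two_over h5 hn R R.isPGroup'
  exact not_unique _ H₁ H₂ h1 h2 h1' h2' h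

/-- a Sylow 2-subgroup of the alternating group is the intersection with one of the symmetric group -/
theorem exists_sylow (R : Sylow 2 (alternatingGroup α)) :
    ∃ P : Sylow 2 (Perm α), (R : Subgroup (alternatingGroup α)).map (alternatingGroup α).subtype =
      (P : Subgroup (Perm α)) ⊓ alternatingGroup α := by
  have : Fact (Nat.Prime 2) := ⟨Nat.prime_two⟩
  have hR : IsPGroup 2 ((R : Subgroup (alternatingGroup α)).map (alternatingGroup α).subtype) :=
    R.isPGroup'.map _
  obtain ⟨P, hP⟩ := hR.exists_le_sylow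
  refine ⟨P, le_antisymm (le_inf hP ?_) ?_⟩
  · rintro _ ⟨x, -, rfl⟩; exact x.2
  · have h1 : IsPGroup 2 ((P : Subgroup (Perm α)).comap (alternatingGroup α).subtype) :=
      P.isPGroup'.comap_of_injective _ (Subgroup.subtype_injective _)
    have h2 : (R : Subgroup (alternatingGroup α)) ≤ (P : Subgroup (Perm α)).comap (alternatingGroup α).subtype := by
      intro x hx
      exact hP ⟨x, hx, rfl⟩
    have h3 := R.is_maximal' h1 h2
    rintro x ⟨hxP, hxA⟩
    refine ⟨⟨x, hxA⟩, ?_, rfl⟩
    change (⟨x, hxA⟩ : alternatingGroup α) ∈ (R : Subgroup (alternatingGroup α))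
    have h4 : (⟨x, hxA⟩ : alternatingGroup α) ∈ (P : Subgroup (Perm α)).comap (alternatingGroup α).subtype := hxP
    rw [h3] at h4
    exact h4

theorem alt_not_unique (h5 : 5 ≤ Nat.card α) (hn : ¬ ∃ k, 2 ≤ k ∧ Nat.card α = 2 ^ k + 1)
    (R : Sylow 2 (alternatingGroup α)) :
    ¬ ∃! M : Subgroup (alternatingGroup α), IsCoatom M ∧ (R : Subgroup (alternatingGroup α)) ≤ M := by
  obtain ⟨P, hP⟩ := exists_sylow R
  obtain ⟨H₁, H₂, h1, h2, h1', h2', h⟩ := two_over h5 hn P P.isPGroup'
  obtain ⟨r, hrP, hrA⟩ : ∃ r ∈ (P : Subgroup (Perm α)), r ∉ alternatingGroup α := by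
    have := sylow_not_le_alt (by omega) P
    rw [SetLike.le_def] at this
    push Not at this
    exact this
  have hle := alt_le_of_sup H₁ H₂ h r (h1 hrP) (h2 hrP) hrA
  have hRle : ∀ H : Subgroup (Perm α), (P : Subgroup (Perm α)) ≤ H →
      (R : Subgroup (alternatingGroup α)) ≤ H.comap (alternatingGroup α).subtype := by
    intro H hPH x hx
    have : (x : Perm α) ∈ (P : Subgroup (Perm α)) ⊓ alternatingGroup α := by
      rw [← hP]; exact ⟨x, hx, rfl⟩
    exact hPH this.1
  have hidx : (alternatingGroup α).index = 2 := by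
    have hnt : Nontrivial α := Finite.one_lt_card_iff_nontrivial.1 (by omega)
    exact alternatingGroup.index_eq_two
  have hne : ∀ H : Subgroup (Perm α), r ∈ H → H ≠ ⊤ → H.comap (alternatingGroup α).subtype ≠ ⊤ := by
    intro H hr hH htop
    apply hH
    rw [eq_top_iff]
    have hAH : alternatingGroup α ≤ H := by
      intro x hx
      have : (⟨x, hx⟩ : alternatingGroup α) ∈ H.comap (alternatingGroup α).subtype := by rw [htop]; trivial
      exact this
    intro g _
    by_cases hg : g ∈ alternatingGroup α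
    · exact hAH hg
    · have : g * r ∈ alternatingGroup α := by
        rw [Subgroup.mul_mem_iff_of_index_two hidx]; tauto
      have := H.mul_mem (hAH this) (H.inv_mem hr)
      rwa [mul_inv_cancel_right] at this
  refine not_unique _ (H₁.comap (alternatingGroup α).subtype) (H₂.comap (alternatingGroup α).subtype)
    (hRle H₁ h1) (hRle H₂ h2) (hne H₁ (h1 hrP) h1') (hne H₂ (h2 hrP) h2') ?_
  rw [eq_top_iff]
  intro x _
  have hx := hle x.2
  have h3 : (H₁ ⊓ alternatingGroup α) ⊔ (H₂ ⊓ alternatingGroup α) =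
      (H₁.comap (alternatingGroup α).subtype ⊔ H₂.comap (alternatingGroup α).subtype).map
        (alternatingGroup α).subtype := by
    rw [Subgroup.map_sup, Subgroup.map_comap_eq, Subgroup.map_comap_eq, Subgroup.range_subtype,
      inf_comm, inf_comm (alternatingGroup α) H₂]
  rw [h3] at hx
  obtain ⟨y, hy, hyx⟩ := hx
  have : y = x := Subtype.ext hyx
  rw [← this]; exact hy

end NotUnique

end Cfsg.Agent.Lib.SylUniqMax
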