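import Mathlib
import Cfsg.Agent.Lib.SylUniqMax

set_option autoImplicit false

/-!
Degree 2^k+1: a Sylow 2-subgroup of `S_n`/`A_n` lies in a unique maximal subgroup (helper27).
-/

namespace Cfsg.Agent.Lib.SylUniqMax

open Equiv Equiv.Perm MulAction

theorem pow_dvd_orbit {G X : Type*} [Group G] [Finite G] [MulAction G X] {p k : ℕ} [Fact p.Prime]
    (P : Sylow p G) (x : X) (h : p ^ k ∣ (orbit G x).ncard) :
    p ^ k ∣ (orbit (P : Subgroup G) x).ncard := by
  obtain ⟨a, ha⟩ := (P.isPGroup'.to_subgroup (stabilizer (P : Subgroup G) x)).exists_card_eq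
  have h1 : p ^ a ∣ Nat.card (stabilizer G x) := by
    rw [← ha, ← Subgroup.card_map_of_injective (Subgroup.subtype_injective (P : Subgroup G))]
    apply Subgroup.card_dvd_of_le
    rintro _ ⟨g, hg, rfl⟩
    exact hg
  have h2 : p ^ (a + k) ∣ Nat.card G := by
    rw [pow_add, ← Subgroup.card_mul_index (stabilizer G x), index_stabilizer]
    exact mul_dvd_mul h1 h
  have h3 := P.pow_dvd_card_of_pow_dvd_card h2
  rw [← Subgroup.card_mul_index (stabilizer (P : Subgroup G) x), index_stabilizer, ha, pow_add] at h3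
  exact Nat.dvd_of_mul_dvd_mul_left (pow_pos (Fact.out : p.Prime).pos a) h3

variable {α : Type*} [Fintype α] [DecidableEq α]

theorem fix_and_trans {k : ℕ} (hk : 2 ≤ k) (hc : Nat.card α = 2 ^ k + 1) (P : Sylow 2 (Perm α)) :
    ∃ p : α, (∀ r ∈ (P : Subgroup (Perm α)), r p = p) ∧
      ∀ x y : α, x ≠ p → y ≠ p → ∃ r ∈ (P : Subgroup (Perm α)), r x = y := by
  have : Fact (Nat.Prime 2) := ⟨Nat.prime_two⟩
  have hfp : (fixedPoints (P : Subgroup (Perm α)) α).Nonempty := by
    apply P.isPGroup'.nonempty_fixed_point_of_prime_not_dvd_card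
    rw [hc]
    intro h
    have h1 : 2 ∣ 2 ^ k := dvd_pow_self 2 (by omega)
    have := (Nat.dvd_add_right h1).1 h
    omega
  obtain ⟨p, hp⟩ := hfp
  have hp' : ∀ r ∈ (P : Subgroup (Perm α)), r p = p := fun r hr => hp ⟨r, hr⟩
  refine ⟨p, hp', fun x y hx hy => ?_⟩
  -- orbit of (p, x)
  have horb : (orbit (Perm α) ((p, x) : α × α)) = {z : α × α | z.1 ≠ z.2} := by
    ext ⟨a, b⟩
    simp only [Set.mem_setOf_eq]
    constructor
    · rintro ⟨g, hg⟩
      have h1 : g p = a := congrArg Prod.fst hg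
      have h2 : g x = b := congrArg Prod.snd hg
      rw [← h1, ← h2]
      exact fun h => hx (g.injective h).symm
    · intro hab
      have h2t : IsMultiplyPretransitive (Perm α) α 2 := Equiv.Perm.isMultiplyPretransitive α 2
      rw [is_two_pretransitive_iff] at h2t
      obtain ⟨g, h1, h2⟩ := h2t (Ne.symm hx) hab
      exact ⟨g, Prod.ext h1 h2⟩
  have hcard : (orbit (Perm α) ((p, x) : α × α)).ncard = Nat.card α * (Nat.card α - 1) := by
    rw [horb]
    have h1 : {z : α × α | z.1 ≠ z.2} = ((Finset.univ : Finset α).offDiag : Set (α × α)) := by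
      ext z; simp
    rw [h1, Set.ncard_coe_finset, Finset.offDiag_card, Finset.card_univ, ← Nat.card_eq_fintype_card,
      Nat.mul_sub, mul_one]
  have hdvd : 2 ^ k ∣ (orbit (Perm α) ((p, x) : α × α)).ncard := by
    rw [hcard, hc, Nat.add_sub_cancel]
    exact dvd_mul_left _ _
  have h1 := pow_dvd_orbit P ((p, x) : α × α) hdvd
  have hsub : orbit (P : Subgroup (Perm α)) ((p, x) : α × α) ⊆ (fun b => (p, b)) '' ({p}ᶜ : Set α) := by
    rintro _ ⟨r, rfl⟩
    refine ⟨(r : Perm α) x, ?_, ?_⟩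
    · intro h
      rw [Set.mem_singleton_iff] at h
      exact hx ((r : Perm α).injective (h.trans (hp' r r.2).symm))
    · exact Prod.ext (hp' r r.2).symm rfl
  have hcT : ((fun b => (p, b)) '' ({p}ᶜ : Set α)).ncard = 2 ^ k := by
    rw [Set.ncard_image_of_injective _ (fun a b h => (Prod.mk.inj h).2), Set.ncard_compl, Set.ncard_singleton, hc,
      Nat.add_sub_cancel]
  have hpos : 0 < (orbit (P : Subgroup (Perm α)) ((p, x) : α × α)).ncard := by
    rw [Set.ncard_pos]; exact ⟨_, mem_orbit_self _⟩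
  have heq : orbit (P : Subgroup (Perm α)) ((p, x) : α × α) = (fun b => (p, b)) '' ({p}ᶜ : Set α) :=
    Set.eq_of_subset_of_ncard_le hsub (by rw [hcT]; exact Nat.le_of_dvd hpos h1)
  have hy' : ((p, y) : α × α) ∈ orbit (P : Subgroup (Perm α)) ((p, x) : α × α) := by
    rw [heq]; exact ⟨y, hy, rfl⟩
  obtain ⟨r, hr⟩ := hy'
  exact ⟨r, r.2, congrArg Prod.snd hr⟩

theorem exists_swap (h2 : 2 ≤ Nat.card α) (P : Sylow 2 (Perm α)) :
    ∃ a b : α, a ≠ b ∧ swap a b ∈ (P : Subgroup (Perm α)) := by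
  have : Fact (Nat.Prime 2) := ⟨Nat.prime_two⟩
  have hnt : Nontrivial α := Finite.one_lt_card_iff_nontrivial.1 (by omega)
  obtain ⟨x, y, hxy⟩ := hnt
  have h1 : IsPGroup 2 (Subgroup.zpowers (swap x y)) := by
    apply IsPGroup.of_card (n := 1)
    rw [Nat.card_zpowers, pow_one, orderOf_eq_prime_iff]
    exact ⟨by rw [pow_two, swap_mul_self], fun h => hxy (swap_eq_one_iff.1 h)⟩
  obtain ⟨Q, hQ⟩ := h1.exists_le_sylow
  obtain ⟨g, hg⟩ := exists_smul_eq (Perm α) Q P
  refine ⟨g x, g y, fun h => hxy (g.injective h), ?_⟩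
  rw [swap_apply_apply, ← hg, Sylow.coe_subgroup_smul]
  exact Subgroup.smul_mem_pointwise_smul _ (MulAut.conj g) _ (hQ (Subgroup.mem_zpowers _))

/-- swaps in a 2-group are disjoint or equal -/
theorem swap_disj (P : Subgroup (Perm α)) (hP : IsPGroup 2 P) {a b c : α} (hab : a ≠ b) (hac : a ≠ c)
    (h1 : swap a b ∈ P) (h2 : swap a c ∈ P) : b = c := by
  by_contra hbc
  have : Fact (Nat.Prime 2) := ⟨Nat.prime_two⟩
  have h3 := isThreeCycle_swap_mul_swap_same hab hac hbc
  have h4 : orderOf (⟨swap a b * swap a c, P.mul_mem h1 h2⟩ : P) = 3 := by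
    rw [Subgroup.orderOf_mk]; exact h3.orderOf
  obtain ⟨j, hj⟩ := hP (⟨swap a b * swap a c, P.mul_mem h1 h2⟩ : P)
  have h5 := orderOf_dvd_of_pow_eq_one hj
  rw [h4] at h5
  have := (Nat.prime_dvd_prime_iff_eq Nat.prime_three Nat.prime_two).1 (Nat.prime_three.dvd_of_dvd_pow h5)
  omega

theorem partner {k : ℕ} (hk : 2 ≤ k) (hc : Nat.card α = 2 ^ k + 1) (P : Sylow 2 (Perm α)) {p : α}
    (hp : ∀ r ∈ (P : Subgroup (Perm α)), r p = p)
    (ht : ∀ x y : α, x ≠ p → y ≠ p → ∃ r ∈ (P : Subgroup (Perm α)), r x = y) (x : α) (hx : x ≠ p) :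
    ∃ y, y ≠ x ∧ y ≠ p ∧ swap x y ∈ (P : Subgroup (Perm α)) := by
  have h4 : 4 ≤ 2 ^ k := by
    calc 4 = 2 ^ 2 := by norm_num
      _ ≤ 2 ^ k := Nat.pow_le_pow_right (by norm_num) hk
  obtain ⟨a, b, hab, h⟩ := exists_swap (by omega) P
  have hap : a ≠ p := by
    intro h1
    have := hp _ h
    rw [← h1, swap_apply_left] at this
    exact hab this.symm
  have hbp : b ≠ p := by
    intro h1
    have := hp _ h
    rw [← h1, swap_apply_right] at this
    exact hab this
  obtain ⟨r, hr, hra⟩ := ht a x hap hx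
  refine ⟨r b, ?_, ?_, ?_⟩
  · rw [← hra]; exact fun h1 => hab (r.injective h1).symm
  · intro h1
    exact hbp (r.injective (h1.trans (hp r hr).symm))
  · rw [← hra, swap_apply_apply]
    exact (P : Subgroup (Perm α)).mul_mem ((P : Subgroup (Perm α)).mul_mem hr h) ((P : Subgroup (Perm α)).inv_mem hr)

/-- primitivity of an overgroup moving the fixed point -/
theorem prim (M R : Subgroup (Perm α)) (hRM : R ≤ M) {p : α} (hp : ∀ r ∈ R, r p = p)
    (ht : ∀ x y : α, x ≠ p → y ≠ p → ∃ r ∈ R, r x = y) (hm : ∃ m ∈ M, m p ≠ p) :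
    IsMultiplyPretransitive M α 2 := by
  obtain ⟨m, hm, hmp⟩ := hm
  have htop : ∀ a, ∃ g ∈ M, g a = p := by
    intro a
    by_cases ha : a = p
    · exact ⟨1, M.one_mem, by simpa using ha⟩
    · obtain ⟨r, hr, hra⟩ := ht a (m p) ha hmp
      refine ⟨m⁻¹ * r, M.mul_mem (M.inv_mem hm) (hRM hr), ?_⟩
      rw [mul_apply, hra]; exact Equiv.symm_apply_apply _ _
  rw [is_two_pretransitive_iff]
  intro a b c d hab hcd
  obtain ⟨g, hg, hga⟩ := htop a
  obtain ⟨h, hh, hhc⟩ := htop c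
  obtain ⟨r, hr, hrr⟩ := ht (g b) (h d) (by rw [← hga]; exact fun e => hab (g.injective e).symm)
    (by rw [← hhc]; exact fun e => hcd (h.injective e).symm)
  refine ⟨⟨h⁻¹ * r * g, M.mul_mem (M.mul_mem (M.inv_mem hh) (hRM hr)) hg⟩, ?_, ?_⟩
  · change (h⁻¹ * r * g) a = c
    rw [mul_apply, mul_apply, hga, hp r hr, ← hhc]; exact Equiv.symm_apply_apply _ _
  · change (h⁻¹ * r * g) b = d
    rw [mul_apply, mul_apply, hrr]; exact Equiv.symm_apply_apply _ _

theorem sym_unique {k : ℕ} (hk : 2 ≤ k) (hc : Nat.card α = 2 ^ k + 1) (P : Sylow 2 (Perm α)) :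
    ∃! M : Subgroup (Perm α), IsCoatom M ∧ (P : Subgroup (Perm α)) ≤ M := by
  have h4 : 4 ≤ 2 ^ k := by
    calc 4 = 2 ^ 2 := by norm_num
      _ ≤ 2 ^ k := Nat.pow_le_pow_right (by norm_num) hk
  obtain ⟨p, hp, ht⟩ := fix_and_trans hk hc P
  have hnt : Nontrivial α := Finite.one_lt_card_iff_nontrivial.1 (by omega)
  obtain ⟨q, hq⟩ := exists_ne p
  have key : ∀ M : Subgroup (Perm α), IsCoatom M → (P : Subgroup (Perm α)) ≤ M → M = stabilizer (Perm α) p := by
    intro M hM hPM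
    have h1 : M ≤ stabilizer (Perm α) p := by
      by_contra hle
      have h2 : ∃ m ∈ M, m p ≠ p := by
        rw [SetLike.le_def] at hle
        push Not at hle
        exact hle
      have h3 := isPreprimitive_of_is_two_pretransitive (prim M P hPM hp ht h2)
      obtain ⟨a, b, hab, hs⟩ := exists_swap (by omega) P
      exact hM.1 (subgroup_eq_top_of_isPreprimitive_of_isSwap_mem h3 (swap a b) ⟨a, b, hab, rfl⟩ (hPM hs))
    rcases hM.le_iff.1 h1 with h | h
    · exfalso
      have : swap p q ∈ stabilizer (Perm α) p := by rw [h]; trivial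
      rw [mem_stabilizer_iff] at this
      have h5 : swap p q p = p := this
      rw [swap_apply_left] at h5
      exact hq h5
    · exact h.symm
  have hPne : (P : Subgroup (Perm α)) ≠ ⊤ := by
    intro h
    have : swap p q ∈ (P : Subgroup (Perm α)) := by rw [h]; trivial
    have := hp _ this
    rw [swap_apply_left] at this
    exact hq this
  obtain ⟨M, hM, hPM⟩ := (eq_top_or_exists_le_coatom (P : Subgroup (Perm α))).resolve_left hPne
  exact ⟨M, ⟨hM, hPM⟩, fun N hN => (key N hN.1 hN.2).trans (key M hM hPM).symm⟩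

end Cfsg.Agent.Lib.SylUniqMax
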