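import Mathlib
import Cfsg.Agent.Lib.SylUniqMax2

set_option autoImplicit false

/-!
Degree 2^k+1: a Sylow 2-subgroup of `A_n` lies in a unique maximal subgroup (helper27).
-/

namespace Cfsg.Agent.Lib.SylUniqMax

open Equiv Equiv.Perm MulAction

variable {α : Type*} [Fintype α] [DecidableEq α]

omit [Fintype α] in
theorem comm4 {a b c d : α} (h1 : a ≠ c) (h2 : a ≠ d) (h3 : b ≠ c) (h4 : b ≠ d) :
    Commute (swap a b) (swap c d) := by
  change swap a b * swap c d = swap c d * swap a b
  rw [mul_swap_eq_swap_mul, swap_apply_of_ne_of_ne h1.symm h3.symm, swap_apply_of_ne_of_ne h2.symm h4.symm]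

theorem c0 (M : Subgroup (Perm α)) {x x1 y z x' q q' : α} (hxx1 : x ≠ x1) (hxy : x ≠ y) (hxz : x ≠ z)
    (hx1y : x1 ≠ y) (hx1z : x1 ≠ z) (hx'x : x' ≠ x) (hx'1 : x' ≠ x1) (hx'y : x' ≠ y) (hx'z : x' ≠ z)
    (hqx : q ≠ x) (hq1 : q ≠ x1) (hqy : q ≠ y) (hqz : q ≠ z) (hqx' : q ≠ x')
    (hqx_ : q' ≠ x) (hq1_ : q' ≠ x1) (hqy_ : q' ≠ y) (hqz_ : q' ≠ z) (hqx'_ : q' ≠ x')
    (ht : swap x x1 * swap y z ∈ M) (hs : swap x x' * swap q q' ∈ M) :
    ∃ g ∈ M, IsThreeCycle g := by
  set A := swap x x1 with hA
  set B := swap y z with hB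
  set C := swap x x' with hC
  set D := swap q q' with hD
  have hBC : Commute B C := (comm4 hxy hxz hx'y hx'z).symm
  have hBA : Commute B A := (comm4 hxy hxz hx1y hx1z).symm
  have hDA : Commute D A := comm4 hqx hq1 hqx_ hq1_
  have hDC : Commute D C := comm4 hqx hqx' hqx_ hqx'_
  have hBD : Commute B D := (comm4 hqy hqz hqy_ hqz_).symm
  have e1 : A * B * (C * D) = (A * C) * (B * D) := by
    rw [mul_assoc, ← mul_assoc B C D, hBC.eq, mul_assoc, ← mul_assoc, mul_assoc A C]
  have e2 : Commute (A * C) (B * D) := by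
    refine Commute.mul_left ?_ ?_
    · exact Commute.mul_right hBA.symm hDA.symm
    · exact Commute.mul_right hBC.symm hDC.symm
  have e3 : (B * D) ^ 2 = 1 := by
    rw [hBD.mul_pow, pow_two, pow_two, hB, hD, swap_mul_self, swap_mul_self, one_mul]
  refine ⟨(A * B * (C * D)) ^ 2, M.pow_mem (M.mul_mem ht hs) 2, ?_⟩
  rw [e1, e2.mul_pow, e3, mul_one, pow_two]
  exact (isThreeCycle_swap_mul_swap_same hxx1 hx'x.symm hx'1.symm).isThreeCycle_sq

theorem exists_three_cycle (M : Subgroup (Perm α)) (P : Subgroup (Perm α)) (hP : IsPGroup 2 P) {p : α}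
    (h8 : 8 ≤ Nat.card α) (hpart : ∀ x, x ≠ p → ∃ y, y ≠ x ∧ y ≠ p ∧ swap x y ∈ P)
    (hPM : P ⊓ alternatingGroup α ≤ M) {u v w : α} (hup : u ≠ p) (hvp : v ≠ p) (hwp : w ≠ p)
    (huv : u ≠ v) (huw : u ≠ w) (hvw : v ≠ w) (ht : swap p u * swap v w ∈ M) :
    ∃ g ∈ M, IsThreeCycle g := by
  obtain ⟨u', hu1, hu2, hu3⟩ := hpart u hup
  obtain ⟨v', hv1, hv2, hv3⟩ := hpart v hvp
  obtain ⟨w', hw1, hw2, hw3⟩ := hpart w hwp
  obtain ⟨q, hq⟩ : ∃ q : α, q ∉ ({p, u, v, w, u', v', w'} : Finset α) := by
    by_contra h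
    push Not at h
    have : (Finset.univ : Finset α) ⊆ {p, u, v, w, u', v', w'} := fun x _ => h x
    have h1 := Finset.card_le_card this
    have h2 : ({p, u, v, w, u', v', w'} : Finset α).card ≤ 7 :=
      (Finset.card_insert_le _ _).trans (Nat.succ_le_succ Finset.card_le_six)
    rw [Finset.card_univ, ← Nat.card_eq_fintype_card] at h1
    omega
  simp only [Finset.mem_insert, Finset.mem_singleton, not_or] at hq
  obtain ⟨hqp, hqu, hqv, hqw, hqu', hqv', hqw'⟩ := hq
  obtain ⟨q', hq1, hq2, hq3⟩ := hpart q hqp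
  have huniq : ∀ a b c : α, a ≠ b → a ≠ c → swap a b ∈ P → swap a c ∈ P → b = c :=
    fun a b c h1 h2 h3 h4 => swap_disj P hP h1 h2 h3 h4
  -- the partner of `q` avoids everything
  have hinv : ∀ a b : α, swap a b ∈ P → swap b a ∈ P := fun a b h => by rwa [swap_comm]
  have hq'u : q' ≠ u := fun h => by
    subst h; exact hqu' (huniq q' q u' hq1 hu1.symm (hinv _ _ hq3) hu3)
  have hq'v : q' ≠ v := fun h => by
    subst h; exact hqv' (huniq q' q v' hq1 hv1.symm (hinv _ _ hq3) hv3)
  have hq'w : q' ≠ w := fun h => by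
    subst h; exact hqw' (huniq q' q w' hq1 hw1.symm (hinv _ _ hq3) hw3)
  have hq'u' : q' ≠ u' := fun h => by
    subst h; exact hqu (huniq q' q u hq1 hu1 (hinv _ _ hq3) (hinv _ _ hu3))
  have hq'v' : q' ≠ v' := fun h => by
    subst h; exact hqv (huniq q' q v hq1 hv1 (hinv _ _ hq3) (hinv _ _ hv3))
  have hq'w' : q' ≠ w' := fun h => by
    subst h; exact hqw (huniq q' q w hq1 hw1 (hinv _ _ hq3) (hinv _ _ hw3))
  have heven : ∀ a b c d : α, a ≠ b → c ≠ d → swap a b ∈ P → swap c d ∈ P → swap a b * swap c d ∈ M := by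
    intro a b c d hab hcd h1 h2
    refine hPM ⟨P.mul_mem h1 h2, ?_⟩
    change sign (swap a b * swap c d) = 1
    rw [Perm.sign_mul, sign_swap hab, sign_swap hcd]; rfl
  by_cases h1 : u' = v
  · -- use `w`
    subst h1
    have h2 : w' ≠ u := fun h => by
      subst h; exact hvw (huniq w' u' w hu1.symm hw1 hu3 (hinv _ _ hw3))
    have h3 : w' ≠ u' := fun h => by
      subst h; exact huw (huniq w' u w hu1 hw1 (hinv _ _ hu3) (hinv _ _ hw3))
    have ht' : swap w u' * swap p u ∈ M := by
      rw [swap_comm w u', (comm4 (a := u') (b := w) (c := p) (d := u) hvp hu1 hwp huw.symm).eq]; exact ht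
    exact c0 M (x := w) (x1 := u') (y := p) (z := u) (x' := w') (q := q) (q' := q')
      hvw.symm hwp huw.symm hvp hu1 hw1 h3 hw2 h2 hqw hqv hqp hqu hqw' hq'w hq'v hq2 hq'u hq'w' ht'
      (heven _ _ _ _ hw1.symm hq1.symm hw3 hq3)
  · by_cases h1' : u' = w
    · subst h1'
      have h2 : v' ≠ u := fun h => by
        subst h; exact hvw (huniq v' v u' hv1 huw (hinv _ _ hv3) hu3)
      have h3 : v' ≠ u' := fun h => by
        subst h; exact huv (huniq v' u v hu1 hv1 (hinv _ _ hu3) (hinv _ _ hv3))
      have ht' : swap v u' * swap p u ∈ M := by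
        rw [(comm4 (a := v) (b := u') (c := p) (d := u) hvp huv.symm hwp hu1).eq]; exact ht
      exact c0 M (x := v) (x1 := u') (y := p) (z := u) (x' := v') (q := q) (q' := q')
        hvw hvp huv.symm hwp hu1 hv1 h3 hv2 h2 hqv hqw hqp hqu hqv' hq'v hq'w hq2 hq'u hq'v' ht'
        (heven _ _ _ _ hv1.symm hq1.symm hv3 hq3)
    · have ht' : swap u p * swap v w ∈ M := by rw [swap_comm u p]; exact ht
      exact c0 M (x := u) (x1 := p) (y := v) (z := w) (x' := u') (q := q) (q' := q')
        hup huv huw hvp.symm hwp.symm hu1 hu2 h1 h1' hqu hqp hqv hqw hqu' hq'u hq2 hq'v hq'w hq'u' ht'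
        (heven _ _ _ _ hu1.symm hq1.symm hu3 hq3)

theorem trans_even {k : ℕ} (hk : 2 ≤ k) (hc : Nat.card α = 2 ^ k + 1) (P : Sylow 2 (Perm α)) {p : α}
    (hp : ∀ r ∈ (P : Subgroup (Perm α)), r p = p)
    (ht : ∀ x y : α, x ≠ p → y ≠ p → ∃ r ∈ (P : Subgroup (Perm α)), r x = y) :
    ∀ x y : α, x ≠ p → y ≠ p → ∃ r ∈ (P : Subgroup (Perm α)) ⊓ alternatingGroup α, r x = y := by
  have h4 : 4 ≤ 2 ^ k := by
    calc 4 = 2 ^ 2 := by norm_num
      _ ≤ 2 ^ k := Nat.pow_le_pow_right (by norm_num) hk
  intro x y hx hy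
  obtain ⟨r, hr, hrx⟩ := ht x y hx hy
  by_cases hrA : r ∈ alternatingGroup α
  · exact ⟨r, ⟨hr, hrA⟩, hrx⟩
  · have hpart := partner hk hc P hp ht
    obtain ⟨x', hx'1, hx'2, hx'3⟩ := hpart x hx
    obtain ⟨u, hu⟩ : ∃ u : α, u ∉ ({p, x, x'} : Finset α) := by
      by_contra h
      push Not at h
      have : (Finset.univ : Finset α) ⊆ {p, x, x'} := fun x _ => h x
      have h1 := Finset.card_le_card this
      have h2 : ({p, x, x'} : Finset α).card ≤ 3 := Finset.card_le_three
      rw [Finset.card_univ, ← Nat.card_eq_fintype_card] at h1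
      omega
    simp only [Finset.mem_insert, Finset.mem_singleton, not_or] at hu
    obtain ⟨hup, hux, hux'⟩ := hu
    obtain ⟨v, hv1, hv2, hv3⟩ := hpart u hup
    have hvx : v ≠ x := by
      intro h
      subst h
      apply hux'
      exact swap_disj P P.isPGroup' hv1 hx'1.symm (by rwa [swap_comm]) hx'3
    refine ⟨r * swap u v, ⟨(P : Subgroup (Perm α)).mul_mem hr hv3, ?_⟩, ?_⟩
    · change sign (r * swap u v) = 1
      rw [Perm.sign_mul, sign_swap hv1.symm]
      have h5 : sign r ≠ 1 := hrA
      rcases Int.units_eq_one_or (sign r) with h6 | h6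
      · exact absurd h6 h5
      · rw [h6]; rfl
    · rw [mul_apply, swap_apply_of_ne_of_ne (Ne.symm hux) hvx.symm, hrx]

theorem alt_unique {k : ℕ} (hk : 2 ≤ k) (hc : Nat.card α = 2 ^ k + 1) (R : Sylow 2 (alternatingGroup α)) :
    ∃! M : Subgroup (alternatingGroup α), IsCoatom M ∧ (R : Subgroup (alternatingGroup α)) ≤ M := by
  classical
  have h4 : 4 ≤ 2 ^ k := by
    calc 4 = 2 ^ 2 := by norm_num
      _ ≤ 2 ^ k := Nat.pow_le_pow_right (by norm_num) hk
  have : Fact (Nat.Prime 2) := ⟨Nat.prime_two⟩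
  obtain ⟨P, hPR⟩ := exists_sylow R
  obtain ⟨p, hp, ht⟩ := fix_and_trans hk hc P
  have hpart := partner hk hc P hp ht
  have htA := trans_even hk hc P hp ht
  have hnt : Nontrivial α := Finite.one_lt_card_iff_nontrivial.1 (by omega)
  -- a 3-cycle moving p
  obtain ⟨c3, hc3, hc3p⟩ : ∃ c ∈ alternatingGroup α, c p ≠ p := by
    obtain ⟨q, hq⟩ := exists_ne p
    obtain ⟨s, hs⟩ : ∃ s : α, s ∉ ({p, q} : Finset α) := by
      by_contra h
      push Not at h
      have : (Finset.univ : Finset α) ⊆ {p, q} := fun x _ => h x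
      have h1 := Finset.card_le_card this
      have h2 : ({p, q} : Finset α).card ≤ 2 := Finset.card_le_two
      rw [Finset.card_univ, ← Nat.card_eq_fintype_card] at h1
      omega
    simp only [Finset.mem_insert, Finset.mem_singleton, not_or] at hs
    refine ⟨swap p q * swap p s, ?_, ?_⟩
    · change sign (swap p q * swap p s) = 1
      rw [Perm.sign_mul, sign_swap hq.symm, sign_swap (Ne.symm hs.1)]; rfl
    · rw [mul_apply, swap_apply_left, swap_apply_of_ne_of_ne hs.1 hs.2]; exact hs.1
  have hRP : ∀ x ∈ (R : Subgroup (alternatingGroup α)), (x : Perm α) ∈ (P : Subgroup (Perm α)) := by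
    intro x hx
    have : (x : Perm α) ∈ (P : Subgroup (Perm α)) ⊓ alternatingGroup α := by rw [← hPR]; exact ⟨x, hx, rfl⟩
    exact this.1
  let St : Subgroup (alternatingGroup α) := (stabilizer (Perm α) p).comap (alternatingGroup α).subtype
  have hSt : St ≠ ⊤ := by
    intro h
    have : (⟨c3, hc3⟩ : alternatingGroup α) ∈ St := by rw [h]; trivial
    exact hc3p this
  have key : ∀ M : Subgroup (alternatingGroup α), IsCoatom M → (R : Subgroup (alternatingGroup α)) ≤ M → M = St := by
    intro M hM hRM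
    have h1 : M ≤ St := by
      by_contra hle
      set M' : Subgroup (Perm α) := M.map (alternatingGroup α).subtype with hM'
      have hPM' : (P : Subgroup (Perm α)) ⊓ alternatingGroup α ≤ M' := by
        rw [← hPR]; exact Subgroup.map_mono hRM
      have h2 : ∃ m ∈ M', m p ≠ p := by
        rw [SetLike.le_def] at hle
        push Not at hle
        obtain ⟨m, hm, hmS⟩ := hle
        exact ⟨m, ⟨m, hm, rfl⟩, hmS⟩
      have h2t := prim M' _ hPM' (fun r hr => hp r hr.1) htA h2
      have hprim := isPreprimitive_of_is_two_pretransitive h2t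
      have hpt : IsPretransitive M' α := hprim.toIsPretransitive
      rcases Nat.lt_or_ge k 3 with hk3 | hk3
      · -- degree five
        have hk2 : k = 2 := by omega
        subst hk2
        norm_num at hc
        have h5 : Nat.card α = 5 := by rw [Nat.card_eq_fintype_card]; exact hc
        have h5M : 5 ∣ Nat.card M' := by
          obtain ⟨x, -⟩ := exists_ne p
          have h6 : (stabilizer M' x).index = Nat.card α := by
            rw [index_stabilizer, orbit_eq_univ, Set.ncard_univ]
          rw [← h5, ← h6]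
          exact Subgroup.index_dvd_card _
        have hcardM : Nat.card M' = Nat.card M :=
          Subgroup.card_map_of_injective (Subgroup.subtype_injective _)
        have hA60 : Nat.card (alternatingGroup α) = 60 := by
          have := two_mul_nat_card_alternatingGroup (α := α)
          rw [Nat.card_perm, h5] at this
          have h7 : Nat.factorial 5 = 120 := by decide
          omega
        have h4M : 4 ∣ Nat.card M := by
          have h7 : 2 ^ 2 ∣ Nat.card (alternatingGroup α) := by rw [hA60]; decide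
          have h8 := R.pow_dvd_card_of_pow_dvd_card h7
          exact (show 4 = 2 ^ 2 by norm_num) ▸ h8.trans (Subgroup.card_dvd_of_le hRM)
        have h20 : 20 ∣ Nat.card M := by
          rw [hcardM] at h5M
          exact Nat.Coprime.mul_dvd_of_dvd_of_dvd (by norm_num : Nat.Coprime 4 5) h4M h5M
        have hsimple : IsSimpleGroup (alternatingGroup α) := by
          exact alternatingGroup.isSimpleGroup (by omega)
        have hmul := Subgroup.card_mul_index M
        rw [hA60] at hmul
        have hle3 : M.index ≤ 3 := by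
          obtain ⟨c, hc'⟩ := h20
          rw [hc'] at hmul
          have hc0 : 0 < c := by
            rcases Nat.eq_zero_or_pos c with h0 | h0
            · rw [h0] at hmul; simp at hmul
            · exact h0
          nlinarith
        have h9 := BrauerFowler.card_le_factorial_index M hM.1
        rw [hA60] at h9
        have h10 : M.index.factorial ≤ Nat.factorial 3 := Nat.factorial_le hle3
        have h11 : Nat.factorial 3 = 6 := by decide
        omega
      · -- degree at least nine
        have h8 : 8 ≤ 2 ^ k := by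
          calc 8 = 2 ^ 3 := by norm_num
            _ ≤ 2 ^ k := Nat.pow_le_pow_right (by norm_num) hk3
        obtain ⟨a, ha⟩ := exists_ne p
        obtain ⟨a', ha'1, ha'2, ha'3⟩ := hpart a ha
        obtain ⟨b, hb⟩ : ∃ u : α, u ∉ ({p, a, a'} : Finset α) := by
          by_contra h
          push Not at h
          have : (Finset.univ : Finset α) ⊆ {p, a, a'} := fun x _ => h x
          have h1 := Finset.card_le_card this
          have h2 : ({p, a, a'} : Finset α).card ≤ 3 := Finset.card_le_three
          rw [Finset.card_univ, ← Nat.card_eq_fintype_card] at h1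
          omega
        simp only [Finset.mem_insert, Finset.mem_singleton, not_or] at hb
        obtain ⟨hbp, hba, hba'⟩ := hb
        obtain ⟨b', hb'1, hb'2, hb'3⟩ := hpart b hbp
        have hb'a : b' ≠ a := by
          intro h
          subst h
          exact hba' (swap_disj P P.isPGroup' hb'1 ha'1.symm (by rwa [swap_comm]) ha'3)
        have hb'a' : b' ≠ a' := by
          intro h
          subst h
          exact hba (swap_disj P P.isPGroup' hb'1 ha'1 (by rwa [swap_comm]) (by rwa [swap_comm]))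
        have ht0 : swap a a' * swap b b' ∈ M' := by
          refine hPM' ⟨(P : Subgroup (Perm α)).mul_mem ha'3 hb'3, ?_⟩
          change sign (swap a a' * swap b b') = 1
          rw [Perm.sign_mul, sign_swap ha'1.symm, sign_swap hb'1.symm]; rfl
        obtain ⟨⟨m, hm⟩, hma⟩ := exists_smul_eq M' a p
        have hma' : m a = p := hma
        have ht1 : swap p (m a') * swap (m b) (m b') ∈ M' := by
          have h1 : swap p (m a') * swap (m b) (m b') = m * (swap a a' * swap b b') * m⁻¹ := by
            rw [← hma', swap_apply_apply, swap_apply_apply]; group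
          rw [h1]
          exact M'.mul_mem (M'.mul_mem hm ht0) (M'.inv_mem hm)
        obtain ⟨g, hg, hg3⟩ := exists_three_cycle M' P P.isPGroup' (by omega) hpart hPM'
          (u := m a') (v := m b) (w := m b')
          (by rw [← hma']; exact fun e => ha'1 (m.injective e))
          (by rw [← hma']; exact fun e => hba (m.injective e))
          (by rw [← hma']; exact fun e => hb'a (m.injective e))
          (fun e => hba' (m.injective e).symm)
          (fun e => hb'a' (m.injective e).symm)
          (fun e => hb'1 (m.injective e).symm) ht1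
        have hA := alternatingGroup_le_of_isPreprimitive_of_isThreeCycle_mem hprim hg3 hg
        apply hM.1
        rw [eq_top_iff]
        intro x _
        obtain ⟨y, hy, hyx⟩ := hA x.2
        have : y = x := Subtype.ext hyx
        rw [← this]; exact hy
    rcases hM.le_iff.1 h1 with h | h
    · exact absurd h hSt
    · exact h.symm
  have hRne : (R : Subgroup (alternatingGroup α)) ≠ ⊤ := by
    intro h
    have h1 : (⟨c3, hc3⟩ : alternatingGroup α) ∈ (R : Subgroup (alternatingGroup α)) := by rw [h]; trivial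
    exact hc3p (hp _ (hRP _ h1))
  obtain ⟨M, hM, hPM⟩ := (eq_top_or_exists_le_coatom (R : Subgroup (alternatingGroup α))).resolve_left hRne
  exact ⟨M, ⟨hM, hPM⟩, fun N hN => (key N hN.1 hN.2).trans (key M hM hPM).symm⟩

theorem main (n : ℕ) (hn : 5 ≤ n) :
    ((∀ R : Sylow 2 ↥(alternatingGroup (Fin n)), (∃! M : Subgroup ↥(alternatingGroup (Fin n)), IsCoatom M ∧ (R : Subgroup ↥(alternatingGroup (Fin n))) ≤ M) ↔ ∃ k : ℕ, 2 ≤ k ∧ n = 2 ^ k + 1) ∧
    (∀ R : Sylow 2 (Equiv.Perm (Fin n)), (∃! M : Subgroup (Equiv.Perm (Fin n)), IsCoatom M ∧ (R : Subgroup (Equiv.Perm (Fin n))) ≤ M) ↔ ∃ k : ℕ, 2 ≤ k ∧ n = 2 ^ k + 1)) := by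
  have hc : Nat.card (Fin n) = n := by rw [Nat.card_eq_fintype_card, Fintype.card_fin]
  constructor
  · intro R
    constructor
    · intro h
      by_contra hk
      exact alt_not_unique (α := Fin n) (by rw [hc]; exact hn) (by rw [hc]; exact hk) R h
    · rintro ⟨k, hk, hkn⟩
      exact alt_unique hk (by rw [hc]; exact hkn) R
  · intro R
    constructor
    · intro h
      by_contra hk
      exact sym_not_unique (α := Fin n) (by rw [hc]; exact hn) (by rw [hc]; exact hk) R h
    · rintro ⟨k, hk, hkn⟩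
      exact sym_unique hk (by rw [hc]; exact hkn) R

end Cfsg.Agent.Lib.SylUniqMax
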