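import Cfsg.Agent.Lib.SylowGraph
import Cfsg.Agent.Lib.CoprimeGen
import Cfsg.Agent.Lib.H23Nilp
import Cfsg.Agent.Lib.UniqueInvolution
import Cfsg.Agent.Lib.H55Quat

/-!
Strongly `p`-embedded subgroups: normal `p'`-subgroups and elementary abelian subgroups of rank 2. (helper51)
-/

set_option autoImplicit false

namespace Cfsg.Agent.Lib.SylowGraph

open Subgroup
open Cfsg.Agent.Lib.LocBase
open scoped Pointwise

variable {G : Type*} [Group G] [Finite G] {p : ℕ} [hp : Fact p.Prime]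

omit [Finite G] in
theorem isPGroup_zpowers_of_pow {x : G} (hx : x ^ p = 1) : IsPGroup p (zpowers x) := by
  intro g
  refine ⟨1, ?_⟩
  obtain ⟨g, k, rfl⟩ := g
  apply Subtype.ext
  simp only [pow_one, Subgroup.coe_pow, Subgroup.coe_one]
  rw [← zpow_natCast, ← zpow_mul, mul_comm, zpow_mul, zpow_natCast, hx, one_zpow]

/-- The group generated by commuting `x, y` of order `p`, `y ∉ ⟨x⟩`. -/
theorem rank_two_props {x y : G} (hxp : orderOf x = p) (hyp : orderOf y = p) (hxy : x * y = y * x)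
    (hn : y ∉ zpowers x) :
    IsMulCommutative (closure {x, y} : Subgroup G) ∧ ¬ IsCyclic (closure {x, y} : Subgroup G) ∧
      (∀ e ∈ (closure {x, y} : Subgroup G), e ^ p = 1) := by
  have h1 : IsMulCommutative (closure {x, y} : Subgroup G) := by
    apply Subgroup.isMulCommutative_closure
    rintro a (rfl | rfl) b (rfl | rfl)
    · rfl
    · exact hxy
    · exact hxy.symm
    · rfl
  have hcomm : ∀ a ∈ (closure {x, y} : Subgroup G), ∀ b ∈ (closure {x, y} : Subgroup G), a * b = b * a :=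
    fun a ha b hb => isMulCommutative_iff_of_setLike.mp h1 a ha b hb
  refine ⟨h1, ?_, ?_⟩
  · intro hc
    apply hn
    have hx : x ∈ (closure {x, y} : Subgroup G) := subset_closure (by simp)
    have hy : y ∈ (closure {x, y} : Subgroup G) := subset_closure (by simp)
    have h2 : (⟨y, hy⟩ : (closure {x, y} : Subgroup G)) ∈ zpowers (⟨x, hx⟩ : (closure {x, y} : Subgroup G)) := by
      apply Cfsg.Agent.Lib.H23Nilp.mem_zpowers_of_orderOf_dvd
      rw [Subgroup.orderOf_mk, Subgroup.orderOf_mk, hxp, hyp]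
    obtain ⟨k, hk⟩ := h2
    exact ⟨k, by simpa using congrArg Subtype.val hk⟩
  · intro e he
    induction he using Subgroup.closure_induction with
    | mem e he =>
      rcases he with rfl | rfl
      · rw [← hxp]; exact pow_orderOf_eq_one _
      · rw [← hyp]; exact pow_orderOf_eq_one _
    | one => exact one_pow _
    | mul a b ha hb iha ihb =>
      rw [(show Commute a b from hcomm a ha b hb).mul_pow, iha, ihb, one_mul]
    | inv a ha iha => rw [inv_pow, iha, inv_one]

/-- A strongly `p`-embedded subgroup with commuting `x, y` of order `p`, `y ∉ ⟨x⟩`, contains all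
normal `p'`-subgroups. -/
theorem SPE.le_of_rank_two {H : Subgroup G} (hH : SPE p H) {x y : G} (hx : x ∈ H) (hy : y ∈ H)
    (hxp : orderOf x = p) (hyp : orderOf y = p) (hxy : x * y = y * x) (hn : y ∉ zpowers x)
    {K : Subgroup G} [K.Normal] (hK : ¬ p ∣ Nat.card K) : K ≤ H := by
  obtain ⟨h1, h2, h3⟩ := rank_two_props hxp hyp hxy hn
  set E : Subgroup G := closure {x, y} with hE
  have hEH : E ≤ H := by
    rw [hE, closure_le]
    rintro a (rfl | rfl)
    · exact hx
    · exact hy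
  have hEp : IsPGroup p E := fun e => ⟨1, Subtype.ext (by simpa using h3 e e.2)⟩
  have hcop : (Nat.card E).Coprime (Nat.card K) := by
    obtain ⟨n, hn⟩ := IsPGroup.iff_card.mp hEp
    rw [hn]
    exact Nat.Coprime.pow_left _ ((Nat.Prime.coprime_iff_not_dvd hp.out).mpr hK)
  have h4 := CoprimeGen.iSup_centralizer_eq h1 h2 (K := K) (by rw [Subgroup.normalizer_eq_top]; exact le_top) hcop
  rw [← h4]
  refine iSup₂_le fun a ha => inf_le_right.trans ?_
  have ha1 : a ≠ 1 := ha.2
  have hap : a ^ p = 1 := h3 a ha.1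
  refine StrongPEmb.centralizer_le hH.strong (hEH ha.1) (isPGroup_zpowers_of_pow hap) ha1

theorem inf_eq_bot_of_not_dvd {S K : Subgroup G} (hS : IsPGroup p S) (hK : ¬ p ∣ Nat.card K) : S ⊓ K = ⊥ := by
  by_contra h
  exact hK ((dvd_card_of_isPGroup (hS.to_le inf_le_left) h).trans (Subgroup.card_dvd_of_le inf_le_right))

theorem exists_orderOf_eq {Q : Subgroup G} (hQ : IsPGroup p Q) (h1 : Q ≠ ⊥) : ∃ x ∈ Q, orderOf x = p := by
  obtain ⟨x, hx⟩ := exists_prime_orderOf_dvd_card' p (dvd_card_of_isPGroup hQ h1)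
  exact ⟨x, x.2, (Subgroup.orderOf_coe x).trans hx⟩

theorem SPE.dvd_card_inf {H : Subgroup G} (hH : SPE p H) {N M : Subgroup G} [hNn : N.Normal] [hMn : M.Normal]
    (hN : p ∣ Nat.card N) (hM : p ∣ Nat.card M) : p ∣ Nat.card ↥(N ⊓ M) := by
  by_contra hK
  obtain ⟨S, hS, -⟩ := hH.exists_sylow
  obtain ⟨h1, h1'⟩ := sylow_inf_ne_bot (S := S) hN
  obtain ⟨h2, h2'⟩ := sylow_inf_ne_bot (S := S) hM
  obtain ⟨x, hx, hxp⟩ := exists_orderOf_eq h1.pgroup h1'
  obtain ⟨y, hy, hyp⟩ := exists_orderOf_eq h2.pgroup h2'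
  have hcomm : ∀ a ∈ N, ∀ b ∈ M, a * b * a⁻¹ * b⁻¹ ∈ N ⊓ M := by
    intro a ha b hb
    refine ⟨?_, M.mul_mem (hMn.conj_mem b hb a) (M.inv_mem hb)⟩
    have h5 : a * b * a⁻¹ * b⁻¹ = a * (b * a⁻¹ * b⁻¹) := by group
    rw [h5]
    exact N.mul_mem ha (hNn.conj_mem _ (N.inv_mem ha) b)
  have hSK : (S : Subgroup G) ⊓ (N ⊓ M) = ⊥ := inf_eq_bot_of_not_dvd S.2 hK
  have hxy : x * y = y * x := by
    have h5 : x * y * x⁻¹ * y⁻¹ ∈ (S : Subgroup G) ⊓ (N ⊓ M) :=
      ⟨(S : Subgroup G).mul_mem ((S : Subgroup G).mul_mem ((S : Subgroup G).mul_mem hx.1 hy.1)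
        ((S : Subgroup G).inv_mem hx.1)) ((S : Subgroup G).inv_mem hy.1), hcomm x hx.2 y hy.2⟩
    rw [hSK, Subgroup.mem_bot] at h5
    have h6 : x * y * x⁻¹ = y := by
      rw [← mul_inv_eq_one]; exact h5
    calc x * y = (x * y * x⁻¹) * x := by group
      _ = y * x := by rw [h6]
  have hn : y ∉ zpowers x := by
    intro hyx
    have h5 : y ∈ (S : Subgroup G) ⊓ (N ⊓ M) := by
      refine ⟨hy.1, ?_, hy.2⟩
      exact (Subgroup.zpowers_le.mpr hx.2) hyx
    rw [hSK, Subgroup.mem_bot] at h5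
    rw [h5, orderOf_one] at hyp
    exact hp.out.one_lt.ne hyp
  have hKH : N ⊓ M ≤ H :=
    hH.le_of_rank_two (hS hx.1) (hS hy.1) hxp hyp hxy hn hK
  set P₁ : Subgroup G := (S : Subgroup G) ⊓ N with hP₁
  have hLn : M ≤ normalizer ((P₁ ⊔ (N ⊓ M) : Subgroup G) : Set G) := by
    intro m hm
    apply mem_normalizer_of_map_conj_le
    rw [Subgroup.map_sup, sup_le_iff]
    constructor
    · rintro _ ⟨a, ha, rfl⟩
      have h5 : m * a * m⁻¹ = (a * m * a⁻¹ * m⁻¹)⁻¹ * a := by group
      show m * a * m⁻¹ ∈ _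
      rw [h5]
      exact mul_mem (mem_sup_right (inv_mem (hcomm a ha.2 m hm))) (mem_sup_left ha)
    · rw [map_conj_eq_of_mem]
      · exact le_sup_right
      · rw [Subgroup.normalizer_eq_top]; exact mem_top m
  have hSylL : IsSyl p P₁ (P₁ ⊔ (N ⊓ M)) :=
    h1.of_le le_sup_left (sup_le inf_le_right inf_le_left)
  have hLH : P₁ ⊔ (N ⊓ M) ≤ H := sup_le (inf_le_left.trans hS) hKH
  have hMH : M ≤ H := by
    intro m hm
    obtain ⟨n, hn, z, hz, rfl⟩ := hSylL.frattini (H := M ⊔ (P₁ ⊔ (N ⊓ M))) le_sup_right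
      (sup_le hLn le_normalizer) (mem_sup_left hm)
    exact mul_mem (hLH hn) (hH.normalizer_le h1.pgroup h1' (inf_le_left.trans hS) hz.2)
  apply hH.1
  have h5 := hH.sup_pRes M hM
  rwa [sup_eq_left.mpr ((pRes_le p M).trans hMH)] at h5

/-- A `p`-group with an element of order `p` outside the group generated by another one
has commuting elements `x, y` of order `p` with `y ∉ ⟨x⟩`. -/
theorem exists_rank_two_of_not_unique {P : Subgroup G} (hP : IsPGroup p P)
    (h : ¬ ∀ x ∈ P, ∀ y ∈ P, orderOf x = p → orderOf y = p → y ∈ zpowers x) :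
    ∃ x ∈ P, ∃ y ∈ P, orderOf x = p ∧ orderOf y = p ∧ x * y = y * x ∧ y ∉ zpowers x := by
  push Not at h
  obtain ⟨x, hx, y, hy, hxp, hyp, hyx⟩ := h
  have hPnt : Nontrivial P := by
    refine ⟨⟨⟨x, hx⟩, 1, fun h1 => ?_⟩⟩
    have : x = 1 := congrArg Subtype.val h1
    rw [this, orderOf_one] at hxp
    exact hp.out.one_lt.ne hxp
  have hZnt : Nontrivial (center P) := hP.center_nontrivial
  obtain ⟨z, hz⟩ := exists_prime_orderOf_dvd_card' p (G := center P) (by
    rcases (hP.to_subgroup (center P)).card_eq_or_dvd with h1 | h1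
    · exact absurd h1 (Finite.one_lt_card (α := center P)).ne'
    · exact h1)
  set w : G := ((z : P) : G) with hw
  have hwp : orderOf w = p := by
    rw [hw, Subgroup.orderOf_coe, Subgroup.orderOf_coe]; exact hz
  have hwP : w ∈ P := (z : P).2
  have hwc : ∀ u ∈ P, w * u = u * w := by
    intro u hu
    exact (congrArg Subtype.val (mem_center_iff.mp z.2 ⟨u, hu⟩)).symm
  by_cases h1 : x ∈ zpowers w
  · refine ⟨w, hwP, y, hy, hwp, hyp, hwc y hy, fun h2 => hyx ?_⟩
    have h3 : zpowers x = zpowers w := by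
      apply Subgroup.eq_of_le_of_card_ge (Subgroup.zpowers_le.mpr h1)
      rw [Nat.card_zpowers, Nat.card_zpowers, hxp, hwp]
    rw [h3]; exact h2
  · exact ⟨w, hwP, x, hx, hwp, hxp, hwc x hx, h1⟩

/-- Unique subgroup of order `p` in cyclic and generalized quaternion groups. -/
theorem unique_of_cyclic_or_quaternion {P : Type*} [Group P] [Finite P]
    (h : IsCyclic P ∨ (p = 2 ∧ ∃ n : ℕ, Nonempty (P ≃* QuaternionGroup (2 ^ n)))) (x y : P)
    (hx : orderOf x = p) (hy : orderOf y = p) : y ∈ zpowers x := by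
  rcases h with h | ⟨rfl, n, ⟨e⟩⟩
  · exact Cfsg.Agent.Lib.H23Nilp.mem_zpowers_of_orderOf_dvd (by rw [hx, hy])
  · have : NeZero (2 ^ n) := ⟨by positivity⟩
    have h1 : e x = e y := by
      rw [H55Quat.eq_of_orderOf_two (2 ^ n) (x := e x) (by rw [MulEquiv.orderOf_eq]; exact hx),
        H55Quat.eq_of_orderOf_two (2 ^ n) (x := e y) (by rw [MulEquiv.orderOf_eq]; exact hy)]
    rw [← e.injective h1]
    exact mem_zpowers x

/-- If the Sylow `p`-subgroup has a unique subgroup of order `p` and `O_p(G) = 1`, `p ∣ |G|`, then its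
normalizer is strongly `p`-embedded. -/
theorem exists_SPE_of_unique (hdiv : p ∣ Nat.card G) (P : Sylow p G) (hcore : pCore p G = ⊥)
    (h : ∀ x ∈ (P : Subgroup G), ∀ y ∈ (P : Subgroup G), orderOf x = p → orderOf y = p → y ∈ zpowers x) :
    ∃ H : Subgroup G, SPE p H := by
  have hP1 : (P : Subgroup G) ≠ ⊥ := P.ne_bot_of_dvd_card hdiv
  obtain ⟨x, hx, hxp⟩ := exists_orderOf_eq P.2 hP1
  have hx1 : x ≠ 1 := by
    rintro rfl
    rw [orderOf_one] at hxp
    exact hp.out.one_lt.ne hxp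
  have heq : ∀ y ∈ (P : Subgroup G), orderOf y = p → zpowers y = zpowers x := by
    intro y hy hyp
    apply Subgroup.eq_of_le_of_card_ge (Subgroup.zpowers_le.mpr (h x hx y hy hxp hyp))
    rw [Nat.card_zpowers, Nat.card_zpowers, hxp, hyp]
  have hPH : (P : Subgroup G) ≤ normalizer (zpowers x : Set G) := by
    intro u hu
    apply mem_normalizer_of_map_conj_le
    rw [MonoidHom.map_zpowers, ← heq (u * x * u⁻¹) (mul_mem (mul_mem hu hx) (inv_mem hu))]
    · rfl
    · rw [← hxp]
      exact orderOf_injective (MulAut.conj u).toMonoidHom (MulAut.conj u).injective x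
  refine ⟨normalizer (zpowers x : Set G), ?_, ?_, ?_⟩
  · intro htop
    have hn : (zpowers x).Normal := Subgroup.normalizer_eq_top_iff.mp htop
    have h1 : zpowers x ≤ pCore p G := LocBase.le_pCore hn
      (isPGroup_zpowers_of_pow (by rw [← hxp]; exact pow_orderOf_eq_one x))
    rw [hcore, le_bot_iff, zpowers_eq_bot] at h1
    exact hx1 h1
  · exact (dvd_card_of_isPGroup P.2 hP1).trans (Subgroup.card_dvd_of_le hPH)
  · intro g hg hdvd
    apply hg
    obtain ⟨y', hy'⟩ := exists_prime_orderOf_dvd_card' p hdvd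
    obtain ⟨y, hydef⟩ : ∃ y : G, y = (y' : G) := ⟨_, rfl⟩
    have hyH : y ∈ normalizer (zpowers x : Set G) := by rw [hydef]; exact y'.2.1
    have hyg : y ∈ (normalizer (zpowers x : Set G)).map (MulAut.conj g).toMonoidHom := by
      rw [hydef]; exact y'.2.2
    have hy : orderOf y = p := by rw [hydef]; exact (Subgroup.orderOf_coe y').trans hy'
    have hSyl : IsSyl p (P : Subgroup G) (normalizer (zpowers x : Set G)) := isSyl_of_sylow_le hPH
    have key : ∀ z : G, z ∈ normalizer (zpowers x : Set G) → orderOf z = p → zpowers z = zpowers x := by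
      intro z hz hzp
      obtain ⟨k, hk, hkz⟩ := hSyl.exists_conj_le (A := zpowers z)
        (isPGroup_zpowers_of_pow (by rw [← hzp]; exact pow_orderOf_eq_one z)) (Subgroup.zpowers_le.mpr hz)
      rw [MonoidHom.map_zpowers, Subgroup.zpowers_le] at hkz
      have h2 := heq _ hkz ((orderOf_injective (MulAut.conj k).toMonoidHom (MulAut.conj k).injective z).trans hzp)
      rw [← MonoidHom.map_zpowers, ← map_conj_eq_of_mem hk] at h2
      exact (map_conj_inj k).mp h2
    obtain ⟨z, hz, hzy⟩ := hyg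
    have hzp : orderOf z = p := by
      rw [← hy, ← hzy]
      exact (orderOf_injective (MulAut.conj g).toMonoidHom (MulAut.conj g).injective z).symm
    apply mem_normalizer_of_map_conj_eq
    rw [← key z hz hzp, MonoidHom.map_zpowers, hzy, key y hyH hy, key z hz hzp]

/-- The other direction: a strongly `p`-embedded subgroup of a group with a normal `p'`-subgroup `K` and a
normal subgroup `N` with `N / K` a nontrivial `p`-group. -/
theorem SPE.unique_of_series {H : Subgroup G} (hH : SPE p H) {K N : Subgroup G} [K.Normal] [hNn : N.Normal]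
    (hKN : K ≤ N) (hK : ¬ p ∣ Nat.card K) (hN : p ∣ Nat.card N) (hi : ∃ m : ℕ, K.relIndex N = p ^ m)
    (P : Sylow p G) :
    ∀ x ∈ (P : Subgroup G), ∀ y ∈ (P : Subgroup G), orderOf x = p → orderOf y = p → y ∈ zpowers x := by
  by_contra hcon
  obtain ⟨S, hS, -⟩ := hH.exists_sylow
  have hcon' : ¬ ∀ x ∈ (S : Subgroup G), ∀ y ∈ (S : Subgroup G), orderOf x = p → orderOf y = p →
      y ∈ zpowers x := by
    intro h
    apply hcon
    obtain ⟨g, rfl⟩ := MulAction.exists_smul_eq G S P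
    rintro _ ⟨x, hx, rfl⟩ _ ⟨y, hy, rfl⟩ hxp hyp
    have h1 : ∀ z : G, orderOf ((MulAut.conj g) z) = orderOf z := by
      intro z
      exact orderOf_injective (MulAut.conj g).toMonoidHom (MulAut.conj g).injective z
    have hxp' : orderOf x = p := (h1 x).symm.trans hxp
    have hyp' : orderOf y = p := (h1 y).symm.trans hyp
    obtain ⟨k, hk⟩ := h x hx y hy hxp' hyp'
    refine ⟨k, ?_⟩
    show (MulAut.conj g) x ^ k = (MulAut.conj g) y
    rw [← map_zpow]
    exact congrArg _ hk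
  obtain ⟨x, hx, y, hy, hxp, hyp, hxy, hn⟩ := exists_rank_two_of_not_unique S.2 hcon'
  have hKH : K ≤ H := hH.le_of_rank_two (hS hx) (hS hy) hxp hyp hxy hn hK
  obtain ⟨h1, h1'⟩ := sylow_inf_ne_bot (S := S) hN
  have h2 : ((S : Subgroup G) ⊓ N) ⊔ K = N := by
    apply le_antisymm (sup_le inf_le_right hKN)
    rw [← Subgroup.relIndex_eq_one]
    have h3 : (((S : Subgroup G) ⊓ N) ⊔ K).relIndex N ∣ ((S : Subgroup G) ⊓ N).relIndex N :=
      Subgroup.relIndex_dvd_of_le_left N le_sup_left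
    have h4 : (((S : Subgroup G) ⊓ N) ⊔ K).relIndex N ∣ K.relIndex N :=
      Subgroup.relIndex_dvd_of_le_left N le_sup_right
    obtain ⟨m, hm⟩ := hi
    rw [hm] at h4
    obtain ⟨k, hk, hk2⟩ := (Nat.dvd_prime_pow hp.out).mp h4
    rw [hk2]
    rcases Nat.eq_zero_or_pos k with h0 | h0
    · rw [h0, pow_zero]
    · exfalso
      apply h1.ndvd
      refine dvd_trans ?_ h3
      rw [hk2]
      exact dvd_pow_self p h0.ne'
  have hNH : N ≤ H := by
    rw [← h2]
    exact sup_le (inf_le_left.trans hS) hKH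
  apply hH.1
  have h5 := hH.sup_pRes N hN
  rwa [sup_eq_left.mpr ((pRes_le p N).trans hNH)] at h5

end Cfsg.Agent.Lib.SylowGraph
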