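import Mathlib.FieldTheory.Finite.Basic
import Mathlib.Algebra.CharP.Frobenius
import Mathlib.LinearAlgebra.LinearIndependent.Lemmas
import Mathlib.LinearAlgebra.Dimension.Constructions
import Mathlib.Tactic

/-!
# Additive polynomials over finite fields of characteristic two (helper6)
-/

set_option autoImplicit false
set_option linter.unusedSectionVars false

namespace Cfsg.Agent.Lib.SzAut

variable {F : Type*} [Field F] [Finite F] [CharP F 2] {n : ℕ} [NeZero n]

/-- the Frobenius powers, indexed by `ZMod n` -/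
noncomputable def s (F : Type*) [Field F] [CharP F 2] {n : ℕ} (k : ZMod n) : F →+* F := iterateFrobenius F 2 k.val

theorem s_apply (k : ZMod n) (x : F) : s F k x = x ^ 2 ^ k.val := rfl

variable (hF : Nat.card F = 2 ^ n)
include hF

theorem pow_card' (x : F) : x ^ 2 ^ n = x := by
  have := Fintype.ofFinite F
  have h := FiniteField.pow_card x
  rwa [← Nat.card_eq_fintype_card, hF] at h

theorem pow_mod (x : F) (a : ℕ) : x ^ 2 ^ a = x ^ 2 ^ (a % n) := by
  have h : ∀ j : ℕ, x ^ 2 ^ (n * j) = x := by
    intro j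
    induction j with
    | zero => simp
    | succ j ih => rw [mul_add, mul_one, pow_add, pow_mul, ih, pow_card' hF]
  conv_lhs => rw [← Nat.div_add_mod a n, pow_add, pow_mul, h]

theorem s_add (k l : ZMod n) (x : F) : s F (k + l) x = s F k (s F l x) := by
  rw [s_apply, s_apply, s_apply, ← pow_mul, ← pow_add, ZMod.val_add, ← pow_mod hF, add_comm]

theorem s_comm (k l : ZMod n) (x : F) : s F k (s F l x) = s F l (s F k x) := by
  rw [← s_add hF, ← s_add hF, add_comm]

omit hF in
theorem s_zero (x : F) : s F (0 : ZMod n) x = x := by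
  rw [s_apply, ZMod.val_zero]; simp

theorem s_inj (hn : 2 ≤ n) {k l : ZMod n} (h : ∀ x : F, s F k x = s F l x) : k = l := by
  have hft := Fintype.ofFinite F
  obtain ⟨g, hg⟩ := IsCyclic.exists_generator (α := Fˣ)
  have ho : orderOf g = 2 ^ n - 1 := by
    rw [orderOf_eq_card_of_forall_mem_zpowers hg, Nat.card_units, hF]
  have h1 : g ^ 2 ^ k.val = g ^ 2 ^ l.val := by
    apply Units.ext
    have := h g
    rw [s_apply, s_apply] at this
    push_cast
    exact this
  have hlt : ∀ j : ZMod n, 2 ^ j.val < 2 ^ n - 1 := by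
    intro j
    have h2 : j.val < n := ZMod.val_lt j
    have h3 : 2 ^ j.val ≤ 2 ^ (n - 1) := Nat.pow_le_pow_right (by norm_num) (by omega)
    have h4 : 2 ^ n = 2 * 2 ^ (n - 1) := by rw [← pow_succ']; congr 1; omega
    have h5 : 2 ≤ 2 ^ (n - 1) := by
      calc 2 = 2 ^ 1 := by norm_num
        _ ≤ _ := Nat.pow_le_pow_right (by norm_num) (by omega)
    omega
  have h2 := pow_injOn_Iio_orderOf (x := g) (by rw [Set.mem_Iio, ho]; exact hlt k)
    (by rw [Set.mem_Iio, ho]; exact hlt l) h1
  have h3 := Nat.pow_right_injective (le_refl 2) h2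
  exact ZMod.val_injective n h3

/-- Dedekind independence of the Frobenius powers -/
theorem indep (hn : 2 ≤ n) (c : ZMod n → F) (h : ∀ x, ∑ k, c k * s F k x = 0) : ∀ k, c k = 0 := by
  have h1 := linearIndependent_monoidHom F F
  have h2 : LinearIndependent F (fun k : ZMod n => ((s F k : F →* F) : F → F)) := by
    refine h1.comp (fun k : ZMod n => (s F k : F →* F)) ?_
    intro k l hkl
    exact s_inj hF hn (fun x => DFunLike.congr_fun hkl x)
  rw [Fintype.linearIndependent_iff] at h2
  apply h2 c
  funext x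
  rw [Finset.sum_apply]
  simp only [Pi.smul_apply, smul_eq_mul, Pi.zero_apply]
  exact h x

omit [NeZero n] in
theorem card_addHom : Nat.card (F →+ F) = 2 ^ (n ^ 2) := by
  let _ : Algebra (ZMod 2) F := ZMod.algebra F 2
  have hft := Fintype.ofFinite F
  have e : (F →+ F) ≃ (F →ₗ[ZMod 2] F) :=
    { toFun := fun f => f.toZModLinearMap 2
      invFun := fun f => f.toAddMonoidHom
      left_inv := fun f => rfl
      right_inv := fun f => by ext; rfl }
  rw [Nat.card_congr e]
  have h1 : Module.finrank (ZMod 2) F = n := by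
    have h2 := Module.card_eq_pow_finrank (K := ZMod 2) (V := F)
    rw [← Nat.card_eq_fintype_card, hF, ZMod.card] at h2
    exact (Nat.pow_right_injective (le_refl 2) h2).symm
  have hfin : Finite (F →ₗ[ZMod 2] F) := Module.finite_of_finite (ZMod 2)
  have hft2 := Fintype.ofFinite (F →ₗ[ZMod 2] F)
  have h3 := Module.card_eq_pow_finrank (K := ZMod 2) (V := F →ₗ[ZMod 2] F)
  rw [Nat.card_eq_fintype_card, h3, ZMod.card, Module.finrank_linearMap, h1, pow_two]

/-- every additive map is an additive polynomial -/
theorem exists_coeff (hn : 2 ≤ n) (A : F →+ F) : ∃ a : ZMod n → F, ∀ x, A x = ∑ k, a k * s F k x := by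
  let Ψ : (ZMod n → F) → (F →+ F) := fun a =>
    ∑ k, (AddMonoidHom.mulLeft (a k)).comp (s F k : F →+ F)
  have hΨ : ∀ a x, Ψ a x = ∑ k, a k * s F k x := by
    intro a x
    simp only [Ψ, AddMonoidHom.finsetSum_apply]
    rfl
  have hinj : Function.Injective Ψ := by
    intro a b hab
    funext k
    have h1 := indep hF hn (fun k => a k - b k) (fun x => by
      simp only [sub_mul, Finset.sum_sub_distrib]
      rw [← hΨ, ← hΨ, hab, sub_self])
    exact sub_eq_zero.1 (h1 k)
  have hfin : Finite (F →+ F) := by
    apply Nat.finite_of_card_ne_zero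
    rw [card_addHom hF]; positivity
  have hcard : Nat.card (F →+ F) ≤ Nat.card (ZMod n → F) := by
    rw [card_addHom hF, Nat.card_fun, hF, Nat.card_zmod, ← pow_mul, pow_two]
  have hbij := hinj.bijective_of_nat_card_le hcard
  obtain ⟨a, ha⟩ := hbij.2 A
  exact ⟨a, fun x => by rw [← ha, hΨ]⟩

/-- a quadratic form in the Frobenius powers that vanishes identically -/
theorem quad (hn : 2 ≤ n) (M : ZMod n → ZMod n → F)
    (h : ∀ x : F, ∑ k, ∑ l, M k l * (s F k x * s F l x) = 0) :
    (∀ k l, M k l = M l k) ∧ ∀ k, M k k = 0 := by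
  have h2 : (2 : F) = 0 := CharTwo.two_eq_zero
  have hsym : ∀ k l, M k l = M l k := by
    have h1 : ∀ x y : F, ∑ k, (∑ l, (M k l + M l k) * s F l y) * s F k x = 0 := by
      intro x y
      have e := h (x + y)
      have ex := h x
      have ey := h y
      have e1 : ∑ k, ∑ l, M k l * (s F k (x + y) * s F l (x + y)) =
          ∑ k, ∑ l, M k l * (s F k x * s F l x) + ∑ k, ∑ l, M k l * (s F k y * s F l y) +
          ∑ k, ∑ l, M k l * (s F k x * s F l y) + ∑ k, ∑ l, M k l * (s F k y * s F l x) := by
        simp only [← Finset.sum_add_distrib]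
        refine Finset.sum_congr rfl (fun k _ => Finset.sum_congr rfl (fun l _ => ?_))
        rw [map_add, map_add]; ring
      rw [e, ex, ey, zero_add, zero_add] at e1
      have e2 : ∑ k, ∑ l, M k l * (s F k y * s F l x) = ∑ k, ∑ l, M l k * (s F l y * s F k x) :=
        Finset.sum_comm
      rw [e2] at e1
      rw [e1, ← Finset.sum_add_distrib]
      refine Finset.sum_congr rfl (fun k _ => ?_)
      rw [← Finset.sum_add_distrib, Finset.sum_mul]
      refine Finset.sum_congr rfl (fun l _ => ?_)
      ring
    intro k l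
    have h3 : ∀ y : F, ∑ l, (M k l + M l k) * s F l y = 0 := fun y =>
      indep hF hn (fun k => ∑ l, (M k l + M l k) * s F l y) (fun x => h1 x y) k
    have h4 := indep hF hn (fun l => M k l + M l k) h3 l
    have h5 : M k l + M l k = 0 := h4
    linear_combination h5 - M l k * h2
  refine ⟨hsym, ?_⟩
  have hdiag : ∀ x : F, ∑ k, M k k * s F k x ^ 2 = 0 := by
    intro x
    have h3 : ∑ k, ∑ l, M k l * (s F k x * s F l x) =
        ∑ k, M k k * s F k x ^ 2 + ∑ k, ∑ l ∈ Finset.univ.erase k, M k l * (s F k x * s F l x) := by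
      rw [← Finset.sum_add_distrib]
      refine Finset.sum_congr rfl (fun k _ => ?_)
      rw [← Finset.add_sum_erase _ _ (Finset.mem_univ k), pow_two]
    rw [h x] at h3
    have h4 : ∑ k, ∑ l ∈ Finset.univ.erase k, M k l * (s F k x * s F l x) = 0 := by
      have h5 : ∑ k, ∑ l ∈ Finset.univ.erase k, M k l * (s F k x * s F l x) =
          ∑ p ∈ (Finset.univ : Finset (ZMod n × ZMod n)).filter (fun p => p.1 ≠ p.2),
            M p.1 p.2 * (s F p.1 x * s F p.2 x) := by
        rw [Finset.sum_filter, ← Finset.univ_product_univ, Finset.sum_product]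
        refine Finset.sum_congr rfl (fun k _ => ?_)
        rw [← Finset.sum_filter]
        refine Finset.sum_congr ?_ (fun _ _ => rfl)
        ext l
        simp only [Finset.mem_erase, Finset.mem_univ, and_true, Finset.mem_filter, true_and]
        exact ne_comm
      rw [h5]
      refine Finset.sum_involution (fun p _ => (p.2, p.1)) ?_ ?_ ?_ ?_
      · intro p _
        show M p.1 p.2 * (s F p.1 x * s F p.2 x) + M p.2 p.1 * (s F p.2 x * s F p.1 x) = 0
        rw [hsym p.2 p.1]
        linear_combination (M p.1 p.2 * (s F p.1 x * s F p.2 x)) * h2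
      · intro p hp _ heq
        rw [Finset.mem_filter] at hp
        exact hp.2 (Prod.ext_iff.1 heq).2
      · intro p hp
        rw [Finset.mem_filter] at hp ⊢
        exact ⟨Finset.mem_univ _, fun h => hp.2 h.symm⟩
      · intro p _; rfl
    rw [h4, add_zero] at h3
    exact h3.symm
  have h6 : ∀ x : F, ∑ k, M k k * s F k x = 0 := by
    intro x
    have hft := Fintype.ofFinite F
    obtain ⟨y, hy⟩ := (FiniteField.isSquare_of_char_two (F := F) (ringChar.eq F 2) x)
    have := hdiag y
    rw [hy]
    rw [← this]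
    refine Finset.sum_congr rfl (fun k _ => ?_)
    rw [map_mul, pow_two]
  exact indep hF hn (fun k => M k k) h6

/-- the key rigidity statement -/
theorem rigid {m : ℕ} (hm : 1 ≤ m) (hn : n = 2 * m + 1) (a b : ZMod n → F)
    (h : ∀ x : F, (∑ k, a k * s F k x) * s F ((m + 1 : ℕ) : ZMod n) (∑ k, a k * s F k x) =
      ∑ k, b k * s F k (x * s F ((m + 1 : ℕ) : ZMod n) x)) :
    ∀ i, a i ≠ 0 → ∀ k, k ≠ i → a k = 0 := by
  have hn2 : 2 ≤ n := by omega
  set t : ZMod n := ((m + 1 : ℕ) : ZMod n) with ht
  have h2 : (2 : F) = 0 := CharTwo.two_eq_zero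
  have h2t : 2 * t = 1 := by
    rw [ht]
    have : ((2 * (m + 1) : ℕ) : ZMod n) = ((n + 1 : ℕ) : ZMod n) := by congr 1; omega
    push_cast at this ⊢
    rw [this]
    have : (n : ZMod n) = 0 := ZMod.natCast_self n
    rw [this]; ring
  have hone : (1 : ZMod n) ≠ 0 := by
    intro h1
    have : ((1 : ℕ) : ZMod n) = 0 := by exact_mod_cast h1
    rw [ZMod.natCast_eq_zero_iff] at this
    have := Nat.le_of_dvd one_pos this
    omega
  have htwo : (2 : ZMod n) ≠ 0 := by
    intro h1
    have : ((2 : ℕ) : ZMod n) = 0 := by exact_mod_cast h1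
    rw [ZMod.natCast_eq_zero_iff] at this
    have := Nat.le_of_dvd two_pos this
    omega
  have ht0 : t ≠ 0 := by
    intro h1
    rw [h1, mul_zero] at h2t
    exact hone h2t.symm
  -- the matrix
  have key := quad hF hn2 (fun k l => a k * s F t (a (l - t)) + if l = k + t then b k else 0) (by
    intro x
    have e1 : ∑ k, ∑ l, (a k * s F t (a (l - t)) + if l = k + t then b k else 0) * (s F k x * s F l x) =
        (∑ k, a k * s F k x) * s F t (∑ k, a k * s F k x) + ∑ k, b k * s F k (x * s F t x) := by
      have e2 : s F t (∑ k, a k * s F k x) = ∑ l, s F t (a (l - t)) * s F l x := by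
        rw [map_sum, ← Equiv.sum_comp (Equiv.subRight t)]
        refine Finset.sum_congr rfl (fun l _ => ?_)
        rw [map_mul, ← s_add hF]
        simp
      rw [e2, Finset.sum_mul_sum, ← Finset.sum_add_distrib]
      refine Finset.sum_congr rfl (fun k _ => ?_)
      have e3 : b k * s F k (x * s F t x) = ∑ l, (if l = k + t then b k else 0) * (s F k x * s F l x) := by
        rw [Finset.sum_eq_single (k + t)]
        · rw [if_pos rfl, map_mul, s_add hF]
        · intro l _ hl
          rw [if_neg hl, zero_mul]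
        · intro h; exact absurd (Finset.mem_univ _) h
      rw [e3, ← Finset.sum_add_distrib]
      refine Finset.sum_congr rfl (fun l _ => ?_)
      ring
    rw [e1, h x]
    linear_combination (∑ k, b k * s F k (x * s F t x)) * h2)
  obtain ⟨hsym, hdiag⟩ := key
  -- (1)
  have p1 : ∀ k, a k ≠ 0 → a (k - t) = 0 := by
    intro k hk
    have := hdiag k
    rw [if_neg (fun h => ht0 (by
      have h3 : k + 0 = k + t := by rw [add_zero]; exact h
      exact (add_left_cancel h3).symm)), add_zero, mul_eq_zero] at this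
    exact (map_eq_zero _).1 (this.resolve_left hk)
  -- (2)
  have p2 : ∀ k l, l ≠ k + t → k ≠ l + t → a k * s F t (a (l - t)) = a l * s F t (a (k - t)) := by
    intro k l h1 h3
    have := hsym k l
    rw [if_neg h1, if_neg h3, add_zero, add_zero] at this
    exact this
  -- for k in the support, l - t in the support only for special l
  have p3 : ∀ k, a k ≠ 0 → ∀ l, a l ≠ 0 → l = k ∨ l = k - 1 := by
    intro k hk l hl
    by_contra hcon
    push Not at hcon
    have h3 : a (k - t) = 0 := p1 k hk
    have h4 := p2 k (l + t) (fun h => hcon.1 (add_right_cancel h)) (fun h => hcon.2 (by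
      rw [h]
      have : l + t + t - 1 = l + (2 * t) - 1 := by ring
      rw [this, h2t]; ring))
    rw [add_sub_cancel_right, h3, map_zero, mul_zero, mul_eq_zero] at h4
    rcases h4 with h4 | h4
    · exact hk h4
    · exact hl ((map_eq_zero _).1 h4)
  intro i hi k hki
  by_contra hk
  have h3 := (p3 i hi k hk).resolve_left hki
  rcases p3 k hk i hi with h4 | h4
  · exact hki h4.symm
  · rw [h3] at h4
    apply htwo
    have : i = i - 2 := by rw [show i - 2 = i - 1 - 1 by ring]; exact h4
    have h5 : (2 : ZMod n) = i - (i - 2) := by ring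
    rw [h5, ← this, sub_self]

end Cfsg.Agent.Lib.SzAut
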