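import Cfsg.Prelude.Def_Solvable
import Cfsg.Prelude.Def_Transfer
import Cfsg.Agent.Lib.SzAut1
import Mathlib.GroupTheory.PGroup
import Mathlib.GroupTheory.Index

/-!
# Automorphisms of the Suzuki 2-groups (helper6)
-/

set_option autoImplicit false
set_option linter.unusedSectionVars false

namespace Cfsg.Agent.Lib.SzAut

open Cfsg

/-- a normal 2-subgroup of odd index is the 2-core -/
theorem pCore_eq_of {G : Type*} [Group G] [Finite G] (K : Subgroup G) [K.Normal] (hK : IsPGroup 2 K)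
    (hi : Odd K.index) : pCore 2 G = K := by
  apply le_antisymm
  · apply sSup_le
    rintro N ⟨-, hN⟩ x hx
    obtain ⟨k, hk⟩ := hN ⟨x, hx⟩
    have h1 : x ^ 2 ^ k = 1 := congrArg Subtype.val hk
    have h2 := Subgroup.pow_index_mem K x
    have h3 : Nat.Coprime K.index (orderOf x) := by
      apply Nat.Coprime.coprime_dvd_right (orderOf_dvd_of_pow_eq_one h1)
      exact Nat.Coprime.pow_right k ((Nat.coprime_two_right).2 hi)
    obtain ⟨m, hm⟩ := exists_pow_eq_self_of_coprime h3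
    rw [← hm]
    exact pow_mem h2 m
  · exact le_sSup ⟨inferInstance, hK⟩

section

variable {F : Type*} [Field F] [Finite F] [CharP F 2] {n : ℕ} [NeZero n] (hF : Nat.card F = 2 ^ n)
  {m : ℕ} (hm : 1 ≤ m) (hn : n = 2 * m + 1) (θ : F → F)
  (hθ : ∀ x, θ x = s F ((m + 1 : ℕ) : ZMod n) x)
  (hsq : ∀ y : F, ∃ x, x * θ x = y)
  {U : Type*} [Group U] (u : F → F → U)
  (hu : ∀ a b c d, u a b * u c d = u (a + c) (b + d + θ a * c))
  (hinj : ∀ a b c d, u a b = u c d → a = c ∧ b = d) (hsurj : ∀ x, ∃ a b, x = u a b)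

include hF hm hn hθ hsq hu hinj hsurj

omit hsq hsurj in
theorem u_one : u 0 0 = 1 := by
  have h := hu 0 0 0 0
  rw [mul_zero, add_zero, add_zero] at h
  exact mul_eq_left.1 h

/-- the shape of all automorphisms -/
theorem aut_shape (φ : MulAut U) : ∃ (l : F) (i : ZMod n) (f : F →+ F), l ≠ 0 ∧
    ∀ a b, φ (u a b) = u (l * s F i a) (f a + l * θ l * s F i b) := by
  have hn2 : 2 ≤ n := by omega
  have hcc : ∀ x : F, x + x = 0 := CharTwo.add_self_eq_zero
  have hθm : ∀ x y, θ (x * y) = θ x * θ y := fun x y => by rw [hθ, hθ, hθ, map_mul]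
  have hθs : ∀ (i : ZMod n) x, θ (s F i x) = s F i (θ x) := fun i x => by
    rw [hθ, hθ, s_comm hF]
  have hθ0 : θ 0 = 0 := by rw [hθ, map_zero]
  have hB : ∀ b, ∃ b', φ (u 0 b) = u 0 b' := by
    intro b
    obtain ⟨x, hx⟩ := hsq b
    have h1 : u 0 b = u x 0 * u x 0 := by
      rw [hu, hcc, add_zero, zero_add, mul_comm, hx]
    obtain ⟨a', c', h2⟩ := hsurj (φ (u x 0))
    rw [h1, map_mul, h2, hu, hcc a']
    exact ⟨_, rfl⟩
  choose B hB using hB
  have hA : ∀ a, ∃ a' c', φ (u a 0) = u a' c' := fun a => hsurj _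
  choose A f hA using hA
  have h1 : ∀ a b, φ (u a b) = u (A a) (f a + B b) := by
    intro a b
    have h2 : u a b = u a 0 * u 0 b := by
      rw [hu, add_zero, mul_zero, add_zero, zero_add]
    rw [h2, map_mul, hA, hB, hu, mul_zero, add_zero, add_zero]
  have h2 : ∀ a b c d, A (a + c) = A a + A c ∧
      f (a + c) + B (b + d + θ a * c) = (f a + B b) + (f c + B d) + θ (A a) * A c := by
    intro a b c d
    have h3 := congrArg φ (hu a b c d)
    rw [map_mul, h1, h1, h1, hu] at h3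
    have h4 := hinj _ _ _ _ h3
    exact ⟨h4.1.symm, h4.2.symm⟩
  have hf0 : f 0 = 0 := by
    have h3 := h1 0 0
    rw [hB] at h3
    have := (hinj _ _ _ _ h3).2
    linear_combination -this
  have hBadd : ∀ b d, B (b + d) = B b + B d := by
    intro b d
    have h3 := (h2 0 b 0 d).2
    have hA0 : A 0 = 0 := by
      have h4 := (h2 0 0 0 0).1
      rw [add_zero] at h4
      linear_combination -h4
    rw [hθ0, hA0, hθ0, add_zero, mul_zero, hf0] at h3
    rw [add_zero] at h3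
    linear_combination h3
  have hB0 : B 0 = 0 := by
    have := hBadd 0 0
    rw [add_zero] at this
    linear_combination -this
  have hfadd : ∀ a c, f (a + c) + B (θ a * c) = f a + f c + θ (A a) * A c := by
    intro a c
    have h3 := (h2 a 0 c 0).2
    rw [hB0, zero_add, zero_add] at h3
    linear_combination h3
  have hN : ∀ a, A a * θ (A a) = B (a * θ a) := by
    intro a
    have h3 := hfadd a a
    rw [hcc a, hf0, hcc (f a), zero_add, zero_add] at h3
    rw [mul_comm a, h3, mul_comm]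
  let A' : F →+ F := ⟨⟨A, by have h4 := (h2 0 0 0 0).1; rw [add_zero] at h4; linear_combination -h4⟩,
    fun a c => (h2 a 0 c 0).1⟩
  let B' : F →+ F := ⟨⟨B, hB0⟩, hBadd⟩
  obtain ⟨ca, hca⟩ := exists_coeff hF hn2 A'
  obtain ⟨cb, hcb⟩ := exists_coeff hF hn2 B'
  have hca' : ∀ x, A x = ∑ k, ca k * s F k x := hca
  have hcb' : ∀ x, B x = ∑ k, cb k * s F k x := hcb
  have hr := rigid hF hm hn ca cb (fun x => by
    rw [← hca', ← hcb', ← hθ, ← hθ]; exact hN x)
  -- A is nonzero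
  obtain ⟨i, hi⟩ : ∃ i, ca i ≠ 0 := by
    by_contra hcon
    push Not at hcon
    obtain ⟨x, hx⟩ := φ.surjective (u 1 0)
    obtain ⟨a, b, rfl⟩ := hsurj x
    rw [h1] at hx
    have h3 := (hinj _ _ _ _ hx).1
    rw [hca', Finset.sum_eq_zero (fun k _ => by rw [hcon k, zero_mul])] at h3
    exact one_ne_zero h3.symm
  have hAl : ∀ a, A a = ca i * s F i a := by
    intro a
    rw [hca', Finset.sum_eq_single i (fun k _ hk => by rw [hr i hi k hk, zero_mul])
      (fun h => absurd (Finset.mem_univ _) h)]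
  have hBl : ∀ b, B b = ca i * θ (ca i) * s F i b := by
    intro b
    obtain ⟨x, rfl⟩ := hsq b
    rw [← hN, hAl, hθm, hθs, map_mul]; ring
  refine ⟨ca i, i, ⟨⟨f, hf0⟩, fun a c => ?_⟩, hi, fun a b => ?_⟩
  · have h3 := hfadd a c
    rw [hBl, hAl, hAl, hθm, hθs, map_mul] at h3
    show f (a + c) = f a + f c
    linear_combination h3
  · rw [h1, hAl, hBl]; rfl

/-- construction of automorphisms -/
theorem exists_aut (l : F) (hl : l ≠ 0) (i : ZMod n) (f : F →+ F) : ∃ φ : MulAut U,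
    ∀ a b, φ (u a b) = u (l * s F i a) (f a + l * θ l * s F i b) := by
  have hθm : ∀ x y, θ (x * y) = θ x * θ y := fun x y => by rw [hθ, hθ, hθ, map_mul]
  have hθs : ∀ (i : ZMod n) x, θ (s F i x) = s F i (θ x) := fun i x => by
    rw [hθ, hθ, s_comm hF]
  let e : F × F ≃ U := Equiv.ofBijective (fun t => u t.1 t.2) (by
    constructor
    · rintro ⟨a, b⟩ ⟨c, d⟩ h
      obtain ⟨h1, h2⟩ := hinj _ _ _ _ h
      exact Prod.ext h1 h2
    · intro x
      obtain ⟨a, b, rfl⟩ := hsurj x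
      exact ⟨(a, b), rfl⟩)
  have he : ∀ a b, e.symm (u a b) = (a, b) := fun a b => e.symm_apply_apply (a, b)
  have hfinU : Finite U := Finite.of_equiv _ e
  let g : U → U := fun x => u (l * s F i (e.symm x).1) (f (e.symm x).1 + l * θ l * s F i (e.symm x).2)
  have hg : ∀ a b, g (u a b) = u (l * s F i a) (f a + l * θ l * s F i b) := by
    intro a b
    simp only [g, he]
  let G : U →* U := MonoidHom.mk' g (by
    intro x y
    obtain ⟨a, b, rfl⟩ := hsurj x
    obtain ⟨c, d, rfl⟩ := hsurj y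
    rw [hu, hg, hg, hg, hu, map_add, map_add, map_add, map_add, map_mul, hθm, hθs]
    congr 1 <;> ring)
  have hGinj : Function.Injective G := by
    intro x y hxy
    obtain ⟨a, b, rfl⟩ := hsurj x
    obtain ⟨c, d, rfl⟩ := hsurj y
    have h1 : g (u a b) = g (u c d) := hxy
    rw [hg, hg] at h1
    obtain ⟨h2, h3⟩ := hinj _ _ _ _ h1
    have h4 : a = c := (s F i).injective (mul_left_cancel₀ hl h2)
    subst h4
    have hθl : θ l ≠ 0 := by rw [hθ]; exact (map_ne_zero _).2 hl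
    have h5 : b = d := (s F i).injective (mul_left_cancel₀ (mul_ne_zero hl hθl) (add_left_cancel h3))
    rw [h5]
  exact ⟨MulEquiv.ofBijective G ⟨hGinj, Finite.surjective_of_injective hGinj⟩, hg⟩

theorem card_aut : Nat.card (MulAut U) = 2 ^ (n ^ 2) * (n * (2 ^ n - 1)) := by
  have hn2 : 2 ≤ n := by omega
  choose Φ hΦ using exists_aut hF hm hn θ hθ hsq u hu hinj hsurj
  let Ψ : (F →+ F) × (ZMod n × Fˣ) → MulAut U := fun t => Φ t.2.2 t.2.2.ne_zero t.2.1 t.1
  have hΨ : ∀ t a b, Ψ t (u a b) = u (t.2.2 * s F t.2.1 a) (t.1 a + t.2.2 * θ t.2.2 * s F t.2.1 b) :=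
    fun t a b => hΦ _ _ _ _ a b
  have hbij : Function.Bijective Ψ := by
    constructor
    · rintro ⟨f, i, l⟩ ⟨f', i', l'⟩ h
      have h1 : ∀ a b, u (l * s F i a) (f a + l * θ l * s F i b) =
          u (l' * s F i' a) (f' a + l' * θ l' * s F i' b) := by
        intro a b
        have := DFunLike.congr_fun h (u a b)
        rw [hΨ, hΨ] at this
        exact this
      have h2 : ∀ a, (l : F) * s F i a = l' * s F i' a := fun a => (hinj _ _ _ _ (h1 a 0)).1
      have h3 : (l : F) = l' := by have := h2 1; rwa [map_one, map_one, mul_one, mul_one] at this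
      have h4 : l = l' := Units.ext h3
      subst h4
      have h5 : i = i' := s_inj hF hn2 (fun x => mul_left_cancel₀ l.ne_zero (h2 x))
      subst h5
      have h6 : f = f' := by
        ext a
        exact add_right_cancel (hinj _ _ _ _ (h1 a 0)).2
      rw [h6]
    · intro φ
      obtain ⟨l, i, f, hl, hφ⟩ := aut_shape hF hm hn θ hθ hsq u hu hinj hsurj φ
      refine ⟨(f, i, Units.mk0 l hl), ?_⟩
      ext x
      obtain ⟨a, b, rfl⟩ := hsurj x
      rw [hΨ, hφ]
      rfl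
  rw [← Nat.card_eq_of_bijective Ψ hbij, Nat.card_prod, Nat.card_prod, card_addHom hF, Nat.card_zmod,
    Nat.card_units, hF]

/-- the automorphisms trivial modulo the centre -/
def Kr : Subgroup (MulAut U) where
  carrier := {φ | ∀ a b, ∃ c, φ (u a b) = u a c}
  mul_mem' := by
    intro φ ψ h1 h2 a b
    obtain ⟨c, hc⟩ := h2 a b
    obtain ⟨d, hd⟩ := h1 a c
    exact ⟨d, by rw [MulAut.mul_apply, hc, hd]⟩
  one_mem' := fun a b => ⟨b, rfl⟩
  inv_mem' := by
    intro φ h a b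
    obtain ⟨a', b', h1⟩ := hsurj (φ⁻¹ (u a b))
    obtain ⟨c, hc⟩ := h a' b'
    have h2 : φ (φ⁻¹ (u a b)) = u a b := MulAut.apply_inv_self _ φ (u a b)
    rw [h1, hc] at h2
    obtain ⟨h3, -⟩ := hinj _ _ _ _ h2
    exact ⟨b', by rw [h1, h3]⟩

theorem Kr_shape {φ : MulAut U} (hφ : φ ∈ Kr u hinj hsurj) :
    ∃ f : F →+ F, ∀ a b, φ (u a b) = u a (f a + b) := by
  have hn2 : 2 ≤ n := by omega
  obtain ⟨l, i, f, hl, h⟩ := aut_shape hF hm hn θ hθ hsq u hu hinj hsurj φ
  have h1 : ∀ a, l * s F i a = a := by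
    intro a
    obtain ⟨c, hc⟩ := hφ a 0
    rw [h] at hc
    exact (hinj _ _ _ _ hc).1
  have h2 : l = 1 := by have := h1 1; rwa [map_one, mul_one] at this
  have h3 : ∀ a, s F i a = a := fun a => by have := h1 a; rwa [h2, one_mul] at this
  refine ⟨f, fun a b => ?_⟩
  rw [h, h1, h3, h2, hθ, map_one, one_mul, one_mul]

theorem main : IsElementaryAbelian 2 (pCore 2 (MulAut U)) ∧ Nat.card ↥(pCore 2 (MulAut U)) = 2 ^ (n ^ 2) ∧
    Nat.card (MulAut U) = 2 ^ (n ^ 2) * (n * (2 ^ n - 1)) := by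
  set K := Kr u hinj hsurj with hKdef
  have hcard := card_aut hF hm hn θ hθ hsq u hu hinj hsurj
  have hpos : 2 ^ n - 1 ≠ 0 := by
    have : 2 ^ 1 ≤ 2 ^ n := Nat.pow_le_pow_right (by norm_num) (by omega)
    omega
  have hfin : Finite (MulAut U) := by
    apply Nat.finite_of_card_ne_zero
    rw [hcard]
    exact mul_ne_zero (by positivity) (mul_ne_zero (by omega) hpos)
  have hsh : ∀ φ ∈ K, ∃ f : F →+ F, ∀ a b, φ (u a b) = u a (f a + b) := fun φ hφ =>
    Kr_shape hF hm hn θ hθ hsq u hu hinj hsurj hφ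
  have hnor : K.Normal := by
    refine ⟨fun φ hφ ψ => ?_⟩
    intro a b
    obtain ⟨a', b', h1⟩ := hsurj (ψ⁻¹ (u a b))
    obtain ⟨c, hc⟩ := hφ a' b'
    obtain ⟨l, i, f, hl, h⟩ := aut_shape hF hm hn θ hθ hsq u hu hinj hsurj ψ
    have h2 : ψ (ψ⁻¹ (u a b)) = u a b := MulAut.apply_inv_self _ ψ (u a b)
    rw [h1, h] at h2
    have h3 := (hinj _ _ _ _ h2).1
    refine ⟨f a' + l * θ l * s F i c, ?_⟩
    rw [MulAut.mul_apply, MulAut.mul_apply, h1, hc, h, h3]
  have hsq2 : ∀ φ ∈ K, φ ^ 2 = 1 := by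
    intro φ hφ
    obtain ⟨f, hf⟩ := hsh φ hφ
    ext x
    obtain ⟨a, b, rfl⟩ := hsurj x
    rw [pow_two, MulAut.mul_apply, hf, hf, ← add_assoc, CharTwo.add_self_eq_zero, zero_add]
    rfl
  have hKc : Nat.card K = 2 ^ (n ^ 2) := by
    rw [← card_addHom hF]
    symm
    choose Φ hΦ using exists_aut hF hm hn θ hθ hsq u hu hinj hsurj
    have hΦ1 : ∀ f a b, Φ 1 one_ne_zero 0 f (u a b) = u a (f a + b) := by
      intro f a b
      rw [hΦ, s_zero, s_zero, hθ, map_one, one_mul, one_mul, one_mul]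
    refine Nat.card_eq_of_bijective (fun f => (⟨Φ 1 one_ne_zero 0 f, fun a b => ⟨_, hΦ1 f a b⟩⟩ : K)) ?_
    constructor
    · intro f f' h
      have h1 : Φ 1 one_ne_zero 0 f = Φ 1 one_ne_zero 0 f' := congrArg Subtype.val h
      ext a
      have h2 := DFunLike.congr_fun h1 (u a 0)
      rw [hΦ1, hΦ1] at h2
      exact add_right_cancel (hinj _ _ _ _ h2).2
    · rintro ⟨φ, hφ⟩
      obtain ⟨f, hf⟩ := hsh φ hφ
      refine ⟨f, Subtype.ext ?_⟩
      ext x
      obtain ⟨a, b, rfl⟩ := hsurj x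
      show Φ 1 one_ne_zero 0 f (u a b) = φ (u a b)
      rw [hΦ1, hf]
  have hidx : Odd K.index := by
    have h1 := K.card_mul_index
    rw [hKc, hcard] at h1
    have h2 := Nat.eq_of_mul_eq_mul_left (by positivity) h1
    rw [h2]
    refine Odd.mul ⟨m, hn⟩ ?_
    refine ⟨2 ^ (n - 1) - 1, ?_⟩
    have h3 : 2 ^ n = 2 * 2 ^ (n - 1) := by rw [← pow_succ']; congr 1; omega
    have h4 : 1 ≤ 2 ^ (n - 1) := Nat.one_le_two_pow
    omega
  have hKp : IsPGroup 2 K := by
    intro x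
    exact ⟨1, Subtype.ext (by rw [pow_one]; exact hsq2 x.1 x.2)⟩
  have hcore := pCore_eq_of K hKp hidx
  rw [hcore]
  refine ⟨⟨?_, hsq2⟩, hKc, hcard⟩
  constructor
  constructor
  rintro ⟨φ, hφ⟩ ⟨ψ, hψ⟩
  apply Subtype.ext
  show φ * ψ = ψ * φ
  obtain ⟨f, hf⟩ := hsh φ hφ
  obtain ⟨g, hg⟩ := hsh ψ hψ
  ext x
  obtain ⟨a, b, rfl⟩ := hsurj x
  rw [MulAut.mul_apply, MulAut.mul_apply, hg, hf, hf, hg, ← add_assoc, ← add_assoc, add_comm (f a)]

end

end Cfsg.Agent.Lib.SzAut
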