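import Cfsg.Agent.Lib.BG08a
import Cfsg.Agent.Lib.FrobFinal
import Cfsg.Agent.S3742
import Cfsg.Agent.Lib.AutTwoGroup

/-!
# Groups with a normal Hall subgroup that is a solvable Frobenius complement
-/

set_option autoImplicit false
set_option linter.unusedSimpArgs false
open Cfsg Subgroup

namespace Cfsg.Agent.Lib.TIHall

open FrobExist FrobAction

theorem solvable_quot_ker {Q S : Type*} [Group Q] [Group S] (hS : Group.IsSolvable S) (f : Q →* S)
    (A : Subgroup Q) [hA : A.Normal] (h : f.ker = A) : Group.IsSolvable (Q ⧸ A) := by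
  subst h
  exact Group.isSolvable_of_isSolvable_injective (QuotientGroup.kerLift_injective _)

/-- the quotient by the centralizer of a normal cyclic or generalized quaternion subgroup is solvable -/
theorem solvable_quot_centralizer {Q : Type*} [Group Q] [Finite Q] (P : Subgroup Q) [hP : P.Normal]
    (h : IsCyclic P ∨ ∃ n : ℕ, 1 ≤ n ∧ Nonempty (P ≃* QuaternionGroup (2 ^ n))) :
    Group.IsSolvable (Q ⧸ centralizer (P : Set Q)) := by
  have hS : Group.IsSolvable (MulAut P) := by
    rcases h with hc | ⟨n, hn, ⟨e⟩⟩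
    · apply Group.isSolvable_of_comm
      intro a b
      obtain ⟨g, hg⟩ := hc.exists_generator
      obtain ⟨i, hi⟩ := hg (a g)
      obtain ⟨j, hj⟩ := hg (b g)
      simp only at hi hj
      have key : a (b g) = b (a g) := by
        rw [← hj, ← hi, map_zpow, map_zpow, ← hi, ← hj, ← zpow_mul, ← zpow_mul, mul_comm]
      apply MulEquiv.ext
      intro x
      obtain ⟨k, rfl⟩ := hg x
      simp only [MulAut.mul_apply, map_zpow, key]
    · rcases (by omega : n = 1 ∨ 2 ≤ n) with rfl | h2
      · obtain ⟨e2⟩ := Cfsg.Agent.S3742.result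
        have e3 : MulAut P ≃* Equiv.Perm (Fin 4) := (MulAut.congr e).trans e2
        have hp : Group.IsSolvable (Equiv.Perm (Fin 4)) :=
          Burnside.isSolvable_of_card_eq _ 2 3 3 1 Nat.prime_two Nat.prime_three
            (by rw [Nat.card_perm, Nat.card_fin]; rfl) rfl
        exact Group.isSolvable_of_isSolvable_injective (f := e3.toMonoidHom) e3.injective
      · have h3 : IsPGroup 2 (MulAut P) := AutTwoGroup.aut_quaternion (n + 2) (by omega) e
        have : Fact (Nat.Prime 2) := ⟨Nat.prime_two⟩
        have : Group.IsNilpotent (MulAut P) := h3.isNilpotent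
        infer_instance
  have hker : (MulAut.conjNormal (H := P)).ker = centralizer (P : Set Q) := by
    ext g
    rw [MonoidHom.mem_ker, mem_centralizer_iff]
    constructor
    · intro hg x hx
      have := congrArg (fun φ : MulAut P => ((φ ⟨x, hx⟩ : P) : Q)) hg
      simp only [MulAut.conjNormal_apply, MulAut.one_apply] at this
      exact (mul_inv_eq_iff_eq_mul.1 this).symm
    · intro hg
      ext x
      rw [MulAut.conjNormal_apply, MulAut.one_apply, mul_inv_eq_iff_eq_mul]
      exact (hg x x.2).symm
  exact solvable_quot_ker hS _ _ hker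

/-- finite intersections of normal subgroups with solvable quotient -/
theorem solvable_quot_inf {Q : Type*} [Group Q] (A B : Subgroup Q) [A.Normal] [B.Normal]
    (hA : Group.IsSolvable (Q ⧸ A)) (hB : Group.IsSolvable (Q ⧸ B)) : Group.IsSolvable (Q ⧸ (A ⊓ B)) := by
  let f : Q →* (Q ⧸ A) × (Q ⧸ B) := (QuotientGroup.mk' A).prod (QuotientGroup.mk' B)
  have hk : f.ker = A ⊓ B := by
    ext x
    simp only [f, MonoidHom.mem_ker, MonoidHom.prod_apply, Prod.mk_eq_one, mem_inf]
    rw [← MonoidHom.mem_ker, ← MonoidHom.mem_ker, QuotientGroup.ker_mk', QuotientGroup.ker_mk']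
  exact solvable_quot_ker inferInstance f _ hk

theorem exists_solvable_inf {Q : Type*} [Group Q] (s : Finset ℕ) (C : ℕ → Subgroup Q) (hn : ∀ i, (C i).Normal)
    (hC : ∀ i ∈ s, Group.IsSolvable (Q ⧸ (C i))) :
    ∃ D : Subgroup Q, ∃ _ : D.Normal, (∀ i ∈ s, D ≤ C i) ∧ Group.IsSolvable (Q ⧸ D) := by
  classical
  induction s using Finset.induction_on with
  | empty =>
    refine ⟨⊤, inferInstance, by simp, ?_⟩
    have : Subsingleton (Q ⧸ (⊤ : Subgroup Q)) := QuotientGroup.subsingleton_quotient_top
    infer_instance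
  | insert a s ha ih =>
    obtain ⟨D, hD, h1, h2⟩ := ih (fun i hi => hC i (Finset.mem_insert_of_mem hi))
    have := hn a
    refine ⟨D ⊓ C a, inferInstance, ?_, solvable_quot_inf D (C a) h2 (hC a (Finset.mem_insert_self _ _))⟩
    intro i hi
    rcases Finset.mem_insert.1 hi with rfl | hi
    · exact inf_le_right
    · exact inf_le_left.trans (h1 i hi)

/-- A group with a normal Hall subgroup `K` that is a solvable Frobenius complement and without nontrivial normal
subgroups of order coprime to `|K|` is solvable. -/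
theorem solvable_of_hall {Q : Type*} [Group Q] [Finite Q] (K : Subgroup Q) [hK : K.Normal] (hs : Group.IsSolvable K)
    (hO : Occurs K) (hcop : (Nat.card K).Coprime K.index)
    (hcore : ∀ B : Subgroup Q, B.Normal → (Nat.card B).Coprime (Nat.card K) → B = ⊥) : Group.IsSolvable Q := by
  obtain ⟨V, _, _, _, act, hf⟩ := to_action hO
  have hKn : normalizer (K : Set Q) = ⊤ := normalizer_eq_top K
  -- the centralizers
  have hPn : ∀ p : ℕ, (pCoreOf p K).Normal := by
    intro p
    rw [← normalizer_eq_top_iff, eq_top_iff, ← hKn]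
    exact LocBase.normalizer_le_normalizer_pCoreOf p K
  have hCn : ∀ p : ℕ, (centralizer (pCoreOf p K : Set Q)).Normal := fun p => by
    have := hPn p
    infer_instance
  obtain ⟨D, hD, hD1, hD2⟩ := exists_solvable_inf (Nat.card K).primeFactors (fun p => centralizer (pCoreOf p K : Set Q))
    hCn (by
      intro p hp
      have hpp := Nat.prime_of_mem_primeFactors hp
      have := Fact.mk hpp
      have := hPn p
      apply solvable_quot_centralizer
      have hle : pCoreOf p K ≤ K := LocBase.pCoreOf_le K
      have hpg : IsPGroup p (pCoreOf p K) := LocBase.isPGroup_pCoreOf p K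
      rcases pgroup_cyclic_or_quaternion (hf.comp (inclusion hle) (inclusion_injective hle)) hpg with h | ⟨_, h⟩
      · exact Or.inl h
      · exact Or.inr h)
  -- `D` centralizes the Fitting subgroup of `K`
  have hDF : D ≤ centralizer (fittingOf K : Set Q) := by
    apply Cfsg.Agent.Lib.BG08.le_centralizer_fittingOf
    intro p hp
    by_cases hpK : p ∣ Nat.card K
    · exact hD1 p (Nat.mem_primeFactors.2 ⟨hp, hpK, Nat.card_pos.ne'⟩)
    · have hbot : pCoreOf p K = ⊥ := by
        have := Fact.mk hp
        have hpg : IsPGroup p (pCoreOf p K) := LocBase.isPGroup_pCoreOf p K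
        rcases hpg.card_eq_or_dvd with h | h
        · exact Subgroup.card_eq_one.1 h
        · exact absurd (h.trans (Subgroup.card_dvd_of_le (LocBase.pCoreOf_le K))) hpK
      rw [hbot]
      intro x _
      rw [mem_centralizer_iff]
      intro y hy
      have hy' : y = 1 := hy
      rw [hy']; simp
  have hDK : D ⊓ K ≤ fittingOf K := by
    intro x hx
    exact Cfsg.Agent.Lib.BG08.inf_centralizer_fittingOf_le hs ⟨hx.2, hDF hx.1⟩
  have hcent : ∀ z ∈ D ⊓ K, ∀ d ∈ D, d * z = z * d := by
    intro z hz d hd
    exact (mem_centralizer_iff.1 (hDF hd) z (hDK hz)).symm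
  -- a complement
  have hrel : K.relIndex D ∣ K.index := Subgroup.relIndex_dvd_index_of_normal K D
  have hcD : (Nat.card (K ⊓ D : Subgroup Q)).Coprime (K.relIndex D) :=
    (hcop.coprime_dvd_left (Subgroup.card_dvd_of_le inf_le_left)).coprime_dvd_right hrel
  obtain ⟨B, hBD, hBc, hKB, hsup⟩ := CoprimeAction.exists_complement_rel (N := K) (S := D)
    (by rw [hKn]; exact le_top) hcD
  have hBcop : (Nat.card B).Coprime (Nat.card K) := by
    rw [hBc]; exact (hcop.coprime_dvd_right hrel).symm
  have hBn : B.Normal := by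
    refine ⟨fun b hb g => ?_⟩
    have h1 : g * b * g⁻¹ ∈ D := hD.conj_mem b (hBD hb) g
    have hZn : (K ⊓ D : Subgroup Q).Normal := inferInstance
    rw [← hsup] at h1
    obtain ⟨z, hz, b', hb', hzb⟩ := (Subgroup.mem_sup_of_normal_left).mp h1
    have hcomm : Commute z b' := (hcent z ⟨hz.2, hz.1⟩ b' (hBD hb')).symm
    have h2 : (g * b * g⁻¹) ^ Nat.card B = 1 := by
      have : b ^ Nat.card B = 1 := by
        have := pow_card_eq_one' (x := (⟨b, hb⟩ : B))
        exact congrArg Subtype.val this
      rw [conj_pow, this]; simp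
    have h3 : b' ^ Nat.card B = 1 := by
      have := pow_card_eq_one' (x := (⟨b', hb'⟩ : B))
      exact congrArg Subtype.val this
    rw [← hzb, hcomm.mul_pow, h3, mul_one] at h2
    have h4 : z ^ Nat.card K = 1 := by
      have := pow_card_eq_one' (x := (⟨z, hz.1⟩ : K))
      exact congrArg Subtype.val this
    have h5 : z = 1 := by
      have h6 := Nat.dvd_gcd (orderOf_dvd_of_pow_eq_one h2) (orderOf_dvd_of_pow_eq_one h4)
      rw [hBcop] at h6
      exact orderOf_eq_one_iff.1 (Nat.dvd_one.1 h6)
    rw [← hzb, h5, one_mul]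
    exact hb'
  have hB := hcore B hBn hBcop
  have hDK' : D ≤ K := by
    rw [hB, sup_bot_eq] at hsup
    rw [← hsup]; exact inf_le_left
  have hDs : Group.IsSolvable D :=
    Group.isSolvable_of_isSolvable_injective (f := inclusion hDK') (inclusion_injective hDK')
  exact Group.isSolvable_of_ker_le_range D.subtype (QuotientGroup.mk' D) (by simp)

end Cfsg.Agent.Lib.TIHall
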