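import Cfsg.Prelude
import Cfsg.Agent.Lib.CharBasic2
import Cfsg.Agent.Lib.DefectZero
import Cfsg.Agent.Lib.PermRepBasic
import Cfsg.Agent.Lib.SylowTools

/-!
# Fixed vectors and traces from a TI Sylow subgroup (helper79)

`exists_valSub`: a valuation ring of `ℂ` containing the algebraic integers with `p` a nonunit.
`card_le_finrank`: if `P` is a TI Sylow `p`-subgroup, `N_G(P) ≤ H`, `V` is a complex representation
without nonzero `G`-fixed vectors and with a nonzero `H`-fixed vector then `|P| ≤ dim V`.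
-/

open Cfsg Cfsg.Agent.Lib Cfsg.Agent.Lib.CharBasic Cfsg.Agent.Lib.DefectZero

namespace Cfsg.Agent.Lib.TITrace

open scoped Pointwise

theorem exists_valSub (p : ℕ) [hp : Fact p.Prime] :
    ∃ B : ValuationSubring ℂ, (∀ x : ℂ, IsIntegral ℤ x → x ∈ B) ∧ (p : ℂ) ∈ B.nonunits := by
  let A : Subring ℂ := (integralClosure ℤ ℂ).toSubring
  let pA : A := ⟨(p : ℂ), isIntegral_algebraMap (x := (p : ℤ))⟩
  have hI : Ideal.span {pA} ≠ ⊤ := by
    intro h
    rw [Ideal.span_singleton_eq_top] at h
    obtain ⟨u, hu⟩ := h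
    have h1 : (1 : A) = pA * (↑u⁻¹ : A) := by rw [← hu]; simp
    have h2 : ((1 : ℕ) : ℂ) = (p : ℂ) * (((↑u⁻¹ : A)) : ℂ) := by
      have := congrArg Subtype.val h1
      simpa using this
    have h3 := dvd_of_eq_mul_isIntegral hp.out.ne_zero (↑u⁻¹ : A).2 h2
    exact hp.out.one_lt.ne' (Nat.dvd_one.mp h3)
  obtain ⟨B, hB1, hB2⟩ := Ideal.image_subset_nonunits_valuationSubring _ hI
  exact ⟨B, fun x hx => hB1 hx, hB2 ⟨pA, Ideal.mem_span_singleton_self _, rfl⟩⟩

/-- Normalizing a finite nonzero family. -/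
theorem normalize (B : ValuationSubring ℂ) {ι : Type*} [Finite ι] (c : ι → ℂ) {i₀ : ι}
    (h : c i₀ ≠ 0) : ∃ i, c i ≠ 0 ∧ ∀ j, (c i)⁻¹ * c j ∈ B := by
  have : Nonempty ι := ⟨i₀⟩
  obtain ⟨i, hi⟩ := Finite.exists_max (fun i => B.valuation (c i))
  have hi0 : c i ≠ 0 := by
    intro h0
    have h1 := hi i₀
    rw [h0, map_zero] at h1
    exact h ((map_eq_zero _).mp (le_zero_iff.mp h1))
  refine ⟨i, hi0, fun j => ?_⟩
  rw [← B.valuation_le_one_iff, map_mul, map_inv₀]
  have h1 : B.valuation (c i) ≠ 0 := (map_ne_zero _).mpr hi0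
  rw [inv_mul_le_iff₀ (zero_lt_iff.mpr h1), mul_one]
  exact hi j

theorem group_matrix {P : Type*} [Group P] [Fintype P] {p : ℕ} [hp : Fact p.Prime]
    (hP : IsPGroup p P) {F : Type*} [Field F] [CharP F p] (a : P → F) (ha : ∑ y, a y ≠ 0)
    (c : P → F) (h : ∀ x, ∑ y, a (x * y) * c y = 0) : c = 0 := by
  classical
  by_contra hc
  let W : Submodule F (P → F) :=
    { carrier := {c | ∀ x, ∑ y, a (x * y) * c y = 0}
      zero_mem' := by intro x; simp
      add_mem' := by
        intro c d hc hd x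
        simp only [Pi.add_apply, mul_add, Finset.sum_add_distrib, hc x, hd x, add_zero]
      smul_mem' := by
        intro r c hc x
        simp only [Pi.smul_apply, smul_eq_mul]
        have : ∀ y, a (x * y) * (r * c y) = r * (a (x * y) * c y) := fun y => by ring
        simp only [this, ← Finset.mul_sum, hc x, mul_zero] }
  have hW : W ≠ ⊥ := by
    intro hb
    have : c ∈ W := h
    rw [hb, Submodule.mem_bot] at this
    exact hc this
  have hinv : ∀ g : P, ∀ v ∈ W, Cfsg.permRep F P P g v ∈ W := by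
    intro g v hv x
    have h1 := hv (x * g)
    rw [← h1]
    apply Fintype.sum_equiv (Equiv.mulLeft g⁻¹)
    intro y
    rw [PermRepBasic.permRep_apply]
    simp [mul_assoc]
  obtain ⟨v, hv, hv0, hfix⟩ := PermRepBasic.exists_fixed hP (Cfsg.permRep F P P) W hW hinv
  have hconst : ∀ y, v y = v 1 := by
    intro y
    have h1 := congrFun (hfix y) y
    rw [PermRepBasic.permRep_apply, smul_eq_mul, inv_mul_cancel] at h1
    exact h1.symm
  have h1 := hv 1
  simp only [one_mul, hconst, ← Finset.sum_mul] at h1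
  rcases mul_eq_zero.mp h1 with h2 | h2
  · exact ha h2
  · apply hv0
    ext y
    rw [hconst, h2]; rfl

/-- The linear independence criterion. -/
theorem linearIndependent {P : Type*} [Group P] [Fintype P] {p : ℕ} [hp : Fact p.Prime]
    (hP : IsPGroup p P) (B : ValuationSubring ℂ) (hB : (p : ℂ) ∈ B.nonunits)
    {V : Type*} [AddCommGroup V] [Module ℂ V] (ρ : Representation ℂ P V) (w : V)
    (f : V →ₗ[ℂ] ℂ) (h1 : ∀ x : P, f (ρ x w) ∈ B) (h2 : ∑ x : P, f (ρ x w) ∉ B.nonunits) :
    LinearIndependent ℂ (fun y : P => ρ y w) := by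
  classical
  rw [Fintype.linearIndependent_iff]
  intro c hc
  by_contra hcon
  push Not at hcon
  obtain ⟨i₀, hi₀⟩ := hcon
  obtain ⟨i, hi, hij⟩ := normalize B c hi₀
  let F := IsLocalRing.ResidueField B
  let π : B →+* F := IsLocalRing.residue B
  have hπ : ∀ b : B, π b = 0 ↔ (b : ℂ) ∈ B.nonunits := by
    intro b
    rw [IsLocalRing.residue_eq_zero_iff, ValuationSubring.mem_nonunits_iff_exists_mem_maximalIdeal]
    constructor
    · intro h; exact ⟨b.2, h⟩
    · rintro ⟨_, h⟩; exact h
  have hchar : CharP F p := by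
    have h3 : ((p : ℕ) : F) = 0 := by
      have h4 : π (p : B) = 0 := (hπ _).mpr (by simpa using hB)
      rw [map_natCast] at h4
      exact h4
    exact (CharP.charP_iff_prime_eq_zero hp.out).mpr h3
  let a : P → F := fun y => π ⟨f (ρ y w), h1 y⟩
  let c' : P → F := fun y => π ⟨(c i)⁻¹ * c y, hij y⟩
  have ha : ∑ y, a y ≠ 0 := by
    simp only [a, ← map_sum]
    rw [Ne, hπ]
    simpa using h2
  have h0 := group_matrix hP a ha c' (by
    intro x
    have h5 := congrArg (fun v => f (ρ x v)) hc
    simp only [map_sum, map_smul, map_zero, smul_eq_mul] at h5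
    simp only [a, c', ← map_mul, ← map_sum]
    rw [hπ]
    have h6 : (∑ y : P, ((⟨f (ρ (x * y) w), h1 (x * y)⟩ : B) * ⟨(c i)⁻¹ * c y, hij y⟩) : B) = 0 := by
      apply Subtype.ext
      push_cast
      have h7 : ∀ y : P, f (ρ (x * y) w) * ((c i)⁻¹ * c y) = (c i)⁻¹ * (c y * f (ρ x (ρ y w))) := by
        intro y
        rw [map_mul, Module.End.mul_apply]; ring
      simp only [h7, ← Finset.mul_sum, h5, mul_zero]
    rw [h6]
    simp)
  have h3 := congrFun h0 i
  have h4 : (⟨(c i)⁻¹ * c i, hij i⟩ : B) = 1 := Subtype.ext (inv_mul_cancel₀ hi)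
  simp only [c', h4, map_one, Pi.zero_apply] at h3
  exact one_ne_zero h3

variable {G : Type*} [Group G]

/-- In the TI situation, `P` acts freely on the nontrivial cosets of `H`. -/
theorem stab_trivial [Finite G] {p : ℕ} [Fact p.Prime] (P : Sylow p G)
    (hTI : ∀ g : G, g ∉ Subgroup.normalizer ((P : Subgroup G) : Set G) →
      (P : Subgroup G) ⊓ (MulAut.conj g • (P : Subgroup G)) = ⊥)
    {H : Subgroup G} (hH : Subgroup.normalizer ((P : Subgroup G) : Set G) ≤ H)
    {g x : G} (hx : x ∈ (P : Subgroup G)) (hg : g ∉ H) (h : g⁻¹ * x * g ∈ H) : x = 1 := by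
  by_contra hx1
  have hPH : (P : Subgroup G) ≤ H := Subgroup.le_normalizer.trans hH
  obtain ⟨k, hk, hkP⟩ := SylowTools.conj_elem_into_of_subgroup hPH P.isPGroup'
    (SylowTools.not_dvd_relIndex_of_sylow P hPH) h (by
      have h1 := IsPGroup.iff_orderOf.mp P.isPGroup' ⟨x, hx⟩
      obtain ⟨n, hn⟩ := h1
      refine ⟨n, ?_⟩
      have h2 : orderOf (g⁻¹ * x * g) = orderOf x := by
        have := MulEquiv.orderOf_eq (MulAut.conj g⁻¹) x
        simpa using this
      rw [h2, ← hn]
      exact Subgroup.orderOf_coe (⟨x, hx⟩ : (P : Subgroup G)))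
  have hu : k * g⁻¹ ∈ H := by
    by_contra hu
    have h1 := hTI (k * g⁻¹) (fun hn => hu (hH hn))
    have h2 : (k * g⁻¹) * x * (k * g⁻¹)⁻¹ ∈ (P : Subgroup G) ⊓ (MulAut.conj (k * g⁻¹) • (P : Subgroup G)) := by
      refine ⟨?_, ?_⟩
      · have : k * g⁻¹ * x * (k * g⁻¹)⁻¹ = k * (g⁻¹ * x * g) * k⁻¹ := by group
        rw [this]; exact hkP
      · exact ⟨x, hx, rfl⟩
    rw [h1, Subgroup.mem_bot] at h2
    exact hx1 (conj_eq_one_iff.mp h2)
  apply hg
  have : g = (k * g⁻¹)⁻¹ * k := by group
  rw [this]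
  exact H.mul_mem (H.inv_mem hu) hk

theorem card_le_finrank [Finite G] {p : ℕ} [Fact p.Prime] (P : Sylow p G)
    (hTI : ∀ g : G, g ∉ Subgroup.normalizer ((P : Subgroup G) : Set G) →
      (P : Subgroup G) ⊓ (MulAut.conj g • (P : Subgroup G)) = ⊥)
    {H : Subgroup G} (hH : Subgroup.normalizer ((P : Subgroup G) : Set G) ≤ H)
    {V : Type*} [AddCommGroup V] [Module ℂ V] [FiniteDimensional ℂ V] (ρ : Representation ℂ G V)
    (hG : ∀ v : V, (∀ g, ρ g v = v) → v = 0) {v : V} (hv : v ≠ 0) (hvH : ∀ h ∈ H, ρ h v = v) :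
    Nat.card (P : Subgroup G) ≤ Module.finrank ℂ V := by
  classical
  have := Fintype.ofFinite G
  have := Fintype.ofFinite (P : Subgroup G)
  have hPH : (P : Subgroup G) ≤ H := Subgroup.le_normalizer.trans hH
  obtain ⟨B, -, hB⟩ := exists_valSub p
  obtain ⟨f₀, hf₀⟩ : ∃ f : Module.Dual ℂ V, f v ≠ 0 := by
    by_contra hcon
    push Not at hcon
    exact hv ((Module.forall_dual_apply_eq_zero_iff ℂ v).mp hcon)
  obtain ⟨g₀, hg₀, hB2⟩ := normalize B (fun g : G => f₀ (ρ g v)) (i₀ := 1) (by simpa using hf₀)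
  let f : V →ₗ[ℂ] ℂ := (f₀ (ρ g₀ v))⁻¹ • (f₀ ∘ₗ ρ g₀)
  have hf : ∀ g, f (ρ g v) ∈ B := by
    intro g
    have := hB2 (g₀ * g)
    simp only [map_mul, Module.End.mul_apply] at this
    exact this
  have hf1 : f v = 1 := by
    simp only [f, LinearMap.smul_apply, LinearMap.comp_apply, smul_eq_mul]
    exact inv_mul_cancel₀ hg₀
  -- the function on cosets
  let F : G ⧸ H → V := Quotient.lift (fun g : G => ρ g v) (by
    intro a b hab
    have h1 : a⁻¹ * b ∈ H := QuotientGroup.leftRel_apply.mp hab
    have h2 := hvH _ h1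
    have h3 : ρ b v = ρ a (ρ (a⁻¹ * b) v) := by
      rw [← Module.End.mul_apply, ← map_mul]; congr 2; group
    show ρ a v = ρ b v
    rw [h3, h2])
  have hF : ∀ g : G, F (QuotientGroup.mk g) = ρ g v := fun g => rfl
  have hF2 : ∀ (g : G) (c : G ⧸ H), F (g • c) = ρ g (F c) := by
    intro g c
    induction c using QuotientGroup.induction_on with
    | H a =>
      rw [hF]
      show ρ (g * a) v = ρ g (ρ a v)
      rw [map_mul]; rfl
  have := Fintype.ofFinite (G ⧸ H)
  have hsum : ∑ c : G ⧸ H, F c = 0 := by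
    apply hG
    intro g
    rw [map_sum]
    apply Fintype.sum_equiv (MulAction.toPerm g)
    intro c
    rw [← hF2]; rfl
  -- the nontrivial cosets
  let e : G ⧸ H := QuotientGroup.mk 1
  have hfixe : ∀ x : (P : Subgroup G), x • e = e := by
    intro x
    show (QuotientGroup.mk ((x : G) * 1) : G ⧸ H) = QuotientGroup.mk 1
    rw [QuotientGroup.eq]
    simpa using hPH x.2
  let X := {c : G ⧸ H // c ≠ e}
  let _ : MulAction (P : Subgroup G) X :=
    { smul := fun x c => ⟨x • c.1, fun h => c.2 (by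
        have h1 : x⁻¹ • (x • c.1) = x⁻¹ • e := by rw [h]
        rwa [inv_smul_smul, hfixe] at h1)⟩
      one_smul := fun c => Subtype.ext (one_smul _ _)
      mul_smul := fun x y c => Subtype.ext (mul_smul _ _ _) }
  have hsm : ∀ (x : (P : Subgroup G)) (c : X), ((x • c : X) : G ⧸ H) = (x : G) • (c : G ⧸ H) :=
    fun _ _ => rfl
  have hfree : ∀ (x : (P : Subgroup G)) (c : X), x • c = c → x = 1 := by
    rintro x ⟨c, hc⟩ h
    have h1 := congrArg Subtype.val h
    rw [hsm] at h1
    simp only at h1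
    induction c using QuotientGroup.induction_on with
    | H g =>
      have h2 : (QuotientGroup.mk ((x : G) * g) : G ⧸ H) = QuotientGroup.mk g := h1
      have h3 : g⁻¹ * (x : G) * g ∈ H := by
        have := QuotientGroup.eq.mp h2.symm
        rwa [← mul_assoc] at this
      have h4 : g ∉ H := by
        intro hg
        apply hc
        show (QuotientGroup.mk g : G ⧸ H) = QuotientGroup.mk 1
        rw [QuotientGroup.eq]
        simpa using H.inv_mem hg
      exact Subtype.ext (stab_trivial P hTI hH x.2 h4 h3)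
  let Ω := Quotient (MulAction.orbitRel (P : Subgroup G) X)
  have := Fintype.ofFinite Ω
  let w : V := ∑ ω : Ω, F (ω.out : X).1
  have hw : ∑ x : (P : Subgroup G), ρ (x : G) w = -v := by
    have h1 : ∑ x : (P : Subgroup G), ρ (x : G) w = ∑ q : ↥(P : Subgroup G) × Ω, F (q.1 • (q.2.out : X)).1 := by
      rw [Fintype.sum_prod_type]
      apply Finset.sum_congr rfl
      intro x _
      rw [map_sum]
      apply Finset.sum_congr rfl
      intro ω _
      rw [hsm, hF2]
    have h2 : ∑ q : ↥(P : Subgroup G) × Ω, F (q.1 • (q.2.out : X)).1 = ∑ c : X, F c.1 := by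
      apply Fintype.sum_bijective (fun q : ↥(P : Subgroup G) × Ω => q.1 • (q.2.out : X))
      · constructor
        · rintro ⟨x, ω⟩ ⟨y, ω'⟩ h
          simp only at h
          have h3 : ω = ω' := by
            rw [← Quotient.out_eq ω, ← Quotient.out_eq ω']
            apply Quotient.sound
            show _ ∈ MulAction.orbit _ _
            refine ⟨x⁻¹ * y, ?_⟩
            show (x⁻¹ * y) • (ω'.out : X) = ω.out
            rw [mul_smul, ← h, inv_smul_smul]
          subst h3
          have h4 : (y⁻¹ * x) • (ω.out : X) = ω.out := by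
            rw [mul_smul, h, inv_smul_smul]
          have h5 := hfree _ _ h4
          rw [inv_mul_eq_one] at h5
          rw [h5]
        · intro c
          let ω : Ω := Quotient.mk _ c
          have h3 : (MulAction.orbitRel (P : Subgroup G) X) c ω.out := by
            have := Quotient.mk_out (s := MulAction.orbitRel (P : Subgroup G) X) c
            exact Setoid.symm' _ this
          obtain ⟨x, hx⟩ := h3
          exact ⟨(x, ω), hx⟩
      · intro q; rfl
    rw [h1, h2]
    have h3 : ∑ c : G ⧸ H, F c = F e + ∑ c : X, F c.1 := by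
      exact Fintype.sum_eq_add_sum_subtype_ne F e
    have h4 : F e = v := by
      show ρ 1 v = v
      rw [map_one]; rfl
    rw [hsum, h4] at h3
    exact (neg_eq_of_add_eq_zero_right h3.symm).symm
  let σ : Representation ℂ (P : Subgroup G) V := ρ.comp (P : Subgroup G).subtype
  have hlin := linearIndependent P.isPGroup' B hB σ w f (by
    intro x
    show f (ρ (x : G) w) ∈ B
    simp only [w, map_sum]
    apply sum_mem
    intro ω _
    rw [← hF2]
    generalize ((x : G) • (ω.out : X).1 : G ⧸ H) = c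
    induction c using QuotientGroup.induction_on with
    | H a => rw [hF]; exact hf a) (by
    have h1 : ∑ x : (P : Subgroup G), f (σ x w) = -1 := by
      have h2 := congrArg f hw
      rw [map_sum, map_neg, hf1] at h2
      exact h2
    rw [h1]
    intro h2
    have h3 : (1 : ℂ) ∈ B.nonunits := by
      rw [ValuationSubring.mem_nonunits_iff] at h2 ⊢
      rwa [Valuation.map_neg] at h2
    rw [ValuationSubring.mem_nonunits_iff, map_one] at h3
    exact lt_irrefl _ h3)
  have := hlin.fintype_card_le_finrank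
  rwa [Nat.card_eq_fintype_card]

/-- A character is the sum of a multiple of the trivial character and a character orthogonal to
it. -/
theorem split_trivial [Fintype G] {α : G → ℂ} (hα : IsCharacter G α) :
    ∃ (m : ℕ) (β : G → ℂ), classInner α 1 = m ∧ IsCharacter G β ∧ classInner β 1 = 0 ∧
      α = (m : ℂ) • (1 : G → ℂ) + β := by
  classical
  obtain ⟨m, hm⟩ := hα.classInner_nat (isCharacter_one (G := G))
  have h1 : classInner (α - (m : ℂ) • (1 : G → ℂ)) 1 = 0 := by
    rw [classInner_sub_left, classInner_smul_left, hm, isIrrCharacter_one.classInner_self]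
    ring
  refine ⟨m, α - (m : ℂ) • (1 : G → ℂ), hm, ?_, h1, by abel⟩
  apply isCharacter_of_classInner
  · exact hα.isClassFunction.sub (isCharacter_one.natCast_smul m).isClassFunction
  · intro ψ hψ
    by_cases h : ψ = 1
    · subst h
      exact ⟨0, by rw [h1]; simp⟩
    · obtain ⟨n, hn⟩ := hα.classInner_nat hψ.isCharacter
      refine ⟨n, ?_⟩
      rw [classInner_sub_left, classInner_smul_left, hn,
        isIrrCharacter_one.classInner_eq hψ, if_neg (Ne.symm h)]
      ring

theorem classInner_one_restrict [Fintype G] {p : ℕ} [Fact p.Prime] (P : Sylow p G)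
    (hTI : ∀ g : G, g ∉ Subgroup.normalizer ((P : Subgroup G) : Set G) →
      (P : Subgroup G) ⊓ (MulAut.conj g • (P : Subgroup G)) = ⊥)
    {H : Subgroup G} [Fintype H] (hH : Subgroup.normalizer ((P : Subgroup G) : Set G) ≤ H)
    {β : G → ℂ} (hβ : IsCharacter G β) (h0 : classInner β 1 = 0)
    (hd : charDegree β < Nat.card (P : Subgroup G)) :
    classInner (fun h : H => β h) 1 = 0 := by
  classical
  have hdeg := charDegree_eq hβ
  obtain ⟨n, ρ, rfl⟩ := hβ
  rw [classInner_one_eq_finrank_invariants] at h0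
  have h1 : Representation.invariants ρ = ⊥ := by
    rw [← Submodule.finrank_eq_zero (R := ℂ)]
    exact_mod_cast h0
  let σ : Representation ℂ H (Fin n → ℂ) := ρ.comp H.subtype
  have h2 : (fun h : H => ρ.character h) = σ.character := rfl
  rw [h2, classInner_one_eq_finrank_invariants]
  by_contra hne
  have h3 : Representation.invariants σ ≠ ⊥ := by
    intro h3
    apply hne
    rw [h3]
    simp
  obtain ⟨v, hv, hv0⟩ := (Submodule.ne_bot_iff _).mp h3
  have h4 := card_le_finrank P hTI hH ρ (by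
    intro u hu
    have h5 : u ∈ Representation.invariants ρ := hu
    rw [h1, Submodule.mem_bot] at h5
    exact h5) hv0 (fun h hh => hv ⟨h, hh⟩)
  rw [Representation.char_one] at hdeg
  have h6 : charDegree ρ.character = Module.finrank ℂ (Fin n → ℂ) := by exact_mod_cast hdeg
  omega

/-- Characters of small degree: `[χ, χ]_G = [χ_H, χ_H]_H`. -/
theorem classInner_restrict_eq [Fintype G] {p : ℕ} [Fact p.Prime] (P : Sylow p G)
    (hTI : ∀ g : G, g ∉ Subgroup.normalizer ((P : Subgroup G) : Set G) →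
      (P : Subgroup G) ⊓ (MulAut.conj g • (P : Subgroup G)) = ⊥)
    {H : Subgroup G} [Fintype H] (hH : Subgroup.normalizer ((P : Subgroup G) : Set G) ≤ H)
    {χ : G → ℂ} (hχ : IsCharacter G χ)
    (hd : charDegree χ ^ 2 ≤ Nat.card (P : Subgroup G)) :
    classInner χ χ = classInner (fun h : H => χ h) (fun h : H => χ h) := by
  classical
  by_cases hχ0 : χ = 0
  · subst hχ0
    simp [classInner]
  let α : G → ℂ := χ * (fun g => starRingEnd ℂ (χ g))
  have hα : IsCharacter G α := hχ.mul hχ.conj
  obtain ⟨m, β, hm, hβ, hβ0, hαβ⟩ := split_trivial hα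
  have h1 : classInner χ χ = classInner α 1 := by
    simp [classInner, α]
  have h2 : classInner (fun h : H => χ h) (fun h : H => χ h) = classInner (fun h : H => α h) 1 := by
    simp [classInner, α]
  rw [h1, h2, hm]
  have h3 : (fun h : H => α h) = (m : ℂ) • (1 : H → ℂ) + (fun h : H => β h) := by
    ext h
    rw [hαβ]; rfl
  rw [h3, classInner_add_left, classInner_smul_left, isIrrCharacter_one.classInner_self, mul_one]
  have hm0 : m ≠ 0 := by
    rintro rfl
    apply hχ0
    rw [← classInner_self_eq_zero, h1, hm]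
    simp
  have h4 : charDegree β < Nat.card (P : Subgroup G) := by
    have h5 := congrFun hαβ 1
    have h6 : α 1 = ((charDegree χ ^ 2 : ℕ) : ℂ) := by
      simp only [α, Pi.mul_apply]
      rw [← charDegree_eq hχ]
      simp [sq]
    rw [h6] at h5
    simp only [Pi.add_apply, Pi.smul_apply, Pi.one_apply, smul_eq_mul, mul_one] at h5
    rw [← charDegree_eq hβ] at h5
    have h7 : charDegree χ ^ 2 = m + charDegree β := by exact_mod_cast h5
    omega
  rw [classInner_one_restrict P hTI hH hβ hβ0 h4, add_zero]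

end Cfsg.Agent.Lib.TITrace
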