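import Cfsg.Agent.Lib.TameInt

/-!
# The central subsection
-/

set_option autoImplicit false
set_option linter.all false
set_option maxHeartbeats 400000

namespace Cfsg.Agent.Lib.Tame

open Cfsg Cfsg.Agent.Lib.BlockRing Cfsg.Agent.Lib.BlockGA Cfsg.Agent.Lib.BlockAlg
open Cfsg.Agent.Lib.BlkIdem Cfsg.Agent.Lib.PairAlg Cfsg.Agent.Lib.PairMax
open Cfsg.Agent.Lib.BlockIdem Cfsg.Agent.Lib.BlockSecond Cfsg.Agent.Lib.BrauerPairs
open Cfsg.Agent.Lib.BlkFus Cfsg.Agent.Lib.InducedPair Cfsg.Agent.Lib.DefPairs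
open Cfsg.Agent.Lib.BlkFusDef Cfsg.Agent.Lib.BlkTransport Cfsg.Agent.Lib.BlkNil
open Cfsg.Agent.Lib.H25BpLift Cfsg.Agent.Lib.H25BpTw Cfsg.Agent.Lib.H25BpF Cfsg.Agent.Lib.H25BpI
open Cfsg.Agent.Lib.H25BpE Cfsg.Agent.Lib.H25BpG Cfsg.Agent.Lib.H25BpW Cfsg.Agent.Lib.H25BpM
open Cfsg.Agent.Lib.H25BpS Cfsg.Agent.Lib.TameFour
open Cfsg.Agent.Lib.BlockCount (Bl D rsp rsp_orth sum_blockPart blockRank_eq)
open Cfsg.Agent.Lib.BlockPair (preg)
open Cfsg.Agent.Lib.Subsec (Cz mem_Cz al al_eq al_mem fs mem_fs sum_fs blockPart_eq D_reg D_not_reg D_mem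
  zz eps eps_mul eps_pow un un_loc un_height_zero D_one_val)
open MonoidAlgebra (single)
open scoped ComplexConjugate Classical Pointwise

universe u

variable {p : ℕ} [hp : Fact p.Prime] {M : Ideal AlgInt} [hMm : M.IsMaximal] [hchar : CharP (Kf M) p]
  {G : Type u} [Group G] [Finite G] {B : Set (IrrCharacter G)} {P : Subgroup G} {e : MonoidAlgebra (Kf M) G}

theorem br_mul_bid (h : Ctx p B P e) {N : Subgroup G} (hPN : P ≤ N) {b : Set (IrrCharacter N)}
    {e' : MonoidAlgebra (Kf M) N} (hb : Ctx p b (P.subgroupOf N) e') (he : inc N e' = e)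
    {V : Subgroup G} (hV : V ≤ P) (hVN : Subgroup.centralizer (V : Set G) ≤ N)
    (hNV : N ≤ Subgroup.normalizer (V : Set G)) :
    BrauerMap.br V (bidG M B) * bid M N b = bid M N b := by
  have hf : IsBlk N (bid M N b) := isBlk_bid hb.blk
  have hVp : IsPGroup p V := h.pair.1.to_le hV
  have hB'f : bidG M B ∈ BrauerMap.fixAlg (Kf M) (⊤ : Subgroup G) := (bidG_mem B).2
  have hz : BrauerMap.br V (bidG M B) ∈ BrauerMap.ZAlg (Kf M) N := by
    refine ⟨BrauerMap.suppAlg_mono hVN (BrauerMap.br_mem_suppAlg V _), ?_⟩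
    exact BrauerMap.br_mem_fixAlg hNV (BrauerMap.fixAlg_anti le_top hB'f)
  have hidem : BrauerMap.br V (bidG M B) * BrauerMap.br V (bidG M B) = BrauerMap.br V (bidG M B) :=
    br_idem hVp (bidG_mul_self h.blk) (fun x _ => hB'f x (Subgroup.mem_top x))
  rcases hf.mul_idem hz hidem with h1 | h0
  · exact h1
  · exfalso
    have h2 := br_bid hPN hb he
    have hfP : bid M N b ∈ BrauerMap.fixAlg (Kf M) P := BrauerMap.fixAlg_anti hPN hf.mem.2
    have hzP : BrauerMap.br V (bidG M B) ∈ BrauerMap.fixAlg (Kf M) P :=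
      BrauerMap.fixAlg_anti hPN hz.2
    have h4 := congrArg (BrauerMap.br P) h0
    rw [BrauerMap.br_mul (p := p) h.pair.1 hzP hfP, BrauerMap.br_br hV, BrauerMap.br_zero] at h4
    apply h.pair.2.ne_zero
    calc e = BrauerMap.br P (bidG M B) * e := h.br.symm
      _ = BrauerMap.br P (bidG M B) * (BrauerMap.br P (bid M N b) * e) := by rw [h2]
      _ = 0 := by rw [← mul_assoc, h4, zero_mul]

/-- roots of unity are units -/
theorem unit_of_pow [M.IsPrime] {w : ℂ} {n : ℕ} (hn : 0 < n) (hw : w ^ n = 1) :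
    MemLocalRing M w ∧ ¬ MemLocalIdeal M w := by
  have hint : IsIntegral ℤ w := by
    refine IsIntegral.of_pow hn ?_
    rw [hw]; exact isIntegral_one
  refine ⟨loc_of_isIntegral hint, fun h => ?_⟩
  have h1 : MemLocalIdeal M (w ^ n) := by
    obtain ⟨k, rfl⟩ := Nat.exists_eq_succ_of_ne_zero hn.ne'
    rw [pow_succ']
    exact idl_mul_right h (loc_of_isIntegral (hint.pow k))
  rw [hw] at h1
  exact one_not_idl h1

namespace LD

variable {z : G} {b : Set (IrrCharacter (Cz z))} {e' : MonoidAlgebra (Kf M) (Cz z)}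
  {ξ : IrrCharacter (Cz z)}

theorem ind_z (L : LD p B P e (Cz z) b e' z ξ) : IsInducedBlock M (Cz z) b B := by
  have hVP : Subgroup.zpowers z ≤ P := by rw [Subgroup.zpowers_le]; exact L.hv
  rw [isInducedBlock_iff_br (Cz_eq_Cc z) (L.ctx.pair.1.to_le hVP) L.loc.blk L.ctx.blk]
  apply br_mul_bid L.ctx L.le L.loc L.inc hVP
  · intro x hx
    rw [mem_cz] at hx
    exact mem_Cz.2 hx
  · intro x hx
    exact (L.mem_iff x).1 hx

theorem defect_z {N : Subgroup G} {b : Set (IrrCharacter N)} {e' : MonoidAlgebra (Kf M) N} {v : G}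
    {ξ : IrrCharacter N} (L : LD p B P e N b e' v ξ) : blockDefect p b = blockDefect p B := by
  have h1 := L.loc.card_P
  rw [Nat.card_congr (Subgroup.subgroupOfEquivOfLe L.le).toEquiv, L.ctx.card_P] at h1
  exact (Nat.pow_right_injective hp.out.two_le h1).symm

/-- the element `z` of the defect group -/
def zP (L : LD p B P e (Cz z) b e' z ξ) : P.subgroupOf (Cz z) :=
  ⟨zz z, by rw [Subgroup.mem_subgroupOf]; exact L.hv⟩

theorem zz_central (z : G) (c : Cz z) : c * zz z * c⁻¹ = zz z := by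
  have h : c * zz z = zz z * c := Subtype.ext (mem_Cz.1 c.2).symm.eq
  rw [h, mul_inv_cancel_right]

theorem D_z (L : LD p B P e (Cz z) b e' z ξ) (χ : IrrCharacter G) :
    D p z b (χ : G → ℂ) 1 = tv p P e' ξ χ L.zP * (ξ : Cz z → ℂ) (zz z) := by
  have h1 : ¬ p ∣ orderOf (1 : Cz z) := by
    rw [orderOf_one]; exact hp.out.one_lt.not_ge ∘ Nat.le_of_dvd one_pos
  obtain ⟨k, hk⟩ := L.vpow
  have hpp : pp p (zz z) = zz z := (pp_eq (mul_one _) (Commute.one_right _)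
    ⟨k, by rw [← hk]; exact (Subgroup.orderOf_coe (zz z)).symm⟩ h1).1
  rw [D_reg h1, blockPart_section χ.2.isClassFunction (fun g hg => mem_Cz.1 hg)]
  have h2 := bp_tt (f := fun n : Cz z => (χ : G → ℂ) n) L.loc L.inn L.hξ L.h0 (u := L.zP) (g := zz z) (by
    intro c _
    refine ⟨1, Subgroup.one_mem _, ?_⟩
    rw [hpp, zz_central]
    show zz z = 1 * zz z * 1⁻¹
    group)
  rw [blockPart_eq_lin (χ.2.isCharacter.restrict (Cz z)).isClassFunction, center_comm (eB_mem_center b),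
    ← lin_incH (χ : G → ℂ), map_mul, incH_single] at h2
  refine Eq.trans ?_ h2
  congr 3
  simp [zz]

theorem tv_val (L : LD p B P e (Cz z) b e' z ξ) {χ : IrrCharacter G} (hχ : χ ∈ B) :
    MemLocalRing M (tv p P e' ξ χ L.zP / (p : ℂ) ^ blockHeight p B (χ : G → ℂ)) ∧
    ¬ MemLocalIdeal M (tv p P e' ξ χ L.zP / (p : ℂ) ^ blockHeight p B (χ : G → ℂ)) := by
  have := isPrime L.ctx.mod
  obtain ⟨k, hk⟩ := L.vpow
  have hz : z ^ p ^ k = 1 := by rw [← hk]; exact pow_orderOf_eq_one z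
  have h1 := D_one_val L.ctx.mod hz L.ind_z L.defect_z hχ
  have h2 := un_loc L.ctx.mod L.hξ
  rw [un_height_zero L.h0] at h2
  have h3 : (ξ : Cz z → ℂ) (zz z) = eps z (ξ : Cz z → ℂ) * (ξ : Cz z → ℂ) 1 := by
    have := eps_mul z ξ 1
    rwa [mul_one] at this
  have h4 := unit_of_pow (M := M) (pow_pos hp.out.pos k) (eps_pow z hz ξ)
  have h5 : (p : ℂ) ^ blockDefect p b * D p z b (χ : G → ℂ) 1 /
      ((Nat.card (Cz z) : ℂ) * (p : ℂ) ^ blockHeight p B (χ : G → ℂ)) =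
      (tv p P e' ξ χ L.zP / (p : ℂ) ^ blockHeight p B (χ : G → ℂ)) *
        (eps z (ξ : Cz z → ℂ) * ((p : ℂ) ^ blockDefect p b * (ξ : Cz z → ℂ) 1 / (Nat.card (Cz z) : ℂ))) := by
    rw [L.D_z, h3]
    have hN : (Nat.card (Cz z) : ℂ) ≠ 0 := by exact_mod_cast Nat.card_pos.ne'
    have hpp : (p : ℂ) ≠ 0 := by exact_mod_cast hp.out.ne_zero
    field_simp
  rw [h5] at h1
  have h6 : MemLocalRing M (eps z (ξ : Cz z → ℂ) * ((p : ℂ) ^ blockDefect p b * (ξ : Cz z → ℂ) 1 / (Nat.card (Cz z) : ℂ))) :=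
    loc_mul h4.1 h2.1
  have h7 : ¬ MemLocalIdeal M (eps z (ξ : Cz z → ℂ) * ((p : ℂ) ^ blockDefect p b * (ξ : Cz z → ℂ) 1 / (Nat.card (Cz z) : ℂ))) := by
    intro h
    rcases idl_mul_iff h4.1 h2.1 |>.1 h with h | h
    · exact h4.2 h
    · exact h2.2 h
  obtain ⟨U, hU⟩ : ∃ U, U = eps z (ξ : Cz z → ℂ) *
      ((p : ℂ) ^ blockDefect p b * (ξ : Cz z → ℂ) 1 / (Nat.card (Cz z) : ℂ)) := ⟨_, rfl⟩
  rw [← hU] at h1 h6 h7
  have hU0 : U ≠ 0 := ne_zero_of_not_idl h7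
  constructor
  · have h8 := loc_mul h1.1 (loc_inv h6 h7)
    rwa [mul_assoc, mul_inv_cancel₀ hU0, mul_one] at h8
  · intro h
    exact h1.2 (idl_mul_right h h6)

end LD

end Cfsg.Agent.Lib.Tame
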