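import Cfsg.Agent.Lib.TameStr2
import Cfsg.Agent.Lib.TameZ
import Cfsg.Agent.Lib.BlockHom

/-!
# The value at one of the local character of a character of a block
-/

set_option autoImplicit false
set_option linter.all false
set_option maxHeartbeats 400000

namespace Cfsg.Agent.Lib.Tame

open Cfsg Cfsg.Agent.Lib.BlockRing Cfsg.Agent.Lib.BlockGA Cfsg.Agent.Lib.BlockAlg
open Cfsg.Agent.Lib.BlkIdem Cfsg.Agent.Lib.PairAlg Cfsg.Agent.Lib.PairMax
open Cfsg.Agent.Lib.BlockIdem Cfsg.Agent.Lib.BlockSecond Cfsg.Agent.Lib.BrauerPairs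
open Cfsg.Agent.Lib.BlkFus Cfsg.Agent.Lib.InducedPair Cfsg.Agent.Lib.DefPairs
open Cfsg.Agent.Lib.BlkFusDef Cfsg.Agent.Lib.BlkTransport Cfsg.Agent.Lib.BlkNil
open Cfsg.Agent.Lib.H25BpLift Cfsg.Agent.Lib.H25BpTw Cfsg.Agent.Lib.H25BpF Cfsg.Agent.Lib.H25BpI
open Cfsg.Agent.Lib.H25BpE Cfsg.Agent.Lib.H25BpG Cfsg.Agent.Lib.H25BpW Cfsg.Agent.Lib.H25BpM
open Cfsg.Agent.Lib.H25BpS Cfsg.Agent.Lib.BlockRes Cfsg.Agent.Lib.BlockHom
open Cfsg.Agent.Lib.BlockCount (Bl D rsp rsp_orth sum_blockPart blockRank_eq)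
open Cfsg.Agent.Lib.BlockPair (preg)
open Cfsg.Agent.Lib.Subsec (Cz mem_Cz al al_eq al_mem fs mem_fs sum_fs blockPart_eq D_reg D_not_reg D_mem
  zz eps eps_mul eps_pow tr tr_center tr_locA lin_tr un un_loc un_height_zero not_idl_tr_one)
open MonoidAlgebra (single)
open scoped ComplexConjugate Classical Pointwise

universe u

variable {p : ℕ} [hp : Fact p.Prime] {M : Ideal AlgInt} [hMm : M.IsMaximal] [hchar : CharP (Kf M) p]
  {G : Type u} [Group G] [Finite G] {B : Set (IrrCharacter G)} {P : Subgroup G} {e : MonoidAlgebra (Kf M) G}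

omit hp hchar in
theorem inc_redA_brH {V N : Subgroup G} (hC : Subgroup.centralizer (V : Set G) ≤ N) (z : GA G) :
    inc N (redA M (brH V N z)) = BrauerMap.br V (redA M z) := by
  apply BrauerMap.ext_coeff; intro g
  by_cases hg : g ∈ N
  · have h1 := inc_coeff_coe (M := M) N (redA M (brH V N z)) ⟨g, hg⟩
    rw [h1, redA_coeff]
    by_cases hgc : g ∈ Subgroup.centralizer (V : Set G)
    · rw [coeff_brH_mem hgc, BrauerMap.br_coeff_mem hgc, redA_coeff]
    · have h2 : (brH V N z).coeff ⟨g, hg⟩ = 0 := coeff_brH_not_mem hgc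
      rw [h2, BrauerMap.br_coeff_not_mem hgc]
      exact red_zero
  · rw [inc_coeff_not_mem _ _ hg, BrauerMap.br_coeff_not_mem (fun h => hg (hC h))]

namespace LD

variable {N : Subgroup G} {b : Set (IrrCharacter N)} {e' : MonoidAlgebra (Kf M) N} {v : G}
  {ξ : IrrCharacter N}

theorem ind (L : LD p B P e N b e' v ξ) : IsInducedBlock M N b B := by
  have := isPrime L.ctx.mod
  have hVP : Subgroup.zpowers v ≤ P := by rw [Subgroup.zpowers_le]; exact L.hv
  have hC : Subgroup.centralizer ((Subgroup.zpowers v : Subgroup G) : Set G) ≤ N := by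
    intro x hx
    rw [mem_cz] at hx
    exact L.cent hx
  have hNV : N ≤ Subgroup.normalizer ((Subgroup.zpowers v : Subgroup G) : Set G) := fun x hx => (L.mem_iff x).1 hx
  have hVp : IsPGroup p (Subgroup.zpowers v) := L.ctx.pair.1.to_le hVP
  have h1 := br_mul_bid L.ctx L.le L.loc L.inc hVP hC hNV
  have hB'f : bidG M B ∈ BrauerMap.fixAlg (Kf M) (⊤ : Subgroup G) := (bidG_mem B).2
  have h2 : BlockAlg.inc N (redA M (brH (Subgroup.zpowers v) N (eB B))) = BrauerMap.br (Subgroup.zpowers v) (bidG M B) :=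
    inc_redA_brH hC (eB B)
  have h3 := (idem_mul_bid_iff L.loc.blk L.hξ (z := brH (Subgroup.zpowers v) N (eB B))
    (brH_center hNV (eB_mem_center B)) (locA_brH (locA_eB L.ctx.blk)) (by
      rw [h2]
      exact br_idem hVp (bidG_mul_self L.ctx.blk) (fun x _ => hB'f x (Subgroup.mem_top x)))).1 (by rw [h2]; exact h1)
  apply isInducedBlock_of_not_idl L.ctx.mod hVp (hVP.trans L.le) hC hNV L.loc.blk L.hξ L.ctx.blk
  rw [brF_apply]
  intro h4
  apply one_not_idl (M := M)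
  have h5 := idl_sub h4 h3
  rwa [sub_sub_cancel] at h5

theorem tv_one_val (L : LD p B P e N b e' v ξ) {χ : IrrCharacter G} (hχ : χ ∈ B) :
    MemLocalRing M (tv p P e' ξ χ 1 / (p : ℂ) ^ blockHeight p B (χ : G → ℂ)) ∧
    ¬ MemLocalIdeal M (tv p P e' ξ χ 1 / (p : ℂ) ^ blockHeight p B (χ : G → ℂ)) := by
  have := isPrime L.ctx.mod
  have h1 := not_idl_tr_one L.ctx.mod L.ind L.defect_z hχ
  have h1' : MemLocalRing M (omega (χ : G → ℂ) (tr N (eB b))) :=
    loc_omega χ.2 (tr_center _ _) (tr_locA _ (eB_mem_center b) (locA_eB L.loc.blk))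
  have h2 := un_loc L.ctx.mod L.hξ
  rw [un_height_zero L.h0] at h2
  have h3 := un_loc L.ctx.mod hχ
  have hone : ¬ p ∣ orderOf (1 : N) := by
    rw [orderOf_one]; exact hp.out.one_lt.not_ge ∘ Nat.le_of_dvd one_pos
  have hpp : pp p (1 : N) = 1 := (pp_eq (mul_one _) (Commute.one_right _)
    ⟨0, by rw [orderOf_one, pow_zero]⟩ hone).1
  have h4 := bp_tt (f := fun n : N => (χ : G → ℂ) n) L.loc L.inn L.hξ L.h0 (u := 1) (g := 1) (by
    intro c _
    refine ⟨1, Subgroup.one_mem _, ?_⟩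
    rw [hpp]
    show c * 1 * c⁻¹ = 1 * 1 * 1⁻¹
    group)
  rw [blockPart_eq_lin (χ.2.isCharacter.restrict N).isClassFunction, ← MonoidAlgebra.one_def, mul_one] at h4
  have h5 : omega (χ : G → ℂ) (tr N (eB b)) = (N.index : ℂ) * (tv p P e' ξ χ 1 * (ξ : N → ℂ) 1) / (χ : G → ℂ) 1 := by
    rw [omega, lin_tr _ _ χ.2.isClassFunction, h4]
    rfl
  have hN : (Nat.card N : ℂ) ≠ 0 := by exact_mod_cast Nat.card_pos.ne'
  have hG : (Nat.card G : ℂ) ≠ 0 := by exact_mod_cast Nat.card_pos.ne'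
  have hpp : (p : ℂ) ≠ 0 := by exact_mod_cast hp.out.ne_zero
  have hi : (Nat.card N : ℂ) * (N.index : ℂ) = (Nat.card G : ℂ) := by
    exact_mod_cast N.card_mul_index
  have hχ1 := χ.2.one_ne_zero
  have hξ1 := ξ.2.one_ne_zero
  have hi0 : (N.index : ℂ) ≠ 0 := by
    intro h
    rw [h, mul_zero] at hi
    exact hG hi.symm
  obtain ⟨U, hU⟩ : ∃ U, U = (p : ℂ) ^ blockDefect p b * (ξ : N → ℂ) 1 / (Nat.card N : ℂ) := ⟨_, rfl⟩
  obtain ⟨W, hW⟩ : ∃ W, W = un p B (χ : G → ℂ) := ⟨_, rfl⟩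
  rw [← hU] at h2
  rw [← hW] at h3
  have hU0 : U ≠ 0 := ne_zero_of_not_idl h2.2
  have hW0 : W ≠ 0 := ne_zero_of_not_idl h3.2
  have key : tv p P e' ξ χ 1 / (p : ℂ) ^ blockHeight p B (χ : G → ℂ) =
      omega (χ : G → ℂ) (tr N (eB b)) * W * U⁻¹ := by
    rw [h5, hW, hU]
    unfold un
    rw [← L.defect_z, ← hi]
    field_simp
  rw [key]
  refine ⟨loc_mul (loc_mul h1' h3.1) (loc_inv h2.1 h2.2), ?_⟩
  intro h
  have h6 := idl_mul_right h h2.1
  rw [inv_mul_cancel_right₀ hU0] at h6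
  exact not_idl_mul h1' h1 h3.2 h6

end LD

end Cfsg.Agent.Lib.Tame
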