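import Cfsg.Agent.Lib.TameX2
import Cfsg.Agent.Lib.AbCount
import Cfsg.Agent.Lib.SubsecCount

/-!
# Contributions of central elements of order at most two
-/

set_option autoImplicit false
set_option linter.all false
set_option maxHeartbeats 400000

namespace Cfsg.Agent.Lib.Tame

open Cfsg Cfsg.Agent.Lib.BlockRing Cfsg.Agent.Lib.BlockGA Cfsg.Agent.Lib.BlockAlg
open Cfsg.Agent.Lib.BlkIdem Cfsg.Agent.Lib.PairAlg Cfsg.Agent.Lib.PairMax
open Cfsg.Agent.Lib.BlockIdem Cfsg.Agent.Lib.BlockSecond Cfsg.Agent.Lib.BrauerPairs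
open Cfsg.Agent.Lib.BlkFus Cfsg.Agent.Lib.InducedPair Cfsg.Agent.Lib.DefPairs
open Cfsg.Agent.Lib.BlkFusDef Cfsg.Agent.Lib.BlkTransport Cfsg.Agent.Lib.BlkNil
open Cfsg.Agent.Lib.H25BpLift Cfsg.Agent.Lib.H25BpTw Cfsg.Agent.Lib.H25BpF Cfsg.Agent.Lib.H25BpI
open Cfsg.Agent.Lib.H25BpE Cfsg.Agent.Lib.H25BpG Cfsg.Agent.Lib.H25BpW Cfsg.Agent.Lib.H25BpM
open Cfsg.Agent.Lib.H25BpS
open Cfsg.Agent.Lib.PairCount (lr lr_bid)
open Cfsg.Agent.Lib.AbCount (lr_top)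
open Cfsg.Agent.Lib.BlockCount (Bl D rsp rsp_orth sum_blockPart blockRank_eq)
open Cfsg.Agent.Lib.BlockPair (preg)
open Cfsg.Agent.Lib.Subsec (Cz mem_Cz al al_eq al_mem fs mem_fs sum_fs blockPart_eq D_reg D_not_reg D_mem
  al_conj al_idem al_trace al_loc al_not_idl al_idl pow_of_orderOf)
open MonoidAlgebra (single)
open scoped ComplexConjugate Classical Pointwise

universe u

section gen

variable {p : ℕ} [hp : Fact p.Prime] {M : Ideal AlgInt} [hMm : M.IsMaximal] [hchar : CharP (Kf M) p]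
  {G : Type u} [Group G] [Finite G] {B : Set (IrrCharacter G)} {P : Subgroup G} {e : MonoidAlgebra (Kf M) G}

/-- subsections of elements central in the group -/
theorem rank_of_top (h : Ctx p B P e) {u : G} (hu : Cc u = ⊤) (b : Bl M (Cz u))
    (hle : PLE p (Subgroup.zpowers u, bid M (Cz u) b.1) (P, e)) : blockRank p b.1 = blockRank p B := by
  have h1 : BPair p (Subgroup.zpowers u) (bid M (Cz u) b.1) := hle.pair h.pair
  have h2 : BrauerMap.br (Subgroup.zpowers u) (bidG M B) * bid M (Cz u) b.1 = bid M (Cz u) b.1 :=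
    ple_blk_down' hasBlocks (isBlk_bidG h.blk) hle h1 h.br
  have h3 : BrauerMap.br (Subgroup.zpowers u) (bidG M B) = bidG M B := by
    apply BrauerMap.br_eq_self
    rw [show Subgroup.centralizer ((Subgroup.zpowers u : Subgroup G) : Set G) = ⊤ from hu]
    exact (bidG_mem B).1
  rw [h3] at h2
  have h4 : IsBlk (Cc u) (bid M (Cz u) b.1) := h1.2
  rw [hu] at h4
  have h5 : bid M (Cz u) b.1 = bidG M B := by
    by_contra hne
    have h5 := (isBlk_bidG (M := M) h.blk).orth h4 (Ne.symm hne)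
    rw [h5] at h2
    exact h4.ne_zero h2.symm
  have h6 : lr p (Cz u) (bid M (Cz u) b.1) = blockRank p b.1 := lr_bid b.2
  rw [← h6, h5]
  have key : ∀ H : Subgroup G, H = ⊤ → lr p H (bidG M B) = blockRank p B := by
    rintro H rfl; exact lr_top h.blk
  apply key
  rw [Cz_eq_Cc, hu]

end gen

theorem Z_two {w : ℂ} (hw : w ∈ CycAvg.Z 2) : ∃ n : ℤ, w = n := by
  refine CycAvg.ind (N := 2) (P := fun w => ∃ n : ℤ, w = n) ?_ ⟨0, by simp⟩ ?_ ?_ hw
  · intro μ hμ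
    have hμ' : μ * μ = 1 := by rw [← pow_two]; exact hμ
    rcases mul_self_eq_one_iff.1 hμ' with h | h
    · exact ⟨1, by rw [h]; simp⟩
    · exact ⟨-1, by rw [h]; simp⟩
  · rintro a b _ _ ⟨m, rfl⟩ ⟨n, rfl⟩
    exact ⟨m + n, by push_cast; ring⟩
  · rintro a _ ⟨m, rfl⟩
    exact ⟨-m, by push_cast; ring⟩

section two

variable {M : Ideal AlgInt} [hMm : M.IsMaximal] [hchar : CharP (Kf M) 2]
  {G : Type u} [Group G] [Finite G] {B : Set (IrrCharacter G)} {P : Subgroup G} {e : MonoidAlgebra (Kf M) G}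

theorem dvd_of_loc (hM : IsPModular 2 M) {n : ℤ} {k : ℕ} (h : MemLocalRing M ((n : ℂ) / (2 : ℂ) ^ k)) :
    (2 : ℤ) ^ k ∣ n := by
  have := isPrime hM
  induction k generalizing n with
  | zero => simp
  | succ k ih =>
    have two_idl : MemLocalIdeal M (2 : ℂ) := by
      have := (idl_natCast_iff hM 2).2 dvd_rfl
      exact_mod_cast this
    have h1 : MemLocalIdeal M (n : ℂ) := by
      have h2 : (n : ℂ) = 2 * (((2 ^ k : ℕ) : ℂ) * ((n : ℂ) / (2 : ℂ) ^ (k + 1))) := by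
        push_cast
        rw [pow_succ]
        field_simp
      rw [h2]
      exact idl_mul_right two_idl (loc_mul (loc_natCast _) h)
    rw [idl_intCast_iff hM] at h1
    have h1' : (2 : ℤ) ∣ n := by exact_mod_cast h1
    obtain ⟨c, rfl⟩ := h1'
    have h3 : (((2 * c : ℤ) : ℂ)) / (2 : ℂ) ^ (k + 1) = (c : ℂ) / (2 : ℂ) ^ k := by
      push_cast
      rw [pow_succ]
      field_simp
    rw [h3] at h
    rw [pow_succ']
    exact mul_dvd_mul_left 2 (ih h)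

theorem dvd_of_idl (hM : IsPModular 2 M) {n : ℤ} {k : ℕ} (h : MemLocalIdeal M ((n : ℂ) / (2 : ℂ) ^ k)) :
    (2 : ℤ) ^ (k + 1) ∣ n := by
  have := isPrime hM
  obtain ⟨c, rfl⟩ := dvd_of_loc hM (loc_of_idl h)
  have h1 : (((2 ^ k * c : ℤ) : ℂ)) / (2 : ℂ) ^ k = (c : ℂ) := by
    push_cast
    field_simp
  rw [h1, idl_intCast_iff hM] at h
  have h' : (2 : ℤ) ∣ c := by exact_mod_cast h
  rw [pow_succ]
  exact mul_dvd_mul_left _ h'

theorem not_dvd_of_idl (hM : IsPModular 2 M) {n : ℤ} {k : ℕ} (h : ¬ MemLocalIdeal M ((n : ℂ) / (2 : ℂ) ^ k)) :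
    ¬ (2 : ℤ) ^ (k + 1) ∣ n := by
  have := isPrime hM
  rintro ⟨c, rfl⟩
  apply h
  have two_idl : MemLocalIdeal M (2 : ℂ) := by
    have := (idl_natCast_iff hM 2).2 dvd_rfl
    exact_mod_cast this
  have h1 : (((2 ^ (k + 1) * c : ℤ) : ℂ)) / (2 : ℂ) ^ k = 2 * (c : ℂ) := by
    push_cast
    rw [pow_succ]
    field_simp
  rw [h1]
  exact idl_mul_right two_idl (loc_intCast _)

/-- integral contributions of a central element of order at most two -/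
theorem cen (h : Ctx 2 B P e) {u : P} (hu2 : (u : G) * u = 1) (huc : (u : G) ∈ Subgroup.centralizer (P : Set G)) :
    ∃ (a : IrrCharacter G → IrrCharacter G → ℤ) (b : Bl M (Cz (u : G))),
      PLE 2 (Subgroup.zpowers (u : G), bid M (Cz (u : G)) b.1) (P, e) ∧
      (∀ χ ψ, (a χ ψ : ℂ) = (Nat.card P : ℂ) * CI 2 (χ : G → ℂ) (ψ : G → ℂ) u (h.fx u)) ∧
      (∀ χ ψ, a χ ψ = a ψ χ) ∧
      (∀ χ θ, ∑ ψ ∈ fs B, a χ ψ * a ψ θ = (Nat.card P : ℤ) * a χ θ) ∧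
      (∑ χ ∈ fs B, a χ χ = (Nat.card P : ℤ) * blockRank 2 b.1) ∧
      (∀ χ ∈ B, ∀ ψ, (2 : ℤ) ^ blockHeight 2 B (χ : G → ℂ) ∣ a χ ψ) ∧
      (∀ χ ∈ B, ∀ ψ ∈ B, blockHeight 2 B (ψ : G → ℂ) = 0 → ¬ (2 : ℤ) ^ (blockHeight 2 B (χ : G → ℂ) + 1) ∣ a χ ψ) ∧
      (∀ χ ∈ B, ∀ ψ ∈ B, blockHeight 2 B (ψ : G → ℂ) ≠ 0 → (2 : ℤ) ^ (blockHeight 2 B (χ : G → ℂ) + 1) ∣ a χ ψ) ∧
      (∀ χ ∈ B, 0 < a χ χ) := by
  have hM := h.mod
  have := Fintype.ofFinite (Cz (u : G))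
  obtain ⟨b, hb⟩ := h.ple_bl u.2
  have hd := h.defect_center u.2 huc b hb
  have hind := h.ind_self u.2 b hb
  have hu2' : (u : G) ^ 2 = 1 := by rw [pow_two]; exact hu2
  obtain ⟨k, hk⟩ := PE_of_mem (p := 2) h.pair.1 u.2
  have hkp : (u : G) ^ 2 ^ (k + 1) = 1 := pow_of_orderOf hk
  have hkp' : (u : G) ^ 2 ^ k = 1 := by rw [← hk]; exact pow_orderOf_eq_one _
  choose a ha using fun (χ ψ : IrrCharacter G) => Z_two (al_mem hM hu2' b.2 χ ψ)
  have hcard : (Nat.card P : ℂ) = (2 : ℂ) ^ blockDefect 2 b.1 := by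
    rw [h.card_P, hd]; push_cast; rfl
  have hcard' : (Nat.card P : ℤ) = (2 : ℤ) ^ blockDefect 2 b.1 := by
    rw [h.card_P, hd]; push_cast; rfl
  have hsymm : ∀ χ ψ, a χ ψ = a ψ χ := by
    intro χ ψ
    have h1 := al_conj (p := 2) (u : G) b.1 (χ : G → ℂ) (ψ : G → ℂ)
    rw [ha, ha, map_intCast] at h1
    exact_mod_cast h1
  have hidem : ∀ χ θ, ∑ ψ ∈ fs B, a χ ψ * a ψ θ = (Nat.card P : ℤ) * a χ θ := by
    intro χ θ
    have h1 := al_idem hM hk hind (χ : G → ℂ) (θ : G → ℂ)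
    rw [ha] at h1
    have h2 : ∀ ψ : IrrCharacter G, al 2 (u : G) b.1 (χ : G → ℂ) (ψ : G → ℂ) * al 2 (u : G) b.1 (ψ : G → ℂ) (θ : G → ℂ) =
        ((a χ ψ * a ψ θ : ℤ) : ℂ) := by
      intro ψ
      rw [ha, ha]; push_cast; rfl
    rw [Finset.sum_congr rfl fun ψ _ => h2 ψ] at h1
    rw [hcard']
    have h3 : ((∑ ψ ∈ fs B, a χ ψ * a ψ θ : ℤ) : ℂ) = (((2 : ℤ) ^ blockDefect 2 b.1 * a χ θ : ℤ) : ℂ) := by
      push_cast
      push_cast at h1
      exact h1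
    exact_mod_cast h3
  have hnd : ∀ χ ∈ B, ∀ ψ ∈ B, blockHeight 2 B (ψ : G → ℂ) = 0 →
      ¬ (2 : ℤ) ^ (blockHeight 2 B (χ : G → ℂ) + 1) ∣ a χ ψ := by
    intro χ hχ ψ hψ h0
    apply not_dvd_of_idl hM
    have := al_not_idl hM hkp hind hd hχ hψ h0
    rw [ha] at this
    exact this
  refine ⟨a, b, hb, ?_, hsymm, hidem, ?_, ?_, hnd, ?_, ?_⟩
  · intro χ ψ
    rw [← ha, h.fx_eq hb, CI_eq, hcard]
    have := Fintype.ofFinite G
    rw [al_eq]
    push_cast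
    rfl
  · have h1 := al_trace hM hk hind
    rw [hcard']
    have h3 : ((∑ χ ∈ fs B, a χ χ : ℤ) : ℂ) = (((2 : ℤ) ^ blockDefect 2 b.1 * blockRank 2 b.1 : ℤ) : ℂ) := by
      push_cast
      push_cast at h1
      rw [← h1]
      exact Finset.sum_congr rfl fun χ _ => (ha χ χ).symm
    exact_mod_cast h3
  · intro χ hχ ψ
    apply dvd_of_loc hM
    have := al_loc hM hkp' b.2 hd hχ ψ
    rw [ha] at this
    exact this
  · intro χ hχ ψ hψ h0
    apply dvd_of_idl hM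
    have := al_idl hM hkp hind hd hχ hψ h0
    rw [ha] at this
    exact this
  · intro χ hχ
    obtain ⟨ψ, hψ, h0⟩ := BlockDeg.exists_height_zero (p := 2) (isPBlock_nonempty h.blk)
    have h1 := hidem χ χ
    have h2 : a χ ψ ≠ 0 := by
      intro h
      apply hnd χ hχ ψ hψ h0
      rw [h]; exact dvd_zero _
    have h3 : 0 < ∑ ψ ∈ fs B, a χ ψ * a ψ χ := by
      apply Finset.sum_pos'
      · intro θ _
        rw [hsymm θ χ]
        exact mul_self_nonneg _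
      · refine ⟨ψ, mem_fs.2 hψ, ?_⟩
        rw [hsymm ψ χ]
        exact mul_self_pos.2 h2
    rw [h1] at h3
    have h4 : (0 : ℤ) < Nat.card P := by exact_mod_cast Nat.card_pos
    exact (mul_pos_iff_of_pos_left h4).1 h3

end two

end Cfsg.Agent.Lib.Tame
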