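import Cfsg.Agent.Lib.TameSum
import Cfsg.Agent.Lib.AbSec4

/-!
# Local contributions at elements above `v`
-/

set_option autoImplicit false
set_option linter.all false
set_option maxHeartbeats 400000

namespace Cfsg.Agent.Lib.Tame

open Cfsg Cfsg.Agent.Lib.BlockRing Cfsg.Agent.Lib.BlockGA Cfsg.Agent.Lib.BlockAlg
open Cfsg.Agent.Lib.BlkIdem Cfsg.Agent.Lib.PairAlg Cfsg.Agent.Lib.PairMax
open Cfsg.Agent.Lib.BlockIdem Cfsg.Agent.Lib.BlockSecond Cfsg.Agent.Lib.BrauerPairs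
open Cfsg.Agent.Lib.BlkFus Cfsg.Agent.Lib.InducedPair Cfsg.Agent.Lib.DefPairs
open Cfsg.Agent.Lib.BlkFusDef Cfsg.Agent.Lib.BlkTransport Cfsg.Agent.Lib.BlkNil
open Cfsg.Agent.Lib.NormalPBlk (cid cid_coeff_coe cid_coeff_not_mem redA_cid)
open Cfsg.Agent.Lib.H25BpLift Cfsg.Agent.Lib.H25BpTw Cfsg.Agent.Lib.H25BpF Cfsg.Agent.Lib.H25BpI
open Cfsg.Agent.Lib.H25BpE Cfsg.Agent.Lib.H25BpG Cfsg.Agent.Lib.H25BpW Cfsg.Agent.Lib.H25BpM
open Cfsg.Agent.Lib.H25BpS
open Cfsg.Agent.Lib.BlockCount (Bl D rsp rsp_orth sum_blockPart blockRank_eq)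
open Cfsg.Agent.Lib.BlockPair (preg)
open Cfsg.Agent.Lib.Subsec (Cz mem_Cz al al_eq al_mem fs mem_fs sum_fs blockPart_eq D_reg D_not_reg D_mem)
open MonoidAlgebra (single)
open scoped ComplexConjugate Classical Pointwise

universe u

variable {p : ℕ} [hp : Fact p.Prime] {M : Ideal AlgInt} [hMm : M.IsMaximal] [hchar : CharP (Kf M) p]
  {G : Type u} [Group G] [Finite G] {B : Set (IrrCharacter G)} {P : Subgroup G} {e : MonoidAlgebra (Kf M) G}

section trans

variable {N : Subgroup G} {u : N}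

/-- identification of centralizers -/
def czIso (hu : Cz (u : G) ≤ N) : Cz u ≃* Cz (u : G) where
  toFun k := ⟨((k : N) : G), mem_Cz.2 (by
    have h1 : Commute u (k : N) := mem_Cz.1 k.2
    exact congrArg Subtype.val h1.eq)⟩
  invFun k := ⟨⟨(k : G), hu k.2⟩, mem_Cz.2 (by
    have h1 : Commute (u : G) (k : G) := mem_Cz.1 k.2
    exact Subtype.ext h1.eq)⟩
  left_inv k := rfl
  right_inv k := rfl
  map_mul' k l := rfl

theorem czIso_coe (hu : Cz (u : G) ≤ N) (k : Cz u) : ((czIso hu k : Cz (u : G)) : G) = ((k : N) : G) := rfl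

theorem cid_czIso (hu : Cz (u : G) ≤ N) (b' : Set (IrrCharacter (Cz u))) :
    cid (Cz (u : G)) (irrMap (czIso hu) '' b') = incH N (cid (Cz u) b') := by
  ext g
  by_cases hg : g ∈ Cz (u : G)
  · have h1 := cid_coeff_coe (Cz (u : G)) (irrMap (czIso hu) '' b') (czIso hu ((czIso hu).symm ⟨g, hg⟩))
    rw [blockCoeff_irrMap] at h1
    have h2 := coeff_incH_coe (cid (Cz u) b') (((czIso hu).symm ⟨g, hg⟩ : Cz u) : N)
    have h3 := cid_coeff_coe (Cz u) b' ((czIso hu).symm ⟨g, hg⟩)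
    rw [h3] at h2
    exact h1.trans h2.symm
  · rw [cid_coeff_not_mem _ _ hg]
    by_cases hgN : g ∈ N
    · have h2 := coeff_incH_coe (cid (Cz u) b') ⟨g, hgN⟩
      have h3 : (cid (Cz u) b').coeff (⟨g, hgN⟩ : N) = 0 := by
        apply cid_coeff_not_mem
        intro hc
        apply hg
        have h4 : Commute u ⟨g, hgN⟩ := mem_Cz.1 hc
        exact mem_Cz.2 (congrArg Subtype.val h4.eq)
      rw [h3] at h2
      exact h2.symm
    · exact (coeff_incH_of_not_mem _ hgN).symm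

theorem bid_czIso (hu : Cz (u : G) ≤ N) (b' : Set (IrrCharacter (Cz u))) :
    bid M (Cz (u : G)) (irrMap (czIso hu) '' b') = inc N (bid M (Cz u) b') := by
  rw [← redA_cid, ← redA_cid, cid_czIso]
  exact AbSec.redA_incH _

theorem D_czIso (hu : Cz (u : G) ≤ N) (b' : Set (IrrCharacter (Cz u))) {χ : G → ℂ} (hχ : IsClassFunction G χ)
    (s : Cz u) : D p (u : G) (irrMap (czIso hu) '' b') χ (czIso hu s) = D p u b' (fun n : N => χ n) s := by
  have hos : orderOf (czIso hu s) = orderOf s := orderOf_injective (czIso hu).toMonoidHom (czIso hu).injective s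
  have hres : IsClassFunction N (fun n : N => χ n) := fun g h => hχ g h
  by_cases hs : p ∣ orderOf s
  · rw [D_not_reg hs, D_not_reg (by rw [hos]; exact hs)]
  · rw [D_reg hs, D_reg (by rw [hos]; exact hs), blockPart_section hχ (fun g hg => mem_Cz.1 hg),
      blockPart_section hres (fun g hg => mem_Cz.1 hg)]
    show lin χ (single ((u : G) * ((czIso hu s : Cz (u : G)) : G)) 1 *
      cid (Cz (u : G)) (irrMap (czIso hu) '' b')) = lin (fun n : N => χ n) (single (u * (s : N)) 1 * cid (Cz u) b')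
    rw [cid_czIso, ← lin_incH, map_mul, incH_single]
    rfl

theorem CI_inc (hu : Cz (u : G) ≤ N) (b' : Bl M (Cz u)) {χ ψ : G → ℂ} (hχ : IsClassFunction G χ)
    (hψ : IsClassFunction G ψ) :
    CI p χ ψ (u : G) (inc N (bid M (Cz u) b'.1)) =
      CI p (fun n : N => χ n) (fun n : N => ψ n) u (bid M (Cz u) b'.1) := by
  have := Fintype.ofFinite (Cz u)
  have := Fintype.ofFinite (Cz (u : G))
  rw [CI_eq, ← bid_czIso hu]
  have h1 := CI_eq (p := p) χ ψ (u : G) (⟨irrMap (czIso hu) '' b'.1, isPBlock_irrMap _ b'.2⟩ : Bl M (Cz (u : G)))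
  rw [h1]
  unfold classInner
  rw [Nat.card_congr (czIso hu).toEquiv, ← Equiv.sum_comp (czIso hu).toEquiv]
  congr 1
  refine Finset.sum_congr rfl fun s _ => ?_
  show D p (u : G) (irrMap (czIso hu) '' b'.1) χ (czIso hu s) *
    conj (D p (u : G) (irrMap (czIso hu) '' b'.1) ψ (czIso hu s)) = _
  rw [D_czIso hu _ hχ, D_czIso hu _ hψ]

theorem zpowers_subgroupOf : (Subgroup.zpowers (u : G)).subgroupOf N = Subgroup.zpowers u := by
  ext g
  rw [Subgroup.mem_subgroupOf]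
  constructor
  · rintro ⟨k, hk⟩
    exact ⟨k, Subtype.ext hk⟩
  · rintro ⟨k, hk⟩
    exact ⟨k, congrArg Subtype.val hk⟩

end trans

section loc

variable {N : Subgroup G} {b : Set (IrrCharacter N)} {e' : MonoidAlgebra (Kf M) N}

theorem Cz_le_of {u : G} (hC : Cc u ≤ N) : Cz u ≤ N := by rw [Cz_eq_Cc]; exact hC

/-- the Brauer elements of the local context -/
theorem fx_inc (h : Ctx p B P e) (hPN : P ≤ N) (hl : Ctx p b (P.subgroupOf N) e') (he : inc N e' = e)
    (u : P.subgroupOf N) (hC : Cc ((u : N) : G) ≤ N) :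
    inc N (hl.fx u) = h.fx ⟨((u : N) : G), u.2⟩ := by
  have h1 := h.fx_spec ⟨((u : N) : G), u.2⟩
  have h2 := ple_inc h1 hPN hC
  have h3 : hl.fx u = res N (h.fx ⟨((u : N) : G), u.2⟩) := by
    apply hl.fx_eq
    rw [← zpowers_subgroupOf]
    have h4 : res N e = e' := by
      rw [← he]
      apply inc_injective (M := M) N
      exact inc_res N (fun g hg => inc_coeff_not_mem N e' hg)
    rw [← h4]
    exact h2
  rw [h3]
  apply inc_res
  have h5 : IsBlk (Cc ((u : N) : G)) (h.fx ⟨((u : N) : G), u.2⟩) := (h1.pair h.pair).2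
  exact BrauerMap.suppAlg_mono hC h5.mem.1

theorem CI_loc (h : Ctx p B P e) (hPN : P ≤ N) (hl : Ctx p b (P.subgroupOf N) e') (he : inc N e' = e)
    (u : P.subgroupOf N) (hC : Cc ((u : N) : G) ≤ N) {χ ψ : G → ℂ} (hχ : IsClassFunction G χ)
    (hψ : IsClassFunction G ψ) :
    CI p χ ψ ((u : N) : G) (h.fx ⟨((u : N) : G), u.2⟩) =
      CI p (fun n : N => χ n) (fun n : N => ψ n) (u : N) (hl.fx u) := by
  rw [← fx_inc h hPN hl he u hC]
  obtain ⟨b', hb'⟩ := hl.ple_bl u.2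
  rw [hl.fx_eq hb']
  exact CI_inc (Cz_le_of hC) b' hχ hψ

end loc

namespace LD

variable {N : Subgroup G} {b : Set (IrrCharacter N)} {e' : MonoidAlgebra (Kf M) N} {v : G}
  {ξ : IrrCharacter N}

/-- contributions of elements above `v` -/
theorem CI_tv (L : LD p B P e N b e' v ξ) (χ ψ : IrrCharacter G) (u : P.subgroupOf N)
    (hv : v ∈ Subgroup.zpowers ((u : N) : G)) :
    (Nat.card (P ⊓ Cc ((u : N) : G) : Subgroup G) : ℂ) *
      CI p (χ : G → ℂ) (ψ : G → ℂ) ((u : N) : G) (L.ctx.fx ⟨((u : N) : G), u.2⟩) =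
      tv p P e' ξ χ u * conj (tv p P e' ξ ψ u) := by
  have := Fintype.ofFinite (Cz (u : N))
  have hC : Cc ((u : N) : G) ≤ N := by
    intro g hg
    rw [mem_cz] at hg
    apply L.cent
    obtain ⟨k, hk⟩ := hv
    rw [← hk]
    exact Commute.zpow_left hg k
  rw [CI_loc L.ctx L.le L.loc L.inc u hC χ.2.isClassFunction ψ.2.isClassFunction]
  obtain ⟨b', hb'⟩ := L.loc.ple_bl u.2
  have h1 := L.loc.weight_one L.inn L.hξ L.h0 u
  rw [L.loc.fx_eq hb', CI_eq] at h1 ⊢
  have hres : ∀ χ : IrrCharacter G, IsClassFunction N (fun n : N => (χ : G → ℂ) n) := fun χ =>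
    (χ.2.isCharacter.restrict N).isClassFunction
  rw [D_tt L.loc L.inn L.hξ L.h0 (hres χ) hb', D_tt L.loc L.inn L.hξ L.h0 (hres ψ) hb',
    IndFun.classInner_smul_left, IndFun.classInner_smul_right]
  have key1 : ∀ k : N, k ∈ Cc (u : N) → (k : G) ∈ Cc ((u : N) : G) := by
    intro k hk
    rw [mem_cz] at hk ⊢
    exact congrArg Subtype.val hk
  have key2 : ∀ (k : G) (hk' : k ∈ N), k ∈ Cc ((u : N) : G) → (⟨k, hk'⟩ : N) ∈ Cc (u : N) := by
    intro k hk' hk
    rw [mem_cz] at hk ⊢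
    exact Subtype.ext hk
  have hcard : Nat.card (P ⊓ Cc ((u : N) : G) : Subgroup G) = Nat.card (P.subgroupOf N ⊓ Cc (u : N) : Subgroup N) := by
    symm
    apply Nat.card_congr
    exact {
      toFun := fun k => ⟨((k : N) : G), ⟨k.2.1, key1 (k : N) k.2.2⟩⟩
      invFun := fun k => ⟨⟨(k : G), L.le k.2.1⟩, ⟨k.2.1, key2 (k : G) (L.le k.2.1) k.2.2⟩⟩
      left_inv := fun k => rfl
      right_inv := fun k => rfl }
  rw [hcard]
  have h2 : (Nat.card (P.subgroupOf N ⊓ Cc (u : N) : Subgroup N) : ℂ) *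
      (tt p (P.subgroupOf N) e' (ξ : N → ℂ) (fun n : N => (χ : G → ℂ) n) u *
        (conj (tt p (P.subgroupOf N) e' (ξ : N → ℂ) (fun n : N => (ψ : G → ℂ) n) u) *
          classInner (D p (u : N) b'.1 (ξ : N → ℂ)) (D p (u : N) b'.1 (ξ : N → ℂ)))) =
      tt p (P.subgroupOf N) e' (ξ : N → ℂ) (fun n : N => (χ : G → ℂ) n) u *
        conj (tt p (P.subgroupOf N) e' (ξ : N → ℂ) (fun n : N => (ψ : G → ℂ) n) u) *
        ((Nat.card (P.subgroupOf N ⊓ Cc (u : N) : Subgroup N) : ℂ) *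
          classInner (D p (u : N) b'.1 (ξ : N → ℂ)) (D p (u : N) b'.1 (ξ : N → ℂ))) := by ring
  rw [h1, mul_one] at h2
  exact h2

end LD

end Cfsg.Agent.Lib.Tame
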