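import Mathlib

/-!
# Combinatorics of small integral vectors
-/

set_option autoImplicit false
set_option linter.all false
set_option maxHeartbeats 400000

namespace Cfsg.Agent.Lib.TameComb

open scoped Classical

variable {ι : Type*} {κ : Type*}

theorem sq_small {x : ℤ} (h : x ^ 2 ≤ 3) : x = 0 ∨ x = 1 ∨ x = -1 := by
  have h1 : x < 2 := by nlinarith
  have h2 : -2 < x := by nlinarith
  omega

theorem sigma_small {s : Finset ι} {σ : ι → ℤ} (h4 : ∑ χ ∈ s, σ χ ^ 2 = 4) {χ₀ : ι} (h0 : χ₀ ∈ s)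
    (hodd : ¬ 2 ∣ σ χ₀) : ∀ χ ∈ s, σ χ = 0 ∨ σ χ = 1 ∨ σ χ = -1 := by
  intro χ hχ
  have hle : ∀ a ∈ s, σ a ^ 2 ≤ 4 := by
    intro a ha
    rw [← h4]
    exact Finset.single_le_sum (f := fun x => σ x ^ 2) (fun i _ => sq_nonneg _) ha
  by_cases he : χ = χ₀
  · subst he
    have h5 := hle χ hχ
    apply sq_small
    have h1 : σ χ ≤ 2 := by nlinarith
    have h2 : -2 ≤ σ χ := by nlinarith
    have h3 : σ χ = -2 ∨ σ χ = -1 ∨ σ χ = 0 ∨ σ χ = 1 ∨ σ χ = 2 := by omega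
    rcases h3 with h | h | h | h | h
    · exact absurd ⟨-1, by rw [h]; norm_num⟩ hodd
    · rw [h]; norm_num
    · rw [h]; norm_num
    · rw [h]; norm_num
    · exact absurd ⟨1, by rw [h]; norm_num⟩ hodd
  · have h6 : σ χ ^ 2 + σ χ₀ ^ 2 ≤ 4 := by
      rw [← h4, ← Finset.sum_pair (f := fun x => σ x ^ 2) he]
      apply Finset.sum_le_sum_of_subset_of_nonneg
      · intro a ha
        rw [Finset.mem_insert, Finset.mem_singleton] at ha
        rcases ha with rfl | rfl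
        · exact hχ
        · exact h0
      · intro i _ _
        positivity
    have h7 : σ χ₀ ≠ 0 := by
      intro h; exact hodd (by rw [h]; exact dvd_zero _)
    have h8 : 1 ≤ σ χ₀ ^ 2 := by
      have := sq_pos_of_ne_zero h7
      omega
    apply sq_small
    omega

theorem card_supp {s : Finset ι} {σ : ι → ℤ} (hσ : ∀ χ ∈ s, σ χ = 0 ∨ σ χ = 1 ∨ σ χ = -1) :
    ((s.filter (fun χ => σ χ ≠ 0)).card : ℤ) = ∑ χ ∈ s, σ χ ^ 2 := by
  rw [Finset.card_eq_sum_ones, Nat.cast_sum, Finset.sum_filter]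
  refine Finset.sum_congr rfl fun χ hχ => ?_
  rcases hσ χ hχ with h | h | h
  · rw [h]; simp
  · rw [h]; simp
  · rw [h]; simp

section w

variable {s : Finset ι} {σ : ι → ℤ} {w : ι → ℤ}

theorem w_small {n : ℤ} (hn : n ≤ 3) (h3 : ∑ χ ∈ s, w χ ^ 2 = n) : ∀ χ ∈ s, w χ = 0 ∨ w χ = 1 ∨ w χ = -1 := by
  intro χ hχ
  apply sq_small
  have : w χ ^ 2 ≤ n := by
    rw [← h3]
    exact Finset.single_le_sum (f := fun x => w x ^ 2) (fun i _ => sq_nonneg _) hχ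
  omega

/-- vectors of norm three with product two with a vector of norm four -/
theorem w_sigma (hσ : ∀ χ ∈ s, σ χ = 0 ∨ σ χ = 1 ∨ σ χ = -1) (h3 : ∑ χ ∈ s, w χ ^ 2 = 3)
    (h2 : ∑ χ ∈ s, w χ * σ χ = 2) :
    (∀ χ ∈ s, σ χ ≠ 0 → w χ = 0 ∨ w χ = σ χ) ∧
    (∑ χ ∈ s.filter (fun χ => σ χ ≠ 0), w χ * σ χ = 2) ∧
    (∑ χ ∈ s.filter (fun χ => σ χ ≠ 0), w χ ^ 2 = 2) ∧ (∑ χ ∈ s.filter (fun χ => ¬ σ χ ≠ 0), w χ ^ 2 = 1) := by
  have hw := w_small le_rfl h3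
  have hsplit : ∀ f : ι → ℤ, ∑ χ ∈ s.filter (fun χ => σ χ ≠ 0), f χ + ∑ χ ∈ s.filter (fun χ => ¬ σ χ ≠ 0), f χ =
      ∑ χ ∈ s, f χ := fun f => Finset.sum_filter_add_sum_filter_not s _ f
  have h4 : ∑ χ ∈ s.filter (fun χ => σ χ ≠ 0), w χ * σ χ = 2 := by
    have h5 := hsplit (fun χ => w χ * σ χ)
    have h6 : ∑ χ ∈ s.filter (fun χ => ¬ σ χ ≠ 0), w χ * σ χ = 0 := by
      apply Finset.sum_eq_zero
      intro χ hχ
      rw [Finset.mem_filter, not_not] at hχ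
      rw [hχ.2, mul_zero]
    omega
  have h7 : ∀ χ ∈ s, σ χ ≠ 0 → w χ = 0 ∨ w χ = σ χ := by
    intro χ hχ hne
    by_contra hcon
    push Not at hcon
    have h8 : ∀ a ∈ s.filter (fun χ => σ χ ≠ 0), 0 ≤ w a ^ 2 - w a * σ a := by
      intro a ha
      rw [Finset.mem_filter] at ha
      rcases hw a ha.1 with h | h | h <;> rcases hσ a ha.1 with h' | h' | h' <;> rw [h, h'] <;> norm_num
    have h9 : w χ ^ 2 - w χ * σ χ = 2 := by
      rcases hw χ hχ with h | h | h <;> rcases hσ χ hχ with h' | h' | h' <;> rw [h, h'] at hcon ⊢ <;> simp_all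
    have h10 : (2 : ℤ) ≤ ∑ a ∈ s.filter (fun χ => σ χ ≠ 0), (w a ^ 2 - w a * σ a) := by
      rw [← h9]
      exact Finset.single_le_sum (f := fun a => w a ^ 2 - w a * σ a) h8
        (Finset.mem_filter.2 ⟨hχ, hne⟩)
    rw [Finset.sum_sub_distrib, h4] at h10
    have h11 := hsplit (fun χ => w χ ^ 2)
    have h12 : 0 ≤ ∑ χ ∈ s.filter (fun χ => ¬ σ χ ≠ 0), w χ ^ 2 := Finset.sum_nonneg fun i _ => sq_nonneg _
    omega
  have h13 : ∑ χ ∈ s.filter (fun χ => σ χ ≠ 0), w χ ^ 2 = 2 := by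
    rw [← h4]
    refine Finset.sum_congr rfl fun χ hχ => ?_
    rw [Finset.mem_filter] at hχ
    rcases h7 χ hχ.1 hχ.2 with h | h
    · rw [h]; ring
    · rw [h]; ring
  refine ⟨h7, h4, h13, ?_⟩
  have h11 := hsplit (fun χ => w χ ^ 2)
  omega

end w

/-- the data -/
structure Dat (s : Finset ι) (σ : ι → ℤ) (A : Finset κ) (w : κ → ι → ℤ) : Prop where
  small : ∀ χ ∈ s, σ χ = 0 ∨ σ χ = 1 ∨ σ χ = -1
  four : ∑ χ ∈ s, σ χ ^ 2 = 4
  three : ∀ a ∈ A, ∑ χ ∈ s, w a χ ^ 2 = 3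
  two : ∀ a ∈ A, ∑ χ ∈ s, w a χ * σ χ = 2
  prod : ∀ a ∈ A, ∀ b ∈ A, a ≠ b → ∑ χ ∈ s, w a χ * w b χ = 2

namespace Dat

variable {s : Finset ι} {σ : ι → ℤ} {A : Finset κ} {w : κ → ι → ℤ}

/-- the alternative for a pair -/
theorem pair_alt (D : Dat s σ A w) {a b : κ} (ha : a ∈ A) (hb : b ∈ A) (hab : a ≠ b) :
    ((∀ χ ∈ s, σ χ ≠ 0 → w a χ = w b χ) ∧ ∑ χ ∈ s.filter (fun χ => σ χ ≠ 0), w a χ * w b χ = 2 ∧
      ∑ χ ∈ s.filter (fun χ => ¬ σ χ ≠ 0), w a χ * w b χ = 0) ∨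
    ((∀ χ ∈ s, σ χ = 0 → w a χ = w b χ) ∧ ∑ χ ∈ s.filter (fun χ => σ χ ≠ 0), w a χ * w b χ = 1 ∧
      ∑ χ ∈ s.filter (fun χ => ¬ σ χ ≠ 0), w a χ * w b χ = 1) := by
  obtain ⟨a1, a2, a3, a4⟩ := w_sigma D.small (D.three a ha) (D.two a ha)
  obtain ⟨b1, b2, b3, b4⟩ := w_sigma D.small (D.three b hb) (D.two b hb)
  have hp := D.prod a ha b hb hab
  have hsplit : ∑ χ ∈ s.filter (fun χ => σ χ ≠ 0), w a χ * w b χ + ∑ χ ∈ s.filter (fun χ => ¬ σ χ ≠ 0), w a χ * w b χ =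
      ∑ χ ∈ s, w a χ * w b χ := Finset.sum_filter_add_sum_filter_not s _ _
  have hT : ∑ χ ∈ s.filter (fun χ => σ χ ≠ 0), (w a χ - w b χ) ^ 2 =
      4 - 2 * ∑ χ ∈ s.filter (fun χ => σ χ ≠ 0), w a χ * w b χ := by
    have : ∀ χ, (w a χ - w b χ) ^ 2 = w a χ ^ 2 + w b χ ^ 2 - 2 * (w a χ * w b χ) := fun χ => by ring
    simp only [this]
    rw [Finset.sum_sub_distrib, Finset.sum_add_distrib, a3, b3, ← Finset.mul_sum]
    ring
  have hR : ∑ χ ∈ s.filter (fun χ => ¬ σ χ ≠ 0), (w a χ - w b χ) ^ 2 =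
      2 - 2 * ∑ χ ∈ s.filter (fun χ => ¬ σ χ ≠ 0), w a χ * w b χ := by
    have : ∀ χ, (w a χ - w b χ) ^ 2 = w a χ ^ 2 + w b χ ^ 2 - 2 * (w a χ * w b χ) := fun χ => by ring
    simp only [this]
    rw [Finset.sum_sub_distrib, Finset.sum_add_distrib, a4, b4, ← Finset.mul_sum]
    ring
  have hT0 : 0 ≤ ∑ χ ∈ s.filter (fun χ => σ χ ≠ 0), (w a χ - w b χ) ^ 2 := Finset.sum_nonneg fun i _ => sq_nonneg _
  have hR0 : 0 ≤ ∑ χ ∈ s.filter (fun χ => ¬ σ χ ≠ 0), (w a χ - w b χ) ^ 2 := Finset.sum_nonneg fun i _ => sq_nonneg _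
  have hcase : ∑ χ ∈ s.filter (fun χ => σ χ ≠ 0), w a χ * w b χ = 2 ∨
      ∑ χ ∈ s.filter (fun χ => σ χ ≠ 0), w a χ * w b χ = 1 := by omega
  rcases hcase with h | h
  · left
    refine ⟨?_, h, by omega⟩
    intro χ hχ hne
    have h0 : ∑ χ ∈ s.filter (fun χ => σ χ ≠ 0), (w a χ - w b χ) ^ 2 = 0 := by omega
    have h1 := (Finset.sum_eq_zero_iff_of_nonneg (fun i _ => sq_nonneg _)).1 h0 χ (Finset.mem_filter.2 ⟨hχ, hne⟩)
    have h2 := pow_eq_zero_iff (two_ne_zero) |>.1 h1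
    omega
  · right
    refine ⟨?_, h, by omega⟩
    intro χ hχ hz
    have h0 : ∑ χ ∈ s.filter (fun χ => ¬ σ χ ≠ 0), (w a χ - w b χ) ^ 2 = 0 := by omega
    have h1 := (Finset.sum_eq_zero_iff_of_nonneg (fun i _ => sq_nonneg _)).1 h0 χ
      (Finset.mem_filter.2 ⟨hχ, not_not.2 hz⟩)
    have h2 := pow_eq_zero_iff (two_ne_zero) |>.1 h1
    omega

/-- the good or the exotic case -/
theorem alt (D : Dat s σ A w) :
    (∀ a ∈ A, ∀ b ∈ A, a ≠ b → (∀ χ ∈ s, σ χ ≠ 0 → w a χ = w b χ) ∧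
      ∑ χ ∈ s.filter (fun χ => σ χ ≠ 0), w a χ * w b χ = 2 ∧
      ∑ χ ∈ s.filter (fun χ => ¬ σ χ ≠ 0), w a χ * w b χ = 0) ∨
    (∀ a ∈ A, ∀ b ∈ A, a ≠ b → (∀ χ ∈ s, σ χ = 0 → w a χ = w b χ) ∧
      ∑ χ ∈ s.filter (fun χ => σ χ ≠ 0), w a χ * w b χ = 1 ∧
      ∑ χ ∈ s.filter (fun χ => ¬ σ χ ≠ 0), w a χ * w b χ = 1) := by
  by_cases hex : ∃ a ∈ A, ∃ b ∈ A, a ≠ b ∧ ∑ χ ∈ s.filter (fun χ => σ χ ≠ 0), w a χ * w b χ = 2
  · left
    obtain ⟨a, ha, b, hb, hab, h2⟩ := hex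
    have hab1 : ∀ χ ∈ s, σ χ ≠ 0 → w a χ = w b χ := by
      rcases D.pair_alt ha hb hab with h | h
      · exact h.1
      · exfalso; have := h.2.1; omega
    have hab0 : ∑ χ ∈ s.filter (fun χ => ¬ σ χ ≠ 0), w a χ * w b χ = 0 := by
      rcases D.pair_alt ha hb hab with h | h
      · exact h.2.2
      · exfalso; have := h.2.1; omega
    -- all agree with `a` on the support
    have key : ∀ c ∈ A, ∀ χ ∈ s, σ χ ≠ 0 → w a χ = w c χ := by
      intro c hc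
      by_cases hca : c = a
      · subst hca; intro χ _ _; rfl
      rcases D.pair_alt ha hc (Ne.symm hca) with h | h
      · exact h.1
      · exfalso
        by_cases hcb : c = b
        · subst hcb
          have := h.2.1
          omega
        · rcases D.pair_alt hb hc (Ne.symm hcb) with h' | h'
          · have e1 : ∑ χ ∈ s.filter (fun χ => σ χ ≠ 0), w a χ * w c χ =
                ∑ χ ∈ s.filter (fun χ => σ χ ≠ 0), w b χ * w c χ := by
              refine Finset.sum_congr rfl fun χ hχ => ?_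
              rw [Finset.mem_filter] at hχ
              rw [hab1 χ hχ.1 hχ.2]
            have := h.2.1
            have := h'.2.1
            omega
          · have e1 : ∑ χ ∈ s.filter (fun χ => ¬ σ χ ≠ 0), w a χ * w b χ =
                ∑ χ ∈ s.filter (fun χ => ¬ σ χ ≠ 0), w a χ * w c χ := by
              refine Finset.sum_congr rfl fun χ hχ => ?_
              rw [Finset.mem_filter, not_not] at hχ
              rw [h'.1 χ hχ.1 hχ.2]
            have := h.2.2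
            omega
    intro c hc d hd hcd
    rcases D.pair_alt hc hd hcd with h | h
    · exact h
    · exfalso
      obtain ⟨-, -, c3, -⟩ := w_sigma D.small (D.three c hc) (D.two c hc)
      have e1 : ∑ χ ∈ s.filter (fun χ => σ χ ≠ 0), w c χ * w d χ =
          ∑ χ ∈ s.filter (fun χ => σ χ ≠ 0), w c χ ^ 2 := by
        refine Finset.sum_congr rfl fun χ hχ => ?_
        rw [Finset.mem_filter] at hχ
        rw [← key d hd χ hχ.1 hχ.2, key c hc χ hχ.1 hχ.2]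
        ring
      have := h.2.1
      omega
  · right
    intro a ha b hb hab
    rcases D.pair_alt ha hb hab with h | h
    · exact absurd ⟨a, ha, b, hb, hab, h.2.1⟩ hex
    · exact h

/-- the characters outside the support of `σ` -/
theorem exists_lam (D : Dat s σ A w) {a : κ} (ha : a ∈ A) :
    ∃ χ ∈ s.filter (fun χ => ¬ σ χ ≠ 0), w a χ ^ 2 = 1 ∧ ∀ ψ ∈ s, σ ψ = 0 → ψ ≠ χ → w a ψ = 0 := by
  obtain ⟨a1, a2, a3, a4⟩ := w_sigma D.small (D.three a ha) (D.two a ha)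
  have hw := w_small le_rfl (D.three a ha)
  have h0 : ∃ χ ∈ s.filter (fun χ => ¬ σ χ ≠ 0), w a χ ^ 2 ≠ 0 := by
    by_contra hcon
    rw [Finset.sum_eq_zero (fun χ hχ => by_contra fun h => hcon ⟨χ, hχ, h⟩)] at a4
    omega
  obtain ⟨χ, hχ, hne⟩ := h0
  have hχs := (Finset.mem_filter.1 hχ).1
  have h1 : w a χ ^ 2 = 1 := by
    rcases hw χ hχs with h | h | h
    · exact absurd (by rw [h]; norm_num) hne
    · rw [h]; norm_num
    · rw [h]; norm_num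
  refine ⟨χ, hχ, h1, ?_⟩
  intro ψ hψ hψ0 hψχ
  by_contra hcon
  have h2 : 1 ≤ w a ψ ^ 2 := by
    have := sq_pos_of_ne_zero hcon
    omega
  have h3 : w a ψ ^ 2 + w a χ ^ 2 ≤ 1 := by
    rw [← Finset.sum_pair (f := fun x => w a x ^ 2) hψχ, ← a4]
    apply Finset.sum_le_sum_of_subset_of_nonneg
    · intro x hx
      rw [Finset.mem_insert, Finset.mem_singleton] at hx
      rcases hx with rfl | rfl
      · exact Finset.mem_filter.2 ⟨hψ, not_not.2 hψ0⟩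
      · exact hχ
    · intro i _ _
      positivity
  omega

/-- the count in the good case -/
theorem good_count (D : Dat s σ A w) {h : ℕ} (hA : A.card + 1 = h)
    (hg : ∀ a ∈ A, ∀ b ∈ A, a ≠ b → ∑ χ ∈ s.filter (fun χ => ¬ σ χ ≠ 0), w a χ * w b χ = 0)
    {d : ι → ℤ} (hd : ∑ χ ∈ s, d χ ^ 2 = 4 * h) (hd0 : ∀ χ ∈ s, d χ ≠ 0)
    (hpar : ∀ χ ∈ s, (2 : ℤ) ∣ d χ - σ χ) :
    s.card = h + 3 ∧ (∀ χ ∈ s, σ χ ≠ 0 → d χ ^ 2 = 1) ∧ (∀ χ ∈ s, σ χ = 0 → d χ ^ 2 = 4) := by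
  have hT : (s.filter (fun χ => σ χ ≠ 0)).card = 4 := by
    have h1 := card_supp D.small
    rw [D.four] at h1
    exact_mod_cast h1
  have hcard : (s.filter (fun χ => σ χ ≠ 0)).card + (s.filter (fun χ => ¬ σ χ ≠ 0)).card = s.card :=
    Finset.card_filter_add_card_filter_not _
  have hR : A.card ≤ (s.filter (fun χ => ¬ σ χ ≠ 0)).card := by
    have hne : Nonempty ι := by
      have h1 : s.Nonempty := by
        rw [Finset.nonempty_iff_ne_empty]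
        intro h1
        have := D.four
        rw [h1, Finset.sum_empty] at this
        omega
      obtain ⟨x, -⟩ := h1
      exact ⟨x⟩
    choose! f hf using fun a (ha : a ∈ A) => D.exists_lam ha
    apply Finset.card_le_card_of_injOn f (fun a ha => (hf a ha).1)
    intro a ha b hb hab
    by_contra hne
    have ha' : a ∈ A := ha
    have hb' : b ∈ A := hb
    have h1 := hg a ha' b hb' hne
    rw [Finset.sum_eq_single (f a)] at h1
    · have h2 := (hf a ha').2.1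
      have h3 := (hf b hb').2.1
      rw [← hab] at h3
      rcases mul_eq_zero.1 h1 with h | h
      · rw [h] at h2; norm_num at h2
      · rw [h] at h3; norm_num at h3
    · intro χ hχ hχne
      rw [Finset.mem_filter, not_not] at hχ
      rw [(hf a ha').2.2 χ hχ.1 hχ.2 hχne, zero_mul]
    · intro h; exact absurd (hf a ha').1 h
  have hd1 : ∀ χ ∈ s.filter (fun χ => σ χ ≠ 0), 0 ≤ d χ ^ 2 - 1 := by
    intro χ hχ
    have := sq_pos_of_ne_zero (hd0 χ (Finset.mem_filter.1 hχ).1)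
    omega
  have hd4 : ∀ χ ∈ s.filter (fun χ => ¬ σ χ ≠ 0), 0 ≤ d χ ^ 2 - 4 := by
    intro χ hχ
    have h1 := (Finset.mem_filter.1 hχ)
    rw [not_not] at h1
    have h2 := hpar χ h1.1
    rw [h1.2, sub_zero] at h2
    obtain ⟨c, hc⟩ := h2
    have h3 := hd0 χ h1.1
    have hc0 : c ≠ 0 := by rintro rfl; exact h3 (by rw [hc]; ring)
    have := sq_pos_of_ne_zero hc0
    rw [hc]
    nlinarith
  have hsplit : ∑ χ ∈ s.filter (fun χ => σ χ ≠ 0), d χ ^ 2 + ∑ χ ∈ s.filter (fun χ => ¬ σ χ ≠ 0), d χ ^ 2 =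
      ∑ χ ∈ s, d χ ^ 2 := Finset.sum_filter_add_sum_filter_not s _ _
  have e1 : ∑ χ ∈ s.filter (fun χ => σ χ ≠ 0), (d χ ^ 2 - 1) = ∑ χ ∈ s.filter (fun χ => σ χ ≠ 0), d χ ^ 2 - 4 := by
    rw [Finset.sum_sub_distrib, Finset.sum_const, hT]
    norm_num
  have e2 : ∑ χ ∈ s.filter (fun χ => ¬ σ χ ≠ 0), (d χ ^ 2 - 4) =
      ∑ χ ∈ s.filter (fun χ => ¬ σ χ ≠ 0), d χ ^ 2 - 4 * (s.filter (fun χ => ¬ σ χ ≠ 0)).card := by
    rw [Finset.sum_sub_distrib, Finset.sum_const, nsmul_eq_mul]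
    ring
  have p1 := Finset.sum_nonneg hd1
  have p2 := Finset.sum_nonneg hd4
  have hAh : (A.card : ℤ) + 1 = h := by exact_mod_cast hA
  have hR' : (A.card : ℤ) ≤ ((s.filter (fun χ => ¬ σ χ ≠ 0)).card : ℤ) := by exact_mod_cast hR
  refine ⟨by omega, ?_, ?_⟩
  · intro χ hχ hne
    have h0 : ∑ χ ∈ s.filter (fun χ => σ χ ≠ 0), (d χ ^ 2 - 1) = 0 := by omega
    have := (Finset.sum_eq_zero_iff_of_nonneg hd1).1 h0 χ (Finset.mem_filter.2 ⟨hχ, hne⟩)
    omega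
  · intro χ hχ hz
    have h0 : ∑ χ ∈ s.filter (fun χ => ¬ σ χ ≠ 0), (d χ ^ 2 - 4) = 0 := by omega
    have := (Finset.sum_eq_zero_iff_of_nonneg hd4).1 h0 χ (Finset.mem_filter.2 ⟨hχ, not_not.2 hz⟩)
    omega

/-- bound in the exotic case -/
theorem exotic_card (D : Dat s σ A w)
    (hg : ∀ a ∈ A, ∀ b ∈ A, a ≠ b → ∑ χ ∈ s.filter (fun χ => σ χ ≠ 0), w a χ * w b χ = 1) : A.card ≤ 6 := by
  have hT : (s.filter (fun χ => σ χ ≠ 0)).card = 4 := by
    have h1 := card_supp D.small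
    rw [D.four] at h1
    exact_mod_cast h1
  have h6 : ((s.filter (fun χ => σ χ ≠ 0)).powersetCard 2).card = 6 := by
    rw [Finset.card_powersetCard, hT]
    rfl
  rw [← h6]
  have hP : ∀ a ∈ A, ((s.filter (fun χ => σ χ ≠ 0)).filter (fun χ => w a χ ≠ 0)).card = 2 := by
    intro a ha
    obtain ⟨a1, a2, a3, a4⟩ := w_sigma D.small (D.three a ha) (D.two a ha)
    have hw := w_small le_rfl (D.three a ha)
    have h1 := card_supp (s := s.filter (fun χ => σ χ ≠ 0)) (σ := w a)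
      (fun χ hχ => hw χ (Finset.mem_filter.1 hχ).1)
    rw [a3] at h1
    exact_mod_cast h1
  apply Finset.card_le_card_of_injOn (fun a => (s.filter (fun χ => σ χ ≠ 0)).filter (fun χ => w a χ ≠ 0))
  · intro a ha
    exact Finset.mem_coe.2 (Finset.mem_powersetCard.2 ⟨Finset.filter_subset _ _, hP a ha⟩)
  · intro a ha b hb hab
    by_contra hne
    have ha' : a ∈ A := ha
    have hb' : b ∈ A := hb
    obtain ⟨a1, a2, a3, a4⟩ := w_sigma D.small (D.three a ha') (D.two a ha')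
    obtain ⟨b1, b2, b3, b4⟩ := w_sigma D.small (D.three b hb') (D.two b hb')
    have h1 := hg a ha' b hb' hne
    have h2 : ∑ χ ∈ s.filter (fun χ => σ χ ≠ 0), w a χ * w b χ = ∑ χ ∈ s.filter (fun χ => σ χ ≠ 0), w a χ ^ 2 := by
      refine Finset.sum_congr rfl fun χ hχ => ?_
      have hχ' := Finset.mem_filter.1 hχ
      have hiff : w a χ ≠ 0 ↔ w b χ ≠ 0 := by
        have := Finset.ext_iff.1 hab χ
        simp only [Finset.mem_filter, hχ'.1, hχ'.2, true_and, ne_eq, not_false_eq_true] at this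
        exact this
      rcases a1 χ hχ'.1 hχ'.2 with h | h
      · rw [h]; ring
      · rcases b1 χ hχ'.1 hχ'.2 with h' | h'
        · exact absurd h' (hiff.1 (by rw [h]; exact hχ'.2))
        · rw [h, h']; ring
    omega

end Dat

end Cfsg.Agent.Lib.TameComb
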