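import Mathlib

/-!
# Odd automorphisms of subgroups of 2-groups with a cyclic subgroup of index 2
-/

set_option autoImplicit false
set_option linter.all false
set_option maxHeartbeats 400000

namespace Cfsg.Agent.Lib.TameGrp

open scoped Classical

universe u

variable {K : Type u} [Group K] [Finite K]

/-- odd elements normalizing a cyclic 2-group centralize it -/
theorem odd_cyclic {Y : Subgroup K} (hY : IsCyclic Y) (h2 : IsPGroup 2 Y) {g : K} (hg : ¬ 2 ∣ orderOf g)
    (hn : g ∈ Subgroup.normalizer (Y : Set K)) : g ∈ Subgroup.centralizer (Y : Set K) := by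
  obtain ⟨k, hk⟩ := IsPGroup.iff_card.1 h2
  let φ : MulAut Y := Y.normalizerMonoidHom ⟨g, hn⟩
  have h1 : orderOf φ ∣ orderOf g := by
    have := orderOf_map_dvd Y.normalizerMonoidHom (⟨g, hn⟩ : Subgroup.normalizer (Y : Set K))
    rwa [Subgroup.orderOf_mk] at this
  have h3 : orderOf φ ∣ 2 ^ k := by
    have h4 : orderOf φ ∣ Nat.card (MulAut Y) := orderOf_dvd_natCard φ
    rw [IsCyclic.card_mulAut, hk] at h4
    refine h4.trans ?_
    rcases Nat.eq_zero_or_pos k with rfl | hk0
    · simp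
    · rw [Nat.totient_prime_pow Nat.prime_two hk0]
      simp only [Nat.add_one_sub_one, mul_one]
      exact pow_dvd_pow 2 (Nat.sub_le _ _)
  have h5 : orderOf φ = 1 := by
    have hcop : Nat.Coprime (orderOf g) (2 ^ k) := by
      apply Nat.Coprime.pow_right
      exact ((Nat.coprime_comm).1 ((Nat.prime_two.coprime_iff_not_dvd).2 hg))
    exact Nat.dvd_one.1 (hcop ▸ Nat.dvd_gcd h1 h3)
  rw [orderOf_eq_one_iff] at h5
  have h6 : (⟨g, hn⟩ : Subgroup.normalizer (Y : Set K)) ∈ Y.normalizerMonoidHom.ker := h5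
  rw [Subgroup.normalizerMonoidHom_ker, Subgroup.mem_subgroupOf] at h6
  exact h6

/-- odd elements normalizing `Q` and preserving its intersection with a cyclic group of index 2 -/
theorem odd_cent {X Q : Subgroup K} (hX : IsCyclic X) (h2 : IsPGroup 2 X) (hQ2 : IsPGroup 2 Q)
    (hidx : ∀ q ∈ Q, ∀ q' ∈ Q, q ∉ X → q' ∉ X → q⁻¹ * q' ∈ X) {g : K} (hg : ¬ 2 ∣ orderOf g)
    (hn : g ∈ Subgroup.normalizer (Q : Set K)) (hgX : ∀ q ∈ Q, q ∈ X → g * q * g⁻¹ ∈ X) :
    g ∈ Subgroup.centralizer (Q : Set K) := by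
  set Y : Subgroup K := Q ⊓ X with hYd
  have hYX : Y ≤ X := inf_le_right
  have hYc : IsCyclic Y := isCyclic_of_injective (Subgroup.inclusion hYX) (Subgroup.inclusion_injective hYX)
  have hQn := Subgroup.mem_normalizer_iff.1 hn
  have hmap : ∀ q ∈ Y, g * q * g⁻¹ ∈ Y := fun q hq => ⟨(hQn q).1 hq.1, hgX q hq.1 hq.2⟩
  have hYn : g ∈ Subgroup.normalizer (Y : Set K) := by
    have h1 : Y.map (MulAut.conj g).toMonoidHom ≤ Y := by
      rintro _ ⟨q, hq, rfl⟩
      exact hmap q hq
    have h3 : Y.map (MulAut.conj g).toMonoidHom = Y := by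
      apply Subgroup.eq_of_le_of_card_ge h1
      rw [← Nat.card_congr (Y.equivMapOfInjective (MulAut.conj g).toMonoidHom (MulAut.conj g).injective).toEquiv]
    rw [Subgroup.mem_normalizer_iff]
    intro q
    constructor
    · exact hmap q
    · intro hq
      rw [← h3] at hq
      obtain ⟨q', hq', he⟩ := hq
      have : g * q' * g⁻¹ = g * q * g⁻¹ := he
      have h4 : q' = q := mul_left_cancel (mul_right_cancel this)
      rw [← h4]; exact hq'
  have hc := odd_cyclic hYc (h2.to_le hYX) hg hYn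
  rw [Subgroup.mem_centralizer_iff] at hc
  have hcY : ∀ q ∈ Y, g * q * g⁻¹ = q := by
    intro q hq
    rw [← hc q hq, mul_inv_cancel_right]
  rw [Subgroup.mem_centralizer_iff]
  intro q hq
  by_cases hqX : q ∈ X
  · exact hc q ⟨hq, hqX⟩
  · have hq' : g * q * g⁻¹ ∈ Q := (hQn q).1 hq
    have hq'X : g * q * g⁻¹ ∉ X := by
      intro h
      apply hqX
      have h3 := hcY _ ⟨hq', h⟩
      have h4 : g * q * g⁻¹ = q := mul_left_cancel (mul_right_cancel h3)
      rw [← h4]; exact h
    have hcX : q⁻¹ * (g * q * g⁻¹) ∈ X := hidx q hq _ hq' hqX hq'X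
    have hcQ : q⁻¹ * (g * q * g⁻¹) ∈ Q := Q.mul_mem (Q.inv_mem hq) hq'
    set c := q⁻¹ * (g * q * g⁻¹) with hcd
    have hgc : g * c * g⁻¹ = c := hcY c ⟨hcQ, hcX⟩
    have hgq : g * q * g⁻¹ = q * c := by rw [hcd]; group
    have hpow : ∀ k : ℕ, g ^ k * q * (g ^ k)⁻¹ = q * c ^ k := by
      intro k
      induction k with
      | zero => simp
      | succ k ih =>
        have hgck : g * c ^ k * g⁻¹ = c ^ k := by
          rw [← conj_pow, hgc]
        calc g ^ (k + 1) * q * (g ^ (k + 1))⁻¹ = g * (g ^ k * q * (g ^ k)⁻¹) * g⁻¹ := by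
              rw [pow_succ']; group
          _ = g * (q * c ^ k) * g⁻¹ := by rw [ih]
          _ = (g * q * g⁻¹) * (g * c ^ k * g⁻¹) := by group
          _ = q * c * c ^ k := by rw [hgq, hgck]
          _ = q * c ^ (k + 1) := by rw [mul_assoc, pow_succ']
    have h3 := hpow (orderOf g)
    rw [pow_orderOf_eq_one, one_mul, inv_one, mul_one] at h3
    have h4 : c ^ orderOf g = 1 := by
      have : q * 1 = q * c ^ orderOf g := by rw [mul_one]; exact h3
      exact (mul_left_cancel this).symm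
    obtain ⟨k, hk⟩ := IsPGroup.iff_orderOf.1 h2 ⟨c, hcX⟩
    rw [Subgroup.orderOf_mk] at hk
    have h5 : orderOf c ∣ orderOf g := orderOf_dvd_of_pow_eq_one h4
    have h6 : orderOf c = 1 := by
      rw [hk] at h5 ⊢
      rcases Nat.eq_zero_or_pos k with rfl | hk0
      · simp
      · exact absurd ((dvd_pow_self 2 hk0.ne').trans h5) hg
    rw [orderOf_eq_one_iff] at h6
    rw [h6, mul_one] at hgq
    calc q * g = (g * q * g⁻¹) * g := by rw [hgq]
      _ = g * q := by group

end Cfsg.Agent.Lib.TameGrp
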