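import Cfsg.Agent.Lib.TameZ
import Cfsg.Agent.Lib.TameGrp
import Cfsg.Agent.Lib.BlkSat

/-!
# Blocks with dihedral defect groups: the local data at the central involution
-/

set_option autoImplicit false
set_option linter.all false
set_option maxHeartbeats 400000

namespace Cfsg.Agent.Lib.Tame

open Cfsg Cfsg.Agent.Lib.BlockRing Cfsg.Agent.Lib.BlockGA Cfsg.Agent.Lib.BlockAlg
open Cfsg.Agent.Lib.BlkIdem Cfsg.Agent.Lib.PairAlg Cfsg.Agent.Lib.PairMax
open Cfsg.Agent.Lib.BlockIdem Cfsg.Agent.Lib.BlockSecond Cfsg.Agent.Lib.BrauerPairs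
open Cfsg.Agent.Lib.BlkFus Cfsg.Agent.Lib.InducedPair Cfsg.Agent.Lib.DefPairs
open Cfsg.Agent.Lib.BlkFusDef Cfsg.Agent.Lib.BlkTransport Cfsg.Agent.Lib.BlkNil
open Cfsg.Agent.Lib.H25BpLift Cfsg.Agent.Lib.H25BpTw Cfsg.Agent.Lib.H25BpF Cfsg.Agent.Lib.H25BpI
open Cfsg.Agent.Lib.H25BpE Cfsg.Agent.Lib.H25BpG Cfsg.Agent.Lib.H25BpW Cfsg.Agent.Lib.H25BpM
open Cfsg.Agent.Lib.H25BpS Cfsg.Agent.Lib.TameFour Cfsg.Agent.Lib.TameGrp
open Cfsg.Agent.Lib.BlockCount (Bl D rsp rsp_orth sum_blockPart blockRank_eq)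
open Cfsg.Agent.Lib.Subsec (Cz mem_Cz fs mem_fs sum_fs zz)
open scoped ComplexConjugate Classical Pointwise

universe u

section ctx

variable {p : ℕ} [hp : Fact p.Prime] {M : Ideal AlgInt} [hMm : M.IsMaximal] [hchar : CharP (Kf M) p]
  {G : Type u} [Group G] [Finite G] {B : Set (IrrCharacter G)} {P : Subgroup G}

theorem exists_ctx (hM : IsPModular p M) (hB : IsPBlock M B) (hD : IsDefectGroup p M B P) :
    ∃ e : MonoidAlgebra (Kf M) G, Ctx p B P e := by
  have hdg := (isDefectGroup_iff hB).1 hD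
  have htop : ∃ e, IsBlk (Subgroup.centralizer (P : Set G)) e ∧ BrauerMap.br P (bidG M B) * e ≠ 0 := by
    obtain ⟨s, hs, hsum⟩ := (hasBlocks (M := M) (G := G)) (Subgroup.centralizer (P : Set G))
    by_contra hcon
    push Not at hcon
    apply hdg.ne
    calc BrauerMap.br P (bidG M B) = BrauerMap.br P (bidG M B) * ∑ e ∈ s, e := by rw [hsum, mul_one]
      _ = ∑ e ∈ s, BrauerMap.br P (bidG M B) * e := Finset.mul_sum _ _ _
      _ = 0 := Finset.sum_eq_zero fun e he => hcon e (hs e he)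
  obtain ⟨e, he, hne⟩ := htop
  have hBt := (bidG_mem (M := M) B)
  have hz : BrauerMap.br P (bidG M B) ∈ BrauerMap.ZAlg (Kf M) (Subgroup.centralizer (P : Set G)) := by
    apply br_mem_ZAlg (bot_le : (⊥ : Subgroup G) ≤ P)
    exact BrauerMap.fixAlg_anti le_top hBt.2
  have hidem := br_idem (p := p) hdg.pg (bidG_mul_self hB) (fun x _ => hBt.2 x (Subgroup.mem_top x))
  rcases he.mul_idem hz hidem with h1 | h1
  · exact ⟨e, hM, hB, ⟨hdg.pg, he⟩, h1, BlkSat.maxPair_of_dg hBt hdg h1⟩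
  · exact absurd h1 hne

end ctx

/-! ### dihedral groups -/

section dih

variable {m : ℕ} [NeZero m]

/-- elements of order at most two of `ZMod m` -/
theorem two_mul_eq_zero (hm : 2 ∣ m) {i : ZMod m} (h : 2 * i = 0) : i = 0 ∨ i = ((m / 2 : ℕ) : ZMod m) := by
  obtain ⟨a, ha, rfl⟩ : ∃ a < m, (a : ZMod m) = i := ⟨i.val, ZMod.val_lt i, ZMod.natCast_zmod_val i⟩
  have h1 : ((2 * a : ℕ) : ZMod m) = 0 := by push_cast; exact h
  rw [ZMod.natCast_eq_zero_iff] at h1
  obtain ⟨c, hc⟩ := h1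
  obtain ⟨d, hd⟩ := hm
  have hd0 : 0 < d := by
    rcases Nat.eq_zero_or_pos d with h0 | h0
    · rw [h0, mul_zero] at hd; exact absurd hd (NeZero.ne m)
    · exact h0
  have hc2 : c < 2 := by
    by_contra hcon
    have : m * 2 ≤ m * c := Nat.mul_le_mul_left m (not_lt.1 hcon)
    omega
  rcases (by omega : c = 0 ∨ c = 1) with rfl | rfl
  · left
    have : a = 0 := by omega
    rw [this, Nat.cast_zero]
  · right
    congr 1
    omega

theorem half_add_half (hm : 2 ∣ m) : ((m / 2 : ℕ) : ZMod m) + ((m / 2 : ℕ) : ZMod m) = 0 := by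
  rw [← Nat.cast_add, ← two_mul, Nat.mul_div_cancel' hm, ZMod.natCast_self]

theorem half_ne (hm : 2 ∣ m) : ((m / 2 : ℕ) : ZMod m) ≠ 0 := by
  intro h
  rw [ZMod.natCast_eq_zero_iff] at h
  have h0 := NeZero.pos m
  obtain ⟨d, hd⟩ := hm
  have : m / 2 = d := by omega
  rw [this] at h
  have := Nat.le_of_dvd (by omega) h
  omega

variable {Q : Type u} [Group Q] [Finite Q] (ψ : Q ≃* DihedralGroup m)

theorem mem_zp_iff (q : Q) : q ∈ Subgroup.zpowers (ψ.symm (DihedralGroup.r 1)) ↔ ∃ i : ZMod m, ψ q = DihedralGroup.r i := by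
  constructor
  · rintro ⟨k, hk⟩
    refine ⟨(k : ZMod m), ?_⟩
    have hk' : (ψ.symm (DihedralGroup.r 1)) ^ k = q := hk
    rw [← hk', map_zpow, MulEquiv.apply_symm_apply, DihedralGroup.r_one_zpow]
  · rintro ⟨i, hi⟩
    obtain ⟨a, rfl⟩ := ZMod.natCast_zmod_surjective i
    refine ⟨(a : ℤ), ?_⟩
    show (ψ.symm (DihedralGroup.r 1)) ^ (a : ℤ) = q
    apply ψ.injective
    rw [map_zpow, MulEquiv.apply_symm_apply, hi, zpow_natCast, DihedralGroup.r_one_pow]

theorem xp_r (i : ZMod m) : xp (ψ.symm (DihedralGroup.r 1)) i = ψ.symm (DihedralGroup.r i) := by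
  unfold xp
  apply ψ.injective
  rw [map_pow, MulEquiv.apply_symm_apply, DihedralGroup.r_one_pow, MulEquiv.apply_symm_apply,
    ZMod.natCast_zmod_val]

theorem cyc2_dih : Cyc2 m (ψ.symm (DihedralGroup.r 1)) (-1) := by
  refine ⟨?_, by ring, ?_, ?_⟩
  · rw [MulEquiv.orderOf_eq, DihedralGroup.orderOf_r_one]
  · intro y hy
    rw [xp_r]
    apply ψ.injective
    rw [map_mul, map_mul, map_inv, MulEquiv.apply_symm_apply, MulEquiv.apply_symm_apply]
    rcases h : ψ y with i | i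
    · exact absurd ((mem_zp_iff ψ y).2 ⟨i, h⟩) hy
    · rw [DihedralGroup.inv_sr, DihedralGroup.sr_mul_r, DihedralGroup.sr_mul_sr]
      congr 1
      ring
  · rw [Nat.card_congr ψ.toEquiv, DihedralGroup.nat_card]

end dih

section main

variable {M : Ideal AlgInt} [hMm : M.IsMaximal] [hchar : CharP (Kf M) 2]
  {G : Type u} [Group G] [Finite G] {B : Set (IrrCharacter G)} {P : Subgroup G} {e : MonoidAlgebra (Kf M) G}
  {m : ℕ} [NeZero m]

/-- the local data of a block with dihedral defect group at its central involution -/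
theorem exists_LD_dih (h : Ctx 2 B P e) (hm : 4 ∣ m) (φ : P ≃* DihedralGroup m) :
    ∃ (z : G) (b : Set (IrrCharacter (Cz z))) (e' : MonoidAlgebra (Kf M) (Cz z)) (ξ : IrrCharacter (Cz z))
      (_ : LD 2 B P e (Cz z) b e' z ξ) (ψ : P.subgroupOf (Cz z) ≃* DihedralGroup m),
      orderOf z = 2 ∧ (((ψ.symm (DihedralGroup.r ((m / 2 : ℕ) : ZMod m)) : P.subgroupOf (Cz z)) : Cz z) : G) = z := by
  have h2m : 2 ∣ m := dvd_trans (by norm_num) hm
  set z : G := ((φ.symm (DihedralGroup.r ((m / 2 : ℕ) : ZMod m)) : P) : G) with hz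
  have hzP : z ∈ P := SetLike.coe_mem _
  have hzz : z * z = 1 := by
    have h1 : (φ.symm (DihedralGroup.r ((m / 2 : ℕ) : ZMod m))) * φ.symm (DihedralGroup.r ((m / 2 : ℕ) : ZMod m)) = 1 := by
      rw [← map_mul, DihedralGroup.r_mul_r, half_add_half h2m, ← DihedralGroup.one_def, map_one]
    exact congrArg Subtype.val h1
  have hz1 : z ≠ 1 := by
    intro h1
    have h3 : φ.symm (DihedralGroup.r ((m / 2 : ℕ) : ZMod m)) = 1 := Subtype.ext h1
    have h4 := congrArg φ h3
    rw [MulEquiv.apply_symm_apply, map_one, DihedralGroup.one_def] at h4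
    exact half_ne h2m (DihedralGroup.r.inj h4)
  have hzo : orderOf z = 2 := orderOf_eq_prime (by rw [pow_two]; exact hzz) hz1
  have hcent : ∀ y ∈ P, Commute z y := by
    intro y hy
    have h1 : φ.symm (DihedralGroup.r ((m / 2 : ℕ) : ZMod m)) * ⟨y, hy⟩ =
        ⟨y, hy⟩ * φ.symm (DihedralGroup.r ((m / 2 : ℕ) : ZMod m)) := by
      apply φ.injective
      rw [map_mul, map_mul, MulEquiv.apply_symm_apply]
      rcases φ ⟨y, hy⟩ with i | i
      · rw [DihedralGroup.r_mul_r, DihedralGroup.r_mul_r, add_comm]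
      · rw [DihedralGroup.r_mul_sr, DihedralGroup.sr_mul_r]
        congr 1
        rw [sub_eq_add_neg]
        congr 1
        rw [neg_eq_iff_add_eq_zero]
        exact half_add_half h2m
    exact congrArg Subtype.val h1
  have hPN : P ≤ Cz z := fun y hy => mem_Cz.2 (hcent y hy)
  have hC : Subgroup.centralizer (P : Set G) ≤ Cz z := by
    intro y hy
    exact mem_Cz.2 (Subgroup.mem_centralizer_iff.1 hy z hzP)
  obtain ⟨b, e', hb, he⟩ := exists_local h hPN hC
  obtain ⟨ξ, hξ, h0⟩ := BlockDeg.exists_height_zero (p := 2) (isPBlock_nonempty hb.blk)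
  let ψ : P.subgroupOf (Cz z) ≃* DihedralGroup m := (Subgroup.subgroupOfEquivOfLe hPN).trans φ
  have hψz : (((ψ.symm (DihedralGroup.r ((m / 2 : ℕ) : ZMod m)) : P.subgroupOf (Cz z)) : Cz z) : G) = z := rfl
  have hN : Cz z = Subgroup.normalizer ((Subgroup.zpowers z : Subgroup G) : Set G) := by
    apply le_antisymm
    · intro y hy
      apply centralizer_le_normalizer
      rw [mem_cz]
      exact mem_Cz.1 hy
    · intro y hy
      have h1 := (Subgroup.mem_normalizer_iff.1 hy z).1 (Subgroup.mem_zpowers z)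
      obtain ⟨k, hk⟩ := h1
      have hk' : z ^ k = y * z * y⁻¹ := hk
      have h3 : y * z * y⁻¹ = z := by
        rcases Int.even_or_odd' k with ⟨c, rfl | rfl⟩
        · exfalso
          apply hz1
          have h4 : y * z * y⁻¹ = 1 := by
            rw [← hk', zpow_mul]
            have : z ^ (2 : ℤ) = 1 := by rw [zpow_ofNat, pow_two]; exact hzz
            rw [this, one_zpow]
          exact conj_eq_one_iff.1 h4
        · rw [← hk', zpow_add, zpow_mul, zpow_one]
          have : z ^ (2 : ℤ) = 1 := by rw [zpow_ofNat, pow_two]; exact hzz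
          rw [this, one_zpow, one_mul]
      rw [mem_Cz]
      show z * y = y * z
      calc z * y = (y * z * y⁻¹) * y := by rw [h3]
        _ = y * z := by group
  refine ⟨z, b, e', ξ, ⟨h, hb, he, ?_, hPN, hzP, hz1, hN, hξ, h0⟩, ψ, hzo, hψz⟩
  apply inn_of_odd hb
  intro R hR g hg hgo
  have hPp : IsPGroup 2 (P.subgroupOf (Cz z)) := hb.pair.1
  set xK : Cz z := ((ψ.symm (DihedralGroup.r 1) : P.subgroupOf (Cz z)) : Cz z) with hxK
  have hXmem : ∀ (q : Cz z) (hq : q ∈ P.subgroupOf (Cz z)), q ∈ Subgroup.zpowers xK ↔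
      ∃ i : ZMod m, ψ ⟨q, hq⟩ = DihedralGroup.r i := by
    intro q hq
    rw [← mem_zp_iff ψ]
    constructor
    · rintro ⟨k, hk⟩
      exact ⟨k, Subtype.ext hk⟩
    · rintro ⟨k, hk⟩
      exact ⟨k, congrArg Subtype.val hk⟩
  apply odd_cent (X := Subgroup.zpowers xK) (Q := R) inferInstance
    (hPp.to_le (by rw [Subgroup.zpowers_le]; exact SetLike.coe_mem _)) (hPp.to_le hR)
  · intro q hq q' hq' hqX hq'X
    have hqP := hR hq
    have hq'P := hR hq'
    rw [hXmem _ hqP] at hqX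
    rw [hXmem _ hq'P] at hq'X
    rw [hXmem _ ((P.subgroupOf (Cz z)).mul_mem ((P.subgroupOf (Cz z)).inv_mem hqP) hq'P)]
    have h1 : (⟨q⁻¹ * q', (P.subgroupOf (Cz z)).mul_mem ((P.subgroupOf (Cz z)).inv_mem hqP) hq'P⟩ : P.subgroupOf (Cz z)) =
        (⟨q, hqP⟩ : P.subgroupOf (Cz z))⁻¹ * ⟨q', hq'P⟩ := rfl
    rw [h1, map_mul, map_inv]
    rcases h3 : ψ ⟨q, hqP⟩ with i | i
    · exact absurd ⟨i, h3⟩ hqX
    · rcases h4 : ψ ⟨q', hq'P⟩ with j | j
      · exact absurd ⟨j, h4⟩ hq'X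
      · rw [DihedralGroup.inv_sr, DihedralGroup.sr_mul_sr]
        exact ⟨_, rfl⟩
  · exact hgo
  · exact hg
  · intro q hq hqX
    have hqP := hR hq
    have hgqR : g * q * g⁻¹ ∈ R := (Subgroup.mem_normalizer_iff.1 hg q).1 hq
    have hgqP := hR hgqR
    by_cases hq2 : q * q = 1
    · obtain ⟨i, hi⟩ := (hXmem q hqP).1 hqX
      have h1 : (⟨q, hqP⟩ : P.subgroupOf (Cz z)) * ⟨q, hqP⟩ = 1 := Subtype.ext hq2
      have h3 := congrArg ψ h1
      rw [map_mul, hi, DihedralGroup.r_mul_r, map_one, DihedralGroup.one_def] at h3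
      have h4 : 2 * i = 0 := by rw [two_mul]; exact DihedralGroup.r.inj h3
      have h5 : g * q * g⁻¹ = q := by
        rcases two_mul_eq_zero h2m h4 with h0 | h0
        · have : q = 1 := by
            rw [h0, ← DihedralGroup.one_def] at hi
            have h6 : (⟨q, hqP⟩ : P.subgroupOf (Cz z)) = 1 := ψ.injective (by rw [hi, map_one])
            exact congrArg Subtype.val h6
          rw [this]; group
        · have : q = zz z := by
            have h6 : (⟨q, hqP⟩ : P.subgroupOf (Cz z)) = ψ.symm (DihedralGroup.r ((m / 2 : ℕ) : ZMod m)) := by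
              apply ψ.injective
              rw [hi, h0, MulEquiv.apply_symm_apply]
            have h7 := congrArg (fun w : P.subgroupOf (Cz z) => ((w : Cz z) : G)) h6
            exact Subtype.ext (h7.trans hψz)
          rw [this]
          exact LD.zz_central z g
      rw [h5]; exact hqX
    · rw [hXmem _ hgqP]
      rcases h3 : ψ ⟨g * q * g⁻¹, hgqP⟩ with i | i
      · exact ⟨i, rfl⟩
      · exfalso
        apply hq2
        have h4 : (⟨g * q * g⁻¹, hgqP⟩ : P.subgroupOf (Cz z)) * ⟨g * q * g⁻¹, hgqP⟩ = 1 := by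
          apply ψ.injective
          rw [map_mul, h3, DihedralGroup.sr_mul_self, map_one]
        have h5 : (g * q * g⁻¹) * (g * q * g⁻¹) = 1 := congrArg Subtype.val h4
        have h6 : g * (q * q) * g⁻¹ = 1 := by
          calc g * (q * q) * g⁻¹ = (g * q * g⁻¹) * (g * q * g⁻¹) := by group
            _ = 1 := h5
        exact conj_eq_one_iff.1 h6

end main

end Cfsg.Agent.Lib.Tame
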