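import Cfsg.Agent.Lib.TameStr

/-!
# The congruence for cubic sums
-/

set_option autoImplicit false
set_option linter.all false
set_option maxHeartbeats 400000

namespace Cfsg.Agent.Lib.Tame

open Cfsg Cfsg.Agent.Lib.BlockRing Cfsg.Agent.Lib.BlockGA Cfsg.Agent.Lib.BlockAlg
open Cfsg.Agent.Lib.BlkIdem Cfsg.Agent.Lib.PairAlg Cfsg.Agent.Lib.PairMax
open Cfsg.Agent.Lib.BlockIdem Cfsg.Agent.Lib.BlockSecond Cfsg.Agent.Lib.BrauerPairs
open Cfsg.Agent.Lib.BlkFus Cfsg.Agent.Lib.InducedPair Cfsg.Agent.Lib.DefPairs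
open Cfsg.Agent.Lib.BlkFusDef Cfsg.Agent.Lib.BlkTransport Cfsg.Agent.Lib.BlkNil
open Cfsg.Agent.Lib.H25BpLift Cfsg.Agent.Lib.H25BpTw Cfsg.Agent.Lib.H25BpF Cfsg.Agent.Lib.H25BpI
open Cfsg.Agent.Lib.H25BpE Cfsg.Agent.Lib.H25BpG Cfsg.Agent.Lib.H25BpW Cfsg.Agent.Lib.H25BpM
open Cfsg.Agent.Lib.H25BpS
open Cfsg.Agent.Lib.BlockCount (Bl D rsp rsp_orth sum_blockPart blockRank_eq)
open Cfsg.Agent.Lib.BlockPair (preg)
open Cfsg.Agent.Lib.Subsec (Cz mem_Cz al al_eq al_mem fs mem_fs sum_fs blockPart_eq D_reg D_not_reg D_mem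
  zz eps eps_mul eps_pow tr tr_center tr_locA lin_tr RegS regS_eB D_eq_sum coef coef_nat un un_loc single_zz_center)
open MonoidAlgebra (single)
open scoped ComplexConjugate Classical Pointwise

universe u

variable {p : ℕ} [hp : Fact p.Prime] {M : Ideal AlgInt} [hMm : M.IsMaximal] [hchar : CharP (Kf M) p]
  {G : Type u} [Group G] [Finite G] {B : Set (IrrCharacter G)} {P : Subgroup G} {e : MonoidAlgebra (Kf M) G}

namespace LD

/-- values outside the block -/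
theorem tv_out {N : Subgroup G} {b : Set (IrrCharacter N)} {e' : MonoidAlgebra (Kf M) N} {v : G}
    {ξ : IrrCharacter N} (L : LD p B P e N b e' v ξ) {χ : IrrCharacter G} (hχ : χ ∉ B)
    {u : P.subgroupOf N} (hu : v ∈ Subgroup.zpowers (((u : P.subgroupOf N) : N) : G)) :
    tv p P e' ξ χ u = 0 := by
  have := Fintype.ofFinite N
  have := Fintype.ofFinite (P.subgroupOf N)
  obtain ⟨ind, hind⟩ : ∃ ind : P.subgroupOf N → ℂ, ind = fun y => if IsConj u y then (1 : ℂ) else 0 := ⟨_, rfl⟩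
  have hcl : IsClassFunction (P.subgroupOf N) (fun y : P.subgroupOf N =>
      extendByZero (P.subgroupOf N) ind (y : N)) := by
    rw [ext_res, hind]; exact CharBasic.isClassFunction_indicator u
  have hs : ∀ x ∈ P.subgroupOf N, v ∉ Subgroup.zpowers (x : G) →
      extendByZero (P.subgroupOf N) ind x = 0 := by
    intro x hx hv
    rw [IndFun.extendByZero_mem _ _ hx, hind]
    show (if IsConj u (⟨x, hx⟩ : P.subgroupOf N) then (1 : ℂ) else 0) = 0
    rw [if_neg]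
    intro hc
    apply hv
    obtain ⟨c, hc'⟩ := isConj_iff.1 hc
    have h1 : (c : N) * (u : N) * (c : N)⁻¹ = x := congrArg Subtype.val hc'
    have h2 : ((c : N)⁻¹ : N) * x * ((c : N)⁻¹ : N)⁻¹ = u := by rw [← h1]; group
    have h3 : (((c : N)⁻¹ : N) : G) * x * (((c : N)⁻¹ : N) : G)⁻¹ = ((u : N) : G) := congrArg Subtype.val h2
    apply L.conj_mem_zp ((c : N)⁻¹ : N).2
    rw [h3]
    exact hu
  have h1 := L.orth hcl hs hχ
  have h2 := tt_inner (p := p) (P := P.subgroupOf N) (e := e') (ξ : N → ℂ) (fun n : N => (χ : G → ℂ) n) hcl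
  rw [h1, ext_res] at h2
  have h3 := CharBasic.classInner_indicator u (tt_class (p := p) (P := P.subgroupOf N) (e := e') (ξ : N → ℂ)
    (fun n : N => (χ : G → ℂ) n))
  have h3' : classInner ind (tt p (P.subgroupOf N) e' (ξ : N → ℂ) (fun n : N => (χ : G → ℂ) n)) =
      (Nat.card (Subgroup.centralizer ({u} : Set (P.subgroupOf N))) : ℂ)⁻¹ *
        conj (tt p (P.subgroupOf N) e' (ξ : N → ℂ) (fun n : N => (χ : G → ℂ) n) u) := by
    rw [hind]
    convert h3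
  clear h3
  rename' h3' => h3
  rw [← IndFun.classInner_conj_symm, ← h2, map_zero] at h3
  have h5 : (Nat.card (Subgroup.centralizer ({u} : Set (P.subgroupOf N))) : ℂ)⁻¹ ≠ 0 :=
    inv_ne_zero (Nat.cast_ne_zero.2 Nat.card_pos.ne')
  have h6 := (mul_eq_zero.1 h3.symm).resolve_left h5
  exact (map_eq_zero _).1 h6

variable {z : G} {b : Set (IrrCharacter (Cz z))} {e' : MonoidAlgebra (Kf M) (Cz z)}
  {ξ : IrrCharacter (Cz z)}

/-- the congruence -/
theorem str_cong (L : LD p B P e (Cz z) b e' z ξ) {η : Cz z → ℂ} (hη : Sta p (P.subgroupOf (Cz z)) e' η)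
    (hgen : IsGeneralizedCharacter (P.subgroupOf (Cz z)) (fun x : P.subgroupOf (Cz z) => η x))
    (h1 : ∀ x ∈ P.subgroupOf (Cz z), η x * conj (η x) = 1) (h2 : η 1 = 1)
    {κ : ℂ} {n : ℕ} (hκ : ∀ y ∈ P.subgroupOf (Cz z), orderOf y = n → η y = κ) (hκ3 : κ ^ 3 ≠ 1)
    {u : P.subgroupOf (Cz z)} (hzu : z ∈ Subgroup.zpowers (((u : P.subgroupOf (Cz z)) : Cz z) : G))
    (hun : orderOf (u : Cz z) = n) (bx : Bl M (Cz (u : Cz z)))
    (hle : PLE p (Subgroup.zpowers (u : Cz z), bid M (Cz (u : Cz z)) bx.1) (P.subgroupOf (Cz z), e')) :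
    MemLocalIdeal M ((Nat.card G : ℂ)⁻¹ * (((Nat.card G : ℂ) / Nat.card (Cz (u : Cz z))) *
      D p (u : Cz z) bx.1 (ξ : Cz z → ℂ) 1) ^ 2 *
      ∑ χ ∈ fs B, tv p P e' ξ χ u ^ 3 / (χ : G → ℂ) 1) := by
  have := Fintype.ofFinite G
  have := Fintype.ofFinite (Cz z)
  have := isPrime L.ctx.mod
  have hM := L.ctx.mod
  obtain ⟨kz, hkz⟩ := L.vpow
  have hzp : z ^ p ^ kz = 1 := by rw [← hkz]; exact pow_orderOf_eq_one z
  have hPE := PE_of_mem (p := p) L.loc.pair.1 u.2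
  set w₀ : GA (Cz (u : Cz z)) := single (zz (u : Cz z)) (1 : ℂ) * eB bx.1 with hw₀
  have hw₀c : w₀ ∈ Subalgebra.center ℂ (GA (Cz (u : Cz z))) :=
    Subalgebra.mul_mem _ (single_zz_center (u : Cz z)) (eB_mem_center bx.1)
  have hw₀l : LocA M w₀ := locA_mul (locA_single loc_one) (locA_eB bx.2)
  set α : GA (Cz z) := tr (Cz (u : Cz z)) w₀ with hα
  have hαc : α ∈ Subalgebra.center ℂ (GA (Cz z)) := tr_center _ _
  have hαl : LocA M α := tr_locA _ hw₀c hw₀l
  set a : GA G := tr (Cz z) α with ha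
  have hac : a ∈ Subalgebra.center ℂ (GA G) := tr_center _ _
  have hal : LocA M a := tr_locA _ hαc hαl
  have haPO : PO p n a := by
    apply PO_tr
    apply PO_tr
    rw [← hun]
    exact PO_zz hM hPE bx.2
  set r : GA (Cz z) := resH (Cz z) a with hr
  have hrc : r ∈ Subalgebra.center ℂ (GA (Cz z)) := resH_mem_center hac
  have hrPO : PO p n r := PO_resH haPO _
  have hrl : LocA M r := locA_resH hal
  set F : GA (Cz z) := incH (Cz (u : Cz z)) (eB bx.1) with hF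
  have hFl : LocA M F := locA_incH (locA_eB bx.2)
  -- elements of the group algebra of the centralizer commute with `z`
  have hcomm : ∀ y : GA (Cz z), Commute (incH (Cz z) y) (single z (1 : ℂ)) := by
    intro y
    have h3 : single z (1 : ℂ) = incH (Cz z) (single (zz z) 1) := by rw [incH_single]; rfl
    rw [h3]
    show incH (Cz z) y * incH (Cz z) _ = incH (Cz z) _ * incH (Cz z) y
    rw [← map_mul, ← map_mul, center_comm (single_zz_center z)]
  have hInF : ∀ y : GA (Cz z), LocA M y → InF M z (incH (Cz z) y) := fun y hy => ⟨locA_incH hy, hcomm y⟩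
  have hcz : ∀ g, Commute z g → g ∈ Cz z := fun g hg => mem_Cz.2 hg
  have hJ1 : InJ M z (a - incH (Cz z) r) := inJ_sub_incH_resH hcz a
  have haF : InF M z a := inF_of_center hal hac
  have hJ2 : InJ M z (a * a - incH (Cz z) r * incH (Cz z) r) :=
    inJ_mul_sub_mul hM hzp haF (hInF r hrl) haF (hInF r hrl) hJ1 hJ1
  have hJ3 : InJ M z ((a * a - incH (Cz z) r * incH (Cz z) r) * incH (Cz z) F) := by
    apply inJ_mul_right hM hzp _ (hInF F hFl) hJ2
    exact inF_sub (inF_mul haF haF) (inF_mul (hInF r hrl) (hInF r hrl))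
  -- the coefficients
  apply idl_of_D L.loc L.inn L.hξ L.h0 hle
  intro s hs
  have hg : Commute z ((((u : Cz z) * (s : Cz z))⁻¹ : Cz z) : G) := mem_Cz.1 (SetLike.coe_mem _)
  have h4 := hJ3 _ hg
  have h5 : ((a * a - incH (Cz z) r * incH (Cz z) r) * incH (Cz z) F).coeff ((((u : Cz z) * (s : Cz z))⁻¹ : Cz z) : G) =
      (a * a * incH (Cz z) F).coeff ((((u : Cz z) * (s : Cz z))⁻¹ : Cz z) : G) := by
    rw [sub_mul, MonoidAlgebra.coeff_sub, Finsupp.sub_apply, ← map_mul, ← map_mul, coeff_incH_coe,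
      nlevel_zero L.loc hη hgen h1 h2 hκ hκ3 u.2 hun bx hle hrc hrPO hs, sub_zero]
  rw [h5] at h4
  have h6 : ((((u : Cz z) * (s : Cz z))⁻¹ : Cz z) : G) = (((u : Cz z) * (s : Cz z) : Cz z) : G)⁻¹ := rfl
  rw [h6, coeff_inv_eq] at h4
  have h7 : ∀ χ : IrrCharacter G, (χ : G → ℂ) 1 * lin (χ : G → ℂ) (a * a * incH (Cz z) F *
      single (((u : Cz z) * (s : Cz z) : Cz z) : G) 1) =
      (((Nat.card G : ℂ) / Nat.card (Cz (u : Cz z))) * D p (u : Cz z) bx.1 (ξ : Cz z → ℂ) 1) ^ 2 *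
        (tv p P e' ξ χ u ^ 3 / (χ : G → ℂ) 1) * D p (u : Cz z) bx.1 (ξ : Cz z → ℂ) s := by
    intro χ
    have hres : IsClassFunction (Cz z) (fun n : Cz z => (χ : G → ℂ) n) := (χ.2.isCharacter.restrict (Cz z)).isClassFunction
    have hD : D p (u : Cz z) bx.1 (fun n : Cz z => (χ : G → ℂ) n) =
        tv p P e' ξ χ u • D p (u : Cz z) bx.1 (ξ : Cz z → ℂ) := D_tt L.loc L.inn L.hξ L.h0 hres hle
    have e1 : lin (χ : G → ℂ) (incH (Cz z) F * single (((u : Cz z) * (s : Cz z) : Cz z) : G) 1) =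
        tv p P e' ξ χ u * D p (u : Cz z) bx.1 (ξ : Cz z → ℂ) s := by
      have h8 : single (((u : Cz z) * (s : Cz z) : Cz z) : G) (1 : ℂ) =
          incH (Cz z) (single ((u : Cz z) * (s : Cz z)) 1) := (incH_single _ _).symm
      rw [h8, ← map_mul, lin_incH, hF, lin_incH_single (p := p) bx.1 hres hs, hD]
      rfl
    have e2 : lin (χ : G → ℂ) a = ((Nat.card G : ℂ) / Nat.card (Cz (u : Cz z))) *
        (tv p P e' ξ χ u * D p (u : Cz z) bx.1 (ξ : Cz z → ℂ) 1) := by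
      rw [ha, lin_tr (Cz z) α χ.2.isClassFunction, hα, lin_tr (Cz (u : Cz z)) w₀ hres, hw₀, lin_zeB' (p := p) bx.1 hres, hD,
        Pi.smul_apply, smul_eq_mul, ← mul_assoc]
      congr 1
      have i1 := (Cz z).card_mul_index
      have i2 := (Cz (u : Cz z)).card_mul_index
      have hC : (Nat.card (Cz (u : Cz z)) : ℂ) ≠ 0 := Nat.cast_ne_zero.2 Nat.card_pos.ne'
      rw [eq_div_iff hC, ← i1, ← i2]
      push_cast
      ring
    have hχ1 : (χ : G → ℂ) 1 ≠ 0 := χ.2.one_ne_zero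
    rw [mul_assoc, mul_assoc, lin_mul χ.2 hac, lin_mul χ.2 hac, e1]
    unfold omega
    rw [e2]
    field_simp
  rw [Finset.sum_congr rfl fun χ _ => h7 χ] at h4
  have h8 : ∑ χ : IrrCharacter G, (((Nat.card G : ℂ) / Nat.card (Cz (u : Cz z))) *
        D p (u : Cz z) bx.1 (ξ : Cz z → ℂ) 1) ^ 2 *
        (tv p P e' ξ χ u ^ 3 / (χ : G → ℂ) 1) * D p (u : Cz z) bx.1 (ξ : Cz z → ℂ) s =
      (((Nat.card G : ℂ) / Nat.card (Cz (u : Cz z))) * D p (u : Cz z) bx.1 (ξ : Cz z → ℂ) 1) ^ 2 *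
        (∑ χ ∈ fs B, tv p P e' ξ χ u ^ 3 / (χ : G → ℂ) 1) * D p (u : Cz z) bx.1 (ξ : Cz z → ℂ) s := by
    rw [Finset.mul_sum, Finset.sum_mul]
    symm
    refine Finset.sum_subset (Finset.subset_univ _) fun χ _ hχ => ?_
    rw [L.tv_out (fun hc => hχ (mem_fs.2 hc)) hzu]
    simp
  rw [h8] at h4
  convert h4 using 1
  ring

end LD

end Cfsg.Agent.Lib.Tame
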