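import Cfsg.Agent.Lib.TameNum
import Cfsg.Agent.Lib.TameStr2

/-!
# Exclusion of the exotic case for dihedral defect groups of order 16
-/

set_option autoImplicit false
set_option linter.all false
set_option maxHeartbeats 400000

namespace Cfsg.Agent.Lib.Tame

open Cfsg Cfsg.Agent.Lib.BlockRing Cfsg.Agent.Lib.BlockGA Cfsg.Agent.Lib.BlockAlg
open Cfsg.Agent.Lib.BlkIdem Cfsg.Agent.Lib.PairAlg Cfsg.Agent.Lib.PairMax
open Cfsg.Agent.Lib.BlockIdem Cfsg.Agent.Lib.BlockSecond Cfsg.Agent.Lib.BrauerPairs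
open Cfsg.Agent.Lib.BlkFus Cfsg.Agent.Lib.InducedPair Cfsg.Agent.Lib.DefPairs
open Cfsg.Agent.Lib.BlkFusDef Cfsg.Agent.Lib.BlkTransport Cfsg.Agent.Lib.BlkNil
open Cfsg.Agent.Lib.H25BpLift Cfsg.Agent.Lib.H25BpTw Cfsg.Agent.Lib.H25BpF Cfsg.Agent.Lib.H25BpI
open Cfsg.Agent.Lib.H25BpE Cfsg.Agent.Lib.H25BpG Cfsg.Agent.Lib.H25BpW Cfsg.Agent.Lib.H25BpM
open Cfsg.Agent.Lib.H25BpS Cfsg.Agent.Lib.TameFour Cfsg.Agent.Lib.TameGrp
open Cfsg.Agent.Lib.BlockCount (Bl D rsp rsp_orth sum_blockPart blockRank_eq)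
open Cfsg.Agent.Lib.Subsec (Cz mem_Cz fs mem_fs sum_fs zz un un_loc un_height_zero D_one_hz)
open scoped ComplexConjugate Classical Pointwise

universe u

section gen

variable {p : ℕ} [hp : Fact p.Prime] {M : Ideal AlgInt} [hMm : M.IsMaximal] [hchar : CharP (Kf M) p]
  {G : Type u} [Group G] [Finite G] {B : Set (IrrCharacter G)} {P : Subgroup G} {e : MonoidAlgebra (Kf M) G}

/-- defects of subsections of nilpotent blocks -/
theorem defect_inn (h : Ctx p B P e) (hin : H25BpS.Inn p P e) (x : P) (b : Bl M (Cz (x : G)))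
    (hb : PLE p (Subgroup.zpowers (x : G), bid M (Cz (x : G)) b.1) (P, e)) :
    p ^ blockDefect p b.1 = Nat.card (P ⊓ Cc (x : G) : Subgroup G) :=
  h.defect_bl b hb (fun g hg => by
    obtain ⟨y, hy, hyg⟩ := hin _ _ hg
    rw [mem_cz] at hyg
    have h2 : g * (x : G) * g⁻¹ = y * x * y⁻¹ := by
      have h2 : (x : G) * (y⁻¹ * g) = y⁻¹ * g * x := hyg
      calc g * (x : G) * g⁻¹ = y * (y⁻¹ * g * x) * g⁻¹ := by group
        _ = y * (x * (y⁻¹ * g)) * g⁻¹ := by rw [h2]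
        _ = _ := by group
    rw [h2, card_inf_conj hy])

end gen

/-- a sign character of the dihedral group of order 16 -/
def sgn8 : DihedralGroup 8 →* ℤˣ :=
  MonoidHom.mk' (fun g => match g with | .r i => (-1) ^ i.val | .sr i => (-1) ^ i.val) (by decide +kernel)

theorem sgn8_pow : ∀ g : DihedralGroup 8, sgn8 g = 1 → g ^ 4 = 1 := by decide +kernel

section main

variable {M : Ideal AlgInt} [hMm : M.IsMaximal] [hchar : CharP (Kf M) 2]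
  {G : Type u} [Group G] [Finite G] {B : Set (IrrCharacter G)} {P : Subgroup G} {e : MonoidAlgebra (Kf M) G}
  {z : G} {b : Set (IrrCharacter (Cz z))} {e' : MonoidAlgebra (Kf M) (Cz z)} {ξ : IrrCharacter (Cz z)}

omit hMm hchar in
theorem sum_zmod8 (F : ZMod 8 → ℂ) : ∑ a, F a = F 0 + F 1 + F 2 + F 3 + F 4 + F 5 + F 6 + F 7 :=
  Fin.sum_univ_eight F

/-- the value at a generator of the maximal cyclic subgroup -/
theorem tv_eight (L : LD 2 B P e (Cz z) b e' z ξ) {x : P.subgroupOf (Cz z)} (C : Cyc2 8 x (-1)) :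
    ∃ r : ℂ, r ^ 2 = 2 ∧ ∀ χ : IrrCharacter G, tv 2 P e' ξ χ x =
      ((L.ww C (LD.mu 4) χ : ℤ) : ℂ) - r * (((L.ww C (LD.mu 1) χ : ℤ) : ℂ) - ((L.ww C (LD.mu 3) χ : ℤ) : ℂ)) := by
  obtain ⟨ζ, hζ⟩ : ∃ ζ : ℂ, ζ = ev 8 1 := ⟨_, rfl⟩
  have h4 : ζ ^ 4 = -1 := by
    have h1 : ev 8 (((8 / 2 : ℕ) : ZMod 8)) = -1 := LD.ev_half (m := 8) (by norm_num)
    have h2 : ev 8 ((4 : ℕ) • (1 : ZMod 8)) = ev 8 1 ^ 4 := AddChar.map_nsmul_eq_pow _ _ _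
    rw [hζ, ← h2, ← h1]
    congr 1
  refine ⟨ζ - ζ ^ 3, ?_, ?_⟩
  · have : (ζ - ζ ^ 3) ^ 2 = ζ ^ 2 - 2 * ζ ^ 4 + ζ ^ 2 * ζ ^ 4 := by ring
    rw [this, h4]; ring
  · intro χ
    have h1 := L.tv_xp C χ 1
    rw [xp_one] at h1
    · rw [h1, L.ww_mu, L.ww_mu, L.ww_mu]
      have hneg : ∀ a : ZMod 8, L.nn C χ (-a) = L.nn C χ a := by
        intro a
        have := L.nn_scale C χ a
        rwa [neg_one_mul] at this
      have hev : ∀ k : ℕ, ev 8 ((k : ZMod 8) * 1) = ζ ^ k := by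
        intro k
        have h2 : ev 8 (k • (1 : ZMod 8)) = ev 8 1 ^ k := AddChar.map_nsmul_eq_pow _ _ _
        rw [hζ, ← h2, nsmul_eq_mul]
      have hsum : ∑ a : ZMod 8, (L.nn C χ a : ℂ) * ev 8 (a * 1) =
          (L.nn C χ 0 : ℂ) * ζ ^ 0 + (L.nn C χ 1 : ℂ) * ζ ^ 1 + (L.nn C χ 2 : ℂ) * ζ ^ 2 + (L.nn C χ 3 : ℂ) * ζ ^ 3 +
          (L.nn C χ 4 : ℂ) * ζ ^ 4 + (L.nn C χ 3 : ℂ) * ζ ^ 5 + (L.nn C χ 2 : ℂ) * ζ ^ 6 + (L.nn C χ 1 : ℂ) * ζ ^ 7 := by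
        have e5 : L.nn C χ 3 = L.nn C χ 5 := by rw [← hneg 3]; rfl
        have e6 : L.nn C χ 2 = L.nn C χ 6 := by rw [← hneg 2]; rfl
        have e7 : L.nn C χ 1 = L.nn C χ 7 := by rw [← hneg 1]; rfl
        rw [sum_zmod8, e5, e6, e7, ← hev 0, ← hev 1, ← hev 2, ← hev 3, ← hev 4, ← hev 5, ← hev 6, ← hev 7]
        rfl
      rw [hsum]
      have p5 : ζ ^ 5 = -ζ := by calc ζ ^ 5 = ζ ^ 4 * ζ := by ring
          _ = _ := by rw [h4]; ring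
      have p6 : ζ ^ 6 = -ζ ^ 2 := by calc ζ ^ 6 = ζ ^ 4 * ζ ^ 2 := by ring
          _ = _ := by rw [h4]; ring
      have p7 : ζ ^ 7 = -ζ ^ 3 := by calc ζ ^ 7 = ζ ^ 4 * ζ ^ 3 := by ring
          _ = _ := by rw [h4]; ring
      rw [p5, p6, p7, h4]
      push_cast
      ring
    all_goals first | exact C.hx | norm_num

end main

end Cfsg.Agent.Lib.Tame
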