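import Cfsg.Agent.Lib.TameDih2

/-!
# Blocks with dihedral defect groups: main counting theorem
-/

set_option autoImplicit false
set_option linter.all false
set_option maxHeartbeats 400000

namespace Cfsg.Agent.Lib.Tame

open Cfsg Cfsg.Agent.Lib.BlockRing Cfsg.Agent.Lib.BlockGA Cfsg.Agent.Lib.BlockAlg
open Cfsg.Agent.Lib.BlkIdem Cfsg.Agent.Lib.PairAlg Cfsg.Agent.Lib.PairMax
open Cfsg.Agent.Lib.BlockIdem Cfsg.Agent.Lib.BlockSecond Cfsg.Agent.Lib.BrauerPairs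
open Cfsg.Agent.Lib.BlkFus Cfsg.Agent.Lib.InducedPair Cfsg.Agent.Lib.DefPairs
open Cfsg.Agent.Lib.BlkFusDef Cfsg.Agent.Lib.BlkTransport Cfsg.Agent.Lib.BlkNil
open Cfsg.Agent.Lib.H25BpLift Cfsg.Agent.Lib.H25BpTw Cfsg.Agent.Lib.H25BpF Cfsg.Agent.Lib.H25BpI
open Cfsg.Agent.Lib.H25BpE Cfsg.Agent.Lib.H25BpG Cfsg.Agent.Lib.H25BpW Cfsg.Agent.Lib.H25BpM
open Cfsg.Agent.Lib.H25BpS Cfsg.Agent.Lib.TameFour Cfsg.Agent.Lib.TameGrp
open Cfsg.Agent.Lib.BlockCount (Bl D rsp rsp_orth sum_blockPart blockRank_eq)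
open Cfsg.Agent.Lib.Subsec (Cz mem_Cz fs mem_fs sum_fs zz un un_loc un_height_zero D_one_hz)
open Cfsg.Agent.Lib.TameComb (Dat)
open scoped ComplexConjugate Classical Pointwise

universe u

variable {M : Ideal AlgInt} [hMm : M.IsMaximal] [hchar : CharP (Kf M) 2]
  {G : Type u} [Group G] [Finite G] {B : Set (IrrCharacter G)} {P : Subgroup G} {e : MonoidAlgebra (Kf M) G}
  {z : G} {b : Set (IrrCharacter (Cz z))} {e' : MonoidAlgebra (Kf M) (Cz z)} {ξ : IrrCharacter (Cz z)}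

omit hMm hchar in
theorem cast_ne_of_lt {m : ℕ} {a c : ℕ} (ha : a < m) (hc : c < m) (h : a ≠ c) : (a : ZMod m) ≠ (c : ZMod m) := by
  intro hh
  rw [ZMod.natCast_eq_natCast_iff'] at hh
  rw [Nat.mod_eq_of_lt ha, Nat.mod_eq_of_lt hc] at hh
  exact h hh

omit hMm hchar in
theorem neg_cast_ne {m : ℕ} {a c : ℕ} (h1 : 0 < a + c) (h : a + c < m) : -(a : ZMod m) ≠ (c : ZMod m) := by
  intro hh
  rw [neg_eq_iff_add_eq_zero, ← Nat.cast_add, ZMod.natCast_eq_zero_iff] at hh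
  have := Nat.le_of_dvd h1 hh
  omega

namespace LD

variable {m : ℕ} [NeZero m] {x : P.subgroupOf (Cz z)}

/-- the integral vectors of a block with dihedral defect group -/
theorem dat (L : LD 2 B P e (Cz z) b e' z ξ) (C : Cyc2 m x (-1)) {r : ℕ} (hr : 2 ≤ r) (hm : m = 2 ^ r)
    (hz : (((xp x ((m / 2 : ℕ) : ZMod m) : P.subgroupOf (Cz z)) : Cz z) : G) = z) :
    Dat (fs B) (fun χ => L.ww C (mu ((m / 2 : ℕ) : ZMod m)) χ) (Finset.Ico 1 (m / 2))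
      (fun a χ => L.ww C (mu ((a : ℕ) : ZMod m)) χ) := by
  have h2m : 2 ∣ m := by rw [hm]; exact dvd_pow_self 2 (by omega)
  have hm0 : 0 < m := NeZero.pos m
  have hhalf : 0 < m / 2 := by
    obtain ⟨c, hc⟩ := h2m
    omega
  have hlt : m / 2 < m := by omega
  have hr1 : 1 ≤ r := by omega
  have hne : ((m / 2 : ℕ) : ZMod m) ≠ 0 := half_ne h2m
  have h4 : ∑ χ ∈ fs B, L.ww C (mu ((m / 2 : ℕ) : ZMod m)) χ ^ 2 = 4 := by
    have h1 := L.gram_mu C hr1 hm hz hne hne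
    rw [if_pos rfl, if_pos (by rw [neg_eq_iff_add_eq_zero]; exact half_add_half h2m)] at h1
    simp only [pow_two]
    rw [h1]; norm_num
  have hane : ∀ a ∈ Finset.Ico 1 (m / 2), ((a : ℕ) : ZMod m) ≠ 0 := by
    intro a ha
    rw [Finset.mem_Ico] at ha
    have := cast_ne_of_lt (m := m) (a := a) (c := 0) (by omega) (by omega) (by omega)
    rwa [Nat.cast_zero] at this
  obtain ⟨χ₀, hχ₀, h0⟩ := BlockDeg.exists_height_zero (p := 2) (isPBlock_nonempty L.ctx.blk)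
  have hodd : ¬ (2 : ℤ) ∣ L.ww C (mu ((m / 2 : ℕ) : ZMod m)) χ₀ := by
    intro h
    have h1 := L.dd_parity C h2m χ₀
    have h2 : (2 : ℤ) ∣ L.dd C χ₀ := by
      have := dvd_add h1 h
      rwa [sub_add_cancel] at this
    have h3 := (L.tv_val hχ₀).2
    rw [L.tv_dd C h2m hz, h0, pow_zero, div_one, idl_intCast_iff L.ctx.mod] at h3
    exact h3 (by exact_mod_cast h2)
  refine ⟨TameComb.sigma_small h4 (mem_fs.2 hχ₀) hodd, h4, ?_, ?_, ?_⟩
  · intro a ha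
    have ha' := Finset.mem_Ico.1 ha
    have h1 := L.gram_mu C hr1 hm hz (hane a ha) (hane a ha)
    rw [if_pos rfl, if_neg (neg_cast_ne (by omega) (by omega))] at h1
    simp only [pow_two]
    rw [h1]; norm_num
  · intro a ha
    have ha' := Finset.mem_Ico.1 ha
    have h1 := L.gram_mu C hr1 hm hz (hane a ha) hne
    rw [if_neg (cast_ne_of_lt (by omega) (by omega) (by omega)), if_neg (neg_cast_ne (by omega) (by omega))] at h1
    rw [h1]; norm_num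
  · intro a ha c hc hac
    have ha' := Finset.mem_Ico.1 ha
    have hc' := Finset.mem_Ico.1 hc
    have h1 := L.gram_mu C hr1 hm hz (hane a ha) (hane c hc)
    rw [if_neg (cast_ne_of_lt (by omega) (by omega) hac), if_neg (neg_cast_ne (by omega) (by omega))] at h1
    rw [h1]; norm_num

/-- relations with the degrees -/
theorem ww_deg (L : LD 2 B P e (Cz z) b e' z ξ) (C : Cyc2 m x (-1)) {r : ℕ} (hr : 1 ≤ r) (hm : m = 2 ^ r)
    (hz : (((xp x ((m / 2 : ℕ) : ZMod m) : P.subgroupOf (Cz z)) : Cz z) : G) = z) (a : ZMod m) {g : G}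
    (hg : ¬ 2 ∣ orderOf g) :
    ∑ χ ∈ fs B, (L.ww C (mu a) χ : ℂ) * (χ : G → ℂ) g = 0 := by
  apply L.ww_col C (L.good_of_sum C hr hm hz (sum_mu a))
  intro h hc
  obtain ⟨k, hk⟩ := L.vpow
  have hk0 : k ≠ 0 := by
    rintro rfl
    rw [pow_zero, orderOf_eq_one_iff] at hk
    exact L.v1 hk
  apply hg
  have h1 : orderOf z ∣ orderOf (h * g * h⁻¹) := orderOf_dvd_of_mem_zpowers hc
  rw [orderOf_conj, hk] at h1
  exact dvd_trans (dvd_pow_self 2 hk0) h1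

end LD

/-- exclusion of the exotic case -/
theorem no_exotic (L : LD 2 B P e (Cz z) b e' z ξ) (ψ : P.subgroupOf (Cz z) ≃* DihedralGroup 8)
    (hz : (((xp (ψ.symm (DihedralGroup.r 1)) ((8 / 2 : ℕ) : ZMod 8) : P.subgroupOf (Cz z)) : Cz z) : G) = z)
    (hg : ∀ a ∈ Finset.Ico 1 (8 / 2), ∀ c ∈ Finset.Ico 1 (8 / 2), a ≠ c →
      (∀ χ ∈ fs B, L.ww (cyc2_dih ψ) (LD.mu ((8 / 2 : ℕ) : ZMod 8)) χ = 0 →
        L.ww (cyc2_dih ψ) (LD.mu ((a : ℕ) : ZMod 8)) χ = L.ww (cyc2_dih ψ) (LD.mu ((c : ℕ) : ZMod 8)) χ) ∧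
      ∑ χ ∈ (fs B).filter (fun χ => L.ww (cyc2_dih ψ) (LD.mu ((8 / 2 : ℕ) : ZMod 8)) χ ≠ 0),
        L.ww (cyc2_dih ψ) (LD.mu ((a : ℕ) : ZMod 8)) χ * L.ww (cyc2_dih ψ) (LD.mu ((c : ℕ) : ZMod 8)) χ = 1) :
    False := by
  have := isPrime L.ctx.mod
  have hM := L.ctx.mod
  set x := ψ.symm (DihedralGroup.r 1) with hx
  set C : Cyc2 8 x (-1) := cyc2_dih ψ with hC
  have hdat := L.dat C (r := 3) (by norm_num) (by norm_num) hz
  obtain ⟨ρ, hρ2, hρ⟩ := tv_eight L C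
  have hdeg : ∀ a : ZMod 8, ∑ χ ∈ fs B, (L.ww C (LD.mu a) χ : ℂ) * (χ : G → ℂ) 1 = 0 := fun a =>
    L.ww_deg C (r := 3) (by norm_num) (by norm_num) hz a (by rw [orderOf_one]; norm_num)
  obtain ⟨χ₁, hχ₁, hσ₁, hsum⟩ := hdat.exotic_sum (a := 1) (b := 2) (c := 3) (by decide) (by decide) (by decide)
    (by decide) (by decide) (by decide) hg (f := fun χ => (χ : G → ℂ) 1) (fun χ _ => χ.2.one_ne_zero)
    (hdeg _) (fun a _ => hdeg _) hρ2
  have hS : ∑ χ ∈ fs B, tv 2 P e' ξ χ x ^ 3 / (χ : G → ℂ) 1 =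
      (44 / 3) * ((L.ww C (LD.mu ((8 / 2 : ℕ) : ZMod 8)) χ₁ : ℂ) / (χ₁ : G → ℂ) 1) := by
    rw [← hsum]
    refine Finset.sum_congr rfl fun χ _ => ?_
    rw [hρ χ]
    norm_num
  -- the sign character
  set η₀ : P.subgroupOf (Cz z) → ℂ := fun y => (((sgn8 (ψ y) : ℤˣ) : ℤ) : ℂ) with hη₀
  set η : Cz z → ℂ := extendByZero (P.subgroupOf (Cz z)) η₀ with hη
  have hres : (fun y : P.subgroupOf (Cz z) => η (y : Cz z)) = η₀ := ext_res η₀
  have hhom : η₀ = fun y => ((((Units.map (Int.castRingHom ℂ).toMonoidHom).comp (sgn8.comp ψ.toMonoidHom)) y : ℂˣ) : ℂ) := rfl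
  have hirr : IsIrrCharacter (P.subgroupOf (Cz z)) η₀ := by
    rw [hhom]; exact CharBasic.isIrrCharacter_of_unitsHom _
  have hcl : IsClassFunction (P.subgroupOf (Cz z)) (fun y : P.subgroupOf (Cz z) => η y) := by
    rw [hres]; exact hirr.isClassFunction
  have hsta := sta_of_class L.inn hcl
  have hgen : IsGeneralizedCharacter (P.subgroupOf (Cz z)) (fun y : P.subgroupOf (Cz z) => η y) := by
    rw [hres]; exact hirr.isGeneralized
  have hval : ∀ y (hy : y ∈ P.subgroupOf (Cz z)), η y = (((sgn8 (ψ ⟨y, hy⟩) : ℤˣ) : ℤ) : ℂ) := fun y hy =>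
    congrFun hres ⟨y, hy⟩
  have hη1 : ∀ y ∈ P.subgroupOf (Cz z), η y * conj (η y) = 1 := by
    intro y hy
    rw [hval y hy]
    rcases Int.units_eq_one_or (sgn8 (ψ ⟨y, hy⟩)) with h | h <;> rw [h] <;> simp
  have hη2 : η 1 = 1 := by
    rw [hval 1 (Subgroup.one_mem _)]
    have : (⟨1, Subgroup.one_mem _⟩ : P.subgroupOf (Cz z)) = 1 := rfl
    rw [this, map_one, map_one]
    simp
  have hκ : ∀ y ∈ P.subgroupOf (Cz z), orderOf y = 8 → η y = -1 := by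
    intro y hy ho
    rw [hval y hy]
    rcases Int.units_eq_one_or (sgn8 (ψ ⟨y, hy⟩)) with h | h
    · exfalso
      have h1 := sgn8_pow _ h
      have h2 : orderOf (ψ ⟨y, hy⟩) ∣ 4 := orderOf_dvd_of_pow_eq_one h1
      rw [MulEquiv.orderOf_eq, Subgroup.orderOf_mk, ho] at h2
      norm_num at h2
    · rw [h]; simp
  have hxo : orderOf (x : Cz z) = 8 := by rw [Subgroup.orderOf_coe]; exact C.hx
  have hzx : z ∈ Subgroup.zpowers (((x : P.subgroupOf (Cz z)) : Cz z) : G) := by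
    have h1 : xp x ((8 / 2 : ℕ) : ZMod 8) ∈ Subgroup.zpowers x := (mem_zpowers_iff C.hx).2 ⟨_, rfl⟩
    obtain ⟨k, hk⟩ := h1
    refine ⟨k, ?_⟩
    have hk2 := congrArg (fun w : P.subgroupOf (Cz z) => ((w : Cz z) : G)) hk
    exact hk2.trans hz
  obtain ⟨bx, hle⟩ := L.loc.ple_bl x.2
  have hcong := L.str_cong hsta hgen hη1 hη2 (κ := -1) (n := 8) hκ (by norm_num) (u := x) hzx hxo bx hle
  rw [hS] at hcong
  -- the defect of the subsection
  have hdef : 2 ^ blockDefect 2 bx.1 = 8 := by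
    rw [defect_inn L.loc L.inn x bx hle]
    have h1 : (P.subgroupOf (Cz z)) ⊓ Cc (x : Cz z) = Subgroup.zpowers (x : Cz z) := by
      apply le_antisymm
      · rintro y ⟨hy, hy2⟩
        by_contra hcon
        have h2 : (⟨y, hy⟩ : P.subgroupOf (Cz z)) ∉ Subgroup.zpowers x := by
          rintro ⟨k, hk⟩
          exact hcon ⟨k, congrArg Subtype.val hk⟩
        have h3 := C.hconj _ h2
        have h4 : y * (x : Cz z) * y⁻¹ = x := by
          have h5 : Commute (x : Cz z) y := mem_cz.1 hy2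
          rw [h5.symm.eq, mul_inv_cancel_right]
        have h5 : (⟨y, hy⟩ : P.subgroupOf (Cz z)) * x * (⟨y, hy⟩ : P.subgroupOf (Cz z))⁻¹ = x := Subtype.ext h4
        rw [h5] at h3
        have h6 : xp x (1 : ZMod 8) = xp x (-1 : ZMod 8) := by rw [xp_one (m := 8) C.hx]; exact h3
        have h7 := xp_injective C.hx h6
        exact absurd h7 (show (1 : ZMod 8) ≠ -1 by decide)
      · rw [Subgroup.zpowers_le]
        exact ⟨x.2, mem_cz.2 (Commute.refl _)⟩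
    rw [h1, Nat.card_zpowers, hxo]
  have hU := D_one_hz hM (z := (x : Cz z)) (k := 3) (by
    have h1 := pow_orderOf_eq_one (x : Cz z)
    rw [hxo] at h1
    exact h1) (L.loc.ind_self x.2 bx hle) L.hξ L.h0
  have hdef' : ((2 : ℕ) : ℂ) ^ blockDefect 2 bx.1 = 8 := by exact_mod_cast hdef
  rw [hdef'] at hU
  -- the height of `χ₁`
  have hχ₁B := mem_fs.1 hχ₁
  have hdd : ¬ (2 : ℤ) ∣ L.dd C χ₁ := by
    intro h
    have h1 := L.dd_parity C (by norm_num) χ₁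
    have h2 : (2 : ℤ) ∣ L.ww C (LD.mu ((8 / 2 : ℕ) : ZMod 8)) χ₁ := by
      have := dvd_sub h h1
      rwa [sub_sub_cancel] at this
    rcases hdat.small χ₁ hχ₁ with h3 | h3 | h3
    · exact hσ₁ h3
    · rw [h3] at h2; norm_num at h2
    · rw [h3] at h2; norm_num at h2
  have hh0 : blockHeight 2 B (χ₁ : G → ℂ) = 0 :=
    L.dd_height C (by norm_num) hz hχ₁B (k := 0) (c := L.dd C χ₁) (by rw [pow_zero, one_mul]) hdd
  have hV := un_loc hM hχ₁B
  rw [un_height_zero hh0] at hV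
  have hB : ((2 : ℕ) : ℂ) ^ blockDefect 2 B = 16 := by
    have h1 := L.ctx.card_P
    have h2 : Nat.card P = 2 * 8 := by
      rw [← C.hcard, Nat.card_congr (Subgroup.subgroupOfEquivOfLe L.le).toEquiv]
    rw [h2] at h1
    exact_mod_cast h1.symm
  rw [hB] at hV
  -- the final computation
  obtain ⟨U, hUd⟩ : ∃ U, U = 8 * D 2 (x : Cz z) bx.1 (ξ : Cz z → ℂ) 1 / (Nat.card (Cz (x : Cz z)) : ℂ) := ⟨_, rfl⟩
  obtain ⟨V, hVd⟩ : ∃ V, V = 16 * (χ₁ : G → ℂ) 1 / (Nat.card G : ℂ) := ⟨_, rfl⟩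
  rw [← hUd] at hU
  rw [← hVd] at hV
  have hU0 : U ≠ 0 := ne_zero_of_not_idl hU.2
  have hG : (Nat.card G : ℂ) ≠ 0 := Nat.cast_ne_zero.2 Nat.card_pos.ne'
  have hCc : (Nat.card (Cz (x : Cz z)) : ℂ) ≠ 0 := Nat.cast_ne_zero.2 Nat.card_pos.ne'
  have hf1 : (χ₁ : G → ℂ) 1 ≠ 0 := χ₁.2.one_ne_zero
  obtain ⟨s, hs⟩ : ∃ s : ℤ, s = L.ww C (LD.mu ((8 / 2 : ℕ) : ZMod 8)) χ₁ := ⟨_, rfl⟩
  have hs1 : (s : ℂ) * s = 1 := by
    rcases hdat.small χ₁ hχ₁ with h3 | h3 | h3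
    · exact absurd h3 hσ₁
    · have h4 : s = 1 := hs.trans h3
      rw [h4]; norm_num
    · have h4 : s = -1 := hs.trans h3
      rw [h4]; norm_num
  rw [← hs] at hcong
  obtain ⟨K, hK⟩ : ∃ K, K = (Nat.card G : ℂ)⁻¹ * ((Nat.card G : ℂ) / (Nat.card (Cz (x : Cz z)) : ℂ) *
      D 2 (x : Cz z) bx.1 (ξ : Cz z → ℂ) 1) ^ 2 * (44 / 3 * ((s : ℂ) / (χ₁ : G → ℂ) 1)) := ⟨_, rfl⟩
  rw [← hK] at hcong
  have hid : K * (V * (3 * s) * (U⁻¹ * U⁻¹)) = 11 := by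
    have h1 : (Nat.card G : ℂ) / (Nat.card (Cz (x : Cz z)) : ℂ) * D 2 (x : Cz z) bx.1 (ξ : Cz z → ℂ) 1 =
        (Nat.card G : ℂ) * U / 8 := by
      rw [hUd]; field_simp
    rw [hK, h1, hVd]
    field_simp
    have h2 : (s : ℂ) ^ 2 = 1 := by rw [pow_two, hs1]
    linear_combination 704 * h2
  have hloc : MemLocalRing M (V * (3 * s) * (U⁻¹ * U⁻¹)) := by
    have hUi := loc_inv hU.1 hU.2
    have h3 : MemLocalRing M (3 : ℂ) := by have := loc_natCast (M := M) 3; exact_mod_cast this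
    exact loc_mul (loc_mul hV.1 (loc_mul h3 (loc_intCast s))) (loc_mul hUi hUi)
  have h11 := idl_mul_right hcong hloc
  rw [hid] at h11
  have h12 : MemLocalIdeal M ((11 : ℕ) : ℂ) := by exact_mod_cast h11
  rw [idl_natCast_iff hM] at h12
  norm_num at h12

end Cfsg.Agent.Lib.Tame
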