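import Cfsg.Agent.Lib.TameDihM

/-!
# Blocks with dihedral defect groups: the invariants
-/

set_option autoImplicit false
set_option linter.all false
set_option maxHeartbeats 400000

namespace Cfsg.Agent.Lib.Tame

open Cfsg Cfsg.Agent.Lib.BlockRing Cfsg.Agent.Lib.BlockGA Cfsg.Agent.Lib.BlockAlg
open Cfsg.Agent.Lib.BlkIdem Cfsg.Agent.Lib.PairAlg Cfsg.Agent.Lib.PairMax
open Cfsg.Agent.Lib.BlockIdem Cfsg.Agent.Lib.BlockSecond Cfsg.Agent.Lib.BrauerPairs
open Cfsg.Agent.Lib.BlkFus Cfsg.Agent.Lib.InducedPair Cfsg.Agent.Lib.DefPairs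
open Cfsg.Agent.Lib.BlkFusDef Cfsg.Agent.Lib.BlkTransport Cfsg.Agent.Lib.BlkNil
open Cfsg.Agent.Lib.H25BpLift Cfsg.Agent.Lib.H25BpTw Cfsg.Agent.Lib.H25BpF Cfsg.Agent.Lib.H25BpI
open Cfsg.Agent.Lib.H25BpE Cfsg.Agent.Lib.H25BpG Cfsg.Agent.Lib.H25BpW Cfsg.Agent.Lib.H25BpM
open Cfsg.Agent.Lib.H25BpS Cfsg.Agent.Lib.TameFour Cfsg.Agent.Lib.TameGrp
open Cfsg.Agent.Lib.BlockCount (Bl D rsp rsp_orth sum_blockPart blockRank_eq)
open Cfsg.Agent.Lib.Subsec (Cz mem_Cz fs mem_fs sum_fs fs_eq zz un un_loc un_height_zero D_one_hz)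
open Cfsg.Agent.Lib.TameComb (Dat)
open scoped ComplexConjugate Classical Pointwise

universe u

variable {M : Ideal AlgInt} [hMm : M.IsMaximal] [hchar : CharP (Kf M) 2]
  {G : Type u} [Group G] [Finite G] {B : Set (IrrCharacter G)} {P : Subgroup G} {e : MonoidAlgebra (Kf M) G}

omit hMm hchar in
/-- vectors with Gram matrix `2 + diag(g)` are independent -/
theorem linInd_of_gram {ι κ : Type*} [Fintype ι] [Fintype κ] [DecidableEq ι] (w : ι → κ → ℂ) (g : ι → ℝ)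
    (hg : ∀ i, 0 < g i) (hG : ∀ i j, ∑ χ, w i χ * w j χ = 2 + (if i = j then (g j : ℂ) else 0)) :
    LinearIndependent ℂ w := by
  rw [Fintype.linearIndependent_iff]
  intro c hc
  have h1 : ∀ j, 2 * (∑ i, c i) + c j * (g j : ℂ) = 0 := by
    intro j
    have h2 : ∑ χ, (∑ i, c i • w i) χ * w j χ = 0 := by
      rw [hc]; simp
    have h3 : ∑ χ, (∑ i, c i • w i) χ * w j χ = ∑ i, c i * ∑ χ, w i χ * w j χ := by
      simp only [Finset.sum_apply, Pi.smul_apply, smul_eq_mul, Finset.sum_mul, Finset.mul_sum]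
      rw [Finset.sum_comm]
      refine Finset.sum_congr rfl fun i _ => Finset.sum_congr rfl fun χ _ => ?_
      ring
    rw [h3] at h2
    simp only [hG, mul_add, Finset.sum_add_distrib, mul_ite, mul_zero, Finset.sum_ite_eq', Finset.mem_univ, if_true] at h2
    rw [← h2, Finset.mul_sum]
    congr 1
    refine Finset.sum_congr rfl fun i _ => ?_
    ring
  set S := ∑ i, c i with hS
  have hgne : ∀ j, (g j : ℂ) ≠ 0 := fun j => by exact_mod_cast (hg j).ne'
  have h2 : ∀ j, c j = -2 * S * ((g j : ℂ))⁻¹ := by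
    intro j
    have := h1 j
    have := hgne j
    field_simp
    linear_combination h1 j
  have h3 : S = -2 * S * ∑ j, ((g j : ℂ))⁻¹ := by
    rw [Finset.mul_sum]
    conv_lhs => rw [hS]
    exact Finset.sum_congr rfl fun j _ => h2 j
  have h4 : S * (1 + 2 * ((∑ j, (g j)⁻¹ : ℝ) : ℂ)) = 0 := by
    push_cast
    linear_combination h3
  have h5 : (1 + 2 * ((∑ j, (g j)⁻¹ : ℝ) : ℂ)) ≠ 0 := by
    have : (0 : ℝ) < 1 + 2 * ∑ j, (g j)⁻¹ := by
      have := Finset.sum_nonneg (s := Finset.univ) (f := fun j => (g j)⁻¹) fun j _ => (inv_pos.2 (hg j)).le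
      positivity
    intro h
    have h6 : ((1 + 2 * ∑ j, (g j)⁻¹ : ℝ) : ℂ) = 0 := by push_cast; push_cast at h; exact h
    exact this.ne' (by exact_mod_cast h6)
  have h6 : S = 0 := (mul_eq_zero.1 h4).resolve_right h5
  intro j
  rw [h2 j, h6]
  ring

theorem dih_main (h : Ctx 2 B P e) {r : ℕ} (hr : 2 ≤ r) (φ : P ≃* DihedralGroup (2 ^ r)) :
    Nat.card B = 2 ^ (r - 1) + 3 ∧ 1 ≤ blockRank 2 B ∧ blockRank 2 B ≤ 3 ∧
      Nat.card {χ : IrrCharacter G // χ ∈ B ∧ blockHeight 2 B (χ : G → ℂ) = 0} = 4 ∧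
      ∀ χ ∈ B, blockHeight 2 B (χ : G → ℂ) ≤ 1 := by
  have : NeZero (2 ^ r) := ⟨pow_ne_zero _ two_ne_zero⟩
  have h4 : 4 ∣ 2 ^ r := by
    have : 2 ^ 2 ∣ 2 ^ r := pow_dvd_pow 2 hr
    exact this
  obtain ⟨z, b, e', ξ, L, ψ, hzo, hz'⟩ := exists_LD_dih h h4 φ
  have h2m : 2 ∣ 2 ^ r := dvd_pow_self 2 (by omega)
  have hhalf : 2 ^ r / 2 = 2 ^ (r - 1) := by
    obtain ⟨k, rfl⟩ := Nat.exists_eq_add_of_le' (show 1 ≤ r by omega)
    rw [pow_succ, Nat.mul_div_cancel _ (by norm_num)]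
    rfl
  have hhp : 2 ≤ 2 ^ (r - 1) := by
    calc 2 = 2 ^ 1 := rfl
      _ ≤ 2 ^ (r - 1) := Nat.pow_le_pow_right (by norm_num) (by omega)
  have hdouble : 2 ^ r = 2 * 2 ^ (r - 1) := by rw [← pow_succ']; congr 1; omega
  set C := cyc2_dih ψ with hC
  have hz : (((xp (ψ.symm (DihedralGroup.r 1)) ((2 ^ r / 2 : ℕ) : ZMod (2 ^ r)) : P.subgroupOf (Cz z)) : Cz z) : G) = z := by
    rw [xp_r]; exact hz'
  have hdat := L.dat C hr rfl hz
  -- the good case
  have hgood : ∀ a ∈ Finset.Ico 1 (2 ^ r / 2), ∀ c ∈ Finset.Ico 1 (2 ^ r / 2), a ≠ c →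
      ∑ χ ∈ (fs B).filter (fun χ => ¬ L.ww C (LD.mu ((2 ^ r / 2 : ℕ) : ZMod (2 ^ r))) χ ≠ 0),
        L.ww C (LD.mu ((a : ℕ) : ZMod (2 ^ r))) χ * L.ww C (LD.mu ((c : ℕ) : ZMod (2 ^ r))) χ = 0 := by
    rcases hdat.alt with hg | hg
    · exact fun a ha c hc hac => (hg a ha c hc hac).2.2
    · intro a ha c hc hac
      exfalso
      have h6 := hdat.exotic_card (fun a ha c hc hac => (hg a ha c hc hac).2.1)
      rw [Nat.card_Ico, hhalf] at h6
      have ha' := Finset.mem_Ico.1 ha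
      have hc' := Finset.mem_Ico.1 hc
      rw [hhalf] at ha' hc'
      have hr3 : r = 3 := by
        by_contra hcon
        rcases (by omega : r = 2 ∨ 4 ≤ r) with h' | h'
        · subst h'
          norm_num at ha' hc'
          omega
        · have : 2 ^ 3 ≤ 2 ^ (r - 1) := Nat.pow_le_pow_right (by norm_num) (by omega)
          omega
      subst hr3
      exact no_exotic L ψ hz (fun a ha c hc hac => ⟨(hg a ha c hc hac).1, (hg a ha c hc hac).2.1⟩)
  have hcard : (Finset.Ico 1 (2 ^ r / 2)).card + 1 = 2 ^ (r - 1) := by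
    rw [Nat.card_Ico, hhalf]; omega
  have hnorm : ∑ χ ∈ fs B, L.dd C χ ^ 2 = 4 * ((2 ^ (r - 1) : ℕ) : ℤ) := by
    rw [L.dd_norm C h2m hz, hdouble]
    push_cast
    ring
  obtain ⟨hk, hd1, hd4⟩ := hdat.good_count hcard hgood hnorm
    (fun χ hχ => L.dd_ne C h2m hz (mem_fs.1 hχ)) (fun χ _ => L.dd_parity C h2m χ)
  have hfsB : Nat.card B = (fs B).card := by
    have := Fintype.ofFinite B
    rw [Nat.card_eq_fintype_card, ← Set.toFinset_card]
    congr 1
    ext χ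
    rw [Set.mem_toFinset, mem_fs]
  have hht1 : ∀ χ ∈ B, L.ww C (LD.mu ((2 ^ r / 2 : ℕ) : ZMod (2 ^ r))) χ ≠ 0 → blockHeight 2 B (χ : G → ℂ) = 0 := by
    intro χ hχ hne
    have h1 := hd1 χ (mem_fs.2 hχ) hne
    refine L.dd_height C h2m hz hχ (k := 0) (c := L.dd C χ) (by rw [pow_zero, one_mul]) ?_
    rintro ⟨c, hc⟩
    rw [hc] at h1
    have h2 : c ^ 2 * 4 = 1 := by linarith
    omega
  have hht2 : ∀ χ ∈ B, L.ww C (LD.mu ((2 ^ r / 2 : ℕ) : ZMod (2 ^ r))) χ = 0 → blockHeight 2 B (χ : G → ℂ) = 1 := by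
    intro χ hχ hne
    have h1 := hd4 χ (mem_fs.2 hχ) hne
    have h2 : (2 : ℤ) ∣ L.dd C χ := by
      have := L.dd_parity C h2m χ
      rwa [hne, sub_zero] at this
    obtain ⟨c, hc⟩ := h2
    refine L.dd_height C h2m hz hχ (k := 1) (c := c) (by rw [pow_one]; exact hc) ?_
    rintro ⟨d, hd⟩
    rw [hc, hd] at h1
    have h2 : d ^ 2 * 16 = 4 := by linarith
    omega
  refine ⟨by rw [hfsB]; exact hk, BlockSmall.blockRank_pos Nat.prime_two (isPBlock_nonempty h.blk), ?_, ?_, ?_⟩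
  · -- the rank
    have := Fintype.ofFinite B
    let w : Fin (2 ^ (r - 1)) → B → ℂ := fun i χ => (L.ww C (LD.mu (((i : ℕ) + 1 : ℕ) : ZMod (2 ^ r))) (χ : IrrCharacter G) : ℂ)
    have hane : ∀ i : Fin (2 ^ (r - 1)), (((i : ℕ) + 1 : ℕ) : ZMod (2 ^ r)) ≠ 0 := by
      intro i
      have hi := i.2
      have := cast_ne_of_lt (m := 2 ^ r) (a := (i : ℕ) + 1) (c := 0) (by omega) (by omega) (by omega)
      rwa [Nat.cast_zero] at this
    have hli : LinearIndependent ℂ w := by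
      apply linInd_of_gram w (fun i => if (i : ℕ) + 1 = 2 ^ (r - 1) then 2 else 1)
      · intro i; split_ifs <;> norm_num
      · intro i j
        have h1 := L.gram_mu C (by omega) rfl hz (hane i) (hane j)
        have h2 : ∑ χ : B, w i χ * w j χ = ((∑ χ ∈ fs B, L.ww C (LD.mu (((i : ℕ) + 1 : ℕ) : ZMod (2 ^ r))) χ *
            L.ww C (LD.mu (((j : ℕ) + 1 : ℕ) : ZMod (2 ^ r))) χ : ℤ) : ℂ) := by
          rw [sum_fs, Int.cast_sum]
          refine Finset.sum_congr rfl fun χ _ => ?_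
          rw [Int.cast_mul]
        rw [h2, h1]
        have hi := i.2
        have hj := j.2
        by_cases hij : i = j
        · subst hij
          rw [if_pos rfl, if_pos rfl]
          by_cases hl : (i : ℕ) + 1 = 2 ^ (r - 1)
          · rw [if_pos hl, if_pos]
            · norm_num
            · rw [hl, ← hhalf, neg_eq_iff_add_eq_zero]
              exact half_add_half h2m
          · rw [if_neg hl, if_neg (neg_cast_ne (by omega) (by omega))]
            norm_num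
        · have hne : (i : ℕ) ≠ (j : ℕ) := fun hh => hij (Fin.ext hh)
          rw [if_neg hij, if_neg (cast_ne_of_lt (by omega) (by omega) (by omega)),
            if_neg (neg_cast_ne (by omega) (by omega))]
          norm_num
    have hrank := rank_add_le (p := 2) w hli (by
      intro i g hg
      rw [finsum_eq_sum_of_fintype]
      have h1 := L.ww_deg C (by omega) rfl hz (((i : ℕ) + 1 : ℕ) : ZMod (2 ^ r)) hg
      rw [sum_fs] at h1
      exact h1)
    rw [Fintype.card_fin, hfsB, hk] at hrank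
    omega
  · -- the characters of height zero
    have h1 := TameComb.card_supp hdat.small
    rw [hdat.four] at h1
    have h2 : ((fs B).filter (fun χ => L.ww C (LD.mu ((2 ^ r / 2 : ℕ) : ZMod (2 ^ r))) χ ≠ 0)).card = 4 := by
      exact_mod_cast h1
    have := Fintype.ofFinite {χ : IrrCharacter G // χ ∈ B ∧ blockHeight 2 B (χ : G → ℂ) = 0}
    rw [Nat.card_eq_fintype_card, ← h2]
    apply Fintype.card_of_subtype
    intro χ
    rw [Finset.mem_filter, mem_fs]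
    constructor
    · rintro ⟨hχ, hne⟩
      exact ⟨hχ, hht1 χ hχ hne⟩
    · rintro ⟨hχ, h0⟩
      refine ⟨hχ, fun hne => ?_⟩
      rw [hht2 χ hχ hne] at h0
      exact one_ne_zero h0
  · intro χ hχ
    by_cases hne : L.ww C (LD.mu ((2 ^ r / 2 : ℕ) : ZMod (2 ^ r))) χ = 0
    · exact (hht2 χ hχ hne).le
    · rw [hht1 χ hχ hne]; exact Nat.zero_le _

end Cfsg.Agent.Lib.Tame
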