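import Cfsg.Agent.Lib.TameV

/-!
# Existence of the local data for quaternion and semidihedral defect groups
-/

set_option autoImplicit false
set_option linter.all false
set_option maxHeartbeats 400000

namespace Cfsg.Agent.Lib.Tame

open Cfsg Cfsg.Agent.Lib.BlockRing Cfsg.Agent.Lib.BlockGA Cfsg.Agent.Lib.BlockAlg
open Cfsg.Agent.Lib.BlkIdem Cfsg.Agent.Lib.PairAlg Cfsg.Agent.Lib.PairMax
open Cfsg.Agent.Lib.BlockIdem Cfsg.Agent.Lib.BlockSecond Cfsg.Agent.Lib.BrauerPairs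
open Cfsg.Agent.Lib.BlkFus Cfsg.Agent.Lib.InducedPair Cfsg.Agent.Lib.DefPairs
open Cfsg.Agent.Lib.BlkFusDef Cfsg.Agent.Lib.BlkTransport Cfsg.Agent.Lib.BlkNil
open Cfsg.Agent.Lib.H25BpLift Cfsg.Agent.Lib.H25BpTw Cfsg.Agent.Lib.H25BpF Cfsg.Agent.Lib.H25BpI
open Cfsg.Agent.Lib.H25BpE Cfsg.Agent.Lib.H25BpG Cfsg.Agent.Lib.H25BpW Cfsg.Agent.Lib.H25BpM
open Cfsg.Agent.Lib.H25BpS Cfsg.Agent.Lib.TameFour
open Cfsg.Agent.Lib.BlockCount (Bl D rsp rsp_orth sum_blockPart blockRank_eq)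
open Cfsg.Agent.Lib.Subsec (Cz mem_Cz al al_eq al_mem fs mem_fs zz D_reg D_not_reg kern kern_eq_zero
  al_conj al_idem al_trace al_loc al_not_idl al_idl pow_of_orderOf al_ne_zero')
open Cfsg.Agent.Lib.TameGrp
open MonoidAlgebra (single)
open scoped ComplexConjugate Classical Pointwise

universe u

section qs

variable {Q Q' : Type u} [Group Q] [Finite Q] [Group Q'] [Finite Q'] {m : ℕ} [NeZero m] {x : Q} {s : ZMod m} {r : ℕ}

omit [Finite Q] [Finite Q'] in
theorem xp_map (ψ : Q →* Q') (i : ZMod m) : ψ (xp x i) = xp (ψ x) i := by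
  unfold xp
  rw [map_pow]

omit [Finite Q'] in
theorem QS.map (S : QS m x s r) (ψ : Q ≃* Q') : QS m (ψ x) s r where
  hx := by rw [MulEquiv.orderOf_eq]; exact S.hx
  hs := S.hs
  hconj := by
    intro y hy
    have h1 : ψ.symm y ∉ Subgroup.zpowers x := by
      rintro ⟨k, hk⟩
      apply hy
      refine ⟨k, ?_⟩
      show (ψ x) ^ k = y
      have hk' : x ^ k = ψ.symm y := hk
      rw [← map_zpow, hk', MulEquiv.apply_symm_apply]
    have h2 := congrArg ψ (S.hconj _ h1)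
    rw [map_mul, map_mul, map_inv, MulEquiv.apply_symm_apply] at h2
    rw [h2]
    exact xp_map ψ.toMonoidHom s
  hcard := by rw [← S.hcard]; exact (Nat.card_congr ψ.toEquiv).symm
  hr := S.hr
  hm := S.hm
  hs' := S.hs'

theorem QS.half_iff (S : QS m x s r) {i : ZMod m} : (s * i = 0 ∨ s * i = ((m / 2 : ℕ) : ZMod m)) ↔
    (i = 0 ∨ i = ((m / 2 : ℕ) : ZMod m)) := by
  have h1 : ∀ i : ZMod m, (i = 0 ∨ i = ((m / 2 : ℕ) : ZMod m)) → (s * i = 0 ∨ s * i = ((m / 2 : ℕ) : ZMod m)) := by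
    rintro i (h | h)
    · left; rw [h, mul_zero]
    · right; rw [h, S.s_half]
  constructor
  · intro h
    have h2 := h1 _ h
    rw [← mul_assoc, S.hs, one_mul] at h2
    exact h2
  · exact h1 i

/-- elements of order at most four inside -/
theorem QS.four_in (S : QS m x s r) {i : ZMod m} (h : xp x i ^ 4 = 1) :
    xp x i ∈ Subgroup.zpowers (xp x ((m / 4 : ℕ) : ZMod m)) := by
  unfold xp at h
  rw [← pow_mul] at h
  have h1 := orderOf_dvd_of_pow_eq_one h
  rw [S.hx] at h1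
  have h4 := four_dvd_m S.hr S.hm
  obtain ⟨q, hq⟩ := h4
  have hq0 : m / 4 = q := by omega
  have h2 : q ∣ i.val := by
    have h3 : 4 * q ∣ 4 * i.val := by
      rw [← hq, mul_comm 4]; exact h1
    exact Nat.dvd_of_mul_dvd_mul_left (by norm_num) h3
  obtain ⟨j, hj⟩ := h2
  rw [xp_natCast S.hx, hq0]
  refine ⟨(j : ℤ), ?_⟩
  show (x ^ q) ^ (j : ℤ) = x ^ i.val
  rw [zpow_natCast, ← pow_mul, hj]

theorem QS.pow_out (S : QS m x s r) {y : Q} (hy : y ∉ Subgroup.zpowers x) : y ^ 4 = 1 := by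
  have h1 := S.sq_out hy
  have h2 : (y * y) * (y * y) = 1 := by
    rcases h1 with h | h
    · rw [h, one_mul]
    · rw [h, S.z_sq]
  calc y ^ 4 = (y * y) * (y * y) := by
        rw [show (4 : ℕ) = 2 + 2 from rfl, pow_add, pow_two]
    _ = 1 := h2

theorem QS.inv_mul_mem (S : QS m x s r) {y y' : Q} (hy : y ∉ Subgroup.zpowers x) (hy' : y' ∉ Subgroup.zpowers x) :
    y⁻¹ * y' ∈ Subgroup.zpowers x := by
  apply S.mul_mem _ hy'
  intro h
  apply hy
  have := (Subgroup.zpowers x).inv_mem h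
  rwa [inv_inv] at this

end qs

section main

variable {M : Ideal AlgInt} [hMm : M.IsMaximal] [hchar : CharP (Kf M) 2]
  {G : Type u} [Group G] [Finite G] {B : Set (IrrCharacter G)} {P : Subgroup G} {e : MonoidAlgebra (Kf M) G}
  {m : ℕ} [NeZero m] {s : ZMod m} {r : ℕ}

/-- the local data of a block with quaternion or semidihedral defect group -/
theorem exists_LD_qs (h : Ctx 2 B P e) {x0 : P} (S0 : QS m x0 s r) :
    ∃ (N : Subgroup G) (b : Set (IrrCharacter N)) (e' : MonoidAlgebra (Kf M) N) (v : G) (ξ : IrrCharacter N)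
      (x : P.subgroupOf N) (_ : LD 2 B P e N b e' v ξ) (_ : QS m x s r),
      xg x ((m / 4 : ℕ) : ZMod m) = v ∧ ∀ i : ZMod m, xg x i = ((xp x0 i : P) : G) := by
  set v : G := ((xp x0 ((m / 4 : ℕ) : ZMod m) : P) : G) with hvdef
  have hvP : v ∈ P := SetLike.coe_mem _
  have hv1 : v ≠ 1 := by
    intro h1
    have h2 : xp x0 ((m / 4 : ℕ) : ZMod m) = 1 := Subtype.ext h1
    rw [← xp_zero S0.hx] at h2
    exact (quarter_ne S0.hr S0.hm).1 (xp_injective S0.hx h2)
  set N : Subgroup G := Subgroup.normalizer ((Subgroup.zpowers v : Subgroup G) : Set G) with hN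
  have hPN : P ≤ N := by
    intro y hy
    apply mem_normalizer_of_cg
    rw [cg_zpowers]
    have h1 : v ∈ Subgroup.zpowers (y * v * y⁻¹) := by
      have h2 : ∃ i : ZMod m, (i ≠ 0 ∧ i ≠ ((m / 2 : ℕ) : ZMod m)) ∧
          (⟨y, hy⟩ : P) * xp x0 ((m / 4 : ℕ) : ZMod m) * (⟨y, hy⟩ : P)⁻¹ = xp x0 i := by
        have hq := quarter_ne S0.hr S0.hm
        rcases conj_xp' S0.hx S0.hs S0.hconj (y := (⟨y, hy⟩ : P)) ((m / 4 : ℕ) : ZMod m) with h3 | h3
        · exact ⟨_, hq, h3⟩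
        · refine ⟨_, ?_, h3⟩
          have h4 : ¬ (s * ((m / 4 : ℕ) : ZMod m) = 0 ∨ s * ((m / 4 : ℕ) : ZMod m) = ((m / 2 : ℕ) : ZMod m)) := by
            rw [S0.half_iff]
            rintro (h5 | h5)
            · exact hq.1 h5
            · exact hq.2 h5
          push Not at h4
          exact h4
      obtain ⟨i, ⟨hi, hi2⟩, hyi⟩ := h2
      obtain ⟨k, hk⟩ := S0.quarter_mem hi hi2
      refine ⟨k, ?_⟩
      have hk' : xp x0 i ^ k = xp x0 ((m / 4 : ℕ) : ZMod m) := hk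
      rw [← hyi] at hk'
      exact congrArg Subtype.val hk'
    symm
    apply PowerGraph.zpowers_eq_of_orderOf_eq h1 (Subgroup.mem_zpowers _)
    rw [H25BpF.orderOf_conj]
  have hC : Subgroup.centralizer (P : Set G) ≤ N := by
    intro y hy
    apply centralizer_le_normalizer
    rw [mem_cz]
    exact Subgroup.mem_centralizer_iff.1 hy v hvP
  obtain ⟨b, e', hb, he⟩ := exists_local h hPN hC
  obtain ⟨ξ, hξ, h0⟩ := BlockDeg.exists_height_zero (p := 2) (isPBlock_nonempty hb.blk)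
  let ψ : P ≃* P.subgroupOf N := (Subgroup.subgroupOfEquivOfLe hPN).symm
  have S : QS m (ψ x0) s r := S0.map ψ
  have hxg : ∀ i : ZMod m, xg (ψ x0) i = ((xp x0 i : P) : G) := by
    intro i
    unfold xg
    rw [show xp (ψ x0) i = ψ (xp x0 i) from (xp_map ψ.toMonoidHom i).symm]
    rfl
  refine ⟨N, b, e', v, ξ, ψ x0, ⟨h, hb, he, ?_, hPN, hvP, hv1, hN, hξ, h0⟩, S, hxg _, hxg⟩
  apply inn_of_odd hb
  intro R hR g hg hgo
  have hPp : IsPGroup 2 (P.subgroupOf N) := hb.pair.1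
  set xK : N := ((ψ x0 : P.subgroupOf N) : N) with hxK
  have hXmem : ∀ (q : N) (hq : q ∈ P.subgroupOf N), q ∈ Subgroup.zpowers xK ↔
      (⟨q, hq⟩ : P.subgroupOf N) ∈ Subgroup.zpowers (ψ x0) := by
    intro q hq
    constructor
    · rintro ⟨k, hk⟩
      exact ⟨k, Subtype.ext hk⟩
    · rintro ⟨k, hk⟩
      exact ⟨k, congrArg Subtype.val hk⟩
  have hRn := Subgroup.mem_normalizer_iff.1 hg
  apply odd_cent (X := Subgroup.zpowers xK) (Q := R) inferInstance
    (hPp.to_le (by rw [Subgroup.zpowers_le]; exact SetLike.coe_mem _)) (hPp.to_le hR)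
  · intro q hq q' hq' hqX hq'X
    have hqP := hR hq
    have hq'P := hR hq'
    rw [hXmem _ hqP] at hqX
    rw [hXmem _ hq'P] at hq'X
    rw [hXmem _ ((P.subgroupOf N).mul_mem ((P.subgroupOf N).inv_mem hqP) hq'P)]
    exact S.inv_mul_mem hqX hq'X
  · exact hgo
  · exact hg
  · intro q hq hqX
    have hqP := hR hq
    have hgqR : g * q * g⁻¹ ∈ R := (hRn q).1 hq
    have hgqP := hR hgqR
    rw [hXmem _ hqP] at hqX
    rw [hXmem _ hgqP]
    by_cases hq4 : q ^ 4 = 1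
    · obtain ⟨i, hi⟩ := (mem_zpowers_iff S.hx).1 hqX
      have h1 : xp (ψ x0) i ^ 4 = 1 := by rw [hi]; exact Subtype.ext hq4
      have h2 := S.four_in h1
      rw [hi] at h2
      have h3 : (q : G) ∈ Subgroup.zpowers v := by
        obtain ⟨k, hk⟩ := h2
        refine ⟨k, ?_⟩
        have hk' : xp (ψ x0) ((m / 4 : ℕ) : ZMod m) ^ k = (⟨q, hqP⟩ : P.subgroupOf N) := hk
        have h4 := congrArg (fun w : P.subgroupOf N => ((w : N) : G)) hk'
        have h5 : xg (ψ x0) ((m / 4 : ℕ) : ZMod m) ^ k = (q : G) := h4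
        rw [hxg] at h5
        exact h5
      have h4 : ((g * q * g⁻¹ : N) : G) ∈ Subgroup.zpowers v := (Subgroup.mem_normalizer_iff.1 g.2 (q : G)).1 h3
      obtain ⟨k, hk⟩ := h4
      have hk' : v ^ k = ((g * q * g⁻¹ : N) : G) := hk
      have h5 : (⟨g * q * g⁻¹, hgqP⟩ : P.subgroupOf N) = xp (ψ x0) ((m / 4 : ℕ) : ZMod m) ^ k := by
        apply Subtype.ext; apply Subtype.ext
        have h6 : xg (ψ x0) ((m / 4 : ℕ) : ZMod m) ^ k = ((g * q * g⁻¹ : N) : G) := by rw [hxg]; exact hk'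
        exact h6.symm
      rw [h5]
      exact Subgroup.zpow_mem _ ((mem_zpowers_iff S.hx).2 ⟨_, rfl⟩) k
    · by_contra hcon
      apply hq4
      have h1 := S.pow_out hcon
      have h2 : (g * q * g⁻¹) ^ 4 = 1 := congrArg Subtype.val h1
      rw [conj_pow] at h2
      exact conj_eq_one_iff.1 h2

end main

end Cfsg.Agent.Lib.Tame
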