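import Cfsg.Agent.Lib.TameComb

/-!
# The cubic sum in the exotic case
-/

set_option autoImplicit false
set_option linter.all false
set_option maxHeartbeats 400000

namespace Cfsg.Agent.Lib.TameComb

open scoped Classical

variable {ι : Type*} {κ : Type*}

namespace Dat

variable {s : Finset ι} {σ : ι → ℤ} {A : Finset κ} {w : κ → ι → ℤ}

/-- the four characters of the exotic case -/
theorem exotic_four (D : Dat s σ A w) {a c : κ} (ha : a ∈ A) (hc : c ∈ A)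
    (h1 : ∑ χ ∈ s.filter (fun χ => σ χ ≠ 0), w a χ * w c χ = 1) :
    ∃ x y z t : ι, x ∈ s ∧ y ∈ s ∧ z ∈ s ∧ t ∈ s ∧ σ x ≠ 0 ∧ σ y ≠ 0 ∧ σ z ≠ 0 ∧ σ t ≠ 0 ∧
      (w a x = σ x ∧ w c x = σ x) ∧ (w a y = σ y ∧ w c y = 0) ∧ (w a z = 0 ∧ w c z = σ z) ∧
      (w a t = 0 ∧ w c t = 0) ∧
      ∀ {R : Type} [AddCommMonoid R] (F : ι → R), ∑ χ ∈ s.filter (fun χ => σ χ ≠ 0), F χ = (F x + F y) + (F z + F t) := by
  obtain ⟨a1, a2, a3, a4⟩ := w_sigma D.small (D.three a ha) (D.two a ha)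
  obtain ⟨c1, c2, c3, c4⟩ := w_sigma D.small (D.three c hc) (D.two c hc)
  set T := s.filter (fun χ => σ χ ≠ 0) with hTdef
  have hT : T.card = 4 := by
    have h1 := card_supp D.small
    rw [D.four] at h1
    exact_mod_cast h1
  have hTm : ∀ χ ∈ T, χ ∈ s ∧ σ χ ≠ 0 := fun χ hχ => Finset.mem_filter.1 hχ
  have hsq : ∀ χ ∈ T, σ χ * σ χ = 1 := by
    intro χ hχ
    rcases D.small χ (hTm χ hχ).1 with h | h | h
    · exact absurd h (hTm χ hχ).2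
    · rw [h]; norm_num
    · rw [h]; norm_num
  have hcardA : ((T.filter (fun χ => w a χ ≠ 0)).card : ℤ) = 2 := by
    rw [← a3, Finset.card_eq_sum_ones, Nat.cast_sum, Finset.sum_filter]
    refine Finset.sum_congr rfl fun χ hχ => ?_
    rcases a1 χ (hTm χ hχ).1 (hTm χ hχ).2 with h | h
    · rw [h]; simp
    · rw [h, if_pos (hTm χ hχ).2, pow_two, hsq χ hχ]; simp
  have hcardC : ((T.filter (fun χ => w c χ ≠ 0)).card : ℤ) = 2 := by
    rw [← c3, Finset.card_eq_sum_ones, Nat.cast_sum, Finset.sum_filter]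
    refine Finset.sum_congr rfl fun χ hχ => ?_
    rcases c1 χ (hTm χ hχ).1 (hTm χ hχ).2 with h | h
    · rw [h]; simp
    · rw [h, if_pos (hTm χ hχ).2, pow_two, hsq χ hχ]; simp
  have hcardAC : (((T.filter (fun χ => w a χ ≠ 0)).filter (fun χ => w c χ ≠ 0)).card : ℤ) = 1 := by
    rw [← h1, Finset.card_eq_sum_ones, Nat.cast_sum, Finset.sum_filter, Finset.sum_filter]
    refine Finset.sum_congr rfl fun χ hχ => ?_
    have hne := (hTm χ hχ).2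
    rcases a1 χ (hTm χ hχ).1 hne with h | h
    · rw [h]; simp
    · rcases c1 χ (hTm χ hχ).1 hne with h' | h'
      · rw [h, h']; simp
      · rw [h, h', if_pos hne, if_pos hne, hsq χ hχ]; simp
  have hs1 : ((T.filter (fun χ => w a χ ≠ 0)).filter (fun χ => w c χ ≠ 0)).card +
      ((T.filter (fun χ => w a χ ≠ 0)).filter (fun χ => ¬ w c χ ≠ 0)).card = (T.filter (fun χ => w a χ ≠ 0)).card :=
    Finset.card_filter_add_card_filter_not _
  have hs2 : ((T.filter (fun χ => ¬ w a χ ≠ 0)).filter (fun χ => w c χ ≠ 0)).card +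
      ((T.filter (fun χ => ¬ w a χ ≠ 0)).filter (fun χ => ¬ w c χ ≠ 0)).card = (T.filter (fun χ => ¬ w a χ ≠ 0)).card :=
    Finset.card_filter_add_card_filter_not _
  have hs3 : (T.filter (fun χ => w a χ ≠ 0)).card + (T.filter (fun χ => ¬ w a χ ≠ 0)).card = T.card :=
    Finset.card_filter_add_card_filter_not _
  have hs4 : ((T.filter (fun χ => w a χ ≠ 0)).filter (fun χ => w c χ ≠ 0)).card +
      ((T.filter (fun χ => ¬ w a χ ≠ 0)).filter (fun χ => w c χ ≠ 0)).card = (T.filter (fun χ => w c χ ≠ 0)).card := by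
    rw [Finset.filter_comm (fun χ => w a χ ≠ 0), Finset.filter_comm (fun χ => ¬ w a χ ≠ 0)]
    exact Finset.card_filter_add_card_filter_not _
  obtain ⟨x, hx⟩ := Finset.card_eq_one.1 (show ((T.filter (fun χ => w a χ ≠ 0)).filter (fun χ => w c χ ≠ 0)).card = 1 by omega)
  obtain ⟨y, hy⟩ := Finset.card_eq_one.1 (show ((T.filter (fun χ => w a χ ≠ 0)).filter (fun χ => ¬ w c χ ≠ 0)).card = 1 by omega)
  obtain ⟨z, hz⟩ := Finset.card_eq_one.1 (show ((T.filter (fun χ => ¬ w a χ ≠ 0)).filter (fun χ => w c χ ≠ 0)).card = 1 by omega)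
  obtain ⟨t, ht⟩ := Finset.card_eq_one.1 (show ((T.filter (fun χ => ¬ w a χ ≠ 0)).filter (fun χ => ¬ w c χ ≠ 0)).card = 1 by omega)
  have mx := Finset.mem_singleton_self x
  have my := Finset.mem_singleton_self y
  have mz := Finset.mem_singleton_self z
  have mt := Finset.mem_singleton_self t
  rw [← hx, Finset.mem_filter, Finset.mem_filter] at mx
  rw [← hy, Finset.mem_filter, Finset.mem_filter] at my
  rw [← hz, Finset.mem_filter, Finset.mem_filter] at mz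
  rw [← ht, Finset.mem_filter, Finset.mem_filter] at mt
  have val : ∀ χ ∈ T, (w a χ ≠ 0 → w a χ = σ χ) ∧ (w c χ ≠ 0 → w c χ = σ χ) := by
    intro χ hχ
    refine ⟨fun h => ?_, fun h => ?_⟩
    · exact (a1 χ (hTm χ hχ).1 (hTm χ hχ).2).resolve_left h
    · exact (c1 χ (hTm χ hχ).1 (hTm χ hχ).2).resolve_left h
  refine ⟨x, y, z, t, (hTm x mx.1.1).1, (hTm y my.1.1).1, (hTm z mz.1.1).1, (hTm t mt.1.1).1,
    (hTm x mx.1.1).2, (hTm y my.1.1).2, (hTm z mz.1.1).2, (hTm t mt.1.1).2,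
    ⟨(val x mx.1.1).1 mx.1.2, (val x mx.1.1).2 mx.2⟩, ⟨(val y my.1.1).1 my.1.2, not_not.1 my.2⟩,
    ⟨not_not.1 mz.1.2, (val z mz.1.1).2 mz.2⟩, ⟨not_not.1 mt.1.2, not_not.1 mt.2⟩, ?_⟩
  intro R _ F
  rw [← Finset.sum_filter_add_sum_filter_not T (fun χ => w a χ ≠ 0) F,
    ← Finset.sum_filter_add_sum_filter_not (T.filter (fun χ => w a χ ≠ 0)) (fun χ => w c χ ≠ 0) F,
    ← Finset.sum_filter_add_sum_filter_not (T.filter (fun χ => ¬ w a χ ≠ 0)) (fun χ => w c χ ≠ 0) F,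
    hx, hy, hz, ht, Finset.sum_singleton, Finset.sum_singleton, Finset.sum_singleton, Finset.sum_singleton]

/-- the cubic sum in the exotic case -/
theorem exotic_sum (D : Dat s σ A w) {a b c : κ} (ha : a ∈ A) (hb : b ∈ A) (hc : c ∈ A) (hab : a ≠ b)
    (hac : a ≠ c) (hbc : b ≠ c)
    (hg : ∀ a ∈ A, ∀ b ∈ A, a ≠ b → (∀ χ ∈ s, σ χ = 0 → w a χ = w b χ) ∧
      ∑ χ ∈ s.filter (fun χ => σ χ ≠ 0), w a χ * w b χ = 1)
    {f : ι → ℂ} (hf : ∀ χ ∈ s, f χ ≠ 0) (e0 : ∑ χ ∈ s, (σ χ : ℂ) * f χ = 0)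
    (e1 : ∀ a ∈ A, ∑ χ ∈ s, (w a χ : ℂ) * f χ = 0) {r : ℂ} (hr : r ^ 2 = 2) :
    ∃ χ₁ ∈ s, σ χ₁ ≠ 0 ∧ ∑ χ ∈ s, ((σ χ : ℂ) - r * ((w a χ : ℂ) - w c χ)) ^ 3 / f χ =
      (44 / 3) * ((σ χ₁ : ℂ) / f χ₁) := by
  obtain ⟨x, y, z, t, xs, ys, zs, ts, hx, hy, hz, ht, ⟨ax, cx⟩, ⟨ay, cy⟩, ⟨az, cz⟩, ⟨at', ct⟩, hsum⟩ :=
    D.exotic_four ha hc (hg a ha c hc hac).2
  obtain ⟨b1, b2, b3, b4⟩ := w_sigma D.small (D.three b hb) (D.two b hb)
  have hsplit : ∀ F : ι → ℂ, ∑ χ ∈ s, F χ = ∑ χ ∈ s.filter (fun χ => σ χ ≠ 0), F χ +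
      ∑ χ ∈ s.filter (fun χ => ¬ σ χ ≠ 0), F χ := fun F => (Finset.sum_filter_add_sum_filter_not s _ _).symm
  set L : ℂ := ∑ χ ∈ s.filter (fun χ => ¬ σ χ ≠ 0), (w a χ : ℂ) * f χ with hL
  have hLc : ∑ χ ∈ s.filter (fun χ => ¬ σ χ ≠ 0), (w c χ : ℂ) * f χ = L := by
    refine Finset.sum_congr rfl fun χ hχ => ?_
    rw [Finset.mem_filter, not_not] at hχ
    rw [(hg a ha c hc hac).1 χ hχ.1 hχ.2]
  have hLb : ∑ χ ∈ s.filter (fun χ => ¬ σ χ ≠ 0), (w b χ : ℂ) * f χ = L := by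
    refine Finset.sum_congr rfl fun χ hχ => ?_
    rw [Finset.mem_filter, not_not] at hχ
    rw [(hg a ha b hb hab).1 χ hχ.1 hχ.2]
  have hL0 : ∑ χ ∈ s.filter (fun χ => ¬ σ χ ≠ 0), (σ χ : ℂ) * f χ = 0 := by
    apply Finset.sum_eq_zero
    intro χ hχ
    rw [Finset.mem_filter, not_not] at hχ
    rw [hχ.2, Int.cast_zero, zero_mul]
  -- the relations
  have q0 := e0
  rw [hsplit, hL0, add_zero, hsum] at q0
  have qa := e1 a ha
  rw [hsplit, ← hL, hsum, ax, ay, az, at'] at qa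
  have qc := e1 c hc
  rw [hsplit, hLc, hsum, cx, cy, cz, ct] at qc
  have qb := e1 b hb
  rw [hsplit, hLb, hsum] at qb
  -- the pattern of `w b`
  have sq : ∀ χ ∈ s, σ χ ≠ 0 → σ χ * σ χ = 1 := by
    intro χ hχ hne
    rcases D.small χ hχ with h | h | h
    · exact absurd h hne
    · rw [h]; norm_num
    · rw [h]; norm_num
  have pab := (hg a ha b hb hab).2
  rw [hsum, ax, ay, az, at'] at pab
  have pcb := (hg c hc b hb (Ne.symm hbc)).2
  rw [hsum, cx, cy, cz, ct] at pcb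
  have pbb := b2
  rw [hsum] at pbb
  have sx := sq x xs hx
  have sy := sq y ys hy
  have sz := sq z zs hz
  have st := sq t ts ht
  have hpat : (w b x = σ x ∧ w b y = 0 ∧ w b z = 0 ∧ w b t = σ t) ∨
      (w b x = 0 ∧ w b y = σ y ∧ w b z = σ z ∧ w b t = 0) := by
    rcases b1 x xs hx with kx | kx <;> rcases b1 y ys hy with ky | ky <;> rcases b1 z zs hz with kz | kz <;>
      rcases b1 t ts ht with kt | kt <;> rw [kx, ky, kz, kt] at pbb <;> rw [kx, ky] at pab <;>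
      rw [kx, kz] at pcb <;> simp only [mul_zero, zero_mul, add_zero, zero_add, sx, sy, sz, st] at pbb pab pcb <;>
      first
        | (exfalso; omega)
        | exact Or.inl ⟨kx, ky, kz, kt⟩
        | exact Or.inr ⟨kx, ky, kz, kt⟩
  have cast : ∀ χ ∈ s, σ χ ≠ 0 → (σ χ : ℂ) * σ χ = 1 := by
    intro χ hχ hne
    exact_mod_cast sq χ hχ hne
  have scx := cast x xs hx
  have scy := cast y ys hy
  have scz := cast z zs hz
  have sct := cast t ts ht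
  have fx := hf x xs
  have fy := hf y ys
  have fz := hf z zs
  have ft := hf t ts
  have hS : ∑ χ ∈ s, ((σ χ : ℂ) - r * ((w a χ : ℂ) - w c χ)) ^ 3 / f χ =
      ((σ x : ℂ) / f x + (σ y : ℂ) * (1 - r) ^ 3 / f y) + ((σ z : ℂ) * (1 + r) ^ 3 / f z + (σ t : ℂ) / f t) := by
    rw [hsplit, hsum]
    have h0 : ∑ χ ∈ s.filter (fun χ => ¬ σ χ ≠ 0), ((σ χ : ℂ) - r * ((w a χ : ℂ) - w c χ)) ^ 3 / f χ = 0 := by
      apply Finset.sum_eq_zero
      intro χ hχ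
      rw [Finset.mem_filter, not_not] at hχ
      rw [hχ.2, (hg a ha c hc hac).1 χ hχ.1 hχ.2]
      simp
    rw [h0, add_zero, ax, cx, ay, cy, az, cz, at', ct]
    have k : ∀ q : ℂ, q * q = 1 → q ^ 3 = q := by
      intro q hq
      calc q ^ 3 = q * (q * q) := by ring
        _ = q := by rw [hq, mul_one]
    have kx := k _ scx
    have ky := k _ scy
    have kz := k _ scz
    have kt := k _ sct
    have e1 : ((σ x : ℂ) - r * ((σ x : ℂ) - σ x)) ^ 3 = σ x := by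
      rw [sub_self, mul_zero, sub_zero, kx]
    have e2 : ((σ y : ℂ) - r * ((σ y : ℂ) - ((0 : ℤ) : ℂ))) ^ 3 = σ y * (1 - r) ^ 3 := by
      calc ((σ y : ℂ) - r * ((σ y : ℂ) - ((0 : ℤ) : ℂ))) ^ 3 = (σ y : ℂ) ^ 3 * (1 - r) ^ 3 := by push_cast; ring
        _ = _ := by rw [ky]
    have e3 : ((σ z : ℂ) - r * (((0 : ℤ) : ℂ) - (σ z : ℂ))) ^ 3 = σ z * (1 + r) ^ 3 := by
      calc ((σ z : ℂ) - r * (((0 : ℤ) : ℂ) - (σ z : ℂ))) ^ 3 = (σ z : ℂ) ^ 3 * (1 + r) ^ 3 := by push_cast; ring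
        _ = _ := by rw [kz]
    have e4 : ((σ t : ℂ) - r * (((0 : ℤ) : ℂ) - ((0 : ℤ) : ℂ))) ^ 3 = σ t := by
      rw [sub_self, mul_zero, sub_zero, kt]
    rw [e1, e2, e3, e4]
  -- signed degrees
  obtain ⟨X, hX⟩ : ∃ X, X = (σ x : ℂ) * f x := ⟨_, rfl⟩
  obtain ⟨Y, hY⟩ : ∃ Y, Y = (σ y : ℂ) * f y := ⟨_, rfl⟩
  obtain ⟨Z, hZ⟩ : ∃ Z, Z = (σ z : ℂ) * f z := ⟨_, rfl⟩
  obtain ⟨U, hU⟩ : ∃ U, U = (σ t : ℂ) * f t := ⟨_, rfl⟩
  have inv : ∀ q g : ℂ, q * q = 1 → g ≠ 0 → q / g = 1 / (q * g) ∧ q * g ≠ 0 := by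
    intro q g hq hg
    have hq0 : q ≠ 0 := by rintro rfl; simp at hq
    refine ⟨?_, mul_ne_zero hq0 hg⟩
    field_simp
    rw [pow_two, hq]
  obtain ⟨ix, nx⟩ := inv _ _ scx fx
  obtain ⟨iy, ny⟩ := inv _ _ scy fy
  obtain ⟨iz, nz⟩ := inv _ _ scz fz
  obtain ⟨it, nt⟩ := inv _ _ sct ft
  rw [← hX] at ix nx
  rw [← hY] at iy ny
  rw [← hZ] at iz nz
  rw [← hU] at it nt
  rw [← hX, ← hY, ← hZ, ← hU] at q0
  simp only [Int.cast_zero, zero_mul, add_zero, zero_add] at qa qc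
  rw [← hX, ← hY] at qa
  rw [← hX, ← hZ] at qc
  have hYZ : Z = Y := by linear_combination qc - qa
  refine ⟨y, ys, hy, ?_⟩
  rw [hS]
  have g2 : (σ y : ℂ) * (1 - r) ^ 3 / f y = (1 - r) ^ 3 * (1 / Y) := by rw [← iy]; ring
  have g3 : (σ z : ℂ) * (1 + r) ^ 3 / f z = (1 + r) ^ 3 * (1 / Y) := by rw [← hYZ, ← iz]; ring
  rw [ix, it, g2, g3, iy]
  have h14 : (1 - r) ^ 3 + (1 + r) ^ 3 = 14 := by linear_combination 6 * hr
  rcases hpat with ⟨px, py, pz, pt⟩ | ⟨px, py, pz, pt⟩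
  · rw [px, py, pz, pt, ← hX, ← hU] at qb
    simp only [Int.cast_zero, zero_mul, add_zero, zero_add] at qb
    have hUY : U = Y := by linear_combination qb - qa
    have hXY : X = -3 * Y := by linear_combination q0 - hYZ - hUY
    rw [hUY, hXY]
    field_simp
    linear_combination 3 * h14
  · rw [px, py, pz, pt, ← hY, ← hZ] at qb
    simp only [Int.cast_zero, zero_mul, add_zero, zero_add] at qb
    have hXY : X = Y := by linear_combination hYZ + qa - qb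
    have hUY : U = -3 * Y := by linear_combination q0 - hYZ - hXY
    rw [hUY, hXY]
    field_simp
    linear_combination 3 * h14

end Dat

end Cfsg.Agent.Lib.TameComb
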