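import Cfsg.Agent.Lib.TameE

/-!
# Comparison of fusion in a group and in the centralizer of the central involution
-/

set_option autoImplicit false
set_option linter.all false
set_option maxHeartbeats 400000

namespace Cfsg.Agent.Lib.Tame

open Cfsg Cfsg.Agent.Lib.BlockRing Cfsg.Agent.Lib.BlockGA Cfsg.Agent.Lib.BlockAlg
open Cfsg.Agent.Lib.BlkIdem Cfsg.Agent.Lib.PairAlg Cfsg.Agent.Lib.PairMax
open Cfsg.Agent.Lib.BlockIdem Cfsg.Agent.Lib.BlockSecond Cfsg.Agent.Lib.BrauerPairs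
open Cfsg.Agent.Lib.BlkFus Cfsg.Agent.Lib.InducedPair Cfsg.Agent.Lib.DefPairs
open Cfsg.Agent.Lib.BlkFusDef Cfsg.Agent.Lib.BlkTransport Cfsg.Agent.Lib.BlkNil
open Cfsg.Agent.Lib.H25BpLift Cfsg.Agent.Lib.H25BpTw Cfsg.Agent.Lib.H25BpF Cfsg.Agent.Lib.H25BpI
open Cfsg.Agent.Lib.H25BpE Cfsg.Agent.Lib.H25BpG Cfsg.Agent.Lib.H25BpW Cfsg.Agent.Lib.H25BpM
open Cfsg.Agent.Lib.H25BpS Cfsg.Agent.Lib.TameFour
open Cfsg.Agent.Lib.BlockCount (Bl D rsp rsp_orth sum_blockPart blockRank_eq)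
open Cfsg.Agent.Lib.Subsec (Cz mem_Cz al al_eq al_mem fs mem_fs zz D_reg D_not_reg kern kern_eq_zero
  al_conj al_idem al_trace al_loc al_not_idl al_idl pow_of_orderOf al_ne_zero')
open Cfsg.Agent.Lib.TameGrp
open MonoidAlgebra (single)
open scoped ComplexConjugate Classical Pointwise

universe u

variable {M : Ideal AlgInt} [hMm : M.IsMaximal] [hchar : CharP (Kf M) 2]
  {G : Type u} [Group G] [Finite G] {B : Set (IrrCharacter G)} {P : Subgroup G} {e : MonoidAlgebra (Kf M) G}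
  {m : ℕ} [NeZero m] {s : ZMod m} {r : ℕ}

/-- weights of elements outside -/
noncomputable def wX (P : Subgroup G) (e : MonoidAlgebra (Kf M) G) (x0 : P) (y : G) : ℚ :=
  if ∃ k ∈ Subgroup.zpowers x0, Fs 2 P e y (k : G) then 0 else ((nF 2 P e y : ℚ))⁻¹

noncomputable def cX (P : Subgroup G) (e : MonoidAlgebra (Kf M) G) (x0 : P) : ℚ :=
  letI := Fintype.ofFinite P
  ∑ y : P, if y ∈ Subgroup.zpowers x0 then 0 else wX P e x0 y

noncomputable def c4 (P : Subgroup G) (e : MonoidAlgebra (Kf M) G) (x0 : P) : ℚ :=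
  letI := Fintype.ofFinite P
  ∑ y : P, if y ∈ Subgroup.zpowers x0 ∨ y * y = 1 then 0 else wX P e x0 y

noncomputable def c2 (P : Subgroup G) (e : MonoidAlgebra (Kf M) G) (x0 : P) : ℚ :=
  letI := Fintype.ofFinite P
  ∑ y : P, if y ∈ Subgroup.zpowers x0 ∨ y * y ≠ 1 then 0 else wX P e x0 y

theorem cX_eq (x0 : P) : cX P e x0 = c4 P e x0 + c2 P e x0 := by
  unfold cX c4 c2
  rw [← Finset.sum_add_distrib]
  refine Finset.sum_congr rfl fun y _ => ?_
  by_cases h1 : y ∈ Subgroup.zpowers x0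
  · rw [if_pos h1, if_pos (Or.inl h1), if_pos (Or.inl h1), add_zero]
  · by_cases h2 : y * y = 1
    · rw [if_neg h1, if_pos (Or.inr h2), if_neg (by rintro (h | h); exact h1 h; exact h h2), zero_add]
    · rw [if_neg h1, if_neg (by rintro (h | h); exact h1 h; exact h2 h), if_pos (Or.inr h2), add_zero]

theorem cB_eq {N : Subgroup G} {x : P.subgroupOf N} {x0 : P} (S0 : QS m x0 s r)
    (hx : ∀ i : ZMod m, xg x i = ((xp x0 i : P) : G)) : cB P e m x = cX P e x0 := by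
  unfold cB cX wX
  refine Finset.sum_congr rfl fun y _ => ?_
  have h1 : (∃ i : ZMod m, xg x i = y) ↔ y ∈ Subgroup.zpowers x0 := by
    rw [mem_zpowers_iff S0.hx]
    constructor
    · rintro ⟨i, hi⟩
      exact ⟨i, Subtype.ext ((hx i).symm.trans hi)⟩
    · rintro ⟨i, hi⟩
      exact ⟨i, by rw [hx, hi]⟩
  have h2 : (∃ i : ZMod m, Fs 2 P e y (xg x i)) ↔ ∃ k ∈ Subgroup.zpowers x0, Fs 2 P e y (k : G) := by
    constructor
    · rintro ⟨i, hi⟩
      refine ⟨xp x0 i, (mem_zpowers_iff S0.hx).2 ⟨i, rfl⟩, ?_⟩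
      rw [← hx]; exact hi
    · rintro ⟨k, hk, hf⟩
      obtain ⟨i, rfl⟩ := (mem_zpowers_iff S0.hx).1 hk
      exact ⟨i, by rw [hx]; exact hf⟩
  by_cases h3 : y ∈ Subgroup.zpowers x0
  · rw [if_pos (h1.2 h3), if_pos h3]
  · rw [if_neg (fun h => h3 (h1.1 h)), if_neg h3]
    by_cases h4 : ∃ k ∈ Subgroup.zpowers x0, Fs 2 P e y (k : G)
    · rw [if_pos (h2.2 h4), if_pos h4]
    · rw [if_neg (fun h => h4 (h2.1 h)), if_neg h4]

/-- squares of elements of order four -/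
theorem QS.sq_eq {Q : Type u} [Group Q] [Finite Q] {x : Q} (S : QS m x s r) {t : Q} (h4 : t ^ 4 = 1) (h2 : t * t ≠ 1) :
    t * t = xp x ((m / 2 : ℕ) : ZMod m) := by
  by_cases ht : t ∈ Subgroup.zpowers x
  · obtain ⟨i, rfl⟩ := (mem_zpowers_iff S.hx).1 ht
    rw [← xp_add S.hx] at h2 ⊢
    have h3 : xp x (i + i + (i + i)) = 1 := by
      rw [xp_add S.hx, xp_add S.hx, ← h4, show (4 : ℕ) = 2 + 2 from rfl, pow_add, pow_two]
    rw [← xp_zero S.hx] at h3 h2
    have h5 := xp_injective S.hx h3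
    rw [← two_mul] at h5
    rcases two_mul_eq_zero (two_dvd_m S.hr S.hm) h5 with h | h
    · exact absurd (by rw [h]) h2
    · rw [h]
  · rcases S.sq_out ht with h | h
    · exact absurd h h2
    · exact h

section loc

variable {H : Subgroup G} {bH : Set (IrrCharacter H)} {eH : MonoidAlgebra (Kf M) H} {z : G}
  (h : Ctx 2 B P e) (hPH : P ≤ H) (hl : Ctx 2 bH (P.subgroupOf H) eH) (he : inc H eH = e) (hH : H = Cz z)

include h hl he hH in
theorem fs_iff {y y' : G} (hy : y ∈ P) (hy' : y' ∈ P) (hyz : y * y = z) (hy'z : y' * y' = z) :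
    Fs 2 P e y y' ↔ Fs 2 (P.subgroupOf H) eH (⟨y, hPH hy⟩ : H) ⟨y', hPH hy'⟩ := by
  have hQ : Subgroup.zpowers y ≤ P := by rw [Subgroup.zpowers_le]; exact hy
  have hC : Subgroup.centralizer ((Subgroup.zpowers y : Subgroup G) : Set G) ≤ H := by
    intro k hk
    rw [mem_cz] at hk
    rw [hH, mem_Cz, ← hyz]
    exact hk.mul_left hk
  have hzp : (Subgroup.zpowers y).subgroupOf H = Subgroup.zpowers (⟨y, hPH hy⟩ : H) :=
    zpowers_subgroupOf (u := (⟨y, hPH hy⟩ : H))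
  constructor
  · rintro ⟨g, hg, hgy⟩
    have hgH : g ∈ H := by
      rw [hH, mem_Cz]
      have h1 : g * z * g⁻¹ = z := by
        rw [← hyz]
        calc g * (y * y) * g⁻¹ = (g * y * g⁻¹) * (g * y * g⁻¹) := by group
          _ = y * y := by rw [hgy, hyz, hy'z]
      exact (mul_inv_eq_iff_eq_mul.1 h1).symm
    have h1 := (bhom_inc h hPH hl he hQ hC ⟨g, hgH⟩).1 hg
    rw [hzp] at h1
    exact ⟨⟨g, hgH⟩, h1, Subtype.ext hgy⟩
  · rintro ⟨g, hg, hgy⟩
    rw [← hzp] at hg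
    exact ⟨(g : G), (bhom_inc h hPH hl he hQ hC g).2 hg, congrArg Subtype.val hgy⟩

variable (hP4 : ∀ t ∈ P, t ^ 4 = 1 → t * t ≠ 1 → t * t = z) (hz2 : z * z = 1) (hz1 : z ≠ 1)

include h hPH hP4 hz2 hz1 in
theorem fs_sq {y y' : G} (hyz : y * y = z) (hf : Fs 2 P e y y') : y' * y' = z := by
  obtain ⟨g, hg, hgy⟩ := id hf
  have h1 : y' * y' = g * z * g⁻¹ := by
    rw [← hgy, ← hyz]; group
  apply hP4 y' hf.right
  · calc y' ^ 4 = (y' * y') * (y' * y') := by
          rw [show (4 : ℕ) = 2 + 2 from rfl, pow_add, pow_two]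
      _ = g * (z * z) * g⁻¹ := by rw [h1]; group
      _ = 1 := by rw [hz2]; group
  · rw [h1]
    intro h2
    exact hz1 (conj_eq_one_iff.1 h2)

include hH in
theorem fs_sq' {y y' : H} (hyz : (y : G) * y = z) (hf : Fs 2 (P.subgroupOf H) eH y y') :
    (y' : G) * y' = z := by
  obtain ⟨g, hg, hgy⟩ := hf
  have h1 : ((y' : H) : G) * y' = (g : G) * z * (g : G)⁻¹ := by
    rw [← hgy, ← hyz]; push_cast; group
  rw [h1]
  have h2 : Commute z (g : G) := by
    have h3 : (g : G) ∈ Cz z := by rw [← hH]; exact g.2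
    exact mem_Cz.1 h3
  rw [← h2.eq, mul_inv_cancel_right]

include h hl he hH hP4 hz2 hz1 in
theorem nF_iff {y : G} (hy : y ∈ P) (hyz : y * y = z) :
    nF 2 P e y = nF 2 (P.subgroupOf H) eH (⟨y, hPH hy⟩ : H) := by
  unfold nF
  apply Nat.card_congr
  exact {
    toFun := fun y' => ⟨⟨y'.1, hPH y'.2.right⟩, (fs_iff h hPH hl he hH hy y'.2.right hyz
      (fs_sq h hPH hP4 hz2 hz1 hyz y'.2)).1 y'.2⟩
    invFun := fun t => ⟨(t.1 : G), (fs_iff h hPH hl he hH hy t.2.right hyz (fs_sq' hH hyz t.2)).2 t.2⟩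
    left_inv := fun y' => rfl
    right_inv := fun t => rfl }

include h hl he hH hP4 hz2 hz1 in
theorem wX_iff (x0 : P) {y : G} (hy : y ∈ P) (hyz : y * y = z) :
    wX P e x0 y = wX (P.subgroupOf H) eH ((Subgroup.subgroupOfEquivOfLe hPH).symm x0) (⟨y, hPH hy⟩ : H) := by
  have h1 : (∃ k ∈ Subgroup.zpowers x0, Fs 2 P e y (k : G)) ↔
      ∃ k ∈ Subgroup.zpowers ((Subgroup.subgroupOfEquivOfLe hPH).symm x0),
        Fs 2 (P.subgroupOf H) eH (⟨y, hPH hy⟩ : H) (k : H) := by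
    constructor
    · rintro ⟨k, ⟨j, hj⟩, hf⟩
      refine ⟨(Subgroup.subgroupOfEquivOfLe hPH).symm k, ⟨j, ?_⟩, ?_⟩
      · have hj' : x0 ^ j = k := hj
        show ((Subgroup.subgroupOfEquivOfLe hPH).symm x0) ^ j = _
        rw [← map_zpow, hj']
      · exact (fs_iff h hPH hl he hH hy k.2 hyz (fs_sq h hPH hP4 hz2 hz1 hyz hf)).1 hf
    · rintro ⟨k, ⟨j, hj⟩, hf⟩
      refine ⟨(Subgroup.subgroupOfEquivOfLe hPH) k, ⟨j, ?_⟩, ?_⟩
      · have hj' : ((Subgroup.subgroupOfEquivOfLe hPH).symm x0) ^ j = k := hj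
        show x0 ^ j = _
        rw [← hj', map_zpow, MulEquiv.apply_symm_apply]
      · exact (fs_iff h hPH hl he hH hy k.2 hyz (fs_sq' hH hyz hf)).2 hf
  unfold wX
  rw [nF_iff h hPH hl he hH hP4 hz2 hz1 hy hyz]
  by_cases h2 : ∃ k ∈ Subgroup.zpowers x0, Fs 2 P e y (k : G)
  · rw [if_pos h2, if_pos (h1.1 h2)]
  · rw [if_neg h2, if_neg (fun h => h2 (h1.2 h))]

include h hl he hH hP4 hz2 hz1 in
theorem c4_iff (x0 : P) (h4 : ∀ y : P, y ∉ Subgroup.zpowers x0 → y * y ≠ 1 → (y : G) * y = z) :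
    c4 P e x0 = c4 (P.subgroupOf H) eH ((Subgroup.subgroupOfEquivOfLe hPH).symm x0) := by
  unfold c4
  letI := Fintype.ofFinite P
  letI := Fintype.ofFinite (P.subgroupOf H)
  refine (Fintype.sum_equiv (Subgroup.subgroupOfEquivOfLe hPH).symm.toEquiv
    (fun y : P => if y ∈ Subgroup.zpowers x0 ∨ y * y = 1 then 0 else wX P e x0 y)
    (fun y : P.subgroupOf H => if y ∈ Subgroup.zpowers ((Subgroup.subgroupOfEquivOfLe hPH).symm x0) ∨ y * y = 1 then 0
      else wX (P.subgroupOf H) eH ((Subgroup.subgroupOfEquivOfLe hPH).symm x0) y) fun y => ?_).trans (by congr!)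
  have h1 : y ∈ Subgroup.zpowers x0 ↔ (Subgroup.subgroupOfEquivOfLe hPH).symm y ∈
      Subgroup.zpowers ((Subgroup.subgroupOfEquivOfLe hPH).symm x0) := by
    constructor
    · rintro ⟨j, hj⟩
      have hj' : x0 ^ j = y := hj
      exact ⟨j, by show _ ^ j = _; rw [← map_zpow, hj']⟩
    · rintro ⟨j, hj⟩
      have hj' : ((Subgroup.subgroupOfEquivOfLe hPH).symm x0) ^ j = (Subgroup.subgroupOfEquivOfLe hPH).symm y := hj
      rw [← map_zpow] at hj'
      exact ⟨j, (Subgroup.subgroupOfEquivOfLe hPH).symm.injective hj'⟩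
  have h2 : y * y = 1 ↔ (Subgroup.subgroupOfEquivOfLe hPH).symm y * (Subgroup.subgroupOfEquivOfLe hPH).symm y = 1 := by
    rw [← map_mul, EmbeddingLike.map_eq_one_iff]
  show (if y ∈ Subgroup.zpowers x0 ∨ y * y = 1 then 0 else wX P e x0 y) =
    if (Subgroup.subgroupOfEquivOfLe hPH).symm y ∈ Subgroup.zpowers ((Subgroup.subgroupOfEquivOfLe hPH).symm x0) ∨
      (Subgroup.subgroupOfEquivOfLe hPH).symm y * (Subgroup.subgroupOfEquivOfLe hPH).symm y = 1 then 0 else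
      wX (P.subgroupOf H) eH ((Subgroup.subgroupOfEquivOfLe hPH).symm x0)
        (((Subgroup.subgroupOfEquivOfLe hPH).symm y : P.subgroupOf H) : H)
  by_cases h3 : y ∈ Subgroup.zpowers x0 ∨ y * y = 1
  · rw [if_pos h3, if_pos (by rwa [← h1, ← h2])]
  · rw [if_neg h3, if_neg (by rwa [← h1, ← h2])]
    push Not at h3
    exact wX_iff h hPH hl he hH hP4 hz2 hz1 x0 y.2 (h4 y h3.1 h3.2)

end loc

/-- the contribution of the involutions outside -/
theorem c2_or (h : Ctx 2 B P e) (x0 : P) (y0 : P) (hy0 : y0 ∉ Subgroup.zpowers x0) (hy02 : y0 * y0 = 1)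
    (hconj : ∀ y : P, y ∉ Subgroup.zpowers x0 → y * y = 1 → ∃ p : P, p * y0 * p⁻¹ = y) :
    ((∃ k ∈ Subgroup.zpowers x0, Fs 2 P e (y0 : G) (k : G)) → c2 P e x0 = 0) ∧
    ((¬ ∃ k ∈ Subgroup.zpowers x0, Fs 2 P e (y0 : G) (k : G)) → c2 P e x0 = 1) := by
  have hfy : ∀ y : P, y ∉ Subgroup.zpowers x0 → y * y = 1 → Fs 2 P e (y0 : G) (y : G) := by
    intro y hy hy2
    obtain ⟨p, hp⟩ := hconj y hy hy2
    rw [← hp]
    exact Fs.conj h.pair y0.2 p.2
  constructor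
  · rintro ⟨k, hk, hf⟩
    unfold c2
    apply Finset.sum_eq_zero
    intro y _
    by_cases hy : y ∈ Subgroup.zpowers x0 ∨ y * y ≠ 1
    · rw [if_pos hy]
    · rw [if_neg hy]
      push Not at hy
      unfold wX
      rw [if_pos ⟨k, hk, (hfy y hy.1 hy.2).symm.trans h.pair hf⟩]
  · intro hno
    have := Fintype.ofFinite P
    set T : Finset P := Finset.univ.filter (fun y : P => ¬ (y ∈ Subgroup.zpowers x0 ∨ y * y ≠ 1)) with hT
    have hfT : ∀ y' : G, Fs 2 P e (y0 : G) y' → ∃ hy' : y' ∈ P, (⟨y', hy'⟩ : P) ∈ T := by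
      intro y' hf
      refine ⟨hf.right, ?_⟩
      rw [hT, Finset.mem_filter]
      refine ⟨Finset.mem_univ _, ?_⟩
      push Not
      constructor
      · intro hk
        exact hno ⟨_, hk, hf⟩
      · obtain ⟨g, hg, hgy⟩ := hf
        apply Subtype.ext
        show y' * y' = 1
        rw [← hgy]
        have h1 : (y0 : G) * y0 = 1 := congrArg Subtype.val hy02
        calc g * (y0 : G) * g⁻¹ * (g * (y0 : G) * g⁻¹) = g * ((y0 : G) * y0) * g⁻¹ := by group
          _ = 1 := by rw [h1]; group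
    have hmT : ∀ y : P, y ∈ T → y ∉ Subgroup.zpowers x0 ∧ y * y = 1 := by
      intro y hy
      rw [hT, Finset.mem_filter] at hy
      have := hy.2
      push Not at this
      exact this
    have hn : nF 2 P e (y0 : G) = T.card := by
      unfold nF
      rw [← Fintype.card_coe, ← Nat.card_eq_fintype_card]
      apply Nat.card_congr
      exact {
        toFun := fun y' => ⟨⟨y'.1, (hfT y'.1 y'.2).choose⟩, (hfT y'.1 y'.2).choose_spec⟩
        invFun := fun y => ⟨(y.1 : G), hfy y.1 (hmT y.1 y.2).1 (hmT y.1 y.2).2⟩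
        left_inv := fun y' => rfl
        right_inv := fun y => rfl }
    have hTpos : 0 < T.card := by
      rw [← hn]; exact nF_pos h.pair y0.2
    unfold c2
    have e1 : ∀ y : P, (if y ∈ Subgroup.zpowers x0 ∨ y * y ≠ 1 then 0 else wX P e x0 y) =
        if ¬ (y ∈ Subgroup.zpowers x0 ∨ y * y ≠ 1) then ((T.card : ℚ))⁻¹ else 0 := by
      intro y
      by_cases hy : y ∈ Subgroup.zpowers x0 ∨ y * y ≠ 1
      · rw [if_pos hy, if_neg (not_not.2 hy)]
      · rw [if_neg hy, if_pos hy]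
        push Not at hy
        have hf := hfy y hy.1 hy.2
        unfold wX
        rw [if_neg, nF_eq h.pair hf, hn]
        rintro ⟨k, hk, hf'⟩
        exact hno ⟨k, hk, hf.trans h.pair hf'⟩
    have h0 : (Fintype.ofFinite P) = ‹Fintype P› := Subsingleton.elim _ _
    rw [h0]
    rw [Finset.sum_congr rfl fun y _ => e1 y, ← Finset.sum_filter, ← hT, Finset.sum_const, nsmul_eq_mul]
    apply mul_inv_cancel₀
    exact_mod_cast hTpos.ne'

theorem c2_zero (x0 : P) (hno : ∀ y : P, y ∉ Subgroup.zpowers x0 → y * y ≠ 1) : c2 P e x0 = 0 := by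
  unfold c2
  apply Finset.sum_eq_zero
  intro y _
  rw [if_pos]
  by_cases hy : y ∈ Subgroup.zpowers x0
  · exact Or.inl hy
  · exact Or.inr (hno y hy)

end Cfsg.Agent.Lib.Tame
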