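import Cfsg.Agent.Lib.CharBasic2
import Cfsg.Agent.Lib.IndFun
import Mathlib.Analysis.SpecialFunctions.Complex.CircleAddChar
import Mathlib.NumberTheory.LegendreSymbol.AddCharacter

/-!
# Fourier analysis on the cyclic maximal subgroup of a group of maximal class
-/

set_option autoImplicit false
set_option linter.all false
set_option maxHeartbeats 400000

namespace Cfsg.Agent.Lib.TameFour

open Cfsg Cfsg.Agent.Lib.CharBasic
open scoped ComplexConjugate Classical

universe u

variable {m : ℕ} [NeZero m]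

/-- the standard additive character -/
noncomputable abbrev ev (m : ℕ) [NeZero m] (a : ZMod m) : ℂ := ZMod.stdAddChar a

theorem ev_add (a b : ZMod m) : ev m (a + b) = ev m a * ev m b := AddChar.map_add_eq_mul _ _ _

theorem ev_zero : ev m 0 = 1 := AddChar.map_zero_eq_one _

theorem ev_neg (a : ZMod m) : ev m (-a) = conj (ev m a) := by
  have h1 : ev m (-a) * ev m a = 1 := by rw [← ev_add, neg_add_cancel, ev_zero]
  have h2 : ‖ev m a‖ = 1 := by
    show ‖((ZMod.toCircle a : Circle) : ℂ)‖ = 1
    exact Circle.norm_coe _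
  have h3 : conj (ev m a) * ev m a = 1 := by
    rw [mul_comm, Complex.mul_conj, Complex.normSq_eq_norm_sq, h2]; simp
  have h0 : ev m a ≠ 0 := by
    intro h; rw [h, norm_zero] at h2; exact zero_ne_one h2
  exact mul_right_cancel₀ h0 (h1.trans h3.symm)

theorem sum_ev (c : ZMod m) : ∑ i : ZMod m, ev m (c * i) = if c = 0 then (m : ℂ) else 0 := by
  have h := AddChar.sum_mulShift c (ZMod.isPrimitive_stdAddChar m)
  simp only [mul_comm c]
  rw [h]
  simp [ZMod.card]

/-- Fourier transform -/
noncomputable def hat (μ : ZMod m → ℂ) (i : ZMod m) : ℂ := ∑ a, μ a * ev m (a * i)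

/-- Fourier coefficients -/
noncomputable def cf (f : ZMod m → ℂ) (a : ZMod m) : ℂ := (m : ℂ)⁻¹ * ∑ i, f i * ev m (-(a * i))

theorem m_ne : (m : ℂ) ≠ 0 := Nat.cast_ne_zero.2 (NeZero.ne m)

theorem cf_inv (f : ZMod m → ℂ) (i : ZMod m) : f i = ∑ a, cf f a * ev m (a * i) := by
  unfold cf
  simp only [mul_assoc, ← Finset.mul_sum, Finset.sum_mul]
  rw [Finset.sum_comm]
  have h1 : ∀ j : ZMod m, ∑ a : ZMod m, f j * (ev m (-(a * j)) * ev m (a * i)) =
      f j * (if i - j = 0 then (m : ℂ) else 0) := by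
    intro j
    rw [← Finset.mul_sum, ← sum_ev]
    congr 1
    refine Finset.sum_congr rfl fun a _ => ?_
    rw [← ev_add]
    congr 1
    ring
  rw [Finset.sum_congr rfl fun j _ => h1 j, Finset.sum_eq_single i]
  · rw [sub_self, if_pos rfl, mul_comm (f i), inv_mul_cancel_left₀ m_ne]
  · intro j _ hj
    rw [if_neg (sub_ne_zero.2 hj.symm), mul_zero]
  · intro h; exact absurd (Finset.mem_univ _) h

theorem parseval (μ μ' : ZMod m → ℂ) :
    (m : ℂ)⁻¹ * ∑ i, hat μ i * conj (hat μ' i) = ∑ a, μ a * conj (μ' a) := by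
  have h1 : ∀ i, hat μ i * conj (hat μ' i) = ∑ a, ∑ b, μ a * conj (μ' b) * ev m ((a - b) * i) := by
    intro i
    unfold hat
    rw [map_sum, Finset.sum_mul_sum]
    refine Finset.sum_congr rfl fun a _ => Finset.sum_congr rfl fun b _ => ?_
    rw [map_mul, ← ev_neg, sub_mul, sub_eq_add_neg, ev_add]
    ring
  rw [Finset.sum_congr rfl fun i _ => h1 i, Finset.sum_comm]
  have h2 : ∀ a, ∑ i : ZMod m, ∑ b, μ a * conj (μ' b) * ev m ((a - b) * i) = (m : ℂ) * (μ a * conj (μ' a)) := by
    intro a
    rw [Finset.sum_comm, Finset.sum_eq_single a]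
    · rw [← Finset.mul_sum, sum_ev, sub_self, if_pos rfl, mul_comm]
    · intro b _ hb
      rw [← Finset.mul_sum, sum_ev, if_neg (sub_ne_zero.2 hb.symm), mul_zero]
    · intro h; exact absurd (Finset.mem_univ _) h
  rw [Finset.sum_congr rfl fun a _ => h2 a, ← Finset.mul_sum, inv_mul_cancel_left₀ m_ne]

theorem hat_scale {s : ZMod m} (hs : s * s = 1) (μ : ZMod m → ℂ) (i : ZMod m) :
    hat μ (s * i) = hat (fun a => μ (s * a)) i := by
  unfold hat
  have hb : Function.Bijective (fun a : ZMod m => s * a) := by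
    have hh : Function.LeftInverse (fun a : ZMod m => s * a) (fun a : ZMod m => s * a) := fun a => by
      show s * (s * a) = a
      rw [← mul_assoc, hs, one_mul]
    exact ⟨hh.injective, hh.surjective⟩
  rw [← hb.sum_comp (fun a => μ a * ev m (a * (s * i)))]
  refine Finset.sum_congr rfl fun a _ => ?_
  congr 2
  calc s * a * (s * i) = (s * s) * (a * i) := by ring
    _ = a * i := by rw [hs, one_mul]

section group

variable {Q : Type u} [Group Q] [Finite Q]

/-- powers indexed by `ZMod m` -/
def xp (x : Q) (i : ZMod m) : Q := x ^ i.val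

variable {x : Q} (hx : orderOf x = m)
include hx

theorem xp_natCast (k : ℕ) : xp x (k : ZMod m) = x ^ k := by
  unfold xp
  rw [ZMod.val_natCast, ← hx, pow_mod_orderOf]

theorem xp_add (i j : ZMod m) : xp x (i + j) = xp x i * xp x j := by
  obtain ⟨a, rfl⟩ := ZMod.natCast_zmod_surjective i
  obtain ⟨b, rfl⟩ := ZMod.natCast_zmod_surjective j
  rw [← Nat.cast_add, xp_natCast hx, xp_natCast hx, xp_natCast hx, pow_add]

theorem xp_injective : Function.Injective (xp x : ZMod m → Q) := by
  intro i j hij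
  have h1 : i.val ∈ Set.Iio (orderOf x) := by rw [hx]; exact ZMod.val_lt i
  have h2 : j.val ∈ Set.Iio (orderOf x) := by rw [hx]; exact ZMod.val_lt j
  exact ZMod.val_injective m (pow_injOn_Iio_orderOf h1 h2 hij)

theorem mem_zpowers_iff {u : Q} : u ∈ Subgroup.zpowers x ↔ ∃ i : ZMod m, xp x i = u := by
  constructor
  · intro h
    obtain ⟨k, hk⟩ := (mem_powers_iff_mem_zpowers).2 h
    exact ⟨(k : ZMod m), by rw [xp_natCast hx]; exact hk⟩
  · rintro ⟨i, rfl⟩
    exact Subgroup.pow_mem _ (Subgroup.mem_zpowers x) _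

theorem xp_zero : xp x (0 : ZMod m) = 1 := by
  have := xp_natCast hx 0
  rwa [Nat.cast_zero, pow_zero] at this

theorem xp_one : xp x (1 : ZMod m) = x := by
  have := xp_natCast hx 1
  rwa [Nat.cast_one, pow_one] at this

/-- sums over the group of functions supported on `⟨x⟩` -/
theorem sum_xp [Fintype Q] (f : Q → ℂ) (hf : ∀ u, u ∉ Subgroup.zpowers x → f u = 0) :
    ∑ u, f u = ∑ i : ZMod m, f (xp x i) := by
  symm
  apply Fintype.sum_of_injective (xp x) (xp_injective hx)
  · intro u hu
    apply hf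
    rw [mem_zpowers_iff hx]
    exact hu
  · intro i; rfl

omit hx

/-- class functions supported on `⟨x⟩` -/
noncomputable def eta (x : Q) (s : ZMod m) (μ : ZMod m → ℂ) (u : Q) : ℂ :=
  if h : ∃ i : ZMod m, xp x i = u then hat μ h.choose + hat μ (s * h.choose) else 0

include hx

theorem eta_xp (s : ZMod m) (μ : ZMod m → ℂ) (i : ZMod m) : eta x s μ (xp x i) = hat μ i + hat μ (s * i) := by
  have h : ∃ j : ZMod m, xp x j = xp x i := ⟨i, rfl⟩
  unfold eta
  rw [dif_pos h, xp_injective hx h.choose_spec]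

theorem eta_not {s : ZMod m} {μ : ZMod m → ℂ} {u : Q} (hu : u ∉ Subgroup.zpowers x) : eta x s μ u = 0 := by
  unfold eta
  rw [dif_neg]
  rw [mem_zpowers_iff hx] at hu
  exact hu

variable {s : ZMod m} (hs : s * s = 1) (hconj : ∀ y : Q, y ∉ Subgroup.zpowers x → y * x * y⁻¹ = xp x s)
include hs hconj

theorem conj_xp {y : Q} (hy : y ∉ Subgroup.zpowers x) (i : ZMod m) : y * xp x i * y⁻¹ = xp x (s * i) := by
  obtain ⟨a, rfl⟩ := ZMod.natCast_zmod_surjective i
  rw [xp_natCast hx, ← conj_pow, hconj y hy]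
  induction a with
  | zero => rw [pow_zero, Nat.cast_zero, mul_zero, xp_zero hx]
  | succ a ih => rw [pow_succ, ih, Nat.cast_succ, mul_add, mul_one, xp_add hx]

theorem conj_xp' {y : Q} (i : ZMod m) : y * xp x i * y⁻¹ = xp x i ∨ y * xp x i * y⁻¹ = xp x (s * i) := by
  by_cases hy : y ∈ Subgroup.zpowers x
  · left
    obtain ⟨j, rfl⟩ := (mem_zpowers_iff hx).1 hy
    rw [← xp_add hx, add_comm, xp_add hx, mul_inv_cancel_right]
  · right
    exact conj_xp hx hs hconj hy i

theorem eta_class (μ : ZMod m → ℂ) : IsClassFunction Q (eta x s μ) := by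
  intro u y
  by_cases hu : u ∈ Subgroup.zpowers x
  · obtain ⟨i, rfl⟩ := (mem_zpowers_iff hx).1 hu
    rcases conj_xp' hx hs hconj (y := y) i with h | h
    · rw [h]
    · rw [h, eta_xp hx, eta_xp hx, ← mul_assoc, hs, one_mul, add_comm]
  · rw [eta_not hx hu, eta_not hx]
    intro h
    apply hu
    obtain ⟨i, hi⟩ := (mem_zpowers_iff hx).1 h
    have h2 : u = y⁻¹ * xp x i * (y⁻¹)⁻¹ := by rw [hi]; group
    rw [h2, mem_zpowers_iff hx]
    rcases conj_xp' hx hs hconj (y := y⁻¹) i with h3 | h3
    · exact ⟨i, h3.symm⟩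
    · exact ⟨_, h3.symm⟩

theorem t_scale (hex : ∃ y, y ∉ Subgroup.zpowers x) {t : Q → ℂ} (ht : IsClassFunction Q t) (i : ZMod m) :
    t (xp x (s * i)) = t (xp x i) := by
  obtain ⟨y, hy⟩ := hex
  rw [← conj_xp hx hs hconj hy i]
  exact ht _ _

theorem cf_scale (hex : ∃ y, y ∉ Subgroup.zpowers x) {t : Q → ℂ} (ht : IsClassFunction Q t) (a : ZMod m) :
    cf (fun i => t (xp x i)) (s * a) = cf (fun i => t (xp x i)) a := by
  unfold cf
  congr 1
  have hb : Function.Bijective (fun a : ZMod m => s * a) := by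
    have hh : Function.LeftInverse (fun a : ZMod m => s * a) (fun a : ZMod m => s * a) := fun a => by
      show s * (s * a) = a
      rw [← mul_assoc, hs, one_mul]
    exact ⟨hh.injective, hh.surjective⟩
  rw [← hb.sum_comp (fun i => t (xp x i) * ev m (-(a * i)))]
  refine Finset.sum_congr rfl fun i _ => ?_
  rw [t_scale hx hs hconj hex ht]
  congr 3
  ring

variable (hcard : Nat.card Q = 2 * m)
include hcard

theorem exists_not : ∃ y, y ∉ Subgroup.zpowers x := by
  by_contra hcon
  push Not at hcon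
  have h1 : Subgroup.zpowers x = ⊤ := by
    rw [eq_top_iff]; intro y _; exact hcon y
  have h2 : Nat.card (Subgroup.zpowers x) = m := by rw [Nat.card_zpowers, hx]
  rw [h1, Subgroup.card_top, hcard] at h2
  have := NeZero.pos m
  omega

theorem inner_eta [Fintype Q] {t : Q → ℂ} (ht : IsClassFunction Q t) (μ : ZMod m → ℂ) :
    classInner t (eta x s μ) = ∑ a, conj (μ a) * cf (fun i => t (xp x i)) a := by
  have hex := exists_not hx hs hconj hcard
  unfold classInner
  rw [hcard, sum_xp hx (fun u => t u * conj (eta x s μ u)) (fun u hu => by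
    show t u * conj (eta x s μ u) = 0
    rw [eta_not hx hu, map_zero, mul_zero])]
  have h1 : ∑ i : ZMod m, t (xp x i) * conj (eta x s μ (xp x i)) =
      2 * ∑ i : ZMod m, t (xp x i) * conj (hat μ i) := by
    have h2 : ∑ i : ZMod m, t (xp x i) * conj (eta x s μ (xp x i)) =
        ∑ i : ZMod m, t (xp x i) * conj (hat μ i) + ∑ i : ZMod m, t (xp x i) * conj (hat μ (s * i)) := by
      rw [← Finset.sum_add_distrib]
      refine Finset.sum_congr rfl fun i _ => ?_
      rw [eta_xp hx, map_add, mul_add]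
    have hb : Function.Bijective (fun a : ZMod m => s * a) := by
      have hh : Function.LeftInverse (fun a : ZMod m => s * a) (fun a : ZMod m => s * a) := fun a => by
        show s * (s * a) = a
        rw [← mul_assoc, hs, one_mul]
      exact ⟨hh.injective, hh.surjective⟩
    have h3 : ∑ i : ZMod m, t (xp x i) * conj (hat μ (s * i)) = ∑ i : ZMod m, t (xp x i) * conj (hat μ i) := by
      rw [← hb.sum_comp (fun i => t (xp x i) * conj (hat μ i))]
      refine Finset.sum_congr rfl fun i _ => ?_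
      rw [t_scale hx hs hconj hex ht]
    rw [h2, h3, two_mul]
  rw [h1]
  have h4 : ∑ i : ZMod m, t (xp x i) * conj (hat μ i) = ∑ a, conj (μ a) * ∑ i, t (xp x i) * ev m (-(a * i)) := by
    unfold hat
    simp only [map_sum, map_mul, Finset.mul_sum]
    rw [Finset.sum_comm]
    refine Finset.sum_congr rfl fun a _ => Finset.sum_congr rfl fun i _ => ?_
    rw [ev_neg]
    ring
  rw [h4]
  unfold cf
  rw [Finset.mul_sum, Finset.mul_sum]
  refine Finset.sum_congr rfl fun a _ => ?_
  push_cast
  have := m_ne (m := m)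
  field_simp

theorem cf_int {t : Q → ℂ} (ht : IsGeneralizedCharacter Q t) (a : ZMod m) :
    ∃ n : ℤ, cf (fun i => t (xp x i)) a = n := by
  let φ : Multiplicative (ZMod m) →* Q := MonoidHom.mk' (fun i => xp x (Multiplicative.toAdd i)) (by
    intro i j
    exact xp_add hx _ _)
  let α : Multiplicative (ZMod m) →* ℂ :=
    { toFun := fun i => ev m (a * Multiplicative.toAdd i)
      map_one' := by
        show ev m (a * 0) = 1
        rw [mul_zero, ev_zero]
      map_mul' := by
        intro i j
        show ev m (a * (Multiplicative.toAdd i + Multiplicative.toAdd j)) = _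
        rw [mul_add, ev_add] }
  have h1 : IsGeneralizedCharacter (Multiplicative (ZMod m)) (fun i => t (φ i)) := ht.comp φ
  have h2 : IsCharacter (Multiplicative (ZMod m)) (fun i => α i) := isCharacter_of_hom α
  obtain ⟨n, hn⟩ := h1.classInner_int h2.isGeneralized
  refine ⟨n, ?_⟩
  rw [← hn]
  unfold cf classInner
  congr 1
  · rw [show Nat.card (Multiplicative (ZMod m)) = Nat.card (ZMod m) from rfl, Nat.card_zmod]
  · rw [← Equiv.sum_comp (Multiplicative.ofAdd (α := ZMod m))]
    refine Finset.sum_congr rfl fun i _ => ?_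
    rw [ev_neg]
    rfl

theorem inner_eta_eta [Fintype Q] (μ μ' : ZMod m → ℂ) :
    classInner (eta x s μ') (eta x s μ) = ∑ a, conj (μ a) * (μ' a + μ' (s * a)) := by
  rw [inner_eta hx hs hconj hcard (eta_class hx hs hconj μ') μ]
  refine Finset.sum_congr rfl fun a _ => ?_
  congr 1
  unfold cf
  have h1 : ∀ i : ZMod m, eta x s μ' (xp x i) * ev m (-(a * i)) =
      hat (fun b => μ' b + μ' (s * b)) i * conj (hat (fun b => if b = a then 1 else 0) i) := by
    intro i
    rw [eta_xp hx, hat_scale hs]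
    have h2 : hat (fun b => if b = a then (1 : ℂ) else 0) i = ev m (a * i) := by
      unfold hat
      simp
    rw [h2, ev_neg]
    congr 1
    unfold hat
    rw [← Finset.sum_add_distrib]
    refine Finset.sum_congr rfl fun b _ => ?_
    ring
  rw [Finset.sum_congr rfl fun i _ => h1 i, parseval]
  rw [Finset.sum_eq_single a]
  · simp
  · intro b _ hb
    rw [if_neg hb, map_zero, mul_zero]
  · intro h; exact absurd (Finset.mem_univ _) h

end group

end Cfsg.Agent.Lib.TameFour
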