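import Cfsg.Agent.Lib.TameTT
import Cfsg.Agent.Lib.PowerGraph

/-!
# Transfer from the normalizer of a cyclic subgroup: isometry and orthogonality
-/

set_option autoImplicit false
set_option linter.all false
set_option maxHeartbeats 400000

namespace Cfsg.Agent.Lib.Tame

open Cfsg Cfsg.Agent.Lib.BlockRing Cfsg.Agent.Lib.BlockGA Cfsg.Agent.Lib.BlockAlg
open Cfsg.Agent.Lib.BlkIdem Cfsg.Agent.Lib.PairAlg Cfsg.Agent.Lib.PairMax
open Cfsg.Agent.Lib.BlockIdem Cfsg.Agent.Lib.BlockSecond Cfsg.Agent.Lib.BrauerPairs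
open Cfsg.Agent.Lib.BlkFus Cfsg.Agent.Lib.InducedPair Cfsg.Agent.Lib.DefPairs
open Cfsg.Agent.Lib.BlkFusDef Cfsg.Agent.Lib.BlkTransport Cfsg.Agent.Lib.BlkNil
open Cfsg.Agent.Lib.H25BpLift Cfsg.Agent.Lib.H25BpTw Cfsg.Agent.Lib.H25BpF Cfsg.Agent.Lib.H25BpI
open Cfsg.Agent.Lib.H25BpE Cfsg.Agent.Lib.H25BpG Cfsg.Agent.Lib.H25BpW Cfsg.Agent.Lib.H25BpM
open Cfsg.Agent.Lib.H25BpS
open Cfsg.Agent.Lib.BlockCount (Bl D rsp rsp_orth sum_blockPart blockRank_eq)
open Cfsg.Agent.Lib.BlockPair (preg)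
open Cfsg.Agent.Lib.Subsec (Cz mem_Cz al al_eq al_mem fs mem_fs sum_fs blockPart_eq D_reg D_not_reg D_mem)
open MonoidAlgebra (single)
open scoped ComplexConjugate Classical Pointwise

universe u

variable {p : ℕ} [hp : Fact p.Prime] {M : Ideal AlgInt} [hMm : M.IsMaximal] [hchar : CharP (Kf M) p]
  {G : Type u} [Group G] [Finite G] {B : Set (IrrCharacter G)} {P : Subgroup G} {e : MonoidAlgebra (Kf M) G}

/-- local data: the block `b` of `N = N_G(⟨v⟩)` with a height zero character `ξ` -/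
structure LD (p : ℕ) {M : Ideal AlgInt} [M.IsMaximal] {G : Type u} [Group G] [Finite G]
    (B : Set (IrrCharacter G)) (P : Subgroup G) (e : MonoidAlgebra (Kf M) G)
    (N : Subgroup G) (b : Set (IrrCharacter N)) (e' : MonoidAlgebra (Kf M) N) (v : G)
    (ξ : IrrCharacter N) : Prop where
  ctx : Ctx p B P e
  loc : Ctx p b (P.subgroupOf N) e'
  inc : inc N e' = e
  inn : H25BpS.Inn p (P.subgroupOf N) e'
  le : P ≤ N
  hv : v ∈ P
  v1 : v ≠ 1
  hN : N = Subgroup.normalizer ((Subgroup.zpowers v : Subgroup G) : Set G)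
  hξ : ξ ∈ b
  h0 : blockHeight p b (ξ : N → ℂ) = 0

namespace LD

variable {N : Subgroup G} {b : Set (IrrCharacter N)} {e' : MonoidAlgebra (Kf M) N} {v : G}
  {ξ : IrrCharacter N}

theorem mem_iff (L : LD p B P e N b e' v ξ) (g : G) :
    g ∈ N ↔ g ∈ Subgroup.normalizer ((Subgroup.zpowers v : Subgroup G) : Set G) := by
  have h1 := L.hN
  constructor
  · intro h; rw [← h1]; exact h
  · intro h; rw [h1]; exact h

theorem cent (L : LD p B P e N b e' v ξ) {g : G} (hg : Commute v g) : g ∈ N := by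
  rw [L.mem_iff]
  apply centralizer_le_normalizer
  rw [mem_cz]
  exact hg

theorem vpow (L : LD p B P e N b e' v ξ) : ∃ k, orderOf v = p ^ k :=
  PE_of_mem (p := p) L.ctx.pair.1 L.hv

/-- conjugation by elements of `N` -/
theorem conj_zp (L : LD p B P e N b e' v ξ) {g : G} (hg : g ∈ N) :
    Subgroup.zpowers (g * v * g⁻¹) = Subgroup.zpowers v := by
  rw [← cg_zpowers]
  exact cg_of_mem_normalizer ((L.mem_iff g).1 hg)

theorem ti (L : LD p B P e N b e' v ξ) {c g : G} (h1 : v ∈ Subgroup.zpowers c)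
    (h2 : v ∈ Subgroup.zpowers (g * c * g⁻¹)) : g ∈ N := by
  rw [L.mem_iff]
  have h3 : g * v * g⁻¹ ∈ Subgroup.zpowers (g * c * g⁻¹) := by
    obtain ⟨k, rfl⟩ := h1
    refine ⟨k, ?_⟩
    show (g * c * g⁻¹) ^ k = g * c ^ k * g⁻¹
    rw [conj_zpow]
  have h4 := PowerGraph.zpowers_eq_of_orderOf_eq h3 h2 (by rw [H25BpF.orderOf_conj])
  rw [← cg_zpowers] at h4
  exact mem_normalizer_of_cg h4

theorem conj_mem_zp (L : LD p B P e N b e' v ξ) {g : G} (hg : g ∈ N) {c : G} :
    v ∈ Subgroup.zpowers (g * c * g⁻¹) → v ∈ Subgroup.zpowers c := by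
  intro h
  have h1 : g⁻¹ * v * g ∈ Subgroup.zpowers c := by
    obtain ⟨k, hk⟩ := h
    refine ⟨k, ?_⟩
    show c ^ k = g⁻¹ * v * g
    have hk' : (g * c * g⁻¹) ^ k = v := hk
    rw [← hk', conj_zpow]
    group
  have h2 := L.conj_zp (N.inv_mem hg)
  rw [inv_inv] at h2
  have h3 : v ∈ Subgroup.zpowers (g⁻¹ * v * g) := by
    rw [h2]; exact Subgroup.mem_zpowers v
  exact (Subgroup.zpowers_le.2 h1) h3

end LD

/-- `p`-elements in `⟨c⟩` lie in the group generated by the `p`-part -/
theorem mem_zpowers_pp {c v : G} (hv : ∃ k, orderOf v = p ^ k) (h : v ∈ Subgroup.zpowers c) :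
    v ∈ Subgroup.zpowers (pp p c) := by
  obtain ⟨k, rfl⟩ := h
  have h1 : pp p c ^ k * pq p c ^ k = c ^ k := by
    rw [← (pp_comm p c).mul_zpow, pp_mul_pq]
  have h2 := (pp_comm p c)
  have h3 : ∃ j, orderOf (pp p c ^ k) = p ^ j := by
    obtain ⟨j, hj⟩ := pp_order p c
    have h4 : orderOf (pp p c ^ k) ∣ p ^ j := by
      rw [← hj]; exact orderOf_dvd_of_mem_zpowers ⟨k, rfl⟩
    obtain ⟨i, _, hi⟩ := (Nat.dvd_prime_pow hp.out).1 h4
    exact ⟨i, hi⟩
  have h4 : ¬ p ∣ orderOf (pq p c ^ k) := fun hd => pq_order p c (hd.trans (orderOf_dvd_of_mem_zpowers ⟨k, rfl⟩))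
  have h5 := pp_eq h1 ((h2.zpow_left k).zpow_right k) h3 h4
  have h6 := pp_eq (mul_one (c ^ k)) (Commute.one_right _) hv
    (by rw [orderOf_one]; exact hp.out.one_lt.not_ge ∘ Nat.le_of_dvd one_pos)
  show c ^ k ∈ _
  rw [← h6.1, h5.1]
  exact ⟨k, rfl⟩

namespace LD

variable {N : Subgroup G} {b : Set (IrrCharacter N)} {e' : MonoidAlgebra (Kf M) N} {v : G}
  {ξ : IrrCharacter N}

/-- restrictions of characters of other blocks -/
theorem res_zero (L : LD p B P e N b e' v ξ) {χ : IrrCharacter G} (hχ : χ ∉ B) {c : N}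
    (hc : v ∈ Subgroup.zpowers (c : G)) : blockPart b (fun n : N => (χ : G → ℂ) n) c = 0 := by
  have hM := L.ctx.mod
  have := isPrime hM
  set B' := blockOf M (χ : G → ℂ) with hB'
  have hχB' : χ ∈ B' := mem_blockOf_self χ
  have hB'b : IsPBlock M B' := isPBlock_blockOf χ
  have hne : B' ≠ B := fun h => hχ (h ▸ hχB')
  have hVP : Subgroup.zpowers v ≤ P := by rw [Subgroup.zpowers_le]; exact L.hv
  have hVN : Subgroup.centralizer ((Subgroup.zpowers v : Subgroup G) : Set G) ≤ N := by
    intro x hx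
    rw [mem_cz] at hx
    exact L.cent hx
  have hNV : N ≤ Subgroup.normalizer ((Subgroup.zpowers v : Subgroup G) : Set G) := fun x hx => (L.mem_iff x).1 hx
  have h1 := bid_mul_br L.ctx L.le L.loc L.inc hVP hVN hNV hB'b hne
  -- the two parts
  obtain ⟨u, x, hux, hcomm, ⟨k, hk⟩, hx, _⟩ := exists_ppart hM.1 (c : G)
  have hu' : u ^ p ^ k = 1 := by rw [← hk]; exact pow_orderOf_eq_one u
  have hupp : pp p (c : G) = u := (pp_eq hux hcomm ⟨k, hk⟩ hx).1
  have hvu : v ∈ Subgroup.zpowers u := by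
    rw [← hupp]; exact mem_zpowers_pp L.vpow hc
  have hcv : ∀ g, Commute u g → Commute v g := by
    intro g hg
    obtain ⟨j, rfl⟩ := hvu
    exact hg.zpow_left j
  have huN : u ∈ N := L.cent (hcv u (Commute.refl u))
  have hxN : x ∈ N := L.cent (hcv x hcomm)
  have hff : incH N (eB b) * incH N (eB b) = incH N (eB b) := by rw [← map_mul, eB_mul_self]
  have hBc := eB_mem_center B'
  have hloc : LocA M (eB B' * incH N (eB b)) := locA_mul (locA_eB hB'b) (locA_incH (locA_eB L.loc.blk))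
  have hJ : InJ M u (eB B' * incH N (eB b)) := by
    intro g hg
    rw [← red_eq_zero_iff (hloc g)]
    have hvg := hcv g hg
    have hgC : g ∈ Subgroup.centralizer ((Subgroup.zpowers v : Subgroup G) : Set G) := by
      rw [mem_cz]; exact hvg
    have h2 : redA M (eB B' * incH N (eB b)) = bidG M B' * bid M N b := by
      rw [redA_mul (locA_eB hB'b) (locA_incH (locA_eB L.loc.blk))]
      congr 1
      exact NormalPBlk.redA_cid N b
    have h3 : BrauerMap.br (Subgroup.zpowers v) (bidG M B' * bid M N b) = 0 := by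
      have hVp : IsPGroup p (Subgroup.zpowers v) := L.ctx.pair.1.to_le hVP
      have hBf : bidG M B' ∈ BrauerMap.fixAlg (Kf M) (Subgroup.zpowers v) :=
        BrauerMap.fixAlg_anti le_top (bidG_mem B').2
      have hbf : bid M N b ∈ BrauerMap.fixAlg (Kf M) (Subgroup.zpowers v) :=
        BrauerMap.fixAlg_anti (hVP.trans L.le) (isBlk_bid L.loc.blk).mem.2
      have hbrf : BrauerMap.br (Subgroup.zpowers v) (bidG M B') ∈ BrauerMap.fixAlg (Kf M) (Subgroup.zpowers v) :=
        BrauerMap.br_mem_fixAlg Subgroup.le_normalizer hBf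
      have h4 := congrArg (BrauerMap.br (Subgroup.zpowers v)) h1
      rw [BrauerMap.br_mul (p := p) hVp hbrf hbf, BrauerMap.br_zero, BrauerMap.br_br le_rfl] at h4
      rw [BrauerMap.br_mul (p := p) hVp hBf hbf]
      exact h4
    have h5 := BrauerMap.coeff_eq_of_eq h3 g
    rw [BrauerMap.br_coeff_mem hgC, ← h2, redA_coeff] at h5
    exact h5
  have key := lin_eq_zero hM hu' (pow_orderOf_eq_one x) hx hcomm
    (inF_mul (inF_of_center (locA_eB hB'b) hBc) (inF_incH (locA_eB L.loc.blk) (eB_mem_center b) huN))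
    (by
      rw [mul_assoc, ← mul_assoc (incH N (eB b)), ← center_comm hBc (incH N (eB b)), mul_assoc, hff,
        ← mul_assoc, eB_mul_self])
    (((show Commute (eB B' : GA G) (single x 1) from center_comm hBc _)).mul_left
      (commute_incH (eB_mem_center b) hxN)) hJ χ.2.isClassFunction
  rw [← mul_assoc, ← center_comm hBc (single (u * x) 1), mul_assoc, lin_mul χ.2 hBc,
    omega_eB_mem hχB', one_mul, hux] at key
  rw [blockPart_eq_lin (χ.2.isCharacter.restrict N).isClassFunction, center_comm (eB_mem_center b),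
    ← lin_incH (χ : G → ℂ), map_mul, incH_single]
  exact key

/-- support of star multiples -/
theorem st_supp (L : LD p B P e N b e' v ξ) {η : N → ℂ}
    (hη : IsClassFunction (P.subgroupOf N) (fun x : P.subgroupOf N => η x))
    (hs : ∀ x ∈ P.subgroupOf N, v ∉ Subgroup.zpowers (x : G) → η x = 0) {c : N}
    (hc : v ∉ Subgroup.zpowers (c : G)) : st p (P.subgroupOf N) e' η (ξ : N → ℂ) c = 0 := by
  rw [st_val L.loc (sta_of_class L.inn hη) L.hξ (κ := 0), zero_mul]
  intro g hg
  apply hs _ hg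
  intro hv
  apply hc
  have h1 : v ∈ Subgroup.zpowers ((g : G) * (pp p c : N) * (g : G)⁻¹) := hv
  have h2 := L.conj_mem_zp g.2 h1
  have h3 : pp p c ∈ Subgroup.zpowers c := by
    have h4 : Subgroup.zpowers c = Subgroup.zpowers c := rfl
    obtain ⟨k, hk⟩ := pp_order p c
    have hcop : Nat.Coprime (orderOf (pp p c)) (orderOf (pq p c)) := by
      rw [hk]
      exact Nat.Coprime.pow_left _ ((hp.out.coprime_iff_not_dvd).2 (pq_order p c))
    have h5 : c ^ orderOf (pq p c) = pp p c ^ orderOf (pq p c) := by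
      have h6 := (pp_comm p c).mul_pow (orderOf (pq p c))
      rw [pp_mul_pq, pow_orderOf_eq_one, mul_one] at h6
      exact h6
    have h6 : pp p c ∈ Subgroup.zpowers (pp p c ^ orderOf (pq p c)) := by
      rw [mem_zpowers_pow_iff]
      exact hcop.symm
    rw [← h5] at h6
    exact (Subgroup.zpowers_le.2 (Subgroup.pow_mem _ (Subgroup.mem_zpowers c) _)) h6
  have h4 : ((pp p c : N) : G) ∈ Subgroup.zpowers (c : G) := by
    obtain ⟨k, hk⟩ := h3
    exact ⟨k, by rw [← hk]; push_cast; rfl⟩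
  exact (Subgroup.zpowers_le.2 h4) h2

/-- the coefficient of a character of `G` along a star multiple -/
theorem orth (L : LD p B P e N b e' v ξ) [Fintype N] {η : N → ℂ}
    (hη : IsClassFunction (P.subgroupOf N) (fun x : P.subgroupOf N => η x))
    (hs : ∀ x ∈ P.subgroupOf N, v ∉ Subgroup.zpowers (x : G) → η x = 0)
    {χ : IrrCharacter G} (hχ : χ ∉ B) :
    classInner (fun n : N => (χ : G → ℂ) n) (st p (P.subgroupOf N) e' η (ξ : N → ℂ)) = 0 := by
  set θ := st p (P.subgroupOf N) e' η (ξ : N → ℂ) with hθ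
  have hf : IsClassFunction N (fun n : N => (χ : G → ℂ) n) := (χ.2.isCharacter.restrict N).isClassFunction
  have h1 : classInner (fun n : N => (χ : G → ℂ) n) θ =
      classInner (fun c => blockPart b (fun n : N => (χ : G → ℂ) n) c) θ := by
    have h2 : (fun c => blockPart b (fun n : N => (χ : G → ℂ) n) c) =
        ∑ ζ ∈ fs b, classInner (fun n : N => (χ : G → ℂ) n) (ζ : N → ℂ) • (ζ : N → ℂ) := by
      funext c
      rw [blockPart_eq, Finset.sum_apply]
      rfl
    rw [h2]
    conv_lhs => rw [hf.expansion]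
    rw [IndFun.classInner_sum_left, IndFun.classInner_sum_left]
    symm
    refine Finset.sum_subset (Finset.subset_univ _) fun ζ _ hζ => ?_
    rw [IndFun.classInner_smul_left, ← IndFun.classInner_conj_symm θ,
      L.loc.st_orth (η := η) L.hξ (fun hc => hζ (mem_fs.2 hc)), map_zero, mul_zero]
  rw [h1]
  unfold classInner
  rw [Finset.sum_eq_zero, mul_zero]
  intro c _
  by_cases hc : v ∈ Subgroup.zpowers (c : G)
  · show blockPart b (fun n : N => (χ : G → ℂ) n) c * _ = 0
    rw [L.res_zero hχ hc, zero_mul]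
  · rw [hθ, L.st_supp hη hs hc, map_zero, mul_zero]

/-- the character of the defect group attached to a character of `G` -/
noncomputable def _root_.Cfsg.Agent.Lib.Tame.tv (p : ℕ) [Fact p.Prime] {M : Ideal AlgInt} [M.IsMaximal]
    {G : Type u} [Group G] [Finite G] (P : Subgroup G) {N : Subgroup G} (e' : MonoidAlgebra (Kf M) N)
    (ξ : IrrCharacter N) (χ : IrrCharacter G) : P.subgroupOf N → ℂ :=
  tt p (P.subgroupOf N) e' (ξ : N → ℂ) (fun n : N => (χ : G → ℂ) n)

theorem tv_gen (L : LD p B P e N b e' v ξ) (χ : IrrCharacter G) :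
    IsGeneralizedCharacter (P.subgroupOf N) (tv p P e' ξ χ) :=
  tt_gen L.loc L.inn L.hξ L.h0 (χ.2.isCharacter.restrict N).isGeneralized

/-- isometry -/
theorem isometry (L : LD p B P e N b e' v ξ) [Fintype (P.subgroupOf N)] {η η' : N → ℂ}
    (hη : IsClassFunction (P.subgroupOf N) (fun x : P.subgroupOf N => η x))
    (hs : ∀ x ∈ P.subgroupOf N, v ∉ Subgroup.zpowers (x : G) → η x = 0)
    (hη' : IsClassFunction (P.subgroupOf N) (fun x : P.subgroupOf N => η' x))
    (hs' : ∀ x ∈ P.subgroupOf N, v ∉ Subgroup.zpowers (x : G) → η' x = 0) :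
    ∑ χ ∈ fs B, classInner (tv p P e' ξ χ) (fun x : P.subgroupOf N => η x) *
      conj (classInner (tv p P e' ξ χ) (fun x : P.subgroupOf N => η' x)) =
      classInner (fun x : P.subgroupOf N => η' x) (fun x : P.subgroupOf N => η x) := by
  have := Fintype.ofFinite G
  have := Fintype.ofFinite N
  set θ := st p (P.subgroupOf N) e' η (ξ : N → ℂ) with hθ
  set θ' := st p (P.subgroupOf N) e' η' (ξ : N → ℂ) with hθ'
  have hcl : IsClassFunction N θ := F_class (Wt_conj (sta_of_class L.inn hη)) ξ.2.isClassFunction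
  have hcl' : IsClassFunction N θ' := F_class (Wt_conj (sta_of_class L.inn hη')) ξ.2.isClassFunction
  have e1 : ∀ χ : IrrCharacter G, classInner (tv p P e' ξ χ) (fun x : P.subgroupOf N => η x) =
      classInner (χ : G → ℂ) (indFun N θ) := by
    intro χ
    rw [IndFun.frobenius_reciprocity' N θ _ χ.2.isClassFunction]
    exact (tt_inner (ξ : N → ℂ) _ hη).symm
  have e2 : ∀ χ : IrrCharacter G, classInner (tv p P e' ξ χ) (fun x : P.subgroupOf N => η' x) =
      classInner (χ : G → ℂ) (indFun N θ') := by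
    intro χ
    rw [IndFun.frobenius_reciprocity' N θ' _ χ.2.isClassFunction]
    exact (tt_inner (ξ : N → ℂ) _ hη').symm
  have e3 : classInner (fun x : P.subgroupOf N => η' x) (fun x : P.subgroupOf N => η x) =
      classInner (indFun N θ') (indFun N θ) := by
    rw [← L.loc.inner_star L.inn L.hξ L.h0 hη' hη]
    symm
    apply IndFun.classInner_indFun_ti {c : G | v ∈ Subgroup.zpowers c} N
    · intro g hg t ht ht'
      exact absurd (L.ti ht ht') hg
    · intro x hx
      exact L.st_supp hη' hs' hx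
    · exact hcl
    · intro x hx
      exact L.st_supp hη hs hx
    · by_cases hv1 : v ∈ Subgroup.zpowers ((1 : N) : G)
      · -- `v = 1`
        exfalso
        apply L.v1
        have h1 : Subgroup.zpowers ((1 : N) : G) = ⊥ := Subgroup.zpowers_one_eq_bot
        rw [h1] at hv1
        exact Subgroup.mem_bot.1 hv1
      · exact L.st_supp hη' hs' hv1
  rw [e3]
  have e4 : classInner (indFun N θ') (indFun N θ) = ∑ χ : IrrCharacter G,
      classInner (indFun N θ') (χ : G → ℂ) * classInner (χ : G → ℂ) (indFun N θ) := by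
    conv_lhs => rw [(IndFun.indFun_isClassFunction N θ').expansion, IndFun.classInner_sum_left]
    refine Finset.sum_congr rfl fun χ _ => ?_
    rw [IndFun.classInner_smul_left]
  rw [e4]
  have e5 : ∑ χ ∈ fs B, classInner (tv p P e' ξ χ) (fun x : P.subgroupOf N => η x) *
      conj (classInner (tv p P e' ξ χ) (fun x : P.subgroupOf N => η' x)) =
      ∑ χ ∈ fs B, classInner (indFun N θ') (χ : G → ℂ) * classInner (χ : G → ℂ) (indFun N θ) := by
    refine Finset.sum_congr rfl fun χ _ => ?_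
    rw [e1, e2, IndFun.classInner_conj_symm, mul_comm]
  rw [e5]
  refine Finset.sum_subset (Finset.subset_univ _) fun χ _ hχ => ?_
  have h1 := L.orth hη hs (fun hc => hχ (mem_fs.2 hc))
  rw [IndFun.frobenius_reciprocity' N θ _ χ.2.isClassFunction]
  rw [show classInner (fun h : N => (χ : G → ℂ) h) θ = 0 from h1, mul_zero]

/-- orthogonality with other columns -/
theorem col_orth (L : LD p B P e N b e' v ξ) [Fintype (P.subgroupOf N)] {η : N → ℂ}
    (hη : IsClassFunction (P.subgroupOf N) (fun x : P.subgroupOf N => η x))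
    (hs : ∀ x ∈ P.subgroupOf N, v ∉ Subgroup.zpowers (x : G) → η x = 0) {g : G}
    (hg : ∀ h : G, v ∉ Subgroup.zpowers (h * g * h⁻¹)) :
    ∑ χ ∈ fs B, conj (classInner (tv p P e' ξ χ) (fun x : P.subgroupOf N => η x)) * (χ : G → ℂ) g = 0 := by
  have := Fintype.ofFinite G
  have := Fintype.ofFinite N
  set θ := st p (P.subgroupOf N) e' η (ξ : N → ℂ) with hθ
  have e1 : ∀ χ : IrrCharacter G, classInner (tv p P e' ξ χ) (fun x : P.subgroupOf N => η x) =
      classInner (χ : G → ℂ) (indFun N θ) := by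
    intro χ
    rw [IndFun.frobenius_reciprocity' N θ _ χ.2.isClassFunction]
    exact (tt_inner (ξ : N → ℂ) _ hη).symm
  have h1 : indFun N θ g = 0 := by
    rw [IndFun.indFun_apply, Finset.sum_eq_zero, mul_zero]
    intro x _
    by_cases hx : x⁻¹ * g * x ∈ N
    · rw [IndFun.extendByZero_mem _ _ hx]
      apply L.st_supp hη hs
      have := hg x⁻¹
      rwa [inv_inv] at this
    · exact IndFun.extendByZero_not_mem _ _ hx
  rw [(IndFun.indFun_isClassFunction N θ).expansion_apply g] at h1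
  rw [← h1]
  have h2 : ∀ χ : IrrCharacter G, conj (classInner (tv p P e' ξ χ) (fun x : P.subgroupOf N => η x)) * (χ : G → ℂ) g =
      classInner (indFun N θ) (χ : G → ℂ) * (χ : G → ℂ) g := by
    intro χ
    rw [e1, IndFun.classInner_conj_symm]
  rw [Finset.sum_congr rfl fun χ _ => h2 χ]
  refine Finset.sum_subset (Finset.subset_univ _) fun χ _ hχ => ?_
  have h3 := L.orth hη hs (fun hc => hχ (mem_fs.2 hc))
  rw [← h2, e1, IndFun.frobenius_reciprocity' N θ _ χ.2.isClassFunction,
    show classInner (fun h : N => (χ : G → ℂ) h) θ = 0 from h3, map_zero, zero_mul]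

end LD

end Cfsg.Agent.Lib.Tame
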