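import Cfsg.Agent.Lib.TameY

/-!
# Integral data for quaternion and semidihedral defect groups
-/

set_option autoImplicit false
set_option linter.all false
set_option maxHeartbeats 400000

namespace Cfsg.Agent.Lib.Tame

open Cfsg Cfsg.Agent.Lib.BlockRing Cfsg.Agent.Lib.BlockGA Cfsg.Agent.Lib.BlockAlg
open Cfsg.Agent.Lib.BlkIdem Cfsg.Agent.Lib.PairAlg Cfsg.Agent.Lib.PairMax
open Cfsg.Agent.Lib.BlockIdem Cfsg.Agent.Lib.BlockSecond Cfsg.Agent.Lib.BrauerPairs
open Cfsg.Agent.Lib.BlkFus Cfsg.Agent.Lib.InducedPair Cfsg.Agent.Lib.DefPairs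
open Cfsg.Agent.Lib.BlkFusDef Cfsg.Agent.Lib.BlkTransport Cfsg.Agent.Lib.BlkNil
open Cfsg.Agent.Lib.H25BpLift Cfsg.Agent.Lib.H25BpTw Cfsg.Agent.Lib.H25BpF Cfsg.Agent.Lib.H25BpI
open Cfsg.Agent.Lib.H25BpE Cfsg.Agent.Lib.H25BpG Cfsg.Agent.Lib.H25BpW Cfsg.Agent.Lib.H25BpM
open Cfsg.Agent.Lib.H25BpS Cfsg.Agent.Lib.TameFour
open Cfsg.Agent.Lib.BlockCount (Bl D rsp rsp_orth sum_blockPart blockRank_eq)
open Cfsg.Agent.Lib.Subsec (Cz mem_Cz fs mem_fs)
open scoped ComplexConjugate Classical Pointwise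

universe u

section par

variable {m : ℕ} [NeZero m] (h2 : 2 ∣ m)

/-- parity -/
def pr : ZMod m →+* ZMod 2 := ZMod.castHom h2 (ZMod 2)

theorem pr_val (a : ZMod m) : pr h2 a = ((a.val : ℕ) : ZMod 2) := by
  conv_lhs => rw [← ZMod.natCast_zmod_val a]
  rw [map_natCast]

theorem neg_one_pow_val (a : ZMod m) : (-1 : ℤ) ^ a.val = if pr h2 a = 0 then 1 else -1 := by
  split_ifs with h
  · rw [pr_val, ZMod.natCast_eq_zero_iff_even] at h
    exact h.neg_one_pow
  · rw [pr_val, ZMod.natCast_eq_zero_iff_even, Nat.not_even_iff_odd] at h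
    exact h.neg_one_pow

/-- even and odd residues -/
def Ev : Finset (ZMod m) := Finset.univ.filter (fun a => pr h2 a = 0)

def Od : Finset (ZMod m) := Finset.univ.filter (fun a => pr h2 a ≠ 0)

theorem mem_Ev {a : ZMod m} : a ∈ Ev h2 ↔ pr h2 a = 0 := by simp [Ev]

theorem mem_Od {a : ZMod m} : a ∈ Od h2 ↔ pr h2 a ≠ 0 := by simp [Od]

theorem sum_Ev_Od {A : Type*} [AddCommMonoid A] (f : ZMod m → A) : ∑ a ∈ Ev h2, f a + ∑ a ∈ Od h2, f a = ∑ a, f a :=
  Finset.sum_filter_add_sum_filter_not Finset.univ _ f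

theorem card_Ev_Od : (Ev (m := m) h2).card = m / 2 ∧ (Od (m := m) h2).card = m / 2 := by
  have h1 : (Ev (m := m) h2).card = (Od (m := m) h2).card := by
    apply Finset.card_bij (fun a _ => a + 1)
    · intro a ha
      rw [mem_Ev] at ha
      rw [mem_Od, map_add, ha, map_one]
      decide
    · intro a _ b _ hab
      exact add_right_cancel hab
    · intro b hb
      rw [mem_Od] at hb
      refine ⟨b - 1, ?_, by ring⟩
      rw [mem_Ev, map_sub, map_one]
      have : ∀ c : ZMod 2, c ≠ 0 → c - 1 = 0 := by decide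
      exact this _ hb
  have h3 : (Ev (m := m) h2).card + (Od (m := m) h2).card = m := by
    have := sum_Ev_Od (m := m) h2 (fun _ => 1)
    rw [← Finset.card_eq_sum_ones, ← Finset.card_eq_sum_ones, ← Finset.card_eq_sum_ones] at this
    rw [this, Finset.card_univ, ZMod.card]
  omega

theorem pr_s {s : ZMod m} (hs : s * s = 1) (a : ZMod m) : pr h2 (s * a) = pr h2 a := by
  have h1 : pr h2 s * pr h2 s = 1 := by rw [← map_mul, hs, map_one]
  have h3 : ∀ c : ZMod 2, c * c = 1 → c = 1 := by decide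
  rw [map_mul, h3 _ h1, one_mul]

end par

namespace LD

variable {M : Ideal AlgInt} [hMm : M.IsMaximal] [hchar : CharP (Kf M) 2]
  {G : Type u} [Group G] [Finite G] {B : Set (IrrCharacter G)} {P : Subgroup G} {e : MonoidAlgebra (Kf M) G}
  {N : Subgroup G} {b : Set (IrrCharacter N)} {e' : MonoidAlgebra (Kf M) N} {v : G}
  {ξ : IrrCharacter N} {m : ℕ} [NeZero m] {x : P.subgroupOf N} {s : ZMod m} {r : ℕ}
  (L : LD 2 B P e N b e' v ξ) (S : QS m x s r)

/-- values at `1` and at the central involution -/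
noncomputable def T1 (χ : IrrCharacter G) : ℤ := ∑ a, L.nn S.toCyc2 χ a

noncomputable def T2 (χ : IrrCharacter G) : ℤ := ∑ a, L.nn S.toCyc2 χ a * (-1) ^ a.val

noncomputable def sg (χ : IrrCharacter G) : ℤ := L.nn S.toCyc2 χ 0 - L.nn S.toCyc2 χ ((m / 2 : ℕ) : ZMod m)

/-- twisted variances -/
noncomputable def VV (T : Finset (ZMod m)) (χ : IrrCharacter G) : ℤ :=
  ((m / 2 : ℕ) : ℤ) * ∑ a ∈ T, L.nn S.toCyc2 χ a ^ 2 - (∑ a ∈ T, L.nn S.toCyc2 χ a) ^ 2

theorem tv_T1 (χ : IrrCharacter G) : tv 2 P e' ξ χ 1 = (L.T1 S χ : ℂ) := by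
  rw [← xp_zero S.hx, L.tv_xp S.toCyc2]
  unfold T1
  push_cast
  refine Finset.sum_congr rfl fun a _ => ?_
  rw [mul_zero, ev_zero, mul_one]

theorem tv_T2 (χ : IrrCharacter G) : tv 2 P e' ξ χ (xp x ((m / 2 : ℕ) : ZMod m)) = (L.T2 S χ : ℂ) := by
  rw [L.tv_xp S.toCyc2]
  unfold T2
  push_cast
  refine Finset.sum_congr rfl fun a _ => ?_
  rw [ev_mul_half (two_dvd_m S.hr S.hm)]

theorem T1_eq (h2 : 2 ∣ m) (χ : IrrCharacter G) : L.T1 S χ = ∑ a ∈ Ev h2, L.nn S.toCyc2 χ a + ∑ a ∈ Od h2, L.nn S.toCyc2 χ a :=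
  (sum_Ev_Od h2 _).symm

theorem T2_eq (h2 : 2 ∣ m) (χ : IrrCharacter G) : L.T2 S χ = ∑ a ∈ Ev h2, L.nn S.toCyc2 χ a - ∑ a ∈ Od h2, L.nn S.toCyc2 χ a := by
  unfold T2
  rw [← sum_Ev_Od h2, sub_eq_add_neg, ← Finset.sum_neg_distrib]
  congr 1
  · refine Finset.sum_congr rfl fun a ha => ?_
    rw [neg_one_pow_val h2, if_pos ((mem_Ev h2).1 ha), mul_one]
  · refine Finset.sum_congr rfl fun a ha => ?_
    rw [neg_one_pow_val h2, if_neg ((mem_Od h2).1 ha)]
    ring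

/-- good vectors -/
theorem good_of (hv : xg x ((m / 4 : ℕ) : ZMod m) = v) {μ : ZMod m → ℤ} (h0 : ∑ a, μ a = 0)
    (h1 : ∑ a, μ a * (-1) ^ a.val = 0) : L.Good S.toCyc2 μ := by
  intro i hi
  have hi2 : i = 0 ∨ i = ((m / 2 : ℕ) : ZMod m) := by
    by_contra hcon
    push Not at hcon
    exact hi (v_mem S hv hcon.1 hcon.2)
  have e0 : hat (fun a => (μ a : ℂ)) (0 : ZMod m) = 0 := by
    unfold hat
    simp only [mul_zero, ev_zero, mul_one]
    exact_mod_cast h0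
  have e1 : hat (fun a => (μ a : ℂ)) ((m / 2 : ℕ) : ZMod m) = 0 := by
    unfold hat
    simp only [ev_mul_half (two_dvd_m S.hr S.hm)]
    exact_mod_cast h1
  rcases hi2 with h | h
  · rw [h, mul_zero, e0, add_zero]
  · rw [h, S.s_half, e1, add_zero]

/-- good vectors supported on a parity class -/
theorem good_T (hv : xg x ((m / 4 : ℕ) : ZMod m) = v) {h2 : 2 ∣ m} {T : Finset (ZMod m)} (hT : T = Ev h2 ∨ T = Od h2)
    {μ : ZMod m → ℤ} (hμ : ∀ a, a ∉ T → μ a = 0) (h0 : ∑ a ∈ T, μ a = 0) : L.Good S.toCyc2 μ := by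
  have e1 : ∑ a, μ a = ∑ a ∈ T, μ a := (Finset.sum_subset (Finset.subset_univ T) fun a _ ha => hμ a ha).symm
  have e2 : ∑ a, μ a * (-1) ^ a.val = ∑ a ∈ T, μ a * (-1) ^ a.val :=
    (Finset.sum_subset (Finset.subset_univ T) fun a _ ha => by rw [hμ a ha, zero_mul]).symm
  apply L.good_of S hv
  · rw [e1, h0]
  · rw [e2]
    rcases hT with h | h
    · rw [← h0]
      refine Finset.sum_congr rfl fun a ha => ?_
      rw [h] at ha
      rw [neg_one_pow_val h2, if_pos ((mem_Ev h2).1 ha), mul_one]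
    · have : ∑ a ∈ T, μ a * (-1) ^ a.val = - ∑ a ∈ T, μ a := by
        rw [← Finset.sum_neg_distrib]
        refine Finset.sum_congr rfl fun a ha => ?_
        rw [h] at ha
        rw [neg_one_pow_val h2, if_neg ((mem_Od h2).1 ha)]
        ring
      rw [this, h0, neg_zero]

/-- the trace of the twisted variances -/
theorem sum_VV (hv : xg x ((m / 4 : ℕ) : ZMod m) = v) {h2 : 2 ∣ m} {T : Finset (ZMod m)} (hT : T = Ev h2 ∨ T = Od h2) :
    ((m / 2 : ℕ) : ℤ) * ∑ χ ∈ fs B, L.VV S T χ =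
      ∑ a ∈ T, (((m / 2 : ℕ) : ℤ) ^ 2 * (1 + if s * a = a then 1 else 0) - 2 * ((m / 2 : ℕ) : ℤ)) := by
  set k : ℤ := ((m / 2 : ℕ) : ℤ) with hk
  have hTc : (T.card : ℤ) = k := by
    rcases hT with h | h
    · rw [h, (card_Ev_Od h2).1]
    · rw [h, (card_Ev_Od h2).2]
  have hTs : ∀ a, s * a ∈ T ↔ a ∈ T := by
    intro a
    rcases hT with h | h
    · rw [h, mem_Ev, mem_Ev, pr_s h2 S.hs]
    · rw [h, mem_Od, mem_Od, pr_s h2 S.hs]
  -- the vectors
  let μ : ZMod m → ZMod m → ℤ := fun a c => if c ∈ T then (if c = a then k - 1 else -1) else 0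
  have hμ0 : ∀ a, ∀ c, c ∉ T → μ a c = 0 := fun a c hc => if_neg hc
  have hμ1 : ∀ a ∈ T, ∀ f : ZMod m → ℤ, ∑ c ∈ T, μ a c * f c = k * f a - ∑ c ∈ T, f c := by
    intro a ha f
    have h1 : ∀ c ∈ T, μ a c * f c = (if c = a then k * f c else 0) - f c := by
      intro c hc
      simp only [μ]
      rw [if_pos hc]
      split_ifs <;> ring
    rw [Finset.sum_congr rfl h1, Finset.sum_sub_distrib, Finset.sum_ite_eq', if_pos ha]
  have hgood : ∀ a ∈ T, L.Good S.toCyc2 (μ a) := by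
    intro a ha
    apply L.good_T S hv hT (hμ0 a)
    have := hμ1 a ha (fun _ => 1)
    simp only [mul_one, Finset.sum_const, nsmul_eq_mul] at this
    rw [this, hTc, sub_self]
  have hww : ∀ a ∈ T, ∀ χ, L.ww S.toCyc2 (μ a) χ = k * L.nn S.toCyc2 χ a - ∑ c ∈ T, L.nn S.toCyc2 χ c := by
    intro a ha χ
    unfold ww
    rw [← hμ1 a ha]
    exact (Finset.sum_subset (Finset.subset_univ T) fun c _ hc => by rw [hμ0 a c hc, zero_mul]).symm
  have hgram : ∀ a ∈ T, ∑ χ ∈ fs B, L.ww S.toCyc2 (μ a) χ * L.ww S.toCyc2 (μ a) χ =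
      k ^ 2 * (1 + if s * a = a then 1 else 0) - 2 * k := by
    intro a ha
    rw [L.gram S.toCyc2 (hgood a ha) (hgood a ha)]
    have e1 : ∑ c, μ a c * (μ a c + μ a (s * c)) = ∑ c ∈ T, μ a c * (μ a c + μ a (s * c)) :=
      (Finset.sum_subset (Finset.subset_univ T) fun c _ hc => by rw [hμ0 a c hc, zero_mul]).symm
    rw [e1, hμ1 a ha (fun c => μ a c + μ a (s * c)), Finset.sum_add_distrib]
    have e2 : ∑ c ∈ T, μ a c = 0 := by
      have := hμ1 a ha (fun _ => 1)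
      simp only [mul_one, Finset.sum_const, nsmul_eq_mul] at this
      rw [this, hTc, sub_self]
    have e3 : ∑ c ∈ T, μ a (s * c) = 0 := by
      rw [← e2]
      apply Finset.sum_bij (fun c _ => s * c)
      · intro c hc; exact (hTs c).2 hc
      · intro c _ d _ hcd
        have : s * (s * c) = s * (s * d) := by rw [hcd]
        rwa [← mul_assoc, ← mul_assoc, S.hs, one_mul, one_mul] at this
      · intro c hc
        refine ⟨s * c, (hTs c).2 hc, ?_⟩
        rw [← mul_assoc, S.hs, one_mul]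
      · intro c _; rfl
    rw [e2, e3]
    simp only [μ]
    rw [if_pos ha, if_pos ((hTs a).2 ha)]
    simp only [if_true]
    split_ifs <;> ring
  -- sum
  have hVV : ∀ χ, ∑ a ∈ T, L.ww S.toCyc2 (μ a) χ * L.ww S.toCyc2 (μ a) χ = k * L.VV S T χ := by
    intro χ
    set E := ∑ c ∈ T, L.nn S.toCyc2 χ c with hE
    have h1 : ∀ a ∈ T, L.ww S.toCyc2 (μ a) χ * L.ww S.toCyc2 (μ a) χ =
        k ^ 2 * L.nn S.toCyc2 χ a ^ 2 - 2 * k * E * L.nn S.toCyc2 χ a + E ^ 2 := by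
      intro a ha
      rw [hww a ha χ]
      ring
    rw [Finset.sum_congr rfl h1, Finset.sum_add_distrib, Finset.sum_sub_distrib, ← Finset.mul_sum, ← Finset.mul_sum,
      Finset.sum_const, nsmul_eq_mul, hTc, ← hE]
    unfold VV
    rw [← hE]
    ring
  rw [Finset.mul_sum, ← Finset.sum_congr rfl fun χ _ => hVV χ, Finset.sum_comm]
  exact Finset.sum_congr rfl hgram

end LD

end Cfsg.Agent.Lib.Tame
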