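import Cfsg.Agent.Lib.TameH

/-!
# Integral data for quaternion and semidihedral defect groups, II
-/

set_option autoImplicit false
set_option linter.all false
set_option maxHeartbeats 400000

namespace Cfsg.Agent.Lib.Tame

open Cfsg Cfsg.Agent.Lib.BlockRing Cfsg.Agent.Lib.BlockGA Cfsg.Agent.Lib.BlockAlg
open Cfsg.Agent.Lib.BlkIdem Cfsg.Agent.Lib.PairAlg Cfsg.Agent.Lib.PairMax
open Cfsg.Agent.Lib.BlockIdem Cfsg.Agent.Lib.BlockSecond Cfsg.Agent.Lib.BrauerPairs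
open Cfsg.Agent.Lib.BlkFus Cfsg.Agent.Lib.InducedPair Cfsg.Agent.Lib.DefPairs
open Cfsg.Agent.Lib.BlkFusDef Cfsg.Agent.Lib.BlkTransport Cfsg.Agent.Lib.BlkNil
open Cfsg.Agent.Lib.H25BpLift Cfsg.Agent.Lib.H25BpTw Cfsg.Agent.Lib.H25BpF Cfsg.Agent.Lib.H25BpI
open Cfsg.Agent.Lib.H25BpE Cfsg.Agent.Lib.H25BpG Cfsg.Agent.Lib.H25BpW Cfsg.Agent.Lib.H25BpM
open Cfsg.Agent.Lib.H25BpS Cfsg.Agent.Lib.TameFour
open Cfsg.Agent.Lib.BlockCount (Bl D rsp rsp_orth sum_blockPart blockRank_eq)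
open Cfsg.Agent.Lib.Subsec (Cz mem_Cz fs mem_fs)
open scoped ComplexConjugate Classical Pointwise

universe u

/-! ### integral families of small variance -/

section vc

variable {ι : Type*} {T : Finset ι} {f : ι → ℤ} {q : ℤ}

theorem vclass (hq : 0 < q) (hk : (T.card : ℤ) = 2 * q) (hV : 2 * q * ∑ a ∈ T, f a ^ 2 - (∑ a ∈ T, f a) ^ 2 < 4 * q) :
    ((2 : ℤ) ∣ ∑ a ∈ T, f a →
      (2 * q * ∑ a ∈ T, f a ^ 2 - (∑ a ∈ T, f a) ^ 2 = 0 ∧ ∃ c, ∀ a ∈ T, f a = c) ∨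
      (1 < q ∧ 2 * q * ∑ a ∈ T, f a ^ 2 - (∑ a ∈ T, f a) ^ 2 = 4 * q - 4)) ∧
    (¬ (2 : ℤ) ∣ ∑ a ∈ T, f a →
      (2 * q * ∑ a ∈ T, f a ^ 2 - (∑ a ∈ T, f a) ^ 2 = 2 * q - 1) ∨
      ((q = 3 ∨ q = 4) ∧ 2 * q * ∑ a ∈ T, f a ^ 2 - (∑ a ∈ T, f a) ^ 2 = 6 * q - 9)) := by
  set E := ∑ a ∈ T, f a with hE
  obtain ⟨c, δ, hδ, hδ1, hδ2⟩ : ∃ c δ : ℤ, E = 2 * q * c + δ ∧ -q ≤ δ ∧ δ ≤ q := by
    refine ⟨(E + q) / (2 * q), (E + q) % (2 * q) - q, ?_, ?_, ?_⟩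
    · have := Int.mul_ediv_add_emod (E + q) (2 * q)
      linarith
    · have := Int.emod_nonneg (E + q) (show (2 * q) ≠ 0 by omega)
      linarith
    · have := Int.emod_lt_of_pos (E + q) (show 0 < 2 * q by omega)
      linarith
  set Sq := ∑ a ∈ T, (f a - c) ^ 2 with hSq
  have h1 : ∑ a ∈ T, f a ^ 2 = Sq + 2 * c * E - 2 * q * c ^ 2 := by
    rw [hSq, hE, Finset.mul_sum, ← hk]
    have : (T.card : ℤ) * c ^ 2 = ∑ a ∈ T, c ^ 2 := by rw [Finset.sum_const, nsmul_eq_mul]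
    rw [this, ← Finset.sum_add_distrib, ← Finset.sum_sub_distrib]
    refine Finset.sum_congr rfl fun a _ => ?_
    ring
  have hδ3 : δ = ∑ a ∈ T, (f a - c) := by
    rw [Finset.sum_sub_distrib, Finset.sum_const, nsmul_eq_mul, hk, ← hE, hδ]
    ring
  have hV2 : 2 * q * ∑ a ∈ T, f a ^ 2 - E ^ 2 = 2 * q * Sq - δ ^ 2 := by
    rw [h1, hδ]; ring
  rw [hV2] at hV ⊢
  have hSnn : 0 ≤ Sq := Finset.sum_nonneg fun a _ => sq_nonneg _
  have habs : ∀ y : ℤ, y ≤ y ^ 2 ∧ -y ≤ y ^ 2 := by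
    intro y
    constructor
    · rcases le_or_gt y 0 with h | h
      · nlinarith [sq_nonneg y]
      · nlinarith
    · rcases le_or_gt 0 y with h | h
      · nlinarith [sq_nonneg y]
      · nlinarith
  have hd1 : δ ≤ Sq := by rw [hδ3]; exact Finset.sum_le_sum fun a _ => (habs _).1
  have hd2 : -δ ≤ Sq := by
    rw [hδ3, ← Finset.sum_neg_distrib]; exact Finset.sum_le_sum fun a _ => (habs _).2
  have hpar : (2 : ℤ) ∣ Sq - δ := by
    rw [hδ3, ← Finset.sum_sub_distrib]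
    apply Finset.dvd_sum
    intro a _
    have : (f a - c) ^ 2 - (f a - c) = (f a - c) * ((f a - c) - 1) := by ring
    rw [this]
    rcases Int.even_or_odd (f a - c) with h | h
    · exact (h.two_dvd).mul_right _
    · have : Even ((f a - c) - 1) := by
        obtain ⟨j, hj⟩ := h
        exact ⟨j, by omega⟩
      exact (this.two_dvd).mul_left _
  have hS4 : Sq < 4 := by
    have h3 : δ ^ 2 ≤ q * Sq := by
      rcases le_or_gt 0 δ with h | h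
      · nlinarith
      · nlinarith
    nlinarith
  have hEpar : (2 : ℤ) ∣ E ↔ (2 : ℤ) ∣ δ := by
    rw [hδ]
    constructor
    · intro h
      have h4 : (2 : ℤ) ∣ 2 * q * c := ⟨q * c, by ring⟩
      exact (dvd_add_right h4).1 h
    · intro h
      exact dvd_add ⟨q * c, by ring⟩ h
  rw [hEpar]
  have hcase : Sq = 0 ∨ Sq = 1 ∨ Sq = 2 ∨ Sq = 3 := by omega
  rcases hcase with h | h | h | h
  · rw [h] at hd1 hd2 hpar hV ⊢
    have hδ0 : δ = 0 := by omega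
    constructor
    · intro _
      left
      refine ⟨by rw [hδ0]; ring, c, ?_⟩
      intro a ha
      have h5 := (Finset.sum_eq_zero_iff_of_nonneg (fun a _ => sq_nonneg (f a - c))).1 h a ha
      have h6 : f a - c = 0 := by
        exact pow_eq_zero_iff (two_ne_zero) |>.1 h5
      linarith
    · intro h5
      exact absurd ⟨0, by rw [hδ0]; ring⟩ h5
  · rw [h] at hd1 hd2 hpar hV ⊢
    have hδ0 : δ = 1 ∨ δ = -1 := by omega
    have hδn : ¬ (2 : ℤ) ∣ δ := by omega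
    refine ⟨fun h5 => absurd h5 hδn, fun _ => Or.inl ?_⟩
    rcases hδ0 with h | h <;> rw [h] <;> ring
  · rw [h] at hd1 hd2 hpar hV ⊢
    have hδ0 : δ = 0 ∨ δ = 2 ∨ δ = -2 := by omega
    have hδn : (2 : ℤ) ∣ δ := by omega
    refine ⟨fun _ => Or.inr ?_, fun h5 => absurd hδn h5⟩
    rcases hδ0 with h | h | h
    · exfalso; rw [h] at hV; nlinarith
    · rw [h] at hδ2 ⊢
      exact ⟨by omega, by ring⟩
    · rw [h] at hδ1 ⊢
      exact ⟨by omega, by ring⟩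
  · rw [h] at hd1 hd2 hpar hV ⊢
    have hδ0 : δ = 1 ∨ δ = -1 ∨ δ = 3 ∨ δ = -3 := by omega
    have hδn : ¬ (2 : ℤ) ∣ δ := by omega
    refine ⟨fun h5 => absurd h5 hδn, fun _ => Or.inr ?_⟩
    rcases hδ0 with h | h | h | h
    · exfalso; rw [h] at hV; nlinarith
    · exfalso; rw [h] at hV; nlinarith
    · rw [h] at hδ2 hV ⊢
      exact ⟨by omega, by ring⟩
    · rw [h] at hδ1 hV ⊢
      exact ⟨by omega, by ring⟩

end vc

namespace LD

variable {M : Ideal AlgInt} [hMm : M.IsMaximal] [hchar : CharP (Kf M) 2]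
  {G : Type u} [Group G] [Finite G] {B : Set (IrrCharacter G)} {P : Subgroup G} {e : MonoidAlgebra (Kf M) G}
  {N : Subgroup G} {b : Set (IrrCharacter N)} {e' : MonoidAlgebra (Kf M) N} {v : G}
  {ξ : IrrCharacter N} {m : ℕ} [NeZero m] {x : P.subgroupOf N} {s : ZMod m} {r : ℕ}
  (L : LD 2 B P e N b e' v ξ) (S : QS m x s r)

omit [NeZero m] hMm hchar in
theorem _root_.Cfsg.Agent.Lib.Tame.pr_half [NeZero m] (hr : 2 ≤ r) (hm : m = 2 ^ r) (h2 : 2 ∣ m) :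
    pr h2 ((m / 2 : ℕ) : ZMod m) = 0 := by
  rw [map_natCast, ZMod.natCast_eq_zero_iff]
  have := four_dvd_m hr hm
  omega

/-- the sum of the variances over the block -/
theorem sum_Ve (hv : xg x ((m / 4 : ℕ) : ZMod m) = v) (h2 : 2 ∣ m) :
    ∑ χ ∈ fs B, L.VV S (Ev h2) χ = ((m / 2 : ℕ) : ℤ) ^ 2 := by
  have h1 := L.sum_VV S hv (T := Ev h2) (Or.inl rfl)
  have h3 : ((m / 2 : ℕ) : ℤ) ≠ 0 := by
    have := NeZero.pos m
    have : 0 < m / 2 := by omega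
    exact_mod_cast this.ne'
  have h4 : ∑ a ∈ Ev h2, (((m / 2 : ℕ) : ℤ) ^ 2 * (1 + if s * a = a then 1 else 0) - 2 * ((m / 2 : ℕ) : ℤ)) =
      ((m / 2 : ℕ) : ℤ) * ((m / 2 : ℕ) : ℤ) ^ 2 := by
    simp only [mul_add, mul_one, Finset.sum_sub_distrib, Finset.sum_add_distrib, Finset.sum_const, nsmul_eq_mul,
      (card_Ev_Od h2).1, mul_ite, mul_zero]
    rw [← Finset.sum_filter, Finset.sum_const, nsmul_eq_mul]
    have h5 : (Ev h2).filter (fun a => s * a = a) = {0, ((m / 2 : ℕ) : ZMod m)} := by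
      ext a
      rw [Finset.mem_filter, S.s_fix, mem_Ev, Finset.mem_insert, Finset.mem_singleton]
      constructor
      · rintro ⟨_, h⟩; exact h
      · intro h
        refine ⟨?_, h⟩
        rcases h with h | h
        · rw [h, map_zero]
        · rw [h, pr_half S.hr S.hm]
    rw [h5, Finset.card_pair (half_ne h2).symm]
    push_cast
    ring
  rw [h4] at h1
  exact mul_left_cancel₀ h3 h1

theorem sum_Vo (hv : xg x ((m / 4 : ℕ) : ZMod m) = v) (h2 : 2 ∣ m) :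
    ∑ χ ∈ fs B, L.VV S (Od h2) χ = ((m / 2 : ℕ) : ℤ) ^ 2 - 2 * ((m / 2 : ℕ) : ℤ) := by
  have h1 := L.sum_VV S hv (T := Od h2) (Or.inr rfl)
  have h3 : ((m / 2 : ℕ) : ℤ) ≠ 0 := by
    have := NeZero.pos m
    have : 0 < m / 2 := by omega
    exact_mod_cast this.ne'
  have h4 : ∑ a ∈ Od h2, (((m / 2 : ℕ) : ℤ) ^ 2 * (1 + if s * a = a then 1 else 0) - 2 * ((m / 2 : ℕ) : ℤ)) =
      ((m / 2 : ℕ) : ℤ) * (((m / 2 : ℕ) : ℤ) ^ 2 - 2 * ((m / 2 : ℕ) : ℤ)) := by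
    have h5 : ∀ a ∈ Od h2, (((m / 2 : ℕ) : ℤ) ^ 2 * (1 + if s * a = a then 1 else 0) - 2 * ((m / 2 : ℕ) : ℤ)) =
        ((m / 2 : ℕ) : ℤ) ^ 2 - 2 * ((m / 2 : ℕ) : ℤ) := by
      intro a ha
      rw [mem_Od] at ha
      rw [if_neg]
      · ring
      · rw [S.s_fix]
        rintro (h | h)
        · apply ha; rw [h, map_zero]
        · apply ha; rw [h, pr_half S.hr S.hm]
    rw [Finset.sum_congr rfl h5, Finset.sum_const, nsmul_eq_mul, (card_Ev_Od h2).2]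
  rw [h4] at h1
  exact mul_left_cancel₀ h3 h1

/-- parities -/
theorem par_Od (h2 : 2 ∣ m) (χ : IrrCharacter G) : (2 : ℤ) ∣ ∑ a ∈ Od h2, L.nn S.toCyc2 χ a := by
  have h1 : (2 : ℤ) = ((2 : ℕ) : ℤ) := rfl
  rw [h1, ← ZMod.intCast_zmod_eq_zero_iff_dvd]
  push_cast
  refine Finset.sum_involution (fun a _ => s * a) ?_ ?_ ?_ ?_
  · intro a _
    rw [L.nn_scale S.toCyc2]
    exact CharTwo.add_self_eq_zero _
  · intro a ha _ hcon
    rw [mem_Od] at ha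
    rcases S.s_fix.1 hcon with h | h
    · apply ha; rw [h, map_zero]
    · apply ha; rw [h, pr_half S.hr S.hm]
  · intro a ha
    rw [mem_Od] at ha ⊢
    rw [pr_s h2 S.hs]; exact ha
  · intro a _
    show s * (s * a) = a
    rw [← mul_assoc, S.hs, one_mul]

theorem par_Ev (h2 : 2 ∣ m) (χ : IrrCharacter G) : (2 : ℤ) ∣ ∑ a ∈ Ev h2, L.nn S.toCyc2 χ a - L.sg S χ := by
  have h1 : (2 : ℤ) = ((2 : ℕ) : ℤ) := rfl
  rw [h1, ← ZMod.intCast_zmod_eq_zero_iff_dvd]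
  unfold sg
  push_cast
  have h3 : ∑ a ∈ Ev h2, (L.nn S.toCyc2 χ a : ZMod 2) = (L.nn S.toCyc2 χ 0 : ZMod 2) +
      (L.nn S.toCyc2 χ ((m / 2 : ℕ) : ZMod m) : ZMod 2) := by
    rw [← Finset.sum_filter_add_sum_filter_not (Ev h2) (fun a : ZMod m => a = 0 ∨ a = ((m / 2 : ℕ) : ZMod m))]
    have h4 : (Ev h2).filter (fun a : ZMod m => a = 0 ∨ a = ((m / 2 : ℕ) : ZMod m)) =
        {0, ((m / 2 : ℕ) : ZMod m)} := by
      ext a
      rw [Finset.mem_filter, mem_Ev, Finset.mem_insert, Finset.mem_singleton]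
      constructor
      · rintro ⟨_, h⟩; exact h
      · intro h
        refine ⟨?_, h⟩
        rcases h with h | h
        · rw [h, map_zero]
        · rw [h, pr_half S.hr S.hm]
    rw [h4, Finset.sum_pair (half_ne h2).symm]
    have h5 : ∑ a ∈ (Ev h2).filter (fun a : ZMod m => ¬ (a = 0 ∨ a = ((m / 2 : ℕ) : ZMod m))),
        (L.nn S.toCyc2 χ a : ZMod 2) = 0 := by
      refine Finset.sum_involution (fun a _ => s * a) ?_ ?_ ?_ ?_
      · intro a _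
        rw [L.nn_scale S.toCyc2]
        exact CharTwo.add_self_eq_zero _
      · intro a ha _ hcon
        rw [Finset.mem_filter] at ha
        exact ha.2 (S.s_fix.1 hcon)
      · intro a ha
        rw [Finset.mem_filter, mem_Ev] at ha ⊢
        refine ⟨by rw [pr_s h2 S.hs]; exact ha.1, fun hcon => ha.2 ((s_H2 S).1 hcon)⟩
      · intro a _
        show s * (s * a) = a
        rw [← mul_assoc, S.hs, one_mul]
    rw [h5, add_zero]
  rw [h3]
  have h8 : ∀ u v : ZMod 2, u + v - (u - v) = 0 := by decide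
  exact h8 _ _

theorem sum_sg (hv : xg x ((m / 4 : ℕ) : ZMod m) = v) (h2 : 2 ∣ m) : ∑ χ ∈ fs B, L.sg S χ ^ 2 = 4 := by
  have hne : ((m / 2 : ℕ) : ZMod m) ≠ 0 := half_ne h2
  have h0 : ∀ a, a ∉ Ev h2 → mu ((m / 2 : ℕ) : ZMod m) a = 0 := by
    intro a ha
    rw [mem_Ev] at ha
    unfold mu
    rw [if_neg, if_neg, sub_self]
    · intro h; apply ha; rw [h, pr_half S.hr S.hm]
    · intro h; apply ha; rw [h, map_zero]
  have hg : L.Good S.toCyc2 (mu ((m / 2 : ℕ) : ZMod m)) := by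
    apply L.good_T S hv (Or.inl rfl) h0
    rw [← sum_mu (m := m) ((m / 2 : ℕ) : ZMod m)]
    exact Finset.sum_subset (Finset.subset_univ _) fun a _ ha => h0 a ha
  have h1 := L.gram S.toCyc2 hg hg
  rw [sum_mu_mul] at h1
  have h3 : ∀ χ, L.ww S.toCyc2 (mu ((m / 2 : ℕ) : ZMod m)) χ = L.sg S χ := by
    intro χ
    unfold ww sg
    exact sum_mu_mul _ _
  simp only [h3] at h1
  simp only [pow_two]
  rw [h1]
  unfold mu
  rw [mul_zero, if_pos rfl, if_neg hne.symm, S.s_half, if_neg hne, if_pos rfl]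
  norm_num

/-- the height as a valuation -/
theorem T1_val {χ : IrrCharacter G} (hχ : χ ∈ B) :
    (2 : ℤ) ^ blockHeight 2 B (χ : G → ℂ) ∣ L.T1 S χ ∧ ¬ (2 : ℤ) ^ (blockHeight 2 B (χ : G → ℂ) + 1) ∣ L.T1 S χ := by
  have h1 := L.tv_one_val hχ
  rw [L.tv_T1 S] at h1
  exact ⟨dvd_of_loc L.ctx.mod (by exact_mod_cast h1.1), not_dvd_of_idl L.ctx.mod (by exact_mod_cast h1.2)⟩

theorem par_T1 (χ : IrrCharacter G) : (2 : ℤ) ∣ L.T1 S χ - L.sg S χ := by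
  have h2 := two_dvd_m S.hr S.hm
  rw [L.T1_eq S h2]
  have h3 := dvd_add (L.par_Ev S h2 χ) (L.par_Od S h2 χ)
  have : ∑ a ∈ Ev h2, L.nn S.toCyc2 χ a - L.sg S χ + ∑ a ∈ Od h2, L.nn S.toCyc2 χ a =
    ∑ a ∈ Ev h2, L.nn S.toCyc2 χ a + ∑ a ∈ Od h2, L.nn S.toCyc2 χ a - L.sg S χ := by ring
  rwa [this] at h3

theorem ht_zero_iff_odd {χ : IrrCharacter G} (hχ : χ ∈ B) :
    blockHeight 2 B (χ : G → ℂ) = 0 ↔ ¬ (2 : ℤ) ∣ L.sg S χ := by
  have h1 := L.T1_val S hχ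
  have h2 := L.par_T1 S χ
  have h3 : (2 : ℤ) ∣ L.T1 S χ ↔ (2 : ℤ) ∣ L.sg S χ := by
    constructor
    · intro h
      have := dvd_sub h h2
      rwa [sub_sub_cancel] at this
    · intro h
      have := dvd_add h2 h
      rwa [sub_add_cancel] at this
  rw [← h3]
  constructor
  · intro h0
    rw [h0, zero_add, pow_one] at h1
    exact h1.2
  · intro h
    by_contra hne
    apply h
    exact (dvd_pow_self 2 hne).trans h1.1

theorem sg_small (hv : xg x ((m / 4 : ℕ) : ZMod m) = v) : ∀ χ ∈ fs B, L.sg S χ = 0 ∨ L.sg S χ = 1 ∨ L.sg S χ = -1 := by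
  obtain ⟨χ₀, hχ₀, h0⟩ := BlockDeg.exists_height_zero (p := 2) (isPBlock_nonempty L.ctx.blk)
  exact TameComb.sigma_small (L.sum_sg S hv (two_dvd_m S.hr S.hm)) (mem_fs.2 hχ₀) ((L.ht_zero_iff_odd S hχ₀).1 h0)

theorem ht_zero_iff (hv : xg x ((m / 4 : ℕ) : ZMod m) = v) {χ : IrrCharacter G} (hχ : χ ∈ B) :
    blockHeight 2 B (χ : G → ℂ) = 0 ↔ L.sg S χ ≠ 0 := by
  rw [L.ht_zero_iff_odd S hχ]
  rcases L.sg_small S hv χ (mem_fs.2 hχ) with h | h | h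
  · rw [h]; simp
  · rw [h]; norm_num
  · rw [h]; norm_num

include L S in
theorem card_H0 (hv : xg x ((m / 4 : ℕ) : ZMod m) = v) :
    ((fs B).filter (fun χ : IrrCharacter G => blockHeight 2 B (χ : G → ℂ) = 0)).card = 4 := by
  have h1 := TameComb.card_supp (L.sg_small S hv)
  rw [L.sum_sg S hv (two_dvd_m S.hr S.hm)] at h1
  have h2 : (fs B).filter (fun χ : IrrCharacter G => blockHeight 2 B (χ : G → ℂ) = 0) = (fs B).filter (fun χ : IrrCharacter G => L.sg S χ ≠ 0) := by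
    apply Finset.filter_congr
    intro χ hχ
    exact L.ht_zero_iff S hv (mem_fs.1 hχ)
  rw [h2]
  exact_mod_cast h1

end LD

end Cfsg.Agent.Lib.Tame
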