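import Cfsg.Agent.Lib.TameG
import Cfsg.Agent.Lib.TameFour

/-!
# Integral data attached to a block with a cyclic subgroup of index 2 in its defect group
-/

set_option autoImplicit false
set_option linter.all false
set_option maxHeartbeats 400000

namespace Cfsg.Agent.Lib.Tame

open Cfsg Cfsg.Agent.Lib.BlockRing Cfsg.Agent.Lib.BlockGA Cfsg.Agent.Lib.BlockAlg
open Cfsg.Agent.Lib.BlkIdem Cfsg.Agent.Lib.PairAlg Cfsg.Agent.Lib.PairMax
open Cfsg.Agent.Lib.BlockIdem Cfsg.Agent.Lib.BlockSecond Cfsg.Agent.Lib.BrauerPairs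
open Cfsg.Agent.Lib.BlkFus Cfsg.Agent.Lib.InducedPair Cfsg.Agent.Lib.DefPairs
open Cfsg.Agent.Lib.BlkFusDef Cfsg.Agent.Lib.BlkTransport Cfsg.Agent.Lib.BlkNil
open Cfsg.Agent.Lib.H25BpLift Cfsg.Agent.Lib.H25BpTw Cfsg.Agent.Lib.H25BpF Cfsg.Agent.Lib.H25BpI
open Cfsg.Agent.Lib.H25BpE Cfsg.Agent.Lib.H25BpG Cfsg.Agent.Lib.H25BpW Cfsg.Agent.Lib.H25BpM
open Cfsg.Agent.Lib.H25BpS Cfsg.Agent.Lib.TameFour
open Cfsg.Agent.Lib.BlockCount (Bl D rsp rsp_orth sum_blockPart blockRank_eq)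
open Cfsg.Agent.Lib.BlockPair (preg)
open Cfsg.Agent.Lib.Subsec (Cz mem_Cz al al_eq al_mem fs mem_fs sum_fs blockPart_eq D_reg D_not_reg D_mem
  zz eps eps_mul eps_pow un un_loc)
open MonoidAlgebra (single)
open scoped ComplexConjugate Classical Pointwise

universe u

variable {p : ℕ} [hp : Fact p.Prime] {M : Ideal AlgInt} [hMm : M.IsMaximal] [hchar : CharP (Kf M) p]
  {G : Type u} [Group G] [Finite G] {B : Set (IrrCharacter G)} {P : Subgroup G} {e : MonoidAlgebra (Kf M) G}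

/-- the cyclic maximal subgroup -/
structure Cyc2 {Q : Type u} [Group Q] (m : ℕ) [NeZero m] (x : Q) (s : ZMod m) : Prop where
  hx : orderOf x = m
  hs : s * s = 1
  hconj : ∀ y : Q, y ∉ Subgroup.zpowers x → y * x * y⁻¹ = xp x s
  hcard : Nat.card Q = 2 * m

namespace LD

variable {N : Subgroup G} {b : Set (IrrCharacter N)} {e' : MonoidAlgebra (Kf M) N} {v : G}
  {ξ : IrrCharacter N} {m : ℕ} [NeZero m] {x : P.subgroupOf N} {s : ZMod m}

/-- the integers attached to a character -/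
noncomputable def nn (L : LD p B P e N b e' v ξ) (C : Cyc2 m x s) (χ : IrrCharacter G) (a : ZMod m) : ℤ :=
  (cf_int C.hx C.hs C.hconj C.hcard (L.tv_gen χ) a).choose

theorem nn_spec (L : LD p B P e N b e' v ξ) (C : Cyc2 m x s) (χ : IrrCharacter G) (a : ZMod m) :
    cf (fun i => tv p P e' ξ χ (xp x i)) a = L.nn C χ a :=
  (cf_int C.hx C.hs C.hconj C.hcard (L.tv_gen χ) a).choose_spec

theorem nn_scale (L : LD p B P e N b e' v ξ) (C : Cyc2 m x s) (χ : IrrCharacter G) (a : ZMod m) :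
    L.nn C χ (s * a) = L.nn C χ a := by
  have h1 := cf_scale C.hx C.hs C.hconj (exists_not C.hx C.hs C.hconj C.hcard)
    (L.tv_gen χ).isClassFunction a
  rw [L.nn_spec C, L.nn_spec C] at h1
  exact_mod_cast h1

theorem tv_xp (L : LD p B P e N b e' v ξ) (C : Cyc2 m x s) (χ : IrrCharacter G) (i : ZMod m) :
    tv p P e' ξ χ (xp x i) = ∑ a, (L.nn C χ a : ℂ) * ev m (a * i) := by
  have h1 : tv p P e' ξ χ (xp x i) = ∑ a, cf (fun i => tv p P e' ξ χ (xp x i)) a * ev m (a * i) :=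
    cf_inv (fun i => tv p P e' ξ χ (xp x i)) i
  rw [h1]
  refine Finset.sum_congr rfl fun a _ => ?_
  rw [L.nn_spec C]

/-- good coefficient functions -/
def Good (L : LD p B P e N b e' v ξ) (C : Cyc2 m x s) (μ : ZMod m → ℤ) : Prop :=
  ∀ i : ZMod m, v ∉ Subgroup.zpowers (((xp x i : P.subgroupOf N) : N) : G) →
    hat (fun a => (μ a : ℂ)) i + hat (fun a => (μ a : ℂ)) (s * i) = 0

/-- the linear combinations of the integers -/
noncomputable def ww (L : LD p B P e N b e' v ξ) (C : Cyc2 m x s) (μ : ZMod m → ℤ) (χ : IrrCharacter G) : ℤ :=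
  ∑ a, μ a * L.nn C χ a

theorem inner_ww (L : LD p B P e N b e' v ξ) (C : Cyc2 m x s) [Fintype (P.subgroupOf N)] (μ : ZMod m → ℤ)
    (χ : IrrCharacter G) :
    classInner (tv p P e' ξ χ) (eta x s (fun a => (μ a : ℂ))) = (L.ww C μ χ : ℂ) := by
  rw [inner_eta C.hx C.hs C.hconj C.hcard (L.tv_gen χ).isClassFunction]
  unfold ww
  push_cast
  refine Finset.sum_congr rfl fun a _ => ?_
  rw [L.nn_spec C]
  simp

theorem eta_ext (L : LD p B P e N b e' v ξ) (μ : ZMod m → ℂ) :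
    (fun u : P.subgroupOf N => extendByZero (P.subgroupOf N) (eta x s μ) (u : N)) = eta x s μ := ext_res _

theorem eta_supp (L : LD p B P e N b e' v ξ) (C : Cyc2 m x s) {μ : ZMod m → ℤ} (hμ : L.Good C μ) :
    ∀ u ∈ P.subgroupOf N, v ∉ Subgroup.zpowers (u : G) →
      extendByZero (P.subgroupOf N) (eta x s (fun a => (μ a : ℂ))) u = 0 := by
  intro u hu hv
  rw [IndFun.extendByZero_mem _ _ hu]
  by_cases hux : (⟨u, hu⟩ : P.subgroupOf N) ∈ Subgroup.zpowers x
  · obtain ⟨i, hi⟩ := (mem_zpowers_iff C.hx).1 hux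
    rw [← hi, eta_xp C.hx]
    apply hμ
    rw [hi]
    exact hv
  · exact eta_not C.hx hux

theorem gram (L : LD p B P e N b e' v ξ) (C : Cyc2 m x s) {μ μ' : ZMod m → ℤ} (hμ : L.Good C μ)
    (hμ' : L.Good C μ') :
    ∑ χ ∈ fs B, L.ww C μ χ * L.ww C μ' χ = ∑ a, μ a * (μ' a + μ' (s * a)) := by
  have := Fintype.ofFinite (P.subgroupOf N)
  have hcl : ∀ μ : ZMod m → ℂ, IsClassFunction (P.subgroupOf N)
      (fun u : P.subgroupOf N => extendByZero (P.subgroupOf N) (eta x s μ) (u : N)) := by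
    intro μ
    rw [L.eta_ext]
    exact eta_class C.hx C.hs C.hconj μ
  have h1 := L.isometry (hcl _) (L.eta_supp C hμ) (hcl _) (L.eta_supp C hμ')
  rw [L.eta_ext, L.eta_ext, inner_eta_eta C.hx C.hs C.hconj C.hcard] at h1
  have h2 : ∀ χ : IrrCharacter G, classInner (tv p P e' ξ χ) (eta x s (fun a => (μ a : ℂ))) *
      conj (classInner (tv p P e' ξ χ) (eta x s (fun a => (μ' a : ℂ)))) =
      ((L.ww C μ χ * L.ww C μ' χ : ℤ) : ℂ) := by
    intro χ
    rw [L.inner_ww C, L.inner_ww C]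
    push_cast
    simp
  rw [Finset.sum_congr rfl fun χ _ => h2 χ] at h1
  have h3 : ((∑ χ ∈ fs B, L.ww C μ χ * L.ww C μ' χ : ℤ) : ℂ) = ((∑ a, μ a * (μ' a + μ' (s * a)) : ℤ) : ℂ) := by
    push_cast
    push_cast at h1
    rw [h1]
    refine Finset.sum_congr rfl fun a _ => ?_
    simp
  exact_mod_cast h3

theorem ww_col (L : LD p B P e N b e' v ξ) (C : Cyc2 m x s) {μ : ZMod m → ℤ} (hμ : L.Good C μ) {g : G}
    (hg : ∀ h : G, v ∉ Subgroup.zpowers (h * g * h⁻¹)) :
    ∑ χ ∈ fs B, (L.ww C μ χ : ℂ) * (χ : G → ℂ) g = 0 := by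
  have := Fintype.ofFinite (P.subgroupOf N)
  have hcl : ∀ μ : ZMod m → ℂ, IsClassFunction (P.subgroupOf N)
      (fun u : P.subgroupOf N => extendByZero (P.subgroupOf N) (eta x s μ) (u : N)) := by
    intro μ
    rw [L.eta_ext]
    exact eta_class C.hx C.hs C.hconj μ
  have h1 := L.col_orth (hcl _) (L.eta_supp C hμ) hg
  rw [L.eta_ext] at h1
  rw [← h1]
  refine Finset.sum_congr rfl fun χ _ => ?_
  rw [L.inner_ww C]
  simp

/-- indicator version of the isometry -/
theorem norm_central (L : LD p B P e N b e' v ξ) (z : P.subgroupOf N)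
    (hz : ∀ y : P.subgroupOf N, y * z * y⁻¹ = z) (hvz : v ∈ Subgroup.zpowers ((z : N) : G)) :
    ∑ χ ∈ fs B, tv p P e' ξ χ z * conj (tv p P e' ξ χ z) = (Nat.card P : ℂ) := by
  have := Fintype.ofFinite (P.subgroupOf N)
  set η : N → ℂ := fun u => if u = (z : N) then (Nat.card (P.subgroupOf N) : ℂ) else 0 with hη
  have hcl : IsClassFunction (P.subgroupOf N) (fun u : P.subgroupOf N => η u) := by
    intro u y
    simp only [hη]
    have : ((y * u * y⁻¹ : P.subgroupOf N) : N) = (z : N) ↔ ((u : P.subgroupOf N) : N) = (z : N) := by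
      constructor
      · intro h
        have h1 : y * u * y⁻¹ = z := Subtype.ext h
        have h2 : u = z := by
          rw [← hz y] at h1
          exact mul_left_cancel (mul_right_cancel h1)
        rw [h2]
      · intro h
        have h1 : u = z := Subtype.ext h
        rw [h1, hz]
    by_cases h : ((u : P.subgroupOf N) : N) = (z : N)
    · rw [if_pos (this.2 h), if_pos h]
    · rw [if_neg (fun h' => h (this.1 h')), if_neg h]
  have hs : ∀ u ∈ P.subgroupOf N, v ∉ Subgroup.zpowers (u : G) → η u = 0 := by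
    intro u _ hu
    simp only [hη]
    rw [if_neg]
    rintro rfl
    exact hu hvz
  have h1 := L.isometry hcl hs hcl hs
  have hP : (Nat.card (P.subgroupOf N) : ℂ) ≠ 0 := by exact_mod_cast Nat.card_pos.ne'
  have h2 : ∀ t : P.subgroupOf N → ℂ, classInner t (fun u : P.subgroupOf N => η u) = t z := by
    intro t
    unfold classInner
    rw [Finset.sum_eq_single z]
    · simp only [hη, if_pos, Complex.conj_natCast]
      rw [mul_comm (t z), inv_mul_cancel_left₀ hP]
    · intro u _ hu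
      simp only [hη]
      rw [if_neg (fun h => hu (Subtype.ext h)), map_zero, mul_zero]
    · intro h; exact absurd (Finset.mem_univ _) h
  simp only [h2] at h1
  rw [h1]
  simp only [hη, if_pos]
  rw [Nat.card_congr (Subgroup.subgroupOfEquivOfLe L.le).toEquiv]

end LD

end Cfsg.Agent.Lib.Tame
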