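import Mathlib

/-!
# Numerical analysis for quaternion and semidihedral defect groups
-/

set_option autoImplicit false
set_option linter.all false
set_option maxHeartbeats 400000

namespace Cfsg.Agent.Lib.Tame

open scoped Classical

variable {ι : Type*} {B : Finset ι} {h : ι → ℕ} {D : ℤ} {a : ι → ι → ℤ} {l : ℕ}

/-- contribution matrices -/
structure Con (B : Finset ι) (h : ι → ℕ) (D : ℤ) (a : ι → ι → ℤ) (l : ℕ) : Prop where
  symm : ∀ χ ψ, a χ ψ = a ψ χ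
  idem : ∀ χ θ, ∑ ψ ∈ B, a χ ψ * a ψ θ = D * a χ θ
  trace : ∑ χ ∈ B, a χ χ = D * l
  dvd : ∀ χ ∈ B, ∀ ψ, (2 : ℤ) ^ h χ ∣ a χ ψ
  ndvd : ∀ χ ∈ B, ∀ ψ ∈ B, h ψ = 0 → ¬ (2 : ℤ) ^ (h χ + 1) ∣ a χ ψ
  dvd' : ∀ χ ∈ B, ∀ ψ ∈ B, h ψ ≠ 0 → (2 : ℤ) ^ (h χ + 1) ∣ a χ ψ
  pos : ∀ χ ∈ B, 0 < a χ χ

namespace Con

theorem idem' (C : Con B h D a l) (χ θ : ι) : ∑ ψ ∈ B, a χ ψ * a θ ψ = D * a χ θ := by
  rw [← C.idem χ θ]
  exact Finset.sum_congr rfl fun φ _ => by rw [C.symm φ θ]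

theorem bessel (C : Con B h D a l) (hD : 0 < D) {K : Finset ι} (hK : K ⊆ B)
    (h0 : ∀ k ∈ K, ∀ k' ∈ K, k ≠ k' → a k k' = 0) : K.card ≤ l := by
  have hDq : (0 : ℚ) < D := by exact_mod_cast hD
  have e1 : ∀ χ θ, ∑ φ ∈ B, (a χ φ : ℚ) * a θ φ = D * a χ θ := by
    intro χ θ
    have := C.idem' χ θ
    exact_mod_cast this
  have key : ∀ ψ ∈ B, ∑ k ∈ K, (a ψ k : ℚ) ^ 2 / a k k ≤ a ψ ψ := by
    intro ψ hψ
    set t : ι → ℚ := fun k => (a ψ k : ℚ) / a k k with ht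
    have e0 : 0 ≤ ∑ φ ∈ B, ((a ψ φ : ℚ) - ∑ k ∈ K, t k * a k φ) ^ 2 := Finset.sum_nonneg fun _ _ => sq_nonneg _
    have e2 : ∑ φ ∈ B, ((a ψ φ : ℚ) - ∑ k ∈ K, t k * a k φ) ^ 2 =
        ∑ φ ∈ B, (a ψ φ : ℚ) * a ψ φ - 2 * ∑ φ ∈ B, ∑ k ∈ K, t k * ((a ψ φ : ℚ) * a k φ) +
          ∑ φ ∈ B, ∑ k ∈ K, ∑ k' ∈ K, t k * t k' * ((a k φ : ℚ) * a k' φ) := by
      rw [Finset.mul_sum, ← Finset.sum_sub_distrib, ← Finset.sum_add_distrib]
      refine Finset.sum_congr rfl fun φ _ => ?_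
      have e3 : ∑ k ∈ K, ∑ k' ∈ K, t k * t k' * ((a k φ : ℚ) * a k' φ) = (∑ k ∈ K, t k * a k φ) * (∑ k ∈ K, t k * a k φ) := by
        rw [Finset.sum_mul_sum]
        refine Finset.sum_congr rfl fun k _ => Finset.sum_congr rfl fun k' _ => ?_
        ring
      have e4 : ∑ k ∈ K, t k * ((a ψ φ : ℚ) * a k φ) = (a ψ φ : ℚ) * ∑ k ∈ K, t k * a k φ := by
        rw [Finset.mul_sum]
        refine Finset.sum_congr rfl fun k _ => ?_
        ring
      rw [e3, e4]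
      ring
    have e5 : ∑ φ ∈ B, ∑ k ∈ K, t k * ((a ψ φ : ℚ) * a k φ) = ∑ k ∈ K, t k * (D * a ψ k) := by
      rw [Finset.sum_comm]
      refine Finset.sum_congr rfl fun k _ => ?_
      rw [← Finset.mul_sum, e1]
    have e6 : ∑ φ ∈ B, ∑ k ∈ K, ∑ k' ∈ K, t k * t k' * ((a k φ : ℚ) * a k' φ) = ∑ k ∈ K, t k * (D * a ψ k) := by
      rw [Finset.sum_comm]
      refine Finset.sum_congr rfl fun k hk => ?_
      rw [Finset.sum_comm]
      rw [Finset.sum_eq_single k]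
      · rw [← Finset.mul_sum, e1]
        have hkk : (a k k : ℚ) ≠ 0 := by exact_mod_cast (C.pos k (hK hk)).ne'
        simp only [ht]
        field_simp
      · intro k' hk' hne
        rw [← Finset.mul_sum, e1, h0 k hk k' hk' (Ne.symm hne)]
        simp
      · intro h; exact absurd hk h
    rw [e2, e5, e6, e1] at e0
    have e7 : ∑ k ∈ K, t k * (D * a ψ k) = D * ∑ k ∈ K, (a ψ k : ℚ) ^ 2 / a k k := by
      rw [Finset.mul_sum]
      refine Finset.sum_congr rfl fun k _ => ?_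
      simp only [ht]
      ring
    rw [e7] at e0
    have e8 : 0 ≤ D * ((a ψ ψ : ℚ) - ∑ k ∈ K, (a ψ k : ℚ) ^ 2 / a k k) := by linarith
    have e9 := (mul_nonneg_iff_of_pos_left hDq).1 e8
    linarith
  have h1 := Finset.sum_le_sum key
  rw [Finset.sum_comm] at h1
  have h2 : ∀ k ∈ K, ∑ ψ ∈ B, (a ψ k : ℚ) ^ 2 / a k k = D := by
    intro k hk
    have hkk : (a k k : ℚ) ≠ 0 := by exact_mod_cast (C.pos k (hK hk)).ne'
    rw [← Finset.sum_div]
    have h3 : ∑ ψ ∈ B, (a ψ k : ℚ) ^ 2 = D * a k k := by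
      rw [← e1]
      refine Finset.sum_congr rfl fun ψ _ => ?_
      rw [C.symm ψ k, pow_two]
    rw [h3]
    field_simp
  rw [Finset.sum_congr rfl h2, Finset.sum_const, nsmul_eq_mul] at h1
  have h3 : ∑ χ ∈ B, (a χ χ : ℚ) = D * l := by exact_mod_cast C.trace
  rw [h3, mul_comm] at h1
  have h4 := le_of_mul_le_mul_left h1 hDq
  exact_mod_cast h4

theorem cs (C : Con B h D a l) (hD : 0 < D) (θ ψ : ι) : a θ ψ ^ 2 ≤ a θ θ * a ψ ψ := by
  have h1 := Finset.sum_mul_sq_le_sq_mul_sq B (fun φ => a θ φ) (fun φ => a ψ φ)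
  have h2 : ∀ θ, ∑ φ ∈ B, a θ φ ^ 2 = D * a θ θ := by
    intro θ
    rw [← C.idem' θ θ]
    exact Finset.sum_congr rfl fun φ _ => pow_two _
  rw [C.idem' θ ψ, h2, h2] at h1
  have h3 : D ^ 2 * a θ ψ ^ 2 ≤ D ^ 2 * (a θ θ * a ψ ψ) := by nlinarith
  exact le_of_mul_le_mul_left h3 (by positivity)

theorem rank_pos (C : Con B h D a l) (hD : 0 < D) (hB : B.Nonempty) : 0 < l := by
  obtain ⟨χ, hχ⟩ := hB
  have h1 : 0 < ∑ χ ∈ B, a χ χ := Finset.sum_pos C.pos ⟨χ, hχ⟩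
  rw [C.trace] at h1
  by_contra hl
  have : l = 0 := by omega
  rw [this] at h1
  simp at h1

/-- characters of large height -/
theorem large (C : Con B h D a l) {q : ℤ} (hq : 0 < q) (hD : D = 8 * q)
    (hH : (B.filter (fun χ => h χ = 0)).card = 4) {θ : ι} (hθ : θ ∈ B) (hθ0 : h θ ≠ 0) (hh : 2 * q ≤ 2 ^ h θ) :
    a θ θ = 4 * q ∧ (2 : ℤ) ^ h θ = 2 * q ∧ (∀ ψ ∈ B, h ψ ≠ 0 → ψ ≠ θ → a θ ψ = 0) ∧
      ∀ ψ ∈ B, h ψ = 0 → a θ ψ ^ 2 = 4 * q ^ 2 := by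
  set H : ℤ := 2 ^ h θ with hHdef
  set α := a θ θ with hα
  have h1 : ∑ ψ ∈ B, a θ ψ ^ 2 = 8 * q * α := by
    rw [hα, ← hD, ← C.idem' θ θ]
    exact Finset.sum_congr rfl fun φ _ => pow_two _
  let g : ι → ℤ := fun ψ => if h ψ = 0 then H ^ 2 else if ψ = θ then α ^ 2 else 0
  have hgle : ∀ ψ ∈ B, g ψ ≤ a θ ψ ^ 2 := by
    intro ψ hψ
    simp only [g]
    split_ifs with h2 h3
    · obtain ⟨c, hc⟩ := C.dvd θ hθ ψ
      have hc0 : c ≠ 0 := by
        rintro rfl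
        apply C.ndvd θ hθ ψ hψ h2
        rw [hc, mul_zero]; exact dvd_zero _
      rw [hc, mul_pow]
      have hc1 : 1 ≤ c ^ 2 := by
        have := sq_nonneg c
        have h5 : c ^ 2 ≠ 0 := pow_ne_zero _ hc0
        omega
      have hHn : 0 ≤ H ^ 2 := sq_nonneg _
      nlinarith
    · rw [h3]
    · exact sq_nonneg _
  have hgs : ∑ ψ ∈ B, g ψ = 4 * H ^ 2 + α ^ 2 := by
    have e1 : ∀ ψ ∈ B, g ψ = (if h ψ = 0 then H ^ 2 else 0) + (if ψ = θ then α ^ 2 else 0) := by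
      intro ψ _
      simp only [g]
      by_cases h2 : h ψ = 0
      · have : ψ ≠ θ := fun h3 => hθ0 (h3 ▸ h2)
        rw [if_pos h2, if_pos h2, if_neg this, add_zero]
      · rw [if_neg h2, if_neg h2, zero_add]
    rw [Finset.sum_congr rfl e1, Finset.sum_add_distrib, Finset.sum_ite_eq' B θ, if_pos hθ,
      ← Finset.sum_filter, Finset.sum_const, hH]
    ring
  have h2 := Finset.sum_le_sum hgle
  rw [hgs, h1] at h2
  have hH2 : (2 * q) ^ 2 ≤ H ^ 2 := by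
    apply pow_le_pow_left₀ _ hh
    omega
  have h3 : (α - 4 * q) ^ 2 ≤ 0 := by nlinarith
  have h4 : α = 4 * q := by
    have h5 : (α - 4 * q) ^ 2 = 0 := le_antisymm h3 (sq_nonneg _)
    have h6 := pow_eq_zero_iff (two_ne_zero) |>.1 h5
    linarith
  have h5 : H ^ 2 = (2 * q) ^ 2 := by
    rw [h4] at h2
    nlinarith
  have h6 : H = 2 * q := by
    have hHp : 0 < H := by positivity
    nlinarith
  have h7 : ∑ ψ ∈ B, g ψ = ∑ ψ ∈ B, a θ ψ ^ 2 := by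
    rw [hgs, h1, h4, h6]; ring
  have h8 := (Finset.sum_eq_sum_iff_of_le hgle).1 h7
  refine ⟨h4, h6, ?_, ?_⟩
  · intro ψ hψ hψ0 hne
    have h9 := h8 ψ hψ
    simp only [g] at h9
    rw [if_neg hψ0, if_neg hne] at h9
    exact pow_eq_zero_iff (two_ne_zero) |>.1 h9.symm
  · intro ψ hψ hψ0
    have h9 := h8 ψ hψ
    simp only [g] at h9
    rw [if_pos hψ0, h6] at h9
    rw [← h9]; ring

end Con

/-- numerical data -/
structure ND (B : Finset ι) (q r : ℕ) (h : ι → ℕ) (W T : ι → ℤ) (a1 az : ι → ι → ℤ) (c : ℤ) (l lz : ℕ) : Prop where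
  hr : 2 ≤ r
  hq : q = 2 ^ (r - 2)
  A : Con B h (8 * q) a1 l
  Z : Con B h (8 * q) az lz
  c0 : 0 ≤ c
  id : ∀ χ ∈ B, a1 χ χ + az χ χ + 2 * W χ + (if h χ = 0 then 2 * q * c else 0) = 8 * q
  sumW : ∑ χ ∈ B, W χ = 8 * q ^ 2 - 4 * q
  H0 : (B.filter (fun χ => h χ = 0)).card = 4
  W0 : ∀ χ ∈ B, h χ = 0 → W χ = 2 * q - 1 ∨ (W χ = 4 * q - 1 ∧ (q = 2 ∨ q = 4))
  W1 : ∀ χ ∈ B, h χ ≠ 0 → (W χ = 0 ∧ (2 * q : ℤ) ∣ T χ) ∨ (1 < q ∧ W χ = 4 * q - 4)
  hT : ∀ χ ∈ B, (2 : ℤ) ^ h χ ∣ T χ ∧ ¬ (2 : ℤ) ^ (h χ + 1) ∣ T χ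

namespace ND

variable {q r : ℕ} {W T : ι → ℤ} {a1 az : ι → ι → ℤ} {c : ℤ} {lz : ℕ}

theorem q_pos (N : ND B q r h W T a1 az c l lz) : 0 < q := by rw [N.hq]; positivity

theorem D_pos (N : ND B q r h W T a1 az c l lz) : (0 : ℤ) < 8 * q := by
  have := N.q_pos
  positivity

theorem ne (N : ND B q r h W T a1 az c l lz) : B.Nonempty := by
  by_contra hB
  have h1 := N.H0
  rw [Finset.not_nonempty_iff_eq_empty] at hB
  rw [hB] at h1
  simp at h1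

theorem two_q (N : ND B q r h W T a1 az c l lz) : (2 : ℤ) * q = 2 ^ (r - 1) := by
  have h1 := N.hr
  rw [N.hq]
  push_cast
  rw [← pow_succ']
  congr 1
  omega

theorem card_eq (N : ND B q r h W T a1 az c l lz) : (B.card : ℤ) = l + lz + 2 * q - 1 + c := by
  have h1 := Finset.sum_congr rfl N.id
  rw [Finset.sum_add_distrib, Finset.sum_add_distrib, Finset.sum_add_distrib, ← Finset.mul_sum, N.A.trace, N.Z.trace,
    N.sumW, ← Finset.sum_filter, Finset.sum_const, Finset.sum_const, N.H0, nsmul_eq_mul, nsmul_eq_mul] at h1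
  have h2 := N.D_pos
  have h3 : (8 * q : ℤ) * B.card = 8 * q * (l + lz + 2 * q - 1 + c) := by
    push_cast at h1
    linarith
  exact mul_left_cancel₀ h2.ne' h3

/-- exceptional height zero is minimal -/
theorem large (N : ND B q r h W T a1 az c l lz) {θ : ι} (hθ : θ ∈ B) (h0 : h θ ≠ 0) (hW : W θ = 0) :
    h θ = r - 1 ∧ az θ θ = 4 * q ∧ (∀ ψ ∈ B, h ψ ≠ 0 → ψ ≠ θ → az θ ψ = 0) ∧
      ∀ ψ ∈ B, h ψ = 0 → az θ ψ ^ 2 = 4 * q ^ 2 := by
  have hqp := N.q_pos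
  have hdv : (2 * q : ℤ) ∣ T θ := by
    rcases N.W1 θ hθ h0 with h1 | h1
    · exact h1.2
    · exfalso
      have h2 := h1.2
      rw [hW] at h2
      have := h1.1
      omega
  have hge : r - 1 ≤ h θ := by
    by_contra hcon
    push Not at hcon
    apply (N.hT θ hθ).2
    have h2 : (2 : ℤ) ^ (h θ + 1) ∣ 2 ^ (r - 1) := pow_dvd_pow _ (by omega)
    rw [← N.two_q] at h2
    exact h2.trans hdv
  have hle : (2 : ℤ) * q ≤ 2 ^ h θ := by
    rw [N.two_q]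
    exact pow_le_pow_right₀ (by norm_num) hge
  obtain ⟨h1, h2, h3, h4⟩ := N.Z.large (by exact_mod_cast hqp) rfl N.H0 hθ h0 hle
  refine ⟨?_, h1, h3, h4⟩
  rw [N.two_q] at h2
  exact Int.pow_right_injective (by norm_num) h2

/-- characters of height one -/
theorem small (N : ND B q r h W T a1 az c l lz) {χ : ι} (hχ : χ ∈ B) (h0 : h χ ≠ 0) (hW : W χ ≠ 0) :
    1 < q ∧ W χ = 4 * q - 4 ∧ h χ = 1 ∧ a1 χ χ = 4 ∧ az χ χ = 4 := by
  rcases N.W1 χ hχ h0 with h1 | h1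
  · exact absurd h1.1 hW
  · have h2 := N.id χ hχ
    rw [if_neg h0, h1.2] at h2
    have h3 := N.A.dvd' χ hχ χ hχ h0
    have h4 := N.Z.dvd' χ hχ χ hχ h0
    have h5 : (4 : ℤ) ∣ 2 ^ (h χ + 1) := by
      have : (4 : ℤ) = 2 ^ 2 := by norm_num
      rw [this]
      exact pow_dvd_pow _ (by omega)
    have h6 := h5.trans h3
    have h7 := h5.trans h4
    have h8 := N.A.pos χ hχ
    have h9 := N.Z.pos χ hχ
    have e1 : a1 χ χ = 4 := by omega
    have e2 : az χ χ = 4 := by omega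
    refine ⟨h1.1, h1.2, ?_, e1, e2⟩
    rw [e1] at h3
    have h10 := Int.le_of_dvd (by norm_num) h3
    by_contra hne
    have h11 : 3 ≤ h χ + 1 := by omega
    have h12 : (2 : ℤ) ^ 3 ≤ 2 ^ (h χ + 1) := pow_le_pow_right₀ (by norm_num) h11
    omega

/-- the classification of heights -/
theorem heights (N : ND B q r h W T a1 az c l lz) {χ : ι} (hχ : χ ∈ B) : h χ = 0 ∨ h χ = 1 ∨ h χ = r - 1 := by
  by_cases h0 : h χ = 0
  · exact Or.inl h0
  · by_cases hW : W χ = 0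
    · exact Or.inr (Or.inr (N.large hχ h0 hW).1)
    · exact Or.inr (Or.inl (N.small hχ h0 hW).2.2.1)

/-- the four classes -/
theorem card_split (N : ND B q r h W T a1 az c l lz) :
    B.card = 4 + (B.filter (fun χ => h χ ≠ 0 ∧ W χ = 0)).card + (B.filter (fun χ => h χ ≠ 0 ∧ W χ ≠ 0)).card := by
  have h1 := Finset.card_filter_add_card_filter_not (s := B) (fun χ => h χ = 0)
  rw [N.H0] at h1
  have h2 := Finset.card_filter_add_card_filter_not (s := B.filter (fun χ => ¬ h χ = 0)) (fun χ => W χ = 0)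
  rw [Finset.filter_filter, Finset.filter_filter] at h2
  simp only [ne_eq]
  omega

theorem sum_split (N : ND B q r h W T a1 az c l lz) (f : ι → ℤ) :
    ∑ χ ∈ B, f χ = ∑ χ ∈ B.filter (fun χ => h χ = 0), f χ + ∑ χ ∈ B.filter (fun χ => h χ ≠ 0 ∧ W χ = 0), f χ +
      ∑ χ ∈ B.filter (fun χ => h χ ≠ 0 ∧ W χ ≠ 0), f χ := by
  rw [← Finset.sum_filter_add_sum_filter_not B (fun χ => h χ = 0),
    ← Finset.sum_filter_add_sum_filter_not (B.filter (fun χ => ¬ h χ = 0)) (fun χ => W χ = 0),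
    Finset.filter_filter, Finset.filter_filter, add_assoc]

theorem card_small (N : ND B q r h W T a1 az c l lz) (hmin : ∀ χ ∈ B, h χ = 0 → W χ = 2 * q - 1) (hq : 1 < q) :
    (B.filter (fun χ => h χ ≠ 0 ∧ W χ ≠ 0)).card = 2 * q - 1 := by
  have h1 := N.sumW
  rw [N.sum_split] at h1
  have e1 : ∑ χ ∈ B.filter (fun χ => h χ = 0), W χ = 4 * (2 * q - 1) := by
    have : ∀ χ ∈ B.filter (fun χ => h χ = 0), W χ = 2 * q - 1 := by
      intro χ hχ
      rw [Finset.mem_filter] at hχ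
      exact hmin χ hχ.1 hχ.2
    rw [Finset.sum_congr rfl this, Finset.sum_const, N.H0, nsmul_eq_mul]
    push_cast
    ring
  have e2 : ∑ χ ∈ B.filter (fun χ => h χ ≠ 0 ∧ W χ = 0), W χ = 0 := by
    apply Finset.sum_eq_zero
    intro χ hχ
    rw [Finset.mem_filter] at hχ
    exact hχ.2.2
  have e3 : ∑ χ ∈ B.filter (fun χ => h χ ≠ 0 ∧ W χ ≠ 0), W χ =
      (B.filter (fun χ => h χ ≠ 0 ∧ W χ ≠ 0)).card * (4 * q - 4) := by
    have : ∀ χ ∈ B.filter (fun χ => h χ ≠ 0 ∧ W χ ≠ 0), W χ = 4 * q - 4 := by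
      intro χ hχ
      rw [Finset.mem_filter] at hχ
      exact (N.small hχ.1 hχ.2.1 hχ.2.2).2.1
    rw [Finset.sum_congr rfl this, Finset.sum_const, nsmul_eq_mul]
  rw [e1, e2, e3] at h1
  have h2 : ((B.filter (fun χ => h χ ≠ 0 ∧ W χ ≠ 0)).card : ℤ) * (4 * (q - 1)) = (2 * q - 1) * (4 * (q - 1)) := by
    linarith
  have h3 : (4 * ((q : ℤ) - 1)) ≠ 0 := by
    have : (1 : ℤ) < q := by exact_mod_cast hq
    omega
  have h4 := mul_right_cancel₀ h3 h2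
  omega

theorem no_small (N : ND B q r h W T a1 az c l lz) (hq : ¬ 1 < q) :
    (B.filter (fun χ => h χ ≠ 0 ∧ W χ ≠ 0)).card = 0 := by
  rw [Finset.card_eq_zero, Finset.filter_eq_empty_iff]
  intro χ hχ hcon
  exact hq (N.small hχ hcon.1 hcon.2).1

/-- the bound for the characters of large height -/
theorem bound (N : ND B q r h W T a1 az c l lz) :
    (B.filter (fun χ => h χ ≠ 0 ∧ W χ = 0)).card ≤ lz ∧
    ((B.filter (fun χ => h χ ≠ 0 ∧ W χ ≠ 0)).card ≠ 0 → (B.filter (fun χ => h χ ≠ 0 ∧ W χ = 0)).card + 1 ≤ lz) := by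
  constructor
  · apply N.Z.bessel N.D_pos (Finset.filter_subset _ _)
    intro k hk k' hk' hne
    rw [Finset.mem_filter] at hk hk'
    exact (N.large hk.1 hk.2.1 hk.2.2).2.2.1 k' hk'.1 hk'.2.1 (Ne.symm hne)
  · intro hne
    obtain ⟨χ, hχ⟩ := Finset.card_ne_zero.1 hne
    rw [Finset.mem_filter] at hχ
    have hnot : χ ∉ B.filter (fun χ => h χ ≠ 0 ∧ W χ = 0) := by
      rw [Finset.mem_filter]
      rintro ⟨_, _, h3⟩
      exact hχ.2.2 h3
    rw [← Finset.card_insert_of_notMem hnot]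
    apply N.Z.bessel N.D_pos
    · intro k hk
      rw [Finset.mem_insert] at hk
      rcases hk with rfl | hk
      · exact hχ.1
      · exact (Finset.mem_filter.1 hk).1
    · intro k hk k' hk' hne
      rw [Finset.mem_insert, Finset.mem_filter] at hk hk'
      rcases hk with hk | hk
      · rcases hk' with hk' | hk'
        · exact absurd (hk.trans hk'.symm) hne
        · rw [N.Z.symm]
          rw [hk] at hne ⊢
          exact (N.large hk'.1 hk'.2.1 hk'.2.2).2.2.1 χ hχ.1 hχ.2.1 hne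
      · rcases hk' with hk' | hk'
        · rw [hk'] at hne ⊢
          exact (N.large hk.1 hk.2.1 hk.2.2).2.2.1 χ hχ.1 hχ.2.1 (Ne.symm hne)
        · exact (N.large hk.1 hk.2.1 hk.2.2).2.2.1 k' hk'.1 hk'.2.1 (Ne.symm hne)

/-- the number of characters of height one -/
theorem card_one (N : ND B q r h W T a1 az c l lz) (hmin : ∀ χ ∈ B, h χ = 0 → W χ = 2 * q - 1) (hq : 1 < q) :
    (B.filter (fun χ => h χ = 1)).card = 2 * q - 1 := by
  rw [← N.card_small hmin hq]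
  congr 1
  apply Finset.filter_congr
  intro χ hχ
  have hr3 : 3 ≤ r := by
    by_contra hcon
    have h1 := N.hr
    have h2 : r = 2 := by omega
    have h3 := N.hq
    rw [h2] at h3
    simp at h3
    omega
  constructor
  · intro h1
    refine ⟨by omega, fun hW => ?_⟩
    have h2 := (N.large hχ (by omega) hW).1
    omega
  · rintro ⟨h1, h2⟩
    exact (N.small hχ h1 h2).2.2.1

/-- the nonminimal case -/
theorem nonmin (N : ND B q r h W T a1 az c l lz) (hex : ∃ χ ∈ B, h χ = 0 ∧ W χ ≠ 2 * q - 1) :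
    c = 0 ∧ (2 ≤ lz → q = 2 ∧ lz = 2 ∧ (B.filter (fun χ => h χ = 0 ∧ W χ ≠ 2 * q - 1)).card = 1) := by
  obtain ⟨χ₁, hχ₁, h01, hW1⟩ := hex
  have hqp := N.q_pos
  have hnm : ∀ χ ∈ B, h χ = 0 → W χ ≠ 2 * q - 1 → W χ = 4 * q - 1 ∧ c = 0 ∧ az χ χ = 1 ∧ (q = 2 ∨ q = 4) := by
    intro χ hχ h0 hW
    rcases N.W0 χ hχ h0 with h1 | h1
    · exact absurd h1 hW
    · have h2 := N.id χ hχ
      rw [if_pos h0, h1.1] at h2
      have h3 := N.A.pos χ hχ
      have h4 := N.Z.pos χ hχ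
      have h5 := N.c0
      have h6 : (0 : ℤ) < q := by exact_mod_cast hqp
      have h7 : c = 0 := by
        by_contra hne
        have : 1 ≤ c := by omega
        nlinarith
      rw [h7] at h2
      refine ⟨h1.1, h7, by omega, h1.2⟩
  have h1 := hnm χ₁ hχ₁ h01 hW1
  refine ⟨h1.2.1, fun hlz => ?_⟩
  have hc := h1.2.1
  -- no characters of large height
  have hE : B.filter (fun χ => h χ ≠ 0 ∧ W χ = 0) = ∅ := by
    rw [Finset.filter_eq_empty_iff]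
    intro θ hθ hcon
    have h2 := N.large hθ hcon.1 hcon.2
    have h3 := h2.2.2.2 χ₁ hχ₁ h01
    have h4 := N.Z.cs N.D_pos θ χ₁
    rw [h3, h2.2.1, h1.2.2.1] at h4
    rcases h1.2.2.2 with h5 | h5 <;> rw [h5] at h4 <;> norm_num at h4
  -- sums
  set n1 := (B.filter (fun χ => h χ = 0 ∧ W χ ≠ 2 * q - 1)).card with hn1
  set n0 := (B.filter (fun χ => h χ = 0 ∧ W χ = 2 * q - 1)).card with hn0
  set nx := (B.filter (fun χ => h χ ≠ 0 ∧ W χ ≠ 0)).card with hnx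
  have hn1p : 0 < n1 := by
    rw [hn1, Finset.card_pos]
    exact ⟨χ₁, Finset.mem_filter.2 ⟨hχ₁, h01, hW1⟩⟩
  have hsplit : ∀ f : ι → ℤ, ∑ χ ∈ B.filter (fun χ => h χ = 0), f χ =
      ∑ χ ∈ B.filter (fun χ => h χ = 0 ∧ W χ = 2 * q - 1), f χ + ∑ χ ∈ B.filter (fun χ => h χ = 0 ∧ W χ ≠ 2 * q - 1), f χ := by
    intro f
    rw [← Finset.sum_filter_add_sum_filter_not (B.filter (fun χ => h χ = 0)) (fun χ => W χ = 2 * q - 1),
      Finset.filter_filter, Finset.filter_filter]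
  have hsum4 : (n0 : ℤ) + n1 = 4 := by
    have := hsplit (fun _ => 1)
    simp only [Finset.sum_const, nsmul_eq_mul, mul_one, N.H0] at this
    push_cast at this
    linarith
  have hWs := N.sumW
  rw [N.sum_split, hE, Finset.sum_empty, add_zero, hsplit] at hWs
  have e1 : ∑ χ ∈ B.filter (fun χ => h χ = 0 ∧ W χ = 2 * q - 1), W χ = n0 * (2 * q - 1) := by
    have : ∀ χ ∈ B.filter (fun χ => h χ = 0 ∧ W χ = 2 * q - 1), W χ = 2 * q - 1 := fun χ hχ => (Finset.mem_filter.1 hχ).2.2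
    rw [Finset.sum_congr rfl this, Finset.sum_const, nsmul_eq_mul]
  have e2 : ∑ χ ∈ B.filter (fun χ => h χ = 0 ∧ W χ ≠ 2 * q - 1), W χ = n1 * (4 * q - 1) := by
    have : ∀ χ ∈ B.filter (fun χ => h χ = 0 ∧ W χ ≠ 2 * q - 1), W χ = 4 * q - 1 := by
      intro χ hχ
      rw [Finset.mem_filter] at hχ
      exact (hnm χ hχ.1 hχ.2.1 hχ.2.2).1
    rw [Finset.sum_congr rfl this, Finset.sum_const, nsmul_eq_mul]
  have e3 : ∑ χ ∈ B.filter (fun χ => h χ ≠ 0 ∧ W χ ≠ 0), W χ = nx * (4 * q - 4) := by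
    have : ∀ χ ∈ B.filter (fun χ => h χ ≠ 0 ∧ W χ ≠ 0), W χ = 4 * q - 4 := by
      intro χ hχ
      rw [Finset.mem_filter] at hχ
      exact (N.small hχ.1 hχ.2.1 hχ.2.2).2.1
    rw [Finset.sum_congr rfl this, Finset.sum_const, nsmul_eq_mul]
  rw [e1, e2, e3] at hWs
  have htr := N.Z.trace
  rw [N.sum_split, hE, Finset.sum_empty, add_zero, hsplit] at htr
  have e4 : ∑ χ ∈ B.filter (fun χ => h χ = 0 ∧ W χ = 2 * q - 1), az χ χ ≤ n0 * (4 * q + 1) := by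
    have : ∀ χ ∈ B.filter (fun χ => h χ = 0 ∧ W χ = 2 * q - 1), az χ χ ≤ 4 * q + 1 := by
      intro χ hχ
      rw [Finset.mem_filter] at hχ
      have h2 := N.id χ hχ.1
      rw [if_pos hχ.2.1, hχ.2.2, hc] at h2
      have h3 := N.A.pos χ hχ.1
      omega
    have h2 := Finset.sum_le_sum this
    rwa [Finset.sum_const, nsmul_eq_mul] at h2
  have e5 : ∑ χ ∈ B.filter (fun χ => h χ = 0 ∧ W χ ≠ 2 * q - 1), az χ χ = n1 := by
    have : ∀ χ ∈ B.filter (fun χ => h χ = 0 ∧ W χ ≠ 2 * q - 1), az χ χ = 1 := by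
      intro χ hχ
      rw [Finset.mem_filter] at hχ
      exact (hnm χ hχ.1 hχ.2.1 hχ.2.2).2.2.1
    rw [Finset.sum_congr rfl this, Finset.sum_const, nsmul_eq_mul, mul_one]
  have e6 : ∑ χ ∈ B.filter (fun χ => h χ ≠ 0 ∧ W χ ≠ 0), az χ χ = nx * 4 := by
    have : ∀ χ ∈ B.filter (fun χ => h χ ≠ 0 ∧ W χ ≠ 0), az χ χ = 4 := by
      intro χ hχ
      rw [Finset.mem_filter] at hχ
      exact (N.small hχ.1 hχ.2.1 hχ.2.2).2.2.2.2
    rw [Finset.sum_congr rfl this, Finset.sum_const, nsmul_eq_mul]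
  rw [e5, e6] at htr
  rcases h1.2.2.2 with h5 | h5
  · rw [h5] at hWs htr e4
    push_cast at hWs htr e4
    refine ⟨h5, ?_, ?_⟩ <;> omega
  · exfalso
    rw [h5] at hWs htr e4
    push_cast at hWs htr e4
    omega

end ND

end Cfsg.Agent.Lib.Tame
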