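import Cfsg.Agent.Lib.TameY2
import Cfsg.Agent.Lib.TameN

/-!
# Numerical data of a block with quaternion or semidihedral defect group
-/

set_option autoImplicit false
set_option linter.all false
set_option maxHeartbeats 400000

namespace Cfsg.Agent.Lib.Tame

open Cfsg Cfsg.Agent.Lib.BlockRing Cfsg.Agent.Lib.BlockGA Cfsg.Agent.Lib.BlockAlg
open Cfsg.Agent.Lib.BlkIdem Cfsg.Agent.Lib.PairAlg Cfsg.Agent.Lib.PairMax
open Cfsg.Agent.Lib.BlockIdem Cfsg.Agent.Lib.BlockSecond Cfsg.Agent.Lib.BrauerPairs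
open Cfsg.Agent.Lib.BlkFus Cfsg.Agent.Lib.InducedPair Cfsg.Agent.Lib.DefPairs
open Cfsg.Agent.Lib.BlkFusDef Cfsg.Agent.Lib.BlkTransport Cfsg.Agent.Lib.BlkNil
open Cfsg.Agent.Lib.H25BpLift Cfsg.Agent.Lib.H25BpTw Cfsg.Agent.Lib.H25BpF Cfsg.Agent.Lib.H25BpI
open Cfsg.Agent.Lib.H25BpE Cfsg.Agent.Lib.H25BpG Cfsg.Agent.Lib.H25BpW Cfsg.Agent.Lib.H25BpM
open Cfsg.Agent.Lib.H25BpS Cfsg.Agent.Lib.TameFour
open Cfsg.Agent.Lib.BlockCount (Bl D rsp rsp_orth sum_blockPart blockRank_eq)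
open Cfsg.Agent.Lib.Subsec (Cz mem_Cz al al_eq al_mem fs mem_fs zz
  al_conj al_idem al_trace al_loc al_not_idl al_idl pow_of_orderOf al_ne_zero')
open scoped ComplexConjugate Classical Pointwise

universe u

variable {M : Ideal AlgInt} [hMm : M.IsMaximal] [hchar : CharP (Kf M) 2]
  {G : Type u} [Group G] [Finite G] {B : Set (IrrCharacter G)} {P : Subgroup G} {e : MonoidAlgebra (Kf M) G}
  {N : Subgroup G} {b : Set (IrrCharacter N)} {e' : MonoidAlgebra (Kf M) N} {v : G}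
  {ξ : IrrCharacter N} {m : ℕ} [NeZero m] {x : P.subgroupOf N} {s : ZMod m} {r : ℕ}

theorem cB_nonneg (P : Subgroup G) (e : MonoidAlgebra (Kf M) G) (x : P.subgroupOf N) : 0 ≤ cB P e m x := by
  unfold cB
  refine Finset.sum_nonneg fun y _ => ?_
  split_ifs
  · exact le_rfl
  · exact le_rfl
  · positivity

theorem VV_nonneg (L : LD 2 B P e N b e' v ξ) (S : QS m x s r) (T : Finset (ZMod m)) (hT : T.card = m / 2)
    (χ : IrrCharacter G) : 0 ≤ L.VV S T χ := by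
  unfold LD.VV
  have h1 := sq_sum_le_card_mul_sum_sq (s := T) (f := fun a => L.nn S.toCyc2 χ a)
  rw [hT] at h1
  linarith

theorem zg_cent (L : LD 2 B P e N b e' v ξ) (S : QS m x s r) :
    xg x ((m / 2 : ℕ) : ZMod m) ∈ Subgroup.centralizer (P : Set G) := by
  rw [Subgroup.mem_centralizer_iff]
  intro y hy
  have h1 := S.zz_comm (⟨⟨y, L.le hy⟩, hy⟩ : P.subgroupOf N)
  have h2 := congrArg (fun w : P.subgroupOf N => ((w : N) : G)) h1.eq
  exact h2.symm

theorem card_P_eq (L : LD 2 B P e N b e' v ξ) (S : QS m x s r) : Nat.card P = 2 * m := by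
  rw [← S.hcard]
  exact (Nat.card_congr (Subgroup.subgroupOfEquivOfLe L.le).toEquiv).symm

namespace LD

variable (L : LD 2 B P e N b e' v ξ) (S : QS m x s r) (hv : xg x ((m / 4 : ℕ) : ZMod m) = v)
include hv

/-- the numerical data -/
theorem nd (h2 : 2 ∣ m) :
    ∃ (a1 az : IrrCharacter G → IrrCharacter G → ℤ) (bz : Bl M (Cz (xg x ((m / 2 : ℕ) : ZMod m)))) (c : ℤ),
      PLE 2 (Subgroup.zpowers (xg x ((m / 2 : ℕ) : ZMod m)), bid M (Cz (xg x ((m / 2 : ℕ) : ZMod m))) bz.1) (P, e) ∧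
      (c : ℚ) = cB P e m x ∧
      (∀ χ ψ, (a1 χ ψ : ℂ) = (Nat.card P : ℂ) * CI 2 (χ : G → ℂ) (ψ : G → ℂ) (xg x (0 : ZMod m))
        (L.ctx.fx ⟨_, xg_mem x (0 : ZMod m)⟩)) ∧
      (∀ χ ψ, (az χ ψ : ℂ) = (Nat.card P : ℂ) * CI 2 (χ : G → ℂ) (ψ : G → ℂ) (xg x ((m / 2 : ℕ) : ZMod m))
        (L.ctx.fx ⟨_, xg_mem x ((m / 2 : ℕ) : ZMod m)⟩)) ∧
      ND (fs B) (m / 4) r (fun χ => blockHeight 2 B (χ : G → ℂ)) (fun χ => L.VV S (Ev h2) χ + L.VV S (Od h2) χ)
        (L.T1 S) a1 az c (blockRank 2 B) (blockRank 2 bz.1) := by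
  have hcardP := card_P_eq L S
  have h4m := four_dvd_m S.hr S.hm
  set q : ℕ := m / 4 with hq
  have hmq : m = 4 * q := by omega
  have hm2 : m / 2 = 2 * q := by omega
  have hqp : 0 < q := by
    have := NeZero.pos m
    omega
  have h1c : xg x (0 : ZMod m) ∈ Subgroup.centralizer (P : Set G) := by
    rw [xg_zero S]; exact Subgroup.one_mem _
  obtain ⟨a1, b1, hle1, hCI1, hsym1, hid1, htr1, hdv1, hnd1, hdv1', hpos1⟩ :=
    cen L.ctx (u := ⟨_, xg_mem x (0 : ZMod m)⟩) ((xg_sq S).2 (Or.inl rfl)) h1c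
  obtain ⟨az, bz, hlez, hCIz, hsymz, hidz, htrz, hdvz, hndz, hdvz', hposz⟩ :=
    cen L.ctx (u := ⟨_, xg_mem x ((m / 2 : ℕ) : ZMod m)⟩) ((xg_sq S).2 (Or.inr rfl)) (zg_cent L S)
  have hr1 : blockRank 2 b1.1 = blockRank 2 B := by
    apply rank_of_top L.ctx _ b1 hle1
    show Cc (xg x (0 : ZMod m)) = ⊤
    rw [xg_zero S]
    ext g
    rw [mem_cz]
    simp
  have hD : (Nat.card P : ℤ) = 8 * (q : ℤ) := by rw [hcardP, hmq]; push_cast; ring
  set W : IrrCharacter G → ℤ := fun χ => L.VV S (Ev h2) χ + L.VV S (Od h2) χ with hW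
  -- the integer `K`
  have hident : ∀ χ ∈ fs B, ((a1 χ χ + az χ χ + 2 * W χ : ℤ) : ℂ) +
      (m / 2 : ℂ) * (cB P e m x : ℂ) * (if blockHeight 2 B (χ : G → ℂ) = 0 then 1 else 0) = ((8 * q : ℤ) : ℂ) := by
    intro χ hχ
    have h1 := L.ident S hv (mem_fs.1 hχ) h2
    have h3 : (2 * m : ℂ) = (Nat.card P : ℂ) := by rw [hcardP]; push_cast; rfl
    have h5 : ((8 * q : ℤ) : ℂ) = 2 * m := by rw [hmq]; push_cast; ring
    rw [h5, ← h1, h3]
    simp only [hW]
    push_cast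
    rw [hCI1, hCIz]
  obtain ⟨χ₀, hχ₀, h0⟩ := BlockDeg.exists_height_zero (p := 2) (isPBlock_nonempty L.ctx.blk)
  have hK : ((8 * q - (a1 χ₀ χ₀ + az χ₀ χ₀ + 2 * W χ₀) : ℤ) : ℂ) = (m / 2 : ℂ) * (cB P e m x : ℂ) := by
    have h1 := hident χ₀ (mem_fs.2 hχ₀)
    rw [if_pos h0, mul_one] at h1
    rw [Int.cast_sub, ← h1]
    ring
  set K : ℤ := 8 * q - (a1 χ₀ χ₀ + az χ₀ χ₀ + 2 * W χ₀) with hKdef
  have hidK : ∀ χ ∈ fs B, a1 χ χ + az χ χ + 2 * W χ + (if blockHeight 2 B (χ : G → ℂ) = 0 then K else 0) = 8 * q := by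
    intro χ hχ
    have h1 := hident χ hχ
    rw [← hK] at h1
    by_cases h0 : blockHeight 2 B (χ : G → ℂ) = 0
    · rw [if_pos h0, mul_one] at h1
      rw [if_pos h0]
      exact_mod_cast h1
    · rw [if_neg h0, mul_zero, add_zero] at h1
      rw [if_neg h0, add_zero]
      exact_mod_cast h1
  have hsumW : ∑ χ ∈ fs B, W χ = 8 * (q : ℤ) ^ 2 - 4 * q := by
    rw [hW]
    simp only [Finset.sum_add_distrib]
    rw [L.sum_Ve S hv h2, L.sum_Vo S hv h2, hm2]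
    push_cast
    ring
  set k : ℤ := ((fs B).card : ℤ) with hk
  set c : ℤ := k - blockRank 2 B - blockRank 2 bz.1 - 2 * q + 1 with hc
  have hKc : K = 2 * q * c := by
    have h1 := Finset.sum_congr rfl hidK
    have e1 : ∑ χ ∈ fs B, a1 χ χ = 8 * q * blockRank 2 B := by rw [htr1, hr1, hD]
    have e2 : ∑ χ ∈ fs B, az χ χ = 8 * q * blockRank 2 bz.1 := by rw [htrz, hD]
    rw [Finset.sum_add_distrib, Finset.sum_add_distrib, Finset.sum_add_distrib, ← Finset.mul_sum, e1, e2, hsumW,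
      ← Finset.sum_filter, Finset.sum_const, Finset.sum_const, L.card_H0 S hv, nsmul_eq_mul, nsmul_eq_mul] at h1
    push_cast at h1
    have h3 : 4 * K = 4 * (2 * q * c) := by
      rw [hc]
      linarith
    exact mul_left_cancel₀ (by norm_num) h3
  have hcB : (c : ℚ) = cB P e m x := by
    have h1 : ((c : ℚ) : ℂ) = (cB P e m x : ℂ) := by
      rw [hKc] at hK
      have h3 : (m / 2 : ℂ) = 2 * q := by rw [hmq]; push_cast; ring
      rw [h3] at hK
      have h4 : (2 * q : ℂ) ≠ 0 := by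
        have : (q : ℂ) ≠ 0 := Nat.cast_ne_zero.2 hqp.ne'
        simpa using this
      push_cast at hK ⊢
      exact mul_left_cancel₀ h4 hK
    exact_mod_cast h1
  have hc0 : 0 ≤ c := by
    have h1 := cB_nonneg (m := m) P e x
    rw [← hcB] at h1
    exact_mod_cast h1
  have hid : ∀ χ ∈ fs B, a1 χ χ + az χ χ + 2 * W χ + (if blockHeight 2 B (χ : G → ℂ) = 0 then 2 * q * c else 0) = 8 * q := by
    intro χ hχ
    rw [← hKc]; exact hidK χ hχ
  have hVe0 : ∀ χ, 0 ≤ L.VV S (Ev h2) χ := VV_nonneg L S _ (card_Ev_Od h2).1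
  have hVo0 : ∀ χ, 0 ≤ L.VV S (Od h2) χ := VV_nonneg L S _ (card_Ev_Od h2).2
  have hqz : (0 : ℤ) < q := by exact_mod_cast hqp
  have hWlt : ∀ χ ∈ fs B, W χ < 4 * q := by
    intro χ hχ
    have h1 := hid χ hχ
    have h3 := hpos1 χ (mem_fs.1 hχ)
    have h4 := hposz χ (mem_fs.1 hχ)
    have h5 : 0 ≤ (if blockHeight 2 B (χ : G → ℂ) = 0 then 2 * (q : ℤ) * c else 0) := by
      split_ifs
      · positivity
      · exact le_rfl
    omega
  have hvc : ∀ χ ∈ fs B, ∀ T : Finset (ZMod m), T.card = m / 2 → L.VV S T χ < 4 * q →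
    ((2 : ℤ) ∣ ∑ a ∈ T, L.nn S.toCyc2 χ a →
      (L.VV S T χ = 0 ∧ ∃ c, ∀ a ∈ T, L.nn S.toCyc2 χ a = c) ∨
      (1 < (q : ℤ) ∧ L.VV S T χ = 4 * q - 4)) ∧
    (¬ (2 : ℤ) ∣ ∑ a ∈ T, L.nn S.toCyc2 χ a →
      (L.VV S T χ = 2 * q - 1) ∨
      (((q : ℤ) = 3 ∨ (q : ℤ) = 4) ∧ L.VV S T χ = 6 * q - 9)) := by
    intro χ hχ T hT hlt
    have e1 : L.VV S T χ = 2 * (q : ℤ) * ∑ a ∈ T, L.nn S.toCyc2 χ a ^ 2 - (∑ a ∈ T, L.nn S.toCyc2 χ a) ^ 2 := by
      unfold VV
      rw [hm2]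
      push_cast
      rfl
    rw [e1] at hlt ⊢
    refine vclass hqz ?_ hlt
    rw [hT, hm2]; push_cast; rfl
  refine ⟨a1, az, bz, c, hlez, hcB, hCI1, hCIz, ?_⟩
  exact {
    hr := S.hr
    hq := m_div_four S.hr S.hm
    A := ⟨hsym1, fun χ θ => by rw [hid1, hD], by rw [htr1, hr1, hD],
      fun χ hχ => hdv1 χ (mem_fs.1 hχ), fun χ hχ ψ hψ => hnd1 χ (mem_fs.1 hχ) ψ (mem_fs.1 hψ),
      fun χ hχ ψ hψ => hdv1' χ (mem_fs.1 hχ) ψ (mem_fs.1 hψ), fun χ hχ => hpos1 χ (mem_fs.1 hχ)⟩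
    Z := ⟨hsymz, fun χ θ => by rw [hidz, hD], by rw [htrz, hD],
      fun χ hχ => hdvz χ (mem_fs.1 hχ), fun χ hχ ψ hψ => hndz χ (mem_fs.1 hχ) ψ (mem_fs.1 hψ),
      fun χ hχ ψ hψ => hdvz' χ (mem_fs.1 hχ) ψ (mem_fs.1 hψ), fun χ hχ => hposz χ (mem_fs.1 hχ)⟩
    c0 := hc0
    id := hid
    sumW := hsumW
    H0 := L.card_H0 S hv
    W0 := by
      intro χ hχ h0
      have h3 := (L.ht_zero_iff_odd S (mem_fs.1 hχ)).1 h0
      have h4 := L.par_Ev S h2 χ
      have h5 : ¬ (2 : ℤ) ∣ ∑ a ∈ Ev h2, L.nn S.toCyc2 χ a := by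
        intro h
        apply h3
        have := dvd_sub h h4
        rwa [sub_sub_cancel] at this
      have hlt := hWlt χ hχ
      have e1 := hVe0 χ
      have e2 := hVo0 χ
      have h6 := (hvc χ hχ (Ev h2) (card_Ev_Od h2).1 (by simp only [hW] at hlt; omega)).2 h5
      have h7 := (hvc χ hχ (Od h2) (card_Ev_Od h2).2 (by simp only [hW] at hlt; omega)).1 (L.par_Od S h2 χ)
      have hq3 : (q : ℤ) ≠ 3 := by
        intro h
        have h8 : q = 3 := by exact_mod_cast h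
        have h9 := m_div_four S.hr S.hm
        rw [← hq, h8] at h9
        rcases Nat.eq_zero_or_pos (r - 2) with h10 | h10
        · rw [h10] at h9; norm_num at h9
        · have : 2 ∣ 2 ^ (r - 2) := dvd_pow_self 2 (by omega)
          omega
      simp only [hW] at hlt ⊢
      rcases h6 with h6 | h6
      · rcases h7 with h7 | h7
        · left; rw [h6, h7.1]; ring
        · right
          rw [h6, h7.2] at hlt ⊢
          have h8 : q = 2 := by omega
          refine ⟨by rw [h8]; norm_num, Or.inl h8⟩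
      · have h8 : (q : ℤ) = 4 := by
          rcases h6.1 with h | h
          · exact absurd h hq3
          · exact h
        have h9 : q = 4 := by exact_mod_cast h8
        rcases h7 with h7 | h7
        · right
          rw [h6.2, h7.1]
          refine ⟨by rw [h9]; norm_num, Or.inr h9⟩
        · exfalso
          rw [h6.2, h7.2] at hlt
          omega
    W1 := by
      intro χ hχ h0
      have h3 : (2 : ℤ) ∣ L.sg S χ := by
        by_contra h
        exact h0 ((L.ht_zero_iff_odd S (mem_fs.1 hχ)).2 h)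
      have h4 := L.par_Ev S h2 χ
      have h5 : (2 : ℤ) ∣ ∑ a ∈ Ev h2, L.nn S.toCyc2 χ a := by
        have := dvd_add h4 h3
        rwa [sub_add_cancel] at this
      have hlt := hWlt χ hχ
      have e1 := hVe0 χ
      have e2 := hVo0 χ
      have h6 := (hvc χ hχ (Ev h2) (card_Ev_Od h2).1 (by simp only [hW] at hlt; omega)).1 h5
      have h7 := (hvc χ hχ (Od h2) (card_Ev_Od h2).2 (by simp only [hW] at hlt; omega)).1 (L.par_Od S h2 χ)
      simp only [hW] at hlt ⊢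
      rcases h6 with ⟨h6, c6, h6c⟩ | h6
      · rcases h7 with ⟨h7, c7, h7c⟩ | h7
        · left
          refine ⟨by rw [h6, h7]; ring, ?_⟩
          rw [L.T1_eq S h2, Finset.sum_congr rfl h6c, Finset.sum_congr rfl h7c, Finset.sum_const, Finset.sum_const,
            (card_Ev_Od h2).1, (card_Ev_Od h2).2, hm2, nsmul_eq_mul, nsmul_eq_mul, ← mul_add]
          push_cast
          exact dvd_mul_right _ _
        · right
          refine ⟨by omega, by rw [h6, h7.2]; ring⟩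
      · rcases h7 with h7 | h7
        · right
          refine ⟨by omega, by rw [h6.2, h7.1]; ring⟩
        · exfalso
          rw [h6.2, h7.2] at hlt
          omega
    hT := fun χ hχ => L.T1_val S (mem_fs.1 hχ) }

end LD

end Cfsg.Agent.Lib.Tame
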