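import Cfsg.Agent.Lib.TameQQ
import Cfsg.Agent.Lib.TameDihT

/-!
# Tame blocks with three Brauer characters: fusion
-/

set_option autoImplicit false
set_option linter.all false
set_option maxHeartbeats 400000

namespace Cfsg.Agent.Lib.Tame

open Cfsg Cfsg.Agent.Lib.BlockRing Cfsg.Agent.Lib.BlockGA Cfsg.Agent.Lib.BlockAlg
open Cfsg.Agent.Lib.BlockIdem
open Cfsg.Agent.Lib.H25BpS Cfsg.Agent.Lib.TameFour
open Cfsg.Agent.Lib.Subsec (Cz mem_Cz fs mem_fs)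
open Cfsg.Agent.Lib.TameGrp
open scoped ComplexConjugate Classical Pointwise

universe u

/-- dihedral and semidihedral groups -/
structure TG {Q : Type u} [Group Q] (m : ℕ) [NeZero m] (x : Q) (s : ZMod m) (r : ℕ) : Prop extends QS m x s r where
  alt : (s = -1 ∧ ∀ y : Q, y ∉ Subgroup.zpowers x → y * y = 1) ∨
    (s = ((m / 2 : ℕ) : ZMod m) - 1 ∧ 3 ≤ r ∧ ∃ y : Q, y ∉ Subgroup.zpowers x ∧ y * y = 1)

section grp

variable {Q : Type u} [Group Q] [Finite Q]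

theorem tg_dih {r : ℕ} (hr : 2 ≤ r) (φ : Q ≃* DihedralGroup (2 ^ r)) :
    haveI : NeZero (2 ^ r) := ⟨pow_ne_zero _ two_ne_zero⟩
    TG (2 ^ r) (φ.symm (DihedralGroup.r 1)) (-1) r := by
  haveI : NeZero (2 ^ r) := ⟨pow_ne_zero _ two_ne_zero⟩
  refine { toCyc2 := cyc2_dih φ, hr := hr, hm := rfl, hs' := Or.inl rfl, alt := Or.inl ⟨rfl, ?_⟩ }
  intro y hy
  apply φ.injective
  rw [map_mul, map_one]
  rcases h : φ y with i | i
  · exact absurd ((mem_zp_iff φ y).2 ⟨i, h⟩) hy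
  · rw [DihedralGroup.sr_mul_sr, sub_self]
    rfl

theorem tg_sd {r : ℕ} (hr : 3 ≤ r) (hcard : Nat.card Q = 2 ^ (r + 1)) {x y : Q} (hx : orderOf x = 2 ^ r)
    (hy : orderOf y = 2) (hxy : y * x * y⁻¹ = x ^ (2 ^ (r - 1) - 1)) :
    haveI : NeZero (2 ^ r) := ⟨pow_ne_zero _ two_ne_zero⟩
    TG (2 ^ r) x (((2 ^ r / 2 : ℕ) : ZMod (2 ^ r)) - 1) r := by
  haveI : NeZero (2 ^ r) := ⟨pow_ne_zero _ two_ne_zero⟩
  obtain ⟨S0, hyX⟩ := qs_sd hr hcard hx hy hxy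
  have hy2 : y * y = 1 := by
    have := pow_orderOf_eq_one y
    rwa [hy, pow_two] at this
  exact { toQS := S0, alt := Or.inr ⟨rfl, hr, y, hyX, hy2⟩ }

end grp

section blk

variable {M : Ideal AlgInt} [hMm : M.IsMaximal] [hchar : CharP (Kf M) 2]
  {G : Type u} [Group G] [Finite G] {B : Set (IrrCharacter G)} {P : Subgroup G} {e : MonoidAlgebra (Kf M) G}
  {m : ℕ} [NeZero m] {s : ZMod m} {r : ℕ}

/-- the numerical data together with the local information -/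
theorem core2 (h : Ctx 2 B P e) {x0 : P} (S0 : QS m x0 s r) :
    ∃ (W T : IrrCharacter G → ℤ) (a1 az : IrrCharacter G → IrrCharacter G → ℤ) (c : ℤ) (lz : ℕ),
      ND (fs B) (m / 4) r (fun χ => blockHeight 2 B (χ : G → ℂ)) W T a1 az c (blockRank 2 B) lz ∧
      (c : ℚ) = cX P e x0 := by
  have h2 : 2 ∣ m := two_dvd_m S0.hr S0.hm
  obtain ⟨N, b, e', v, ξ, x, L, S, hv, hxg⟩ := exists_LD_qs h S0
  obtain ⟨a1, az, bz, c, hle, hcB, -, -, hN⟩ := L.nd S hv h2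
  rw [cB_eq S0 hxg] at hcB
  exact ⟨_, _, a1, az, c, _, hN, hcB⟩

theorem wX_nonneg (x0 : P) (y : G) : 0 ≤ wX P e x0 y := by
  unfold wX
  split_ifs
  · exact le_rfl
  · positivity

theorem fused_of_cX (h : Ctx 2 B P e) (x0 : P) (h0 : cX P e x0 = 0) (y : P) (hy : y ∉ Subgroup.zpowers x0) :
    ∃ k ∈ Subgroup.zpowers x0, Fs 2 P e (y : G) (k : G) := by
  by_contra hno
  unfold cX at h0
  have h1 := (Finset.sum_eq_zero_iff_of_nonneg (fun y _ => by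
    split_ifs
    · exact le_rfl
    · exact wX_nonneg x0 _)).1 h0 y (@Finset.mem_univ P (Fintype.ofFinite P) y)
  rw [if_neg hy] at h1
  unfold wX at h1
  rw [if_neg hno, inv_eq_zero] at h1
  have h2 := nF_pos h.pair y.2
  exact h2.ne' (by exact_mod_cast h1)

/-- three Brauer characters: all elements of the defect group are fused into the cyclic subgroup -/
theorem cX_zero_dih (h : Ctx 2 B P e) {r : ℕ} (hr : 2 ≤ r) (φ : P ≃* DihedralGroup (2 ^ r))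
    (hl : blockRank 2 B = 3) : cX P e (φ.symm (DihedralGroup.r 1)) = 0 := by
  haveI : NeZero (2 ^ r) := ⟨pow_ne_zero _ two_ne_zero⟩
  obtain ⟨W, T, a1, az, c, lz, hN, hc⟩ := core2 h (tg_dih hr φ).toQS
  have hlz : 0 < lz := hN.Z.rank_pos hN.D_pos hN.ne
  have hk := hN.card_eq
  have h2 := hN.two_q
  have hc0 := hN.c0
  have h3 := (dih_main h hr φ).1
  rw [card_fs] at h3
  rw [hl, h2] at hk
  have h4 : ((fs B).card : ℤ) = 2 ^ (r - 1) + 3 := by rw [h3]; push_cast; rfl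
  have h5 : c = 0 := by omega
  rw [← hc, h5, Int.cast_zero]

theorem cX_zero_sd (h : Ctx 2 B P e) {x0 : P} (S0 : TG m x0 s r) (hs : s = ((m / 2 : ℕ) : ZMod m) - 1) (hr3 : 3 ≤ r)
    {y0 : P} (hy0 : y0 ∉ Subgroup.zpowers x0) (hy02 : y0 * y0 = 1)
    (hl : blockRank 2 B = 3) : cX P e x0 = 0 := by
  obtain ⟨W, T, a1, az, c, lz, hN, hc⟩ := core2 h S0.toQS
  have hk := hN.card_eq
  have h2 := hN.two_q
  have hc0 := hN.c0
  have h3 := (sd_main h S0.toQS hs hr3 hy0 hy02).2.2.2.1 hl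
  rw [card_fs] at h3
  have h5 : c = 0 := by
    by_cases hmin : ∀ χ ∈ fs B, blockHeight 2 B (χ : G → ℂ) = 0 → W χ = 2 * ((m / 4 : ℕ) : ℤ) - 1
    · have hq1 : 1 < m / 4 := by
        rw [hN.hq]
        exact Nat.one_lt_two_pow (by omega)
      have h6 := hN.card_small hmin hq1
      have hsp := hN.card_split
      have hb := hN.bound.2 (by rw [h6]; omega)
      have h2q : 2 * (m / 4) = 2 ^ (r - 1) := by exact_mod_cast h2
      set E := ((fs B).filter (fun χ : IrrCharacter G => blockHeight 2 B (χ : G → ℂ) ≠ 0 ∧ W χ = 0)).card with hE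
      set X := ((fs B).filter (fun χ : IrrCharacter G => blockHeight 2 B (χ : G → ℂ) ≠ 0 ∧ W χ ≠ 0)).card with hX
      rw [hl] at hk
      omega
    · push Not at hmin
      exact (hN.nonmin hmin).1
  rw [← hc, h5, Int.cast_zero]

theorem fused (h : Ctx 2 B P e)
    (hD : (∃ n : ℕ, 3 ≤ n ∧ Nonempty (P ≃* DihedralGroup (2 ^ (n - 1)))) ∨ IsQuasiDihedral P)
    (hl : blockRank 2 B = 3) : ∃ (m r : ℕ) (_ : NeZero m) (s : ZMod m) (x0 : P), TG m x0 s r ∧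
      ∀ y : P, y ∉ Subgroup.zpowers x0 → ∃ k ∈ Subgroup.zpowers x0, ∃ g : G, g * y * g⁻¹ = k := by
  rcases hD with ⟨n, hn, ⟨φ⟩⟩ | ⟨r, hr, hc, x, y, hx, hy, hxy⟩
  · haveI : NeZero (2 ^ (n - 1)) := ⟨pow_ne_zero _ two_ne_zero⟩
    refine ⟨2 ^ (n - 1), n - 1, inferInstance, -1, _, tg_dih (by omega) φ, fun y hy => ?_⟩
    obtain ⟨k, hk, g, hg, hgk⟩ := fused_of_cX h _ (cX_zero_dih h (by omega) φ hl) y hy
    exact ⟨k, hk, g, hgk⟩
  · haveI : NeZero (2 ^ r) := ⟨pow_ne_zero _ two_ne_zero⟩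
    obtain ⟨S0, hyX⟩ := qs_sd hr hc hx hy hxy
    have hy2 : y * y = 1 := by
      have := pow_orderOf_eq_one y
      rwa [hy, pow_two] at this
    refine ⟨2 ^ r, r, inferInstance, _, _, tg_sd hr hc hx hy hxy, fun y' hy' => ?_⟩
    obtain ⟨k, hk, g, hg, hgk⟩ := fused_of_cX h _ (cX_zero_sd h (tg_sd hr hc hx hy hxy) rfl hr hyX hy2 hl) y' hy'
    exact ⟨k, hk, g, hgk⟩

end blk

end Cfsg.Agent.Lib.Tame
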