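import Cfsg.Agent.Lib.TameNS
import Cfsg.Agent.Lib.H32PSolv
import Cfsg.Agent.Lib.Cores
import Cfsg.Agent.Lib.PLength

/-!
# Groups whose dihedral or semidihedral subgroup is fused into its cyclic subgroup
-/

set_option autoImplicit false
set_option linter.all false
set_option maxHeartbeats 400000

namespace Cfsg.Agent.Lib.Tame

open Cfsg Cfsg.Agent.Lib Cfsg.Agent.Lib.TameFour
open Cfsg.Agent.Lib.TameGrp
open scoped Classical Pointwise

universe u

section grp

variable {Q : Type u} [Group Q] [Finite Q] {m : ℕ} [NeZero m] {x : Q} {s : ZMod m} {r : ℕ}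

theorem TG.exists_inv (S : TG m x s r) : ∃ y : Q, y ∉ Subgroup.zpowers x ∧ y * y = 1 := by
  rcases S.alt with ⟨-, h⟩ | ⟨-, -, h⟩
  · have h1 : Subgroup.zpowers x ≠ ⊤ := by
      intro h2
      have := S.toQS.index
      rw [h2, Subgroup.index_top] at this
      omega
    obtain ⟨y, hy⟩ : ∃ y : Q, y ∉ Subgroup.zpowers x := by
      by_contra hcon
      push Not at hcon
      exact h1 ((Subgroup.eq_top_iff' _).2 hcon)
    exact ⟨y, hy, h y hy⟩
  · exact h

theorem TG.center (S : TG m x s r) {t : Q} (ht : ∀ q : Q, Commute t q) : t = 1 ∨ t = xp x ((m / 2 : ℕ) : ZMod m) := by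
  have hw := quarter_ne S.hr S.hm
  by_cases htX : t ∈ Subgroup.zpowers x
  · obtain ⟨y, hy, -⟩ := S.exists_inv
    exact S.toQS.comm_out hy htX (ht y).symm
  · exfalso
    rcases S.toQS.comm_out htX ((mem_zpowers_iff S.hx).2 ⟨((m / 4 : ℕ) : ZMod m), rfl⟩) (ht _) with h | h
    · rw [← xp_zero S.hx] at h
      exact hw.1 (xp_injective S.hx h)
    · exact hw.2 (xp_injective S.hx h)

theorem TG.map {Q' : Type u} [Group Q'] [Finite Q'] (S : TG m x s r) (ψ : Q ≃* Q') : TG m (ψ x) s r where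
  toQS := S.toQS.map ψ
  alt := by
    have hmem : ∀ y : Q, ψ y ∈ Subgroup.zpowers (ψ x) ↔ y ∈ Subgroup.zpowers x := by
      intro y
      constructor
      · rintro ⟨j, hj⟩
        have hj' : (ψ x) ^ j = ψ y := hj
        rw [← map_zpow] at hj'
        exact ⟨j, ψ.injective hj'⟩
      · rintro ⟨j, hj⟩
        have hj' : x ^ j = y := hj
        exact ⟨j, by show (ψ x) ^ j = ψ y; rw [← map_zpow, hj']⟩
    rcases S.alt with ⟨h1, h2⟩ | ⟨h1, h2, y, hy, hy2⟩
    · left
      refine ⟨h1, fun y' hy' => ?_⟩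
      obtain ⟨y, rfl⟩ := ψ.surjective y'
      rw [← map_mul, h2 y (fun h => hy' ((hmem y).2 h)), map_one]
    · right
      refine ⟨h1, h2, ψ y, fun h => hy ((hmem y).1 h), ?_⟩
      rw [← map_mul, hy2, map_one]

theorem TG.s_sub (S : TG m x s r) : s - 1 ≠ 0 := by
  intro h
  have h1 : s * 1 = 1 := by rw [mul_one]; exact sub_eq_zero.1 h
  have h4 := four_dvd_m S.hr S.hm
  have hm := NeZero.pos m
  rcases S.toQS.s_fix.1 h1 with h2 | h2
  · have : ((1 : ℕ) : ZMod m) = 0 := by rw [Nat.cast_one]; exact h2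
    rw [ZMod.natCast_eq_zero_iff] at this
    have := Nat.dvd_one.1 this
    omega
  · have h3 : ((m / 2 : ℕ) : ZMod m) = ((1 : ℕ) : ZMod m) := by rw [Nat.cast_one]; exact h2.symm
    rw [ZMod.natCast_eq_natCast_iff'] at h3
    rw [Nat.mod_eq_of_lt (by omega), Nat.mod_eq_of_lt (by omega)] at h3
    omega

end grp

/-- all outside elements are fused into the cyclic subgroup -/
def Fus {G : Type u} [Group G] (P : Subgroup G) (x0 : P) : Prop :=
  ∀ y : P, y ∉ Subgroup.zpowers x0 → ∃ k ∈ Subgroup.zpowers x0, ∃ g : G, g * y * g⁻¹ = k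

section fus

variable {G : Type u} [Group G] [Finite G] {P : Subgroup G} {m : ℕ} [NeZero m] {x0 : P} {s : ZMod m} {r : ℕ}

theorem conj_z (S : TG m x0 s r) (hF : Fus P x0) {y : P} (hy : y ∉ Subgroup.zpowers x0) (hy2 : y * y = 1) :
    ∃ g : G, g * y * g⁻¹ = ((xp x0 ((m / 2 : ℕ) : ZMod m) : P) : G) := by
  obtain ⟨k, hk, g, hg⟩ := hF y hy
  refine ⟨g, ?_⟩
  obtain ⟨i, rfl⟩ := (mem_zpowers_iff S.hx).1 hk
  have hyy : (y : G) * y = 1 := congrArg Subtype.val hy2
  have h1 : xp x0 i * xp x0 i = 1 := by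
    apply Subtype.ext
    show ((xp x0 i : P) : G) * (xp x0 i : P) = 1
    rw [← hg]
    calc g * (y : G) * g⁻¹ * (g * (y : G) * g⁻¹) = g * ((y : G) * y) * g⁻¹ := by group
      _ = 1 := by rw [hyy]; group
  rcases S.toQS.sq_in.1 h1 with h | h
  · exfalso
    rw [h, xp_zero S.hx] at hg
    have h2 : (y : G) = 1 := conj_eq_one_iff.1 hg
    have h3 : y = 1 := Subtype.ext h2
    exact hy (h3 ▸ Subgroup.one_mem _)
  · rw [h] at hg
    exact hg

theorem no_central (S : TG m x0 s r) (hF : Fus P x0) {t : P} (ht : ∀ g : G, g * t * g⁻¹ = t) : t = 1 := by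
  have h1 : ∀ q : P, Commute t q := by
    intro q
    apply Subtype.ext
    show (t : G) * q = q * t
    have := ht q
    rw [mul_inv_eq_iff_eq_mul] at this
    exact this.symm
  rcases S.center h1 with h | h
  · exact h
  · exfalso
    obtain ⟨y, hy, hy2⟩ := S.exists_inv
    obtain ⟨g, hg⟩ := conj_z S hF hy hy2
    rw [← h] at hg
    have h2 : (y : G) = t := by
      have h3 := ht g
      have h4 := hg.trans h3.symm
      exact mul_left_cancel (mul_right_cancel h4)
    have h3 : y = xp x0 ((m / 2 : ℕ) : ZMod m) := by rw [← h]; exact Subtype.ext h2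
    exact hy (h3 ▸ (mem_zpowers_iff S.hx).2 ⟨_, rfl⟩)

theorem no_constrained (S : TG m x0 s r) (hF : Fus P x0) (A : Subgroup G) [hA : A.Normal] (hAP : A ≤ P)
    (hC : Subgroup.centralizer (A : Set G) ≤ A) : False := by
  set z0 : P := xp x0 ((m / 2 : ℕ) : ZMod m) with hz0
  have hz1 : z0 ≠ 1 := S.toQS.z_ne
  set A0 : Subgroup P := A.subgroupOf P with hA0
  have hA0n : A0.Normal := hA.subgroupOf P
  have hmA : ∀ q : P, q ∈ A0 ↔ (q : G) ∈ A := fun q => Subgroup.mem_subgroupOf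
  -- inside elements
  have hin : ∀ i : ZMod m, i ≠ 0 → xp x0 i ∈ A0 → z0 ∈ A0 := by
    intro i hi hiA
    by_cases hi2 : i = ((m / 2 : ℕ) : ZMod m)
    · rw [hz0, ← hi2]; exact hiA
    · have h1 := S.toQS.quarter_mem hi hi2
      have h2 : xp x0 ((m / 4 : ℕ) : ZMod m) ∈ A0 := (Subgroup.zpowers_le.2 hiA) h1
      have h3 := A0.mul_mem h2 h2
      rw [← xp_add S.hx, quarter_add S.hr S.hm] at h3
      exact h3
  -- commutators
  have hcom : ∀ y : P, y ∉ Subgroup.zpowers x0 → y ∈ A0 → xp x0 (s - 1) ∈ A0 := by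
    intro y hy hyA
    have h1 : y * (x0 * y⁻¹ * x0⁻¹) ∈ A0 := A0.mul_mem hyA (hA0n.conj_mem _ (A0.inv_mem hyA) x0)
    have h2 : y * (x0 * y⁻¹ * x0⁻¹) = xp x0 (s - 1) := by
      have h3 : y * x0 * y⁻¹ = xp x0 s := S.hconj y hy
      have h4 : xp x0 s = xp x0 (s - 1) * x0 := by
        have h5 : xp x0 (1 : ZMod m) = x0 := by
          have := xp_natCast S.hx 1
          rw [Nat.cast_one, pow_one] at this
          exact this
        nth_rewrite 3 [← h5]
        rw [← xp_add S.hx, sub_add_cancel]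
      calc y * (x0 * y⁻¹ * x0⁻¹) = (y * x0 * y⁻¹) * x0⁻¹ := by group
        _ = xp x0 (s - 1) := by rw [h3, h4, mul_inv_cancel_right]
    rw [← h2]; exact h1
  have hne : A ≠ ⊥ := by
    rintro rfl
    have h1 : (z0 : G) ∈ (⊥ : Subgroup G) := by
      apply hC
      rw [Subgroup.mem_centralizer_iff]
      intro h hh
      rw [Subgroup.coe_bot, Set.mem_singleton_iff] at hh
      rw [hh, one_mul, mul_one]
    exact hz1 (Subtype.ext (Subgroup.mem_bot.1 h1))
  obtain ⟨a, ha, ha1⟩ : ∃ a : P, a ∈ A0 ∧ a ≠ 1 := by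
    obtain ⟨a, ha⟩ := Subgroup.ne_bot_iff_exists_ne_one.1 hne
    refine ⟨⟨(a : G), hAP a.2⟩, a.2, fun h => ha ?_⟩
    have h1 : (a : G) = 1 := congrArg (Subtype.val : P → G) h
    exact Subtype.ext h1
  have hzA : z0 ∈ A0 := by
    by_cases haX : a ∈ Subgroup.zpowers x0
    · obtain ⟨i, rfl⟩ := (mem_zpowers_iff S.hx).1 haX
      apply hin i _ ha
      rintro rfl
      exact ha1 (xp_zero S.hx)
    · exact hin _ S.s_sub (hcom a haX ha)
  have hback : ∀ (g : G) (y k : P), g * y * g⁻¹ = k → k ∈ A0 → y ∈ A0 := by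
    intro g y k hg hk
    rw [hmA] at hk ⊢
    have h1 := hA.conj_mem _ hk g⁻¹
    rw [← hg] at h1
    have h2 : g⁻¹ * (g * (y : G) * g⁻¹) * g⁻¹⁻¹ = y := by group
    rwa [h2] at h1
  have hinv : ∀ y : P, y ∉ Subgroup.zpowers x0 → y * y = 1 → y ∈ A0 := by
    intro y hy hy2
    obtain ⟨g, hg⟩ := conj_z S hF hy hy2
    exact hback g y z0 hg hzA
  obtain ⟨y0, hy0, hy02⟩ := S.exists_inv
  have hy0A := hinv y0 hy0 hy02
  have hout : ∀ y : P, y ∉ Subgroup.zpowers x0 → y ∈ A0 := by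
    intro y hy
    rcases S.alt with ⟨-, h⟩ | ⟨hs, hr3, -⟩
    · exact hinv y hy (h y hy)
    · have h1 := hcom y0 hy0 hy0A
      have h2 : s - 1 ≠ ((m / 2 : ℕ) : ZMod m) := by
        intro h3
        rw [hs, sub_sub, sub_eq_self] at h3
        have h4 : ((2 : ℕ) : ZMod m) = 0 := by
          push_cast
          rw [← h3]; norm_num
        rw [ZMod.natCast_eq_zero_iff] at h4
        have h5 := Nat.le_of_dvd (by norm_num) h4
        have h6 := Nat.le_of_dvd (NeZero.pos m) (four_dvd_m S.hr S.hm)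
        omega
      have h3 : xp x0 ((m / 4 : ℕ) : ZMod m) ∈ A0 := (Subgroup.zpowers_le.2 h1) (S.toQS.quarter_mem S.s_sub h2)
      obtain ⟨k, hk, g, hg⟩ := hF y hy
      apply hback g y k hg
      obtain ⟨i, rfl⟩ := (mem_zpowers_iff S.hx).1 hk
      have h4 : y ^ 4 = 1 := S.toQS.pow_out hy
      have h5 : (xp x0 i) ^ 4 = 1 := by
        apply Subtype.ext
        show ((xp x0 i : P) : G) ^ 4 = 1
        have h6 : (y : G) ^ 4 = 1 := congrArg Subtype.val h4
        rw [← hg, conj_pow, h6, mul_one, mul_inv_cancel]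
      exact (Subgroup.zpowers_le.2 h3) (S.toQS.four_in h5)
  have htop : ∀ q : P, q ∈ A0 := by
    intro q
    by_cases hq : q ∈ Subgroup.zpowers x0
    · have h1 : y0 * q ∉ Subgroup.zpowers x0 := by
        intro h
        apply hy0
        have := (Subgroup.zpowers x0).mul_mem h ((Subgroup.zpowers x0).inv_mem hq)
        rwa [mul_inv_cancel_right] at this
      have h2 := A0.mul_mem (A0.inv_mem hy0A) (hout _ h1)
      rwa [inv_mul_cancel_left] at h2
    · exact hout q hq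
  have hPA : ∀ g : G, ∀ q ∈ P, g * q * g⁻¹ ∈ P := by
    intro g q hq
    apply hAP
    exact hA.conj_mem _ ((hmA ⟨q, hq⟩).1 (htop ⟨q, hq⟩)) g
  -- the central involution is central in the whole group
  have hcen : ∀ g : G, g * (z0 : G) * g⁻¹ = z0 := by
    intro g
    have h1 : ∀ q : P, Commute (⟨g * (z0 : G) * g⁻¹, hPA g _ z0.2⟩ : P) q := by
      intro q
      apply Subtype.ext
      show g * (z0 : G) * g⁻¹ * q = q * (g * (z0 : G) * g⁻¹)
      have h2 := S.toQS.zz_comm ⟨g⁻¹ * q * g⁻¹⁻¹, hPA g⁻¹ _ q.2⟩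
      have h3 : (z0 : G) * (g⁻¹ * q * g⁻¹⁻¹) = (g⁻¹ * q * g⁻¹⁻¹) * z0 := congrArg Subtype.val h2
      calc g * (z0 : G) * g⁻¹ * q = g * ((z0 : G) * (g⁻¹ * q * g⁻¹⁻¹)) * g⁻¹ := by group
        _ = g * ((g⁻¹ * q * g⁻¹⁻¹) * z0) * g⁻¹ := by rw [h3]
        _ = q * (g * (z0 : G) * g⁻¹) := by group
    rcases S.center h1 with h | h
    · exfalso
      have h2 : g * (z0 : G) * g⁻¹ = 1 := congrArg Subtype.val h
      rw [conj_eq_one_iff] at h2
      exact hz1 (Subtype.ext h2)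
    · exact congrArg Subtype.val h
  exact hz1 (no_central S hF hcen)

/-- such a subgroup is not a Sylow subgroup of a `2`-solvable group -/
theorem no_psolvable (hS : IsPSolvable 2 G) (P : Sylow 2 G) {x0 : (P : Subgroup G)} (S : TG m x0 s r)
    (hF : Fus (P : Subgroup G) x0) : False := by
  haveI : Fact (Nat.Prime 2) := ⟨Nat.prime_two⟩
  set N := pPrimeCore 2 G with hN
  have hNn : N.Normal := inferInstance
  set π := QuotientGroup.mk' N with hπ
  have hπs : Function.Surjective π := QuotientGroup.mk'_surjective N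
  have hPN : (P : Subgroup G) ⊓ N = ⊥ := Cores.isPGroup_inf_pPrimeCore P.2
  set P' : Subgroup (G ⧸ N) := (P : Subgroup G).map π with hP'
  have hinj : Function.Injective (π.subgroupMap (P : Subgroup G)) := by
    rw [injective_iff_map_eq_one]
    intro a ha
    have h1 : π (a : G) = 1 := congrArg Subtype.val ha
    have h2 : (a : G) ∈ N := (QuotientGroup.eq_one_iff _).1 h1
    have h3 : (a : G) ∈ (P : Subgroup G) ⊓ N := ⟨a.2, h2⟩
    rw [hPN, Subgroup.mem_bot] at h3
    exact Subtype.ext h3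
  let ψ : (P : Subgroup G) ≃* P' :=
    MulEquiv.ofBijective (π.subgroupMap (P : Subgroup G)) ⟨hinj, π.subgroupMap_surjective (P : Subgroup G)⟩
  have hψ : ∀ a : (P : Subgroup G), ((ψ a : P') : G ⧸ N) = π (a : G) := fun a => rfl
  have S' : TG m (ψ x0) s r := S.map ψ
  have hF' : Fus P' (ψ x0) := by
    intro y' hy'
    obtain ⟨y, rfl⟩ := ψ.surjective y'
    have hy : y ∉ Subgroup.zpowers x0 := by
      rintro ⟨j, hj⟩
      have hj' : x0 ^ j = y := hj
      exact hy' ⟨j, by show (ψ x0) ^ j = ψ y; rw [← map_zpow, hj']⟩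
    obtain ⟨k, ⟨j, hj⟩, g, hg⟩ := hF y hy
    have hj' : x0 ^ j = k := hj
    refine ⟨ψ k, ⟨j, by show (ψ x0) ^ j = ψ k; rw [← map_zpow, hj']⟩, π g, ?_⟩
    rw [hψ, hψ, ← map_inv, ← map_mul, ← map_mul, hg]
  have hAP : pCore 2 (G ⧸ N) ≤ P' := by
    have h1 := Cores.pCore_le_sylow (P.mapSurjective hπs)
    rwa [Sylow.coe_mapSurjective] at h1
  have hC : Subgroup.centralizer (pCore 2 (G ⧸ N) : Set (G ⧸ N)) ≤ pCore 2 (G ⧸ N) :=
    H32PSolv.centralizer_pCore_le (H32PSolv.isPSolvable_quotient hS N) (Cores.pPrimeCore_quotient_pPrimeCore 2 G)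
  exact no_constrained S' hF' (pCore 2 (G ⧸ N)) hAP hC

end fus

end Cfsg.Agent.Lib.Tame
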