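import Cfsg.Agent.Lib.TameNS2
import Cfsg.Agent.Lib.H76KL3
import Cfsg.Agent.S4492
import Cfsg.Agent.S4435
import Cfsg.Agent.S4436
import Cfsg.Agent.Lib.BlockNormP

/-!
# Tame blocks with three Brauer characters: solvable groups
-/

set_option autoImplicit false
set_option linter.all false
set_option maxHeartbeats 400000

namespace Cfsg.Agent.Lib.Tame

open Cfsg Cfsg.Agent.Lib Cfsg.Agent.Lib.BlockRing Cfsg.Agent.Lib.BlockGA Cfsg.Agent.Lib.BlockIdem
open Cfsg.Agent.Lib.BlockOsima Cfsg.Agent.Lib.BlockPair Cfsg.Agent.Lib.BlockFong Cfsg.Agent.Lib.BlockCover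
open Cfsg.Agent.Lib.CharBasic Cfsg.Agent.Lib.BlockCount Cfsg.Agent.Lib.BlockSecond Cfsg.Agent.Lib.Clifford
open Cfsg.Agent.Lib.CliffordCorr Cfsg.Agent.Lib.H76KL Cfsg.Agent.Lib.BlockInd Cfsg.Agent.Lib.BlockDefect
open scoped ComplexConjugate Classical

universe u

/-- dihedral of order at least eight or semidihedral -/
def TameHyp (Q : Type u) [Group Q] : Prop :=
  (∃ n : ℕ, 3 ≤ n ∧ Nonempty (Q ≃* DihedralGroup (2 ^ (n - 1)))) ∨ IsQuasiDihedral Q

theorem TameHyp.iso {Q Q' : Type u} [Group Q] [Group Q'] (ψ : Q ≃* Q') (h : TameHyp Q) : TameHyp Q' := by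
  rcases h with ⟨n, hn, ⟨φ⟩⟩ | ⟨r, hr, hc, x, y, hx, hy, hxy⟩
  · exact Or.inl ⟨n, hn, ⟨ψ.symm.trans φ⟩⟩
  · refine Or.inr ⟨r, hr, ?_, ψ x, ψ y, ?_, ?_, ?_⟩
    · rw [← hc]; exact (Nat.card_congr ψ.toEquiv).symm
    · rw [MulEquiv.orderOf_eq, hx]
    · rw [MulEquiv.orderOf_eq, hy]
    · rw [← map_inv, ← map_mul, ← map_mul, hxy, map_pow]

/-- fusion into the cyclic subgroup -/
theorem exists_fus {G : Type u} [Group G] [Finite G] {M : Ideal AlgInt} (hM : IsPModular 2 M)
    {B : Set (IrrCharacter G)} (hB : IsPBlock M B) {D : Subgroup G} (hD : IsDefectGroup 2 M B D) (hT : TameHyp D)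
    (hl : blockRank 2 B = 3) : ∃ (m r : ℕ) (_ : NeZero m) (s : ZMod m) (x0 : D), TG m x0 s r ∧ Fus D x0 := by
  haveI : M.IsMaximal := hM.2.1
  haveI := Cfsg.Agent.Lib.BlockAlg.charP_Kf hM
  obtain ⟨e, he⟩ := exists_ctx hM hB hD
  exact fused he hT hl

theorem psolv_false {M : Ideal AlgInt} (hM : IsPModular 2 M) (n : ℕ) : ∀ (G : Type u) [Group G] [Finite G], Nat.card G = n →
    IsPSolvable 2 G → ∀ B : Set (IrrCharacter G), IsPBlock M B → blockRank 2 B = 3 →
    ∀ D : Subgroup G, IsDefectGroup 2 M B D → TameHyp D → False := by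
  induction n using Nat.strong_induction_on with
  | _ n ih =>
    intro G _ _ hn hS B hB hk D hD hT0
    haveI hMp := isPrime hM
    haveI : Fact (Nat.Prime 2) := ⟨hM.1⟩
    have := Fintype.ofFinite G
    set N := pPrimeCore 2 G with hNdef
    have hNn : N.Normal := inferInstance
    have := Fintype.ofFinite N
    have hNp : (Nat.card N).Coprime 2 := Cores.coprime_card_pPrimeCore 2 G
    obtain ⟨χ, hχ⟩ := isPBlock_nonempty hB
    obtain ⟨θ, hθ⟩ := exists_constituent_res N χ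
    have hf0 : (Nat.card N).factorization 2 = 0 := by
      apply Nat.factorization_eq_zero_of_not_dvd
      intro h
      have := Nat.dvd_gcd h (dvd_refl 2)
      rw [hNp] at this
      exact hM.1.one_lt.ne' (Nat.dvd_one.1 this)
    have hsing : blockOf M (θ : N → ℂ) = {θ} := BlockDefZero.blockOf_eq_singleton hM θ (by
      rw [hf0]
      have h1 := BlockDeg.nuDeg_le_card (p := 2) θ.2
      rw [hf0] at h1
      exact Nat.le_zero.1 h1)
    have hbl : IsPBlock M ({θ} : Set (IrrCharacter N)) := ⟨θ, hsing.symm⟩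
    set T := inertia N (θ : N → ℂ) with hTdef
    have := Fintype.ofFinite T
    have hNT : N ≤ T := le_inertia θ.2.isClassFunction
    have hT : ∀ g : G, g ∈ T ↔ ∀ θ₁ ∈ ({θ} : Set (IrrCharacter N)), ∀ θ' : IrrCharacter N,
        (∀ n : N, (θ' : N → ℂ) n = (θ₁ : N → ℂ) ⟨g * n * g⁻¹, hNn.conj_mem n n.2 g⟩) → θ' ∈ ({θ} : Set (IrrCharacter N)) := by
      intro g
      rw [hTdef, mem_inertia]
      constructor
      · intro hg θ₁ hθ₁ θ' h'
        rw [Set.mem_singleton_iff] at hθ₁ ⊢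
        subst hθ₁
        apply Subtype.ext
        rw [← hg]
        funext n
        exact h' n
      · intro h
        have h1 := h θ rfl ⟨cj N g (θ : N → ℂ), isIrrCharacter_cj θ.2 g⟩ (fun n => rfl)
        rw [Set.mem_singleton_iff] at h1
        exact congrArg Subtype.val h1
    have hχθ : classInner (fun n : N => (χ : G → ℂ) n) (θ : N → ℂ) ≠ 0 := hθ
    have hs : Stab ({θ} : Set (IrrCharacter N)) T := stab_of hbl hT hNT
    have hlb : LocA M (eB ({θ} : Set (IrrCharacter N))) := locA_eB hbl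
    obtain ⟨-, -, h3⟩ := Cfsg.Agent.S4435.result 2 M hM N _ hbl T hT hNT
    obtain ⟨B', hB', hcov, hind⟩ := h3 B hB ⟨χ, hχ, θ, rfl, hχθ⟩
    obtain ⟨ψ₀, hψ₀, hover⟩ := hcov
    obtain ⟨χ₀, hχ₀, hind', hmem⟩ := fong_main hs (unionOfBlocks_of_isPBlock hbl) hB' hψ₀ hover
    have e1 := induced_unique hind' hind
    rw [e1] at hmem
    have hover' : ∀ ψ ∈ B', Over hs.hNT ({θ} : Set (IrrCharacter N)) ψ := fun ψ hψ =>
      over_all hs hlb (sameBlock_of_mem hB' hψ₀ hψ) hover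
    have hirr : ∀ ψ ∈ B', IsIrrCharacter G (indFun T (ψ : T → ℂ)) := fun ψ hψ => ind_irr hs (hover' ψ hψ)
    have hinj : ∀ ψ ∈ B', ∀ ψ' ∈ B', indFun T (ψ : T → ℂ) = indFun T (ψ' : T → ℂ) → ψ = ψ' := by
      intro ψ hψ ψ' hψ' h
      apply ind_inj hs (hover' ψ hψ) (hover' ψ' hψ') (χ := ⟨_, hirr ψ hψ⟩) rfl
      show classInner (indFun T (ψ' : T → ℂ)) (indFun T (ψ : T → ℂ)) ≠ 0
      rw [h, (hirr ψ' hψ').classInner_self]
      exact one_ne_zero
    have hrank : blockRank 2 B = blockRank 2 B' := rank_ind hM T hB' hmem hirr hinj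
    by_cases hTtop : T = ⊤
    · -- `θ` is invariant
      obtain ⟨B₁, hB₁, h4, h5, h6⟩ := Cfsg.Agent.S4492.result 2 M hM hS N hNdef θ (by
        intro g n
        have h7 : g ∈ T := by rw [hTtop]; exact Subgroup.mem_top g
        rw [hTdef, mem_inertia'] at h7
        exact h7 n)
      have h7 : χ ∈ B₁ := (h4 χ).2 hχθ
      have h8 : B₁ = B := block_eq_of_mem hB₁ hB h7 hχ
      subst h8
      obtain ⟨m, r, hm, s, x0, hTG, hF⟩ := exists_fus hM hB hD hT0 hk
      obtain ⟨P, rfl⟩ := h6 D hD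
      exact no_psolvable hS P hTG hF
    · have hlt : Nat.card T < n := by
        rw [← hn]
        refine lt_of_le_of_ne (Subgroup.card_le_card_group T) (fun h => hTtop ?_)
        exact Subgroup.eq_top_of_card_eq T h
      obtain ⟨D', hD'⟩ := exists_defectGroup hM hB'
      have h5 := (Cfsg.Agent.S4436.result 2 M hM N _ hbl T hT hNT B' hB' ⟨ψ₀, hψ₀, hover⟩ B hind).1 D' hD'
      obtain ⟨x, hx⟩ := defectGroup_conj hM hB h5 hD
      have e1 : D' ≃* (D'.map T.subtype : Subgroup G) :=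
        D'.equivMapOfInjective _ (Subgroup.subtype_injective _)
      have e2 : (D'.map T.subtype : Subgroup G) ≃* D := by
        rw [hx]
        exact Subgroup.equivMapOfInjective _ _ (MulAut.conj x).injective
      exact ih _ hlt T rfl (H32PSolv.isPSolvable_subgroup hS T) B' hB' (by rw [← hrank]; exact hk) D' hD'
        (hT0.iso (e1.trans e2).symm)

/-- the centre has odd order -/
theorem center_odd {G : Type u} [Group G] [Finite G] {M : Ideal AlgInt} (hM : IsPModular 2 M)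
    {B : Set (IrrCharacter G)} (hB : IsPBlock M B) {D : Subgroup G} (hD : IsDefectGroup 2 M B D) (hT : TameHyp D)
    (hl : blockRank 2 B = 3) : Odd (Nat.card (Subgroup.center G)) := by
  haveI : Fact (Nat.Prime 2) := ⟨Nat.prime_two⟩
  obtain ⟨m, r, hm, s, x0, hTG, hF⟩ := exists_fus hM hB hD hT hl
  by_contra hodd
  rw [Nat.not_odd_iff_even] at hodd
  obtain ⟨t, ht⟩ := exists_prime_orderOf_dvd_card' 2 hodd.two_dvd
  have ht' : orderOf (t : G) = 2 := by rw [← ht]; exact Subgroup.orderOf_coe t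
  have htc : ∀ g : G, g * (t : G) * g⁻¹ = t := by
    intro g
    rw [mul_inv_eq_iff_eq_mul]
    exact Subgroup.mem_center_iff.1 t.2 g
  have hn : (Subgroup.zpowers (t : G)).Normal := by
    refine ⟨?_⟩
    rintro _ ⟨j, rfl⟩ g
    refine ⟨j, ?_⟩
    show (t : G) ^ j = g * (t : G) ^ j * g⁻¹
    rw [← conj_zpow, htc]
  have hp : IsPGroup 2 (Subgroup.zpowers (t : G)) := by
    apply IsPGroup.of_card (n := 1)
    rw [Nat.card_zpowers, ht', pow_one]
  have h1 : Subgroup.zpowers (t : G) ≤ D := BlockNormP.le_defectGroup hM hp hB hD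
  have h2 : (t : G) ∈ D := h1 (Subgroup.mem_zpowers _)
  have h3 := no_central hTG hF (t := ⟨(t : G), h2⟩) htc
  have h4 : (t : G) = 1 := congrArg Subtype.val h3
  rw [h4, orderOf_one] at ht'
  omega

end Cfsg.Agent.Lib.Tame
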