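import Cfsg.Agent.Lib.TameInt
import Cfsg.Agent.Lib.BlockSmall

/-!
# Upper bounds for the 2-regular rank from integral vectors orthogonal to the regular columns
-/

set_option autoImplicit false
set_option linter.all false
set_option maxHeartbeats 400000

namespace Cfsg.Agent.Lib.Tame

open Cfsg
open Cfsg.Agent.Lib.BlockCount (Bl D rsp rsp_orth sum_blockPart blockRank_eq)
open Cfsg.Agent.Lib.BlockPair (preg)
open Cfsg.Agent.Lib.Subsec (Cz mem_Cz al al_eq al_mem fs mem_fs sum_fs)
open scoped ComplexConjugate Classical Pointwise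

universe u

variable {G : Type u} [Group G] [Finite G]

/-- independent relations between the rows bound the rank -/
theorem rank_add_le {p : ℕ} {B : Set (IrrCharacter G)} {ι : Type*} [Fintype ι] (w : ι → B → ℂ)
    (hw : LinearIndependent ℂ w)
    (hcol : ∀ i, ∀ g : G, ¬ p ∣ orderOf g → ∑ᶠ χ : B, w i χ * ((χ : IrrCharacter G) : G → ℂ) g = 0) :
    blockRank p B + Fintype.card ι ≤ Nat.card B := by
  have := Fintype.ofFinite B
  rw [blockRank_eq]
  let Φ : (B → ℂ) →ₗ[ℂ] (G → ℂ) :=
    { toFun := fun c => ∑ χ : B, c χ • preg p ((χ : IrrCharacter G) : G → ℂ)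
      map_add' := fun c d => by
        rw [← Finset.sum_add_distrib]
        exact Finset.sum_congr rfl fun χ _ => by rw [Pi.add_apply, add_smul]
      map_smul' := fun a c => by
        rw [RingHom.id_apply, Finset.smul_sum]
        exact Finset.sum_congr rfl fun χ _ => by rw [Pi.smul_apply, smul_eq_mul, mul_smul] }
  have hΦ : ∀ c, Φ c = ∑ χ : B, c χ • preg p ((χ : IrrCharacter G) : G → ℂ) := fun c => rfl
  have hrange : LinearMap.range Φ = rsp p B := by
    apply le_antisymm
    · rintro _ ⟨c, rfl⟩
      rw [hΦ]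
      refine Submodule.sum_mem _ fun χ _ => Submodule.smul_mem _ _ (Submodule.subset_span ⟨χ, χ.2, rfl⟩)
    · unfold rsp
      rw [Submodule.span_le]
      rintro _ ⟨χ, hχ, rfl⟩
      refine ⟨Pi.single ⟨χ, hχ⟩ 1, ?_⟩
      rw [hΦ, Finset.sum_eq_single (⟨χ, hχ⟩ : B)]
      · rw [Pi.single_eq_same, one_smul]
      · intro ψ _ hψ
        rw [Pi.single_eq_of_ne hψ, zero_smul]
      · intro h; exact absurd (Finset.mem_univ _) h
  have hker : ∀ i, w i ∈ LinearMap.ker Φ := by
    intro i
    rw [LinearMap.mem_ker, hΦ]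
    funext g
    rw [Finset.sum_apply, Pi.zero_apply]
    by_cases hg : p ∣ orderOf g
    · apply Finset.sum_eq_zero
      intro χ _
      rw [Pi.smul_apply]
      unfold preg
      rw [if_pos hg, smul_zero]
    · have h1 := hcol i g hg
      rw [finsum_eq_sum_of_fintype] at h1
      rw [← h1]
      refine Finset.sum_congr rfl fun χ _ => ?_
      rw [Pi.smul_apply]
      unfold preg
      rw [if_neg hg, smul_eq_mul]
  have h1 := LinearMap.finrank_range_add_finrank_ker Φ
  rw [hrange, Module.finrank_fintype_fun_eq_card, ← Nat.card_eq_fintype_card] at h1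
  have h2 : Fintype.card ι ≤ Module.finrank ℂ (LinearMap.ker Φ) := by
    have h3 : LinearIndependent ℂ (fun i => (⟨w i, hker i⟩ : LinearMap.ker Φ)) := by
      apply LinearIndependent.of_comp (LinearMap.ker Φ).subtype
      exact hw
    exact h3.fintype_card_le_finrank
  omega

end Cfsg.Agent.Lib.Tame
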