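import Cfsg.Agent.Lib.TameDih
import Cfsg.Agent.Lib.TameExo
import Cfsg.Agent.Lib.TameRank

/-!
# Numerical data of a block with dihedral defect group
-/

set_option autoImplicit false
set_option linter.all false
set_option maxHeartbeats 400000

namespace Cfsg.Agent.Lib.Tame

open Cfsg Cfsg.Agent.Lib.BlockRing Cfsg.Agent.Lib.BlockGA Cfsg.Agent.Lib.BlockAlg
open Cfsg.Agent.Lib.BlkIdem Cfsg.Agent.Lib.PairAlg Cfsg.Agent.Lib.PairMax
open Cfsg.Agent.Lib.BlockIdem Cfsg.Agent.Lib.BlockSecond Cfsg.Agent.Lib.BrauerPairs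
open Cfsg.Agent.Lib.BlkFus Cfsg.Agent.Lib.InducedPair Cfsg.Agent.Lib.DefPairs
open Cfsg.Agent.Lib.BlkFusDef Cfsg.Agent.Lib.BlkTransport Cfsg.Agent.Lib.BlkNil
open Cfsg.Agent.Lib.H25BpLift Cfsg.Agent.Lib.H25BpTw Cfsg.Agent.Lib.H25BpF Cfsg.Agent.Lib.H25BpI
open Cfsg.Agent.Lib.H25BpE Cfsg.Agent.Lib.H25BpG Cfsg.Agent.Lib.H25BpW Cfsg.Agent.Lib.H25BpM
open Cfsg.Agent.Lib.H25BpS Cfsg.Agent.Lib.TameFour Cfsg.Agent.Lib.TameGrp
open Cfsg.Agent.Lib.BlockCount (Bl D rsp rsp_orth sum_blockPart blockRank_eq)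
open Cfsg.Agent.Lib.Subsec (Cz mem_Cz fs mem_fs sum_fs zz)
open scoped ComplexConjugate Classical Pointwise

universe u

/-! ### arithmetic of `ZMod (2 ^ r)` -/

section ar

theorem exists_mul_half {r : ℕ} (hr : 1 ≤ r) [NeZero (2 ^ r)] {i : ZMod (2 ^ r)} (hi : i ≠ 0) :
    ∃ k : ℕ, i * (k : ZMod (2 ^ r)) = ((2 ^ r / 2 : ℕ) : ZMod (2 ^ r)) := by
  have h0 : i.val ≠ 0 := by rwa [Ne, ZMod.val_eq_zero]
  have hlt : i.val < 2 ^ r := ZMod.val_lt i
  obtain ⟨t, c, hc, he⟩ := Nat.exists_eq_two_pow_mul_odd h0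
  have ht : t < r := by
    by_contra hcon
    have h1 : 2 ^ r ≤ 2 ^ t := Nat.pow_le_pow_right (by norm_num) (not_lt.1 hcon)
    have h2 : 0 < c := hc.pos
    have h3 : 2 ^ t * 1 ≤ 2 ^ t * c := Nat.mul_le_mul_left _ h2
    omega
  refine ⟨2 ^ (r - 1 - t), ?_⟩
  have h1 : i = ((i.val : ℕ) : ZMod (2 ^ r)) := (ZMod.natCast_zmod_val i).symm
  obtain ⟨d, hd⟩ := hc
  have h2 : 2 ^ r / 2 = 2 ^ (r - 1) := by
    obtain ⟨k, rfl⟩ := Nat.exists_eq_add_of_le' hr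
    rw [pow_succ, Nat.mul_div_cancel _ (by norm_num)]
    rfl
  rw [h1, he, ← Nat.cast_mul, h2, hd]
  have h3 : 2 ^ t * (2 * d + 1) * 2 ^ (r - 1 - t) = 2 ^ (r - 1) + 2 ^ r * d := by
    have e1 : 2 ^ (r - 1) = 2 ^ t * 2 ^ (r - 1 - t) := by rw [← pow_add]; congr 1; omega
    have e2 : 2 ^ r = 2 * 2 ^ (r - 1) := by rw [← pow_succ']; congr 1; omega
    rw [e2, e1]
    ring
  rw [h3, Nat.cast_add, Nat.cast_mul, ZMod.natCast_self, zero_mul, add_zero]

end ar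

namespace LD

variable {M : Ideal AlgInt} [hMm : M.IsMaximal] [hchar : CharP (Kf M) 2]
  {G : Type u} [Group G] [Finite G] {B : Set (IrrCharacter G)} {P : Subgroup G} {e : MonoidAlgebra (Kf M) G}
  {z : G} {b : Set (IrrCharacter (Cz z))} {e' : MonoidAlgebra (Kf M) (Cz z)}
  {ξ : IrrCharacter (Cz z)} {m : ℕ} [NeZero m] {x : P.subgroupOf (Cz z)}

/-- the vectors `δ_0 - δ_a` -/
def mu (a : ZMod m) : ZMod m → ℤ := fun c => (if c = 0 then 1 else 0) - (if c = a then 1 else 0)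

omit [NeZero m] in
theorem sum_mu [NeZero m] (a : ZMod m) : ∑ c, mu a c = 0 := by
  unfold mu
  rw [Finset.sum_sub_distrib, Finset.sum_ite_eq', Finset.sum_ite_eq']
  simp

theorem sum_mu_mul (a : ZMod m) (f : ZMod m → ℤ) : ∑ c, mu a c * f c = f 0 - f a := by
  unfold mu
  simp only [sub_mul, Finset.sum_sub_distrib, ite_mul, one_mul, zero_mul, Finset.sum_ite_eq', Finset.mem_univ, if_true]

theorem ww_mu (L : LD 2 B P e (Cz z) b e' z ξ) (C : Cyc2 m x (-1)) (a : ZMod m) (χ : IrrCharacter G) :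
    L.ww C (mu a) χ = L.nn C χ 0 - L.nn C χ a := by
  unfold ww
  exact sum_mu_mul a _

omit hMm hchar in
theorem half_mem {Q : Type u} [Group Q] [Finite Q] {x : Q} {r : ℕ} (hr : 1 ≤ r) [NeZero (2 ^ r)] (hx : orderOf x = 2 ^ r)
    {i : ZMod (2 ^ r)} (hi : i ≠ 0) : xp x ((2 ^ r / 2 : ℕ) : ZMod (2 ^ r)) ∈ Subgroup.zpowers (xp x i) := by
  obtain ⟨k, hk⟩ := exists_mul_half hr hi
  refine ⟨(k : ℤ), ?_⟩
  show xp x i ^ (k : ℤ) = _
  rw [zpow_natCast, ← hk]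
  have h1 : i * (k : ZMod (2 ^ r)) = ((i.val * k : ℕ) : ZMod (2 ^ r)) := by
    rw [Nat.cast_mul, ZMod.natCast_zmod_val]
  rw [h1, xp_natCast hx, pow_mul]
  rfl

/-- good vectors -/
theorem good_of_sum (L : LD 2 B P e (Cz z) b e' z ξ) (C : Cyc2 m x (-1)) {r : ℕ} (hr : 1 ≤ r) (hm : m = 2 ^ r)
    (hz : (((xp x ((m / 2 : ℕ) : ZMod m) : P.subgroupOf (Cz z)) : Cz z) : G) = z) {μ : ZMod m → ℤ}
    (hμ : ∑ a, μ a = 0) : L.Good C μ := by
  subst hm
  intro i hi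
  have hi0 : i = 0 := by
    by_contra hne
    obtain ⟨k, hk⟩ := half_mem hr C.hx hne
    apply hi
    refine ⟨k, ?_⟩
    show (((xp x i : P.subgroupOf (Cz z)) : Cz z) : G) ^ k = z
    have hk' : xp x i ^ k = xp x ((2 ^ r / 2 : ℕ) : ZMod (2 ^ r)) := hk
    have hk2 := congrArg (fun w : P.subgroupOf (Cz z) => ((w : Cz z) : G)) hk'
    exact hk2.trans hz
  have h0 : hat (fun a => (μ a : ℂ)) (0 : ZMod (2 ^ r)) = 0 := by
    unfold hat
    simp only [mul_zero, ev_zero, mul_one]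
    exact_mod_cast hμ
  rw [hi0, mul_zero, h0, add_zero]

theorem gram_mu (L : LD 2 B P e (Cz z) b e' z ξ) (C : Cyc2 m x (-1)) {r : ℕ} (hr : 1 ≤ r) (hm : m = 2 ^ r)
    (hz : (((xp x ((m / 2 : ℕ) : ZMod m) : P.subgroupOf (Cz z)) : Cz z) : G) = z) {a c : ZMod m}
    (ha : a ≠ 0) (hc : c ≠ 0) :
    ∑ χ ∈ fs B, L.ww C (mu a) χ * L.ww C (mu c) χ =
      2 + (if a = c then 1 else 0) + (if -a = c then 1 else 0) := by
  rw [L.gram C (L.good_of_sum C hr hm hz (sum_mu a)) (L.good_of_sum C hr hm hz (sum_mu c)), sum_mu_mul]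
  unfold mu
  rw [mul_zero, if_pos rfl, if_neg (Ne.symm hc), neg_one_mul, if_neg ha, if_neg (neg_ne_zero.2 ha)]
  ring

/-- the integer value at `z` -/
noncomputable def dd (L : LD 2 B P e (Cz z) b e' z ξ) (C : Cyc2 m x (-1)) (χ : IrrCharacter G) : ℤ :=
  ∑ a : ZMod m, L.nn C χ a * (-1) ^ a.val

omit hMm hchar in
theorem ev_half (hm : 2 ∣ m) : ev m ((m / 2 : ℕ) : ZMod m) = -1 := by
  have h1 : ev m ((m / 2 : ℕ) : ZMod m) * ev m ((m / 2 : ℕ) : ZMod m) = 1 := by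
    rw [← ev_add, half_add_half hm, ev_zero]
  have h2 : ev m ((m / 2 : ℕ) : ZMod m) ≠ 1 := by
    intro h
    have h3 := ZMod.injective_stdAddChar (N := m)
    have h4 : ev m ((m / 2 : ℕ) : ZMod m) = ev m 0 := by rw [h, ev_zero]
    exact half_ne hm (h3 h4)
  rcases mul_self_eq_one_iff.1 h1 with h | h
  · exact absurd h h2
  · exact h

omit hMm hchar in
theorem ev_mul_half (hm : 2 ∣ m) (a : ZMod m) : ev m (a * ((m / 2 : ℕ) : ZMod m)) = (-1) ^ a.val := by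
  have h1 : a * ((m / 2 : ℕ) : ZMod m) = a.val • ((m / 2 : ℕ) : ZMod m) := by
    rw [nsmul_eq_mul, ZMod.natCast_zmod_val]
  rw [h1]
  have h2 : ev m (a.val • ((m / 2 : ℕ) : ZMod m)) = ev m ((m / 2 : ℕ) : ZMod m) ^ a.val :=
    AddChar.map_nsmul_eq_pow _ _ _
  rw [h2, ev_half hm]

theorem tv_dd (L : LD 2 B P e (Cz z) b e' z ξ) (C : Cyc2 m x (-1)) (hm : 2 ∣ m)
    (hz : (((xp x ((m / 2 : ℕ) : ZMod m) : P.subgroupOf (Cz z)) : Cz z) : G) = z) (χ : IrrCharacter G) :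
    tv 2 P e' ξ χ L.zP = (L.dd C χ : ℂ) := by
  have h1 : L.zP = xp x ((m / 2 : ℕ) : ZMod m) := Subtype.ext (Subtype.ext hz.symm)
  rw [h1, L.tv_xp C]
  unfold dd
  push_cast
  refine Finset.sum_congr rfl fun a _ => ?_
  rw [ev_mul_half hm]

/-- parity -/
theorem dd_parity (L : LD 2 B P e (Cz z) b e' z ξ) (C : Cyc2 m x (-1)) (hm : 2 ∣ m) (χ : IrrCharacter G) :
    (2 : ℤ) ∣ L.dd C χ - L.ww C (mu ((m / 2 : ℕ) : ZMod m)) χ := by
  have h1 : (2 : ℤ) = ((2 : ℕ) : ℤ) := rfl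
  rw [h1, ← ZMod.intCast_zmod_eq_zero_iff_dvd, ww_mu]
  unfold dd
  push_cast
  have h2 : ∀ a : ZMod m, (L.nn C χ a : ZMod 2) * (-1) ^ a.val = (L.nn C χ a : ZMod 2) := by
    intro a
    have : (-1 : ZMod 2) = 1 := rfl
    rw [this, one_pow, mul_one]
  rw [Finset.sum_congr rfl fun a _ => h2 a]
  have h3 : ∑ a : ZMod m, (L.nn C χ a : ZMod 2) = (L.nn C χ 0 : ZMod 2) +
      (L.nn C χ ((m / 2 : ℕ) : ZMod m) : ZMod 2) := by
    rw [← Finset.sum_filter_add_sum_filter_not Finset.univ (fun a : ZMod m => a = 0 ∨ a = ((m / 2 : ℕ) : ZMod m))]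
    have h4 : Finset.univ.filter (fun a : ZMod m => a = 0 ∨ a = ((m / 2 : ℕ) : ZMod m)) =
        {0, ((m / 2 : ℕ) : ZMod m)} := by
      ext a
      simp
    rw [h4, Finset.sum_pair (half_ne hm).symm]
    have h5 : ∑ a ∈ Finset.univ.filter (fun a : ZMod m => ¬ (a = 0 ∨ a = ((m / 2 : ℕ) : ZMod m))),
        (L.nn C χ a : ZMod 2) = 0 := by
      refine Finset.sum_involution (fun a _ => -a) ?_ ?_ ?_ ?_
      · intro a _
        have h6 : L.nn C χ (-a) = L.nn C χ a := by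
          have := L.nn_scale C χ a
          rwa [neg_one_mul] at this
        rw [h6]
        exact CharTwo.add_self_eq_zero _
      · intro a ha _ hcon
        rw [Finset.mem_filter] at ha
        apply ha.2
        apply two_mul_eq_zero hm
        have h7 : -a = a := hcon
        rw [two_mul]
        nth_rewrite 1 [← h7]
        exact neg_add_cancel a
      · intro a ha
        rw [Finset.mem_filter] at ha ⊢
        refine ⟨Finset.mem_univ _, fun hcon => ha.2 ?_⟩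
        rcases hcon with h | h
        · left; exact neg_eq_zero.1 h
        · right
          rw [← neg_neg a, h, neg_eq_iff_add_eq_zero]
          exact half_add_half hm
      · intro a _
        exact neg_neg a
    rw [h5, add_zero]
  rw [h3]
  have h8 : ∀ u v : ZMod 2, u + v - (u - v) = 0 := by decide
  exact h8 _ _

/-- norm -/
theorem dd_norm (L : LD 2 B P e (Cz z) b e' z ξ) (C : Cyc2 m x (-1)) (hm : 2 ∣ m)
    (hz : (((xp x ((m / 2 : ℕ) : ZMod m) : P.subgroupOf (Cz z)) : Cz z) : G) = z) :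
    ∑ χ ∈ fs B, L.dd C χ ^ 2 = 2 * m := by
  have h1 := L.norm_central L.zP (fun y => Subtype.ext (zz_central z (y : Cz z)))
    (by exact Subgroup.mem_zpowers z)
  have h2 : Nat.card P = 2 * m := by
    rw [← C.hcard, Nat.card_congr (Subgroup.subgroupOfEquivOfLe L.le).toEquiv]
  rw [h2] at h1
  have h3 : ((∑ χ ∈ fs B, L.dd C χ ^ 2 : ℤ) : ℂ) = ((2 * m : ℤ) : ℂ) := by
    push_cast
    push_cast at h1
    rw [← h1]
    refine Finset.sum_congr rfl fun χ _ => ?_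
    rw [L.tv_dd C hm hz, map_intCast, pow_two]
  exact_mod_cast h3

theorem dd_ne (L : LD 2 B P e (Cz z) b e' z ξ) (C : Cyc2 m x (-1)) (hm : 2 ∣ m)
    (hz : (((xp x ((m / 2 : ℕ) : ZMod m) : P.subgroupOf (Cz z)) : Cz z) : G) = z) {χ : IrrCharacter G}
    (hχ : χ ∈ B) : L.dd C χ ≠ 0 := by
  have := isPrime L.ctx.mod
  intro h
  have h1 := (L.tv_val hχ).2
  rw [L.tv_dd C hm hz, h] at h1
  apply h1
  rw [Int.cast_zero, zero_div]
  exact idl_zero

/-- the height is the 2-adic valuation of the value at `z` -/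
theorem dd_height (L : LD 2 B P e (Cz z) b e' z ξ) (C : Cyc2 m x (-1)) (hm : 2 ∣ m)
    (hz : (((xp x ((m / 2 : ℕ) : ZMod m) : P.subgroupOf (Cz z)) : Cz z) : G) = z) {χ : IrrCharacter G}
    (hχ : χ ∈ B) {k : ℕ} {c : ℤ} (hc : L.dd C χ = 2 ^ k * c) (hc2 : ¬ (2 : ℤ) ∣ c) :
    blockHeight 2 B (χ : G → ℂ) = k := by
  have := isPrime L.ctx.mod
  have h1 := L.tv_val hχ
  rw [L.tv_dd C hm hz, hc] at h1
  set h := blockHeight 2 B (χ : G → ℂ) with hh
  have h2 : (2 : ℂ) ≠ 0 := two_ne_zero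
  have hunit : ¬ MemLocalIdeal M (c : ℂ) := by
    rw [idl_intCast_iff L.ctx.mod]
    exact_mod_cast hc2
  have two_idl : MemLocalIdeal M (2 : ℂ) := by
    have := (idl_natCast_iff L.ctx.mod 2).2 dvd_rfl
    exact_mod_cast this
  have two_loc : MemLocalRing M (2 : ℂ) := by
    have := loc_natCast (M := M) 2
    exact_mod_cast this
  push_cast at h1
  rcases lt_trichotomy h k with hlt | heq | hgt
  · exfalso
    obtain ⟨j, rfl⟩ := Nat.exists_eq_add_of_lt hlt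
    apply h1.2
    have e1 : (2 : ℂ) ^ (h + j + 1) * (c : ℂ) / 2 ^ h = 2 * ((2 ^ j * c : ℤ) : ℂ) := by
      push_cast
      rw [pow_succ, pow_add]
      field_simp
    rw [e1]
    exact idl_mul_right two_idl (loc_intCast _)
  · exact heq
  · exfalso
    obtain ⟨j, hj⟩ := Nat.exists_eq_add_of_lt hgt
    apply hunit
    have e1 : (c : ℂ) = 2 * (2 ^ j * ((2 : ℂ) ^ k * (c : ℂ) / 2 ^ h)) := by
      rw [hj, pow_succ, pow_add]
      field_simp
    rw [e1]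
    refine idl_mul_right two_idl (loc_mul ?_ h1.1)
    have := loc_natCast (M := M) (2 ^ j)
    push_cast at this
    exact this

end LD

end Cfsg.Agent.Lib.Tame
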