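import Cfsg.Agent.Lib.TameF

/-!
# The semidihedral group of order sixteen: a parity argument
-/

set_option autoImplicit false
set_option linter.all false
set_option maxHeartbeats 400000

namespace Cfsg.Agent.Lib.Tame

open Cfsg Cfsg.Agent.Lib.BlockRing Cfsg.Agent.Lib.BlockGA Cfsg.Agent.Lib.BlockAlg
open Cfsg.Agent.Lib.BlkIdem Cfsg.Agent.Lib.PairAlg Cfsg.Agent.Lib.PairMax
open Cfsg.Agent.Lib.BlockIdem Cfsg.Agent.Lib.BlockSecond Cfsg.Agent.Lib.BrauerPairs
open Cfsg.Agent.Lib.BlkFus Cfsg.Agent.Lib.InducedPair Cfsg.Agent.Lib.DefPairs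
open Cfsg.Agent.Lib.BlkFusDef Cfsg.Agent.Lib.BlkTransport Cfsg.Agent.Lib.BlkNil
open Cfsg.Agent.Lib.H25BpLift Cfsg.Agent.Lib.H25BpTw Cfsg.Agent.Lib.H25BpF Cfsg.Agent.Lib.H25BpI
open Cfsg.Agent.Lib.H25BpE Cfsg.Agent.Lib.H25BpG Cfsg.Agent.Lib.H25BpW Cfsg.Agent.Lib.H25BpM
open Cfsg.Agent.Lib.H25BpS Cfsg.Agent.Lib.TameFour
open Cfsg.Agent.Lib.BlockCount (Bl D rsp rsp_orth sum_blockPart blockRank_eq)
open Cfsg.Agent.Lib.Subsec (Cz mem_Cz al al_eq al_mem fs mem_fs zz D_reg D_not_reg kern kern_eq_zero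
  al_conj al_idem al_trace al_loc al_not_idl al_idl pow_of_orderOf al_ne_zero')
open Cfsg.Agent.Lib.TameGrp
open MonoidAlgebra (single)
open scoped ComplexConjugate Classical Pointwise

universe u

variable {M : Ideal AlgInt} [hMm : M.IsMaximal] [hchar : CharP (Kf M) 2]
  {G : Type u} [Group G] [Finite G] {B : Set (IrrCharacter G)} {P : Subgroup G} {e : MonoidAlgebra (Kf M) G}
  {N : Subgroup G} {b : Set (IrrCharacter N)} {e' : MonoidAlgebra (Kf M) N} {v : G}
  {ξ : IrrCharacter N}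

theorem Ev8 (h2 : 2 ∣ 8) : Ev (m := 8) h2 = {0, 2, 4, 6} := by
  ext a
  rw [mem_Ev, pr_val]
  revert a
  decide

theorem Od8 (h2 : 2 ∣ 8) : Od (m := 8) h2 = {1, 3, 5, 7} := by
  ext a
  rw [mem_Od, pr_val]
  revert a
  decide

theorem sum_Ev8 (h2 : 2 ∣ 8) (f : ZMod 8 → ℤ) : ∑ a ∈ Ev (m := 8) h2, f a = f 0 + f 2 + f 4 + f 6 := by
  rw [Ev8, Finset.sum_insert (by decide), Finset.sum_insert (by decide), Finset.sum_pair (by decide)]
  ring

theorem sum_Od8 (h2 : 2 ∣ 8) (f : ZMod 8 → ℤ) : ∑ a ∈ Od (m := 8) h2, f a = f 1 + f 3 + f 5 + f 7 := by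
  rw [Od8, Finset.sum_insert (by decide), Finset.sum_insert (by decide), Finset.sum_pair (by decide)]
  ring

namespace LD

theorem parity8 {x : P.subgroupOf N} {s : ZMod 8} {r : ℕ} (L : LD 2 B P e N b e' v ξ) (S : QS 8 x s r)
    (hv : xg x ((8 / 4 : ℕ) : ZMod 8) = v) (hs : s = 3) (h2 : 2 ∣ 8)
    (hW : ∀ χ ∈ fs B, blockHeight 2 B (χ : G → ℂ) = 0 →
      L.VV S (Ev h2) χ + L.VV S (Od h2) χ = 3 ∨ L.VV S (Ev h2) χ + L.VV S (Od h2) χ = 7) :
    ((fs B).filter (fun χ : IrrCharacter G => blockHeight 2 B (χ : G → ℂ) = 0 ∧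
      L.VV S (Ev h2) χ + L.VV S (Od h2) χ ≠ 3)).card ≠ 1 := by
  intro hcard
  subst hs
  set n := fun (χ : IrrCharacter G) (a : ZMod 8) => L.nn S.toCyc2 χ a with hn
  have hsc : ∀ χ a, n χ (3 * a) = n χ a := by
    intro χ a
    exact L.nn_scale S.toCyc2 χ a
  set δ : IrrCharacter G → ℤ := fun χ => n χ 1 - n χ 5 with hδ
  -- orthogonality
  have horth : ∑ χ ∈ fs B, L.sg S χ * δ χ = 0 := by
    set μ' : ZMod 8 → ℤ := fun c => (if c = 1 then 1 else 0) - (if c = 5 then 1 else 0) with hμ'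
    have hg1 : L.Good S.toCyc2 (mu ((8 / 2 : ℕ) : ZMod 8)) := by
      apply L.good_T S hv (h2 := h2) (Or.inl rfl)
      · intro a ha
        rw [mem_Ev, pr_val] at ha
        revert ha
        unfold mu
        revert a
        decide
      · rw [sum_Ev8]; unfold mu; decide
    have hg2 : L.Good S.toCyc2 μ' := by
      apply L.good_T S hv (h2 := h2) (Or.inr rfl)
      · intro a ha
        rw [mem_Od, pr_val] at ha
        simp only [hμ']
        revert ha
        revert a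
        decide
      · rw [sum_Od8]; simp only [hμ']; decide
    have h1 := L.gram S.toCyc2 hg1 hg2
    rw [sum_mu_mul] at h1
    have e1 : ∀ χ, L.ww S.toCyc2 (mu ((8 / 2 : ℕ) : ZMod 8)) χ = L.sg S χ := by
      intro χ
      unfold ww sg
      exact sum_mu_mul _ _
    have e2 : ∀ χ, L.ww S.toCyc2 μ' χ = δ χ := by
      intro χ
      unfold ww
      simp only [hμ', sub_mul, Finset.sum_sub_distrib, ite_mul, one_mul, zero_mul, Finset.sum_ite_eq', Finset.mem_univ,
        if_true]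
      rfl
    simp only [e1, e2] at h1
    rw [h1]
    simp only [hμ']
    decide
  -- the values
  have hVo : ∀ χ, L.VV S (Od h2) χ = 4 * δ χ ^ 2 := by
    intro χ
    unfold VV
    rw [sum_Od8, sum_Od8]
    have e3 : L.nn S.toCyc2 χ 3 = L.nn S.toCyc2 χ 1 := hsc χ 1
    have e7 : L.nn S.toCyc2 χ 7 = L.nn S.toCyc2 χ 5 := hsc χ 5
    rw [e3, e7]
    simp only [hδ, hn]
    norm_num
    ring
  have hVe : ∀ χ, L.VV S (Ev h2) χ = 3 * L.sg S χ ^ 2 + 4 * ((n χ 0 - n χ 2) * (n χ 4 - n χ 2)) := by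
    intro χ
    unfold VV sg
    rw [sum_Ev8, sum_Ev8]
    have e6 : L.nn S.toCyc2 χ 6 = L.nn S.toCyc2 χ 2 := hsc χ 2
    have e4 : L.nn S.toCyc2 χ ((8 / 2 : ℕ) : ZMod 8) = L.nn S.toCyc2 χ 4 := rfl
    rw [e6, e4]
    simp only [hn]
    norm_num
    ring
  have hsg4 : ∀ χ, L.sg S χ = n χ 0 - n χ 4 := fun χ => rfl
  -- parity
  have hterm : ∀ χ ∈ fs B, (2 : ℤ) ∣ L.sg S χ * δ χ -
      (if blockHeight 2 B (χ : G → ℂ) = 0 ∧ L.VV S (Ev h2) χ + L.VV S (Od h2) χ ≠ 3 then 1 else 0) := by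
    intro χ hχ
    by_cases h0 : blockHeight 2 B (χ : G → ℂ) = 0
    · have hsg := L.sg_small S hv χ hχ
      have hsgne := (L.ht_zero_iff S hv (mem_fs.1 hχ)).1 h0
      have hsg2 : L.sg S χ ^ 2 = 1 := by
        rcases hsg with h | h | h
        · exact absurd h hsgne
        · rw [h]; norm_num
        · rw [h]; norm_num
      -- the product of the two differences is even
      have hev : (2 : ℤ) ∣ (n χ 0 - n χ 2) * (n χ 4 - n χ 2) := by
        have h3 := hsg4 χ
        have h4 : L.sg S χ = 1 ∨ L.sg S χ = -1 := by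
          rcases hsg with h | h | h
          · exact absurd h hsgne
          · exact Or.inl h
          · exact Or.inr h
        rcases Int.even_or_odd (n χ 0 - n χ 2) with h5 | h5
        · exact (h5.two_dvd).mul_right _
        · have h6 : Even (n χ 4 - n χ 2) := by
            obtain ⟨j, hj⟩ := h5
            rcases h4 with h4 | h4
            · exact ⟨j, by omega⟩
            · exact ⟨j + 1, by omega⟩
          exact (h6.two_dvd).mul_left _
      have hWχ := hW χ hχ h0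
      rw [hVe, hVo, hsg2] at hWχ ⊢
      obtain ⟨j, hj⟩ := hev
      rw [hj] at hWχ ⊢
      have h7 : (2 : ℤ) ∣ δ χ ^ 2 - δ χ := by
        have : δ χ ^ 2 - δ χ = δ χ * (δ χ - 1) := by ring
        rw [this]
        rcases Int.even_or_odd (δ χ) with h | h
        · exact (h.two_dvd).mul_right _
        · have : Even (δ χ - 1) := by
            obtain ⟨j, hj⟩ := h
            exact ⟨j, by omega⟩
          exact (this.two_dvd).mul_left _
      obtain ⟨d2, hd2⟩ : ∃ d2, δ χ ^ 2 = d2 := ⟨_, rfl⟩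
      rw [hd2] at hWχ h7 ⊢
      rcases hsg with h | h | h
      · exact absurd h hsgne
      · rw [h]
        split_ifs with h8
        · have := h8.2
          omega
        · have h9 : 3 * 1 + 4 * (2 * j) + 4 * d2 = 3 := by
            by_contra hne
            exact h8 ⟨h0, hne⟩
          omega
      · rw [h]
        split_ifs with h8
        · have := h8.2
          omega
        · have h9 : 3 * 1 + 4 * (2 * j) + 4 * d2 = 3 := by
            by_contra hne
            exact h8 ⟨h0, hne⟩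
          omega
    · have h3 : L.sg S χ = 0 := by
        by_contra hne
        exact h0 ((L.ht_zero_iff S hv (mem_fs.1 hχ)).2 hne)
      rw [h3, if_neg (fun h => h0 h.1)]
      simp
  have h3 := Finset.dvd_sum hterm
  rw [Finset.sum_sub_distrib, horth, ← Finset.sum_filter, Finset.sum_const, hcard] at h3
  norm_num at h3

end LD

end Cfsg.Agent.Lib.Tame
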