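import Cfsg.Agent.Lib.TameCI
import Cfsg.Agent.Lib.TameNum

/-!
# Quaternion and semidihedral groups
-/

set_option autoImplicit false
set_option linter.all false
set_option maxHeartbeats 400000

namespace Cfsg.Agent.Lib.Tame

open Cfsg Cfsg.Agent.Lib.TameFour
open scoped ComplexConjugate Classical Pointwise

universe u

/-- quaternion and semidihedral groups -/
structure QS {Q : Type u} [Group Q] (m : ℕ) [NeZero m] (x : Q) (s : ZMod m) (r : ℕ) : Prop extends Cyc2 m x s where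
  hr : 2 ≤ r
  hm : m = 2 ^ r
  hs' : s = -1 ∨ (s = ((m / 2 : ℕ) : ZMod m) - 1 ∧ 3 ≤ r)

section ar

variable {m : ℕ} [NeZero m] {r : ℕ}

theorem m_div_two (hr : 2 ≤ r) (hm : m = 2 ^ r) : m / 2 = 2 ^ (r - 1) := by
  obtain ⟨k, rfl⟩ := Nat.exists_eq_add_of_le' hr
  rw [hm, show k + 2 = (k + 1) + 1 from rfl, pow_succ, Nat.mul_div_cancel _ (by norm_num)]
  rfl

theorem m_div_four (hr : 2 ≤ r) (hm : m = 2 ^ r) : m / 4 = 2 ^ (r - 2) := by
  obtain ⟨k, rfl⟩ := Nat.exists_eq_add_of_le' hr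
  rw [hm, pow_add, show (2 : ℕ) ^ 2 = 4 from rfl, Nat.mul_div_cancel _ (by norm_num)]
  rfl

theorem two_dvd_m (hr : 2 ≤ r) (hm : m = 2 ^ r) : 2 ∣ m := by
  rw [hm]; exact dvd_pow_self 2 (by omega)

theorem four_dvd_m (hr : 2 ≤ r) (hm : m = 2 ^ r) : 4 ∣ m := by
  rw [hm]; exact pow_dvd_pow 2 hr

/-- the element of order four -/
theorem exists_mul_quarter (hr : 2 ≤ r) (hm : m = 2 ^ r) {i : ZMod m} (hi : i ≠ 0) (hi2 : i ≠ ((m / 2 : ℕ) : ZMod m)) :
    ∃ k : ℕ, i * (k : ZMod m) = ((m / 4 : ℕ) : ZMod m) := by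
  have h0 : i.val ≠ 0 := by rwa [Ne, ZMod.val_eq_zero]
  have hlt : i.val < 2 ^ r := by rw [← hm]; exact ZMod.val_lt i
  obtain ⟨t, c, hc, he⟩ := Nat.exists_eq_two_pow_mul_odd h0
  have h1 : i = ((i.val : ℕ) : ZMod m) := (ZMod.natCast_zmod_val i).symm
  have hcpos : 0 < c := hc.pos
  have ht : t < r := by
    by_contra hcon
    have h1 : 2 ^ r ≤ 2 ^ t := Nat.pow_le_pow_right (by norm_num) (not_lt.1 hcon)
    have h3 : 2 ^ t * 1 ≤ 2 ^ t * c := Nat.mul_le_mul_left _ hcpos
    omega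
  have ht2 : t ≠ r - 1 := by
    rintro rfl
    apply hi2
    have e2 : 2 ^ r = 2 * 2 ^ (r - 1) := by rw [← pow_succ']; congr 1; omega
    have h2 : c < 2 := by
      by_contra hcon
      have : 2 ^ (r - 1) * 2 ≤ 2 ^ (r - 1) * c := Nat.mul_le_mul_left _ (not_lt.1 hcon)
      omega
    have h3 : c = 1 := by omega
    rw [h1, he, h3, mul_one, m_div_two hr hm]
  obtain ⟨d, hd⟩ := hc
  refine ⟨2 ^ (r - 2 - t) * c, ?_⟩
  rw [h1, he, ← Nat.cast_mul, m_div_four hr hm]
  have h3 : 2 ^ t * c * (2 ^ (r - 2 - t) * c) = 2 ^ (r - 2) + m * (d ^ 2 + d) := by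
    have e1 : 2 ^ (r - 2) = 2 ^ t * 2 ^ (r - 2 - t) := by rw [← pow_add]; congr 1; omega
    have e2 : m = 4 * 2 ^ (r - 2) := by
      rw [hm, show (4 : ℕ) = 2 ^ 2 from rfl, ← pow_add]; congr 1; omega
    rw [e2, e1, hd]
    ring
  rw [h3, Nat.cast_add, Nat.cast_mul, ZMod.natCast_self, zero_mul, add_zero]

theorem quarter_add (hr : 2 ≤ r) (hm : m = 2 ^ r) :
    ((m / 4 : ℕ) : ZMod m) + ((m / 4 : ℕ) : ZMod m) = ((m / 2 : ℕ) : ZMod m) := by
  rw [← Nat.cast_add]
  congr 1
  have := four_dvd_m hr hm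
  omega

theorem quarter_ne (hr : 2 ≤ r) (hm : m = 2 ^ r) :
    ((m / 4 : ℕ) : ZMod m) ≠ 0 ∧ ((m / 4 : ℕ) : ZMod m) ≠ ((m / 2 : ℕ) : ZMod m) := by
  have h1 := quarter_add hr hm
  have h2 := half_ne (two_dvd_m hr hm)
  constructor
  · intro h
    rw [h, add_zero] at h1
    exact h2 h1.symm
  · intro h
    rw [h] at h1
    have h3 : ((m / 2 : ℕ) : ZMod m) = 0 := by
      have := h1
      nth_rewrite 3 [← add_zero (((m / 2 : ℕ) : ZMod m))] at this
      exact add_left_cancel this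
    exact h2 h3

end ar

namespace QS

variable {Q : Type u} [Group Q] [Finite Q] {m : ℕ} [NeZero m] {x : Q} {s : ZMod m} {r : ℕ} (S : QS m x s r)
include S

theorem s_half : s * ((m / 2 : ℕ) : ZMod m) = ((m / 2 : ℕ) : ZMod m) := by
  have h1 := half_add_half (two_dvd_m S.hr S.hm)
  have h2 : -((m / 2 : ℕ) : ZMod m) = ((m / 2 : ℕ) : ZMod m) := neg_eq_iff_add_eq_zero.2 h1
  rcases S.hs' with h | ⟨h, hr⟩
  · rw [h, neg_one_mul, h2]
  · rw [h, sub_mul, one_mul, sub_eq_add_neg, h2]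
    have h3 : ((m / 2 : ℕ) : ZMod m) * ((m / 2 : ℕ) : ZMod m) = 0 := by
      rw [← Nat.cast_mul, ZMod.natCast_eq_zero_iff, m_div_two S.hr S.hm, S.hm, ← pow_add]
      apply pow_dvd_pow
      omega
    rw [h3, zero_add]

theorem s_fix {i : ZMod m} : s * i = i ↔ i = 0 ∨ i = ((m / 2 : ℕ) : ZMod m) := by
  constructor
  · intro h
    apply two_mul_eq_zero (two_dvd_m S.hr S.hm)
    rcases S.hs' with h' | ⟨h', hr⟩
    · rw [h', neg_one_mul] at h
      rw [two_mul]
      nth_rewrite 1 [← h]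
      exact neg_add_cancel i
    · rw [h', sub_mul, one_mul, sub_eq_iff_eq_add, ← two_mul] at h
      -- (m/2) * i = 2 * i
      have h1 : 4 * i = 0 := by
        have h2 : (2 : ZMod m) * (((m / 2 : ℕ) : ZMod m) * i) = 0 := by
          rw [← mul_assoc, two_mul, half_add_half (two_dvd_m S.hr S.hm), zero_mul]
        rw [h, ← mul_assoc] at h2
        norm_num at h2
        exact h2
      obtain ⟨a, rfl⟩ := ZMod.natCast_zmod_surjective i
      have h3 : m ∣ 4 * a := by
        rw [← ZMod.natCast_eq_zero_iff]; push_cast; exact h1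
      rw [← h, ← Nat.cast_mul, ZMod.natCast_eq_zero_iff]
      have h4 : 2 ∣ a := by
        have h5 : 8 ∣ m := by
          rw [S.hm]; exact pow_dvd_pow 2 hr
        have h6 : 4 * 2 ∣ 4 * a := h5.trans h3
        exact Nat.dvd_of_mul_dvd_mul_left (by norm_num) h6
      obtain ⟨c, rfl⟩ := h4
      have h7 := Nat.div_mul_cancel (two_dvd_m S.hr S.hm)
      rw [← mul_assoc, h7]
      exact dvd_mul_right _ _
  · rintro (h | h)
    · rw [h, mul_zero]
    · rw [h, S.s_half]

theorem conj_out {y : Q} (hy : y ∉ Subgroup.zpowers x) (i : ZMod m) : y * xp x i * y⁻¹ = xp x (s * i) :=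
  conj_xp S.hx S.hs S.hconj hy i

theorem z_central (y : Q) : y * xp x ((m / 2 : ℕ) : ZMod m) * y⁻¹ = xp x ((m / 2 : ℕ) : ZMod m) := by
  rcases conj_xp' S.hx S.hs S.hconj (y := y) ((m / 2 : ℕ) : ZMod m) with h | h
  · exact h
  · rw [h, S.s_half]

theorem z_sq : xp x ((m / 2 : ℕ) : ZMod m) * xp x ((m / 2 : ℕ) : ZMod m) = 1 := by
  rw [← xp_add S.hx, half_add_half (two_dvd_m S.hr S.hm), xp_zero S.hx]

theorem z_ne : xp x ((m / 2 : ℕ) : ZMod m) ≠ 1 := by
  intro h
  rw [← xp_zero S.hx] at h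
  exact half_ne (two_dvd_m S.hr S.hm) (xp_injective S.hx h)

theorem index : (Subgroup.zpowers x).index = 2 := by
  have h1 := (Subgroup.zpowers x).card_mul_index
  rw [Nat.card_zpowers, S.hx, S.hcard, mul_comm 2 m] at h1
  exact Nat.eq_of_mul_eq_mul_left (NeZero.pos m) h1

theorem mul_mem {y y' : Q} (hy : y ∉ Subgroup.zpowers x) (hy' : y' ∉ Subgroup.zpowers x) :
    y * y' ∈ Subgroup.zpowers x := by
  by_contra h
  have := (Subgroup.mul_mem_iff_of_index_two S.index (a := y) (b := y')).2 ⟨fun h' => absurd h' hy, fun h' => absurd h' hy'⟩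
  exact h this

/-- commutation of elements outside with elements inside -/
theorem comm_out {y : Q} (hy : y ∉ Subgroup.zpowers x) {k : Q} (hk : k ∈ Subgroup.zpowers x) (hc : Commute y k) :
    k = 1 ∨ k = xp x ((m / 2 : ℕ) : ZMod m) := by
  obtain ⟨i, rfl⟩ := (mem_zpowers_iff S.hx).1 hk
  have h1 := S.conj_out hy i
  rw [hc.eq, mul_inv_cancel_right] at h1
  rcases S.s_fix.1 (xp_injective S.hx h1.symm) with h | h
  · left; rw [h, xp_zero S.hx]
  · right; rw [h]

theorem sq_out {y : Q} (hy : y ∉ Subgroup.zpowers x) : y * y = 1 ∨ y * y = xp x ((m / 2 : ℕ) : ZMod m) :=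
  S.comm_out hy (S.mul_mem hy hy) ((Commute.refl y).mul_right (Commute.refl y))

theorem zz_comm (y : Q) : Commute (xp x ((m / 2 : ℕ) : ZMod m)) y := by
  have h := S.z_central y
  show xp x _ * y = y * xp x _
  nth_rewrite 1 [← h]
  rw [inv_mul_cancel_right]

/-- centralizers of elements outside -/
theorem card_out {y : Q} (hy : y ∉ Subgroup.zpowers x) : Nat.card {k : Q // Commute y k} = 4 := by
  set z := xp x ((m / 2 : ℕ) : ZMod m) with hz
  have hzX : z ∈ Subgroup.zpowers x := (mem_zpowers_iff S.hx).2 ⟨_, rfl⟩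
  have hz1 := S.z_ne
  rw [← hz] at hz1
  have hzc := S.zz_comm
  rw [← hz] at hzc
  have key : ∀ k : Q, Commute y k ↔ k ∈ ({1, z, y, z * y} : Finset Q) := by
    intro k
    simp only [Finset.mem_insert, Finset.mem_singleton]
    constructor
    · intro hk
      by_cases hkX : k ∈ Subgroup.zpowers x
      · rcases S.comm_out hy hkX hk with h | h
        · left; exact h
        · right; left; exact h
      · have hyi : y⁻¹ ∉ Subgroup.zpowers x := fun h => hy (by simpa using (Subgroup.zpowers x).inv_mem h)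
        have h1 := S.mul_mem hkX hyi
        have h2 : Commute y (k * y⁻¹) := hk.mul_right ((Commute.refl y).inv_right)
        rcases S.comm_out hy h1 h2 with h | h
        · right; right; left
          exact mul_inv_eq_one.1 h
        · right; right; right
          exact mul_inv_eq_iff_eq_mul.1 h
    · rintro (h | h | h | h)
      · rw [h]; exact Commute.one_right _
      · rw [h]; exact (hzc y).symm
      · rw [h]
      · rw [h]; exact (hzc y).symm.mul_right (Commute.refl y)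
  have h1 : Nat.card {k : Q // Commute y k} = Nat.card ({1, z, y, z * y} : Finset Q) :=
    Nat.card_congr (Equiv.subtypeEquivRight key)
  rw [h1, Nat.card_eq_fintype_card, Fintype.card_coe]
  have hy1 : y ≠ 1 := fun h => hy (h ▸ Subgroup.one_mem _)
  have hyz : y ≠ z := fun h => hy (h ▸ hzX)
  have hzy : z * y ∉ Subgroup.zpowers x := fun h => hy (by
    have := (Subgroup.zpowers x).mul_mem ((Subgroup.zpowers x).inv_mem hzX) h
    rwa [inv_mul_cancel_left] at this)
  rw [Finset.card_insert_of_notMem, Finset.card_insert_of_notMem, Finset.card_insert_of_notMem, Finset.card_singleton]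
  · simp only [Finset.mem_singleton]
    intro h
    apply hz1
    have : 1 * y = z * y := by rw [one_mul]; exact h
    exact (mul_right_cancel this).symm
  · simp only [Finset.mem_insert, Finset.mem_singleton, not_or]
    exact ⟨fun h => hyz h.symm, fun h => hzy (h ▸ hzX)⟩
  · simp only [Finset.mem_insert, Finset.mem_singleton, not_or]
    exact ⟨fun h => hz1 h.symm, fun h => hy1 h.symm, fun h => hzy (h ▸ Subgroup.one_mem _)⟩

/-- centralizers of elements inside -/
theorem card_in {i : ZMod m} (hi : i ≠ 0) (hi2 : i ≠ ((m / 2 : ℕ) : ZMod m)) :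
    Nat.card {k : Q // Commute (xp x i) k} = m := by
  have key : ∀ k : Q, Commute (xp x i) k ↔ k ∈ Subgroup.zpowers x := by
    intro k
    constructor
    · intro hk
      by_contra hkX
      have h1 := S.conj_out hkX i
      rw [← hk.eq, mul_inv_cancel_right] at h1
      rcases S.s_fix.1 (xp_injective S.hx h1.symm) with h | h
      · exact hi h
      · exact hi2 h
    · intro hk
      obtain ⟨j, rfl⟩ := (mem_zpowers_iff S.hx).1 hk
      show xp x i * xp x j = xp x j * xp x i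
      rw [← xp_add S.hx, ← xp_add S.hx, add_comm]
  have h1 : Nat.card {k : Q // Commute (xp x i) k} = Nat.card (Subgroup.zpowers x) :=
    Nat.card_congr (Equiv.subtypeEquivRight key)
  rw [h1, Nat.card_zpowers, S.hx]

theorem quarter_mem {i : ZMod m} (hi : i ≠ 0) (hi2 : i ≠ ((m / 2 : ℕ) : ZMod m)) :
    xp x ((m / 4 : ℕ) : ZMod m) ∈ Subgroup.zpowers (xp x i) := by
  obtain ⟨k, hk⟩ := exists_mul_quarter S.hr S.hm hi hi2
  refine ⟨(k : ℤ), ?_⟩
  show xp x i ^ (k : ℤ) = _
  rw [zpow_natCast, ← hk]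
  have h1 : i * (k : ZMod m) = ((i.val * k : ℕ) : ZMod m) := by
    rw [Nat.cast_mul, ZMod.natCast_zmod_val]
  rw [h1, xp_natCast S.hx, pow_mul]
  rfl

theorem quarter_not_mem {i : ZMod m} (hi : i = 0 ∨ i = ((m / 2 : ℕ) : ZMod m)) :
    xp x ((m / 4 : ℕ) : ZMod m) ∉ Subgroup.zpowers (xp x i) := by
  rintro ⟨k, hk⟩
  have hk' : xp x i ^ k = xp x ((m / 4 : ℕ) : ZMod m) := hk
  have h1 : xp x i * xp x i = 1 := by
    rcases hi with h | h
    · rw [h, xp_zero S.hx, one_mul]
    · rw [h, S.z_sq]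
  have h2 : xp x ((m / 4 : ℕ) : ZMod m) * xp x ((m / 4 : ℕ) : ZMod m) = 1 := by
    rw [← hk', ← zpow_add, ← two_mul, zpow_mul]
    have : xp x i ^ (2 : ℤ) = 1 := by rw [zpow_ofNat, pow_two]; exact h1
    rw [this, one_zpow]
  rw [← xp_add S.hx, quarter_add S.hr S.hm] at h2
  exact S.z_ne h2

/-- the order of elements inside -/
theorem sq_in {i : ZMod m} : xp x i * xp x i = 1 ↔ i = 0 ∨ i = ((m / 2 : ℕ) : ZMod m) := by
  rw [← xp_add S.hx]
  constructor
  · intro h
    apply two_mul_eq_zero (two_dvd_m S.hr S.hm)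
    rw [two_mul]
    rw [← xp_zero S.hx] at h
    exact xp_injective S.hx h
  · intro h
    have : i + i = 0 := by
      rcases h with h | h
      · rw [h, add_zero]
      · rw [h, half_add_half (two_dvd_m S.hr S.hm)]
    rw [this, xp_zero S.hx]

end QS

end Cfsg.Agent.Lib.Tame
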