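import Cfsg.Agent.Lib.TameTM

/-!
# Quaternion and semidihedral groups as `QS`
-/

set_option autoImplicit false
set_option linter.all false
set_option maxHeartbeats 400000

namespace Cfsg.Agent.Lib.Tame

open Cfsg Cfsg.Agent.Lib.TameFour
open QuaternionGroup (a xa)

universe u

section quat

theorem inv_a' {k : ℕ} (i : ZMod (2 * k)) : (a i : QuaternionGroup k)⁻¹ = a (-i) := rfl

theorem inv_xa' {k : ℕ} (i : ZMod (2 * k)) : (xa i : QuaternionGroup k)⁻¹ = xa ((k : ZMod (2 * k)) + i) := rfl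

variable {Q : Type u} [Group Q] [Finite Q] {k : ℕ} [NeZero k] (ψ : Q ≃* QuaternionGroup k)

omit [Finite Q] in
theorem mem_zp_quat (q : Q) : q ∈ Subgroup.zpowers (ψ.symm (a 1)) ↔ ∃ i : ZMod (2 * k), ψ q = a i := by
  constructor
  · rintro ⟨j, hj⟩
    have hj' : (ψ.symm (a 1)) ^ j = q := hj
    have h1 : ∀ j : ℤ, ∃ i : ZMod (2 * k), (a 1 : QuaternionGroup k) ^ j = a i := by
      intro j
      obtain ⟨c, rfl | rfl⟩ := Int.eq_nat_or_neg j
      · exact ⟨_, by rw [zpow_natCast, QuaternionGroup.a_one_pow]⟩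
      · exact ⟨_, by rw [zpow_neg, zpow_natCast, QuaternionGroup.a_one_pow, inv_a']⟩
    rw [← hj', map_zpow, MulEquiv.apply_symm_apply]
    exact h1 j
  · rintro ⟨i, hi⟩
    obtain ⟨c, rfl⟩ := ZMod.natCast_zmod_surjective i
    refine ⟨(c : ℤ), ?_⟩
    show (ψ.symm (a 1)) ^ (c : ℤ) = q
    apply ψ.injective
    rw [map_zpow, MulEquiv.apply_symm_apply, hi, zpow_natCast, QuaternionGroup.a_one_pow]

omit [Finite Q] in
theorem xp_a (i : ZMod (2 * k)) : xp (ψ.symm (a 1)) i = ψ.symm (a i) := by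
  unfold xp
  apply ψ.injective
  rw [map_pow, MulEquiv.apply_symm_apply, QuaternionGroup.a_one_pow, MulEquiv.apply_symm_apply,
    ZMod.natCast_zmod_val]

theorem qs_quat {n : ℕ} (hn : 3 ≤ n) (hk : k = 2 ^ (n - 2)) :
    QS (2 * k) (ψ.symm (a 1)) (-1) (n - 1) where
  hx := by rw [MulEquiv.orderOf_eq, QuaternionGroup.orderOf_a_one]
  hs := by ring
  hconj := by
    intro y hy
    rw [xp_a]
    apply ψ.injective
    rw [map_mul, map_mul, map_inv, MulEquiv.apply_symm_apply, MulEquiv.apply_symm_apply]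
    rcases h : ψ y with i | i
    · exact absurd ((mem_zp_quat ψ y).2 ⟨i, h⟩) hy
    · rw [inv_xa', QuaternionGroup.xa_mul_a, QuaternionGroup.xa_mul_xa]
      congr 1
      have h1 : ((2 * k : ℕ) : ZMod (2 * k)) = 0 := ZMod.natCast_self _
      push_cast at h1
      linear_combination h1
  hcard := by
    rw [Nat.card_congr ψ.toEquiv, Nat.card_eq_fintype_card, QuaternionGroup.card]
    ring
  hr := by omega
  hm := by
    rw [hk, ← pow_succ']
    congr 1
    omega
  hs' := Or.inl rfl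

theorem quat_no (y : Q) (hy : y ∉ Subgroup.zpowers (ψ.symm (a 1))) : y * y ≠ 1 := by
  intro h
  have h1 := congrArg ψ h
  rw [map_mul, map_one] at h1
  rcases h2 : ψ y with i | i
  · exact hy ((mem_zp_quat ψ y).2 ⟨i, h2⟩)
  · rw [h2, QuaternionGroup.xa_mul_xa, QuaternionGroup.one_def] at h1
    have h3 := QuaternionGroup.a.inj h1
    rw [add_sub_assoc, sub_self, add_zero] at h3
    rw [ZMod.natCast_eq_zero_iff] at h3
    have h4 := Nat.le_of_dvd (NeZero.pos k) h3
    have := NeZero.pos k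
    omega

end quat

section sd

variable {Q : Type u} [Group Q] [Finite Q] {r : ℕ}

theorem qs_sd (hr : 3 ≤ r) (hcard : Nat.card Q = 2 ^ (r + 1)) {x y : Q} (hx : orderOf x = 2 ^ r)
    (hy : orderOf y = 2) (hxy : y * x * y⁻¹ = x ^ (2 ^ (r - 1) - 1)) :
    haveI : NeZero (2 ^ r) := ⟨pow_ne_zero _ two_ne_zero⟩
    QS (2 ^ r) x (((2 ^ r / 2 : ℕ) : ZMod (2 ^ r)) - 1) r ∧ y ∉ Subgroup.zpowers x := by
  haveI : NeZero (2 ^ r) := ⟨pow_ne_zero _ two_ne_zero⟩
  have hhalf : 2 ^ r / 2 = 2 ^ (r - 1) := by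
    obtain ⟨k, rfl⟩ := Nat.exists_eq_add_of_le' (show 1 ≤ r by omega)
    rw [pow_succ, Nat.mul_div_cancel _ (by norm_num)]
    rfl
  have hdouble : 2 ^ r = 2 * 2 ^ (r - 1) := by rw [← pow_succ']; congr 1; omega
  have h4 : 4 ≤ 2 ^ (r - 1) := by
    calc 4 = 2 ^ 2 := rfl
      _ ≤ 2 ^ (r - 1) := Nat.pow_le_pow_right (by norm_num) (by omega)
  have hyX : y ∉ Subgroup.zpowers x := by
    rintro ⟨j, hj⟩
    have hj' : x ^ j = y := hj
    have h1 : y * x * y⁻¹ = x := by
      rw [← hj', ← zpow_neg]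
      nth_rewrite 2 [← zpow_one x]
      rw [← zpow_add, ← zpow_add]
      simp
    rw [hxy] at h1
    have h2 : x ^ (2 ^ (r - 1) - 2) = 1 := by
      have h3 : x ^ (2 ^ (r - 1) - 1) = x ^ (2 ^ (r - 1) - 2) * x := by
        rw [← pow_succ]; congr 1; omega
      rw [h3] at h1
      nth_rewrite 3 [← one_mul x] at h1
      exact mul_right_cancel h1
    have h5 := orderOf_dvd_of_pow_eq_one h2
    rw [hx] at h5
    have := Nat.le_of_dvd (by omega) h5
    omega
  have hidx : (Subgroup.zpowers x).index = 2 := by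
    have h1 := (Subgroup.zpowers x).card_mul_index
    rw [Nat.card_zpowers, hx, hcard, pow_succ] at h1
    exact Nat.eq_of_mul_eq_mul_left (by positivity) h1
  refine ⟨{ hx := hx, hs := ?_, hconj := ?_, hcard := ?_, hr := by omega, hm := rfl, hs' := Or.inr ⟨rfl, hr⟩ }, hyX⟩
  · have h1 : ((2 ^ r / 2 : ℕ) : ZMod (2 ^ r)) * ((2 ^ r / 2 : ℕ) : ZMod (2 ^ r)) = 0 := by
      rw [← Nat.cast_mul, ZMod.natCast_eq_zero_iff, hhalf, ← pow_add]
      apply pow_dvd_pow
      omega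
    have h2 := half_add_half (m := 2 ^ r) (dvd_pow_self 2 (by omega))
    linear_combination h1 - h2
  · intro y' hy'
    have h1 : y⁻¹ * y' ∈ Subgroup.zpowers x := by
      have := (Subgroup.mul_mem_iff_of_index_two hidx (a := y⁻¹) (b := y')).2
        ⟨fun h' => absurd (by simpa using (Subgroup.zpowers x).inv_mem h') hyX, fun h' => absurd h' hy'⟩
      exact this
    obtain ⟨j, hj⟩ := h1
    have hj' : x ^ j = y⁻¹ * y' := hj
    have h2 : y' = y * x ^ j := by rw [hj']; group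
    have h3 : y' * x * y'⁻¹ = y * x * y⁻¹ := by
      rw [h2, mul_inv_rev]
      have h4 : x ^ j * x * (x ^ j)⁻¹ = x := by
        rw [← zpow_neg]
        nth_rewrite 2 [← zpow_one x]
        rw [← zpow_add, ← zpow_add]
        simp
      calc y * x ^ j * x * ((x ^ j)⁻¹ * y⁻¹) = y * (x ^ j * x * (x ^ j)⁻¹) * y⁻¹ := by group
        _ = y * x * y⁻¹ := by rw [h4]
    rw [h3, hxy]
    have h4 : (((2 ^ r / 2 : ℕ) : ZMod (2 ^ r)) - 1) = ((2 ^ (r - 1) - 1 : ℕ) : ZMod (2 ^ r)) := by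
      rw [Nat.cast_sub (by omega), hhalf]
      push_cast
      rfl
    rw [h4, xp_natCast hx]
  · rw [hcard, pow_succ]; ring

end sd

end Cfsg.Agent.Lib.Tame
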