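import Cfsg.Agent.Lib.H25BpY
import Cfsg.Agent.Lib.BlkTransport

/-!
# Local contexts for tame blocks

* `inn_of_odd`: a block is nilpotent (inner fusion) as soon as `p'`-elements normalizing subgroups of the
  defect group centralize them;
* `exists_local`: the context of a block of `N`, `C_G(v) ≤ N ≤ N_G(⟨v⟩)`, below a block of `G`;
* `bid_mul_br`: orthogonality with the other blocks of `G`.
-/

set_option autoImplicit false
set_option linter.all false
set_option maxHeartbeats 400000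

namespace Cfsg.Agent.Lib.Tame

open Cfsg Cfsg.Agent.Lib.BlockRing Cfsg.Agent.Lib.BlockGA Cfsg.Agent.Lib.BlockAlg
open Cfsg.Agent.Lib.BlkIdem Cfsg.Agent.Lib.PairAlg Cfsg.Agent.Lib.PairMax
open Cfsg.Agent.Lib.BlockIdem Cfsg.Agent.Lib.BlockSecond Cfsg.Agent.Lib.BrauerPairs
open Cfsg.Agent.Lib.BlkFus Cfsg.Agent.Lib.InducedPair Cfsg.Agent.Lib.DefPairs
open Cfsg.Agent.Lib.BlkFusDef Cfsg.Agent.Lib.BlkTransport Cfsg.Agent.Lib.BlkNil
open Cfsg.Agent.Lib.H25BpTw Cfsg.Agent.Lib.H25BpW Cfsg.Agent.Lib.H25BpS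
open Cfsg.Agent.Lib.BlockCount (Bl D rsp rsp_orth sum_blockPart blockRank_eq)
open scoped ComplexConjugate Classical Pointwise

universe u

variable {p : ℕ} [hp : Fact p.Prime] {M : Ideal AlgInt} [hMm : M.IsMaximal] [hchar : CharP (Kf M) p]
  {G : Type u} [Group G] [Finite G] {B : Set (IrrCharacter G)} {P : Subgroup G} {e : MonoidAlgebra (Kf M) G}

theorem inn_of_odd (h : Ctx p B P e)
    (H : ∀ Q : Subgroup G, Q ≤ P → ∀ x ∈ Subgroup.normalizer (Q : Set G), ¬ p ∣ orderOf x →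
      x ∈ Subgroup.centralizer (Q : Set G)) : H25BpS.Inn p P e := by
  have h1 := (nil_iff h.mod (isBlk_bidG h.blk) h.pair h.br h.max).1
  intro Q g hg
  refine h1 ?_ Q g hg
  intro R f hRf hbr x hx hxp
  obtain ⟨y, hy⟩ := MaxPair.conj_into hasBlocks (isBlk_bidG h.blk) h.pair h.br h.max hRf hbr
  have hle : cg y R ≤ P := hy.le
  have hn : y * x * y⁻¹ ∈ Subgroup.normalizer ((cg y R : Subgroup G) : Set G) := by
    have hx1 := hx.1
    rw [Subgroup.mem_normalizer_iff] at hx1 ⊢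
    have key : ∀ g : G, g ∈ cg y R ↔ y⁻¹ * g * y ∈ R := by
      intro g
      constructor
      · rintro ⟨r, hr, rfl⟩
        have : y⁻¹ * (y * r * y⁻¹) * y = r := by group
        show y⁻¹ * (y * r * y⁻¹) * y ∈ R
        rw [this]; exact hr
      · intro hg
        refine ⟨_, hg, ?_⟩
        show y * (y⁻¹ * g * y) * y⁻¹ = g
        group
    intro g
    rw [key, key, hx1]
    have : x * (y⁻¹ * g * y) * x⁻¹ = y⁻¹ * (y * x * y⁻¹ * g * (y * x * y⁻¹)⁻¹) * y := by group
    rw [this]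
  have ho : ¬ p ∣ orderOf (y * x * y⁻¹) := by
    rw [H25BpF.orderOf_conj]; exact hxp
  have h2 := H _ hle _ hn ho
  rw [Subgroup.mem_centralizer_iff] at h2 ⊢
  intro r hr
  have h3 := h2 (y * r * y⁻¹) ⟨r, hr, rfl⟩
  have h4 : y * (r * x) * y⁻¹ = y * (x * r) * y⁻¹ := by
    calc y * (r * x) * y⁻¹ = y * r * y⁻¹ * (y * x * y⁻¹) := by group
      _ = y * x * y⁻¹ * (y * r * y⁻¹) := h3
      _ = _ := by group
  exact mul_left_cancel (mul_right_cancel h4)

/-- the local context -/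
theorem exists_local (h : Ctx p B P e) {N : Subgroup G} (hPN : P ≤ N)
    (hC : Subgroup.centralizer (P : Set G) ≤ N) :
    ∃ (b : Set (IrrCharacter N)) (e' : MonoidAlgebra (Kf M) N), Ctx p b (P.subgroupOf N) e' ∧
      inc N e' = e := by
  have he : inc N (res N e) = e := inc_res N (BrauerMap.suppAlg_mono hC h.pair.2.mem.1)
  have hp1 : BPair p (P.subgroupOf N) (res N e) := by
    rw [← bpair_inc_iff hPN hC, he]; exact h.pair
  obtain ⟨f, hf, hfe⟩ := exists_blk_of_pair hasBlocks hp1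
  obtain ⟨b, hb, rfl⟩ := exists_bidG hf
  refine ⟨b, res N e, ⟨h.mod, hb, hp1, hfe, ?_⟩, he⟩
  apply maxPair_inc hPN hC
  rw [he]
  exact h.max

theorem br_bid {N : Subgroup G} (hPN : P ≤ N) {b : Set (IrrCharacter N)} {e' : MonoidAlgebra (Kf M) N}
    (hb : Ctx p b (P.subgroupOf N) e') (he : inc N e' = e) : BrauerMap.br P (bid M N b) * e = e := by
  have h1 := congrArg (inc (M := M) N) hb.br
  rw [map_mul, inc_br hPN, he] at h1
  exact h1

theorem bid_mul_br (h : Ctx p B P e) {N : Subgroup G} (hPN : P ≤ N) {b : Set (IrrCharacter N)}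
    {e' : MonoidAlgebra (Kf M) N} (hb : Ctx p b (P.subgroupOf N) e') (he : inc N e' = e)
    {V : Subgroup G} (hV : V ≤ P) (hVN : Subgroup.centralizer (V : Set G) ≤ N)
    (hNV : N ≤ Subgroup.normalizer (V : Set G)) {B' : Set (IrrCharacter G)} (hB' : IsPBlock M B')
    (hne : B' ≠ B) : BrauerMap.br V (bidG M B') * bid M N b = 0 := by
  have hf : IsBlk N (bid M N b) := isBlk_bid hb.blk
  have hVp : IsPGroup p V := h.pair.1.to_le hV
  have hB'f : bidG M B' ∈ BrauerMap.fixAlg (Kf M) (⊤ : Subgroup G) := (bidG_mem B').2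
  have hz : BrauerMap.br V (bidG M B') ∈ BrauerMap.ZAlg (Kf M) N := by
    refine ⟨BrauerMap.suppAlg_mono hVN (BrauerMap.br_mem_suppAlg V _), ?_⟩
    exact BrauerMap.br_mem_fixAlg hNV (BrauerMap.fixAlg_anti le_top hB'f)
  have hidem : BrauerMap.br V (bidG M B') * BrauerMap.br V (bidG M B') = BrauerMap.br V (bidG M B') :=
    br_idem hVp (bidG_mul_self hB') (fun x _ => hB'f x (Subgroup.mem_top x))
  rcases hf.mul_idem hz hidem with h1 | h0
  swap
  · exact h0
  · exfalso
    have h2 := br_bid hPN hb he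
    have hfP : bid M N b ∈ BrauerMap.fixAlg (Kf M) P := BrauerMap.fixAlg_anti hPN hf.mem.2
    have hzP : BrauerMap.br V (bidG M B') ∈ BrauerMap.fixAlg (Kf M) P :=
      BrauerMap.fixAlg_anti hPN hz.2
    have h3 : BrauerMap.br P (bidG M B') * e = e := by
      have h4 := congrArg (BrauerMap.br P) h1
      rw [BrauerMap.br_mul (p := p) h.pair.1 hzP hfP, BrauerMap.br_br hV] at h4
      calc BrauerMap.br P (bidG M B') * e = BrauerMap.br P (bidG M B') * (BrauerMap.br P (bid M N b) * e) := by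
            rw [h2]
        _ = BrauerMap.br P (bid M N b) * e := by rw [← mul_assoc, h4]
        _ = e := h2
    exact hne (bidG_injective hB' h.blk (blk_unique h.pair (isBlk_bidG hB') (isBlk_bidG h.blk) h3 h.br))

end Cfsg.Agent.Lib.Tame
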