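import Cfsg.Agent.Lib.TameG

/-!
# A vanishing result for structure constants
-/

set_option autoImplicit false
set_option linter.all false
set_option maxHeartbeats 400000

namespace Cfsg.Agent.Lib.Tame

open Cfsg Cfsg.Agent.Lib.BlockRing Cfsg.Agent.Lib.BlockGA Cfsg.Agent.Lib.BlockAlg
open Cfsg.Agent.Lib.BlkIdem Cfsg.Agent.Lib.PairAlg Cfsg.Agent.Lib.PairMax
open Cfsg.Agent.Lib.BlockIdem Cfsg.Agent.Lib.BlockSecond Cfsg.Agent.Lib.BrauerPairs
open Cfsg.Agent.Lib.BlkFus Cfsg.Agent.Lib.InducedPair Cfsg.Agent.Lib.DefPairs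
open Cfsg.Agent.Lib.BlkFusDef Cfsg.Agent.Lib.BlkTransport Cfsg.Agent.Lib.BlkNil
open Cfsg.Agent.Lib.H25BpLift Cfsg.Agent.Lib.H25BpTw Cfsg.Agent.Lib.H25BpF Cfsg.Agent.Lib.H25BpI
open Cfsg.Agent.Lib.H25BpE Cfsg.Agent.Lib.H25BpG Cfsg.Agent.Lib.H25BpW Cfsg.Agent.Lib.H25BpM
open Cfsg.Agent.Lib.H25BpS
open Cfsg.Agent.Lib.BlockCount (Bl D rsp rsp_orth sum_blockPart blockRank_eq)
open Cfsg.Agent.Lib.BlockPair (preg)
open Cfsg.Agent.Lib.Subsec (Cz mem_Cz al al_eq al_mem fs mem_fs sum_fs blockPart_eq D_reg D_not_reg D_mem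
  zz eps eps_mul eps_pow tr tr_center tr_locA lin_tr RegS regS_eB D_eq_sum coef coef_nat un un_loc)
open MonoidAlgebra (single)
open scoped ComplexConjugate Classical Pointwise

universe u

variable {p : ℕ} [hp : Fact p.Prime] {M : Ideal AlgInt} [hMm : M.IsMaximal] [hchar : CharP (Kf M) p]
  {G : Type u} [Group G] [Finite G] {B : Set (IrrCharacter G)} {P : Subgroup G} {e : MonoidAlgebra (Kf M) G}

/-! ### coefficients -/

omit hp hMm hchar in
theorem coeff_inv_eq (w : GA G) (g : G) :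
    w.coeff g⁻¹ = (Nat.card G : ℂ)⁻¹ * ∑ χ : IrrCharacter G, (χ : G → ℂ) 1 * lin (χ : G → ℂ) (w * single g 1) := by
  have := Fintype.ofFinite G
  have hG : (Nat.card G : ℂ) ≠ 0 := Nat.cast_ne_zero.2 Nat.card_pos.ne'
  have h1 : ∀ χ : IrrCharacter G, (χ : G → ℂ) 1 * lin (χ : G → ℂ) (w * single g 1) =
      ∑ x : G, w.coeff x * ((χ : G → ℂ) (x * g) * conj ((χ : G → ℂ) 1)) := by
    intro χ
    rw [lin_mul_single_sum, Finset.mul_sum]
    refine Finset.sum_congr rfl fun x _ => ?_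
    have h2 : conj ((χ : G → ℂ) 1) = (χ : G → ℂ) 1 := by
      obtain ⟨n, hn⟩ := IsCharacter.exists_degree χ.2.isCharacter
      rw [hn, Complex.conj_natCast]
    rw [h2]
    ring
  simp only [h1]
  rw [Finset.sum_comm]
  have h3 : ∀ x : G, ∑ χ : IrrCharacter G, w.coeff x * ((χ : G → ℂ) (x * g) * conj ((χ : G → ℂ) 1)) =
      w.coeff x * (if x = g⁻¹ then (Nat.card G : ℂ) else 0) := by
    intro x
    rw [← Finset.mul_sum, CharBasic.column_orthogonality]
    congr 1
    by_cases hx : x = g⁻¹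
    · subst hx
      rw [if_pos rfl, if_pos (by rw [inv_mul_cancel])]
      have : Subgroup.centralizer ({g⁻¹ * g} : Set G) = ⊤ := by
        rw [inv_mul_cancel, eq_top_iff]
        intro y _
        rw [Subgroup.mem_centralizer_iff]
        rintro _ rfl
        rw [one_mul, mul_one]
      rw [this, Subgroup.card_top]
    · rw [if_neg hx, if_neg]
      intro hc
      apply hx
      rw [eq_inv_iff_mul_eq_one]
      exact isConj_one_left.1 hc
  rw [Finset.sum_congr rfl fun x _ => h3 x, Finset.sum_eq_single g⁻¹]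
  · rw [if_pos rfl]
    field_simp
  · intro x _ hx
    rw [if_neg hx, mul_zero]
  · intro h; exact absurd (Finset.mem_univ _) h

omit hp hMm hchar in
theorem idl_omega [M.IsPrime] {χ : G → ℂ} (hχ : IsIrrCharacter G χ) {z : GA G}
    (hz : z ∈ Subalgebra.center ℂ (GA G)) (hl : IdlA M z) : MemLocalIdeal M (omega χ z) := by
  have := Fintype.ofFinite (ConjClasses G)
  rw [omega_eq_sum hχ.isClassFunction hz]
  exact idl_sum fun C _ => idl_mul_right (hl _) (loc_centralChar hχ _)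

/-! ### orders of the `p`-parts on the support -/

/-- the `p`-parts of the elements in the support have order `n` -/
def PO (p : ℕ) [Fact p.Prime] (n : ℕ) (w : GA G) : Prop := ∀ g, w.coeff g ≠ 0 → orderOf (pp p g) = n

omit hMm hchar in
theorem pp_coe (H : Subgroup G) (h : H) : ((pp p h : H) : G) = pp p (h : G) ∧ ((pq p h : H) : G) = pq p (h : G) := by
  have h1 : ((pp p h : H) : G) * ((pq p h : H) : G) = h := congrArg Subtype.val (pp_mul_pq p h)
  have h2 : Commute ((pp p h : H) : G) ((pq p h : H) : G) := congrArg Subtype.val (pp_comm p h)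
  obtain ⟨k, hk⟩ := pp_order p h
  have h3 := pp_eq h1 h2 ⟨k, by rw [Subgroup.orderOf_coe]; exact hk⟩ (by rw [Subgroup.orderOf_coe]; exact pq_order p h)
  exact ⟨h3.1.symm, h3.2.symm⟩

omit hMm hchar in
theorem PO_resH {n : ℕ} {w : GA G} (hw : PO p n w) (H : Subgroup G) : PO p n (resH H w) := by
  intro g hg
  rw [coeff_resH] at hg
  rw [← hw _ hg, ← (pp_coe H g).1, Subgroup.orderOf_coe]

omit hMm hchar in
theorem PO_tr {H : Subgroup G} {n : ℕ} {w : GA H} (hw : PO p n w) : PO p n (tr H w) := by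
  intro g hg
  letI := Fintype.ofFinite G
  by_contra hcon
  apply hg
  show indFun H (fun h => w.coeff h) g = 0
  rw [IndFun.indFun_apply, Finset.sum_eq_zero, mul_zero]
  intro x _
  by_cases h : x⁻¹ * g * x ∈ H
  · rw [IndFun.extendByZero_mem _ _ h]
    by_contra hne
    apply hcon
    rw [← hw _ hne]
    have h1 := (pp_coe (p := p) H ⟨x⁻¹ * g * x, h⟩).1
    rw [← Subgroup.orderOf_coe, h1]
    have h2 := (pp_conj (p := p) x⁻¹ g).1
    rw [inv_inv] at h2
    show _ = orderOf (pp p (x⁻¹ * g * x))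
    rw [h2]
    have h3 := orderOf_conj x⁻¹ (pp p g)
    rw [inv_inv] at h3
    exact h3.symm
  · rw [IndFun.extendByZero_not_mem _ _ h]

omit hMm hchar in
theorem PO_zz {M : Ideal AlgInt} (hM : IsPModular p M) {z : G} (hz : ∃ k, orderOf z = p ^ k)
    {b : Set (IrrCharacter (Cz z))} (hb : IsPBlock M b) :
    PO p (orderOf z) (single (zz z) (1 : ℂ) * eB b) := by
  intro c hc
  rw [MonoidAlgebra.coeff_single_mul_apply, one_mul] at hc
  have h1 : ¬ p ∣ orderOf ((zz z)⁻¹ * c) := fun h => hc (regS_eB hM hb _ h)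
  have h2 : Commute (zz z) ((zz z)⁻¹ * c) := by
    have : ∀ y : Cz z, Commute (zz z) y := fun y => Subtype.ext (mem_Cz.1 y.2).eq
    exact this _
  have h3 : orderOf (zz z) = orderOf z := (Subgroup.orderOf_coe (zz z)).symm
  have h4 := pp_eq (p := p) (mul_inv_cancel_left (zz z) c) h2 (by rw [h3]; exact hz) h1
  rw [h4.1, h3]

/-! ### linear functionals -/

omit hMm hchar in
theorem lin_zeB' {z : G} (b : Set (IrrCharacter (Cz z))) {f : G → ℂ} (hf : IsClassFunction G f) :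
    lin (fun c : Cz z => f c) (single (zz z) (1 : ℂ) * eB b) = D p z b f 1 := by
  have h1 : ¬ p ∣ orderOf (1 : Cz z) := by
    rw [orderOf_one]
    exact fun h => hp.out.one_lt.not_ge (Nat.le_of_dvd one_pos h)
  rw [D_reg h1, blockPart_section hf (fun g hg => mem_Cz.1 hg), ← lin_incH, map_mul, incH_single]
  simp [zz]

omit hMm hchar in
theorem lin_incH_single {z : G} (b : Set (IrrCharacter (Cz z))) {f : G → ℂ} (hf : IsClassFunction G f) {s : Cz z}
    (hs : ¬ p ∣ orderOf s) :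
    lin f (incH (Cz z) (eB b) * single (z * (s : G)) 1) = D p z b f s := by
  rw [D_reg hs, blockPart_section hf (fun g hg => mem_Cz.1 hg), lin_mul_comm hf]

theorem D_st (h : Ctx p B P e) {η : G → ℂ} (hη : Sta p P e η) {χ : G → ℂ} (hχ : IsClassFunction G χ) {u : G}
    (hu : u ∈ P) {b : Bl M (Cz u)} (hle : PLE p (Subgroup.zpowers u, bid M (Cz u) b.1) (P, e)) :
    D p u b.1 (st p P e η χ) = η u • D p u b.1 χ := by
  have h2 := D_F h.mod (Wt p P e η) hχ (PE_of_mem (p := p) h.pair.1 hu) b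
  rw [Wt_self hη hle] at h2
  exact h2

/-! ### the vanishing in the local subgroup -/

/-- a linear character of the defect group taking the value `κ` on the elements of order `n` kills the
coefficients of squares -/
theorem nlevel_zero (h : Ctx p B P e) {η : G → ℂ} (hη : Sta p P e η)
    (hgen : IsGeneralizedCharacter P (fun x : P => η x)) (h1 : ∀ x ∈ P, η x * conj (η x) = 1) (h2 : η 1 = 1)
    {κ : ℂ} {n : ℕ} (hκ : ∀ y ∈ P, orderOf y = n → η y = κ) (hκ3 : κ ^ 3 ≠ 1) {u : G} (hu : u ∈ P)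
    (hun : orderOf u = n) (b : Bl M (Cz u)) (hle : PLE p (Subgroup.zpowers u, bid M (Cz u) b.1) (P, e))
    {r : GA G} (hr : r ∈ Subalgebra.center ℂ (GA G)) (hPO : PO p n r) {s : Cz u} (hs : ¬ p ∣ orderOf s) :
    (r * r * incH (Cz u) (eB b.1)).coeff (u * (s : G))⁻¹ = 0 := by
  have := Fintype.ofFinite G
  have := Fintype.ofFinite B
  obtain ⟨k, hk⟩ := PE_of_mem (p := p) h.pair.1 hu
  have hind := h.ind_self hu b hle
  rw [coeff_inv_eq]
  set f : IrrCharacter G → ℂ := fun θ => (θ : G → ℂ) 1 * (omega (θ : G → ℂ) r * (omega (θ : G → ℂ) r * D p u b.1 (θ : G → ℂ) s))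
    with hf
  have e1 : ∀ θ : IrrCharacter G, (θ : G → ℂ) 1 * lin (θ : G → ℂ) (r * r * incH (Cz u) (eB b.1) * single (u * (s : G)) 1) =
      f θ := by
    intro θ
    rw [mul_assoc, mul_assoc, lin_mul θ.2 hr, lin_mul θ.2 hr, lin_incH_single b.1 θ.2.isClassFunction hs]
  rw [Finset.sum_congr rfl fun θ _ => e1 θ]
  have e2 : ∑ θ : IrrCharacter G, f θ = ∑ θ ∈ fs B, f θ := by
    symm
    refine Finset.sum_subset (Finset.subset_univ _) fun χ _ hχ => ?_
    show (χ : G → ℂ) 1 * (omega (χ : G → ℂ) r * (omega (χ : G → ℂ) r * D p u b.1 (χ : G → ℂ) s)) = 0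
    rw [Subsec.D_eq_zero h.mod hk hind (fun hc => hχ (mem_fs.2 hc)), Pi.zero_apply, mul_zero, mul_zero, mul_zero]
  rw [e2, sum_fs]
  choose Φ hΦ using fun θ : B => h.st_irr hη hgen h1 h2 θ.2
  have e3 : ∀ θ : B, f (Φ θ) = κ ^ 3 * f θ := by
    intro θ
    have g1 : (Φ θ : G → ℂ) 1 = ((θ : IrrCharacter G) : G → ℂ) 1 := by
      rw [(hΦ θ).2, h.st_one_val hη θ.2, h2, one_mul]
    have g2 : lin (Φ θ : G → ℂ) r = κ * lin ((θ : IrrCharacter G) : G → ℂ) r := by
      rw [(hΦ θ).2, lin_apply, lin_apply, Finset.mul_sum]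
      refine Finset.sum_congr rfl fun g _ => ?_
      by_cases hg : r.coeff g = 0
      · rw [hg, zero_mul, zero_mul, mul_zero]
      · rw [st_val h hη θ.2 (κ := κ)]
        · ring
        · intro c hc
          apply hκ _ hc
          rw [orderOf_conj, hPO g hg]
    have g3 : omega (Φ θ : G → ℂ) r = κ * omega ((θ : IrrCharacter G) : G → ℂ) r := by
      unfold omega
      rw [g1, g2, mul_div_assoc]
    have g4 : D p u b.1 (Φ θ : G → ℂ) s = κ * D p u b.1 ((θ : IrrCharacter G) : G → ℂ) s := by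
      rw [(hΦ θ).2, D_st h hη (θ : IrrCharacter G).2.isClassFunction hu hle, hκ u hu hun]
      rfl
    show (Φ θ : G → ℂ) 1 * (omega (Φ θ : G → ℂ) r * (omega (Φ θ : G → ℂ) r * D p u b.1 (Φ θ : G → ℂ) s)) = _
    rw [g1, g3, g4]
    simp only [hf]
    ring
  let Ψ : B → B := fun θ => ⟨Φ θ, (hΦ θ).1⟩
  have hinj : Function.Injective Ψ := by
    intro θ θ' hθ
    have hθ' : Φ θ = Φ θ' := congrArg (fun t : B => (t : IrrCharacter G)) hθ
    have h5 := h.st_inner_lin hη h1 (χ := (θ : IrrCharacter G)) (θ' : IrrCharacter G) θ.2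
    rw [← (hΦ θ).2, ← (hΦ θ').2, hθ', (Φ θ').2.classInner_self] at h5
    by_contra hne
    have h6 : ((θ : IrrCharacter G) : G → ℂ) ≠ ((θ' : IrrCharacter G) : G → ℂ) := fun hh =>
      hne (Subtype.ext (Subtype.ext hh))
    rw [(θ : IrrCharacter G).2.classInner_eq_zero (θ' : IrrCharacter G).2 h6] at h5
    exact one_ne_zero h5
  have e4 : ∑ θ : B, f θ = κ ^ 3 * ∑ θ : B, f θ := by
    rw [Finset.mul_sum, ← Finset.sum_congr rfl fun θ _ => e3 θ]
    symm
    exact Fintype.sum_bijective Ψ (Finite.injective_iff_bijective.1 hinj) _ _ (fun θ => rfl)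
  have e5 : (1 - κ ^ 3) * ∑ θ : B, f θ = 0 := by linear_combination e4
  rcases mul_eq_zero.1 e5 with h0 | h0
  · exact absurd (sub_eq_zero.1 h0).symm hκ3
  · rw [h0, mul_zero]

/-- scalars detected by the values of the local component of a character of height zero -/
theorem idl_of_D (h : Ctx p B P e) (hin : H25BpS.Inn p P e) {ξ : IrrCharacter G} (hξ : ξ ∈ B)
    (h0 : blockHeight p B (ξ : G → ℂ) = 0) {u : P} {b : Bl M (Cz (u : G))}
    (hle : PLE p (Subgroup.zpowers (u : G), bid M (Cz (u : G)) b.1) (P, e)) {K : ℂ}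
    (hK : ∀ s : Cz (u : G), ¬ p ∣ orderOf s → MemLocalIdeal M (K * D p (u : G) b.1 (ξ : G → ℂ) s)) :
    MemLocalIdeal M K := by
  have := Fintype.ofFinite G
  have := Fintype.ofFinite (Cz (u : G))
  have := isPrime h.mod
  -- the normalisation
  have hal : al p (u : G) b.1 (ξ : G → ℂ) (ξ : G → ℂ) = 1 := by
    obtain ⟨b', hb', he⟩ := h.weight_eq hin (ξ : G → ℂ) (ξ : G → ℂ) u
    have h1 := h.weight_one hin hξ h0 u
    rw [he] at h1
    have h2 : bid M (Cz (u : G)) b'.1 = bid M (Cz (u : G)) b.1 := (h.fx_eq hb').symm.trans (h.fx_eq hle)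
    have h3 : b' = b := Subtype.ext (bid_injective b'.2 b.2 h2)
    rw [← h3]; exact h1
  obtain ⟨k, hk⟩ := PE_of_mem (p := p) h.pair.1 u.2
  have hC : (Nat.card (Cz (u : G)) : ℂ) ≠ 0 := Nat.cast_ne_zero.2 Nat.card_pos.ne'
  have hDcl : IsClassFunction (Cz (u : G)) (D p (u : G) b.1 (ξ : G → ℂ)) := by
    rw [D_eq_sum]
    intro c y
    rw [Finset.sum_apply, Finset.sum_apply]
    refine Finset.sum_congr rfl fun θ _ => ?_
    rw [Pi.smul_apply, Pi.smul_apply, BlockPair.isClassFunction_preg θ.2.isClassFunction c y]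
  set w : GA (Cz (u : G)) := ofFun (fun c => K * D p (u : G) b.1 (ξ : G → ℂ) c⁻¹) with hw
  have hwc : w ∈ Subalgebra.center ℂ (GA (Cz (u : G))) := by
    apply ofFun_mem_center
    intro c y
    show K * D p (u : G) b.1 (ξ : G → ℂ) (y * c * y⁻¹)⁻¹ = K * D p (u : G) b.1 (ξ : G → ℂ) c⁻¹
    have : (y * c * y⁻¹)⁻¹ = y * c⁻¹ * y⁻¹ := by group
    rw [this, hDcl c⁻¹ y]
  have hwl : IdlA M w := by
    intro c
    rw [hw, coeff_ofFun]
    by_cases hc : p ∣ orderOf c⁻¹
    · rw [D_not_reg hc, mul_zero]; exact idl_zero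
    · exact hK _ hc
  rw [al_eq] at hal
  have h5 : K = ∑ θ ∈ fs b.1, conj (coef (u : G) (ξ : G → ℂ) (θ : Cz (u : G) → ℂ)) *
      (((p : ℂ) ^ blockDefect p b.1 * (θ : Cz (u : G) → ℂ) 1 / (Nat.card (Cz (u : G)) : ℂ)) *
        omega (θ : Cz (u : G) → ℂ) w) := by
    have e1 : K = (p : ℂ) ^ blockDefect p b.1 * ((Nat.card (Cz (u : G)) : ℂ)⁻¹ *
        ∑ c : Cz (u : G), K * D p (u : G) b.1 (ξ : G → ℂ) c * conj (D p (u : G) b.1 (ξ : G → ℂ) c)) := by
      conv_lhs => rw [← mul_one K, ← hal, CharBasic.classInner_def]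
      rw [Finset.mul_sum, Finset.mul_sum, Finset.mul_sum, Finset.mul_sum, Finset.mul_sum]
      refine Finset.sum_congr rfl fun c _ => ?_
      ring
    have e2 : ∀ c : Cz (u : G), K * D p (u : G) b.1 (ξ : G → ℂ) c * conj (D p (u : G) b.1 (ξ : G → ℂ) c) =
        ∑ θ ∈ fs b.1, conj (coef (u : G) (ξ : G → ℂ) (θ : Cz (u : G) → ℂ)) *
          (w.coeff c⁻¹ * (θ : Cz (u : G) → ℂ) c⁻¹) := by
      intro c
      have g1 : w.coeff c⁻¹ = K * D p (u : G) b.1 (ξ : G → ℂ) c := by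
        rw [hw, coeff_ofFun, inv_inv]
      by_cases hc : p ∣ orderOf c
      · have g2 : D p (u : G) b.1 (ξ : G → ℂ) c = 0 := D_not_reg hc
        rw [g1, g2, mul_zero, zero_mul]
        symm
        apply Finset.sum_eq_zero
        intro θ _
        rw [zero_mul, mul_zero]
      · rw [← g1]
        conv_lhs => rw [D_eq_sum, Finset.sum_apply, map_sum, Finset.mul_sum]
        refine Finset.sum_congr rfl fun θ _ => ?_
        rw [Pi.smul_apply, smul_eq_mul, map_mul]
        unfold preg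
        rw [if_neg hc, θ.2.isCharacter.inv c]
        ring
    rw [Finset.sum_congr rfl fun c _ => e2 c, Finset.sum_comm] at e1
    rw [e1, Finset.mul_sum, Finset.mul_sum]
    refine Finset.sum_congr rfl fun θ _ => ?_
    rw [← Finset.mul_sum]
    have g3 : ∑ c : Cz (u : G), w.coeff c⁻¹ * (θ : Cz (u : G) → ℂ) c⁻¹ = lin (θ : Cz (u : G) → ℂ) w := by
      rw [lin_apply]
      exact Equiv.sum_comp (Equiv.inv (Cz (u : G))) (fun c => w.coeff c * (θ : Cz (u : G) → ℂ) c)
    rw [g3]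
    have g4 : (θ : Cz (u : G) → ℂ) 1 ≠ 0 := θ.2.one_ne_zero
    unfold omega
    field_simp
  rw [h5]
  refine idl_sum fun θ hθ => ?_
  have hθb := mem_fs.1 hθ
  have l1 : MemLocalRing M (conj (coef (u : G) (ξ : G → ℂ) (θ : Cz (u : G) → ℂ))) := by
    obtain ⟨n, hn⟩ := coef_nat (u : G) ξ θ
    rw [hn, map_mul, Complex.conj_natCast]
    refine loc_mul (loc_natCast n) ?_
    have hz : (u : G) ^ p ^ k = 1 := by rw [← hk]; exact pow_orderOf_eq_one _
    have hpow := eps_pow (u : G) hz θ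
    apply loc_of_isIntegral
    refine IsIntegral.of_pow (n := p ^ k) (pow_pos hp.out.pos k) ?_
    rw [← map_pow, hpow, map_one]
    exact isIntegral_one
  have l2 : MemLocalRing M ((p : ℂ) ^ blockDefect p b.1 * (θ : Cz (u : G) → ℂ) 1 / (Nat.card (Cz (u : G)) : ℂ)) := by
    have h6 := (un_loc h.mod hθb).1
    have h7 : (p : ℂ) ^ blockDefect p b.1 * (θ : Cz (u : G) → ℂ) 1 / (Nat.card (Cz (u : G)) : ℂ) =
        un p b.1 (θ : Cz (u : G) → ℂ) * ((p ^ blockHeight p b.1 (θ : Cz (u : G) → ℂ) : ℕ) : ℂ) := by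
      unfold un
      have hpp : (p : ℂ) ≠ 0 := by exact_mod_cast hp.out.ne_zero
      push_cast
      field_simp
    rw [h7]
    exact loc_mul h6 (loc_natCast _)
  exact idl_mul_left l1 (idl_mul_left l2 (idl_omega θ.2 hwc hwl))

end Cfsg.Agent.Lib.Tame
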