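import Cfsg.Agent.Lib.TameA

/-!
# The inner products of the characters of a block as a sum over the defect group
-/

set_option autoImplicit false
set_option linter.all false
set_option maxHeartbeats 400000

namespace Cfsg.Agent.Lib.Tame

open Cfsg Cfsg.Agent.Lib.BlockRing Cfsg.Agent.Lib.BlockGA Cfsg.Agent.Lib.BlockAlg
open Cfsg.Agent.Lib.BlkIdem Cfsg.Agent.Lib.PairAlg Cfsg.Agent.Lib.PairMax
open Cfsg.Agent.Lib.BlockIdem Cfsg.Agent.Lib.BlockSecond Cfsg.Agent.Lib.BrauerPairs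
open Cfsg.Agent.Lib.BlkFus Cfsg.Agent.Lib.InducedPair Cfsg.Agent.Lib.DefPairs
open Cfsg.Agent.Lib.BlkFusDef Cfsg.Agent.Lib.BlkTransport Cfsg.Agent.Lib.BlkNil
open Cfsg.Agent.Lib.H25BpLift Cfsg.Agent.Lib.H25BpTw Cfsg.Agent.Lib.H25BpF Cfsg.Agent.Lib.H25BpI
open Cfsg.Agent.Lib.H25BpE Cfsg.Agent.Lib.H25BpG Cfsg.Agent.Lib.H25BpW Cfsg.Agent.Lib.H25BpM
open Cfsg.Agent.Lib.H25BpS
open Cfsg.Agent.Lib.BlockCount (Bl D rsp rsp_orth sum_blockPart blockRank_eq)
open Cfsg.Agent.Lib.BlockPair (preg)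
open Cfsg.Agent.Lib.Subsec (Cz mem_Cz al al_eq al_mem fs mem_fs sum_fs blockPart_eq D_reg D_not_reg D_mem)
open MonoidAlgebra (single)
open scoped ComplexConjugate Classical Pointwise

universe u

variable {p : ℕ} [hp : Fact p.Prime] {M : Ideal AlgInt} [hMm : M.IsMaximal] [hchar : CharP (Kf M) p]
  {G : Type u} [Group G] [Finite G] {B : Set (IrrCharacter G)} {P : Subgroup G} {e : MonoidAlgebra (Kf M) G}

/-- fusion of elements -/
def Fs (p : ℕ) (P : Subgroup G) (e : MonoidAlgebra (Kf M) G) (x y : G) : Prop :=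
  ∃ g, BHom p P e (Subgroup.zpowers x) g ∧ g * x * g⁻¹ = y

/-- size of a fusion class -/
noncomputable def nF (p : ℕ) (P : Subgroup G) (e : MonoidAlgebra (Kf M) G) (x : G) : ℕ :=
  Nat.card {y : G // Fs p P e x y}

theorem Fs.left {x y : G} (h : Fs p P e x y) : x ∈ P := by
  obtain ⟨g, hg, _⟩ := h
  exact hg.le (Subgroup.mem_zpowers x)

theorem Fs.symm {x y : G} (h : Fs p P e x y) : Fs p P e y x := by
  obtain ⟨g, hg, rfl⟩ := h
  refine ⟨g⁻¹, ?_, by group⟩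
  have := hg.inv
  rwa [cg_zpowers] at this

theorem Fs.right {x y : G} (h : Fs p P e x y) : y ∈ P := h.symm.left

theorem Fs.trans (hP : BPair p P e) {x y z : G} (h : Fs p P e x y) (h' : Fs p P e y z) : Fs p P e x z := by
  obtain ⟨g, hg, rfl⟩ := h
  obtain ⟨g', hg', rfl⟩ := h'
  refine ⟨g' * g, ?_, by group⟩
  apply hg.mul hasBlocks hP
  rw [cg_zpowers]; exact hg'

theorem Fs.refl (hP : BPair p P e) {x : G} (hx : x ∈ P) : Fs p P e x x :=
  ⟨1, BHom.one hasBlocks hP (by rw [Subgroup.zpowers_le]; exact hx), by group⟩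

theorem Fs.conj (hP : BPair p P e) {x y : G} (hx : x ∈ P) (hy : y ∈ P) : Fs p P e x (y * x * y⁻¹) :=
  ⟨y, BHom.of_mem hasBlocks hP (by rw [Subgroup.zpowers_le]; exact hx) hy, rfl⟩

theorem Fs.order {x y : G} (h : Fs p P e x y) : orderOf y = orderOf x := by
  obtain ⟨g, _, rfl⟩ := h
  exact H25BpF.orderOf_conj g x

theorem nF_pos (hP : BPair p P e) {x : G} (hx : x ∈ P) : 0 < nF p P e x := by
  have : Nonempty {y : G // Fs p P e x y} := ⟨⟨x, Fs.refl hP hx⟩⟩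
  exact Nat.card_pos

theorem nF_eq (hP : BPair p P e) {x y : G} (h : Fs p P e x y) : nF p P e y = nF p P e x := by
  apply Nat.card_congr
  exact Equiv.subtypeEquivRight fun w => ⟨fun h' => h.trans hP h', fun h' => h.symm.trans hP h'⟩

theorem nF_sta (hP : BPair p P e) : Sta p P e (fun x => ((nF p P e x : ℂ))⁻¹) := by
  intro x g hg
  show ((nF p P e (g * x * g⁻¹) : ℂ))⁻¹ = ((nF p P e x : ℂ))⁻¹
  rw [nF_eq hP (⟨g, hg, rfl⟩ : Fs p P e x (g * x * g⁻¹))]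

section ctx

variable (h : Ctx p B P e)
include h

/-- number of conjugating elements -/
theorem card_TF {u g₀ : G} {b : MonoidAlgebra (Kf M) G}
    (h0 : PLE p (cg g₀ (Subgroup.zpowers u), BrauerMap.cj g₀ b) (P, e)) :
    Nat.card {g : G // PLE p (cg g (Subgroup.zpowers u), BrauerMap.cj g b) (P, e)} =
      nF p P e (g₀ * u * g₀⁻¹) * Nat.card (Cc u) := by
  set x := g₀ * u * g₀⁻¹ with hx
  set f := BrauerMap.cj g₀ b with hf
  have h1 : PLE p (Subgroup.zpowers x, f) (P, e) := by rw [cg_zpowers] at h0; exact h0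
  have hfb : IsBlk (Cc x) f := (h1.pair h.pair).2
  rw [← card_Cc g₀ u, ← hx]
  unfold nF
  rw [← Nat.card_prod]
  have e1 : ∀ g : G, cg g (Subgroup.zpowers u) = cg (g * g₀⁻¹) (Subgroup.zpowers x) := by
    intro g
    rw [hx, ← cg_zpowers, ← cg_mul, inv_mul_cancel_right]
  have e2 : ∀ g : G, BrauerMap.cj g b = BrauerMap.cj (g * g₀⁻¹) f := by
    intro g
    rw [hf, ← BrauerMap.cj_mul, inv_mul_cancel_right]
  choose k hk1 hk2 using fun y : {y : G // Fs p P e x y} => y.2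
  have key1 : ∀ (y : {y : G // Fs p P e x y}) (c : Cc x), PLE p (cg (k y * c * g₀) (Subgroup.zpowers u),
      BrauerMap.cj (k y * c * g₀) b) (P, e) := by
    intro y c
    rw [e1, e2]
    have e3 : k y * (c : G) * g₀ * g₀⁻¹ = k y * c := by group
    rw [e3, cg_mul, BrauerMap.cj_mul, cg_of_mem_centralizer c.2, hfb.mem.2 c c.2]
    exact (hk1 y).of_pair hasBlocks h.pair h1
  have key2 : ∀ g : G, PLE p (cg g (Subgroup.zpowers u), BrauerMap.cj g b) (P, e) → Fs p P e x (g * u * g⁻¹) := by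
    intro g hg
    refine ⟨g * g₀⁻¹, ⟨f, h1, ?_⟩, ?_⟩
    · rw [e1, e2] at hg; exact hg
    · rw [hx]; group
  have key0 : ∀ κ g : G, κ * x * κ⁻¹ = g * u * g⁻¹ → κ⁻¹ * g * g₀⁻¹ ∈ Cc x := by
    intro κ g h4
    rw [mem_cz]
    show x * (κ⁻¹ * g * g₀⁻¹) = κ⁻¹ * g * g₀⁻¹ * x
    calc x * (κ⁻¹ * g * g₀⁻¹) = κ⁻¹ * (κ * x * κ⁻¹) * g * g₀⁻¹ := by group
      _ = κ⁻¹ * (g * u * g⁻¹) * g * g₀⁻¹ := by rw [h4]
      _ = κ⁻¹ * g * g₀⁻¹ * x := by rw [hx]; group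
  have key3 : ∀ (g : G) (hg : PLE p (cg g (Subgroup.zpowers u), BrauerMap.cj g b) (P, e)),
      (k ⟨_, key2 g hg⟩)⁻¹ * g * g₀⁻¹ ∈ Cc x := fun g hg => key0 _ g (hk2 ⟨_, key2 g hg⟩)
  symm
  apply Nat.card_congr
  refine Equiv.ofBijective (fun z => ⟨k z.1 * z.2 * g₀, key1 z.1 z.2⟩) ⟨?_, ?_⟩
  · rintro ⟨y, c⟩ ⟨y', c'⟩ hyy
    have h5 : k y * (c : G) * g₀ = k y' * c' * g₀ := congrArg Subtype.val hyy
    have h6 : k y * (c : G) = k y' * c' := mul_right_cancel h5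
    have h7 : y = y' := by
      apply Subtype.ext
      rw [← hk2 y, ← hk2 y']
      have hc : (c : G) * x * (c : G)⁻¹ = x := by
        have := (mem_cz.1 c.2 : Commute x c)
        rw [← this.eq]; group
      have hc' : (c' : G) * x * (c' : G)⁻¹ = x := by
        have := (mem_cz.1 c'.2 : Commute x c')
        rw [← this.eq]; group
      calc k y * x * (k y)⁻¹ = k y * (c * x * (c : G)⁻¹) * (k y)⁻¹ := by rw [hc]
        _ = (k y * c) * x * (k y * c)⁻¹ := by group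
        _ = (k y' * c') * x * (k y' * c')⁻¹ := by rw [h6]
        _ = k y' * (c' * x * (c' : G)⁻¹) * (k y')⁻¹ := by group
        _ = _ := by rw [hc']
    subst h7
    have h8 : c = c' := Subtype.ext (mul_left_cancel h6)
    rw [h8]
  · rintro ⟨g, hg⟩
    refine ⟨(⟨_, key2 g hg⟩, ⟨_, key3 g hg⟩), ?_⟩
    apply Subtype.ext
    show k ⟨_, key2 g hg⟩ * ((k ⟨_, key2 g hg⟩)⁻¹ * g * g₀⁻¹) * g₀ = g
    group

theorem CI_Fs {χ ψ : G → ℂ} (hχ : IsClassFunction G χ) (hψ : IsClassFunction G ψ) {x y : P}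
    (hxy : Fs p P e x y) : CI p χ ψ y (h.fx y) = CI p χ ψ x (h.fx x) := by
  obtain ⟨g, hg, hgy⟩ := hxy
  have h1 : h.fx y = BrauerMap.cj g (h.fx x) := by
    apply h.fx_eq
    have h3 := hg.of_pair hasBlocks h.pair (h.fx_spec x)
    rw [cg_zpowers, hgy] at h3
    exact h3
  rw [h1, ← hgy, CI_conj hχ hψ]

/-- the inner product as a sum over the defect group -/
theorem inner_B [Fintype G] [Fintype P] {χ ψ : IrrCharacter G} (hχ : χ ∈ B) (hψ : ψ ∈ B) :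
    classInner (χ : G → ℂ) (ψ : G → ℂ) = ∑ x : P, ((nF p P e x : ℂ))⁻¹ * CI p (χ : G → ℂ) (ψ : G → ℂ) x (h.fx x) := by
  have hone : Sta p P e (fun _ => (1 : ℂ)) := fun _ _ _ => rfl
  have hs := nF_sta (M := M) h.pair
  have e0 : classInner (χ : G → ℂ) (ψ : G → ℂ) =
      classInner (st p P e (fun _ => (1 : ℂ)) (χ : G → ℂ)) (st p P e (fun _ => (1 : ℂ)) (ψ : G → ℂ)) := by
    rw [h.st_trivial hone (fun _ _ => rfl) hχ, h.st_trivial hone (fun _ _ => rfl) hψ]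
  rw [e0]
  let Ξ : G → MonoidAlgebra (Kf M) G → ℂ := fun u b =>
    Wt p P e (fun _ => (1 : ℂ)) u b * conj (Wt p P e (fun _ => (1 : ℂ)) u b) * CI p (χ : G → ℂ) (ψ : G → ℂ) u b
  have hΞ : ∀ g u b, Ξ (g * u * g⁻¹) (BrauerMap.cj g b) = Ξ u b := by
    intro g u b
    simp only [Ξ]
    rw [Wt_conj hone, CI_conj χ.2.isClassFunction ψ.2.isClassFunction]
  have h1 := h.sum_pairs (fun u b => Ξ u b * Wt p P e (fun x => ((nF p P e x : ℂ))⁻¹) u b) (fun g u b => by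
    rw [hΞ, Wt_conj hs])
  have h2 : ∑ x : P, Ξ x (h.fx x) * Wt p P e (fun x => ((nF p P e x : ℂ))⁻¹) x (h.fx x) =
      ∑ x : P, ((nF p P e x : ℂ))⁻¹ * CI p (χ : G → ℂ) (ψ : G → ℂ) x (h.fx x) := by
    refine Finset.sum_congr rfl fun x _ => ?_
    rw [Wt_self hs (h.fx_spec x)]
    simp only [Ξ]
    rw [Wt_self hone (h.fx_spec x), map_one, mul_one, one_mul, mul_comm]
  have h3 : ∑ u ∈ PE p G, ∑ b ∈ blks M (Cc u),
      (Nat.card {g : G // PLE p (cg g (Subgroup.zpowers u), BrauerMap.cj g b) (P, e)} : ℂ) *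
        (Ξ u b * Wt p P e (fun x => ((nF p P e x : ℂ))⁻¹) u b) =
      ∑ u ∈ PE p G, (Nat.card (Cc u) : ℂ) * ∑ b ∈ blks M (Cc u), Ξ u b := by
    refine Finset.sum_congr rfl fun u _ => ?_
    rw [Finset.mul_sum]
    refine Finset.sum_congr rfl fun b _ => ?_
    by_cases hex : ∃ g, PLE p (cg g (Subgroup.zpowers u), BrauerMap.cj g b) (P, e)
    · obtain ⟨g₀, hg₀⟩ := hex
      rw [card_TF h hg₀, Wt_eq hs hg₀]
      have hx : g₀ * u * g₀⁻¹ ∈ P := by
        apply hg₀.le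
        show g₀ * u * g₀⁻¹ ∈ cg g₀ (Subgroup.zpowers u)
        rw [cg_zpowers]
        exact Subgroup.mem_zpowers _
      have hn : (nF p P e (g₀ * u * g₀⁻¹) : ℂ) ≠ 0 := by
        exact_mod_cast (nF_pos h.pair hx).ne'
      push_cast
      field_simp
    · have h5 : Ξ u b = 0 := by
        simp only [Ξ]
        rw [Wt_eq_zero (fun g hg => hex ⟨g, hg⟩), zero_mul, zero_mul]
      rw [h5, zero_mul, mul_zero, mul_zero]
  have hG : (Nat.card G : ℂ) ≠ 0 := by exact_mod_cast Nat.card_pos.ne'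
  unfold st
  rw [inner_F χ.2.isClassFunction ψ.2.isClassFunction]
  have h4 : ∑ u ∈ PE p G, (Nat.card (Cz u) : ℂ) * classInner (sec p M (Wt p P e (fun _ => (1 : ℂ))) (χ : G → ℂ) u)
      (sec p M (Wt p P e (fun _ => (1 : ℂ))) (ψ : G → ℂ) u) =
      ∑ u ∈ PE p G, (Nat.card (Cc u) : ℂ) * ∑ b ∈ blks M (Cc u), Ξ u b := by
    refine Finset.sum_congr rfl fun u _ => ?_
    have := Fintype.ofFinite (Bl M (Cz u))
    have h3 : (Nat.card (Cz u) : ℂ) = (Nat.card (Cc u) : ℂ) := by rw [Cz_eq_Cc]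
    have h4 : ∑ b ∈ blks M (Cc u), Ξ u b = ∑ b : Bl M (Cz u), Ξ u (bid M (Cz u) b.1) := by
      rw [← finsum_eq_sum_of_fintype]
      exact (sum_Bl_eq u (fun b => Ξ u b)).symm
    have h5 : ∀ b : Bl M (Cz u), Ξ u (bid M (Cz u) b.1) =
        Wt p P e (fun _ => (1 : ℂ)) u (bid M (Cz u) b.1) * conj (Wt p P e (fun _ => (1 : ℂ)) u (bid M (Cz u) b.1)) *
        classInner (D p u b.1 (χ : G → ℂ)) (D p u b.1 (ψ : G → ℂ)) := by
      intro b
      simp only [Ξ]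
      rw [CI_eq]
    rw [inner_sec h.mod, h3, h4, Finset.sum_congr rfl (fun b _ => h5 b)]
  rw [h4, ← h3, h1, h2, inv_mul_cancel_left₀ hG]

/-- the same with arbitrary weights -/
theorem inner_wt [Fintype G] [Fintype P] {χ ψ : IrrCharacter G} (hχ : χ ∈ B) (hψ : ψ ∈ B) (c : P → ℂ)
    (hc : ∀ x : P, ∑ y : P, (if Fs p P e x y then c y else 0) = 1) :
    classInner (χ : G → ℂ) (ψ : G → ℂ) = ∑ x : P, c x * CI p (χ : G → ℂ) (ψ : G → ℂ) x (h.fx x) := by
  rw [inner_B h hχ hψ]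
  have hcard : ∀ y : P, ∑ x : P, (if Fs p P e x y then (1 : ℂ) else 0) = nF p P e y := by
    intro y
    rw [← Finset.sum_filter, Finset.sum_const, nsmul_eq_mul, mul_one]
    congr 1
    unfold nF
    rw [← Fintype.card_subtype, ← Nat.card_eq_fintype_card]
    apply Nat.card_congr
    exact {
      toFun := fun x => ⟨x.1, x.2.symm⟩
      invFun := fun x => ⟨⟨x.1, x.2.right⟩, x.2.symm⟩
      left_inv := fun x => rfl
      right_inv := fun x => rfl }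
  have e1 : ∀ x : P, ((nF p P e x : ℂ))⁻¹ * CI p (χ : G → ℂ) (ψ : G → ℂ) x (h.fx x) =
      ∑ y : P, if Fs p P e x y then
        ((nF p P e y : ℂ))⁻¹ * (c y * CI p (χ : G → ℂ) (ψ : G → ℂ) y (h.fx y)) else 0 := by
    intro x
    have e2 : ∑ y : P, (if Fs p P e x y then
        ((nF p P e y : ℂ))⁻¹ * (c y * CI p (χ : G → ℂ) (ψ : G → ℂ) y (h.fx y)) else 0) =
        ((nF p P e x : ℂ))⁻¹ * CI p (χ : G → ℂ) (ψ : G → ℂ) x (h.fx x) *
          ∑ y : P, (if Fs p P e x y then c y else 0) := by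
      rw [Finset.mul_sum]
      refine Finset.sum_congr rfl fun y _ => ?_
      split_ifs with hxy
      · rw [CI_Fs h χ.2.isClassFunction ψ.2.isClassFunction hxy, nF_eq h.pair hxy]
        ring
      · rw [mul_zero]
    rw [e2, hc x, mul_one]
  rw [Finset.sum_congr rfl fun x _ => e1 x, Finset.sum_comm]
  refine Finset.sum_congr rfl fun y _ => ?_
  have e3 : ∑ x : P, (if Fs p P e x y then
        ((nF p P e y : ℂ))⁻¹ * (c y * CI p (χ : G → ℂ) (ψ : G → ℂ) y (h.fx y)) else 0) =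
      ((nF p P e y : ℂ))⁻¹ * (c y * CI p (χ : G → ℂ) (ψ : G → ℂ) y (h.fx y)) *
        ∑ x : P, (if Fs p P e x y then (1 : ℂ) else 0) := by
    rw [Finset.mul_sum]
    refine Finset.sum_congr rfl fun x _ => ?_
    split_ifs
    · rw [mul_one]
    · rw [mul_zero]
  have hn : (nF p P e y : ℂ) ≠ 0 := by exact_mod_cast (nF_pos h.pair y.2).ne'
  rw [e3, hcard]
  field_simp

end ctx

end Cfsg.Agent.Lib.Tame
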