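import Cfsg.Agent.Lib.TameP

/-!
# Blocks with quaternion and semidihedral defect groups
-/

set_option autoImplicit false
set_option linter.all false
set_option maxHeartbeats 400000

namespace Cfsg.Agent.Lib.Tame

open Cfsg Cfsg.Agent.Lib.BlockRing Cfsg.Agent.Lib.BlockGA Cfsg.Agent.Lib.BlockAlg
open Cfsg.Agent.Lib.BlkIdem Cfsg.Agent.Lib.PairAlg Cfsg.Agent.Lib.PairMax
open Cfsg.Agent.Lib.BlockIdem Cfsg.Agent.Lib.BlockSecond Cfsg.Agent.Lib.BrauerPairs
open Cfsg.Agent.Lib.BlkFus Cfsg.Agent.Lib.InducedPair Cfsg.Agent.Lib.DefPairs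
open Cfsg.Agent.Lib.BlkFusDef Cfsg.Agent.Lib.BlkTransport Cfsg.Agent.Lib.BlkNil
open Cfsg.Agent.Lib.H25BpLift Cfsg.Agent.Lib.H25BpTw Cfsg.Agent.Lib.H25BpF Cfsg.Agent.Lib.H25BpI
open Cfsg.Agent.Lib.H25BpE Cfsg.Agent.Lib.H25BpG Cfsg.Agent.Lib.H25BpW Cfsg.Agent.Lib.H25BpM
open Cfsg.Agent.Lib.H25BpS Cfsg.Agent.Lib.TameFour
open Cfsg.Agent.Lib.BlockCount (Bl D rsp rsp_orth sum_blockPart blockRank_eq)
open Cfsg.Agent.Lib.Subsec (Cz mem_Cz al al_eq al_mem fs mem_fs zz D_reg D_not_reg kern kern_eq_zero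
  al_conj al_idem al_trace al_loc al_not_idl al_idl pow_of_orderOf al_ne_zero')
open Cfsg.Agent.Lib.TameGrp
open Cfsg.Agent.Lib.PairCount (blockRank_irrMap)
open MonoidAlgebra (single)
open scoped ComplexConjugate Classical Pointwise

universe u

variable {M : Ideal AlgInt} [hMm : M.IsMaximal] [hchar : CharP (Kf M) 2]
  {G : Type u} [Group G] [Finite G] {B : Set (IrrCharacter G)} {P : Subgroup G} {e : MonoidAlgebra (Kf M) G}
  {m : ℕ} [NeZero m] {s : ZMod m} {r : ℕ}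

/-- the rank of the local block -/
theorem rank_loc (h : Ctx 2 B P e) {z : G} (hPH : P ≤ Cz z) {bH : Set (IrrCharacter (Cz z))}
    {eH : MonoidAlgebra (Kf M) (Cz z)} (hl : Ctx 2 bH (P.subgroupOf (Cz z)) eH) (he : inc (Cz z) eH = e) (hzP : z ∈ P)
    (bz : Bl M (Cz z)) (hle : PLE 2 (Subgroup.zpowers z, bid M (Cz z) bz.1) (P, e)) :
    blockRank 2 bz.1 = blockRank 2 bH := by
  let u : P.subgroupOf (Cz z) := ⟨⟨z, hPH hzP⟩, hzP⟩
  have huz : ((u : Cz z) : G) = z := rfl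
  obtain ⟨b2, hb2⟩ := hl.ple_bl u.2
  have hu : Cc (u : Cz z) = ⊤ := Cc_top (fun g => LD.zz_central z g)
  have h1 := rank_of_top hl hu b2 hb2
  have hC : Cc ((u : Cz z) : G) ≤ Cz z := by
    rw [huz, Cz_eq_Cc]
  have h2 := fx_inc h hPH hl he u hC
  rw [hl.fx_eq hb2] at h2
  have h3 : h.fx ⟨((u : Cz z) : G), u.2⟩ = bid M (Cz z) bz.1 := h.fx_eq hle
  rw [h3, ← bid_czIso (Cz_le_of hC) b2.1] at h2
  have h4 : irrMap (czIso (Cz_le_of hC)) '' b2.1 = bz.1 :=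
    bid_injective (isPBlock_irrMap _ b2.2) bz.2 h2
  rw [← h4, blockRank_irrMap, h1]

theorem xp_inv_mem {Q : Type u} [Group Q] {x : Q} {k : Q} (hk : k ∈ Subgroup.zpowers x) : k⁻¹ ∈ Subgroup.zpowers x :=
  (Subgroup.zpowers x).inv_mem hk

/-- all involutions outside the cyclic subgroup of a semidihedral group are conjugate -/
theorem QS.inv_conj {Q : Type u} [Group Q] [Finite Q] {x : Q} (S : QS m x s r)
    (hs : s = ((m / 2 : ℕ) : ZMod m) - 1) (hr : 3 ≤ r) {y y' : Q} (hy : y ∉ Subgroup.zpowers x)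
    (hy' : y' ∉ Subgroup.zpowers x) (hy2 : y * y = 1) (hy'2 : y' * y' = 1) : ∃ p : Q, p * y * p⁻¹ = y' := by
  obtain ⟨j, hj⟩ := (mem_zpowers_iff S.hx).1 (S.inv_mul_mem hy hy')
  have hyinv : y⁻¹ = y := inv_eq_of_mul_eq_one_left hy2
  have hyj : y' = y * xp x j := by rw [hj]; group
  have hcj := S.conj_out hy
  -- `(s + 1) * j = 0`
  have h1 : (s + 1) * j = 0 := by
    have h2 : xp x (s * j + j) = 1 := by
      rw [xp_add S.hx, ← hcj, ← hy'2, hyj, hyinv]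
      group
    rw [← xp_zero S.hx] at h2
    have h3 := xp_injective S.hx h2
    rw [add_mul, one_mul]; exact h3
  rw [hs, sub_add_cancel] at h1
  have h8 : 8 ∣ m := by rw [S.hm]; exact pow_dvd_pow 2 hr
  obtain ⟨t, ht⟩ := h8
  have hm0 := NeZero.pos m
  have htp : 0 < t := by
    rcases Nat.eq_zero_or_pos t with h | h
    · rw [h] at ht; omega
    · exact h
  have hm2 : m / 2 = 4 * t := by omega
  obtain ⟨a, ha⟩ := ZMod.natCast_zmod_surjective j
  have h2a : ∃ j', a = 2 * j' := by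
    rw [← ha, hm2, ← Nat.cast_mul, ZMod.natCast_eq_zero_iff] at h1
    have h3 : 4 * t * 2 ∣ 4 * t * a := by
      have : m = 4 * t * 2 := by omega
      rw [← this]; exact h1
    exact Nat.dvd_of_mul_dvd_mul_left (by omega) h3
  obtain ⟨j', hj'⟩ := h2a
  -- solve `(s - 1) * i = j`
  have hm0' : (8 * t : ZMod m) = 0 := by
    have : ((8 * t : ℕ) : ZMod m) = 0 := by rw [← ht]; exact ZMod.natCast_self m
    push_cast at this
    exact this
  set i : ZMod m := (2 * (t : ZMod m) - 1) * j' with hi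
  have hsol : (s - 1) * i = j := by
    rw [hs, hm2, hi, ← ha, hj']
    push_cast
    linear_combination (-(j' : ZMod m) + (t : ZMod m) * j') * hm0'
  refine ⟨xp x i, ?_⟩
  rw [hyj, ← hsol]
  have h4 : xp x i * y * (xp x i)⁻¹ = y * (xp x (s * i) * (xp x i)⁻¹) := by
    rw [← hcj, hyinv]
    calc xp x i * y * (xp x i)⁻¹ = (y * y) * xp x i * y * (xp x i)⁻¹ := by rw [hy2, one_mul]
      _ = y * (y * xp x i * y * (xp x i)⁻¹) := by group
  rw [h4]
  congr 1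
  rw [mul_inv_eq_iff_eq_mul, ← xp_add S.hx]
  congr 1
  ring

/-- the numerical data together with the local information -/
theorem core (h : Ctx 2 B P e) {x0 : P} (S0 : QS m x0 s r) :
    ∃ (W T : IrrCharacter G → ℤ) (a1 az : IrrCharacter G → IrrCharacter G → ℤ) (c cH : ℤ) (lz : ℕ),
      ND (fs B) (m / 4) r (fun χ => blockHeight 2 B (χ : G → ℂ)) W T a1 az c (blockRank 2 B) lz ∧
      (lz : ℤ) + cH = 3 ∧
      ((∀ y : P, y ∉ Subgroup.zpowers x0 → y * y ≠ 1) → c = cH) ∧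
      (∀ y0 : P, y0 ∉ Subgroup.zpowers x0 → y0 * y0 = 1 → s = ((m / 2 : ℕ) : ZMod m) - 1 → 3 ≤ r →
        (c = cH ∨ c = cH - 1) ∧ 1 ≤ cH ∧ ¬ (m / 4 = 2 ∧
          ((fs B).filter (fun χ : IrrCharacter G => blockHeight 2 B (χ : G → ℂ) = 0 ∧
            W χ ≠ 2 * ((m / 4 : ℕ) : ℤ) - 1)).card = 1)) := by
  have h2 : 2 ∣ m := two_dvd_m S0.hr S0.hm
  obtain ⟨N, b, e', v, ξ, x, L, S, hv, hxg⟩ := exists_LD_qs h S0
  obtain ⟨a1, az, bz, c, hle, hcB, -, -, hN⟩ := L.nd S hv h2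
  rw [cB_eq S0 hxg, cX_eq] at hcB
  have hzP : xg x ((m / 2 : ℕ) : ZMod m) ∈ P := xg_mem x _
  have hz2 : xg x ((m / 2 : ℕ) : ZMod m) * xg x ((m / 2 : ℕ) : ZMod m) = 1 := (xg_sq S).2 (Or.inr rfl)
  have hz1 : xg x ((m / 2 : ℕ) : ZMod m) ≠ 1 := by
    intro h
    rw [← xg_zero S] at h
    exact half_ne h2 (xg_inj S h)
  have hPH : P ≤ Cz (xg x ((m / 2 : ℕ) : ZMod m)) := by
    intro y hy
    rw [mem_Cz]
    exact ((Subgroup.mem_centralizer_iff.1 (zg_cent L S)) y hy).symm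
  have hCH : Subgroup.centralizer (P : Set G) ≤ Cz (xg x ((m / 2 : ℕ) : ZMod m)) := by
    intro y hy
    exact mem_Cz.2 (Subgroup.mem_centralizer_iff.1 hy _ hzP)
  obtain ⟨bH, eH, hl, heH⟩ := exists_local h hPH hCH
  have hrank := rank_loc h hPH hl heH hzP bz hle
  -- the local data of the centralizer
  set ψ : P ≃* P.subgroupOf (Cz (xg x ((m / 2 : ℕ) : ZMod m))) := (Subgroup.subgroupOfEquivOfLe hPH).symm with hψ
  have SH : QS m (ψ x0) s r := S0.map ψ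
  have hψz : ((xp (ψ x0) ((m / 2 : ℕ) : ZMod m) : P.subgroupOf (Cz (xg x ((m / 2 : ℕ) : ZMod m)))) :
      Cz (xg x ((m / 2 : ℕ) : ZMod m))) = zz (xg x ((m / 2 : ℕ) : ZMod m)) := by
    rw [show xp (ψ x0) ((m / 2 : ℕ) : ZMod m) = ψ (xp x0 ((m / 2 : ℕ) : ZMod m)) from (xp_map ψ.toMonoidHom _).symm]
    apply Subtype.ext
    exact (hxg ((m / 2 : ℕ) : ZMod m)).symm
  obtain ⟨NH, bb, eb, vH, ξH, xH, LH, SH', hvH, hxgH⟩ := exists_LD_qs hl SH
  obtain ⟨cH, hcH, hlH⟩ := LH.cen_main SH' hvH (by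
    intro g
    rw [hxgH, hψz]
    exact LD.zz_central _ g)
  rw [cB_eq SH hxgH, cX_eq] at hcH
  rw [← hrank] at hlH
  -- squares of elements of order four
  have hP4 : ∀ t ∈ P, t ^ 4 = 1 → t * t ≠ 1 → t * t = xg x ((m / 2 : ℕ) : ZMod m) := by
    intro t ht h4 h22
    have h5 := S0.sq_eq (t := (⟨t, ht⟩ : P)) (Subtype.ext h4) (fun h => h22 (congrArg Subtype.val h))
    rw [hxg]
    exact congrArg Subtype.val h5
  have h4z : ∀ y : P, y ∉ Subgroup.zpowers x0 → y * y ≠ 1 → (y : G) * y = xg x ((m / 2 : ℕ) : ZMod m) := by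
    intro y hy hy2
    rcases S0.sq_out hy with h5 | h5
    · exact absurd h5 hy2
    · rw [hxg]; exact congrArg Subtype.val h5
  have hc4 := c4_iff h hPH hl heH rfl hP4 hz2 hz1 x0 h4z
  rw [← hψ] at hc4
  -- transport of membership
  have hmem : ∀ y : P, ψ y ∈ Subgroup.zpowers (ψ x0) ↔ y ∈ Subgroup.zpowers x0 := by
    intro y
    constructor
    · rintro ⟨j, hj⟩
      have hj' : (ψ x0) ^ j = ψ y := hj
      rw [← map_zpow] at hj'
      exact ⟨j, ψ.injective hj'⟩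
    · rintro ⟨j, hj⟩
      have hj' : x0 ^ j = y := hj
      exact ⟨j, by show (ψ x0) ^ j = ψ y; rw [← map_zpow, hj']⟩
  refine ⟨_, _, a1, az, c, cH, blockRank 2 bz.1, hN, hlH, ?_, ?_⟩
  · intro hno
    have e1 : c2 P e x0 = 0 := c2_zero x0 hno
    have e2 : c2 (P.subgroupOf (Cz (xg x ((m / 2 : ℕ) : ZMod m)))) eH (ψ x0) = 0 := by
      apply c2_zero
      intro y hy hy2
      obtain ⟨y, rfl⟩ := ψ.surjective y
      rw [hmem] at hy
      apply hno y hy
      apply ψ.injective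
      rw [map_mul, hy2, map_one]
    have h5 : (c : ℚ) = (cH : ℚ) := by rw [hcB, hcH, e1, e2, hc4]
    exact_mod_cast h5
  · intro y0 hy0 hy02 hs hr3
    have hcG := c2_or h x0 y0 hy0 hy02 (fun y hy hy2 => S0.inv_conj hs hr3 hy0 hy hy02 hy2)
    have hcl := c2_or hl (ψ x0) (ψ y0) (fun hh => hy0 ((hmem y0).1 hh)) (by rw [← map_mul, hy02, map_one])
      (fun y hy hy2 => SH.inv_conj hs hr3 (fun hh => hy0 ((hmem y0).1 hh)) hy (by rw [← map_mul, hy02, map_one]) hy2)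
    have e2 : c2 (P.subgroupOf (Cz (xg x ((m / 2 : ℕ) : ZMod m)))) eH (ψ x0) = 1 := by
      apply hcl.2
      rintro ⟨k, hk, g, hg, hgk⟩
      obtain ⟨i, rfl⟩ := (mem_zpowers_iff SH.hx).1 hk
      have h5 : xp (ψ x0) i * xp (ψ x0) i = 1 := by
        apply Subtype.ext
        show ((xp (ψ x0) i : P.subgroupOf (Cz (xg x ((m / 2 : ℕ) : ZMod m)))) : Cz (xg x ((m / 2 : ℕ) : ZMod m))) *
          (xp (ψ x0) i : P.subgroupOf (Cz (xg x ((m / 2 : ℕ) : ZMod m)))) = 1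
        rw [← hgk]
        have h6 : ((ψ y0 : P.subgroupOf (Cz (xg x ((m / 2 : ℕ) : ZMod m)))) : Cz (xg x ((m / 2 : ℕ) : ZMod m))) *
            (ψ y0 : P.subgroupOf (Cz (xg x ((m / 2 : ℕ) : ZMod m)))) = 1 := by
          have h7 : ψ y0 * ψ y0 = 1 := by rw [← map_mul, hy02, map_one]
          exact congrArg Subtype.val h7
        calc g * ((ψ y0 : P.subgroupOf (Cz (xg x ((m / 2 : ℕ) : ZMod m)))) : Cz (xg x ((m / 2 : ℕ) : ZMod m))) * g⁻¹ *
            (g * ((ψ y0 : P.subgroupOf (Cz (xg x ((m / 2 : ℕ) : ZMod m)))) : Cz (xg x ((m / 2 : ℕ) : ZMod m))) * g⁻¹) =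
            g * (((ψ y0 : P.subgroupOf (Cz (xg x ((m / 2 : ℕ) : ZMod m)))) : Cz (xg x ((m / 2 : ℕ) : ZMod m))) *
              ((ψ y0 : P.subgroupOf (Cz (xg x ((m / 2 : ℕ) : ZMod m)))) : Cz (xg x ((m / 2 : ℕ) : ZMod m)))) * g⁻¹ := by group
          _ = 1 := by rw [h6]; group
      rw [SH.sq_in] at h5
      rcases h5 with h5 | h5
      · rw [h5, xp_zero SH.hx] at hgk
        have h6 : ((ψ y0 : P.subgroupOf (Cz (xg x ((m / 2 : ℕ) : ZMod m)))) : Cz (xg x ((m / 2 : ℕ) : ZMod m))) = 1 :=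
          conj_eq_one_iff.1 hgk
        have h7 : ψ y0 = 1 := Subtype.ext h6
        rw [EmbeddingLike.map_eq_one_iff] at h7
        exact hy0 (h7 ▸ Subgroup.one_mem _)
      · rw [h5, hψz] at hgk
        have h6 : ((ψ y0 : P.subgroupOf (Cz (xg x ((m / 2 : ℕ) : ZMod m)))) : Cz (xg x ((m / 2 : ℕ) : ZMod m))) =
            zz (xg x ((m / 2 : ℕ) : ZMod m)) := by
          have h7 := LD.zz_central (xg x ((m / 2 : ℕ) : ZMod m)) g
          have h8 := hgk.trans h7.symm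
          exact mul_left_cancel (mul_right_cancel h8)
        have h7 : ψ y0 = ψ (xp x0 ((m / 2 : ℕ) : ZMod m)) := by
          rw [show ψ (xp x0 ((m / 2 : ℕ) : ZMod m)) = xp (ψ x0) ((m / 2 : ℕ) : ZMod m) from xp_map ψ.toMonoidHom _]
          apply Subtype.ext
          rw [hψz]; exact h6
        have h8 := ψ.injective h7
        exact hy0 (h8 ▸ (mem_zpowers_iff S0.hx).2 ⟨_, rfl⟩)
    have hc40 : 0 ≤ c4 P e x0 := by
      unfold c4
      refine Finset.sum_nonneg fun y _ => ?_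
      split_ifs
      · exact le_rfl
      · unfold wX
        split_ifs
        · exact le_rfl
        · positivity
    rw [e2, ← hc4] at hcH
    refine ⟨?_, ?_, ?_⟩
    · by_cases hk : ∃ k ∈ Subgroup.zpowers x0, Fs 2 P e (y0 : G) (k : G)
      · right
        rw [hcG.1 hk, add_zero] at hcB
        have h5 : (c : ℚ) = ((cH - 1 : ℤ) : ℚ) := by push_cast; rw [hcB, hcH]; ring
        exact_mod_cast h5
      · left
        rw [hcG.2 hk] at hcB
        have h5 : (c : ℚ) = (cH : ℚ) := by rw [hcB, hcH]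
        exact_mod_cast h5
    · have h5 : (1 : ℚ) ≤ (cH : ℚ) := by rw [hcH]; linarith
      exact_mod_cast h5
    · rintro ⟨hm4, hcard⟩
      have h4m := four_dvd_m S0.hr S0.hm
      have hm8 : m = 8 := by omega
      subst hm8
      have hs3 : s = 3 := by rw [hs]; decide
      apply L.parity8 S hv hs3 h2
      · intro χ hχ h0
        have h5 := hN.W0 χ hχ h0
        norm_num at h5
        exact h5
      · rw [← hcard]
        congr 1

end Cfsg.Agent.Lib.Tame
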