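import Cfsg.Agent.Lib.TameT

/-!
# Blocks with quaternion and semidihedral defect groups: the invariants
-/

set_option autoImplicit false
set_option linter.all false
set_option maxHeartbeats 400000

namespace Cfsg.Agent.Lib.Tame

open Cfsg Cfsg.Agent.Lib.BlockRing Cfsg.Agent.Lib.BlockGA Cfsg.Agent.Lib.BlockAlg
open Cfsg.Agent.Lib.BlockIdem
open Cfsg.Agent.Lib.H25BpS Cfsg.Agent.Lib.TameFour
open Cfsg.Agent.Lib.Subsec (Cz mem_Cz fs mem_fs)
open scoped ComplexConjugate Classical Pointwise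

universe u

variable {M : Ideal AlgInt} [hMm : M.IsMaximal] [hchar : CharP (Kf M) 2]
  {G : Type u} [Group G] [Finite G] {B : Set (IrrCharacter G)} {P : Subgroup G} {e : MonoidAlgebra (Kf M) G}
  {m : ℕ} [NeZero m] {s : ZMod m} {r : ℕ}

omit hMm hchar in
theorem card_fs_filter (p : IrrCharacter G → Prop) [DecidablePred p] :
    Nat.card {χ : IrrCharacter G // χ ∈ B ∧ p χ} = ((fs B).filter p).card := by
  rw [← Fintype.card_coe, ← Nat.card_eq_fintype_card]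
  apply Nat.card_congr
  apply Equiv.subtypeEquivRight
  intro χ
  rw [Finset.mem_filter, mem_fs]

omit hMm hchar in
theorem card_fs : Nat.card B = (fs B).card := by
  rw [← Fintype.card_coe, ← Nat.card_eq_fintype_card]
  apply Nat.card_congr
  apply Equiv.subtypeEquivRight
  intro χ
  rw [mem_fs]

/-- quaternion defect groups -/
theorem quat_main (h : Ctx 2 B P e) {x0 : P} (S0 : QS m x0 s r)
    (hno : ∀ y : P, y ∉ Subgroup.zpowers x0 → y * y ≠ 1) :
    1 ≤ blockRank 2 B ∧ blockRank 2 B ≤ 3 ∧ Nat.card B = blockRank 2 B + 2 ^ (r - 1) + 2 ∧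
      Nat.card {χ : IrrCharacter G // χ ∈ B ∧ blockHeight 2 B (χ : G → ℂ) = 0} = 4 ∧
      (∀ χ ∈ B, blockHeight 2 B (χ : G → ℂ) = 0 ∨ blockHeight 2 B (χ : G → ℂ) = 1 ∨
        blockHeight 2 B (χ : G → ℂ) = r - 1) ∧
      (3 ≤ r → Nat.card {χ : IrrCharacter G // χ ∈ B ∧ blockHeight 2 B (χ : G → ℂ) = 1} = 2 ^ (r - 1) - 1) := by
  obtain ⟨W, T, a1, az, c, cH, lz, hN, hlc, hq, -⟩ := core h S0
  have hc := hq hno
  have hc0 := hN.c0
  have hlz3 : lz ≤ 3 := by omega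
  -- minimality
  have hmin : ∀ χ ∈ fs B, blockHeight 2 B (χ : G → ℂ) = 0 → W χ = 2 * ((m / 4 : ℕ) : ℤ) - 1 := by
    by_contra hcon
    push Not at hcon
    obtain ⟨h1, h2⟩ := hN.nonmin hcon
    have h3 := h2 (by omega)
    omega
  have hl1 : 1 ≤ blockRank 2 B := hN.A.rank_pos hN.D_pos hN.ne
  have hk := hN.card_eq
  have hsp := hN.card_split
  have hb := hN.bound
  have h2q : 2 * (m / 4) = 2 ^ (r - 1) := by
    have := hN.two_q
    exact_mod_cast this
  have hqp := hN.q_pos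
  set E := ((fs B).filter (fun χ : IrrCharacter G => blockHeight 2 B (χ : G → ℂ) ≠ 0 ∧ W χ = 0)).card with hE
  set X := ((fs B).filter (fun χ : IrrCharacter G => blockHeight 2 B (χ : G → ℂ) ≠ 0 ∧ W χ ≠ 0)).card with hX
  have hmain : blockRank 2 B ≤ 3 ∧ (fs B).card = blockRank 2 B + 2 ^ (r - 1) + 2 := by
    by_cases hq1 : 1 < m / 4
    · have h1 : X = 2 * (m / 4) - 1 := hN.card_small hmin hq1
      have h3 := hb.2 (by rw [h1]; omega)
      constructor <;> omega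
    · have h1 : X = 0 := hN.no_small hq1
      have h3 := hb.1
      constructor <;> omega
  refine ⟨hl1, hmain.1, by rw [card_fs, hmain.2], ?_, ?_, ?_⟩
  · rw [card_fs_filter]; exact hN.H0
  · intro χ hχ
    exact hN.heights (mem_fs.2 hχ)
  · intro hr3
    rw [card_fs_filter]
    have hq1 : 1 < m / 4 := by
      rw [hN.hq]
      exact Nat.one_lt_two_pow (by omega)
    rw [← h2q]
    exact hN.card_one hmin hq1

/-- semidihedral defect groups -/
theorem sd_main (h : Ctx 2 B P e) {x0 : P} (S0 : QS m x0 s r) (hs : s = ((m / 2 : ℕ) : ZMod m) - 1) (hr3 : 3 ≤ r)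
    {y0 : P} (hy0 : y0 ∉ Subgroup.zpowers x0) (hy02 : y0 * y0 = 1) :
    (Nat.card B = 2 ^ (r - 1) + 3 ∨ Nat.card B = 2 ^ (r - 1) + 4) ∧ 1 ≤ blockRank 2 B ∧ blockRank 2 B ≤ 3 ∧
      (blockRank 2 B = 3 → Nat.card B = 2 ^ (r - 1) + 4) ∧ (blockRank 2 B = 1 → Nat.card B = 2 ^ (r - 1) + 3) ∧
      Nat.card {χ : IrrCharacter G // χ ∈ B ∧ blockHeight 2 B (χ : G → ℂ) = 0} = 4 ∧
      Nat.card {χ : IrrCharacter G // χ ∈ B ∧ blockHeight 2 B (χ : G → ℂ) = 1} = 2 ^ (r - 1) - 1 ∧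
      (∀ χ ∈ B, blockHeight 2 B (χ : G → ℂ) = 0 ∨ blockHeight 2 B (χ : G → ℂ) = 1 ∨
        blockHeight 2 B (χ : G → ℂ) = r - 1) := by
  obtain ⟨W, T, a1, az, c, cH, lz, hN, hlc, -, hsd⟩ := core h S0
  obtain ⟨hcc, hcH1, hpar⟩ := hsd y0 hy0 hy02 hs hr3
  have hc0 := hN.c0
  have hlz2 : lz ≤ 2 := by omega
  have hmin : ∀ χ ∈ fs B, blockHeight 2 B (χ : G → ℂ) = 0 → W χ = 2 * ((m / 4 : ℕ) : ℤ) - 1 := by
    by_contra hcon
    push Not at hcon
    obtain ⟨h1, h2⟩ := hN.nonmin hcon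
    have h3 := h2 (by omega)
    exact hpar ⟨h3.1, h3.2.2⟩
  have hl1 : 1 ≤ blockRank 2 B := hN.A.rank_pos hN.D_pos hN.ne
  have hk := hN.card_eq
  have hsp := hN.card_split
  have hb := hN.bound
  have h2q : 2 * (m / 4) = 2 ^ (r - 1) := by
    have := hN.two_q
    exact_mod_cast this
  have hqp := hN.q_pos
  have hq1 : 1 < m / 4 := by
    rw [hN.hq]
    exact Nat.one_lt_two_pow (by omega)
  set E := ((fs B).filter (fun χ : IrrCharacter G => blockHeight 2 B (χ : G → ℂ) ≠ 0 ∧ W χ = 0)).card with hE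
  set X := ((fs B).filter (fun χ : IrrCharacter G => blockHeight 2 B (χ : G → ℂ) ≠ 0 ∧ W χ ≠ 0)).card with hX
  have h1 : X = 2 * (m / 4) - 1 := hN.card_small hmin hq1
  have h3 := hb.2 (by rw [h1]; omega)
  have hcard : Nat.card B = 2 ^ (r - 1) + 3 + E := by
    rw [card_fs]; omega
  have hl : (blockRank 2 B : ℤ) = E + 1 + (cH - c) := by omega
  refine ⟨?_, hl1, ?_, ?_, ?_, ?_, ?_, ?_⟩
  · rw [hcard]; omega
  · omega
  · intro hh; rw [hcard]; omega
  · intro hh; rw [hcard]; omega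
  · rw [card_fs_filter]; exact hN.H0
  · rw [card_fs_filter, ← h2q]
    exact hN.card_one hmin hq1
  · intro χ hχ
    exact hN.heights (mem_fs.2 hχ)

end Cfsg.Agent.Lib.Tame
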