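import Cfsg.Agent.Lib.TameSetup

/-!
# The generalized character of a defect group attached to a class function and a nilpotent block

For a nilpotent block `B` (context `Ctx p B P e`, inner fusion), a height zero `ξ ∈ B` and a class function `f`,
`tt f = ∑_ψ ⟨f, ψ * ξ⟩ ψ` is a class function on `P` with
* `tt_inner`: `⟨f, η * ξ⟩ = ⟨tt f, η⟩`;
* `D_tt`: the local components of `f` at `(u, b_u)` are `tt f u` times those of `ξ`;
* `bp_tt`: the `B`-part of `f` at elements where all stars are multiples of `ξ`.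
-/

set_option autoImplicit false
set_option linter.all false
set_option maxHeartbeats 400000

namespace Cfsg.Agent.Lib.Tame

open Cfsg Cfsg.Agent.Lib.BlockRing Cfsg.Agent.Lib.BlockGA Cfsg.Agent.Lib.BlockAlg
open Cfsg.Agent.Lib.BlkIdem Cfsg.Agent.Lib.PairAlg Cfsg.Agent.Lib.PairMax
open Cfsg.Agent.Lib.BlockIdem Cfsg.Agent.Lib.BlockSecond Cfsg.Agent.Lib.BrauerPairs
open Cfsg.Agent.Lib.BlkFus Cfsg.Agent.Lib.InducedPair Cfsg.Agent.Lib.DefPairs
open Cfsg.Agent.Lib.BlkFusDef Cfsg.Agent.Lib.BlkTransport Cfsg.Agent.Lib.BlkNil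
open Cfsg.Agent.Lib.H25BpLift Cfsg.Agent.Lib.H25BpTw Cfsg.Agent.Lib.H25BpF Cfsg.Agent.Lib.H25BpI
open Cfsg.Agent.Lib.H25BpE Cfsg.Agent.Lib.H25BpG Cfsg.Agent.Lib.H25BpW Cfsg.Agent.Lib.H25BpM
open Cfsg.Agent.Lib.H25BpS
open Cfsg.Agent.Lib.BlockCount (Bl D rsp rsp_orth sum_blockPart blockRank_eq)
open Cfsg.Agent.Lib.BlockPair (preg)
open Cfsg.Agent.Lib.Subsec (Cz mem_Cz al al_eq al_mem fs mem_fs sum_fs blockPart_eq D_reg D_not_reg D_mem)
open scoped ComplexConjugate Classical Pointwise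

universe u

variable {p : ℕ} [hp : Fact p.Prime] {M : Ideal AlgInt} [hMm : M.IsMaximal] [hchar : CharP (Kf M) p]
  {G : Type u} [Group G] [Finite G] {B : Set (IrrCharacter G)} {P : Subgroup G} {e : MonoidAlgebra (Kf M) G}

/-- values of star multiples -/
theorem st_val (h : Ctx p B P e) {η : G → ℂ} (hη : Sta p P e η) {χ : IrrCharacter G} (hχ : χ ∈ B) {g : G}
    {κ : ℂ} (hκ : ∀ c : G, c * pp p g * c⁻¹ ∈ P → η (c * pp p g * c⁻¹) = κ) :
    st p P e η (χ : G → ℂ) g = κ * (χ : G → ℂ) g := by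
  have h1 : pq p g ∈ Cz (pp p g) := mem_Cz.2 (pp_comm p g)
  have hs : ¬ p ∣ orderOf (⟨pq p g, h1⟩ : Cz (pp p g)) := by
    rw [← Subgroup.orderOf_coe]; exact pq_order p g
  have := Fintype.ofFinite (Bl M (Cz (pp p g)))
  have e1 := F_sec (M := M) (p := p) (W := Wt p P e η) χ.2.isClassFunction (pp_order p g) ⟨pq p g, h1⟩ hs
  have e2 := F_sec (M := M) (p := p) (W := fun _ _ => (1 : ℂ)) χ.2.isClassFunction (pp_order p g) ⟨pq p g, h1⟩ hs
  rw [F_one h.mod χ.2.isClassFunction] at e2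
  have e3 : pp p g * ((⟨pq p g, h1⟩ : Cz (pp p g)) : G) = g := pp_mul_pq p g
  rw [e3] at e1 e2
  unfold st
  rw [e1, e2]
  unfold sec
  rw [finsum_eq_sum_of_fintype, finsum_eq_sum_of_fintype, Finset.sum_apply, Finset.sum_apply, Finset.mul_sum]
  refine Finset.sum_congr rfl fun b _ => ?_
  rw [Pi.smul_apply, Pi.smul_apply, one_smul, smul_eq_mul]
  by_cases hind : IsInducedBlock M (Cz (pp p g)) b.1 B
  · obtain ⟨c, hcP, hc⟩ := h.Wt_ind hη (pp_order p g) b hind
    rw [hc, hκ c hcP]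
  · rw [D_eq_zero_of_not h.mod h.blk hχ (pp_order p g) b.2 hind, Pi.zero_apply, mul_zero, mul_zero]

omit hp hchar in
/-- the local system depends only on the restriction to `P` -/
theorem Wt_congr {η η' : G → ℂ} (hη : ∀ x ∈ P, η x = η' x) : (Wt p P e η : G → MonoidAlgebra (Kf M) G → ℂ) =
    Wt p P e η' := by
  funext u b
  unfold Wt
  split_ifs with h
  · apply hη
    apply h.choose_spec.le
    show h.choose * u * h.choose⁻¹ ∈ cg h.choose (Subgroup.zpowers u)
    rw [cg_zpowers]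
    exact Subgroup.mem_zpowers _
  · rfl

theorem Wt_sum {ι : Type*} (s : Finset ι) (a : ι → ℂ) (η : ι → G → ℂ) (u : G) (b : MonoidAlgebra (Kf M) G) :
    Wt p P e (∑ i ∈ s, a i • η i) u b = ∑ i ∈ s, a i * Wt p P e (η i) u b := by
  unfold Wt
  split_ifs with h
  · rw [Finset.sum_apply]; rfl
  · rw [Finset.sum_eq_zero]; intro i _; rw [mul_zero]

omit hp in
theorem st_congr [Fact p.Prime] {η η' : G → ℂ} (hη : ∀ x ∈ P, η x = η' x) (χ : G → ℂ) :
    st p P e η χ = st p P e η' χ := by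
  unfold st
  rw [Wt_congr hη]

theorem st_sum {ι : Type*} (s : Finset ι) (a : ι → ℂ) (η : ι → G → ℂ) (χ : G → ℂ) :
    st p P e (∑ i ∈ s, a i • η i) χ = ∑ i ∈ s, a i • st p P e (η i) χ := by
  funext g
  have := Fintype.ofFinite (Bl M (Cz (pp p g)))
  unfold st F FF
  rw [Finset.sum_apply]
  simp only [finsum_eq_sum_of_fintype, Pi.smul_apply, smul_eq_mul, Finset.mul_sum, Wt_sum, Finset.sum_mul]
  rw [Finset.sum_comm]
  simp only [mul_assoc]
  congr!

/-- the star multiple by a class function is a combination of the star multiples by characters -/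
theorem st_expand [Fintype P] {η : G → ℂ} (hη : IsClassFunction P (fun x : P => η x)) (χ : G → ℂ) :
    st p P e η χ = ∑ ψ : IrrCharacter P, classInner (fun x : P => η x) (ψ : P → ℂ) •
      st p P e (extendByZero P (ψ : P → ℂ)) χ := by
  rw [← st_sum]
  apply st_congr
  intro x hx
  rw [Finset.sum_apply]
  have h1 : η x = ∑ χ : IrrCharacter P, classInner (fun x : P => η x) (χ : P → ℂ) * (χ : P → ℂ) ⟨x, hx⟩ :=
    hη.expansion_apply ⟨x, hx⟩
  rw [h1]
  refine Finset.sum_congr rfl fun ψ _ => ?_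
  rw [Pi.smul_apply, smul_eq_mul]
  congr 1
  exact (IndFun.extendByZero_coe P (ψ : P → ℂ) ⟨x, hx⟩).symm

/-- the class function of `P` attached to a class function of `G` -/
noncomputable def tt (p : ℕ) [Fact p.Prime] (P : Subgroup G) (e : MonoidAlgebra (Kf M) G) (ξ : G → ℂ) (f : G → ℂ) :
    P → ℂ :=
  letI := Fintype.ofFinite G
  ∑ ψ : IrrCharacter P, classInner f (st p P e (extendByZero P (ψ : P → ℂ)) ξ) • (ψ : P → ℂ)

omit hchar in
theorem tt_eq [Fintype G] (ξ f : G → ℂ) : tt p P e ξ f =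
    ∑ ψ : IrrCharacter P, classInner f (st p P e (extendByZero P (ψ : P → ℂ)) ξ) • (ψ : P → ℂ) := by
  have h0 : (Fintype.ofFinite G) = ‹Fintype G› := Subsingleton.elim _ _
  unfold tt
  rw [h0]

omit hchar in
theorem tt_class (ξ f : G → ℂ) : IsClassFunction P (tt p P e ξ f) := by
  have := Fintype.ofFinite G
  intro x y
  rw [tt_eq, Finset.sum_apply, Finset.sum_apply]
  refine Finset.sum_congr rfl fun ψ _ => ?_
  rw [Pi.smul_apply, Pi.smul_apply, ψ.2.isClassFunction x y]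

theorem tt_inner [Fintype G] [Fintype P] (ξ f : G → ℂ) {η : G → ℂ} (hη : IsClassFunction P (fun x : P => η x)) :
    classInner f (st p P e η ξ) = classInner (tt p P e ξ f) (fun x : P => η x) := by
  rw [st_expand hη, tt_eq, IndFun.classInner_sum_right, IndFun.classInner_sum_left]
  refine Finset.sum_congr rfl fun ψ _ => ?_
  rw [IndFun.classInner_smul_right, IndFun.classInner_smul_left, IndFun.classInner_conj_symm, mul_comm]

/-- `tt` of a generalized character is a generalized character -/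
theorem tt_gen (h : Ctx p B P e) (hin : H25BpS.Inn p P e) {ξ : IrrCharacter G} (hξ : ξ ∈ B)
    (h0 : blockHeight p B (ξ : G → ℂ) = 0) {f : G → ℂ} (hf : IsGeneralizedCharacter G f) :
    IsGeneralizedCharacter P (tt p P e (ξ : G → ℂ) f) := by
  have := Fintype.ofFinite G
  have := Fintype.ofFinite P
  apply CharBasic.isGeneralized_of_classInner (tt_class _ _)
  intro ψ' hψ'
  obtain ⟨ψ, rfl⟩ : ∃ ψ : IrrCharacter P, (ψ : P → ℂ) = ψ' := ⟨⟨ψ', hψ'⟩, rfl⟩
  obtain ⟨θ, hθ, hθe⟩ := h.exists_star hin hξ h0 ψ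
  obtain ⟨n, hn⟩ := hf.classInner_int θ.2.isGeneralized
  refine ⟨n, ?_⟩
  have h1 := tt_inner (p := p) (P := P) (e := e) (ξ : G → ℂ) f (η := extendByZero P (ψ : P → ℂ)) (ext_class ψ)
  rw [ext_res, ← hθe, hn] at h1
  exact h1.symm

/-- local components -/
theorem D_tt (h : Ctx p B P e) (hin : H25BpS.Inn p P e) {ξ : IrrCharacter G} (hξ : ξ ∈ B)
    (h0 : blockHeight p B (ξ : G → ℂ) = 0) {f : G → ℂ} (hf : IsClassFunction G f) {u : P} {b : Bl M (Cz (u : G))}
    (hle : PLE p (Subgroup.zpowers (u : G), bid M (Cz (u : G)) b.1) (P, e)) :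
    D p (u : G) b.1 f = tt p P e (ξ : G → ℂ) f u • D p (u : G) b.1 (ξ : G → ℂ) := by
  have := Fintype.ofFinite G
  have := Fintype.ofFinite P
  have := Fintype.ofFinite B
  obtain ⟨k, hk⟩ := PE_of_mem (p := p) h.pair.1 u.2
  have hind := h.ind_self u.2 b hle
  conv_lhs => rw [hf.expansion, map_sum]
  rw [tt_eq, Finset.sum_apply, Finset.sum_smul]
  have h1 : ∑ χ : IrrCharacter G, D p (u : G) b.1 (classInner f (χ : G → ℂ) • (χ : G → ℂ)) =
      ∑ χ ∈ fs B, D p (u : G) b.1 (classInner f (χ : G → ℂ) • (χ : G → ℂ)) := by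
    symm
    refine Finset.sum_subset (Finset.subset_univ _) fun χ _ hχ => ?_
    rw [map_smul, Subsec.D_eq_zero h.mod hk hind (fun hc => hχ (mem_fs.2 hc)), smul_zero]
  rw [h1, sum_fs]
  symm
  refine Fintype.sum_bijective (h.star hin hξ h0) ⟨h.star_inj hin hξ h0, h.star_surj hin hξ h0⟩ _ _ (fun ψ => ?_)
  rw [h.star_coe hin hξ h0 ψ, map_smul]
  have h2 := D_F h.mod (Wt p P e (extendByZero P (ψ : P → ℂ))) ξ.2.isClassFunction ⟨k, hk⟩ b
  rw [Wt_self (sta_of_class hin (ext_class ψ)) hle] at h2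
  rw [show st p P e (extendByZero P (ψ : P → ℂ)) (ξ : G → ℂ) = F p (Wt p P e (extendByZero P (ψ : P → ℂ))) (ξ : G → ℂ)
    from rfl, h2, IndFun.extendByZero_coe, Pi.smul_apply, smul_eq_mul, smul_smul]

/-- the block part at nice elements -/
theorem bp_tt (h : Ctx p B P e) (hin : H25BpS.Inn p P e) {ξ : IrrCharacter G} (hξ : ξ ∈ B)
    (h0 : blockHeight p B (ξ : G → ℂ) = 0) {f : G → ℂ} {u : P} {g : G}
    (hg : ∀ c : G, c * pp p g * c⁻¹ ∈ P → ∃ y ∈ P, c * pp p g * c⁻¹ = y * u * y⁻¹) :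
    blockPart B f g = tt p P e (ξ : G → ℂ) f u * (ξ : G → ℂ) g := by
  have := Fintype.ofFinite G
  have := Fintype.ofFinite P
  have := Fintype.ofFinite B
  rw [blockPart_eq, tt_eq, Finset.sum_apply, Finset.sum_mul, sum_fs]
  symm
  refine Fintype.sum_bijective (h.star hin hξ h0) ⟨h.star_inj hin hξ h0, h.star_surj hin hξ h0⟩ _ _ (fun ψ => ?_)
  rw [h.star_coe hin hξ h0 ψ, Pi.smul_apply, smul_eq_mul,
    st_val h (sta_of_class hin (ext_class ψ)) hξ (κ := (ψ : P → ℂ) u), mul_assoc]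
  intro c hc
  obtain ⟨y, hy, hyc⟩ := hg c hc
  rw [hyc]
  have : y * (u : G) * y⁻¹ = (((⟨y, hy⟩ : P) * u * (⟨y, hy⟩ : P)⁻¹ : P) : G) := rfl
  rw [this, IndFun.extendByZero_coe]
  exact ψ.2.isClassFunction u ⟨y, hy⟩

end Cfsg.Agent.Lib.Tame
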