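import Cfsg.Agent.Lib.TameW3
import Cfsg.Agent.Lib.TameDihT
import Cfsg.Agent.Lib.BlockDom
import Cfsg.Agent.Lib.AbKlein
import Cfsg.Agent.Lib.DihRec

/-!
# Central involutions: the dominated block
-/

set_option autoImplicit false
set_option linter.all false
set_option maxHeartbeats 400000

namespace Cfsg.Agent.Lib.Tame

open Cfsg Cfsg.Agent.Lib.BlockRing Cfsg.Agent.Lib.BlockGA Cfsg.Agent.Lib.BlockAlg
open Cfsg.Agent.Lib.BlkIdem Cfsg.Agent.Lib.PairAlg Cfsg.Agent.Lib.PairMax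
open Cfsg.Agent.Lib.BlockIdem Cfsg.Agent.Lib.BlockSecond Cfsg.Agent.Lib.BrauerPairs
open Cfsg.Agent.Lib.BlkFus Cfsg.Agent.Lib.InducedPair Cfsg.Agent.Lib.DefPairs
open Cfsg.Agent.Lib.BlkFusDef Cfsg.Agent.Lib.BlkTransport Cfsg.Agent.Lib.BlkNil
open Cfsg.Agent.Lib.H25BpLift Cfsg.Agent.Lib.H25BpTw Cfsg.Agent.Lib.H25BpF Cfsg.Agent.Lib.H25BpI
open Cfsg.Agent.Lib.H25BpE Cfsg.Agent.Lib.H25BpG Cfsg.Agent.Lib.H25BpW Cfsg.Agent.Lib.H25BpM
open Cfsg.Agent.Lib.H25BpS Cfsg.Agent.Lib.TameFour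
open Cfsg.Agent.Lib.BlockCount (Bl D rsp rsp_orth sum_blockPart blockRank_eq)
open Cfsg.Agent.Lib.Subsec (Cz mem_Cz al al_eq al_mem fs mem_fs zz D_reg D_not_reg kern kern_eq_zero
  al_conj al_idem al_trace al_loc al_not_idl al_idl pow_of_orderOf al_ne_zero')
open Cfsg.Agent.Lib.H76Blk2 (infl infl_apply)
open MonoidAlgebra (single)
open scoped ComplexConjugate Classical Pointwise

universe u

variable {M : Ideal AlgInt} [hMm : M.IsMaximal] [hchar : CharP (Kf M) 2]
  {G : Type u} [Group G] [Finite G] {B : Set (IrrCharacter G)}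

/-- dihedral and Klein four defect groups -/
theorem dih_all (hM : IsPModular 2 M) (hB : IsPBlock M B) {D : Subgroup G} (hD : IsDefectGroup 2 M B D)
    {k : ℕ} (hk : 1 ≤ k) (φ : D ≃* DihedralGroup (2 ^ k)) :
    Nat.card B = 2 ^ (k - 1) + 3 ∧ blockRank 2 B ≤ 3 := by
  have : Fact (Nat.Prime 2) := ⟨Nat.prime_two⟩
  obtain ⟨e, he⟩ := exists_ctx hM hB hD
  rcases Nat.lt_or_ge 1 k with h1 | h1
  · have h2 := dih_main he (r := k) h1 φ
    exact ⟨h2.1, h2.2.2.1⟩
  · have hk1 : k = 1 := by omega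
    subst hk1
    have hV : IsKleinFour D := by
      have h0 : IsKleinFour (DihedralGroup 2) := inferInstance
      rw [pow_one] at φ
      exact ⟨by rw [Nat.card_congr φ.toEquiv]; exact h0.card_four,
        by rw [Monoid.exponent_eq_of_mulEquiv φ]; exact h0.exponent_two⟩
    have hab : D ≤ Subgroup.centralizer (D : Set G) := by
      intro x hx
      rw [Subgroup.mem_centralizer_iff]
      intro y hy
      have h1 := (IsKleinFour.isMulCommutative (G := D)).is_comm.comm ⟨y, hy⟩ ⟨x, hx⟩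
      exact congrArg Subtype.val h1
    have hAb : AbCount.AbMax 2 B D e := ⟨he.blk, he.pair, he.max, he.br, hab⟩
    obtain ⟨h3, h4, h5⟩ := hAb.klein hM hV _ rfl
    refine ⟨by rw [h4]; norm_num, ?_⟩
    rcases h3 with h3 | h3 <;> omega

variable {P : Subgroup G} {e : MonoidAlgebra (Kf M) G}
  {N : Subgroup G} {b : Set (IrrCharacter N)} {e' : MonoidAlgebra (Kf M) N} {v : G}
  {ξ : IrrCharacter N} {m : ℕ} [NeZero m] {x : P.subgroupOf N} {s : ZMod m} {r : ℕ}

omit hMm hchar in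
/-- the quotient of the defect group -/
theorem quot_dih (S : QS m x s r) (hPN : P ≤ N) (Z : Subgroup G) [Z.Normal]
    (hZ : Z = Subgroup.zpowers (xg x ((m / 2 : ℕ) : ZMod m))) :
    Nonempty ((P.map (QuotientGroup.mk' Z) : Subgroup (G ⧸ Z)) ≃* DihedralGroup (2 ^ (r - 1))) := by
  set Q := (P.map (QuotientGroup.mk' Z) : Subgroup (G ⧸ Z)) with hQ
  let f : P.subgroupOf N →* Q :=
    { toFun := fun y => ⟨QuotientGroup.mk' Z ((y : N) : G), ⟨((y : N) : G), y.2, rfl⟩⟩
      map_one' := Subtype.ext (map_one _)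
      map_mul' := fun a b => Subtype.ext (map_mul (QuotientGroup.mk' Z) ((a : N) : G) ((b : N) : G)) }
  have hf : Function.Surjective f := by
    rintro ⟨_, g, hg, rfl⟩
    exact ⟨⟨⟨g, hPN hg⟩, hg⟩, rfl⟩
  have hker : ∀ y : P.subgroupOf N, f y = 1 ↔ y = 1 ∨ y = xp x ((m / 2 : ℕ) : ZMod m) := by
    intro y
    have h1 : f y = 1 ↔ ((y : N) : G) ∈ Z := by
      rw [← QuotientGroup.eq_one_iff]
      exact ⟨fun h => congrArg Subtype.val h, fun h => Subtype.ext h⟩
    rw [h1, hZ]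
    have hz2 : xg x ((m / 2 : ℕ) : ZMod m) * xg x ((m / 2 : ℕ) : ZMod m) = 1 := (xg_sq S).2 (Or.inr rfl)
    constructor
    · rintro ⟨k, hk⟩
      have hk' : xg x ((m / 2 : ℕ) : ZMod m) ^ k = ((y : N) : G) := hk
      rcases Int.even_or_odd k with ⟨j, hj⟩ | ⟨j, hj⟩
      · left
        apply Subtype.ext; apply Subtype.ext
        rw [← hk', hj, ← two_mul, zpow_mul, zpow_ofNat, pow_two, hz2, one_zpow]
        rfl
      · right
        apply Subtype.ext; apply Subtype.ext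
        rw [← hk', hj, zpow_add, zpow_mul, zpow_ofNat, pow_two, hz2, one_zpow, one_mul, zpow_one]
        rfl
    · rintro (h | h)
      · rw [h]; exact Subgroup.one_mem _
      · rw [h]; exact Subgroup.mem_zpowers _
  have hkl : f.ker ≤ Subgroup.zpowers x := by
    intro y hy
    rw [MonoidHom.mem_ker, hker] at hy
    rcases hy with h | h
    · rw [h]; exact Subgroup.one_mem _
    · rw [h]; exact (mem_zpowers_iff S.hx).2 ⟨_, rfl⟩
  set C := (Subgroup.zpowers x).map f with hC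
  have hidx : C.index = 2 := by
    rw [hC, Subgroup.index_map_eq _ hf hkl]
    exact S.index
  have hCz : C = Subgroup.zpowers (f x) := MonoidHom.map_zpowers f x
  have hcyc : IsCyclic C := by rw [hCz]; infer_instance
  have hsq : ∀ t : Q, t ∉ C → t * t = 1 := by
    intro t ht
    obtain ⟨y, rfl⟩ := hf t
    have hy : y ∉ Subgroup.zpowers x := fun h => ht ⟨y, h, rfl⟩
    rw [← map_mul, hker]
    exact S.sq_out hy
  obtain ⟨φ⟩ := DihRec.dihedral_of_cyclic C hcyc hidx hsq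
  have hker2 : Nat.card f.ker = 2 := by
    have h1 : Nat.card f.ker = Nat.card ({1, xp x ((m / 2 : ℕ) : ZMod m)} : Finset (P.subgroupOf N)) := by
      apply Nat.card_congr
      apply Equiv.subtypeEquivRight
      intro y
      rw [MonoidHom.mem_ker, hker]
      simp
    rw [h1, Nat.card_eq_fintype_card, Fintype.card_coe, Finset.card_pair S.z_ne.symm]
  have hcard : Nat.card C = 2 ^ (r - 1) := by
    have h1 : Nat.card Q * 2 = 2 * m := by
      have h2 := Subgroup.card_eq_card_quotient_mul_card_subgroup f.ker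
      rw [hker2, S.hcard] at h2
      rw [h2]
      congr 1
      exact (Nat.card_congr (QuotientGroup.quotientKerEquivOfSurjective f hf).toEquiv).symm
    have h2 := C.card_mul_index
    rw [hidx] at h2
    have h3 := m_div_two S.hr S.hm
    have h4 := two_dvd_m S.hr S.hm
    omega
  rw [hcard] at φ
  exact ⟨φ⟩

/-- the rank and the number of fusion classes -/
theorem LD.cen_main (L : LD 2 B P e N b e' v ξ) (S : QS m x s r) (hv : xg x ((m / 4 : ℕ) : ZMod m) = v)
    (hz : ∀ g : G, g * xg x ((m / 2 : ℕ) : ZMod m) * g⁻¹ = xg x ((m / 2 : ℕ) : ZMod m)) :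
    ∃ c : ℤ, (c : ℚ) = cB P e m x ∧ (blockRank 2 B : ℤ) + c = 3 := by
  have hM := L.ctx.mod
  have : Fact (Nat.Prime 2) := ⟨Nat.prime_two⟩
  obtain ⟨c, hcB, hc⟩ := L.zcount S hv hz
  refine ⟨c, hcB, ?_⟩
  set z := xg x ((m / 2 : ℕ) : ZMod m) with hzdef
  set Z : Subgroup G := Subgroup.zpowers z with hZ
  have hZn : Z.Normal := by
    constructor
    rintro _ ⟨k, rfl⟩ g
    refine ⟨k, ?_⟩
    show z ^ k = g * z ^ k * g⁻¹
    rw [← conj_zpow, hz]
  have hz2 : z * z = 1 := (xg_sq S).2 (Or.inr rfl)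
  have hzP : z ∈ P := xg_mem x _
  have hZp : IsPGroup 2 Z := by
    apply L.ctx.pair.1.to_le
    rw [hZ, Subgroup.zpowers_le]; exact hzP
  have hsup : Z ⊔ Subgroup.centralizer (Z : Set G) = ⊤ := by
    have h1 : Subgroup.centralizer (Z : Set G) = ⊤ := Cc_top hz
    rw [h1, sup_top_eq]
  obtain ⟨Bbar, hBbar, hmem, hrank, hdef, -⟩ := BlockDom.exists_dom hM hZp hsup L.ctx.blk
  have hD := hdef P ((isDefectGroup_iff L.ctx.blk).2 L.ctx.dg)
  obtain ⟨φ⟩ := quot_dih S L.le Z hZ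
  have hr1 : 1 ≤ r - 1 := by
    have := S.hr; omega
  obtain ⟨h1, h2⟩ := dih_all hM hBbar hD hr1 φ
  -- the count
  have hcount : ((fs B).filter (fun χ => sn z χ = 1)).card = Nat.card Bbar := by
    have h3 : Nat.card ((fs B).filter (fun χ => sn z χ = 1)) = Nat.card Bbar := by
      symm
      apply Nat.card_congr
      refine Equiv.ofBijective (fun ψ : Bbar => (⟨infl Z (ψ : IrrCharacter (G ⧸ Z)), ?_⟩ :
        ((fs B).filter (fun χ => sn z χ = 1)))) ⟨?_, ?_⟩
      · rw [Finset.mem_filter, mem_fs, hmem]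
        refine ⟨ψ.2, ?_⟩
        rw [sn_eq_one_iff, infl_apply, infl_apply]
        have h4 : ((z : G) : G ⧸ Z) = ((1 : G) : G ⧸ Z) := by
          rw [QuotientGroup.eq, mul_one]
          exact Z.inv_mem (Subgroup.mem_zpowers z)
        rw [h4]
      · intro ψ ψ' h
        have h4 : infl Z (ψ : IrrCharacter (G ⧸ Z)) = infl Z (ψ' : IrrCharacter (G ⧸ Z)) :=
          congrArg Subtype.val h
        apply Subtype.ext; apply Subtype.ext
        funext g
        obtain ⟨g, rfl⟩ := QuotientGroup.mk_surjective g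
        have h5 := congrArg (fun χ : IrrCharacter G => (χ : G → ℂ) g) h4
        exact h5
      · rintro ⟨χ, hχ⟩
        rw [Finset.mem_filter, mem_fs, sn_eq_one_iff] at hχ
        have h4 : ∀ n ∈ Z, (χ : G → ℂ) n = (χ : G → ℂ) 1 := by
          rintro _ ⟨k, rfl⟩
          show (χ : G → ℂ) (z ^ k) = _
          rcases Int.even_or_odd k with ⟨j, hj⟩ | ⟨j, hj⟩
          · rw [hj, ← two_mul, zpow_mul, zpow_ofNat, pow_two, hz2, one_zpow]
          · rw [hj, zpow_add, zpow_mul, zpow_ofNat, pow_two, hz2, one_zpow, one_mul, zpow_one]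
            exact hχ.2
        obtain ⟨ψ, hψ, hψχ⟩ := χ.2.deflate Z h4
        have h5 : infl Z ⟨ψ, hψ⟩ = χ := Subtype.ext (funext hψχ)
        refine ⟨⟨⟨ψ, hψ⟩, ?_⟩, ?_⟩
        · rw [← hmem, h5]; exact hχ.1
        · exact Subtype.ext h5
    rw [← h3, Nat.card_eq_fintype_card, Fintype.card_coe]
  rw [hcount, h1] at hc
  rw [hrank] at hc ⊢
  have h5 := m_div_four S.hr S.hm
  have h6 : r - 1 - 1 = r - 2 := by omega
  rw [h6, ← h5] at hc
  push_cast at hc
  rcases hc with hc | hc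
  · omega
  · exfalso; omega

end Cfsg.Agent.Lib.Tame
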