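import Cfsg.Agent.Lib.TameND

/-!
# Central involutions: signs and local inner products
-/

set_option autoImplicit false
set_option linter.all false
set_option maxHeartbeats 400000

namespace Cfsg.Agent.Lib.Tame

open Cfsg Cfsg.Agent.Lib.BlockRing Cfsg.Agent.Lib.BlockGA Cfsg.Agent.Lib.BlockAlg
open Cfsg.Agent.Lib.BlkIdem Cfsg.Agent.Lib.PairAlg Cfsg.Agent.Lib.PairMax
open Cfsg.Agent.Lib.BlockIdem Cfsg.Agent.Lib.BlockSecond Cfsg.Agent.Lib.BrauerPairs
open Cfsg.Agent.Lib.BlkFus Cfsg.Agent.Lib.InducedPair Cfsg.Agent.Lib.DefPairs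
open Cfsg.Agent.Lib.BlkFusDef Cfsg.Agent.Lib.BlkTransport Cfsg.Agent.Lib.BlkNil
open Cfsg.Agent.Lib.H25BpLift Cfsg.Agent.Lib.H25BpTw Cfsg.Agent.Lib.H25BpF Cfsg.Agent.Lib.H25BpI
open Cfsg.Agent.Lib.H25BpE Cfsg.Agent.Lib.H25BpG Cfsg.Agent.Lib.H25BpW Cfsg.Agent.Lib.H25BpM
open Cfsg.Agent.Lib.H25BpS Cfsg.Agent.Lib.TameFour
open Cfsg.Agent.Lib.BlockCount (Bl D rsp rsp_orth sum_blockPart blockRank_eq)
open Cfsg.Agent.Lib.Subsec (Cz mem_Cz al al_eq al_mem fs mem_fs zz D_reg D_not_reg kern kern_eq_zero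
  al_conj al_idem al_trace al_loc al_not_idl al_idl pow_of_orderOf al_ne_zero')
open MonoidAlgebra (single)
open scoped ComplexConjugate Classical Pointwise

universe u

section sgn

variable {G : Type u} [Group G] [Finite G] {z : G}

theorem single_center (hz : ∀ g, g * z * g⁻¹ = z) : single z (1 : ℂ) ∈ Subalgebra.center ℂ (GA G) := by
  rw [Subalgebra.mem_center_iff]
  intro a
  induction a using MonoidAlgebra.induction_linear with
  | zero => simp
  | add x y hx hy => rw [add_mul, mul_add, hx, hy]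
  | single g a =>
    rw [MonoidAlgebra.single_mul_single, MonoidAlgebra.single_mul_single, one_mul, mul_one]
    congr 1
    exact mul_inv_eq_iff_eq_mul.1 (hz g)

/-- central involutions act by a sign -/
theorem exists_sgn (hz : ∀ g, g * z * g⁻¹ = z) (hz2 : z * z = 1) (χ : IrrCharacter G) :
    ∃ ε : ℤ, (ε = 1 ∨ ε = -1) ∧ ∀ g, (χ : G → ℂ) (z * g) = ε * (χ : G → ℂ) g := by
  have h1 : ∀ g, (χ : G → ℂ) (z * g) = omega (χ : G → ℂ) (single z 1) * (χ : G → ℂ) g := by
    intro g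
    have h := lin_mul_single χ.2 (single_center hz) g
    rw [MonoidAlgebra.single_mul_single, lin_single, one_mul, one_mul] at h
    exact h
  have h2 : omega (χ : G → ℂ) (single z 1) * omega (χ : G → ℂ) (single z 1) = 1 := by
    have h := omega_mul χ.2 (single_center hz) (single z 1)
    rw [MonoidAlgebra.single_mul_single, hz2, one_mul, ← MonoidAlgebra.one_def, omega_one χ.2.one_ne_zero] at h
    exact h.symm
  rcases mul_self_eq_one_iff.1 h2 with h | h
  · exact ⟨1, Or.inl rfl, fun g => by rw [h1, h]; push_cast; rfl⟩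
  · exact ⟨-1, Or.inr rfl, fun g => by rw [h1, h]; push_cast; rfl⟩

/-- the sign -/
noncomputable def sn (z : G) (χ : IrrCharacter G) : ℤ := if (χ : G → ℂ) z = (χ : G → ℂ) 1 then 1 else -1

omit [Finite G] in
theorem sn_or (χ : IrrCharacter G) : sn z χ = 1 ∨ sn z χ = -1 := by
  unfold sn
  split_ifs
  · exact Or.inl rfl
  · exact Or.inr rfl

theorem sn_mul (hz : ∀ g, g * z * g⁻¹ = z) (hz2 : z * z = 1) (χ : IrrCharacter G) (g : G) :
    (χ : G → ℂ) (z * g) = sn z χ * (χ : G → ℂ) g := by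
  obtain ⟨ε, hε, h⟩ := exists_sgn hz hz2 χ
  have h1 := h 1
  rw [mul_one] at h1
  have h2 := χ.2.one_ne_zero
  have h3 : sn z χ = ε := by
    unfold sn
    rcases hε with he | he
    · rw [if_pos, he]
      rw [h1, he]; push_cast; ring
    · rw [if_neg, he]
      rw [h1, he]
      intro h4
      apply h2
      push_cast at h4
      have : 2 * (χ : G → ℂ) 1 = 0 := by linear_combination -h4
      simpa using this
  rw [h3]
  exact h g

theorem sn_eq_one_iff (χ : IrrCharacter G) : sn z χ = 1 ↔ (χ : G → ℂ) z = (χ : G → ℂ) 1 := by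
  unfold sn
  split_ifs with h
  · simp [h]
  · simp [h]

end sgn

section cen

variable {p : ℕ} [hp : Fact p.Prime] {M : Ideal AlgInt} [hMm : M.IsMaximal] [hchar : CharP (Kf M) p]
  {G : Type u} [Group G] [Finite G] {B : Set (IrrCharacter G)} {P : Subgroup G} {e : MonoidAlgebra (Kf M) G}

/-- local components at central elements -/
theorem D_top (h : Ctx p B P e) {u : G} (huP : u ∈ P) (hu : Cc u = ⊤) (b : Bl M (Cz u))
    (hle : PLE p (Subgroup.zpowers u, bid M (Cz u) b.1) (P, e)) {χ : IrrCharacter G} (hχ : χ ∈ B)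
    {s : Cz u} (hs : ¬ p ∣ orderOf s) : D p u b.1 (χ : G → ℂ) s = (χ : G → ℂ) (u * (s : G)) := by
  have hM := h.mod
  have := Fintype.ofFinite (Bl M (Cz u))
  have hup : ∃ k, orderOf u = p ^ k := PE_of_mem (p := p) h.pair.1 huP
  have h1 := F_sec (M := M) (p := p) (W := fun _ _ => (1 : ℂ)) χ.2.isClassFunction hup s hs
  rw [F_one hM χ.2.isClassFunction] at h1
  rw [h1]
  unfold sec
  rw [finsum_eq_sum_of_fintype, Finset.sum_apply, Finset.sum_eq_single b]
  · rw [one_smul]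
  · intro b' _ hb'
    rw [one_smul, D_eq_zero_of_not hM h.blk hχ hup b'.2 _]
    · rfl
    · intro hind
      apply hb'
      obtain ⟨g, hg⟩ := h.exists_into hup b' hind
      have hgC : g ∈ Cc u := by rw [hu]; exact Subgroup.mem_top g
      have h2 : cg g (Subgroup.zpowers u) = Subgroup.zpowers u := cg_of_mem_centralizer hgC
      have h3 : BrauerMap.cj g (bid M (Cz u) b'.1) = bid M (Cz u) b'.1 := by
        have h4 : IsBlk (Cz u) (bid M (Cz u) b'.1) := isBlk_bid b'.2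
        refine h4.mem.2 g ?_
        rw [Cz_eq_Cc]; exact hgC
      rw [h2, h3] at hg
      have h5 : bid M (Cz u) b'.1 = bid M (Cz u) b.1 := unique_sub hasBlocks h.pair hg hle
      exact Subtype.ext (bid_injective b'.2 b.2 h5)
  · intro h; exact absurd (Finset.mem_univ _) h

/-- local inner products at central elements -/
theorem CI_top (h : Ctx p B P e) [Fintype G] {u : P} (hu : Cc (u : G) = ⊤) {χ ψ : IrrCharacter G} (hχ : χ ∈ B)
    (hψ : ψ ∈ B) : CI p (χ : G → ℂ) (ψ : G → ℂ) u (h.fx u) =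
      (Nat.card G : ℂ)⁻¹ * ∑ g : G, if p ∣ orderOf g then 0 else
        (χ : G → ℂ) ((u : G) * g) * conj ((ψ : G → ℂ) ((u : G) * g)) := by
  have := Fintype.ofFinite (Cz (u : G))
  obtain ⟨b, hb⟩ := h.ple_bl u.2
  rw [h.fx_eq hb, CI_eq]
  unfold classInner
  have htop : Cz (u : G) = ⊤ := by rw [Cz_eq_Cc]; exact hu
  have hcard : Nat.card (Cz (u : G)) = Nat.card G := by
    rw [htop]; exact Subgroup.card_top
  rw [hcard]
  congr 1
  have hall : ∀ g : G, g ∈ Cz (u : G) := fun g => by rw [htop]; exact Subgroup.mem_top g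
  apply Fintype.sum_bijective (fun s : Cz (u : G) => (s : G))
    ⟨fun a b hab => Subtype.ext hab, fun g => ⟨⟨g, hall g⟩, rfl⟩⟩
  intro s
  by_cases hs : p ∣ orderOf s
  · rw [D_not_reg hs, zero_mul, if_pos (by rw [Subgroup.orderOf_coe]; exact hs)]
  · rw [D_top h u.2 hu b hb hχ hs, D_top h u.2 hu b hb hψ hs, if_neg (by rw [Subgroup.orderOf_coe]; exact hs)]

end cen

section two

variable {M : Ideal AlgInt} [hMm : M.IsMaximal] [hchar : CharP (Kf M) 2]
  {G : Type u} [Group G] [Finite G] {B : Set (IrrCharacter G)} {P : Subgroup G} {e : MonoidAlgebra (Kf M) G} {z : G}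

omit [Finite G] in
theorem Cc_top (hz : ∀ g, g * z * g⁻¹ = z) : Cc z = ⊤ := by
  ext g
  rw [mem_cz]
  simp only [Subgroup.mem_top, iff_true]
  exact (mul_inv_eq_iff_eq_mul.1 (hz g)).symm

omit [Finite G] in
theorem sing_mul (hz : ∀ g, g * z * g⁻¹ = z) (hz2 : z * z = 1) (hz1 : z ≠ 1) {g : G} (hg : ¬ 2 ∣ orderOf g)
    : 2 ∣ orderOf (z * g) := by
  by_contra hcon
  have hc : Commute z g := (mul_inv_eq_iff_eq_mul.1 (hz g)).symm
  have h1 : Odd (orderOf (z * g) * orderOf g) := by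
    rw [← Nat.not_even_iff_odd, even_iff_two_dvd]
    intro h
    rcases (Nat.prime_two.dvd_mul).1 h with h | h
    · exact hcon h
    · exact hg h
  have h2 : (z * g) ^ (orderOf (z * g) * orderOf g) = 1 := by
    rw [pow_mul, pow_orderOf_eq_one, one_pow]
  rw [hc.mul_pow, mul_comm (orderOf (z * g)), pow_mul g, pow_orderOf_eq_one, one_pow, mul_one] at h2
  obtain ⟨k, hk⟩ := h1
  rw [mul_comm, hk, pow_succ, pow_mul, pow_two, hz2, one_pow, one_mul] at h2
  exact hz1 h2

/-- the local inner products at a central involution and at `1` -/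
theorem CI_z (h : Ctx 2 B P e) [Fintype G] (hz : ∀ g, g * z * g⁻¹ = z) (hz2 : z * z = 1)
    {u w : P} (hu : (u : G) = 1) (hw : (w : G) = z) {χ : IrrCharacter G} (hχ : χ ∈ B) :
    CI 2 (χ : G → ℂ) (χ : G → ℂ) w (h.fx w) = CI 2 (χ : G → ℂ) (χ : G → ℂ) u (h.fx u) := by
  have hu1 : Cc (u : G) = ⊤ := by
    rw [hu]; exact Cc_top (fun g => by group)
  have hw1 : Cc (w : G) = ⊤ := by
    rw [hw]; exact Cc_top hz
  rw [CI_top h hu1 hχ hχ, CI_top h hw1 hχ hχ, hu, hw]
  congr 1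
  refine Finset.sum_congr rfl fun g _ => ?_
  split_ifs
  · rfl
  · rw [one_mul, sn_mul hz hz2 χ g, map_mul, map_intCast]
    have h1 : ((sn z χ : ℤ) : ℂ) * ((sn z χ : ℤ) : ℂ) = 1 := by
      rcases sn_or (z := z) χ with h | h <;> rw [h] <;> norm_num
    linear_combination ((χ : G → ℂ) g * conj ((χ : G → ℂ) g)) * h1

/-- the signed trace vanishes -/
theorem sum_sn_CI (h : Ctx 2 B P e) [Fintype G] (hz : ∀ g, g * z * g⁻¹ = z) (hz2 : z * z = 1) (hz1 : z ≠ 1)
    {u : P} (hu : (u : G) = 1) :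
    ∑ χ ∈ fs B, (sn z χ : ℂ) * CI 2 (χ : G → ℂ) (χ : G → ℂ) u (h.fx u) = 0 := by
  have hu1 : Cc (u : G) = ⊤ := by
    rw [hu]; exact Cc_top (fun g => by group)
  have h1 : ∀ χ ∈ fs B, (sn z χ : ℂ) * CI 2 (χ : G → ℂ) (χ : G → ℂ) u (h.fx u) =
      (Nat.card G : ℂ)⁻¹ * ∑ g : G, if 2 ∣ orderOf g then 0 else
        (χ : G → ℂ) g * conj ((χ : G → ℂ) (z * g)) := by
    intro χ hχ
    rw [CI_top h hu1 (mem_fs.1 hχ) (mem_fs.1 hχ), hu]
    rw [mul_left_comm, Finset.mul_sum]
    congr 1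
    refine Finset.sum_congr rfl fun g _ => ?_
    split_ifs
    · rw [mul_zero]
    · rw [one_mul, sn_mul hz hz2 χ g, map_mul, map_intCast]
      ring
  rw [Finset.sum_congr rfl h1, ← Finset.mul_sum, Finset.sum_comm, Finset.sum_eq_zero, mul_zero]
  intro g _
  by_cases hg : 2 ∣ orderOf g
  · simp only [if_pos hg]
    exact Finset.sum_const_zero
  · simp only [if_neg hg]
    exact kern_eq_zero h.mod h.blk (sing_mul hz hz2 hz1 hg) hg

end two

end Cfsg.Agent.Lib.Tame
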