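import Cfsg.Agent.Lib.TameW

/-!
# Central involutions: supports of the integral vectors
-/

set_option autoImplicit false
set_option linter.all false
set_option maxHeartbeats 400000

namespace Cfsg.Agent.Lib.Tame

open Cfsg Cfsg.Agent.Lib.BlockRing Cfsg.Agent.Lib.BlockGA Cfsg.Agent.Lib.BlockAlg
open Cfsg.Agent.Lib.BlkIdem Cfsg.Agent.Lib.PairAlg Cfsg.Agent.Lib.PairMax
open Cfsg.Agent.Lib.BlockIdem Cfsg.Agent.Lib.BlockSecond Cfsg.Agent.Lib.BrauerPairs
open Cfsg.Agent.Lib.BlkFus Cfsg.Agent.Lib.InducedPair Cfsg.Agent.Lib.DefPairs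
open Cfsg.Agent.Lib.BlkFusDef Cfsg.Agent.Lib.BlkTransport Cfsg.Agent.Lib.BlkNil
open Cfsg.Agent.Lib.H25BpLift Cfsg.Agent.Lib.H25BpTw Cfsg.Agent.Lib.H25BpF Cfsg.Agent.Lib.H25BpI
open Cfsg.Agent.Lib.H25BpE Cfsg.Agent.Lib.H25BpG Cfsg.Agent.Lib.H25BpW Cfsg.Agent.Lib.H25BpM
open Cfsg.Agent.Lib.H25BpS Cfsg.Agent.Lib.TameFour
open Cfsg.Agent.Lib.BlockCount (Bl D rsp rsp_orth sum_blockPart blockRank_eq)
open Cfsg.Agent.Lib.Subsec (Cz mem_Cz al al_eq al_mem fs mem_fs zz D_reg D_not_reg kern kern_eq_zero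
  al_conj al_idem al_trace al_loc al_not_idl al_idl pow_of_orderOf al_ne_zero')
open MonoidAlgebra (single)
open scoped ComplexConjugate Classical Pointwise

universe u

variable {M : Ideal AlgInt} [hMm : M.IsMaximal] [hchar : CharP (Kf M) 2]
  {G : Type u} [Group G] [Finite G] {B : Set (IrrCharacter G)} {P : Subgroup G} {e : MonoidAlgebra (Kf M) G}
  {N : Subgroup G} {b : Set (IrrCharacter N)} {e' : MonoidAlgebra (Kf M) N} {v : G}
  {ξ : IrrCharacter N} {m : ℕ} [NeZero m] {x : P.subgroupOf N} {s : ZMod m} {r : ℕ}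

/-- the central involution in the local subgroup -/
def zN (x : P.subgroupOf N) : N := ((xp x ((m / 2 : ℕ) : ZMod m) : P.subgroupOf N) : N)

namespace LD

variable (L : LD 2 B P e N b e' v ξ) (S : QS m x s r)
  (hz : ∀ g : G, g * xg x ((m / 2 : ℕ) : ZMod m) * g⁻¹ = xg x ((m / 2 : ℕ) : ZMod m))
include L S hz

omit L S in
theorem zN_cent (g : N) : g * zN (m := m) x * g⁻¹ = zN (m := m) x := Subtype.ext (hz g)

omit L hz in
theorem zN_sq : zN (m := m) x * zN (m := m) x = 1 := congrArg Subtype.val S.z_sq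

/-- the sign of the constituents -/
theorem star_sgn [Fintype N] {χ : IrrCharacter G} {ψ : IrrCharacter (P.subgroupOf N)}
    (hne : classInner (fun n : N => (χ : G → ℂ) n)
      (st 2 (P.subgroupOf N) e' (extendByZero (P.subgroupOf N) (ψ : P.subgroupOf N → ℂ)) (ξ : N → ℂ)) ≠ 0) :
    (ψ : P.subgroupOf N → ℂ) (xp x ((m / 2 : ℕ) : ZMod m)) =
      (sn (xg x ((m / 2 : ℕ) : ZMod m)) χ * sn (zN (m := m) x) ξ : ℤ) * (ψ : P.subgroupOf N → ℂ) 1 := by
  set z := xg x ((m / 2 : ℕ) : ZMod m) with hzdef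
  have hz2 : z * z = 1 := (xg_sq S).2 (Or.inr rfl)
  have hn2 := zN_sq S
  have hnc := zN_cent hz
  obtain ⟨θ, hθ, hθe⟩ := L.loc.exists_star L.inn L.hξ L.h0 ψ
  rw [← hθe] at hne
  -- the signs agree
  have h1 : classInner (fun n : N => (χ : G → ℂ) n) (θ : N → ℂ) =
      ((sn z χ * sn (zN (m := m) x) θ : ℤ) : ℂ) * classInner (fun n : N => (χ : G → ℂ) n) (θ : N → ℂ) := by
    have e1 : ∑ n : N, (χ : G → ℂ) n * conj ((θ : N → ℂ) n) =
        ∑ n : N, (χ : G → ℂ) ((zN (m := m) x * n : N) : G) * conj ((θ : N → ℂ) (zN (m := m) x * n)) :=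
      (Equiv.sum_comp (Equiv.mulLeft (zN (m := m) x)) (fun n : N => (χ : G → ℂ) n * conj ((θ : N → ℂ) n))).symm
    unfold classInner
    rw [mul_left_comm]
    congr 1
    rw [Finset.mul_sum]
    refine e1.trans ?_
    refine Finset.sum_congr rfl fun n _ => ?_
    rw [sn_mul hnc hn2 θ n]
    have h2 : (χ : G → ℂ) ((zN (m := m) x * n : N) : G) = sn z χ * (χ : G → ℂ) n := sn_mul hz hz2 χ n
    rw [h2, map_mul, map_intCast]
    push_cast
    ring
  have h2 : ((sn z χ * sn (zN (m := m) x) θ : ℤ) : ℂ) = 1 := by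
    have h3 : (((sn z χ * sn (zN (m := m) x) θ : ℤ) : ℂ) - 1) *
        classInner (fun n : N => (χ : G → ℂ) n) (θ : N → ℂ) = 0 := by
      rw [sub_mul, one_mul, ← h1, sub_self]
    rcases mul_eq_zero.1 h3 with h | h
    · exact sub_eq_zero.1 h
    · exact absurd h hne
  have h3 : sn z χ * sn (zN (m := m) x) θ = 1 := by exact_mod_cast h2
  -- values
  have hcl := ext_class (P := P.subgroupOf N) ψ
  have hord : ∃ k, orderOf (zN (m := m) x) = 2 ^ k := by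
    have h4 : zN (m := m) x ∈ P.subgroupOf N := (xp x ((m / 2 : ℕ) : ZMod m)).2
    exact PE_of_mem (p := 2) L.loc.pair.1 h4
  have hpp : pp 2 (zN (m := m) x) = zN (m := m) x :=
    (pp_eq (mul_one (zN (m := m) x)) (Commute.one_right _) hord (by
      rw [orderOf_one]; norm_num)).1
  have h4 : (θ : N → ℂ) (zN (m := m) x) = (ψ : P.subgroupOf N → ℂ) (xp x ((m / 2 : ℕ) : ZMod m)) *
      (ξ : N → ℂ) (zN (m := m) x) := by
    rw [hθe]
    apply st_val L.loc (sta_of_class L.inn hcl) L.hξ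
    intro c hc
    rw [hpp, hnc]
    exact IndFun.extendByZero_coe (P.subgroupOf N) (ψ : P.subgroupOf N → ℂ) (xp x ((m / 2 : ℕ) : ZMod m))
  have h5 : (θ : N → ℂ) 1 = (ψ : P.subgroupOf N → ℂ) 1 * (ξ : N → ℂ) 1 := by
    rw [hθe, L.loc.st_one_val (sta_of_class L.inn hcl) L.hξ]
    congr 1
    exact IndFun.extendByZero_coe (P.subgroupOf N) (ψ : P.subgroupOf N → ℂ) 1
  have h6 := sn_mul hnc hn2 θ 1
  have h7 := sn_mul hnc hn2 ξ 1
  rw [mul_one] at h6 h7
  rw [h4, h5, h7] at h6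
  have h8 := ξ.2.one_ne_zero
  have h9 : (ψ : P.subgroupOf N → ℂ) (xp x ((m / 2 : ℕ) : ZMod m)) * (sn (zN (m := m) x) ξ : ℂ) =
      (sn (zN (m := m) x) θ : ℂ) * (ψ : P.subgroupOf N → ℂ) 1 := by
    apply mul_right_cancel₀ h8
    linear_combination h6
  have h10 : ((sn (zN (m := m) x) ξ : ℤ) : ℂ) * ((sn (zN (m := m) x) ξ : ℤ) : ℂ) = 1 := by
    rcases sn_or (z := zN (m := m) x) ξ with h | h <;> rw [h] <;> norm_num
  have h11 : sn (zN (m := m) x) θ = sn z χ := by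
    rcases sn_or (z := zN (m := m) x) θ with h | h
    · rw [h, mul_one] at h3; rw [h, h3]
    · rw [h] at h3 ⊢; omega
  rw [h11] at h9
  push_cast
  linear_combination (sn (zN (m := m) x) ξ : ℂ) * h9 - (ψ : P.subgroupOf N → ℂ) (xp x ((m / 2 : ℕ) : ZMod m)) * h10

theorem tv_z (χ : IrrCharacter G) (u : P.subgroupOf N) :
    tv 2 P e' ξ χ (xp x ((m / 2 : ℕ) : ZMod m) * u) =
      (sn (xg x ((m / 2 : ℕ) : ZMod m)) χ * sn (zN (m := m) x) ξ : ℤ) * tv 2 P e' ξ χ u := by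
  have := Fintype.ofFinite N
  unfold tv
  rw [tt_eq, Finset.sum_apply, Finset.sum_apply, Finset.mul_sum]
  refine Finset.sum_congr rfl fun ψ _ => ?_
  rw [Pi.smul_apply, Pi.smul_apply, smul_eq_mul, smul_eq_mul]
  by_cases hne : classInner (fun n : N => (χ : G → ℂ) n)
      (st 2 (P.subgroupOf N) e' (extendByZero (P.subgroupOf N) (ψ : P.subgroupOf N → ℂ)) (ξ : N → ℂ)) = 0
  · rw [hne, zero_mul, zero_mul, mul_zero]
  · have h1 := L.star_sgn S hz hne
    have hc : ∀ g, g * xp x ((m / 2 : ℕ) : ZMod m) * g⁻¹ = xp x ((m / 2 : ℕ) : ZMod m) := S.z_central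
    have h2 := sn_mul hc S.z_sq ψ u
    have h3 := sn_mul hc S.z_sq ψ 1
    rw [mul_one] at h3
    rw [h3] at h1
    have h4 := mul_right_cancel₀ ψ.2.one_ne_zero h1
    rw [h2, h4]
    ring

theorem nn_z (χ : IrrCharacter G) (a : ZMod m) :
    L.nn S.toCyc2 χ a = (sn (xg x ((m / 2 : ℕ) : ZMod m)) χ * sn (zN (m := m) x) ξ) * (-1) ^ a.val * L.nn S.toCyc2 χ a := by
  set η : ℤ := sn (xg x ((m / 2 : ℕ) : ZMod m)) χ * sn (zN (m := m) x) ξ with hη
  set f : ZMod m → ℂ := fun i => tv 2 P e' ξ χ (xp x i) with hf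
  have h1 : ∀ i, f (((m / 2 : ℕ) : ZMod m) + i) = (η : ℂ) * f i := by
    intro i
    simp only [hf]
    rw [xp_add S.hx]
    exact L.tv_z S hz χ (xp x i)
  have h2 : cf f a = ((η * (-1) ^ a.val : ℤ) : ℂ) * cf f a := by
    have e1 : ∑ i : ZMod m, f i * ev m (-(a * i)) =
        ∑ i : ZMod m, f (((m / 2 : ℕ) : ZMod m) + i) * ev m (-(a * (((m / 2 : ℕ) : ZMod m) + i))) :=
      (Equiv.sum_comp (Equiv.addLeft (((m / 2 : ℕ) : ZMod m))) (fun i : ZMod m => f i * ev m (-(a * i)))).symm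
    unfold cf
    rw [mul_left_comm]
    congr 1
    rw [Finset.mul_sum]
    refine e1.trans ?_
    refine Finset.sum_congr rfl fun i _ => ?_
    rw [h1, mul_add, neg_add, ev_add, ev_neg (a * ((m / 2 : ℕ) : ZMod m)),
      ev_mul_half (two_dvd_m S.hr S.hm)]
    rw [map_pow, map_neg, map_one]
    push_cast
    ring
  rw [L.nn_spec S.toCyc2 χ a] at h2
  have h3 : ((L.nn S.toCyc2 χ a : ℤ) : ℂ) = ((η * (-1) ^ a.val * L.nn S.toCyc2 χ a : ℤ) : ℂ) := by
    push_cast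
    push_cast at h2
    exact h2
  exact_mod_cast h3

/-- supports -/
theorem nn_supp (h2 : 2 ∣ m) (χ : IrrCharacter G) :
    (sn (xg x ((m / 2 : ℕ) : ZMod m)) χ * sn (zN (m := m) x) ξ = 1 → ∀ a ∈ Od h2, L.nn S.toCyc2 χ a = 0) ∧
    (sn (xg x ((m / 2 : ℕ) : ZMod m)) χ * sn (zN (m := m) x) ξ = -1 → ∀ a ∈ Ev h2, L.nn S.toCyc2 χ a = 0) := by
  constructor
  · intro h a ha
    have h1 := L.nn_z S hz χ a
    rw [h, neg_one_pow_val h2, if_neg ((mem_Od h2).1 ha)] at h1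
    omega
  · intro h a ha
    have h1 := L.nn_z S hz χ a
    rw [h, neg_one_pow_val h2, if_pos ((mem_Ev h2).1 ha)] at h1
    omega

end LD

end Cfsg.Agent.Lib.Tame
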