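import Cfsg.Agent.Lib.TameW2

/-!
# Central involutions: counting
-/

set_option autoImplicit false
set_option linter.all false
set_option maxHeartbeats 400000

namespace Cfsg.Agent.Lib.Tame

open Cfsg Cfsg.Agent.Lib.BlockRing Cfsg.Agent.Lib.BlockGA Cfsg.Agent.Lib.BlockAlg
open Cfsg.Agent.Lib.BlkIdem Cfsg.Agent.Lib.PairAlg Cfsg.Agent.Lib.PairMax
open Cfsg.Agent.Lib.BlockIdem Cfsg.Agent.Lib.BlockSecond Cfsg.Agent.Lib.BrauerPairs
open Cfsg.Agent.Lib.BlkFus Cfsg.Agent.Lib.InducedPair Cfsg.Agent.Lib.DefPairs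
open Cfsg.Agent.Lib.BlkFusDef Cfsg.Agent.Lib.BlkTransport Cfsg.Agent.Lib.BlkNil
open Cfsg.Agent.Lib.H25BpLift Cfsg.Agent.Lib.H25BpTw Cfsg.Agent.Lib.H25BpF Cfsg.Agent.Lib.H25BpI
open Cfsg.Agent.Lib.H25BpE Cfsg.Agent.Lib.H25BpG Cfsg.Agent.Lib.H25BpW Cfsg.Agent.Lib.H25BpM
open Cfsg.Agent.Lib.H25BpS Cfsg.Agent.Lib.TameFour
open Cfsg.Agent.Lib.BlockCount (Bl D rsp rsp_orth sum_blockPart blockRank_eq)
open Cfsg.Agent.Lib.Subsec (Cz mem_Cz al al_eq al_mem fs mem_fs zz D_reg D_not_reg kern kern_eq_zero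
  al_conj al_idem al_trace al_loc al_not_idl al_idl pow_of_orderOf al_ne_zero')
open MonoidAlgebra (single)
open scoped ComplexConjugate Classical Pointwise

universe u

variable {M : Ideal AlgInt} [hMm : M.IsMaximal] [hchar : CharP (Kf M) 2]
  {G : Type u} [Group G] [Finite G] {B : Set (IrrCharacter G)} {P : Subgroup G} {e : MonoidAlgebra (Kf M) G}
  {N : Subgroup G} {b : Set (IrrCharacter N)} {e' : MonoidAlgebra (Kf M) N} {v : G}
  {ξ : IrrCharacter N} {m : ℕ} [NeZero m] {x : P.subgroupOf N} {s : ZMod m} {r : ℕ}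

namespace LD

variable (L : LD 2 B P e N b e' v ξ) (S : QS m x s r) (hv : xg x ((m / 4 : ℕ) : ZMod m) = v)
  (hz : ∀ g : G, g * xg x ((m / 2 : ℕ) : ZMod m) * g⁻¹ = xg x ((m / 2 : ℕ) : ZMod m))
include L S hv hz

theorem zcount :
    ∃ c : ℤ, (c : ℚ) = cB P e m x ∧
      ((((fs B).filter (fun χ => sn (xg x ((m / 2 : ℕ) : ZMod m)) χ = 1)).card : ℤ) =
        blockRank 2 B + (m / 4 : ℕ) + c ∨
       (((fs B).filter (fun χ => sn (xg x ((m / 2 : ℕ) : ZMod m)) χ = 1)).card : ℤ) =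
        blockRank 2 B + (m / 4 : ℕ) - 1) := by
  have := Fintype.ofFinite G
  have h2 : 2 ∣ m := two_dvd_m S.hr S.hm
  obtain ⟨a1, az, bz, c, hle, hcB, hC1, hCz, hN⟩ := L.nd S hv h2
  refine ⟨c, hcB, ?_⟩
  obtain ⟨lz, hlz⟩ : ∃ lz, lz = blockRank 2 bz.1 := ⟨_, rfl⟩
  rw [← hlz] at hN
  clear hlz hle
  clear bz
  set z := xg x ((m / 2 : ℕ) : ZMod m) with hzdef
  set σ := sn (zN (m := m) x) ξ with hσ
  set q : ℕ := m / 4 with hq
  have h4m := four_dvd_m S.hr S.hm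
  have hm2 : m / 2 = 2 * q := by omega
  have hqp : (0 : ℤ) < q := by exact_mod_cast hN.q_pos
  have hz2 : z * z = 1 := (xg_sq S).2 (Or.inr rfl)
  have hz1 : z ≠ 1 := by
    intro h
    rw [← xg_zero S] at h
    exact half_ne h2 (xg_inj S h)
  have hPne : (Nat.card P : ℂ) ≠ 0 := by exact_mod_cast (Nat.card_pos (α := P)).ne'
  -- the diagonal entries
  have ha : ∀ χ ∈ fs B, az χ χ = a1 χ χ := by
    intro χ hχ
    have h1 : ((az χ χ : ℤ) : ℂ) = ((a1 χ χ : ℤ) : ℂ) := by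
      rw [hC1, hCz]
      congr 1
      exact CI_z L.ctx hz hz2 (u := ⟨xg x (0 : ZMod m), xg_mem x (0 : ZMod m)⟩)
        (w := ⟨xg x ((m / 2 : ℕ) : ZMod m), xg_mem x ((m / 2 : ℕ) : ZMod m)⟩) (xg_zero S) rfl (mem_fs.1 hχ)
    exact_mod_cast h1
  have hsn : ∑ χ ∈ fs B, sn z χ * a1 χ χ = 0 := by
    have h1 := sum_sn_CI L.ctx hz hz2 hz1 (u := ⟨xg x (0 : ZMod m), xg_mem x (0 : ZMod m)⟩) (xg_zero S)
    have h3 : ((∑ χ ∈ fs B, sn z χ * a1 χ χ : ℤ) : ℂ) = 0 := by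
      push_cast
      rw [← mul_zero (Nat.card P : ℂ), ← h1, Finset.mul_sum]
      refine Finset.sum_congr rfl fun χ _ => ?_
      rw [hC1]
      ring
    exact_mod_cast h3
  -- ranks
  have hl : (lz : ℤ) = blockRank 2 B := by
    have h1 := hN.Z.trace
    rw [Finset.sum_congr rfl ha, hN.A.trace] at h1
    exact (mul_left_cancel₀ (hN.D_pos).ne' h1).symm
  have hcard := hN.card_eq
  rw [hl] at hcard
  have hσ2 : σ = 1 ∨ σ = -1 := sn_or ξ
  have hηor : ∀ χ : IrrCharacter G, sn z χ * σ = 1 ∨ sn z χ * σ = -1 := by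
    intro χ
    rcases sn_or (z := z) χ with h | h <;> rcases hσ2 with h' | h' <;> rw [h, h'] <;> norm_num
  set Bp := (fs B).filter (fun χ => sn z χ * σ = 1) with hBp
  set Bm := (fs B).filter (fun χ => ¬ sn z χ * σ = 1) with hBm
  have hsplit : ∀ f : IrrCharacter G → ℤ, ∑ χ ∈ Bp, f χ + ∑ χ ∈ Bm, f χ = ∑ χ ∈ fs B, f χ := fun f =>
    Finset.sum_filter_add_sum_filter_not _ _ _
  have hcs : Bp.card + Bm.card = (fs B).card := Finset.card_filter_add_card_filter_not _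
  -- sums over the positive part
  have s1 : ∑ χ ∈ Bp, a1 χ χ = 4 * q * blockRank 2 B := by
    have h1 := hsplit (fun χ => a1 χ χ)
    have h3 := hsplit (fun χ => (sn z χ * σ) * a1 χ χ)
    have h4 : ∑ χ ∈ fs B, (sn z χ * σ) * a1 χ χ = 0 := by
      rw [← mul_zero σ, ← hsn, Finset.mul_sum]
      refine Finset.sum_congr rfl fun χ _ => ?_
      ring
    have h5 : ∑ χ ∈ Bp, (sn z χ * σ) * a1 χ χ = ∑ χ ∈ Bp, a1 χ χ := by
      refine Finset.sum_congr rfl fun χ hχ => ?_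
      rw [(Finset.mem_filter.1 hχ).2, one_mul]
    have h6 : ∑ χ ∈ Bm, (sn z χ * σ) * a1 χ χ = - ∑ χ ∈ Bm, a1 χ χ := by
      rw [← Finset.sum_neg_distrib]
      refine Finset.sum_congr rfl fun χ hχ => ?_
      have h7 : sn z χ * σ = -1 := by
        rcases hηor χ with h | h
        · exact absurd h (Finset.mem_filter.1 hχ).2
        · exact h
      rw [h7]; ring
    rw [h4, h5, h6] at h3
    have h7 := hN.A.trace
    linarith
  have s2 : ∑ χ ∈ Bp, az χ χ = 4 * q * blockRank 2 B := by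
    rw [← s1]
    exact Finset.sum_congr rfl fun χ hχ => ha χ (Finset.mem_filter.1 hχ).1
  have hVo : ∀ χ ∈ Bp, L.VV S (Od h2) χ = 0 := by
    intro χ hχ
    have h1 := (L.nn_supp S hz h2 χ).1 (Finset.mem_filter.1 hχ).2
    unfold VV
    rw [Finset.sum_eq_zero (fun a ha => by rw [h1 a ha]; ring), Finset.sum_eq_zero h1]
    ring
  have hVe : ∀ χ ∈ Bm, L.VV S (Ev h2) χ = 0 := by
    intro χ hχ
    have h7 : sn z χ * σ = -1 := by
      rcases hηor χ with h | h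
      · exact absurd h (Finset.mem_filter.1 hχ).2
      · exact h
    have h1 := (L.nn_supp S hz h2 χ).2 h7
    unfold VV
    rw [Finset.sum_eq_zero (fun a ha => by rw [h1 a ha]; ring), Finset.sum_eq_zero h1]
    ring
  have hHm : ∀ χ ∈ Bm, blockHeight 2 B (χ : G → ℂ) ≠ 0 := by
    intro χ hχ h0
    have h7 : sn z χ * σ = -1 := by
      rcases hηor χ with h | h
      · exact absurd h (Finset.mem_filter.1 hχ).2
      · exact h
    have h1 := (L.nn_supp S hz h2 χ).2 h7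
    apply (L.ht_zero_iff S hv (mem_fs.1 (Finset.mem_filter.1 hχ).1)).1 h0
    unfold sg
    rw [h1 0 (by rw [mem_Ev, map_zero]), h1 _ (by rw [mem_Ev, pr_half S.hr S.hm]), sub_self]
  have s3 : ∑ χ ∈ Bp, (L.VV S (Ev h2) χ + L.VV S (Od h2) χ) = 4 * (q : ℤ) ^ 2 := by
    rw [Finset.sum_add_distrib, Finset.sum_eq_zero hVo, add_zero]
    have h1 := hsplit (fun χ => L.VV S (Ev h2) χ)
    rw [Finset.sum_eq_zero hVe, add_zero, L.sum_Ve S hv h2, hm2] at h1
    rw [h1]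
    push_cast
    ring
  have s4 : ∑ χ ∈ Bp, (if blockHeight 2 B (χ : G → ℂ) = 0 then 2 * (q : ℤ) * c else 0) = 8 * q * c := by
    have h1 := hsplit (fun χ => if blockHeight 2 B (χ : G → ℂ) = 0 then 2 * (q : ℤ) * c else 0)
    rw [Finset.sum_eq_zero (s := Bm) (fun χ hχ => if_neg (hHm χ hχ)), add_zero] at h1
    rw [h1, ← Finset.sum_filter, Finset.sum_const, hN.H0, nsmul_eq_mul]
    push_cast
    ring
  have s5 : ((Bp.card : ℤ)) = blockRank 2 B + q + c := by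
    have h1 : ∀ χ ∈ Bp, a1 χ χ + az χ χ + 2 * (L.VV S (Ev h2) χ + L.VV S (Od h2) χ) +
        (if blockHeight 2 B (χ : G → ℂ) = 0 then 2 * (q : ℤ) * c else 0) = 8 * q :=
      fun χ hχ => hN.id χ (Finset.mem_filter.1 hχ).1
    have h3 := Finset.sum_congr rfl h1
    rw [Finset.sum_add_distrib, Finset.sum_add_distrib, Finset.sum_add_distrib, ← Finset.mul_sum, s1, s2, s3, s4,
      Finset.sum_const, nsmul_eq_mul] at h3
    have h4 : (8 * (q : ℤ)) * (Bp.card : ℤ) = (8 * (q : ℤ)) * (blockRank 2 B + q + c) := by linarith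
    exact mul_left_cancel₀ (by positivity) h4
  rcases hσ2 with h | h
  · left
    rw [← s5, hBp, h]
    simp only [mul_one]
  · right
    have h1 : (fs B).filter (fun χ => sn z χ = 1) = Bm := by
      rw [hBm]
      apply Finset.filter_congr
      intro χ _
      rw [h]
      rcases sn_or (z := z) χ with h' | h' <;> rw [h'] <;> norm_num
    rw [h1]
    have h3 : (Bp.card : ℤ) + Bm.card = (fs B).card := by exact_mod_cast hcs
    rw [s5, hcard] at h3
    linarith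

end LD

end Cfsg.Agent.Lib.Tame
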