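import Cfsg.Agent.Lib.TameQ

/-!
# The decomposition of the identity for quaternion and semidihedral defect groups
-/

set_option autoImplicit false
set_option linter.all false
set_option maxHeartbeats 400000

namespace Cfsg.Agent.Lib.Tame

open Cfsg Cfsg.Agent.Lib.BlockRing Cfsg.Agent.Lib.BlockGA Cfsg.Agent.Lib.BlockAlg
open Cfsg.Agent.Lib.BlkIdem Cfsg.Agent.Lib.PairAlg Cfsg.Agent.Lib.PairMax
open Cfsg.Agent.Lib.BlockIdem Cfsg.Agent.Lib.BlockSecond Cfsg.Agent.Lib.BrauerPairs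
open Cfsg.Agent.Lib.BlkFus Cfsg.Agent.Lib.InducedPair Cfsg.Agent.Lib.DefPairs
open Cfsg.Agent.Lib.BlkFusDef Cfsg.Agent.Lib.BlkTransport Cfsg.Agent.Lib.BlkNil
open Cfsg.Agent.Lib.H25BpLift Cfsg.Agent.Lib.H25BpTw Cfsg.Agent.Lib.H25BpF Cfsg.Agent.Lib.H25BpI
open Cfsg.Agent.Lib.H25BpE Cfsg.Agent.Lib.H25BpG Cfsg.Agent.Lib.H25BpW Cfsg.Agent.Lib.H25BpM
open Cfsg.Agent.Lib.H25BpS Cfsg.Agent.Lib.TameFour
open Cfsg.Agent.Lib.BlockCount (Bl D rsp rsp_orth sum_blockPart blockRank_eq)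
open Cfsg.Agent.Lib.BlockPair (preg)
open Cfsg.Agent.Lib.Subsec (Cz mem_Cz al al_eq al_mem fs mem_fs sum_fs blockPart_eq D_reg D_not_reg D_mem)
open MonoidAlgebra (single)
open scoped ComplexConjugate Classical Pointwise

universe u

variable {p : ℕ} [hp : Fact p.Prime] {M : Ideal AlgInt} [hMm : M.IsMaximal] [hchar : CharP (Kf M) p]
  {G : Type u} [Group G] [Finite G] {B : Set (IrrCharacter G)} {P : Subgroup G} {e : MonoidAlgebra (Kf M) G}

section bh

variable {N : Subgroup G} {b : Set (IrrCharacter N)} {e' : MonoidAlgebra (Kf M) N}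

theorem cg_subgroupOf {Q : Subgroup G} (g : N) : (cg (g : G) Q).subgroupOf N = cg g (Q.subgroupOf N) := by
  ext k
  rw [Subgroup.mem_subgroupOf]
  constructor
  · rintro ⟨q, hq, hqk⟩
    have h1 : (g : G) * q * (g : G)⁻¹ = k := hqk
    have h2 : q = (((g⁻¹ : N) * k * g : N) : G) := by
      push_cast
      rw [← h1]; group
    refine ⟨g⁻¹ * k * g, ?_, ?_⟩
    · show g⁻¹ * k * g ∈ Q.subgroupOf N
      rw [Subgroup.mem_subgroupOf, ← h2]
      exact hq
    · show g * (g⁻¹ * k * g) * g⁻¹ = k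
      group
  · rintro ⟨q, hq, hqk⟩
    have h1 : g * q * g⁻¹ = k := hqk
    refine ⟨(q : G), hq, ?_⟩
    show (g : G) * q * (g : G)⁻¹ = k
    exact congrArg Subtype.val h1

theorem res_cj {f : MonoidAlgebra (Kf M) G} (hf : f ∈ BrauerMap.suppAlg (Kf M) N)
    (g : N) : res N (BrauerMap.cj (g : G) f) = BrauerMap.cj g (res N f) := by
  apply inc_injective (M := M) N
  rw [inc_cj, inc_res N hf]
  apply inc_res
  intro k hk
  rw [BrauerMap.cj_coeff]
  apply hf
  intro h
  apply hk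
  have := N.mul_mem (N.mul_mem g.2 h) (N.inv_mem g.2)
  have e1 : (g : G) * ((g : G)⁻¹ * k * g) * (g : G)⁻¹ = k := by group
  rwa [e1] at this

/-- transport of fusion -/
theorem bhom_inc (h : Ctx p B P e) (hPN : P ≤ N) (hl : Ctx p b (P.subgroupOf N) e') (he : inc N e' = e)
    {Q : Subgroup G} (hQ : Q ≤ P) (hC : Subgroup.centralizer (Q : Set G) ≤ N) (g : N) :
    BHom p P e Q (g : G) ↔ BHom p (P.subgroupOf N) e' (Q.subgroupOf N) g := by
  have hres : res N e = e' := by
    rw [← he]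
    apply inc_injective (M := M) N
    exact inc_res N (fun g hg => inc_coeff_not_mem N e' hg)
  have hC' : Subgroup.centralizer ((cg (g : G) Q : Subgroup G) : Set G) ≤ N := by
    intro k hk
    have h1 : (g : G)⁻¹ * k * g ∈ Subgroup.centralizer (Q : Set G) := by
      rw [Subgroup.mem_centralizer_iff] at hk ⊢
      intro q hq
      have h2 := hk ((g : G) * q * (g : G)⁻¹) ⟨q, hq, rfl⟩
      have h3 : (g : G)⁻¹ * ((g : G) * q * (g : G)⁻¹ * k) * g = (g : G)⁻¹ * (k * ((g : G) * q * (g : G)⁻¹)) * g := by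
        rw [h2]
      calc q * ((g : G)⁻¹ * k * g) = (g : G)⁻¹ * ((g : G) * q * (g : G)⁻¹ * k) * g := by group
        _ = _ := h3
        _ = _ := by group
    have h2 := N.mul_mem (N.mul_mem g.2 (hC h1)) (N.inv_mem g.2)
    have e1 : (g : G) * ((g : G)⁻¹ * k * g) * (g : G)⁻¹ = k := by group
    rwa [e1] at h2
  constructor
  · rintro ⟨f, h1, h2⟩
    have h3 := ple_inc h1 hPN hC
    have h4 := ple_inc h2 hPN hC'
    refine ⟨res N f, ?_, ?_⟩
    · rw [← hres]; exact h3
    · have h5 : IsBlk (Subgroup.centralizer (Q : Set G)) f := (h1.pair h.pair).2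
      rw [← hres, ← cg_subgroupOf, ← res_cj (BrauerMap.suppAlg_mono hC h5.mem.1)]
      exact h4
  · rintro ⟨f', h1, h2⟩
    obtain ⟨f, hf⟩ := exists_sub hasBlocks h.pair hQ
    have h3 := ple_inc hf hPN hC
    have h3' : PLE p (Q.subgroupOf N, res N f) (P.subgroupOf N, e') := by rw [← hres]; exact h3
    have h4 : res N f = f' := unique_sub hasBlocks hl.pair h3' h1
    have h5 : IsBlk (Subgroup.centralizer (Q : Set G)) f := (hf.pair h.pair).2
    have hfN : f ∈ BrauerMap.suppAlg (Kf M) N := BrauerMap.suppAlg_mono hC h5.mem.1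
    have hgQ : cg (g : G) Q ≤ P := by
      rintro _ ⟨q, hq, rfl⟩
      have h6 : g * (⟨q, hPN (hQ hq)⟩ : N) * g⁻¹ ∈ P.subgroupOf N := by
        apply h2.le
        exact ⟨_, hq, rfl⟩
      exact h6
    obtain ⟨f2, hf2⟩ := exists_sub hasBlocks h.pair hgQ
    have h6 := ple_inc hf2 hPN hC'
    have h6' : PLE p ((cg (g : G) Q).subgroupOf N, res N f2) (P.subgroupOf N, e') := by rw [← hres]; exact h6
    rw [cg_subgroupOf] at h6'
    have h7 : res N f2 = BrauerMap.cj g f' := unique_sub hasBlocks hl.pair h6' h2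
    have h8 : IsBlk (Subgroup.centralizer ((cg (g : G) Q : Subgroup G) : Set G)) f2 := (hf2.pair h.pair).2
    have h9 : f2 = BrauerMap.cj (g : G) f := by
      rw [← inc_res N (BrauerMap.suppAlg_mono hC' h8.mem.1), h7, ← h4, ← res_cj hfN]
      apply inc_res
      intro k hk
      rw [BrauerMap.cj_coeff]
      apply hfN
      intro h
      apply hk
      have := N.mul_mem (N.mul_mem g.2 h) (N.inv_mem g.2)
      have e1 : (g : G) * ((g : G)⁻¹ * k * g) * (g : G)⁻¹ = k := by group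
      rwa [e1] at this
    exact ⟨f, hf, by rw [← h9]; exact hf2⟩

omit hp hMm hchar in
theorem card_inf_sub (hPN : P ≤ N) (u : P.subgroupOf N) :
    Nat.card (P ⊓ Cc ((u : N) : G) : Subgroup G) = Nat.card {k : P.subgroupOf N // Commute u k} := by
  have key : ∀ k : G, k ∈ P ⊓ Cc ((u : N) : G) ↔ k ∈ P ∧ Commute ((u : N) : G) k := by
    intro k
    rw [Subgroup.mem_inf, mem_cz]
  symm
  apply Nat.card_congr
  exact {
    toFun := fun k => ⟨((k.1 : N) : G), (key _).2 ⟨k.1.2, by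
      have h1 := k.2.eq
      exact congrArg (fun w : P.subgroupOf N => ((w : N) : G)) h1⟩⟩
    invFun := fun k => ⟨⟨⟨(k : G), hPN ((key _).1 k.2).1⟩, ((key _).1 k.2).1⟩, by
      have h1 := ((key _).1 k.2).2.eq
      exact Subtype.ext (Subtype.ext h1)⟩
    left_inv := fun k => rfl
    right_inv := fun k => rfl }

end bh

end Cfsg.Agent.Lib.Tame
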