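import Cfsg.Agent.Lib.TameX

/-!
# The decomposition of the identity for quaternion and semidihedral defect groups, II
-/

set_option autoImplicit false
set_option linter.all false
set_option maxHeartbeats 400000

namespace Cfsg.Agent.Lib.Tame

open Cfsg Cfsg.Agent.Lib.BlockRing Cfsg.Agent.Lib.BlockGA Cfsg.Agent.Lib.BlockAlg
open Cfsg.Agent.Lib.BlkIdem Cfsg.Agent.Lib.PairAlg Cfsg.Agent.Lib.PairMax
open Cfsg.Agent.Lib.BlockIdem Cfsg.Agent.Lib.BlockSecond Cfsg.Agent.Lib.BrauerPairs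
open Cfsg.Agent.Lib.BlkFus Cfsg.Agent.Lib.InducedPair Cfsg.Agent.Lib.DefPairs
open Cfsg.Agent.Lib.BlkFusDef Cfsg.Agent.Lib.BlkTransport Cfsg.Agent.Lib.BlkNil
open Cfsg.Agent.Lib.H25BpLift Cfsg.Agent.Lib.H25BpTw Cfsg.Agent.Lib.H25BpF Cfsg.Agent.Lib.H25BpI
open Cfsg.Agent.Lib.H25BpE Cfsg.Agent.Lib.H25BpG Cfsg.Agent.Lib.H25BpW Cfsg.Agent.Lib.H25BpM
open Cfsg.Agent.Lib.H25BpS Cfsg.Agent.Lib.TameFour
open Cfsg.Agent.Lib.BlockCount (Bl D rsp rsp_orth sum_blockPart blockRank_eq)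
open Cfsg.Agent.Lib.BlockPair (preg)
open Cfsg.Agent.Lib.Subsec (Cz mem_Cz al al_eq al_mem fs mem_fs sum_fs blockPart_eq D_reg D_not_reg D_mem)
open MonoidAlgebra (single)
open scoped ComplexConjugate Classical Pointwise

universe u

variable {p : ℕ} [hp : Fact p.Prime] {M : Ideal AlgInt} [hMm : M.IsMaximal] [hchar : CharP (Kf M) p]
  {G : Type u} [Group G] [Finite G] {B : Set (IrrCharacter G)} {P : Subgroup G} {e : MonoidAlgebra (Kf M) G}

section xg

variable {N : Subgroup G} {m : ℕ} [NeZero m]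

/-- elements of the cyclic maximal subgroup, in `G` -/
def xg (x : P.subgroupOf N) (i : ZMod m) : G := (((xp x i : P.subgroupOf N) : N) : G)

theorem xg_mem (x : P.subgroupOf N) (i : ZMod m) : xg x i ∈ P := (xp x i).2

theorem xg_eq {x : P.subgroupOf N} {i : ZMod m} {y : P.subgroupOf N} : xg x i = ((y : N) : G) ↔ xp x i = y :=
  ⟨fun h => Subtype.ext (Subtype.ext h), fun h => by rw [← h]; rfl⟩

variable {x : P.subgroupOf N} {s : ZMod m} {r : ℕ}

theorem xg_inj (S : QS m x s r) : Function.Injective (xg x : ZMod m → G) := by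
  intro i j hij
  exact xp_injective S.hx (Subtype.ext (Subtype.ext hij))

theorem xg_zero (S : QS m x s r) : xg x (0 : ZMod m) = 1 := by
  unfold xg; rw [xp_zero S.hx]; rfl

theorem xg_sq (S : QS m x s r) {i : ZMod m} : xg x i * xg x i = 1 ↔ i = 0 ∨ i = ((m / 2 : ℕ) : ZMod m) := by
  rw [← S.sq_in]
  constructor
  · intro h; exact Subtype.ext (Subtype.ext h)
  · intro h
    have := congrArg (fun w : P.subgroupOf N => ((w : N) : G)) h
    exact this

theorem xg_conj {y : P.subgroupOf N} (S : QS m x s r) (i : ZMod m) :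
    ((y : N) : G) * xg x i * ((y : N) : G)⁻¹ = xg x i ∨ ((y : N) : G) * xg x i * ((y : N) : G)⁻¹ = xg x (s * i) := by
  rcases conj_xp' S.hx S.hs S.hconj (y := y) i with h | h
  · left
    have := congrArg (fun w : P.subgroupOf N => ((w : N) : G)) h
    exact this
  · right
    have := congrArg (fun w : P.subgroupOf N => ((w : N) : G)) h
    exact this

/-- sums over `P` -/
theorem sum_P [Fintype P] (S : QS m x s r) (f : P → ℂ) (hf : ∀ y : P, (∀ i : ZMod m, xg x i ≠ y) → f y = 0) :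
    ∑ y : P, f y = ∑ i : ZMod m, f ⟨xg x i, xg_mem x i⟩ := by
  symm
  apply Fintype.sum_of_injective (fun i : ZMod m => (⟨xg x i, xg_mem x i⟩ : P))
  · intro i j hij
    have h1 : (⟨xg x i, xg_mem x i⟩ : P) = ⟨xg x j, xg_mem x j⟩ := hij
    have h2 : xg x i = xg x j := congrArg (fun w : P => (w : G)) h1
    exact xg_inj S h2
  · intro y hy
    apply hf
    intro i hi
    exact hy ⟨i, Subtype.ext hi⟩
  · intro i; rfl

end xg

namespace LD

variable {N : Subgroup G} {b : Set (IrrCharacter N)} {e' : MonoidAlgebra (Kf M) N} {v : G}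
  {ξ : IrrCharacter N} {m : ℕ} [NeZero m] {x : P.subgroupOf N} {s : ZMod m} {r : ℕ}
  (L : LD p B P e N b e' v ξ) (S : QS m x s r) (hv : xg x ((m / 4 : ℕ) : ZMod m) = v)
include S hv

theorem v_mem {i : ZMod m} (hi : i ≠ 0) (hi2 : i ≠ ((m / 2 : ℕ) : ZMod m)) : v ∈ Subgroup.zpowers (xg x i) := by
  obtain ⟨k, hk⟩ := S.quarter_mem hi hi2
  refine ⟨k, ?_⟩
  have hk' : xp x i ^ k = xp x ((m / 4 : ℕ) : ZMod m) := hk
  have h1 := congrArg (fun w : P.subgroupOf N => ((w : N) : G)) hk'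
  rw [← hv]
  exact h1

theorem v_not_mem {i : ZMod m} (hi : i = 0 ∨ i = ((m / 2 : ℕ) : ZMod m)) : v ∉ Subgroup.zpowers (xg x i) := by
  rintro ⟨k, hk⟩
  apply S.quarter_not_mem hi
  refine ⟨k, ?_⟩
  have hk' : xg x i ^ k = v := hk
  rw [← hv] at hk'
  exact Subtype.ext (Subtype.ext hk')

include L

/-- no fusion inside the cyclic subgroup -/
theorem fs_X {i j : ZMod m} (hi : i ≠ 0) (hi2 : i ≠ ((m / 2 : ℕ) : ZMod m)) (h : Fs p P e (xg x i) (xg x j)) :
    j = i ∨ j = s * i := by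
  obtain ⟨g, hg, hgj⟩ := h
  have hj : ¬ (j = 0 ∨ j = ((m / 2 : ℕ) : ZMod m)) := by
    rw [← xg_sq S, ← hgj]
    intro h1
    have h2 : g * (xg x i * xg x i) * g⁻¹ = 1 := by
      calc g * (xg x i * xg x i) * g⁻¹ = (g * xg x i * g⁻¹) * (g * xg x i * g⁻¹) := by group
        _ = 1 := h1
    have h3 := conj_eq_one_iff.1 h2
    rcases (xg_sq S).1 h3 with h4 | h4
    · exact hi h4
    · exact hi2 h4
  push Not at hj
  have hgN : g ∈ N := by
    apply L.ti (c := xg x i) (v_mem S hv hi hi2)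
    rw [hgj]
    exact v_mem S hv hj.1 hj.2
  have hC : Subgroup.centralizer ((Subgroup.zpowers (xg x i) : Subgroup G) : Set G) ≤ N := by
    intro k hk
    rw [mem_cz] at hk
    apply L.cent
    obtain ⟨l, hl⟩ := v_mem S hv hi hi2
    rw [← hl]
    exact Commute.zpow_left hk l
  have h1 := (bhom_inc L.ctx L.le L.loc L.inc (by rw [Subgroup.zpowers_le]; exact xg_mem x i) hC ⟨g, hgN⟩).1 hg
  obtain ⟨y, hy, hyg⟩ := L.inn _ _ h1
  have h2 : (Subgroup.zpowers (xg x i)).subgroupOf N = Subgroup.zpowers ((xp x i : P.subgroupOf N) : N) :=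
    zpowers_subgroupOf
  rw [h2, mem_cz] at hyg
  have h3 : Commute (((xp x i : P.subgroupOf N) : N)) (y⁻¹ * ⟨g, hgN⟩) := hyg
  have h4 : (⟨g, hgN⟩ : N) * ((xp x i : P.subgroupOf N) : N) * (⟨g, hgN⟩ : N)⁻¹ =
      y * ((xp x i : P.subgroupOf N) : N) * y⁻¹ := by
    have h5 := h3.eq
    calc (⟨g, hgN⟩ : N) * ((xp x i : P.subgroupOf N) : N) * (⟨g, hgN⟩ : N)⁻¹ =
        y * (y⁻¹ * ⟨g, hgN⟩ * ((xp x i : P.subgroupOf N) : N)) * (⟨g, hgN⟩ : N)⁻¹ := by group
      _ = y * (((xp x i : P.subgroupOf N) : N) * (y⁻¹ * ⟨g, hgN⟩)) * (⟨g, hgN⟩ : N)⁻¹ := by rw [h5]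
      _ = _ := by group
  have h5 : (y : G) * xg x i * (y : G)⁻¹ = xg x j := by
    rw [← hgj]
    exact (congrArg Subtype.val h4).symm
  rcases xg_conj (y := ⟨y, hy⟩) S i with h6 | h6
  · left
    exact xg_inj S (h5.symm.trans h6)
  · right
    exact xg_inj S (h5.symm.trans h6)

omit hv L in
theorem _root_.Cfsg.Agent.Lib.Tame.fs_X2 {i j : ZMod m} (hi : i = 0 ∨ i = ((m / 2 : ℕ) : ZMod m))
    (h : Fs p P e (xg x i) (xg x j)) : j = i := by
  obtain ⟨g, hg, hgj⟩ := h
  have hj : j = 0 ∨ j = ((m / 2 : ℕ) : ZMod m) := by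
    rw [← xg_sq S, ← hgj]
    have h1 := (xg_sq S).2 hi
    calc (g * xg x i * g⁻¹) * (g * xg x i * g⁻¹) = g * (xg x i * xg x i) * g⁻¹ := by group
      _ = 1 := by rw [h1]; group
  have h0 : j = 0 ↔ i = 0 := by
    have e1 : j = 0 ↔ xg x j = 1 := by
      rw [← xg_zero S]
      exact ⟨fun h => by rw [h], fun h => xg_inj S h⟩
    have e2 : i = 0 ↔ xg x i = 1 := by
      rw [← xg_zero S]
      exact ⟨fun h => by rw [h], fun h => xg_inj S h⟩
    rw [e1, e2, ← hgj, conj_eq_one_iff]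
  rcases hi with hi | hi
  · rw [hi]; exact h0.2 hi
  · rcases hj with hj | hj
    · rw [hj]; exact (h0.1 hj).symm
    · rw [hj, hi]

omit hv L in
theorem _root_.Cfsg.Agent.Lib.Tame.fs_conj (h : Ctx p B P e) (hx : ∃ y, y ∉ Subgroup.zpowers x) (i : ZMod m) :
    Fs p P e (xg x i) (xg x (s * i)) := by
  obtain ⟨y, hy⟩ := hx
  have h1 := S.conj_out hy i
  have h2 : ((y : N) : G) * xg x i * ((y : N) : G)⁻¹ = xg x (s * i) :=
    congrArg (fun w : P.subgroupOf N => ((w : N) : G)) h1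
  rw [← h2]
  exact Fs.conj h.pair (xg_mem x i) y.2

omit hv L in
theorem _root_.Cfsg.Agent.Lib.Tame.s_H2 {i : ZMod m} : (s * i = 0 ∨ s * i = ((m / 2 : ℕ) : ZMod m)) ↔
    (i = 0 ∨ i = ((m / 2 : ℕ) : ZMod m)) := by
  have h1 : ∀ i : ZMod m, (i = 0 ∨ i = ((m / 2 : ℕ) : ZMod m)) → (s * i = 0 ∨ s * i = ((m / 2 : ℕ) : ZMod m)) := by
    rintro i (h | h)
    · left; rw [h, mul_zero]
    · right; rw [h, S.s_half]
  constructor
  · intro h
    have h2 := h1 _ h
    rw [← mul_assoc, S.hs, one_mul] at h2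
    exact h2
  · exact h1 i

/-- the weights -/
noncomputable def _root_.Cfsg.Agent.Lib.Tame.cw (p : ℕ) (P : Subgroup G) (e : MonoidAlgebra (Kf M) G) {N : Subgroup G}
    {m : ℕ} [NeZero m] (x : P.subgroupOf N) (y : P) : ℂ :=
  if ∃ i : ZMod m, xg x i = y then (if (y : G) * y = 1 then 1 else 2⁻¹) else
    (if ∃ i : ZMod m, Fs p P e y (xg x i) then 0 else ((nF p P e y : ℂ))⁻¹)

theorem cw_sum [Fintype P] (x₀ : P) : ∑ y : P, (if Fs p P e x₀ y then cw (m := m) p P e x y else 0) = 1 := by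
  have hex := exists_not S.hx S.hs S.hconj S.hcard
  by_cases hA : ∃ i : ZMod m, Fs p P e x₀ (xg x i)
  · obtain ⟨i, hi⟩ := hA
    rw [sum_P S]
    swap
    · intro y hy
      split_ifs with hxy
      · unfold cw
        rw [if_neg (by rintro ⟨j, hj⟩; exact hy j hj), if_pos ⟨i, hxy.symm.trans L.ctx.pair hi⟩]
      · rfl
    have h1 : ∀ j : ZMod m, Fs p P e (x₀ : G) (((⟨xg x j, xg_mem x j⟩ : P) : P) : G) ↔ Fs p P e (xg x i) (xg x j) :=
      fun j => ⟨fun h => hi.symm.trans L.ctx.pair h, fun h => hi.trans L.ctx.pair h⟩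
    have h2 : ∀ j : ZMod m, cw (m := m) p P e x ⟨xg x j, xg_mem x j⟩ =
        if j = 0 ∨ j = ((m / 2 : ℕ) : ZMod m) then 1 else 2⁻¹ := by
      intro j
      unfold cw
      rw [if_pos ⟨j, rfl⟩]
      by_cases hj : j = 0 ∨ j = ((m / 2 : ℕ) : ZMod m)
      · rw [if_pos hj, if_pos ((xg_sq S).2 hj)]
      · rw [if_neg hj, if_neg (fun h => hj ((xg_sq S).1 h))]
    simp only [h1, h2]
    by_cases hi2 : i = 0 ∨ i = ((m / 2 : ℕ) : ZMod m)
    · rw [Finset.sum_eq_single i]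
      · rw [if_pos (Fs.refl L.ctx.pair (xg_mem x i)), if_pos hi2]
      · intro j _ hj
        rw [if_neg (fun h => hj (fs_X2 S hi2 h))]
      · intro h; exact absurd (Finset.mem_univ _) h
    · have hi2' := hi2
      push Not at hi2
      have hne : i ≠ s * i := fun h => hi2' (S.s_fix.1 h.symm)
      have h3 : ∀ j : ZMod m, (if Fs p P e (xg x i) (xg x j) then
          (if j = 0 ∨ j = ((m / 2 : ℕ) : ZMod m) then (1 : ℂ) else 2⁻¹) else 0) =
          (if i = j then (2⁻¹ : ℂ) else 0) + (if s * i = j then 2⁻¹ else 0) := by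
        intro j
        by_cases hj1 : i = j
        · subst hj1
          rw [if_pos (Fs.refl L.ctx.pair (xg_mem x i)), if_neg hi2', if_pos rfl, if_neg hne.symm, add_zero]
        · by_cases hj2 : s * i = j
          · subst hj2
            rw [if_pos (fs_conj S L.ctx hex i), if_neg (fun h => hi2' ((s_H2 S).1 h)), if_neg hj1, if_pos rfl, zero_add]
          · rw [if_neg, if_neg hj1, if_neg hj2, add_zero]
            intro h
            rcases L.fs_X S hv hi2.1 hi2.2 h with h | h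
            · exact hj1 h.symm
            · exact hj2 h.symm
      rw [Finset.sum_congr rfl fun j _ => h3 j, Finset.sum_add_distrib, Finset.sum_ite_eq, Finset.sum_ite_eq,
        if_pos (Finset.mem_univ _), if_pos (Finset.mem_univ _)]
      norm_num
  · have h1 : ∀ y : P, (if Fs p P e x₀ y then cw (m := m) p P e x y else 0) =
        ((nF p P e (x₀ : G) : ℂ))⁻¹ * (if Fs p P e x₀ y then 1 else 0) := by
      intro y
      split_ifs with hxy
      · have h2 : ¬ ∃ i : ZMod m, Fs p P e y (xg x i) := by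
          rintro ⟨i, hi⟩
          exact hA ⟨i, hxy.trans L.ctx.pair hi⟩
        have h3 : ¬ ∃ i : ZMod m, xg x i = y := by
          rintro ⟨i, hi⟩
          apply hA
          exact ⟨i, by rw [hi]; exact hxy⟩
        unfold cw
        rw [if_neg h3, if_neg h2, nF_eq L.ctx.pair hxy, mul_one]
      · rw [mul_zero]
    rw [Finset.sum_congr rfl fun y _ => h1 y, ← Finset.mul_sum, ← Finset.sum_filter, Finset.sum_const, nsmul_eq_mul,
      mul_one]
    have h2 : (Finset.univ.filter (fun y : P => Fs p P e x₀ y)).card = nF p P e x₀ := by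
      unfold nF
      rw [← Fintype.card_subtype, ← Nat.card_eq_fintype_card]
      apply Nat.card_congr
      exact {
        toFun := fun y => ⟨y.1, y.2⟩
        invFun := fun y => ⟨⟨y.1, y.2.right⟩, y.2⟩
        left_inv := fun y => rfl
        right_inv := fun y => rfl }
    rw [h2]
    have hn : (nF p P e (x₀ : G) : ℂ) ≠ 0 := by exact_mod_cast (nF_pos L.ctx.pair x₀.2).ne'
    exact inv_mul_cancel₀ hn

end LD

end Cfsg.Agent.Lib.Tame
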