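import Cfsg.Agent.Lib.TameC

/-!
# Contributions of the elements outside the cyclic maximal subgroup
-/

set_option autoImplicit false
set_option linter.all false
set_option maxHeartbeats 400000

namespace Cfsg.Agent.Lib.Tame

open Cfsg Cfsg.Agent.Lib.BlockRing Cfsg.Agent.Lib.BlockGA Cfsg.Agent.Lib.BlockAlg
open Cfsg.Agent.Lib.BlkIdem Cfsg.Agent.Lib.PairAlg Cfsg.Agent.Lib.PairMax
open Cfsg.Agent.Lib.BlockIdem Cfsg.Agent.Lib.BlockSecond Cfsg.Agent.Lib.BrauerPairs
open Cfsg.Agent.Lib.BlkFus Cfsg.Agent.Lib.InducedPair Cfsg.Agent.Lib.DefPairs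
open Cfsg.Agent.Lib.BlkFusDef Cfsg.Agent.Lib.BlkTransport Cfsg.Agent.Lib.BlkNil
open Cfsg.Agent.Lib.H25BpLift Cfsg.Agent.Lib.H25BpTw Cfsg.Agent.Lib.H25BpF Cfsg.Agent.Lib.H25BpI
open Cfsg.Agent.Lib.H25BpE Cfsg.Agent.Lib.H25BpG Cfsg.Agent.Lib.H25BpW Cfsg.Agent.Lib.H25BpM
open Cfsg.Agent.Lib.H25BpS
open Cfsg.Agent.Lib.BlockCount (Bl D rsp rsp_orth sum_blockPart blockRank_eq)
open Cfsg.Agent.Lib.BlockPair (preg)
open Cfsg.Agent.Lib.Subsec (Cz mem_Cz al al_eq al_mem fs mem_fs sum_fs blockPart_eq D_reg D_not_reg D_mem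
  al_conj al_idem al_trace al_loc al_not_idl al_idl pow_of_orderOf al_ne_zero')
open MonoidAlgebra (single)
open scoped ComplexConjugate Classical Pointwise

universe u

theorem Z_four {w : ℂ} (hw : w ∈ CycAvg.Z 4) (hr : conj w = w) : ∃ n : ℤ, w = n := by
  have h1 : ∃ a b : ℤ, w = a + b * Complex.I := by
    refine CycAvg.ind (N := 4) (P := fun w => ∃ a b : ℤ, w = a + b * Complex.I) ?_ ⟨0, 0, by simp⟩ ?_ ?_ hw
    · intro μ hμ
      have h2 : (μ ^ 2) * (μ ^ 2) = 1 := by rw [← pow_add]; exact hμ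
      rcases mul_self_eq_one_iff.1 h2 with h | h
      · have h3 : μ * μ = 1 := by rw [← pow_two]; exact h
        rcases mul_self_eq_one_iff.1 h3 with h | h
        · exact ⟨1, 0, by rw [h]; simp⟩
        · exact ⟨-1, 0, by rw [h]; simp⟩
      · have h3 : (μ - Complex.I) * (μ + Complex.I) = 0 := by
          have : (μ - Complex.I) * (μ + Complex.I) = μ ^ 2 - Complex.I ^ 2 := by ring
          rw [this, h, Complex.I_sq]; ring
        rcases mul_eq_zero.1 h3 with h | h
        · exact ⟨0, 1, by rw [sub_eq_zero.1 h]; simp⟩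
        · exact ⟨0, -1, by rw [eq_neg_of_add_eq_zero_left h]; simp⟩
    · rintro a b _ _ ⟨m, n, rfl⟩ ⟨m', n', rfl⟩
      exact ⟨m + m', n + n', by push_cast; ring⟩
    · rintro a _ ⟨m, n, rfl⟩
      exact ⟨-m, -n, by push_cast; ring⟩
  obtain ⟨a, b, rfl⟩ := h1
  refine ⟨a, ?_⟩
  have h2 := congrArg Complex.im hr
  simp at h2
  have h3 : (b : ℝ) = 0 := by linarith
  have h4 : b = 0 := by exact_mod_cast h3
  rw [h4]; simp

section rk

variable {M : Ideal AlgInt} [hMm : M.IsMaximal] [hchar : CharP (Kf M) 2]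
  {K : Type u} [Group K] [Finite K] {b : Set (IrrCharacter K)}

/-- a group of odd order acting on a group of order at most four with a nontrivial fixed point -/
theorem fix_of_four {D R : Subgroup K} (hD : Nat.card D = 4) (hR : R ≤ D) {y : K} (hyD : y ∈ D) (hy1 : y ≠ 1)
    {g : K} (hyg : g * y * g⁻¹ = y) (hg : g ∈ Subgroup.normalizer (R : Set K)) (ho : ¬ 2 ∣ orderOf g) :
    g ∈ Subgroup.centralizer (R : Set K) := by
  rw [Subgroup.mem_centralizer_iff]
  intro r hr
  by_contra hne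
  have hcomm : ¬ Commute g r := fun h => hne h.eq.symm
  set r1 := g * r * g⁻¹ with hr1
  set r2 := g * r1 * g⁻¹ with hr2
  have h1R : r1 ∈ R := (Subgroup.mem_normalizer_iff.1 hg r).1 hr
  have h2R : r2 ∈ R := (Subgroup.mem_normalizer_iff.1 hg r1).1 h1R
  have key : ∀ a : K, g * a * g⁻¹ = a → Commute g a := fun a h => mul_inv_eq_iff_eq_mul.1 h
  have n01 : r1 ≠ r := fun h => hcomm (key r h)
  have n12 : r2 ≠ r1 := by
    intro h
    apply n01
    exact mul_left_cancel (mul_right_cancel (h : g * r1 * g⁻¹ = g * r * g⁻¹))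
  have n02 : r2 ≠ r := by
    intro h
    have h3 : Commute (g ^ 2) r := by
      have h3 : g ^ 2 * r * (g ^ 2)⁻¹ = r2 := by
        rw [hr2, hr1, pow_two]; group
      have : g ^ 2 * r * (g ^ 2)⁻¹ = r := h3.trans h
      exact mul_inv_eq_iff_eq_mul.1 this
    apply hcomm
    have hodd : Odd (orderOf g) := by
      rw [← Nat.not_even_iff_odd]
      exact fun h => ho h.two_dvd
    obtain ⟨k, hk⟩ := hodd
    have h4 : g = (g ^ 2) ^ (k + 1) := by
      rw [← pow_mul]
      have : 2 * (k + 1) = orderOf g + 1 := by omega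
      rw [this, pow_succ, pow_orderOf_eq_one, one_mul]
    rw [h4]
    exact h3.pow_left _
  have n1 : r ≠ 1 := by
    intro h
    apply hcomm
    rw [h]; exact Commute.one_right _
  have n11 : r1 ≠ 1 := by
    intro h
    exact n1 (conj_eq_one_iff.1 (h : g * r * g⁻¹ = 1))
  have n21 : r2 ≠ 1 := by
    intro h
    exact n11 (conj_eq_one_iff.1 (h : g * r1 * g⁻¹ = 1))
  have hsub : (({1, r, r1, r2} : Finset K) : Set K) ⊆ (D : Set K) := by
    intro a ha
    simp only [Finset.coe_insert, Finset.coe_singleton, Set.mem_insert_iff, Set.mem_singleton_iff] at ha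
    rcases ha with h | h | h | h
    · rw [h]; exact D.one_mem
    · rw [h]; exact hR hr
    · rw [h]; exact hR h1R
    · rw [h]; exact hR h2R
  have hc4 : ({1, r, r1, r2} : Finset K).card = 4 := by
    rw [Finset.card_insert_of_notMem, Finset.card_insert_of_notMem, Finset.card_insert_of_notMem, Finset.card_singleton]
    · simp only [Finset.mem_singleton]; exact n12.symm
    · simp only [Finset.mem_insert, Finset.mem_singleton, not_or]; exact ⟨n01.symm, n02.symm⟩
    · simp only [Finset.mem_insert, Finset.mem_singleton, not_or]; exact ⟨n1.symm, n11.symm, n21.symm⟩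
  have heq : (({1, r, r1, r2} : Finset K) : Set K) = (D : Set K) := by
    apply Set.eq_of_subset_of_ncard_le hsub _ (Set.toFinite _)
    rw [Set.ncard_coe_finset, hc4]
    have : (D : Set K).ncard = 4 := hD
    omega
  have hy : y ∈ (({1, r, r1, r2} : Finset K) : Set K) := by rw [heq]; exact hyD
  simp only [Finset.coe_insert, Finset.coe_singleton, Set.mem_insert_iff, Set.mem_singleton_iff] at hy
  rcases hy with h | h | h | h
  · exact hy1 h
  · rw [h] at hyg; exact n01 hyg
  · rw [h] at hyg; exact n12 hyg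
  · rw [h] at hyg
    apply n12
    have h5 : g * r2 * g⁻¹ = g * r1 * g⁻¹ := hyg
    exact mul_left_cancel (mul_right_cancel h5)

theorem rank_central (hM : IsPModular 2 M) (hb : IsPBlock M b) (hd : blockDefect 2 b = 2) {y : K}
    (hyc : ∀ g, g * y * g⁻¹ = y) (hy1 : y ≠ 1) (hyp : ∃ k, orderOf y = 2 ^ k) : blockRank 2 b = 1 := by
  haveI : Fact (Nat.Prime 2) := ⟨Nat.prime_two⟩
  obtain ⟨D, hD⟩ := BlockDefect.exists_defectGroup hM hb
  have hcard : Nat.card D = 4 := by
    rw [BlockDefect.defectGroup_card hM hb hD, hd]; norm_num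
  obtain ⟨e, he⟩ := exists_ctx hM hb hD
  have hyn : (Subgroup.zpowers y).Normal := by
    constructor
    rintro _ ⟨k, rfl⟩ g
    refine ⟨k, ?_⟩
    show y ^ k = g * y ^ k * g⁻¹
    rw [← conj_zpow, hyc]
  have hpy : IsPGroup 2 (Subgroup.zpowers y) := by
    obtain ⟨k, hk⟩ := hyp
    apply IsPGroup.of_card (n := k)
    rw [Nat.card_zpowers, hk]
  have hyD : y ∈ D := BlockNormP.le_defectGroup hM hpy hb hD (Subgroup.mem_zpowers y)
  have hin : H25BpS.Inn 2 D e := by
    apply inn_of_odd he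
    intro R hR g hg ho
    exact fix_of_four hcard hR hyD hy1 (hyc g) hg ho
  exact (he.nil_rank hin).1

end rk

end Cfsg.Agent.Lib.Tame
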