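import Cfsg.Agent.Lib.TameH2

/-!
# The identity for the diagonal contributions
-/

set_option autoImplicit false
set_option linter.all false
set_option maxHeartbeats 400000

namespace Cfsg.Agent.Lib.Tame

open Cfsg Cfsg.Agent.Lib.BlockRing Cfsg.Agent.Lib.BlockGA Cfsg.Agent.Lib.BlockAlg
open Cfsg.Agent.Lib.BlkIdem Cfsg.Agent.Lib.PairAlg Cfsg.Agent.Lib.PairMax
open Cfsg.Agent.Lib.BlockIdem Cfsg.Agent.Lib.BlockSecond Cfsg.Agent.Lib.BrauerPairs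
open Cfsg.Agent.Lib.BlkFus Cfsg.Agent.Lib.InducedPair Cfsg.Agent.Lib.DefPairs
open Cfsg.Agent.Lib.BlkFusDef Cfsg.Agent.Lib.BlkTransport Cfsg.Agent.Lib.BlkNil
open Cfsg.Agent.Lib.H25BpLift Cfsg.Agent.Lib.H25BpTw Cfsg.Agent.Lib.H25BpF Cfsg.Agent.Lib.H25BpI
open Cfsg.Agent.Lib.H25BpE Cfsg.Agent.Lib.H25BpG Cfsg.Agent.Lib.H25BpW Cfsg.Agent.Lib.H25BpM
open Cfsg.Agent.Lib.H25BpS Cfsg.Agent.Lib.TameFour
open Cfsg.Agent.Lib.BlockCount (Bl D rsp rsp_orth sum_blockPart blockRank_eq)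
open Cfsg.Agent.Lib.Subsec (Cz mem_Cz al al_eq al_mem fs mem_fs zz
  al_conj al_idem al_trace al_loc al_not_idl al_idl pow_of_orderOf al_ne_zero')
open scoped ComplexConjugate Classical Pointwise

universe u

variable {M : Ideal AlgInt} [hMm : M.IsMaximal] [hchar : CharP (Kf M) 2]
  {G : Type u} [Group G] [Finite G] {B : Set (IrrCharacter G)} {P : Subgroup G} {e : MonoidAlgebra (Kf M) G}
  {N : Subgroup G} {b : Set (IrrCharacter N)} {e' : MonoidAlgebra (Kf M) N} {v : G}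
  {ξ : IrrCharacter N} {m : ℕ} [NeZero m] {x : P.subgroupOf N} {s : ZMod m} {r : ℕ}

/-- the number of fusion classes away from the cyclic subgroup -/
noncomputable def cB {M : Ideal AlgInt} [M.IsMaximal] (P : Subgroup G) (e : MonoidAlgebra (Kf M) G) {N : Subgroup G}
    (m : ℕ) [NeZero m] (x : P.subgroupOf N) : ℚ :=
  letI := Fintype.ofFinite P
  ∑ y : P, if ∃ i : ZMod m, xg x i = y then 0 else
    (if ∃ i : ZMod m, Fs 2 P e y (xg x i) then 0 else ((nF 2 P e y : ℚ))⁻¹)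

omit hMm hchar in
theorem out_sub (S : QS m x s r) (hPN : P ≤ N) {y : P} (hy : ¬ ∃ i : ZMod m, xg x i = y) :
    (⟨⟨(y : G), hPN y.2⟩, y.2⟩ : P.subgroupOf N) ∉ Subgroup.zpowers x := by
  intro h
  obtain ⟨i, hi⟩ := (mem_zpowers_iff S.hx).1 h
  apply hy
  refine ⟨i, ?_⟩
  have := congrArg (fun w : P.subgroupOf N => ((w : N) : G)) hi
  exact this

omit hMm hchar in
theorem card_out_P (S : QS m x s r) (hPN : P ≤ N) {y : P} (hy : ¬ ∃ i : ZMod m, xg x i = y) :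
    Nat.card (P ⊓ Cc (y : G) : Subgroup G) = 4 := by
  have h1 := S.card_out (out_sub S hPN hy)
  rw [← h1]
  exact card_inf_sub hPN (⟨⟨(y : G), hPN y.2⟩, y.2⟩ : P.subgroupOf N)

omit hMm hchar in
theorem pow_four_P (S : QS m x s r) (hPN : P ≤ N) {y : P} (hy : ¬ ∃ i : ZMod m, xg x i = y) :
    (y : G) ^ 4 = 1 := by
  have h1 := S.sq_out (out_sub S hPN hy)
  have h2 : ((⟨⟨(y : G), hPN y.2⟩, y.2⟩ : P.subgroupOf N) * ⟨⟨(y : G), hPN y.2⟩, y.2⟩) *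
      ((⟨⟨(y : G), hPN y.2⟩, y.2⟩ : P.subgroupOf N) * ⟨⟨(y : G), hPN y.2⟩, y.2⟩) = 1 := by
    rcases h1 with h | h
    · rw [h, one_mul]
    · rw [h, S.z_sq]
  have h3 := congrArg (fun w : P.subgroupOf N => ((w : N) : G)) h2
  have h4 : ((y : G) * y) * ((y : G) * y) = 1 := h3
  calc (y : G) ^ 4 = ((y : G) * y) * ((y : G) * y) := by
        rw [show (4 : ℕ) = 2 + 2 from rfl, pow_add, pow_two]
    _ = 1 := h4

namespace LD

variable (L : LD 2 B P e N b e' v ξ) (S : QS m x s r) (hv : xg x ((m / 4 : ℕ) : ZMod m) = v)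
include L S hv

/-- contributions of elements away from the cyclic subgroup -/
theorem CI_out {y : P} (hy : ¬ ∃ i : ZMod m, Fs 2 P e y (xg x i)) {χ : IrrCharacter G} (hχ : χ ∈ B) :
    4 * CI 2 (χ : G → ℂ) (χ : G → ℂ) y (L.ctx.fx y) = if blockHeight 2 B (χ : G → ℂ) = 0 then 1 else 0 := by
  have hM := L.ctx.mod
  have := Fintype.ofFinite (Cz (y : G))
  have := Fintype.ofFinite G
  have hyX : ∀ y' : P, Fs 2 P e y y' → ¬ ∃ i : ZMod m, xg x i = y' := by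
    rintro y' hyy ⟨i, hi⟩
    exact hy ⟨i, by rw [hi]; exact hyy⟩
  have hyX0 := hyX y (Fs.refl L.ctx.pair y.2)
  obtain ⟨bb, hb⟩ := L.ctx.ple_bl y.2
  have hc4 : Nat.card (P ⊓ Cc (y : G) : Subgroup G) = 4 := card_out_P S L.le hyX0
  have hd4 : 2 ^ blockDefect 2 bb.1 = 4 := by
    rw [← hc4]
    apply L.ctx.defect_bl bb hb
    intro g hg
    have h1 : Fs 2 P e y (g * y * g⁻¹) := ⟨g, hg, rfl⟩
    rw [hc4]
    exact (card_out_P (y := ⟨g * y * g⁻¹, h1.right⟩) S L.le (hyX ⟨g * y * g⁻¹, h1.right⟩ h1)).le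
  have hd2 : blockDefect 2 bb.1 = 2 := by
    have : (2 : ℕ) ^ blockDefect 2 bb.1 = 2 ^ 2 := by rw [hd4]; norm_num
    exact Nat.pow_right_injective (le_refl 2) this
  have hind := L.ctx.ind_self y.2 bb hb
  obtain ⟨k, hk⟩ := PE_of_mem (p := 2) L.ctx.pair.1 y.2
  have hy1 : (y : G) ≠ 1 := by
    intro h
    apply hyX0
    exact ⟨0, by rw [xg_zero S, h]⟩
  have hrank : blockRank 2 bb.1 = 1 := by
    apply rank_central hM bb.2 hd2 (y := zz (y : G)) (fun g => zz_central (y : G) g)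
    · intro h
      exact hy1 (congrArg Subtype.val h)
    · exact ⟨k, by rw [← hk]; exact (Subgroup.orderOf_coe (zz (y : G))).symm⟩
  have hy4 := pow_four_P S L.le hyX0
  -- integrality
  have hint : ∀ χ : IrrCharacter G, ∃ n : ℤ, al 2 (y : G) bb.1 (χ : G → ℂ) (χ : G → ℂ) = n := fun χ =>
    Z_four (al_mem hM hy4 bb.2 χ χ) (al_conj _ _ _ _)
  choose a ha using hint
  have hnn : ∀ χ : IrrCharacter G, 0 ≤ a χ := by
    intro χ
    have h1 := al_idem hM hk hind (χ : G → ℂ) (χ : G → ℂ)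
    rw [hd2, ha] at h1
    have h2 : ∀ ψ : IrrCharacter G, al 2 (y : G) bb.1 (χ : G → ℂ) (ψ : G → ℂ) *
        al 2 (y : G) bb.1 (ψ : G → ℂ) (χ : G → ℂ) =
        ((Complex.normSq (al 2 (y : G) bb.1 (χ : G → ℂ) (ψ : G → ℂ)) : ℝ) : ℂ) := by
      intro ψ
      rw [← al_conj (y : G) bb.1 (χ : G → ℂ) (ψ : G → ℂ), Complex.mul_conj]
    rw [Finset.sum_congr rfl fun ψ _ => h2 ψ] at h1
    have h3 : ((∑ ψ ∈ fs B, Complex.normSq (al 2 (y : G) bb.1 (χ : G → ℂ) (ψ : G → ℂ)) : ℝ) : ℂ) =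
        ((4 * (a χ : ℝ) : ℝ) : ℂ) := by
      push_cast
      rw [h1]
      norm_num
    have h4 : (∑ ψ ∈ fs B, Complex.normSq (al 2 (y : G) bb.1 (χ : G → ℂ) (ψ : G → ℂ)) : ℝ) = 4 * (a χ : ℝ) :=
      Complex.ofReal_injective h3
    have h5 : (0 : ℝ) ≤ 4 * (a χ : ℝ) := by
      rw [← h4]
      exact Finset.sum_nonneg fun _ _ => Complex.normSq_nonneg _
    have h6 : (0 : ℝ) ≤ (a χ : ℝ) := by linarith
    exact_mod_cast h6
  have htr : ∑ χ ∈ fs B, a χ = 4 := by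
    have h1 := al_trace hM hk hind
    rw [hd2, hrank] at h1
    have h3 : ((∑ χ ∈ fs B, a χ : ℤ) : ℂ) = ((4 : ℤ) : ℂ) := by
      push_cast
      rw [← Finset.sum_congr rfl fun χ _ => ha χ, h1]
      norm_num
    exact_mod_cast h3
  have hpos : ∀ χ ∈ B, blockHeight 2 B (χ : G → ℂ) = 0 → 1 ≤ a χ := by
    intro χ hχ h0
    have : NeZero (2 ^ (k + 1)) := ⟨pow_ne_zero _ two_ne_zero⟩
    have h1 := al_ne_zero' hM hk hind hχ hχ h0 h0
    rw [ha] at h1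
    have h2 : a χ ≠ 0 := by
      intro h; apply h1; rw [h, Int.cast_zero]
    have := hnn χ
    omega
  have hval : ∀ χ ∈ fs B, a χ = if blockHeight 2 B (χ : G → ℂ) = 0 then 1 else 0 := by
    have h1 : ∑ χ ∈ fs B, (if blockHeight 2 B ((χ : IrrCharacter G) : G → ℂ) = 0 then (1 : ℤ) else 0) = 4 := by
      rw [← Finset.sum_filter, Finset.sum_const, nsmul_eq_mul, mul_one, L.card_H0 S hv]
      norm_num
    have h2 : ∀ χ ∈ fs B, (if blockHeight 2 B ((χ : IrrCharacter G) : G → ℂ) = 0 then (1 : ℤ) else 0) ≤ a χ := by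
      intro χ hχ
      split_ifs with h0
      · exact hpos χ (mem_fs.1 hχ) h0
      · exact hnn χ
    intro χ hχ
    have h3 := (Finset.sum_eq_sum_iff_of_le h2).1 (by rw [h1, htr]) χ hχ
    exact h3.symm
  have h1 := hval χ (mem_fs.2 hχ)
  rw [L.ctx.fx_eq hb, CI_eq]
  have h2 := ha χ
  rw [al_eq, hd2, h1] at h2
  have h3 : (4 : ℂ) = (((2 : ℕ) : ℂ)) ^ 2 := by norm_num
  rw [h3, h2]
  split_ifs <;> simp

set_option maxHeartbeats 4000000 in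
/-- the identity -/
theorem ident {χ : IrrCharacter G} (hχ : χ ∈ B) (h2 : 2 ∣ m) :
    (2 * m : ℂ) * (CI 2 (χ : G → ℂ) (χ : G → ℂ) (xg x (0 : ZMod m)) (L.ctx.fx ⟨_, xg_mem x (0 : ZMod m)⟩)) +
    (2 * m : ℂ) * (CI 2 (χ : G → ℂ) (χ : G → ℂ) (xg x ((m / 2 : ℕ) : ZMod m)) (L.ctx.fx ⟨_, xg_mem x ((m / 2 : ℕ) : ZMod m)⟩)) +
    2 * ((L.VV S (Ev h2) χ + L.VV S (Od h2) χ : ℤ) : ℂ) +
    (m / 2 : ℂ) * (cB P e m x : ℂ) * (if blockHeight 2 B (χ : G → ℂ) = 0 then 1 else 0) = 2 * m := by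
  have := Fintype.ofFinite G
  have := Fintype.ofFinite P
  have hm0 : (m : ℂ) ≠ 0 := Nat.cast_ne_zero.2 (NeZero.ne m)
  have h1 := inner_wt L.ctx hχ hχ (cw (m := m) 2 P e x) (fun x₀ => L.cw_sum S hv x₀)
  rw [χ.2.classInner_self] at h1
  set F : P → ℂ := fun y => CI 2 (χ : G → ℂ) (χ : G → ℂ) y (L.ctx.fx y) with hF
  -- split
  have h3 : ∑ y : P, cw (m := m) 2 P e x y * F y =
      ∑ y : P, (if ∃ i : ZMod m, xg x i = y then cw (m := m) 2 P e x y * F y else 0) +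
      ∑ y : P, (if ∃ i : ZMod m, xg x i = y then 0 else cw (m := m) 2 P e x y * F y) := by
    rw [← Finset.sum_add_distrib]
    refine Finset.sum_congr rfl fun y _ => ?_
    split_ifs
    · rw [add_zero]
    · rw [zero_add]
  have h4 : ∑ y : P, (if ∃ i : ZMod m, xg x i = y then 0 else cw (m := m) 2 P e x y * F y) =
      (1 / 4) * (cB P e m x : ℂ) * (if blockHeight 2 B (χ : G → ℂ) = 0 then 1 else 0) := by
    unfold cB
    have hf : (Fintype.ofFinite P) = ‹Fintype P› := Subsingleton.elim _ _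
    rw [hf]
    push_cast
    rw [mul_comm (1 / 4 : ℂ), mul_assoc, Finset.sum_mul]
    refine Finset.sum_congr rfl fun y _ => ?_
    by_cases hy : ∃ i : ZMod m, xg x i = y
    · rw [if_pos hy, if_pos hy, Rat.cast_zero, zero_mul]
    · rw [if_neg hy, if_neg hy]
      unfold cw
      rw [if_neg hy]
      by_cases hy2 : ∃ i : ZMod m, Fs 2 P e y (xg x i)
      · rw [if_pos hy2, if_pos hy2, Rat.cast_zero, zero_mul, zero_mul]
      · rw [if_neg hy2, if_neg hy2]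
        have h5 := L.CI_out S hv hy2 hχ
        have h6 : F y = (1 / 4) * (if blockHeight 2 B (χ : G → ℂ) = 0 then 1 else 0) := by
          rw [← h5]
          show CI 2 (χ : G → ℂ) (χ : G → ℂ) y (L.ctx.fx y) = _
          ring
        rw [h6]
        push_cast
        ring
  have h5 : ∑ y : P, (if ∃ i : ZMod m, xg x i = y then cw (m := m) 2 P e x y * F y else 0) =
      ∑ i : ZMod m, (if i = 0 ∨ i = ((m / 2 : ℕ) : ZMod m) then 1 else 2⁻¹) * F ⟨xg x i, xg_mem x i⟩ := by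
    rw [sum_P S]
    swap
    · intro y hy
      rw [if_neg]
      rintro ⟨i, hi⟩
      exact hy i hi
    refine Finset.sum_congr rfl fun i _ => ?_
    rw [if_pos ⟨i, rfl⟩]
    congr 1
    unfold cw
    rw [if_pos ⟨i, rfl⟩]
    by_cases hj : i = 0 ∨ i = ((m / 2 : ℕ) : ZMod m)
    · rw [if_pos hj, if_pos ((xg_sq S).2 hj)]
    · rw [if_neg hj, if_neg (fun h => hj ((xg_sq S).1 h))]
  set t : ZMod m → ℂ := fun i => tv 2 P e' ξ χ (xp x i) with ht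
  have h6 : ∀ i : ZMod m, ¬ (i = 0 ∨ i = ((m / 2 : ℕ) : ZMod m)) →
      F ⟨xg x i, xg_mem x i⟩ = (m : ℂ)⁻¹ * (t i * conj (t i)) := by
    intro i hi
    push Not at hi
    have h7 := L.CI_tv χ χ (xp x i) (v_mem S hv hi.1 hi.2)
    rw [card_inf_sub L.le (xp x i), S.card_in hi.1 hi.2] at h7
    rw [← h7, inv_mul_cancel_left₀ hm0]
    rfl
  have h7 : (m : ℂ)⁻¹ * ∑ i, t i * conj (t i) = ∑ a, ((L.nn S.toCyc2 χ a : ℂ)) ^ 2 := by
    have h8 : ∀ i, t i = hat (fun a => (L.nn S.toCyc2 χ a : ℂ)) i := by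
      intro i
      exact L.tv_xp S.toCyc2 χ i
    simp only [h8]
    rw [parseval]
    refine Finset.sum_congr rfl fun a _ => ?_
    rw [map_intCast, pow_two]
  have hne := (half_ne (two_dvd_m S.hr S.hm)).symm
  -- the sum over the cyclic group
  have h8 : ∑ i : ZMod m, (if i = 0 ∨ i = ((m / 2 : ℕ) : ZMod m) then 1 else 2⁻¹) * F ⟨xg x i, xg_mem x i⟩ =
      F ⟨xg x (0 : ZMod m), xg_mem x (0 : ZMod m)⟩ + F ⟨xg x ((m / 2 : ℕ) : ZMod m), xg_mem x ((m / 2 : ℕ) : ZMod m)⟩ +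
      2⁻¹ * ((m : ℂ)⁻¹ * ∑ i, t i * conj (t i) - (m : ℂ)⁻¹ * (t 0 * conj (t 0)) -
        (m : ℂ)⁻¹ * (t ((m / 2 : ℕ) : ZMod m) * conj (t ((m / 2 : ℕ) : ZMod m)))) := by
    have e1 : ∀ f : ZMod m → ℂ, ∑ i, f i = f 0 + f ((m / 2 : ℕ) : ZMod m) +
        ∑ i ∈ Finset.univ.filter (fun i : ZMod m => ¬ (i = 0 ∨ i = ((m / 2 : ℕ) : ZMod m))), f i := by
      intro f
      rw [← Finset.sum_filter_add_sum_filter_not Finset.univ (fun i : ZMod m => i = 0 ∨ i = ((m / 2 : ℕ) : ZMod m))]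
      congr 1
      have h4 : Finset.univ.filter (fun i : ZMod m => i = 0 ∨ i = ((m / 2 : ℕ) : ZMod m)) =
          {0, ((m / 2 : ℕ) : ZMod m)} := by
        ext a
        simp
      rw [h4, Finset.sum_pair hne]
    rw [e1, e1 (fun i => t i * conj (t i)), if_pos (Or.inl rfl), if_pos (Or.inr rfl)]
    have e2 : ∑ i ∈ Finset.univ.filter (fun i : ZMod m => ¬ (i = 0 ∨ i = ((m / 2 : ℕ) : ZMod m))),
        (if i = 0 ∨ i = ((m / 2 : ℕ) : ZMod m) then (1 : ℂ) else 2⁻¹) * F ⟨xg x i, xg_mem x i⟩ =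
        2⁻¹ * ((m : ℂ)⁻¹ * ∑ i ∈ Finset.univ.filter (fun i : ZMod m => ¬ (i = 0 ∨ i = ((m / 2 : ℕ) : ZMod m))),
          t i * conj (t i)) := by
      rw [Finset.mul_sum, Finset.mul_sum]
      refine Finset.sum_congr rfl fun i hi => ?_
      rw [Finset.mem_filter] at hi
      rw [if_neg hi.2, h6 i hi.2]
    rw [e2]
    ring
  have hT1 : t 0 = (L.T1 S χ : ℂ) := by
    rw [← L.tv_T1 S]
    simp only [ht]
    rw [xp_zero S.hx]
  have hT2 : t ((m / 2 : ℕ) : ZMod m) = (L.T2 S χ : ℂ) := L.tv_T2 S χ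
  have hcast : (((m : ℤ) / 2 : ℤ) : ℂ) = (m : ℂ) / 2 := by
    obtain ⟨c, hc⟩ := h2
    have : (m : ℤ) / 2 = c := by omega
    rw [this]
    have : (m : ℂ) = 2 * c := by rw [hc]; push_cast; rfl
    rw [this]
    push_cast
    field_simp
  have h9 : ∑ a, ((L.nn S.toCyc2 χ a : ℂ)) ^ 2 = ((∑ a ∈ Ev h2, L.nn S.toCyc2 χ a ^ 2 : ℤ) : ℂ) +
      ((∑ a ∈ Od h2, L.nn S.toCyc2 χ a ^ 2 : ℤ) : ℂ) := by
    push_cast
    exact (sum_Ev_Od h2 (fun a => ((L.nn S.toCyc2 χ a : ℂ)) ^ 2)).symm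
  rw [h3, h4, h5, h8, h7, hT1, hT2, h9, map_intCast, map_intCast, L.T1_eq S h2, L.T2_eq S h2] at h1
  have hF0 : CI 2 (χ : G → ℂ) (χ : G → ℂ) (xg x (0 : ZMod m)) (L.ctx.fx ⟨_, xg_mem x (0 : ZMod m)⟩) = F ⟨xg x (0 : ZMod m), xg_mem x (0 : ZMod m)⟩ := rfl
  have hF1 : CI 2 (χ : G → ℂ) (χ : G → ℂ) (xg x ((m / 2 : ℕ) : ZMod m)) (L.ctx.fx ⟨_, xg_mem x ((m / 2 : ℕ) : ZMod m)⟩) =
    F ⟨xg x ((m / 2 : ℕ) : ZMod m), xg_mem x ((m / 2 : ℕ) : ZMod m)⟩ := rfl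
  rw [hF0, hF1]
  unfold VV
  push_cast [hcast] at h1 ⊢
  have key : ∀ A Z Se So E O c w m' : ℂ, m' ≠ 0 →
      1 = A + Z + 2⁻¹ * (Se + So - m'⁻¹ * ((E + O) * (E + O)) - m'⁻¹ * ((E - O) * (E - O))) + 1 / 4 * c * w →
      2 * m' * A + 2 * m' * Z + 2 * (m' / 2 * Se - E ^ 2 + (m' / 2 * So - O ^ 2)) + m' / 2 * c * w = 2 * m' := by
    intro A Z Se So E O c w m' hm' h
    have h10 : 2 * m' * A + 2 * m' * Z + 2 * (m' / 2 * Se - E ^ 2 + (m' / 2 * So - O ^ 2)) + m' / 2 * c * w =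
        2 * m' * (A + Z + 2⁻¹ * (Se + So - m'⁻¹ * ((E + O) * (E + O)) - m'⁻¹ * ((E - O) * (E - O))) + 1 / 4 * c * w) := by
      field_simp
      ring
    rw [h10, ← h, mul_one]
  exact key _ _ _ _ _ _ _ _ _ hm0 h1

end LD

end Cfsg.Agent.Lib.Tame
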