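import Mathlib
import Cfsg.Agent.Lib.Components
import Cfsg.Agent.Lib.Layer
import Cfsg.Agent.Lib.H53Sub8b

/-! Subgroups of symmetric groups with quasisimple `F*` containing 3-cycles (helper63, plan by helper49). -/

set_option autoImplicit false
open scoped commutatorElement Pointwise

namespace Cfsg.Agent.Lib.ThreeCycGen

open Subgroup Equiv Equiv.Perm MulAction Cfsg.Agent.Lib Cfsg

variable {α : Type*} [Fintype α] [DecidableEq α]

/-- a transitive group generated by 3-cycles is primitive. -/
theorem isPreprimitive_of_three {N : Subgroup (Perm α)} {T : Set (Perm α)} (hT : ∀ t ∈ T, t.IsThreeCycle)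
    (hN : N = closure T) (htr : IsPretransitive N α) : IsPreprimitive N α := by
  refine { isTrivialBlock_of_isBlock := ?_ }
  intro B hB
  by_cases hs : B.Subsingleton
  · exact Or.inl hs
  · right
    rw [Set.not_subsingleton_iff] at hs
    obtain ⟨x, hx, y, hy, hxy⟩ := hs
    have hst : ∀ t ∈ T, t • B = B := by
      intro t ht
      have htN : t ∈ N := by rw [hN]; exact subset_closure ht
      by_contra hne
      have hne' : (⟨t, htN⟩ : N) • B ≠ (1 : N) • B := by rw [one_smul]; exact hne
      have hd := hB hne'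
      rw [one_smul] at hd
      have hout : ∀ b ∈ B, t b ∉ B := by
        intro b hb htb
        have h1 : t b ∈ (⟨t, htN⟩ : N) • B := ⟨b, hb, rfl⟩
        exact Set.disjoint_left.1 hd h1 htb
      have hsx : x ∈ t.support := by
        rw [mem_support]
        intro h; exact hout x hx (by rw [h]; exact hx)
      have hsy : y ∈ t.support := by
        rw [mem_support]
        intro h; exact hout y hy (by rw [h]; exact hy)
      have h2 := (hT t ht).support_eq_iff_mem_support.2 hsx
      rw [h2, Finset.mem_insert, Finset.mem_insert, Finset.mem_singleton] at hsy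
      rcases hsy with h | h | h
      · exact hxy h.symm
      · exact hout x hx (by rw [← h]; exact hy)
      · apply hout y hy
        rw [h]
        have h3 : t (t (t x)) = (t ^ 3) x := by simp [pow_succ]
        rw [h3, ← (hT t ht).orderOf, pow_orderOf_eq_one]
        exact hx
    have hall : ∀ g ∈ N, g • B = B := by
      have h1 : N ≤ MulAction.stabilizer (Perm α) B := by
        rw [hN, closure_le]
        intro t ht
        exact hst t ht
      intro g hg
      exact h1 hg
    rw [Set.eq_univ_iff_forall]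
    intro z
    obtain ⟨g, hg⟩ := htr.exists_smul_eq x z
    have h1 := hall g g.2
    rw [← h1, ← hg]
    exact ⟨x, hx, rfl⟩

/-- restricting a subgroup generated by 3-cycles to an orbit. -/
theorem restrict {L : Subgroup (Perm α)} {s : Perm α} (hs : s.IsThreeCycle) (hsL : ⁅L, zpowers s⁆ = L)
    (hperf : ⁅L, L⁆ = L) (hne : L ≠ ⊥) (hsn : s ∈ normalizer (L : Set (Perm α)))
    (hsimp : ∀ N : Subgroup (Perm α), N ≤ L → L ≤ normalizer (N : Set (Perm α)) →
      N ≤ centralizer (L : Set (Perm α)) ∨ N = L) :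
    s ∈ L ∧ ∃ D : Finset α, (∀ g ∈ L, ∀ x, x ∉ D → g x = x) ∧ Nonempty (L ≃* alternatingGroup D) := by
  classical
  let T : Set (Perm α) := {t | ∃ g ∈ L, t = g * s * g⁻¹}
  set N : Subgroup (Perm α) := closure T with hN
  have hsN : s ∈ N := Subgroup.subset_closure (show s ∈ T from ⟨1, one_mem _, by simp⟩)
  have hT3 : ∀ t ∈ T, t.IsThreeCycle := by
    rintro _ ⟨g, -, rfl⟩
    rw [← card_support_eq_three_iff, card_support_conj, hs.card_support]
  have hLN : L ≤ N := by
    rw [← hsL, commutator_le]
    intro g hg t ht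
    obtain ⟨i, rfl⟩ := mem_zpowers_iff.1 ht
    have h1 : g * s ^ i * g⁻¹ ∈ N := by
      have h2 : g * s ^ i * g⁻¹ = (g * s * g⁻¹) ^ i := by
        rw [← MulAut.conj_apply, map_zpow, MulAut.conj_apply]
      rw [h2]
      exact zpow_mem (Subgroup.subset_closure (show g * s * g⁻¹ ∈ T from ⟨g, hg, rfl⟩)) i
    rw [commutatorElement_def]
    exact mul_mem h1 (inv_mem (zpow_mem hsN i))
  have hNL : N ≤ normalizer (L : Set (Perm α)) := by
    rw [hN, closure_le]
    rintro _ ⟨g, hg, rfl⟩
    exact mul_mem (mul_mem (le_normalizer hg) hsn) (inv_mem (le_normalizer hg))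
  -- the orbit
  obtain ⟨a, ha⟩ : ∃ a, a ∈ s.support := by
    have h1 : s.support.Nonempty := by
      rw [← Finset.card_pos, hs.card_support]; norm_num
    exact h1
  let D : Finset α := Finset.univ.filter fun x => ∃ g ∈ N, g a = x
  have hDmem : ∀ x, x ∈ D ↔ ∃ g ∈ N, g a = x := fun x => by simp [D]
  have hDN : ∀ g ∈ N, ∀ x ∈ D, g x ∈ D := by
    intro g hg x hx
    obtain ⟨h, hh, rfl⟩ := (hDmem x).1 hx
    exact (hDmem _).2 ⟨g * h, mul_mem hg hh, rfl⟩
  have hsD : ∀ x ∈ s.support, x ∈ D := by
    intro x hx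
    have h1 := hs.support_eq_iff_mem_support.2 ha
    rw [h1, Finset.mem_insert, Finset.mem_insert, Finset.mem_singleton] at hx
    rcases hx with h | h | h
    · exact (hDmem x).2 ⟨1, one_mem _, by rw [h]; rfl⟩
    · exact (hDmem x).2 ⟨s, hsN, h.symm⟩
    · exact (hDmem x).2 ⟨s * s, mul_mem hsN hsN, by rw [h]; rfl⟩
  have hTD : ∀ t ∈ T, ∀ x ∈ t.support, x ∈ D := by
    rintro _ ⟨g, hg, rfl⟩ x hx
    rw [support_conj, Finset.mem_map] at hx
    obtain ⟨y, hy, rfl⟩ := hx
    exact hDN g (hLN hg) y (hsD y hy)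
  have hfix : ∀ g ∈ N, ∀ x, x ∉ D → g x = x := by
    intro g hg x hx
    have h1 : N ≤ MulAction.stabilizer (Perm α) x := by
      rw [hN, closure_le]
      intro t ht
      show t x = x
      by_contra h
      exact hx (hTD t ht x (mem_support.2 h))
    exact h1 hg
  -- the groups on `D`
  let ι : Perm D →* Perm α := ofSubtype
  have hι : Function.Injective ι := ofSubtype_injective
  have hrange : N ≤ ι.range := by
    intro g hg
    show g ∈ (ofSubtype : Perm D →* Perm α).range
    rw [mem_range_ofSubtype_iff]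
    intro x hx
    by_contra h
    exact (mem_support.1 hx) (hfix g hg x h)
  set N' : Subgroup (Perm D) := N.comap ι with hN'
  set L' : Subgroup (Perm D) := L.comap ι with hL'
  have hNmap : N'.map ι = N := map_comap_eq_self hrange
  have hLmap : L'.map ι = L := map_comap_eq_self (hLN.trans hrange)
  have hgen : N' = closure (ι ⁻¹' T) := by
    apply Subgroup.map_injective hι
    rw [hNmap, MonoidHom.map_closure, Set.image_preimage_eq_of_subset, hN]
    intro t ht
    exact hrange (subset_closure ht)
  have hT3' : ∀ t ∈ ι ⁻¹' T, t.IsThreeCycle := by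
    intro t ht
    have h1 := hT3 _ ht
    rw [IsThreeCycle] at h1 ⊢
    rw [← h1]
    exact (cycleType_ofSubtype (g := t)).symm
  have htr : IsPretransitive N' D := by
    constructor
    intro x y
    obtain ⟨g, hg, hgx⟩ := (hDmem x).1 x.2
    obtain ⟨h, hh, hhy⟩ := (hDmem y).1 y.2
    have hk : h * g⁻¹ ∈ N := mul_mem hh (inv_mem hg)
    obtain ⟨k, hk'⟩ := hrange hk
    refine ⟨⟨k, ?_⟩, ?_⟩
    · rw [hN', mem_comap, hk']; exact hk
    · apply Subtype.ext
      show ((k x : D) : α) = y
      have h1 : ι k x = (k x : D) := ofSubtype_apply_coe k x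
      rw [← h1, hk', ← hgx, ← hhy]
      simp
  have hprim := isPreprimitive_of_three hT3' hgen htr
  obtain ⟨s', hs'⟩ := hrange hsN
  have hs'T : s' ∈ ι ⁻¹' T := by
    rw [Set.mem_preimage, hs']; exact ⟨1, one_mem _, by simp⟩
  have hs'3 := hT3' s' hs'T
  have hs'N : s' ∈ N' := by rw [hN', mem_comap, hs']; exact hsN
  have hAN : alternatingGroup D ≤ N' := alternatingGroup_le_of_isPreprimitive_of_isThreeCycle_mem hprim hs'3 hs'N
  have hNA : N' ≤ alternatingGroup D := by
    rw [hgen, closure_le]
    intro t ht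
    exact (hT3' t ht).mem_alternatingGroup
  have hL'perf : ⁅L', L'⁆ = L' := by
    apply Subgroup.map_injective hι
    rw [map_commutator, hLmap, hperf]
  have hL'ne : L' ≠ ⊥ := by
    intro h
    apply hne
    rw [← hLmap, h, Subgroup.map_bot]
  have hL'N' : L' ≤ N' := comap_mono hLN
  have hnorm : N' ≤ normalizer (L' : Set (Perm D)) := by
    intro g hg
    haveI := Fintype.ofFinite L'
    refine mem_normalizer_fintype fun x hx => ?_
    show ι (g * x * g⁻¹) ∈ L
    rw [map_mul, map_mul, map_inv]
    exact (mem_normalizer_iff.1 (hNL hg) _).1 hx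
  -- `|D| ≥ 5`
  have hD5 : 5 ≤ Nat.card D := by
    by_contra hcon
    have hcard : Nat.card (Perm D) ∣ 24 := by
      rw [Nat.card_perm]
      exact Nat.factorial_dvd_factorial (by omega : Nat.card D ≤ 4)
    have h1 : Group.IsSolvable (Perm D) := by
      have h2 := Nat.le_of_dvd (by norm_num) hcard
      apply H53Sub8b.solvable_of_card
      · intro h; have := Nat.le_of_dvd Nat.card_pos h; omega
      · omega
    have h2 : Group.IsSolvable L' := inferInstance
    have h3 : commutator L' = ⊤ := by
      apply Subgroup.map_injective L'.subtype_injective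
      rw [_root_.commutator_def, map_commutator, ← MonoidHom.range_eq_map, range_subtype, hL'perf]
    haveI : Nontrivial L' := (Subgroup.nontrivial_iff_ne_bot L').2 hL'ne
    exact (Group.IsSolvable.commutator_lt_top_of_nontrivial L').ne h3
  have hcomap : L' = alternatingGroup D := by
    have hs := alternatingGroup.isSimpleGroup hD5
    have h1 : (L'.subgroupOf (alternatingGroup D)).Normal := by
      apply (normal_subgroupOf_iff_le_normalizer (hL'N'.trans hNA)).2
      exact hAN.trans hnorm
    rcases h1.eq_bot_or_eq_top with h2 | h2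
    · exfalso
      apply hL'ne
      rw [subgroupOf_eq_bot] at h2
      rw [← inf_eq_left.2 (hL'N'.trans hNA)]
      exact disjoint_iff.1 h2
    · exact le_antisymm (hL'N'.trans hNA) (subgroupOf_eq_top.1 h2)
  refine ⟨?_, D, fun g hg => hfix g (hLN hg), ?_⟩
  · have h1 : s' ∈ L' := by rw [hcomap]; exact hs'3.mem_alternatingGroup
    rw [hL', mem_comap, hs'] at h1
    exact h1
  · have e1 : L' ≃* L := (L'.equivMapOfInjective ι hι).trans (MulEquiv.subgroupCongr hLmap)
    rw [hcomap] at e1
    exact ⟨e1.symm⟩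

/-- a 3-cycle does not centralise `L`. -/
theorem not_mem_centralizer {L : Subgroup (Perm α)} {s : Perm α} (hs : s.IsThreeCycle) (hperf : ⁅L, L⁆ = L)
    (hsL : s ∈ centralizer (L : Set (Perm α)) → s ∈ L) : s ∉ centralizer (L : Set (Perm α)) := by
  intro hsc
  have hc : ∀ g ∈ L, ∀ x, g (s x) = s (g x) := by
    intro g hg x
    have := mem_centralizer_iff.1 hsc g hg
    calc g (s x) = (g * s) x := rfl
      _ = (s * g) x := by rw [this]
      _ = s (g x) := rfl
  have hcz : ∀ g ∈ L, ∀ (i : ℤ) x, g ((s ^ i) x) = (s ^ i) (g x) := by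
    intro g hg i x
    have h1 : g * s ^ i = s ^ i * g := by
      have h2 : Commute g s := mem_centralizer_iff.1 hsc g hg
      exact (h2.zpow_right i).eq
    calc g ((s ^ i) x) = (g * s ^ i) x := rfl
      _ = (s ^ i * g) x := by rw [h1]
      _ = (s ^ i) (g x) := rfl
  have hsupp : ∀ g ∈ L, ∀ x ∈ s.support, g x ∈ s.support := by
    intro g hg x hx
    rw [mem_support] at hx ⊢
    rw [← hc g hg]
    exact fun h => hx (g.injective h)
  have hcomm : ∀ g ∈ L, ∀ h ∈ L, ∀ b ∈ s.support, g (h b) = h (g b) := by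
    intro g hg h hh b hb
    obtain ⟨i, hi⟩ := hs.isCycle.exists_zpow_eq (mem_support.1 hb) (mem_support.1 (hsupp g hg b hb))
    obtain ⟨j, hj⟩ := hs.isCycle.exists_zpow_eq (mem_support.1 hb) (mem_support.1 (hsupp h hh b hb))
    rw [← hi, ← hj, hcz g hg, hcz h hh, ← hi, ← hj]
    rw [← Perm.mul_apply, ← Perm.mul_apply, ← zpow_add, ← zpow_add, add_comm]
  obtain ⟨a, ha⟩ : ∃ a, a ∈ s.support := by
    have h1 : s.support.Nonempty := by
      rw [← Finset.card_pos, hs.card_support]; norm_num
    exact h1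
  have hle : L ≤ MulAction.stabilizer (Perm α) a := by
    rw [← hperf, commutator_le]
    intro g hg h hh
    show ⁅g, h⁆ a = a
    rw [commutatorElement_def]
    have h1 : g⁻¹ (h⁻¹ a) = h⁻¹ (g⁻¹ a) := hcomm g⁻¹ (inv_mem hg) h⁻¹ (inv_mem hh) a ha
    show g (h (g⁻¹ (h⁻¹ a))) = a
    rw [h1]
    simp
  exact (mem_support.1 ha) (hle (hsL hsc))

/-- the family of disjoint 3-cycles. -/
theorem exists_family (n : ℕ) : ∃ (Q : Subgroup (Perm (Fin n))) (X : Finset (Fin n)), IsPGroup 3 Q ∧ n ≤ X.card + 2 ∧
    ∀ x ∈ X, ∃ s ∈ Q, s.IsThreeCycle ∧ x ∈ s.support := by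
  classical
  let e : Fin (n / 3) → Fin 3 → Fin n := fun i j => ⟨3 * i + j, by have := i.2; have := j.2; omega⟩
  have he : ∀ i j k l, e i j = e k l ↔ i = k ∧ j = l := by
    intro i j k l
    constructor
    · intro h
      have h1 : 3 * (i : ℕ) + j = 3 * k + l := congrArg Fin.val h
      have := j.2; have := l.2
      exact ⟨Fin.ext (by omega), Fin.ext (by omega)⟩
    · rintro ⟨rfl, rfl⟩; rfl
  let c : Fin (n / 3) → Perm (Fin n) := fun i => swap (e i 0) (e i 1) * swap (e i 0) (e i 2)
  have hc3 : ∀ i, (c i).IsThreeCycle := by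
    intro i
    apply isThreeCycle_swap_mul_swap_same
    · rw [Ne, he]; simp
    · rw [Ne, he]; simp
    · rw [Ne, he]; simp
  have hcfix : ∀ i x, (∀ j, x ≠ e i j) → c i x = x := by
    intro i x hx
    show swap (e i 0) (e i 1) (swap (e i 0) (e i 2) x) = x
    rw [swap_apply_of_ne_of_ne (hx 0) (hx 2), swap_apply_of_ne_of_ne (hx 0) (hx 1)]
  have hcmove : ∀ i j, e i j ∈ (c i).support := by
    have h1 : ∀ i, e i 0 ∈ (c i).support := by
      intro i
      rw [mem_support]
      show swap (e i 0) (e i 1) (swap (e i 0) (e i 2) (e i 0)) ≠ e i 0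
      rw [swap_apply_left, swap_apply_of_ne_of_ne, Ne, he]
      · simp
      · rw [Ne, he]; simp
      · rw [Ne, he]; simp
    have h2 : ∀ i, c i (e i 0) = e i 2 := by
      intro i
      show swap (e i 0) (e i 1) (swap (e i 0) (e i 2) (e i 0)) = e i 2
      rw [swap_apply_left, swap_apply_of_ne_of_ne]
      · rw [Ne, he]; simp
      · rw [Ne, he]; simp
    have h3 : ∀ i, c i (e i 2) = e i 1 := by
      intro i
      show swap (e i 0) (e i 1) (swap (e i 0) (e i 2) (e i 2)) = e i 1
      rw [swap_apply_right, swap_apply_left]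
    intro i j
    fin_cases j
    · exact h1 i
    · show e i 1 ∈ (c i).support
      rw [← h3, ← h2, Perm.apply_mem_support, Perm.apply_mem_support]; exact h1 i
    · show e i 2 ∈ (c i).support
      rw [← h2, Perm.apply_mem_support]; exact h1 i
  have hcomm : ∀ i k, c i * c k = c k * c i := by
    intro i k
    by_cases hik : i = k
    · rw [hik]
    · apply (Perm.Disjoint.commute ?_).eq
      intro x
      by_cases hx : ∃ j, x = e i j
      · obtain ⟨j, rfl⟩ := hx
        right
        apply hcfix
        intro l h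
        exact hik ((he _ _ _ _).1 h).1
      · left
        apply hcfix
        intro j h; exact hx ⟨j, h⟩
  let S : Set (Perm (Fin n)) := Set.range c
  have hcl : ∀ x ∈ closure S, ∀ y ∈ closure S, x * y = y * x := by
    have h3 : S ⊆ centralizer S := by
      rintro _ ⟨i, rfl⟩
      rw [SetLike.mem_coe, mem_centralizer_iff]
      rintro _ ⟨k, rfl⟩
      exact hcomm k i
    have h6 : closure S ≤ centralizer S := (closure_le _).2 h3
    have h7 : S ⊆ centralizer (closure S : Set (Perm (Fin n))) := by
      intro s hs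
      rw [SetLike.mem_coe, mem_centralizer_iff]
      intro g hg
      exact (mem_centralizer_iff.1 (h6 hg) s hs).symm
    have h8 : closure S ≤ centralizer (closure S : Set (Perm (Fin n))) := (closure_le _).2 h7
    intro a ha b hb
    exact mem_centralizer_iff.1 (h8 hb) a ha
  have hexp : ∀ x ∈ closure S, x ^ 3 = 1 := by
    intro x hx
    refine closure_induction (p := fun x _ => x ^ 3 = 1) ?_ ?_ ?_ ?_ hx
    · rintro _ ⟨i, rfl⟩
      rw [← (hc3 i).orderOf, pow_orderOf_eq_one]
    · exact one_pow _
    · intro x y hx hy hx3 hy3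
      have h : Commute x y := hcl x hx y hy
      rw [h.mul_pow, hx3, hy3, one_mul]
    · intro x hx hx3
      rw [inv_pow, hx3, inv_one]
  let X : Finset (Fin n) := Finset.univ.image fun p : Fin (n / 3) × Fin 3 => e p.1 p.2
  refine ⟨closure S, X, ?_, ?_, ?_⟩
  · intro x
    refine ⟨1, ?_⟩
    rw [pow_one]
    exact Subtype.ext (hexp x x.2)
  · have h1 : X.card = 3 * (n / 3) := by
      rw [Finset.card_image_of_injective]
      · simp [mul_comm]
      · rintro ⟨i, j⟩ ⟨k, l⟩ h
        obtain ⟨h1, h2⟩ := (he _ _ _ _).1 h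
        exact Prod.ext h1 h2
    omega
  · intro x hx
    obtain ⟨⟨i, j⟩, -, rfl⟩ := Finset.mem_image.1 hx
    exact ⟨c i, Subgroup.subset_closure ⟨i, rfl⟩, hc3 i, hcmove i j⟩

end Cfsg.Agent.Lib.ThreeCycGen
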