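import Cfsg.Agent.Lib.BFull
import Cfsg.Agent.Lib.Taketa
import Cfsg.Agent.Lib.RelDeg4
import Cfsg.Agent.Lib.H15BergerA
import Cfsg.Agent.Lib.H76Ker
import Cfsg.Agent.Lib.MGroups
import Cfsg.Agent.S4456
import Cfsg.Agent.Lib.CharMisc
import Cfsg.Agent.Lib.MinNonNilp
import Cfsg.Agent.Lib.UniqueInvolution

/-!
# Groups with at most three character degrees (helper80)
-/

set_option autoImplicit false
set_option linter.all false

namespace Cfsg.Agent.Lib.ThreeDeg

open Cfsg Subgroup Module Cfsg.Agent.Lib Cfsg.Agent.Lib.CharBasic Cfsg.Agent.Lib.Clifford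
  Cfsg.Agent.Lib.CliffordCorr Cfsg.Agent.Lib.TwoDeg
open scoped ComplexConjugate Pointwise commutatorElement

universe u

variable {G : Type u} [Group G]

/-- at most three degrees -/
def Three (a b : ℕ) (G : Type u) [Group G] : Prop :=
  ∀ χ : G → ℂ, IsIrrCharacter G χ → χ 1 = 1 ∨ χ 1 = (a : ℂ) ∨ χ 1 = (b : ℂ)

theorem Three.quot {a b : ℕ} (h : Three a b G) (N : Subgroup G) [N.Normal] : Three a b (G ⧸ N) :=
  fun χ hχ => h _ (hχ.inflate N)

theorem Three.symm {a b : ℕ} (h : Three a b G) : Three b a G := fun χ hχ => by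
  rcases h χ hχ with h1 | h1 | h1
  · exact Or.inl h1
  · exact Or.inr (Or.inr h1)
  · exact Or.inr (Or.inl h1)

theorem cI_comm [Fintype G] {φ χ : G → ℂ} (h : classInner φ χ ≠ 0) : classInner χ φ ≠ 0 := by
  intro h'
  apply h
  rw [← conj_classInner, h', map_zero]

/-- A perfect normal subgroup `N` such that `p` divides all degrees over `N` has order prime to `p`. -/
theorem not_dvd_of_perfect [Finite G] {p : ℕ} [hp : Fact p.Prime] (N : Subgroup G) [hN : N.Normal]
    (hperf : ⁅N, N⁆ = N)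
    (h : ∀ χ : IrrCharacter G, ¬ N ≤ GalConj.K χ → ∀ n : ℕ, (χ : G → ℂ) 1 = n → p ∣ n) :
    ¬ p ∣ Nat.card N := by
  classical
  letI := Fintype.ofFinite G
  obtain ⟨P⟩ : Nonempty (Sylow p G) := inferInstance
  obtain ⟨L, hL⟩ : ∃ L : Subgroup G, L = N ⊔ P := ⟨_, rfl⟩
  letI := Fintype.ofFinite L
  have hNL : N ≤ L := by rw [hL]; exact le_sup_left
  have hLi : ¬ p ∣ L.index := fun h' =>
    P.not_dvd_index (h'.trans (Subgroup.index_dvd_of_le (by rw [hL]; exact le_sup_right)))
  have hquo : IsPGroup p (L ⧸ N.subgroupOf L) := by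
    have hPL : (P : Subgroup G) ≤ L := by rw [hL]; exact le_sup_right
    refine IsPGroup.of_surjective P.2 ((QuotientGroup.mk' (N.subgroupOf L)).comp (Subgroup.inclusion hPL)) ?_
    intro q
    obtain ⟨⟨g, hg⟩, rfl⟩ := QuotientGroup.mk_surjective q
    have hg' := hg
    rw [hL] at hg'
    obtain ⟨k, hk, n, hn, rfl⟩ := Subgroup.mem_sup_of_normal_left.1 hg'
    refine ⟨⟨n, hn⟩, ?_⟩
    rw [MonoidHom.comp_apply, QuotientGroup.mk'_apply]
    have h1 : (⟨k * n, hg⟩ : L) = ⟨k, hNL hk⟩ * Subgroup.inclusion hPL ⟨n, hn⟩ := rfl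
    rw [h1, QuotientGroup.mk_mul]
    have h2 : QuotientGroup.mk (s := N.subgroupOf L) (⟨k, hNL hk⟩ : L) = 1 :=
      (QuotientGroup.eq_one_iff _).2 hk
    rw [h2, one_mul]
  have hLlin : ∀ χ : L → ℂ, IsIrrCharacter L χ → ∀ n : ℕ, χ 1 = n → ¬ p ∣ n → n = 1 := by
    intro χ hχ n hn hpn
    have h1 : IsCharacter G (indFun L χ) := IsCharacter.indFun L hχ.isCharacter
    have h2 : indFun L χ 1 = ((L.index * n : ℕ) : ℂ) := by
      rw [IndFun.indFun_one, hn]; push_cast; rfl
    obtain ⟨ψ, hψ, hψ1, m, hm, hpm⟩ := PDegreeNC.exists_irr_not_dvd h1 h2 (by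
      intro h'
      rcases hp.out.dvd_mul.1 h' with h3 | h3
      · exact hLi h3
      · exact hpn h3)
    have hNψ : N ≤ GalConj.K ⟨ψ, hψ⟩ := by
      by_contra hcon
      exact hpm (h ⟨ψ, hψ⟩ hcon m hm)
    rw [IndFun.frobenius_reciprocity L χ ψ hψ.isClassFunction] at hψ1
    have h3 : classInner (fun x : L => ψ x) χ ≠ 0 := cI_comm hψ1
    have h4 : ∀ x ∈ N.subgroupOf L, χ x = χ 1 := by
      intro x hx
      apply Garrison.ker_constituent (hψ.isCharacter.restrict L) hχ h3
      exact GalConj.mem_K.1 (hNψ hx)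
    obtain ⟨β, hβ, hβχ⟩ := hχ.deflate (N.subgroupOf L) h4
    have h5 : n ∣ Nat.card (L ⧸ N.subgroupOf L) := CharApps.irr_degree_dvd_card hβ (by
      rw [← hn, ← hβχ 1]; rfl)
    obtain ⟨k, hk⟩ := IsPGroup.iff_card.1 hquo
    rw [hk, Nat.dvd_prime_pow hp.out] at h5
    obtain ⟨j, -, rfl⟩ := h5
    rcases Nat.eq_zero_or_pos j with rfl | hj
    · rfl
    · exact absurd (dvd_pow_self p hj.ne') hpn
  obtain ⟨M, hM, hMc, k, hMi⟩ := Cfsg.Agent.S4456.result (G := L) p hp.out (by
    intro χ hχ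
    by_contra hpd
    exact hχ (hLlin χ χ.2 _ (BlockDeg.charDegree_cast_irr χ).symm hpd))
  have hQ : IsPGroup p (L ⧸ M) := IsPGroup.of_card (n := k) hMi
  have hs : Group.IsSolvable (L ⧸ M) := by
    haveI : Group.IsNilpotent (L ⧸ M) := hQ.isNilpotent
    infer_instance
  have hA : ⁅N.subgroupOf L, N.subgroupOf L⁆ = N.subgroupOf L := by
    apply Subgroup.map_injective L.subtype_injective
    rw [Subgroup.map_commutator, Subgroup.map_subgroupOf_eq_of_le hNL, hperf]
  have hle : N.subgroupOf L ≤ M := by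
    have h1 : (N.subgroupOf L).map (QuotientGroup.mk' M) = ⊥ := by
      by_contra hne
      have h2 := Group.IsSolvable.commutator_lt_of_ne_bot hne
      rw [← Subgroup.map_commutator, hA] at h2
      exact lt_irrefl _ h2
    rw [Subgroup.map_eq_bot_iff, QuotientGroup.ker_mk'] at h1
    exact h1
  intro hd
  have h1 : Nat.card (N.subgroupOf L) = Nat.card N :=
    Nat.card_congr (Subgroup.subgroupOfEquivOfLe hNL).toEquiv
  have h2 : p ∣ Nat.card M := by
    have := Subgroup.card_dvd_of_le hle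
    rw [h1] at this
    exact hd.trans this
  exact (hp.out.coprime_iff_not_dvd.1 hMc.symm) h2

/-- not all characters over a perfect normal subgroup have the same degree -/
theorem exists_deg_ne [Finite G] (N : Subgroup G) [hN : N.Normal] (hperf : ⁅N, N⁆ = N) (hne : N ≠ ⊥) (b : ℕ) :
    ∃ χ : IrrCharacter G, ¬ N ≤ GalConj.K χ ∧ (χ : G → ℂ) 1 ≠ b := by
  classical
  letI := Fintype.ofFinite G
  letI := Fintype.ofFinite N
  by_contra hcon
  push Not at hcon
  have hnab : ¬ ∀ θ : N → ℂ, IsIrrCharacter N θ → θ 1 = 1 := by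
    intro hl
    apply hne
    rw [← hperf, eq_bot_iff, Subgroup.commutator_le]
    intro x hx y hy
    rw [Subgroup.mem_bot, commutatorElement_eq_one_iff_mul_comm]
    exact congrArg Subtype.val (comm_of_forall_irr_linear hl ⟨x, hx⟩ ⟨y, hy⟩)
  push Not at hnab
  obtain ⟨θ, hθ, hθ1⟩ := hnab
  obtain ⟨χ, hχ, hχθ⟩ := exists_over N hθ
  obtain ⟨t, ht, ht1⟩ := hθ.exists_degree
  have hNK : ¬ N ≤ GalConj.K ⟨χ, hχ⟩ := by
    intro hle
    apply hθ1
    have h1 : ∀ x : N, θ x = θ 1 := fun x =>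
      Garrison.ker_constituent (hχ.isCharacter.restrict N) hθ hχθ (GalConj.mem_K.1 (hle x.2))
    have h2 := hθ.classInner_self
    rw [classInner_def] at h2
    simp only [h1] at h2
    rw [Finset.sum_const, Finset.card_univ, nsmul_eq_mul, ← Nat.card_eq_fintype_card, ht1, Complex.conj_natCast,
      inv_mul_cancel_left₀ (by exact_mod_cast Nat.card_pos.ne')] at h2
    have h3 : t * t = 1 := by exact_mod_cast h2
    have h4 : t = 1 := Nat.eq_one_of_mul_eq_one_left h3
    rw [ht1, h4, Nat.cast_one]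
  have hb := hcon ⟨χ, hχ⟩ hNK
  have h1 : t ∣ b := dvd_of_over N hθ hχ hχθ ht1 hb
  have h2 : t ∣ Nat.card N := CharApps.irr_degree_dvd_card hθ ht1
  have h3 : t ≠ 1 := by
    rintro rfl
    exact hθ1 (by rw [ht1, Nat.cast_one])
  obtain ⟨p, hp, hpt⟩ := Nat.exists_prime_and_dvd h3
  haveI : Fact p.Prime := ⟨hp⟩
  apply not_dvd_of_perfect (p := p) N hperf _ (hpt.trans h2)
  intro χ hχ n hn
  have := hcon χ hχ
  rw [hn] at this
  have h4 : n = b := by exact_mod_cast this
  rw [h4]
  exact hpt.trans h1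

section Coprime

variable [Finite G] {a b : ℕ} (h : Three a b G) (hab : Nat.Coprime a b) (ha1 : 1 < a) (hlt : a < b)
  (N : Subgroup G) [hN : N.Normal] (hperf : ⁅N, N⁆ = N)
  (hmin : ∀ χ : IrrCharacter G, ¬ N ≤ GalConj.K χ → ∀ n ∈ N, n ≠ 1 → (χ : G → ℂ) n ≠ (χ : G → ℂ) 1)

theorem le_comm (hperf : ⁅N, N⁆ = N) : N ≤ commutator G := by
  rw [← hperf]
  exact Subgroup.commutator_mono le_top le_top

theorem cast_inj' {x : ℂ} {m n : ℕ} (hm : x = m) (hn : x = n) : m = n := by
  rw [hm] at hn; exact_mod_cast hn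

include h hab ha1 hlt hperf hmin in
theorem mul_const {γ ψ δ : IrrCharacter G} (hγ : (γ : G → ℂ) 1 = b) (hγN : ¬ N ≤ GalConj.K γ)
    (hψ : (ψ : G → ℂ) 1 = a) (hψN : ¬ N ≤ GalConj.K ψ)
    [Fintype G] (hδ : classInner ((γ : G → ℂ) * (ψ : G → ℂ)) (δ : G → ℂ) ≠ 0) :
    (δ : G → ℂ) 1 = b ∧ ¬ N ≤ GalConj.K δ := by
  classical
  letI := Fintype.ofFinite N
  have hNc := le_comm N hperf
  have hψc := ψ.2.conj
  have hψc1 : (fun g => conj ((ψ : G → ℂ) g)) 1 = (a : ℂ) := by
    show conj ((ψ : G → ℂ) 1) = a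
    rw [hψ, Complex.conj_natCast]
  have hswap : ∀ β : G → ℂ, classInner ((γ : G → ℂ) * (ψ : G → ℂ)) β =
      classInner (γ : G → ℂ) ((fun g => conj ((ψ : G → ℂ) g)) * β) := by
    intro β
    rw [classInner_def, classInner_def]
    congr 1
    refine Finset.sum_congr rfl fun g _ => ?_
    rw [Pi.mul_apply, Pi.mul_apply, map_mul, Complex.conj_conj]
    ring
  have hmulc := γ.2.isCharacter.mul ψ.2.isCharacter
  obtain ⟨c, hc, hcs⟩ := hmulc.exists_coeff
  -- no linear constituents
  have hnolin : ∀ β : IrrCharacter G, (β : G → ℂ) 1 = 1 → c β = 0 := by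
    intro β hβ
    have h1 := hc β
    rw [hswap] at h1
    have h2 : IsIrrCharacter G ((fun g => conj ((ψ : G → ℂ) g)) * (β : G → ℂ)) :=
      hψc.mul_linear β.2.isCharacter hβ
    rw [γ.2.classInner_eq_zero h2 (by
      intro h3
      have h4 := congrFun h3 1
      rw [Pi.mul_apply, hψ, Complex.conj_natCast, hβ, hγ, mul_one] at h4
      have : b = a := by exact_mod_cast h4
      omega)] at h1
    exact_mod_cast h1.symm
  -- constituents of degree a agree with ψ on N
  have hdega : ∀ β : IrrCharacter G, c β ≠ 0 → (β : G → ℂ) 1 = a → ∀ n ∈ N, (β : G → ℂ) n = (ψ : G → ℂ) n := by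
    intro β hβc hβ n hn
    have h1 : classInner (γ : G → ℂ) ((fun g => conj ((ψ : G → ℂ) g)) * (β : G → ℂ)) ≠ 0 := by
      rw [← hswap, hc β]; exact_mod_cast hβc
    obtain ⟨d, hd, hds⟩ := (hψc.isCharacter.mul β.2.isCharacter).exists_coeff
    have hd0 : d γ ≠ 0 := by
      intro h0
      have := cI_comm h1
      rw [hd γ, h0] at this
      exact this (by simp)
    -- a² = Σ d χ(1)
    have hsum : ((a * a : ℕ) : ℂ) = ∑ χ : IrrCharacter G, (d χ : ℂ) * (χ : G → ℂ) 1 := by
      have h2 := congrFun hds 1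
      rw [Pi.mul_apply, hψ, Complex.conj_natCast, hβ, Finset.sum_apply] at h2
      push_cast
      rw [h2]
      rfl
    by_cases hlin : ∃ μ : IrrCharacter G, (μ : G → ℂ) 1 = 1 ∧ d μ ≠ 0
    · obtain ⟨μ, hμ1, hμ⟩ := hlin
      have h2 : classInner ((fun g => conj ((ψ : G → ℂ) g)) * (β : G → ℂ)) (μ : G → ℂ) =
          classInner (β : G → ℂ) ((ψ : G → ℂ) * (μ : G → ℂ)) := by
        rw [classInner_def, classInner_def]
        congr 1
        refine Finset.sum_congr rfl fun g _ => ?_
        rw [Pi.mul_apply, Pi.mul_apply, map_mul]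
        ring
      have h3 : classInner (β : G → ℂ) ((ψ : G → ℂ) * (μ : G → ℂ)) ≠ 0 := by
        rw [← h2, hd μ]; exact_mod_cast hμ
      have h4 := ψ.2.mul_linear μ.2.isCharacter hμ1
      have h5 : (β : G → ℂ) = (ψ : G → ℂ) * (μ : G → ℂ) := by
        by_contra hne
        exact h3 (β.2.classInner_eq_zero h4 hne)
      rw [h5, Pi.mul_apply, μ.2.isCharacter.eq_one_on_commutator hμ1 (hNc hn), mul_one]
    · exfalso
      push Not at hlin
      -- all constituents have degree a or b
      have h2 : ((a * a : ℕ) : ℂ) = ((∑ χ : IrrCharacter G, d χ * charDegree (χ : G → ℂ) : ℕ) : ℂ) := by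
        rw [hsum]
        push_cast
        refine Finset.sum_congr rfl fun χ _ => ?_
        rw [BlockDeg.charDegree_cast_irr χ]
      have h3 : a * a = ∑ χ : IrrCharacter G, d χ * charDegree (χ : G → ℂ) := by exact_mod_cast h2
      have h4 : ∑ χ : IrrCharacter G, d χ * charDegree (χ : G → ℂ) =
          (∑ χ ∈ Finset.univ.filter (fun χ : IrrCharacter G => charDegree (χ : G → ℂ) = b), d χ) * b +
          (∑ χ ∈ Finset.univ.filter (fun χ : IrrCharacter G => ¬ charDegree (χ : G → ℂ) = b), d χ) * a := by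
        rw [← Finset.sum_filter_add_sum_filter_not Finset.univ (fun χ : IrrCharacter G => charDegree (χ : G → ℂ) = b)]
        rw [Finset.sum_mul, Finset.sum_mul]
        congr 1
        · refine Finset.sum_congr rfl fun χ hχ => ?_
          rw [(Finset.mem_filter.1 hχ).2]
        · refine Finset.sum_congr rfl fun χ hχ => ?_
          have h5 := (Finset.mem_filter.1 hχ).2
          rcases h χ χ.2 with h6 | h6 | h6
          · rw [hlin χ h6, zero_mul, zero_mul]
          · rw [cast_inj' (BlockDeg.charDegree_cast_irr χ).symm h6]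
          · exact absurd (cast_inj' (BlockDeg.charDegree_cast_irr χ).symm h6) h5
      rw [h4] at h3
      have h5 : d γ ≤ ∑ χ ∈ Finset.univ.filter (fun χ : IrrCharacter G => charDegree (χ : G → ℂ) = b), d χ :=
        Finset.single_le_sum (f := d) (fun _ _ => Nat.zero_le _)
          (Finset.mem_filter.2 ⟨Finset.mem_univ _, cast_inj' (BlockDeg.charDegree_cast_irr γ).symm hγ⟩)
      set Z := ∑ χ ∈ Finset.univ.filter (fun χ : IrrCharacter G => charDegree (χ : G → ℂ) = b), d χ
      set Y := ∑ χ ∈ Finset.univ.filter (fun χ : IrrCharacter G => ¬ charDegree (χ : G → ℂ) = b), d χ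
      have h6 : a ∣ Z * b := by
        have h7 : a ∣ Z * b + Y * a := by rw [← h3]; exact Dvd.intro a rfl
        exact (Nat.dvd_add_left (Dvd.intro_left Y rfl)).1 h7
      have h7 : a ∣ Z := hab.dvd_of_dvd_mul_right h6
      have h8 : a ≤ Z := Nat.le_of_dvd (by omega) h7
      have h9 : a * b ≤ Z * b := Nat.mul_le_mul_right _ h8
      have h10 : a * a < a * b := Nat.mul_lt_mul_of_pos_left hlt (by omega)
      omega
  -- the degree equation
  have hsum2 : a * b = ∑ χ : IrrCharacter G, c χ * charDegree (χ : G → ℂ) := by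
    have h2 := congrFun hcs 1
    rw [Pi.mul_apply, hγ, hψ, Finset.sum_apply] at h2
    have h3 : ((a * b : ℕ) : ℂ) = ((∑ χ : IrrCharacter G, c χ * charDegree (χ : G → ℂ) : ℕ) : ℂ) := by
      push_cast
      rw [mul_comm, h2]
      refine Finset.sum_congr rfl fun χ _ => ?_
      rw [BlockDeg.charDegree_cast_irr χ]
      rfl
    exact_mod_cast h3
  have hspl : ∑ χ : IrrCharacter G, c χ * charDegree (χ : G → ℂ) =
      (∑ χ ∈ Finset.univ.filter (fun χ : IrrCharacter G => charDegree (χ : G → ℂ) = b), c χ) * b +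
      (∑ χ ∈ Finset.univ.filter (fun χ : IrrCharacter G => ¬ charDegree (χ : G → ℂ) = b), c χ) * a := by
    rw [← Finset.sum_filter_add_sum_filter_not Finset.univ (fun χ : IrrCharacter G => charDegree (χ : G → ℂ) = b)]
    rw [Finset.sum_mul, Finset.sum_mul]
    congr 1
    · refine Finset.sum_congr rfl fun χ hχ => ?_
      rw [(Finset.mem_filter.1 hχ).2]
    · refine Finset.sum_congr rfl fun χ hχ => ?_
      have h5 := (Finset.mem_filter.1 hχ).2
      rcases h χ χ.2 with h6 | h6 | h6
      · rw [hnolin χ h6, zero_mul, zero_mul]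
      · rw [cast_inj' (BlockDeg.charDegree_cast_irr χ).symm h6]
      · exact absurd (cast_inj' (BlockDeg.charDegree_cast_irr χ).symm h6) h5
  rw [hspl] at hsum2
  have hcδ : c δ ≠ 0 := by
    intro h0
    rw [hc δ, h0] at hδ
    exact hδ (by simp)
  -- `δ` has degree `b`
  have hδb : (δ : G → ℂ) 1 = b := by
    rcases h δ δ.2 with h6 | h6 | h6
    · exact absurd (hnolin δ h6) hcδ
    · exfalso
      have hδne : ¬ charDegree (δ : G → ℂ) = b := by
        rw [cast_inj' (BlockDeg.charDegree_cast_irr δ).symm h6]; omega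
      have h5 : c δ ≤ ∑ χ ∈ Finset.univ.filter (fun χ : IrrCharacter G => ¬ charDegree (χ : G → ℂ) = b), c χ :=
        Finset.single_le_sum (f := c) (fun _ _ => Nat.zero_le _)
          (Finset.mem_filter.2 ⟨Finset.mem_univ _, hδne⟩)
      obtain ⟨Z, hZ⟩ : ∃ Z, Z = ∑ χ ∈ Finset.univ.filter (fun χ : IrrCharacter G => charDegree (χ : G → ℂ) = b), c χ := ⟨_, rfl⟩
      obtain ⟨Y, hY⟩ : ∃ Y, Y = ∑ χ ∈ Finset.univ.filter (fun χ : IrrCharacter G => ¬ charDegree (χ : G → ℂ) = b), c χ := ⟨_, rfl⟩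
      rw [← hZ, ← hY] at hsum2
      rw [← hY] at h5
      have h7 : a ∣ Z * b := by
        have h7 : a ∣ Z * b + Y * a := by rw [← hsum2]; exact Dvd.intro b rfl
        exact (Nat.dvd_add_left (Dvd.intro_left Y rfl)).1 h7
      have h8 : a ∣ Z := hab.dvd_of_dvd_mul_right h7
      have hZ0 : Z = 0 := by
        by_contra hZ0
        have h9 : a ≤ Z := Nat.le_of_dvd (by omega) h8
        have h10 : a * b ≤ Z * b := Nat.mul_le_mul_right _ h9
        have h11 : 1 * a ≤ Y * a := Nat.mul_le_mul_right _ (by omega)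
        omega
      have hYb : Y = b := by
        rw [hZ0, zero_mul, zero_add, mul_comm] at hsum2
        exact (Nat.eq_of_mul_eq_mul_right (by omega) hsum2).symm
      -- all constituents have degree a
      have hall : ∀ χ : IrrCharacter G, c χ ≠ 0 → (χ : G → ℂ) 1 = a := by
        intro χ hχ
        rcases h χ χ.2 with h6 | h6 | h6
        · exact absurd (hnolin χ h6) hχ
        · exact h6
        · exfalso
          have h9 : c χ ≤ Z := by
            rw [hZ]
            exact Finset.single_le_sum (f := c) (fun _ _ => Nat.zero_le _)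
              (Finset.mem_filter.2 ⟨Finset.mem_univ _, cast_inj' (BlockDeg.charDegree_cast_irr χ).symm h6⟩)
          omega
      -- ψ vanishes on N \ 1
      have hsumc : ((∑ χ : IrrCharacter G, c χ : ℕ) : ℂ) = b := by
        rw [← hYb, hY]
        congr 1
        symm
        apply Finset.sum_subset (Finset.filter_subset _ _)
        intro χ _ hχ
        by_contra hne
        apply hχ
        refine Finset.mem_filter.2 ⟨Finset.mem_univ _, ?_⟩
        rw [cast_inj' (BlockDeg.charDegree_cast_irr χ).symm (hall χ hne)]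
        omega
      have hvan : ∀ n ∈ N, n ≠ 1 → (ψ : G → ℂ) n = 0 := by
        intro n hn hn1
        have h9 := congrFun hcs n
        rw [Pi.mul_apply, Finset.sum_apply] at h9
        have h10 : ∀ χ ∈ (Finset.univ : Finset (IrrCharacter G)), ((c χ : ℂ) • (χ : G → ℂ)) n = (c χ : ℂ) * (ψ : G → ℂ) n := by
          intro χ _
          rw [Pi.smul_apply, smul_eq_mul]
          by_cases h0 : c χ = 0
          · rw [h0]; simp
          · rw [hdega χ h0 (hall χ h0) n hn]
        rw [Finset.sum_congr rfl h10, ← Finset.sum_mul, ← Nat.cast_sum, hsumc, ← hγ] at h9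
        by_contra h11
        exact hmin γ hγN n hn hn1 (mul_right_cancel₀ h11 h9)
      apply hψN
      intro n hn
      apply GalConj.mem_K.2
      refine H76Ker.eq_one_of_trivial_constituent ψ.2 N ?_ hn
      rw [classInner_def]
      have h12 : ∑ g : N, (ψ : G → ℂ) g * conj ((1 : N → ℂ) g) = (ψ : G → ℂ) 1 := by
        rw [Finset.sum_eq_single (1 : N)]
        · simp
        · intro x _ hx
          rw [hvan x x.2 (fun h' => hx (Subtype.ext h')), zero_mul]
        · intro h'; exact absurd (Finset.mem_univ _) h'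
      rw [h12]
      exact mul_ne_zero (inv_ne_zero (by exact_mod_cast Nat.card_pos.ne')) ψ.2.one_ne_zero
    · exact h6
  refine ⟨hδb, fun hle => ?_⟩
  -- `N` is not in the kernel
  have h1 := hmulc.sub_constituent δ.2 hδ
  obtain ⟨k, hk⟩ := (h1.restrict N).classInner_nat (isCharacter_one (G := N))
  have h2 : classInner (fun n : N => (δ : G → ℂ) n) (1 : N → ℂ) = b := by
    rw [classInner_def]
    have h3 : ∀ g : N, (δ : G → ℂ) g * conj ((1 : N → ℂ) g) = b := by
      intro g
      rw [GalConj.mem_K.1 (hle g.2), hδb]; simp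
    simp only [h3]
    rw [Finset.sum_const, Finset.card_univ, nsmul_eq_mul, ← Nat.card_eq_fintype_card,
      inv_mul_cancel_left₀ (by exact_mod_cast Nat.card_pos.ne')]
  have h3 : classInner (fun n : N => ((γ : G → ℂ) * (ψ : G → ℂ)) n) (1 : N → ℂ) ≠ 0 := by
    have h4 : (fun n : N => ((γ : G → ℂ) * (ψ : G → ℂ)) n) =
        (fun n : N => ((γ : G → ℂ) * (ψ : G → ℂ) - (δ : G → ℂ)) n) + (fun n : N => (δ : G → ℂ) n) := by
      funext n
      simp
    rw [h4, CharBasic.classInner_add_left, hk, h2]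
    have : ((k + b : ℕ) : ℂ) ≠ 0 := by
      exact_mod_cast (by omega : k + b ≠ 0)
    push_cast at this
    exact this
  have h4 : classInner (fun n : N => (γ : G → ℂ) n) (fun n : N => (fun g => conj ((ψ : G → ℂ) g)) n) ≠ 0 := by
    intro h5
    apply h3
    rw [← h5, classInner_def, classInner_def]
    congr 1
    refine Finset.sum_congr rfl fun g _ => ?_
    rw [Pi.mul_apply, Complex.conj_conj]
    simp
  obtain ⟨θ, hθ1, hθ2⟩ := exists_common_constituent (γ.2.isCharacter.restrict N) h4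
  obtain ⟨t, ht, ht1⟩ := θ.2.exists_degree
  have h5 : t ∣ b := dvd_of_over N θ.2 γ.2 hθ1 ht1 hγ
  have h6 : t ∣ a := dvd_of_over N θ.2 hψc hθ2 ht1 hψc1
  have h7 : t = 1 := Nat.eq_one_of_dvd_coprimes hab h6 h5
  have h8 : (θ : N → ℂ) = 1 := by
    funext n
    rw [Pi.one_apply]
    apply θ.2.isCharacter.eq_one_on_commutator (by rw [ht1, h7, Nat.cast_one])
    have h9 : commutator N = ⊤ := by
      apply Subgroup.map_injective N.subtype_injective
      rw [_root_.commutator_def, Subgroup.map_commutator, ← MonoidHom.range_eq_map, Subgroup.range_subtype, hperf]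
    rw [h9]; trivial
  rw [h8] at hθ1
  exact hγN fun n hn => GalConj.mem_K.2 (H76Ker.eq_one_of_trivial_constituent γ.2 N hθ1 hn)

include h hab ha1 hlt hperf hmin in
theorem coprime_contra {γ ψ : IrrCharacter G} (hγ : (γ : G → ℂ) 1 = b) (hγN : ¬ N ≤ GalConj.K γ)
    (hψ : (ψ : G → ℂ) 1 = a) (hψN : ¬ N ≤ GalConj.K ψ) : False := by
  classical
  letI := Fintype.ofFinite G
  letI := Fintype.ofFinite N
  -- all powers are good
  have hgood : ∀ i : ℕ, IsCharacter G ((γ : G → ℂ) * (ψ : G → ℂ) ^ i) ∧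
      ∀ δ : IrrCharacter G, classInner ((γ : G → ℂ) * (ψ : G → ℂ) ^ i) (δ : G → ℂ) ≠ 0 →
        (δ : G → ℂ) 1 = b ∧ ¬ N ≤ GalConj.K δ := by
    intro i
    induction i with
    | zero =>
      rw [pow_zero, mul_one]
      refine ⟨γ.2.isCharacter, fun δ hδ => ?_⟩
      have : (γ : G → ℂ) = (δ : G → ℂ) := by
        by_contra hne
        exact hδ (γ.2.classInner_eq_zero δ.2 hne)
      have h1 : γ = δ := Subtype.ext this
      rw [← h1]
      exact ⟨hγ, hγN⟩
    | succ i ih =>
      obtain ⟨h1, h2⟩ := ih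
      rw [pow_succ, ← mul_assoc]
      have hprod := h1.mul ψ.2.isCharacter
      refine ⟨hprod, fun δ hδ => ?_⟩
      obtain ⟨c, hc, hcs⟩ := h1.exists_coeff
      have h3 : classInner ((γ : G → ℂ) * (ψ : G → ℂ) ^ i * (ψ : G → ℂ)) (δ : G → ℂ) =
          ∑ χ : IrrCharacter G, (c χ : ℂ) * classInner ((χ : G → ℂ) * (ψ : G → ℂ)) (δ : G → ℂ) := by
        conv_lhs => rw [hcs, Finset.sum_mul, CharBasic.classInner_sum_left]
        refine Finset.sum_congr rfl fun χ _ => ?_
        rw [smul_mul_assoc, CharBasic.classInner_smul_left]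
      rw [h3] at hδ
      obtain ⟨χ, -, hχ⟩ := Finset.exists_ne_zero_of_sum_ne_zero hδ
      have hχ1 : c χ ≠ 0 := by
        intro h0
        rw [h0] at hχ
        exact hχ (by simp)
      have hχ2 : classInner ((χ : G → ℂ) * (ψ : G → ℂ)) (δ : G → ℂ) ≠ 0 := fun h0 => hχ (by rw [h0, mul_zero])
      obtain ⟨h4, h5⟩ := h2 χ (by rw [hc χ]; exact_mod_cast hχ1)
      exact mul_const h hab ha1 hlt N hperf hmin h4 h5 hψ hψN hχ2
  have hzero : ∀ i : ℕ, classInner (fun n : N => ((γ : G → ℂ) * (ψ : G → ℂ) ^ i) n) (1 : N → ℂ) = 0 := by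
    intro i
    obtain ⟨h1, h2⟩ := hgood i
    obtain ⟨c, hc, hcs⟩ := h1.exists_coeff
    have h3 : (fun n : N => ((γ : G → ℂ) * (ψ : G → ℂ) ^ i) n) =
        ∑ χ : IrrCharacter G, (c χ : ℂ) • (fun n : N => (χ : G → ℂ) n) := by
      funext n
      have := congrFun hcs n
      rw [Finset.sum_apply] at this ⊢
      exact this
    rw [h3, CharBasic.classInner_sum_left]
    refine Finset.sum_eq_zero fun χ _ => ?_
    rw [CharBasic.classInner_smul_left]
    by_cases h0 : c χ = 0
    · rw [h0]; simp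
    · obtain ⟨-, h5⟩ := h2 χ (by rw [hc χ]; exact_mod_cast h0)
      by_contra hne
      apply h5
      intro n hn
      exact GalConj.mem_K.2 (H76Ker.eq_one_of_trivial_constituent χ.2 N (fun h' => hne (by rw [h', mul_zero])) hn)
  -- Burnside-Brauer
  obtain ⟨d, ρ, hρ, hρψ⟩ := ψ.2
  let σ : Representation ℂ N (Fin d → ℂ) := ρ.comp N.subtype
  have hinj : Function.Injective σ := by
    rw [injective_iff_map_eq_one]
    intro n hn
    by_contra hne
    apply hmin ψ hψN n n.2 (fun h' => hne (Subtype.ext h'))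
    rw [← hρψ]
    have h1 : ρ (n : G) = 1 := hn
    show ρ.character (n : G) = ρ.character 1
    simp only [Representation.character, h1, map_one]
  obtain ⟨i, -, hi⟩ := CharMisc.burnside_brauer σ hinj
    (fun n : N => conj ((γ : G → ℂ) n)) (by
      rw [OneMemClass.coe_one, hγ, Complex.conj_natCast]
      have : b ≠ 0 := by omega
      exact_mod_cast this)
  apply hi
  rw [← hzero i, classInner_def, classInner_def]
  congr 1
  refine Finset.sum_congr rfl fun g _ => ?_
  have h1 : σ.character g = (ψ : G → ℂ) g := by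
    rw [← hρψ]; rfl
  rw [h1, Complex.conj_conj, Pi.mul_apply, Pi.pow_apply, Pi.one_apply, map_one, mul_one, mul_comm]

end Coprime

/-- the case of a normal `p`-complement -/
theorem Three.compl [Finite G] {a b p : ℕ} (hp : p.Prime) (h : Three a b G) (M : Subgroup G) [M.Normal]
    (hMc : (Nat.card M).Coprime p) {k : ℕ} (hMi : M.index = p ^ k) :
    Three (a / p ^ a.factorization p) (b / p ^ b.factorization p) M := by
  classical
  letI := Fintype.ofFinite G
  letI := Fintype.ofFinite M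
  intro θ hθ
  obtain ⟨t, ht, ht1⟩ := hθ.exists_degree
  obtain ⟨χ, hχ, hχθ⟩ := exists_over M hθ
  obtain ⟨m, hm, hm1⟩ := hχ.exists_degree
  obtain ⟨f, hf, hfi⟩ := DegRatio.degree_ratio hχ hθ hχθ hm1 ht1
  rw [hMi, Nat.dvd_prime_pow hp] at hfi
  obtain ⟨j, -, rfl⟩ := hfi
  have htp : ¬ p ∣ t := by
    intro hpt
    have h1 : t ∣ Nat.card M := CharApps.irr_degree_dvd_card hθ ht1
    exact (hp.coprime_iff_not_dvd.1 hMc.symm) (hpt.trans h1)
  have hmt : m / p ^ m.factorization p = t := by
    have h1 : m.factorization p = j := by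
      rw [hf, Nat.factorization_mul (pow_ne_zero _ hp.ne_zero) (by omega), Finsupp.add_apply,
        hp.factorization_pow, Finsupp.single_eq_same, Nat.factorization_eq_zero_of_not_dvd htp, add_zero]
    rw [h1, hf]
    exact Nat.mul_div_cancel_left _ (pow_pos hp.pos _)
  rcases h χ hχ with h1 | h1 | h1
  · left
    have h2 : m = 1 := by rw [hm1] at h1; exact_mod_cast h1
    rw [h2] at hf
    rw [ht1, Nat.eq_one_of_mul_eq_one_left hf.symm, Nat.cast_one]
  · right; left
    have h2 : m = a := by rw [hm1] at h1; exact_mod_cast h1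
    rw [ht1, ← h2, hmt]
  · right; right
    have h2 : m = b := by rw [hm1] at h1; exact_mod_cast h1
    rw [ht1, ← h2, hmt]

theorem commutator_eq_bot_of_linear [Finite G] (h : ∀ χ : G → ℂ, IsIrrCharacter G χ → χ 1 = 1) :
    commutator G = ⊥ := by
  rw [eq_bot_iff]
  refine Subgroup.commutator_le.2 fun g _ k _ => ?_
  rw [Subgroup.mem_bot, commutatorElement_eq_one_iff_mul_comm]
  exact comm_of_forall_irr_linear h g k

/-- the normal `p`-complement if `p` divides both degrees -/
theorem Three.exists_compl [Finite G] {a b p : ℕ} (hp : p.Prime) (h : Three a b G) (ha : p ∣ a) (hb : p ∣ b) :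
    ∃ M : Subgroup G, ∃ _ : M.Normal, (Nat.card M).Coprime p ∧ ∃ k : ℕ, M.index = p ^ k := by
  obtain ⟨M, hM, h1, h2⟩ := Cfsg.Agent.S4456.result (G := G) p hp (by
    intro χ hχ
    rcases h χ χ.2 with h1 | h1 | h1
    · exfalso
      apply hχ
      rw [← BlockDeg.charDegree_cast_irr χ] at h1
      exact_mod_cast h1
    · rw [cast_inj' (BlockDeg.charDegree_cast_irr χ).symm h1]; exact ha
    · rw [cast_inj' (BlockDeg.charDegree_cast_irr χ).symm h1]; exact hb)
  exact ⟨M, hM, h1, h2⟩

/-- if `p` divides both degrees and `G` has no element of order `p` then `G` is abelian -/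
theorem Three.abelian_of_coprime [Finite G] {a b p : ℕ} (hp : p.Prime) (h : Three a b G) (ha : p ∣ a) (hb : p ∣ b)
    (hG : ¬ p ∣ Nat.card G) : commutator G = ⊥ := by
  apply commutator_eq_bot_of_linear
  intro χ hχ
  obtain ⟨m, hm, hm1⟩ := hχ.exists_degree
  have h1 : m ∣ Nat.card G := CharApps.irr_degree_dvd_card hχ hm1
  rcases h χ hχ with h2 | h2 | h2
  · exact h2
  · have : m = a := cast_inj' hm1 h2
    exact absurd ((ha.trans (this ▸ dvd_rfl)).trans h1) hG
  · have : m = b := cast_inj' hm1 h2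
    exact absurd ((hb.trans (this ▸ dvd_rfl)).trans h1) hG

theorem isSolvable_of_commutator_eq_bot (h : commutator G = ⊥) : Group.IsSolvable G := by
  apply Group.isSolvable_of_comm
  intro a b
  have h1 : ⁅a, b⁆ ∈ commutator G := Subgroup.commutator_mem_commutator (Subgroup.mem_top a) (Subgroup.mem_top b)
  rw [h, Subgroup.mem_bot] at h1
  exact commutatorElement_eq_one_iff_mul_comm.1 h1

theorem isSolvable_of_normal [Finite G] (N : Subgroup G) [N.Normal] (h1 : Group.IsSolvable N)
    (h2 : Group.IsSolvable (G ⧸ N)) : Group.IsSolvable G :=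
  Group.isSolvable_of_ker_le_range N.subtype (QuotientGroup.mk' N) (by
    rw [QuotientGroup.ker_mk', Subgroup.range_subtype])

theorem card_quot_lt [Finite G] (N : Subgroup G) [N.Normal] (hN : N ≠ ⊥) : Nat.card (G ⧸ N) < Nat.card G := by
  rw [← N.card_mul_index]
  have h1 : Nat.card N ≠ 1 := fun h' => hN (Subgroup.card_eq_one.1 h')
  have h2 : N.index ≠ 0 := Subgroup.index_ne_zero_of_finite
  have h3 : 0 < Nat.card N := Nat.card_pos
  have h5 : Nat.card (G ⧸ N) = N.index := rfl
  rw [h5]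
  exact (Nat.lt_mul_iff_one_lt_left (by omega)).2 (by omega)

theorem card_sub_lt [Finite G] (N : Subgroup G) (hN : N ≠ ⊤) : Nat.card N < Nat.card G := by
  rw [← N.card_mul_index]
  have h1 : N.index ≠ 1 := fun h' => hN (Subgroup.index_eq_one.1 h')
  have h2 : N.index ≠ 0 := Subgroup.index_ne_zero_of_finite
  have h3 : 0 < Nat.card N := Nat.card_pos
  exact (Nat.lt_mul_iff_one_lt_right h3).2 (by omega)

theorem no_perfect [Finite G] {a b : ℕ} (h : Three a b G) (hab : Nat.Coprime a b) (N : Subgroup G) [hN : N.Normal]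
    (hperf : ⁅N, N⁆ = N) (hne : N ≠ ⊥) (hmin : ∀ M : Subgroup G, M.Normal → M ≤ N → M ≠ ⊥ → M = N) : False := by
  classical
  have hmin' : ∀ χ : IrrCharacter G, ¬ N ≤ GalConj.K χ → ∀ n ∈ N, n ≠ 1 → (χ : G → ℂ) n ≠ (χ : G → ℂ) 1 := by
    intro χ hχ n hn hn1 hcon
    by_cases hb : N ⊓ GalConj.K χ = ⊥
    · apply hn1
      rw [← Subgroup.mem_bot, ← hb]
      exact ⟨hn, GalConj.mem_K.2 hcon⟩
    · have := hmin (N ⊓ GalConj.K χ) inferInstance inf_le_left hb
      exact hχ (inf_eq_left.1 this)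
  have hNc := le_comm N hperf
  have hdeg : ∀ χ : IrrCharacter G, ¬ N ≤ GalConj.K χ → (χ : G → ℂ) 1 = a ∨ (χ : G → ℂ) 1 = b := fun χ hχ =>
    (h χ χ.2).resolve_left (GalConj.nonlin_of_not_ker hNc hχ)
  obtain ⟨ψ, hψN, hψ⟩ := exists_deg_ne N hperf hne b
  obtain ⟨γ, hγN, hγ⟩ := exists_deg_ne N hperf hne a
  have hψa := (hdeg ψ hψN).resolve_right hψ
  have hγb := (hdeg γ hγN).resolve_left hγ
  have ha1 : a ≠ 1 := by
    rintro rfl
    exact GalConj.nonlin_of_not_ker hNc hψN (by rw [hψa, Nat.cast_one])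
  have hb1 : b ≠ 1 := by
    rintro rfl
    exact GalConj.nonlin_of_not_ker hNc hγN (by rw [hγb, Nat.cast_one])
  have ha0 : a ≠ 0 := by
    rintro rfl
    exact ψ.2.one_ne_zero (by rw [hψa, Nat.cast_zero])
  have hb0 : b ≠ 0 := by
    rintro rfl
    exact γ.2.one_ne_zero (by rw [hγb, Nat.cast_zero])
  rcases Nat.lt_trichotomy a b with hlt | heq | hlt
  · exact coprime_contra h hab (by omega) hlt N hperf hmin' hγb hγN hψa hψN
  · rw [heq, Nat.coprime_self] at hab
    exact hb1 hab
  · exact coprime_contra h.symm hab.symm (by omega) hlt N hperf hmin' hψa hψN hγb hγN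

/-- **Groups with at most three character degrees are solvable.** -/
theorem solvable (n : ℕ) : ∀ (G : Type u) [Group G] [Finite G], Nat.card G = n → ∀ a b : ℕ, Three a b G →
    Group.IsSolvable G := by
  induction n using Nat.strong_induction_on with
  | _ n ih =>
    intro G _ _ hn a b h
    classical
    by_cases hex : ∃ p : ℕ, p.Prime ∧ p ∣ a ∧ p ∣ b
    · obtain ⟨p, hp, hpa, hpb⟩ := hex
      haveI : Fact p.Prime := ⟨hp⟩
      by_cases hG : p ∣ Nat.card G
      swap
      · exact isSolvable_of_commutator_eq_bot (h.abelian_of_coprime hp hpa hpb hG)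
      obtain ⟨M, hM, hMc, k, hMi⟩ := h.exists_compl hp hpa hpb
      have hMtop : M ≠ ⊤ := by
        rintro rfl
        rw [Subgroup.card_top] at hMc
        exact (hp.coprime_iff_not_dvd.1 hMc.symm) hG
      have h1 := ih (Nat.card M) (by rw [← hn]; exact card_sub_lt M hMtop) M rfl _ _ (h.compl hp M hMc hMi)
      have h2 : Group.IsSolvable (G ⧸ M) := by
        haveI : Group.IsNilpotent (G ⧸ M) := (IsPGroup.of_card (p := p) (n := k) hMi).isNilpotent
        infer_instance
      exact isSolvable_of_normal M h1 h2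
    have hab : Nat.Coprime a b := by
      rw [Nat.coprime_iff_gcd_eq_one]
      by_contra hg
      obtain ⟨p, hp, hpg⟩ := Nat.exists_prime_and_dvd hg
      exact hex ⟨p, hp, hpg.trans (Nat.gcd_dvd_left a b), hpg.trans (Nat.gcd_dvd_right a b)⟩
    by_cases hcG : commutator G = ⊥
    · exact isSolvable_of_commutator_eq_bot hcG
    obtain ⟨N, hNmin⟩ := (Set.toFinite {N : Subgroup G | N.Normal ∧ N ≠ ⊥}).exists_minimal
      ⟨commutator G, inferInstance, hcG⟩
    haveI := hNmin.prop.1
    have hmin : ∀ M : Subgroup G, M.Normal → M ≤ N → M ≠ ⊥ → M = N := fun M h1 h2 h3 =>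
      le_antisymm h2 (hNmin.le_of_le (y := M) ⟨h1, h3⟩ h2)
    by_cases hNb : ⁅N, N⁆ = ⊥
    · have h1 : Group.IsSolvable N := by
        apply Group.isSolvable_of_comm
        intro x y
        have h2 := Subgroup.commutator_mem_commutator x.2 y.2
        rw [hNb, Subgroup.mem_bot] at h2
        exact Subtype.ext (commutatorElement_eq_one_iff_mul_comm.1 h2)
      exact isSolvable_of_normal N h1 (ih _ (by rw [← hn]; exact card_quot_lt N hNmin.prop.2) (G ⧸ N) rfl a b (h.quot N))
    · exact (no_perfect h hab N (hmin _ inferInstance (Subgroup.commutator_le_self N) hNb) hNmin.prop.2 hmin).elim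

/-! ### monomial characters -/

/-- characters are monomial when there is an abelian normal Hall subgroup with nilpotent quotient -/
theorem mono [Fintype G] (R : Subgroup G) [hRn : R.Normal] (hR : ∀ x ∈ R, ∀ y ∈ R, x * y = y * x)
    (hcop : Nat.Coprime R.index (Nat.card R)) (hnil : Group.IsNilpotent (G ⧸ R)) {χ : G → ℂ}
    (hχ : IsIrrCharacter G χ) : ∃ (H : Subgroup G) (lam : H →* ℂˣ), χ = indFun H (fun h => (lam h : ℂ)) := by
  classical
  letI := Fintype.ofFinite R
  obtain ⟨θ, hθ⟩ := (hχ.isCharacter.restrict R).exists_constituent (by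
    intro h0
    exact hχ.one_ne_zero (congrFun h0 1))
  obtain ⟨hθirr, hθc⟩ := hθ
  obtain ⟨T, hTdef⟩ : ∃ T : Subgroup G, T = inertia R θ := ⟨_, rfl⟩
  letI := Fintype.ofFinite T
  have hNT : R ≤ T := by rw [hTdef]; exact le_inertia hθirr.isClassFunction
  have hT : ∀ g : G, g ∈ T ↔ cj R g θ = θ := fun g => by rw [hTdef]; exact mem_inertia
  obtain ⟨ψ, hψ, hind, hmult⟩ := corr_surj hNT hθirr hT hχ hθc
  obtain ⟨η, hη, hext⟩ := ExtDeg.exists_ext hNT hθirr (fun g hg => (hT g).1 hg) hcop
  letI := Fintype.ofFinite (R.subgroupOf T)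
  have hθ' : IsIrrCharacter (R.subgroupOf T) (fun x => θ (subEquiv R T hNT x)) :=
    (isIrrCharacter_comp_mulEquiv_iff (subEquiv R T hNT)).mpr hθirr
  have hb := CanonExt.bijOn (N := R.subgroupOf T) hθ' hη (by
    intro n
    rw [← hext]; rfl)
  obtain ⟨β, ⟨hβ, hβ1⟩, hβψ⟩ := hb.surjOn (show ψ ∈ {ψ : T → ℂ | IsIrrCharacter T ψ ∧
      classInner (indFun (R.subgroupOf T) (fun x => θ (subEquiv R T hNT x))) ψ ≠ 0} from by
    refine ⟨hψ, ?_⟩
    rw [IndFun.frobenius_reciprocity _ _ _ hψ.isClassFunction]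
    apply cI_comm
    rw [classInner_resTo, hmult]
    exact hθc)
  have hθ1 : θ 1 = 1 := hθirr.one_eq_one_of_comm (fun a b => Subtype.ext (hR a a.2 b b.2))
  have hη1 : η 1 = 1 := by
    have h1 := congrFun hext 1
    rw [hθ1] at h1
    exact h1
  obtain ⟨f, hf⟩ := hη.isCharacter.exists_hom hη1
  obtain ⟨β', hβ', hβ'β⟩ := hβ.deflate (R.subgroupOf T) (fun n hn => hβ1 ⟨n, hn⟩)
  have hnT : Group.IsNilpotent (T ⧸ R.subgroupOf T) := by
    haveI := hnil
    let j : (T ⧸ R.subgroupOf T) →* (G ⧸ R) := QuotientGroup.map (R.subgroupOf T) R T.subtype (fun x hx => hx)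
    refine MinNonNilp.isNilpotent_of_injective (f := j) ?_
    rw [injective_iff_map_eq_one]
    intro q hq
    obtain ⟨x, rfl⟩ := QuotientGroup.mk_surjective q
    have h1 : ((x : G) : G ⧸ R) = 1 := hq
    rw [QuotientGroup.eq_one_iff] at h1 ⊢
    exact h1
  letI := Fintype.ofFinite (T ⧸ R.subgroupOf T)
  obtain ⟨H', lam', hlam'⟩ := MGroups.monomial_of_nilpotent hnT hβ'
  have hsurj : Function.Surjective (QuotientGroup.mk' (R.subgroupOf T)) := QuotientGroup.mk'_surjective _
  set lam2 : (H'.comap (QuotientGroup.mk' (R.subgroupOf T))) →* ℂˣ :=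
    (lam'.comp ((QuotientGroup.mk' (R.subgroupOf T)).subgroupComap H')) *
      f.comp (H'.comap (QuotientGroup.mk' (R.subgroupOf T))).subtype with hlam2
  have hψ2 : ψ = indFun (H'.comap (QuotientGroup.mk' (R.subgroupOf T))) (fun h => (lam2 h : ℂ)) := by
    have h1 := IndFun.indFun_mul_res (H'.comap (QuotientGroup.mk' (R.subgroupOf T)))
      (fun h => ((lam' ((QuotientGroup.mk' (R.subgroupOf T)).subgroupComap H' h) : ℂˣ) : ℂ)) η hη.isClassFunction
    have h2 : (fun h : H'.comap (QuotientGroup.mk' (R.subgroupOf T)) =>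
        ((lam' ((QuotientGroup.mk' (R.subgroupOf T)).subgroupComap H' h) : ℂˣ) : ℂ) * η h) =
        fun h => (lam2 h : ℂ) := by
      funext h
      rw [hf, hlam2]
      simp
    rw [h2] at h1
    rw [h1, ← hβψ]
    funext g
    show β g * η g = _
    congr 1
    rw [← hβ'β g, hlam']
    exact H15Berger.indFun_comap hsurj H' (fun h => (lam' h : ℂ)) g
  obtain ⟨lam3, h3⟩ := MGroups.indFun_indFun_hom T (H'.comap (QuotientGroup.mk' (R.subgroupOf T))) lam2
  refine ⟨_, lam3, ?_⟩
  rw [← h3, ← hψ2, hind]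

theorem three_taketa_aux [Finite G] {a b : ℕ} (hab : a ≤ b) (h : Three a b G)
    (hm : ∀ (_ : Fintype G) (χ : G → ℂ), IsIrrCharacter G χ →
      ∃ (H : Subgroup G) (lam : H →* ℂˣ), χ = indFun H (fun h => (lam h : ℂ))) :
    ⁅⁅commutator G, commutator G⁆, ⁅commutator G, commutator G⁆⁆ = (⊥ : Subgroup G) := by
  classical
  letI := Fintype.ofFinite G
  have hidx : ∀ (H : Subgroup G) (lam : H →* ℂˣ) (d : ℕ), indFun H (fun h => (lam h : ℂ)) 1 = d → H.index = d := by
    intro H lam d hd
    rw [IndFun.indFun_one, map_one, Units.val_one, mul_one] at hd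
    exact_mod_cast hd
  -- degree a
  have hA : ∀ χ : G → ℂ, IsIrrCharacter G χ → χ 1 = a → ∀ x ∈ ⁅commutator G, commutator G⁆, χ x = χ 1 := by
    intro χ hχ hχa x hx
    obtain ⟨H, lam, hχ2⟩ := hm inferInstance χ hχ
    have hi := hidx H lam a (by rw [← hχ2]; exact hχa)
    have h1 := Taketa.step (commutator G) H lam (by
      intro ψ hψ d hd hlt y hy
      rw [hi] at hlt
      have hψ1 : ψ 1 = 1 := by
        rcases h ψ hψ with h2 | h2 | h2
        · exact h2
        · have := cast_inj' hd h2; omega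
        · have := cast_inj' hd h2; omega
      rw [hψ1]
      exact hψ.isCharacter.eq_one_on_commutator hψ1 hy) x hx
    rw [hχ2]
    exact h1
  have hB : ∀ χ : G → ℂ, IsIrrCharacter G χ → χ 1 = b →
      ∀ x ∈ ⁅⁅commutator G, commutator G⁆, ⁅commutator G, commutator G⁆⁆, χ x = χ 1 := by
    intro χ hχ hχa x hx
    obtain ⟨H, lam, hχ2⟩ := hm inferInstance χ hχ
    have hi := hidx H lam b (by rw [← hχ2]; exact hχa)
    have h1 := Taketa.step (⁅commutator G, commutator G⁆ : Subgroup G) H lam (by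
      intro ψ hψ d hd hlt y hy
      rw [hi] at hlt
      rcases h ψ hψ with h2 | h2 | h2
      · rw [h2]
        exact hψ.isCharacter.eq_one_on_commutator h2 (Subgroup.commutator_le_self _ hy)
      · exact hA ψ hψ h2 y hy
      · have := cast_inj' hd h2; omega) x hx
    rw [hχ2]
    exact h1
  rw [eq_bot_iff]
  intro x hx
  rw [Subgroup.mem_bot]
  have hx2 : x ∈ (⁅commutator G, commutator G⁆ : Subgroup G) := Subgroup.commutator_le_self _ hx
  have hx1 : x ∈ commutator G := Subgroup.commutator_le_self _ hx2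
  have h2 : IsConj x 1 := by
    rw [isConj_iff_forall_irr]
    intro χ
    rcases h χ χ.2 with h2 | h2 | h2
    · rw [h2]; exact χ.2.isCharacter.eq_one_on_commutator h2 hx1
    · exact hA χ χ.2 h2 x hx2
    · exact hB χ χ.2 h2 x hx
  exact isConj_one_left.1 h2

theorem three_taketa [Finite G] {a b : ℕ} (h : Three a b G)
    (hm : ∀ (_ : Fintype G) (χ : G → ℂ), IsIrrCharacter G χ →
      ∃ (H : Subgroup G) (lam : H →* ℂˣ), χ = indFun H (fun h => (lam h : ℂ))) :
    ⁅⁅commutator G, commutator G⁆, ⁅commutator G, commutator G⁆⁆ = (⊥ : Subgroup G) := by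
  rcases le_total a b with hab | hab
  · exact three_taketa_aux hab h hm
  · exact three_taketa_aux hab h.symm hm

theorem dl2 [Finite G] {m : ℕ} (h : TwoDeg.TwoDeg m G) : ⁅commutator G, commutator G⁆ = (⊥ : Subgroup G) := by
  by_cases hm : m = 1
  · rw [commutator_eq_bot_of_linear (fun χ hχ => by
      rcases h χ hχ with h1 | h1
      · exact h1
      · rw [h1, hm, Nat.cast_one]), Subgroup.commutator_bot_left]
  by_cases hex : ∃ χ : G → ℂ, IsIrrCharacter G χ ∧ χ 1 = (m : ℂ)
  · exact Taketa.two h hm hex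
  · rw [commutator_eq_bot_of_linear (fun χ hχ => by
      rcases h χ hχ with h1 | h1
      · exact h1
      · exact absurd ⟨χ, hχ, h1⟩ hex), Subgroup.commutator_bot_left]

/-! ### Frobenius quotients -/

section Frob

variable [Finite G] (hU : ∀ M : Subgroup G, M.Normal → M ≠ ⊥ → commutator G ≤ M)
    (hne : commutator G ≠ ⊥) (hZ : center G = ⊥)
    (hab : ∀ x ∈ commutator G, ∀ y ∈ commutator G, x * y = y * x)

theorem D_le_F (hab : ∀ x ∈ commutator G, ∀ y ∈ commutator G, x * y = y * x) :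
    commutator G ≤ centralizer ((commutator G : Subgroup G) : Set G) := by
  intro x hx
  rw [Subgroup.mem_centralizer_iff]
  intro y hy
  exact hab y hy x hx

include hU hne hZ hab in
theorem fixF_bot {g : G} (hg : g ∉ centralizer ((commutator G : Subgroup G) : Set G)) :
    centralizer ((commutator G : Subgroup G) : Set G) ⊓ centralizer ({g} : Set G) = ⊥ := by
  have hFc := BFull.F_comm hU hne hZ hab
  have hDF := D_le_F hab
  set F := centralizer ((commutator G : Subgroup G) : Set G) with hF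
  have hFn : F.Normal := inferInstance
  have hn : (F ⊓ centralizer ({g} : Set G)).Normal := by
    refine ⟨fun n hn h => ?_⟩
    obtain ⟨hn1, hn2⟩ := Subgroup.mem_inf.1 hn
    refine Subgroup.mem_inf.2 ⟨hFn.conj_mem n hn1 h, ?_⟩
    rw [Subgroup.mem_centralizer_singleton_iff] at hn2 ⊢
    obtain ⟨d, hd, hd1⟩ := BFull.conj_D g h
    have h1 : n * (h⁻¹ * g * h) = (h⁻¹ * g * h) * n := by
      rw [hd1, ← mul_assoc, hn2, mul_assoc, hFc n hn1 d (hDF hd), mul_assoc]
    calc h * n * h⁻¹ * g = h * (n * (h⁻¹ * g * h)) * h⁻¹ := by group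
      _ = h * ((h⁻¹ * g * h) * n) * h⁻¹ := by rw [h1]
      _ = g * (h * n * h⁻¹) := by group
  by_contra hb
  apply hg
  have h1 := hU _ hn hb
  rw [hF, Subgroup.mem_centralizer_iff]
  intro x hx
  have h2 := (Subgroup.mem_inf.1 (h1 hx)).2
  rw [Subgroup.mem_centralizer_singleton_iff] at h2
  exact h2

include hne hZ in
theorem exists_not_mem_F : ∃ g : G, g ∉ centralizer ((commutator G : Subgroup G) : Set G) := by
  by_contra hcon
  push Not at hcon
  apply hne
  rw [eq_bot_iff, ← hZ]
  intro x hx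
  rw [Subgroup.mem_center_iff]
  intro g
  exact ((Subgroup.mem_centralizer_iff.1 (hcon g)) x hx).symm

include hU hne hZ hab in
theorem F_eq : centralizer ((commutator G : Subgroup G) : Set G) = commutator G := by
  obtain ⟨g, hg⟩ := exists_not_mem_F hne hZ
  apply le_antisymm _ (D_le_F hab)
  intro x hx
  have h1 : x⁻¹ * (g * x * g⁻¹) ∈ commutator G := by
    have : x⁻¹ * (g * x * g⁻¹) = ⁅x⁻¹, g⁆ := by rw [commutatorElement_def]; group
    rw [this]
    exact Subgroup.commutator_mem_commutator (Subgroup.mem_top _) (Subgroup.mem_top _)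
  obtain ⟨z, hz, hz1⟩ := BFull.surj hU hab hg _ h1
  have h2 : x * z⁻¹ ∈ centralizer ((commutator G : Subgroup G) : Set G) ⊓ centralizer ({g} : Set G) := by
    refine Subgroup.mem_inf.2 ⟨Subgroup.mul_mem _ hx (Subgroup.inv_mem _ (D_le_F hab hz)), ?_⟩
    rw [Subgroup.mem_centralizer_singleton_iff]
    have h3 : g * x * g⁻¹ = x * (z⁻¹ * (g * z * g⁻¹)) := by rw [hz1]; group
    calc x * z⁻¹ * g = x * (z⁻¹ * (g * z * g⁻¹)) * (g * z⁻¹ * g⁻¹) * g := by group
      _ = (g * x * g⁻¹) * (g * z⁻¹ * g⁻¹) * g := by rw [← h3]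
      _ = g * (x * z⁻¹) := by group
  rw [fixF_bot hU hne hZ hab hg, Subgroup.mem_bot, mul_inv_eq_one] at h2
  rw [h2]; exact hz

include hU hne hZ hab in
theorem F_coprime : Nat.Coprime (commutator G).index (Nat.card (commutator G)) := by
  classical
  rw [Nat.coprime_iff_gcd_eq_one]
  by_contra hg
  obtain ⟨q, hq, hqg⟩ := Nat.exists_prime_and_dvd hg
  have hq1 := hqg.trans (Nat.gcd_dvd_left _ _)
  have hq2 := hqg.trans (Nat.gcd_dvd_right _ _)
  haveI : Fact q.Prime := ⟨hq⟩
  obtain ⟨Q⟩ : Nonempty (Sylow q G) := inferInstance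
  -- an element of Q outside of the commutator subgroup
  have hex : ∃ g ∈ (Q : Subgroup G), g ∉ commutator G := by
    by_contra hcon
    push Not at hcon
    exact Q.not_dvd_index (hq1.trans (Subgroup.index_dvd_of_le hcon))
  obtain ⟨g, hgQ, hgD⟩ := hex
  -- the intersection is nontrivial
  have hint : (commutator G).subgroupOf (Q : Subgroup G) ≠ ⊥ := by
    intro h0
    obtain ⟨s, hs⟩ := exists_prime_orderOf_dvd_card' q hq2
    have hsp : IsPGroup q (zpowers (s : G)) := by
      refine IsPGroup.of_card (n := 1) ?_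
      rw [Nat.card_zpowers, Subgroup.orderOf_coe, hs, pow_one]
    obtain ⟨Q', hQ'⟩ := hsp.exists_le_sylow
    obtain ⟨k, hk⟩ := MulAction.exists_smul_eq G Q' Q
    have h2 : k * (s : G) * k⁻¹ ∈ (Q : Subgroup G) := by
      rw [← hk, Sylow.coe_subgroup_smul, Subgroup.mem_pointwise_smul_iff_inv_smul_mem]
      change k⁻¹ * (k * (s : G) * k⁻¹) * k ∈ (Q' : Subgroup G)
      have h3 : k⁻¹ * (k * (s : G) * k⁻¹) * k = s := by group
      rw [h3]
      exact hQ' (Subgroup.mem_zpowers _)
    have h4 : (⟨k * (s : G) * k⁻¹, h2⟩ : (Q : Subgroup G)) ∈ (commutator G).subgroupOf (Q : Subgroup G) :=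
      (inferInstance : (commutator G).Normal).conj_mem _ s.2 k
    rw [h0, Subgroup.mem_bot] at h4
    have h5 : k * (s : G) * k⁻¹ = 1 := congrArg Subtype.val h4
    have h6 : (s : G) = 1 := by
      calc (s : G) = k⁻¹ * (k * (s : G) * k⁻¹) * k := by group
        _ = 1 := by rw [h5]; group
    have h7 : s = 1 := Subtype.ext h6
    rw [h7, orderOf_one] at hs
    exact hq.one_lt.ne hs
  obtain ⟨w, hw, hw1, hwc⟩ := UniqueInvolution.exists_central_of_normal Q.2 ((commutator G).subgroupOf (Q : Subgroup G)) hint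
  have h1 : (w : G) ∈ centralizer ((commutator G : Subgroup G) : Set G) ⊓ centralizer ({g} : Set G) := by
    refine Subgroup.mem_inf.2 ⟨D_le_F hab hw, ?_⟩
    rw [Subgroup.mem_centralizer_singleton_iff]
    exact (congrArg Subtype.val (hwc ⟨g, hgQ⟩)).symm
  rw [fixF_bot hU hne hZ hab (by rw [F_eq hU hne hZ hab]; exact hgD), Subgroup.mem_bot] at h1
  exact hw1 (Subtype.ext h1)

include hU hne hZ hab in
theorem index_lt : (commutator G).index < Nat.card (commutator G) := by
  classical
  obtain ⟨x, hx⟩ := Subgroup.ne_bot_iff_exists_ne_one.1 hne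
  have hx1 : (x : G) ≠ 1 := fun h' => hx (Subtype.ext h')
  have hcen : centralizer ({(x : G)} : Set G) = commutator G := by
    apply le_antisymm
    · intro g hg
      by_contra hgD
      apply hx1
      have h1 : (x : G) ∈ centralizer ((commutator G : Subgroup G) : Set G) ⊓ centralizer ({g} : Set G) := by
        refine Subgroup.mem_inf.2 ⟨D_le_F hab x.2, ?_⟩
        rw [Subgroup.mem_centralizer_singleton_iff] at hg ⊢
        exact hg.symm
      rw [fixF_bot hU hne hZ hab (by rw [F_eq hU hne hZ hab]; exact hgD), Subgroup.mem_bot] at h1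
      exact h1
    · intro g hg
      rw [Subgroup.mem_centralizer_singleton_iff]
      exact hab g hg x x.2
  have h1 := card_isConj_mul_card_centralizer (x : G)
  rw [hcen] at h1
  have h2 := (commutator G).card_mul_index
  rw [mul_comm] at h1
  have h3 : Nat.card {h : G // IsConj (x : G) h} = (commutator G).index :=
    Nat.eq_of_mul_eq_mul_left Nat.card_pos (h1.trans h2.symm)
  rw [← h3]
  -- injection, missing 1
  have hmem : ∀ h : {h : G // IsConj (x : G) h}, (h : G) ∈ commutator G := by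
    rintro ⟨h, hh⟩
    obtain ⟨c, rfl⟩ := isConj_iff.1 hh
    exact (inferInstance : (commutator G).Normal).conj_mem _ x.2 c
  have hinj : Function.Injective (fun h : {h : G // IsConj (x : G) h} => (⟨h, hmem h⟩ : commutator G)) := by
    intro a b hab
    exact Subtype.ext (congrArg (fun z : commutator G => (z : G)) hab)
  have hns : ¬ Function.Surjective (fun h : {h : G // IsConj (x : G) h} => (⟨h, hmem h⟩ : commutator G)) := by
    intro hs
    obtain ⟨⟨h, hh⟩, h4⟩ := hs 1
    have h5 : h = 1 := congrArg (fun z : commutator G => (z : G)) h4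
    rw [h5] at hh
    exact hx1 (isConj_one_right.1 hh.symm)
  have h6 := Nat.card_le_card_of_injective _ hinj
  refine lt_of_le_of_ne h6 fun heq => hns ?_
  letI := Fintype.ofFinite {h : G // IsConj (x : G) h}
  letI := Fintype.ofFinite (commutator G)
  rw [Nat.card_eq_fintype_card, Nat.card_eq_fintype_card] at heq
  exact ((Fintype.bijective_iff_injective_and_card _).2 ⟨hinj, heq⟩).2

include hU hne hZ hab in
theorem exists_deg_index : ∃ φ : G → ℂ, IsIrrCharacter G φ ∧ φ 1 = ((commutator G).index : ℂ) := by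
  classical
  letI := Fintype.ofFinite G
  letI := Fintype.ofFinite (commutator G)
  obtain ⟨d, hd⟩ := (Subgroup.ne_bot_iff_exists_ne_one.1 hne)
  obtain ⟨lam, hlam⟩ : ∃ lam : IrrCharacter (commutator G), (lam : commutator G → ℂ) d ≠ (lam : commutator G → ℂ) 1 := by
    by_contra hcon
    push Not at hcon
    have := (isConj_iff_forall_irr d 1).2 hcon
    exact hd (isConj_one_left.1 this)
  have hlam1 : (lam : commutator G → ℂ) 1 = 1 :=
    lam.2.one_eq_one_of_comm (fun a b => Subtype.ext (hab a a.2 b b.2))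
  obtain ⟨a, ha⟩ := exists_cf lam.2 hlam1
  have hmul : ∀ x y : commutator G, (lam : commutator G → ℂ) (x * y) =
      (lam : commutator G → ℂ) x * (lam : commutator G → ℂ) y := by
    intro x y
    rw [ha]
    show ((ev (x * y) a : ℂˣ) : ℂ) = _
    rw [ev_mul]
    push_cast
    rfl
  have hin : ∀ g : G, g ∈ commutator G ↔ cj (commutator G) g (lam : commutator G → ℂ) = lam := by
    intro g
    constructor
    · intro hg
      exact cj_of_mem lam.2.isClassFunction hg
    · intro hg
      by_contra hgF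
      apply hlam
      obtain ⟨z, hz, hz1⟩ := BFull.surj hU hab (by rw [F_eq hU hne hZ hab]; exact hgF) d d.2
      have h1 := congrFun hg ⟨z, hz⟩
      rw [cj_apply] at h1
      have h2 : d = (⟨z, hz⟩ : commutator G)⁻¹ * ⟨g * z * g⁻¹, (inferInstance : (commutator G).Normal).conj_mem z hz g⟩ :=
        Subtype.ext hz1.symm
      rw [h2, hmul, h1, ← hmul, inv_mul_cancel]
  have h1 := corr_irr (N := commutator G) (T := commutator G) le_rfl lam.2 hin lam.2 (by
    have : resTo (commutator G) (commutator G) le_rfl (lam : commutator G → ℂ) = lam := rfl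
    rw [this, lam.2.classInner_self]
    exact one_ne_zero)
  refine ⟨_, h1.1, ?_⟩
  rw [IndFun.indFun_one, hlam1, mul_one]

end Frob

/-- product with a fully ramified character of a quotient -/
theorem mul_fully [Finite G] (N : Subgroup G) [N.Normal] (φ : IrrCharacter (G ⧸ N))
    (hv : ∀ x, x ∉ center (G ⧸ N) → (φ : (G ⧸ N) → ℂ) x = 0) {χ : G → ℂ} (hχ : IsIrrCharacter G χ)
    (hres : IsIrrCharacter ((center (G ⧸ N)).comap (QuotientGroup.mk' N))
      (fun z : (center (G ⧸ N)).comap (QuotientGroup.mk' N) => χ z)) :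
    IsIrrCharacter G (χ * fun g : G => (φ : (G ⧸ N) → ℂ) (g : G ⧸ N)) := by
  classical
  letI := Fintype.ofFinite G
  obtain ⟨Z, hZ⟩ : ∃ Z, Z = (center (G ⧸ N)).comap (QuotientGroup.mk' N) := ⟨_, rfl⟩
  rw [← hZ] at hres
  letI := Fintype.ofFinite Z
  have hidx : Z.index = (center (G ⧸ N)).index := by
    rw [hZ, Subgroup.index_comap_of_surjective _ (QuotientGroup.mk'_surjective N)]
  have hmemZ : ∀ g : G, g ∈ Z ↔ (g : G ⧸ N) ∈ center (G ⧸ N) := fun g => by rw [hZ]; rfl
  have hful := GalConj.fully φ.2 hv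
  rw [← hidx] at hful
  have hinf := φ.2.inflate N
  apply isIrr_of_isCharacter_of_norm_one (hχ.isCharacter.mul hinf.isCharacter)
  rw [classInner_def, inv_mul_eq_one₀ (by exact_mod_cast Nat.card_pos.ne')]
  have h2 : ∀ g : G, (χ * fun g : G => (φ : (G ⧸ N) → ℂ) (g : G ⧸ N)) g *
      conj ((χ * fun g : G => (φ : (G ⧸ N) → ℂ) (g : G ⧸ N)) g) =
      if g ∈ Z then χ g * conj (χ g) * Z.index else 0 := by
    intro g
    rw [Pi.mul_apply, map_mul]
    split_ifs with hg
    · have h3 := GalConj.norm_center φ.2 (z := (g : G ⧸ N)) ((hmemZ g).1 hg)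
      rw [hful] at h3
      have h33 : χ g * (φ : (G ⧸ N) → ℂ) (g : G ⧸ N) * (conj (χ g) * conj ((φ : (G ⧸ N) → ℂ) (g : G ⧸ N))) =
          χ g * conj (χ g) * ((φ : (G ⧸ N) → ℂ) (g : G ⧸ N) * conj ((φ : (G ⧸ N) → ℂ) (g : G ⧸ N))) := by ring
      rw [h33, h3]
    · have h3 : (φ : (G ⧸ N) → ℂ) (g : G ⧸ N) = 0 := hv _ (fun h' => hg ((hmemZ g).2 h'))
      rw [h3]; simp
  simp only [h2]
  rw [← Finset.sum_filter, ← Finset.sum_mul]
  have h4 : ∑ g ∈ Finset.univ.filter (fun g : G => g ∈ Z), χ g * conj (χ g) =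
      ∑ z : Z, (fun z : Z => χ z) z * conj ((fun z : Z => χ z) z) := by
    rw [Finset.sum_subtype (p := fun g => g ∈ Z) _ (by intro x; simp)]
  have h5 := hres.classInner_self
  rw [classInner_def, inv_mul_eq_one₀ (by exact_mod_cast Nat.card_pos.ne')] at h5
  rw [h4, ← h5]
  exact_mod_cast Z.card_mul_index.symm

theorem coprime_case_center [Finite G] {a b : ℕ} (h : Three a b G) (hab : Nat.Coprime a b) (ha : a ≠ 1) (hb : b ≠ 1)
    {χb : G → ℂ} (hχb : IsIrrCharacter G χb) (hχb1 : χb 1 = b) (N : Subgroup G) [N.Normal] (φ : IrrCharacter (G ⧸ N))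
    (hφ : (φ : (G ⧸ N) → ℂ) 1 = a)
    (hv : ∀ x, x ∉ center (G ⧸ N) → (φ : (G ⧸ N) → ℂ) x = 0) : False := by
  classical
  haveI : ((center (G ⧸ N)).comap (QuotientGroup.mk' N)).Normal := inferInstance
  have hful := GalConj.fully φ.2 hv
  rw [hφ] at hful
  have hidx : ((center (G ⧸ N)).comap (QuotientGroup.mk' N)).index = a * a := by
    rw [Subgroup.index_comap_of_surjective _ (QuotientGroup.mk'_surjective N)]
    exact_mod_cast hful.symm
  have hdb : charDegree χb = b := by
    have := BlockDeg.charDegree_cast_irr (⟨χb, hχb⟩ : IrrCharacter G)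
    exact cast_inj' this.symm hχb1
  have hres := RelDeg.res_irr_of_coprime ((center (G ⧸ N)).comap (QuotientGroup.mk' N)) hχb (by
    rw [hidx, hdb]
    exact (Nat.Coprime.mul_right hab.symm hab.symm))
  have hirr := mul_fully N φ hv hχb hres
  have hdeg : (χb * fun g : G => (φ : (G ⧸ N) → ℂ) (g : G ⧸ N)) 1 = ((b * a : ℕ) : ℂ) := by
    rw [Pi.mul_apply, hχb1]
    have : (φ : (G ⧸ N) → ℂ) ((1 : G) : G ⧸ N) = a := hφ
    rw [this]; push_cast; rfl
  have ha0 : a ≠ 0 := by
    rintro rfl
    exact φ.2.one_ne_zero (by rw [hφ, Nat.cast_zero])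
  have hb0 : b ≠ 0 := by
    rintro rfl
    exact hχb.one_ne_zero (by rw [hχb1, Nat.cast_zero])
  rcases h _ hirr with h1 | h1 | h1
  · have h2 : b * a = 1 := by rw [hdeg] at h1; exact_mod_cast h1
    exact hb (Nat.eq_one_of_mul_eq_one_right h2)
  · have h2 : b * a = a := cast_inj' hdeg h1
    have h3 : b * a = 1 * a := by rw [h2, one_mul]
    exact hb (Nat.eq_of_mul_eq_mul_right (Nat.pos_of_ne_zero ha0) h3)
  · have h2 : b * a = b := cast_inj' hdeg h1
    have h3 : b * a = b * 1 := by rw [h2, mul_one]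
    exact ha (Nat.eq_of_mul_eq_mul_left (Nat.pos_of_ne_zero hb0) h3)

theorem mul_inv_eq_of {x y z w : ℂ} (hy : y ≠ 0) (hw : w ≠ 0) (h : x * w = z * y) : x * y⁻¹ = z * w⁻¹ := by
  field_simp
  exact h.trans (mul_comm _ _)

/-- the Frobenius case: the preimage of the kernel has at most two degrees -/
theorem frob_two [Finite G] {a b : ℕ} (h : Three a b G) (hab : Nat.Coprime a b) (N : Subgroup G) [N.Normal]
    (hU : ∀ M : Subgroup (G ⧸ N), M.Normal → M ≠ ⊥ → commutator (G ⧸ N) ≤ M)
    (hne : commutator (G ⧸ N) ≠ ⊥) (hZ : center (G ⧸ N) = ⊥)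
    (hDab : ∀ x ∈ commutator (G ⧸ N), ∀ y ∈ commutator (G ⧸ N), x * y = y * x)
    (hia : (commutator (G ⧸ N)).index = a) (hb0 : b ≠ 0)
    (K : Subgroup G) [hK : K.Normal] (hNK : N ≤ K) (hKi : K.index = a)
    (π : K →* commutator (G ⧸ N)) (hπs : Function.Surjective π)
    (hπ : ∀ k : K, ((π k : commutator (G ⧸ N)) : G ⧸ N) = QuotientGroup.mk' N k)
    (hKD : ∀ g : G, g ∈ K ↔ QuotientGroup.mk' N g ∈ commutator (G ⧸ N))
    (hrel : (N.subgroupOf K).index = Nat.card (commutator (G ⧸ N))) : TwoDeg.TwoDeg b K := by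
  classical
  letI := Fintype.ofFinite G
  letI := Fintype.ofFinite K
  have hcop := F_coprime hU hne hZ hDab
  rw [hia] at hcop
  have hlt := index_lt hU hne hZ hDab
  rw [hia] at hlt
  -- degrees of characters over a nonlinear character
  have hdegs : ∀ ψ : K → ℂ, IsIrrCharacter K ψ → ∀ s : ℕ, ψ 1 = s → s ≠ 1 → s ≠ b → ∀ χ : G → ℂ,
      IsIrrCharacter G χ → classInner (fun x : K => χ x) ψ ≠ 0 → χ 1 = a ∧ s ∣ a := by
    intro ψ hψ s hs hs1 hsb χ hχ hχψ
    obtain ⟨m, hm, hm1⟩ := hχ.exists_degree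
    obtain ⟨f, hf, hfi⟩ := DegRatio.degree_ratio hχ hψ hχψ hm1 hs
    rw [hKi] at hfi
    rcases h χ hχ with h1 | h1 | h1
    · exfalso
      have h2 : m = 1 := by rw [hm1] at h1; exact_mod_cast h1
      rw [h2] at hf
      exact hs1 (Nat.eq_one_of_mul_eq_one_left hf.symm)
    · exact ⟨h1, by rw [cast_inj' hm1 h1] at hf; rw [hf]; exact Dvd.intro_left f rfl⟩
    · exfalso
      have h2 : m = b := cast_inj' hm1 h1
      rw [h2] at hf
      have h3 : f = 1 := Nat.eq_one_of_dvd_coprimes hab hfi (by rw [hf]; exact Dvd.intro s rfl)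
      rw [h3, one_mul] at hf
      exact hsb hf.symm
  intro ψ hψ
  obtain ⟨s, hs0, hs⟩ := hψ.exists_degree
  by_contra hcon
  push Not at hcon
  have hs1 : s ≠ 1 := by
    rintro rfl
    exact hcon.1 (by rw [hs, Nat.cast_one])
  have hsb : s ≠ b := by
    rintro rfl
    exact hcon.2 hs
  obtain ⟨χ0, hχ0, hχ0ψ⟩ := exists_over K hψ
  have hsa := (hdegs ψ hψ s hs hs1 hsb χ0 hχ0 hχ0ψ).2
  -- `ψ` restricted to `N` is irreducible
  have hresN : IsIrrCharacter (N.subgroupOf K) (fun n : N.subgroupOf K => ψ n) := by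
    apply RelDeg.res_irr_of_coprime (N.subgroupOf K) hψ
    have hds : charDegree ψ = s := cast_inj' (BlockDeg.charDegree_cast_irr (⟨ψ, hψ⟩ : IrrCharacter K)).symm hs
    rw [hds, hrel]
    exact hcop.coprime_dvd_left hsa
  -- the twists
  obtain ⟨tw, htw⟩ : ∃ tw : (commutator (G ⧸ N) →* ℂˣ) → K → ℂ, tw = fun lam k => ψ k * ((lam (π k) : ℂˣ) : ℂ) := ⟨_, rfl⟩
  have htwirr : ∀ lam, IsIrrCharacter K (tw lam) := by
    intro lam
    have h1 : IsIrrCharacter K (fun k => (((lam.comp π) k : ℂˣ) : ℂ)) := isIrrCharacter_of_unitsHom (lam.comp π)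
    have h2 := hψ.mul_linear h1.isCharacter (by simp)
    rw [htw]
    exact h2
  have htw1 : ∀ lam, tw lam 1 = s := by
    intro lam
    rw [htw]
    simp [hs]
  have hinert : ∀ lam, ∃ g : G, g ∉ K ∧ cj K g (tw lam) = tw lam := by
    intro lam
    by_contra hno
    push Not at hno
    obtain ⟨χ, hχ, hχl⟩ := exists_over K (htwirr lam)
    have h1 := (hdegs (tw lam) (htwirr lam) s (htw1 lam) hs1 hsb χ hχ hχl).1
    have h2 := degree_clifford hχ (htwirr lam) hχl
    have h3 : inertia K (tw lam) = K := by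
      apply le_antisymm
      · intro g hg
        by_contra hgK
        exact hno g hgK hg
      · exact le_inertia (htwirr lam).isClassFunction
    obtain ⟨e, he⟩ := (hχ.isCharacter.restrict K).classInner_nat (htwirr lam).isCharacter
    rw [h1, h3, hKi, he, htw1 lam] at h2
    have h4 : a = e * (a * s) := by exact_mod_cast h2
    have ha0 : a ≠ 0 := by rw [← hKi]; exact Subgroup.index_ne_zero_of_finite
    have h5 : a * 1 = a * (e * s) := by rw [mul_one]; calc a = e * (a * s) := h4
      _ = a * (e * s) := by ring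
    have h6 := Nat.eq_of_mul_eq_mul_left (Nat.pos_of_ne_zero ha0) h5
    exact hs1 (Nat.eq_one_of_mul_eq_one_left h6.symm)
  choose gg hgK hgcj using hinert
  -- the map is injective
  have hkey : ∀ lam mu : commutator (G ⧸ N) →* ℂˣ, ∀ g : G, g ∉ K → cj K g (tw lam) = tw lam →
      cj K g (tw mu) = tw mu → lam = mu := by
    intro lam mu g hg hl hm
    set nu := lam * mu⁻¹ with hnu
    have h1 : ∀ k : K, ψ k ≠ 0 → nu (π ⟨g * k * g⁻¹, hK.conj_mem k k.2 g⟩) = nu (π k) := by
      intro k hk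
      have h2 := congrFun hl k
      have h3 := congrFun hm k
      rw [cj_apply, htw] at h2 h3
      simp only at h2 h3
      have h4 : ψ ⟨g * k * g⁻¹, hK.conj_mem k k.2 g⟩ ≠ 0 := by
        intro h0
        rw [h0, zero_mul] at h2
        exact mul_ne_zero hk (Units.ne_zero _) h2.symm
      apply Units.ext
      rw [hnu, MonoidHom.mul_apply, MonoidHom.mul_apply, MonoidHom.inv_apply, MonoidHom.inv_apply]
      push_cast
      have h5 : ((mu (π ⟨g * k * g⁻¹, hK.conj_mem k k.2 g⟩) : ℂˣ) : ℂ) ≠ 0 := Units.ne_zero _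
      have h6 : ((mu (π k) : ℂˣ) : ℂ) ≠ 0 := Units.ne_zero _
      apply mul_inv_eq_of h5 h6
      have h7 : ψ ⟨g * k * g⁻¹, hK.conj_mem k k.2 g⟩ * (((lam (π ⟨g * k * g⁻¹, hK.conj_mem k k.2 g⟩) : ℂˣ) : ℂ) *
          ((mu (π k) : ℂˣ) : ℂ)) * ψ k = ψ ⟨g * k * g⁻¹, hK.conj_mem k k.2 g⟩ * (((lam (π k) : ℂˣ) : ℂ) *
          ((mu (π ⟨g * k * g⁻¹, hK.conj_mem k k.2 g⟩) : ℂˣ) : ℂ)) * ψ k := by
        calc ψ ⟨g * k * g⁻¹, hK.conj_mem k k.2 g⟩ * (((lam (π ⟨g * k * g⁻¹, hK.conj_mem k k.2 g⟩) : ℂˣ) : ℂ) *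
          ((mu (π k) : ℂˣ) : ℂ)) * ψ k = (ψ ⟨g * k * g⁻¹, hK.conj_mem k k.2 g⟩ *
            ((lam (π ⟨g * k * g⁻¹, hK.conj_mem k k.2 g⟩) : ℂˣ) : ℂ)) * (ψ k * ((mu (π k) : ℂˣ) : ℂ)) := by ring
          _ = (ψ k * ((lam (π k) : ℂˣ) : ℂ)) * (ψ ⟨g * k * g⁻¹, hK.conj_mem k k.2 g⟩ *
            ((mu (π ⟨g * k * g⁻¹, hK.conj_mem k k.2 g⟩) : ℂˣ) : ℂ)) := by rw [h2, h3]
          _ = _ := by ring
      exact mul_left_cancel₀ h4 (mul_right_cancel₀ hk h7)
    -- the linear character σ
    let cg : K →* K := (MulAut.conjNormal g).toMonoidHom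
    have hcg : ∀ k : K, cg k = ⟨g * k * g⁻¹, hK.conj_mem k k.2 g⟩ := fun k => by
      apply Subtype.ext
      exact MulAut.conjNormal_apply g k
    let σ : K →* ℂˣ := (nu.comp (π.comp cg)) * (nu.comp π)⁻¹
    have hσ : ∀ k : K, σ k = nu (π ⟨g * k * g⁻¹, hK.conj_mem k k.2 g⟩) * (nu (π k))⁻¹ := fun k => by
      rw [← hcg k]; rfl
    have hσ1 : (fun k => ((σ k : ℂˣ) : ℂ)) * ψ = (fun k => (((1 : K →* ℂˣ) k : ℂˣ) : ℂ)) * ψ := by
      funext k
      rw [Pi.mul_apply, Pi.mul_apply]
      by_cases hk : ψ k = 0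
      · rw [hk, mul_zero, mul_zero]
      · rw [hσ k, h1 k hk, mul_inv_cancel]; simp
    have hNtriv : ∀ n : K, (n : G) ∈ N → π n = 1 := by
      intro n hn
      apply Subtype.ext
      rw [hπ]
      exact (QuotientGroup.eq_one_iff _).2 hn
    have hσN : ∀ n : N.subgroupOf K, ((σ (n : K) : ℂˣ) : ℂ) = ((σ 1 : ℂˣ) : ℂ) := by
      intro n
      rw [map_one, hσ]
      rw [hNtriv (n : K) n.2, hNtriv ⟨g * (n : K) * g⁻¹, _⟩ ((inferInstance : N.Normal).conj_mem _ n.2 g)]
      simp
    have hbij := (CanonExt.bijOn hresN hψ (fun n => rfl)).injOn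
    have h8 := hbij ⟨isIrrCharacter_of_unitsHom σ, hσN⟩
      ⟨isIrrCharacter_of_unitsHom (1 : K →* ℂˣ), fun n => rfl⟩ hσ1
    have h9 : ∀ k : K, nu (π ⟨g * k * g⁻¹, hK.conj_mem k k.2 g⟩) = nu (π k) := by
      intro k
      have h10 := congrFun h8 k
      have h11 : σ k = 1 := Units.ext (by rw [h10]; rfl)
      rw [hσ, mul_inv_eq_one] at h11
      exact h11
    have hnu1 : nu = 1 := by
      ext c
      have hgF : QuotientGroup.mk' N g ∉ centralizer ((commutator (G ⧸ N) : Subgroup (G ⧸ N)) : Set (G ⧸ N)) := by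
        rw [F_eq hU hne hZ hDab]
        exact fun h' => hg ((hKD g).2 h')
      obtain ⟨z, hz, hz1⟩ := BFull.surj hU hDab hgF c c.2
      obtain ⟨k, hk⟩ := hπs ⟨z, hz⟩
      have h10 := h9 k
      rw [hk] at h10
      have h11 : π ⟨g * k * g⁻¹, hK.conj_mem k k.2 g⟩ = ⟨z, hz⟩ * c := by
        apply Subtype.ext
        have h12 : z = QuotientGroup.mk' N (k : G) := by rw [← hπ k, hk]
        rw [hπ]
        show QuotientGroup.mk' N (g * k * g⁻¹) = z * c
        rw [← hz1, map_mul, map_mul, map_inv, ← h12]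
        group
      rw [h11, map_mul] at h10
      have h12 : nu c = 1 := by
        have : nu ⟨z, hz⟩ * nu c = nu ⟨z, hz⟩ * 1 := by rw [h10, mul_one]
        exact mul_left_cancel this
      rw [h12]
      rfl
    apply MonoidHom.ext
    intro c
    have h10 := DFunLike.congr_fun hnu1 c
    have h11 : nu c = lam c * (mu c)⁻¹ := rfl
    rw [h11] at h10
    exact mul_inv_eq_one.1 h10
  have hinj : Function.Injective (fun lam => (QuotientGroup.mk (s := K) (gg lam))) := by
    intro lam mu hlm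
    simp only at hlm
    rw [QuotientGroup.eq] at hlm
    apply hkey lam mu (gg mu) (hgK mu) _ (hgcj mu)
    have h1 : gg lam ∈ inertia K (tw lam) := mem_inertia.2 (hgcj lam)
    have h2 : (gg lam)⁻¹ * gg mu ∈ inertia K (tw lam) := le_inertia (htwirr lam).isClassFunction hlm
    have h3 := Subgroup.mul_mem _ h1 h2
    rw [mul_inv_cancel_left] at h3
    exact mem_inertia.1 h3
  haveI : Finite (commutator (G ⧸ N) →* ℂˣ) := by
    apply Nat.finite_of_card_ne_zero
    rw [card_hom_units]
    exact Subgroup.index_ne_zero_of_finite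
  have h1 := Nat.card_le_card_of_injective _ hinj
  have h2 : Nat.card (commutator (G ⧸ N) →* ℂˣ) = Nat.card (commutator (G ⧸ N)) := by
    rw [card_hom_units]
    have : commutator (commutator (G ⧸ N)) = ⊥ := by
      rw [eq_bot_iff]
      refine Subgroup.commutator_le.2 fun g _ k _ => ?_
      rw [Subgroup.mem_bot, commutatorElement_eq_one_iff_mul_comm]
      exact Subtype.ext (hDab g g.2 k k.2)
    rw [this, Subgroup.index_bot]
  rw [h2] at h1
  have h3 : Nat.card (G ⧸ K) = a := hKi
  omega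

/-- the third derived subgroup of a subgroup containing the commutator subgroup -/
theorem d3_le [Finite G] (K : Subgroup G) (hK : commutator G ≤ K)
    (h : ⁅commutator K, commutator K⁆ = (⊥ : Subgroup K)) :
    ⁅⁅commutator G, commutator G⁆, ⁅commutator G, commutator G⁆⁆ = (⊥ : Subgroup G) := by
  have h1 : ⁅⁅K, K⁆, ⁅K, K⁆⁆ = (⊥ : Subgroup G) := by
    rw [← Subgroup.map_subtype_commutator K, ← Subgroup.map_commutator, h, Subgroup.map_bot]
  rw [eq_bot_iff, ← h1]
  exact Subgroup.commutator_mono (Subgroup.commutator_mono hK hK) (Subgroup.commutator_mono hK hK)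

theorem coprime_dl [Finite G] {a b : ℕ} (h : Three a b G) (hab : Nat.Coprime a b) :
    ⁅⁅commutator G, commutator G⁆, ⁅commutator G, commutator G⁆⁆ = (⊥ : Subgroup G) := by
  classical
  letI := Fintype.ofFinite G
  -- trivial reductions to two degrees
  have htwo : ∀ m : ℕ, TwoDeg.TwoDeg m G →
      ⁅⁅commutator G, commutator G⁆, ⁅commutator G, commutator G⁆⁆ = (⊥ : Subgroup G) := by
    intro m hm
    rw [dl2 hm, Subgroup.commutator_bot_left]
  have hred : ∀ (a b : ℕ), Three a b G → (a = 1 ∨ ¬ ∃ χ : G → ℂ, IsIrrCharacter G χ ∧ χ 1 = (a : ℂ)) →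
      TwoDeg.TwoDeg b G := by
    intro a b h ha χ hχ
    rcases h χ hχ with h1 | h1 | h1
    · exact Or.inl h1
    · rcases ha with rfl | ha
      · left; rw [h1, Nat.cast_one]
      · exact absurd ⟨χ, hχ, h1⟩ ha
    · exact Or.inr h1
  by_cases haa : a = 1 ∨ ¬ ∃ χ : G → ℂ, IsIrrCharacter G χ ∧ χ 1 = (a : ℂ)
  · exact htwo b (hred a b h haa)
  by_cases hbb : b = 1 ∨ ¬ ∃ χ : G → ℂ, IsIrrCharacter G χ ∧ χ 1 = (b : ℂ)
  · exact htwo a (hred b a h.symm hbb)
  push Not at haa hbb
  obtain ⟨ha1, χa, hχa, hχa1⟩ := haa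
  obtain ⟨hb1, χb, hχb, hχb1⟩ := hbb
  have ha0 : a ≠ 0 := by
    rintro rfl
    exact hχa.one_ne_zero (by rw [hχa1, Nat.cast_zero])
  have hb0 : b ≠ 0 := by
    rintro rfl
    exact hχb.one_ne_zero (by rw [hχb1, Nat.cast_zero])
  have hsolv := solvable _ G rfl a b h
  have hne : commutator G ≠ ⊥ := by
    intro h0
    have : χa 1 = 1 := by
      apply hχa.one_eq_one_of_comm
      intro x y
      have h1 : ⁅x, y⁆ ∈ commutator G := Subgroup.commutator_mem_commutator (Subgroup.mem_top x) (Subgroup.mem_top y)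
      rw [h0, Subgroup.mem_bot] at h1
      exact commutatorElement_eq_one_iff_mul_comm.1 h1
    rw [hχa1] at this
    exact ha1 (by exact_mod_cast this)
  obtain ⟨N, hN, hND, hU, hDne⟩ := BFull.exists_N hne
  by_cases hZ : center (G ⧸ N) = ⊥
  swap
  · exfalso
    obtain ⟨φ, h1, hv⟩ := BFull.exists_fully hU hDne hZ
    rcases (h.quot N) φ φ.2 with h2 | h2 | h2
    · exact h1 h2
    · exact coprime_case_center h hab ha1 hb1 hχb hχb1 N φ h2 hv
    · exact coprime_case_center h.symm hab.symm hb1 ha1 hχa hχa1 N φ h2 hv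
  have hDab : ∀ x ∈ commutator (G ⧸ N), ∀ y ∈ commutator (G ⧸ N), x * y = y * x := by
    haveI : Group.IsSolvable (G ⧸ N) := by
      haveI := hsolv
      infer_instance
    have h2 : ⁅commutator (G ⧸ N), commutator (G ⧸ N)⁆ < commutator (G ⧸ N) :=
      Group.IsSolvable.commutator_lt_of_ne_bot hDne
    intro x hx y hy
    by_cases h3 : ⁅commutator (G ⧸ N), commutator (G ⧸ N)⁆ = ⊥
    · have h4 := Subgroup.commutator_mem_commutator hx hy
      rw [h3, Subgroup.mem_bot] at h4
      exact commutatorElement_eq_one_iff_mul_comm.1 h4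
    · exact absurd (hU _ inferInstance h3) h2.not_ge
  obtain ⟨φ, hφ, hφ1⟩ := exists_deg_index hU hDne hZ hDab
  obtain ⟨K, hKdef⟩ : ∃ K : Subgroup G, K = (commutator (G ⧸ N)).comap (QuotientGroup.mk' N) := ⟨_, rfl⟩
  have hKn : K.Normal := by rw [hKdef]; infer_instance
  have hKi : K.index = (commutator (G ⧸ N)).index := by
    rw [hKdef, Subgroup.index_comap_of_surjective _ (QuotientGroup.mk'_surjective N)]
  have hNK : N ≤ K := by
    intro n hn
    rw [hKdef, Subgroup.mem_comap, QuotientGroup.mk'_apply, (QuotientGroup.eq_one_iff n).2 hn]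
    exact Subgroup.one_mem _
  have hKD : ∀ g : G, g ∈ K ↔ QuotientGroup.mk' N g ∈ commutator (G ⧸ N) := fun g => by rw [hKdef]; rfl
  have hGK : commutator G ≤ K := by
    rw [hKdef]
    refine Subgroup.commutator_le.2 fun g _ k _ => ?_
    rw [Subgroup.mem_comap, map_commutatorElement]
    exact Subgroup.commutator_mem_commutator (Subgroup.mem_top _) (Subgroup.mem_top _)
  obtain ⟨π, hπs, hπ⟩ : ∃ π : K →* commutator (G ⧸ N), Function.Surjective π ∧
      ∀ k : K, ((π k : commutator (G ⧸ N)) : G ⧸ N) = QuotientGroup.mk' N k := by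
    subst hKdef
    exact ⟨(QuotientGroup.mk' N).subgroupComap (commutator (G ⧸ N)),
      MonoidHom.subgroupComap_surjective_of_surjective _ _ (QuotientGroup.mk'_surjective N), fun k => rfl⟩
  have hrel : (N.subgroupOf K).index = Nat.card (commutator (G ⧸ N)) := by
    have h1 : N.subgroupOf K = π.ker := by
      ext x
      rw [MonoidHom.mem_ker]
      constructor
      · intro hx
        apply Subtype.ext
        rw [hπ]
        exact (QuotientGroup.eq_one_iff _).2 hx
      · intro hx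
        have h2 := hπ x
        rw [hx] at h2
        exact (QuotientGroup.eq_one_iff (x : G)).1 h2.symm
    rw [h1, Subgroup.index_ker, MonoidHom.range_eq_top.2 hπs, Subgroup.card_top]
  have hi1 : (commutator (G ⧸ N)).index ≠ 1 := by
    intro h1
    rw [Subgroup.index_eq_one] at h1
    apply hDne
    rw [eq_bot_iff, ← hZ]
    intro x hx
    rw [Subgroup.mem_center_iff]
    intro g
    exact hDab g (by rw [h1]; trivial) x hx
  rcases (h.quot N) φ hφ with h2 | h2 | h2
  · exfalso
    rw [hφ1] at h2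
    exact hi1 (by exact_mod_cast h2)
  · have h3 := cast_inj' hφ1 h2
    exact d3_le K hGK (dl2 (frob_two h hab N hU hDne hZ hDab h3 hb0 K hNK (hKi.trans h3) π hπs hπ hKD hrel))
  · have h3 := cast_inj' hφ1 h2
    exact d3_le K hGK (dl2 (frob_two h.symm hab.symm N hU hDne hZ hDab h3 ha0 K hNK (hKi.trans h3) π hπs hπ hKD hrel))

/-- **At most three degrees**: the derived length is at most three. -/
theorem main (n : ℕ) : ∀ (G : Type u) [Group G] [Finite G], Nat.card G = n → ∀ a b : ℕ, Three a b G →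
    ⁅⁅commutator G, commutator G⁆, ⁅commutator G, commutator G⁆⁆ = (⊥ : Subgroup G) := by
  induction n using Nat.strong_induction_on with
  | _ n ih =>
    intro G _ _ hn a b h
    classical
    letI := Fintype.ofFinite G
    by_cases hex : ∃ p : ℕ, p.Prime ∧ p ∣ a ∧ p ∣ b
    swap
    · have hab : Nat.Coprime a b := by
        rw [Nat.coprime_iff_gcd_eq_one]
        by_contra hg
        obtain ⟨p, hp, hpg⟩ := Nat.exists_prime_and_dvd hg
        exact hex ⟨p, hp, hpg.trans (Nat.gcd_dvd_left a b), hpg.trans (Nat.gcd_dvd_right a b)⟩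
      exact coprime_dl h hab
    obtain ⟨p, hp, hpa, hpb⟩ := hex
    haveI : Fact p.Prime := ⟨hp⟩
    by_cases hG : p ∣ Nat.card G
    swap
    · rw [h.abelian_of_coprime hp hpa hpb hG, Subgroup.commutator_bot_left, Subgroup.commutator_bot_left]
    obtain ⟨M, hM, hMc, k, hMi⟩ := h.exists_compl hp hpa hpb
    have hMtop : M ≠ ⊤ := by
      rintro rfl
      rw [Subgroup.card_top] at hMc
      exact (hp.coprime_iff_not_dvd.1 hMc.symm) hG
    have hTM := h.compl hp M hMc hMi
    have hD3M := ih (Nat.card M) (by rw [← hn]; exact card_sub_lt M hMtop) M rfl _ _ hTM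
    have hnilQ : Group.IsNilpotent (G ⧸ M) := (IsPGroup.of_card (p := p) (n := k) hMi).isNilpotent
    by_cases hMab : ∀ x ∈ M, ∀ y ∈ M, x * y = y * x
    · -- monomial case
      refine three_taketa h fun _ χ hχ => mono M hMab ?_ hnilQ hχ
      rw [hMi]
      exact (hMc.pow_right k).symm
    -- the quotient by the commutator subgroup of `M`
    obtain ⟨M1, hM1⟩ : ∃ M1 : Subgroup G, M1 = ⁅M, M⁆ := ⟨_, rfl⟩
    haveI hM1n : M1.Normal := by rw [hM1]; infer_instance
    -- degrees of the quotient are powers of `p`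
    have hpow : ∀ χ : (G ⧸ M1) → ℂ, IsIrrCharacter (G ⧸ M1) χ → ∃ j : ℕ, χ 1 = ((p ^ j : ℕ) : ℂ) := by
      intro χ hχ
      obtain ⟨m, hm, hm1⟩ := hχ.exists_degree
      haveI : (M.map (QuotientGroup.mk' M1)).Normal := hM.map _ (QuotientGroup.mk'_surjective M1)
      have h1 := CharDegrees.ito hχ (M.map (QuotientGroup.mk' M1)) (by
        rintro _ ⟨x, hx, rfl⟩ _ ⟨y, hy, rfl⟩
        rw [← commutatorElement_eq_one_iff_mul_comm, ← map_commutatorElement, QuotientGroup.mk'_apply,
          QuotientGroup.eq_one_iff, hM1]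
        exact Subgroup.commutator_mem_commutator hx hy) m hm1
      have h2 : (M.map (QuotientGroup.mk' M1)).index = M.index := by
        apply Subgroup.index_map_eq _ (QuotientGroup.mk'_surjective M1)
        rw [QuotientGroup.ker_mk', hM1]
        exact Subgroup.commutator_le_self M
      rw [h2, hMi, Nat.dvd_prime_pow hp] at h1
      obtain ⟨j, -, rfl⟩ := h1
      exact ⟨j, hm1⟩
    -- pull back
    have hpull : ∀ m : ℕ, TwoDeg.TwoDeg m (G ⧸ M1) → ⁅commutator G, commutator G⁆ ≤ M1 := by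
      intro m hm
      have h1 := dl2 hm
      have h2 : (commutator G).map (QuotientGroup.mk' M1) = commutator (G ⧸ M1) := by
        rw [_root_.commutator_def, Subgroup.map_commutator, Subgroup.map_top_of_surjective _ (QuotientGroup.mk'_surjective M1)]
        rfl
      rw [← h2, ← Subgroup.map_commutator, Subgroup.map_eq_bot_iff, QuotientGroup.ker_mk'] at h1
      exact h1
    have hfin : ∀ m : ℕ, TwoDeg.TwoDeg m M → ⁅commutator G, commutator G⁆ ≤ M1 →
        ⁅⁅commutator G, commutator G⁆, ⁅commutator G, commutator G⁆⁆ = (⊥ : Subgroup G) := by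
      intro m hm hle
      have h1 := dl2 hm
      have h2 : ⁅M1, M1⁆ = (⊥ : Subgroup G) := by
        rw [hM1, ← Subgroup.map_subtype_commutator M, ← Subgroup.map_commutator, h1, Subgroup.map_bot]
      rw [eq_bot_iff, ← h2]
      exact Subgroup.commutator_mono hle hle
    -- if the p'-part of a degree is not 1 then the degree is not a power of p
    have hnp : ∀ (m : ℕ), m / p ^ m.factorization p ≠ 1 → ∀ j : ℕ, m ≠ p ^ j := by
      intro m hm j hj
      apply hm
      rw [hj, hp.factorization_pow, Finsupp.single_eq_same]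
      exact Nat.div_self (pow_pos hp.pos _)
    by_cases ha' : a / p ^ a.factorization p = 1
    · by_cases hb' : b / p ^ b.factorization p = 1
      · exfalso
        apply hMab
        intro x hx y hy
        have h1 := comm_of_forall_irr_linear (G := M) (fun θ hθ => by
          rcases hTM θ hθ with h1 | h1 | h1
          · exact h1
          · rw [h1, ha', Nat.cast_one]
          · rw [h1, hb', Nat.cast_one]) ⟨x, hx⟩ ⟨y, hy⟩
        exact congrArg Subtype.val h1
      · -- degrees of the quotient : 1, a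
        apply hfin (b / p ^ b.factorization p) (fun θ hθ => by
          rcases hTM θ hθ with h1 | h1 | h1
          · exact Or.inl h1
          · left; rw [h1, ha', Nat.cast_one]
          · exact Or.inr h1)
        apply hpull a
        intro χ hχ
        rcases (h.quot M1) χ hχ with h1 | h1 | h1
        · exact Or.inl h1
        · exact Or.inr h1
        · obtain ⟨j, hj⟩ := hpow χ hχ
          exact absurd (cast_inj' h1 hj) (hnp b hb' j)
    · by_cases hb' : b / p ^ b.factorization p = 1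
      · apply hfin (a / p ^ a.factorization p) (fun θ hθ => by
          rcases hTM θ hθ with h1 | h1 | h1
          · exact Or.inl h1
          · exact Or.inr h1
          · left; rw [h1, hb', Nat.cast_one])
        apply hpull b
        intro χ hχ
        rcases (h.quot M1) χ hχ with h1 | h1 | h1
        · exact Or.inl h1
        · obtain ⟨j, hj⟩ := hpow χ hχ
          exact absurd (cast_inj' h1 hj) (hnp a ha' j)
        · exact Or.inr h1
      · -- the quotient is abelian
        have h1 : commutator (G ⧸ M1) = ⊥ := by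
          apply commutator_eq_bot_of_linear
          intro χ hχ
          obtain ⟨j, hj⟩ := hpow χ hχ
          rcases (h.quot M1) χ hχ with h1 | h1 | h1
          · exact h1
          · exact absurd (cast_inj' h1 hj) (hnp a ha' j)
          · exact absurd (cast_inj' h1 hj) (hnp b hb' j)
        have h2 : commutator G ≤ M1 := by
          refine Subgroup.commutator_le.2 fun g _ k _ => ?_
          rw [← QuotientGroup.eq_one_iff, ← QuotientGroup.mk'_apply, map_commutatorElement, ← Subgroup.mem_bot, ← h1]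
          exact Subgroup.commutator_mem_commutator (Subgroup.mem_top _) (Subgroup.mem_top _)
        have h3 : ⁅⁅M1, M1⁆, ⁅M1, M1⁆⁆ = (⊥ : Subgroup G) := by
          rw [hM1, ← Subgroup.map_subtype_commutator M, ← Subgroup.map_commutator, ← Subgroup.map_commutator, hD3M,
            Subgroup.map_bot]
        rw [eq_bot_iff, ← h3]
        exact Subgroup.commutator_mono (Subgroup.commutator_mono h2 h2) (Subgroup.commutator_mono h2 h2)

end Cfsg.Agent.Lib.ThreeDeg
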