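import Mathlib
import Cfsg.Agent.Lib.AutAlt
import Cfsg.Agent.Lib.H70Frattini

/-!
# 3-minimal alternating groups (helper51)
-/

set_option autoImplicit false

namespace Cfsg.Agent.Lib.ThreeMin

open Equiv Equiv.Perm

variable {α : Type*} [Fintype α] [DecidableEq α]

theorem gen_of {H : Subgroup (Perm α)} {u v : α} (huv : u ≠ v)
    (h : ∀ i, i ≠ u → i ≠ v → swap u i * swap u v ∈ H) : alternatingGroup α ≤ H := by
  rw [← closure_three_cycles_eq_alternating, Subgroup.closure_le]
  intro g hg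
  exact AutAlt.threeCycle_mem_of_base H huv h hg

/-- two proper overgroups generating the alternating group -/
def Good (S : Subgroup (Perm α)) : Prop :=
  ∃ M₁ M₂ : Subgroup (Perm α), S ≤ M₁ ∧ S ≤ M₂ ∧ ¬ alternatingGroup α ≤ M₁ ∧ ¬ alternatingGroup α ≤ M₂ ∧
    ∀ H : Subgroup (Perm α), M₁ ⊓ alternatingGroup α ≤ H → M₂ ⊓ alternatingGroup α ≤ H → alternatingGroup α ≤ H

/-- set stabilizer -/
def stS (A : Set α) : Subgroup (Perm α) where
  carrier := {g | ∀ x, g x ∈ A ↔ x ∈ A}
  one_mem' := fun x => Iff.rfl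
  mul_mem' := by
    intro g h hg hh x
    rw [Perm.mul_apply, hg, hh]
  inv_mem' := by
    intro g hg x
    rw [← hg (g⁻¹ x), ← Perm.mul_apply, mul_inv_cancel, Perm.one_apply]

omit [Fintype α] [DecidableEq α] in
theorem mem_stS_of_fix {A : Set α} {g : Perm α} (h : ∀ x ∈ A, g x = x) : g ∈ stS A := by
  intro x
  constructor
  · intro h1
    have h2 := h _ h1
    have h3 := g.injective h2
    rwa [h3] at h1
  · intro h1
    rw [h x h1]; exact h1

theorem base_mem {u v i : α} (huv : u ≠ v) (hi : i ≠ u) (hi' : i ≠ v) :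
    swap u i * swap u v ∈ alternatingGroup α := (AutAlt.base_isThreeCycle huv hi hi').mem_alternatingGroup

theorem base_fix {u v i x : α} (h1 : x ≠ u) (h2 : x ≠ v) (h3 : x ≠ i) : (swap u i * swap u v) x = x := by
  rw [Perm.mul_apply, swap_apply_of_ne_of_ne h1 h2, swap_apply_of_ne_of_ne h1 h3]

theorem base_apply_i {u v i : α} (hi : i ≠ u) (hi' : i ≠ v) : (swap u i * swap u v) i = u := by
  rw [Perm.mul_apply, swap_apply_of_ne_of_ne hi hi', swap_apply_right]

theorem typeI (S : Subgroup (Perm α)) (A B : Set α) (hA : S ≤ stS A) (hB : S ≤ stS B) {a b u v : α} (ha : a ∈ A)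
    (hb : b ∈ B) (hAB : ∀ x ∈ A, x ∉ B) (huA : u ∉ A) (huB : u ∉ B) (hvA : v ∉ A) (hvB : v ∉ B) (huv : u ≠ v) :
    Good S := by
  refine ⟨stS A, stS B, hA, hB, ?_, ?_, ?_⟩
  · intro h
    have hau : a ≠ u := fun h => huA (h ▸ ha)
    have hav : a ≠ v := fun h => hvA (h ▸ ha)
    have h1 := h (base_mem huv hau hav) a
    rw [base_apply_i hau hav] at h1
    exact huA (h1.mpr ha)
  · intro h
    have hau : b ≠ u := fun h => huB (h ▸ hb)
    have hav : b ≠ v := fun h => hvB (h ▸ hb)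
    have h1 := h (base_mem huv hau hav) b
    rw [base_apply_i hau hav] at h1
    exact huB (h1.mpr hb)
  · intro H h1 h2
    apply gen_of huv
    intro i hiu hiv
    by_cases hi : i ∈ A
    · apply h2
      refine ⟨mem_stS_of_fix ?_, base_mem huv hiu hiv⟩
      intro x hx
      exact base_fix (fun h => huB (h ▸ hx)) (fun h => hvB (h ▸ hx)) (fun h => hAB _ hi (h ▸ hx))
    · apply h1
      refine ⟨mem_stS_of_fix ?_, base_mem huv hiu hiv⟩
      intro x hx
      exact base_fix (fun h => huA (h ▸ hx)) (fun h => hvA (h ▸ hx)) (fun h => hi (h ▸ hx))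

/-- relation stabilizer -/
def stE (E : α → α → Prop) : Subgroup (Perm α) where
  carrier := {g | ∀ x y, E (g x) (g y) ↔ E x y}
  one_mem' := fun x y => Iff.rfl
  mul_mem' := by
    intro g h hg hh x y
    rw [Perm.mul_apply, Perm.mul_apply, hg, hh]
  inv_mem' := by
    intro g hg x y
    rw [← hg (g⁻¹ x), ← Perm.mul_apply, ← Perm.mul_apply, mul_inv_cancel, Perm.one_apply, Perm.one_apply]

/-- swapping two 3-cycles of `c` -/
def cs (c : Perm α) (a b : α) : Perm α := swap a b * swap (c a) (c b) * swap (c (c a)) (c (c b))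

theorem cs_comm {c : Perm α} (hc3 : c ^ 3 = 1) {a b : α} (hd : [a, b, c a, c b, c (c a), c (c b)].Nodup) :
    c * cs c a b = cs c a b * c := by
  have h3 : ∀ x, c (c (c x)) = x := by
    intro x
    have := congrArg (fun g : Perm α => g x) hc3
    simpa [pow_succ, Perm.mul_apply] using this
  simp only [List.nodup_cons, List.mem_cons, List.not_mem_nil, or_false, not_or] at hd
  obtain ⟨⟨d1, d2, d3, d4, d5⟩, ⟨d6, d7, d8, d9⟩, ⟨d10, d11, d12⟩, ⟨d13, d14⟩, d15, -⟩ := hd
  have e1 : c * cs c a b * c⁻¹ = swap (c a) (c b) * swap (c (c a)) (c (c b)) * swap a b := by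
    unfold cs
    calc c * (swap a b * swap (c a) (c b) * swap (c (c a)) (c (c b))) * c⁻¹ =
        (c * swap a b * c⁻¹) * (c * swap (c a) (c b) * c⁻¹) * (c * swap (c (c a)) (c (c b)) * c⁻¹) := by group
      _ = _ := by rw [← swap_apply_apply, ← swap_apply_apply, ← swap_apply_apply, h3, h3]
  have c1 : Commute (swap a b) (swap (c a) (c b)) := by
    apply Perm.Disjoint.commute
    apply disjoint_swap_swap
    simp only [List.nodup_cons, List.mem_cons, List.not_mem_nil, or_false, not_or, not_false_eq_true, List.nodup_nil, and_true]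
    exact ⟨⟨d1, d2, d3⟩, ⟨d6, d7⟩, d10⟩
  have c2 : Commute (swap a b) (swap (c (c a)) (c (c b))) := by
    apply Perm.Disjoint.commute
    apply disjoint_swap_swap
    simp only [List.nodup_cons, List.mem_cons, List.not_mem_nil, or_false, not_or, not_false_eq_true, List.nodup_nil, and_true]
    exact ⟨⟨d1, d4, d5⟩, ⟨d8, d9⟩, d15⟩
  have e2 : swap (c a) (c b) * swap (c (c a)) (c (c b)) * swap a b = cs c a b := by
    unfold cs
    rw [mul_assoc, ← c2.eq, ← mul_assoc, ← c1.eq]
  rw [e2, mul_inv_eq_iff_eq_mul] at e1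
  exact e1

omit [Fintype α] [DecidableEq α] in
theorem cyc_apply {c : Perm α} (hc3 : c ^ 3 = 1) (x : α) : c (c (c x)) = x := by
  have := congrArg (fun g : Perm α => g x) hc3
  simpa [pow_succ, Perm.mul_apply] using this

omit [Fintype α] [DecidableEq α] in
theorem nd {c : Perm α} (hc3 : c ^ 3 = 1) (hfix : ∀ x, c x ≠ x) {a b : α} (h0 : b ≠ a) (h1 : b ≠ c a) (h2 : b ≠ c (c a)) :
    [a, b, c a, c b, c (c a), c (c b)].Nodup := by
  have h3 := cyc_apply hc3
  have f2 : ∀ x, c (c x) ≠ x := by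
    intro x h
    have := congrArg c h
    rw [h3] at this
    exact hfix x this.symm
  simp only [List.nodup_cons, List.mem_cons, List.not_mem_nil, or_false, not_or, not_false_eq_true, List.nodup_nil, and_true]
  refine ⟨⟨h0.symm, (hfix a).symm, ?_, (f2 a).symm, ?_⟩, ⟨h1, (hfix b).symm, h2, (f2 b).symm⟩, ⟨?_, ?_, ?_⟩, ⟨?_, ?_⟩, ?_⟩
  · intro h; apply h2; rw [h, h3]
  · intro h; apply h1; rw [h, h3]
  · intro h; exact h0 (c.injective h).symm
  · exact (hfix (c a)).symm
  · intro h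
    have := c.injective h
    apply h2
    rw [this, h3]
  · intro h; exact h1 (c.injective h)
  · exact (hfix (c b)).symm
  · intro h; exact h0 (c.injective (c.injective h)).symm

theorem cs_apply_left {c : Perm α} {a b : α} (hd : [a, b, c a, c b, c (c a), c (c b)].Nodup) : cs c a b a = b := by
  simp only [List.nodup_cons, List.mem_cons, List.not_mem_nil, or_false, not_or] at hd
  obtain ⟨⟨d1, d2, d3, d4, d5⟩, -⟩ := hd
  unfold cs
  rw [Perm.mul_apply, Perm.mul_apply, swap_apply_of_ne_of_ne d4 d5, swap_apply_of_ne_of_ne d2 d3, swap_apply_left]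

theorem cs_fix {c : Perm α} {a b x : α} (h1 : x ≠ a) (h2 : x ≠ b) (h3 : x ≠ c a) (h4 : x ≠ c b) (h5 : x ≠ c (c a))
    (h6 : x ≠ c (c b)) : cs c a b x = x := by
  unfold cs
  rw [Perm.mul_apply, Perm.mul_apply, swap_apply_of_ne_of_ne h5 h6, swap_apply_of_ne_of_ne h3 h4, swap_apply_of_ne_of_ne h1 h2]

theorem cs_sign {c : Perm α} {a b : α} (h : a ≠ b) : sign (cs c a b) = -1 := by
  unfold cs
  rw [Perm.sign_mul, Perm.sign_mul, sign_swap h, sign_swap (fun h' => h (c.injective h')),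
    sign_swap (fun h' => h (c.injective (c.injective h')))]
  rfl

theorem typeII (S : Subgroup (Perm α)) {E : α → α → Prop} (hE : Equivalence E) (hS : S ≤ stE E) {c : Perm α}
    (hc : S ≤ Subgroup.centralizer {c}) (hc3 : c ^ 3 = 1) (hfix : ∀ x, c x ≠ x) (hEc : ∀ x, E x (c x))
    {x₀ x₁ x₂ y₀ : α} (h1 : E x₀ x₁) (h2 : E x₀ x₂) (hy : ¬ E x₀ y₀)
    (a0 : x₁ ≠ x₀) (a1 : x₁ ≠ c x₀) (a2 : x₁ ≠ c (c x₀))
    (b0 : x₂ ≠ x₀) (b1 : x₂ ≠ c x₀) (b2 : x₂ ≠ c (c x₀))
    (c0 : x₂ ≠ x₁) (c1 : x₂ ≠ c x₁) (c2 : x₂ ≠ c (c x₁)) : Good S := by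
  have h3 := cyc_apply hc3
  have hEcc : ∀ x, E x (c (c x)) := fun x => hE.trans (hEc x) (hEc (c x))
  have huv : x₂ ≠ c x₂ := (hfix x₂).symm
  have hout : ∀ x y, E x₀ x → ¬ E x₀ y → x ≠ y := fun x y hx hy h => hy (h ▸ hx)
  have hyu : y₀ ≠ x₂ := (hout _ _ h2 hy).symm
  have hyv : y₀ ≠ c x₂ := (hout _ _ (hE.trans h2 (hEc x₂)) hy).symm
  refine ⟨stE E, Subgroup.centralizer {c}, hS, hc, ?_, ?_, ?_⟩
  · intro h
    have h4 := h (base_mem huv hyu hyv) x₂ (c x₂)
    rw [AutAlt.base_apply_u huv hyu hyv, AutAlt.base_apply_v] at h4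
    exact hy (hE.trans (hE.trans h2 (hEc x₂)) (h4.mpr (hEc x₂)))
  · intro h
    have h4 := h (base_mem huv hyu hyv)
    rw [Subgroup.mem_centralizer_singleton_iff] at h4
    have h5 := congrArg (fun g : Perm α => g x₂) h4
    simp only [Perm.mul_apply (swap x₂ y₀ * swap x₂ (c x₂)), Perm.mul_apply c] at h5
    rw [AutAlt.base_apply_v, AutAlt.base_apply_u huv hyu hyv] at h5
    exact hout _ _ (hE.trans h2 (hEcc x₂)) hy h5.symm
  · intro H k1 k2
    apply gen_of huv
    intro i hiu hiv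
    -- 3-cycles inside the class
    have hin : ∀ u v w : α, u ≠ v → w ≠ u → w ≠ v → E x₀ u → E x₀ v → E x₀ w → swap u w * swap u v ∈ H := by
      intro u v w huv hwu hwv eu ev ew
      apply k1
      refine ⟨?_, base_mem huv hwu hwv⟩
      have hmove : ∀ x, E x₀ x → E x₀ ((swap u w * swap u v) x) := by
        intro x hx
        by_cases hxu : x = u
        · rw [hxu, AutAlt.base_apply_u huv hwu hwv]; exact ev
        by_cases hxv : x = v
        · rw [hxv, AutAlt.base_apply_v]; exact ew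
        by_cases hxw : x = w
        · rw [hxw, base_apply_i hwu hwv]; exact eu
        rw [base_fix hxu hxv hxw]; exact hx
      have hfx : ∀ x, ¬ E x₀ x → (swap u w * swap u v) x = x := by
        intro x hx
        exact base_fix (hout _ _ eu hx).symm (hout _ _ ev hx).symm (hout _ _ ew hx).symm
      intro x y
      by_cases hx : E x₀ x <;> by_cases hy : E x₀ y
      · exact ⟨fun _ => hE.trans (hE.symm hx) hy, fun _ => hE.trans (hE.symm (hmove x hx)) (hmove y hy)⟩
      · rw [hfx y hy]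
        exact ⟨fun h => absurd (hE.trans (hmove x hx) h) hy, fun h => absurd (hE.trans hx h) hy⟩
      · rw [hfx x hx]
        exact ⟨fun h => absurd (hE.trans (hmove y hy) (hE.symm h)) hx, fun h => absurd (hE.trans hy (hE.symm h)) hx⟩
      · rw [hfx x hx, hfx y hy]
    by_cases hi : E x₀ i
    · exact hin _ _ _ huv hiu hiv h2 (hE.trans h2 (hEc x₂)) hi
    · -- move by the centralizer
      have hix : ∀ x, E x₀ x → i ≠ x := fun x hx => (hout _ _ hx hi).symm
      have nd1 := nd hc3 hfix (a := x₀) (b := i) (hix _ (hE.refl _)) (hix _ (hEc _)) (hix _ (hEcc _))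
      have nd2 := nd hc3 hfix (a := x₁) (b := x₂) c0 c1 c2
      have hni : ¬ E x₀ (c i) := fun h => hi (hE.trans h (hE.symm (hEc i)))
      have hnii : ¬ E x₀ (c (c i)) := fun h => hi (hE.trans h (hE.symm (hEcc i)))
      obtain ⟨τ, hτ⟩ : ∃ τ, τ = cs c x₀ i * cs c x₁ x₂ := ⟨_, rfl⟩
      have hτc : c * τ = τ * c := by
        rw [hτ, ← mul_assoc, cs_comm hc3 nd1, mul_assoc, cs_comm hc3 nd2, mul_assoc]
      have hτ1 : τ x₁ = x₂ := by
        rw [hτ, Perm.mul_apply, cs_apply_left nd2]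
        exact cs_fix b0 (hout _ _ h2 hi) b1 (hout _ _ h2 hni) b2 (hout _ _ h2 hnii)
      have hτc1 : τ (c x₁) = c x₂ := by
        have := congrArg (fun g : Perm α => g x₁) hτc
        simp only [Perm.mul_apply] at this
        rw [← this, hτ1]
      have hτ0 : τ x₀ = i := by
        have e : cs c x₁ x₂ x₀ = x₀ := by
          apply cs_fix
          · exact a0.symm
          · exact b0.symm
          · intro h; apply a2; rw [h, h3]
          · intro h; apply b2; rw [h, h3]
          · intro h; apply a1; rw [h, h3]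
          · intro h; apply b1; rw [h, h3]
        rw [hτ, Perm.mul_apply, e, cs_apply_left nd1]
      have hτs : τ ∈ alternatingGroup α := by
        rw [mem_alternatingGroup, hτ, Perm.sign_mul, cs_sign (hout _ _ (hE.refl _) hi), cs_sign c0.symm]
        rfl
      have hτH : τ ∈ H := k2 ⟨Subgroup.mem_centralizer_singleton_iff.mpr hτc.symm, hτs⟩
      have h4 := hin x₁ (c x₁) x₀ (hfix x₁).symm a0.symm (by intro h; apply a2; rw [h, h3]) h1 (hE.trans h1 (hEc x₁)) (hE.refl _)
      have h5 : τ * (swap x₁ x₀ * swap x₁ (c x₁)) * τ⁻¹ ∈ H := mul_mem (mul_mem hτH h4) (inv_mem hτH)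
      have h6 : τ * (swap x₁ x₀ * swap x₁ (c x₁)) * τ⁻¹ = swap x₂ i * swap x₂ (c x₂) := by
        calc τ * (swap x₁ x₀ * swap x₁ (c x₁)) * τ⁻¹ = (τ * swap x₁ x₀ * τ⁻¹) * (τ * swap x₁ (c x₁) * τ⁻¹) := by group
          _ = _ := by rw [← swap_apply_apply, ← swap_apply_apply, hτ1, hτ0, hτc1]
      rwa [h6] at h5

open MulAction

omit [DecidableEq α] in
/-- a fixed-point-free central element on an orbit -/
theorem cOrb (S : Subgroup (Perm α)) (hS : IsPGroup 3 S) (x : α) (hx : ∃ s : S, s • x ≠ x) :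
    ∃ c : Perm α, S ≤ Subgroup.centralizer {c} ∧ c ^ 3 = 1 ∧ (∀ y ∈ orbit S x, c y ≠ y ∧ c y ∈ orbit S x) ∧
      ∀ y, y ∉ orbit S x → c y = y := by
  classical
  haveI : Fact (Nat.Prime 3) := ⟨Nat.prime_three⟩
  let f : S →* Perm (orbit S x) := toPermHom S (orbit S x)
  have hf : ∀ (s : S) (y : orbit S x), ((f s y : orbit S x) : α) = (s : Perm α) y := fun s y => rfl
  have hp : IsPGroup 3 f.range := hS.of_surjective f.rangeRestrict f.rangeRestrict_surjective
  obtain ⟨s0, hs0⟩ := hx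
  have hnt : Nontrivial f.range := by
    refine ⟨⟨⟨f s0, s0, rfl⟩, 1, ?_⟩⟩
    intro h
    have h1 : f s0 = 1 := congrArg Subtype.val h
    have h2 := congrArg (fun g : Perm (orbit S x) => ((g ⟨x, mem_orbit_self x⟩ : orbit S x) : α)) h1
    exact hs0 h2
  have hcn := hp.center_nontrivial
  have hcp : IsPGroup 3 (Subgroup.center f.range) := hp.to_subgroup _
  have hdvd : 3 ∣ Nat.card (Subgroup.center f.range) := by
    obtain ⟨k, hk⟩ := IsPGroup.iff_card.mp hcp
    have h3 : 1 < Nat.card (Subgroup.center f.range) := Finite.one_lt_card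
    rw [hk] at h3 ⊢
    exact dvd_pow_self 3 (by rintro rfl; simp at h3)
  obtain ⟨⟨⟨z, z0, hz0⟩, hzc⟩, hzo⟩ := exists_prime_orderOf_dvd_card' 3 hdvd
  have hz3 : z ^ 3 = 1 := by
    have := pow_orderOf_eq_one (⟨⟨z, z0, hz0⟩, hzc⟩ : Subgroup.center f.range)
    rw [hzo] at this
    exact congrArg (fun w : Subgroup.center f.range => ((w : f.range) : Perm (orbit S x))) this
  have hz1 : z ≠ 1 := by
    intro h
    have : (⟨⟨z, z0, hz0⟩, hzc⟩ : Subgroup.center f.range) = 1 := Subtype.ext (Subtype.ext h)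
    rw [this, orderOf_one] at hzo
    omega
  have hzcomm : ∀ s : S, f s * z = z * f s := fun s =>
    congrArg Subtype.val (Subgroup.mem_center_iff.mp hzc ⟨f s, s, rfl⟩)
  let c : Perm α := ofSubtype z
  have hcin : ∀ y (hy : y ∈ orbit S x), c y = (z ⟨y, hy⟩ : orbit S x) := fun y hy => ofSubtype_apply_of_mem z hy
  have hcout : ∀ y, y ∉ orbit S x → c y = y := fun y hy => ofSubtype_apply_of_not_mem z hy
  refine ⟨c, ?_, ?_, ?_, hcout⟩
  · intro s hs
    rw [Subgroup.mem_centralizer_singleton_iff]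
    ext y
    rw [Perm.mul_apply, Perm.mul_apply]
    by_cases hy : y ∈ orbit S x
    · have hsy : s y ∈ orbit S x := by
        have := mem_orbit_of_mem_orbit (⟨s, hs⟩ : S) hy
        exact this
      rw [hcin y hy, hcin (s y) hsy]
      have h1 := congrArg (fun g : Perm (orbit S x) => ((g ⟨y, hy⟩ : orbit S x) : α)) (hzcomm ⟨s, hs⟩)
      exact h1
    · have hsy : s y ∉ orbit S x := by
        intro h
        apply hy
        have := mem_orbit_of_mem_orbit (⟨s⁻¹, inv_mem hs⟩ : S) h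
        have h2 : (⟨s⁻¹, inv_mem hs⟩ : S) • s y = y := by
          show s⁻¹ (s y) = y
          rw [← Perm.mul_apply, inv_mul_cancel, Perm.one_apply]
        rwa [h2] at this
      rw [hcout y hy, hcout _ hsy]
  · show (ofSubtype z) ^ 3 = 1
    rw [← map_pow, hz3, map_one]
  · intro y hy
    refine ⟨?_, ?_⟩
    · intro h
      rw [hcin y hy] at h
      apply hz1
      apply Equiv.ext
      rintro ⟨w, hw⟩
      obtain ⟨t, ht⟩ : ∃ t : S, t • y = w := by
        have hw' := hw
        rw [← orbit_eq_iff.mpr hy] at hw'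
        exact hw'
      have h1 : (⟨w, hw⟩ : orbit S x) = f t ⟨y, hy⟩ := Subtype.ext ht.symm
      rw [h1, ← Perm.mul_apply, ← hzcomm, Perm.mul_apply]
      have h2 : z ⟨y, hy⟩ = ⟨y, hy⟩ := Subtype.ext h
      rw [h2]; rfl
    · rw [hcin y hy]; exact (z ⟨y, hy⟩).2

omit [Fintype α] [DecidableEq α] in
theorem orbit_rel (U : Type*) [Group U] [MulAction U α] : Equivalence (fun x y : α => y ∈ orbit U x) := by
  refine ⟨fun x => mem_orbit_self x, ?_, ?_⟩
  · intro x y h; exact mem_orbit_symm.mp h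
  · intro x y z h1 h2
    exact (orbit_eq_iff.mpr h1) ▸ h2

omit [DecidableEq α] [Fintype α] in
theorem ncard_three (a b c : α) : Set.ncard ({a, b, c} : Set α) ≤ 3 := by
  refine (Set.ncard_insert_le _ _).trans ?_
  have h := Set.ncard_insert_le b ({c} : Set α)
  rw [Set.ncard_singleton] at h
  omega

/-- choice of points -/
theorem pick {E : α → α → Prop} {c : Perm α} (x₀ : α) (h9 : 9 ≤ Set.ncard {y | E x₀ y}) :
    ∃ x₁ x₂ : α, E x₀ x₁ ∧ E x₀ x₂ ∧ (x₁ ≠ x₀ ∧ x₁ ≠ c x₀ ∧ x₁ ≠ c (c x₀)) ∧ (x₂ ≠ x₀ ∧ x₂ ≠ c x₀ ∧ x₂ ≠ c (c x₀)) ∧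
      (x₂ ≠ x₁ ∧ x₂ ≠ c x₁ ∧ x₂ ≠ c (c x₁)) := by
  have h1 : Set.ncard ({x₀, c x₀, c (c x₀)} : Set α) < Set.ncard {y | E x₀ y} :=
    lt_of_le_of_lt (ncard_three _ _ _) (by omega)
  obtain ⟨x₁, hx1, hx1'⟩ := Set.exists_mem_notMem_of_ncard_lt_ncard h1
  have h2 : Set.ncard (({x₀, c x₀, c (c x₀)} : Set α) ∪ {x₁, c x₁, c (c x₁)}) < Set.ncard {y | E x₀ y} := by
    have h3 := Set.ncard_union_le ({x₀, c x₀, c (c x₀)} : Set α) {x₁, c x₁, c (c x₁)}
    have h4 := ncard_three x₀ (c x₀) (c (c x₀))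
    have h5 := ncard_three x₁ (c x₁) (c (c x₁))
    omega
  obtain ⟨x₂, hx2, hx2'⟩ := Set.exists_mem_notMem_of_ncard_lt_ncard h2
  simp only [Set.mem_insert_iff, Set.mem_singleton_iff, not_or, Set.mem_union] at hx1' hx2'
  exact ⟨x₁, x₂, hx1, hx2, hx1', hx2'.1, hx2'.2⟩

theorem core (S : Subgroup (Perm α)) (hS : IsPGroup 3 S) (hne : S ≠ ⊥) (hn : 5 ≤ Nat.card α) (h6 : Nat.card α ≠ 6)
    (h9 : Nat.card α ≠ 9) (h : ∀ a, 2 ≤ a → Nat.card α ≠ 3 ^ a + 1) : Good S := by
  haveI : Fact (Nat.Prime 3) := ⟨Nat.prime_three⟩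
  haveI : Nonempty α := by
    apply (Nat.card_pos_iff.mp _).1
    omega
  obtain ⟨x₀, hmax⟩ := Finite.exists_max (fun x : α => Set.ncard (orbit S x))
  have hpow : ∀ x : α, ∃ k, Set.ncard (orbit S x) = 3 ^ k := by
    intro x
    obtain ⟨k, hk⟩ := hS.card_orbit x
    exact ⟨k, hk⟩
  have hmem : ∀ (s : S) (x y : α), y ∈ orbit S x → (s : Perm α) y ∈ orbit S x := fun s x y hy => mem_orbit_of_mem_orbit s hy
  obtain ⟨k, hk⟩ := hpow x₀
  have hk1 : 1 ≤ k := by
    by_contra hk0
    have hk0' : k = 0 := by omega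
    rw [hk0', pow_zero] at hk
    apply hne
    rw [eq_bot_iff]
    intro s hs
    rw [Subgroup.mem_bot]
    ext y
    have h1 := hmax y
    rw [hk] at h1
    have h2 : (s : Perm α) y ∈ orbit S y := mem_orbit y (⟨s, hs⟩ : S)
    have h3 : y ∈ orbit S y := mem_orbit_self y
    exact (Set.ncard_le_one (Set.toFinite _)).mp h1 _ h2 _ h3
  obtain ⟨x₀', hx0', hx0ne⟩ : ∃ x ∈ orbit S x₀, x ≠ x₀ := by
    have h1 : 1 < Set.ncard (orbit S x₀) := by
      rw [hk]; exact Nat.one_lt_pow (by omega) (by norm_num)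
    exact Set.exists_ne_of_one_lt_ncard h1 x₀
  have hst : ∀ y : α, S ≤ stS (orbit S y) := by
    intro y s hs x
    constructor
    · intro h1
      have h2 := hmem ⟨s⁻¹, inv_mem hs⟩ y _ h1
      have h3 : (s⁻¹ : Perm α) (s x) = x := by rw [← Perm.mul_apply, inv_mul_cancel, Perm.one_apply]
      rwa [h3] at h2
    · intro h1; exact hmem ⟨s, hs⟩ y x h1
  have hdisj : ∀ x y : α, y ∉ orbit S x → ∀ z ∈ orbit S x, z ∉ orbit S y := by
    intro x y hy z hz hz'
    apply hy
    have h1 := orbit_eq_iff.mpr hz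
    have h2 := orbit_eq_iff.mpr hz'
    rw [← h1, h2]; exact mem_orbit_self y
  by_cases htr : ∀ y, y ∈ orbit S x₀
  · -- transitive
    have huniv : orbit S x₀ = Set.univ := Set.eq_univ_of_forall htr
    have hcard : Nat.card α = 3 ^ k := by rw [← hk, huniv, Set.ncard_univ]
    have hk3 : 3 ≤ k := by
      by_contra hlt
      interval_cases k
      · rw [hcard] at hn; norm_num at hn
      · exact h9 (by rw [hcard]; norm_num)
    -- a central element
    haveI : Nontrivial S := (Subgroup.nontrivial_iff_ne_bot S).mpr hne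
    have hcn := hS.center_nontrivial
    have hcp : IsPGroup 3 (Subgroup.center S) := hS.to_subgroup _
    have hdvd : 3 ∣ Nat.card (Subgroup.center S) := by
      obtain ⟨k, hk⟩ := IsPGroup.iff_card.mp hcp
      have h3 : 1 < Nat.card (Subgroup.center S) := Finite.one_lt_card
      rw [hk] at h3 ⊢
      exact dvd_pow_self 3 (by rintro rfl; simp at h3)
    obtain ⟨⟨z, hzc⟩, hzo⟩ := exists_prime_orderOf_dvd_card' 3 hdvd
    have hz3 : z ^ 3 = 1 := by
      have := pow_orderOf_eq_one (⟨z, hzc⟩ : Subgroup.center S)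
      rw [hzo] at this
      exact congrArg Subtype.val this
    have hz1 : z ≠ 1 := by
      intro h
      have : (⟨z, hzc⟩ : Subgroup.center S) = 1 := Subtype.ext h
      rw [this, orderOf_one] at hzo
      omega
    have hzcomm : ∀ s : S, s * z = z * s := fun s => Subgroup.mem_center_iff.mp hzc s
    have hfix : ∀ x, (z : Perm α) x ≠ x := by
      intro x hx
      apply hz1
      apply Subtype.ext
      ext y
      obtain ⟨t, ht⟩ : ∃ t : S, t • x = y := by
        have h1 := htr y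
        rw [← orbit_eq_iff.mpr (htr x)] at h1
        exact h1
      have h2 := congrArg (fun g : S => (g : Perm α) x) (hzcomm t)
      have h3 : (t : Perm α) ((z : Perm α) x) = (z : Perm α) ((t : Perm α) x) := h2
      rw [hx] at h3
      have h4 : (t : Perm α) x = y := ht
      rw [h4] at h3
      exact h3.symm
    -- a maximal subgroup
    have hsup : stabilizer S x₀ ⊔ Subgroup.zpowers z ≠ ⊤ := by
      intro htop
      have h1 : (Set.univ : Set α) ⊆ Set.range (fun i : Fin 3 => ((z : Perm α) ^ (i : ℕ)) x₀) := by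
        intro y _
        obtain ⟨s, hs⟩ := htr y
        have h2 : s ∈ ((stabilizer S x₀ ⊔ Subgroup.zpowers z : Subgroup S) : Set S) := by rw [htop]; exact Subgroup.mem_top _
        have hn : (Subgroup.zpowers z).Normal := by
          constructor
          rintro _ ⟨m, rfl⟩ g
          have : g * z ^ m * g⁻¹ = z ^ m := by
            have hcm : Commute g z := hzcomm g
            rw [(hcm.zpow_right m).eq]; group
          rw [show (fun x : ℤ => z ^ x) m = z ^ m from rfl, this]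
          exact ⟨m, rfl⟩
        rw [sup_comm, Subgroup.normal_mul] at h2
        obtain ⟨_, ⟨m, rfl⟩, t, ht, rfl⟩ := h2
        have h3 : (z ^ m * t) • x₀ = y := hs
        rw [mul_smul, mem_stabilizer_iff.mp ht] at h3
        have h4 : z ^ m = z ^ (m % 3).toNat := by
          rw [← zpow_natCast, Int.toNat_of_nonneg (Int.emod_nonneg m (by norm_num))]
          conv_lhs => rw [← Int.emod_add_mul_ediv m 3]
          rw [zpow_add, zpow_mul]
          have : z ^ (3 : ℤ) = 1 := by exact_mod_cast hz3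
          rw [this, one_zpow, mul_one]
        have hlt : (m % 3).toNat < 3 := by
          have h5 := Int.emod_lt_of_pos m (by norm_num : (0 : ℤ) < 3)
          have h6 := Int.emod_nonneg m (by norm_num : (3 : ℤ) ≠ 0)
          omega
        refine ⟨⟨(m % 3).toNat, hlt⟩, ?_⟩
        rw [h4] at h3
        exact h3
      have h2 := Set.ncard_le_ncard h1 (Set.toFinite _)
      rw [Set.ncard_univ] at h2
      have h3 : Set.ncard (Set.range (fun i : Fin 3 => ((z : Perm α) ^ (i : ℕ)) x₀)) ≤ 3 := by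
        rw [← Set.image_univ]
        refine (Set.ncard_image_le (Set.toFinite _)).trans ?_
        rw [Set.ncard_univ, Nat.card_fin]
      omega
    obtain ⟨U, hU, hUle⟩ := (eq_top_or_exists_le_coatom (stabilizer S x₀ ⊔ Subgroup.zpowers z)).resolve_left hsup
    have hUn : U.Normal := H70Frattini.coatom_normal hS hU
    have hUi : U.index = 3 := H70Frattini.coatom_index hS hU
    have hstU : stabilizer S x₀ ≤ U := le_sup_left.trans hUle
    have hzU : z ∈ U := hUle ((le_sup_right : _ ≤ stabilizer S x₀ ⊔ Subgroup.zpowers z) (Subgroup.mem_zpowers z))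
    have hUcard : Set.ncard (orbit U x₀) * 3 = Nat.card α := by
      have h1 : Set.ncard (orbit U x₀) = (stabilizer U x₀).index := by
        rw [Subgroup.index, ← Nat.card_congr (orbitEquivQuotientStabilizer U x₀)]; rfl
      have h2 : Nat.card α = (stabilizer S x₀).index := by
        rw [Subgroup.index, ← Nat.card_congr (orbitEquivQuotientStabilizer S x₀), ← Set.ncard_univ, ← huniv]; rfl
      have h3 : stabilizer U x₀ = (stabilizer S x₀).subgroupOf U := by
        ext u; rfl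
      rw [h1, h2, h3, ← Subgroup.relIndex_mul_index hstU, hUi]; rfl
    have hU9 : 9 ≤ Set.ncard {y | y ∈ orbit U x₀} := by
      show 9 ≤ Set.ncard (orbit U x₀)
      have h1 : 3 ^ 3 ≤ 3 ^ k := Nat.pow_le_pow_right (by norm_num) hk3
      rw [hcard] at hUcard
      omega
    obtain ⟨y₀, hy0⟩ : ∃ y, y ∉ orbit U x₀ := by
      by_contra hcon
      push Not at hcon
      have h1 : orbit U x₀ = Set.univ := Set.eq_univ_of_forall hcon
      rw [h1, Set.ncard_univ] at hUcard
      omega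
    obtain ⟨x₁, x₂, e1, e2, ⟨a0, a1, a2⟩, ⟨b0, b1, b2⟩, ⟨c0, c1, c2⟩⟩ := pick (E := fun x y => y ∈ orbit U x) (c := (z : Perm α)) x₀ hU9
    refine typeII S (E := fun x y => y ∈ orbit U x) (orbit_rel U) ?_ (c := z) ?_ ?_ hfix ?_ e1 e2 hy0 a0 a1 a2 b0 b1 b2 c0 c1 c2
    · intro s hs x y
      constructor
      · rintro ⟨u, hu⟩
        refine ⟨⟨(⟨s, hs⟩ : S)⁻¹ * u * ⟨s, hs⟩, ?_⟩, ?_⟩
        · have := hUn.conj_mem u u.2 (⟨s, hs⟩ : S)⁻¹
          rwa [inv_inv] at this
        · have h1 : ((u : S) : Perm α) (s x) = s y := hu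
          show (s⁻¹ * ((u : S) : Perm α) * s) x = y
          rw [Perm.mul_apply, Perm.mul_apply, h1, ← Perm.mul_apply, inv_mul_cancel, Perm.one_apply]
      · rintro ⟨u, hu⟩
        refine ⟨⟨(⟨s, hs⟩ : S) * u * (⟨s, hs⟩ : S)⁻¹, hUn.conj_mem u u.2 _⟩, ?_⟩
        have h1 : ((u : S) : Perm α) x = y := hu
        show (s * ((u : S) : Perm α) * s⁻¹) (s x) = s y
        rw [Perm.mul_apply, Perm.mul_apply, ← Perm.mul_apply s⁻¹, inv_mul_cancel, Perm.one_apply, h1]
    · intro s hs
      rw [Subgroup.mem_centralizer_singleton_iff]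
      exact congrArg Subtype.val (hzcomm ⟨s, hs⟩)
    · exact congrArg Subtype.val hz3
    · intro x
      exact ⟨⟨z, hzU⟩, rfl⟩
  · push Not at htr
    obtain ⟨y₀, hy0⟩ := htr
    by_cases htwo : ∃ w, w ∉ orbit S x₀ ∧ w ∉ orbit S y₀
    · obtain ⟨w, hw1, hw2⟩ := htwo
      exact typeI S (orbit S y₀) (orbit S w) (hst _) (hst _) (mem_orbit_self y₀) (mem_orbit_self w)
        (hdisj _ _ hw2) (hdisj _ _ hy0 x₀ (mem_orbit_self _)) (hdisj _ _ hw1 x₀ (mem_orbit_self _))
        (hdisj _ _ hy0 x₀' hx0') (hdisj _ _ hw1 x₀' hx0') hx0ne.symm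
    · push Not at htwo
      obtain ⟨l, hl⟩ := hpow y₀
      have hunion : orbit S x₀ ∪ orbit S y₀ = Set.univ := by
        apply Set.eq_univ_of_forall
        intro w
        by_cases hw : w ∈ orbit S x₀
        · left; exact hw
        · right; exact htwo w hw
      have hcard : Nat.card α = 3 ^ k + 3 ^ l := by
        rw [← hk, ← hl, ← Set.ncard_union_eq, hunion, Set.ncard_univ]
        rw [Set.disjoint_left]
        exact hdisj _ _ hy0
      have hlk : 3 ^ l ≤ 3 ^ k := by rw [← hk, ← hl]; exact hmax y₀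
      have hl1 : 1 ≤ l := by
        by_contra hl0
        have hl0' : l = 0 := by omega
        rw [hl0', pow_zero] at hcard
        apply h k _ hcard
        by_contra hk2
        have hk1' : k = 1 := by omega
        rw [hcard, hk1'] at hn
        norm_num at hn
      have hk2 : 2 ≤ k := by
        by_contra hk2
        have hk1' : k = 1 := by omega
        rw [hk1'] at hlk hcard
        have hl1' : l ≤ 1 := (Nat.pow_le_pow_iff_right (by norm_num)).mp hlk
        have hl' : l = 1 := by omega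
        rw [hl'] at hcard
        exact h6 hcard
      have hnon : ∀ (x : α) (m : ℕ), Set.ncard (orbit S x) = 3 ^ m → 1 ≤ m → ∃ s : S, s • x ≠ x := by
        intro x m hm hm1
        have h1 : 1 < Set.ncard (orbit S x) := by
          rw [hm]; exact Nat.one_lt_pow (by omega) (by norm_num)
        obtain ⟨w, ⟨s, hs⟩, hw⟩ := Set.exists_ne_of_one_lt_ncard h1 x
        exact ⟨s, by intro h2; apply hw; rw [← hs]; exact h2⟩
      obtain ⟨c₁, p1, p2, p3, p4⟩ := cOrb S hS x₀ (hnon _ _ hk (by omega))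
      obtain ⟨c₂, q1, q2, q3, q4⟩ := cOrb S hS y₀ (hnon _ _ hl hl1)
      have hcx : ∀ x ∈ orbit S x₀, (c₁ * c₂) x = c₁ x := by
        intro x hx
        rw [Perm.mul_apply, q4 x (hdisj _ _ hy0 x hx)]
      have hcy : ∀ y, y ∉ orbit S x₀ → (c₁ * c₂) y = c₂ y := by
        intro y hy
        rw [Perm.mul_apply, p4]
        have h1 := q3 y (htwo y hy)
        intro h2
        exact hdisj _ _ hy0 _ h2 h1.2
      have hcomm : Commute c₁ c₂ := by
        show c₁ * c₂ = c₂ * c₁
        ext y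
        by_cases hy : y ∈ orbit S x₀
        · rw [hcx y hy, Perm.mul_apply, q4 _ (hdisj _ _ hy0 _ (p3 y hy).2)]
        · rw [hcy y hy, Perm.mul_apply, p4 y hy]
      have hE9 : 9 ≤ Set.ncard {y | y ∈ orbit S x₀} := by
        show 9 ≤ Set.ncard (orbit S x₀)
        rw [hk]
        calc 9 = 3 ^ 2 := by norm_num
          _ ≤ 3 ^ k := Nat.pow_le_pow_right (by norm_num) hk2
      obtain ⟨x₁, x₂, e1, e2, ⟨a0, a1, a2⟩, ⟨b0, b1, b2⟩, ⟨d0, d1, d2⟩⟩ := pick (E := fun x y => y ∈ orbit S x) (c := c₁ * c₂) x₀ hE9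
      refine typeII S (E := fun x y => y ∈ orbit S x) (orbit_rel S) ?_ (c := c₁ * c₂) ?_ ?_ ?_ ?_ e1 e2 hy0 a0 a1 a2 b0 b1 b2 d0 d1 d2
      · intro s hs x y
        have h1 : orbit S (s x) = orbit S x := orbit_eq_iff.mpr ⟨⟨s, hs⟩, rfl⟩
        show s y ∈ orbit S (s x) ↔ y ∈ orbit S x
        rw [h1]; exact hst x hs y
      · intro s hs
        have h1 := Subgroup.mem_centralizer_singleton_iff.mp (p1 hs)
        have h2 := Subgroup.mem_centralizer_singleton_iff.mp (q1 hs)
        rw [Subgroup.mem_centralizer_singleton_iff, ← mul_assoc, h1, mul_assoc, h2, mul_assoc]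
      · rw [hcomm.mul_pow, p2, q2, one_mul]
      · intro x
        by_cases hx : x ∈ orbit S x₀
        · rw [hcx x hx]; exact (p3 x hx).1
        · rw [hcy x hx]; exact (q3 x (htwo x hx)).1
      · intro x
        by_cases hx : x ∈ orbit S x₀
        · show (c₁ * c₂) x ∈ orbit S x
          rw [hcx x hx, orbit_eq_iff.mpr hx]; exact (p3 x hx).2
        · show (c₁ * c₂) x ∈ orbit S x
          rw [hcy x hx, orbit_eq_iff.mpr (htwo x hx)]; exact (q3 x (htwo x hx)).2

end Cfsg.Agent.Lib.ThreeMin
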