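import Mathlib
import Cfsg.Agent.Lib.ThreeMin
import Cfsg.Agent.Lib.Layer
import Cfsg.Agent.Lib.H70AltPrime
import Cfsg.Prelude.Def_LocalEven

/-!
# 3-minimal groups with alternating generalized Fitting subgroup (helper51)
-/

set_option autoImplicit false

namespace Cfsg.Agent.Lib.ThreeMin

open Equiv Equiv.Perm

/-- odd order elements act on a normal alternating subgroup as inner automorphisms -/
theorem sylow_le {X : Type*} [Group X] [Finite X] {F : Subgroup X} [F.Normal] {n : ℕ} (hn : 5 ≤ n)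
    (e : F ≃* alternatingGroup (Fin n)) (hC : Subgroup.centralizer (F : Set X) ≤ F) {s : X} (hs : Odd (orderOf s)) :
    s ∈ F := by
  let φ : MulAut (alternatingGroup (Fin n)) := MulAut.congr e (MulAut.conjNormal s)
  have hφ : ∀ f : F, φ (e f) = e (MulAut.conjNormal s f) := by
    intro f
    show e (MulAut.conjNormal s (e.symm (e f))) = _
    rw [e.symm_apply_apply]
  have hpow : φ ^ orderOf s = 1 := by
    have h1 : φ ^ orderOf s = MulAut.congr e ((MulAut.conjNormal s) ^ orderOf s) := (map_pow _ _ _).symm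
    rw [h1, ← map_pow, pow_orderOf_eq_one, map_one, map_one]
  have hodd : Odd (orderOf φ) := Odd.of_dvd_nat hs (orderOf_dvd_of_pow_eq_one hpow)
  obtain ⟨π, hπ⟩ := H70AltPrime.exists_perm hn φ hodd
  have hπ' : MulAut.conjNormal (π ^ (orderOf s + 1)) = φ := by
    rw [map_pow, hπ, pow_succ, hpow, one_mul]
  have heven : π ^ (orderOf s + 1) ∈ alternatingGroup (Fin n) := by
    rw [mem_alternatingGroup, map_pow]
    obtain ⟨k, hk⟩ := hs
    have : orderOf s + 1 = 2 * (k + 1) := by omega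
    rw [this, pow_mul]
    have h2 : sign π ^ 2 = 1 := Int.units_sq _
    rw [h2, one_pow]
  obtain ⟨f0, hf0⟩ := e.surjective ⟨_, heven⟩
  have hcent : (f0 : X)⁻¹ * s ∈ Subgroup.centralizer (F : Set X) := by
    rw [Subgroup.mem_centralizer_iff]
    intro f hf
    have h1 : MulAut.conjNormal s (⟨f, hf⟩ : F) = f0 * ⟨f, hf⟩ * f0⁻¹ := by
      apply e.injective
      rw [← hφ, ← hπ']
      apply Subtype.ext
      rw [MulAut.conjNormal_apply, map_mul, map_mul, map_inv, hf0]
      rfl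
    have h2 : s * f * s⁻¹ = (f0 : X) * f * (f0 : X)⁻¹ := congrArg Subtype.val h1
    calc f * ((f0 : X)⁻¹ * s) = (f0 : X)⁻¹ * ((f0 : X) * f * (f0 : X)⁻¹) * s := by group
      _ = (f0 : X)⁻¹ * s * f := by rw [← h2]; group
  have h3 := mul_mem f0.2 (hC hcent)
  rwa [mul_inv_cancel_left] at h3

theorem main {X : Type*} [Group X] [Finite X] (hX : Cfsg.IsPMinimal 3 X) (n : ℕ) (hn : 5 ≤ n)
    (hF : Nonempty (↥(Cfsg.generalizedFittingSubgroup X) ≃* ↥(alternatingGroup (Fin n)))) :
    Cfsg.generalizedFittingSubgroup X = ⊤ ∧ (n = 6 ∨ n = 9 ∨ ∃ a : ℕ, 2 ≤ a ∧ n = 3 ^ a + 1) := by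
  haveI : Fact (Nat.Prime 3) := ⟨Nat.prime_three⟩
  obtain ⟨e⟩ := hF
  set F := Cfsg.generalizedFittingSubgroup X with hFd
  haveI hFn : F.Normal := by rw [hFd]; infer_instance
  obtain ⟨S⟩ : Nonempty (Sylow 3 X) := inferInstance
  obtain ⟨hSn, M, ⟨hM, hSM⟩, hMu⟩ := hX S
  have hcoat : ∀ K : Subgroup X, K ≠ ⊤ → (S : Subgroup X) ≤ K → K ≤ M := by
    intro K hK hSK
    obtain ⟨L, hL, hKL⟩ := (eq_top_or_exists_le_coatom K).resolve_left hK
    rw [← hMu L ⟨hL, hSK.trans hKL⟩]; exact hKL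
  have hSF : (S : Subgroup X) ≤ F := by
    intro s hs
    apply sylow_le hn e Layer.centralizer_genFitting_le
    obtain ⟨k, hk⟩ := IsPGroup.iff_orderOf.mp S.isPGroup' ⟨s, hs⟩
    rw [Subgroup.orderOf_mk] at hk
    rw [hk]
    exact Odd.pow (by decide)
  have hFt : F = ⊤ := by
    by_contra hne
    have h1 := hcoat F hne hSF
    have h2 : Subgroup.normalizer ((S : Subgroup X) : Set X) ≠ ⊤ := by
      intro h
      exact hSn (Subgroup.normalizer_eq_top_iff.mp h)
    have h3 := hcoat _ h2 Subgroup.le_normalizer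
    have h4 := Sylow.normalizer_sup_eq_top' (N := F) S hSF
    apply hM.1
    rw [eq_top_iff, ← h4]
    exact sup_le h3 h1
  refine ⟨hFt, ?_⟩
  by_contra hcon
  push Not at hcon
  obtain ⟨n6, n9, na⟩ := hcon
  let E : X ≃* alternatingGroup (Fin n) :=
    (Subgroup.topEquiv.symm.trans (MulEquiv.subgroupCongr hFt.symm)).trans e
  let f : X →* Perm (Fin n) := (alternatingGroup (Fin n)).subtype.comp E.toMonoidHom
  have hfinj : Function.Injective f := (Subgroup.subtype_injective _).comp E.injective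
  have hSp : IsPGroup 3 ((S : Subgroup X).map f) := S.isPGroup'.map f
  have hSne : (S : Subgroup X).map f ≠ ⊥ := by
    intro h
    rw [Subgroup.map_eq_bot_iff_of_injective _ hfinj] at h
    apply hSn
    rw [h]; infer_instance
  have hcardn : Nat.card (Fin n) = n := Nat.card_fin n
  obtain ⟨M₁, M₂, h1, h2, h3, h4, h5⟩ := core ((S : Subgroup X).map f) hSp hSne (by rw [hcardn]; exact hn)
    (by rw [hcardn]; exact n6) (by rw [hcardn]; exact n9) (by rw [hcardn]; exact na)
  have hsurj : ∀ g ∈ alternatingGroup (Fin n), ∃ x, f x = g := by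
    intro g hg
    obtain ⟨x, hx⟩ := E.surjective ⟨g, hg⟩
    exact ⟨x, congrArg Subtype.val hx⟩
  have hK : ∀ N : Subgroup (Perm (Fin n)), (S : Subgroup X).map f ≤ N → ¬ alternatingGroup (Fin n) ≤ N →
      N ⊓ alternatingGroup (Fin n) ≤ M.map f := by
    intro N hN hN' g hg
    have hK1 : N.comap f ≠ ⊤ := by
      intro h
      apply hN'
      intro g hg
      obtain ⟨x, rfl⟩ := hsurj g hg
      have : x ∈ N.comap f := by rw [h]; exact Subgroup.mem_top _
      exact this
    have hK2 := hcoat _ hK1 (Subgroup.map_le_iff_le_comap.mp hN)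
    obtain ⟨x, rfl⟩ := hsurj g hg.2
    exact ⟨x, hK2 hg.1, rfl⟩
  have h6 := h5 (M.map f) (hK M₁ h1 h3) (hK M₂ h2 h4)
  apply hM.1
  rw [eq_top_iff]
  intro x _
  obtain ⟨y, hy, hyx⟩ := h6 (E x).2
  have : y = x := hfinj hyx
  rw [← this]; exact hy

end Cfsg.Agent.Lib.ThreeMin
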