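import Mathlib

/-!
Tools for groups with few automorphism orbits (helper68): the conjugation action of `G` on a normal
elementary abelian `p`-subgroup `D` as operators on the `ZMod p`-space `Additive D`.
-/

set_option autoImplicit false

namespace Cfsg.Agent.Lib.ThreeOrbits

open Polynomial
open scoped IsMulCommutative

section rep

variable {G : Type*} [Group G] (D : Subgroup G) [D.Normal] [IsMulCommutative D]

/-- conjugation action on `Additive D` -/
noncomputable def act (g : G) : Additive D →+ Additive D :=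
  MonoidHom.toAdditive (MulAut.conjNormal g : D ≃* D).toMonoidHom

theorem act_apply (g : G) (v : Additive D) : ((act D g v).toMul : G) = g * (v.toMul : G) * g⁻¹ := rfl

theorem toMul_inj {u v : Additive D} (h : (u.toMul : G) = (v.toMul : G)) : u = v :=
  Additive.toMul.injective (Subtype.ext h)

/-- the operators of conjugation -/
noncomputable def rho (p : ℕ) [Module (ZMod p) (Additive D)] : G →* Module.End (ZMod p) (Additive D) where
  toFun g := (act D g).toZModLinearMap p
  map_one' := by
    refine LinearMap.ext fun v => toMul_inj D ?_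
    show (1 : G) * (v.toMul : G) * (1 : G)⁻¹ = (v.toMul : G)
    simp
  map_mul' g h := by
    refine LinearMap.ext fun v => toMul_inj D ?_
    show (g * h) * (v.toMul : G) * (g * h)⁻¹ = g * (h * (v.toMul : G) * h⁻¹) * g⁻¹
    group

theorem rho_apply (p : ℕ) [Module (ZMod p) (Additive D)] (g : G) (v : Additive D) :
    ((rho D p g v).toMul : G) = g * (v.toMul : G) * g⁻¹ := rfl

theorem aeval_mem {p : ℕ} [Module (ZMod p) (Additive D)] (X : Module.End (ZMod p) (Additive D))
    (W : Submodule (ZMod p) (Additive D)) (hW : ∀ v ∈ W, X v ∈ W) (b : (ZMod p)[X]) (v : Additive D) (hv : v ∈ W) :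
    aeval X b v ∈ W := by
  rw [aeval_eq_sum_range, LinearMap.sum_apply]
  apply Submodule.sum_mem
  intro i hi
  clear hi
  rw [LinearMap.smul_apply]
  apply Submodule.smul_mem
  induction i with
  | zero => simpa using hv
  | succ n ih =>
    rw [pow_succ']
    exact hW _ ih

/-- the subgroup of `G` attached to a submodule -/
def sub {p : ℕ} [Module (ZMod p) (Additive D)] (W : Submodule (ZMod p) (Additive D)) : Subgroup G where
  carrier := {g | ∃ v ∈ W, ((v.toMul : D) : G) = g}
  mul_mem' := by
    rintro _ _ ⟨v, hv, rfl⟩ ⟨w, hw, rfl⟩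
    exact ⟨v + w, W.add_mem hv hw, rfl⟩
  one_mem' := ⟨0, W.zero_mem, rfl⟩
  inv_mem' := by
    rintro _ ⟨v, hv, rfl⟩
    exact ⟨-v, W.neg_mem hv, rfl⟩

theorem mem_sub {p : ℕ} [Module (ZMod p) (Additive D)] {W : Submodule (ZMod p) (Additive D)} {v : Additive D} :
    ((v.toMul : D) : G) ∈ sub D W ↔ v ∈ W := by
  constructor
  · rintro ⟨w, hw, h⟩
    rwa [← toMul_inj D h]
  · intro h
    exact ⟨v, h, rfl⟩

theorem sub_normal {p : ℕ} [Fact p.Prime] [Module (ZMod p) (Additive D)] [Finite G] {W : Submodule (ZMod p) (Additive D)} {x : G}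
    (hgen : D ⊔ Subgroup.zpowers x = ⊤) (hW : ∀ v ∈ W, rho D p x v ∈ W) : (sub D W).Normal := by
  rw [← Subgroup.normalizer_eq_top_iff, eq_top_iff, ← hgen]
  have hcase : ∀ g : G, (∀ v ∈ W, rho D p g v ∈ W) → (∀ v ∈ W, rho D p g⁻¹ v ∈ W) →
      g ∈ Subgroup.normalizer ((sub D W : Subgroup G) : Set G) := by
    intro g h1 h2 n
    constructor
    · rintro ⟨v, hv, rfl⟩
      exact ⟨_, h1 v hv, rfl⟩
    · intro hn
      obtain ⟨v, hv, hvn⟩ := hn
      refine ⟨_, h2 v hv, ?_⟩
      rw [rho_apply, hvn]
      group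
  apply sup_le
  · intro d hd
    have htriv : ∀ d ∈ D, ∀ v, rho D p d v = v := by
      intro d hd v
      apply toMul_inj
      rw [rho_apply]
      have : (⟨d, hd⟩ : D) * v.toMul = v.toMul * ⟨d, hd⟩ := mul_comm' _ _
      have h2 : d * (v.toMul : G) = (v.toMul : G) * d := congrArg Subtype.val this
      rw [h2]; group
    apply hcase
    · intro v hv; rwa [htriv d hd]
    · intro v hv; rwa [htriv _ (D.inv_mem hd)]
  · rw [Subgroup.zpowers_le]
    apply hcase x hW
    intro v hv
    have h1 : x⁻¹ = x ^ (orderOf x - 1) := by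
      have : x * x ^ (orderOf x - 1) = 1 := by
        rw [← pow_succ', Nat.sub_add_cancel (orderOf_pos x), pow_orderOf_eq_one]
      exact inv_eq_of_mul_eq_one_right this
    rw [h1, map_pow]
    generalize orderOf x - 1 = k
    induction k with
    | zero => simpa using hv
    | succ n ih =>
      rw [pow_succ']
      exact hW _ ih

/-- If the automorphism group of `G` is transitive on the nonidentity elements of `D`, and `G = D⟨x⟩` with `x`
acting with order dividing `q ≠ p`, then `x` has irreducible minimal polynomial on `D`. -/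
theorem irreducible_minpoly [Finite G] {p q : ℕ} [Fact p.Prime] [Fact q.Prime] (hpq : p ≠ q)
    [Module (ZMod p) (Additive D)] (hD : D ≠ ⊥) {x : G} (hxq : x ^ q = 1)
    (hgen : D ⊔ Subgroup.zpowers x = ⊤)
    (htrans : ∀ u ∈ D, ∀ v ∈ D, u ≠ 1 → v ≠ 1 → ∃ σ : MulAut G, σ u = v) :
    Irreducible (minpoly (ZMod p) (rho D p x)) := by
  classical
  set X := rho D p x with hX
  have hfinD : Finite (Additive D) := inferInstanceAs (Finite D)
  have hfd : Module.Finite (ZMod p) (Additive D) := Module.Finite.of_finite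
  have hnt : Nontrivial (Additive D) := by
    obtain ⟨a, ha⟩ := Subgroup.ne_bot_iff_exists_ne_one.mp hD
    exact ⟨⟨Additive.ofMul a, 0, fun h => ha h⟩⟩
  have hint : IsIntegral (ZMod p) X := Algebra.IsIntegral.isIntegral X
  set m := minpoly (ZMod p) X with hm
  have hmon : m.Monic := minpoly.monic hint
  have hXq : X ^ q = 1 := by rw [hX, ← map_pow, hxq, map_one]
  have hdvd : m ∣ (Polynomial.X ^ q - 1 : (ZMod p)[X]) := by
    apply minpoly.dvd
    simp [hXq]
  have hq0 : (q : ZMod p) ≠ 0 := by
    intro h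
    rw [ZMod.natCast_eq_zero_iff] at h
    exact hpq ((Nat.prime_dvd_prime_iff_eq (Fact.out) (Fact.out)).mp h)
  have hsep : m.Separable := by
    apply Polynomial.Separable.of_dvd _ hdvd
    exact Polynomial.separable_X_pow_sub_C (1 : ZMod p) hq0 one_ne_zero
  -- normal closures of elements
  have hcardeq : ∀ u ∈ D, ∀ v ∈ D, u ≠ 1 → v ≠ 1 →
      Nat.card (Subgroup.normalClosure {u}) = Nat.card (Subgroup.normalClosure {v}) := by
    intro u hu v hv hu1 hv1
    obtain ⟨σ, hσ⟩ := htrans u hu v hv hu1 hv1
    have h1 : (Subgroup.normalClosure {u}).map σ.toMonoidHom = Subgroup.normalClosure {v} := by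
      rw [Subgroup.map_normalClosure _ _ σ.surjective, Set.image_singleton]
      show Subgroup.normalClosure {σ u} = _
      rw [hσ]
    rw [← h1]
    exact Nat.card_congr (Subgroup.equivMapOfInjective _ _ σ.injective).toEquiv
  -- the minimal polynomial is not a unit
  have hmu : ¬ IsUnit m := minpoly.not_isUnit (ZMod p) X
  rw [irreducible_iff]
  refine ⟨hmu, ?_⟩
  intro a b hab
  by_contra hcon
  push Not at hcon
  obtain ⟨ha, hb⟩ := hcon
  have hcop : IsCoprime a b := by
    rw [hab] at hsep
    exact hsep.isCoprime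
  obtain ⟨s, t, hst⟩ := hcop
  have hm0 : m ≠ 0 := hmon.ne_zero
  have ha0 : a ≠ 0 := by rintro rfl; rw [zero_mul] at hab; exact hm0 hab
  have hb0 : b ≠ 0 := by rintro rfl; rw [mul_zero] at hab; exact hm0 hab
  have hA : aeval X a ≠ 0 := by
    intro h
    have h1 : m ∣ a := minpoly.dvd _ _ h
    have h2 : m.natDegree ≤ a.natDegree := Polynomial.natDegree_le_of_dvd h1 ha0
    rw [hab, Polynomial.natDegree_mul ha0 hb0] at h2
    have h3 : b.natDegree = 0 := by omega
    apply hb
    rw [Polynomial.natDegree_eq_zero] at h3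
    obtain ⟨c, rfl⟩ := h3
    rw [Polynomial.isUnit_C]
    exact isUnit_iff_ne_zero.mpr (fun hc => hb0 (by rw [hc, map_zero]))
  have hB : aeval X b ≠ 0 := by
    intro h
    have h1 : m ∣ b := minpoly.dvd _ _ h
    have h2 : m.natDegree ≤ b.natDegree := Polynomial.natDegree_le_of_dvd h1 hb0
    rw [hab, Polynomial.natDegree_mul ha0 hb0] at h2
    have h3 : a.natDegree = 0 := by omega
    apply ha
    rw [Polynomial.natDegree_eq_zero] at h3
    obtain ⟨c, rfl⟩ := h3
    rw [Polynomial.isUnit_C]
    exact isUnit_iff_ne_zero.mpr (fun hc => ha0 (by rw [hc, map_zero]))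
  have hcomm : ∀ f g : (ZMod p)[X], ∀ v, aeval X f (aeval X g v) = aeval X g (aeval X f v) := by
    intro f g v
    rw [← Module.End.mul_apply, ← Module.End.mul_apply, ← map_mul, ← map_mul, mul_comm]
  have hab0 : ∀ v, aeval X a (aeval X b v) = 0 := by
    intro v
    rw [← Module.End.mul_apply, ← map_mul, ← hab, minpoly.aeval]
    rfl
  obtain ⟨v1', hv1'⟩ : ∃ u, aeval X b u ≠ 0 := by
    by_contra hno
    push Not at hno
    exact hB (LinearMap.ext hno)
  obtain ⟨v2', hv2'⟩ : ∃ u, aeval X a u ≠ 0 := by
    by_contra hno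
    push Not at hno
    exact hA (LinearMap.ext hno)
  set v1 := aeval X b v1' with hv1
  set v2 := aeval X a v2' with hv2
  have hav1 : aeval X a v1 = 0 := hab0 _
  have hbv2 : aeval X b v2 = 0 := by rw [hv2, hcomm]; exact hab0 _
  -- no vector in both kernels
  have hboth : ∀ v, aeval X a v = 0 → aeval X b v = 0 → v = 0 := by
    intro v h1 h2
    have h3 : aeval X (s * a + t * b) v = v := by
      rw [hst, map_one]; rfl
    rw [map_add, map_mul, map_mul, LinearMap.add_apply, Module.End.mul_apply, Module.End.mul_apply, h1, h2,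
      map_zero, map_zero, add_zero] at h3
    exact h3.symm
  -- the invariant submodules
  have hinvk : ∀ f : (ZMod p)[X], ∀ v ∈ LinearMap.ker (aeval X f), X v ∈ LinearMap.ker (aeval X f) := by
    intro f v hv
    rw [LinearMap.mem_ker] at hv ⊢
    have := hcomm f Polynomial.X v
    rw [aeval_X] at this
    rw [this, hv, map_zero]
  have hKa : (sub D (LinearMap.ker (aeval X a))).Normal := sub_normal D hgen (hinvk a)
  have hKb : (sub D (LinearMap.ker (aeval X b))).Normal := sub_normal D hgen (hinvk b)
  set v := v1 + v2 with hv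
  have hv0 : v ≠ 0 := by
    intro h
    have h1 : v1 = -v2 := eq_neg_of_add_eq_zero_left h
    apply hv1'
    apply hboth v1 hav1
    rw [h1, map_neg, hbv2, neg_zero]
  have hne1 : ∀ w : Additive D, w ≠ 0 → ((w.toMul : D) : G) ≠ 1 := by
    intro w hw h
    exact hw (toMul_inj D h)
  -- for any polynomial `f`, `f(X) w` lies in the normal closure of `w`
  have hncl : ∀ (f : (ZMod p)[X]) (w : Additive D),
      ((aeval X f w).toMul : G) ∈ Subgroup.normalClosure {((w.toMul : D) : G)} := by
    intro f w
    let M : Submodule (ZMod p) (Additive D) := AddSubgroup.toZModSubmodule p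
      { carrier := {u : Additive D | ((u.toMul : D) : G) ∈ Subgroup.normalClosure {((w.toMul : D) : G)}}
        add_mem' := fun {a b} ha hb => (Subgroup.normalClosure _).mul_mem ha hb
        zero_mem' := (Subgroup.normalClosure _).one_mem
        neg_mem' := fun {a} ha => (Subgroup.normalClosure _).inv_mem ha }
    have hM : ∀ u : Additive D, u ∈ M ↔ ((u.toMul : D) : G) ∈ Subgroup.normalClosure {((w.toMul : D) : G)} := fun u => Iff.rfl
    have h1 : aeval X f w ∈ M := by
      apply aeval_mem D X M
      · intro u hu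
        rw [hM] at hu ⊢
        rw [hX, rho_apply]
        exact Subgroup.normalClosure_normal.conj_mem _ hu x
      · rw [hM]
        exact Subgroup.subset_normalClosure rfl
    exact (hM _).mp h1
  have hkey : ∀ (f : (ZMod p)[X]) (w : Additive D) (K : Submodule (ZMod p) (Additive D)), (sub D K).Normal → w ≠ 0 →
      aeval X f w ≠ 0 → aeval X f w ∈ K → w ∈ K := by
    intro f w K hK hw hfw hfK
    have h1 : Subgroup.normalClosure {((aeval X f w).toMul : G)} ≤ Subgroup.normalClosure {((w.toMul : D) : G)} := by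
      apply Subgroup.normalClosure_le_normal
      rw [Set.singleton_subset_iff]
      exact hncl f w
    have h2 := hcardeq _ (w.toMul).2 _ ((aeval X f w).toMul).2 (hne1 w hw) (hne1 _ hfw)
    have h3 : Subgroup.normalClosure {((aeval X f w).toMul : G)} = Subgroup.normalClosure {((w.toMul : D) : G)} :=
      Subgroup.eq_of_le_of_card_ge h1 h2.le
    have h4 : Subgroup.normalClosure {((aeval X f w).toMul : G)} ≤ sub D K := by
      apply Subgroup.normalClosure_le_normal
      rw [Set.singleton_subset_iff]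
      exact (mem_sub D).mpr hfK
    have h5 : ((w.toMul : D) : G) ∈ sub D K := by
      apply h4
      rw [h3]
      exact Subgroup.subset_normalClosure rfl
    exact (mem_sub D).mp h5
  apply hv0
  apply hboth
  · have h1 : aeval X b v = aeval X b v1 := by rw [hv, map_add, hbv2, add_zero]
    have h2 := hkey b v (LinearMap.ker (aeval X a)) hKa hv0
      (by rw [h1]; intro h; exact hv1' (hboth v1 hav1 h))
      (by rw [LinearMap.mem_ker]; exact hab0 v)
    exact h2
  · have h1 : aeval X a v = aeval X a v2 := by rw [hv, map_add, hav1, zero_add]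
    have h2 := hkey a v (LinearMap.ker (aeval X b)) hKb hv0
      (by rw [h1]; intro h; exact hv2' (hboth v2 h hbv2))
      (by rw [LinearMap.mem_ker, hcomm]; exact hab0 v)
    exact h2

end rep

section lin

variable {V : Type*} [AddCommGroup V]

/-- Norm argument: two commuting operators all of whose relevant combinations have norm zero. -/
theorem norm_argument {R : Type*} [Ring R] (q : ℕ) (hq : 0 < q) (X Y : R) (hXY : X * Y = Y * X)
    (h1 : ∀ j, 0 < j → j < q → ∑ i ∈ Finset.range q, (X ^ j) ^ i = 0)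
    (h2 : ∀ i, i < q → ∑ j ∈ Finset.range q, (Y * X ^ i) ^ j = 0) : (q : R) = 0 := by
  have hc : ∀ i, Commute Y (X ^ i) := fun i => (Commute.pow_right (show Commute Y X from hXY.symm) i)
  have h3 : ∑ i ∈ Finset.range q, ∑ j ∈ Finset.range q, (Y * X ^ i) ^ j = 0 := by
    apply Finset.sum_eq_zero
    intro i hi
    exact h2 i (Finset.mem_range.mp hi)
  rw [Finset.sum_comm] at h3
  have h4 : ∀ j ∈ Finset.range q, ∑ i ∈ Finset.range q, (Y * X ^ i) ^ j = if j = 0 then (q : R) else 0 := by
    intro j hj
    by_cases hj0 : j = 0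
    · subst hj0
      simp
    · rw [if_neg hj0]
      have : ∀ i ∈ Finset.range q, (Y * X ^ i) ^ j = Y ^ j * (X ^ j) ^ i := by
        intro i _
        rw [(hc i).mul_pow, ← pow_mul, ← pow_mul, mul_comm i j]
      rw [Finset.sum_congr rfl this, ← Finset.mul_sum, h1 j (Nat.pos_of_ne_zero hj0) (Finset.mem_range.mp hj), mul_zero]
  rw [Finset.sum_congr rfl h4, Finset.sum_ite_eq' (Finset.range q) 0, if_pos (Finset.mem_range.mpr hq)] at h3
  exact h3

/-- `1 + Z + ⋯ + Z^(q-1) = 0` when `Z^q = 1` and `Z` fixes no nonzero vector. -/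
theorem norm_eq_zero {F : Type*} [Semiring F] [Module F V] (q : ℕ) (Z : Module.End F V)
    (hZ : Z ^ q = 1) (hfix : ∀ v, Z v = v → v = 0) : ∑ i ∈ Finset.range q, Z ^ i = 0 := by
  refine LinearMap.ext fun v => ?_
  apply hfix
  have h := geom_sum_mul Z q
  have h' := mul_geom_sum Z q
  rw [hZ, sub_self] at h'
  have h2 : ((Z - 1) * ∑ i ∈ Finset.range q, Z ^ i) v = 0 := by rw [h']; rfl
  rw [Module.End.mul_apply, LinearMap.sub_apply, Module.End.one_apply] at h2
  exact sub_eq_zero.mp h2

/-- If every power `X^k` (`0<k<q`) is conjugate to `X`, the irreducible minimal polynomial `m ∣ Φ_q` has degree `≥ q-1`,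
so `p` is a primitive root modulo `q`. -/
theorem orderOf_eq {p q : ℕ} [Fact p.Prime] [Fact q.Prime] (hpq : p ≠ q) [Module (ZMod p) V] [Finite V] [Nontrivial V]
    (X : Module.End (ZMod p) V) (hXq : X ^ q = 1) (hfix : ∀ v, X v = v → v = 0)
    (hirr : Irreducible (minpoly (ZMod p) X))
    (hconj : ∀ k, 0 < k → k < q → ∃ S : V →+ V, Function.Surjective S ∧ ∀ v, S (X v) = (X ^ k) (S v)) :
    orderOf (p : ZMod q) = q - 1 := by
  classical
  have hfd : Module.Finite (ZMod p) V := Module.Finite.of_finite
  have hint : IsIntegral (ZMod p) X := Algebra.IsIntegral.isIntegral X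
  set m := minpoly (ZMod p) X with hm
  have hmon : m.Monic := minpoly.monic hint
  have hq : q.Prime := Fact.out
  have hp : p.Prime := Fact.out
  have hnorm := norm_eq_zero q X hXq hfix
  -- m divides the cyclotomic polynomial
  have hcyc : m ∣ cyclotomic q (ZMod p) := by
    apply minpoly.dvd
    rw [cyclotomic_prime, map_sum]
    simpa using hnorm
  have hcop : p.Coprime q := (Nat.coprime_primes hp hq).mpr hpq
  have hdeg := natDegree_of_dvd_cyclotomic_of_irreducible (K := ZMod p) (p := p) (f := 1) (n := q)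
    (by rw [ZMod.card, pow_one]) hcop hcyc hirr
  -- compare with orderOf (p : ZMod q)
  have hord : orderOf (ZMod.unitOfCoprime (p ^ 1) (hcop.pow_left 1)) = orderOf (p : ZMod q) := by
    rw [← orderOf_units, ZMod.coe_unitOfCoprime, pow_one]
  rw [hord] at hdeg
  have hle : orderOf (p : ZMod q) ≤ q - 1 := by
    rw [← hord]
    exact Nat.le_of_dvd (by have := hq.two_le; omega) (ZMod.orderOf_units_dvd_card_sub_one _)
  apply le_antisymm hle
  rw [← hdeg]
  -- the field generated by X
  have : Fact (Irreducible m) := ⟨hirr⟩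
  let ρ : AdjoinRoot m →+* Module.End (ZMod p) V :=
    Ideal.Quotient.lift (Ideal.span {m}) (aeval X : (ZMod p)[X] →ₐ[ZMod p] Module.End (ZMod p) V).toRingHom (by
      intro a ha
      rw [Ideal.mem_span_singleton] at ha
      obtain ⟨c, rfl⟩ := ha
      show aeval X (m * c) = 0
      rw [map_mul, minpoly.aeval, zero_mul])
  have hρmk : ∀ f : (ZMod p)[X], ρ (AdjoinRoot.mk m f) = aeval X f := fun f => rfl
  have hρinj : Function.Injective ρ := ρ.injective
  have hρroot : ρ (AdjoinRoot.root m) = X := by
    rw [AdjoinRoot.root, hρmk, aeval_X]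
  -- powers of the root are roots of m
  have hroots : ∀ k, 0 < k → k < q → (m.map (AdjoinRoot.of m)).IsRoot ((AdjoinRoot.root m) ^ k) := by
    intro k hk0 hkq
    obtain ⟨S, hS, hSX⟩ := hconj k hk0 hkq
    have hSXi : ∀ i v, S ((X ^ i) v) = ((X ^ k) ^ i) (S v) := by
      intro i
      induction i with
      | zero => intro v; simp
      | succ n ih =>
        intro v
        rw [pow_succ', Module.End.mul_apply, hSX, ih, pow_succ' (X ^ k), Module.End.mul_apply]
    have hSsmul : ∀ (c : ZMod p) v, S (c • v) = c • S v := fun c v => ZMod.map_smul S c v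
    have hzero : aeval (X ^ k) m = 0 := by
      refine LinearMap.ext fun w => ?_
      obtain ⟨v, rfl⟩ := hS w
      have h1 : S (aeval X m v) = aeval (X ^ k) m (S v) := by
        rw [aeval_eq_sum_range, aeval_eq_sum_range, LinearMap.sum_apply, LinearMap.sum_apply, map_sum]
        apply Finset.sum_congr rfl
        intro i _
        rw [LinearMap.smul_apply, LinearMap.smul_apply, hSsmul, hSXi]
      rw [← h1, minpoly.aeval]
      simp
    rw [IsRoot, eval_map]
    apply hρinj
    have h5 : ρ.comp (AdjoinRoot.of m) = algebraMap (ZMod p) (Module.End (ZMod p) V) := Subsingleton.elim _ _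
    rw [map_zero, Polynomial.hom_eval₂, map_pow, hρroot, h5, ← aeval_def, hzero]
  -- the root has order q
  have hrq : (AdjoinRoot.root m) ^ q = 1 := by
    apply hρinj
    rw [map_pow, hρroot, map_one, hXq]
  have hr1 : AdjoinRoot.root m ≠ 1 := by
    intro h
    have hX1 : X = 1 := by rw [← hρroot, h, map_one]
    obtain ⟨v, hv⟩ := exists_ne (0 : V)
    apply hv
    apply hfix
    rw [hX1]; rfl
  have horder : orderOf (AdjoinRoot.root m) = q := orderOf_eq_prime hrq hr1
  have hinj : Set.InjOn (fun k => (AdjoinRoot.root m) ^ k) (Finset.Ico 1 q : Finset ℕ) := by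
    intro a ha b hb hab
    rw [Finset.coe_Ico, Set.mem_Ico] at ha hb
    exact pow_injOn_Iio_orderOf (by rw [Set.mem_Iio, horder]; exact ha.2) (by rw [Set.mem_Iio, horder]; exact hb.2) hab
  have hcard : ((Finset.Ico 1 q).image (fun k => (AdjoinRoot.root m) ^ k)).card = q - 1 := by
    rw [Finset.card_image_of_injOn hinj, Nat.card_Ico]
  have hm0 : m.map (AdjoinRoot.of m) ≠ 0 := by
    rw [Polynomial.map_ne_zero_iff (AdjoinRoot.of m).injective]
    exact hmon.ne_zero
  have hsub : (Finset.Ico 1 q).image (fun k => (AdjoinRoot.root m) ^ k) ⊆ (m.map (AdjoinRoot.of m)).roots.toFinset := by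
    intro z hz
    rw [Finset.mem_image] at hz
    obtain ⟨k, hk, rfl⟩ := hz
    rw [Finset.mem_Ico] at hk
    rw [Multiset.mem_toFinset, Polynomial.mem_roots hm0]
    exact hroots k (by omega) hk.2
  calc q - 1 = ((Finset.Ico 1 q).image (fun k => (AdjoinRoot.root m) ^ k)).card := hcard.symm
    _ ≤ (m.map (AdjoinRoot.of m)).roots.toFinset.card := Finset.card_le_card hsub
    _ ≤ Multiset.card (m.map (AdjoinRoot.of m)).roots := Multiset.toFinset_card_le _
    _ ≤ (m.map (AdjoinRoot.of m)).natDegree := Polynomial.card_roots' _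
    _ ≤ m.natDegree := Polynomial.natDegree_map_le

/-- The field structure: if `Φ_q` is irreducible mod `p` and kills `X`, then nonzero vectors are conjugate under the
centralizer of `X`. -/
theorem exists_commuting {p q : ℕ} [Fact p.Prime] [Fact q.Prime] [Module (ZMod p) V]
    (X : Module.End (ZMod p) V) (f : (ZMod p)[X]) (hf : Irreducible f) (hXf : aeval X f = 0)
    (u v : V) (hu : u ≠ 0) (hv : v ≠ 0) :
    ∃ S : V ≃+ V, S u = v ∧ ∀ w, S (X w) = X (S w) := by
  have : Fact (Irreducible f) := ⟨hf⟩
  let ρ : AdjoinRoot f →+* Module.End (ZMod p) V :=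
    Ideal.Quotient.lift (Ideal.span {f}) (aeval X : (ZMod p)[X] →ₐ[ZMod p] Module.End (ZMod p) V).toRingHom (by
      intro a ha
      rw [Ideal.mem_span_singleton] at ha
      obtain ⟨c, rfl⟩ := ha
      show aeval X (f * c) = 0
      rw [map_mul, hXf, zero_mul])
  have hρroot : ρ (AdjoinRoot.root f) = X := by
    show aeval X Polynomial.X = X
    rw [aeval_X]
  letI : Module (AdjoinRoot f) V := Module.compHom V ρ
  have hsmul : ∀ w : V, (AdjoinRoot.root f) • w = X w := by
    intro w
    show ρ (AdjoinRoot.root f) w = X w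
    rw [hρroot]
  obtain ⟨g, hg⟩ := Submodule.exists_linearEquiv_restrict_eq
    ((LinearEquiv.toSpanNonzeroSingleton (AdjoinRoot f) V u hu).symm ≪≫ₗ
      (LinearEquiv.toSpanNonzeroSingleton (AdjoinRoot f) V v hv))
  refine ⟨g.toAddEquiv, ?_, ?_⟩
  · have h1 := hg ⟨u, Submodule.mem_span_singleton_self u⟩
    show g u = v
    rw [← h1]
    have h2 : (LinearEquiv.toSpanNonzeroSingleton (AdjoinRoot f) V u hu).symm ⟨u, Submodule.mem_span_singleton_self u⟩ = 1 := by
      rw [LinearEquiv.symm_apply_eq]
      simp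
    rw [LinearEquiv.trans_apply, h2]
    simp
  · intro w
    show g (X w) = X (g w)
    rw [← hsmul, ← hsmul, map_smul]

/-- semilinear maps: `X` is conjugate to `X^k`. -/
theorem exists_semilinear {p q : ℕ} [Fact p.Prime] [Fact q.Prime] (hpq : p ≠ q) [Module (ZMod p) V] [Finite V]
    (X : Module.End (ZMod p) V) (hf : Irreducible (cyclotomic q (ZMod p))) (hXf : aeval X (cyclotomic q (ZMod p)) = 0)
    (k : ℕ) (hk : k.Coprime q) :
    ∃ S : V ≃+ V, ∀ w, S (X w) = (X ^ k) (S w) := by
  classical
  set f := cyclotomic q (ZMod p) with hfdef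
  have : Fact (Irreducible f) := ⟨hf⟩
  have hp : p.Prime := Fact.out
  have hq : q.Prime := Fact.out
  let ρ : AdjoinRoot f →+* Module.End (ZMod p) V :=
    Ideal.Quotient.lift (Ideal.span {f}) (aeval X : (ZMod p)[X] →ₐ[ZMod p] Module.End (ZMod p) V).toRingHom (by
      intro a ha
      rw [Ideal.mem_span_singleton] at ha
      obtain ⟨c, rfl⟩ := ha
      show aeval X (f * c) = 0
      rw [map_mul, hXf, zero_mul])
  have hρroot : ρ (AdjoinRoot.root f) = X := by
    show aeval X Polynomial.X = X
    rw [aeval_X]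
  letI : Module (AdjoinRoot f) V := Module.compHom V ρ
  have hsmul : ∀ (j : ℕ) (w : V), ((AdjoinRoot.root f) ^ j) • w = (X ^ j) w := by
    intro j w
    show ρ ((AdjoinRoot.root f) ^ j) w = (X ^ j) w
    rw [map_pow, hρroot]
  -- the root is a primitive q-th root of unity
  have hne : NeZero (q : AdjoinRoot f) := by
    have h1 : (q : ZMod p) ≠ 0 := by
      intro h
      rw [ZMod.natCast_eq_zero_iff] at h
      exact hpq ((Nat.prime_dvd_prime_iff_eq hp hq).mp h)
    constructor
    intro h
    apply h1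
    apply (AdjoinRoot.of f).injective
    rw [map_natCast, map_zero, h]
  have hζ : IsPrimitiveRoot (AdjoinRoot.root f) q := by
    rw [← isRoot_cyclotomic_iff, IsRoot, ← map_cyclotomic q (AdjoinRoot.of f), eval_map]
    exact AdjoinRoot.eval₂_root f
  have hζk : eval₂ (AdjoinRoot.of f) ((AdjoinRoot.root f) ^ k) f = 0 := by
    have h1 : IsPrimitiveRoot ((AdjoinRoot.root f) ^ k) q := hζ.pow_of_coprime k hk
    rw [← isRoot_cyclotomic_iff, IsRoot, ← map_cyclotomic q (AdjoinRoot.of f), eval_map] at h1
    exact h1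
  let τ : AdjoinRoot f →+* AdjoinRoot f := AdjoinRoot.lift (AdjoinRoot.of f) ((AdjoinRoot.root f) ^ k) hζk
  have hτ : τ (AdjoinRoot.root f) = (AdjoinRoot.root f) ^ k := AdjoinRoot.lift_root hζk
  let b := Module.Basis.ofVectorSpace (AdjoinRoot f) V
  -- the semilinear map
  let S : V →+ V := (b.repr.symm.toAddEquiv.toAddMonoidHom.comp (Finsupp.mapRange.addMonoidHom τ.toAddMonoidHom)).comp
    b.repr.toAddEquiv.toAddMonoidHom
  have hS : ∀ w, b.repr (S w) = Finsupp.mapRange τ (map_zero τ) (b.repr w) := by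
    intro w
    show b.repr (b.repr.symm _) = _
    rw [LinearEquiv.apply_symm_apply]
    rfl
  have hinj : Function.Injective S := by
    intro w w' h
    have h1 : b.repr (S w) = b.repr (S w') := by rw [h]
    rw [hS, hS] at h1
    have h2 := Finsupp.mapRange_injective τ (map_zero τ) τ.injective h1
    exact b.repr.injective h2
  have hbij : Function.Bijective S := ⟨hinj, Finite.surjective_of_injective hinj⟩
  refine ⟨AddEquiv.ofBijective S hbij, ?_⟩
  intro w
  show S (X w) = (X ^ k) (S w)
  have h1 := hsmul 1 w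
  rw [pow_one, pow_one] at h1
  rw [← h1, ← hsmul]
  apply b.repr.injective
  rw [hS, map_smul, map_smul, hS]
  ext i
  simp [hτ]

end lin

section ext

variable {G : Type*} [Group G]

/-- Extending an automorphism of `D` to `G = D ⋊ ⟨x⟩`. -/
theorem exists_extension [Finite G] (D : Subgroup G) [D.Normal] (x : G)
    (hcomp : D.IsComplement' (Subgroup.zpowers x)) (k : ℕ) (hk : (orderOf x).Coprime k)
    (S : D ≃* D) (hS : ∀ y : D, S (MulAut.conjNormal x y) = MulAut.conjNormal (x ^ k) (S y)) :
    ∃ Φ : MulAut G, (∀ y : D, Φ (y : G) = (S y : G)) ∧ Φ x = x ^ k := by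
  have hSn : ∀ (n : ℕ) (y : D), S (MulAut.conjNormal (x ^ n) y) = MulAut.conjNormal ((x ^ n) ^ k) (S y) := by
    intro n
    induction n with
    | zero => intro y; simp
    | succ n ih =>
      intro y
      have h1 : x ^ (n + 1) = x * x ^ n := pow_succ' x n
      have hc : Commute x (x ^ n) := Commute.self_pow x n
      rw [h1, hc.mul_pow, map_mul, map_mul, MulAut.mul_apply, MulAut.mul_apply, hS, ih]
  have hSg : ∀ g ∈ Subgroup.zpowers x, ∀ y : D, S (MulAut.conjNormal g y) = MulAut.conjNormal (g ^ k) (S y) := by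
    intro g hg y
    rw [← mem_powers_iff_mem_zpowers] at hg
    obtain ⟨n, rfl⟩ := hg
    exact hSn n y
  have hcard : (Nat.card (Subgroup.zpowers x)).Coprime k := by rwa [Nat.card_zpowers]
  let fg : Subgroup.zpowers x ≃* Subgroup.zpowers x :=
    MulEquiv.mk' (powCoprime hcard) (fun a b => mul_pow a b k)
  have hfg : ∀ g : Subgroup.zpowers x, fg g = g ^ k := fun g => rfl
  let e := SemidirectProduct.mulEquivSubgroup hcomp
  let φ : Subgroup.zpowers x →* MulAut D := (D.normalizerMonoidHom).comp
    (Subgroup.inclusion (D.normalizer_eq_top ▸ le_top))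
  have hφ : ∀ (g : Subgroup.zpowers x) (y : D), φ g y = MulAut.conjNormal (g : G) y := by
    intro g y
    apply Subtype.ext
    rfl
  let c : D ⋊[φ] Subgroup.zpowers x ≃* D ⋊[φ] Subgroup.zpowers x :=
    SemidirectProduct.congr S fg (by
      intro g
      ext y
      show ((S (φ g y) : D) : G) = ((φ (fg g) (S y) : D) : G)
      rw [hφ, hφ, hfg, hSg g g.2, Subgroup.coe_pow])
  have he1 : ∀ y : D, e (SemidirectProduct.inl y) = (y : G) := by
    intro y
    simp [e]
  have he2 : ∀ g : Subgroup.zpowers x, e (SemidirectProduct.inr g) = (g : G) := by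
    intro g
    simp [e]
  refine ⟨(e.symm.trans c).trans e, ?_, ?_⟩
  · intro y
    show e (c (e.symm (y : G))) = _
    rw [← he1 y, MulEquiv.symm_apply_apply, ← he1]
    congr 1
    ext <;> simp [c]
  · show e (c (e.symm x)) = _
    have h1 : e (SemidirectProduct.inr ⟨x, Subgroup.mem_zpowers x⟩) = x := he2 _
    have h3 : e.symm x = SemidirectProduct.inr ⟨x, Subgroup.mem_zpowers x⟩ := by
      rw [MulEquiv.symm_apply_eq]
      exact h1.symm
    rw [h3]
    have h2 : c (SemidirectProduct.inr ⟨x, Subgroup.mem_zpowers x⟩) =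
        SemidirectProduct.inr (⟨x, Subgroup.mem_zpowers x⟩ ^ k) := by
      ext <;> simp [c, hfg]
    rw [h2, he2]
    rfl

end ext

end Cfsg.Agent.Lib.ThreeOrbits
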