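import Cfsg.Agent.Lib.TrGrp
import Cfsg.Agent.S1071
set_option autoImplicit false
set_option linter.unusedSectionVars false
set_option linter.unusedVariables false

/-!
The groups 3D4(q): double cosets of a maximal parabolic (helper44).
-/

namespace Cfsg.Agent.Lib.Tr
open Cfsg.Lie Cfsg.Agent.Lib.ChevX Cfsg.Agent.Lib.ChevGood Cfsg.Agent.Lib.ChevRel
open Cfsg.Agent.Lib.ChevNPerm hiding nn
open Cfsg.Agent.Lib.ChevBruhat Cfsg.Agent.Lib.TwFix Cfsg.Agent.Lib.TwTab Cfsg.Agent.Lib.SL2Pres Cfsg.Agent.Lib.ChevSL2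
  Cfsg.Agent.Lib.TrMat
open Cfsg.Agent.Lib.ChevClosed hiding pr
open scoped MatrixGroups Matrix

section dihedral
variable {W : Type*} [Group W] {a b : W}

/-- the four double cosets -/
def Cl (a b w : W) : Prop := ∃ x y : W, (x = 1 ∨ x = b) ∧ (y = 1 ∨ y = b) ∧
  (w = x * y ∨ w = x * a * y ∨ w = x * (a * b * a) * y ∨ w = x * (a * b * a * b * a * b) * y)

theorem cl_b (hb : b * b = 1) {w : W} (h : Cl a b w) : Cl a b (b * w) := by
  obtain ⟨x, y, hx, hy, h⟩ := h
  have hx' : b * x = 1 ∨ b * x = b := by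
    rcases hx with rfl | rfl
    · right; rw [mul_one]
    · left; exact hb
  refine ⟨b * x, y, hx', hy, ?_⟩
  rcases h with rfl | rfl | rfl | rfl
  · left; simp only [mul_assoc]
  · right; left; simp only [mul_assoc]
  · right; right; left; simp only [mul_assoc]
  · right; right; right; simp only [mul_assoc]

theorem cl_a (ha : a * a = 1) (hb : b * b = 1) (hc : a * b * a * b * a * b = b * a * b * a * b * a) {w : W} (h : Cl a b w) :
    Cl a b (a * w) := by
  obtain ⟨x, y, hx, hy, h⟩ := h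
  have hy' : b * y = 1 ∨ b * y = b := by
    rcases hy with rfl | rfl
    · right; rw [mul_one]
    · left; exact hb
  rcases hx with hx | hx
  · rw [hx] at h
    rcases h with rfl | rfl | rfl | rfl
    · exact ⟨1, y, Or.inl rfl, hy, Or.inr (Or.inl (by group))⟩
    · refine ⟨1, y, Or.inl rfl, hy, Or.inl ?_⟩
      calc a * (1 * a * y) = a * a * y := by group
        _ = 1 * y := by rw [ha]
    · refine ⟨b, y, Or.inr rfl, hy, Or.inr (Or.inl ?_)⟩
      calc a * (1 * (a * b * a) * y) = a * a * b * a * y := by group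
        _ = b * a * y := by rw [ha, one_mul]
    · refine ⟨b, b * y, Or.inr rfl, hy', Or.inr (Or.inr (Or.inl ?_))⟩
      calc a * (1 * (a * b * a * b * a * b) * y) = a * a * b * a * b * a * b * y := by group
        _ = b * (a * b * a) * (b * y) := by rw [ha, one_mul]; group
  · rw [hx] at h
    rcases h with rfl | rfl | rfl | rfl
    · refine ⟨1, b * y, Or.inl rfl, hy', Or.inr (Or.inl (by group))⟩
    · refine ⟨1, y, Or.inl rfl, hy, Or.inr (Or.inr (Or.inl (by group)))⟩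
    · refine ⟨1, b * y, Or.inl rfl, hy', Or.inr (Or.inr (Or.inr ?_))⟩
      calc a * (b * (a * b * a) * y) = a * b * a * b * a * 1 * y := by group
        _ = a * b * a * b * a * (b * b) * y := by rw [hb]
        _ = _ := by group
    · refine ⟨b, y, Or.inr rfl, hy, Or.inr (Or.inr (Or.inl ?_))⟩
      calc a * (b * (a * b * a * b * a * b) * y) = a * (b * b) * a * b * a * b * a * y := by rw [hc]; group
        _ = a * a * b * a * b * a * y := by rw [hb]; group
        _ = b * (a * b * a) * y := by rw [ha]; group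

end dihedral

section main
variable {K : Type*} [Field K] [Fintype K] {q : ℕ} (hq : IsPrimePow q) (hK : Fintype.card K = q ^ 3)

theorem nz2 : tabD4.nz = 2 := rfl

noncomputable abbrev wa : Equiv.Perm (Fin chevD4.nroots) := (WD hq hK).wj ⟨0, by decide⟩
noncomputable abbrev wb : Equiv.Perm (Fin chevD4.nroots) := (WD hq hK).wj ⟨1, by decide⟩

/-- tables -/
def fa (s : ℕ) : ℕ := tabD4.wlN [0, 2, 3] s
def fb (s : ℕ) : ℕ := tabD4.wlN [1] s

theorem wa_eq (s : Fin chevD4.nroots) : ((wa hq hK s : Fin chevD4.nroots) : ℕ) = fa s :=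
  wlj_eq (G := TwD4.G) chk1D4 chk3D4 (j := 0) (by decide) s

theorem wb_eq (s : Fin chevD4.nroots) : ((wb hq hK s : Fin chevD4.nroots) : ℕ) = fb s :=
  wlj_eq (G := TwD4.G) chk1D4 chk3D4 (j := 1) (by decide) s

theorem tabc : ∀ s < 24, fa (fb (fa (fb (fa (fb s))))) = fb (fa (fb (fa (fb (fa s))))) := by decide

theorem hcc : wa hq hK * wb hq hK * wa hq hK * wb hq hK * wa hq hK * wb hq hK =
    wb hq hK * wa hq hK * wb hq hK * wa hq hK * wb hq hK * wa hq hK := by
  apply Equiv.ext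
  intro s
  apply Fin.ext
  simp only [Equiv.Perm.mul_apply, wa_eq, wb_eq]
  exact tabc s s.2

theorem cl_word (l : List (Fin tabD4.nz)) : Cl (wa hq hK) (wb hq hK) (l.map (WD hq hK).wj).prod := by
  induction l with
  | nil => exact ⟨1, 1, Or.inl rfl, Or.inl rfl, Or.inl (by simp)⟩
  | cons j l ih =>
    rw [List.map_cons, List.prod_cons]
    obtain ⟨j, hj⟩ := j
    have hj2 : j < 2 := hj
    interval_cases j
    · exact cl_a ((WD hq hK).sq _) ((WD hq hK).sq _) (hcc hq hK) ih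
    · exact cl_b ((WD hq hK).sq _) ih

/-- fundamental elements -/
noncomputable abbrev na : GL chevD4.Idx K := Pa hq hK w1
noncomputable abbrev nb : GL chevD4.Idx K := Pb hq hK w1

theorem na_mono : Mono G (na hq hK) (wa hq hK) := by
  rw [na, ← na_eq]; exact (WD hq hK).mono_nj _

theorem nb_mono : Mono G (nb hq hK) (wb hq hK) := by
  rw [nb, ← nb_eq]; exact (WD hq hK).mono_nj _

/-- the fixed monomial elements -/
noncomputable abbrev Nf : Subgroup (GL chevD4.Idx K) := chevD4.monomialSubgroup K ⊓ fx hq hK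

theorem na_mem : na hq hK ∈ Nf hq hK := by
  rw [na, ← na_eq]; exact ⟨(WD hq hK).nj_mem_N _, (WD hq hK).nj_mem_fix _⟩

theorem nb_mem : nb hq hK ∈ Nf hq hK := by
  rw [nb, ← nb_eq]; exact ⟨(WD hq hK).nj_mem_N _, (WD hq hK).nj_mem_fix _⟩

/-- the image of a set of roots -/
theorem conj_X {n x : GL chevD4.Idx K} {w : Equiv.Perm (Fin chevD4.nroots)} (hm : Mono G n w) {f : ℕ → ℕ}
    (hf : ∀ s, ((w s : Fin chevD4.nroots) : ℕ) = f s) {l l' : List ℕ} (h : ∀ s ∈ l, f s ∈ l') (hx : x ∈ X K l) :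
    n * x * n⁻¹ ∈ X K l' := by
  refine XS_mono ?_ (mono_conj_XS G hm hx)
  rintro _ ⟨s, hs, rfl⟩
  show ((w s : Fin chevD4.nroots) : ℕ) ∈ l'
  rw [hf]
  exact h s hs

theorem na_X {l l' : List ℕ} (h : ∀ s ∈ l, fa s ∈ l') {x : GL chevD4.Idx K} (hx : x ∈ X K l) :
    na hq hK * x * (na hq hK)⁻¹ ∈ X K l' := conj_X (na_mono hq hK) (wa_eq hq hK) h hx

theorem nb_X {l l' : List ℕ} (h : ∀ s ∈ l, fb s ∈ l') {x : GL chevD4.Idx K} (hx : x ∈ X K l) :
    nb hq hK * x * (nb hq hK)⁻¹ ∈ X K l' := conj_X (nb_mono hq hK) (wb_eq hq hK) h hx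

/-- monomial elements with the same permutation -/
theorem same {n n' : GL chevD4.Idx K} {w : Equiv.Perm (Fin chevD4.nroots)} (hn : n ∈ Nf hq hK) (hn' : n' ∈ Nf hq hK)
    (h : Mono G n w) (h' : Mono G n' w) : n'⁻¹ * n ∈ chevD4.diagonalSubgroup K ⊓ fx hq hK := by
  refine ⟨mem_diag_of_one G (mul_mem (inv_mem hn'.1) hn.1) ?_, (fx hq hK).mul_mem ((fx hq hK).inv_mem hn'.2) hn.2⟩
  have := mono_mul G (mono_inv G h') h
  rwa [inv_mul_cancel] at this

/-- the rank one group at 120° -/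
noncomputable def P120 : SL(2, K) →* GL chevD4.Idx K := (MulAut.conj (nb hq hK)).toMonoidHom.comp (Pa hq hK)
/-- the rank one group at 60° -/
noncomputable def P60 : SL(2, K) →* GL chevD4.Idx K := (MulAut.conj (na hq hK)).toMonoidHom.comp (P120 hq hK)
/-- the rank one group at 30° -/
noncomputable def P30 : SL(2, F0 hq hK) →* GL chevD4.Idx K := (MulAut.conj (na hq hK)).toMonoidHom.comp (Pb hq hK)

theorem P120_eq (g : SL(2, K)) : P120 hq hK g = nb hq hK * Pa hq hK g * (nb hq hK)⁻¹ := rfl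
theorem P60_eq (g : SL(2, K)) : P60 hq hK g = na hq hK * P120 hq hK g * (na hq hK)⁻¹ := rfl
theorem P30_eq (g : SL(2, F0 hq hK)) : P30 hq hK g = na hq hK * Pb hq hK g * (na hq hK)⁻¹ := rfl

/-- the element at the middle -/
noncomputable def n2 : GL chevD4.Idx K := na hq hK * nb hq hK * na hq hK
/-- a representative of the longest element -/
noncomputable def nu : GL chevD4.Idx K := P120 hq hK w1 * P30 hq hK w1

theorem n2_mem : n2 hq hK ∈ Nf hq hK := mul_mem (mul_mem (na_mem hq hK) (nb_mem hq hK)) (na_mem hq hK)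

theorem nu_mem : nu hq hK ∈ Nf hq hK :=
  mul_mem (mul_mem (mul_mem (nb_mem hq hK) (na_mem hq hK)) (inv_mem (nb_mem hq hK)))
    (mul_mem (mul_mem (na_mem hq hK) (nb_mem hq hK)) (inv_mem (na_mem hq hK)))

theorem n2_mono : Mono G (n2 hq hK) (wa hq hK * wb hq hK * wa hq hK) :=
  mono_mul G (mono_mul G (na_mono hq hK) (nb_mono hq hK)) (na_mono hq hK)

theorem wa_inv : (wa hq hK)⁻¹ = wa hq hK := inv_eq_of_mul_eq_one_left ((WD hq hK).sq _)
theorem wb_inv : (wb hq hK)⁻¹ = wb hq hK := inv_eq_of_mul_eq_one_left ((WD hq hK).sq _)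

theorem nu_mono : Mono G (nu hq hK) (wa hq hK * wb hq hK * wa hq hK * wb hq hK * wa hq hK * wb hq hK) := by
  have h := mono_mul G (mono_mul G (mono_mul G (nb_mono hq hK) (na_mono hq hK)) (mono_inv G (nb_mono hq hK)))
    (mono_mul G (mono_mul G (na_mono hq hK) (nb_mono hq hK)) (mono_inv G (na_mono hq hK)))
  rw [wa_inv, wb_inv] at h
  have e : wb hq hK * wa hq hK * wb hq hK * wa hq hK * wb hq hK * wa hq hK =
    wb hq hK * wa hq hK * wb hq hK * (wa hq hK * wb hq hK * wa hq hK) := by simp only [mul_assoc]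
  rw [hcc, e]
  exact h

/-- the double cosets -/
theorem cells {n : GL chevD4.Idx K} (hn : n ∈ Nf hq hK) : n ∈ L hq hK ∨
    ∃ m ∈ L hq hK, ∃ m' ∈ L hq hK, n = m * na hq hK * m' ∨ n = m * n2 hq hK * m' ∨ n = m * nu hq hK * m' := by
  obtain ⟨l, h, hh, rfl⟩ := (WD hq hK).exists_word hn
  have hw : Mono G ((l.map (WD hq hK).nj).prod * h) (l.map (WD hq hK).wj).prod := by
    have := mono_mul G (Sft.word_mono (W := WD hq hK) l) (mono_diag G hh.1)
    rwa [mul_one] at this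
  obtain ⟨x, y, hx, hy, hc⟩ := cl_word hq hK l
  -- lifts of x, y
  have lift : ∀ x : Equiv.Perm (Fin chevD4.nroots), (x = 1 ∨ x = wb hq hK) → ∃ m ∈ L hq hK, m ∈ Nf hq hK ∧ Mono G m x := by
    rintro x (rfl | rfl)
    · exact ⟨1, one_mem _, one_mem _, mono_one G⟩
    · exact ⟨nb hq hK, Pb_mem_L hq hK _, nb_mem hq hK, nb_mono hq hK⟩
  obtain ⟨m, hmL, hmN, hm⟩ := lift x hx
  obtain ⟨m', hmL', hmN', hm'⟩ := lift y hy
  rcases hc with hc | hc | hc | hc
  · left
    have h1 := H_le_L hq hK (same hq hK hn (mul_mem hmN hmN') (hc ▸ hw) (mono_mul G hm hm'))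
    have h2 := mul_mem (mul_mem hmL hmL') h1
    rwa [mul_inv_cancel_left] at h2
  · right
    have h1 := H_le_L hq hK (same hq hK hn (mul_mem (mul_mem hmN (na_mem hq hK)) hmN') (hc ▸ hw)
      (mono_mul G (mono_mul G hm (na_mono hq hK)) hm'))
    exact ⟨m, hmL, _, mul_mem hmL' h1, Or.inl (by group)⟩
  · right
    have h1 := H_le_L hq hK (same hq hK hn (mul_mem (mul_mem hmN (n2_mem hq hK)) hmN') (hc ▸ hw)
      (mono_mul G (mono_mul G hm (n2_mono hq hK)) hm'))
    exact ⟨m, hmL, _, mul_mem hmL' h1, Or.inr (Or.inl (by group))⟩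
  · right
    have h1 := H_le_L hq hK (same hq hK hn (mul_mem (mul_mem hmN (nu_mem hq hK)) hmN') (hc ▸ hw)
      (mono_mul G (mono_mul G hm (nu_mono hq hK)) hm'))
    exact ⟨m, hmL, _, mul_mem hmL' h1, Or.inr (Or.inr (by group))⟩

/-! ### reduction -/

/-- all positive roots -/
def lP : List ℕ := [12, 13, 14, 15, 16, 17, 18, 19, 20, 21, 22, 23]

theorem RS_lP : RS lP = posS chevD4 := by
  ext r
  show (r : ℕ) ∈ lP ↔ 12 ≤ (r : ℕ)
  have h : ∀ r < 24, r ∈ lP ↔ 12 ≤ r := by decide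
  exact h r r.2

theorem X_lP : X K lP = chevD4.posUnipotent K := by
  rw [X, RS_lP, XS_posS G]

theorem selfNm {l : List ℕ} {x : GL chevD4.Idx K} (hx : x ∈ X K l) : x ∈ Nm (K := K) l :=
  ⟨fun b hb => mul_mem (mul_mem hx hb) (inv_mem hx), fun b hb => mul_mem (mul_mem (inv_mem hx) hb) hx⟩

theorem U_Nm {x : GL chevD4.Idx K} (hx : x ∈ X K lP) : x ∈ Nm (K := K) lA := by
  have h : X K lP ≤ Nm (K := K) lA := by
    apply XS_le
    intro r hr t
    have h1 : (r : ℕ) = 14 ∨ (r : ℕ) ∈ lA := by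
      have : ∀ r ∈ lP, r = 14 ∨ r ∈ lA := by decide
      exact this r hr
    rcases h1 with h1 | h1
    · rw [h1]; exact xg_Nm (by decide) st14A t
    · exact selfNm (xg_mem r.2 h1 t)
  exact h hx

theorem cA : Closed K (RS lA) := by
  refine ⟨fun r hr => ?_, fun r hr s hs hne c hc _ k hk => ?_⟩
  · have h : ∀ r ∈ lA, 12 ≤ r := by decide
    exact h r hr
  · show (k : ℕ) ∈ lA
    rw [hk]
    have h : ∀ r ∈ lA, ∀ s ∈ lA, s ≠ r → ∀ c ∈ chevD4.commTerms r s, c.1 ∈ lA := by decide +kernel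
    exact h r hr s hs (fun h => hne (Fin.ext h)) c hc

theorem c14 : Closed K (RS [14]) := by
  refine ⟨fun r hr => ?_, fun r hr s hs hne c hc _ k hk => ?_⟩
  · have h : ∀ r ∈ [14], 12 ≤ r := by decide
    exact h r hr
  · exfalso
    apply hne
    apply Fin.ext
    have h1 : (r : ℕ) = 14 := by simpa [RS] using hr
    have h2 : (s : ℕ) = 14 := by simpa [RS] using hs
    rw [h1, h2]

theorem rho_eq (r : Fin chevD4.nroots) : (((TwD4.T hq hK).ρ r : Fin chevD4.nroots) : ℕ) = tabD4.rh r := rfl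

/-- factorization of fixed unipotent elements -/
theorem U_factor {u : GL chevD4.Idx K} (hu : u ∈ X K lP) (hf : u ∈ fx hq hK) :
    ∃ a ∈ L hq hK, ∃ b ∈ QA hq hK, u = a * b := by
  obtain ⟨a, ha, b, hb, rfl⟩ := exists_factor' G (A := RS lP) (by rw [RS_lP]; exact closed_posS G) (RS [14]) hu
  have ha' : a ∈ X K [14] := XS_mono Set.inter_subset_right ha
  have hb' : b ∈ X K lA := by
    refine XS_mono ?_ hb
    rintro r ⟨h1, h2⟩
    have h : ∀ r ∈ lP, r ∉ [14] → r ∈ lA := by decide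
    exact h r h1 h2
  have h1 := Sft.factor_fix (TwD4.T hq hK) c14 cA (fun r hr => by
      have h : ∀ r ∈ [14], tabD4.rh r ∈ [14] := by decide
      exact h r hr) (fun r hr => by
      have h : ∀ r ∈ lA, tabD4.rh r ∈ lA := by decide
      exact h r hr) (by
      ext r
      simp only [Set.mem_inter_iff, Set.mem_empty_iff_false, iff_false, not_and]
      have h : ∀ r ∈ [14], r ∉ lA := by decide
      exact h r) ha' hb' hf
  refine ⟨a, ?_, b, ⟨hb', h1.2⟩, rfl⟩
  -- a is a root element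
  have h2 : ∃ t : K, a = xg chevD4 K 14 t := by
    let S : Subgroup (GL chevD4.Idx K) :=
      { carrier := {g | ∃ t : K, g = xg chevD4 K 14 t}
        one_mem' := ⟨0, by rw [xg_zero G]⟩
        mul_mem' := by rintro _ _ ⟨t, rfl⟩ ⟨u, rfl⟩; exact ⟨t + u, by rw [xg_add G]⟩
        inv_mem' := by rintro _ ⟨t, rfl⟩; exact ⟨-t, by rw [xg_neg G]⟩ }
    have h3 : X K [14] ≤ S := by
      apply XS_le
      intro r hr t
      have h4 : (r : ℕ) = 14 := by simpa [RS] using hr
      exact ⟨t, by rw [h4]⟩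
    exact h3 ha'
  obtain ⟨t, rfl⟩ := h2
  have h3 := h1.1.2
  have h4 : (14 : ℕ) < chevD4.nroots := by decide
  have h6 : t ^ q = t := by
    have e := (TwD4.T hq hK).s_eq (xg_mem_group G (F := K) 14 t)
    have e2 : (⟨xg chevD4 K 14 t, xg_mem_group G 14 t⟩ : chevD4.group K) = MinTD4C.x 14 t :=
      Subtype.ext (coe_x h4 t).symm
    rw [e, e2] at h3
    have e3 : ((TwD4.T hq hK).σ (MinTD4C.x 14 t) : chevD4.group K) = MinTD4C.x 14 (t ^ q) := by
      have := MinTD4A.s14 hq hK t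
      rw [Int.cast_one, one_mul] at this
      exact this
    rw [e3, coe_x h4] at h3
    exact xg_inj G h4 h3
  have h7 : xg chevD4 K 14 t = Pb hq hK (E (⟨t, h6⟩ : F0 hq hK)) := by rw [Pb_E]
  rw [h7]
  exact Pb_mem_L hq hK _

theorem tw_eq_fix : twistedD4 K q = fx hq hK := by
  rw [TwD4.twisted_eq (TwField.pow_pow_card hK)]
  ext g
  exact (TwD4.all hq hK).mem_iff_fix

theorem na_not : na hq hK ∉ Nm (K := K) lA := by
  intro h
  have h18 : (18 : ℕ) < chevD4.nroots := by decide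
  have h1 := h.1 _ (xg_mem (K := K) h18 (by decide) 1)
  have h2 := na_X hq hK (l := [18]) (l' := [5]) (by decide) (xg_mem (K := K) h18 (by decide) 1)
  have h3 : X K lA ≤ chevD4.borelSubgroup K := by
    intro x hx
    apply borel_U G
    rw [← X_lP]
    exact X_mono (by decide) hx
  have h4 : X K [5] ≤ chevD4.negUnipotent K := by
    rw [← XS_negS G]
    apply XS_mono
    intro r hr
    have h5 : (r : ℕ) = 5 := by simpa [RS] using hr
    show ¬ 12 ≤ (r : ℕ)
    omega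
  have h5 := inf_BV G TwD4.listed (h3 h1) (h4 h2)
  have h6 : xg chevD4 K 18 1 = 1 := by
    have h7 := congrArg (fun x => (na hq hK)⁻¹ * x * na hq hK) h5
    simp only [mul_one, inv_mul_cancel] at h7
    rw [← h7]; group
  rw [← xg_zero G (F := K) 18] at h6
  exact one_ne_zero (xg_inj G h18 h6)

/-- reduction to representatives of the double cosets -/
theorem reduce {g : GL chevD4.Idx K} (hg : g ∈ fx hq hK) (h1 : g ≠ 1) :
    ∃ k ∈ fx hq hK, ∃ n, (n = na hq hK ∨ n = n2 hq hK ∨ n = nu hq hK) ∧ ∃ l ∈ L hq hK, ∃ b ∈ QA hq hK,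
      k * g * k⁻¹ = n * l * b := by
  have hsim : IsSimpleGroup ↥(fx hq hK) := by
    have := (Cfsg.Agent.S1071.result hq hK).1
    rwa [tw_eq_fix hq hK] at this
  -- some conjugate is not in the parabolic
  have step1 : ∃ k ∈ fx hq hK, k * g * k⁻¹ ∉ Nm (K := K) lA := by
    by_contra hcon
    push Not at hcon
    let M : Subgroup ↥(fx hq hK) := (Nm (K := K) lA).subgroupOf (fx hq hK)
    have hgM : (⟨g, hg⟩ : fx hq hK) ∈ M.normalCore := by
      intro b
      exact hcon b b.2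
    have hne : M.normalCore ≠ ⊥ := by
      intro h
      rw [h, Subgroup.mem_bot] at hgM
      exact h1 (congrArg Subtype.val hgM)
    have htop : M.normalCore = ⊤ := (IsSimpleGroup.eq_bot_or_eq_top_of_normal _ inferInstance).resolve_left hne
    have h2 : (⟨na hq hK, (na_mem hq hK).2⟩ : fx hq hK) ∈ M.normalCore := by rw [htop]; exact Subgroup.mem_top _
    have h3 : (⟨na hq hK, (na_mem hq hK).2⟩ : fx hq hK) ∈ M := M.normalCore_le h2
    exact na_not hq hK h3
  obtain ⟨k, hk, hk1⟩ := step1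
  have hg1 : k * g * k⁻¹ ∈ fx hq hK := (fx hq hK).mul_mem ((fx hq hK).mul_mem hk hg) ((fx hq hK).inv_mem hk)
  obtain ⟨u, hu, n, hn, w, hw, u', hu', h⟩ := (TwD4.T hq hK).fix_bruhat hg1
  have huX : u ∈ X K lP := by rw [X_lP]; exact hu.1
  have huX' : u' ∈ X K lP := by
    show u' ∈ XS chevD4 K (RS lP)
    rw [RS_lP]
    exact XS_mono (fun r hr => hr.1) hu'.1
  have hnL : n ∉ L hq hK := by
    intro hnL
    apply hk1
    rw [h]
    exact mul_mem (mul_mem (U_Nm huX) (L_Nm hq hK st14A st9A hnL)) (U_Nm huX')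
  obtain ⟨m, hm, m', hm', hc⟩ := (cells hq hK hn).resolve_left hnL
  obtain ⟨a, ha, b, hb, hab⟩ := U_factor hq hK (mul_mem huX' huX) ((fx hq hK).mul_mem hu'.2 hu.2)
  have key : ∀ n0, n = m * n0 * m' → (m⁻¹ * u⁻¹ * k) * g * (m⁻¹ * u⁻¹ * k)⁻¹ = n0 * (m' * a * m) * (m⁻¹ * b * m) := by
    intro n0 hn0
    calc (m⁻¹ * u⁻¹ * k) * g * (m⁻¹ * u⁻¹ * k)⁻¹ = m⁻¹ * u⁻¹ * (k * g * k⁻¹) * u * m := by group
      _ = m⁻¹ * n * (u' * u) * m := by rw [h]; group
      _ = _ := by rw [hab, hn0]; group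
  have hkf : m⁻¹ * u⁻¹ * k ∈ fx hq hK :=
    (fx hq hK).mul_mem ((fx hq hK).mul_mem ((fx hq hK).inv_mem (L_le_fix hq hK hm)) ((fx hq hK).inv_mem hu.2)) hk
  have hb' : m⁻¹ * b * m ∈ QA hq hK := by
    have := L_QA hq hK (inv_mem hm) hb
    rwa [inv_inv] at this
  have hl : m' * a * m ∈ L hq hK := mul_mem (mul_mem hm' ha) hm
  rcases hc with hc | hc | hc
  · exact ⟨_, hkf, _, Or.inl rfl, _, hl, _, hb', key _ hc⟩
  · exact ⟨_, hkf, _, Or.inr (Or.inl rfl), _, hl, _, hb', key _ hc⟩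
  · exact ⟨_, hkf, _, Or.inr (Or.inr rfl), _, hl, _, hb', key _ hc⟩

end main

end Cfsg.Agent.Lib.Tr
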