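import Cfsg.Agent.Lib.TrCj
set_option autoImplicit false
set_option linter.unusedSectionVars false
set_option linter.unusedVariables false

/-!
The groups 3D4(q): a semisimple element of a Levi subgroup has trivial centralizer in the unipotent radical (helper44).
-/

namespace Cfsg.Agent.Lib.Tr
open Cfsg.Lie Cfsg.Agent.Lib.ChevX Cfsg.Agent.Lib.ChevGood Cfsg.Agent.Lib.ChevRel
open Cfsg.Agent.Lib.ChevNPerm hiding nn
open Cfsg.Agent.Lib.ChevBruhat Cfsg.Agent.Lib.TwFix Cfsg.Agent.Lib.TwTab Cfsg.Agent.Lib.SL2Pres Cfsg.Agent.Lib.ChevSL2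
open Cfsg.Agent.Lib.TrMat
open Cfsg.Agent.Lib.ChevClosed hiding pr
open scoped MatrixGroups Matrix

section mat
variable {F : Type*} [Field F]

/-- `A diag(1, -1)` -/
def dd (A : Matrix (Fin 2) (Fin 2) F) (h : A 0 0 * A 1 1 - A 0 1 * A 1 0 = -1) : SL(2, F) :=
  ⟨!![A 0 0, -A 0 1; A 1 0, -A 1 1], by rw [Matrix.det_fin_two_of]; linear_combination (-1) * h⟩

theorem coe_dd (A : Matrix (Fin 2) (Fin 2) F) (h : A 0 0 * A 1 1 - A 0 1 * A 1 0 = -1) :
    (dd A h).1 = !![A 0 0, -A 0 1; A 1 0, -A 1 1] := rfl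

theorem coe_twm (M : SL(2, F)) : (tw (-1) M).1 = !![M.1 0 0, -M.1 0 1; -M.1 1 0, M.1 1 1] := by
  show (twf (-1) M).1 = _
  rw [coe_twf]
  ext i j
  fin_cases i <;> fin_cases j <;> simp

theorem dd_conj {A B : Matrix (Fin 2) (Fin 2) F} (hA : A 0 0 * A 1 1 - A 0 1 * A 1 0 = -1)
    (hB : B 0 0 * B 1 1 - B 0 1 * B 1 0 = -1) {P : SL(2, F)} (h : P.1 * A = B * P.1) : P * dd A hA = dd B hB * tw (-1) P := by
  apply Subtype.ext
  rw [Matrix.SpecialLinearGroup.coe_mul, Matrix.SpecialLinearGroup.coe_mul, coe_dd, coe_dd, coe_twm]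
  have h00 := congrFun (congrFun h 0) 0
  have h01 := congrFun (congrFun h 0) 1
  have h10 := congrFun (congrFun h 1) 0
  have h11 := congrFun (congrFun h 1) 1
  simp only [Matrix.mul_apply, Fin.sum_univ_two] at h00 h01 h10 h11
  ext i j
  fin_cases i <;> fin_cases j <;> simp [Matrix.mul_apply, Fin.sum_univ_two]
  · linear_combination h00
  · linear_combination (-1) * h01
  · linear_combination h10
  · linear_combination (-1) * h11

theorem dd_mul {A B : Matrix (Fin 2) (Fin 2) F} (hA : A 0 0 * A 1 1 - A 0 1 * A 1 0 = -1)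
    (hB : B 0 0 * B 1 1 - B 0 1 * B 1 0 = -1) : (dd A hA * tw (-1) (dd B hB)).1 = A * B := by
  rw [Matrix.SpecialLinearGroup.coe_mul, coe_dd, coe_twm, coe_dd]
  ext i j
  fin_cases i <;> fin_cases j <;> simp [Matrix.mul_apply, Fin.sum_univ_two]

theorem neg_det {A : Matrix (Fin 2) (Fin 2) F} (hA : A 0 0 * A 1 1 - A 0 1 * A 1 0 = -1) :
    (-A) 0 0 * (-A) 1 1 - (-A) 0 1 * (-A) 1 0 = -1 := by
  simp only [Matrix.neg_apply]; linear_combination hA

theorem dd_neg {A : Matrix (Fin 2) (Fin 2) F} (hA : A 0 0 * A 1 1 - A 0 1 * A 1 0 = -1) :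
    dd A hA * TrMat.dg (-1) = dd (-A) (neg_det hA) := by
  apply Subtype.ext
  rw [Matrix.SpecialLinearGroup.coe_mul, coe_dd, coe_dd, coe_dg]
  ext i j
  fin_cases i <;> fin_cases j <;> simp [Matrix.mul_apply, Fin.sum_univ_two]

theorem irr_neg {τ : F} (h : Irr τ) : Irr (-τ) := by
  intro r hr
  exact h (-r) (by linear_combination hr)

theorem ell_neg {τ : F} {A : Matrix (Fin 2) (Fin 2) F} (h : Ell τ A) : Ell (-τ) (-A) := by
  refine ⟨?_, neg_det h.2⟩
  simp only [Matrix.neg_apply]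
  linear_combination (-1) * h.1

end mat

section tor
variable {K : Type*} [Field K]

theorem pr_conj {z : GL chevD4.Idx K} {χ : ℕ → K} (hz : ∀ s < chevD4.nroots, ∀ t : K,
    z * xg chevD4 K s t * z⁻¹ = xg chevD4 K s (χ s * t)) (k : ℕ) (t : ℕ → K) :
    z * ChevClosed.pr chevD4 K k t * z⁻¹ = ChevClosed.pr chevD4 K k (fun s => χ s * t s) := by
  unfold ChevClosed.pr wg
  have key : ∀ l : List ℕ, (∀ s ∈ l, s < chevD4.nroots) → z * ((l.map fun r => (r, t r)).map fun p => xg chevD4 K p.1 p.2).prod * z⁻¹ =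
      ((l.map fun r => (r, χ r * t r)).map fun p => xg chevD4 K p.1 p.2).prod := by
    intro l hl
    induction l with
    | nil => simp
    | cons s l ih =>
      simp only [List.map_cons, List.prod_cons]
      rw [← ih fun r hr => hl r (by simp [hr]), ← hz s (hl s (by simp))]
      group
  apply key
  intro s hs
  rw [List.mem_range'_1] at hs
  omega

/-- centralizers of torus elements -/
theorem tor {z : GL chevD4.Idx K} {χ : ℕ → K} (hz : ∀ s < chevD4.nroots, ∀ t : K,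
    z * xg chevD4 K s t * z⁻¹ = xg chevD4 K s (χ s * t)) {l l' : List ℕ} (hl : Closed K (RS l))
    (h : ∀ s ∈ l, s ∈ l' ∨ χ s ≠ 1) {u : GL chevD4.Idx K} (hu : u ∈ X K l) (hc : Commute z u) : u ∈ X K l' := by
  obtain ⟨t, ht, rfl⟩ := exists_pr' G hl hu
  have h1 := pr_conj hz (chevD4.nroots / 2) t
  rw [hc.eq, mul_inv_cancel_right] at h1
  have ht' : Supp K (RS l) (fun s => χ s * t s) := by
    intro r hr
    show χ r * t r = 0
    rw [ht r hr, mul_zero]
  have h2 := pr_inj G TwD4.listed (supp_pos G hl.pos ht) (supp_pos G hl.pos ht') h1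
  have h3 : Supp K (RS l') t := by
    intro r hr
    by_cases h4 : ∃ hr' : r < chevD4.nroots, (⟨r, hr'⟩ : Fin chevD4.nroots) ∈ RS l
    · obtain ⟨hr', h5⟩ := h4
      rcases h r h5 with h6 | h6
      · exact absurd h6 (hr hr')
      · have h7 := congrFun h2 r
        have h8 : (χ r - 1) * t r = 0 := by linear_combination (-1) * h7
        exact (mul_eq_zero.mp h8).resolve_left (sub_ne_zero.mpr h6)
    · push Not at h4
      exact ht r h4
  exact pr_mem' G h3

end tor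

section main
variable {K : Type*} [Field K] [Fintype K] {q : ℕ} (hq : IsPrimePow q) (hK : Fintype.card K = q ^ 3)

include hq hK in
theorem diag_ext {g1 g2 : GL chevD4.Idx K} (h1 : g1 ∈ chevD4.diagonalSubgroup K) (h2 : g2 ∈ chevD4.diagonalSubgroup K)
    {χ : ℕ → K} (e1 : ∀ s ∈ [18, 14, 13, 12], ∀ t : K, g1 * xg chevD4 K s t * g1⁻¹ = xg chevD4 K s (χ s * t))
    (e2 : ∀ s ∈ [18, 14, 13, 12], ∀ t : K, g2 * xg chevD4 K s t * g2⁻¹ = xg chevD4 K s (χ s * t)) : g1 = g2 := by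
  have h3 : g2⁻¹ * g1 = 1 := by
    apply TwAll.diag_eq_one (TwD4.T hq hK) (mul_mem (inv_mem h2) h1)
    intro j
    have hj : chevD4.simple j ∈ [18, 14, 13, 12] := by
      have : ∀ j < 4, chevD4.simple j ∈ [18, 14, 13, 12] := by decide
      exact this j j.2
    calc g2⁻¹ * g1 * xg chevD4 K (chevD4.simple j) 1 * (g2⁻¹ * g1)⁻¹ =
        g2⁻¹ * (g1 * xg chevD4 K (chevD4.simple j) 1 * g1⁻¹) * g2 := by group
      _ = g2⁻¹ * (g2 * xg chevD4 K (chevD4.simple j) 1 * g2⁻¹) * g2 := by rw [e1 _ hj, e2 _ hj]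
      _ = xg chevD4 K (chevD4.simple j) 1 := by group
  exact (inv_mul_eq_one.mp h3).symm

/-- tables -/
def f60 (s : ℕ) : ℕ := fa (fb (fa (fb (fa s))))

theorem n60_mono : ∃ w : Equiv.Perm (Fin chevD4.nroots), Mono G (n60 hq hK) w ∧ ∀ s, ((w s : Fin chevD4.nroots) : ℕ) = f60 s := by
  have := mono_mul G (mono_mul G (na_mono hq hK) (mono_mul G (mono_mul G (nb_mono hq hK) (na_mono hq hK))
      (mono_inv G (nb_mono hq hK)))) (mono_inv G (na_mono hq hK))
  rw [wa_inv, wb_inv] at this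
  refine ⟨_, this, fun s => ?_⟩
  simp only [Equiv.Perm.mul_apply, wa_eq, wb_eq]
  rfl

theorem n60_h0_conj (c : Kˣ) {s : ℕ} (hs : s < chevD4.nroots) (t : K) :
    (n60 hq hK * h0 hq hK c * (n60 hq hK)⁻¹) * xg chevD4 K (f60 s) t * (n60 hq hK * h0 hq hK c * (n60 hq hK)⁻¹)⁻¹ =
      xg chevD4 K (f60 s) (chi q (c : K) s * t) := by
  obtain ⟨w, ⟨-, κ, hκ0, -, hκ⟩, hf⟩ := n60_mono hq hK
  have h1 := hκ ⟨s, hs⟩ ((κ ⟨s, hs⟩)⁻¹ * t)
  rw [hf, mul_inv_cancel_left₀ (hκ0 _)] at h1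
  change n60 hq hK * xg chevD4 K s ((κ ⟨s, hs⟩)⁻¹ * t) * (n60 hq hK)⁻¹ = xg chevD4 K (f60 s) t at h1
  rw [← h1]
  calc (n60 hq hK * h0 hq hK c * (n60 hq hK)⁻¹) * (n60 hq hK * xg chevD4 K s ((κ ⟨s, hs⟩)⁻¹ * t) * (n60 hq hK)⁻¹) *
      (n60 hq hK * h0 hq hK c * (n60 hq hK)⁻¹)⁻¹ =
      n60 hq hK * (h0 hq hK c * xg chevD4 K s ((κ ⟨s, hs⟩)⁻¹ * t) * (h0 hq hK c)⁻¹) * (n60 hq hK)⁻¹ := by group
    _ = n60 hq hK * xg chevD4 K s (chi q (c : K) s * ((κ ⟨s, hs⟩)⁻¹ * t)) * (n60 hq hK)⁻¹ := by rw [h0_conj hq hK c hs]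
    _ = _ := by
      have h2 := hκ ⟨s, hs⟩ (chi q (c : K) s * ((κ ⟨s, hs⟩)⁻¹ * t))
      rw [hf] at h2
      refine h2.trans ?_
      congr 1
      have h3 := mul_inv_cancel₀ (hκ0 ⟨s, hs⟩)
      linear_combination (chi q (c : K) s * t) * h3

theorem m1_h (s : ℕ) (hs : s < chevD4.nroots) (t : K) :
    Pb hq hK (TrMat.dg (-1)) * xg chevD4 K s t * (Pb hq hK (TrMat.dg (-1)))⁻¹ = xg chevD4 K s ((-1) ^ (pr chevD4 14 s) * t) := by
  rw [Pb_dg]
  have e : (((-1 : (F0 hq hK)ˣ) : F0 hq hK) : K) = -1 := by simp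
  rw [e]
  exact hg_conj G (by decide) hs (-1) (neg_ne_zero.mpr one_ne_zero) t

theorem nmu_K {c : Kˣ} (hc : nmu hq hK c = -1) : (c : K) * (c : K) ^ q * ((c : K) ^ q) ^ q = -1 := by
  rw [← nmu_val hq hK c, hc]; simp

theorem n60_h0 {c : Kˣ} (hc : nmu hq hK c = -1) :
    n60 hq hK * h0 hq hK c * (n60 hq hK)⁻¹ = Pb hq hK (TrMat.dg (-1)) * h0 hq hK c⁻¹ := by
  obtain ⟨w, hw, hf⟩ := n60_mono hq hK
  have hN := nmu_K hq hK hc
  have e2 : ∀ s < chevD4.nroots, ∀ t : K, (Pb hq hK (TrMat.dg (-1)) * h0 hq hK c⁻¹) * xg chevD4 K s t *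
      (Pb hq hK (TrMat.dg (-1)) * h0 hq hK c⁻¹)⁻¹ =
      xg chevD4 K s (((-1) ^ (pr chevD4 14 s) * chi q ((c⁻¹ : Kˣ) : K) s) * t) := by
    intro s hs t
    calc (Pb hq hK (TrMat.dg (-1)) * h0 hq hK c⁻¹) * xg chevD4 K s t * (Pb hq hK (TrMat.dg (-1)) * h0 hq hK c⁻¹)⁻¹
        = Pb hq hK (TrMat.dg (-1)) * (h0 hq hK c⁻¹ * xg chevD4 K s t * (h0 hq hK c⁻¹)⁻¹) * (Pb hq hK (TrMat.dg (-1)))⁻¹ := by group
      _ = _ := by rw [h0_conj hq hK _ hs, m1_h hq hK s hs, mul_assoc]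
  refine diag_ext hq hK (mono_conj_diag G hw (h0_mem_H hq hK c)) (mul_mem (Pb_dg_mem_H hq hK _) (h0_mem_H hq hK _))
    (χ := fun s => (-1) ^ (pr chevD4 14 s) * chi q ((c⁻¹ : Kˣ) : K) s) ?_ (fun s hs t => e2 s ?_ t)
  · intro s hs t
    have c0 := c.ne_zero
    have c1 : (c : K) ^ q ≠ 0 := pow_ne_zero _ c0
    have c2 : ((c : K) ^ q) ^ q ≠ 0 := pow_ne_zero _ c1
    simp only [List.mem_cons, List.not_mem_nil, or_false] at hs
    have hci : ((c⁻¹ : Kˣ) : K) = (c : K)⁻¹ := Units.val_inv_eq_inv_val c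
    rcases hs with rfl | rfl | rfl | rfl
    · have h1 := n60_h0_conj hq hK c (s := 4) (by decide) t
      have hf4 : f60 4 = 18 := by decide
      rw [hf4] at h1
      rw [h1]
      have p1 : pr chevD4 18 4 = -1 ∧ pr chevD4 13 4 = 1 ∧ pr chevD4 12 4 = 1 := by decide +kernel
      have p2 : pr chevD4 18 18 = 2 ∧ pr chevD4 13 18 = 0 ∧ pr chevD4 12 18 = 0 ∧ pr chevD4 14 18 = -1 := by decide +kernel
      unfold chi
      rw [p1.1, p1.2.1, p1.2.2, p2.1, p2.2.1, p2.2.2.1, p2.2.2.2, hci]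
      congr 2
      simp only [zpow_neg, zpow_one, zpow_zero, mul_one, inv_neg, inv_one, inv_pow]
      rw [show ((c : K)⁻¹) ^ (2 : ℤ) = ((c : K) ^ 2)⁻¹ by rw [inv_zpow]; norm_cast]
      field_simp
      linear_combination hN
    · have h1 := n60_h0_conj hq hK c (s := 14) (by decide) t
      have hf4 : f60 14 = 14 := by decide
      rw [hf4] at h1
      rw [h1]
      have p2 : pr chevD4 14 14 = 2 := by decide +kernel
      unfold chi
      rw [p14.1, p14.2.1, p14.2.2, p2, hci]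
      congr 2
      simp only [zpow_neg, zpow_one, inv_pow, inv_inv]
      rw [show ((-1 : K)) ^ (2 : ℤ) = 1 by norm_num, one_mul, hN, ← mul_inv, ← mul_inv, hN]
      norm_num
    · have h1 := n60_h0_conj hq hK c (s := 7) (by decide) t
      have hf4 : f60 7 = 13 := by decide
      rw [hf4] at h1
      rw [h1]
      have p1 : pr chevD4 18 7 = 1 ∧ pr chevD4 13 7 = -1 ∧ pr chevD4 12 7 = 1 := by decide +kernel
      have p2 : pr chevD4 18 13 = 0 ∧ pr chevD4 13 13 = 2 ∧ pr chevD4 12 13 = 0 ∧ pr chevD4 14 13 = -1 := by decide +kernel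
      unfold chi
      rw [p1.1, p1.2.1, p1.2.2, p2.1, p2.2.1, p2.2.2.1, p2.2.2.2, hci]
      congr 2
      simp only [zpow_neg, zpow_one, zpow_zero, mul_one, one_mul, inv_neg, inv_one, inv_pow]
      rw [show (((c : K) ^ q)⁻¹) ^ (2 : ℤ) = (((c : K) ^ q) ^ 2)⁻¹ by rw [inv_zpow]; norm_cast]
      field_simp
      linear_combination hN
    · have h1 := n60_h0_conj hq hK c (s := 8) (by decide) t
      have hf4 : f60 8 = 12 := by decide
      rw [hf4] at h1
      rw [h1]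
      have p1 : pr chevD4 18 8 = 1 ∧ pr chevD4 13 8 = 1 ∧ pr chevD4 12 8 = -1 := by decide +kernel
      have p2 : pr chevD4 18 12 = 0 ∧ pr chevD4 13 12 = 0 ∧ pr chevD4 12 12 = 2 ∧ pr chevD4 14 12 = -1 := by decide +kernel
      unfold chi
      rw [p1.1, p1.2.1, p1.2.2, p2.1, p2.2.1, p2.2.2.1, p2.2.2.2, hci]
      congr 2
      simp only [zpow_neg, zpow_one, zpow_zero, mul_one, one_mul, inv_neg, inv_one, inv_pow]
      rw [show ((((c : K) ^ q) ^ q)⁻¹) ^ (2 : ℤ) = ((((c : K) ^ q) ^ q) ^ 2)⁻¹ by rw [inv_zpow]; norm_cast]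
      field_simp
      linear_combination hN
  · have : ∀ s ∈ [18, 14, 13, 12], s < 24 := by decide
    exact this s hs

/-- the semisimple elements -/
noncomputable def xx {A : Matrix (Fin 2) (Fin 2) (F0 hq hK)} (h : A 0 0 * A 1 1 - A 0 1 * A 1 0 = -1) (c : Kˣ) :
    GL chevD4.Idx K := Pb hq hK (dd A h) * h0 hq hK c

theorem nmu_inv (c : Kˣ) : nmu hq hK c⁻¹ = (nmu hq hK c)⁻¹ := by
  apply Units.ext
  apply Subtype.ext
  rw [nmu_inv_val]
  show ((c⁻¹ : Kˣ) : K) * ((c⁻¹ : Kˣ) : K) ^ q * (((c⁻¹ : Kˣ) : K) ^ q) ^ q = _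
  rw [Units.val_inv_eq_inv_val, inv_pow, inv_pow, mul_inv, mul_inv]

theorem nmu_inv' {c : Kˣ} (hc : nmu hq hK c = -1) : nmu hq hK c⁻¹ = -1 := by
  rw [nmu_inv, hc]; simp

theorem xx_conj {A B : Matrix (Fin 2) (Fin 2) (F0 hq hK)} (hA : A 0 0 * A 1 1 - A 0 1 * A 1 0 = -1)
    (hB : B 0 0 * B 1 1 - B 0 1 * B 1 0 = -1) {c : Kˣ} (hc : nmu hq hK c = -1) {P : SL(2, F0 hq hK)}
    (h : P.1 * A = B * P.1) : Pb hq hK P * xx hq hK hA c * (Pb hq hK P)⁻¹ = xx hq hK hB c := by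
  unfold xx
  have h1 := dd_conj hA hB h
  calc Pb hq hK P * (Pb hq hK (dd A hA) * h0 hq hK c) * (Pb hq hK P)⁻¹ =
      Pb hq hK (P * dd A hA) * (h0 hq hK c * Pb hq hK P⁻¹ * (h0 hq hK c)⁻¹) * h0 hq hK c := by
        rw [map_mul, map_inv]; group
    _ = Pb hq hK (P * dd A hA * tw (-1) P⁻¹) * h0 hq hK c := by rw [h0_Pb, hc, ← map_mul]
    _ = _ := by rw [h1, map_inv, mul_inv_cancel_right]

theorem xx_mul {A B : Matrix (Fin 2) (Fin 2) (F0 hq hK)} (hA : A 0 0 * A 1 1 - A 0 1 * A 1 0 = -1)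
    (hB : B 0 0 * B 1 1 - B 0 1 * B 1 0 = -1) {c : Kˣ} (hc : nmu hq hK c = -1) :
    xx hq hK hA c * xx hq hK hB c⁻¹ = Pb hq hK (dd A hA * tw (-1) (dd B hB)) := by
  unfold xx
  rw [map_mul, ← hc, ← h0_Pb, ← h0_inv]
  group

theorem xx_n60 {A : Matrix (Fin 2) (Fin 2) (F0 hq hK)} (hA : A 0 0 * A 1 1 - A 0 1 * A 1 0 = -1)
    {c : Kˣ} (hc : nmu hq hK c = -1) : n60 hq hK * xx hq hK hA c * (n60 hq hK)⁻¹ = xx hq hK (neg_det hA) c⁻¹ := by
  unfold xx
  have e := (c60b hq hK w1 (dd A hA)).eq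
  change n60 hq hK * Pb hq hK (dd A hA) = Pb hq hK (dd A hA) * n60 hq hK at e
  rw [← dd_neg hA, map_mul, mul_assoc (Pb hq hK (dd A hA)) (Pb hq hK (TrMat.dg (-1))), ← n60_h0 hq hK hc]
  calc n60 hq hK * (Pb hq hK (dd A hA) * h0 hq hK c) * (n60 hq hK)⁻¹ =
      (n60 hq hK * Pb hq hK (dd A hA)) * h0 hq hK c * (n60 hq hK)⁻¹ := by group
    _ = _ := by rw [e]; group

noncomputable instance : Fintype (F0 hq hK) := Fintype.ofFinite _

theorem cardF : Fintype.card (F0 hq hK) = q := by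
  rw [← Nat.card_eq_fintype_card]; exact MinTD4C.card_F0 hq hK

theorem X_nil {u : GL chevD4.Idx K} (h : u ∈ X K []) : u = 1 := by
  have h1 : RS [] = ∅ := by
    ext r; simp [RS]
  have h2 : X K [] = ⊥ := by
    unfold X; rw [h1]; unfold XS; simp
  rwa [h2, Subgroup.mem_bot] at h

theorem closed_of {l : List ℕ} (h1 : ∀ r ∈ l, 12 ≤ r) (h2 : ∀ r ∈ l, ∀ s ∈ l, s ≠ r → ∀ c ∈ chevD4.commTerms r s, c.1 ∈ l) :
    Closed K (RS l) := by
  refine ⟨fun r hr => h1 r hr, fun r hr s hs hne c hc _ k hk => ?_⟩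
  show (k : ℕ) ∈ l
  rw [hk]
  exact h2 r hr s hs (fun h => hne (Fin.ext h)) c hc

theorem odd_q (h2 : (2 : F0 hq hK) ≠ 0) : Odd q := by
  have hc : ringChar (F0 hq hK) ≠ 2 := by
    intro h
    haveI : CharP (F0 hq hK) (ringChar (F0 hq hK)) := ringChar.charP _
    have := CharP.cast_eq_zero (F0 hq hK) (ringChar (F0 hq hK))
    rw [h] at this
    exact h2 (by exact_mod_cast this)
  have := FiniteField.odd_card_of_char_ne_two hc
  rw [cardF] at this
  exact Nat.odd_iff.mpr this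

/-- odd characteristic -/
theorem cent_odd (h2 : (2 : F0 hq hK) ≠ 0) {τ : F0 hq hK} (hτ : Irr τ) {A : Matrix (Fin 2) (Fin 2) (F0 hq hK)} (hA : Ell τ A)
    (hc : nmu hq hK (-1) = -1) {u : GL chevD4.Idx K} (hu : u ∈ X K lA) (hcm : Commute (xx hq hK hA.2 (-1)) u) : u = 1 := by
  have h2K : (2 : K) ≠ 0 := by
    intro h; apply h2; apply Subtype.ext
    have := map_ofNat (F0 hq hK).subtype 2
    exact this.trans h
  have hm1 : (-1 : K) ≠ 1 := by
    intro h; apply h2K; linear_combination (-1) * h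
  obtain ⟨k, hk⟩ := odd_q hq hK h2
  have hsq : xx hq hK hA.2 (-1) * xx hq hK hA.2 (-1) = Pb hq hK (dd A hA.2 * tw (-1) (dd A hA.2)) := by
    have := xx_mul hq hK hA.2 hA.2 hc
    rwa [show ((-1 : Kˣ))⁻¹ = -1 by simp] at this
  have hz : (xx hq hK hA.2 (-1) * xx hq hK hA.2 (-1)) ^ (k + 1) = Pb hq hK (TrMat.dg (-1)) := by
    rw [hsq, ← map_pow]
    congr 1
    apply Subtype.ext
    rw [Matrix.SpecialLinearGroup.coe_pow, dd_mul, ← pow_two, ← pow_mul, coe_dg]
    have h3 : 2 * (k + 1) = Fintype.card (F0 hq hK) + 1 := by rw [cardF]; omega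
    rw [h3, pow_ell hτ hA]
    ext i j
    fin_cases i <;> fin_cases j <;> simp
  have h3 : Commute (Pb hq hK (TrMat.dg (-1))) u := by
    rw [← hz]
    exact (hcm.mul_left hcm).pow_left _
  have h4 : u ∈ X K [17, 20, 21] := by
    refine tor (m1_h hq hK) cA ?_ hu h3
    have h5 : ∀ s ∈ lA, s ∈ [17, 20, 21] ∨ pr chevD4 14 s = 1 ∨ pr chevD4 14 s = -1 := by decide +kernel
    intro s hs
    rcases h5 s hs with h | h | h
    · exact Or.inl h
    · right; rw [h]; simpa using hm1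
    · right; rw [h]; simpa using hm1
  have h5 : Commute (Pb hq hK (dd A hA.2)) u := (X_comm (by decide +kernel) h4 (Pb_mem hq hK _)).symm
  have h6 : Commute (h0 hq hK (-1)) u := by
    have e : h0 hq hK (-1) = (Pb hq hK (dd A hA.2))⁻¹ * xx hq hK hA.2 (-1) := by unfold xx; group
    rw [e]
    exact h5.inv_left.mul_left hcm
  apply X_nil
  refine tor (fun s hs t => h0_conj hq hK (-1) hs t) (closed_of (by decide) (by decide +kernel)) ?_ h4 h6
  have hv : ((-1 : Kˣ) : K) = -1 := by simp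
  have hq1 : (-1 : K) ^ q = -1 := by rw [MinTD4A.neg_pow hq hK, one_pow]
  have h7 : ∀ s ∈ [17, 20, 21], (pr chevD4 18 s = 1 ∨ pr chevD4 18 s = -1) ∧ (pr chevD4 13 s = 1 ∨ pr chevD4 13 s = -1) ∧
    (pr chevD4 12 s = 1 ∨ pr chevD4 12 s = -1) := by decide +kernel
  intro s hs
  right
  obtain ⟨ha, hb, hd⟩ := h7 s hs
  have e1 : ∀ n : ℤ, (n = 1 ∨ n = -1) → (-1 : K) ^ n = -1 := by
    rintro n (rfl | rfl)
    · simp
    · simp
  unfold chi
  rw [hv, hq1, hq1, e1 _ ha, e1 _ hb, e1 _ hd]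
  intro h
  apply hm1
  linear_combination h

omit [Fintype K] in
theorem cjg {s r k : ℕ} {M : ℤ} (h : chevD4.chainEntry r s = [(k, M)]) (hs : s < chevD4.nroots) (hr : r < chevD4.nroots)
    (hk : k < chevD4.nroots) (a b : K) : xg chevD4 K s a * xg chevD4 K r b * (xg chevD4 K s a)⁻¹ =
      xg chevD4 K r b * xg chevD4 K k (-(M : K) * a * b) := by
  have h1 := congrArg Subtype.val (MinTD4C.cjx h hs hr hk a b)
  simp only [Subgroup.coe_mul, Subgroup.coe_inv] at h1
  have e : ∀ r < chevD4.nroots, ∀ t : K, ((MinTD4C.x r t : chevD4.group K) : GL chevD4.Idx K) = xg chevD4 K r t :=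
    fun r hr t => UCESys.stdSys_coe MinTD4A.G K hr t
  rw [e s hs, e r hr, e k hk] at h1
  exact h1

/-- the natural module -/
noncomputable def vv (K : Type*) [Field K] (a b : K) : GL chevD4.Idx K := xg chevD4 K 22 a * xg chevD4 K 23 b

theorem act (M : SL(2, F0 hq hK)) : ∀ a b : K, Pb hq hK M * vv K a b * (Pb hq hK M)⁻¹ =
    vv K ((M.1 1 0 : K) * b + (M.1 1 1 : K) * a) ((M.1 0 0 : K) * b + (M.1 0 1 : K) * a) := by
  have h : M ∈ Subgroup.closure (Set.range (E : F0 hq hK → SL(2, F0 hq hK)) ∪ Set.range E') := by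
    rw [closure_SL2]; exact Subgroup.mem_top M
  induction h using Subgroup.closure_induction with
  | mem x hx =>
    rcases hx with ⟨t, rfl⟩ | ⟨t, rfl⟩
    · intro a b
      rw [Pb_E]
      unfold vv
      have h1 := cjg (K := K) (s := 14) (r := 22) (k := 23) (M := -1) (by decide +kernel) (by decide) (by decide) (by decide) (t : K) a
      have h3 := (xc (K := K) (a := 14) (b := 23) (by decide +kernel) (by decide) (by decide) (t : K) b).eq
      calc xg chevD4 K 14 (t : K) * (xg chevD4 K 22 a * xg chevD4 K 23 b) * (xg chevD4 K 14 (t : K))⁻¹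
          = (xg chevD4 K 14 (t : K) * xg chevD4 K 22 a * (xg chevD4 K 14 (t : K))⁻¹) *
            (xg chevD4 K 14 (t : K) * xg chevD4 K 23 b) * (xg chevD4 K 14 (t : K))⁻¹ := by group
        _ = xg chevD4 K 22 a * (xg chevD4 K 23 (-((-1 : ℤ) : K) * t * a) * xg chevD4 K 23 b) := by rw [h1, h3]; group
        _ = _ := by
          rw [xg_add G, coe_E]
          congr 2
          · simp
          · simp; ring
    · intro a b
      rw [Pb_E']
      unfold vv
      have h1 := cjg (K := K) (s := 9) (r := 23) (k := 22) (M := -1) (by decide +kernel) (by decide) (by decide) (by decide) (t : K) b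
      have h3 := (xc (K := K) (a := 9) (b := 22) (by decide +kernel) (by decide) (by decide) (t : K) a).eq
      have h4 := (xc (K := K) (a := 22) (b := 23) (by decide +kernel) (by decide) (by decide) (-((-1 : ℤ) : K) * t * b) b).eq
      calc xg chevD4 K 9 (t : K) * (xg chevD4 K 22 a * xg chevD4 K 23 b) * (xg chevD4 K 9 (t : K))⁻¹
          = (xg chevD4 K 9 (t : K) * xg chevD4 K 22 a) * xg chevD4 K 23 b * (xg chevD4 K 9 (t : K))⁻¹ := by group
        _ = xg chevD4 K 22 a * (xg chevD4 K 9 (t : K) * xg chevD4 K 23 b * (xg chevD4 K 9 (t : K))⁻¹) := by rw [h3]; group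
        _ = (xg chevD4 K 22 a * xg chevD4 K 22 (-((-1 : ℤ) : K) * t * b)) * xg chevD4 K 23 b := by rw [h1, ← h4]; group
        _ = _ := by
          rw [xg_add G, coe_E']
          congr 2
          · simp; ring
          · simp
  | one =>
    intro a b
    simp
  | mul x y _ _ hx hy =>
    intro a b
    have e : Pb hq hK (x * y) * vv K a b * (Pb hq hK (x * y))⁻¹ =
        Pb hq hK x * (Pb hq hK y * vv K a b * (Pb hq hK y)⁻¹) * (Pb hq hK x)⁻¹ := by rw [map_mul]; group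
    rw [e, hy, hx]
    have e2 : (x * y).1 = x.1 * y.1 := Matrix.SpecialLinearGroup.coe_mul x y
    rw [e2]
    simp only [Matrix.mul_apply, Fin.sum_univ_two, Subfield.coe_add, Subfield.coe_mul]
    congr 1 <;> ring
  | inv x _ hx =>
    intro a b
    have hd := congrArg (Subtype.val) x.2
    rw [Matrix.det_fin_two] at hd
    simp only [Subfield.coe_sub, Subfield.coe_mul, Subfield.coe_one] at hd
    have hinv : (x⁻¹).1 = !![x.1 1 1, -x.1 0 1; -x.1 1 0, x.1 0 0] := by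
      rw [Matrix.SpecialLinearGroup.SL2_inv_expl]; rfl
    rw [hinv]
    have h3 := hx (-(x.1 1 0 : K) * b + (x.1 0 0 : K) * a) ((x.1 1 1 : K) * b + -(x.1 0 1 : K) * a)
    have h4 : vv K ((x.1 1 0 : K) * ((x.1 1 1 : K) * b + -(x.1 0 1 : K) * a) +
        (x.1 1 1 : K) * (-(x.1 1 0 : K) * b + (x.1 0 0 : K) * a))
        ((x.1 0 0 : K) * ((x.1 1 1 : K) * b + -(x.1 0 1 : K) * a) + (x.1 0 1 : K) * (-(x.1 1 0 : K) * b + (x.1 0 0 : K) * a)) =
        vv K a b := by
      congr 1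
      · linear_combination a * hd
      · linear_combination b * hd
    rw [h4] at h3
    rw [map_inv, inv_inv, ← h3]
    simp only [Matrix.of_apply, Matrix.cons_val', Matrix.cons_val_zero, Matrix.cons_val_one, Matrix.cons_val_fin_one, Subfield.coe_neg]
    group

theorem X2223 {u : GL chevD4.Idx K} (hu : u ∈ X K [22, 23]) : ∃ a b : K, u = vv K a b := by
  have hcm : ∀ t v : K, Commute (xg chevD4 K 22 t) (xg chevD4 K 23 v) :=
    fun t v => xc (by decide +kernel) (by decide) (by decide) t v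
  let S : Subgroup (GL chevD4.Idx K) :=
    { carrier := {g | ∃ a b : K, g = vv K a b}
      one_mem' := ⟨0, 0, by unfold vv; rw [xg_zero G, xg_zero G, mul_one]⟩
      mul_mem' := by
        rintro _ _ ⟨a, b, rfl⟩ ⟨a', b', rfl⟩
        refine ⟨a + a', b + b', ?_⟩
        unfold vv
        rw [← xg_add G, ← xg_add G]
        have := (hcm a' b).eq
        calc xg chevD4 K 22 a * xg chevD4 K 23 b * (xg chevD4 K 22 a' * xg chevD4 K 23 b') =
            xg chevD4 K 22 a * (xg chevD4 K 23 b * xg chevD4 K 22 a') * xg chevD4 K 23 b' := by group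
          _ = _ := by rw [← this]; group
      inv_mem' := by
        rintro _ ⟨a, b, rfl⟩
        refine ⟨-a, -b, ?_⟩
        unfold vv
        rw [xg_neg G, xg_neg G, mul_inv_rev]
        exact ((hcm a b).inv_inv.eq).symm }
  have h3 : X K [22, 23] ≤ S := by
    apply XS_le
    intro r hr t
    have h4 : (r : ℕ) = 22 ∨ (r : ℕ) = 23 := by simpa [RS] using hr
    rcases h4 with h4 | h4
    · exact ⟨t, 0, by unfold vv; rw [h4, xg_zero G, mul_one]⟩
    · exact ⟨0, t, by unfold vv; rw [h4, xg_zero G, one_mul]⟩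
  exact h3 hu

theorem vv_inj {a b a' b' : K} (h : vv K a b = vv K a' b') : a = a' ∧ b = b' := by
  unfold vv at h
  have hcl : Closed K (RS [22]) := closed_of (by decide) (by decide +kernel)
  have hcl' : Closed K (RS [23]) := closed_of (by decide) (by decide +kernel)
  have h1 : (xg chevD4 K 22 a')⁻¹ * xg chevD4 K 22 a = xg chevD4 K 23 b' * (xg chevD4 K 23 b)⁻¹ := by
    calc (xg chevD4 K 22 a')⁻¹ * xg chevD4 K 22 a = (xg chevD4 K 22 a')⁻¹ * (xg chevD4 K 22 a * xg chevD4 K 23 b) * (xg chevD4 K 23 b)⁻¹ := by group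
      _ = _ := by rw [h]; group
  have h2 := XS_inf G TwD4.listed hcl hcl' (g := (xg chevD4 K 22 a')⁻¹ * xg chevD4 K 22 a)
    (mul_mem (inv_mem (xg_mem (l := [22]) (by decide) (by decide) _)) (xg_mem (l := [22]) (by decide) (by decide) _))
    (by rw [h1]; exact mul_mem (xg_mem (l := [23]) (by decide) (by decide) _) (inv_mem (xg_mem (l := [23]) (by decide) (by decide) _)))
  have h3 : RS [22] ∩ RS [23] = RS [] := by
    ext r
    simp only [Set.mem_inter_iff]
    constructor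
    · rintro ⟨h4, h5⟩
      have h6 : (r : ℕ) = 22 := by simpa [RS] using h4
      have h7 : (r : ℕ) = 23 := by simpa [RS] using h5
      omega
    · intro h4; simp [RS] at h4
  rw [h3] at h2
  have h4 := X_nil h2
  have h5 : a = a' := by
    have := (inv_mul_eq_one.mp h4).symm
    exact xg_inj G (by decide) this
  refine ⟨h5, ?_⟩
  rw [h4] at h1
  have := (mul_inv_eq_one.mp h1.symm)
  exact (xg_inj G (by decide) this).symm

/-- characteristic two -/
theorem cent_even (h2 : (2 : F0 hq hK) = 0) {τ : F0 hq hK} (hτ : Irr τ) {A : Matrix (Fin 2) (Fin 2) (F0 hq hK)} (hA : Ell τ A)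
    {c : Kˣ} (hc : nmu hq hK c = -1) (hc1 : c ≠ 1) {u : GL chevD4.Idx K} (hu : u ∈ X K lA)
    (hcm : Commute (xx hq hK hA.2 c) u) : u = 1 := by
  have h2K := two_K hq hK h2
  have hn : (-1 : F0 hq hK) = 1 := by linear_combination (-1) * h2
  have hnK : (-1 : K) = 1 := by linear_combination (-1) * h2K
  have hneg : ∀ x : F0 hq hK, -x = x := fun x => by linear_combination (-x) * h2
  have hnu : (-1 : (F0 hq hK)ˣ) = 1 := by apply Units.ext; simpa using hn
  have hN := nmu_K hq hK hc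
  rw [hnK] at hN
  -- h0 c commutes with Pb
  have hcb : ∀ M : SL(2, F0 hq hK), Commute (Pb hq hK M) (h0 hq hK c) := by
    intro M
    have h1 := h0_Pb hq hK c M
    have h3 : tw (nmu hq hK c) M = M := by
      rw [hc]
      apply Subtype.ext
      rw [coe_twm]
      ext i j
      fin_cases i <;> fin_cases j <;> simp [hneg]
    rw [h3] at h1
    show Pb hq hK M * h0 hq hK c = h0 hq hK c * Pb hq hK M
    rw [← eq_mul_inv_iff_mul_eq] 
    exact h1.symm
  have hdd : (dd A hA.2) ^ (q + 1) = 1 := by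
    have h1 : (dd A hA.2).1 = A := by
      rw [coe_dd]
      ext i j
      fin_cases i <;> fin_cases j <;> simp [hneg]
    apply Subtype.ext
    have h3 := pow_ell hτ hA
    rw [cardF] at h3
    rw [Matrix.SpecialLinearGroup.coe_pow, h1, h3]
    ext i j
    fin_cases i <;> fin_cases j <;> simp [hneg]
  have hpow : xx hq hK hA.2 c ^ (q + 1) = h0 hq hK (c ^ (q + 1)) := by
    unfold xx
    rw [(hcb _).mul_pow, ← map_pow, hdd, map_one, one_mul]
    unfold h0
    have : ∀ k : ℕ, Pa hq hK (TrMat.dg c) ^ k = Pa hq hK (TrMat.dg (c ^ k)) := by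
      intro k
      induction k with
      | zero => rw [pow_zero, pow_zero, TrMat.dg_one, map_one]
      | succ k ih => rw [pow_succ, ih, pow_succ, TrMat.dg_mul, map_mul]
    exact this _
  have h3 : Commute (h0 hq hK (c ^ (q + 1))) u := by rw [← hpow]; exact hcm.pow_left _
  -- the characters
  obtain ⟨e0, he0⟩ : ∃ e : K, e = ((c ^ (q + 1) : Kˣ) : K) := ⟨_, rfl⟩
  have hce : e0 = (c : K) ^ q * (c : K) := by rw [he0, Units.val_pow_eq_pow_val, pow_succ]
  have he1 : e0 ^ q = ((c : K) ^ q) ^ q * (c : K) ^ q := by rw [hce, mul_pow]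
  have he2 : (e0 ^ q) ^ q = (c : K) * ((c : K) ^ q) ^ q := by rw [he1, mul_pow, MinTD4C.p3 hq hK]
  have hcne : (c : K) ≠ 1 := fun h => hc1 (Units.ext h)
  have hcne1 : (c : K) ^ q ≠ 1 := by
    intro h; apply hcne
    rw [← MinTD4C.p3 hq hK (c : K), h, one_pow, one_pow]
  have hcne2 : ((c : K) ^ q) ^ q ≠ 1 := by
    intro h; apply hcne
    rw [← MinTD4C.p3 hq hK (c : K), h, one_pow]
  have n0 : e0 ≠ 1 := by intro h; rw [h] at hce; apply hcne2; linear_combination hN + ((c : K) ^ q) ^ q * hce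
  have n1 : e0 ^ q ≠ 1 := by intro h; rw [h] at he1; apply hcne; linear_combination hN + (c : K) * he1
  have n2' : (e0 ^ q) ^ q ≠ 1 := by intro h; rw [h] at he2; apply hcne1; linear_combination hN + (c : K) ^ q * he2
  have hNe : e0 * e0 ^ q * (e0 ^ q) ^ q = 1 := by
    rw [he2, he1, hce]
    linear_combination ((c : K) * (c : K) ^ q * ((c : K) ^ q) ^ q + 1) * hN
  have sqn : ∀ x : K, x ≠ 1 → x * x ≠ 1 := by
    intro x hx h
    apply hx
    have h5 : (x - 1) ^ 2 = 0 := by linear_combination h + (1 - x) * h2K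
    exact sub_eq_zero.mp (pow_eq_zero_iff (two_ne_zero) |>.mp h5)
  have z0 : e0 ≠ 0 := by rintro rfl; simp at hNe
  have z1 : e0 ^ q ≠ 0 := pow_ne_zero _ z0
  have z2 : (e0 ^ q) ^ q ≠ 0 := pow_ne_zero _ z1
  have h4 : u ∈ X K [22, 23] := by
    refine tor (fun s hs t => h0_conj hq hK (c ^ (q + 1)) hs t) cA ?_ hu h3
    have h5 : ∀ s ∈ lA, s ∈ [22, 23] ∨ (pr chevD4 18 s, pr chevD4 13 s, pr chevD4 12 s) ∈
      ([(2, 0, 0), (0, 2, 0), (0, 0, 2), (1, -1, -1), (-1, 1, -1), (-1, -1, 1), (-1, 1, 1), (1, -1, 1), (1, 1, -1)] : List (ℤ × ℤ × ℤ)) := by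
      decide +kernel
    intro s hs
    rcases h5 s hs with h | h
    · exact Or.inl h
    · right
      unfold chi
      rw [← he0]
      intro h6
      simp only [List.mem_cons, List.not_mem_nil, or_false, Prod.mk.injEq] at h
      rcases h with ⟨a, b, d⟩ | ⟨a, b, d⟩ | ⟨a, b, d⟩ | ⟨a, b, d⟩ | ⟨a, b, d⟩ | ⟨a, b, d⟩ | ⟨a, b, d⟩ | ⟨a, b, d⟩ | ⟨a, b, d⟩ <;>
        rw [a, b, d] at h6 <;> simp only [zpow_zero, mul_one, one_mul, zpow_one, zpow_neg, zpow_ofNat, pow_zero] at h6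
      · exact sqn _ n0 (by rw [← pow_two]; exact h6)
      · exact sqn _ n1 (by rw [← pow_two]; exact h6)
      · exact sqn _ n2' (by rw [← pow_two]; exact h6)
      · apply sqn _ n0
        field_simp at h6
        linear_combination hNe + e0 * h6
      · apply sqn _ n1
        field_simp at h6
        linear_combination hNe + e0 ^ q * h6
      · apply sqn _ n2'
        field_simp at h6
        linear_combination hNe + (e0 ^ q) ^ q * h6
      · apply sqn _ n0
        field_simp at h6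
        linear_combination hNe - e0 * h6
      · apply sqn _ n1
        field_simp at h6
        linear_combination hNe - e0 ^ q * h6
      · apply sqn _ n2'
        field_simp at h6
        linear_combination hNe - (e0 ^ q) ^ q * h6
  obtain ⟨a, b, rfl⟩ := X2223 h4
  have h5 : Commute (h0 hq hK c) (vv K a b) := by
    have p22 : pr chevD4 18 22 = 1 ∧ pr chevD4 13 22 = 1 ∧ pr chevD4 12 22 = 1 := by decide +kernel
    have p23 : pr chevD4 18 23 = 0 ∧ pr chevD4 13 23 = 0 ∧ pr chevD4 12 23 = 0 := by decide +kernel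
    have k1 := h0_conj hq hK c (s := 22) (by decide) a
    have k2 := h0_conj hq hK c (s := 23) (by decide) b
    unfold chi at k1 k2
    rw [p22.1, p22.2.1, p22.2.2, zpow_one, zpow_one, zpow_one, hN, one_mul] at k1
    rw [p23.1, p23.2.1, p23.2.2, zpow_zero, zpow_zero, zpow_zero, mul_one, mul_one, one_mul] at k2
    show h0 hq hK c * vv K a b = vv K a b * h0 hq hK c
    rw [← mul_inv_eq_iff_eq_mul]
    unfold vv
    calc h0 hq hK c * (xg chevD4 K 22 a * xg chevD4 K 23 b) * (h0 hq hK c)⁻¹ =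
      (h0 hq hK c * xg chevD4 K 22 a * (h0 hq hK c)⁻¹) * (h0 hq hK c * xg chevD4 K 23 b * (h0 hq hK c)⁻¹) := by group
      _ = _ := by rw [k1, k2]
  have h6 : Commute (Pb hq hK (dd A hA.2)) (vv K a b) := by
    have e : Pb hq hK (dd A hA.2) = xx hq hK hA.2 c * (h0 hq hK c)⁻¹ := by unfold xx; group
    rw [e]
    exact hcm.mul_left h5.inv_left
  have h7 := act hq hK (dd A hA.2) a b
  rw [h6.eq, mul_inv_cancel_right] at h7
  obtain ⟨h8, h9⟩ := vv_inj h7
  have t1 := congrArg (Subtype.val) hA.1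
  have t2 := congrArg (Subtype.val) hA.2
  simp only [Subfield.coe_add, Subfield.coe_sub, Subfield.coe_mul, Subfield.coe_neg, Subfield.coe_one] at t1 t2
  have d00 : ((dd A hA.2).1 0 0 : F0 hq hK) = A 0 0 := rfl
  have d01 : ((dd A hA.2).1 0 1 : F0 hq hK) = -A 0 1 := rfl
  have d10 : ((dd A hA.2).1 1 0 : F0 hq hK) = A 1 0 := rfl
  have d11 : ((dd A hA.2).1 1 1 : F0 hq hK) = -A 1 1 := rfl
  rw [d10, d11] at h8
  rw [d00, d01] at h9
  simp only [Subfield.coe_neg] at h8 h9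
  have hτ0 : (τ : K) ≠ 0 := fun h => irr_ne hτ (Subtype.ext h)
  have ea : (τ : K) * a = 0 := by
    linear_combination (-a) * t1 + (1 - (A 0 0 : K)) * h8 + (A 1 0 : K) * h9 + a * t2 + ((A 0 0 : K) * a - a) * h2K
  have eb : (τ : K) * b = 0 := by
    linear_combination (-b) * t1 + (1 + (A 1 1 : K)) * h9 - (A 0 1 : K) * h8 + b * t2 + ((A 0 0 : K) * b - b) * h2K
  have ha := (mul_eq_zero.mp ea).resolve_left hτ0
  have hb := (mul_eq_zero.mp eb).resolve_left hτ0
  rw [ha, hb]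
  unfold vv
  rw [xg_zero G, xg_zero G, mul_one]

end main

end Cfsg.Agent.Lib.Tr
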