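import Cfsg.Agent.Lib.TrGauss
set_option autoImplicit false
set_option linter.unusedSectionVars false
set_option linter.unusedVariables false

/-!
The groups 3D4(q): conjugates with a good Levi component (helper44).
-/

namespace Cfsg.Agent.Lib.Tr
open Cfsg.Lie Cfsg.Agent.Lib.ChevX Cfsg.Agent.Lib.ChevGood Cfsg.Agent.Lib.ChevRel
open Cfsg.Agent.Lib.ChevNPerm hiding nn
open Cfsg.Agent.Lib.ChevBruhat Cfsg.Agent.Lib.TwFix Cfsg.Agent.Lib.TwTab Cfsg.Agent.Lib.SL2Pres Cfsg.Agent.Lib.ChevSL2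
open Cfsg.Agent.Lib.TrMat
open Cfsg.Agent.Lib.ChevClosed hiding pr
open scoped MatrixGroups Matrix

theorem tw_dg {F : Type*} [Field F] (a u : Fˣ) : tw a (TrMat.dg u) = TrMat.dg u := by
  apply Subtype.ext
  show (twf a (TrMat.dg u)).1 = _
  rw [coe_twf, coe_dg]
  ext i j
  fin_cases i <;> fin_cases j <;> simp

theorem tw_w1 {F : Type*} [Field F] (a : Fˣ) : tw a w1 * w1⁻¹ = TrMat.dg a⁻¹ := by
  apply Subtype.ext
  rw [Matrix.SpecialLinearGroup.coe_mul, coe_w1_inv]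
  show (twf a w1).1 * _ = _
  rw [coe_twf, coe_dg, coe_w1]
  ext i j
  fin_cases i <;> fin_cases j <;> simp [Matrix.mul_apply, Fin.sum_univ_two]

theorem dg_E {F : Type*} [Field F] (u : Fˣ) (p : F) : TrMat.dg u * E p * (TrMat.dg u)⁻¹ = E (u * u * p) := by
  rw [TrMat.dg_inv]
  apply Subtype.ext
  simp only [Matrix.SpecialLinearGroup.coe_mul, coe_dg, coe_E]
  ext i j
  fin_cases i <;> fin_cases j <;> simp [Matrix.mul_apply, Fin.sum_univ_two]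
  ring

/-- good elements -/
def Good2 {F : Type*} [Field F] (M : SL(2, F)) : Prop := M.1 = 1 ∨ M.1.trace ≠ 2 ∧ NS M.1

section main
variable {K : Type*} [Field K] [Fintype K] {q : ℕ} (hq : IsPrimePow q) (hK : Fintype.card K = q ^ 3)

theorem h0_Pb' (c : Kˣ) (M : SL(2, F0 hq hK)) :
    (h0 hq hK c)⁻¹ * Pb hq hK M * h0 hq hK c = Pb hq hK (tw (nmu hq hK c⁻¹) M) := by
  rw [← h0_Pb, ← h0_inv, inv_inv]

theorem P120_dg (c : Kˣ) : P120 hq hK (TrMat.dg c) = h0 hq hK c * Pb hq hK (TrMat.dg (nmu hq hK c⁻¹)⁻¹) := by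
  rw [← tw_w1, map_mul, ← h0_Pb', P120_eq, map_inv]
  unfold h0
  group

theorem P30_dg_L (u : (F0 hq hK)ˣ) : P30 hq hK (TrMat.dg u) ∈ chevD4.diagonalSubgroup K ⊓ fx hq hK := by
  refine ⟨?_, P30_fix hq hK _⟩
  rw [P30_eq]
  exact mono_conj_diag G (na_mono hq hK) (Pb_dg_mem_H hq hK u)

theorem P60_dg_H (c : Kˣ) : P60 hq hK (TrMat.dg c) ∈ chevD4.diagonalSubgroup K ⊓ fx hq hK := by
  refine ⟨?_, P60_fix hq hK _⟩
  rw [P60_eq, P120_eq]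
  exact mono_conj_diag G (na_mono hq hK) (mono_conj_diag G (nb_mono hq hK) (h0_mem_H hq hK c))

theorem free {y0 l : GL chevD4.Idx K} (hl : l ∈ L hq hK) {M1 : SL(2, F0 hq hK)} (h : y0 * l = Pb hq hK M1) :
    ∃ R M2 : SL(2, F0 hq hK), ∀ p' : F0 hq hK, ∃ p : F0 hq hK, y0 * Pb hq hK (E p) * l = Pb hq hK (R * (E p' * M2) * R⁻¹) := by
  obtain ⟨c, M, rfl⟩ := hl
  refine ⟨M1 * M⁻¹, M * M1 * M⁻¹, fun p' => ⟨p' * (nmu hq hK c⁻¹ : F0 hq hK), ?_⟩⟩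
  have e1 : tw (nmu hq hK c⁻¹) (E (p' * (nmu hq hK c⁻¹ : F0 hq hK))) = E p' := by
    rw [tw_E, mul_assoc, Units.mul_inv, mul_one]
  calc y0 * Pb hq hK (E (p' * (nmu hq hK c⁻¹ : F0 hq hK))) * (h0 hq hK c * Pb hq hK M)
      = (y0 * (h0 hq hK c * Pb hq hK M)) * (Pb hq hK M)⁻¹ * ((h0 hq hK c)⁻¹ *
        Pb hq hK (E (p' * (nmu hq hK c⁻¹ : F0 hq hK))) * h0 hq hK c) * Pb hq hK M := by group
    _ = Pb hq hK (M1 * M⁻¹ * E p' * M) := by rw [h, h0_Pb', e1]; simp only [map_mul, map_inv]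
    _ = _ := by congr 1; group

theorem cj_free {n : GL chevD4.Idx K} (hn : ∀ l ∈ L hq hK, ∃ y0 M1, y0 * l = Pb hq hK M1 ∧
    ∀ p, YY hq hK n (y0 * Pb hq hK (E p))) {l b : GL chevD4.Idx K} (hl : l ∈ L hq hK) (hb : b ∈ QA hq hK) :
    ∃ M, CJ hq hK (n * l * b) (Pb hq hK M) ∧ ((2 : F0 hq hK) = 0 → Good2 M) := by
  obtain ⟨y0, M1, h1, h2⟩ := hn l hl
  obtain ⟨R, M2, h3⟩ := free hq hK hl h1
  obtain ⟨p', hp'⟩ : ∃ p' : F0 hq hK, ((2 : F0 hq hK) = 0 → Good2 (E p' * M2)) := by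
    by_cases h4 : (2 : F0 hq hK) = 0
    · obtain ⟨p', hp'⟩ := exists_good h4 M2
      exact ⟨p', fun _ => hp'⟩
    · exact ⟨0, fun h => absurd h h4⟩
  obtain ⟨p, hp⟩ := h3 p'
  have h5 := yy_cj hq hK (h2 p) hl hb
  rw [hp] at h5
  have h6 := cj_conj hq hK h5 (m := Pb hq hK R⁻¹) (Pb_mem_L hq hK _)
  refine ⟨E p' * M2, ?_, hp'⟩
  have e : Pb hq hK R⁻¹ * Pb hq hK (R * (E p' * M2) * R⁻¹) * (Pb hq hK R⁻¹)⁻¹ = Pb hq hK (E p' * M2) := by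
    rw [← map_inv, ← map_mul, ← map_mul]; congr 1; group
  rwa [e] at h6

theorem cj_na {l b : GL chevD4.Idx K} (hl : l ∈ L hq hK) (hb : b ∈ QA hq hK) :
    ∃ M, CJ hq hK (na hq hK * l * b) (Pb hq hK M) ∧ ((2 : F0 hq hK) = 0 → Good2 M) := by
  refine cj_free hq hK ?_ hl hb
  rintro _ ⟨c, M, rfl⟩
  refine ⟨h0 hq hK c⁻¹, M, ?_, fun p => ?_⟩
  · rw [← h0_inv]; group
  · have := yy_na hq hK (-c⁻¹) p
    rwa [_root_.neg_neg] at this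

theorem cj_n2 {l b : GL chevD4.Idx K} (hl : l ∈ L hq hK) (hb : b ∈ QA hq hK) :
    ∃ M, CJ hq hK (n2 hq hK * l * b) (Pb hq hK M) ∧ ((2 : F0 hq hK) = 0 → Good2 M) := by
  refine cj_free hq hK ?_ hl hb
  rintro _ ⟨c, M, rfl⟩
  obtain ⟨M', hM'⟩ := yy_n2 hq hK c⁻¹
  refine ⟨_, tw (nmu hq hK (-c⁻¹)) M' * M, ?_, hM'⟩
  rw [map_mul, ← h0_Pb]
  have e : h0 hq hK (-1) * h0 hq hK c = (h0 hq hK (-c⁻¹))⁻¹ := by
    rw [h0_inv, ← h0_mul]
    congr 1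
    rw [inv_neg, inv_inv]
    simp
  calc h0 hq hK (-c⁻¹) * Pb hq hK M' * h0 hq hK (-1) * (h0 hq hK c * Pb hq hK M) =
      h0 hq hK (-c⁻¹) * Pb hq hK M' * (h0 hq hK (-1) * h0 hq hK c) * Pb hq hK M := by group
    _ = _ := by rw [e]

theorem cj_nu {l b : GL chevD4.Idx K} (hl : l ∈ L hq hK) (hb : b ∈ QA hq hK) :
    ∃ M, CJ hq hK (nu hq hK * l * b) (Pb hq hK M) := by
  obtain ⟨c1, M1, h1⟩ := mul_mem (H_le_L hq hK (P30_dg_L hq hK (-1))) hl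
  have h2 := yy_cj hq hK (yy_nu hq hK (-c1⁻¹)) hl hb
  rw [_root_.neg_neg, mul_assoc (P120 hq hK (TrMat.dg c1⁻¹)), h1, P120_dg] at h2
  refine ⟨tw (nmu hq hK c1⁻¹) (TrMat.dg (nmu hq hK c1⁻¹⁻¹)⁻¹) * M1, ?_⟩
  convert h2 using 1
  rw [map_mul, ← h0_Pb, h0_inv, inv_inv]
  group

/-! ### characteristic two -/

theorem n60_mem : n60 hq hK ∈ Nf hq hK :=
  (Nf hq hK).mul_mem ((Nf hq hK).mul_mem (na_mem hq hK) ((Nf hq hK).mul_mem ((Nf hq hK).mul_mem (nb_mem hq hK) (na_mem hq hK))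
    ((Nf hq hK).inv_mem (nb_mem hq hK)))) ((Nf hq hK).inv_mem (na_mem hq hK))

/-- the two representatives -/
theorem nu_n60 : ∃ h ∈ chevD4.diagonalSubgroup K ⊓ fx hq hK, nu hq hK = n60 hq hK * (nb hq hK * h) := by
  have h1 : Mono G (n60 hq hK) (wa hq hK * (wb hq hK * wa hq hK * wb hq hK) * wa hq hK) := by
    have := mono_mul G (mono_mul G (na_mono hq hK) (mono_mul G (mono_mul G (nb_mono hq hK) (na_mono hq hK))
      (mono_inv G (nb_mono hq hK)))) (mono_inv G (na_mono hq hK))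
    rw [wa_inv, wb_inv] at this
    exact this
  have h2 := mono_mul G h1 (nb_mono hq hK)
  have h3 := same hq hK (nu_mem hq hK) (mul_mem (n60_mem hq hK) (nb_mem hq hK)) (nu_mono hq hK) (by
    have e : wa hq hK * wb hq hK * wa hq hK * wb hq hK * wa hq hK * wb hq hK =
      wa hq hK * (wb hq hK * wa hq hK * wb hq hK) * wa hq hK * wb hq hK := by simp only [mul_assoc]
    rw [e]; exact h2)
  exact ⟨_, h3, by group⟩

theorem h0_inj2 (h2 : (2 : K) = 0) {c d : Kˣ} (h : h0 hq hK c = h0 hq hK d) : c = d := by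
  have h18 : (18 : ℕ) < chevD4.nroots := by decide
  have h1 := h0_conj hq hK c h18 1
  rw [h, h0_conj hq hK d h18] at h1
  have h3 := xg_inj G h18 h1
  have e : pr chevD4 18 18 = 2 ∧ pr chevD4 13 18 = 0 ∧ pr chevD4 12 18 = 0 := by decide +kernel
  unfold chi at h3
  rw [e.1, e.2.1, e.2.2] at h3
  simp only [zpow_zero, mul_one] at h3
  have h4 : (d : K) ^ 2 = (c : K) ^ 2 := by exact_mod_cast h3
  apply Units.ext
  have h5 : ((c : K) - d) ^ 2 = 0 := by linear_combination (-1) * h4 + ((d : K) ^ 2 - (c : K) * d) * h2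
  exact sub_eq_zero.mp (pow_eq_zero_iff (two_ne_zero) |>.mp h5)

theorem two_K (h2 : (2 : F0 hq hK) = 0) : (2 : K) = 0 := by
  have h := congrArg (F0 hq hK).subtype h2
  rwa [map_ofNat, map_zero] at h

theorem P60_surj (h2 : (2 : F0 hq hK) = 0) (c : Kˣ) : ∃ t : Kˣ, ∃ u : (F0 hq hK)ˣ,
    P60 hq hK (TrMat.dg t) = h0 hq hK c * Pb hq hK (TrMat.dg u) := by
  have hex : ∀ t : Kˣ, ∃ c : Kˣ, ∃ u : (F0 hq hK)ˣ, P60 hq hK (TrMat.dg t) = h0 hq hK c * Pb hq hK (TrMat.dg u) :=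
    fun t => exists_h hq hK (P60_dg_H hq hK t)
  choose κ υ hκ using hex
  have hu : ∀ t, ((υ t : F0 hq hK)) * υ t = (nmu hq hK (κ t) : F0 hq hK) := by
    intro t
    have h1 := (c60b hq hK (TrMat.dg t) (E 1)).eq
    have h3 : P60 hq hK (TrMat.dg t) * Pb hq hK (E 1) * (P60 hq hK (TrMat.dg t))⁻¹ = Pb hq hK (E 1) := by
      rw [h1]; group
    have h4 : P60 hq hK (TrMat.dg t) * Pb hq hK (E 1) * (P60 hq hK (TrMat.dg t))⁻¹ =
        Pb hq hK (E (((υ t : F0 hq hK)) * υ t * 1 * ((nmu hq hK (κ t))⁻¹ : (F0 hq hK)ˣ))) := by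
      rw [hκ, ← tw_E, ← h0_Pb, ← dg_E, map_mul, map_mul, map_inv]
      group
    rw [h3, Pb_E, Pb_E] at h4
    have h5 := Subtype.ext (xg_inj G (by decide) h4)
    have h6 : (((nmu hq hK (κ t))⁻¹ : (F0 hq hK)ˣ) : F0 hq hK) * (nmu hq hK (κ t) : F0 hq hK) = 1 := Units.inv_mul _
    calc ((υ t : F0 hq hK)) * υ t = ((υ t : F0 hq hK)) * υ t * 1 * (((nmu hq hK (κ t))⁻¹ : (F0 hq hK)ˣ) : F0 hq hK) *
        (nmu hq hK (κ t) : F0 hq hK) := by rw [mul_assoc _ _ (nmu hq hK (κ t) : F0 hq hK), h6]; ring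
      _ = _ := by rw [← h5, one_mul]
  have hinj : Function.Injective κ := by
    intro t t' h
    have h1 := hu t
    have h3 := hu t'
    rw [h, ← h3] at h1
    have h4 : υ t = υ t' := by
      apply Units.ext
      have h5 : ((υ t : F0 hq hK) - υ t') ^ 2 = 0 := by
        linear_combination h1 + ((υ t' : F0 hq hK) * υ t' - (υ t : F0 hq hK) * υ t') * h2
      exact sub_eq_zero.mp (pow_eq_zero_iff (two_ne_zero) |>.mp h5)
    have h5 : P60 hq hK (TrMat.dg t) = P60 hq hK (TrMat.dg t') := by rw [hκ, hκ, h, h4]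
    rw [P60_eq, P60_eq, P120_eq, P120_eq] at h5
    have h6 := mul_left_cancel (mul_right_cancel (mul_left_cancel (mul_right_cancel h5)))
    exact h0_inj2 hq hK (two_K hq hK h2) h6
  obtain ⟨t, rfl⟩ := (Finite.injective_iff_surjective.mp hinj) c
  exact ⟨t, υ t, hκ t⟩

theorem cj_nu2 (h2 : (2 : F0 hq hK) = 0) {l b : GL chevD4.Idx K} (hl : l ∈ L hq hK) (hb : b ∈ QA hq hK) :
    ∃ M, CJ hq hK (nu hq hK * l * b) (Pb hq hK M) ∧ Good2 M := by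
  obtain ⟨h, hh, hnu⟩ := nu_n60 hq hK
  have hnbh : nb hq hK * h ∈ L hq hK := mul_mem (Pb_mem_L hq hK _) (H_le_L hq hK hh)
  obtain ⟨l1, hl1d⟩ : ∃ x, x = nb hq hK * h * l := ⟨_, rfl⟩
  have hl1 : l1 ∈ L hq hK := by rw [hl1d]; exact mul_mem hnbh hl
  have e0 : nu hq hK * l * b = n60 hq hK * l1 * b := by rw [hnu, hl1d]; group
  rw [e0]
  obtain ⟨c, M, hcM⟩ := hl1
  have hl1 : l1 ∈ L hq hK := ⟨c, M, hcM⟩
  obtain ⟨t, u, htu⟩ := P60_surj hq hK h2 c⁻¹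
  obtain ⟨M0, hM0⟩ : ∃ M0, P60 hq hK (TrMat.dg t) * l1 = Pb hq hK M0 := by
    refine ⟨tw (nmu hq hK c⁻¹) (TrMat.dg u) * M, ?_⟩
    rw [htu, hcM, map_mul, ← h0_Pb, ← h0_inv]; group
  have hy1 : YY hq hK (n60 hq hK) (P60 hq hK (TrMat.dg t)) := by
    have := yy_n60 hq hK (-t)
    rwa [_root_.neg_neg] at this
  by_cases hg : Good2 M0
  · refine ⟨M0, ?_, hg⟩
    rw [← hM0]
    exact yy_cj hq hK hy1 hl1 hb
  -- the bad case
  have h2' : (2 : F0 hq hK) = 0 := h2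
  have hM1 : M0 ≠ 1 := by
    intro h'; apply hg; left; rw [h']; rfl
  have htr : M0.1.trace = 0 := by
    by_contra htr
    apply hg
    right
    refine ⟨by rw [h2]; exact htr, ?_⟩
    by_contra hns
    have h3 := scalar_of hns
    apply htr
    rw [h3, Matrix.trace_smul, Matrix.trace_one, Fintype.card_fin]
    have : ((2 : ℕ) : F0 hq hK) = 0 := by exact_mod_cast h2
    rw [this, smul_zero]
  -- the torus element
  obtain ⟨c6, u6, h6⟩ := exists_h hq hK (g := P30 hq hK (TrMat.dg (-1)) * h⁻¹ * (P60 hq hK (TrMat.dg t))⁻¹)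
    (mul_mem (mul_mem (P30_dg_L hq hK _) (inv_mem hh)) (inv_mem (P60_dg_H hq hK t)))
  have hy2 := yy_mul hq hK (yy_nu hq hK (-c6⁻¹)) (inv_mem hnbh)
  rw [_root_.neg_neg, hnu, mul_inv_cancel_right] at hy2
  obtain ⟨v, hv⟩ : ∃ v, v = (nmu hq hK c6⁻¹⁻¹)⁻¹ * u6 := ⟨_, rfl⟩
  have hy3 : P120 hq hK (TrMat.dg c6⁻¹) * P30 hq hK (TrMat.dg (-1)) * (nb hq hK * h)⁻¹ =
      Pb hq hK (TrMat.dg v * w1⁻¹) * P60 hq hK (TrMat.dg t) := by
    have e1 : h0 hq hK c6⁻¹ * Pb hq hK (TrMat.dg (nmu hq hK c6⁻¹⁻¹)⁻¹) * (h0 hq hK c6⁻¹)⁻¹ =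
        Pb hq hK (TrMat.dg (nmu hq hK c6⁻¹⁻¹)⁻¹) := by rw [h0_Pb, tw_dg]
    have e2 := (c60b hq hK (TrMat.dg t) w1).eq
    have e3 : P30 hq hK (TrMat.dg (-1)) * h⁻¹ = h0 hq hK c6 * Pb hq hK (TrMat.dg u6) * P60 hq hK (TrMat.dg t) := by
      rw [← h6]; group
    have e4 : P60 hq hK (TrMat.dg t) * (nb hq hK)⁻¹ = (nb hq hK)⁻¹ * P60 hq hK (TrMat.dg t) := by
      have := (c60b hq hK (TrMat.dg t) w1).inv_right.eq
      exact this
    calc P120 hq hK (TrMat.dg c6⁻¹) * P30 hq hK (TrMat.dg (-1)) * (nb hq hK * h)⁻¹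
        = P120 hq hK (TrMat.dg c6⁻¹) * (P30 hq hK (TrMat.dg (-1)) * h⁻¹) * (nb hq hK)⁻¹ := by group
      _ = (h0 hq hK c6⁻¹ * Pb hq hK (TrMat.dg (nmu hq hK c6⁻¹⁻¹)⁻¹) * (h0 hq hK c6⁻¹)⁻¹) *
          (h0 hq hK c6⁻¹ * h0 hq hK c6) * Pb hq hK (TrMat.dg u6) * (P60 hq hK (TrMat.dg t) * (nb hq hK)⁻¹) := by
        rw [P120_dg, e3]; group
      _ = Pb hq hK (TrMat.dg (nmu hq hK c6⁻¹⁻¹)⁻¹) * Pb hq hK (TrMat.dg u6) * ((nb hq hK)⁻¹ * P60 hq hK (TrMat.dg t)) := by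
        rw [e1, ← h0_mul, inv_mul_cancel, h0_one, e4]; group
      _ = _ := by rw [hv, TrMat.dg_mul]; simp only [map_mul, map_inv, mul_assoc]
  rw [hy3] at hy2
  -- conjugation
  haveI : Fintype (F0 hq hK) := Fintype.ofFinite _
  have hJ : ((TrMat.dg v * w1⁻¹)⁻¹ : SL(2, F0 hq hK)).1 = !![0, (v : F0 hq hK); -((v⁻¹ : (F0 hq hK)ˣ) : F0 hq hK), 0] := by
    rw [mul_inv_rev, inv_inv, TrMat.dg_inv, Matrix.SpecialLinearGroup.coe_mul, coe_w1, coe_dg, inv_inv]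
    ext i j
    fin_cases i <;> fin_cases j <;> simp [Matrix.mul_apply, Fin.sum_univ_two]
  obtain ⟨P, hP⟩ := conj_unip h2 htr hM1 (B := (TrMat.dg v * w1⁻¹)⁻¹) (by
    rw [hJ, Matrix.trace_fin_two]; simp) (by rw [hJ]; simp)
  refine ⟨1, ?_, Or.inl rfl⟩
  refine cj_of_conj hq hK (k := Pb hq hK P) (Pb_fix hq hK P) ?_
  have hPL := Pb_mem_L hq hK P
  have h7 := yy_cj hq hK hy2 (l := Pb hq hK P * l1 * (Pb hq hK P)⁻¹) (b := Pb hq hK P * b * (Pb hq hK P)⁻¹)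
    (mul_mem (mul_mem hPL hl1) (inv_mem hPL)) (L_QA hq hK hPL hb)
  have e5 : Pb hq hK P * (n60 hq hK * l1 * b) * (Pb hq hK P)⁻¹ =
      n60 hq hK * (Pb hq hK P * l1 * (Pb hq hK P)⁻¹) * (Pb hq hK P * b * (Pb hq hK P)⁻¹) := by
    have e := (c60b hq hK w1 P).eq
    change n60 hq hK * Pb hq hK P = Pb hq hK P * n60 hq hK at e
    calc Pb hq hK P * (n60 hq hK * l1 * b) * (Pb hq hK P)⁻¹ = (Pb hq hK P * n60 hq hK) * l1 * b * (Pb hq hK P)⁻¹ := by group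
      _ = _ := by rw [← e]; group
  rw [e5, map_one]
  convert h7 using 1
  have e6 := (c60b hq hK (TrMat.dg t) P).eq
  symm
  calc Pb hq hK (TrMat.dg v * w1⁻¹) * P60 hq hK (TrMat.dg t) * (Pb hq hK P * l1 * (Pb hq hK P)⁻¹)
      = Pb hq hK (TrMat.dg v * w1⁻¹) * (P60 hq hK (TrMat.dg t) * Pb hq hK P) * l1 * (Pb hq hK P)⁻¹ := by group
    _ = Pb hq hK (TrMat.dg v * w1⁻¹) * Pb hq hK P * (P60 hq hK (TrMat.dg t) * l1) * (Pb hq hK P)⁻¹ := by rw [e6]; group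
    _ = Pb hq hK ((TrMat.dg v * w1⁻¹) * (P * M0 * P⁻¹)) := by
      rw [hM0]; simp only [map_mul, map_inv, mul_assoc]
    _ = 1 := by rw [hP, mul_inv_cancel, map_one]

/-- every element has a conjugate with a good component -/
theorem cj_all {g : GL chevD4.Idx K} (hg : g ∈ fx hq hK) (h1 : g ≠ 1) :
    ∃ M, CJ hq hK g (Pb hq hK M) ∧ ((2 : F0 hq hK) = 0 → Good2 M) := by
  obtain ⟨k, hk, n, hn, l, hl, b, hb, h⟩ := reduce hq hK hg h1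
  have h2 : ∃ M, CJ hq hK (n * l * b) (Pb hq hK M) ∧ ((2 : F0 hq hK) = 0 → Good2 M) := by
    rcases hn with rfl | rfl | rfl
    · exact cj_na hq hK hl hb
    · exact cj_n2 hq hK hl hb
    · by_cases h3 : (2 : F0 hq hK) = 0
      · obtain ⟨M, hM, hM2⟩ := cj_nu2 hq hK h3 hl hb
        exact ⟨M, hM, fun _ => hM2⟩
      · obtain ⟨M, hM⟩ := cj_nu hq hK hl hb
        exact ⟨M, hM, fun h => absurd h h3⟩
  obtain ⟨M, hM, hM2⟩ := h2
  rw [← h] at hM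
  exact ⟨M, cj_of_conj hq hK hk hM, hM2⟩

end main

end Cfsg.Agent.Lib.Tr
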