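import Cfsg.Agent.Lib.TrCell
set_option autoImplicit false
set_option linter.unusedSectionVars false
set_option linter.unusedVariables false

/-!
The groups 3D4(q): Gauss decompositions (helper44).
-/

namespace Cfsg.Agent.Lib.Tr
open Cfsg.Lie Cfsg.Agent.Lib.ChevX Cfsg.Agent.Lib.ChevGood Cfsg.Agent.Lib.ChevRel
open Cfsg.Agent.Lib.ChevNPerm hiding nn
open Cfsg.Agent.Lib.ChevBruhat Cfsg.Agent.Lib.TwFix Cfsg.Agent.Lib.TwTab Cfsg.Agent.Lib.SL2Pres Cfsg.Agent.Lib.ChevSL2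
  Cfsg.Agent.Lib.TrMat
open Cfsg.Agent.Lib.ChevClosed hiding pr
open scoped MatrixGroups Matrix

section comm
variable {K : Type*} [Field K]

/-- commutators of root subgroups -/
def cmB (l1 l2 l3 : List ℕ) : Prop := ∀ r ∈ l1, ∀ s ∈ l2, r < 24 ∧ s < 24 ∧ s ≠ r ∧ s ≠ chevD4.neg r ∧ ∀ c ∈ chevD4.commTerms r s, c.1 ∈ l3

instance (l1 l2 l3 : List ℕ) : Decidable (cmB l1 l2 l3) := by unfold cmB; infer_instance

theorem comm_sub {l1 l2 l3 : List ℕ} (h : cmB l1 l2 l3) (h13 : ∀ a ∈ l1, ∀ b ∈ l3, 0 ≤ pr chevD4 a b)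
    (h23 : ∀ a ∈ l2, ∀ b ∈ l3, 0 ≤ pr chevD4 a b) {x y : GL chevD4.Idx K} (hx : x ∈ X K l1) (hy : y ∈ X K l2) :
    x * y * x⁻¹ * y⁻¹ ∈ X K l3 := by
  have gen : ∀ r ∈ l1, ∀ t : K, ∀ y ∈ X K l2, xg chevD4 K r t * y * (xg chevD4 K r t)⁻¹ * y⁻¹ ∈ X K l3 := by
    intro r hr t y hy
    unfold X XS at hy
    induction hy using Subgroup.closure_induction with
    | mem z hz =>
      obtain ⟨s, hs, u, rfl⟩ := hz
      obtain ⟨hr24, hs24, hne, hneg, hc⟩ := h r hr s hs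
      have h4 := xg_comm G (F := K) hr24 hs24 (fun hh => hne hh) (fun hh => hneg hh) (-t) u
      rw [xg_neg G] at h4
      have hw : wg chevD4 K (chevD4.commWord K r s (-t) u) ∈ X K l3 :=
        wg_commWord_mem G (r := ⟨r, hr24⟩) (s := s) (fun hh => hne (congrArg Fin.val hh)) (fun hh => hneg (congrArg Fin.val hh))
          (fun c hc' _ k hk => by show (k : ℕ) ∈ l3; rw [hk]; exact hc c hc') _ _
      have h5 : xg chevD4 K r t * xg chevD4 K s u * (xg chevD4 K r t)⁻¹ =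
          xg chevD4 K s u * wg chevD4 K (chevD4.commWord K r s (-t) u) := by
        have : xg chevD4 K s u * (xg chevD4 K r t)⁻¹ = (xg chevD4 K r t)⁻¹ *
            (xg chevD4 K s u * wg chevD4 K (chevD4.commWord K r s (-t) u)) := by
          rw [h4, mul_assoc]
        rw [mul_assoc, this]; group
      have h6 := (X_comm h23 (xg_mem (K := K) s.2 hs u) hw).eq
      rw [h5, h6, mul_inv_cancel_right]
      exact hw
    | one => simp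
    | mul y1 y2 hy1 hy2 ih1 ih2 =>
      have h6 := (X_comm h23 hy1 ih2).eq
      have e : xg chevD4 K r t * (y1 * y2) * (xg chevD4 K r t)⁻¹ * (y1 * y2)⁻¹ =
          (xg chevD4 K r t * y1 * (xg chevD4 K r t)⁻¹ * y1⁻¹) *
          (y1 * (xg chevD4 K r t * y2 * (xg chevD4 K r t)⁻¹ * y2⁻¹) * y1⁻¹) := by group
      rw [e, h6, mul_inv_cancel_right]
      exact mul_mem ih1 ih2
    | inv y hy ih =>
      have h6 := (X_comm h23 hy (inv_mem ih)).eq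
      have e : xg chevD4 K r t * y⁻¹ * (xg chevD4 K r t)⁻¹ * y⁻¹⁻¹ =
          y⁻¹ * ((xg chevD4 K r t * y * (xg chevD4 K r t)⁻¹ * y⁻¹)⁻¹ * y) := by group
      rw [e, ← h6, inv_mul_cancel_left]
      exact inv_mem ih
  unfold X XS at hx
  induction hx using Subgroup.closure_induction with
  | mem z hz =>
    obtain ⟨s, hs, u, rfl⟩ := hz
    exact gen s hs u y hy
  | one => simp
  | mul x1 x2 hx1 hx2 ih1 ih2 =>
    have h6 := (X_comm h13 hx1 ih2).eq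
    have e : x1 * x2 * y * (x1 * x2)⁻¹ * y⁻¹ = (x1 * (x2 * y * x2⁻¹ * y⁻¹) * x1⁻¹) * (x1 * y * x1⁻¹ * y⁻¹) := by group
    rw [e, h6, mul_inv_cancel_right]
    exact mul_mem ih2 ih1
  | inv x hx ih =>
    have h6 := (X_comm h13 hx (inv_mem ih)).eq
    have e : x⁻¹ * y * x⁻¹⁻¹ * y⁻¹ = x⁻¹ * ((x * y * x⁻¹ * y⁻¹)⁻¹ * x) := by group
    rw [e, ← h6, inv_mul_cancel_left]
    exact inv_mem ih

end comm

section main
variable {K : Type*} [Field K] [Fintype K] {q : ℕ} (hq : IsPrimePow q) (hK : Fintype.card K = q ^ 3)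

/-- the components that occur -/
def YY (n y : GL chevD4.Idx K) : Prop := ∃ p ∈ QA hq hK, ∃ a ∈ QB hq hK, ∃ b ∈ QA hq hK, p * n = a * y * b

/-- the conclusion: conjugate to `a y b` -/
def CJ (g y : GL chevD4.Idx K) : Prop := ∃ k ∈ fx hq hK, ∃ a ∈ QB hq hK, ∃ b ∈ QA hq hK, k * g * k⁻¹ = a * y * b

theorem QA_le : QA hq hK ≤ fx hq hK := inf_le_right
theorem QB_le : QB hq hK ≤ fx hq hK := inf_le_right

theorem yy_cj {n y l b : GL chevD4.Idx K} (h : YY hq hK n y) (hl : l ∈ L hq hK) (hb : b ∈ QA hq hK) :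
    CJ hq hK (n * l * b) (y * l) := by
  obtain ⟨p, hp, a, ha, b0, hb0, h⟩ := h
  refine ⟨p, hp.2, a, ha, (l⁻¹ * b0 * l⁻¹⁻¹) * b * p⁻¹, mul_mem (mul_mem (L_QA hq hK (inv_mem hl) hb0) hb) (inv_mem hp), ?_⟩
  calc p * (n * l * b) * p⁻¹ = (p * n) * l * b * p⁻¹ := by group
    _ = _ := by rw [h]; group

theorem yy_mul {n y m : GL chevD4.Idx K} (h : YY hq hK n y) (hm : m ∈ L hq hK) : YY hq hK (n * m) (y * m) := by
  obtain ⟨p, hp, a, ha, b0, hb0, h⟩ := h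
  refine ⟨p, hp, a, ha, m⁻¹ * b0 * m⁻¹⁻¹, L_QA hq hK (inv_mem hm) hb0, ?_⟩
  rw [← mul_assoc, h]; group

theorem cj_conj {g y m : GL chevD4.Idx K} (h : CJ hq hK g y) (hm : m ∈ L hq hK) : CJ hq hK g (m * y * m⁻¹) := by
  obtain ⟨k, hk, a, ha, b, hb, h⟩ := h
  refine ⟨m * k, (fx hq hK).mul_mem (L_le_fix hq hK hm) hk, _, L_QB hq hK hm ha, _, L_QA hq hK hm hb, ?_⟩
  calc m * k * g * (m * k)⁻¹ = m * (k * g * k⁻¹) * m⁻¹ := by group
    _ = _ := by rw [h]; group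

theorem cj_of_conj {g k y : GL chevD4.Idx K} (hk : k ∈ fx hq hK) (h : CJ hq hK (k * g * k⁻¹) y) : CJ hq hK g y := by
  obtain ⟨k', hk', a, ha, b, hb, h⟩ := h
  refine ⟨k' * k, (fx hq hK).mul_mem hk' hk, a, ha, b, hb, ?_⟩
  rw [← h]; group

theorem PaE_X (t : K) : Pa hq hK (E t) ∈ X K [18, 13, 12] := by
  rw [Pa_E]
  exact mul_mem (mul_mem (xg_mem (by decide) (by decide) _) (xg_mem (by decide) (by decide) _)) (xg_mem (by decide) (by decide) _)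

theorem PaE'_X (t : K) : Pa hq hK (E' t) ∈ X K [5, 10, 11] := by
  rw [Pa_E']
  exact mul_mem (mul_mem (xg_mem (by decide) (by decide) _) (xg_mem (by decide) (by decide) _)) (xg_mem (by decide) (by decide) _)

theorem PbE_X (t : F0 hq hK) : Pb hq hK (E t) ∈ X K [14] := by
  rw [Pb_E]; exact xg_mem (by decide) (by decide) _

theorem PbE'_X (t : F0 hq hK) : Pb hq hK (E' t) ∈ X K [9] := by
  rw [Pb_E']; exact xg_mem (by decide) (by decide) _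

theorem PaE_QA (t : K) : Pa hq hK (E t) ∈ QA hq hK := ⟨X_mono (by decide) (PaE_X hq hK t), Pa_fix hq hK _⟩
theorem PaE'_QB (t : K) : Pa hq hK (E' t) ∈ QB hq hK := ⟨X_mono (by decide) (PaE'_X hq hK t), Pa_fix hq hK _⟩

theorem fixc {n x : GL chevD4.Idx K} (hn : n ∈ fx hq hK) (hx : x ∈ fx hq hK) : n * x * n⁻¹ ∈ fx hq hK :=
  (fx hq hK).mul_mem ((fx hq hK).mul_mem hn hx) ((fx hq hK).inv_mem hn)

/-- the first cell -/
theorem yy_na (t : Kˣ) (p : F0 hq hK) : YY hq hK (na hq hK) (h0 hq hK (-t) * Pb hq hK (E p)) := by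
  refine ⟨Pa hq hK (E (t : K)) * (na hq hK * Pb hq hK (E p) * (na hq hK)⁻¹), mul_mem (PaE_QA hq hK _)
    ⟨X_mono (l1 := [22]) (by decide) (na_X hq hK (l := [14]) (by decide) (PbE_X hq hK p)),
      fixc hq hK (Pa_fix hq hK _) (Pb_fix hq hK _)⟩,
    Pa hq hK (E' ((t⁻¹ : Kˣ) : K)), PaE'_QB hq hK _,
    (Pb hq hK (E p))⁻¹ * Pa hq hK (E (-((t⁻¹ : Kˣ) : K))) * (Pb hq hK (E p))⁻¹⁻¹,
    L_QA hq hK (inv_mem (Pb_mem_L hq hK _)) (PaE_QA hq hK _), ?_⟩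
  have h := congrArg (Pa hq hK) (gauss t)
  rw [map_mul, map_mul, map_mul] at h
  calc Pa hq hK (E (t : K)) * (na hq hK * Pb hq hK (E p) * (na hq hK)⁻¹) * na hq hK =
      (Pa hq hK (E (t : K)) * Pa hq hK w1) * Pb hq hK (E p) := by group
    _ = _ := by rw [h]; unfold h0; group

theorem X9_fix {c : GL chevD4.Idx K} (hc : c ∈ X K [9]) (hf : c ∈ fx hq hK) : ∃ f : F0 hq hK, c = Pb hq hK (E' f) := by
  have h2 : ∃ t : K, c = xg chevD4 K 9 t := by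
    let S : Subgroup (GL chevD4.Idx K) :=
      { carrier := {g | ∃ t : K, g = xg chevD4 K 9 t}
        one_mem' := ⟨0, by rw [xg_zero G]⟩
        mul_mem' := by rintro _ _ ⟨t, rfl⟩ ⟨u, rfl⟩; exact ⟨t + u, by rw [xg_add G]⟩
        inv_mem' := by rintro _ ⟨t, rfl⟩; exact ⟨-t, by rw [xg_neg G]⟩ }
    have h3 : X K [9] ≤ S := by
      apply XS_le
      intro r hr t
      have h4 : (r : ℕ) = 9 := by simpa [RS] using hr
      exact ⟨t, by rw [h4]⟩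
    exact h3 hc
  obtain ⟨t, rfl⟩ := h2
  have h3 := hf.2
  have h4 : (9 : ℕ) < chevD4.nroots := by decide
  have h6 : t ^ q = t := by
    have e := (TwD4.T hq hK).s_eq (xg_mem_group G (F := K) 9 t)
    have e2 : (⟨xg chevD4 K 9 t, xg_mem_group G 9 t⟩ : chevD4.group K) = MinTD4C.x 9 t :=
      Subtype.ext (coe_x h4 t).symm
    rw [e, e2] at h3
    have e3 : ((TwD4.T hq hK).σ (MinTD4C.x 9 t) : chevD4.group K) = MinTD4C.x 9 (t ^ q) := by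
      have := MinTD4A.s9 hq hK t
      rw [Int.cast_one, one_mul] at this
      exact this
    rw [e3, coe_x h4] at h3
    exact xg_inj G h4 h3
  exact ⟨⟨t, h6⟩, by rw [Pb_E']⟩

theorem cmB1 : cmB [18, 13, 12] [4, 7, 8] [9] := by decide +kernel

/-- the second cell -/
theorem yy_n2 (t : Kˣ) : ∃ M : SL(2, F0 hq hK), ∀ p : F0 hq hK,
    YY hq hK (n2 hq hK) (h0 hq hK (-t) * Pb hq hK M * h0 hq hK (-1) * Pb hq hK (E p)) := by
  obtain ⟨b1, hb1d⟩ : ∃ x, x = Pa hq hK (E (-((t⁻¹ : Kˣ) : K))) := ⟨_, rfl⟩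
  obtain ⟨a2, ha2d⟩ : ∃ x, x = nb hq hK * Pa hq hK (E' (((1 : Kˣ)⁻¹ : Kˣ) : K)) * (nb hq hK)⁻¹ := ⟨_, rfl⟩
  have hb1 : b1 ∈ X K [18, 13, 12] := by rw [hb1d]; exact PaE_X hq hK _
  have ha2 : a2 ∈ X K [4, 7, 8] := by rw [ha2d]; exact nb_X hq hK (by decide) (PaE'_X hq hK _)
  have hb1f : b1 ∈ fx hq hK := by rw [hb1d]; exact Pa_fix hq hK _
  have ha2f : a2 ∈ fx hq hK := by rw [ha2d]; exact fixc hq hK (Pb_fix hq hK _) (Pa_fix hq hK _)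
  have hc9 := comm_sub cmB1 (by decide +kernel) (by decide +kernel) hb1 ha2
  obtain ⟨f, hf⟩ := X9_fix hq hK hc9 ((fx hq hK).mul_mem (fixc hq hK hb1f ha2f) ((fx hq hK).inv_mem ha2f))
  have hcom := (X_comm (K := K) (l1 := [4, 7, 8]) (l2 := [9]) (by decide +kernel) ha2 hc9).eq
  refine ⟨E' f * w1, fun p => ?_⟩
  have e1 : b1 * a2 = a2 * Pb hq hK (E' f) * b1 := by
    rw [← hf, hcom]; group
  refine ⟨Pa hq hK (E (t : K)) * (na hq hK * (nb hq hK * Pa hq hK (E ((1 : Kˣ) : K)) * (nb hq hK)⁻¹) * (na hq hK)⁻¹) *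
      (na hq hK * (nb hq hK * (na hq hK * Pb hq hK (E p) * (na hq hK)⁻¹) * (nb hq hK)⁻¹) * (na hq hK)⁻¹),
    mul_mem (mul_mem (PaE_QA hq hK _) ⟨X_mono (l1 := [17, 20, 21]) (by decide) (na_X hq hK (l := [19, 16, 15]) (by decide)
      (nb_X hq hK (l := [18, 13, 12]) (by decide) (PaE_X hq hK _))),
      fixc hq hK (Pa_fix hq hK _) (fixc hq hK (Pb_fix hq hK _) (Pa_fix hq hK _))⟩)
      ⟨X_mono (l1 := [23]) (by decide) (na_X hq hK (l := [23]) (by decide) (nb_X hq hK (l := [22]) (by decide)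
        (na_X hq hK (l := [14]) (by decide) (PbE_X hq hK p)))),
        fixc hq hK (Pa_fix hq hK _) (fixc hq hK (Pb_fix hq hK _) (fixc hq hK (Pa_fix hq hK _) (Pb_fix hq hK _)))⟩,
    Pa hq hK (E' ((t⁻¹ : Kˣ) : K)) * (h0 hq hK (-t) * a2 * (h0 hq hK (-t))⁻¹),
    mul_mem (PaE'_QB hq hK _) (L_QB hq hK (h0_mem_L hq hK _) ⟨X_mono (by decide) ha2, ha2f⟩),
    ((h0 hq hK (-1) * Pb hq hK (E p))⁻¹ * ((nb hq hK)⁻¹ * b1 * (nb hq hK)⁻¹⁻¹) * (h0 hq hK (-1) * Pb hq hK (E p))⁻¹⁻¹) *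
      ((Pb hq hK (E p))⁻¹ * Pa hq hK (E (-(((1 : Kˣ)⁻¹ : Kˣ) : K))) * (Pb hq hK (E p))⁻¹⁻¹),
    mul_mem (L_QA hq hK (inv_mem (mul_mem (h0_mem_L hq hK _) (Pb_mem_L hq hK _)))
      (L_QA hq hK (inv_mem (Pb_mem_L hq hK _)) ⟨X_mono (by decide) hb1, hb1f⟩))
      (L_QA hq hK (inv_mem (Pb_mem_L hq hK _)) (PaE_QA hq hK _)), ?_⟩
  have g1 := congrArg (Pa hq hK) (gauss t)
  have g2 := congrArg (Pa hq hK) (gauss (1 : Kˣ))
  rw [map_mul, map_mul, map_mul] at g1 g2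
  rw [map_mul (Pb hq hK)]
  have e2 : nb hq hK * Pa hq hK (E' (((1 : Kˣ)⁻¹ : Kˣ) : K)) = a2 * nb hq hK := by rw [ha2d]; group
  calc Pa hq hK (E (t : K)) * (na hq hK * (nb hq hK * Pa hq hK (E ((1 : Kˣ) : K)) * (nb hq hK)⁻¹) * (na hq hK)⁻¹) *
      (na hq hK * (nb hq hK * (na hq hK * Pb hq hK (E p) * (na hq hK)⁻¹) * (nb hq hK)⁻¹) * (na hq hK)⁻¹) *
      (na hq hK * nb hq hK * na hq hK) = (Pa hq hK (E (t : K)) * Pa hq hK w1) * nb hq hK *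
        (Pa hq hK (E ((1 : Kˣ) : K)) * Pa hq hK w1) * Pb hq hK (E p) := by group
    _ = Pa hq hK (E' ((t⁻¹ : Kˣ) : K)) * h0 hq hK (-t) * b1 * (nb hq hK * Pa hq hK (E' (((1 : Kˣ)⁻¹ : Kˣ) : K))) *
        h0 hq hK (-1) * Pa hq hK (E (-(((1 : Kˣ)⁻¹ : Kˣ) : K))) * Pb hq hK (E p) := by
      rw [g1, g2, hb1d]; unfold h0; group
    _ = Pa hq hK (E' ((t⁻¹ : Kˣ) : K)) * h0 hq hK (-t) * (b1 * a2) * nb hq hK *
        h0 hq hK (-1) * Pa hq hK (E (-(((1 : Kˣ)⁻¹ : Kˣ) : K))) * Pb hq hK (E p) := by rw [e2]; group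
    _ = _ := by rw [e1]; group

theorem P120_X (g : SL(2, K)) : P120 hq hK g ∈ X K [19, 16, 15, 4, 7, 8] := by
  rw [P120_eq]; exact nb_X hq hK (by decide) (Pa_mem hq hK g)
theorem P60_X (g : SL(2, K)) : P60 hq hK g ∈ X K [21, 17, 20, 2, 6, 3] := by
  rw [P60_eq]; exact na_X hq hK (by decide) (P120_X hq hK g)
theorem P30_X (g : SL(2, F0 hq hK)) : P30 hq hK g ∈ X K [22, 1] := by
  rw [P30_eq]; exact na_X hq hK (by decide) (Pb_mem hq hK g)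

theorem P120_fix (g : SL(2, K)) : P120 hq hK g ∈ fx hq hK := fixc hq hK (Pb_fix hq hK _) (Pa_fix hq hK _)
theorem P60_fix (g : SL(2, K)) : P60 hq hK g ∈ fx hq hK := fixc hq hK (Pa_fix hq hK _) (P120_fix hq hK _)
theorem P30_fix (g : SL(2, F0 hq hK)) : P30 hq hK g ∈ fx hq hK := fixc hq hK (Pa_fix hq hK _) (Pb_fix hq hK _)

theorem c12030 (g : SL(2, K)) (g' : SL(2, F0 hq hK)) : Commute (P120 hq hK g) (P30 hq hK g') :=
  X_comm (by decide +kernel) (P120_X hq hK g) (P30_X hq hK g')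
theorem c60b (g : SL(2, K)) (g' : SL(2, F0 hq hK)) : Commute (P60 hq hK g) (Pb hq hK g') :=
  X_comm (by decide +kernel) (P60_X hq hK g) (Pb_mem hq hK g')

theorem P120E_QA (t : K) : P120 hq hK (E t) ∈ QA hq hK :=
  ⟨X_mono (l1 := [19, 16, 15]) (by decide) (nb_X hq hK (l := [18, 13, 12]) (by decide) (PaE_X hq hK t)), P120_fix hq hK _⟩
theorem P120E'_QB (t : K) : P120 hq hK (E' t) ∈ QB hq hK :=
  ⟨X_mono (l1 := [4, 7, 8]) (by decide) (nb_X hq hK (l := [5, 10, 11]) (by decide) (PaE'_X hq hK t)), P120_fix hq hK _⟩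
theorem P60E_QA (t : K) : P60 hq hK (E t) ∈ QA hq hK :=
  ⟨X_mono (l1 := [21, 17, 20]) (by decide) (na_X hq hK (l := [19, 16, 15]) (by decide)
    (nb_X hq hK (l := [18, 13, 12]) (by decide) (PaE_X hq hK t))), P60_fix hq hK _⟩
theorem P60E'_QB (t : K) : P60 hq hK (E' t) ∈ QB hq hK :=
  ⟨X_mono (l1 := [2, 6, 3]) (by decide) (na_X hq hK (l := [4, 7, 8]) (by decide)
    (nb_X hq hK (l := [5, 10, 11]) (by decide) (PaE'_X hq hK t))), P60_fix hq hK _⟩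
theorem P30E_QA (t : F0 hq hK) : P30 hq hK (E t) ∈ QA hq hK :=
  ⟨X_mono (l1 := [22]) (by decide) (na_X hq hK (l := [14]) (by decide) (PbE_X hq hK t)), P30_fix hq hK _⟩
theorem P30E'_QB (t : F0 hq hK) : P30 hq hK (E' t) ∈ QB hq hK :=
  ⟨X_mono (l1 := [1]) (by decide) (na_X hq hK (l := [9]) (by decide) (PbE'_X hq hK t)), P30_fix hq hK _⟩

/-- the third cell -/
theorem yy_nu (t : Kˣ) : YY hq hK (nu hq hK) (P120 hq hK (dg (-t)) * P30 hq hK (dg (-1))) := by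
  refine ⟨P120 hq hK (E (t : K)) * P30 hq hK (E (((1 : (F0 hq hK)ˣ)) : F0 hq hK)), mul_mem (P120E_QA hq hK _) (P30E_QA hq hK _),
    P120 hq hK (E' ((t⁻¹ : Kˣ) : K)) * P30 hq hK (E' (((1 : (F0 hq hK)ˣ)⁻¹ : (F0 hq hK)ˣ) : F0 hq hK)),
    mul_mem (P120E'_QB hq hK _) (P30E'_QB hq hK _),
    P120 hq hK (E (-((t⁻¹ : Kˣ) : K))) * P30 hq hK (E (-(((1 : (F0 hq hK)ˣ)⁻¹ : (F0 hq hK)ˣ) : F0 hq hK))),
    mul_mem (P120E_QA hq hK _) (P30E_QA hq hK _), ?_⟩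
  have g1 := congrArg (P120 hq hK) (gauss t)
  have g2 := congrArg (P30 hq hK) (gauss (1 : (F0 hq hK)ˣ))
  rw [map_mul, map_mul, map_mul] at g1 g2
  have c1 := (c12030 hq hK w1 (E (((1 : (F0 hq hK)ˣ)) : F0 hq hK))).eq
  have c2 := (c12030 hq hK (dg (-t)) (E' (((1 : (F0 hq hK)ˣ)⁻¹ : (F0 hq hK)ˣ) : F0 hq hK))).eq
  have c3 := (c12030 hq hK (E (-((t⁻¹ : Kˣ) : K))) (E' (((1 : (F0 hq hK)ˣ)⁻¹ : (F0 hq hK)ˣ) : F0 hq hK))).eq
  have c4 := (c12030 hq hK (E (-((t⁻¹ : Kˣ) : K))) (dg (-1))).eq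
  unfold nu
  calc P120 hq hK (E (t : K)) * P30 hq hK (E (((1 : (F0 hq hK)ˣ)) : F0 hq hK)) * (P120 hq hK w1 * P30 hq hK w1)
      = P120 hq hK (E (t : K)) * (P30 hq hK (E (((1 : (F0 hq hK)ˣ)) : F0 hq hK)) * P120 hq hK w1) * P30 hq hK w1 := by group
    _ = (P120 hq hK (E (t : K)) * P120 hq hK w1) * (P30 hq hK (E (((1 : (F0 hq hK)ˣ)) : F0 hq hK)) * P30 hq hK w1) := by
      rw [← c1]; group
    _ = (P120 hq hK (E' ((t⁻¹ : Kˣ) : K)) * P120 hq hK (dg (-t)) * P120 hq hK (E (-((t⁻¹ : Kˣ) : K)))) *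
        (P30 hq hK (E' (((1 : (F0 hq hK)ˣ)⁻¹ : (F0 hq hK)ˣ) : F0 hq hK)) * P30 hq hK (dg (-1)) *
        P30 hq hK (E (-(((1 : (F0 hq hK)ˣ)⁻¹ : (F0 hq hK)ˣ) : F0 hq hK)))) := by rw [g1, g2]
    _ = P120 hq hK (E' ((t⁻¹ : Kˣ) : K)) * P120 hq hK (dg (-t)) * (P120 hq hK (E (-((t⁻¹ : Kˣ) : K))) *
        P30 hq hK (E' (((1 : (F0 hq hK)ˣ)⁻¹ : (F0 hq hK)ˣ) : F0 hq hK))) * P30 hq hK (dg (-1)) *
        P30 hq hK (E (-(((1 : (F0 hq hK)ˣ)⁻¹ : (F0 hq hK)ˣ) : F0 hq hK))) := by group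
    _ = P120 hq hK (E' ((t⁻¹ : Kˣ) : K)) * (P120 hq hK (dg (-t)) * P30 hq hK (E' (((1 : (F0 hq hK)ˣ)⁻¹ : (F0 hq hK)ˣ) : F0 hq hK))) *
        (P120 hq hK (E (-((t⁻¹ : Kˣ) : K))) * P30 hq hK (dg (-1))) *
        P30 hq hK (E (-(((1 : (F0 hq hK)ˣ)⁻¹ : (F0 hq hK)ˣ) : F0 hq hK))) := by rw [c3]; group
    _ = _ := by rw [c2, c4]; group

/-- another representative of the longest element -/
noncomputable def n60 : GL chevD4.Idx K := P60 hq hK w1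

theorem yy_n60 (t : Kˣ) : YY hq hK (n60 hq hK) (P60 hq hK (dg (-t))) := by
  refine ⟨P60 hq hK (E (t : K)), P60E_QA hq hK _, P60 hq hK (E' ((t⁻¹ : Kˣ) : K)), P60E'_QB hq hK _,
    P60 hq hK (E (-((t⁻¹ : Kˣ) : K))), P60E_QA hq hK _, ?_⟩
  have g1 := congrArg (P60 hq hK) (gauss t)
  rw [map_mul, map_mul, map_mul] at g1
  exact g1

end main

end Cfsg.Agent.Lib.Tr
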