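import Cfsg.Agent.Lib.SL2Pres
import Mathlib.FieldTheory.Finite.Basic
import Mathlib.FieldTheory.Finite.GaloisField
set_option autoImplicit false
set_option linter.unusedSectionVars false
set_option linter.unusedVariables false

/-!
Two by two matrices with an irreducible characteristic polynomial `X² - τX - 1` (helper44).
-/

namespace Cfsg.Agent.Lib.TrMat
open Cfsg.Agent.Lib.SL2Pres
open scoped MatrixGroups Matrix

variable {F : Type*} [Field F]

/-- matrices with given trace and determinant `-1` -/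
def Ell (τ : F) (A : Matrix (Fin 2) (Fin 2) F) : Prop :=
  A 0 0 + A 1 1 = τ ∧ A 0 0 * A 1 1 - A 0 1 * A 1 0 = -1

def Irr (τ : F) : Prop := ∀ r : F, r * r - τ * r - 1 ≠ 0

theorem exists_irr [Fintype F] : ∃ τ : F, Irr τ := by
  classical
  by_contra hcon
  simp only [Irr] at hcon
  push Not at hcon
  have hs : Function.Surjective (fun r : Fˣ => (r : F) - (r : F)⁻¹) := by
    intro τ
    obtain ⟨r, hr⟩ := hcon τ
    have h0 : r ≠ 0 := by rintro rfl; simp at hr
    refine ⟨Units.mk0 r h0, ?_⟩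
    show r - r⁻¹ = τ
    field_simp
    linear_combination hr
  have h1 := Fintype.card_le_of_surjective _ hs
  rw [Fintype.card_units] at h1
  have := Fintype.card_pos (α := F)
  omega

theorem irr_ne {τ : F} (h : Irr τ) : τ ≠ 0 := by
  rintro rfl
  exact h 1 (by ring)

theorem ell_ne {τ : F} (h : Irr τ) {A : Matrix (Fin 2) (Fin 2) F} (hA : Ell τ A) : A 1 0 ≠ 0 := by
  intro h0
  apply h (A 0 0)
  have h1 := hA.1
  have h2 := hA.2
  rw [h0] at h2
  linear_combination A 0 0 * h1 - h2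

/-- conjugation by cyclic vectors -/
theorem cyc {A B : Matrix (Fin 2) (Fin 2) F} (ht : A 0 0 + A 1 1 = B 0 0 + B 1 1)
    (hd : A 0 0 * A 1 1 - A 0 1 * A 1 0 = B 0 0 * B 1 1 - B 0 1 * B 1 0) (hc : A 1 0 ≠ 0) {v w : F}
    (hv : B 1 0 * v ^ 2 + (B 1 1 - B 0 0) * v * w - B 0 1 * w ^ 2 = A 1 0) :
    ∃ P : SL(2, F), P.1 * A = B * P.1 := by
  refine ⟨⟨!![v, (B 0 0 * v + B 0 1 * w - A 0 0 * v) / A 1 0; w, (B 1 0 * v + B 1 1 * w - A 0 0 * w) / A 1 0], ?_⟩, ?_⟩
  · rw [Matrix.det_fin_two_of]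
    field_simp
    linear_combination hv
  · ext i j
    fin_cases i <;> fin_cases j <;> simp [Matrix.mul_apply, Fin.sum_univ_two]
    · field_simp; ring
    · field_simp
      linear_combination (-v) * hd + (B 0 0 * v + B 0 1 * w) * ht
    · field_simp; ring
    · field_simp
      linear_combination (-w) * hd + (B 1 0 * v + B 1 1 * w) * ht


theorem quad2 [Fintype F] (h2 : (2 : F) ≠ 0) {α β : F} (hα : α ≠ 0) (hβ : β ≠ 0) (a b γ : F) :
    ∃ x y : F, α * x ^ 2 + a * x + (β * y ^ 2 + b * y) = γ := by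
  have hc : ringChar F ≠ 2 := by
    intro h
    have := CharP.cast_eq_zero F (ringChar F)
    rw [h] at this
    exact h2 (by exact_mod_cast this)
  have hodd := FiniteField.odd_card_of_char_ne_two hc
  have e1 : (Polynomial.C α * Polynomial.X ^ 2 + Polynomial.C a * Polynomial.X + Polynomial.C (-γ)).degree = 2 :=
    Polynomial.degree_quadratic hα
  have e2 : (Polynomial.C β * Polynomial.X ^ 2 + Polynomial.C b * Polynomial.X + Polynomial.C 0).degree = 2 :=
    Polynomial.degree_quadratic hβ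
  obtain ⟨x, y, h⟩ := FiniteField.exists_root_sum_quadratic e1 e2 hodd
  refine ⟨x, y, ?_⟩
  simp only [Polynomial.eval_add, Polynomial.eval_mul, Polynomial.eval_C, Polynomial.eval_pow, Polynomial.eval_X] at h
  linear_combination h

theorem sqrt2 [Fintype F] (h2 : (2 : F) = 0) (a : F) : ∃ r : F, r ^ 2 = a := by
  have hc : ringChar F = 2 := by
    have h3 : ringChar F ∣ 2 := by
      rw [← CharP.cast_eq_zero_iff F (ringChar F) 2]
      exact_mod_cast h2
    rcases (Nat.dvd_prime Nat.prime_two).mp h3 with h | h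
    · exact absurd h (CharP.ringChar_ne_one)
    · exact h
  obtain ⟨r, hr⟩ := FiniteField.isSquare_of_char_two hc a
  exact ⟨r, by rw [hr]; ring⟩

/-- matrices with the same irreducible characteristic polynomial are conjugate in `SL₂` -/
theorem conj_ell [Fintype F] {τ : F} (h : Irr τ) {A B : Matrix (Fin 2) (Fin 2) F} (hA : Ell τ A) (hB : Ell τ B) :
    ∃ P : SL(2, F), P.1 * A = B * P.1 := by
  have ha := ell_ne h hA
  have hb := ell_ne h hB
  obtain ⟨v, w, hv⟩ : ∃ v w : F, B 1 0 * v ^ 2 + (B 1 1 - B 0 0) * v * w - B 0 1 * w ^ 2 = A 1 0 := by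
    by_cases h2 : (2 : F) = 0
    · obtain ⟨r, hr⟩ := sqrt2 h2 (A 1 0 / B 1 0)
      refine ⟨r, 0, ?_⟩
      rw [hr]; field_simp; ring
    · have hdisc : τ ^ 2 + 4 ≠ 0 := by
        intro h0
        apply h (τ / 2)
        field_simp
        linear_combination (-1) * h0
      have hβ : -(τ ^ 2 + 4) / (4 * B 1 0) ≠ 0 := by
        have h4 : (4 : F) ≠ 0 := by
          have : (4 : F) = 2 * 2 := by norm_num
          rw [this]; exact mul_ne_zero h2 h2
        exact div_ne_zero (neg_ne_zero.mpr hdisc) (mul_ne_zero h4 hb)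
      obtain ⟨x, y, hxy⟩ := quad2 h2 hb hβ 0 0 (A 1 0)
      refine ⟨x - (B 1 1 - B 0 0) * y / (2 * B 1 0), y, ?_⟩
      have h4 : (4 : F) ≠ 0 := by
        have : (4 : F) = 2 * 2 := by norm_num
        rw [this]; exact mul_ne_zero h2 h2
      have h5 : (B 1 1 - B 0 0) ^ 2 + 4 * (B 0 1 * B 1 0) = τ ^ 2 + 4 := by
        linear_combination (B 0 0 + B 1 1 + τ) * hB.1 - 4 * hB.2
      have h6 : -(τ ^ 2 + 4) / (4 * B 1 0) = -((B 1 1 - B 0 0) ^ 2 + 4 * (B 0 1 * B 1 0)) / (4 * B 1 0) := by rw [h5]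
      rw [h6] at hxy
      rw [← hxy]
      field_simp
      ring
  exact cyc (hA.1.trans hB.1.symm) (hA.2.trans hB.2.symm) ha hv

/-- the conic -/
theorem conic [Fintype F] {τ t : F} (h : Irr τ) (ht : t ≠ -2) :
    ∃ a c : F, a ^ 2 + t * a * c + c ^ 2 - τ * a + τ * c - 1 = 0 := by
  have hτ := irr_ne h
  by_cases h2 : (2 : F) = 0
  · have ht0 : t ≠ 0 := by
      intro h0; apply ht; rw [h0]; linear_combination h2
    obtain ⟨r, hr⟩ := sqrt2 h2 ((τ / t) ^ 2 + τ * (τ / t) + 1)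
    refine ⟨r, τ / t, ?_⟩
    rw [hr]
    field_simp
    linear_combination (τ ^ 2 + t * τ ^ 2) * h2
  · by_cases ht2 : t = 2
    · refine ⟨-1 / (2 * τ), 1 / (2 * τ), ?_⟩
      rw [ht2]
      field_simp
      ring
    · obtain ⟨u, rfl⟩ : ∃ u, t = 2 * u := ⟨t / 2, by field_simp⟩
      have h4 : 1 - u ^ 2 ≠ 0 := by
        intro h0
        have h5 : (1 - u) * (1 + u) = 0 := by linear_combination h0
        rcases mul_eq_zero.mp h5 with h6 | h6
        · exact ht2 (by linear_combination (-2) * h6)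
        · exact ht (by linear_combination 2 * h6)
      obtain ⟨x, y, hxy⟩ := quad2 h2 one_ne_zero h4 (-τ) (τ * u + τ) 1
      exact ⟨x - u * y, y, by linear_combination hxy⟩

/-- nonscalar elements of trace different from `-2` are products -/
theorem prod_aux [Fintype F] {τ : F} (h : Irr τ) {M : Matrix (Fin 2) (Fin 2) F} (hd : M 0 0 * M 1 1 - M 0 1 * M 1 0 = 1)
    (hc : M 1 0 ≠ 0) (ht : M 0 0 + M 1 1 ≠ -2) :
    ∃ A B : Matrix (Fin 2) (Fin 2) F, Ell τ A ∧ Ell τ B ∧ A * B = M := by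
  obtain ⟨a, c, hac⟩ := conic h ht
  -- the solution for the companion matrix
  set t := M 0 0 + M 1 1 with htd
  set b := c + a * t + τ with hb
  set m := M 0 0
  set p := M 1 0
  -- A = R !![a, b; c, τ - a] R⁻¹ with R = !![1, m; 0, p]
  set x := a + m * c with hx
  set y := (b + m * (τ - a) - m * (a + m * c)) / p with hy
  set z := p * c with hz
  have hxy : x * (τ - x) - y * z = -1 := by
    rw [hx, hy, hz, hb]
    field_simp
    linear_combination (-1) * hac
  refine ⟨!![x, y; z, τ - x], !![-(τ - x), y; z, -x] * M, ?_, ?_, ?_⟩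
  · refine ⟨by simp, by simpa using hxy⟩
  · refine ⟨?_, ?_⟩
    · simp [Matrix.mul_apply, Fin.sum_univ_two]
      have hyp : y * p = b + m * (τ - a) - m * (a + m * c) := by rw [hy]; field_simp
      show (x - τ) * m + y * p + (z * M 0 1 + -(x * M 1 1)) = τ
      rw [hyp, hx, hz, hb]
      linear_combination a * htd - c * hd
    · have h1 := Matrix.det_mul !![-(τ - x), y; z, -x] M
      rw [Matrix.det_fin_two, Matrix.det_fin_two_of, Matrix.det_fin_two, hd] at h1
      rw [h1]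
      linear_combination hxy
  · rw [← Matrix.mul_assoc]
    have h1 : (!![x, y; z, τ - x] : Matrix (Fin 2) (Fin 2) F) * !![-(τ - x), y; z, -x] = 1 := by
      ext i j
      fin_cases i <;> fin_cases j <;> simp [Matrix.mul_apply, Fin.sum_univ_two]
      · linear_combination (-1) * hxy
      · ring
      · ring
      · linear_combination (-1) * hxy
    rw [h1, Matrix.one_mul]

theorem ell_iff {τ : F} {A : Matrix (Fin 2) (Fin 2) F} : Ell τ A ↔ A.trace = τ ∧ A.det = -1 := by
  rw [Matrix.trace_fin_two, Matrix.det_fin_two]; rfl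

theorem sl_mul_inv (R : SL(2, F)) : R.1 * (R⁻¹).1 = 1 := by
  rw [← Matrix.SpecialLinearGroup.coe_mul, mul_inv_cancel]; rfl

theorem sl_inv_mul (R : SL(2, F)) : (R⁻¹).1 * R.1 = 1 := by
  rw [← Matrix.SpecialLinearGroup.coe_mul, inv_mul_cancel]; rfl

theorem trace_conj (R : SL(2, F)) (A : Matrix (Fin 2) (Fin 2) F) : (R.1 * A * (R⁻¹).1).trace = A.trace := by
  rw [Matrix.trace_mul_comm, ← Matrix.mul_assoc, sl_inv_mul, Matrix.one_mul]

theorem det_conj (R : SL(2, F)) (A : Matrix (Fin 2) (Fin 2) F) : (R.1 * A * (R⁻¹).1).det = A.det := by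
  rw [Matrix.det_mul, Matrix.det_mul, R.2, (R⁻¹).2, one_mul, mul_one]

theorem ell_conj {τ : F} (R : SL(2, F)) {A : Matrix (Fin 2) (Fin 2) F} (h : Ell τ A) : Ell τ (R.1 * A * (R⁻¹).1) := by
  rw [ell_iff] at h ⊢
  rw [trace_conj, det_conj]
  exact h

/-- the Weyl element -/
def w1 : SL(2, F) := ⟨!![0, 1; -1, 0], by simp [Matrix.det_fin_two]⟩

theorem coe_w1 : (w1 : SL(2, F)).1 = !![0, 1; -1, 0] := rfl

def w1i : SL(2, F) := ⟨!![0, -1; 1, 0], by simp [Matrix.det_fin_two]⟩

theorem w1_inv : (w1 : SL(2, F))⁻¹ = w1i := by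
  rw [inv_eq_iff_mul_eq_one]
  apply Subtype.ext
  rw [Matrix.SpecialLinearGroup.coe_mul]
  ext i j
  fin_cases i <;> fin_cases j <;> simp [w1, w1i, Matrix.mul_apply, Fin.sum_univ_two]

theorem coe_w1_inv : ((w1 : SL(2, F))⁻¹).1 = !![0, -1; 1, 0] := by
  rw [w1_inv]; rfl

/-- the diagonal elements -/
def dg (c : Fˣ) : SL(2, F) := ⟨!![(c : F), 0; 0, (c⁻¹ : Fˣ)], by simp [Matrix.det_fin_two]⟩

theorem coe_dg (c : Fˣ) : (dg c).1 = !![(c : F), 0; 0, (c⁻¹ : Fˣ)] := rfl

theorem dg_mul (c d : Fˣ) : dg (c * d) = dg c * dg d := by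
  apply Subtype.ext
  rw [Matrix.SpecialLinearGroup.coe_mul, coe_dg, coe_dg, coe_dg]
  ext i j
  fin_cases i <;> fin_cases j <;> simp [Matrix.mul_apply, Fin.sum_univ_two, mul_comm]

theorem dg_one : dg (1 : Fˣ) = 1 := by
  apply Subtype.ext
  rw [coe_dg]
  ext i j
  fin_cases i <;> fin_cases j <;> simp

theorem dg_inv (c : Fˣ) : (dg c)⁻¹ = dg c⁻¹ := by
  rw [inv_eq_iff_mul_eq_one, ← dg_mul, mul_inv_cancel, dg_one]

/-- the Gauss decomposition -/
theorem gauss (t : Fˣ) : E (t : F) * w1 = E' ((t⁻¹ : Fˣ) : F) * dg (-t) * E (-((t⁻¹ : Fˣ) : F)) := by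
  apply Subtype.ext
  simp only [Matrix.SpecialLinearGroup.coe_mul, coe_E, coe_E', coe_w1, coe_dg]
  ext i j
  fin_cases i <;> fin_cases j <;> simp [Matrix.mul_apply, Fin.sum_univ_two]

def twf (a : Fˣ) (M : SL(2, F)) : SL(2, F) := ⟨!![M.1 0 0, M.1 0 1 * (a⁻¹ : Fˣ); a * M.1 1 0, M.1 1 1], by
    have := M.2
    rw [Matrix.det_fin_two] at this
    rw [Matrix.det_fin_two_of]
    have h := a.mul_inv
    linear_combination this - (M.1 0 1 * M.1 1 0) * h⟩

theorem coe_twf (a : Fˣ) (M : SL(2, F)) : (twf a M).1 = !![M.1 0 0, M.1 0 1 * (a⁻¹ : Fˣ); a * M.1 1 0, M.1 1 1] := rfl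

/-- conjugation by a diagonal matrix `diag(1, a)` -/
def tw (a : Fˣ) : SL(2, F) →* SL(2, F) where
  toFun M := twf a M
  map_one' := by
    apply Subtype.ext
    rw [coe_twf]
    ext i j
    fin_cases i <;> fin_cases j <;> simp
  map_mul' M M' := by
    apply Subtype.ext
    have h := a.mul_inv
    rw [Matrix.SpecialLinearGroup.coe_mul, coe_twf, coe_twf, coe_twf, Matrix.SpecialLinearGroup.coe_mul]
    ext i j
    fin_cases i <;> fin_cases j <;> simp [Matrix.mul_apply, Fin.sum_univ_two]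
    · field_simp
    · field_simp
    · ring
    · field_simp

theorem coe_tw (a : Fˣ) (M : SL(2, F)) : (tw a M).1 = !![M.1 0 0, M.1 0 1 * (a⁻¹ : Fˣ); a * M.1 1 0, M.1 1 1] := rfl

/-- the nonscalar matrices -/
def NS (M : Matrix (Fin 2) (Fin 2) F) : Prop := M 1 0 ≠ 0 ∨ M 0 1 ≠ 0 ∨ M 0 0 ≠ M 1 1

theorem exists_lower {M : Matrix (Fin 2) (Fin 2) F} (h : NS M) : ∃ R : SL(2, F), (R.1 * M * (R⁻¹).1) 1 0 ≠ 0 := by
  by_cases h1 : M 1 0 = 0
  · by_cases h2 : M 0 1 = 0
    · have h3 : M 0 0 ≠ M 1 1 := by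
        rcases h with h | h | h
        · exact absurd h1 h
        · exact absurd h2 h
        · exact h
      refine ⟨E' 1, ?_⟩
      have e : (E' (1 : F))⁻¹ = E' (-1) := by
        rw [inv_eq_iff_mul_eq_one]
        apply Subtype.ext
        ext i j
        fin_cases i <;> fin_cases j <;> simp [Matrix.mul_apply, Fin.sum_univ_two]
      rw [e]
      simp only [coe_E', Matrix.mul_apply, Fin.sum_univ_two]
      simp [h1]
      intro h4
      apply h3
      linear_combination h4 + h2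
    · refine ⟨w1, ?_⟩
      rw [coe_w1_inv, coe_w1]
      simp only [Matrix.mul_apply, Fin.sum_univ_two]
      simp [h2]
  · refine ⟨1, ?_⟩
    simpa using h1

theorem prod_ns [Fintype F] {τ : F} (h : Irr τ) {M : Matrix (Fin 2) (Fin 2) F} (hd : M.det = 1) (hM : NS M)
    (ht : M.trace ≠ -2) : ∃ A B : Matrix (Fin 2) (Fin 2) F, Ell τ A ∧ Ell τ B ∧ A * B = M := by
  obtain ⟨R, hR⟩ := exists_lower hM
  have hd' := det_conj R M
  rw [hd, Matrix.det_fin_two] at hd'
  have ht' := trace_conj R M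
  rw [Matrix.trace_fin_two] at ht'
  obtain ⟨A, B, hA, hB, hAB⟩ := prod_aux h hd' hR (by rw [ht']; exact ht)
  refine ⟨(R⁻¹).1 * A * R.1, (R⁻¹).1 * B * R.1, ?_, ?_, ?_⟩
  · have := ell_conj R⁻¹ hA
    rwa [inv_inv] at this
  · have := ell_conj R⁻¹ hB
    rwa [inv_inv] at this
  · calc (R⁻¹).1 * A * R.1 * ((R⁻¹).1 * B * R.1) = (R⁻¹).1 * A * (R.1 * (R⁻¹).1) * B * R.1 := by
          simp only [Matrix.mul_assoc]
      _ = (R⁻¹).1 * (A * B) * R.1 := by rw [sl_mul_inv, Matrix.mul_one]; simp only [Matrix.mul_assoc]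
      _ = (R⁻¹).1 * (R.1 * M * (R⁻¹).1) * R.1 := by rw [hAB]
      _ = ((R⁻¹).1 * R.1) * M * ((R⁻¹).1 * R.1) := by simp only [Matrix.mul_assoc]
      _ = M := by rw [sl_inv_mul, Matrix.one_mul, Matrix.mul_one]

/-- the inverse -/
def ai (A : Matrix (Fin 2) (Fin 2) F) : Matrix (Fin 2) (Fin 2) F := !![A 1 1, -A 0 1; -A 1 0, A 0 0]

theorem ell_ai {τ : F} {A : Matrix (Fin 2) (Fin 2) F} (h : Ell τ A) : Ell τ (ai A) := by
  obtain ⟨h1, h2⟩ := h
  refine ⟨?_, ?_⟩
  · simp [ai]; rw [add_comm]; exact h1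
  · simp [ai]; linear_combination h2

theorem mul_ai {τ : F} {A : Matrix (Fin 2) (Fin 2) F} (h : Ell τ A) : A * ai A = -1 := by
  obtain ⟨h1, h2⟩ := h
  ext i j
  fin_cases i <;> fin_cases j <;> simp [ai, Matrix.mul_apply, Fin.sum_univ_two]
  · linear_combination h2
  · ring
  · ring
  · linear_combination h2

/-- there are such matrices -/
theorem exists_ell (τ : F) : ∃ A : Matrix (Fin 2) (Fin 2) F, Ell τ A :=
  ⟨!![0, 1; 1, τ], by simp [Ell]⟩

/-- `-AB` -/
theorem prod_neg [Fintype F] {τ : F} (h : Irr τ) {M : Matrix (Fin 2) (Fin 2) F} (hd : M.det = 1)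
    (hM : M = 1 ∨ M.trace ≠ 2 ∧ NS M) : ∃ A B : Matrix (Fin 2) (Fin 2) F, Ell τ A ∧ Ell τ B ∧ -(A * B) = M := by
  rcases hM with rfl | ⟨ht, hM⟩
  · obtain ⟨A, hA⟩ := exists_ell τ
    exact ⟨A, ai A, hA, ell_ai hA, by rw [mul_ai hA, neg_neg]⟩
  · obtain ⟨A, B, hA, hB, hAB⟩ := prod_ns h (M := -M) (by rw [Matrix.det_neg]; simp [hd])
      (by
        rcases hM with h | h | h
        · exact Or.inl (by simpa using h)
        · exact Or.inr (Or.inl (by simpa using h))
        · exact Or.inr (Or.inr (by simpa using h)))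
      (by rw [Matrix.trace_neg]; intro h0; exact ht (neg_injective h0))
    exact ⟨A, B, hA, hB, by rw [hAB, neg_neg]⟩

theorem scalar_of {M : Matrix (Fin 2) (Fin 2) F} (h : ¬ NS M) : M = M 0 0 • (1 : Matrix (Fin 2) (Fin 2) F) := by
  unfold NS at h
  push Not at h
  obtain ⟨h1, h2, h3⟩ := h
  ext i j
  fin_cases i <;> fin_cases j <;> simp [h1, h2, h3]

/-- every element, in odd characteristic -/
theorem prod_odd [Fintype F] {τ : F} (h : Irr τ) (h2 : (2 : F) ≠ 0) {M : Matrix (Fin 2) (Fin 2) F} (hd : M.det = 1) :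
    ∃ A B : Matrix (Fin 2) (Fin 2) F, Ell τ A ∧ Ell τ B ∧ (-(A * B) = M ∨ A * B = M) := by
  by_cases hM : NS M
  · by_cases ht : M.trace = 2
    · obtain ⟨A, B, hA, hB, hAB⟩ := prod_ns h hd hM (by
        rw [ht]; intro h0
        have h4 : (2 : F) * 2 = 0 := by linear_combination h0
        exact h2 (mul_self_eq_zero.mp h4))
      exact ⟨A, B, hA, hB, Or.inr hAB⟩
    · obtain ⟨A, B, hA, hB, hAB⟩ := prod_neg h hd (Or.inr ⟨ht, hM⟩)
      exact ⟨A, B, hA, hB, Or.inl hAB⟩
  · have h1 := scalar_of hM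
    rw [h1, Matrix.det_smul, Matrix.det_one] at hd
    simp at hd
    obtain ⟨A, hA⟩ := exists_ell τ
    rcases hd with h3 | h3
    · refine ⟨A, ai A, hA, ell_ai hA, Or.inl ?_⟩
      rw [mul_ai hA, h1, h3]; simp
    · refine ⟨A, ai A, hA, ell_ai hA, Or.inr ?_⟩
      rw [mul_ai hA, h1, h3]; simp

theorem ell_sq {τ : F} {A : Matrix (Fin 2) (Fin 2) F} (h : Ell τ A) : A * A = τ • A + 1 := by
  obtain ⟨h1, h2⟩ := h
  ext i j
  fin_cases i <;> fin_cases j <;> simp [Matrix.mul_apply, Fin.sum_univ_two]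
  · linear_combination A 0 0 * h1 - h2
  · linear_combination A 0 1 * h1
  · linear_combination A 1 0 * h1
  · linear_combination A 1 1 * h1 - h2

/-- the norm -/
theorem pow_ell [Fintype F] {τ : F} (h : Irr τ) {A : Matrix (Fin 2) (Fin 2) F} (hA : Ell τ A) :
    A ^ (Fintype.card F + 1) = -1 := by
  classical
  set f : Polynomial F := Polynomial.X ^ 2 - Polynomial.C τ * Polynomial.X - 1 with hf
  have hf' : f = Polynomial.C 1 * Polynomial.X ^ 2 + Polynomial.C (-τ) * Polynomial.X + Polynomial.C (-1) := by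
    rw [hf]; simp; ring
  have hdeg : f.natDegree = 2 := by rw [hf']; exact Polynomial.natDegree_quadratic one_ne_zero
  have hmon : f.Monic := by
    rw [Polynomial.Monic, hf', Polynomial.leadingCoeff_quadratic one_ne_zero]
  have hev : ∀ r : F, f.eval r = r * r - τ * r - 1 := by
    intro r; rw [hf]; simp; ring
  have hirr : Irreducible f := by
    rw [hmon.irreducible_iff_roots_eq_zero_of_degree_le_three (by omega) (by omega)]
    rw [Multiset.eq_zero_iff_forall_notMem]
    intro r hr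
    have h1 := Polynomial.isRoot_of_mem_roots hr
    rw [Polynomial.IsRoot, hev] at h1
    exact h r h1
  haveI : Fact (Irreducible f) := ⟨hirr⟩
  set θ : AdjoinRoot f := AdjoinRoot.root f with hθ
  have hθ2 : θ * θ - AdjoinRoot.of f τ * θ - 1 = 0 := by
    have h1 := AdjoinRoot.eval₂_root f
    rw [hf] at h1
    simp only [Polynomial.eval₂_sub, Polynomial.eval₂_pow, Polynomial.eval₂_X, Polynomial.eval₂_mul,
      Polynomial.eval₂_C, Polynomial.eval₂_one] at h1
    rw [← h1]; rw [← hθ]; ring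
  let φ := FiniteField.frobeniusAlgHom F (AdjoinRoot f)
  have hφ : φ θ = θ ^ Fintype.card F := rfl
  have h3 : φ θ * φ θ - AdjoinRoot.of f τ * φ θ - 1 = 0 := by
    have h4 := congrArg φ hθ2
    rw [map_sub, map_sub, map_mul, map_mul, map_one, map_zero] at h4
    have h5 : φ (AdjoinRoot.of f τ) = AdjoinRoot.of f τ := φ.commutes τ
    rwa [h5] at h4
  have h4 : (φ θ - θ) * (φ θ + θ - AdjoinRoot.of f τ) = 0 := by linear_combination h3 - hθ2
  have h5 : φ θ ≠ θ := by
    intro h6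
    rw [hφ] at h6
    have h7 : (Polynomial.X ^ Fintype.card F - Polynomial.X : Polynomial F) = ∏ a : F, (Polynomial.X - Polynomial.C a) := by
      have hq1 := Fintype.one_lt_card (α := F)
      have hm : (Polynomial.X ^ Fintype.card F - Polynomial.X : Polynomial F).Monic :=
        Polynomial.monic_X_pow_sub (by rw [Polynomial.degree_X]; exact_mod_cast hq1)
      have h8 := Polynomial.prod_multiset_X_sub_C_of_monic_of_roots_card_eq hm (by
        rw [FiniteField.roots_X_pow_card_sub_X, FiniteField.X_pow_card_sub_X_natDegree_eq F hq1]; rfl)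
      rw [FiniteField.roots_X_pow_card_sub_X] at h8
      exact h8.symm
    have h8 := congrArg (Polynomial.aeval θ) h7
    rw [map_sub, map_pow, Polynomial.aeval_X, h6, sub_self, map_prod] at h8
    obtain ⟨a, -, ha⟩ := Finset.prod_eq_zero_iff.mp h8.symm
    rw [map_sub, Polynomial.aeval_X, Polynomial.aeval_C, sub_eq_zero] at ha
    have h9 : AdjoinRoot.of f (a * a - τ * a - 1) = 0 := by
      rw [map_sub, map_sub, map_mul, map_mul, map_one]
      have : AdjoinRoot.of f a = θ := ha.symm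
      rw [this]; exact hθ2
    exact h a ((map_eq_zero (AdjoinRoot.of f)).mp h9)
  have h6 : φ θ = AdjoinRoot.of f τ - θ := by
    rcases mul_eq_zero.mp h4 with h7 | h7
    · exact absurd (sub_eq_zero.mp h7) h5
    · linear_combination h7
  have h7 : θ ^ (Fintype.card F + 1) + 1 = 0 := by
    rw [pow_succ, ← hφ, h6]
    linear_combination (-1) * hθ2
  have h8 : f ∣ Polynomial.X ^ (Fintype.card F + 1) + 1 := by
    rw [← AdjoinRoot.mk_eq_zero, map_add, map_pow, AdjoinRoot.mk_X, map_one]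
    exact h7
  obtain ⟨g, hg⟩ := h8
  have h9 := congrArg (Polynomial.aeval A) hg
  rw [map_add, map_pow, Polynomial.aeval_X, map_one, map_mul] at h9
  have h10 : Polynomial.aeval A f = 0 := by
    rw [hf]
    simp only [map_sub, map_pow, Polynomial.aeval_X, map_mul, Polynomial.aeval_C, map_one]
    rw [pow_two, ell_sq hA, Algebra.algebraMap_eq_smul_one, smul_mul_assoc, one_mul]
    abel
  rw [h10, zero_mul] at h9
  exact eq_neg_of_add_eq_zero_left h9

/-- involutions of `SL₂`, in characteristic two -/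
theorem conj_unip [Fintype F] (h2 : (2 : F) = 0) {M B : SL(2, F)} (hM : M.1.trace = 0) (hM1 : M ≠ 1)
    (hB : B.1.trace = 0) (hB1 : B.1 1 0 ≠ 0) : ∃ P : SL(2, F), P * M * P⁻¹ = B := by
  have hns : NS M.1 := by
    by_contra h
    unfold NS at h
    push Not at h
    obtain ⟨h3, h4, h5⟩ := h
    have hd := M.2
    rw [Matrix.det_fin_two, h3, h4, h5] at hd
    have h6 : M.1 1 1 = 1 := by
      have h7 : (M.1 1 1 - 1) ^ 2 = 0 := by linear_combination hd + (1 - M.1 1 1) * h2
      exact sub_eq_zero.mp (pow_eq_zero_iff (two_ne_zero) |>.mp h7)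
    apply hM1
    apply Subtype.ext
    ext i j
    fin_cases i <;> fin_cases j <;> simp [h3, h4, h5, h6]
  obtain ⟨R, hR⟩ := exists_lower hns
  have ht := trace_conj R M.1
  have hd := det_conj R M.1
  rw [hM, Matrix.trace_fin_two] at ht
  rw [M.2, Matrix.det_fin_two] at hd
  have hBt := hB
  have hBd := B.2
  rw [Matrix.trace_fin_two] at hBt
  rw [Matrix.det_fin_two] at hBd
  obtain ⟨r, hr⟩ := sqrt2 h2 ((R.1 * M.1 * (R⁻¹).1) 1 0 / B.1 1 0)
  obtain ⟨P, hP⟩ := cyc (A := R.1 * M.1 * (R⁻¹).1) (B := B.1) (ht.trans hBt.symm) (hd.trans hBd.symm) hR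
    (v := r) (w := 0) (by rw [hr]; field_simp; ring)
  refine ⟨P * R, ?_⟩
  have h3 : P * (R * M * R⁻¹) = B * P := by
    apply Subtype.ext
    simp only [Matrix.SpecialLinearGroup.coe_mul]
    exact hP
  calc P * R * M * (P * R)⁻¹ = P * (R * M * R⁻¹) * P⁻¹ := by group
    _ = B := by rw [h3]; group

/-- a free parameter -/
theorem exists_good (h2 : (2 : F) = 0) (M : SL(2, F)) : ∃ p : F, (E p * M).1 = 1 ∨ (E p * M).1.trace ≠ 2 ∧ NS (E p * M).1 := by
  have e : ∀ p : F, (E p * M).1 = !![M.1 0 0 + p * M.1 1 0, M.1 0 1 + p * M.1 1 1; M.1 1 0, M.1 1 1] := by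
    intro p
    rw [Matrix.SpecialLinearGroup.coe_mul, coe_E]
    ext i j
    fin_cases i <;> fin_cases j <;> simp [Matrix.mul_apply, Fin.sum_univ_two]
  have hd := M.2
  rw [Matrix.det_fin_two] at hd
  by_cases hc : M.1 1 0 = 0
  · by_cases ha : M.1 0 0 = 1
    · refine ⟨-M.1 0 1, Or.inl ?_⟩
      rw [hc, ha] at hd
      rw [e, hc, ha]
      have h3 : M.1 1 1 = 1 := by linear_combination hd
      rw [h3]
      ext i j
      fin_cases i <;> fin_cases j <;> simp
    · refine ⟨0, Or.inr ?_⟩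
      have h4 : M.1 0 0 ≠ M.1 1 1 := by
        intro h3
        rw [hc, ← h3] at hd
        apply ha
        have h7 : (M.1 0 0 - 1) ^ 2 = 0 := by linear_combination hd + (1 - M.1 0 0) * h2
        exact sub_eq_zero.mp (pow_eq_zero_iff (two_ne_zero) |>.mp h7)
      rw [e, Matrix.trace_fin_two]
      refine ⟨?_, Or.inr (Or.inr ?_)⟩
      · intro h3
        apply h4
        have h5 : M.1 0 0 + 0 * M.1 1 0 + M.1 1 1 = 2 := h3
        linear_combination h5 + (1 - M.1 1 1) * h2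
      · simpa using h4
  · refine ⟨(1 - M.1 0 0 - M.1 1 1) / M.1 1 0, Or.inr ?_⟩
    rw [e, Matrix.trace_fin_two]
    refine ⟨?_, Or.inl ?_⟩
    · simp
      field_simp
      intro h3
      exact one_ne_zero (α := F) (by linear_combination h3 + h2)
    · simpa using hc

theorem tw_E (a : Fˣ) (p : F) : tw a (E p) = E (p * (a⁻¹ : Fˣ)) := by
  apply Subtype.ext
  show (twf a (E p)).1 = _
  rw [coe_twf]
  ext i j
  fin_cases i <;> fin_cases j <;> simp

end Cfsg.Agent.Lib.TrMat
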