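import Cfsg.Agent.Lib.MinTD4C
import Cfsg.Agent.Lib.SftOpp
import Cfsg.Agent.Lib.SftFam
import Cfsg.Agent.Lib.ChevSL2
import Cfsg.Agent.Lib.TrMat
set_option autoImplicit false
set_option linter.unusedSectionVars false
set_option linter.unusedVariables false

/-!
The groups 3D4(q): rank one subgroups and the Levi subgroup of a maximal parabolic (helper44).
-/

namespace Cfsg.Agent.Lib.Tr
open Cfsg.Lie Cfsg.Agent.Lib.ChevX Cfsg.Agent.Lib.ChevGood Cfsg.Agent.Lib.ChevRel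
open Cfsg.Agent.Lib.ChevNPerm hiding nn
open
  Cfsg.Agent.Lib.ChevBruhat Cfsg.Agent.Lib.TwFix Cfsg.Agent.Lib.TwTab Cfsg.Agent.Lib.SL2Pres Cfsg.Agent.Lib.ChevSL2
  Cfsg.Agent.Lib.TrMat
open Cfsg.Agent.Lib.ChevClosed hiding pr
open scoped MatrixGroups Matrix

section hom
variable {F Γ : Type*} [Field F] [Group Γ]

theorem hom_mem {φ : SL(2, F) →* Γ} {S : Subgroup Γ} (h1 : ∀ t, φ (E t) ∈ S) (h2 : ∀ t, φ (E' t) ∈ S) (g : SL(2, F)) :
    φ g ∈ S := by
  have h : (⊤ : Subgroup SL(2, F)) ≤ S.comap φ := by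
    rw [← closure_SL2, Subgroup.closure_le]
    rintro x (⟨t, rfl⟩ | ⟨t, rfl⟩)
    · exact h1 t
    · exact h2 t
  exact h (Subgroup.mem_top g)

theorem hom_comm {φ : SL(2, F) →* Γ} {y : Γ} (h1 : ∀ t, Commute (φ (E t)) y) (h2 : ∀ t, Commute (φ (E' t)) y)
    (g : SL(2, F)) : Commute (φ g) y := by
  have := hom_mem (φ := φ) (S := Subgroup.centralizer {y}) (fun t => by
    rw [Subgroup.mem_centralizer_singleton_iff]; exact (h1 t).eq) (fun t => by
    rw [Subgroup.mem_centralizer_singleton_iff]; exact (h2 t).eq) g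
  rw [Subgroup.mem_centralizer_singleton_iff] at this
  exact this

theorem hom_ext {φ ψ : SL(2, F) →* Γ} (h1 : ∀ t, φ (E t) = ψ (E t)) (h2 : ∀ t, φ (E' t) = ψ (E' t)) : φ = ψ := by
  apply MonoidHom.eq_of_eqOn_dense (s := Set.range (E : F → SL(2, F)) ∪ Set.range E') closure_SL2
  rintro x (⟨t, rfl⟩ | ⟨t, rfl⟩)
  · exact h1 t
  · exact h2 t

end hom

/-- sets of roots -/
def RS (l : List ℕ) : Set (Fin chevD4.nroots) := {r | (r : ℕ) ∈ l}

noncomputable abbrev G : Good chevD4 := TwD4.G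

section free
variable {K : Type*} [Field K]

/-- the subgroup generated by some root subgroups -/
noncomputable abbrev X (K : Type*) [Field K] (l : List ℕ) : Subgroup (GL chevD4.Idx K) := XS chevD4 K (RS l)

theorem X_mono {l1 l2 : List ℕ} (h : ∀ a ∈ l1, a ∈ l2) : X K l1 ≤ X K l2 := XS_mono fun r hr => h r hr

theorem xg_mem {l : List ℕ} {r : ℕ} (hr : r < chevD4.nroots) (h : r ∈ l) (t : K) : xg chevD4 K r t ∈ X K l :=
  xg_mem_XS (A := RS l) (r := ⟨r, hr⟩) h t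

theorem xc {a b : ℕ} (h : 0 ≤ pr chevD4 a b) (ha : a < chevD4.nroots) (hb : b < chevD4.nroots) (t u : K) :
    Commute (xg chevD4 K a t) (xg chevD4 K b u) := by
  have h1 := MinTD4C.ccx (K := K) h ha hb t u
  have h2 := congrArg (Subtype.val) h1.eq
  have e : ∀ r < chevD4.nroots, ∀ t : K, ((MinTD4C.x r t : chevD4.group K) : GL chevD4.Idx K) = xg chevD4 K r t := by
    intro r hr t
    exact UCESys.stdSys_coe MinTD4A.G K hr t
  simp only [Subgroup.coe_mul] at h2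
  rw [e a ha, e b hb] at h2
  exact h2

theorem X_comm {l1 l2 : List ℕ} (h : ∀ a ∈ l1, ∀ b ∈ l2, 0 ≤ pr chevD4 a b) {x y : GL chevD4.Idx K}
    (hx : x ∈ X K l1) (hy : y ∈ X K l2) : Commute x y := by
  have h1 : X K l1 ≤ Subgroup.centralizer (X K l2 : Set (GL chevD4.Idx K)) := by
    apply XS_le
    intro r hr t
    rw [Subgroup.mem_centralizer_iff]
    intro y hy
    have h2 : X K l2 ≤ Subgroup.centralizer {xg chevD4 K r t} := by
      apply XS_le
      intro s hs u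
      rw [Subgroup.mem_centralizer_singleton_iff]
      exact (xc (h r hr s hs) r.2 s.2 t u).eq.symm
    have h3 := h2 hy
    rw [Subgroup.mem_centralizer_singleton_iff] at h3
    exact h3
  have h2 := h1 hx
  rw [Subgroup.mem_centralizer_iff] at h2
  exact (h2 y hy).symm

/-- the rank one homomorphism -/
noncomputable def ph (K : Type*) [Field K] (r : ℕ) (hr : r < chevD4.nroots) : SL(2, K) →* GL chevD4.Idx K :=
  Classical.choose (exists_hom (isR1 G (F := K) hr))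

theorem ph_E {r : ℕ} (hr : r < chevD4.nroots) (t : K) : ph K r hr (E t) = xg chevD4 K r t :=
  (Classical.choose_spec (exists_hom (isR1 G (F := K) hr))).1 t

theorem ph_E' {r : ℕ} (hr : r < chevD4.nroots) (t : K) : ph K r hr (E' t) = xg chevD4 K (chevD4.neg r) t :=
  (Classical.choose_spec (exists_hom (isR1 G (F := K) hr))).2.1 t

theorem ph_nn {r : ℕ} (hr : r < chevD4.nroots) (t : K) : ph K r hr (nn E E' t) = ng chevD4 K r t := by
  unfold SL2Pres.nn ng
  rw [map_mul, map_mul, ph_E, ph_E']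

theorem ph_hh {r : ℕ} (hr : r < chevD4.nroots) (t : K) : ph K r hr (hh E E' t) = hg chevD4 K r t := by
  unfold hh hg
  rw [map_mul, ph_nn, ph_nn]

theorem dg_eq (c : Kˣ) : dg c = hh E E' (c : K) := by
  apply Subtype.ext
  rw [coe_hh c.ne_zero, coe_dg, Units.val_inv_eq_inv_val]

theorem w1_eq : (w1 : SL(2, K)) = nn E E' (1 : K) := by
  apply Subtype.ext
  rw [coe_nn one_ne_zero, coe_w1, inv_one]

theorem ph_mem {r : ℕ} (hr : r < chevD4.nroots) {l : List ℕ} (h1 : r ∈ l) (h2 : chevD4.neg r ∈ l)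
    (h3 : chevD4.neg r < chevD4.nroots) (g : SL(2, K)) : ph K r hr g ∈ X K l :=
  hom_mem (fun t => by rw [ph_E]; exact xg_mem hr h1 t) (fun t => by rw [ph_E']; exact xg_mem h3 h2 t) g

end free

section main
variable {K : Type*} [Field K] [Fintype K] {q : ℕ} (hq : IsPrimePow q) (hK : Fintype.card K = q ^ 3)

/-- the fixed points -/
noncomputable abbrev fx : Subgroup (GL chevD4.Idx K) := (TwD4.T hq hK).fix

theorem gh_fix {g : chevD4.group K} (h : g ∈ MinTD4C.Gh hq hK) : (g : GL chevD4.Idx K) ∈ fx hq hK := by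
  refine ⟨g.2, ?_⟩
  rw [(TwD4.T hq hK).s_eq g.2]
  exact congrArg Subtype.val h

theorem coe_x {r : ℕ} (hr : r < chevD4.nroots) (t : K) :
    ((MinTD4C.x r t : chevD4.group K) : GL chevD4.Idx K) = xg chevD4 K r t := UCESys.stdSys_coe MinTD4A.G K hr t

theorem fx14 {u : K} (hu : u ^ q = u) : xg chevD4 K 14 u ∈ fx hq hK := by
  rw [← coe_x (by decide)]
  exact gh_fix hq hK (MinTD4C.xl_mem hq hK (by decide) hu)

theorem fx9 {u : K} (hu : u ^ q = u) : xg chevD4 K 9 u ∈ fx hq hK := by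
  rw [← coe_x (by decide)]
  exact gh_fix hq hK (MinTD4C.xl_mem hq hK (by decide) hu)

/-- the Frobenius -/
noncomputable def fr : SL(2, K) →* SL(2, K) := Matrix.SpecialLinearGroup.map (TwD4.frob hq hK : K →+* K)

theorem fr_E (t : K) : fr hq hK (E t) = E (t ^ q) := by
  apply Subtype.ext
  unfold fr
  ext i j
  rw [Matrix.SpecialLinearGroup.map_apply_coe]
  fin_cases i <;> fin_cases j <;> simp [TwD4.frob_eq, hq.pos.ne']

theorem fr_E' (t : K) : fr hq hK (E' t) = E' (t ^ q) := by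
  apply Subtype.ext
  unfold fr
  ext i j
  rw [Matrix.SpecialLinearGroup.map_apply_coe]
  fin_cases i <;> fin_cases j <;> simp [TwD4.frob_eq, hq.pos.ne']

theorem mul3 {Γ : Type*} [Group Γ] {a1 a2 a3 b1 b2 b3 : Γ} (h1 : b1 * a2 = a2 * b1) (h2 : b1 * a3 = a3 * b1)
    (h3 : b2 * a3 = a3 * b2) : a1 * b1 * (a2 * b2) * (a3 * b3) = a1 * a2 * a3 * (b1 * b2 * b3) := by
  calc a1 * b1 * (a2 * b2) * (a3 * b3) = a1 * (b1 * a2) * (b2 * a3) * b3 := by group
    _ = a1 * a2 * (b1 * a3) * b2 * b3 := by rw [h1, h3]; group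
    _ = _ := by rw [h2]; group

theorem neg18 : chevD4.neg 18 = 5 := by decide +kernel
theorem neg13 : chevD4.neg 13 = 10 := by decide +kernel
theorem neg12 : chevD4.neg 12 = 11 := by decide +kernel
theorem neg14 : chevD4.neg 14 = 9 := by decide +kernel

theorem m18 (g : SL(2, K)) : ph K 18 (by decide) g ∈ X K [18, 5] :=
  ph_mem _ (by simp) (by rw [neg18]; simp) (by rw [neg18]; decide) g
theorem m13 (g : SL(2, K)) : ph K 13 (by decide) g ∈ X K [13, 10] :=
  ph_mem _ (by simp) (by rw [neg13]; simp) (by rw [neg13]; decide) g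
theorem m12 (g : SL(2, K)) : ph K 12 (by decide) g ∈ X K [12, 11] :=
  ph_mem _ (by simp) (by rw [neg12]; simp) (by rw [neg12]; decide) g
theorem m14 (g : SL(2, K)) : ph K 14 (by decide) g ∈ X K [14, 9] :=
  ph_mem _ (by simp) (by rw [neg14]; simp) (by rw [neg14]; decide) g

theorem c1813 (g g' : SL(2, K)) : Commute (ph K 18 (by decide) g) (ph K 13 (by decide) g') :=
  X_comm (by decide +kernel) (m18 g) (m13 g')
theorem c1812 (g g' : SL(2, K)) : Commute (ph K 18 (by decide) g) (ph K 12 (by decide) g') :=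
  X_comm (by decide +kernel) (m18 g) (m12 g')
theorem c1312 (g g' : SL(2, K)) : Commute (ph K 13 (by decide) g) (ph K 12 (by decide) g') :=
  X_comm (by decide +kernel) (m13 g) (m12 g')

/-- the short root group -/
noncomputable def Pa : SL(2, K) →* GL chevD4.Idx K where
  toFun g := ph K 18 (by decide) g * ph K 13 (by decide) (fr hq hK g) * ph K 12 (by decide) (fr hq hK (fr hq hK g))
  map_one' := by simp
  map_mul' a b := by
    rw [map_mul, map_mul, map_mul, map_mul, map_mul]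
    exact mul3 (c1813 b (fr hq hK a)).eq (c1812 b (fr hq hK (fr hq hK a))).eq (c1312 (fr hq hK b) (fr hq hK (fr hq hK a))).eq

theorem Pa_apply (g : SL(2, K)) : Pa hq hK g =
    ph K 18 (by decide) g * ph K 13 (by decide) (fr hq hK g) * ph K 12 (by decide) (fr hq hK (fr hq hK g)) := rfl

theorem Pa_E (t : K) : Pa hq hK (E t) = xg chevD4 K 18 t * xg chevD4 K 13 (t ^ q) * xg chevD4 K 12 ((t ^ q) ^ q) := by
  rw [Pa_apply, fr_E, fr_E, ph_E, ph_E, ph_E]

theorem Pa_E' (t : K) : Pa hq hK (E' t) = xg chevD4 K 5 t * xg chevD4 K 10 (t ^ q) * xg chevD4 K 11 ((t ^ q) ^ q) := by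
  rw [Pa_apply, fr_E', fr_E', ph_E', ph_E', ph_E', neg18, neg13, neg12]

theorem Pa_mem (g : SL(2, K)) : Pa hq hK g ∈ X K [18, 13, 12, 5, 10, 11] := by
  rw [Pa_apply]
  refine mul_mem (mul_mem ?_ ?_) ?_
  · exact X_mono (by decide) (m18 g)
  · exact X_mono (by decide) (m13 _)
  · exact X_mono (by decide) (m12 _)

theorem y_mem' (t : K) : MinTD4C.x 5 t * MinTD4C.x 10 (t ^ q) * MinTD4C.x 11 ((t ^ q) ^ q) ∈ MinTD4C.Gh hq hK := by
  rw [MinTD4C.mem_Gh, map_mul, map_mul, MinTD4A.s5, MinTD4A.s10, MinTD4A.s11, MinTD4C.p3 hq hK]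
  simp only [Int.cast_one, one_mul]
  have h1 := MinTD4C.ccx (K := K) (a := 5) (b := 10) (by decide +kernel) (by decide) (by decide) t (t ^ q)
  have h2 := MinTD4C.ccx (K := K) (a := 5) (b := 11) (by decide +kernel) (by decide) (by decide) t ((t ^ q) ^ q)
  rw [← (h1.mul_right h2).eq, mul_assoc]

theorem Pa_fix (g : SL(2, K)) : Pa hq hK g ∈ fx hq hK := by
  refine hom_mem (fun t => ?_) (fun t => ?_) g
  · rw [Pa_E]
    have := gh_fix hq hK (MinTD4C.y_mem hq hK t)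
    simp only [Subgroup.coe_mul] at this
    rw [coe_x (by decide), coe_x (by decide), coe_x (by decide)] at this
    exact this
  · rw [Pa_E']
    have := gh_fix hq hK (y_mem' hq hK t)
    simp only [Subgroup.coe_mul] at this
    rw [coe_x (by decide), coe_x (by decide), coe_x (by decide)] at this
    exact this

/-- the ground field -/
abbrev F0 : Subfield K := MinTD4C.F0 hq hK

/-- the long root group -/
noncomputable def Pb : SL(2, F0 hq hK) →* GL chevD4.Idx K :=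
  (ph K 14 (by decide)).comp (Matrix.SpecialLinearGroup.map (F0 hq hK).subtype)

theorem mapE (t : F0 hq hK) : Matrix.SpecialLinearGroup.map (F0 hq hK).subtype (E t) = E (t : K) := by
  apply Subtype.ext
  ext i j
  rw [Matrix.SpecialLinearGroup.map_apply_coe]
  fin_cases i <;> fin_cases j <;> simp

theorem mapE' (t : F0 hq hK) : Matrix.SpecialLinearGroup.map (F0 hq hK).subtype (E' t) = E' (t : K) := by
  apply Subtype.ext
  ext i j
  rw [Matrix.SpecialLinearGroup.map_apply_coe]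
  fin_cases i <;> fin_cases j <;> simp

theorem Pb_E (t : F0 hq hK) : Pb hq hK (E t) = xg chevD4 K 14 (t : K) := by
  unfold Pb
  rw [MonoidHom.comp_apply, mapE, ph_E]

theorem Pb_E' (t : F0 hq hK) : Pb hq hK (E' t) = xg chevD4 K 9 (t : K) := by
  unfold Pb
  rw [MonoidHom.comp_apply, mapE', ph_E', neg14]

theorem Pb_mem (g : SL(2, F0 hq hK)) : Pb hq hK g ∈ X K [14, 9] := m14 _

theorem Pb_fix (g : SL(2, F0 hq hK)) : Pb hq hK g ∈ fx hq hK :=
  hom_mem (fun t => by rw [Pb_E]; exact fx14 hq hK (MinTD4C.F0_pow hq hK t))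
    (fun t => by rw [Pb_E']; exact fx9 hq hK (MinTD4C.F0_pow hq hK t)) g

/-! ### the torus -/

/-- torus elements -/
noncomputable def h0 (c : Kˣ) : GL chevD4.Idx K := Pa hq hK (dg c)

theorem h0_mul (c d : Kˣ) : h0 hq hK (c * d) = h0 hq hK c * h0 hq hK d := by
  unfold h0
  rw [TrMat.dg_mul, map_mul]

theorem h0_one : h0 hq hK 1 = 1 := by
  unfold h0
  rw [TrMat.dg_one, map_one]

theorem h0_inv (c : Kˣ) : (h0 hq hK c)⁻¹ = h0 hq hK c⁻¹ := by
  unfold h0
  rw [← map_inv, dg_inv]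

theorem fr_dg (c : Kˣ) : fr hq hK (dg c) = dg (c ^ q) := by
  apply Subtype.ext
  unfold fr
  ext i j
  rw [Matrix.SpecialLinearGroup.map_apply_coe]
  fin_cases i <;> fin_cases j <;> simp [TwD4.frob_eq, coe_dg, hq.pos.ne']

theorem ph_dg {r : ℕ} (hr : r < chevD4.nroots) (c : Kˣ) : ph K r hr (dg c) = hg chevD4 K r (c : K) := by
  rw [dg_eq, ph_hh]

theorem h0_eq (c : Kˣ) : h0 hq hK c = hg chevD4 K 18 (c : K) * hg chevD4 K 13 ((c : K) ^ q) *
    hg chevD4 K 12 (((c : K) ^ q) ^ q) := by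
  unfold h0
  rw [Pa_apply, fr_dg, fr_dg, ph_dg, ph_dg, ph_dg]
  simp only [Units.val_pow_eq_pow_val]

/-- the character -/
noncomputable def chi (q : ℕ) (c : K) (s : ℕ) : K :=
  c ^ (pr chevD4 18 s) * (c ^ q) ^ (pr chevD4 13 s) * ((c ^ q) ^ q) ^ (pr chevD4 12 s)

theorem h0_conj (c : Kˣ) {s : ℕ} (hs : s < chevD4.nroots) (t : K) :
    h0 hq hK c * xg chevD4 K s t * (h0 hq hK c)⁻¹ = xg chevD4 K s (chi q (c : K) s * t) := by
  rw [h0_eq]
  have e1 := hg_conj G (r := 12) (by decide) hs (((c : K) ^ q) ^ q) (pow_ne_zero _ (pow_ne_zero _ c.ne_zero)) t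
  have e2 := hg_conj G (r := 13) (by decide) hs ((c : K) ^ q) (pow_ne_zero _ c.ne_zero) ((((c : K) ^ q) ^ q) ^ (pr chevD4 12 s) * t)
  have e3 := hg_conj G (r := 18) (by decide) hs (c : K) c.ne_zero
    (((c : K) ^ q) ^ (pr chevD4 13 s) * ((((c : K) ^ q) ^ q) ^ (pr chevD4 12 s) * t))
  change _ = xg chevD4 K s ((((c : K) ^ q) ^ q) ^ (pr chevD4 12 s) * t) at e1
  change _ = xg chevD4 K s (((c : K) ^ q) ^ (pr chevD4 13 s) * _) at e2
  change _ = xg chevD4 K s ((c : K) ^ (pr chevD4 18 s) * _) at e3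
  have e4 : ∀ a b c x : GL chevD4.Idx K, a * b * c * x * (a * b * c)⁻¹ = a * (b * (c * x * c⁻¹) * b⁻¹) * a⁻¹ := by
    intro a b c x; group
  rw [e4, e1, e2, e3]
  unfold chi
  congr 1
  ring

theorem p14 : pr chevD4 18 14 = -1 ∧ pr chevD4 13 14 = -1 ∧ pr chevD4 12 14 = -1 := by decide +kernel
theorem p9 : pr chevD4 18 9 = 1 ∧ pr chevD4 13 9 = 1 ∧ pr chevD4 12 9 = 1 := by decide +kernel

/-- the norm -/
noncomputable def nmu (c : Kˣ) : (F0 hq hK)ˣ :=
  Units.mk0 (MinTD4C.nm hq hK (c : K)) (by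
    intro h
    have h1 : (c : K) * (c : K) ^ q * ((c : K) ^ q) ^ q = 0 := congrArg Subtype.val h
    exact mul_ne_zero (mul_ne_zero c.ne_zero (pow_ne_zero _ c.ne_zero)) (pow_ne_zero _ (pow_ne_zero _ c.ne_zero)) h1)

theorem nmu_val (c : Kˣ) : ((nmu hq hK c : F0 hq hK) : K) = (c : K) * (c : K) ^ q * ((c : K) ^ q) ^ q := rfl

theorem nmu_inv_val (c : Kˣ) : (((nmu hq hK c)⁻¹ : (F0 hq hK)ˣ) : F0 hq hK).1 =
    ((c : K) * (c : K) ^ q * ((c : K) ^ q) ^ q)⁻¹ := by
  rw [Units.val_inv_eq_inv_val]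
  rfl

theorem tw_E' {F : Type*} [Field F] (a : Fˣ) (p : F) : tw a (E' p) = E' (a * p) := by
  apply Subtype.ext
  show (twf a (E' p)).1 = _
  rw [coe_twf]
  ext i j
  fin_cases i <;> fin_cases j <;> simp

theorem h0_Pb (c : Kˣ) (M : SL(2, F0 hq hK)) :
    h0 hq hK c * Pb hq hK M * (h0 hq hK c)⁻¹ = Pb hq hK (tw (nmu hq hK c) M) := by
  have h : (MulAut.conj (h0 hq hK c)).toMonoidHom.comp (Pb hq hK) = (Pb hq hK).comp (tw (nmu hq hK c)) := by
    apply hom_ext
    · intro t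
      show h0 hq hK c * Pb hq hK (E t) * (h0 hq hK c)⁻¹ = Pb hq hK (tw (nmu hq hK c) (E t))
      rw [tw_E, Pb_E, Pb_E, h0_conj hq hK c (by decide)]
      congr 1
      unfold chi
      rw [p14.1, p14.2.1, p14.2.2, Subfield.coe_mul, nmu_inv_val]
      simp only [zpow_neg, zpow_one, mul_inv]
      ring
    · intro t
      show h0 hq hK c * Pb hq hK (E' t) * (h0 hq hK c)⁻¹ = Pb hq hK (tw (nmu hq hK c) (E' t))
      rw [tw_E', Pb_E', Pb_E', h0_conj hq hK c (by decide)]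
      congr 1
      unfold chi
      rw [p9.1, p9.2.1, p9.2.2, Subfield.coe_mul, nmu_val]
      simp only [zpow_one]
  exact DFunLike.congr_fun h M

theorem Pb_dg (u : (F0 hq hK)ˣ) : Pb hq hK (dg u) = hg chevD4 K 14 ((u : F0 hq hK) : K) := by
  have h : Matrix.SpecialLinearGroup.map (F0 hq hK).subtype (dg u) = dg (Units.map (F0 hq hK).subtype.toMonoidHom u) := by
    apply Subtype.ext
    ext i j
    rw [Matrix.SpecialLinearGroup.map_apply_coe]
    fin_cases i <;> fin_cases j <;> simp [coe_dg]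
  unfold Pb
  rw [MonoidHom.comp_apply, h, ph_dg]
  rfl

/-- the fixed diagonal elements -/
theorem exists_h {g : GL chevD4.Idx K} (hg1 : g ∈ chevD4.diagonalSubgroup K ⊓ fx hq hK) :
    ∃ (c : Kˣ) (u : (F0 hq hK)ˣ), g = h0 hq hK c * Pb hq hK (dg u) := by
  obtain ⟨a, b, ha, hb0, hb, rfl⟩ := TwD4.exists_th hq hK hg1
  refine ⟨Units.mk0 a ha, Units.mk0 (⟨b, hb⟩ : F0 hq hK) (fun h => hb0 (congrArg Subtype.val h)), ?_⟩
  have hr : chevD4.rank = 4 := rfl
  have o1 : HOk chevD4 [(0, a), (1, b), (2, a ^ q), (3, a ^ q ^ 2)] := by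
    intro x hx
    simp only [List.mem_cons, List.not_mem_nil, or_false] at hx
    rcases hx with rfl | rfl | rfl | rfl <;> simp [hr, ha, hb0]
  unfold TwD4.th
  rw [TwD4.HP_perm (TwD4.T hq hK) o1 (l' := [(0, a), (2, a ^ q), (3, a ^ q ^ 2), (1, b)]) (by
    refine List.Perm.cons _ ?_
    exact (List.perm_middle (l₁ := [(2, a ^ q), (3, a ^ q ^ 2)]) (l₂ := []) (a := (1, b))).symm)]
  rw [h0_eq, Pb_dg]
  unfold HP
  simp only [List.map_cons, List.map_nil, List.prod_cons, List.prod_nil, mul_one, Units.val_mk0]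
  rw [sq, pow_mul]
  simp only [mul_assoc]
  rfl

/-! ### the Levi subgroup -/

/-- the Levi subgroup -/
noncomputable def L : Subgroup (GL chevD4.Idx K) where
  carrier := {y | ∃ (c : Kˣ) (M : SL(2, F0 hq hK)), y = h0 hq hK c * Pb hq hK M}
  one_mem' := ⟨1, 1, by rw [h0_one, map_one, mul_one]⟩
  mul_mem' := by
    rintro _ _ ⟨c, M, rfl⟩ ⟨d, N, rfl⟩
    refine ⟨c * d, tw (nmu hq hK d⁻¹) M * N, ?_⟩
    rw [map_mul, ← h0_Pb, h0_mul, ← h0_inv]
    group
  inv_mem' := by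
    rintro _ ⟨c, M, rfl⟩
    refine ⟨c⁻¹, tw (nmu hq hK c) M⁻¹, ?_⟩
    rw [← h0_Pb, ← h0_inv, map_inv]
    group

theorem mem_L {y : GL chevD4.Idx K} : y ∈ L hq hK ↔ ∃ (c : Kˣ) (M : SL(2, F0 hq hK)), y = h0 hq hK c * Pb hq hK M := Iff.rfl

theorem h0_mem_L (c : Kˣ) : h0 hq hK c ∈ L hq hK := ⟨c, 1, by rw [map_one, mul_one]⟩

theorem Pb_mem_L (M : SL(2, F0 hq hK)) : Pb hq hK M ∈ L hq hK := ⟨1, M, by rw [h0_one, one_mul]⟩

theorem L_le_fix : L hq hK ≤ fx hq hK := by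
  rintro _ ⟨c, M, rfl⟩
  exact mul_mem (Pa_fix hq hK _) (Pb_fix hq hK _)

theorem H_le_L : chevD4.diagonalSubgroup K ⊓ fx hq hK ≤ L hq hK := by
  intro g hg
  obtain ⟨c, u, rfl⟩ := exists_h hq hK hg
  exact ⟨c, _, rfl⟩

theorem h0_mem_H (c : Kˣ) : h0 hq hK c ∈ chevD4.diagonalSubgroup K := by
  rw [h0_eq]
  exact mul_mem (mul_mem (hg_mem G (by decide) c.ne_zero) (hg_mem G (by decide) (pow_ne_zero _ c.ne_zero)))
    (hg_mem G (by decide) (pow_ne_zero _ (pow_ne_zero _ c.ne_zero)))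

theorem Pb_dg_mem_H (u : (F0 hq hK)ˣ) : Pb hq hK (dg u) ∈ chevD4.diagonalSubgroup K := by
  rw [Pb_dg]
  exact hg_mem G (by decide) (fun h => u.ne_zero (Subtype.ext h))

/-- positive roots different from `14` -/
def lA : List ℕ := [12, 13, 15, 16, 17, 18, 19, 20, 21, 22, 23]
/-- negative roots different from `9` -/
def lB : List ℕ := [0, 1, 2, 3, 4, 5, 6, 7, 8, 10, 11]

/-- stability of a set of roots -/
def stab (r : ℕ) (l : List ℕ) : Prop := ∀ s ∈ l, s ≠ r ∧ s ≠ chevD4.neg r ∧ ∀ c ∈ chevD4.commTerms r s, c.1 ∈ l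

instance (r : ℕ) (l : List ℕ) : Decidable (stab r l) := by unfold stab; infer_instance

omit [Fintype K] in
theorem xg_norm {r : ℕ} (hr : r < chevD4.nroots) {l : List ℕ} (h : stab r l) (t : K) {b : GL chevD4.Idx K}
    (hb : b ∈ X K l) : xg chevD4 K r t * b * (xg chevD4 K r t)⁻¹ ∈ X K l := by
  refine conj_mem_XS G (r := ⟨r, hr⟩) ?_ t hb
  intro s hs
  obtain ⟨h1, h2, h3⟩ := h s hs
  refine ⟨fun hh => h1 (congrArg Fin.val hh), fun hh => h2 (congrArg Fin.val hh), fun c hc _ k hk => ?_⟩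
  show (k : ℕ) ∈ l
  rw [hk]
  exact h3 c hc

/-- the normalizing elements -/
def Nm (l : List ℕ) : Subgroup (GL chevD4.Idx K) where
  carrier := {g | (∀ b ∈ X K l, g * b * g⁻¹ ∈ X K l) ∧ (∀ b ∈ X K l, g⁻¹ * b * g ∈ X K l)}
  one_mem' := ⟨fun b hb => by simpa using hb, fun b hb => by simpa using hb⟩
  mul_mem' := by
    rintro g h ⟨h1, h2⟩ ⟨h3, h4⟩
    refine ⟨fun b hb => ?_, fun b hb => ?_⟩
    · have := h1 _ (h3 b hb)
      convert this using 1
      group
    · have := h4 _ (h2 b hb)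
      convert this using 1
      group
  inv_mem' := by
    rintro g ⟨h1, h2⟩
    exact ⟨fun b hb => by simpa using h2 b hb, fun b hb => by simpa using h1 b hb⟩

theorem xg_Nm {r : ℕ} (hr : r < chevD4.nroots) {l : List ℕ} (h : stab r l) (t : K) : xg chevD4 K r t ∈ Nm (K := K) l := by
  refine ⟨fun b hb => xg_norm hr h t hb, fun b hb => ?_⟩
  have := xg_norm hr h (-t) hb
  rwa [xg_neg G, inv_inv] at this

theorem H_Nm {g : GL chevD4.Idx K} (hg : g ∈ chevD4.diagonalSubgroup K) (l : List ℕ) : g ∈ Nm (K := K) l := by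
  have key : ∀ g ∈ chevD4.diagonalSubgroup K, ∀ b ∈ X K l, g * b * g⁻¹ ∈ X K l := by
    intro g hg b hb
    have := mono_conj_XS G (mono_diag G hg) hb
    rwa [Equiv.Perm.coe_one, Set.image_id] at this
  exact ⟨key g hg, fun b hb => by simpa using key g⁻¹ (inv_mem hg) b hb⟩

theorem st14A : stab 14 lA := by decide +kernel
theorem st9A : stab 9 lA := by decide +kernel
theorem st14B : stab 14 lB := by decide +kernel
theorem st9B : stab 9 lB := by decide +kernel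

theorem Pb_Nm {l : List ℕ} (h1 : stab 14 l) (h2 : stab 9 l) (M : SL(2, F0 hq hK)) : Pb hq hK M ∈ Nm (K := K) l :=
  hom_mem (fun t => by rw [Pb_E]; exact xg_Nm (by decide) h1 _) (fun t => by rw [Pb_E']; exact xg_Nm (by decide) h2 _) M

theorem L_Nm {l : List ℕ} (h1 : stab 14 l) (h2 : stab 9 l) {y : GL chevD4.Idx K} (hy : y ∈ L hq hK) : y ∈ Nm (K := K) l := by
  obtain ⟨c, M, rfl⟩ := hy
  exact mul_mem (H_Nm (h0_mem_H hq hK c) l) (Pb_Nm hq hK h1 h2 M)

/-- the unipotent radical -/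
noncomputable abbrev QA : Subgroup (GL chevD4.Idx K) := X K lA ⊓ fx hq hK
/-- the opposite unipotent radical -/
noncomputable abbrev QB : Subgroup (GL chevD4.Idx K) := X K lB ⊓ fx hq hK

theorem L_QA {y b : GL chevD4.Idx K} (hy : y ∈ L hq hK) (hb : b ∈ QA hq hK) : y * b * y⁻¹ ∈ QA hq hK :=
  ⟨(L_Nm hq hK st14A st9A hy).1 b hb.1, (fx hq hK).mul_mem ((fx hq hK).mul_mem (L_le_fix hq hK hy) hb.2)
    ((fx hq hK).inv_mem (L_le_fix hq hK hy))⟩

theorem L_QB {y b : GL chevD4.Idx K} (hy : y ∈ L hq hK) (hb : b ∈ QB hq hK) : y * b * y⁻¹ ∈ QB hq hK :=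
  ⟨(L_Nm hq hK st14B st9B hy).1 b hb.1, (fx hq hK).mul_mem ((fx hq hK).mul_mem (L_le_fix hq hK hy) hb.2)
    ((fx hq hK).inv_mem (L_le_fix hq hK hy))⟩

/-! ### the Weyl group -/

/-- the fundamental reflections -/
noncomputable abbrev WD := Sft.genG (TwD4.sig hq hK) chk1D4 chk2D4 chk3D4 TwD4.listed (TwD4.sig_e hq hK) TwD4.chkJ

theorem fr_w1 : fr hq hK w1 = w1 := by
  apply Subtype.ext
  unfold fr
  ext i j
  rw [Matrix.SpecialLinearGroup.map_apply_coe]
  fin_cases i <;> fin_cases j <;> simp [coe_w1]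

theorem ph_w1 {r : ℕ} (hr : r < chevD4.nroots) : ph K r hr w1 = ng chevD4 K r 1 := by
  rw [w1_eq, ph_nn]

theorem na_eq : (WD hq hK).nj ⟨0, by decide⟩ = Pa hq hK w1 := by
  rw [Pa_apply, fr_w1, fr_w1, ph_w1, ph_w1, ph_w1]
  have : (WD hq hK).nj ⟨0, by decide⟩ = nl chevD4 K [⟨0, by decide⟩, ⟨2, by decide⟩, ⟨3, by decide⟩] := rfl
  rw [this]
  simp only [nl, List.map_cons, List.map_nil, List.prod_cons, List.prod_nil, mul_one, mul_assoc]
  rfl

theorem nb_eq : (WD hq hK).nj ⟨1, by decide⟩ = Pb hq hK w1 := by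
  have h : Matrix.SpecialLinearGroup.map (F0 hq hK).subtype w1 = w1 := by
    apply Subtype.ext
    ext i j
    rw [Matrix.SpecialLinearGroup.map_apply_coe]
    fin_cases i <;> fin_cases j <;> simp [coe_w1]
  unfold Pb
  rw [MonoidHom.comp_apply, h, ph_w1]
  have : (WD hq hK).nj ⟨1, by decide⟩ = nl chevD4 K [⟨1, by decide⟩] := rfl
  rw [this]
  simp only [nl, List.map_cons, List.map_nil, List.prod_cons, List.prod_nil, mul_one]
  rfl

end main

end Cfsg.Agent.Lib.Tr
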