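import Cfsg.Agent.Lib.TrCent
set_option autoImplicit false
set_option linter.unusedSectionVars false
set_option linter.unusedVariables false

/-!
The groups 3D4(q): every non-identity element is a product of two conjugates of a semisimple element (helper44).
-/

namespace Cfsg.Agent.Lib.Tr
open Cfsg.Lie Cfsg.Agent.Lib.ChevX Cfsg.Agent.Lib.ChevGood Cfsg.Agent.Lib.ChevRel
open Cfsg.Agent.Lib.ChevNPerm hiding nn
open Cfsg.Agent.Lib.ChevBruhat Cfsg.Agent.Lib.TwFix Cfsg.Agent.Lib.TwTab Cfsg.Agent.Lib.SL2Pres Cfsg.Agent.Lib.ChevSL2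
open Cfsg.Agent.Lib.TrMat
open Cfsg.Agent.Lib.ChevClosed hiding pr
open scoped MatrixGroups Matrix

/-- elements without centralizer are conjugate to their coset -/
theorem coset_conj {Γ : Type*} [Group Γ] (Q : Subgroup Γ) [Finite Q] {X : Γ} (hX : ∀ b ∈ Q, X⁻¹ * b * X ∈ Q)
    (hc : ∀ u ∈ Q, Commute X u → u = 1) {b : Γ} (hb : b ∈ Q) : ∃ u ∈ Q, u * X * u⁻¹ = X * b := by
  let f : Q → Q := fun u => ⟨X⁻¹ * u * X * (u : Γ)⁻¹, mul_mem (hX u u.2) (inv_mem u.2)⟩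
  have hf : Function.Injective f := by
    intro u v h
    have h1 : X⁻¹ * (u : Γ) * X * (u : Γ)⁻¹ = X⁻¹ * v * X * (v : Γ)⁻¹ := congrArg Subtype.val h
    have h2 : (u : Γ) * X * (u : Γ)⁻¹ = v * X * (v : Γ)⁻¹ := by
      calc (u : Γ) * X * (u : Γ)⁻¹ = X * (X⁻¹ * (u : Γ) * X * (u : Γ)⁻¹) := by group
        _ = _ := by rw [h1]; group
    have h3 : ((v : Γ)⁻¹ * u) = 1 := by
      apply hc _ (mul_mem (inv_mem v.2) u.2)
      show X * ((v : Γ)⁻¹ * u) = (v : Γ)⁻¹ * u * X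
      calc X * ((v : Γ)⁻¹ * u) = (v : Γ)⁻¹ * (v * X * (v : Γ)⁻¹) * u := by group
        _ = (v : Γ)⁻¹ * u * X := by rw [← h2]; group
    exact Subtype.ext (inv_mul_eq_one.mp h3).symm
  obtain ⟨u, hu⟩ := (Finite.injective_iff_surjective.mp hf) ⟨b, hb⟩
  refine ⟨u, u.2, ?_⟩
  have h1 : X⁻¹ * (u : Γ) * X * (u : Γ)⁻¹ = b := congrArg Subtype.val hu
  rw [← h1]; group

section main
variable {K : Type*} [Field K] [Fintype K] {q : ℕ} (hq : IsPrimePow q) (hK : Fintype.card K = q ^ 3)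

/-- the condition on the parameter -/
def Okc (c : Kˣ) : Prop := nmu hq hK c = -1 ∧ ((2 : F0 hq hK) ≠ 0 → c = -1) ∧ ((2 : F0 hq hK) = 0 → c ≠ 1)

theorem okc_inv {c : Kˣ} (h : Okc hq hK c) : Okc hq hK c⁻¹ :=
  ⟨nmu_inv' hq hK h.1, fun h2 => by rw [h.2.1 h2]; simp, fun h2 h3 => h.2.2 h2 (by rw [← inv_inv c, h3, inv_one])⟩

theorem cent {τ : F0 hq hK} (hτ : Irr τ) {A : Matrix (Fin 2) (Fin 2) (F0 hq hK)} (hA : Ell τ A)
    {c : Kˣ} (hc : Okc hq hK c) {u : GL chevD4.Idx K} (hu : u ∈ X K lA) (hcm : Commute (xx hq hK hA.2 c) u) : u = 1 := by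
  by_cases h2 : (2 : F0 hq hK) = 0
  · exact cent_even hq hK h2 hτ hA hc.1 (hc.2.2 h2) hu hcm
  · have h3 := hc.2.1 h2
    subst h3
    exact cent_odd hq hK h2 hτ hA hc.1 hu hcm

theorem cent' {τ : F0 hq hK} (hτ : Irr τ) {A : Matrix (Fin 2) (Fin 2) (F0 hq hK)} (hA : Ell τ A)
    {c : Kˣ} (hc : Okc hq hK c) {u : GL chevD4.Idx K} (hu : u ∈ X K lB) (hcm : Commute (xx hq hK hA.2 c) u) : u = 1 := by
  obtain ⟨w, hw, hf⟩ := n60_mono hq hK
  have h1 : n60 hq hK * u * (n60 hq hK)⁻¹ ∈ X K lA := conj_X hw hf (by decide) hu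
  have h2 : Commute (xx hq hK (ell_neg hA).2 c⁻¹) (n60 hq hK * u * (n60 hq hK)⁻¹) := by
    have h3 := xx_n60 hq hK hA.2 hc.1
    rw [← h3]
    show n60 hq hK * xx hq hK hA.2 c * (n60 hq hK)⁻¹ * (n60 hq hK * u * (n60 hq hK)⁻¹) =
      n60 hq hK * u * (n60 hq hK)⁻¹ * (n60 hq hK * xx hq hK hA.2 c * (n60 hq hK)⁻¹)
    calc n60 hq hK * xx hq hK hA.2 c * (n60 hq hK)⁻¹ * (n60 hq hK * u * (n60 hq hK)⁻¹) =
        n60 hq hK * (xx hq hK hA.2 c * u) * (n60 hq hK)⁻¹ := by group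
      _ = _ := by rw [hcm.eq]; group
  have h3 := cent hq hK (irr_neg hτ) (ell_neg hA) (okc_inv hq hK hc) h1 h2
  calc u = (n60 hq hK)⁻¹ * (n60 hq hK * u * (n60 hq hK)⁻¹) * n60 hq hK := by group
    _ = 1 := by rw [h3]; group

theorem xx_L {A : Matrix (Fin 2) (Fin 2) (F0 hq hK)} (hA : A 0 0 * A 1 1 - A 0 1 * A 1 0 = -1) (c : Kˣ) :
    xx hq hK hA c ∈ L hq hK := mul_mem (Pb_mem_L hq hK _) (h0_mem_L hq hK c)

theorem right_conj {τ : F0 hq hK} (hτ : Irr τ) {A : Matrix (Fin 2) (Fin 2) (F0 hq hK)} (hA : Ell τ A)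
    {c : Kˣ} (hc : Okc hq hK c) {b : GL chevD4.Idx K} (hb : b ∈ QA hq hK) :
    ∃ u ∈ fx hq hK, u * xx hq hK hA.2 c * u⁻¹ = xx hq hK hA.2 c * b := by
  obtain ⟨u, hu, h⟩ := coset_conj (QA hq hK) (X := xx hq hK hA.2 c) (fun b hb => by
    have := L_QA hq hK (inv_mem (xx_L hq hK hA.2 c)) hb
    rwa [inv_inv] at this) (fun u hu hcm => cent hq hK hτ hA hc hu.1 hcm) hb
  exact ⟨u, hu.2, h⟩

theorem left_conj {τ : F0 hq hK} (hτ : Irr τ) {A : Matrix (Fin 2) (Fin 2) (F0 hq hK)} (hA : Ell τ A)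
    {c : Kˣ} (hc : Okc hq hK c) {a : GL chevD4.Idx K} (ha : a ∈ QB hq hK) :
    ∃ u ∈ fx hq hK, u * xx hq hK hA.2 c * u⁻¹ = a * xx hq hK hA.2 c := by
  obtain ⟨u, hu, h⟩ := coset_conj (QB hq hK) (X := xx hq hK hA.2 c) (fun b hb => by
    have := L_QB hq hK (inv_mem (xx_L hq hK hA.2 c)) hb
    rwa [inv_inv] at this) (fun u hu hcm => cent' hq hK hτ hA hc hu.1 hcm)
    (b := (xx hq hK hA.2 c)⁻¹ * a * (xx hq hK hA.2 c)⁻¹⁻¹) (L_QB hq hK (inv_mem (xx_L hq hK hA.2 c)) ha)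
  refine ⟨u, hu.2, ?_⟩
  rw [h]; group

theorem exists_okc : ∃ c : Kˣ, Okc hq hK c := by
  by_cases h2 : (2 : F0 hq hK) = 0
  · -- an element outside the ground field
    obtain ⟨s, hs⟩ : ∃ s : K, s ^ q ≠ s := by
      by_contra hcon
      push Not at hcon
      have h1 : Function.Surjective (Subtype.val : F0 hq hK → K) := fun s => ⟨⟨s, hcon s⟩, rfl⟩
      have h3 := Fintype.card_le_of_surjective _ h1
      rw [cardF, hK] at h3
      have h4 := hq.two_le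
      have : q < q ^ 3 := by nlinarith [Nat.one_lt_pow (two_ne_zero) (show 1 < q by omega)]
      omega
    have hs0 : s ≠ 0 := by rintro rfl; exact hs (zero_pow hq.pos.ne')
    refine ⟨(Units.mk0 s hs0) ^ q * (Units.mk0 s hs0)⁻¹, ?_, fun h => absurd h2 h, fun _ h => ?_⟩
    · have hm : (-1 : F0 hq hK) = 1 := by linear_combination (-1) * h2
      apply Units.ext
      apply Subtype.ext
      rw [nmu_val]
      have e : (((-1 : (F0 hq hK)ˣ) : F0 hq hK) : K) = 1 := by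
        have := congrArg Subtype.val hm
        simpa using this
      rw [e]
      have h3 : (((Units.mk0 s hs0) ^ q * (Units.mk0 s hs0)⁻¹ : Kˣ) : K) = s ^ q * s⁻¹ := by simp
      rw [h3, mul_pow, mul_pow, inv_pow, inv_pow, MinTD4C.p3 hq hK]
      have z1 : s ^ q ≠ 0 := pow_ne_zero _ hs0
      have z2 : (s ^ q) ^ q ≠ 0 := pow_ne_zero _ z1
      field_simp
    · apply hs
      have h3 := congrArg Units.val (mul_inv_eq_one.mp h)
      simpa using h3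
  · refine ⟨-1, ?_, fun _ => rfl, fun h => absurd h h2⟩
    have hq1 : (-1 : K) ^ q = -1 := by rw [MinTD4A.neg_pow hq hK, one_pow]
    apply Units.ext
    apply Subtype.ext
    rw [nmu_val]
    have hv : ((-1 : Kˣ) : K) = -1 := by simp
    rw [hv, hq1, hq1]
    simp

/-- the main theorem -/
theorem main {τ : F0 hq hK} (hτ : Irr τ) {A : Matrix (Fin 2) (Fin 2) (F0 hq hK)} (hA : Ell τ A)
    {c : Kˣ} (hc : Okc hq hK c) {g : GL chevD4.Idx K} (hg : g ∈ fx hq hK) (h1 : g ≠ 1) :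
    ∃ u ∈ fx hq hK, ∃ v ∈ fx hq hK, g = (u * xx hq hK hA.2 c * u⁻¹) * (v * xx hq hK hA.2 c * v⁻¹) := by
  obtain ⟨M, ⟨k, hk, a, ha, b, hb, h⟩, hM⟩ := cj_all hq hK hg h1
  -- conjugates
  have cj1 : ∀ {B : Matrix (Fin 2) (Fin 2) (F0 hq hK)} (hB : Ell τ B), ∃ u ∈ fx hq hK,
      u * xx hq hK hA.2 c * u⁻¹ = xx hq hK hB.2 c := by
    intro B hB
    obtain ⟨P, hP⟩ := conj_ell hτ hA hB
    exact ⟨_, Pb_fix hq hK P, xx_conj hq hK hA.2 hB.2 hc.1 hP⟩
  -- the decomposition of the component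
  obtain ⟨A1, X2, hA1, h2, h3, h4⟩ : ∃ (A1 : Matrix (Fin 2) (Fin 2) (F0 hq hK)) (X2 : GL chevD4.Idx K), ∃ hA1 : Ell τ A1,
      Pb hq hK M = xx hq hK hA1.2 c * X2 ∧ (∃ u ∈ fx hq hK, u * xx hq hK hA.2 c * u⁻¹ = X2) ∧
      ∀ b ∈ QA hq hK, ∃ u ∈ fx hq hK, u * X2 * u⁻¹ = X2 * b := by
    have key : (∃ A1 B1 : Matrix (Fin 2) (Fin 2) (F0 hq hK), Ell τ A1 ∧ Ell τ B1 ∧ -(A1 * B1) = M.1) ∨
        ((2 : F0 hq hK) ≠ 0 ∧ ∃ A1 B1 : Matrix (Fin 2) (Fin 2) (F0 hq hK), Ell τ A1 ∧ Ell τ B1 ∧ A1 * B1 = M.1) := by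
      by_cases h2 : (2 : F0 hq hK) = 0
      · exact Or.inl (prod_neg hτ M.2 (hM h2))
      · obtain ⟨A1, B1, hA1, hB1, hAB⟩ := prod_odd hτ h2 M.2
        rcases hAB with hAB | hAB
        · exact Or.inl ⟨A1, B1, hA1, hB1, hAB⟩
        · exact Or.inr ⟨h2, A1, B1, hA1, hB1, hAB⟩
    rcases key with ⟨A1, B1, hA1, hB1, hAB⟩ | ⟨h2, A1, B1, hA1, hB1, hAB⟩
    · refine ⟨A1, xx hq hK (ell_neg hB1).2 c⁻¹, hA1, ?_, ?_, fun b hb => right_conj hq hK (irr_neg hτ) (ell_neg hB1) (okc_inv hq hK hc) hb⟩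
      · rw [xx_mul hq hK _ _ hc.1]
        congr 1
        apply Subtype.ext
        rw [dd_mul, ← hAB, Matrix.mul_neg]
      · obtain ⟨u, hu, hu2⟩ := cj1 hB1
        refine ⟨n60 hq hK * u, (fx hq hK).mul_mem (n60_mem hq hK).2 hu, ?_⟩
        have h5 := xx_n60 hq hK hB1.2 hc.1
        rw [← hu2] at h5
        refine Eq.trans ?_ h5
        group
    · have hc' : c = -1 := hc.2.1 h2
      have hci : c⁻¹ = c := by rw [hc']; simp
      refine ⟨A1, xx hq hK hB1.2 c, hA1, ?_, cj1 hB1, fun b hb => right_conj hq hK hτ hB1 hc hb⟩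
      have h5 := xx_mul hq hK hA1.2 hB1.2 hc.1
      rw [hci] at h5
      rw [h5]
      congr 1
      apply Subtype.ext
      rw [dd_mul, ← hAB]
  obtain ⟨u1, hu1, e1⟩ := left_conj hq hK hτ hA1 hc ha
  obtain ⟨u2, hu2, e2⟩ := h4 b hb
  obtain ⟨u3, hu3, e3⟩ := cj1 hA1
  obtain ⟨u4, hu4, e4⟩ := h3
  have hg2 : g = k⁻¹ * ((a * xx hq hK hA1.2 c) * (X2 * b)) * k := by
    have : a * xx hq hK hA1.2 c * (X2 * b) = k * g * k⁻¹ := by rw [h, h2]; group
    rw [this]; group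
  refine ⟨k⁻¹ * u1 * u3, (fx hq hK).mul_mem ((fx hq hK).mul_mem ((fx hq hK).inv_mem hk) hu1) hu3,
    k⁻¹ * u2 * u4, (fx hq hK).mul_mem ((fx hq hK).mul_mem ((fx hq hK).inv_mem hk) hu2) hu4, ?_⟩
  rw [hg2, ← e1, ← e2, ← e3, ← e4]
  group

theorem h0_pow (c : Kˣ) (k : ℕ) : h0 hq hK c ^ k = h0 hq hK (c ^ k) := by
  induction k with
  | zero => rw [pow_zero, pow_zero, h0_one]
  | succ k ih => rw [pow_succ, ih, pow_succ, h0_mul]

/-- the order -/
theorem pow_xx (p : ℕ) [Fact p.Prime] [CharP K p] {τ : F0 hq hK} (hτ : Irr τ) {A : Matrix (Fin 2) (Fin 2) (F0 hq hK)}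
    (hA : Ell τ A) {c : Kˣ} (hc : Okc hq hK c) : ∃ m : ℕ, ¬ p ∣ m ∧ xx hq hK hA.2 c ^ m = 1 := by
  have hp : p.Prime := Fact.out
  have hpq : p ∣ q := by
    have h1 : ((q ^ 3 : ℕ) : K) = 0 := by rw [← hK]; exact FiniteField.cast_card_eq_zero K
    have h2 := (CharP.cast_eq_zero_iff K p _).mp h1
    exact hp.dvd_of_dvd_pow h2
  by_cases h2 : (2 : F0 hq hK) = 0
  · have h2K := two_K hq hK h2
    have hp2 : p = 2 := by
      have h3 : p ∣ 2 := (CharP.cast_eq_zero_iff K p 2).mp (by exact_mod_cast h2K)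
      exact (Nat.prime_dvd_prime_iff_eq hp Nat.prime_two).mp h3
    subst hp2
    have hneg : ∀ x : F0 hq hK, -x = x := fun x => by linear_combination (-x) * h2
    have hcb : ∀ M : SL(2, F0 hq hK), Commute (Pb hq hK M) (h0 hq hK c) := by
      intro M
      have h1 := h0_Pb hq hK c M
      have h3 : tw (nmu hq hK c) M = M := by
        rw [hc.1]
        apply Subtype.ext
        rw [coe_twm]
        ext i j
        fin_cases i <;> fin_cases j <;> simp [hneg]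
      rw [h3] at h1
      show Pb hq hK M * h0 hq hK c = h0 hq hK c * Pb hq hK M
      rw [← eq_mul_inv_iff_mul_eq]
      exact h1.symm
    have hdd : (dd A hA.2) ^ (q + 1) = 1 := by
      have h1 : (dd A hA.2).1 = A := by
        rw [coe_dd]
        ext i j
        fin_cases i <;> fin_cases j <;> simp [hneg]
      apply Subtype.ext
      have h3 := pow_ell hτ hA
      rw [cardF] at h3
      rw [Matrix.SpecialLinearGroup.coe_pow, h1, h3]
      ext i j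
      fin_cases i <;> fin_cases j <;> simp [hneg]
    have hpow : xx hq hK hA.2 c ^ (q + 1) = h0 hq hK (c ^ (q + 1)) := by
      unfold xx
      rw [(hcb _).mul_pow, ← map_pow, hdd, map_one, one_mul, h0_pow]
    refine ⟨(q + 1) * (q ^ 3 - 1), ?_, ?_⟩
    · obtain ⟨k, rfl⟩ := hpq
      intro h
      rcases (Nat.Prime.dvd_mul Nat.prime_two).mp h with h3 | h3
      · omega
      · have h4 : 0 < (2 * k) ^ 3 := by
          have := hq.pos; positivity
        have h5 : (2 * k) ^ 3 = 2 * (4 * k ^ 3) := by ring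
        omega
    · rw [pow_mul, hpow, h0_pow]
      have h3 : (c ^ (q + 1)) ^ (q ^ 3 - 1) = 1 := by
        have h4 := FiniteField.pow_card_sub_one_eq_one ((c ^ (q + 1) : Kˣ) : K) (Units.ne_zero _)
        rw [hK] at h4
        apply Units.ext
        rw [Units.val_pow_eq_pow_val, h4, Units.val_one]
      rw [h3, h0_one]
  · have hc1 := hc.2.1 h2
    obtain ⟨k, hk⟩ := odd_q hq hK h2
    have hsq : xx hq hK hA.2 c * xx hq hK hA.2 c = Pb hq hK (dd A hA.2 * tw (-1) (dd A hA.2)) := by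
      have := xx_mul hq hK hA.2 hA.2 hc.1
      rwa [show c⁻¹ = c by rw [hc1]; simp] at this
    have hz : (xx hq hK hA.2 c * xx hq hK hA.2 c) ^ (k + 1) = Pb hq hK (TrMat.dg (-1)) := by
      rw [hsq, ← map_pow]
      congr 1
      apply Subtype.ext
      rw [Matrix.SpecialLinearGroup.coe_pow, dd_mul, ← pow_two, ← pow_mul, coe_dg]
      have h3 : 2 * (k + 1) = Fintype.card (F0 hq hK) + 1 := by rw [cardF]; omega
      rw [h3, pow_ell hτ hA]
      ext i j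
      fin_cases i <;> fin_cases j <;> simp
    refine ⟨2 * (k + 1) * 2, ?_, ?_⟩
    · intro h
      have hp2 : p ≠ 2 := by
        rintro rfl
        omega
      have h3 : 2 * (k + 1) * 2 = 2 * (q + 1) := by omega
      rw [h3] at h
      rcases (Nat.Prime.dvd_mul hp).mp h with h4 | h4
      · exact hp2 ((Nat.prime_dvd_prime_iff_eq hp Nat.prime_two).mp h4)
      · have h5 := (Nat.dvd_add_right hpq).mp h4
        exact hp.one_lt.ne' (Nat.dvd_one.mp h5)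
    · rw [pow_mul, pow_mul, pow_two (xx hq hK hA.2 c), hz, pow_two, ← map_mul, ← TrMat.dg_mul]
      simp [TrMat.dg_one]

end main

end Cfsg.Agent.Lib.Tr
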