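import Mathlib
import Cfsg.Agent.Lib.ConjSylow

/-! Transfer into `M/H` when `M` meets its other conjugates inside `H` (abelian case of
Frobenius–Wielandt). (helper50) -/

set_option autoImplicit false

namespace Cfsg.Agent.Lib.TransferTI

open Cfsg.Agent.Lib.ConjSylow

variable {G : Type*} [Group G]

theorem transfer_eq_of_forall [Finite G] {M : Subgroup G} {A : Type*} [CommGroup A] (φ : M →* A)
    (h : ∀ g : G, g ∉ M → ∀ m ∈ M, ∀ hm : g⁻¹ * m * g ∈ M, φ ⟨g⁻¹ * m * g, hm⟩ = 1) (m : M) :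
    MonoidHom.transfer φ (m : G) = φ m := by
  classical
  letI := M.fintypeQuotientOfFiniteIndex
  rw [MonoidHom.transfer_eq_prod_quotient_orbitRel_zpowers_quot]
  set q₀ : Quotient (MulAction.orbitRel (Subgroup.zpowers (m : G)) (G ⧸ M)) :=
    Quotient.mk'' ((1 : G) : G ⧸ M) with hq₀
  have hfix : (m : G) • (((1 : G) : G ⧸ M)) = ((1 : G) : G ⧸ M) := by
    change (((m : G) * 1 : G) : G ⧸ M) = _
    rw [mul_one, QuotientGroup.eq, mul_one]
    exact M.inv_mem m.2
  have hfix' : ∀ z ∈ Subgroup.zpowers (m : G), z • (((1 : G) : G ⧸ M)) = ((1 : G) : G ⧸ M) := by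
    intro z hz
    have : Subgroup.zpowers (m : G) ≤ MulAction.stabilizer G (((1 : G) : G ⧸ M)) := by
      rw [Subgroup.zpowers_le]
      exact hfix
    exact this hz
  have hout : q₀.out = ((1 : G) : G ⧸ M) := by
    have h1 : (MulAction.orbitRel (Subgroup.zpowers (m : G)) (G ⧸ M)).r q₀.out ((1 : G) : G ⧸ M) :=
      Quotient.mk_out (s := MulAction.orbitRel (Subgroup.zpowers (m : G)) (G ⧸ M)) (((1 : G) : G ⧸ M))
    obtain ⟨z, hz⟩ := h1
    rw [← hz]
    exact hfix' z z.2
  rw [Fintype.prod_eq_single q₀]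
  · have hk : q₀.out.out ∈ M := by
      have : ((q₀.out.out : G) : G ⧸ M) = ((1 : G) : G ⧸ M) :=
        (QuotientGroup.out_eq' q₀.out).trans hout
      rw [QuotientGroup.eq] at this
      have h2 := M.inv_mem this
      simpa using h2
    have hper : Function.minimalPeriod ((m : G) • ·) q₀.out = 1 := by
      rw [Function.minimalPeriod_eq_one_iff_isFixedPt, hout]
      exact hfix
    have e : (⟨q₀.out.out⁻¹ * (m : G) ^ Function.minimalPeriod ((m : G) • ·) q₀.out * q₀.out.out,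
        QuotientGroup.out_conj_pow_minimalPeriod_mem M (m : G) q₀.out⟩ : M) =
        (⟨q₀.out.out, hk⟩ : M)⁻¹ * m * ⟨q₀.out.out, hk⟩ := by
      apply Subtype.ext
      simp [hper]
    rw [e, map_mul, map_mul, map_inv, mul_right_comm, inv_mul_cancel, one_mul]
  · intro q hq
    apply h
    · intro hmem
      apply hq
      have h1 : q.out = ((1 : G) : G ⧸ M) := by
        rw [← QuotientGroup.out_eq' q.out, QuotientGroup.eq, mul_one]
        exact M.inv_mem hmem
      rw [hq₀, ← h1]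
      exact (Quotient.out_eq' q).symm
    · exact M.pow_mem m.2 _

/-- If `M` meets its conjugates `M^g`, `g ∉ M`, inside the normal subgroup `H` of `M`, and `M/H` is
commutative, then there is a normal subgroup `K` of `G` with `K ∩ M = H`, and `G ⧸ K` commutative. -/
theorem exists_normal_inf_eq [Finite G] {M H : Subgroup G} (hHM : H ≤ M)
    (hn : M ≤ Subgroup.normalizer (H : Set G))
    (hcomm : ∀ a ∈ M, ∀ b ∈ M, a * b * a⁻¹ * b⁻¹ ∈ H)
    (h : ∀ g : G, g ∉ M → M ⊓ M.map (MulAut.conj g).toMonoidHom ≤ H) :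
    ∃ K : Subgroup G, K.Normal ∧ K ⊓ M = H ∧ commutator G ≤ K := by
  have hN : (H.subgroupOf M).Normal := (Subgroup.normal_subgroupOf_iff_le_normalizer hHM).2 hn
  letI : CommGroup (M ⧸ H.subgroupOf M) :=
    { QuotientGroup.Quotient.group (H.subgroupOf M) with
      mul_comm := by
        intro a b
        obtain ⟨a, rfl⟩ := QuotientGroup.mk_surjective a
        obtain ⟨b, rfl⟩ := QuotientGroup.mk_surjective b
        change ((a * b : M) : M ⧸ H.subgroupOf M) = ((b * a : M) : M ⧸ H.subgroupOf M)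
        rw [QuotientGroup.eq, Subgroup.mem_subgroupOf]
        have := hcomm (b : G)⁻¹ (M.inv_mem b.2) (a : G)⁻¹ (M.inv_mem a.2)
        simpa [mul_assoc] using this }
  let φ : M →* M ⧸ H.subgroupOf M := QuotientGroup.mk' (H.subgroupOf M)
  have hφ : ∀ x : M, φ x = 1 ↔ (x : G) ∈ H := by
    intro x
    exact (QuotientGroup.eq_one_iff x).trans Subgroup.mem_subgroupOf
  have key := transfer_eq_of_forall φ (by
    intro g hg m hm hgm
    rw [hφ]
    apply h g⁻¹ (fun hh => hg (by simpa using M.inv_mem hh))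
    refine Subgroup.mem_inf.2 ⟨hgm, mem_conj.2 ?_⟩
    have : g⁻¹⁻¹ * (g⁻¹ * m * g) * g⁻¹ = m := by group
    rw [this]; exact hm)
  refine ⟨(MonoidHom.transfer φ).ker, inferInstance, ?_, Abelianization.commutator_subset_ker _⟩
  ext x
  rw [Subgroup.mem_inf, MonoidHom.mem_ker]
  constructor
  · rintro ⟨h1, h2⟩
    rw [key ⟨x, h2⟩, hφ] at h1
    exact h1
  · intro hx
    refine ⟨?_, hHM hx⟩
    rw [key ⟨x, hHM hx⟩, hφ]
    exact hx

theorem eq_or_eq_of_isCoatom_subgroupOf {H M X : Subgroup G}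
    (h : IsCoatom (H.subgroupOf M)) (hHX : H ≤ X) (hXM : X ≤ M) (hHM : H ≤ M) : X = H ∨ X = M := by
  have h1 : H.subgroupOf M ≤ X.subgroupOf M := fun x hx => Subgroup.mem_subgroupOf.2 (hHX (Subgroup.mem_subgroupOf.1 hx))
  rcases h.le_iff.1 h1 with h2 | h2
  · right
    exact le_antisymm hXM (Subgroup.subgroupOf_eq_top.1 h2)
  · left
    have := congrArg (fun K : Subgroup M => K.map M.subtype) h2
    simp only [Subgroup.subgroupOf_map_subtype] at this
    rwa [inf_of_le_left hXM, inf_of_le_left hHM] at this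

theorem commutator_mem_of_isCoatom {H M : Subgroup G} (hHM : H ≤ M)
    (h : IsCoatom (H.subgroupOf M)) (hn : M ≤ Subgroup.normalizer (H : Set G)) :
    ∀ a ∈ M, ∀ b ∈ M, a * b * a⁻¹ * b⁻¹ ∈ H := by
  intro a ha b hb
  by_cases haH : a ∈ H
  · have h1 : b * a⁻¹ * b⁻¹ ∈ H := conj_mem_of_mem_normalizer (hn hb) (H.inv_mem haH)
    have : a * b * a⁻¹ * b⁻¹ = a * (b * a⁻¹ * b⁻¹) := by group
    rw [this]; exact H.mul_mem haH h1
  · have hz : Subgroup.zpowers a ≤ Subgroup.normalizer (H : Set G) :=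
      Subgroup.zpowers_le.2 (hn ha)
    have h1 : H ⊔ Subgroup.zpowers a = M := by
      rcases eq_or_eq_of_isCoatom_subgroupOf h (X := H ⊔ Subgroup.zpowers a) le_sup_left
        (sup_le hHM (Subgroup.zpowers_le.2 ha)) hHM with h2 | h2
      · exfalso; apply haH
        rw [← h2]
        exact Subgroup.mem_sup_right (Subgroup.mem_zpowers a)
      · exact h2
    rw [← h1] at hb
    obtain ⟨x, hx, y, ⟨k, rfl⟩, rfl⟩ := (mem_sup_of_le_normalizer' hz).1 hb
    have h2 : a * x * a⁻¹ ∈ H := conj_mem_of_mem_normalizer (hn ha) hx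
    have : a * (x * a ^ k) * a⁻¹ * (x * a ^ k)⁻¹ = (a * x * a⁻¹) * x⁻¹ := by group
    change a * (x * a ^ k) * a⁻¹ * (x * a ^ k)⁻¹ ∈ H
    rw [this]; exact H.mul_mem h2 (H.inv_mem hx)

theorem normal_of_normalizer_eq_top {H : Subgroup G} (h : Subgroup.normalizer (H : Set G) = ⊤) :
    H.Normal := Subgroup.normalizer_eq_top_iff.1 h

end Cfsg.Agent.Lib.TransferTI
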