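import Mathlib

/-!
# A symmetric amalgam with dihedral residues (helper47): conjugation, hypotheses, centre (for S4385)
-/

set_option autoImplicit false

open scoped Pointwise

namespace Cfsg.Agent.Lib.Tut

variable {G : Type*} [Group G]

/-- conjugate of a subgroup -/
def cj (g : G) (X : Subgroup G) : Subgroup G := MulAut.conj g • X

theorem mem_cj {g x : G} {X : Subgroup G} : x ∈ cj g X ↔ g⁻¹ * x * g ∈ X := by
  unfold cj
  rw [Subgroup.mem_pointwise_smul_iff_inv_smul_mem, ← map_inv, MulAut.smul_def, MulAut.conj_apply, inv_inv]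

theorem conj_mem_cj {g x : G} {X : Subgroup G} (hx : x ∈ X) : g * x * g⁻¹ ∈ cj g X := by
  rw [mem_cj]
  have : g⁻¹ * (g * x * g⁻¹) * g = x := by group
  rwa [this]

theorem cj_one (X : Subgroup G) : cj 1 X = X := by
  ext x; rw [mem_cj]; simp

theorem cj_cj (g h : G) (X : Subgroup G) : cj g (cj h X) = cj (g * h) X := by
  ext x; rw [mem_cj, mem_cj, mem_cj]
  have : h⁻¹ * (g⁻¹ * x * g) * h = (g * h)⁻¹ * x * (g * h) := by group
  rw [this]

theorem cj_mono {g : G} {X Y : Subgroup G} (h : X ≤ Y) : cj g X ≤ cj g Y := by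
  intro x hx; rw [mem_cj] at hx ⊢; exact h hx

theorem cj_le_iff {g : G} {X Y : Subgroup G} : cj g X ≤ cj g Y ↔ X ≤ Y := by
  constructor
  · intro h
    have := cj_mono (g := g⁻¹) h
    rwa [cj_cj, cj_cj, inv_mul_cancel, cj_one, cj_one] at this
  · exact cj_mono

theorem cj_le_iff' {g : G} {X Y : Subgroup G} : cj g X ≤ Y ↔ X ≤ cj g⁻¹ Y := by
  rw [← cj_le_iff (g := g⁻¹), cj_cj, inv_mul_cancel, cj_one]

theorem le_cj_iff {g : G} {X Y : Subgroup G} : X ≤ cj g Y ↔ cj g⁻¹ X ≤ Y := by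
  rw [← cj_le_iff (g := g⁻¹), cj_cj, inv_mul_cancel, cj_one]

theorem cj_inj {g : G} {X Y : Subgroup G} : cj g X = cj g Y ↔ X = Y := by
  constructor
  · intro h
    exact le_antisymm (cj_le_iff.mp h.le) (cj_le_iff.mp h.ge)
  · rintro rfl; rfl

theorem cj_inf (g : G) (X Y : Subgroup G) : cj g (X ⊓ Y) = cj g X ⊓ cj g Y := by
  ext x; simp only [mem_cj, Subgroup.mem_inf]

theorem cj_sup (g : G) (X Y : Subgroup G) : cj g (X ⊔ Y) = cj g X ⊔ cj g Y := by
  apply le_antisymm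
  · rw [cj_le_iff', sup_le_iff, ← cj_le_iff', ← cj_le_iff']
    exact ⟨le_sup_left, le_sup_right⟩
  · exact sup_le (cj_mono le_sup_left) (cj_mono le_sup_right)

theorem cj_bot (g : G) : cj g (⊥ : Subgroup G) = ⊥ := by
  rw [eq_bot_iff, cj_le_iff']; exact bot_le

theorem cj_eq_of_mem {g : G} {X : Subgroup G} (h : g ∈ Subgroup.normalizer (X : Set G)) : cj g X = X := by
  ext x; rw [mem_cj]
  have h1 := (Subgroup.mem_normalizer_iff''.mp h) x
  exact h1.symm

theorem mem_normalizer_of_cj {g : G} {X : Subgroup G} (h : cj g X = X) : g ∈ Subgroup.normalizer (X : Set G) := by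
  rw [Subgroup.mem_normalizer_iff'']
  intro x
  rw [← mem_cj, h]

theorem mem_normalizer_iff_cj {g : G} {X : Subgroup G} : g ∈ Subgroup.normalizer (X : Set G) ↔ cj g X = X :=
  ⟨cj_eq_of_mem, mem_normalizer_of_cj⟩

theorem cj_centralizer (g : G) (X : Subgroup G) :
    cj g (Subgroup.centralizer (X : Set G)) = Subgroup.centralizer ((cj g X : Subgroup G) : Set G) := by
  ext x
  rw [mem_cj, Subgroup.mem_centralizer_iff, Subgroup.mem_centralizer_iff]
  constructor
  · intro h y hy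
    have h1 := h _ (mem_cj.mp hy)
    have h2 : y * x = g * ((g⁻¹ * y * g) * (g⁻¹ * x * g)) * g⁻¹ := by group
    rw [h2, h1]; group
  · intro h y hy
    have h1 := h _ (conj_mem_cj (g := g) hy)
    have h2 : y * (g⁻¹ * x * g) = g⁻¹ * ((g * y * g⁻¹) * x) * g := by group
    rw [h2, h1]; group

theorem cj_normalizer (g : G) (X : Subgroup G) :
    cj g (Subgroup.normalizer (X : Set G)) = Subgroup.normalizer ((cj g X : Subgroup G) : Set G) := by
  ext x
  rw [mem_cj, mem_normalizer_iff_cj, mem_normalizer_iff_cj, cj_cj, ← cj_inj (g := g), cj_cj]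
  have : g * (g⁻¹ * x * g) = x * g := by group
  rw [this]

theorem card_cj (g : G) (X : Subgroup G) : Nat.card (cj g X) = Nat.card X := by
  unfold cj
  exact Nat.card_congr (Subgroup.equivSMul (MulAut.conj g) X).symm.toEquiv

theorem relIndex_cj (g : G) (X Y : Subgroup G) : (cj g X).relIndex (cj g Y) = X.relIndex Y := by
  have h : ∀ Z : Subgroup G, cj g Z = Z.map (MulAut.conj g).toMonoidHom := by
    intro Z
    ext x
    rw [mem_cj, Subgroup.mem_map]
    constructor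
    · intro hx
      exact ⟨_, hx, by simp [MulAut.conj_apply]; group⟩
    · rintro ⟨y, hy, rfl⟩
      have : g⁻¹ * ((MulAut.conj g).toMonoidHom y) * g = y := by
        simp [MulAut.conj_apply]; group
      rwa [this]
  rw [h, h, Subgroup.relIndex_map_map_of_injective _ _ (MulAut.conj g).injective]

/-- `x = y` mod an index-two subgroup -/
theorem mul_mem_of_relIndex_two {A B : Subgroup G} (h : A.relIndex B = 2) {x y : G} (hx : x ∈ B) (hy : y ∈ B)
    (hxA : x ∉ A) (hyA : y ∉ A) : x * y ∈ A := by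
  have h1 : (A.subgroupOf B).index = 2 := h
  have h2 := (Subgroup.mul_mem_iff_of_index_two h1 (a := ⟨x, hx⟩) (b := ⟨y, hy⟩))
  rw [Subgroup.mem_subgroupOf, Subgroup.mem_subgroupOf, Subgroup.mem_subgroupOf] at h2
  exact h2.mpr ⟨fun h => absurd h hxA, fun h => absurd h hyA⟩

theorem inv_mul_mem_of_relIndex_two {A B : Subgroup G} (h : A.relIndex B = 2) {x y : G} (hx : x ∈ B) (hy : y ∈ B)
    (hxA : x ∉ A) (hyA : y ∉ A) : x⁻¹ * y ∈ A :=
  mul_mem_of_relIndex_two h (inv_mem hx) hy (fun h1 => hxA (by simpa using inv_mem h1)) hyA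

theorem eq_sup_of_relIndex_two {A B C : Subgroup G} (h : A.relIndex B = 2) (hA : A ≤ B) (hC : C ≤ B)
    (hn : ¬ C ≤ A) : B = A ⊔ C := by
  apply le_antisymm _ (sup_le hA hC)
  obtain ⟨c, hc, hcA⟩ := SetLike.not_le_iff_exists.mp hn
  intro x hx
  by_cases hxA : x ∈ A
  · exact (le_sup_left : A ≤ A ⊔ C) hxA
  · have h1 := mul_mem_of_relIndex_two h hx (inv_mem (hC hc)) hxA (fun h1 => hcA (by simpa using inv_mem h1))
    have h2 : x = (x * c⁻¹) * c := by group
    rw [h2]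
    exact mul_mem ((le_sup_left : A ≤ A ⊔ C) h1) ((le_sup_right : C ≤ A ⊔ C) hc)

theorem relIndex_inf_two {A B C : Subgroup G} (h : A.relIndex B = 2) (hC : C ≤ B) (hn : ¬ C ≤ A) :
    (C ⊓ A).relIndex C = 2 := by
  rw [Subgroup.relIndex_eq_two_iff]
  obtain ⟨c, hc, hcA⟩ := SetLike.not_le_iff_exists.mp hn
  refine ⟨c, hc, fun b hb => ?_⟩
  by_cases hbA : b ∈ A
  · right
    refine ⟨⟨hb, hbA⟩, fun h1 => hcA ?_⟩
    have := mul_mem (inv_mem hbA) h1.2
    rwa [inv_mul_cancel_left] at this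
  · left
    exact ⟨⟨mul_mem hb hc, mul_mem_of_relIndex_two h (hC hb) (hC hc) hbA hcA⟩, fun h1 => hbA h1.2⟩

theorem norm_of_cj_le {K X : Subgroup G} (h : ∀ g ∈ K, cj g X ≤ X) : K ≤ Subgroup.normalizer (X : Set G) := by
  intro g hg
  rw [mem_normalizer_iff_cj]
  apply le_antisymm (h g hg)
  rw [le_cj_iff]
  exact h g⁻¹ (inv_mem hg)

theorem cj_eq_of_norm {K X : Subgroup G} (h : K ≤ Subgroup.normalizer (X : Set G)) {g : G} (hg : g ∈ K) : cj g X = X :=
  cj_eq_of_mem (h hg)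

/-- the centre of `P` as a subgroup of `G` -/
def ze (P : Subgroup G) : Subgroup G := P ⊓ Subgroup.centralizer (P : Set G)

theorem ze_le (P : Subgroup G) : ze P ≤ P := inf_le_left

theorem ze_comm {P : Subgroup G} {z x : G} (hz : z ∈ ze P) (hx : x ∈ P) : x * z = z * x :=
  Subgroup.mem_centralizer_iff.mp hz.2 x hx

theorem mem_ze {P : Subgroup G} {z : G} (hz : z ∈ P) (h : ∀ x ∈ P, x * z = z * x) : z ∈ ze P :=
  ⟨hz, Subgroup.mem_centralizer_iff.mpr h⟩

theorem cj_ze (g : G) (P : Subgroup G) : cj g (ze P) = ze (cj g P) := by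
  unfold ze
  rw [cj_inf, cj_centralizer]

theorem norm_ze {P : Subgroup G} : P ≤ Subgroup.normalizer (ze P : Set G) := by
  apply norm_of_cj_le
  intro g hg x hx
  rw [mem_cj] at hx
  have h1 := ze_comm hx (inv_mem hg)
  have h2 : g⁻¹ * x * g = x := by
    have h3 : g⁻¹ * (g⁻¹ * x * g) * g = (g⁻¹ * x * g) := by rw [h1]; group
    have h4 : g⁻¹ * x * g = g * (g⁻¹ * x * g) * g⁻¹ := by
      have := ze_comm hx hg
      rw [this]; group
    rw [h4]; group
  rwa [h2] at hx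

theorem ze_ne_bot [Finite G] {P : Subgroup G} (hP : IsPGroup 2 P) (hne : P ≠ ⊥) : ze P ≠ ⊥ := by
  have f2 : Fact (Nat.Prime 2) := ⟨Nat.prime_two⟩
  have hn : Nontrivial P := (Subgroup.nontrivial_iff_ne_bot P).mpr hne
  have h1 := hP.bot_lt_center
  obtain ⟨z, hz, hz1⟩ := SetLike.exists_of_lt h1
  intro hcon
  apply hz1
  rw [Subgroup.mem_bot]
  have h2 : (z : G) ∈ ze P := by
    refine mem_ze z.2 (fun x hx => ?_)
    have := Subgroup.mem_center_iff.mp hz ⟨x, hx⟩
    exact congrArg Subtype.val this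
  rw [hcon, Subgroup.mem_bot] at h2
  exact Subtype.ext h2

/-- The situation: a symmetric amalgam with residues dihedral of twice odd order. -/
structure Hyp (H : Bool → Subgroup G) (P : Subgroup G) (Q : Bool → Subgroup G) : Prop where
  pP : IsPGroup 2 P
  PH : ∀ i, P ≤ H i
  QP : ∀ i, Q i ≤ P
  QH : ∀ i, H i ≤ Subgroup.normalizer (Q i : Set G)
  idx : ∀ i, (Q i).relIndex P = 2
  sym : ∀ i, ∃ y, cj y P = P ∧ cj y (H i) = H (!i) ∧ cj y (Q i) = Q (!i) ∧
    ∀ X ≤ P, P ≤ Subgroup.normalizer (X : Set G) → cj y (cj y X) = X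
  core : ∀ X ≤ P, (∀ i, H i ≤ Subgroup.normalizer (X : Set G)) → X = ⊥
  gen : ∀ i, ∃ h ∈ H i, P ⊔ cj h P = H i
  odd : ∀ i, ∀ h ∈ H i, P ⊔ cj h P = H i → ∀ t ∈ P, t ∉ Q i → cj h P ⊔ cj (t * h) P = H i

/-- `V_i` -/
def V (H : Bool → Subgroup G) (P : Subgroup G) (i : Bool) : Subgroup G := ⨆ h : H i, cj (h : G) (ze P)

theorem cj_le_V (H : Bool → Subgroup G) (P : Subgroup G) (i : Bool) {h : G} (hh : h ∈ H i) : cj h (ze P) ≤ V H P i :=
  le_iSup (fun h : H i => cj (h : G) (ze P)) ⟨h, hh⟩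

theorem Z_le_V (H : Bool → Subgroup G) (P : Subgroup G) (i : Bool) : ze P ≤ V H P i := by
  have := cj_le_V H P i (one_mem _)
  rwa [cj_one] at this

theorem V_le {H : Bool → Subgroup G} {P : Subgroup G} {i : Bool} {X : Subgroup G} (h : ∀ g ∈ H i, cj g (ze P) ≤ X) :
    V H P i ≤ X := iSup_le fun g => h g g.2

theorem V_norm (H : Bool → Subgroup G) (P : Subgroup G) (i : Bool) : H i ≤ Subgroup.normalizer (V H P i : Set G) := by
  apply norm_of_cj_le
  intro g hg
  rw [cj_le_iff']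
  apply V_le
  intro h hh
  rw [le_cj_iff, inv_inv, cj_cj]
  exact cj_le_V H P i (mul_mem hg hh)

namespace Hyp

variable {H : Bool → Subgroup G} {P : Subgroup G} {Q : Bool → Subgroup G}

theorem P_ne (h : Hyp H P Q) : P ≠ ⊥ := by
  intro hcon
  have := h.idx false
  rw [hcon, Subgroup.relIndex_bot_right] at this
  omega

theorem Z_ne [Finite G] (h : Hyp H P Q) : ze P ≠ ⊥ := ze_ne_bot h.pP h.P_ne

theorem Q_lt (h : Hyp H P Q) (i : Bool) : ∃ t ∈ P, t ∉ Q i := by
  by_contra hcon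
  push Not at hcon
  have := h.idx i
  rw [Subgroup.relIndex_eq_one.mpr hcon] at this
  omega

theorem V_cj (h : Hyp H P Q) {i : Bool} {y : G} (h1 : cj y P = P) (h2 : cj y (H i) = H (!i)) :
    cj y (V H P i) = V H P (!i) := by
  apply le_antisymm
  · rw [cj_le_iff']
    apply V_le
    intro g hg
    rw [le_cj_iff, inv_inv, cj_cj]
    have e : y * g = (y * g * y⁻¹) * y := by group
    rw [e, ← cj_cj, cj_ze y P, h1]
    apply cj_le_V
    rw [← h2]; exact conj_mem_cj hg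
  · apply V_le
    intro g hg
    rw [le_cj_iff, cj_cj]
    have e : y⁻¹ * g = (y⁻¹ * g * y) * y⁻¹ := by group
    have h3 : cj y⁻¹ (ze P) = ze P := by
      rw [cj_ze]
      congr 1
      rw [← cj_inj (g := y), cj_cj, mul_inv_cancel, cj_one, h1]
    rw [e, ← cj_cj, h3]
    apply cj_le_V
    rw [← h2, mem_cj] at hg
    exact hg

theorem Z_cj {y : G} (h1 : cj y P = P) : cj y (ze P) = ze P := by rw [cj_ze, h1]

/-- the full symmetry statement -/
theorem sym' (h : Hyp H P Q) (hV : ∀ i, V H P i ≤ P) (i : Bool) : ∃ y, cj y P = P ∧ cj y (H i) = H (!i) ∧ cj y (Q i) = Q (!i) ∧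
    cj y (V H P i) = V H P (!i) ∧ cj y (V H P (!i)) = V H P i ∧ cj y (ze P) = ze P ∧
    ∀ X ≤ P, P ≤ Subgroup.normalizer (X : Set G) → cj y (cj y X) = X := by
  obtain ⟨y, h1, h2, h3, h4⟩ := h.sym i
  refine ⟨y, h1, h2, h3, h.V_cj h1 h2, ?_, Z_cj h1, h4⟩
  rw [← h.V_cj h1 h2]
  exact h4 _ (hV i) ((h.PH i).trans (V_norm H P i))

variable (hZ : ∀ i, ze P ≤ Q i)

include hZ in
theorem V_le_QC (h : Hyp H P Q) (i : Bool) : V H P i ≤ Q i ⊓ Subgroup.centralizer (Q i : Set G) := by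
  apply V_le
  intro g hg
  have h1 : cj g (Q i ⊓ Subgroup.centralizer (Q i : Set G)) = Q i ⊓ Subgroup.centralizer (Q i : Set G) := by
    rw [cj_inf, cj_centralizer, cj_eq_of_norm (h.QH i) hg]
  rw [← h1]
  apply cj_mono
  refine le_inf (hZ i) ?_
  intro z hz
  rw [Subgroup.mem_centralizer_iff]
  intro q hq
  exact ze_comm hz (h.QP i hq)

include hZ in
theorem V_le_Q (h : Hyp H P Q) (i : Bool) : V H P i ≤ Q i := (h.V_le_QC hZ i).trans inf_le_left

include hZ in
theorem V_le_P (h : Hyp H P Q) (i : Bool) : V H P i ≤ P := (h.V_le_Q hZ i).trans (h.QP i)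

include hZ in
theorem V_comm (h : Hyp H P Q) {i : Bool} {v q : G} (hv : v ∈ V H P i) (hq : q ∈ Q i) : q * v = v * q :=
  Subgroup.mem_centralizer_iff.mp (h.V_le_QC hZ i hv).2 q hq

theorem PV (h : Hyp H P Q) (i : Bool) : P ≤ Subgroup.normalizer (V H P i : Set G) := (h.PH i).trans (V_norm H P i)

/-- a subgroup normalized by both is trivial; symmetric version -/
theorem core' (h : Hyp H P Q) {i : Bool} {X : Subgroup G} (hX : X ≤ P) (h1 : H i ≤ Subgroup.normalizer (X : Set G))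
    (h2 : H (!i) ≤ Subgroup.normalizer (X : Set G)) : X = ⊥ := by
  apply h.core X hX
  intro j
  rcases Bool.eq_or_eq_not j i with rfl | rfl
  · exact h1
  · exact h2

include hZ in
theorem V_ne_Z [Finite G] (h : Hyp H P Q) (i : Bool) : V H P i ≠ ze P := by
  intro hcon
  obtain ⟨y, h1, h2, h3, h4, h5, h6, h7⟩ := h.sym' (h.V_le_P hZ) i
  apply h.Z_ne
  apply h.core' (i := i) (ze_le P)
  · rw [← hcon]; exact V_norm H P i
  · rw [← h6, ← hcon, h4]; exact V_norm H P (!i)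

include hZ in
/-- an element of `P` centralizing `V_i` lies in `Q_i` -/
theorem centr [Finite G] (h : Hyp H P Q) {i : Bool} {t : G} (ht : t ∈ P) (hc : ∀ v ∈ V H P i, t * v = v * t) : t ∈ Q i := by
  by_contra htQ
  apply h.V_ne_Z hZ i
  apply le_antisymm _ (Z_le_V H P i)
  intro v hv
  refine mem_ze (h.V_le_P hZ i hv) (fun x hx => ?_)
  by_cases hxQ : x ∈ Q i
  · exact h.V_comm hZ hv hxQ
  · have h1 := mul_mem_of_relIndex_two (h.idx i) hx (inv_mem ht) hxQ (fun h1 => htQ (by simpa using inv_mem h1))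
    have h2 : x = (x * t⁻¹) * t := by group
    have h3 := h.V_comm hZ hv h1
    rw [h2, mul_assoc, hc v hv, ← mul_assoc, h3, mul_assoc]

end Hyp

end Cfsg.Agent.Lib.Tut
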