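import Cfsg.Agent.Lib.TutA

/-!
# A symmetric amalgam with dihedral residues (helper47): walks and critical pairs (for S4385)
-/

set_option autoImplicit false

open scoped Pointwise

namespace Cfsg.Agent.Lib.Tut

variable {G : Type*} [Group G]

/-- type of the `b`-th vertex of a walk starting at a vertex of type `t` -/
def ty : ℕ → Bool → Bool
  | 0, t => t
  | (b + 1), t => !(ty b t)

theorem ty_not (b : ℕ) (t : Bool) : ty b (!t) = !(ty b t) := by
  induction b with
  | zero => rfl
  | succ b ih => simp only [ty, ih]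

theorem ty_ty (b : ℕ) (t : Bool) : ty b (ty b t) = t := by
  induction b with
  | zero => rfl
  | succ b ih => simp only [ty, ty_not, ih, Bool.not_not]

/-- walks: `W b t g` says that `g` is the last edge of a walk with `b` edges starting with the edge `1` at the
vertex of type `t`. -/
inductive W (H : Bool → Subgroup G) : ℕ → Bool → G → Prop
  | one (t : Bool) : W H 1 t 1
  | snoc (b : ℕ) (t : Bool) (g h : G) (hw : W H b t g) (hh : h ∈ H (ty b t)) : W H (b + 1) t (g * h)

variable {H : Bool → Subgroup G} {P : Subgroup G} {Q : Bool → Subgroup G}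

theorem W.pos {b : ℕ} {t : Bool} {g : G} (h : W H b t g) : 1 ≤ b := by
  cases h with
  | one => exact le_rfl
  | snoc b t g h hw hh => omega

theorem W.cons {b : ℕ} {t : Bool} {g k : G} (h : W H b (!t) g) (hk : k ∈ H (!t)) : W H (b + 1) t (k * g) := by
  generalize hs : (!t) = s at h
  induction h with
  | one s =>
    have := W.snoc 1 t 1 k (W.one t) (by simpa [ty] using hk)
    simpa using this
  | snoc b s g l hw hl ih =>
    have h1 := ih hs
    have h2 := W.snoc (b + 1) t (k * g) l h1 (by
      rw [← hs, ty_not] at hl; exact hl)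
    rwa [mul_assoc] at h2

theorem W.inv {b : ℕ} {t : Bool} {g : G} (h : W H b t g) : W H b (ty b t) g⁻¹ := by
  induction h with
  | one t => rw [inv_one]; exact W.one _
  | snoc b t g l hw hl ih =>
    have h1 : W H (b + 1) (!(ty b t)) (l⁻¹ * g⁻¹) := by
      apply W.cons
      · rw [Bool.not_not]; exact ih
      · rw [Bool.not_not]; exact inv_mem hl
    rw [mul_inv_rev]
    exact h1

theorem W.pred {b : ℕ} {t : Bool} {g : G} (h : W H (b + 2) t g) :
    ∃ g' k, W H (b + 1) t g' ∧ k ∈ H (ty (b + 1) t) ∧ g = g' * k := by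
  generalize hc : b + 2 = c at h
  cases h with
  | one => omega
  | snoc b' _ g' k hw hk =>
    have : b' = b + 1 := by omega
    subst this
    exact ⟨g', k, hw, hk, rfl⟩

/-- critical pairs -/
def Crit (H : Bool → Subgroup G) (P : Subgroup G) (Q : Bool → Subgroup G) (b : ℕ) (t : Bool) (g : G) : Prop :=
  W H b t g ∧ ¬ V H P t ≤ cj g (Q (ty b t))

/-- nothing critical below `b` -/
def Low (H : Bool → Subgroup G) (P : Subgroup G) (Q : Bool → Subgroup G) (b : ℕ) : Prop :=
  ∀ c < b, ∀ t g, W H c t g → V H P t ≤ cj g (Q (ty c t))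

namespace Hyp

variable (hZ : ∀ i, ze P ≤ Q i)

include hZ in
/-- there is a critical pair -/
theorem exists_crit [Finite G] (h : Hyp H P Q) : ∃ b t g, Crit H P Q b t g := by
  by_contra hcon
  have hall : ∀ b t g, W H b t g → V H P t ≤ cj g (Q (ty b t)) := by
    intro b t g hw
    by_contra h1
    exact hcon ⟨b, t, g, hw, h1⟩
  -- every element of `⟨H₀, H₁⟩` has the form `h w`
  let T : G → Prop := fun g => ∃ k ∈ H false, ∃ b w, W H b false w ∧ g = k * w
  have hw1 : ∀ {t : Bool} {w : G}, W H (0 + 1) t w → w = 1 := by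
    intro t w hw
    generalize hc : 0 + 1 = c at hw
    cases hw with
    | one => rfl
    | snoc b'' _ g' l hw' hl => have := hw'.pos; omega
  have step : ∀ x y, T x → (∃ i, y ∈ H i) → T (x * y) := by
    rintro x y ⟨k, hk, b, w, hw, rfl⟩ ⟨i, hi⟩
    rcases Bool.eq_or_eq_not i (ty b false) with rfl | rfl
    · exact ⟨k, hk, b + 1, w * y, W.snoc b false w y hw hi, by rw [mul_assoc]⟩
    · obtain ⟨b', rfl⟩ : ∃ b', b = b' + 1 := ⟨b - 1, by have := hw.pos; omega⟩
      rcases b' with _ | b'
      · have := hw1 hw
        subst this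
        simp only [ty, Bool.not_not] at hi
        exact ⟨k * y, mul_mem hk hi, 1, 1, W.one _, by simp⟩
      · obtain ⟨g', l, hw', hl, rfl⟩ := hw.pred
        have hi' : y ∈ H (ty (b' + 1) false) := by
          simpa only [ty, Bool.not_not] using hi
        exact ⟨k, hk, b' + 1 + 1, g' * (l * y), W.snoc _ _ _ _ hw' (mul_mem hl hi'), by group⟩
  have hT : ∀ g ∈ H false ⊔ H true, T g := by
    intro g hg
    have hcl : H false ⊔ H true = Subgroup.closure ((H false : Set G) ∪ (H true : Set G)) := by
      rw [Subgroup.closure_union, Subgroup.closure_eq, Subgroup.closure_eq]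
    rw [hcl] at hg
    induction hg using Subgroup.closure_induction_right with
    | one => exact ⟨1, one_mem _, 1, 1, W.one _, by simp⟩
    | mul_right x hx y hy ih =>
      apply step _ _ ih
      rcases hy with hy | hy
      · exact ⟨false, hy⟩
      · exact ⟨true, hy⟩
    | mul_inv_cancel x hx y hy ih =>
      apply step _ _ ih
      rcases hy with hy | hy
      · exact ⟨false, inv_mem hy⟩
      · exact ⟨true, inv_mem hy⟩
  -- hence `V₀` lies in all conjugates of `Q₀`
  have hin : ∀ g ∈ H false ⊔ H true, V H P false ≤ cj g (Q false) := by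
    intro g hg
    obtain ⟨k, hk, b, w, hw, rfl⟩ := hT g hg
    have hk1 : cj k⁻¹ (V H P false) = V H P false := cj_eq_of_norm (V_norm H P false) (inv_mem hk)
    rw [← cj_cj, le_cj_iff, hk1]
    rcases Bool.eq_or_eq_not false (ty b false) with e | e
    · have := hall b false w hw
      rwa [← e] at this
    · obtain ⟨b', rfl⟩ : ∃ b', b = b' + 1 := ⟨b - 1, by have := hw.pos; omega⟩
      rcases b' with _ | b'
      · have := hw1 hw
        subst this
        rw [cj_one]; exact h.V_le_Q hZ false
      · obtain ⟨g', l, hw', hl, rfl⟩ := hw.pred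
        have := hall _ _ _ hw'
        have e' : ty (b' + 1) false = false := by
          simp only [ty, Bool.not_not] at e ⊢
          exact e.symm
        rw [e'] at this hl
        rw [← cj_cj, cj_eq_of_norm (h.QH false) hl]
        exact this
  let N : Subgroup G := ⨅ g : (H false ⊔ H true : Subgroup G), cj (g : G) (Q false)
  have hVN : V H P false ≤ N := le_iInf fun g => hin g g.2
  have hNP : N ≤ P := by
    have h1 : N ≤ cj ((1 : (H false ⊔ H true : Subgroup G)) : G) (Q false) := iInf_le _ _
    rw [OneMemClass.coe_one, cj_one] at h1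
    exact h1.trans (h.QP false)
  have hNn : H false ⊔ H true ≤ Subgroup.normalizer (N : Set G) := by
    apply norm_of_cj_le
    intro g hg
    apply le_iInf
    intro k
    rw [cj_le_iff', cj_cj]
    exact iInf_le (fun g : (H false ⊔ H true : Subgroup G) => cj (g : G) (Q false)) ⟨g⁻¹ * k, mul_mem (inv_mem hg) k.2⟩
  have hN1 : N = ⊥ := h.core' (i := false) hNP (le_sup_left.trans hNn) (le_sup_right.trans hNn)
  apply h.Z_ne
  rw [eq_bot_iff, ← hN1]
  exact (Z_le_V H P false).trans hVN

end Hyp

end Cfsg.Agent.Lib.Tut
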