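import Cfsg.Agent.Lib.TutB

/-!
# A symmetric amalgam with dihedral residues (helper47): transvections and shifting of critical pairs (for S4385)
-/

set_option autoImplicit false

open scoped Pointwise commutatorElement

namespace Cfsg.Agent.Lib.Tut

variable {G : Type*} [Group G]

theorem mul_eq_of_comm {a b : G} (h : a * b = b * a) : a * b * a⁻¹ = b := by rw [h]; group

/-- `C_i` -/
def CC (H : Bool → Subgroup G) (P : Subgroup G) (i : Bool) : Subgroup G := ze P ⊓ Subgroup.centralizer (H i : Set G)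

/-- `R_i` -/
def RR (H : Bool → Subgroup G) (P : Subgroup G) (i : Bool) : Subgroup G := ⁅V H P i, P⁆

theorem cj_commutator (g : G) (A B : Subgroup G) : cj g ⁅A, B⁆ = ⁅cj g A, cj g B⁆ := by
  apply le_antisymm
  · rw [cj_le_iff', Subgroup.commutator_le]
    intro a ha b hb
    rw [mem_cj, inv_inv]
    have : g * ⁅a, b⁆ * g⁻¹ = ⁅g * a * g⁻¹, g * b * g⁻¹⁆ := by
      rw [commutatorElement_def, commutatorElement_def]; group
    rw [this]
    exact Subgroup.commutator_mem_commutator (conj_mem_cj ha) (conj_mem_cj hb)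
  · rw [Subgroup.commutator_le]
    intro a ha b hb
    rw [mem_cj] at ha hb ⊢
    have : g⁻¹ * ⁅a, b⁆ * g = ⁅g⁻¹ * a * g, g⁻¹ * b * g⁆ := by
      rw [commutatorElement_def, commutatorElement_def]; group
    rw [this]
    exact Subgroup.commutator_mem_commutator ha hb

variable {H : Bool → Subgroup G} {P : Subgroup G} {Q : Bool → Subgroup G}

theorem CC_comm {i : Bool} {c x : G} (hc : c ∈ CC H P i) (hx : x ∈ H i) : x * c = c * x :=
  Subgroup.mem_centralizer_iff.mp hc.2 x hx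

theorem cj_CC_self {i : Bool} {g : G} (hg : g ∈ H i) : cj g (CC H P i) = CC H P i := by
  apply cj_eq_of_norm (K := H i) _ hg
  apply norm_of_cj_le
  intro g hg x hx
  rw [mem_cj] at hx
  have h1 := CC_comm hx hg
  have h2 : x = g * (g⁻¹ * x * g) * g⁻¹ := by group
  rw [h1] at h2
  have h3 : x = g⁻¹ * x * g := by
    calc x = g⁻¹ * x * g * g * g⁻¹ := h2
      _ = g⁻¹ * x * g := by group
  rw [h3]; exact hx

theorem CC_norm {i : Bool} : H i ≤ Subgroup.normalizer (CC H P i : Set G) := fun _ hg =>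
  mem_normalizer_of_cj (cj_CC_self hg)

theorem cj_CC (y : G) (h1 : cj y P = P) {i : Bool} (h2 : cj y (H i) = H (!i)) : cj y (CC H P i) = CC H P (!i) := by
  unfold CC
  rw [cj_inf, cj_ze, h1, cj_centralizer, h2]

theorem cj_RR (h : Hyp H P Q) {y : G} (h1 : cj y P = P) {i : Bool} (h2 : cj y (H i) = H (!i)) :
    cj y (RR H P i) = RR H P (!i) := by
  unfold RR
  rw [cj_commutator, h1, h.V_cj h1 h2]

namespace Hyp

variable (hZ : ∀ i, ze P ≤ Q i)

include hZ in
theorem V_le_pred (h : Hyp H P Q) {b : ℕ} (hlow : Low H P Q b) {t : Bool} {g : G} (hw : W H b t g) :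
    V H P t ≤ cj g (Q (!(ty b t))) := by
  obtain ⟨b', rfl⟩ : ∃ b', b = b' + 1 := ⟨b - 1, by have := hw.pos; omega⟩
  rcases b' with _ | b'
  · have : g = 1 := by
      generalize hc : 0 + 1 = c at hw
      cases hw with
      | one => rfl
      | snoc b'' _ g' l hw' hl => have := hw'.pos; omega
    subst this
    rw [cj_one]
    simp only [ty, Bool.not_not]
    exact h.V_le_Q hZ t
  · obtain ⟨g', k, hw', hk, rfl⟩ := hw.pred
    have h1 := hlow (b' + 1) (by omega) t g' hw'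
    have e : (!(ty (b' + 1 + 1) t)) = ty (b' + 1) t := by simp only [ty, Bool.not_not]
    rw [e, ← cj_cj, cj_eq_of_norm (h.QH _) hk]
    exact h1

include hZ in
theorem V_le_edge (h : Hyp H P Q) {b : ℕ} (hlow : Low H P Q b) {t : Bool} {g : G} (hw : W H b t g) :
    V H P t ≤ cj g P := (h.V_le_pred hZ hlow hw).trans (cj_mono (h.QP _))

include hZ in
theorem crit_symm [Finite G] (h : Hyp H P Q) {b : ℕ} (hlow : Low H P Q b) {t : Bool} {g : G} (hc : Crit H P Q b t g) :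
    Crit H P Q b (ty b t) g⁻¹ := by
  refine ⟨hc.1.inv, fun hle => hc.2 ?_⟩
  rw [ty_ty] at hle
  intro v hv
  rw [mem_cj]
  refine h.centr hZ (mem_cj.mp (h.V_le_edge hZ hlow hc.1 hv)) (fun x hx => ?_)
  have h1 : g * x * g⁻¹ ∈ Q t := by
    have := mem_cj.mp (hle hx)
    simpa using this
  have h2 := h.V_comm hZ hv h1
  calc g⁻¹ * v * g * x = g⁻¹ * (v * (g * x * g⁻¹)) * g := by group
    _ = g⁻¹ * (g * x * g⁻¹ * v) * g := by rw [h2]
    _ = x * (g⁻¹ * v * g) := by group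

include hZ in
theorem crit_le [Finite G] (h : Hyp H P Q) {b : ℕ} (hlow : Low H P Q b) {t : Bool} {g : G} (hc : Crit H P Q b t g) :
    cj g (V H P (ty b t)) ≤ P := by
  have h1 := h.V_le_edge hZ hlow (h.crit_symm hZ hlow hc).1
  rwa [le_cj_iff, inv_inv] at h1

include hZ in
theorem crit_not_le [Finite G] (h : Hyp H P Q) {b : ℕ} (hlow : Low H P Q b) {t : Bool} {g : G} (hc : Crit H P Q b t g) :
    ¬ cj g (V H P (ty b t)) ≤ Q t := by
  intro h1
  apply (h.crit_symm hZ hlow hc).2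
  rw [ty_ty, le_cj_iff, inv_inv]
  exact h1

include hZ in
theorem Z_eq [Finite G] (h : Hyp H P Q) {b : ℕ} (hlow : Low H P Q b) {t : Bool} {g : G} (hc : Crit H P Q b t g) :
    ze P = V H P t ⊓ cj g (Q (ty b t)) := by
  apply le_antisymm
  · intro z hz
    refine ⟨Z_le_V H P t hz, ?_⟩
    change z ∈ cj g (Q (ty b t))
    rw [mem_cj]
    refine h.centr hZ (mem_cj.mp (h.V_le_edge hZ hlow hc.1 (Z_le_V H P t hz))) (fun x hx => ?_)
    have h1 : g * x * g⁻¹ ∈ P := h.crit_le hZ hlow hc (conj_mem_cj hx)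
    have h2 := ze_comm hz h1
    calc g⁻¹ * z * g * x = g⁻¹ * (z * (g * x * g⁻¹)) * g := by group
      _ = g⁻¹ * (g * x * g⁻¹ * z) * g := by rw [h2]
      _ = x * (g⁻¹ * z * g) := by group
  · rintro x ⟨hx, hxg⟩
    replace hx : x ∈ V H P t := hx
    replace hxg : x ∈ cj g (Q (ty b t)) := hxg
    have hP := eq_sup_of_relIndex_two (h.idx t) (h.QP t) (h.crit_le hZ hlow hc) (h.crit_not_le hZ hlow hc)
    have hle : P ≤ Subgroup.centralizer {x} := by
      rw [hP]
      apply sup_le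
      · intro q hq
        rw [Subgroup.mem_centralizer_singleton_iff]
        exact h.V_comm hZ hx hq
      · intro u hu
        rw [Subgroup.mem_centralizer_singleton_iff]
        rw [mem_cj] at hu hxg
        have h1 := h.V_comm hZ hu hxg
        calc u * x = g * ((g⁻¹ * u * g) * (g⁻¹ * x * g)) * g⁻¹ := by group
          _ = g * ((g⁻¹ * x * g) * (g⁻¹ * u * g)) * g⁻¹ := by rw [h1]
          _ = x * u := by group
    refine mem_ze (h.V_le_P hZ t hx) (fun p hp => ?_)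
    exact Subgroup.mem_centralizer_singleton_iff.mp (hle hp)

include hZ in
theorem exists_min [Finite G] (h : Hyp H P Q) : ∃ b, Low H P Q b ∧ ∃ t g, Crit H P Q b t g := by
  classical
  have h1 : ∃ b, ∃ t g, Crit H P Q b t g := h.exists_crit hZ
  refine ⟨Nat.find h1, ?_, Nat.find_spec h1⟩
  intro c hc t g hw
  by_contra hcon
  exact Nat.find_min h1 hc ⟨t, g, hw, hcon⟩

include hZ in
theorem idxZ [Finite G] (h : Hyp H P Q) (i : Bool) : (ze P).relIndex (V H P i) = 2 := by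
  obtain ⟨b, hlow, t, g, hc⟩ := h.exists_min hZ
  have h1 : (ze P).relIndex (V H P t) = 2 := by
    rw [h.Z_eq hZ hlow hc]
    apply relIndex_inf_two (B := cj g P) _ (h.V_le_edge hZ hlow hc.1) hc.2
    rw [relIndex_cj, h.idx]
  rcases Bool.eq_or_eq_not i t with rfl | rfl
  · exact h1
  · obtain ⟨y, e1, e2, e3, e4, e5, e6, e7⟩ := h.sym' (h.V_le_P hZ) t
    rw [← e4, ← e6, relIndex_cj]
    exact h1

include hZ in
theorem CC_eq [Finite G] (h : Hyp H P Q) {i : Bool} {k : G} (hk : k ∈ H i) (hg : P ⊔ cj k P = H i) :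
    ze P ⊓ cj k (ze P) = CC H P i := by
  apply le_antisymm
  · rintro x ⟨hx, hxk⟩
    replace hx : x ∈ ze P := hx
    replace hxk : x ∈ cj k (ze P) := hxk
    refine ⟨hx, ?_⟩
    change x ∈ Subgroup.centralizer (H i : Set G)
    have hle : H i ≤ Subgroup.centralizer {x} := by
      rw [← hg]
      apply sup_le
      · intro p hp
        rw [Subgroup.mem_centralizer_singleton_iff]
        exact ze_comm hx hp
      · intro p hp
        rw [Subgroup.mem_centralizer_singleton_iff]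
        rw [cj_ze] at hxk
        exact ze_comm hxk hp
    rw [Subgroup.mem_centralizer_iff]
    intro y hy
    exact Subgroup.mem_centralizer_singleton_iff.mp (hle hy)
  · intro x hx
    refine ⟨hx.1, ?_⟩
    rw [← cj_CC_self hk] at hx
    exact cj_mono inf_le_left hx

include hZ in
theorem not_H_central [Finite G] (h : Hyp H P Q) (i : Bool) : ¬ H i ≤ Subgroup.normalizer (ze P : Set G) := by
  intro hcon
  apply h.V_ne_Z hZ i
  apply le_antisymm _ (Z_le_V H P i)
  apply V_le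
  intro g hg
  exact (cj_eq_of_norm hcon hg).le

include hZ in
theorem not_Z_le [Finite G] (h : Hyp H P Q) {i : Bool} {k : G} (hk : k ∈ H i) (hg : P ⊔ cj k P = H i) :
    ¬ ze P ≤ cj k (ze P) := by
  intro hcon
  have h1 := h.CC_eq hZ hk hg
  rw [inf_eq_left.mpr hcon] at h1
  apply h.not_H_central hZ i
  rw [h1]
  exact CC_norm

include hZ in
theorem idxC [Finite G] (h : Hyp H P Q) (i : Bool) : (CC H P i).relIndex (ze P) = 2 := by
  obtain ⟨k, hk, hg⟩ := h.gen i
  rw [← h.CC_eq hZ hk hg]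
  apply relIndex_inf_two (B := V H P i) _ (Z_le_V H P i) (h.not_Z_le hZ hk hg)
  have h1 : cj k (V H P i) = V H P i := cj_eq_of_norm (V_norm H P i) hk
  rw [← h1, relIndex_cj, h.idxZ hZ i]

theorem CC_inf (h : Hyp H P Q) (i : Bool) : CC H P i ⊓ CC H P (!i) = ⊥ := by
  apply h.core' (i := i) (inf_le_left.trans (inf_le_left.trans (ze_le P)))
  · intro g hg
    apply mem_normalizer_of_cj
    ext x
    rw [mem_cj]
    have key : ∀ x : G, x ∈ CC H P i ⊓ CC H P (!i) → g * x * g⁻¹ = x ∧ g⁻¹ * x * g = x := by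
      intro x hx
      have h1 := CC_comm hx.1 hg
      exact ⟨by rw [h1]; group, by rw [mul_assoc, ← h1]; group⟩
    constructor
    · intro hx
      have h1 := (key _ hx).1
      have h2 : g * (g⁻¹ * x * g) * g⁻¹ = x := by group
      rw [h2] at h1
      rw [h1]; exact hx
    · intro hx
      rw [(key _ hx).2]; exact hx
  · intro g hg
    apply mem_normalizer_of_cj
    ext x
    rw [mem_cj]
    have key : ∀ x : G, x ∈ CC H P i ⊓ CC H P (!i) → g * x * g⁻¹ = x ∧ g⁻¹ * x * g = x := by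
      intro x hx
      have h1 := CC_comm hx.2 hg
      exact ⟨by rw [h1]; group, by rw [mul_assoc, ← h1]; group⟩
    constructor
    · intro hx
      have h1 := (key _ hx).1
      have h2 : g * (g⁻¹ * x * g) * g⁻¹ = x := by group
      rw [h2] at h1
      rw [h1]; exact hx
    · intro hx
      rw [(key _ hx).2]; exact hx

include hZ in
/-- the commutator `[V_i, P]` -/
theorem exists_r [Finite G] (h : Hyp H P Q) (i : Bool) : ∃ r, r ∈ ze P ∧ r ≠ 1 ∧ r * r = 1 ∧
    (∀ x, x ∈ RR H P i ↔ x = 1 ∨ x = r) ∧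
    (∀ v ∈ V H P i, v ∉ ze P → ∀ p ∈ P, p ∉ Q i → v * p * v⁻¹ * p⁻¹ = r) := by
  have hi := h.idxZ hZ i
  have hne : ∃ v ∈ V H P i, v ∉ ze P := by
    by_contra hcon
    push Not at hcon
    have := Subgroup.relIndex_eq_one.mpr hcon
    omega
  obtain ⟨v0, hv0, hv0Z⟩ := hne
  obtain ⟨p0, hp0, hp0Q⟩ := h.Q_lt i
  have hVV : ∀ a ∈ V H P i, ∀ b ∈ V H P i, a * b = b * a := fun a ha b hb => h.V_comm hZ hb (h.V_le_Q hZ i ha)
  have hVp : ∀ p ∈ P, ∀ v ∈ V H P i, p * v * p⁻¹ ∈ V H P i := by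
    intro p hp v hv
    have := conj_mem_cj (g := p) hv
    rwa [cj_eq_of_norm (h.PV i) hp] at this
  have hA : ∀ v ∈ V H P i, v ∉ ze P → ∀ p ∈ P, p ∉ Q i → v * p * v⁻¹ * p⁻¹ = v0 * p0 * v0⁻¹ * p0⁻¹ := by
    intro v hv hvZ p hp hpQ
    have hz := inv_mul_mem_of_relIndex_two hi hv0 hv hv0Z hvZ
    have hq := inv_mul_mem_of_relIndex_two (h.idx i) hp0 hp hp0Q hpQ
    generalize v0⁻¹ * v = z at hz
    have e1 : v = v0 * (v0⁻¹ * v) := by group
    have e2 : p = p0 * (p0⁻¹ * p) := by group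
    have hz' := inv_mul_mem_of_relIndex_two hi hv0 hv hv0Z hvZ
    set z' := v0⁻¹ * v with hz'd
    set q := p0⁻¹ * p with hqd
    have hpz := ze_comm hz' hp
    rw [e1]
    have h1 : v0 * z' * p * (v0 * z')⁻¹ * p⁻¹ = v0 * (z' * p) * z'⁻¹ * v0⁻¹ * p⁻¹ := by group
    rw [h1, ← hpz]
    have h2 : v0 * (p * z') * z'⁻¹ * v0⁻¹ * p⁻¹ = v0 * p * v0⁻¹ * p⁻¹ := by group
    rw [h2, e2]
    have h3 := h.V_comm hZ (inv_mem hv0) hq
    have h4 : v0 * (p0 * q) * v0⁻¹ * (p0 * q)⁻¹ = v0 * p0 * (q * v0⁻¹) * q⁻¹ * p0⁻¹ := by group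
    rw [h4, h3]; group
  have hB1 : ∀ v ∈ ze P, ∀ p ∈ P, v * p * v⁻¹ * p⁻¹ = 1 := by
    intro v hv p hp
    rw [← ze_comm hv hp]; group
  have hB2 : ∀ v ∈ V H P i, ∀ p ∈ Q i, v * p * v⁻¹ * p⁻¹ = 1 := by
    intro v hv p hp
    rw [← h.V_comm hZ hv hp]; group
  set r := v0 * p0 * v0⁻¹ * p0⁻¹ with hr
  have hrr : r * r = 1 := by
    have h1 := hA v0⁻¹ (inv_mem hv0) (fun h1 => hv0Z (by simpa using inv_mem h1)) p0 hp0 hp0Q
    have h2 := hVV v0 hv0 _ (hVp p0 hp0 _ (inv_mem hv0))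
    calc r * r = r * (v0⁻¹ * p0 * v0⁻¹⁻¹ * p0⁻¹) := by rw [h1]
      _ = (v0 * (p0 * v0⁻¹ * p0⁻¹)) * v0⁻¹ * (p0 * v0 * p0⁻¹) := by rw [hr]; group
      _ = ((p0 * v0⁻¹ * p0⁻¹) * v0) * v0⁻¹ * (p0 * v0 * p0⁻¹) := by rw [h2]
      _ = 1 := by group
  have hrV : r ∈ V H P i := by
    have := mul_mem hv0 (hVp p0 hp0 _ (inv_mem hv0))
    have e : v0 * (p0 * v0⁻¹ * p0⁻¹) = r := by rw [hr]; group
    rwa [e] at this
  have hrp0 : p0 * r = r * p0 := by
    have h1 : p0 * v0 * p0⁻¹ ∉ ze P := by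
      intro hcon
      apply hv0Z
      have h2 := conj_mem_cj (g := p0⁻¹) hcon
      rw [cj_eq_of_norm norm_ze (inv_mem hp0)] at h2
      have e : p0⁻¹ * (p0 * v0 * p0⁻¹) * p0⁻¹⁻¹ = v0 := by group
      rwa [e] at h2
    have h3 := hA _ (hVp p0 hp0 v0 hv0) h1 p0 hp0 hp0Q
    have h4 : p0 * r * p0⁻¹ = r := by
      calc p0 * r * p0⁻¹ = p0 * v0 * p0⁻¹ * p0 * (p0 * v0 * p0⁻¹)⁻¹ * p0⁻¹ := by rw [hr]; group
        _ = r := h3
    calc p0 * r = (p0 * r * p0⁻¹) * p0 := by group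
      _ = r * p0 := by rw [h4]
  have hrZ : r ∈ ze P := by
    refine mem_ze (h.V_le_P hZ i hrV) (fun x hx => ?_)
    by_cases hxQ : x ∈ Q i
    · exact h.V_comm hZ hrV hxQ
    · have hq := inv_mul_mem_of_relIndex_two (h.idx i) hp0 hx hp0Q hxQ
      have h1 := h.V_comm hZ hrV hq
      calc x * r = p0 * ((p0⁻¹ * x) * r) := by group
        _ = (p0 * r) * (p0⁻¹ * x) := by rw [h1]; group
        _ = r * x := by rw [hrp0]; group
  have hr1 : r ≠ 1 := by
    intro hcon
    apply hp0Q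
    refine h.centr hZ hp0 (fun v hv => ?_)
    have : v * p0 * v⁻¹ * p0⁻¹ = 1 := by
      by_cases hvZ : v ∈ ze P
      · exact hB1 v hvZ p0 hp0
      · rw [hA v hv hvZ p0 hp0 hp0Q, hcon]
    have h2 : v * p0 = p0 * v := by
      have h3 : v * p0 * v⁻¹ * p0⁻¹ * (p0 * v) = p0 * v := by rw [this, one_mul]
      have h4 : v * p0 * v⁻¹ * p0⁻¹ * (p0 * v) = v * p0 := by group
      rw [← h3, h4]
    exact h2.symm
  have hall : ∀ v ∈ V H P i, ∀ p ∈ P, v * p * v⁻¹ * p⁻¹ = 1 ∨ v * p * v⁻¹ * p⁻¹ = r := by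
    intro v hv p hp
    by_cases hvZ : v ∈ ze P
    · left; exact hB1 v hvZ p hp
    · by_cases hpQ : p ∈ Q i
      · left; exact hB2 v hv p hpQ
      · right; exact hA v hv hvZ p hp hpQ
  refine ⟨r, hrZ, hr1, hrr, ?_, hA⟩
  intro x
  constructor
  · intro hx
    have hle : RR H P i ≤ Subgroup.zpowers r := by
      rw [RR, Subgroup.commutator_le]
      intro v hv p hp
      rw [commutatorElement_def]
      rcases hall v hv p hp with h1 | h1
      · rw [h1]; exact one_mem _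
      · rw [h1]; exact Subgroup.mem_zpowers r
    obtain ⟨k, hk⟩ := hle hx
    rcases Int.even_or_odd k with hk2 | hk2
    · left
      obtain ⟨j, rfl⟩ := hk2
      rw [← hk]
      show r ^ (j + j) = 1
      rw [← two_mul, zpow_mul, zpow_ofNat, pow_two, hrr, one_zpow]
    · right
      obtain ⟨j, rfl⟩ := hk2
      rw [← hk]
      show r ^ (2 * j + 1) = r
      rw [zpow_add, zpow_mul, zpow_ofNat, pow_two, hrr, one_zpow, one_mul, zpow_one]
  · rintro (rfl | rfl)
    · exact one_mem _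
    · exact Subgroup.commutator_mem_commutator hv0 hp0

end Hyp

end Cfsg.Agent.Lib.Tut
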