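import Cfsg.Agent.Lib.TutC

/-!
# A symmetric amalgam with dihedral residues (helper47): critical distance one (for S4385)
-/

set_option autoImplicit false

open scoped Pointwise commutatorElement

namespace Cfsg.Agent.Lib.Tut

variable {G : Type*} [Group G]

theorem norm_sup {K X Y : Subgroup G} (h1 : K ≤ Subgroup.normalizer (X : Set G)) (h2 : K ≤ Subgroup.normalizer (Y : Set G)) :
    K ≤ Subgroup.normalizer ((X ⊔ Y : Subgroup G) : Set G) := by
  intro g hg
  apply mem_normalizer_of_cj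
  rw [cj_sup, cj_eq_of_norm h1 hg, cj_eq_of_norm h2 hg]

theorem cj_norm_le {K X : Subgroup G} {y : G} (h : K ≤ Subgroup.normalizer (X : Set G)) :
    cj y K ≤ Subgroup.normalizer ((cj y X : Subgroup G) : Set G) := by
  rw [← cj_normalizer]; exact cj_mono h

variable {H : Bool → Subgroup G} {P : Subgroup G} {Q : Bool → Subgroup G}

namespace Hyp

variable (hZ : ∀ i, ze P ≤ Q i)

include hZ in
theorem RR_le_Z [Finite G] (h : Hyp H P Q) (i : Bool) : RR H P i ≤ ze P := by
  obtain ⟨r, hr, hr1, hrr, hR, hA⟩ := h.exists_r hZ i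
  intro x hx
  rcases (hR x).mp hx with rfl | rfl
  · exact one_mem _
  · exact hr

include hZ in
theorem not_RR_le_CC [Finite G] (h : Hyp H P Q) (i : Bool) : ¬ RR H P i ≤ CC H P i := by
  intro hcon
  obtain ⟨k, hk, hg⟩ := h.gen i
  apply h.not_H_central hZ i
  rw [← hg]
  apply sup_le norm_ze
  apply norm_of_cj_le
  intro p hp
  have h1 : cj k (RR H P i) ≤ ze P := by
    refine (cj_mono hcon).trans ?_
    rw [cj_CC_self hk]
    exact inf_le_left
  have h2 : cj k (RR H P i) = ⁅V H P i, cj k P⁆ := by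
    unfold RR
    rw [cj_commutator, cj_eq_of_norm (V_norm H P i) hk]
  intro x hx
  rw [mem_cj] at hx
  have h3 : ⁅p⁻¹ * x * p, p⁆ ∈ ze P := by
    apply h1
    rw [h2]
    exact Subgroup.commutator_mem_commutator (Z_le_V H P i hx) hp
  rw [commutatorElement_def] at h3
  have h4 := mul_mem (inv_mem h3) hx
  have e : (p⁻¹ * x * p * p * (p⁻¹ * x * p)⁻¹ * p⁻¹)⁻¹ * (p⁻¹ * x * p) = x := by group
  rwa [e] at h4

include hZ in
theorem Z_sup [Finite G] (h : Hyp H P Q) (i : Bool) : ze P = CC H P i ⊔ RR H P i :=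
  eq_sup_of_relIndex_two (h.idxC hZ i) inf_le_left (h.RR_le_Z hZ i) (h.not_RR_le_CC hZ i)

include hZ in
theorem V_sup [Finite G] (h : Hyp H P Q) {i : Bool} {k : G} (hk : k ∈ H i) (hg : P ⊔ cj k P = H i) :
    V H P i = CC H P i ⊔ RR H P i ⊔ cj k (RR H P i) := by
  have h1 : ¬ cj k (ze P) ≤ ze P := by
    intro hcon
    have := Subgroup.eq_of_le_of_card_ge hcon (card_cj k (ze P)).ge
    exact h.not_Z_le hZ hk hg this.ge
  have h2 := eq_sup_of_relIndex_two (h.idxZ hZ i) (Z_le_V H P i) (cj_le_V H P i hk) h1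
  apply le_antisymm
  · rw [h2, h.Z_sup hZ i, cj_sup, cj_CC_self hk]
    apply sup_le
    · exact le_sup_left
    · apply sup_le
      · exact le_sup_left.trans le_sup_left
      · exact le_sup_right
  · apply sup_le
    · rw [← h.Z_sup hZ i]; exact Z_le_V H P i
    · exact (cj_mono (h.RR_le_Z hZ i)).trans (cj_le_V H P i hk)

include hZ in
theorem CC_sq [Finite G] (h : Hyp H P Q) (i : Bool) {c : G} (hc : c ∈ CC H P i) : c * c = 1 := by
  have h1 : c * c ∈ CC H P (!i) := by
    by_cases h2 : c ∈ CC H P (!i)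
    · exact mul_mem h2 h2
    · exact mul_mem_of_relIndex_two (h.idxC hZ (!i)) hc.1 hc.1 h2 h2
  have h3 : c * c ∈ CC H P i ⊓ CC H P (!i) := ⟨mul_mem hc hc, h1⟩
  rw [h.CC_inf i, Subgroup.mem_bot] at h3
  exact h3

include hZ in
theorem V_sq [Finite G] (h : Hyp H P Q) (i : Bool) {v : G} (hv : v ∈ V H P i) : v * v = 1 := by
  have hVV : ∀ a ∈ V H P i, ∀ b ∈ V H P i, a * b = b * a := fun a ha b hb => h.V_comm hZ hb (h.V_le_Q hZ i ha)
  obtain ⟨k, hk, hg⟩ := h.gen i
  obtain ⟨r, hr, hr1, hrr, hR, hA⟩ := h.exists_r hZ i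
  let K : Subgroup G :=
    { carrier := {x | x ∈ V H P i ∧ x * x = 1}
      mul_mem' := by
        rintro a b ⟨ha, ha1⟩ ⟨hb, hb1⟩
        refine ⟨mul_mem ha hb, ?_⟩
        calc a * b * (a * b) = a * (b * a) * b := by group
          _ = a * (a * b) * b := by rw [hVV b hb a ha]
          _ = (a * a) * (b * b) := by group
          _ = 1 := by rw [ha1, hb1, one_mul]
      one_mem' := ⟨one_mem _, by simp⟩
      inv_mem' := by
        rintro a ⟨ha, ha1⟩
        refine ⟨inv_mem ha, ?_⟩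
        rw [← mul_inv_rev, ha1, inv_one] }
  have hR1 : RR H P i ≤ K := by
    intro x hx
    refine ⟨Z_le_V H P i (h.RR_le_Z hZ i hx), ?_⟩
    rcases (hR x).mp hx with rfl | rfl
    · simp
    · exact hrr
  have hle : V H P i ≤ K := by
    rw [h.V_sup hZ hk hg]
    apply sup_le (sup_le _ hR1)
    · intro x hx
      rw [mem_cj] at hx
      have h1 := hR1 hx
      refine ⟨?_, ?_⟩
      · have h2 := conj_mem_cj (g := k) h1.1
        rw [cj_eq_of_norm (V_norm H P i) hk] at h2
        have e : k * (k⁻¹ * x * k) * k⁻¹ = x := by group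
        rwa [e] at h2
      · calc x * x = k * ((k⁻¹ * x * k) * (k⁻¹ * x * k)) * k⁻¹ := by group
          _ = 1 := by rw [h1.2]; group
    · intro c hc
      exact ⟨Z_le_V H P i hc.1, h.CC_sq hZ i hc⟩
  exact (hle hv).2

include hZ in
theorem V_inv [Finite G] (h : Hyp H P Q) (i : Bool) {v : G} (hv : v ∈ V H P i) : v⁻¹ = v :=
  inv_eq_of_mul_eq_one_left (h.V_sq hZ i hv)

include hZ in
theorem RR_crit [Finite G] (h : Hyp H P Q) {b : ℕ} (hlow : Low H P Q b) {t : Bool} {g : G} (hc : Crit H P Q b t g) :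
    RR H P t = cj g (RR H P (ty b t)) := by
  obtain ⟨r, hr, hr1, hrr, hR, hA⟩ := h.exists_r hZ t
  obtain ⟨s, hs, hs1, hss, hS, hB⟩ := h.exists_r hZ (ty b t)
  obtain ⟨w, hw, hwQ⟩ := SetLike.not_le_iff_exists.mp (h.crit_not_le hZ hlow hc)
  obtain ⟨v, hv, hvZ⟩ : ∃ v ∈ V H P t, v ∉ ze P := by
    by_contra hcon
    push Not at hcon
    have h1 := Subgroup.relIndex_eq_one.mpr hcon
    have h2 := h.idxZ hZ t
    omega
  have h1 := hA v hv hvZ w (h.crit_le hZ hlow hc hw) hwQ
  have h2 : r ∈ cj g (RR H P (ty b t)) := by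
    unfold RR
    rw [cj_commutator, ← h1]
    have h3 := Subgroup.commutator_mem_commutator hw (h.V_le_edge hZ hlow hc.1 hv)
    have h4 := inv_mem h3
    rw [commutatorElement_inv, commutatorElement_def] at h4
    exact h4
  rw [mem_cj, hS] at h2
  have h5 : g⁻¹ * r * g = s := by
    rcases h2 with h2 | h2
    · exfalso
      apply hr1
      have : r = g * (g⁻¹ * r * g) * g⁻¹ := by group
      rw [this, h2]; group
    · exact h2
  ext x
  rw [mem_cj, hR, hS, ← h5]
  constructor
  · rintro (rfl | rfl)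
    · left; group
    · right; rfl
  · rintro (hx | hx)
    · left
      have : x = g * (g⁻¹ * x * g) * g⁻¹ := by group
      rw [this, hx]; group
    · right
      have : x = g * (g⁻¹ * x * g) * g⁻¹ := by group
      rw [this, hx]; group

include hZ in
theorem shift [Finite G] (h : Hyp H P Q) {b : ℕ} (hlow : Low H P Q (b + 2)) {t : Bool} {g k m : G}
    (hw : W H (b + 1) t g) (hk : k ∈ H (ty (b + 1) t)) (hc : Crit H P Q (b + 2) t (g * k))
    (hm : m ∈ H t) (hmg : P ⊔ cj m P = H t) : Crit H P Q (b + 2) (!t) (m⁻¹ * g) := by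
  refine ⟨W.cons (by rw [Bool.not_not]; exact hw) (by rw [Bool.not_not]; exact inv_mem hm), fun hle => ?_⟩
  have e0 : ty (b + 2) (!t) = ty (b + 1) t := by simp only [ty, ty_not, Bool.not_not]
  rw [e0, ← cj_cj, le_cj_iff, inv_inv] at hle
  have hle2 : cj m (V H P (!t)) ≤ cj (g * k) (Q (ty (b + 1) t)) := by
    rw [← cj_cj, cj_eq_of_norm (h.QH _) hk]
    exact hle
  set j := ty (b + 2) t with hj
  set gk := g * k with hgk
  have hVb := h.crit_le hZ hlow hc
  have hP := eq_sup_of_relIndex_two (h.idx t) (h.QP t) hVb (h.crit_not_le hZ hlow hc)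
  obtain ⟨v0, hv0, hv0Q⟩ := SetLike.not_le_iff_exists.mp hc.2
  have hidx : (cj gk (Q j)).relIndex (cj gk P) = 2 := by rw [relIndex_cj, h.idx]
  have hcomm : ∀ a ∈ cj gk (Q j), ∀ w ∈ cj gk (V H P j), w * a = a * w := by
    intro a ha w hw
    rw [mem_cj] at ha hw
    have h1 := h.V_comm hZ hw ha
    calc w * a = gk * ((gk⁻¹ * w * gk) * (gk⁻¹ * a * gk)) * gk⁻¹ := by group
      _ = gk * ((gk⁻¹ * a * gk) * (gk⁻¹ * w * gk)) * gk⁻¹ := by rw [h1]
      _ = a * w := by group
  have hPVt : ∀ p ∈ P, ∀ v ∈ V H P t, p * v * p⁻¹ ∈ V H P t := by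
    intro p hp v hv
    have := conj_mem_cj (g := p) hv
    rwa [cj_eq_of_norm (h.PV t) hp] at this
  have hN1 : cj gk (V H P j) ≤ Subgroup.normalizer ((cj m (V H P (!t)) ⊔ V H P t : Subgroup G) : Set G) := by
    apply norm_of_cj_le
    intro w hw
    have hwP := hVb hw
    rw [cj_sup]
    apply sup_le _ _
    · intro x hx
      rw [mem_cj] at hx
      set a := w⁻¹ * x * w with ha
      have ex : x = w * a * w⁻¹ := by rw [ha]; group
      by_cases haQ : a ∈ cj gk (Q j)
      · have h1 := hcomm a haQ w hw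
        rw [ex, h1, mul_inv_cancel_right]
        exact (le_sup_left : cj m (V H P (!t)) ≤ _) hx
      · have haP : a ∈ cj gk P := cj_mono (h.QP _) (hle2 hx)
        have h1 := mul_mem_of_relIndex_two hidx haP (h.V_le_edge hZ hlow hc.1 hv0) haQ hv0Q
        have h2 := hcomm _ h1 w hw
        have h3 : x = (a * v0) * (w * v0 * w⁻¹)⁻¹ := by
          calc x = w * (a * v0) * w⁻¹ * (w * v0 * w⁻¹)⁻¹ := by rw [ex]; group
            _ = (a * v0) * w * w⁻¹ * (w * v0 * w⁻¹)⁻¹ := by rw [h2]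
            _ = (a * v0) * (w * v0 * w⁻¹)⁻¹ := by group
        rw [h3]
        exact mul_mem (mul_mem ((le_sup_left : cj m (V H P (!t)) ≤ _) hx) ((le_sup_right : V H P t ≤ _) hv0))
          (inv_mem ((le_sup_right : V H P t ≤ _) (hPVt w hwP v0 hv0)))
    · rw [cj_eq_of_norm (h.PV t) hwP]
      exact le_sup_right
  have hN2 : cj m P ≤ Subgroup.normalizer ((cj m (V H P (!t)) ⊔ V H P t : Subgroup G) : Set G) := by
    apply norm_sup
    · exact cj_norm_le (h.PV (!t))
    · refine le_trans ?_ (V_norm H P t)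
      rw [← hmg]; exact le_sup_right
  have hN3 : H t ≤ Subgroup.normalizer ((cj m (V H P (!t)) ⊔ V H P t : Subgroup G) : Set G) := by
    rw [← hmg]
    apply sup_le _ hN2
    refine hP.le.trans (sup_le ?_ hN1)
    refine le_trans ?_ hN2
    have := cj_mono (g := m) (h.QP t)
    rwa [cj_eq_of_norm (h.QH t) hm] at this
  have hA : cj m (V H P (!t)) ⊔ V H P t = V H P (!t) ⊔ V H P t := by
    have h1 := cj_eq_of_norm hN3 (inv_mem hm)
    rw [cj_sup, cj_cj, inv_mul_cancel, cj_one, cj_eq_of_norm (V_norm H P t) (inv_mem hm)] at h1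
    exact h1.symm
  rw [hA] at hN3
  obtain ⟨y, e1, e2, e3, e4, e5, e6, e7⟩ := h.sym' (h.V_le_P hZ) t
  have hN4 : H (!t) ≤ Subgroup.normalizer ((V H P (!t) ⊔ V H P t : Subgroup G) : Set G) := by
    have h1 := cj_norm_le (y := y) hN3
    rw [cj_sup, e4, e5, e2, sup_comm] at h1
    exact h1
  have := h.core' (i := t) (sup_le (h.V_le_P hZ _) (h.V_le_P hZ _)) hN3 hN4
  apply h.Z_ne
  rw [eq_bot_iff, ← this]
  exact (Z_le_V H P t).trans le_sup_right

include hZ in
/-- the two possibilities for the commutators -/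
theorem dich [Finite G] (h : Hyp H P Q) (i : Bool) :
    RR H P i = RR H P (!i) ∨ (RR H P i = CC H P (!i) ∧ RR H P (!i) = CC H P i) := by
  obtain ⟨r, hr, hr1, hrr, hR, hA⟩ := h.exists_r hZ i
  obtain ⟨s, hs, hs1, hss, hS, hB⟩ := h.exists_r hZ (!i)
  obtain ⟨y, e1, e2, e3, e4⟩ := h.sym i
  have hCC := cj_CC (H := H) y e1 e2
  have hRR := cj_RR h e1 e2
  have hCC2 : cj y (CC H P (!i)) = CC H P i := by
    rw [← hCC]
    exact e4 _ (inf_le_left.trans (ze_le P)) ((h.PH i).trans CC_norm)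
  have hrC : r ∉ CC H P i := by
    intro hcon
    apply h.not_RR_le_CC hZ i
    intro x hx
    rcases (hR x).mp hx with rfl | rfl
    · exact one_mem _
    · exact hcon
  have hsC : s ∉ CC H P (!i) := by
    intro hcon
    apply h.not_RR_le_CC hZ (!i)
    intro x hx
    rcases (hS x).mp hx with rfl | rfl
    · exact one_mem _
    · exact hcon
  by_cases h1 : r ∈ CC H P (!i)
  · right
    have h2 : RR H P i = CC H P (!i) := by
      ext x
      rw [hR]
      constructor
      · rintro (rfl | rfl)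
        · exact one_mem _
        · exact h1
      · intro hx
        by_cases hxC : x ∈ CC H P i
        · left
          have : x ∈ CC H P i ⊓ CC H P (!i) := ⟨hxC, hx⟩
          rwa [h.CC_inf i, Subgroup.mem_bot] at this
        · right
          have h3 := mul_mem_of_relIndex_two (h.idxC hZ i) hx.1 hr hxC hrC
          have h4 : x * r ∈ CC H P i ⊓ CC H P (!i) := ⟨h3, mul_mem hx h1⟩
          rw [h.CC_inf i, Subgroup.mem_bot] at h4
          calc x = x * r * r := by rw [mul_assoc, hrr, mul_one]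
            _ = r := by rw [h4, one_mul]
    refine ⟨h2, ?_⟩
    rw [← hRR, h2, hCC2]
  · left
    have h2 : s ∉ CC H P i := by
      intro hcon
      apply h1
      have h3 : RR H P (!i) ≤ CC H P i := by
        intro x hx
        rcases (hS x).mp hx with rfl | rfl
        · exact one_mem _
        · exact hcon
      rw [← hRR, ← hCC2, cj_le_iff] at h3
      exact h3 ((hR r).mpr (Or.inr rfl))
    have h3 : r * s ∈ CC H P i ⊓ CC H P (!i) :=
      ⟨mul_mem_of_relIndex_two (h.idxC hZ i) hr hs hrC h2, mul_mem_of_relIndex_two (h.idxC hZ (!i)) hr hs h1 hsC⟩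
    rw [h.CC_inf i, Subgroup.mem_bot] at h3
    have h4 : r = s := by
      calc r = r * s * s := by rw [mul_assoc, hss, mul_one]
        _ = s := by rw [h3, one_mul]
    ext x
    rw [hR, hS, h4]

/-- adjacency -/
theorem adj_le (h : Hyp H P Q) {b : ℕ} (hlow : Low H P Q (b + 2)) (i : Bool) : V H P i ≤ Q (!i) := by
  have := hlow 1 (by omega) i 1 (W.one i)
  rwa [cj_one] at this

include hZ in
theorem case_eq [Finite G] (h : Hyp H P Q) {b : ℕ} (hlow : Low H P Q (b + 2)) {t : Bool} {g : G}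
    (hc : Crit H P Q (b + 2) t g) (hRR : ∀ i, RR H P i = RR H P (!i)) : False := by
  obtain ⟨g', k, hw, hk, rfl⟩ := hc.1.pred
  obtain ⟨m, hm, hmg⟩ := h.gen t
  have hc2 := h.shift hZ hlow hw hk hc hm hmg
  have h1 := h.RR_crit hZ hlow hc
  have h2 := h.RR_crit hZ hlow hc2
  have hall : ∀ i j, RR H P i = RR H P j := by
    intro i j
    rcases Bool.eq_or_eq_not i j with rfl | rfl
    · rfl
    · rw [← hRR]
  apply h.crit_not_le hZ hlow hc
  intro w hww
  have hwP := h.crit_le hZ hlow hc hww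
  have hcomm : ∀ a ∈ cj (g' * k) (Q (ty (b + 2) t)), w * a = a * w := by
    intro a ha
    rw [mem_cj] at ha hww
    have h1 := h.V_comm hZ hww ha
    calc w * a = (g' * k) * (((g' * k)⁻¹ * w * (g' * k)) * ((g' * k)⁻¹ * a * (g' * k))) * (g' * k)⁻¹ := by group
      _ = (g' * k) * (((g' * k)⁻¹ * a * (g' * k)) * ((g' * k)⁻¹ * w * (g' * k))) * (g' * k)⁻¹ := by rw [h1]
      _ = a * w := by group
  have hle : V H P t ≤ Subgroup.centralizer {w} := by
    rw [h.V_sup hZ hm hmg]
    apply sup_le (sup_le _ _) _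
    · intro x hx
      rw [Subgroup.mem_centralizer_singleton_iff]
      exact (CC_comm hx (h.PH t hwP)).symm
    · intro x hx
      rw [Subgroup.mem_centralizer_singleton_iff]
      rw [h1] at hx
      exact (hcomm x (cj_mono ((h.RR_le_Z hZ _).trans (hZ _)) hx)).symm
    · intro x hx
      rw [Subgroup.mem_centralizer_singleton_iff]
      rw [hRR t, h2, cj_cj, mul_inv_cancel_left] at hx
      refine (hcomm x ?_).symm
      have h3 : cj g' (ze P) ≤ cj (g' * k) (Q (ty (b + 2) t)) := by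
        refine (cj_mono (Z_le_V H P (ty (b + 1) t))).trans ?_
        rw [← cj_cj, cj_le_iff]
        have h4 : cj k (V H P (ty (b + 1) t)) = V H P (ty (b + 1) t) := cj_eq_of_norm (V_norm H P _) hk
        rw [← h4]
        exact cj_mono (h.adj_le hlow _)
      exact h3 (cj_mono (h.RR_le_Z hZ _) hx)
  refine h.centr hZ hwP (fun v hv => ?_)
  exact (Subgroup.mem_centralizer_singleton_iff.mp (hle hv)).symm

include hZ in
theorem case_far [Finite G] (h : Hyp H P Q) {b : ℕ} (hlow : Low H P Q (b + 3)) {t : Bool} {g : G}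
    (hc : Crit H P Q (b + 3) t g) (hRC : ∀ i, RR H P i = CC H P (!i)) : False := by
  obtain ⟨g', k, hw, hk, rfl⟩ := hc.1.pred
  obtain ⟨g'', k', hw', hk', rfl⟩ := hw.pred
  obtain ⟨m, hm, hmg⟩ := h.gen t
  obtain ⟨n, hn, hng⟩ := h.gen (!t)
  have hc2 := h.shift hZ hlow hw hk hc hm hmg
  have hw2 : W H (b + 1 + 1) (!t) (m⁻¹ * g'') :=
    W.cons (by rw [Bool.not_not]; exact hw') (by rw [Bool.not_not]; exact inv_mem hm)
  have e1 : ty (b + 1 + 1) (!t) = ty (b + 1) t := by simp only [ty, ty_not, Bool.not_not]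
  rw [← mul_assoc] at hc2
  have hc3 := h.shift hZ hlow hw2 (by rw [e1]; exact hk') hc2 hn hng
  have h1 := h.RR_crit hZ hlow hc
  have h2 := h.RR_crit hZ hlow hc2
  have h3 := h.RR_crit hZ hlow hc3
  set j := ty (b + 1) t with hj
  have e2 : ty (b + 1 + 2) t = j := by simp only [ty, Bool.not_not, hj]
  have e3 : ty (b + 1 + 2) (!t) = !j := by simp only [ty, ty_not, Bool.not_not, hj]
  have e4 : ty (b + 1 + 1) t = !j := by simp only [ty, hj]
  rw [Bool.not_not] at h3
  rw [e2, hRC, hRC j] at h1 h3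
  rw [e3, hRC, hRC (!j), Bool.not_not, Bool.not_not] at h2
  rw [e4] at hk
  -- h1 : CC (!t) = cj (g''*k'*k) CC (!j);  h2 : CC t = cj (m⁻¹ * g'' * k') (CC j)
  have h2' : CC H P t = cj (g'' * k') (CC H P j) := by
    have h5 := cj_CC_self (P := P) hm
    rw [h2, cj_cj] at h5
    have e : m * (m⁻¹ * g'' * k') = g'' * k' := by group
    rw [e] at h5
    rw [h2]
    exact h5.symm
  have h3' : cj m (CC H P (!t)) = cj g'' (CC H P (!j)) := by
    have h5 := cj_CC_self (P := P) hn
    have h6 : cj n (CC H P (!t)) = cj m⁻¹ (cj g'' (CC H P (!j))) := by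
      rw [h3, cj_cj, cj_cj]
      congr 1
      group
    rw [h5] at h6
    rw [h6, cj_cj, mul_inv_cancel, cj_one]
  apply hc.2
  rw [e2]
  have hVj : cj k' (V H P j) = V H P j := cj_eq_of_norm (V_norm H P j) hk'
  have hle1 : V H P t ≤ cj (g'' * k') (V H P j) := by
    rw [h.V_sup hZ hm hmg, hRC t]
    apply sup_le (sup_le _ _) _
    · rw [h2']
      exact cj_mono (inf_le_left.trans (Z_le_V H P j))
    · rw [h1, ← cj_cj (g'' * k') k, cj_CC_self hk]
      exact cj_mono (inf_le_left.trans (Z_le_V H P j))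
    · rw [h3', ← cj_cj g'' k', hVj]
      exact cj_mono (inf_le_left.trans (Z_le_V H P j))
  refine hle1.trans ?_
  rw [← cj_cj (g'' * k') k]
  apply cj_mono
  have h7 : W H 2 j k := by
    have := W.snoc 1 j 1 k (W.one j) (by simpa only [ty] using hk)
    simpa using this
  have h8 := hlow 2 (by omega) j k h7
  simpa only [ty, Bool.not_not] using h8

end Hyp

end Cfsg.Agent.Lib.Tut
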