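import Cfsg.Agent.Lib.TutD

/-!
# A symmetric amalgam with dihedral residues (helper47): critical distance two, and the structure of `Q_i` (for S4385)
-/

set_option autoImplicit false

open scoped Pointwise commutatorElement

namespace Cfsg.Agent.Lib.Tut

variable {G : Type*} [Group G]

variable {H : Bool → Subgroup G} {P : Subgroup G} {Q : Bool → Subgroup G}

namespace Hyp

variable (hZ : ∀ i, ze P ≤ Q i)

include hZ in
theorem two_comm [Finite G] (h : Hyp H P Q) (hlow : Low H P Q 2)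
    (hgen : ∀ i, ∀ m ∈ H i, P ⊔ cj m P = H i → ¬ cj m (V H P (!i)) ≤ Q (!i)) (hRC : ∀ i, RR H P i = CC H P (!i))
    {i : Bool} {m v w : G} (hm : m ∈ H i) (hmg : P ⊔ cj m P = H i) (hv : v ∈ cj m (V H P (!i))) (hvQ : v ∉ Q (!i))
    (hw : w ∈ P) (hwQ : w ∉ Q i) :
    (v * (w * v * w⁻¹)) * (v * (w * v * w⁻¹)) ∈ CC H P i ∧ (v * (w * v * w⁻¹)) * (v * (w * v * w⁻¹)) ≠ 1 := by
  have hadj : ∀ i, V H P i ≤ Q (!i) := fun i => h.adj_le (b := 0) hlow i
  have hvv : v * v = 1 := by
    have h1 := h.V_sq hZ (!i) (mem_cj.mp hv)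
    calc v * v = m * ((m⁻¹ * v * m) * (m⁻¹ * v * m)) * m⁻¹ := by group
      _ = 1 := by rw [h1]; group
  have hvi : v⁻¹ = v := inv_eq_of_mul_eq_one_left hvv
  set v' := w * v * w⁻¹ with hv'
  have hv'v' : v' * v' = 1 := by
    calc v' * v' = w * (v * v) * w⁻¹ := by rw [hv']; group
      _ = 1 := by rw [hvv]; group
  have hv'i : v'⁻¹ = v' := inv_eq_of_mul_eq_one_left hv'v'
  have hmQ : cj m (Q i) = Q i := cj_eq_of_norm (h.QH i) hm
  have hwQi : cj w (Q i) = Q i := cj_eq_of_norm (h.QH i) (h.PH i hw)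
  have hmV : cj m (V H P (!i)) ≤ Q i := by
    have h1 := cj_mono (g := m) (hadj (!i))
    rwa [Bool.not_not, hmQ] at h1
  have hvQi : v ∈ Q i := hmV hv
  have hv'Qi : v' ∈ Q i := by
    have h1 := conj_mem_cj (g := w) hvQi
    rwa [hwQi] at h1
  have hxx : (v * v') * (v * v') = ⁅v, v'⁆ := by
    rw [commutatorElement_def, hvi, hv'i]; group
  have hQP : Q i ≤ cj m P := by
    rw [← hmQ]; exact cj_mono (h.QP i)
  rw [hxx]
  constructor
  · have h1 : cj m (RR H P (!i)) = CC H P i := by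
      rw [hRC, Bool.not_not, cj_CC_self hm]
    rw [← h1]
    unfold RR
    rw [cj_commutator]
    exact Subgroup.commutator_mem_commutator hv (hQP hv'Qi)
  · intro hcon
    have hvv' : v * v' = v' * v := commutatorElement_eq_one_iff_mul_comm.mp hcon
    -- index two statements
    have hidx : (cj m (ze P)).relIndex (cj m (V H P (!i))) = 2 := by rw [relIndex_cj, h.idxZ hZ]
    have hmZ : cj m (ze P) ≤ V H P i := cj_le_V H P i hm
    have hvZ : v ∉ cj m (ze P) := fun h1 => hvQ (hadj i (hmZ h1))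
    have hdec : ∀ a ∈ cj m (V H P (!i)), ∃ z ∈ V H P i, a = z ∨ a = v * z := by
      intro a ha
      by_cases haZ : a ∈ cj m (ze P)
      · exact ⟨a, hmZ haZ, Or.inl rfl⟩
      · refine ⟨v⁻¹ * a, hmZ (inv_mul_mem_of_relIndex_two hidx hv ha hvZ haZ), Or.inr ?_⟩
        group
    have hwV : cj w (V H P i) = V H P i := cj_eq_of_norm (h.PV i) hw
    have hdec' : ∀ u ∈ cj (w * m) (V H P (!i)), ∃ z ∈ V H P i, u = z ∨ u = v' * z := by
      intro u hu
      rw [← cj_cj, mem_cj] at hu
      obtain ⟨z, hz, e⟩ := hdec _ hu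
      have hz' : w * z * w⁻¹ ∈ V H P i := by
        have := conj_mem_cj (g := w) hz
        rwa [hwV] at this
      refine ⟨w * z * w⁻¹, hz', ?_⟩
      have eu : u = w * (w⁻¹ * u * w) * w⁻¹ := by group
      rcases e with e | e
      · left; rw [eu, e]
      · right; rw [eu, e, hv']; group
    have hVi : ∀ z ∈ V H P i, ∀ q ∈ Q i, q * z = z * q := fun z hz q hq => h.V_comm hZ hz hq
    -- generic pair
    have hwm : P ⊔ cj ((w * m)⁻¹ * m) P = H i := by
      have h1 := h.odd i m hm hmg w hw hwQ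
      have h2 : cj (w * m)⁻¹ (H i) = H i := by
        apply cj_eq_of_mem
        exact Subgroup.le_normalizer (inv_mem (mul_mem (h.PH i hw) hm))
      rw [← h1, cj_sup, cj_cj, cj_cj, inv_mul_cancel, cj_one, sup_comm] at h2
      rw [h2, h1]
    have h3 := hgen i _ (mul_mem (inv_mem (mul_mem (h.PH i hw) hm)) hm) hwm
    obtain ⟨a, ha, haQ⟩ := SetLike.not_le_iff_exists.mp h3
    rw [← cj_cj, mem_cj, inv_inv] at ha
    apply haQ
    have hwmQ : cj (w * m) (Q i) = Q i := by rw [← cj_cj, hmQ, hwQi]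
    set a' := (w * m) * a * (w * m)⁻¹ with ha'
    have ea : a = (w * m)⁻¹ * a' * (w * m) := by rw [ha']; group
    have haP : a ∈ P := by
      apply h.QP i
      rw [ea, ← mem_cj, hwmQ]
      exact hmV ha
    refine h.centr hZ haP (fun x hx => ?_)
    have hu : (w * m) * x * (w * m)⁻¹ ∈ cj (w * m) (V H P (!i)) := conj_mem_cj hx
    set u := (w * m) * x * (w * m)⁻¹ with hud
    have eu : x = (w * m)⁻¹ * u * (w * m) := by rw [hud]; group
    have hau : a' * u = u * a' := by
      obtain ⟨z, hz, e1⟩ := hdec a' ha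
      obtain ⟨z', hz', e2⟩ := hdec' u hu
      have c1 := hVi z hz z' (h.V_le_Q hZ i hz')
      have c2 := hVi z hz v' hv'Qi
      have c3 := hVi z' hz' v hvQi
      rcases e1 with e1 | e1 <;> rcases e2 with e2 | e2 <;> rw [e1, e2]
      · exact c1.symm
      · calc z * (v' * z') = (z * v') * z' := by group
          _ = (v' * z) * z' := by rw [c2]
          _ = v' * (z * z') := by group
          _ = v' * (z' * z) := by rw [c1]
          _ = v' * z' * z := by group
      · calc v * z * z' = v * (z * z') := by group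
          _ = v * (z' * z) := by rw [c1]
          _ = (v * z') * z := by group
          _ = z' * (v * z) := by rw [c3]; group
      · calc v * z * (v' * z') = v * (z * v') * z' := by group
          _ = v * (v' * z) * z' := by rw [c2]
          _ = (v * v') * (z * z') := by group
          _ = (v' * v) * (z' * z) := by rw [hvv', c1]
          _ = v' * (v * z') * z := by group
          _ = v' * (z' * v) * z := by rw [c3]
          _ = v' * z' * (v * z) := by group
    rw [ea, eu]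
    calc (w * m)⁻¹ * a' * (w * m) * ((w * m)⁻¹ * u * (w * m)) = (w * m)⁻¹ * (a' * u) * (w * m) := by group
      _ = (w * m)⁻¹ * (u * a') * (w * m) := by rw [hau]
      _ = (w * m)⁻¹ * u * (w * m) * ((w * m)⁻¹ * a' * (w * m)) := by group

include hZ in
theorem case_two [Finite G] (h : Hyp H P Q) (hlow : Low H P Q 2) {t : Bool} {g : G}
    (hc : Crit H P Q 2 t g) (hRC : ∀ i, RR H P i = CC H P (!i)) : False := by
  have hadj : ∀ i, V H P i ≤ Q (!i) := fun i => h.adj_le (b := 0) hlow i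
  obtain ⟨g', k, hw, hk, rfl⟩ := hc.1.pred
  have hg' : g' = 1 := by
    generalize hc : 0 + 1 = c at hw
    cases hw with
    | one => rfl
    | snoc b'' _ g' l hw' hl => have := hw'.pos; omega
  subst hg'
  have hgen1 : ∀ m ∈ H t, P ⊔ cj m P = H t → ¬ cj m (V H P (!t)) ≤ Q (!t) := by
    intro m hm hmg hle
    have h1 := h.shift hZ (b := 0) hlow hw hk hc hm hmg
    apply h1.2
    rw [le_cj_iff, mul_one, inv_inv]
    simpa only [ty, Bool.not_not] using hle
  obtain ⟨m0, hm0, hmg0⟩ := h.gen t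
  have hc2 := h.shift hZ (b := 0) hlow hw hk hc hm0 hmg0
  have hgen2 : ∀ m ∈ H (!t), P ⊔ cj m P = H (!t) → ¬ cj m (V H P t) ≤ Q t := by
    intro m hm hmg hle
    have hc3 : Crit H P Q 2 (!t) (1 * m0⁻¹) := by
      rw [one_mul]
      rw [mul_one] at hc2
      exact hc2
    have h1 := h.shift hZ (b := 0) hlow (W.one (!t)) (by simpa only [ty, Bool.not_not] using inv_mem hm0) hc3 hm hmg
    apply h1.2
    rw [le_cj_iff, mul_one, inv_inv]
    simpa only [ty, Bool.not_not] using hle
  have hgen : ∀ i, ∀ m ∈ H i, P ⊔ cj m P = H i → ¬ cj m (V H P (!i)) ≤ Q (!i) := by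
    intro i
    rcases Bool.eq_or_eq_not i t with rfl | rfl
    · exact hgen1
    · rw [Bool.not_not]; exact hgen2
  obtain ⟨m, hm, hmg⟩ := h.gen t
  obtain ⟨n, hn, hng⟩ := h.gen (!t)
  obtain ⟨v, hv, hvQ⟩ := SetLike.not_le_iff_exists.mp (hgen t m hm hmg)
  obtain ⟨w, hw1, hwQ⟩ := SetLike.not_le_iff_exists.mp (hgen (!t) n hn hng)
  have hvP : v ∈ P := by
    apply h.QP t
    have h1 := cj_mono (g := m) (hadj (!t))
    rw [Bool.not_not, cj_eq_of_norm (h.QH t) hm] at h1
    exact h1 hv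
  have hwP : w ∈ P := by
    apply h.QP (!t)
    have h1 := cj_mono (g := n) (hadj (!(!t)))
    rw [Bool.not_not, cj_eq_of_norm (h.QH (!t)) hn] at h1
    rw [Bool.not_not] at hw1
    exact h1 hw1
  have hwQ' : w ∉ Q t := by rwa [Bool.not_not] at hwQ
  have k1 := h.two_comm hZ hlow hgen hRC hm hmg hv hvQ hwP hwQ'
  have k2 := h.two_comm hZ hlow hgen hRC hn hng hw1 hwQ hvP hvQ
  have hvv : v * v = 1 := by
    have h1 := h.V_sq hZ (!t) (mem_cj.mp hv)
    calc v * v = m * ((m⁻¹ * v * m) * (m⁻¹ * v * m)) * m⁻¹ := by group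
      _ = 1 := by rw [h1]; group
  have hww : w * w = 1 := by
    have h1 := h.V_sq hZ (!(!t)) (mem_cj.mp hw1)
    calc w * w = n * ((n⁻¹ * w * n) * (n⁻¹ * w * n)) * n⁻¹ := by group
      _ = 1 := by rw [h1]; group
  have hvi : v⁻¹ = v := inv_eq_of_mul_eq_one_left hvv
  have hwi : w⁻¹ = w := inv_eq_of_mul_eq_one_left hww
  have e : (w * (v * w * v⁻¹)) * (w * (v * w * v⁻¹)) = ((v * (w * v * w⁻¹)) * (v * (w * v * w⁻¹)))⁻¹ := by
    have e1 : v * (w * v * w⁻¹) = v * w * v * w := by rw [hwi]; group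
    have e2 : w * (v * w * v⁻¹) = w * v * w * v := by rw [hvi]; group
    rw [e1, e2]
    simp only [mul_inv_rev, hvi, hwi]
    group
  rw [e] at k2
  have h5 : (v * (w * v * w⁻¹)) * (v * (w * v * w⁻¹)) ∈ CC H P t ⊓ CC H P (!t) := by
    refine ⟨k1.1, ?_⟩
    have := inv_mem k2.1
    rwa [inv_inv] at this
  rw [h.CC_inf t, Subgroup.mem_bot] at h5
  exact k1.2 h5

include hZ in
/-- the critical distance is one -/
theorem not_le [Finite G] (h : Hyp H P Q) (i : Bool) : ¬ V H P i ≤ Q (!i) := by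
  obtain ⟨b, hlow, t, g, hc⟩ := h.exists_min hZ
  have hRC : (∀ i, RR H P i = RR H P (!i)) ∨ (∀ i, RR H P i = CC H P (!i)) := by
    rcases h.dich hZ false with h1 | h1
    · left
      intro i
      cases i
      · exact h1
      · exact h1.symm
    · right
      intro i
      cases i
      · exact h1.1
      · exact h1.2
  have hb : b = 1 := by
    have hp := hc.1.pos
    by_contra hb1
    rcases hRC with hR | hR
    · obtain ⟨b', rfl⟩ : ∃ b', b = b' + 2 := ⟨b - 2, by omega⟩
      exact h.case_eq hZ hlow hc hR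
    · by_cases hb2 : b = 2
      · subst hb2
        exact h.case_two hZ hlow hc hR
      · obtain ⟨b', rfl⟩ : ∃ b', b = b' + 3 := ⟨b - 3, by omega⟩
        exact h.case_far hZ hlow hc hR
  subst hb
  have hg : g = 1 := by
    have hw := hc.1
    generalize hc : 1 = c at hw
    cases hw with
    | one => rfl
    | snoc b'' _ g' l hw' hl => have := hw'.pos; omega
  subst hg
  have h1 : ¬ V H P t ≤ Q (!t) := by
    intro h1
    apply hc.2
    rw [cj_one]
    exact h1
  rcases Bool.eq_or_eq_not i t with rfl | rfl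
  · exact h1
  · intro h2
    apply h1
    obtain ⟨y, e1, e2, e3, e4, e5, e6, e7⟩ := h.sym' (h.V_le_P hZ) t
    have h3 := cj_mono (g := y) h2
    rw [e5, Bool.not_not, e3] at h3
    exact h3

theorem Q_normP (h : Hyp H P Q) (i : Bool) : P ≤ Subgroup.normalizer (Q i : Set G) := (h.PH i).trans (h.QH i)

include hZ in
/-- `Q_i` has exponent two -/
theorem Q_sq [Finite G] (h : Hyp H P Q) (i : Bool) {q : G} (hq : q ∈ Q i) : q * q = 1 := by
  let S : Bool → Subgroup G := fun i => Subgroup.closure {y | ∃ x ∈ Q i, y = x * x}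
  have hle : ∀ i, S i ≤ S (!i) := by
    intro i
    refine Subgroup.closure_mono ?_
    rintro y ⟨x, hx, rfl⟩
    by_cases hxQ : x ∈ Q (!i)
    · exact ⟨x, hxQ, rfl⟩
    · obtain ⟨v, hv, hvQ⟩ := SetLike.not_le_iff_exists.mp (h.not_le hZ i)
      have h1 := mul_mem_of_relIndex_two (h.idx (!i)) (h.QP i hx) (h.V_le_P hZ i hv) hxQ hvQ
      refine ⟨x * v, h1, ?_⟩
      have h2 := h.V_comm hZ hv hx
      have h3 := h.V_sq hZ i hv
      calc x * x = x * x * (v * v) := by rw [h3, mul_one]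
        _ = x * (x * v) * v := by group
        _ = x * (v * x) * v := by rw [h2]
        _ = x * v * (x * v) := by group
  have hN : ∀ i, H i ≤ Subgroup.normalizer (S i : Set G) := by
    intro i
    apply norm_of_cj_le
    intro g hg
    rw [cj_le_iff', Subgroup.closure_le]
    rintro y ⟨x, hx, rfl⟩
    rw [SetLike.mem_coe, mem_cj, inv_inv]
    apply Subgroup.subset_closure
    refine ⟨g * x * g⁻¹, ?_, by group⟩
    have := conj_mem_cj (g := g) hx
    rwa [cj_eq_of_norm (h.QH i) hg] at this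
  have heq : ∀ i, S i = S (!i) := by
    intro i
    apply le_antisymm (hle i)
    have := hle (!i)
    rwa [Bool.not_not] at this
  have hSP : S i ≤ P := by
    rw [Subgroup.closure_le]
    rintro y ⟨x, hx, rfl⟩
    exact h.QP i (mul_mem hx hx)
  have hS : S i = ⊥ := by
    apply h.core' (i := i) hSP (hN i)
    rw [heq i]
    exact hN (!i)
  have : q * q ∈ S i := Subgroup.subset_closure ⟨q, hq, rfl⟩
  rw [hS, Subgroup.mem_bot] at this
  exact this

include hZ in
theorem Q_comm [Finite G] (h : Hyp H P Q) (i : Bool) {a b : G} (ha : a ∈ Q i) (hb : b ∈ Q i) : a * b = b * a := by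
  have h1 := h.Q_sq hZ i ha
  have h2 := h.Q_sq hZ i hb
  have h3 := h.Q_sq hZ i (mul_mem ha hb)
  have ea : a⁻¹ = a := inv_eq_of_mul_eq_one_left h1
  have eb : b⁻¹ = b := inv_eq_of_mul_eq_one_left h2
  have eab : (a * b)⁻¹ = a * b := inv_eq_of_mul_eq_one_left h3
  rw [← eab, mul_inv_rev, ea, eb]

include hZ in
theorem D_le_Z [Finite G] (h : Hyp H P Q) (i : Bool) : Q i ⊓ Q (!i) ≤ ze P := by
  rintro d ⟨hd, hd'⟩
  refine mem_ze (h.QP i hd) (fun x hx => ?_)
  by_cases hxQ : x ∈ Q i
  · exact h.Q_comm hZ i hxQ hd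
  · -- x = u * q with `u ∈ Q (!i)`
    obtain ⟨v, hv, hvQ⟩ := SetLike.not_le_iff_exists.mp (h.not_le hZ (!i))
    rw [Bool.not_not] at hvQ
    have h1 := inv_mul_mem_of_relIndex_two (h.idx i) (h.V_le_P hZ _ hv) hx hvQ hxQ
    have h2 := h.Q_comm hZ i h1 hd
    have h3 := h.Q_comm hZ (!i) (h.V_le_Q hZ _ hv) hd'
    calc x * d = v * ((v⁻¹ * x) * d) := by group
      _ = (v * d) * (v⁻¹ * x) := by rw [h2]; group
      _ = d * x := by rw [h3]; group

include hZ in
theorem Q_eq_V [Finite G] (h : Hyp H P Q) (i : Bool) : Q i = V H P i := by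
  apply le_antisymm _ (h.V_le_Q hZ i)
  intro q hq
  by_cases hqQ : q ∈ Q (!i)
  · exact Z_le_V H P i (h.D_le_Z hZ i ⟨hq, hqQ⟩)
  · obtain ⟨v, hv, hvQ⟩ := SetLike.not_le_iff_exists.mp (h.not_le hZ i)
    have h1 := mul_mem_of_relIndex_two (h.idx (!i)) (h.QP i hq) (h.V_le_P hZ i hv) hqQ hvQ
    have h2 := Z_le_V H P i (h.D_le_Z hZ i ⟨mul_mem hq (h.V_le_Q hZ i hv), h1⟩)
    have h3 := mul_mem h2 (inv_mem hv)
    rwa [mul_inv_cancel_right] at h3

theorem card_of_relIndex {A B : Subgroup G} (hAB : A ≤ B) : Nat.card A * A.relIndex B = Nat.card B := by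
  have h := Subgroup.relIndex_mul_relIndex ⊥ A B bot_le hAB
  rwa [Subgroup.relIndex_bot_left, Subgroup.relIndex_bot_left] at h

include hZ in
theorem cards [Finite G] (h : Hyp H P Q) : (Nat.card (ze P) = 2 ∧ ∀ i, Nat.card (CC H P i) = 1) ∨
    (Nat.card (ze P) = 4 ∧ ∀ i, Nat.card (CC H P i) = 2) := by
  have hC : ∀ i, Nat.card (CC H P i) * 2 = Nat.card (ze P) := by
    intro i
    have h1 := card_of_relIndex (A := CC H P i) (B := ze P) inf_le_left
    rwa [h.idxC hZ i] at h1
  -- `C₀ × C₁` embeds in `Z`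
  have hle : Nat.card (CC H P false) * Nat.card (CC H P true) ≤ Nat.card (ze P) := by
    rw [← Nat.card_prod]
    refine Nat.card_le_card_of_injective (fun x : CC H P false × CC H P true =>
      (⟨(x.1 : G) * (x.2 : G), mul_mem x.1.2.1 x.2.2.1⟩ : ze P)) ?_
    rintro ⟨a, b⟩ ⟨a', b'⟩ hab
    have h1 : (a : G) * b = a' * b' := congrArg Subtype.val hab
    have h2 : (a' : G)⁻¹ * a = b' * (b : G)⁻¹ := by
      calc (a' : G)⁻¹ * a = (a' : G)⁻¹ * (a * b) * (b : G)⁻¹ := by group
        _ = b' * (b : G)⁻¹ := by rw [h1]; group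
    have h3 : (a' : G)⁻¹ * a ∈ CC H P false ⊓ CC H P (!false) := by
      refine ⟨(CC H P false).mul_mem ((CC H P false).inv_mem a'.2) a.2, ?_⟩
      rw [h2]
      exact (CC H P true).mul_mem b'.2 ((CC H P true).inv_mem b.2)
    have h4 := h3
    rw [h.CC_inf false, Subgroup.mem_bot] at h3
    rw [h2, h.CC_inf false, Subgroup.mem_bot] at h4
    have h5 : a = a' := Subtype.ext (inv_mul_eq_one.mp h3).symm
    have h6 : b = b' := Subtype.ext (mul_inv_eq_one.mp h4).symm
    rw [h5, h6]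
  have h0 := hC false
  have h1 := hC true
  have hpos : 0 < Nat.card (CC H P false) := Nat.card_pos
  have hpos1 : 0 < Nat.card (CC H P true) := Nat.card_pos
  have e : Nat.card (CC H P true) = Nat.card (CC H P false) := by omega
  rw [e] at hle
  have h2 : Nat.card (CC H P false) ≤ 2 := by
    by_contra hcon
    have : Nat.card (CC H P false) * Nat.card (CC H P false) ≥ 3 * Nat.card (CC H P false) :=
      Nat.mul_le_mul_right _ (by omega)
    omega
  have h3 : Nat.card (CC H P false) = 1 ∨ Nat.card (CC H P false) = 2 := by omega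
  rcases h3 with h3 | h3
  · left
    refine ⟨by omega, fun i => ?_⟩
    cases i <;> omega
  · right
    refine ⟨by omega, fun i => ?_⟩
    cases i <;> omega

include hZ in
theorem card_Q [Finite G] (h : Hyp H P Q) (i : Bool) : Nat.card (Q i) = 2 * Nat.card (ze P) := by
  have h1 := card_of_relIndex (Z_le_V H P i)
  rw [h.idxZ hZ i, ← h.Q_eq_V hZ i] at h1
  omega

include hZ in
theorem card_P [Finite G] (h : Hyp H P Q) : Nat.card P = 4 * Nat.card (ze P) := by
  have h1 := card_of_relIndex (h.QP false)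
  rw [h.idx false, h.card_Q hZ] at h1
  omega

end Hyp

end Cfsg.Agent.Lib.Tut
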