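import Cfsg.Agent.Lib.TutE
import Cfsg.Agent.Lib.LocBase

/-!
# A symmetric amalgam with dihedral residues (helper47): from a dihedral quotient to the hypotheses (for S4385)
-/

set_option autoImplicit false

open scoped Pointwise commutatorElement

namespace Cfsg.Agent.Lib.Tut

open Cfsg.Agent.Lib.LocBase

variable {G : Type*} [Group G]

theorem zmod_half {n : ℕ} (hn : Odd n) : ∃ c : ZMod n, c * 2 = 1 := by
  obtain ⟨m, hm⟩ := hn
  refine ⟨(m + 1 : ℕ), ?_⟩
  have h1 : ((n : ℕ) : ZMod n) = 0 := ZMod.natCast_self n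
  have h2 : (((m + 1 : ℕ) : ZMod n)) * 2 = ((n : ℕ) : ZMod n) + 1 := by
    rw [hm]; push_cast; ring
  rw [h2, h1, zero_add]

theorem dihedral_r_pow {n : ℕ} [NeZero n] (a c : ZMod n) : (DihedralGroup.r a) ^ c.val = DihedralGroup.r (a * c) := by
  have h : ∀ k : ℕ, (DihedralGroup.r a) ^ k = DihedralGroup.r (a * (k : ZMod n)) := by
    intro k
    induction k with
    | zero => simp
    | succ k ih => rw [pow_succ, ih, DihedralGroup.r_mul_r]; congr 1; push_cast; ring
  rw [h, ZMod.natCast_zmod_val]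

/-- a subgroup of the dihedral group containing `sr i` and `r (2 c')` with `c'` a unit is everything -/
theorem dihedral_top {n : ℕ} [NeZero n] (hn : Odd n) (N : Subgroup (DihedralGroup n)) (i : ZMod n)
    (h1 : DihedralGroup.sr i ∈ N) (h2 : DihedralGroup.r (-2 : ZMod n) ∈ N) : N = ⊤ := by
  obtain ⟨c, hc⟩ := zmod_half hn
  have hr : ∀ k : ZMod n, DihedralGroup.r k ∈ N := by
    intro k
    have h3 := N.pow_mem h2 (-(c * k)).val
    rw [dihedral_r_pow] at h3
    have e : (-2 : ZMod n) * -(c * k) = k := by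
      calc (-2 : ZMod n) * -(c * k) = (c * 2) * k := by ring
        _ = k := by rw [hc, one_mul]
    rwa [e] at h3
  rw [eq_top_iff]
  intro x _
  rcases x with k | k
  · exact hr k
  · have h4 := N.mul_mem h1 (hr (k - i))
    rw [DihedralGroup.sr_mul_r] at h4
    have e : i + (k - i) = k := by ring
    rwa [e] at h4

section Fin

variable [Finite G]

/-- data of the statement at one vertex -/
structure Dih (H P Q : Subgroup G) (n : ℕ) (f : H →* DihedralGroup n) : Prop where
  hn : Odd n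
  PH : P ≤ H
  QP : Q ≤ P
  QH : H ≤ Subgroup.normalizer (Q : Set G)
  idx : Q.relIndex P = 2
  ker : f.ker = Q.subgroupOf H
  surj : Function.Surjective f

theorem Dih.mem_Q {H P Q : Subgroup G} {n : ℕ} {f : H →* DihedralGroup n} (h : Dih H P Q n f) (x : H) :
    f x = 1 ↔ (x : G) ∈ Q := by
  rw [← MonoidHom.mem_ker, h.ker, Subgroup.mem_subgroupOf]

theorem Dih.refl {H P Q : Subgroup G} {n : ℕ} {f : H →* DihedralGroup n} (h : Dih H P Q n f) [NeZero n] {t : G}
    (ht : t ∈ P) (htQ : t ∉ Q) : ∃ i, f ⟨t, h.PH ht⟩ = DihedralGroup.sr i := by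
  have h1 : t * t ∈ Q := mul_mem_of_relIndex_two h.idx ht ht htQ htQ
  have h2 : f ⟨t, h.PH ht⟩ * f ⟨t, h.PH ht⟩ = 1 := by
    rw [← map_mul, h.mem_Q]; exact h1
  have h3 : f ⟨t, h.PH ht⟩ ≠ 1 := by
    rw [Ne, h.mem_Q]; exact htQ
  rcases hft : f ⟨t, h.PH ht⟩ with k | k
  · exfalso
    rw [hft] at h2 h3
    rw [DihedralGroup.r_mul_r, DihedralGroup.one_def, DihedralGroup.r.injEq] at h2
    apply h3
    obtain ⟨c, hc⟩ := zmod_half h.hn
    have : k = 0 := by
      calc k = (c * 2) * k := by rw [hc, one_mul]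
        _ = c * (k + k) := by ring
        _ = 0 := by rw [h2, mul_zero]
    rw [this, DihedralGroup.one_def]
  · exact ⟨k, rfl⟩

theorem Dih.le_of_map {H P Q : Subgroup G} {n : ℕ} {f : H →* DihedralGroup n} (h : Dih H P Q n f) {M : Subgroup G}
    (hQ : Q ≤ M) {t : H} (ht : f t ∈ (M.subgroupOf H).map f) : (t : G) ∈ M := by
  obtain ⟨x, hx, hxt⟩ := ht
  have h1 : f (x⁻¹ * t) = 1 := by rw [map_mul, map_inv, hxt, inv_mul_cancel]
  have h2 := hQ ((h.mem_Q _).mp h1)
  have h3 := M.mul_mem (Subgroup.mem_subgroupOf.mp hx) h2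
  have e : (x : G) * ((x⁻¹ * t : H) : G) = t := by
    rw [Subgroup.coe_mul, Subgroup.coe_inv]; group
  rwa [e] at h3

theorem Dih.gen {H P Q : Subgroup G} {n : ℕ} {f : H →* DihedralGroup n} (h : Dih H P Q n f) [NeZero n] :
    ∃ k ∈ H, P ⊔ cj k P = H := by
  obtain ⟨k, hk⟩ := h.surj (DihedralGroup.r 1)
  have hlt : ∃ t ∈ P, t ∉ Q := by
    by_contra hcon
    push Not at hcon
    have h1 := Subgroup.relIndex_eq_one.mpr hcon
    have h2 := h.idx
    omega
  obtain ⟨t, ht, htQ⟩ := hlt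
  obtain ⟨i, hi⟩ := h.refl ht htQ
  refine ⟨k, k.2, ?_⟩
  apply le_antisymm
  · apply sup_le h.PH
    have h1 := cj_mono (g := (k : G)) h.PH
    rwa [cj_eq_of_mem (Subgroup.le_normalizer k.2)] at h1
  · set M := P ⊔ cj (k : G) P with hM
    have hQM : Q ≤ M := h.QP.trans le_sup_left
    have h1 : DihedralGroup.sr i ∈ (M.subgroupOf H).map f :=
      ⟨⟨t, h.PH ht⟩, Subgroup.mem_subgroupOf.mpr ((le_sup_left : P ≤ M) ht), hi⟩
    have h2 : DihedralGroup.sr (i - 2) ∈ (M.subgroupOf H).map f := by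
      refine ⟨k * ⟨t, h.PH ht⟩ * k⁻¹, Subgroup.mem_subgroupOf.mpr ((le_sup_right : cj (k : G) P ≤ M) (conj_mem_cj ht)), ?_⟩
      rw [map_mul, map_mul, map_inv, hk, hi, DihedralGroup.r_mul_sr, DihedralGroup.inv_r, DihedralGroup.sr_mul_r]
      congr 1; ring
    have h3 : DihedralGroup.r (-2 : ZMod n) ∈ (M.subgroupOf H).map f := by
      have := Subgroup.mul_mem _ h1 h2
      rw [DihedralGroup.sr_mul_sr] at this
      have e : i - 2 - i = -2 := by ring
      rwa [e] at this
    have h4 := dihedral_top h.hn _ i h1 h3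
    intro x hx
    refine h.le_of_map hQM (t := ⟨x, hx⟩) ?_
    rw [h4]; exact Subgroup.mem_top _

theorem Dih.odd {H P Q : Subgroup G} {n : ℕ} {f : H →* DihedralGroup n} (h : Dih H P Q n f) [NeZero n]
    {k : G} (hk : k ∈ H) (hkP : P ⊔ cj k P = H) {t : G} (ht : t ∈ P) (htQ : t ∉ Q) :
    cj k P ⊔ cj (t * k) P = H := by
  obtain ⟨i, hi⟩ := h.refl ht htQ
  set M := cj k P ⊔ cj (t * k) P with hM
  have hkH : cj k H = H := cj_eq_of_mem (Subgroup.le_normalizer hk)
  have htkH : cj (t * k) H = H := cj_eq_of_mem (Subgroup.le_normalizer (mul_mem (h.PH ht) hk))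
  have hMH : M ≤ H := by
    apply sup_le
    · rw [← hkH]; exact cj_mono h.PH
    · rw [← htkH]; exact cj_mono h.PH
  have hQM : Q ≤ M := by
    refine le_trans ?_ (le_sup_left : cj k P ≤ M)
    have := cj_mono (g := k) h.QP
    rwa [cj_eq_of_norm h.QH hk] at this
  apply le_antisymm hMH
  -- `u = k t k⁻¹`
  set tt : H := ⟨t, h.PH ht⟩ with htt
  set kk : H := ⟨k, hk⟩ with hkk
  have hu2 : f (kk * tt * kk⁻¹) * f (kk * tt * kk⁻¹) = 1 := by
    rw [← map_mul]
    have e : kk * tt * kk⁻¹ * (kk * tt * kk⁻¹) = kk * (tt * tt) * kk⁻¹ := by group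
    rw [e, map_mul, map_mul, map_mul, hi, DihedralGroup.sr_mul_sr, sub_self, ← DihedralGroup.one_def, mul_one, map_inv,
      mul_inv_cancel]
  have hu1 : f (kk * tt * kk⁻¹) ≠ 1 := by
    rw [map_mul, map_mul, map_inv]
    intro hcon
    have : f tt = 1 := by
      calc f tt = (f kk)⁻¹ * (f kk * f tt * (f kk)⁻¹) * f kk := by group
        _ = 1 := by rw [hcon]; group
    rw [h.mem_Q] at this
    exact htQ this
  obtain ⟨j, hj⟩ : ∃ j, f (kk * tt * kk⁻¹) = DihedralGroup.sr j := by
    rcases hfu : f (kk * tt * kk⁻¹) with l | l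
    · exfalso
      rw [hfu] at hu2 hu1
      rw [DihedralGroup.r_mul_r, DihedralGroup.one_def, DihedralGroup.r.injEq] at hu2
      apply hu1
      obtain ⟨c, hc⟩ := zmod_half h.hn
      have : l = 0 := by
        calc l = (c * 2) * l := by rw [hc, one_mul]
          _ = c * (l + l) := by ring
          _ = 0 := by rw [hu2, mul_zero]
      rw [this, DihedralGroup.one_def]
    · exact ⟨l, rfl⟩
  have m1 : DihedralGroup.sr j ∈ (M.subgroupOf H).map f :=
    ⟨kk * tt * kk⁻¹, Subgroup.mem_subgroupOf.mpr ((le_sup_left : cj k P ≤ M) (conj_mem_cj ht)), hj⟩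
  have m2 : DihedralGroup.sr (i + i - j) ∈ (M.subgroupOf H).map f := by
    refine ⟨tt * (kk * tt * kk⁻¹) * tt⁻¹, Subgroup.mem_subgroupOf.mpr ((le_sup_right : cj (t * k) P ≤ M) ?_), ?_⟩
    · have := conj_mem_cj (g := t * k) ht
      have e : ((tt * (kk * tt * kk⁻¹) * tt⁻¹ : H) : G) = (t * k) * t * (t * k)⁻¹ := by
        show t * (k * t * k⁻¹) * t⁻¹ = _
        group
      rw [e]; exact this
    · rw [map_mul, map_mul, map_inv, hi, hj, DihedralGroup.sr_mul_sr, DihedralGroup.inv_sr, DihedralGroup.r_mul_sr]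
      congr 1; ring
  have m3 : DihedralGroup.r ((i - j) * 2) ∈ (M.subgroupOf H).map f := by
    have := Subgroup.mul_mem _ m1 m2
    rw [DihedralGroup.sr_mul_sr] at this
    have e : i + i - j - j = (i - j) * 2 := by ring
    rwa [e] at this
  have m4 : DihedralGroup.r (i - j) ∈ (M.subgroupOf H).map f := by
    obtain ⟨c, hc⟩ := zmod_half h.hn
    have := Subgroup.pow_mem _ m3 c.val
    rw [dihedral_r_pow] at this
    have e : (i - j) * 2 * c = i - j := by
      calc (i - j) * 2 * c = (i - j) * (c * 2) := by ring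
        _ = i - j := by rw [hc, mul_one]
    rwa [e] at this
  have m5 : f tt ∈ (M.subgroupOf H).map f := by
    rw [hi]
    have := Subgroup.mul_mem _ m1 m4
    rw [DihedralGroup.sr_mul_r] at this
    have e : j + (i - j) = i := by ring
    rwa [e] at this
  have htM : t ∈ M := h.le_of_map hQM m5
  have hPM : P ≤ M := by
    intro p hp
    by_cases hpQ : p ∈ Q
    · exact hQM hpQ
    · have h1 := hQM (inv_mul_mem_of_relIndex_two h.idx ht hp htQ hpQ)
      have h2 := M.mul_mem htM h1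
      rwa [mul_inv_cancel_left] at h2
  rw [← hkP]
  exact sup_le hPM le_sup_left

/-- the two vertices -/
def HH (H : Subgroup G) (y : G) : Bool → Subgroup G
  | false => H
  | true => cj y H

theorem hyp_of_dih {H P Q : Subgroup G} {n : ℕ} [NeZero n] {f : H →* DihedralGroup n} (h : Dih H P Q n f)
    (hP : IsPGroup 2 P) {y : G} (hyP : cj y P = P)
    (hy2 : y * y ∈ P ⊔ Subgroup.centralizer (P : Set G))
    (hcore : ∀ X : Subgroup G, X ≤ P → H ≤ Subgroup.normalizer (X : Set G) → cj y X = X → X = ⊥) :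
    Hyp (HH H y) P (HH Q y) := by
  have hyP' : cj y⁻¹ P = P := by
    rw [← cj_inj (g := y), cj_cj, mul_inv_cancel, cj_one, hyP]
  have hN : ∀ X : Subgroup G, X ≤ P → P ≤ Subgroup.normalizer (X : Set G) → cj (y * y) X = X := by
    intro X hX hPX
    apply cj_eq_of_norm (K := P ⊔ Subgroup.centralizer (P : Set G)) _ hy2
    apply sup_le hPX
    apply norm_of_cj_le
    intro g hg x hx
    rw [mem_cj] at hx
    have h1 := Subgroup.mem_centralizer_iff.mp hg _ (hX hx)
    have h2 : x = g⁻¹ * x * g := by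
      calc x = g * (g⁻¹ * x * g) * g⁻¹ := by group
        _ = g⁻¹ * x * g * g * g⁻¹ := by rw [h1]
        _ = g⁻¹ * x * g := by group
    rw [h2]; exact hx
  have hN' : ∀ X : Subgroup G, X ≤ P → P ≤ Subgroup.normalizer (X : Set G) → cj (y⁻¹ * y⁻¹) X = X := by
    intro X hX hPX
    have h1 := hN X hX hPX
    have h2 : cj (y⁻¹ * y⁻¹) (cj (y * y) X) = X := by
      rw [cj_cj]
      have e : y⁻¹ * y⁻¹ * (y * y) = 1 := by group
      rw [e, cj_one]
    rwa [h1] at h2
  constructor
  · exact hP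
  · intro i
    cases i
    · exact h.PH
    · show P ≤ cj y H
      rw [← hyP]; exact cj_mono h.PH
  · intro i
    cases i
    · exact h.QP
    · show cj y Q ≤ P
      rw [← hyP]; exact cj_mono h.QP
  · intro i
    cases i
    · exact h.QH
    · exact cj_norm_le h.QH
  · intro i
    cases i
    · exact h.idx
    · show (cj y Q).relIndex P = 2
      have := relIndex_cj y Q P
      rw [hyP] at this
      rw [this]; exact h.idx
  · intro i
    cases i
    · refine ⟨y, hyP, rfl, rfl, fun X hX hPX => ?_⟩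
      rw [cj_cj]; exact hN X hX hPX
    · refine ⟨y⁻¹, hyP', ?_, ?_, fun X hX hPX => ?_⟩
      · show cj y⁻¹ (cj y H) = H
        rw [cj_cj, inv_mul_cancel, cj_one]
      · show cj y⁻¹ (cj y Q) = Q
        rw [cj_cj, inv_mul_cancel, cj_one]
      · rw [cj_cj]; exact hN' X hX hPX
  · intro X hX hXn
    have h1 : H ≤ Subgroup.normalizer (X : Set G) := hXn false
    have h2 : cj y H ≤ Subgroup.normalizer (X : Set G) := hXn true
    have hPX : P ≤ Subgroup.normalizer (X : Set G) := h.PH.trans h1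
    have hYP : cj y X ≤ P := by rw [← hyP]; exact cj_mono hX
    have hPY : P ≤ Subgroup.normalizer ((cj y X : Subgroup G) : Set G) := by
      rw [← hyP]; exact cj_norm_le hPX
    have h3 : H ≤ Subgroup.normalizer ((cj y X : Subgroup G) : Set G) := by
      have h4 := cj_norm_le (y := y) h2
      rw [cj_cj] at h4
      have h5 := cj_norm_le (y := (y * y)⁻¹) h4
      rw [cj_cj, inv_mul_cancel, cj_one] at h5
      have h6 : cj (y * y)⁻¹ (cj y X) = cj y X := by
        rw [mul_inv_rev]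
        exact hN' _ hYP hPY
      rwa [h6] at h5
    have h7 : X ⊔ cj y X = ⊥ := by
      apply hcore _ (sup_le hX hYP) (norm_sup h1 h3)
      rw [cj_sup, cj_cj, hN X hX hPX, sup_comm]
    rw [eq_bot_iff, ← h7]; exact le_sup_left
  · intro i
    cases i
    · exact h.gen
    · obtain ⟨k, hk, hkP⟩ := h.gen
      refine ⟨y * k * y⁻¹, conj_mem_cj hk, ?_⟩
      show P ⊔ cj (y * k * y⁻¹) P = cj y H
      rw [← hkP, cj_sup, hyP, ← cj_cj, hyP', ← cj_cj]
  · intro i
    cases i
    · intro k hk hkP t ht htQ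
      exact h.odd hk hkP ht htQ
    · intro k hk hkP t ht htQ
      replace hk : k ∈ cj y H := hk
      replace hkP : P ⊔ cj k P = cj y H := hkP
      replace htQ : t ∉ cj y Q := htQ
      show cj k P ⊔ cj (t * k) P = cj y H
      rw [mem_cj] at hk htQ
      have ht' : y⁻¹ * t * y ∈ P := by
        rw [← mem_cj, hyP]; exact ht
      have hkP' : P ⊔ cj (y⁻¹ * k * y) P = H := by
        have h1 : cj y⁻¹ (P ⊔ cj k P) = H := by rw [hkP, cj_cj, inv_mul_cancel, cj_one]
        rw [cj_sup, hyP', cj_cj] at h1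
        rw [← cj_cj (y⁻¹ * k) y, hyP]
        exact h1
      have h2 := h.odd hk hkP' ht' htQ
      have h3 : cj y (cj (y⁻¹ * k * y) P ⊔ cj (y⁻¹ * t * y * (y⁻¹ * k * y)) P) = cj y H := by rw [h2]
      rw [cj_sup, cj_cj, cj_cj] at h3
      have e1 : y * (y⁻¹ * k * y) = k * y := by group
      have e2 : y * (y⁻¹ * t * y * (y⁻¹ * k * y)) = t * k * y := by group
      rw [e1, e2, ← cj_cj, ← cj_cj (t * k) y, hyP] at h3
      exact h3

end Fin

end Cfsg.Agent.Lib.Tut
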