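import Cfsg.Agent.Lib.TutF
import Cfsg.Agent.Lib.CFCore
import Cfsg.Agent.Lib.SignTransfer

/-!
# A symmetric amalgam with dihedral residues (helper47): set-up and the small case (for S4385)
-/

set_option autoImplicit false

open scoped Pointwise commutatorElement

namespace Cfsg.Agent.Lib.Tut

open Cfsg.Agent.Lib.LocBase

variable {G : Type*} [Group G] [Finite G]

theorem exists_dih {H P : Subgroup G} (hS : IsSyl 2 P H) {n : ℕ} (hn : 2 ≤ n)
    (e : (↥H ⧸ Cfsg.pCore 2 ↥H) ≃* DihedralGroup n) :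
    ∃ f : H →* DihedralGroup n, Dih H P (Cfsg.pCoreOf 2 H) n f := by
  have f2 : Fact (Nat.Prime 2) := ⟨Nat.prime_two⟩
  have hn0 : NeZero n := ⟨by omega⟩
  let f : H →* DihedralGroup n := e.toMonoidHom.comp (QuotientGroup.mk' (Cfsg.pCore 2 ↥H))
  have hker : f.ker = Cfsg.pCore 2 ↥H := by
    ext x
    rw [MonoidHom.mem_ker]
    show e (QuotientGroup.mk' _ x) = 1 ↔ _
    rw [map_eq_one_iff _ e.injective, ← MonoidHom.mem_ker, QuotientGroup.ker_mk']
  have hsurj : Function.Surjective f := e.surjective.comp (QuotientGroup.mk'_surjective _)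
  have hodd : Odd n := by
    by_contra hcon
    rw [Nat.not_odd_iff_even] at hcon
    obtain ⟨m, hm⟩ := hcon
    have hz2 : ((m : ℕ) : ZMod n) + ((m : ℕ) : ZMod n) = 0 := by
      have : ((m + m : ℕ) : ZMod n) = 0 := by rw [← hm]; exact ZMod.natCast_self n
      rwa [Nat.cast_add] at this
    set z : DihedralGroup n := DihedralGroup.r ((m : ℕ) : ZMod n) with hz
    have hzz : z * z = 1 := by
      rw [hz, DihedralGroup.r_mul_r, hz2, DihedralGroup.one_def]
    have hzc : ∀ x, x * z = z * x := by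
      intro x
      rcases x with k | k
      · rw [hz, DihedralGroup.r_mul_r, DihedralGroup.r_mul_r, add_comm]
      · rw [hz, DihedralGroup.sr_mul_r, DihedralGroup.r_mul_sr]
        congr 1
        calc k + (m : ZMod n) = k - m + ((m : ZMod n) + m) := by ring
          _ = k - m := by rw [hz2, add_zero]
    have hzn : (Subgroup.zpowers z).Normal := by
      constructor
      rintro x ⟨k, rfl⟩ g
      refine ⟨k, ?_⟩
      have h1 : Commute g z := hzc g
      have h2 := (h1.zpow_right k).eq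
      show z ^ k = g * z ^ k * g⁻¹
      rw [h2, mul_inv_cancel_right]
    have hzp : IsPGroup 2 (Subgroup.zpowers z) := by
      rintro ⟨x, k, rfl⟩
      refine ⟨1, Subtype.ext ?_⟩
      show (z ^ k) ^ (2 ^ 1) = 1
      rw [pow_one, pow_two, ← zpow_add, ← two_mul, zpow_mul, zpow_ofNat, pow_two, hzz, one_zpow]
    have hcp : IsPGroup 2 ((Subgroup.zpowers z).comap f) := by
      apply hzp.comap_of_ker_isPGroup
      rw [hker]
      exact isPGroup_pCore 2 _
    have hle := LocBase.le_pCore (hzn.comap f) hcp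
    obtain ⟨x, hx⟩ := hsurj z
    have hxk : x ∈ f.ker := by
      rw [hker]
      apply hle
      show f x ∈ Subgroup.zpowers z
      rw [hx]; exact Subgroup.mem_zpowers z
    rw [MonoidHom.mem_ker, hx, hz, DihedralGroup.one_def, DihedralGroup.r.injEq, ZMod.natCast_eq_zero_iff] at hxk
    have := Nat.le_of_dvd (by omega) hxk
    omega
  have hQP := hS.pCoreOf_le
  have hker' : f.ker = (Cfsg.pCoreOf 2 H).subgroupOf H := by rw [hker, pCoreOf_subgroupOf]
  refine ⟨f, hodd, hS.le, hQP, le_normalizer_pCoreOf 2 H, ?_, hker', hsurj⟩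
  -- index
  have h1 : (Cfsg.pCoreOf 2 H).relIndex H = 2 * n := by
    have : (Cfsg.pCoreOf 2 H).relIndex H = f.ker.index := by rw [hker']; rfl
    rw [this, Subgroup.index_ker, MonoidHom.range_eq_top.mpr hsurj, Subgroup.card_top, DihedralGroup.nat_card]
  have h2 := Subgroup.relIndex_mul_relIndex _ _ _ hQP hS.le
  rw [h1] at h2
  obtain ⟨k, hk⟩ := (IsPGroup.iff_card.mp hS.pgroup)
  have h3 : (Cfsg.pCoreOf 2 H).relIndex P ∣ 2 ^ k := by
    rw [← hk]; exact Subgroup.relIndex_dvd_card _ _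
  obtain ⟨j, hj, hj2⟩ := (Nat.dvd_prime_pow Nat.prime_two).mp h3
  rw [hj2] at h2 ⊢
  have h4 := hS.ndvd
  rcases j with _ | _ | j
  · exfalso
    apply h4
    rw [pow_zero, one_mul] at h2
    exact ⟨n, h2⟩
  · rfl
  · exfalso
    have h5 : 2 ∣ n := by
      have h6 : 2 * (2 * (2 ^ j * P.relIndex H)) = 2 * n := by rw [← h2]; ring
      have h7 : 2 * (2 ^ j * P.relIndex H) = n := by omega
      exact ⟨_, h7.symm⟩
    obtain ⟨m, hm⟩ := hodd
    omega

namespace Hyp

variable {H : Bool → Subgroup G} {P : Subgroup G} {Q : Bool → Subgroup G}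

theorem small (h : Hyp H P Q) (hQ : ∀ i, Q i ≠ ⊥) (hnz : ¬ ∀ i, ze P ≤ Q i) :
    (∀ i, Q i ⊓ Q (!i) = ⊥) ∧ (∀ i, Nat.card (Q i) = 2) ∧ Nat.card P = 4 := by
  have hnz' : ∀ i, ¬ ze P ≤ Q i := by
    rw [not_forall] at hnz
    obtain ⟨i0, h0⟩ := hnz
    intro i
    rcases Bool.eq_or_eq_not i i0 with rfl | rfl
    · exact h0
    · intro hcon
      apply h0
      obtain ⟨y, h1, h2, h3, h4⟩ := h.sym (!i0)
      rw [Bool.not_not] at h3
      rw [← h3, ← Z_cj h1]
      exact cj_mono hcon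
  have hN : ∀ i, H i ≤ Subgroup.normalizer ((Q i ⊓ Q (!i) : Subgroup G) : Set G) := by
    intro i
    obtain ⟨z, hz, hzQ⟩ := SetLike.not_le_iff_exists.mp (hnz' i)
    obtain ⟨k, hk, hkP⟩ := h.gen i
    have hPN : P ≤ Subgroup.normalizer ((Q i ⊓ Q (!i) : Subgroup G) : Set G) := by
      intro g hg
      apply mem_normalizer_of_cj
      rw [cj_inf, cj_eq_of_norm (h.Q_normP i) hg, cj_eq_of_norm (h.Q_normP (!i)) hg]
    rw [← hkP]
    apply sup_le hPN
    have hkQ : cj k (Q i) = Q i := cj_eq_of_norm (h.QH i) hk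
    intro x hx
    rw [mem_cj] at hx
    by_cases hxQ : k⁻¹ * x * k ∈ Q i
    · apply hPN
      apply h.QP i
      rw [← hkQ, mem_cj]; exact hxQ
    · have h1 := inv_mul_mem_of_relIndex_two (h.idx i) hz.1 hx hzQ hxQ
      have h2 : x = (k * z * k⁻¹) * (k * (z⁻¹ * (k⁻¹ * x * k)) * k⁻¹) := by group
      rw [h2]
      apply mul_mem
      · -- centralizes `Q i`
        apply mem_normalizer_of_cj
        have h3 : ∀ q ∈ Q i, (k * z * k⁻¹) * q = q * (k * z * k⁻¹) := by
          intro q hq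
          have h4 : k⁻¹ * q * k ∈ Q i := by rw [← mem_cj, hkQ]; exact hq
          have h5 := ze_comm hz (h.QP i h4)
          calc (k * z * k⁻¹) * q = k * (z * (k⁻¹ * q * k)) * k⁻¹ := by group
            _ = k * ((k⁻¹ * q * k) * z) * k⁻¹ := by rw [h5]
            _ = q * (k * z * k⁻¹) := by group
        ext u
        rw [mem_cj]
        constructor
        · intro hu
          have h6 := h3 _ hu.1
          have h7 : u = (k * z * k⁻¹)⁻¹ * u * (k * z * k⁻¹) := by
            calc u = (k * z * k⁻¹) * ((k * z * k⁻¹)⁻¹ * u * (k * z * k⁻¹)) * (k * z * k⁻¹)⁻¹ := by group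
              _ = ((k * z * k⁻¹)⁻¹ * u * (k * z * k⁻¹)) * (k * z * k⁻¹) * (k * z * k⁻¹)⁻¹ := by rw [h6]
              _ = (k * z * k⁻¹)⁻¹ * u * (k * z * k⁻¹) := by group
          rw [h7]; exact hu
        · intro hu
          have h6 := h3 _ hu.1
          have h7 : (k * z * k⁻¹)⁻¹ * u * (k * z * k⁻¹) = u := by
            rw [mul_assoc, ← h6]; group
          rw [h7]; exact hu
      · apply hPN
        apply h.QP i
        have := conj_mem_cj (g := k) h1
        rwa [hkQ] at this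
  have hbot : ∀ i, Q i ⊓ Q (!i) = ⊥ := by
    intro i
    apply h.core' (i := i) (inf_le_left.trans (h.QP i)) (hN i)
    have := hN (!i)
    rw [Bool.not_not, inf_comm] at this
    exact this
  have hcard : ∀ i, Nat.card (Q i) = 2 := by
    intro i
    have h1 : ¬ Q i ≤ Q (!i) := by
      intro hcon
      apply hQ i
      rw [← hbot i]
      exact (inf_eq_left.mpr hcon).symm
    have h2 := relIndex_inf_two (h.idx (!i)) (h.QP i) h1
    rw [hbot i, Subgroup.relIndex_bot_left] at h2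
    exact h2
  refine ⟨hbot, hcard, ?_⟩
  have := card_of_relIndex (h.QP false)
  rw [h.idx false, hcard] at this
  omega

end Hyp

/-- the sign of the dihedral group -/
def dsgn (n : ℕ) : DihedralGroup n →* ℤˣ where
  toFun x := match x with
    | DihedralGroup.r _ => 1
    | DihedralGroup.sr _ => -1
  map_one' := rfl
  map_mul' := by
    rintro (a | a) (b | b)
    · rw [DihedralGroup.r_mul_r]; rfl
    · rw [DihedralGroup.r_mul_sr]; rfl
    · rw [DihedralGroup.sr_mul_r]; rfl
    · rw [DihedralGroup.sr_mul_sr]; rfl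

theorem odd_unit {X : Type*} [Group X] (V : X →* ℤˣ) {x : X} (hx : Odd (orderOf x)) : V x = 1 := by
  obtain ⟨m, hm⟩ := hx
  have h1 : V x ^ orderOf x = 1 := by rw [← map_pow, pow_orderOf_eq_one, map_one]
  rw [hm, pow_succ, pow_mul, Int.units_sq, one_pow, one_mul] at h1
  exact h1

theorem quot_four {X : Type*} [Group X] [Finite X] (V W : X →* ℤˣ) (hV : ∃ d, V d = -1 ∧ W d = 1)
    (hW : ∃ d, W d = -1) (hker : ∀ x, V x = 1 → W x = 1 → Odd (orderOf x)) :
    Nonempty (X ⧸ Cfsg.oddCore X ≃* Multiplicative (ZMod 2) × Multiplicative (ZMod 2)) := by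
  have f2 : Fact (Nat.Prime 2) := ⟨Nat.prime_two⟩
  let ψ : X →* ℤˣ × ℤˣ := MonoidHom.prod V W
  have hsurj : Function.Surjective ψ := by
    obtain ⟨d, hd1, hd2⟩ := hV
    obtain ⟨c, hc⟩ := hW
    rintro ⟨a, b⟩
    have key : ∀ u : ℤˣ, u = 1 ∨ u = -1 := Int.units_eq_one_or
    rcases key a with rfl | rfl <;> rcases key b with rfl | rfl
    · exact ⟨1, map_one ψ⟩
    · rcases key (V c) with h1 | h1
      · exact ⟨c, Prod.ext h1 hc⟩
      · refine ⟨d * c, Prod.ext ?_ ?_⟩
        · show V (d * c) = 1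
          rw [map_mul, hd1, h1]; rfl
        · show W (d * c) = -1
          rw [map_mul, hd2, hc]; rfl
    · exact ⟨d, Prod.ext hd1 hd2⟩
    · rcases key (V c) with h1 | h1
      · refine ⟨d * c, Prod.ext ?_ ?_⟩
        · show V (d * c) = -1
          rw [map_mul, hd1, h1]; rfl
        · show W (d * c) = -1
          rw [map_mul, hd2, hc]; rfl
      · exact ⟨c, Prod.ext h1 hc⟩
  have hodd : Cfsg.oddCore X = ψ.ker := by
    apply le_antisymm
    · intro x hx
      have h1 := CFCore.pPrimeCore_coprime (p := 2) (G := X)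
      have h2 : Odd (orderOf x) := by
        rw [← Nat.coprime_two_right]
        exact Nat.Coprime.coprime_dvd_left (Subgroup.orderOf_dvd_natCard _ hx) h1
      rw [MonoidHom.mem_ker]
      exact Prod.ext (odd_unit V h2) (odd_unit W h2)
    · apply CFCore.le_pPrimeCore (MonoidHom.normal_ker ψ)
      rw [Nat.coprime_comm, Nat.Prime.coprime_iff_not_dvd Nat.prime_two]
      intro hd
      obtain ⟨x, hx⟩ := exists_prime_orderOf_dvd_card' 2 hd
      have h1 := x.2
      rw [MonoidHom.mem_ker] at h1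
      have h2 := hker x (congrArg Prod.fst h1) (congrArg Prod.snd h1)
      rw [Subgroup.orderOf_coe, hx] at h2
      exact absurd h2 (by decide)
  have e2 : ℤˣ ≃* Multiplicative (ZMod 2) := mulEquivOfPrimeCardEq (p := 2) (by simp) (by simp)
  exact ⟨((QuotientGroup.quotientMulEquivOfEq hodd).trans
    (QuotientGroup.quotientKerEquivOfSurjective ψ hsurj)).trans (MulEquiv.prodCongr e2 e2)⟩

theorem small_iso {H P Q Q' : Subgroup G} {n : ℕ} [NeZero n] {f : H →* DihedralGroup n} (D : Dih H P Q n f)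
    (hS : IsSyl 2 P H) (hQ : Nat.card Q = 2) (hQ' : Q' ≤ P) (hi : Q'.relIndex P = 2) (hQQ : Q ⊓ Q' = ⊥) :
    Nonempty (↥H ⧸ Cfsg.oddCore ↥H ≃* Multiplicative (ZMod 2) × Multiplicative (ZMod 2)) := by
  have f2 : Fact (Nat.Prime 2) := ⟨Nat.prime_two⟩
  obtain ⟨d', hd'⟩ := (isCyclic_of_prime_card hQ).exists_generator
  have hd'o : orderOf d' = 2 := by
    rw [← hQ]; exact orderOf_eq_card_of_forall_mem_zpowers hd'
  obtain ⟨d, hdQ⟩ := d'
  rw [Subgroup.orderOf_mk] at hd'o
  have hQd : ∀ x ∈ Q, x = 1 ∨ x = d := by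
    intro x hx
    obtain ⟨k, hk⟩ := hd' ⟨x, hx⟩
    have hk' : d ^ k = x := congrArg Subtype.val hk
    have hdd : d * d = 1 := by rw [← pow_two, ← hd'o, pow_orderOf_eq_one]
    rcases Int.even_or_odd k with hk2 | hk2
    · left
      obtain ⟨j, rfl⟩ := hk2
      rw [← hk', ← two_mul, zpow_mul, zpow_ofNat, pow_two, hdd, one_zpow]
    · right
      obtain ⟨j, rfl⟩ := hk2
      rw [← hk', zpow_add, zpow_mul, zpow_ofNat, pow_two, hdd, one_zpow, one_mul, zpow_one]
  have hd1 : d ≠ 1 := by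
    rintro rfl
    rw [orderOf_one] at hd'o
    omega
  have hdH : d ∈ H := D.PH (D.QP hdQ)
  have hdc : ∀ g ∈ H, g * d * g⁻¹ = d := by
    intro g hg
    have h1 : g * d * g⁻¹ ∈ Q := by
      have := conj_mem_cj (g := g) hdQ
      rwa [cj_eq_of_norm D.QH hg] at this
    rcases hQd _ h1 with h2 | h2
    · exfalso
      apply hd1
      have : d = g⁻¹ * (g * d * g⁻¹) * g := by group
      rw [this, h2]; group
    · exact h2
  obtain ⟨V, hV⟩ := Cfsg.Agent.Lib.SignTransfer.sign_transfer (P.subgroupOf H) (Q'.subgroupOf H)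
    hS.ndvd 1 le_rfl (by rw [Subgroup.relIndex_subgroupOf D.PH, hi, pow_one])
  have hVd : V ⟨d, hdH⟩ = -1 := by
    apply hV
    · rw [Subgroup.orderOf_mk, hd'o, pow_one]
    · intro g hg
      rw [Subgroup.mem_subgroupOf] at hg
      have h3 : ((g * ⟨d, hdH⟩ ^ 2 ^ (1 - 1) * g⁻¹ : H) : G) = d := by
        show (g : G) * d ^ 2 ^ (1 - 1) * (g : G)⁻¹ = d
        rw [Nat.sub_self, pow_zero, pow_one]; exact hdc g g.2
      rw [h3] at hg
      have h4 : d ∈ Q ⊓ Q' := ⟨hdQ, hg⟩
      rw [hQQ, Subgroup.mem_bot] at h4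
      exact hd1 h4
  refine quot_four V ((dsgn n).comp f) ⟨⟨d, hdH⟩, hVd, ?_⟩ ?_ ?_
  · show dsgn n (f _) = 1
    have : f ⟨d, hdH⟩ = 1 := by rw [D.mem_Q]; exact hdQ
    rw [this, map_one]
  · obtain ⟨t, ht, htQ⟩ : ∃ t ∈ P, t ∉ Q := by
      by_contra hcon
      push Not at hcon
      have h1 := Subgroup.relIndex_eq_one.mpr hcon
      have h2 := D.idx
      omega
    obtain ⟨i, hi⟩ := D.refl ht htQ
    exact ⟨⟨t, D.PH ht⟩, by show dsgn n (f _) = -1; rw [hi]; rfl⟩
  · intro x hx1 hx2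
    replace hx2 : dsgn n (f x) = 1 := hx2
    rcases hfx : f x with k | k
    · have h1 : f (x ^ n) = 1 := by
        rw [map_pow, hfx]
        have h2 := DihedralGroup.r_zpow (n := n) k (n : ℤ)
        rw [zpow_natCast] at h2
        have e : (((n : ℕ) : ℤ) : ZMod n) = 0 := by simp
        rw [h2, e, mul_zero]; rfl
      rw [D.mem_Q] at h1
      have h3 : x ^ n = 1 := by
        rcases hQd _ h1 with h4 | h4
        · exact Subtype.ext h4
        · exfalso
          have h5 : x ^ n = ⟨d, hdH⟩ := Subtype.ext h4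
          have h6 : V (x ^ n) = 1 := by rw [map_pow, hx1, one_pow]
          rw [h5, hVd] at h6
          exact absurd h6 (by decide)
      exact Odd.of_dvd_nat D.hn (orderOf_dvd_of_pow_eq_one h3)
    · exfalso
      rw [hfx] at hx2
      have h9 : dsgn n (DihedralGroup.sr k) = -1 := rfl
      rw [h9] at hx2
      exact absurd hx2 (by decide)

end Cfsg.Agent.Lib.Tut
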