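import Cfsg.Agent.Lib.TutG
import Cfsg.Agent.Lib.BFJ1
import Cfsg.Agent.Lib.S4Kernel

/-!
# A symmetric amalgam with dihedral residues (helper47): the residue modulo its core (for S4385)
-/

set_option autoImplicit false

open scoped Pointwise commutatorElement

namespace Cfsg.Agent.Lib.Tut

open Cfsg.Agent.Lib.LocBase

variable {G : Type*} [Group G] [Finite G]

theorem norm_of_central {P X : Subgroup G} (h : ∀ p ∈ P, ∀ x ∈ X, p * x = x * p) :
    P ≤ Subgroup.normalizer (X : Set G) := by
  apply norm_of_cj_le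
  intro g hg x hx
  rw [mem_cj] at hx
  have h1 := h g hg _ hx
  have h2 : x = g⁻¹ * x * g := by
    calc x = g * (g⁻¹ * x * g) * g⁻¹ := by group
      _ = g⁻¹ * x * g * g * g⁻¹ := by rw [h1]
      _ = g⁻¹ * x * g := by group
  rw [h2]; exact hx

variable {H : Bool → Subgroup G} {P : Subgroup G} {Q : Bool → Subgroup G}

namespace Hyp

variable (hZ : ∀ i, ze P ≤ Q i)

/-- centralizer of `Q₀` in `H₀` -/
def KK (H : Bool → Subgroup G) (Q : Bool → Subgroup G) : Subgroup G := H false ⊓ Subgroup.centralizer (Q false : Set G)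

theorem KK_norm (h : Hyp H P Q) : H false ≤ Subgroup.normalizer (KK H Q : Set G) := by
  intro g hg
  apply mem_normalizer_of_cj
  unfold KK
  rw [cj_inf, cj_centralizer, cj_eq_of_norm (h.QH false) hg, cj_eq_of_mem (Subgroup.le_normalizer hg)]

include hZ in
theorem Q_le_KK (h : Hyp H P Q) : Q false ≤ KK H Q := by
  refine le_inf ((h.QP false).trans (h.PH false)) ?_
  intro x hx
  rw [Subgroup.mem_centralizer_iff]
  intro y hy
  exact h.Q_comm hZ false hy hx

include hZ in
theorem P_inf_KK (h : Hyp H P Q) : P ⊓ KK H Q = Q false := by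
  apply le_antisymm
  · rintro x ⟨hxP, hxK⟩
    refine h.centr hZ hxP (fun v hv => ?_)
    exact (Subgroup.mem_centralizer_iff.mp hxK.2 v (h.V_le_Q hZ false hv)).symm
  · exact le_inf (h.QP false) (h.Q_le_KK hZ)

include hZ in
theorem syl_KK (h : Hyp H P Q) (hS : IsSyl 2 P (H false)) : IsSyl 2 (Q false) (KK H Q) := by
  have f2 : Fact (Nat.Prime 2) := ⟨Nat.prime_two⟩
  rw [← h.P_inf_KK hZ]
  exact hS.inf_normal inf_le_left h.KK_norm

/-- conjugation by an element normalizing modulo commutators -/
theorem conj_eq_comm (x p : G) : p * x * p⁻¹ = ⁅x, p⁆⁻¹ * x := by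
  rw [commutatorElement_def]; group

include hZ in
theorem idx_KK (h : Hyp H P Q) (hS : IsSyl 2 P (H false)) {n : ℕ} {f : H false →* DihedralGroup n}
    (D : Dih (H false) P (Q false) n f) : (KK H Q).relIndex (H false) = 6 := by
  have f2 : Fact (Nat.Prime 2) := ⟨Nat.prime_two⟩
  have hQK := h.Q_le_KK hZ
  have hKA : KK H Q ≤ H false := inf_le_left
  have h1 : (Q false).relIndex (H false) = 2 * n := by
    have : (Q false).relIndex (H false) = f.ker.index := by rw [D.ker]; rfl
    rw [this, Subgroup.index_ker, MonoidHom.range_eq_top.mpr D.surj, Subgroup.card_top, DihedralGroup.nat_card]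
  have h2 := Subgroup.relIndex_mul_relIndex _ _ _ hQK hKA
  rw [h1] at h2
  have h3 := (h.syl_KK hZ hS).ndvd
  have h4 : 2 ∣ (KK H Q).relIndex (H false) := by
    have : 2 ∣ (Q false).relIndex (KK H Q) * (KK H Q).relIndex (H false) := ⟨n, h2⟩
    rcases (Nat.Prime.dvd_mul Nat.prime_two).mp this with h5 | h5
    · exact absurd h5 h3
    · exact h5
  have h5 : ¬ 4 ∣ (KK H Q).relIndex (H false) := by
    rintro ⟨c, hc⟩
    rw [hc] at h2
    obtain ⟨m, hm⟩ := D.hn
    have : 2 * ((Q false).relIndex (KK H Q) * c) = n := by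
      have h6 : 2 * (2 * ((Q false).relIndex (KK H Q) * c)) = 2 * n := by rw [← h2]; ring
      omega
    omega
  have h6 : (KK H Q).relIndex (H false) ≠ 2 := by
    intro hcon
    have h7 : ¬ P ≤ KK H Q := by
      intro h8
      have h9 := h.P_inf_KK hZ
      rw [inf_eq_left.mpr h8] at h9
      obtain ⟨t, ht, htQ⟩ := h.Q_lt false
      exact htQ (h9 ▸ ht)
    have h8 := eq_sup_of_relIndex_two hcon hKA (h.PH false) h7
    apply h.not_H_central hZ false
    rw [h8]
    apply sup_le _ norm_ze
    apply norm_of_central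
    intro p hp x hx
    exact (Subgroup.mem_centralizer_iff.mp hp.2 x (hZ false hx)).symm
  -- the bound
  obtain ⟨r, hr, hr1, hrr, hR, hA⟩ := h.exists_r hZ false
  obtain ⟨k, hk, hkP⟩ := h.gen false
  set R := RR H P false with hRdef
  have hRZ : R ≤ ze P := h.RR_le_Z hZ false
  have hRV : R ≤ V H P false := hRZ.trans (Z_le_V H P false)
  have hkV : cj k (V H P false) = V H P false := cj_eq_of_norm (V_norm H P false) hk
  have hkRV : cj k R ≤ V H P false := by rw [← hkV]; exact cj_mono hRV
  have hkR : cj k R = ⁅V H P false, cj k P⁆ := by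
    rw [hRdef]; unfold RR
    rw [cj_commutator, hkV]
  have hN : H false ≤ Subgroup.normalizer ((R ⊔ cj k R : Subgroup G) : Set G) := by
    rw [← hkP]
    have hPR : P ≤ Subgroup.normalizer (R : Set G) :=
      norm_of_central (fun p hp x hx => ze_comm (hRZ hx) hp)
    apply sup_le
    · apply norm_of_cj_le
      intro p hp
      rw [cj_sup]
      apply sup_le
      · rw [cj_eq_of_norm hPR hp]; exact le_sup_left
      · intro x hx
        rw [mem_cj] at hx
        have e : x = ⁅p⁻¹ * x * p, p⁆⁻¹ * (p⁻¹ * x * p) := by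
          rw [← conj_eq_comm]; group
        rw [e]
        apply mul_mem
        · apply (le_sup_left : R ≤ R ⊔ cj k R)
          exact inv_mem (Subgroup.commutator_mem_commutator (hkRV hx) hp)
        · exact (le_sup_right : cj k R ≤ R ⊔ cj k R) hx
    · apply norm_of_cj_le
      intro p hp
      rw [cj_sup]
      apply sup_le
      · intro x hx
        rw [mem_cj] at hx
        have e : x = ⁅p⁻¹ * x * p, p⁆⁻¹ * (p⁻¹ * x * p) := by
          rw [← conj_eq_comm]; group
        rw [e]
        apply mul_mem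
        · apply (le_sup_right : cj k R ≤ R ⊔ cj k R)
          rw [hkR]
          exact inv_mem (Subgroup.commutator_mem_commutator (hRV hx) hp)
        · exact (le_sup_left : R ≤ R ⊔ cj k R) hx
      · have := cj_norm_le (y := k) hPR
        rw [cj_eq_of_norm this hp]; exact le_sup_right
  set r' := k * r * k⁻¹ with hr'
  have hr'1 : r' ≠ 1 := by
    intro hcon
    apply hr1
    have : r = k⁻¹ * r' * k := by rw [hr']; group
    rw [this, hcon]; group
  have hcodes : ∀ x ∈ R ⊔ cj k R, x = 1 ∨ x = r ∨ x = r' ∨ x = r * r' := by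
    intro x hx
    have hRn : R ≤ Subgroup.normalizer ((cj k R : Subgroup G) : Set G) := by
      apply norm_of_central
      intro p hp y hy
      exact h.V_comm hZ (hkRV hy) (h.V_le_Q hZ false (hRV hp))
    have h9 := Subgroup.coe_mul_of_left_le_normalizer_right R (cj k R) hRn
    rw [← SetLike.mem_coe, h9] at hx
    obtain ⟨a, ha, b, hb, rfl⟩ := Set.mem_mul.mp hx
    have hb' : b = 1 ∨ b = r' := by
      rw [SetLike.mem_coe, mem_cj, hR] at hb
      rcases hb with hb | hb
      · left
        have : b = k * (k⁻¹ * b * k) * k⁻¹ := by group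
        rw [this, hb]; group
      · right
        have : b = k * (k⁻¹ * b * k) * k⁻¹ := by group
        rw [this, hb]
    rcases (hR a).mp ha with rfl | rfl <;> rcases hb' with rfl | rfl
    · left; simp
    · right; right; left; simp
    · right; left; simp
    · right; right; right; rfl
  have hrN : r ∈ R ⊔ cj k R := (le_sup_left : R ≤ R ⊔ cj k R) ((hR r).mpr (Or.inr rfl))
  have hr'N : r' ∈ R ⊔ cj k R := (le_sup_right : cj k R ≤ R ⊔ cj k R) (conj_mem_cj ((hR r).mpr (Or.inr rfl)))
  classical
  let c : G → Fin 3 := fun x => if x = r then 0 else if x = r' then 1 else 2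
  have hc : ∀ x ∈ R ⊔ cj k R, ∀ y ∈ R ⊔ cj k R, x ≠ 1 → y ≠ 1 → c x = c y → x = y := by
    intro x hx y hy hx1 hy1 hcxy
    have h0 : (0 : Fin 3) ≠ 1 := by decide
    have h02 : (0 : Fin 3) ≠ 2 := by decide
    have h12 : (1 : Fin 3) ≠ 2 := by decide
    simp only [c] at hcxy
    rcases hcodes x hx with rfl | rfl | rfl | rfl
    · exact absurd rfl hx1
    · rw [if_pos rfl] at hcxy
      by_cases e1 : y = x
      · exact e1.symm
      · rw [if_neg e1] at hcxy
        by_cases e2 : y = r'
        · rw [if_pos e2] at hcxy; exact absurd hcxy h0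
        · rw [if_neg e2] at hcxy; exact absurd hcxy h02
    · by_cases e0 : r' = r
      · rw [if_pos e0] at hcxy
        by_cases e1 : y = r
        · rw [e0, e1]
        · rw [if_neg e1] at hcxy
          by_cases e2 : y = r'
          · exact e2.symm
          · rw [if_neg e2] at hcxy; exact absurd hcxy h02
      · rw [if_neg e0, if_pos rfl] at hcxy
        by_cases e1 : y = r
        · rw [if_pos e1] at hcxy; exact absurd hcxy.symm h0
        · rw [if_neg e1] at hcxy
          by_cases e2 : y = r'
          · exact e2.symm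
          · rw [if_neg e2] at hcxy; exact absurd hcxy h12
    · have e1 : r * r' ≠ r := by
        intro h9; apply hr'1
        calc r' = r⁻¹ * (r * r') := by group
          _ = 1 := by rw [h9]; group
      have e2 : r * r' ≠ r' := by
        intro h9; apply hr1
        calc r = (r * r') * r'⁻¹ := by group
          _ = 1 := by rw [h9]; group
      rw [if_neg e1, if_neg e2] at hcxy
      rcases hcodes y hy with rfl | rfl | rfl | rfl
      · exact absurd rfl hy1
      · rw [if_pos rfl] at hcxy; exact absurd hcxy.symm h02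
      · by_cases e0 : r' = r
        · rw [if_pos e0] at hcxy; exact absurd hcxy.symm h02
        · rw [if_neg e0, if_pos rfl] at hcxy; exact absurd hcxy.symm h12
      · rfl
  have hle := Cfsg.Agent.Lib.BFJ.relIndex_le_of_inj (α := Fin 3 × Fin 3) (KK H Q) (H false)
    (fun a => (c (a * r * a⁻¹), c (a * r' * a⁻¹))) (by
      intro x hx y hy hxy
      have e1 : c (x * r * x⁻¹) = c (y * r * y⁻¹) := congrArg Prod.fst hxy
      have e2 : c (x * r' * x⁻¹) = c (y * r' * y⁻¹) := congrArg Prod.snd hxy
      have hconjN : ∀ a ∈ H false, ∀ u ∈ R ⊔ cj k R, a * u * a⁻¹ ∈ R ⊔ cj k R := by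
        intro a ha u hu
        have := conj_mem_cj (g := a) hu
        rwa [cj_eq_of_norm hN ha] at this
      have hconj1 : ∀ a u : G, u ≠ 1 → a * u * a⁻¹ ≠ 1 := by
        intro a u hu hcon
        apply hu
        have : u = a⁻¹ * (a * u * a⁻¹) * a := by group
        rw [this, hcon]; group
      have e3 := hc _ (hconjN x hx r hrN) _ (hconjN y hy r hrN) (hconj1 x r hr1) (hconj1 y r hr1) e1
      have e4 := hc _ (hconjN x hx r' hr'N) _ (hconjN y hy r' hr'N) (hconj1 x r' hr'1) (hconj1 y r' hr'1) e2
      have hcm : ∀ u : G, x * u * x⁻¹ = y * u * y⁻¹ → (x⁻¹ * y) * u = u * (x⁻¹ * y) := by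
        intro u hu
        calc (x⁻¹ * y) * u = x⁻¹ * (y * u * y⁻¹) * y := by group
          _ = x⁻¹ * (x * u * x⁻¹) * y := by rw [hu]
          _ = u * (x⁻¹ * y) := by group
      have e5 := hcm r e3
      have e6 := hcm r' e4
      refine ⟨(H false).mul_mem ((H false).inv_mem hx) hy, ?_⟩
      have hle : V H P false ≤ Subgroup.centralizer {x⁻¹ * y} := by
        rw [h.V_sup hZ hk hkP]
        apply sup_le (sup_le _ _) _
        · intro u hu
          rw [Subgroup.mem_centralizer_singleton_iff]
          exact (CC_comm hu (mul_mem (inv_mem hx) hy)).symm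
        · intro u hu
          rw [Subgroup.mem_centralizer_singleton_iff]
          rcases (hR u).mp hu with rfl | rfl
          · simp
          · exact e5.symm
        · intro u hu
          rw [Subgroup.mem_centralizer_singleton_iff]
          rw [mem_cj] at hu
          rcases (hR _).mp hu with hu' | hu'
          · have : u = 1 := by
              have : u = k * (k⁻¹ * u * k) * k⁻¹ := by group
              rw [this, hu']; group
            rw [this]; simp
          · have : u = r' := by
              have : u = k * (k⁻¹ * u * k) * k⁻¹ := by group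
              rw [this, hu']
            rw [this]; exact e6.symm
      change x⁻¹ * y ∈ Subgroup.centralizer (Q false : Set G)
      rw [Subgroup.mem_centralizer_iff]
      intro q hq
      rw [h.Q_eq_V hZ false] at hq
      exact Subgroup.mem_centralizer_singleton_iff.mp (hle hq))
  have hcard : Fintype.card (Fin 3 × Fin 3) = 9 := by simp
  rw [hcard] at hle
  obtain ⟨m, hm⟩ := h4
  rw [hm] at h5 h6 hle ⊢
  have hpos : (KK H Q).relIndex (H false) ≠ 0 := Subgroup.index_ne_zero_of_finite
  rw [hm] at hpos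
  have h7 : m ≠ 1 := fun h => h6 (by rw [h])
  have h8 : m ≠ 2 := fun h => h5 ⟨1, by omega⟩
  have h9 : m ≠ 4 := fun h => h5 ⟨2, by omega⟩
  omega

include hZ in
theorem exists_LL (h : Hyp H P Q) (hS : IsSyl 2 P (H false)) : ∃ L : Subgroup G, L ≤ KK H Q ∧
    H false ≤ Subgroup.normalizer (L : Set G) ∧ ¬ 2 ∣ Nat.card L ∧ Nat.card L * Nat.card (Q false) = Nat.card (KK H Q) ∧
    (∀ x ∈ KK H Q, ∃ l ∈ L, ∃ q ∈ Q false, x = l * q) ∧ (∀ x ∈ KK H Q, Odd (orderOf x) → x ∈ L) := by
  have f2 : Fact (Nat.Prime 2) := ⟨Nat.prime_two⟩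
  have hQK := h.Q_le_KK hZ
  obtain ⟨P', hP'⟩ := (h.syl_KK hZ hS).exists_sylow
  have hPc : Subgroup.normalizer (P' : Set ↥(KK H Q)) ≤ Subgroup.centralizer (P' : Set ↥(KK H Q)) := by
    intro x _
    rw [Subgroup.mem_centralizer_iff]
    intro y hy
    have hy' : (y : G) ∈ Q false := by
      have : y ∈ (P' : Subgroup ↥(KK H Q)) := hy
      rw [hP'] at this
      exact Subgroup.mem_subgroupOf.mp this
    exact Subtype.ext (Subgroup.mem_centralizer_iff.mp x.2.2 _ hy')
  set tr := MonoidHom.transferSylow P' hPc with htr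
  have hcompl := MonoidHom.ker_transferSylow_isComplement' P' hPc
  have hnd := MonoidHom.not_dvd_card_ker_transferSylow P' hPc
  have hodd : ∀ x : ↥(KK H Q), Odd (orderOf x) → x ∈ tr.ker := by
    intro x hx
    rw [MonoidHom.mem_ker]
    have h1 : orderOf (tr x) ∣ orderOf x := orderOf_map_dvd tr x
    obtain ⟨j, hj⟩ := (IsPGroup.iff_orderOf.mp P'.2) (tr x)
    rw [hj] at h1
    have h2 : j = 0 := by
      by_contra hj0
      have h3 : 2 ∣ orderOf x := (dvd_pow_self 2 hj0).trans h1
      exact absurd hx (Nat.not_odd_iff_even.mpr (even_iff_two_dvd.mpr h3))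
    rw [h2, pow_zero] at hj
    exact orderOf_eq_one_iff.mp hj
  have hcardL : Nat.card (tr.ker.map (KK H Q).subtype) = Nat.card tr.ker :=
    Nat.card_congr (tr.ker.equivMapOfInjective _ (KK H Q).subtype_injective).symm.toEquiv
  have hmem : ∀ x ∈ KK H Q, Odd (orderOf x) → x ∈ tr.ker.map (KK H Q).subtype := by
    intro x hx hxo
    exact ⟨⟨x, hx⟩, hodd _ (by rwa [Subgroup.orderOf_mk]), rfl⟩
  refine ⟨tr.ker.map (KK H Q).subtype, Subgroup.map_subtype_le _, ?_, ?_, ?_, ?_, hmem⟩
  · apply norm_of_cj_le
    intro g hg x hx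
    rw [mem_cj] at hx
    have h1 : g⁻¹ * x * g ∈ KK H Q := Subgroup.map_subtype_le _ hx
    have h2 : x ∈ KK H Q := by
      have := conj_mem_cj (g := g) h1
      rw [cj_eq_of_norm h.KK_norm hg] at this
      have e : g * (g⁻¹ * x * g) * g⁻¹ = x := by group
      rwa [e] at this
    apply hmem x h2
    have h3 : orderOf (g⁻¹ * x * g) = orderOf x := by
      have := orderOf_injective (MulAut.conj g⁻¹).toMonoidHom (MulAut.conj g⁻¹).injective x
      simpa using this
    rw [← h3]
    rw [← Nat.not_even_iff_odd, even_iff_two_dvd]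
    intro hd
    apply hnd
    rw [← hcardL]
    exact hd.trans (Subgroup.orderOf_dvd_natCard _ hx)
  · rw [hcardL]; exact hnd
  · rw [hcardL]
    have h1 := hcompl.card_mul_card
    have h2 : Nat.card (P' : Subgroup ↥(KK H Q)) = Nat.card (Q false) := by
      rw [hP']
      exact Nat.card_congr (Subgroup.subgroupOfEquivOfLe hQK).toEquiv
    rw [← h2]; exact h1
  · intro x hx
    obtain ⟨⟨l, q⟩, hlq⟩ := hcompl.2 ⟨x, hx⟩
    refine ⟨l, ⟨l, l.2, rfl⟩, q, ?_, ?_⟩
    · have h8 : ∀ y : ↥(KK H Q), y ∈ (P' : Subgroup ↥(KK H Q)) → (y : G) ∈ Q false := by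
        intro y hy
        rw [hP'] at hy
        exact Subgroup.mem_subgroupOf.mp hy
      exact h8 _ q.2
    · exact (congrArg Subtype.val hlq).symm

end Hyp

end Cfsg.Agent.Lib.Tut
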