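import Cfsg.Agent.Lib.TutH

/-!
# A symmetric amalgam with dihedral residues (helper47): the final identification (for S4385)
-/

set_option autoImplicit false

open scoped Pointwise commutatorElement

namespace Cfsg.Agent.Lib.Tut

open Cfsg.Agent.Lib.LocBase

variable {G : Type*} [Group G] [Finite G]

variable {H : Bool → Subgroup G} {P : Subgroup G} {Q : Bool → Subgroup G}

namespace Hyp

variable (hZ : ∀ i, ze P ≤ Q i)

/-- everything needed about `H₀` modulo its core -/
structure Res (A B : Subgroup G) : Prop where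
  card : Nat.card (↥A ⧸ Cfsg.oddCore ↥A) = 6 * Nat.card B
  inj : ∀ x : A, x ∈ Cfsg.oddCore ↥A → (x : G) ∈ B → x = 1
  cardB : Nat.card ((B.subgroupOf A).map (QuotientGroup.mk' (Cfsg.oddCore ↥A))) = Nat.card B
  nrm : ((B.subgroupOf A).map (QuotientGroup.mk' (Cfsg.oddCore ↥A))).Normal
  cent : Subgroup.centralizer (((B.subgroupOf A).map (QuotientGroup.mk' (Cfsg.oddCore ↥A)) : Subgroup (↥A ⧸ Cfsg.oddCore ↥A)) :
    Set (↥A ⧸ Cfsg.oddCore ↥A)) ≤ (B.subgroupOf A).map (QuotientGroup.mk' (Cfsg.oddCore ↥A))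
  hmax : ∀ N : Subgroup (↥A ⧸ Cfsg.oddCore ↥A), N.Normal → IsPGroup 2 N →
    N ≤ (B.subgroupOf A).map (QuotientGroup.mk' (Cfsg.oddCore ↥A))

theorem coprime_mem_eq_one {X : Type*} [Group X] [Finite X] {x : X} {j : ℕ} (h1 : Odd (orderOf x)) (h2 : orderOf x ∣ 2 ^ j) :
    x = 1 := by
  rw [← orderOf_eq_one_iff]
  obtain ⟨i, hi, e⟩ := (Nat.dvd_prime_pow Nat.prime_two).mp h2
  rw [e] at h1 ⊢
  rcases i with _ | i
  · simp
  · exfalso
    exact absurd h1 (Nat.not_odd_iff_even.mpr (even_iff_two_dvd.mpr (dvd_pow_self 2 (Nat.succ_ne_zero i))))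

include hZ in
theorem res (h : Hyp H P Q) (hS : IsSyl 2 P (H false)) {n : ℕ} {f : H false →* DihedralGroup n}
    (D : Dih (H false) P (Q false) n f) : Res (H false) (Q false) := by
  have f2 : Fact (Nat.Prime 2) := ⟨Nat.prime_two⟩
  obtain ⟨L, hLK, hLn, hL2, hLcard, hLQ, hLodd⟩ := h.exists_LL hZ hS
  have hKA : KK H Q ≤ H false := inf_le_left
  have hQA : Q false ≤ H false := (h.QP false).trans (h.PH false)
  have hQ2 : IsPGroup 2 (Q false) := h.pP.to_le (h.QP false)
  have hOcop := CFCore.pPrimeCore_coprime (p := 2) (G := ↥(H false))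
  have hOodd : ∀ x : H false, x ∈ Cfsg.oddCore ↥(H false) → Odd (orderOf x) := by
    intro x hx
    rw [← Nat.coprime_two_right]
    exact Nat.Coprime.coprime_dvd_left (Subgroup.orderOf_dvd_natCard _ hx) hOcop
  have hinj : ∀ x : H false, x ∈ Cfsg.oddCore ↥(H false) → (x : G) ∈ Q false → x = 1 := by
    intro x hx hxQ
    obtain ⟨j, hj⟩ := (IsPGroup.iff_orderOf.mp hQ2) ⟨x, hxQ⟩
    rw [Subgroup.orderOf_mk, Subgroup.orderOf_coe] at hj
    exact coprime_mem_eq_one (hOodd x hx) (dvd_of_eq hj)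
  have hOn : (Cfsg.oddCore ↥(H false)).Normal := Cfsg.pPrimeCore_normal 2 _
  have hcomm : ∀ x : H false, (∀ q : H false, (q : G) ∈ Q false → x * q * x⁻¹ * q⁻¹ ∈ Cfsg.oddCore ↥(H false)) →
      (x : G) ∈ KK H Q := by
    intro x hx
    refine ⟨x.2, ?_⟩
    change (x : G) ∈ Subgroup.centralizer (Q false : Set G)
    rw [Subgroup.mem_centralizer_iff]
    intro q hq
    have h1 := hx ⟨q, hQA hq⟩ hq
    have h2 : ((x * ⟨q, hQA hq⟩ * x⁻¹ * (⟨q, hQA hq⟩ : H false)⁻¹ : H false) : G) ∈ Q false := by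
      have h3 : (x : G) * q * (x : G)⁻¹ ∈ Q false := by
        have := conj_mem_cj (g := (x : G)) hq
        rwa [cj_eq_of_norm (h.QH false) x.2] at this
      exact mul_mem h3 (inv_mem hq)
    have h4 := hinj _ h1 h2
    have h5 : (x : G) * q * (x : G)⁻¹ * q⁻¹ = 1 := congrArg Subtype.val h4
    calc q * x = (x * q * (x : G)⁻¹ * q⁻¹)⁻¹ * (x * q) := by group
      _ = x * q := by rw [h5]; group
  have hO : Cfsg.oddCore ↥(H false) = L.subgroupOf (H false) := by
    apply le_antisymm
    · intro x hx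
      rw [Subgroup.mem_subgroupOf]
      apply hLodd
      · apply hcomm
        intro q _
        have h1 : q * x⁻¹ * q⁻¹ ∈ Cfsg.oddCore ↥(H false) := hOn.conj_mem _ (inv_mem hx) q
        have e : x * q * x⁻¹ * q⁻¹ = x * (q * x⁻¹ * q⁻¹) := by group
        rw [e]
        exact mul_mem hx h1
      · rw [Subgroup.orderOf_coe]; exact hOodd x hx
    · apply CFCore.le_pPrimeCore
      · exact Subgroup.normal_subgroupOf_of_le_normalizer hLn
      · rw [Nat.coprime_comm, Nat.Prime.coprime_iff_not_dvd Nat.prime_two]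
        rw [Nat.card_congr (Subgroup.subgroupOfEquivOfLe (hLK.trans hKA)).toEquiv]
        exact hL2
  have hcard : Nat.card (↥(H false) ⧸ Cfsg.oddCore ↥(H false)) = 6 * Nat.card (Q false) := by
    have h1 := Subgroup.card_eq_card_quotient_mul_card_subgroup (Cfsg.oddCore ↥(H false))
    have h2 : Nat.card (Cfsg.oddCore ↥(H false)) = Nat.card L := by
      rw [hO]
      exact Nat.card_congr (Subgroup.subgroupOfEquivOfLe (hLK.trans hKA)).toEquiv
    have h3 := card_of_relIndex hKA
    rw [h.idx_KK hZ hS D, ← hLcard] at h3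
    rw [h2, ← h3] at h1
    have h4 : 0 < Nat.card L := Nat.card_pos
    have h5 : Nat.card L * (6 * Nat.card (Q false)) = Nat.card L * Nat.card (↥(H false) ⧸ Cfsg.oddCore ↥(H false)) := by
      rw [mul_comm _ (Nat.card L)] at h1
      rw [← h1]; ring
    exact (Nat.eq_of_mul_eq_mul_left h4 h5).symm
  set π := QuotientGroup.mk' (Cfsg.oddCore ↥(H false)) with hπ
  have hπ1 : ∀ x, π x = 1 ↔ x ∈ Cfsg.oddCore ↥(H false) := by
    intro x
    rw [← MonoidHom.mem_ker, hπ, QuotientGroup.ker_mk']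
  set B' := ((Q false).subgroupOf (H false)).map π with hB'
  have hQn : ((Q false).subgroupOf (H false)).Normal := Subgroup.normal_subgroupOf_of_le_normalizer (h.QH false)
  have hnrm : B'.Normal := hQn.map π (QuotientGroup.mk'_surjective _)
  have hB'2 : IsPGroup 2 B' := (hQ2.comap_subtype (K := H false)).map π
  refine ⟨hcard, hinj, ?_, hnrm, ?_, ?_⟩
  · -- injectivity on `Q₀`
    have h1 : Function.Bijective (π.subgroupMap ((Q false).subgroupOf (H false))) := by
      refine ⟨?_, π.subgroupMap_surjective _⟩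
      rw [← MonoidHom.ker_eq_bot_iff, eq_bot_iff]
      rintro ⟨x, hx⟩ hxk
      rw [MonoidHom.mem_ker] at hxk
      have h2 : π x = 1 := congrArg Subtype.val hxk
      rw [hπ1] at h2
      rw [Subgroup.mem_bot]
      exact Subtype.ext (hinj x h2 (Subgroup.mem_subgroupOf.mp hx))
    rw [← Nat.card_eq_of_bijective _ h1]
    exact Nat.card_congr (Subgroup.subgroupOfEquivOfLe hQA).toEquiv
  · intro u hu
    obtain ⟨x, rfl⟩ := QuotientGroup.mk'_surjective _ u
    rw [Subgroup.mem_centralizer_iff] at hu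
    have hxK : (x : G) ∈ KK H Q := by
      apply hcomm
      intro q hq
      rw [← hπ1]
      have h1 := hu (π q) ⟨q, Subgroup.mem_subgroupOf.mpr hq, rfl⟩
      replace h1 : π q * π x = π x * π q := h1
      rw [map_mul, map_mul, map_mul, map_inv, map_inv, ← h1]; group
    obtain ⟨l, hl, q, hq, e⟩ := hLQ _ hxK
    refine ⟨⟨q, hQA hq⟩, Subgroup.mem_subgroupOf.mpr hq, ?_⟩
    have hl' : π ⟨l, hKA (hLK hl)⟩ = 1 := by
      rw [hπ1, hO, Subgroup.mem_subgroupOf]; exact hl
    have e' : x = ⟨l, hKA (hLK hl)⟩ * ⟨q, hQA hq⟩ := Subtype.ext e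
    show π _ = π x
    rw [e', map_mul, hl', one_mul]
  · intro N hN hN2
    intro u hu
    obtain ⟨x, rfl⟩ := QuotientGroup.mk'_surjective _ u
    replace hu : π x ∈ N := hu
    show π x ∈ B'
    by_contra hxB
    -- a 2-element with the same image
    obtain ⟨a, ha, b, hb, hab⟩ : ∃ a b' : ℕ, Odd b' ∧ ∃ j, orderOf x = 2 ^ j * b' ∧ a = j := by
      obtain ⟨j, b', hb', e⟩ := Nat.exists_eq_two_pow_mul_odd (orderOf_pos x).ne'
      exact ⟨j, b', hb', j, e, rfl⟩
    obtain ⟨hab, rfl⟩ := hab
    set y := x ^ ha with hy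
    have hy2 : orderOf y ∣ 2 ^ a := by
      apply orderOf_dvd_of_pow_eq_one
      rw [hy, ← pow_mul, mul_comm, ← hab, pow_orderOf_eq_one]
    -- `π x` is a power of `π y`
    have hxy : π x ∈ Subgroup.zpowers (π y) := by
      obtain ⟨j, hj⟩ := (IsPGroup.iff_orderOf.mp hN2) ⟨π x, hu⟩
      rw [Subgroup.orderOf_mk] at hj
      have hcop : Nat.Coprime ha (orderOf (π x)) := by
        rw [hj]
        exact Nat.Coprime.pow_right _ (Nat.coprime_two_right.mpr b)
      have h1 : (Subgroup.zpowers (π x ^ ha)) = Subgroup.zpowers (π x) := by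
        have h2 : orderOf (π x ^ ha) = orderOf (π x) := Nat.Coprime.orderOf_pow hcop.symm
        have h3 : Subgroup.zpowers (π x ^ ha) ≤ Subgroup.zpowers (π x) := by
          rw [Subgroup.zpowers_le]
          exact Subgroup.pow_mem _ (Subgroup.mem_zpowers _) _
        apply Subgroup.eq_of_le_of_card_ge h3
        rw [Nat.card_zpowers, Nat.card_zpowers, h2]
      rw [hy, map_pow, h1]
      exact Subgroup.mem_zpowers _
    have hyN : π y ∈ N := by rw [hy, map_pow]; exact N.pow_mem hu _
    -- move `y` into `P`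
    have hyp : IsPGroup 2 (Subgroup.zpowers (y : G)) := by
      intro z
      refine ⟨a, Subtype.ext ?_⟩
      obtain ⟨z, k, rfl⟩ := z
      show ((y : G) ^ k) ^ 2 ^ a = 1
      rw [← zpow_natCast, ← zpow_mul, mul_comm, zpow_mul, zpow_natCast, orderOf_dvd_iff_pow_eq_one.mp
        (by rw [Subgroup.orderOf_coe]; exact hy2), one_zpow]
    obtain ⟨g, hg, hle⟩ := hS.exists_conj_le hyp (by rw [Subgroup.zpowers_le]; exact y.2)
    have hp : g * (y : G) * g⁻¹ ∈ P := hle ⟨y, Subgroup.mem_zpowers _, rfl⟩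
    set gg : H false := ⟨g, hg⟩ with hgg
    set p : H false := gg * y * gg⁻¹ with hpdef
    have hpP : (p : G) ∈ P := hp
    have hpN : π p ∈ N := by
      rw [hpdef, map_mul, map_mul, map_inv]
      exact hN.conj_mem _ hyN _
    have hpQ : (p : G) ∉ Q false := by
      intro hcon
      apply hxB
      have h1 : π p ∈ B' := ⟨p, Subgroup.mem_subgroupOf.mpr hcon, rfl⟩
      have h2 : π y ∈ B' := by
        have h3 := hnrm.conj_mem _ h1 (π gg⁻¹)
        have e : π gg⁻¹ * π p * (π gg⁻¹)⁻¹ = π y := by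
          rw [← map_inv, ← map_mul, ← map_mul, hpdef]
          congr 1
          group
        rwa [e] at h3
      have h3 : Subgroup.zpowers (π y) ≤ B' := by rw [Subgroup.zpowers_le]; exact h2
      exact h3 hxy
    -- the preimage of `N ⊔ B'`
    set M := ((N ⊔ B').comap π).map (H false).subtype with hM
    have hMmem : ∀ z : H false, (z : G) ∈ M ↔ π z ∈ N ⊔ B' := by
      intro z
      constructor
      · rintro ⟨w, hw, e⟩
        have : w = z := Subtype.ext e
        rw [← this]; exact hw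
      · intro hz
        exact ⟨z, hz, rfl⟩
    have hMn : H false ≤ Subgroup.normalizer (M : Set G) := by
      apply norm_of_cj_le
      intro c hc z hz
      rw [mem_cj] at hz
      have hzH : c⁻¹ * z * c ∈ H false := Subgroup.map_subtype_le _ hz
      have hzH' : z ∈ H false := by
        have := (H false).mul_mem ((H false).mul_mem hc hzH) ((H false).inv_mem hc)
        have e : c * (c⁻¹ * z * c) * c⁻¹ = z := by group
        rwa [e] at this
      have h1 := (hMmem ⟨_, hzH⟩).mp hz
      apply (hMmem ⟨z, hzH'⟩).mpr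
      have hNB : (N ⊔ B').Normal := Subgroup.sup_normal N B'
      have h2 := hNB.conj_mem _ h1 (π ⟨c, hc⟩)
      have e : π ⟨c, hc⟩ * π ⟨c⁻¹ * z * c, hzH⟩ * (π ⟨c, hc⟩)⁻¹ = π ⟨z, hzH'⟩ := by
        rw [← map_inv, ← map_mul, ← map_mul]
        congr 1
        apply Subtype.ext
        show c * (c⁻¹ * z * c) * c⁻¹ = z
        group
      rwa [e] at h2
    have hQM : Q false ≤ M := by
      intro q hq
      apply (hMmem ⟨q, hQA hq⟩).mpr
      exact (le_sup_right : B' ≤ N ⊔ B') ⟨⟨q, hQA hq⟩, Subgroup.mem_subgroupOf.mpr hq, rfl⟩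
    have hpM : (p : G) ∈ M := (hMmem p).mpr ((le_sup_left : N ≤ N ⊔ B') hpN)
    have hPM : P ≤ M := by
      intro z hz
      by_cases hzQ : z ∈ Q false
      · exact hQM hzQ
      · have h1 := hQM (inv_mul_mem_of_relIndex_two (h.idx false) hpP hz hpQ hzQ)
        have h2 := M.mul_mem hpM h1
        rwa [mul_inv_cancel_left] at h2
    obtain ⟨k, hk, hkP⟩ := h.gen false
    have hHM : H false ≤ M := by
      rw [← hkP]
      apply sup_le hPM
      have := cj_mono (g := k) hPM
      rwa [cj_eq_of_norm hMn hk] at this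
    have htop : N ⊔ B' = ⊤ := by
      rw [eq_top_iff]
      intro z _
      obtain ⟨w, rfl⟩ := QuotientGroup.mk'_surjective _ z
      exact (hMmem w).mp (hHM w.2)
    have hp2 : IsPGroup 2 ↥(N ⊔ B') := isPGroup_sup hN2 hB'2 (Subgroup.le_normalizer_of_normal)
    rw [htop] at hp2
    obtain ⟨j, hj⟩ := IsPGroup.iff_card.mp hp2
    rw [Subgroup.card_top, hcard] at hj
    have h3 : 3 ∣ 2 ^ j := ⟨2 * Nat.card (Q false), by rw [← hj]; ring⟩
    have h4 := Nat.Prime.dvd_of_dvd_pow Nat.prime_three h3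
    omega

include hZ in
theorem final_iso (h : Hyp H P Q) (hS : IsSyl 2 P (H false)) {n : ℕ} {f : H false →* DihedralGroup n}
    (D : Dih (H false) P (Q false) n f) :
    (Nat.card P = 8 ∧ Nonempty (↥(H false) ⧸ Cfsg.oddCore ↥(H false) ≃* Equiv.Perm (Fin 4))) ∨
    (Nat.card P = 16 ∧ Nonempty (↥(H false) ⧸ Cfsg.oddCore ↥(H false) ≃* Equiv.Perm (Fin 4) × Multiplicative (ZMod 2))) := by
  have f2 : Fact (Nat.Prime 2) := ⟨Nat.prime_two⟩
  have R := h.res hZ hS D
  have hOn : (Cfsg.oddCore ↥(H false)).Normal := Cfsg.pPrimeCore_normal 2 _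
  have hnrm := R.nrm
  have hcQ := h.card_Q hZ false
  have hcP := h.card_P hZ
  have hcR := R.card
  have hcB := R.cardB
  rcases h.cards hZ with ⟨h1, h2⟩ | ⟨h1, h2⟩
  · left
    refine ⟨by omega, ?_⟩
    exact Cfsg.Agent.Lib.S4Kernel.iso_S4 _ (by omega) (by rw [hcB]; omega) R.cent R.hmax
  · right
    refine ⟨by omega, ?_⟩
    -- the central involution
    obtain ⟨d', hd'⟩ := (isCyclic_of_prime_card (h2 false)).exists_generator
    have hd'o : orderOf d' = 2 := by
      rw [← h2 false]; exact orderOf_eq_card_of_forall_mem_zpowers hd'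
    obtain ⟨d, hdC⟩ := d'
    rw [Subgroup.orderOf_mk] at hd'o
    have hd1 : d ≠ 1 := by
      rintro rfl
      rw [orderOf_one] at hd'o
      omega
    have hdZ : d ∈ ze P := hdC.1
    have hdQ : d ∈ Q false := hZ false hdZ
    have hdP : d ∈ P := hdZ.1
    have hdH : d ∈ H false := h.PH false hdP
    have hdd : d * d = 1 := h.CC_sq hZ false hdC
    obtain ⟨r, hr, hr1, hrr, hR, hA⟩ := h.exists_r hZ false
    have hdr : d ≠ r := by
      intro hcon
      apply h.not_RR_le_CC hZ false
      intro x hx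
      rcases (hR x).mp hx with rfl | rfl
      · exact one_mem _
      · rw [← hcon]; exact hdC
    -- squares in `P`
    have hsq : ∀ y : P, y * y = 1 ∨ y * y = ⟨r, hr.1⟩ := by
      rintro ⟨y, hy⟩
      have key : y * y = 1 ∨ y * y = r := by
        by_cases hyQ : y ∈ Q false
        · left; exact h.Q_sq hZ false hyQ
        · obtain ⟨w, hw, hwQ⟩ := SetLike.not_le_iff_exists.mp (h.not_le hZ true)
          replace hwQ : w ∉ Q false := hwQ
          have hwP := h.V_le_P hZ true hw
          have hww := h.V_sq hZ true hw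
          have hwi : w⁻¹ = w := inv_eq_of_mul_eq_one_left hww
          have hv := mul_mem_of_relIndex_two (h.idx false) hy hwP hyQ hwQ
          set v := y * w with hvd
          have hvV : v ∈ V H P false := by rw [← h.Q_eq_V hZ false]; exact hv
          have hvv := h.V_sq hZ false hvV
          have hvi : v⁻¹ = v := inv_eq_of_mul_eq_one_left hvv
          have ey : y = v * w := by rw [hvd, mul_assoc, hww, mul_one]
          have e : y * y = v * w * v⁻¹ * w⁻¹ := by rw [ey, hvi, hwi]; group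
          by_cases hvZ : v ∈ ze P
          · left
            rw [e, ← ze_comm hvZ hwP]; group
          · right
            rw [e]; exact hA v hvV hvZ w hwP hwQ
      rcases key with h3 | h3
      · left; exact Subtype.ext h3
      · right; exact Subtype.ext h3
    obtain ⟨T, hT, hdT⟩ := Cfsg.Agent.Lib.S4Kernel.exists_index_two (G := P) ⟨r, hr.1⟩
      ⟨d, hdP⟩ hsq (Subtype.ext hrr) (Subtype.ext hdd) (fun h3 => hd1 (congrArg Subtype.val h3))
      (fun h3 => hdr (congrArg Subtype.val h3))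
    set T' : Subgroup G := T.map P.subtype with hT'
    have hT'i : T'.relIndex P = 2 := by
      have : T'.subgroupOf P = T := by
        rw [Subgroup.subgroupOf, hT', Subgroup.comap_map_eq_self_of_injective P.subtype_injective]
      unfold Subgroup.relIndex
      rw [this, hT]
    have hdT' : d ∉ T' := by
      rintro ⟨y, hy, e⟩
      apply hdT
      have : y = ⟨d, hdP⟩ := Subtype.ext e
      rw [← this]
      exact hy
    obtain ⟨V0, hV0⟩ := Cfsg.Agent.Lib.SignTransfer.sign_transfer (P.subgroupOf (H false)) (T'.subgroupOf (H false))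
      hS.ndvd 1 le_rfl (by rw [Subgroup.relIndex_subgroupOf (h.PH false), hT'i, pow_one])
    have hV0d : V0 ⟨d, hdH⟩ = -1 := by
      apply hV0
      · rw [Subgroup.orderOf_mk, hd'o, pow_one]
      · intro g hg
        rw [Subgroup.mem_subgroupOf] at hg
        apply hdT'
        have h3 : ((g * ⟨d, hdH⟩ ^ 2 ^ (1 - 1) * g⁻¹ : H false) : G) = d := by
          show (g : G) * d ^ 2 ^ (1 - 1) * (g : G)⁻¹ = d
          rw [Nat.sub_self, pow_zero, pow_one, CC_comm hdC g.2, mul_inv_cancel_right]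
        rwa [h3] at hg
    have hOodd : ∀ x : H false, x ∈ Cfsg.oddCore ↥(H false) → V0 x = 1 := by
      intro x hx
      apply odd_unit
      rw [← Nat.coprime_two_right]
      exact Nat.Coprime.coprime_dvd_left (Subgroup.orderOf_dvd_natCard _ hx) (CFCore.pPrimeCore_coprime (p := 2))
    let V1 : ↥(H false) ⧸ Cfsg.oddCore ↥(H false) →* ℤˣ := QuotientGroup.lift _ V0 hOodd
    have hπd : orderOf (QuotientGroup.mk' (Cfsg.oddCore ↥(H false)) ⟨d, hdH⟩) = 2 := by
      apply orderOf_eq_prime
      · rw [← map_pow]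
        have : (⟨d, hdH⟩ : H false) ^ 2 = 1 := Subtype.ext (by show d ^ 2 = 1; rw [pow_two, hdd])
        rw [this, map_one]
      · intro hcon
        rw [← MonoidHom.mem_ker, QuotientGroup.ker_mk'] at hcon
        have := R.inj _ hcon hdQ
        exact hd1 (congrArg Subtype.val this)
    obtain ⟨e⟩ := Cfsg.Agent.Lib.S4Kernel.iso_two_S4
      (((Q false).subgroupOf (H false)).map (QuotientGroup.mk' (Cfsg.oddCore ↥(H false))))
      (QuotientGroup.mk' (Cfsg.oddCore ↥(H false)) ⟨d, hdH⟩) hπd ⟨_, Subgroup.mem_subgroupOf.mpr hdQ, rfl⟩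
      (by omega) (by rw [hcB]; omega) (by
        rw [Subgroup.mem_center_iff]
        intro g
        obtain ⟨x, rfl⟩ := QuotientGroup.mk'_surjective _ g
        rw [← map_mul, ← map_mul]
        congr 1
        exact Subtype.ext (CC_comm hdC x.2)) R.cent R.hmax V1 (by
        show V0 _ = -1
        exact hV0d)
    exact ⟨e.trans MulEquiv.prodComm⟩

end Hyp

end Cfsg.Agent.Lib.Tut
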