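import Mathlib

set_option autoImplicit false
set_option linter.unusedSectionVars false
set_option linter.unusedSimpArgs false
set_option linter.unusedVariables false

/-!
Even permutations as products of two conjugate involutions: combinatorics for commutators in double
covers of alternating groups.
-/

namespace Cfsg.Agent.Lib.TwoAn67

open Equiv Equiv.Perm

variable {α : Type*} [Fintype α] [DecidableEq α]

noncomputable def rf (c : Perm α) (b : α) : α → α := fun p =>
  open Classical in if h : ∃ i : ℤ, (c ^ i) b = p then (c ^ (-(Classical.choose h))) b else p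

theorem rf_zpow (c : Perm α) (b : α) (i : ℤ) : rf c b ((c ^ i) b) = (c ^ (-i)) b := by
  have h : ∃ j : ℤ, (c ^ j) b = (c ^ i) b := ⟨i, rfl⟩
  unfold rf
  rw [dif_pos h]
  have hj := Classical.choose_spec h
  set j := Classical.choose h
  have h1 : (c ^ (-i - j)) ((c ^ j) b) = (c ^ (-i - j)) ((c ^ i) b) := by rw [hj]
  rw [← Perm.mul_apply, ← Perm.mul_apply, ← zpow_add, ← zpow_add] at h1
  rw [show -i - j + j = -i by ring, show -i - j + i = -j by ring] at h1
  exact h1.symm

theorem rf_not (c : Perm α) (b p : α) (h : ¬ ∃ i : ℤ, (c ^ i) b = p) : rf c b p = p := by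
  unfold rf
  rw [dif_neg h]

theorem rf_invol (c : Perm α) (b : α) : Function.Involutive (rf c b) := by
  intro p
  by_cases h : ∃ i : ℤ, (c ^ i) b = p
  · obtain ⟨i, rfl⟩ := h
    rw [rf_zpow, rf_zpow, neg_neg]
  · rw [rf_not c b p h, rf_not c b p h]

noncomputable def rx (c : Perm α) (b : α) : Perm α := (rf_invol c b).toPerm

theorem rx_zpow (c : Perm α) (b : α) (i : ℤ) : rx c b ((c ^ i) b) = (c ^ (-i)) b := rf_zpow c b i

theorem rx_b (c : Perm α) (b : α) : rx c b b = b := by
  have := rx_zpow c b 0
  simpa using this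

theorem rx_mul (c : Perm α) (b : α) : rx c b * rx c b = 1 := by
  ext p
  exact rf_invol c b p

theorem rx_conj {c : Perm α} {b : α} (hb : c b ≠ b) (hc : ∀ y, c y ≠ y → ∃ i : ℤ, (c ^ i) b = y) :
    rx c b * c * rx c b = c⁻¹ := by
  ext p
  by_cases h : ∃ i : ℤ, (c ^ i) b = p
  · obtain ⟨i, rfl⟩ := h
    have e1 : (rx c b * c * rx c b) ((c ^ i) b) = (c ^ (i - 1)) b := by
      show rx c b (c (rx c b ((c ^ i) b))) = _
      rw [rx_zpow]
      have : c ((c ^ (-i)) b) = (c ^ (1 - i)) b := by
        rw [← Perm.mul_apply, ← zpow_one_add]; rfl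
      rw [this, rx_zpow, neg_sub]
    have e2 : c⁻¹ ((c ^ i) b) = (c ^ (i - 1)) b := by
      rw [← Perm.mul_apply, ← zpow_neg_one, ← zpow_add]
      congr 2; ring
    rw [e1, e2]
  · have h1 : c p = p := by
      by_contra h'
      exact h (hc p h')
    have h2 : c⁻¹ p = p := by rw [Perm.inv_eq_iff_eq, h1]
    show rx c b (c (rf c b p)) = _
    rw [rf_not c b p h, h1, h2]
    exact rf_not c b p h

theorem rx_supp {c : Perm α} {b : α} (hb : c b ≠ b) : (rx c b).support ⊆ c.support := by
  intro p hp
  rw [mem_support] at hp ⊢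
  intro h1
  apply hp
  apply rf_not
  rintro ⟨i, hi⟩
  apply hb
  have h2 : (c ^ (-i)) p = p := by
    have h3 : ∀ k : ℤ, (c ^ k) p = p := fun k => by
      have := zpow_apply_eq_self_of_apply_eq_self h1 k
      exact this
    exact h3 _
  have h3 : (c ^ (-i)) p = b := by
    rw [← hi, ← Perm.mul_apply, ← zpow_add, neg_add_cancel, zpow_zero]; rfl
  rw [← h3, h2, h1]

/-- reflections of a cycle -/
theorem cyc {c : Perm α} (hc : c.IsCycle) : ∃ x : Perm α, x * x = 1 ∧ x * c * x = c⁻¹ ∧ x.support ⊆ c.support ∧
    x.support.card + (x * c).support.card < 2 * c.support.card ∧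
    (sign c = 1 → (x * c).support.card = x.support.card) ∧
    (sign c = -1 → (x * c).support.card = x.support.card + 2) := by
  obtain ⟨b, hb, hsc⟩ := hc
  have hc : c.IsCycle := ⟨b, hb, hsc⟩
  have hsc' : ∀ y, c y ≠ y → ∃ i : ℤ, (c ^ i) b = y := fun y hy => hsc hy
  set x := rx c b with hx
  have hxx : x * x = 1 := rx_mul c b
  have hcon : x * c * x = c⁻¹ := rx_conj hb hsc'
  have hsup : x.support ⊆ c.support := rx_supp hb
  have hxi : x⁻¹ = x := inv_eq_of_mul_eq_one_left hxx
  have hbs : b ∈ c.support := mem_support.2 hb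
  have hxb : x b = b := rx_b c b
  have hbx : b ∉ x.support := by rw [mem_support, not_not]; exact hxb
  have hord : orderOf c = c.support.card := hc.orderOf
  have hfix : ∀ k : ℤ, (c ^ k) b = b → (orderOf c : ℤ) ∣ k := by
    intro k hk
    rw [orderOf_dvd_iff_zpow_eq_one]
    ext p
    by_cases hp : c p = p
    · rw [zpow_apply_eq_self_of_apply_eq_self hp]; rfl
    · obtain ⟨i, rfl⟩ := hsc' p hp
      rw [← Perm.mul_apply, ← zpow_add, add_comm, zpow_add, Perm.mul_apply, hk]; rfl
  have hlt : x.support.card < c.support.card :=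
    Finset.card_lt_card ⟨hsup, fun h => hbx (h hbs)⟩
  have hsg : sign c = -(-1) ^ c.support.card := hc.sign
  refine ⟨x, hxx, hcon, hsup, ?_⟩
  rcases Nat.even_or_odd c.support.card with he | ho
  · -- even length
    obtain ⟨m, hm⟩ := he
    have hs : sign c = -1 := by rw [hsg, hm, ← two_mul, pow_mul]; simp
    have hm0 : m ≠ 0 := by
      rintro rfl
      have := Finset.card_pos.2 ⟨b, hbs⟩
      omega
    have h1 : (x * c).support = c.support := by
      apply Finset.Subset.antisymm
      · refine (support_mul_le x c).trans ?_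
        exact Finset.union_subset hsup (Finset.Subset.refl _)
      · intro p hp
        rw [mem_support] at hp ⊢
        obtain ⟨i, rfl⟩ := hsc' p hp
        intro h
        have h2 : (x * c) ((c ^ i) b) = (c ^ (-(1 + i))) b := by
          have h3 : c ((c ^ i) b) = (c ^ (1 + i)) b := by rw [zpow_one_add]; rfl
          show x (c ((c ^ i) b)) = _
          rw [h3]
          exact rx_zpow c b _
        rw [h2] at h
        have h3 : (c ^ (2 * i + 1)) b = b := by
          have h4 : (c ^ (1 + i)) ((c ^ (-(1 + i))) b) = (c ^ (1 + i)) ((c ^ i) b) := by rw [h]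
          rw [← Perm.mul_apply, ← Perm.mul_apply, ← zpow_add, ← zpow_add, add_neg_cancel, zpow_zero] at h4
          rw [show 2 * i + 1 = 1 + i + i by ring, ← h4]; rfl
        have h5 := hfix _ h3
        rw [hord, hm] at h5
        obtain ⟨t, ht⟩ := h5
        push_cast at ht
        have : 2 * ((m : ℤ) * t - i) = 1 := by linarith
        omega
    have h2 : x.support = c.support \ {b, (c ^ (m : ℤ)) b} := by
      ext p
      constructor
      · intro hp
        have hpc := hsup hp
        rw [Finset.mem_sdiff, Finset.mem_insert, Finset.mem_singleton]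
        refine ⟨hpc, ?_⟩
        rw [mem_support] at hp
        rintro (rfl | rfl)
        · exact hp hxb
        · apply hp
          show rx c b ((c ^ (m : ℤ)) b) = _
          rw [rx_zpow]
          have h3 : c ^ (-(m : ℤ)) = c ^ (m : ℤ) := by
            rw [← mul_inv_eq_one, ← zpow_neg, ← zpow_add]
            rw [← orderOf_dvd_iff_zpow_eq_one, hord, hm]
            exact ⟨-1, by push_cast; ring⟩
          rw [h3]
      · intro hp
        rw [Finset.mem_sdiff, Finset.mem_insert, Finset.mem_singleton, not_or] at hp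
        obtain ⟨hpc, hp1, hp2⟩ := hp
        rw [mem_support] at hpc ⊢
        obtain ⟨i, rfl⟩ := hsc' p hpc
        intro h
        have h' : (c ^ (-i)) b = (c ^ i) b := by
          rw [← rx_zpow]; exact h
        have h3 : (c ^ (2 * i)) b = b := by
          have h4 : (c ^ i) ((c ^ (-i)) b) = (c ^ i) ((c ^ i) b) := by rw [h']
          rw [← Perm.mul_apply, ← Perm.mul_apply, ← zpow_add, ← zpow_add, add_neg_cancel, zpow_zero] at h4
          rw [two_mul, ← h4]; rfl
        have h5 := hfix _ h3
        rw [hord, hm] at h5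
        obtain ⟨t, ht⟩ := h5
        push_cast at ht
        have hi : i = m * t := by linarith
        have h6 : c ^ (2 * (m : ℤ)) = 1 := by
          rw [← orderOf_dvd_iff_zpow_eq_one, hord, hm]
          exact ⟨1, by push_cast; ring⟩
        rcases Int.even_or_odd t with ⟨s, hs⟩ | ⟨s, hs⟩
        · apply hp1
          rw [hi, hs, show (m : ℤ) * (s + s) = (2 * m) * s by ring, zpow_mul, h6, one_zpow]; rfl
        · apply hp2
          rw [hi, hs, show (m : ℤ) * (2 * s + 1) = (2 * m) * s + m by ring, zpow_add, zpow_mul, h6, one_zpow, one_mul]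
    have h3 : (c ^ (m : ℤ)) b ≠ b := by
      intro h
      have h5 := hfix _ h
      rw [hord, hm] at h5
      have h6 : m + m ∣ m := by exact_mod_cast h5
      have := Nat.le_of_dvd (Nat.pos_of_ne_zero hm0) h6
      omega
    have h4 : (c ^ (m : ℤ)) b ∈ c.support := by
      rw [zpow_apply_mem_support]
      exact hbs
    have h5 : x.support.card + 2 = c.support.card := by
      rw [h2, Finset.card_sdiff_of_subset]
      · rw [Finset.card_pair h3.symm]
        have : 2 ≤ c.support.card := by omega
        omega
      · intro p hp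
        rw [Finset.mem_insert, Finset.mem_singleton] at hp
        rcases hp with rfl | rfl
        · exact hbs
        · exact h4
    refine ⟨by rw [h1]; omega, fun h => ?_, fun _ => by rw [h1, h5]⟩
    rw [hs] at h
    exact absurd h (by decide)
  · -- odd length
    obtain ⟨m, hm⟩ := ho
    have hs : sign c = 1 := by rw [hsg, hm, pow_succ, pow_mul]; simp
    have h1 : x * c = c ^ m * x * (c ^ m)⁻¹ := by
      have e1 : ∀ k : ℕ, x * c ^ k = (c ^ k)⁻¹ * x := by
        intro k
        have : x * c ^ k * x⁻¹ = (c ^ k)⁻¹ := by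
          rw [← conj_pow, hxi, hcon, inv_pow]
        rw [← this, inv_mul_cancel_right]
      have e2 : x * (c ^ m)⁻¹ = c ^ m * x := by
        have := e1 m
        rw [mul_inv_eq_iff_eq_mul, mul_assoc, this, mul_inv_cancel_left]
      rw [mul_assoc, e2, ← mul_assoc, ← pow_add]
      have e3 := e1 1
      rw [pow_one] at e3
      rw [e3]
      congr 1
      rw [inv_eq_iff_mul_eq_one, ← pow_succ', ← orderOf_dvd_iff_pow_eq_one, hord, hm, two_mul]
    have h2 : (x * c).support.card = x.support.card := by
      rw [h1, card_support_conj]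
    refine ⟨by omega, fun _ => h2, fun h => ?_⟩
    rw [hs] at h
    exact absurd h (by decide)

end Cfsg.Agent.Lib.TwoAn67
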