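import Mathlib
import Cfsg.Agent.Lib.TwoAnA67

set_option autoImplicit false
set_option linter.unusedSectionVars false
set_option linter.unusedSimpArgs false
set_option linter.unusedVariables false

/-!
Even permutations as products of two conjugate involutions, and as commutators.
-/

namespace Cfsg.Agent.Lib.TwoAn67

open Equiv Equiv.Perm

variable {α : Type*} [Fintype α] [DecidableEq α]

/-- the inductive property -/
def PP (σ : Perm α) : Prop := ∃ x : Perm α, x * x = 1 ∧ x * σ * x = σ⁻¹ ∧ x.support ⊆ σ.support ∧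
    (σ ≠ 1 → x.support.card + (x * σ).support.card < 2 * σ.support.card) ∧
    (sign σ = 1 → (x * σ).support.card = x.support.card) ∧
    (sign σ = -1 → (x * σ).support.card = x.support.card + 2)

theorem disj_of {x y σ τ : Perm α} (h : Disjoint σ τ) (hx : x.support ⊆ σ.support) (hy : y.support ⊆ τ.support) :
    Disjoint x y := by
  rw [disjoint_iff_disjoint_support] at h ⊢
  exact Finset.disjoint_of_subset_left hx (Finset.disjoint_of_subset_right hy h)

theorem supp_mul_sub {x σ : Perm α} (hx : x.support ⊆ σ.support) : (x * σ).support ⊆ σ.support :=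
  (support_mul_le x σ).trans (Finset.union_subset hx (Finset.Subset.refl _))

theorem step {c τ x y : Perm α} (h : Disjoint c τ) (hx : x * x = 1) (hxc : x * c * x = c⁻¹)
    (hxs : x.support ⊆ c.support) (hy : y * y = 1) (hyc : y * τ * y = τ⁻¹) (hys : y.support ⊆ τ.support) :
    (x * y) * (x * y) = 1 ∧ (x * y) * (c * τ) * (x * y) = (c * τ)⁻¹ ∧ (x * y).support ⊆ (c * τ).support ∧
      (x * y).support.card = x.support.card + y.support.card ∧
      (x * y * (c * τ)).support.card = (x * c).support.card + (y * τ).support.card ∧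
      (c * τ).support.card = c.support.card + τ.support.card := by
  have hxy : Disjoint x y := disj_of h hxs hys
  have h1 : x * y = y * x := hxy.commute
  have h2 : x * τ = τ * x := (disj_of h hxs (Finset.Subset.refl _)).commute
  have h3 : c * y = y * c := (disj_of h (Finset.Subset.refl _) hys).commute
  have h4 : c * τ = τ * c := h.commute
  have h5 : x * y * (c * τ) = (x * c) * (y * τ) := by
    rw [mul_assoc, ← mul_assoc y c τ, ← h3, mul_assoc, ← mul_assoc, ]
  refine ⟨?_, ?_, ?_, hxy.card_support_mul, ?_, h.card_support_mul⟩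
  · rw [mul_assoc, ← mul_assoc y x y, ← h1, mul_assoc, hy, mul_one, hx]
  · rw [h5, mul_inv_rev, ← hyc, ← hxc]
    have e1 : (x * c) * (y * τ) * (x * y) = (x * c) * x * ((y * τ) * y) := by
      have : (y * τ) * x = x * (y * τ) := by rw [mul_assoc, ← h2, ← mul_assoc, ← mul_assoc, h1]
      rw [mul_assoc (x * c), ← mul_assoc (y * τ), this]
      simp only [mul_assoc]
    rw [e1]
    have hd : Disjoint (x * c * x) (y * τ * y) := by
      rw [hxc, hyc]
      exact h.inv_left.inv_right
    exact hd.commute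
  · rw [hxy.support_mul, h.support_mul]
    exact Finset.union_subset_union hxs hys
  · rw [h5]
    exact (disj_of h (supp_mul_sub hxs) (supp_mul_sub hys)).card_support_mul

theorem pp_all (σ : Perm α) : PP σ := by
  induction σ using cycle_induction_on with
  | base_one =>
    refine ⟨1, by simp, by simp, by simp, fun h => absurd rfl h, fun _ => by simp, fun h => ?_⟩
    rw [Perm.sign_one] at h
    exact absurd h (by decide)
  | base_cycles σ hσ =>
    obtain ⟨x, h1, h2, h3, h4, h5, h6⟩ := cyc hσ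
    exact ⟨x, h1, h2, h3, fun _ => h4, h5, h6⟩
  | induction_disjoint σ τ hd hc _ hτ =>
    obtain ⟨x, x1, x2, x3, x4, x5, x6⟩ := cyc hc
    obtain ⟨y, y1, y2, y3, y4, y5, y6⟩ := hτ
    have hle : y.support.card + (y * τ).support.card ≤ 2 * τ.support.card := by
      have e1 := Finset.card_le_card y3
      have e2 := Finset.card_le_card (supp_mul_sub y3)
      omega
    obtain ⟨s1, s2, s3, s4, s5, s6⟩ := step hd x1 x2 x3 y1 y2 y3
    rcases Int.units_eq_one_or (sign σ) with hs | hs
    · rcases Int.units_eq_one_or (sign τ) with ht | ht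
      · refine ⟨x * y, s1, s2, s3, fun _ => by omega, fun _ => ?_, fun h => ?_⟩
        · have := x5 hs; have := y5 ht; omega
        · rw [Perm.sign_mul, hs, ht] at h; exact absurd h (by decide)
      · refine ⟨x * y, s1, s2, s3, fun _ => by omega, fun h => ?_, fun _ => ?_⟩
        · rw [Perm.sign_mul, hs, ht] at h; exact absurd h (by decide)
        · have := x5 hs; have := y6 ht; omega
    · rcases Int.units_eq_one_or (sign τ) with ht | ht
      · refine ⟨x * y, s1, s2, s3, fun _ => by omega, fun h => ?_, fun _ => ?_⟩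
        · rw [Perm.sign_mul, hs, ht] at h; exact absurd h (by decide)
        · have := x6 hs; have := y5 ht; omega
      · -- use the other reflection
        have hxi : x⁻¹ = x := inv_eq_of_mul_eq_one_left x1
        have w1 : (x * σ) * (x * σ) = 1 := by
          rw [← mul_assoc, x2, inv_mul_cancel]
        have w2 : (x * σ) * σ * (x * σ) = σ⁻¹ := by
          have : x * σ * x = σ⁻¹ := x2
          have e : x * σ = σ⁻¹ * x := by rw [← x2, mul_assoc, x1, mul_one]
          calc x * σ * σ * (x * σ) = x * σ * σ * (σ⁻¹ * x) := by rw [e]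
            _ = x * σ * x := by group
            _ = σ⁻¹ := x2
        have w3 : (x * σ).support ⊆ σ.support := supp_mul_sub x3
        obtain ⟨t1, t2, t3, t4, t5, t6⟩ := step hd w1 w2 w3 y1 y2 y3
        have w4 : (x * σ * σ).support.card = x.support.card := by
          have e : x * σ = σ⁻¹ * x := by rw [← x2, mul_assoc, x1, mul_one]
          have : x * σ * σ = σ⁻¹ * x * (σ⁻¹)⁻¹ := by rw [e, inv_inv]
          rw [this, card_support_conj]
        have := x6 hs
        have := y6 ht
        refine ⟨x * σ * y, t1, t2, t3, fun _ => by omega, fun _ => by omega, fun h => ?_⟩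
        rw [Perm.sign_mul, hs, ht] at h; exact absurd h (by decide)

/-- cycle type of an involution -/
theorem ct_invol {x : Perm α} (hx : x * x = 1) : x.cycleType = Multiset.replicate (x.support.card / 2) 2 := by
  have h1 : ∀ k ∈ x.cycleType, k = 2 := by
    intro k hk
    have h2 := two_le_of_mem_cycleType hk
    have h3 := (dvd_of_mem_cycleType hk).trans (orderOf_dvd_of_pow_eq_one (n := 2) (by rw [pow_two, hx]))
    have := Nat.le_of_dvd (by norm_num) h3
    omega
  have h2 : x.cycleType = Multiset.replicate (Multiset.card x.cycleType) 2 := Multiset.eq_replicate_card.2 h1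
  have h3 := sum_cycleType x
  rw [h2, Multiset.sum_replicate, smul_eq_mul] at h3
  rw [h2]
  congr 1
  omega

theorem even_supp {x : Perm α} (hx : x * x = 1) : Even x.support.card := by
  have h3 := sum_cycleType x
  rw [ct_invol hx, Multiset.sum_replicate, smul_eq_mul] at h3
  exact ⟨x.support.card / 2, by omega⟩

theorem sign_invol {x : Perm α} (hx : x * x = 1) : sign x = (-1) ^ (x.support.card / 2) := by
  rw [sign_of_cycleType, ct_invol hx]
  simp only [Multiset.sum_replicate, Multiset.card_replicate, smul_eq_mul]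
  obtain ⟨k, hk⟩ := even_supp hx
  rw [hk, show (k + k) / 2 = k by omega]
  rw [pow_add, pow_mul']
  simp

/-- two elements with one cycle type, one of them with a 2-cycle -/
theorem comm_of {y y' : Perm α} (hct : y.cycleType = y'.cycleType) (hs : sign y = 1) {p q : α} (hpq : p ≠ q)
    (h1 : y p = q) (h2 : y q = p) : ∃ w, sign w = 1 ∧ y * y'⁻¹ = y * w * y⁻¹ * w⁻¹ := by
  obtain ⟨w, hw⟩ := isConj_iff.1 (isConj_iff_cycleType_eq.2 hct)
  have key : ∀ w, w * y * w⁻¹ = y' → y * y'⁻¹ = y * w * y⁻¹ * w⁻¹ := by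
    intro w hw
    rw [← hw]; group
  rcases Int.units_eq_one_or (sign w) with hsw | hsw
  · exact ⟨w, hsw, key w hw⟩
  · have hc : swap p q * y * (swap p q)⁻¹ = y := by
      have e := mul_swap_eq_swap_mul y p q
      rw [h1, h2, swap_comm q p] at e
      rw [← e, mul_inv_cancel_right]
    refine ⟨w * swap p q, by rw [Perm.sign_mul, hsw, sign_swap hpq]; decide, key _ ?_⟩
    rw [mul_inv_rev]
    calc w * swap p q * y * ((swap p q)⁻¹ * w⁻¹) = w * (swap p q * y * (swap p q)⁻¹) * w⁻¹ := by group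
      _ = y' := by rw [hc, hw]

/-- the even permutation `a` is a commutator `[y, w]` with `y` having two 2-cycles -/
def Good (a : Perm α) : Prop := ∃ y w : Perm α, sign y = 1 ∧ sign w = 1 ∧ a = y * w * y⁻¹ * w⁻¹ ∧
  ∃ p₁ p₂ p₃ p₄ : α, p₁ ≠ p₂ ∧ p₁ ≠ p₃ ∧ p₁ ≠ p₄ ∧ p₂ ≠ p₃ ∧ p₂ ≠ p₄ ∧ p₃ ≠ p₄ ∧
    y p₁ = p₂ ∧ y p₂ = p₁ ∧ y p₃ = p₄ ∧ y p₄ = p₃

theorem good_of {a y y' : Perm α} (ha : a = y * y'⁻¹) (hct : y.cycleType = y'.cycleType) (hs : sign y = 1)
    (h : ∃ p₁ p₂ p₃ p₄ : α, p₁ ≠ p₂ ∧ p₁ ≠ p₃ ∧ p₁ ≠ p₄ ∧ p₂ ≠ p₃ ∧ p₂ ≠ p₄ ∧ p₃ ≠ p₄ ∧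
    y p₁ = p₂ ∧ y p₂ = p₁ ∧ y p₃ = p₄ ∧ y p₄ = p₃) : Good a := by
  obtain ⟨p₁, p₂, p₃, p₄, h12, h13, h14, h23, h24, h34, e1, e2, e3, e4⟩ := h
  obtain ⟨w, hw, hw'⟩ := comm_of hct hs h12 e1 e2
  exact ⟨y, w, hs, hw, by rw [ha, hw'], p₁, p₂, p₃, p₄, h12, h13, h14, h23, h24, h34, e1, e2, e3, e4⟩

/-- two 2-cycles of an involution outside a small set -/
theorem two_cyc {x : Perm α} (hx : x * x = 1) {S : Finset α} (hS : S ⊆ x.support) (hSx : ∀ p ∈ S, x p ∈ S)
    (h4 : 4 ≤ S.card) : ∃ p₁ p₂ p₃ p₄ : α, p₁ ∈ S ∧ p₂ ∈ S ∧ p₃ ∈ S ∧ p₄ ∈ S ∧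
    p₁ ≠ p₂ ∧ p₁ ≠ p₃ ∧ p₁ ≠ p₄ ∧ p₂ ≠ p₃ ∧ p₂ ≠ p₄ ∧ p₃ ≠ p₄ ∧
    x p₁ = p₂ ∧ x p₂ = p₁ ∧ x p₃ = p₄ ∧ x p₄ = p₃ := by
  have hxx : ∀ p, x (x p) = p := fun p => by rw [← Perm.mul_apply, hx]; rfl
  obtain ⟨p₁, hp₁⟩ : S.Nonempty := Finset.card_pos.1 (by omega)
  obtain ⟨p₃, hp₃⟩ : (S \ {p₁, x p₁}).Nonempty := by
    rw [← Finset.card_pos]
    have h1 := Finset.le_card_sdiff {p₁, x p₁} S
    have h2 : ({p₁, x p₁} : Finset α).card ≤ 2 := Finset.card_le_two
    omega
  rw [Finset.mem_sdiff, Finset.mem_insert, Finset.mem_singleton, not_or] at hp₃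
  obtain ⟨hp₃, h31, h32⟩ := hp₃
  refine ⟨p₁, x p₁, p₃, x p₃, hp₁, hSx _ hp₁, hp₃, hSx _ hp₃, ?_, Ne.symm h31, ?_, Ne.symm h32, ?_, ?_, rfl, hxx _, rfl, hxx _⟩
  · exact (mem_support.1 (hS hp₁)).symm
  · rintro h; apply h32; rw [h, hxx]
  · exact fun h => h31 (x.injective h).symm
  · exact (mem_support.1 (hS hp₃)).symm

theorem supp_stab {x : Perm α} (hx : x * x = 1) : ∀ p ∈ x.support, x p ∈ x.support := by
  intro p hp
  rw [apply_mem_support]; exact hp

theorem dsw {a b c d : α} (hab : a ≠ b) (hac : a ≠ c) (had : a ≠ d) (hbc : b ≠ c) (hbd : b ≠ d) (hcd : c ≠ d) :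
    (swap a b * swap c d) * (swap a b * swap c d) = 1 ∧ sign (swap a b * swap c d) = 1 ∧
      (swap a b * swap c d).support.card = 4 ∧ (swap a b * swap c d) a = b ∧ (swap a b * swap c d) b = a ∧
      (swap a b * swap c d) c = d ∧ (swap a b * swap c d) d = c := by
  have hd : Disjoint (swap a b) (swap c d) := by
    rw [disjoint_iff_disjoint_support, support_swap hab, support_swap hcd]
    simp [hac, had, hbc, hbd, hac.symm, had.symm, hbc.symm, hbd.symm]
  refine ⟨?_, ?_, ?_, ?_, ?_, ?_, ?_⟩
  · rw [mul_assoc, ← mul_assoc (swap c d), ← hd.commute.eq, mul_assoc, swap_mul_self, mul_one, swap_mul_self]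
  · rw [Perm.sign_mul, sign_swap hab, sign_swap hcd]; decide
  · rw [hd.card_support_mul, card_support_swap hab, card_support_swap hcd]
  · rw [Perm.mul_apply, swap_apply_of_ne_of_ne hac had, swap_apply_left]
  · rw [Perm.mul_apply, swap_apply_of_ne_of_ne hbc hbd, swap_apply_right]
  · rw [Perm.mul_apply, swap_apply_left, swap_apply_of_ne_of_ne had.symm hbd.symm]
  · rw [Perm.mul_apply, swap_apply_right, swap_apply_of_ne_of_ne hac.symm hbc.symm]

/-- the cycle type of `x * swap p q` for `p` fixed and `q` moved -/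
theorem ct_mul_swap {x : Perm α} (hx : x * x = 1) {p q : α} (hp : x p = p) (hq : x q ≠ q) :
    (x * swap p q).cycleType = 3 ::ₘ Multiset.replicate ((x.support.card - 2) / 2) 2 := by
  have hxx : ∀ p, x (x p) = p := fun p => by rw [← Perm.mul_apply, hx]; rfl
  have hpq : p ≠ q := by rintro rfl; exact hq hp
  have hq1p : x q ≠ p := by
    intro h
    apply hpq
    have := hxx q
    rw [h, hp] at this
    exact this
  set q₁ := x q with hq₁
  have hxq₁ : x q₁ = q := hxx q
  set x₀ := x * swap q q₁ with hx₀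
  have hcomm : x * swap q q₁ = swap q q₁ * x := by
    rw [mul_swap_eq_swap_mul, ← hq₁, hxq₁, swap_comm]
  have h0 : x₀ * x₀ = 1 := by
    rw [hx₀, mul_assoc, ← mul_assoc (swap q q₁), ← hcomm, mul_assoc, swap_mul_self, mul_one, hx]
  have h0q : x₀ q = q := by rw [hx₀, Perm.mul_apply, swap_apply_left, hxq₁]
  have h0q₁ : x₀ q₁ = q₁ := by rw [hx₀, Perm.mul_apply, swap_apply_right]
  have h0p : x₀ p = p := by rw [hx₀, Perm.mul_apply, swap_apply_of_ne_of_ne hpq hq1p.symm, hp]
  have h0o : ∀ r, r ≠ q → r ≠ q₁ → x₀ r = x r := fun r h1 h2 => by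
    rw [hx₀, Perm.mul_apply, swap_apply_of_ne_of_ne h1 h2]
  have hsup : x₀.support = x.support \ {q, q₁} := by
    ext r
    rw [Finset.mem_sdiff, Finset.mem_insert, Finset.mem_singleton, mem_support, mem_support, not_or]
    by_cases h1 : r = q
    · subst h1
      exact ⟨fun h => absurd h0q h, fun h => absurd rfl h.2.1⟩
    by_cases h2 : r = q₁
    · constructor
      · intro h; rw [h2] at h; exact absurd h0q₁ h
      · intro h; exact absurd h2 h.2.2
    rw [h0o r h1 h2]
    exact ⟨fun h => ⟨h, h1, h2⟩, fun h => h.1⟩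
  have hcard : x₀.support.card = x.support.card - 2 := by
    rw [hsup, Finset.card_sdiff_of_subset, Finset.card_pair (Ne.symm hq)]
    intro r hr
    rw [Finset.mem_insert, Finset.mem_singleton] at hr
    rcases hr with rfl | rfl
    · exact mem_support.2 hq
    · rw [mem_support, hxq₁]; exact Ne.symm hq
  have h3 : (swap q q₁ * swap q p).IsThreeCycle := isThreeCycle_swap_mul_swap_same (Ne.symm hq) hpq.symm hq1p
  have hy : x * swap p q = (swap q q₁ * swap q p) * x₀ := by
    have hd' : x₀ * (swap q q₁ * swap q p) = x * swap p q := by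
      rw [hx₀, mul_assoc, ← mul_assoc (swap q q₁), swap_mul_self, one_mul, swap_comm]
    have hd : Disjoint (swap q q₁ * swap q p) x₀ := by
      intro r
      by_cases h1 : r = q
      · right; rw [h1, h0q]
      by_cases h2 : r = q₁
      · right; rw [h2, h0q₁]
      by_cases h3 : r = p
      · right; rw [h3, h0p]
      · left
        rw [Perm.mul_apply, swap_apply_of_ne_of_ne h1 h3, swap_apply_of_ne_of_ne h1 h2]
    rw [hd.commute.eq, hd']
  have hd : Disjoint (swap q q₁ * swap q p) x₀ := by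
    intro r
    by_cases h1 : r = q
    · right; rw [h1, h0q]
    by_cases h2 : r = q₁
    · right; rw [h2, h0q₁]
    by_cases h3 : r = p
    · right; rw [h3, h0p]
    · left
      rw [Perm.mul_apply, swap_apply_of_ne_of_ne h1 h3, swap_apply_of_ne_of_ne h1 h2]
  rw [hy, hd.cycleType_mul, h3.cycleType, ct_invol h0, hcard]
  rfl

theorem four_ne {u v u' v' : α} (h : 4 ≤ ({u, v, u', v'} : Finset α).card) : u ≠ u' ∧ u ≠ v' ∧ v ≠ u' ∧ v ≠ v' := by
  refine ⟨?_, ?_, ?_, ?_⟩
  · rintro rfl
    have h1 : ({u, v, u, v'} : Finset α) ⊆ {u, v, v'} := by intro r; simp; tauto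
    have h2 := Finset.card_le_card h1
    have h3 := Finset.card_le_three (a := u) (b := v) (c := v')
    omega
  · rintro rfl
    have h1 : ({u, v, u', u} : Finset α) ⊆ {u, v, u'} := by intro r; simp; tauto
    have h2 := Finset.card_le_card h1
    have h3 := Finset.card_le_three (a := u) (b := v) (c := u')
    omega
  · rintro rfl
    have h1 : ({u, v, v, v'} : Finset α) ⊆ {u, v, v'} := by intro r; simp
    have h2 := Finset.card_le_card h1
    have h3 := Finset.card_le_three (a := u) (b := v) (c := v')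
    omega
  · rintro rfl
    have h1 : ({u, v, u', v} : Finset α) ⊆ {u, v, u'} := by intro r; simp; tauto
    have h2 := Finset.card_le_card h1
    have h3 := Finset.card_le_three (a := u) (b := v) (c := u')
    omega

/-- the main combinatorial statement -/
theorem good_all (h5 : 5 ≤ Fintype.card α) (a : Perm α) (ha : sign a = 1) : Good a := by
  obtain ⟨x, x1, x2, x3, x4, x5, -⟩ := pp_all a
  have hcard := x5 ha
  set x' := x * a with hx'
  have hx'1 : x' * x' = 1 := by rw [hx', ← mul_assoc, x2, inv_mul_cancel]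
  have hx'i : x'⁻¹ = x' := inv_eq_of_mul_eq_one_left hx'1
  have haxx : a = x * x'⁻¹ := by rw [hx'i, hx', ← mul_assoc, x1, one_mul]
  obtain ⟨K, hK⟩ := even_supp x1
  have hsx := sign_invol x1
  have hct : x.cycleType = x'.cycleType := by rw [ct_invol x1, ct_invol hx'1, hcard]
  -- points
  have hpts : ∀ S : Finset α, S.card + 1 ≤ Fintype.card α → ∃ p, p ∉ S := by
    intro S hS
    by_contra h
    push Not at h
    have : S = Finset.univ := Finset.eq_univ_of_forall h
    rw [this, Finset.card_univ] at hS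
    omega
  rcases Nat.even_or_odd K with he | ho
  · by_cases hK0 : K = 0
    · -- a = 1
      have hx0 : x = 1 := by rw [← support_eq_empty_iff, ← Finset.card_eq_zero]; omega
      have hx'0 : x' = 1 := by rw [← support_eq_empty_iff, ← Finset.card_eq_zero]; omega
      have ha1 : a = 1 := by rw [haxx, hx0, hx'0]; rfl
      obtain ⟨p₁, -⟩ := hpts ∅ (by rw [Finset.card_empty]; omega)
      obtain ⟨p₂, h2⟩ := hpts {p₁} (by rw [Finset.card_singleton]; omega)
      obtain ⟨p₃, h3⟩ := hpts {p₁, p₂} (by have := Finset.card_le_two (a := p₁) (b := p₂); omega)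
      obtain ⟨p₄, h4⟩ := hpts {p₁, p₂, p₃} (by have := Finset.card_le_three (a := p₁) (b := p₂) (c := p₃); omega)
      simp only [Finset.mem_insert, Finset.mem_singleton, not_or] at h2 h3 h4
      obtain ⟨e1, e2, e3, e4⟩ := dsw (Ne.symm h2) (Ne.symm h3.1) (Ne.symm h4.1) (Ne.symm h3.2) (Ne.symm h4.2.1) (Ne.symm h4.2.2)
      exact good_of (y := swap p₁ p₂ * swap p₃ p₄) (y' := swap p₁ p₂ * swap p₃ p₄) (by rw [ha1, mul_inv_cancel]) rfl e2
        ⟨p₁, p₂, p₃, p₄, Ne.symm h2, Ne.symm h3.1, Ne.symm h4.1, Ne.symm h3.2, Ne.symm h4.2.1, Ne.symm h4.2.2, e4⟩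
    · obtain ⟨k, hk⟩ := he
      refine good_of haxx hct ?_ ?_
      · rw [hsx, hK, show (K + K) / 2 = K by omega, hk, ← two_mul, pow_mul]; simp
      · obtain ⟨p₁, p₂, p₃, p₄, -, -, -, -, h⟩ := two_cyc x1 (Finset.Subset.refl _) (supp_stab x1) (by omega)
        exact ⟨p₁, p₂, p₃, p₄, h⟩
  · obtain ⟨k, hk⟩ := ho
    have ha1 : a ≠ 1 := by
      rintro rfl
      rw [support_one, Finset.subset_empty] at x3
      rw [x3, Finset.card_empty] at hK
      omega
    by_cases hK1 : K = 1
    · subst hK1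
      obtain ⟨u, v, huv, hxuv⟩ := card_support_eq_two.1 (show x.support.card = 2 by omega)
      obtain ⟨u', v', huv', hxuv'⟩ := card_support_eq_two.1 (show x'.support.card = 2 by omega)
      by_cases hrs : ∃ r s : α, r ≠ s ∧ r ∉ ({u, v, u', v'} : Finset α) ∧ s ∉ ({u, v, u', v'} : Finset α)
      · obtain ⟨r, s, hrs, hr, hs⟩ := hrs
        simp only [Finset.mem_insert, Finset.mem_singleton, not_or] at hr hs
        obtain ⟨e1, e2, e3, e4⟩ := dsw huv (Ne.symm hr.1) (Ne.symm hs.1) (Ne.symm hr.2.1) (Ne.symm hs.2.1) hrs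
        obtain ⟨f1, f2, f3, f4⟩ := dsw huv' (Ne.symm hr.2.2.1) (Ne.symm hs.2.2.1) (Ne.symm hr.2.2.2) (Ne.symm hs.2.2.2) hrs
        refine good_of (y := swap u v * swap r s) (y' := swap u' v' * swap r s) ?_ ?_ e2
          ⟨u, v, r, s, huv, Ne.symm hr.1, Ne.symm hs.1, Ne.symm hr.2.1, Ne.symm hs.2.1, hrs, e4⟩
        · rw [haxx, hxuv, hxuv']; group
        · rw [ct_invol e1, ct_invol f1, e3, f3]
      · -- disjoint supports
        have h4 : 4 ≤ ({u, v, u', v'} : Finset α).card := by
          by_contra hlt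
          apply hrs
          obtain ⟨r, hr⟩ := hpts {u, v, u', v'} (by omega)
          obtain ⟨s, hs⟩ := hpts (insert r {u, v, u', v'}) (by
            have := Finset.card_insert_le r ({u, v, u', v'} : Finset α)
            omega)
          rw [Finset.mem_insert, not_or] at hs
          exact ⟨r, s, Ne.symm hs.1, hr, hs.2⟩
        obtain ⟨n1, n2, n3, n4⟩ := four_ne h4
        obtain ⟨e1, e2, e3, e4⟩ := dsw n1 huv n2 (Ne.symm n3) huv' n4
        obtain ⟨f1, f2, f3, f4⟩ := dsw n2 huv n1 (Ne.symm n4) (Ne.symm huv') n3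
        refine good_of (y := swap u u' * swap v v') (y' := swap u v' * swap v u') ?_ ?_ e2
          ⟨u, u', v, v', n1, huv, n2, Ne.symm n3, huv', n4, e4⟩
        · rw [inv_eq_of_mul_eq_one_left f1, haxx, hx'i, hxuv, hxuv']
          obtain ⟨d1, d2, d3, d4⟩ := dsw huv n1 n2 n3 n4 huv'
          ext r
          by_cases r1 : r = u
          · rw [r1, d4.1, Perm.mul_apply (swap u u' * swap v v'), f4.1, e4.2.2.2]
          by_cases r2 : r = v
          · rw [r2, d4.2.1, Perm.mul_apply (swap u u' * swap v v'), f4.2.2.1, e4.2.1]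
          by_cases r3 : r = u'
          · rw [r3, d4.2.2.1, Perm.mul_apply (swap u u' * swap v v'), f4.2.2.2, e4.2.2.1]
          by_cases r4 : r = v'
          · rw [r4, d4.2.2.2, Perm.mul_apply (swap u u' * swap v v'), f4.2.1, e4.1]
          simp only [Perm.mul_apply]
          rw [swap_apply_of_ne_of_ne r3 r4, swap_apply_of_ne_of_ne r1 r2, swap_apply_of_ne_of_ne r2 r3,
            swap_apply_of_ne_of_ne r1 r4, swap_apply_of_ne_of_ne r2 r4, swap_apply_of_ne_of_ne r1 r3]
        · rw [ct_invol e1, ct_invol f1, e3, f3]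
    · -- K odd, at least 3
      have hne : ∃ p ∈ a.support, p ∉ x.support := by
        by_contra h
        push Not at h
        have h1 : a.support.card ≤ x.support.card := Finset.card_le_card h
        have := x4 ha1
        omega
      obtain ⟨p, hpa, hpx⟩ := hne
      have hne' : ∃ q ∈ a.support, q ∉ x'.support := by
        by_contra h
        push Not at h
        have h1 : a.support.card ≤ x'.support.card := Finset.card_le_card h
        have := x4 ha1
        omega
      obtain ⟨q, hqa, hqx'⟩ := hne'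
      rw [mem_support] at hpa hqa
      rw [mem_support, not_not] at hpx hqx'
      have hax : ∀ r, a r = x (x' r) := fun r => by rw [haxx, hx'i]; rfl
      have hpx' : x' p ≠ p := by
        intro h
        apply hpa
        rw [hax, h, hpx]
      have hqx : x q ≠ q := by
        intro h
        apply hqa
        rw [hax, hqx', h]
      have hpq : p ≠ q := by rintro rfl; exact hqx hpx
      have hxx : ∀ p, x (x p) = p := fun p => by rw [← Perm.mul_apply, x1]; rfl
      refine good_of (y := x * swap p q) (y' := x' * swap p q) ?_ ?_ ?_ ?_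
      · rw [mul_inv_rev, swap_inv, mul_assoc, ← mul_assoc (swap p q), swap_mul_self, one_mul, haxx]
      · rw [ct_mul_swap x1 hpx hqx, swap_comm, ct_mul_swap hx'1 hqx' hpx', hcard]
      · rw [Perm.sign_mul, sign_swap hpq, hsx, hK, show (K + K) / 2 = K by omega, hk, pow_succ, pow_mul]
        simp
      · have hS : (x.support \ {q, x q}) ⊆ x.support := Finset.sdiff_subset
        obtain ⟨p₁, p₂, p₃, p₄, m1, m2, m3, m4, h12, h13, h14, h23, h24, h34, e1, e2, e3, e4⟩ := two_cyc x1 hS (by
          intro r hr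
          rw [Finset.mem_sdiff, Finset.mem_insert, Finset.mem_singleton, not_or] at hr ⊢
          refine ⟨supp_stab x1 r hr.1, fun h => hr.2.2 ?_, fun h => hr.2.1 (x.injective h)⟩
          rw [← h, hxx]) (by
          have h1 := Finset.le_card_sdiff {q, x q} x.support
          have h2 : ({q, x q} : Finset α).card ≤ 2 := Finset.card_le_two
          omega)
        have hm : ∀ r ∈ x.support \ {q, x q}, (x * swap p q) r = x r := by
          intro r hr
          rw [Finset.mem_sdiff, Finset.mem_insert, Finset.mem_singleton, not_or, mem_support] at hr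
          rw [Perm.mul_apply, swap_apply_of_ne_of_ne _ hr.2.1]
          rintro rfl
          exact hr.1 hpx
        exact ⟨p₁, p₂, p₃, p₄, h12, h13, h14, h23, h24, h34, by rw [hm _ m1, e1], by rw [hm _ m2, e2],
          by rw [hm _ m3, e3], by rw [hm _ m4, e4]⟩

end Cfsg.Agent.Lib.TwoAn67
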