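import Mathlib
import Cfsg.Agent.Lib.TwoAnB67
import Cfsg.Agent.Lib.AltPres

set_option autoImplicit false
set_option linter.unusedSectionVars false
set_option linter.unusedSimpArgs false
set_option linter.unusedVariables false

/-!
Double covers of alternating groups: every element is a commutator.
-/

namespace Cfsg.Agent.Lib.TwoAn67

open Equiv Equiv.Perm Cfsg.Agent.Lib.AltPres

theorem conj_even {α : Type*} [Fintype α] [DecidableEq α] {y y' : Perm α} (hct : y.cycleType = y'.cycleType)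
    {p q : α} (hpq : p ≠ q) (h1 : y p = q) (h2 : y q = p) : ∃ w, sign w = 1 ∧ w * y * w⁻¹ = y' := by
  obtain ⟨w, hw⟩ := isConj_iff.1 (isConj_iff_cycleType_eq.2 hct)
  rcases Int.units_eq_one_or (sign w) with hsw | hsw
  · exact ⟨w, hsw, hw⟩
  · have hc : swap p q * y * (swap p q)⁻¹ = y := by
      have e := mul_swap_eq_swap_mul y p q
      rw [h1, h2, swap_comm q p] at e
      rw [← e, mul_inv_cancel_right]
    refine ⟨w * swap p q, by rw [Perm.sign_mul, hsw, sign_swap hpq]; decide, ?_⟩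
    rw [mul_inv_rev]
    calc w * swap p q * y * ((swap p q)⁻¹ * w⁻¹) = w * (swap p q * y * (swap p q)⁻¹) * w⁻¹ := by group
      _ = y' := by rw [hc, hw]

/-- the situation -/
structure Cov {G : Type*} [Group G] {m : ℕ} (π : G →* Perm (Fin (m + 2))) (z : G) : Prop where
  z1 : z ≠ 1
  zz : z * z = 1
  zc : ∀ g, z * g = g * z
  ker : ∀ g, π g = 1 → g = 1 ∨ g = z
  pz : π z = 1
  surj : ∀ σ, sign σ = 1 → ∃ g, π g = σ
  ev : ∀ g, sign (π g) = 1
  perf : commutator G = ⊤

namespace Cov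

variable {G : Type*} [Group G] {m : ℕ} {π : G →* Perm (Fin (m + 2))} {z : G} (C : Cov π z)
include C

theorem lift_eq {g g' : G} (h : π g = π g') : g = g' ∨ g = z * g' := by
  rcases C.ker (g * g'⁻¹) (by rw [map_mul, map_inv, h, mul_inv_cancel]) with h1 | h1
  · left; exact mul_inv_eq_one.1 h1
  · right; rw [← h1, inv_mul_cancel_right]

theorem sq_z (g : G) : (z * g) * (z * g) = g * g := by
  rw [mul_assoc, ← mul_assoc g z g, ← C.zc, mul_assoc, ← mul_assoc, C.zz, one_mul]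

theorem sq_conj {g g' t : G} (h2 : π g * π g = 1) (h : π g' = π t * π g * (π t)⁻¹) : g' * g' = g * g := by
  have h1 : g * g = 1 ∨ g * g = z := C.ker _ (by rw [map_mul, h2])
  have h3 : (t * g * t⁻¹) * (t * g * t⁻¹) = g * g := by
    have : (t * g * t⁻¹) * (t * g * t⁻¹) = t * (g * g) * t⁻¹ := by group
    rw [this]
    rcases h1 with h1 | h1
    · rw [h1]; group
    · rw [h1, ← C.zc, mul_inv_cancel_right]
  rcases C.lift_eq (g := g') (g' := t * g * t⁻¹) (by rw [h, map_mul, map_mul, map_inv]) with h4 | h4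
  · rw [h4, h3]
  · rw [h4, C.sq_z, h3]

/-- squares of lifts of double transpositions are all the same -/
theorem sq_T {g g' : G} {a b c d a' b' c' d' : Fin (m + 2)} (hab : a ≠ b) (hac : a ≠ c) (had : a ≠ d) (hbc : b ≠ c)
    (hbd : b ≠ d) (hcd : c ≠ d) (hab' : a' ≠ b') (hac' : a' ≠ c') (had' : a' ≠ d') (hbc' : b' ≠ c')
    (hbd' : b' ≠ d') (hcd' : c' ≠ d') (h : π g = swap a b * swap c d) (h' : π g' = swap a' b' * swap c' d') :
    g' * g' = g * g := by
  obtain ⟨e1, e2, e3, e4, e5, e6, e7⟩ := dsw hab hac had hbc hbd hcd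
  obtain ⟨f1, f2, f3, f4⟩ := dsw hab' hac' had' hbc' hbd' hcd'
  obtain ⟨w, hw, hw'⟩ := conj_even (y := swap a b * swap c d) (y' := swap a' b' * swap c' d')
    (by rw [ct_invol e1, ct_invol f1, e3, f3]) hab e4 e5
  obtain ⟨t, ht⟩ := C.surj w hw
  exact C.sq_conj (t := t) (by rw [h, e1]) (by rw [h', ht, h, hw'])

/-- lift of order three -/
theorem lift3 {σ : Perm (Fin (m + 2))} (hs : sign σ = 1) (h3 : σ ^ 3 = 1) : ∃ g, π g = σ ∧ g ^ 3 = 1 := by
  obtain ⟨g, hg⟩ := C.surj σ hs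
  rcases C.ker (g ^ 3) (by rw [map_pow, hg, h3]) with h | h
  · exact ⟨g, hg, h⟩
  · refine ⟨z * g, by rw [map_mul, C.pz, one_mul, hg], ?_⟩
    have hc : Commute z g := C.zc g
    rw [hc.mul_pow, h, pow_succ, pow_two, C.zz, one_mul, C.zz]

theorem next3 {σ : Perm (Fin (m + 2))} (hs : sign σ = 1) (g : G) (h3 : (π g * σ) ^ 3 = 1) :
    ∃ g', π g' = σ ∧ (g * g') ^ 3 = 1 := by
  obtain ⟨k, hk, hk3⟩ := C.lift3 (σ := π g * σ) (by rw [Perm.sign_mul, C.ev, hs, one_mul]) h3
  refine ⟨g⁻¹ * k, by rw [map_mul, map_inv, hk, inv_mul_cancel_left], by rw [mul_inv_cancel_left, hk3]⟩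

theorem no_split (H : ∀ (g : G) (a b c d : Fin (m + 2)), a ≠ b → a ≠ c → a ≠ d → b ≠ c → b ≠ d → c ≠ d →
    π g = swap a b * swap c d → g * g = 1) : False := by
  have hcar : Car m (fun i : Fin m => adj m 0 * adj m (i.val + 1)) := car_of_cox (adj_cox m)
  have hsg : ∀ i : ℕ, i < m → sign (adj m 0 * adj m (i + 1)) = 1 := by
    intro i hi
    rw [Perm.sign_mul, sign_adj 0 (by omega), sign_adj (i + 1) (by omega)]; decide
  -- the lifts
  have hX : ∀ k, k ≤ m → ∃ X : ℕ → G, (∀ i, i < k → π (X i) = adj m 0 * adj m (i + 1)) ∧ (0 < k → X 0 ^ 3 = 1) ∧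
      (∀ i, i + 1 < k → (X i * X (i + 1)) ^ 3 = 1) := by
    intro k
    induction k with
    | zero => exact fun _ => ⟨fun _ => 1, by intro i hi; omega, by intro h; omega, by intro i hi; omega⟩
    | succ k ih =>
      intro hk
      obtain ⟨X, h1, h2, h3⟩ := ih (by omega)
      by_cases hk0 : k = 0
      · subst hk0
        obtain ⟨g, hg, hg3⟩ := C.lift3 (hsg 0 (by omega)) (hcar.cube ⟨0, by omega⟩ rfl)
        refine ⟨fun _ => g, ?_, fun _ => hg3, by intro i hi; omega⟩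
        intro i hi
        obtain rfl : i = 0 := by omega
        exact hg
      · obtain ⟨j, rfl⟩ : ∃ j, k = j + 1 := ⟨k - 1, by omega⟩
        obtain ⟨g, hg, hg3⟩ := C.next3 (hsg (j + 1) (by omega)) (X j) (by
          rw [h1 j (by omega)]
          exact hcar.br ⟨j, by omega⟩ ⟨j + 1, by omega⟩ rfl)
        refine ⟨Function.update X (j + 1) g, ?_, ?_, ?_⟩
        · intro i hi
          by_cases hij : i = j + 1
          · subst hij; rw [Function.update_self]; exact hg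
          · rw [Function.update_of_ne hij]; exact h1 i (by omega)
        · intro _
          rw [Function.update_of_ne (by omega)]; exact h2 (by omega)
        · intro i hi
          by_cases hij : i = j
          · subst hij
            rw [Function.update_self, Function.update_of_ne (by omega)]; exact hg3
          · rw [Function.update_of_ne (by omega), Function.update_of_ne (by omega)]; exact h3 i (by omega)
  obtain ⟨X, h1, h2, h3⟩ := hX m le_rfl
  have hadj : ∀ k (hk : k < m + 1), adj m k = swap (⟨k, by omega⟩ : Fin (m + 2)) ⟨k + 1, by omega⟩ := by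
    intro k hk
    exact adj_eq (⟨k, hk⟩ : Fin (m + 1))
  have hC : Car m (fun i : Fin m => X i.val) := by
    refine ⟨fun i hi => ?_, fun i hi => ?_, fun i j hij => ?_, fun i j hij => ?_⟩
    · show X i.val ^ 3 = 1
      rw [hi]; exact h2 (by have := i.isLt; omega)
    · show X i.val ^ 2 = 1
      have him := i.isLt
      rw [pow_two]
      refine H (X i.val) ⟨0, by omega⟩ ⟨1, by omega⟩ ⟨i.val + 1, by omega⟩ ⟨i.val + 2, by omega⟩ ?_ ?_ ?_ ?_ ?_ ?_ ?_
      iterate 6 (rw [Ne, Fin.mk.injEq]; omega)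
      rw [h1 _ him, hadj 0 (by omega), hadj (i.val + 1) (by omega)]
    · show (X i.val * X j.val) ^ 3 = 1
      have := j.isLt
      rw [hij]; exact h3 _ (by omega)
    · show (X i.val * X j.val) ^ 2 = 1
      have him := i.isLt
      have hjm := j.isLt
      rw [pow_two]
      set s := adj m 0 with hs
      have hs' : s = swap (⟨0, by omega⟩ : Fin (m + 2)) ⟨0 + 1, by omega⟩ := hadj 0 (by omega)
      have e : π (X i.val * X j.val) = swap (s ⟨i.val + 1, by omega⟩) (s ⟨i.val + 2, by omega⟩) *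
          swap ⟨j.val + 1, by omega⟩ ⟨j.val + 2, by omega⟩ := by
        rw [map_mul, h1 _ him, h1 _ hjm, hadj (i.val + 1) (by omega), hadj (j.val + 1) (by omega)]
        rw [mul_swap_eq_swap_mul, mul_assoc, ← mul_assoc s s, show s * s = 1 by rw [hs']; exact swap_mul_self _ _, one_mul]
      have hsv : ∀ k (hk : k < m + 2), k ≤ i.val + 2 → ∃ l, ∃ hl : l < m + 2, l ≤ i.val + 2 ∧ s ⟨k, hk⟩ = ⟨l, hl⟩ := by
        intro k hk hki
        rw [hs']
        by_cases hk0 : k = 0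
        · subst hk0
          exact ⟨1, by omega, by omega, swap_apply_left _ _⟩
        by_cases hk1 : k = 1
        · subst hk1
          exact ⟨0, by omega, by omega, swap_apply_right _ _⟩
        · exact ⟨k, hk, hki, swap_apply_of_ne_of_ne (by rw [Ne, Fin.mk.injEq]; omega) (by rw [Ne, Fin.mk.injEq]; omega)⟩
      obtain ⟨l, hl, hl1, hl2⟩ := hsv (i.val + 1) (by omega) (by omega)
      obtain ⟨l', hl', hl1', hl2'⟩ := hsv (i.val + 2) (by omega) (by omega)
      have hll : l ≠ l' := by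
        intro h
        have h4 : s ⟨i.val + 1, by omega⟩ = s ⟨i.val + 2, by omega⟩ := by
          rw [hl2, hl2', Fin.mk.injEq]; exact h
        have := s.injective h4
        rw [Fin.mk.injEq] at this
        omega
      rw [hl2, hl2'] at e
      refine H (X i.val * X j.val) _ _ _ _ ?_ ?_ ?_ ?_ ?_ ?_ e
      iterate 6 (rw [Ne, Fin.mk.injEq]; omega)
  let φ : PresentedGroup (rels m) →* G := PresentedGroup.toGroup hC.lift
  have hφ : ∀ i, φ (PresentedGroup.of i) = X i.val := fun i => PresentedGroup.toGroup.of hC.lift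
  have hπφ : π.comp φ = toPerm m := by
    apply PresentedGroup.ext
    intro i
    rw [MonoidHom.comp_apply, hφ, h1 _ i.isLt, toPerm_of]
  have hπφ' : ∀ r, π (φ r) = toPerm m r := fun r => by rw [← hπφ]; rfl
  have hz : z ∉ φ.range := by
    rintro ⟨r, hr⟩
    have h4 : toPerm m r = 1 := by rw [← hπφ', hr, C.pz]
    have h5 : r = 1 := toPerm_injective m (by rw [h4, map_one])
    rw [h5, map_one] at hr
    exact C.z1 hr.symm
  have hcov : ∀ g : G, ∃ r, g = φ r ∨ g = z * φ r := by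
    intro g
    have h4 : π g ∈ (toPerm m).range := by
      rw [range_toPerm]; exact C.ev g
    obtain ⟨r, hr⟩ := h4
    exact ⟨r, C.lift_eq (by rw [hπφ', hr])⟩
  have hcomm : commutator G ≤ φ.range := by
    rw [commutator_def, Subgroup.commutator_le]
    have hzi : z⁻¹ = z := inv_eq_of_mul_eq_one_left C.zz
    intro g₁ _ g₂ _
    obtain ⟨r₁, hr₁⟩ := hcov g₁
    obtain ⟨r₂, hr₂⟩ := hcov g₂
    have key : ∀ a b : G, (z * a) * b * (z * a)⁻¹ * b⁻¹ = a * b * a⁻¹ * b⁻¹ := by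
      intro a b
      rw [mul_inv_rev, hzi]
      calc z * a * b * (a⁻¹ * z) * b⁻¹ = z * (a * b * a⁻¹) * z * b⁻¹ := by group
        _ = (a * b * a⁻¹) * (z * z) * b⁻¹ := by rw [C.zc]; group
        _ = a * b * a⁻¹ * b⁻¹ := by rw [C.zz, mul_one]
    have key' : ∀ a b : G, a * (z * b) * a⁻¹ * (z * b)⁻¹ = a * b * a⁻¹ * b⁻¹ := by
      intro a b
      have := congrArg (fun x => x⁻¹) (key b a)
      simp only [mul_inv_rev, inv_inv] at this
      rw [← mul_assoc, ← mul_assoc, ← mul_assoc] at this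
      rw [mul_inv_rev]
      calc a * (z * b) * a⁻¹ * (b⁻¹ * z⁻¹) = a * (z * b) * a⁻¹ * b⁻¹ * z⁻¹ := by group
        _ = a * b * a⁻¹ * b⁻¹ := by
          rw [show a * (z * b) * a⁻¹ * b⁻¹ * z⁻¹ = (a * z) * (b * a⁻¹ * b⁻¹) * z⁻¹ by group, ← C.zc a,
            mul_assoc z, C.zc, mul_inv_cancel_right]
          group
    have : g₁ * g₂ * g₁⁻¹ * g₂⁻¹ = φ (r₁ * r₂ * r₁⁻¹ * r₂⁻¹) := by
      rw [map_mul, map_mul, map_mul, map_inv, map_inv]
      rcases hr₁ with rfl | rfl <;> rcases hr₂ with rfl | rfl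
      · rfl
      · rw [key']
      · rw [key]
      · rw [key, key']
    rw [commutatorElement_def, this]
    exact ⟨_, rfl⟩
  rw [C.perf] at hcomm
  exact hz (hcomm (Subgroup.mem_top z))

/-- lifts of double transpositions have order four -/
theorem eps {g : G} {a b c d : Fin (m + 2)} (hab : a ≠ b) (hac : a ≠ c) (had : a ≠ d) (hbc : b ≠ c)
    (hbd : b ≠ d) (hcd : c ≠ d) (h : π g = swap a b * swap c d) : g * g = z := by
  obtain ⟨e1, -⟩ := dsw hab hac had hbc hbd hcd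
  rcases C.ker (g * g) (by rw [map_mul, h, e1]) with h1 | h1
  · exfalso
    apply C.no_split
    intro g' a' b' c' d' n1 n2 n3 n4 n5 n6 h'
    rw [C.sq_T hab hac had hbc hbd hcd n1 n2 n3 n4 n5 n6 h h', h1]
  · exact h1

/-- lifts of elements of order three commute with lifts of commuting elements -/
theorem comm3 {c y : Perm (Fin (m + 2))} (hcy : c * y = y * c) (hs : sign c = 1) (h3 : c ^ 3 = 1) {g k : G}
    (hg : π g = c) (hk : π k = y) : g * k = k * g := by
  obtain ⟨g₀, hg₀, h0⟩ := C.lift3 hs h3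
  have h1 : g₀ * k = k * g₀ := by
    rcases C.lift_eq (g := k * g₀ * k⁻¹) (g' := g₀) (by
      rw [map_mul, map_mul, map_inv, hg₀, hk, ← hcy, mul_inv_cancel_right]) with h | h
    · rw [mul_inv_eq_iff_eq_mul] at h; exact h.symm
    · exfalso
      have h4 : (k * g₀ * k⁻¹) ^ 3 = 1 := by rw [conj_pow, h0]; group
      have hc : Commute z g₀ := C.zc g₀
      rw [h, hc.mul_pow, h0, mul_one, pow_succ, pow_two, C.zz, one_mul] at h4
      exact C.z1 h4
  rcases C.lift_eq (g := g) (g' := g₀) (by rw [hg, hg₀]) with h | h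
  · rw [h, h1]
  · rw [h, mul_assoc, h1, ← mul_assoc, C.zc, mul_assoc]

theorem main (h5 : 5 ≤ m + 2) (g : G) : ∃ a b : G, a * b * a⁻¹ * b⁻¹ = g := by
  obtain ⟨y, w, hy, hw, hgy, p₁, p₂, p₃, p₄, h12, h13, h14, h23, h24, h34, e1, e2, e3, e4⟩ :=
    good_all (α := Fin (m + 2)) (by rw [Fintype.card_fin]; exact h5) (π g) (C.ev g)
  set t := swap p₁ p₂ * swap p₃ p₄ with ht
  set v := swap p₁ p₃ * swap p₂ p₄ with hv
  obtain ⟨t1, t2, t3, t4, t5, t6, t7⟩ := dsw h12 h13 h14 h23 h24 h34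
  obtain ⟨v1, v2, v3, v4, v5, v6, v7⟩ := dsw h13 h12 h14 h23.symm h34 h24
  rw [← ht] at t1 t2 t3 t4 t5 t6 t7
  rw [← hv] at v1 v2 v3 v4 v5 v6 v7
  set y₀ := t * y with hy₀
  have hyt : y = t * y₀ := by rw [hy₀, ← mul_assoc, t1, one_mul]
  have f1 : y₀ p₁ = p₁ := by rw [hy₀, Perm.mul_apply, e1, t5]
  have f2 : y₀ p₂ = p₂ := by rw [hy₀, Perm.mul_apply, e2, t4]
  have f3 : y₀ p₃ = p₃ := by rw [hy₀, Perm.mul_apply, e3, t7]
  have f4 : y₀ p₄ = p₄ := by rw [hy₀, Perm.mul_apply, e4, t6]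
  have hs0 : sign y₀ = 1 := by rw [hy₀, Perm.sign_mul, t2, hy, one_mul]
  have hdis : ∀ σ : Perm (Fin (m + 2)), (∀ r, r ≠ p₁ → r ≠ p₂ → r ≠ p₃ → r ≠ p₄ → σ r = r) → σ * y₀ = y₀ * σ := by
    intro σ hσ
    have : Disjoint σ y₀ := by
      intro r
      by_cases r1 : r = p₁
      · right; rw [r1, f1]
      by_cases r2 : r = p₂
      · right; rw [r2, f2]
      by_cases r3 : r = p₃
      · right; rw [r3, f3]
      by_cases r4 : r = p₄
      · right; rw [r4, f4]
      · left; exact hσ r r1 r2 r3 r4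
    exact this.commute
  -- the lifts
  obtain ⟨T, hT⟩ := C.surj t t2
  obtain ⟨V, hV⟩ := C.surj v v2
  obtain ⟨Y₀, hY₀⟩ := C.surj y₀ hs0
  obtain ⟨W, hW⟩ := C.surj w hw
  have hvt : v * t * v⁻¹ = t := by
    have e : v * t = t * v := by
      rw [ht, ← mul_assoc, mul_swap_eq_swap_mul v p₁ p₂, v4, v6, mul_assoc, mul_swap_eq_swap_mul v p₃ p₄, v5, v7, ← mul_assoc]
      congr 1
      have hd : Disjoint (swap p₃ p₄) (swap p₁ p₂) := by
        rw [disjoint_iff_disjoint_support, support_swap h34, support_swap h12]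
        simp [h13, h14, h23, h24, h13.symm, h14.symm, h23.symm, h24.symm]
      exact hd.commute
    rw [e, mul_inv_cancel_right]
  have hvt' : v * t = swap p₁ p₄ * swap p₂ p₃ := by
    obtain ⟨u1, u2, u3, u4, u5, u6, u7⟩ := dsw h14 h12 h13 h24.symm h34.symm h23
    ext r
    by_cases r1 : r = p₁
    · rw [r1, Perm.mul_apply, t4, v6, u4]
    by_cases r2 : r = p₂
    · rw [r2, Perm.mul_apply, t5, v4, u6]
    by_cases r3 : r = p₃
    · rw [r3, Perm.mul_apply, t6, v7, u7]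
    by_cases r4 : r = p₄
    · rw [r4, Perm.mul_apply, t7, v5, u5]
    rw [ht, hv]
    simp only [Perm.mul_apply]
    rw [swap_apply_of_ne_of_ne r3 r4, swap_apply_of_ne_of_ne r1 r2, swap_apply_of_ne_of_ne r2 r4,
      swap_apply_of_ne_of_ne r1 r3, swap_apply_of_ne_of_ne r2 r3, swap_apply_of_ne_of_ne r1 r4]
  have hVV : V * V = z := C.eps h13 h12 h14 h23.symm h34 h24 hV
  have hTT : T * T = z := C.eps h12 h13 h14 h23 h24 h34 hT
  have hVT2 : (V * T) * (V * T) = z :=
    C.eps h14 h12 h13 h24.symm h34.symm h23 (by rw [map_mul, hV, hT, hvt'])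
  have hVT : V * T * V⁻¹ = z * T := by
    rcases C.lift_eq (g := V * T * V⁻¹) (g' := T) (by rw [map_mul, map_mul, map_inv, hV, hT, hvt]) with h | h
    · exfalso
      rw [mul_inv_eq_iff_eq_mul] at h
      have h6 : (V * T) * (V * T) = 1 := by
        calc (V * T) * (V * T) = (T * V) * (V * T) := by rw [h]
          _ = T * (V * V) * T := by group
          _ = (T * T) * z := by rw [hVV, mul_assoc, C.zc, ← mul_assoc]
          _ = 1 := by rw [hTT, C.zz]
      rw [h6] at hVT2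
      exact C.z1 hVT2.symm
    · exact h
  have hVY₀ : V * Y₀ = Y₀ * V := by
    set c₁ := swap p₃ p₁ * swap p₃ p₂ with hc₁
    set c₂ := swap p₂ p₃ * swap p₂ p₄ with hc₂
    have g1 : c₁.IsThreeCycle := isThreeCycle_swap_mul_swap_same h13.symm h23.symm h12
    have g2 : c₂.IsThreeCycle := isThreeCycle_swap_mul_swap_same h23 h24 h34
    have hv12 : v = c₁ * c₂ := by
      rw [hc₁, hc₂, hv, swap_comm p₃ p₁, swap_comm p₃ p₂, mul_assoc, ← mul_assoc (swap p₂ p₃), swap_mul_self, one_mul]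
    have k1 : c₁ * y₀ = y₀ * c₁ := hdis c₁ fun r r1 r2 r3 r4 => by
      rw [hc₁, Perm.mul_apply, swap_apply_of_ne_of_ne r3 r2, swap_apply_of_ne_of_ne r3 r1]
    have k2 : c₂ * y₀ = y₀ * c₂ := hdis c₂ fun r r1 r2 r3 r4 => by
      rw [hc₂, Perm.mul_apply, swap_apply_of_ne_of_ne r2 r4, swap_apply_of_ne_of_ne r2 r3]
    have o1 : c₁ ^ 3 = 1 := by rw [← g1.orderOf]; exact pow_orderOf_eq_one _
    have o2 : c₂ ^ 3 = 1 := by rw [← g2.orderOf]; exact pow_orderOf_eq_one _
    obtain ⟨D₁, hD₁⟩ := C.surj c₁ g1.sign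
    obtain ⟨D₂, hD₂⟩ := C.surj c₂ g2.sign
    have m1 := C.comm3 k1 g1.sign o1 hD₁ hY₀
    have m2 := C.comm3 k2 g2.sign o2 hD₂ hY₀
    have m3 : D₁ * D₂ * Y₀ = Y₀ * (D₁ * D₂) := by rw [mul_assoc, m2, ← mul_assoc, m1, mul_assoc]
    rcases C.lift_eq (g := V) (g' := D₁ * D₂) (by rw [hV, map_mul, hD₁, hD₂, hv12]) with h | h
    · rw [h, m3]
    · rw [h, mul_assoc, m3, ← mul_assoc, C.zc, mul_assoc]
  set Y := T * Y₀ with hY
  have hπY : π Y = y := by rw [hY, map_mul, hT, hY₀, ← hyt]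
  have hVY : V * Y * V⁻¹ = z * Y := by
    calc V * Y * V⁻¹ = (V * T * V⁻¹) * (V * Y₀ * V⁻¹) := by rw [hY]; group
      _ = z * T * Y₀ := by rw [hVT, hVY₀, mul_inv_cancel_right]
      _ = z * Y := by rw [hY, mul_assoc]
  rcases C.lift_eq (g := g) (g' := Y * W * Y⁻¹ * W⁻¹) (by
    rw [map_mul, map_mul, map_mul, map_inv, map_inv, hπY, hW]; exact hgy) with h | h
  · exact ⟨Y, W, h.symm⟩
  · refine ⟨z * Y, W * V⁻¹, ?_⟩
    have hinv : (z * Y)⁻¹ = V * Y⁻¹ * V⁻¹ := by rw [← hVY]; group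
    rw [hinv, h]
    group

end Cov

end Cfsg.Agent.Lib.TwoAn67
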