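import Mathlib
import Cfsg.Agent.Lib.HallConverse
import Cfsg.Agent.Lib.FrobGroup

/-!
Groups whose two largest class sizes are coprime, part 1 (helper60): generalities on class sizes.
-/

set_option autoImplicit false

namespace Cfsg.Agent.Lib.TwoCls

open Subgroup

variable {G : Type*} [Group G]

abbrev C (g : G) : Subgroup G := centralizer ({g} : Set G)

theorem mem_C {g h : G} : h ∈ C g ↔ h * g = g * h := mem_centralizer_singleton_iff

/-- class size -/
noncomputable abbrev cs (g : G) : ℕ := (centralizer ({g} : Set G)).index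

def cls (g : G) : Set G := {h | ∃ t, h = t * g * t⁻¹}

theorem self_cls (g : G) : g ∈ cls g := ⟨1, by group⟩

theorem card_cls (g : G) : Nat.card (cls g) = cs g := by
  apply Eq.symm
  apply Nat.card_congr
  refine Equiv.ofBijective (fun q : G ⧸ C g => Quotient.liftOn' q (fun t => (⟨t * g * t⁻¹, t, rfl⟩ : cls g)) ?_) ?_
  · intro a b hab
    rw [QuotientGroup.leftRel_apply, mem_C] at hab
    apply Subtype.ext
    change a * g * a⁻¹ = b * g * b⁻¹
    calc a * g * a⁻¹ = a * (g * (a⁻¹ * b)) * b⁻¹ := by group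
      _ = a * (a⁻¹ * b * g) * b⁻¹ := by rw [hab]
      _ = b * g * b⁻¹ := by group
  · constructor
    · intro a b
      refine Quotient.inductionOn₂' a b ?_
      intro s t hst
      have h1 : s * g * s⁻¹ = t * g * t⁻¹ := congrArg Subtype.val hst
      apply Quotient.sound'
      rw [QuotientGroup.leftRel_apply, mem_C]
      calc s⁻¹ * t * g = s⁻¹ * (t * g * t⁻¹) * t := by group
        _ = s⁻¹ * (s * g * s⁻¹) * t := by rw [h1]
        _ = g * (s⁻¹ * t) := by group
    · rintro ⟨_, t, rfl⟩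
      exact ⟨QuotientGroup.mk t, rfl⟩

theorem cls_conj (g t : G) : cls (t * g * t⁻¹) = cls g := by
  ext h
  constructor
  · rintro ⟨s, rfl⟩
    exact ⟨s * t, by group⟩
  · rintro ⟨s, rfl⟩
    exact ⟨s * t⁻¹, by group⟩

theorem cs_conj (g t : G) : cs (t * g * t⁻¹) = cs g := by
  rw [← card_cls, ← card_cls, cls_conj]

theorem cs_eq_one {g : G} (h : cs g = 1) : g ∈ center G := by
  rw [index_eq_one] at h
  rw [mem_center_iff]
  intro t
  have : t ∈ C g := by
    change t ∈ centralizer ({g} : Set G)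
    rw [h]; trivial
  exact mem_C.1 this

theorem cs_center {g : G} (h : g ∈ center G) : cs g = 1 := by
  rw [index_eq_one, eq_top_iff]
  intro t _
  exact mem_C.2 (mem_center_iff.1 h t)

theorem center_le_C (g : G) : center G ≤ C g := by
  intro z hz
  exact mem_C.2 (mem_center_iff.1 hz g).symm

theorem C_conj_mem {g h t : G} (H : h ∈ C g) : t * h * t⁻¹ ∈ C (t * g * t⁻¹) := by
  rw [mem_C] at H ⊢
  calc t * h * t⁻¹ * (t * g * t⁻¹) = t * (h * g) * t⁻¹ := by group
    _ = t * (g * h) * t⁻¹ := by rw [H]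
    _ = _ := by group

/-- the subgroup of the quotients of conjugates -/
def N (a : G) : Subgroup G := closure {w | ∃ s t, w = (s * a * s⁻¹)⁻¹ * (t * a * t⁻¹)}

instance N_normal (a : G) : (N a).Normal := by
  refine ⟨?_⟩
  intro w hw g
  induction hw using closure_induction with
  | mem w hw =>
    obtain ⟨s, t, rfl⟩ := hw
    exact Subgroup.subset_closure ⟨g * s, g * t, by group⟩
  | one => rw [mul_one, mul_inv_cancel]; exact one_mem _
  | mul u v _ _ hu hv =>
    have : g * (u * v) * g⁻¹ = (g * u * g⁻¹) * (g * v * g⁻¹) := by group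
    rw [this]; exact mul_mem hu hv
  | inv u _ hu =>
    have : g * u⁻¹ * g⁻¹ = (g * u * g⁻¹)⁻¹ := by group
    rw [this]; exact inv_mem hu

theorem gen_mem_N (a t : G) : a⁻¹ * (t * a * t⁻¹) ∈ N a := by
  apply Subgroup.subset_closure
  exact ⟨1, t, by group⟩

variable [Finite G]

theorem cs_pos (g : G) : 0 < cs g := Nat.pos_of_ne_zero index_ne_zero_of_finite

theorem conj_pair {a b : G} (h : (cs a).Coprime (cs b)) (s t : G) :
    ∃ g, g * a * g⁻¹ = s * a * s⁻¹ ∧ g * b * g⁻¹ = t * b * t⁻¹ := by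
  obtain ⟨c, hc, d, hd, hcd⟩ := HallConverse.exists_mul_of_coprime_index h (s⁻¹ * t)
  rw [mem_C] at hc hd
  refine ⟨s * c, ?_, ?_⟩
  · calc s * c * a * (s * c)⁻¹ = s * (c * a) * c⁻¹ * s⁻¹ := by group
      _ = s * (a * c) * c⁻¹ * s⁻¹ := by rw [hc]
      _ = _ := by group
  · have h1 : s * c = t * d⁻¹ := by
      calc s * c = s * (c * d) * d⁻¹ := by group
        _ = _ := by rw [hcd]; group
    rw [h1]
    calc t * d⁻¹ * b * (t * d⁻¹)⁻¹ = t * d⁻¹ * (b * d) * t⁻¹ := by group
      _ = t * d⁻¹ * (d * b) * t⁻¹ := by rw [hd]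
      _ = _ := by group

theorem mul_mem_cls {a b : G} (h : (cs a).Coprime (cs b)) {a' b' : G} (ha : a' ∈ cls a) (hb : b' ∈ cls b) :
    a' * b' ∈ cls (a * b) := by
  obtain ⟨s, rfl⟩ := ha
  obtain ⟨t, rfl⟩ := hb
  obtain ⟨g, h1, h2⟩ := conj_pair h s t
  exact ⟨g, by rw [← h1, ← h2]; group⟩

theorem surj {a b : G} (h : (cs a).Coprime (cs b)) (hle : cs (a * b) ≤ cs b) {a' w : G} (ha : a' ∈ cls a)
    (hw : w ∈ cls (a * b)) : ∃ b' ∈ cls b, w = a' * b' := by
  let f : cls b → cls (a * b) := fun b' => ⟨a' * b', mul_mem_cls h ha b'.2⟩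
  have hf : Function.Injective f := by
    intro u v huv
    have : a' * (u : G) = a' * v := congrArg Subtype.val huv
    exact Subtype.ext (mul_left_cancel this)
  have hs : Function.Surjective f := by
    have h1 := (Nat.bijective_iff_injective_and_card f).2 ⟨hf, ?_⟩
    · exact h1.2
    · apply le_antisymm
      · exact Nat.card_le_card_of_injective f hf
      · rw [card_cls, card_cls]; exact hle
  obtain ⟨b', hb'⟩ := hs ⟨w, hw⟩
  exact ⟨b', b'.2, (congrArg Subtype.val hb').symm⟩

theorem N_smul {a b : G} (h : (cs a).Coprime (cs b)) (hle : cs (a * b) ≤ cs b) {ν : G} (hν : ν ∈ N a) :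
    ∀ w ∈ cls b, ν * w ∈ cls b := by
  induction hν using closure_induction with
  | mem ν hν =>
    obtain ⟨s, t, rfl⟩ := hν
    intro w hw
    obtain ⟨b', hb', hb''⟩ := surj h hle (a' := s * a * s⁻¹) ⟨s, rfl⟩ (mul_mem_cls h (a' := t * a * t⁻¹) ⟨t, rfl⟩ hw)
    rw [mul_assoc, hb'']
    rw [inv_mul_cancel_left]
    exact hb'
  | one => intro w hw; rwa [one_mul]
  | mul u v _ _ hu hv => intro w hw; rw [mul_assoc]; exact hu _ (hv _ hw)
  | inv u _ hu =>
    intro w hw
    let f : cls b → cls b := fun b' => ⟨u * b', hu _ b'.2⟩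
    have hf : Function.Injective f := by
      intro p q hpq
      have : u * (p : G) = u * q := congrArg Subtype.val hpq
      exact Subtype.ext (mul_left_cancel this)
    have hs := Finite.surjective_of_injective hf
    obtain ⟨w', hw'⟩ := hs ⟨w, hw⟩
    have : u * (w' : G) = w := congrArg Subtype.val hw'
    rw [← this, inv_mul_cancel_left]
    exact w'.2

theorem card_dvd_of_smul {A : Subgroup G} {b : G} (h : ∀ ν ∈ A, ∀ w ∈ cls b, ν * w ∈ cls b) :
    Nat.card A ∣ cs b := by
  rw [← card_cls]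
  letI : MulAction A (cls b) :=
    { smul := fun ν w => ⟨ν * w, h ν ν.2 w w.2⟩
      one_smul := fun w => Subtype.ext (one_mul _)
      mul_smul := fun u v w => Subtype.ext (mul_assoc _ _ _) }
  apply FrobGroup.card_dvd_of_free
  intro ν w hνw
  have h1 : (ν : G) * w = w := congrArg Subtype.val hνw
  apply Subtype.ext
  exact mul_eq_right.1 h1

theorem le_C_of_coprime (A : Subgroup G) [A.Normal] {g : G} (h : (Nat.card A).Coprime (cs g)) : A ≤ C g := by
  have h1 : (C g).relIndex A ∣ Nat.card A := Subgroup.relIndex_dvd_card _ _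
  have h2 : (C g).relIndex A ∣ cs g := by
    have e1 : (C g).relIndex (C g ⊔ A) = (C g).relIndex A := by
      have f1 := relIndex_mul_relIndex (C g ⊓ A) A (C g ⊔ A) inf_le_right le_sup_right
      have f2 := relIndex_mul_relIndex (C g ⊓ A) (C g) (C g ⊔ A) inf_le_left le_sup_left
      rw [inf_relIndex_right, relIndex_sup_right] at f1
      rw [inf_relIndex_left] at f2
      have f3 : A.relIndex (C g) ≠ 0 := index_ne_zero_of_finite (H := A.subgroupOf (C g))
      apply Nat.eq_of_mul_eq_mul_left (Nat.pos_of_ne_zero f3)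
      rw [f2, ← f1, mul_comm]
    rw [← e1]
    exact relIndex_dvd_index_of_le le_sup_left
  have h3 : (C g).relIndex A = 1 := Nat.eq_one_of_dvd_coprimes h h1 h2
  exact relIndex_eq_one.1 h3

end Cfsg.Agent.Lib.TwoCls
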