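import Mathlib
import Cfsg.Agent.Lib.TwoCls1

/-!
Groups whose two largest class sizes are coprime, part 2 (helper60): `π`-parts and the basic facts.
-/

set_option autoImplicit false

namespace Cfsg.Agent.Lib.TwoCls

open Subgroup

variable {G : Type*} [Group G]

/-- the primes of the order of `g` divide `m` -/
def Pi (m : ℕ) (g : G) : Prop := ∀ p : ℕ, p.Prime → p ∣ orderOf g → p ∣ m

/-- the order of `g` is coprime to `m` -/
def Pi' (m : ℕ) (g : G) : Prop := (orderOf g).Coprime m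

theorem orderOf_conj' (g t : G) : orderOf (t * g * t⁻¹) = orderOf g := by
  apply Eq.symm
  apply SemiconjBy.orderOf_eq t
  change t * g = (t * g * t⁻¹) * t
  group

theorem Pi.conj {m : ℕ} {g : G} (h : Pi m g) (t : G) : Pi m (t * g * t⁻¹) := by
  intro p hp hd
  rw [orderOf_conj'] at hd
  exact h p hp hd

theorem Pi'.conj {m : ℕ} {g : G} (h : Pi' m g) (t : G) : Pi' m (t * g * t⁻¹) := by
  unfold Pi'
  rw [orderOf_conj']
  exact h

/-- a factorization of a natural number -/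
theorem nat_split (r m : ℕ) (hr : 0 < r) : ∃ a b, r = a * b ∧ a.Coprime b ∧ (∀ p : ℕ, p.Prime → p ∣ a → p ∣ m) ∧
    b.Coprime m := by
  induction r using Nat.strong_induction_on with
  | _ r ih =>
    by_cases h1 : r.Coprime m
    · exact ⟨1, r, by rw [one_mul], Nat.coprime_one_left r, fun p hp h => by
        rw [Nat.dvd_one] at h; exact absurd h hp.one_lt.ne', h1⟩
    obtain ⟨p, hp, hpr, hpm⟩ := Nat.Prime.not_coprime_iff_dvd.1 h1
    have hdvd := Nat.ordCompl_dvd r p
    have hlt : ordCompl[p] r < r := by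
      apply lt_of_le_of_ne (Nat.le_of_dvd hr hdvd)
      intro h
      have h2 := Nat.not_dvd_ordCompl hp hr.ne'
      rw [h] at h2
      exact h2 hpr
    obtain ⟨a, b, hab, hcop, ha, hb⟩ := ih (ordCompl[p] r) hlt (Nat.ordCompl_pos p hr.ne')
    have hnp : ¬ p ∣ a * b := by rw [← hab]; exact Nat.not_dvd_ordCompl hp hr.ne'
    refine ⟨p ^ r.factorization p * a, b, ?_, ?_, ?_, hb⟩
    · rw [mul_assoc, ← hab]
      exact (Nat.ordProj_mul_ordCompl_eq_self r p).symm
    · apply Nat.Coprime.mul_left _ hcop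
      apply Nat.Coprime.pow_left
      rw [hp.coprime_iff_not_dvd]
      intro h
      exact hnp (Dvd.dvd.mul_left h a)
    · intro q hq h
      rcases (hq.dvd_mul).1 h with h2 | h2
      · have := (Nat.prime_dvd_prime_iff_eq hq hp).1 (hq.dvd_of_dvd_pow h2)
        rw [this]; exact hpm
      · exact ha q hq h2

theorem coprime_of_pi {m r s : ℕ} (hr : ∀ p : ℕ, p.Prime → p ∣ r → p ∣ m) (hs : s.Coprime m) : r.Coprime s := by
  rw [Nat.coprime_iff_gcd_eq_one]
  by_contra h
  obtain ⟨p, hp, hpd⟩ := Nat.exists_prime_and_dvd h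
  have h1 := hr p hp (hpd.trans (Nat.gcd_dvd_left _ _))
  have h2 := hpd.trans (Nat.gcd_dvd_right _ _)
  have h3 := Nat.dvd_gcd h2 h1
  rw [hs] at h3
  exact hp.one_lt.ne' (Nat.dvd_one.1 h3)

theorem Pi.coprime {m : ℕ} {a b : G} (ha : Pi m a) (hb : Pi' m b) : (orderOf a).Coprime (orderOf b) :=
  coprime_of_pi ha hb

/-- the commuting factors of coprime orders are powers of the product -/
theorem left_mem_zpowers {a b : G} (hab : a * b = b * a) (hcop : (orderOf a).Coprime (orderOf b)) :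
    a ∈ zpowers (a * b) := by
  obtain ⟨k, hk1, hk2⟩ := Nat.chineseRemainder hcop 1 0
  have h1 : (a * b) ^ k = a := by
    have hc : Commute a b := hab
    rw [hc.mul_pow]
    have h2 : b ^ k = 1 := by
      rw [← pow_mod_orderOf, hk2, Nat.zero_mod, pow_zero]
    have h3 : a ^ k = a := by
      have h4 : a ^ k = a ^ (k % orderOf a) := (pow_mod_orderOf a k).symm
      rw [h4, hk1, pow_mod_orderOf, pow_one]
    rw [h2, h3, mul_one]
  exact ⟨k, by simpa using h1⟩

theorem C_mul {a b : G} (hab : a * b = b * a) (hcop : (orderOf a).Coprime (orderOf b)) :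
    C (a * b) = C a ⊓ C b := by
  have h1 := left_mem_zpowers hab hcop
  have h2 : b ∈ zpowers (a * b) := by
    rw [hab]; exact left_mem_zpowers hab.symm hcop.symm
  have key : ∀ c ∈ zpowers (a * b), ∀ g ∈ C (a * b), g ∈ C c := by
    intro c hc g hg
    rw [mem_C] at hg ⊢
    have h3 : zpowers (a * b) ≤ C g := by
      rw [zpowers_le, mem_C]
      exact hg.symm
    exact (mem_C.1 (h3 hc)).symm
  apply le_antisymm
  · exact fun g hg => ⟨key a h1 g hg, key b h2 g hg⟩
  · rintro g ⟨hg1, hg2⟩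
    have hg1' := mem_C.1 hg1
    have hg2' := mem_C.1 hg2
    rw [mem_C, ← mul_assoc, hg1', mul_assoc, hg2', mul_assoc]

variable [Finite G]

/-- the `π`-decomposition -/
theorem decomp (m : ℕ) (g : G) : ∃ a b : G, g = a * b ∧ a * b = b * a ∧ Pi m a ∧ Pi' m b ∧
    a ∈ zpowers g ∧ b ∈ zpowers g := by
  obtain ⟨r, s, hrs, hcop, hr, hs⟩ := nat_split (orderOf g) m (orderOf_pos g)
  obtain ⟨k, hk1, hk2⟩ := Nat.chineseRemainder hcop 1 0
  obtain ⟨l, hl1, hl2⟩ := Nat.chineseRemainder hcop 0 1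
  have h1 : g ^ (k + l) = g := by
    have h2 : (k + l) ≡ 1 [MOD (r * s)] := by
      rw [← Nat.modEq_and_modEq_iff_modEq_mul hcop]
      exact ⟨(hk1.add hl1).trans (by rfl), (hk2.add hl2).trans (by rfl)⟩
    have h3 : g ^ (k + l) = g ^ 1 := by
      rw [pow_eq_pow_iff_modEq, hrs]
      exact h2
    rw [h3, pow_one]
  refine ⟨g ^ k, g ^ l, ?_, ?_, ?_, ?_, ⟨k, by simp⟩, ⟨l, by simp⟩⟩
  · rw [← pow_add, h1]
  · rw [← pow_add, ← pow_add, add_comm]
  · intro p hp hd
    apply hr p hp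
    apply hd.trans
    apply orderOf_dvd_of_pow_eq_one
    rw [← pow_mul, ← orderOf_dvd_iff_pow_eq_one, hrs, mul_comm r s]
    exact Nat.mul_dvd_mul (Nat.modEq_zero_iff_dvd.1 hk2) dvd_rfl
  · unfold Pi'
    apply Nat.Coprime.coprime_dvd_left _ hs
    apply orderOf_dvd_of_pow_eq_one
    rw [← pow_mul, ← orderOf_dvd_iff_pow_eq_one, hrs]
    exact Nat.mul_dvd_mul (Nat.modEq_zero_iff_dvd.1 hl1) dvd_rfl

theorem zpowers_le_C {g a : G} (h : a ∈ zpowers g) {w : G} (hw : w ∈ C g) : w ∈ C a := by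
  have h3 : zpowers g ≤ C w := by
    rw [zpowers_le, mem_C]
    exact (mem_C.1 hw).symm
  exact mem_C.2 (mem_C.1 (h3 h)).symm

/-- an element is in a normal subgroup if its prime power parts are -/
theorem mem_of_parts (Z : Subgroup G) [Z.Normal] {g : G}
    (h : ∀ p : ℕ, p.Prime → p ∣ orderOf g → g ^ (ordCompl[p] (orderOf g)) ∈ Z) : g ∈ Z := by
  rw [← QuotientGroup.eq_one_iff, ← orderOf_eq_one_iff]
  by_contra hne
  obtain ⟨p, hp, hpd⟩ := Nat.exists_prime_and_dvd hne
  have h1 : orderOf (g : G ⧸ Z) ∣ orderOf g := orderOf_map_dvd (QuotientGroup.mk' Z) g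
  have h2 := h p hp (hpd.trans h1)
  rw [← QuotientGroup.eq_one_iff] at h2
  have h3 : (g : G ⧸ Z) ^ (ordCompl[p] (orderOf g)) = 1 := h2
  have h4 := orderOf_dvd_of_pow_eq_one h3
  exact Nat.not_dvd_ordCompl hp (orderOf_pos g).ne' (hpd.trans h4)

theorem orderOf_part {g : G} {p : ℕ} (hp : p.Prime) (hd : p ∣ orderOf g) :
    orderOf (g ^ (ordCompl[p] (orderOf g))) = p ^ (orderOf g).factorization p := by
  have h1 : ordCompl[p] (orderOf g) ∣ orderOf g := Nat.ordCompl_dvd _ _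
  rw [orderOf_pow_of_dvd (Nat.ordCompl_pos p (orderOf_pos g).ne').ne' h1]
  apply Nat.div_eq_of_eq_mul_left (Nat.ordCompl_pos p (orderOf_pos g).ne')
  exact (Nat.ordProj_mul_ordCompl_eq_self _ p).symm

/-- if all `q`-elements of `H` are central then `q` does not divide `|H : Z|` -/
theorem not_dvd_relIndex {H : Subgroup G} {q : ℕ} [hq : Fact q.Prime]
    (h : ∀ w ∈ H, (∃ k, orderOf w = q ^ k) → w ∈ center G) : ¬ q ∣ (center G).relIndex H := by
  obtain ⟨P⟩ : Nonempty (Sylow q H) := inferInstance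
  have h1 : (P : Subgroup H) ≤ (center G).subgroupOf H := by
    intro w hw
    rw [mem_subgroupOf]
    apply h _ w.2
    obtain ⟨k, hk⟩ := (IsPGroup.iff_orderOf.1 P.isPGroup') ⟨w, hw⟩
    refine ⟨k, ?_⟩
    rw [Subgroup.orderOf_coe, ← hk]
    exact Subgroup.orderOf_coe (⟨w, hw⟩ : (P : Subgroup H))
  intro hd
  exact P.not_dvd_index (hd.trans (index_dvd_of_le h1))

end Cfsg.Agent.Lib.TwoCls
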