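import Mathlib
import Cfsg.Agent.Lib.TwoCls2

/-!
Groups whose two largest class sizes are coprime, part 3 (helper60): the main steps.
-/

set_option autoImplicit false

namespace Cfsg.Agent.Lib.TwoCls

open Subgroup

structure Hyp (G : Type*) [Group G] (m n : ℕ) : Prop where
  mn : n < m
  n1 : 1 < n
  cop : m.Coprime n
  top : ∀ z : G, cs z ≤ m
  sec : ∀ z : G, cs z < m → cs z ≤ n
  ex : ∃ x : G, cs x = n
  ey : ∃ y : G, cs y = m

variable {G : Type*} [Group G] [Finite G] {m n : ℕ}

theorem cs_dvd_of_C_le {a b : G} (h : C a ≤ C b) : cs b ∣ cs a := index_dvd_of_le h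

namespace Hyp

variable (H : Hyp G m n)

include H

/-- Step 1 -/
theorem card_N_dvd {g : G} (hg : (cs g).Coprime m) : Nat.card (N g) ∣ m := by
  obtain ⟨y, hy⟩ := H.ey
  have h1 : (cs g).Coprime (cs y) := by rw [hy]; exact hg
  rw [← hy]
  exact card_dvd_of_smul (fun ν hν w hw => N_smul h1 (by rw [hy]; exact H.top _) hν w hw)

theorem N_le_C {g : G} (hg : (cs g).Coprime m) : N g ≤ C g :=
  le_C_of_coprime (N g) (hg.symm.coprime_dvd_left (H.card_N_dvd hg))

/-- an element commutes with its conjugates -/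
theorem conj_comm {g : G} (hg : (cs g).Coprime m) (t : G) : g * (t * g * t⁻¹) = (t * g * t⁻¹) * g := by
  have h1 := mem_C.1 (H.N_le_C hg (gen_mem_N g t))
  calc g * (t * g * t⁻¹) = g * (g * (g⁻¹ * (t * g * t⁻¹))) := by group
    _ = g * ((g⁻¹ * (t * g * t⁻¹)) * g) := by rw [h1]
    _ = _ := by group

/-- Lemma A -/
theorem central_of_coprime {w : G} (h1 : (cs w).Coprime m) (h2 : Pi' m w) : w ∈ center G := by
  rw [mem_center_iff]
  intro t
  set ν := w⁻¹ * (t * w * t⁻¹) with hν
  have hνN : ν ∈ N w := gen_mem_N w t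
  have hc : Commute w ν := (mem_C.1 (H.N_le_C h1 hνN)).symm
  have h3 : t * w * t⁻¹ = w * ν := by rw [hν]; group
  have h4 : ν ^ orderOf w = 1 := by
    have h5 : (w * ν) ^ orderOf w = 1 := by
      rw [← h3, ← orderOf_conj' w t, pow_orderOf_eq_one]
    rw [hc.mul_pow, pow_orderOf_eq_one, one_mul] at h5
    exact h5
  have h5 : ν ^ m = 1 := by
    obtain ⟨k, hk⟩ := H.card_N_dvd h1
    have h6 : (⟨ν, hνN⟩ : N w) ^ Nat.card (N w) = 1 := pow_card_eq_one'
    have h7 : ν ^ Nat.card (N w) = 1 := congrArg Subtype.val h6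
    rw [hk, pow_mul, h7, one_pow]
  have h6 : orderOf ν = 1 := Nat.eq_one_of_dvd_coprimes h2 (orderOf_dvd_of_pow_eq_one h4)
    (orderOf_dvd_of_pow_eq_one h5)
  rw [orderOf_eq_one_iff] at h6
  rw [h6, mul_one] at h3
  calc t * w = (t * w * t⁻¹) * t := by group
    _ = w * t := by rw [h3]

theorem not_dvd : ¬ n ∣ m := by
  intro h
  have := Nat.eq_one_of_dvd_coprimes H.cop h dvd_rfl
  have := H.n1
  omega

/-- Step 4 -/
theorem step4 {x : G} (hx : cs x = n) (hxp : Pi m x) {w : G} (hw : w ∈ C x) (hw' : Pi' m w) : w ∈ center G := by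
  have hc : x * w = w * x := (mem_C.1 hw).symm
  have h1 := C_mul hc (hxp.coprime hw')
  have h2 : n ∣ cs (x * w) := by
    rw [← hx]; exact cs_dvd_of_C_le (by rw [h1]; exact inf_le_left)
  have h3 : cs (x * w) ≠ m := fun h => H.not_dvd (h ▸ h2)
  have h4 : cs (x * w) ≤ n := H.sec _ (lt_of_le_of_ne (H.top _) h3)
  have h5 : cs (x * w) = n := le_antisymm h4 (Nat.le_of_dvd (cs_pos _) h2)
  have h6 : C x ≤ C w := by
    have h7 : C (x * w) = C x := by
      apply eq_of_le_of_card_ge
      · rw [h1]; exact inf_le_left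
      · have e1 := Subgroup.card_mul_index (C (x * w))
        have e2 := Subgroup.card_mul_index (C x)
        have e3 : (C (x * w)).index = n := h5
        have e4 : (C x).index = n := hx
        rw [e3, ← e2, e4] at e1
        exact (Nat.eq_of_mul_eq_mul_right (by have := H.n1; omega) e1).ge
    rw [← h7, h1]
    exact inf_le_right
  apply H.central_of_coprime _ hw'
  have h8 : cs w ∣ n := by rw [← hx]; exact cs_dvd_of_C_le h6
  exact H.cop.symm.coprime_dvd_left h8

/-- reduction to a `π`-element -/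
theorem ex_pi {x : G} (hx : cs x = n) : ∃ x' : G, cs x' = n ∧ Pi m x' ∧ C x' = C x := by
  obtain ⟨a, b, hab, hc, ha, hb, hag, hbg⟩ := decomp m x
  have h1 := C_mul hc (ha.coprime hb)
  rw [← hab] at h1
  have h2 : b ∈ center G := by
    apply H.central_of_coprime _ hb
    have h3 : cs b ∣ n := by rw [← hx]; exact cs_dvd_of_C_le (by rw [h1]; exact inf_le_right)
    exact H.cop.symm.coprime_dvd_left h3
  have h3 : C b = ⊤ := by
    rw [eq_top_iff]
    intro t _
    exact mem_C.2 (mem_center_iff.1 h2 t)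
  rw [h3, inf_top_eq] at h1
  refine ⟨a, ?_, ha, h1.symm⟩
  change (C a).index = n
  rw [← h1]; exact hx

/-- Step 5 -/
theorem step5 {g : G} (h1 : (cs g).Coprime n) (h2 : cs g ≠ m) : g ∈ center G := by
  obtain ⟨x, hx⟩ := H.ex
  have hcop : (cs g).Coprime (cs x) := by rw [hx]; exact h1
  have hle : cs (g * x) ≤ cs x := by
    rw [hx]
    apply H.sec
    apply lt_of_le_of_ne (H.top _)
    intro h3
    have h4 : cs (g * x) ∣ cs g * cs x := by
      have h5 := HallConverse.index_inf_of_coprime hcop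
      rw [← h5]
      apply index_dvd_of_le
      rintro t ⟨ht1, ht2⟩
      have e1 := mem_C.1 ht1
      have e2 := mem_C.1 ht2
      exact mem_C.2 (by rw [← mul_assoc, e1, mul_assoc, e2, mul_assoc])
    rw [h3, hx] at h4
    have h5 := H.cop.dvd_of_dvd_mul_right h4
    exact h2 (le_antisymm (H.top _) (Nat.le_of_dvd (cs_pos _) h5))
  have hsm := fun ν (hν : ν ∈ N g) w hw => N_smul hcop hle hν w hw
  have h3 : Nat.card (N g) ∣ n := by rw [← hx]; exact card_dvd_of_smul hsm
  have hxm : (cs x).Coprime m := by rw [hx]; exact H.cop.symm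
  have h4 : N g ≤ N x := by
    intro ν hν
    obtain ⟨t, ht⟩ := hsm ν hν x (self_cls x)
    have h5 : ν = t * x * t⁻¹ * x⁻¹ := by rw [← ht]; group
    have h6 := (N_normal x).conj_mem _ (gen_mem_N x t) x
    have h7 : x * (x⁻¹ * (t * x * t⁻¹)) * x⁻¹ = ν := by rw [h5]; group
    rwa [h7] at h6
  have h5 : Nat.card (N g) ∣ m := (Subgroup.card_dvd_of_le h4).trans (H.card_N_dvd hxm)
  have h6 : Nat.card (N g) = 1 := Nat.eq_one_of_dvd_coprimes H.cop h5 h3
  rw [card_eq_one] at h6
  rw [mem_center_iff]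
  intro t
  have h7 := gen_mem_N g t
  rw [h6, mem_bot] at h7
  calc t * g = g * (g⁻¹ * (t * g * t⁻¹)) * t := by group
    _ = g * t := by rw [h7, mul_one]

theorem index_center_x {x : G} (hx : cs x = n) : (center G).index = n * (center G).relIndex (C x) := by
  have := relIndex_mul_index (center_le_C x)
  have h : (C x).index = n := hx
  rw [h] at this
  rw [← this, mul_comm]

theorem index_center_y {y : G} (hy : cs y = m) : (center G).index = m * (center G).relIndex (C y) := by
  have := relIndex_mul_index (center_le_C y)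
  have h : (C y).index = m := hy
  rw [h] at this
  rw [← this, mul_comm]

theorem C_le_of_cs {u w : G} (hu : cs u = m) (hc : u * w = w * u) (hcop : (orderOf u).Coprime (orderOf w)) :
    C u ≤ C w := by
  have h1 := C_mul hc hcop
  have h2 : m ∣ cs (u * w) := by
    rw [← hu]; exact cs_dvd_of_C_le (by rw [h1]; exact inf_le_left)
  have h3 : cs (u * w) = m := le_antisymm (H.top _) (Nat.le_of_dvd (cs_pos _) h2)
  have h7 : C (u * w) = C u := by
    apply eq_of_le_of_card_ge
    · rw [h1]; exact inf_le_left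
    · have e1 := Subgroup.card_mul_index (C (u * w))
      have e2 := Subgroup.card_mul_index (C u)
      have e3 : (C (u * w)).index = m := h3
      have e4 : (C u).index = m := hu
      rw [e3, ← e2, e4] at e1
      exact (Nat.eq_of_mul_eq_mul_right (by have := H.n1; have := H.mn; omega) e1).ge
  rw [← h7, h1]
  exact inf_le_right

/-- Step 6 -/
theorem step6 {p : ℕ} (hp : p.Prime) (hpm : p ∣ m) {u : G} {k : ℕ} (hu : orderOf u = p ^ k) : cs u ≠ m := by
  intro hum
  have : Fact p.Prime := ⟨hp⟩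
  obtain ⟨x0, hx0⟩ := H.ex
  obtain ⟨x, hx, hxp, -⟩ := H.ex_pi hx0
  have hpn : ¬ p ∣ n := by
    intro h
    have := Nat.eq_one_of_dvd_coprimes H.cop hpm h
    exact hp.one_lt.ne' this
  -- a conjugate of `x` commutes with `u`
  have hPG : IsPGroup p (zpowers u) := by
    apply IsPGroup.of_card (n := k)
    rw [Nat.card_zpowers, hu]
  obtain ⟨q, hq⟩ := hPG.nonempty_fixed_point_of_prime_not_dvd_card (α := G ⧸ C x) (by
    have : Nat.card (G ⧸ C x) = n := hx
    rw [this]; exact hpn)
  obtain ⟨t, rfl⟩ := QuotientGroup.mk_surjective q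
  have h1 := hq ⟨u, mem_zpowers u⟩
  have h2 : (QuotientGroup.mk (u * t) : G ⧸ C x) = QuotientGroup.mk t := h1
  rw [QuotientGroup.eq, mem_C] at h2
  have h3 : u ∈ C (t * x * t⁻¹) := by
    rw [mem_C]
    have h4 : x * ((u * t)⁻¹ * t) = ((u * t)⁻¹ * t) * x := h2.symm
    have h5 : t⁻¹ * u * t * x = x * (t⁻¹ * u * t) := by
      have e1 : (u * t)⁻¹ * t = (t⁻¹ * u * t)⁻¹ := by group
      rw [e1] at h4
      calc t⁻¹ * u * t * x = (t⁻¹ * u * t) * (x * (t⁻¹ * u * t)⁻¹) * (t⁻¹ * u * t) := by group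
        _ = (t⁻¹ * u * t) * ((t⁻¹ * u * t)⁻¹ * x) * (t⁻¹ * u * t) := by rw [h4]
        _ = _ := by group
    calc u * (t * x * t⁻¹) = t * (t⁻¹ * u * t * x) * t⁻¹ := by group
      _ = t * (x * (t⁻¹ * u * t)) * t⁻¹ := by rw [h5]
      _ = _ := by group
  have hx' : cs (t * x * t⁻¹) = n := by rw [cs_conj]; exact hx
  have hxp' : Pi m (t * x * t⁻¹) := hxp.conj t
  have hxu : t * x * t⁻¹ ∈ C u := mem_C.2 (mem_C.1 h3).symm
  have key : ∀ w ∈ C u, Pi' m w → w ∈ center G := by
    intro w hw hw'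
    have hcop : (orderOf u).Coprime (orderOf w) := by
      rw [hu]
      apply Nat.Coprime.pow_left
      exact (hw'.coprime_dvd_right hpm).symm
    have h4 := H.C_le_of_cs hum (mem_C.1 hw).symm hcop
    have h5 := h4 hxu
    exact H.step4 hx' hxp' (mem_C.2 (mem_C.1 h5).symm) hw'
  obtain ⟨q, hq, hqn⟩ := Nat.exists_prime_and_dvd (show n ≠ 1 by have := H.n1; omega)
  have hqm : q.Coprime m := H.cop.symm.coprime_dvd_left hqn
  have : Fact q.Prime := ⟨hq⟩
  have h6 : ¬ q ∣ (center G).relIndex (C u) := by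
    apply not_dvd_relIndex
    rintro w hw ⟨k, hk⟩
    apply key w hw
    unfold Pi'
    rw [hk]
    exact hqm.pow_left k
  have h7 := H.index_center_x hx
  have h8 := H.index_center_y hum
  rw [h7] at h8
  have h9 : q ∣ m * (center G).relIndex (C u) := by
    rw [← h8]; exact hqn.mul_right _
  rcases hq.dvd_mul.1 h9 with h | h
  · have := Nat.eq_one_of_dvd_coprimes hqm dvd_rfl h
    exact hq.one_lt.ne' this
  · exact h6 h

/-- Step 6' -/
theorem step6' {a : G} (ha : Pi m a) (hd : cs a ∣ m) : a ∈ center G := by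
  apply mem_of_parts
  intro p hp hpd
  have h1 := orderOf_part hp hpd
  have h2 : C a ≤ C (a ^ (ordCompl[p] (orderOf a))) := by
    intro t ht
    exact zpowers_le_C (Subgroup.pow_mem _ (mem_zpowers a) _) ht
  have h3 : cs (a ^ (ordCompl[p] (orderOf a))) ∣ m := (cs_dvd_of_C_le h2).trans hd
  exact H.step5 (H.cop.coprime_dvd_left h3) (H.step6 hp (ha p hp hpd) h1)

/-- Step 7 -/
theorem step7 {h : G} (h1 : cs h = m) (h2 : Pi' m h) {u : G} (hu : u ∈ C h) (hup : Pi m u) : u ∈ center G := by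
  have h3 := H.C_le_of_cs h1 (mem_C.1 hu).symm (hup.coprime h2).symm
  apply H.step6' hup
  rw [← h1]
  exact cs_dvd_of_C_le h3

end Hyp

end Cfsg.Agent.Lib.TwoCls
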