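import Mathlib
import Cfsg.Agent.Lib.TwoCls3

/-!
Groups whose two largest class sizes are coprime, part 4 (helper60): the counting step.
-/

set_option autoImplicit false

namespace Cfsg.Agent.Lib.TwoCls

open Subgroup

variable {G : Type*} [Group G]

/-- the orbit of `g` under a subgroup -/
def orb (H : Subgroup G) (g : G) : Set G := {h | ∃ t ∈ H, h = t * g * t⁻¹}

theorem card_orb (H : Subgroup G) (g : G) : Nat.card (orb H g) = (C g).relIndex H := by
  apply Eq.symm
  apply Nat.card_congr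
  refine Equiv.ofBijective (fun q : H ⧸ (C g).subgroupOf H =>
    Quotient.liftOn' q (fun t => (⟨t * g * (t : G)⁻¹, t, t.2, rfl⟩ : orb H g)) ?_) ?_
  · intro a b hab
    rw [QuotientGroup.leftRel_apply, mem_subgroupOf, mem_C] at hab
    have hab' : (a : G)⁻¹ * b * g = g * ((a : G)⁻¹ * b) := hab
    apply Subtype.ext
    change (a : G) * g * (a : G)⁻¹ = b * g * (b : G)⁻¹
    calc (a : G) * g * (a : G)⁻¹ = a * (g * ((a : G)⁻¹ * b)) * (b : G)⁻¹ := by group
      _ = a * ((a : G)⁻¹ * b * g) * (b : G)⁻¹ := by rw [hab']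
      _ = b * g * (b : G)⁻¹ := by group
  · constructor
    · intro a b
      refine Quotient.inductionOn₂' a b ?_
      intro s t hst
      have h1 : (s : G) * g * (s : G)⁻¹ = t * g * (t : G)⁻¹ := congrArg Subtype.val hst
      apply Quotient.sound'
      rw [QuotientGroup.leftRel_apply, mem_subgroupOf, mem_C]
      change (s : G)⁻¹ * t * g = g * ((s : G)⁻¹ * t)
      calc (s : G)⁻¹ * t * g = (s : G)⁻¹ * (t * g * (t : G)⁻¹) * t := by group
        _ = (s : G)⁻¹ * (s * g * (s : G)⁻¹) * t := by rw [h1]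
        _ = g * ((s : G)⁻¹ * t) := by group
    · rintro ⟨_, t, ht, rfl⟩
      exact ⟨QuotientGroup.mk ⟨t, ht⟩, rfl⟩

theorem card_inf_mul [Finite G] (H K : Subgroup G) : Nat.card ↥(H ⊓ K) * H.relIndex K = Nat.card K := by
  have h1 := relIndex_mul_relIndex ⊥ (H ⊓ K) K bot_le inf_le_right
  rwa [relIndex_bot_left, relIndex_bot_left, inf_relIndex_right] at h1

variable [Finite G] {m n : ℕ}

namespace Hyp

variable (H : Hyp G m n)

include H

theorem A_comm {x : G} (hx : (cs x).Coprime m) {a b : G} (ha : a ∈ normalClosure ({x} : Set G))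
    (hb : b ∈ normalClosure ({x} : Set G)) : a * b = b * a := by
  have h0 : ∀ u ∈ Group.conjugatesOfSet ({x} : Set G), ∃ t, u = t * x * t⁻¹ := by
    intro u hu
    obtain ⟨v, hv, huv⟩ := Group.mem_conjugatesOfSet_iff.1 hu
    rw [Set.mem_singleton_iff] at hv
    subst hv
    obtain ⟨t, ht⟩ := isConj_iff.1 huv
    exact ⟨t, ht.symm⟩
  have h1 : ∀ u ∈ Group.conjugatesOfSet ({x} : Set G), ∀ v ∈ Group.conjugatesOfSet ({x} : Set G), u * v = v * u := by
    intro u hu v hv
    obtain ⟨s, rfl⟩ := h0 u hu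
    obtain ⟨t, rfl⟩ := h0 v hv
    have h2 := H.conj_comm hx (s⁻¹ * t)
    calc s * x * s⁻¹ * (t * x * t⁻¹) = s * (x * ((s⁻¹ * t) * x * (s⁻¹ * t)⁻¹)) * s⁻¹ := by group
      _ = s * (((s⁻¹ * t) * x * (s⁻¹ * t)⁻¹) * x) * s⁻¹ := by rw [h2]
      _ = _ := by group
  have h2 : normalClosure ({x} : Set G) ≤ centralizer (Group.conjugatesOfSet ({x} : Set G)) := by
    rw [normalClosure, closure_le]
    intro u hu
    rw [SetLike.mem_coe, mem_centralizer_iff]
    intro v hv
    exact h1 v hv u hu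
  have h3 : normalClosure ({x} : Set G) ≤ centralizer (normalClosure ({x} : Set G) : Set G) := by
    rw [normalClosure, closure_le]
    intro u hu
    rw [SetLike.mem_coe, mem_centralizer_iff]
    intro v hv
    exact (mem_centralizer_iff.1 (h2 hv) u hu).symm
  exact (mem_centralizer_iff.1 (h3 hb) a ha)

theorem A_pow {x : G} (hx : (cs x).Coprime m) {a : G} (ha : a ∈ normalClosure ({x} : Set G)) :
    a ^ orderOf x = 1 := by
  have ha' := ha
  rw [normalClosure] at ha
  induction ha using closure_induction with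
  | mem u hu =>
    obtain ⟨v, hv, huv⟩ := Group.mem_conjugatesOfSet_iff.1 hu
    rw [Set.mem_singleton_iff] at hv
    subst hv
    obtain ⟨t, rfl⟩ := isConj_iff.1 huv
    rw [← orderOf_conj' v t, pow_orderOf_eq_one]
  | one => exact one_pow _
  | mul u v hu hv ihu ihv =>
    have hc : Commute u v := H.A_comm hx hu hv
    rw [hc.mul_pow, ihu hu, ihv hv, one_mul]
  | inv u hu ihu => rw [inv_pow, ihu hu, inv_one]

/-- Step 8 -/
theorem step8 {g : G} (hg : Pi' m g) (hgz : g ∉ center G) : cs g = m := by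
  by_contra hne
  have hnc : ¬ (cs g).Coprime n := fun h => hgz (H.step5 h hne)
  obtain ⟨x0, hx0⟩ := H.ex
  obtain ⟨x, hx, hxp, -⟩ := H.ex_pi hx0
  have hxm : (cs x).Coprime m := by rw [hx]; exact H.cop.symm
  set A := normalClosure ({x} : Set G) with hA
  have hxA : x ∈ A := subset_normalClosure (Set.mem_singleton x)
  have hcomm : ∀ a ∈ A, ∀ b ∈ A, a * b = b * a := fun a ha b hb => H.A_comm hxm ha hb
  have hcj : ∀ a ∈ A, ∀ t : G, t * a * t⁻¹ ∈ A := fun a ha t => (inferInstance : A.Normal).conj_mem a ha t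
  -- the commutator set
  let N₂ : Set G := {w | ∃ ν ∈ A, w = ν * (g * ν⁻¹ * g⁻¹)}
  have hN₂mul : ∀ u ∈ N₂, ∀ v ∈ N₂, u * v ∈ N₂ := by
    rintro _ ⟨ν, hν, rfl⟩ _ ⟨μ, hμ, rfl⟩
    refine ⟨ν * μ, mul_mem hν hμ, ?_⟩
    have h1 := hcomm _ (hcj _ (inv_mem hν) g) _ (mul_mem hμ (hcj _ (inv_mem hμ) g))
    calc ν * (g * ν⁻¹ * g⁻¹) * (μ * (g * μ⁻¹ * g⁻¹)) = ν * ((g * ν⁻¹ * g⁻¹) * (μ * (g * μ⁻¹ * g⁻¹))) := by group
      _ = ν * ((μ * (g * μ⁻¹ * g⁻¹)) * (g * ν⁻¹ * g⁻¹)) := by rw [h1]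
      _ = _ := by group
  -- the partial norms
  let P : ℕ → G := fun j => Nat.rec 1 (fun _ w => x * (g * w * g⁻¹)) j
  have hP0 : P 0 = 1 := rfl
  have hPs : ∀ j, P (j + 1) = x * (g * P j * g⁻¹) := fun j => rfl
  have hPA : ∀ j, P j ∈ A := by
    intro j
    induction j with
    | zero => rw [hP0]; exact one_mem _
    | succ j ih => rw [hPs]; exact mul_mem hxA (hcj _ ih g)
  have hPN : ∀ j, x ^ j * (P j)⁻¹ ∈ N₂ := by
    intro j
    induction j with
    | zero => exact ⟨1, one_mem _, by rw [hP0]; group⟩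
    | succ j ih =>
      have h1 : x ^ (j + 1) * (P (j + 1))⁻¹ = (x ^ j * (P j)⁻¹) * (P j * (g * (P j)⁻¹ * g⁻¹)) := by
        have h2 := hcomm x hxA _ (inv_mem (hcj _ (hPA j) g))
        calc x ^ (j + 1) * (P (j + 1))⁻¹ = x ^ j * (x * (g * P j * g⁻¹)⁻¹ * x⁻¹) := by
              rw [hPs, mul_inv_rev, pow_succ]; group
          _ = x ^ j * ((g * P j * g⁻¹)⁻¹ * x * x⁻¹) := by rw [h2]
          _ = _ := by group
      rw [h1]
      exact hN₂mul _ ih _ ⟨P j, hPA j, rfl⟩
  have hP' : ∀ j, P (j + 1) = P j * (g ^ j * x * (g ^ j)⁻¹) := by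
    intro j
    induction j with
    | zero => rw [hPs, hP0]; group
    | succ j ih =>
      rw [hPs (j + 1)]
      nth_rewrite 1 [ih]
      rw [hPs j, pow_succ']
      group
  have hPk : g * P (orderOf g) * g⁻¹ = P (orderOf g) := by
    have h1 := hP' (orderOf g)
    rw [pow_orderOf_eq_one, hPs] at h1
    have h2 := hcomm _ (hPA (orderOf g)) _ hxA
    have h3 : x * (g * P (orderOf g) * g⁻¹) = x * P (orderOf g) := by
      rw [h1, ← h2]; group
    exact mul_left_cancel h3
  set a := P (orderOf g) with ha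
  have haA : a ∈ A := hPA _
  have hag : a * g = g * a := by
    calc a * g = (g * a * g⁻¹) * g := by rw [hPk]
      _ = g * a := by group
  set b := x ^ orderOf g * a⁻¹ with hb
  have hbN : b ∈ N₂ := hPN _
  have hxab : x ^ orderOf g = b * a := by rw [hb]; group
  have hkx : (orderOf g).Coprime (orderOf x) := (hxp.coprime hg).symm
  obtain ⟨l, hl⟩ := exists_pow_eq_self_of_coprime hkx
  have hCx : ∀ t, t ∈ C (x ^ orderOf g) → t ∈ C x := by
    intro t ht
    apply zpowers_le_C _ ht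
    rw [← hl]
    exact Subgroup.pow_mem _ (by rw [hl]; exact mem_zpowers _) _
  have hb1 : b ≠ 1 := by
    intro h
    rw [h, one_mul] at hxab
    apply hgz
    apply H.step4 hx hxp _ hg
    apply hCx
    rw [hxab, mem_C]
    exact hag.symm
  have hapow : a ^ orderOf x = 1 := H.A_pow hxm haA
  have hap : Pi m a := fun p hp hd => hxp p hp (hd.trans (orderOf_dvd_of_pow_eq_one hapow))
  have hCag := C_mul hag (hap.coprime hg)
  have hcsag : cs (a * g) ≤ n := by
    apply H.sec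
    apply lt_of_le_of_ne (H.top _)
    intro h
    apply hnc
    apply H.cop.coprime_dvd_left
    rw [← h]
    exact cs_dvd_of_C_le (by rw [hCag]; exact inf_le_right)
  -- the counting
  have hR : Nat.card (C x) ≤ Nat.card ↥(C a ⊓ C g) := by
    rw [← hCag]
    have e1 := Subgroup.card_mul_index (C (a * g))
    have e2 := Subgroup.card_mul_index (C x)
    have e4 : (C x).index = n := hx
    rw [e4] at e2
    by_contra hlt
    push Not at hlt
    have h1 : Nat.card (C (a * g)) * (C (a * g)).index ≤ Nat.card (C (a * g)) * n := Nat.mul_le_mul_left _ hcsag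
    have h2 : Nat.card (C (a * g)) * n < Nat.card (C x) * n :=
      Nat.mul_lt_mul_of_pos_right hlt (by have := H.n1; omega)
    omega
  have hN₂1 : Nat.card N₂ ≤ (C g).relIndex (C x) := by
    rw [← card_orb]
    have hf : ∀ w ∈ N₂, w * g ∈ orb (C x) g := by
      rintro _ ⟨ν, hν, rfl⟩
      exact ⟨ν, mem_C.2 (hcomm ν hν x hxA), by group⟩
    apply Nat.card_le_card_of_injective (fun w : N₂ => (⟨w * g, hf w w.2⟩ : orb (C x) g))
    intro u v huv
    have : (u : G) * g = v * g := congrArg Subtype.val huv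
    exact Subtype.ext (mul_right_cancel this)
  have hN₂2 : (C b).relIndex (C a ⊓ C g) + 1 ≤ Nat.card N₂ := by
    rw [← card_orb]
    have hsub : insert 1 (orb (C a ⊓ C g) b) ⊆ N₂ := by
      rintro w (rfl | ⟨t, ht, rfl⟩)
      · exact ⟨1, one_mem _, by group⟩
      · obtain ⟨ν, hν, hbν⟩ := hbN
        refine ⟨t * ν * t⁻¹, hcj ν hν t, ?_⟩
        have htg := mem_C.1 ht.2
        have h1 : t⁻¹ * g = g * t⁻¹ := by
          calc t⁻¹ * g = t⁻¹ * (g * t) * t⁻¹ := by group
            _ = t⁻¹ * (t * g) * t⁻¹ := by rw [htg]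
            _ = g * t⁻¹ := by group
        have h2 : g⁻¹ * t = t * g⁻¹ := by
          calc g⁻¹ * t = g⁻¹ * (t * g) * g⁻¹ := by group
            _ = g⁻¹ * (g * t) * g⁻¹ := by rw [htg]
            _ = t * g⁻¹ := by group
        calc t * b * t⁻¹ = t * ν * g * ν⁻¹ * (g⁻¹ * t⁻¹) := by rw [hbν]; group
          _ = t * ν * g * ν⁻¹ * (t * g)⁻¹ := by group
          _ = t * ν * g * ν⁻¹ * (g * t)⁻¹ := by rw [htg]
          _ = t * ν * g * ν⁻¹ * t⁻¹ * g⁻¹ := by group
          _ = t * ν * t⁻¹ * (t * g) * ν⁻¹ * t⁻¹ * g⁻¹ := by group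
          _ = t * ν * t⁻¹ * (g * t) * ν⁻¹ * t⁻¹ * g⁻¹ := by rw [htg]
          _ = _ := by group
    have hnot : (1 : G) ∉ orb (C a ⊓ C g) b := by
      rintro ⟨t, -, h⟩
      apply hb1
      calc b = t⁻¹ * (t * b * t⁻¹) * t := by group
        _ = 1 := by rw [← h]; group
    have h3 := Set.ncard_le_ncard hsub (Set.toFinite _)
    rw [Set.ncard_insert_of_notMem hnot (Set.toFinite _)] at h3
    exact h3
  have hI : C b ⊓ (C a ⊓ C g) ≤ C g ⊓ C x := by
    rintro t ⟨ht1, ht2, ht3⟩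
    refine ⟨ht3, hCx t ?_⟩
    have e1 := mem_C.1 ht1
    have e2 := mem_C.1 ht2
    rw [hxab, mem_C]
    calc t * (b * a) = (t * b) * a := by group
      _ = b * (t * a) := by rw [e1]; group
      _ = b * (a * t) := by rw [e2]
      _ = b * a * t := by group
  have hI' := Nat.card_le_card_of_injective _ (Subgroup.inclusion_injective hI)
  have e1 := card_inf_mul (C b) (C a ⊓ C g)
  have e2 := card_inf_mul (C g) (C x)
  have hpos : 0 < Nat.card ↥(C g ⊓ C x) := Nat.card_pos
  have h5 : Nat.card ↥(C a ⊓ C g) < Nat.card (C x) := by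
    calc Nat.card ↥(C a ⊓ C g) = Nat.card ↥(C b ⊓ (C a ⊓ C g)) * (C b).relIndex (C a ⊓ C g) := e1.symm
      _ ≤ Nat.card ↥(C g ⊓ C x) * (C b).relIndex (C a ⊓ C g) := Nat.mul_le_mul_right _ hI'
      _ < Nat.card ↥(C g ⊓ C x) * (C g).relIndex (C x) := Nat.mul_lt_mul_of_pos_left (by omega) hpos
      _ = Nat.card (C x) := e2
  omega

end Hyp

end Cfsg.Agent.Lib.TwoCls
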