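import Mathlib
import Cfsg.Agent.Lib.TwoCls4

/-!
Groups whose two largest class sizes are coprime, part 5 (helper60): structure of the centralizers.
-/

set_option autoImplicit false

namespace Cfsg.Agent.Lib.TwoCls

open Subgroup

variable {G : Type*} [Group G] [Finite G] {m n : ℕ}

namespace Hyp

variable (H : Hyp G m n)

include H

theorem prime_of_n {q : ℕ} (hqn : q ∣ n) : q.Coprime m := H.cop.symm.coprime_dvd_left hqn

/-- Step 9 -/
theorem step9 {u : G} (hu : Pi m u) (huz : u ∉ center G) : cs u = n := by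
  have key : ∀ w ∈ C u, Pi' m w → w ∈ center G := by
    intro w hw hw'
    by_contra hwz
    have h1 := H.step8 hw' hwz
    exact huz (H.step7 h1 hw' (mem_C.2 (mem_C.1 hw).symm) hu)
  have h1 : ((center G).relIndex (C u)).Coprime n := by
    rw [Nat.coprime_iff_gcd_eq_one]
    by_contra h
    obtain ⟨q, hq, hqd⟩ := Nat.exists_prime_and_dvd h
    have : Fact q.Prime := ⟨hq⟩
    have h2 := hqd.trans (Nat.gcd_dvd_right _ _)
    have h3 : ¬ q ∣ (center G).relIndex (C u) := by
      apply not_dvd_relIndex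
      rintro w hw ⟨k, hk⟩
      apply key w hw
      unfold Pi'
      rw [hk]
      exact (H.prime_of_n h2).pow_left k
    exact h3 (hqd.trans (Nat.gcd_dvd_left _ _))
  obtain ⟨x, hx⟩ := H.ex
  have h2 := H.index_center_x hx
  have h3 := relIndex_mul_index (center_le_C u)
  rw [h2] at h3
  have h4 : n ∣ (center G).relIndex (C u) * cs u := ⟨_, h3⟩
  have h5 : n ∣ cs u := h1.symm.dvd_of_dvd_mul_left h4
  have h6 : cs u ≠ m := fun h => H.not_dvd (h ▸ h5)
  exact le_antisymm (H.sec _ (lt_of_le_of_ne (H.top _) h6)) (Nat.le_of_dvd (cs_pos _) h5)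

/-- Step 10 -/
theorem step10 {u v : G} (hu : Pi m u) (hv : Pi m v) : u * v = v * u := by
  by_cases huz : u ∈ center G
  · exact (mem_center_iff.1 huz v).symm
  by_cases hvz : v ∈ center G
  · exact mem_center_iff.1 hvz u
  have h1 := H.step9 hu huz
  have h2 := H.step9 hv hvz
  have hvm : (cs v).Coprime m := by rw [h2]; exact H.cop.symm
  have h3 : (Nat.card (normalClosure ({v} : Set G))).Coprime (cs u) := by
    rw [h1, Nat.coprime_iff_gcd_eq_one]
    by_contra h
    obtain ⟨q, hq, hqd⟩ := Nat.exists_prime_and_dvd h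
    have : Fact q.Prime := ⟨hq⟩
    obtain ⟨a, ha⟩ := exists_prime_orderOf_dvd_card' (G := normalClosure ({v} : Set G)) q (hqd.trans (Nat.gcd_dvd_left _ _))
    have h4 := H.A_pow hvm a.2
    have h5 := orderOf_dvd_of_pow_eq_one h4
    rw [Subgroup.orderOf_coe, ha] at h5
    have h6 := hv q hq h5
    have h7 := Nat.eq_one_of_dvd_coprimes H.cop h6 (hqd.trans (Nat.gcd_dvd_right _ _))
    exact hq.one_lt.ne' h7
  have h4 := le_C_of_coprime (normalClosure ({v} : Set G)) h3 (subset_normalClosure (Set.mem_singleton v))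
  exact (mem_C.1 h4).symm

/-- the elements of `K₀` -/
theorem mem_Cx {x : G} (hx : cs x = n) (w : G) : w ∈ C x ↔ ∃ a b, w = a * b ∧ Pi m a ∧ b ∈ center G := by
  obtain ⟨x', hx', hxp, hC⟩ := H.ex_pi hx
  rw [← hC]
  constructor
  · intro hw
    obtain ⟨a, b, hab, hc, ha, hb, haw, hbw⟩ := decomp m w
    refine ⟨a, b, hab, ha, ?_⟩
    apply H.step4 hx' hxp _ hb
    have h1 : zpowers w ≤ C x' := by rw [zpowers_le]; exact hw
    exact h1 hbw
  · rintro ⟨a, b, rfl, ha, hb⟩
    exact mul_mem (mem_C.2 (H.step10 ha hxp)) (center_le_C _ hb)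

theorem Cx_comm {x : G} (hx : cs x = n) {u v : G} (hu : u ∈ C x) (hv : v ∈ C x) : u * v = v * u := by
  obtain ⟨a, b, rfl, ha, hb⟩ := (H.mem_Cx hx u).1 hu
  obtain ⟨c, d, rfl, hc, hd⟩ := (H.mem_Cx hx v).1 hv
  have h1 := H.step10 ha hc
  have h2 := fun g => mem_center_iff.1 hb g
  have h3 := fun g => mem_center_iff.1 hd g
  calc a * b * (c * d) = a * (b * (c * d)) := by group
    _ = a * ((c * d) * b) := by rw [h2]
    _ = (a * c) * d * b := by group
    _ = (c * a) * d * b := by rw [h1]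
    _ = c * (a * d) * b := by group
    _ = c * (d * a) * b := by rw [h3]
    _ = _ := by group

theorem Cx_normal {x : G} (hx : cs x = n) : (C x).Normal := by
  refine ⟨?_⟩
  intro w hw g
  rw [H.mem_Cx hx] at hw ⊢
  obtain ⟨a, b, rfl, ha, hb⟩ := hw
  refine ⟨g * a * g⁻¹, b, ?_, ha.conj g, hb⟩
  have h2 := mem_center_iff.1 hb g⁻¹
  calc g * (a * b) * g⁻¹ = g * a * (b * g⁻¹) := by group
    _ = g * a * (g⁻¹ * b) := by rw [h2]
    _ = _ := by group

theorem relIndex_x_coprime {x : G} (hx : cs x = n) {q : ℕ} (hq : q.Prime) (hd : q ∣ (center G).relIndex (C x)) : q ∣ m := by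
  by_contra hqm
  have : Fact q.Prime := ⟨hq⟩
  have h1 : ¬ q ∣ (center G).relIndex (C x) := by
    apply not_dvd_relIndex
    rintro w hw ⟨k, hk⟩
    obtain ⟨x', hx', hxp, hC⟩ := H.ex_pi hx
    rw [← hC] at hw
    apply H.step4 hx' hxp hw
    unfold Pi'
    rw [hk]
    exact ((hq.coprime_iff_not_dvd).2 hqm).pow_left k
  exact h1 hd

theorem relIndex_y_coprime {c : G} (hc : cs c = m) (hc' : Pi' m c) : ((center G).relIndex (C c)).Coprime m := by
  rw [Nat.coprime_iff_gcd_eq_one]
  by_contra h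
  obtain ⟨q, hq, hqd⟩ := Nat.exists_prime_and_dvd h
  have : Fact q.Prime := ⟨hq⟩
  have h2 := hqd.trans (Nat.gcd_dvd_right _ _)
  have h3 : ¬ q ∣ (center G).relIndex (C c) := by
    apply not_dvd_relIndex
    rintro w hw ⟨k, hk⟩
    apply H.step7 hc hc' hw
    intro p hp hpd
    rw [hk] at hpd
    rw [(Nat.prime_dvd_prime_iff_eq hp hq).1 (hp.dvd_of_dvd_pow hpd)]
    exact h2
  exact h3 (hqd.trans (Nat.gcd_dvd_left _ _))

/-- Step 11: orders -/
theorem orders {x c : G} (hx : cs x = n) (hc : cs c = m) (hc' : Pi' m c) :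
    (center G).relIndex (C x) = m ∧ (center G).relIndex (C c) = n := by
  have h1 := H.index_center_x hx
  have h2 := H.index_center_y hc
  have h3 := fun (q : ℕ) (hq : q.Prime) => H.relIndex_x_coprime hx hq
  have h4 := H.relIndex_y_coprime hc hc'
  rw [h1] at h2
  set k := (center G).relIndex (C x)
  set l := (center G).relIndex (C c)
  have h5 : k.Coprime l := coprime_of_pi h3 h4
  have h6 : n ∣ l := H.cop.symm.dvd_of_dvd_mul_left (show n ∣ m * l from ⟨k, h2.symm⟩)
  have h7 : l ∣ n := h5.symm.dvd_of_dvd_mul_right (show l ∣ n * k by rw [h2]; exact dvd_mul_left _ _)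
  have h8 : l = n := Nat.dvd_antisymm h7 h6
  refine ⟨?_, h8⟩
  rw [h8, mul_comm m n] at h2
  exact Nat.eq_of_mul_eq_mul_left (by have := H.n1; omega) h2

theorem inf_eq {x c : G} (hx : cs x = n) (hc : cs c = m) (hc' : Pi' m c) {w : G} (h1 : w ∈ C x) (h2 : w ∈ C c) :
    w ∈ center G := by
  obtain ⟨a, b, rfl, ha, hb⟩ := (H.mem_Cx hx w).1 h1
  have h3 : a ∈ C c := by
    have h4 := mul_mem h2 (inv_mem (center_le_C c hb))
    rwa [mul_inv_cancel_right] at h4
  exact mul_mem (H.step7 hc hc' h3 ha) hb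

theorem exists_mul {x c : G} (hx : cs x = n) (hc : cs c = m) (g : G) : ∃ s ∈ C c, ∃ k ∈ C x, s * k = g := by
  apply HallConverse.exists_mul_of_coprime_index
  have h1 : (C x).index = n := hx
  have h2 : (C c).index = m := hc
  rw [h1, h2]
  exact H.cop

/-- multiplying a class by a central element -/
theorem zeta_one {c ζ t : G} (hc : cs c = m) (hc' : Pi' m c) (hζ : ζ ∈ center G) (ht : t * c * t⁻¹ = ζ * c) : ζ = 1 := by
  have hcomm := fun g => mem_center_iff.1 hζ g
  have h1 : orderOf ζ ∣ orderOf c := by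
    apply orderOf_dvd_of_pow_eq_one
    have h2 : (ζ * c) ^ orderOf c = 1 := by
      rw [← ht, ← orderOf_conj' c t, pow_orderOf_eq_one]
    have h3 : Commute ζ c := (hcomm c).symm
    rw [h3.mul_pow, pow_orderOf_eq_one, mul_one] at h2
    exact h2
  have h2 : orderOf ζ ∣ m := by
    rw [← hc, ← Nat.card_zpowers]
    apply card_dvd_of_smul
    have h3 : ∀ w ∈ cls c, ζ * w ∈ cls c := by
      rintro _ ⟨s, rfl⟩
      refine ⟨s * t, ?_⟩
      calc ζ * (s * c * s⁻¹) = (ζ * s) * c * s⁻¹ := by group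
        _ = (s * ζ) * c * s⁻¹ := by rw [hcomm s]
        _ = s * (ζ * c) * s⁻¹ := by group
        _ = s * (t * c * t⁻¹) * s⁻¹ := by rw [ht]
        _ = _ := by group
    intro ν hν
    obtain ⟨k, hk⟩ := mem_powers_iff_mem_zpowers.2 hν
    have hk' : ζ ^ k = ν := hk
    rw [← hk']
    clear hk hk' hν
    induction k with
    | zero => intro w hw; rw [pow_zero, one_mul]; exact hw
    | succ k ih => intro w hw; rw [pow_succ, mul_assoc]; exact ih _ (h3 w hw)
  have h3 : orderOf ζ = 1 := Nat.eq_one_of_dvd_coprimes hc' h1 h2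
  exact orderOf_eq_one_iff.1 h3

end Hyp

end Cfsg.Agent.Lib.TwoCls
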