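import Mathlib
import Cfsg.Agent.Lib.TwoCls5
import Cfsg.Agent.Lib.FrobBasic

/-!
Groups whose two largest class sizes are coprime, part 6 (helper60): the Frobenius structure.
-/

set_option autoImplicit false

namespace Cfsg.Agent.Lib.TwoCls

open Subgroup

variable {G : Type*} [Group G] [Finite G] {m n : ℕ}

theorem mk_mem_map {Y : Subgroup G} (hY : center G ≤ Y) (g : G) :
    (QuotientGroup.mk' (center G)) g ∈ Y.map (QuotientGroup.mk' (center G)) ↔ g ∈ Y := by
  constructor
  · rintro ⟨w, hw, hwg⟩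
    have h1 : (QuotientGroup.mk w : G ⧸ center G) = QuotientGroup.mk g := hwg
    rw [QuotientGroup.eq] at h1
    have h2 := mul_mem hw (hY h1)
    rwa [mul_inv_cancel_left] at h2
  · intro h
    exact ⟨g, h, rfl⟩

namespace Hyp

variable (H : Hyp G m n)

include H

theorem Cc_comm {c : G} (hc : cs c = m) (hc' : Pi' m c) {u v : G} (hu : u ∈ C c) (hv : v ∈ C c) : u * v = v * u := by
  obtain ⟨x, hx⟩ := H.ex
  have key : ∀ b ∈ C c, Pi' m b → b * v = v * b := by
    intro b hb hb'
    by_cases hbz : b ∈ center G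
    · exact (mem_center_iff.1 hbz v).symm
    have h1 := H.step8 hb' hbz
    obtain ⟨s, hs, k, hk, hsk⟩ := H.exists_mul hx h1 v
    have hs' := mem_C.1 hs
    have hK : v * b * v⁻¹ * b⁻¹ ∈ C x := by
      have e1 : v * b * v⁻¹ * b⁻¹ = s * (k * (b * k⁻¹ * b⁻¹)) * s⁻¹ := by
        have h2 : s⁻¹ * b⁻¹ = b⁻¹ * s⁻¹ := by
          have := congrArg (fun w => w⁻¹) hs'
          simp only [mul_inv_rev] at this
          exact this.symm
        calc v * b * v⁻¹ * b⁻¹ = s * k * b * k⁻¹ * (s⁻¹ * b⁻¹) := by rw [← hsk]; group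
          _ = s * k * b * k⁻¹ * (b⁻¹ * s⁻¹) := by rw [h2]
          _ = _ := by group
      rw [e1]
      apply (H.Cx_normal hx).conj_mem
      exact mul_mem hk ((H.Cx_normal hx).conj_mem _ (inv_mem hk) b)
    have hY : v * b * v⁻¹ * b⁻¹ ∈ C c :=
      mul_mem (mul_mem (mul_mem hv hb) (inv_mem hv)) (inv_mem hb)
    have hz := H.inf_eq hx hc hc' hK hY
    have h2 : v * b * v⁻¹ = (v * b * v⁻¹ * b⁻¹) * b := by group
    have h3 := H.zeta_one h1 hb' hz h2
    calc b * v = 1 * b * v := by group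
      _ = (v * b * v⁻¹ * b⁻¹) * b * v := by rw [h3]
      _ = v * b := by group
  obtain ⟨a, b, hab, hc2, ha, hb, hau, hbu⟩ := decomp m u
  have hle : zpowers u ≤ C c := by rw [zpowers_le]; exact hu
  have haz := H.step7 hc hc' (hle hau) ha
  have h1 := mem_center_iff.1 haz v
  have h2 := key b (hle hbu) hb
  rw [hab]
  calc a * b * v = a * (b * v) := by group
    _ = (a * v) * b := by rw [h2]; group
    _ = (v * a) * b := by rw [h1]
    _ = v * (a * b) := by group

/-- reduction for `y` -/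
theorem ey_pi {y : G} (hy : cs y = m) : ∃ c : G, cs c = m ∧ Pi' m c ∧ C c = C y := by
  obtain ⟨a, b, hab, hc, ha, hb, hag, hbg⟩ := decomp m y
  have h1 := C_mul hc (ha.coprime hb)
  rw [← hab] at h1
  have h2 : a ∈ center G := by
    apply H.step6' ha
    rw [← hy]; exact cs_dvd_of_C_le (by rw [h1]; exact inf_le_left)
  have h3 : C a = ⊤ := by
    rw [eq_top_iff]
    intro t _
    exact mem_C.2 (mem_center_iff.1 h2 t)
  rw [h3, top_inf_eq] at h1
  refine ⟨b, ?_, hb, h1.symm⟩
  change (C b).index = m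
  rw [← h1]; exact hy

theorem C_eq_of_mem {c : G} (hc : cs c = m) (hc' : Pi' m c) {w : G} (hw : w ∈ C c) (hwz : w ∉ center G) :
    C w = C c := by
  have h1 : C c ≤ C w := fun v hv => mem_C.2 (H.Cc_comm hc hc' hv hw)
  have h2 : cs w ∣ m := by rw [← hc]; exact cs_dvd_of_C_le h1
  have h3 : cs w = m := by
    by_contra h
    exact hwz (H.step5 (H.cop.coprime_dvd_left h2) h)
  apply Eq.symm
  apply eq_of_le_of_card_ge h1
  have e1 := Subgroup.card_mul_index (C w)
  have e2 := Subgroup.card_mul_index (C c)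
  have e3 : (C w).index = m := h3
  have e4 : (C c).index = m := hc
  rw [e3, ← e2, e4] at e1
  exact (Nat.eq_of_mul_eq_mul_right (by have := H.n1; have := H.mn; omega) e1).le

theorem malnormal {c : G} (hc : cs c = m) (hc' : Pi' m c) {g w : G} (hg : g ∉ C c) (hw : w ∈ C c)
    (hgw : g⁻¹ * w * g ∈ C c) : w ∈ center G := by
  by_contra hwz
  apply hg
  obtain ⟨x, hx⟩ := H.ex
  have hwz' : g⁻¹ * w * g ∉ center G := by
    intro h
    apply hwz
    have h1 := mem_center_iff.1 h g
    have : w = g⁻¹ * w * g := by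
      calc w = g * (g⁻¹ * w * g) * g⁻¹ := by group
        _ = (g⁻¹ * w * g) * g * g⁻¹ := by rw [h1]
        _ = _ := by group
    rw [this]; exact h
  have h1 := H.C_eq_of_mem hc hc' hw hwz
  have h2 := H.C_eq_of_mem hc hc' hgw hwz'
  have h3 : ∀ v ∈ C c, g⁻¹ * v * g ∈ C c := by
    intro v hv
    rw [← h1] at hv
    have h4 := C_conj_mem (t := g⁻¹) hv
    rw [inv_inv, h2] at h4
    exact h4
  obtain ⟨s, hs, k, hk, hsk⟩ := H.exists_mul hx hc g
  have h4 : k⁻¹ * c * k ∈ C c := by
    have h5 := h3 (s * c * s⁻¹) (mul_mem (mul_mem hs (mem_C.2 rfl)) (inv_mem hs))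
    have h6 : g⁻¹ * (s * c * s⁻¹) * g = k⁻¹ * c * k := by rw [← hsk]; group
    rwa [h6] at h5
  have h5 : k⁻¹ * c * k * c⁻¹ ∈ C c := mul_mem h4 (inv_mem (mem_C.2 rfl))
  have h6 : k⁻¹ * c * k * c⁻¹ ∈ C x := by
    have : k⁻¹ * c * k * c⁻¹ = k⁻¹ * (c * k * c⁻¹) := by group
    rw [this]
    exact mul_mem (inv_mem hk) ((H.Cx_normal hx).conj_mem _ hk c)
  have h7 := H.inf_eq hx hc hc' h6 h5
  have h8 := H.zeta_one (t := k⁻¹) hc hc' h7 (by group)
  have h9 : k ∈ C c := by
    rw [mem_C]
    calc k * c = k * 1⁻¹ * c := by group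
      _ = k * (k⁻¹ * c * k * c⁻¹)⁻¹ * c := by rw [h8]
      _ = k * c * k⁻¹ * c⁻¹ * k * c := by group
      _ = k * (c * k⁻¹ * c⁻¹ * k) * c := by group
      _ = _ := by
        have h10 : c * k = k * c := by
          calc c * k = k * (k⁻¹ * c * k * c⁻¹) * c := by group
            _ = k * c := by rw [h8, mul_one]
        calc k * (c * k⁻¹ * c⁻¹ * k) * c = k * c * k⁻¹ * c⁻¹ * (k * c) := by group
          _ = k * c * k⁻¹ * c⁻¹ * (c * k) := by rw [h10]
          _ = k * c := by group
          _ = c * k := h10.symm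
  rw [← hsk]
  exact mul_mem hs h9

theorem frob {x y : G} (hx : cs x = n) (hy : cs y = m) :
    Cfsg.IsFrobeniusComplement ((C y).map (QuotientGroup.mk' (center G))) := by
  obtain ⟨c, hc, hc', hC⟩ := H.ey_pi hy
  rw [← hC, FrobBasic.isFrobeniusComplement_iff]
  refine ⟨?_, ?_, ?_⟩
  · intro h
    rw [Subgroup.map_eq_bot_iff, QuotientGroup.ker_mk'] at h
    have h1 := (H.orders hx hc hc').2
    rw [relIndex_eq_one.2 h] at h1
    have := H.n1
    omega
  · intro h
    have h1 : C c = ⊤ := by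
      rw [eq_top_iff]
      intro g _
      rw [← mk_mem_map (center_le_C c), h]
      exact mem_top _
    have h2 : (C c).index = m := hc
    rw [h1, index_top] at h2
    have := H.n1
    have := H.mn
    omega
  · intro g
    obtain ⟨g, rfl⟩ := QuotientGroup.mk'_surjective _ g
    intro hg h hh
    obtain ⟨h, rfl⟩ := QuotientGroup.mk'_surjective _ h
    intro hgh
    rw [mk_mem_map (center_le_C c)] at hg hh
    rw [← map_inv, ← map_mul, ← map_mul, mk_mem_map (center_le_C c)] at hgh
    exact (QuotientGroup.eq_one_iff _).2 (H.malnormal hc hc' hg hh hgh)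

theorem kernel {x y : G} (hx : cs x = n) (hy : cs y = m) :
    Cfsg.frobeniusKernel ((C y).map (QuotientGroup.mk' (center G))) =
      ((C x).map (QuotientGroup.mk' (center G)) : Set (G ⧸ center G)) := by
  have hF := H.frob hx hy
  obtain ⟨c, hc, hc', hC⟩ := H.ey_pi hy
  rw [← hC] at hF ⊢
  apply Eq.symm
  apply Set.eq_of_subset_of_ncard_le _ _ (Set.toFinite _)
  · rintro w hw
    obtain ⟨w, rfl⟩ := QuotientGroup.mk'_surjective _ w
    rw [SetLike.mem_coe, mk_mem_map (center_le_C x)] at hw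
    rw [FrobBasic.mem_frobeniusKernel_iff]
    by_contra hcon
    push Not at hcon
    obtain ⟨h1, g, hg⟩ := hcon
    obtain ⟨g, rfl⟩ := QuotientGroup.mk'_surjective _ g
    rw [← map_inv, ← map_mul, ← map_mul, mk_mem_map (center_le_C c)] at hg
    have h2 : g⁻¹ * w * g ∈ C x := by
      have := (H.Cx_normal hx).conj_mem _ hw g⁻¹
      rwa [inv_inv] at this
    have h3 := H.inf_eq hx hc hc' h2 hg
    apply h1
    apply (QuotientGroup.eq_one_iff _).2
    have h4 := mem_center_iff.1 h3 g
    have : w = g⁻¹ * w * g := by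
      calc w = g * (g⁻¹ * w * g) * g⁻¹ := by group
        _ = (g⁻¹ * w * g) * g * g⁻¹ := by rw [h4]
        _ = _ := by group
    rw [this]; exact h3
  · have h1 := FrobGroup.card_kernel hF
    change (Cfsg.frobeniusKernel _).ncard = _ at h1
    rw [h1]
    have h2 : ((C c).map (QuotientGroup.mk' (center G))).index = (C c).index := by
      rw [index_map, QuotientGroup.ker_mk', sup_eq_left.2 (center_le_C c)]
      have : (QuotientGroup.mk' (center G)).range = ⊤ := by
        rw [MonoidHom.range_eq_top]; exact QuotientGroup.mk'_surjective _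
      rw [this, index_top, mul_one]
    rw [h2]
    have h3 : (C c).index = m := hc
    have h4 : ((C x).map (QuotientGroup.mk' (center G)) : Set (G ⧸ center G)).ncard = m := by
      have h5 := (H.orders hx hc hc').1
      have h6 := relIndex_ker (QuotientGroup.mk' (center G)) (K := C x)
      rw [QuotientGroup.ker_mk', h5] at h6
      exact h6.symm
    rw [h3, h4]

end Hyp

end Cfsg.Agent.Lib.TwoCls
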