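import Cfsg.Agent.Lib.TwoFrob
import Cfsg.Agent.Lib.Cores

set_option autoImplicit false

/-!
2-Frobenius groups: structure.
-/

namespace Cfsg.Agent.Lib.TwoFrob

open Cfsg Subgroup

universe u

set_option linter.unusedSectionVars false

theorem exists_order_of_pow {X : Type u} [Group X] [Finite X] {x : X} {m : ℕ} (hm : m ∣ orderOf x) :
    ∃ k : ℕ, orderOf (x ^ k) = m := by
  obtain ⟨k, hk⟩ := hm
  have h0 := orderOf_pos x
  have hk0 : k ≠ 0 := by rintro rfl; rw [mul_zero] at hk; omega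
  refine ⟨k, ?_⟩
  rw [orderOf_pow_of_dvd hk0 (by rw [hk]; exact Dvd.intro_left _ rfl), hk, Nat.mul_div_cancel _ (Nat.pos_of_ne_zero hk0)]

/-- the structure used for a 2-Frobenius group -/
structure Str {G : Type u} [Group G] (H K : Subgroup G) [H.Normal] [K.Normal] (C : Subgroup K) (C₂ : Subgroup (G ⧸ H)) : Prop where
  le : H ≤ K
  hC : IsFrobeniusComplement C
  hCk : ((H.subgroupOf K : Subgroup K) : Set K) = frobeniusKernel C
  hCc : IsComplement' (H.subgroupOf K) C
  hC₂ : IsFrobeniusComplement C₂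
  hC₂k : ((K.map (QuotientGroup.mk' H) : Subgroup (G ⧸ H)) : Set (G ⧸ H)) = frobeniusKernel C₂
  hC₂c : IsComplement' (K.map (QuotientGroup.mk' H)) C₂

variable {G : Type u} [Group G] [Finite G] {H K : Subgroup G} [H.Normal] [K.Normal]

theorem exists_str (hlt : H < K)
    (hK : ∃ C : Subgroup K, IsFrobeniusComplement C ∧ frobeniusKernel C = (H.subgroupOf K : Set K))
    (hGH : ∃ C : Subgroup (G ⧸ H), IsFrobeniusComplement C ∧ frobeniusKernel C = (K.map (QuotientGroup.mk' H) : Set (G ⧸ H))) :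
    ∃ C C₂, Str H K C C₂ := by
  obtain ⟨C, hC, hCk⟩ := hK
  obtain ⟨C₂, hC₂, hC₂k⟩ := hGH
  obtain ⟨N, hN, hNn, hNc⟩ := FrobThm.exists_kernel hC
  obtain ⟨N₂, hN₂, hNn₂, hNc₂⟩ := FrobThm.exists_kernel hC₂
  have e1 : N = H.subgroupOf K := SetLike.coe_injective (hN.trans hCk)
  have e2 : N₂ = K.map (QuotientGroup.mk' H) := SetLike.coe_injective (hN₂.trans hC₂k)
  exact ⟨C, C₂, ⟨hlt.le, hC, hCk.symm, e1 ▸ hNc, hC₂, hC₂k.symm, e2 ▸ hNc₂⟩⟩

variable {C : Subgroup K} {C₂ : Subgroup (G ⧸ H)} (s : Str H K C C₂)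
include s

theorem Str.card_C : Nat.card (K ⧸ H.subgroupOf K) = Nat.card C := by
  rw [← Subgroup.index_eq_card, s.hCc.symm.index_eq_card]

theorem Str.nonempty_equiv : Nonempty (C ≃* (K.map (QuotientGroup.mk' H) : Subgroup (G ⧸ H))) := by
  let φ : K →* (K.map (QuotientGroup.mk' H) : Subgroup (G ⧸ H)) := (QuotientGroup.mk' H).subgroupMap K
  have hφ : Function.Surjective φ := (QuotientGroup.mk' H).subgroupMap_surjective K
  have hk : φ.ker = H.subgroupOf K := by
    ext x
    rw [MonoidHom.mem_ker, Subgroup.mem_subgroupOf, ← Subtype.coe_inj]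
    exact QuotientGroup.eq_one_iff _
  let e1 : K ⧸ φ.ker ≃* (K.map (QuotientGroup.mk' H) : Subgroup (G ⧸ H)) := QuotientGroup.quotientKerEquivOfSurjective φ hφ
  let e2 : K ⧸ φ.ker ≃* K ⧸ H.subgroupOf K := QuotientGroup.quotientMulEquivOfEq hk
  exact ⟨s.hCc.symm.QuotientMulEquiv.symm.trans (e2.symm.trans e1)⟩

theorem Str.card_Kbar : Nat.card (K.map (QuotientGroup.mk' H) : Subgroup (G ⧸ H)) = Nat.card C := by
  obtain ⟨e⟩ := s.nonempty_equiv
  exact (Nat.card_congr e.toEquiv).symm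

theorem Str.card_K : Nat.card H * Nat.card C = Nat.card K := by
  rw [← s.card_Kbar]
  exact Cores.card_map_mk s.le

theorem Str.card_C₂ : Nat.card (G ⧸ K) = Nat.card C₂ := by
  have e := QuotientGroup.quotientQuotientEquivQuotient H K s.le
  rw [← Nat.card_congr e.toEquiv, ← Subgroup.index_eq_card, s.hC₂c.symm.index_eq_card]

theorem Str.coprime_H : (Nat.card C).Coprime (Nat.card H) := by
  have h1 := FrobOrderType2.index_coprime s.hC s.hCc
  rw [Nat.card_congr (Subgroup.subgroupOfEquivOfLe s.le).toEquiv] at h1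
  exact h1.symm

theorem Str.coprime_C₂ : (Nat.card C).Coprime (Nat.card C₂) := by
  have h1 := FrobOrderType2.index_coprime s.hC₂ s.hC₂c
  rwa [s.card_Kbar] at h1

theorem Str.nilpotent_H : Group.IsNilpotent H := by
  obtain ⟨N, hN, -, hnil⟩ := Cfsg.Agent.S0042.result C s.hC
  have e1 : N = H.subgroupOf K := SetLike.coe_injective (hN.trans s.hCk.symm)
  rw [e1] at hnil
  exact Group.nilpotent_of_mulEquiv (Subgroup.subgroupOfEquivOfLe s.le)

theorem Str.nilpotent_Kbar : Group.IsNilpotent (K.map (QuotientGroup.mk' H) : Subgroup (G ⧸ H)) := by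
  obtain ⟨N, hN, -, hnil⟩ := Cfsg.Agent.S0042.result C₂ s.hC₂
  have e1 : N = K.map (QuotientGroup.mk' H) := SetLike.coe_injective (hN.trans s.hC₂k.symm)
  rwa [e1] at hnil

theorem Str.nilpotent_C : Group.IsNilpotent C := by
  obtain ⟨e⟩ := s.nonempty_equiv
  have := s.nilpotent_Kbar
  exact Group.nilpotent_of_mulEquiv e.symm

theorem Str.odd_C : ¬ 2 ∣ Nat.card C := by
  intro h2
  obtain ⟨e⟩ := s.nonempty_equiv
  have := Fact.mk Nat.prime_two
  have h3 : 2 ∣ Nat.card (K.map (QuotientGroup.mk' H) : Subgroup (G ⧸ H)) := by rw [s.card_Kbar]; exact h2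
  obtain ⟨t, ht⟩ := exists_prime_orderOf_dvd_card' 2 h3
  have hinv : ∀ x : (K.map (QuotientGroup.mk' H) : Subgroup (G ⧸ H)), orderOf x = 2 →
      (e.symm x : K) ≠ 1 ∧ (e.symm x : K) * e.symm x = 1 := by
    intro x hx
    have h4 : orderOf (e.symm x) = 2 := by rw [MulEquiv.orderOf_eq, hx]
    constructor
    · intro h5
      have h6 : e.symm x = 1 := Subtype.ext h5
      rw [h6, orderOf_one] at h4
      omega
    · have h5 := pow_orderOf_eq_one (e.symm x)
      rw [h4, pow_two] at h5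
      exact congrArg Subtype.val h5
  have huniq : ∀ x : (K.map (QuotientGroup.mk' H) : Subgroup (G ⧸ H)), orderOf x = 2 → x = t := by
    intro x hx
    have h4 := FrobGroup.invol_unique s.hC (e.symm t).2 (hinv t ht).1 (hinv t ht).2 (e.symm x).2 (hinv x hx).1 (hinv x hx).2
    exact e.symm.injective (Subtype.ext h4)
  obtain ⟨c, hc, hc1⟩ := FrobGroup.exists_ne_one s.hC₂
  have h4 : c * t * c⁻¹ ∈ (K.map (QuotientGroup.mk' H) : Subgroup (G ⧸ H)) := Subgroup.Normal.conj_mem inferInstance _ t.2 c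
  have h5 : (⟨c * t * c⁻¹, h4⟩ : (K.map (QuotientGroup.mk' H) : Subgroup (G ⧸ H))) = t := by
    apply huniq
    rw [Subgroup.orderOf_mk]
    have : orderOf ((MulAut.conj c) (t : G ⧸ H)) = orderOf (t : G ⧸ H) := MulEquiv.orderOf_eq (MulAut.conj c) _
    rw [MulAut.conj_apply] at this
    rw [this, Subgroup.orderOf_coe, ht]
  have h6 : c * t * c⁻¹ = t := congrArg Subtype.val h5
  have h7 : (t : G ⧸ H) ∈ frobeniusKernel C₂ := by rw [← s.hC₂k]; exact t.2
  have h8 : (t : G ⧸ H) ≠ 1 := by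
    intro h
    have : t = 1 := Subtype.ext h
    rw [this, orderOf_one] at ht
    omega
  have h9 := kernel_of_commute s.hC₂ h7 h8 (y := c) (by rw [← mul_inv_eq_iff_eq_mul.1 h6])
  exact FrobGroup.not_mem_of_mem_kernel h9 hc1 hc

theorem Str.cyclic_C : IsCyclic C :=
  isCyclic_complement s.hC s.hCk s.hCc s.odd_C s.nilpotent_C

theorem Str.cyclic_Kbar : IsCyclic (K.map (QuotientGroup.mk' H) : Subgroup (G ⧸ H)) := by
  obtain ⟨e⟩ := s.nonempty_equiv
  have := s.cyclic_C
  exact isCyclic_of_surjective e e.surjective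

theorem Str.cyclic_C₂ : IsCyclic C₂ :=
  isCyclic_complement_of_cyclic s.hC₂ s.hC₂k s.hC₂c s.cyclic_Kbar

theorem Str.cyclic_GK : IsCyclic (G ⧸ K) := by
  have e := QuotientGroup.quotientQuotientEquivQuotient H K s.le
  have e2 : (G ⧸ H) ⧸ (K.map (QuotientGroup.mk' H)) ≃* C₂ := s.hC₂c.symm.QuotientMulEquiv
  have := s.cyclic_C₂
  let f := e2.symm.trans e
  exact isCyclic_of_surjective f f.surjective

theorem Str.solvable : Group.IsSolvable G := by
  have h1 := s.nilpotent_H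
  have h2 : Group.IsSolvable H := inferInstance
  have h3 := s.cyclic_Kbar
  have h4 : Group.IsSolvable (K.map (QuotientGroup.mk' H) : Subgroup (G ⧸ H)) := by
    obtain ⟨g, hg⟩ := h3.exists_generator
    apply Group.isSolvable_of_comm
    intro a b
    obtain ⟨i, rfl⟩ := hg a
    obtain ⟨j, rfl⟩ := hg b
    exact ((Commute.refl g).zpow_zpow i j).eq
  have h5 := s.cyclic_GK
  have h6 : Group.IsSolvable (G ⧸ K) := by
    obtain ⟨g, hg⟩ := h5.exists_generator
    apply Group.isSolvable_of_comm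
    intro a b
    obtain ⟨i, rfl⟩ := hg a
    obtain ⟨j, rfl⟩ := hg b
    exact ((Commute.refl g).zpow_zpow i j).eq
  have h7 : Group.IsSolvable K := by
    let φ : K →* (K.map (QuotientGroup.mk' H) : Subgroup (G ⧸ H)) := (QuotientGroup.mk' H).subgroupMap K
    have hk : φ.ker = H.subgroupOf K := by
      ext x
      rw [MonoidHom.mem_ker, Subgroup.mem_subgroupOf, ← Subtype.coe_inj]
      exact QuotientGroup.eq_one_iff _
    refine Group.isSolvable_of_ker_le_range (Subgroup.inclusion s.le) φ ?_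
    rw [hk, Subgroup.inclusion_range]
  exact (Group.isSolvable_iff_subgroup_quotient K).2 ⟨h7, h6⟩

/-- elements of `K` outside `H` commute with no nontrivial element of `H` -/
theorem Str.fpf {x h : G} (hx : x ∈ K) (hxH : x ∉ H) (hh : h ∈ H) (hcomm : h * x = x * h) : h = 1 := by
  by_contra h1
  apply hxH
  have h2 : (⟨h, s.le hh⟩ : K) ∈ frobeniusKernel C := by
    rw [← s.hCk]; exact hh
  have h3 := kernel_of_commute s.hC h2 (fun e => h1 (congrArg Subtype.val e)) (y := ⟨x, hx⟩) (Subtype.ext hcomm)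
  rw [← s.hCk] at h3
  exact h3

theorem Str.card_G : Nat.card G = Nat.card H * Nat.card C * Nat.card C₂ := by
  rw [s.card_K, ← s.card_C₂, ← Subgroup.index_eq_card, Subgroup.card_mul_index]

/-- no edges between the two sets of primes -/
theorem Str.no_edge {p q : ℕ} (hp : p.Prime) (hq : q.Prime) (hpq : p ≠ q) (hpC : p ∣ Nat.card C) (hqC : ¬ q ∣ Nat.card C)
    (g : G) (hg : orderOf g = p * q) : False := by
  have hx : orderOf (g ^ q) = p := by
    rw [orderOf_pow_of_dvd hq.ne_zero (by rw [hg]; exact Dvd.intro_left _ rfl), hg, Nat.mul_div_cancel _ hq.pos]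
  have hy : orderOf (g ^ p) = q := by
    rw [orderOf_pow_of_dvd hp.ne_zero (by rw [hg]; exact Dvd.intro _ rfl), hg, Nat.mul_div_cancel_left _ hp.pos]
  set x := g ^ q with hxdef
  set y := g ^ p with hydef
  have hcomm : x * y = y * x := ((Commute.refl g).pow_pow q p).eq
  have hxK : x ∈ K := by
    have h1 : orderOf (QuotientGroup.mk' K x) ∣ p := by rw [← hx]; exact orderOf_map_dvd _ _
    have h2 : orderOf (QuotientGroup.mk' K x) ∣ Nat.card C₂ := by
      rw [← s.card_C₂]; exact orderOf_dvd_natCard _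
    have h3 : orderOf (QuotientGroup.mk' K x) = 1 := by
      apply Nat.eq_one_of_dvd_coprimes s.coprime_C₂ (h1.trans hpC) h2
    rw [orderOf_eq_one_iff] at h3
    exact (QuotientGroup.eq_one_iff x).1 h3
  have hx1 : x ≠ 1 := by
    intro h
    rw [h, orderOf_one] at hx
    exact hp.one_lt.ne hx
  have hxH : x ∉ H := by
    intro h
    have h1 := Subgroup.orderOf_dvd_natCard H h
    rw [hx] at h1
    exact hp.one_lt.ne' (Nat.eq_one_of_dvd_coprimes s.coprime_H hpC h1)
  by_cases hyH : y ∈ H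
  · have h1 := s.fpf hxK hxH hyH hcomm.symm
    rw [h1, orderOf_one] at hy
    exact hq.one_lt.ne hy
  · have h1 : (QuotientGroup.mk' H x) ∈ frobeniusKernel C₂ := by
      rw [← s.hC₂k]; exact ⟨x, hxK, rfl⟩
    have h2 : QuotientGroup.mk' H x ≠ 1 := fun h => hxH ((QuotientGroup.eq_one_iff x).1 h)
    have h3 := kernel_of_commute s.hC₂ h1 h2 (y := QuotientGroup.mk' H y) (by rw [← map_mul, ← map_mul, hcomm])
    rw [← s.hC₂k] at h3
    have h4 : QuotientGroup.mk' H y ≠ 1 := fun h => hyH ((QuotientGroup.eq_one_iff y).1 h)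
    have h5 : orderOf (QuotientGroup.mk' H y) = q := by
      have h6 : orderOf (QuotientGroup.mk' H y) ∣ q := by rw [← hy]; exact orderOf_map_dvd _ _
      rcases (Nat.dvd_prime hq).1 h6 with h7 | h7
      · exact absurd (orderOf_eq_one_iff.1 h7) h4
      · exact h7
    have h6 := Subgroup.orderOf_dvd_natCard _ h3
    rw [h5, s.card_Kbar] at h6
    exact hqC h6

theorem Str.edge_C {p q : ℕ} (hp : p.Prime) (hq : q.Prime) (hpq : p ≠ q) (hpC : p ∣ Nat.card C) (hqC : q ∣ Nat.card C) :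
    ∃ g : G, orderOf g = p * q := by
  have hcyc := s.cyclic_C
  have h1 : p * q ∣ Nat.card C := Nat.Coprime.mul_dvd_of_dvd_of_dvd ((Nat.coprime_primes hp hq).2 hpq) hpC hqC
  obtain ⟨g, hg⟩ := hcyc.exists_generator
  have h2 : orderOf g = Nat.card C := orderOf_eq_card_of_forall_mem_zpowers hg
  obtain ⟨k, hk⟩ := exists_order_of_pow (x := g) (m := p * q) (by rw [h2]; exact h1)
  refine ⟨((g ^ k : C) : K), ?_⟩
  rw [Subgroup.orderOf_coe, Subgroup.orderOf_coe, hk]

theorem Str.edge_C₂ {p q : ℕ} (hp : p.Prime) (hq : q.Prime) (hpq : p ≠ q) (hpC : p ∣ Nat.card C₂) (hqC : q ∣ Nat.card C₂) :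
    ∃ g : G, orderOf g = p * q := by
  have hcyc := s.cyclic_GK
  have h1 : p * q ∣ Nat.card (G ⧸ K) := by
    rw [s.card_C₂]
    exact Nat.Coprime.mul_dvd_of_dvd_of_dvd ((Nat.coprime_primes hp hq).2 hpq) hpC hqC
  obtain ⟨g, hg⟩ := hcyc.exists_generator
  have h2 : orderOf g = Nat.card (G ⧸ K) := orderOf_eq_card_of_forall_mem_zpowers hg
  obtain ⟨x, rfl⟩ := QuotientGroup.mk'_surjective K g
  have h3 : p * q ∣ orderOf x := h1.trans (h2 ▸ orderOf_map_dvd (QuotientGroup.mk' K) x)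
  obtain ⟨k, hk⟩ := exists_order_of_pow h3
  exact ⟨_, hk⟩

end Cfsg.Agent.Lib.TwoFrob
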