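import Cfsg.Agent.Lib.TwoFrob2
import Cfsg.Agent.Lib.H23Nilp

set_option autoImplicit false
set_option linter.unusedSectionVars false

/-!
2-Frobenius groups: the prime graph.
-/

namespace Cfsg.Agent.Lib.TwoFrob

open Cfsg Subgroup Cfsg.Agent.Lib.FrobAction

universe u

/-- a central element of prime order in a nilpotent group -/
theorem exists_central_order {N : Type u} [Group N] [Finite N] (hN : Group.IsNilpotent N) {p : ℕ} (hp : p.Prime)
    (hpN : p ∣ Nat.card N) : ∃ z : N, orderOf z = p ∧ ∀ g : N, g * z = z * g := by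
  have := Fact.mk hp
  obtain ⟨P⟩ : Nonempty (Sylow p N) := inferInstance
  have hP : (P : Subgroup N).Normal := (Group.isNilpotent_of_finite_tfae (G := N)).out 0 3 rfl rfl |>.mp hN p ‹_› P
  have hPnt : Nontrivial P := by
    rw [← Finite.one_lt_card_iff_nontrivial]
    have h1 : p ∣ Nat.card P := Sylow.dvd_card_of_dvd_card P hpN
    exact hp.one_lt.trans_le (Nat.le_of_dvd Nat.card_pos h1)
  have hcn : Nontrivial (center P) := P.2.center_nontrivial
  have hcp : p ∣ Nat.card (center P) := by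
    obtain ⟨k, hk⟩ := IsPGroup.iff_card.1 (P.2.to_subgroup (center P))
    have h1 : 1 < Nat.card (center P) := Finite.one_lt_card
    have hk0 : k ≠ 0 := by rintro rfl; rw [pow_zero] at hk; omega
    rw [hk]; exact dvd_pow_self p hk0
  obtain ⟨z, hz⟩ := exists_prime_orderOf_dvd_card' p hcp
  have hzo : orderOf ((z : P) : N) = p := by rw [Subgroup.orderOf_coe, Subgroup.orderOf_coe, hz]
  refine ⟨((z : P) : N), hzo, ?_⟩
  have htop : centralizer ({((z : P) : N)} : Set N) = ⊤ := by
    apply Cores.eq_top_of_forall_sylow_le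
    intro q hq Q
    by_cases hqp : q = p
    · subst hqp
      have hQP : (Q : Subgroup N) ≤ P := by
        have h2 : Q = P := by
          obtain ⟨g, hg⟩ := MulAction.exists_smul_eq N P Q
          rw [← hg]
          exact Sylow.smul_eq_of_normal
        rw [h2]
      intro x hx
      rw [mem_centralizer_singleton_iff]
      have h3 := mem_center_iff.1 z.2 ⟨x, hQP hx⟩
      exact congrArg Subtype.val h3
    · intro x hx
      rw [mem_centralizer_singleton_iff]
      refine H23Nilp.commute_of_coprime_orderOf N x _ ?_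
      rw [hzo]
      obtain ⟨k, hk⟩ := (IsPGroup.iff_orderOf.1 Q.2) ⟨x, hx⟩
      rw [Subgroup.orderOf_mk] at hk
      rw [hk]
      exact Nat.Coprime.pow_left _ ((Nat.coprime_primes hq.out hp).2 hqp)
  intro g
  have h1 : g ∈ centralizer ({((z : P) : N)} : Set N) := by rw [htop]; trivial
  exact mem_centralizer_singleton_iff.1 h1

/-- the elementary abelian central subgroup -/
def VV {G : Type u} [Group G] (H : Subgroup G) (p : ℕ) : Subgroup G where
  carrier := {v | v ∈ H ∧ (∀ h ∈ H, h * v = v * h) ∧ v ^ p = 1}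
  mul_mem' := by
    rintro a b ⟨ha, ha', ha''⟩ ⟨hb, hb', hb''⟩
    refine ⟨mul_mem ha hb, fun h hh => ?_, ?_⟩
    · rw [← mul_assoc, ha' h hh, mul_assoc, hb' h hh, mul_assoc]
    · have : Commute a b := hb' a ha
      rw [this.mul_pow, ha'', hb'', one_mul]
  one_mem' := ⟨one_mem _, fun h _ => by simp, one_pow _⟩
  inv_mem' := by
    rintro a ⟨ha, ha', ha''⟩
    refine ⟨inv_mem ha, fun h hh => ?_, by rw [inv_pow, ha'', inv_one]⟩
    exact ((show Commute h a from ha' h hh).inv_right).eq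

instance VV_normal {G : Type u} [Group G] (H : Subgroup G) [H.Normal] (p : ℕ) : (VV H p).Normal := by
  constructor
  rintro v ⟨hv, hv', hv''⟩ g
  refine ⟨‹H.Normal›.conj_mem v hv g, fun h hh => ?_, ?_⟩
  · have h1 := hv' (g⁻¹ * h * g) (by simpa using ‹H.Normal›.conj_mem h hh g⁻¹)
    calc h * (g * v * g⁻¹) = g * ((g⁻¹ * h * g) * v) * g⁻¹ := by group
      _ = g * (v * (g⁻¹ * h * g)) * g⁻¹ := by rw [h1]
      _ = _ := by group
  · rw [conj_pow, hv'']; group

instance VV_comm {G : Type u} [Group G] (H : Subgroup G) (p : ℕ) : IsMulCommutative (VV H p) :=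
  ⟨⟨fun a b => Subtype.ext (b.2.2.1 a a.2.1)⟩⟩

variable {G : Type u} [Group G] [Finite G] {H K : Subgroup G} [H.Normal] [K.Normal]
variable {C : Subgroup K} {C₂ : Subgroup (G ⧸ H)} (s : Str H K C C₂)
include s

theorem Str.edge_H {p q : ℕ} (hp : p.Prime) (hq : q.Prime) (hpq : p ≠ q) (hpH : p ∣ Nat.card H) (hqH : q ∣ Nat.card H) :
    ∃ g : G, orderOf g = p * q := by
  have hnil := s.nilpotent_H
  have := Fact.mk hp
  have := Fact.mk hq
  obtain ⟨x, hx⟩ := exists_prime_orderOf_dvd_card' p hpH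
  obtain ⟨y, hy⟩ := exists_prime_orderOf_dvd_card' q hqH
  have hco : (orderOf x).Coprime (orderOf y) := by rw [hx, hy]; exact (Nat.coprime_primes hp hq).2 hpq
  have hcomm : Commute x y := H23Nilp.commute_of_coprime_orderOf H x y hco
  refine ⟨((x * y : H) : G), ?_⟩
  rw [Subgroup.orderOf_coe, hcomm.orderOf_mul_eq_mul_orderOf_of_coprime hco, hx, hy]

theorem Str.edge_mixed {p q : ℕ} (hp : p.Prime) (hq : q.Prime) (hpq : p ≠ q) (hpH : p ∣ Nat.card H)
    (hqC : q ∣ Nat.card C₂) : ∃ g : G, orderOf g = p * q := by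
  classical
  have hnil := s.nilpotent_H
  have := Fact.mk hp
  have := Fact.mk hq
  obtain ⟨z, hz, hzc⟩ := exists_central_order hnil hp hpH
  have hzV : (z : G) ∈ VV H p := ⟨z.2, fun h hh => congrArg Subtype.val (hzc ⟨h, hh⟩), by
    rw [← hz, ← Subgroup.orderOf_coe, pow_orderOf_eq_one]⟩
  obtain ⟨c, hc⟩ := exists_prime_orderOf_dvd_card' q hqC
  have hc' : orderOf (c : G ⧸ H) = q := by rw [Subgroup.orderOf_coe, hc]
  let a0 : G →* MulAut (VV H p) := MulAut.conjNormal
  have ha0 : ∀ (g : G) (v : VV H p), ((a0 g v : VV H p) : G) = g * v * g⁻¹ := fun g v => rfl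
  let act : G ⧸ H →* MulAut (VV H p) := QuotientGroup.lift H a0 (by
    intro h hh
    ext v
    rw [ha0]
    show h * (v : G) * h⁻¹ = v
    rw [v.2.2.1 h hh, mul_inv_cancel_right])
  have hact : ∀ (g : G) (v : VV H p), ((act (QuotientGroup.mk' H g) v : VV H p) : G) = g * v * g⁻¹ := fun g v => rfl
  obtain ⟨y, hy⟩ := QuotientGroup.mk'_surjective H (c : G ⧸ H)
  -- a fixed point of `c`
  have hfix : ∃ v : VV H p, v ≠ 1 ∧ act (c : G ⧸ H) v = v := by
    by_contra hcon
    push Not at hcon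
    let _ : CommGroup (VV H p) := { (inferInstance : Group (VV H p)) with mul_comm := fun a b => Subtype.ext (b.2.2.1 a a.2.1) }
    have h1 := pow_card_kernel_eq_one (V := VV H p) act (K.map (QuotientGroup.mk' H)) (Subgroup.zpowers (c : G ⧸ H)) (by
      intro h hh hh1 k hk hhk
      by_contra hk1
      have hkk : k ∈ frobeniusKernel C₂ := by rw [← s.hC₂k]; exact hk
      have h2 := kernel_of_commute s.hC₂ hkk hk1 (y := h) hhk.symm
      have h3 : h ∈ C₂ := (Subgroup.zpowers_le.2 c.2) hh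
      exact FrobGroup.not_mem_of_mem_kernel h2 hh1 h3) (by
      intro v hv
      obtain ⟨t, ht, ht1⟩ := FrobGroup.exists_kernel_ne_one s.hC₂
      rw [← s.hC₂k] at ht
      obtain ⟨x, hx, rfl⟩ := ht
      have h2 := congrArg Subtype.val (hv _ ⟨x, hx, rfl⟩)
      rw [hact] at h2
      have hxH : x ∉ H := fun h => ht1 ((QuotientGroup.eq_one_iff x).2 h)
      exact Subtype.ext (s.fpf hx hxH v.2.1 (mul_inv_eq_iff_eq_mul.1 h2).symm)) (by
      intro v hv
      by_contra hv1
      exact hcon v hv1 (hv c (Subgroup.mem_zpowers _))) ⟨z, hzV⟩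
    have h2 : (z : G) ^ Nat.card (K.map (QuotientGroup.mk' H) : Subgroup (G ⧸ H)) = 1 := congrArg Subtype.val h1
    rw [s.card_Kbar, ← orderOf_dvd_iff_pow_eq_one, Subgroup.orderOf_coe, hz] at h2
    exact hp.one_lt.ne' (Nat.eq_one_of_dvd_coprimes s.coprime_H h2 hpH)
  obtain ⟨v, hv1, hv⟩ := hfix
  have h3 := congrArg Subtype.val hv
  rw [← hy, hact] at h3
  have hcomm : Commute y v := mul_inv_eq_iff_eq_mul.1 h3
  have hvo : orderOf (v : G) = p := orderOf_eq_prime v.2.2.2 (fun h => hv1 (Subtype.ext h))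
  have hyo : q ∣ orderOf y := by rw [← hc', ← hy]; exact orderOf_map_dvd _ _
  obtain ⟨k, hk⟩ := exists_order_of_pow hyo
  refine ⟨v * y ^ k, ?_⟩
  rw [(hcomm.symm.pow_right k).orderOf_mul_eq_mul_orderOf_of_coprime, hvo, hk]
  rw [hvo, hk]
  exact (Nat.coprime_primes hp hq).2 hpq

theorem Str.graph {p q : ℕ} (hp : p.Prime) (hq : q.Prime) (hpq : p ≠ q) (hpG : p ∣ Nat.card G) (hqG : q ∣ Nat.card G) :
    (∃ g : G, orderOf g = p * q) ↔ (p ∣ Nat.card C ↔ q ∣ Nat.card C) := by
  rw [s.card_G] at hpG hqG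
  by_cases h1 : p ∣ Nat.card C <;> by_cases h2 : q ∣ Nat.card C
  · simp only [h1, h2, iff_true]
    exact s.edge_C hp hq hpq h1 h2
  · simp only [h1, h2, iff_false, not_exists, not_true]
    exact fun g hg => s.no_edge hp hq hpq h1 h2 g hg
  · simp only [h1, h2, false_iff, iff_false, not_exists, not_true]
    exact fun g hg => s.no_edge hq hp hpq.symm h2 h1 g (by rw [hg, mul_comm])
  · simp only [h1, h2, iff_true]
    have hp' : p ∣ Nat.card H ∨ p ∣ Nat.card C₂ := by
      rcases (hp.dvd_mul).1 hpG with h | h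
      · rcases (hp.dvd_mul).1 h with h | h
        · exact Or.inl h
        · exact absurd h h1
      · exact Or.inr h
    have hq' : q ∣ Nat.card H ∨ q ∣ Nat.card C₂ := by
      rcases (hq.dvd_mul).1 hqG with h | h
      · rcases (hq.dvd_mul).1 h with h | h
        · exact Or.inl h
        · exact absurd h h2
      · exact Or.inr h
    rcases hp' with h3 | h3 <;> rcases hq' with h4 | h4
    · exact s.edge_H hp hq hpq h3 h4
    · exact s.edge_mixed hp hq hpq h3 h4
    · obtain ⟨g, hg⟩ := s.edge_mixed hq hp hpq.symm h4 h3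
      exact ⟨g, by rw [hg, mul_comm]⟩
    · exact s.edge_C₂ hp hq hpq h3 h4

end Cfsg.Agent.Lib.TwoFrob
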