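import Mathlib
import Cfsg.Prelude.Def_Local
import Cfsg.Agent.Lib.PConstraint
import Cfsg.Agent.Lib.PLengthOne
import Cfsg.Agent.Lib.PAbA
import Cfsg.Agent.Lib.PStabInvolve
import Cfsg.Agent.Lib.ZJThm

/-!
Groups all of whose two-generated subgroups are solvable, I: strongly closed abelian `p`-subgroups, `p ≥ 5`
(helper9, S0489).
-/

set_option autoImplicit false
set_option maxHeartbeats 400000
set_option linter.unusedSectionVars false

namespace Cfsg.Agent.Lib.TwoGenA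

open Subgroup Cfsg
open scoped commutatorElement

universe u

section TypeLevel

variable {L : Type u} [Group L] [Finite L] {p : ℕ} [hp : Fact p.Prime]

theorem not_involves_of_solvable (h5 : 5 ≤ p) (hL : Group.IsSolvable L) :
    ¬ Cfsg.Involves (Matrix.SpecialLinearGroup (Fin 2) (ZMod p)) L := by
  intro h
  obtain ⟨K, β, hβ⟩ := PStabInvolve.exists_of_involves h
  exact PAbA.not_solvable_SL2 h5 (Group.isSolvable_of_surjective hβ)

/-- abelian normal subgroups of a Sylow subgroup of a solvable group, `p ≥ 5`. -/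
theorem le_pPrimePCore_of_abelian (h5 : 5 ≤ p) (hL : Group.IsSolvable L) {S A : Subgroup L}
    (hS : RelSylow.IsSyl p S ⊤) (hAS : A ≤ S) (hn : S ≤ normalizer (A : Set L))
    (hA : A ≤ centralizer (A : Set L)) : A ≤ pPrimePCore p L := by
  have hp2 : p ≠ 2 := by omega
  set π := QuotientGroup.mk' (pPrimeCore p L) with hπ
  have hsq : Group.IsSolvable (L ⧸ pPrimeCore p L) :=
    Group.isSolvable_of_surjective (QuotientGroup.mk'_surjective _)
  have hc : centralizer (pCore p (L ⧸ pPrimeCore p L) : Set (L ⧸ pPrimeCore p L)) ≤ pCore p (L ⧸ pPrimeCore p L) :=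
    Cores.centralizer_pCore_le (Cores.pPrimeCore_quotient_pPrimeCore p L)
  have hSm : RelSylow.IsSyl p (S.map π) ⊤ := by
    have := hS.map π
    rwa [map_top_of_surjective _ (QuotientGroup.mk'_surjective _)] at this
  have hOS : pCore p (L ⧸ pPrimeCore p L) ≤ S.map π := by
    obtain ⟨Q, hQ⟩ := hSm.toSylow
    rw [← hQ]
    exact Cores.pCore_le_sylow Q
  have hnm : S.map π ≤ normalizer ((A.map π : Subgroup _) : Set (L ⧸ pPrimeCore p L)) := by
    rintro _ ⟨s, hs, rfl⟩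
    exact Subgroup.le_normalizer_map π ⟨s, hn hs, rfl⟩
  have hst : Cfsg.IsPStableOn p (pCore p (L ⧸ pPrimeCore p L)) :=
    PStabInvolve.isPStableOn hp2 PStabInvolve.obst_sl2 (not_involves_of_solvable h5 hsq) _ (Cores.isPGroup_pCore p _)
  have key : A.map π ≤ pCore p (L ⧸ pPrimeCore p L) := by
    apply ZJThm.le_pCore_of_quadratic hc hst
    rw [commutator_eq_bot_iff_le_centralizer]
    have h1 : ⁅pCore p (L ⧸ pPrimeCore p L), A.map π⁆ ≤ A.map π :=
      le_normalizer_iff_commutator_le_right.1 (hOS.trans hnm)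
    refine h1.trans ?_
    rintro _ ⟨a, ha, rfl⟩
    rw [mem_centralizer_iff]
    rintro _ ⟨b, hb, rfl⟩
    rw [← map_mul, ← map_mul, mem_centralizer_iff.1 (hA ha) b hb]
  exact map_le_iff_le_comap.1 key

/-- strongly closed subgroups inside `O_{p'p}` -/
theorem normal_sup_of_closed {S S₀ : Subgroup L} (hS : RelSylow.IsSyl p S ⊤) 
    (hK : S₀ ≤ pPrimePCore p L) (h0 : S₀ ≤ S)
    (hcl : ∀ x ∈ S₀, ∀ g : L, g * x * g⁻¹ ∈ S → g * x * g⁻¹ ∈ S₀) : (pPrimeCore p L ⊔ S₀).Normal := by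
  set K := pPrimePCore p L with hKd
  have hKn : K.Normal := PLengthOne.normal_pPrimePCore p _
  have hTn : (pPrimeCore p L).Normal := inferInstance
  have hR : RelSylow.IsSyl p (S ⊓ K) K := hS.inf le_top (by rw [normalizer_eq_top])
  have hRmap := PConstraint.map_sylow_eq hR
  refine ⟨fun n hn v => ?_⟩
  obtain ⟨t, ht, s, hs, rfl⟩ := mem_sup_of_normal_left.1 hn
  have e1 : v * (t * s) * v⁻¹ = (v * t * v⁻¹) * (v * s * v⁻¹) := by group
  rw [e1]
  refine mul_mem (le_sup_left (b := S₀) (hTn.conj_mem t ht v)) ?_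
  set y := v * s * v⁻¹ with hy
  have hyK : y ∈ K := hKn.conj_mem s (hK hs) v
  obtain ⟨k, hk⟩ := hS.2.1 ⟨s, h0 hs⟩
  have hk' : s ^ p ^ k = 1 := by simpa using congrArg Subtype.val hk
  have hyp : y ^ p ^ k = 1 := by rw [hy, conj_pow, hk']; group
  have hyP : IsPGroup p (zpowers y) := by
    rintro ⟨z, m, rfl⟩
    refine ⟨k, Subtype.ext ?_⟩
    change (y ^ m) ^ p ^ k = 1
    rw [← zpow_natCast, ← zpow_mul, mul_comm, zpow_mul, zpow_natCast, hyp, one_zpow]
  obtain ⟨c, hc, hle⟩ := hR.exists_conj_le hyP (by rwa [zpowers_le])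
  have h1 : c⁻¹ * y * c ∈ S ⊓ K := RelSylow.mem_conj_iff.1 (hle (mem_zpowers y))
  -- write `c⁻¹ = r * t'`
  have h2 : QuotientGroup.mk' (pPrimeCore p L) c⁻¹ ∈ (S ⊓ K).map (QuotientGroup.mk' (pPrimeCore p L)) := by
    rw [hRmap]; exact inv_mem (s := K) hc
  obtain ⟨r, hr, hrn⟩ := h2
  have h3 : r⁻¹ * c⁻¹ ∈ pPrimeCore p L := by
    rw [← QuotientGroup.ker_mk' (pPrimeCore p L), MonoidHom.mem_ker, map_mul, map_inv, hrn, inv_mul_cancel]
  set t' := r⁻¹ * c⁻¹ with ht'
  have h4 : t' * y * t'⁻¹ ∈ S := by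
    have : t' * y * t'⁻¹ = r⁻¹ * (c⁻¹ * y * c) * r := by rw [ht']; group
    rw [this]
    exact mul_mem (mul_mem (inv_mem hr.1) h1.1) hr.1
  have h5 : t' * y * t'⁻¹ ∈ S₀ := by
    have e2 : t' * y * t'⁻¹ = (t' * v) * s * (t' * v)⁻¹ := by rw [hy]; group
    rw [e2] at h4 ⊢
    exact hcl s hs _ h4
  have e3 : y = (t'⁻¹ * ((t' * y * t'⁻¹) * t' * (t' * y * t'⁻¹)⁻¹)) * (t' * y * t'⁻¹) := by group
  rw [e3]
  exact mul_mem (le_sup_left (b := S₀) (mul_mem (inv_mem h3) (hTn.conj_mem _ h3 _))) (le_sup_right (a := pPrimeCore p L) h5)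

theorem mem_conj_sylow {S : Subgroup L} (hS : RelSylow.IsSyl p S ⊤) {y : L} {k : ℕ} (hk : y ^ p ^ k = 1) :
    ∃ h : L, h * y * h⁻¹ ∈ S := by
  have hyP : IsPGroup p (zpowers y) := by
    rintro ⟨z, m, rfl⟩
    refine ⟨k, Subtype.ext ?_⟩
    change (y ^ m) ^ p ^ k = 1
    rw [← zpow_natCast, ← zpow_mul, mul_comm, zpow_mul, zpow_natCast, hk, one_zpow]
  obtain ⟨c, -, hle⟩ := hS.exists_conj_le hyP le_top
  have h1 : c⁻¹ * y * c ∈ S := RelSylow.mem_conj_iff.1 (hle (mem_zpowers y))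
  exact ⟨c⁻¹, by simpa using h1⟩

theorem mem_of_conj {N : Subgroup L} [hN : N.Normal] {b h : L} (hb : h * b * h⁻¹ ∈ N) : b ∈ N := by
  have := hN.conj_mem _ hb h⁻¹
  have e : h⁻¹ * (h * b * h⁻¹) * h⁻¹⁻¹ = b := by group
  rwa [e] at this

theorem le_of_two {S N : Subgroup L} [hN : N.Normal] (hS : IsPGroup p S) {b x : L}
    (hgen : closure ({b, x} : Set L) = ⊤) (hb : b ∈ N)
    (hx : ∀ y ∈ zpowers x, (∃ k : ℕ, y ^ p ^ k = 1) → y ∈ N) : S ≤ N := by
  obtain ⟨a, m, hm, ho⟩ := Nat.exists_eq_pow_mul_and_not_dvd (orderOf_pos x).ne' p hp.out.ne_one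
  have hxm : x ^ m ∈ N := by
    apply hx _ (npow_mem_zpowers x m)
    refine ⟨a, ?_⟩
    rw [← pow_mul, mul_comm, ← ho]
    exact pow_orderOf_eq_one x
  set π := QuotientGroup.mk' N with hπ
  have hker : ∀ z : L, π z = 1 ↔ z ∈ N := fun z => by
    rw [← MonoidHom.mem_ker, hπ, QuotientGroup.ker_mk']
  have hcyc : zpowers (π x) = ⊤ := by
    rw [eq_top_iff, ← map_top_of_surjective π (QuotientGroup.mk'_surjective N), ← hgen, MonoidHom.map_closure,
      closure_le]
    rintro _ ⟨z, hz, rfl⟩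
    rcases hz with rfl | hz
    · rw [(hker _).2 hb]; exact one_mem _
    · rw [Set.mem_singleton_iff] at hz
      subst hz
      exact mem_zpowers _
  intro s hs
  rw [← hker]
  obtain ⟨k, hk⟩ := hS ⟨s, hs⟩
  have hk' : s ^ p ^ k = 1 := by simpa using congrArg Subtype.val hk
  have h1 : π s ∈ zpowers (π x) := by rw [hcyc]; exact mem_top _
  obtain ⟨j, hj⟩ := h1
  have hj' : (π x) ^ j = π s := hj
  have h2 : (π s) ^ m = 1 := by
    rw [← hj', ← zpow_natCast, ← zpow_mul, mul_comm, zpow_mul, zpow_natCast, ← map_pow, (hker _).2 hxm, one_zpow]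
  have h3 : (π s) ^ p ^ k = 1 := by rw [← map_pow, hk', map_one]
  have hcop : Nat.Coprime (p ^ k) m := ((hp.out.coprime_iff_not_dvd).2 hm).pow_left k
  have h4 : orderOf (π s) ∣ 1 := by
    rw [← hcop]
    exact Nat.dvd_gcd (orderOf_dvd_of_pow_eq_one h3) (orderOf_dvd_of_pow_eq_one h2)
  rw [Nat.dvd_one, orderOf_eq_one_iff] at h4
  exact h4

theorem le_of_le_sup {S S₀ : Subgroup L} (hS : IsPGroup p S) (h0 : S₀ ≤ S) (h : S ≤ pPrimeCore p L ⊔ S₀) : S ≤ S₀ := by
  intro x hx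
  obtain ⟨t, ht, s, hs, rfl⟩ := mem_sup_of_normal_left.1 (h hx)
  have h1 : t ∈ S := by
    have := mul_mem hx (inv_mem (h0 hs))
    simpa using this
  have h2 : t ∈ S ⊓ pPrimeCore p L := mem_inf.2 ⟨h1, ht⟩
  rw [Cores.isPGroup_inf_pPrimeCore hS, mem_bot] at h2
  rw [h2, one_mul]; exact hs

end TypeLevel

section Main

variable {G : Type u} [Group G] [Finite G] {p : ℕ} [hp : Fact p.Prime]

theorem sylow_le_of_closed [hsimple : IsSimpleGroup G] (h5 : 5 ≤ p)
    (h2 : ∀ a b : G, Group.IsSolvable (closure ({a, b} : Set G))) (P : Sylow p G) {Z : Subgroup G}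
    (hZP : Z ≤ P) (hZ1 : Z ≠ ⊥) (hZab : Z ≤ centralizer (Z : Set G))
    (hcl : ∀ x ∈ Z, ∀ g : G, g * x * g⁻¹ ∈ (P : Subgroup G) → g * x * g⁻¹ ∈ Z) : (P : Subgroup G) ≤ Z := by
  classical
  set Good : G → Prop := fun y => ∃ g : G, g * y * g⁻¹ ∈ Z with hGood
  set E : G → Prop := fun x => ∀ y ∈ zpowers x, (∃ k : ℕ, y ^ p ^ k = 1) → Good y with hE
  have good_conj : ∀ {y : G} (h : G), Good y → Good (h * y * h⁻¹) := by
    rintro y h ⟨g, hg⟩
    refine ⟨g * h⁻¹, ?_⟩
    have : g * h⁻¹ * (h * y * h⁻¹) * (g * h⁻¹)⁻¹ = g * y * g⁻¹ := by group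
    rwa [this]
  have good_inv : ∀ {y : G}, Good y → Good y⁻¹ := by
    rintro y ⟨g, hg⟩
    refine ⟨g, ?_⟩
    have : g * y⁻¹ * g⁻¹ = (g * y * g⁻¹)⁻¹ := by group
    rw [this]; exact inv_mem hg
  have good_P : ∀ {y : G}, Good y → y ∈ (P : Subgroup G) → y ∈ Z := by
    rintro y ⟨g, hg⟩ hy
    have e : y = g⁻¹ * (g * y * g⁻¹) * g⁻¹⁻¹ := by group
    rw [e] at hy ⊢
    exact hcl _ hg _ hy
  have good_p : ∀ {y : G}, Good y → ∃ k : ℕ, y ^ p ^ k = 1 := by
    rintro y ⟨g, hg⟩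
    obtain ⟨k, hk⟩ := P.2 ⟨_, hZP hg⟩
    have hk' : (g * y * g⁻¹) ^ p ^ k = 1 := by simpa using congrArg Subtype.val hk
    refine ⟨k, ?_⟩
    rw [conj_pow] at hk'
    have : g * y ^ p ^ k = g := mul_inv_eq_one.1 hk'
    simpa using this
  have step : ∀ b x : G, Good b → E x → E (b * x) := by
    intro b x hb hx
    set V := closure ({b, x} : Set G) with hV
    have hVs : Group.IsSolvable V := h2 b x
    have hbV : b ∈ V := subset_closure (by simp)
    have hxV : x ∈ V := subset_closure (by simp)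
    obtain ⟨S, hS⟩ := RelSylow.exists_syl (G := V) p ⊤
    have hSP : ∃ g : G, ∀ s ∈ S, g * (s : G) * g⁻¹ ∈ (P : Subgroup G) := by
      obtain ⟨c, -, hc⟩ := (RelSylow.isSyl_top_iff P).exists_conj_le (hS.2.1.map V.subtype) le_top
      refine ⟨c⁻¹, fun s hs => ?_⟩
      have := RelSylow.mem_conj_iff.1 (hc ⟨s, hs, rfl⟩)
      simpa using this
    obtain ⟨g, hg⟩ := hSP
    set φ : V →* G := (MulAut.conj g).toMonoidHom.comp V.subtype with hφ
    have hφa : ∀ v : V, φ v = g * (v : G) * g⁻¹ := fun v => rfl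
    set S₀ := S ⊓ Z.comap φ with hS₀
    have h0 : S₀ ≤ S := inf_le_left
    have hcl0 : ∀ x ∈ S₀, ∀ h : V, h * x * h⁻¹ ∈ S → h * x * h⁻¹ ∈ S₀ := by
      intro y hy h hh
      refine mem_inf.2 ⟨hh, ?_⟩
      change φ _ ∈ Z
      have h1 : φ y ∈ Z := hy.2
      have h3 : φ (h * y * h⁻¹) ∈ (P : Subgroup G) := hg _ hh
      have e : φ (h * y * h⁻¹) = φ h * φ y * (φ h)⁻¹ := by rw [map_mul, map_mul, map_inv]
      rw [e] at h3 ⊢
      exact hcl _ h1 _ h3
    have hn0 : S ≤ normalizer (S₀ : Set V) := by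
      intro s hs
      apply H32Cores.mem_normalizer_of_conj_le
      intro y hy
      exact hcl0 y hy s (mul_mem (mul_mem hs (h0 hy)) (inv_mem hs))
    have hab0 : S₀ ≤ centralizer (S₀ : Set V) := by
      intro y hy
      rw [mem_centralizer_iff]
      intro z hz
      have h1 : φ y ∈ Z := hy.2
      have h3 : φ z ∈ Z := hz.2
      have h4 := mem_centralizer_iff.1 (hZab h1) _ h3
      have hinj : Function.Injective φ := (MulAut.conj g).injective.comp V.subtype_injective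
      apply hinj
      rw [map_mul, map_mul]; exact h4
    have hK0 := le_pPrimePCore_of_abelian h5 hVs hS h0 hn0 hab0
    have hNn : (pPrimeCore p V ⊔ S₀).Normal := normal_sup_of_closed hS hK0 h0 hcl0
    have hgoodN : ∀ y : V, Good (y : G) → y ∈ pPrimeCore p V ⊔ S₀ := by
      intro y hy
      obtain ⟨k, hk⟩ := good_p hy
      obtain ⟨h, hh⟩ := mem_conj_sylow hS (y := y) (k := k) (Subtype.ext (by simpa using hk))
      apply mem_of_conj (h := h)
      apply le_sup_right (a := pPrimeCore p V)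
      refine mem_inf.2 ⟨hh, ?_⟩
      change φ _ ∈ Z
      apply good_P
      · rw [hφa]
        apply good_conj
        have := good_conj (h : G) hy
        simpa using this
      · exact hg _ hh
    have hSle : S ≤ pPrimeCore p V ⊔ S₀ := by
      apply le_of_two hS.2.1 (b := ⟨b, hbV⟩) (x := ⟨x, hxV⟩)
      · rw [eq_top_iff]
        rintro ⟨v, hv⟩ -
        have h1 : (closure ({(⟨b, hbV⟩ : V), ⟨x, hxV⟩} : Set V)).map V.subtype = V := by
          rw [MonoidHom.map_closure, Set.image_pair]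
          rfl
        have h3 : v ∈ (closure ({(⟨b, hbV⟩ : V), ⟨x, hxV⟩} : Set V)).map V.subtype := by rw [h1]; exact hv
        obtain ⟨w, hw, hwv⟩ := h3
        have : w = ⟨v, hv⟩ := Subtype.ext hwv
        rwa [← this]
      · exact hgoodN _ hb
      · rintro y ⟨m, rfl⟩ ⟨k, hk⟩
        apply hgoodN
        apply hx
        · exact ⟨m, by simp⟩
        · refine ⟨k, ?_⟩
          have := congrArg Subtype.val hk
          simpa using this
    have hSS := le_of_le_sup hS.2.1 h0 hSle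
    rintro y ⟨m, rfl⟩ ⟨k, hk⟩
    have hyV : (b * x) ^ m ∈ V := zpow_mem (mul_mem hbV hxV) m
    have hk2 : ((b * x) ^ m) ^ p ^ k = 1 := hk
    obtain ⟨h, hh⟩ := mem_conj_sylow hS (y := ⟨(b * x) ^ m, hyV⟩) (k := k) (Subtype.ext (by simpa using hk2))
    have h1 := hSS hh
    have h3 : φ (h * ⟨(b * x) ^ m, hyV⟩ * h⁻¹) ∈ Z := h1.2
    refine ⟨g * h, ?_⟩
    rw [hφa] at h3
    have e : g * (h : G) * (b * x) ^ m * (g * (h : G))⁻¹ = g * ((h * ⟨(b * x) ^ m, hyV⟩ * h⁻¹ : V) : G) * g⁻¹ := by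
      push_cast
      group
    change g * (h : G) * (b * x) ^ m * (g * (h : G))⁻¹ ∈ Z
    rw [e]
    exact h3
  have E1 : E 1 := by
    intro y hy _
    rw [zpowers_one_eq_bot, mem_bot] at hy
    exact ⟨1, by rw [hy]; simp⟩
  have htop : closure {y : G | Good y} = ⊤ := by
    have hn : (closure {y : G | Good y}).Normal := by
      refine ⟨fun n hn g => ?_⟩
      refine closure_induction (p := fun n _ => g * n * g⁻¹ ∈ closure {y : G | Good y}) ?_ ?_ ?_ ?_ hn
      · intro x hx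
        exact subset_closure (good_conj g hx)
      · simp
      · intro x y _ _ hx hy
        have : g * (x * y) * g⁻¹ = (g * x * g⁻¹) * (g * y * g⁻¹) := by group
        rw [this]; exact mul_mem hx hy
      · intro x _ hx
        have : g * x⁻¹ * g⁻¹ = (g * x * g⁻¹)⁻¹ := by group
        rw [this]; exact inv_mem hx
    rcases hn.eq_bot_or_eq_top with h | h
    · exfalso
      apply hZ1
      rw [eq_bot_iff]
      intro z hz
      rw [← h]
      exact subset_closure ⟨1, by simpa using hz⟩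
    · exact h
  have hall : ∀ x : G, E x := by
    intro x
    have hx : x ∈ closure {y : G | Good y} := by rw [htop]; exact mem_top x
    refine closure_induction_left (p := fun x _ => E x) E1 ?_ ?_ hx
    · intro b hb y _ hy
      exact step b y hb hy
    · intro b hb y _ hy
      exact step b⁻¹ y (good_inv hb) hy
  intro x hx
  apply good_P _ hx
  apply hall x x (mem_zpowers x)
  obtain ⟨k, hk⟩ := P.2 ⟨x, hx⟩
  exact ⟨k, by simpa using congrArg Subtype.val hk⟩

end Main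

end Cfsg.Agent.Lib.TwoGenA
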