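import Mathlib
import Cfsg.Agent.Lib.TwoGenB

/-!
Groups all of whose two-generated subgroups are solvable, III: completeness of the signalizer functor, the strongly
embedded subgroup and the final contradiction (helper9, S0489).
-/

set_option autoImplicit false
set_option maxHeartbeats 400000
set_option linter.unusedSectionVars false

namespace Cfsg.Agent.Lib.TwoGenC

open Subgroup Cfsg Cfsg.Agent.Lib.SigCon Cfsg.Agent.Lib.RelSylow Cfsg.Agent.Lib.TwoGenB
open scoped commutatorElement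

universe u

variable {G : Type u} [Group G] [Finite G] {p : ℕ} [hp : Fact p.Prime]

/-- a minimal counterexample. -/
structure Cx (p : ℕ) (G : Type u) [Group G] : Prop where
  simple : IsSimpleGroup G
  nsol : ¬ Group.IsSolvable G
  sol : ∀ H : Subgroup G, H ≠ ⊤ → Group.IsSolvable H
  five : 5 ≤ p
  dvd : p ∣ Nat.card G
  two : ∀ a b : G, Group.IsSolvable (closure ({a, b} : Set G))
  ab : AbP p G

theorem Cx.center_eq_bot (cx : Cx p G) : center G = ⊥ := by
  have := cx.simple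
  rcases (inferInstance : (center G).Normal).eq_bot_or_eq_top with h | h
  · exact h
  · exfalso
    apply cx.nsol
    apply Group.isSolvable_of_comm
    intro a b
    have ha : a ∈ center G := by rw [h]; exact mem_top _
    exact (mem_center_iff.1 ha b).symm

theorem Cx.centralizer_ne_top (cx : Cx p G) {x : G} (hx : x ≠ 1) : centralizer ({x} : Set G) ≠ ⊤ := by
  intro h
  apply hx
  have : x ∈ center G := by
    rw [mem_center_iff]
    intro g
    have hg : g ∈ centralizer ({x} : Set G) := by rw [h]; exact mem_top _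
    exact (mem_centralizer_singleton_iff.1 hg)
  rw [cx.center_eq_bot] at this
  exact mem_bot.1 this

theorem Cx.sol_cent (cx : Cx p G) {x : G} (hx : x ≠ 1) : Group.IsSolvable (centralizer ({x} : Set G)) :=
  cx.sol _ (cx.centralizer_ne_top hx)

theorem Cx.ne_top_of_solvable (cx : Cx p G) {H : Subgroup G} (h : Group.IsSolvable H) : H ≠ ⊤ := by
  rintro rfl
  apply cx.nsol
  exact Group.isSolvable_of_surjective (f := (⊤ : Subgroup G).subtype) (fun x => ⟨⟨x, mem_top x⟩, rfl⟩)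

theorem Cx.ne_top_of_isPGroup (cx : Cx p G) {H : Subgroup G} (h : IsPGroup p H) : H ≠ ⊤ := by
  have := h.isNilpotent
  exact cx.ne_top_of_solvable inferInstance

theorem mem_zpowers_symm {x y : G} (hy : y ^ p = 1) (hx1 : x ≠ 1) (hx : x ∈ zpowers y) : y ∈ zpowers x := by
  have hy1 : y ≠ 1 := by
    rintro rfl
    rw [zpowers_one_eq_bot, mem_bot] at hx
    exact hx1 hx
  have ho : orderOf y = p := orderOf_eq_prime hy hy1
  have hox : orderOf x = p := by
    have h1 : orderOf x ∣ p := by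
      rw [← ho]; exact orderOf_dvd_of_mem_zpowers hx
    rcases (Nat.dvd_prime hp.out).1 h1 with h | h
    · exact absurd (orderOf_eq_one_iff.1 h) hx1
    · exact h
  have h1 : zpowers x = zpowers y := by
    apply Subgroup.eq_of_le_of_card_ge (zpowers_le.2 hx)
    rw [Nat.card_zpowers, Nat.card_zpowers, ho, hox]
  rw [h1]; exact mem_zpowers y

theorem map_conj_oOf_le (g : G) (V : Subgroup G) : (oOf p V).map (MulAut.conj g).toMonoidHom ≤
    oOf p (V.map (MulAut.conj g).toMonoidHom) := by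
  apply le_oOf
  · exact map_mono (oOf_le V)
  · rw [← normalizer_conj]
    exact map_mono (le_normalizer_oOf V)
  · rw [card_conj]; exact coprime_card_oOf V

theorem map_conj_centralizer (g e : G) : (centralizer ({e} : Set G)).map (MulAut.conj g).toMonoidHom =
    centralizer ({g * e * g⁻¹} : Set G) := by
  ext x
  rw [mem_conj_iff, mem_centralizer_singleton_iff, mem_centralizer_singleton_iff]
  constructor
  · intro h
    calc x * (g * e * g⁻¹) = g * (g⁻¹ * x * g * e) * g⁻¹ := by group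
      _ = g * (e * (g⁻¹ * x * g)) * g⁻¹ := by rw [h]
      _ = g * e * g⁻¹ * x := by group
  · intro h
    calc g⁻¹ * x * g * e = g⁻¹ * (x * (g * e * g⁻¹)) * g := by group
      _ = g⁻¹ * (g * e * g⁻¹ * x) * g := by rw [h]
      _ = e * (g⁻¹ * x * g) := by group

theorem conj_mem_oOf_cent {g e c : G} (hc : c ∈ oOf p (centralizer ({e} : Set G))) :
    g * c * g⁻¹ ∈ oOf p (centralizer ({g * e * g⁻¹} : Set G)) := by
  rw [← map_conj_centralizer]
  exact map_conj_oOf_le g _ ⟨c, hc, rfl⟩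

/-- elements of a subgroup generated by two commuting elements -/
theorem mem_closure_pair_of_comm {a b x : G} (hab : a * b = b * a) (hx : x ∈ closure ({a, b} : Set G)) :
    ∃ s ∈ zpowers a, ∃ t ∈ zpowers b, x = s * t := by
  have h1 : closure ({a, b} : Set G) ≤ zpowers a ⊔ zpowers b := by
    rw [closure_le]
    rintro y (rfl | hy)
    · exact le_sup_left (b := zpowers b) (mem_zpowers _)
    · rw [Set.mem_singleton_iff] at hy
      subst hy
      exact le_sup_right (a := zpowers a) (mem_zpowers _)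
  have h2 : zpowers a ≤ normalizer (zpowers b : Set G) := by
    rw [zpowers_le]
    refine centralizer_le_normalizer _ ?_
    rw [mem_centralizer_iff]
    rintro _ ⟨n, rfl⟩
    have : Commute a b := hab
    exact (this.zpow_right n).eq.symm
  obtain ⟨s, hs, t, ht, hst⟩ := (ConjSylow.mem_sup_of_le_normalizer h2).1 (h1 hx)
  exact ⟨s, hs, t, ht, hst.symm⟩

/-- the rank two subgroup -/
structure Rk (p : ℕ) (P : Subgroup G) (e₁ e₂ : G) : Prop where
  m1 : e₁ ∈ P
  m2 : e₂ ∈ P
  ne : e₁ ≠ 1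
  p1 : e₁ ^ p = 1
  p2 : e₂ ^ p = 1
  nz : e₂ ∉ zpowers e₁

theorem AbP.comm (hab : AbP p G) {P : Subgroup G} (hP : IsPGroup p P) {a b : G} (ha : a ∈ P) (hb : b ∈ P) :
    a * b = b * a := (mem_centralizer_iff.1 (hab P hP hb) a ha)

theorem pow_of_mem_closure {e₁ e₂ : G} (hc : e₁ * e₂ = e₂ * e₁) (h1 : e₁ ^ p = 1) (h2 : e₂ ^ p = 1) {x : G}
    (hx : x ∈ closure ({e₁, e₂} : Set G)) : x ^ p = 1 := by
  obtain ⟨s, ⟨i, rfl⟩, t, ⟨j, rfl⟩, rfl⟩ := mem_closure_pair_of_comm hc hx
  have hcc : Commute (e₁ ^ i) (e₂ ^ j) := ((show Commute e₁ e₂ from hc).zpow_left i).zpow_right j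
  change (e₁ ^ i * e₂ ^ j) ^ p = 1
  rw [hcc.mul_pow, ← zpow_natCast, ← zpow_natCast, ← zpow_mul, ← zpow_mul, mul_comm i, mul_comm j, zpow_mul, zpow_mul,
    zpow_natCast, zpow_natCast, h1, h2, one_zpow, one_zpow, one_mul]

theorem exists_partner {e₁ e₂ : G} (hc : e₁ * e₂ = e₂ * e₁) (h1 : e₁ ^ p = 1) (h2 : e₂ ^ p = 1) {e : G}
    (he : e ∈ closure ({e₁, e₂} : Set G)) (hne : e ≠ 1) : ∃ e' ∈ closure ({e₁, e₂} : Set G),
      closure ({e₁, e₂} : Set G) ≤ closure ({e, e'} : Set G) := by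
  have hep : e ^ p = 1 := pow_of_mem_closure hc h1 h2 he
  by_cases h : e₁ ∈ zpowers e
  · refine ⟨e₂, subset_closure (by simp), ?_⟩
    rw [closure_le]
    rintro y (rfl | hy)
    · exact (zpowers_le.2 (subset_closure (by simp))) h
    · rw [Set.mem_singleton_iff] at hy
      subst hy
      exact subset_closure (by simp)
  · refine ⟨e₁, subset_closure (by simp), ?_⟩
    obtain ⟨s, hs, t, ht, hst⟩ := mem_closure_pair_of_comm hc he
    have ht1 : t ≠ 1 := by
      rintro rfl
      rw [mul_one] at hst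
      subst hst
      exact h (mem_zpowers_symm h1 hne hs)
    have h3 : e₂ ∈ zpowers t := mem_zpowers_symm h2 ht1 ht
    have he1 : e₁ ∈ closure ({e, e₁} : Set G) := subset_closure (by simp)
    have h4 : t ∈ closure ({e, e₁} : Set G) := by
      have : t = s⁻¹ * e := by rw [hst]; group
      rw [this]
      exact mul_mem (inv_mem ((zpowers_le.2 he1) hs)) (subset_closure (by simp))
    rw [closure_le]
    rintro y (rfl | hy)
    · exact he1
    · rw [Set.mem_singleton_iff] at hy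
      subst hy
      exact (zpowers_le.2 h4) h3

section K

variable {P : Subgroup G} {e₁ e₂ : G}

/-- the completion -/
def KK (p : ℕ) (e₁ e₂ : G) : Subgroup G :=
  closure {c : G | ∃ e ∈ closure ({e₁, e₂} : Set G), e ≠ 1 ∧ c ∈ oOf p (centralizer ({e} : Set G))}

theorem oOf_le_KK {e : G} (he : e ∈ closure ({e₁, e₂} : Set G)) (hne : e ≠ 1) :
    oOf p (centralizer ({e} : Set G)) ≤ KK p e₁ e₂ := fun c hc => subset_closure ⟨e, he, hne, hc⟩

theorem Cx.mem_KK (cx : Cx p G) (hc : e₁ * e₂ = e₂ * e₁) (h1 : e₁ ^ p = 1) (h2 : e₂ ^ p = 1) {x : G}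
    (hx : x ∈ KK p e₁ e₂) : ∃ X : Subgroup G, (Nat.card X).Coprime p ∧
      closure ({e₁, e₂} : Set G) ≤ normalizer (X : Set G) ∧ x ∈ X := by
  have step : ∀ c u : G, (∃ e ∈ closure ({e₁, e₂} : Set G), e ≠ 1 ∧ c ∈ oOf p (centralizer ({e} : Set G))) →
      (∃ X : Subgroup G, (Nat.card X).Coprime p ∧
      closure ({e₁, e₂} : Set G) ≤ normalizer (X : Set G) ∧ u ∈ X) →
      (∃ X : Subgroup G, (Nat.card X).Coprime p ∧
      closure ({e₁, e₂} : Set G) ≤ normalizer (X : Set G) ∧ c * u ∈ X) := by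
    rintro c u ⟨e, he, hne, hce⟩ ⟨X, hX1, hX2, hX3⟩
    obtain ⟨e', he', hle⟩ := exists_partner hc h1 h2 he hne
    have hep : e ^ p = 1 := pow_of_mem_closure hc h1 h2 he
    have he'p : e' ^ p ^ 1 = 1 := by rw [pow_one]; exact pow_of_mem_closure hc h1 h2 he'
    have hcm : e * e' = e' * e := by
      obtain ⟨s, ⟨i, rfl⟩, t, ⟨j, rfl⟩, rfl⟩ := mem_closure_pair_of_comm hc he
      obtain ⟨s', ⟨i', rfl⟩, t', ⟨j', rfl⟩, rfl⟩ := mem_closure_pair_of_comm hc he'
      have hcc : Commute e₁ e₂ := hc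
      have a1 : Commute (e₁ ^ i * e₂ ^ j) (e₁ ^ i' * e₂ ^ j') :=
        (((Commute.refl e₁).zpow_zpow i i').mul_right (hcc.zpow_zpow i j')).mul_left
          (((hcc.symm).zpow_zpow j i').mul_right ((Commute.refl e₂).zpow_zpow j j'))
      exact a1
    obtain ⟨X', h3, h4, h5, h6⟩ := AbP.claim cx.ab cx.five cx.two hep he'p hcm hX1 (hX2 he) (hX2 he') hX3 hce
    refine ⟨X', h3, hle.trans ?_, h6⟩
    rw [closure_le]
    rintro y (rfl | hy)
    · exact h4
    · rw [Set.mem_singleton_iff] at hy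
      subst hy; exact h5
  refine closure_induction_left (p := fun x _ => ∃ X : Subgroup G, (Nat.card X).Coprime p ∧
      closure ({e₁, e₂} : Set G) ≤ normalizer (X : Set G) ∧ x ∈ X) ?_ ?_ ?_ hx
  · refine ⟨⊥, by simp, ?_, one_mem _⟩
    have : normalizer ((⊥ : Subgroup G) : Set G) = ⊤ := normalizer_eq_top (H := (⊥ : Subgroup G))
    rw [this]; exact le_top
  · intro c hc u _ hu
    exact step c u hc hu
  · rintro c ⟨e, he, hne, hc⟩ u _ hu
    exact step c⁻¹ u ⟨e, he, hne, inv_mem hc⟩ hu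

theorem Cx.coprime_KK (cx : Cx p G) (hc : e₁ * e₂ = e₂ * e₁) (h1 : e₁ ^ p = 1) (h2 : e₂ ^ p = 1) :
    (Nat.card (KK p e₁ e₂)).Coprime p := by
  rw [Nat.coprime_comm, Nat.Prime.coprime_iff_not_dvd hp.out]
  intro hd
  obtain ⟨⟨x, hx⟩, hxo⟩ := exists_prime_orderOf_dvd_card' p hd
  rw [Subgroup.orderOf_mk] at hxo
  obtain ⟨X, hX1, -, hX3⟩ := cx.mem_KK hc h1 h2 hx
  have h3 := coprime_orderOf hX1 hX3
  rw [hxo] at h3
  exact hp.out.one_lt.ne' ((Nat.coprime_self p).1 h3)

theorem Cx.oOf_le_KK_of_mem (cx : Cx p G) (hP : IsSyl p P ⊤) (hr : Rk p P e₁ e₂) {f : G} (hf : f ∈ P) (hf1 : f ≠ 1) :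
    oOf p (centralizer ({f} : Set G)) ≤ KK p e₁ e₂ := by
  have hPp : IsPGroup p P := hP.2.1
  have hc : e₁ * e₂ = e₂ * e₁ := AbP.comm cx.ab hPp hr.m1 hr.m2
  set E := closure ({e₁, e₂} : Set G) with hE
  have hEP : E ≤ P := by
    rw [hE, closure_le]
    rintro y (rfl | hy)
    · exact hr.m1
    · rw [Set.mem_singleton_iff] at hy
      subst hy; exact hr.m2
  have hEp : IsPGroup p E := hPp.to_le hEP
  have hPC : ∀ {f : G}, f ∈ P → P ≤ centralizer ({f} : Set G) := by
    intro f hf x hx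
    exact mem_centralizer_singleton_iff.2 (AbP.comm cx.ab hPp hx hf)
  set Θ := oOf p (centralizer ({f} : Set G)) with hΘ
  have hΘc : (Nat.card Θ).Coprime p := coprime_card_oOf _
  have hΘs : Group.IsSolvable Θ := by
    have := cx.sol_cent hf1
    exact Group.isSolvable_of_isSolvable_injective (f := inclusion (oOf_le (centralizer ({f} : Set G)))) (inclusion_injective _)
  have hEm : IsMulCommutative E := by
    rw [← le_centralizer_iff_isMulCommutative]
    exact cx.ab E hEp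
  have h1 := CoprimeGen.le_iSup_centralizer_of_solvable (A := E) (r := p) (x := e₁) (y := e₂) hp.out
    (subset_closure (by simp)) (subset_closure (by simp)) hEm hr.ne hr.p1 hr.p2 hr.nz _ Θ rfl hΘs
    ((hEP.trans (hPC hf)).trans (le_normalizer_oOf _)) (coprime_of_pgroup hEp hΘc).symm
  refine h1.trans (iSup₂_le fun a ha => ?_)
  have ha1 : a ∈ E := ha.1
  refine le_trans ?_ (oOf_le_KK ha1 ha.2)
  have haP : a ∈ P := hEP ha1
  apply AbP.le_oOf_of_invariant cx.ab cx.five (cx.sol_cent ha.2) (hP.of_le (hPC haP) le_top) inf_le_right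
  · exact Nat.Coprime.coprime_dvd_left (Subgroup.card_dvd_of_le inf_le_left) hΘc
  · refine le_trans (le_inf ?_ ?_) inf_normalizer_le_normalizer_inf
    · exact (hPC hf).trans (le_normalizer_oOf _)
    · exact (hPC haP).trans le_normalizer

theorem Cx.normalizer_le_KK (cx : Cx p G) (hP : IsSyl p P ⊤) (hr : Rk p P e₁ e₂) :
    normalizer (P : Set G) ≤ normalizer (KK p e₁ e₂ : Set G) := by
  have hEP : closure ({e₁, e₂} : Set G) ≤ P := by
    rw [closure_le]
    rintro y (rfl | hy)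
    · exact hr.m1
    · rw [Set.mem_singleton_iff] at hy
      subst hy; exact hr.m2
  intro n hn
  apply H32Cores.mem_normalizer_of_conj_le
  intro x hx
  have h4 : KK p e₁ e₂ ≤ (KK p e₁ e₂).comap (MulAut.conj n).toMonoidHom := by
    conv_lhs => rw [KK]
    rw [closure_le]
    rintro c ⟨e, he, hne, hc⟩
    change n * c * n⁻¹ ∈ KK p e₁ e₂
    refine cx.oOf_le_KK_of_mem hP hr (f := n * e * n⁻¹) ?_ ?_ (conj_mem_oOf_cent hc)
    · exact (mem_normalizer_iff.1 hn _).1 (hEP he)
    · intro h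
      apply hne
      have := mul_inv_eq_one.1 h
      simpa using this
  exact h4 hx

/-- the strongly embedded subgroup. -/
theorem Cx.exists_gamma (cx : Cx p G) (hP : IsSyl p P ⊤) (hr : Rk p P e₁ e₂) : ∃ Γ : Subgroup G, Γ ≠ ⊤ ∧
    normalizer (P : Set G) ≤ Γ ∧ ∀ f ∈ P, f ≠ 1 → centralizer ({f} : Set G) ≤ Γ := by
  have hPp : IsPGroup p P := hP.2.1
  have hc : e₁ * e₂ = e₂ * e₁ := AbP.comm cx.ab hPp hr.m1 hr.m2
  refine ⟨KK p e₁ e₂ ⊔ normalizer (P : Set G), ?_, le_sup_right, ?_⟩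
  · intro htop
    have hn : (KK p e₁ e₂).Normal := by
      rw [← normalizer_eq_top_iff, eq_top_iff, ← htop]
      exact sup_le le_normalizer (cx.normalizer_le_KK hP hr)
    have := cx.simple
    rcases hn.eq_bot_or_eq_top with h | h
    · rw [h, bot_sup_eq] at htop
      have hPn : P.Normal := normalizer_eq_top_iff.1 htop
      rcases hPn.eq_bot_or_eq_top with h | h
      · apply hr.ne
        have := hr.m1
        rw [h] at this
        exact mem_bot.1 this
      · exact cx.ne_top_of_isPGroup hPp h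
    · have h3 := cx.coprime_KK hc hr.p1 hr.p2
      rw [h, card_top, Nat.coprime_comm, Nat.Prime.coprime_iff_not_dvd hp.out] at h3
      exact h3 cx.dvd
  · intro f hf hf1 x hx
    have hPC : P ≤ centralizer ({f} : Set G) := by
      intro x hx
      exact mem_centralizer_singleton_iff.2 (AbP.comm cx.ab hPp hx hf)
    have hPs : IsSyl p P (centralizer ({f} : Set G)) := hP.of_le hPC le_top
    have hs := cx.sol_cent hf1
    have hPk : P ≤ kOf p (centralizer ({f} : Set G)) := AbP.syl_le cx.ab cx.five hs hPs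
    have hPk' : IsSyl p P (kOf p (centralizer ({f} : Set G))) := hPs.of_le hPk (kOf_le _)
    obtain ⟨n, hn, y, hy, rfl⟩ := hPk'.frattini (le_normalizer_kOf _) hx
    refine mul_mem ?_ (le_sup_right (a := KK p e₁ e₂) hy)
    obtain ⟨t, ht, s, hs, rfl⟩ := AbP.exists_mul cx.ab cx.five hs hPs hn
    exact mul_mem (le_sup_left (b := normalizer (P : Set G)) (cx.oOf_le_KK_of_mem hP hr hf hf1 ht))
      (le_sup_right (a := KK p e₁ e₂) (le_normalizer hs))

end K

/-- **the final contradiction** in the noncyclic case. -/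
theorem Cx.false_of_rk (cx : Cx p G) {P : Subgroup G} {e e' : G} (hP : IsSyl p P ⊤) (hr : Rk p P e e') : False := by
  classical
  obtain ⟨Γ, hΓt, hNΓ, hCΓ⟩ := cx.exists_gamma hP hr
  have hPp : IsPGroup p P := hP.2.1
  have hPΓ : P ≤ Γ := le_normalizer.trans hNΓ
  have hPsΓ : IsSyl p P Γ := hP.of_le hPΓ le_top
  -- (a)
  have ha : ∀ x ∈ Γ, x ≠ 1 → (∃ k : ℕ, x ^ p ^ k = 1) → centralizer ({x} : Set G) ≤ Γ := by
    rintro x hx hx1 ⟨k, hk⟩
    obtain ⟨γ, hγ, hle⟩ := hPsΓ.exists_conj_le (isPGroup_zpowers hk) (zpowers_le.2 hx)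
    have h1 : γ⁻¹ * x * γ ∈ P := mem_conj_iff.1 (hle (mem_zpowers x))
    have h2 := hCΓ _ h1 (by
      intro h
      apply hx1
      have h3 : x = γ * (γ⁻¹ * x * γ) * γ⁻¹ := by group
      rw [h3, h]; group)
    intro y hy
    have h3 : γ⁻¹ * y * γ ∈ centralizer ({γ⁻¹ * x * γ} : Set G) := by
      rw [mem_centralizer_singleton_iff] at hy ⊢
      calc γ⁻¹ * y * γ * (γ⁻¹ * x * γ) = γ⁻¹ * (y * x) * γ := by group
        _ = γ⁻¹ * (x * y) * γ := by rw [hy]
        _ = γ⁻¹ * x * γ * (γ⁻¹ * y * γ) := by group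
    have h4 : y = γ * (γ⁻¹ * y * γ) * γ⁻¹ := by group
    rw [h4]
    exact mul_mem (mul_mem hγ (h2 h3)) (inv_mem hγ)
  -- (b)
  have hb : ∀ g : G, g⁻¹ * e * g ∈ Γ → g ∈ Γ := by
    intro g hg
    have hne : g⁻¹ * e * g ≠ 1 := by
      intro h
      apply hr.ne
      have h3 : e = g * (g⁻¹ * e * g) * g⁻¹ := by group
      rw [h3, h]; group
    have hpow : (g⁻¹ * e * g) ^ p ^ 1 = 1 := by
      have := conj_pow (a := g⁻¹) (b := e) (i := p)
      rw [inv_inv] at this
      rw [pow_one, this, hr.p1]; group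
    have h1 := ha _ hg hne ⟨1, hpow⟩
    have h2 : P.map (MulAut.conj g⁻¹).toMonoidHom ≤ Γ := by
      rintro _ ⟨x, hx, rfl⟩
      apply h1
      rw [mem_centralizer_singleton_iff]
      have h3 := AbP.comm cx.ab hPp hx hr.m1
      change g⁻¹ * x * g⁻¹⁻¹ * (g⁻¹ * e * g) = g⁻¹ * e * g * (g⁻¹ * x * g⁻¹⁻¹)
      calc g⁻¹ * x * g⁻¹⁻¹ * (g⁻¹ * e * g) = g⁻¹ * (x * e) * g := by group
        _ = g⁻¹ * (e * x) * g := by rw [h3]
        _ = g⁻¹ * e * g * (g⁻¹ * x * g⁻¹⁻¹) := by group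
    have h3 : IsSyl p (P.map (MulAut.conj g⁻¹).toMonoidHom) Γ := by
      have h4 := hP.conj_isSyl' (g := g⁻¹) (by rw [normalizer_eq_top]; exact mem_top _)
      exact h4.of_le h2 le_top
    obtain ⟨γ, hγ, hγe⟩ := h3.conj hPsΓ
    rw [conj_conj] at hγe
    have h5 : γ * g⁻¹ ∈ normalizer (P : Set G) := mem_normalizer_iff_map.2 hγe
    have h6 := hNΓ h5
    have h7 : g = (γ * g⁻¹)⁻¹ * γ := by group
    rw [h7]
    exact mul_mem (inv_mem h6) hγ
  -- an element outside
  obtain ⟨g, hg⟩ : ∃ g : G, g ∉ Γ := by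
    by_contra hcon
    push Not at hcon
    exact hΓt (eq_top_iff.2 fun x _ => hcon x)
  have heg : g⁻¹ * e * g ∉ Γ := fun h => hg (hb g h)
  have hegp : (g⁻¹ * e * g) ^ p = 1 := by
    have := conj_pow (a := g⁻¹) (b := e) (i := p)
    rw [inv_inv] at this
    rw [this, hr.p1]; group
  set H := closure ({e, g⁻¹ * e * g} : Set G) with hH
  have hHs : Group.IsSolvable H := cx.two _ _
  have heH : e ∈ H := subset_closure (by simp)
  have hegH : g⁻¹ * e * g ∈ H := subset_closure (by simp)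
  have hep1 : e ^ p ^ 1 = 1 := by rw [pow_one]; exact hr.p1
  obtain ⟨S, heS, hS⟩ := exists_isSyl_ge (isPGroup_zpowers hep1) (zpowers_le.2 heH)
  have heS' : e ∈ S := heS (mem_zpowers e)
  have hSΓ : S ≤ Γ := by
    intro s hs
    apply hCΓ e hr.m1 hr.ne
    exact mem_centralizer_singleton_iff.2 (AbP.comm cx.ab hS.2.1 hs heS')
  have hHk : H ≤ kOf p H := cx.ab.closure_le_kOf cx.five hHs heH hegH hr.p1 hegp
  set T := oOf p H with hT
  have hTc : (Nat.card T).Coprime p := coprime_card_oOf _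
  have hTs : Group.IsSolvable T :=
    Group.isSolvable_of_isSolvable_injective (f := inclusion (oOf_le H)) (inclusion_injective _)
  -- generation by centralizers
  have gen : ∀ (A X : Subgroup G) (s : G), IsPGroup p A → A ≤ Γ → e ∈ A → s ∈ A → s ^ p = 1 → s ∉ zpowers e →
      Group.IsSolvable X → (Nat.card X).Coprime p → A ≤ normalizer (X : Set G) → X ≤ Γ := by
    intro A X s hA hAΓ heA hsA hsp hse hXs hXc hAX
    have hAm : IsMulCommutative A := by
      rw [← le_centralizer_iff_isMulCommutative]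
      exact cx.ab A hA
    have h1 := CoprimeGen.le_iSup_centralizer_of_solvable (A := A) (r := p) (x := e) (y := s) hp.out
      heA hsA hAm hr.ne hr.p1 hsp hse _ X rfl hXs hAX (coprime_of_pgroup hA hXc).symm
    refine h1.trans (iSup₂_le fun a haa => ?_)
    refine inf_le_right.trans (ha a (hAΓ haa.1) haa.2 ?_)
    obtain ⟨k, hk⟩ := hA ⟨a, haa.1⟩
    exact ⟨k, by simpa using congrArg Subtype.val hk⟩
  by_cases hcase : ∃ s ∈ S, s ^ p = 1 ∧ s ∉ zpowers e
  · obtain ⟨s, hs, hsp, hse⟩ := hcase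
    have hTΓ : T ≤ Γ := gen S T s hS.2.1 hSΓ heS' hs hsp hse hTs hTc (hS.1.trans (le_normalizer_oOf H))
    apply heg
    obtain ⟨t, ht, s', hs', hts⟩ := cx.ab.exists_mul cx.five hHs hS (hHk hegH)
    rw [hts]
    exact mul_mem (hTΓ ht) (hSΓ hs')
  · push Not at hcase
    -- `g⁻¹ e g` is conjugate into `⟨e⟩`
    obtain ⟨k, hk, hkz⟩ : ∃ k ∈ T, g⁻¹ * e * g ∈ zpowers (k⁻¹ * e * k) := by
      have hzp : IsPGroup p (zpowers (g⁻¹ * e * g)) := isPGroup_zpowers (k := 1) (by rw [pow_one]; exact hegp)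
      obtain ⟨h, hh, hle⟩ := hS.exists_conj_le hzp (zpowers_le.2 hegH)
      have h1 : h⁻¹ * (g⁻¹ * e * g) * h ∈ S := mem_conj_iff.1 (hle (mem_zpowers _))
      set y := h⁻¹ * (g⁻¹ * e * g) * h with hy
      have hyp : y ^ p = 1 := by
        have := conj_pow (a := h⁻¹) (b := g⁻¹ * e * g) (i := p)
        rw [inv_inv] at this
        rw [hy, this, hegp]; group
      have hye : y ∈ zpowers e := hcase y h1 hyp
      obtain ⟨t, ht, s, hs, hts⟩ := cx.ab.exists_mul cx.five hHs hS (hHk hh)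
      refine ⟨t⁻¹, inv_mem ht, ?_⟩
      have hys : s * y = y * s := AbP.comm cx.ab hS.2.1 hs h1
      have h3 : g⁻¹ * e * g = t * y * t⁻¹ := by
        have h4 : g⁻¹ * e * g = h * y * h⁻¹ := by rw [hy]; group
        rw [h4, hts]
        calc t * s * y * (t * s)⁻¹ = t * (s * y) * s⁻¹ * t⁻¹ := by group
          _ = t * (y * s) * s⁻¹ * t⁻¹ := by rw [hys]
          _ = t * y * t⁻¹ := by group
      rw [h3]
      obtain ⟨j, hj⟩ := hye
      have hj' : e ^ j = y := hj
      refine ⟨j, ?_⟩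
      change (t⁻¹⁻¹ * e * t⁻¹) ^ j = t * y * t⁻¹
      rw [inv_inv, conj_zpow, hj']
    set V := closure ({e, e' * k} : Set G) with hV
    have hVs : Group.IsSolvable V := cx.two _ _
    have heV : e ∈ V := subset_closure (by simp)
    have hekV : e' * k ∈ V := subset_closure (by simp)
    have hkek : k⁻¹ * e * k ∈ V := by
      have h3 : e * e' = e' * e := AbP.comm cx.ab hPp hr.m1 hr.m2
      have h4 : k⁻¹ * e * k = (e' * k)⁻¹ * e * (e' * k) := by
        calc k⁻¹ * e * k = k⁻¹ * (e'⁻¹ * (e' * e)) * k := by group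
          _ = k⁻¹ * (e'⁻¹ * (e * e')) * k := by rw [h3]
          _ = (e' * k)⁻¹ * e * (e' * k) := by group
      rw [h4]
      exact mul_mem (mul_mem (inv_mem hekV) heV) hekV
    have hegV : g⁻¹ * e * g ∈ V := (zpowers_le.2 hkek) hkz
    have hHV : H ≤ V := by
      rw [hH, closure_le]
      rintro x (rfl | hx)
      · exact heV
      · rw [Set.mem_singleton_iff] at hx
        subst hx; exact hegV
    have hkV : k ∈ V := hHV (oOf_le H hk)
    have he'V : e' ∈ V := by
      have := mul_mem hekV (inv_mem hkV)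
      simpa using this
    have hHkV : H ≤ kOf p V := cx.ab.closure_le_kOf cx.five hVs heV hegV hr.p1 hegp
    have hTV : T ≤ oOf p V := le_oOf_of_le_kOf ((oOf_le H).trans hHkV) hTc
    have hTVs : Group.IsSolvable (oOf p V) :=
      Group.isSolvable_of_isSolvable_injective (f := inclusion (oOf_le V)) (inclusion_injective _)
    have hTVΓ : oOf p V ≤ Γ := gen (P ⊓ V) (oOf p V) e' (hPp.to_le inf_le_left) (inf_le_left.trans hPΓ)
      (mem_inf.2 ⟨hr.m1, heV⟩) (mem_inf.2 ⟨hr.m2, he'V⟩) hr.p2 hr.nz hTVs (coprime_card_oOf _)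
      (inf_le_right.trans (le_normalizer_oOf V))
    have hkΓ : k ∈ Γ := hTVΓ (hTV hk)
    apply heg
    have h5 : k⁻¹ * e * k ∈ Γ := mul_mem (mul_mem (inv_mem hkΓ) (hPΓ hr.m1)) hkΓ
    exact (zpowers_le.2 h5) hkz

end Cfsg.Agent.Lib.TwoGenC
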