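import Mathlib

/-! S4383, piece T1 -/

set_option autoImplicit false
set_option linter.all false
open scoped Pointwise

namespace Cfsg.Agent.Lib.TwoMax

theorem claim_aux {G : Type*} [Group G] [Finite G] [IsSimpleGroup G] {K L : Subgroup G}
    (hall : ∀ M : Subgroup G, IsCoatom M → ∃ g : G, M = MulAut.conj g • K ∨ M = MulAut.conj g • L)
    {p : ℕ} [Fact p.Prime] (n : ℕ) : ∀ {X : Subgroup G}, Nat.card G - Nat.card X = n → IsPGroup p X →
      ¬ Nat.card X ∣ Nat.card K → ∀ {A B : Subgroup G}, IsCoatom A → IsCoatom B → X ≤ A → X ≤ B → A = B := by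
  induction n using Nat.strong_induction_on with
  | _ n ih =>
  intro X hn hX hXK A B hA hB hXA hXB
  have hXbot : X ≠ ⊥ := by
    rintro rfl
    exact hXK (by simp)
  have hXtop : X ≠ ⊤ := by
    rintro rfl
    exact hA.1 (top_le_iff.1 hXA)
  have hNtop : Subgroup.normalizer (X : Set G) ≠ ⊤ := by
    intro h
    have : X.Normal := Subgroup.normalizer_eq_top_iff.1 h
    rcases this.eq_bot_or_eq_top with h | h
    · exact hXbot h
    · exact hXtop h
  obtain ⟨N, hN, hNX⟩ := (eq_top_or_exists_le_coatom (Subgroup.normalizer (X : Set G))).resolve_left hNtop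
  have hXN : X ≤ N := Subgroup.le_normalizer.trans hNX
  have hcard : ∀ (g : G) (H : Subgroup G), Nat.card (MulAut.conj g • H : Subgroup G) = Nat.card H := by
    intro g H
    exact Nat.card_congr (Subgroup.equivSMul (MulAut.conj g) H).symm.toEquiv
  have hL : ∀ C : Subgroup G, IsCoatom C → X ≤ C → ∃ g : G, C = MulAut.conj g • L := by
    intro C hC hXC
    obtain ⟨g, h | h⟩ := hall C hC
    · exfalso
      apply hXK
      rw [← hcard g K, ← h]
      exact Subgroup.card_dvd_of_le hXC
    · exact ⟨g, h⟩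
  suffices key : ∀ C : Subgroup G, IsCoatom C → X ≤ C → C = N from (key A hA hXA).trans (key B hB hXB).symm
  intro C hC hXC
  obtain ⟨g, hg⟩ := hL C hC hXC
  obtain ⟨h, hh⟩ := hL N hN hXN
  have hconj : C = MulAut.conj (g * h⁻¹) • N := by
    rw [hh, smul_smul, ← map_mul, inv_mul_cancel_right, hg]
  set a0 := g * h⁻¹ with ha0
  obtain ⟨Q, hQ⟩ := (hX.comap_subtype (K := C) : IsPGroup p (X.subgroupOf C)).exists_le_sylow
  set Q' : Subgroup G := (Q : Subgroup C).map C.subtype with hQ'
  have hXQ : X ≤ Q' := by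
    intro x hx
    exact ⟨⟨x, hXC hx⟩, hQ (Subgroup.mem_subgroupOf.2 hx), rfl⟩
  have hQC : Q' ≤ C := by
    rintro _ ⟨y, -, rfl⟩
    exact y.2
  have hQp : IsPGroup p Q' := Q.2.map _
  by_cases hne : X = Q'
  · -- `X` is a Sylow subgroup of `C`
    set Y : Subgroup G := MulAut.conj a0 • X with hY
    have hYC : Y ≤ C := by
      rw [hY, hconj]
      exact Subgroup.pointwise_smul_le_pointwise_smul_iff.2 hXN
    have hcQ : Nat.card (Q : Subgroup C) = Nat.card X := by
      rw [hne, hQ']
      exact (Subgroup.card_map_of_injective C.subtype_injective).symm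
    have hcY : Nat.card (Y.subgroupOf C) = p ^ (Nat.card C).factorization p := by
      rw [Nat.card_congr (Subgroup.subgroupOfEquivOfLe hYC).toEquiv, hY, hcard, ← hcQ]
      exact Q.card_eq_multiplicity
    let Q2 : Sylow p C := Sylow.ofCard (Y.subgroupOf C) hcY
    obtain ⟨a, ha⟩ := MulAction.exists_smul_eq C Q2 Q
    have hmem : (a : G) * a0 ∈ Subgroup.normalizer (X : Set G) := by
      refine Subgroup.mem_normalizer_fintype (S := (X : Set G)) ?_
      intro x hx
      have h1 : a0 * x * a0⁻¹ ∈ Y := by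
        rw [hY]
        exact Subgroup.smul_mem_pointwise_smul x (MulAut.conj a0) X hx
      have h2 : (⟨a0 * x * a0⁻¹, hYC h1⟩ : C) ∈ (Q2 : Subgroup C) := Subgroup.mem_subgroupOf.2 h1
      have h3 : MulAut.conj a • (⟨a0 * x * a0⁻¹, hYC h1⟩ : C) ∈ (MulAut.conj a • (Q2 : Subgroup C)) :=
        Subgroup.smul_mem_pointwise_smul _ _ _ h2
      have h4 : (MulAut.conj a • (Q2 : Subgroup C)) = (Q : Subgroup C) := by
        rw [← ha]; rfl
      rw [h4] at h3
      have h5 : ((MulAut.conj a • (⟨a0 * x * a0⁻¹, hYC h1⟩ : C) : C) : G) ∈ Q' := ⟨_, h3, rfl⟩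
      rw [← hne] at h5
      have h6 : ((MulAut.conj a • (⟨a0 * x * a0⁻¹, hYC h1⟩ : C) : C) : G) =
          (a : G) * a0 * x * ((a : G) * a0)⁻¹ := by
        show (a : G) * (a0 * x * a0⁻¹) * (a : G)⁻¹ = _
        group
      rw [h6] at h5
      exact h5
    have h7 : MulAut.conj ((a : G) * a0) • N = N := Subgroup.conj_smul_eq_self_of_mem (hNX hmem)
    have h8 : MulAut.conj ((a : G) * a0) • N = C := by
      rw [map_mul, mul_smul, ← hconj]
      exact Subgroup.conj_smul_eq_self_of_mem a.2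
    rw [← h8, h7]
  · -- normalizers grow
    have hlt : X < Q' := lt_of_le_of_ne hXQ hne
    haveI : Group.IsNilpotent Q' := hQp.isNilpotent
    have hnc := Group.normalizerCondition_of_isNilpotent (G := Q')
    have h1 : X.subgroupOf Q' < ⊤ := by
      rw [lt_top_iff_ne_top]
      intro h
      rw [Subgroup.subgroupOf_eq_top] at h
      exact hne (le_antisymm hXQ h)
    obtain ⟨x, hx, hxX⟩ := SetLike.exists_of_lt (hnc _ h1)
    set X1 : Subgroup G := Subgroup.normalizer (X : Set G) ⊓ Q' with hX1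
    have hXX1 : X ≤ X1 := le_inf Subgroup.le_normalizer hXQ
    have hxn : (x : G) ∈ Subgroup.normalizer (X : Set G) := by
      refine Subgroup.mem_normalizer_fintype (S := (X : Set G)) ?_
      intro y hy
      have h2 := (Subgroup.mem_normalizer_iff.1 hx ⟨y, hXQ hy⟩).1 (Subgroup.mem_subgroupOf.2 hy)
      exact Subgroup.mem_subgroupOf.1 h2
    have hxX1 : (x : G) ∈ X1 := Subgroup.mem_inf.2 ⟨hxn, x.2⟩
    have hltX1 : X < X1 := lt_of_le_of_ne hXX1 (fun e => hxX (Subgroup.mem_subgroupOf.2 (by rw [e]; exact hxX1)))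
    have hcl : Nat.card X < Nat.card X1 := by
      by_contra hcon
      exact hltX1.ne (Subgroup.eq_of_le_of_card_ge hXX1 (not_lt.1 hcon))
    have hle : Nat.card X1 ≤ Nat.card G := Subgroup.card_le_card_group X1
    refine ih (Nat.card G - Nat.card X1) (by omega) rfl (hQp.to_le inf_le_right) ?_ hC hN
      (inf_le_right.trans hQC) (inf_le_left.trans hNX)
    intro hd
    exact hXK ((Subgroup.card_dvd_of_le hXX1).trans hd)

/-- T1 (claim) -/
theorem claim {G : Type*} [Group G] [Finite G] [IsSimpleGroup G] (hns : ¬ IsSolvable G) {K L : Subgroup G}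
    (hall : ∀ M : Subgroup G, IsCoatom M → ∃ g : G, M = MulAut.conj g • K ∨ M = MulAut.conj g • L)
    {p : ℕ} [Fact p.Prime] {X : Subgroup G} (hX : IsPGroup p X) (hXK : ¬ Nat.card X ∣ Nat.card K)
    {A B : Subgroup G} (hA : IsCoatom A) (hB : IsCoatom B) (hXA : X ≤ A) (hXB : X ≤ B) : A = B :=
  claim_aux hall _ rfl hX hXK hA hB hXA hXB

end Cfsg.Agent.Lib.TwoMax
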