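import Mathlib

set_option autoImplicit false
set_option linter.all false
open scoped Pointwise

namespace Cfsg.Agent.Lib.TwoMax

/-- T2 (counting) -/
theorem count {G : Type*} [Group G] [Finite G] [IsSimpleGroup G] (hns : ¬ IsSolvable G) {K L : Subgroup G}
    (hK : IsCoatom K) (hL : IsCoatom L)
    (hall : ∀ M : Subgroup G, IsCoatom M → ∃ g : G, M = MulAut.conj g • K ∨ M = MulAut.conj g • L)
    {p : ℕ} [Fact p.Prime]
    (hcl : ∀ X : Subgroup G, IsPGroup p X → ¬ Nat.card X ∣ Nat.card K → ∀ A B : Subgroup G, IsCoatom A → IsCoatom B →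
      X ≤ A → X ≤ B → A = B) (e : ℕ) (he : p ^ e ∣ K.index) : p ^ e ∣ L.index - 1 := by
  classical
  rcases Nat.eq_zero_or_pos e with rfl | hepos
  · simp
  have hpK : p ∣ K.index := (dvd_pow_self p hepos.ne').trans he
  have hpp : p.Prime := Fact.out
  obtain ⟨P⟩ : Nonempty (Sylow p G) := inferInstance
  have hpP : ¬ p ∣ (P : Subgroup G).index := P.not_dvd_index
  have hcardconj : ∀ (g : G) (M : Subgroup G), Nat.card (MulAut.conj g • M : Subgroup G) = Nat.card M := by
    intro g M
    exact Nat.card_congr (Subgroup.equivSMul (MulAut.conj g) M).symm.toEquiv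
  have hPtop : (P : Subgroup G) ≠ ⊤ := by
    intro h
    apply hns
    have h1 : IsPGroup p (⊤ : Subgroup G) := h ▸ P.2
    have h2 : IsPGroup p G := h1.of_equiv Subgroup.topEquiv
    haveI := h2.isNilpotent
    exact (inferInstance : Group.IsSolvable G)
  have hPne : Nat.card (P : Subgroup G) ≠ 1 := by
    intro h
    apply hpP
    have h1 := (P : Subgroup G).card_mul_index
    rw [h, one_mul] at h1
    rw [h1]
    exact hpK.trans K.index_dvd_card
  obtain ⟨A0, hA0, hPA0⟩ := (eq_top_or_exists_le_coatom (P : Subgroup G)).resolve_left hPtop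
  have hA0L : ∃ g0 : G, A0 = MulAut.conj g0 • L := by
    obtain ⟨g, h | h⟩ := hall A0 hA0
    · exfalso
      have h1 : Nat.card (P : Subgroup G) ∣ Nat.card K := by
        rw [← hcardconj g K, ← h]
        exact Subgroup.card_dvd_of_le hPA0
      apply hpP
      have h2 : Nat.card (P : Subgroup G) * p ∣ Nat.card (P : Subgroup G) * (P : Subgroup G).index := by
        rw [(P : Subgroup G).card_mul_index, ← K.card_mul_index]
        exact Nat.mul_dvd_mul h1 hpK
      exact Nat.dvd_of_mul_dvd_mul_left Nat.card_pos h2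
    · exact ⟨g, h⟩
  obtain ⟨g0, hg0⟩ := hA0L
  have hcoat : ∀ g : G, IsCoatom (MulAut.conj g • L : Subgroup G) := by
    intro g
    constructor
    · intro h
      apply hL.1
      have : MulAut.conj g⁻¹ • (MulAut.conj g • L) = MulAut.conj g⁻¹ • (⊤ : Subgroup G) := by rw [h]
      rw [smul_smul, ← map_mul, inv_mul_cancel, map_one, one_smul] at this
      rw [this]
      ext x
      simp [Subgroup.mem_pointwise_smul_iff_inv_smul_mem]
    · intro N hN
      have h1 : L < MulAut.conj g⁻¹ • N := by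
        have h2 : MulAut.conj g⁻¹ • (MulAut.conj g • L) < MulAut.conj g⁻¹ • N := by
          rw [lt_iff_le_not_ge] at hN ⊢
          refine ⟨Subgroup.pointwise_smul_le_pointwise_smul_iff.2 hN.1, fun h => hN.2 ?_⟩
          exact Subgroup.pointwise_smul_le_pointwise_smul_iff.1 h
        rwa [smul_smul, ← map_mul, inv_mul_cancel, map_one, one_smul] at h2
      have h3 := hL.2 _ h1
      have : MulAut.conj g • (MulAut.conj g⁻¹ • N) = MulAut.conj g • (⊤ : Subgroup G) := by rw [h3]
      rw [smul_smul, ← map_mul, mul_inv_cancel, map_one, one_smul] at this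
      rw [this]
      ext x
      simp [Subgroup.mem_pointwise_smul_iff_inv_smul_mem]
  -- L is self-normalizing
  have hLself : ∀ g : G, MulAut.conj g • L = L → g ∈ L := by
    have hn : Subgroup.normalizer (L : Set G) = L := by
      by_contra hne
      have h1 : L < Subgroup.normalizer (L : Set G) := lt_of_le_of_ne Subgroup.le_normalizer (Ne.symm hne)
      have h2 := hL.2 _ h1
      have h3 : L.Normal := Subgroup.normalizer_eq_top_iff.1 h2
      rcases h3.eq_bot_or_eq_top with h4 | h4
      · apply hPne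
        have h5 : Nat.card (P : Subgroup G) ∣ Nat.card A0 := Subgroup.card_dvd_of_le hPA0
        rw [hg0, hcardconj, h4, Subgroup.card_bot] at h5
        exact Nat.dvd_one.1 h5
      · exact hL.1 h4
    intro g hg
    rw [← hn, Subgroup.mem_normalizer_iff]
    intro h
    conv_rhs => rw [← hg]
    rw [Subgroup.mem_pointwise_smul_iff_inv_smul_mem]
    simp [MulAut.smul_def, mul_assoc]
  have hLeq : ∀ g g' : G, MulAut.conj g • L = MulAut.conj g' • L → (g : G ⧸ L) = g' := by
    intro g g' h
    rw [QuotientGroup.eq]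
    apply hLself
    rw [map_mul, mul_smul, ← h, smul_smul, ← map_mul, inv_mul_cancel, map_one, one_smul]
  -- the point q0 is fixed by P
  have hfix : ∀ (x : (P : Subgroup G)), x • (g0 : G ⧸ L) = (g0 : G ⧸ L) := by
    intro x
    have h1 : (x : G) ∈ A0 := hPA0 x.2
    rw [hg0, Subgroup.mem_pointwise_smul_iff_inv_smul_mem] at h1
    show (((x : G) * g0 : G) : G ⧸ L) = g0
    rw [eq_comm, QuotientGroup.eq]
    have h2 : (MulAut.conj g0)⁻¹ • (x : G) = g0⁻¹ * ((x : G) * g0) := by
      simp [MulAut.smul_def, mul_assoc]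
    rw [← h2]; exact h1
  let Y : SubMulAction (P : Subgroup G) (G ⧸ L) :=
    { carrier := {q | q ≠ (g0 : G ⧸ L)}
      smul_mem' := fun x q hq h => hq (by
        have h1 : x⁻¹ • (x • q) = x⁻¹ • (g0 : G ⧸ L) := by rw [h]
        rwa [inv_smul_smul, hfix] at h1) }
  have hYcard : Nat.card Y = L.index - 1 := by
    have h1 := Set.ncard_add_ncard_compl ({(g0 : G ⧸ L)} : Set (G ⧸ L))
    rw [Set.ncard_singleton] at h1
    have h2 : Nat.card Y = ({(g0 : G ⧸ L)}ᶜ : Set (G ⧸ L)).ncard := rfl
    rw [h2, Subgroup.index]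
    omega
  rw [← hYcard, Nat.card_congr (MulAction.selfEquivSigmaOrbits (P : Subgroup G) Y)]
  haveI : Finite Y := inferInstance
  haveI := Fintype.ofFinite (MulAction.orbitRel.Quotient (P : Subgroup G) Y)
  rw [Nat.card_sigma]
  apply Finset.dvd_sum
  intro ω _
  -- orbit size
  obtain ⟨y, hy⟩ : ∃ y : Y, y = ω.out := ⟨_, rfl⟩
  rw [← hy]
  have h0 : Nat.card (MulAction.orbit (P : Subgroup G) y) = (MulAction.stabilizer (P : Subgroup G) y).index :=
    (MulAction.index_stabilizer _ _).symm
  rw [h0]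
  obtain ⟨g, hg⟩ := QuotientGroup.mk_surjective (y : G ⧸ L)
  obtain ⟨X, hX⟩ : ∃ X : Subgroup G, X = (MulAction.stabilizer (P : Subgroup G) y).map (P : Subgroup G).subtype := ⟨_, rfl⟩
  have hXP : X ≤ (P : Subgroup G) := by rw [hX]; exact Subgroup.map_subtype_le _
  have hXcard : Nat.card X = Nat.card (MulAction.stabilizer (P : Subgroup G) y) := by
    rw [hX]
    exact Subgroup.card_map_of_injective (P : Subgroup G).subtype_injective
  have hXL : X ≤ MulAut.conj g • L := by
    rw [hX]
    rintro _ ⟨x, hx, rfl⟩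
    rw [Subgroup.mem_pointwise_smul_iff_inv_smul_mem]
    have h1 : x • y = y := hx
    have h2 : x • (y : G ⧸ L) = y := congrArg Subtype.val h1
    rw [← hg] at h2
    have h3 : (((x : G) * g : G) : G ⧸ L) = g := h2
    rw [eq_comm, QuotientGroup.eq] at h3
    have h4 : (MulAut.conj g)⁻¹ • (x : G) = g⁻¹ * ((x : G) * g) := by
      simp [MulAut.smul_def, mul_assoc]
    show (MulAut.conj g)⁻¹ • (x : G) ∈ L
    rw [h4]; exact h3
  have hXp : IsPGroup p X := P.2.to_le hXP
  have hXK : Nat.card X ∣ Nat.card K := by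
    by_contra hc
    have h1 := hcl X hXp hc A0 (MulAut.conj g • L) hA0 (hcoat g) (hXP.trans hPA0) hXL
    rw [hg0] at h1
    have h2 := hLeq _ _ h1
    exact y.2 (by rw [← hg]; exact h2.symm)
  have h1 : p ^ e * Nat.card X ∣ Nat.card G := by
    rw [← K.card_mul_index, mul_comm (Nat.card K)]
    exact Nat.mul_dvd_mul he hXK
  obtain ⟨s, hs⟩ := hXp.exists_card_eq
  have h2 : p ^ e * Nat.card X ∣ Nat.card (P : Subgroup G) := by
    rw [← (P : Subgroup G).card_mul_index, hs, ← pow_add] at h1
    rw [hs, ← pow_add]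
    exact Nat.Coprime.dvd_of_dvd_mul_right (Nat.Coprime.pow_left _ ((Nat.Prime.coprime_iff_not_dvd hpp).2 hpP)) h1
  rw [hXcard, ← (MulAction.stabilizer (P : Subgroup G) y).card_mul_index, mul_comm (p ^ e)] at h2
  exact Nat.dvd_of_mul_dvd_mul_left Nat.card_pos h2

end Cfsg.Agent.Lib.TwoMax
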