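import Mathlib

/-! S4383, piece T5 (helper79): p-groups -/

set_option autoImplicit false
set_option linter.all false
open scoped Pointwise

namespace Cfsg.Agent.Lib.TwoMax

theorem pg_zpow {G : Type*} [Group G] [Finite G] {p : ℕ} [Fact p.Prime] (hp : IsPGroup p G) (z : G) (i : ℤ)
    (hi : ¬ (p : ℤ) ∣ i) : z ∈ Subgroup.zpowers (z ^ i) := by
  obtain ⟨k, hk⟩ := (IsPGroup.iff_orderOf.mp hp) z
  have h1 : IsCoprime i ((orderOf z : ℕ) : ℤ) := by
    rw [hk, Nat.cast_pow]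
    apply IsCoprime.pow_right
    rw [isCoprime_comm]
    exact (Nat.prime_iff_prime_int.mp (Fact.out : p.Prime)).irreducible.coprime_iff_not_dvd.mpr hi
  obtain ⟨u, v, huv⟩ := h1
  refine ⟨u, ?_⟩
  show (z ^ i) ^ u = z
  rw [← zpow_mul]
  have h2 : i * u = 1 - v * (orderOf z : ℤ) := by linarith
  rw [h2, zpow_sub, zpow_one, mul_comm v, zpow_mul, zpow_natCast, pow_orderOf_eq_one, one_zpow, inv_one, mul_one]

theorem pgroup {G : Type*} [Group G] [Finite G] {p : ℕ} [Fact p.Prime] (hp : IsPGroup p G)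
    (M₁ M₂ : Subgroup G) (h1 : IsCoatom M₁) (h2 : IsCoatom M₂) (hne : ∀ g : G, M₂ ≠ MulAut.conj g • M₁)
    (hall : ∀ M : Subgroup G, IsCoatom M → ∃ g : G, M = MulAut.conj g • M₁ ∨ M = MulAut.conj g • M₂) : False := by
  have hnorm : ∀ M : Subgroup G, IsCoatom M → M.Normal := by
    intro M hM
    haveI := hp.isNilpotent
    exact Subgroup.NormalizerCondition.normal_of_coatom M Group.normalizerCondition_of_isNilpotent hM
  have hconj : ∀ M : Subgroup G, IsCoatom M → ∀ g : G, MulAut.conj g • M = M := by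
    intro M hM g
    haveI := hnorm M hM
    exact Subgroup.Normal.conj_smul_eq_self g M
  have h12 : M₂ ≠ M₁ := by
    have := hne 1
    rwa [hconj M₁ h1 1] at this
  obtain ⟨a, ha1, ha2⟩ : ∃ a ∈ M₁, a ∉ M₂ := by
    by_contra hcon
    push Not at hcon
    have h3 : M₁ ≤ M₂ := hcon
    exact h12 (le_antisymm ((h1.le_iff.mp h3).elim (fun h => absurd h h2.1) (fun h => h.le)) h3)
  obtain ⟨b, hb1, hb2⟩ : ∃ b ∈ M₂, b ∉ M₁ := by
    by_contra hcon
    push Not at hcon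
    have h3 : M₂ ≤ M₁ := hcon
    exact h12 (le_antisymm h3 ((h2.le_iff.mp h3).elim (fun h => absurd h h1.1) (fun h => h.le)))
  have hz1 : a * b ∉ M₁ := fun h => hb2 ((M₁.mul_mem_cancel_left ha1).mp h)
  have hz2 : a * b ∉ M₂ := fun h => ha2 ((M₂.mul_mem_cancel_right hb1).mp h)
  have htop : Subgroup.zpowers (a * b) = ⊤ := by
    rcases eq_top_or_exists_le_coatom (Subgroup.zpowers (a * b)) with h | ⟨M, hM, hle⟩
    · exact h
    · exfalso
      have hm : a * b ∈ M := hle (Subgroup.mem_zpowers _)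
      obtain ⟨g, hg | hg⟩ := hall M hM
      · rw [hg, hconj M₁ h1 g] at hm; exact hz1 hm
      · rw [hg, hconj M₂ h2 g] at hm; exact hz2 hm
  have key : ∀ M : Subgroup G, a * b ∉ M → ∀ c ∈ M, ∃ i : ℤ, c = (a * b) ^ ((p : ℤ) * i) := by
    intro M hM c hc
    have h3 : c ∈ Subgroup.zpowers (a * b) := by rw [htop]; trivial
    obtain ⟨i, hi⟩ := h3
    have hi' : (a * b) ^ i = c := hi
    by_cases hd : (p : ℤ) ∣ i
    · obtain ⟨j, rfl⟩ := hd
      exact ⟨j, hi'.symm⟩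
    · exfalso
      have h4 := pg_zpow hp (a * b) i hd
      rw [hi'] at h4
      exact hM ((Subgroup.zpowers_le.mpr hc) h4)
  obtain ⟨i, hi⟩ := key M₁ hz1 a ha1
  obtain ⟨j, hj⟩ := key M₂ hz2 b hb1
  have h5 : (a * b) ^ ((p : ℤ) * i + (p : ℤ) * j - 1) = 1 := by
    rw [zpow_sub, zpow_add, zpow_one, ← hi, ← hj, mul_inv_cancel]
  have h6 : ¬ (p : ℤ) ∣ (p : ℤ) * i + (p : ℤ) * j - 1 := by
    intro h
    have h7 : (p : ℤ) ∣ 1 := by
      have h8 : (p : ℤ) ∣ (p : ℤ) * i + (p : ℤ) * j := ⟨i + j, by ring⟩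
      have := dvd_sub h8 h
      simpa using this
    exact (Nat.prime_iff_prime_int.mp (Fact.out : p.Prime)).not_dvd_one h7
  have h7 := pg_zpow hp (a * b) _ h6
  rw [h5, Subgroup.zpowers_one_eq_bot, Subgroup.mem_bot] at h7
  rw [h7] at hz1
  exact hz1 (one_mem _)

end Cfsg.Agent.Lib.TwoMax
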