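import Mathlib

set_option autoImplicit false
open scoped Pointwise commutatorElement

namespace Cfsg.Agent.Lib.TwoMax

universe u

theorem t6_normal {G : Type u} [Group G] [Finite G] (hG : IsSolvable G) [Nontrivial G] :
    ∃ (q : ℕ) (_ : q.Prime) (Q : Subgroup G), Q.Normal ∧ Q ≠ ⊥ ∧ IsPGroup q Q := by
  classical
  obtain ⟨n, hn⟩ := hG.solvable
  obtain ⟨m, hm1, hm2⟩ : ∃ m, derivedSeries G m ≠ ⊥ ∧ derivedSeries G (m + 1) = ⊥ := by
    have h0 : derivedSeries G 0 ≠ ⊥ := by
      rw [derivedSeries_zero]; exact top_ne_bot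
    by_contra hcon
    push Not at hcon
    have : ∀ k, derivedSeries G k ≠ ⊥ := by
      intro k
      induction k with
      | zero => exact h0
      | succ k ih => exact hcon k ih
    exact this n hn
  have hAn : (derivedSeries G m).Normal := derivedSeries_normal G m
  have hab : ∀ a b : ↥(derivedSeries G m), a * b = b * a := by
    intro a b
    have h1 : ⁅(a : G), (b : G)⁆ ∈ derivedSeries G (m + 1) := by
      rw [derivedSeries_succ]; exact Subgroup.commutator_mem_commutator a.2 b.2
    rw [hm2, Subgroup.mem_bot, commutatorElement_eq_one_iff_mul_comm] at h1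
    exact Subtype.ext h1
  have hcard : Nat.card ↥(derivedSeries G m) ≠ 1 := by
    intro h; exact hm1 (Subgroup.card_eq_one.1 h)
  obtain ⟨q, hq, hqd⟩ := Nat.exists_prime_and_dvd hcard
  have := Fact.mk hq
  obtain ⟨Q⟩ : Nonempty (Sylow q ↥(derivedSeries G m)) := inferInstance
  have hQn : (Q : Subgroup ↥(derivedSeries G m)).Normal := by
    refine ⟨fun x hx g => ?_⟩
    rw [hab g x, mul_inv_cancel_right]; exact hx
  have hQc : (Q : Subgroup ↥(derivedSeries G m)).Characteristic := Q.characteristic_of_normal hQn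
  refine ⟨q, hq, (Q : Subgroup ↥(derivedSeries G m)).map (derivedSeries G m).subtype, ?_, ?_, ?_⟩
  · exact ConjAct.normal_of_characteristic_of_normal
  · intro h
    have h1 : (Q : Subgroup ↥(derivedSeries G m)) = ⊥ := by
      rwa [Subgroup.map_eq_bot_iff_of_injective _ (Subgroup.subtype_injective _)] at h
    exact Q.ne_bot_of_dvd_card hqd h1
  · exact Q.2.map _

theorem t6_aux (n : ℕ) : ∀ (G : Type u) [Group G] [Finite G], IsSolvable G → Nat.card G = n → ∀ p : ℕ, p.Prime →
    p ∣ Nat.card G → ∃ M : Subgroup G, IsCoatom M ∧ ∃ k, M.index = p ^ k := by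
  induction n using Nat.strong_induction_on with
  | _ n ih =>
    intro G _ _ hG hn p hp hpG
    have hnt : Nontrivial G := by
      rw [← Finite.one_lt_card_iff_nontrivial]
      exact lt_of_lt_of_le hp.one_lt (Nat.le_of_dvd Nat.card_pos hpG)
    obtain ⟨q, hq, Q, hQn, hQ1, hQp⟩ := t6_normal hG
    have := Fact.mk hq
    have := Fact.mk hp
    by_cases hpQ : p ∣ Nat.card (G ⧸ Q)
    · have hlt : Nat.card (G ⧸ Q) < n := by
        rw [← hn, ← Subgroup.index_eq_card, ← Q.card_mul_index]
        have h1 : 1 < Nat.card Q := (Subgroup.one_lt_card_iff_ne_bot Q).2 hQ1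
        have h2 : 0 < Q.index := Nat.pos_of_ne_zero Subgroup.index_ne_zero_of_finite
        nlinarith
      obtain ⟨M, hM, k, hk⟩ := ih _ hlt (G ⧸ Q) (by have hGs : Group.IsSolvable G := hG; exact Group.isSolvable_of_surjective (QuotientGroup.mk'_surjective Q)) rfl p hp hpQ
      refine ⟨M.comap (QuotientGroup.mk' Q), ?_, k, ?_⟩
      · exact Subgroup.isCoatom_comap_of_surjective (QuotientGroup.mk'_surjective Q) hM
      · rw [Subgroup.index_comap_of_surjective _ (QuotientGroup.mk'_surjective Q), hk]
    · obtain ⟨m, hm⟩ := hQp.exists_card_eq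
      have hpq : p = q := by
        have h1 : p ∣ Nat.card Q * Q.index := by rw [Q.card_mul_index]; exact hpG
        rcases (Nat.Prime.dvd_mul hp).1 h1 with h | h
        · rw [hm] at h
          exact (Nat.prime_dvd_prime_iff_eq hp hq).1 (hp.dvd_of_dvd_pow h)
        · exact absurd (by rwa [← Subgroup.index_eq_card]) hpQ
      subst hpq
      have hcop : Nat.Coprime (Nat.card Q) Q.index := by
        rw [hm]
        apply Nat.Coprime.pow_left
        rw [Nat.Prime.coprime_iff_not_dvd hp, Subgroup.index_eq_card]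
        exact hpQ
      obtain ⟨H, hH⟩ := Subgroup.exists_right_complement'_of_coprime hcop
      have hHi : H.index = Nat.card Q := hH.index_eq_card
      have hHt : H ≠ ⊤ := by
        intro h
        rw [h, Subgroup.index_top] at hHi
        exact hQ1 (Subgroup.card_eq_one.1 hHi.symm)
      obtain h | ⟨M, hM, hHM⟩ := eq_top_or_exists_le_coatom H
      · exact absurd h hHt
      · refine ⟨M, hM, ?_⟩
        have h1 := Subgroup.index_dvd_of_le hHM
        rw [hHi, hm] at h1
        obtain ⟨k, -, hk⟩ := (Nat.dvd_prime_pow hp).1 h1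
        exact ⟨k, hk⟩

/-- T6 (at most two primes) -/
theorem primes {G : Type*} [Group G] [Finite G] (hG : IsSolvable G) (M₁ M₂ : Subgroup G)
    (hall : ∀ M : Subgroup G, IsCoatom M → ∃ g : G, M = MulAut.conj g • M₁ ∨ M = MulAut.conj g • M₂) :
    (Nat.card G).primeFactors.card ≤ 2 := by
  classical
  have hidx : ∀ (g : G) (M : Subgroup G), (MulAut.conj g • M).index = M.index := by
    intro g M
    exact Subgroup.index_map_equiv M (MulAut.conj g)
  have hsub : (Nat.card G).primeFactors ⊆ {M₁.index.minFac, M₂.index.minFac} := by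
    intro p hp
    have hpp := Nat.prime_of_mem_primeFactors hp
    have hpd := Nat.dvd_of_mem_primeFactors hp
    obtain ⟨M, hM, k, hk⟩ := t6_aux _ G hG rfl p hpp hpd
    have hk0 : k ≠ 0 := by
      rintro rfl
      rw [pow_zero, Subgroup.index_eq_one] at hk
      exact hM.1 hk
    have hmf : M.index.minFac = p := by rw [hk]; exact hpp.pow_minFac hk0
    obtain ⟨g, h | h⟩ := hall M hM
    · rw [h, hidx] at hmf
      simp [hmf]
    · rw [h, hidx] at hmf
      simp [hmf]
  calc (Nat.card G).primeFactors.card ≤ ({M₁.index.minFac, M₂.index.minFac} : Finset ℕ).card := Finset.card_le_card hsub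
    _ ≤ 2 := Finset.card_le_two

end Cfsg.Agent.Lib.TwoMax
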