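import Mathlib
import Cfsg.Agent.Lib.TwoMaxT1
import Cfsg.Agent.Lib.TwoMaxT2
import Cfsg.Agent.Lib.TwoMaxT5
import Cfsg.Agent.Lib.TwoMaxT6

set_option autoImplicit false
set_option linter.all false
open scoped Pointwise

namespace Cfsg.Agent.Lib.TwoMax

theorem conj_coatom {G : Type*} [Group G] {K : Subgroup G} {g : G} (h : IsCoatom (MulAut.conj g • K)) :
    IsCoatom K := by
  constructor
  · rintro rfl
    apply h.1
    ext x
    simp only [Subgroup.mem_top, iff_true]
    rw [Subgroup.mem_pointwise_smul_iff_inv_smul_mem]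
    exact Subgroup.mem_top _
  · intro X hX
    have h1 : MulAut.conj g • K < MulAut.conj g • X := by
      refine lt_of_le_of_ne (Subgroup.pointwise_smul_le_pointwise_smul_iff.2 hX.le) ?_
      intro he
      exact hX.ne (smul_left_cancel _ he)
    have h2 := h.2 _ h1
    rw [eq_top_iff]
    intro x _
    have h3 : MulAut.conj g • x ∈ MulAut.conj g • X := by
      rw [h2]; exact Subgroup.mem_top _
    exact (Subgroup.smul_mem_pointwise_smul_iff).1 h3

theorem index_dvd {G : Type*} [Group G] [Finite G] [IsSimpleGroup G] (hns : ¬ IsSolvable G) {K L : Subgroup G}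
    (hK : IsCoatom K) (hL : IsCoatom L)
    (hall : ∀ M : Subgroup G, IsCoatom M → ∃ g : G, M = MulAut.conj g • K ∨ M = MulAut.conj g • L) :
    K.index ∣ L.index - 1 := by
  rw [Nat.dvd_iff_prime_pow_dvd_dvd]
  intro p k hp hk
  haveI : Fact p.Prime := ⟨hp⟩
  exact count hns hK hL hall (fun X hX hXK A B hA hB h1 h2 => claim hns hall hX hXK hA hB h1 h2) k hk

theorem index_lt {G : Type*} [Group G] [Finite G] [IsSimpleGroup G] (hns : ¬ IsSolvable G) {K L : Subgroup G}
    (hK : IsCoatom K) (hL : IsCoatom L)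
    (hall : ∀ M : Subgroup G, IsCoatom M → ∃ g : G, M = MulAut.conj g • K ∨ M = MulAut.conj g • L) :
    K.index < L.index := by
  have h1 := index_dvd hns hK hL hall
  have h2 : L.index ≠ 1 := fun h => hL.1 (Subgroup.index_eq_one.1 h)
  have h3 : L.index ≠ 0 := Subgroup.index_ne_zero_of_finite
  have h4 := Nat.le_of_dvd (by omega) h1
  omega

/-- T3 (simple case) -/
theorem simple' {G : Type*} [Group G] [Finite G] [IsSimpleGroup G] {K L : Subgroup G}
    (hall : ∀ M : Subgroup G, IsCoatom M → ∃ g : G, M = MulAut.conj g • K ∨ M = MulAut.conj g • L) : IsSolvable G := by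
  by_contra hns
  obtain ⟨M0, hM0, -⟩ : ∃ M : Subgroup G, IsCoatom M ∧ ⊥ ≤ M := by
    rcases eq_top_or_exists_le_coatom (⊥ : Subgroup G) with h | h
    · exact (bot_ne_top h).elim
    · exact h
  by_cases hK : IsCoatom K
  · by_cases hL : IsCoatom L
    · have h1 := index_lt hns hK hL hall
      have h2 := index_lt hns hL hK (fun M hM => by
        obtain ⟨g, h | h⟩ := hall M hM
        · exact ⟨g, Or.inr h⟩
        · exact ⟨g, Or.inl h⟩)
      omega
    · have h1 := index_lt hns hK hK (fun M hM => by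
        obtain ⟨g, h | h⟩ := hall M hM
        · exact ⟨g, Or.inl h⟩
        · exact (hL (conj_coatom (h ▸ hM))).elim)
      omega
  · have hL : IsCoatom L := by
      obtain ⟨g, h | h⟩ := hall M0 hM0
      · exact (hK (conj_coatom (h ▸ hM0))).elim
      · exact conj_coatom (h ▸ hM0)
    have h1 := index_lt hns hL hL (fun M hM => by
        obtain ⟨g, h | h⟩ := hall M hM
        · exact (hK (conj_coatom (h ▸ hM))).elim
        · exact ⟨g, Or.inl h⟩)
    omega


universe u

theorem final (hsol : ∀ (H : Type u) [Group H] [Finite H] (K L : Subgroup H),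
      (∀ M : Subgroup H, IsCoatom M → ∃ g : H, M = MulAut.conj g • K ∨ M = MulAut.conj g • L) → IsSolvable H)
    {G : Type u} [Group G] [Finite G]
    (M₁ M₂ : Subgroup G) (h1 : IsCoatom M₁) (h2 : IsCoatom M₂) (hne : ∀ g : G, M₂ ≠ MulAut.conj g • M₁)
    (hall : ∀ M : Subgroup G, IsCoatom M → ∃ g : G, M = MulAut.conj g • M₁ ∨ M = MulAut.conj g • M₂) :
    IsSolvable G ∧ (Nat.card G).primeFactors.card = 2 := by
  have hs := hsol G M₁ M₂ hall
  refine ⟨hs, ?_⟩
  have h3 := primes hs M₁ M₂ hall
  have hc0 : Nat.card G ≠ 0 := Nat.card_pos.ne'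
  have h4 : (Nat.card G).primeFactors.card ≠ 0 := by
    intro h
    rw [Finset.card_eq_zero, Nat.primeFactors_eq_empty] at h
    have h5 : Nat.card G = 1 := by omega
    apply h1.1
    rw [← Subgroup.index_eq_one]
    have := M₁.index_dvd_card
    rw [h5] at this
    exact Nat.dvd_one.1 this
  have h5 : (Nat.card G).primeFactors.card ≠ 1 := by
    intro h
    rw [Finset.card_eq_one] at h
    obtain ⟨p, hp⟩ := h
    have hpm : p ∈ (Nat.card G).primeFactors := by rw [hp]; exact Finset.mem_singleton_self p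
    haveI : Fact p.Prime := ⟨Nat.prime_of_mem_primeFactors hpm⟩
    have h6 : IsPGroup p G := by
      rw [IsPGroup.iff_card]
      refine ⟨(Nat.card G).primeFactorsList.length, ?_⟩
      apply Nat.eq_prime_pow_of_unique_prime_dvd hc0
      intro q hq hqd
      have : q ∈ (Nat.card G).primeFactors := Nat.mem_primeFactors.2 ⟨hq, hqd, hc0⟩
      rw [hp, Finset.mem_singleton] at this
      exact this
    exact pgroup h6 M₁ M₂ h1 h2 hne hall
  omega

end Cfsg.Agent.Lib.TwoMax
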