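import Mathlib

set_option autoImplicit false
set_option linter.all false
open scoped Pointwise

namespace Cfsg.Agent.Lib.TwoMaxT4u

universe u

theorem core {G : Type u} [Group G] [Finite G] {K L : Subgroup G}
    (hall : ∀ M : Subgroup G, IsCoatom M → ∃ g : G, M = MulAut.conj g • K ∨ M = MulAut.conj g • L)
    (N : Subgroup G) [hNn : N.Normal] (hN : N ≠ ⊥) (hK : N ≤ K)
    (hq : ∀ (P : Subgroup G) [P.Normal], P ≠ ⊥ → IsSolvable (G ⧸ P)) : IsSolvable G := by
  classical
  by_contra hns
  have hconjN : ∀ g : G, MulAut.conj g • N = N := fun g => Subgroup.Normal.conj_smul_eq_self g N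
  have key : ∀ p : ℕ, p.Prime → p ∣ Nat.card N →
      p ^ ((Nat.card N).factorization p) ∣ Nat.card (N ⊓ L : Subgroup G) ∧ ¬ N ≤ L := by
    intro p hp hpd
    haveI : Fact p.Prime := ⟨hp⟩
    let P0 : Sylow p N := default
    set P : Subgroup G := (P0 : Subgroup N).map N.subtype with hP
    have hPN : P ≤ N := by
      rw [hP]; exact Subgroup.map_subtype_le _
    have hcard : Nat.card P = p ^ ((Nat.card N).factorization p) := by
      rw [hP, Subgroup.card_map_of_injective (Subgroup.subtype_injective N)]
      exact Sylow.card_eq_multiplicity P0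
    have hPbot : P ≠ ⊥ := by
      intro h
      rw [h, Subgroup.card_bot] at hcard
      have h1 : (Nat.card N).factorization p ≠ 0 := by
        have := (Nat.Prime.dvd_iff_one_le_factorization hp (Nat.card_pos.ne')).1 hpd
        omega
      exact absurd hcard.symm (by
        intro h2
        rw [Nat.pow_eq_one] at h2
        rcases h2 with h2 | h2
        · exact hp.one_lt.ne' h2
        · exact h1 h2)
    have hPnn : ¬ P.Normal := by
      intro hPnorm
      haveI := hPnorm
      apply hns
      haveI h1 : Group.IsSolvable (G ⧸ P) := hq P hPbot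
      have hpg : IsPGroup p P := by
        rw [hP]; exact P0.2.map _
      haveI := hpg.isNilpotent
      haveI h2 : Group.IsSolvable P := inferInstance
      exact (Group.isSolvable_iff_subgroup_quotient P).2 ⟨h2, h1⟩
    have hnt : Subgroup.normalizer (P : Set G) ≠ ⊤ := by
      intro h
      exact hPnn (Subgroup.normalizer_eq_top_iff.1 h)
    obtain ⟨M, hM, hMle⟩ := (eq_top_or_exists_le_coatom (Subgroup.normalizer (P : Set G))).resolve_left hnt
    have hfr : Subgroup.normalizer (P : Set G) ⊔ N = ⊤ := Sylow.normalizer_sup_eq_top P0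
    have hNM : ¬ N ≤ M := by
      intro h
      exact hM.1 (top_le_iff.1 (hfr ▸ sup_le hMle h))
    obtain ⟨g, hg | hg⟩ := hall M hM
    · exfalso; apply hNM
      rw [hg, ← hconjN g]
      exact Subgroup.pointwise_smul_le_pointwise_smul_iff.2 hK
    · have hPM : P ≤ MulAut.conj g • L := hg ▸ (Subgroup.le_normalizer.trans hMle)
      have h3 : (MulAut.conj g)⁻¹ • P ≤ N ⊓ L := by
        refine le_inf ?_ ?_
        · have h4 := Subgroup.pointwise_smul_le_pointwise_smul_iff (a := (MulAut.conj g)⁻¹) |>.2 hPN
          rw [← map_inv, hconjN] at h4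
          rw [← map_inv]; exact h4
        · exact Subgroup.subset_pointwise_smul_iff.1 hPM |> fun h => h
      refine ⟨?_, ?_⟩
      · rw [← hcard]
        have h5 : Nat.card ((MulAut.conj g)⁻¹ • P : Subgroup G) = Nat.card P := (Nat.card_congr (Subgroup.equivSMul _ P).toEquiv).symm
        rw [← h5]
        exact Subgroup.card_dvd_of_le h3
      · intro h6
        apply hNM
        rw [hg, ← hconjN g]
        exact Subgroup.pointwise_smul_le_pointwise_smul_iff.2 h6
  have hdvd : Nat.card N ∣ Nat.card (N ⊓ L : Subgroup G) := by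
    rw [← Nat.factorization_le_iff_dvd Nat.card_pos.ne' Nat.card_pos.ne']
    intro p
    by_cases hp : p.Prime
    · by_cases hpd : p ∣ Nat.card N
      · exact (hp.pow_dvd_iff_le_factorization Nat.card_pos.ne').1 (key p hp hpd).1
      · rw [Nat.factorization_eq_zero_of_not_dvd hpd]; exact Nat.zero_le _
    · rw [Nat.factorization_eq_zero_of_not_prime _ hp]; exact Nat.zero_le _
  have heq : N ⊓ L = N := by
    apply Subgroup.eq_of_le_of_card_ge inf_le_left
    exact Nat.le_of_dvd Nat.card_pos hdvd
  have hNc : Nat.card N ≠ 1 := fun h => hN (Subgroup.card_eq_one.1 h)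
  obtain ⟨p, hp, hpd⟩ := Nat.exists_prime_and_dvd hNc
  exact (key p hp hpd).2 (inf_eq_left.1 heq)

/-- T4 (reduction) -/
theorem solvable_of_simple
    (hs : ∀ (H : Type u) [Group H] [Finite H] [IsSimpleGroup H] (K L : Subgroup H),
      (∀ M : Subgroup H, IsCoatom M → ∃ g : H, M = MulAut.conj g • K ∨ M = MulAut.conj g • L) → IsSolvable H)
    (n : ℕ) (G : Type u) [Group G] [Finite G] (hn : Nat.card G = n) (K L : Subgroup G)
    (hall : ∀ M : Subgroup G, IsCoatom M → ∃ g : G, M = MulAut.conj g • K ∨ M = MulAut.conj g • L) : IsSolvable G := by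
  classical
  induction n using Nat.strong_induction_on generalizing G with
  | _ n ih =>
  rcases subsingleton_or_nontrivial G with hsub | hnt
  · exact (inferInstance : Group.IsSolvable G)
  have hq : ∀ (P : Subgroup G) [P.Normal], P ≠ ⊥ → IsSolvable (G ⧸ P) := by
    intro P _ hP
    have hlt : Nat.card (G ⧸ P) < n := by
      rw [← hn, P.card_eq_card_quotient_mul_card_subgroup]
      have h1 : 1 < Nat.card P := by
        rw [Nat.one_lt_iff_ne_zero_and_ne_one]
        exact ⟨Nat.card_pos.ne', fun h => hP (Subgroup.card_eq_one.1 h)⟩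
      have h2 : 0 < Nat.card (G ⧸ P) := Nat.card_pos
      nlinarith
    refine ih _ hlt (G ⧸ P) rfl (K.map (QuotientGroup.mk' P)) (L.map (QuotientGroup.mk' P)) ?_
    intro M hM
    have hsurj : Function.Surjective (QuotientGroup.mk' P) := QuotientGroup.mk'_surjective P
    have hM' : IsCoatom (M.comap (QuotientGroup.mk' P)) := by
      refine ⟨?_, ?_⟩
      · intro h
        apply hM.1
        rw [← Subgroup.map_comap_eq_self_of_surjective hsurj M, h, ← MonoidHom.range_eq_map,
          MonoidHom.range_eq_top.2 hsurj]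
      · intro B hB
        have h1 : M ≤ B.map (QuotientGroup.mk' P) := by
          rw [← Subgroup.map_comap_eq_self_of_surjective hsurj M]
          exact Subgroup.map_mono hB.le
        have hkB : (QuotientGroup.mk' P).ker ≤ B := (Subgroup.ker_le_comap _ _).trans hB.le
        have hcB : (B.map (QuotientGroup.mk' P)).comap (QuotientGroup.mk' P) = B :=
          Subgroup.comap_map_eq_self hkB
        have h2 : M ≠ B.map (QuotientGroup.mk' P) := by
          intro h
          rw [h, hcB] at hB
          exact lt_irrefl _ hB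
        have h3 := hM.2 _ (lt_of_le_of_ne h1 h2)
        rw [← hcB, h3, Subgroup.comap_top]
    have hmapc : ∀ (g : G) (X : Subgroup G), (MulAut.conj g • X).map (QuotientGroup.mk' P) =
        MulAut.conj (QuotientGroup.mk' P g) • X.map (QuotientGroup.mk' P) := by
      intro g X
      ext y
      simp only [Subgroup.mem_map, Subgroup.mem_smul_pointwise_iff_exists]
      constructor
      · rintro ⟨x, ⟨s, hs, rfl⟩, rfl⟩
        exact ⟨_, ⟨s, hs, rfl⟩, by simp [MulAut.smul_def]⟩
      · rintro ⟨x, ⟨s, hs, rfl⟩, rfl⟩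
        exact ⟨_, ⟨s, hs, rfl⟩, by simp [MulAut.smul_def]⟩
    obtain ⟨g, hg⟩ := hall _ hM'
    refine ⟨QuotientGroup.mk' P g, ?_⟩
    have hMm := Subgroup.map_comap_eq_self_of_surjective hsurj M
    rcases hg with hg | hg
    · left; rw [← hmapc, ← hg, hMm]
    · right; rw [← hmapc, ← hg, hMm]
  by_cases hsim : IsSimpleGroup G
  · exact hs G K L hall
  have : ∃ N : Subgroup G, N.Normal ∧ N ≠ ⊥ ∧ N ≠ ⊤ := by
    by_contra hcon
    push Not at hcon
    apply hsim
    exact ⟨fun N hN => or_iff_not_imp_left.2 fun h => hcon N hN h⟩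
  obtain ⟨N, hNn, hNb, hNt⟩ := this
  haveI := hNn
  have hconjN : ∀ g : G, MulAut.conj g • N = N := fun g => Subgroup.Normal.conj_smul_eq_self g N
  obtain ⟨M, hM, hNM⟩ := (eq_top_or_exists_le_coatom N).resolve_left hNt
  obtain ⟨g, hg | hg⟩ := hall M hM
  · refine core hall N hNb ?_ hq
    rw [hg, ← hconjN g] at hNM
    exact Subgroup.pointwise_smul_le_pointwise_smul_iff.1 hNM
  · refine core (K := L) (L := K) (fun M hM => ?_) N hNb ?_ hq
    · obtain ⟨g, h⟩ := hall M hM
      exact ⟨g, h.symm⟩
    · rw [hg, ← hconjN g] at hNM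
      exact Subgroup.pointwise_smul_le_pointwise_smul_iff.1 hNM

end Cfsg.Agent.Lib.TwoMaxT4u
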