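import Mathlib.NumberTheory.Bertrand
import Mathlib.Tactic

/-!
Two primes in `(m, 2m]` for every `m ≥ 6` (the second Ramanujan prime is 11).
-/

set_option autoImplicit false

namespace Cfsg.Agent.Lib.TwoPrimes

open Real in
theorem real_ineq {x : ℝ} (x_large : (512 : ℝ) ≤ x) :
    x * (2 * x) ^ (√(2 * x) + 1) * 4 ^ (2 * x / 3) ≤ 4 ^ x := by
  let f : ℝ → ℝ := fun x => (log x + log (2 * x)) + √(2 * x) * log (2 * x) - log 4 / 3 * x
  have hf' : ∀ x, 0 < x → 0 < x * (2 * x) ^ (√(2 * x) + 1) / 4 ^ (x / 3) := fun x h =>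
    div_pos (mul_pos h (rpow_pos_of_pos (mul_pos two_pos h) _)) (rpow_pos_of_pos four_pos _)
  have hf : ∀ x, 0 < x → f x = log (x * (2 * x) ^ (√(2 * x) + 1) / 4 ^ (x / 3)) := by
    intro x h5
    have h6 := mul_pos (zero_lt_two' ℝ) h5
    have h7 := rpow_pos_of_pos h6 (√(2 * x) + 1)
    rw [log_div (mul_pos h5 h7).ne' (rpow_pos_of_pos four_pos _).ne', log_mul h5.ne' h7.ne',
      log_rpow h6, log_rpow zero_lt_four, ← mul_div_right_comm, ← mul_div, mul_comm x]
    ring
  have h5 : 0 < x := lt_of_lt_of_le (by norm_num1) x_large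
  rw [← div_le_one (rpow_pos_of_pos four_pos x), ← div_div_eq_mul_div, ← rpow_sub four_pos, ←
    mul_div 2 x, mul_div_left_comm, ← mul_one_sub, (by norm_num1 : (1 : ℝ) - 2 / 3 = 1 / 3),
    mul_one_div, ← log_nonpos_iff (hf' x h5).le, ← hf x h5]
  have h : ConcaveOn ℝ (Set.Ioi 0.5) f := by
    apply ConcaveOn.sub
    · apply ConcaveOn.add
      · apply ConcaveOn.add
        · exact strictConcaveOn_log_Ioi.concaveOn.subset
            (Set.Ioi_subset_Ioi (by norm_num)) (convex_Ioi 0.5)
        · have h1 : ConcaveOn ℝ (Set.Ioi (0.5:ℝ)) (fun x : ℝ => log 2 + log x) :=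
            (concaveOn_const _ (convex_Ioi 0.5)).add (strictConcaveOn_log_Ioi.concaveOn.subset
              (Set.Ioi_subset_Ioi (by norm_num)) (convex_Ioi 0.5))
          refine h1.congr ?_
          intro y hy
          have : (0:ℝ) < y := lt_trans (by norm_num) (Set.mem_Ioi.1 hy)
          simp only
          rw [log_mul (by norm_num) this.ne']
      convert!
        ((strictConcaveOn_sqrt_mul_log_Ioi.concaveOn.comp_linearMap
          ((2 : ℝ) • LinearMap.id)))
        using 1
      ext x
      simp only [Set.mem_Ioi, Set.mem_preimage, LinearMap.smul_apply,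
        LinearMap.id_coe, id_eq, smul_eq_mul]
      rw [← mul_lt_mul_iff_right₀ (two_pos)]
      norm_num1
      rfl
    apply ConvexOn.smul
    · refine div_nonneg (log_nonneg (by norm_num1)) (by norm_num1)
    · exact convexOn_id (convex_Ioi (0.5 : ℝ))
  suffices ∃ x1 x2, 0.5 < x1 ∧ x1 < x2 ∧ x2 ≤ x ∧ 0 ≤ f x1 ∧ f x2 ≤ 0 by
    obtain ⟨x1, x2, h1, h2, h0, h3, h4⟩ := this
    exact (h.right_le_of_le_left'' h1 ((h1.trans h2).trans_le h0) h2 h0 (h4.trans h3)).trans h4
  refine ⟨18, 512, by norm_num1, by norm_num1, x_large, ?_, ?_⟩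
  · have : √(2 * 18 : ℝ) = 6 := (sqrt_eq_iff_mul_self_eq_of_pos (by norm_num1)).mpr (by norm_num1)
    rw [hf _ (by norm_num1), log_nonneg_iff (by positivity), this, one_le_div (by norm_num1)]
    norm_num1
  · have : √(2 * 512) = 32 :=
      (sqrt_eq_iff_mul_self_eq_of_pos (by norm_num1)).mpr (by norm_num1)
    rw [hf _ (by norm_num1), log_nonpos_iff (hf' _ (by norm_num1)).le, this,
        div_le_one (by positivity)]
    have e1 : (512 : ℝ) = 2 ^ (9 : ℝ) := by norm_num
    have e2 : (2 * 512 : ℝ) = 2 ^ (10 : ℝ) := by norm_num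
    have e3 : (4 : ℝ) = 2 ^ (2 : ℝ) := by norm_num
    rw [e2, e3, ← rpow_mul (by norm_num), ← rpow_mul (by norm_num)]
    conv_lhs => rw [e1]
    rw [← rpow_add (by norm_num)]
    apply rpow_le_rpow_of_exponent_le
    all_goals norm_num1

theorem nat_ineq {n : ℕ} (n_large : 512 ≤ n) :
    n * (2 * n) ^ (Nat.sqrt (2 * n) + 1) * 4 ^ (2 * n / 3) ≤ 4 ^ n := by
  rw [← @Nat.cast_le ℝ]
  simp only [Nat.cast_mul, Nat.cast_pow, ← Real.rpow_natCast, Nat.cast_ofNat]
  refine _root_.trans ?_ (real_ineq (by exact_mod_cast n_large))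
  gcongr
  · have n2_pos : 0 < 2 * n := by positivity
    exact mod_cast n2_pos
  · push_cast
    gcongr
    exact_mod_cast Real.nat_sqrt_le_real_sqrt
  · norm_num1
  · exact Nat.cast_div_le.trans (by norm_cast)

open Nat in
theorem centralBinom_le (n : ℕ) (n_large : 2 < n)
    (no : ∀ p q : ℕ, p.Prime → q.Prime → n < p → p < q → 2 * n < q) :
    centralBinom n ≤ (2 * n) ^ (sqrt (2 * n) + 1) * 4 ^ (2 * n / 3) := by
  have n_pos : 0 < n := (Nat.zero_le _).trans_lt n_large
  have n2_pos : 1 ≤ 2 * n := mul_pos (zero_lt_two' ℕ) n_pos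
  let f x := x ^ n.centralBinom.factorization x
  -- split the product
  have hsplit : centralBinom n = (∏ x ∈ Finset.range (2 * n / 3 + 1), f x) * ∏ x ∈ Finset.Ioc n (2 * n), f x := by
    have h0 := n.prod_pow_factorization_centralBinom
    have hdisj : Disjoint (Finset.range (2 * n / 3 + 1)) (Finset.Ioc n (2 * n)) := by
      rw [Finset.disjoint_left]
      intro x hx hx'
      rw [Finset.mem_range] at hx
      rw [Finset.mem_Ioc] at hx'
      omega
    rw [← Finset.prod_union hdisj]
    refine (Eq.trans ?_ h0).symm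
    apply Finset.prod_subset
    · intro x hx
      rw [Finset.mem_union, Finset.mem_range, Finset.mem_Ioc] at hx
      rw [Finset.mem_range]
      omega
    · intro x hx h2x
      rw [Finset.mem_range] at hx
      rw [Finset.mem_union, Finset.mem_range, Finset.mem_Ioc] at h2x
      by_cases hp : x.Prime
      · have h1 : x ≤ n := by omega
        have h3 : 2 * n < 3 * x := by omega
        show x ^ n.centralBinom.factorization x = 1
        rw [factorization_centralBinom_of_two_mul_self_lt_three_mul n_large h1 h3, Nat.pow_zero]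
      · show x ^ n.centralBinom.factorization x = 1
        rw [factorization_eq_zero_of_not_prime n.centralBinom hp, Nat.pow_zero]
  have hfle : ∀ p, f p ≤ 2 * n := fun p => pow_factorization_choose_le (mul_pos two_pos n_pos)
  -- the second factor
  have hB : ∏ x ∈ Finset.Ioc n (2 * n), f x ≤ 2 * n := by
    by_cases hex : ∃ p, p.Prime ∧ n < p ∧ p ≤ 2 * n
    · obtain ⟨p, hp, hp1, hp2⟩ := hex
      rw [Finset.prod_eq_single p]
      · exact hfle p
      · intro q hq hqp
        rw [Finset.mem_Ioc] at hq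
        apply Nat.pow_eq_one.2
        right
        apply factorization_eq_zero_of_not_prime
        intro hqq
        rcases lt_or_gt_of_ne hqp with h | h
        · have := no q p hqq hp hq.1 h; omega
        · have := no p q hp hqq hp1 h; omega
      · intro h
        exact absurd (Finset.mem_Ioc.2 ⟨hp1, hp2⟩) h
    · rw [Finset.prod_eq_one]
      · exact n2_pos
      · intro q hq
        rw [Finset.mem_Ioc] at hq
        apply Nat.pow_eq_one.2
        right
        apply factorization_eq_zero_of_not_prime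
        intro hqq
        exact hex ⟨q, hqq, hq.1, hq.2⟩
  have hA : ∏ x ∈ Finset.range (2 * n / 3 + 1), f x ≤ (2 * n) ^ sqrt (2 * n) * 4 ^ (2 * n / 3) := by
    let S := {p ∈ Finset.range (2 * n / 3 + 1) | Nat.Prime p}
    have : ∏ x ∈ S, f x = ∏ x ∈ Finset.range (2 * n / 3 + 1), f x := by
      refine Finset.prod_filter_of_ne fun p _ h => ?_
      contrapose h; dsimp only [f]
      rw [factorization_eq_zero_of_not_prime n.centralBinom h, _root_.pow_zero]
    rw [← this, ← Finset.prod_filter_mul_prod_filter_not S (· ≤ sqrt (2 * n))]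
    apply mul_le_mul'
    · refine (Finset.prod_le_prod' fun p _ => (?_ : f p ≤ 2 * n)).trans ?_
      · exact hfle p
      have : (Finset.Icc 1 (sqrt (2 * n))).card = sqrt (2 * n) := by rw [card_Icc, Nat.add_sub_cancel]
      rw [Finset.prod_const]
      refine pow_right_mono₀ n2_pos ((Finset.card_le_card fun x hx => ?_).trans this.le)
      obtain ⟨h1, h2⟩ := Finset.mem_filter.1 hx
      exact Finset.mem_Icc.mpr ⟨(Finset.mem_filter.1 h1).2.one_lt.le, h2⟩
    · refine le_trans ?_ (primorial_le_four_pow (2 * n / 3))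
      refine (Finset.prod_le_prod' fun p hp => (?_ : f p ≤ p)).trans ?_
      · obtain ⟨h1, h2⟩ := Finset.mem_filter.1 hp
        refine (pow_right_mono₀ (Finset.mem_filter.1 h1).2.one_lt.le ?_).trans (pow_one p).le
        exact Nat.factorization_choose_le_one (sqrt_lt'.mp <| not_le.1 h2)
      refine Finset.prod_le_prod_of_subset_of_one_le' (Finset.filter_subset _ _) ?_
      exact fun p hp _ => (Finset.mem_filter.1 hp).2.one_lt.le
  calc centralBinom n ≤ ((2 * n) ^ sqrt (2 * n) * 4 ^ (2 * n / 3)) * (2 * n) := by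
        rw [hsplit]; exact Nat.mul_le_mul hA hB
    _ = (2 * n) ^ (sqrt (2 * n) + 1) * 4 ^ (2 * n / 3) := by ring

theorem two_primes_large (n : ℕ) (n_large : 512 ≤ n) :
    ∃ p q : ℕ, p.Prime ∧ q.Prime ∧ n < p ∧ p < q ∧ q ≤ 2 * n := by
  have h1 : 4 ^ n < n * n.centralBinom :=
    Nat.four_pow_lt_mul_centralBinom n (le_trans (by norm_num1) n_large)
  by_contra hcon
  push Not at hcon
  have h2 := centralBinom_le n (lt_of_lt_of_le (by norm_num1) n_large) (fun p q hp hq h3 h4 => hcon p q hp hq h3 h4)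
  have h3 := nat_ineq n_large
  have h4 : n * n.centralBinom ≤ n * ((2 * n) ^ (Nat.sqrt (2 * n) + 1) * 4 ^ (2 * n / 3)) := Nat.mul_le_mul_left _ h2
  rw [← mul_assoc] at h4
  omega

/-- For `m ≥ 6` there are two primes in `(m, 2m]`. -/
theorem two_primes (m : ℕ) (hm : 6 ≤ m) : ∃ p q : ℕ, p.Prime ∧ q.Prime ∧ m < p ∧ p < q ∧ q ≤ 2 * m := by
  rcases le_or_gt 512 m with h | h
  · exact two_primes_large m h
  have key : ∀ p q : ℕ, p.Prime → q.Prime → p < q → q ≤ 2 * m → m < p →
      ∃ p q : ℕ, p.Prime ∧ q.Prime ∧ m < p ∧ p < q ∧ q ≤ 2 * m :=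
    fun p q hp hq h1 h2 h3 => ⟨p, q, hp, hq, h3, h1, h2⟩
  by_cases h1 : m < 7
  · exact key 7 11 (by norm_num) (by norm_num) (by norm_num) (by omega) (by omega)
  by_cases h2 : m < 11
  · exact key 11 13 (by norm_num) (by norm_num) (by norm_num) (by omega) (by omega)
  by_cases h3 : m < 17
  · exact key 17 19 (by norm_num) (by norm_num) (by norm_num) (by omega) (by omega)
  by_cases h4 : m < 29
  · exact key 29 31 (by norm_num) (by norm_num) (by norm_num) (by omega) (by omega)
  by_cases h5 : m < 47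
  · exact key 47 53 (by norm_num) (by norm_num) (by norm_num) (by omega) (by omega)
  by_cases h6 : m < 83
  · exact key 83 89 (by norm_num) (by norm_num) (by norm_num) (by omega) (by omega)
  by_cases h7 : m < 157
  · exact key 157 163 (by norm_num) (by norm_num) (by norm_num) (by omega) (by omega)
  by_cases h8 : m < 311
  · exact key 311 313 (by norm_num) (by norm_num) (by norm_num) (by omega) (by omega)
  · exact key 617 619 (by norm_num) (by norm_num) (by norm_num) (by omega) (by omega)

/-- For `n ≥ 11` there are two primes `p < q` with `n / 2 < p` and `q ≤ n`. -/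
theorem two_primes_half (n : ℕ) (hn : 11 ≤ n) : ∃ p q : ℕ, p.Prime ∧ q.Prime ∧ n < 2 * p ∧ p < q ∧ q ≤ n := by
  by_cases h : n = 11
  · subst h
    exact ⟨7, 11, by norm_num, by norm_num, by norm_num, by norm_num, by norm_num⟩
  obtain ⟨p, q, hp, hq, h1, h2, h3⟩ := two_primes (n / 2) (by omega)
  exact ⟨p, q, hp, hq, by omega, h2, by omega⟩

end Cfsg.Agent.Lib.TwoPrimes
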