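import Mathlib

/-!
# Products of two regular unipotents (helper51): avoiding vectors and functionals
-/

set_option autoImplicit false

namespace Cfsg.Agent.Lib.TwoUni1

open Polynomial Module

variable {K : Type*} [Field K]

/-- the field has at least four elements -/
def Four (K : Type*) : Prop := ∀ a b c : K, ∃ t : K, t ≠ a ∧ t ≠ b ∧ t ≠ c

theorem line3 (h4 : Four K) {a1 b1 a2 b2 a3 b3 : K} (h1 : a1 ≠ 0 ∨ b1 ≠ 0) (h2 : a2 ≠ 0 ∨ b2 ≠ 0)
    (h3 : a3 ≠ 0 ∨ b3 ≠ 0) : ∃ t : K, a1 + t * b1 ≠ 0 ∧ a2 + t * b2 ≠ 0 ∧ a3 + t * b3 ≠ 0 := by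
  have key : ∀ {a b t : K}, (a ≠ 0 ∨ b ≠ 0) → t ≠ -a / b → a + t * b ≠ 0 := by
    intro a b t h ht h0
    by_cases hb : b = 0
    · rw [hb, mul_zero, add_zero] at h0
      rcases h with h | h
      · exact h h0
      · exact h hb
    · apply ht
      field_simp
      linear_combination h0
  obtain ⟨t, ht1, ht2, ht3⟩ := h4 (-a1 / b1) (-a2 / b2) (-a3 / b3)
  exact ⟨t, key h1 ht1, key h2 ht2, key h3 ht3⟩

/-- with `t ≠ 0` -/
theorem line2 (h4 : Four K) {a1 b1 a2 b2 : K} (h1 : a1 ≠ 0 ∨ b1 ≠ 0) (h2 : a2 ≠ 0 ∨ b2 ≠ 0) :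
    ∃ t : K, t ≠ 0 ∧ a1 + t * b1 ≠ 0 ∧ a2 + t * b2 ≠ 0 := by
  obtain ⟨t, h1, h2, h3⟩ := line3 h4 h1 h2 (a3 := 0) (b3 := 1) (Or.inr one_ne_zero)
  refine ⟨t, ?_, h1, h2⟩
  rwa [zero_add, mul_one] at h3

/-- avoiding three affine hyperplanes -/
theorem avoid3 (h4 : Four K) {X : Type*} [AddCommGroup X] [Module K X] (φ1 φ2 φ3 : X →ₗ[K] K) (d1 d2 d3 : K)
    (h1 : ∃ x, φ1 x ≠ d1) (h2 : ∃ x, φ2 x ≠ d2) (h3 : ∃ x, φ3 x ≠ d3) :
    ∃ x, φ1 x ≠ d1 ∧ φ2 x ≠ d2 ∧ φ3 x ≠ d3 := by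
  have key : ∀ (φ : X →ₗ[K] K) (d : K) (x y : X), (φ x ≠ d ∨ φ y ≠ d) → (φ x - d ≠ 0 ∨ φ y - φ x ≠ 0) := by
    intro φ d x y h
    by_contra hcon
    push Not at hcon
    have e1 := sub_eq_zero.mp hcon.1
    have e2 := sub_eq_zero.mp hcon.2
    rcases h with h | h
    · exact h e1
    · exact h (e2.trans e1)
  have ev : ∀ (φ : X →ₗ[K] K) (d : K) (x y : X) (t : K), φ x - d + t * (φ y - φ x) ≠ 0 → φ (x + t • (y - x)) ≠ d := by
    intro φ d x y t h h0
    apply h
    rw [map_add, map_smul, map_sub, smul_eq_mul] at h0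
    linear_combination h0
  obtain ⟨x1, h1⟩ := h1
  obtain ⟨x2, h2⟩ := h2
  obtain ⟨x3, h3⟩ := h3
  obtain ⟨t, ht1, ht2, -⟩ := line3 h4 (key φ1 d1 x1 x2 (Or.inl h1)) (key φ2 d2 x1 x2 (Or.inr h2))
    (a3 := 1) (b3 := 0) (Or.inl one_ne_zero)
  set y := x1 + t • (x2 - x1) with hy
  have e1 := ev φ1 d1 x1 x2 t ht1
  have e2 := ev φ2 d2 x1 x2 t ht2
  obtain ⟨s, hs1, hs2, hs3⟩ := line3 h4 (key φ1 d1 y x3 (Or.inl e1)) (key φ2 d2 y x3 (Or.inl e2))
    (key φ3 d3 y x3 (Or.inr h3))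
  exact ⟨_, ev φ1 d1 y x3 s hs1, ev φ2 d2 y x3 s hs2, ev φ3 d3 y x3 s hs3⟩

section Local

variable {V : Type*} [AddCommGroup V] [Module K V] [FiniteDimensional K V]

/-- a separating vector outside two hyperplanes -/
theorem exists_separating (h4 : Four K) (N : V →ₗ[K] V) (l1 l2 : V →ₗ[K] K) (h1 : l1 ≠ 0) (h2 : l2 ≠ 0) :
    ∃ v, l1 v ≠ 0 ∧ l2 v ≠ 0 ∧ ∀ f : K[X], aeval N f v = 0 → aeval N f = 0 := by
  classical
  set m := minpoly K N with hm
  have hm0 : m ≠ 0 := minpoly.ne_zero (Algebra.IsIntegral.isIntegral N)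
  have hmN : aeval N m = 0 := minpoly.aeval K N
  have hdvd : ∀ f : K[X], aeval N f = 0 → m ∣ f := fun f hf => minpoly.dvd K N hf
  have hdvd' : ∀ f : K[X], m ∣ f → aeval N f = 0 := by
    rintro f ⟨g, rfl⟩
    rw [map_mul, hmN, zero_mul]
  set S := (UniqueFactorizationMonoid.normalizedFactors m).toFinset with hS
  have hSirr : ∀ p ∈ S, Irreducible p := fun p hp =>
    UniqueFactorizationMonoid.irreducible_of_normalized_factor p (Multiset.mem_toFinset.mp hp)
  have hSdvd : ∀ p ∈ S, p ∣ m := fun p hp =>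
    UniqueFactorizationMonoid.dvd_of_mem_normalizedFactors (Multiset.mem_toFinset.mp hp)
  have hScop : ∀ p ∈ S, ∀ q ∈ S, p ≠ q → IsCoprime p q := by
    intro p hp q hq hpq
    rw [(hSirr p hp).coprime_iff_not_dvd]
    intro hd
    apply hpq
    have hass : Associated p q := (hSirr p hp).associated_of_dvd (hSirr q hq) hd
    have e1 := UniqueFactorizationMonoid.normalize_normalized_factor p (Multiset.mem_toFinset.mp hp)
    have e2 := UniqueFactorizationMonoid.normalize_normalized_factor q (Multiset.mem_toFinset.mp hq)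
    rw [← e1, ← e2]
    exact normalize_eq_normalize_iff_associated.mpr hass
  -- the local modification vectors
  have hy : ∀ p ∈ S, ∃ y : V, aeval N (m / p) y ≠ 0 ∧ ∀ q ∈ S, q ≠ p → aeval N (m / q) y = 0 := by
    intro p hp
    have hirr := hSirr p hp
    have hp0 : p ≠ 0 := hirr.ne_zero
    have hfin : FiniteMultiplicity p m := FiniteMultiplicity.of_not_isUnit hirr.not_isUnit hm0
    obtain ⟨m', hm', hnd⟩ := hfin.exists_eq_pow_mul_and_not_dvd
    set k := multiplicity p m with hk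
    have hk1 : k ≠ 0 := by
      intro h0
      rw [h0, pow_zero, one_mul] at hm'
      exact hnd (hm' ▸ hSdvd p hp)
    obtain ⟨j, hj⟩ := Nat.exists_eq_succ_of_ne_zero hk1
    have hmp : m / p = p ^ j * m' := by
      conv_lhs => rw [hm', hj, pow_succ, mul_comm (p ^ j) p, mul_assoc]
      exact mul_div_cancel_left₀ _ hp0
    have hndvd : ¬ m ∣ (m / p) * m' := by
      intro hd
      rw [hmp] at hd
      conv_lhs at hd => rw [hm', hj, pow_succ]
      have hm'0 : m' ≠ 0 := by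
        intro h0; rw [h0, mul_zero] at hm'; exact hm0 hm'
      have h5 : p ^ j * m' * p ∣ p ^ j * m' * m' := by
        convert hd using 1
        ring
      exact hnd ((mul_dvd_mul_iff_left (mul_ne_zero (pow_ne_zero _ hp0) hm'0)).mp h5)
    have hne : aeval N ((m / p) * m') ≠ 0 := fun h => hndvd (hdvd _ h)
    obtain ⟨x, hx⟩ : ∃ x, aeval N ((m / p) * m') x ≠ 0 := by
      by_contra hcon
      push Not at hcon
      exact hne (LinearMap.ext hcon)
    refine ⟨aeval N m' x, ?_, ?_⟩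
    · rwa [← Module.End.mul_apply, ← map_mul]
    · intro q hq hqp
      rw [← Module.End.mul_apply, ← map_mul]
      rw [hdvd' ((m / q) * m')]
      · rfl
      have hq0 : q ≠ 0 := (hSirr q hq).ne_zero
      have hmq : m = q * (m / q) := (EuclideanDomain.mul_div_cancel' hq0 (hSdvd q hq)).symm
      have h5 : p ^ k ∣ m / q := by
        have hc : IsCoprime (p ^ k) q := (hScop p hp q hq (Ne.symm hqp)).pow_left
        apply hc.dvd_of_dvd_mul_left
        rw [← hmq]
        exact ⟨m', hm'⟩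
      conv_lhs => rw [hm']
      exact mul_dvd_mul_right h5 m'
  -- sequential choice
  have hseq : ∀ s : Finset K[X], s ⊆ S → ∃ v, l1 v ≠ 0 ∧ l2 v ≠ 0 ∧ ∀ p ∈ s, aeval N (m / p) v ≠ 0 := by
    intro s
    induction s using Finset.induction_on with
    | empty =>
      intro _
      have e1 : ∃ x, l1 x ≠ 0 := by
        by_contra hcon; push Not at hcon; exact h1 (LinearMap.ext hcon)
      have e2 : ∃ x, l2 x ≠ 0 := by
        by_contra hcon; push Not at hcon; exact h2 (LinearMap.ext hcon)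
      obtain ⟨v, hv1, hv2, -⟩ := avoid3 h4 l1 l2 l2 0 0 0 e1 e2 e2
      exact ⟨v, hv1, hv2, fun p hp => absurd hp (Finset.notMem_empty p)⟩
    | insert p s hps ih =>
      intro hsub
      obtain ⟨v, hv1, hv2, hv3⟩ := ih (fun x hx => hsub (Finset.mem_insert_of_mem hx))
      have hpS : p ∈ S := hsub (Finset.mem_insert_self p s)
      by_cases hv : aeval N (m / p) v = 0
      · obtain ⟨y, hy1, hy2⟩ := hy p hpS
        obtain ⟨t, ht0, ht1, ht2⟩ := line2 h4 (b1 := l1 y) (b2 := l2 y) (Or.inl hv1) (Or.inl hv2)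
        refine ⟨v + t • y, ?_, ?_, ?_⟩
        · rwa [map_add, map_smul, smul_eq_mul]
        · rwa [map_add, map_smul, smul_eq_mul]
        · intro q hq
          rw [map_add, map_smul]
          by_cases hqp : q = p
          · rw [hqp, hv, zero_add]
            exact smul_ne_zero ht0 hy1
          · rw [hy2 q (hsub hq) hqp, smul_zero, add_zero]
            rcases Finset.mem_insert.mp hq with h | h
            · exact absurd h hqp
            · exact hv3 q h
      · refine ⟨v, hv1, hv2, fun q hq => ?_⟩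
        rcases Finset.mem_insert.mp hq with h | h
        · rw [h]; exact hv
        · exact hv3 q h
  obtain ⟨v, hv1, hv2, hv3⟩ := hseq S (Finset.Subset.refl S)
  refine ⟨v, hv1, hv2, fun f hf => ?_⟩
  apply hdvd'
  set d := EuclideanDomain.gcd f m with hd
  have hdm : d ∣ m := EuclideanDomain.gcd_dvd_right f m
  have hdf : d ∣ f := EuclideanDomain.gcd_dvd_left f m
  have hdv : aeval N d v = 0 := by
    rw [hd, EuclideanDomain.gcd_eq_gcd_ab f m, mul_comm f, map_add, map_mul, map_mul, hmN, zero_mul, add_zero,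
      Module.End.mul_apply, hf, map_zero]
  obtain ⟨s, hs⟩ := hdm
  by_cases hu : IsUnit s
  · refine dvd_trans ?_ hdf
    obtain ⟨u, hu⟩ := hu
    exact ⟨(u⁻¹ : (K[X])ˣ), by rw [hs, ← hu, mul_assoc, Units.mul_inv, mul_one]⟩
  · exfalso
    have hs0 : s ≠ 0 := by
      intro h0; rw [h0, mul_zero] at hs; exact hm0 hs
    obtain ⟨p, hpirr, hps⟩ := WfDvdMonoid.exists_irreducible_factor hu hs0
    obtain ⟨q, hq, hpq⟩ := UniqueFactorizationMonoid.exists_mem_normalizedFactors_of_dvd hm0 hpirr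
      (hps.trans ⟨d, by rw [hs]; ring⟩)
    have hqS : q ∈ S := Multiset.mem_toFinset.mpr hq
    have hq0 : q ≠ 0 := (hSirr q hqS).ne_zero
    obtain ⟨s', hs'⟩ : q ∣ s := hpq.symm.dvd.trans hps
    apply hv3 q hqS
    have e1 : m / q = s' * d := by
      conv_lhs => rw [hs, hs']
      rw [show d * (q * s') = q * (s' * d) by ring]
      exact mul_div_cancel_left₀ _ hq0
    rw [e1, map_mul, Module.End.mul_apply, hdv, map_zero]

end Local

end Cfsg.Agent.Lib.TwoUni1
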