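import Mathlib
import Cfsg.Agent.Lib.TwoUni1

/-!
# Products of two regular unipotents (helper51): the Schur complement is good
-/

set_option autoImplicit false

namespace Cfsg.Agent.Lib.TwoUni2

open Module TwoUni1

variable {K : Type*} [Field K] {V : Type*} [AddCommGroup V] [Module K V]

/-- two independent vectors -/
def I2 (K : Type*) [Field K] {V : Type*} [AddCommGroup V] [Module K V] (u w : V) : Prop :=
  ∀ a b : K, a • u + b • w = 0 → a = 0 ∧ b = 0

/-- three independent vectors -/
def I3 (K : Type*) [Field K] {V : Type*} [AddCommGroup V] [Module K V] (u v w : V) : Prop :=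
  ∀ a b c : K, a • u + b • v + c • w = 0 → a = 0 ∧ b = 0 ∧ c = 0

theorem I2.left {u w : V} (h : I2 K u w) : u ≠ 0 := by
  intro h0
  have := (h 1 0 (by rw [h0]; simp)).1
  exact one_ne_zero this

theorem I2.right {u w : V} (h : I2 K u w) : w ≠ 0 := by
  intro h0
  have := (h 0 1 (by rw [h0]; simp)).2
  exact one_ne_zero this

variable (N : V →ₗ[K] V) (e : V) (η : V →ₗ[K] K)

theorem I3_of {f h : V} (he : η e = 1) (hf : η f = 0) (hh : η h = 0) (h2 : I2 K f h) : I3 K e f h := by
  intro a b c habc
  have h1 := congrArg η habc
  rw [map_add, map_add, map_smul, map_smul, map_smul, he, hf, hh, map_zero] at h1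
  have ha : a = 0 := by simpa using h1
  rw [ha, zero_smul, zero_add] at habc
  exact ⟨ha, h2 b c habc⟩

/-- the Schur complement minus one -/
def T (h : V) : V := N h - η (N h) • (e + N e)

theorem T_add (x y : V) : T N e η (x + y) = T N e η x + T N e η y := by
  unfold T
  rw [map_add, map_add]
  module

theorem T_smul (a : K) (x : V) : T N e η (a • x) = a • T N e η x := by
  unfold T
  rw [map_smul, map_smul, smul_eq_mul]
  module

variable {N e η}

theorem goodC (he : η e = 1) (hf : η (N e) = 0) (h3 : I3 K e (N e) (N (N e)))
    (hC : ∀ α β γ : K, N (N (N e)) = γ • N (N e) + β • N e + α • e → η (N (N e)) ≠ β - α) :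
    (¬ ∃ c : K, ∀ h, η h = 0 → T N e η h = c • h) ∧
      ∃ x y, η x = 0 ∧ η y = 0 ∧ I2 K (T N e η x) (T N e η y) := by
  set t := η (N (N e)) with ht
  constructor
  · rintro ⟨c, hc⟩
    have h1 := hc (N e) hf
    unfold T at h1
    rw [← ht] at h1
    have h2 := h3 (-t) (-t - c) 1 (by linear_combination (norm := module) h1)
    exact one_ne_zero h2.2.2
  · refine ⟨N e, N (N e) - t • e, hf, ?_, ?_⟩
    · rw [map_sub, map_smul, he, ← ht]; simp
    · intro x y hxy
      set s := η (N (N (N e))) with hs
      have e1 : T N e η (N e) = N (N e) - t • (e + N e) := rfl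
      have e2 : T N e η (N (N e) - t • e) = N (N (N e)) - t • N e - s • (e + N e) := by
        unfold T
        rw [map_sub, map_smul, map_sub, map_smul, hf, ← hs]
        simp
      rw [e1, e2] at hxy
      by_cases hy : y = 0
      · rw [hy, zero_smul, add_zero] at hxy
        have h4 := h3 (-(x * t)) (-(x * t)) x (by linear_combination (norm := module) hxy)
        exact ⟨h4.2.2, hy⟩
      · exfalso
        apply hC (x * t / y + s) (x * t / y + t + s) (-x / y)
        · have h5 : y • (N (N (N e)) - ((-x / y) • N (N e) + (x * t / y + t + s) • N e + (x * t / y + s) • e)) = 0 := by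
            have e3 : y • (N (N (N e)) - ((-x / y) • N (N e) + (x * t / y + t + s) • N e + (x * t / y + s) • e)) =
              y • N (N (N e)) - ((y * (-x / y)) • N (N e) + (y * (x * t / y) + y * t + y * s) • N e +
                (y * (x * t / y) + y * s) • e) := by module
            have e4 : y * (-x / y) = -x := by field_simp
            have e5 : y * (x * t / y) = x * t := by field_simp
            rw [e3, e4, e5]
            linear_combination (norm := module) hxy
          have h6 := (smul_eq_zero.mp h5).resolve_left hy
          exact sub_eq_zero.mp h6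
        · ring

theorem goodQ (he : η e = 1) (hf : η (N e) = 0) (h2 : I2 K e (N e)) (hw : ∃ w, η (N w) ≠ 0)
    (hrk : ∃ x y, I2 K (N x) (N y)) (hinj : ∀ v, v + N v = 0 → v = 0) {α β : K}
    (hQ : ∀ v, N (N v) = α • N v + β • v) (hH : ∃ h, η h = 0 ∧ I2 K (N e) h)
    (hdim : (∃ h1 h2, η h1 = 0 ∧ η h2 = 0 ∧ I3 K (N e) h1 h2) ∨
      (T N e η (N e) = 0 → ∃ (h : V) (y : K), η h = 0 ∧ I2 K (N e) h ∧ T N e η h = y • N e)) :
    (¬ ∃ c : K, ∀ h, η h = 0 → T N e η h = c • h) ∧
      ∃ x y, η x = 0 ∧ η y = 0 ∧ I2 K (T N e η x) (T N e η y) := by
  have hf0 : N e ≠ 0 := h2.right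
  have hNf : N (N e) = α • N e + β • e := hQ e
  have hηNf : η (N (N e)) = β := by rw [hNf, map_add, map_smul, map_smul, hf, he]; simp
  have hTf : T N e η (N e) = (α - β) • N e := by
    unfold T
    rw [hηNf, hNf]; module
  constructor
  · rintro ⟨c, hc⟩
    have hcab : c = α - β := by
      have h1 := hc (N e) hf
      rw [hTf] at h1
      have h3 : (α - β - c) • N e = 0 := by linear_combination (norm := module) h1
      have h4 := (smul_eq_zero.mp h3).resolve_right hf0
      linear_combination -h4
    obtain ⟨h, hh, hI⟩ := hH
    have hI3 := I3_of e η he hf hh hI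
    have hc1 : c + 1 ≠ 0 := by
      intro h0
      have hT := hc h hh
      unfold T at hT
      have h1 : (h - η (N h) • e) + N (h - η (N h) • e) = 0 := by
        rw [map_sub, map_smul]
        have : c • h = -h := by
          rw [show c = -1 by linear_combination h0]; simp
        linear_combination (norm := module) hT + this
      have h3 := hinj _ h1
      have h4 := congrArg η h3
      rw [map_sub, map_smul, hh, he, map_zero, smul_eq_mul, mul_one, zero_sub, neg_eq_zero] at h4
      rw [h4, zero_smul, sub_zero] at h3
      exact hI.right h3
    have hβ : β = 0 := by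
      have hT := hc h hh
      unfold T at hT
      set κ := η (N h) with hκ
      have e1 : N h = c • h + κ • (e + N e) := by linear_combination (norm := module) hT
      have e2 := hQ h
      have e3 : N (N h) = c • N h + κ • (N e + N (N e)) := by
        conv_lhs => rw [e1]
        rw [map_add, map_smul, map_smul, map_add]
      rw [e3, e1, hNf] at e2
      have e4 := hI3 (c * κ + κ * β - α * κ) (c * κ + κ + κ * α - α * κ) (c * c - α * c - β)
        (by linear_combination (norm := module) e2)
      have e5 := e4.2.2
      have e6 : β * (c + 1) = 0 := by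
        have : c * (c - α) = β := by linear_combination e5
        rw [hcab] at this ⊢
        linear_combination -this
      exact (mul_eq_zero.mp e6).resolve_right hc1
    have hcα : c = α := by rw [hcab, hβ, sub_zero]
    have hker : ∀ h, η h = 0 → η (N h) = 0 := by
      intro h hh
      have hT := hc h hh
      unfold T at hT
      set κ := η (N h) with hκ
      have e1 : N h = c • h + κ • (e + N e) := by linear_combination (norm := module) hT
      have e2 := hQ h
      have e3 : N (N h) = c • N h + κ • (N e + N (N e)) := by
        conv_lhs => rw [e1]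
        rw [map_add, map_smul, map_smul, map_add]
      rw [e3, hNf, hβ, hcα] at e2
      have e4 : (κ * (α + 1)) • N e = 0 := by linear_combination (norm := module) e2
      have e5 := (smul_eq_zero.mp e4).resolve_right hf0
      rw [hcα] at hc1
      exact (mul_eq_zero.mp e5).resolve_right hc1
    obtain ⟨w, hw⟩ := hw
    apply hw
    have e1 := hker (w - η w • e) (by rw [map_sub, map_smul, he]; simp)
    rw [map_sub, map_smul, map_sub, map_smul, hf, smul_zero, sub_zero] at e1
    exact e1
  · by_cases hαβ : α = β
    · by_cases hα : α = 0
      · -- `N ^ 2 = 0`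
        have hβ : β = 0 := by rw [← hαβ, hα]
        have hNN : ∀ v, N (N v) = 0 := fun v => by rw [hQ, hα, hβ]; simp
        obtain ⟨w, hw⟩ := hw
        obtain ⟨v, hv⟩ : ∃ v, ∀ z : K, N v ≠ z • N e := by
          by_contra hcon
          push Not at hcon
          obtain ⟨x, y, hxy⟩ := hrk
          obtain ⟨a, ha⟩ := hcon x
          obtain ⟨b, hb⟩ := hcon y
          have h3 := hxy b (-a) (by rw [ha, hb]; module)
          rw [h3.1] at hb
          exact hxy.right (by rw [hb, zero_smul])
        set h := v - η v • e with hh
        have hηh : η h = 0 := by rw [hh, map_sub, map_smul, he]; simp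
        have hNh : N h = N v - η v • N e := by rw [hh, map_sub, map_smul]
        refine ⟨h, N w - η (N w) • e, hηh, by rw [map_sub, map_smul, he]; simp, ?_⟩
        have e1 : T N e η (N w - η (N w) • e) = (-η (N w)) • N e := by
          unfold T
          rw [map_sub, map_smul, hNN, zero_sub, map_neg, map_smul, hf]
          simp
        intro a b hab
        rw [e1] at hab
        unfold T at hab
        set κ := η (N h) with hκ
        have e2 := congrArg N hab
        rw [map_add, map_smul, map_sub, map_smul, map_add, map_smul, map_smul, hNN, hNN, map_zero] at e2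
        have e3 : (a * κ) • N e = 0 := by linear_combination (norm := module) -e2
        have e4 := (smul_eq_zero.mp e3).resolve_right hf0
        by_cases ha : a = 0
        · refine ⟨ha, ?_⟩
          rw [ha, zero_smul, zero_add, smul_smul] at hab
          have := (smul_eq_zero.mp hab).resolve_right hf0
          rcases mul_eq_zero.mp this with h | h
          · exact h
          · exact absurd (neg_eq_zero.mp h) hw
        · exfalso
          have hκ0 := (mul_eq_zero.mp e4).resolve_left ha
          rw [hκ0, zero_smul, sub_zero, hNh] at hab
          apply hv (η v + a⁻¹ * (b * η (N w)))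
          have e5 : N v = η v • N e + a⁻¹ • (a • (N v - η v • N e)) := by
            rw [smul_smul, inv_mul_cancel₀ ha]; module
          rw [e5]
          have e6 : a • (N v - η v • N e) = (b * η (N w)) • N e := by linear_combination (norm := module) hab
          rw [e6]; module
      · -- `α = β ≠ 0`
        have hβ0 : β ≠ 0 := by rw [← hαβ]; exact hα
        have hTf0 : T N e η (N e) = 0 := by rw [hTf, hαβ, sub_self, zero_smul]
        rcases hdim with ⟨h1, h2', hh1, hh2, hI⟩ | hdim
        · refine ⟨h1, h2', hh1, hh2, ?_⟩
          intro a b hab
          have hT : T N e η (a • h1 + b • h2') = 0 := by rw [T_add, T_smul, T_smul, hab]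
          unfold T at hT
          set h := a • h1 + b • h2' with hh
          set κ := η (N h) with hκ
          have e1 : N h = κ • (e + N e) := by linear_combination (norm := module) hT
          have e2 := hQ h
          have e3 : N (N h) = κ • (N e + N (N e)) := by
            conv_lhs => rw [e1]
            rw [map_smul, map_add]
          rw [e3, e1, hNf] at e2
          have e4 : κ • N e + (-(β * a)) • h1 + (-(β * b)) • h2' = 0 := by
            rw [hαβ] at e2
            have e5 : β • h = (β * a) • h1 + (β * b) • h2' := by rw [hh]; module
            linear_combination (norm := module) e2 + e5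
          have e5 := hI _ _ _ e4
          refine ⟨?_, ?_⟩
          · have := neg_eq_zero.mp e5.2.1
            exact (mul_eq_zero.mp this).resolve_left hβ0
          · have := neg_eq_zero.mp e5.2.2
            exact (mul_eq_zero.mp this).resolve_left hβ0
        · exfalso
          obtain ⟨h, y, hh, hI, hT⟩ := hdim hTf0
          have hI3 := I3_of e η he hf hh hI
          unfold T at hT
          set κ := η (N h) with hκ
          have e1 : N h = κ • (e + N e) + y • N e := by linear_combination (norm := module) hT
          have e2 := hQ h
          have e3 : N (N h) = κ • (N e + N (N e)) + y • N (N e) := by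
            conv_lhs => rw [e1]
            rw [map_add, map_smul, map_add, map_smul]
          rw [e3, e1, hNf, hαβ] at e2
          have e4 := hI3 (y * β) κ (-β) (by linear_combination (norm := module) e2)
          exact hβ0 (neg_eq_zero.mp e4.2.2)
    · by_contra hcon
      push Not at hcon
      have hspan : ∀ h, η h = 0 → ∃ z : K, T N e η h = z • N e := by
        intro h hh
        have h3 := hcon (N e) h hf hh
        unfold I2 at h3
        push Not at h3
        obtain ⟨a, b, hab, hne⟩ := h3
        rw [hTf] at hab
        by_cases hb : b = 0
        · exfalso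
          rw [hb, zero_smul, add_zero, smul_smul] at hab
          have h4 := (smul_eq_zero.mp hab).resolve_right hf0
          rcases mul_eq_zero.mp h4 with h | h
          · exact hne h hb
          · exact hαβ (sub_eq_zero.mp h)
        · refine ⟨-(b⁻¹ * (a * (α - β))), ?_⟩
          have e5 : T N e η h = b⁻¹ • (b • T N e η h) := by rw [smul_smul, inv_mul_cancel₀ hb, one_smul]
          have e6 : b • T N e η h = -((a * (α - β)) • N e) := by linear_combination (norm := module) hab
          rw [e5, e6]; module
      have hspan2 : ∀ v, ∃ a b : K, N v = a • e + b • N e := by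
        intro v
        obtain ⟨z, hz⟩ := hspan (v - η v • e) (by rw [map_sub, map_smul, he]; simp)
        unfold T at hz
        set κ := η (N (v - η v • e)) with hκ
        refine ⟨κ, κ + z + η v, ?_⟩
        rw [map_sub, map_smul] at hz
        linear_combination (norm := module) hz
      have hβ : β = 0 := by
        obtain ⟨h, hh, hI⟩ := hH
        have hI3 := I3_of e η he hf hh hI
        obtain ⟨a, b, hab⟩ := hspan2 h
        have e2 := hQ h
        rw [hab, map_add, map_smul, map_smul, hNf] at e2
        have e4 := hI3 (b * β - α * a) (a + b * α - α * b) (-β) (by linear_combination (norm := module) e2)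
        exact neg_eq_zero.mp e4.2.2
      obtain ⟨x, y, hxy⟩ := hrk
      have key : ∀ v (a b : K), N v = a • e + b • N e → a = 0 := by
        intro v a b hab
        have e2 := hQ v
        rw [hab, map_add, map_smul, map_smul, hNf, hβ] at e2
        have e4 := h2 (-(α * a)) a (by linear_combination (norm := module) e2)
        exact e4.2
      obtain ⟨a1, b1, h1⟩ := hspan2 x
      obtain ⟨a2, b2, h2'⟩ := hspan2 y
      rw [key x a1 b1 h1, zero_smul, zero_add] at h1
      rw [key y a2 b2 h2', zero_smul, zero_add] at h2'
      have h3 := hxy b2 (-b1) (by rw [h1, h2']; module)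
      rw [h3.1] at h2'
      exact hxy.right (by rw [h2', zero_smul])

end Cfsg.Agent.Lib.TwoUni2
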