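import Mathlib
import Cfsg.Agent.Lib.TwoUni2

/-!
# Products of two regular unipotents (helper51): selection, determinant, induction
-/

set_option autoImplicit false

namespace Cfsg.Agent.Lib.TwoUni3

open Module TwoUni1 TwoUni2 Polynomial

variable {K : Type*} [Field K] {V : Type*} [AddCommGroup V] [Module K V]

theorem exists_not_mem_span (N : V →ₗ[K] V) (hrk : ∃ x y, I2 K (N x) (N y)) (c : V) :
    ∃ w, N w ∉ Submodule.span K {c} := by
  by_contra hcon
  push Not at hcon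
  obtain ⟨x, y, hxy⟩ := hrk
  obtain ⟨a, ha⟩ := Submodule.mem_span_singleton.mp (hcon x)
  obtain ⟨b, hb⟩ := Submodule.mem_span_singleton.mp (hcon y)
  have h3 := hxy b (-a) (by rw [← ha, ← hb]; module)
  rw [h3.1, zero_smul] at hb
  exact hxy.right hb.symm

theorem aeval_two (N : V →ₗ[K] V) (a b : K) (v : V) : aeval N (C a + C b * X : K[X]) v = a • v + b • N v := by
  simp [Module.algebraMap_end_apply]

theorem aeval_three (N : V →ₗ[K] V) (a b c : K) (v : V) :
    aeval N (C a + C b * X + C c * X ^ 2 : K[X]) v = a • v + b • N v + c • N (N v) := by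
  simp [Module.algebraMap_end_apply, pow_two]

variable [FiniteDimensional K V]

theorem select (h4 : Four K) (N : V →ₗ[K] V) (hns : ¬ ∃ c : K, ∀ v, N v = c • v)
    (hrk : ∃ x y, I2 K (N x) (N y)) (c0 : V) (hc0 : c0 ≠ 0) (b0 : V →ₗ[K] K) (hb0 : b0 ≠ 0) :
    ∃ (e : V) (η : V →ₗ[K] K), η e = 1 ∧ η (N e) = 0 ∧ b0 e ≠ 0 ∧ η c0 ≠ 0 ∧ I2 K e (N e) ∧ (∃ w, η (N w) ≠ 0) ∧
      ((∃ α β : K, ∀ v, N (N v) = α • N v + β • v) ∨ (I3 K e (N e) (N (N e)) ∧
        ∀ α β γ : K, N (N (N e)) = γ • N (N e) + β • N e + α • e → η (N (N e)) ≠ β - α)) := by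
  -- the functional killing `c0`
  obtain ⟨w0, hw0⟩ := exists_not_mem_span N hrk c0
  obtain ⟨ζ, hζ1, hζ2⟩ := Submodule.exists_le_ker_of_notMem hw0
  have hζc : ζ c0 = 0 := hζ2 (Submodule.mem_span_singleton_self c0)
  have hl2 : ζ ∘ₗ N ≠ 0 := by
    intro h0
    exact hζ1 (DFunLike.congr_fun h0 w0)
  obtain ⟨e, he1, he2, he3⟩ := exists_separating h4 N b0 (ζ ∘ₗ N) hb0 hl2
  have he0 : e ≠ 0 := by rintro rfl; exact he1 (map_zero _)
  have hNe : N e ∉ Submodule.span K {c0} := by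
    intro h
    obtain ⟨a, ha⟩ := Submodule.mem_span_singleton.mp h
    apply he2
    change ζ (N e) = 0
    rw [← ha, map_smul, hζc, smul_zero]
  have hI2 : I2 K e (N e) := by
    intro a b hab
    have h1 := he3 (C a + C b * X) (by rw [aeval_two, hab])
    have h2 : ∀ v, a • v + b • N v = 0 := fun v => by rw [← aeval_two, h1]; rfl
    by_cases hb : b = 0
    · have h3 := h2 e
      rw [hb, zero_smul, add_zero] at h3
      exact ⟨(smul_eq_zero.mp h3).resolve_right he0, hb⟩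
    · exfalso
      apply hns
      refine ⟨-(b⁻¹ * a), fun v => ?_⟩
      have e1 : N v = b⁻¹ • (b • N v) := by rw [smul_smul, inv_mul_cancel₀ hb, one_smul]
      have e2 : b • N v = -(a • v) := by linear_combination (norm := module) h2 v
      rw [e1, e2]; module
  -- the base functional
  have hNe0 := hI2.right
  obtain ⟨η1, hη1a, hη1b⟩ : ∃ η : V →ₗ[K] K, η (N e) = 0 ∧ η e ≠ 0 := by
    have : e ∉ Submodule.span K {N e} := by
      intro h
      obtain ⟨a, ha⟩ := Submodule.mem_span_singleton.mp h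
      have := hI2 1 (-a) (by rw [neg_smul, ha]; module)
      exact one_ne_zero this.1
    obtain ⟨η, h1, h2⟩ := Submodule.exists_le_ker_of_notMem this
    exact ⟨η, h2 (Submodule.mem_span_singleton_self _), h1⟩
  set η0 : V →ₗ[K] K := (η1 e)⁻¹ • η1 with hη0
  have hη0e : η0 e = 1 := by rw [hη0, LinearMap.smul_apply, smul_eq_mul, inv_mul_cancel₀ hη1b]
  have hη0f : η0 (N e) = 0 := by rw [hη0, LinearMap.smul_apply, hη1a, smul_zero]
  set W : Submodule K V := Submodule.span K {e, N e} with hW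
  have heW : e ∈ W := Submodule.subset_span (by simp)
  have hfW : N e ∈ W := Submodule.subset_span (by simp)
  let X : Submodule K (V →ₗ[K] K) := W.dualAnnihilator
  have hX : ∀ ξ : X, ∀ w ∈ W, (ξ : V →ₗ[K] K) w = 0 := fun ξ w hw => (Submodule.mem_dualAnnihilator _).mp ξ.2 w hw
  let ev : V → (X →ₗ[K] K) := fun x => (LinearMap.applyₗ x) ∘ₗ X.subtype
  have hev : ∀ x (ξ : X), ev x ξ = (ξ : V →ₗ[K] K) x := fun x ξ => rfl
  have hsel : ∀ (x : V) (d : K), (x ∈ W → η0 x ≠ d) → ∃ ξ : X, ev x ξ ≠ d - η0 x := by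
    intro x d h
    by_cases hx : x ∈ W
    · refine ⟨0, ?_⟩
      rw [hev]
      change (0 : K) ≠ d - η0 x
      intro h0
      exact h hx (sub_eq_zero.mp h0.symm).symm
    · obtain ⟨ξ, h1, h2⟩ := Submodule.exists_le_ker_of_notMem hx
      have hξ : ξ ∈ X := (Submodule.mem_dualAnnihilator _).mpr (fun w hw => h2 hw)
      by_cases hd : d - η0 x = 0
      · exact ⟨⟨ξ, hξ⟩, by rw [hev, hd]; exact h1⟩
      · exact ⟨0, by rw [hev]; exact fun h0 => hd h0.symm⟩
  have hWform : ∀ x ∈ W, ∃ a b : K, x = a • e + b • N e := fun x hx => by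
    obtain ⟨a, b, h⟩ := Submodule.mem_span_pair.mp hx
    exact ⟨a, b, h.symm⟩
  have hη0form : ∀ a b : K, η0 (a • e + b • N e) = a := by
    intro a b
    rw [map_add, map_smul, map_smul, hη0e, hη0f]; simp
  have h1 : c0 ∈ W → η0 c0 ≠ 0 := by
    intro hc h0
    obtain ⟨a, b, hab⟩ := hWform c0 hc
    rw [hab, hη0form] at h0
    rw [h0, zero_smul, zero_add] at hab
    apply hNe
    have hb : b ≠ 0 := by
      intro hb; rw [hb, zero_smul] at hab; exact hc0 hab
    rw [Submodule.mem_span_singleton]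
    exact ⟨b⁻¹, by rw [hab, smul_smul, inv_mul_cancel₀ hb, one_smul]⟩
  obtain ⟨w, hw⟩ := exists_not_mem_span N hrk (N e)
  have h2 : N w ∈ W → η0 (N w) ≠ 0 := by
    intro hc h0
    obtain ⟨a, b, hab⟩ := hWform _ hc
    rw [hab, hη0form] at h0
    rw [h0, zero_smul, zero_add] at hab
    apply hw
    rw [Submodule.mem_span_singleton]
    exact ⟨b, hab.symm⟩
  have hfin : ∀ (x : V) (d : K), (x ∈ W → η0 x ≠ d) → ∃ η : V →ₗ[K] K, η e = 1 ∧ η (N e) = 0 ∧ η c0 ≠ 0 ∧
      η (N w) ≠ 0 ∧ η x ≠ d := by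
    intro x d h3
    obtain ⟨ξ, hξ1, hξ2, hξ3⟩ := avoid3 (X := ↥X) h4 (ev c0) (ev (N w)) (ev x) (0 - η0 c0) (0 - η0 (N w)) (d - η0 x)
      (hsel _ _ h1) (hsel _ _ h2) (hsel _ _ h3)
    rw [hev] at hξ1 hξ2 hξ3
    refine ⟨η0 + ξ, ?_, ?_, ?_, ?_, ?_⟩
    · rw [LinearMap.add_apply, hη0e, hX ξ e heW, add_zero]
    · rw [LinearMap.add_apply, hη0f, hX ξ _ hfW, add_zero]
    · rw [LinearMap.add_apply]
      intro h0; apply hξ1; linear_combination h0
    · rw [LinearMap.add_apply]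
      intro h0; apply hξ2; linear_combination h0
    · rw [LinearMap.add_apply]
      intro h0; apply hξ3; linear_combination h0
  by_cases hQ : ∃ α β : K, ∀ v, N (N v) = α • N v + β • v
  · obtain ⟨η, g1, g2, g3, g4, -⟩ := hfin c0 0 h1
    exact ⟨e, η, g1, g2, he1, g3, hI2, ⟨w, g4⟩, Or.inl hQ⟩
  · have hI3 : I3 K e (N e) (N (N e)) := by
      intro a b c habc
      have h1 := he3 (C a + C b * Polynomial.X + C c * Polynomial.X ^ 2) (by rw [aeval_three, habc])
      have h2 : ∀ v, a • v + b • N v + c • N (N v) = 0 := fun v => by rw [← aeval_three, h1]; rfl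
      by_cases hc : c = 0
      · rw [hc, zero_smul, add_zero] at habc
        have := hI2 a b habc
        exact ⟨this.1, this.2, hc⟩
      · exfalso
        apply hQ
        refine ⟨-(c⁻¹ * b), -(c⁻¹ * a), fun v => ?_⟩
        have e1 : N (N v) = c⁻¹ • (c • N (N v)) := by rw [smul_smul, inv_mul_cancel₀ hc, one_smul]
        have e2 : c • N (N v) = -(a • v) - b • N v := by linear_combination (norm := module) h2 v
        rw [e1, e2]; module
    have hnW : N (N e) ∉ W := by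
      intro h
      obtain ⟨a, b, hab⟩ := hWform _ h
      have := hI3 (-a) (-b) 1 (by rw [one_smul]; rw [hab]; module)
      exact one_ne_zero this.2.2
    by_cases hrep : ∃ α β γ : K, N (N (N e)) = γ • N (N e) + β • N e + α • e
    · obtain ⟨α, β, γ, hr⟩ := hrep
      obtain ⟨η, g1, g2, g3, g4, g5⟩ := hfin (N (N e)) (β - α) (fun h => absurd h hnW)
      refine ⟨e, η, g1, g2, he1, g3, hI2, ⟨w, g4⟩, Or.inr ⟨hI3, ?_⟩⟩
      intro α' β' γ' hr'
      have := hI3 (α - α') (β - β') (γ - γ') (by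
        rw [hr] at hr'
        linear_combination (norm := module) hr')
      rw [← sub_eq_zero.mp this.1, ← sub_eq_zero.mp this.2.1]
      exact g5
    · obtain ⟨η, g1, g2, g3, g4, -⟩ := hfin c0 0 h1
      exact ⟨e, η, g1, g2, he1, g3, hI2, ⟨w, g4⟩, Or.inr ⟨hI3, fun α β γ hr => absurd ⟨α, β, γ, hr⟩ hrep⟩⟩

end Cfsg.Agent.Lib.TwoUni3
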