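import Mathlib
import Cfsg.Agent.Lib.TwoUni3

/-!
# Products of two regular unipotents (helper51): determinant and induction
-/

set_option autoImplicit false

namespace Cfsg.Agent.Lib.TwoUni4

open Module TwoUni1 TwoUni2 TwoUni3

universe u v

variable {K : Type u} [Field K]

section Schur

variable {V : Type v} [AddCommGroup V] [Module K V]

/-- the projection to `ker η` along `e` -/
def pr (e : V) (η : V →ₗ[K] K) (he : η e = 1) : V →ₗ[K] LinearMap.ker η :=
  LinearMap.codRestrict _ (LinearMap.id - η.smulRight e) (fun v => by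
    rw [LinearMap.mem_ker, LinearMap.sub_apply, map_sub, LinearMap.smulRight_apply, map_smul, he]
    simp)

theorem pr_apply (e : V) (η : V →ₗ[K] K) (he : η e = 1) (v : V) : (pr e η he v : V) = v - η v • e := rfl

theorem pr_of_mem (e : V) (η : V →ₗ[K] K) (he : η e = 1) (h : LinearMap.ker η) : pr e η he h = h := by
  apply Subtype.ext
  rw [pr_apply, LinearMap.mem_ker.mp h.2, zero_smul, sub_zero]

theorem pr_e (e : V) (η : V →ₗ[K] K) (he : η e = 1) : pr e η he e = 0 := by
  apply Subtype.ext
  rw [pr_apply, he, one_smul, sub_self]; rfl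

/-- the Schur complement minus one as an endomorphism of `ker η` -/
def NS (N : V →ₗ[K] V) (e : V) (η : V →ₗ[K] K) (he : η e = 1) (hf : η (N e) = 0) :
    LinearMap.ker η →ₗ[K] LinearMap.ker η :=
  LinearMap.restrict (N - (η ∘ₗ N).smulRight (e + N e)) (fun v _ => by
    rw [LinearMap.mem_ker, LinearMap.sub_apply, map_sub, LinearMap.smulRight_apply, map_smul, map_add, he, hf,
      add_zero, smul_eq_mul, mul_one, LinearMap.comp_apply, sub_self])

theorem NS_apply (N : V →ₗ[K] V) (e : V) (η : V →ₗ[K] K) (he : η e = 1) (hf : η (N e) = 0)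
    (h : LinearMap.ker η) : (NS N e η he hf h : V) = T N e η h := rfl

variable [FiniteDimensional K V]

theorem det_NS (N : V →ₗ[K] V) (e : V) (η : V →ₗ[K] K) (he : η e = 1) (hf : η (N e) = 0) :
    LinearMap.det (1 + NS N e η he hf) = LinearMap.det (1 + N) := by
  set P := pr e η he with hP
  set N' := NS N e η he hf with hN'
  let B : V →ₗ[K] V := η.smulRight e + (LinearMap.ker η).subtype ∘ₗ (1 + N') ∘ₗ P
  have hB : ∀ v, B v = η v • e + ((P v : V) + T N e η (P v)) := fun v => by
    change η v • e + (((1 + N') (P v) : LinearMap.ker η) : V) = _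
    rw [LinearMap.add_apply, Module.End.one_apply, Submodule.coe_add]
    rfl
  let ψ : V →ₗ[K] K := η ∘ₗ N ∘ₗ (LinearMap.ker η).subtype ∘ₗ P
  have hψ : ∀ v, ψ v = η (N (P v)) := fun v => rfl
  have hPv : ∀ v, (P v : V) = v - η v • e := fun v => rfl
  have hfac : 1 + N = LinearMap.transvection η (N e) * B * LinearMap.transvection ψ e := by
    ext v
    rw [Module.End.mul_apply, Module.End.mul_apply, LinearMap.transvection.apply, LinearMap.transvection.apply]
    rw [map_add, map_smul]
    have hBe : B e = e := by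
      have : P e = 0 := pr_e e η he
      rw [hB, this, he]
      unfold T
      simp
    have hηB : ∀ v, η (B v) = η v := by
      intro v
      rw [hB, map_add, map_smul, he, map_add, LinearMap.mem_ker.mp (P v).2, smul_eq_mul, mul_one, zero_add]
      have : η (T N e η (P v)) = 0 := LinearMap.mem_ker.mp (N' (P v)).2
      rw [this, add_zero]
    rw [hBe, map_add, map_smul, hηB, he, hB, hψ]
    unfold T
    rw [hPv, map_sub, map_smul]
    rw [LinearMap.add_apply, Module.End.one_apply]
    simp only [smul_eq_mul, mul_one]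
    module
  have hdetB : LinearMap.det B = LinearMap.det (1 + N') := by
    have hBH : LinearMap.ker η ≤ (LinearMap.ker η).comap B := by
      intro h hh
      rw [Submodule.mem_comap]
      have hP' : P h = ⟨h, hh⟩ := pr_of_mem e η he ⟨h, hh⟩
      rw [hB, LinearMap.mem_ker.mp hh, zero_smul, zero_add]
      exact ((P h) + N' (P h)).2
    rw [LinearMap.det_eq_det_mul_det (LinearMap.ker η) B hBH]
    have e1 : B.restrict hBH = 1 + N' := by
      ext h
      rw [LinearMap.coe_restrict_apply, hB, LinearMap.mem_ker.mp h.2, zero_smul, zero_add]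
      have hP' : P h = h := pr_of_mem e η he h
      rw [hP']
      rfl
    have e2 : (LinearMap.ker η).mapQ (LinearMap.ker η) B hBH = LinearMap.id := by
      apply LinearMap.ext
      intro x
      obtain ⟨v, rfl⟩ := (LinearMap.ker η).mkQ_surjective x
      rw [Submodule.mkQ_apply, Submodule.mapQ_apply, LinearMap.id_apply, Submodule.Quotient.eq, LinearMap.mem_ker,
        map_sub, hB, map_add, map_smul, he, map_add, LinearMap.mem_ker.mp (P v).2, smul_eq_mul, mul_one, zero_add]
      have : η (T N e η (P v)) = 0 := LinearMap.mem_ker.mp (N' (P v)).2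
      rw [this, add_zero, sub_self]
    rw [e1, e2, LinearMap.det_id, mul_one]
  rw [hfac, map_mul, map_mul, LinearMap.transvection.det, LinearMap.transvection.det, hf, hdetB]
  have : ψ e = 0 := by
    have h0 : P e = 0 := pr_e e η he
    rw [hψ, h0]; simp
  rw [this]; simp

end Schur

theorem finrank_ker {V : Type v} [AddCommGroup V] [Module K V] [FiniteDimensional K V] {η : V →ₗ[K] K} {e : V}
    (he : η e = 1) {n : ℕ} (hn : finrank K V = n + 1) : finrank K (LinearMap.ker η) = n := by
  have h1 := LinearMap.finrank_range_add_finrank_ker η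
  have h2 : LinearMap.range η = ⊤ := by
    rw [LinearMap.range_eq_top]
    intro c
    exact ⟨c • e, by rw [map_smul, he, smul_eq_mul, mul_one]⟩
  rw [h2, finrank_top, finrank_self, hn] at h1
  omega

/-- the conclusion -/
def Concl (K : Type u) [Field K] {V : Type v} [AddCommGroup V] [Module K V] (n : ℕ) (N : V →ₗ[K] V) (c0 : V)
    (b0 : V →ₗ[K] K) : Prop :=
  ∃ M1 M2 : V →ₗ[K] V, (1 + M1) * (1 + M2) = 1 + N ∧ M1 ^ (n + 1) = 0 ∧ (M1 ^ n) c0 ≠ 0 ∧ M2 ^ (n + 1) = 0 ∧
    ∃ w, b0 ((M2 ^ n) w) ≠ 0

theorem assemble {V : Type v} [AddCommGroup V] [Module K V] (n : ℕ) (N : V →ₗ[K] V) (c0 : V)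
    (b0 : V →ₗ[K] K) (e : V) (η : V →ₗ[K] K) (he : η e = 1) (hf : η (N e) = 0) (hb0 : b0 e ≠ 0) (hc0 : η c0 ≠ 0)
    (h : Concl K n (NS N e η he hf) ⟨N e, LinearMap.mem_ker.mpr hf⟩ (η ∘ₗ N ∘ₗ (LinearMap.ker η).subtype)) :
    Concl K (n + 1) N c0 b0 := by
  obtain ⟨A1, A2, hA, h1, h1', h2, w, hw⟩ := h
  set P := pr e η he with hP
  set f : LinearMap.ker η := ⟨N e, LinearMap.mem_ker.mpr hf⟩ with hf'
  have hPv : ∀ v, (P v : V) = v - η v • e := fun v => pr_apply e η he v
  have hPH : ∀ h : LinearMap.ker η, P h = h := fun h => pr_of_mem e η he h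
  let M1 : V →ₗ[K] V := η.smulRight (N e) + (LinearMap.ker η).subtype ∘ₗ A1 ∘ₗ P
  have hM1 : ∀ v, M1 v = η v • N e + (A1 (P v) : V) := fun v => rfl
  let M2 : V →ₗ[K] V := (η ∘ₗ N ∘ₗ (LinearMap.ker η).subtype ∘ₗ P).smulRight e + (LinearMap.ker η).subtype ∘ₗ A2 ∘ₗ P
  have hM2 : ∀ v, M2 v = η (N (P v)) • e + (A2 (P v) : V) := fun v => rfl
  have hPe : P e = 0 := pr_e e η he
  have hp1 : ∀ k v, (M1 ^ (k + 1)) v = ((η v • (A1 ^ k) f + (A1 ^ (k + 1)) (P v) : LinearMap.ker η) : V) := by
    intro k
    induction k with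
    | zero => intro v; rw [zero_add, pow_one, pow_zero, pow_one]; rfl
    | succ k ih =>
      intro v
      rw [pow_succ', Module.End.mul_apply, ih, hM1, LinearMap.mem_ker.mp (η v • (A1 ^ k) f + (A1 ^ (k + 1)) (P v)).2,
        zero_smul, zero_add, hPH, map_add, map_smul, ← Module.End.mul_apply, ← pow_succ', ← Module.End.mul_apply,
        ← pow_succ']
  have hp2 : ∀ k v, (M2 ^ (k + 1)) v = η (N ((A2 ^ k) (P v))) • e + (((A2 ^ (k + 1)) (P v) : LinearMap.ker η) : V) := by
    intro k
    induction k with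
    | zero => intro v; rw [zero_add, pow_one, pow_zero, pow_one]; rfl
    | succ k ih =>
      intro v
      rw [pow_succ', Module.End.mul_apply, ih, map_add, map_smul, hM2 e, hPe, hM2, hPH, map_zero, pow_succ' A2 (k + 1),
        Module.End.mul_apply]
      simp
  refine ⟨M1, M2, ?_, ?_, ?_, ?_, ?_⟩
  · ext v
    change (v + M2 v) + M1 (v + M2 v) = v + N v
    rw [map_add M1, hM2, map_add M1, map_smul M1]
    have hA' : ∀ h : LinearMap.ker η, ((A1 h : LinearMap.ker η) : V) + (A2 h : V) + (A1 (A2 h) : V) = T N e η h := by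
      intro h
      have := congrArg (fun g : LinearMap.ker η →ₗ[K] LinearMap.ker η => ((g h : LinearMap.ker η) : V)) hA
      simp only [Module.End.mul_apply, LinearMap.add_apply, Module.End.one_apply, map_add] at this
      have e2 : ((h : V) + ((A1 h : LinearMap.ker η) : V)) + (((A2 h : LinearMap.ker η) : V) + (A1 (A2 h) : V)) =
        (h : V) + T N e η h := this
      linear_combination (norm := module) e2
    have hM1e : M1 e = N e := by rw [hM1, he, hPe]; simp
    have hM1A : M1 (A2 (P v)) = (A1 (A2 (P v)) : V) := by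
      rw [hM1, LinearMap.mem_ker.mp (A2 (P v)).2, zero_smul, zero_add, hPH]
    have hM1v : M1 v = η v • N e + (A1 (P v) : V) := hM1 v
    rw [hM1e, hM1A, hM1v]
    have e1 := hA' (P v)
    unfold T at e1
    have e3 : N (P v) = N v - η v • N e := by rw [hPv, map_sub, map_smul]
    rw [e3] at e1 ⊢
    linear_combination (norm := module) e1
  · ext v
    rw [hp1, h1, pow_succ, h1]
    simp
  · rw [hp1, h1]
    intro h0
    have h3 : ((η c0 • (A1 ^ n) f : LinearMap.ker η) : V) = 0 := by
      have : (η c0 • (A1 ^ n) f + (0 : LinearMap.ker η →ₗ[K] LinearMap.ker η) (P c0) : LinearMap.ker η) = η c0 • (A1 ^ n) f := by simp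
      rw [this] at h0
      exact h0
    have h4 : (η c0 • (A1 ^ n) f : LinearMap.ker η) = 0 := Subtype.ext h3
    rcases smul_eq_zero.mp h4 with h | h
    · exact hc0 h
    · exact h1' h
  · ext v
    rw [hp2, h2, pow_succ, h2]
    simp
  · refine ⟨w, ?_⟩
    rw [hp2, h2, hPH]
    have : b0 (η (N ((A2 ^ n) w)) • e + (((0 : LinearMap.ker η →ₗ[K] LinearMap.ker η) w : LinearMap.ker η) : V)) = η (N ((A2 ^ n) w)) * b0 e := by
      rw [LinearMap.zero_apply, Submodule.coe_zero, add_zero, map_smul, smul_eq_mul]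
    rw [this]
    exact mul_ne_zero hw hb0

end Cfsg.Agent.Lib.TwoUni4
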