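import Mathlib
import Cfsg.Agent.Lib.TwoUni4

/-!
# Products of two regular unipotents (helper51): induction
-/

set_option autoImplicit false

namespace Cfsg.Agent.Lib.TwoUni5

open Module TwoUni1 TwoUni2 TwoUni3 TwoUni4

universe u v

variable {K : Type u} [Field K]

section

variable {V : Type v} [AddCommGroup V] [Module K V] [FiniteDimensional K V]

omit [FiniteDimensional K V] in
theorem exists_notMem {S : Submodule K V} (h : finrank K S < finrank K V) : ∃ v, v ∉ S := by
  by_contra hcon
  push Not at hcon
  have : S = ⊤ := by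
    rw [eq_top_iff]; intro v _; exact hcon v
  rw [this, finrank_top] at h
  omega

theorem exists_I2 {f : V} (hf : f ≠ 0) (h : 2 ≤ finrank K V) : ∃ g, I2 K f g := by
  obtain ⟨g, hg⟩ := exists_notMem (K := K) (V := V) (S := Submodule.span K {f})
    (by rw [finrank_span_singleton hf]; omega)
  refine ⟨g, fun a b hab => ?_⟩
  by_cases hb : b = 0
  · rw [hb, zero_smul, add_zero] at hab
    exact ⟨(smul_eq_zero.mp hab).resolve_right hf, hb⟩
  · exfalso
    apply hg
    rw [Submodule.mem_span_singleton]
    refine ⟨-(b⁻¹ * a), ?_⟩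
    have e1 : g = b⁻¹ • (b • g) := by rw [smul_smul, inv_mul_cancel₀ hb, one_smul]
    have e2 : b • g = -(a • f) := by linear_combination (norm := module) hab
    rw [e1, e2]; module

theorem exists_I3 {f : V} (hf : f ≠ 0) (h : 3 ≤ finrank K V) : ∃ g k, I3 K f g k := by
  classical
  obtain ⟨g, hg⟩ := exists_I2 (K := K) hf (by omega)
  obtain ⟨k, hk⟩ := exists_notMem (K := K) (V := V) (S := Submodule.span K ({f, g} : Finset V)) (by
    have h1 : finrank K (Submodule.span K (({f, g} : Finset V) : Set V)) ≤ ({f, g} : Finset V).card :=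
      finrank_span_finset_le_card (R := K) ({f, g} : Finset V)
    have h2 : ({f, g} : Finset V).card ≤ 2 := Finset.card_le_two
    omega)
  refine ⟨g, k, fun a b c habc => ?_⟩
  by_cases hc : c = 0
  · rw [hc, zero_smul, add_zero] at habc
    have := hg a b habc
    exact ⟨this.1, this.2, hc⟩
  · exfalso
    apply hk
    rw [Finset.coe_pair, Submodule.mem_span_pair]
    refine ⟨-(c⁻¹ * a), -(c⁻¹ * b), ?_⟩
    have e1 : k = c⁻¹ • (c • k) := by rw [smul_smul, inv_mul_cancel₀ hc, one_smul]
    have e2 : c • k = -(a • f) - b • g := by linear_combination (norm := module) habc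
    rw [e1, e2]; module

/-- a determinant computation in dimension two -/
theorem det_two (h2 : finrank K V = 2) (N : V →ₗ[K] V) (hdet : LinearMap.det (1 + N) = 1) {f h : V}
    (hI : I2 K f h) (hf : N f = 0) : ∃ y : K, N h = y • f := by
  have hf0 : f ≠ 0 := hI.left
  set W : Submodule K V := Submodule.span K {f} with hW
  have hfW : f ∈ W := Submodule.mem_span_singleton_self f
  have hWN : ∀ w ∈ W, N w = 0 := by
    intro w hw
    obtain ⟨a, rfl⟩ := Submodule.mem_span_singleton.mp hw
    rw [map_smul, hf, smul_zero]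
  have hWd : finrank K W = 1 := finrank_span_singleton hf0
  -- everything is a combination
  have hspan : ∀ v : V, ∃ a b : K, v = a • f + b • h := by
    intro v
    have h3 : Submodule.span K {f, h} = ⊤ := by
      apply Submodule.eq_top_of_finrank_eq
      rw [h2]
      have hli : LinearIndependent K ![f, h] := by
        rw [LinearIndependent.pair_iff]
        exact hI
      have := finrank_span_eq_card hli
      rw [Fintype.card_fin, Matrix.range_cons, Matrix.range_cons, Matrix.range_empty, Set.union_empty,
        Set.singleton_union] at this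
      exact this
    have h4 : v ∈ Submodule.span K {f, h} := h3 ▸ Submodule.mem_top
    obtain ⟨a, b, hab⟩ := Submodule.mem_span_pair.mp h4
    exact ⟨a, b, hab.symm⟩
  obtain ⟨y, ν, hν⟩ := hspan (N h)
  have hWc : W ≤ W.comap (1 + N) := by
    intro w hw
    rw [Submodule.mem_comap, LinearMap.add_apply, Module.End.one_apply, hWN w hw, add_zero]
    exact hw
  rw [LinearMap.det_eq_det_mul_det W (1 + N) hWc] at hdet
  have e1 : (1 + N).restrict hWc = LinearMap.id := by
    ext w
    rw [LinearMap.coe_restrict_apply, LinearMap.add_apply, Module.End.one_apply, hWN w w.2, add_zero,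
      LinearMap.id_apply]
  have e2 : W.mapQ W (1 + N) hWc = (1 + ν) • LinearMap.id := by
    apply LinearMap.ext
    intro x
    obtain ⟨v, rfl⟩ := W.mkQ_surjective x
    obtain ⟨a, b, rfl⟩ := hspan v
    rw [Submodule.mkQ_apply, Submodule.mapQ_apply, LinearMap.smul_apply, LinearMap.id_apply,
      ← Submodule.Quotient.mk_smul, Submodule.Quotient.eq, LinearMap.add_apply, Module.End.one_apply, map_add,
      map_smul, map_smul, hf, hν]
    have : a • f + b • h + (a • (0 : V) + b • (y • f + ν • h)) - (1 + ν) • (a • f + b • h) =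
        (b * y - ν * a) • f := by module
    rw [this]
    exact W.smul_mem _ hfW
  have hQd : finrank K (V ⧸ W) = 1 := by
    have := W.finrank_quotient_add_finrank
    omega
  rw [e1, e2, LinearMap.det_id, one_mul, LinearMap.det_smul, hQd, pow_one, LinearMap.det_id, mul_one] at hdet
  have hν0 : ν = 0 := by linear_combination hdet
  exact ⟨y, by rw [hν, hν0]; module⟩

end

theorem main_ind (h4 : Four K) : ∀ (n : ℕ) (V : Type v) [AddCommGroup V] [Module K V] [FiniteDimensional K V],
    finrank K V = n + 1 → ∀ (N : V →ₗ[K] V), LinearMap.det (1 + N) = 1 →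
    (n = 0 ∨ ((¬ ∃ c : K, ∀ v, N v = c • v) ∧ ∃ x y, I2 K (N x) (N y))) →
    ∀ c0 : V, c0 ≠ 0 → ∀ b0 : V →ₗ[K] K, b0 ≠ 0 → Concl K n N c0 b0 := by
  intro n
  induction n with
  | zero =>
    intro V _ _ _ hV N hdet _ c0 hc0 b0 hb0
    have hex : ∀ v : V, ∃ a : K, a • c0 = v := fun v => exists_smul_eq_of_finrank_eq_one (by omega) hc0 v
    obtain ⟨c, hc⟩ := hex (N c0)
    have hN : 1 + N = (1 + c) • LinearMap.id := by
      ext v
      obtain ⟨a, rfl⟩ := hex v
      rw [LinearMap.add_apply, Module.End.one_apply, map_smul, ← hc, LinearMap.smul_apply, LinearMap.id_apply]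
      module
    rw [hN, LinearMap.det_smul, LinearMap.det_id, hV, mul_one, zero_add, pow_one] at hdet
    have hc0' : c = 0 := by linear_combination hdet
    rw [hc0'] at hN
    have hN0 : 1 + N = 1 := by rw [hN, add_zero, one_smul]; rfl
    refine ⟨0, 0, by rw [hN0]; simp, by simp, by simpa using hc0, by simp, ?_⟩
    by_contra hcon
    push Not at hcon
    apply hb0
    ext w
    simpa using hcon w
  | succ n ih =>
    intro V _ _ _ hV N hdet hN c0 hc0 b0 hb0
    obtain ⟨hns, hrk⟩ : (¬ ∃ c : K, ∀ v, N v = c • v) ∧ ∃ x y, I2 K (N x) (N y) := by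
      rcases hN with h | h
      · omega
      · exact h
    obtain ⟨e, η, he, hf, hb0e, hc0η, hI2, hw, hcase⟩ := select h4 N hns hrk c0 hc0 b0 hb0
    have hfr : finrank K (LinearMap.ker η) = n + 1 := TwoUni4.finrank_ker he hV
    have hdet' : LinearMap.det (1 + NS N e η he hf) = 1 := by rw [det_NS, hdet]
    set f : LinearMap.ker η := ⟨N e, LinearMap.mem_ker.mpr hf⟩ with hf'
    have hf0 : f ≠ 0 := fun h => hI2.right (congrArg Subtype.val h)
    have hinj : ∀ v, v + N v = 0 → v = 0 := by
      intro v hv
      have hu : IsUnit (1 + N) := by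
        rw [LinearMap.isUnit_iff_isUnit_det, hdet]
        exact isUnit_one
      have hk : LinearMap.ker (1 + N) = ⊥ := (LinearMap.isUnit_iff_ker_eq_bot _).mp hu
      have : v ∈ LinearMap.ker (1 + N) := hv
      rw [hk] at this
      exact (Submodule.mem_bot K).mp this
    apply assemble n N c0 b0 e η he hf hb0e hc0η
    apply ih (LinearMap.ker η) hfr (NS N e η he hf) hdet' ?_ _ hf0
    · intro h0
      obtain ⟨w, hw⟩ := hw
      apply hw
      have h1 := DFunLike.congr_fun h0 (pr e η he w)
      have h2 : η (N ((pr e η he w : LinearMap.ker η) : V)) = 0 := h1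
      rw [pr_apply, map_sub, map_smul, map_sub, map_smul, hf, smul_zero, sub_zero] at h2
      exact h2
    · by_cases hn : n = 0
      · exact Or.inl hn
      · right
        have hgood : (¬ ∃ c : K, ∀ h, η h = 0 → T N e η h = c • h) ∧
            ∃ x y, η x = 0 ∧ η y = 0 ∧ I2 K (T N e η x) (T N e η y) := by
          rcases hcase with ⟨α, β, hQ⟩ | ⟨hI3, hC⟩
          · obtain ⟨g, hg⟩ := exists_I2 (K := K) hf0 (by omega)
            have hg' : I2 K (N e) (g : V) := by
              intro a b hab
              exact hg a b (Subtype.ext hab)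
            refine goodQ he hf hI2 hw hrk hinj hQ ⟨g, LinearMap.mem_ker.mp g.2, hg'⟩ ?_
            by_cases hn1 : n = 1
            · right
              intro hT
              obtain ⟨y, hy⟩ := det_two (by omega) (NS N e η he hf) hdet' hg (Subtype.ext hT)
              exact ⟨g, y, LinearMap.mem_ker.mp g.2, hg', congrArg Subtype.val hy⟩
            · left
              obtain ⟨h1, h2, h3⟩ := exists_I3 (K := K) hf0 (by omega)
              exact ⟨h1, h2, LinearMap.mem_ker.mp h1.2, LinearMap.mem_ker.mp h2.2,
                fun a b c habc => h3 a b c (Subtype.ext habc)⟩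
          · exact goodC he hf hI3 hC
        obtain ⟨hg1, x, y, hx, hy, hxy⟩ := hgood
        refine ⟨?_, ⟨x, LinearMap.mem_ker.mpr hx⟩, ⟨y, LinearMap.mem_ker.mpr hy⟩, ?_⟩
        · rintro ⟨c, hc⟩
          apply hg1
          exact ⟨c, fun h hh => congrArg Subtype.val (hc ⟨h, LinearMap.mem_ker.mpr hh⟩)⟩
        · intro a b hab
          exact hxy a b (congrArg Subtype.val hab)

end Cfsg.Agent.Lib.TwoUni5
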