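import Mathlib
import Cfsg.Agent.Lib.TwoUni5
import Cfsg.Agent.Lib.RegNil
import Cfsg.Agent.Lib.SymCount

/-!
# Products of two regular unipotents (helper51): matrices
-/

set_option autoImplicit false

namespace Cfsg.Agent.Lib.TwoUni6

open Module Matrix TwoUni1 TwoUni2 TwoUni3 TwoUni4 TwoUni5

variable {K : Type*} [Field K] {m : ℕ}

/-- regular unipotent -/
def RU (X : GL (Fin (m + 1)) K) : Prop :=
  ((X : Matrix (Fin (m + 1)) (Fin (m + 1)) K) - 1) ^ (m + 1) = 0 ∧
    ((X : Matrix (Fin (m + 1)) (Fin (m + 1)) K) - 1) ^ m ≠ 0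

theorem exists_GL (g : (Fin (m + 1) → K) ≃ₗ[K] (Fin (m + 1) → K)) :
    ∃ A : GL (Fin (m + 1)) K, ∀ x, (A : Matrix (Fin (m + 1)) (Fin (m + 1)) K) *ᵥ x = g x := by
  refine ⟨Matrix.GeneralLinearGroup.toLin.symm
    ((LinearMap.GeneralLinearGroup.generalLinearEquiv K (Fin (m + 1) → K)).symm g), fun x => ?_⟩
  have : ((Matrix.GeneralLinearGroup.toLin (Matrix.GeneralLinearGroup.toLin.symm
    ((LinearMap.GeneralLinearGroup.generalLinearEquiv K (Fin (m + 1) → K)).symm g)) :
      LinearMap.GeneralLinearGroup K (Fin (m + 1) → K)) : (Fin (m + 1) → K) →ₗ[K] (Fin (m + 1) → K)) x = g x := by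
    rw [MulEquiv.apply_symm_apply]
    rfl
  rw [← this]
  rfl

theorem exists_mulVec_ne {M : Matrix (Fin (m + 1)) (Fin (m + 1)) K} (h : M ≠ 0) : ∃ w, M *ᵥ w ≠ 0 := by
  by_contra hcon
  push Not at hcon
  apply h
  apply Matrix.ext_of_mulVec_single
  intro i
  rw [hcon, Matrix.zero_mulVec]

theorem crit {J X : GL (Fin (m + 1)) K} (hJ : RU J) (hX : RU X) : ∃ x : GL (Fin (m + 1)) K, X = x * J * x⁻¹ := by
  obtain ⟨hJ1, hJ2⟩ := hJ
  obtain ⟨hX1, hX2⟩ := hX
  obtain ⟨v, hv⟩ := exists_mulVec_ne hJ2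
  obtain ⟨w, hw⟩ := exists_mulVec_ne hX2
  set NJ := (J : Matrix (Fin (m + 1)) (Fin (m + 1)) K) - 1 with hNJ
  set NX := (X : Matrix (Fin (m + 1)) (Fin (m + 1)) K) - 1 with hNX
  obtain ⟨e, he, -⟩ := RegNil.exists_equiv (F := K) (n := m + 1) NJ.mulVecLin (by simp)
    (by rw [← RegNil.mulVecLin_pow, hJ1, Matrix.mulVecLin_zero]) v
    (by rw [Nat.add_sub_cancel, ← RegNil.mulVecLin_pow]; exact hv) NX.mulVecLin (by simp)
    (by rw [← RegNil.mulVecLin_pow, hX1, Matrix.mulVecLin_zero]) w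
    (by rw [Nat.add_sub_cancel, ← RegNil.mulVecLin_pow]; exact hw)
  obtain ⟨A, hA⟩ := exists_GL e
  refine ⟨A, ?_⟩
  rw [eq_mul_inv_iff_mul_eq]
  apply Units.ext
  rw [Units.val_mul, Units.val_mul]
  have h1 : NX * (A : Matrix (Fin (m + 1)) (Fin (m + 1)) K) = A * NJ := by
    apply Matrix.ext_of_mulVec_single
    intro i
    rw [← Matrix.mulVec_mulVec, ← Matrix.mulVec_mulVec, hA, hA]
    exact (he _).symm
  rw [hNJ, hNX, sub_mul, mul_sub, one_mul, mul_one] at h1
  exact sub_left_injective h1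

theorem RU.inv {X : GL (Fin (m + 1)) K} (h : RU X) : RU X⁻¹ := by
  have h1 : ((X⁻¹ : GL (Fin (m + 1)) K) : Matrix (Fin (m + 1)) (Fin (m + 1)) K) - 1 =
      (-((X : Matrix (Fin (m + 1)) (Fin (m + 1)) K) - 1)) * ((X⁻¹ : GL (Fin (m + 1)) K) : Matrix _ _ K) := by
    rw [neg_sub, sub_mul, one_mul, ← Units.val_mul, mul_inv_cancel, Units.val_one]
  have hc : Commute (-((X : Matrix (Fin (m + 1)) (Fin (m + 1)) K) - 1))
      ((X⁻¹ : GL (Fin (m + 1)) K) : Matrix (Fin (m + 1)) (Fin (m + 1)) K) := by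
    apply Commute.neg_left
    apply Commute.sub_left
    · rw [Commute, SemiconjBy, ← Units.val_mul, ← Units.val_mul, mul_inv_cancel, inv_mul_cancel]
    · exact Commute.one_left _
  have h2 : ∀ k, (((X⁻¹ : GL (Fin (m + 1)) K) : Matrix (Fin (m + 1)) (Fin (m + 1)) K) - 1) ^ k =
      (-((X : Matrix (Fin (m + 1)) (Fin (m + 1)) K) - 1)) ^ k * ((X⁻¹ ^ k : GL (Fin (m + 1)) K) : Matrix _ _ K) := by
    intro k
    rw [h1, hc.mul_pow, Units.val_pow_eq_pow_val]
  refine ⟨?_, ?_⟩
  · rw [h2, neg_pow, h.1, mul_zero, zero_mul]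
  · rw [h2]
    intro h0
    rw [Units.mul_left_eq_zero, neg_pow] at h0
    apply h.2
    have h3 : ((-1 : Matrix (Fin (m + 1)) (Fin (m + 1)) K) ^ m) * ((-1) ^ m) = 1 := by
      rw [← pow_add]; exact Even.neg_one_pow ⟨m, rfl⟩
    calc ((X : Matrix (Fin (m + 1)) (Fin (m + 1)) K) - 1) ^ m
        = ((-1) ^ m * (-1) ^ m) * ((X : Matrix (Fin (m + 1)) (Fin (m + 1)) K) - 1) ^ m := by rw [h3, one_mul]
      _ = 0 := by rw [mul_assoc, h0, mul_zero]

/-- the standard nilpotent -/
def E0 (K : Type*) [Field K] (m : ℕ) : Matrix (Fin (m + 1)) (Fin (m + 1)) K :=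
  Matrix.of fun i j => if j.val = i.val + 1 then 1 else 0

theorem E0_pow (k : ℕ) (i j : Fin (m + 1)) : (E0 K m ^ k) i j = if j.val = i.val + k then 1 else 0 := by
  induction k generalizing i j with
  | zero =>
    rw [pow_zero, Matrix.one_apply]
    simp only [add_zero, Fin.ext_iff, eq_comm]
  | succ k ih =>
    rw [pow_succ, Matrix.mul_apply]
    by_cases h : i.val + k < m + 1
    · rw [Finset.sum_eq_single ⟨i.val + k, h⟩]
      · rw [ih, if_pos rfl, one_mul]
        simp only [E0, Matrix.of_apply, add_assoc]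
      · intro l _ hl
        rw [ih, if_neg, zero_mul]
        intro h0; apply hl; apply Fin.ext; exact h0
      · intro h0; exact absurd (Finset.mem_univ _) h0
    · rw [Finset.sum_eq_zero, if_neg]
      · have := j.2; omega
      · intro l _
        rw [ih, if_neg, zero_mul]
        have := l.2; omega

theorem RU_J {J : GL (Fin (m + 1)) K} (hJ : (J : Matrix (Fin (m + 1)) (Fin (m + 1)) K) = 1 + E0 K m) : RU J := by
  unfold RU
  rw [hJ, add_sub_cancel_left]
  constructor
  · ext i j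
    rw [E0_pow, if_neg]
    · rfl
    · have := j.2; omega
  · intro h0
    have h1 := congrFun (congrFun h0 0) (Fin.last m)
    rw [E0_pow, if_pos (by simp)] at h1
    exact one_ne_zero h1

/-- the first case: rank at least two -/
theorem case_big (h4 : Four K) {g : GL (Fin (m + 1)) K} (hdet : (g : Matrix (Fin (m + 1)) (Fin (m + 1)) K).det = 1)
    (hns : ¬ ∃ c : K, ∀ v, ((g : Matrix (Fin (m + 1)) (Fin (m + 1)) K) - 1).mulVecLin v = c • v)
    (hrk : ∃ x y, I2 K (((g : Matrix (Fin (m + 1)) (Fin (m + 1)) K) - 1).mulVecLin x)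
      (((g : Matrix (Fin (m + 1)) (Fin (m + 1)) K) - 1).mulVecLin y)) :
    ∃ L U : GL (Fin (m + 1)) K, g = L * U ∧ RU L ∧ RU U := by
  let α : Matrix (Fin (m + 1)) (Fin (m + 1)) K ≃ₐ[K] ((Fin (m + 1) → K) →ₗ[K] (Fin (m + 1) → K)) :=
    Matrix.toLinAlgEquiv'
  have hα : ∀ M, α M = M.mulVecLin := fun M => rfl
  set N := ((g : Matrix (Fin (m + 1)) (Fin (m + 1)) K) - 1).mulVecLin with hN
  have hgN : α (g : Matrix (Fin (m + 1)) (Fin (m + 1)) K) = 1 + N := by
    rw [hN, ← hα, map_sub, map_one]; abel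
  have hdet' : LinearMap.det (1 + N) = 1 := by
    rw [← hgN]
    exact (LinearMap.det_toLin' _).trans hdet
  obtain ⟨c0, hc0⟩ := exists_ne (0 : Fin (m + 1) → K)
  have hb0 : (LinearMap.proj (0 : Fin (m + 1)) : (Fin (m + 1) → K) →ₗ[K] K) ≠ 0 := by
    intro h0
    have := DFunLike.congr_fun h0 (fun _ => 1)
    exact one_ne_zero this
  obtain ⟨M1, M2, hM, h1, h1', h2, w, hw⟩ := main_ind h4 m (Fin (m + 1) → K) (by simp) N hdet' (Or.inr ⟨hns, hrk⟩)
    c0 hc0 _ hb0
  have h1n : M1 ^ m ≠ 0 := fun h0 => h1' (by rw [h0]; rfl)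
  have h2n : M2 ^ m ≠ 0 := fun h0 => hw (by rw [h0]; rfl)
  have hu : ∀ M : (Fin (m + 1) → K) →ₗ[K] (Fin (m + 1) → K), M ^ (m + 1) = 0 → M ^ m ≠ 0 →
      ∃ X : GL (Fin (m + 1)) K, (X : Matrix (Fin (m + 1)) (Fin (m + 1)) K) = α.symm (1 + M) ∧ RU X := by
    intro M hM1 hM2
    have hu : IsUnit (1 + M) := IsNilpotent.isUnit_one_add ⟨m + 1, hM1⟩
    have hu' : IsUnit (α.symm (1 + M)) := hu.map α.symm
    obtain ⟨X, hX⟩ := hu'
    refine ⟨X, hX, ?_, ?_⟩
    · rw [hX, map_add, map_one, add_sub_cancel_left, ← map_pow, hM1, map_zero]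
    · rw [hX, map_add, map_one, add_sub_cancel_left, ← map_pow]
      intro h0
      exact hM2 ((map_eq_zero_iff α.symm α.symm.injective).mp h0)
  obtain ⟨L, hL, hL'⟩ := hu M1 h1 h1n
  obtain ⟨U, hU, hU'⟩ := hu M2 h2 h2n
  refine ⟨L, U, ?_, hL', hU'⟩
  apply Units.ext
  rw [Units.val_mul, hL, hU, ← map_mul, hM, ← hgN, AlgEquiv.symm_apply_apply]

/-- the model transvections -/
theorem case_model (h4 : Four K) {k : ℕ} {J g : GL (Fin (k + 2)) K}
    (hJ : (J : Matrix (Fin (k + 2)) (Fin (k + 2)) K) = 1 + E0 K (k + 1)) (φ : Fin (k + 2) → K) (hφ : φ 0 = 0)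
    (hg : (g : Matrix (Fin (k + 2)) (Fin (k + 2)) K) = 1 + Matrix.vecMulVec (Pi.single 0 1) φ) :
    ∃ L U : GL (Fin (k + 2)) K, g = L * U ∧ RU L ∧ RU U := by
  set N : Matrix (Fin (k + 2)) (Fin (k + 2)) K := Matrix.vecMulVec (Pi.single 0 1) φ with hN
  have hNN : N * N = 0 := by
    rw [hN, Matrix.vecMulVec_mul_vecMulVec]
    have : φ ⬝ᵥ Pi.single 0 1 = 0 := by rw [dotProduct_single, hφ, zero_mul]
    rw [this]; simp
  have hsNN : ∀ s t : K, (s • N) * (t • N) = 0 := fun s t => by rw [smul_mul_smul_comm, hNN, smul_zero]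
  have hD : ∀ t : K, (1 + t • N) * (1 - t • N) = 1 := by
    intro t
    rw [mul_sub, mul_one, add_mul, one_mul, hsNN]; abel
  have hD' : ∀ t : K, (1 - t • N) * (1 + t • N) = 1 := by
    intro t
    rw [mul_add, mul_one, sub_mul, one_mul, hsNN]; abel
  let D : K → GL (Fin (k + 2)) K := fun t => ⟨1 + t • N, 1 - t • N, hD t, hD' t⟩
  have hDv : ∀ t, (D t : Matrix (Fin (k + 2)) (Fin (k + 2)) K) = 1 + t • N := fun t => rfl
  have hDmul : ∀ s t, D s * D t = D (s + t) := by
    intro s t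
    apply Units.ext
    rw [Units.val_mul, hDv, hDv, hDv, mul_add, mul_one, add_mul, one_mul, hsNN, add_smul]
    abel
  have hgD : g = D 1 := by
    apply Units.ext
    rw [hg, hDv, one_smul]
  have hRU : ∀ t : K, 1 + t * φ 1 ≠ 0 → RU (D t * J) := by
    intro t ht
    set E := E0 K (k + 1) with hE
    set R := t • (N * (1 + E)) with hR
    have hval : ((D t * J : GL (Fin (k + 2)) K) : Matrix (Fin (k + 2)) (Fin (k + 2)) K) - 1 = E + R := by
      rw [Units.val_mul, hDv, hJ, add_mul, one_mul, smul_mul_assoc, hR]; abel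
    have hEN : E * N = 0 := by
      ext i j
      rw [hN, Matrix.mul_apply, Finset.sum_eq_zero]
      · rfl
      · intro l _
        rw [Matrix.vecMulVec_apply]
        by_cases hl : l = 0
        · rw [hl]
          have : E i 0 = 0 := by
            rw [hE]; simp only [E0, Matrix.of_apply]
            rw [if_neg]; simp
          rw [this, zero_mul]
        · rw [Pi.single_eq_of_ne hl, zero_mul, mul_zero]
    have hER : E * R = 0 := by
      rw [hR, mul_smul_comm, ← mul_assoc, hEN, zero_mul, smul_zero]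
    have hRR : R * R = 0 := by
      have h1 : N * (1 + E) * (N * (1 + E)) = 0 := by
        calc N * (1 + E) * (N * (1 + E)) = (N * N + N * (E * N)) * (1 + E) := by noncomm_ring
          _ = 0 := by rw [hNN, hEN]; simp
      rw [hR, smul_mul_smul_comm, h1, smul_zero]
    have hpow : ∀ j, (E + R) ^ (j + 1) = E ^ (j + 1) + R * E ^ j := by
      intro j
      induction j with
      | zero => simp
      | succ j ih =>
        rw [pow_succ', ih, add_mul, mul_add, mul_add, ← mul_assoc E R, hER, zero_mul, ← mul_assoc R R, hRR, zero_mul,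
          ← pow_succ', add_zero, add_zero]
    have hREentry : ∀ j (l : Fin (k + 2)), (R * E ^ j) 0 l = t * ∑ i, (φ i + ∑ i', φ i' * E i' i) * (E ^ j) i l := by
      intro j l
      rw [Matrix.mul_apply, Finset.mul_sum]
      apply Finset.sum_congr rfl
      intro i _
      rw [hR, Matrix.smul_apply, smul_eq_mul, mul_assoc]
      congr 2
      rw [mul_add, mul_one, Matrix.add_apply, hN, Matrix.vecMulVec_apply, Pi.single_eq_same, one_mul,
        Matrix.mul_apply]
      congr 1
      apply Finset.sum_congr rfl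
      intro i' _
      rw [Matrix.vecMulVec_apply, Pi.single_eq_same, one_mul]
    have hφE0 : ∑ i', φ i' * E i' 0 = 0 := by
      apply Finset.sum_eq_zero
      intro i' _
      have : E i' 0 = 0 := by
        rw [hE]; simp only [E0, Matrix.of_apply]
        rw [if_neg]; simp
      rw [this, mul_zero]
    have hφE1 : ∑ i', φ i' * E i' 1 = 0 := by
      apply Finset.sum_eq_zero
      intro i' _
      by_cases hi : i' = 0
      · rw [hi, hφ, zero_mul]
      · have : E i' 1 = 0 := by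
          rw [hE]; simp only [E0, Matrix.of_apply]
          rw [if_neg]
          intro h0
          apply hi
          apply Fin.ext
          simpa using h0
        rw [this, mul_zero]
    refine ⟨?_, ?_⟩
    · rw [hval, hpow]
      have e1 : E ^ (k + 1 + 1) = 0 := by
        ext i j
        rw [hE, E0_pow, if_neg]
        · rfl
        · have := j.2; omega
      rw [e1, zero_add]
      -- `R * E ^ (k+1) = 0`
      ext i j
      by_cases hi : i = 0
      · rw [hi, hREentry, Finset.sum_eq_zero]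
        · simp
        · intro l _
          by_cases hl : l = 0
          · rw [hl, hφ, hφE0, add_zero, zero_mul]
          · rw [hE, E0_pow, if_neg, mul_zero]
            have h1 : l.val ≠ 0 := fun h => hl (Fin.ext h)
            have := j.2; omega
      · rw [Matrix.mul_apply, Finset.sum_eq_zero]
        · rfl
        · intro l _
          rw [hR, Matrix.smul_apply, hN, Matrix.mul_apply, Finset.sum_eq_zero]
          · simp
          · intro l' _
            rw [Matrix.vecMulVec_apply, Pi.single_eq_of_ne hi, zero_mul, zero_mul]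
    · rw [hval, hpow]
      intro h0
      have h1 := congrFun (congrFun h0 0) (Fin.last (k + 1))
      rw [Matrix.add_apply, hREentry, Finset.sum_eq_single 1] at h1
      · rw [hE, E0_pow, E0_pow, if_pos (by simp), if_pos (by rw [Fin.val_last, Fin.val_one]; omega), ← hE, hφE1, add_zero, mul_one] at h1
        exact ht h1
      · intro l _ hl
        rw [hE, E0_pow, if_neg, mul_zero]
        intro h2
        apply hl
        apply Fin.ext
        rw [Fin.val_last] at h2
        rw [Fin.val_one]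
        omega
      · intro h2; exact absurd (Finset.mem_univ _) h2
  obtain ⟨s, hs1, hs2, -⟩ := line3 h4 (a1 := 1) (b1 := φ 1) (a2 := 1 - φ 1) (b2 := φ 1) (a3 := 1) (b3 := 0)
    (Or.inl one_ne_zero) (by
      by_contra hcon
      push Not at hcon
      rw [hcon.2, sub_zero] at hcon
      exact one_ne_zero hcon.1) (Or.inl one_ne_zero)
  refine ⟨D s * J, (D (s - 1) * J)⁻¹, ?_, hRU s hs1, (hRU (s - 1) ?_).inv⟩
  · rw [_root_.mul_inv_rev, ← mul_assoc, mul_inv_cancel_right, hgD, eq_mul_inv_iff_mul_eq, hDmul]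
    congr 1; ring
  · intro h0; apply hs2; linear_combination h0

end Cfsg.Agent.Lib.TwoUni6
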