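import Mathlib
import Cfsg.Agent.Lib.TwoUni6

/-!
# Products of two regular unipotents (helper51): final theorem
-/

set_option autoImplicit false

namespace Cfsg.Agent.Lib.TwoUni7

open Module Matrix TwoUni1 TwoUni2 TwoUni6

theorem four {K : Type*} [Field K] (hK : 4 ≤ Cardinal.mk K) : Four K := by
  intro a b c
  by_contra hcon
  push Not at hcon
  have hs : Function.Surjective (![a, b, c] : Fin 3 → K) := by
    intro t
    by_cases h1 : t = a
    · exact ⟨0, h1.symm⟩
    · by_cases h2 : t = b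
      · exact ⟨1, h2.symm⟩
      · exact ⟨2, (hcon t h1 h2).symm⟩
  have hfin : Finite K := Finite.of_surjective _ hs
  have h1 : Nat.card K ≤ 3 := by
    have := Nat.card_le_card_of_surjective _ hs
    simpa using this
  have h2 : Cardinal.mk K = (Nat.card K : Cardinal) := (Nat.cast_card).symm
  rw [h2] at hK
  have h3 : (4 : ℕ) ≤ Nat.card K := by exact_mod_cast hK
  omega

variable {K : Type*} [Field K]

theorem main (h4 : Four K) {k : ℕ} (J g : GL (Fin (k + 2)) K)
    (hJ : (J : Matrix (Fin (k + 2)) (Fin (k + 2)) K) = 1 + E0 K (k + 1))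
    (hg : ¬ ∃ c : K, (g : Matrix (Fin (k + 2)) (Fin (k + 2)) K) = c • (1 : Matrix _ _ K))
    (hdet : (g : Matrix (Fin (k + 2)) (Fin (k + 2)) K).det = 1) :
    ∃ x y : GL (Fin (k + 2)) K, g = (x * J * x⁻¹) * (y * J * y⁻¹) := by
  have hRJ : RU J := RU_J hJ
  suffices h : ∃ L U : GL (Fin (k + 2)) K, g = L * U ∧ RU L ∧ RU U by
    obtain ⟨L, U, hLU, hL, hU⟩ := h
    obtain ⟨x, hx⟩ := crit hRJ hL
    obtain ⟨y, hy⟩ := crit hRJ hU
    exact ⟨x, y, by rw [hLU, hx, hy]⟩
  set N := ((g : Matrix (Fin (k + 2)) (Fin (k + 2)) K) - 1).mulVecLin with hN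
  have hNv : ∀ v, N v = (g : Matrix (Fin (k + 2)) (Fin (k + 2)) K) *ᵥ v - v := fun v => by
    rw [hN, Matrix.mulVecLin_apply, Matrix.sub_mulVec, Matrix.one_mulVec]
  have hns : ¬ ∃ c : K, ∀ v, N v = c • v := by
    rintro ⟨c, hc⟩
    apply hg
    refine ⟨c + 1, ?_⟩
    apply Matrix.ext_of_mulVec_single
    intro i
    have := hc (Pi.single i 1)
    rw [hNv] at this
    rw [Matrix.smul_mulVec, Matrix.one_mulVec, add_smul, one_smul, ← this]
    abel
  by_cases hrk : ∃ x y, I2 K (N x) (N y)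
  · exact case_big h4 hdet hns hrk
  · have hN0 : ∃ w, N w ≠ 0 := by
      by_contra hcon
      push Not at hcon
      exact hns ⟨0, fun v => by rw [hcon, zero_smul]⟩
    obtain ⟨w0, hw0⟩ := hN0
    set x := N w0 with hx
    obtain ⟨θ', hθ'⟩ : ∃ θ : (Fin (k + 2) → K) →ₗ[K] K, θ x ≠ 0 := by
      by_contra h
      push Not at h
      exact hw0 ((Module.forall_dual_apply_eq_zero_iff K x).1 h)
    set θ : (Fin (k + 2) → K) →ₗ[K] K := (θ' x)⁻¹ • θ' with hθ
    have hθx : θ x = 1 := by rw [hθ, LinearMap.smul_apply, smul_eq_mul, inv_mul_cancel₀ hθ']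
    have hspan : ∀ v, N v = θ (N v) • x := by
      intro v
      have h1 : ¬ I2 K x (N v) := fun h => hrk ⟨w0, v, h⟩
      unfold I2 at h1
      push Not at h1
      obtain ⟨a, b, hab, hne⟩ := h1
      have hb : b ≠ 0 := by
        intro hb
        rw [hb, zero_smul, add_zero] at hab
        exact hne ((smul_eq_zero.mp hab).resolve_right hw0) hb
      have e1 : N v = (-(b⁻¹ * a)) • x := by
        have e1 : N v = b⁻¹ • (b • N v) := by rw [smul_smul, inv_mul_cancel₀ hb, one_smul]
        have e2 : b • N v = -(a • x) := by linear_combination (norm := module) hab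
        rw [e1, e2]; module
      rw [e1, map_smul, hθx]; simp
    have hdet2 : LinearMap.det (1 + N) = 1 := by
      have : 1 + N = Matrix.toLin' (g : Matrix (Fin (k + 2)) (Fin (k + 2)) K) := by
        ext1
        apply LinearMap.ext
        intro c
        simp only [LinearMap.comp_apply, LinearMap.add_apply, Module.End.one_apply, hNv, Matrix.toLin'_apply]
        abel
      rw [this, LinearMap.det_toLin', hdet]
    have hNx : θ (N x) = 0 := by
      have e1 : 1 + N = LinearMap.transvection (θ ∘ₗ N) x := by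
        apply LinearMap.ext
        intro v
        rw [LinearMap.add_apply, Module.End.one_apply, LinearMap.transvection.apply, LinearMap.comp_apply, ← hspan]
      rw [e1, LinearMap.transvection.det, LinearMap.comp_apply] at hdet2
      linear_combination hdet2
    obtain ⟨G, hG⟩ := SymCount.exists_col x hw0 (0 : Fin (k + 2))
    set φ : Fin (k + 2) → K := fun j => θ (N ((G : Matrix (Fin (k + 2)) (Fin (k + 2)) K) *ᵥ Pi.single j 1)) with hφ
    have hφ0 : φ 0 = 0 := by
      simp only [hφ]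
      rw [hG, hNx]
    have hg' : ((G⁻¹ * g * G : GL (Fin (k + 2)) K) : Matrix (Fin (k + 2)) (Fin (k + 2)) K) =
        1 + Matrix.vecMulVec (Pi.single 0 1) φ := by
      apply Matrix.ext_of_mulVec_single
      intro j
      have e1 : (g : Matrix (Fin (k + 2)) (Fin (k + 2)) K) *ᵥ ((G : Matrix (Fin (k + 2)) (Fin (k + 2)) K) *ᵥ Pi.single j 1) =
          (G : Matrix (Fin (k + 2)) (Fin (k + 2)) K) *ᵥ (Pi.single j 1 + φ j • Pi.single 0 1) := by
        rw [Matrix.mulVec_add, Matrix.mulVec_smul, hG]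
        have e3 : φ j • x = (g : Matrix (Fin (k + 2)) (Fin (k + 2)) K) *ᵥ ((G : Matrix (Fin (k + 2)) (Fin (k + 2)) K) *ᵥ Pi.single j 1) -
          ((G : Matrix (Fin (k + 2)) (Fin (k + 2)) K) *ᵥ Pi.single j 1) := by
          rw [← hNv]
          exact (hspan _).symm
        rw [e3]; abel
      rw [Units.val_mul, Units.val_mul, ← Matrix.mulVec_mulVec, ← Matrix.mulVec_mulVec, e1, Matrix.mulVec_mulVec,
        ← Units.val_mul, inv_mul_cancel, Units.val_one, Matrix.one_mulVec, Matrix.add_mulVec, Matrix.one_mulVec]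
      congr 1
      ext i
      simp [Matrix.vecMulVec_apply, mul_comm]
    obtain ⟨L, U, hLU, hL, hU⟩ := case_model h4 (J := J) hJ φ hφ0 hg'
    have hconj : ∀ {X : GL (Fin (k + 2)) K}, RU X → RU (G * X * G⁻¹) := by
      intro X hX
      have e1 : ((G * X * G⁻¹ : GL (Fin (k + 2)) K) : Matrix (Fin (k + 2)) (Fin (k + 2)) K) - 1 =
          (G : Matrix (Fin (k + 2)) (Fin (k + 2)) K) * ((X : Matrix (Fin (k + 2)) (Fin (k + 2)) K) - 1) *
            ((G⁻¹ : GL (Fin (k + 2)) K) : Matrix (Fin (k + 2)) (Fin (k + 2)) K) := by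
        rw [mul_sub, sub_mul, mul_one, ← Units.val_mul, ← Units.val_mul, ← Units.val_mul, mul_inv_cancel, Units.val_one]
      have e2 : ∀ j, (((G * X * G⁻¹ : GL (Fin (k + 2)) K) : Matrix (Fin (k + 2)) (Fin (k + 2)) K) - 1) ^ j =
          (G : Matrix (Fin (k + 2)) (Fin (k + 2)) K) * ((X : Matrix (Fin (k + 2)) (Fin (k + 2)) K) - 1) ^ j *
            ((G⁻¹ : GL (Fin (k + 2)) K) : Matrix (Fin (k + 2)) (Fin (k + 2)) K) := by
        intro j
        rw [e1]
        exact (Units.conj_pow G _ j)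
      refine ⟨?_, ?_⟩
      · rw [e2, hX.1, mul_zero, zero_mul]
      · rw [e2]
        intro h0
        rw [Units.mul_left_eq_zero, Units.mul_right_eq_zero] at h0
        exact hX.2 h0
    refine ⟨G * L * G⁻¹, G * U * G⁻¹, ?_, hconj hL, hconj hU⟩
    have : g = G * (G⁻¹ * g * G) * G⁻¹ := by group
    rw [this, hLU]; group

end Cfsg.Agent.Lib.TwoUni7
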