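import Mathlib
import Cfsg.Prelude.Def_DegreeGraph
import Cfsg.Agent.Lib.CharDegrees
import Cfsg.Agent.Lib.BlockDeg
import Cfsg.Agent.Lib.CharApps
import Cfsg.Agent.Lib.AvgChar
import Cfsg.Agent.Lib.CharBasic2

set_option autoImplicit false

/-!
# A solvable group of order 6048 with an irreducible character of degree divisible by 42 (helper20)
-/

namespace Cfsg.Agent.Lib.U33Sol

open Subgroup Cfsg Cfsg.Agent.Lib.CharBasic
open scoped ComplexConjugate

/-! ### the affine group of a field -/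

section aff

variable (K : Type) [Field K]

/-- the affine group of a field -/
@[ext] structure A1 where
  s : Kˣ
  a : K

variable {K}

instance : Mul (A1 K) := ⟨fun x y => ⟨x.s * y.s, x.s * y.a + x.a⟩⟩
instance : One (A1 K) := ⟨⟨1, 0⟩⟩
instance : Inv (A1 K) := ⟨fun x => ⟨x.s⁻¹, -((x.s⁻¹ : Kˣ) * x.a)⟩⟩

theorem A1.mul_s (x y : A1 K) : (x * y).s = x.s * y.s := rfl
theorem A1.mul_a (x y : A1 K) : (x * y).a = x.s * y.a + x.a := rfl
theorem A1.one_s : (1 : A1 K).s = 1 := rfl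
theorem A1.one_a : (1 : A1 K).a = 0 := rfl
theorem A1.inv_s (x : A1 K) : (x⁻¹).s = x.s⁻¹ := rfl
theorem A1.inv_a (x : A1 K) : (x⁻¹).a = -((x.s⁻¹ : Kˣ) * x.a) := rfl

instance : Group (A1 K) := Group.ofLeftAxioms
  (fun x y z => by
    apply A1.ext
    · rw [A1.mul_s, A1.mul_s, A1.mul_s, A1.mul_s, mul_assoc]
    · rw [A1.mul_a, A1.mul_a, A1.mul_a, A1.mul_a, A1.mul_s, Units.val_mul]; ring)
  (fun x => by
    apply A1.ext
    · rw [A1.mul_s, A1.one_s, one_mul]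
    · rw [A1.mul_a, A1.one_a, A1.one_s, Units.val_one]; ring)
  (fun x => by
    apply A1.ext
    · rw [A1.mul_s, A1.one_s, A1.inv_s, inv_mul_cancel]
    · rw [A1.mul_a, A1.inv_a, A1.one_a, A1.inv_s]; ring)

/-- the linear part -/
def linA : A1 K →* Kˣ where
  toFun x := x.s
  map_one' := rfl
  map_mul' _ _ := rfl

theorem linA_surj : Function.Surjective (linA : A1 K →* Kˣ) := fun s => ⟨⟨s, 0⟩, rfl⟩

theorem mem_kerA {x : A1 K} : x ∈ (linA : A1 K →* Kˣ).ker ↔ x.s = 1 := Iff.rfl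

theorem kerA_comm : ∀ x ∈ (linA : A1 K →* Kˣ).ker, ∀ y ∈ (linA : A1 K →* Kˣ).ker, x * y = y * x := by
  intro x hx y hy
  rw [mem_kerA] at hx hy
  apply A1.ext
  · rw [A1.mul_s, A1.mul_s, hx, hy]
  · rw [A1.mul_a, A1.mul_a, hx, hy, Units.val_one]; ring

theorem card_A1 : Nat.card (A1 K) = Nat.card Kˣ * Nat.card K := by
  rw [← Nat.card_prod]
  exact Nat.card_congr ⟨fun x => (x.s, x.a), fun p => ⟨p.1, p.2⟩, fun _ => rfl, fun _ => rfl⟩

theorem finite_A1 [Finite K] : Finite (A1 K) :=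
  Finite.of_equiv (Kˣ × K) ⟨fun p => ⟨p.1, p.2⟩, fun x => (x.s, x.a), fun _ => rfl, fun _ => rfl⟩

theorem index_kerA : (linA : A1 K →* Kˣ).ker.index = Nat.card Kˣ := by
  rw [Subgroup.index_ker]
  rw [MonoidHom.range_eq_top.2 linA_surj, Subgroup.card_top]

theorem solvable_A1 : Group.IsSolvable (A1 K) := by
  have h1 : Group.IsSolvable (linA : A1 K →* Kˣ).ker := by
    refine Group.isSolvable_of_comm (fun a b => ?_)
    exact Subtype.ext (kerA_comm a.1 a.2 b.1 b.2)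
  exact Group.isSolvable_of_ker_le_range (linA : A1 K →* Kˣ).ker.subtype linA (by rw [Subgroup.range_subtype])

theorem degree_A1 [Finite K] {s : Kˣ} (hs : s ≠ 1) (hp : (Nat.card Kˣ).Prime) :
    ∃ χ : IrrCharacter (A1 K), charDegree (χ : A1 K → ℂ) = Nat.card Kˣ := by
  have := finite_A1 (K := K)
  obtain ⟨χ, hχ⟩ : ∃ χ : IrrCharacter (A1 K), (χ : A1 K → ℂ) 1 ≠ 1 := by
    by_contra hcon
    push Not at hcon
    have h1 := comm_of_forall_irr_linear (G := A1 K) (fun χ hχ => hcon ⟨χ, hχ⟩) ⟨s, 0⟩ ⟨1, 1⟩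
    have h2 := congrArg A1.a h1
    rw [A1.mul_a, A1.mul_a] at h2
    apply hs
    apply Units.ext
    simpa using h2
  refine ⟨χ, ?_⟩
  have h1 := CharDegrees.ito χ.2 (linA : A1 K →* Kˣ).ker kerA_comm _ (BlockDeg.charDegree_cast_irr χ).symm
  rw [index_kerA] at h1
  rcases (Nat.dvd_prime hp).1 h1 with h2 | h2
  · exfalso
    apply hχ
    rw [← BlockDeg.charDegree_cast_irr χ, h2, Nat.cast_one]
  · exact h2

end aff

/-! ### the group of order 108 -/

section t3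

/-- upper triangular matrices over `ZMod 3` with middle entry one -/
@[ext] structure T3 where
  s : (ZMod 3)ˣ
  t : (ZMod 3)ˣ
  a : ZMod 3
  b : ZMod 3
  c : ZMod 3

instance : Mul T3 := ⟨fun x y => ⟨x.s * y.s, x.t * y.t, x.s * y.a + x.a, y.b + x.b * y.t, x.s * y.c + x.a * y.b + x.c * y.t⟩⟩
instance : One T3 := ⟨⟨1, 1, 0, 0, 0⟩⟩
instance : Inv T3 := ⟨fun x => ⟨x.s⁻¹, x.t⁻¹, -((x.s⁻¹ : (ZMod 3)ˣ) * x.a), -(x.b * (x.t⁻¹ : (ZMod 3)ˣ)),
  (x.s⁻¹ : (ZMod 3)ˣ) * x.a * x.b * (x.t⁻¹ : (ZMod 3)ˣ) - (x.s⁻¹ : (ZMod 3)ˣ) * x.c * (x.t⁻¹ : (ZMod 3)ˣ)⟩⟩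

namespace T3

theorem mul_s (x y : T3) : (x * y).s = x.s * y.s := rfl
theorem mul_t (x y : T3) : (x * y).t = x.t * y.t := rfl
theorem mul_a (x y : T3) : (x * y).a = x.s * y.a + x.a := rfl
theorem mul_b (x y : T3) : (x * y).b = y.b + x.b * y.t := rfl
theorem mul_c (x y : T3) : (x * y).c = x.s * y.c + x.a * y.b + x.c * y.t := rfl
theorem one_s : (1 : T3).s = 1 := rfl
theorem one_t : (1 : T3).t = 1 := rfl
theorem one_a : (1 : T3).a = 0 := rfl
theorem one_b : (1 : T3).b = 0 := rfl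
theorem one_c : (1 : T3).c = 0 := rfl
theorem inv_s (x : T3) : (x⁻¹).s = x.s⁻¹ := rfl
theorem inv_t (x : T3) : (x⁻¹).t = x.t⁻¹ := rfl
theorem inv_a (x : T3) : (x⁻¹).a = -((x.s⁻¹ : (ZMod 3)ˣ) * x.a) := rfl
theorem inv_b (x : T3) : (x⁻¹).b = -(x.b * (x.t⁻¹ : (ZMod 3)ˣ)) := rfl
theorem inv_c (x : T3) : (x⁻¹).c = (x.s⁻¹ : (ZMod 3)ˣ) * x.a * x.b * (x.t⁻¹ : (ZMod 3)ˣ) -
  (x.s⁻¹ : (ZMod 3)ˣ) * x.c * (x.t⁻¹ : (ZMod 3)ˣ) := rfl

instance : Group T3 := Group.ofLeftAxioms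
  (fun x y z => by
    apply T3.ext
    · simp only [mul_s, mul_assoc]
    · simp only [mul_t, mul_assoc]
    · simp only [mul_a, mul_s, Units.val_mul]; ring
    · simp only [mul_b, mul_t, Units.val_mul]; ring
    · simp only [mul_c, mul_a, mul_b, mul_s, mul_t, Units.val_mul]; ring)
  (fun x => by
    apply T3.ext
    · simp only [mul_s, one_s, one_mul]
    · simp only [mul_t, one_t, one_mul]
    · simp only [mul_a, one_s, one_a, Units.val_one]; ring
    · simp only [mul_b, one_b]; ring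
    · simp only [mul_c, one_a, one_c, one_s, Units.val_one]; ring)
  (fun x => by
    have h1 : (x.t : ZMod 3) * ((x.t⁻¹ : (ZMod 3)ˣ) : ZMod 3) = 1 := by
      rw [← Units.val_mul, mul_inv_cancel, Units.val_one]
    apply T3.ext
    · simp only [mul_s, one_s, inv_s, inv_mul_cancel]
    · simp only [mul_t, one_t, inv_t, inv_mul_cancel]
    · simp only [mul_a, inv_s, inv_a, one_a]; ring
    · simp only [mul_b, inv_b, one_b]
      linear_combination (-x.b) * h1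
    · simp only [mul_c, inv_a, inv_c, inv_s, one_c]
      linear_combination ((x.s⁻¹ : (ZMod 3)ˣ) * x.a * x.b - (x.s⁻¹ : (ZMod 3)ˣ) * x.c) * h1)

/-- coordinates -/
def toProd : T3 ≃ ((ZMod 3)ˣ × (ZMod 3)ˣ) × (ZMod 3 × ZMod 3 × ZMod 3) where
  toFun x := ((x.s, x.t), (x.a, x.b, x.c))
  invFun p := ⟨p.1.1, p.1.2, p.2.1, p.2.2.1, p.2.2.2⟩
  left_inv _ := rfl
  right_inv _ := rfl

instance : Finite T3 := Finite.of_equiv _ toProd.symm

/-- diagonal part -/
def lin : T3 →* (ZMod 3)ˣ × (ZMod 3)ˣ where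
  toFun x := (x.s, x.t)
  map_one' := rfl
  map_mul' _ _ := rfl

theorem mem_ker {x : T3} : x ∈ lin.ker ↔ x.s = 1 ∧ x.t = 1 := by
  rw [MonoidHom.mem_ker]
  exact Prod.mk_eq_one

/-- elements of the unipotent radical -/
def u (a b c : ZMod 3) : T3 := ⟨1, 1, a, b, c⟩

theorem u_mem (a b c : ZMod 3) : u a b c ∈ lin.ker := mem_ker.2 ⟨rfl, rfl⟩

/-- coordinates of the unipotent radical -/
def kerEquiv : lin.ker ≃ (ZMod 3 × ZMod 3 × ZMod 3) where
  toFun x := (x.1.a, x.1.b, x.1.c)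
  invFun p := ⟨u p.1 p.2.1 p.2.2, u_mem _ _ _⟩
  left_inv x := by
    obtain ⟨h1, h2⟩ := mem_ker.1 x.2
    apply Subtype.ext
    apply T3.ext
    · exact h1.symm
    · exact h2.symm
    · rfl
    · rfl
    · rfl
  right_inv _ := rfl

theorem card_ker : Nat.card lin.ker = 27 := by
  rw [Nat.card_congr kerEquiv, Nat.card_prod, Nat.card_prod, Nat.card_zmod]

theorem card_units : Nat.card (ZMod 3)ˣ = 2 := by
  have : Fact (Nat.Prime 3) := ⟨by norm_num⟩
  rw [Nat.card_eq_fintype_card, ZMod.card_units_eq_totient]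
  decide

theorem card_T3 : Nat.card T3 = 108 := by
  rw [Nat.card_congr toProd, Nat.card_prod, Nat.card_prod, Nat.card_prod, Nat.card_prod, Nat.card_zmod, card_units]

theorem solvable : Group.IsSolvable T3 := by
  have : Fact (Nat.Prime 3) := ⟨by norm_num⟩
  have h1 : IsPGroup 3 (lin.ker) := IsPGroup.of_card (n := 3) (by rw [card_ker]; norm_num)
  have h2 : Group.IsNilpotent lin.ker := h1.isNilpotent
  have h3 : Group.IsSolvable lin.ker := inferInstance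
  exact Group.isSolvable_of_ker_le_range lin.ker.subtype lin (by rw [Subgroup.range_subtype])

/-- the center of the unipotent radical -/
def Z : Subgroup T3 where
  carrier := {x | x.s = 1 ∧ x.t = 1 ∧ x.a = 0 ∧ x.b = 0}
  one_mem' := ⟨rfl, rfl, rfl, rfl⟩
  mul_mem' := by
    rintro x y ⟨h1, h2, h3, h4⟩ ⟨k1, k2, k3, k4⟩
    refine ⟨?_, ?_, ?_, ?_⟩
    · rw [mul_s, h1, k1, one_mul]
    · rw [mul_t, h2, k2, one_mul]
    · rw [mul_a, h3, k3]; ring
    · rw [mul_b, h4, k4]; ring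
  inv_mem' := by
    rintro x ⟨h1, h2, h3, h4⟩
    refine ⟨?_, ?_, ?_, ?_⟩
    · rw [inv_s, h1, inv_one]
    · rw [inv_t, h2, inv_one]
    · rw [inv_a, h3]; ring
    · rw [inv_b, h4]; ring

theorem mem_Z {x : T3} : x ∈ Z ↔ x.s = 1 ∧ x.t = 1 ∧ x.a = 0 ∧ x.b = 0 := Iff.rfl

instance : Z.Normal := ⟨by
  rintro n ⟨h1, h2, h3, h4⟩ g
  have k1 : (g.s : ZMod 3) * ((g.s⁻¹ : (ZMod 3)ˣ) : ZMod 3) = 1 := by
    rw [← Units.val_mul, mul_inv_cancel, Units.val_one]
  have k2 : (g.t : ZMod 3) * ((g.t⁻¹ : (ZMod 3)ˣ) : ZMod 3) = 1 := by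
    rw [← Units.val_mul, mul_inv_cancel, Units.val_one]
  refine ⟨?_, ?_, ?_, ?_⟩
  · rw [mul_s, mul_s, inv_s, h1, mul_one, mul_inv_cancel]
  · rw [mul_t, mul_t, inv_t, h2, mul_one, mul_inv_cancel]
  · rw [mul_a, mul_a, mul_s, inv_a, h1, h3, mul_one]
    linear_combination (-g.a) * k1
  · rw [mul_b, mul_b, inv_b, inv_t, h2, h4, Units.val_one]
    ring⟩

/-- coordinates of `Z` -/
def zEquiv : ZMod 3 ≃ Z where
  toFun c := ⟨u 0 0 c, ⟨rfl, rfl, rfl, rfl⟩⟩
  invFun x := x.1.c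
  left_inv _ := rfl
  right_inv x := by
    obtain ⟨h1, h2, h3, h4⟩ := x.2
    apply Subtype.ext
    apply T3.ext
    · exact h1.symm
    · exact h2.symm
    · exact h3.symm
    · exact h4.symm
    · rfl

/-- conjugation inside the unipotent radical -/
theorem conj_u (a b c a' b' : ZMod 3) : u a' b' 0 * u a b c * (u a' b' 0)⁻¹ = u a b (c + (a' * b - a * b')) := by
  rw [mul_inv_eq_iff_eq_mul]
  apply T3.ext
  · rfl
  · rfl
  · simp only [mul_a, u, Units.val_one]; ring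
  · simp only [mul_b, u, Units.val_one]; ring
  · simp only [mul_c, u, Units.val_one]; ring

theorem conj_z (c : ZMod 3) : (⟨-1, 1, 0, 0, 0⟩ : T3) * u 0 0 c * (⟨-1, 1, 0, 0, 0⟩ : T3)⁻¹ = u 0 0 (-c) := by
  rw [mul_inv_eq_iff_eq_mul]
  apply T3.ext
  · rfl
  · rfl
  · simp only [mul_a, u]; ring
  · simp only [mul_b, u, Units.val_one, mul_one]
  · simp only [mul_c, u, Units.val_one, Units.val_neg]; ring

theorem mul_z (a b c c' : ZMod 3) : u a b c * u 0 0 c' = u a b (c + c') := by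
  apply T3.ext
  · rfl
  · rfl
  · simp only [mul_a, u, Units.val_one]; ring
  · simp only [mul_b, u, Units.val_one]; ring
  · simp only [mul_c, u, Units.val_one]; ring

theorem exists_coef : ∀ a b c : ZMod 3, (a ≠ 0 ∨ b ≠ 0) → ∃ a' b' : ZMod 3, a' * b - a * b' = c := by
  decide

theorem sum_z (f : ZMod 3 → ℂ) : ∑ c : ZMod 3, f c = f 0 + f 1 + f (-1) :=
  Fin.sum_univ_three f

theorem avg_eq [Fintype Z] (f : T3 → ℂ) (g : T3) : AvgChar.avg Z f g = (Nat.card Z : ℂ)⁻¹ * ∑ c : ZMod 3, f (g * u 0 0 c) := by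
  rw [AvgChar.avg]
  congr 1
  exact (Fintype.sum_equiv zEquiv _ _ (fun c => rfl)).symm

theorem exists_six : ∃ χ : IrrCharacter T3, 6 ∣ charDegree (χ : T3 → ℂ) := by
  classical
  have : Fintype T3 := Fintype.ofFinite T3
  have : Fintype Z := Fintype.ofFinite Z
  have : Fintype lin.ker := Fintype.ofFinite _
  obtain ⟨χ, hχ⟩ : ∃ χ : IrrCharacter T3, (χ : T3 → ℂ) (u 0 0 1) ≠ (χ : T3 → ℂ) 1 := by
    by_contra hcon
    push Not at hcon
    have h1 := (isConj_iff_forall_irr (u 0 0 1 : T3) 1).2 hcon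
    rw [isConj_one_left] at h1
    have h2 := congrArg T3.c h1
    exact absurd h2 (by decide)
  refine ⟨χ, ?_⟩
  have hcl : IsClassFunction T3 (χ : T3 → ℂ) := χ.2.isClassFunction
  have hcardZ : (Nat.card Z : ℂ) = 3 := by
    rw [← Nat.card_congr zEquiv, Nat.card_zmod]; norm_num
  have havg : ∀ g : T3, ∑ c : ZMod 3, (χ : T3 → ℂ) (g * u 0 0 c) = 0 := by
    rcases AvgChar.avg_irr Z χ.2 with h | h
    · exfalso
      apply hχ
      rw [← congrFun h (u 0 0 1), ← congrFun h 1, avg_eq, avg_eq, sum_z, sum_z, mul_z, mul_z, mul_z, one_mul, one_mul,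
        one_mul]
      have e1 : (1 + 0 : ZMod 3) = 1 := by decide
      have e2 : (1 + 1 : ZMod 3) = -1 := by decide
      have e3 : (1 + -1 : ZMod 3) = 0 := by decide
      rw [e1, e2, e3]
      ring
    · intro g
      have h1 := congrFun h g
      rw [avg_eq, hcardZ] at h1
      have h2 : (3 : ℂ)⁻¹ ≠ 0 := by norm_num
      rcases mul_eq_zero.1 h1 with h3 | h3
      · exact absurd h3 h2
      · exact h3
  set d := charDegree (χ : T3 → ℂ) with hd
  have hd1 : (χ : T3 → ℂ) 1 = d := (BlockDeg.charDegree_cast_irr χ).symm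
  have hneg : (χ : T3 → ℂ) (u 0 0 (-1)) = (χ : T3 → ℂ) (u 0 0 1) := by
    rw [← conj_z, hcl]
  have h0 := havg 1
  rw [sum_z, one_mul, one_mul, one_mul, hneg] at h0
  have hu0 : (u 0 0 0 : T3) = 1 := rfl
  rw [hu0, hd1] at h0
  have hz1 : (χ : T3 → ℂ) (u 0 0 1) = -d / 2 := by linear_combination (1 / 2) * h0
  have hz2 : (χ : T3 → ℂ) (u 0 0 (-1)) = -d / 2 := by rw [hneg, hz1]
  have hoff : ∀ a b c : ZMod 3, (a ≠ 0 ∨ b ≠ 0) → (χ : T3 → ℂ) (u a b c) = 0 := by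
    intro a b c hab
    have h1 : ∀ c' : ZMod 3, (χ : T3 → ℂ) (u a b c * u 0 0 c') = (χ : T3 → ℂ) (u a b c) := by
      intro c'
      obtain ⟨a', b', e⟩ := exists_coef a b c' hab
      rw [mul_z, ← e, ← conj_u, hcl]
    have h2 := havg (u a b c)
    simp only [h1, Finset.sum_const, Finset.card_univ, ZMod.card, nsmul_eq_mul] at h2
    rcases mul_eq_zero.1 h2 with h3 | h3
    · norm_num at h3
    · exact h3
  obtain ⟨n, hn⟩ := (χ.2.isCharacter.restrict lin.ker).classInner_nat (χ.2.isCharacter.restrict lin.ker)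
  rw [classInner_def, card_ker] at hn
  have hsum : ∑ x : lin.ker, (χ : T3 → ℂ) x * conj ((χ : T3 → ℂ) x) = 3 / 2 * (d : ℂ) ^ 2 := by
    have e1 : ∑ x : lin.ker, (χ : T3 → ℂ) x * conj ((χ : T3 → ℂ) x) = ∑ p : ZMod 3 × ZMod 3 × ZMod 3,
        (χ : T3 → ℂ) (u p.1 p.2.1 p.2.2) * conj ((χ : T3 → ℂ) (u p.1 p.2.1 p.2.2)) :=
      (Fintype.sum_equiv kerEquiv.symm _ _ (fun c => rfl)).symm
    rw [e1, Fintype.sum_prod_type, Finset.sum_eq_single 0, Fintype.sum_prod_type, Finset.sum_eq_single 0, sum_z]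
    · change (χ : T3 → ℂ) 1 * conj ((χ : T3 → ℂ) 1) + (χ : T3 → ℂ) (u 0 0 1) * conj ((χ : T3 → ℂ) (u 0 0 1)) +
        (χ : T3 → ℂ) (u 0 0 (-1)) * conj ((χ : T3 → ℂ) (u 0 0 (-1))) = _
      rw [hz2, hz1, hd1]
      simp only [map_div₀, map_neg, Complex.conj_natCast, map_ofNat]
      ring
    · intro b _ hb
      apply Finset.sum_eq_zero
      intro c _
      rw [hoff 0 b c (Or.inr hb), zero_mul]
    · intro h; exact absurd (Finset.mem_univ _) h
    · intro a _ ha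
      apply Finset.sum_eq_zero
      rintro ⟨b, c⟩ _
      rw [hoff a b c (Or.inl ha), zero_mul]
    · intro h; exact absurd (Finset.mem_univ _) h
  rw [hsum] at hn
  have hdn : d ^ 2 = 18 * n := by
    have : ((d ^ 2 : ℕ) : ℂ) = ((18 * n : ℕ) : ℂ) := by
      push_cast
      rw [← hn]
      norm_num
      ring
    exact_mod_cast this
  have h2 : 2 ∣ d := Nat.prime_two.dvd_of_dvd_pow (n := 2) (by rw [hdn]; exact ⟨9 * n, by ring⟩)
  have h3 : 3 ∣ d := Nat.prime_three.dvd_of_dvd_pow (n := 2) (by rw [hdn]; exact ⟨6 * n, by ring⟩)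
  have : 2 * 3 ∣ d := Nat.Coprime.mul_dvd_of_dvd_of_dvd (by norm_num) h2 h3
  exact this

end T3

end t3

/-! ### the group of order 6048 -/

/-- the field with eight elements -/
abbrev K8 : Type := GaloisField 2 3

/-- the solvable group -/
abbrev H : Type := A1 K8 × T3

theorem card_K8 : Nat.card K8 = 8 := by
  rw [GaloisField.card 2 3 (by norm_num)]; norm_num

instance : Finite K8 := Nat.finite_of_card_ne_zero (by rw [card_K8]; norm_num)

theorem card_K8u : Nat.card K8ˣ = 7 := by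
  rw [Nat.card_units, card_K8]

instance : Finite (A1 K8) := finite_A1

theorem card_H : Nat.card H = 6048 := by
  rw [Nat.card_prod, card_A1, T3.card_T3, card_K8, card_K8u]

theorem solvable_H : Group.IsSolvable H := by
  have h1 : Group.IsSolvable (A1 K8) := solvable_A1
  have h2 : Group.IsSolvable T3 := T3.solvable
  infer_instance

theorem exists_42 : ∃ d ∈ charDegrees H, 42 ∣ d := by
  obtain ⟨s, hs⟩ : ∃ s : K8ˣ, s ≠ 1 := by
    by_contra hcon
    push Not at hcon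
    have h2 : Nat.card K8ˣ = 1 := by
      rw [Nat.card_eq_one_iff_unique]
      exact ⟨⟨fun a b => by rw [hcon a, hcon b]⟩, ⟨1⟩⟩
    rw [card_K8u] at h2
    omega
  obtain ⟨χ, hχ⟩ := degree_A1 hs (by rw [card_K8u]; norm_num)
  obtain ⟨ψ, hψ⟩ := T3.exists_six
  refine ⟨_, ⟨⟨_, CharApps.isIrrCharacter_prod χ.2 ψ.2⟩, rfl⟩, ?_⟩
  have h1 := BlockDeg.charDegree_cast_irr (⟨_, CharApps.isIrrCharacter_prod χ.2 ψ.2⟩ : IrrCharacter H)
  have h2 := BlockDeg.charDegree_cast_irr χ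
  have h3 := BlockDeg.charDegree_cast_irr ψ
  have h4 : ((charDegree (((⟨_, CharApps.isIrrCharacter_prod χ.2 ψ.2⟩ : IrrCharacter H)) : H → ℂ) : ℕ) : ℂ) =
      ((charDegree (χ : A1 K8 → ℂ) * charDegree (ψ : T3 → ℂ) : ℕ) : ℂ) := by
    rw [h1]
    push_cast
    rw [h2, h3]
    rfl
  have h5 : charDegree (((⟨_, CharApps.isIrrCharacter_prod χ.2 ψ.2⟩ : IrrCharacter H)) : H → ℂ) =
      charDegree (χ : A1 K8 → ℂ) * charDegree (ψ : T3 → ℂ) := by exact_mod_cast h4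
  rw [h5, hχ, card_K8u]
  exact Nat.mul_dvd_mul_left 7 hψ

end Cfsg.Agent.Lib.U33Sol
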