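import Cfsg.Prelude.Def_Classical
import Cfsg.Agent.Lib.K16
import Cfsg.Agent.Lib.CharpolyThree
import Mathlib.Tactic

/-! The group `SU(3,4)` over the concrete field `K16`: basic facts. -/

set_option autoImplicit false

namespace Cfsg.Agent.Lib.U34

open Matrix Cfsg.Agent.Lib.K16

abbrev V3 := Fin 3 → K16

/-- the Hermitian form, explicitly -/
def h (u v : V3) : K16 := u 0 * v 0 ^ 4 + u 1 * v 1 ^ 4 + u 2 * v 2 ^ 4

lemma herm_eq (u v : V3) : hermForm 3 K16 4 u v = h u v := by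
  simp [hermForm, Fin.sum_univ_three, h]

def iso (v : V3) : Prop := v ≠ 0 ∧ h v v = 0

lemma pow4_add (x y : K16) : (x + y) ^ 4 = x ^ 4 + y ^ 4 := by
  have h2 : (2 : K16) = 0 := CharTwo.two_eq_zero
  linear_combination (2 * x ^ 3 * y + 3 * x ^ 2 * y ^ 2 + 2 * x * y ^ 3) * h2

lemma h_add_left (u u' v : V3) : h (u + u') v = h u v + h u' v := by
  simp only [h, Pi.add_apply]; ring

lemma h_add_right (u v v' : V3) : h u (v + v') = h u v + h u v' := by
  simp only [h, Pi.add_apply, pow4_add]; ring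

lemma h_smul_left (a : K16) (u v : V3) : h (a • u) v = a * h u v := by
  simp only [h, Pi.smul_apply, smul_eq_mul]; ring

lemma h_smul_right (a : K16) (u v : V3) : h u (a • v) = a ^ 4 * h u v := by
  simp only [h, Pi.smul_apply, smul_eq_mul]; ring

lemma mem_SU_iff (A : SpecialLinearGroup (Fin 3) K16) :
    A ∈ SU 3 K16 4 ↔ ∀ u v : V3, h (A.1 *ᵥ u) (A.1 *ᵥ v) = h u v := by
  constructor
  · intro hA u v
    have := hA u v
    rw [herm_eq, herm_eq] at this
    exact this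
  · intro hA u v
    have := hA u v
    rw [herm_eq, herm_eq]
    exact this

lemma mem_SU_of_entries (A : SpecialLinearGroup (Fin 3) K16)
    (hA : ∀ i j : Fin 3, A.1 0 i * A.1 0 j ^ 4 + A.1 1 i * A.1 1 j ^ 4 + A.1 2 i * A.1 2 j ^ 4 = if i = j then 1 else 0) :
    A ∈ SU 3 K16 4 := by
  rw [mem_SU_iff]
  intro u v
  have h00 := hA 0 0
  have h01 := hA 0 1
  have h02 := hA 0 2
  have h10 := hA 1 0
  have h11 := hA 1 1
  have h12 := hA 1 2
  have h20 := hA 2 0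
  have h21 := hA 2 1
  have h22 := hA 2 2
  simp only [Fin.isValue, if_true, if_false, Fin.reduceEq] at h00 h01 h02 h10 h11 h12 h20 h21 h22
  simp only [h, Matrix.mulVec, dotProduct, Fin.sum_univ_three, pow4_add]
  linear_combination u 0 * v 0 ^ 4 * h00 + u 0 * v 1 ^ 4 * h01 + u 0 * v 2 ^ 4 * h02
    + u 1 * v 0 ^ 4 * h10 + u 1 * v 1 ^ 4 * h11 + u 1 * v 2 ^ 4 * h12
    + u 2 * v 0 ^ 4 * h20 + u 2 * v 1 ^ 4 * h21 + u 2 * v 2 ^ 4 * h22

lemma entries_of_mem_SU {A : SpecialLinearGroup (Fin 3) K16} (hA : A ∈ SU 3 K16 4) (i j : Fin 3) :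
    A.1 0 i * A.1 0 j ^ 4 + A.1 1 i * A.1 1 j ^ 4 + A.1 2 i * A.1 2 j ^ 4 = if i = j then 1 else 0 := by
  rw [mem_SU_iff] at hA
  have := hA (Pi.single i 1) (Pi.single j 1)
  rw [Matrix.mulVec_single_one, Matrix.mulVec_single_one] at this
  have e : h (Pi.single i 1) (Pi.single j (1 : K16)) = if i = j then 1 else 0 := by
    fin_cases i <;> fin_cases j <;> simp [h]
  rw [e] at this
  exact this

/-- second coefficient of the characteristic polynomial -/
lemma e2_eq {A : SpecialLinearGroup (Fin 3) K16} (hA : A ∈ SU 3 K16 4) :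
    Cfsg.Agent.Lib.CharpolyThree.e2 A.1 = (A.1 0 0 + A.1 1 1 + A.1 2 2) ^ 4 := by
  have h1 : (A.1.map (fun x => x ^ 4))ᵀ * A.1 = 1 := by
    ext i j
    have := entries_of_mem_SU hA j i
    rw [Matrix.mul_apply, Fin.sum_univ_three]
    simp only [Matrix.transpose_apply, Matrix.map_apply]
    rw [Matrix.one_apply]
    rw [mul_comm (A.1 0 j), mul_comm (A.1 1 j), mul_comm (A.1 2 j)] at this
    rw [this]
    by_cases hij : i = j
    · subst hij; simp
    · rw [if_neg hij, if_neg (Ne.symm hij)]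
  have h2 : A.1.adjugate = (A.1.map (fun x => x ^ 4))ᵀ := by
    have h3 : A.1 * A.1.adjugate = 1 := by rw [Matrix.mul_adjugate, A.2, one_smul]
    calc A.1.adjugate = ((A.1.map (fun x => x ^ 4))ᵀ * A.1) * A.1.adjugate := by rw [h1, one_mul]
      _ = (A.1.map (fun x => x ^ 4))ᵀ * (A.1 * A.1.adjugate) := mul_assoc _ _ _
      _ = _ := by rw [h3, mul_one]
  rw [← Cfsg.Agent.Lib.CharpolyThree.trace_adjugate, h2, Matrix.trace_fin_three]
  simp only [Matrix.transpose_apply, Matrix.map_apply]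
  rw [pow4_add, pow4_add]

/-- one step of multiplication by `g` in the basis `1, g, g^2` -/
def step (t : K16) (s : K16 × K16 × K16) : K16 × K16 × K16 :=
  (s.2.2, s.1 + t ^ 4 * s.2.2, s.2.1 + t * s.2.2)

lemma pow_eq_iterate {A : SpecialLinearGroup (Fin 3) K16} (hA : A ∈ SU 3 K16 4) (n : ℕ) :
    A.1 ^ n = ((step (A.1 0 0 + A.1 1 1 + A.1 2 2))^[n] (1, 0, 0)).1 • (1 : Matrix (Fin 3) (Fin 3) K16)
      + ((step (A.1 0 0 + A.1 1 1 + A.1 2 2))^[n] (1, 0, 0)).2.1 • A.1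
      + ((step (A.1 0 0 + A.1 1 1 + A.1 2 2))^[n] (1, 0, 0)).2.2 • A.1 ^ 2 := by
  set t := A.1 0 0 + A.1 1 1 + A.1 2 2 with ht
  have hc := Cfsg.Agent.Lib.CharpolyThree.cayley A.1
  rw [e2_eq hA, ← ht, A.2, one_smul] at hc
  have h3 : A.1 ^ 3 = t • A.1 ^ 2 + t ^ 4 • A.1 + 1 := by
    have h4 : ∀ B : Matrix (Fin 3) (Fin 3) K16, -B = B := by
      intro B; ext i j; simp [CharTwo.neg_eq]
    have h5 : A.1 ^ 3 = t • A.1 ^ 2 - t ^ 4 • A.1 + 1 := by
      rw [sub_add, sub_eq_zero] at hc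
      rw [← sub_eq_zero]
      have : A.1 ^ 3 - (t • A.1 ^ 2 - t ^ 4 • A.1 + 1) = A.1 ^ 3 - t • A.1 ^ 2 + t ^ 4 • A.1 - 1 := by abel
      rw [this]
      have hc' := Cfsg.Agent.Lib.CharpolyThree.cayley A.1
      rw [e2_eq hA, ← ht, A.2, one_smul] at hc'
      exact hc'
    rw [h5, sub_eq_add_neg, h4]
  induction n with
  | zero => simp
  | succ n ih =>
    rw [pow_succ, ih, Function.iterate_succ_apply']
    set s := (step t)^[n] (1, 0, 0) with hs
    simp only [step, add_mul, smul_mul_assoc, one_mul]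
    rw [← pow_succ, h3, ← pow_two]
    simp only [smul_add, add_smul, smul_smul]
    rw [mul_comm s.2.2 t, mul_comm s.2.2 (t ^ 4)]
    abel

theorem iterate_check : ∀ t : K16, (step t)^[13] (1, 0, 0) = (1, 0, 0) ∨ (step t)^[60] (1, 0, 0) = (1, 0, 0) := by
  decide +kernel

/-- every element of `SU(3,4)` has order dividing 13 or 60 -/
theorem pow_eq_one {A : SpecialLinearGroup (Fin 3) K16} (hA : A ∈ SU 3 K16 4) : A ^ 13 = 1 ∨ A ^ 60 = 1 := by
  rcases iterate_check (A.1 0 0 + A.1 1 1 + A.1 2 2) with h | h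
  · left
    apply Subtype.ext
    refine (Matrix.SpecialLinearGroup.coe_pow A 13).trans ?_
    rw [pow_eq_iterate hA, h]
    simp
  · right
    apply Subtype.ext
    refine (Matrix.SpecialLinearGroup.coe_pow A 60).trans ?_
    rw [pow_eq_iterate hA, h]
    simp

/-- the element number `n` of `K16` -/
def k (n : ℕ) : K16 := (⟨n % 16, Nat.mod_lt _ (by decide)⟩ : Fin 16)

/-- element of `SU(3,4)` from its entries, when the unitarity check passes -/
def mat (a b c d e f g h i : ℕ) : Matrix (Fin 3) (Fin 3) K16 :=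
  !![k a, k b, k c; k d, k e, k f; k g, k h, k i]

/-- boolean check of `det = 1` and unitarity -/
def chk (M : Matrix (Fin 3) (Fin 3) K16) : Prop :=
  (M 0 0 * M 1 1 * M 2 2 - M 0 0 * M 1 2 * M 2 1 - M 0 1 * M 1 0 * M 2 2 + M 0 1 * M 1 2 * M 2 0 +
    M 0 2 * M 1 0 * M 2 1 - M 0 2 * M 1 1 * M 2 0 = 1) ∧
  ∀ i j : Fin 3, M 0 i * M 0 j ^ 4 + M 1 i * M 1 j ^ 4 + M 2 i * M 2 j ^ 4 = if i = j then 1 else 0

/-- the element of `SU(3,4)` with given matrix -/
def toSU (M : Matrix (Fin 3) (Fin 3) K16) (hM : chk M) : SU 3 K16 4 :=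
  ⟨⟨M, by rw [Matrix.det_fin_three]; exact hM.1⟩, mem_SU_of_entries _ hM.2⟩

instance instDecChk (M : Matrix (Fin 3) (Fin 3) K16) : Decidable (chk M) := by
  unfold chk; infer_instance

def m13 : Matrix (Fin 3) (Fin 3) K16 := mat 0 8 0 5 0 7 11 0 9
def m15 : Matrix (Fin 3) (Fin 3) K16 := mat 4 3 0 0 0 8 13 6 0
def m10 : Matrix (Fin 3) (Fin 3) K16 := mat 0 15 0 10 0 0 0 0 10

theorem chk13 : chk m13 := by decide +kernel
theorem chk15 : chk m15 := by decide +kernel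
theorem chk10 : chk m10 := by decide +kernel

def g13 : SU 3 K16 4 := toSU m13 chk13
def g15 : SU 3 K16 4 := toSU m15 chk15
def g10 : SU 3 K16 4 := toSU m10 chk10

theorem m13_pow : m13 ^ 13 = 1 := by decide +kernel
theorem m15_pow : m15 ^ 15 = 1 ∧ m15 ^ 3 ≠ 1 ∧ m15 ^ 5 ≠ 1 := by decide +kernel
theorem m10_pow : m10 ^ 10 = 1 ∧ m10 ^ 2 ≠ 1 ∧ m10 ^ 5 ≠ 1 := by decide +kernel
theorem m13_ne : m13 ≠ 1 := by decide +kernel

end Cfsg.Agent.Lib.U34
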