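import Cfsg.Agent.Lib.U34Base
import Mathlib.Algebra.BigOperators.Fin
import Mathlib.Data.ZMod.Basic

/-! The `F_5`-module of functions on the Hermitian unital of `SU(3,4)` orthogonal to all blocks. -/

set_option autoImplicit false

namespace Cfsg.Agent.Lib.U34

open Matrix Cfsg.Agent.Lib.K16

lemma iso_smul {a : K16} (ha : a ≠ 0) (v : V3) : iso (a • v) ↔ iso v := by
  unfold iso
  rw [h_smul_left, h_smul_right, smul_ne_zero_iff]
  constructor
  · rintro ⟨⟨_, h1⟩, h2⟩
    refine ⟨h1, ?_⟩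
    rcases mul_eq_zero.mp h2 with h | h
    · exact absurd h ha
    · rcases mul_eq_zero.mp h with h | h
      · exact absurd (pow_eq_zero_iff (by norm_num) |>.mp h) ha
      · exact h
  · rintro ⟨h1, h2⟩
    exact ⟨⟨ha, h1⟩, by rw [h2, mul_zero, mul_zero]⟩

/-- functions on isotropic points orthogonal to all blocks -/
structure InC (f : V3 → ZMod 5) : Prop where
  van : ∀ v, ¬ iso v → f v = 0
  sc : ∀ (a : K16) (v : V3), a ≠ 0 → f (a • v) = f v
  bl : ∀ u v : V3, iso v → h u v ≠ 0 → f v + ∑ m : K16, f (u + m • v) = 0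

/-- block sum -/
def S (f : V3 → ZMod 5) (u v : V3) : ZMod 5 := f v + ∑ m : K16, f (u + m • v)

lemma S_add (f : V3 → ZMod 5) (u v : V3) (c : K16) : S f (u + c • v) v = S f u v := by
  unfold S
  congr 1
  refine Fintype.sum_equiv (Equiv.addLeft c) _ _ ?_
  intro m
  show f (u + c • v + m • v) = f (u + (c + m) • v)
  rw [add_smul, add_assoc]

lemma S_smul_left (f : V3 → ZMod 5) (hf : ∀ (a : K16) (v : V3), a ≠ 0 → f (a • v) = f v) (u v : V3)
    {a : K16} (ha : a ≠ 0) : S f (a • u) v = S f u v := by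
  unfold S
  congr 1
  refine Fintype.sum_equiv (Equiv.mulLeft₀ a⁻¹ (inv_ne_zero ha)) _ _ ?_
  intro m
  show f (a • u + m • v) = f (u + (a⁻¹ * m) • v)
  rw [← hf a (u + (a⁻¹ * m) • v) ha, smul_add, smul_smul, ← mul_assoc, mul_inv_cancel₀ ha, one_mul]

lemma S_smul_right (f : V3 → ZMod 5) (hf : ∀ (a : K16) (v : V3), a ≠ 0 → f (a • v) = f v) (u v : V3)
    {a : K16} (ha : a ≠ 0) : S f u (a • v) = S f u v := by
  unfold S
  rw [hf a v ha]
  congr 1
  refine Fintype.sum_equiv (Equiv.mulRight₀ a ha) _ _ ?_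
  intro m
  show f (u + m • (a • v)) = f (u + (m * a) • v)
  rw [smul_smul]

/-- the sum over the field, as a list sum (computable) -/
lemma sum_eq_list (F : K16 → ZMod 5) : ∑ m : K16, F m = ((List.range 16).map (fun n => F (k n))).sum := by
  have e : ∑ m : K16, F m = ∑ m : Fin 16, F (k m.val) := by
    refine Fintype.sum_equiv (Equiv.refl (Fin 16)) _ _ ?_
    intro m
    show F m = F (k m.val)
    congr 1
    apply Fin.ext
    show m.val = m.val % 16
    rw [Nat.mod_eq_of_lt m.isLt]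
  rw [e]
  simp only [Fin.sum_univ_succ, Fin.sum_univ_zero, List.range_succ, List.range_zero, List.map_append, List.map_cons,
    List.map_nil, List.sum_append, List.sum_cons, List.sum_nil]
  simp
  ring

/-! ### A nonconstant element of the code -/

def kn (n : ℕ) : K16 := k n

/-- norm to the field with 4 elements -/
def n5 (x : K16) : K16 := (⟨Nat.shiftRight 0x1761617167776610 (4 * (x : Fin 16).val) % 16, Nat.mod_lt _ (by decide)⟩ : Fin 16)

lemma n5_eq : ∀ x : K16, n5 x = x * x ^ 4 := by decide +kernel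

def T1 (b c : K16) : ZMod 5 :=
  if n5 b = k 6 ∧ n5 c = k 7 then 1 else if n5 b = k 7 ∧ n5 c = k 6 then -1 else 0

def f0 (w : V3) : ZMod 5 := if w 0 = 0 then 0 else T1 (w 1 / w 0) (w 2 / w 0)

lemma T1_iso : ∀ b c : K16, T1 b c ≠ 0 → (1 : K16) + b * b ^ 4 + c * c ^ 4 = 0 := by decide +kernel

lemma f0_van (v : V3) (hv : ¬ iso v) : f0 v = 0 := by
  by_contra hne
  apply hv
  unfold f0 at hne
  by_cases h0 : v 0 = 0
  · rw [if_pos h0] at hne; exact absurd rfl hne
  · rw [if_neg h0] at hne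
    have h1 := T1_iso _ _ hne
    refine ⟨fun h => h0 (by rw [h]; rfl), ?_⟩
    unfold h
    have h2 : v 0 * v 0 ^ 4 * (1 + (v 1 / v 0) * (v 1 / v 0) ^ 4 + (v 2 / v 0) * (v 2 / v 0) ^ 4) = 0 := by
      rw [h1, mul_zero]
    have h3 : v 0 * v 0 ^ 4 * (1 + (v 1 / v 0) * (v 1 / v 0) ^ 4 + (v 2 / v 0) * (v 2 / v 0) ^ 4)
        = v 0 * v 0 ^ 4 + v 1 * v 1 ^ 4 + v 2 * v 2 ^ 4 := by
      field_simp
    rw [← h3]; exact h2

lemma f0_sc (a : K16) (v : V3) (ha : a ≠ 0) : f0 (a • v) = f0 v := by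
  unfold f0
  simp only [Pi.smul_apply, smul_eq_mul, mul_eq_zero, ha, false_or]
  rw [mul_div_mul_left _ _ ha, mul_div_mul_left _ _ ha]

/-- computable block sum -/
def SC (u v : V3) : ZMod 5 := f0 v + ((List.range 16).map (fun n => f0 (u + k n • v))).sum

lemma S_eq_SC (u v : V3) : S f0 u v = SC u v := by
  unfold S SC
  rw [sum_eq_list]

theorem check1 : ∀ b c : K16, (1 : K16) + b * b ^ 4 + c * c ^ 4 = 0 →
    (∀ y : K16, h ![0, 1, y] ![1, b, c] ≠ 0 → SC ![0, 1, y] ![1, b, c] = 0) ∧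
      (h ![0, 0, 1] ![1, b, c] ≠ 0 → SC ![0, 0, 1] ![1, b, c] = 0) := by
  decide +kernel

theorem check0 : ∀ c : K16, (1 : K16) + c * c ^ 4 = 0 →
    (∀ y : K16, h ![1, 0, y] ![0, 1, c] ≠ 0 → SC ![1, 0, y] ![0, 1, c] = 0) ∧
      (h ![0, 0, 1] ![0, 1, c] ≠ 0 → SC ![0, 0, 1] ![0, 1, c] = 0) := by
  decide +kernel

lemma f0_bl (u v : V3) (hv : iso v) (huv : h u v ≠ 0) : S f0 u v = 0 := by
  by_cases h0 : v 0 = 0
  · -- v = v1 • (0,1,c)
    have h1 : v 1 ≠ 0 := by
      intro h1
      apply hv.1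
      have h2 := hv.2
      simp only [h, h0, h1, zero_mul, zero_add] at h2
      have h3 : v 2 = 0 := by
        rcases mul_eq_zero.mp h2 with h | h
        · exact h
        · exact pow_eq_zero_iff (by norm_num) |>.mp h
      funext i
      fin_cases i
      · exact h0
      · exact h1
      · exact h3
    set c := v 2 / v 1 with hc
    have hvv : v = v 1 • ![0, 1, c] := by
      funext i
      fin_cases i
      · simp [h0]
      · simp
      · simp [hc]; field_simp
    rw [hvv, S_smul_right f0 f0_sc _ _ h1]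
    have hcc : (1 : K16) + c * c ^ 4 = 0 := by
      have h2 := hv.2
      rw [hvv, h_smul_left, h_smul_right] at h2
      rcases mul_eq_zero.mp h2 with h | h
      · exact absurd h h1
      · rcases mul_eq_zero.mp h with h | h
        · exact absurd (pow_eq_zero_iff (by norm_num) |>.mp h) h1
        · simpa [U34.h] using h
    -- reduce u
    have hu : u = ![u 0, 0, u 2 + u 1 * c] + u 1 • ![0, 1, c] := by
      funext i
      fin_cases i
      · simp
      · simp
      · simp [add_assoc, CharTwo.add_self_eq_zero]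
    rw [hu, S_add]
    have hne : h ![u 0, 0, u 2 + u 1 * c] ![0, 1, c] ≠ 0 := by
      intro hcon
      apply huv
      rw [hvv, h_smul_right, hu, h_add_left, h_smul_left, hcon]
      have : h ![0, 1, c] ![0, 1, c] = 0 := by simpa [U34.h] using hcc
      rw [this]; ring
    by_cases hx : u 0 = 0
    · have hy : u 2 + u 1 * c ≠ 0 := by
        intro hy
        apply hne
        rw [hx, hy]
        simp [U34.h]
      have e : (![u 0, 0, u 2 + u 1 * c] : V3) = (u 2 + u 1 * c) • ![0, 0, 1] := by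
        funext i
        fin_cases i <;> simp [hx]
      rw [e, S_smul_left f0 f0_sc _ _ hy, S_eq_SC]
      apply (check0 c hcc).2
      intro hcon
      apply hne
      rw [e, h_smul_left, hcon, mul_zero]
    · have e : (![u 0, 0, u 2 + u 1 * c] : V3) = u 0 • ![1, 0, (u 2 + u 1 * c) / u 0] := by
        funext i
        fin_cases i
        · simp
        · simp
        · simp; field_simp
      rw [e, S_smul_left f0 f0_sc _ _ hx, S_eq_SC]
      apply (check0 c hcc).1
      intro hcon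
      apply hne
      rw [e, h_smul_left, hcon, mul_zero]
  · set b := v 1 / v 0 with hb
    set c := v 2 / v 0 with hc
    have hvv : v = v 0 • ![1, b, c] := by
      funext i
      fin_cases i
      · simp
      · simp [hb]; field_simp
      · simp [hc]; field_simp
    rw [hvv, S_smul_right f0 f0_sc _ _ h0]
    have hcc : (1 : K16) + b * b ^ 4 + c * c ^ 4 = 0 := by
      have h2 := hv.2
      rw [hvv, h_smul_left, h_smul_right] at h2
      rcases mul_eq_zero.mp h2 with h | h
      · exact absurd h h0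
      · rcases mul_eq_zero.mp h with h | h
        · exact absurd (pow_eq_zero_iff (by norm_num) |>.mp h) h0
        · simpa [U34.h] using h
    have hu : u = ![0, u 1 + u 0 * b, u 2 + u 0 * c] + u 0 • ![1, b, c] := by
      funext i
      fin_cases i
      · simp
      · simp [add_assoc, CharTwo.add_self_eq_zero]
      · simp [add_assoc, CharTwo.add_self_eq_zero]
    rw [hu, S_add]
    have hne : h ![0, u 1 + u 0 * b, u 2 + u 0 * c] ![1, b, c] ≠ 0 := by
      intro hcon
      apply huv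
      rw [hvv, h_smul_right, hu, h_add_left, h_smul_left, hcon]
      have : h ![1, b, c] ![1, b, c] = 0 := by simpa [U34.h] using hcc
      rw [this]; ring
    by_cases hx : u 1 + u 0 * b = 0
    · have hy : u 2 + u 0 * c ≠ 0 := by
        intro hy
        apply hne
        rw [hx, hy]
        simp [U34.h]
      have e : (![0, u 1 + u 0 * b, u 2 + u 0 * c] : V3) = (u 2 + u 0 * c) • ![0, 0, 1] := by
        funext i
        fin_cases i <;> simp [hx]
      rw [e, S_smul_left f0 f0_sc _ _ hy, S_eq_SC]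
      apply (check1 b c hcc).2
      intro hcon
      apply hne
      rw [e, h_smul_left, hcon, mul_zero]
    · have e : (![0, u 1 + u 0 * b, u 2 + u 0 * c] : V3) = (u 1 + u 0 * b) • ![0, 1, (u 2 + u 0 * c) / (u 1 + u 0 * b)] := by
        funext i
        fin_cases i
        · simp
        · simp
        · simp; field_simp
      rw [e, S_smul_left f0 f0_sc _ _ hx, S_eq_SC]
      apply (check1 b c hcc).1
      intro hcon
      apply hne
      rw [e, h_smul_left, hcon, mul_zero]

theorem inC_f0 : InC f0 := ⟨f0_van, f0_sc, f0_bl⟩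

/-! ### Elements of the code invariant under an element of order 13 are constant -/

def tab : List ℕ := [17, 446, 318, 441, 327, 407, 333, 271, 31, 309, 448, 413, 257, 24, 377, 411, 469, 496, 347, 313, 365, 266, 28, 468, 349, 268, 26, 294, 473, 483, 438, 437, 384, 322, 323, 297, 338, 493, 264, 272, 355, 478, 470, 292, 359, 491, 302, 372, 482, 343, 339, 373, 293, 416, 487, 354, 402, 363, 436, 403, 308, 331, 374, 310, 382]

def idx1 : List ℕ := [65, 12, 65, 65, 65, 65, 65, 65, 38, 65, 21, 65, 25, 65, 65, 7, 39, 65, 65, 65, 65, 65, 65, 65, 65, 65, 65, 65, 65, 65, 65, 65, 65, 65, 65, 65, 43, 52, 27, 65, 65, 35, 65, 65, 65, 65, 46, 65, 65, 65, 65, 65, 60, 9, 63, 65, 65, 19, 65, 65, 65, 65, 2, 65, 65, 65, 33, 34, 65, 65, 65, 4, 65, 65, 65, 61, 65, 6, 65, 65, 65, 65, 36, 50, 65, 65, 65, 49, 65, 65, 65, 18, 65, 24, 65, 65, 65, 65, 55, 40, 65, 65, 65, 44, 65, 65, 65, 57, 65, 20, 65, 65, 65, 65, 65, 65, 47, 51, 62, 65, 65, 14, 65, 65, 65, 65, 64, 65, 32, 65, 65, 65, 65,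 65, 65, 65, 65, 65, 65, 65, 65, 65, 65, 65, 65, 65, 56, 59, 65, 65, 65, 5, 65, 65, 65, 15, 65, 11, 65, 65, 53, 65, 65, 65, 65, 65, 65, 65, 65, 65, 65, 65, 65, 65, 65, 65, 65, 65, 65, 65, 58, 31, 30, 65, 65, 3, 65, 65, 65, 65, 1, 65, 10, 65, 65, 65, 65, 65, 65, 65, 65, 65, 65, 65, 65, 65, 65, 65, 65, 65, 65, 65, 23, 16, 42, 65, 65, 28, 65, 65, 65, 65, 41, 65, 65, 65, 48, 29, 65, 65, 65, 54, 65, 65, 65, 45, 65, 37, 65, 65, 17, 65, 65, 65, 65, 65, 65, 65, 65, 65, 65, 65, 65, 65, 65, 65]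

def idx0 : List ℕ := [65, 0, 65, 65, 65, 65, 65, 65, 13, 65, 26, 65, 22, 65, 65, 8]

/-- the normalized isotropic points -/
def P (n : ℕ) : V3 := ![k (tab.getD n 0 / 256), k (tab.getD n 0 / 16), k (tab.getD n 0)]

def nxt (n : ℕ) : ℕ := 13 * (n / 13) + (n % 13 + 1) % 13

theorem P_next : ∀ n : Fin 65, ∃ a : K16, a ≠ 0 ∧ m13 *ᵥ P n.val = a • P (nxt n.val) := by decide +kernel

/-- class (orbit number, 5 for non-isotropic) -/
def cls (w : V3) : ℕ :=
  if w 0 ≠ 0 then idx1.getD (16 * (w 1 / w 0 : Fin 16).val + (w 2 / w 0 : Fin 16).val) 65 / 13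
  else if w 1 ≠ 0 then idx0.getD (w 2 / w 1 : Fin 16).val 65 / 13 else 5

end Cfsg.Agent.Lib.U34
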