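import Cfsg.Agent.Lib.U34Code

/-! Elements of the unital code of `SU(3,4)` modulo 5 invariant under the element of order 13 are constant. -/

set_option autoImplicit false

namespace Cfsg.Agent.Lib.U34

open Matrix Cfsg.Agent.Lib.K16

theorem idx1_spec : ∀ b c : K16, (idx1.getD (16 * (b : Fin 16).val + (c : Fin 16).val) 65 < 65 ∧
      P (idx1.getD (16 * (b : Fin 16).val + (c : Fin 16).val) 65) = ![1, b, c]) ∨
    (idx1.getD (16 * (b : Fin 16).val + (c : Fin 16).val) 65 = 65 ∧ (1 : K16) + b * b ^ 4 + c * c ^ 4 ≠ 0) := by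
  decide +kernel

theorem idx0_spec : ∀ c : K16, (idx0.getD (c : Fin 16).val 65 < 65 ∧
      P (idx0.getD (c : Fin 16).val 65) = ![0, 1, c]) ∨
    (idx0.getD (c : Fin 16).val 65 = 65 ∧ (1 : K16) + c * c ^ 4 ≠ 0) := by
  decide +kernel

lemma P_65 : P 65 = 0 := by decide +kernel

section
variable {f : V3 → ZMod 5} (hf : InC f) (hT : ∀ w, f (m13 *ᵥ w) = f w)
include hf

lemma f_zero : f 0 = 0 := hf.van 0 (fun h => h.1 rfl)

include hT

lemma f_next (n : ℕ) (hn : n < 65) : f (P (nxt n)) = f (P n) := by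
  obtain ⟨a, ha, h⟩ := P_next ⟨n, hn⟩
  have h1 := hT (P n)
  have h2 : m13 *ᵥ P n = a • P (nxt n) := h
  rw [h2, hf.sc a _ ha] at h1
  exact h1

lemma f_orbit (i j : ℕ) (hi : i < 5) (hj : j < 13) : f (P (13 * i + j)) = f (P (13 * i)) := by
  induction j with
  | zero => rfl
  | succ j ih =>
    rw [← ih (by omega)]
    have h1 := f_next hf hT (13 * i + j) (by omega)
    have h2 : nxt (13 * i + j) = 13 * i + (j + 1) := by
      unfold nxt
      rw [Nat.mul_add_div (by norm_num), Nat.mul_add_mod, Nat.mod_eq_of_lt (show j < 13 by omega),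
        Nat.div_eq_of_lt (show j < 13 by omega), Nat.mod_eq_of_lt (show j + 1 < 13 by omega)]
      ring
    rw [h2] at h1
    exact h1

lemma f_P (n : ℕ) (hn : n ≤ 65) : f (P n) = f (P (13 * (n / 13))) := by
  rcases Nat.lt_or_ge n 65 with h | h
  · have h1 := f_orbit hf hT (n / 13) (n % 13) (by omega) (Nat.mod_lt _ (by norm_num))
    rw [Nat.div_add_mod] at h1
    exact h1
  · have : n = 65 := by omega
    subst this
    rfl

lemma f_cls (w : V3) : f w = f (P (13 * cls w)) := by
  unfold cls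
  by_cases h0 : w 0 ≠ 0
  · rw [if_pos h0]
    have hw : w = w 0 • ![1, w 1 / w 0, w 2 / w 0] := by
      funext i
      fin_cases i
      · simp
      · simp; field_simp
      · simp; field_simp
    rcases idx1_spec (w 1 / w 0) (w 2 / w 0) with ⟨h1, h2⟩ | ⟨h1, h2⟩
    · rw [← f_P hf hT _ h1.le, h2]
      conv_lhs => rw [hw]
      exact hf.sc _ _ h0
    · rw [h1]
      have h3 : (65 : ℕ) = 13 * (65 / 13) := by norm_num
      rw [← h3, P_65, f_zero hf]
      apply hf.van
      intro hiso
      apply h2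
      have h4 := hiso.2
      rw [hw, h_smul_left, h_smul_right] at h4
      rcases mul_eq_zero.mp h4 with h | h
      · exact absurd h h0
      · rcases mul_eq_zero.mp h with h | h
        · exact absurd (pow_eq_zero_iff (by norm_num) |>.mp h) h0
        · simpa [U34.h] using h
  · rw [if_neg h0]
    push Not at h0
    by_cases h1 : w 1 ≠ 0
    · rw [if_pos h1]
      have hw : w = w 1 • ![0, 1, w 2 / w 1] := by
        funext i
        fin_cases i
        · simp [h0]
        · simp
        · simp; field_simp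
      rcases idx0_spec (w 2 / w 1) with ⟨h2, h3⟩ | ⟨h2, h3⟩
      · rw [← f_P hf hT _ h2.le, h3]
        conv_lhs => rw [hw]
        exact hf.sc _ _ h1
      · rw [h2]
        have h5 : (65 : ℕ) = 13 * (65 / 13) := by norm_num
        rw [← h5, P_65, f_zero hf]
        apply hf.van
        intro hiso
        apply h3
        have h4 := hiso.2
        rw [hw, h_smul_left, h_smul_right] at h4
        rcases mul_eq_zero.mp h4 with h | h
        · exact absurd h h1
        · rcases mul_eq_zero.mp h with h | h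
          · exact absurd (pow_eq_zero_iff (by norm_num) |>.mp h) h1
          · simpa [U34.h] using h
    · rw [if_neg h1]
      push Not at h1
      have h5 : (65 : ℕ) = 13 * 5 := by norm_num
      rw [← h5, P_65, f_zero hf]
      apply hf.van
      intro hiso
      apply hiso.1
      have h4 := hiso.2
      simp only [U34.h, h0, h1, zero_mul, zero_add] at h4
      have h3 : w 2 = 0 := by
        rcases mul_eq_zero.mp h4 with h | h
        · exact h
        · exact pow_eq_zero_iff (by norm_num) |>.mp h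
      funext i
      fin_cases i
      · exact h0
      · exact h1
      · exact h3

lemma cls_lt_of_iso {w : V3} (hw : iso w) : cls w < 5 := by
  unfold cls
  by_cases h0 : w 0 ≠ 0
  · rw [if_pos h0]
    have hw' : w = w 0 • ![1, w 1 / w 0, w 2 / w 0] := by
      funext i
      fin_cases i
      · simp
      · simp; field_simp
      · simp; field_simp
    rcases idx1_spec (w 1 / w 0) (w 2 / w 0) with ⟨h1, _⟩ | ⟨_, h2⟩
    · omega
    · exfalso
      apply h2
      have h4 := hw.2
      rw [hw', h_smul_left, h_smul_right] at h4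
      rcases mul_eq_zero.mp h4 with h | h
      · exact absurd h h0
      · rcases mul_eq_zero.mp h with h | h
        · exact absurd (pow_eq_zero_iff (by norm_num) |>.mp h) h0
        · simpa [U34.h] using h
  · rw [if_neg h0]
    push Not at h0
    by_cases h1 : w 1 ≠ 0
    · rw [if_pos h1]
      have hw' : w = w 1 • ![0, 1, w 2 / w 1] := by
        funext i
        fin_cases i
        · simp [h0]
        · simp
        · simp; field_simp
      rcases idx0_spec (w 2 / w 1) with ⟨h2, _⟩ | ⟨_, h3⟩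
      · omega
      · exfalso
        apply h3
        have h4 := hw.2
        rw [hw', h_smul_left, h_smul_right] at h4
        rcases mul_eq_zero.mp h4 with h | h
        · exact absurd h h1
        · rcases mul_eq_zero.mp h with h | h
          · exact absurd (pow_eq_zero_iff (by norm_num) |>.mp h) h1
          · simpa [U34.h] using h
    · exfalso
      push Not at h1
      apply hw.1
      have h4 := hw.2
      simp only [U34.h, h0, h1, zero_mul, zero_add] at h4
      have h3 : w 2 = 0 := by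
        rcases mul_eq_zero.mp h4 with h | h
        · exact h
        · exact pow_eq_zero_iff (by norm_num) |>.mp h
      funext i
      fin_cases i
      · exact h0
      · exact h1
      · exact h3

/-- block equation in terms of classes -/
lemma block_eq (u v : V3) (hv : v ≠ 0 ∧ h v v = 0) (huv : h u v ≠ 0) (c : ℕ) (l : List ℕ) (hc : cls v = c)
    (hl : (List.range 16).map (fun n => cls (u + k n • v)) = l) :
    f (P (13 * c)) + (l.map (fun i => f (P (13 * i)))).sum = 0 := by
  have h1 := hf.bl u v hv huv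
  rw [sum_eq_list] at h1
  have h2 : (List.range 16).map (fun n => f (u + k n • v)) = l.map (fun i => f (P (13 * i))) := by
    rw [← hl, List.map_map]
    apply List.map_congr_left
    intro n _
    exact f_cls hf hT _
  rw [h2, f_cls hf hT v, hc] at h1
  exact h1

end

theorem b1 : ((![0, 1, k 10] : V3) ≠ 0 ∧ h ![0, 1, k 10] ![0, 1, k 10] = 0) ∧ h ![1, k 4, k 11] ![0, 1, k 10] ≠ 0 ∧
    cls ![0, 1, k 10] = 2 ∧ (List.range 16).map (fun n => cls (![1, k 4, k 11] + k n • ![0, 1, k 10])) =
      [4, 5, 5, 4, 5, 5, 5, 5, 5, 3, 2, 5, 5, 5, 5, 5] := by decide +kernel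

theorem b2 : ((![0, 1, k 10] : V3) ≠ 0 ∧ h ![0, 1, k 10] ![0, 1, k 10] = 0) ∧ h ![1, k 4, k 3] ![0, 1, k 10] ≠ 0 ∧
    cls ![0, 1, k 10] = 2 ∧ (List.range 16).map (fun n => cls (![1, k 4, k 3] + k n • ![0, 1, k 10])) =
      [2, 5, 5, 4, 5, 5, 5, 5, 5, 3, 3, 5, 5, 5, 5, 5] := by decide +kernel

theorem b3 : ((![0, 1, k 8] : V3) ≠ 0 ∧ h ![0, 1, k 8] ![0, 1, k 8] = 0) ∧ h ![1, k 2, k 14] ![0, 1, k 8] ≠ 0 ∧
    cls ![0, 1, k 8] = 1 ∧ (List.range 16).map (fun n => cls (![1, k 2, k 14] + k n • ![0, 1, k 8])) =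
      [3, 4, 5, 5, 5, 5, 4, 3, 5, 5, 5, 5, 5, 5, 5, 5] := by decide +kernel

theorem b4 : ((![0, 1, k 1] : V3) ≠ 0 ∧ h ![0, 1, k 1] ![0, 1, k 1] = 0) ∧ h ![1, k 2, k 5] ![0, 1, k 1] ≠ 0 ∧
    cls ![0, 1, k 1] = 0 ∧ (List.range 16).map (fun n => cls (![1, k 2, k 5] + k n • ![0, 1, k 1])) =
      [4, 4, 5, 5, 5, 5, 2, 2, 5, 5, 5, 5, 5, 5, 5, 5] := by decide +kernel

theorem lin : ∀ a0 a1 a2 a3 a4 : ZMod 5, a2 + (a4 + (a4 + (a3 + a2))) = 0 → a2 + (a2 + (a4 + (a3 + a3))) = 0 →
    a1 + (a3 + (a4 + (a4 + a3))) = 0 → a0 + (a4 + (a4 + (a2 + a2))) = 0 →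
    a0 = a0 ∧ a1 = a0 ∧ a2 = a0 ∧ a3 = a0 ∧ a4 = a0 := by
  decide +kernel

theorem const_of_invariant {f : V3 → ZMod 5} (hf : InC f) (hT : ∀ w, f (m13 *ᵥ w) = f w) (w : V3) (hw : iso w) :
    f w = f (P 0) := by
  have e1 := block_eq hf hT _ _ b1.1 b1.2.1 2 _ b1.2.2.1 b1.2.2.2
  have e2 := block_eq hf hT _ _ b2.1 b2.2.1 2 _ b2.2.2.1 b2.2.2.2
  have e3 := block_eq hf hT _ _ b3.1 b3.2.1 1 _ b3.2.2.1 b3.2.2.2
  have e4 := block_eq hf hT _ _ b4.1 b4.2.1 0 _ b4.2.2.1 b4.2.2.2
  have h65 : f (P 65) = 0 := by rw [P_65]; exact f_zero hf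
  simp only [List.map_cons, List.map_nil, List.sum_cons, List.sum_nil, Nat.reduceMul, h65, add_zero, zero_add] at e1 e2 e3 e4
  obtain ⟨h0, h1, h2, h3, h4⟩ := lin _ _ _ _ _ e1 e2 e3 e4
  have hlt := cls_lt_of_iso (w := w) hf hT hw
  rw [f_cls hf hT w]
  interval_cases (cls w)
  · exact h0
  · exact h1
  · exact h2
  · exact h3
  · exact h4

end Cfsg.Agent.Lib.U34
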