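import Cfsg.Agent.Lib.UnTrans
import Cfsg.Agent.Lib.ZsRot

/-! Eichler elements in unitary groups with a hyperbolic frame (helper38). -/

set_option autoImplicit false
set_option linter.unusedSectionVars false
set_option linter.unusedSimpArgs false

namespace Cfsg.Agent.Lib.UGen

open Module Cfsg.Agent.Lib.UnTrans Cfsg.Agent.Lib.PresBC Cfsg.Agent.Lib.PresSpMod Cfsg.Agent.Lib.ZsRot
open Cfsg.Agent.Lib.SpTrans (isom mem_isom)

variable {F V : Type*} [Field F] [AddCommGroup V] [Module F V] [FiniteDimensional F V] {σ : F →+* F} {B : V → V → F} {k : ℕ}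

section eichler
variable (H : HS σ B)
include H

theorem exists_Eu {e u : V} (he : B e e = 0) (hu : B u e = 0) (c : F) : ∃ g : V ≃ₗ[F] V, (∀ x, g x = x + B x e • u - B x u • e + (c * B x e) • e) ∧
    LinearMap.det (g : V →ₗ[F] V) = 1 := by
  have heu := H.symm_zero hu
  let g1 : V ≃ₗ[F] V := LinearEquiv.dilatransvection (f := H.fl e) (v := u + (c + B u u) • e) (by
    change IsUnit (1 + B (u + (c + B u u) • e) e)
    rw [H.add_left, H.smul_left, hu, he]
    simp)
  let g2 : V ≃ₗ[F] V := LinearEquiv.dilatransvection (f := (-1 : F) • H.fl u) (v := e) (by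
    change IsUnit (1 + (-1) * B e u)
    rw [heu]
    simp)
  have e1 : ∀ x, g1 x = x + (B x e) • (u + (c + B u u) • e) := fun x => by
    change LinearEquiv.dilatransvection _ x = _
    rw [LinearEquiv.dilatransvection.apply]; rfl
  have e2 : ∀ x, g2 x = x + ((-1) * B x u) • e := fun x => by
    change LinearEquiv.dilatransvection _ x = _
    rw [LinearEquiv.dilatransvection.apply]; rfl
  have d1 : LinearMap.det (g1 : V →ₗ[F] V) = 1 := by
    change LinearMap.det ((LinearEquiv.dilatransvection _ : V ≃ₗ[F] V) : V →ₗ[F] V) = _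
    rw [LinearEquiv.dilatransvection.coe_toLinearMap, LinearMap.transvection.det]
    change 1 + B (u + (c + B u u) • e) e = 1
    rw [H.add_left, H.smul_left, hu, he]; simp
  have d2 : LinearMap.det (g2 : V →ₗ[F] V) = 1 := by
    change LinearMap.det ((LinearEquiv.dilatransvection _ : V ≃ₗ[F] V) : V →ₗ[F] V) = _
    rw [LinearEquiv.dilatransvection.coe_toLinearMap, LinearMap.transvection.det]
    change 1 + (-1) * B e u = 1
    rw [heu]; simp
  refine ⟨g2 * g1, fun x => ?_, ?_⟩
  · rw [LinearEquiv.mul_apply, e2, e1, H.add_left, H.smul_left, H.add_left, H.smul_left, heu]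
    module
  · change LinearMap.det ((g2 : V →ₗ[F] V) * (g1 : V →ₗ[F] V)) = 1
    rw [map_mul, d1, d2, one_mul]

open Classical in
/-- Eichler elements -/
noncomputable def Eu (e u : V) (c : F) : V ≃ₗ[F] V :=
  if h : B e e = 0 ∧ B u e = 0 ∧ c + σ c + B u u = 0 then (exists_Eu H h.1 h.2.1 c).choose else 1

theorem Eu_ne {e u : V} {c : F} (h : ¬ (B e e = 0 ∧ B u e = 0 ∧ c + σ c + B u u = 0)) : Eu H e u c = 1 := by
  unfold Eu; rw [dif_neg h]

theorem Eu_apply {e u : V} {c : F} (he : B e e = 0) (hu : B u e = 0) (hc : c + σ c + B u u = 0) (x : V) :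
    Eu H e u c x = x + B x e • u - B x u • e + (c * B x e) • e := by
  unfold Eu; rw [dif_pos ⟨he, hu, hc⟩]
  exact (exists_Eu H he hu c).choose_spec.1 x

theorem Eu_det (e u : V) (c : F) : LinearMap.det (Eu H e u c : V →ₗ[F] V) = 1 := by
  by_cases h : B e e = 0 ∧ B u e = 0 ∧ c + σ c + B u u = 0
  · unfold Eu; rw [dif_pos h]
    exact (exists_Eu H h.1 h.2.1 c).choose_spec.2
  · rw [Eu_ne H h]; exact LinearMap.det_id

theorem Eu_iso (e u : V) (c : F) : Eu H e u c ∈ isom B := by
  by_cases h : B e e = 0 ∧ B u e = 0 ∧ c + σ c + B u u = 0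
  · obtain ⟨he, hu, hc⟩ := h
    have heu := H.symm_zero hu
    intro x y
    rw [Eu_apply H he hu hc, Eu_apply H he hu hc]
    simp only [H.add_left, H.sub_left, H.smul_left, H.add_right, H.sub_right, H.smul_right, he, hu, heu, map_mul, ← H.herm]
    linear_combination (B x e * B e y) * hc
  · rw [Eu_ne H h]; exact one_mem _

theorem Eu_mul {e u u' : V} {c c' : F} (he : B e e = 0) (hu : B u e = 0) (hc : c + σ c + B u u = 0) (hu' : B u' e = 0)
    (hc' : c' + σ c' + B u' u' = 0) : Eu H e u c * Eu H e u' c' = Eu H e (u + u') (c + c' - B u' u) := by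
  have heu := H.symm_zero hu
  have heu' := H.symm_zero hu'
  ext x
  rw [LinearEquiv.mul_apply, Eu_apply H he hu hc, Eu_apply H he hu' hc', Eu_apply H he (by rw [H.add_left, hu, hu', add_zero]) (by
    rw [H.add_left, H.add_right, H.add_right, map_sub, map_add, ← H.herm]
    linear_combination hc + hc')]
  simp only [H.add_left, H.sub_left, H.smul_left, H.add_right, he, hu', heu]
  module

theorem Eu_zero (e : V) : Eu H e 0 0 = 1 := by
  by_cases he : B e e = 0
  · ext x
    rw [Eu_apply H he (H.zero_left _) (by rw [H.zero_left, map_zero]; ring), H.zero_right]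
    simp
  · exact Eu_ne H (fun h => he h.1)

theorem Eu_inv {e u : V} {c : F} (he : B e e = 0) (hu : B u e = 0) (hc : c + σ c + B u u = 0) : (Eu H e u c)⁻¹ = Eu H e (-u) (σ c) := by
  rw [inv_eq_iff_mul_eq_one, Eu_mul H he hu hc (by rw [H.neg_left, hu, neg_zero]) (by rw [H.inv, H.neg_left, H.neg_right]; linear_combination hc),
    H.neg_left, add_neg_cancel]
  have : c + σ c - -B u u = 0 := by linear_combination hc
  rw [this, Eu_zero]

theorem Eu_conj {g : V ≃ₗ[F] V} (hg : g ∈ isom B) (e u : V) (c : F) : g * Eu H e u c * g⁻¹ = Eu H (g e) (g u) c := by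
  by_cases h : B e e = 0 ∧ B u e = 0 ∧ c + σ c + B u u = 0
  · obtain ⟨he, hu, hc⟩ := h
    rw [mul_inv_eq_iff_eq_mul]
    ext x
    rw [LinearEquiv.mul_apply, LinearEquiv.mul_apply, Eu_apply H he hu hc, Eu_apply H (by rw [hg]; exact he) (by rw [hg]; exact hu)
      (by rw [hg]; exact hc), hg, hg]
    simp only [map_add, map_sub, LinearEquiv.map_smul]
  · rw [Eu_ne H h, Eu_ne H (by rw [hg, hg, hg]; exact h), mul_one, mul_inv_cancel]

theorem Eu_smul {l : F} (hl : l ≠ 0) (e u : V) (c : F) : Eu H (l • e) u c = Eu H e (σ l • u) (l * σ l * c) := by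
  have hsl := H.sigma_ne hl
  by_cases h : B e e = 0 ∧ B u e = 0 ∧ c + σ c + B u u = 0
  · obtain ⟨he, hu, hc⟩ := h
    ext x
    rw [Eu_apply H (by rw [H.smul_left, H.smul_right, he]; ring) (by rw [H.smul_right, hu, mul_zero]) hc,
      Eu_apply H he (by rw [H.smul_left, hu, mul_zero]) (by
        rw [map_mul, map_mul, H.inv, H.smul_left, H.smul_right, H.inv]
        linear_combination (l * σ l) * hc), H.smul_right, H.smul_right, H.inv]
    module
  · rw [Eu_ne H (e := l • e) (fun h' => h ⟨?_, ?_, h'.2.2⟩), Eu_ne H (fun h' => h ⟨h'.1, ?_, ?_⟩)]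
    · have := h'.2.1
      rw [H.smul_left] at this
      exact (mul_eq_zero.1 this).resolve_left hsl
    · have := h'.2.2
      rw [map_mul, map_mul, H.inv, H.smul_left, H.smul_right, H.inv] at this
      have h2 : (l * σ l) * (c + σ c + B u u) = 0 := by linear_combination this
      exact (mul_eq_zero.1 h2).resolve_left (mul_ne_zero hl hsl)
    · have := h'.1
      rw [H.smul_left, H.smul_right] at this
      exact (mul_eq_zero.1 ((mul_eq_zero.1 this).resolve_left hl)).resolve_left hsl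
    · have := h'.2.1
      rw [H.smul_right] at this
      exact (mul_eq_zero.1 this).resolve_left hsl

end eichler

/-- hyperbolic frames -/
def Fr (B : V → V → F) (vl : Zs k → V) : Prop := ∀ a b, B (vl a) (vl b) = if b = ng a then 1 else 0

/-- the orthogonal complement of the frame -/
def Wp (B : V → V → F) (vl : Zs k → V) (x : V) : Prop := ∀ a, B x (vl a) = 0

section frame
variable {vl : Zs k → V} (h : Fr B vl)

theorem ng_of_ix {a b : Zs k} (h : ix a ≠ ix b) : a ≠ b ∧ a ≠ ng b ∧ ng a ≠ b ∧ ng a ≠ ng b := by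
  refine ⟨?_, ?_, ?_, ?_⟩
  · rintro rfl; exact h rfl
  · rintro rfl; exact h (ix_ng b)
  · rintro rfl; exact h (ix_ng a).symm
  · intro h1; exact h (by rw [← ix_ng a, h1, ix_ng])

include h
theorem f0 (a : Zs k) : B (vl a) (vl a) = 0 := by rw [h, if_neg (ng_ne a).symm]
theorem f1 (a : Zs k) : B (vl a) (vl (ng a)) = 1 := by rw [h, if_pos rfl]
theorem f2 (a : Zs k) : B (vl (ng a)) (vl a) = 1 := by rw [h, if_pos (ng_ng a).symm]
theorem f3 {a b : Zs k} (hab : ix a ≠ ix b) : B (vl a) (vl b) = 0 := by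
  rw [h, if_neg (fun h1 => (ng_of_ix hab).2.2.1 h1.symm)]
theorem f4 {a b : Zs k} (hab : ix a ≠ ix b) : B (vl a) (vl (ng b)) = 0 := f3 h (by rwa [ix_ng])
theorem f5 {a b : Zs k} (hab : ix a ≠ ix b) : B (vl (ng a)) (vl b) = 0 := f3 h (by rwa [ix_ng])
theorem f6 {a b : Zs k} (hab : ix a ≠ ix b) : B (vl (ng a)) (vl (ng b)) = 0 := f3 h (by rwa [ix_ng, ix_ng])
end frame

section wp
variable (H : HS σ B) {vl : Zs k → V}
include H
theorem Wp.add {x y : V} (hx : Wp B vl x) (hy : Wp B vl y) : Wp B vl (x + y) := fun a => by rw [H.add_left, hx, hy, add_zero]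
theorem Wp.smul {x : V} (c : F) (hx : Wp B vl x) : Wp B vl (c • x) := fun a => by rw [H.smul_left, hx, mul_zero]
theorem Wp.zero : Wp B vl 0 := fun a => by rw [H.zero_left]
theorem Wp.neg {x : V} (hx : Wp B vl x) : Wp B vl (-x) := fun a => by rw [H.neg_left, hx, neg_zero]
theorem Wp.sub {x y : V} (hx : Wp B vl x) (hy : Wp B vl y) : Wp B vl (x - y) := fun a => by rw [H.sub_left, hx, hy, sub_zero]
theorem Wp.symm {x : V} (hx : Wp B vl x) (a : Zs k) : B (vl a) x = 0 := H.symm_zero (hx a)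
end wp

section roots
variable (H : HS σ B) {vl : Zs k → V} (h : Fr B vl)

/-- short root elements -/
noncomputable def xx (H : HS σ B) (vl : Zs k → V) (a b : Zs k) (t : F) : V ≃ₗ[F] V := Eu H (vl a) ((-(σ t)) • vl (ng b)) 0

/-- long root elements -/
noncomputable def tt (H : HS σ B) (vl : Zs k → V) (a : Zs k) (c : F) : V ≃ₗ[F] V := Eu H (vl a) 0 c

noncomputable def nn (H : HS σ B) (vl : Zs k → V) (a b : Zs k) (t : F) : V ≃ₗ[F] V := xx H vl a b t * xx H vl b a (-t⁻¹) * xx H vl a b t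

noncomputable def hh (H : HS σ B) (vl : Zs k → V) (a b : Zs k) (t : F) : V ≃ₗ[F] V := nn H vl a b t * nn H vl a b (-1)

noncomputable def ll (H : HS σ B) (vl : Zs k → V) (a : Zs k) (c : F) : V ≃ₗ[F] V := tt H vl a c * tt H vl (ng a) (-c⁻¹) * tt H vl a c

include H h

theorem xx_c1 {a b : Zs k} (hab : ix a ≠ ix b) (t : F) : B ((-(σ t)) • vl (ng b)) (vl a) = 0 := by
  rw [H.smul_left, f5 h hab.symm, mul_zero]
theorem xx_c2 (b : Zs k) (t : F) : (0 : F) + σ 0 + B ((-(σ t)) • vl (ng b)) ((-(σ t)) • vl (ng b)) = 0 := by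
  rw [H.smul_left, H.smul_right, f0 h, map_zero]; ring

theorem xx_apply {a b : Zs k} (hab : ix a ≠ ix b) (t : F) (x : V) : xx H vl a b t x =
    x - (σ t * B x (vl a)) • vl (ng b) + (t * B x (vl (ng b))) • vl a := by
  unfold xx
  rw [Eu_apply H (f0 h a) (xx_c1 H h hab t) (xx_c2 H h b t), H.smul_right, map_neg, H.inv]
  module

theorem tt_apply (a : Zs k) {c : F} (hc : c + σ c = 0) (x : V) : tt H vl a c x = x + (c * B x (vl a)) • vl a := by
  unfold tt
  rw [Eu_apply H (f0 h a) (H.zero_left _) (by rw [H.zero_left, add_zero]; exact hc), H.zero_right]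
  module

theorem xx_add {a b : Zs k} (hab : ix a ≠ ix b) (s t : F) : xx H vl a b s * xx H vl a b t = xx H vl a b (s + t) := by
  unfold xx
  rw [Eu_mul H (f0 h a) (xx_c1 H h hab s) (xx_c2 H h b s) (xx_c1 H h hab t) (xx_c2 H h b t), H.smul_left, H.smul_right, f0 h]
  congr 1
  · rw [map_add]; module
  · ring

omit h in
theorem xx_zero (a b : Zs k) : xx H vl a b 0 = 1 := by
  unfold xx
  rw [map_zero, neg_zero, zero_smul, Eu_zero]

theorem xx_inv {a b : Zs k} (hab : ix a ≠ ix b) (t : F) : (xx H vl a b t)⁻¹ = xx H vl a b (-t) := by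
  rw [inv_eq_iff_mul_eq_one, xx_add H h hab, add_neg_cancel, xx_zero]

theorem xx_symm {a b : Zs k} (hab : ix a ≠ ix b) (t : F) : xx H vl a b t = xx H vl (ng b) (ng a) (-(σ t)) := by
  have h1 : ix (ng b) ≠ ix (ng a) := by rw [ix_ng, ix_ng]; exact hab.symm
  ext x
  rw [xx_apply H h hab, xx_apply H h h1, ng_ng, map_neg, H.inv]
  module

omit h in
/-- conjugation by monomial elements -/
theorem xx_conj {g : V ≃ₗ[F] V} (hg : g ∈ isom B) {a b a' b' : Zs k} {c d : F} (h1 : g (vl a) = c • vl a')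
    (hc : c ≠ 0) (h2 : g (vl (ng b)) = d • vl (ng b')) (t : F) : g * xx H vl a b t * g⁻¹ = xx H vl a' b' (t * c * σ d) := by
  unfold xx
  rw [Eu_conj H hg, h1, Eu_smul H hc, LinearEquiv.map_smul, h2]
  congr 1
  · rw [map_mul, map_mul, H.inv]
    module
  · ring

/-- the commutator of short root elements -/
theorem xx_comm {a b c : Zs k} (hab : ix a ≠ ix b) (hbc : ix b ≠ ix c) (hac : ix a ≠ ix c) (s t : F) :
    xx H vl a b s * xx H vl b c t * (xx H vl a b s)⁻¹ = xx H vl a c (s * t) * xx H vl b c t := by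
  rw [mul_inv_eq_iff_eq_mul]
  ext x
  simp only [LinearEquiv.mul_apply]
  rw [xx_apply H h hab, xx_apply H h hbc, xx_apply H h hac, xx_apply H h hbc, xx_apply H h hab]
  simp only [H.add_left, H.sub_left, H.smul_left, f0 h, f1 h, f2 h, f3 h hab, f4 h hab, f5 h hab, f6 h hab, f3 h hbc, f4 h hbc, f5 h hbc, f6 h hbc,
    f3 h hac, f4 h hac, f5 h hac, f6 h hac, f3 h hab.symm, f4 h hab.symm, f5 h hab.symm, f6 h hab.symm, f3 h hbc.symm, f4 h hbc.symm, f5 h hbc.symm, f6 h hbc.symm,
    f3 h hac.symm, f4 h hac.symm, f5 h hac.symm, f6 h hac.symm, map_mul]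
  module

theorem nn_apply {a b : Zs k} (hab : ix a ≠ ix b) {t : F} (ht : t ≠ 0) (x : V) : nn H vl a b t x =
    x + (t * B x (vl (ng b)) - B x (vl (ng a))) • vl a
      - (t⁻¹ * B x (vl (ng a)) + B x (vl (ng b))) • vl b
      + ((σ t)⁻¹ * B x (vl b) - B x (vl a)) • vl (ng a)
      - (σ t * B x (vl a) + B x (vl b)) • vl (ng b) := by
  have hst := H.sigma_ne ht
  unfold nn
  rw [LinearEquiv.mul_apply, LinearEquiv.mul_apply, xx_apply H h hab, xx_apply H h hab.symm, xx_apply H h hab]
  simp only [H.add_left, H.sub_left, H.smul_left, f0 h, f1 h, f2 h, f3 h hab, f4 h hab, f5 h hab, f6 h hab,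
    f3 h hab.symm, f4 h hab.symm, f5 h hab.symm, f6 h hab.symm, map_neg, map_inv₀, mul_zero, mul_one, sub_zero, add_zero, zero_add, zero_sub]
  match_scalars
  all_goals (first | ring1 | (field_simp; ring1) | field_simp)

theorem hh_apply {a b : Zs k} (hab : ix a ≠ ix b) {t : F} (ht : t ≠ 0) (x : V) : hh H vl a b t x =
    x + ((t - 1) * B x (vl (ng a))) • vl a + ((t⁻¹ - 1) * B x (vl (ng b))) • vl b
      + (((σ t)⁻¹ - 1) * B x (vl a)) • vl (ng a) + ((σ t - 1) * B x (vl b)) • vl (ng b) := by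
  have hst := H.sigma_ne ht
  unfold hh
  rw [LinearEquiv.mul_apply, nn_apply H h hab ht, nn_apply H h hab (neg_ne_zero.2 one_ne_zero)]
  simp only [H.add_left, H.sub_left, H.smul_left, f0 h, f1 h, f2 h, f3 h hab, f4 h hab, f5 h hab, f6 h hab,
    f3 h hab.symm, f4 h hab.symm, f5 h hab.symm, f6 h hab.symm, map_neg, map_one, inv_neg, inv_one, mul_zero, mul_one, sub_zero, add_zero, zero_add, zero_sub]
  match_scalars
  all_goals (first | ring1 | (field_simp; ring1) | field_simp)

theorem ll_apply (a : Zs k) {c : F} (hc0 : c ≠ 0) (hc : c + σ c = 0) (x : V) : ll H vl a c x =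
    x + (c * B x (vl a) - B x (vl (ng a))) • vl a - (c⁻¹ * B x (vl (ng a)) + B x (vl a)) • vl (ng a) := by
  have hc' : -c⁻¹ + σ (-c⁻¹) = 0 := by
    have h1 : σ c = -c := by linear_combination hc
    rw [map_neg, map_inv₀, h1, inv_neg]; ring
  unfold ll
  rw [LinearEquiv.mul_apply, LinearEquiv.mul_apply, tt_apply H h a hc, tt_apply H h (ng a) hc', tt_apply H h a hc]
  simp only [H.add_left, H.sub_left, H.smul_left, f0 h, f1 h, f2 h, mul_zero, mul_one, sub_zero, add_zero, zero_add, zero_sub]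
  match_scalars
  all_goals (first | ring1 | (field_simp; ring1) | field_simp)

end roots

end Cfsg.Agent.Lib.UGen
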