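import Cfsg.Agent.Lib.UGenA

/-! Monomial elements and generation in unitary groups with a hyperbolic frame (helper38). -/

set_option autoImplicit false
set_option linter.unusedSectionVars false
set_option linter.unusedSimpArgs false

namespace Cfsg.Agent.Lib.UGen

open Module Cfsg.Agent.Lib.UnTrans Cfsg.Agent.Lib.PresBC Cfsg.Agent.Lib.PresSpMod Cfsg.Agent.Lib.ZsRot
open Cfsg.Agent.Lib.SpTrans (isom mem_isom)

variable {F V : Type*} [Field F] [AddCommGroup V] [Module F V] [FiniteDimensional F V] {σ : F →+* F} {B : V → V → F} {k : ℕ}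

section acts
variable (H : HS σ B) {vl : Zs k → V} (h : Fr B vl)
include H h

theorem nn_fix {a b : Zs k} (hab : ix a ≠ ix b) {t : F} (ht : t ≠ 0) {c : Zs k} (h1 : ix c ≠ ix a) (h2 : ix c ≠ ix b) :
    nn H vl a b t (vl c) = vl c := by
  rw [nn_apply H h hab ht, f3 h h1, f3 h h2, f4 h h1, f4 h h2]
  simp

theorem nn_wp {a b : Zs k} (hab : ix a ≠ ix b) {t : F} (ht : t ≠ 0) {x : V} (hx : Wp B vl x) : nn H vl a b t x = x := by
  rw [nn_apply H h hab ht, hx, hx, hx, hx]; simp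

theorem nn_b {a b : Zs k} (hab : ix a ≠ ix b) {t : F} (ht : t ≠ 0) : nn H vl a b t (vl b) = t • vl a := by
  rw [nn_apply H h hab ht, f1 h, f0 h, f3 h hab.symm, f4 h hab.symm]
  simp

theorem nn_a {a b : Zs k} (hab : ix a ≠ ix b) {t : F} (ht : t ≠ 0) : nn H vl a b t (vl a) = (-t⁻¹) • vl b := by
  rw [nn_apply H h hab ht, f1 h, f0 h, f3 h hab, f4 h hab]
  simp

theorem nn_nb {a b : Zs k} (hab : ix a ≠ ix b) {t : F} (ht : t ≠ 0) : nn H vl a b t (vl (ng b)) = (σ t)⁻¹ • vl (ng a) := by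
  rw [nn_apply H h hab ht, f2 h, f0 h, f5 h hab.symm, f6 h hab.symm]
  simp

theorem nn_na {a b : Zs k} (hab : ix a ≠ ix b) {t : F} (ht : t ≠ 0) : nn H vl a b t (vl (ng a)) = (-(σ t)) • vl (ng b) := by
  rw [nn_apply H h hab ht, f2 h, f0 h, f5 h hab, f6 h hab]
  simp

theorem hh_fix {a b : Zs k} (hab : ix a ≠ ix b) {t : F} (ht : t ≠ 0) {c : Zs k} (h1 : ix c ≠ ix a) (h2 : ix c ≠ ix b) :
    hh H vl a b t (vl c) = vl c := by
  rw [hh_apply H h hab ht, f3 h h1, f3 h h2, f4 h h1, f4 h h2]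
  simp

theorem hh_wp {a b : Zs k} (hab : ix a ≠ ix b) {t : F} (ht : t ≠ 0) {x : V} (hx : Wp B vl x) : hh H vl a b t x = x := by
  rw [hh_apply H h hab ht, hx, hx, hx, hx]; simp

theorem hh_b {a b : Zs k} (hab : ix a ≠ ix b) {t : F} (ht : t ≠ 0) : hh H vl a b t (vl b) = t⁻¹ • vl b := by
  rw [hh_apply H h hab ht, f1 h, f0 h, f3 h hab.symm, f4 h hab.symm]
  module

theorem hh_a {a b : Zs k} (hab : ix a ≠ ix b) {t : F} (ht : t ≠ 0) : hh H vl a b t (vl a) = t • vl a := by
  rw [hh_apply H h hab ht, f1 h, f0 h, f3 h hab, f4 h hab]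
  module

theorem hh_nb {a b : Zs k} (hab : ix a ≠ ix b) {t : F} (ht : t ≠ 0) : hh H vl a b t (vl (ng b)) = (σ t) • vl (ng b) := by
  rw [hh_apply H h hab ht, f2 h, f0 h, f5 h hab.symm, f6 h hab.symm]
  module

theorem hh_na {a b : Zs k} (hab : ix a ≠ ix b) {t : F} (ht : t ≠ 0) : hh H vl a b t (vl (ng a)) = (σ t)⁻¹ • vl (ng a) := by
  rw [hh_apply H h hab ht, f2 h, f0 h, f5 h hab, f6 h hab]
  module

theorem hh_diag {a b : Zs k} (hab : ix a ≠ ix b) {t : F} (ht : t ≠ 0) (c : Zs k) :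
    ∃ d : F, hh H vl a b t (vl c) = d • vl c := by
  by_cases h1 : ix c = ix a
  · rcases eq_or_ng h1 with rfl | rfl
    · exact ⟨_, hh_a H h hab ht⟩
    · exact ⟨_, hh_na H h hab ht⟩
  · by_cases h2 : ix c = ix b
    · rcases eq_or_ng h2 with rfl | rfl
      · exact ⟨_, hh_b H h hab ht⟩
      · exact ⟨_, hh_nb H h hab ht⟩
    · exact ⟨1, by rw [hh_fix H h hab ht h1 h2, one_smul]⟩

theorem ll_fix (a : Zs k) {c : F} (hc0 : c ≠ 0) (hc : c + σ c = 0) {b : Zs k} (h1 : ix b ≠ ix a) : ll H vl a c (vl b) = vl b := by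
  rw [ll_apply H h a hc0 hc, f3 h h1, f4 h h1]
  simp

theorem ll_wp (a : Zs k) {c : F} (hc0 : c ≠ 0) (hc : c + σ c = 0) {x : V} (hx : Wp B vl x) : ll H vl a c x = x := by
  rw [ll_apply H h a hc0 hc, hx, hx]
  simp

theorem ll_a (a : Zs k) {c : F} (hc0 : c ≠ 0) (hc : c + σ c = 0) : ll H vl a c (vl a) = (-c⁻¹) • vl (ng a) := by
  rw [ll_apply H h a hc0 hc, f0 h, f1 h]
  module

theorem ll_na (a : Zs k) {c : F} (hc0 : c ≠ 0) (hc : c + σ c = 0) : ll H vl a c (vl (ng a)) = c • vl a := by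
  rw [ll_apply H h a hc0 hc, f2 h, f0 h]
  module

end acts

/-- special isometries -/
def SI (B : V → V → F) : Subgroup (V ≃ₗ[F] V) where
  carrier := {g | g ∈ isom B ∧ LinearMap.det (g : V →ₗ[F] V) = 1}
  one_mem' := ⟨one_mem _, LinearMap.det_id⟩
  mul_mem' := by
    rintro a b ⟨ha, ha'⟩ ⟨hb, hb'⟩
    refine ⟨mul_mem ha hb, ?_⟩
    change LinearMap.det ((a : V →ₗ[F] V) * (b : V →ₗ[F] V)) = 1
    rw [map_mul, ha', hb', one_mul]
  inv_mem' := by
    rintro a ⟨ha, ha'⟩
    refine ⟨inv_mem ha, ?_⟩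
    have h1 : LinearMap.det ((a : V →ₗ[F] V) * ((a⁻¹ : V ≃ₗ[F] V) : V →ₗ[F] V)) = 1 := by
      have h2 : ((a : V →ₗ[F] V) * ((a⁻¹ : V ≃ₗ[F] V) : V →ₗ[F] V)) = LinearMap.id := by
        ext1 x
        change a (a.symm x) = _
        rw [LinearEquiv.apply_symm_apply]; rfl
      rw [h2, LinearMap.det_id]
    rw [map_mul, ha', one_mul] at h1
    exact h1

section mono

/-- monomial elements -/
def Mn (vl : Zs k → V) (π : Zs k → Zs k) (w : V ≃ₗ[F] V) : Prop := ∀ a, ∃ c : F, c ≠ 0 ∧ w (vl a) = c • vl (π a)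

variable {vl : Zs k → V}

omit [FiniteDimensional F V] in
theorem Mn.one : Mn vl id (1 : V ≃ₗ[F] V) := fun a => ⟨1, one_ne_zero, by rw [one_smul]; rfl⟩

omit [FiniteDimensional F V] in
theorem Mn.mul {π π' : Zs k → Zs k} {w w' : V ≃ₗ[F] V} (h : Mn vl π w) (h' : Mn vl π' w') : Mn vl (π ∘ π') (w * w') := by
  intro a
  obtain ⟨c, hc, h1⟩ := h' a
  obtain ⟨d, hd, h2⟩ := h (π' a)
  refine ⟨c * d, mul_ne_zero hc hd, ?_⟩
  rw [LinearEquiv.mul_apply, h1, map_smul, h2, smul_smul]; rfl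

omit [FiniteDimensional F V] in
theorem Mn.inv {π : Zs k → Zs k} {w : V ≃ₗ[F] V} (h : Mn vl π w) (a : Zs k) : ∃ c : F, c ≠ 0 ∧ w⁻¹ (vl (π a)) = c • vl a := by
  obtain ⟨c, hc, h1⟩ := h a
  refine ⟨c⁻¹, inv_ne_zero hc, ?_⟩
  have h2 : w⁻¹ (w (vl a)) = vl a := w.symm_apply_apply _
  rw [h1, map_smul] at h2
  rw [← h2, smul_smul, inv_mul_cancel₀ hc, one_smul]

omit [FiniteDimensional F V] in
theorem diag_conj {g w : V ≃ₗ[F] V} {π : Zs k → Zs k} (hw : Mn vl π w) {a : Zs k} {d : F} (h1 : g (vl a) = d • vl a) :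
    (w * g * w⁻¹) (vl (π a)) = d • vl (π a) := by
  obtain ⟨c, hc, h2⟩ := hw.inv a
  rw [LinearEquiv.mul_apply, LinearEquiv.mul_apply, h2, map_smul, h1]
  have h4 : w (w⁻¹ (vl (π a))) = vl (π a) := w.apply_symm_apply _
  rw [h2, map_smul] at h4
  rw [smul_comm, map_smul, map_smul, h4]

variable (H : HS σ B) (h : Fr B vl)

include H h

omit h in
theorem xx_SI (a b : Zs k) (t : F) : xx H vl a b t ∈ SI B := ⟨Eu_iso _ _ _ _, Eu_det _ _ _ _⟩
omit h in
theorem tt_SI (a : Zs k) (t : F) : tt H vl a t ∈ SI B := ⟨Eu_iso _ _ _ _, Eu_det _ _ _ _⟩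
omit h in
theorem nn_SI (a b : Zs k) (t : F) : nn H vl a b t ∈ SI B := mul_mem (mul_mem (xx_SI _ _ _ _) (xx_SI _ _ _ _)) (xx_SI _ _ _ _)
omit h in
theorem hh_SI (a b : Zs k) (t : F) : hh H vl a b t ∈ SI B := mul_mem (nn_SI _ _ _ _) (nn_SI _ _ _ _)
omit h in
theorem ll_SI (a : Zs k) (t : F) : ll H vl a t ∈ SI B := mul_mem (mul_mem (tt_SI _ _ _) (tt_SI _ _ _)) (tt_SI _ _ _)

theorem decomp (v : V) : Wp B vl (v - ∑ b, B v (vl (ng b)) • vl b) := by
  intro a
  rw [H.sub_left]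
  have : B (∑ b, B v (vl (ng b)) • vl b) (vl a) = B v (vl a) := by
    have h1 : ∀ s : Finset (Zs k), B (∑ b ∈ s, B v (vl (ng b)) • vl b) (vl a) =
        ∑ b ∈ s, B (B v (vl (ng b)) • vl b) (vl a) := by
      intro s
      classical
      induction s using Finset.induction_on with
      | empty => simp [H.zero_left]
      | insert b s hb ih => rw [Finset.sum_insert hb, Finset.sum_insert hb, H.add_left, ih]
    rw [h1, Finset.sum_eq_single (ng a)]
    · rw [H.smul_left, f2 h, ng_ng, mul_one]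
    · intro b _ hb
      rw [H.smul_left, h, if_neg (fun h2 => hb (by rw [h2, ng_ng])), mul_zero]
    · intro h2; exact absurd (Finset.mem_univ _) h2
  rw [this, sub_self]

theorem ext_frame {g g' : V ≃ₗ[F] V} (h1 : ∀ a, g (vl a) = g' (vl a)) (h2 : ∀ x, Wp B vl x → g x = g' x) :
    g = g' := by
  ext1 v
  have h3 := h2 _ (decomp H h v)
  rw [map_sub, map_sub, map_sum, map_sum] at h3
  have h4 : ∑ b, g (B v (vl (ng b)) • vl b) = ∑ b, g' (B v (vl (ng b)) • vl b) := by
    refine Finset.sum_congr rfl fun b _ => ?_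
    rw [map_smul, map_smul, h1]
  rw [h4] at h3
  exact sub_left_injective h3

theorem comm_frame {g g' : V ≃ₗ[F] V} (h1 : ∀ a, ∃ d : F, g (vl a) = d • vl a)
    (h1' : ∀ a, ∃ d : F, g' (vl a) = d • vl a) (h2 : ∀ x, Wp B vl x → g (g' x) = g' (g x)) : Commute g g' := by
  refine ext_frame H h (fun a => ?_) h2
  obtain ⟨d, hd⟩ := h1 a
  obtain ⟨d', hd'⟩ := h1' a
  rw [LinearEquiv.mul_apply, LinearEquiv.mul_apply, hd, hd', map_smul, map_smul, hd, hd', smul_comm]

/-- positive permutations -/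
theorem exists_perm (τ : Equiv.Perm (Fin k)) : ∃ w ∈ SI B, Mn vl (Sum.map τ τ) w ∧ ∀ x, Wp B vl x → w x = x := by
  refine Equiv.Perm.swap_induction_on τ ?_ ?_
  · refine ⟨1, one_mem _, ?_, fun _ _ => rfl⟩
    have : (Sum.map (⇑(1 : Equiv.Perm (Fin k))) (⇑(1 : Equiv.Perm (Fin k)))) = id := by
      funext a; rcases a with a | a <;> rfl
    rw [this]; exact Mn.one
  · rintro τ i j hij ⟨w, hw, h1, h2⟩
    have hab : ix (Sum.inl i : Zs k) ≠ ix (Sum.inl j : Zs k) := hij
    refine ⟨nn H vl (Sum.inl i) (Sum.inl j) 1 * w, mul_mem (nn_SI _ _ _ _) hw, ?_, fun x hx => ?_⟩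
    · have h3 : Mn vl (Sum.map (Equiv.swap i j) (Equiv.swap i j)) (nn H vl (Sum.inl i) (Sum.inl j) 1) := by
        rintro (l | l)
        · rw [Sum.map_inl]
          by_cases hl : l = i
          · subst hl
            rw [Equiv.swap_apply_left, nn_a H h hab one_ne_zero]
            exact ⟨_, neg_ne_zero.2 (inv_ne_zero one_ne_zero), rfl⟩
          · by_cases hl' : l = j
            · subst hl'
              rw [Equiv.swap_apply_right, nn_b H h hab one_ne_zero]
              exact ⟨_, one_ne_zero, rfl⟩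
            · rw [Equiv.swap_apply_of_ne_of_ne hl hl', nn_fix H h hab one_ne_zero (c := Sum.inl l) hl hl']
              exact ⟨1, one_ne_zero, by rw [one_smul]⟩
        · rw [Sum.map_inr]
          by_cases hl : l = i
          · subst hl
            rw [Equiv.swap_apply_left]
            have := nn_na H h hab one_ne_zero
            exact ⟨_, neg_ne_zero.2 (H.sigma_ne one_ne_zero), this⟩
          · by_cases hl' : l = j
            · subst hl'
              rw [Equiv.swap_apply_right]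
              have := nn_nb H h hab one_ne_zero
              exact ⟨_, inv_ne_zero (H.sigma_ne one_ne_zero), this⟩
            · rw [Equiv.swap_apply_of_ne_of_ne hl hl', nn_fix H h hab one_ne_zero (c := Sum.inr l) hl hl']
              exact ⟨1, one_ne_zero, by rw [one_smul]⟩
      have h4 := h3.mul h1
      have h5 : (Sum.map (⇑(Equiv.swap i j * τ)) (⇑(Equiv.swap i j * τ))) = (Sum.map (⇑(Equiv.swap i j)) (⇑(Equiv.swap i j))) ∘ (Sum.map (⇑τ) (⇑τ)) := by
        funext a; rcases a with a | a <;> rfl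
      rw [h5]; exact h4
    · rw [LinearEquiv.mul_apply, h2 x hx, nn_wp H h hab one_ne_zero hx]

omit H h in
/-- the rotation of indices -/
def rt (hn : 0 < k) (i : Fin k) : Fin k := if h : i.1 + 1 < k then ⟨i.1 + 1, h⟩ else ⟨0, hn⟩

omit H h in
theorem rt_inj (hn : 0 < k) : Function.Injective (rt hn) := by
  intro i j h
  have hi' := i.2
  have hj' := j.2
  apply Fin.ext
  unfold rt at h
  by_cases hi : i.1 + 1 < k <;> by_cases hj : j.1 + 1 < k
  · rw [dif_pos hi, dif_pos hj] at h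
    have := congrArg Fin.val h
    simp only at this; omega
  · rw [dif_pos hi, dif_neg hj] at h
    have := congrArg Fin.val h
    simp only at this; omega
  · rw [dif_neg hi, dif_pos hj] at h
    have := congrArg Fin.val h
    simp only at this; omega
  · omega

/-- the rotation -/
theorem exists_w (hn : 0 < k) : ∃ w ∈ SI B, Mn vl (ZsRot.rho hn) w ∧ ∀ x, Wp B vl x → w x = x := by
  obtain ⟨τ, hτ0, hτ⟩ := H.exists_tr0
  obtain ⟨w, hw, h1, h2⟩ := exists_perm H h (Equiv.ofBijective (rt hn) (Finite.injective_iff_bijective.1 (rt_inj hn)))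
  refine ⟨ll H vl (Sum.inl ⟨0, hn⟩) τ * w, mul_mem (ll_SI _ _ _) hw, ?_, fun x hx => ?_⟩
  · rintro (i | i)
    · obtain ⟨c, hc, h3⟩ := h1 (Sum.inl i)
      rw [LinearEquiv.mul_apply, h3, map_smul, Sum.map_inl, Equiv.ofBijective_apply]
      by_cases hi : i.1 + 1 < k
      · simp only [ZsRot.rho, rt, dif_pos hi]
        rw [ll_fix H h _ hτ0 hτ (b := Sum.inl ⟨i.1 + 1, hi⟩) (by simp [ix])]
        exact ⟨c, hc, rfl⟩
      · simp only [ZsRot.rho, rt, dif_neg hi]
        rw [ll_a H h _ hτ0 hτ, smul_smul]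
        exact ⟨_, mul_ne_zero hc (neg_ne_zero.2 (inv_ne_zero hτ0)), rfl⟩
    · obtain ⟨c, hc, h3⟩ := h1 (Sum.inr i)
      rw [LinearEquiv.mul_apply, h3, map_smul, Sum.map_inr, Equiv.ofBijective_apply]
      by_cases hi : i.1 + 1 < k
      · simp only [ZsRot.rho, rt, dif_pos hi]
        rw [ll_fix H h _ hτ0 hτ (b := Sum.inr ⟨i.1 + 1, hi⟩) (by simp [ix])]
        exact ⟨c, hc, rfl⟩
      · simp only [ZsRot.rho, rt, dif_neg hi]
        have := ll_na H h (Sum.inl ⟨0, hn⟩) hτ0 hτ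
        change ll H vl (Sum.inl ⟨0, hn⟩) τ (vl (Sum.inr ⟨0, hn⟩)) = _ at this
        rw [this, smul_smul]
        exact ⟨_, mul_ne_zero hc hτ0, rfl⟩
  · rw [LinearEquiv.mul_apply, h2 x hx, ll_wp H h _ hτ0 hτ hx]

omit H h in
theorem rho_surj (hn : 0 < k) : Function.Surjective (ZsRot.rho hn) := by
  intro a
  obtain ⟨j, hj, rfl⟩ := ps_surj hn a
  rcases j with _ | j
  · refine ⟨ps hn (2 * k - 1), ?_⟩
    rw [← ps_succ, show 2 * k - 1 + 1 = k + k by omega, ps_add, ps_n, ng_ng]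
  · exact ⟨ps hn j, (ps_succ hn j).symm⟩

/-- all transvections from root elements -/
theorem tgrp_le {K : Subgroup (V ≃ₗ[F] V)} (han : ∀ x, Wp B vl x → B x x = 0 → x = 0) (ht : ∀ a c, c + σ c = 0 → tt H vl a c ∈ K)
    (hx : ∀ a b, ix a ≠ ix b → ∀ t, xx H vl a b t ∈ K) (hy : ∀ a z, Wp B vl z → ∃ c, c + σ c + B z z = 0 ∧ Eu H (vl a) z c ∈ K) :
    tgrp H ⊤ ≤ K := by
  classical
  have h1 : ∀ a (u : V), B u (vl a) = 0 → ∀ c, c + σ c + B u u = 0 → Eu H (vl a) u c ∈ K := by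
    intro a u hu c hc
    have padd : ∀ u u' : V, B u (vl a) = 0 → B u' (vl a) = 0 → (∃ c, c + σ c + B u u = 0 ∧ Eu H (vl a) u c ∈ K) →
        (∃ c, c + σ c + B u' u' = 0 ∧ Eu H (vl a) u' c ∈ K) → ∃ c, c + σ c + B (u + u') (u + u') = 0 ∧ Eu H (vl a) (u + u') c ∈ K := by
      rintro u u' h1 h2 ⟨c, hc, h3⟩ ⟨c', hc', h4⟩
      refine ⟨c + c' - B u' u, ?_, ?_⟩
      · rw [H.add_left, H.add_right, H.add_right, map_sub, map_add, ← H.herm]
        linear_combination hc + hc'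
      · rw [← Eu_mul H (f0 h a) h1 hc h2 hc']
        exact mul_mem h3 h4
    have h2 : ∀ s : Finset (Zs k), B (∑ b ∈ s, B u (vl (ng b)) • vl b) (vl a) = 0 ∧
        ∃ c, c + σ c + B (∑ b ∈ s, B u (vl (ng b)) • vl b) (∑ b ∈ s, B u (vl (ng b)) • vl b) = 0 ∧ Eu H (vl a) (∑ b ∈ s, B u (vl (ng b)) • vl b) c ∈ K := by
      intro s
      induction s using Finset.induction_on with
      | empty => rw [Finset.sum_empty]; exact ⟨H.zero_left _, 0, by rw [H.zero_left, map_zero]; ring, by rw [Eu_zero]; exact one_mem _⟩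
      | insert b s hb ih =>
        have h3 : B (B u (vl (ng b)) • vl b) (vl a) = 0 := by
          rw [H.smul_left, h]
          by_cases h4 : a = ng b
          · rw [← h4, hu, zero_mul]
          · rw [if_neg h4, mul_zero]
        rw [Finset.sum_insert hb]
        refine ⟨by rw [H.add_left, h3, ih.1, add_zero], padd _ _ h3 ih.1 ?_ ih.2⟩
        by_cases h4 : ix a = ix b
        · rcases eq_or_ng h4 with h5 | h5
          · refine ⟨σ (B u (vl (ng b))) - B u (vl (ng b)), ?_, ?_⟩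
            · rw [H.smul_left, H.smul_right, f0 h, map_sub, H.inv]; ring
            · have : Eu H (vl a) (B u (vl (ng b)) • vl b) (σ (B u (vl (ng b))) - B u (vl (ng b))) = 1 := by
                ext x
                rw [Eu_apply H (f0 h a) h3 (by rw [H.smul_left, H.smul_right, f0 h, map_sub, H.inv]; ring), H.smul_right, ← h5]
                change _ = x
                module
              rw [this]; exact one_mem _
          · have h6 : B u (vl (ng b)) = 0 := by rw [← h5, hu]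
            rw [h6, zero_smul]
            exact ⟨0, by rw [H.zero_left, map_zero]; ring, by rw [Eu_zero]; exact one_mem _⟩
        · refine ⟨0, by rw [H.smul_left, H.smul_right, f0 h, map_zero]; ring, ?_⟩
          have h6 := hx a (ng b) (by rw [ix_ng]; exact h4) (-(σ (B u (vl (ng b)))))
          unfold xx at h6
          rwa [ng_ng, map_neg, H.inv, neg_neg] at h6
    have h3 := h2 Finset.univ
    have h4 := decomp H h u
    obtain ⟨c', hc', h5⟩ := padd _ _ h3.1 (h4 a) h3.2 (hy a _ h4)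
    rw [add_sub_cancel] at hc' h5
    have hcc : c - c' + σ (c - c') = 0 := by rw [map_sub]; linear_combination hc - hc'
    have h6 := Eu_mul H (f0 h a) hu hc' (H.zero_left (vl a)) (c' := c - c') (by rw [H.zero_left, add_zero]; exact hcc)
    rw [add_zero, H.zero_left, sub_zero, add_sub_cancel] at h6
    rw [← h6]
    exact mul_mem h5 (ht a _ hcc)
  rw [tgrp, Subgroup.closure_le]
  rintro _ ⟨z, -, hz, c0, hc0, rfl⟩
  by_cases hz0 : z = 0
  · subst hz0
    rw [SetLike.mem_coe, tv_zero_left]; exact one_mem _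
  have htv : tv H z hz c0 hc0 = Eu H z 0 c0 := by
    ext x
    rw [tv_apply, Eu_apply H hz (H.zero_left _) (by rw [H.zero_left, add_zero]; exact hc0), H.zero_right]
    module
  rw [SetLike.mem_coe, htv]
  obtain ⟨a, ha⟩ : ∃ a, B z (vl (ng a)) ≠ 0 := by
    by_contra h2
    push Not at h2
    exact hz0 (han z (fun a => by have := h2 (ng a); rwa [ng_ng] at this) hz)
  set l := B z (vl (ng a)) with hl
  set z' : V := l⁻¹ • z with hz'
  clear_value z'
  have hzz' : z = l • z' := by rw [hz', smul_smul, mul_inv_cancel₀ ha, one_smul]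
  have hz'a : B z' (vl (ng a)) = 1 := by rw [hz', H.smul_left, ← hl, inv_mul_cancel₀ ha]
  have hz'z' : B z' z' = 0 := by rw [hz', H.smul_left, H.smul_right, hz]; ring
  rw [hzz', Eu_smul H ha, smul_zero]
  have hcc : l * σ l * c0 + σ (l * σ l * c0) = 0 := by
    rw [map_mul, map_mul, H.inv]; linear_combination (l * σ l) * hc0
  set d := B z' (vl a) with hd
  set y : V := z' - vl a - d • vl (ng a) with hy'
  have hya : B y (vl (ng a)) = 0 := by
    rw [hy', H.sub_left, H.sub_left, H.smul_left, hz'a, f1 h, f0 h]; ring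
  have hya' : B y (vl a) = 0 := by
    rw [hy', H.sub_left, H.sub_left, H.smul_left, f2 h, f0 h, ← hd]; ring
  have hdy : d + σ d + B y y = 0 := by
    have h3 : z' = vl a + d • vl (ng a) + y := by rw [hy']; abel
    have h4 := hz'z'
    rw [h3] at h4
    simp only [H.add_left, H.add_right, H.smul_left, H.smul_right, f0 h, f1 h, f2 h, hya, hya', H.symm_zero hya, H.symm_zero hya'] at h4
    linear_combination h4
  have hg : Eu H (vl (ng a)) y d (vl a) = z' := by
    rw [Eu_apply H (f0 h _) hya hdy, f1 h, H.symm_zero hya', hy']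
    module
  have hgK := h1 (ng a) y hya d hdy
  have hconj := Eu_conj H (Eu_iso H (vl (ng a)) y d) (vl a) 0 (l * σ l * c0)
  rw [hg, map_zero] at hconj
  rw [← hconj]
  exact mul_mem (mul_mem hgK (ht a _ hcc)) (inv_mem hgK)

end mono

end Cfsg.Agent.Lib.UGen
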