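import Cfsg.Agent.Lib.UGenB

/-! Two-generation of special unitary groups (helper38). -/

set_option autoImplicit false
set_option linter.unusedSectionVars false
set_option linter.unusedSimpArgs false

namespace Cfsg.Agent.Lib.UGen

open Module Cfsg.Agent.Lib.UnTrans Cfsg.Agent.Lib.PresBC Cfsg.Agent.Lib.PresSpMod Cfsg.Agent.Lib.ZsRot
open Cfsg.Agent.Lib.SpTrans (isom mem_isom)

/-- additive subgroups stable under the square of a generator -/
theorem add_top {K : Type*} [Field K] [Finite K] {μ : Kˣ} (hμ : ∀ x, x ∈ Subgroup.zpowers μ) (S : AddSubgroup K) (h1 : (1 : K) ∈ S)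
    (h2 : ∀ x ∈ S, (μ : K) ^ 2 * x ∈ S) (x : K) : x ∈ S := by
  let R : Subring K :=
    { carrier := {r | ∀ s ∈ S, r * s ∈ S}
      mul_mem' := fun {r r'} hr hr' s hs => by rw [mul_assoc]; exact hr _ (hr' _ hs)
      one_mem' := fun s hs => by rwa [one_mul]
      add_mem' := fun {r r'} hr hr' s hs => by rw [add_mul]; exact add_mem (hr _ hs) (hr' _ hs)
      zero_mem' := fun s hs => by rw [zero_mul]; exact zero_mem _
      neg_mem' := fun {r} hr s hs => by rw [neg_mul]; exact neg_mem (hr _ hs) }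
  have hsq : ∀ y : K, y ^ 2 ∈ R := by
    intro y
    by_cases hy : y = 0
    · rw [hy, zero_pow two_ne_zero]; exact zero_mem _
    · have h3 := hμ (Units.mk0 y hy)
      rw [← mem_powers_iff_mem_zpowers, Submonoid.mem_powers_iff] at h3
      obtain ⟨j, hj⟩ := h3
      have h4 : (μ : K) ^ j = y := by
        have := congrArg Units.val hj
        rwa [Units.val_pow_eq_pow_val, Units.val_mk0] at this
      have h5 : y ^ 2 = ((μ : K) ^ 2) ^ j := by rw [← h4]; ring
      rw [h5]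
      exact pow_mem (show (μ : K) ^ 2 ∈ R from h2) j
  have hR : x ∈ R := by
    by_cases hc : (2 : K) = 0
    · haveI := Fintype.ofFinite K
      haveI : CharP K 2 := CharTwo.of_one_ne_zero_of_two_eq_zero one_ne_zero hc
      obtain ⟨y, hy⟩ := FiniteField.isSquare_of_char_two (ringChar.eq K 2).symm.symm x
      rw [hy, ← pow_two]; exact hsq y
    · have h3 : x = ((x + 1) / 2) ^ 2 - ((x - 1) / 2) ^ 2 := by field_simp; ring
      rw [h3]
      exact sub_mem (hsq _) (hsq _)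
  have := hR 1 h1
  rwa [mul_one] at this

variable {F V : Type*} [Field F] [AddCommGroup V] [Module F V] [FiniteDimensional F V] {σ : F →+* F} {B : V → V → F} {k : ℕ}

section
variable (H : HS σ B) {vl : Zs k → V} (h : Fr B vl)
include H

/-- trace zero elements -/
theorem exists_diff {c : F} (hc : c + σ c = 0) : ∃ t, t - σ t = c := by
  obtain ⟨a, ha⟩ := H.exists_trace 1 (map_one σ)
  refine ⟨c * a, ?_⟩
  rw [map_mul]
  linear_combination c * ha - σ a * hc

include h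

/-- all short root elements from one and the rotation -/
theorem short_all (hn : 1 < k) {K : Subgroup (V ≃ₗ[F] V)} {w : V ≃ₗ[F] V} (hwK : w ∈ K) (hwO : w ∈ isom B) (hwm : Mn vl (ZsRot.rho (by omega)) w)
    (h0 : ∀ t, xx H vl (ps (by omega) 0) (ps (by omega) 1) t ∈ K) (a b : Zs k) (hab : ix a ≠ ix b) (t : F) : xx H vl a b t ∈ K := by
  have hn0 : 0 < k := by omega
  have key := root_span hn0 (fun a b => ix a ≠ ix b → ∀ t : F, xx H vl a (ng b) t ∈ K) ?_ ?_ ?_ (fun _ t => by rw [ng_ng]; exact h0 t) hn a (ng b)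
    (by rwa [ix_ng]) (by rwa [ix_ng]) t
  · rwa [ng_ng] at key
  · intro a b h1 hab t
    rw [xx_symm H h (by rwa [ix_ng]), ng_ng]
    exact h1 hab.symm _
  · intro a b c hab hbc hac h1 h2 _ t
    have h3 := xx_comm H h (a := a) (b := ng b) (c := ng c) (by rwa [ix_ng]) (by rwa [ix_ng, ix_ng]) (by rwa [ix_ng]) t 1
    rw [mul_one] at h3
    have h4 : xx H vl a (ng c) t = xx H vl a (ng b) t * xx H vl (ng b) (ng c) 1 * (xx H vl a (ng b) t)⁻¹ * (xx H vl (ng b) (ng c) 1)⁻¹ := by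
      rw [h3, mul_inv_cancel_right]
    rw [h4]
    exact mul_mem (mul_mem (mul_mem (h1 hab _) (h2 (by rwa [ix_ng]) _)) (inv_mem (h1 hab _))) (inv_mem (h2 (by rwa [ix_ng]) _))
  · intro a b hab h1 _ t
    obtain ⟨c, hc, h2⟩ := hwm a
    obtain ⟨d, hd, h3⟩ := hwm b
    have hsd := H.sigma_ne hd
    have h4 := xx_conj H hwO (a := a) (b := ng b) (a' := ZsRot.rho hn0 a) (b' := ng (ZsRot.rho hn0 b)) h2 hc (d := d) (by rw [ng_ng, ng_ng]; exact h3)
      (t * c⁻¹ * (σ d)⁻¹)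
    have h5 : t * c⁻¹ * (σ d)⁻¹ * c * σ d = t := by field_simp
    rw [h5] at h4
    rw [← h4]
    exact mul_mem (mul_mem hwK (h1 hab _)) (inv_mem hwK)

/-- long root elements from short ones -/
theorem long_of_short {K : Subgroup (V ≃ₗ[F] V)} {a b : Zs k} (hab : ix a ≠ ix b) (h1 : ∀ t, xx H vl a b t ∈ K) (h2 : ∀ t, xx H vl a (ng b) t ∈ K)
    {c : F} (hc : c + σ c = 0) : tt H vl a c ∈ K := by
  obtain ⟨t, ht⟩ := exists_diff H hc
  have hab' : ix a ≠ ix (ng b) := by rwa [ix_ng]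
  have e1 := Eu_mul H (f0 h a) (xx_c1 H h hab 1) (xx_c2 H h b 1) (xx_c1 H h hab' t) (xx_c2 H h (ng b) t)
  have e2 := Eu_mul H (f0 h a) (xx_c1 H h hab' t) (xx_c2 H h (ng b) t) (xx_c1 H h hab 1) (xx_c2 H h b 1)
  have c1 : B ((-(σ 1)) • vl (ng b) + (-(σ t)) • vl (ng (ng b))) (vl a) = 0 := by
    rw [H.add_left, xx_c1 H h hab 1, xx_c1 H h hab' t, add_zero]
  have e3 : Eu H (vl a) ((-(σ t)) • vl (ng (ng b)) + (-(σ 1)) • vl (ng b)) (0 + 0 - B ((-(σ 1)) • vl (ng b)) ((-(σ t)) • vl (ng (ng b)))) * tt H vl a c =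
      Eu H (vl a) ((-(σ 1)) • vl (ng b) + (-(σ t)) • vl (ng (ng b))) (0 + 0 - B ((-(σ t)) • vl (ng (ng b))) ((-(σ 1)) • vl (ng b))) := by
    unfold tt
    rw [Eu_mul H (f0 h a) (by rw [add_comm]; exact c1) (by
      simp only [H.add_left, H.add_right, H.smul_left, H.smul_right, f0 h, f1 h, f2 h, ng_ng, map_neg, map_one, map_sub, map_mul, H.inv, map_zero, map_add]
      ring) (H.zero_left _) (by rw [H.zero_left, add_zero]; exact hc)]
    congr 1
    · rw [add_zero, add_comm]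
    · simp only [H.zero_left, H.smul_left, H.smul_right, f1 h, f2 h, ng_ng, map_neg, map_one, H.inv, ← ht]
      ring
  rw [← e1, ← e2] at e3
  change xx H vl a (ng b) t * xx H vl a b 1 * tt H vl a c = xx H vl a b 1 * xx H vl a (ng b) t at e3
  have e4 : tt H vl a c = (xx H vl a (ng b) t * xx H vl a b 1)⁻¹ * (xx H vl a b 1 * xx H vl a (ng b) t) := by
    rw [← e3, inv_mul_cancel_left]
  rw [e4]
  exact mul_mem (inv_mem (mul_mem (h2 _) (h1 _))) (mul_mem (h1 _) (h2 _))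

/-- even dimension -/
theorem gen_even [Finite F] (hn : 1 < k) (hW : ∀ x, Wp B vl x → x = 0) : ∃ a b, a ∈ SI B ∧ b ∈ SI B ∧ tgrp H ⊤ ≤ Subgroup.closure {a, b} := by
  classical
  have hn0 : 0 < k := by omega
  obtain ⟨l, hl⟩ := IsCyclic.exists_generator (α := Fˣ)
  have hl0 : (l : F) ≠ 0 := l.ne_zero
  have hpow : ∀ y : F, y ≠ 0 → ∃ j : ℕ, (l : F) ^ j = y := by
    intro y hy
    have h3 := hl (Units.mk0 y hy)
    rw [← mem_powers_iff_mem_zpowers, Submonoid.mem_powers_iff] at h3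
    obtain ⟨j, hj⟩ := h3
    refine ⟨j, ?_⟩
    have := congrArg Units.val hj
    rwa [Units.val_pow_eq_pow_val, Units.val_mk0] at this
  have hls : σ (l : F) ≠ l := by
    intro h1
    obtain ⟨a, ha⟩ := H.ne
    apply ha
    by_cases ha0 : a = 0
    · rw [ha0, map_zero]
    · obtain ⟨j, rfl⟩ := hpow a ha0
      rw [map_pow, h1]
  have hl1 : (l : F) ≠ 1 := by
    intro h1; apply hls; rw [h1, map_one]
  have hl2 : (l : F) ^ 2 ≠ 1 := by
    intro h1
    have h2 : ((l : F) - 1) * (l + 1) = 0 := by linear_combination h1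
    rcases mul_eq_zero.1 h2 with h3 | h3
    · exact hl1 (sub_eq_zero.1 h3)
    · apply hls
      rw [eq_neg_of_add_eq_zero_left h3, map_neg, map_one]
  have hsl := H.sigma_ne hl0
  obtain ⟨w, hwS, hwm, -⟩ := exists_w H h hn0
  let a0 : Zs k := Sum.inl ⟨0, hn0⟩
  let a1 : Zs k := Sum.inl ⟨1, hn⟩
  let am : Zs k := Sum.inl ⟨k - 1, by omega⟩
  have i01 : ix a0 ≠ ix a1 := by simp [a0, a1, ix]
  have r0 : ZsRot.rho hn0 a0 = a1 := by
    show ZsRot.rho hn0 (Sum.inl ⟨0, hn0⟩) = _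
    simp only [ZsRot.rho]; rw [dif_pos (by omega)]
  have rl : ZsRot.rho hn0 (ng am) = a0 := by
    show ZsRot.rho hn0 (Sum.inr ⟨k - 1, _⟩) = _
    simp only [ZsRot.rho]; rw [dif_neg (by omega)]
  have ps0 : ps hn0 0 = a0 := rfl
  have ps1 : ps hn0 1 = a1 := ps_lt hn0 hn
  set g := hh H vl a0 a1 (l : F) with hg
  have hgS : g ∈ SI B := hh_SI H _ _ _
  set g' := w * g * w⁻¹ with hg'
  have hg'S : g' ∈ SI B := mul_mem (mul_mem hwS hgS) (inv_mem hwS)
  obtain ⟨χ, hχ, hχ0, hχl⟩ : ∃ χ : F, g' (vl a0) = χ • vl a0 ∧ χ ≠ 0 ∧ χ ≠ l := by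
    by_cases hk : k = 2
    · have e1 : am = a1 := by
        show Sum.inl _ = Sum.inl _
        congr 1
        apply Fin.ext
        show k - 1 = 1
        omega
      refine ⟨σ l, ?_, hsl, hls⟩
      have := diag_conj hwm (hh_nb H h i01 hl0)
      rw [← e1, rl] at this
      rw [hg', hg, ← e1]
      exact this
    · refine ⟨1, ?_, one_ne_zero, hl1.symm⟩
      have e1 : g (vl (ng am)) = (1 : F) • vl (ng am) := by
        rw [one_smul, hg]
        apply hh_fix H h i01 hl0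
        · rw [ix_ng]; intro h1
          have : k - 1 = 0 := congrArg Fin.val h1
          omega
        · rw [ix_ng]; intro h1
          have : k - 1 = 1 := congrArg Fin.val h1
          omega
      have := diag_conj hwm e1
      rwa [rl] at this
  have hg'n1 : g' (vl (ng a1)) = (σ (l : F))⁻¹ • vl (ng a1) := by
    have := diag_conj hwm (hh_na H h i01 hl0)
    rwa [rho_ng, r0] at this
  set X := fun t : F => xx H vl a0 a1 t with hX
  have hXadd : ∀ s t, X s * X t = X (s + t) := fun s t => xx_add H h i01 s t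
  have hXinv : ∀ t, (X t)⁻¹ = X (-t) := fun t => xx_inv H h i01 t
  have hX0 : X 0 = 1 := xx_zero H _ _
  have gX : ∀ t, g * X t * g⁻¹ = X ((l : F) ^ 2 * t) := by
    intro t
    have := xx_conj H hgS.1 (hh_a H h i01 hl0) hl0 (hh_nb H h i01 hl0) t
    rw [H.inv] at this
    show g * xx H vl a0 a1 t * g⁻¹ = _
    rw [this]
    show xx H vl a0 a1 _ = xx H vl a0 a1 _
    congr 1
    ring
  have g'X : ∀ t, g' * X t * g'⁻¹ = X (χ * (l : F)⁻¹ * t) := by
    intro t
    have := xx_conj H hg'S.1 hχ hχ0 hg'n1 t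
    rw [map_inv₀, H.inv] at this
    show g' * xx H vl a0 a1 t * g'⁻¹ = _
    rw [this]
    show xx H vl a0 a1 _ = xx H vl a0 a1 _
    congr 1
    ring
  have hgd : ∀ a, ∃ d : F, g (vl a) = d • vl a := hh_diag H h i01 hl0
  have hg'd : ∀ a, ∃ d : F, g' (vl a) = d • vl a := by
    intro a
    obtain ⟨b, rfl⟩ := rho_surj hn0 a
    obtain ⟨d, hd⟩ := hgd b
    exact ⟨d, diag_conj hwm hd⟩
  have c1 : Commute g g' := comm_frame H h hgd hg'd (fun x hx => by rw [hW x hx]; simp)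
  refine ⟨g, X 1 * w, hgS, mul_mem (xx_SI H _ _ _) hwS, ?_⟩
  set K := Subgroup.closure {g, X 1 * w} with hK
  have hgK : g ∈ K := Subgroup.subset_closure (Or.inl rfl)
  have hBK : X 1 * w ∈ K := Subgroup.subset_closure (Or.inr rfl)
  set c : F := 1 - χ * (l : F)⁻¹ with hc
  have hc0 : c ≠ 0 := by
    rw [hc, sub_ne_zero]
    intro h1
    apply hχl
    rw [eq_mul_inv_iff_mul_eq₀ hl0, one_mul] at h1
    exact h1.symm
  have k1 : X c * g' ∈ K := by
    have h1 := mul_mem (mul_mem hBK hgK) (inv_mem hBK)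
    have e1 : X 1 * w * g * (X 1 * w)⁻¹ = X c * g' := by
      calc X 1 * w * g * (X 1 * w)⁻¹ = X 1 * (g' * (X 1)⁻¹ * g'⁻¹) * g' := by rw [hg']; group
        _ = _ := by
          rw [hXinv, g'X, hXadd, hc]
          congr 2; ring
    rwa [e1] at h1
  have k2 : X ((l : F) ^ 2 * c - c) ∈ K := by
    have h1 := mul_mem (mul_mem (mul_mem hgK k1) (inv_mem hgK)) (inv_mem k1)
    have e1 : g * (X c * g') * g⁻¹ * (X c * g')⁻¹ = X ((l : F) ^ 2 * c - c) := by
      calc g * (X c * g') * g⁻¹ * (X c * g')⁻¹ = (g * X c * g⁻¹) * (g * g' * g⁻¹ * g'⁻¹) * (X c)⁻¹ := by group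
        _ = _ := by rw [c1.eq, mul_inv_cancel_right, mul_inv_cancel, mul_one, gX, hXinv, hXadd, ← sub_eq_add_neg]
    rwa [e1] at h1
  have k3 : ∀ t, X t ∈ K := by
    intro t
    set s : F := (l : F) ^ 2 * c - c with hs
    have hs0 : s ≠ 0 := by
      have : s = ((l : F) ^ 2 - 1) * c := by rw [hs]; ring
      rw [this]
      exact mul_ne_zero (sub_ne_zero.2 hl2) hc0
    let S : AddSubgroup F :=
      { carrier := {r | X (r * s) ∈ K}
        zero_mem' := by show X (0 * s) ∈ K; rw [zero_mul, hX0]; exact one_mem _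
        add_mem' := fun {a b} ha hb => by
          show X ((a + b) * s) ∈ K
          rw [add_mul, ← hXadd]; exact mul_mem ha hb
        neg_mem' := fun {a} ha => by
          show X (-a * s) ∈ K
          rw [neg_mul, ← hXinv]; exact inv_mem ha }
    have h1 := add_top hl S (by show X (1 * s) ∈ K; rw [one_mul]; exact k2) (fun r hr => by
      show X ((l : F) ^ 2 * r * s) ∈ K
      rw [mul_assoc, ← gX]
      exact mul_mem (mul_mem hgK hr) (inv_mem hgK)) (t / s)
    change X (t / s * s) ∈ K at h1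
    rwa [div_mul_cancel₀ _ hs0] at h1
  have k4 : w ∈ K := by
    have := mul_mem (inv_mem (k3 1)) hBK
    rwa [inv_mul_cancel_left] at this
  have k5 := short_all H h hn k4 hwS.1 hwm (by rw [ps0, ps1]; exact k3)
  refine tgrp_le H h (fun x hx _ => hW x hx) ?_ k5 ?_
  · intro a c hc
    obtain ⟨b, hb⟩ : ∃ b : Zs k, ix a ≠ ix b := by
      by_cases h1 : ix a = ⟨0, hn0⟩
      · exact ⟨a1, by rw [h1]; simp [a1, ix]⟩
      · exact ⟨a0, h1⟩
    exact long_of_short H h hb (k5 a b hb) (k5 a (ng b) (by rwa [ix_ng])) hc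
  · intro a z hz
    rw [hW z hz]
    exact ⟨0, by rw [H.zero_left, map_zero]; ring, by rw [Eu_zero]; exact one_mem _⟩

/-- odd dimension at least five -/
theorem gen_odd [Finite F] (hn : 1 < k) {z0 : V} (hz0 : Wp B vl z0) (hz1 : B z0 z0 = 1) (hW : ∀ x, Wp B vl x → ∃ r : F, x = r • z0) :
    ∃ a b, a ∈ SI B ∧ b ∈ SI B ∧ tgrp H ⊤ ≤ Subgroup.closure {a, b} := by
  classical
  have hn0 : 0 < k := by omega
  obtain ⟨l, hl⟩ := IsCyclic.exists_generator (α := Fˣ)
  have hl0 : (l : F) ≠ 0 := l.ne_zero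
  have hpow : ∀ y : F, y ≠ 0 → ∃ j : ℕ, (l : F) ^ j = y := by
    intro y hy
    have h3 := hl (Units.mk0 y hy)
    rw [← mem_powers_iff_mem_zpowers, Submonoid.mem_powers_iff] at h3
    obtain ⟨j, hj⟩ := h3
    refine ⟨j, ?_⟩
    have := congrArg Units.val hj
    rwa [Units.val_pow_eq_pow_val, Units.val_mk0] at this
  have hls : σ (l : F) ≠ l := by
    intro h1
    obtain ⟨a, ha⟩ := H.ne
    apply ha
    by_cases ha0 : a = 0
    · rw [ha0, map_zero]
    · obtain ⟨j, rfl⟩ := hpow a ha0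
      rw [map_pow, h1]
  have hl1 : (l : F) ≠ 1 := by
    intro h1; apply hls; rw [h1, map_one]
  have hsl := H.sigma_ne hl0
  have hsl1 : σ (l : F) ≠ 1 := by
    intro h1
    apply hl1
    rw [← H.inv (l : F), h1, map_one]
  obtain ⟨w, hwS, hwm, hwW⟩ := exists_w H h hn0
  have hwz : w⁻¹ z0 = z0 := by
    conv_lhs => rw [← hwW z0 hz0]
    exact w.symm_apply_apply _
  let a0 : Zs k := Sum.inl ⟨0, hn0⟩
  let am : Zs k := Sum.inl ⟨k - 1, by omega⟩
  have i0m : ix a0 ≠ ix am := by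
    intro h1
    have : 0 = k - 1 := congrArg Fin.val h1
    omega
  have rl : ZsRot.rho hn0 (ng am) = a0 := by
    show ZsRot.rho hn0 (Sum.inr ⟨k - 1, _⟩) = _
    simp only [ZsRot.rho]; rw [dif_neg (by omega)]
  have ps0 : ps hn0 0 = a0 := rfl
  set g := hh H vl a0 am (l : F) with hg
  have hgS : g ∈ SI B := hh_SI H _ _ _
  have hgz : g z0 = z0 := hh_wp H h i0m hl0 hz0
  have hga : g (vl a0) = (l : F) • vl a0 := hh_a H h i0m hl0
  set g' := w * g * w⁻¹ with hg'
  have hg'S : g' ∈ SI B := mul_mem (mul_mem hwS hgS) (inv_mem hwS)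
  have hg'z : g' z0 = z0 := by
    rw [hg', LinearEquiv.mul_apply, LinearEquiv.mul_apply, hwz, hgz, hwW z0 hz0]
  have hg'a : g' (vl a0) = σ (l : F) • vl a0 := by
    have := diag_conj hwm (hh_nb H h i0m hl0)
    rwa [rl] at this
  -- the root group
  set Y := fun r c : F => Eu H (vl a0) (r • z0) c with hY
  have cY1 : ∀ r : F, B (r • z0) (vl a0) = 0 := fun r => by rw [H.smul_left, hz0, mul_zero]
  have cY2 : ∀ {r c : F}, c + σ c + r * σ r = 0 → c + σ c + B (r • z0) (r • z0) = 0 := fun {r c} hc => by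
    rw [H.smul_left, H.smul_right, hz1]; linear_combination hc
  have Ymul : ∀ {r c r' c' : F}, c + σ c + r * σ r = 0 → c' + σ c' + r' * σ r' = 0 → Y r c * Y r' c' = Y (r + r') (c + c' - r' * σ r) := by
    intro r c r' c' h1 h2
    show Eu _ _ _ _ * Eu _ _ _ _ = Eu _ _ _ _
    rw [Eu_mul H (f0 h a0) (cY1 r) (cY2 h1) (cY1 r') (cY2 h2), ← add_smul]
    congr 1
    rw [H.smul_left, H.smul_right, hz1]; ring
  have Yinv : ∀ {r c : F}, c + σ c + r * σ r = 0 → (Y r c)⁻¹ = Y (-r) (σ c) := by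
    intro r c h1
    show (Eu _ _ _ _)⁻¹ = Eu _ _ _ _
    rw [Eu_inv H (f0 h a0) (cY1 r) (cY2 h1), neg_smul]
  have gY : ∀ r c, g * Y r c * g⁻¹ = Y (σ (l : F) * r) (l * σ l * c) := by
    intro r c
    show g * Eu _ _ _ _ * g⁻¹ = Eu _ _ _ _
    rw [Eu_conj H hgS.1, hga, Eu_smul H hl0, LinearEquiv.map_smul, hgz, smul_smul]
  have g'Y : ∀ r c, g' * Y r c * g'⁻¹ = Y ((l : F) * r) (l * σ l * c) := by
    intro r c
    show g' * Eu _ _ _ _ * g'⁻¹ = Eu _ _ _ _
    rw [Eu_conj H hg'S.1, hg'a, Eu_smul H hsl, LinearEquiv.map_smul, hg'z, smul_smul, H.inv, mul_comm (σ (l : F)) l]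
  have hgd : ∀ a, ∃ d : F, g (vl a) = d • vl a := hh_diag H h i0m hl0
  have hg'd : ∀ a, ∃ d : F, g' (vl a) = d • vl a := by
    intro a
    obtain ⟨b, rfl⟩ := rho_surj hn0 a
    obtain ⟨d, hd⟩ := hgd b
    exact ⟨d, diag_conj hwm hd⟩
  have c1 : Commute g g' := comm_frame H h hgd hg'd (fun x hx => by
    obtain ⟨r, rfl⟩ := hW x hx
    simp only [LinearEquiv.map_smul, hg'z, hgz])
  obtain ⟨c0, hc0⟩ := H.exists_trace (-1) (by rw [map_neg, map_one])
  have hc0' : c0 + σ c0 + 1 * σ 1 = 0 := by rw [map_one, hc0]; ring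
  refine ⟨g, Y 1 c0 * w, hgS, mul_mem ⟨Eu_iso _ _ _ _, Eu_det _ _ _ _⟩ hwS, ?_⟩
  set K := Subgroup.closure {g, Y 1 c0 * w} with hK
  have hgK : g ∈ K := Subgroup.subset_closure (Or.inl rfl)
  have hBK : Y 1 c0 * w ∈ K := Subgroup.subset_closure (Or.inr rfl)
  have cinv : ∀ {r c : F}, c + σ c + r * σ r = 0 → σ c + σ (σ c) + (-r) * σ (-r) = 0 := by
    intro r c h1
    rw [H.inv, map_neg]; linear_combination h1
  have cscal : ∀ {r c : F} (m : F), c + σ c + r * σ r = 0 → m * σ m * c + σ (m * σ m * c) + (m * r) * σ (m * r) = 0 := by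
    intro r c m h1
    rw [map_mul, map_mul, map_mul, H.inv]; linear_combination (m * σ m) * h1
  have cadd : ∀ {r c r' c' : F}, c + σ c + r * σ r = 0 → c' + σ c' + r' * σ r' = 0 →
      (c + c' - r' * σ r) + σ (c + c' - r' * σ r) + (r + r') * σ (r + r') = 0 := by
    intro r c r' c' h1 h2
    rw [map_sub, map_add, map_mul, map_add, H.inv]; linear_combination h1 + h2
  -- elements of `K`
  obtain ⟨c2, hc2, k1⟩ : ∃ c2, c2 + σ c2 + (1 - (l : F)) * σ (1 - l) = 0 ∧ Y (1 - l) c2 * g' ∈ K := by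
    have h1 := mul_mem (mul_mem hBK hgK) (inv_mem hBK)
    have h2 := cscal (l : F) (cinv hc0')
    refine ⟨c0 + l * σ l * σ c0 - ((l : F) * -1) * σ 1, ?_, ?_⟩
    · have := cadd hc0' h2
      rw [show (1 : F) + l * -1 = 1 - l by ring] at this
      exact this
    · have e1 : Y 1 c0 * w * g * (Y 1 c0 * w)⁻¹ = Y (1 - l) (c0 + l * σ l * σ c0 - ((l : F) * -1) * σ 1) * g' := by
        calc Y 1 c0 * w * g * (Y 1 c0 * w)⁻¹ = Y 1 c0 * (g' * (Y 1 c0)⁻¹ * g'⁻¹) * g' := by rw [hg']; group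
          _ = _ := by
            rw [Yinv hc0', g'Y, Ymul hc0' h2, show (1 : F) + l * -1 = 1 - l by ring]
      rwa [e1] at h1
  have k2 : ∃ c3, c3 + σ c3 + ((σ (l : F) - 1) * (1 - l)) * σ ((σ (l : F) - 1) * (1 - l)) = 0 ∧ Y ((σ (l : F) - 1) * (1 - l)) c3 ∈ K := by
    have h1 := mul_mem (mul_mem (mul_mem hgK k1) (inv_mem hgK)) (inv_mem k1)
    have h2 : l * σ l * c2 + σ (l * σ l * c2) + (σ (l : F) * (1 - l)) * σ (σ (l : F) * (1 - l)) = 0 := by
      rw [map_mul, map_mul, map_mul, H.inv]; linear_combination (l * σ l) * hc2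
    have e1 : g * (Y (1 - l) c2 * g') * g⁻¹ * (Y (1 - l) c2 * g')⁻¹ = Y (σ (l : F) * (1 - l)) (l * σ l * c2) * Y (-(1 - l)) (σ c2) := by
      calc g * (Y (1 - l) c2 * g') * g⁻¹ * (Y (1 - l) c2 * g')⁻¹ = (g * Y (1 - l) c2 * g⁻¹) * (g * g' * g⁻¹ * g'⁻¹) * (Y (1 - l) c2)⁻¹ := by group
        _ = _ := by rw [c1.eq, mul_inv_cancel_right, mul_inv_cancel, mul_one, gY, Yinv hc2]
    rw [e1, Ymul h2 (cinv hc2)] at h1
    have h3 := cadd h2 (cinv hc2)
    rw [show σ (l : F) * (1 - l) + -(1 - (l : F)) = (σ (l : F) - 1) * (1 - l) by ring] at h1 h3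
    exact ⟨_, h3, h1⟩
  let S : AddSubgroup F :=
    { carrier := {r | ∃ c, c + σ c + r * σ r = 0 ∧ Y r c ∈ K}
      zero_mem' := ⟨0, by rw [map_zero]; ring, by
        show Eu H (vl a0) ((0 : F) • z0) 0 ∈ K
        rw [zero_smul, Eu_zero]; exact one_mem _⟩
      add_mem' := by
        rintro r r' ⟨c, hc, h1⟩ ⟨c', hc', h2⟩
        exact ⟨_, cadd hc hc', by rw [← Ymul hc hc']; exact mul_mem h1 h2⟩
      neg_mem' := by
        rintro r ⟨c, hc, h1⟩
        exact ⟨_, cinv hc, by rw [← Yinv hc]; exact inv_mem h1⟩ }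
  have hS1 : ∀ r ∈ S, σ (l : F) * r ∈ S := by
    rintro r ⟨c, hc, h1⟩
    refine ⟨l * σ l * c, ?_, ?_⟩
    · rw [map_mul, map_mul, map_mul, H.inv]; linear_combination (l * σ l) * hc
    · rw [← gY]; exact mul_mem (mul_mem hgK h1) (inv_mem hgK)
  have hS2 : ∀ r, r ∈ S := by
    intro r
    by_cases hr : r = 0
    · rw [hr]; exact zero_mem _
    · set s : F := (σ (l : F) - 1) * (1 - l) with hs
      have hs0 : s ≠ 0 := mul_ne_zero (sub_ne_zero.2 hsl1) (sub_ne_zero.2 hl1.symm)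
      have hsS : s ∈ S := k2
      have h1 : ∀ j : ℕ, (σ (l : F)) ^ j * s ∈ S := by
        intro j
        induction j with
        | zero => rw [pow_zero, one_mul]; exact hsS
        | succ j ih => rw [pow_succ', mul_assoc]; exact hS1 _ ih
      obtain ⟨j, hj⟩ := hpow (σ (r / s)) (H.sigma_ne (div_ne_zero hr hs0))
      have h2 : (σ (l : F)) ^ j = r / s := by rw [← map_pow, hj, H.inv]
      have h3 := h1 j
      rwa [h2, div_mul_cancel₀ _ hs0] at h3
  have k3 : ∀ c, c + σ c = 0 → tt H vl a0 c ∈ K := by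
    intro c hc
    obtain ⟨t, ht⟩ := exists_diff H hc
    obtain ⟨d, hd, h1⟩ := hS2 1
    obtain ⟨d', hd', h2⟩ := hS2 (-t)
    have e1 := Ymul hd hd'
    have e2 := Ymul hd' hd
    have e3 : Y (1 + -t) (d + d' - -t * σ 1) = Y (-t + 1) (d' + d - 1 * σ (-t)) * tt H vl a0 c := by
      show Eu _ _ _ _ = Eu _ _ _ _ * Eu _ _ _ _
      rw [Eu_mul H (f0 h a0) (cY1 _) (cY2 (cadd hd' hd)) (H.zero_left _) (by rw [H.zero_left, add_zero]; exact hc)]
      congr 1
      · rw [add_zero, add_comm]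
      · rw [H.zero_left, ← ht, map_neg, map_one]; ring
    rw [← e1, ← e2] at e3
    have e4 : tt H vl a0 c = (Y (-t) d' * Y 1 d)⁻¹ * (Y 1 d * Y (-t) d') := by rw [e3, inv_mul_cancel_left]
    rw [e4]
    exact mul_mem (inv_mem (mul_mem h2 h1)) (mul_mem h1 h2)
  have k4 : ∀ r c, c + σ c + r * σ r = 0 → Y r c ∈ K := by
    intro r c hc
    obtain ⟨d, hd, h1⟩ := hS2 r
    have hcd : c - d + σ (c - d) = 0 := by rw [map_sub]; linear_combination hc - hd
    have e1 := Eu_mul H (f0 h a0) (cY1 r) (cY2 hd) (H.zero_left (vl a0)) (c' := c - d) (by rw [H.zero_left, add_zero]; exact hcd)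
    rw [add_zero, H.zero_left, sub_zero, add_sub_cancel] at e1
    show Eu H (vl a0) (r • z0) c ∈ K
    rw [← e1]
    exact mul_mem h1 (k3 _ hcd)
  have k5 : w ∈ K := by
    have := mul_mem (inv_mem (k4 1 c0 hc0')) hBK
    rwa [inv_mul_cancel_left] at this
  have k6 : ∀ a (r c : F), c + σ c + r * σ r = 0 → Eu H (vl a) (r • z0) c ∈ K := by
    intro a
    obtain ⟨j, -, rfl⟩ := ps_surj hn0 a
    induction j with
    | zero => exact k4
    | succ j ih =>
      intro r c hc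
      obtain ⟨d, hd, h5⟩ := hwm (ps hn0 j)
      rw [← ps_succ] at h5
      have hsd := H.sigma_ne hd
      have h6 := Eu_conj H hwS.1 (vl (ps hn0 j)) (((σ d)⁻¹ * r) • z0) ((d * σ d)⁻¹ * c)
      rw [h5, Eu_smul H hd, LinearEquiv.map_smul, hwW z0 hz0, smul_smul, ← mul_assoc, mul_inv_cancel₀ hsd, one_mul, ← mul_assoc,
        mul_inv_cancel₀ (mul_ne_zero hd hsd), one_mul] at h6
      rw [← h6]
      refine mul_mem (mul_mem k5 (ih _ _ ?_)) (inv_mem k5)
      rw [map_mul, map_mul, map_inv₀, map_inv₀, map_mul, H.inv]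
      field_simp
      linear_combination hc
  have k7 : ∀ a c, c + σ c = 0 → tt H vl a c ∈ K := by
    intro a c hc
    have := k6 a 0 c (by rw [map_zero]; linear_combination hc)
    rwa [zero_smul] at this
  refine tgrp_le H h ?_ k7 ?_ ?_
  · intro x hx hxx
    obtain ⟨r, rfl⟩ := hW x hx
    rw [H.smul_left, H.smul_right, hz1, mul_one] at hxx
    by_cases hr : r = 0
    · rw [hr, zero_smul]
    · exact absurd hxx (mul_ne_zero hr (H.sigma_ne hr))
  · intro a b hab t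
    obtain ⟨d, hd⟩ := H.exists_trace (-(t * σ t)) (by rw [map_neg, map_mul, H.inv]; ring)
    have hd' : d + σ d + t * σ t = 0 := by rw [hd]; ring
    have hg1 := k6 (ng b) t d hd'
    have hy1 := k6 a 1 c0 hc0'
    have hab' : ix a ≠ ix (ng b) := by rwa [ix_ng]
    have cT : B (t • z0) (vl (ng b)) = 0 := by rw [H.smul_left, hz0, mul_zero]
    have cT2 : d + σ d + B (t • z0) (t • z0) = 0 := by rw [H.smul_left, H.smul_right, hz1]; linear_combination hd'
    have h1 : Eu H (vl (ng b)) (t • z0) d (vl a) = vl a := by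
      rw [Eu_apply H (f0 h _) cT cT2, f4 h hab, H.smul_right, Wp.symm H hz0]
      module
    have h2 : Eu H (vl (ng b)) (t • z0) d ((1 : F) • z0) = (1 : F) • z0 + (-(σ t)) • vl (ng b) := by
      rw [one_smul, Eu_apply H (f0 h _) cT cT2, hz0, H.smul_right, hz1]
      module
    have h3 := Eu_conj H (Eu_iso H (vl (ng b)) (t • z0) d) (vl a) ((1 : F) • z0) c0
    rw [h1, h2] at h3
    have h4 := Eu_mul H (f0 h a) (u := (1 : F) • z0) (c := c0) (by rw [H.smul_left, hz0, mul_zero]) (by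
      rw [H.smul_left, H.smul_right, hz1]; linear_combination hc0') (xx_c1 H h hab t) (xx_c2 H h b t)
    have h5 : c0 + 0 - B ((-(σ t)) • vl (ng b)) ((1 : F) • z0) = c0 := by
      rw [H.smul_left, H.smul_right, Wp.symm H hz0]; ring
    rw [h5, ← h3] at h4
    have h6 : xx H vl a b t = (Eu H (vl a) ((1 : F) • z0) c0)⁻¹ * (Eu H (vl (ng b)) (t • z0) d * Eu H (vl a) ((1 : F) • z0) c0 * (Eu H (vl (ng b)) (t • z0) d)⁻¹) := by
      rw [← h4, inv_mul_cancel_left]; rfl
    rw [h6]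
    exact mul_mem (inv_mem hy1) (mul_mem (mul_mem hg1 hy1) (inv_mem hg1))
  · intro a z hz
    obtain ⟨r, rfl⟩ := hW z hz
    obtain ⟨d, hd⟩ := H.exists_trace (-(r * σ r)) (by rw [map_neg, map_mul, H.inv]; ring)
    refine ⟨d, by rw [H.smul_left, H.smul_right, hz1]; linear_combination hd, k6 a r d (by linear_combination hd)⟩

end

end Cfsg.Agent.Lib.UGen
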