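import Cfsg.Agent.Lib.UnSpec4
import Cfsg.Agent.Lib.SingerOrd
import Cfsg.Agent.Lib.SingerArith

set_option autoImplicit false

/-! Elements of `PSU_{2m}(q)` whose order involves a prime with `q²` of order `m`. -/

namespace Cfsg.Agent.Lib.UnSinger

open Module Polynomial Cfsg Cfsg.Agent.Lib.HermAlg Cfsg.Agent.Lib.ClUnitary Cfsg.Agent.Lib.HermMat Cfsg.Agent.Lib.UnSpec
open Cfsg.Agent.Lib.SingerOrd

universe u

variable {F : Type u} [Field F]

theorem eq_one_or_le [Finite F] {V : Type*} [AddCommGroup V] [Module F V] [FiniteDimensional F V] {r m : ℕ} [hr : Fact r.Prime]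
    (hrk : ∀ k, 0 < k → k < m → ¬ r ∣ Nat.card F ^ k - 1) (hr0 : (r : F) ≠ 0)
    {S : End F V} (hS : S ^ r = 1) (hd : finrank F V < m) : S = 1 := by
  by_contra hne
  have h1 := invariant_trivial (r := r) (S := S) (fun k h1 h2 => hrk k h1 (h2.trans hd)) hr0 hS hne
    (LinearMap.ker (S - 1)) (by
      intro u hu
      rw [LinearMap.mem_ker, LinearMap.sub_apply, Module.End.one_apply, sub_eq_zero] at hu ⊢
      rw [hu, hu])
  rcases h1 with h1 | h1
  · have h2 := dvd_of_fpf hS (⊤ : Submodule F V) (fun _ _ => trivial) (fun u _ hu => by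
      have : u ∈ LinearMap.ker (S - 1) := by
        rw [LinearMap.mem_ker, LinearMap.sub_apply, Module.End.one_apply, sub_eq_zero]; exact hu
      rw [h1] at this
      exact (Submodule.mem_bot F).1 this)
    rw [finrank_top] at h2
    refine hrk _ ?_ hd h2
    by_contra h0
    have h3 : finrank F V = 0 := by omega
    rw [Module.finrank_zero_iff] at h3
    exact hne (LinearMap.ext fun x => Subsingleton.elim _ _)
  · apply hne
    rw [LinearMap.ker_eq_top] at h1
    exact sub_eq_zero.1 h1

variable [Fintype F] {q : ℕ} (p : ℕ) [hp : Fact p.Prime] [CharP F p]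

include p in
/-- the primary case -/
theorem order_dvd_primary (hF : Fintype.card F = q ^ 2) {V : Type u} [AddCommGroup V] [Module F V] [FiniteDimensional F V]
    {B : V → V → F} (hB : IsHerm (frob hF) 1 B) (T : End F V) (hT : ∀ x y, B (T x) (T y) = B x y) (N : ℕ)
    (hN : T ^ (N + 1) = 1) (f : F[X]) (hf : Irreducible f) (k : ℕ) (hfk : aeval T (f ^ k) = 0) (hfm : f ∣ minpoly F T) :
    ∃ d i : ℕ, Odd d ∧ T ^ ((q ^ d + 1) * p ^ i) = 1 := by
  have hff : Fact (Irreducible f) := ⟨hf⟩
  have hfd : FiniteDimensional F (AdjoinRoot f) := (AdjoinRoot.powerBasis hf.ne_zero).finite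
  obtain ⟨τ, hτ, hτ1, hττ⟩ := local_star hB (frob_frob hF) T hT N hN f k hfk hfm
  obtain ⟨hodd, hτq⟩ := odd_of_star hF τ hτ hττ
  have hαs : AdjoinRoot.root f ^ (q ^ finrank F (AdjoinRoot f) + 1) = 1 := by
    rw [pow_succ, ← hτq, hτ1]
  refine ⟨finrank F (AdjoinRoot f), k, hodd, ?_⟩
  have h5 := pow_of_root p T 1 f k (q ^ finrank F (AdjoinRoot f) + 1) k 1 (by rw [hfk, zero_mul]) (by rw [hαs, map_one])
    (Nat.lt_pow_self hp.out.one_lt).le
  rw [mul_one, one_pow, one_smul] at h5
  exact h5

omit [Fintype F] in
theorem restrict_pow {V : Type*} [AddCommGroup V] [Module F V] (S : End F V) (W : Submodule F V) (hW : ∀ x ∈ W, S x ∈ W)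
    (k : ℕ) (x : W) : (((S.restrict hW) ^ k) x : V) = (S ^ k) x := by
  induction k generalizing x with
  | zero => rfl
  | succ k ih => rw [pow_succ, pow_succ, Module.End.mul_apply, Module.End.mul_apply, ih]; rfl

omit [Fintype F] in
/-- range of an idempotent as an Hermitian space -/
theorem isHerm_range {σ : F →+* F} {ε : F} {V : Type*} [AddCommGroup V] [Module F V] {B : V → V → F} (hB : IsHerm σ ε B)
    (e : End F V) (he : e * e = e) (hadj : ∀ x y, B (e x) y = B x (e y)) :
    IsHerm σ ε (fun x y : LinearMap.range e => B x y) where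
  add_left x y z := hB.add_left _ _ _
  smul_left c x y := hB.smul_left _ _ _
  symm x y := hB.symm _ _
  nondeg x hx := by
    apply Subtype.ext
    apply hB.nondeg
    intro y
    obtain ⟨_, x', rfl⟩ := x
    have h1 := hx ⟨e y, y, rfl⟩
    change B (e x') (e y) = 0 at h1
    rw [← hadj, ← Module.End.mul_apply, he] at h1
    exact h1

include p in
theorem lemmaL (hF : Fintype.card F = q ^ 2) {r m : ℕ} [hr : Fact r.Prime] (hr0 : (r : F) ≠ 0) (hrp : r ≠ p)
    (hrk : ∀ k, 0 < k → k < m → ¬ r ∣ Nat.card F ^ k - 1) (hodd : ∀ d, Odd d → ¬ r ∣ q ^ d + 1) :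
    ∀ (N : ℕ) (V : Type u) [AddCommGroup V] [Module F V] [FiniteDimensional F V] (B : V → V → F)
      (_ : IsHerm (frob hF) 1 B) (S : End F V), finrank F V ≤ N → finrank F V < 2 * m →
      (∀ x y, B (S x) (S y) = B x y) → S ^ r = 1 → S = 1 := by
  intro N
  induction N with
  | zero =>
    intro V _ _ _ B hB S hd _ _ _
    have h3 : finrank F V = 0 := by omega
    rw [Module.finrank_zero_iff] at h3
    exact LinearMap.ext fun x => Subsingleton.elim _ _
  | succ N ih =>
    intro V _ _ _ B hB S hd hd2 hiso hSr
    by_contra hne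
    have hnt : Nontrivial V := by
      by_contra h
      rw [not_nontrivial_iff_subsingleton] at h
      exact hne (LinearMap.ext fun x => Subsingleton.elim _ _)
    have hr1 : r - 1 + 1 = r := Nat.sub_add_cancel hr.out.one_lt.le
    have hSr' : S ^ (r - 1 + 1) = 1 := by rw [hr1]; exact hSr
    rcases trich hB (frob_frob hF) S hiso (r - 1) hSr' with
      ⟨e, he, he0, he1, heT, hadj⟩ | ⟨f, k, hf, hk1, hfk, hfm, hdeg⟩ | ⟨e, f, k, hf, hk1, he, heT, hadj, hfk, hfm, hdeg⟩
    · -- self-adjoint idempotent
      have key : ∀ e : End F V, e * e = e → e ≠ 1 → e * S = S * e → (∀ x y, B (e x) y = B x (e y)) → S * e = e := by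
        intro e he he1 heT hadj
        have hinv : ∀ x ∈ LinearMap.range e, S x ∈ LinearMap.range e := by
          rintro _ ⟨x, rfl⟩
          exact ⟨S x, by rw [← Module.End.mul_apply, heT, Module.End.mul_apply]⟩
        have hlt : finrank F (LinearMap.range e) < finrank F V := by
          apply Submodule.finrank_lt
          intro h
          apply he1
          apply LinearMap.ext
          intro x
          have hx : x ∈ LinearMap.range e := by rw [h]; trivial
          obtain ⟨y, rfl⟩ := hx
          rw [← Module.End.mul_apply, he]; rfl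
        have h1 := ih (LinearMap.range e) _ (isHerm_range hB e he hadj) (S.restrict hinv) (by omega) (by omega)
          (fun x y => hiso x y) (by
            apply LinearMap.ext
            intro x
            apply Subtype.ext
            rw [restrict_pow, hSr]; rfl)
        apply LinearMap.ext
        intro x
        have h2 := congrArg (fun g : End F (LinearMap.range e) => ((g ⟨e x, x, rfl⟩ : LinearMap.range e) : V)) h1
        exact h2
      have h1 := key e he he1 heT hadj
      have h2 := key (1 - e) (by rw [mul_sub, mul_one, sub_mul, one_mul, he, sub_self, sub_zero]) (by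
          intro h; exact he0 (by rwa [sub_eq_self] at h)) (by rw [sub_mul, mul_sub, heT, one_mul, mul_one]) (by
          intro x y
          rw [LinearMap.sub_apply, hB.sub_left, hadj, LinearMap.sub_apply, hB.sub_right]; rfl)
      apply hne
      calc S = S * e + S * (1 - e) := by rw [mul_sub, mul_one]; abel
        _ = e + (1 - e) := by rw [h1, h2]
        _ = 1 := by abel
    · obtain ⟨d, i, hdo, h1⟩ := order_dvd_primary p hF hB S hiso (r - 1) hSr' f hf k hfk hfm
      have h2 : orderOf S = r := orderOf_eq_prime hSr hne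
      have h3 := orderOf_dvd_of_pow_eq_one h1
      rw [h2] at h3
      rcases (Nat.Prime.dvd_mul hr.out).1 h3 with h | h
      · exact hodd d hdo h
      · exact hrp ((Nat.prime_dvd_prime_iff_eq hr.out hp.out).1 (hr.out.dvd_of_dvd_pow h))
    · have hinv : ∀ x ∈ LinearMap.range e, S x ∈ LinearMap.range e := by
        rintro _ ⟨x, rfl⟩
        exact ⟨S x, by rw [← Module.End.mul_apply, heT, Module.End.mul_apply]⟩
      have he'e : (1 - e) * e = 0 := by rw [sub_mul, one_mul, he, sub_self]
      have hdim : 2 * finrank F (LinearMap.range e) ≤ finrank F V := by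
        apply dim_le_of_isotropic hB
        rintro _ ⟨x, rfl⟩ _ ⟨y, rfl⟩
        rw [hadj, ← Module.End.mul_apply, he'e, LinearMap.zero_apply, hB.zero_right]
      have h1 := eq_one_or_le (S := S.restrict hinv) hrk hr0 (by
            apply LinearMap.ext
            intro x
            apply Subtype.ext
            rw [restrict_pow, hSr]; rfl) (by omega)
      apply hne
      apply eq_one_of_mul_eq hB e S hiso _ heT _ hadj
      · intro y
        refine ⟨(S ^ (r - 1)) y, ?_⟩
        rw [← Module.End.mul_apply, ← pow_succ', hSr']; rfl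
      · apply LinearMap.ext
        intro x
        have h2 := congrArg (fun g : End F (LinearMap.range e) => ((g ⟨e x, x, rfl⟩ : LinearMap.range e) : V)) h1
        exact h2

include p in
/-- the structure of `T` -/
theorem exists_half (hF : Fintype.card F = q ^ 2) {r m : ℕ} [hr : Fact r.Prime] (hr0 : (r : F) ≠ 0) (hrp : r ≠ p)
    (hm : 0 < m) (hrk : ∀ k, 0 < k → k < m → ¬ r ∣ Nat.card F ^ k - 1) (hodd : ∀ d, Odd d → ¬ r ∣ q ^ d + 1)
    (V : Type u) [AddCommGroup V] [Module F V] [FiniteDimensional F V] (B : V → V → F)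
    (hB : IsHerm (frob hF) 1 B) (T : End F V) (hd2 : finrank F V = 2 * m)
    (hiso : ∀ x y, B (T x) (T y) = B x y) (N : ℕ) (hN : T ^ (N + 1) = 1) (j : ℕ) (hSr : (T ^ j) ^ r = 1) (hS1 : T ^ j ≠ 1) :
    ∃ (e : End F V) (f : F[X]), Irreducible f ∧ f.natDegree = m ∧ e * e = e ∧ e * T = T * e ∧
      (∀ x y, B (e x) y = B x ((1 - e) y)) ∧ aeval T f * e = 0 := by
  set S := T ^ j with hS
  have hnt : Nontrivial V := by
    by_contra h
    rw [not_nontrivial_iff_subsingleton] at h
    exact hS1 (LinearMap.ext fun x => Subsingleton.elim _ _)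
  have hSiso : ∀ x y, B (S x) (S y) = B x y := by
    have : ∀ (k : ℕ) x y, B ((T ^ k) x) ((T ^ k) y) = B x y := by
      intro k
      induction k with
      | zero => intro x y; rfl
      | succ k ih => intro x y; rw [pow_succ, Module.End.mul_apply, Module.End.mul_apply, ih, hiso]
    exact this j
  rcases trich hB (frob_frob hF) T hiso N hN with
      ⟨e, he, he0, he1, heT, hadj⟩ | ⟨f, k, hf, hk1, hfk, hfm, hdeg⟩ | ⟨e, f, k, hf, hk1, he, heT, hadj, hfk, hfm, hdeg⟩
  · exfalso
    have key : ∀ e : End F V, e * e = e → e ≠ 1 → e * S = S * e → (∀ x y, B (e x) y = B x (e y)) → S * e = e := by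
      intro e he he1 heT hadj
      have hinv : ∀ x ∈ LinearMap.range e, S x ∈ LinearMap.range e := by
        rintro _ ⟨x, rfl⟩
        exact ⟨S x, by rw [← Module.End.mul_apply, heT, Module.End.mul_apply]⟩
      have hlt : finrank F (LinearMap.range e) < finrank F V := by
        apply Submodule.finrank_lt
        intro h
        apply he1
        apply LinearMap.ext
        intro x
        have hx : x ∈ LinearMap.range e := by rw [h]; trivial
        obtain ⟨y, rfl⟩ := hx
        rw [← Module.End.mul_apply, he]; rfl
      have h1 := lemmaL p hF hr0 hrp hrk hodd _ (LinearMap.range e) _ (isHerm_range hB e he hadj) (S.restrict hinv)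
        le_rfl (by omega) (fun x y => hSiso x y) (by
          apply LinearMap.ext
          intro x
          apply Subtype.ext
          rw [restrict_pow, hSr]; rfl)
      apply LinearMap.ext
      intro x
      have h2 := congrArg (fun g : End F (LinearMap.range e) => ((g ⟨e x, x, rfl⟩ : LinearMap.range e) : V)) h1
      exact h2
    have heS : e * S = S * e := (Commute.pow_right (show Commute e T from heT) j).eq
    have h1 := key e he he1 heS hadj
    have h2 := key (1 - e) (by rw [mul_sub, mul_one, sub_mul, one_mul, he, sub_self, sub_zero]) (by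
        intro h; exact he0 (by rwa [sub_eq_self] at h)) (by rw [sub_mul, mul_sub, heS, one_mul, mul_one]) (by
        intro x y
        rw [LinearMap.sub_apply, hB.sub_left, hadj, LinearMap.sub_apply, hB.sub_right]; rfl)
    apply hS1
    calc S = S * e + S * (1 - e) := by rw [mul_sub, mul_one]; abel
      _ = e + (1 - e) := by rw [h1, h2]
      _ = 1 := by abel
  · exfalso
    obtain ⟨d, i, hdo, h1⟩ := order_dvd_primary p hF hB T hiso N hN f hf k hfk hfm
    have h2 : orderOf S = r := orderOf_eq_prime hSr hS1
    have h3 : S ^ ((q ^ d + 1) * p ^ i) = 1 := by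
      rw [hS, ← pow_mul, mul_comm, pow_mul, h1, one_pow]
    have h3 := orderOf_dvd_of_pow_eq_one h3
    rw [h2] at h3
    rcases (Nat.Prime.dvd_mul hr.out).1 h3 with h | h
    · exact hodd d hdo h
    · exact hrp ((Nat.prime_dvd_prime_iff_eq hr.out hp.out).1 (hr.out.dvd_of_dvd_pow h))
  · have hinvT : ∀ x ∈ LinearMap.range e, T x ∈ LinearMap.range e := by
      rintro _ ⟨x, rfl⟩
      exact ⟨T x, by rw [← Module.End.mul_apply, heT, Module.End.mul_apply]⟩
    have he'e : (1 - e) * e = 0 := by rw [sub_mul, one_mul, he, sub_self]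
    have hadj' : ∀ x y, B ((1 - e) x) y = B x (e y) := by
      intro x y
      rw [LinearMap.sub_apply, hB.sub_left, hadj, LinearMap.sub_apply, hB.sub_right, Module.End.one_apply, Module.End.one_apply,
        sub_sub_cancel]
    have hW : finrank F (LinearMap.range e) = m := by
      have h1 : 2 * finrank F (LinearMap.range e) ≤ finrank F V := by
        apply dim_le_of_isotropic hB
        rintro _ ⟨x, rfl⟩ _ ⟨y, rfl⟩
        rw [hadj, ← Module.End.mul_apply, he'e, LinearMap.zero_apply, hB.zero_right]
      have h2 : 2 * finrank F (LinearMap.ker e) ≤ finrank F V := by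
        apply dim_le_of_isotropic hB
        intro x hx y hy
        rw [LinearMap.mem_ker] at hx hy
        have h3 : x = (1 - e) x := by rw [LinearMap.sub_apply, hx, sub_zero]; rfl
        rw [h3, hadj', hy, hB.zero_right]
      have h3 := finrank_idem e he
      omega
    have hRS : ∀ x, (((T.restrict hinvT) ^ j) x : V) = S x := fun x => restrict_pow T _ hinvT j x
    have hRSr : ((T.restrict hinvT) ^ j) ^ r = 1 := by
      rw [← pow_mul]
      apply LinearMap.ext
      intro x
      apply Subtype.ext
      rw [restrict_pow, pow_mul, hSr]; rfl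
    have hRS1 : (T.restrict hinvT) ^ j ≠ 1 := by
      intro h1
      apply hS1
      apply eq_one_of_mul_eq hB e S hSiso _ (Commute.pow_right (show Commute e T from heT) j).eq _ hadj
      · intro y
        refine ⟨(S ^ (r - 1)) y, ?_⟩
        rw [← Module.End.mul_apply, ← pow_succ', Nat.sub_add_cancel hr.out.one_lt.le, hSr]; rfl
      · apply LinearMap.ext
        intro x
        have h2 := hRS ⟨e x, x, rfl⟩
        rw [h1] at h2
        exact h2.symm
    have hntW : Nontrivial (LinearMap.range e) := Module.nontrivial_of_finrank_pos (R := F) (by omega)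
    obtain ⟨f', hf', hfd', hfT'⟩ := exists_irreducible (T := T.restrict hinvT) (by
      intro U hU
      apply invariant_trivial (r := r) (S := (T.restrict hinvT) ^ j) _ hr0 hRSr hRS1 U
      · intro u hu
        have : ∀ k : ℕ, ((T.restrict hinvT) ^ k) u ∈ U := by
          intro k
          induction k with
          | zero => simpa using hu
          | succ k ih => rw [pow_succ', Module.End.mul_apply]; exact hU _ ih
        exact this j
      · intro k hk1 hk2
        exact hrk k hk1 (by omega))
    refine ⟨e, f', hf', by rw [hfd', hW], he, heT, hadj, ?_⟩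
    apply LinearMap.ext
    intro x
    have h2 := coe_aeval_restrict T (LinearMap.range e) (T.restrict hinvT) (fun x => rfl) f' ⟨e x, x, rfl⟩
    rw [hfT'] at h2
    exact h2.symm

end Cfsg.Agent.Lib.UnSinger
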