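import Mathlib
import Cfsg.Agent.Lib.CharBasic
import Cfsg.Agent.Lib.CharBasic2
import Cfsg.Agent.Lib.Clifford
import Cfsg.Agent.Lib.IndFun
import Cfsg.Agent.Lib.LinChar
import Cfsg.Agent.Lib.ExtraChar

/-!
# Sylow subgroups with uniform centralizers (helper74)

`P` a Sylow `p`-subgroup of `G` such that every non-identity element of `P` has the same centralizer as `P`.
-/

set_option autoImplicit false
set_option linter.all false

namespace Cfsg.Agent.Lib.UnifCent

open Cfsg
open scoped ComplexConjugate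

universe u

section retract
variable {H : Type u} [Group H] [Finite H] {p : ℕ} [hp : Fact p.Prime]

/-- a Sylow subgroup in the centre of its normalizer is a retract -/
theorem exists_retract (P : Sylow p H)
    (hP : Subgroup.normalizer ((P : Subgroup H) : Set H) ≤ Subgroup.centralizer ((P : Subgroup H) : Set H)) :
    ∃ l : H →* P, (∀ x : P, l x = x) ∧ ∀ h, l h = 1 ↔ ¬ p ∣ orderOf h := by
  have hcomm : ∀ a b : P, a * b = b * a := fun a b =>
    Subtype.ext ((hP (Subgroup.le_normalizer b.2)) a a.2)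
  letI : CommGroup P := { (inferInstance : Group P) with mul_comm := hcomm }
  have hcop : (Nat.card P).Coprime (P : Subgroup H).index := by
    obtain ⟨k, hk⟩ := IsPGroup.iff_card.1 P.2
    rw [hk]
    exact Nat.Coprime.pow_left _ ((Nat.Prime.coprime_iff_not_dvd hp.out).2 P.not_dvd_index)
  obtain ⟨j, hj⟩ : ∃ j : ℕ, (P : Subgroup H).index * j ≡ 1 [MOD Nat.card P] := by
    rcases Nat.eq_or_lt_of_le (Nat.one_le_iff_ne_zero.2 (Nat.card_pos (α := P)).ne') with h | h
    · exact ⟨0, by rw [← h]; exact Nat.modEq_one⟩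
    · obtain ⟨j, -, hj⟩ := Nat.exists_mul_mod_eq_one_of_coprime hcop.symm h
      exact ⟨j, by rw [Nat.ModEq, hj, Nat.mod_eq_of_lt h]⟩
  let l : H →* P := (powMonoidHom j : P →* P).comp (MonoidHom.transferSylow P hP)
  have h1 : ∀ x : P, l x = x := by
    intro x
    change (MonoidHom.transferSylow P hP (x : H)) ^ j = x
    rw [MonoidHom.transferSylow_eq_pow P hP x x.2]
    apply Subtype.ext
    change ((x : H) ^ (P : Subgroup H).index) ^ j = x
    rw [← pow_mul]
    have h2 : x ^ ((P : Subgroup H).index * j) = x ^ 1 := by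
      rw [pow_eq_pow_iff_modEq]
      exact hj.of_dvd (orderOf_dvd_natCard x)
    rw [pow_one] at h2
    exact congrArg Subtype.val h2
  refine ⟨l, h1, fun h => ⟨fun h2 h3 => ?_, fun h2 => ?_⟩⟩
  · -- an element of order `p` in the kernel
    set y := h ^ (orderOf h / p) with hy
    have hyo : orderOf y = p := by
      rw [hy, orderOf_pow_of_dvd (Nat.div_ne_zero_iff.2 ⟨hp.out.ne_zero, Nat.le_of_dvd (orderOf_pos h) h3⟩)
        (Nat.div_dvd_of_dvd h3), Nat.div_div_self h3 (orderOf_pos h).ne']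
    have hly : l y = 1 := by rw [hy, map_pow, h2, one_pow]
    have hyp : IsPGroup p (Subgroup.zpowers y) := by
      apply IsPGroup.of_card (n := 1)
      rw [Nat.card_zpowers, hyo, pow_one]
    obtain ⟨Q, hQ⟩ := hyp.exists_le_sylow
    obtain ⟨g, hg⟩ := MulAction.exists_smul_eq H Q P
    have h4 : g * y * g⁻¹ ∈ (P : Subgroup H) := by
      rw [← hg]
      exact ⟨y, hQ (Subgroup.mem_zpowers y), rfl⟩
    have h5 : l (g * y * g⁻¹) = 1 := by rw [map_mul, map_mul, hly, mul_one, map_inv, mul_inv_cancel]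
    have h6 := h1 ⟨_, h4⟩
    rw [h5] at h6
    have h7 : g * y * g⁻¹ = 1 := (congrArg Subtype.val h6).symm
    have h8 : y = 1 := by
      rw [conj_eq_one_iff] at h7
      exact h7
    rw [h8, orderOf_one] at hyo
    exact hp.out.one_lt.ne hyo
  · have h3 : orderOf (l h) ∣ orderOf h := orderOf_map_dvd l h
    obtain ⟨k, hk⟩ := IsPGroup.iff_orderOf.1 P.2 (l h)
    rcases Nat.eq_zero_or_pos k with h0 | h0
    · rw [h0, pow_zero] at hk
      exact orderOf_eq_one_iff.1 hk
    · exact absurd ((dvd_pow_self p h0.ne').trans (hk ▸ h3)) h2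

end retract

/-! ### the local situation -/

section loc
variable {G : Type u} [Group G] [Finite G] {p : ℕ}

/-- the data used in the character computations -/
structure Loc (p : ℕ) (P C N : Subgroup G) where
  PC : P ≤ C
  CN : C ≤ N
  l : C →* P
  l_of_mem : ∀ (x : G) (hx : x ∈ P), l ⟨x, PC hx⟩ = ⟨x, hx⟩
  l_eq_one : ∀ c : C, l c = 1 ↔ ¬ p ∣ orderOf (c : G)
  cent : ∀ c ∈ C, ∀ x ∈ P, c * x = x * c
  conj_mem : ∀ n ∈ N, ∀ c ∈ C, n * c * n⁻¹ ∈ C
  conj_memP : ∀ n ∈ N, ∀ x ∈ P, n * x * n⁻¹ ∈ P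
  l_conj : ∀ n ∈ N, ∀ c c' : C, (c' : G) = n * c * n⁻¹ → (l c' : G) = n * (l c : G) * n⁻¹
  ti : ∀ c : C, l c ≠ 1 → ∀ g : G, g * c * g⁻¹ ∈ C → g ∈ N
  fpf : ∀ n ∈ N, n ∉ C → ∀ x ∈ P, n * x * n⁻¹ = x → x = 1

variable [hp : Fact p.Prime]

theorem exists_loc (P : Sylow p G)
    (hstar : ∀ x ∈ (P : Subgroup G), x ≠ 1 →
      Subgroup.centralizer ({x} : Set G) = Subgroup.centralizer ((P : Subgroup G) : Set G)) :
    Nonempty (Loc p (P : Subgroup G) (Subgroup.centralizer ((P : Subgroup G) : Set G))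
      (Subgroup.normalizer ((P : Subgroup G) : Set G))) := by
  classical
  set C := Subgroup.centralizer ((P : Subgroup G) : Set G) with hC
  set N := Subgroup.normalizer ((P : Subgroup G) : Set G) with hN
  have PC : (P : Subgroup G) ≤ C := by
    intro x hx
    by_cases h1 : x = 1
    · rw [h1]; exact C.one_mem
    · rw [← hstar x hx h1]
      exact Subgroup.mem_centralizer_singleton_iff.2 rfl
  have cent : ∀ c ∈ C, ∀ x ∈ (P : Subgroup G), c * x = x * c := fun c hc x hx =>
    (Subgroup.mem_centralizer_iff.1 hc x hx).symm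
  have hnP : ∀ n ∈ N, ∀ x, x ∈ (P : Subgroup G) ↔ n * x * n⁻¹ ∈ (P : Subgroup G) := fun n hn x =>
    Subgroup.mem_normalizer_iff.1 hn x
  have conj_memP : ∀ n ∈ N, ∀ x ∈ (P : Subgroup G), n * x * n⁻¹ ∈ (P : Subgroup G) := fun n hn x hx =>
    (hnP n hn x).1 hx
  have conj_mem : ∀ n ∈ N, ∀ c ∈ C, n * c * n⁻¹ ∈ C := by
    intro n hn c hc
    rw [hC, Subgroup.mem_centralizer_iff]
    intro x hx
    have h1 : n⁻¹ * x * n ∈ (P : Subgroup G) := by
      have := (hnP n hn (n⁻¹ * x * n)).2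
      apply this
      have e : n * (n⁻¹ * x * n) * n⁻¹ = x := by group
      rw [e]; exact hx
    have h2 := cent c hc _ h1
    calc x * (n * c * n⁻¹) = n * ((n⁻¹ * x * n) * c) * n⁻¹ := by group
      _ = n * (c * (n⁻¹ * x * n)) * n⁻¹ := by rw [h2]
      _ = _ := by group
  have CN : C ≤ N := by
    intro c hc
    rw [hN, Subgroup.mem_normalizer_iff]
    intro x
    constructor
    · intro hx
      rw [cent c hc x hx, mul_inv_cancel_right]; exact hx
    · intro hx
      have h1 := cent c⁻¹ (C.inv_mem hc) _ hx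
      have h2 : c⁻¹ * (c * x * c⁻¹) * c = c * x * c⁻¹ := by rw [h1]; group
      have h3 : c⁻¹ * (c * x * c⁻¹) * c = x := by group
      rw [← h3, h2]; exact hx
  -- the Sylow subgroup of `C`
  set Q : Sylow p C := P.subtype PC with hQ
  have hQmem : ∀ c : C, c ∈ (Q : Subgroup C) ↔ (c : G) ∈ (P : Subgroup G) := fun c => Iff.rfl
  have hQN : Subgroup.normalizer ((Q : Subgroup C) : Set C) ≤ Subgroup.centralizer ((Q : Subgroup C) : Set C) := by
    intro c _
    rw [Subgroup.mem_centralizer_iff]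
    intro x hx
    exact Subtype.ext (cent c c.2 x hx).symm
  obtain ⟨l0, hl1, hl2⟩ := exists_retract Q hQN
  -- the retraction to `P`
  let ι : (Q : Subgroup C) →* (P : Subgroup G) :=
    { toFun := fun x => ⟨((x : C) : G), x.2⟩
      map_one' := rfl
      map_mul' := fun _ _ => rfl }
  have hι : Function.Injective ι := by
    intro x y h
    apply Subtype.ext; apply Subtype.ext
    have h' := congrArg (fun z : (P : Subgroup G) => (z : G)) h
    exact h'
  let l : C →* (P : Subgroup G) := ι.comp l0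
  have l_of_mem : ∀ (x : G) (hx : x ∈ (P : Subgroup G)), l ⟨x, PC hx⟩ = ⟨x, hx⟩ := by
    intro x hx
    have h1 := hl1 ⟨⟨x, PC hx⟩, hx⟩
    change ι (l0 ⟨x, PC hx⟩) = _
    exact congrArg ι h1
  have l_eq_one : ∀ c : C, l c = 1 ↔ ¬ p ∣ orderOf (c : G) := by
    intro c
    rw [Subgroup.orderOf_coe, ← hl2 c]
    constructor
    · intro h
      apply hι
      rw [map_one]; exact h
    · intro h
      change ι (l0 c) = 1
      rw [h, map_one]
  have key : ∀ c : C, l ⟨(c : G) * (l c : G)⁻¹, C.mul_mem c.2 (C.inv_mem (PC (l c).2))⟩ = 1 := by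
    intro c
    have h1 : (⟨(c : G) * (l c : G)⁻¹, C.mul_mem c.2 (C.inv_mem (PC (l c).2))⟩ : C) =
        c * ⟨(l c : G), PC (l c).2⟩⁻¹ := rfl
    rw [h1, map_mul, map_inv, l_of_mem _ (l c).2, mul_inv_cancel]
  have l_conj : ∀ n ∈ N, ∀ c c' : C, (c' : G) = n * c * n⁻¹ → (l c' : G) = n * (l c : G) * n⁻¹ := by
    intro n hn c c' h
    set v : G := (c : G) * (l c : G)⁻¹ with hv
    have hvC : v ∈ C := C.mul_mem c.2 (C.inv_mem (PC (l c).2))
    have h1 : l ⟨n * v * n⁻¹, conj_mem n hn v hvC⟩ = 1 := by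
      rw [l_eq_one]
      change ¬ p ∣ orderOf (n * v * n⁻¹)
      have h2 : orderOf (n * v * n⁻¹) = orderOf v := by
        have := (MulAut.conj n).orderOf_eq v
        rwa [MulAut.conj_apply] at this
      rw [h2]
      exact (l_eq_one ⟨v, hvC⟩).1 (key c)
    have h2 : c' = ⟨n * v * n⁻¹, conj_mem n hn v hvC⟩ *
        ⟨n * (l c : G) * n⁻¹, conj_mem n hn _ (PC (l c).2)⟩ := by
      apply Subtype.ext
      change (c' : G) = n * v * n⁻¹ * (n * (l c : G) * n⁻¹)
      rw [h, hv]; group
    rw [h2, map_mul, h1, one_mul, l_of_mem _ (conj_memP n hn _ (l c).2)]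
  have ti0 : ∀ x ∈ (P : Subgroup G), x ≠ 1 → ∀ g : G, g * x * g⁻¹ ∈ (P : Subgroup G) → g ∈ N := by
    intro x hx hx1 g hg
    have h1 : g * x * g⁻¹ ≠ 1 := fun h => hx1 (by rwa [conj_eq_one_iff] at h)
    have h2 := hstar _ hg h1
    have h3 := hstar x hx hx1
    -- `g C g⁻¹ = C`
    have h4 : ∀ c ∈ C, g * c * g⁻¹ ∈ C := by
      intro c hc
      rw [← h2, Subgroup.mem_centralizer_singleton_iff]
      rw [← h3, Subgroup.mem_centralizer_singleton_iff] at hc
      calc g * c * g⁻¹ * (g * x * g⁻¹) = g * (c * x) * g⁻¹ := by group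
        _ = g * (x * c) * g⁻¹ := by rw [hc]
        _ = _ := by group
    -- elements of `g P g⁻¹` are `p`-elements of `C`
    have h5 : ∀ y ∈ (P : Subgroup G), g * y * g⁻¹ ∈ (P : Subgroup G) := by
      intro y hy
      set c : C := ⟨g * y * g⁻¹, h4 y (PC hy)⟩ with hc
      set v : C := ⟨(c : G) * (l c : G)⁻¹, C.mul_mem c.2 (C.inv_mem (PC (l c).2))⟩ with hv
      have h6 : l v = 1 := key c
      have h7 : ¬ p ∣ orderOf (v : G) := (l_eq_one v).1 h6
      -- `v` is a `p`-element
      obtain ⟨j, hj⟩ := IsPGroup.iff_orderOf.1 P.2 ⟨y, hy⟩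
      obtain ⟨k, hk⟩ := IsPGroup.iff_orderOf.1 P.2 (l c)
      have h8 : (v : G) ^ (p ^ j * p ^ k) = 1 := by
        have hcm : Commute (c : G) ((l c : G)⁻¹) := by
          have := cent c c.2 ((l c : G)⁻¹) ((P : Subgroup G).inv_mem (l c).2)
          exact this
        change ((c : G) * (l c : G)⁻¹) ^ (p ^ j * p ^ k) = 1
        rw [hcm.mul_pow]
        have e1 : (c : G) ^ (p ^ j * p ^ k) = 1 := by
          change (g * y * g⁻¹) ^ (p ^ j * p ^ k) = 1
          rw [conj_pow, pow_mul]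
          have : y ^ p ^ j = 1 := by
            have h9 := pow_orderOf_eq_one (⟨y, hy⟩ : (P : Subgroup G))
            rw [hj] at h9
            exact congrArg Subtype.val h9
          rw [this, one_pow]; group
        have e2 : ((l c : G)⁻¹) ^ (p ^ j * p ^ k) = 1 := by
          rw [mul_comm, pow_mul, inv_pow]
          have : (l c : G) ^ p ^ k = 1 := by
            have h9 := pow_orderOf_eq_one (l c)
            rw [hk] at h9
            exact congrArg Subtype.val h9
          rw [this, inv_one, one_pow]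
        rw [e1, e2, one_mul]
      have h9 : orderOf (v : G) ∣ p ^ (j + k) := by
        rw [pow_add]; exact orderOf_dvd_of_pow_eq_one h8
      obtain ⟨i, -, hi⟩ := (Nat.dvd_prime_pow hp.out).1 h9
      have h10 : i = 0 := by
        by_contra h
        apply h7
        rw [hi]; exact dvd_pow_self p h
      rw [h10, pow_zero, orderOf_eq_one_iff] at hi
      have h11 : (c : G) = (l c : G) := by
        have h12 : (c : G) * (l c : G)⁻¹ = 1 := hi
        exact mul_inv_eq_one.1 h12
      change (c : G) ∈ (P : Subgroup G)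
      rw [h11]; exact (l c).2
    exact Subgroup.mem_normalizer_fintype h5
  refine ⟨⟨PC, CN, l, l_of_mem, l_eq_one, cent, conj_mem, conj_memP, l_conj, ?_, ?_⟩⟩
  · intro c hc g hg
    -- a power of `c` is in `P`
    have h1 : p ∣ orderOf (c : G) := by
      by_contra h
      exact hc ((l_eq_one c).2 h)
    set v : C := ⟨(c : G) * (l c : G)⁻¹, C.mul_mem c.2 (C.inv_mem (PC (l c).2))⟩ with hv
    have h6 : l v = 1 := key c
    have h7 : ¬ p ∣ orderOf (v : G) := (l_eq_one v).1 h6
    set m := orderOf (v : G) with hm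
    have hcm : Commute (v : G) (l c : G) := cent v v.2 (l c) (l c).2
    have h8 : (c : G) = (v : G) * (l c : G) := by
      change (c : G) = (c : G) * (l c : G)⁻¹ * (l c : G)
      rw [inv_mul_cancel_right]
    have h9 : (c : G) ^ m = (l c : G) ^ m := by
      rw [h8, hcm.mul_pow, hm, pow_orderOf_eq_one, one_mul]
    have h10 : (l c : G) ^ m ≠ 1 := by
      intro h
      apply hc
      have h11 : orderOf (l c) ∣ m := orderOf_dvd_of_pow_eq_one (Subtype.ext h)
      obtain ⟨k, hk⟩ := IsPGroup.iff_orderOf.1 P.2 (l c)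
      rcases Nat.eq_zero_or_pos k with h0 | h0
      · rw [h0, pow_zero] at hk
        exact orderOf_eq_one_iff.1 hk
      · exact absurd ((dvd_pow_self p h0.ne').trans (hk ▸ h11)) h7
    -- the conjugate
    set c' : C := ⟨g * c * g⁻¹, hg⟩ with hc'
    have h11 : (c' : G) ^ m = g * (l c : G) ^ m * g⁻¹ := by
      change (g * c * g⁻¹) ^ m = _
      rw [conj_pow, h9]
    -- `l c' ^ m = c' ^ m`
    set v' : C := ⟨(c' : G) * (l c' : G)⁻¹, C.mul_mem c'.2 (C.inv_mem (PC (l c').2))⟩ with hv'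
    have h12 : ¬ p ∣ orderOf (v' : G) := (l_eq_one v').1 (key c')
    have h13 : (l c : G) ^ m ∈ (P : Subgroup G) := (P : Subgroup G).pow_mem (l c).2 m
    refine ti0 _ h13 h10 g ?_
    rw [← h11]
    -- `c' ^ m` is a `p`-element of `C`
    set w : C := c' ^ m with hw
    have h14 : l w = (l c') ^ m := map_pow l c' m
    set v2 : C := ⟨(w : G) * (l w : G)⁻¹, C.mul_mem w.2 (C.inv_mem (PC (l w).2))⟩ with hv2
    have h15 : ¬ p ∣ orderOf (v2 : G) := (l_eq_one v2).1 (key w)
    obtain ⟨j, hj⟩ := IsPGroup.iff_orderOf.1 P.2 ⟨_, h13⟩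
    obtain ⟨k, hk⟩ := IsPGroup.iff_orderOf.1 P.2 (l w)
    have h16 : (v2 : G) ^ (p ^ j * p ^ k) = 1 := by
      have hcm2 : Commute (w : G) ((l w : G)⁻¹) :=
        cent w w.2 ((l w : G)⁻¹) ((P : Subgroup G).inv_mem (l w).2)
      change ((w : G) * (l w : G)⁻¹) ^ (p ^ j * p ^ k) = 1
      rw [hcm2.mul_pow]
      have e1 : (w : G) ^ (p ^ j * p ^ k) = 1 := by
        have e0 : (w : G) = g * (l c : G) ^ m * g⁻¹ := h11
        rw [e0, conj_pow, pow_mul]
        have : ((l c : G) ^ m) ^ p ^ j = 1 := by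
          have h9 := pow_orderOf_eq_one (⟨_, h13⟩ : (P : Subgroup G))
          rw [hj] at h9
          exact congrArg Subtype.val h9
        rw [this, one_pow]; group
      have e2 : ((l w : G)⁻¹) ^ (p ^ j * p ^ k) = 1 := by
        rw [mul_comm, pow_mul, inv_pow]
        have : (l w : G) ^ p ^ k = 1 := by
          have h9 := pow_orderOf_eq_one (l w)
          rw [hk] at h9
          exact congrArg Subtype.val h9
        rw [this, inv_one, one_pow]
      rw [e1, e2, one_mul]
    have h17 : orderOf (v2 : G) ∣ p ^ (j + k) := by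
      rw [pow_add]; exact orderOf_dvd_of_pow_eq_one h16
    obtain ⟨i, -, hi⟩ := (Nat.dvd_prime_pow hp.out).1 h17
    have h18 : i = 0 := by
      by_contra h
      apply h15
      rw [hi]; exact dvd_pow_self p h
    rw [h18, pow_zero, orderOf_eq_one_iff] at hi
    have h19 : (w : G) = (l w : G) := by
      have h20 : (w : G) * (l w : G)⁻¹ = 1 := hi
      exact mul_inv_eq_one.1 h20
    change (w : G) ∈ (P : Subgroup G)
    rw [h19]; exact (l w).2
  · intro n hn hnC x hx h
    by_contra hx1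
    apply hnC
    rw [← hstar x hx hx1, Subgroup.mem_centralizer_singleton_iff]
    rw [mul_inv_eq_iff_eq_mul] at h
    exact h

end loc

end Cfsg.Agent.Lib.UnifCent
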