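import Cfsg.Agent.Lib.UnifCent

/-!
# Characters in the uniform centralizer situation (helper74)
-/

set_option autoImplicit false
set_option linter.all false

namespace Cfsg.Agent.Lib.UnifCent

open Cfsg Cfsg.Agent.Lib.CharBasic
open Cfsg.Agent.Lib.IndFun (indFun_apply indFun_isClassFunction frobenius_reciprocity frobenius_reciprocity'
  extendByZero_mem extendByZero_not_mem)
open scoped ComplexConjugate

universe u

variable {G : Type u} [Group G] [Fintype G] {p : ℕ} {P C N : Subgroup G} [Fintype C] (D : Loc p P C N)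

omit [Fintype G] [Fintype C] in
theorem Loc.comm (D : Loc p P C N) (a b : P) : a * b = b * a := Subtype.ext (D.cent a (D.PC a.2) b b.2)

omit [Fintype G] in
theorem inv_mul_self' (μ : P →* ℂˣ) : μ⁻¹ * μ = 1 := by ext x; simp

omit [Fintype G] in
theorem mul_inv_self' (μ : P →* ℂˣ) : μ * μ⁻¹ = 1 := by ext x; simp

/-- the twist of a function by a linear character of `P` -/
def tw (ψ : C → ℂ) (μ : P →* ℂˣ) : C → ℂ := fun c => ψ c * (μ (D.l c) : ℂ)

omit [Fintype C] in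
theorem isCharacter_mu (μ : P →* ℂˣ) : IsCharacter C (fun c => (μ (D.l c) : ℂ)) :=
  isCharacter_of_hom ((Units.coeHom ℂ).comp (μ.comp D.l))

omit [Fintype C] in
theorem mu_one (μ : P →* ℂˣ) : (fun c : C => (μ (D.l c) : ℂ)) 1 = 1 := by simp

/-- the twist of an irreducible character -/
def twI (ψ : IrrCharacter C) (μ : P →* ℂˣ) : IrrCharacter C :=
  ⟨tw D (ψ : C → ℂ) μ, ψ.2.mul_linear (isCharacter_mu D μ) (mu_one D μ)⟩

omit [Fintype C] in
theorem twI_apply (ψ : IrrCharacter C) (μ : P →* ℂˣ) (c : C) :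
    (twI D ψ μ : C → ℂ) c = (ψ : C → ℂ) c * (μ (D.l c) : ℂ) := rfl

omit [Fintype C] in
theorem twI_one (ψ : IrrCharacter C) : twI D ψ 1 = ψ := by
  apply Subtype.ext
  funext c
  rw [twI_apply]; simp

omit [Fintype C] in
theorem twI_twI (ψ : IrrCharacter C) (μ ν : P →* ℂˣ) : twI D (twI D ψ μ) ν = twI D ψ (μ * ν) := by
  apply Subtype.ext
  funext c
  rw [twI_apply, twI_apply, twI_apply, MonoidHom.mul_apply, Units.val_mul, mul_assoc]

omit [Fintype C] in
theorem twI_apply_one (ψ : IrrCharacter C) (μ : P →* ℂˣ) : (twI D ψ μ : C → ℂ) 1 = (ψ : C → ℂ) 1 := by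
  rw [twI_apply]; simp

/-- the element of `P` as an element of `C` -/
def Loc.inc (x : P) : C := ⟨x, D.PC x.2⟩

omit [Fintype G] [Fintype C] in
theorem Loc.l_inc (x : P) : D.l (D.inc x) = x := D.l_of_mem x x.2

omit [Fintype G] [Fintype C] in
theorem Loc.inc_mul (x y : P) : D.inc (x * y) = D.inc x * D.inc y := rfl

omit [Fintype G] [Fintype C] in
theorem Loc.inc_one : D.inc 1 = 1 := rfl

/-- `P` is in the kernel -/
def PT (ψ : C → ℂ) : Prop := ∀ (c : C) (x : P), ψ (c * D.inc x) = ψ c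

theorem exists_central (ψ : IrrCharacter C) :
    ∃ μ : P →* ℂˣ, ∀ (c : C) (x : P), (ψ : C → ℂ) (c * D.inc x) = (μ x : ℂ) * (ψ : C → ℂ) c := by
  obtain ⟨μ, hμ⟩ := ExtraChar.exists_central_hom ψ.2
  let ι : P →* Subgroup.center C :=
    { toFun := fun x => ⟨D.inc x, by
        rw [Subgroup.mem_center_iff]
        intro c
        exact Subtype.ext (D.cent c c.2 x x.2)⟩
      map_one' := rfl
      map_mul' := fun _ _ => rfl }
  exact ⟨μ.comp ι, fun c x => hμ (ι x) c⟩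

theorem exists_decomp (ψ : IrrCharacter C) :
    ∃ (ξ : IrrCharacter C) (μ : P →* ℂˣ), PT D (ξ : C → ℂ) ∧ twI D ξ μ = ψ := by
  obtain ⟨μ, hμ⟩ := exists_central D ψ
  refine ⟨twI D ψ μ⁻¹, μ, ?_, ?_⟩
  · intro c x
    rw [twI_apply, twI_apply, hμ, map_mul, D.l_inc, map_mul, Units.val_mul, MonoidHom.inv_apply μ x]
    have h := (μ x).ne_zero
    rw [Units.val_inv_eq_inv_val]
    field_simp
  · rw [twI_twI, inv_mul_self', twI_one]

theorem decomp_unique {ξ ξ' : IrrCharacter C} {μ μ' : P →* ℂˣ} (h : PT D (ξ : C → ℂ)) (h' : PT D (ξ' : C → ℂ))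
    (he : twI D ξ μ = twI D ξ' μ') : ξ = ξ' ∧ μ = μ' := by
  have h1 : (ξ : C → ℂ) 1 = (ξ' : C → ℂ) 1 := by
    rw [← twI_apply_one D ξ μ, he, twI_apply_one]
  have h2 : μ = μ' := by
    ext x
    have h3 := congrArg (fun ψ : IrrCharacter C => (ψ : C → ℂ) (D.inc x)) he
    simp only [twI_apply, D.l_inc] at h3
    have h4 := h 1 x
    have h5 := h' 1 x
    rw [one_mul] at h4 h5
    rw [h4, h5, ← h1] at h3
    exact mul_left_cancel₀ ξ.2.one_ne_zero h3
  refine ⟨?_, h2⟩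
  rw [← twI_one D ξ, ← twI_one D ξ', ← mul_inv_self' μ, ← twI_twI, he, h2, twI_twI]

/-- `Irr(C)` as pairs -/
noncomputable def eqv : {ξ : IrrCharacter C // PT D (ξ : C → ℂ)} × (P →* ℂˣ) ≃ IrrCharacter C :=
  Equiv.ofBijective (fun x => twI D x.1 x.2) ⟨by
    rintro ⟨⟨ξ, h⟩, μ⟩ ⟨⟨ξ', h'⟩, μ'⟩ he
    obtain ⟨h1, h2⟩ := decomp_unique D h h' he
    subst h1; subst h2; rfl, by
    intro ψ
    obtain ⟨ξ, μ, h, he⟩ := exists_decomp D ψ
    exact ⟨⟨⟨ξ, h⟩, μ⟩, he⟩⟩

/-- the `P`-trivial irreducible characters -/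
abbrev I0 : Type u := {ξ : IrrCharacter C // PT D (ξ : C → ℂ)}

variable [Fintype (P →* ℂˣ)] [Fintype P]

noncomputable instance : Fintype (I0 D) := Fintype.ofFinite _

theorem sum_irr {R : Type*} [AddCommMonoid R] (F : IrrCharacter C → R) :
    ∑ ψ : IrrCharacter C, F ψ = ∑ ξ : I0 D, ∑ μ : P →* ℂˣ, F (twI D ξ μ) := by
  rw [← Equiv.sum_comp (eqv D), Fintype.sum_prod_type]
  rfl

open Classical in
theorem sum_mu (D : Loc p P C N) (x : P) : ∑ μ : P →* ℂˣ, (μ x : ℂ) = if x = 1 then (Nat.card P : ℂ) else 0 := by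
  convert LinChar.sum_chars (Loc.comm D) x

/-- sum of the multiplicities over a family -/
theorem sum_family (f : C → ℂ) (ξ : IrrCharacter C) (h : ∀ c, D.l c = 1 → f c = 0) :
    ∑ μ : P →* ℂˣ, classInner f (twI D ξ μ : C → ℂ) = 0 := by
  classical
  rw [← classInner_sum_right, classInner_def]
  have h1 : ∀ c : C, f c * conj ((∑ μ : P →* ℂˣ, (twI D ξ μ : C → ℂ)) c) = 0 := by
    intro c
    by_cases hc : D.l c = 1
    · rw [h c hc, zero_mul]
    · have : (∑ μ : P →* ℂˣ, (twI D ξ μ : C → ℂ)) c = 0 := by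
        rw [Finset.sum_apply]
        simp only [twI_apply]
        rw [← Finset.mul_sum, sum_mu D, if_neg hc, mul_zero]
      rw [this, map_zero, mul_zero]
  rw [Finset.sum_eq_zero fun c _ => h1 c, mul_zero]

/-- multiplicity of `μ` in the restriction to `P` -/
noncomputable def mP (f : C → ℂ) (μ : P →* ℂˣ) : ℂ :=
  (Nat.card P : ℂ)⁻¹ * ∑ x : P, f (D.inc x) * conj (μ x : ℂ)

open Classical in
theorem sum_mul_conj' (μ ν : P →* ℂˣ) :
    ∑ x : P, (μ x : ℂ) * conj (ν x : ℂ) = if μ = ν then (Nat.card P : ℂ) else 0 := by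
  convert LinChar.sum_mul_conj μ ν

theorem mP_eq {f : C → ℂ} (hf : IsClassFunction C f) (μ : P →* ℂˣ) :
    mP D f μ = ∑ ξ : I0 D, classInner f (twI D ξ μ : C → ℂ) * ((ξ : IrrCharacter C) : C → ℂ) 1 := by
  classical
  have hP : (Nat.card P : ℂ) ≠ 0 := by exact_mod_cast Nat.card_pos.ne'
  rw [mP]
  have h1 : ∀ x : P, f (D.inc x) = ∑ ξ : I0 D, ∑ ν : P →* ℂˣ,
      classInner f (twI D ξ ν : C → ℂ) * (((ξ : IrrCharacter C) : C → ℂ) 1 * (ν x : ℂ)) := by
    intro x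
    rw [hf.expansion_apply, sum_irr D]
    refine Finset.sum_congr rfl fun ξ _ => Finset.sum_congr rfl fun ν _ => ?_
    rw [twI_apply, D.l_inc]
    have h2 := ξ.2 1 x
    rw [one_mul] at h2
    rw [h2]
  have h2 : ∑ x : P, f (D.inc x) * conj (μ x : ℂ) = ∑ ξ : I0 D, ∑ ν : P →* ℂˣ,
      classInner f (twI D ξ ν : C → ℂ) * ((ξ : IrrCharacter C) : C → ℂ) 1 *
        ∑ x : P, (ν x : ℂ) * conj (μ x : ℂ) := by
    simp only [h1, Finset.sum_mul, Finset.mul_sum]
    rw [Finset.sum_comm]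
    refine Finset.sum_congr rfl fun ξ _ => ?_
    rw [Finset.sum_comm]
    refine Finset.sum_congr rfl fun ν _ => Finset.sum_congr rfl fun x _ => ?_
    ring
  rw [h2, Finset.mul_sum]
  refine Finset.sum_congr rfl fun ξ _ => ?_
  rw [Finset.sum_eq_single μ]
  · rw [sum_mul_conj', if_pos rfl]
    field_simp
  · intro ν _ hν
    rw [sum_mul_conj', if_neg hν, mul_zero]
  · intro h; exact absurd (Finset.mem_univ _) h

/-- the degree as a double sum -/
theorem apply_one_eq {f : C → ℂ} (hf : IsClassFunction C f) :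
    f 1 = ∑ ξ : I0 D, (∑ μ : P →* ℂˣ, classInner f (twI D ξ μ : C → ℂ)) * ((ξ : IrrCharacter C) : C → ℂ) 1 := by
  classical
  rw [hf.expansion_apply, sum_irr D]
  refine Finset.sum_congr rfl fun ξ _ => ?_
  rw [Finset.sum_mul]
  refine Finset.sum_congr rfl fun ν _ => ?_
  rw [twI_apply_one]

end Cfsg.Agent.Lib.UnifCent
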