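import Cfsg.Agent.Lib.UnifCent2

/-!
# Induction from the uniform centralizer (helper74)
-/

set_option autoImplicit false
set_option linter.all false

namespace Cfsg.Agent.Lib.UnifCent

open Cfsg Cfsg.Agent.Lib.CharBasic
open Cfsg.Agent.Lib.IndFun (indFun_apply indFun_isClassFunction frobenius_reciprocity frobenius_reciprocity'
  extendByZero_mem extendByZero_not_mem)
open scoped ComplexConjugate

universe u

variable {G : Type u} [Group G] [Fintype G] {p : ℕ} {P C N : Subgroup G} [Fintype C] (D : Loc p P C N)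

/-- conjugation by an element of `N` as an automorphism of `C` -/
def cjE (n : N) : C ≃* C where
  toFun c := ⟨n * c * (n : G)⁻¹, D.conj_mem n n.2 c c.2⟩
  invFun c := ⟨(n : G)⁻¹ * c * n, by
    have := D.conj_mem (n : G)⁻¹ (N.inv_mem n.2) c c.2
    rwa [inv_inv] at this⟩
  left_inv c := Subtype.ext (by
    change (n : G)⁻¹ * (n * c * (n : G)⁻¹) * n = c
    group)
  right_inv c := Subtype.ext (by
    change (n : G) * ((n : G)⁻¹ * c * n) * (n : G)⁻¹ = c
    group)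
  map_mul' c d := Subtype.ext (by
    change (n : G) * (c * d) * (n : G)⁻¹ = (n : G) * c * (n : G)⁻¹ * ((n : G) * d * (n : G)⁻¹)
    group)

omit [Fintype G] [Fintype C] in
theorem cjE_coe (n : N) (c : C) : (cjE D n c : G) = n * c * (n : G)⁻¹ := rfl

/-- conjugate of a function on `C` by an element of `N` -/
def cjn (n : N) (φ : C → ℂ) : C → ℂ := fun c => φ (cjE D n c)

omit [Fintype G] [Fintype C] in
theorem cjn_apply (n : N) (φ : C → ℂ) (c : C) : cjn D n φ c = φ (cjE D n c) := rfl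

/-- conjugate of an irreducible character -/
def cjI (n : N) (ψ : IrrCharacter C) : IrrCharacter C :=
  ⟨cjn D n (ψ : C → ℂ), (isIrrCharacter_comp_mulEquiv_iff (cjE D n)).2 ψ.2⟩

omit [Fintype G] [Fintype C] in
theorem cjI_coe (n : N) (ψ : IrrCharacter C) : (cjI D n ψ : C → ℂ) = cjn D n (ψ : C → ℂ) := rfl

theorem classInner_cjn (n : N) (φ ψ : C → ℂ) : classInner (cjn D n φ) (cjn D n ψ) = classInner φ ψ :=
  Clifford.classInner_comp_equiv (cjE D n) φ ψ

omit [Fintype G] [Fintype C] in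
theorem cjn_res (n : N) {χ : G → ℂ} (hχ : IsClassFunction G χ) : cjn D n (fun c : C => χ c) = fun c : C => χ c := by
  funext c
  exact hχ c n

omit [Fintype G] [Fintype C] in
theorem cjn_cjn (n m : N) (φ : C → ℂ) : cjn D n (cjn D m φ) = cjn D (m * n) φ := by
  funext c
  rw [cjn_apply, cjn_apply, cjn_apply]
  congr 1
  apply Subtype.ext
  change (m : G) * (n * c * (n : G)⁻¹) * (m : G)⁻¹ = (m * n : G) * c * (m * n : G)⁻¹
  group

omit [Fintype G] [Fintype C] in
theorem cjI_cjI (n m : N) (φ : IrrCharacter C) : cjI D n (cjI D m φ) = cjI D (m * n) φ :=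
  Subtype.ext (cjn_cjn D n m _)

omit [Fintype G] [Fintype C] in
theorem cjI_of_mem (n : N) (h : (n : G) ∈ C) (φ : IrrCharacter C) : cjI D n φ = φ := by
  apply Subtype.ext
  funext c
  rw [cjI_coe, cjn_apply]
  have h1 := φ.2.isClassFunction c ⟨n, h⟩
  exact h1

omit [Fintype G] [Fintype C] in
theorem l_cjE (n : N) (c : C) : (D.l (cjE D n c) : G) = n * (D.l c : G) * (n : G)⁻¹ :=
  D.l_conj n n.2 c _ rfl

omit [Fintype G] [Fintype C] in
theorem l_cjE_eq_one (n : N) (c : C) : D.l (cjE D n c) = 1 ↔ D.l c = 1 := by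
  have h := l_cjE D n c
  constructor
  · intro h1
    rw [h1] at h
    have h2 : (1 : G) = n * (D.l c : G) * (n : G)⁻¹ := h
    have h3 := conj_eq_one_iff.1 h2.symm
    exact Subtype.ext h3
  · intro h1
    apply Subtype.ext
    rw [h, h1]
    change (n : G) * 1 * (n : G)⁻¹ = 1
    group

/-- conjugation on `P` -/
def cjP (n : N) : P ≃ P where
  toFun x := ⟨n * x * (n : G)⁻¹, D.conj_memP n n.2 x x.2⟩
  invFun x := ⟨(n : G)⁻¹ * x * n, by
    have := D.conj_memP (n : G)⁻¹ (N.inv_mem n.2) x x.2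
    rwa [inv_inv] at this⟩
  left_inv x := Subtype.ext (by
    change (n : G)⁻¹ * (n * x * (n : G)⁻¹) * n = x
    group)
  right_inv x := Subtype.ext (by
    change (n : G) * ((n : G)⁻¹ * x * n) * (n : G)⁻¹ = x
    group)

omit [Fintype G] [Fintype C] in
theorem cjE_inc (n : N) (x : P) : cjE D n (D.inc x) = D.inc (cjP D n x) := rfl

/-- the induced class function on `C` -/
theorem indFun_eq [Fintype N] {φ : C → ℂ} (h : ∀ c, D.l c = 1 → φ c = 0) (c : C) :
    indFun C φ (c : G) = (Nat.card C : ℂ)⁻¹ * ∑ n : N, cjn D n φ c := by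
  rw [indFun_apply]
  congr 1
  rw [← Equiv.sum_comp (Equiv.inv G)]
  symm
  refine Fintype.sum_of_injective (fun n : N => (n : G)) Subtype.val_injective _ _ ?_ ?_
  · intro g hg
    have hgN : g ∉ N := fun h => hg ⟨⟨g, h⟩, rfl⟩
    change extendByZero C φ ((g⁻¹)⁻¹ * c * g⁻¹) = 0
    rw [inv_inv]
    by_cases hC : g * c * g⁻¹ ∈ C
    · rw [extendByZero_mem C φ hC]
      apply h
      by_contra hl
      -- the order of `c`
      have h1 : D.l c ≠ 1 := by
        intro h2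
        apply hl
        rw [D.l_eq_one]
        rw [D.l_eq_one] at h2
        have h3 : orderOf (g * c * g⁻¹) = orderOf (c : G) := by
          have := (MulAut.conj g).orderOf_eq (c : G)
          rwa [MulAut.conj_apply] at this
        change ¬ p ∣ orderOf (g * c * g⁻¹)
        rw [h3]; exact h2
      exact hgN (D.ti c h1 g hC)
    · exact extendByZero_not_mem C φ hC
  · intro n
    change cjn D n φ c = extendByZero C φ (((n : G)⁻¹)⁻¹ * c * (n : G)⁻¹)
    rw [inv_inv, extendByZero_mem C φ (D.conj_mem n n.2 c c.2)]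
    rfl

theorem mem_C_of_cjI_eq {ψ : IrrCharacter C} (hψ : ¬ PT D (ψ : C → ℂ)) {n : N} (h : cjI D n ψ = ψ) :
    (n : G) ∈ C := by
  classical
  by_contra hn
  apply hψ
  obtain ⟨μ, hμ⟩ := exists_central D ψ
  have h1 : ∀ x : P, μ (cjP D n x) = μ x := by
    intro x
    have h2 := congrArg (fun φ : IrrCharacter C => (φ : C → ℂ) (D.inc x)) h
    simp only [cjI_coe, cjn_apply, cjE_inc] at h2
    have h3 := hμ 1 (cjP D n x)
    have h4 := hμ 1 x
    rw [one_mul] at h3 h4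
    rw [h3, h4] at h2
    exact Units.ext (mul_right_cancel₀ ψ.2.one_ne_zero h2)
  have h2 : Function.Injective (fun x : P => x⁻¹ * cjP D n x) := by
    intro x y hxy
    simp only at hxy
    have h3 : (x : G)⁻¹ * (n * x * (n : G)⁻¹) = (y : G)⁻¹ * (n * y * (n : G)⁻¹) := congrArg Subtype.val hxy
    have h4 : (n : G) * ((y : G) * (x : G)⁻¹) * (n : G)⁻¹ = (y : G) * (x : G)⁻¹ := by
      have h5 : ((n : G) * (x : G) * (n : G)⁻¹) = (x : G) * (y : G)⁻¹ * ((n : G) * (y : G) * (n : G)⁻¹) := by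
        rw [mul_assoc (x : G) (y : G)⁻¹, ← h3]; group
      have e1 : (n : G) * ((y : G) * (x : G)⁻¹) * (n : G)⁻¹ =
          ((n : G) * (y : G) * (n : G)⁻¹) * ((n : G) * (x : G) * (n : G)⁻¹)⁻¹ := by
        group
      rw [e1, h5]
      group
    have h5 := D.fpf n n.2 hn _ (P.mul_mem y.2 (P.inv_mem x.2)) h4
    exact Subtype.ext (mul_inv_eq_one.1 h5).symm
  have h3 : Function.Surjective (fun x : P => x⁻¹ * cjP D n x) := Finite.surjective_of_injective h2
  intro c y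
  obtain ⟨x, hx⟩ := h3 y
  rw [hμ]
  have h4 : μ y = 1 := by
    rw [← hx]
    simp only [map_mul, map_inv, h1, inv_mul_cancel]
  rw [h4, Units.val_one, one_mul]

/-- conjugacy indicator -/
noncomputable def dl (φ ψ : IrrCharacter C) : ℤ := by
  classical exact if ∃ n : N, cjI D n φ = ψ then 1 else 0

theorem dl_pos {φ ψ : IrrCharacter C} (h : ∃ n : N, cjI D n φ = ψ) : dl D φ ψ = 1 := by
  classical
  unfold dl; rw [if_pos h]

theorem dl_neg {φ ψ : IrrCharacter C} (h : ¬ ∃ n : N, cjI D n φ = ψ) : dl D φ ψ = 0 := by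
  classical
  unfold dl; rw [if_neg h]

theorem dl_nonneg (φ ψ : IrrCharacter C) : 0 ≤ dl D φ ψ := by
  by_cases h : ∃ n : N, cjI D n φ = ψ
  · rw [dl_pos D h]; norm_num
  · rw [dl_neg D h]

theorem dl_self (ψ : IrrCharacter C) : dl D ψ ψ = 1 :=
  dl_pos D ⟨1, cjI_of_mem D 1 C.one_mem ψ⟩

theorem sum_cjn [Fintype N] (φ : IrrCharacter C) {ψ : IrrCharacter C} (hψ : ¬ PT D (ψ : C → ℂ)) :
    (Nat.card C : ℂ)⁻¹ * ∑ n : N, classInner (cjn D n (φ : C → ℂ)) (ψ : C → ℂ) = (dl D φ ψ : ℂ) := by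
  classical
  have h0 : ∀ n : N, classInner (cjn D n (φ : C → ℂ)) (ψ : C → ℂ) = if cjI D n φ = ψ then 1 else 0 := fun n =>
    irr_orthonormal (cjI D n φ) ψ
  simp only [h0]
  by_cases h : ∃ n : N, cjI D n φ = ψ
  · rw [dl_pos D h]
    obtain ⟨n0, hn0⟩ := h
    have h1 : ∑ c : C, (1 : ℂ) = ∑ n : N, if cjI D n φ = ψ then 1 else 0 := by
      refine Fintype.sum_of_injective (fun c : C => (n0 * ⟨c, D.CN c.2⟩ : N)) ?_ _ _ ?_ ?_
      · intro c d hcd
        have h2 := mul_left_cancel hcd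
        exact Subtype.ext (congrArg (fun z : N => (z : G)) h2)
      · intro n hn
        rw [if_neg]
        intro h2
        apply hn
        have h3 : cjI D (n0⁻¹ * n) ψ = ψ := by
          conv_lhs => rw [← hn0]
          rw [cjI_cjI, mul_inv_cancel_left]; exact h2
        have h4 := mem_C_of_cjI_eq D hψ h3
        refine ⟨⟨_, h4⟩, ?_⟩
        apply Subtype.ext
        change (n0 : G) * ((n0 : G)⁻¹ * n) = n
        group
      · intro c
        rw [if_pos]
        rw [← cjI_cjI, hn0]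
        exact cjI_of_mem D _ c.2 ψ
    rw [← h1, Finset.sum_const, Finset.card_univ, nsmul_eq_mul, mul_one, ← Nat.card_eq_fintype_card]
    have : (Nat.card C : ℂ) ≠ 0 := by exact_mod_cast Nat.card_pos.ne'
    rw [inv_mul_cancel₀ this]; norm_num
  · rw [dl_neg D h, Finset.sum_eq_zero]
    · simp
    · intro n _
      rw [if_neg]
      intro h2; exact h ⟨n, h2⟩

/-- restriction to `C` -/
def rs (C : Subgroup G) (χ : G → ℂ) : C → ℂ := fun c => χ (c : G)

omit [Fintype G] [Fintype C] in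
theorem isClassFunction_rs {χ : G → ℂ} (hχ : IsClassFunction G χ) : IsClassFunction C (rs C χ) :=
  fun c d => hχ c d

/-- multiplicity of `ψ` in the restriction of `ζ` -/
noncomputable def m (ζ : IrrCharacter G) (ψ : IrrCharacter C) : ℕ :=
  ((ζ.2.isCharacter.restrict C).classInner_nat ψ.2.isCharacter).choose

omit [Fintype G] in
theorem m_spec (ζ : IrrCharacter G) (ψ : IrrCharacter C) :
    classInner (rs C (ζ : G → ℂ)) (ψ : C → ℂ) = (m ζ ψ : ℂ) :=
  ((ζ.2.isCharacter.restrict C).classInner_nat ψ.2.isCharacter).choose_spec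

theorem m_cjI (ζ : IrrCharacter G) (n : N) (ψ : IrrCharacter C) : m ζ (cjI D n ψ) = m ζ ψ := by
  have h : (m ζ (cjI D n ψ) : ℂ) = (m ζ ψ : ℂ) := by
    rw [← m_spec, ← m_spec, cjI_coe]
    have h1 : cjn D n (rs C (ζ : G → ℂ)) = rs C (ζ : G → ℂ) := cjn_res D n ζ.2.isClassFunction
    conv_lhs => rw [← h1]
    exact classInner_cjn D n _ _
  exact_mod_cast h

/-- same family: agree on `p`-regular elements -/
def Fam (φ ψ : C → ℂ) : Prop := ∀ c, D.l c = 1 → φ c = ψ c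

omit [Fintype C] in
theorem fam_twI (ξ : IrrCharacter C) (μ ν : P →* ℂˣ) : Fam D (twI D ξ μ : C → ℂ) (twI D ξ ν : C → ℂ) := by
  intro c hc
  rw [twI_apply, twI_apply, hc, map_one, map_one]

/-- the Gram matrix of the differences of restrictions -/
theorem gram [Fintype N] {ψ ψ' φ φ' : IrrCharacter C} (h : Fam D (ψ : C → ℂ) (ψ' : C → ℂ))
    (hφ : ¬ PT D (φ : C → ℂ)) (hφ' : ¬ PT D (φ' : C → ℂ)) :
    ∑ ζ : IrrCharacter G, ((m ζ ψ : ℤ) - m ζ ψ') * ((m ζ φ : ℤ) - m ζ φ') =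
      dl D ψ φ - dl D ψ φ' - dl D ψ' φ + dl D ψ' φ' := by
  classical
  set δ : C → ℂ := (ψ : C → ℂ) - (ψ' : C → ℂ) with hδ
  set δ₂ : C → ℂ := (φ : C → ℂ) - (φ' : C → ℂ) with hδ₂
  have hδ0 : ∀ c, D.l c = 1 → δ c = 0 := fun c hc => by rw [hδ, Pi.sub_apply, h c hc, sub_self]
  have h1 : classInner (indFun C δ) (indFun C δ₂) =
      ∑ ζ : IrrCharacter G, (((m ζ ψ : ℤ) - m ζ ψ' : ℤ) : ℂ) * (((m ζ φ : ℤ) - m ζ φ' : ℤ) : ℂ) := by
    rw [(indFun_isClassFunction C δ).classInner_eq_sum]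
    refine Finset.sum_congr rfl fun ζ _ => ?_
    have e1 : classInner (indFun C δ) (ζ : G → ℂ) = (((m ζ ψ : ℤ) - m ζ ψ' : ℤ) : ℂ) := by
      rw [frobenius_reciprocity C δ _ ζ.2.isClassFunction, ← conj_classInner]
      change conj (classInner (rs C (ζ : G → ℂ)) δ) = _
      rw [hδ, classInner_sub_right, m_spec, m_spec]
      simp
    have e2 : classInner (indFun C δ₂) (ζ : G → ℂ) = (((m ζ φ : ℤ) - m ζ φ' : ℤ) : ℂ) := by
      rw [frobenius_reciprocity C δ₂ _ ζ.2.isClassFunction, ← conj_classInner]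
      change conj (classInner (rs C (ζ : G → ℂ)) δ₂) = _
      rw [hδ₂, classInner_sub_right, m_spec, m_spec]
      simp
    rw [e1, e2]
    simp
  have h2 : classInner (indFun C δ) (indFun C δ₂) =
      (dl D ψ φ - dl D ψ φ' - dl D ψ' φ + dl D ψ' φ' : ℂ) := by
    rw [frobenius_reciprocity' C δ₂ _ (indFun_isClassFunction C δ)]
    have e1 : (fun c : C => indFun C δ (c : G)) = (Nat.card C : ℂ)⁻¹ • ∑ n : N, cjn D n δ := by
      funext c
      rw [indFun_eq D hδ0 c, Pi.smul_apply, Finset.sum_apply, smul_eq_mul]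
    rw [e1, classInner_smul_left, classInner_sum_left]
    have e2 : ∀ n : N, classInner (cjn D n δ) δ₂ =
        classInner (cjn D n (ψ : C → ℂ)) (φ : C → ℂ) - classInner (cjn D n (ψ : C → ℂ)) (φ' : C → ℂ) -
        classInner (cjn D n (ψ' : C → ℂ)) (φ : C → ℂ) + classInner (cjn D n (ψ' : C → ℂ)) (φ' : C → ℂ) := by
      intro n
      have e3 : cjn D n δ = cjn D n (ψ : C → ℂ) - cjn D n (ψ' : C → ℂ) := rfl
      rw [e3, hδ₂, classInner_sub_left, classInner_sub_right, classInner_sub_right]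
      ring
    simp only [e2, Finset.sum_add_distrib, Finset.sum_sub_distrib, mul_add, mul_sub]
    rw [sum_cjn D ψ hφ, sum_cjn D ψ hφ', sum_cjn D ψ' hφ, sum_cjn D ψ' hφ']
  have h3 := h1.symm.trans h2
  exact_mod_cast h3

/-- the induced difference as a combination of irreducible characters -/
theorem delta_apply {ψ ψ' : IrrCharacter C} (g : G) :
    indFun C ((ψ : C → ℂ) - (ψ' : C → ℂ)) g = ∑ ζ : IrrCharacter G, (((m ζ ψ : ℤ) - m ζ ψ' : ℤ) : ℂ) * (ζ : G → ℂ) g := by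
  rw [(indFun_isClassFunction C _).expansion_apply]
  refine Finset.sum_congr rfl fun ζ _ => ?_
  rw [frobenius_reciprocity C _ _ ζ.2.isClassFunction, ← conj_classInner]
  change conj (classInner (rs C (ζ : G → ℂ)) _) * _ = _
  rw [classInner_sub_right, m_spec, m_spec]
  simp

/-- the degree -/
noncomputable def dg (ζ : IrrCharacter G) : ℕ := ζ.2.exists_degree.choose

omit [Fintype G] in
theorem dg_pos (ζ : IrrCharacter G) : 0 < dg ζ := ζ.2.exists_degree.choose_spec.1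

omit [Fintype G] in
theorem dg_spec (ζ : IrrCharacter G) : (ζ : G → ℂ) 1 = dg ζ := ζ.2.exists_degree.choose_spec.2

theorem sum_deg [Fintype N] {ψ ψ' : IrrCharacter C} (h : Fam D (ψ : C → ℂ) (ψ' : C → ℂ)) :
    ∑ ζ : IrrCharacter G, ((m ζ ψ : ℤ) - m ζ ψ') * (dg ζ : ℤ) = 0 := by
  have hδ0 : ∀ c, D.l c = 1 → ((ψ : C → ℂ) - (ψ' : C → ℂ)) c = 0 := fun c hc => by
    rw [Pi.sub_apply, h c hc, sub_self]
  have h1 := delta_apply (ψ := ψ) (ψ' := ψ') (1 : G)
  have h2 := indFun_eq D hδ0 1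
  rw [Finset.sum_eq_zero, mul_zero] at h2
  · rw [← OneMemClass.coe_one C, h2] at h1
    have h3 : ((∑ ζ : IrrCharacter G, ((m ζ ψ : ℤ) - m ζ ψ') * (dg ζ : ℤ) : ℤ) : ℂ) = 0 := by
      rw [h1]
      push_cast
      refine Finset.sum_congr rfl fun ζ _ => ?_
      rw [dg_spec]
    exact_mod_cast h3
  · intro n _
    rw [cjn_apply]
    apply hδ0
    rw [l_cjE_eq_one]
    exact map_one D.l

/-- two-term lemma for integer vectors -/
theorem two_term {I : Type*} [Fintype I] (d deg : I → ℤ) (hdeg : ∀ i, 0 < deg i)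
    (h2 : ∑ i, d i * d i ≤ 2) (h1 : ∑ i, d i * deg i = 0) {i j : I} (hij : i ≠ j) (hi : d i ≠ 0) (hj : d j ≠ 0) :
    d i = - d j ∧ (d i = 1 ∨ d i = -1) ∧ ∀ k, k ≠ i → k ≠ j → d k = 0 := by
  classical
  have hsq : ∀ k, 0 ≤ d k * d k := fun k => mul_self_nonneg _
  have hi1 : 1 ≤ d i * d i := by
    have := lt_of_le_of_ne (hsq i) (Ne.symm (mul_ne_zero hi hi)); omega
  have hj1 : 1 ≤ d j * d j := by
    have := lt_of_le_of_ne (hsq j) (Ne.symm (mul_ne_zero hj hj)); omega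
  have e1 : ∑ k, d k * d k = d i * d i + (d j * d j + ∑ k ∈ (Finset.univ.erase i).erase j, d k * d k) := by
    rw [← Finset.add_sum_erase _ _ (Finset.mem_univ i),
      ← Finset.add_sum_erase _ _ (Finset.mem_erase.2 ⟨hij.symm, Finset.mem_univ j⟩)]
  have e2 : 0 ≤ ∑ k ∈ (Finset.univ.erase i).erase j, d k * d k := Finset.sum_nonneg fun k _ => hsq k
  have e3 : ∑ k ∈ (Finset.univ.erase i).erase j, d k * d k = 0 := by omega
  have e4 : d i * d i = 1 := by omega
  have e5 : d j * d j = 1 := by omega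
  have e6 : ∀ k, k ≠ i → k ≠ j → d k = 0 := by
    intro k hki hkj
    have := (Finset.sum_eq_zero_iff_of_nonneg fun k _ => hsq k).1 e3 k
      (Finset.mem_erase.2 ⟨hkj, Finset.mem_erase.2 ⟨hki, Finset.mem_univ k⟩⟩)
    exact mul_self_eq_zero.1 this
  have e7 : d i * deg i + d j * deg j = 0 := by
    rw [← h1, ← Finset.add_sum_erase _ _ (Finset.mem_univ i),
      ← Finset.add_sum_erase _ _ (Finset.mem_erase.2 ⟨hij.symm, Finset.mem_univ j⟩), Finset.sum_eq_zero, add_zero]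
    intro k hk
    rw [Finset.mem_erase, Finset.mem_erase] at hk
    rw [e6 k hk.2.1 hk.1, zero_mul]
  have hi' : d i = 1 ∨ d i = -1 := by
    rcases mul_self_eq_one_iff.1 e4 with h | h <;> simp [h]
  have hj' : d j = 1 ∨ d j = -1 := by
    rcases mul_self_eq_one_iff.1 e5 with h | h <;> simp [h]
  refine ⟨?_, hi', e6⟩
  have := hdeg i
  have := hdeg j
  rcases hi' with h | h <;> rcases hj' with h' | h' <;> rw [h, h'] at e7 <;> rw [h, h'] <;> omega

theorem two_term_exists {I : Type*} [Fintype I] (d deg : I → ℤ) (hdeg : ∀ i, 0 < deg i)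
    (h1 : ∑ i, d i * deg i = 0) {i : I} (hi : d i ≠ 0) : ∃ j, j ≠ i ∧ d j ≠ 0 := by
  classical
  by_contra hcon
  push Not at hcon
  rw [Finset.sum_eq_single i] at h1
  · rcases mul_eq_zero.1 h1 with h | h
    · exact hi h
    · exact (hdeg i).ne' h
  · intro j _ hj
    rw [hcon j hj, zero_mul]
  · intro h; exact absurd (Finset.mem_univ _) h

theorem norm_le [Fintype N] {ψ ψ' : IrrCharacter C} (h : Fam D (ψ : C → ℂ) (ψ' : C → ℂ))
    (hψ : ¬ PT D (ψ : C → ℂ)) (hψ' : ¬ PT D (ψ' : C → ℂ)) :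
    ∑ ζ : IrrCharacter G, ((m ζ ψ : ℤ) - m ζ ψ') * ((m ζ ψ : ℤ) - m ζ ψ') ≤ 2 := by
  rw [gram D h hψ hψ', dl_self, dl_self]
  have := dl_nonneg D ψ ψ'
  have := dl_nonneg D ψ' ψ
  omega

/-- the difference of two irreducible characters both involved in an induced difference -/
theorem pair_spec [Fintype N] {ψ ψ' : IrrCharacter C} (h : Fam D (ψ : C → ℂ) (ψ' : C → ℂ))
    (hψ : ¬ PT D (ψ : C → ℂ)) (hψ' : ¬ PT D (ψ' : C → ℂ)) {ζ ζ' : IrrCharacter G} (hne : ζ ≠ ζ')
    (h1 : m ζ ψ ≠ m ζ ψ') (h2 : m ζ' ψ ≠ m ζ' ψ') :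
    ((m ζ ψ : ℤ) - m ζ ψ' = -((m ζ' ψ : ℤ) - m ζ' ψ')) ∧ ((m ζ ψ : ℤ) - m ζ ψ' = 1 ∨ (m ζ ψ : ℤ) - m ζ ψ' = -1) ∧
      (∀ η : IrrCharacter G, η ≠ ζ → η ≠ ζ' → m η ψ = m η ψ') ∧
      ∀ g : G, indFun C ((ψ : C → ℂ) - (ψ' : C → ℂ)) g =
        (((m ζ ψ : ℤ) - m ζ ψ' : ℤ) : ℂ) * ((ζ : G → ℂ) g - (ζ' : G → ℂ) g) := by
  classical
  obtain ⟨e1, e2, e3⟩ := two_term (fun ζ : IrrCharacter G => (m ζ ψ : ℤ) - m ζ ψ') (fun ζ => (dg ζ : ℤ))
    (fun ζ => by exact_mod_cast dg_pos ζ) (norm_le D h hψ hψ') (sum_deg D h) hne (by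
      intro h3; apply h1; omega) (by intro h3; apply h2; omega)
  refine ⟨e1, e2, fun η h3 h4 => by have := e3 η h3 h4; omega, fun g => ?_⟩
  rw [delta_apply, ← Finset.add_sum_erase _ _ (Finset.mem_univ ζ),
    ← Finset.add_sum_erase _ _ (Finset.mem_erase.2 ⟨hne.symm, Finset.mem_univ ζ'⟩), Finset.sum_eq_zero]
  · rw [e1]; push_cast; ring
  · intro η hη
    rw [Finset.mem_erase, Finset.mem_erase] at hη
    rw [e3 η hη.2.1 hη.1]; simp

end Cfsg.Agent.Lib.UnifCent
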