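import Cfsg.Agent.Lib.UnifCent3
import Cfsg.Agent.Lib.CharValues

/-!
# The main computation in the uniform centralizer situation (helper74)
-/

set_option autoImplicit false
set_option linter.all false

namespace Cfsg.Agent.Lib.UnifCent

open Cfsg Cfsg.Agent.Lib Cfsg.Agent.Lib.CharBasic
open Cfsg.Agent.Lib.IndFun (indFun_apply indFun_isClassFunction frobenius_reciprocity frobenius_reciprocity'
  extendByZero_mem extendByZero_not_mem)
open scoped ComplexConjugate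

universe u

section ker
variable {G : Type u} [Group G]

/-- the kernel of a character -/
def chKer [Finite G] {χ : G → ℂ} (hχ : IsCharacter G χ) : Subgroup G where
  carrier := {g : G | χ g = χ 1}
  mul_mem' := fun {a b} ha hb => by
    obtain ⟨n, ρ, rfl⟩ := hχ
    simp only [Set.mem_setOf_eq] at ha hb ⊢
    rw [Representation.char_one, CharValues.character_eq_finrank_iff] at *
    rw [map_mul, ha, hb]
    rfl
  one_mem' := rfl
  inv_mem' := fun {a} ha => by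
    simp only [Set.mem_setOf_eq] at ha ⊢
    rw [hχ.inv, ha]
    obtain ⟨n, hn⟩ := hχ.exists_degree
    rw [hn]; simp

theorem mem_chKer [Finite G] {χ : G → ℂ} (hχ : IsCharacter G χ) {g : G} : g ∈ chKer hχ ↔ χ g = χ 1 := Iff.rfl

theorem chKer_normal [Finite G] {χ : G → ℂ} (hχ : IsCharacter G χ) : (chKer hχ).Normal :=
  ⟨fun n hn g => by
    rw [mem_chKer] at hn ⊢
    rw [hχ.isClassFunction n g, hn]⟩

theorem eq_one_of_ker_top [Finite G] {χ : G → ℂ} (hχ : IsIrrCharacter G χ) (h : ∀ g, χ g = χ 1) : χ = 1 := by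
  have := Fintype.ofFinite G
  by_contra hne
  have h1 := hχ.classInner_eq_zero isIrrCharacter_one hne
  have h2 : χ = (χ 1) • (1 : G → ℂ) := by
    funext g; rw [Pi.smul_apply, h g]; simp
  rw [h2, classInner_smul_left, isIrrCharacter_one.classInner_self, mul_one] at h1
  exact hχ.one_ne_zero h1

end ker

variable {G : Type u} [Group G] [Fintype G] {p : ℕ} {P C N : Subgroup G} [Fintype C] (D : Loc p P C N)

theorem one_twI_ne {ξ : IrrCharacter C} (hξ : PT D (ξ : C → ℂ)) {μ : P →* ℂˣ} (hμ : μ ≠ 1) :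
    ¬ PT D (twI D ξ μ : C → ℂ) := by
  intro h
  exact hμ (decomp_unique D hξ h (μ' := 1) (by rw [twI_one])).2

theorem key_pair {ξ : IrrCharacter C} {ζ ζ' : IrrCharacter G}
    (h : ∃ a b : P →* ℂˣ, a ≠ 1 ∧ b ≠ 1 ∧ m ζ (twI D ξ a) ≠ m ζ (twI D ξ b))
    (h' : ∃ a b : P →* ℂˣ, a ≠ 1 ∧ b ≠ 1 ∧ m ζ' (twI D ξ a) ≠ m ζ' (twI D ξ b)) :
    ∃ a b : P →* ℂˣ, a ≠ 1 ∧ b ≠ 1 ∧ m ζ (twI D ξ a) ≠ m ζ (twI D ξ b) ∧
      m ζ' (twI D ξ a) ≠ m ζ' (twI D ξ b) := by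
  obtain ⟨a, b, ha, hb, hab⟩ := h
  obtain ⟨c, d, hc, hd, hcd⟩ := h'
  by_cases hA : m ζ' (twI D ξ a) = m ζ' (twI D ξ b)
  swap
  · exact ⟨a, b, ha, hb, hab, hA⟩
  by_cases hB : m ζ (twI D ξ c) = m ζ (twI D ξ d)
  swap
  · exact ⟨c, d, hc, hd, hB, hcd⟩
  obtain ⟨z, hz, hz1, hz2⟩ : ∃ z : P →* ℂˣ, z ≠ 1 ∧ m ζ' (twI D ξ z) ≠ m ζ' (twI D ξ a) ∧
      m ζ (twI D ξ z) = m ζ (twI D ξ c) := by
    by_cases h1 : m ζ' (twI D ξ c) = m ζ' (twI D ξ a)
    · exact ⟨d, hd, by rw [← h1]; exact fun h => hcd h.symm, hB.symm⟩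
    · exact ⟨c, hc, h1, rfl⟩
  by_cases h1 : m ζ (twI D ξ a) = m ζ (twI D ξ z)
  · exact ⟨b, z, hb, hz, by rw [← h1]; exact fun h => hab h.symm, by rw [← hA]; exact fun h => hz1 h.symm⟩
  · exact ⟨a, z, ha, hz, h1, fun h => hz1 h.symm⟩

variable [Fintype (P →* ℂˣ)] [Fintype P] [Fintype N]

theorem sum_mu_one {μ : P →* ℂˣ} (hμ : μ ≠ 1) : ∑ x : P, (μ x : ℂ) = 0 := by
  classical
  have h := LinChar.sum_hom μ
  rw [if_neg hμ] at h
  exact h

theorem pair_conseq {ξ : IrrCharacter C} (hξ : PT D (ξ : C → ℂ)) {ζ ζ' : IrrCharacter G} (hne : ζ ≠ ζ')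
    {a b : P →* ℂˣ} (ha : a ≠ 1) (hb : b ≠ 1) (h1 : m ζ (twI D ξ a) ≠ m ζ (twI D ξ b))
    (h2 : m ζ' (twI D ξ a) ≠ m ζ' (twI D ξ b)) :
    (∀ c : C, D.l c = 1 → (ζ : G → ℂ) c = (ζ' : G → ℂ) c) ∧
      mP D (rs C (ζ : G → ℂ)) 1 = mP D (rs C (ζ' : G → ℂ)) 1 := by
  classical
  have hf := fam_twI D ξ a b
  obtain ⟨-, e2, -, e4⟩ := pair_spec D hf (one_twI_ne D hξ ha) (one_twI_ne D hξ hb) hne h1 h2
  set ε : ℂ := (((m ζ (twI D ξ a) : ℤ) - m ζ (twI D ξ b) : ℤ) : ℂ) with hε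
  have hε0 : ε ≠ 0 := by
    rw [hε]
    rcases e2 with h | h <;> rw [h] <;> norm_num
  set δ : C → ℂ := (twI D ξ a : C → ℂ) - (twI D ξ b : C → ℂ) with hδ
  have hδ0 : ∀ c, D.l c = 1 → δ c = 0 := fun c hc => by rw [hδ, Pi.sub_apply, hf c hc, sub_self]
  constructor
  · intro c hc
    have h3 := indFun_eq D hδ0 c
    rw [Finset.sum_eq_zero, mul_zero, e4] at h3
    · rcases mul_eq_zero.1 h3 with h | h
      · exact absurd h hε0
      · exact sub_eq_zero.1 h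
    · intro n _
      rw [cjn_apply]
      apply hδ0
      rwa [l_cjE_eq_one]
  · have h3 : ∑ x : P, indFun C δ ((D.inc x : C) : G) = 0 := by
      have h4 : ∀ x : P, indFun C δ ((D.inc x : C) : G) = (Nat.card C : ℂ)⁻¹ * ∑ n : N, δ (D.inc (cjP D n x)) :=
        fun x => indFun_eq D hδ0 (D.inc x)
      simp only [h4]
      rw [← Finset.mul_sum, Finset.sum_comm, Finset.sum_eq_zero, mul_zero]
      intro n _
      rw [Equiv.sum_comp (cjP D n) (fun x => δ (D.inc x))]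
      have h5 : ∀ x : P, δ (D.inc x) = (ξ : C → ℂ) 1 * ((a x : ℂ) - (b x : ℂ)) := by
        intro x
        have h6 := hξ 1 x
        rw [one_mul] at h6
        rw [hδ, Pi.sub_apply, twI_apply, twI_apply, D.l_inc, h6]; ring
      simp only [h5]
      rw [← Finset.mul_sum, Finset.sum_sub_distrib, sum_mu_one ha, sum_mu_one hb, sub_self, mul_zero]
    simp only [e4] at h3
    rw [← Finset.mul_sum, Finset.sum_sub_distrib] at h3
    rcases mul_eq_zero.1 h3 with h | h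
    · exact absurd h hε0
    · rw [mP, mP]
      congr 1
      simp only [MonoidHom.one_apply, Units.val_one, map_one, mul_one]
      exact sub_eq_zero.1 h

/-- multiplicity of the family of `ξ` in the nontrivial part -/
noncomputable def kap (ζ : IrrCharacter G) (ξ : IrrCharacter C) : ℕ := by
  classical exact ∑ μ ∈ (Finset.univ : Finset (P →* ℂˣ)).erase 1, m ζ (twI D ξ μ)

/-- dimension of the fixed points of `P` -/
noncomputable def bb (ζ : IrrCharacter G) : ℕ := ∑ ξ : I0 D, m ζ ξ.1 * dg ξ.1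

theorem sum_m_eq (ζ : IrrCharacter G) (ξ : IrrCharacter C) : ∑ μ : P →* ℂˣ, m ζ (twI D ξ μ) = m ζ ξ + kap D ζ ξ := by
  classical
  unfold kap
  rw [← Finset.add_sum_erase _ _ (Finset.mem_univ (1 : P →* ℂˣ)), twI_one]

theorem dg_eq (ζ : IrrCharacter G) : dg ζ = ∑ ξ : I0 D, (∑ μ : P →* ℂˣ, m ζ (twI D ξ.1 μ)) * dg ξ.1 := by
  have h1 := apply_one_eq D (isClassFunction_rs (C := C) ζ.2.isClassFunction)
  have h2 : rs C (ζ : G → ℂ) 1 = dg ζ := dg_spec ζ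
  rw [h2] at h1
  have h3 : (dg ζ : ℂ) = ((∑ ξ : I0 D, (∑ μ : P →* ℂˣ, m ζ (twI D ξ.1 μ)) * dg ξ.1 : ℕ) : ℂ) := by
    rw [h1]
    push_cast
    refine Finset.sum_congr rfl fun ξ _ => ?_
    rw [dg_spec]
    congr 1
    refine Finset.sum_congr rfl fun μ _ => ?_
    rw [m_spec]
  exact_mod_cast h3

theorem dg_eq' (ζ : IrrCharacter G) : dg ζ = bb D ζ + ∑ ξ : I0 D, kap D ζ ξ.1 * dg ξ.1 := by
  rw [dg_eq D, bb, ← Finset.sum_add_distrib]
  refine Finset.sum_congr rfl fun ξ _ => ?_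
  rw [sum_m_eq]; ring

theorem mP_one (ζ : IrrCharacter G) : mP D (rs C (ζ : G → ℂ)) 1 = bb D ζ := by
  rw [mP_eq D (isClassFunction_rs ζ.2.isClassFunction), bb]
  push_cast
  refine Finset.sum_congr rfl fun ξ _ => ?_
  rw [twI_one, m_spec, dg_spec]

theorem mP_mu (ζ : IrrCharacter G) (μ : P →* ℂˣ) :
    mP D (rs C (ζ : G → ℂ)) μ = ((∑ ξ : I0 D, m ζ (twI D ξ.1 μ) * dg ξ.1 : ℕ) : ℂ) := by
  rw [mP_eq D (isClassFunction_rs ζ.2.isClassFunction)]
  push_cast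
  refine Finset.sum_congr rfl fun ξ _ => ?_
  rw [m_spec, dg_spec]

omit [Fintype G] [Fintype C] [Fintype N] in
theorem card_erase : ((Finset.univ : Finset (P →* ℂˣ)).erase 1).card = Fintype.card (P →* ℂˣ) - 1 := by
  classical
  rw [Finset.card_erase_of_mem (Finset.mem_univ _), Finset.card_univ]

theorem card_dual (D : Loc p P C N) : Fintype.card (P →* ℂˣ) = Nat.card P := by
  rw [← Nat.card_eq_fintype_card]
  exact LinChar.card_hom (Loc.comm D)

/-- characters of small degree are not constant on a family in which they occur -/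
theorem exists_pair_of_small {ζ : IrrCharacter G} (hs : dg ζ + 1 < Nat.card P) (ξ : I0 D)
    (h : kap D ζ ξ.1 ≠ 0) : ∃ a b : P →* ℂˣ, a ≠ 1 ∧ b ≠ 1 ∧ m ζ (twI D ξ.1 a) ≠ m ζ (twI D ξ.1 b) := by
  classical
  by_contra hcon
  push Not at hcon
  have h1 : ∃ μ ∈ (Finset.univ : Finset (P →* ℂˣ)).erase 1, m ζ (twI D ξ.1 μ) ≠ 0 := by
    by_contra h2
    push Not at h2
    apply h
    unfold kap
    exact Finset.sum_eq_zero h2
  obtain ⟨μ, hμ, hμ0⟩ := h1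
  have hμ1 : μ ≠ 1 := (Finset.mem_erase.1 hμ).1
  have h2 : ((Finset.univ : Finset (P →* ℂˣ)).erase 1).card ≤ kap D ζ ξ.1 := by
    unfold kap
    rw [Finset.card_eq_sum_ones]
    refine Finset.sum_le_sum fun ν hν => ?_
    rw [hcon ν μ (Finset.mem_erase.1 hν).1 hμ1]
    exact Nat.one_le_iff_ne_zero.2 hμ0
  rw [card_erase, card_dual D] at h2
  have h3 := dg_eq' D ζ
  have h4 : kap D ζ ξ.1 * dg ξ.1 ≤ ∑ ξ : I0 D, kap D ζ ξ.1 * dg ξ.1 :=
    Finset.single_le_sum (f := fun ξ : I0 D => kap D ζ ξ.1 * dg ξ.1) (fun _ _ => Nat.zero_le _) (Finset.mem_univ ξ)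
  have h5 := dg_pos ξ.1
  have h6 : kap D ζ ξ.1 ≤ kap D ζ ξ.1 * dg ξ.1 := Nat.le_mul_of_pos_right _ h5
  omega

/-- small characters sharing a family -/
theorem small_conseq {ζ ζ' : IrrCharacter G} (hs : dg ζ + 1 < Nat.card P) (hs' : dg ζ' + 1 < Nat.card P)
    (ξ : I0 D) (h : kap D ζ ξ.1 ≠ 0) (h' : kap D ζ' ξ.1 ≠ 0) : dg ζ = dg ζ' ∧ bb D ζ = bb D ζ' := by
  classical
  by_cases hne : ζ = ζ'
  · subst hne; exact ⟨rfl, rfl⟩
  obtain ⟨a, b, ha, hb, h1, h2⟩ := key_pair D (exists_pair_of_small D hs ξ h) (exists_pair_of_small D hs' ξ h')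
  obtain ⟨e1, e2⟩ := pair_conseq D ξ.2 hne ha hb h1 h2
  constructor
  · have h3 := e1 1 (map_one D.l)
    rw [OneMemClass.coe_one, dg_spec, dg_spec] at h3
    exact_mod_cast h3
  · rw [mP_one, mP_one] at e2
    exact_mod_cast e2

end Cfsg.Agent.Lib.UnifCent
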