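import Cfsg.Agent.Lib.UnifCent4

/-!
# The degree bound in the uniform centralizer situation (helper74)
-/

set_option autoImplicit false
set_option linter.all false

namespace Cfsg.Agent.Lib.UnifCent

open Cfsg Cfsg.Agent.Lib Cfsg.Agent.Lib.CharBasic
open Cfsg.Agent.Lib.IndFun (indFun_apply indFun_isClassFunction frobenius_reciprocity frobenius_reciprocity'
  extendByZero_mem extendByZero_not_mem)
open scoped ComplexConjugate

universe u

variable {G : Type u} [Group G] [Fintype G] {p : ℕ} {P C N : Subgroup G} [Fintype C] (D : Loc p P C N)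
variable [Fintype (P →* ℂˣ)] [Fintype P] [Fintype N]

theorem bb_le (ζ : IrrCharacter G) : bb D ζ ≤ dg ζ := by
  rw [dg_eq' D ζ]; exact Nat.le_add_right _ _

theorem bb_lt (hgen : ∀ K : Subgroup G, K.Normal → P ≤ K → K = ⊤) {ζ : IrrCharacter G}
    (h1 : (ζ : G → ℂ) ≠ 1) : bb D ζ < dg ζ := by
  classical
  by_contra hcon
  apply h1
  have h2 := dg_eq' D ζ
  have h3 : ∑ ξ : I0 D, kap D ζ ξ.1 * dg ξ.1 = 0 := by omega
  have h4 : ∀ ξ : I0 D, kap D ζ ξ.1 = 0 := by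
    intro ξ
    have h5 := (Finset.sum_eq_zero_iff.1 h3) ξ (Finset.mem_univ ξ)
    exact (Nat.mul_eq_zero.1 h5).resolve_right (dg_pos ξ.1).ne'
  have h5 : ∀ (ξ : I0 D) (μ : P →* ℂˣ), μ ≠ 1 → m ζ (twI D ξ.1 μ) = 0 := by
    intro ξ μ hμ
    have h6 := h4 ξ
    unfold kap at h6
    exact Finset.sum_eq_zero_iff.1 h6 μ (Finset.mem_erase.2 ⟨hμ, Finset.mem_univ _⟩)
  have h6 : P ≤ chKer ζ.2.isCharacter := by
    intro x hx
    rw [mem_chKer]
    have hcf := isClassFunction_rs (C := C) ζ.2.isClassFunction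
    have h7 : (ζ : G → ℂ) x = rs C (ζ : G → ℂ) (D.inc ⟨x, hx⟩) := rfl
    have h8 : (ζ : G → ℂ) 1 = rs C (ζ : G → ℂ) 1 := rfl
    rw [h7, h8, hcf.expansion_apply, hcf.expansion_apply (1 : C), sum_irr D, sum_irr D]
    refine Finset.sum_congr rfl fun ξ _ => Finset.sum_congr rfl fun μ _ => ?_
    by_cases hμ : μ = 1
    · subst hμ
      rw [twI_apply, twI_apply]
      have h9 := ξ.2 1 ⟨x, hx⟩
      rw [one_mul] at h9
      rw [h9]; simp
    · rw [m_spec, h5 ξ μ hμ]; simp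
  have h7 := hgen _ (chKer_normal ζ.2.isCharacter) h6
  apply eq_one_of_ker_top ζ.2
  intro g
  have h8 : g ∈ chKer ζ.2.isCharacter := by rw [h7]; exact Subgroup.mem_top g
  exact h8

theorem card_occ_le (χ : IrrCharacter G) [DecidablePred fun μ : P →* ℂˣ => ∃ ξ : I0 D, m χ (twI D ξ.1 μ) ≠ 0] :
    ((Finset.univ : Finset (P →* ℂˣ)).filter (fun μ => ∃ ξ : I0 D, m χ (twI D ξ.1 μ) ≠ 0)).card ≤ dg χ := by
  classical
  rw [dg_eq D χ]
  have h1 : ∑ ξ : I0 D, (∑ μ : P →* ℂˣ, m χ (twI D ξ.1 μ)) * dg ξ.1 =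
      ∑ μ : P →* ℂˣ, ∑ ξ : I0 D, m χ (twI D ξ.1 μ) * dg ξ.1 := by
    rw [Finset.sum_comm]
    refine Finset.sum_congr rfl fun ξ _ => ?_
    rw [Finset.sum_mul]
  rw [h1, Finset.card_eq_sum_ones]
  refine le_trans (Finset.sum_le_sum fun μ hμ => ?_)
    (Finset.sum_le_sum_of_subset (Finset.subset_univ
      ((Finset.univ : Finset (P →* ℂˣ)).filter (fun μ => ∃ ξ : I0 D, m χ (twI D ξ.1 μ) ≠ 0))))
  obtain ⟨ξ, hξ⟩ := (Finset.mem_filter.1 hμ).2
  have h2 : m χ (twI D ξ.1 μ) * dg ξ.1 ≤ ∑ ξ : I0 D, m χ (twI D ξ.1 μ) * dg ξ.1 :=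
    Finset.single_le_sum (f := fun ξ : I0 D => m χ (twI D ξ.1 μ) * dg ξ.1) (fun _ _ => Nat.zero_le _)
      (Finset.mem_univ ξ)
  exact le_trans (Nat.mul_pos (Nat.pos_of_ne_zero hξ) (dg_pos ξ.1)) h2

theorem exists_missing (χ : IrrCharacter G) (S : Finset (P →* ℂˣ)) (h : S.card + dg χ < Nat.card P) :
    ∃ μ : P →* ℂˣ, μ ∉ S ∧ ∀ ξ : I0 D, m χ (twI D ξ.1 μ) = 0 := by
  classical
  by_contra hcon
  push Not at hcon
  have h1 : (Finset.univ : Finset (P →* ℂˣ)) ⊆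
      S ∪ (Finset.univ.filter (fun μ => ∃ ξ : I0 D, m χ (twI D ξ.1 μ) ≠ 0)) := by
    intro μ _
    rw [Finset.mem_union, Finset.mem_filter]
    by_cases hμ : μ ∈ S
    · exact Or.inl hμ
    · exact Or.inr ⟨Finset.mem_univ _, hcon μ hμ⟩
  have h2 := Finset.card_le_card h1
  have h3 := Finset.card_union_le S (Finset.univ.filter (fun μ => ∃ ξ : I0 D, m χ (twI D ξ.1 μ) ≠ 0))
  have h4 := card_occ_le D χ
  rw [Finset.card_univ, card_dual D] at h2
  omega

omit [Fintype G] [Fintype (P →* ℂˣ)] [Fintype P] [Fintype N] in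
theorem classInner_eq_zero_of_central {f g : C → ℂ} {μ ν : P →* ℂˣ} (hμν : μ ≠ ν)
    (hf : ∀ (c : C) (x : P), f (c * D.inc x) = (μ x : ℂ) * f c)
    (hg : ∀ (c : C) (x : P), g (c * D.inc x) = (ν x : ℂ) * g c) (hν : ∀ x : P, ‖(ν x : ℂ)‖ = 1) :
    classInner f g = 0 := by
  obtain ⟨x, hx⟩ : ∃ x, μ x ≠ ν x := by
    by_contra h
    push Not at h
    exact hμν (MonoidHom.ext h)
  have h1 : classInner f g = ((μ x : ℂ) * conj (ν x : ℂ)) * classInner f g := by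
    rw [classInner_def]
    conv_lhs => rw [← Equiv.sum_comp (Equiv.mulRight (D.inc x))]
    have h2 : ∀ c : C, f ((Equiv.mulRight (D.inc x)) c) * conj (g ((Equiv.mulRight (D.inc x)) c)) =
        ((μ x : ℂ) * conj (ν x : ℂ)) * (f c * conj (g c)) := by
      intro c
      rw [Equiv.coe_mulRight, hf, hg, map_mul]; ring
    simp only [h2]
    rw [← Finset.mul_sum]; ring
  by_contra h0
  have h2 : (μ x : ℂ) * conj (ν x : ℂ) = 1 := by
    have h3 : ((μ x : ℂ) * conj (ν x : ℂ) - 1) * classInner f g = 0 := by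
      rw [sub_mul, one_mul, ← h1, sub_self]
    rcases mul_eq_zero.1 h3 with h | h
    · exact sub_eq_zero.1 h
    · exact absurd h h0
  apply hx
  apply Units.ext
  have h3 : conj (ν x : ℂ) * (ν x : ℂ) = 1 := by
    rw [mul_comm, Complex.mul_conj, Complex.normSq_eq_norm_sq, hν x]; simp
  calc (μ x : ℂ) = (μ x : ℂ) * (conj (ν x : ℂ) * (ν x : ℂ)) := by rw [h3, mul_one]
    _ = ((μ x : ℂ) * conj (ν x : ℂ)) * (ν x : ℂ) := by ring
    _ = ν x := by rw [h2, one_mul]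

omit [Fintype G] [Fintype (P →* ℂˣ)] [Fintype N] [Fintype C] in
theorem norm_mu (μ : P →* ℂˣ) (x : P) : ‖(μ x : ℂ)‖ = 1 := by
  have h1 : (μ x : ℂ) ^ Nat.card P = 1 := by
    rw [← Units.val_pow_eq_pow_val, ← map_pow, pow_card_eq_one', map_one, Units.val_one]
  exact Complex.norm_eq_one_of_pow_eq_one h1 (Nat.card_pos).ne'

theorem twI_central (ξ : I0 D) (μ : P →* ℂˣ) (c : C) (x : P) :
    (twI D ξ.1 μ : C → ℂ) (c * D.inc x) = (μ x : ℂ) * (twI D ξ.1 μ : C → ℂ) c := by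
  rw [twI_apply, twI_apply, ξ.2 c x, map_mul, D.l_inc, map_mul, Units.val_mul]; ring

/-- a missing `P`-character is orthogonal -/
theorem classInner_missing {χ : IrrCharacter G} {μ : P →* ℂˣ} (h : ∀ ξ : I0 D, m χ (twI D ξ.1 μ) = 0)
    {g : C → ℂ} (hg : ∀ (c : C) (x : P), g (c * D.inc x) = (μ x : ℂ) * g c) :
    classInner (rs C (χ : G → ℂ)) g = 0 := by
  classical
  have hcf := isClassFunction_rs (C := C) χ.2.isClassFunction
  rw [hcf.expansion, sum_irr D, classInner_sum_left]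
  refine Finset.sum_eq_zero fun ξ _ => ?_
  rw [classInner_sum_left]
  refine Finset.sum_eq_zero fun ν _ => ?_
  rw [classInner_smul_left, m_spec]
  by_cases hν : ν = μ
  · subst hν; rw [h ξ]; simp
  · rw [classInner_eq_zero_of_central D hν (twI_central D ξ ν) hg (norm_mu μ), mul_zero]

end Cfsg.Agent.Lib.UnifCent
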