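import Cfsg.Agent.Lib.UnifCent5

/-!
# The degree bound in the uniform centralizer situation: the main theorem (helper74)
-/

set_option autoImplicit false
set_option linter.all false

namespace Cfsg.Agent.Lib.UnifCent

open Cfsg Cfsg.Agent.Lib Cfsg.Agent.Lib.CharBasic
open Cfsg.Agent.Lib.IndFun (indFun_apply indFun_isClassFunction frobenius_reciprocity frobenius_reciprocity'
  extendByZero_mem extendByZero_not_mem)
open scoped ComplexConjugate

universe u

variable {G : Type u} [Group G] [Fintype G] {p : ℕ} {P C N : Subgroup G} [Fintype C] (D : Loc p P C N)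
variable [Fintype (P →* ℂˣ)] [Fintype P] [Fintype N]

/-- the trivial character -/
def oneI (G : Type u) [Group G] : IrrCharacter G := ⟨1, isIrrCharacter_one⟩

theorem dg_one : dg (oneI G) = 1 := by
  have h := dg_spec (oneI G)
  have h1 : (oneI G : G → ℂ) 1 = 1 := rfl
  rw [h1] at h
  exact_mod_cast h.symm

/-- the weighted sum inequality -/
theorem weighted (hgen : ∀ K : Subgroup G, K.Normal → P ≤ K → K = ⊤) (a : IrrCharacter G → ℤ)
    (hsmall : ∀ ζ, a ζ ≠ 0 → dg ζ + 1 < Nat.card P) (ha1 : a (oneI G) = 1)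
    (hK : ∀ ξ : I0 D, ∑ ζ : IrrCharacter G, a ζ * (kap D ζ ξ.1 : ℤ) ≤ 0) :
    ∑ ζ : IrrCharacter G, a ζ * (bb D ζ : ℤ) ≤ 1 := by
  classical
  set Q : I0 D → IrrCharacter G → Prop := fun ξ ζ => dg ζ + 1 < Nat.card P ∧ kap D ζ ξ.1 ≠ 0 ∧ ζ ≠ oneI G with hQ
  let r : I0 D → ℚ := fun ξ => if h : ∃ ζ, Q ξ ζ then (bb D h.choose : ℚ) / ((dg h.choose : ℚ) - bb D h.choose) else 0
  have hr0 : ∀ ξ, 0 ≤ r ξ := by
    intro ξ
    simp only [r]
    split_ifs with h
    · apply div_nonneg (Nat.cast_nonneg _)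
      have := bb_le D h.choose
      rw [sub_nonneg]; exact_mod_cast this
    · exact le_rfl
  have hr : ∀ (ξ : I0 D) (ζ : IrrCharacter G), Q ξ ζ → r ξ = (bb D ζ : ℚ) / ((dg ζ : ℚ) - bb D ζ) := by
    intro ξ ζ h
    have h1 : ∃ ζ, Q ξ ζ := ⟨ζ, h⟩
    simp only [r, dif_pos h1]
    obtain ⟨e1, e2⟩ := small_conseq D h1.choose_spec.1 h.1 ξ h1.choose_spec.2.1 h.2.1
    rw [e1, e2]
  have hb : ∀ ζ : IrrCharacter G, a ζ ≠ 0 → ζ ≠ oneI G →
      (bb D ζ : ℚ) = ∑ ξ : I0 D, r ξ * ((kap D ζ ξ.1 : ℚ) * dg ξ.1) := by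
    intro ζ h1 h2
    have h3 : bb D ζ < dg ζ := bb_lt D hgen fun h => h2 (Subtype.ext h)
    have h4 : ((dg ζ : ℚ) - bb D ζ) ≠ 0 := by
      rw [sub_ne_zero]; exact_mod_cast h3.ne'
    have h5 : ∀ ξ : I0 D, r ξ * ((kap D ζ ξ.1 : ℚ) * dg ξ.1) =
        (bb D ζ : ℚ) / ((dg ζ : ℚ) - bb D ζ) * ((kap D ζ ξ.1 : ℚ) * dg ξ.1) := by
      intro ξ
      by_cases h6 : kap D ζ ξ.1 = 0
      · rw [h6]; simp
      · rw [hr ξ ζ ⟨hsmall ζ h1, h6, h2⟩]
    simp only [h5]
    rw [← Finset.mul_sum]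
    have h6 : ∑ ξ : I0 D, ((kap D ζ ξ.1 : ℚ) * dg ξ.1) = (dg ζ : ℚ) - bb D ζ := by
      have h7 := dg_eq' D ζ
      have h8 : (dg ζ : ℚ) = bb D ζ + ∑ ξ : I0 D, (kap D ζ ξ.1 : ℚ) * dg ξ.1 := by exact_mod_cast h7
      rw [h8]; ring
    rw [h6, div_mul_cancel₀ _ h4]
  have h1 : (∑ ζ ∈ (Finset.univ : Finset (IrrCharacter G)).erase (oneI G), (a ζ : ℚ) * (bb D ζ : ℚ)) ≤ 0 := by
    have e1 : ∑ ζ ∈ (Finset.univ : Finset (IrrCharacter G)).erase (oneI G), (a ζ : ℚ) * (bb D ζ : ℚ) =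
        ∑ ξ : I0 D, r ξ * dg ξ.1 * ∑ ζ ∈ (Finset.univ : Finset (IrrCharacter G)).erase (oneI G),
          (a ζ : ℚ) * (kap D ζ ξ.1 : ℚ) := by
      have e2 : ∀ ζ ∈ (Finset.univ : Finset (IrrCharacter G)).erase (oneI G), (a ζ : ℚ) * (bb D ζ : ℚ) =
          ∑ ξ : I0 D, (a ζ : ℚ) * (r ξ * ((kap D ζ ξ.1 : ℚ) * dg ξ.1)) := by
        intro ζ hζ
        by_cases h2 : a ζ = 0
        · rw [h2]; simp
        · rw [hb ζ h2 (Finset.mem_erase.1 hζ).1, Finset.mul_sum]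
      rw [Finset.sum_congr rfl e2, Finset.sum_comm]
      refine Finset.sum_congr rfl fun ξ _ => ?_
      rw [Finset.mul_sum]
      refine Finset.sum_congr rfl fun ζ _ => ?_
      ring
    rw [e1]
    apply Finset.sum_nonpos
    intro ξ _
    apply mul_nonpos_of_nonneg_of_nonpos (mul_nonneg (hr0 ξ) (Nat.cast_nonneg _))
    have e3 : ∑ ζ ∈ (Finset.univ : Finset (IrrCharacter G)).erase (oneI G), a ζ * (kap D ζ ξ.1 : ℤ) ≤ 0 := by
      have e4 := hK ξ
      rw [← Finset.add_sum_erase _ _ (Finset.mem_univ (oneI G)), ha1, one_mul] at e4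
      have e5 : (0 : ℤ) ≤ kap D (oneI G) ξ.1 := Nat.cast_nonneg _
      omega
    exact_mod_cast e3
  have h2 : (∑ ζ ∈ (Finset.univ : Finset (IrrCharacter G)).erase (oneI G), a ζ * (bb D ζ : ℤ)) ≤ 0 := by
    exact_mod_cast h1
  rw [← Finset.add_sum_erase _ _ (Finset.mem_univ (oneI G)), ha1, one_mul]
  have h3 := bb_le D (oneI G)
  rw [dg_one] at h3
  omega

/-- **Main theorem**: under the hypotheses, if `χ` has small degree then its nontrivial `P`-part is
very restricted -/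
theorem main (hgen : ∀ K : Subgroup G, K.Normal → P ≤ K → K = ⊤) {χ : IrrCharacter G}
    (hs : dg χ ^ 2 + 1 < Nat.card P) (ξ : I0 D) {lam : P →* ℂˣ} (hlam : lam ≠ 1)
    (hm : m χ (twI D ξ.1 lam) ≠ 0) :
    Nat.card N = Nat.card C ∧ dg ξ.1 = 1 ∧ ∑ ξ' : I0 D, m χ (twI D ξ'.1 lam) * dg ξ'.1 = 1 := by
  classical
  have hd1 := dg_pos χ
  have hs1 : dg χ + 1 < Nat.card P := by nlinarith
  obtain ⟨lam', hl1, hl2⟩ := exists_missing D χ {1} (by rw [Finset.card_singleton]; omega)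
  rw [Finset.mem_singleton] at hl1
  set ψ := twI D ξ.1 lam with hψ
  set ψ' := twI D ξ.1 lam' with hψ'
  have hne : m χ ψ ≠ m χ ψ' := by rw [hψ', hl2 ξ]; exact hm
  have hf : Fam D (ψ : C → ℂ) (ψ' : C → ℂ) := fam_twI D ξ.1 lam lam'
  have hPT : ¬ PT D (ψ : C → ℂ) := one_twI_ne D ξ.2 hlam
  have hPT' : ¬ PT D (ψ' : C → ℂ) := one_twI_ne D ξ.2 hl1
  obtain ⟨χ', hχ', hne'⟩ := two_term_exists (fun ζ : IrrCharacter G => (m ζ ψ : ℤ) - m ζ ψ') (fun ζ => (dg ζ : ℤ))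
    (fun ζ => by exact_mod_cast dg_pos ζ) (sum_deg D hf) (i := χ) (by
      intro h3; apply hne; omega)
  have hne2 : m χ' ψ ≠ m χ' ψ' := by
    intro h; apply hne'; rw [h]; ring
  obtain ⟨-, e2, -, e4⟩ := pair_spec D hf hPT hPT' hχ'.symm hne hne2
  have hd : (m χ ψ : ℤ) - m χ ψ' = 1 := by
    rcases e2 with h | h
    · exact h
    · have h0 : m χ ψ' = 0 := hl2 ξ
      rw [h0] at h; omega
  have hΔ : ∀ g : G, indFun C ((ψ : C → ℂ) - (ψ' : C → ℂ)) g = (χ : G → ℂ) g - (χ' : G → ℂ) g := by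
    intro g; rw [e4, hd]; simp
  obtain ⟨c1, -⟩ := pair_conseq D ξ.2 hχ'.symm hlam hl1 hne hne2
  have hdg : dg χ' = dg χ := by
    have h3 := c1 1 (map_one D.l)
    rw [OneMemClass.coe_one, dg_spec, dg_spec] at h3
    exact_mod_cast h3.symm
  set δ : C → ℂ := (ψ : C → ℂ) - (ψ' : C → ℂ) with hδ
  have hδ0 : ∀ c, D.l c = 1 → δ c = 0 := fun c hc => by rw [hδ, Pi.sub_apply, hf c hc, sub_self]
  -- the class function
  set f1 : G → ℂ := (χ : G → ℂ) * fun g => conj ((χ : G → ℂ) g) with hf1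
  set f2 : G → ℂ := (χ : G → ℂ) * fun g => conj ((χ' : G → ℂ) g) with hf2
  have hc1 : IsCharacter G f1 := χ.2.isCharacter.mul χ.2.isCharacter.conj
  have hc2 : IsCharacter G f2 := χ.2.isCharacter.mul χ'.2.isCharacter.conj
  choose A hA using fun ζ : IrrCharacter G => hc1.classInner_nat ζ.2.isCharacter
  choose A' hA' using fun ζ : IrrCharacter G => hc2.classInner_nat ζ.2.isCharacter
  set a : IrrCharacter G → ℤ := fun ζ => (A ζ : ℤ) - A' ζ with ha
  set Φ : G → ℂ := f1 - f2 with hΦ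
  have hΦcf : IsClassFunction G Φ := hc1.isClassFunction.sub hc2.isClassFunction
  have hΦa : ∀ ζ : IrrCharacter G, classInner Φ (ζ : G → ℂ) = (a ζ : ℂ) := by
    intro ζ
    rw [hΦ, classInner_sub_left, hA, hA', ha]; push_cast; ring
  have hΦapp : ∀ g, Φ g = (χ : G → ℂ) g * conj ((χ : G → ℂ) g - (χ' : G → ℂ) g) := by
    intro g; rw [hΦ, hf1, hf2, Pi.sub_apply, Pi.mul_apply, Pi.mul_apply, map_sub]; ring
  have hf11 : f1 1 = ((dg χ * dg χ : ℕ) : ℂ) := by
    rw [hf1, Pi.mul_apply, dg_spec]; simp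
  have hf21 : f2 1 = ((dg χ * dg χ : ℕ) : ℂ) := by
    rw [hf2, Pi.mul_apply, dg_spec, dg_spec, hdg]; simp
  have hsmall : ∀ ζ, a ζ ≠ 0 → dg ζ + 1 < Nat.card P := by
    intro ζ h
    have h1 : dg ζ ≤ dg χ * dg χ := by
      by_cases h2 : A ζ = 0
      · have h3 : A' ζ ≠ 0 := by
          intro h3; apply h; rw [ha]; simp [h2, h3]
        exact (Clifford.degree_le_of_constituent' hc2 ζ.2 (by rw [hA' ζ]; exact_mod_cast h3) hf21 (dg_spec ζ)).1
      · exact (Clifford.degree_le_of_constituent' hc1 ζ.2 (by rw [hA ζ]; exact_mod_cast h2) hf11 (dg_spec ζ)).1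
    nlinarith
  have ha1 : a (oneI G) = 1 := by
    have h1 := hΦa (oneI G)
    have h2 : classInner Φ (oneI G : G → ℂ) = classInner (χ : G → ℂ) (χ : G → ℂ) - classInner (χ : G → ℂ) (χ' : G → ℂ) := by
      rw [classInner_def, classInner_def, classInner_def, ← mul_sub, ← Finset.sum_sub_distrib]
      congr 1
      refine Finset.sum_congr rfl fun g _ => ?_
      have h3 : (oneI G : G → ℂ) g = 1 := rfl
      rw [hΦapp, h3, map_one, mul_one, map_sub]; ring
    rw [h2, χ.2.classInner_self, χ.2.classInner_eq_zero χ'.2 (fun h => hχ' (Subtype.ext h.symm)), sub_zero] at h1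
    exact_mod_cast h1.symm
  -- restriction of `Φ` to `C`
  have hrs : rs C Φ = ∑ ζ : IrrCharacter G, (a ζ : ℂ) • rs C (ζ : G → ℂ) := by
    funext c
    rw [Finset.sum_apply]
    change Φ c = _
    rw [hΦcf.expansion_apply]
    refine Finset.sum_congr rfl fun ζ _ => ?_
    rw [hΦa]; rfl
  have hrsm : ∀ φ : IrrCharacter C, classInner (rs C Φ) (φ : C → ℂ) = ((∑ ζ : IrrCharacter G, a ζ * (m ζ φ : ℤ) : ℤ) : ℂ) := by
    intro φ
    rw [hrs, classInner_sum_left]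
    push_cast
    refine Finset.sum_congr rfl fun ζ _ => ?_
    rw [classInner_smul_left, m_spec]
  have hΔC : ∀ c : C, (χ : G → ℂ) c - (χ' : G → ℂ) c = (Nat.card C : ℂ)⁻¹ * ∑ n : N, cjn D n δ c := by
    intro c; rw [← hΔ, indFun_eq D hδ0 c]
  have hrs0 : ∀ c : C, D.l c = 1 → rs C Φ c = 0 := by
    intro c hc
    change Φ c = 0
    rw [hΦapp, c1 c hc, sub_self, map_zero, mul_zero]
  have hcC : (Nat.card C : ℂ) ≠ 0 := by exact_mod_cast Nat.card_pos.ne'
  -- the sums over families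
  have hK : ∀ ξ' : I0 D, ∑ ζ : IrrCharacter G, a ζ * (kap D ζ ξ'.1 : ℤ) ≤ 0 := by
    intro ξ'
    have h1 := sum_family D (rs C Φ) ξ'.1 hrs0
    have h2 : ∑ μ : P →* ℂˣ, classInner (rs C Φ) (twI D ξ'.1 μ : C → ℂ) =
        classInner (rs C Φ) (ξ'.1 : C → ℂ) + ((∑ ζ : IrrCharacter G, a ζ * (kap D ζ ξ'.1 : ℤ) : ℤ) : ℂ) := by
      have h3 : ∑ μ : P →* ℂˣ, classInner (rs C Φ) (twI D ξ'.1 μ : C → ℂ) =
          ((∑ ζ : IrrCharacter G, a ζ * ((∑ μ : P →* ℂˣ, m ζ (twI D ξ'.1 μ) : ℕ) : ℤ) : ℤ) : ℂ) := by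
        simp only [hrsm]
        push_cast
        rw [Finset.sum_comm]
        refine Finset.sum_congr rfl fun ζ _ => ?_
        rw [Finset.mul_sum]
      rw [h3, hrsm]
      simp only [sum_m_eq]
      push_cast
      rw [← Finset.sum_add_distrib]
      refine Finset.sum_congr rfl fun ζ _ => ?_
      ring
    rw [h2] at h1
    -- positivity
    have h4 : ∃ k : ℕ, classInner (rs C Φ) (ξ'.1 : C → ℂ) = (Nat.card C : ℂ)⁻¹ * k := by
      have e1 : classInner (rs C Φ) (ξ'.1 : C → ℂ) = (Nat.card C : ℂ)⁻¹ * ∑ n : N,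
          classInner (rs C (χ : G → ℂ)) ((ξ'.1 : C → ℂ) * cjn D n δ) := by
        simp only [classInner_def]
        have e2 : ∀ c : C, rs C Φ c * conj ((ξ'.1 : C → ℂ) c) = (Nat.card C : ℂ)⁻¹ * ∑ n : N,
            rs C (χ : G → ℂ) c * conj (((ξ'.1 : C → ℂ) * cjn D n δ) c) := by
          intro c
          change Φ c * _ = _
          rw [hΦapp, hΔC, map_mul, map_inv₀, map_natCast, map_sum, Finset.mul_sum, Finset.mul_sum, Finset.mul_sum,
            Finset.sum_mul]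
          refine Finset.sum_congr rfl fun n _ => ?_
          rw [Pi.mul_apply, map_mul]
          change (χ : G → ℂ) c * _ * _ = _ * ((χ : G → ℂ) c * _)
          ring
        simp only [e2]
        rw [← Finset.mul_sum, Finset.sum_comm, Finset.mul_sum, Finset.mul_sum]
      have e3 : ∀ n : N, ∃ k : ℕ, classInner (rs C (χ : G → ℂ)) ((ξ'.1 : C → ℂ) * cjn D n δ) = k := by
        intro n
        have e4 : (ξ'.1 : C → ℂ) * cjn D n δ = (ξ'.1 : C → ℂ) * cjn D n (ψ : C → ℂ) - (ξ'.1 : C → ℂ) * cjn D n (ψ' : C → ℂ) := by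
          funext c
          simp only [Pi.mul_apply, Pi.sub_apply, cjn_apply, hδ]
          ring
        have e5 : classInner (rs C (χ : G → ℂ)) ((ξ'.1 : C → ℂ) * cjn D n (ψ' : C → ℂ)) = 0 := by
          rw [← classInner_cjn D n⁻¹]
          have e6 : cjn D n⁻¹ (rs C (χ : G → ℂ)) = rs C (χ : G → ℂ) := cjn_res D n⁻¹ χ.2.isClassFunction
          rw [e6]
          apply classInner_missing D hl2
          intro c x
          have e7 : ∀ c : C, cjn D n⁻¹ ((ξ'.1 : C → ℂ) * cjn D n (ψ' : C → ℂ)) c =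
              (ξ'.1 : C → ℂ) (cjE D n⁻¹ c) * (ψ' : C → ℂ) c := by
            intro c
            have e8 := congrFun (cjn_cjn D n⁻¹ n (ψ' : C → ℂ)) c
            rw [mul_inv_cancel] at e8
            have e9 : cjn D 1 (ψ' : C → ℂ) = ψ' := congrArg Subtype.val (cjI_of_mem D 1 C.one_mem ψ')
            rw [e9] at e8
            rw [cjn_apply, Pi.mul_apply]
            rw [cjn_apply] at e8
            rw [e8]
          rw [e7, e7, map_mul, cjE_inc, ξ'.2, hψ', twI_central D ξ lam' c x]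
          ring
        obtain ⟨k, hk⟩ := (χ.2.isCharacter.restrict C).classInner_nat
          (ξ'.1.2.isCharacter.mul (cjI D n ψ).2.isCharacter)
        refine ⟨k, ?_⟩
        rw [e4, classInner_sub_right, e5, sub_zero]
        exact hk
      choose kk hkk using e3
      refine ⟨∑ n : N, kk n, ?_⟩
      rw [e1]
      simp only [hkk]
      push_cast
      rfl
    obtain ⟨k, hk⟩ := h4
    rw [hk] at h1
    have h5 : ((∑ ζ : IrrCharacter G, a ζ * (kap D ζ ξ'.1 : ℤ) : ℤ) : ℂ) * (Nat.card C : ℂ) = -(k : ℂ) := by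
      have h6 : ((∑ ζ : IrrCharacter G, a ζ * (kap D ζ ξ'.1 : ℤ) : ℤ) : ℂ) = -((Nat.card C : ℂ)⁻¹ * k) := by
        linear_combination h1
      rw [h6]; field_simp
    have h6 : (∑ ζ : IrrCharacter G, a ζ * (kap D ζ ξ'.1 : ℤ)) * (Nat.card C : ℤ) = -(k : ℤ) := by exact_mod_cast h5
    have h7 : (0 : ℤ) < (Nat.card C : ℤ) := by exact_mod_cast Nat.card_pos
    by_contra h8
    push Not at h8
    nlinarith [mul_pos h8 h7]
  have hw := weighted D hgen a hsmall ha1 hK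
  -- the value of the fixed point functional
  set Mm : ℕ := ∑ ξ' : I0 D, m χ (twI D ξ'.1 lam) * dg ξ'.1 with hMm
  have hb : (Nat.card C : ℤ) * ∑ ζ : IrrCharacter G, a ζ * (bb D ζ : ℤ) = (Nat.card N : ℤ) * (dg ξ.1 : ℤ) * (Mm : ℤ) := by
    have h1 : mP D (rs C Φ) 1 = ((∑ ζ : IrrCharacter G, a ζ * (bb D ζ : ℤ) : ℤ) : ℂ) := by
      rw [mP_eq D (isClassFunction_rs hΦcf)]
      have h2 : ∀ ξ' : I0 D, classInner (rs C Φ) (twI D ξ'.1 1 : C → ℂ) * ((ξ' : IrrCharacter C) : C → ℂ) 1 =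
          ∑ ζ : IrrCharacter G, (a ζ : ℂ) * ((m ζ ξ'.1 : ℂ) * (dg ξ'.1 : ℂ)) := by
        intro ξ'
        rw [twI_one, hrsm, dg_spec]
        push_cast
        rw [Finset.sum_mul]
        refine Finset.sum_congr rfl fun ζ _ => ?_
        ring
      simp only [h2]
      rw [Finset.sum_comm]
      push_cast
      refine Finset.sum_congr rfl fun ζ _ => ?_
      rw [← Finset.mul_sum, bb]
      push_cast
      rfl
    have hP0 : (Nat.card P : ℂ) ≠ 0 := by exact_mod_cast Nat.card_pos.ne'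
    have h2 : mP D (rs C Φ) 1 = (Nat.card C : ℂ)⁻¹ * ((Nat.card N : ℂ) * ((dg ξ.1 : ℂ) * (mP D (rs C (χ : G → ℂ)) lam -
        mP D (rs C (χ : G → ℂ)) lam'))) := by
      have e1 : ∀ x : P, rs C Φ (D.inc x) * conj ((1 : P →* ℂˣ) x : ℂ) = (Nat.card C : ℂ)⁻¹ * ∑ n : N,
          rs C (χ : G → ℂ) (D.inc (cjP D n x)) * conj (δ (D.inc (cjP D n x))) := by
        intro x
        rw [MonoidHom.one_apply, Units.val_one, map_one, mul_one]
        change Φ (D.inc x) = _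
        rw [hΦapp, hΔC, map_mul, map_inv₀, map_natCast, map_sum, Finset.mul_sum, Finset.mul_sum, Finset.mul_sum]
        refine Finset.sum_congr rfl fun n _ => ?_
        have e2 : (χ : G → ℂ) (D.inc x : C) = rs C (χ : G → ℂ) (D.inc (cjP D n x)) := by
          exact (χ.2.isClassFunction (x : G) (n : G)).symm
        rw [e2]
        change _ * (_ * conj (δ (D.inc (cjP D n x)))) = _
        ring
      have e3 : ∑ x : P, rs C Φ (D.inc x) * conj ((1 : P →* ℂˣ) x : ℂ) = (Nat.card C : ℂ)⁻¹ * ((Nat.card N : ℂ) *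
          ∑ x : P, rs C (χ : G → ℂ) (D.inc x) * conj (δ (D.inc x))) := by
        simp only [e1]
        rw [← Finset.mul_sum, Finset.sum_comm]
        congr 1
        have e4 : ∀ n : N, ∑ x : P, rs C (χ : G → ℂ) (D.inc (cjP D n x)) * conj (δ (D.inc (cjP D n x))) =
            ∑ x : P, rs C (χ : G → ℂ) (D.inc x) * conj (δ (D.inc x)) := fun n =>
          Equiv.sum_comp (cjP D n) (fun x => rs C (χ : G → ℂ) (D.inc x) * conj (δ (D.inc x)))
        simp only [e4]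
        rw [Finset.sum_const, Finset.card_univ, nsmul_eq_mul, Nat.card_eq_fintype_card]
      have e5 : ∑ x : P, rs C (χ : G → ℂ) (D.inc x) * conj (δ (D.inc x)) = (dg ξ.1 : ℂ) *
          ((∑ x : P, rs C (χ : G → ℂ) (D.inc x) * conj (lam x : ℂ)) -
            ∑ x : P, rs C (χ : G → ℂ) (D.inc x) * conj (lam' x : ℂ)) := by
        rw [← Finset.sum_sub_distrib, Finset.mul_sum]
        refine Finset.sum_congr rfl fun x _ => ?_
        have h6 := ξ.2 1 x
        rw [one_mul] at h6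
        rw [hδ, Pi.sub_apply, hψ, hψ', twI_apply, twI_apply, D.l_inc, h6, dg_spec, map_sub, map_mul, map_mul,
          map_natCast]
        ring
      rw [mP, e3, e5, mP, mP]
      field_simp
    have h3 : mP D (rs C (χ : G → ℂ)) lam' = 0 := by
      rw [mP_mu, Finset.sum_eq_zero]
      · simp
      · intro ξ' _
        rw [hl2 ξ', zero_mul]
    rw [h3, mP_mu, sub_zero, h1] at h2
    have h4 : (Nat.card C : ℂ) * ((∑ ζ : IrrCharacter G, a ζ * (bb D ζ : ℤ) : ℤ) : ℂ) =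
        (Nat.card N : ℂ) * (dg ξ.1 : ℂ) * (Mm : ℂ) := by
      rw [h2, hMm]; field_simp
    exact_mod_cast h4
  have hM1 : 1 ≤ Mm := by
    have h1 : m χ (twI D ξ.1 lam) * dg ξ.1 ≤ Mm :=
      Finset.single_le_sum (f := fun ξ' : I0 D => m χ (twI D ξ'.1 lam) * dg ξ'.1) (fun _ _ => Nat.zero_le _)
        (Finset.mem_univ ξ)
    exact le_trans (Nat.mul_pos (Nat.pos_of_ne_zero hm) (dg_pos ξ.1)) h1
  have hCN : Nat.card C ≤ Nat.card N := Nat.card_le_card_of_injective (Subgroup.inclusion D.CN)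
    (Subgroup.inclusion_injective D.CN)
  have hdξ := dg_pos ξ.1
  have hC0 : 0 < Nat.card C := Nat.card_pos
  have hfin : Nat.card N * dg ξ.1 * Mm ≤ Nat.card C := by
    have h1 : (Nat.card N : ℤ) * (dg ξ.1 : ℤ) * (Mm : ℤ) ≤ (Nat.card C : ℤ) := by
      rw [← hb]
      have h2 : (0 : ℤ) < (Nat.card C : ℤ) := by exact_mod_cast hC0
      nlinarith
    exact_mod_cast h1
  have h1 : dg ξ.1 * Mm = 1 := by
    have h2 : Nat.card N * (dg ξ.1 * Mm) ≤ Nat.card N * 1 := by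
      rw [← mul_assoc, mul_one]; exact hfin.trans hCN
    have h3 : dg ξ.1 * Mm ≤ 1 := Nat.le_of_mul_le_mul_left h2 (lt_of_lt_of_le hC0 hCN)
    have h4 : 0 < dg ξ.1 * Mm := Nat.mul_pos hdξ hM1
    omega
  refine ⟨?_, Nat.eq_one_of_mul_eq_one_right h1, Nat.eq_one_of_mul_eq_one_left h1⟩
  have h2 : Nat.card N ≤ Nat.card C := by
    rw [mul_assoc, h1, mul_one] at hfin; exact hfin
  exact le_antisymm h2 hCN

end Cfsg.Agent.Lib.UnifCent
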