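import Cfsg.Agent.Lib.UnifCent6

/-!
# Degree one in the uniform centralizer situation (helper74)
-/

set_option autoImplicit false
set_option linter.all false

namespace Cfsg.Agent.Lib.UnifCent

open Cfsg Cfsg.Agent.Lib Cfsg.Agent.Lib.CharBasic
open scoped ComplexConjugate

universe u

variable {G : Type u} [Group G] [Fintype G] {p : ℕ} {P C N : Subgroup G} [Fintype C] (D : Loc p P C N)
variable [Fintype (P →* ℂˣ)] [Fintype P] [Fintype N]

theorem occ_iff (χ : IrrCharacter G) (μ : P →* ℂˣ) :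
    mP D (rs C (χ : G → ℂ)) μ ≠ 0 ↔ ∃ ξ : I0 D, m χ (twI D ξ.1 μ) ≠ 0 := by
  rw [mP_mu]
  constructor
  · intro h
    by_contra hcon
    push Not at hcon
    apply h
    rw [Finset.sum_eq_zero]
    · simp
    · intro ξ _
      rw [hcon ξ, zero_mul]
  · rintro ⟨ξ, hξ⟩ h
    have h1 : ∑ ξ : I0 D, m χ (twI D ξ.1 μ) * dg ξ.1 = 0 := by exact_mod_cast h
    have h2 := Finset.sum_eq_zero_iff.1 h1 ξ (Finset.mem_univ ξ)
    rcases Nat.mul_eq_zero.1 h2 with h3 | h3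
    · exact hξ h3
    · exact (dg_pos ξ.1).ne' h3

theorem dl_eq (hNC : ∀ n ∈ N, n ∈ C) {φ ψ : IrrCharacter C} (h : φ ≠ ψ) : dl D φ ψ = 0 := by
  apply dl_neg
  rintro ⟨n, hn⟩
  rw [cjI_of_mem D n (hNC n n.2)] at hn
  exact h hn

/-- when `N = C`, at most one nontrivial `P`-character occurs -/
theorem unique_occ (hNC : ∀ n ∈ N, n ∈ C) {χ : IrrCharacter G} (hs : dg χ ^ 2 + 1 < Nat.card P)
    (h2 : 2 ≤ dg χ) {lam lam₂ : P →* ℂˣ} (hl : lam ≠ 1) (hl₂ : lam₂ ≠ 1) (ξ η : I0 D)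
    (h : m χ (twI D ξ.1 lam) ≠ 0) (h' : m χ (twI D η.1 lam₂) ≠ 0) : lam = lam₂ := by
  classical
  by_contra hne
  have hs1 : dg χ + 2 < Nat.card P := by nlinarith
  obtain ⟨l1, hl1, hl1'⟩ := exists_missing D χ {1} (by rw [Finset.card_singleton]; omega)
  obtain ⟨l2, hl2, hl2'⟩ := exists_missing D χ {1, l1} (by
    have := Finset.card_le_two (a := (1 : P →* ℂˣ)) (b := l1)
    omega)
  rw [Finset.mem_singleton] at hl1
  rw [Finset.mem_insert, Finset.mem_singleton, not_or] at hl2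
  have n1 : lam ≠ l1 := by rintro rfl; exact h (hl1' ξ)
  have n2 : lam ≠ l2 := by rintro rfl; exact h (hl2' ξ)
  have n3 : lam₂ ≠ l1 := by rintro rfl; exact h' (hl1' η)
  have n4 : lam₂ ≠ l2 := by rintro rfl; exact h' (hl2' η)
  have hne1 : m χ (twI D ξ.1 lam) ≠ m χ (twI D ξ.1 l1) := by rw [hl1' ξ]; exact h
  have hne2 : m χ (twI D η.1 lam₂) ≠ m χ (twI D η.1 l2) := by rw [hl2' η]; exact h'
  have hf1 := fam_twI D ξ.1 lam l1
  have hf2 := fam_twI D η.1 lam₂ l2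
  have hu : ∀ {ξ η : I0 D} {μ ν : P →* ℂˣ}, μ ≠ ν → twI D ξ.1 μ ≠ twI D η.1 ν := by
    intro ξ η μ ν hμν h
    exact hμν (decomp_unique D ξ.2 η.2 h).2
  have hg := gram D hf1 (one_twI_ne D η.2 hl₂) (one_twI_ne D η.2 hl2.1)
  rw [dl_eq D hNC (hu hne), dl_eq D hNC (hu n2), dl_eq D hNC (hu (Ne.symm n3)),
    dl_eq D hNC (hu (fun h => hl2.2 h.symm))] at hg
  obtain ⟨χ', hχ', hχ'2⟩ := two_term_exists (fun ζ : IrrCharacter G => (m ζ (twI D ξ.1 lam) : ℤ) - m ζ (twI D ξ.1 l1))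
    (fun ζ => (dg ζ : ℤ)) (fun ζ => by exact_mod_cast dg_pos ζ) (sum_deg D hf1) (i := χ) (by
      intro h3; apply hne1; omega)
  have hχ'3 : m χ' (twI D ξ.1 lam) ≠ m χ' (twI D ξ.1 l1) := by
    intro h; apply hχ'2; rw [h]; ring
  obtain ⟨e1, e2, e3, -⟩ := pair_spec D hf1 (one_twI_ne D ξ.2 hl) (one_twI_ne D ξ.2 hl1) hχ'.symm hne1 hχ'3
  obtain ⟨χ'', hχ'', hχ''2⟩ := two_term_exists
    (fun ζ : IrrCharacter G => (m ζ (twI D η.1 lam₂) : ℤ) - m ζ (twI D η.1 l2))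
    (fun ζ => (dg ζ : ℤ)) (fun ζ => by exact_mod_cast dg_pos ζ) (sum_deg D hf2) (i := χ) (by
      intro h3; apply hne2; omega)
  have hχ''3 : m χ'' (twI D η.1 lam₂) ≠ m χ'' (twI D η.1 l2) := by
    intro h; apply hχ''2; rw [h]; ring
  obtain ⟨f1, f2, f3, -⟩ := pair_spec D hf2 (one_twI_ne D η.2 hl₂) (one_twI_ne D η.2 hl2.1) hχ''.symm hne2 hχ''3
  have a1 : (m χ (twI D ξ.1 l1) : ℤ) = 0 := by rw [hl1' ξ]; rfl
  have a2 : (m χ (twI D η.1 l2) : ℤ) = 0 := by rw [hl2' η]; rfl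
  have b1 : (m χ (twI D ξ.1 lam) : ℤ) - m χ (twI D ξ.1 l1) = 1 := by
    rcases e2 with h | h
    · exact h
    · omega
  have b2 : (m χ (twI D η.1 lam₂) : ℤ) - m χ (twI D η.1 l2) = 1 := by
    rcases f2 with h | h
    · exact h
    · omega
  rw [← Finset.add_sum_erase _ _ (Finset.mem_univ χ),
    ← Finset.add_sum_erase _ _ (Finset.mem_erase.2 ⟨hχ', Finset.mem_univ χ'⟩), Finset.sum_eq_zero, b1, b2] at hg
  · have b3 : (m χ' (twI D ξ.1 lam) : ℤ) - m χ' (twI D ξ.1 l1) = -1 := by omega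
    have b4 : (m χ' (twI D η.1 lam₂) : ℤ) - m χ' (twI D η.1 l2) ≤ 0 := by
      by_cases h5 : χ' = χ''
      · rw [h5]; omega
      · have := f3 χ' hχ' h5
        omega
    rw [b3] at hg
    omega
  · intro ζ hζ
    rw [Finset.mem_erase, Finset.mem_erase] at hζ
    have := e3 ζ hζ.2.1 hζ.1
    rw [this, sub_self, zero_mul]

/-- the twist of an irreducible character of `G` by a linear character of the quotient `P` -/
def twG (L : G →* P) (χ : IrrCharacter G) (ν : P →* ℂˣ) : IrrCharacter G :=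
  ⟨(χ : G → ℂ) * fun g => (ν (L g) : ℂ), χ.2.mul_linear
    (isCharacter_of_hom ((Units.coeHom ℂ).comp (ν.comp L))) (by simp)⟩

theorem twG_apply (L : G →* P) (χ : IrrCharacter G) (ν : P →* ℂˣ) (g : G) :
    (twG L χ ν : G → ℂ) g = (χ : G → ℂ) g * (ν (L g) : ℂ) := rfl

theorem dg_twG (L : G →* P) (χ : IrrCharacter G) (ν : P →* ℂˣ) : dg (twG L χ ν) = dg χ := by
  have h1 := dg_spec (twG L χ ν)
  rw [twG_apply, map_one, map_one, Units.val_one, mul_one, dg_spec] at h1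
  exact_mod_cast h1.symm

theorem mP_twG (L : G →* P) (hL : ∀ x : P, L x = x) (χ : IrrCharacter G) (ν μ : P →* ℂˣ) :
    mP D (rs C (twG L χ ν : G → ℂ)) (ν * μ) = mP D (rs C (χ : G → ℂ)) μ := by
  rw [mP, mP]
  congr 1
  refine Finset.sum_congr rfl fun x _ => ?_
  have h1 : rs C (twG L χ ν : G → ℂ) (D.inc x) = rs C (χ : G → ℂ) (D.inc x) * (ν x : ℂ) := by
    change (χ : G → ℂ) x * (ν (L (x : G)) : ℂ) = (χ : G → ℂ) x * (ν x : ℂ)
    rw [hL x]
  have h2 : (ν x : ℂ) * conj (ν x : ℂ) = 1 := by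
    rw [Complex.mul_conj, Complex.normSq_eq_norm_sq, norm_mu ν x]; simp
  rw [h1, MonoidHom.mul_apply, Units.val_mul, map_mul]
  linear_combination (rs C (χ : G → ℂ) (D.inc x) * conj (μ x : ℂ)) * h2

theorem degree_one (hNC : ∀ n ∈ N, n ∈ C) {χ : IrrCharacter G}
    (hs : dg χ ^ 2 + 1 < Nat.card P) (L : G →* P) (hL : ∀ x : P, L x = x)
    {ξ : I0 D} {lam : P →* ℂˣ} (hlam : lam ≠ 1) (hm : m χ (twI D ξ.1 lam) ≠ 0)
    (hM : ∑ ξ' : I0 D, m χ (twI D ξ'.1 lam) * dg ξ'.1 = 1) : dg χ = 1 := by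
  classical
  by_contra hd
  have h2 : 2 ≤ dg χ := by have := dg_pos χ; omega
  -- `1` occurs
  have h3 : ∃ ξ' : I0 D, m χ (twI D ξ'.1 1) ≠ 0 := by
    by_contra hcon
    push Not at hcon
    have h4 : dg χ = ∑ μ : P →* ℂˣ, ∑ ξ : I0 D, m χ (twI D ξ.1 μ) * dg ξ.1 := by
      rw [dg_eq D χ, Finset.sum_comm]
      refine Finset.sum_congr rfl fun ξ _ => ?_
      rw [Finset.sum_mul]
    rw [Finset.sum_eq_single lam, hM] at h4
    · omega
    · intro μ _ hμ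
      apply Finset.sum_eq_zero
      intro ξ' _
      have h5 : m χ (twI D ξ'.1 μ) = 0 := by
        by_cases h6 : μ = 1
        · rw [h6]; exact hcon ξ'
        · by_contra h7
          exact hμ (unique_occ D hNC hs h2 h6 hlam ξ' ξ h7 hm)
      rw [h5, zero_mul]
    · intro h; exact absurd (Finset.mem_univ _) h
  -- a twist
  obtain ⟨ν, hν⟩ : ∃ ν : P →* ℂˣ, ν ∉ ({1, lam⁻¹} : Finset (P →* ℂˣ)) := by
    by_contra hcon
    push Not at hcon
    have h4 : (Finset.univ : Finset (P →* ℂˣ)) ⊆ {1, lam⁻¹} := fun ν _ => hcon ν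
    have h5 := Finset.card_le_card h4
    have h6 := Finset.card_le_two (a := (1 : P →* ℂˣ)) (b := lam⁻¹)
    rw [Finset.card_univ, card_dual D] at h5
    nlinarith
  rw [Finset.mem_insert, Finset.mem_singleton, not_or] at hν
  have h4 : ∃ ξ' : I0 D, m (twG L χ ν) (twI D ξ'.1 (ν * 1)) ≠ 0 := by
    rw [← occ_iff, mP_twG D L hL, occ_iff]; exact h3
  have h5 : ∃ ξ' : I0 D, m (twG L χ ν) (twI D ξ'.1 (ν * lam)) ≠ 0 := by
    rw [← occ_iff, mP_twG D L hL, occ_iff]; exact ⟨ξ, hm⟩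
  obtain ⟨ξ1, h4⟩ := h4
  obtain ⟨ξ2, h5⟩ := h5
  have h6 : ν * 1 = ν * lam := by
    refine unique_occ D hNC (χ := twG L χ ν) (by rw [dg_twG]; exact hs) (by rw [dg_twG]; exact h2) ?_ ?_ ξ1 ξ2 h4 h5
    · intro h
      apply hν.1
      ext x
      have := congrArg (fun f : P →* ℂˣ => f x) h
      simpa using this
    · intro h
      apply hν.2
      ext x
      have h7 : ν x * lam x = 1 := by
        have := congrArg (fun f : P →* ℂˣ => f x) h
        simpa using this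
      rw [MonoidHom.inv_apply lam x, eq_inv_of_mul_eq_one_left h7]
  apply hlam
  ext x
  have h7 : ν x * 1 = ν x * lam x := by
    have := congrArg (fun f : P →* ℂˣ => f x) h6
    simpa using this
  rw [← mul_left_cancel h7]; rfl

end Cfsg.Agent.Lib.UnifCent
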