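import Mathlib
import Cfsg.Agent.Lib.W2pGeom
import Cfsg.Agent.Lib.Wielandt3
import Cfsg.Agent.Lib.JordanCycle
import Cfsg.Agent.S3559

set_option autoImplicit false

/-!
# Wielandt degree 2p: reduction (helper12)
-/

namespace Cfsg.Agent.Lib.W2pRed

open scoped ComplexConjugate
open Representation Module Cfsg.Agent.Lib.CharBasic Cfsg.Agent.Lib.PermChar
  Cfsg.Agent.Lib.PermChar2 Cfsg.Agent.Lib.PermChar3 Cfsg.Agent.Lib.PermChar4 Cfsg.Agent.Lib.MFree
  Cfsg.Agent.Lib.MFreePerm Cfsg.Agent.Lib.W2pFour Cfsg.Agent.Lib.W2pCons Cfsg.Agent.Lib.W2pSys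
  Cfsg.Agent.Lib.W2pConj Cfsg.Agent.Lib.W2pOrb Cfsg.Agent.Lib.W2pOrb2 Cfsg.Agent.Lib.W2pGeom

universe u v w

theorem alt_two {α : Type u} [Fintype α] [DecidableEq α] (h4 : 4 ≤ Fintype.card α)
    (G : Subgroup (Equiv.Perm α)) (h : alternatingGroup α ≤ G) :
    MulAction.IsMultiplyPretransitive G α 2 := by
  have hA : MulAction.IsMultiplyPretransitive (alternatingGroup α) α (Nat.card α - 2) :=
    alternatingGroup.isMultiplyPretransitive α
  rw [Nat.card_eq_fintype_card] at hA
  have hA2 : MulAction.IsMultiplyPretransitive (alternatingGroup α) α 2 :=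
    MulAction.isMultiplyPretransitive_of_le (n := Fintype.card α - 2) (by omega) (by
      rw [Nat.card_eq_fintype_card]; exact Nat.sub_le _ _)
  rw [MulAction.is_two_pretransitive_iff] at hA2 ⊢
  intro a b c d hab hcd
  obtain ⟨g, h1, h2⟩ := hA2 hab hcd
  exact ⟨⟨g.1, h g.2⟩, h1, h2⟩

/-- degree 4 -/
theorem degree_four {α : Type u} [Fintype α] [DecidableEq α] (h4 : Fintype.card α = 4)
    (G : Subgroup (Equiv.Perm α)) (hG : MulAction.IsPreprimitive G α) :
    MulAction.IsMultiplyPretransitive G α 2 := by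
  classical
  apply alt_two (by omega)
  by_cases h3 : 3 ∣ Nat.card G
  · have := Fact.mk Nat.prime_three
    obtain ⟨x, hx⟩ := exists_prime_orderOf_dvd_card' 3 h3
    have hx' : orderOf (x : Equiv.Perm α) = 3 := by rw [← hx]; exact Subgroup.orderOf_coe x
    have hc : (x : Equiv.Perm α).IsCycle := Equiv.Perm.isCycle_of_prime_order' (by
      rw [hx']; exact Nat.prime_three) (by rw [hx', h4]; norm_num)
    have h3c : (x : Equiv.Perm α).IsThreeCycle := by
      rw [← card_support_eq_three_iff, ← hc.orderOf, hx']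
    exact Equiv.Perm.alternatingGroup_le_of_isPreprimitive_of_isThreeCycle_mem hG h3c x.2
  · exfalso
    have := Fact.mk Nat.prime_two
    have hdvd : Nat.card G ∣ 24 := by
      have h1 := Subgroup.card_subgroup_dvd_card G
      rw [Nat.card_eq_fintype_card (α := Equiv.Perm α), Fintype.card_perm, h4] at h1
      exact h1
    have h8 : Nat.card G ∣ 8 := by
      have hcop : Nat.Coprime (Nat.card G) 3 := by
        rw [Nat.coprime_comm]
        exact (Nat.Prime.coprime_iff_not_dvd Nat.prime_three).mpr h3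
      exact hcop.dvd_of_dvd_mul_right (show Nat.card G ∣ 8 * 3 from hdvd)
    obtain ⟨n, _, hn⟩ := (Nat.dvd_prime_pow Nat.prime_two).mp (show Nat.card G ∣ 2 ^ 3 from h8)
    have hp : IsPGroup 2 G := IsPGroup.of_card hn
    have hne : Nonempty α := Fintype.card_pos_iff.mp (by omega)
    obtain ⟨a⟩ := hne
    obtain ⟨b, hb⟩ : ∃ b : α, b ≠ a := by
      by_contra hcon
      push Not at hcon
      have : Fintype.card α ≤ 1 := Fintype.card_le_one_iff.mpr fun x y => by
        rw [hcon x, hcon y]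
      omega
    obtain ⟨g, hgab⟩ := MulAction.exists_smul_eq G a b
    have hnt : Nontrivial G := by
      refine ⟨⟨g, 1, ?_⟩⟩
      rintro rfl
      rw [one_smul] at hgab
      exact hb hgab.symm
    have hz := hp.center_nontrivial
    obtain ⟨z, hz1⟩ := exists_ne (1 : Subgroup.center G)
    -- take a power of order 2
    obtain ⟨k, hk⟩ := IsPGroup.iff_orderOf.mp (hp.to_subgroup (Subgroup.center G)) z
    have hk0 : k ≠ 0 := by
      rintro rfl
      rw [pow_zero, orderOf_eq_one_iff] at hk
      exact hz1 hk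
    obtain ⟨k, rfl⟩ := Nat.exists_eq_succ_of_ne_zero hk0
    set y : G := (z : G) ^ 2 ^ k with hy
    have hy2 : y ^ 2 = 1 := by
      rw [hy, ← pow_mul, ← pow_succ]
      have := pow_orderOf_eq_one z
      rw [hk] at this
      have h2 := congrArg Subtype.val this
      exact h2
    have hy1 : y ≠ 1 := by
      intro h
      have h1 : z ^ 2 ^ k = 1 := Subtype.ext h
      have h2 := orderOf_dvd_of_pow_eq_one h1
      rw [hk] at h2
      have := Nat.le_of_dvd (by positivity) h2
      rw [pow_succ] at this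
      have : 0 < 2 ^ k := by positivity
      omega
    have hyc : y ∈ Subgroup.center G := (Subgroup.center G).pow_mem z.2 _
    have hN : (Subgroup.zpowers y).Normal := by
      constructor
      intro x hx c
      have hxc : x ∈ Subgroup.center G :=
        (Subgroup.zpowers_le.mpr hyc) hx
      rw [Subgroup.mem_center_iff.mp hxc c, mul_inv_cancel_right]
      exact hx
    obtain ⟨x, hx⟩ : ∃ x : α, y • x ≠ x := by
      by_contra hcon
      push Not at hcon
      apply hy1
      apply Subtype.ext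
      ext x
      exact hcon x
    have hB := MulAction.IsBlock.orbit_of_normal (G := G) (N := Subgroup.zpowers y) x
    have horb : MulAction.orbit (Subgroup.zpowers y) x = {x, y • x} := by
      ext w
      constructor
      · rintro ⟨⟨u, hu⟩, rfl⟩
        obtain ⟨m, rfl⟩ := Subgroup.mem_zpowers_iff.mp hu
        have h2 : y ^ m = y ^ (m % 2) := by
          conv_lhs => rw [← Int.emod_add_mul_ediv m 2]
          rw [zpow_add, zpow_mul]
          have : y ^ (2 : ℤ) = 1 := by exact_mod_cast hy2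
          rw [this, one_zpow, mul_one]
        show y ^ m • x ∈ _
        rw [h2]
        rcases Int.emod_two_eq_zero_or_one m with h | h
        · rw [h, zpow_zero, one_smul]; exact Or.inl rfl
        · rw [h, zpow_one]; exact Or.inr rfl
      · rintro (rfl | h)
        · exact MulAction.mem_orbit_self _
        · rw [Set.mem_singleton_iff.mp h]
          exact ⟨⟨y, Subgroup.mem_zpowers y⟩, rfl⟩
    rcases hG.isTrivialBlock_of_isBlock hB with h | h
    · rw [horb] at h
      exact hx (h (Or.inr rfl) (Or.inl rfl))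
    · rw [horb] at h
      have h5 : (Set.univ : Set α).ncard ≤ 2 := by
        rw [← h]; exact (Set.ncard_insert_le _ _).trans (by rw [Set.ncard_singleton])
      rw [Set.ncard_univ, Nat.card_eq_fintype_card] at h5
      omega

section

variable {p : ℕ} [hp : Fact p.Prime] {G : Type u} [Group G] {Ω : Type v} [MulAction G Ω]
variable {g : G} {hg : g ^ p = 1} {b₁ b₂ : Ω}

theorem symm (h : TwoOrb hg b₁ b₂) : TwoOrb hg b₂ b₁ :=
  ⟨fun x => (h.cover x).symm, fun i j hij => h.disj j i hij.symm, h.free⟩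

theorem cent_fix [FaithfulSMul G Ω] (h : TwoOrb hg b₁ b₂)
    (hord : ∀ x : G, orderOf x = p → ∀ a : Ω, x • a ≠ a) {c : G} (hc : c * g = g * c)
    (hcb : c • b₁ = b₁) : c = 1 := by
  have hconj : c * g * c⁻¹ = pw g (((1 : (ZMod p)ˣ) : ZMod p)) := by
    rw [Units.val_one, pw_one hg, hc, mul_inv_cancel_right]
  have hcp : ∀ (i : ZMod p) (y : Ω), c • pw g i • y = pw g i • c • y := by
    intro i y
    have := conj_pw_smul hg hconj i y
    rwa [Units.val_one, one_mul] at this
  obtain ⟨j, hj⟩ := fix_fix h hconj (i := 0) (by rw [pw_zero, one_smul, hcb])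
  have hpow : ∀ n : ℕ, c ^ n • b₂ = pw g ((n : ZMod p) * j) • b₂ := by
    intro n
    induction n with
    | zero => rw [pow_zero, one_smul, Nat.cast_zero, zero_mul, pw_zero, one_smul]
    | succ n ih =>
      rw [pow_succ, mul_smul, hj]
      have : c ^ n • pw g j • b₂ = pw g j • c ^ n • b₂ := by
        clear ih
        induction n with
        | zero => rw [pow_zero, one_smul, one_smul]
        | succ n ih => rw [pow_succ', mul_smul, ih, hcp, mul_smul]
      rw [this, ih, ← mul_smul, ← pw_add hg]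
      congr 2
      push_cast; ring
  have hcp1 : c ^ p = 1 := by
    apply FaithfulSMul.eq_of_smul_eq_smul (α := Ω)
    intro x
    rw [one_smul]
    have hcomm : ∀ (n : ℕ) (i : ZMod p) (y : Ω), c ^ n • pw g i • y = pw g i • c ^ n • y := by
      intro n i y
      induction n with
      | zero => rw [pow_zero, one_smul, one_smul]
      | succ n ih => rw [pow_succ', mul_smul, ih, hcp, mul_smul]
    rcases h.cover x with ⟨i, rfl⟩ | ⟨i, rfl⟩
    · rw [hcomm]
      congr 1
      have : ∀ n : ℕ, c ^ n • b₁ = b₁ := by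
        intro n
        induction n with
        | zero => rw [pow_zero, one_smul]
        | succ n ih => rw [pow_succ, mul_smul, hcb, ih]
      exact this p
    · rw [hcomm, hpow, ZMod.natCast_self, zero_mul, pw_zero, one_smul]
  by_contra hc1
  exact hord c (orderOf_eq_prime hcp1 hc1) b₁ hcb

theorem cent_eq [Finite G] [Finite Ω] [FaithfulSMul G Ω] (hprim : MulAction.IsPreprimitive G Ω)
    (h2t : ¬ MulAction.IsMultiplyPretransitive G Ω 2) (hp2 : p ≠ 2)
    (h : TwoOrb hg b₁ b₂) (hgo : orderOf g = p) (hΩ : Nat.card Ω = 2 * p)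
    (hord : ∀ x : G, orderOf x = p → ∀ a : Ω, x • a ≠ a) {c : G} (hc : c * g = g * c) :
    ∃ i : ZMod p, c = pw g i := by
  have hcm : ∀ {c : G}, c * g = g * c → ∀ (i : ZMod p) (y : Ω), c • pw g i • y = pw g i • c • y := by
    intro c hc i y
    have hconj : c * g * c⁻¹ = pw g (((1 : (ZMod p)ˣ) : ZMod p)) := by
      rw [Units.val_one, pw_one hg, hc, mul_inv_cancel_right]
    have := conj_pw_smul hg hconj i y
    rwa [Units.val_one, one_mul] at this
  have hpwc : ∀ i : ZMod p, pw g i * g = g * pw g i := fun i => (Commute.pow_self g i.val).eq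
  by_cases hex : ∃ c : G, c * g = g * c ∧ ¬ ∃ i : ZMod p, c • b₁ = pw g i • b₁
  · exfalso
    obtain ⟨c, hc, hcn⟩ := hex
    have hcb : ∃ i : ZMod p, c • b₁ = pw g i • b₂ := (h.cover (c • b₁)).resolve_left hcn
    obtain ⟨i₀, hi₀⟩ := hcb
    set C := Subgroup.centralizer ({g} : Set G) with hC
    have hmem : ∀ x : G, x ∈ C ↔ x * g = g * x := by
      intro x
      rw [hC, Subgroup.mem_centralizer_singleton_iff]
    have hpwC : ∀ i : ZMod p, pw g i ∈ C := fun i => (hmem _).mpr (hpwc i)
    have hreg : ∀ x ∈ C, ∀ a : Ω, x • a = a → x = 1 := by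
      intro x hx a hxa
      rw [hmem] at hx
      rcases h.cover a with ⟨i, rfl⟩ | ⟨i, rfl⟩
      · rw [hcm hx] at hxa
        exact cent_fix h hord hx (smul_left_cancel _ hxa)
      · rw [hcm hx] at hxa
        exact cent_fix (symm h) hord hx (smul_left_cancel _ hxa)
    have htr : ∀ a : Ω, ∃ x ∈ C, x • b₁ = a := by
      intro a
      rcases h.cover a with ⟨i, rfl⟩ | ⟨i, rfl⟩
      · exact ⟨pw g i, hpwC i, rfl⟩
      · refine ⟨pw g (i - i₀) * c, C.mul_mem (hpwC _) ((hmem c).mpr hc), ?_⟩
        rw [mul_smul, hi₀, ← mul_smul, ← pw_add hg, sub_add_cancel]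
    have hCt : MulAction.IsPretransitive C Ω := by
      constructor
      intro x y
      obtain ⟨u, hu, rfl⟩ := htr x
      obtain ⟨v, hv, rfl⟩ := htr y
      refine ⟨⟨v * u⁻¹, C.mul_mem hv (C.inv_mem hu)⟩, ?_⟩
      show (v * u⁻¹) • u • b₁ = v • b₁
      rw [mul_smul, inv_smul_smul]
    have hCs : ∀ a : Ω, MulAction.stabilizer C a = ⊥ := by
      intro a
      rw [eq_bot_iff]
      intro x hx
      exact Subgroup.mem_bot.mpr (Subtype.ext (hreg x.1 x.2 a hx))
    have hCcard : Nat.card C = 2 * p := by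
      rw [← hΩ]
      refine Nat.card_congr (Equiv.ofBijective (fun x : C => x.1 • b₁) ⟨?_, ?_⟩)
      · intro x y hxy
        have hxy' : x.1 • b₁ = y.1 • b₁ := hxy
        have h1 : (y.1⁻¹ * x.1) • b₁ = b₁ := by rw [mul_smul, hxy', inv_smul_smul]
        have h2 := hreg _ (C.mul_mem (C.inv_mem y.2) x.2) _ h1
        exact Subtype.ext (inv_mul_eq_one.mp h2).symm
      · intro a
        obtain ⟨x, hx, hxa⟩ := htr a
        exact ⟨⟨x, hx⟩, hxa⟩
    have hCcyc : IsCyclic C := by
      have := Fact.mk Nat.prime_two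
      obtain ⟨t, ht⟩ := exists_prime_orderOf_dvd_card' (G := C) 2 (by rw [hCcard]; exact Dvd.intro _ rfl)
      let g' : C := ⟨g, (hmem g).mpr rfl⟩
      have hg'o : orderOf g' = p := by
        rw [← hgo]; exact (Subgroup.orderOf_coe g').symm
      have hcomm : Commute g' t := Subtype.ext ((hmem t.1).mp t.2).symm
      have hcop : (orderOf g').Coprime (orderOf t) := by
        rw [hg'o, ht]
        exact (Nat.coprime_primes hp.out Nat.prime_two).mpr hp2
      apply isCyclic_of_orderOf_eq_card (g' * t)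
      rw [hcomm.orderOf_mul_eq_mul_orderOf_of_coprime hcop, hg'o, ht, hCcard, mul_comm]
    have hnp : ¬ IsPrimePow (Nat.card Ω) := by
      rw [hΩ]
      intro hpp
      rw [isPrimePow_nat_iff] at hpp
      obtain ⟨q, k, hq, hk, hqk⟩ := hpp
      have h1 : 2 = q := by
        have : 2 ∣ q ^ k := by rw [hqk]; exact Dvd.intro _ rfl
        exact (Nat.prime_dvd_prime_iff_eq Nat.prime_two hq).mp (Nat.prime_two.dvd_of_dvd_pow this)
      have h2 : p = q := by
        have : p ∣ q ^ k := by rw [hqk]; exact Dvd.intro_left _ rfl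
        exact (Nat.prime_dvd_prime_iff_eq hp.out hq).mp (hp.out.dvd_of_dvd_pow this)
      exact hp2 (h2.trans h1.symm)
    rcases Cfsg.Agent.S3559.result (G := G) (Ω := Ω) hprim.toIsPretransitive
      (by rw [hΩ]; have := hp.out.two_le; omega) hnp C hCcyc ⟨hCt, hCs⟩ with h1 | h1
    · exact h1 hprim
    · exact h2t h1
  · push Not at hex
    obtain ⟨i, hi⟩ := hex c hc
    refine ⟨i, ?_⟩
    have h1 : pw g (-i) * c = 1 := by
      apply cent_fix h hord
      · rw [mul_assoc, hc, ← mul_assoc, hpwc, mul_assoc]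
      · rw [mul_smul, hi, ← mul_smul, ← pw_add hg, neg_add_cancel, pw_zero, one_smul]
    rw [pw_neg hg] at h1
    exact (inv_mul_eq_one.mp h1).symm

theorem card_cent [Finite G] [Finite Ω] [FaithfulSMul G Ω] (hprim : MulAction.IsPreprimitive G Ω)
    (h2t : ¬ MulAction.IsMultiplyPretransitive G Ω 2) (hp2 : p ≠ 2)
    (h : TwoOrb hg b₁ b₂) (hgo : orderOf g = p) (hΩ : Nat.card Ω = 2 * p)
    (hord : ∀ x : G, orderOf x = p → ∀ a : Ω, x • a ≠ a) (i : ZMod p) (hi : i ≠ 0) :
    Nat.card (Subgroup.centralizer ({pw g i} : Set G)) = p := by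
  have h1 : Subgroup.centralizer ({pw g i} : Set G) = Subgroup.zpowers g := by
    apply le_antisymm
    · intro c hc
      rw [Subgroup.mem_centralizer_singleton_iff] at hc
      have hcg : c * g = g * c := by
        have h2 : g = (pw g i) ^ (i⁻¹ : ZMod p).val := by
          rw [pw_pow hg, ZMod.natCast_zmod_val, inv_mul_cancel₀ hi, pw_one hg]
        rw [h2]
        exact (Commute.pow_right (show Commute c (pw g i) from hc) _).eq
      obtain ⟨j, rfl⟩ := cent_eq hprim h2t hp2 h hgo hΩ hord hcg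
      exact Subgroup.pow_mem _ (Subgroup.mem_zpowers g) _
    · rw [Subgroup.zpowers_le, Subgroup.mem_centralizer_singleton_iff]
      exact (Commute.pow_right (Commute.refl g) _).eq
  rw [h1, Nat.card_zpowers, hgo]

end

theorem main {α : Type u} [Fintype α] [DecidableEq α] {p : ℕ} (hp' : p.Prime)
    (hα : Fintype.card α = 2 * p) (G : Subgroup (Equiv.Perm α))
    (hG : MulAction.IsPreprimitive G α) (a₀ : α) : MulAction.IsMultiplyPretransitive G α 2 ∨
    (Nat.card (MulAction.orbitRel.Quotient (MulAction.stabilizer G a₀) α) = 3 ∧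
      ∃ a : ℕ, 0 < a ∧ p = 2 * a ^ 2 + 2 * a + 1 ∧ ∀ b : α, b ≠ a₀ →
        Nat.card (MulAction.orbit (MulAction.stabilizer G a₀) b) = a * (2 * a + 1) ∨
        Nat.card (MulAction.orbit (MulAction.stabilizer G a₀) b) = (a + 1) * (2 * a + 1)) := by
  classical
  have hp := Fact.mk hp'
  by_cases h2t : MulAction.IsMultiplyPretransitive G α 2
  · exact Or.inl h2t
  right
  have hp2 : p ≠ 2 := by
    rintro rfl
    exact h2t (degree_four hα G hG)
  have hp3 : 3 ≤ p := by have := hp'.two_le; omega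
  have hord : ∀ x : G, orderOf x = p → ∀ a : α, x • a ≠ a := by
    intro x hx a hxa
    apply h2t
    apply alt_two (by omega)
    have hx' : orderOf (x : Equiv.Perm α) = p := by rw [← hx]; exact Subgroup.orderOf_coe x
    have hsupp : (x : Equiv.Perm α).support.card < 2 * p := by
      rw [← hα]
      apply Finset.card_lt_univ_of_notMem (x := a)
      rw [Equiv.Perm.notMem_support]
      exact hxa
    have hc : (x : Equiv.Perm α).IsCycle := Equiv.Perm.isCycle_of_prime_order (by
      rw [hx']; exact hp') (by rw [hx']; exact hsupp)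
    exact JordanCycle.jordan G hG hp' (by omega) hc (by rw [← hc.orderOf, hx']) x.2
  -- an element of order p
  have hdvd : p ∣ Nat.card G := by
    have h1 := MulAction.card_orbit_mul_card_stabilizer_eq_card_group G a₀
    have h2 : Fintype.card (MulAction.orbit G a₀) = 2 * p := by
      rw [← hα]
      apply Fintype.card_congr
      exact (Equiv.setCongr (MulAction.orbit_eq_univ G a₀)).trans (Equiv.Set.univ α)
    rw [Nat.card_eq_fintype_card, ← h1, h2]
    exact ⟨2 * Fintype.card (MulAction.stabilizer G a₀), by ring⟩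
  obtain ⟨g, hgo⟩ := exists_prime_orderOf_dvd_card' (G := G) p hdvd
  have hg : g ^ p = 1 := by rw [← hgo]; exact pow_orderOf_eq_one g
  have hpw1 : ∀ i : ZMod p, i ≠ 0 → pw g i ≠ 1 := by
    intro i hi h1
    have h2 := orderOf_dvd_of_pow_eq_one (show g ^ i.val = 1 from h1)
    rw [hgo] at h2
    have h3 := ZMod.val_lt i
    have h4 : i.val ≠ 0 := fun h => hi ((ZMod.val_eq_zero i).mp h)
    have := Nat.le_of_dvd (Nat.pos_of_ne_zero h4) h2
    omega
  have hfree : ∀ i : ZMod p, i ≠ 0 → ∀ x : α, pw g i • x ≠ x := by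
    intro i hi x
    apply hord
    apply orderOf_eq_prime _ (hpw1 i hi)
    rw [pw_pow hg, ZMod.natCast_self, zero_mul, pw_zero]
  have hinj : ∀ (x : α) (i j : ZMod p), pw g i • x = pw g j • x → i = j := by
    intro x i j hij
    by_contra hne
    have h1 : pw g (i - j) • x = x := by
      rw [sub_eq_add_neg, add_comm, pw_add hg, mul_smul, hij, pw_neg hg, inv_smul_smul]
    exact hfree _ (sub_ne_zero.mpr hne) x h1
  obtain ⟨b₂, hb₂⟩ : ∃ b₂ : α, ∀ i : ZMod p, b₂ ≠ pw g i • a₀ := by
    by_contra hcon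
    push Not at hcon
    have h1 : Function.Surjective (fun i : ZMod p => pw g i • a₀) := fun x => by
      obtain ⟨i, hi⟩ := hcon x
      exact ⟨i, hi.symm⟩
    have h2 := Fintype.card_le_of_surjective _ h1
    rw [hα, ZMod.card] at h2
    omega
  have hdisj : ∀ i j : ZMod p, pw g i • a₀ ≠ pw g j • b₂ := by
    intro i j hij
    apply hb₂ (-j + i)
    rw [pw_add hg, mul_smul, hij, ← mul_smul, ← pw_add hg, neg_add_cancel, pw_zero, one_smul]
  have hcover : ∀ x : α, (∃ i : ZMod p, x = pw g i • a₀) ∨ (∃ i : ZMod p, x = pw g i • b₂) := by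
    have hinj' : Function.Injective (Sum.elim (fun i : ZMod p => pw g i • a₀)
        (fun i : ZMod p => pw g i • b₂)) := by
      rintro (i | i) (j | j) hij
      · exact congrArg Sum.inl (hinj _ _ _ hij)
      · exact absurd hij (hdisj _ _)
      · exact absurd hij.symm (hdisj _ _)
      · exact congrArg Sum.inr (hinj _ _ _ hij)
    have hbij := (Fintype.bijective_iff_injective_and_card _).mpr ⟨hinj', by
      rw [Fintype.card_sum, ZMod.card, hα]; ring⟩
    intro x
    obtain ⟨(i | i), hi⟩ := hbij.2 x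
    · exact Or.inl ⟨i, hi.symm⟩
    · exact Or.inr ⟨i, hi.symm⟩
  have hTO : TwoOrb hg a₀ b₂ := ⟨hcover, hdisj, hfree⟩
  have hne : Nonempty α := ⟨a₀⟩
  obtain ⟨ψ, hψ1, hψ2, hψ3, hψ4, hψ5, hψ6⟩ := structure_thm h2t hg hfree hα a₀
  have hw : WS hg α ψ := ⟨hψ1, hψ2, hψ3, one_mem_cons, hψ4, hψ5, hψ6⟩
  have hR1 : (R α ψ).card = 1 := by
    have h1 : (R α ψ).card ≠ 0 := by
      intro h0
      obtain ⟨χ, hχ, _⟩ := hw.exists_mem (j := (1 : ZMod p)) one_ne_zero
      rw [Finset.card_eq_zero] at h0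
      rw [h0] at hχ
      exact absurd hχ (Finset.notMem_empty χ)
    by_contra h2
    exact final_contradiction hTO hw (by omega) (fun i hi =>
      card_cent hG h2t hp2 hTO hgo (by rw [Nat.card_eq_fintype_card, hα]) hord i hi)
  obtain ⟨χ₁, hχ₁⟩ := Finset.card_eq_one.mp hR1
  have hχ₁m : χ₁ ∈ R α ψ := by rw [hχ₁]; exact Finset.mem_singleton_self _
  have hrank : Nat.card (MulAction.orbitRel.Quotient (MulAction.stabilizer G a₀) α) = 3 := by
    rw [rank_eq a₀ hw.mf, hw.card_cons, hR1]
  refine ⟨hrank, ?_⟩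
  have hcR := hw.card_R
  rw [hR1, one_mul] at hcR
  refine Wielandt3.main (m := p) hα a₀ hrank (χ₁ : G → ℂ) (ψ : G → ℂ) χ₁.2 ψ.2 ?_ ?_ (ψ_degree hw)
  · ext x
    rw [hw.mf.char_eq, hw.sum_cons, hχ₁, Finset.sum_singleton]
    show (1 : G → ℂ) x + (ψ : G → ℂ) x + (χ₁ : G → ℂ) x = 1 + (χ₁ : G → ℂ) x + (ψ : G → ℂ) x
    rw [Pi.one_apply]; ring
  · rw [degree_eq hg χ₁, hw.sum_B hχ₁m, hcR, Nat.cast_sub hp'.one_lt.le, Nat.cast_one]

end Cfsg.Agent.Lib.W2pRed
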