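import Mathlib

/-!
Common eigenvectors (weights) of families of endomorphisms, and their permutation by a group
normalizing the family (helper59).
-/

set_option autoImplicit false

namespace Cfsg.Agent.Lib.Weights

open Module Finset

variable {k W X : Type*} [Field k] [AddCommGroup W] [Module k W]

/-- common eigenvectors with pairwise distinct weights are independent -/
theorem eq_zero_of_sum {I : Type*} (f : X → Module.End k W) (s : Finset I) :
    ∀ (χ : I → X → k) (v : I → W), (∀ i ∈ s, ∀ x, f x (v i) = χ i x • v i) →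
      (∀ i ∈ s, ∀ j ∈ s, i ≠ j → χ i ≠ χ j) → ∑ i ∈ s, v i = 0 → ∀ i ∈ s, v i = 0 := by
  classical
  induction s using Finset.induction_on with
  | empty => intro χ v _ _ _ i hi; simp at hi
  | insert a s ha ih =>
    intro χ v hv hχ hsum
    have hs : ∀ j ∈ s, v j = 0 := by
      intro j hj
      obtain ⟨x, hx⟩ := Function.ne_iff.mp (hχ j (by simp [hj]) a (by simp)
        (fun h => ha (h ▸ hj)))
      have h1 := congrArg (f x) hsum
      rw [map_sum, map_zero, Finset.sum_insert ha, hv a (by simp)] at h1
      have h2 := congrArg (fun w => χ a x • w) hsum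
      simp only [smul_zero, Finset.sum_insert ha, smul_add] at h2
      have h3 : ∑ i ∈ s, (χ i x - χ a x) • v i = 0 := by
        have h4 : ∑ i ∈ s, (χ i x - χ a x) • v i
            = (χ a x • v a + ∑ i ∈ s, f x (v i)) - (χ a x • v a + χ a x • ∑ i ∈ s, v i) := by
          rw [add_sub_add_left_eq_sub, Finset.smul_sum, ← Finset.sum_sub_distrib]
          refine Finset.sum_congr rfl fun i hi => ?_
          rw [hv i (by simp [hi]), sub_smul]
        rw [h4, h1, h2, sub_zero]
      have h5 := ih χ (fun i => (χ i x - χ a x) • v i) (by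
        intro i hi y
        rw [map_smul, hv i (by simp [hi]), smul_smul, smul_smul, mul_comm]) (by
        intro i hi j hj
        exact hχ i (by simp [hi]) j (by simp [hj])) h3 j hj
      rcases smul_eq_zero.mp h5 with h6 | h6
      · exact absurd (sub_eq_zero.mp h6) hx
      · exact h6
    intro i hi
    rcases Finset.mem_insert.mp hi with rfl | hi
    · rw [Finset.sum_insert ha, Finset.sum_eq_zero hs, add_zero] at hsum
      exact hsum
    · exact hs i hi

/-- a vanishing sum of common eigenvectors can be split according to the weights -/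
theorem sum_filter_eq_zero {I : Type*} [Fintype I] [DecidableEq (X → k)] (f : X → Module.End k W)
    (χ : I → X → k) (v : I → W) (hv : ∀ i x, f x (v i) = χ i x • v i) (hsum : ∑ i, v i = 0)
    (ψ : X → k) : ∑ i with χ i = ψ, v i = 0 := by
  classical
  have h1 : ∑ φ ∈ (univ.image χ), ∑ i with χ i = φ, v i = 0 := by
    rw [← hsum]
    exact Finset.sum_fiberwise_of_maps_to (fun i _ => Finset.mem_image_of_mem χ (mem_univ i)) v
  by_cases hψ : ψ ∈ univ.image χ
  · refine eq_zero_of_sum f (univ.image χ) (fun φ => φ) (fun φ => ∑ i with χ i = φ, v i) ?_ ?_ h1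
      ψ hψ
    · intro φ _ x
      rw [map_sum, Finset.smul_sum]
      refine Finset.sum_congr rfl fun i hi => ?_
      rw [hv, (Finset.mem_filter.mp hi).2]
    · intro i _ j _ hij
      exact hij
  · apply Finset.sum_eq_zero
    intro i hi
    exact absurd (Finset.mem_image.mpr ⟨i, mem_univ i, (Finset.mem_filter.mp hi).2⟩) hψ

/-- Commuting endomorphisms of finite order prime to the characteristic: the invariant subspace
`U` is spanned by common eigenvectors. -/
theorem mem_span_weights [IsAlgClosed k] [FiniteDimensional k W] (U : Submodule k W)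
    (f : X → Module.End k W) (hU : ∀ x, ∀ u ∈ U, f x u ∈ U)
    (hcomm : ∀ x y, ∀ u ∈ U, f x (f y u) = f y (f x u)) (n : ℕ) (hn : (n : k) ≠ 0)
    (hpow : ∀ x, ∀ u ∈ U, (f x ^ n) u = u) :
    ∀ u ∈ U, u ∈ Submodule.span k {v | v ∈ U ∧ ∃ χ : X → k, ∀ x, f x v = χ x • v} := by
  let g : X → Module.End k U := fun x => (f x).restrict (hU x)
  have hg : ∀ x (u : U), ((g x u : U) : W) = f x u := fun x u => rfl
  have hgpow : ∀ x, g x ^ n = 1 := by
    intro x
    ext u
    have h1 : ∀ m : ℕ, (((g x ^ m) u : U) : W) = (f x ^ m) u := by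
      intro m
      induction m generalizing u with
      | zero => simp
      | succ m ih => rw [pow_succ, Module.End.mul_apply, ih, hg, pow_succ, Module.End.mul_apply]
    rw [h1, hpow x u u.2]
    rfl
  have hss : ∀ x, (g x).IsSemisimple := by
    intro x
    apply Module.End.isSemisimple_of_squarefree_aeval_eq_zero (p := Polynomial.X ^ n - 1)
    · exact (Polynomial.X_pow_sub_one_separable_iff.mpr hn).squarefree
    · rw [map_sub, map_pow, Polynomial.aeval_X, map_one, hgpow, sub_self]
  have htop : ⨆ χ : X → k, ⨅ x, (g x).maxGenEigenspace (χ x) = ⊤ := by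
    apply Module.End.iSup_iInf_maxGenEigenspace_eq_top_of_iSup_maxGenEigenspace_eq_top_of_commute
    · intro x y _
      ext u
      change f x (f y u) = f y (f x u)
      exact hcomm x y u u.2
    · intro x
      exact Module.End.iSup_maxGenEigenspace_eq_top (g x)
  have key : ∀ u : U, (u : W) ∈ Submodule.span k {v | v ∈ U ∧ ∃ χ : X → k, ∀ x, f x v = χ x • v} := by
    intro u
    have h1 : u ∈ ⨆ χ : X → k, ⨅ x, (g x).maxGenEigenspace (χ x) := by rw [htop]; trivial
    have h2 : (⨆ χ : X → k, ⨅ x, (g x).maxGenEigenspace (χ x)) ≤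
        (Submodule.span k {v | v ∈ U ∧ ∃ χ : X → k, ∀ x, f x v = χ x • v}).comap U.subtype := by
      refine iSup_le fun χ => ?_
      intro v hv
      apply Submodule.subset_span
      refine ⟨v.2, χ, fun x => ?_⟩
      have h3 := (Submodule.mem_iInf _).1 hv x
      rw [(hss x).isFinitelySemisimple.maxGenEigenspace_eq_eigenspace,
        Module.End.mem_eigenspace_iff] at h3
      exact congrArg (Subtype.val : U → W) h3
    exact h2 h1
  intro u hu
  exact key ⟨u, hu⟩

end Cfsg.Agent.Lib.Weights
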