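import Cfsg.Agent.Lib.MatChar
import Cfsg.Agent.Lib.SympGen
import Cfsg.Agent.Lib.RepBound
import Cfsg.Agent.Lib.CharBasic

/-!
# The Weil representation of the symplectic group over a finite field of odd order (helper39)
-/

set_option autoImplicit false
set_option linter.unusedSectionVars false
open Cfsg

namespace Cfsg.Agent.Lib.Weil

open Matrix Cfsg.Agent.Lib.MatChar

section heis

variable {F : Type*} [Field F] {m : ℕ} (lam : AddChar F ℂ)

/-- Heisenberg operators. -/
def W (u : Fin m ⊕ Fin m → F) : Module.End ℂ ((Fin m → F) → ℂ) where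
  toFun f x := lam (-((u ∘ Sum.inr) ⬝ᵥ x) - ((u ∘ Sum.inl) ⬝ᵥ (u ∘ Sum.inr)) / 2) * f (x + u ∘ Sum.inl)
  map_add' f g := by funext x; simp [mul_add]
  map_smul' c f := by funext x; simp [mul_left_comm]

theorem W_apply (u : Fin m ⊕ Fin m → F) (f : (Fin m → F) → ℂ) (x : Fin m → F) :
    W lam u f x = lam (-((u ∘ Sum.inr) ⬝ᵥ x) - ((u ∘ Sum.inl) ⬝ᵥ (u ∘ Sum.inr)) / 2) * f (x + u ∘ Sum.inl) := rfl

theorem W_zero : W lam (0 : Fin m ⊕ Fin m → F) = 1 := by
  refine LinearMap.ext fun f => funext fun x => ?_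
  rw [W_apply]
  have h1 : (0 : Fin m ⊕ Fin m → F) ∘ Sum.inr = 0 := rfl
  have h2 : (0 : Fin m ⊕ Fin m → F) ∘ Sum.inl = 0 := rfl
  rw [h1, h2]
  simp

theorem W_mul (h2 : (2 : F) ≠ 0) (u v : Fin m ⊕ Fin m → F) :
    W lam u * W lam v = lam (sympForm m F u v / 2) • W lam (u + v) := by
  refine LinearMap.ext fun f => funext fun x => ?_
  change W lam u (W lam v f) x = lam (sympForm m F u v / 2) * W lam (u + v) f x
  rw [W_apply, W_apply, W_apply, ← mul_assoc, ← mul_assoc, ← AddChar.map_add_eq_mul, ← AddChar.map_add_eq_mul]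
  congr 1
  · congr 1
    have e1 : (u + v) ∘ Sum.inr = u ∘ Sum.inr + v ∘ Sum.inr := rfl
    have e2 : (u + v) ∘ Sum.inl = u ∘ Sum.inl + v ∘ Sum.inl := rfl
    have e3 : sympForm m F u v = (u ∘ Sum.inr) ⬝ᵥ (v ∘ Sum.inl) - (u ∘ Sum.inl) ⬝ᵥ (v ∘ Sum.inr) := by
      rw [SympMat.sympForm_apply, Finset.sum_sub_distrib]; rfl
    rw [e1, e2, e3]
    simp only [add_dotProduct, dotProduct_add]
    rw [dotProduct_comm (v ∘ Sum.inr) (u ∘ Sum.inl), dotProduct_comm (u ∘ Sum.inr) (v ∘ Sum.inl)]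
    field_simp
    ring
  · congr 1
    have e2 : (u + v) ∘ Sum.inl = u ∘ Sum.inl + v ∘ Sum.inl := rfl
    rw [e2, add_assoc]

theorem W_mul_neg (h2 : (2 : F) ≠ 0) (u : Fin m ⊕ Fin m → F) : W lam u * W lam (-u) = 1 := by
  rw [W_mul lam h2, add_neg_cancel, W_zero]
  have : sympForm m F u (-u) = 0 := by
    rw [← neg_one_smul F u, SympMat.sympForm_smul_right, SympMat.sympForm_self, mul_zero]
  rw [this, zero_div, AddChar.map_zero_eq_one, one_smul]

theorem W_neg_mul (h2 : (2 : F) ≠ 0) (u : Fin m ⊕ Fin m → F) : W lam (-u) * W lam u = 1 := by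
  have := W_mul_neg lam h2 (-u)
  rwa [neg_neg] at this

theorem W_comm (h2 : (2 : F) ≠ 0) (u v : Fin m ⊕ Fin m → F) :
    W lam u * W lam v = lam (sympForm m F u v) • (W lam v * W lam u) := by
  rw [W_mul lam h2, W_mul lam h2, smul_smul, ← AddChar.map_add_eq_mul, add_comm v u]
  congr 2
  rw [SympMat.sympForm_swap v u]
  field_simp
  ring

theorem W_conj (h2 : (2 : F) ≠ 0) (u v : Fin m ⊕ Fin m → F) :
    W lam u * W lam v * W lam (-u) = lam (sympForm m F u v) • W lam v := by
  rw [W_comm lam h2, smul_mul_assoc, mul_assoc, W_mul_neg lam h2, mul_one]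

/-- The commutation characters. -/
def cch (u : Fin m ⊕ Fin m → F) : Multiplicative (Fin m ⊕ Fin m → F) →* ℂ where
  toFun v := lam (sympForm m F v.toAdd u)
  map_one' := by
    rw [toAdd_one, ← zero_smul F (0 : Fin m ⊕ Fin m → F), SympMat.sympForm_smul_left, zero_mul, AddChar.map_zero_eq_one]
  map_mul' v w := by
    rw [toAdd_mul, SympMat.sympForm_add_left, AddChar.map_add_eq_mul]

theorem exists_sympForm_ne {lam : AddChar F ℂ} (hlam : lam ≠ 1) {u : Fin m ⊕ Fin m → F} (hu : u ≠ 0) :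
    ∃ v, lam (sympForm m F v u) ≠ 1 := by
  by_contra hcon
  push Not at hcon
  apply hu
  refine SympMat.eq_zero_of_sympForm fun v => ?_
  rw [SympMat.sympForm_swap, neg_eq_zero]
  refine eq_zero_of_forall hlam fun b => ?_
  rw [mul_comm, ← SympMat.sympForm_smul_left]
  exact hcon _

theorem cch_injective {lam : AddChar F ℂ} (hlam : lam ≠ 1) : Function.Injective (cch (m := m) lam) := by
  intro u u' h
  by_contra hne
  obtain ⟨v, hv⟩ := exists_sympForm_ne hlam (sub_ne_zero.2 hne)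
  apply hv
  have h1 : lam (sympForm m F v u) = lam (sympForm m F v u') := DFunLike.congr_fun h (Multiplicative.ofAdd v)
  have h3 : sympForm m F v (u - u') = sympForm m F v u - sympForm m F v u' := by
    rw [sub_eq_add_neg, SympMat.sympForm_add_right, ← neg_one_smul F u', SympMat.sympForm_smul_right]; ring
  rw [h3, AddChar.map_sub_eq_div, h1, div_self (apply_ne_zero _ _)]

variable [Fintype F] [DecidableEq F] {lam} (hlam : lam ≠ 1) (h2 : (2 : F) ≠ 0)

include hlam h2

theorem W_li : LinearIndependent ℂ (W (m := m) lam) := by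
  rw [Fintype.linearIndependent_iff]
  intro c hc i
  have h1 : ∀ i, c i • W (m := m) lam i = 0 := by
    refine RepBound.vec_dedekind (cch lam) (cch_injective hlam) (fun i => c i • W lam i) fun x => ?_
    have h3 : W lam x.toAdd * (∑ i, c i • W lam i) * W lam (-x.toAdd) = 0 := by rw [hc, mul_zero, zero_mul]
    rw [Finset.mul_sum, Finset.sum_mul] at h3
    rw [← h3]
    refine Finset.sum_congr rfl fun i _ => ?_
    rw [mul_smul_comm, smul_mul_assoc, W_conj lam h2, smul_comm]
    rfl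
  rcases smul_eq_zero.1 (h1 i) with h3 | h3
  · exact h3
  · exfalso
    have h4 := W_mul_neg lam h2 i
    rw [h3, zero_mul] at h4
    exact zero_ne_one h4

/-- The Heisenberg operators form a basis of the endomorphism algebra. -/
noncomputable def bW : Module.Basis (Fin m ⊕ Fin m → F) ℂ (Module.End ℂ ((Fin m → F) → ℂ)) :=
  basisOfLinearIndependentOfCardEqFinrank (W_li hlam h2) (by
    rw [Module.finrank_linearMap, Module.finrank_fintype_fun_eq_card, Fintype.card_fun, Fintype.card_fun,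
      Fintype.card_sum, pow_add, Fintype.card_fin])

theorem bW_apply (u : Fin m ⊕ Fin m → F) : bW hlam h2 u = W lam u := by
  rw [bW, coe_basisOfLinearIndependentOfCardEqFinrank]

theorem exists_expand (X : Module.End ℂ ((Fin m → F) → ℂ)) : ∃ c : (Fin m ⊕ Fin m → F) → ℂ, X = ∑ u, c u • W lam u := by
  refine ⟨fun u => (bW hlam h2).repr X u, ?_⟩
  conv_lhs => rw [← (bW hlam h2).sum_repr X]
  exact Finset.sum_congr rfl fun u _ => by rw [bW_apply]

theorem expand_unique {c d : (Fin m ⊕ Fin m → F) → ℂ} (h : ∑ u, c u • W (m := m) lam u = ∑ u, d u • W lam u) : c = d := by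
  funext u
  rw [← sub_eq_zero]
  refine Fintype.linearIndependent_iff.1 (W_li (m := m) hlam h2) (fun u => c u - d u) ?_ u
  simp only [sub_smul]
  rw [Finset.sum_sub_distrib, h, sub_self]

/-- An operator commuting with the Heisenberg operators is a scalar. -/
theorem scalar_of_comm (X : Module.End ℂ ((Fin m → F) → ℂ)) (hX : ∀ u, X * W lam u = W lam u * X) :
    ∃ c : ℂ, X = c • 1 := by
  obtain ⟨c, hc⟩ := exists_expand hlam h2 X
  have h1 : ∀ v, (fun u => lam (sympForm m F v u) * c u) = c := by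
    intro v
    apply expand_unique hlam h2
    have h3 : W lam v * X * W lam (-v) = X := by
      rw [← hX, mul_assoc, W_mul_neg lam h2, mul_one]
    rw [← hc]
    conv_rhs => rw [← h3, hc]
    rw [Finset.mul_sum, Finset.sum_mul]
    refine Finset.sum_congr rfl fun u _ => ?_
    rw [mul_smul_comm, smul_mul_assoc, W_conj lam h2, smul_smul, mul_comm]
  refine ⟨c 0, ?_⟩
  rw [hc, Finset.sum_eq_single 0, W_zero]
  · intro u _ hu
    obtain ⟨v, hv⟩ := exists_sympForm_ne hlam hu
    have h3 : lam (sympForm m F v u) * c u = c u := congrFun (h1 v) u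
    have h4 : (lam (sympForm m F v u) - 1) * c u = 0 := by rw [sub_mul, h3, one_mul, sub_self]
    rw [(mul_eq_zero.1 h4).resolve_left (sub_ne_zero.2 hv), zero_smul]
  · intro h; exact absurd (Finset.mem_univ _) h

omit hlam h2 in
theorem sympForm_mulVec (g : Matrix.symplecticGroup (Fin m) F) (u v : Fin m ⊕ Fin m → F) :
    sympForm m F (g.1 *ᵥ u) (g.1 *ᵥ v) = sympForm m F u v := SympMat.mem_iff.1 g.2 u v

omit hlam h2 in
theorem mulVec_injective (g : Matrix.symplecticGroup (Fin m) F) : Function.Injective (fun u => g.1 *ᵥ u) := by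
  intro u v h
  have h1 : (g⁻¹).1 * g.1 = 1 := congrArg Subtype.val (inv_mul_cancel g)
  have h3 := congrArg (fun w => (g⁻¹).1 *ᵥ w) h
  simpa only [Matrix.mulVec_mulVec, h1, Matrix.one_mulVec] using h3

/-- `T` intertwines `W` and `W ∘ g`. -/
def Tw (lam : AddChar F ℂ) (g : Matrix.symplecticGroup (Fin m) F) (T : Module.End ℂ ((Fin m → F) → ℂ)) : Prop :=
  ∀ u, T * W lam u = W lam (g.1 *ᵥ u) * T

theorem exists_Tw_ne_zero (g : Matrix.symplecticGroup (Fin m) F) : ∃ T, Tw lam g T ∧ T ≠ 0 := by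
  let U : Module.End ℂ ((Fin m → F) → ℂ) → Module.End ℂ ((Fin m → F) → ℂ) := fun X =>
    ∑ v, W lam (g.1 *ᵥ v) * X * W lam (-v)
  have hU : ∀ X, Tw lam g (U X) := by
    intro X u
    have h1 : W lam (g.1 *ᵥ u) * U X * W lam (-u) = U X := by
      simp only [U]
      rw [Finset.mul_sum, Finset.sum_mul, ← Equiv.sum_comp (Equiv.addLeft u) (fun v => W lam (g.1 *ᵥ v) * X * W lam (-v))]
      refine Finset.sum_congr rfl fun v _ => ?_
      have h3 : W lam (g.1 *ᵥ u) * W lam (g.1 *ᵥ v) = lam (sympForm m F u v / 2) • W lam (g.1 *ᵥ (u + v)) := by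
        rw [W_mul lam h2, sympForm_mulVec, Matrix.mulVec_add]
      have h4 : W lam (-v) * W lam (-u) = lam (-(sympForm m F u v / 2)) • W lam (-(u + v)) := by
        rw [W_mul lam h2, neg_add, add_comm (-u) (-v)]
        congr 2
        rw [← neg_one_smul F v, ← neg_one_smul F u, SympMat.sympForm_smul_left, SympMat.sympForm_smul_right,
          SympMat.sympForm_swap v u]
        ring
      rw [Equiv.coe_addLeft, ← mul_assoc, ← mul_assoc, h3, mul_assoc (_ * X), h4, mul_smul_comm, smul_mul_assoc,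
        smul_mul_assoc, smul_smul, ← AddChar.map_add_eq_mul, neg_add_cancel, AddChar.map_zero_eq_one, one_smul]
    have h3 : W lam (-u) * W lam u = 1 := W_neg_mul lam h2 u
    calc U X * W lam u = W lam (g.1 *ᵥ u) * U X * W lam (-u) * W lam u := by rw [h1]
      _ = W lam (g.1 *ᵥ u) * U X := by rw [mul_assoc _ (W lam (-u)), h3, mul_one]
  by_cases hex : ∃ X, U X ≠ 0
  · obtain ⟨X, hX⟩ := hex
    exact ⟨U X, hU X, hX⟩
  · exfalso
    push Not at hex
    let φ : ((Fin m → F) → ℂ) →ₗ[ℂ] ℂ := LinearMap.proj 0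
    let h : (Fin m → F) → ℂ := 1
    have h3 : ∑ v, φ (W lam (-v) h) • W lam (g.1 *ᵥ v) = 0 := by
      refine LinearMap.ext fun f => ?_
      have h4 := congrArg (fun Z : Module.End ℂ ((Fin m → F) → ℂ) => Z h) (hex (φ.smulRight f))
      simp only [U, LinearMap.sum_apply, LinearMap.zero_apply] at h4
      rw [LinearMap.sum_apply, LinearMap.zero_apply, ← h4]
      refine Finset.sum_congr rfl fun v _ => ?_
      rw [LinearMap.smul_apply]
      change _ = W lam (g.1 *ᵥ v) (φ (W lam (-v) h) • f)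
      rw [map_smul]
    have h4 := (Fintype.linearIndependent_iff.1 ((W_li (m := m) hlam h2).comp _ (mulVec_injective g))) _ h3 0
    rw [neg_zero, W_zero] at h4
    exact one_ne_zero h4

theorem eq_zero_of_ker {g : Matrix.symplecticGroup (Fin m) F} {T : Module.End ℂ ((Fin m → F) → ℂ)} (hT : Tw lam g T)
    {h : (Fin m → F) → ℂ} (hh : h ≠ 0) (hTh : T h = 0) : T = 0 := by
  have h1 : ∀ X : Module.End ℂ ((Fin m → F) → ℂ), T (X h) = 0 := by
    intro X
    obtain ⟨c, rfl⟩ := exists_expand hlam h2 X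
    rw [LinearMap.sum_apply, map_sum]
    refine Finset.sum_eq_zero fun u _ => ?_
    rw [LinearMap.smul_apply, map_smul]
    have h3 := congrArg (fun Z : Module.End ℂ ((Fin m → F) → ℂ) => Z h) (hT u)
    change T (W lam u h) = W lam (g.1 *ᵥ u) (T h) at h3
    rw [h3, hTh, map_zero, smul_zero]
  obtain ⟨x, hx⟩ : ∃ x, h x ≠ 0 := by
    by_contra hcon
    push Not at hcon
    exact hh (funext hcon)
  refine LinearMap.ext fun f => ?_
  have h3 := h1 (((LinearMap.proj x : ((Fin m → F) → ℂ) →ₗ[ℂ] ℂ)).smulRight ((h x)⁻¹ • f))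
  change T (h x • ((h x)⁻¹ • f)) = 0 at h3
  rw [smul_smul, mul_inv_cancel₀ hx, one_smul] at h3
  exact h3

theorem exists_Tw (g : Matrix.symplecticGroup (Fin m) F) : ∃ T, Tw lam g T ∧ IsUnit T := by
  obtain ⟨T, hT, hT0⟩ := exists_Tw_ne_zero hlam h2 g
  refine ⟨T, hT, ?_⟩
  rw [LinearMap.isUnit_iff_ker_eq_bot, LinearMap.ker_eq_bot']
  intro h hTh
  by_contra hne
  exact hT0 (eq_zero_of_ker hlam h2 hT hne hTh)

omit hlam h2 [Fintype F] [DecidableEq F] in
theorem Tw.mul {g h : Matrix.symplecticGroup (Fin m) F} {S T : Module.End ℂ ((Fin m → F) → ℂ)} (hS : Tw lam g S)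
    (hT : Tw lam h T) : Tw lam (g * h) (S * T) := by
  intro u
  rw [mul_assoc, hT, ← mul_assoc, hS, mul_assoc, Matrix.mulVec_mulVec]
  rfl

omit hlam h2 [Fintype F] [DecidableEq F] in
theorem Tw.one : Tw lam (1 : Matrix.symplecticGroup (Fin m) F) 1 := by
  intro u
  rw [one_mul, mul_one]
  change _ = W lam ((1 : Matrix _ _ F) *ᵥ u)
  rw [Matrix.one_mulVec]

theorem Tw.unique {g : Matrix.symplecticGroup (Fin m) F} {S T : Module.End ℂ ((Fin m → F) → ℂ)} (hS : Tw lam g S)
    (hT : Tw lam g T) (hu : IsUnit T) (hu' : IsUnit S) : ∃ c : ℂ, c ≠ 0 ∧ S = c • T := by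
  obtain ⟨U, rfl⟩ := hu
  obtain ⟨U', rfl⟩ := hu'
  obtain ⟨c, hc⟩ := scalar_of_comm hlam h2 ((U⁻¹).1 * U'.1) (fun u => by
    rw [mul_assoc, hS, ← mul_assoc]
    have h1 : (U⁻¹).1 * W lam (g.1 *ᵥ u) = W lam u * (U⁻¹).1 := by
      have h3 := hT u
      calc (U⁻¹).1 * W lam (g.1 *ᵥ u) = (U⁻¹).1 * (W lam (g.1 *ᵥ u) * U.1) * (U⁻¹).1 := by
            rw [mul_assoc, mul_assoc, Units.mul_inv, mul_one]
        _ = W lam u * (U⁻¹).1 := by rw [← h3, ← mul_assoc, Units.inv_mul, one_mul]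
    rw [h1, mul_assoc])
  have h1 : U'.1 = c • U.1 := by
    calc U'.1 = U.1 * ((U⁻¹).1 * U'.1) := by rw [← mul_assoc, Units.mul_inv, one_mul]
      _ = c • U.1 := by rw [hc, mul_smul_comm, mul_one]
  refine ⟨c, ?_, h1⟩
  rintro rfl
  rw [zero_smul] at h1
  have h3 := Units.mul_inv U'
  rw [h1, zero_mul] at h3
  exact zero_ne_one h3

/-! ### Commutant -/

omit hlam h2 in
theorem transitive {u v : Fin m ⊕ Fin m → F} (hu : u ≠ 0) (hv : v ≠ 0) :
    ∃ g : Matrix.symplecticGroup (Fin m) F, g.1 *ᵥ u = v := by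
  obtain ⟨g, hg⟩ := SympGen.witt_family (F := F) (m := m) (n := 1) (fun _ => u) (fun _ => v)
    (linearIndependent_unique_iff.2 hu) (linearIndependent_unique_iff.2 hv)
    (fun _ _ => by rw [SympMat.sympForm_self, SympMat.sympForm_self])
  exact ⟨g, hg 0⟩

theorem commutant (X : Module.End ℂ ((Fin m → F) → ℂ))
    (hX : ∀ g T, Tw lam g T → IsUnit T → T * X = X * T) :
    ∃ a b : ℂ, X = a • 1 + b • ∑ u, W lam u := by
  obtain ⟨c, hc⟩ := exists_expand hlam h2 X
  have h1 : ∀ (g : Matrix.symplecticGroup (Fin m) F) u, c (g.1 *ᵥ u) = c u := by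
    intro g
    obtain ⟨T, hT, hu⟩ := exists_Tw hlam h2 g
    have h3 := hX g T hT hu
    have h4 : T * X = (∑ u, c u • W lam (g.1 *ᵥ u)) * T := by
      rw [hc, Finset.mul_sum, Finset.sum_mul]
      refine Finset.sum_congr rfl fun u _ => ?_
      rw [mul_smul_comm, hT, smul_mul_assoc]
    rw [h4] at h3
    have h5 := hu.mul_right_cancel h3
    have h6 : ∑ u, c (g.1 *ᵥ u) • W lam (g.1 *ᵥ u) = ∑ u, c u • W lam u :=
      Equiv.sum_comp (Equiv.ofBijective _ (Finite.injective_iff_bijective.1 (mulVec_injective g))) (fun u => c u • W lam u)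
    rw [hc, ← h6] at h5
    intro u
    rw [← sub_eq_zero]
    refine Fintype.linearIndependent_iff.1 ((W_li (m := m) hlam h2).comp _ (mulVec_injective g))
      (fun u => c (g.1 *ᵥ u) - c u) ?_ u
    simp only [sub_smul, Function.comp_apply]
    rw [Finset.sum_sub_distrib, h5, sub_self]
  by_cases hex : ∃ u : Fin m ⊕ Fin m → F, u ≠ 0
  · obtain ⟨u₀, hu₀⟩ := hex
    refine ⟨c 0 - c u₀, c u₀, ?_⟩
    have h3 : ∀ u, c u • W lam u = (if u = 0 then (c 0 - c u₀) • W lam u else 0) + c u₀ • W lam u := by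
      intro u
      by_cases hu : u = 0
      · rw [if_pos hu, hu, ← add_smul, sub_add_cancel]
      · rw [if_neg hu, zero_add]
        obtain ⟨g, rfl⟩ := transitive hu₀ hu
        rw [h1]
    rw [hc, Finset.sum_congr rfl fun u _ => h3 u, Finset.sum_add_distrib, Finset.sum_ite_eq' , if_pos (Finset.mem_univ _),
      W_zero, Finset.smul_sum]
  · push Not at hex
    refine ⟨c 0, 0, ?_⟩
    rw [zero_smul, add_zero, hc, Finset.sum_eq_single 0, W_zero]
    · intro u _ hu; exact absurd (hex u) hu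
    · intro h; exact absurd (Finset.mem_univ _) h

end heis

/-! ### Parity -/

section parity

variable (F : Type*) [Field F] (m : ℕ)

/-- The parity operator. -/
def P : Module.End ℂ ((Fin m → F) → ℂ) where
  toFun f x := f (-x)
  map_add' f g := rfl
  map_smul' c f := rfl

variable {F m}

theorem P_apply (f : (Fin m → F) → ℂ) (x : Fin m → F) : P F m f x = f (-x) := rfl

theorem P_mul_P : P F m * P F m = 1 := by
  refine LinearMap.ext fun f => funext fun x => ?_
  change f (- -x) = f x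
  rw [neg_neg]

theorem P_mul_W (lam : AddChar F ℂ) (u : Fin m ⊕ Fin m → F) : P F m * W lam u = W lam (-u) * P F m := by
  refine LinearMap.ext fun f => funext fun x => ?_
  change W lam u f (-x) = W lam (-u) (P F m f) x
  rw [W_apply, W_apply, P_apply]
  have e1 : (-u) ∘ Sum.inr = -(u ∘ Sum.inr) := rfl
  have e2 : (-u) ∘ Sum.inl = -(u ∘ Sum.inl) := rfl
  rw [e1, e2]
  simp only [neg_dotProduct, dotProduct_neg, neg_neg, neg_add_rev]
  congr 2
  rw [add_comm]

variable [Fintype F] [DecidableEq F]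

theorem trace_P (h2 : (2 : F) ≠ 0) : LinearMap.trace ℂ _ (P F m) = 1 := by
  rw [LinearMap.trace_eq_matrix_trace ℂ (Pi.basisFun ℂ (Fin m → F)), Matrix.trace]
  rw [Finset.sum_eq_single 0]
  · rw [Matrix.diag_apply, LinearMap.toMatrix_apply]
    simp [P_apply]
  · intro x _ hx
    rw [Matrix.diag_apply, LinearMap.toMatrix_apply]
    simp only [Pi.basisFun_apply, Pi.basisFun_repr, P_apply]
    rw [Pi.single_apply, if_neg]
    intro h
    apply hx
    funext i
    have h3 := congrFun h i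
    simp only [Pi.neg_apply] at h3
    have h4 : 2 * x i = 0 := by linear_combination -h3
    exact (mul_eq_zero.1 h4).resolve_left h2
  · intro h; exact absurd (Finset.mem_univ _) h

variable {lam : AddChar F ℂ} (hlam : lam ≠ 1) (h2 : (2 : F) ≠ 0)

include hlam h2 in
/-- Intertwiners commute with the parity operator. -/
theorem Tw.comm_P {g : Matrix.symplecticGroup (Fin m) F} {T : Module.End ℂ ((Fin m → F) → ℂ)} (hT : Tw lam g T)
    (hu : IsUnit T) : T * P F m = P F m * T := by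
  obtain ⟨U, rfl⟩ := hu
  -- conjugate of P
  obtain ⟨c, hc⟩ := scalar_of_comm hlam h2 (P F m * (U⁻¹).1 * P F m * U.1) (fun u => by
    have h3 := hT u
    have h1 : ∀ u, (U⁻¹).1 * W lam (g.1 *ᵥ u) = W lam u * (U⁻¹).1 := by
      intro u
      have h3 := hT u
      calc (U⁻¹).1 * W lam (g.1 *ᵥ u) = (U⁻¹).1 * (W lam (g.1 *ᵥ u) * U.1) * (U⁻¹).1 := by
            rw [mul_assoc, mul_assoc, Units.mul_inv, mul_one]
        _ = W lam u * (U⁻¹).1 := by rw [← h3, ← mul_assoc, Units.inv_mul, one_mul]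
    have h4 : ∀ v, P F m * W lam v = W lam (-v) * P F m := P_mul_W lam
    calc P F m * (U⁻¹).1 * P F m * U.1 * W lam u = P F m * (U⁻¹).1 * (P F m * W lam (g.1 *ᵥ u)) * U.1 := by
          rw [mul_assoc, h3]; simp only [mul_assoc]
      _ = P F m * ((U⁻¹).1 * W lam (g.1 *ᵥ (-u))) * P F m * U.1 := by
          rw [h4, Matrix.mulVec_neg]; simp only [mul_assoc]
      _ = (P F m * W lam (-u)) * (U⁻¹).1 * P F m * U.1 := by rw [h1]; simp only [mul_assoc]
      _ = _ := by rw [h4, neg_neg]; simp only [mul_assoc])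
  have h1 : (U⁻¹).1 * P F m * U.1 = c • P F m := by
    calc (U⁻¹).1 * P F m * U.1 = P F m * (P F m * (U⁻¹).1 * P F m * U.1) := by
          simp only [← mul_assoc]; rw [P_mul_P, one_mul]
      _ = c • P F m := by rw [hc, mul_smul_comm, mul_one]
  have h3 : LinearMap.trace ℂ _ ((U⁻¹).1 * P F m * U.1) = 1 := by
    rw [LinearMap.trace_mul_comm, ← mul_assoc, Units.mul_inv, one_mul, trace_P h2]
  rw [h1, map_smul, trace_P h2, smul_eq_mul, mul_one] at h3
  rw [h3, one_smul] at h1
  calc U.1 * P F m = U.1 * ((U⁻¹).1 * P F m * U.1) := by rw [h1]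
    _ = P F m * U.1 := by rw [← mul_assoc, ← mul_assoc, Units.mul_inv, one_mul]

end parity

end Cfsg.Agent.Lib.Weil
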