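import Cfsg.Agent.Lib.Weil
import Cfsg.Agent.Lib.RepSchur2

/-!
# The odd part of the Weil representation (helper39)
-/

set_option autoImplicit false
set_option linter.unusedSectionVars false
open Cfsg

namespace Cfsg.Agent.Lib.Weil

open Matrix Cfsg.Agent.Lib.MatChar

section es

variable (F : Type*) [Field F] (m : ℕ) (e : ℂ)

/-- Even / odd functions. -/
def Es : Submodule ℂ ((Fin m → F) → ℂ) := LinearMap.ker (P F m - e • 1)

variable {F m e}

theorem mem_Es {f : (Fin m → F) → ℂ} : f ∈ Es F m e ↔ P F m f = e • f := by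
  rw [Es, LinearMap.mem_ker, LinearMap.sub_apply, sub_eq_zero]; rfl

theorem PP (f : (Fin m → F) → ℂ) : P F m (P F m f) = f := by
  have := congrArg (fun Z : Module.End ℂ ((Fin m → F) → ℂ) => Z f) (P_mul_P (F := F) (m := m))
  exact this

variable (he : e * e = 1)

/-- The projection on even / odd functions. -/
noncomputable def ps : ((Fin m → F) → ℂ) →ₗ[ℂ] Es F m e :=
  LinearMap.codRestrict _ ((1 / 2 : ℂ) • (1 + e • P F m)) (fun f => by
    rw [mem_Es, LinearMap.smul_apply, LinearMap.add_apply, LinearMap.smul_apply, map_smul, map_add, map_smul, PP,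
      Module.End.one_apply, smul_comm]
    congr 1
    rw [smul_add, smul_smul, he, one_smul, add_comm])

theorem ps_apply (f : (Fin m → F) → ℂ) : (ps he f : (Fin m → F) → ℂ) = (1 / 2 : ℂ) • (f + e • P F m f) := rfl

theorem ps_of_mem {f : (Fin m → F) → ℂ} (hf : f ∈ Es F m e) : (ps he f : (Fin m → F) → ℂ) = f := by
  rw [ps_apply, mem_Es.1 hf, smul_smul, he, one_smul, ← two_smul ℂ f, smul_smul]
  norm_num

/-- compression -/
noncomputable def rs (T : Module.End ℂ ((Fin m → F) → ℂ)) : Module.End ℂ (Es F m e) :=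
  (ps he).comp (T.comp (Es F m e).subtype)

theorem apply_mem {T : Module.End ℂ ((Fin m → F) → ℂ)} (hT : T * P F m = P F m * T) {f : (Fin m → F) → ℂ}
    (hf : f ∈ Es F m e) : T f ∈ Es F m e := by
  rw [mem_Es]
  have := congrArg (fun Z : Module.End ℂ ((Fin m → F) → ℂ) => Z f) hT
  change T (P F m f) = P F m (T f) at this
  rw [← this, mem_Es.1 hf, map_smul]

theorem rs_apply {T : Module.End ℂ ((Fin m → F) → ℂ)} (hT : T * P F m = P F m * T) (f : Es F m e) :
    (rs he T f : (Fin m → F) → ℂ) = T f := ps_of_mem he (apply_mem hT f.2)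

theorem rs_one : rs (F := F) (m := m) he 1 = 1 := by
  refine LinearMap.ext fun f => Subtype.ext ?_
  exact ps_of_mem he f.2

theorem rs_mul {S T : Module.End ℂ ((Fin m → F) → ℂ)} (hT : T * P F m = P F m * T) :
    rs he (S * T) = rs he S * rs he T := by
  refine LinearMap.ext fun f => ?_
  change ps he (S (T f)) = ps he (S (rs he T f : (Fin m → F) → ℂ))
  rw [rs_apply he hT]

theorem rs_smul (c : ℂ) (T : Module.End ℂ ((Fin m → F) → ℂ)) : rs he (c • T) = c • rs he T := by
  refine LinearMap.ext fun f => ?_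
  change ps he (c • T f) = c • ps he (T f)
  rw [map_smul]

theorem ps_comp {T : Module.End ℂ ((Fin m → F) → ℂ)} (hT : T * P F m = P F m * T) (f : (Fin m → F) → ℂ) :
    ps he (T f) = rs he T (ps he f) := by
  apply Subtype.ext
  rw [rs_apply he hT, ps_apply, ps_apply, map_smul, map_add, map_smul]
  have := congrArg (fun Z : Module.End ℂ ((Fin m → F) → ℂ) => Z f) hT
  change T (P F m f) = P F m (T f) at this
  rw [this]

theorem rs_det_ne_zero {U : (Module.End ℂ ((Fin m → F) → ℂ))ˣ} (hT : U.1 * P F m = P F m * U.1) :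
    LinearMap.det (rs he U.1) ≠ 0 := by
  have h1 : (U⁻¹).1 * P F m = P F m * (U⁻¹).1 := by
    calc (U⁻¹).1 * P F m = (U⁻¹).1 * (P F m * U.1) * (U⁻¹).1 := by rw [mul_assoc, mul_assoc, Units.mul_inv, mul_one]
      _ = P F m * (U⁻¹).1 := by rw [← hT, ← mul_assoc, Units.inv_mul, one_mul]
  have h2 : rs he U.1 * rs he (U⁻¹).1 = 1 := by
    rw [← rs_mul he h1, Units.mul_inv, rs_one]
  intro h3
  have h4 := congrArg LinearMap.det h2
  rw [map_mul, h3, zero_mul, map_one] at h4
  exact zero_ne_one h4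

theorem finrank_Es [Fintype F] [DecidableEq F] (he : e * e = 1) (h2 : (2 : F) ≠ 0) :
    (Module.finrank ℂ (Es F m e) : ℂ) = ((Fintype.card F : ℂ) ^ m + e) / 2 := by
  have h1 : LinearMap.IsProj (Es F m e) ((1 / 2 : ℂ) • (1 + e • P F m)) :=
    ⟨fun f => (ps he f).2, fun f hf => ps_of_mem he hf⟩
  rw [← h1.trace, map_smul, map_add, map_smul, trace_P h2, LinearMap.trace_one, Module.finrank_fintype_fun_eq_card,
    Fintype.card_fun, Fintype.card_fin]
  push_cast
  simp only [smul_eq_mul]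
  ring

end es

section rep

variable {F : Type*} [Field F] [Fintype F] [DecidableEq F] {m : ℕ}

theorem he1 : (1 : ℂ) * 1 = 1 := mul_one 1
theorem hem1 : (-1 : ℂ) * -1 = 1 := by norm_num

theorem finrank_Ep (h2 : (2 : F) ≠ 0) : Module.finrank ℂ (Es F m 1) = Module.finrank ℂ (Es F m (-1)) + 1 := by
  have h3 := finrank_Es (F := F) (m := m) he1 h2
  have h4 := finrank_Es (F := F) (m := m) hem1 h2
  have : (Module.finrank ℂ (Es F m 1) : ℂ) = ((Module.finrank ℂ (Es F m (-1)) + 1 : ℕ) : ℂ) := by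
    push_cast
    rw [h3, h4]; ring
  exact_mod_cast this

theorem finrank_Em (h2 : (2 : F) ≠ 0) : Module.finrank ℂ (Es F m (-1)) = (Fintype.card F ^ m - 1) / 2 := by
  have h4 := finrank_Es (F := F) (m := m) hem1 h2
  have hpos : 0 < Fintype.card F ^ m := pow_pos Fintype.card_pos _
  have : ((2 * Module.finrank ℂ (Es F m (-1)) + 1 : ℕ) : ℂ) = ((Fintype.card F ^ m : ℕ) : ℂ) := by
    push_cast
    rw [h4]; ring
  have h5 : 2 * Module.finrank ℂ (Es F m (-1)) + 1 = Fintype.card F ^ m := by exact_mod_cast this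
  omega

/-- The normalized odd part of an intertwiner. -/
noncomputable def Psi (T : Module.End ℂ ((Fin m → F) → ℂ)) : Module.End ℂ (Es F m (-1)) :=
  (LinearMap.det (rs hem1 T) / LinearMap.det (rs he1 T)) • rs hem1 T

theorem Psi_one : Psi (F := F) (m := m) 1 = 1 := by
  rw [Psi, rs_one, rs_one, map_one, map_one, div_one, one_smul]

theorem Psi_mul {S T : Module.End ℂ ((Fin m → F) → ℂ)} (hT : T * P F m = P F m * T) :
    Psi (S * T) = Psi S * Psi T := by
  rw [Psi, rs_mul hem1 hT, rs_mul he1 hT, map_mul, map_mul, Psi, Psi, smul_mul_smul_comm]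
  congr 1
  ring

theorem Psi_smul (h2 : (2 : F) ≠ 0) {c : ℂ} (hc : c ≠ 0) (T : Module.End ℂ ((Fin m → F) → ℂ)) :
    Psi (c • T) = Psi T := by
  rw [Psi, rs_smul, rs_smul, LinearMap.det_smul, LinearMap.det_smul, finrank_Ep h2, smul_smul, Psi]
  congr 1
  by_cases h0 : LinearMap.det (rs he1 T) = 0
  · rw [h0]; simp
  · rw [pow_succ]
    field_simp

variable {lam : AddChar F ℂ} (hlam : lam ≠ 1) (h2 : (2 : F) ≠ 0)

/-- The odd Weil representation. -/
noncomputable def weil : Representation ℂ (Matrix.symplecticGroup (Fin m) F) (Es F m (-1)) where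
  toFun g := Psi (Classical.choose (exists_Tw hlam h2 g))
  map_one' := by
    obtain ⟨h1, h3⟩ := Classical.choose_spec (exists_Tw (m := m) hlam h2 1)
    obtain ⟨c, hc, h⟩ := Tw.unique hlam h2 h1 (Tw.one) isUnit_one h3
    rw [h, Psi_smul h2 hc, Psi_one]
  map_mul' g g' := by
    obtain ⟨h1, h3⟩ := Classical.choose_spec (exists_Tw (m := m) hlam h2 (g * g'))
    obtain ⟨h4, h5⟩ := Classical.choose_spec (exists_Tw (m := m) hlam h2 g)
    obtain ⟨h6, h7⟩ := Classical.choose_spec (exists_Tw (m := m) hlam h2 g')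
    obtain ⟨c, hc, h⟩ := Tw.unique hlam h2 h1 (Tw.mul h4 h6) (h5.mul h7) h3
    rw [h, Psi_smul h2 hc, Psi_mul (h6.comm_P hlam h2 h7)]

theorem weil_apply {g : Matrix.symplecticGroup (Fin m) F} {T : Module.End ℂ ((Fin m → F) → ℂ)} (hT : Tw lam g T)
    (hu : IsUnit T) : weil hlam h2 g = Psi T := by
  obtain ⟨h1, h3⟩ := Classical.choose_spec (exists_Tw (m := m) hlam h2 g)
  obtain ⟨c, hc, h⟩ := Tw.unique hlam h2 h1 hT hu h3
  change Psi _ = _
  rw [h, Psi_smul h2 hc]

include hlam h2 in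
/-- `∑ u, W u` acts as a scalar on odd functions. -/
theorem sum_W_odd : ∃ b : ℂ, ∀ f : (Fin m → F) → ℂ, f ∈ Es F m (-1) → (∑ u, W lam u) f = b • f := by
  by_cases hne : ∃ f : (Fin m → F) → ℂ, f ∈ Es F m (-1) ∧ f ≠ 0
  · obtain ⟨a, b, hab⟩ := commutant hlam h2 (P F m) (fun g T hT hu => hT.comm_P hlam h2 hu)
    have hb : b ≠ 0 := by
      rintro rfl
      rw [zero_smul, add_zero] at hab
      obtain ⟨f, hf, hf0⟩ := hne
      have h1 := congrArg (fun Z : Module.End ℂ ((Fin m → F) → ℂ) => Z 1 0) hab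
      change (1 : ℂ) = a * 1 at h1
      rw [mul_one] at h1
      rw [← h1, one_smul] at hab
      have h3 := mem_Es.1 hf
      rw [hab, Module.End.one_apply, neg_smul, one_smul] at h3
      exact hf0 (self_eq_neg.1 h3)
    refine ⟨b⁻¹ * (-1 - a), fun f hf => ?_⟩
    have h1 := congrArg (fun Z : Module.End ℂ ((Fin m → F) → ℂ) => Z f) hab
    simp only [LinearMap.add_apply, LinearMap.smul_apply, Module.End.one_apply] at h1
    rw [mem_Es.1 hf] at h1
    rw [mul_smul, sub_smul, h1, add_sub_cancel_left, smul_smul, inv_mul_cancel₀ hb, one_smul]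
  · push Not at hne
    refine ⟨0, fun f hf => ?_⟩
    rw [hne f hf]; simp

theorem weil_irreducible (hm : 0 < m) : (weil (m := m) hlam h2).IsIrreducible := by
  have hdim : 0 < Module.finrank ℂ (Es F m (-1)) := by
    rw [finrank_Em h2]
    have hq : 3 ≤ Fintype.card F := by
      have h3 : 2 ≤ Fintype.card F := Fintype.one_lt_card
      rcases Nat.lt_or_ge 2 (Fintype.card F) with h | h
      · exact h
      · exfalso
        have h4 : Fintype.card F = 2 := le_antisymm h h3
        apply h2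
        have := FiniteField.cast_card_eq_zero F
        rw [h4] at this
        exact_mod_cast this
    have h5 : Fintype.card F ≤ Fintype.card F ^ m := Nat.le_self_pow hm.ne' _
    omega
  have hnt : Nontrivial (Es F m (-1)) := Module.nontrivial_of_finrank_pos hdim
  refine RepSchur2.irreducible_of_commutant _ fun Y hY => ?_
  obtain ⟨b, hb⟩ := sum_W_odd (m := m) hlam h2
  let X : Module.End ℂ ((Fin m → F) → ℂ) := (Es F m (-1)).subtype.comp (Y.comp (ps hem1))
  obtain ⟨a, c, hac⟩ := commutant hlam h2 X (fun g T hT hu => by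
    have hcP := hT.comm_P hlam h2 hu
    have h1 := hY g
    rw [weil_apply hlam h2 hT hu, Psi] at h1
    obtain ⟨U, rfl⟩ := hu
    have h3 : LinearMap.det (rs hem1 U.1) / LinearMap.det (rs he1 U.1) ≠ 0 :=
      div_ne_zero (rs_det_ne_zero hem1 hcP) (rs_det_ne_zero he1 hcP)
    rw [mul_smul_comm, smul_mul_assoc] at h1
    have h4 : Y * rs hem1 U.1 = rs hem1 U.1 * Y := smul_right_injective _ h3 h1
    refine LinearMap.ext fun f => ?_
    change U.1 (Y (ps hem1 f) : (Fin m → F) → ℂ) = (Y (ps hem1 (U.1 f)) : (Fin m → F) → ℂ)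
    rw [ps_comp hem1 hcP, ← rs_apply hem1 hcP]
    exact congrArg Subtype.val (congrArg (fun Z : Module.End ℂ (Es F m (-1)) => Z (ps hem1 f)) h4).symm)
  refine ⟨a + c * b, LinearMap.ext fun f => Subtype.ext ?_⟩
  have h1 : X f = (Y f : (Fin m → F) → ℂ) := by
    change (Y (ps hem1 f.1) : (Fin m → F) → ℂ) = _
    have : ps hem1 f.1 = f := Subtype.ext (ps_of_mem hem1 f.2)
    rw [this]
  rw [← h1, hac, LinearMap.add_apply, LinearMap.smul_apply, LinearMap.smul_apply, hb _ f.2, Module.End.one_apply,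
    smul_smul, ← add_smul]
  rfl

end rep

end Cfsg.Agent.Lib.Weil
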