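import Mathlib

/-!
Characters of a normal odd order abelian subgroup with values in a finite field of
characteristic two, acting on a module over the field with two elements; lower bound for the
number of fixed points of a 2-subgroup by its number of orbits on the characters.
-/

namespace Cfsg.Agent.Lib.WtTwo

open scoped BigOperators

section act
variable {G : Type*} [Group G] {V : Subgroup G} [V.Normal] {M : Type*} [Monoid M]

/-- conjugation action of the group on the characters of a normal subgroup -/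
def act (g : G) (l : V →* M) : V →* M := l.comp (MulAut.conjNormal g⁻¹).toMonoidHom

lemma act_apply (g : G) (l : V →* M) (x : V) : act g l x = l (MulAut.conjNormal g⁻¹ x) := rfl

lemma act_one (l : V →* M) : act 1 l = l := by
  ext x; simp [act_apply]

lemma act_mul (g h : G) (l : V →* M) : act (g * h) l = act g (act h l) := by
  ext x; simp [act_apply, mul_inv_rev, map_mul]

lemma act_triv (g : G) : act g (1 : V →* M) = 1 := by
  ext x; simp [act_apply]

/-- the action as a `MulAction` -/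
@[reducible] def actInst (G : Type*) [Group G] (V : Subgroup G) [V.Normal] (M : Type*) [Monoid M] :
    MulAction G (V →* M) where
  smul g l := act g l
  one_smul l := act_one l
  mul_smul g h l := act_mul g h l

end act

/-- finite fields have enough roots of unity -/
lemma enough {F : Type*} [Field F] [Finite F] {d : ℕ} (hd0 : d ≠ 0) (hd : d ∣ Nat.card F - 1) :
    HasEnoughRootsOfUnity F d := by
  haveI : NeZero d := ⟨hd0⟩
  haveI : Fintype F := Fintype.ofFinite F
  refine ⟨?_, inferInstance⟩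
  obtain ⟨g, hg⟩ := IsCyclic.exists_generator (α := Fˣ)
  have hog : orderOf g = Nat.card F - 1 := by
    rw [orderOf_eq_card_of_forall_mem_zpowers hg, Nat.card_units]
  obtain ⟨e, he⟩ := hd
  have h1 : IsPrimitiveRoot g (orderOf g) := IsPrimitiveRoot.orderOf g
  have hpos : 0 < orderOf g := orderOf_pos g
  have h2 : IsPrimitiveRoot (g ^ e) d :=
    h1.pow hpos (by rw [hog, he, mul_comm])
  exact ⟨((g ^ e : Fˣ) : F), IsPrimitiveRoot.coe_units_iff.mpr h2⟩

section main

variable {G : Type*} [Group G] {V : Subgroup G} [V.Normal] [Fintype V]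
variable {F : Type*} [Field F] [Algebra (ZMod 2) F]
variable {E : Type*} [AddCommGroup E] [Module (ZMod 2) E]
variable (ρ : Representation (ZMod 2) G E)

/-- the (unnormalised) projection to the weight space -/
def pr (l : V →* Fˣ) : (F →ₗ[ZMod 2] E) →ₗ[ZMod 2] (F →ₗ[ZMod 2] E) where
  toFun φ := ∑ x : V, (ρ (x : G)) ∘ₗ φ ∘ₗ LinearMap.mulLeft (ZMod 2) (((l x)⁻¹ : Fˣ) : F)
  map_add' φ ψ := by
    ext b
    simp [Finset.sum_add_distrib]
  map_smul' c φ := by
    ext b
    simp [Finset.smul_sum]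

lemma pr_apply (l : V →* Fˣ) (φ : F →ₗ[ZMod 2] E) (b : F) :
    pr ρ l φ b = ∑ x : V, ρ (x : G) (φ ((((l x)⁻¹ : Fˣ) : F) * b)) := by
  simp [pr, LinearMap.sum_apply]

lemma two_smul_zero (v : E) : v + v = 0 := by
  have : (2 : ZMod 2) • v = 0 := by
    have : (2 : ZMod 2) = 0 := by decide
    rw [this, zero_smul]
  rwa [two_smul] at this

lemma odd_smul {n : ℕ} (hn : Odd n) (v : E) : n • v = v := by
  obtain ⟨k, rfl⟩ := hn
  rw [add_smul, one_smul, mul_comm, mul_smul, two_nsmul, two_smul_zero, smul_zero, zero_add]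

/-- membership in the weight space -/
def wt (l : V →* Fˣ) (φ : F →ₗ[ZMod 2] E) : Prop :=
  ∀ (x : V) (b : F), ρ (x : G) (φ b) = φ (((l x : Fˣ) : F) * b)

lemma pr_self (hV : Odd (Fintype.card V)) {l : V →* Fˣ} {φ : F →ₗ[ZMod 2] E} (h : wt ρ l φ) :
    pr ρ l φ = φ := by
  ext b
  rw [pr_apply]
  have : ∀ x : V, ρ (x : G) (φ ((((l x)⁻¹ : Fˣ) : F) * b)) = φ b := by
    intro x
    rw [h x, ← mul_assoc]
    simp
  simp only [this, Finset.sum_const, Finset.card_univ]
  exact odd_smul hV _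

lemma pr_other {l m : V →* Fˣ} (hlm : m ≠ l) {φ : F →ₗ[ZMod 2] E} (h : wt ρ l φ) :
    pr ρ m φ = 0 := by
  ext b
  rw [pr_apply]
  have h1 : ∀ x : V, ρ (x : G) (φ ((((m x)⁻¹ : Fˣ) : F) * b)) =
      φ (((((l / m) x : Fˣ)) : F) * b) := by
    intro x
    rw [h x, ← mul_assoc]
    congr 2
  simp only [h1]
  rw [← map_sum, ← Finset.sum_mul]
  have h2 : ∑ x : V, (((l / m) x : Fˣ) : F) = 0 := by
    have := sum_hom_units_eq_zero ((Units.coeHom F).comp (l / m)) (by
      intro h3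
      apply hlm
      have : l / m = 1 := by
        ext x
        have := DFunLike.congr_fun h3 x
        simpa using this
      exact (div_eq_one.mp this).symm)
    simpa using this
  rw [h2]
  simp

lemma pr_mem (l : V →* Fˣ) (φ : F →ₗ[ZMod 2] E) : wt ρ l (pr ρ l φ) := by
  intro x b
  rw [pr_apply, pr_apply, map_sum]
  rw [← Equiv.sum_comp (Equiv.mulLeft x)
    (fun y : V => ρ (y : G) (φ ((((l y)⁻¹ : Fˣ) : F) * (((l x : Fˣ) : F) * b))))]
  refine Finset.sum_congr rfl fun y _ => ?_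
  simp only [Equiv.coe_mulLeft, Subgroup.coe_mul, map_mul, mul_inv_rev, Module.End.mul_apply,
    Units.val_mul]
  congr 2
  rw [← mul_assoc, mul_assoc ((((l y)⁻¹ : Fˣ)) : F)]
  simp

lemma pr_act (g : G) (l : V →* Fˣ) (φ : F →ₗ[ZMod 2] E) :
    (ρ g) ∘ₗ (pr ρ l φ) = pr ρ (act g l) ((ρ g) ∘ₗ φ) := by
  ext b
  rw [pr_apply, LinearMap.comp_apply, pr_apply, map_sum]
  rw [← Equiv.sum_comp (MulAut.conjNormal g : MulAut V).toEquiv
    (fun y : V => ρ (y : G) (((ρ g) ∘ₗ φ) (((((act g l) y)⁻¹ : Fˣ) : F) * b)))]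
  refine Finset.sum_congr rfl fun y _ => ?_
  have h1 : act g l ((MulAut.conjNormal g : MulAut V).toEquiv y) = l y := by
    rw [act_apply]
    congr 1
    change (MulAut.conjNormal g⁻¹) ((MulAut.conjNormal g) y) = y
    rw [← MulAut.mul_apply, ← map_mul]
    simp
  rw [h1, LinearMap.comp_apply, ← Module.End.mul_apply, ← map_mul, ← Module.End.mul_apply,
    ← map_mul]
  congr 2
  change g * (y : G) = ((MulAut.conjNormal g y : V) : G) * g
  rw [MulAut.conjNormal_apply]
  group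

lemma pr_mulLeft (l : V →* Fˣ) (φ : F →ₗ[ZMod 2] E) (a : F) :
    pr ρ l (φ ∘ₗ LinearMap.mulLeft (ZMod 2) a) = (pr ρ l φ) ∘ₗ LinearMap.mulLeft (ZMod 2) a := by
  ext b
  rw [pr_apply, LinearMap.comp_apply, pr_apply]
  refine Finset.sum_congr rfl fun y _ => ?_
  simp only [LinearMap.comp_apply, LinearMap.mulLeft_apply]
  congr 2
  ring

open scoped IsMulCommutative in
lemma sum_pr [IsMulCommutative V] (hV : Odd (Fintype.card V))
    [HasEnoughRootsOfUnity F (Monoid.exponent V)] [Fintype (V →* Fˣ)]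
    (φ : F →ₗ[ZMod 2] E) : ∑ l : V →* Fˣ, pr ρ l φ = φ := by
  classical
  ext b
  rw [LinearMap.sum_apply]
  simp only [pr_apply]
  rw [Finset.sum_comm]
  have hcard : Fintype.card (V →* Fˣ) = Fintype.card V := by
    rw [← Nat.card_eq_fintype_card, ← Nat.card_eq_fintype_card]
    exact CommGroup.card_monoidHom_of_hasEnoughRootsOfUnity V F
  have h1 : ∀ x : V, ∑ l : V →* Fˣ, ρ (x : G) (φ ((((l x)⁻¹ : Fˣ) : F) * b)) =
      if x = 1 then φ b else 0 := by
    intro x
    rw [← map_sum, ← map_sum, ← Finset.sum_mul]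
    split_ifs with hx
    · subst hx
      simp only [map_one, inv_one, Units.val_one, Finset.sum_const, Finset.card_univ, hcard,
        OneMemClass.coe_one, Module.End.one_apply]
      rw [smul_mul_assoc, one_mul, map_nsmul]
      exact odd_smul hV _
    · obtain ⟨χ, hχ⟩ := CommGroup.exists_apply_ne_one_of_hasEnoughRootsOfUnity V F hx
      have h2 : ∑ l : V →* Fˣ, ((((l x)⁻¹ : Fˣ)) : F) = 0 := by
        have h3 : (((χ x)⁻¹ : Fˣ) : F) * ∑ l : V →* Fˣ, ((((l x)⁻¹ : Fˣ)) : F) =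
            ∑ l : V →* Fˣ, ((((l x)⁻¹ : Fˣ)) : F) := by
          rw [Finset.mul_sum]
          rw [← Equiv.sum_comp (Equiv.mulLeft χ) (fun l : V →* Fˣ => ((((l x)⁻¹ : Fˣ)) : F))]
          refine Finset.sum_congr rfl fun l _ => ?_
          simp only [Equiv.coe_mulLeft, MonoidHom.mul_apply, mul_inv_rev, Units.val_mul]
          ring
        have h4 : ((((χ x)⁻¹ : Fˣ) : F) - 1) * ∑ l : V →* Fˣ, ((((l x)⁻¹ : Fˣ)) : F) = 0 := by
          rw [sub_mul, h3, one_mul, sub_self]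
        rcases mul_eq_zero.mp h4 with h5 | h5
        · exfalso
          apply hχ
          have : (((χ x)⁻¹ : Fˣ) : F) = 1 := sub_eq_zero.mp h5
          have : (χ x)⁻¹ = 1 := Units.ext (by simpa using this)
          exact inv_eq_one.mp this
        · exact h5
      rw [h2]
      simp
  simp only [h1]
  rw [Finset.sum_ite_eq' Finset.univ (1 : V)]
  simp

/-- a 2-subgroup has a nonzero fixed vector supported in a given invariant set of characters -/
theorem exists_fixed_supported [Finite F] [Finite E]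
    (P : Subgroup G) (hP : IsPGroup 2 P) (O : Set (V →* Fˣ))
    (hinv : ∀ g ∈ P, ∀ l ∈ O, act g l ∈ O)
    (hne : ∃ l ∈ O, ∃ φ : F →ₗ[ZMod 2] E, φ ≠ 0 ∧ wt ρ l φ) :
    ∃ w : F →ₗ[ZMod 2] E, w ≠ 0 ∧ (∀ m, m ∉ O → pr ρ m w = 0) ∧
      ∀ g ∈ P, (ρ g) ∘ₗ w = w := by
  haveI : Finite (F →ₗ[ZMod 2] E) :=
    Finite.of_injective (fun f => (f : F → E)) DFunLike.coe_injective
  let M : AddSubgroup (F →ₗ[ZMod 2] E) :=
    { carrier := {w | ∀ m, m ∉ O → pr ρ m w = 0}
      zero_mem' := fun m _ => map_zero _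
      add_mem' := fun {a b} ha hb m hm => by rw [map_add, ha m hm, hb m hm, add_zero]
      neg_mem' := fun {a} ha m hm => by rw [map_neg, ha m hm, neg_zero] }
  have hMinv : ∀ g ∈ P, ∀ w ∈ M, (ρ g) ∘ₗ w ∈ M := by
    intro g hg w hw m hm
    have h1 : m = act g (act g⁻¹ m) := by
      rw [← act_mul, mul_inv_cancel, act_one]
    have h2 : act g⁻¹ m ∉ O := by
      intro h
      apply hm
      rw [h1]
      exact hinv g hg _ h
    rw [h1, ← pr_act, hw _ h2, LinearMap.comp_zero]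
  letI : MulAction P M :=
    { smul := fun g w => ⟨(ρ (g : G)) ∘ₗ (w : F →ₗ[ZMod 2] E), hMinv g g.2 w w.2⟩
      one_smul := fun w => by
        apply Subtype.ext
        change (ρ ((1 : P) : G)) ∘ₗ (w : F →ₗ[ZMod 2] E) = w
        ext b; simp
      mul_smul := fun g h w => by
        apply Subtype.ext
        change (ρ ((g * h : P) : G)) ∘ₗ (w : F →ₗ[ZMod 2] E) =
          (ρ (g : G)) ∘ₗ ((ρ (h : G)) ∘ₗ (w : F →ₗ[ZMod 2] E))
        ext b; simp }
  obtain ⟨l, hl, φ, hφ0, hφ⟩ := hne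
  have hφM : φ ∈ M := by
    intro m hm
    exact pr_other ρ (fun h => hm (by rw [h]; exact hl)) hφ
  have hdvd : 2 ∣ Nat.card M := by
    have h1 : addOrderOf (⟨φ, hφM⟩ : M) = 2 := by
      apply addOrderOf_eq_prime
      · apply Subtype.ext
        ext b
        simp only [two_nsmul]
        exact two_smul_zero _
      · intro h
        exact hφ0 (congrArg Subtype.val h)
    exact h1.symm.dvd.trans (addOrderOf_dvd_natCard _)
  have h0 : (0 : M) ∈ MulAction.fixedPoints P M := by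
    intro g
    apply Subtype.ext
    change (ρ (g : G)) ∘ₗ ((0 : M) : F →ₗ[ZMod 2] E) = ((0 : M) : F →ₗ[ZMod 2] E)
    simp
  obtain ⟨w, hw, hw0⟩ := hP.exists_fixed_point_of_prime_dvd_card_of_fixed_point M hdvd h0
  refine ⟨w, fun h => hw0 (Subtype.ext h.symm), w.2, ?_⟩
  intro g hg
  exact congrArg Subtype.val (hw ⟨g, hg⟩)

open scoped IsMulCommutative in
lemma exists_pr_ne [IsMulCommutative V] (hV : Odd (Fintype.card V))
    [HasEnoughRootsOfUnity F (Monoid.exponent V)] [Finite F]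
    {O : Set (V →* Fˣ)} {w : F →ₗ[ZMod 2] E} (hw0 : w ≠ 0) (hwO : ∀ m, m ∉ O → pr ρ m w = 0) :
    ∃ m ∈ O, pr ρ m w ≠ 0 := by
  classical
  haveI : Finite (V →* Fˣ) := Finite.of_injective (fun f => (f : V → Fˣ)) DFunLike.coe_injective
  haveI : Fintype (V →* Fˣ) := Fintype.ofFinite _
  by_contra hcon
  push Not at hcon
  apply hw0
  rw [← sum_pr ρ hV w]
  apply Finset.sum_eq_zero
  intro m _
  by_cases h : m ∈ O
  · exact hcon m h
  · exact hwO m h

open scoped IsMulCommutative in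
/-- if every fixed vector of the 2-subgroup `P` is fixed by `T` then an invariant set of
characters contains a full `T`-orbit -/
theorem exists_orbit_le [IsMulCommutative V] (hV : Odd (Fintype.card V))
    [HasEnoughRootsOfUnity F (Monoid.exponent V)] [Finite F] [Finite E]
    (P T : Subgroup G) (hP : IsPGroup 2 P) (O : Set (V →* Fˣ))
    (hinv : ∀ g ∈ P, ∀ l ∈ O, act g l ∈ O)
    (hne : ∃ l ∈ O, ∃ φ : F →ₗ[ZMod 2] E, φ ≠ 0 ∧ wt ρ l φ)
    (hT : ∀ φ : F →ₗ[ZMod 2] E, (∀ g ∈ P, (ρ g) ∘ₗ φ = φ) → ∀ g ∈ T, (ρ g) ∘ₗ φ = φ) :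
    ∃ m ∈ O, ∀ g ∈ T, act g m ∈ O := by
  obtain ⟨w, hw0, hwO, hwf⟩ := exists_fixed_supported ρ P hP O hinv hne
  obtain ⟨m, hm, hmw⟩ := exists_pr_ne ρ hV hw0 hwO
  refine ⟨m, hm, fun g hg => ?_⟩
  by_contra hcon
  apply hmw
  have h1 := hwO _ hcon
  rw [← hT w hwf g hg, ← pr_act] at h1
  have h2 : (ρ g⁻¹) ∘ₗ ((ρ g) ∘ₗ pr ρ m w) = 0 := by rw [h1, LinearMap.comp_zero]
  rw [← LinearMap.comp_assoc] at h2
  have h3 : (ρ g⁻¹) ∘ₗ (ρ g) = LinearMap.id := by
    have : ρ g⁻¹ * ρ g = 1 := by rw [← map_mul, inv_mul_cancel, map_one]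
    exact this
  rwa [h3, LinearMap.id_comp] at h2

lemma wt_act {l : V →* Fˣ} {φ : F →ₗ[ZMod 2] E} (h : wt ρ l φ) (g : G) :
    wt ρ (act g l) ((ρ g) ∘ₗ φ) := by
  intro x b
  rw [LinearMap.comp_apply, LinearMap.comp_apply, act_apply,
    ← h ((MulAut.conjNormal g⁻¹) x) b, ← Module.End.mul_apply, ← map_mul,
    ← Module.End.mul_apply, ← map_mul, MulAut.conjNormal_apply]
  congr 2
  group

lemma comp_ne_zero {φ : F →ₗ[ZMod 2] E} (h : φ ≠ 0) (g : G) : (ρ g) ∘ₗ φ ≠ 0 := by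
  intro h1
  apply h
  have h2 : (ρ g⁻¹) ∘ₗ ((ρ g) ∘ₗ φ) = 0 := by rw [h1, LinearMap.comp_zero]
  rw [← LinearMap.comp_assoc] at h2
  have h3 : (ρ g⁻¹) ∘ₗ (ρ g) = LinearMap.id := by
    have : ρ g⁻¹ * ρ g = 1 := by rw [← map_mul, inv_mul_cancel, map_one]
    exact this
  rwa [h3, LinearMap.id_comp] at h2

open scoped IsMulCommutative in
/-- lower bound for the number of fixed points of a 2-subgroup on `Hom(F, E)` -/
theorem card_fixed [IsMulCommutative V] (hV : Odd (Fintype.card V))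
    [HasEnoughRootsOfUnity F (Monoid.exponent V)] [Finite F] [Finite E]
    (P : Subgroup G) (hP : IsPGroup 2 P) {ι : Type*} [Fintype ι] (O : ι → Set (V →* Fˣ))
    (hinv : ∀ i, ∀ g ∈ P, ∀ l ∈ O i, act g l ∈ O i)
    (hdis : ∀ i j, i ≠ j → ∀ l, l ∈ O i → l ∉ O j)
    (hne : ∀ i, ∃ l ∈ O i, ∃ φ : F →ₗ[ZMod 2] E, φ ≠ 0 ∧ wt ρ l φ) :
    Nat.card F ^ Fintype.card ι ≤
      Nat.card {φ : F →ₗ[ZMod 2] E // ∀ g ∈ P, (ρ g) ∘ₗ φ = φ} := by
  classical
  haveI : Finite (F →ₗ[ZMod 2] E) :=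
    Finite.of_injective (fun f => (f : F → E)) DFunLike.coe_injective
  have key : ∀ i, ∃ w : F →ₗ[ZMod 2] E, w ≠ 0 ∧ (∀ m, m ∉ O i → pr ρ m w = 0) ∧
      ∀ g ∈ P, (ρ g) ∘ₗ w = w := fun i =>
    exists_fixed_supported ρ P hP (O i) (hinv i) (hne i)
  choose w hw0 hwO hwfix using key
  have hm : ∀ i, ∃ m ∈ O i, pr ρ m (w i) ≠ 0 := fun i => exists_pr_ne ρ hV (hw0 i) (hwO i)
  choose m hmO hmne using hm
  let f : (ι → F) → {φ : F →ₗ[ZMod 2] E // ∀ g ∈ P, (ρ g) ∘ₗ φ = φ} := fun a =>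
    ⟨∑ i, (w i) ∘ₗ LinearMap.mulLeft (ZMod 2) (a i), fun g hg => by
      ext b
      simp only [LinearMap.comp_apply, LinearMap.sum_apply, map_sum]
      refine Finset.sum_congr rfl fun i _ => ?_
      exact LinearMap.congr_fun (hwfix i g hg) _⟩
  have hf : Function.Injective f := by
    intro a b hab
    have h1 : ∑ i, (w i) ∘ₗ LinearMap.mulLeft (ZMod 2) (a i) =
        ∑ i, (w i) ∘ₗ LinearMap.mulLeft (ZMod 2) (b i) := congrArg Subtype.val hab
    funext j
    have h2 := congrArg (pr ρ (m j)) h1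
    rw [map_sum, map_sum, Finset.sum_eq_single j, Finset.sum_eq_single j, pr_mulLeft,
      pr_mulLeft] at h2
    · by_contra hne'
      apply hmne j
      have h3 : ∀ c : F, (pr ρ (m j) (w j)) ((a j - b j) * c) = 0 := by
        intro c
        have := LinearMap.congr_fun h2 c
        simp only [LinearMap.comp_apply, LinearMap.mulLeft_apply] at this
        rw [sub_mul, map_sub, this, sub_self]
      ext c
      have h4 := h3 ((a j - b j)⁻¹ * c)
      rw [← mul_assoc, mul_inv_cancel₀ (sub_ne_zero.mpr hne'), one_mul] at h4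
      simpa using h4
    · intro i _ hij
      rw [pr_mulLeft, hwO i (m j) (hdis j i hij.symm _ (hmO j)), LinearMap.zero_comp]
    · intro h; exact absurd (Finset.mem_univ _) h
    · intro i _ hij
      rw [pr_mulLeft, hwO i (m j) (hdis j i hij.symm _ (hmO j)), LinearMap.zero_comp]
    · intro h; exact absurd (Finset.mem_univ _) h
  have := Nat.card_le_card_of_injective f hf
  rwa [Nat.card_fun, Nat.card_eq_fintype_card (α := ι)] at this

end main

section orbits

variable {G X : Type*} [Group G] [MulAction G X]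

lemma orbit_eq_of_forall {T P : Subgroup G} (hPT : P ≤ T) {l : X}
    (h : ∀ m ∈ MulAction.orbit T l, m ∈ MulAction.orbit P l) :
    MulAction.orbit T l = MulAction.orbit P l := by
  apply Set.Subset.antisymm h
  rintro _ ⟨g, rfl⟩
  exact ⟨⟨g, hPT g.2⟩, rfl⟩

lemma card_orbit_pow {P : Subgroup G} [Finite P] (hP : IsPGroup 2 P) (l : X) :
    ∃ k, Nat.card (MulAction.orbit P l) = 2 ^ k := by
  obtain ⟨n, hn⟩ := IsPGroup.iff_card.mp hP
  have h1 : Nat.card (MulAction.orbit P l) ∣ Nat.card P := by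
    rw [Nat.card_congr (MulAction.orbitEquivQuotientStabilizer P l)]
    exact Subgroup.card_quotient_dvd_card _
  rw [hn] at h1
  obtain ⟨k, _, hk⟩ := (Nat.dvd_prime_pow Nat.prime_two).mp h1
  exact ⟨k, hk⟩

lemma dvd_card_orbit {T : Subgroup G} [Finite T] {q : ℕ} (hq : q.Prime) {l : X}
    (hst : ¬ q ∣ Nat.card (MulAction.stabilizer T l)) (hqT : q ∣ Nat.card T) :
    q ∣ Nat.card (MulAction.orbit T l) := by
  have h1 : Nat.card (MulAction.orbit T l) * Nat.card (MulAction.stabilizer T l) = Nat.card T := by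
    rw [Nat.card_congr (MulAction.orbitEquivQuotientStabilizer T l)]
    exact (Subgroup.card_eq_card_quotient_mul_card_subgroup _).symm
  rw [← h1] at hqT
  exact (hq.dvd_mul.mp hqT).resolve_right hst

lemma orbits_two {T P : Subgroup G} [Finite T] (hPT : P ≤ T) (hP : IsPGroup 2 P) {q : ℕ}
    (hq : q.Prime) (hq2 : q ≠ 2) {l : X}
    (hst : ¬ q ∣ Nat.card (MulAction.stabilizer T l)) (hqT : q ∣ Nat.card T) :
    ∃ m ∈ MulAction.orbit T l, m ∉ MulAction.orbit P l := by
  haveI : Finite P := Finite.of_injective _ (Subgroup.inclusion_injective hPT)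
  by_contra hcon
  push Not at hcon
  have h1 := orbit_eq_of_forall hPT hcon
  obtain ⟨k, hk⟩ := card_orbit_pow hP l
  have h2 := dvd_card_orbit hq hst hqT
  rw [h1, hk] at h2
  exact hq2 ((Nat.prime_dvd_prime_iff_eq hq Nat.prime_two).mp (hq.dvd_of_dvd_pow h2))

lemma orbits_three {T P : Subgroup G} [Finite T] (hPT : P ≤ T) (hP : IsPGroup 2 P) {q : ℕ}
    (hq : q.Prime) (hq2 : q ≠ 2) {l : X}
    (hst : ¬ q ∣ Nat.card (MulAction.stabilizer T l)) (hqT : q ∣ Nat.card T)
    (hn : ∀ t ∈ T, ∀ g ∈ P, t * g * t⁻¹ ∈ P) :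
    ∃ m₁ ∈ MulAction.orbit T l, ∃ m₂ ∈ MulAction.orbit T l, m₁ ∉ MulAction.orbit P l ∧
      m₂ ∉ MulAction.orbit P l ∧ m₂ ∉ MulAction.orbit P m₁ := by
  haveI : Finite P := Finite.of_injective _ (Subgroup.inclusion_injective hPT)
  obtain ⟨m₁, hm₁, hm₁'⟩ := orbits_two hPT hP hq hq2 hst hqT
  refine ⟨m₁, hm₁, ?_⟩
  by_contra hcon
  push Not at hcon
  have h1 : MulAction.orbit T l = MulAction.orbit P l ∪ MulAction.orbit P m₁ := by
    apply Set.Subset.antisymm
    · intro m hm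
      by_cases h : m ∈ MulAction.orbit P l
      · exact Or.inl h
      · exact Or.inr (hcon m hm hm₁' h)
    · rintro m (⟨g, rfl⟩ | ⟨g, rfl⟩)
      · exact ⟨⟨g, hPT g.2⟩, rfl⟩
      · obtain ⟨t, rfl⟩ := hm₁
        exact ⟨⟨(g : G) * t, T.mul_mem (hPT g.2) t.2⟩, mul_smul (g : G) (t : G) l⟩
  have hdis : Disjoint (MulAction.orbit P l) (MulAction.orbit P m₁) := by
    rw [Set.disjoint_left]
    rintro m ⟨g, rfl⟩ ⟨h, hh⟩
    apply hm₁'
    refine ⟨h⁻¹ * g, ?_⟩
    have h2 : (h : G) • m₁ = (g : G) • l := hh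
    change ((h⁻¹ * g : P) : G) • l = m₁
    rw [Subgroup.coe_mul, mul_smul, ← h2, ← mul_smul]
    simp
  have hfin : (MulAction.orbit P l).Finite := Set.finite_range _
  have hfin1 : (MulAction.orbit P m₁).Finite := Set.finite_range _
  have hcard : Nat.card (MulAction.orbit P m₁) = Nat.card (MulAction.orbit P l) := by
    obtain ⟨t, ht⟩ := hm₁
    have ht' : (t : G) • l = m₁ := ht
    refine (Nat.card_congr (Equiv.ofBijective (fun m : MulAction.orbit P l =>
      (⟨(t : G) • (m : X), ?_⟩ : MulAction.orbit P m₁)) ⟨?_, ?_⟩)).symm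
    · obtain ⟨m, g, rfl⟩ := m
      refine ⟨⟨(t : G) * g * (t : G)⁻¹, hn t t.2 g g.2⟩, ?_⟩
      change ((t : G) * g * (t : G)⁻¹) • m₁ = (t : G) • ((g : G) • l)
      rw [← ht', ← mul_smul, ← mul_smul]
      congr 1
      group
    · intro a b hab
      have := congrArg Subtype.val hab
      exact Subtype.ext (MulAction.injective (t : G) this)
    · rintro ⟨m, g, rfl⟩
      have hg : (t : G)⁻¹ * g * (t : G)⁻¹⁻¹ ∈ P := hn _ (T.inv_mem t.2) g g.2
      refine ⟨⟨((t : G)⁻¹ * g * (t : G)⁻¹⁻¹) • l, ⟨⟨_, hg⟩, rfl⟩⟩, ?_⟩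
      apply Subtype.ext
      change (t : G) • (((t : G)⁻¹ * g * (t : G)⁻¹⁻¹) • l) = (g : G) • m₁
      rw [← ht', ← mul_smul, ← mul_smul]
      congr 1
      group
  obtain ⟨k, hk⟩ := card_orbit_pow hP l
  have h2 := dvd_card_orbit hq hst hqT
  have h3 : Nat.card (MulAction.orbit T l) = 2 ^ k + 2 ^ k := by
    rw [Nat.card_coe_set_eq, h1, Set.ncard_union_eq hdis hfin hfin1,
      ← Nat.card_coe_set_eq, ← Nat.card_coe_set_eq, hcard, hk]
  rw [h3, ← two_mul, ← pow_succ'] at h2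
  exact hq2 ((Nat.prime_dvd_prime_iff_eq hq Nat.prime_two).mp (hq.dvd_of_dvd_pow h2))

end orbits

end Cfsg.Agent.Lib.WtTwo
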