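import Cfsg.Agent.Lib.WtTwo

/-!
Main argument for the fixed point statement of a 2-subgroup on a module over the field with two
elements, on which a normal odd order abelian subgroup has no nonzero fixed vector.
-/

namespace Cfsg.Agent.Lib.WtTwoMain

open Cfsg.Agent.Lib.WtTwo
open scoped Pointwise

section stab

variable {S : Type*} [Group S] [Finite S] {V P Q : Subgroup S} [V.Normal]
variable {M : Type*} [CommGroup M]

/-- `Q` does not divide the stabilizer of a nontrivial character -/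
lemma stab_aux {q : ℕ} (hq : q.Prime) (hQ : Nat.card Q = q) (T : Subgroup S) (hQT : Q ≤ T)
    (hfac : (Nat.card T).factorization q = 1)
    (hcomm : V ≤ ⁅V, Q⁆) (l : V →* M) (hl : l ≠ 1) (z : T) (hz : act (z : S) l = l)
    (hzq : orderOf z = q) : False := by
  haveI : Fact q.Prime := ⟨hq⟩
  let Z' : Sylow q T := Sylow.ofCard (Subgroup.zpowers (z : T)) (by
    rw [Nat.card_zpowers, hzq, hfac, pow_one])
  let Q' : Sylow q T := Sylow.ofCard (Q.subgroupOf T) (by
    rw [Nat.card_congr (Subgroup.subgroupOfEquivOfLe hQT).toEquiv, hQ, hfac, pow_one])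
  obtain ⟨t, ht⟩ := MulAction.exists_smul_eq T Z' Q'
  have ht' : MulAut.conj t • (Subgroup.zpowers (z : T)) = Q.subgroupOf T := by
    have := congrArg (fun R : Sylow q T => (R : Subgroup T)) ht
    exact this
  letI : MulAction S (V →* M) := actInst S V M
  have hzs : ∀ y : T, y ∈ Subgroup.zpowers z → act (y : S) l = l := by
    intro y hy
    have h2 : Subgroup.zpowers (z : T) ≤ MulAction.stabilizer T l := by
      rw [Subgroup.zpowers_le]; exact hz
    exact h2 hy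
  -- `Q` fixes `t • l`
  have hQfix : ∀ s ∈ Q, act s (act (t : S) l) = act (t : S) l := by
    intro s hs
    have h1 : (⟨s, hQT hs⟩ : T) ∈ MulAut.conj t • (Subgroup.zpowers (z : T)) := by
      rw [ht']; exact hs
    rw [Subgroup.mem_smul_pointwise_iff_exists] at h1
    obtain ⟨y, hy, hys⟩ := h1
    have hyl : act (y : S) l = l := hzs y hy
    have h3 : s = (t : S) * y * (t : S)⁻¹ := by
      have := congrArg Subtype.val hys
      simpa [MulAut.smul_def] using this.symm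
    rw [← act_mul, h3]
    have h4 : (t : S) * y * (t : S)⁻¹ * t = t * y := by group
    rw [h4, act_mul, hyl]
  set l' : V →* M := act (t : S) l with hl'
  have hK : ⁅V, Q⁆ ≤ (l'.ker).map V.subtype := by
    rw [Subgroup.commutator_le]
    intro x hx s hs
    have hxs : s * x⁻¹ * s⁻¹ ∈ V := Subgroup.Normal.conj_mem inferInstance _ (V.inv_mem hx) _
    refine ⟨⟨x, hx⟩ * ⟨s * x⁻¹ * s⁻¹, hxs⟩, ?_, ?_⟩
    · change l' _ = 1
      rw [map_mul]
      have h5 : l' ⟨s * x⁻¹ * s⁻¹, hxs⟩ = l' ⟨x⁻¹, V.inv_mem hx⟩ := by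
        have h6 := DFunLike.congr_fun (hQfix s⁻¹ (Q.inv_mem hs)) ⟨x⁻¹, V.inv_mem hx⟩
        rw [act_apply] at h6
        rw [← h6]
        have h7 : (MulAut.conjNormal s⁻¹⁻¹) (⟨x⁻¹, V.inv_mem hx⟩ : V) = ⟨s * x⁻¹ * s⁻¹, hxs⟩ := by
          apply Subtype.ext
          rw [MulAut.conjNormal_apply]
          simp
        rw [h7]
      rw [h5, ← map_mul]
      have : (⟨x, hx⟩ * ⟨x⁻¹, V.inv_mem hx⟩ : V) = 1 := Subtype.ext (mul_inv_cancel x)
      rw [this, map_one]
    · simp [commutatorElement_def, mul_assoc]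
  have hl1 : l' = 1 := by
    apply MonoidHom.ext
    intro x
    obtain ⟨y, hy, hyx⟩ := (hcomm.trans hK) x.2
    have h8 : y = x := Subtype.ext hyx
    rw [← h8]
    have h6 : l' y = 1 := hy
    rw [h6]; rfl
  have hl2 : l = 1 := by
    have h9 : act (t : S)⁻¹ l' = l := by rw [hl', ← act_mul, inv_mul_cancel, act_one]
    rw [← h9, hl1, act_triv]
  exact hl hl2

end stab

/-- intermediate subgroups of prime index -/
lemma between {S : Type*} [Group S] [Finite S] {P K T : Subgroup S} {q : ℕ} (hq : q.Prime)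
    (hPK : P ≤ K) (hKT : K ≤ T) (hc : Nat.card T = Nat.card P * q) : K = P ∨ T ≤ K := by
  obtain ⟨a, ha⟩ := Subgroup.card_dvd_of_le hPK
  obtain ⟨b, hb⟩ := Subgroup.card_dvd_of_le hKT
  rw [hc, ha, mul_assoc] at hb
  have h1 : q = a * b := Nat.eq_of_mul_eq_mul_left Nat.card_pos hb
  rcases (Nat.dvd_prime hq).mp ⟨b, h1⟩ with h2 | h2
  · left
    rw [h2, mul_one] at ha
    exact (Subgroup.eq_of_le_of_card_ge hPK ha.le).symm
  · right
    have h3 : Nat.card K = Nat.card T := by rw [ha, hc, h2]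
    exact (Subgroup.eq_of_le_of_card_ge hKT h3.ge).ge

section weights

variable {S : Type*} [Group S] [Finite S] {V : Subgroup S} [V.Normal] [Fintype V]
variable {F : Type*} [Field F] [Algebra (ZMod 2) F]
variable {E : Type*} [AddCommGroup E] [Module (ZMod 2) E]
variable (ρ : Representation (ZMod 2) S E)

lemma wt_one (hfix : ∀ v : E, (∀ x ∈ V, ρ x v = v) → v = 0) (φ : F →ₗ[ZMod 2] E)
    (hφ : wt ρ (1 : V →* Fˣ) φ) : φ = 0 := by
  ext b
  rw [LinearMap.zero_apply]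
  apply hfix
  intro x hx
  have := hφ ⟨x, hx⟩ b
  simpa using this

open scoped IsMulCommutative in
lemma exists_wt [IsMulCommutative V] (hV : Odd (Fintype.card V)) [Finite F]
    [HasEnoughRootsOfUnity F (Monoid.exponent V)] [Nontrivial E] :
    ∃ l : V →* Fˣ, ∃ φ : F →ₗ[ZMod 2] E, φ ≠ 0 ∧ wt ρ l φ := by
  classical
  haveI : Finite (V →* Fˣ) := Finite.of_injective (fun f => (f : V → Fˣ)) DFunLike.coe_injective
  haveI : Fintype (V →* Fˣ) := Fintype.ofFinite _
  obtain ⟨e, he⟩ := exists_ne (0 : E)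
  haveI : Fact (Nat.Prime 2) := ⟨Nat.prime_two⟩
  obtain ⟨f, hf⟩ := LinearMap.exists_leftInverse_of_injective
    (LinearMap.toSpanSingleton (ZMod 2) F (1 : F))
    (LinearMap.ker_toSpanSingleton (ZMod 2) (one_ne_zero (α := F)))
  have hf1 : f 1 = 1 := by
    have := LinearMap.congr_fun hf 1
    simpa using this
  have hφ0 : f.smulRight e ≠ 0 := by
    intro h
    have h2 := LinearMap.congr_fun h 1
    rw [LinearMap.smulRight_apply, hf1, one_smul, LinearMap.zero_apply] at h2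
    exact he h2
  have h1 := sum_pr ρ hV (f.smulRight e)
  have h2 : ∃ l : V →* Fˣ, pr ρ l (f.smulRight e) ≠ 0 := by
    by_contra hcon
    push Not at hcon
    apply hφ0
    rw [← h1]
    exact Finset.sum_eq_zero fun l _ => hcon l
  obtain ⟨l, hl⟩ := h2
  exact ⟨l, _, hl, pr_mem ρ l _⟩

/-- the fixed space of a subgroup -/
def fx (P : Subgroup S) : Submodule (ZMod 2) E where
  carrier := {v | ∀ s ∈ P, ρ s v = v}
  zero_mem' := fun s _ => map_zero _
  add_mem' := fun {a b} ha hb s hs => by rw [map_add, ha s hs, hb s hs]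
  smul_mem' := fun c v hv s hs => by rw [map_smul, hv s hs]

lemma hle [Finite E] (P : Subgroup S) {n : ℕ} (b : Module.Basis (Fin n) (ZMod 2) F) :
    Nat.card {φ : F →ₗ[ZMod 2] E // ∀ g ∈ P, (ρ g) ∘ₗ φ = φ} ≤ Nat.card (fx ρ P) ^ n := by
  let g : {φ : F →ₗ[ZMod 2] E // ∀ g ∈ P, (ρ g) ∘ₗ φ = φ} → (Fin n → fx ρ P) := fun φ i =>
    ⟨φ.1 (b i), fun s hs => LinearMap.congr_fun (φ.2 s hs) (b i)⟩
  have hg : Function.Injective g := by
    intro φ ψ h
    apply Subtype.ext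
    apply b.ext
    intro i
    exact congrArg Subtype.val (congrFun h i)
  have := Nat.card_le_card_of_injective g hg
  rwa [Nat.card_fun, Nat.card_eq_fintype_card (α := Fin n), Fintype.card_fin] at this

open scoped IsMulCommutative in
lemma hbound [IsMulCommutative V] (hV : Odd (Fintype.card V)) [Finite F] [Finite E]
    [HasEnoughRootsOfUnity F (Monoid.exponent V)] {n : ℕ} (hn0 : n ≠ 0)
    (b : Module.Basis (Fin n) (ZMod 2) F) (hF : Nat.card F = 2 ^ n)
    (P T : Subgroup S) (hP : IsPGroup 2 P) (l : V →* Fˣ)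
    {φ : F →ₗ[ZMod 2] E} (hφ0 : φ ≠ 0) (hφ : wt ρ l φ) (k : ℕ) (c : Fin k → (V →* Fˣ))
    (hc : ∀ i, ∃ t ∈ T, act t l = c i)
    (hcd : ∀ i j, i ≠ j → ∀ g ∈ P, act g (c i) ≠ c j) : 2 ^ k ≤ Nat.card (fx ρ P) := by
  have h1 := card_fixed ρ hV P hP (fun i : Fin k => {m | ∃ g ∈ P, act g (c i) = m})
    (by
      rintro i g hg _ ⟨h, hh, rfl⟩
      exact ⟨g * h, P.mul_mem hg hh, act_mul _ _ _⟩)
    (by
      rintro i j hij _ ⟨h, hh, rfl⟩ ⟨h', hh', he⟩
      apply hcd i j hij (h'⁻¹ * h) (P.mul_mem (P.inv_mem hh') hh)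
      rw [act_mul, ← he, ← act_mul, inv_mul_cancel, act_one])
    (by
      intro i
      refine ⟨c i, ⟨1, P.one_mem, act_one _⟩, ?_⟩
      obtain ⟨t, _, ht⟩ := hc i
      rw [← ht]
      exact ⟨_, comp_ne_zero ρ hφ0 t, wt_act ρ hφ t⟩)
  rw [Fintype.card_fin, hF, ← pow_mul, mul_comm, pow_mul] at h1
  exact (Nat.pow_le_pow_iff_left hn0).mp (h1.trans (hle ρ P b))

end weights

section inv

variable {S : Type*} [Group S] [Finite S] {E : Type*} [AddCommGroup E] [Module (ZMod 2) E]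
variable (ρ : Representation (ZMod 2) S E)

lemma inv_apply (x : S) (v : E) : ρ x⁻¹ (ρ x v) = v := by
  rw [← Module.End.mul_apply, ← map_mul, inv_mul_cancel, map_one]
  rfl

lemma fx_inv [Finite E] (P Q : Subgroup S) (hcon : ∀ x ∈ Q, ∀ v ∈ fx ρ P, ρ x v ∈ fx ρ P) :
    ∀ t ∈ P ⊔ Q, ∀ v ∈ fx ρ P, ρ t v ∈ fx ρ P := by
  intro t ht
  have h1 : t ∈ Subgroup.closure ((P : Set S) ∪ Q) := by
    rw [← Subgroup.sup_eq_closure]
    exact ht
  refine Subgroup.closure_induction (p := fun t _ => ∀ v ∈ fx ρ P, ρ t v ∈ fx ρ P)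
    ?_ ?_ ?_ ?_ h1
  · rintro x (hx | hx) v hv
    · rw [hv x hx]; exact hv
    · exact hcon x hx v hv
  · intro v hv
    rw [map_one]
    exact hv
  · intro x y _ _ hx hy v hv
    rw [map_mul, Module.End.mul_apply]
    exact hx _ (hy v hv)
  · intro x _ hx v hv
    have h3 : Function.Injective (fun w : fx ρ P => (⟨ρ x w, hx w w.2⟩ : fx ρ P)) := by
      intro a b hab
      apply Subtype.ext
      have h4 := congrArg Subtype.val hab
      have h5 : ρ x⁻¹ (ρ x (a : E)) = ρ x⁻¹ (ρ x (b : E)) := congrArg _ h4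
      rwa [inv_apply, inv_apply] at h5
    obtain ⟨w, hw⟩ := (Finite.surjective_of_injective h3) ⟨v, hv⟩
    have h6 : ρ x (w : E) = v := congrArg Subtype.val hw
    rw [← h6, inv_apply]
    exact w.2

/-- the subgroup of `T` acting trivially on the fixed space of `P` -/
def kr (P T : Subgroup S) : Subgroup S where
  carrier := {g | g ∈ T ∧ ∀ v ∈ fx ρ P, ρ g v = v}
  one_mem' := ⟨T.one_mem, fun v _ => by rw [map_one]; rfl⟩
  mul_mem' := fun {a b} ha hb => ⟨T.mul_mem ha.1 hb.1, fun v hv => by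
    rw [map_mul, Module.End.mul_apply, hb.2 v hv, ha.2 v hv]⟩
  inv_mem' := fun {a} ha => ⟨T.inv_mem ha.1, fun v hv => by
    have h1 := inv_apply ρ a v
    rwa [ha.2 v hv] at h1⟩

lemma kr_conj (P T : Subgroup S) (hT : ∀ t ∈ T, ∀ v ∈ fx ρ P, ρ t v ∈ fx ρ P) :
    ∀ t ∈ T, ∀ g ∈ kr ρ P T, t * g * t⁻¹ ∈ kr ρ P T := by
  intro t ht g hg
  refine ⟨T.mul_mem (T.mul_mem ht hg.1) (T.inv_mem ht), fun v hv => ?_⟩
  rw [map_mul, map_mul, Module.End.mul_apply, Module.End.mul_apply,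
    hg.2 _ (hT t⁻¹ (T.inv_mem ht) v hv)]
  have := inv_apply ρ t⁻¹ v
  rwa [inv_inv] at this

end inv

section mainthm

variable {S : Type*} [Group S] [Finite S] {V : Subgroup S} [V.Normal] [Fintype V]
variable {F : Type*} [Field F] [Algebra (ZMod 2) F]
variable {E : Type*} [AddCommGroup E] [Module (ZMod 2) E]
variable (ρ : Representation (ZMod 2) S E)

open scoped IsMulCommutative in
theorem core [IsMulCommutative V] (hV : Odd (Fintype.card V)) [Finite F] [Finite E] [Nontrivial E]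
    [HasEnoughRootsOfUnity F (Monoid.exponent V)] {n : ℕ} (hn0 : n ≠ 0)
    (b : Module.Basis (Fin n) (ZMod 2) F) (hF : Nat.card F = 2 ^ n)
    (P Q : Subgroup S) (hP : IsPGroup 2 P)
    {q : ℕ} (hq : q.Prime) (hq2 : q ≠ 2) (hQ : Nat.card Q = q)
    (hPQ : Nat.card ↥(P ⊔ Q) = Nat.card P * Nat.card Q)
    (hcomm : V ≤ ⁅V, Q⁆)
    (hfix : ∀ v : E, (∀ x ∈ V, ρ x v = v) → v = 0) :
    8 ≤ Nat.card (fx ρ P) ∨
      (Nat.card (fx ρ P) = 4 ∧ ∃ x ∈ Q, ∃ v ∈ fx ρ P, ρ x v ∉ fx ρ P) := by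
  classical
  haveI : Fact (Nat.Prime 2) := ⟨Nat.prime_two⟩
  letI : MulAction S (V →* Fˣ) := actInst S V Fˣ
  have hsm : ∀ (g : S) (l : V →* Fˣ), g • l = act g l := fun _ _ => rfl
  obtain ⟨l, φ, hφ0, hφ⟩ := exists_wt (F := F) ρ hV
  have hl1 : l ≠ 1 := by
    rintro rfl
    exact hφ0 (wt_one ρ hfix φ hφ)
  set T : Subgroup S := P ⊔ Q with hT
  have hPT : P ≤ T := le_sup_left
  have hQT : Q ≤ T := le_sup_right
  rw [hQ] at hPQ
  have hqT : q ∣ Nat.card T := ⟨Nat.card P, by rw [hPQ, mul_comm]⟩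
  have hqP : ¬ q ∣ Nat.card P := by
    obtain ⟨k, hk⟩ := IsPGroup.iff_card.mp hP
    rw [hk]
    intro h
    exact hq2 ((Nat.prime_dvd_prime_iff_eq hq Nat.prime_two).mp (hq.dvd_of_dvd_pow h))
  have hfac : (Nat.card T).factorization q = 1 := by
    rw [hPQ, Nat.factorization_mul Nat.card_pos.ne' hq.ne_zero, Finsupp.add_apply,
      Nat.factorization_eq_zero_of_not_dvd hqP, hq.factorization_self]
  have hst : ¬ q ∣ Nat.card (MulAction.stabilizer T l) := by
    intro hdv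
    haveI : Fact q.Prime := ⟨hq⟩
    obtain ⟨z, hz⟩ := exists_prime_orderOf_dvd_card' q hdv
    have hzT : orderOf ((z : T)) = q := by rw [Subgroup.orderOf_coe]; exact hz
    exact stab_aux hq hQ T hQT hfac hcomm l hl1 z z.2 hzT
  -- translation of orbit statements
  have horT : ∀ m, m ∈ MulAction.orbit T l → ∃ t ∈ T, act t l = m := by
    rintro _ ⟨t, rfl⟩
    exact ⟨t, t.2, rfl⟩
  have horP : ∀ a b : V →* Fˣ, b ∉ MulAction.orbit P a → ∀ g ∈ P, act g a ≠ b := by
    intro a b hab g hg h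
    exact hab ⟨⟨g, hg⟩, h⟩
  have hsymm : ∀ a b : V →* Fˣ, a ∉ MulAction.orbit P b → b ∉ MulAction.orbit P a := by
    intro a b hab hba
    exact hab (MulAction.mem_orbit_symm.mp hba)
  have hself : ∃ t ∈ T, act t l = l := ⟨1, T.one_mem, act_one l⟩
  obtain ⟨m, hm, hm'⟩ := orbits_two hPT hP hq hq2 hst hqT
  have h4 : 2 ^ 2 ≤ Nat.card (fx ρ P) := by
    refine hbound ρ hV hn0 b hF P T hP l hφ0 hφ 2 ![l, m] ?_ ?_
    · intro i
      fin_cases i
      · exact hself
      · exact horT _ hm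
    · intro i j hij
      fin_cases i <;> fin_cases j
      · exact absurd rfl hij
      · exact horP _ _ hm'
      · exact horP _ _ (hsymm _ _ hm')
      · exact absurd rfl hij
  by_cases h8 : 8 ≤ Nat.card (fx ρ P)
  · exact Or.inl h8
  right
  have hcard4 : Nat.card (fx ρ P) = 4 := by
    have h1 := Module.natCard_eq_pow_finrank (K := ZMod 2) (V := fx ρ P)
    rw [Nat.card_zmod] at h1
    rw [h1] at h4 h8 ⊢
    set r := Module.finrank (ZMod 2) (fx ρ P)
    have h2 : 2 ≤ r := (Nat.pow_le_pow_iff_right (by norm_num)).mp h4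
    have h3 : r < 3 := by
      by_contra hcon
      exact h8 (Nat.pow_le_pow_right (by norm_num) (not_lt.mp hcon) : 2 ^ 3 ≤ 2 ^ r)
    interval_cases r
    rfl
  refine ⟨hcard4, ?_⟩
  by_contra hcon
  push Not at hcon
  have hTinv : ∀ t ∈ T, ∀ v ∈ fx ρ P, ρ t v ∈ fx ρ P := fx_inv ρ P Q hcon
  have hPK : P ≤ kr ρ P T := fun g hg => ⟨hPT hg, fun v hv => hv g hg⟩
  have hKT : kr ρ P T ≤ T := fun g hg => hg.1
  rcases between hq hPK hKT hPQ with h1 | h1
  · -- `K = P`
    obtain ⟨m₁, hm₁, m₂, hm₂, ha, hb, hc⟩ := orbits_three hPT hP hq hq2 hst hqT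
      (by rw [← h1]; exact kr_conj ρ P T hTinv)
    have h8' : 2 ^ 3 ≤ Nat.card (fx ρ P) := by
      refine hbound ρ hV hn0 b hF P T hP l hφ0 hφ 3 ![l, m₁, m₂] ?_ ?_
      · intro i
        fin_cases i
        · exact hself
        · exact horT _ hm₁
        · exact horT _ hm₂
      · intro i j hij
        fin_cases i <;> fin_cases j
        · exact absurd rfl hij
        · exact horP _ _ ha
        · exact horP _ _ hb
        · exact horP _ _ (hsymm _ _ ha)
        · exact absurd rfl hij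
        · exact horP _ _ hc
        · exact horP _ _ (hsymm _ _ hb)
        · exact horP _ _ (hsymm _ _ hc)
        · exact absurd rfl hij
    exact h8 h8'
  · -- `K = T`
    obtain ⟨m', hm1, hm2⟩ := exists_orbit_le ρ hV P T hP {x | ∃ g ∈ P, act g l = x}
      (by
        rintro g hg _ ⟨h, hh, rfl⟩
        exact ⟨g * h, P.mul_mem hg hh, act_mul _ _ _⟩)
      ⟨l, ⟨1, P.one_mem, act_one l⟩, φ, hφ0, hφ⟩
      (by
        intro ψ hψ g hg
        ext b
        rw [LinearMap.comp_apply]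
        exact (h1 hg).2 _ (fun s hs => LinearMap.congr_fun (hψ s hs) b))
    obtain ⟨g, hg, hgm⟩ := hm1
    obtain ⟨t, ht, htm⟩ := horT m hm
    obtain ⟨g', hg', hgm'⟩ := hm2 (t * g⁻¹) (T.mul_mem ht (T.inv_mem (hPT hg)))
    apply horP _ _ hm' g' hg'
    rw [hgm', ← hgm, ← act_mul, inv_mul_cancel_right, htm]

end mainthm

open scoped IsMulCommutative in
theorem mainThm {S : Type*} [Group S] [Finite S] (V P Q : Subgroup S) [V.Normal]
    [IsMulCommutative V] (hVodd : Odd (Nat.card V)) (hP : IsPGroup 2 P)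
    {q : ℕ} (hq : q.Prime) (hq2 : q ≠ 2) (hQ : Nat.card Q = q)
    (hPQ : Nat.card ↥(P ⊔ Q) = Nat.card P * Nat.card Q)
    (hcomm : V ≤ ⁅V, Q⁆)
    {E : Type*} [AddCommGroup E] [Module (ZMod 2) E] [Finite E] [Nontrivial E]
    (ρ : Representation (ZMod 2) S E)
    (hfix : ∀ v : E, (∀ x ∈ V, ρ x v = v) → v = 0) :
    8 ≤ Nat.card {v : E // ∀ s ∈ P, ρ s v = v} ∨
      (Nat.card {v : E // ∀ s ∈ P, ρ s v = v} = 4 ∧
        ∃ x ∈ Q, ∃ v : E, (∀ s ∈ P, ρ s v = v) ∧ ¬ ∀ s ∈ P, ρ s (ρ x v) = ρ x v) := by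
  classical
  haveI : Fact (Nat.Prime 2) := ⟨Nat.prime_two⟩
  haveI : Fintype V := Fintype.ofFinite _
  set N : ℕ := Nat.card V with hN
  have hN0 : N ≠ 0 := Nat.card_pos.ne'
  set n : ℕ := Nat.totient N with hn
  have hn0 : n ≠ 0 := (Nat.totient_pos.mpr (Nat.pos_of_ne_zero hN0)).ne'
  have hF : Nat.card (GaloisField 2 n) = 2 ^ n := GaloisField.card 2 n hn0
  have hdvd : N ∣ Nat.card (GaloisField 2 n) - 1 := by
    rw [hF]
    have h1 : 2 ^ n ≡ 1 [MOD N] := Nat.ModEq.pow_totient (Nat.coprime_two_left.mpr hVodd)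
    exact (Nat.modEq_iff_dvd' Nat.one_le_two_pow).mp h1.symm
  haveI hE1 : HasEnoughRootsOfUnity (GaloisField 2 n) (Monoid.exponent V) := by
    refine enough Monoid.exponent_ne_zero_of_finite ?_
    exact (Group.exponent_dvd_nat_card (G := V)).trans hdvd
  obtain h | ⟨h, x, hx, v, hv, hxv⟩ := core (F := GaloisField 2 n) (V := V) ρ
    (by rw [← Nat.card_eq_fintype_card]; exact hVodd) hn0
    (Module.finBasisOfFinrankEq (ZMod 2) (GaloisField 2 n) (GaloisField.finrank 2 hn0)) hF P Q hP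
    hq hq2 hQ hPQ hcomm hfix
  · exact Or.inl h
  · exact Or.inr ⟨h, x, hx, v, hv, hxv⟩

end Cfsg.Agent.Lib.WtTwoMain
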