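import Mathlib
import Cfsg.Agent.Lib.SubgroupTools
import Cfsg.Agent.Lib.LocBase
import Cfsg.Agent.Lib.RelSylow
import Cfsg.Agent.Lib.CoprimeAction
import Cfsg.Agent.Lib.CoprimeAction2
import Cfsg.Agent.Lib.ActSemi

/-!
Coprime action on a group all of whose Sylow subgroups are cyclic (helper68).
-/

set_option autoImplicit false

namespace Cfsg.Agent.Lib.ZCoprime

open Subgroup
open scoped commutatorElement
open Cfsg.Agent.Lib.SubgroupTools Cfsg.Agent.Lib.RelSylow

variable {G : Type*} [Group G] [Finite G]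

omit [Finite G] in
/-- If the cyclic group `Z` is normalized by `H` then `⁅H, H⁆` centralizes `Z`. -/
theorem commutator_le_centralizer_of_isCyclic {Z H : Subgroup G} (hZ : IsCyclic Z)
    (hH : H ≤ normalizer (Z : Set G)) : ⁅H, H⁆ ≤ centralizer (Z : Set G) := by
  rw [Subgroup.commutator_le]
  intro a ha b hb
  obtain ⟨z, hz⟩ := isCyclic_iff_exists_zpowers_eq_top.mp hZ
  -- action on the generator
  have key : ∀ g ∈ H, ∃ n : ℤ, ∀ x ∈ Z, g * x * g⁻¹ = x ^ n := by
    intro g hg
    have h1 : g * (z : G) * g⁻¹ ∈ Z := (mem_normalizer_iff.mp (hH hg) _).mp z.2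
    have h2 : (⟨g * (z : G) * g⁻¹, h1⟩ : Z) ∈ zpowers z := by rw [hz]; trivial
    obtain ⟨n, hn⟩ := h2
    have hn' : (z : G) ^ n = g * (z : G) * g⁻¹ := congrArg Subtype.val hn
    refine ⟨n, fun x hx => ?_⟩
    have h3 : (⟨x, hx⟩ : Z) ∈ zpowers z := by rw [hz]; trivial
    obtain ⟨m, hm⟩ := h3
    have hm' : (z : G) ^ m = x := congrArg Subtype.val hm
    rw [← hm', ← conj_zpow, ← hn', ← zpow_mul, ← zpow_mul, mul_comm]
  obtain ⟨n, hn⟩ := key a ha
  obtain ⟨m, hm⟩ := key b hb
  have h1 : ∀ x ∈ Z, a * b * x * b⁻¹ * a⁻¹ = b * a * x * a⁻¹ * b⁻¹ := by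
    intro x hx
    have e1 : a * b * x * b⁻¹ * a⁻¹ = a * (b * x * b⁻¹) * a⁻¹ := by group
    have e2 : b * a * x * a⁻¹ * b⁻¹ = b * (a * x * a⁻¹) * b⁻¹ := by group
    rw [e1, e2, hm x hx, hn x hx, hn _ (Z.zpow_mem hx m), hm _ (Z.zpow_mem hx n), ← zpow_mul, ← zpow_mul,
      mul_comm]
  rw [mem_centralizer_iff]
  intro x hx
  have h2 : a⁻¹ * b⁻¹ * x * b * a ∈ Z := by
    have h3 := (mem_normalizer_iff.mp (inv_mem (hH hb)) x).mp hx
    have h4 := (mem_normalizer_iff.mp (inv_mem (hH ha)) _).mp h3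
    simpa [mul_assoc] using h4
  have h3 := h1 _ h2
  have e1 : a * b * (a⁻¹ * b⁻¹ * x * b * a) * b⁻¹ * a⁻¹ = ⁅a, b⁆ * x * ⁅a, b⁆⁻¹ := by
    rw [commutatorElement_def]; group
  have e2 : b * a * (a⁻¹ * b⁻¹ * x * b * a) * a⁻¹ * b⁻¹ = x := by group
  rw [e1, e2] at h3
  exact (mul_inv_eq_iff_eq_mul.mp h3).symm

theorem isCyclic_of_central_commutator {N : Subgroup G} [hZ : IsZGroup N]
    (h : ⁅N, N⁆ ≤ centralizer (N : Set G)) : IsCyclic N := by
  have h1 : (Abelianization.of : N →* Abelianization N).ker ≤ center N := by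
    rw [Abelianization.ker_of]
    intro x hx
    rw [mem_center_iff]
    intro y
    have h2 : (x : G) ∈ ⁅N, N⁆ := by
      rw [← Subgroup.map_subtype_commutator]; exact ⟨x, hx, rfl⟩
    exact Subtype.ext (mem_centralizer_iff.mp (h h2) y y.2)
  letI : CommGroup N := commGroupOfCyclicCenterQuotient Abelianization.of h1
  have : Group.IsNilpotent N := CommGroup.isNilpotent
  infer_instance

/-- `[K, A]` is cyclic for coprime action of `A` on the Z-group `K`. -/
theorem commutator_isCyclic {A K : Subgroup G} [hZ : IsZGroup K]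
    (hAK : A ≤ normalizer (K : Set G)) (hcop : (Nat.card A).Coprime (Nat.card K)) :
    IsCyclic ↥⁅K, A⁆ := by
  have hsolv : Group.IsSolvable A ∨ Group.IsSolvable K := Or.inr inferInstance
  set N := ⁅K, A⁆ with hN
  have hNK : N ≤ K := LocBase.commutator_le_left_of_le hAK
  have hNA : A ≤ normalizer (N : Set G) := normalizer_commutator_ge_right K A
  have hNN : ⁅N, A⁆ = N := CoprimeAction2.commutator_commutator hAK hcop hsolv
  have hZN : IsZGroup N := IsZGroup.of_injective (f := inclusion hNK) (inclusion_injective hNK)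
  have h1 : IsCyclic ↥⁅N, N⁆ := by
    have h := IsZGroup.isCyclic_commutator (G := N)
    rw [← Subgroup.map_subtype_commutator]
    exact ((commutator N).equivMapOfInjective N.subtype N.subtype_injective).isCyclic.mp h
  have h2 : N ⊔ A ≤ normalizer ((⁅N, N⁆ : Subgroup G) : Set G) := by
    apply sup_le
    · exact LocBase.le_normalizer_commutator le_normalizer le_normalizer
    · exact LocBase.le_normalizer_commutator hNA hNA
  have h3 := commutator_le_centralizer_of_isCyclic h1 h2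
  have h4 : N ≤ centralizer ((⁅N, N⁆ : Subgroup G) : Set G) :=
    (hNN.ge.trans (Subgroup.commutator_mono le_sup_left le_sup_right)).trans h3
  exact isCyclic_of_central_commutator (le_centralizer_iff.mp h4)

/-- `C_K(A) ∩ [K, A] = 1` for coprime action of `A` on the Z-group `K`. -/
theorem inf_commutator_eq_bot {A K : Subgroup G} [hZ : IsZGroup K]
    (hAK : A ≤ normalizer (K : Set G)) (hcop : (Nat.card A).Coprime (Nat.card K)) :
    ⁅K, A⁆ ⊓ centralizer (A : Set G) = ⊥ := by
  have hsolv : Group.IsSolvable A ∨ Group.IsSolvable K := Or.inr inferInstance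
  have hcyc := commutator_isCyclic hAK hcop
  have hNK : ⁅K, A⁆ ≤ K := LocBase.commutator_le_left_of_le hAK
  have hc : IsMulCommutative ↥⁅K, A⁆ :=
    ⟨⟨fun a b => (IsCyclic.commGroup (α := ↥⁅K, A⁆)).mul_comm a b⟩⟩
  have h1 := CoprimeAction2.inf_commutator_eq_bot_of_abelian (A := A) (V := ⁅K, A⁆)
    (normalizer_commutator_ge_right K A)
    (Nat.Coprime.coprime_dvd_right (card_dvd_of_le hNK) hcop)
  rw [CoprimeAction2.commutator_commutator hAK hcop hsolv] at h1
  rw [← h1]
  ext x
  simp only [mem_inf]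
  tauto

/-- `C_K(A)` is a Hall subgroup of `K`, for coprime action of `A` on the Z-group `K`. -/
theorem coprime_card {A K : Subgroup G} [hZ : IsZGroup K]
    (hAK : A ≤ normalizer (K : Set G)) (hcop : (Nat.card A).Coprime (Nat.card K)) :
    (Nat.card (K ⊓ centralizer (A : Set G) : Subgroup G)).Coprime (Nat.card ↥⁅K, A⁆) := by
  have hsolv : Group.IsSolvable A ∨ Group.IsSolvable K := Or.inr inferInstance
  have hNK : ⁅K, A⁆ ≤ K := LocBase.commutator_le_left_of_le hAK
  have hbot := inf_commutator_eq_bot hAK hcop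
  apply Nat.coprime_of_dvd
  intro p hp h1 h2
  have hpf : Fact p.Prime := ⟨hp⟩
  obtain ⟨P, hPK, hPp, hPi, hPA⟩ := CoprimeAction.exists_invariant_sylow hAK hcop hsolv p
  have hPs : IsSyl p P K := ⟨hPK, hPp, hPi⟩
  have hPc : IsCyclic P := by
    have : IsPGroup p (P.subgroupOf K) :=
      hPp.of_injective (subgroupOfEquivOfLe hPK).toMonoidHom (subgroupOfEquivOfLe hPK).injective
    have h3 := this.isCyclic_of_isZGroup
    exact (subgroupOfEquivOfLe hPK).isCyclic.mp h3
  have hcopP : (Nat.card P).Coprime (Nat.card A) :=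
    (Nat.Coprime.coprime_dvd_right (card_dvd_of_le hPK) hcop).symm
  have hPN : IsSyl p (P ⊓ ⁅K, A⁆) ⁅K, A⁆ := hPs.inf hNK (normalizer_commutator_ge_left K A)
  rcases IsPGroup.commutator_eq_bot_or_commutator_eq_self hPp hPA hcopP with h | h
  · -- `A` centralizes `P`
    have h3 : P ≤ centralizer (A : Set G) :=
      le_centralizer_iff.mp (commutator_eq_bot_iff_le_centralizer.mp h)
    have h4 : P ⊓ ⁅K, A⁆ = ⊥ := by
      rw [eq_bot_iff, ← hbot]
      exact le_inf inf_le_right (inf_le_left.trans h3)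
    have h5 := hPN.2.2
    rw [h4, relIndex_bot_left] at h5
    exact h5 h2
  · have h3 : P ≤ ⁅K, A⁆ := by
      rw [← h, Subgroup.commutator_comm]
      exact Subgroup.commutator_mono hPK le_rfl
    -- the centralizer contains an element of order `p`
    obtain ⟨x, hx⟩ := exists_prime_orderOf_dvd_card' p h1
    have hxp : IsPGroup p (zpowers (x : G)) :=
      IsPGroup.of_card (n := 1) (by rw [Nat.card_zpowers, Subgroup.orderOf_coe, hx, pow_one])
    obtain ⟨k, hk, hle⟩ := hPs.exists_conj_le hxp (zpowers_le.mpr x.2.1)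
    have h4 : (x : G) ∈ ⁅K, A⁆ := by
      have h5 := (map_mono (f := (MulAut.conj k).toMonoidHom) h3) (hle (mem_zpowers _))
      rwa [conj_eq_of_mem_normalizer (normalizer_commutator_ge_left K A hk)] at h5
    have h5 : (x : G) ∈ ⁅K, A⁆ ⊓ centralizer (A : Set G) := ⟨h4, x.2.2⟩
    rw [hbot, mem_bot] at h5
    have h6 : orderOf (x : G) = p := by rw [Subgroup.orderOf_coe, hx]
    rw [h5, orderOf_one] at h6
    exact hp.one_lt.ne h6

end Cfsg.Agent.Lib.ZCoprime
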