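import Cfsg.Agent.Lib.ZStar
import Cfsg.Agent.Lib.OddInv
import Cfsg.Agent.Lib.CoprimeAction
import Cfsg.Agent.Lib.Cores

/-!
# A `Z*`-type theorem for an odd prime (helper80)
-/

set_option autoImplicit false
set_option linter.all false

namespace Cfsg.Agent.Lib.ZStarP

open Cfsg Cfsg.Agent.Lib.Involutions Cfsg.Agent.Lib.ZStar

universe u

variable {G : Type u} [Group G]

theorem invertedBy_mono {X Y : Subgroup G} (h : X ≤ Y) (t : G) : invertedBy X t ⊆ invertedBy Y t :=
  fun _ hx => ⟨h hx.1, hx.2⟩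

/-- If an involution `d` acts on a subgroup `N` of odd order and inverts only `p`-elements of `N`
then all these elements lie in one `p`-subgroup of `N`. -/
theorem exists_pGroup_of_inverted [Finite G] {p : ℕ} [Fact p.Prime] (d : G)
    (hd : orderOf d = 2) (N : Subgroup G) (hN : Odd (Nat.card N)) (hnorm : ∀ x ∈ N, d * x * d⁻¹ ∈ N)
    (hI : ∀ x ∈ invertedBy N d, ∃ k, orderOf x = p ^ k) :
    ∃ P : Subgroup G, P ≤ N ∧ IsPGroup p P ∧ ∀ x ∈ invertedBy N d, x ∈ P := by
  have hdd := mul_self hd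
  have hcardN := OddInv.card_eq_mul d hdd N hN hnorm
  set C := N ⊓ Subgroup.centralizer {d} with hC
  have hA : Subgroup.zpowers d ≤ Subgroup.normalizer (N : Set G) := by
    rw [Subgroup.zpowers_le, Subgroup.mem_normalizer_iff]
    intro x
    refine ⟨fun h => hnorm x h, fun h => ?_⟩
    have h1 := hnorm _ h
    have e : d * (d * x * d⁻¹) * d⁻¹ = x := by
      calc d * (d * x * d⁻¹) * d⁻¹ = (d * d) * x * (d * d)⁻¹ := by group
        _ = x := by rw [hdd]; group
    rwa [e] at h1
  have hcop : (Nat.card (Subgroup.zpowers d)).Coprime (Nat.card N) := by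
    rw [Nat.card_zpowers, hd]
    exact (Nat.coprime_two_left).2 hN
  have hsolv : Group.IsSolvable (Subgroup.zpowers d) ∨ Group.IsSolvable N := by
    left
    infer_instance
  have hNpos : 0 < Nat.card N := Nat.card_pos
  have hIpos : 0 < Nat.card (invertedBy N d) := by
    rcases Nat.eq_zero_or_pos (Nat.card (invertedBy N d)) with h | h
    · rw [h, mul_zero] at hcardN
      omega
    · exact h
  -- primes different from `p` do not divide `|I|`
  have hq : ∀ q : ℕ, q.Prime → q ∣ Nat.card (invertedBy N d) → q = p := by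
    intro q hq hdvd
    by_contra hqp
    haveI : Fact q.Prime := ⟨hq⟩
    obtain ⟨Q, hQN, hQq, hQi, hQA⟩ := CoprimeAction.exists_invariant_sylow hA hcop hsolv q
    have hQodd : Odd (Nat.card Q) := Odd.of_dvd_nat hN (Subgroup.card_dvd_of_le hQN)
    have hQnorm : ∀ x ∈ Q, d * x * d⁻¹ ∈ Q := by
      intro x hx
      have h1 := hQA (Subgroup.mem_zpowers d)
      rw [Subgroup.mem_normalizer_iff] at h1
      exact (h1 x).1 hx
    have h2 := OddInv.card_eq_mul d hdd Q hQodd hQnorm
    have h3 : invertedBy Q d = {1} := by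
      ext x
      constructor
      · intro hx
        obtain ⟨k, hk⟩ := hI x (invertedBy_mono hQN d hx)
        obtain ⟨j, hj⟩ := (IsPGroup.iff_orderOf.1 hQq) ⟨x, hx.1⟩
        rw [Subgroup.orderOf_mk] at hj
        have h4 : Nat.Coprime (p ^ k) (q ^ j) :=
          Nat.Coprime.pow _ _ ((Nat.coprime_primes Fact.out hq).2 (Ne.symm hqp))
        rw [← hk, ← hj, Nat.coprime_self, orderOf_eq_one_iff] at h4
        exact h4
      · intro hx
        rw [Set.mem_singleton_iff] at hx
        subst hx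
        exact ⟨Q.one_mem, by simp⟩
    have h4 : Nat.card (invertedBy Q d) = 1 := by rw [h3]; simp
    rw [h4, mul_one] at h2
    have h5 : Q ≤ C := by
      have h6 : Q ⊓ Subgroup.centralizer {d} = Q :=
        Subgroup.eq_of_le_of_card_ge inf_le_left h2.le
      rw [← h6]
      exact inf_le_inf_right _ hQN
    have h7 := Cores.card_mul_relIndex hQN
    have h8 := Cores.card_mul_relIndex h5
    rw [hcardN, ← h8, mul_assoc] at h7
    have h9 : Q.relIndex N = Q.relIndex C * Nat.card (invertedBy N d) :=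
      Nat.eq_of_mul_eq_mul_left Nat.card_pos h7
    exact hQi (h9 ▸ Dvd.dvd.mul_left hdvd _)
  obtain ⟨P, hPN, hPp, hPi, hPA⟩ := CoprimeAction.exists_invariant_sylow hA hcop hsolv p
  refine ⟨P, hPN, hPp, ?_⟩
  have hPodd : Odd (Nat.card P) := Odd.of_dvd_nat hN (Subgroup.card_dvd_of_le hPN)
  have hPnorm : ∀ x ∈ P, d * x * d⁻¹ ∈ P := by
    intro x hx
    have h1 := hPA (Subgroup.mem_zpowers d)
    rw [Subgroup.mem_normalizer_iff] at h1
    exact (h1 x).1 hx
  have hcardP := OddInv.card_eq_mul d hdd P hPodd hPnorm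
  have hPN' := Cores.card_mul_relIndex hPN
  have hp : p.Prime := Fact.out
  -- `|I|` is a `p`-power
  obtain ⟨i, hi⟩ : ∃ i, Nat.card (invertedBy N d) = p ^ i :=
    ⟨_, Nat.eq_prime_pow_of_unique_prime_dvd (p := p) hIpos.ne' (fun {q} hq1 hq2 => hq q hq1 hq2)⟩
  obtain ⟨a, ha⟩ := (IsPGroup.iff_card).1 hPp
  obtain ⟨c, hc⟩ := (IsPGroup.iff_card).1 (hPp.to_le (inf_le_left : P ⊓ Subgroup.centralizer {d} ≤ P))
  have hle : p ^ i ≤ Nat.card (invertedBy P d) := by
    have h1 : P ⊓ Subgroup.centralizer {d} ≤ C := inf_le_inf_right _ hPN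
    have h2 := Subgroup.card_dvd_of_le h1
    have h3 : p ^ c * p ^ i ∣ Nat.card P * P.relIndex N := by
      rw [hPN', hcardN, hi]
      exact Nat.mul_dvd_mul_right (hc ▸ h2) _
    have h4 : p ^ (c + i) ∣ Nat.card P := by
      rw [pow_add]
      apply Nat.Coprime.dvd_of_dvd_mul_right _ h3
      rw [← pow_add]
      exact Nat.Coprime.pow_left _ ((Nat.Prime.coprime_iff_not_dvd hp).2 hPi)
    have h5 := Nat.le_of_dvd Nat.card_pos h4
    rw [hcardP, hc, pow_add] at h5
    exact Nat.le_of_mul_le_mul_left h5 (pow_pos hp.pos _)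
  have heq : invertedBy P d = invertedBy N d := by
    apply Set.eq_of_subset_of_ncard_le (invertedBy_mono hPN d)
    · rw [← Nat.card_coe_set_eq, ← Nat.card_coe_set_eq, hi]
      exact hle
  intro x hx
  rw [← heq] at hx
  exact hx.1

/-- The `Z*`-type theorem for an odd prime, given `d ∈ Z*`. -/
theorem mul_mem_pCore [Finite G] {p : ℕ} (hp : p.Prime) (hp2 : p ≠ 2) (d : G) (hd : orderOf d = 2)
    (hprod : ∀ a ∈ conjugatesOf d, ∀ b ∈ conjugatesOf d, ∃ k : ℕ, orderOf (a * b) = p ^ k)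
    (hZ : InZStar 2 d) :
    ∀ a ∈ conjugatesOf d, ∀ b ∈ conjugatesOf d, a * b ∈ Cfsg.pCore p G := by
  haveI : Fact p.Prime := ⟨hp⟩
  have hdd := mul_self hd
  have hdi := inv_self hd
  have hconj : ∀ g : G, g * d * g⁻¹ ∈ conjugatesOf d := fun g => isConj_iff.2 ⟨g, rfl⟩
  have hN : Odd (Nat.card (pPrimeCore 2 G)) :=
    Nat.coprime_two_right.1 (Cores.coprime_card_pPrimeCore 2 G)
  have hnormal : (pPrimeCore 2 G).Normal := pPrimeCore_normal 2 G
  obtain ⟨P, hPN, hPp, hP⟩ := exists_pGroup_of_inverted (p := p) d hd (pPrimeCore 2 G) hN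
    (fun x hx => hnormal.conj_mem x hx d) (by
      intro x hx
      -- `x d x⁻¹ d = x * x`
      have h1 : x * d * x⁻¹ * d = x * x := by
        have h2 : x⁻¹ * d = d * x := by
          have := hx.2
          calc x⁻¹ * d = (d * x * d⁻¹) * d := by rw [this]
            _ = d * x := by group
        calc x * d * x⁻¹ * d = x * d * (x⁻¹ * d) := by group
          _ = x * (d * d) * x := by rw [h2]; group
          _ = x * x := by rw [hdd, mul_one]
      obtain ⟨k, hk⟩ := hprod _ (hconj x) d (mem_conjugatesOf_self)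
      rw [h1] at hk
      refine ⟨k, ?_⟩
      rw [← hk]
      have hox : Odd (orderOf x) := OddInv.odd_orderOf_of_mem hN hx.1
      rw [← pow_two]
      exact (Nat.Coprime.orderOf_pow (Nat.coprime_two_right.2 hox)).symm)
  -- the closure of all `g d g⁻¹ d`
  set T := Subgroup.closure {x : G | ∃ g : G, x = g * d * g⁻¹ * d} with hT
  have hTP : T ≤ P := by
    rw [hT, Subgroup.closure_le]
    rintro x ⟨g, rfl⟩
    apply hP
    refine ⟨?_, ?_⟩
    · have := hZ g
      rwa [hdi] at this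
    · rw [hdi, mul_inv_rev, mul_inv_rev, mul_inv_rev, inv_inv, hdi]
      calc d * (g * d * g⁻¹ * d) * d = d * (g * d * g⁻¹) * (d * d) := by group
        _ = d * (g * (d * g⁻¹)) := by rw [hdd]; group
  have hTn : T.Normal := by
    refine ⟨fun x hx k => ?_⟩
    rw [hT] at hx
    induction hx using Subgroup.closure_induction with
    | mem x hx =>
      obtain ⟨g, rfl⟩ := hx
      have e : k * (g * d * g⁻¹ * d) * k⁻¹ = ((k * g) * d * (k * g)⁻¹ * d) * (k * d * k⁻¹ * d)⁻¹ := by
        rw [mul_inv_rev (k * d * k⁻¹), mul_inv_rev (k * d), inv_inv, mul_inv_rev k d, hdi]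
        calc k * (g * d * g⁻¹ * d) * k⁻¹ = (k * g) * d * (k * g)⁻¹ * (k * (d * k⁻¹)) := by group
          _ = (k * g) * d * (k * g)⁻¹ * ((d * d) * (k * (d * k⁻¹))) := by rw [hdd, one_mul]
          _ = _ := by group
      rw [e]
      exact T.mul_mem (Subgroup.subset_closure ⟨_, rfl⟩) (T.inv_mem (Subgroup.subset_closure ⟨_, rfl⟩))
    | one => simpa using T.one_mem
    | mul x y _ _ hx hy =>
      have e : k * (x * y) * k⁻¹ = (k * x * k⁻¹) * (k * y * k⁻¹) := by group
      rw [e]
      exact T.mul_mem hx hy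
    | inv x _ hx =>
      have e : k * x⁻¹ * k⁻¹ = (k * x * k⁻¹)⁻¹ := by group
      rw [e]
      exact T.inv_mem hx
  have hTp : IsPGroup p T := hPp.to_le hTP
  have hTc := Cores.le_pCore hTn hTp
  intro a ha b hb
  obtain ⟨g, rfl⟩ := isConj_iff.1 ha
  obtain ⟨h, rfl⟩ := isConj_iff.1 hb
  apply hTc
  have e : (g * d * g⁻¹) * (h * d * h⁻¹) = (g * d * g⁻¹ * d) * (h * d * h⁻¹ * d)⁻¹ := by
    rw [mul_inv_rev (h * d * h⁻¹), mul_inv_rev (h * d), inv_inv, mul_inv_rev h d, hdi]
    calc (g * d * g⁻¹) * (h * d * h⁻¹) = (g * d * g⁻¹) * ((d * d) * (h * (d * h⁻¹))) := by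
          rw [hdd, one_mul]; group
      _ = _ := by group
  rw [e]
  exact T.mul_mem (Subgroup.subset_closure ⟨g, rfl⟩) (T.inv_mem (Subgroup.subset_closure ⟨h, rfl⟩))

end Cfsg.Agent.Lib.ZStarP
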